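import Cfsg.Statements.S0086
set_option linter.all false
-- import your own Cfsg.Agent.* helpers here

set_option autoImplicit false
open Cfsg

namespace Cfsg.Agent.S0086

/-- A normal complement to a Sylow p-subgroup is exactly the set of elements of order prime to p. -/
theorem result {G : Type*} [Group G] [Finite G] {p : ℕ} [Fact p.Prime] (P : Sylow p G) (N : Subgroup G) [N.Normal] (hN : N.IsComplement' (P : Subgroup G)) (x : G) : x ∈ N ↔ Nat.Coprime (orderOf x) p := by
  have hcard : Nat.card N = (P : Subgroup G).index := hN.index_eq_card.symm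
  have hindex : N.index = Nat.card P := hN.symm.index_eq_card
  obtain ⟨k, hk⟩ := (IsPGroup.iff_card (p := p) (G := P)).mp P.2
  constructor
  · intro hx
    have h1 : orderOf x ∣ Nat.card N := by
      have := orderOf_dvd_natCard (⟨x, hx⟩ : N)
      rwa [← Subgroup.orderOf_coe] at this
    rw [hcard] at h1
    exact Nat.Coprime.coprime_dvd_left h1
      (((Fact.out : p.Prime).coprime_iff_not_dvd.mpr P.not_dvd_index).symm)
  · intro hx
    have h1 : orderOf (QuotientGroup.mk' N x) ∣ p ^ k := by
      rw [← hk, ← hindex, Subgroup.index]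
      exact orderOf_dvd_natCard _
    have h2 : orderOf (QuotientGroup.mk' N x) ∣ orderOf x := orderOf_map_dvd _ _
    have h3 : orderOf (QuotientGroup.mk' N x) = 1 :=
      Nat.eq_one_of_dvd_coprimes (hx.pow_right k) h2 h1
    rw [orderOf_eq_one_iff] at h3
    exact (QuotientGroup.eq_one_iff x).mp h3

end Cfsg.Agent.S0086
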