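import Cfsg.Statements.S0048
import Mathlib
set_option linter.all false

set_option autoImplicit false
open Cfsg

namespace Cfsg.Agent.S0048

/-- A nontrivial finite solvable group has a nontrivial normal `p`-subgroup for some prime `p`. -/
theorem exists_normal_pSubgroup {Q : Type*} [Group Q] [Finite Q] [Group.IsSolvable Q]
    [Nontrivial Q] : ∃ (p : ℕ) (_ : p.Prime) (P : Subgroup Q), P.Normal ∧ IsPGroup p P ∧ P ≠ ⊥ := by
  classical
  obtain ⟨n, hn⟩ := (inferInstance : Group.IsSolvable Q).solvable
  have h0 : derivedSeries Q 0 ≠ ⊥ := by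
    rw [derivedSeries_zero]; exact top_ne_bot
  -- last nontrivial term
  obtain ⟨m, hm1, hm2⟩ : ∃ m, derivedSeries Q m ≠ ⊥ ∧ derivedSeries Q (m + 1) = ⊥ := by
    by_contra hcon
    push Not at hcon
    have : ∀ k, derivedSeries Q k ≠ ⊥ := by
      intro k
      induction k with
      | zero => exact h0
      | succ k ih => exact hcon k ih
    exact this n hn
  set A := derivedSeries Q m with hA
  have hAchar : A.Characteristic := derivedSeries_characteristic Q m
  have hAcomm : ⁅A, A⁆ = ⊥ := hm2
  have hAc : IsMulCommutative A := by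
    rw [Subgroup.commutator_eq_bot_iff_le_centralizer] at hAcomm
    refine ⟨⟨fun a b => ?_⟩⟩
    have := hAcomm a.2
    rw [Subgroup.mem_centralizer_iff] at this
    exact Subtype.ext (this b.1 b.2).symm
  have hcard : Nat.card A ≠ 1 := by
    intro h
    exact hm1 (Subgroup.card_eq_one.mp h)
  obtain ⟨p, hp, hpd⟩ := Nat.exists_prime_and_dvd hcard
  have : Fact p.Prime := ⟨hp⟩
  obtain ⟨P⟩ : Nonempty (Sylow p A) := inferInstance
  have hPn : (P : Subgroup A).Normal := by
    refine ⟨fun a ha g => ?_⟩
    have : g * a * g⁻¹ = a := by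
      rw [hAc.is_comm.comm g a]; group
    rw [this]; exact ha
  have hPchar : (P : Subgroup A).Characteristic := Sylow.characteristic_of_normal P hPn
  refine ⟨p, hp, (P : Subgroup A).map A.subtype, ?_, ?_, ?_⟩
  · have := hAchar
    have : A.Normal := inferInstance
    infer_instance
  · exact P.2.map _
  · rw [Ne, Subgroup.map_eq_bot_iff_of_injective _ A.subtype_injective]
    exact P.ne_bot_of_dvd_card hpd

/-- If `N` is a normal subgroup with `M ⊔ N = ⊤`, then the index of `M` divides the order of `N`. -/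
theorem index_dvd_card_of_sup_eq_top {G : Type*} [Group G] [Finite G] (M N : Subgroup G)
    [N.Normal] (h : M ⊔ N = ⊤) : M.index ∣ Nat.card N := by
  have h1 : N.relIndex M = N.index := by
    rw [← Subgroup.relIndex_sup_right, h, Subgroup.relIndex_top_right]
  have h2 : N.relIndex M ∣ Nat.card M := Subgroup.relIndex_dvd_card _ _
  rw [h1] at h2
  -- |M| = N.index * c ; |G| = N.index * |N| = |M| * M.index
  obtain ⟨c, hc⟩ := h2
  have h3 := M.card_mul_index
  have h4 := N.card_mul_index
  rw [hc, ← h4] at h3
  have hpos : 0 < N.index := Nat.pos_of_ne_zero N.index_ne_zero_of_finite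
  refine ⟨c, ?_⟩
  apply Nat.eq_of_mul_eq_mul_right hpos
  rw [← h3]; ring

/-- In a finite solvable group every maximal subgroup has index a prime power. -/
theorem result {G : Type*} [Group G] [Finite G] [Group.IsSolvable G]
    (M : Subgroup G) (hM : IsCoatom M) : IsPrimePow M.index := by
  classical
  have hKn : M.normalCore.Normal := M.normalCore_normal
  have hKM : M.normalCore ≤ M := M.normalCore_le
  have hKtop : M.normalCore ≠ ⊤ := fun h => hM.1 (top_le_iff.mp (h ▸ hKM))
  have : Nontrivial (G ⧸ M.normalCore) := QuotientGroup.nontrivial_iff.mpr hKtop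
  obtain ⟨p, hp, P, hPn, hPp, hPne⟩ := exists_normal_pSubgroup (Q := G ⧸ M.normalCore)
  have : Fact p.Prime := ⟨hp⟩
  have hsurj : Function.Surjective (QuotientGroup.mk' M.normalCore) :=
    QuotientGroup.mk'_surjective _
  have hNn : (P.comap (QuotientGroup.mk' M.normalCore)).Normal := hPn.comap _
  have hNM : ¬ P.comap (QuotientGroup.mk' M.normalCore) ≤ M := by
    intro h
    have h1 : P.comap (QuotientGroup.mk' M.normalCore) ≤ M.normalCore :=
      Subgroup.normal_le_normalCore.mpr h
    apply hPne
    rw [eq_bot_iff]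
    intro x hx
    obtain ⟨y, rfl⟩ := hsurj x
    rw [Subgroup.mem_bot, QuotientGroup.mk'_apply, QuotientGroup.eq_one_iff]
    exact h1 hx
  have hsup : M ⊔ P.comap (QuotientGroup.mk' M.normalCore) = ⊤ := by
    apply hM.2
    exact lt_of_le_of_ne le_sup_left (fun h => hNM (le_sup_right.trans h.symm.le))
  have hsup' : M.map (QuotientGroup.mk' M.normalCore) ⊔ P = ⊤ := by
    rw [← Subgroup.map_comap_eq_self_of_surjective hsurj P, ← Subgroup.map_sup, hsup,
      Subgroup.map_top_of_surjective _ hsurj]
  have hidx : (M.map (QuotientGroup.mk' M.normalCore)).index = M.index := by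
    apply Subgroup.index_map_eq _ hsurj
    rw [QuotientGroup.ker_mk']; exact hKM
  have hdvd : M.index ∣ Nat.card P := by
    rw [← hidx]; exact index_dvd_card_of_sup_eq_top _ _ hsup'
  obtain ⟨k, hk⟩ := IsPGroup.iff_card.mp hPp
  rw [hk, Nat.dvd_prime_pow hp] at hdvd
  obtain ⟨j, -, hj⟩ := hdvd
  rw [hj]
  have hj0 : j ≠ 0 := by
    rintro rfl
    rw [pow_zero] at hj
    exact hM.1 (Subgroup.index_eq_one.mp hj)
  exact hp.isPrimePow.pow hj0

end Cfsg.Agent.S0048
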