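import Mathlib
import Cfsg.Agent.H571.SylowNumber
import Cfsg.Agent.H571.SylowParts
import Cfsg.Agent.Classification.QDW.FuCop
import Cfsg.Statements.S4303
set_option linter.all false

-- part: H561/HallSylow
section
/-!
# Sylow numbers of groups with a normal `p'`-subgroup

`good_pprime`: if `K` is a normal `p'`-subgroup of `G` and `P` a Sylow `p`-subgroup, every prime part of the
number of Sylow `p`-subgroups of `PK` is `≡ 1` mod `p`.

`exists_list_of_good`: such a number is a product of prime powers `≡ 1` mod `p`.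
-/

set_option autoImplicit false

namespace Cfsg.Agent.H561.HallSylow

open Subgroup
open Cfsg.Agent.H571.SylowNumber

/-- If `P ≤ H` normalizes `R` then `|PR : H ∩ PR| = |R : H ∩ R|`. -/
theorem relIndex_sup_of_le_normalizer {G : Type*} [Group G] [Finite G] (P R H : Subgroup G)
    (hPR : P ≤ normalizer (R : Set G)) (hPH : P ≤ H) : H.relIndex (P ⊔ R) = H.relIndex R := by
  set M := P ⊔ R with hM
  have hn : (R.subgroupOf M).Normal := by
    apply Subgroup.normal_subgroupOf_of_le_normalizer
    exact sup_le hPR Subgroup.le_normalizer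
  have h1 : H.subgroupOf M ⊔ R.subgroupOf M = ⊤ := by
    rw [eq_top_iff]
    have h2 : P.subgroupOf M ⊔ R.subgroupOf M = ⊤ := by
      rw [← Subgroup.subgroupOf_sup (le_sup_left : P ≤ M) (le_sup_right : R ≤ M)]
      exact Subgroup.subgroupOf_self M
    rw [← h2]
    exact sup_le_sup_right (Subgroup.comap_mono hPH) _
  have h2 := relIndex_sup_of_normal (H.subgroupOf M) (R.subgroupOf M)
  rw [h1, Subgroup.relIndex_top_right] at h2
  have h3 : (H.subgroupOf M).relIndex (R.subgroupOf M) = H.relIndex R :=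
    Subgroup.relIndex_subgroupOf le_sup_right
  rw [← h3, ← h2]
  rfl

section
variable {G : Type*} [Group G] [Finite G] {p : ℕ} [hp : Fact p.Prime]

/-- If `R` is a `P`-invariant `p'`-subgroup then `N_R(P) = C_R(P)`. -/
theorem normalizer_inf_eq (P : Sylow p G) (R : Subgroup G) (hR : ¬ p ∣ Nat.card R)
    (hPR : (P : Subgroup G) ≤ normalizer (R : Set G)) :
    normalizer ((P : Subgroup G) : Set G) ⊓ R = R ⊓ centralizer ((P : Subgroup G) : Set G) := by
  apply le_antisymm
  · rintro x ⟨hxN, hxR⟩
    refine ⟨hxR, ?_⟩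
    have hcop : Nat.Coprime (Nat.card R) (Nat.card (P : Subgroup G)) := by
      obtain ⟨n, hn⟩ := IsPGroup.iff_card.1 P.isPGroup'
      rw [hn]
      exact (Nat.Coprime.pow_left n ((Nat.Prime.coprime_iff_not_dvd hp.out).2 hR)).symm
    have hdis := (Subgroup.disjoint_of_coprime_natCard hcop).eq_bot
    refine Subgroup.mem_centralizer_iff.2 ?_
    intro y hy
    have h1 : x * y * x⁻¹ * y⁻¹ ∈ R ⊓ (P : Subgroup G) := by
      refine ⟨?_, ?_⟩
      · have h2 : y * x⁻¹ * y⁻¹ ∈ R := (Subgroup.mem_normalizer_iff.1 (hPR hy) _).1 (R.inv_mem hxR)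
        have h3 := R.mul_mem hxR h2
        have e : x * y * x⁻¹ * y⁻¹ = x * (y * x⁻¹ * y⁻¹) := by group
        rw [e]; exact h3
      · exact (P : Subgroup G).mul_mem ((Subgroup.mem_normalizer_iff.1 hxN _).1 hy)
          ((P : Subgroup G).inv_mem hy)
    rw [hdis, Subgroup.mem_bot] at h1
    have h2 : x * y * x⁻¹ * y⁻¹ * (y * x) = y * x := by rw [h1, one_mul]
    rw [← h2]
    group
  · rintro x ⟨hxR, hxC⟩
    refine ⟨?_, hxR⟩
    exact Subgroup.centralizer_le_normalizer _ hxC

/-- The prime parts of the number of Sylow `p`-subgroups of `PK`, `K` a normal `p'`-subgroup, are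
`≡ 1` modulo `p`. -/
theorem good_pprime (P : Sylow p G) (K : Subgroup G) [K.Normal] (hK : ¬ p ∣ Nat.card K) :
    Cfsg.Agent.H571.SylowParts.Good p (Nat.card (Sylow p ((P : Subgroup G) ⊔ K : Subgroup G))) := by
  intro r hr
  have hrF : Fact r.Prime := ⟨hr⟩
  have hKn : ∀ b ∈ (P : Subgroup G), ∀ u ∈ K, b * u * b⁻¹ ∈ K := fun b _ u hu =>
    Subgroup.Normal.conj_mem inferInstance u hu b
  obtain ⟨R, hRK, hR, hRi, hPR⟩ := Cfsg.Agent.Classification.QDW.FuCop.exists_inv
    P.isPGroup' hK hKn r
  obtain ⟨hC1, hC2⟩ := Cfsg.Agent.Classification.QDW.FuCop.centralizer_sylow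
    P.isPGroup' hK hKn hRK hR hRi hPR
  have hPK : (P : Subgroup G) ≤ normalizer (K : Set G) := by
    rw [Subgroup.normalizer_eq_top]; exact le_top
  have hPR' : (P : Subgroup G) ≤ normalizer (R : Set G) := by
    intro b hb
    rw [Subgroup.mem_normalizer_iff]
    intro x
    refine ⟨fun hx => hPR b hb x hx, fun hx => ?_⟩
    have h1 := hPR b⁻¹ ((P : Subgroup G).inv_mem hb) _ hx
    have e : b⁻¹ * (b * x * b⁻¹) * b⁻¹⁻¹ = x := by group
    rwa [e] at h1
  have hRp : ¬ p ∣ Nat.card R := fun h => hK (h.trans (Subgroup.card_dvd_of_le hRK))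
  -- numbers
  have e1 : Nat.card (Sylow p ((P : Subgroup G) ⊔ K : Subgroup G)) =
      (K ⊓ centralizer ((P : Subgroup G) : Set G)).relIndex K := by
    rw [card_sylow_eq_relIndex P _ le_sup_left,
      relIndex_sup_of_le_normalizer _ _ _ hPK Subgroup.le_normalizer, ← Subgroup.inf_relIndex_right,
      normalizer_inf_eq P K hK hPK]
  have e2 : Nat.card (Sylow p ((P : Subgroup G) ⊔ R : Subgroup G)) =
      (R ⊓ centralizer ((P : Subgroup G) : Set G)).relIndex R := by
    rw [card_sylow_eq_relIndex P _ le_sup_left,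
      relIndex_sup_of_le_normalizer _ _ _ hPR' Subgroup.le_normalizer, ← Subgroup.inf_relIndex_right,
      normalizer_inf_eq P R hRp hPR']
  set C := centralizer ((P : Subgroup G) : Set G) with hC
  have e3 : (R ⊓ C).relIndex R * R.relIndex K = (R ⊓ C).relIndex K :=
    Subgroup.relIndex_mul_relIndex _ _ _ inf_le_left hRK
  have e4 : (R ⊓ C).relIndex (K ⊓ C) * (K ⊓ C).relIndex K = (R ⊓ C).relIndex K :=
    Subgroup.relIndex_mul_relIndex _ _ _ (inf_le_inf_right _ hRK) inf_le_left
  have n1 : (R ⊓ C).relIndex R ≠ 0 := Subgroup.index_ne_zero_of_finite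
  have n2 : R.relIndex K ≠ 0 := Subgroup.index_ne_zero_of_finite
  have n3 : (R ⊓ C).relIndex (K ⊓ C) ≠ 0 := Subgroup.index_ne_zero_of_finite
  have n4 : (K ⊓ C).relIndex K ≠ 0 := Subgroup.index_ne_zero_of_finite
  have hv : ((K ⊓ C).relIndex K).factorization r = ((R ⊓ C).relIndex R).factorization r := by
    have h1 := congrArg (fun n => Nat.factorization n r) (e4.trans e3.symm)
    simp only [Nat.factorization_mul n3 n4, Nat.factorization_mul n1 n2, Finsupp.add_apply] at h1
    rw [Nat.factorization_eq_zero_of_not_dvd hC2, Nat.factorization_eq_zero_of_not_dvd hRi] at h1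
    simpa using h1
  have hpow : r ^ ((R ⊓ C).relIndex R).factorization r = (R ⊓ C).relIndex R := by
    have h3 : (R ⊓ C).relIndex R ∣ Nat.card R := Subgroup.relIndex_dvd_card _ _
    obtain ⟨n, hn⟩ := IsPGroup.iff_card.1 hR
    rw [hn] at h3
    obtain ⟨k, -, hk⟩ := (Nat.dvd_prime_pow hr).1 h3
    rw [hk, hr.factorization_pow, Finsupp.single_eq_same]
  rw [e1, hv, hpow, ← e2]
  exact card_sylow_modEq_one p _

end

/-- A number all of whose prime parts are `≡ 1` mod `p` is a product of prime powers `≡ 1` mod `p`. -/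
theorem exists_list_of_good {p n : ℕ} (hp : p.Prime) (hn : n ≠ 0)
    (h : Cfsg.Agent.H571.SylowParts.Good p n) :
    ∃ l : List ℕ, l.prod = n ∧ ∀ m ∈ l, IsPrimePow m ∧ m % p = 1 := by
  refine ⟨n.primeFactors.toList.map (fun r => r ^ n.factorization r), ?_, ?_⟩
  · rw [Finset.prod_map_toList]
    conv_rhs => rw [← Nat.prod_factorization_pow_eq_self hn]
    rw [Finsupp.prod, Nat.support_factorization]
  · intro m hm
    rw [List.mem_map] at hm
    obtain ⟨r, hr, rfl⟩ := hm
    rw [Finset.mem_toList, Nat.mem_primeFactors] at hr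
    obtain ⟨hr1, hr2, -⟩ := hr
    refine ⟨hr1.isPrimePow.pow (hr1.factorization_pos_of_dvd hn hr2).ne', ?_⟩
    have := h r hr1
    rw [Nat.ModEq, Nat.mod_eq_of_lt hp.one_lt] at this
    exact this

end Cfsg.Agent.H561.HallSylow
end

-- part: S4303
section
set_option autoImplicit false
universe u
open Cfsg

namespace Cfsg.Agent.S4303

open Cfsg.Agent.H571.SylowNumber

/-- The conclusion of the theorem, for a number `n`. -/
def Nice (p : ℕ) (n : ℕ) : Prop :=
    ∃ l : List ℕ, l.prod = n ∧
      ∀ m ∈ l, (IsPrimePow m ∧ m % p = 1) ∨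
        ∃ (S : Type u) (_ : Group S) (_ : Finite S), IsSimpleGroup S ∧ m = Nat.card (Sylow p S)

theorem Nice.mul {p m n : ℕ} (hm : Nice.{u} p m) (hn : Nice.{u} p n) : Nice.{u} p (m * n) := by
  obtain ⟨l, hl, hl'⟩ := hm
  obtain ⟨k, hk, hk'⟩ := hn
  refine ⟨l ++ k, by rw [List.prod_append, hl, hk], ?_⟩
  intro x hx
  rcases List.mem_append.1 hx with h | h
  · exact hl' x h
  · exact hk' x h

theorem card_lt_of_ne_top {G : Type*} [Group G] [Finite G] {H : Subgroup G} (hH : H ≠ ⊤) :
    Nat.card H < Nat.card G := by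
  have h1 := H.card_mul_index
  have h2 : H.index ≠ 1 := fun h => hH (Subgroup.index_eq_one.1 h)
  have h3 : H.index ≠ 0 := Subgroup.index_ne_zero_of_finite
  have h4 : 0 < Nat.card H := Nat.card_pos
  rw [← h1]
  have h5 : 2 ≤ H.index := by omega
  nlinarith

theorem card_quotient_lt {G : Type*} [Group G] [Finite G] {N : Subgroup G} (hN : N ≠ ⊥) :
    Nat.card (G ⧸ N) < Nat.card G := by
  have h2 := N.card_eq_card_quotient_mul_card_subgroup
  have h3 : 1 < Nat.card N := by
    have : Nat.card N ≠ 1 := fun h => hN (Subgroup.card_eq_one.1 h)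
    have := Nat.card_pos (α := N)
    omega
  have h4 : 0 < Nat.card (G ⧸ N) := Nat.card_pos
  rw [h2]
  nlinarith

theorem main (p : ℕ) [hp : Fact p.Prime] :
    ∀ (n : ℕ) (G : Type u) [Group G] [Finite G], Nat.card G = n →
      Nice.{u} p (Nat.card (Sylow p G)) := by
  intro n
  induction n using Nat.strong_induction_on with
  | _ n ih =>
    intro G _ _ hn
    rcases subsingleton_or_nontrivial G with hG | hG
    · have h1 : Nat.card (Sylow p G) = 1 := by
        have : Subsingleton (Sylow p G) :=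
          ⟨fun P Q => Sylow.ext (Subsingleton.elim _ _)⟩
        rw [Nat.card_eq_one_iff_unique]
        exact ⟨this, inferInstance⟩
      rw [h1]
      exact ⟨[], rfl, by simp⟩
    by_cases hs : IsSimpleGroup G
    · exact ⟨[Nat.card (Sylow p G)], by simp, by
        intro m hm
        rw [List.mem_singleton] at hm
        exact Or.inr ⟨G, inferInstance, inferInstance, hs, hm⟩⟩
    obtain ⟨K, hKn, hKb, hKt⟩ : ∃ K : Subgroup G, K.Normal ∧ K ≠ ⊥ ∧ K ≠ ⊤ := by
      by_contra hcon
      push Not at hcon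
      exact hs ⟨fun N hN => or_iff_not_imp_left.2 (fun hNb => hcon N hN hNb)⟩
    obtain ⟨P⟩ : Nonempty (Sylow p G) := inferInstance
    rw [card_sylow_eq_mul P K]
    refine Nice.mul (ih _ (hn ▸ card_quotient_lt hKb) (G ⧸ K) rfl) ?_
    by_cases hPK : (P : Subgroup G) ⊔ K = ⊤
    · by_cases hQ : (P : Subgroup G) ⊓ K = ⊥
      · -- `K` is a `p'`-group
        have hK : ¬ p ∣ Nat.card K := by
          obtain ⟨T, hT⟩ := exists_sylow_inf P K
          intro hdvd
          have h1 := T.dvd_card_of_dvd_card hdvd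
          have h2 : (T : Subgroup K) = ⊥ := by
            rw [hT, ← Subgroup.inf_subgroupOf_right, hQ, Subgroup.bot_subgroupOf]
          rw [h2, Subgroup.card_bot] at h1
          exact hp.out.one_lt.ne' (Nat.dvd_one.1 h1)
        obtain ⟨l, hl, hl'⟩ := Cfsg.Agent.H561.HallSylow.exists_list_of_good hp.out
          (Nat.card_pos.ne') (Cfsg.Agent.H561.HallSylow.good_pprime P K hK)
        exact ⟨l, hl, fun m hm => Or.inl (hl' m hm)⟩
      · rw [card_sylow_sup P K _ rfl]
        refine Nice.mul (ih _ (hn ▸ card_lt_of_ne_top hKt) K rfl) ?_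
        rw [hPK, top_inf_eq]
        by_cases hN : Subgroup.normalizer (((P : Subgroup G) ⊓ K : Subgroup G) : Set G) = ⊤
        · have hQn : ((P : Subgroup G) ⊓ K : Subgroup G).Normal := Subgroup.normalizer_eq_top_iff.1 hN
          have h1 : Nat.card (Sylow p ↥(Subgroup.normalizer (((P : Subgroup G) ⊓ K : Subgroup G) : Set G))) =
              Nat.card (Sylow p G) := by
            rw [hN]
            exact card_sylow_congr Subgroup.topEquiv
          rw [h1, card_sylow_of_surjective (QuotientGroup.mk' ((P : Subgroup G) ⊓ K))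
            (QuotientGroup.mk'_surjective _) (by
              rw [QuotientGroup.ker_mk']
              exact P.isPGroup'.to_le inf_le_left)]
          exact ih _ (hn ▸ card_quotient_lt hQ) _ rfl
        · exact ih _ (hn ▸ card_lt_of_ne_top hN) _ rfl
    · exact ih _ (hn ▸ card_lt_of_ne_top hPK) _ rfl

/-- For a finite group `G` and a prime `p`, the number of Sylow `p`-subgroups of `G` is a product of natural numbers each of which is either a prime power congruent to 1 modulo `p` or the number of Sylow `p`-subgroups of some finite simple group. -/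
theorem result {G : Type u} [Group G] [Finite G]
    (p : ℕ) [Fact p.Prime] :
    ∃ l : List ℕ, l.prod = Nat.card (Sylow p G) ∧
      ∀ m ∈ l, (IsPrimePow m ∧ m % p = 1) ∨
        ∃ (S : Type u) (_ : Group S) (_ : Finite S), IsSimpleGroup S ∧ m = Nat.card (Sylow p S) :=
  main p _ G rfl

end Cfsg.Agent.S4303
end
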