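import Mathlib
import Cfsg.Agent.S1009
import Cfsg.Statements.S4343
set_option linter.all false

-- part: H571/SmallSylow
section
/-!
# Sylow intersections of index `p`

If `|P : P ∩ Q|` divides `p` for all Sylow `p`-subgroups `P`, `Q` of `G` and the intersection of all
Sylow `p`-subgroups is trivial, then `|P|` divides `p`.
-/

set_option autoImplicit false

open scoped commutatorElement

namespace Cfsg.Agent.H571.SmallSylow

variable {G : Type*} [Group G] [Finite G] {p : ℕ} [hp : Fact p.Prime]

/-- The orbit of `Q` under `P` has length `|P : P ∩ Q|`. -/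
theorem card_orbit_sylow (P Q : Sylow p G) :
    Nat.card (MulAction.orbit (P : Subgroup G) Q) = (Q : Subgroup G).relIndex (P : Subgroup G) := by
  have h0 : (MulAction.orbit (P : Subgroup G) Q).ncard = _ :=
    (MulAction.index_stabilizer (P : Subgroup G) Q).symm
  rw [Nat.card_coe_set_eq, h0]
  have h1 : MulAction.stabilizer (P : Subgroup G) Q =
      (Subgroup.normalizer ((Q : Subgroup G) : Set G)).subgroupOf (P : Subgroup G) := by
    ext x
    rw [MulAction.mem_stabilizer_iff, Subgroup.mem_subgroupOf]
    exact Sylow.smul_eq_iff_mem_normalizer (g := (x : G)) (P := Q)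
  rw [h1]
  show (Subgroup.normalizer ((Q : Subgroup G) : Set G)).relIndex (P : Subgroup G) = _
  rw [← Subgroup.inf_relIndex_right, inf_comm]
  have h2 : (P : Subgroup G) ⊓ Subgroup.normalizer ((Q : Subgroup G) : Set G) =
      (P : Subgroup G) ⊓ Q := IsPGroup.inf_normalizer_sylow P.isPGroup' Q
  rw [h2, inf_comm, Subgroup.inf_relIndex_right]

/-- If there are fewer than `p²` Sylow `p`-subgroups, `|P : P ∩ Q|` divides `p`. -/
theorem relIndex_dvd_of_card_lt (hn : Nat.card (Sylow p G) < p ^ 2) (P Q : Sylow p G) :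
    (Q : Subgroup G).relIndex (P : Subgroup G) ∣ p := by
  have h1 := card_orbit_sylow P Q
  have h2 : Nat.card (MulAction.orbit (P : Subgroup G) Q) ≤ Nat.card (Sylow p G) :=
    Nat.card_le_card_of_injective _ Subtype.val_injective
  have h3 : (Q : Subgroup G).relIndex (P : Subgroup G) ∣ Nat.card (P : Subgroup G) :=
    Subgroup.relIndex_dvd_card _ _
  obtain ⟨n, hn'⟩ := IsPGroup.iff_card.1 P.isPGroup'
  rw [hn'] at h3
  obtain ⟨k, -, hk⟩ := (Nat.dvd_prime_pow hp.out).1 h3
  rw [hk]
  rw [h1, hk] at h2
  have h4 : p ^ k < p ^ 2 := lt_of_le_of_lt h2 hn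
  have h5 : k < 2 := (Nat.pow_lt_pow_iff_right hp.out.one_lt).1 h4
  exact (pow_dvd_pow p (show k ≤ 1 by omega)).trans (by rw [pow_one])

/-- If all `|P : P ∩ Q|` divide `p`, the commutator subgroup of `P` lies in every `Q`. -/
theorem commutator_mem_of_relIndex_dvd (P Q : Sylow p G)
    (h : (Q : Subgroup G).relIndex (P : Subgroup G) ∣ p) (x y : G) (hx : x ∈ P) (hy : y ∈ P) :
    ⁅x, y⁆ ∈ (Q : Subgroup G) := by
  rcases (Nat.dvd_prime hp.out).1 h with h1 | h1
  · rw [Subgroup.relIndex_eq_one] at h1
    exact h1 (by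
      rw [commutatorElement_def]
      exact (P : Subgroup G).mul_mem ((P : Subgroup G).mul_mem ((P : Subgroup G).mul_mem hx hy)
        ((P : Subgroup G).inv_mem hx)) ((P : Subgroup G).inv_mem hy))
  · have hPne : Nat.card (P : Subgroup G) ≠ 1 := by
      intro h2
      have h3 : (Q : Subgroup G).relIndex (P : Subgroup G) ∣ Nat.card (P : Subgroup G) :=
        Subgroup.relIndex_dvd_card _ _
      rw [h1, h2] at h3
      exact hp.out.one_lt.ne' (Nat.dvd_one.1 h3)
    have hmin : (Nat.card (P : Subgroup G)).minFac = p := by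
      obtain ⟨n, hn⟩ := IsPGroup.iff_card.1 P.isPGroup'
      rw [hn]
      apply hp.out.pow_minFac
      rintro rfl
      exact hPne (by rw [hn, pow_zero])
    have hnorm : ((Q : Subgroup G).subgroupOf (P : Subgroup G)).Normal := by
      apply Subgroup.normal_of_index_eq_minFac_card
      rw [hmin]
      exact h1
    have hcomm : IsMulCommutative
        ((P : Subgroup G) ⧸ ((Q : Subgroup G).subgroupOf (P : Subgroup G))) := by
      have hcard : Nat.card ((P : Subgroup G) ⧸ ((Q : Subgroup G).subgroupOf (P : Subgroup G))) =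
          p := h1
      have hcyc : IsCyclic ((P : Subgroup G) ⧸ ((Q : Subgroup G).subgroupOf (P : Subgroup G))) :=
        isCyclic_of_prime_card hcard
      infer_instance
    rw [Subgroup.Normal.quotient_commutative_iff_commutator_le] at hcomm
    have h2 : ⁅(⟨x, hx⟩ : (P : Subgroup G)), ⟨y, hy⟩⁆ ∈ commutator (P : Subgroup G) :=
      Subgroup.commutator_mem_commutator (Subgroup.mem_top _) (Subgroup.mem_top _)
    exact hcomm h2

/-- If all `|P : P ∩ Q|` divide `p` and the intersection of all Sylow `p`-subgroups is trivial,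
then `|P|` divides `p`. -/
theorem card_dvd_of_relIndex_dvd
    (h : ∀ P Q : Sylow p G, (Q : Subgroup G).relIndex (P : Subgroup G) ∣ p)
    (hO : ⨅ R : Sylow p G, (R : Subgroup G) = ⊥) (P : Sylow p G) :
    Nat.card (P : Subgroup G) ∣ p := by
  have hab : ∀ P : Sylow p G, IsMulCommutative ↥(P : Subgroup G) := by
    intro P
    refine ⟨⟨fun x y => ?_⟩⟩
    have h1 : ⁅(x : G), (y : G)⁆ ∈ ⨅ R : Sylow p G, (R : Subgroup G) := by
      rw [Subgroup.mem_iInf]
      intro Q
      exact commutator_mem_of_relIndex_dvd P Q (h P Q) x y x.2 y.2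
    rw [hO, Subgroup.mem_bot, commutatorElement_eq_one_iff_mul_comm] at h1
    exact Subtype.ext h1
  obtain ⟨P', Q', hPQ⟩ := S1009.result p hab
  rw [hO] at hPQ
  have h1 := h P' Q'
  rw [← Subgroup.inf_relIndex_right, inf_comm, hPQ, Subgroup.relIndex_bot_left] at h1
  have h2 : Nat.card (P : Subgroup G) = Nat.card (P' : Subgroup G) := by
    rw [P.card_eq_multiplicity, P'.card_eq_multiplicity]
  rw [h2]
  exact h1

end Cfsg.Agent.H571.SmallSylow
end

-- part: S4343
section
set_option autoImplicit false
open Cfsg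
open scoped Pointwise

namespace Cfsg.Agent.S4343

/-- The intersection of all Sylow subgroups is normal. -/
theorem iInf_sylow_normal {S : Type*} [Group S] (p : ℕ) :
    (⨅ R : Sylow p S, (R : Subgroup S)).Normal := by
  constructor
  intro x hx g
  rw [Subgroup.mem_iInf] at hx ⊢
  intro R
  have h1 := hx (g⁻¹ • R)
  have h2 : x ∈ MulAut.conj g⁻¹ • (R : Subgroup S) := h1
  rw [Subgroup.mem_pointwise_smul_iff_inv_smul_mem, ← map_inv, MulAut.smul_def,
    MulAut.conj_apply, inv_inv] at h2
  exact h2

/-- A simple `p`-group is abelian. -/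
theorem isMulCommutative_of_simple_pGroup {S : Type*} [Group S] [Finite S] [IsSimpleGroup S]
    (p : ℕ) [Fact p.Prime] (h : IsPGroup p S) : IsMulCommutative S := by
  have h1 : Nontrivial (Subgroup.center S) := h.center_nontrivial
  have h2 : Subgroup.center S = ⊤ := by
    rcases (inferInstance : (Subgroup.center S).Normal).eq_bot_or_eq_top with h3 | h3
    · rw [h3] at h1
      exact absurd h1 (by
        rw [Subgroup.nontrivial_iff_ne_bot]
        exact fun h => h rfl)
    · exact h3
  refine ⟨⟨fun a b => ?_⟩⟩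
  have h3 : b ∈ Subgroup.center S := h2 ▸ Subgroup.mem_top b
  exact Subgroup.mem_center_iff.1 h3 a

/-- Let S be a finite non-abelian simple group and p a prime dividing its order. If S has fewer than p² Sylow p-subgroups, then its Sylow p-subgroups have order p. -/
theorem result {S : Type*} [Group S] [Finite S]
    [IsSimpleGroup S] (hS : ¬ IsMulCommutative S) (p : ℕ) [Fact p.Prime] (hp : p ∣ Nat.card S)
    (hn : Nat.card (Sylow p S) < p ^ 2) (P : Sylow p S) : Nat.card P = p := by
  have hO : ⨅ R : Sylow p S, (R : Subgroup S) = ⊥ := by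
    rcases (iInf_sylow_normal (S := S) p).eq_bot_or_eq_top with h3 | h3
    · exact h3
    · exfalso
      apply hS
      apply isMulCommutative_of_simple_pGroup p
      have h4 : (P : Subgroup S) = ⊤ := top_unique (h3 ▸ iInf_le _ P)
      have h5 := P.isPGroup'
      rw [h4] at h5
      exact h5.of_equiv Subgroup.topEquiv
  have h1 := H571.SmallSylow.card_dvd_of_relIndex_dvd
    (fun P Q => H571.SmallSylow.relIndex_dvd_of_card_lt hn P Q) hO P
  rcases (Nat.dvd_prime (Fact.out : p.Prime)).1 h1 with h2 | h2
  · exfalso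
    exact P.ne_bot_of_dvd_card hp (Subgroup.card_eq_one.1 h2)
  · exact h2

end Cfsg.Agent.S4343
end
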