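import Cfsg.Statements.S5088
import Cfsg.Agent.H973.FusNormAux
set_option linter.all false

set_option autoImplicit false
open Cfsg

namespace Cfsg.Agent.S5088

/-- In a saturated fusion system over a finite p-group, a subgroup Q is normal in the system if and only if there is a chain of subgroups 1 = Q₀ ≤ Q₁ ≤ ⋯ ≤ Qₙ = Q such that each Qᵢ with i ≥ 1 is strongly closed in the system and [Q, Qᵢ] ≤ Qᵢ₋₁. -/
theorem result {Ω : Type*} [Group Ω] {S : Subgroup Ω} [Finite S] (p : ℕ) [Fact p.Prime] (hS : IsPGroup p S) (F : Cfsg.FusionSystem S) (hF : F.IsSaturated p) (Q : Subgroup Ω) : F.IsNormal Q ↔ ∃ (n : ℕ) (Qs : Fin (n + 1) → Subgroup Ω), Qs 0 = ⊥ ∧ Qs (Fin.last n) = Q ∧ Monotone Qs ∧ ∀ i : Fin n, F.StronglyClosed (Qs i.succ) ∧ ⁅Q, Qs i.succ⁆ ≤ Qs (Fin.castSucc i) := by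
  refine ⟨fun h => Cfsg.Agent.H973.exists_chain_of_isNormal hS h, ?_⟩
  rintro ⟨n, Qs, h0, hn, hmono, h⟩
  refine Cfsg.Agent.H759.isNormal_of_chain hS hF n (fun i => if hi : i ≤ n then Qs ⟨i, Nat.lt_succ_of_le hi⟩ else Q)
    ?_ ?_ ?_ ?_
  · simpa using h0
  · simp only [le_refl, dif_pos]
    exact hn
  · intro i hi
    simp only [hi, dif_pos]
    rcases Nat.eq_zero_or_pos i with rfl | hpos
    · have : (⟨0, Nat.lt_succ_of_le hi⟩ : Fin (n + 1)) = 0 := rfl
      rw [this, h0]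
      exact Cfsg.Agent.H759.StronglyClosed.bot
    · obtain ⟨j, rfl⟩ : ∃ j, i = j + 1 := ⟨i - 1, by omega⟩
      exact (h ⟨j, by omega⟩).1
  · intro i hi
    have h1 : i + 1 ≤ n := hi
    have h2 : i ≤ n := by omega
    simp only [h1, h2, dif_pos]
    exact (h ⟨i, hi⟩).2

end Cfsg.Agent.S5088
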