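import Cfsg.Statements.S0954
import Cfsg.Agent.Blocks.Basic
import Cfsg.Agent.Characters.Core
import Cfsg.Agent.Lib.Cores
import Cfsg.Agent.S0921
import Cfsg.Agent.S0966
set_option linter.all false

set_option autoImplicit false
open Cfsg

namespace Cfsg.Agent.S0954

/-- A normal `p`-complement is the `p'`-core. -/
theorem eq_pPrimeCore {G : Type*} [Group G] [Finite G] (p : ℕ) [Fact p.Prime]
    (N : Subgroup G) [hNn : N.Normal] (hN : ¬ p ∣ Nat.card N) (hidx : ∃ k : ℕ, N.index = p ^ k) :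
    N = pPrimeCore p G := by
  have hp : p.Prime := Fact.out
  have hle : N ≤ pPrimeCore p G :=
    Cfsg.Agent.Lib.Cores.le_pPrimeCore hNn ((Nat.Prime.coprime_iff_not_dvd hp).2 hN).symm
  refine le_antisymm hle ?_
  obtain ⟨k, hk⟩ := hidx
  have h1 : N.relIndex (pPrimeCore p G) ∣ p ^ k := hk ▸ Subgroup.relIndex_dvd_index_of_normal N _
  have h2 : N.relIndex (pPrimeCore p G) ∣ Nat.card (pPrimeCore p G) := Subgroup.index_dvd_card _
  have h3 : (Nat.card (pPrimeCore p G)).Coprime (p ^ k) :=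
    Nat.Coprime.pow_right k (Cfsg.Agent.Lib.Cores.pPrimeCore_coprime p)
  have h4 : N.relIndex (pPrimeCore p G) = 1 :=
    Nat.dvd_one.1 (h3 ▸ Nat.dvd_gcd h2 h1)
  exact Subgroup.relIndex_eq_one.1 h4

/-- Some irreducible character of `N` occurs in the restriction of an irreducible character. -/
theorem exists_constituent {G : Type*} [Group G] [Finite G] (N : Subgroup G) [Fintype N]
    (χ : IrrCharacter G) :
    ∃ θ : IrrCharacter N, classInner (fun n : N => (χ : G → ℂ) n) (θ : N → ℂ) ≠ 0 := by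
  by_contra hcon
  push Not at hcon
  have hcf : IsClassFunction N (fun n : N => (χ : G → ℂ) n) := fun g h => by
    have := Cfsg.Agent.Blocks.Basic.irr_conj χ.2 (g : G) (h : G)
    simpa using this
  have h0 := Cfsg.Agent.Characters.Core.classFunction_eq_zero hcf (fun θ hθ => hcon ⟨θ, hθ⟩)
  have h1 : (χ : G → ℂ) 1 = 0 := by
    have := congrFun h0 1
    simpa using this
  exact Cfsg.Agent.Blocks.Basic.irr_one_ne_zero χ.2 h1

/-- Let N be a normal subgroup of the finite group G of order prime to p and of p-power index (a normal p-complement), and fix a maximal ideal M of the algebraic integers containing p. Then two irreducible characters χ, ψ of G lie in the same block if and only if some irreducible character of N has nonzero inner product with both the restriction of χ and the restriction of ψ. -/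
theorem result {G : Type*} [Group G] [Fintype G] (p : ℕ) [Fact p.Prime] (M : Ideal Cfsg.AlgInt) (hM : Cfsg.IsPModular p M) (N : Subgroup G) [N.Normal] [Fintype N] (hN : ¬ p ∣ Nat.card N) (hidx : ∃ k : ℕ, N.index = p ^ k) (χ ψ : Cfsg.IrrCharacter G) : Cfsg.SameBlock M (χ : G → ℂ) (ψ : G → ℂ) ↔ ∃ θ : Cfsg.IrrCharacter N, Cfsg.classInner (fun n : N => (χ : G → ℂ) n) (θ : N → ℂ) ≠ 0 ∧ Cfsg.classInner (fun n : N => (ψ : G → ℂ) n) (θ : N → ℂ) ≠ 0 := by
  haveI : M.IsPrime := Cfsg.Agent.Blocks.Local.isPrime_of_isPModular hM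
  constructor
  · intro h
    obtain ⟨θ, hθ⟩ := exists_constituent N χ
    refine ⟨θ, hθ, ?_⟩
    have hNe := eq_pPrimeCore p N hN hidx
    subst hNe
    exact (Cfsg.Agent.S0921.result p M hM χ ψ h θ).1 hθ
  · rintro ⟨θ, hθχ, hθψ⟩
    obtain ⟨B, _, hB⟩ := Cfsg.Agent.S0966.result p M hM N hidx (blockOf M (θ : N → ℂ))
      (Cfsg.Agent.Blocks.Basic.isPBlock_blockOf θ)
    have h1 : blockOf M (χ : G → ℂ) = B := hB _ ⟨Cfsg.Agent.Blocks.Basic.isPBlock_blockOf χ, χ,
      Cfsg.Agent.Blocks.Basic.mem_blockOf_self χ, θ,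
      Cfsg.Agent.Blocks.Basic.mem_blockOf_self θ, hθχ⟩
    have h2 : blockOf M (ψ : G → ℂ) = B := hB _ ⟨Cfsg.Agent.Blocks.Basic.isPBlock_blockOf ψ, ψ,
      Cfsg.Agent.Blocks.Basic.mem_blockOf_self ψ, θ,
      Cfsg.Agent.Blocks.Basic.mem_blockOf_self θ, hθψ⟩
    have h3 : ψ ∈ blockOf M (χ : G → ℂ) := by
      rw [h1, ← h2]
      exact Cfsg.Agent.Blocks.Basic.mem_blockOf_self ψ
    exact h3

end Cfsg.Agent.S0954
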