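import Cfsg.Statements.S0557
import Cfsg.Agent.Lib.NormalHall
set_option linter.all false

set_option autoImplicit false
open Cfsg

namespace Cfsg.Agent.S0557

open Subgroup

/-- The focal subgroup is monotone. -/
theorem focalSubgroup_mono {G : Type*} [Group G] {K L : Subgroup G} (h : K ≤ L) :
    focalSubgroup K ≤ focalSubgroup L := by
  rw [focalSubgroup_def, focalSubgroup_def]
  apply closure_mono
  rintro g ⟨hg, x, hx, u, rfl⟩
  exact ⟨h hg, x, h hx, u, rfl⟩

/-- The focal subgroup, computed in a smaller group, is contained in the one of the big group. -/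
theorem map_focalSubgroup_le {G G' : Type*} [Group G] [Group G'] (f : G →* G') (K : Subgroup G) :
    (focalSubgroup K).map f ≤ focalSubgroup (K.map f) := by
  rw [focalSubgroup_def, MonoidHom.map_closure, focalSubgroup_def]
  apply closure_mono
  rintro _ ⟨g, ⟨hg, x, hx, u, rfl⟩, rfl⟩
  exact ⟨mem_map_of_mem f hg, f x, mem_map_of_mem f hx, f u, map_commutatorElement f x u⟩

theorem iterate_focalSubgroup_mono {G : Type*} [Group G] (n : ℕ) {K L : Subgroup G} (h : K ≤ L) :
    (fun K : Subgroup G => focalSubgroup K)^[n] K ≤ (fun K : Subgroup G => focalSubgroup K)^[n] L := by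
  induction n generalizing K L with
  | zero => exact h
  | succ n ih =>
    rw [Function.iterate_succ_apply, Function.iterate_succ_apply]
    exact ih (focalSubgroup_mono h)

theorem map_iterate_focalSubgroup_le {G G' : Type*} [Group G] [Group G'] (f : G →* G') (n : ℕ)
    (K : Subgroup G) :
    ((fun K : Subgroup G => focalSubgroup K)^[n] K).map f ≤
      (fun K : Subgroup G' => focalSubgroup K)^[n] (K.map f) := by
  induction n generalizing K with
  | zero => exact le_rfl
  | succ n ih =>
    rw [Function.iterate_succ_apply, Function.iterate_succ_apply]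
    exact (ih _).trans (iterate_focalSubgroup_mono n (map_focalSubgroup_le f K))

open scoped IsMulCommutative in
/-- For a Hall subgroup `H` there is a normal subgroup `M` with `M ⊓ H = H*` and `M H = G`. -/
theorem exists_normal_inf_eq_focalSubgroup {G : Type*} [Group G] [Finite G] (H : Subgroup G)
    (hHall : (Nat.card H).Coprime H.index) :
    ∃ M : Subgroup G, M.Normal ∧ M ⊓ H = focalSubgroup H ∧ M ⊔ H = ⊤ := by
  refine ⟨(transferFocal H).ker, inferInstance, ?_, ?_⟩
  · ext x
    rw [Subgroup.mem_inf, MonoidHom.mem_ker]
    constructor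
    · rintro ⟨hx, hxH⟩
      have h1 := transferFocal_eq_pow H ⟨x, hxH⟩
      rw [hx] at h1
      have h2 : orderOf ((⟨x, hxH⟩ : H) : H ⧸ H.focalSubgroupOf) ∣ H.index :=
        orderOf_dvd_of_pow_eq_one h1.symm
      have h3 : orderOf ((⟨x, hxH⟩ : H) : H ⧸ H.focalSubgroupOf) ∣ Nat.card H :=
        (orderOf_map_dvd (QuotientGroup.mk' H.focalSubgroupOf) ⟨x, hxH⟩).trans
          (orderOf_dvd_natCard _)
      have h4 := Nat.eq_one_of_dvd_coprimes hHall h3 h2
      rw [orderOf_eq_one_iff, QuotientGroup.eq_one_iff, focalSubgroupOf_def,
        mem_subgroupOf] at h4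
      exact h4
    · intro hx
      have hxH := focalSubgroup_le H hx
      refine ⟨?_, hxH⟩
      have h1 := transferFocal_eq_pow H ⟨x, hxH⟩
      have h2 : ((⟨x, hxH⟩ : H) : H ⧸ H.focalSubgroupOf) = 1 := by
        rw [QuotientGroup.eq_one_iff, focalSubgroupOf_def, mem_subgroupOf]
        exact hx
      rw [h2, one_pow] at h1
      exact h1
  · rw [eq_top_iff]
    intro g _
    -- the transfer restricted to `H` is surjective
    have hcop : (Nat.card (H ⧸ H.focalSubgroupOf)).Coprime H.index :=
      Nat.Coprime.coprime_dvd_left (by
        rw [← Subgroup.index]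
        exact Subgroup.index_dvd_card _) hHall
    obtain ⟨y, hy⟩ := (powCoprime hcop).surjective (transferFocal H g)
    obtain ⟨h, rfl⟩ := QuotientGroup.mk_surjective y
    have h1 : transferFocal H (h : G) = transferFocal H g := by
      rw [transferFocal_eq_pow, ← hy]
      rfl
    have h2 : g * (h : G)⁻¹ ∈ (transferFocal H).ker := by
      rw [MonoidHom.mem_ker, map_mul, map_inv, h1, mul_inv_cancel]
    have h3 : g = (g * (h : G)⁻¹) * h := by group
    rw [h3]
    exact mul_mem (mem_sup_left h2) (mem_sup_right h.2)

/-- Let H be a subgroup of a finite group G with order coprime to its index. If iterating the focal-subgroup construction starting from H reaches the trivial subgroup after finitely many steps, then H has a normal complement in G. -/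
theorem result {G : Type*} [Group G] [Finite G] (H : Subgroup G) (hHall : (Nat.card H).Coprime H.index) (n : ℕ) (hfoc : (fun K : Subgroup G => Subgroup.focalSubgroup K)^[n] H = ⊥) : ∃ N : Subgroup G, N.Normal ∧ Subgroup.IsComplement' N H := by
  induction n generalizing G with
  | zero =>
    rw [Function.iterate_zero_apply] at hfoc
    subst hfoc
    exact ⟨⊤, inferInstance, isComplement'_top_bot⟩
  | succ n ih =>
    obtain ⟨M, hMn, hMH, hMHtop⟩ := exists_normal_inf_eq_focalSubgroup H hHall
    have hmap : (H.subgroupOf M).map M.subtype = focalSubgroup H := by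
      rw [subgroupOf_map_subtype, inf_comm, hMH]
    -- the index of `H ∩ M` in `M` is that of `H` in `G`
    have hidx : (H.subgroupOf M).index = H.index := by
      change H.relIndex M = H.index
      have h1 : (M ⊓ H).relIndex M * M.index = (M ⊓ H).relIndex H * H.index := by
        rw [relIndex_mul_index inf_le_left, relIndex_mul_index inf_le_right]
      rw [inf_relIndex_left, inf_relIndex_right, ← relIndex_sup_left H M, hMHtop, relIndex_top_right,
        mul_comm M.index] at h1
      exact Nat.eq_of_mul_eq_mul_right (Nat.pos_of_ne_zero M.index_ne_zero_of_finite) h1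
    have hcard : Nat.card (H.subgroupOf M) ∣ Nat.card H := by
      rw [← card_subtype, hmap]
      exact card_dvd_of_le (focalSubgroup_le H)
    have hHall1 : (Nat.card (H.subgroupOf M)).Coprime (H.subgroupOf M).index := by
      rw [hidx]
      exact Nat.Coprime.coprime_dvd_left hcard hHall
    have hfoc1 : (fun K : Subgroup M => Subgroup.focalSubgroup K)^[n] (H.subgroupOf M) = ⊥ := by
      have h1 := map_iterate_focalSubgroup_le M.subtype n (H.subgroupOf M)
      rw [hmap] at h1
      rw [Function.iterate_succ_apply] at hfoc
      rw [hfoc, le_bot_iff, (map_eq_bot_iff_of_injective _ M.subtype_injective)] at h1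
      exact h1
    obtain ⟨N, hN, hNc⟩ := ih (H.subgroupOf M) hHall1 hfoc1
    have hNcard : Nat.card N = H.index := by
      rw [← hidx]
      exact hNc.index_eq_card.symm
    have hNidx : N.index = Nat.card (H.subgroupOf M) := hNc.symm.index_eq_card
    have hNcop : (Nat.card N).Coprime N.index := by
      rw [hNcard, hNidx, ← hidx]
      exact hHall1.symm
    refine ⟨N.map M.subtype, Lib.NormalHall.normal_map_subtype_of_coprime M N hNcop, ?_⟩
    apply Lib.NormalHall.isComplement'_of_card_eq_index _ _ _ hHall
    rw [card_subtype, hNcard]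

end Cfsg.Agent.S0557
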