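import Cfsg.Statements.S2644
import Cfsg.Agent.LieClassical.HermGen
import Cfsg.Agent.ClassicalGeometry.RankOne
set_option linter.all false

set_option autoImplicit false
open Cfsg

namespace Cfsg.Agent.S2644

open Matrix Cfsg.Agent.LieClassical.HermBasic Cfsg.Agent.LieClassical.HermSiegel

/-- the transvections of `SU` are the maps `x ↦ x + μ h(x, u) u`. -/
theorem exists_form {K : Type*} [Field K] [Fintype K] {q n : ℕ} (hK : Fintype.card K = q ^ 2)
    (t : ↥(Cfsg.SU n K q))
    (ht : Cfsg.IsTransvection (((t : GL (Fin n) K) : Matrix (Fin n) (Fin n) K))) :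
    ∃ (u : Fin n → K) (μ : K), u ≠ 0 ∧ μ ≠ 0 ∧ hermForm n K q u u = 0 ∧ μ + μ ^ q = 0 ∧
      ∀ x, act t x = x + (μ * hermForm n K q x u) • u := by
  obtain ⟨hr, hsq⟩ := ht
  obtain ⟨a, b, ha, hb, hab⟩ :=
    Cfsg.Agent.ClassicalGeometry.RankOne.exists_vecMulVec_of_rank_eq_one _ hr
  have hact : ∀ x, act t x = x + (b ⬝ᵥ x) • a := by
    intro x
    have h1 : act t x = (((t : GL (Fin n) K) : Matrix (Fin n) (Fin n) K)) *ᵥ x := rfl
    have h2 : (((t : GL (Fin n) K) : Matrix (Fin n) (Fin n) K)) = 1 + Matrix.vecMulVec a b := by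
      rw [← hab]; abel
    rw [h1, h2, Matrix.add_mulVec, Matrix.one_mulVec, Matrix.vecMulVec_mulVec, op_smul_eq_smul]
  have hba : b ⬝ᵥ a = 0 := by
    rw [hab, Matrix.vecMulVec_mul_vecMulVec] at hsq
    obtain ⟨i, hi⟩ := Function.ne_iff.1 ha
    obtain ⟨j, hj⟩ := Function.ne_iff.1 hb
    have h1 := congrFun (congrFun hsq i) j
    simp only [Matrix.vecMulVec_apply, Matrix.zero_apply, Pi.smul_apply, smul_eq_mul] at h1
    rcases mul_eq_zero.1 h1 with h | h
    · exact absurd h hi
    · rcases mul_eq_zero.1 h with h | h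
      · exact h
      · exact absurd h hj
  -- the form is preserved
  have hform : ∀ x y, (b ⬝ᵥ x) * hermForm n K q a y + (b ⬝ᵥ y) ^ q * hermForm n K q x a +
      (b ⬝ᵥ x) * (b ⬝ᵥ y) ^ q * hermForm n K q a a = 0 := by
    intro x y
    have h := herm_act t x y
    rw [hact, hact, herm_add_left, herm_add_right hK, herm_add_right hK, herm_smul_left,
      herm_smul_left, herm_smul_right, herm_smul_right] at h
    linear_combination h
  obtain ⟨j, hj⟩ := Function.ne_iff.1 hb
  have hj : b j ≠ 0 := hj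
  have hbj : b ⬝ᵥ (Pi.single j 1) = b j := by simp
  have haa : hermForm n K q a a = 0 := by
    have h := hform (Pi.single j 1) a
    rw [hba, zero_pow_q hK, zero_mul, mul_zero, zero_mul, add_zero, add_zero, hbj] at h
    exact (mul_eq_zero.1 h).resolve_left hj
  -- `b ⬝ᵥ x` is a multiple of `h(x, a)`
  set y : Fin n → K := Pi.single j 1 with hy
  have h1 : ∀ x, (b ⬝ᵥ x) * hermForm n K q a y + (b j) ^ q * hermForm n K q x a = 0 := by
    intro x
    have h := hform x y
    rw [haa, mul_zero, add_zero, hbj] at h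
    exact h
  have hay : hermForm n K q a y ≠ 0 := by
    intro h0
    apply ha
    apply herm_nondeg hK
    intro x
    have h2 := h1 x
    rw [h0, mul_zero, zero_add] at h2
    have h3 : hermForm n K q x a = 0 := (mul_eq_zero.1 h2).resolve_left (pow_ne_zero _ hj)
    exact herm_eq_zero_swap hK h3
  obtain ⟨μ, hμdef⟩ : ∃ μ : K, μ = -((b j) ^ q / hermForm n K q a y) := ⟨_, rfl⟩
  have hμ : ∀ x, (b ⬝ᵥ x) = μ * hermForm n K q x a := by
    intro x
    have h2 := h1 x
    rw [hμdef]
    field_simp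
    linear_combination h2
  have hμ0 : μ ≠ 0 := by
    rw [hμdef]
    exact neg_ne_zero.2 (div_ne_zero (pow_ne_zero _ hj) hay)
  refine ⟨a, μ, ha, hμ0, haa, ?_, ?_⟩
  · have h := hform y y
    rw [haa, mul_zero, add_zero, hμ y, mul_pow, ← herm_swap hK y a] at h
    have h5 : hermForm n K q y a ≠ 0 := fun h => hay (herm_eq_zero_swap hK h)
    have h6 : (μ + μ ^ q) * (hermForm n K q y a * hermForm n K q a y) = 0 := by
      linear_combination h
    exact (mul_eq_zero.1 h6).resolve_right (mul_ne_zero h5 hay)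
  · intro x
    rw [hact, hμ]

/-- In the special unitary group SU_n(q) with n ≥ 3 (isometries of Σ u_i v_i^q of determinant one over the field with q² elements), any two transvections (elements t with t − 1 of rank one and square zero) are conjugate. -/
theorem result {K : Type*} [Field K] [Fintype K] {q n : ℕ} (hK : Fintype.card K = q ^ 2) (hn : 3 ≤ n) (s t : ↥(Cfsg.SU n K q)) (hs : Cfsg.IsTransvection (((s : GL (Fin n) K) : Matrix (Fin n) (Fin n) K))) (ht : Cfsg.IsTransvection (((t : GL (Fin n) K) : Matrix (Fin n) (Fin n) K))) : IsConj s t := by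
  obtain ⟨δ, hδ0, hδ⟩ := exists_trace_zero_ne hK
  have key : ∀ r : ↥(Cfsg.SU n K q), Cfsg.IsTransvection (((r : GL (Fin n) K) : Matrix (Fin n) (Fin n) K)) →
      ∃ u : Fin n → K, u ≠ 0 ∧ hermForm n K q u u = 0 ∧ ∀ x, act r x = x + (δ * hermForm n K q x u) • u := by
    intro r hr
    obtain ⟨u, μ, hu0, hμ0, huu, hμ, hact⟩ := exists_form hK r hr
    have hfix : (μ / δ) ^ q = μ / δ := by
      have h1 : μ ^ q = -μ := by linear_combination hμ
      have h2 : δ ^ q = -δ := by linear_combination hδ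
      rw [div_pow, h1, h2, neg_div_neg_eq]
    obtain ⟨c, hc0, hc⟩ := exists_norm_eq_ne hK hfix (div_ne_zero hμ0 hδ0)
    refine ⟨c • u, smul_ne_zero hc0 hu0, ?_, ?_⟩
    · rw [herm_smul_left, herm_smul_right, huu, mul_zero, mul_zero]
    · intro x
      rw [hact, herm_smul_right, smul_smul]
      congr 2
      have : μ = δ * (c * c ^ q) := by rw [hc]; field_simp
      rw [this]; ring
  obtain ⟨u, hu0, huu, hu⟩ := key s hs
  obtain ⟨v, hv0, hvv, hv⟩ := key t ht
  obtain ⟨g, -, hg⟩ := Cfsg.Agent.LieClassical.HermGen.exists_map_iso hK hn le_rfl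
    (Cfsg.Agent.LieClassical.HermGen.mem_coordSub_top u)
    (Cfsg.Agent.LieClassical.HermGen.mem_coordSub_top v) hu0 hv0 huu hvv
  rw [isConj_iff]
  refine ⟨g, ?_⟩
  apply ext_act
  intro x
  rw [act_mul, act_mul, hu, act_add, act_smul, act_act_inv, hv, hg, ← hg]
  congr 3
  rw [← herm_act g (act g⁻¹ x) u, act_act_inv]

end Cfsg.Agent.S2644
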