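import Cfsg.Statements.S0037
import Mathlib
import Cfsg.Agent.Solvable.Malnormal
set_option linter.all false

set_option autoImplicit false
open Pointwise
open Cfsg

namespace Cfsg.Agent.S0037

open Cfsg.Agent.Solvable.Malnormal

theorem isMalnormal_conj {G : Type*} [Group G] {H : Subgroup G} (h : IsMalnormal H) (g : G) :
    IsMalnormal (MulAut.conj g • H) := by
  rw [isMalnormal_iff] at h ⊢
  intro y x hx hx' hx1
  rw [mem_conj_smul] at hx hx' ⊢
  refine h (g⁻¹ * y * g) (g⁻¹ * x * g) hx ?_ ?_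
  · have : (g⁻¹ * y * g)⁻¹ * (g⁻¹ * x * g) * (g⁻¹ * y * g) = g⁻¹ * (y⁻¹ * x * y) * g := by group
    rwa [this]
  · intro h1
    apply hx1
    have : x = g * (g⁻¹ * x * g) * g⁻¹ := by group
    rw [this, h1]; simp

theorem isMalnormal_inf {G : Type*} [Group G] {H K : Subgroup G} (hH : IsMalnormal H)
    (hK : IsMalnormal K) : IsMalnormal (H ⊓ K) := by
  rw [isMalnormal_iff] at hH hK ⊢
  intro y x hx hx' hx1
  exact ⟨hH y x hx.1 hx'.1 hx1, hK y x hx.2 hx'.2 hx1⟩

theorem isMalnormal_subgroupOf {G : Type*} [Group G] {H : Subgroup G} (hH : IsMalnormal H)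
    (K : Subgroup G) : IsMalnormal (H.subgroupOf K) := by
  rw [isMalnormal_iff] at hH ⊢
  intro y x hx hx' hx1
  rw [Subgroup.mem_subgroupOf] at hx hx' ⊢
  refine hH y x hx ?_ ?_
  · simpa using hx'
  · intro h; apply hx1; exact Subtype.ext h

theorem two_mul_index_le {G : Type*} [Group G] [Finite G] {D H : Subgroup G} (hle : D ≤ H)
    (hne : D ≠ H) : 2 * H.index ≤ D.index := by
  rw [← Subgroup.relIndex_mul_index hle]
  apply Nat.mul_le_mul_right
  have h0 : D.relIndex H ≠ 0 := Subgroup.index_ne_zero_of_finite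
  have h1 : D.relIndex H ≠ 1 := by
    intro h
    rw [Subgroup.relIndex_eq_one] at h
    exact hne (le_antisymm hle h)
  omega

/-- Core statement for malnormal subgroups, elementwise form. -/
theorem core (n : ℕ) : ∀ {G : Type _} [Group G] [Finite G], Nat.card G ≤ n →
    ∀ (H H₀ : Subgroup G), IsMalnormal H → IsMalnormal H₀ → Nat.card H₀ ≤ Nat.card H →
    ∃ g : G, ∀ x ∈ H₀, g * x * g⁻¹ ∈ H := by
  induction n with
  | zero =>
    intro G _ _ hn
    exact absurd (Nat.card_pos (α := G)) (by omega)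
  | succ n ih =>
    intro G _ _ hn H H₀ hH hH₀ hle
    classical
    by_cases htop : H = ⊤
    · exact ⟨1, fun x _ => by rw [htop]; trivial⟩
    have hHlt : Nat.card H < Nat.card G := by
      rcases lt_or_eq_of_le (Subgroup.card_le_card_group H) with h | h
      · exact h
      · exact absurd (Subgroup.eq_top_of_card_eq H h) htop
    -- choose a conjugate of `H₀` with maximal intersection with `H`
    obtain ⟨g, hg⟩ : ∃ g : G, ∀ g' : G,
        Nat.card (H ⊓ (MulAut.conj g' • H₀) : Subgroup G) ≤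
          Nat.card (H ⊓ (MulAut.conj g • H₀) : Subgroup G) :=
      Finite.exists_max (fun g : G => Nat.card (H ⊓ (MulAut.conj g • H₀) : Subgroup G))
    by_cases hDH₀ : (MulAut.conj g • H₀) ≤ H
    · refine ⟨g, fun x hx => hDH₀ ?_⟩
      rw [mem_conj_smul]
      simpa [mul_assoc] using hx
    exfalso
    have hH₁ : IsMalnormal (MulAut.conj g • H₀) := isMalnormal_conj hH₀ g
    have hcardH₁ : Nat.card (MulAut.conj g • H₀ : Subgroup G) = Nat.card H₀ :=
      (Nat.card_congr (Subgroup.equivSMul (MulAut.conj g) H₀).toEquiv).symm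
    generalize hH₁def : MulAut.conj g • H₀ = H₁ at *
    set D : Subgroup G := H ⊓ H₁ with hD
    have hDmal : IsMalnormal D := isMalnormal_inf hH hH₁
    have hDH₁ : D ≠ H₁ := fun h => hDH₀ (inf_eq_right.1 h)
    have hDH : D ≠ H := by
      intro h
      have h1 : H ≤ H₁ := inf_eq_left.1 h
      have h2 : H = H₁ := Subgroup.eq_of_le_of_card_ge h1 (by rw [hcardH₁]; exact hle)
      exact hDH₀ h2.ge
    have hi1 : 2 * H₁.index ≤ D.index := two_mul_index_le inf_le_right hDH₁
    have hi2 : 2 * H.index ≤ D.index := two_mul_index_le inf_le_left hDH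
    -- an element of two conjugates but in no conjugate of `D`
    obtain ⟨x, hxD, hxH, hxH₁⟩ : ∃ x, x ∈ Cfsg.frobeniusKernel D ∧ x ∉ Cfsg.frobeniusKernel H ∧
        x ∉ Cfsg.frobeniusKernel H₁ := by
      by_contra hcon
      push Not at hcon
      have hsub : Cfsg.frobeniusKernel D ⊆ Cfsg.frobeniusKernel H ∪ Cfsg.frobeniusKernel H₁ := by
        intro x hx
        by_cases hxH : x ∈ Cfsg.frobeniusKernel H
        · exact Or.inl hxH
        · exact Or.inr (hcon x hx hxH)
      have h1 := Set.ncard_le_ncard hsub (Set.toFinite _)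
      have h2 := Set.ncard_union_add_ncard_inter (Cfsg.frobeniusKernel H)
        (Cfsg.frobeniusKernel H₁) (Set.toFinite _) (Set.toFinite _)
      have h3 : 0 < (Cfsg.frobeniusKernel H ∩ Cfsg.frobeniusKernel H₁).ncard := by
        rw [Set.ncard_pos (Set.toFinite _)]
        exact ⟨1, Or.inl rfl, Or.inl rfl⟩
      have e1 : (Cfsg.frobeniusKernel D).ncard = D.index := card_frobeniusKernel hDmal
      have e2 : (Cfsg.frobeniusKernel H).ncard = H.index := card_frobeniusKernel hH
      have e3 : (Cfsg.frobeniusKernel H₁).ncard = H₁.index := card_frobeniusKernel hH₁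
      omega
    rw [mem_frobeniusKernel] at hxD hxH hxH₁
    push Not at hxH hxH₁
    obtain ⟨hx1, a, ha⟩ := hxH
    obtain ⟨-, b, hb⟩ := hxH₁
    have hxD' := hxD.resolve_left hx1
    set D₁ : Subgroup G := H ⊓ (MulAut.conj (a⁻¹ * b * g) • H₀) with hD₁
    have hD₁mal : IsMalnormal D₁ := isMalnormal_inf hH (isMalnormal_conj hH₀ _)
    have hmem : a⁻¹ * x * a ∈ D₁ := by
      refine ⟨ha, ?_⟩
      change _ ∈ (MulAut.conj (a⁻¹ * b * g) • H₀ : Subgroup G)
      rw [mem_conj_smul]
      rw [← hH₁def, mem_conj_smul] at hb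
      have : (a⁻¹ * b * g)⁻¹ * (a⁻¹ * x * a) * (a⁻¹ * b * g) = g⁻¹ * (b⁻¹ * x * b) * g := by group
      rwa [this]
    have hcard : Nat.card (D₁.subgroupOf H) ≤ Nat.card (D.subgroupOf H) := by
      rw [Nat.card_congr (Subgroup.subgroupOfEquivOfLe (inf_le_left : D₁ ≤ H)).toEquiv,
        Nat.card_congr (Subgroup.subgroupOfEquivOfLe (inf_le_left : D ≤ H)).toEquiv]
      exact hg _
    obtain ⟨h, hh⟩ := ih (G := H) (by omega) (D.subgroupOf H) (D₁.subgroupOf H)
      (isMalnormal_subgroupOf hDmal H) (isMalnormal_subgroupOf hD₁mal H) hcard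
    have h3 := hh ⟨a⁻¹ * x * a, ha⟩ (Subgroup.mem_subgroupOf.2 hmem)
    rw [Subgroup.mem_subgroupOf] at h3
    refine hxD' (a * (h : G)⁻¹) ?_
    have : (a * (h : G)⁻¹)⁻¹ * x * (a * (h : G)⁻¹) = (h : G) * (a⁻¹ * x * a) * (h : G)⁻¹ := by group
    rw [this]
    simpa using h3

/-- Of two malnormal subgroups of a finite group, the one of smaller order is conjugate to a
subgroup of the other. -/
theorem exists_conj_le {G : Type*} [Group G] [Finite G] (H H₀ : Subgroup G)
    (hH : IsMalnormal H) (hH₀ : IsMalnormal H₀) (hle : Nat.card H₀ ≤ Nat.card H) :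
    ∃ g : G, MulAut.conj g • H₀ ≤ H := by
  obtain ⟨g, hg⟩ := core (Nat.card G) le_rfl H H₀ hH hH₀ hle
  refine ⟨g, fun x hx => ?_⟩
  rw [mem_conj_smul] at hx
  have := hg _ hx
  have e : g * (g⁻¹ * x * g) * g⁻¹ = x := by group
  rwa [e] at this

/-- Of two Frobenius complements in one finite group, the one of smaller (or equal) order is conjugate to a subgroup of the other. -/
theorem result {G : Type*} [Group G] [Finite G] (H H₀ : Subgroup G)
    (hH : Cfsg.IsFrobeniusComplement H) (hH₀ : Cfsg.IsFrobeniusComplement H₀) (hle : Nat.card H₀ ≤ Nat.card H) :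
    ∃ g : G, MulAut.conj g • H₀ ≤ H :=
  exists_conj_le H H₀ hH.2.2 hH₀.2.2 hle

end Cfsg.Agent.S0037
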