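import Cfsg.Statements.S0090
import Mathlib
import Cfsg.Agent.S0088
set_option linter.all false

set_option autoImplicit false
open Cfsg

namespace Cfsg.Agent.S0090

theorem mem_of_coprime_pow_mem {G : Type*} [Group G] (D : Subgroup G) (x : G) {m n : ℕ}
    (h : Nat.Coprime m n) (h1 : x ^ m ∈ D) (h2 : x ^ n ∈ D) : x ∈ D := by
  have h3 : (x ^ m) ^ (Nat.gcdA m n) * (x ^ n) ^ (Nat.gcdB m n) = x := by
    rw [← zpow_natCast, ← zpow_natCast, ← zpow_mul, ← zpow_mul, ← zpow_add, ← Nat.gcd_eq_gcd_ab,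
      Nat.Coprime.gcd_eq_one h, Nat.cast_one, zpow_one]
  rw [← h3]
  exact D.mul_mem (D.zpow_mem h1 _) (D.zpow_mem h2 _)

open scoped IsMulCommutative in
open Subgroup Subgroup.leftTransversals in
/-- The transfer of an element of an abelian normal subgroup `A` into `A`. -/
theorem transfer_apply_of_mem {G : Type*} [Group G] [Finite G] (A : Subgroup G) [A.Normal]
    [IsMulCommutative A] [Fintype (G ⧸ A)] (T : A.LeftTransversal) (a : A) :
    MonoidHom.transfer (MonoidHom.id A) (a : G) =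
      ∏ q : G ⧸ A, MulAut.conjNormal ((T.2.leftQuotientEquiv q : G)⁻¹) a := by
  rw [MonoidHom.transfer_def (MonoidHom.id A) T, diff]
  have hsub : A.fintypeQuotientOfFiniteIndex = (inferInstance : Fintype (G ⧸ A)) :=
    Subsingleton.elim _ _
  rw [hsub]
  apply Fintype.prod_congr
  intro q
  rw [MonoidHom.id_apply]
  apply Subtype.ext
  rw [MulAut.conjNormal_apply]
  have hq : (a : G)⁻¹ • q = q := by
    induction q using QuotientGroup.induction_on with
    | H t =>
      rw [MulAction.Quotient.smul_mk, QuotientGroup.eq, smul_eq_mul, mul_inv_rev, inv_inv]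
      have := ‹A.Normal›.conj_mem a a.2 t⁻¹
      simpa using this
  change (T.2.leftQuotientEquiv q : G)⁻¹ * ((((a : G) • T).2.leftQuotientEquiv q : _) : G) = _
  rw [smul_apply_eq_smul_apply_inv_smul, hq, smul_eq_mul, inv_inv, mul_assoc]

open scoped IsMulCommutative in
open Subgroup Subgroup.leftTransversals in
theorem transfer_mem_center {G : Type*} [Group G] [Finite G] (A : Subgroup G) [A.Normal]
    [IsMulCommutative A] (a : A) :
    (MonoidHom.transfer (MonoidHom.id A) (a : G) : A).1 ∈ Subgroup.center G := by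
  classical
  let _ : Fintype (G ⧸ A) := Fintype.ofFinite _
  let T : A.LeftTransversal := default
  rw [transfer_apply_of_mem A T a]
  have hT : ∀ q : G ⧸ A, ((T.2.leftQuotientEquiv q : G) : G ⧸ A) = q := fun q =>
    T.2.quotientGroupMk_leftQuotientEquiv q
  have key : ∀ g : G, MulAut.conjNormal g⁻¹ (∏ q : G ⧸ A, MulAut.conjNormal ((T.2.leftQuotientEquiv q : G)⁻¹) a) =
      ∏ q : G ⧸ A, MulAut.conjNormal ((T.2.leftQuotientEquiv q : G)⁻¹) a := by
    intro g
    rw [map_prod]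
    refine Fintype.prod_equiv (Equiv.mulRight (g : G ⧸ A)) _ _ ?_
    intro q
    have h1 : ((T.2.leftQuotientEquiv q : G) * g)⁻¹ * (T.2.leftQuotientEquiv (q * (g : G ⧸ A)) : G) ∈ A := by
      rw [← QuotientGroup.eq, QuotientGroup.mk_mul, hT, hT]
    obtain ⟨b, hb⟩ : ∃ b : A, (b : G) = ((T.2.leftQuotientEquiv q : G) * g)⁻¹ * (T.2.leftQuotientEquiv (q * (g : G ⧸ A)) : G) := ⟨⟨_, h1⟩, rfl⟩
    have h2 : (T.2.leftQuotientEquiv (q * (g : G ⧸ A)) : G) = (T.2.leftQuotientEquiv q : G) * g * b := by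
      rw [hb]; group
    rw [Equiv.coe_mulRight, h2]
    apply Subtype.ext
    simp only [MulAut.conjNormal_apply]
    have hmem : ((T.2.leftQuotientEquiv q : G) * g)⁻¹ * a * ((T.2.leftQuotientEquiv q : G) * g) ∈ A := by
      have := ‹A.Normal›.conj_mem a a.2 (((T.2.leftQuotientEquiv q : G) * g)⁻¹)
      simpa [mul_assoc] using this
    have hcomm : (b : G) * (((T.2.leftQuotientEquiv q : G) * g)⁻¹ * a * ((T.2.leftQuotientEquiv q : G) * g)) =
        (((T.2.leftQuotientEquiv q : G) * g)⁻¹ * a * ((T.2.leftQuotientEquiv q : G) * g)) * b := by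
      have := mul_comm b (⟨_, hmem⟩ : A)
      exact congrArg Subtype.val this
    have h3 : ((T.2.leftQuotientEquiv q : G) * g * b)⁻¹ * a * ((T.2.leftQuotientEquiv q : G) * g * b) =
      (b : G)⁻¹ * ((((T.2.leftQuotientEquiv q : G) * g)⁻¹ * a * ((T.2.leftQuotientEquiv q : G) * g)) * b) := by
      group
    rw [inv_inv, inv_inv, inv_inv, h3, ← hcomm]
    group
  rw [Subgroup.mem_center_iff]
  intro g
  have h := congrArg Subtype.val (key g)
  rw [MulAut.conjNormal_apply, inv_inv] at h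
  generalize hx : (∏ q : G ⧸ A, MulAut.conjNormal ((T.2.leftQuotientEquiv q : G)⁻¹) a) = x at h ⊢
  calc g * (x : G) = g * (g⁻¹ * x * g) := by rw [h]
    _ = x * g := by group

open scoped IsMulCommutative commutatorElement in
open Subgroup Subgroup.leftTransversals in
theorem transfer_eq_pow_mul {G : Type*} [Group G] [Finite G] (A : Subgroup G) [A.Normal]
    [IsMulCommutative A] (a : A) :
    (a : G) ^ A.index * ((MonoidHom.transfer (MonoidHom.id A) (a : G) : A).1)⁻¹ ∈ ⁅A, (⊤ : Subgroup G)⁆ := by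
  classical
  let _ : Fintype (G ⧸ A) := Fintype.ofFinite _
  let T : A.LeftTransversal := default
  rw [transfer_apply_of_mem A T a]
  have h1 : (a : G) ^ A.index * (((∏ q : G ⧸ A, MulAut.conjNormal ((T.2.leftQuotientEquiv q : G)⁻¹) a) : A) : G)⁻¹ =
      ((∏ q : G ⧸ A, (a * (MulAut.conjNormal ((T.2.leftQuotientEquiv q : G)⁻¹) a)⁻¹) : A) : G) := by
    rw [Finset.prod_mul_distrib, Finset.prod_const, Finset.prod_inv_distrib, Finset.card_univ,
      Subgroup.index_eq_card, Nat.card_eq_fintype_card]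
    simp
  rw [h1]
  have h2 : (∏ q : G ⧸ A, (a * (MulAut.conjNormal ((T.2.leftQuotientEquiv q : G)⁻¹) a)⁻¹)) ∈
      (⁅A, (⊤ : Subgroup G)⁆).subgroupOf A := by
    apply Subgroup.prod_mem
    intro q _
    rw [Subgroup.mem_subgroupOf]
    have h3 : ((a * (MulAut.conjNormal ((T.2.leftQuotientEquiv q : G)⁻¹) a)⁻¹ : A) : G) =
        ⁅(a : G), (T.2.leftQuotientEquiv q : G)⁻¹⁆ := by
      rw [Subgroup.coe_mul, Subgroup.coe_inv, MulAut.conjNormal_apply, commutatorElement_def]
      group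
    rw [h3]
    exact Subgroup.commutator_mem_commutator a.2 (Subgroup.mem_top _)
  exact h2

open scoped IsMulCommutative in
theorem exists_transfer {G : Type*} [Group G] [Finite G] (A : Subgroup G) [A.Normal]
    [IsMulCommutative A] : ∃ τ : G →* A, commutator G ≤ τ.ker ∧
      (∀ a : A, (τ (a : G)).1 ∈ Subgroup.center G) ∧
      ∀ a : A, (a : G) ^ A.index * ((τ (a : G)).1)⁻¹ ∈ ⁅A, (⊤ : Subgroup G)⁆ :=
  ⟨MonoidHom.transfer (MonoidHom.id A), Abelianization.commutator_subset_ker _,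
    transfer_mem_center A, transfer_eq_pow_mul A⟩

/-- An abelian normal Hall subgroup A splits as the internal direct product of G' ∩ A and Z(G) ∩ A, and [A, G] = G' ∩ A. -/
theorem result {G : Type*} [Group G] [Finite G] (A : Subgroup G) [A.Normal] (hc : IsMulCommutative A) (hHall : Nat.Coprime (Nat.card A) A.index) : ⁅A, (⊤ : Subgroup G)⁆ = commutator G ⊓ A ∧ (commutator G ⊓ A) ⊓ (Subgroup.center G ⊓ A) = ⊥ ∧ (commutator G ⊓ A) ⊔ (Subgroup.center G ⊓ A) = A := by
  have hle : ⁅A, (⊤ : Subgroup G)⁆ ≤ commutator G ⊓ A :=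
    le_inf (Subgroup.commutator_mono le_top le_rfl) (Subgroup.commutator_le_left A ⊤)
  have hcard : ∀ x ∈ A, x ^ Nat.card A = 1 := by
    intro x hx
    exact congrArg Subtype.val (pow_card_eq_one' (G := A) (x := ⟨x, hx⟩))
  obtain ⟨τ, hτ1, hτ2, hτ3⟩ := exists_transfer A
  refine ⟨le_antisymm hle ?_, ?_, ?_⟩
  · rintro x ⟨hx1, hx2⟩
    have h1 := hτ3 ⟨x, hx2⟩
    have h2 : τ x = 1 := hτ1 hx1
    dsimp only at h1
    rw [h2, Subgroup.coe_one, inv_one, mul_one] at h1
    apply mem_of_coprime_pow_mem _ x hHall _ h1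
    rw [hcard x hx2]
    exact Subgroup.one_mem _
  · have h1 := Cfsg.Agent.S0088.result A hc hHall
    rw [eq_bot_iff] at h1 ⊢
    rintro x ⟨⟨hx1, hx2⟩, hx3, -⟩
    exact h1 ⟨⟨hx2, hx1⟩, hx3⟩
  · apply le_antisymm (sup_le inf_le_right inf_le_right)
    intro x hx
    have h1 := hτ3 ⟨x, hx⟩
    have h2 := hτ2 ⟨x, hx⟩
    dsimp only at h1 h2
    apply mem_of_coprime_pow_mem _ x hHall
    · rw [hcard x hx]
      exact Subgroup.one_mem _
    · have h3 : x ^ A.index = (x ^ A.index * (τ x : G)⁻¹) * (τ x : G) := by group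
      rw [h3]
      exact Subgroup.mul_mem_sup (hle h1) ⟨h2, (τ x).2⟩

end Cfsg.Agent.S0090
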