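import Mathlib
import Cfsg.Prelude.Def_Transfer
import Cfsg.Statements.S0098
set_option linter.all false

-- part: Transfer/HyperbolicPair
section
/-!
# Hyperbolic pairs in (almost) extraspecial groups

`Core p G z` says that the centre of `G` is generated by the element `z` of order `p` and that all
commutators lie in the centre.  A pair `x, y` with `⁅x, y⁆ = z` splits `G` as the central product of
`⟨x, y⟩` and the centralizer of the pair, which is again of the same kind.  An isomorphism between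
two such centralizers can be extended when the `p`-th powers of the pairs correspond.
-/

set_option autoImplicit false

open scoped commutatorElement

namespace Cfsg.Agent.Transfer.HyperbolicPair

section ClassTwo

variable {G : Type*} [Group G]

theorem comm_mul_left (hc : ∀ a b : G, ⁅a, b⁆ ∈ Subgroup.center G) (a b c : G) :
    ⁅a * b, c⁆ = ⁅a, c⁆ * ⁅b, c⁆ := by
  have h := Subgroup.mem_center_iff.mp (hc b c) a
  calc ⁅a * b, c⁆ = (a * ⁅b, c⁆) * (c * a⁻¹ * c⁻¹) := by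
        simp only [commutatorElement_def]; group
    _ = (⁅b, c⁆ * a) * (c * a⁻¹ * c⁻¹) := by rw [h]
    _ = ⁅b, c⁆ * ⁅a, c⁆ := by simp only [commutatorElement_def]; group
    _ = ⁅a, c⁆ * ⁅b, c⁆ := Subgroup.mem_center_iff.mp (hc a c) _

theorem comm_mul_right (hc : ∀ a b : G, ⁅a, b⁆ ∈ Subgroup.center G) (a b c : G) :
    ⁅a, b * c⁆ = ⁅a, b⁆ * ⁅a, c⁆ := by
  have h1 := comm_mul_left hc b c a
  rw [← commutatorElement_inv, h1, mul_inv_rev, commutatorElement_inv, commutatorElement_inv]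
  exact Subgroup.mem_center_iff.mp (hc a b) _

/-- `g ↦ ⁅g, c⁆` as a homomorphism. -/
def leftHom (hc : ∀ a b : G, ⁅a, b⁆ ∈ Subgroup.center G) (c : G) : G →* G :=
  MonoidHom.mk' (fun g => ⁅g, c⁆) (fun a b => comm_mul_left hc a b c)

/-- `g ↦ ⁅c, g⁆` as a homomorphism. -/
def rightHom (hc : ∀ a b : G, ⁅a, b⁆ ∈ Subgroup.center G) (c : G) : G →* G :=
  MonoidHom.mk' (fun g => ⁅c, g⁆) (fun a b => comm_mul_right hc c a b)

theorem comm_zpow_left (hc : ∀ a b : G, ⁅a, b⁆ ∈ Subgroup.center G) (a b : G) (n : ℤ) :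
    ⁅a ^ n, b⁆ = ⁅a, b⁆ ^ n :=
  map_zpow (leftHom hc b) a n

theorem comm_zpow_right (hc : ∀ a b : G, ⁅a, b⁆ ∈ Subgroup.center G) (a b : G) (n : ℤ) :
    ⁅a, b ^ n⁆ = ⁅a, b⁆ ^ n :=
  map_zpow (rightHom hc a) b n

theorem comm_inv_left (hc : ∀ a b : G, ⁅a, b⁆ ∈ Subgroup.center G) (a b : G) :
    ⁅a⁻¹, b⁆ = ⁅a, b⁆⁻¹ :=
  map_inv (leftHom hc b) a

theorem comm_inv_right (hc : ∀ a b : G, ⁅a, b⁆ ∈ Subgroup.center G) (a b : G) :
    ⁅a, b⁻¹⁆ = ⁅a, b⁆⁻¹ :=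
  map_inv (rightHom hc a) b

end ClassTwo

/-- The centre of `G` is generated by `z`, of order `p`, and contains all commutators. -/
structure Core (p : ℕ) (G : Type*) [Group G] (z : G) : Prop where
  ord : orderOf z = p
  center_eq : Subgroup.center G = Subgroup.zpowers z
  comm_mem : ∀ x y : G, ⁅x, y⁆ ∈ Subgroup.zpowers z

/-- The centralizer of a pair. -/
abbrev pairCentralizer {G : Type*} [Group G] (x y : G) : Subgroup G :=
  Subgroup.centralizer {x, y}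

namespace Core

variable {G : Type*} [Group G] {p : ℕ} {z : G}

theorem hc (h : Core p G z) (a b : G) : ⁅a, b⁆ ∈ Subgroup.center G := by
  rw [h.center_eq]; exact h.comm_mem a b

theorem z_mem (h : Core p G z) : z ∈ Subgroup.center G := by
  rw [h.center_eq]; exact Subgroup.mem_zpowers z

theorem commute_z (h : Core p G z) (g : G) : Commute g z :=
  Subgroup.mem_center_iff.mp h.z_mem g

theorem commute_zpow (h : Core p G z) (g : G) (n : ℤ) : Commute g (z ^ n) :=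
  (h.commute_z g).zpow_right n

theorem z_pow (h : Core p G z) : z ^ p = 1 := by
  rw [← h.ord]; exact pow_orderOf_eq_one z

theorem z_mem_pair (h : Core p G z) (x y : G) : z ∈ pairCentralizer x y :=
  Subgroup.center_le_centralizer _ h.z_mem

theorem mem_pair {x y c : G} : c ∈ pairCentralizer x y ↔ Commute x c ∧ Commute y c := by
  simp [pairCentralizer, Subgroup.mem_centralizer_iff, Commute, SemiconjBy]

/-- An element outside the centre is part of a hyperbolic pair. -/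
theorem exists_partner (h : Core p G z) (hp : p.Prime) {x : G} (hx : x ∉ Subgroup.center G) :
    ∃ y : G, ⁅x, y⁆ = z := by
  have hne : ∃ y : G, ⁅x, y⁆ ≠ 1 := by
    by_contra hcon
    push Not at hcon
    apply hx
    rw [Subgroup.mem_center_iff]
    intro g
    exact (commutatorElement_eq_one_iff_mul_comm.mp (hcon g)).symm
  obtain ⟨y, hy⟩ := hne
  obtain ⟨k, hk⟩ := Subgroup.mem_zpowers_iff.mp (h.comm_mem x y)
  have hkp : ¬ (p : ℤ) ∣ k := by
    intro hd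
    apply hy
    rw [← hk, ← orderOf_dvd_iff_zpow_eq_one, h.ord]
    exact hd
  have hcop : IsCoprime k (p : ℤ) :=
    ((Nat.prime_iff_prime_int.mp hp).coprime_iff_not_dvd.mpr hkp).symm
  obtain ⟨u, v, huv⟩ := hcop
  refine ⟨y ^ u, ?_⟩
  rw [comm_zpow_right h.hc, ← hk, ← zpow_mul]
  have hku : k * u = 1 - (p : ℤ) * v := by linarith
  rw [hku, zpow_sub, zpow_one, zpow_mul, zpow_natCast, h.z_pow, one_zpow, inv_one, mul_one]

/-- The product formula for `x ^ i * y ^ j * c`. -/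
theorem swap (h : Core p G z) {x y : G} (hxy : ⁅x, y⁆ = z) (j k : ℤ) :
    y ^ j * x ^ k = x ^ k * y ^ j * z ^ (-(j * k)) := by
  have h1 : ⁅y ^ j, x ^ k⁆ = z ^ (-(j * k)) := by
    rw [comm_zpow_left h.hc, comm_zpow_right h.hc, ← commutatorElement_inv, hxy, ← zpow_neg_one,
      ← zpow_mul, ← zpow_mul]
    congr 1
    ring
  have h2 : y ^ j * x ^ k = ⁅y ^ j, x ^ k⁆ * (x ^ k * y ^ j) := by
    simp [commutatorElement_def, mul_assoc]
  rw [h2, h1]
  exact (h.commute_zpow _ _).symm.eq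

theorem mul_formula (h : Core p G z) {x y : G} (hxy : ⁅x, y⁆ = z) (i j k l : ℤ) {c : G}
    (hc : c ∈ pairCentralizer x y) (d : G) :
    (x ^ i * y ^ j * c) * (x ^ k * y ^ l * d) =
      x ^ (i + k) * y ^ (j + l) * (z ^ (-(j * k)) * c * d) := by
  obtain ⟨hxc, hyc⟩ := mem_pair.mp hc
  have h1 : c * (x ^ k * y ^ l) = x ^ k * y ^ l * c :=
    (((hxc.zpow_left k).mul_left (hyc.zpow_left l)).eq).symm
  calc (x ^ i * y ^ j * c) * (x ^ k * y ^ l * d)
      = x ^ i * y ^ j * (c * (x ^ k * y ^ l)) * d := by simp only [mul_assoc]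
    _ = x ^ i * (y ^ j * x ^ k) * y ^ l * c * d := by rw [h1]; simp only [mul_assoc]
    _ = x ^ i * x ^ k * y ^ j * (z ^ (-(j * k)) * y ^ l) * c * d := by
        rw [h.swap hxy]; simp only [mul_assoc]
    _ = x ^ i * x ^ k * y ^ j * (y ^ l * z ^ (-(j * k))) * c * d := by
        rw [(h.commute_zpow (y ^ l) (-(j * k))).eq]
    _ = x ^ (i + k) * y ^ (j + l) * (z ^ (-(j * k)) * c * d) := by
        rw [zpow_add, zpow_add]; simp only [mul_assoc]

theorem inv_formula (h : Core p G z) {x y : G} (hxy : ⁅x, y⁆ = z) (i j : ℤ) {c : G}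
    (hc : c ∈ pairCentralizer x y) :
    (x ^ i * y ^ j * c)⁻¹ = x ^ (-i) * y ^ (-j) * (z ^ (-(i * j)) * c⁻¹) := by
  rw [inv_eq_iff_mul_eq_one, h.mul_formula hxy i j (-i) (-j) hc]
  simp only [add_neg_cancel, zpow_zero, one_mul]
  have e1 : z ^ (-(j * -i)) * c * (z ^ (-(i * j)) * c⁻¹) =
      z ^ (-(j * -i)) * (c * z ^ (-(i * j))) * c⁻¹ := by simp only [mul_assoc]
  rw [e1, (h.commute_zpow c (-(i * j))).eq]
  have e2 : z ^ (-(j * -i)) * (z ^ (-(i * j)) * c) * c⁻¹ =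
      z ^ (-(j * -i)) * z ^ (-(i * j)) := by simp [mul_assoc]
  rw [e2, ← zpow_add]
  have e3 : -(j * -i) + -(i * j) = 0 := by ring
  rw [e3, zpow_zero]

theorem comm_x (h : Core p G z) {x y : G} (hxy : ⁅x, y⁆ = z) (i j : ℤ) {c : G}
    (hc : c ∈ pairCentralizer x y) : ⁅x, x ^ i * y ^ j * c⁆ = z ^ j := by
  obtain ⟨hxc, -⟩ := mem_pair.mp hc
  rw [comm_mul_right h.hc, comm_mul_right h.hc, comm_zpow_right h.hc, comm_zpow_right h.hc, hxy,
    commutatorElement_self, one_zpow, one_mul, commutatorElement_eq_one_iff_commute.mpr hxc,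
    mul_one]

theorem comm_y (h : Core p G z) {x y : G} (hxy : ⁅x, y⁆ = z) (i j : ℤ) {c : G}
    (hc : c ∈ pairCentralizer x y) : ⁅x ^ i * y ^ j * c, y⁆ = z ^ i := by
  obtain ⟨-, hyc⟩ := mem_pair.mp hc
  rw [comm_mul_left h.hc, comm_mul_left h.hc, comm_zpow_left h.hc, comm_zpow_left h.hc, hxy,
    commutatorElement_self, one_zpow, mul_one, commutatorElement_eq_one_iff_commute.mpr hyc.symm,
    mul_one]

theorem dvd_of_eq_one (h : Core p G z) {x y : G} (hxy : ⁅x, y⁆ = z) (i j : ℤ) {c : G}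
    (hc : c ∈ pairCentralizer x y) (h1 : x ^ i * y ^ j * c = 1) : (p : ℤ) ∣ i ∧ (p : ℤ) ∣ j := by
  have hx := h.comm_x hxy i j hc
  have hy := h.comm_y hxy i j hc
  rw [h1, commutatorElement_one_right] at hx
  rw [h1, commutatorElement_one_left] at hy
  constructor
  · rw [← h.ord, orderOf_dvd_iff_zpow_eq_one, ← hy]
  · rw [← h.ord, orderOf_dvd_iff_zpow_eq_one, ← hx]

/-- Every element is `x ^ i * y ^ j * c` with `c` centralizing `x` and `y`. -/
theorem exists_decomp (h : Core p G z) {x y : G} (hxy : ⁅x, y⁆ = z) (g : G) :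
    ∃ i j : ℤ, ∃ c ∈ pairCentralizer x y, g = x ^ i * y ^ j * c := by
  obtain ⟨i, hi⟩ := Subgroup.mem_zpowers_iff.mp (h.comm_mem g y)
  obtain ⟨j, hj⟩ := Subgroup.mem_zpowers_iff.mp (h.comm_mem x g)
  refine ⟨i, j, (x ^ i * y ^ j)⁻¹ * g, ?_, by group⟩
  have hx0 := h.comm_x hxy i j (one_mem _)
  have hy0 := h.comm_y hxy i j (one_mem _)
  rw [mul_one] at hx0 hy0
  rw [mem_pair]
  constructor
  · rw [← commutatorElement_eq_one_iff_commute, comm_mul_right h.hc, comm_inv_right h.hc, hx0,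
      ← hj, inv_mul_cancel]
  · apply Commute.symm
    rw [← commutatorElement_eq_one_iff_commute, comm_mul_left h.hc, comm_inv_left h.hc, hy0,
      ← hi, inv_mul_cancel]

/-- The centralizer of a hyperbolic pair is again of the same kind. -/
theorem centralizer_pair (h : Core p G z) {x y : G} (hxy : ⁅x, y⁆ = z) :
    Core p (pairCentralizer x y) ⟨z, h.z_mem_pair x y⟩ where
  ord := (Subgroup.orderOf_mk z (h.z_mem_pair x y)).trans h.ord
  center_eq := by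
    ext ⟨c, hc⟩
    rw [Subgroup.mem_center_iff, Subgroup.mem_zpowers_iff]
    constructor
    · intro hcc
      have hcen : c ∈ Subgroup.center G := by
        rw [Subgroup.mem_center_iff]
        intro g
        obtain ⟨i, j, d, hd, rfl⟩ := h.exists_decomp hxy g
        obtain ⟨hxc, hyc⟩ := mem_pair.mp hc
        have hdc : Commute d c := congrArg Subtype.val (hcc ⟨d, hd⟩)
        exact (((hxc.zpow_left i).mul_left (hyc.zpow_left j)).mul_left hdc).eq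
      rw [h.center_eq, Subgroup.mem_zpowers_iff] at hcen
      obtain ⟨k, hk⟩ := hcen
      exact ⟨k, Subtype.ext (by simpa using hk)⟩
    · rintro ⟨k, hk⟩ ⟨g, hg⟩
      have hk' : z ^ k = c := by simpa using congrArg Subtype.val hk
      apply Subtype.ext
      change g * c = c * g
      rw [← hk']
      exact (h.commute_zpow g k).eq
  comm_mem := by
    rintro ⟨a, ha⟩ ⟨b, hb⟩
    obtain ⟨k, hk⟩ := Subgroup.mem_zpowers_iff.mp (h.comm_mem a b)
    refine Subgroup.mem_zpowers_iff.mpr ⟨k, Subtype.ext ?_⟩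
    exact hk

/-- `g ↦ (⁅g, y⁆, ⁅x, g⁆)`. -/
def pairHom (h : Core p G z) (x y : G) : G →* G × G :=
  (leftHom h.hc y).prod (rightHom h.hc x)

theorem pairHom_apply (h : Core p G z) (x y g : G) : h.pairHom x y g = (⁅g, y⁆, ⁅x, g⁆) := rfl

theorem ker_pairHom (h : Core p G z) (x y : G) :
    (h.pairHom x y).ker = pairCentralizer x y := by
  ext g
  rw [MonoidHom.mem_ker, pairHom_apply, mem_pair, Prod.mk_eq_one,
    commutatorElement_eq_one_iff_commute, commutatorElement_eq_one_iff_commute]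
  exact ⟨fun hh => ⟨hh.2, hh.1.symm⟩, fun hh => ⟨hh.2.symm, hh.1⟩⟩

theorem range_pairHom (h : Core p G z) {x y : G} (hxy : ⁅x, y⁆ = z) :
    (h.pairHom x y).range = (Subgroup.zpowers z).prod (Subgroup.zpowers z) := by
  ext ⟨a, b⟩
  rw [MonoidHom.mem_range, Subgroup.mem_prod]
  constructor
  · rintro ⟨g, hg⟩
    rw [pairHom_apply] at hg
    obtain ⟨rfl, rfl⟩ := Prod.mk.injEq _ _ _ _ ▸ hg
    exact ⟨h.comm_mem _ _, h.comm_mem _ _⟩
  · rintro ⟨ha, hb⟩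
    obtain ⟨i, hi⟩ := Subgroup.mem_zpowers_iff.mp ha
    obtain ⟨j, hj⟩ := Subgroup.mem_zpowers_iff.mp hb
    refine ⟨x ^ i * y ^ j * 1, ?_⟩
    rw [pairHom_apply, h.comm_x hxy i j (one_mem _), h.comm_y hxy i j (one_mem _)]
    exact Prod.ext hi hj

/-- The centralizer of a hyperbolic pair has index `p ^ 2`. -/
theorem index_pair (h : Core p G z) {x y : G} (hxy : ⁅x, y⁆ = z) :
    (pairCentralizer x y).index = p ^ 2 := by
  rw [← h.ker_pairHom x y, Subgroup.index_ker, h.range_pairHom hxy]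
  have e := Nat.card_congr
    ((Subgroup.zpowers z).prodEquiv (Subgroup.zpowers z)).toEquiv
  rw [e, Nat.card_prod, Nat.card_zpowers, h.ord, sq]

theorem card_eq (h : Core p G z) {x y : G} (hxy : ⁅x, y⁆ = z) :
    Nat.card G = p ^ 2 * Nat.card (pairCentralizer x y) := by
  rw [← Subgroup.index_mul_card (pairCentralizer x y), h.index_pair hxy]

end Core

section Glue

variable {G₁ : Type*} {G₂ : Type*} [Group G₁] [Group G₂] {p : ℕ} {z₁ : G₁} {z₂ : G₂}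

/-- The graph of the glued isomorphism. -/
def glueGraph (h₁ : Core p G₁ z₁) (h₂ : Core p G₂ z₂) {x₁ y₁ : G₁} {x₂ y₂ : G₂}
    (e₁ : ⁅x₁, y₁⁆ = z₁) (e₂ : ⁅x₂, y₂⁆ = z₂)
    (ψ : pairCentralizer x₁ y₁ ≃* pairCentralizer x₂ y₂)
    (hψ : ψ ⟨z₁, h₁.z_mem_pair x₁ y₁⟩ = ⟨z₂, h₂.z_mem_pair x₂ y₂⟩) : Subgroup (G₁ × G₂) where
  carrier := {g | ∃ i j : ℤ, ∃ c : pairCentralizer x₁ y₁,
    g.1 = x₁ ^ i * y₁ ^ j * c ∧ g.2 = x₂ ^ i * y₂ ^ j * (ψ c)}
  one_mem' := ⟨0, 0, 1, by simp, by simp⟩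
  mul_mem' := by
    rintro ⟨a, a'⟩ ⟨b, b'⟩ ⟨i, j, c, ha, ha'⟩ ⟨k, l, d, hb, hb'⟩
    refine ⟨i + k, j + l, ⟨z₁, h₁.z_mem_pair x₁ y₁⟩ ^ (-(j * k)) * c * d, ?_, ?_⟩
    · change a * b = _
      simp only at ha hb
      rw [ha, hb, h₁.mul_formula e₁ i j k l c.2]
      simp
    · change a' * b' = _
      simp only at ha' hb'
      rw [ha', hb', h₂.mul_formula e₂ i j k l (ψ c).2, map_mul, map_mul, map_zpow, hψ]
      simp
  inv_mem' := by
    rintro ⟨a, a'⟩ ⟨i, j, c, ha, ha'⟩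
    refine ⟨-i, -j, ⟨z₁, h₁.z_mem_pair x₁ y₁⟩ ^ (-(i * j)) * c⁻¹, ?_, ?_⟩
    · change a⁻¹ = _
      simp only at ha
      rw [ha, h₁.inv_formula e₁ i j c.2]
      simp
    · change a'⁻¹ = _
      simp only at ha'
      rw [ha', h₂.inv_formula e₂ i j (ψ c).2, map_mul, map_inv, map_zpow, hψ]
      simp

theorem mem_glueGraph (h₁ : Core p G₁ z₁) (h₂ : Core p G₂ z₂) {x₁ y₁ : G₁} {x₂ y₂ : G₂}
    (e₁ : ⁅x₁, y₁⁆ = z₁) (e₂ : ⁅x₂, y₂⁆ = z₂)
    (ψ : pairCentralizer x₁ y₁ ≃* pairCentralizer x₂ y₂)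
    (hψ : ψ ⟨z₁, h₁.z_mem_pair x₁ y₁⟩ = ⟨z₂, h₂.z_mem_pair x₂ y₂⟩) (g : G₁ × G₂) :
    g ∈ glueGraph h₁ h₂ e₁ e₂ ψ hψ ↔ ∃ i j : ℤ, ∃ c : pairCentralizer x₁ y₁,
      g.1 = x₁ ^ i * y₁ ^ j * c ∧ g.2 = x₂ ^ i * y₂ ^ j * (ψ c) := Iff.rfl

/-- The kernel computation behind `glue`. -/
theorem glue_aux (h₁ : Core p G₁ z₁) (h₂ : Core p G₂ z₂) {x₁ y₁ : G₁} {x₂ y₂ : G₂}
    (e₁ : ⁅x₁, y₁⁆ = z₁) {a b : ℤ}
    (hx₁ : x₁ ^ p = z₁ ^ a) (hy₁ : y₁ ^ p = z₁ ^ b) (hx₂ : x₂ ^ p = z₂ ^ a) (hy₂ : y₂ ^ p = z₂ ^ b)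
    (ψ : pairCentralizer x₁ y₁ ≃* pairCentralizer x₂ y₂)
    (hψ : ψ ⟨z₁, h₁.z_mem_pair x₁ y₁⟩ = ⟨z₂, h₂.z_mem_pair x₂ y₂⟩)
    (i j : ℤ) (c : pairCentralizer x₁ y₁) (h : x₁ ^ i * y₁ ^ j * (c : G₁) = 1) :
    x₂ ^ i * y₂ ^ j * (ψ c : G₂) = 1 := by
  obtain ⟨⟨k, rfl⟩, ⟨l, rfl⟩⟩ := h₁.dvd_of_eq_one e₁ i j c.2 h
  rw [zpow_mul, zpow_mul, zpow_natCast, zpow_natCast, hx₁, hy₁, ← zpow_mul, ← zpow_mul,
    ← zpow_add] at h
  have hc : c = ⟨z₁, h₁.z_mem_pair x₁ y₁⟩ ^ (-(a * k + b * l)) := by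
    apply Subtype.ext
    rw [zpow_neg]
    simp only [Subgroup.coe_inv, Subgroup.coe_zpow]
    exact (inv_eq_of_mul_eq_one_right h).symm
  rw [hc, map_zpow, hψ, zpow_mul, zpow_mul, zpow_natCast, zpow_natCast, hx₂, hy₂, ← zpow_mul,
    ← zpow_mul, ← zpow_add]
  simp only [Subgroup.coe_zpow]
  rw [← zpow_add, add_neg_cancel, zpow_zero]

/-- Gluing: an isomorphism between the centralizers of two hyperbolic pairs with the same `p`-th
powers extends to the whole groups. -/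
theorem glue (h₁ : Core p G₁ z₁) (h₂ : Core p G₂ z₂) {x₁ y₁ : G₁} {x₂ y₂ : G₂}
    (e₁ : ⁅x₁, y₁⁆ = z₁) (e₂ : ⁅x₂, y₂⁆ = z₂) {a b : ℤ}
    (hx₁ : x₁ ^ p = z₁ ^ a) (hy₁ : y₁ ^ p = z₁ ^ b) (hx₂ : x₂ ^ p = z₂ ^ a) (hy₂ : y₂ ^ p = z₂ ^ b)
    (ψ : pairCentralizer x₁ y₁ ≃* pairCentralizer x₂ y₂)
    (hψ : ψ ⟨z₁, h₁.z_mem_pair x₁ y₁⟩ = ⟨z₂, h₂.z_mem_pair x₂ y₂⟩) :
    ∃ Φ : G₁ ≃* G₂, Φ z₁ = z₂ ∧ Φ x₁ = x₂ ∧ Φ y₁ = y₂ ∧
      ∀ c : pairCentralizer x₁ y₁, Φ c = ψ c := by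
  set Γ := glueGraph h₁ h₂ e₁ e₂ ψ hψ with hΓ
  have hψ' : ψ.symm ⟨z₂, h₂.z_mem_pair x₂ y₂⟩ = ⟨z₁, h₁.z_mem_pair x₁ y₁⟩ := by
    rw [← hψ, MulEquiv.symm_apply_apply]
  have inj1 : Function.Injective (Prod.fst ∘ Γ.subtype) := by
    have : Function.Injective ((MonoidHom.fst G₁ G₂).comp Γ.subtype) := by
      rw [injective_iff_map_eq_one]
      rintro ⟨⟨g, g'⟩, hg⟩ h1
      obtain ⟨i, j, c, hg1, hg2⟩ := hg
      simp only at hg1 hg2
      have hg1' : g = 1 := h1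
      have := glue_aux h₁ h₂ e₁ hx₁ hy₁ hx₂ hy₂ ψ hψ i j c (by rw [← hg1, hg1'])
      apply Subtype.ext
      exact Prod.ext hg1' (hg2.trans this)
    exact this
  have inj2 : Function.Injective (Prod.snd ∘ Γ.subtype) := by
    have : Function.Injective ((MonoidHom.snd G₁ G₂).comp Γ.subtype) := by
      rw [injective_iff_map_eq_one]
      rintro ⟨⟨g, g'⟩, hg⟩ h1
      obtain ⟨i, j, c, hg1, hg2⟩ := hg
      simp only at hg1 hg2
      have hg1' : g' = 1 := h1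
      have := glue_aux h₂ h₁ e₂ hx₂ hy₂ hx₁ hy₁ ψ.symm hψ' i j (ψ c) (by rw [← hg2, hg1'])
      rw [MulEquiv.symm_apply_apply] at this
      apply Subtype.ext
      exact Prod.ext (hg1.trans this) hg1'
    exact this
  have surj1 : Function.Surjective (Prod.fst ∘ Γ.subtype) := by
    intro g
    obtain ⟨i, j, c, hc, rfl⟩ := h₁.exists_decomp e₁ g
    exact ⟨⟨(x₁ ^ i * y₁ ^ j * c, x₂ ^ i * y₂ ^ j * ψ ⟨c, hc⟩), ⟨i, j, ⟨c, hc⟩, rfl, rfl⟩⟩, rfl⟩
  have surj2 : Function.Surjective (Prod.snd ∘ Γ.subtype) := by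
    intro g
    obtain ⟨i, j, c, hc, rfl⟩ := h₂.exists_decomp e₂ g
    refine ⟨⟨(x₁ ^ i * y₁ ^ j * ψ.symm ⟨c, hc⟩, x₂ ^ i * y₂ ^ j * c),
      ⟨i, j, ψ.symm ⟨c, hc⟩, rfl, ?_⟩⟩, rfl⟩
    rw [MulEquiv.apply_symm_apply]
  obtain ⟨Φ, hΦ⟩ := Subgroup.exists_mulEquiv_eq_graph ⟨inj1, surj1⟩ ⟨inj2, surj2⟩
  have key : ∀ (i j : ℤ) (c : pairCentralizer x₁ y₁),
      Φ (x₁ ^ i * y₁ ^ j * c) = x₂ ^ i * y₂ ^ j * ψ c := by
    intro i j c
    have hmem : (x₁ ^ i * y₁ ^ j * (c : G₁), x₂ ^ i * y₂ ^ j * (ψ c : G₂)) ∈ Γ :=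
      ⟨i, j, c, rfl, rfl⟩
    rw [hΦ] at hmem
    exact hmem
  refine ⟨Φ, ?_, ?_, ?_, ?_⟩
  · have := key 0 0 ⟨z₁, h₁.z_mem_pair x₁ y₁⟩
    rw [hψ] at this
    simpa using this
  · simpa using key 1 0 1
  · simpa using key 0 1 1
  · intro c
    simpa using key 0 0 c

end Glue

/-- An extraspecial group is of the kind considered here. -/
theorem Core.of_isExtraspecial {p : ℕ} {G : Type*} [Group G] (hp : p.Prime)
    (h : Cfsg.IsExtraspecial p G) : ∃ z : G, Core p G z := by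
  obtain ⟨⟨-, -, hcomm⟩, hcard⟩ := h
  have : Fact p.Prime := ⟨hp⟩
  have : Finite (Subgroup.center G) := Nat.finite_of_card_ne_zero (by rw [hcard]; exact hp.ne_zero)
  obtain ⟨z, hz⟩ : ∃ z : Subgroup.center G, z ≠ 1 := by
    have : Nontrivial (Subgroup.center G) :=
      Finite.one_lt_card_iff_nontrivial.mp (by rw [hcard]; exact hp.one_lt)
    exact exists_ne 1
  have hz' := zpowers_eq_top_of_prime_card hcard hz
  have hord : orderOf (z : G) = p := by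
    rw [Subgroup.orderOf_coe, ← Nat.card_zpowers, hz', ← hcard, Subgroup.card_top]
  have hcen : Subgroup.center G = Subgroup.zpowers (z : G) := by
    apply le_antisymm
    · intro c hc
      have : (⟨c, hc⟩ : Subgroup.center G) ∈ Subgroup.zpowers z := by
        rw [hz']; exact Subgroup.mem_top _
      obtain ⟨k, hk⟩ := Subgroup.mem_zpowers_iff.mp this
      exact Subgroup.mem_zpowers_iff.mpr ⟨k, by simpa using congrArg Subtype.val hk⟩
    · rw [Subgroup.zpowers_le]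
      exact z.2
  refine ⟨z, hord, hcen, fun x y => ?_⟩
  rw [← hcen, ← hcomm]
  exact Subgroup.commutator_mem_commutator (Subgroup.mem_top x) (Subgroup.mem_top y)

end Cfsg.Agent.Transfer.HyperbolicPair
end

-- part: S0098
section
set_option autoImplicit false
open Cfsg

namespace Cfsg.Agent.S0098

open Cfsg.Agent.Transfer.HyperbolicPair
open scoped commutatorElement

universe u v

/-- Two groups with a central commutator subgroup of prime order `p` generating the centre, of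
exponent `p` and of the same order, are isomorphic. -/
theorem exists_iso {p : ℕ} (hp : p.Prime) : ∀ (n : ℕ) (G₁ : Type u) (G₂ : Type v) [Group G₁]
    [Group G₂] [Finite G₁] [Finite G₂] (z₁ : G₁) (z₂ : G₂), Core p G₁ z₁ → Core p G₂ z₂ →
    (∀ x : G₁, x ^ p = 1) → (∀ x : G₂, x ^ p = 1) → Nat.card G₁ = n → Nat.card G₂ = n →
    ∃ Φ : G₁ ≃* G₂, Φ z₁ = z₂ := by
  intro n
  induction n using Nat.strong_induction_on with
  | _ n ih =>
    intro G₁ G₂ _ _ _ _ z₁ z₂ h₁ h₂ he₁ he₂ hn₁ hn₂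
    have htop : ∀ {G : Type _} [Group G] [Finite G] (z : G), Core p G z →
        (Subgroup.center G = ⊤ ↔ Nat.card G = p) := by
      intro G _ _ z h
      rw [← h.ord, ← Nat.card_zpowers, ← h.center_eq, ← Subgroup.card_eq_iff_eq_top, eq_comm]
    have htop' : ∀ {G : Type _} [Group G] [Finite G] (z : G), Core p G z →
        (Subgroup.center G = ⊤ ↔ Nat.card G = p) := by
      intro G _ _ z h
      rw [← h.ord, ← Nat.card_zpowers, ← h.center_eq, ← Subgroup.card_eq_iff_eq_top, eq_comm]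
    by_cases hnp : n = p
    · have ht₁ : Subgroup.center G₁ = ⊤ := (htop z₁ h₁).mpr (hn₁.trans hnp)
      have ht₂ : Subgroup.center G₂ = ⊤ := (htop' z₂ h₂).mpr (hn₂.trans hnp)
      have hg₁ : ∀ x : G₁, x ∈ Subgroup.zpowers z₁ := fun x => by
        rw [← h₁.center_eq, ht₁]; exact Subgroup.mem_top x
      have hg₂ : ∀ x : G₂, x ∈ Subgroup.zpowers z₂ := fun x => by
        rw [← h₂.center_eq, ht₂]; exact Subgroup.mem_top x
      refine ⟨mulEquivOfOrderOfEq hg₁ hg₂ (h₁.ord.trans h₂.ord.symm), ?_⟩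
      exact mulEquivOfOrderOfEq_apply_gen hg₁ hg₂ (h₁.ord.trans h₂.ord.symm)
    · have hex₁ : ∃ x₁ y₁ : G₁, ⁅x₁, y₁⁆ = z₁ := by
        obtain ⟨x, hx⟩ : ∃ x, x ∉ Subgroup.center G₁ := by
          by_contra hcon
          push Not at hcon
          exact hnp (hn₁.symm.trans ((htop z₁ h₁).mp ((Subgroup.eq_top_iff' _).mpr hcon)))
        exact ⟨x, h₁.exists_partner hp hx⟩
      have hex₂ : ∃ x₂ y₂ : G₂, ⁅x₂, y₂⁆ = z₂ := by
        obtain ⟨x, hx⟩ : ∃ x, x ∉ Subgroup.center G₂ := by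
          by_contra hcon
          push Not at hcon
          exact hnp (hn₂.symm.trans ((htop' z₂ h₂).mp ((Subgroup.eq_top_iff' _).mpr hcon)))
        exact ⟨x, h₂.exists_partner hp hx⟩
      obtain ⟨x₁, y₁, e₁⟩ := hex₁
      obtain ⟨x₂, y₂, e₂⟩ := hex₂
      have c₁ := h₁.card_eq e₁
      have c₂ := h₂.card_eq e₂
      have hp2 : 0 < p ^ 2 := pow_pos hp.pos 2
      have hcc : Nat.card (pairCentralizer x₂ y₂) = Nat.card (pairCentralizer x₁ y₁) := by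
        apply Nat.eq_of_mul_eq_mul_left hp2
        rw [← c₁, ← c₂, hn₁, hn₂]
      have hlt : Nat.card (pairCentralizer x₁ y₁) < n := by
        rw [← hn₁, c₁]
        have hpos : 0 < Nat.card (pairCentralizer x₁ y₁) := Nat.card_pos
        have : 1 < p ^ 2 := Nat.one_lt_pow (by norm_num) hp.one_lt
        exact lt_mul_of_one_lt_left hpos this
      obtain ⟨ψ, hψ⟩ := ih (Nat.card (pairCentralizer x₁ y₁)) hlt (pairCentralizer x₁ y₁)
        (pairCentralizer x₂ y₂) ⟨z₁, h₁.z_mem_pair x₁ y₁⟩ ⟨z₂, h₂.z_mem_pair x₂ y₂⟩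
        (h₁.centralizer_pair e₁) (h₂.centralizer_pair e₂)
        (fun x => Subtype.ext (he₁ x)) (fun x => Subtype.ext (he₂ x)) rfl hcc
      obtain ⟨Φ, hΦ, -⟩ := glue h₁ h₂ e₁ e₂ (a := 0) (b := 0) (by rw [he₁, zpow_zero])
        (by rw [he₁, zpow_zero]) (by rw [he₂, zpow_zero]) (by rw [he₂, zpow_zero]) ψ hψ
      exact ⟨Φ, hΦ⟩

/-- For odd p, extraspecial p-groups of exponent p are determined up to isomorphism by their order. -/
theorem result {E₁ : Type*} {E₂ : Type*} [Group E₁] [Group E₂] [Finite E₁] [Finite E₂] {p : ℕ} [Fact p.Prime] (hp : p ≠ 2) (h₁ : Cfsg.IsExtraspecial p E₁) (h₂ : Cfsg.IsExtraspecial p E₂) (he₁ : Monoid.exponent E₁ = p) (he₂ : Monoid.exponent E₂ = p) (hc : Nat.card E₁ = Nat.card E₂) : Nonempty (E₁ ≃* E₂) := by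
  have hpp : p.Prime := Fact.out
  obtain ⟨z₁, hz₁⟩ := Core.of_isExtraspecial hpp h₁
  obtain ⟨z₂, hz₂⟩ := Core.of_isExtraspecial hpp h₂
  obtain ⟨Φ, -⟩ := exists_iso hpp (Nat.card E₁) E₁ E₂ z₁ z₂ hz₁ hz₂
    (fun x => by rw [← he₁]; exact Monoid.pow_exponent_eq_one x)
    (fun x => by rw [← he₂]; exact Monoid.pow_exponent_eq_one x) rfl hc.symm
  exact ⟨Φ⟩

end Cfsg.Agent.S0098
end
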