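import Cfsg.Agent.SporadicB.DoubleCoverSmall
import Mathlib
import Cfsg.Statements.S0447
import Cfsg.Agent.SporadicB.DoubleCoverUnique
set_option linter.all false

-- part: SporadicB/DoubleCoverEight
section
/-!
A central extension of the alternating group of degree `n ≥ 4` by a group of order two generated by
a commutator is a non-split double cover; for degree 8 it has two distinct involutions.
-/

set_option autoImplicit false

namespace Cfsg.Agent.SporadicB.DoubleCoverEight

open Equiv Equiv.Perm commutatorElement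

/-- A central extension by a group of order two of a group containing an elementary abelian
subgroup of order 8 has at least two involutions. -/
theorem exists_two_involutions {Γ K : Type*} [Group Γ] [Group K] (f : Γ →* K)
    (hf : Function.Surjective f) (z : Γ) (hz : z ∈ Subgroup.center Γ) (hz2 : orderOf z = 2)
    (hker : ∀ g : Γ, f g = 1 → g = 1 ∨ g = z) (hfz : f z = 1)
    (a b c : K) (ha : orderOf a = 2) (hb : orderOf b = 2) (hc : orderOf c = 2)
    (hab : orderOf (a * b) = 2) (hac : orderOf (a * c) = 2) (hbc : orderOf (b * c) = 2)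
    (habc : orderOf (a * (b * c)) = 2) :
    ∃ x y : Γ, x ≠ y ∧ orderOf x = 2 ∧ orderOf y = 2 := by
  by_contra hcon
  push Not at hcon
  have huniq : ∀ x : Γ, orderOf x = 2 → x = z := by
    intro x hx
    by_contra hne
    exact hcon x z hne hx hz2
  have hzz : z * z = 1 := by rw [← pow_two, ← hz2, pow_orderOf_eq_one]
  have hz1 : z ≠ 1 := by
    rintro rfl
    rw [orderOf_one] at hz2
    exact absurd hz2 (by norm_num)
  have hcomm : ∀ g : Γ, g * z = z * g := fun g => Subgroup.mem_center_iff.mp hz g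
  have hlift : ∀ X : Γ, orderOf (f X) = 2 → X * X = z := by
    intro X hX
    have h1 : f (X * X) = 1 := by rw [map_mul, ← pow_two, ← hX, pow_orderOf_eq_one]
    rcases hker _ h1 with h | h
    · exfalso
      have hX1 : X ≠ 1 := by
        rintro rfl
        rw [map_one, orderOf_one] at hX
        exact absurd hX (by norm_num)
      have hX2 : orderOf X = 2 := orderOf_eq_prime (by rw [pow_two, h]) hX1
      rw [huniq X hX2, hfz, orderOf_one] at hX
      exact absurd hX (by norm_num)
    · exact h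
  have hanti : ∀ X Y : Γ, orderOf (f X) = 2 → orderOf (f Y) = 2 → orderOf (f X * f Y) = 2 →
      X * Y = z * (Y * X) := by
    intro X Y hX hY hXY
    have h1 := hlift X hX
    have h2 := hlift Y hY
    have h3 := hlift (X * Y) (by rw [map_mul]; exact hXY)
    have e1 : (X * Y) * (z * (Y * X)) = 1 * ((X * Y) * (X * Y)) := by
      rw [h3, one_mul]
      calc X * Y * (z * (Y * X)) = X * (Y * z) * (Y * X) := by group
        _ = X * (z * Y) * (Y * X) := by rw [hcomm Y]
        _ = (X * z) * (Y * Y) * X := by group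
        _ = (z * X) * z * X := by rw [h2, hcomm X]
        _ = z * (X * z) * X := by group
        _ = z * (z * X) * X := by rw [hcomm X]
        _ = (z * z) * (X * X) := by group
        _ = z := by rw [hzz, h1, one_mul]
    rw [one_mul] at e1
    exact (mul_left_cancel e1).symm
  obtain ⟨X, rfl⟩ := hf a
  obtain ⟨Y, rfl⟩ := hf b
  obtain ⟨W, rfl⟩ := hf c
  have h1 := hanti X Y ha hb hab
  have h2 := hanti X W ha hc hac
  have h3 := hanti X (Y * W) ha (by rw [map_mul]; exact hbc) (by rw [map_mul]; exact habc)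
  apply hz1
  have e1 : X * (Y * W) = (Y * W) * X := by
    calc X * (Y * W) = (X * Y) * W := by group
      _ = z * Y * (X * W) := by rw [h1]; group
      _ = z * (Y * z) * W * X := by rw [h2]; group
      _ = z * (z * Y) * W * X := by rw [hcomm Y]
      _ = (z * z) * (Y * W * X) := by group
      _ = (Y * W) * X := by rw [hzz, one_mul]
  rw [e1] at h3
  have e2 : z * (Y * W * X) = 1 * (Y * W * X) := by rw [one_mul]; exact h3.symm
  exact mul_right_cancel e2

/-- A central extension of `A_n`, `n ≥ 4`, by a group of order two contained in the commutator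
subgroup is a non-split double cover. -/
theorem isNonsplitDoubleCover {n : ℕ} (hn : 4 ≤ n) {Γ : Type*} [Group Γ] (z : Γ)
    (hz : z ∈ Subgroup.center Γ) (hz2 : orderOf z = 2) (hzc : z ∈ commutator Γ)
    (f : Γ →* alternatingGroup (Fin n)) (hf : Function.Surjective f)
    (hker : ∀ g : Γ, f g = 1 ↔ g = 1 ∨ g = z) :
    Cfsg.IsNonsplitDoubleCover Γ (alternatingGroup (Fin n)) := by
  have hcen : ∀ g : Γ, g ∈ Subgroup.center Γ ↔ f g = 1 := by
    intro g
    constructor
    · intro hg
      have h1 : f g ∈ Subgroup.center (alternatingGroup (Fin n)) := by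
        rw [Subgroup.mem_center_iff]
        intro k
        obtain ⟨h, rfl⟩ := hf k
        rw [← map_mul, ← map_mul, Subgroup.mem_center_iff.mp hg h]
      rw [alternatingGroup.center_eq_bot (by simpa using hn)] at h1
      exact h1
    · intro hg
      rcases (hker g).mp hg with rfl | rfl
      · exact one_mem _
      · exact hz
  have hz1 : z ≠ 1 := by
    rintro rfl
    rw [orderOf_one] at hz2
    exact absurd hz2 (by norm_num)
  have hkereq : f.ker = Subgroup.center Γ := by
    ext g
    rw [MonoidHom.mem_ker, hcen]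
  refine ⟨?_, ?_, ?_⟩
  · rw [Nat.card_eq_two_iff' (1 : Subgroup.center Γ)]
    refine ⟨⟨z, hz⟩, fun h => hz1 (congrArg Subtype.val h), ?_⟩
    rintro ⟨y, hy⟩ hy1
    rcases (hker y).mp ((hcen y).mp hy) with rfl | rfl
    · exact absurd rfl hy1
    · rfl
  · exact ⟨(QuotientGroup.quotientMulEquivOfEq hkereq.symm).trans
      (QuotientGroup.quotientKerEquivOfSurjective f hf)⟩
  · intro L hL
    have hle : commutator Γ ≤ L := by
      rw [commutator_def, Subgroup.commutator_le]
      intro g₁ _ g₂ _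
      obtain ⟨⟨⟨c₁, hc₁⟩, ⟨l₁, hl₁⟩⟩, rfl⟩ := hL.surjective g₁
      obtain ⟨⟨⟨c₂, hc₂⟩, ⟨l₂, hl₂⟩⟩, rfl⟩ := hL.surjective g₂
      have h1 : ⁅c₁ * l₁, c₂ * l₂⁆ = ⁅l₁, l₂⁆ := by
        have e1 := Subgroup.mem_center_iff.mp hc₁
        have e2 := Subgroup.mem_center_iff.mp hc₂
        rw [commutatorElement_def, commutatorElement_def]
        calc c₁ * l₁ * (c₂ * l₂) * (c₁ * l₁)⁻¹ * (c₂ * l₂)⁻¹
            = c₁ * (l₁ * c₂) * l₂ * l₁⁻¹ * c₁⁻¹ * l₂⁻¹ * c₂⁻¹ := by group
          _ = c₁ * (c₂ * l₁) * l₂ * l₁⁻¹ * c₁⁻¹ * l₂⁻¹ * c₂⁻¹ := by rw [e2 l₁]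
          _ = c₁ * (c₂ * (l₁ * l₂ * l₁⁻¹ * c₁⁻¹ * l₂⁻¹)) * c₂⁻¹ := by group
          _ = c₁ * ((l₁ * l₂ * l₁⁻¹ * c₁⁻¹ * l₂⁻¹) * c₂) * c₂⁻¹ := by rw [e2]
          _ = (c₁ * (l₁ * l₂ * l₁⁻¹)) * c₁⁻¹ * l₂⁻¹ := by group
          _ = ((l₁ * l₂ * l₁⁻¹) * c₁) * c₁⁻¹ * l₂⁻¹ := by rw [e1]
          _ = l₁ * l₂ * l₁⁻¹ * l₂⁻¹ := by group
      change ⁅c₁ * l₁, c₂ * l₂⁆ ∈ L
      rw [h1, commutatorElement_def]
      exact L.mul_mem (L.mul_mem (L.mul_mem hl₁ hl₂) (L.inv_mem hl₁)) (L.inv_mem hl₂)
    exact hz1 (Subgroup.disjoint_def.mp hL.disjoint hz (hle hzc))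

theorem alt_mem {n : ℕ} (a b c d : Fin n) (h1 : a ≠ b) (h2 : c ≠ d) :
    swap a b * swap c d ∈ alternatingGroup (Fin n) := by
  rw [mem_alternatingGroup, map_mul, sign_swap h1, sign_swap h2]
  decide

/-- The case of degree 8. -/
theorem degree_eight {Γ : Type*} [Group Γ] (z : Γ)
    (hz : z ∈ Subgroup.center Γ) (hz2 : orderOf z = 2) (hzc : z ∈ commutator Γ)
    (f : Γ →* alternatingGroup (Fin 8)) (hf : Function.Surjective f)
    (hker : ∀ g : Γ, f g = 1 ↔ g = 1 ∨ g = z) :
    Cfsg.IsNonsplitDoubleCover Γ (alternatingGroup (Fin 8)) ∧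
      ∃ x y : Γ, x ≠ y ∧ orderOf x = 2 ∧ orderOf y = 2 := by
  refine ⟨isNonsplitDoubleCover (by norm_num) z hz hz2 hzc f hf hker, ?_⟩
  exact exists_two_involutions f hf z hz hz2 (fun g hg => (hker g).mp hg) ((hker z).mpr (Or.inr rfl))
    ⟨swap 0 1 * swap 2 3, alt_mem _ _ _ _ (by decide) (by decide)⟩
    ⟨swap 0 2 * swap 1 3, alt_mem _ _ _ _ (by decide) (by decide)⟩
    ⟨swap 4 5 * swap 6 7, alt_mem _ _ _ _ (by decide) (by decide)⟩
    (orderOf_eq_prime (by decide) (by decide)) (orderOf_eq_prime (by decide) (by decide))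
    (orderOf_eq_prime (by decide) (by decide)) (orderOf_eq_prime (by decide) (by decide))
    (orderOf_eq_prime (by decide) (by decide)) (orderOf_eq_prime (by decide) (by decide))
    (orderOf_eq_prime (by decide) (by decide))

/-- From the statement of `S0891` for `n = 8`. -/
theorem of_double_cover
    (h : ∃ (Γ : Type) (_ : Group Γ) (_ : Finite Γ) (z : Γ) (hz : z ∈ Subgroup.center Γ),
      orderOf z = 2 ∧ z ∈ commutator Γ ∧ ∃ _ : (Subgroup.zpowers z).Normal,
        Nonempty (Γ ⧸ Subgroup.zpowers z ≃* alternatingGroup (Fin 8))) :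
    ∃ (H : Type) (_ : Group H) (_ : Finite H),
      Cfsg.IsNonsplitDoubleCover H (alternatingGroup (Fin 8)) ∧
        ∃ x y : H, x ≠ y ∧ orderOf x = 2 ∧ orderOf y = 2 := by
  classical
  obtain ⟨Γ, hG, hF, z, hz, hz2, hzc, hN, ⟨e⟩⟩ := h
  refine ⟨Γ, hG, hF, degree_eight z hz hz2 hzc
    (e.toMonoidHom.comp (QuotientGroup.mk' (Subgroup.zpowers z)))
    (e.surjective.comp (QuotientGroup.mk'_surjective _)) ?_⟩
  intro g
  change e (g : Γ ⧸ Subgroup.zpowers z) = 1 ↔ _
  rw [e.map_eq_one_iff, QuotientGroup.eq_one_iff]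
  constructor
  · intro hg
    obtain ⟨k, hk⟩ := (mem_zpowers_iff_mem_range_orderOf.mp hg) |> Finset.mem_image.mp
    rw [hz2] at hk
    obtain ⟨hk1, hk2⟩ := hk
    rw [Finset.mem_range] at hk1
    interval_cases k
    · left; rw [← hk2, pow_zero]
    · right; rw [← hk2, pow_one]
  · rintro (rfl | rfl)
    · exact one_mem _
    · exact Subgroup.mem_zpowers _

end Cfsg.Agent.SporadicB.DoubleCoverEight
end

-- part: SporadicB/SpinCover
section
/-!
The spin double cover of the alternating group of degree `n ≥ 4`, from a Clifford matrix algebra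
over `ZMod 3` defined by recursion on the number of generators.
-/

set_option autoImplicit false

namespace Cfsg.Agent.SporadicB.SpinCover

open Matrix

/-- A finite ring of characteristic three with `n` generators `L i` of square one and `n` further
elements `M i`, anticommuting with all the `L j`, whose common commutant is `{0, 1, -1}`. -/
structure Spinor (n : ℕ) (R : Type) [Ring R] (L M : Fin n → R) : Prop where
  three : (3 : R) = 0
  one_ne : (1 : R) ≠ 0
  sq : ∀ i, L i * L i = 1
  antiL : ∀ i j, i ≠ j → L i * L j = -(L j * L i)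
  antiM : ∀ i j, L i * M j = -(M j * L i)
  comm : ∀ u : R, (∀ i, u * L i = L i * u) → (∀ i, u * M i = M i * u) → u = 0 ∨ u = 1 ∨ u = -1

theorem spinor_zero (L M : Fin 0 → ZMod 3) : Spinor 0 (ZMod 3) L M where
  three := rfl
  one_ne := by decide
  sq := fun i => i.elim0
  antiL := fun i => i.elim0
  antiM := fun i => i.elim0
  comm := by
    have h : ∀ u : ZMod 3, u = 0 ∨ u = 1 ∨ u = -1 := by decide
    exact fun u _ _ => h u

/-- The recursion step. -/
theorem spinor_succ {n : ℕ} {R : Type} [Ring R] {L M : Fin n → R} (h : Spinor n R L M) :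
    Spinor (n + 1) (Matrix (Fin 2) (Fin 2) R)
      (Fin.cases !![0, 1; 1, 0] (fun i => !![L i, 0; 0, -L i]))
      (Fin.cases !![0, 1; -1, 0] (fun i => !![M i, 0; 0, -M i])) where
  three := by
    have h3 : (3 : Matrix (Fin 2) (Fin 2) R) = !![(3 : R), 0; 0, 3] := by
      ext i j
      fin_cases i <;> fin_cases j <;> rfl
    rw [h3, h.three]
    ext i j
    fin_cases i <;> fin_cases j <;> rfl
  one_ne := by
    intro h1
    exact h.one_ne (congrFun (congrFun h1 0) 0)
  sq := by
    intro i
    refine Fin.cases ?_ (fun i => ?_) i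
    · simp [Matrix.one_fin_two]
    · simp [Matrix.one_fin_two, h.sq]
  antiL := by
    intro i j
    refine Fin.cases ?_ (fun i => ?_) i <;> refine Fin.cases ?_ (fun j => ?_) j
    · intro h0; exact absurd rfl h0
    · intro _; simp
    · intro _; simp
    · intro hij
      have hij' : i ≠ j := fun e => hij (by rw [e])
      simp [h.antiL i j hij']
  antiM := by
    intro i j
    refine Fin.cases ?_ (fun i => ?_) i <;> refine Fin.cases ?_ (fun j => ?_) j
    · simp
    · simp
    · simp
    · simp [h.antiM i j]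
  comm := by
    intro u hL hM
    obtain ⟨a, b, c, d, rfl⟩ : ∃ a b c d, u = !![a, b; c, d] :=
      ⟨_, _, _, _, Matrix.eta_fin_two u⟩
    have hL0 := hL 0
    have hM0 := hM 0
    simp only [Fin.cases_zero, Matrix.mul_fin_two] at hL0 hM0
    have e1 := congrFun (congrFun hL0 0) 0
    have e2 := congrFun (congrFun hL0 0) 1
    have e3 := congrFun (congrFun hM0 0) 0
    simp at e1 e2 e3
    -- `b = c`, `a = d`, `-b = c`
    have h3b : b + b + b = 0 := by
      have : b + b + b = 3 * b := by
        rw [show (3 : R) = 1 + 1 + 1 by norm_num, add_mul, add_mul, one_mul]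
      rw [this, h.three, zero_mul]
    have hb : b = 0 := by
      have h2b : b + b = 0 := by
        nth_rewrite 1 [e1]
        rw [← e3]
        simp
      rw [h2b, zero_add] at h3b
      exact h3b
    subst e2
    rw [hb] at e1
    subst hb
    subst e1
    have hcL : ∀ i, a * L i = L i * a := by
      intro i
      have := congrFun (congrFun (hL i.succ) 0) 0
      simpa using this
    have hcM : ∀ i, a * M i = M i * a := by
      intro i
      have := congrFun (congrFun (hM i.succ) 0) 0
      simpa using this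
    rcases h.comm a hcL hcM with rfl | rfl | rfl
    · left
      ext i j
      fin_cases i <;> fin_cases j <;> rfl
    · right; left
      ext i j
      fin_cases i <;> fin_cases j <;> rfl
    · right; right
      ext i j
      fin_cases i <;> fin_cases j <;> simp

/-- For every `n` there is a finite ring with such elements. -/
theorem exists_spinor (n : ℕ) : ∃ (R : Type) (_ : Ring R) (_ : Finite R) (L M : Fin n → R),
    Spinor n R L M := by
  induction n with
  | zero => exact ⟨ZMod 3, inferInstance, inferInstance, fun _ => 0, fun _ => 0, spinor_zero _ _⟩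
  | succ n ih =>
    obtain ⟨R, hR, hF, L, M, h⟩ := ih
    exact ⟨Matrix (Fin 2) (Fin 2) R, inferInstance, inferInstance, _, _, spinor_succ h⟩

section

variable {n : ℕ} {R : Type} [Ring R] {L M : Fin n → R}

theorem t_mul_L (h : Spinor n R L M) {i j : Fin n} (hij : i ≠ j) (k : Fin n) :
    (L i - L j) * L k = -(L (Equiv.swap i j k) * (L i - L j)) := by
  by_cases hki : k = i
  · subst hki
    rw [Equiv.swap_apply_left, sub_mul, mul_sub, h.sq, h.sq]
    abel
  · by_cases hkj : k = j
    · subst hkj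
      rw [Equiv.swap_apply_right, sub_mul, mul_sub, h.sq, h.sq]
      abel
    · rw [Equiv.swap_apply_of_ne_of_ne hki hkj, sub_mul, mul_sub, h.antiL i k (Ne.symm hki),
        h.antiL j k (Ne.symm hkj)]
      abel

theorem t_mul_M (h : Spinor n R L M) (i j k : Fin n) :
    (L i - L j) * M k = -(M k * (L i - L j)) := by
  rw [sub_mul, mul_sub, h.antiM i k, h.antiM j k]
  abel

theorem two_eq (h : Spinor n R L M) : (1 : R) + 1 = -1 := by
  rw [eq_neg_iff_add_eq_zero]
  have := h.three
  rwa [show (3 : R) = 1 + 1 + 1 by norm_num] at this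

theorem t_sq (h : Spinor n R L M) {i j : Fin n} (hij : i ≠ j) :
    (L i - L j) * (L i - L j) = -1 := by
  rw [sub_mul, mul_sub, mul_sub, h.sq, h.sq, h.antiL i j hij, ← two_eq h]
  abel

/-- The lift of a product of two transpositions. -/
def tt (h : Spinor n R L M) {i j k l : Fin n} (hij : i ≠ j) (hkl : k ≠ l) : Rˣ where
  val := (L i - L j) * (L k - L l)
  inv := (L k - L l) * (L i - L j)
  val_inv := by
    rw [mul_assoc, ← mul_assoc (L k - L l), t_sq h hkl, neg_one_mul, mul_neg, t_sq h hij, neg_neg]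
  inv_val := by
    rw [mul_assoc, ← mul_assoc (L i - L j), t_sq h hij, neg_one_mul, mul_neg, t_sq h hkl, neg_neg]

/-- The double cover of the alternating group. -/
def cover (L M : Fin n → R) : Subgroup (alternatingGroup (Fin n) × Rˣ) where
  carrier := {p | (∀ k, (p.2 : R) * L k = L ((p.1 : Equiv.Perm (Fin n)) k) * p.2) ∧
    ∀ k, (p.2 : R) * M k = M k * p.2}
  mul_mem' := by
    rintro ⟨σ, u⟩ ⟨τ, v⟩ ⟨h1, h2⟩ ⟨h3, h4⟩
    constructor
    · intro k
      change ((u * v : Rˣ) : R) * L k = L ((σ : Equiv.Perm (Fin n)) ((τ : Equiv.Perm (Fin n)) k)) *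
        ((u * v : Rˣ) : R)
      have h1' := h1 ((τ : Equiv.Perm (Fin n)) k)
      have h3' := h3 k
      dsimp only at h1' h3'
      rw [Units.val_mul, mul_assoc, h3', ← mul_assoc, h1', mul_assoc]
    · intro k
      have h2' := h2 k
      have h4' := h4 k
      dsimp only at h2' h4'
      change ((u * v : Rˣ) : R) * M k = M k * ((u * v : Rˣ) : R)
      rw [Units.val_mul, mul_assoc, h4', ← mul_assoc, h2', mul_assoc]
  one_mem' := by
    constructor
    · intro k
      change ((1 : Rˣ) : R) * L k = L k * ((1 : Rˣ) : R)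
      rw [Units.val_one, one_mul, mul_one]
    · intro k
      change ((1 : Rˣ) : R) * M k = M k * ((1 : Rˣ) : R)
      rw [Units.val_one, one_mul, mul_one]
  inv_mem' := by
    rintro ⟨σ, u⟩ ⟨h1, h2⟩
    constructor
    · intro k
      change ((u⁻¹ : Rˣ) : R) * L k = L ((σ : Equiv.Perm (Fin n))⁻¹ k) * ((u⁻¹ : Rˣ) : R)
      have h1' := h1 ((σ : Equiv.Perm (Fin n))⁻¹ k)
      dsimp only at h1'
      rw [show (σ : Equiv.Perm (Fin n)) ((σ : Equiv.Perm (Fin n))⁻¹ k) = k from
        Equiv.apply_symm_apply _ _] at h1'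
      rw [Units.inv_mul_eq_iff_eq_mul, ← mul_assoc, h1', mul_assoc, Units.mul_inv, mul_one]
    · intro k
      have h2' := h2 k
      dsimp only at h2'
      change ((u⁻¹ : Rˣ) : R) * M k = M k * ((u⁻¹ : Rˣ) : R)
      rw [Units.inv_mul_eq_iff_eq_mul, ← mul_assoc, h2', mul_assoc, Units.mul_inv, mul_one]

theorem mem_cover {p : alternatingGroup (Fin n) × Rˣ} : p ∈ cover L M ↔
    (∀ k, (p.2 : R) * L k = L ((p.1 : Equiv.Perm (Fin n)) k) * p.2) ∧
    ∀ k, (p.2 : R) * M k = M k * p.2 := Iff.rfl

theorem tt_mem (h : Spinor n R L M) {i j k l : Fin n} (hij : i ≠ j) (hkl : k ≠ l)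
    (g : alternatingGroup (Fin n)) (hg : (g : Equiv.Perm (Fin n)) = Equiv.swap i j * Equiv.swap k l) :
    (g, tt h hij hkl) ∈ cover L M := by
  rw [mem_cover]
  constructor
  · intro m
    dsimp only
    rw [hg]
    change (L i - L j) * (L k - L l) * L m = L (Equiv.swap i j (Equiv.swap k l m)) *
      ((L i - L j) * (L k - L l))
    rw [mul_assoc, t_mul_L h hkl, mul_neg, ← mul_assoc, t_mul_L h hij, neg_mul, neg_neg, mul_assoc]
  · intro m
    change (L i - L j) * (L k - L l) * M m = M m * ((L i - L j) * (L k - L l))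
    rw [mul_assoc, t_mul_M h, mul_neg, ← mul_assoc, t_mul_M h, neg_mul, neg_neg, mul_assoc]

/-- The projection to the alternating group. -/
def proj (L M : Fin n → R) : cover L M →* alternatingGroup (Fin n) :=
  (MonoidHom.fst _ _).comp (cover L M).subtype

theorem proj_apply (p : cover L M) : proj L M p = (p : alternatingGroup (Fin n) × Rˣ).1 := rfl

theorem proj_surjective (h : Spinor n R L M) : Function.Surjective (proj L M) := by
  rw [← MonoidHom.range_eq_top, eq_top_iff, ← alternatingGroup.closure_isThreeCycles_eq_top,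
    Subgroup.closure_le]
  intro g hg
  obtain ⟨a, ha⟩ := (Equiv.Perm.IsThreeCycle.isCycle hg).nonempty_support
  have hg' : Equiv.Perm.IsThreeCycle (g : Equiv.Perm (Fin n)) := hg
  have heq := hg'.eq_swap_mul_swap_iff_mem_support.mpr ha
  have hnd := hg'.nodup_iff_mem_support.mpr ha
  have h1 : a ≠ (g : Equiv.Perm (Fin n)) a := by
    intro h; rw [← h] at hnd; simp at hnd
  have h2 : (g : Equiv.Perm (Fin n)) a ≠ (g : Equiv.Perm (Fin n)) ((g : Equiv.Perm (Fin n)) a) := by
    intro h; rw [← h] at hnd; simp at hnd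
  exact ⟨⟨(g, tt h h1 h2), tt_mem h h1 h2 g heq⟩, rfl⟩

theorem eq_or_eq_neg (h : Spinor n R L M) {u : Rˣ} (hu : ((1, u) : alternatingGroup (Fin n) × Rˣ) ∈
    cover L M) : u = 1 ∨ u = -1 := by
  rw [mem_cover] at hu
  rcases h.comm (u : R) hu.1 hu.2 with h1 | h1 | h1
  · exfalso
    have := u.mul_inv
    rw [h1, zero_mul] at this
    exact h.one_ne this.symm
  · left; exact Units.ext h1
  · right; exact Units.ext h1

theorem L_injective (h : Spinor n R L M) : Function.Injective L := by
  intro i j hij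
  by_contra hne
  have h1 := h.antiL i j hne
  rw [hij, h.sq] at h1
  have h2 := two_eq h
  rw [← h1] at h2
  exact h.one_ne (by simpa using h2)

theorem neg_one_mem : ((1, -1) : alternatingGroup (Fin n) × Rˣ) ∈ cover L M := by
  rw [mem_cover]
  constructor
  · intro k
    change ((-1 : Rˣ) : R) * L k = L k * ((-1 : Rˣ) : R)
    simp
  · intro k
    change ((-1 : Rˣ) : R) * M k = M k * ((-1 : Rˣ) : R)
    simp

theorem fst_eq_one (h : Spinor n R L M) {g : alternatingGroup (Fin n)}
    (hg : ((g, -1) : alternatingGroup (Fin n) × Rˣ) ∈ cover L M) : g = 1 := by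
  rw [mem_cover] at hg
  apply Subtype.ext
  ext k
  have h1 := hg.1 k
  simp only [Units.val_neg, Units.val_one, neg_mul, one_mul, mul_neg, mul_one, neg_inj] at h1
  rw [← L_injective h h1]
  rfl

theorem units_neg_one_ne (h : Spinor n R L M) : (-1 : Rˣ) ≠ 1 := by
  intro h1
  have h2 : (-1 : R) = 1 := by
    have := congrArg Units.val h1
    simpa using this
  have h3 := two_eq h
  rw [h2] at h3
  exact h.one_ne (by simpa using h3)

/-- The central involution. -/
def zz (L M : Fin n → R) : cover L M := ⟨(1, -1), neg_one_mem⟩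

theorem zz_central : zz L M ∈ Subgroup.center (cover L M) := by
  rw [Subgroup.mem_center_iff]
  rintro ⟨⟨g, u⟩, hg⟩
  apply Subtype.ext
  change ((g, u) : alternatingGroup (Fin n) × Rˣ) * (1, -1) = (1, -1) * (g, u)
  ext1
  · simp
  · simp

theorem orderOf_zz (h : Spinor n R L M) : orderOf (zz L M) = 2 := by
  apply orderOf_eq_prime
  · apply Subtype.ext
    change ((1, -1) : alternatingGroup (Fin n) × Rˣ) ^ 2 = 1
    rw [pow_two]
    ext1
    · simp
    · simp
  · intro h1
    exact units_neg_one_ne h (congrArg (fun p : cover L M => (p : alternatingGroup (Fin n) × Rˣ).2) h1)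

theorem proj_eq_one_iff (h : Spinor n R L M) (p : cover L M) :
    proj L M p = 1 ↔ p = 1 ∨ p = zz L M := by
  constructor
  · obtain ⟨⟨g, u⟩, hg⟩ := p
    intro h1
    change g = 1 at h1
    subst h1
    rcases eq_or_eq_neg h hg with rfl | rfl
    · left; rfl
    · right; rfl
  · rintro (rfl | rfl)
    · exact map_one _
    · rfl

open commutatorElement in
theorem zz_mem_commutator (h : Spinor n R L M) (hn : 4 ≤ n) :
    zz L M ∈ commutator (cover L M) := by
  obtain ⟨i0, i1, i2, i3, h01, h02, h03, h12, h13, h23⟩ : ∃ i0 i1 i2 i3 : Fin n,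
      i0 ≠ i1 ∧ i0 ≠ i2 ∧ i0 ≠ i3 ∧ i1 ≠ i2 ∧ i1 ≠ i3 ∧ i2 ≠ i3 := by
    refine ⟨⟨0, by omega⟩, ⟨1, by omega⟩, ⟨2, by omega⟩, ⟨3, by omega⟩, ?_⟩
    simp
  have hmem : ∀ {i j k l : Fin n}, i ≠ j → k ≠ l →
      Equiv.swap i j * Equiv.swap k l ∈ alternatingGroup (Fin n) := by
    intro i j k l hij hkl
    rw [Equiv.Perm.mem_alternatingGroup, map_mul, Equiv.Perm.sign_swap hij,
      Equiv.Perm.sign_swap hkl]
    decide
  set A : cover L M := ⟨(⟨_, hmem h01 h23⟩, tt h h01 h23), tt_mem h h01 h23 _ rfl⟩ with hA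
  set B : cover L M := ⟨(⟨_, hmem h02 h13⟩, tt h h02 h13), tt_mem h h02 h13 _ rfl⟩ with hB
  -- the second components anticommute
  have hAL := (mem_cover.mp A.2).1
  have hA0 := hAL i0
  have hA1 := hAL i1
  have hA2 := hAL i2
  have hA3 := hAL i3
  have s0 : (Equiv.swap i0 i1 * Equiv.swap i2 i3) i0 = i1 := by
    rw [Equiv.Perm.mul_apply, Equiv.swap_apply_of_ne_of_ne h02 h03, Equiv.swap_apply_left]
  have s1 : (Equiv.swap i0 i1 * Equiv.swap i2 i3) i1 = i0 := by
    rw [Equiv.Perm.mul_apply, Equiv.swap_apply_of_ne_of_ne h12 h13, Equiv.swap_apply_right]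
  have s2 : (Equiv.swap i0 i1 * Equiv.swap i2 i3) i2 = i3 := by
    rw [Equiv.Perm.mul_apply, Equiv.swap_apply_left,
      Equiv.swap_apply_of_ne_of_ne h03.symm h13.symm]
  have s3 : (Equiv.swap i0 i1 * Equiv.swap i2 i3) i3 = i2 := by
    rw [Equiv.Perm.mul_apply, Equiv.swap_apply_right,
      Equiv.swap_apply_of_ne_of_ne h02.symm h12.symm]
  set U : R := ((tt h h01 h23 : Rˣ) : R) with hU
  change U * L i0 = L ((Equiv.swap i0 i1 * Equiv.swap i2 i3) i0) * U at hA0
  change U * L i1 = L ((Equiv.swap i0 i1 * Equiv.swap i2 i3) i1) * U at hA1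
  change U * L i2 = L ((Equiv.swap i0 i1 * Equiv.swap i2 i3) i2) * U at hA2
  change U * L i3 = L ((Equiv.swap i0 i1 * Equiv.swap i2 i3) i3) * U at hA3
  rw [s0] at hA0
  rw [s1] at hA1
  rw [s2] at hA2
  rw [s3] at hA3
  have e1 : U * (L i0 - L i2) = (L i1 - L i3) * U := by rw [mul_sub, sub_mul, hA0, hA2]
  have e2 : U * (L i1 - L i3) = (L i0 - L i2) * U := by rw [mul_sub, sub_mul, hA1, hA3]
  have e3 : (L i1 - L i3) * (L i0 - L i2) = -((L i0 - L i2) * (L i1 - L i3)) := by
    rw [mul_sub, t_mul_L h h13 i0, t_mul_L h h13 i2,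
      Equiv.swap_apply_of_ne_of_ne h01 h03, Equiv.swap_apply_of_ne_of_ne h12.symm h23, sub_mul]
    abel
  have e4 : U * ((tt h h02 h13 : Rˣ) : R) = -(((tt h h02 h13 : Rˣ) : R) * U) := by
    change U * ((L i0 - L i2) * (L i1 - L i3)) = -((L i0 - L i2) * (L i1 - L i3) * U)
    rw [← mul_assoc, e1, mul_assoc, e2, ← mul_assoc, e3, neg_mul]
  have e5 : (tt h h01 h23 : Rˣ) * tt h h02 h13 = -1 * (tt h h02 h13 * tt h h01 h23) := by
    apply Units.ext
    rw [Units.val_mul, Units.val_mul, Units.val_mul, Units.val_neg, Units.val_one, neg_one_mul]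
    exact e4
  have e6 : (⁅A, B⁆ : cover L M) = zz L M := by
    have e7 : ((⁅A, B⁆ : cover L M) : alternatingGroup (Fin n) × Rˣ).2 = -1 := by
      change (tt h h01 h23 : Rˣ) * tt h h02 h13 * (tt h h01 h23)⁻¹ * (tt h h02 h13)⁻¹ = -1
      rw [e5]
      group
    have e8 : ((⁅A, B⁆ : cover L M) : alternatingGroup (Fin n) × Rˣ).1 = 1 := by
      apply fst_eq_one h (L := L) (M := M)
      rw [← e7]
      exact (⁅A, B⁆ : cover L M).2
    apply Subtype.ext
    exact Prod.ext e8 e7
  rw [← e6, commutator_def]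
  exact Subgroup.commutator_mem_commutator (Subgroup.mem_top _) (Subgroup.mem_top _)

end

/-- The spin double cover of the alternating group of degree `n ≥ 4`. -/
theorem exists_double_cover (n : ℕ) (hn : 4 ≤ n) : ∃ (Γ : Type) (_ : Group Γ) (_ : Finite Γ)
    (z : Γ) (f : Γ →* alternatingGroup (Fin n)), z ∈ Subgroup.center Γ ∧ orderOf z = 2 ∧
    z ∈ commutator Γ ∧ Function.Surjective f ∧ ∀ g, f g = 1 ↔ g = 1 ∨ g = z := by
  obtain ⟨R, hR, hF, L, M, h⟩ := exists_spinor n
  exact ⟨cover L M, inferInstance, inferInstance, zz L M, proj L M, zz_central, orderOf_zz h,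
    zz_mem_commutator h hn, proj_surjective h, proj_eq_one_iff h⟩

end Cfsg.Agent.SporadicB.SpinCover
end

-- part: S0447
section
set_option autoImplicit false
open Cfsg

namespace Cfsg.Agent.S0447

/-- Involutions in double covers of alternating groups: for n ≤ 7, a finite non-split double cover of the alternating group of degree n has exactly one element of order 2 (the central one); for degree 8 there is a non-split double cover with two distinct involutions. -/
theorem result : (∀ (n : ℕ) (H : Type) (_ : Group H) (_ : Finite H), n ≤ 7 → Cfsg.IsNonsplitDoubleCover H (alternatingGroup (Fin n)) → ∀ x y : H, orderOf x = 2 → orderOf y = 2 → x = y) ∧ ∃ (H : Type) (_ : Group H) (_ : Finite H), Cfsg.IsNonsplitDoubleCover H (alternatingGroup (Fin 8)) ∧ ∃ x y : H, x ≠ y ∧ orderOf x = 2 ∧ orderOf y = 2 := by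
  refine ⟨?_, ?_⟩
  · intro n H hG hF hn hH x y hx hy
    exact Cfsg.Agent.SporadicB.DoubleCoverUnique.unique_involution hn hH x y hx hy
  · obtain ⟨Γ, hG, hF, z, f, hz, hz2, hzc, hf, hker⟩ :=
      Cfsg.Agent.SporadicB.SpinCover.exists_double_cover 8 (by norm_num)
    exact ⟨Γ, hG, hF, Cfsg.Agent.SporadicB.DoubleCoverEight.degree_eight z hz hz2 hzc f hf hker⟩

end Cfsg.Agent.S0447
end
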