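import Cfsg.Statements.S0463
import Cfsg.Agent.SporadicB.PermRealization
import Cfsg.Agent.HN.A12Group
import Cfsg.Agent.S1701
set_option linter.all false
-- import your own Cfsg.Agent.* helpers here

set_option autoImplicit false
open Cfsg

namespace Cfsg.Agent.S0463

/-- The Harada–Norton group exists as a transitive permutation group of degree 1140000: simple of order 273030912000000 with point stabiliser isomorphic to the alternating group of degree 12. -/
theorem result : ∃ H : Subgroup (Equiv.Perm (Fin 1140000)), Cfsg.IsHN H ∧ MulAction.IsPretransitive H (Fin 1140000) ∧ Nonempty (MulAction.stabilizer H (0 : Fin 1140000) ≃* alternatingGroup (Fin 12)) := by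
  have hHN := Cfsg.Agent.S1701.result
  have hs : IsSimpleGroup Cfsg.Spor.HN := hHN.1
  obtain ⟨K, hidx, ⟨f⟩⟩ := Cfsg.Agent.HN.A12Group.exists_perm_group hHN
  obtain ⟨H, ⟨eH⟩, htr, hst⟩ :=
    Cfsg.Agent.SporadicB.PermRealization.exists_perm_realization K (by norm_num) hidx
  obtain ⟨eK⟩ := hst 0
  exact ⟨H, Cfsg.Agent.SporadicB.PermRealization.isSimple_card_of_equiv eH hHN, htr, ⟨eK.symm.trans f⟩⟩

end Cfsg.Agent.S0463
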