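import Cfsg.Statements.S0512
import Cfsg.Agent.SylowL5.Strong
import Cfsg.Agent.SylowL5.Coords
set_option linter.all false

set_option autoImplicit false
open Cfsg

namespace Cfsg.Agent.S0512

/-- A finite simple group whose Sylow 2-subgroups are isomorphic to a Sylow 2-subgroup of the projective special
linear group of dimension 5 over the field with 2 elements is isomorphic to that linear group, or is simple of order
244823040 or 4030387200 (the orders of the largest Mathieu group and of the Held group). -/
theorem result {G : Type*} [Group G] [Finite G] [IsSimpleGroup G]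
    {F : Type*} [Field F] [Fintype F] (hF : Fintype.card F = 2) (S : Sylow 2 G)
    (P : Sylow 2 (Matrix.ProjectiveSpecialLinearGroup (Fin 5) F))
    (hS : Nonempty ((S : Subgroup G) ≃* (P : Subgroup (Matrix.ProjectiveSpecialLinearGroup (Fin 5) F)))) :
    Nonempty (G ≃* Matrix.ProjectiveSpecialLinearGroup (Fin 5) F) ∨ Cfsg.IsM24 G ∨ Cfsg.IsHe G := by
  obtain ⟨u, hu⟩ := Cfsg.Agent.SylowL5.Coords.exists_emb (S : Subgroup G) hF P hS
  rcases Cfsg.Agent.Held.HeldTri.trichotomy (Cfsg.Agent.SylowL5.Strong.tetra S hu) with ⟨⟨e⟩⟩ | h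
  · exact Or.inl ⟨e.trans (Cfsg.Agent.SylowL5.Coords.pslEquiv hF).symm⟩
  · exact Or.inr h

end Cfsg.Agent.S0512
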