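import Cfsg.Statements.S0635
import Mathlib
import Cfsg.Agent.S0634
set_option linter.all false

set_option autoImplicit false
open Cfsg

namespace Cfsg.Agent.S0635

open Subgroup
open scoped commutatorElement

/-- the terms of the upper `p`-series at even positions after the start -/
theorem ups_odd_succ {G : Type*} [Group G] (p k : ℕ) :
    (Cfsg.upperPSeries p G (2 * k + 2)).1 =
      (Cfsg.pCore p (G ⧸ (Cfsg.upperPSeries p G (2 * k + 1)).1)).comap
        (QuotientGroup.mk' (Cfsg.upperPSeries p G (2 * k + 1)).1) := by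
  have h : ¬ Even (2 * k + 1) := by simp
  have key : Cfsg.upperPSeries p G (2 * k + 2) =
      (if Even (2 * k + 1) then
        (⟨(Cfsg.pPrimeCore p (G ⧸ (Cfsg.upperPSeries p G (2 * k + 1)).1)).comap
          (QuotientGroup.mk' (Cfsg.upperPSeries p G (2 * k + 1)).1), inferInstance⟩ :
          {H : Subgroup G // H.Normal})
      else
        ⟨(Cfsg.pCore p (G ⧸ (Cfsg.upperPSeries p G (2 * k + 1)).1)).comap
          (QuotientGroup.mk' (Cfsg.upperPSeries p G (2 * k + 1)).1), inferInstance⟩) := rfl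
  rw [key, if_neg h]

theorem ups_even_succ {G : Type*} [Group G] (p k : ℕ) :
    (Cfsg.upperPSeries p G (2 * k + 1)).1 =
      (Cfsg.pPrimeCore p (G ⧸ (Cfsg.upperPSeries p G (2 * k)).1)).comap
        (QuotientGroup.mk' (Cfsg.upperPSeries p G (2 * k)).1) := by
  have h : Even (2 * k) := by simp
  have key : Cfsg.upperPSeries p G (2 * k + 1) =
      (if Even (2 * k) then
        (⟨(Cfsg.pPrimeCore p (G ⧸ (Cfsg.upperPSeries p G (2 * k)).1)).comap
          (QuotientGroup.mk' (Cfsg.upperPSeries p G (2 * k)).1), inferInstance⟩ :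
          {H : Subgroup G // H.Normal})
      else
        ⟨(Cfsg.pCore p (G ⧸ (Cfsg.upperPSeries p G (2 * k)).1)).comap
          (QuotientGroup.mk' (Cfsg.upperPSeries p G (2 * k)).1), inferInstance⟩) := rfl
  rw [key, if_pos h]

theorem ups_even_le {G : Type*} [Group G] (p k : ℕ) :
    (Cfsg.upperPSeries p G (2 * k)).1 ≤ (Cfsg.upperPSeries p G (2 * k + 1)).1 := by
  rw [ups_even_succ]
  intro x hx
  rw [Subgroup.mem_comap, QuotientGroup.mk'_apply, (QuotientGroup.eq_one_iff x).mpr hx]
  exact Subgroup.one_mem _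

/-- a normal `p`-subgroup lies in each Sylow `p`-subgroup -/
theorem pCore_le_sylow {G : Type*} [Group G] (p : ℕ) (P : Sylow p G) :
    Cfsg.pCore p G ≤ (P : Subgroup G) := by
  refine sSup_le ?_
  rintro N ⟨hN, hp⟩
  have := hN
  have h1 : IsPGroup p ↥((P : Subgroup G) ⊔ N) := P.2.to_sup_of_normal_right hp
  have h2 : (P : Subgroup G) ⊔ N = P := P.3 h1 le_sup_left
  rw [← h2]
  exact le_sup_right

/-- the `k`-th upper central term of a Sylow subgroup lies in the `2k`-th term of the upper `p`-series -/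
theorem ucs_le_ups {G : Type*} [Group G] [Finite G] {p : ℕ} [Fact p.Prime]
    (hsol : Cfsg.IsPSolvable p G) (S : Sylow p G) (k : ℕ) :
    (Subgroup.upperCentralSeries ↥(S : Subgroup G) k).map (S : Subgroup G).subtype ≤
      (Cfsg.upperPSeries p G (2 * k)).1 := by
  induction k with
  | zero =>
    rw [Subgroup.upperCentralSeries_zero]
    simp
  | succ k ih =>
    set U := (Cfsg.upperPSeries p G (2 * k + 1)).1 with hU
    have hcent := Cfsg.Agent.S0634.result hsol k
    have hsurj : Function.Surjective (QuotientGroup.mk' U) := QuotientGroup.mk'_surjective U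
    let T : Sylow p (G ⧸ U) := S.mapSurjective hsurj
    have hT : (T : Subgroup (G ⧸ U)) = (S : Subgroup G).map (QuotientGroup.mk' U) :=
      Sylow.coe_mapSurjective hsurj S
    have hmapcomap : (Cfsg.upperPSeries p G (2 * k + 2)).1.map (QuotientGroup.mk' U) =
        Cfsg.pCore p (G ⧸ U) := by
      rw [ups_odd_succ]
      exact Subgroup.map_comap_eq_self_of_surjective hsurj _
    rw [hmapcomap] at hcent
    rintro x ⟨y, hy, rfl⟩
    change _ ∈ (Cfsg.upperPSeries p G (2 * k + 2)).1
    rw [ups_odd_succ]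
    rw [Subgroup.mem_comap]
    apply hcent
    rw [Subgroup.mem_centralizer_iff]
    intro z hz
    have hz' : z ∈ (T : Subgroup (G ⧸ U)) := pCore_le_sylow p T hz
    rw [hT] at hz'
    obtain ⟨s, hs, rfl⟩ := hz'
    have h1 := (Subgroup.mem_upperCentralSeries_succ_iff.mp hy) ⟨s, hs⟩
    have h2 : ((⁅y, (⟨s, hs⟩ : ↥(S : Subgroup G))⁆ : ↥(S : Subgroup G)) : G) ∈ U :=
      ups_even_le p k (ih ⟨_, h1, rfl⟩)
    have h3 : (QuotientGroup.mk' U) (⁅(y : G), s⁆) = 1 := (QuotientGroup.eq_one_iff _).mpr h2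
    rw [map_commutatorElement, commutatorElement_eq_one_iff_mul_comm] at h3
    exact h3.symm

/-- The p-length of a p-soluble group is at most the nilpotency class of its Sylow p-subgroups. -/
theorem result {G : Type*} [Group G] [Finite G] {p : ℕ} [Fact p.Prime] (hsol : Cfsg.IsPSolvable p G) (S : Sylow p G) : Cfsg.PLengthLE p (Group.nilpotencyClass ↥(S : Subgroup G)) G := by
  have : Group.IsNilpotent ↥(S : Subgroup G) := S.2.isNilpotent
  set c := Group.nilpotencyClass ↥(S : Subgroup G) with hc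
  have h1 := ucs_le_ups hsol S c
  rw [hc, Subgroup.upperCentralSeries_nilpotencyClass, ← hc] at h1
  have h2 : (S : Subgroup G) ≤ (Cfsg.upperPSeries p G (2 * c)).1 := by
    intro x hx
    exact h1 ⟨⟨x, hx⟩, Subgroup.mem_top _, rfl⟩
  change (Cfsg.upperPSeries p G (2 * c + 1)).1 = ⊤
  rw [ups_even_succ]
  set U := (Cfsg.upperPSeries p G (2 * c)).1 with hU
  have h3 : Cfsg.pPrimeCore p (G ⧸ U) = ⊤ := by
    rw [eq_top_iff]
    refine le_sSup ⟨inferInstance, ?_⟩
    have h4 : Nat.card (⊤ : Subgroup (G ⧸ U)) = U.index := by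
      rw [Subgroup.card_top]; rfl
    rw [h4]
    have h5 : ¬ p ∣ U.index := fun h =>
      S.not_dvd_index (h.trans (Subgroup.index_dvd_of_le h2))
    exact ((Nat.Prime.coprime_iff_not_dvd Fact.out).mpr h5).symm
  rw [h3]
  exact Subgroup.comap_top _

end Cfsg.Agent.S0635
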