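import Cfsg.Statements.S0712
import Mathlib
set_option linter.all false

set_option autoImplicit false
open Cfsg

namespace Cfsg.Agent.S0712

open MulAction SubMulAction

/-- If `G` is `m`-transitive and the pointwise stabiliser of a finite set `s` with `m` elements
is `k`-transitive on the complement of `s`, then `G` is `(m + k)`-transitive. -/
theorem isMultiplyPretransitive_add_of_fixingSubgroup {G α : Type*} [Group G] [MulAction G α]
    {m k : ℕ} (hG : IsMultiplyPretransitive G α m) (s : Set α) [Finite s] (hs : s.ncard = m)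
    (h : IsMultiplyPretransitive (fixingSubgroup G s) (ofFixingSubgroup G s) k) :
    IsMultiplyPretransitive G α (m + k) := by
  have hne : Nonempty (Fin m ≃ s) :=
    Finite.card_eq.mp (by simp [Nat.card_coe_set_eq, hs])
  obtain ⟨e0⟩ := hne
  let e : Fin m ↪ α := e0.toEmbedding.trans (Function.Embedding.subtype _)
  have hes : ∀ a ∈ s, ∃ i, e i = a := fun a ha => ⟨e0.symm ⟨a, ha⟩, by simp [e]⟩
  have hes' : ∀ i, e i ∈ s := fun i => (e0 i).2
  have key : ∀ x : Fin (m + k) ↪ α, ∃ g : G, ∃ x' : Fin k ↪ ofFixingSubgroup G s,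
      (∀ i : Fin m, g • x (Fin.castAdd k i) = e i) ∧
      (∀ i : Fin k, g • x (Fin.natAdd m i) = (x' i : α)) := by
    intro x
    obtain ⟨g, hg⟩ := hG.exists_smul_eq ((Fin.castAddEmb k).trans x) e
    have hg' : ∀ i : Fin m, g • x (Fin.castAdd k i) = e i := by
      intro i
      have := DFunLike.congr_fun hg i
      simpa using this
    have hmem : ∀ i : Fin k, g • x (Fin.natAdd m i) ∉ s := by
      intro i hi
      obtain ⟨j, hj⟩ := hes _ hi
      rw [← hg'] at hj
      have := x.injective (MulAction.injective g hj)
      have h1 := congrArg Fin.val this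
      simp at h1
      omega
    refine ⟨g, ⟨fun i => ⟨g • x (Fin.natAdd m i), hmem i⟩, ?_⟩, hg', fun i => rfl⟩
    intro i j hij
    have h1 : g • x (Fin.natAdd m i) = g • x (Fin.natAdd m j) := congrArg Subtype.val hij
    have h2 := x.injective (MulAction.injective g h1)
    have h3 := congrArg Fin.val h2
    simp at h3
    exact Fin.ext h3
  refine ⟨fun x y => ?_⟩
  obtain ⟨g, x', hgx, hgx'⟩ := key x
  obtain ⟨g', y', hgy, hgy'⟩ := key y
  obtain ⟨h0, hh⟩ := h.exists_smul_eq x' y'
  refine ⟨g'⁻¹ * (h0 : G) * g, ?_⟩
  ext i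
  simp only [Function.Embedding.smul_apply, mul_smul, inv_smul_eq_iff]
  refine Fin.addCases (fun i => ?_) (fun i => ?_) i
  · rw [hgx, hgy]
    exact (mem_fixingSubgroup_iff G).mp h0.2 _ (hes' i)
  · rw [hgx', hgy']
    exact congrArg Subtype.val (DFunLike.congr_fun hh i)

/-- Jordan: a primitive group in which the pointwise stabiliser of a set `s` is doubly transitive on the complement of `s` (which has at least 2 points) is `(|s| + 2)`-transitive. -/
theorem result {α : Type*} [Fintype α] [DecidableEq α] (G : Subgroup (Equiv.Perm α)) (hG : MulAction.IsPreprimitive G α) (s : Set α) {m : ℕ} (hsm : s.ncard = m) (hm : m + 2 ≤ Fintype.card α) (h2 : MulAction.IsMultiplyPretransitive (fixingSubgroup G s) (SubMulAction.ofFixingSubgroup G s) 2) : MulAction.IsMultiplyPretransitive G α (m + 2) := by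
  refine isMultiplyPretransitive_add_of_fixingSubgroup ?_ s hsm h2
  rcases m with _ | n
  · exact is_zero_pretransitive
  · have h3 : IsMultiplyPreprimitive G α (n + 2) := by
      refine hG.isMultiplyPreprimitive hsm ?_ (isPreprimitive_of_is_two_pretransitive h2)
      rw [Nat.card_eq_fintype_card]
      omega
    have h4 : IsMultiplyPretransitive G α (n + 2) := h3.isMultiplyPretransitive
    refine isMultiplyPretransitive_of_le (n := n + 2) (by omega) ?_
    rw [Nat.card_eq_fintype_card]
    omega

end Cfsg.Agent.S0712
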