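-- Proof of statement S0759.
import Cfsg.Statements.S0759
import Mathlib
set_option linter.all false

set_option autoImplicit false
open Cfsg

namespace Cfsg.Agent.S0759

theorem ringChar_ne_two {F : Type*} [Field F] (h2 : (2 : F) ≠ 0) : ringChar F ≠ 2 := by
  intro h
  apply h2
  have := ringChar.Nat.cast_ringChar (R := F)
  rw [h] at this
  exact_mod_cast this

/-- `det [[0, B], [C, D]] = (-1)^n det B det C`. -/
theorem det_fromBlocks_zero_left {n F : Type*} [Fintype n] [DecidableEq n] [CommRing F]
    (B C D : Matrix n n F) :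
    (Matrix.fromBlocks 0 B C D).det = (-1) ^ Fintype.card n * (B.det * C.det) := by
  have hJ : (Matrix.J n F).det = 1 := SymplecticGroup.det_eq_one (SymplecticGroup.J_mem n F)
  have h : Matrix.fromBlocks 0 B C D * Matrix.J n F = Matrix.fromBlocks B 0 D (-C) := by
    rw [Matrix.J, Matrix.fromBlocks_multiply]
    simp
  have h' := congrArg Matrix.det h
  rw [Matrix.det_mul, hJ, mul_one, Matrix.det_fromBlocks_zero₁₂, Matrix.det_neg] at h'
  rw [h']; ring

/-- A totally singular subspace of dimension `m` for the sum of `2m` squares forces `(-1)^m` to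
be a square. -/
theorem isSquare_of_exists {F : Type*} [Field F] (h2 : (2 : F) ≠ 0) (m : ℕ)
    (W : Submodule F (Fin (2 * m) → F)) (hW : Module.finrank F W = m)
    (h : ∀ w ∈ W, ∑ i, w i ^ 2 = 0) : IsSquare ((-1 : F) ^ m) := by
  classical
  obtain ⟨U, hU⟩ := W.exists_isCompl
  have hUm : Module.finrank F U = m := by
    have := Submodule.finrank_add_eq_of_isCompl hU
    rw [hW, Module.finrank_fin_fun] at this
    omega
  let bW : Module.Basis (Fin m) F W := Module.finBasisOfFinrankEq F W hW
  let bU : Module.Basis (Fin m) F U := Module.finBasisOfFinrankEq F U hUm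
  let b : Module.Basis (Fin m ⊕ Fin m) F (Fin (2 * m) → F) :=
    (bW.prod bU).map (Submodule.prodEquivOfIsCompl W U hU)
  have hb1 : ∀ i : Fin m, b (Sum.inl i) ∈ W := by
    intro i
    have : b (Sum.inl i) = bW i := by
      simp [b]
    rw [this]; exact (bW i).2
  let e : Fin m ⊕ Fin m ≃ Fin (2 * m) := Fintype.equivOfCardEq (by simp; ring)
  let P : Matrix (Fin m ⊕ Fin m) (Fin m ⊕ Fin m) F := fun i j => b i (e j)
  have hP : P.det ≠ 0 := by
    have hli : LinearIndependent F P.row := by
      have := b.linearIndependent.map' (LinearEquiv.funCongrLeft F F e).toLinearMap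
        (LinearEquiv.ker _)
      exact this
    have := Matrix.linearIndependent_rows_iff_isUnit.1 hli
    rw [Matrix.isUnit_iff_isUnit_det] at this
    exact this.ne_zero
  have hPP : ∀ i j, (P * P.transpose) i j = ∑ k, b i k * b j k := by
    intro i j
    rw [Matrix.mul_apply]
    exact Equiv.sum_comp e (fun k => b i k * b j k)
  have hG : P * P.transpose = Matrix.fromBlocks 0 (P * P.transpose).toBlocks₁₂
      (P * P.transpose).toBlocks₁₂.transpose (P * P.transpose).toBlocks₂₂ := by
    ext i j
    rcases i with i | i <;> rcases j with j | j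
    · rw [hPP]
      simp only [Matrix.fromBlocks_apply₁₁, Matrix.zero_apply]
      have h1 := h _ (hb1 i)
      have h2' := h _ (hb1 j)
      have h3 := h _ (W.add_mem (hb1 i) (hb1 j))
      have h4 : ∑ k, (b (Sum.inl i) + b (Sum.inl j)) k ^ 2 =
          ∑ k, b (Sum.inl i) k ^ 2 + ∑ k, b (Sum.inl j) k ^ 2 +
            2 * ∑ k, b (Sum.inl i) k * b (Sum.inl j) k := by
        rw [Finset.mul_sum, ← Finset.sum_add_distrib, ← Finset.sum_add_distrib]
        refine Finset.sum_congr rfl fun k _ => ?_
        simp only [Pi.add_apply]; ring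
      rw [h3, h1, h2', zero_add, zero_add] at h4
      rcases mul_eq_zero.1 h4.symm with h5 | h5
      · exact absurd h5 h2
      · exact h5
    · rfl
    · rw [Matrix.fromBlocks_apply₂₁]
      simp only [Matrix.transpose_apply, Matrix.toBlocks₁₂, Matrix.of_apply]
      rw [hPP, hPP]
      exact Finset.sum_congr rfl fun k _ => mul_comm _ _
    · rfl
  have hdet := congrArg Matrix.det hG
  rw [Matrix.det_mul, Matrix.det_transpose, det_fromBlocks_zero_left, Matrix.det_transpose,
    Fintype.card_fin] at hdet
  set d := (P * P.transpose).toBlocks₁₂.det with hd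
  have hd0 : d ≠ 0 := by
    intro h0
    rw [h0] at hdet
    simp at hdet
    exact hP hdet
  refine ⟨P.det / d, ?_⟩
  field_simp
  linear_combination -hdet

/-- Construction of a totally singular subspace from an anti-isometry. -/
theorem exists_of_linearMap {F ι : Type*} [Field F] [Fintype ι] (m : ℕ)
    (hι : Fintype.card ι = m) (T : (ι → F) →ₗ[F] (ι → F))
    (hT : ∀ x, ∑ i, (T x i) ^ 2 = -∑ i, x i ^ 2) :
    ∃ W : Submodule F (Fin (2 * m) → F), Module.finrank F W = m ∧ ∀ w ∈ W, ∑ i, w i ^ 2 = 0 := by
  classical
  let e : Fin (2 * m) ≃ ι ⊕ ι := Fintype.equivOfCardEq (by simp [hι]; ring)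
  let f : (ι → F) →ₗ[F] (Fin (2 * m) → F) :=
    { toFun := fun x k => Sum.elim x (T x) (e k)
      map_add' := by
        intro x y
        funext k
        rcases hk : e k with i | i <;> simp [hk]
      map_smul' := by
        intro c x
        funext k
        rcases hk : e k with i | i <;> simp [hk] }
  have hf : Function.Injective f := by
    intro x y hxy
    funext i
    have := congrFun hxy (e.symm (Sum.inl i))
    simpa [f] using this
  refine ⟨LinearMap.range f, ?_, ?_⟩
  · rw [LinearMap.finrank_range_of_inj hf, Module.finrank_fintype_fun_eq_card, hι]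
  · rintro _ ⟨x, rfl⟩
    have : ∑ i, f x i ^ 2 = ∑ s : ι ⊕ ι, (Sum.elim x (T x) s) ^ 2 :=
      Equiv.sum_comp e (fun s => (Sum.elim x (T x) s) ^ 2)
    rw [this, Fintype.sum_sum_type]
    simp [hT]

theorem exists_sq_add_sq {F : Type*} [Field F] [Fintype F] :
    ∃ a b : F, a ^ 2 + b ^ 2 = -1 := by
  obtain ⟨p, hp⟩ := CharP.exists F
  have : NeZero p := ⟨(CharP.char_is_prime F p).ne_zero⟩
  obtain ⟨a, b, hab⟩ := CharP.sq_add_sq F p (-1)
  exact ⟨a, b, by exact_mod_cast hab⟩

/-- Type of the orthonormal form: over a finite field of odd order q and for m ≥ 1, the quadratic form Σ_(i<2m) x_i² on F^(2m) admits an m-dimensional subspace on which it vanishes identically if and only if it is not the case that q ≡ 3 (mod 4) and m is odd. -/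
theorem result {F : Type*} [Field F] [Fintype F] (h2 : (2 : F) ≠ 0) (m : ℕ) (hm : 1 ≤ m) : (∃ W : Submodule F (Fin (2 * m) → F), Module.finrank F W = m ∧ ∀ w ∈ W, ∑ i, w i ^ 2 = 0) ↔ ¬ (Fintype.card F % 4 = 3 ∧ Odd m) := by
  constructor
  · rintro ⟨W, hW, h⟩ ⟨h3, hodd⟩
    have := isSquare_of_exists h2 m W hW h
    rw [hodd.neg_one_pow, FiniteField.isSquare_neg_one_iff] at this
    exact this h3
  · intro h
    by_cases h3 : Fintype.card F % 4 = 3
    · have hev : Even m := by
        rw [← Nat.not_odd_iff_even]
        exact fun ho => h ⟨h3, ho⟩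
      obtain ⟨k, hk⟩ := hev
      obtain ⟨a, b, hab⟩ := exists_sq_add_sq (F := F)
      let T : (Fin k ⊕ Fin k → F) →ₗ[F] (Fin k ⊕ Fin k → F) :=
        { toFun := fun x => Sum.elim (fun i => a * x (Sum.inl i) + b * x (Sum.inr i))
            (fun i => b * x (Sum.inl i) - a * x (Sum.inr i))
          map_add' := by
            intro x y
            funext s
            rcases s with i | i <;> simp <;> ring
          map_smul' := by
            intro c x
            funext s
            rcases s with i | i <;> simp <;> ring }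
      refine exists_of_linearMap m (by simp [hk]) T ?_
      intro x
      rw [Fintype.sum_sum_type, Fintype.sum_sum_type, ← Finset.sum_add_distrib,
        ← Finset.sum_add_distrib, ← Finset.sum_neg_distrib]
      refine Finset.sum_congr rfl fun i _ => ?_
      change (a * x (Sum.inl i) + b * x (Sum.inr i)) ^ 2 +
        (b * x (Sum.inl i) - a * x (Sum.inr i)) ^ 2 = _
      linear_combination (x (Sum.inl i) ^ 2 + x (Sum.inr i) ^ 2) * hab
    · have hsq : IsSquare (-1 : F) := FiniteField.isSquare_neg_one_iff.2 h3
      obtain ⟨r, hr⟩ := hsq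
      refine exists_of_linearMap (ι := Fin m) m (by simp) (r • LinearMap.id) ?_
      intro x
      rw [← Finset.sum_neg_distrib]
      refine Finset.sum_congr rfl fun i _ => ?_
      simp only [LinearMap.smul_apply, LinearMap.id_apply, Pi.smul_apply, smul_eq_mul]
      linear_combination (-(x i) ^ 2) * hr

end Cfsg.Agent.S0759
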