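import Cfsg.Statements.S0768
import Cfsg.Agent.ClassicalGeometry.SympBasic
set_option linter.all false

set_option autoImplicit false
open scoped LinearAlgebra.Projectivization
open Cfsg

namespace Cfsg.Agent.S0768

open Cfsg.Agent.ClassicalGeometry.SympBasic
open scoped Pointwise

section
variable {F : Type*} [Field F] {m : ℕ}

/-- A symplectic matrix as an element of `spGL`. -/
noncomputable def toSpGL (A : Matrix.symplecticGroup (Fin m) F) : Cfsg.spGL m F :=
  ⟨Matrix.GeneralLinearGroup.mkOfDetNeZero (A : Matrix (Fin m ⊕ Fin m) (Fin m ⊕ Fin m) F)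
      (SymplecticGroup.symplectic_det A.2).ne_zero,
    fun u v => sympForm_mulVec A.2 u v⟩

theorem toSpGL_smul (A : Matrix.symplecticGroup (Fin m) F) (v : Fin m ⊕ Fin m → F) :
    toSpGL A • v = (A : Matrix (Fin m ⊕ Fin m) (Fin m ⊕ Fin m) F).mulVec v := rfl

theorem smul_mk_eq (g : Cfsg.spGL m F) (v : Fin m ⊕ Fin m → F) (hv : v ≠ 0) :
    g • (Projectivization.mk F v hv) =
      Projectivization.mk F (g • v) ((smul_ne_zero_iff_ne g).mpr hv) := rfl

theorem toSpGL_smul_mk (A : Matrix.symplecticGroup (Fin m) F) {v w : Fin m ⊕ Fin m → F}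
    (hv : v ≠ 0) (hw : w ≠ 0)
    (h : (A : Matrix (Fin m ⊕ Fin m) (Fin m ⊕ Fin m) F).mulVec v = w) :
    toSpGL A • (Projectivization.mk F v hv) = Projectivization.mk F w hw := by
  subst h
  rfl

/-- Moving inside the block, the non-orthogonal case. -/
theorem block_nonorth {B : Set (ℙ F (Fin m ⊕ Fin m → F))}
    (hB : MulAction.IsBlock (Cfsg.spGL m F) B) {x y z : Fin m ⊕ Fin m → F}
    (hx : x ≠ 0) (hy : y ≠ 0) (hz : z ≠ 0)
    (hxB : Projectivization.mk F x hx ∈ B) (hyB : Projectivization.mk F y hy ∈ B)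
    (hxy : sympForm m F x y ≠ 0) (hxz : sympForm m F x z ≠ 0) :
    Projectivization.mk F z hz ∈ B := by
  have h1 : sympForm m F x ((sympForm m F x y)⁻¹ • y) = 1 := by
    rw [sympForm_smul_right, inv_mul_cancel₀ hxy]
  have h2 : sympForm m F x ((sympForm m F x z)⁻¹ • z) = 1 := by
    rw [sympForm_smul_right, inv_mul_cancel₀ hxz]
  obtain ⟨A, -, hAx, hAy⟩ := exists_transvGroup_fix_mulVec_eq h1 h2
  have hy' : (sympForm m F x y)⁻¹ • y ≠ 0 := smul_ne_zero (inv_ne_zero hxy) hy
  have hz' : (sympForm m F x z)⁻¹ • z ≠ 0 := smul_ne_zero (inv_ne_zero hxz) hz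
  have e1 : Projectivization.mk F _ hy' = Projectivization.mk F y hy := by
    rw [Projectivization.mk_eq_mk_iff']
    exact ⟨_, rfl⟩
  have e2 : Projectivization.mk F _ hz' = Projectivization.mk F z hz := by
    rw [Projectivization.mk_eq_mk_iff']
    exact ⟨_, rfl⟩
  have hfix : toSpGL A • B = B := by
    refine hB.smul_eq_of_mem hxB ?_
    rw [toSpGL_smul_mk A hx hx hAx]
    exact hxB
  have : toSpGL A • Projectivization.mk F y hy ∈ toSpGL A • B := Set.smul_mem_smul_set hyB
  rwa [hfix, ← e1, toSpGL_smul_mk A hy' hz' hAy, e2] at this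

/-- A vector orthogonal to `x` and not to `y`. -/
theorem exists_perp {x y : Fin m ⊕ Fin m → F} (hx : x ≠ 0) (hy : ∀ c : F, c • x ≠ y) :
    ∃ v, sympForm m F x v = 0 ∧ sympForm m F y v ≠ 0 := by
  by_contra hcon
  push Not at hcon
  obtain ⟨a, ha⟩ : ∃ a, sympForm m F x a ≠ 0 := by
    by_contra h
    push Not at h
    exact hx (eq_zero_of_forall_sympForm_right h)
  apply hy (sympForm m F y ((sympForm m F x a)⁻¹ • a))
  apply eq_of_forall_sympForm_right
  intro w
  have h := hcon (w - (sympForm m F x w) • ((sympForm m F x a)⁻¹ • a)) (by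
    rw [sympForm_sub_right, sympForm_smul_right, sympForm_smul_right, inv_mul_cancel₀ ha,
      mul_one, sub_self])
  rw [sympForm_sub_right, sub_eq_zero, sympForm_smul_right] at h
  rw [h, sympForm_smul_left, mul_comm]

/-- In a block with two distinct points there are two non-orthogonal points. -/
theorem exists_nonorth {B : Set (ℙ F (Fin m ⊕ Fin m → F))}
    (hB : MulAction.IsBlock (Cfsg.spGL m F) B) {x y : Fin m ⊕ Fin m → F}
    (hx : x ≠ 0) (hy : y ≠ 0)
    (hxB : Projectivization.mk F x hx ∈ B) (hyB : Projectivization.mk F y hy ∈ B)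
    (hne : Projectivization.mk F x hx ≠ Projectivization.mk F y hy) :
    ∃ (z : Fin m ⊕ Fin m → F) (hz : z ≠ 0), Projectivization.mk F z hz ∈ B ∧
      sympForm m F y z ≠ 0 := by
  obtain ⟨v, hxv, hyv⟩ := exists_perp (m := m) hx (y := y) (by
    rintro c rfl
    apply hne
    rw [eq_comm, Projectivization.mk_eq_mk_iff']
    exact ⟨c, rfl⟩)
  have hAx : (transv v (1 : F) : Matrix (Fin m ⊕ Fin m) (Fin m ⊕ Fin m) F).mulVec x = x := by
    rw [coe_transv, sympTransvection_mulVec, hxv, mul_zero, zero_smul, add_zero]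
  have hfix : toSpGL (transv v (1 : F)) • B = B := by
    refine hB.smul_eq_of_mem hxB ?_
    rw [toSpGL_smul_mk _ hx hx hAx]
    exact hxB
  have h := Set.smul_mem_smul_set (a := toSpGL (transv v (1 : F))) hyB
  rw [hfix] at h
  refine ⟨_, _, h, ?_⟩
  change sympForm m F y ((sympTransvection m v (1 : F)).mulVec y) ≠ 0
  rw [sympTransvection_mulVec, sympForm_add_right, sympForm_self, zero_add,
    sympForm_smul_right, one_mul]
  exact mul_ne_zero hyv hyv

end

/-- Primitivity: for m ≥ 1 and F finite, the symplectic group of the form sympForm (as a subgroup of the general linear group) acts primitively on the projective space of F^(2m). -/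
theorem result {F : Type*} [Field F] [Finite F] (m : ℕ) (hm : 1 ≤ m) : MulAction.IsPreprimitive ↥(Cfsg.spGL m F) (ℙ F (Fin m ⊕ Fin m → F)) := by
  haveI : MulAction.IsPretransitive ↥(Cfsg.spGL m F) (ℙ F (Fin m ⊕ Fin m → F)) := by
    constructor
    intro p q
    induction p using Projectivization.ind with | _ x hx =>
    induction q using Projectivization.ind with | _ y hy =>
    obtain ⟨A, -, hA⟩ := exists_transvGroup_mulVec_eq hx hy
    exact ⟨toSpGL A, toSpGL_smul_mk A hx hy hA⟩
  constructor
  intro B hB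
  rw [MulAction.IsTrivialBlock]
  by_cases hs : B.Subsingleton
  · exact Or.inl hs
  right
  rw [Set.not_subsingleton_iff] at hs
  obtain ⟨p, hp, q, hq, hpq⟩ := hs
  induction p using Projectivization.ind with | _ x hx =>
  induction q using Projectivization.ind with | _ y hy =>
  obtain ⟨z, hz, hzB, hyz⟩ := exists_nonorth hB hx hy hp hq hpq
  rw [Set.eq_univ_iff_forall]
  intro r
  induction r using Projectivization.ind with | _ w hw =>
  obtain ⟨u, hyu, hwu⟩ := exists_both_ne_zero hy hw
  have hu : u ≠ 0 := by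
    rintro rfl
    rw [sympForm_zero_right] at hyu
    exact hyu rfl
  have huB := block_nonorth hB hy hz hu hq hzB hyz hyu
  refine block_nonorth hB hu hy hw huB hq ?_ ?_
  · rw [sympForm_swap]
    exact neg_ne_zero.2 hyu
  · rw [sympForm_swap]
    exact neg_ne_zero.2 hwu

end Cfsg.Agent.S0768
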