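import Mathlib
import Cfsg.Prelude.Def_Blocks
import Cfsg.Agent.Blocks.QuaternionCount
import Cfsg.Statements.S0951
import Cfsg.Agent.S0201
import Cfsg.Agent.S0907
import Cfsg.Agent.S0941
import Cfsg.Agent.S0948
import Cfsg.Agent.Blocks.SectionSum
import Cfsg.Agent.Blocks.SectionCount
import Cfsg.Agent.Blocks.Deflate
import Cfsg.Agent.Blocks.PRegular
import Cfsg.Agent.Characters.Core
import Cfsg.Agent.Characters.Central
set_option linter.all false

-- part: Blocks/QuaternionQuot
section
/-!
# The quotient by the centre of a group with quaternion Sylow 2-subgroups of order 8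
-/

set_option autoImplicit false

open Cfsg

namespace Cfsg.Agent.Blocks.QuaternionQuot

open Cfsg.Agent.Blocks.QuaternionCount

variable {G : Type*} [Group G] [Finite G] (S : Sylow 2 G)
  (e : (S : Subgroup G) ≃* QuaternionGroup 2) (hZ : Nat.card (Subgroup.center G) = 2)

include hZ in
omit [Finite G] in
theorem exists_central : ∃ z ∈ Subgroup.center G, z ≠ 1 ∧ z ^ 2 = 1 ∧
    ∀ w ∈ Subgroup.center G, w = 1 ∨ w = z := by
  have h1 : ∃ z : Subgroup.center G, z ≠ 1 ∧ ∀ w : Subgroup.center G, w = 1 ∨ w = z := by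
    obtain ⟨a, b, hab, huniv⟩ := Nat.card_eq_two_iff.1 hZ
    have hu : ∀ w : Subgroup.center G, w = a ∨ w = b := by
      intro w
      have : w ∈ ({a, b} : Set (Subgroup.center G)) := by rw [huniv]; trivial
      simpa using this
    rcases hu 1 with h | h
    · subst h
      exact ⟨b, hab.symm, hu⟩
    · subst h
      exact ⟨a, hab, fun w => (hu w).symm⟩
  obtain ⟨z, hz, hw⟩ := h1
  refine ⟨z, z.2, fun h => hz (Subtype.ext h), ?_, ?_⟩
  · have h2 : z ^ 2 = 1 := by
      rw [← hZ]
      exact pow_card_eq_one'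
    exact congrArg Subtype.val h2
  · intro w hwc
    rcases hw ⟨w, hwc⟩ with h | h
    · left; exact congrArg Subtype.val h
    · right; exact congrArg Subtype.val h

include e in
theorem eq_of_sq {z x : G} (hz : z ∈ Subgroup.center G) (hz1 : z ≠ 1) (hz2 : z ^ 2 = 1)
    (hx : ∃ k : ℕ, orderOf x = 2 ^ k) (hx1 : x ≠ 1) (hx2 : x ^ 2 = 1) : x = z := by
  obtain ⟨T, hT⟩ := exists_sylow_mem x hx
  obtain ⟨f⟩ := nonempty_equiv S e T
  have hzT : z ∈ (T : Subgroup G) := by
    refine mem_sylow_of_central T z hz ⟨1, ?_⟩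
    rw [pow_one]
    exact orderOf_eq_prime hz2 hz1
  have h1 := q8_unique (f ⟨x, hT⟩) (f ⟨z, hzT⟩) (by
    rw [← map_pow, ← map_one f]; congr 1; exact Subtype.ext hx2) (by
    rw [← map_pow, ← map_one f]; congr 1; exact Subtype.ext hz2) (by
    rw [← map_one f]; intro h; exact hx1 (congrArg Subtype.val (f.injective h))) (by
    rw [← map_one f]; intro h; exact hz1 (congrArg Subtype.val (f.injective h)))
  exact congrArg Subtype.val (f.injective h1)

include e hZ in
theorem sq_mem_center (x : G) (hx : ∃ k : ℕ, orderOf x = 2 ^ k) : x ^ 2 ∈ Subgroup.center G := by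
  obtain ⟨z, hz, hz1, hz2, -⟩ := exists_central hZ
  by_cases h : x ^ 2 = 1
  · rw [h]; exact Subgroup.one_mem _
  · have h4 := pow_four_eq_one S e x hx
    have h5 : x ^ 2 = z := by
      refine eq_of_sq S e hz hz1 hz2 ⟨1, ?_⟩ h ?_
      · rw [pow_one]
        exact orderOf_eq_prime (by rw [← pow_mul]; exact h4) h
      · rw [← pow_mul]; exact h4
    rw [h5]
    exact hz

/-- the Sylow 2-subgroup of the quotient -/
noncomputable def barSylow : Sylow 2 (G ⧸ Subgroup.center G) :=
  S.mapSurjective (QuotientGroup.mk'_surjective (Subgroup.center G))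

include hZ in
omit [Finite G] in
theorem card_G : Nat.card G = 2 * Nat.card (G ⧸ Subgroup.center G) := by
  rw [← hZ, mul_comm, ← Subgroup.card_eq_card_quotient_mul_card_subgroup]

include e in
theorem factorization_G : (Nat.card G).factorization 2 = 3 := by
  have h1 : Nat.card S = 8 := by rw [Nat.card_congr e.toEquiv, q8_card]
  have h2 := S.card_eq_multiplicity
  rw [h1] at h2
  have h3 : 2 ^ 3 = 2 ^ (Nat.card G).factorization 2 := by rw [← h2]; norm_num
  exact (Nat.pow_right_injective le_rfl h3).symm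

include e hZ in
theorem card_barSylow : Nat.card (barSylow S) = 4 := by
  rw [(barSylow S).card_eq_multiplicity]
  have h1 := factorization_G S e
  rw [card_G hZ, Nat.factorization_mul (by norm_num) Nat.card_pos.ne', Finsupp.add_apply,
    Nat.Prime.factorization_self Nat.prime_two] at h1
  have h2 : (Nat.card (G ⧸ Subgroup.center G)).factorization 2 = 2 := by omega
  rw [h2]; norm_num

include e hZ in
theorem isKleinFour_barSylow : IsKleinFour (barSylow S : Subgroup (G ⧸ Subgroup.center G)) := by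
  have hcard := card_barSylow S e hZ
  refine ⟨hcard, ?_⟩
  have hnt : Nontrivial (barSylow S : Subgroup (G ⧸ Subgroup.center G)) := by
    rw [← Finite.one_lt_card_iff_nontrivial]
    have : Nat.card (barSylow S : Subgroup (G ⧸ Subgroup.center G)) = 4 := hcard
    omega
  rw [Monoid.exponent_eq_prime_iff Nat.prime_two]
  rintro ⟨g, hg⟩ hg1
  obtain ⟨s, hs, rfl⟩ := hg
  refine orderOf_eq_prime ?_ hg1
  apply Subtype.ext
  change (QuotientGroup.mk' (Subgroup.center G) s) ^ 2 = 1
  rw [← map_pow]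
  have h1 : s ^ 2 ∈ Subgroup.center G := by
    refine sq_mem_center S e hZ s ?_
    obtain ⟨k, hk⟩ := IsPGroup.iff_orderOf.1 S.isPGroup' ⟨s, hs⟩
    rw [Subgroup.orderOf_mk] at hk
    exact ⟨k, hk⟩
  exact (QuotientGroup.eq_one_iff _).2 h1

include e hZ in
/-- The normal complement in the quotient is impossible. -/
theorem eq_top_of_complement (hO : ∀ N : Subgroup G, N.Normal → Odd (Nat.card N) → N = ⊥)
    (N' : Subgroup (G ⧸ Subgroup.center G)) (hN' : N'.Normal)
    (hc : Subgroup.IsComplement' N' (barSylow S : Subgroup (G ⧸ Subgroup.center G))) :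
    (S : Subgroup G) = ⊤ := by
  have h2 : Fact (Nat.Prime 2) := ⟨Nat.prime_two⟩
  have h4 := card_barSylow S e hZ
  have hNcard : Nat.card N' * 4 = Nat.card (G ⧸ Subgroup.center G) := by
    rw [← h4]; exact hc.card_mul_card
  have hodd : Odd (Nat.card N') := by
    have h5 := (barSylow S).not_dvd_index
    have h6 := (barSylow S : Subgroup (G ⧸ Subgroup.center G)).card_mul_index
    have h7 : Nat.card (barSylow S : Subgroup (G ⧸ Subgroup.center G)) = 4 := h4
    rw [h7, ← hNcard, mul_comm] at h6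
    have h8 := Nat.eq_of_mul_eq_mul_right (by norm_num : 0 < 4) h6
    rw [← h8, ← Nat.not_even_iff_odd, even_iff_two_dvd]
    exact h5
  set N := N'.comap (QuotientGroup.mk' (Subgroup.center G)) with hN
  have hNn : N.Normal := hN'.comap _
  have hcardN : Nat.card N = 2 * Nat.card N' := by
    have h : Nat.card N = Nat.card (Subgroup.center G) * Nat.card N' :=
      QuotientGroup.card_preimage_mk (Subgroup.center G) (N' : Set (G ⧸ Subgroup.center G))
    rw [h, hZ]
  have hZN : Subgroup.center G ≤ N := by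
    intro x hx
    rw [hN, Subgroup.mem_comap, QuotientGroup.mk'_apply, (QuotientGroup.eq_one_iff x).2 hx]
    exact N'.one_mem
  have hfac : (Nat.card N).factorization 2 = 1 := by
    rw [hcardN, Nat.factorization_mul (by norm_num) Nat.card_pos.ne', Finsupp.add_apply,
      Nat.Prime.factorization_self Nat.prime_two, Nat.factorization_eq_zero_of_not_dvd]
    rw [← even_iff_two_dvd, Nat.not_even_iff_odd]
    exact hodd
  have hcZ : Nat.card ((Subgroup.center G).subgroupOf N) = 2 ^ (Nat.card N).factorization 2 := by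
    rw [hfac, pow_one, Nat.card_congr (Subgroup.subgroupOfEquivOfLe hZN).toEquiv, hZ]
  obtain ⟨k, hk⟩ := exists_index_pPrimeCore (p := 2)
    (Sylow.ofCard ((Subgroup.center G).subgroupOf N) hcZ) (by
      intro g _
      rw [Subgroup.mem_centralizer_iff]
      intro t ht
      have h5 : (t : G) ∈ Subgroup.center G := ht
      rw [Subgroup.mem_center_iff] at h5
      exact Subtype.ext (h5 g).symm)
  have hcore : pPrimeCore 2 G = ⊥ := by
    apply hO _ (Lib.Cores.pPrimeCore_normal 2)
    have h5 := Lib.Cores.pPrimeCore_coprime (G := G) 2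
    exact (Nat.coprime_two_right).1 h5
  have hcoreN : pPrimeCore 2 N = ⊥ := by
    have h5 := Lib.Cores.map_subtype_pPrimeCore 2 hNn
    rw [hcore, inf_bot_eq, Subgroup.map_eq_bot_iff, Subgroup.ker_subtype, le_bot_iff] at h5
    exact h5
  rw [hcoreN, Subgroup.index_bot, hcardN] at hk
  have h5 : Nat.card N' = 1 := by
    have h6 : Nat.card N' ∣ 2 ^ k := ⟨2, by rw [← hk, mul_comm]⟩
    exact Nat.eq_one_of_dvd_coprimes (Nat.Coprime.pow_left k
      ((Nat.coprime_two_right.2 hodd).symm)) h6 dvd_rfl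
  rw [h5] at hNcard
  have h6 := card_G hZ
  rw [← hNcard] at h6
  have h7 : Nat.card S = 8 := by rw [Nat.card_congr e.toEquiv, q8_card]
  exact Subgroup.eq_top_of_card_eq _ (by rw [h6]; exact h7)

include e hZ in
theorem isConj_of_involution (hO : ∀ N : Subgroup G, N.Normal → Odd (Nat.card N) → N = ⊥)
    (hG : (S : Subgroup G) ≠ ⊤) (s t : G ⧸ Subgroup.center G) (hs : orderOf s = 2)
    (ht : orderOf t = 2) : IsConj s t := by
  have hK := isKleinFour_barSylow S e hZ
  have hK2 : IsKleinFour (Multiplicative (ZMod (2 ^ 1) × ZMod (2 ^ 1))) :=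
    (inferInstance : IsKleinFour (Multiplicative (ZMod 2 × ZMod 2)))
  obtain ⟨f⟩ := IsKleinFour.nonempty_mulEquiv (G₁ := (barSylow S : Subgroup (G ⧸ Subgroup.center G)))
    (G₂ := Multiplicative (ZMod (2 ^ 1) × ZMod (2 ^ 1)))
  rcases Cfsg.Agent.S0946.result (barSylow S) 1 le_rfl f with ⟨N, hN, hc⟩ | h
  · exact absurd (eq_top_of_complement S e hZ hO N hN hc) hG
  · exact h s t hs ht

include e hZ in
/-- Centralizers of involutions of the quotient have normal 2-complements. -/
theorem exists_index_bar (t : G ⧸ Subgroup.center G) (ht : orderOf t = 2) :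
    ∃ k : ℕ, (pPrimeCore 2 (Subgroup.centralizer ({t} : Set (G ⧸ Subgroup.center G)))).index =
      2 ^ k := by
  have hK2 : IsKleinFour (Multiplicative (ZMod (2 ^ 1) × ZMod (2 ^ 1))) :=
    (inferInstance : IsKleinFour (Multiplicative (ZMod 2 × ZMod 2)))
  obtain ⟨T, hT⟩ := exists_sylow_mem (p := 2) t ⟨1, by rw [ht]; norm_num⟩
  have hK := isKleinFour_barSylow S e hZ
  obtain ⟨f'⟩ := IsKleinFour.nonempty_mulEquiv
    (G₁ := (barSylow S : Subgroup (G ⧸ Subgroup.center G)))
    (G₂ := Multiplicative (ZMod (2 ^ 1) × ZMod (2 ^ 1)))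
  have f := (Sylow.equiv T (barSylow S)).trans f'
  set C := Subgroup.centralizer ({t} : Set (G ⧸ Subgroup.center G)) with hC
  have hTC : (T : Subgroup (G ⧸ Subgroup.center G)) ≤ C := by
    intro x hx
    rw [hC, Subgroup.mem_centralizer_singleton_iff]
    have h1 : (⟨x, hx⟩ : (T : Subgroup (G ⧸ Subgroup.center G))) * ⟨t, hT⟩ = ⟨t, hT⟩ * ⟨x, hx⟩ := by
      apply f.injective
      rw [map_mul, map_mul, mul_comm]
    exact congrArg Subtype.val h1
  have ht1 : t ≠ 1 := by
    rintro rfl
    rw [orderOf_one] at ht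
    norm_num at ht
  refine exists_index_pPrimeCore (T.subtype hTC) ?_
  intro n hn
  have h1 : (n : G ⧸ Subgroup.center G) ∈ Subgroup.normalizer (T : Set (G ⧸ Subgroup.center G)) := by
    have hn' : n ∈ Subgroup.normalizer
      (((T : Subgroup (G ⧸ Subgroup.center G)).subgroupOf C : Subgroup C) : Set C) := hn
    change (n : G ⧸ Subgroup.center G) ∈
      Subgroup.normalizer ((T : Subgroup (G ⧸ Subgroup.center G)) : Set (G ⧸ Subgroup.center G))
    rw [Subgroup.mem_normalizer_iff] at hn' ⊢
    intro x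
    constructor
    · intro hx
      exact (hn' ⟨x, hTC hx⟩).1 hx
    · intro hx
      have hxC : x ∈ C := by
        have h2 := hTC hx
        have h3 := C.mul_mem (C.mul_mem (C.inv_mem n.2) h2) n.2
        have h4 : (n : G ⧸ Subgroup.center G)⁻¹ * (n * x * (n : G ⧸ Subgroup.center G)⁻¹) * n = x := by
          group
        rwa [h4] at h3
      exact (hn' ⟨x, hxC⟩).2 hx
  have h2 := Blocks.Homocyclic.mem_centralizer_of_commute T 1 f t hT ht1 n h1
    (Subgroup.mem_centralizer_singleton_iff.1 n.2).symm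
  rw [Subgroup.mem_centralizer_iff] at h2 ⊢
  intro x hx
  exact Subtype.ext (h2 x hx)

include e hZ in
/-- The 2-elements of the quotient. -/
theorem bar_two_element (x : G ⧸ Subgroup.center G) :
    (∃ k : ℕ, orderOf x = 2 ^ k) ↔ x = 1 ∨ orderOf x = 2 := by
  constructor
  · intro hx
    by_cases h1 : x = 1
    · left; exact h1
    · right
      have hK2 : IsKleinFour (Multiplicative (ZMod (2 ^ 1) × ZMod (2 ^ 1))) :=
        (inferInstance : IsKleinFour (Multiplicative (ZMod 2 × ZMod 2)))
      obtain ⟨T, hT⟩ := exists_sylow_mem (p := 2) x hx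
      have hK := isKleinFour_barSylow S e hZ
      have f : (T : Subgroup (G ⧸ Subgroup.center G)) ≃*
        (barSylow S : Subgroup (G ⧸ Subgroup.center G)) := Sylow.equiv T (barSylow S)
      have h2 : (⟨x, hT⟩ : (T : Subgroup (G ⧸ Subgroup.center G))) ^ 2 = 1 := by
        apply f.injective
        rw [map_pow, map_one]
        have h3 := Monoid.pow_exponent_eq_one (f ⟨x, hT⟩)
        rwa [hK.exponent_two] at h3
      exact orderOf_eq_prime (congrArg Subtype.val h2) h1
  · rintro (rfl | h)
    · exact ⟨0, by simp⟩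
    · exact ⟨1, by rw [h]; norm_num⟩

include e in
/-- The 2-elements of the group. -/
theorem two_element {z : G} (hz : z ∈ Subgroup.center G) (hz1 : z ≠ 1) (hz2 : z ^ 2 = 1) (x : G) :
    (∃ k : ℕ, orderOf x = 2 ^ k) ↔ x = 1 ∨ x = z ∨ orderOf x = 4 := by
  constructor
  · intro hx
    by_cases h1 : x = 1
    · left; exact h1
    · right
      by_cases h2 : x ^ 2 = 1
      · left
        exact eq_of_sq S e hz hz1 hz2 hx h1 h2
      · right
        have h4 := pow_four_eq_one S e x hx
        exact orderOf_eq_prime_pow (p := 2) (n := 1) (by simpa using h2) (by simpa using h4)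
  · rintro (rfl | rfl | h)
    · exact ⟨0, by simp⟩
    · exact ⟨1, by rw [pow_one]; exact orderOf_eq_prime hz2 hz1⟩
    · exact ⟨2, by rw [h]; norm_num⟩

end Cfsg.Agent.Blocks.QuaternionQuot
end

-- part: S0951
section
set_option autoImplicit false
open Cfsg

namespace Cfsg.Agent.S0951

open scoped ComplexConjugate
open Cfsg.Agent.Blocks

/-- The trivial character as an irreducible character. -/
def oneIrr (G : Type*) [Group G] : IrrCharacter G := ⟨fun _ => 1, Characters.Core.isIrr_one⟩

theorem isPBlock_principal (M : Ideal AlgInt) (G : Type*) [Group G] :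
    IsPBlock M (principalBlock M G) := ⟨oneIrr G, rfl⟩

/-- A central element of order two acts by a sign. -/
theorem central_sign {G : Type*} [Group G] [Finite G] (χ : IrrCharacter G) {z : G}
    (hz : z ∈ Subgroup.center G) (hz2 : z ^ 2 = 1) :
    (∀ g : G, (χ : G → ℂ) (z * g) = (χ : G → ℂ) g) ∨
      (∀ g : G, (χ : G → ℂ) (z * g) = -(χ : G → ℂ) g) := by
  obtain ⟨χ, n, ρ, hρ, rfl⟩ := χ
  obtain ⟨c, hc⟩ := Characters.Central.exists_smul_of_comm ρ hρ (ρ z) (fun g => by
    rw [← map_mul, ← map_mul, Subgroup.mem_center_iff.1 hz g])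
  have h1 : ∀ g : G, ρ.character (z * g) = c * ρ.character g := by
    intro g
    change LinearMap.trace ℂ _ (ρ (z * g)) = c * LinearMap.trace ℂ _ (ρ g)
    rw [map_mul, hc, smul_mul_assoc, one_mul, map_smul, smul_eq_mul]
  have h2 : ρ.character 1 ≠ 0 := Characters.Central.char_one_ne_zero ρ hρ
  have h3 : c * c = 1 := by
    have h4 : ρ.character (z * (z * 1)) = c * (c * ρ.character 1) := by rw [h1, h1]
    rw [← mul_assoc, ← pow_two, hz2, one_mul, ← mul_assoc] at h4
    have h5 : (c * c - 1) * ρ.character 1 = 0 := by rw [sub_mul, ← h4]; ring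
    rcases mul_eq_zero.1 h5 with h6 | h6
    · exact sub_eq_zero.1 h6
    · exact absurd h6 h2
  rcases mul_self_eq_one_iff.1 h3 with h4 | h4
  · left
    intro g
    change ρ.character (z * g) = ρ.character g
    rw [h1, h4, one_mul]
  · right
    intro g
    change ρ.character (z * g) = -ρ.character g
    rw [h1, h4, neg_one_mul]

/-- Inflation of irreducible characters. -/
def infl {G : Type*} [Group G] (N : Subgroup G) [N.Normal] (ψ : IrrCharacter (G ⧸ N)) :
    IrrCharacter G :=
  ⟨(ψ : G ⧸ N → ℂ) ∘ QuotientGroup.mk' N,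
    Characters.Core.isIrr_comp (QuotientGroup.mk' N) (QuotientGroup.mk'_surjective N) ψ.2⟩

theorem infl_apply {G : Type*} [Group G] (N : Subgroup G) [N.Normal] (ψ : IrrCharacter (G ⧸ N))
    (g : G) : (infl N ψ : G → ℂ) g = (ψ : G ⧸ N → ℂ) (QuotientGroup.mk g) := rfl

theorem infl_injective {G : Type*} [Group G] (N : Subgroup G) [N.Normal] :
    Function.Injective (infl N) := by
  intro ψ ψ' h
  apply Subtype.ext
  funext x
  obtain ⟨g, rfl⟩ := QuotientGroup.mk_surjective x
  rw [← infl_apply, h, infl_apply]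

/-- The members of the principal block on which the central involution acts trivially are the
inflated members of the principal block of the quotient. -/
theorem infl_image {G : Type*} [Group G] [Finite G] (M : Ideal AlgInt) (hM : IsPModular 2 M)
    (hZ : Nat.card (Subgroup.center G) = 2) {z : G} (hz : z ∈ Subgroup.center G)
    (hzu : ∀ w ∈ Subgroup.center G, w = 1 ∨ w = z) :
    {χ : IrrCharacter G | χ ∈ principalBlock M G ∧ (χ : G → ℂ) z = (χ : G → ℂ) 1} =
      infl (Subgroup.center G) '' (principalBlock M (G ⧸ Subgroup.center G)) := by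
  have hPG : IsPGroup 2 (Subgroup.center G) := IsPGroup.of_card (n := 1) (by rw [hZ, pow_one])
  have hCi : ∃ k : ℕ, (Subgroup.centralizer (Subgroup.center G : Set G)).index = 2 ^ k := by
    refine ⟨0, ?_⟩
    rw [pow_zero, Subgroup.index_eq_one, eq_top_iff]
    intro g _
    rw [Subgroup.mem_centralizer_iff]
    intro w hw
    exact (Subgroup.mem_center_iff.1 hw g).symm
  have h941 := (Cfsg.Agent.S0941.result 2 M hM (Subgroup.center G) hPG hCi).1
  have hmem : ∀ ψ : IrrCharacter (G ⧸ Subgroup.center G),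
      ψ ∈ principalBlock M (G ⧸ Subgroup.center G) ↔
        infl (Subgroup.center G) ψ ∈ principalBlock M G := fun ψ => h941 (oneIrr _) ψ
  ext χ
  constructor
  · rintro ⟨h1, h2⟩
    classical
    have : Fintype (Subgroup.center G) := Fintype.ofFinite _
    have hsum : ∑ n : Subgroup.center G, (χ : G → ℂ) n ≠ 0 := by
      have h3 : ∀ n : Subgroup.center G, (χ : G → ℂ) n = (χ : G → ℂ) 1 := by
        intro n
        rcases hzu n n.2 with h | h
        · rw [h]
        · rw [h, h2]
      rw [Finset.sum_congr rfl fun n _ => h3 n, Finset.sum_const, nsmul_eq_mul]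
      obtain ⟨d, hd, h4⟩ := Characters.Core.isIrr_apply_one χ.2
      rw [h4]
      have h5 : 0 < Finset.univ.card (α := Subgroup.center G) := Finset.card_pos.2 ⟨1, Finset.mem_univ _⟩
      exact mul_ne_zero (by exact_mod_cast h5.ne') (by exact_mod_cast hd.ne')
    obtain ⟨ψ, hψ⟩ := Deflate.exists_deflation (Subgroup.center G) (χ : G → ℂ) χ.2 hsum
    have hχ : infl (Subgroup.center G) ψ = χ := Subtype.ext hψ.symm
    refine ⟨ψ, (hmem ψ).2 ?_, hχ⟩
    rw [hχ]
    exact h1
  · rintro ⟨ψ, hψ, rfl⟩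
    refine ⟨(hmem ψ).1 hψ, ?_⟩
    rw [infl_apply, infl_apply, (QuotientGroup.eq_one_iff z).2 hz]
    rfl

/-- The order of `z * y` is even for `y` of odd order. -/
theorem two_dvd_orderOf {G : Type*} [Group G] {z y : G} (hz : z ∈ Subgroup.center G) (hz1 : z ≠ 1)
    (hz2 : z ^ 2 = 1) (hy : ¬ 2 ∣ orderOf y) : 2 ∣ orderOf (z * y) := by
  have hzo : orderOf z = 2 := orderOf_eq_prime hz2 hz1
  have hcomm : Commute z y := (Subgroup.mem_center_iff.1 hz y).symm
  have hcop : (orderOf z).Coprime (orderOf y) := by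
    rw [hzo]
    exact (Nat.Prime.coprime_iff_not_dvd Nat.prime_two).2 hy
  rw [hcomm.orderOf_mul_eq_mul_orderOf_of_coprime hcop, hzo]
  exact dvd_mul_right 2 _

/-- The pointwise sums over the principal blocks of `G` and `G / Z`. -/
theorem sum_regular {G : Type*} [Group G] [Finite G] (M : Ideal AlgInt) (hM : IsPModular 2 M)
    (hZ : Nat.card (Subgroup.center G) = 2) {z : G} (hz : z ∈ Subgroup.center G) (hz1 : z ≠ 1)
    (hz2 : z ^ 2 = 1) (hzu : ∀ w ∈ Subgroup.center G, w = 1 ∨ w = z) (y : G)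
    (hy : ¬ 2 ∣ orderOf y) :
    (∑ᶠ χ ∈ principalBlock M G, ‖(χ : G → ℂ) y‖ ^ 2) =
      2 * ∑ᶠ ψ ∈ principalBlock M (G ⧸ Subgroup.center G),
        ‖(ψ : G ⧸ Subgroup.center G → ℂ) (QuotientGroup.mk y)‖ ^ 2 := by
  classical
  have hfin : Finite (IrrCharacter G) := Characters.Core.finite_irr
  have hfin' : Finite (IrrCharacter (G ⧸ Subgroup.center G)) := Characters.Core.finite_irr
  -- the right-hand side as a sum over the members with `z` acting trivially
  have e1 : ∑ᶠ ψ ∈ principalBlock M (G ⧸ Subgroup.center G),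
        ‖(ψ : G ⧸ Subgroup.center G → ℂ) (QuotientGroup.mk y)‖ ^ 2 =
      ∑ᶠ χ ∈ {χ : IrrCharacter G | χ ∈ principalBlock M G ∧ (χ : G → ℂ) z = (χ : G → ℂ) 1},
        ‖(χ : G → ℂ) y‖ ^ 2 := by
    rw [infl_image M hM hZ hz hzu, finsum_mem_image (infl_injective _).injOn]
    rfl
  have hB := isPBlock_principal M G
  have h907 := Cfsg.Agent.S0907.result 2 M hM (principalBlock M G) hB y (z * y) hy
    (two_dvd_orderOf hz hz1 hz2 hy)
  rw [e1, finsum_mem_eq_finite_toFinset_sum _ (Set.toFinite _),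
    finsum_mem_eq_finite_toFinset_sum _ (Set.toFinite _)]
  rw [finsum_mem_eq_finite_toFinset_sum _ (Set.toFinite _)] at h907
  set s := (Set.toFinite (principalBlock M G)).toFinset with hs
  have hs' : (Set.toFinite {χ : IrrCharacter G | χ ∈ principalBlock M G ∧
      (χ : G → ℂ) z = (χ : G → ℂ) 1}).toFinset =
      s.filter (fun χ : IrrCharacter G => (χ : G → ℂ) z = (χ : G → ℂ) 1) := by
    ext χ
    simp [hs]
  rw [hs', Finset.sum_filter]
  have h1 : ∀ χ : IrrCharacter G, (χ : G → ℂ) 1 ≠ 0 := by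
    intro χ
    obtain ⟨d, hd, h4⟩ := Characters.Core.isIrr_apply_one χ.2
    rw [h4]
    exact_mod_cast hd.ne'
  -- the signed sum vanishes
  have h2 : ∑ χ ∈ s, (if (χ : G → ℂ) z = (χ : G → ℂ) 1 then (1 : ℝ) else -1) *
      ‖(χ : G → ℂ) y‖ ^ 2 = 0 := by
    have h3 : ((∑ χ ∈ s, (if (χ : G → ℂ) z = (χ : G → ℂ) 1 then (1 : ℝ) else -1) *
      ‖(χ : G → ℂ) y‖ ^ 2 : ℝ) : ℂ) = 0 := by
      rw [← h907]
      push_cast
      refine Finset.sum_congr rfl fun χ _ => ?_
      have h4 : (χ : G → ℂ) y * conj ((χ : G → ℂ) y) = ((‖(χ : G → ℂ) y‖ ^ 2 : ℝ) : ℂ) := by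
        rw [Complex.mul_conj, Complex.normSq_eq_norm_sq]
      rcases central_sign χ hz hz2 with h5 | h5
      · have h6 : (χ : G → ℂ) z = (χ : G → ℂ) 1 := by
          have := h5 1
          rwa [mul_one] at this
        rw [if_pos h6, h5, h4]
        push_cast
        ring
      · have h6 : ¬ (χ : G → ℂ) z = (χ : G → ℂ) 1 := by
          have := h5 1
          rw [mul_one] at this
          intro h7
          rw [h7] at this
          have h8 : (2 : ℂ) * (χ : G → ℂ) 1 = 0 := by linear_combination this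
          rcases mul_eq_zero.1 h8 with h9 | h9
          · norm_num at h9
          · exact h1 χ h9
        rw [if_neg h6, h5, map_neg, mul_neg, h4]
        push_cast
        ring
    exact_mod_cast h3
  have h3 : ∑ χ ∈ s, ‖(χ : G → ℂ) y‖ ^ 2 = ∑ χ ∈ s, ‖(χ : G → ℂ) y‖ ^ 2 +
      ∑ χ ∈ s, (if (χ : G → ℂ) z = (χ : G → ℂ) 1 then (1 : ℝ) else -1) *
      ‖(χ : G → ℂ) y‖ ^ 2 := by rw [h2, add_zero]
  rw [h3, Finset.mul_sum, ← Finset.sum_add_distrib]
  refine Finset.sum_congr rfl fun χ _ => ?_
  split_ifs <;> ring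

/-- The sum over the odd order elements of `G` equals that over those of the quotient. -/
theorem sum_bij_quot {G : Type*} [Group G] [Fintype G] [Fintype (G ⧸ Subgroup.center G)]
    [DecidablePred fun y : G => ¬ 2 ∣ orderOf y]
    [DecidablePred fun y : G ⧸ Subgroup.center G => ¬ 2 ∣ orderOf y]
    {z : G} (hz : z ∈ Subgroup.center G) (hz1 : z ≠ 1)
    (hz2 : z ^ 2 = 1) (hzu : ∀ w ∈ Subgroup.center G, w = 1 ∨ w = z)
    (F : G ⧸ Subgroup.center G → ℝ) :
    ∑ y ∈ Finset.univ.filter (fun y : G => ¬ 2 ∣ orderOf y), F (QuotientGroup.mk y) =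
      ∑ y ∈ Finset.univ.filter (fun y : G ⧸ Subgroup.center G => ¬ 2 ∣ orderOf y), F y := by
  refine Finset.sum_bij (fun y _ => QuotientGroup.mk y) ?_ ?_ ?_ ?_
  · intro y hy
    refine Finset.mem_filter.2 ⟨Finset.mem_univ _, fun h => (Finset.mem_filter.1 hy).2 ?_⟩
    exact h.trans (orderOf_map_dvd (QuotientGroup.mk' (Subgroup.center G)) y)
  · intro y hy y' hy' h
    have h1 : y⁻¹ * y' ∈ Subgroup.center G := QuotientGroup.eq.1 h
    rcases hzu _ h1 with h2 | h2
    · exact inv_mul_eq_one.1 h2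
    · exfalso
      have h3 : y' = z * y := by
        rw [← Subgroup.mem_center_iff.1 hz y, ← h2]
        group
      have h4 := two_dvd_orderOf hz hz1 hz2 (Finset.mem_filter.1 hy).2
      rw [← h3] at h4
      exact (Finset.mem_filter.1 hy').2 h4
  · intro x hx
    obtain ⟨g, hg, hgx⟩ := PRegular.exists_isPRegular_lift G 2 (Subgroup.center G)
      (x := x) (Finset.mem_filter.1 hx).2
    exact ⟨g, Finset.mem_filter.2 ⟨Finset.mem_univ _, hg⟩, hgx⟩
  · intro _ _
    rfl

open scoped Classical in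
/-- The principal block of a group with Klein four Sylow 2-subgroups: regular part. -/
theorem sum_regular_klein {Q : Type*} [Group Q] [Fintype Q] (M : Ideal AlgInt)
    (hM : IsPModular 2 M) (t : Q) (ht : orderOf t = 2)
    (hone : ∀ s t : Q, orderOf s = 2 → orderOf t = 2 → IsConj s t)
    (htwo : ∀ x : Q, (∃ k : ℕ, orderOf x = 2 ^ k) ↔ x = 1 ∨ orderOf x = 2)
    (hidx : ∀ x : Q, orderOf x = 2 →
      ∃ k : ℕ, (pPrimeCore 2 (Subgroup.centralizer ({x} : Set Q))).index = 2 ^ k)
    (hcard : Nat.card (principalBlock M Q) = 4) :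
    ∑ y ∈ Finset.univ.filter (fun y : Q => ¬ 2 ∣ orderOf y),
      (∑ᶠ χ ∈ principalBlock M Q, ‖(χ : Q → ℂ) y‖ ^ 2) = 3 * (Nat.card Q : ℝ) := by
  have h1 := SectionSum.card_mul_card (principalBlock M Q)
  rw [SectionSum.sum_eq_sum_sections 2, hcard] at h1
  have hfil : Finset.univ.filter (fun x : Q => ∃ k : ℕ, orderOf x = 2 ^ k) =
      insert 1 (Finset.univ.filter (fun x : Q => orderOf x = 2)) := by
    ext x
    simp only [Finset.mem_filter, Finset.mem_univ, true_and, Finset.mem_insert]
    exact htwo x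
  have hnot : (1 : Q) ∉ Finset.univ.filter (fun x : Q => orderOf x = 2) := by
    simp
  rw [hfil, Finset.sum_insert hnot] at h1
  have h2 : ∀ x ∈ Finset.univ.filter (fun x : Q => orderOf x = 2),
      ∑ y ∈ Finset.univ.filter (fun y : Q => Commute x y ∧ ¬ 2 ∣ orderOf y),
        (∑ᶠ χ ∈ principalBlock M Q, ‖(χ : Q → ℂ) (x * y)‖ ^ 2) =
      (Nat.card (Subgroup.centralizer ({x} : Set Q)) : ℝ) := by
    intro x hx
    have hx2 := (Finset.mem_filter.1 hx).2
    refine SectionCount.sum_principal 2 M hM x ((htwo x).2 (Or.inr hx2)) ?_ (hidx x hx2)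
    rintro rfl
    rw [orderOf_one] at hx2
    norm_num at hx2
  rw [Finset.sum_congr rfl h2] at h1
  rw [SectionCount.sum_card_centralizer _ t (fun y => by
    simp only [Finset.mem_filter, Finset.mem_univ, true_and]
    constructor
    · intro hy
      exact hone t y ht hy
    · intro hc
      obtain ⟨c, hc⟩ := isConj_iff.1 hc
      rw [← hc, ← ht]
      exact orderOf_injective (MulAut.conj c).toMonoidHom (MulAut.conj c).injective t)] at h1
  have h3 : ∑ y ∈ Finset.univ.filter (fun y : Q => Commute 1 y ∧ ¬ 2 ∣ orderOf y),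
        (∑ᶠ χ ∈ principalBlock M Q, ‖(χ : Q → ℂ) (1 * y)‖ ^ 2) =
      ∑ y ∈ Finset.univ.filter (fun y : Q => ¬ 2 ∣ orderOf y),
        (∑ᶠ χ ∈ principalBlock M Q, ‖(χ : Q → ℂ) y‖ ^ 2) := by
    refine Finset.sum_congr ?_ fun y _ => ?_
    · ext y
      simp only [Finset.mem_filter, Finset.mem_univ, true_and]
      exact ⟨fun h => h.2, fun h => ⟨Commute.one_left y, h⟩⟩
    · rw [one_mul]
  rw [h3] at h1
  push_cast at h1
  linarith

/-- The four characters of the principal 2-block of a group with Klein four Sylow 2-subgroups. -/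
theorem card_klein {Q : Type*} [Group Q] [Finite Q] (M : Ideal AlgInt)
    (hM : IsPModular 2 M) (P : Sylow 2 Q) (hP : IsKleinFour (P : Subgroup Q)) (t : Q)
    (ht : orderOf t = 2)
    (hone : ∀ s t : Q, orderOf s = 2 → orderOf t = 2 → IsConj s t) :
    Nat.card (principalBlock M Q) = 4 := by
  obtain ⟨ζ₂, ζ₃, ζ₄, ε, hε, h2, h3, h23, h24, h34, hB, hz, -⟩ :=
    Cfsg.Agent.S0948.result M hM P hP hone
  have h4 : (ζ₄ : Q → ℂ) ≠ (fun _ => 1) := by
    intro h
    have h5 := (hz t ht).2.2
    rw [h] at h5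
    norm_num at h5
  have hB' : principalBlock M Q = {oneIrr Q, ζ₂, ζ₃, ζ₄} := by
    rw [hB]
    ext χ
    simp only [Set.mem_ofPred_eq, Set.mem_insert_iff, Set.mem_singleton_iff]
    constructor
    · rintro (h | h | h | h)
      · left; exact Subtype.ext h
      · right; left; exact h
      · right; right; left; exact h
      · right; right; right; exact h
    · rintro (h | h | h | h)
      · left; rw [h]; rfl
      · right; left; exact h
      · right; right; left; exact h
      · right; right; right; exact h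
  have e2 : oneIrr Q ≠ ζ₂ := fun h => h2 (by rw [← h]; rfl)
  have e3 : oneIrr Q ≠ ζ₃ := fun h => h3 (by rw [← h]; rfl)
  have e4 : oneIrr Q ≠ ζ₄ := fun h => h4 (by rw [← h]; rfl)
  rw [hB', Nat.card_coe_set_eq, Set.ncard_insert_of_notMem (by simp [e2, e3, e4]),
    Set.ncard_insert_of_notMem (by simp [h23, h24]), Set.ncard_insert_of_notMem (by simp [h34]),
    Set.ncard_singleton]

theorem main {G : Type*} [Group G] [Finite G] (M : Ideal Cfsg.AlgInt) (hM : Cfsg.IsPModular 2 M)
    (S : Sylow 2 G) (e : (S : Subgroup G) ≃* QuaternionGroup 2)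
    (hO : ∀ N : Subgroup G, N.Normal → Odd (Nat.card N) → N = ⊥)
    (hG : (S : Subgroup G) ≠ ⊤) : Nat.card (Cfsg.principalBlock M G) = 7 := by
  classical
  have hZ : Nat.card (Subgroup.center G) = 2 := Cfsg.Agent.S0201.result S 0 e hO
  obtain ⟨z, hz, hz1, hz2, hzu⟩ := QuaternionQuot.exists_central hZ
  have : Fintype G := Fintype.ofFinite G
  have : Fintype (G ⧸ Subgroup.center G) := Fintype.ofFinite _
  have hK := QuaternionQuot.isKleinFour_barSylow S e hZ
  have hone := QuaternionQuot.isConj_of_involution S e hZ hO hG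
  obtain ⟨t, ht⟩ : ∃ t : G ⧸ Subgroup.center G, orderOf t = 2 := by
    have h1 : 2 ∣ Nat.card (QuaternionQuot.barSylow S : Subgroup (G ⧸ Subgroup.center G)) := by
      rw [hK.card_four]; norm_num
    obtain ⟨t, ht⟩ := exists_prime_orderOf_dvd_card' 2 h1
    exact ⟨t, (Subgroup.orderOf_coe t).trans ht⟩
  have hcard := card_klein M hM (QuaternionQuot.barSylow S) hK t ht hone
  have hreg := sum_regular_klein M hM t ht hone (QuaternionQuot.bar_two_element S e hZ)
    (QuaternionQuot.exists_index_bar S e hZ) hcard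
  -- the group `G`
  have h1 := SectionSum.card_mul_card (principalBlock M G)
  rw [SectionSum.sum_eq_sum_sections 2] at h1
  have htwo := QuaternionQuot.two_element S e hz hz1 hz2
  have hfil : Finset.univ.filter (fun x : G => ∃ k : ℕ, orderOf x = 2 ^ k) =
      insert 1 (insert z (Finset.univ.filter (fun x : G => orderOf x = 4))) := by
    ext x
    simp only [Finset.mem_filter, Finset.mem_univ, true_and, Finset.mem_insert]
    exact htwo x
  have hzo : orderOf z = 2 := orderOf_eq_prime hz2 hz1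
  have hnot : (1 : G) ∉ insert z (Finset.univ.filter (fun x : G => orderOf x = 4)) := by
    simp [Ne.symm hz1]
  have hnot2 : z ∉ Finset.univ.filter (fun x : G => orderOf x = 4) := by
    simp [hzo]
  rw [hfil, Finset.sum_insert hnot, Finset.sum_insert hnot2] at h1
  -- elements of order four
  obtain ⟨u, hu⟩ : ∃ u : G, orderOf u = 4 := by
    have h2 : ∃ q : QuaternionGroup 2, q ^ 2 ≠ 1 := by decide
    obtain ⟨q, hq⟩ := h2
    refine ⟨((e.symm q : (S : Subgroup G)) : G), ?_⟩
    rw [Subgroup.orderOf_coe, MulEquiv.orderOf_eq]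
    exact orderOf_eq_prime_pow (p := 2) (n := 1) (by simpa using hq)
      (by simpa using QuaternionCount.q8_pow_four q)
  have h4 : ∑ x ∈ Finset.univ.filter (fun x : G => orderOf x = 4),
      ∑ y ∈ Finset.univ.filter (fun y : G => Commute x y ∧ ¬ 2 ∣ orderOf y),
        (∑ᶠ χ ∈ principalBlock M G, ‖(χ : G → ℂ) (x * y)‖ ^ 2) = (Nat.card G : ℝ) := by
    have h5 : ∀ x ∈ Finset.univ.filter (fun x : G => orderOf x = 4),
        ∑ y ∈ Finset.univ.filter (fun y : G => Commute x y ∧ ¬ 2 ∣ orderOf y),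
          (∑ᶠ χ ∈ principalBlock M G, ‖(χ : G → ℂ) (x * y)‖ ^ 2) =
        (Nat.card (Subgroup.centralizer ({x} : Set G)) : ℝ) := by
      intro x hx
      have hx4 := (Finset.mem_filter.1 hx).2
      refine SectionCount.sum_principal 2 M hM x ((htwo x).2 (Or.inr (Or.inr hx4))) ?_
        (QuaternionCount.exists_index_of_orderOf_four S e x hx4)
      rintro rfl
      rw [orderOf_one] at hx4
      norm_num at hx4
    rw [Finset.sum_congr rfl h5]
    refine SectionCount.sum_card_centralizer _ u (fun y => ?_)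
    simp only [Finset.mem_filter, Finset.mem_univ, true_and]
    constructor
    · intro hy
      exact QuaternionCount.isConj_of_orderOf_four S e hO hG u y hu hy
    · intro hc
      obtain ⟨c, hc⟩ := isConj_iff.1 hc
      rw [← hc, ← hu]
      exact orderOf_injective (MulAut.conj c).toMonoidHom (MulAut.conj c).injective u
  rw [h4] at h1
  -- regular elements
  have h5 : ∑ y ∈ Finset.univ.filter (fun y : G => ¬ 2 ∣ orderOf y),
      (∑ᶠ χ ∈ principalBlock M G, ‖(χ : G → ℂ) y‖ ^ 2) = 3 * (Nat.card G : ℝ) := by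
    have h6 : ∀ y ∈ Finset.univ.filter (fun y : G => ¬ 2 ∣ orderOf y),
        (∑ᶠ χ ∈ principalBlock M G, ‖(χ : G → ℂ) y‖ ^ 2) =
        2 * ∑ᶠ ψ ∈ principalBlock M (G ⧸ Subgroup.center G),
          ‖(ψ : G ⧸ Subgroup.center G → ℂ) (QuotientGroup.mk y)‖ ^ 2 := by
      intro y hy
      exact sum_regular M hM hZ hz hz1 hz2 hzu y (Finset.mem_filter.1 hy).2
    have h7 := sum_bij_quot hz hz1 hz2 hzu (fun w : G ⧸ Subgroup.center G =>
      ∑ᶠ ψ ∈ principalBlock M (G ⧸ Subgroup.center G),
          ‖(ψ : G ⧸ Subgroup.center G → ℂ) w‖ ^ 2)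
    rw [Finset.sum_congr rfl h6, ← Finset.mul_sum, h7, hreg,
      QuaternionQuot.card_G hZ]
    push_cast
    ring
  have h6 : ∑ y ∈ Finset.univ.filter (fun y : G => Commute 1 y ∧ ¬ 2 ∣ orderOf y),
        (∑ᶠ χ ∈ principalBlock M G, ‖(χ : G → ℂ) (1 * y)‖ ^ 2) = 3 * (Nat.card G : ℝ) := by
    rw [← h5]
    refine Finset.sum_congr ?_ fun y _ => ?_
    · ext y
      simp only [Finset.mem_filter, Finset.mem_univ, true_and]
      exact ⟨fun h => h.2, fun h => ⟨Commute.one_left y, h⟩⟩
    · rw [one_mul]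
  have h7 : ∑ y ∈ Finset.univ.filter (fun y : G => Commute z y ∧ ¬ 2 ∣ orderOf y),
        (∑ᶠ χ ∈ principalBlock M G, ‖(χ : G → ℂ) (z * y)‖ ^ 2) = 3 * (Nat.card G : ℝ) := by
    rw [← h5]
    refine Finset.sum_congr ?_ fun y _ => ?_
    · ext y
      simp only [Finset.mem_filter, Finset.mem_univ, true_and]
      exact ⟨fun h => h.2, fun h => ⟨(Subgroup.mem_center_iff.1 hz y).symm, h⟩⟩
    · refine finsum_mem_congr rfl fun χ _ => ?_
      rcases central_sign χ hz hz2 with h8 | h8
      · rw [h8]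
      · rw [h8, norm_neg]
  rw [h6, h7] at h1
  have hG0 : (Nat.card G : ℝ) ≠ 0 := by exact_mod_cast Nat.card_pos.ne'
  have h8 : (Nat.card (principalBlock M G) : ℝ) = 7 := by
    have h9 : ((Nat.card (principalBlock M G) : ℝ) - 7) * (Nat.card G : ℝ) = 0 := by
      linear_combination h1
    rcases mul_eq_zero.1 h9 with h10 | h10
    · linarith
    · exact absurd h10 hG0
  exact_mod_cast h8

/-- Let S be a Sylow 2-subgroup of the finite group G isomorphic to the quaternion group of order 8. Suppose G has no nontrivial normal subgroup of odd order and G ≠ S. Then, relative to any maximal ideal M of the algebraic integers containing 2, the principal block of G consists of exactly 7 irreducible characters. -/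
theorem result {G : Type*} [Group G] [Finite G] (M : Ideal Cfsg.AlgInt) (hM : Cfsg.IsPModular 2 M) (S : Sylow 2 G) (e : (S : Subgroup G) ≃* QuaternionGroup 2) (hO : ∀ N : Subgroup G, N.Normal → Odd (Nat.card N) → N = ⊥) (hG : (S : Subgroup G) ≠ ⊤) : Nat.card (Cfsg.principalBlock M G) = 7 := by
  exact main M hM S e hO hG

end Cfsg.Agent.S0951
end
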