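import Cfsg.Statements.S1006
import Cfsg.Agent.SmallSimple.Simple168Classes
set_option linter.all false

set_option autoImplicit false
open Cfsg
open Cfsg.Agent.SmallSimple.Simple168 Cfsg.Agent.SmallSimple.Simple168Classes

namespace Cfsg.Agent.S1006

/-- In a simple group of order 168 there are 56 elements of order 3, all conjugate; 42 elements of order 4, all conjugate; and 48 elements of order 7 falling into two conjugacy classes of size 24, an element of order 7 not being conjugate to its inverse. -/
theorem result {G : Type*} [Group G] [Finite G] [IsSimpleGroup G] (h : Nat.card G = 168) : Nat.card {g : G // orderOf g = 3} = 56 ∧ (∀ s t : G, orderOf s = 3 → orderOf t = 3 → IsConj s t) ∧ Nat.card {g : G // orderOf g = 4} = 42 ∧ (∀ s t : G, orderOf s = 4 → orderOf t = 4 → IsConj s t) ∧ Nat.card {g : G // orderOf g = 7} = 48 ∧ ∀ x : G, orderOf x = 7 → Nat.card {g : G // IsConj x g} = 24 ∧ ¬ IsConj x x⁻¹ := by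
  have c3 : Nat.card {g : G // orderOf g = 3} = 56 := by
    rw [card_orderOf_eq_prime 3 (card_of_sylow_three h), card_sylow_three h]
  have c7 : Nat.card {g : G // orderOf g = 7} = 48 := by
    rw [card_orderOf_eq_prime 7 (card_of_sylow_seven h), card_sylow_seven h]
  refine ⟨c3, ?_, card_orderOf_four h, isConj_of_orderOf_four h, c7, ?_⟩
  · intro s t hs ht
    have h1 := card_isConj_mul_card_centralizer s
    rw [card_centralizer_three h s hs, h] at h1
    have h2 : Nat.card {g : G // IsConj s g} = 56 := by omega
    have h3 : {g : G | IsConj s g} ⊆ {g : G | orderOf g = 3} := by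
      intro g hg
      obtain ⟨c, hc⟩ := isConj_iff.1 hg
      show orderOf g = 3
      rw [← hc, ← hs]
      exact MulEquiv.orderOf_eq (MulAut.conj c) s
    have h4 : {g : G | IsConj s g} = {g : G | orderOf g = 3} := by
      apply Set.eq_of_subset_of_ncard_le h3
      have e1 : Set.ncard {g : G | IsConj s g} = 56 := h2
      have e2 : Set.ncard {g : G | orderOf g = 3} = 56 := c3
      rw [e1, e2]
    have h5 : t ∈ {g : G | orderOf g = 3} := ht
    rw [← h4] at h5
    exact h5
  · intro x hx
    constructor
    · have h1 := card_isConj_mul_card_centralizer x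
      rw [card_centralizer_seven h x hx, h] at h1
      omega
    · intro hconj
      obtain ⟨c, hc⟩ := isConj_iff.1 hconj
      obtain ⟨P, hP⟩ := exists_sylow_zpowers 7 (card_of_sylow_seven h) x hx
      have hcN : c ∈ Subgroup.normalizer ((P : Subgroup G) : Set G) := by
        rw [hP, Subgroup.mem_normalizer_iff_map_conj_eq]
        show (Subgroup.zpowers x).map (MulAut.conj c).toMonoidHom = _
        rw [MonoidHom.map_zpowers]
        show Subgroup.zpowers (c * x * c⁻¹) = Subgroup.zpowers x
        rw [hc, Subgroup.zpowers_inv]
      have hodd : ¬ 2 ∣ orderOf c := by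
        intro h2
        have h3 := orderOf_dvd_natCard (⟨c, hcN⟩ : Subgroup.normalizer ((P : Subgroup G) : Set G))
        rw [Subgroup.orderOf_mk, card_normalizer_seven h P] at h3
        have := h2.trans h3
        revert this
        decide
      have hcomm : Commute (c ^ 2) x := by
        have e1 : c * x = x⁻¹ * c := mul_inv_eq_iff_eq_mul.1 hc
        have e2 : c * x⁻¹ = x * c := by
          calc c * x⁻¹ = x * (x⁻¹ * c) * x⁻¹ := by group
            _ = x * (c * x) * x⁻¹ := by rw [e1]
            _ = x * c := by group
        show c ^ 2 * x = x * c ^ 2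
        rw [pow_two, mul_assoc, e1, ← mul_assoc, e2, mul_assoc]
      have hcomm' : Commute c x := by
        obtain ⟨k, hk⟩ : ∃ k, orderOf c = 2 * k + 1 := by
          rcases Nat.even_or_odd (orderOf c) with h1 | h1
          · exact absurd h1.two_dvd hodd
          · exact h1
        have h1 : c = (c ^ 2) ^ (k + 1) := by
          rw [← pow_mul]
          have : 2 * (k + 1) = orderOf c + 1 := by omega
          rw [this, pow_succ, pow_orderOf_eq_one, one_mul]
        rw [h1]
        exact hcomm.pow_left _
      have h1 : x⁻¹ = x := by
        rw [← hc, hcomm'.eq, mul_inv_cancel_right]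
      have h2 : x ^ 2 = 1 := by
        rw [pow_two]
        nth_rewrite 1 [← h1]
        exact inv_mul_cancel x
      have h3 := orderOf_dvd_of_pow_eq_one h2
      rw [hx] at h3
      revert h3
      decide

end Cfsg.Agent.S1006
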