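import Mathlib
import Cfsg.Statements.S1231
set_option linter.all false
-- import your own Cfsg.Agent.* helpers here

set_option autoImplicit false
open Cfsg

namespace Cfsg.Agent.S1231

theorem pRankLE_of_injective {p k : ℕ} {X Y : Type*} [Group X] [Group Y] (f : X →* Y)
    (hf : Function.Injective f) (h : Cfsg.PRankLE p k Y) : Cfsg.PRankLE p k X := by
  intro A hA hAp
  have h1 := h (A.map f) inferInstance (by
    rintro _ ⟨a, ha, rfl⟩
    rw [← map_pow, hAp a ha, map_one])
  rwa [Nat.card_congr (A.equivMapOfInjective f hf).symm.toEquiv] at h1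

theorem pRankLE_mono {p k : ℕ} {G : Type*} [Group G] {X Y : Subgroup G} (hXY : X ≤ Y)
    (h : Cfsg.PRankLE p k ↥Y) : Cfsg.PRankLE p k ↥X :=
  pRankLE_of_injective (Subgroup.inclusion hXY) (Subgroup.inclusion_injective hXY) h

/-- a subgroup of large `p`-rank contains a `p`-subgroup of large `p`-rank -/
theorem exists_pgroup_of_not_pRankLE {p k : ℕ} [Fact p.Prime] {G : Type*} [Group G]
    {Y : Subgroup G} (h : ¬ Cfsg.PRankLE p k ↥Y) :
    ∃ Q : Subgroup G, Q ≤ Y ∧ IsPGroup p Q ∧ ¬ Cfsg.PRankLE p k ↥Q := by
  unfold Cfsg.PRankLE at h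
  push Not at h
  obtain ⟨A, hA, hAp, hcard⟩ := h
  refine ⟨A.map Y.subtype, Subgroup.map_subtype_le A, ?_, ?_⟩
  · rintro ⟨_, a, ha, rfl⟩
    refine ⟨1, ?_⟩
    apply Subtype.ext
    have := hAp a ha
    simp only [pow_one]
    show (a : G) ^ p = 1
    rw [← Subgroup.coe_pow, this, Subgroup.coe_one]
  · intro hcon
    have h1 : Cfsg.PRankLE p k ↥A :=
      pRankLE_of_injective (A.equivMapOfInjective Y.subtype Y.subtype_injective).toMonoidHom
        (A.equivMapOfInjective Y.subtype Y.subtype_injective).injective hcon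
    have h2 := h1 ⊤ (by
      haveI := hA
      infer_instance) (by
      rintro a -
      apply Subtype.ext
      simpa using hAp a a.2)
    rw [Nat.card_congr (Subgroup.topEquiv (G := ↥A)).toEquiv] at h2
    omega

/-- every `p`-subgroup of `G` inside `H` is conjugate, by an element of `H`, into `P`. -/
theorem exists_conj_le {G : Type*} [Group G] [Finite G] {p : ℕ} [Fact p.Prime]
    (H : Subgroup G) (P : Sylow p ↥H) (Q : Subgroup G) (hQ : IsPGroup p Q) (hQH : Q ≤ H) :
    ∃ h ∈ H, Q.map (MulAut.conj h).toMonoidHom ≤ (P : Subgroup ↥H).map H.subtype := by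
  have hQ' : IsPGroup p (Q.subgroupOf H) := hQ.comap_of_injective H.subtype H.subtype_injective
  obtain ⟨R, hR⟩ := hQ'.exists_le_sylow
  obtain ⟨h, hh⟩ := MulAction.exists_smul_eq ↥H R P
  refine ⟨h, h.2, ?_⟩
  rintro _ ⟨x, hx, rfl⟩
  have hxR : (⟨x, hQH hx⟩ : ↥H) ∈ (R : Subgroup ↥H) := hR (by simpa [Subgroup.mem_subgroupOf] using hx)
  refine ⟨h * ⟨x, hQH hx⟩ * h⁻¹, ?_, by simp⟩
  rw [← hh]
  exact ⟨⟨x, hQH hx⟩, hxR, rfl⟩

theorem map_conj_map_conj {G : Type*} [Group G] (a b : G) (Q : Subgroup G) :
    (Q.map (MulAut.conj a).toMonoidHom).map (MulAut.conj b).toMonoidHom =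
      Q.map (MulAut.conj (b * a)).toMonoidHom := by
  ext x
  simp only [Subgroup.mem_map, MulEquiv.coe_toMonoidHom, MulAut.conj_apply]
  constructor
  · rintro ⟨_, ⟨y, hy, rfl⟩, rfl⟩
    exact ⟨y, hy, by group⟩
  · rintro ⟨y, hy, rfl⟩
    exact ⟨_, ⟨y, hy, rfl⟩, by group⟩

theorem mem_map_conj_iff {G : Type*} [Group G] (a x : G) (Q : Subgroup G) :
    x ∈ Q.map (MulAut.conj a).toMonoidHom ↔ a⁻¹ * x * a ∈ Q := by
  simp only [Subgroup.mem_map, MulEquiv.coe_toMonoidHom, MulAut.conj_apply]
  constructor
  · rintro ⟨y, hy, rfl⟩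
    simpa [mul_assoc] using hy
  · intro h
    exact ⟨_, h, by group⟩

theorem pRankLE_conj {G : Type*} [Group G] {p k : ℕ} (a : G) (Q : Subgroup G)
    (h : Cfsg.PRankLE p k ↥(Q.map (MulAut.conj a).toMonoidHom)) : Cfsg.PRankLE p k ↥Q :=
  pRankLE_of_injective
    (Q.equivMapOfInjective (MulAut.conj a).toMonoidHom (MulAut.conj a).injective).toMonoidHom
    (Q.equivMapOfInjective (MulAut.conj a).toMonoidHom (MulAut.conj a).injective).injective h

theorem mem_normalizer_map_conj {G : Type*} [Group G] (a x : G) (Q : Subgroup G)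
    (hx : x ∈ Subgroup.normalizer (Q : Set G)) :
    a * x * a⁻¹ ∈ Subgroup.normalizer ((Q.map (MulAut.conj a).toMonoidHom : Subgroup G) : Set G) := by
  rw [Subgroup.mem_normalizer_iff] at hx ⊢
  intro y
  rw [mem_map_conj_iff, mem_map_conj_iff, hx (a⁻¹ * y * a)]
  have : x * (a⁻¹ * y * a) * x⁻¹ = a⁻¹ * (a * x * a⁻¹ * y * (a * x * a⁻¹)⁻¹) * a := by group
  rw [this]

/-- Let H be a subgroup of the finite group G, p a prime, k ≥ 1, and P a Sylow p-subgroup of H whose p-rank is at least k. Then N_G(X) ≤ H for every subgroup X of P of p-rank at least k if and only if H ∩ gHg⁻¹ has p-rank less than k for every g ∉ H. -/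
theorem result {G : Type*} [Group G] [Finite G] {p : ℕ} [Fact p.Prime] (k : ℕ) (hk : 1 ≤ k) (H : Subgroup G) (P : Sylow p ↥H) (hP : ¬ Cfsg.PRankLE p (k - 1) ↥(P : Subgroup ↥H)) : (∀ X : Subgroup G, X ≤ (P : Subgroup ↥H).map H.subtype → ¬ Cfsg.PRankLE p (k - 1) ↥X → Subgroup.normalizer (X : Set G) ≤ H) ↔ (∀ g : G, g ∉ H → Cfsg.PRankLE p (k - 1) ↥(H ⊓ H.map (MulAut.conj g).toMonoidHom)) := by
  classical
  constructor
  · intro hX
    -- the normalizer of every `p`-subgroup `Q` of `H` of large rank lies in `H`
    have key : ∀ Q : Subgroup G, IsPGroup p Q → Q ≤ H → ¬ Cfsg.PRankLE p (k - 1) ↥Q →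
        Subgroup.normalizer (Q : Set G) ≤ H := by
      intro Q hQp hQH hQr x hx
      obtain ⟨h, hh, hle⟩ := exists_conj_le H P Q hQp hQH
      have h1 := hX _ hle (fun hc => hQr (pRankLE_conj h Q hc))
        (mem_normalizer_map_conj h x Q hx)
      have h2 : h⁻¹ * (h * x * h⁻¹) * h ∈ H := H.mul_mem (H.mul_mem (H.inv_mem hh) h1) hh
      convert h2 using 1
      group
    -- by induction: no `p`-subgroup `Q` of large rank lies in `H ∩ gHg⁻¹`
    have main : ∀ n : ℕ, ∀ Q : Subgroup G, Nat.card G - Nat.card Q = n → IsPGroup p Q →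
        ¬ Cfsg.PRankLE p (k - 1) ↥Q → Q ≤ H → ∀ g : G,
        Q ≤ H.map (MulAut.conj g).toMonoidHom → g ∈ H := by
      intro n
      induction n using Nat.strong_induction_on with
      | _ n ih =>
        intro Q hn hQp hQr hQH g hQg
        -- move `Q` into `P`
        obtain ⟨h, hh, hle⟩ := exists_conj_le H P Q hQp hQH
        have hQ'g : Q.map (MulAut.conj h).toMonoidHom ≤
            H.map (MulAut.conj (h * g)).toMonoidHom := by
          rw [← map_conj_map_conj]
          exact Subgroup.map_mono hQg
        have hQ'r : ¬ Cfsg.PRankLE p (k - 1) ↥(Q.map (MulAut.conj h).toMonoidHom) :=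
          fun hc => hQr (pRankLE_conj h Q hc)
        have hQ'card : Nat.card ↥(Q.map (MulAut.conj h).toMonoidHom) = Nat.card ↥Q :=
          Nat.card_congr (Q.equivMapOfInjective _ (MulAut.conj h).injective).symm.toEquiv
        set Q' := Q.map (MulAut.conj h).toMonoidHom with hQ'def
        set g' := h * g with hg'
        have hQ'p : IsPGroup p Q' := hQp.map _
        have hPH : (P : Subgroup ↥H).map H.subtype ≤ H := Subgroup.map_subtype_le _
        have hQ'H : Q' ≤ H := hle.trans hPH
        suffices hg'H : g' ∈ H by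
          have : h⁻¹ * g' ∈ H := H.mul_mem (H.inv_mem hh) hg'H
          rwa [hg', inv_mul_cancel_left] at this
        -- the normalizer of `Q'` lies in `g'Hg'⁻¹`
        have hQ'' : Q'.map (MulAut.conj g'⁻¹).toMonoidHom ≤ H := by
          rintro _ ⟨x, hx, rfl⟩
          obtain ⟨y, hy, hyx⟩ := hQ'g hx
          simp only [MulEquiv.coe_toMonoidHom, MulAut.conj_apply] at hyx ⊢
          rw [← hyx]
          have : g'⁻¹ * (g' * y * g'⁻¹) * g'⁻¹⁻¹ = y := by group
          rw [this]
          exact hy
        have hN' : Subgroup.normalizer (Q' : Set G) ≤ H.map (MulAut.conj g').toMonoidHom := by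
          intro x hx
          have h1 := key (Q'.map (MulAut.conj g'⁻¹).toMonoidHom) (hQ'p.map _) hQ''
            (fun hc => hQ'r (pRankLE_conj g'⁻¹ Q' hc)) (mem_normalizer_map_conj g'⁻¹ x Q' hx)
          rw [mem_map_conj_iff]
          simpa using h1
        by_cases hQP : Q' = (P : Subgroup ↥H).map H.subtype
        · -- `Q' = P`: Sylow
          obtain ⟨t, ht, htle⟩ := exists_conj_le H P (Q'.map (MulAut.conj g'⁻¹).toMonoidHom)
            (hQ'p.map _) hQ''
          rw [map_conj_map_conj, ← hQP] at htle
          have hmem : t * g'⁻¹ ∈ Subgroup.normalizer (Q' : Set G) := by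
            have heq : Q'.map (MulAut.conj (t * g'⁻¹)).toMonoidHom = Q' := by
              apply Subgroup.eq_of_le_of_card_ge htle
              rw [Nat.card_congr (Q'.equivMapOfInjective _
                (MulAut.conj (t * g'⁻¹)).injective).symm.toEquiv]
            rw [Subgroup.mem_normalizer_iff]
            intro x
            constructor
            · intro hx
              have : (t * g'⁻¹) * x * (t * g'⁻¹)⁻¹ ∈ Q'.map (MulAut.conj (t * g'⁻¹)).toMonoidHom :=
                ⟨x, hx, rfl⟩
              rwa [heq] at this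
            · intro hx
              rw [← heq, mem_map_conj_iff] at hx
              have h5 : (t * g'⁻¹)⁻¹ * (t * g'⁻¹ * x * (t * g'⁻¹)⁻¹) * (t * g'⁻¹) = x := by group
              rwa [h5] at hx
          have h1 := key Q' hQ'p hQ'H hQ'r hmem
          have h2 : t⁻¹ * (t * g'⁻¹) ∈ H := H.mul_mem (H.inv_mem ht) h1
          rw [inv_mul_cancel_left] at h2
          simpa using H.inv_mem h2
        · -- `Q' < P`: normalizers grow
          have hlt : Q' < (P : Subgroup ↥H).map H.subtype := lt_of_le_of_ne hle hQP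
          set PP := (P : Subgroup ↥H).map H.subtype with hPP
          have hPPp : IsPGroup p PP := P.2.map _
          have : Group.IsNilpotent ↥PP := hPPp.isNilpotent
          have hlt' : Q'.subgroupOf PP < ⊤ := by
            rw [lt_top_iff_ne_top]
            intro hc
            rw [Subgroup.subgroupOf_eq_top] at hc
            exact hQP (le_antisymm hle hc)
          have hnc := Group.normalizerCondition_of_isNilpotent (G := ↥PP) (Q'.subgroupOf PP) hlt'
          obtain ⟨x, hxN, hxQ⟩ := SetLike.exists_of_lt hnc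
          -- set `R` = the normalizer of `Q'` in `P`
          set R : Subgroup G := Subgroup.normalizer (Q' : Set G) ⊓ PP with hR
          have hQ'R : Q' < R := by
            refine lt_of_le_of_ne (le_inf Subgroup.le_normalizer hle) ?_
            intro hc
            apply hxQ
            rw [Subgroup.mem_subgroupOf, hc]
            refine ⟨?_, x.2⟩
            show (x : G) ∈ Subgroup.normalizer (Q' : Set G)
            rw [Subgroup.mem_normalizer_iff]
            rw [Subgroup.mem_normalizer_iff] at hxN
            intro y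
            constructor
            · intro hy
              have := (hxN ⟨y, hle hy⟩).1 (by simpa [Subgroup.mem_subgroupOf] using hy)
              simpa [Subgroup.mem_subgroupOf] using this
            · intro hy
              have hyP : y ∈ PP := by
                have h1 : (x : G)⁻¹ * (x * y * (x : G)⁻¹) * x ∈ PP :=
                  PP.mul_mem (PP.mul_mem (PP.inv_mem x.2) (hle hy)) x.2
                convert h1 using 1
                group
              have := (hxN ⟨y, hyP⟩).2 (by simpa [Subgroup.mem_subgroupOf] using hy)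
              simpa [Subgroup.mem_subgroupOf] using this
          have hRcard : Nat.card Q' < Nat.card R := by
            apply lt_of_le_of_ne (Subgroup.card_le_of_le hQ'R.le)
            intro hc
            exact hQ'R.ne (Subgroup.eq_of_le_of_card_ge hQ'R.le hc.ge)
          have hRG : Nat.card R ≤ Nat.card G := Subgroup.card_le_card_group R
          refine ih (Nat.card G - Nat.card R) (by omega) R rfl
            (hPPp.to_le inf_le_right) (fun hc => hQ'r (pRankLE_mono hQ'R.le hc))
            (inf_le_right.trans hPH) g' (inf_le_left.trans hN')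
    intro g hg
    by_contra hcon
    obtain ⟨Q, hQle, hQp, hQr⟩ := exists_pgroup_of_not_pRankLE hcon
    exact hg (main _ Q rfl hQp hQr (hQle.trans inf_le_left) g (hQle.trans inf_le_right))
  · intro hg X hXP hXr g hgN
    by_contra hgH
    apply hXr
    refine pRankLE_mono (Y := H ⊓ H.map (MulAut.conj g).toMonoidHom) ?_ (hg g hgH)
    have hXH : X ≤ H := hXP.trans (Subgroup.map_subtype_le _)
    refine le_inf hXH ?_
    intro x hx
    rw [mem_map_conj_iff]
    apply hXH
    have h1 := Subgroup.inv_mem _ hgN
    rw [Subgroup.mem_normalizer_iff] at h1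
    have := (h1 x).1 hx
    simpa using this

end Cfsg.Agent.S1231
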