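import Cfsg.Statements.S1345
import Cfsg.Agent.S0215
import Cfsg.Agent.SignalizersComponents.LBalanceTwo
import Cfsg.Agent.SignalizersComponents.CentSylowFStar
import Cfsg.Agent.SignalizersComponents.CoreBalance
set_option linter.all false

set_option autoImplicit false
open Cfsg

namespace Cfsg.Agent.S1345

/-- The `Z*`-theorem in the form used by the library. -/
theorem zStar.{u} : Cfsg.Agent.SignalizersComponents.AutSylow.ZStar.{u} :=
  fun _ _ _ P u h1 h2 h3 => Cfsg.Agent.S0215.result P u h1 h2 h3

/-- Core balance for every finite group. -/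
theorem core_balance.{u} {X : Type u} [Group X] [Finite X] (R : Subgroup X) (hR : IsPGroup 2 ↥R) :
    (Cfsg.oddCore ↥(Subgroup.centralizer (R : Set X))).map (Subgroup.centralizer (R : Set X)).subtype ≤
      Cfsg.extendedTwoLayer X :=
  Cfsg.Agent.SignalizersComponents.CoreBalance.cc_le_extendedTwoLayer
    (fun T hT => Cfsg.Agent.SignalizersComponents.CentSylowFStar.hasNormalPComplement_centralizer
      zStar T hT) R hR

/-- Core balance: for a finite group X whose non-abelian composition factors are known simple groups and a 2-subgroup R ≤ X, O(C_X(R)) ≤ L*_{2'}(X). -/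
theorem result {X : Type*} [Group X] [Finite X] (hK : Cfsg.IsCompositionKGroup X) (R : Subgroup X) (hR : IsPGroup 2 ↥R) : (Cfsg.oddCore ↥(Subgroup.centralizer (R : Set X))).map (Subgroup.centralizer (R : Set X)).subtype ≤ Cfsg.extendedTwoLayer X := by
  exact core_balance R hR

end Cfsg.Agent.S1345
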