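import Mathlib
import Cfsg.Prelude.Def_LieExceptional
import Cfsg.Agent.OddOrderLocal.CNBasic
import Cfsg.Agent.Solvable.FrobeniusKernel
import Cfsg.Agent.Lib.NormalAbelian
import Cfsg.Prelude.Def_OddOrderLocal
import Cfsg.Agent.OddOrderLocal.FittingHall
import Cfsg.Agent.OddOrderLocal.FPFElem
import Cfsg.Statements.S1474
import Cfsg.Agent.S0039
set_option linter.all false

-- part: OddOrderLocal/CNNilpotent
section
/-!
A finite CN-group in which every subgroup of order `q * r` (`q`, `r` primes, possibly equal) is
cyclic (hypotheses given on elements) is nilpotent.  Applies to Frobenius complements.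
-/

set_option autoImplicit false
set_option linter.style.haveILetI false

namespace Cfsg.Agent.OddOrderLocal.CNNilpotent

open Subgroup

/-- In a finite nilpotent group in which commuting elements of order `r` generate the same
subgroup, every element of order `r` is central. -/
theorem mem_center_of_prime_order {N : Type*} [Group N] [Finite N] [Group.IsNilpotent N] {r : ℕ}
    (hr : r.Prime)
    (h1 : ∀ x y : N, orderOf x = r → orderOf y = r → Commute x y → y ∈ zpowers x)
    {y : N} (hy : orderOf y = r) : y ∈ center N := by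
  haveI := Fact.mk hr
  obtain ⟨R⟩ : Nonempty (Sylow r N) := inferInstance
  have hdvd : r ∣ Nat.card N := hy ▸ orderOf_dvd_natCard y
  have hR : (R : Subgroup N) ≠ ⊥ := R.ne_bot_of_dvd_card hdvd
  have hK1 : (R : Subgroup N) ⊓ center N ≠ ⊥ :=
    Cfsg.Agent.Lib.NormalAbelian.normal_inf_center_ne_bot (R : Subgroup N) hR
  have hK : IsPGroup r ((R : Subgroup N) ⊓ center N : Subgroup N) := R.isPGroup'.to_le inf_le_left
  have hd : r ∣ Nat.card ((R : Subgroup N) ⊓ center N : Subgroup N) := by
    rcases hK.card_eq_or_dvd with h | h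
    · exact absurd (card_eq_one.mp h) hK1
    · exact h
  obtain ⟨z, hz⟩ := exists_prime_orderOf_dvd_card' r hd
  have hz' : orderOf (z : N) = r := by rw [orderOf_coe, hz]
  have hzc : (z : N) ∈ center N := z.2.2
  have := h1 z y hz' hy (mem_center_iff.mp hzc y).symm
  exact (zpowers_le.mpr hzc) this

/-- A power of prime order of a nontrivial element of a finite group. -/
theorem exists_pow_prime_order {G : Type*} [Group G] [Finite G] {x : G} (hx : x ≠ 1) :
    ∃ (r k : ℕ), r.Prime ∧ orderOf (x ^ k) = r := by
  have h1 : orderOf x ≠ 1 := by rwa [Ne, orderOf_eq_one_iff]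
  refine ⟨(orderOf x).minFac, orderOf x / (orderOf x).minFac, Nat.minFac_prime h1, ?_⟩
  exact orderOf_pow_orderOf_div (orderOf_pos x).ne' (Nat.minFac_dvd _)

theorem mem_centralizer_singleton {G : Type*} [Group G] {x y : G} :
    y ∈ centralizer ({x} : Set G) ↔ Commute x y := by
  rw [mem_centralizer_iff]
  constructor
  · intro h
    exact h x rfl
  · rintro h _ rfl
    exact h

section

variable {E : Type*} [Group E] [Finite E] (hCN : Cfsg.IsCNGroup E)
  (h1 : ∀ (q : ℕ) (x y : E), q.Prime → orderOf x = q → orderOf y = q → Commute x y →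
    y ∈ zpowers x)
  (h2 : ∀ (q r : ℕ) (x y : E), q.Prime → r.Prime → orderOf x = q → orderOf y = r →
    y * x * y⁻¹ ∈ zpowers x → Commute x y)

include hCN h1 in
theorem centralizer_le_of_commute {x y : E} {q r : ℕ} (hq : q.Prime) (hr : r.Prime)
    (hx : orderOf x = q) (hy : orderOf y = r) (hxy : Commute x y) :
    centralizer ({x} : Set E) ≤ centralizer ({y} : Set E) := by
  have hx1 : x ≠ 1 := by
    rintro rfl
    rw [orderOf_one] at hx
    exact hq.one_lt.ne hx
  haveI := hCN x hx1
  intro g hg
  have hyc : (⟨y, mem_centralizer_singleton.mpr hxy⟩ : centralizer ({x} : Set E)) ∈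
      center (centralizer ({x} : Set E)) := by
    apply mem_center_of_prime_order hr
    · intro a b ha hb hab
      have := h1 r a b hr (by rw [orderOf_coe, ha]) (by rw [orderOf_coe, hb])
        (congrArg Subtype.val hab)
      obtain ⟨k, hk⟩ := mem_zpowers_iff.mp this
      exact mem_zpowers_iff.mpr ⟨k, Subtype.ext hk⟩
    · rw [Subgroup.orderOf_mk, hy]
  have := congrArg Subtype.val (mem_center_iff.mp hyc ⟨g, hg⟩)
  exact mem_centralizer_singleton.mpr this.symm

include hCN h1 in
theorem centralizer_eq_of_commute {x y : E} {q r : ℕ} (hq : q.Prime) (hr : r.Prime)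
    (hx : orderOf x = q) (hy : orderOf y = r) (hxy : Commute x y) :
    centralizer ({x} : Set E) = centralizer ({y} : Set E) :=
  le_antisymm (centralizer_le_of_commute hCN h1 hq hr hx hy hxy)
    (centralizer_le_of_commute hCN h1 hr hq hy hx hxy.symm)

include hCN h1 in
theorem centralizer_eq_of_common {x y : E} {q r : ℕ} (hq : q.Prime) (hr : r.Prime)
    (hx : orderOf x = q) (hy : orderOf y = r) {w : E} (hw : w ≠ 1) (hwx : Commute x w)
    (hwy : Commute y w) : centralizer ({x} : Set E) = centralizer ({y} : Set E) := by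
  obtain ⟨s, k, hs, hk⟩ := exists_pow_prime_order hw
  rw [centralizer_eq_of_commute hCN h1 hq hs hx hk (hwx.pow_right k),
    centralizer_eq_of_commute hCN h1 hr hs hy hk (hwy.pow_right k)]

include hCN h1 h2 in
theorem mem_centralizer_of_conj_eq {x g : E} {q : ℕ} (hq : q.Prime)
    (hx : orderOf x = q)
    (hg : centralizer ({g * x * g⁻¹} : Set E) = centralizer ({x} : Set E)) :
    g ∈ centralizer ({x} : Set E) := by
  have hord : orderOf (g * x * g⁻¹) = q := by
    have : orderOf (MulAut.conj g x) = orderOf x := orderOf_injective (MulAut.conj g).toMonoidHom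
      (MulAut.conj g).injective x
    rw [MulAut.conj_apply] at this
    rw [this, hx]
  have hcomm : Commute x (g * x * g⁻¹) := by
    have : g * x * g⁻¹ ∈ centralizer ({g * x * g⁻¹} : Set E) :=
      mem_centralizer_singleton.mpr (Commute.refl _)
    rw [hg] at this
    exact mem_centralizer_singleton.mp this
  have hmem : g * x * g⁻¹ ∈ zpowers x := h1 q x _ hq hx hord hcomm
  by_cases hg1 : g = 1
  · rw [hg1]; exact one_mem _
  obtain ⟨r, k, hr, hk⟩ := exists_pow_prime_order hg1
  have hpow : ∀ n : ℕ, g ^ n * x * (g ^ n)⁻¹ ∈ zpowers x := by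
    intro n
    induction n with
    | zero => simp
    | succ n ih =>
      obtain ⟨m, hm⟩ := mem_zpowers_iff.mp ih
      have : g ^ (n + 1) * x * (g ^ (n + 1))⁻¹ = g * (g ^ n * x * (g ^ n)⁻¹) * g⁻¹ := by
        rw [pow_succ' g n]; group
      rw [this, ← hm, ← conj_zpow]
      exact zpow_mem hmem m
  have hc := h2 q r x (g ^ k) hq hr hx hk (hpow k)
  rw [centralizer_eq_of_commute hCN h1 hq hr hx hk hc, mem_centralizer_singleton]
  exact (Commute.refl g).pow_left k

include hCN h1 h2 in
theorem isFrobeniusComplement {x : E} {q : ℕ} (hq : q.Prime) (hx : orderOf x = q)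
    (hne : centralizer ({x} : Set E) ≠ ⊤) :
    Cfsg.IsFrobeniusComplement (centralizer ({x} : Set E)) := by
  refine ⟨?_, hne, ?_⟩
  · intro hbot
    have : x ∈ centralizer ({x} : Set E) := mem_centralizer_singleton.mpr (Commute.refl _)
    rw [hbot, mem_bot] at this
    rw [this, orderOf_one] at hx
    exact hq.one_lt.ne hx
  · intro g hg
    rw [eq_bot_iff]
    intro w hw
    obtain ⟨hw1, hw2⟩ := mem_inf.mp hw
    rw [Cfsg.Agent.Solvable.FrobeniusKernel.mem_conj_smul] at hw2
    rw [mem_bot]
    by_contra hw
    apply hg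
    apply mem_centralizer_of_conj_eq hCN h1 h2 hq hx
    have hord : orderOf (g * x * g⁻¹) = q := by
      have : orderOf (MulAut.conj g x) = orderOf x := orderOf_injective (MulAut.conj g).toMonoidHom
        (MulAut.conj g).injective x
      rw [MulAut.conj_apply] at this
      rw [this, hx]
    refine centralizer_eq_of_common hCN h1 hq hq hord hx hw ?_ (mem_centralizer_singleton.mp hw1)
    have h3 := (mem_centralizer_singleton.mp hw2).map (MulAut.conj g).toMonoidHom
    have h4 : g * (g⁻¹ * w * g) * g⁻¹ = w := by group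
    simpa [h4] using h3

include hCN h1 h2 in
/-- **Main theorem**: a finite CN-group all of whose subgroups of order `q * r` are cyclic
(formulated with elements) is nilpotent. -/
theorem isNilpotent_of_isCNGroup : Group.IsNilpotent E := by
  by_contra hnil
  have hnt : Nontrivial E := by
    by_contra hnt
    rw [not_nontrivial_iff_subsingleton] at hnt
    exact hnil inferInstance
  -- centralizers are proper
  have hproper : ∀ x : E, x ≠ 1 → centralizer ({x} : Set E) ≠ ⊤ := by
    intro x hx htop
    apply hnil
    have := hCN x hx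
    rw [htop] at this
    exact Group.isNilpotent_top.mp this
  obtain ⟨x₀, hx₀⟩ := exists_ne (1 : E)
  obtain ⟨q, k, hq, hk⟩ := exists_pow_prime_order hx₀
  set x := x₀ ^ k with hxdef
  have hx1 : x ≠ 1 := by
    intro h
    rw [h, orderOf_one] at hk
    exact hq.one_lt.ne hk
  have hA := isFrobeniusComplement hCN h1 h2 hq hk (hproper x hx1)
  have hcA := Cfsg.Agent.Solvable.FrobeniusKernel.card_kernel hA
  have hiA : 1 < (centralizer ({x} : Set E)).index := one_lt_index_of_ne_top (hproper x hx1)
  -- an element of the kernel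
  obtain ⟨w, hw, hw1⟩ : ∃ w ∈ Cfsg.frobeniusKernel (centralizer ({x} : Set E)), w ≠ 1 := by
    by_contra hcon
    push Not at hcon
    have : Nat.card (Cfsg.frobeniusKernel (centralizer ({x} : Set E))) ≤ 1 := by
      rw [Finite.card_le_one_iff_subsingleton]
      constructor
      rintro ⟨a, ha⟩ ⟨b, hb⟩
      exact Subtype.ext ((hcon a ha).trans (hcon b hb).symm)
    omega
  obtain ⟨r, l, hr, hl⟩ := exists_pow_prime_order hw1
  set y := w ^ l with hydef
  have hy1 : y ≠ 1 := by
    intro h
    rw [h, orderOf_one] at hl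
    exact hr.one_lt.ne hl
  have hB := isFrobeniusComplement hCN h1 h2 hr hl (hproper y hy1)
  have hcB := Cfsg.Agent.Solvable.FrobeniusKernel.card_kernel hB
  have hwB : w ∈ centralizer ({y} : Set E) :=
    mem_centralizer_singleton.mpr ((Commute.refl w).pow_left l)
  -- every element is in one of the two kernels
  have hunion : ∀ c : E, c ∈ Cfsg.frobeniusKernel (centralizer ({x} : Set E)) ∨
      c ∈ Cfsg.frobeniusKernel (centralizer ({y} : Set E)) := by
    intro c
    by_contra hcon
    push Not at hcon
    obtain ⟨hc1, hc2⟩ := hcon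
    rw [Cfsg.Agent.Solvable.FrobeniusKernel.mem_kernel_iff] at hc1 hc2
    push Not at hc1 hc2
    obtain ⟨hcne, g, hg⟩ := hc1
    obtain ⟨-, h, hh⟩ := hc2
    -- c commutes with g x g⁻¹ and h y h⁻¹
    have e1 : Commute (g * x * g⁻¹) c := by
      have h3 := (mem_centralizer_singleton.mp hg).map (MulAut.conj g).toMonoidHom
      have h4 : g * (g⁻¹ * c * g) * g⁻¹ = c := by group
      simpa [h4] using h3
    have e2 : Commute (h * y * h⁻¹) c := by
      have h3 := (mem_centralizer_singleton.mp hh).map (MulAut.conj h).toMonoidHom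
      have h4 : h * (h⁻¹ * c * h) * h⁻¹ = c := by group
      simpa [h4] using h3
    have o1 : orderOf (g * x * g⁻¹) = q := by
      have : orderOf (MulAut.conj g x) = orderOf x := orderOf_injective (MulAut.conj g).toMonoidHom
        (MulAut.conj g).injective x
      rw [MulAut.conj_apply] at this
      rw [this, hk]
    have o2 : orderOf (h * y * h⁻¹) = r := by
      have : orderOf (MulAut.conj h y) = orderOf y := orderOf_injective (MulAut.conj h).toMonoidHom
        (MulAut.conj h).injective y
      rw [MulAut.conj_apply] at this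
      rw [this, hl]
    have heq := centralizer_eq_of_common hCN h1 hq hr o1 o2 hcne e1 e2
    -- w lies in a conjugate of C(x)
    have hw3 : h * w * h⁻¹ ∈ centralizer ({h * y * h⁻¹} : Set E) := by
      rw [mem_centralizer_singleton]
      have h3 := (mem_centralizer_singleton.mp hwB).map (MulAut.conj h).toMonoidHom
      simpa using h3
    rw [← heq, mem_centralizer_singleton] at hw3
    rw [Cfsg.Agent.Solvable.FrobeniusKernel.mem_kernel_iff] at hw
    rcases hw with hw | hw
    · exact hw1 hw
    · apply hw (h⁻¹ * g)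
      rw [mem_centralizer_singleton]
      have h3 := hw3.map (MulAut.conj g⁻¹).toMonoidHom
      have e3 : g⁻¹ * (g * x * g⁻¹) * g = x := by group
      have e4 : g⁻¹ * (h * w * h⁻¹) * g = (h⁻¹ * g)⁻¹ * w * (h⁻¹ * g) := by group
      simpa [e3, e4] using h3
  have hiA2 : 2 * (centralizer ({x} : Set E)).index ≤ Nat.card E := by
    rw [← (centralizer ({x} : Set E)).index_mul_card, mul_comm]
    apply Nat.mul_le_mul_left
    have := (Subgroup.one_lt_card_iff_ne_bot _).mpr hA.1
    omega
  have hiB2 : 2 * (centralizer ({y} : Set E)).index ≤ Nat.card E := by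
    rw [← (centralizer ({y} : Set E)).index_mul_card, mul_comm]
    apply Nat.mul_le_mul_left
    have := (Subgroup.one_lt_card_iff_ne_bot _).mpr hB.1
    omega
  have hun : (Cfsg.frobeniusKernel (centralizer ({x} : Set E))) ∪
      (Cfsg.frobeniusKernel (centralizer ({y} : Set E))) = Set.univ := by
    ext c
    simpa using hunion c
  have hint : 0 < ((Cfsg.frobeniusKernel (centralizer ({x} : Set E))) ∩
      (Cfsg.frobeniusKernel (centralizer ({y} : Set E)))).ncard := by
    rw [Set.ncard_pos]
    exact ⟨1, Cfsg.Agent.Solvable.FrobeniusKernel.one_mem_kernel,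
      Cfsg.Agent.Solvable.FrobeniusKernel.one_mem_kernel⟩
  have hcount := Set.ncard_union_add_ncard_inter (Cfsg.frobeniusKernel (centralizer ({x} : Set E)))
    (Cfsg.frobeniusKernel (centralizer ({y} : Set E)))
  rw [hun, Set.ncard_univ, ← Nat.card_coe_set_eq (Cfsg.frobeniusKernel (centralizer ({x} : Set E))),
    ← Nat.card_coe_set_eq (Cfsg.frobeniusKernel (centralizer ({y} : Set E))), hcA, hcB] at hcount
  omega

end

end Cfsg.Agent.OddOrderLocal.CNNilpotent
end

-- part: OddOrderLocal/CNHall
section
/-!
CN-groups: elements of order prime to `|G_F|` act without fixed points on `G_F`; CN-groups acting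
fixed-point-freely by conjugation on a nontrivial abelian normal subgroup are nilpotent.
-/

set_option autoImplicit false
set_option linter.style.haveILetI false

namespace Cfsg.Agent.OddOrderLocal.CNHall

open Subgroup Cfsg
open Cfsg.Agent.OddOrderLocal.CNNilpotent (mem_centralizer_singleton)

/-- In a finite CN-group `G`, an element of order prime to `|G_F|` that commutes with a nontrivial
element of `G_F` is trivial. -/
theorem eq_one_of_commute {G : Type*} [Group G] [Finite G] (hCN : IsCNGroup G) {e x : G}
    (hx : x ∈ fittingHall G) (hx1 : x ≠ 1) (hcop : (Nat.card (fittingHall G)).Coprime (orderOf e))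
    (hcomm : Commute x e) : e = 1 := by
  by_contra he
  haveI hnil : Group.IsNilpotent (fittingHall G) := FittingHall.fittingHall_isNilpotent
  haveI : Nontrivial (fittingHall G) := ⟨⟨x, hx⟩, 1, fun h => hx1 (congrArg Subtype.val h)⟩
  have hdvd : ∀ h ∈ fittingHall G, orderOf h ∣ Nat.card (fittingHall G) := fun h hh =>
    (fittingHall G).orderOf_dvd_natCard hh
  -- a central element of `G_F`
  obtain ⟨z, hz, hz1⟩ : ∃ z ∈ center (fittingHall G), z ≠ 1 := by
    have := Group.IsNilpotent.center_ne_bot (G := fittingHall G)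
    obtain ⟨z, hz⟩ := Subgroup.ne_bot_iff_exists_ne_one.mp this
    exact ⟨z, z.2, fun h => hz (Subtype.ext h)⟩
  have hzc : ∀ h ∈ fittingHall G, Commute (z : G) h := fun h hh =>
    (congrArg Subtype.val (mem_center_iff.mp hz ⟨h, hh⟩)).symm
  have hz1' : (z : G) ≠ 1 := fun h => hz1 (Subtype.ext h)
  -- `z` commutes with `e`
  have h1 : Commute (z : G) e := by
    refine FittingHall.commute_of_mem_of_coprime_orderOf (hCN x hx1)
      (mem_centralizer_singleton.mpr (hzc x hx).symm) (mem_centralizer_singleton.mpr hcomm) ?_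
    exact Nat.Coprime.coprime_dvd_left (hdvd z z.2) hcop
  -- `G_F` commutes with `e`
  have h2 : ∀ h ∈ fittingHall G, Commute h e := by
    intro h hh
    refine FittingHall.commute_of_mem_of_coprime_orderOf (hCN z hz1')
      (mem_centralizer_singleton.mpr (hzc h hh)) (mem_centralizer_singleton.mpr h1) ?_
    exact Nat.Coprime.coprime_dvd_left (hdvd h hh) hcop
  -- a power of prime order
  obtain ⟨q, k, hq, hk⟩ := CNNilpotent.exists_pow_prime_order he
  haveI := Fact.mk hq
  have hqc : (Nat.card (fittingHall G)).Coprime q := by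
    have : q ∣ orderOf e := by rw [← hk]; exact orderOf_pow_dvd k
    exact Nat.Coprime.coprime_dvd_right this hcop
  set f := e ^ k with hf
  have hf1 : f ≠ 1 := by
    intro h
    rw [h, orderOf_one] at hk
    exact hq.one_lt.ne hk
  have hfP : IsPGroup q (zpowers f) := by
    apply IsPGroup.of_card (n := 1)
    rw [Nat.card_zpowers, hk, pow_one]
  obtain ⟨Q, hQ⟩ := hfP.exists_le_sylow
  have hfQ : f ∈ Q := hQ (mem_zpowers f)
  haveI : Nontrivial Q := ⟨⟨f, hfQ⟩, 1, fun h => hf1 (congrArg Subtype.val h)⟩
  obtain ⟨y, hy, hy1⟩ : ∃ y ∈ center Q, y ≠ 1 := by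
    have := (Q.isPGroup'.center_nontrivial)
    obtain ⟨y, hy⟩ := exists_ne (1 : center Q)
    exact ⟨y, y.2, fun h => hy (Subtype.ext h)⟩
  have hyc : ∀ h ∈ (Q : Subgroup G), Commute (y : G) h := fun h hh =>
    (congrArg Subtype.val (mem_center_iff.mp hy ⟨h, hh⟩)).symm
  have hy1' : (y : G) ≠ 1 := fun h => hy1 (Subtype.ext h)
  have hQcop : ∀ g ∈ (Q : Subgroup G), ∀ h ∈ fittingHall G, (orderOf g).Coprime (orderOf h) := by
    intro g hg h hh
    obtain ⟨n, hn⟩ := (IsPGroup.iff_orderOf.mp Q.isPGroup') ⟨g, hg⟩
    rw [Subgroup.orderOf_mk] at hn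
    rw [hn]
    exact (Nat.Coprime.pow_right n (Nat.Coprime.coprime_dvd_left (hdvd h hh) hqc)).symm
  have h3 : ∀ h ∈ fittingHall G, Commute (y : G) h := by
    intro h hh
    exact FittingHall.commute_of_mem_of_coprime_orderOf (hCN f hf1)
      (mem_centralizer_singleton.mpr (hyc f hfQ).symm)
      (mem_centralizer_singleton.mpr ((h2 h hh).symm.pow_left k)) (hQcop y y.2 h hh)
  have h4 : (Q : Subgroup G) ≤ centralizer (fittingHall G : Set G) := by
    intro g hg
    rw [mem_centralizer_iff]
    intro h hh
    refine (FittingHall.commute_of_mem_of_coprime_orderOf (hCN y hy1')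
      (mem_centralizer_singleton.mpr (hyc g hg))
      (mem_centralizer_singleton.mpr (h3 h hh)) (hQcop g hg h hh)).symm.eq
  have hCx : centralizer (fittingHall G : Set G) ≤ centralizer ({x} : Set G) :=
    centralizer_le (Set.singleton_subset_iff.mpr hx)
  haveI hCnil : Group.IsNilpotent (centralizer (fittingHall G : Set G)) := by
    haveI := hCN x hx1
    exact (Group.isNilpotent_congr (subgroupOfEquivOfLe hCx)).mp inferInstance
  -- `Q` is normal in `G`
  have hQn : (Q : Subgroup G).Normal := by
    have h5 : ((Q.subtype h4 : Sylow q _) : Subgroup (centralizer (fittingHall G : Set G))).Normal :=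
      inferInstance
    have h6 := (Q.subtype h4).characteristic_of_normal h5
    have h7 : (((Q.subtype h4 : Sylow q _) :
        Subgroup (centralizer (fittingHall G : Set G))).map (Subgroup.subtype _)).Normal := by
      infer_instance
    rwa [Sylow.coe_subtype, subgroupOf_map_subtype, inf_eq_left.mpr h4] at h7
  have hQH : (Q : Subgroup G) ≤ fittingHall G := by
    refine FittingHall.le_fittingHall hQn Q.isPGroup'.isNilpotent ?_
    exact Q.card_coprime_index
  have h8 : q ∣ Nat.card (fittingHall G) := by
    have := hdvd f (hQH hfQ)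
    rwa [hk] at this
  exact hq.one_lt.ne' (Nat.eq_one_of_dvd_coprimes hqc h8 dvd_rfl)

/-- A finite CN-group acting fixed-point-freely on a nontrivial finite abelian group is
nilpotent. -/
theorem isNilpotent_of_fpf {E V : Type*} [Group E] [Finite E] [Group V] [Finite V] [Nontrivial V]
    (hV : ∀ a b : V, a * b = b * a) (φ : E →* MulAut V) (hCN : IsCNGroup E)
    (hfpf : ∀ e : E, e ≠ 1 → ∀ v : V, φ e v = v → v = 1) : Group.IsNilpotent E := by
  apply CNNilpotent.isNilpotent_of_isCNGroup hCN
  · intro q x y hq hx hy hxy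
    exact FPFElem.mem_zpowers_of_commute hV φ hq hx hy hxy (fun g hg _ => hfpf g hg)
  · intro q r x y hq hr hx hy hyx
    rw [← mem_powers_iff_mem_zpowers] at hyx
    obtain ⟨c, hc⟩ := hyx
    exact FPFElem.commute_of_normalizes hV φ hq hr hx hy hc.symm (fun g hg _ => hfpf g hg)

end Cfsg.Agent.OddOrderLocal.CNHall
end

-- part: S1474
section
set_option autoImplicit false
set_option linter.style.haveILetI false
open Cfsg

namespace Cfsg.Agent.S1474

open Subgroup Cfsg.Agent.OddOrderLocal

/-- Let G be a finite group in which every non-identity element has nilpotent centralizer, not itself nilpotent, and having a nontrivial normal Sylow p-subgroup for some prime p. Let H be the largest normal nilpotent Hall subgroup of G. Then H is a nontrivial proper normal subgroup with a complement E that is a Frobenius complement in G (no non-identity element of E centralizes a non-identity element of H), and G/H is nilpotent. -/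
theorem result {G : Type*} [Group G] [Finite G] (hCN : Cfsg.IsCNGroup G) (hnn : ¬ Group.IsNilpotent G) (p : ℕ) [Fact p.Prime] (P : Sylow p G)
    (hP1 : (P : Subgroup G) ≠ ⊥) (hPn : (P : Subgroup G).Normal) :
    Cfsg.fittingHall G ≠ ⊥ ∧ Cfsg.fittingHall G ≠ ⊤ ∧
      (∃ E : Subgroup G, Subgroup.IsComplement' (Cfsg.fittingHall G) E ∧ Cfsg.IsFrobeniusComplement E ∧
        ∀ e ∈ E, e ≠ 1 → Cfsg.fittingHall G ⊓ Subgroup.centralizer ({e} : Set G) = ⊥) ∧
      Group.IsNilpotent (G ⧸ Cfsg.fittingHall G) := by
  have hHnil : Group.IsNilpotent (fittingHall G) := FittingHall.fittingHall_isNilpotent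
  have hHcop := FittingHall.fittingHall_coprime (G := G)
  have hPH : (P : Subgroup G) ≤ fittingHall G :=
    FittingHall.le_fittingHall hPn P.isPGroup'.isNilpotent P.card_coprime_index
  have hbot : fittingHall G ≠ ⊥ := fun h => hP1 (le_bot_iff.mp (h ▸ hPH))
  have htop : fittingHall G ≠ ⊤ := by
    intro h
    rw [h] at hHnil
    exact hnn (Group.isNilpotent_top.mp hHnil)
  obtain ⟨E, hE⟩ := Subgroup.exists_right_complement'_of_coprime hHcop
  have hcE : Nat.card E = (fittingHall G).index := by
    have h1 := hE.card_mul_card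
    rw [← (fittingHall G).card_mul_index] at h1
    exact Nat.eq_of_mul_eq_mul_left Nat.card_pos h1
  have hfpf : ∀ e ∈ E, e ≠ 1 → fittingHall G ⊓ centralizer ({e} : Set G) = ⊥ := by
    intro e he he1
    rw [eq_bot_iff]
    intro x hx
    obtain ⟨hx1, hx2⟩ := mem_inf.mp hx
    rw [mem_bot]
    by_contra hx3
    apply he1
    refine CNHall.eq_one_of_commute hCN hx1 hx3 ?_ (CNNilpotent.mem_centralizer_singleton.mp hx2).symm
    have : orderOf e ∣ (fittingHall G).index := by
      rw [← hcE]; exact E.orderOf_dvd_natCard he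
    exact Nat.Coprime.coprime_dvd_right this hHcop
  have hEbot : E ≠ ⊥ := by
    rintro rfl
    apply htop
    have h1 := hE.card_mul_card
    rw [card_bot, mul_one] at h1
    exact Subgroup.eq_top_of_card_eq _ h1
  have hFC : IsFrobeniusComplement E :=
    (Cfsg.Agent.S0039.result (fittingHall G) E hE hbot hEbot).mpr hfpf
  refine ⟨hbot, htop, ⟨E, hE, hFC, hfpf⟩, ?_⟩
  -- nilpotency of the complement
  have hEnil : Group.IsNilpotent E := by
    -- V = Z(G_F)
    let V : Subgroup G := (center (fittingHall G)).map (fittingHall G).subtype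
    haveI hVn : V.Normal := inferInstance
    have hVH : V ≤ fittingHall G := map_subtype_le _
    haveI : Nontrivial (fittingHall G) := (Subgroup.nontrivial_iff_ne_bot _).mpr hbot
    have hV1 : V ≠ ⊥ := by
      intro h
      have := (Subgroup.map_eq_bot_iff_of_injective _ (fittingHall G).subtype_injective).mp h
      exact Group.IsNilpotent.center_ne_bot (G := fittingHall G) this
    haveI : Nontrivial V := (Subgroup.nontrivial_iff_ne_bot _).mpr hV1
    refine CNHall.isNilpotent_of_fpf (V := V) ?_ ((MulAut.conjNormal (H := V)).comp E.subtype)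
      (CNBasic.isCNGroup_subgroup hCN E) ?_
    · rintro ⟨a, ha⟩ ⟨b, hb⟩
      obtain ⟨a, ha', rfl⟩ := ha
      obtain ⟨b, hb', rfl⟩ := hb
      apply Subtype.ext
      exact (congrArg Subtype.val (mem_center_iff.mp ha' b)).symm
    · rintro ⟨e, he⟩ he1 ⟨v, hv⟩ hev
      have h1 : e * v * e⁻¹ = v := congrArg Subtype.val hev
      have h2 : v ∈ fittingHall G ⊓ centralizer ({e} : Set G) := by
        refine mem_inf.mpr ⟨hVH hv, ?_⟩
        rw [CNNilpotent.mem_centralizer_singleton]
        exact mul_inv_eq_iff_eq_mul.mp h1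
      rw [hfpf e he (fun h => he1 (Subtype.ext h)), mem_bot] at h2
      exact Subtype.ext h2
  have e1 : E ≃* G ⧸ fittingHall G := hE.symm.QuotientMulEquiv.symm
  exact (Group.isNilpotent_congr e1).mp hEnil

end Cfsg.Agent.S1474
end
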