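import Mathlib
import Cfsg.Agent.Lib.Cores
import Cfsg.Agent.Lib.NormalAbelian
import Cfsg.Agent.Lib.SolvableNormalP
import Cfsg.Agent.S0039
import Cfsg.Agent.S0044
import Cfsg.Agent.OddOrderLocal.CNBasic
import Cfsg.Agent.OddOrderLocal.CNComplement
import Cfsg.Agent.OddOrderLocal.NilpotentUnique
import Cfsg.Prelude.Def_OddOrderLocal
import Cfsg.Statements.S1476
set_option linter.all false

-- part: OddOrderLocal/CNSolvable
section
/-!
Finite solvable CN-groups: centralizers of elements of the Fitting subgroup, the Frobenius case.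
-/

set_option autoImplicit false

namespace Cfsg.Agent.OddOrderLocal.CNSolvable

open Subgroup Cfsg
open Cfsg.Agent.OddOrderLocal.CNBasic

variable {G : Type*} [Group G] [Finite G]

omit [Finite G] in
/-- The centralizer of a conjugation invariant set is normal. -/
theorem normal_centralizer_of_invariant {W : Set G} (hW : ∀ w ∈ W, ∀ g : G, g * w * g⁻¹ ∈ W) :
    (centralizer W).Normal := by
  constructor
  intro a ha g
  rw [mem_centralizer_iff] at ha ⊢
  intro w hw
  have h1 := ha _ (hW w hw g⁻¹)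
  rw [inv_inv] at h1
  calc w * (g * a * g⁻¹) = g * ((g⁻¹ * w * g) * a) * g⁻¹ := by group
    _ = g * (a * (g⁻¹ * w * g)) * g⁻¹ := by rw [h1]
    _ = g * a * g⁻¹ * w := by group

omit [Finite G] in
/-- In a CN-group, the centralizer of an invariant set with a nontrivial element is contained in
the Fitting subgroup. -/
theorem centralizer_invariant_le_fitting (hCN : IsCNGroup G) {W : Set G}
    (hW : ∀ w ∈ W, ∀ g : G, g * w * g⁻¹ ∈ W) {w₀ : G} (hw₀ : w₀ ∈ W) (h1 : w₀ ≠ 1) :
    centralizer W ≤ fittingSubgroup G := by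
  apply Cfsg.Agent.Lib.Cores.le_fittingSubgroup (normal_centralizer_of_invariant hW)
  have h2 : centralizer W ≤ centralizer ({w₀} : Set G) :=
    centralizer_le (Set.singleton_subset_iff.mpr hw₀)
  have h3 := hCN w₀ h1
  exact Subgroup.isNilpotent_of_ker_le_center (Subgroup.inclusion h2)
    (by rw [(MonoidHom.ker_eq_bot_iff _).mpr (Subgroup.inclusion_injective h2)]; exact bot_le)

/-- A central element of the Fitting subgroup of prime order `p`, if `p` divides its order. -/
theorem exists_central {p : ℕ} (hp : p.Prime) (hpF : p ∣ Nat.card (fittingSubgroup G)) :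
    ∃ z : G, z ∈ fittingSubgroup G ∧ orderOf z = p ∧ ∀ y ∈ fittingSubgroup G, Commute z y := by
  have hF := Cfsg.Agent.Lib.Cores.fittingSubgroup_isNilpotent (G := G)
  obtain ⟨z, hz, hzp, hzc⟩ := Cfsg.Agent.OddOrderLocal.CNComplement.exists_central_in_part hF hp hpF
  refine ⟨z, hz, hzp, ?_⟩
  intro y hy
  obtain ⟨a, b, ha, hb, hab, ⟨k, hk⟩, hbp⟩ := exists_mul_parts hp y
  have haF : a ∈ fittingSubgroup G := (zpowers_le.mpr hy) ha
  have hbF : b ∈ fittingSubgroup G := (zpowers_le.mpr hy) hb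
  rw [← hab]
  refine (hzc a haF ⟨k, hk⟩).mul_right ?_
  exact commute_of_mem_of_coprime hF hz hbF (by rw [hzp]; exact hbp.symm)

/-- If the Fitting subgroup of a finite CN-group is not a `p`-group for any prime `p`, it contains
the centralizer of each of its nontrivial elements. -/
theorem centralizer_le_of_not_pgroup (hCN : IsCNGroup G)
    (hnp : ∀ p : ℕ, p.Prime → ¬ IsPGroup p (fittingSubgroup G)) {x : G}
    (hx : x ∈ fittingSubgroup G) (hx1 : x ≠ 1) :
    centralizer ({x} : Set G) ≤ fittingSubgroup G := by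
  have hF := Cfsg.Agent.Lib.Cores.fittingSubgroup_isNilpotent (G := G)
  have hFn := Cfsg.Agent.Lib.Cores.fittingSubgroup_normal (G := G)
  -- reduce to prime order
  obtain ⟨p, hp, hpd⟩ := Nat.exists_prime_and_dvd (n := orderOf x)
    (fun h => hx1 (orderOf_eq_one_iff.mp h))
  obtain ⟨x', hx'def⟩ : ∃ x' : G, x' = x ^ (orderOf x / p) := ⟨_, rfl⟩
  have hx'o : orderOf x' = p := by
    rw [hx'def, orderOf_pow_of_dvd (Nat.div_pos (Nat.le_of_dvd (orderOf_pos x) hpd) hp.pos).ne'
      (Nat.div_dvd_of_dvd hpd)]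
    exact Nat.div_div_self hpd (orderOf_pos x).ne'
  have hx'F : x' ∈ fittingSubgroup G := by rw [hx'def]; exact pow_mem hx _
  have hx'1 : x' ≠ 1 := by
    rintro rfl
    rw [orderOf_one] at hx'o
    exact hp.one_lt.ne hx'o
  have hle : centralizer ({x} : Set G) ≤ centralizer ({x'} : Set G) := by
    intro y hy
    rw [mem_centralizer_singleton_iff] at hy ⊢
    rw [hx'def]
    exact Commute.pow_right hy _
  refine le_trans hle ?_
  have hC := hCN x' hx'1
  have hpF : p ∣ Nat.card (fittingSubgroup G) := by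
    rw [← hx'o, ← Subgroup.orderOf_mk x' hx'F]
    exact orderOf_dvd_natCard _
  obtain ⟨z, hzF, hzo, hzc⟩ := exists_central hp hpF
  have hz1 : z ≠ 1 := by
    rintro rfl
    rw [orderOf_one] at hzo
    exact hp.one_lt.ne hzo
  -- a nontrivial `p'`-element of `F`
  obtain ⟨w₀, hw₀F, hw₀p, hw₀1⟩ : ∃ w₀ ∈ fittingSubgroup G, (orderOf w₀).Coprime p ∧ w₀ ≠ 1 := by
    by_contra hcon
    push Not at hcon
    apply hnp p hp
    rintro ⟨g, hg⟩
    obtain ⟨a, b, ha, hb, hab, ⟨k, hk⟩, hbp⟩ := exists_mul_parts hp g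
    have hbF : b ∈ fittingSubgroup G := (zpowers_le.mpr hg) hb
    have hb1 : b = 1 := hcon b hbF hbp
    refine ⟨k, Subtype.ext ?_⟩
    show g ^ p ^ k = 1
    rw [← hab, hb1, mul_one, hk]
  intro y hy
  have hy' := mem_centralizer_singleton_iff.mp hy
  obtain ⟨a, b, ha, hb, hab, ⟨k, hk⟩, hbp⟩ := exists_mul_parts hp y
  have haC : a ∈ centralizer ({x'} : Set G) := (zpowers_le.mpr hy) ha
  have hbC : b ∈ centralizer ({x'} : Set G) := (zpowers_le.mpr hy) hb
  have haF : a ∈ fittingSubgroup G := by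
    have hW : ∀ w ∈ {w : G | w ∈ fittingSubgroup G ∧ (orderOf w).Coprime p}, ∀ g : G,
        g * w * g⁻¹ ∈ {w : G | w ∈ fittingSubgroup G ∧ (orderOf w).Coprime p} := by
      rintro w ⟨hw1, hw2⟩ g
      refine ⟨hFn.conj_mem w hw1 g, ?_⟩
      have : orderOf (g * w * g⁻¹) = orderOf w := by
        have h := orderOf_injective (MulAut.conj g).toMonoidHom (MulAut.conj g).injective w
        simpa using h
      rw [this]; exact hw2
    apply centralizer_invariant_le_fitting hCN hW ⟨hw₀F, hw₀p⟩ hw₀1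
    rw [mem_centralizer_iff]
    rintro w ⟨hwF, hwp⟩
    have hwC : w ∈ centralizer ({x'} : Set G) := by
      rw [mem_centralizer_singleton_iff]
      exact commute_of_mem_of_coprime hF hwF hx'F (by rw [hx'o]; exact hwp)
    refine commute_of_mem_of_coprime hC hwC haC ?_
    exact Nat.Coprime.coprime_dvd_right (orderOf_dvd_of_pow_eq_one hk) (Nat.Coprime.pow_right k hwp)
  have hbF : b ∈ fittingSubgroup G := by
    have hW : ∀ w ∈ {w : G | w ∈ fittingSubgroup G ∧ ∃ k : ℕ, w ^ p ^ k = 1}, ∀ g : G,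
        g * w * g⁻¹ ∈ {w : G | w ∈ fittingSubgroup G ∧ ∃ k : ℕ, w ^ p ^ k = 1} := by
      rintro w ⟨hw1, m, hw2⟩ g
      refine ⟨hFn.conj_mem w hw1 g, m, ?_⟩
      rw [conj_pow, hw2]; group
    apply centralizer_invariant_le_fitting hCN hW (w₀ := z)
      ⟨hzF, 1, by rw [pow_one, ← hzo]; exact pow_orderOf_eq_one z⟩ hz1
    rw [mem_centralizer_iff]
    rintro w ⟨hwF, m, hwm⟩
    -- `b` commutes with `z`
    have hzC : z ∈ centralizer ({x'} : Set G) := by
      rw [mem_centralizer_singleton_iff]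
      exact hzc x' hx'F
    have hbz : Commute b z := commute_of_mem_of_coprime hC hbC hzC (by rw [hzo]; exact hbp)
    have hD := hCN z hz1
    have hbD : b ∈ centralizer ({z} : Set G) := by
      rw [mem_centralizer_singleton_iff]; exact hbz
    have hwD : w ∈ centralizer ({z} : Set G) := by
      rw [mem_centralizer_singleton_iff]; exact (hzc w hwF).symm
    refine commute_of_mem_of_coprime hD hwD hbD ?_
    exact Nat.Coprime.coprime_dvd_left (orderOf_dvd_of_pow_eq_one hwm)
      (Nat.Coprime.pow_left m hbp.symm)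
  rw [← hab]
  exact mul_mem haF hbF

/-- If the Fitting subgroup is a `p`-group, a nontrivial `p'`-element of a finite solvable
CN-group centralizes no nontrivial element of it. -/
theorem eq_one_of_commute_of_pgroup [Group.IsSolvable G] (hCN : IsCNGroup G) {p : ℕ}
    (hp : p.Prime) (hpg : IsPGroup p (fittingSubgroup G)) {x y : G}
    (hx : x ∈ fittingSubgroup G) (hy : (orderOf y).Coprime p) (hy1 : y ≠ 1)
    (hxy : Commute y x) : x = 1 := by
  by_contra hx1
  have hF := Cfsg.Agent.Lib.Cores.fittingSubgroup_isNilpotent (G := G)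
  have hpF : p ∣ Nat.card (fittingSubgroup G) := by
    have := Fact.mk hp
    have hnt : Nontrivial (fittingSubgroup G) :=
      ⟨⟨⟨x, hx⟩, 1, fun h => hx1 (congrArg Subtype.val h)⟩⟩
    obtain ⟨n, hn0, hn⟩ := hpg.nontrivial_iff_card.mp hnt
    rw [hn]; exact dvd_pow_self p hn0.ne'
  obtain ⟨z, hzF, hzo, hzc⟩ := exists_central hp hpF
  have hz1 : z ≠ 1 := by
    rintro rfl
    rw [orderOf_one] at hzo
    exact hp.one_lt.ne hzo
  have hyz : Commute y z := by
    refine commute_of_mem_of_coprime (hCN x hx1) ?_ ?_ (by rw [hzo]; exact hy)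
    · rw [mem_centralizer_singleton_iff]; exact hxy
    · rw [mem_centralizer_singleton_iff]; exact hzc x hx
  have hyF : y ∈ fittingSubgroup G := by
    apply Cfsg.Agent.S0044.centralizer_fitting_le G (Cfsg.Agent.S0044.fittingSubgroup_normal G)
    rw [mem_centralizer_iff]
    intro w hw
    have hw' : w ∈ fittingSubgroup G := hw
    obtain ⟨m, hm⟩ := hpg ⟨w, hw'⟩
    have hm' : w ^ p ^ m = 1 := congrArg Subtype.val hm
    refine commute_of_mem_of_coprime (hCN z hz1) (b := y) (a := w) ?_ ?_ ?_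
    · rw [mem_centralizer_singleton_iff]; exact (hzc w hw').symm
    · rw [mem_centralizer_singleton_iff]; exact hyz
    · exact Nat.Coprime.coprime_dvd_left (orderOf_dvd_of_pow_eq_one hm')
        (Nat.Coprime.pow_left m hy.symm)
  obtain ⟨m, hm⟩ := hpg ⟨y, hyF⟩
  have hm' : y ^ p ^ m = 1 := congrArg Subtype.val hm
  have h1 : orderOf y ∣ p ^ m := orderOf_dvd_of_pow_eq_one hm'
  have h2 : orderOf y = 1 := Nat.eq_one_of_dvd_coprimes (hy.pow_right m) dvd_rfl h1
  exact hy1 (orderOf_eq_one_iff.mp h2)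

/-- A normal subgroup containing the centralizers of its nontrivial elements is a Hall subgroup. -/
theorem coprime_index {F : Subgroup G} (hF : F.Normal)
    (hc : ∀ x ∈ F, x ≠ 1 → centralizer ({x} : Set G) ≤ F) : (Nat.card F).Coprime F.index := by
  apply Nat.Coprime.symm
  rw [Nat.coprime_iff_gcd_eq_one]
  by_contra hne
  obtain ⟨p, hp, hpd⟩ := Nat.exists_prime_and_dvd hne
  have := Fact.mk hp
  have hpF : p ∣ Nat.card F := hpd.trans (Nat.gcd_dvd_right _ _)
  have hpi : p ∣ F.index := hpd.trans (Nat.gcd_dvd_left _ _)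
  obtain ⟨z, hz⟩ := exists_prime_orderOf_dvd_card' p hpF
  have hzp : IsPGroup p (zpowers (z : G)) := by
    apply IsPGroup.of_card (n := 1)
    rw [Nat.card_zpowers, Subgroup.orderOf_coe, hz, pow_one]
  obtain ⟨P, hP⟩ := hzp.exists_le_sylow
  have hPn : Group.IsNilpotent (P : Subgroup G) := P.isPGroup'.isNilpotent
  have hNne : F.subgroupOf (P : Subgroup G) ≠ ⊥ := by
    intro h
    have h1 : (⟨z, hP (mem_zpowers _)⟩ : (P : Subgroup G)) ∈ F.subgroupOf (P : Subgroup G) :=
      mem_subgroupOf.mpr z.2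
    rw [h, mem_bot] at h1
    have h2 : (z : G) = 1 := congrArg Subtype.val h1
    have h3 : orderOf (z : G) = p := by rw [Subgroup.orderOf_coe]; exact hz
    rw [h2, orderOf_one] at h3
    exact hp.one_lt.ne h3
  have h4 := Cfsg.Agent.Lib.NormalAbelian.normal_inf_center_ne_bot (F.subgroupOf (P : Subgroup G)) hNne
  obtain ⟨u, hu1⟩ := Subgroup.ne_bot_iff_exists_ne_one.mp h4
  have huF : ((u : (P : Subgroup G)) : G) ∈ F := mem_subgroupOf.mp u.2.1
  have hu1' : ((u : (P : Subgroup G)) : G) ≠ 1 := by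
    intro h
    exact hu1 (Subtype.ext (Subtype.ext h))
  have hle : (P : Subgroup G) ≤ F := by
    refine le_trans ?_ (hc _ huF hu1')
    intro y hy
    rw [mem_centralizer_singleton_iff]
    have h5 := mem_center_iff.mp u.2.2 ⟨y, hy⟩
    exact congrArg Subtype.val h5
  exact P.not_dvd_index (hpi.trans (index_dvd_of_le hle))

/-- The Frobenius conclusion. -/
theorem frobenius_case [Group.IsSolvable G] (hCN : IsCNGroup G)
    (hne : fittingSubgroup G ≠ ⊤) (hnb : fittingSubgroup G ≠ ⊥)
    (hc : ∀ x ∈ fittingSubgroup G, x ≠ 1 → centralizer ({x} : Set G) ≤ fittingSubgroup G) :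
    ∃ K E : Subgroup G, K.Normal ∧ Subgroup.IsComplement' K E ∧ Cfsg.IsFrobeniusComplement E ∧
      (IsCyclic E ∨ ∃ C Q : Subgroup G, C ⊔ Q = E ∧ (∀ a ∈ C, ∀ b ∈ Q, a * b = b * a) ∧
        IsCyclic C ∧ Odd (Nat.card C) ∧ ∃ n : ℕ, Nonempty (↥Q ≃* QuaternionGroup (2 ^ n))) := by
  have hF := Cfsg.Agent.Lib.Cores.fittingSubgroup_isNilpotent (G := G)
  have hFn := Cfsg.Agent.Lib.Cores.fittingSubgroup_normal (G := G)
  have hcop := coprime_index hFn hc
  obtain ⟨E, hE⟩ := exists_right_complement'_of_coprime (N := fittingSubgroup G) hcop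
  have hEb : E ≠ ⊥ := by
    rintro rfl
    exact hne (isComplement'_bot_right.mp hE)
  have hdisj : fittingSubgroup G ⊓ E = ⊥ := hE.disjoint.eq_bot
  have hEF : ∀ e ∈ E, e ≠ 1 → ∀ x ∈ fittingSubgroup G, Commute e x → x = 1 := by
    intro e he he1 x hx hex
    by_contra hx1
    have h1 : e ∈ fittingSubgroup G := by
      apply hc x hx hx1
      rw [mem_centralizer_singleton_iff]; exact hex
    have h2 : e ∈ fittingSubgroup G ⊓ E := ⟨h1, he⟩
    rw [hdisj, mem_bot] at h2
    exact he1 h2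
  have hfrob : IsFrobeniusComplement E := by
    rw [Cfsg.Agent.S0039.result (fittingSubgroup G) E hE hnb hEb]
    intro h hh hh1
    rw [eq_bot_iff]
    rintro x ⟨hx1, hx2⟩
    rw [mem_bot]
    refine hEF h hh hh1 x hx1 ?_
    exact (mem_centralizer_singleton_iff.mp hx2).symm
  refine ⟨fittingSubgroup G, E, hFn, hE, hfrob, ?_⟩
  -- the module: centre of the Fitting subgroup
  have hVchar : (center (fittingSubgroup G)).Characteristic := inferInstance
  have hVn : ((center (fittingSubgroup G)).map (fittingSubgroup G).subtype).Normal :=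
    ConjAct.normal_of_characteristic_of_normal
  obtain ⟨V, hVdef⟩ : ∃ V : Subgroup G,
    V = (center (fittingSubgroup G)).map (fittingSubgroup G).subtype := ⟨_, rfl⟩
  rw [← hVdef] at hVn
  have hVF : V ≤ fittingSubgroup G := by rw [hVdef]; exact map_subtype_le _
  have hVcomm : ∀ a b : V, a * b = b * a := by
    rintro ⟨a, ha⟩ ⟨b, hb⟩
    rw [hVdef] at ha hb
    obtain ⟨a', ha', rfl⟩ := ha
    obtain ⟨b', hb', rfl⟩ := hb
    apply Subtype.ext
    have h1 : a' * b' = b' * a' := mem_center_iff.mp hb' a'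
    have h2 : ((a' * b' : fittingSubgroup G) : G) = ((b' * a' : fittingSubgroup G) : G) := by
      rw [h1]
    exact h2
  have hVnt : Nontrivial V := by
    have hnt : Nontrivial (fittingSubgroup G) := (Subgroup.nontrivial_iff_ne_bot _).mpr hnb
    have h1 : center (fittingSubgroup G) ≠ ⊥ := Group.IsNilpotent.center_ne_bot _
    rw [Subgroup.nontrivial_iff_ne_bot, hVdef]
    intro h
    exact h1 ((Subgroup.map_eq_bot_iff_of_injective _ (fittingSubgroup G).subtype_injective).mp h)
  let φ : E →* MulAut V := (MulAut.conjNormal (H := V)).comp E.subtype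
  obtain ⟨p, hp, hpF⟩ := Nat.exists_prime_and_dvd (n := Nat.card (fittingSubgroup G))
    (fun h => hnb (Subgroup.card_eq_one.mp h))
  have hpE : ¬ p ∣ Nat.card E := by
    intro h
    have h1 : Nat.card E = (fittingSubgroup G).index := by
      rw [← hE.symm.index_eq_card]
    rw [h1] at h
    exact hp.one_lt.ne' (Nat.eq_one_of_dvd_coprimes hcop hpF h)
  have hpFE : ¬ p ∣ Nat.card (fittingSubgroup E) := fun h =>
    hpE (h.trans (card_subgroup_dvd_card _))
  have hf : ∀ g : E, g ≠ 1 → (orderOf g).Coprime p → ∀ v : V, φ g v = v → v = 1 := by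
    intro g hg _ v hv
    apply Subtype.ext
    refine hEF g g.2 (fun h => hg (Subtype.ext h)) v (hVF v.2) ?_
    have h1 : (g : G) * v * (g : G)⁻¹ = v := congrArg Subtype.val hv
    show (g : G) * v = v * g
    calc (g : G) * v = ((g : G) * v * (g : G)⁻¹) * g := by group
      _ = v * g := by rw [h1]
  have hEnt : Nontrivial E := (Subgroup.nontrivial_iff_ne_bot _).mpr hEb
  have hECN := isCNGroup_subgroup hCN E
  have htop := Cfsg.Agent.OddOrderLocal.CNComplement.fittingSubgroup_eq_top hVcomm φ hf hECN hp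
    hpFE hpE
  have hEnil : Group.IsNilpotent E := Cfsg.Agent.Lib.Cores.fittingSubgroup_eq_top_iff.mp htop
  apply Cfsg.Agent.OddOrderLocal.NilpotentUnique.subgroup_cyclic_or hEnil
  intro r hr x hx y hy hxr hyr
  have h1 : (⟨y, hy⟩ : E) ∈ zpowers (⟨x, hx⟩ : E) := by
    apply Cfsg.Agent.OddOrderLocal.CNComplement.mem_zpowers_of_orderOf_eq hVcomm φ hf hp hpFE hr
    · rw [htop]; exact mem_top _
    · rw [htop]; exact mem_top _
    · rw [Subgroup.orderOf_mk]; exact hxr
    · exact Subtype.ext hyr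
  obtain ⟨k, hk⟩ := mem_zpowers_iff.mp h1
  exact mem_zpowers_iff.mpr ⟨k, congrArg Subtype.val hk⟩

end Cfsg.Agent.OddOrderLocal.CNSolvable
end

-- part: S1476
section
set_option autoImplicit false
open Cfsg

namespace Cfsg.Agent.S1476

open Subgroup
open Cfsg.Agent.OddOrderLocal.CNBasic Cfsg.Agent.OddOrderLocal.CNSolvable

/-- If `F(G)` is a `p`-group but not a Sylow subgroup of the solvable CN-group `G`, then `G` is a
three-step group. -/
theorem three_step_case {G : Type*} [Group G] [Finite G] [Group.IsSolvable G]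
    (hCN : IsCNGroup G) {p : ℕ} (hp : p.Prime) (hpg : IsPGroup p (fittingSubgroup G))
    (hnb : fittingSubgroup G ≠ ⊥) (hidx : p ∣ (fittingSubgroup G).index) :
    IsThreeStepGroup p G := by
  have := Fact.mk hp
  have hF := Cfsg.Agent.Lib.Cores.fittingSubgroup_isNilpotent (G := G)
  have hFn := Cfsg.Agent.Lib.Cores.fittingSubgroup_normal (G := G)
  have hcore : pCore p G = fittingSubgroup G :=
    le_antisymm (Cfsg.Agent.Lib.Cores.pCore_le_fittingSubgroup p)
      (Cfsg.Agent.Lib.Cores.le_pCore hFn hpg)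
  obtain ⟨F, hFdef⟩ : ∃ F : Subgroup G, F = fittingSubgroup G := ⟨_, rfl⟩
  have hcoreF : pCore p G = F := hcore.trans hFdef.symm
  rw [← hFdef] at hpg hnb hidx hF hFn
  have hpcop : ∀ x ∈ F, ∀ y : G, (orderOf y).Coprime p → y ≠ 1 → Commute y x → x = 1 := by
    intro x hx y hy hy1 hxy
    rw [hFdef] at hx hpg
    exact eq_one_of_commute_of_pgroup hCN hp hpg hx hy hy1 hxy
  -- a minimal normal-like subgroup of the quotient
  have hQnt : Nontrivial (G ⧸ F) := by
    rw [← Finite.one_lt_card_iff_nontrivial]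
    have h1 : F.index ≠ 1 := fun h => by
      rw [h] at hidx
      exact hp.one_lt.ne' (Nat.dvd_one.mp hidx)
    have h2 : F.index ≠ 0 := index_ne_zero_of_finite
    show 1 < F.index
    omega
  obtain ⟨q, M, hq, hMn, hMq, _, hMne⟩ :=
    Cfsg.Agent.Lib.SolvableNormalP.exists_normal_pSubgroup (G ⧸ F)
  have := Fact.mk hq
  have hpQ : pCore p (G ⧸ F) = ⊥ := by
    subst hcoreF
    exact Cfsg.Agent.Lib.Cores.pCore_quotient_pCore p
  have hqp : q ≠ p := by
    rintro rfl
    apply hMne
    rw [eq_bot_iff, ← hpQ]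
    exact Cfsg.Agent.Lib.Cores.le_pCore hMn hMq
  have hqpc : q.Coprime p := (Nat.coprime_primes hq hp).mpr hqp
  -- its preimage `L`
  let L : Subgroup G := M.comap (QuotientGroup.mk' F)
  have hLn : L.Normal := inferInstance
  have hFL : F ≤ L := by
    intro x hx
    show (QuotientGroup.mk' F) x ∈ M
    have : (QuotientGroup.mk' F) x = 1 := (QuotientGroup.eq_one_iff x).mpr hx
    rw [this]; exact one_mem _
  have hLF : ∀ x ∈ L, ∃ k : ℕ, x ^ q ^ k ∈ F := by
    intro x hx
    obtain ⟨k, hk⟩ := hMq ⟨(QuotientGroup.mk' F) x, hx⟩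
    refine ⟨k, ?_⟩
    have h1 : ((QuotientGroup.mk' F) x) ^ q ^ k = 1 := congrArg Subtype.val hk
    rw [← map_pow] at h1
    exact (QuotientGroup.eq_one_iff _).mp h1
  -- a Sylow subgroup of `L`
  let Q : Sylow q L := default
  obtain ⟨Q', hQ'def⟩ : ∃ Q' : Subgroup G, Q' = (Q : Subgroup L).map L.subtype := ⟨_, rfl⟩
  have hQ'q : ∀ y ∈ Q', ∃ k : ℕ, y ^ q ^ k = 1 := by
    intro y hy
    rw [hQ'def] at hy
    obtain ⟨y', hy', rfl⟩ := hy
    obtain ⟨k, hk⟩ := Q.isPGroup' ⟨y', hy'⟩
    refine ⟨k, ?_⟩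
    have h1 : (y' : L) ^ q ^ k = 1 := congrArg Subtype.val hk
    exact congrArg Subtype.val h1
  have hQ'L : Q' ≤ L := by rw [hQ'def]; exact map_subtype_le _
  -- `q` does not divide the order of `F`
  have hqF : ¬ q ∣ Nat.card F := by
    intro h
    obtain ⟨n, hn⟩ := hpg.exists_card_eq
    rw [hn] at h
    exact hqp ((Nat.prime_dvd_prime_iff_eq hq hp).mp (hq.dvd_of_dvd_pow h))
  -- `L = F Q'`
  have hLle : L ≤ F ⊔ Q' := by
    rw [← relIndex_eq_one]
    by_contra h
    obtain ⟨s, hs, hsd⟩ := Nat.exists_prime_and_dvd h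
    by_cases hsq : s = q
    · subst hsq
      apply Q.not_dvd_index
      have h1 : (F ⊔ Q').relIndex L ∣ Q'.relIndex L := relIndex_dvd_of_le_left L le_sup_right
      have h2 : Q'.relIndex L = (Q : Subgroup L).index := by
        rw [relIndex, hQ'def, subgroupOf, comap_map_eq_self_of_injective L.subtype_injective]
      rw [← h2]
      exact hsd.trans h1
    · -- `s` divides `|M|`, a power of `q`
      have h1 : (F ⊔ Q').relIndex L ∣ F.relIndex L := relIndex_dvd_of_le_left L le_sup_left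
      have h2 : s ∣ F.relIndex L := hsd.trans h1
      have h3 : F.relIndex L = Nat.card M := by
        have h4 : Nat.card L = Nat.card M * Nat.card F :=
          Cfsg.Agent.Lib.SolvableNormalP.card_comap_mk F M
        have h5 : Nat.card F * F.relIndex L = Nat.card L := by
          have h6 := (F.subgroupOf L).card_mul_index
          rwa [Nat.card_congr (subgroupOfEquivOfLe hFL).toEquiv] at h6
        rw [h4, mul_comm] at h5
        exact Nat.eq_of_mul_eq_mul_right Nat.card_pos h5
      rw [h3] at h2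
      obtain ⟨n, hn⟩ := hMq.exists_card_eq
      rw [hn] at h2
      exact hsq ((Nat.prime_dvd_prime_iff_eq hs hq).mp (hs.dvd_of_dvd_pow h2))
  -- the normalizer `N` of `Q'` is a complement of `F`
  obtain ⟨N, hNdef⟩ : ∃ N : Subgroup G, N = normalizer (Q' : Set G) := ⟨_, rfl⟩
  have hNsup : F ⊔ N = ⊤ := by
    have h1 : normalizer (Q' : Set G) ⊔ L = ⊤ := by
      rw [hQ'def]
      exact Sylow.normalizer_sup_eq_top Q
    rw [eq_top_iff, ← h1, ← hNdef]
    refine sup_le le_sup_right (hLle.trans (sup_le le_sup_left (le_trans ?_ le_sup_right)))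
    rw [hNdef]
    exact le_normalizer
  -- a nontrivial element of `Q'`
  obtain ⟨y₀, hy₀Q, hy₀1⟩ : ∃ y₀ ∈ Q', y₀ ≠ 1 := by
    by_contra hcon
    push Not at hcon
    have h1 : Q' = ⊥ := by
      rw [eq_bot_iff]
      intro y hy
      exact mem_bot.mpr (hcon y hy)
    rw [h1, sup_bot_eq] at hLle
    apply hMne
    rw [eq_bot_iff]
    intro m hm
    obtain ⟨g, rfl⟩ := QuotientGroup.mk'_surjective F m
    have h2 : g ∈ F := hLle hm
    rw [mem_bot]
    exact (QuotientGroup.eq_one_iff g).mpr h2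
  have hy₀p : (orderOf y₀).Coprime p := by
    obtain ⟨k, hk⟩ := hQ'q y₀ hy₀Q
    exact Nat.Coprime.coprime_dvd_left (orderOf_dvd_of_pow_eq_one hk) (Nat.Coprime.pow_left k hqpc)
  have hNF : F ⊓ N = ⊥ := by
    rw [eq_bot_iff]
    rintro x ⟨hxF, hxN⟩
    rw [mem_bot]
    apply hpcop x hxF y₀ hy₀p hy₀1
    rw [hNdef] at hxN
    -- the commutator lies in `F ⊓ Q'`
    have h1 : x * y₀ * x⁻¹ ∈ Q' := (mem_normalizer_iff.mp hxN y₀).mp hy₀Q
    have h2 : x * y₀ * x⁻¹ * y₀⁻¹ ∈ Q' := mul_mem h1 (inv_mem hy₀Q)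
    have h3 : x * y₀ * x⁻¹ * y₀⁻¹ ∈ F := by
      have : x * y₀ * x⁻¹ * y₀⁻¹ = x * (y₀ * x⁻¹ * y₀⁻¹) := by group
      rw [this]
      exact mul_mem hxF (hFn.conj_mem _ (inv_mem hxF) y₀)
    have h4 : x * y₀ * x⁻¹ * y₀⁻¹ = 1 := by
      obtain ⟨k, hk⟩ := hQ'q _ h2
      obtain ⟨m, hm⟩ := hpg ⟨_, h3⟩
      have hm' : (x * y₀ * x⁻¹ * y₀⁻¹) ^ p ^ m = 1 := congrArg Subtype.val hm
      have h5 := orderOf_dvd_of_pow_eq_one hk
      have h6 := orderOf_dvd_of_pow_eq_one hm'
      have h7 : (q ^ k).Coprime (p ^ m) := Nat.Coprime.pow k m hqpc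
      exact orderOf_eq_one_iff.mp (Nat.eq_one_of_dvd_coprimes h7 h5 h6)
    show y₀ * x = x * y₀
    calc y₀ * x = (x * y₀ * x⁻¹ * y₀⁻¹) * y₀ * x := by rw [h4, one_mul]
      _ = x * y₀ := by group
  have hcompl : IsComplement' F N := by
    refine isComplement'_of_disjoint_and_mul_eq_univ (disjoint_iff.mpr hNF) ?_
    rw [← Subgroup.normal_mul, hNsup]
    rfl
  have hNcn := isCNGroup_subgroup hCN N
  have hNcard : Nat.card N = F.index := hcompl.symm.index_eq_card.symm
  have hpN : p ∣ Nat.card N := by rw [hNcard]; exact hidx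
  have hNnt : Nontrivial N := by
    rw [← Finite.one_lt_card_iff_nontrivial]
    exact lt_of_lt_of_le hp.one_lt (Nat.le_of_dvd Nat.card_pos hpN)
  -- `O_p(N) = 1`
  have hpcN : pCore p N = ⊥ := by
    have e : (G ⧸ F) ≃* N := hcompl.symm.QuotientMulEquiv
    have h1 := Cfsg.Agent.Lib.Cores.map_equiv_pCore e p
    rw [hpQ, Subgroup.map_bot] at h1
    exact h1.symm
  have hpFN : ¬ p ∣ Nat.card (fittingSubgroup N) := by
    intro h
    have hnil := Cfsg.Agent.Lib.Cores.fittingSubgroup_isNilpotent (G := N)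
    let P : Sylow p (fittingSubgroup N) := default
    have hPn : (P : Subgroup (fittingSubgroup N)).Normal := inferInstance
    have h1 : (P : Subgroup (fittingSubgroup N)) ≤ pCore p (fittingSubgroup N) :=
      Cfsg.Agent.Lib.Cores.le_pCore hPn P.isPGroup'
    have h2 := Cfsg.Agent.Lib.Cores.map_subtype_pCore p
      (Cfsg.Agent.Lib.Cores.fittingSubgroup_normal (G := N))
    rw [hpcN, inf_bot_eq] at h2
    have h3 := (Subgroup.map_eq_bot_iff_of_injective _
      (fittingSubgroup N).subtype_injective).mp h2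
    rw [h3, le_bot_iff] at h1
    exact P.ne_bot_of_dvd_card h h1
  -- the module: centre of `F`
  have hVn : ((center F).map F.subtype).Normal := ConjAct.normal_of_characteristic_of_normal
  obtain ⟨V, hVdef⟩ : ∃ V : Subgroup G, V = (center F).map F.subtype := ⟨_, rfl⟩
  rw [← hVdef] at hVn
  have hVF : V ≤ F := by rw [hVdef]; exact map_subtype_le _
  have hVcomm : ∀ a b : V, a * b = b * a := by
    rintro ⟨a, ha⟩ ⟨b, hb⟩
    rw [hVdef] at ha hb
    obtain ⟨a', ha', rfl⟩ := ha
    obtain ⟨b', hb', rfl⟩ := hb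
    apply Subtype.ext
    have h1 : a' * b' = b' * a' := mem_center_iff.mp hb' a'
    have h2 : ((a' * b' : F) : G) = ((b' * a' : F) : G) := by rw [h1]
    exact h2
  have hVnt : Nontrivial V := by
    have hnt : Nontrivial F := (Subgroup.nontrivial_iff_ne_bot _).mpr hnb
    have h1 : center F ≠ ⊥ := Group.IsNilpotent.center_ne_bot _
    rw [Subgroup.nontrivial_iff_ne_bot, hVdef]
    intro h
    exact h1 ((Subgroup.map_eq_bot_iff_of_injective _ F.subtype_injective).mp h)
  let φ : N →* MulAut V := (MulAut.conjNormal (H := V)).comp N.subtype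
  have hf : ∀ g : N, g ≠ 1 → (orderOf g).Coprime p → ∀ v : V, φ g v = v → v = 1 := by
    intro g hg hgp v hv
    apply Subtype.ext
    refine hpcop v (hVF v.2) g (by rw [Subgroup.orderOf_coe]; exact hgp)
      (fun h => hg (Subtype.ext h)) ?_
    have h1 : (g : G) * v * (g : G)⁻¹ = v := congrArg Subtype.val hv
    show (g : G) * v = v * g
    calc (g : G) * v = ((g : G) * v * (g : G)⁻¹) * g := by group
      _ = v * g := by rw [h1]
  -- the subgroup `A`
  obtain ⟨A, hAdef⟩ : ∃ A : Subgroup G, A = (fittingSubgroup N).map N.subtype := ⟨_, rfl⟩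
  have hAN : A ≤ N := by rw [hAdef]; exact map_subtype_le _
  have eA : fittingSubgroup N ≃* A := by
    rw [hAdef]
    exact Subgroup.equivMapOfInjective _ N.subtype N.subtype_injective
  have hAcard : Nat.card A = Nat.card (fittingSubgroup N) := (Nat.card_congr eA.toEquiv).symm
  have hAne : A ≠ ⊥ := by
    rw [hAdef]
    intro h
    exact Cfsg.Agent.OddOrderLocal.CNComplement.fittingSubgroup_ne_bot (N := N)
      ((Subgroup.map_eq_bot_iff_of_injective _ N.subtype_injective).mp h)
  have hodd : Odd (Nat.card (fittingSubgroup N)) :=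
    Cfsg.Agent.OddOrderLocal.CNComplement.odd_card_fitting hVcomm φ hf hNcn hp hpFN hpN
  have hcyc : IsCyclic (fittingSubgroup N) := by
    have hnil := Cfsg.Agent.Lib.Cores.fittingSubgroup_isNilpotent (G := N)
    apply Cfsg.Agent.OddOrderLocal.NilpotentUnique.isCyclic_of_odd _ hodd
    intro r hr x y hx hy
    have h1 : (y : N) ∈ zpowers (x : N) :=
      Cfsg.Agent.OddOrderLocal.CNComplement.mem_zpowers_of_orderOf_eq hVcomm φ hf hp hpFN hr
        x.2 y.2 (by rw [Subgroup.orderOf_coe]; exact hx) (congrArg Subtype.val hy)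
    obtain ⟨k, hk⟩ := mem_zpowers_iff.mp h1
    exact mem_zpowers_iff.mpr ⟨k, Subtype.ext hk⟩
  have hAnorm : ∀ n ∈ N, ∀ a ∈ A, n * a * n⁻¹ ∈ A := by
    intro n hn a ha
    rw [hAdef] at ha ⊢
    obtain ⟨a', ha', rfl⟩ := ha
    exact ⟨⟨n, hn⟩ * a' * ⟨n, hn⟩⁻¹,
      (Cfsg.Agent.Lib.Cores.fittingSubgroup_normal (G := N)).conj_mem a' ha' ⟨n, hn⟩, rfl⟩
  have hdecomp : ∀ x : G, ∃ f ∈ F, ∃ n ∈ N, x = f * n := by
    intro x
    have hx : x ∈ F ⊔ N := by rw [hNsup]; exact mem_top x
    rw [Subgroup.mem_sup_of_normal_left] at hx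
    obtain ⟨f, hf, n, hn, h⟩ := hx
    exact ⟨f, hf, n, hn, h.symm⟩
  have hFAn : (F ⊔ A).Normal := by
    constructor
    intro x hx g
    obtain ⟨f, hf, n, hn, rfl⟩ := hdecomp g
    rw [Subgroup.mem_sup_of_normal_left] at hx
    obtain ⟨f', hf', a, ha, rfl⟩ := hx
    have h1 : n * (f' * a) * n⁻¹ = (n * f' * n⁻¹) * (n * a * n⁻¹) := by group
    have h2 : n * (f' * a) * n⁻¹ ∈ F ⊔ A := by
      rw [h1]
      exact mul_mem (mem_sup_left (hFn.conj_mem _ hf' n)) (mem_sup_right (hAnorm n hn a ha))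
    have h3 : f * n * (f' * a) * (f * n)⁻¹ = f * (n * (f' * a) * n⁻¹) * f⁻¹ := by group
    rw [h3]
    have hfm : f ∈ F ⊔ A := mem_sup_left hf
    exact mul_mem (mul_mem hfm h2) (inv_mem hfm)
  have hFA : F ⊓ A = ⊥ := by
    rw [eq_bot_iff, ← hNF]
    exact inf_le_inf_left _ hAN
  obtain ⟨m, hm⟩ := Cfsg.Agent.OddOrderLocal.CNComplement.exists_index_eq hVcomm φ hf hNcn hp hpFN
  have hFAidx : (F ⊔ A).index = p ^ m := by
    have h1 : Nat.card F * Nat.card A = Nat.card (F ⊔ A : Subgroup G) := by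
      have h6 := (F.subgroupOf (F ⊔ A)).card_mul_index
      rw [Nat.card_congr (subgroupOfEquivOfLe (le_sup_left : F ≤ F ⊔ A)).toEquiv] at h6
      have h7 : F.relIndex (F ⊔ A) = F.relIndex A := relIndex_sup_left A F
      have h8 : F.relIndex A = Nat.card A := by
        rw [← inf_relIndex_right, hFA, relIndex_bot_left]
      rw [← h6, ← h8, ← h7]
      rfl
    have h2 : Nat.card F * Nat.card N = Nat.card G := hcompl.card_mul_card
    have h3 := (fittingSubgroup N).card_mul_index
    have h4 := (F ⊔ A).card_mul_index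
    rw [← h1, ← h2, ← h3, hAcard, hm, mul_assoc] at h4
    exact Nat.eq_of_mul_eq_mul_left Nat.card_pos (Nat.eq_of_mul_eq_mul_left Nat.card_pos h4)
  refine ⟨hcore ▸ (hFdef ▸ hnb), A, hAne, ?_, ?_, ?_, ?_, ?_, ⟨m, ?_⟩, ?_, ?_⟩
  · exact isCyclic_of_surjective _ eA.surjective
  · rw [hAcard]; exact hodd
  · rw [hAcard]; exact ((hp.coprime_iff_not_dvd).mpr hpFN).symm
  · rw [hcoreF]; exact hFAn
  · rw [hcoreF]
    intro h
    rw [h, index_top] at hFAidx
    have h1 : (fittingSubgroup N).index = 1 := by rw [hm, ← hFAidx]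
    rw [index_eq_one] at h1
    rw [h1, Subgroup.card_top] at hpFN
    exact hpFN hpN
  · rw [hcoreF]; exact hFAidx
  · intro a ha ha1
    rw [hcoreF, eq_bot_iff]
    rintro x ⟨hxF, hxa⟩
    rw [mem_bot]
    refine hpcop x hxF a ?_ ha1 ?_
    · have h1 : orderOf a ∣ Nat.card A := by
        rw [← Subgroup.orderOf_mk a ha]; exact orderOf_dvd_natCard _
      rw [hAcard] at h1
      exact Nat.Coprime.coprime_dvd_left h1 ((hp.coprime_iff_not_dvd).mpr hpFN).symm
    · exact (mem_centralizer_singleton_iff.mp hxa).symm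
  · intro x hx a ha ha1
    rw [hcoreF] at hx ⊢
    intro hmem
    apply hx
    obtain ⟨f, hf', n, hn, rfl⟩ := hdecomp x
    refine mul_mem (mem_sup_left hf') (mem_sup_right ?_)
    -- `n a n⁻¹ a⁻¹` lies in `F ⊓ N`
    have h1 : n * a * n⁻¹ * a⁻¹ ∈ F := by
      have h2 : n * a * n⁻¹ * a⁻¹ = f⁻¹ * ((f * n) * a * (f * n)⁻¹ * a⁻¹) * (a * f * a⁻¹) := by
        group
      rw [h2]
      exact mul_mem (mul_mem (inv_mem hf') hmem) (hFn.conj_mem f hf' a)
    have h2 : n * a * n⁻¹ * a⁻¹ ∈ N :=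
      mul_mem (mul_mem (mul_mem hn (hAN ha)) (inv_mem hn)) (inv_mem (hAN ha))
    have h3 : n * a * n⁻¹ * a⁻¹ ∈ F ⊓ N := ⟨h1, h2⟩
    rw [hNF, mem_bot] at h3
    have h4 : n * a = a * n := by
      calc n * a = (n * a * n⁻¹ * a⁻¹) * a * n := by group
        _ = a * n := by rw [h3, one_mul]
    have haN : (⟨a, hAN ha⟩ : N) ∈ fittingSubgroup N := by
      rw [hAdef] at ha
      obtain ⟨a', ha', h5⟩ := ha
      have : (⟨a, hAN (hAdef ▸ ⟨a', ha', h5⟩)⟩ : N) = a' := Subtype.ext h5.symm
      rw [this]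
      exact ha'
    have hnN : (⟨n, hn⟩ : N) ∈ fittingSubgroup N := by
      apply Cfsg.Agent.OddOrderLocal.CNComplement.centralizer_le hVcomm φ hf hNcn hp hpFN haN
        (fun h => ha1 (congrArg Subtype.val h))
      rw [mem_centralizer_singleton_iff]
      exact Subtype.ext h4
    rw [hAdef]
    exact ⟨⟨n, hn⟩, hnN, rfl⟩

/-- Let G be a finite solvable group in which every non-identity element has nilpotent centralizer. Then either G is nilpotent; or G has a normal subgroup K with a Frobenius complement E (K E = G, K ∩ E = 1, E meets its conjugates by outside elements trivially) such that E is cyclic or E is generated by two elementwise-commuting subgroups, one cyclic of odd order and one isomorphic to a generalized quaternion group; or G is a three-step group with respect to some prime p. -/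
theorem result {G : Type*} [Group G] [Finite G] [Group.IsSolvable G] (hCN : Cfsg.IsCNGroup G) :
    Group.IsNilpotent G ∨
      (∃ K E : Subgroup G, K.Normal ∧ Subgroup.IsComplement' K E ∧ Cfsg.IsFrobeniusComplement E ∧
        (IsCyclic E ∨ ∃ C Q : Subgroup G, C ⊔ Q = E ∧ (∀ a ∈ C, ∀ b ∈ Q, a * b = b * a) ∧ IsCyclic C ∧ Odd (Nat.card C) ∧
          ∃ n : ℕ, Nonempty (↥Q ≃* QuaternionGroup (2 ^ n)))) ∨
      ∃ p : ℕ, p.Prime ∧ Cfsg.IsThreeStepGroup p G := by
  by_cases hnil : Group.IsNilpotent G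
  · exact Or.inl hnil
  right
  have hne : fittingSubgroup G ≠ ⊤ := fun h =>
    hnil (Cfsg.Agent.Lib.Cores.fittingSubgroup_eq_top_iff.mp h)
  have hGnt : Nontrivial G := by
    rw [← not_subsingleton_iff_nontrivial]
    intro h
    exact hnil inferInstance
  have hnb : fittingSubgroup G ≠ ⊥ :=
    Cfsg.Agent.OddOrderLocal.CNComplement.fittingSubgroup_ne_bot (N := G)
  by_cases hpg : ∃ p : ℕ, p.Prime ∧ IsPGroup p (fittingSubgroup G)
  · obtain ⟨p, hp, hpg⟩ := hpg
    by_cases hidx : p ∣ (fittingSubgroup G).index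
    · right
      exact ⟨p, hp, three_step_case hCN hp hpg hnb hidx⟩
    · left
      apply frobenius_case hCN hne hnb
      intro x hx hx1 y hy
      have hy' := mem_centralizer_singleton_iff.mp hy
      obtain ⟨a, b, ha, hb, hab, ⟨k, hk⟩, hbp⟩ := exists_mul_parts hp y
      have hbx : Commute b x := by
        have h1 : b ∈ centralizer ({x} : Set G) := (zpowers_le.mpr hy) hb
        exact mem_centralizer_singleton_iff.mp h1
      have hb1 : b = 1 := by
        by_contra hb1
        exact hx1 (eq_one_of_commute_of_pgroup hCN hp hpg hx hbp hb1 hbx)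
      -- `a` is a `p`-element, so it lies in the normal Sylow subgroup
      have hFn := Cfsg.Agent.Lib.Cores.fittingSubgroup_normal (G := G)
      have haF : a ∈ fittingSubgroup G := by
        rw [← QuotientGroup.eq_one_iff]
        have h1 : orderOf (a : G ⧸ fittingSubgroup G) ∣ p ^ k := by
          apply orderOf_dvd_of_pow_eq_one
          rw [← QuotientGroup.mk_pow, hk]
          rfl
        have h2 : orderOf (a : G ⧸ fittingSubgroup G) ∣ (fittingSubgroup G).index :=
          orderOf_dvd_natCard _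
        have h3 : (p ^ k).Coprime (fittingSubgroup G).index :=
          Nat.Coprime.pow_left k ((hp.coprime_iff_not_dvd).mpr hidx)
        exact orderOf_eq_one_iff.mp (Nat.eq_one_of_dvd_coprimes h3 h1 h2)
      rw [← hab, hb1, mul_one]
      exact haF
  · left
    push Not at hpg
    apply frobenius_case hCN hne hnb
    intro x hx hx1
    exact centralizer_le_of_not_pgroup hCN (fun p hp h => hpg p hp h) hx hx1

end Cfsg.Agent.S1476
end
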