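import Mathlib
import Cfsg.Prelude.Def_SporadicB
import Cfsg.Prelude.Def_Classical
import Cfsg.Statements.S1629
set_option linter.all false

-- part: SporadicStructure/OrthTransTwo
section
/-!
# Orthogonal transvections over the field with two elements

Let `Q` be a quadratic form over `ZMod 2` with non-degenerate polar form in dimension at least 5
(hence at least 6).  The elements `g` of the isometry group with `g - 1` of rank one are the
transvections `x ↦ x + B w x • w` with `Q w = 1`; they form one conjugacy class of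
3-transpositions, and they generate the isometry group.
-/

set_option autoImplicit false
set_option linter.unusedSectionVars false

namespace Cfsg.Agent.SporadicStructure.OrthTransTwo

open Cfsg Matrix

variable {ι : Type} [Fintype ι] [DecidableEq ι]

/-- The hypotheses: `B` is the polar form of `Q`, is additive and non-degenerate. -/
structure IsNdForm (Q : (ι → ZMod 2) → ZMod 2) (B : (ι → ZMod 2) → (ι → ZMod 2) → ZMod 2) :
    Prop where
  hQ : ∀ x y, Q (x + y) = Q x + Q y + B x y
  hadd : ∀ x y z, B (x + y) z = B x z + B y z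
  hnd : ∀ x, (∀ y, B x y = 0) → x = 0

section basic

theorem zadd_self (a : ZMod 2) : a + a = 0 := by
  revert a; decide

theorem vadd_self (x : ι → ZMod 2) : x + x = 0 := by
  ext i; exact zadd_self _

theorem z_cases (a : ZMod 2) : a = 0 ∨ a = 1 := by
  revert a; decide

variable {Q : (ι → ZMod 2) → ZMod 2} {B : (ι → ZMod 2) → (ι → ZMod 2) → ZMod 2}

theorem B_eq (h : IsNdForm Q B) (x y : ι → ZMod 2) : B x y = Q (x + y) + Q x + Q y := by
  rw [h.hQ]
  generalize Q x = a
  generalize Q y = b
  generalize B x y = c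
  revert a b c; decide

theorem B_symm (h : IsNdForm Q B) (x y : ι → ZMod 2) : B x y = B y x := by
  rw [B_eq h, B_eq h, add_comm x y]
  ring

theorem B_zero_left (h : IsNdForm Q B) (y : ι → ZMod 2) : B 0 y = 0 := by
  have := h.hadd 0 0 y
  rw [add_zero] at this
  rw [this]; exact zadd_self _

theorem B_zero_right (h : IsNdForm Q B) (y : ι → ZMod 2) : B y 0 = 0 := by
  rw [B_symm h, B_zero_left h]

theorem Q_zero (h : IsNdForm Q B) : Q 0 = 0 := by
  have := h.hQ 0 0
  rw [B_zero_left h, add_zero, add_zero, zadd_self] at this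
  exact this

theorem B_self (h : IsNdForm Q B) (x : ι → ZMod 2) : B x x = 0 := by
  rw [B_eq h, vadd_self, Q_zero h, zero_add, zadd_self]

theorem B_add_right (h : IsNdForm Q B) (x y z : ι → ZMod 2) : B x (y + z) = B x y + B x z := by
  rw [B_symm h, h.hadd, B_symm h y, B_symm h z]

theorem B_smul_right (h : IsNdForm Q B) (c : ZMod 2) (x y : ι → ZMod 2) :
    B x (c • y) = c * B x y := by
  rcases z_cases c with rfl | rfl
  · simp [B_zero_right h]
  · simp

theorem B_smul_left (h : IsNdForm Q B) (c : ZMod 2) (x y : ι → ZMod 2) :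
    B (c • x) y = c * B x y := by
  rw [B_symm h, B_smul_right h, B_symm h]

theorem Q_smul (h : IsNdForm Q B) (c : ZMod 2) (x : ι → ZMod 2) :
    Q (c • x) = c * Q x := by
  rcases z_cases c with rfl | rfl
  · simp [Q_zero h]
  · simp

/-- The polar form as a bilinear form. -/
def bil (h : IsNdForm Q B) : LinearMap.BilinForm (ZMod 2) (ι → ZMod 2) :=
  LinearMap.mk₂ (ZMod 2) B h.hadd (fun c x y => by rw [B_smul_left h, smul_eq_mul])
    (B_add_right h) (fun c x y => by rw [B_smul_right h, smul_eq_mul])

theorem bil_apply (h : IsNdForm Q B) (x y : ι → ZMod 2) : bil h x y = B x y := rfl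

theorem bil_isRefl (h : IsNdForm Q B) : (bil h).IsRefl := by
  intro x y hxy
  rw [bil_apply] at *
  rw [B_symm h, hxy]

theorem bil_nondegenerate (h : IsNdForm Q B) : (bil h).Nondegenerate := by
  have h1 : (bil h).SeparatingLeft := by
    intro x hx
    exact h.hnd x hx
  exact ⟨h1, fun x hx => h.hnd x (fun y => by rw [B_symm h]; exact hx y)⟩

end basic

/-! ### The action -/

section action

variable {Q : (ι → ZMod 2) → ZMod 2} {B : (ι → ZMod 2) → (ι → ZMod 2) → ZMod 2}

/-- The action of an isometry on column vectors. -/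
def act (g : isometryGroup (ZMod 2) Q) (x : ι → ZMod 2) : ι → ZMod 2 :=
  ((g : GL ι (ZMod 2)) : Matrix ι ι (ZMod 2)) *ᵥ x

theorem act_def (g : isometryGroup (ZMod 2) Q) (x : ι → ZMod 2) :
    act g x = ((g : GL ι (ZMod 2)) : Matrix ι ι (ZMod 2)) *ᵥ x := rfl

theorem act_mul (g h : isometryGroup (ZMod 2) Q) (x : ι → ZMod 2) :
    act (g * h) x = act g (act h x) := by
  rw [act_def, act_def, act_def, Matrix.mulVec_mulVec]
  rfl

theorem act_one (x : ι → ZMod 2) : act (1 : isometryGroup (ZMod 2) Q) x = x := by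
  rw [act_def]
  exact Matrix.one_mulVec x

theorem act_add (g : isometryGroup (ZMod 2) Q) (x y : ι → ZMod 2) :
    act g (x + y) = act g x + act g y := by
  rw [act_def, act_def, act_def, Matrix.mulVec_add]

theorem act_zero (g : isometryGroup (ZMod 2) Q) : act g 0 = 0 := by
  rw [act_def, Matrix.mulVec_zero]

theorem Q_act (g : isometryGroup (ZMod 2) Q) (x : ι → ZMod 2) : Q (act g x) = Q x :=
  g.2 x x

theorem B_act (h : IsNdForm Q B) (g : isometryGroup (ZMod 2) Q) (x y : ι → ZMod 2) :
    B (act g x) (act g y) = B x y := by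
  rw [B_eq h, B_eq h, ← act_add, Q_act g (x + y), Q_act g x, Q_act g y]

theorem act_ext {g k : isometryGroup (ZMod 2) Q} (hgk : ∀ x, act g x = act k x) : g = k := by
  apply Subtype.ext
  apply Units.ext
  exact Matrix.ext_of_mulVec_single (fun i => hgk _)

theorem act_inv_act (g : isometryGroup (ZMod 2) Q) (x : ι → ZMod 2) :
    act g⁻¹ (act g x) = x := by
  rw [← act_mul, inv_mul_cancel, act_one]

theorem act_act_inv (g : isometryGroup (ZMod 2) Q) (x : ι → ZMod 2) :
    act g (act g⁻¹ x) = x := by
  rw [← act_mul, mul_inv_cancel, act_one]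

/-- The map `x ↦ x + B w x • w`. -/
def tLin (h : IsNdForm Q B) (w : ι → ZMod 2) : (ι → ZMod 2) →ₗ[ZMod 2] (ι → ZMod 2) :=
  LinearMap.id + (bil h w).smulRight w

theorem tLin_apply (h : IsNdForm Q B) (w x : ι → ZMod 2) : tLin h w x = x + B w x • w := rfl

theorem tLin_tLin (h : IsNdForm Q B) (w x : ι → ZMod 2) : tLin h w (tLin h w x) = x := by
  rw [tLin_apply, tLin_apply, B_add_right h, B_smul_right h, B_self h, mul_zero, add_zero,
    add_assoc, vadd_self, add_zero]

/-- The matrix of `x ↦ x + B w x • w`. -/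
def tMat (h : IsNdForm Q B) (w : ι → ZMod 2) : Matrix ι ι (ZMod 2) :=
  LinearMap.toMatrix' (tLin h w)

theorem tMat_mulVec (h : IsNdForm Q B) (w x : ι → ZMod 2) :
    tMat h w *ᵥ x = x + B w x • w := by
  rw [tMat, LinearMap.toMatrix'_mulVec, tLin_apply]

theorem tMat_mul_self (h : IsNdForm Q B) (w : ι → ZMod 2) : tMat h w * tMat h w = 1 := by
  rw [tMat, ← LinearMap.toMatrix'_comp]
  have : (tLin h w).comp (tLin h w) = LinearMap.id := by
    apply LinearMap.ext
    intro x
    exact tLin_tLin h w x
  rw [this, LinearMap.toMatrix'_id]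

theorem Q_t (h : IsNdForm Q B) (w x : ι → ZMod 2) (hw : Q w = 1) :
    Q (x + B w x • w) = Q x := by
  rw [h.hQ, Q_smul h, B_smul_right h, hw, B_symm h x w]
  rcases z_cases (B w x) with h0 | h0 <;> rw [h0]
  · simp
  · rw [mul_one, add_assoc, zadd_self, add_zero]

/-- The transvection attached to a vector `w` with `Q w = 1`, as an element of the isometry
group. -/
def tau (h : IsNdForm Q B) (w : ι → ZMod 2) (hw : Q w = 1) : isometryGroup (ZMod 2) Q :=
  ⟨⟨tMat h w, tMat h w, tMat_mul_self h w, tMat_mul_self h w⟩, by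
    intro x _
    show Q (tMat h w *ᵥ x) = Q x
    rw [tMat_mulVec, Q_t h w x hw]⟩

theorem act_tau (h : IsNdForm Q B) (w : ι → ZMod 2) (hw : Q w = 1) (x : ι → ZMod 2) :
    act (tau h w hw) x = x + B w x • w :=
  tMat_mulVec h w x

theorem coe_tau (h : IsNdForm Q B) (w : ι → ZMod 2) (hw : Q w = 1) :
    ((tau h w hw : GL ι (ZMod 2)) : Matrix ι ι (ZMod 2)) = tMat h w := rfl

theorem ne_zero_of_Q (h : IsNdForm Q B) {w : ι → ZMod 2} (hw : Q w = 1) : w ≠ 0 := by
  rintro rfl
  rw [Q_zero h] at hw
  exact zero_ne_one hw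

theorem exists_B_eq_one (h : IsNdForm Q B) {w : ι → ZMod 2} (hw : w ≠ 0) : ∃ y, B w y = 1 := by
  by_contra hcon
  apply hw
  apply h.hnd
  intro y
  rcases z_cases (B w y) with h0 | h0
  · exact h0
  · exact absurd ⟨y, h0⟩ hcon

theorem tau_mul_self (h : IsNdForm Q B) (w : ι → ZMod 2) (hw : Q w = 1) :
    tau h w hw * tau h w hw = 1 := by
  apply act_ext
  intro x
  rw [act_mul, act_one, act_tau, act_tau]
  exact tLin_tLin h w x

theorem tau_ne_one (h : IsNdForm Q B) (w : ι → ZMod 2) (hw : Q w = 1) :
    tau h w hw ≠ 1 := by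
  intro hcon
  obtain ⟨y, hy⟩ := exists_B_eq_one h (ne_zero_of_Q h hw)
  have h1 : act (tau h w hw) y = y := by rw [hcon, act_one]
  rw [act_tau, hy, one_smul] at h1
  exact ne_zero_of_Q h hw (by simpa using h1)

theorem orderOf_tau (h : IsNdForm Q B) (w : ι → ZMod 2) (hw : Q w = 1) :
    orderOf (tau h w hw) = 2 := by
  apply orderOf_eq_prime
  · rw [sq]; exact tau_mul_self h w hw
  · exact tau_ne_one h w hw

theorem tau_inv (h : IsNdForm Q B) (w : ι → ZMod 2) (hw : Q w = 1) :
    (tau h w hw)⁻¹ = tau h w hw :=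
  inv_eq_of_mul_eq_one_left (tau_mul_self h w hw)

/-- Conjugating a transvection. -/
theorem conj_tau (h : IsNdForm Q B) (g : isometryGroup (ZMod 2) Q) (w : ι → ZMod 2)
    (hw : Q w = 1) :
    g * tau h w hw * g⁻¹ = tau h (act g w) ((Q_act g w).trans hw) := by
  apply act_ext
  intro x
  rw [act_mul, act_mul, act_tau, act_tau, act_add, act_act_inv]
  have h1 : B w (act g⁻¹ x) = B (act g w) x := by
    rw [← B_act h g w, act_act_inv]
  rw [h1]
  rcases z_cases (B (act g w) x) with h0 | h0 <;> rw [h0]
  · simp [act_zero]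
  · simp

theorem tau_congr (h : IsNdForm Q B) {w w' : ι → ZMod 2} (hw : Q w = 1) (hw' : Q w' = 1)
    (e : w = w') : tau h w hw = tau h w' hw' := by
  subst e; rfl

/-- The product of two transvections has order 1, 2 or 3. -/
theorem three (h : IsNdForm Q B) (v w : ι → ZMod 2) (hv : Q v = 1) (hw : Q w = 1) :
    (tau h v hv * tau h w hw) ^ 2 = 1 ∨ (tau h v hv * tau h w hw) ^ 3 = 1 := by
  have hvv := tau_mul_self h v hv
  have hww := tau_mul_self h w hw
  have c1 := conj_tau h (tau h v hv) w hw
  rw [tau_inv] at c1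
  rcases z_cases (B v w) with h0 | h0
  · left
    have : tau h v hv * tau h w hw * tau h v hv = tau h w hw := by
      rw [c1]
      apply tau_congr
      rw [act_tau, h0, zero_smul, add_zero]
    calc (tau h v hv * tau h w hw) ^ 2
        = (tau h v hv * tau h w hw * tau h v hv) * tau h w hw := by
          rw [sq]; simp only [mul_assoc]
      _ = 1 := by rw [this, hww]
  · right
    have c2 := conj_tau h (tau h w hw) v hv
    rw [tau_inv] at c2
    have : tau h v hv * tau h w hw * tau h v hv = tau h w hw * tau h v hv * tau h w hw := by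
      rw [c1, c2]
      apply tau_congr
      rw [act_tau, act_tau, B_symm h w v, h0, one_smul, one_smul, add_comm]
    calc (tau h v hv * tau h w hw) ^ 3
        = (tau h v hv * tau h w hw * tau h v hv) * (tau h w hw * tau h v hv * tau h w hw) := by
          rw [pow_succ, sq]; simp only [mul_assoc]
      _ = (tau h w hw * tau h v hv * tau h w hw) * (tau h w hw * tau h v hv * tau h w hw) := by
          rw [this]
      _ = tau h w hw * (tau h v hv * (tau h w hw * tau h w hw) * tau h v hv) * tau h w hw := by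
          simp only [mul_assoc]
      _ = 1 := by rw [hww, mul_one, hvv, mul_one, hww]

end action

/-! ### Elements with `g - 1` of rank one are transvections -/

section rank

theorem zaux1 : ∀ p c q r : ZMod 2, p + c * q + (r + c * 0) = p → r = c * q := by decide

theorem zaux2 : ∀ c q : ZMod 2, 1 = c * q → q = 1 := by decide

theorem zaux3 : ∀ p q : ZMod 2, p + q + 1 = p → q = 1 := by decide

theorem zaux4 : ∀ p q : ZMod 2, 0 + p + q = 0 → p = q := by decide

theorem zaux5 {q : ZMod 2} : ∀ p : ZMod 2, p + q + 1 = p + q → False := by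
  revert q; decide

theorem zaux6 : ∀ p q : ZMod 2, p + p + q = 1 → q = 1 := by decide

theorem zaux7 : ∀ p q : ZMod 2, p + p + q = 0 → q = 0 := by decide

theorem zaux8 : ∀ p q : ZMod 2, p + q = 0 → p = q := by decide

variable {Q : (ι → ZMod 2) → ZMod 2} {B : (ι → ZMod 2) → (ι → ZMod 2) → ZMod 2}

theorem sub_one_mulVec (g : isometryGroup (ZMod 2) Q) (x : ι → ZMod 2) :
    (((g : GL ι (ZMod 2)) : Matrix ι ι (ZMod 2)) - 1) *ᵥ x = act g x - x := by
  rw [Matrix.sub_mulVec, Matrix.one_mulVec]; rfl

theorem rank_tau (h : IsNdForm Q B) (w : ι → ZMod 2) (hw : Q w = 1) :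
    (((tau h w hw : GL ι (ZMod 2)) : Matrix ι ι (ZMod 2)) - 1).rank = 1 := by
  rw [Matrix.rank]
  have : LinearMap.range
      ((((tau h w hw : GL ι (ZMod 2)) : Matrix ι ι (ZMod 2)) - 1).mulVecLin) =
      Submodule.span (ZMod 2) {w} := by
    apply le_antisymm
    · rintro _ ⟨x, rfl⟩
      rw [Matrix.mulVecLin_apply, sub_one_mulVec, act_tau, add_sub_cancel_left]
      exact Submodule.smul_mem _ _ (Submodule.mem_span_singleton_self w)
    · rw [Submodule.span_singleton_le_iff_mem]
      obtain ⟨y, hy⟩ := exists_B_eq_one h (ne_zero_of_Q h hw)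
      refine ⟨y, ?_⟩
      rw [Matrix.mulVecLin_apply, sub_one_mulVec, act_tau, add_sub_cancel_left, hy, one_smul]
  rw [this]
  exact finrank_span_singleton (ne_zero_of_Q h hw)

theorem eq_tau_of_rank (h : IsNdForm Q B) (g : isometryGroup (ZMod 2) Q)
    (hg : (((g : GL ι (ZMod 2)) : Matrix ι ι (ZMod 2)) - 1).rank = 1) :
    ∃ (w : ι → ZMod 2) (hw : Q w = 1), g = tau h w hw := by
  rw [Matrix.rank, finrank_eq_one_iff'] at hg
  obtain ⟨⟨w, hwmem⟩, hw0, hspan⟩ := hg
  have hw0' : w ≠ 0 := fun e => hw0 (Subtype.ext e)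
  have key : ∀ y, ∃ c : ZMod 2, act g y = y + c • w := by
    intro y
    obtain ⟨c, hc⟩ := hspan ⟨_, ⟨y, rfl⟩⟩
    refine ⟨c, ?_⟩
    have h1 := congrArg Subtype.val hc
    simp only [Submodule.coe_smul] at h1
    rw [h1, Matrix.mulVecLin_apply, sub_one_mulVec]
    abel
  obtain ⟨x0, hx0⟩ := hwmem
  rw [Matrix.mulVecLin_apply, sub_one_mulVec] at hx0
  have hx0' : act g x0 = x0 + w := by rw [← hx0]; abel
  have hrel : ∀ y c, act g y = y + c • w → B w y = c * B x0 w := by
    intro y c hy
    have h1 := B_act h g x0 y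
    rw [hx0', hy, h.hadd, B_add_right h, B_add_right h, B_smul_right h, B_smul_right h,
      B_self h] at h1
    exact zaux1 _ _ _ _ h1
  obtain ⟨y1, hy1⟩ := exists_B_eq_one h hw0'
  obtain ⟨c1, hc1⟩ := key y1
  have h2 := hrel y1 c1 hc1
  have hx0w : B x0 w = 1 := by
    rw [hy1] at h2
    exact zaux2 _ _ h2
  have hQw : Q w = 1 := by
    have h3 := Q_act g x0
    rw [hx0', h.hQ, hx0w] at h3
    exact zaux3 _ _ h3
  refine ⟨w, hQw, ?_⟩
  apply act_ext
  intro x
  obtain ⟨c, hc⟩ := key x
  rw [act_tau, hc, hrel x c hc, hx0w, mul_one]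

end rank

/-! ### Witt index bound, transitivity and generation -/

section generation

variable {Q : (ι → ZMod 2) → ZMod 2} {B : (ι → ZMod 2) → (ι → ZMod 2) → ZMod 2}

/-- In dimension at least 5, the space orthogonal to two vectors is not totally isotropic. -/
theorem exists_B_ne_zero (h : IsNdForm Q B) (hcard : 5 ≤ Fintype.card ι) (a b : ι → ZMod 2) :
    ∃ x y, B a x = 0 ∧ B b x = 0 ∧ B a y = 0 ∧ B b y = 0 ∧ B x y = 1 := by
  by_contra hcon
  set W : Submodule (ZMod 2) (ι → ZMod 2) := Submodule.span (ZMod 2) {a, b} with hW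
  have hmem : ∀ x, x ∈ (bil h).orthogonal W → B a x = 0 ∧ B b x = 0 := by
    intro x hx
    rw [LinearMap.BilinForm.mem_orthogonal_iff] at hx
    exact ⟨hx a (Submodule.subset_span (by simp)), hx b (Submodule.subset_span (by simp))⟩
  have hle : (bil h).orthogonal W ≤ (bil h).orthogonal ((bil h).orthogonal W) := by
    intro y hy
    rw [LinearMap.BilinForm.mem_orthogonal_iff]
    intro x hx
    show B x y = 0
    rcases z_cases (B x y) with h0 | h0
    · exact h0
    · exact absurd ⟨x, y, (hmem x hx).1, (hmem x hx).2, (hmem y hy).1, (hmem y hy).2, h0⟩ hcon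
  have h1 := Submodule.finrank_mono hle
  have h3 := LinearMap.BilinForm.finrank_orthogonal (bil_nondegenerate h) W
  have h4 := LinearMap.BilinForm.finrank_orthogonal (bil_nondegenerate h) ((bil h).orthogonal W)
  rw [Module.finrank_pi] at h3 h4
  have h1' : Module.finrank (ZMod 2) W ≤ Fintype.card ι := by
    have := Submodule.finrank_le W
    rwa [Module.finrank_pi] at this
  have h2 : Module.finrank (ZMod 2) W ≤ 2 := by
    have h3 := finrank_span_le_card (R := ZMod 2) ({a, b} : Set (ι → ZMod 2))
    refine h3.trans ?_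
    refine (Finset.card_le_card (t := {a, b}) ?_).trans (Finset.card_le_two)
    intro x hx
    simpa using hx
  omega

/-- In dimension at least 5, the space orthogonal to two vectors contains a non-singular
vector. -/
theorem exists_Q_eq_one (h : IsNdForm Q B) (hcard : 5 ≤ Fintype.card ι) (a b : ι → ZMod 2) :
    ∃ x, B a x = 0 ∧ B b x = 0 ∧ Q x = 1 := by
  obtain ⟨x, y, hax, hbx, hay, hby, hxy⟩ := exists_B_ne_zero h hcard a b
  rcases z_cases (Q x) with h0 | h0
  · rcases z_cases (Q y) with h1 | h1
    · refine ⟨x + y, ?_, ?_, ?_⟩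
      · rw [B_add_right h, hax, hay, add_zero]
      · rw [B_add_right h, hbx, hby, add_zero]
      · rw [h.hQ, h0, h1, hxy]; decide
    · exact ⟨y, hay, hby, h1⟩
  · exact ⟨x, hax, hbx, h0⟩

/-- Two non-singular vectors with `B v w = 1` are interchanged by a transvection. -/
theorem tau_swap (h : IsNdForm Q B) {v w : ι → ZMod 2} (hv : Q v = 1) (hw : Q w = 1)
    (hvw : B v w = 1) : ∃ g : isometryGroup (ZMod 2) Q, act g v = w := by
  have h1 : Q (v + w) = 1 := by rw [h.hQ, hv, hw, hvw]; decide
  refine ⟨tau h (v + w) h1, ?_⟩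
  rw [act_tau, h.hadd, B_self h, B_symm h w v, hvw, zero_add, one_smul, ← add_assoc, vadd_self,
    zero_add]

/-- The isometry group is transitive on the non-singular vectors (dimension at least 5). -/
theorem transitive (h : IsNdForm Q B) (hcard : 5 ≤ Fintype.card ι) {v w : ι → ZMod 2}
    (hv : Q v = 1) (hw : Q w = 1) : ∃ g : isometryGroup (ZMod 2) Q, act g v = w := by
  rcases z_cases (B v w) with hvw | hvw
  swap
  · exact tau_swap h hv hw hvw
  by_cases hne : v = w
  · exact ⟨1, by rw [act_one, hne]⟩
  -- find `u` with `B v u = B w u = 1` and `Q u = 1`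
  have hu0 : ∃ u, B v u = 1 ∧ B w u = 1 := by
    have hvw0 : v + w ≠ 0 := by
      intro hcon
      apply hne
      calc v = v + (w + w) := by rw [vadd_self, add_zero]
        _ = w := by rw [← add_assoc, hcon, zero_add]
    obtain ⟨x, hx⟩ := exists_B_eq_one h (ne_zero_of_Q h hv)
    obtain ⟨y, hy⟩ := exists_B_eq_one h (ne_zero_of_Q h hw)
    rcases z_cases (B w x) with h0 | h0
    · rcases z_cases (B v y) with h1 | h1
      · exact ⟨x + y, by rw [B_add_right h, hx, h1, add_zero],
          by rw [B_add_right h, h0, hy, zero_add]⟩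
      · exact ⟨y, h1, hy⟩
    · exact ⟨x, hx, h0⟩
  obtain ⟨u, hu1, hu2⟩ := hu0
  have hu : ∃ u, B v u = 1 ∧ B w u = 1 ∧ Q u = 1 := by
    rcases z_cases (Q u) with hq | hq
    swap
    · exact ⟨u, hu1, hu2, hq⟩
    obtain ⟨x, y, hax, hbx, hay, hby, hxy⟩ := exists_B_ne_zero h hcard v w
    -- one of `u + x`, `u + y`, `u + x + y` is non-singular
    by_contra hcon
    have key : ∀ z, B v z = 0 → B w z = 0 → Q z = B u z := by
      intro z hz1 hz2
      have h1 : Q (u + z) = 0 := by
        rcases z_cases (Q (u + z)) with h0 | h0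
        · exact h0
        · exact absurd ⟨u + z, by rw [B_add_right h, hu1, hz1, add_zero],
            by rw [B_add_right h, hu2, hz2, add_zero], h0⟩ hcon
      rw [h.hQ, hq] at h1
      exact zaux4 _ _ h1
    have h1 := key (x + y) (by rw [B_add_right h, hax, hay, add_zero])
      (by rw [B_add_right h, hbx, hby, add_zero])
    rw [h.hQ, B_add_right h, key x hax hbx, key y hay hby, hxy] at h1
    exact zaux5 _ h1
  obtain ⟨u, hu1, hu2, hu3⟩ := hu
  obtain ⟨g, hg⟩ := tau_swap h hv hu3 hu1
  obtain ⟨k, hk⟩ := tau_swap h hu3 hw (by rw [B_symm h]; exact hu2)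
  exact ⟨k * g, by rw [act_mul, hg, hk]⟩

/-- The subgroup generated by the transvections. -/
def T (h : IsNdForm Q B) : Subgroup (isometryGroup (ZMod 2) Q) :=
  Subgroup.closure {g | ∃ (w : ι → ZMod 2) (hw : Q w = 1), g = tau h w hw}

theorem tau_mem (h : IsNdForm Q B) {w : ι → ZMod 2} (hw : Q w = 1) : tau h w hw ∈ T h :=
  Subgroup.subset_closure ⟨w, hw, rfl⟩

/-- The Siegel transformation of two orthogonal singular vectors is a product of four
transvections (dimension at least 5). -/
theorem exists_siegel (h : IsNdForm Q B) (hcard : 5 ≤ Fintype.card ι) {a b : ι → ZMod 2}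
    (ha : Q a = 0) (hb : Q b = 0) (hab : B a b = 0) :
    ∃ t ∈ T h, ∀ x, act t x = x + B a x • b + B b x • a := by
  obtain ⟨w, haw, hbw, hw⟩ := exists_Q_eq_one h hcard a b
  have hwa : Q (w + a) = 1 := by rw [h.hQ, hw, ha, B_symm h, haw]; decide
  have hwb : Q (w + b) = 1 := by rw [h.hQ, hw, hb, B_symm h, hbw]; decide
  have hwab : Q (w + a + b) = 1 := by
    rw [h.hQ, hwa, hb, h.hadd, B_symm h w b, hbw, hab]; decide
  refine ⟨tau h w hw * tau h (w + a) hwa * (tau h (w + b) hwb * tau h (w + a + b) hwab),
    mul_mem (mul_mem (tau_mem h hw) (tau_mem h hwa)) (mul_mem (tau_mem h hwb) (tau_mem h hwab)),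
    ?_⟩
  intro x
  have hba : B b a = 0 := by rw [B_symm h, hab]
  have hwa' : B w a = 0 := by rw [B_symm h, haw]
  have hwb' : B w b = 0 := by rw [B_symm h, hbw]
  rw [act_mul, act_mul, act_mul, act_tau, act_tau, act_tau, act_tau]
  simp only [h.hadd, B_add_right h, B_smul_right h, B_self h, haw, hbw, hab, hba, hwa', hwb']
  rcases z_cases (B a x) with h0 | h0 <;> rcases z_cases (B b x) with h1 | h1 <;>
    rcases z_cases (B w x) with h2 | h2 <;> rw [h0, h1, h2] <;> ext i <;>
    simp only [Pi.add_apply, Pi.smul_apply, smul_eq_mul] <;>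
    generalize x i = p <;> generalize a i = q <;> generalize b i = r <;>
    generalize w i = s <;> revert p q r s <;> decide

/-- The key step: a non-trivial isometry can be multiplied by an element of `T` so that the
fixed space grows. -/
theorem step (h : IsNdForm Q B) (hcard : 5 ≤ Fintype.card ι) (g : isometryGroup (ZMod 2) Q)
    (hg : g ≠ 1) :
    ∃ t ∈ T h, (∀ x, act g x = x → act (t * g) x = x) ∧ ∃ u, act g u ≠ u ∧ act (t * g) u = u := by
  by_cases hcase : ∃ u, Q (act g u + u) = 1
  · obtain ⟨u, hu⟩ := hcase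
    have hBu : B (act g u) u = 1 := by
      rw [h.hQ, Q_act g u] at hu
      exact zaux6 _ _ hu
    refine ⟨tau h _ hu, tau_mem h hu, ?_, u, ?_, ?_⟩
    · intro x hx
      rw [act_mul, hx, act_tau, h.hadd]
      have : B (act g u) x = B u x := by
        conv_lhs => rw [← hx]
        exact B_act h g u x
      rw [this, zadd_self, zero_smul, add_zero]
    · intro hcon
      rw [hcon, vadd_self, Q_zero h] at hu
      exact zero_ne_one hu
    · rw [act_mul, act_tau, h.hadd, B_self h, zero_add, B_symm h, hBu, one_smul, ← add_assoc,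
        vadd_self, zero_add]
  · have hQ0 : ∀ u, Q (act g u + u) = 0 := by
      intro u
      rcases z_cases (Q (act g u + u)) with h0 | h0
      · exact h0
      · exact absurd ⟨u, h0⟩ hcase
    have hB0 : ∀ u, B (act g u) u = 0 := by
      intro u
      have := hQ0 u
      rw [h.hQ, Q_act g u] at this
      exact zaux7 _ _ this
    have hsym : ∀ u v, B (act g u) v = B u (act g v) := by
      intro u v
      have := hB0 (u + v)
      rw [act_add, h.hadd, B_add_right h, B_add_right h, hB0, hB0, zero_add, add_zero,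
        B_symm h (act g v)] at this
      exact zaux8 _ _ this
    -- choose `u`, `v` with `B (g u + u) v = 1`
    have hex : ∃ u, act g u ≠ u := by
      by_contra hcon
      push Not at hcon
      apply hg
      apply act_ext
      intro x
      rw [act_one, hcon]
    obtain ⟨u, hu⟩ := hex
    have hNu : act g u + u ≠ 0 := by
      intro hcon
      apply hu
      calc act g u = act g u + (u + u) := by rw [vadd_self, add_zero]
        _ = u := by rw [← add_assoc, hcon, zero_add]
    obtain ⟨v, hv⟩ := exists_B_eq_one h hNu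
    have hab : B (act g u + u) (act g v + v) = 0 := by
      rw [h.hadd, B_add_right h, B_add_right h, B_act h, hsym]
      generalize B u v = p
      generalize B u (act g v) = q
      revert p q
      decide
    obtain ⟨t, htmem, ht⟩ := exists_siegel h hcard (hQ0 u) (hQ0 v) hab
    have hfix : ∀ x y, act g x = x → B (act g y + y) x = 0 := by
      intro x y hx
      rw [h.hadd]
      have : B (act g y) x = B y x := by
        conv_lhs => rw [← hx]
        exact B_act h g y x
      rw [this, zadd_self]
    refine ⟨t, htmem, ?_, u, hu, ?_⟩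
    · intro x hx
      rw [act_mul, hx, ht, hfix x u hx, hfix x v hx, zero_smul, zero_smul, add_zero, add_zero]
    · rw [act_mul, ht]
      have e1 : B (act g u + u) (act g u) = 0 := by
        rw [h.hadd, B_self h, B_symm h, hB0, add_zero]
      have e2 : B (act g v + v) (act g u) = 1 := by
        rw [h.hadd, B_act h, B_symm h v u, B_symm h v (act g u)]
        rw [h.hadd] at hv
        rw [add_comm]
        exact hv
      rw [e1, e2, zero_smul, add_zero, one_smul, ← add_assoc, vadd_self, zero_add]

theorem T_eq_top (h : IsNdForm Q B) (hcard : 5 ≤ Fintype.card ι) : T h = ⊤ := by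
  classical
  rw [Subgroup.eq_top_iff']
  intro g
  induction hn : (Finset.univ.filter (fun x => act g x ≠ x)).card using Nat.strong_induction_on
    generalizing g with
  | _ n ih =>
    by_cases hg : g = 1
    · rw [hg]; exact one_mem _
    obtain ⟨t, ht, hfix, u, hu1, hu2⟩ := step h hcard g hg
    have hlt : (Finset.univ.filter (fun x => act (t * g) x ≠ x)).card < n := by
      rw [← hn]
      apply Finset.card_lt_card
      rw [Finset.ssubset_iff_of_subset]
      · exact ⟨u, by simpa using hu1, by simpa using hu2⟩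
      · intro x hx
        simp only [Finset.mem_filter, Finset.mem_univ, true_and] at hx ⊢
        exact fun hx' => hx (hfix x hx')
    have h1 := ih _ hlt (t * g) rfl
    have h2 : g = t⁻¹ * (t * g) := by group
    rw [h2]
    exact mul_mem (inv_mem ht) h1

/-- The set of transvections is the set of isometries `g` with `g - 1` of rank one. -/
theorem set_eq (h : IsNdForm Q B) :
    {g : isometryGroup (ZMod 2) Q |
      (((g : GL ι (ZMod 2)) : Matrix ι ι (ZMod 2)) - 1).rank = 1} =
    {g | ∃ (w : ι → ZMod 2) (hw : Q w = 1), g = tau h w hw} := by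
  ext g
  constructor
  · intro hg
    exact eq_tau_of_rank h g hg
  · rintro ⟨w, hw, rfl⟩
    exact rank_tau h w hw

/-- Over the field with two elements, in dimension at least 5 (hence at least 6), the elements
`g` with `g - 1` of rank one in the isometry group of a quadratic form with non-degenerate polar
form are a generating conjugacy class of 3-transpositions. -/
theorem isThreeTranspositionClass (h : IsNdForm Q B) (hcard : 5 ≤ Fintype.card ι) :
    IsThreeTranspositionClass {g : isometryGroup (ZMod 2) Q |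
      (((g : GL ι (ZMod 2)) : Matrix ι ι (ZMod 2)) - 1).rank = 1} := by
  rw [set_eq h]
  refine ⟨⟨?_, ?_⟩, ?_, T_eq_top h hcard⟩
  · rintro _ ⟨w, hw, rfl⟩
    exact orderOf_tau h w hw
  · rintro _ ⟨v, hv, rfl⟩ _ ⟨w, hw, rfl⟩
    exact three h v w hv hw
  · obtain ⟨w, -, -, hw⟩ := exists_Q_eq_one h hcard 0 0
    refine ⟨tau h w hw, ⟨w, hw, rfl⟩, ?_⟩
    ext g
    show _ ↔ IsConj _ _
    rw [isConj_iff]
    constructor
    · rintro ⟨v, hv, rfl⟩
      obtain ⟨k, hk⟩ := transitive h hcard hw hv
      refine ⟨k, ?_⟩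
      rw [conj_tau]
      exact tau_congr h _ _ hk
    · rintro ⟨k, rfl⟩
      rw [conj_tau]
      exact ⟨_, _, rfl⟩

end generation

end Cfsg.Agent.SporadicStructure.OrthTransTwo
end

-- part: S1629
section
set_option autoImplicit false
open scoped MatrixGroups
open Cfsg

namespace Cfsg.Agent.S1629

open Cfsg.Agent.SporadicStructure.OrthTransTwo

/-- The polar form of the plus-type form. -/
def polarPlus (m : ℕ) (x y : Fin m ⊕ Fin m → ZMod 2) : ZMod 2 :=
  ∑ i : Fin m, (x (.inl i) * y (.inr i) + y (.inl i) * x (.inr i))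

theorem isNdForm_plus (m : ℕ) : IsNdForm (quadFormPlus m (ZMod 2)) (polarPlus m) := by
  refine ⟨?_, ?_, ?_⟩
  · intro x y
    unfold quadFormPlus polarPlus
    rw [← Finset.sum_add_distrib, ← Finset.sum_add_distrib]
    apply Finset.sum_congr rfl
    intro i _
    simp only [Pi.add_apply]
    ring
  · intro x y z
    unfold polarPlus
    rw [← Finset.sum_add_distrib]
    apply Finset.sum_congr rfl
    intro i _
    simp only [Pi.add_apply]
    ring
  · intro x hx
    ext j
    rcases j with i | i
    · have := hx (Pi.single (.inr i) 1)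
      unfold polarPlus at this
      rw [Finset.sum_eq_single i] at this
      · simpa using this
      · intro j _ hj
        simp [hj]
      · simp
    · have := hx (Pi.single (.inl i) 1)
      unfold polarPlus at this
      rw [Finset.sum_eq_single i] at this
      · simpa using this
      · intro j _ hj
        simp [hj]
      · simp

/-- The orthogonal transvections of the plus-type orthogonal group in dimension 2m ≥ 6 over the field with two elements form a generating conjugacy class of 3-transpositions. -/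
theorem result (m : ℕ) (hm : 3 ≤ m) : Cfsg.IsThreeTranspositionClass {g : ↥(Cfsg.isometryGroup (ZMod 2) (Cfsg.quadFormPlus m (ZMod 2))) | (((g : GL (Fin m ⊕ Fin m) (ZMod 2)) : Matrix (Fin m ⊕ Fin m) (Fin m ⊕ Fin m) (ZMod 2)) - 1).rank = 1} := by
  apply isThreeTranspositionClass (isNdForm_plus m)
  rw [Fintype.card_sum, Fintype.card_fin]
  omega

end Cfsg.Agent.S1629
end
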