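import Mathlib
import Cfsg.Prelude.Def_Sporadic_a
import Cfsg.Agent.SporadicA.M24Mem
import Cfsg.Statements.S1643
import Cfsg.Agent.S0364
import Cfsg.Agent.S0370
import Cfsg.Agent.S0371
import Cfsg.Agent.S0372
import Cfsg.Agent.S0376
set_option linter.all false

-- part: SporadicStructure/Affine23
section
/-!
Affine maps `x ↦ u x + b` of the residues modulo 23 as permutations of the 24 points, the group
`23:11` of those with `u` a square, and parity checks for the group `M24` of the length-24 code.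
-/

set_option autoImplicit false

namespace Cfsg.Agent.SporadicStructure.Affine23

open Cfsg

/-- the function `x ↦ a x + b` on the 24 points, fixing the extra point -/
def affFun (a b : ZMod 23) : GolayPt → GolayPt
  | none => none
  | some x => some (a * x + b)

/-- the permutation `x ↦ u x + b` of the 24 points, fixing the extra point -/
def aff (u : (ZMod 23)ˣ) (b : ZMod 23) : Equiv.Perm GolayPt where
  toFun := affFun u b
  invFun := affFun (u⁻¹ : (ZMod 23)ˣ) (-((u⁻¹ : (ZMod 23)ˣ) * b))
  left_inv := by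
    rintro (_ | x)
    · rfl
    · simp only [affFun, mul_add, Units.inv_mul_cancel_left]
      congr 1
      ring
  right_inv := by
    rintro (_ | x)
    · rfl
    · simp only [affFun, mul_add, mul_neg, Units.mul_inv_cancel_left]
      congr 1
      ring

theorem aff_none (u : (ZMod 23)ˣ) (b : ZMod 23) : aff u b none = none := rfl

theorem aff_some (u : (ZMod 23)ˣ) (b x : ZMod 23) : aff u b (some x) = some (u * x + b) := rfl

theorem aff_apply (u : (ZMod 23)ˣ) (b : ZMod 23) (p : GolayPt) : aff u b p = affFun u b p := rfl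

theorem aff_mul (u v : (ZMod 23)ˣ) (b c : ZMod 23) :
    aff u b * aff v c = aff (u * v) (u * c + b) := by
  apply Equiv.ext
  rintro (_ | x)
  · rfl
  · show some ((u : ZMod 23) * (v * x + c) + b) = some (((u * v : (ZMod 23)ˣ) : ZMod 23) * x + (u * c + b))
    congr 1
    rw [Units.val_mul]
    ring

theorem aff_one_zero : aff 1 0 = 1 := by
  apply Equiv.ext
  rintro (_ | x)
  · rfl
  · show some (((1 : (ZMod 23)ˣ) : ZMod 23) * x + 0) = some x
    simp

theorem aff_inv (u : (ZMod 23)ˣ) (b : ZMod 23) :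
    (aff u b)⁻¹ = aff u⁻¹ (-((u⁻¹ : (ZMod 23)ˣ) * b)) := by
  rw [inv_eq_iff_mul_eq_one, aff_mul, mul_inv_cancel, ← aff_one_zero]
  congr 1
  rw [mul_neg, Units.mul_inv_cancel_left]
  ring

theorem optionCongr_addRight : Equiv.optionCongr (Equiv.addRight (1 : ZMod 23)) = aff 1 1 := by
  apply Equiv.ext
  rintro (_ | x)
  · rfl
  · show some (x + 1) = some (((1 : (ZMod 23)ˣ) : ZMod 23) * x + 1)
    simp

theorem optionCongr_mulLeft (u : (ZMod 23)ˣ) : Equiv.optionCongr (Units.mulLeft u) = aff u 0 := by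
  apply Equiv.ext
  rintro (_ | x)
  · rfl
  · show some ((u : ZMod 23) * x) = some ((u : ZMod 23) * x + 0)
    simp

theorem aff_injective {u v : (ZMod 23)ˣ} {b c : ZMod 23} (h : aff u b = aff v c) :
    u = v ∧ b = c := by
  have h0 : aff u b (some 0) = aff v c (some 0) := by rw [h]
  have h1 : aff u b (some 1) = aff v c (some 1) := by rw [h]
  rw [aff_some, aff_some, Option.some.injEq] at h0 h1
  rw [mul_zero, mul_zero, zero_add, zero_add] at h0
  subst h0
  refine ⟨Units.ext ?_, rfl⟩
  simpa using h1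

theorem aff_one_pow (b : ZMod 23) (n : ℕ) : (aff 1 b) ^ n = aff 1 (n * b) := by
  induction n with
  | zero => simp [aff_one_zero]
  | succ n ih =>
    rw [pow_succ, ih, aff_mul, mul_one, Units.val_one, one_mul]
    congr 1
    push_cast
    ring

/-- `23:11`, the affine maps with square multiplier -/
def K : Subgroup (Equiv.Perm GolayPt) where
  carrier := {g | ∃ (u : (ZMod 23)ˣ) (b : ZMod 23), IsSquare u ∧ g = aff u b}
  one_mem' := ⟨1, 0, ⟨1, by simp⟩, aff_one_zero.symm⟩
  mul_mem' := by
    rintro _ _ ⟨u, b, hu, rfl⟩ ⟨v, c, hv, rfl⟩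
    exact ⟨u * v, _, hu.mul hv, aff_mul _ _ _ _⟩
  inv_mem' := by
    rintro _ ⟨u, b, hu, rfl⟩
    exact ⟨u⁻¹, _, hu.inv, aff_inv _ _⟩

theorem mem_K {g : Equiv.Perm GolayPt} :
    g ∈ K ↔ ∃ (u : (ZMod 23)ˣ) (b : ZMod 23), IsSquare u ∧ g = aff u b := Iff.rfl

theorem closure_eq_K : Subgroup.closure ({Equiv.optionCongr (Equiv.addRight (1 : ZMod 23))} ∪
    {g : Equiv.Perm Cfsg.GolayPt | ∃ u : (ZMod 23)ˣ, IsSquare u ∧
      g = Equiv.optionCongr (Units.mulLeft u)}) = K := by
  apply le_antisymm
  · rw [Subgroup.closure_le]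
    rintro g (hg | ⟨u, hu, rfl⟩)
    · rw [Set.mem_singleton_iff] at hg
      subst hg
      exact ⟨1, 1, ⟨1, by simp⟩, optionCongr_addRight⟩
    · exact ⟨u, 0, hu, optionCongr_mulLeft u⟩
  · rintro g ⟨u, b, hu, rfl⟩
    have h1 : aff 1 b = aff 1 1 ^ b.val := by
      rw [aff_one_pow, mul_one, ZMod.natCast_zmod_val]
    have h2 : aff u b = aff 1 1 ^ b.val * aff u 0 := by
      rw [← h1, aff_mul, one_mul]
      simp
    rw [h2]
    apply Subgroup.mul_mem
    · apply Subgroup.pow_mem
      apply Subgroup.subset_closure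
      left
      rw [Set.mem_singleton_iff, optionCongr_addRight]
    · apply Subgroup.subset_closure
      right
      exact ⟨u, hu, (optionCongr_mulLeft u).symm⟩

theorem card_squares : Nat.card {u : (ZMod 23)ˣ // IsSquare u} = 11 := by
  rw [Nat.card_eq_fintype_card]
  decide +kernel

theorem card_K : Nat.card K = 253 := by
  have e : {u : (ZMod 23)ˣ // IsSquare u} × ZMod 23 ≃ K := Equiv.ofBijective
    (fun p => ⟨aff p.1.1 p.2, p.1.1, p.2, p.1.2, rfl⟩) (by
      constructor
      · rintro ⟨⟨u, hu⟩, b⟩ ⟨⟨v, hv⟩, c⟩ h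
        have h' := aff_injective (congrArg Subtype.val h)
        simp only [Prod.mk.injEq, Subtype.mk.injEq]
        exact h'
      · rintro ⟨g, u, b, hu, rfl⟩
        exact ⟨⟨⟨u, hu⟩, b⟩, rfl⟩)
  rw [← Nat.card_congr e, Nat.card_prod, card_squares, Nat.card_zmod]

end Cfsg.Agent.SporadicStructure.Affine23
end

-- part: SporadicStructure/QRParity
section
/-!
Self-orthogonality of the length-24 code and parity checks for elements of `M24`; the
centraliser of `x ↦ 2x` and the normaliser of `⟨x ↦ x + 1⟩` in the stabiliser of the extra point.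
-/

set_option autoImplicit false

namespace Cfsg.Agent.SporadicStructure.QRParity

open Cfsg
open Cfsg.Agent.SporadicA.M24Mem
open Cfsg.Agent.SporadicStructure.Affine23

/-- squares modulo 23 (zero included), by a bit mask -/
def sqb (x : ZMod 23) : Bool := Nat.testBit 340831 x.val

theorem sqb_iff : ∀ x : ZMod 23, (∃ r : ZMod 23, x = r ^ 2) ↔ sqb x = true := by
  decide +kernel

theorem sqb_iff' (x t : ZMod 23) : (∃ r : ZMod 23, x = r ^ 2 + t) ↔ sqb (x - t) = true := by
  rw [← sqb_iff]
  constructor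
  · rintro ⟨r, hr⟩
    exact ⟨r, by rw [hr]; ring⟩
  · rintro ⟨r, hr⟩
    exact ⟨r, by rw [← hr]; ring⟩

theorem qrWord_some_sqb (t x : ZMod 23) : qrWord t (some x) = if sqb (x - t) = true then 1 else 0 := by
  rw [qrWord_some]
  congr 1
  exact propext (sqb_iff' x t)

/-- parity of the overlap of the translate by `s` of the squares with the preimage under `h` of
the translate by `t` of the squares -/
def par (h : ZMod 23 → ZMod 23) (s t : ZMod 23) : Bool :=
  (List.finRange 23).foldr (fun i acc => xor (sqb ((i : ZMod 23) - s) && sqb (h i - t)) acc) false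

theorem par_eq (h : ZMod 23 → ZMod 23) (s t : ZMod 23) :
    (if par h s t = true then (1 : ZMod 2) else 0) =
      ∑ x : ZMod 23, qrWord s (some x) * qrWord t (some (h x)) := by
  have key : ∀ l : List (ZMod 23),
      (if (l.foldr (fun i acc => xor (sqb (i - s) && sqb (h i - t)) acc) false) = true
        then (1 : ZMod 2) else 0) =
      (l.map fun x => qrWord s (some x) * qrWord t (some (h x))).sum := by
    intro l
    induction l with
    | nil => simp
    | cons a l ih =>
      rw [List.foldr_cons, List.map_cons, List.sum_cons, ← ih, qrWord_some_sqb, qrWord_some_sqb]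
      cases sqb (a - s) <;> cases sqb (h a - t) <;>
        cases (l.foldr (fun i acc => xor (sqb (i - s) && sqb (h i - t)) acc) false) <;> decide
  have h2 := key (List.finRange 23)
  rw [show par h s t = (List.finRange 23).foldr
    (fun i acc => xor (sqb ((i : ZMod 23) - s) && sqb (h i - t)) acc) false from rfl]
  rw [h2]
  exact (Fin.sum_univ_def (n := 23) (fun x : Fin 23 => qrWord s (some (x : ZMod 23)) * qrWord t (some (h x)))).symm

/-- the length-24 code is self-orthogonal -/
theorem golay_orth {v w : GolayPt → ZMod 2} (hv : v ∈ golayCode) (hw : w ∈ golayCode) :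
    ∑ p, v p * w p = 0 := by
  have base : ∀ a ∈ (Set.range qrWord ∪ {1} : Set (GolayPt → ZMod 2)),
      ∀ b ∈ (Set.range qrWord ∪ {1} : Set (GolayPt → ZMod 2)), ∑ p, a p * b p = 0 := by
    have h1 : ∀ s t : ZMod 23, par id s t = false := by decide +kernel
    have h2 : ∀ s t : ZMod 23, ∑ p, qrWord s p * qrWord t p = 0 := by
      intro s t
      have := par_eq id s t
      rw [h1 s t] at this
      rw [Fintype.sum_option, qrWord_none, zero_mul, zero_add]
      simpa using this.symm
    have h3 : ∀ s : ZMod 23, ∑ p, qrWord s p = 0 := by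
      intro s
      rw [← h2 s s]
      apply Finset.sum_congr rfl
      intro p _
      generalize qrWord s p = a
      revert a
      decide
    rintro a (⟨s, rfl⟩ | rfl) b (⟨t, rfl⟩ | rfl)
    · exact h2 s t
    · simpa using h3 s
    · simpa using h3 t
    · simp only [Pi.one_apply, mul_one, Finset.sum_const, Finset.card_univ]
      decide +kernel
  have step1 : ∀ a ∈ (Set.range qrWord ∪ {1} : Set (GolayPt → ZMod 2)), ∑ p, a p * w p = 0 := by
    intro a ha
    have hw' : w ∈ Submodule.span (ZMod 2) (Set.range qrWord ∪ {1}) := hw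
    induction hw' using Submodule.span_induction with
    | mem x hx => exact base a ha x hx
    | zero => simp
    | add x y _ _ hx hy =>
      simp only [Pi.add_apply, mul_add, Finset.sum_add_distrib]
      rw [hx ‹_›, hy ‹_›, add_zero]
    | smul c x _ hx =>
      simp only [Pi.smul_apply, smul_eq_mul]
      rw [← mul_zero c, ← hx ‹_›, Finset.mul_sum]
      exact Finset.sum_congr rfl fun p _ => by ring
  have hv' : v ∈ Submodule.span (ZMod 2) (Set.range qrWord ∪ {1}) := hv
  induction hv' using Submodule.span_induction with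
  | mem x hx => exact step1 x hx
  | zero => simp
  | add x y _ _ hx hy =>
    simp only [Pi.add_apply, add_mul, Finset.sum_add_distrib]
    rw [hx ‹_›, hy ‹_›, add_zero]
  | smul c x _ hx =>
    simp only [Pi.smul_apply, smul_eq_mul]
    rw [← mul_zero c, ← hx ‹_›, Finset.mul_sum]
    exact Finset.sum_congr rfl fun p _ => by ring

/-- parity check for elements of `M24` fixing the extra point -/
theorem par_of_mem_M24 {g : Equiv.Perm GolayPt} (hg : g ∈ M24) {h : ZMod 23 → ZMod 23}
    (hh : ∀ x, g (some x) = some (h x)) (s t : ZMod 23) : par h s t = false := by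
  have h1 : qrWord t ∘ g ∈ golayCode := (mem_M24_iff' g).1 hg _ (qrWord_mem_golayCode t)
  have h2 := golay_orth (qrWord_mem_golayCode s) h1
  rw [Fintype.sum_option, qrWord_none, zero_mul, zero_add] at h2
  have h3 := par_eq h s t
  simp only [Function.comp_apply, hh] at h2
  rw [h2] at h3
  by_contra hne
  rw [Bool.not_eq_false] at hne
  rw [hne] at h3
  exact absurd h3 (by decide)

end Cfsg.Agent.SporadicStructure.QRParity
end

-- part: SporadicStructure/QRNormalizer
section
/-!
The centraliser of `x ↦ 2x` and the normaliser of `⟨x ↦ x + 1⟩` in the stabiliser of the extra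
point in `M24`.
-/

set_option autoImplicit false

namespace Cfsg.Agent.SporadicStructure.QRNormalizer

open Cfsg
open Cfsg.Agent.SporadicA.M24Mem
open Cfsg.Agent.SporadicStructure.Affine23
open Cfsg.Agent.SporadicStructure.QRParity

theorem fact_prime23 : Fact (Nat.Prime 23) := ⟨by norm_num⟩

attribute [local instance] fact_prime23

/-- the unit 2 modulo 23 -/
def u2 : (ZMod 23)ˣ := ⟨2, 12, by decide, by decide⟩

theorem isSquare_u2 : IsSquare u2 := ⟨⟨5, 14, by decide, by decide⟩, by decide⟩

theorem u2_pow_eleven : u2 ^ 11 = 1 := by decide +kernel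

theorem orderOf_u2 : orderOf u2 = 11 := by
  have : Fact (Nat.Prime 11) := ⟨by norm_num⟩
  apply orderOf_eq_prime u2_pow_eleven
  decide

theorem aff_zero_pow (u : (ZMod 23)ˣ) (n : ℕ) : (aff u 0) ^ n = aff (u ^ n) 0 := by
  induction n with
  | zero => simp [aff_one_zero]
  | succ n ih => rw [pow_succ, ih, aff_mul, pow_succ, mul_zero, zero_add]

theorem orderOf_aff_u2 : orderOf (aff u2 0) = 11 := by
  have : Fact (Nat.Prime 11) := ⟨by norm_num⟩
  apply orderOf_eq_prime
  · rw [aff_zero_pow, u2_pow_eleven, aff_one_zero]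
  · intro h
    rw [← aff_one_zero] at h
    exact absurd (aff_injective h).1 (by decide)

theorem orderOf_aff_one_one : orderOf (aff 1 1) = 23 := by
  apply orderOf_eq_prime
  · rw [aff_one_pow, ← aff_one_zero]
    congr 1
  · intro h
    rw [← aff_one_zero] at h
    exact absurd (aff_injective h).2 (by decide)

/-- every square unit is a power of 2 -/
theorem exists_pow_u2 : ∀ u : (ZMod 23)ˣ, IsSquare u → ∃ n : Fin 11, u = u2 ^ (n : ℕ) := by
  decide +kernel

/-- the candidates for elements commuting with `x ↦ 2x` -/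
def hc (a b x : ZMod 23) : ZMod 23 := if sqb x = true then x * a else -x * b

theorem hc_check : ∀ a b : ZMod 23, a ≠ 0 → b ≠ 0 →
    (b = -a ∧ sqb a = true) ∨ par (hc a b) 0 0 = true ∨
      ∃ i : Fin 8, par (hc a b) 1 ((i : ℕ) : ZMod 23) = true := by
  decide +kernel

theorem sqb_of_pow : ∀ i : Fin 11, sqb (((u2 ^ (i : ℕ) : (ZMod 23)ˣ) : ZMod 23)) = true := by
  decide +kernel

theorem cases_pow : ∀ x : ZMod 23, x = 0 ∨ ∃ i : Fin 11,
    (x = ((u2 ^ (i : ℕ) : (ZMod 23)ˣ) : ZMod 23) ∧ sqb x = true) ∨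
    (x = -((u2 ^ (i : ℕ) : (ZMod 23)ˣ) : ZMod 23) ∧ sqb x = false) := by
  decide +kernel

theorem isSquare_of_sqb : ∀ u : (ZMod 23)ˣ, sqb u = true → IsSquare u := by
  decide +kernel

theorem isSquare_or_neg : ∀ u : (ZMod 23)ˣ, IsSquare u ∨ IsSquare (-u) := by
  decide +kernel

/-- an element of `M24` fixing the extra point and commuting with `x ↦ 2x` is `x ↦ a x`, `a` a
square -/
theorem eq_aff_of_commute {g : Equiv.Perm GolayPt} (hg : g ∈ M24) (h0 : g none = none)
    (hc' : g * aff u2 0 = aff u2 0 * g) : ∃ a : (ZMod 23)ˣ, IsSquare a ∧ g = aff a 0 := by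
  -- values on residues
  have hsome : ∀ x : ZMod 23, ∃ y : ZMod 23, g (some x) = some y := by
    intro x
    rcases hy : g (some x) with _ | y
    · rw [← h0] at hy
      exact absurd (g.injective hy) (by simp)
    · exact ⟨y, rfl⟩
  choose h hh using hsome
  have hcomm : ∀ x : ZMod 23, h (2 * x) = 2 * h x := by
    intro x
    have h1 : (g * aff u2 0) (some x) = (aff u2 0 * g) (some x) := by rw [hc']
    rw [Equiv.Perm.mul_apply, Equiv.Perm.mul_apply, aff_some, hh, hh, aff_some, add_zero, add_zero]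
      at h1
    exact Option.some.inj h1
  have hinj : Function.Injective h := by
    intro x y hxy
    have : g (some x) = g (some y) := by rw [hh, hh, hxy]
    exact Option.some.inj (g.injective this)
  have hzero : h 0 = 0 := by
    have := hcomm 0
    rw [mul_zero] at this
    have h2 : h 0 * 1 = 0 := by linear_combination -this
    simpa using h2
  have hpow : ∀ (n : ℕ) (x : ZMod 23), h (((u2 ^ n : (ZMod 23)ˣ) : ZMod 23) * x) =
      ((u2 ^ n : (ZMod 23)ˣ) : ZMod 23) * h x := by
    intro n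
    induction n with
    | zero => intro x; simp
    | succ n ih =>
      intro x
      rw [pow_succ, Units.val_mul, mul_assoc, ih, mul_assoc]
      congr 1
      exact hcomm x
  have ha : h 1 ≠ 0 := by
    intro h1
    rw [← hzero] at h1
    exact absurd (hinj h1) (by decide)
  have hb : h (-1) ≠ 0 := by
    intro h1
    rw [← hzero] at h1
    exact absurd (hinj h1) (by decide)
  have heq : h = hc (h 1) (h (-1)) := by
    funext x
    rcases cases_pow x with rfl | ⟨i, ⟨hx, hs⟩ | ⟨hx, hs⟩⟩
    · rw [hzero]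
      simp [hc]
    · rw [hc, if_pos hs]
      have := hpow i 1
      rw [mul_one] at this
      rw [hx, this]
    · have hs' : ¬ sqb x = true := by rw [hs]; decide
      rw [hc, if_neg hs']
      have := hpow i (-1)
      rw [mul_neg_one] at this
      rw [hx, this, neg_neg]
  have hpar : ∀ s t, par (hc (h 1) (h (-1))) s t = false := by
    intro s t
    rw [← heq]
    exact par_of_mem_M24 hg hh s t
  rcases hc_check (h 1) (h (-1)) ha hb with ⟨h1, h2⟩ | h1 | ⟨i, h1⟩
  · refine ⟨Units.mk0 (h 1) ha, isSquare_of_sqb _ h2, ?_⟩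
    apply Equiv.ext
    rintro (_ | x)
    · rw [h0]; rfl
    · rw [hh, aff_some, add_zero, Units.val_mk0]
      congr 1
      rw [heq]
      unfold hc
      have hs1 : sqb 1 = true := by decide
      rw [if_pos hs1, h1]
      split_ifs <;> ring
  · rw [hpar] at h1
    exact absurd h1 (by decide)
  · rw [hpar] at h1
    exact absurd h1 (by decide)

theorem aff_mem_M24 {u : (ZMod 23)ˣ} (hu : IsSquare u) (b : ZMod 23) (hK : K ≤ M24) :
    aff u b ∈ M24 := hK ⟨u, b, hu, rfl⟩

theorem neg_par : par (fun x => -x) 0 0 = true := by decide +kernel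

/-- an element of `M24` fixing the extra point and normalising `⟨x ↦ x + 1⟩` is in `23:11` -/
theorem mem_K_of_normalize {g : Equiv.Perm GolayPt} (hg : g ∈ M24) (h0 : g none = none)
    (hK : K ≤ M24) (n : ℕ) (hn : g * aff 1 1 = (aff 1 1) ^ n * g) : g ∈ K := by
  have hsome : ∀ x : ZMod 23, ∃ y : ZMod 23, g (some x) = some y := by
    intro x
    rcases hy : g (some x) with _ | y
    · rw [← h0] at hy
      exact absurd (g.injective hy) (by simp)
    · exact ⟨y, rfl⟩
  choose h hh using hsome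
  have hstep : ∀ x : ZMod 23, h (x + 1) = h x + n := by
    intro x
    have h1 : (g * aff 1 1) (some x) = (aff 1 1 ^ n * g) (some x) := by rw [hn]
    rw [Equiv.Perm.mul_apply, Equiv.Perm.mul_apply, aff_some, aff_one_pow, hh, hh, aff_some] at h1
    have := Option.some.inj h1
    rw [Units.val_one, one_mul, one_mul, mul_one] at this
    exact this
  have hnat : ∀ m : ℕ, h (m : ZMod 23) = n * m + h 0 := by
    intro m
    induction m with
    | zero => simp
    | succ m ih =>
      rw [Nat.cast_succ, hstep, ih]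
      ring
  have hall : ∀ x : ZMod 23, h x = n * x + h 0 := by
    intro x
    have := hnat x.val
    rw [ZMod.natCast_zmod_val] at this
    exact this
  have hn0 : (n : ZMod 23) ≠ 0 := by
    intro h1
    have h2 : h 1 = h 0 := by rw [hall 1, h1, zero_mul, zero_add]
    have h3 : g (some 1) = g (some 0) := by rw [hh, hh, h2]
    exact absurd (Option.some.inj (g.injective h3)) (by decide)
  have hgaff : g = aff (Units.mk0 (n : ZMod 23) hn0) (h 0) := by
    apply Equiv.ext
    rintro (_ | x)
    · rw [h0]; rfl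
    · rw [hh, aff_some, Units.val_mk0, hall]
  rcases isSquare_or_neg (Units.mk0 (n : ZMod 23) hn0) with hs | hs
  · exact ⟨_, _, hs, hgaff⟩
  · exfalso
    set u := Units.mk0 (n : ZMod 23) hn0 with hu
    have h1 : (aff (-u) (h 0))⁻¹ * g ∈ M24 :=
      M24.mul_mem (M24.inv_mem (aff_mem_M24 hs _ hK)) hg
    rw [hgaff, aff_inv, aff_mul] at h1
    have h2 : (-u)⁻¹ * u = -1 := by rw [inv_neg, neg_mul, inv_mul_cancel]
    rw [h2] at h1
    have h3 : ((-u)⁻¹ : (ZMod 23)ˣ) * h 0 + -(((-u)⁻¹ : (ZMod 23)ˣ) * h 0) = 0 := by ring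
    rw [h3] at h1
    have h4 := par_of_mem_M24 h1 (h := fun x => -x) (by
      intro x
      rw [aff_some, add_zero]
      simp) 0 0
    rw [neg_par] at h4
    exact absurd h4 (by decide)

end Cfsg.Agent.SporadicStructure.QRNormalizer
end

-- part: SporadicStructure/Psl223
section
/-!
The group of order 6072 generated by `x ↦ x + 1`, `x ↦ u x` (`u` a square), `x ↦ -1/x`:
Bruhat decomposition and order.
-/

set_option autoImplicit false

namespace Cfsg.Agent.SporadicStructure.Psl223

open Cfsg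
open Cfsg.Agent.SporadicStructure.Affine23
open Cfsg.Agent.SporadicStructure.QRNormalizer

attribute [local instance] fact_prime23

theorem projInv_apply (p : GolayPt) : projInv p = projInvFun p := rfl

theorem projInv_mul_self : projInv * projInv = 1 := by
  apply Equiv.ext
  intro p
  exact projInv.left_inv p

theorem projInv_inv : projInv⁻¹ = projInv := by
  rw [inv_eq_iff_mul_eq_one, projInv_mul_self]

theorem projInv_aff_fun : ∀ (u : (ZMod 23)ˣ) (x : GolayPt),
    projInvFun (affFun u 0 x) = affFun ((u⁻¹ : (ZMod 23)ˣ) : ZMod 23) 0 (projInvFun x) := by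
  decide +kernel

theorem projInv_aff (u : (ZMod 23)ˣ) : projInv * aff u 0 = aff u⁻¹ 0 * projInv := by
  apply Equiv.ext
  intro p
  exact projInv_aff_fun u p

theorem bruhat_fun : ∀ (c : (ZMod 23)ˣ) (x : GolayPt),
    projInvFun (affFun 1 c (projInvFun x)) =
      affFun (((c⁻¹ * c⁻¹ : (ZMod 23)ˣ)) : ZMod 23) (-((c⁻¹ : (ZMod 23)ˣ) : ZMod 23))
        (projInvFun (affFun 1 (-((c⁻¹ : (ZMod 23)ˣ) : ZMod 23)) x)) := by
  decide +kernel

theorem bruhat (c : (ZMod 23)ˣ) :
    projInv * aff 1 c * projInv =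
      aff (c⁻¹ * c⁻¹) (-((c⁻¹ : (ZMod 23)ˣ) : ZMod 23)) * projInv *
        aff 1 (-((c⁻¹ : (ZMod 23)ˣ) : ZMod 23)) := by
  apply Equiv.ext
  intro p
  exact bruhat_fun c p

/-- the generators of the group `PSL(2, 23)` -/
def gens : Set (Equiv.Perm GolayPt) :=
  {Equiv.optionCongr (Equiv.addRight (1 : ZMod 23)), Cfsg.projInv} ∪
    {g : Equiv.Perm Cfsg.GolayPt | ∃ u : (ZMod 23)ˣ, IsSquare u ∧
      g = Equiv.optionCongr (Units.mulLeft u)}

/-- the group `PSL(2, 23)` -/
def L : Subgroup (Equiv.Perm GolayPt) := Subgroup.closure gens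

/-- the two double cosets -/
def bruhatSet : Set (Equiv.Perm GolayPt) :=
  {g | g ∈ K ∨ ∃ k ∈ K, ∃ c : ZMod 23, g = k * projInv * aff 1 c}

theorem mul_aff_mem {g : Equiv.Perm GolayPt} (hg : g ∈ bruhatSet) {v : (ZMod 23)ˣ}
    (hv : IsSquare v) (d : ZMod 23) : g * aff v d ∈ bruhatSet := by
  rcases hg with hg | ⟨k, hk, c, rfl⟩
  · exact Or.inl (K.mul_mem hg ⟨v, d, hv, rfl⟩)
  · right
    refine ⟨k * aff v⁻¹ 0, K.mul_mem hk ⟨v⁻¹, 0, hv.inv, rfl⟩,
      ((v⁻¹ : (ZMod 23)ˣ) : ZMod 23) * (d + c), ?_⟩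
    have h1 : aff 1 c * aff v d = aff v 0 * aff 1 (((v⁻¹ : (ZMod 23)ˣ) : ZMod 23) * (d + c)) := by
      rw [aff_mul, aff_mul, one_mul, mul_one, Units.val_one, one_mul, Units.mul_inv_cancel_left,
        add_zero]
    rw [mul_assoc, h1, mul_assoc k projInv, ← mul_assoc projInv, projInv_aff]
    simp only [mul_assoc]

theorem mul_projInv_mem {g : Equiv.Perm GolayPt} (hg : g ∈ bruhatSet) :
    g * projInv ∈ bruhatSet := by
  rcases hg with hg | ⟨k, hk, c, rfl⟩
  · right
    exact ⟨g, hg, 0, by rw [aff_one_zero, mul_one]⟩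
  · by_cases hc : c = 0
    · subst hc
      left
      rw [aff_one_zero, mul_one, mul_assoc, projInv_mul_self, mul_one]
      exact hk
    · right
      set u := Units.mk0 c hc with hu
      refine ⟨k * aff (u⁻¹ * u⁻¹) (-((u⁻¹ : (ZMod 23)ˣ) : ZMod 23)), ?_,
        -((u⁻¹ : (ZMod 23)ˣ) : ZMod 23), ?_⟩
      · apply K.mul_mem hk
        exact ⟨_, _, ⟨_, rfl⟩, rfl⟩
      · have := bruhat u
        rw [hu, Units.val_mk0] at this
        rw [mul_assoc k, mul_assoc k, this]
        simp only [mul_assoc]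
        rfl

theorem L_subset {g : Equiv.Perm GolayPt} (hg : g ∈ L) : g ∈ bruhatSet := by
  have key : ∀ x y : Equiv.Perm GolayPt, y ∈ gens → x ∈ bruhatSet →
      x * y ∈ bruhatSet ∧ x * y⁻¹ ∈ bruhatSet := by
    rintro x y ((hy | hy) | ⟨u, hu, rfl⟩) hx
    · rw [hy, optionCongr_addRight, aff_inv]
      exact ⟨mul_aff_mem hx ⟨1, by simp⟩ _, mul_aff_mem hx ⟨1, by simp⟩ _⟩
    · rw [Set.mem_singleton_iff] at hy
      rw [hy, projInv_inv]
      exact ⟨mul_projInv_mem hx, mul_projInv_mem hx⟩
    · rw [optionCongr_mulLeft, aff_inv]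
      exact ⟨mul_aff_mem hx hu _, mul_aff_mem hx hu.inv _⟩
  induction hg using Subgroup.closure_induction_right with
  | one => exact Or.inl K.one_mem
  | mul_right x _ y hy hx => exact (key x y hy hx).1
  | mul_inv_cancel x _ y hy hx => exact (key x y hy hx).2

theorem K_le_L : K ≤ L := by
  rw [← closure_eq_K]
  apply Subgroup.closure_mono
  rintro g (hg | hg)
  · left; left; exact hg
  · right; exact hg

theorem projInv_mem_L : projInv ∈ L := Subgroup.subset_closure (Or.inl (Or.inr rfl))

theorem card_L_le : Nat.card L ≤ 6072 := by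
  let f : K ⊕ (K × ZMod 23) → Equiv.Perm GolayPt := fun x => match x with
    | Sum.inl k => k
    | Sum.inr (k, c) => k * projInv * aff 1 c
  have h1 : (L : Set (Equiv.Perm GolayPt)) ⊆ Set.range f := by
    intro g hg
    rcases L_subset hg with h | ⟨k, hk, c, rfl⟩
    · exact ⟨Sum.inl ⟨g, h⟩, rfl⟩
    · exact ⟨Sum.inr (⟨k, hk⟩, c), rfl⟩
  calc Nat.card L = (L : Set (Equiv.Perm GolayPt)).ncard := rfl
    _ ≤ (Set.range f).ncard := Set.ncard_le_ncard h1 (Set.finite_range f)
    _ ≤ Nat.card (K ⊕ (K × ZMod 23)) := by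
        rw [← Set.image_univ, ← Set.ncard_univ]
        exact Set.ncard_image_le Set.finite_univ
    _ = 6072 := by
        rw [Nat.card_sum, Nat.card_prod, card_K, Nat.card_zmod]

/-- `L` is transitive on the 24 points: the orbit of the extra point under any group containing `L` -/
theorem exists_mem_L (p : GolayPt) : ∃ g ∈ L, g none = p := by
  rcases p with _ | x
  · exact ⟨1, L.one_mem, rfl⟩
  · refine ⟨aff 1 x * projInv, L.mul_mem (K_le_L ⟨1, x, ⟨1, by simp⟩, rfl⟩) projInv_mem_L, ?_⟩
    rw [Equiv.Perm.mul_apply]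
    show aff 1 x (some 0) = some x
    rw [aff_some]
    simp

/-- orbit counting for a group containing `L` -/
theorem card_eq_of_L_le {H : Subgroup (Equiv.Perm GolayPt)} (hH : L ≤ H) :
    Nat.card H = 24 * Nat.card ↥(H ⊓ MulAction.stabilizer (Equiv.Perm GolayPt) (none : GolayPt)) := by
  have h1 : MulAction.orbit H (none : GolayPt) = Set.univ := by
    rw [Set.eq_univ_iff_forall]
    intro p
    obtain ⟨g, hg, hgp⟩ := exists_mem_L p
    exact ⟨⟨g, hH hg⟩, hgp⟩
  have h2 := Subgroup.card_mul_index (MulAction.stabilizer H (none : GolayPt))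
  rw [MulAction.index_stabilizer, h1, Set.ncard_univ, Nat.card_eq_fintype_card (α := GolayPt),
    show Fintype.card GolayPt = 24 from rfl] at h2
  rw [← h2, mul_comm]
  congr 1
  have h4 : MulAction.stabilizer H (none : GolayPt) =
      (MulAction.stabilizer (Equiv.Perm GolayPt) (none : GolayPt)).subgroupOf H := by
    ext x
    rfl
  rw [h4, ← Subgroup.inf_subgroupOf_left]
  exact Nat.card_congr (Subgroup.subgroupOfEquivOfLe inf_le_left).toEquiv

theorem K_le_stab : K ≤ MulAction.stabilizer (Equiv.Perm GolayPt) (none : GolayPt) := by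
  rintro g ⟨u, b, _, rfl⟩
  exact aff_none u b

theorem card_L : Nat.card L = 6072 := by
  apply le_antisymm card_L_le
  rw [card_eq_of_L_le le_rfl]
  have h1 : Nat.card K ≤
      Nat.card ↥(L ⊓ MulAction.stabilizer (Equiv.Perm GolayPt) (none : GolayPt)) :=
    Nat.card_le_card_of_injective _ (Subgroup.inclusion_injective (le_inf K_le_L K_le_stab))
  rw [card_K] at h1
  omega

theorem L_inf_stab : L ⊓ MulAction.stabilizer (Equiv.Perm GolayPt) (none : GolayPt) = K := by
  symm
  apply Subgroup.eq_of_le_of_card_ge (le_inf K_le_L K_le_stab)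
  have h := card_eq_of_L_le (le_refl L)
  rw [card_L] at h
  rw [card_K]
  omega

end Cfsg.Agent.SporadicStructure.Psl223
end

-- part: SporadicStructure/SylowCount
section
/-!
Counting Sylow subgroups of prime order inside an intermediate subgroup, and the arithmetic that
makes `23:11` a maximal subgroup of a group of order 10200960.
-/

set_option autoImplicit false

namespace Cfsg.Agent.SporadicStructure.SylowCount

/-- Sylow's counting theorem for a subgroup `Q` of prime order `p` inside a subgroup `H` whose order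
is not divisible by `p ^ 2`: `|H| = |N_H(Q)| * n` with `n ≡ 1` modulo `p`. -/
theorem sylow_count {G : Type*} [Group G] [Finite G] (p : ℕ) [hp : Fact p.Prime]
    (Q H : Subgroup G) (hQH : Q ≤ H) (hQ : Nat.card Q = p) (hp2 : ¬ p ^ 2 ∣ Nat.card H) :
    ∃ n, n ≡ 1 [MOD p] ∧ Nat.card H = Nat.card ↥(Subgroup.normalizer (Q : Set G) ⊓ H) * n := by
  have hQ' : Nat.card (Q.subgroupOf H) = p :=
    (Nat.card_congr (Subgroup.subgroupOfEquivOfLe hQH).toEquiv).trans hQ
  have hpg : IsPGroup p (Q.subgroupOf H) := IsPGroup.of_card (n := 1) (by rw [hQ', pow_one])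
  have hidx : ¬ p ∣ (Q.subgroupOf H).index := by
    intro h
    apply hp2
    rw [← Subgroup.card_mul_index (Q.subgroupOf H), hQ', pow_two]
    exact mul_dvd_mul_left _ h
  have hcard : Nat.card (Sylow p H) = (Subgroup.normalizer ((Q.subgroupOf H : Subgroup H) : Set H)).index :=
    (hpg.toSylow hidx).card_eq_index_normalizer
  refine ⟨Nat.card (Sylow p H), card_sylow_modEq_one p H, ?_⟩
  rw [hcard, ← Subgroup.subgroupOf_normalizer_eq hQH]
  have h2 : Nat.card ↥(Subgroup.normalizer (Q : Set G) ⊓ H) =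
      Nat.card ((Subgroup.normalizer (Q : Set G)).subgroupOf H) := by
    rw [← Subgroup.inf_subgroupOf_right]
    exact (Nat.card_congr (Subgroup.subgroupOfEquivOfLe inf_le_right).toEquiv).symm
  rw [h2, Subgroup.card_mul_index]

/-- the order of `N_M(Q)` is `|C_M(Q)|` times a divisor of `p - 1` -/
theorem card_normalizer_inf {G : Type*} [Group G] [Finite G] (p : ℕ) [hp : Fact p.Prime]
    (Q M : Subgroup G) (hQ : Nat.card Q = p) :
    ∃ r, r ∣ p - 1 ∧ Nat.card ↥(Subgroup.normalizer (Q : Set G) ⊓ M) =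
      Nat.card ↥(Subgroup.centralizer (Q : Set G) ⊓ M) * r := by
  have hcyc : IsCyclic Q := isCyclic_of_prime_card hQ
  let f : ↥(Subgroup.normalizer (Q : Set G) ⊓ M) →* MulAut Q :=
    Q.normalizerMonoidHom.comp (Subgroup.inclusion inf_le_left)
  have hker : f.ker = (Subgroup.centralizer (Q : Set G) ⊓ M).subgroupOf
      (Subgroup.normalizer (Q : Set G) ⊓ M) := by
    show (Q.normalizerMonoidHom.comp (Subgroup.inclusion inf_le_left)).ker = _
    rw [← MonoidHom.comap_ker, Subgroup.normalizerMonoidHom_ker]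
    ext x
    simp only [Subgroup.mem_comap, Subgroup.mem_subgroupOf, Subgroup.coe_inclusion,
      Subgroup.mem_inf]
    exact ⟨fun h => ⟨h, x.2.2⟩, fun h => h.1⟩
  refine ⟨Nat.card f.range, ?_, ?_⟩
  · have h1 : Nat.card (MulAut Q) = p - 1 := by
      rw [IsCyclic.card_mulAut, hQ, Nat.totient_prime hp.1]
    rw [← h1]
    exact Subgroup.card_subgroup_dvd_card _
  · rw [← Subgroup.card_mul_index f.ker, Subgroup.index_ker, hker]
    congr 1
    apply Nat.card_congr
    apply (Subgroup.subgroupOfEquivOfLe _).toEquiv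
    exact inf_le_inf_right _ (Subgroup.centralizer_le_normalizer _)

theorem arith_n11 (r n : ℕ) (hr : r ∣ 10) (h : 10200960 = 11 * r * n) (hn : n ≡ 1 [MOD 11]) :
    r = 5 := by
  have hr' : r ≤ 10 := Nat.le_of_dvd (by norm_num) hr
  have hn' : n % 11 = 1 := hn
  have h2 : 927360 = r * n := by
    apply Nat.eq_of_mul_eq_mul_left (show 0 < 11 by norm_num)
    rw [← mul_assoc, ← h]
  interval_cases r <;> revert hr <;> (intro hr; omega)

theorem arith_divisors (b : ℕ) (hb : b ∣ 40320) (hb1 : b % 23 = 1) :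
    b = 1 ∨ b = 24 ∨ b = 70 ∨ b = 576 ∨ b = 1680 ∨ b = 40320 := by
  have h1 : b ∈ (Nat.divisors 40320).filter (fun b => b % 23 = 1) := by
    rw [Finset.mem_filter, Nat.mem_divisors]
    exact ⟨⟨hb, by norm_num⟩, hb1⟩
  have h2 : (Nat.divisors 40320).filter (fun b => b % 23 = 1) = {1, 24, 70, 576, 1680, 40320} := by
    decide +kernel
  rw [h2] at h1
  simpa using h1

/-- The arithmetic of Sylow counting: in a group of order 10200960 a subgroup of order 253 which
contains its own 23-normaliser, and a subgroup of order 11 that is self-centralising, is maximal. -/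
theorem eq_or_eq_of_between {G : Type*} [Group G] [Finite G] (M K P Q : Subgroup G)
    (hM : Nat.card M = 10200960) (hK : Nat.card K = 253) (hKM : K ≤ M)
    (hP : Nat.card P = 23) (hPK : P ≤ K) (hQ : Nat.card Q = 11) (hQK : Q ≤ K)
    (hKP : K ≤ Subgroup.normalizer (P : Set G)) (hNP : Subgroup.normalizer (P : Set G) ⊓ M ≤ K)
    (hCQ : Nat.card ↥(Subgroup.centralizer (Q : Set G) ⊓ M) = 11)
    (H : Subgroup G) (hKH : K ≤ H) (hHM : H ≤ M) : H = K ∨ H = M := by
  have f11 : Fact (Nat.Prime 11) := ⟨by norm_num⟩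
  have f23 : Fact (Nat.Prime 23) := ⟨by norm_num⟩
  have hHd : Nat.card H ∣ 10200960 := hM ▸ Subgroup.card_dvd_of_le hHM
  have h11 : ¬ 11 ^ 2 ∣ 10200960 := by norm_num
  have h23 : ¬ 23 ^ 2 ∣ 10200960 := by norm_num
  have hNQ : Nat.card ↥(Subgroup.normalizer (Q : Set G) ⊓ M) = 55 := by
    obtain ⟨r, hr, hr2⟩ := card_normalizer_inf 11 Q M hQ
    obtain ⟨n, hn, hn2⟩ := sylow_count 11 Q M (hQK.trans hKM) hQ (by rw [hM]; exact h11)
    rw [hM, hr2, hCQ] at hn2
    have := arith_n11 r n hr hn2 hn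
    rw [hr2, hCQ, this]
  obtain ⟨a, ha, ha2⟩ := sylow_count 11 Q H (hQK.trans hKH) hQ (fun h => h11 (h.trans hHd))
  obtain ⟨b, hb, hb2⟩ := sylow_count 23 P H (hPK.trans hKH) hP (fun h => h23 (h.trans hHd))
  have hNPH : Subgroup.normalizer (P : Set G) ⊓ H = K := by
    apply le_antisymm
    · exact (inf_le_inf_left _ hHM).trans hNP
    · exact le_inf hKP hKH
  rw [hNPH, hK] at hb2
  have hbd : b ∣ 40320 := by
    rw [hb2] at hHd
    have : (10200960 : ℕ) = 253 * 40320 := by norm_num
    rw [this] at hHd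
    exact Nat.dvd_of_mul_dvd_mul_left (by norm_num) hHd
  have hNd : Nat.card ↥(Subgroup.normalizer (Q : Set G) ⊓ H) ∣ 55 := by
    rw [← hNQ]
    exact Subgroup.card_dvd_of_le (inf_le_inf_left _ hHM)
  have hNd' : 11 ∣ Nat.card ↥(Subgroup.normalizer (Q : Set G) ⊓ H) := by
    rw [← hQ]
    exact Subgroup.card_dvd_of_le (le_inf Subgroup.le_normalizer (hQK.trans hKH))
  have hN : Nat.card ↥(Subgroup.normalizer (Q : Set G) ⊓ H) = 11 ∨
      Nat.card ↥(Subgroup.normalizer (Q : Set G) ⊓ H) = 55 := by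
    obtain ⟨c, hc⟩ := hNd'
    rw [hc] at hNd ⊢
    have : (55 : ℕ) = 11 * 5 := by norm_num
    rw [this] at hNd
    have h5 := Nat.dvd_of_mul_dvd_mul_left (by norm_num) hNd
    rcases (Nat.dvd_prime (by norm_num)).1 h5 with h | h
    · left; rw [h]
    · right; rw [h]
  have ha' : a % 11 = 1 := ha
  have hb' : b % 23 = 1 := hb
  rcases hN with hN | hN
  · left
    rw [hN, hb2] at ha2
    have hb1 : b = 1 := by
      rcases arith_divisors b hbd hb' with h | h | h | h | h | h <;> subst h <;> omega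
    subst hb1
    exact (Subgroup.eq_of_le_of_card_ge hKH (by rw [hb2, hK])).symm
  · right
    rw [hN, hb2] at ha2
    have hb1 : b = 40320 := by
      rcases arith_divisors b hbd hb' with h | h | h | h | h | h <;> subst h <;> omega
    subst hb1
    exact Subgroup.eq_of_le_of_card_ge hHM (by rw [hb2, hM])

end Cfsg.Agent.SporadicStructure.SylowCount
end

-- part: S1643
section
set_option autoImplicit false
open scoped Pointwise
open Cfsg

namespace Cfsg.Agent.S1643

open Cfsg.Agent.SporadicStructure.Affine23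
open Cfsg.Agent.SporadicStructure.QRNormalizer
open Cfsg.Agent.SporadicStructure.Psl223
open Cfsg.Agent.SporadicStructure.SylowCount

/-- the point stabiliser as a subgroup of the symmetric group -/
abbrev stab0 : Subgroup (Equiv.Perm GolayPt) :=
  MulAction.stabilizer (Equiv.Perm GolayPt) (none : GolayPt)

theorem L_le_M24 : L ≤ M24 := by
  show Subgroup.closure gens ≤ M24
  rw [Subgroup.closure_le]
  rintro g ((hg | hg) | ⟨u, hu, rfl⟩)
  · rw [hg]; exact Cfsg.Agent.S0370.result
  · rw [Set.mem_singleton_iff] at hg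
    rw [hg]; exact Cfsg.Agent.S0372.result
  · exact Cfsg.Agent.S0371.result u hu

theorem K_le_M24 : K ≤ M24 := K_le_L.trans L_le_M24

theorem K_le_M23 : K ≤ M24 ⊓ stab0 := le_inf K_le_M24 K_le_stab

theorem card_M23 : Nat.card ↥(M24 ⊓ stab0) = 10200960 := by
  have h := Cfsg.Agent.S0376.result none
  have h4 : MulAction.stabilizer M24 (none : GolayPt) = stab0.subgroupOf M24 := by
    ext x
    rfl
  rw [h4, ← Subgroup.inf_subgroupOf_left] at h
  rw [← h]
  exact (Nat.card_congr (Subgroup.subgroupOfEquivOfLe inf_le_left).toEquiv).symm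

theorem mem_stab0 {g : Equiv.Perm GolayPt} : g ∈ stab0 ↔ g none = none := Iff.rfl

theorem between {H : Subgroup (Equiv.Perm GolayPt)} (hKH : K ≤ H) (hHM : H ≤ M24 ⊓ stab0) :
    H = K ∨ H = M24 ⊓ stab0 := by
  apply eq_or_eq_of_between (M24 ⊓ stab0) K (Subgroup.zpowers (aff 1 1))
    (Subgroup.zpowers (aff u2 0)) card_M23 card_K K_le_M23
  · rw [Nat.card_zpowers, orderOf_aff_one_one]
  · rw [Subgroup.zpowers_le]
    exact ⟨1, 1, ⟨1, by simp⟩, rfl⟩
  · rw [Nat.card_zpowers, orderOf_aff_u2]
  · rw [Subgroup.zpowers_le]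
    exact ⟨u2, 0, isSquare_u2, rfl⟩
  · -- K normalises the translations
    have key : ∀ g ∈ K, ∀ h ∈ Subgroup.zpowers (aff 1 1), g * h * g⁻¹ ∈ Subgroup.zpowers (aff 1 1) := by
      rintro g ⟨u, b, hu, rfl⟩ h hh
      obtain ⟨n, rfl⟩ := Subgroup.mem_zpowers_iff.1 hh
      have h1 : aff u b * aff 1 1 * (aff u b)⁻¹ = aff 1 1 ^ ((u : ZMod 23).val) := by
        rw [mul_inv_eq_iff_eq_mul, aff_one_pow, aff_mul, aff_mul, mul_one, mul_one, mul_one,
          ZMod.natCast_zmod_val, one_mul, Units.val_one, one_mul]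
        congr 1
        ring
      have h2 : aff u b * aff 1 1 ^ n * (aff u b)⁻¹ = (aff u b * aff 1 1 * (aff u b)⁻¹) ^ n :=
        (conj_zpow).symm
      rw [h2, h1]
      exact Subgroup.zpow_mem _ (Subgroup.pow_mem _ (Subgroup.mem_zpowers _) _) _
    exact Subgroup.le_normalizer_iff.2 key
  · rintro g ⟨hg1, hg2, hg3⟩
    have h1 : g * aff 1 1 * g⁻¹ ∈ Subgroup.zpowers (aff 1 1) :=
      (Subgroup.mem_normalizer_iff.1 hg1 _).1 (Subgroup.mem_zpowers _)
    rw [← mem_powers_iff_mem_zpowers] at h1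
    obtain ⟨n, hn⟩ := Submonoid.mem_powers_iff _ _ |>.1 h1
    exact mem_K_of_normalize hg2 hg3 K_le_M24 n (by rw [hn]; group)
  · have h1 : Subgroup.centralizer ((Subgroup.zpowers (aff u2 0) : Subgroup _) :
        Set (Equiv.Perm GolayPt)) ⊓ (M24 ⊓ stab0) = Subgroup.zpowers (aff u2 0) := by
      apply le_antisymm
      · rintro g ⟨hg1, hg2, hg3⟩
        have h2 : g * aff u2 0 = aff u2 0 * g :=
          (Subgroup.mem_centralizer_iff.1 hg1 _ (Subgroup.mem_zpowers _)).symm
        obtain ⟨a, ha, rfl⟩ := eq_aff_of_commute hg2 hg3 h2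
        obtain ⟨n, hn⟩ := exists_pow_u2 a ha
        rw [hn, ← aff_zero_pow]
        exact Subgroup.pow_mem _ (Subgroup.mem_zpowers _) _
      · apply le_inf
        · intro g hg
          rw [Subgroup.mem_centralizer_iff]
          intro h hh
          obtain ⟨m, rfl⟩ := Subgroup.mem_zpowers_iff.1 hg
          obtain ⟨n, rfl⟩ := Subgroup.mem_zpowers_iff.1 hh
          rw [← zpow_add, ← zpow_add, add_comm]
        · rw [Subgroup.zpowers_le]
          exact K_le_M23 ⟨u2, 0, isSquare_u2, rfl⟩
    rw [h1, Nat.card_zpowers, orderOf_aff_u2]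
  · exact hKH
  · exact hHM

theorem between_L {H : Subgroup (Equiv.Perm GolayPt)} (hLH : L ≤ H) (hHM : H ≤ M24) :
    H = L ∨ H = M24 := by
  have h1 := card_eq_of_L_le hLH
  have h2 := card_eq_of_L_le L_le_M24
  rcases between (le_inf (K_le_L.trans hLH) K_le_stab) (inf_le_inf_right stab0 hHM) with h | h
  · left
    rw [h, card_K] at h1
    exact (Subgroup.eq_of_le_of_card_ge hLH (by rw [h1, card_L])).symm
  · right
    rw [h] at h1
    exact Subgroup.eq_of_le_of_card_ge hHM (by rw [h1, h2])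

/-- maximality of a subgroup inside a subgroup -/
theorem isCoatom_subgroupOf {G : Type*} [Group G] {A M : Subgroup G} (hne : A ≠ M)
    (hAM : A ≤ M) (h : ∀ H : Subgroup G, A ≤ H → H ≤ M → H = A ∨ H = M) :
    IsCoatom (A.subgroupOf M) := by
  constructor
  · intro htop
    rw [Subgroup.subgroupOf_eq_top] at htop
    exact hne (le_antisymm hAM htop)
  · intro B hB
    have h1 : A ≤ B.map M.subtype := by
      intro a ha
      exact ⟨⟨a, hAM ha⟩, hB.le ha, rfl⟩
    rcases h _ h1 (Subgroup.map_subtype_le B) with h2 | h2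
    · exfalso
      apply hB.ne
      rw [← h2]
      show (B.map M.subtype).comap M.subtype = B
      exact Subgroup.comap_map_eq_self_of_injective M.subtype_injective B
    · rw [eq_top_iff]
      rintro ⟨x, hx⟩ _
      rw [← h2] at hx
      obtain ⟨y, hy, hyx⟩ := hx
      have : y = ⟨x, by assumption⟩ := Subtype.ext hyx
      rwa [this] at hy

theorem L_ne_M24 : L ≠ M24 := by
  intro h
  have h1 := card_L
  rw [h, Cfsg.Agent.S0364.result] at h1
  norm_num at h1

theorem K_ne_M23 : K ≠ M24 ⊓ stab0 := by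
  intro h
  have h1 := card_K
  rw [h, card_M23] at h1
  norm_num at h1

theorem isCoatom_K : IsCoatom ((K.subgroupOf M24).subgroupOf
    (MulAction.stabilizer M24 (none : GolayPt))) := by
  have h4 : MulAction.stabilizer M24 (none : GolayPt) = stab0.subgroupOf M24 := by
    ext x
    rfl
  rw [h4]
  apply isCoatom_subgroupOf
  · intro h
    apply K_ne_M23
    apply le_antisymm K_le_M23
    intro g hg
    have h5 : (⟨g, hg.1⟩ : M24) ∈ stab0.subgroupOf M24 := hg.2
    rw [← h] at h5
    exact h5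
  · intro g hg
    exact K_le_stab hg
  · intro H h1 h2
    have h3 : K ≤ H.map M24.subtype := by
      intro g hg
      exact ⟨⟨g, K_le_M24 hg⟩, h1 hg, rfl⟩
    have h5 : H.map M24.subtype ≤ M24 ⊓ stab0 := by
      rintro g ⟨x, hx, rfl⟩
      exact ⟨x.2, h2 hx⟩
    have h6 : (H.map M24.subtype).subgroupOf M24 = H :=
      Subgroup.comap_map_eq_self_of_injective M24.subtype_injective H
    rcases between h3 h5 with h | h
    · left
      rw [← h6, h]
    · right
      rw [← h6, h, Subgroup.inf_subgroupOf_left]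

/-- PSL(2, 23) = ⟨t ↦ t+1, t ↦ u t (u square), t ↦ −1/t⟩ is maximal of order 6072 in the group of the length-24 code, and its point stabiliser 23:11 (order 253) is maximal in the Mathieu group of degree 23. -/
theorem result : (Subgroup.closure ({Equiv.optionCongr (Equiv.addRight (1 : ZMod 23)), Cfsg.projInv} ∪ {g : Equiv.Perm Cfsg.GolayPt | ∃ u : (ZMod 23)ˣ, IsSquare u ∧ g = Equiv.optionCongr (Units.mulLeft u)}) ≤ Cfsg.M24 ∧ Nat.card ↥(Subgroup.closure ({Equiv.optionCongr (Equiv.addRight (1 : ZMod 23)), Cfsg.projInv} ∪ {g : Equiv.Perm Cfsg.GolayPt | ∃ u : (ZMod 23)ˣ, IsSquare u ∧ g = Equiv.optionCongr (Units.mulLeft u)})) = 6072 ∧ IsCoatom ((Subgroup.closure ({Equiv.optionCongr (Equiv.addRight (1 : ZMod 23)), Cfsg.projInv} ∪ {g : Equiv.Perm Cfsg.GolayPt | ∃ u : (ZMod 23)ˣ, IsSquare u ∧ g = Equiv.optionCongr (Units.mulLeft u)})).subgroupOf Cfsg.M24)) ∧ (Subgroup.closure ({Equiv.optionCongr (Equiv.addRight (1 : ZMod 23))} ∪ {g : Equiv.Perm Cfsg.GolayPt | ∃ u : (ZMod 23)ˣ, IsSquare u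 ∧ g = Equiv.optionCongr (Units.mulLeft u)}) ≤ Cfsg.M24 ⊓ MulAction.stabilizer (Equiv.Perm Cfsg.GolayPt) (none : Cfsg.GolayPt) ∧ Nat.card ↥(Subgroup.closure ({Equiv.optionCongr (Equiv.addRight (1 : ZMod 23))} ∪ {g : Equiv.Perm Cfsg.GolayPt | ∃ u : (ZMod 23)ˣ, IsSquare u ∧ g = Equiv.optionCongr (Units.mulLeft u)})) = 253 ∧ IsCoatom (((Subgroup.closure ({Equiv.optionCongr (Equiv.addRight (1 : ZMod 23))} ∪ {g : Equiv.Perm Cfsg.GolayPt | ∃ u : (ZMod 23)ˣ, IsSquare u ∧ g = Equiv.optionCongr (Units.mulLeft u)})).subgroupOf Cfsg.M24).subgroupOf (MulAction.stabilizer Cfsg.M24 (none : Cfsg.GolayPt)))) := by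
  refine ⟨⟨L_le_M24, card_L, ?_⟩, ?_⟩
  · exact isCoatom_subgroupOf L_ne_M24 L_le_M24 fun H h1 h2 => between_L h1 h2
  · rw [closure_eq_K]
    exact ⟨K_le_M23, card_K, isCoatom_K⟩

end Cfsg.Agent.S1643
end
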