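import Cfsg.Statements.S1662
import Cfsg.Agent.BabyU.LitFin_m3
import Cfsg.Agent.BabyU.ModelInst
import Cfsg.Agent.KFacts.Mult.TwESixTwo
set_option linter.all false

set_option autoImplicit false
open Cfsg

namespace Cfsg.Agent.S1662

/-- Uniqueness of the Baby Monster at the level of isomorphism: a finite simple group having an involution t whose centraliser has a normal subgroup M of index 2, containing its own centraliser in the involution centraliser, which is a non-split double cover of the twisted group ²E₆(2) (realised over a field with four elements) is isomorphic to the presented Baby Monster. -/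
theorem result {G : Type*} [Group G] [Finite G] [IsSimpleGroup G] (t : G) (ht : orderOf t = 2) (M : Subgroup (Subgroup.centralizer ({t} : Set G))) [M.Normal] (hM : M.index = 2) (K : Type) [Field K] [Fintype K] (hK : Fintype.card K = 4) (hout : Subgroup.centralizer (M : Set (Subgroup.centralizer ({t} : Set G))) ≤ M) (hcov : Cfsg.IsNonsplitDoubleCover M (Cfsg.Lie.twistedE6 K 2)) : Cfsg.Spor.IsoB G := by
  have := Cfsg.Agent.BM.HBFinal.finite_HB
  exact Cfsg.Agent.BabyU.LitFin.result (fun K _ _ hK => Cfsg.Agent.BM.HBFinal.hcard K hK)
    (Cfsg.Agent.BabyU.CentT1.of_stageW Cfsg.Agent.BabyM.Instance.all Cfsg.Agent.BabyM.Instance.tr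
      Cfsg.Agent.BabyM.Instance.ok Cfsg.Agent.BM.KHAll.isB Cfsg.Agent.BM.KHAll.surj)
    Cfsg.Agent.BabyU.ModelInst.model t ht M hM K hK hout hcov

end Cfsg.Agent.S1662
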