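import Cfsg.Agent.CoOneNWC.Bridge
import Cfsg.Agent.CoOneNWC.OmFacts
import Cfsg.Agent.LargeExtra.Base
import Cfsg.Agent.PLocal.PConstrained
import Cfsg.Agent.SignalizersComponents.CharP
import Cfsg.Agent.Lib.Cores
import Cfsg.Agent.S0215
import Cfsg.Agent.S1180
import Mathlib
import Cfsg.Agent.Co2Type.Quad
import Cfsg.Statements.S1677
import Cfsg.Agent.S1718
set_option linter.all false

-- part: CoOneNWC/Shell
section
/-!
# Outer shell of S1677 (helper978)

From the hypotheses of S1677: `F*(C_G(t)) = O₂(C_G(t))`, `Hyp`, and a conjugate `t^g ≠ t` commuting with `t`.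
-/

set_option autoImplicit false

namespace Cfsg.Agent.CoOneNWC.Shell

open Cfsg.Agent.Co2Type.Quad Cfsg.Agent.CoOneNWC Cfsg.Agent.CoOneNWC.OmFacts
open Subgroup

/-- a normal subgroup of odd order of an extension of a 2-group by `Ω⁺(8,2)` is trivial -/
theorem pPrimeCore_eq_bot {C : Type*} [Group C] [Finite C]
    (e : C ⧸ Cfsg.pCore 2 C ≃* Om8) : Cfsg.pPrimeCore 2 C = ⊥ := by
  classical
  have hsimple := simple_om8
  set K := Cfsg.pPrimeCore 2 C with hK
  have hKodd : (Nat.card K).Coprime 2 := Cfsg.Agent.PLocal.PConstrained.coprime_card_pPrimeCore 2 C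
  let f : C →* Om8 := e.toMonoidHom.comp (QuotientGroup.mk' _)
  have hf : Function.Surjective f := e.surjective.comp (QuotientGroup.mk'_surjective _)
  have hker : f.ker = Cfsg.pCore 2 C := by
    ext x
    rw [MonoidHom.mem_ker]
    show e (QuotientGroup.mk' _ x) = 1 ↔ _
    rw [map_eq_one_iff e e.injective]
    exact QuotientGroup.eq_one_iff x
  have hn : (K.map f).Normal := Subgroup.Normal.map inferInstance f hf
  have hcardmap : Nat.card (K.map f) ∣ Nat.card K :=
    Cfsg.Agent.PLocal.PConstrained.card_map_dvd f K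
  have hbot : K.map f = ⊥ := by
    rcases hn.eq_bot_or_eq_top with h | h
    · exact h
    · exfalso
      rw [h, Subgroup.card_top, card_om8] at hcardmap
      have h2 : 2 ∣ Nat.card K := Dvd.dvd.trans (by norm_num) hcardmap
      exact absurd (Nat.Coprime.eq_one_of_dvd hKodd.symm h2) (by norm_num)
  have hle : K ≤ Cfsg.pCore 2 C := by
    intro x hx
    rw [← hker, MonoidHom.mem_ker]
    have : f x ∈ K.map f := Subgroup.mem_map_of_mem f hx
    rw [hbot] at this
    exact Subgroup.mem_bot.1 this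
  have hp : IsPGroup 2 K :=
    (Cfsg.Agent.PLocal.PConstrained.isPGroup_pCore 2 C).to_le hle
  obtain ⟨n, hn⟩ := IsPGroup.iff_card.1 hp
  rw [← Subgroup.card_eq_one, hn]
  rw [hn] at hKodd
  rcases Nat.eq_zero_or_pos n with h0 | h0
  · rw [h0, pow_zero]
  · exact absurd (Nat.Coprime.eq_one_of_dvd hKodd.symm (dvd_pow_self 2 h0.ne')) (by norm_num)

variable {G : Type*} [Group G] [Finite G]

theorem genFitting_eq (t : G)
    (hcon : Cfsg.IsPConstrained 2 (centralizer ({t} : Set G)))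
    (e : (centralizer ({t} : Set G)) ⧸ Cfsg.pCore 2 (centralizer ({t} : Set G)) ≃* Om8) :
    Cfsg.generalizedFittingSubgroup (centralizer ({t} : Set G)) =
      Cfsg.pCore 2 (centralizer ({t} : Set G)) := by
  have : Fact (Nat.Prime 2) := ⟨Nat.prime_two⟩
  rw [Cfsg.Agent.SignalizersComponents.CharP.genFitting_eq_pCore_iff]
  exact (Cfsg.Agent.PLocal.PConstrained.isPConstrained_iff_of_pPrimeCore_eq_bot
    (pPrimeCore_eq_bot e)).1 hcon

/-- the hypotheses of S1677 give `Hyp` -/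
theorem hyp (t : G) (ht : orderOf t = 2)
    (hcon : Cfsg.IsPConstrained 2 (centralizer ({t} : Set G)))
    (hQ : Cfsg.IsExtraspecial 2 (Cfsg.pCore 2 (centralizer ({t} : Set G))))
    (hcard : Nat.card (Cfsg.pCore 2 (centralizer ({t} : Set G))) = 2 ^ 9)
    (e : (centralizer ({t} : Set G)) ⧸ Cfsg.pCore 2 (centralizer ({t} : Set G)) ≃* Om8) :
    Hyp ((Cfsg.pCore 2 (centralizer ({t} : Set G))).map (centralizer ({t} : Set G)).subtype) t := by
  have hF := genFitting_eq t hcon e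
  refine ⟨?_, ?_, e.toMonoidHom.comp (QuotientGroup.mk' _),
    e.surjective.comp (QuotientGroup.mk'_surjective _), ?_⟩
  · have h := Cfsg.Agent.LargeExtra.Base.large_of_genFitting t ht (by rw [hF]; exact hQ)
    rwa [hF] at h
  · rw [Subgroup.card_map_of_injective (Subgroup.subtype_injective _)]
    exact hcard
  · intro c
    show e (QuotientGroup.mk' _ c) = 1 ↔ _
    rw [map_eq_one_iff e e.injective]
    constructor
    · intro h
      exact ⟨c, (QuotientGroup.eq_one_iff c).1 h, rfl⟩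
    · rintro ⟨c', hc', he⟩
      have : c' = c := Subtype.ext he
      rw [← this]
      exact (QuotientGroup.eq_one_iff c').2 hc'

/-- Glauberman's Z*-theorem: a conjugate commuting with `t`. -/
theorem exists_conj (hO : Cfsg.oddCore G = ⊥) (hZ : center G = ⊥) (t : G) (ht : orderOf t = 2) :
    ∃ g : G, g * t * g⁻¹ ≠ t ∧ g * t * g⁻¹ * t = t * (g * t * g⁻¹) := by
  classical
  have : Fact (Nat.Prime 2) := ⟨Nat.prime_two⟩
  by_contra hcon
  push Not at hcon
  have ht1 : t ≠ 1 := by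
    intro h; rw [h, orderOf_one] at ht; exact absurd ht (by norm_num)
  have hiso' : Cfsg.IsIsolatedInvolution t := ⟨ht, fun g hg => by
    by_contra hne
    exact hcon g hne hg.symm⟩
  have hp : IsPGroup 2 (zpowers t) := by
    rw [IsPGroup.iff_card]
    exact ⟨1, by rw [Nat.card_zpowers, ht, pow_one]⟩
  obtain ⟨P, hP⟩ := hp.exists_le_sylow
  have htP : t ∈ P := hP (mem_zpowers t)
  obtain ⟨N, hN, hodd, hcomm⟩ := Cfsg.Agent.S0215.result P t ht htP fun g hg =>
    Cfsg.Agent.S1180.eq_of_conj_mem_isPGroup t hiso' (P : Subgroup G) P.isPGroup' htP g hg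
  have hNle : N ≤ Cfsg.pPrimeCore 2 G :=
    Cfsg.Agent.Lib.Cores.le_pPrimeCore hN (Nat.coprime_two_right.2 hodd)
  have hNbot : N = ⊥ := by
    rw [eq_bot_iff, ← hO]; exact hNle
  apply ht1
  have h1 : t ∈ center G := by
    rw [mem_center_iff]
    intro g
    have h2 := hcomm g
    rw [hNbot, mem_bot] at h2
    rw [mul_inv_eq_one, mul_inv_eq_iff_eq_mul] at h2
    exact h2.symm
  rw [hZ, mem_bot] at h1
  exact h1

end Cfsg.Agent.CoOneNWC.Shell
end

-- part: CoOneNWC/PairBase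
section
/-!
# Commuting pairs of conjugates of `z`, when `z` is weakly closed in `Q`

`Ctx Q P z y` : `y = z^g ≠ z` commutes with `z`, `P` is the large extraspecial subgroup of `C_G(y)`, and no
conjugate of `z` different from `z` lies in `Q` (same for `y`, `P`).
-/

set_option autoImplicit false

namespace Cfsg.Agent.CoOneNWC

open Cfsg.Agent.Co2Type.Quad Module

/-! ### generalities on `V` -/

section gen

variable {G : Type*} [Group G] {Q : Subgroup G} {z : G} (h : Large Q z)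

theorem zmod2_cases (a : ZMod 2) : a = 0 ∨ a = 1 := by
  revert a; decide

theorem zmod2_add_self (a : ZMod 2) : a + a = 0 := CharTwo.add_self_eq_zero a

theorem b_isRefl : (h.b).IsRefl := fun v w hvw => by rw [h.b_comm]; exact hvw

theorem b_nondegenerate : (h.b).Nondegenerate := by
  refine ⟨fun v hv => h.b_nondeg hv, fun v hv => h.b_nondeg fun w => ?_⟩
  rw [h.b_comm]; exact hv w

/-- The orthogonal complement. -/
noncomputable def perp (W : Submodule (ZMod 2) h.V) : Submodule (ZMod 2) h.V := (h.b).orthogonal W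

theorem mem_perp {W : Submodule (ZMod 2) h.V} {v : h.V} : v ∈ perp h W ↔ ∀ w ∈ W, h.b w v = 0 :=
  Iff.rfl

theorem mem_perp' {W : Submodule (ZMod 2) h.V} {v : h.V} : v ∈ perp h W ↔ ∀ w ∈ W, h.b v w = 0 := by
  rw [mem_perp]
  constructor <;> intro h1 w hw
  · rw [h.b_comm]; exact h1 w hw
  · rw [h.b_comm]; exact h1 w hw

theorem perp_anti {W U : Submodule (ZMod 2) h.V} (hle : W ≤ U) : perp h U ≤ perp h W :=
  LinearMap.BilinForm.orthogonal_le hle

variable [Finite Q]

theorem finite_V : Module.Finite (ZMod 2) h.V := Module.Finite.of_finite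

theorem perp_perp (W : Submodule (ZMod 2) h.V) : perp h (perp h W) = W := by
  have := finite_V h
  exact LinearMap.BilinForm.orthogonal_orthogonal (b_nondegenerate h) (b_isRefl h) W

theorem finrank_perp (W : Submodule (ZMod 2) h.V) :
    finrank (ZMod 2) (perp h W) + finrank (ZMod 2) W = finrank (ZMod 2) h.V := by
  have := finite_V h
  have h1 := LinearMap.BilinForm.finrank_orthogonal (b_nondegenerate h) W
  have h2 := Submodule.finrank_le W
  show finrank (ZMod 2) ((h.b).orthogonal W) + _ = _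
  rw [h1]; omega

theorem card_sub (W : Submodule (ZMod 2) h.V) : Nat.card W = 2 ^ finrank (ZMod 2) W := by
  have := finite_V h
  rw [Module.natCard_eq_pow_finrank (K := ZMod 2) (V := W), Nat.card_zmod]

theorem card_V : Nat.card h.V = 2 ^ finrank (ZMod 2) h.V := by
  have := finite_V h
  rw [Module.natCard_eq_pow_finrank (K := ZMod 2) (V := h.V), Nat.card_zmod]

/-- If `w ∉ U` there is a vector orthogonal to `U` and not to `w`. -/
theorem exists_perp_ne {U : Submodule (ZMod 2) h.V} {w : h.V} (hw : w ∉ U) :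
    ∃ v ∈ perp h U, h.b v w = 1 := by
  by_contra hcon
  push Not at hcon
  apply hw
  rw [← perp_perp h U, mem_perp]
  intro v hv
  exact (zmod2_cases _).resolve_right (hcon v hv)

end gen

section act

variable {G : Type*} [Group G] {Q : Subgroup G} {z : G} (h : Large Q z)

theorem add_self' (v : h.V) : v + v = 0 := h.add_self v

theorem add_eq_zero_iff' (v w : h.V) : v + w = 0 ↔ v = w := by
  constructor
  · intro hvw
    have : v + w + w = w := by rw [hvw, zero_add]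
    rwa [add_assoc, h.add_self, add_zero] at this
  · rintro rfl; exact h.add_self v

theorem b_act_left (c : Subgroup.centralizer ({z} : Set G)) (v w : h.V) :
    h.b (h.act c v) w = h.b v (h.act c⁻¹ w) := by
  rw [← h.b_act c v (h.act c⁻¹ w)]
  congr 1
  rw [map_inv]
  exact ((h.act c).apply_symm_apply w).symm

theorem act_act (c d : Subgroup.centralizer ({z} : Set G)) (v : h.V) :
    h.act c (h.act d v) = h.act (c * d) v := by
  rw [map_mul]; rfl

theorem act_one (v : h.V) : h.act 1 v = v := by rw [map_one]; rfl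

theorem act_inv_act (c : Subgroup.centralizer ({z} : Set G)) (v : h.V) :
    h.act c⁻¹ (h.act c v) = v := by
  rw [act_act, inv_mul_cancel, act_one]

theorem act_act_inv (c : Subgroup.centralizer ({z} : Set G)) (v : h.V) :
    h.act c (h.act c⁻¹ v) = v := by
  rw [act_act, mul_inv_cancel, act_one]

/-- `q (c v + v) = b (c v) v`. -/
theorem q_act_add (c : Subgroup.centralizer ({z} : Set G)) (v : h.V) :
    h.q (h.act c v + v) = h.b (h.act c v) v := by
  rw [h.q_add', h.q_act, zmod2_add_self, zero_add]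

/-- `(c + 1) V` is the orthogonal complement of `C_V(c)`. -/
theorem mem_perp_fixV [Finite Q] (c : Subgroup.centralizer ({z} : Set G)) (v : h.V) :
    v ∈ perp h (fixV h c) ↔ ∃ w, v = h.act c w + w := by
  have hfin := finite_V h
  set D : Submodule (ZMod 2) h.V :=
    LinearMap.range ((h.act c : h.V →ₗ[ZMod 2] h.V) + LinearMap.id) with hD
  have hmem : ∀ v, v ∈ D ↔ ∃ w, v = h.act c w + w := by
    intro v
    rw [hD, LinearMap.mem_range]
    constructor
    · rintro ⟨w, rfl⟩; exact ⟨w, rfl⟩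
    · rintro ⟨w, rfl⟩; exact ⟨w, rfl⟩
  have h1 : perp h D = fixV h c := by
    ext w
    rw [mem_perp, mem_fixV]
    constructor
    · intro hw
      have h2 : ∀ u, h.b u (h.act c⁻¹ w + w) = 0 := by
        intro u
        have h3 := hw _ ((hmem _).2 ⟨u, rfl⟩)
        rw [map_add, LinearMap.add_apply, b_act_left] at h3
        rw [map_add]; exact h3
      have h3 : h.act c⁻¹ w + w = 0 := by
        apply h.b_nondeg
        intro u
        rw [h.b_comm]; exact h2 u
      rw [add_eq_zero_iff'] at h3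
      conv_lhs => rw [← h3]
      exact act_act_inv h c w
    · intro hw u hu
      obtain ⟨u', rfl⟩ := (hmem _).1 hu
      have h4 : h.act c⁻¹ w = w := by
        conv_lhs => rw [← hw]
        exact act_inv_act h c w
      rw [map_add, LinearMap.add_apply, b_act_left, h4, zmod2_add_self]
  rw [← h1, perp_perp, hmem]

end act

/-! ### pairs -/

structure Ctx {G : Type*} [Group G] (Q P : Subgroup G) (z y : G) : Prop where
  HQ : Hyp Q z
  HP : Hyp P y
  cj : ∃ g : G, g * z * g⁻¹ = y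
  wQ : ∀ g : G, g * z * g⁻¹ ∈ Q → g * z * g⁻¹ = z
  wP : ∀ g : G, g * y * g⁻¹ ∈ P → g * y * g⁻¹ = y
  ne : y ≠ z
  yz : y * z = z * y

namespace Ctx

variable {G : Type*} [Group G] {Q P : Subgroup G} {z y : G}

theorem symm (X : Ctx Q P z y) : Ctx P Q y z where
  HQ := X.HP
  HP := X.HQ
  cj := by
    obtain ⟨g, hg⟩ := X.cj
    exact ⟨g⁻¹, by rw [← hg]; group⟩
  wQ := X.wP
  wP := X.wQ
  ne := X.ne.symm
  yz := X.yz.symm

theorem y_notMem (X : Ctx Q P z y) : y ∉ Q := by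
  intro hy
  obtain ⟨g, hg⟩ := X.cj
  exact X.ne (hg ▸ X.wQ g (hg.symm ▸ hy))

theorem z_notMem (X : Ctx Q P z y) : z ∉ P := X.symm.y_notMem

theorem yy (X : Ctx Q P z y) : y * y = 1 := X.HP.large.z_sq

theorem zz (X : Ctx Q P z y) : z * z = 1 := X.HQ.large.z_sq

theorem y_inv (X : Ctx Q P z y) : y⁻¹ = y := X.HP.large.z_inv

theorem z_inv (X : Ctx Q P z y) : z⁻¹ = z := X.HQ.large.z_inv

/-- The involution `y` as an element of `C_G(z)`. -/
def Y (X : Ctx Q P z y) : Subgroup.centralizer ({z} : Set G) :=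
  ⟨y, Subgroup.mem_centralizer_singleton_iff.2 X.yz⟩

theorem Y_mul (X : Ctx Q P z y) : X.Y * X.Y = 1 := Subtype.ext X.yy

theorem Y_inv (X : Ctx Q P z y) : X.Y⁻¹ = X.Y := inv_eq_of_mul_eq_one_left X.Y_mul

/-- Elements of `Q` commuting with `y` commute with `Q ∩ P`. -/
theorem comm_R (X : Ctx Q P z y) {a r : G} (ha : a ∈ Q) (hay : a * y = y * a) (hr : r ∈ Q)
    (hr' : r ∈ P) : a * r = r * a := by
  rcases X.HQ.large.comm a ha r hr with h1 | h1
  · exact h1
  · exfalso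
    apply X.z_notMem
    have h2 : a * r * a⁻¹ ∈ P := X.HP.large.conj_mem a hay r hr'
    have h3 : a * r * a⁻¹ = r * z := by
      rw [h1, mul_assoc r a z, X.HQ.large.comm_z a ha, ← mul_assoc, mul_inv_cancel_right]
    rw [h3] at h2
    have h4 := P.mul_mem (P.inv_mem hr') h2
    rwa [inv_mul_cancel_left] at h4

theorem sq_R (X : Ctx Q P z y) {r : G} (hr : r ∈ Q) (hr' : r ∈ P) : r * r = 1 := by
  rcases X.HQ.large.sq r hr with h1 | h1
  · exact h1
  · exfalso
    apply X.z_notMem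
    rw [← h1]; exact P.mul_mem hr' hr'

/-- `[A, B] ≤ Q ∩ P`. -/
theorem comm_AB (X : Ctx Q P z y) {a b : G} (ha : a ∈ Q) (hay : a * y = y * a) (hb : b ∈ P)
    (hbz : b * z = z * b) : b * a * b⁻¹ * a⁻¹ ∈ Q ∧ b * a * b⁻¹ * a⁻¹ ∈ P := by
  constructor
  · exact Q.mul_mem (X.HQ.large.conj_mem b hbz a ha) (Q.inv_mem ha)
  · have h1 := P.mul_mem hb (X.HP.large.conj_mem a hay b⁻¹ (P.inv_mem hb))
    have e : b * (a * b⁻¹ * a⁻¹) = b * a * b⁻¹ * a⁻¹ := by group
    rwa [e] at h1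

/-- Weak closure: if `[x, y] ∈ P` then `x` commutes with `y`. -/
theorem comm_of_mem (X : Ctx Q P z y) {x : G} (hx : x * y * x⁻¹ * y⁻¹ ∈ P) : x * y = y * x := by
  have h1 : x * y * x⁻¹ ∈ P := by
    have := P.mul_mem hx X.HP.large.z_mem
    rwa [inv_mul_cancel_right] at this
  exact mul_inv_eq_iff_eq_mul.1 (X.wP x h1)

theorem comm_mem_Q (X : Ctx Q P z y) {x : G} (hx : x ∈ Q) : x * y * x⁻¹ * y⁻¹ ∈ Q := by
  have h1 := Q.mul_mem hx (X.HQ.large.conj_mem y X.yz x⁻¹ (Q.inv_mem hx))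
  have e : x * (y * x⁻¹ * y⁻¹) = x * y * x⁻¹ * y⁻¹ := by group
  rwa [e] at h1

/-! #### the vector space side -/

/-- `C_V(y)` -/
def FV (X : Ctx Q P z y) : Submodule (ZMod 2) X.HQ.large.V := fixV X.HQ.large X.Y

/-- `[V, y]` -/
noncomputable def FF (X : Ctx Q P z y) : Submodule (ZMod 2) X.HQ.large.V :=
  perp X.HQ.large X.FV

theorem act_Y_pr (X : Ctx Q P z y) (x : Q) :
    X.HQ.large.act X.Y (X.HQ.large.pr x) =
      X.HQ.large.pr ⟨y * x * y⁻¹, X.HQ.large.conj_mem y X.yz x x.2⟩ :=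
  X.HQ.large.act_pr X.Y x

theorem act_Y_Y (X : Ctx Q P z y) (v : X.HQ.large.V) :
    X.HQ.large.act X.Y (X.HQ.large.act X.Y v) = v := by
  rw [act_act, X.Y_mul, act_one]

theorem pr_mem_FV (X : Ctx Q P z y) (x : Q) :
    X.HQ.large.pr x ∈ X.FV ↔ y * (x : G) * y⁻¹ = x ∨ y * (x : G) * y⁻¹ = x * z := by
  show X.HQ.large.act X.Y (X.HQ.large.pr x) = _ ↔ _
  rw [act_Y_pr, X.HQ.large.pr_eq_pr]

theorem pr_add_self {h : Large Q z} (x : Q) : h.pr x + h.pr x = 0 := h.add_self _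

/-- `y x y⁻¹ x⁻¹` lifts `(y + 1) x`. -/
theorem pr_comm (X : Ctx Q P z y) (x : Q) :
    X.HQ.large.pr ⟨y * x * y⁻¹ * (x : G)⁻¹,
        Q.mul_mem (X.HQ.large.conj_mem y X.yz x x.2) (Q.inv_mem x.2)⟩ =
      X.HQ.large.act X.Y (X.HQ.large.pr x) + X.HQ.large.pr x := by
  rw [act_Y_pr, ← X.HQ.large.neg_eq (X.HQ.large.pr x), ← X.HQ.large.pr_inv, ← X.HQ.large.pr_mul]
  rfl

/-- `x y x⁻¹ y⁻¹` lifts `(y + 1) x`. -/
theorem pr_comm' (X : Ctx Q P z y) (x : Q) :
    X.HQ.large.pr ⟨x * y * (x : G)⁻¹ * y⁻¹, X.comm_mem_Q x.2⟩ =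
      X.HQ.large.act X.Y (X.HQ.large.pr x) + X.HQ.large.pr x := by
  have e : (⟨x * y * (x : G)⁻¹ * y⁻¹, X.comm_mem_Q x.2⟩ : Q) =
      (⟨y * x * y⁻¹ * (x : G)⁻¹,
        Q.mul_mem (X.HQ.large.conj_mem y X.yz x x.2) (Q.inv_mem x.2)⟩ : Q)⁻¹ := by
    apply Subtype.ext
    show x * y * (x : G)⁻¹ * y⁻¹ = (y * x * y⁻¹ * (x : G)⁻¹)⁻¹
    group
  rw [e, X.HQ.large.pr_inv, X.HQ.large.neg_eq, pr_comm]

/-- `A / ⟨z⟩`, `A = C_Q(y)` -/
def WA (X : Ctx Q P z y) : Submodule (ZMod 2) X.HQ.large.V where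
  carrier := {v | ∃ x : Q, X.HQ.large.pr x = v ∧ (x : G) * y = y * x}
  add_mem' := by
    rintro _ _ ⟨a, rfl, ha⟩ ⟨b, rfl, hb⟩
    refine ⟨a * b, rfl, ?_⟩
    rw [Subgroup.coe_mul, mul_assoc, hb, ← mul_assoc, ha, mul_assoc]
  zero_mem' := ⟨1, rfl, by simp⟩
  smul_mem' := by
    rintro c _ ⟨a, rfl, ha⟩
    rcases zmod2_cases c with rfl | rfl
    · exact ⟨1, by rw [zero_smul]; rfl, by simp⟩
    · exact ⟨a, by rw [one_smul], ha⟩

theorem pr_mem_WA (X : Ctx Q P z y) (x : Q) :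
    X.HQ.large.pr x ∈ X.WA ↔ (x : G) * y = y * x := by
  constructor
  · rintro ⟨x', h1, h2⟩
    rcases X.HQ.large.pr_eq_pr.1 h1 with h3 | h3
    · rw [← h3]; exact h2
    · have h4 : (x : G) = x' * z := by rw [h3, mul_assoc, X.zz, mul_one]
      rw [h4, mul_assoc, ← X.yz, ← mul_assoc, h2, mul_assoc]
  · intro h1; exact ⟨x, rfl, h1⟩

theorem WA_le (X : Ctx Q P z y) : X.WA ≤ X.FV := by
  intro v hv
  obtain ⟨x, rfl⟩ := X.HQ.large.pr_surjective v
  rw [pr_mem_WA] at hv
  rw [pr_mem_FV]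
  left
  rw [← hv, mul_inv_cancel_right]

/-- The image of `Q ∩ P` in `V`. -/
def RV (X : Ctx Q P z y) : Submodule (ZMod 2) X.HQ.large.V where
  carrier := {v | ∃ x : Q, X.HQ.large.pr x = v ∧ (x : G) ∈ P}
  add_mem' := by
    rintro _ _ ⟨a, rfl, ha⟩ ⟨b, rfl, hb⟩
    exact ⟨a * b, rfl, P.mul_mem ha hb⟩
  zero_mem' := ⟨1, rfl, P.one_mem⟩
  smul_mem' := by
    rintro c _ ⟨a, rfl, ha⟩
    rcases zmod2_cases c with rfl | rfl
    · exact ⟨1, by rw [zero_smul]; rfl, P.one_mem⟩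
    · exact ⟨a, by rw [one_smul], ha⟩

theorem RV_le (X : Ctx Q P z y) : X.RV ≤ X.WA := by
  rintro _ ⟨r, rfl, hr⟩
  rw [pr_mem_WA]
  exact X.HP.large.comm_z r hr

theorem b_RV_WA (X : Ctx Q P z y) {r w : X.HQ.large.V} (hr : r ∈ X.RV) (hw : w ∈ X.WA) :
    X.HQ.large.b r w = 0 := by
  obtain ⟨r, rfl, hrP⟩ := hr
  obtain ⟨x, rfl, hx⟩ := hw
  rw [X.HQ.large.b_pr]
  exact (X.comm_R x.2 hx r.2 hrP).symm

theorem RV_le_perp (X : Ctx Q P z y) : X.RV ≤ perp X.HQ.large X.WA := by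
  intro r hr
  rw [mem_perp']
  intro w hw
  exact X.b_RV_WA hr hw

theorem q_RV (X : Ctx Q P z y) {r : X.HQ.large.V} (hr : r ∈ X.RV) : X.HQ.large.q r = 0 := by
  obtain ⟨r, rfl, hrP⟩ := hr
  rw [X.HQ.large.q_eq_zero]
  exact X.sq_R r.2 hrP

/-- A vector fixed by `y`, not in `A/⟨z⟩`: its lifts are not centralised by `y`. -/
theorem conj_of_notMem_WA (X : Ctx Q P z y) {x : Q} (h1 : X.HQ.large.pr x ∈ X.FV)
    (h2 : X.HQ.large.pr x ∉ X.WA) : y * (x : G) * y⁻¹ = x * z := by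
  rcases (X.pr_mem_FV x).1 h1 with h3 | h3
  · exfalso; apply h2
    rw [pr_mem_WA]
    exact (mul_inv_eq_iff_eq_mul.1 h3).symm
  · exact h3

/-- `A/⟨z⟩` has index at most two in `C_V(y)`. -/
theorem WA_index (X : Ctx Q P z y) {v w : X.HQ.large.V} (hv : v ∈ X.FV) (hw : w ∈ X.FV)
    (hv' : v ∉ X.WA) (hw' : w ∉ X.WA) : v + w ∈ X.WA := by
  obtain ⟨x, rfl⟩ := X.HQ.large.pr_surjective v
  obtain ⟨x', rfl⟩ := X.HQ.large.pr_surjective w
  rw [← X.HQ.large.pr_mul, pr_mem_WA]
  have h1 := X.conj_of_notMem_WA hv hv'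
  have h2 := X.conj_of_notMem_WA hw hw'
  have hc := X.HQ.large.comm_z x' x'.2
  rw [eq_comm, ← mul_inv_eq_iff_eq_mul, Subgroup.coe_mul]
  calc y * ((x : G) * x') * y⁻¹ = (y * x * y⁻¹) * (y * x' * y⁻¹) := by group
    _ = (x * z) * (x' * z) := by rw [h1, h2]
    _ = x * (z * x') * z := by group
    _ = x * x' * (z * z) := by rw [← hc]; group
    _ = x * x' := by rw [X.zz, mul_one]

end Ctx

end Cfsg.Agent.CoOneNWC
end

-- part: CoOneNWC/Closure
section
/-!
# Commuting pairs: the case `C_Q(y)` covers `C_V(y)`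

`X.WA = X.FV`: then `C_C(y)` contains enough elements to see that the image of `Q ∩ P` in `[V, y]` is closed
under `β`-non-orthogonal vectors, `β((y+1)v, w) = b(v, w)`.
-/

set_option autoImplicit false

namespace Cfsg.Agent.CoOneNWC

open Cfsg.Agent.Co2Type.Quad Module

namespace Ctx

variable {G : Type*} [Group G] [Finite G] {Q P : Subgroup G} {z y : G}

theorem mem_FF (X : Ctx Q P z y) (v : X.HQ.large.V) :
    v ∈ X.FF ↔ ∃ w, v = X.HQ.large.act X.Y w + w := mem_perp_fixV X.HQ.large X.Y v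

theorem act_add_mem_FF (X : Ctx Q P z y) (v : X.HQ.large.V) :
    X.HQ.large.act X.Y v + v ∈ X.FF := (X.mem_FF _).2 ⟨v, rfl⟩

theorem FF_le_FV (X : Ctx Q P z y) : X.FF ≤ X.FV := by
  intro v hv
  obtain ⟨w, rfl⟩ := (X.mem_FF v).1 hv
  show X.HQ.large.act X.Y (X.HQ.large.act X.Y w + w) = _
  rw [map_add, X.act_Y_Y, add_comm]

theorem perp_FF (X : Ctx Q P z y) : perp X.HQ.large X.FF = X.FV := perp_perp _ _

theorem perp_FV (X : Ctx Q P z y) : perp X.HQ.large X.FV = X.FF := rfl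

theorem b_FF_FV (X : Ctx Q P z y) {f w : X.HQ.large.V} (hf : f ∈ X.FF) (hw : w ∈ X.FV) :
    X.HQ.large.b f w = 0 := (mem_perp' _).1 hf w hw

theorem b_act_Y (X : Ctx Q P z y) (v w : X.HQ.large.V) :
    X.HQ.large.b (X.HQ.large.act X.Y v) w = X.HQ.large.b v (X.HQ.large.act X.Y w) := by
  rw [b_act_left, X.Y_inv]

/-- symmetry of `β` -/
theorem b_symm (X : Ctx Q P z y) (v w : X.HQ.large.V) :
    X.HQ.large.b (X.HQ.large.act X.Y v + v) w = X.HQ.large.b v (X.HQ.large.act X.Y w + w) := by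
  rw [map_add, LinearMap.add_apply, b_act_Y, map_add]

/-- `[V, y]` meets `A/⟨z⟩` in the singular vectors. -/
theorem mem_WA_iff (X : Ctx Q P z y) {f : X.HQ.large.V} (hf : f ∈ X.FF) :
    f ∈ X.WA ↔ X.HQ.large.q f = 0 := by
  obtain ⟨w, rfl⟩ := (X.mem_FF f).1 hf
  obtain ⟨x, rfl⟩ := X.HQ.large.pr_surjective w
  rw [← X.pr_comm x, X.pr_mem_WA, X.HQ.large.q_eq_zero]
  show y * x * y⁻¹ * (x : G)⁻¹ * y = y * (y * x * y⁻¹ * (x : G)⁻¹) ↔
    y * x * y⁻¹ * (x : G)⁻¹ * (y * x * y⁻¹ * (x : G)⁻¹) = 1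
  set k : G := y * x * y⁻¹ * (x : G)⁻¹ with hk
  have h1 : y * k * y⁻¹ = k⁻¹ := by
    rw [hk, X.y_inv]
    calc y * (y * x * y * (x : G)⁻¹) * y = (y * y) * (x * y * (x : G)⁻¹ * y) := by group
      _ = x * y⁻¹ * (x : G)⁻¹ * y⁻¹ := by rw [X.yy, X.y_inv, one_mul]
      _ = (y * x * y * (x : G)⁻¹)⁻¹ := by group
  constructor
  · intro h2
    have h3 : k = k⁻¹ := by rw [← h1, ← h2, mul_inv_cancel_right]
    nth_rewrite 2 [h3]
    exact mul_inv_cancel k
  · intro h2
    have h3 : k⁻¹ = k := inv_eq_of_mul_eq_one_left h2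
    rw [h3] at h1
    exact (mul_inv_eq_iff_eq_mul.1 h1).symm

theorem finrank_FF (X : Ctx Q P z y) : finrank (ZMod 2) X.FF + finrank (ZMod 2) X.FV = 8 := by
  rw [← X.HQ.finrank_V]
  exact finrank_perp X.HQ.large X.FV

theorem FV_ne_top (X : Ctx Q P z y) : X.FV ≠ ⊤ := by
  intro h1
  apply X.y_notMem
  have h2 : X.HQ.large.act X.Y = 1 := by
    apply LinearEquiv.ext
    intro v
    have : v ∈ X.FV := by rw [h1]; exact Submodule.mem_top
    exact this
  exact X.HQ.large.mem_of_act X.Y h2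

/-- The two possibilities for `dim C_V(y)`. -/
theorem finrank_FV (X : Ctx Q P z y) :
    finrank (ZMod 2) X.FV = 4 ∨ finrank (ZMod 2) X.FV = 6 := by
  have hfin := finite_V X.HQ.large
  have h1 := X.finrank_FF
  have h2 := Submodule.finrank_mono X.FF_le_FV
  have h3 : Even (finrank (ZMod 2) X.FV) := X.HQ.even_fix X.Y
  have h4 : finrank (ZMod 2) X.FV ≠ 8 := by
    intro h4
    apply X.FV_ne_top
    apply Submodule.eq_top_of_finrank_eq
    rw [h4, X.HQ.finrank_V]
  obtain ⟨k, hk⟩ := h3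
  omega

section full

variable (X : Ctx Q P z y) (hW : X.WA = X.FV)

include hW

theorem q_FF {f : X.HQ.large.V} (hf : f ∈ X.FF) : X.HQ.large.q f = 0 := by
  rw [← X.mem_WA_iff hf, hW]
  exact X.FF_le_FV hf

theorem RV_le_FF : X.RV ≤ X.FF := by
  have := X.RV_le_perp
  rwa [hW] at this

/-- Distinct non-zero vectors `r, s` of the image of `Q ∩ P` satisfy `β(r, s) = 1`. -/
theorem beta_RV {r s v : X.HQ.large.V} (hr : r ∈ X.RV) (hs : s ∈ X.RV) (hr0 : r ≠ 0)
    (hs0 : s ≠ 0) (hrs : r ≠ s) (hv : X.HQ.large.act X.Y v + v = r) :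
    X.HQ.large.b v s = 1 := by
  obtain ⟨w, hw⟩ := (X.mem_FF s).1 (X.RV_le_FF hW hs)
  -- a commutator `[x, y]` lifting a non-zero vector of `RV` is `z` times an element of `P`
  have key : ∀ (x : Q) (t : X.HQ.large.V), X.HQ.large.act X.Y (X.HQ.large.pr x) +
      X.HQ.large.pr x = t → t ∈ X.RV → t ≠ 0 →
      ∃ r : G, r ∈ Q ∧ r ∈ P ∧ x * y * (x : G)⁻¹ * y⁻¹ = r * z := by
    rintro x _ h1 ⟨r, rfl, hrP⟩ h2
    rw [← X.pr_comm', X.HQ.large.pr_eq_pr] at h1
    rcases h1 with h1 | h1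
    · exfalso
      have h3 : (x : G) * y = y * x := X.comm_of_mem (by
        have : (x : G) * y * (x : G)⁻¹ * y⁻¹ = r := h1
        rw [this]; exact hrP)
      apply h2
      have h4 : (r : G) = 1 := by
        rw [← h1]
        show (x : G) * y * (x : G)⁻¹ * y⁻¹ = 1
        rw [h3]; group
      rw [X.HQ.large.pr_eq_zero]; exact Or.inl h4
    · exact ⟨r, r.2, hrP, h1⟩
  obtain ⟨x, rfl⟩ := X.HQ.large.pr_surjective v
  obtain ⟨x', rfl⟩ := X.HQ.large.pr_surjective w
  obtain ⟨r1, hr1Q, hr1P, hr1⟩ := key x r hv hr hr0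
  obtain ⟨s1, hs1Q, hs1P, hs1⟩ := key x' s hw.symm hs hs0
  by_contra hcon
  have hb0 : X.HQ.large.b (X.HQ.large.pr x) s = 0 := (zmod2_cases _).resolve_right hcon
  have hsl : s = X.HQ.large.pr ⟨s1, hs1Q⟩ := by
    rw [hw, ← X.pr_comm', X.HQ.large.pr_eq_pr]
    exact Or.inr hs1
  have hrl : r = X.HQ.large.pr ⟨r1, hr1Q⟩ := by
    rw [← hv, ← X.pr_comm', X.HQ.large.pr_eq_pr]
    exact Or.inr hr1
  rw [hsl, X.HQ.large.b_pr] at hb0
  have hb1 : (x : G) * s1 = s1 * x := hb0
  -- `[x x', y] = s1 r1`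
  have hxz := X.HQ.large.comm_z x x.2
  have hrz := X.HQ.large.comm_z r1 hr1Q
  have e1 : ((x : G) * x') * y * ((x : G) * x')⁻¹ * y⁻¹ = s1 * r1 := by
    calc ((x : G) * x') * y * ((x : G) * x')⁻¹ * y⁻¹
        = x * (x' * y * (x' : G)⁻¹ * y⁻¹) * (x : G)⁻¹ * (x * y * (x : G)⁻¹ * y⁻¹) := by group
      _ = x * (s1 * z) * (x : G)⁻¹ * (r1 * z) := by rw [hr1, hs1]
      _ = (x * s1) * z * (x : G)⁻¹ * (r1 * z) := by group
      _ = s1 * (x * z) * (x : G)⁻¹ * (r1 * z) := by rw [hb1]; group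
      _ = s1 * z * (r1 * z) := by rw [hxz]; group
      _ = s1 * (z * (z * r1)) := by rw [← hrz]; group
      _ = s1 * ((z * z) * r1) := by group
      _ = s1 * r1 := by rw [X.zz, one_mul]
  have h5 : ((x : G) * x') * y = y * ((x : G) * x') := X.comm_of_mem (by
    rw [e1]; exact P.mul_mem hs1P hr1P)
  have h6 : s1 * r1 = 1 := by rw [← e1, h5]; group
  apply hrs
  rw [hsl, hrl]
  have h7 : r1 = s1 := by
    have h8 := X.sq_R hs1Q hs1P
    calc r1 = (s1 * s1) * r1 := by rw [h8, one_mul]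
      _ = s1 * (s1 * r1) := by group
      _ = s1 := by rw [h6, mul_one]
  congr 1
  exact Subtype.ext h7

/-- An element of `C_G(z)` commuting with `y` modulo `Q` can be adjusted by `Q` so as to fix `y` or to
map it to `y z`. -/
theorem exists_adjust (c : Subgroup.centralizer ({z} : Set G))
    (hc : ∀ v, X.HQ.large.act c (X.HQ.large.act X.Y v) = X.HQ.large.act X.Y (X.HQ.large.act c v)) :
    ∃ x : Q, ((x : G)⁻¹ * c) * y * ((x : G)⁻¹ * c)⁻¹ = y ∨
      ((x : G)⁻¹ * c) * y * ((x : G)⁻¹ * c)⁻¹ = y * z := by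
  have hcz := Subgroup.mem_centralizer_singleton_iff.1 c.2
  set k : G := c * y * (c : G)⁻¹ * y⁻¹ with hk
  have hkQ : k ∈ Q := by
    have h1 : X.HQ.large.act (c * X.Y * c⁻¹ * X.Y⁻¹) = 1 := by
      apply LinearEquiv.ext
      intro v
      rw [← act_act, ← act_act, ← act_act, X.Y_inv]
      show _ = v
      rw [hc, act_act_inv, X.act_Y_Y]
    exact X.HQ.large.mem_of_act _ h1
  -- `k` commutes with the preimage of `C_V(y)`
  have hcomm : ∀ x : Q, X.HQ.large.pr x ∈ X.FV → (x : G) * k = k * x := by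
    intro x hx
    have h1 : (x : G) * y = y * x := by rwa [← X.pr_mem_WA, hW]
    have h2 : X.HQ.large.pr (X.HQ.large.conjQ c⁻¹ x) ∈ X.WA := by
      rw [hW, ← X.HQ.large.act_pr]
      show X.HQ.large.act X.Y _ = _
      have h3 := hc (X.HQ.large.act c⁻¹ (X.HQ.large.pr x))
      rw [act_act_inv] at h3
      have h4 : X.HQ.large.act X.Y (X.HQ.large.pr x) = X.HQ.large.pr x := hx
      rw [h4] at h3
      conv_rhs => rw [← h3]
      rw [act_inv_act]
    rw [X.pr_mem_WA] at h2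
    have h3 : ((c : G)⁻¹ * x * (c : G)) * y = y * ((c : G)⁻¹ * x * c) := by
      have : ((X.HQ.large.conjQ c⁻¹ x : Q) : G) = (c : G)⁻¹ * x * c := by
        rw [X.HQ.large.conjQ_coe]
        show (c : G)⁻¹ * x * ((c : G)⁻¹)⁻¹ = _
        rw [inv_inv]
      rwa [this] at h2
    have h4 : (x : G) * (c * y * (c : G)⁻¹) = (c * y * (c : G)⁻¹) * x := by
      calc (x : G) * (c * y * (c : G)⁻¹) = c * (((c : G)⁻¹ * x * c) * y) * (c : G)⁻¹ := by group
        _ = c * (y * ((c : G)⁻¹ * x * c)) * (c : G)⁻¹ := by rw [h3]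
        _ = _ := by group
    have h5 : (x : G) * y⁻¹ = y⁻¹ * x := by rw [X.y_inv]; exact h1
    calc (x : G) * k = (x * (c * y * (c : G)⁻¹)) * y⁻¹ := by rw [hk]; group
      _ = (c * y * (c : G)⁻¹) * (x * y⁻¹) := by rw [h4]; group
      _ = k * x := by rw [h5, hk]; group
  have hkF : X.HQ.large.pr ⟨k, hkQ⟩ ∈ X.FF := by
    show X.HQ.large.pr ⟨k, hkQ⟩ ∈ perp X.HQ.large X.FV
    rw [mem_perp']
    intro w hw
    obtain ⟨x, rfl⟩ := X.HQ.large.pr_surjective w
    rw [X.HQ.large.b_pr]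
    exact (hcomm x hw).symm
  obtain ⟨w, hw⟩ := (X.mem_FF _).1 hkF
  obtain ⟨x, rfl⟩ := X.HQ.large.pr_surjective w
  rw [← X.pr_comm', X.HQ.large.pr_eq_pr] at hw
  have hxz := X.HQ.large.comm_z x x.2
  refine ⟨x, ?_⟩
  have e1 : ((x : G)⁻¹ * c) * y * ((x : G)⁻¹ * c)⁻¹ = (x : G)⁻¹ * (k * y) * x := by
    rw [hk]; group
  rw [e1]
  rcases hw with hw | hw
  · left
    have hw' : k = x * y * (x : G)⁻¹ * y⁻¹ := hw
    rw [hw']; group
  · right
    have hw' : k = x * y * (x : G)⁻¹ * y⁻¹ * z := hw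
    calc (x : G)⁻¹ * (k * y) * x = (x : G)⁻¹ * (x * y * (x : G)⁻¹ * y⁻¹ * z * y) * x := by rw [hw']
      _ = y * (x : G)⁻¹ * y⁻¹ * (z * y) * x := by group
      _ = y * (x : G)⁻¹ * y⁻¹ * (y * z) * x := by rw [X.yz]
      _ = y * (x : G)⁻¹ * (z * x) := by group
      _ = y * (x : G)⁻¹ * (x * z) := by rw [hxz]
      _ = y * z := by group

/-- Squares of products of two such elements are induced by elements of `C_G(z) ∩ C_G(y)`. -/
theorem exists_sq (c₁ c₂ : Subgroup.centralizer ({z} : Set G))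
    (h₁ : ∀ v, X.HQ.large.act c₁ (X.HQ.large.act X.Y v) = X.HQ.large.act X.Y (X.HQ.large.act c₁ v))
    (h₂ : ∀ v, X.HQ.large.act c₂ (X.HQ.large.act X.Y v) = X.HQ.large.act X.Y (X.HQ.large.act c₂ v)) :
    ∃ d : Subgroup.centralizer ({z} : Set G), (d : G) * y = y * d ∧
      ∀ v, X.HQ.large.act d v = X.HQ.large.act c₁ (X.HQ.large.act c₂
        (X.HQ.large.act c₁ (X.HQ.large.act c₂ v))) := by
  obtain ⟨x₁, hx₁⟩ := X.exists_adjust hW c₁ h₁
  obtain ⟨x₂, hx₂⟩ := X.exists_adjust hW c₂ h₂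
  have hx : ∀ x : Q, (x : G) ∈ Subgroup.centralizer ({z} : Set G) := fun x =>
    Subgroup.mem_centralizer_singleton_iff.2 (X.HQ.large.comm_z x x.2)
  obtain ⟨d₁, hd₁⟩ : ∃ d : Subgroup.centralizer ({z} : Set G), d = ⟨x₁, hx x₁⟩⁻¹ * c₁ := ⟨_, rfl⟩
  obtain ⟨d₂, hd₂⟩ : ∃ d : Subgroup.centralizer ({z} : Set G), d = ⟨x₂, hx x₂⟩⁻¹ * c₂ := ⟨_, rfl⟩
  have ha₁ : ∀ v, X.HQ.large.act d₁ v = X.HQ.large.act c₁ v := by
    intro v
    rw [hd₁, ← act_act, map_inv, X.HQ.large.act_mem ⟨x₁, hx x₁⟩ x₁.2, inv_one]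
    rfl
  have ha₂ : ∀ v, X.HQ.large.act d₂ v = X.HQ.large.act c₂ v := by
    intro v
    rw [hd₂, ← act_act, map_inv, X.HQ.large.act_mem ⟨x₂, hx x₂⟩ x₂.2, inv_one]
    rfl
  have hz : ∀ d : Subgroup.centralizer ({z} : Set G), (d : G) * z * (d : G)⁻¹ = z := by
    intro d
    rw [Subgroup.mem_centralizer_singleton_iff.1 d.2, mul_inv_cancel_right]
  have hy₁ : (d₁ : G) * y * (d₁ : G)⁻¹ = y ∨ (d₁ : G) * y * (d₁ : G)⁻¹ = y * z := by
    rw [hd₁]; exact hx₁
  have hy₂ : (d₂ : G) * y * (d₂ : G)⁻¹ = y ∨ (d₂ : G) * y * (d₂ : G)⁻¹ = y * z := by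
    rw [hd₂]; exact hx₂
  obtain ⟨e, he⟩ : ∃ e : Subgroup.centralizer ({z} : Set G), e = d₁ * d₂ := ⟨_, rfl⟩
  have hye : (e : G) * y * (e : G)⁻¹ = y ∨ (e : G) * y * (e : G)⁻¹ = y * z := by
    have e1 : (e : G) * y * (e : G)⁻¹ = d₁ * (d₂ * y * (d₂ : G)⁻¹) * (d₁ : G)⁻¹ := by
      rw [he, Subgroup.coe_mul]; group
    have e2 : (d₁ : G) * (y * z) * (d₁ : G)⁻¹ = (d₁ * y * (d₁ : G)⁻¹) * z := by
      calc (d₁ : G) * (y * z) * (d₁ : G)⁻¹ = (d₁ * y * (d₁ : G)⁻¹) * (d₁ * z * (d₁ : G)⁻¹) := by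
            group
        _ = _ := by rw [hz]
    rw [e1]
    rcases hy₂ with h3 | h3 <;> rw [h3]
    · exact hy₁
    · rw [e2]
      rcases hy₁ with h4 | h4 <;> rw [h4]
      · exact Or.inr rfl
      · left; rw [mul_assoc, X.zz, mul_one]
  refine ⟨e * e, ?_, ?_⟩
  · rw [← mul_inv_eq_iff_eq_mul]
    have e1 : ((e * e : Subgroup.centralizer ({z} : Set G)) : G) * y *
        ((e * e : Subgroup.centralizer ({z} : Set G)) : G)⁻¹ =
        e * (e * y * (e : G)⁻¹) * (e : G)⁻¹ := by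
      rw [Subgroup.coe_mul]; group
    rw [e1]
    rcases hye with h3 | h3
    · rw [h3, h3]
    · rw [h3]
      calc (e : G) * (y * z) * (e : G)⁻¹ = (e * y * (e : G)⁻¹) * (e * z * (e : G)⁻¹) := by group
        _ = y * z * z := by rw [hz, h3]
        _ = y := by rw [mul_assoc, X.zz, mul_one]
  · intro v
    have e2 : ∀ v, X.HQ.large.act e v = X.HQ.large.act c₁ (X.HQ.large.act c₂ v) := by
      intro v
      rw [he, ← act_act, ha₁, ha₂]
    rw [← act_act, e2, e2]

omit hW in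
/-- `C_G(z) ∩ C_G(y)` preserves the image of `Q ∩ P`. -/
theorem act_RV (d : Subgroup.centralizer ({z} : Set G)) (hd : (d : G) * y = y * d)
    {v : X.HQ.large.V} (hv : v ∈ X.RV) : X.HQ.large.act d v ∈ X.RV := by
  obtain ⟨r, rfl, hr⟩ := hv
  rw [X.HQ.large.act_pr]
  refine ⟨_, rfl, ?_⟩
  rw [X.HQ.large.conjQ_coe]
  exact X.HP.large.conj_mem d hd r hr

/-- Given `a ∈ [V, y]`, `a = (y + 1) v`, there is a singular vector `x ∈ v + [V, y]`. -/
theorem exists_singular {a v : X.HQ.large.V} (ha : a ≠ 0) (hv : X.HQ.large.act X.Y v + v = a) :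
    ∃ f ∈ X.FF, X.HQ.large.q (v + f) = 0 := by
  rcases zmod2_cases (X.HQ.large.q v) with h0 | h0
  · exact ⟨0, X.FF.zero_mem, by rw [add_zero]; exact h0⟩
  · have h1 : v ∉ X.FV := by
      intro h2
      apply ha
      rw [← hv]
      have : X.HQ.large.act X.Y v = v := h2
      rw [this, X.HQ.large.add_self]
    rw [← X.perp_FF] at h1
    rw [mem_perp'] at h1
    push Not at h1
    obtain ⟨f, hf, hbf⟩ := h1
    refine ⟨f, hf, ?_⟩
    rw [X.HQ.large.q_add', h0, X.q_FF hW hf, (zmod2_cases _).resolve_left hbf]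
    decide

/-- For `a = (y + 1) v ≠ 0` there is an element of `C_G(z)` acting as a Siegel transformation which commutes
with `y` and induces on `[V, y]` the transvection `f ↦ f + b(f, v) a`. -/
theorem exists_tv {a v : X.HQ.large.V} (ha : a ≠ 0) (hv : X.HQ.large.act X.Y v + v = a) :
    ∃ (c : Subgroup.centralizer ({z} : Set G)) (x : X.HQ.large.V), 
      (∀ u, X.HQ.large.act c (X.HQ.large.act X.Y u) = X.HQ.large.act X.Y (X.HQ.large.act c u)) ∧
      (∀ f ∈ X.FF, X.HQ.large.b f x = X.HQ.large.b f v) ∧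
      (∀ u, X.HQ.large.act c u = u + X.HQ.large.b u a • x + X.HQ.large.b u x • a) := by
  obtain ⟨f, hf, hqf⟩ := X.exists_singular hW ha hv
  have haF : a ∈ X.FF := by rw [← hv]; exact X.act_add_mem_FF v
  have hYf : X.HQ.large.act X.Y f = f := X.FF_le_FV hf
  obtain ⟨x, hx⟩ : ∃ x, x = v + f := ⟨_, rfl⟩
  have hYx : X.HQ.large.act X.Y x = x + a := by
    rw [hx, map_add, hYf, ← hv]
    have : X.HQ.large.act X.Y v = v + (X.HQ.large.act X.Y v + v) := by
      rw [add_comm (X.HQ.large.act X.Y v) v, ← add_assoc, X.HQ.large.add_self, zero_add]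
    conv_lhs => rw [this]
    abel
  have hqa : X.HQ.large.q a = 0 := X.q_FF hW haF
  have hax : X.HQ.large.b a x = 0 := by
    have h1 := q_act_add X.HQ.large X.Y x
    rw [hYx] at h1
    have h2 : x + a + x = a := by
      have : x + a + x = a + (x + x) := by abel
      rw [this, X.HQ.large.add_self, add_zero]
    rw [h2, hqa, map_add, LinearMap.add_apply, X.HQ.large.b_self, zero_add] at h1
    exact h1.symm
  rw [← hx] at hqf
  obtain ⟨c, hc⟩ := X.HQ.exists_siegel hqa hqf hax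
  refine ⟨c, x, ?_, ?_, hc⟩
  · intro u
    have hYa : X.HQ.large.act X.Y a = a := X.FF_le_FV haF
    rw [hc, hc, map_add, map_add, map_smul, map_smul, hYx, hYa, X.b_act_Y, X.b_act_Y, hYa, hYx,
      map_add (X.HQ.large.b u), smul_add, add_smul]
    abel
  · intro f' hf'
    rw [hx, map_add, X.b_FF_FV hf' (X.FF_le_FV hf), add_zero]

/-- Closure: if `ρ ∈ RV` and `β(m, ρ) = 1` then `m ∈ RV`. -/
theorem mem_RV_of_beta {ρ v : X.HQ.large.V} (hρ : ρ ∈ X.RV) (hb : X.HQ.large.b v ρ = 1) :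
    X.HQ.large.act X.Y v + v ∈ X.RV := by
  set m : X.HQ.large.V := X.HQ.large.act X.Y v + v with hm
  have hρF := X.RV_le_FF hW hρ
  have hmF : m ∈ X.FF := X.act_add_mem_FF v
  have hm0 : m ≠ 0 := by
    intro h0
    have hvF : v ∈ X.FV := by
      show X.HQ.large.act X.Y v = v
      rw [← add_eq_zero_iff' X.HQ.large]; exact h0
    rw [X.HQ.large.b_comm, X.b_FF_FV hρF hvF] at hb
    exact zero_ne_one hb
  have hvm : X.HQ.large.b v m = 0 := by
    have h1 := q_act_add X.HQ.large X.Y v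
    rw [← hm, X.q_FF hW hmF] at h1
    rw [hm, map_add, X.HQ.large.b_self, add_zero, X.HQ.large.b_comm]
    exact h1.symm
  -- a vector orthogonal to `ρ`, not to `m`
  obtain ⟨w, hwρ, hwm⟩ : ∃ w, X.HQ.large.b w ρ = 0 ∧ X.HQ.large.b w m = 1 := by
    have h1 : m ∉ Submodule.span (ZMod 2) {ρ} := by
      intro h2
      rw [Submodule.mem_span_singleton] at h2
      obtain ⟨a, ha⟩ := h2
      rcases zmod2_cases a with rfl | rfl
      · rw [zero_smul] at ha; exact hm0 ha.symm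
      · rw [one_smul] at ha
        rw [ha, hvm] at hb
        exact zero_ne_one hb
    obtain ⟨w, hw1, hw2⟩ := exists_perp_ne X.HQ.large h1
    refine ⟨w, ?_, hw2⟩
    rw [X.HQ.large.b_comm]
    exact (mem_perp _).1 hw1 ρ (Submodule.mem_span_singleton_self ρ)
  set a : X.HQ.large.V := X.HQ.large.act X.Y w + w with ha
  have haF : a ∈ X.FF := X.act_add_mem_FF w
  have ha0 : a ≠ 0 := by
    intro h0
    have hwF : w ∈ X.FV := by
      show X.HQ.large.act X.Y w = w
      rw [← add_eq_zero_iff' X.HQ.large]; exact h0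
    rw [X.HQ.large.b_comm, X.b_FF_FV hmF hwF] at hwm
    exact zero_ne_one hwm
  have hwa : X.HQ.large.b a w = 0 := by
    have h1 := q_act_add X.HQ.large X.Y w
    rw [← ha, X.q_FF hW haF] at h1
    rw [ha, map_add, LinearMap.add_apply, X.HQ.large.b_self, add_zero]
    exact h1.symm
  have hav : X.HQ.large.b a v = 1 := by
    rw [ha, X.b_symm, ← hm]; exact hwm
  obtain ⟨cm, xm, hcm, hxm, hgm⟩ := X.exists_tv hW hm0 hm.symm
  obtain ⟨ca, xa, hca, hxa, hga⟩ := X.exists_tv hW ha0 ha.symm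
  obtain ⟨d, hdy, hd⟩ := X.exists_sq hW ca cm hca hcm
  have hFm : ∀ f ∈ X.FF, X.HQ.large.act cm f = f + X.HQ.large.b f v • m := by
    intro f hf
    rw [hgm, hxm f hf, X.b_FF_FV hf (X.FF_le_FV hmF), zero_smul, add_zero]
  have hFa : ∀ f ∈ X.FF, X.HQ.large.act ca f = f + X.HQ.large.b f w • a := by
    intro f hf
    rw [hga, hxa f hf, X.b_FF_FV hf (X.FF_le_FV haF), zero_smul, add_zero]
  have hρv : X.HQ.large.b ρ v = 1 := by rw [X.HQ.large.b_comm]; exact hb
  have hρw : X.HQ.large.b ρ w = 0 := by rw [X.HQ.large.b_comm]; exact hwρ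
  have hmw : X.HQ.large.b m w = 1 := by rw [X.HQ.large.b_comm]; exact hwm
  have hmv : X.HQ.large.b m v = 0 := by rw [X.HQ.large.b_comm]; exact hvm
  have s1 : X.HQ.large.act cm ρ = ρ + m := by rw [hFm ρ hρF, hρv, one_smul]
  have s2 : X.HQ.large.act ca (ρ + m) = ρ + m + a := by
    rw [hFa _ (X.FF.add_mem hρF hmF), map_add, LinearMap.add_apply, hρw, hmw, zero_add, one_smul]
  have s3 : X.HQ.large.act cm (ρ + m + a) = ρ + m + a := by
    rw [hFm _ (X.FF.add_mem (X.FF.add_mem hρF hmF) haF), map_add, map_add, LinearMap.add_apply,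
      LinearMap.add_apply, hρv, hmv, hav, add_zero, zmod2_add_self, zero_smul, add_zero]
  have s4 : X.HQ.large.act ca (ρ + m + a) = ρ + m := by
    rw [hFa _ (X.FF.add_mem (X.FF.add_mem hρF hmF) haF), map_add, map_add, LinearMap.add_apply,
      LinearMap.add_apply, hρw, hmw, hwa, zero_add, add_zero, one_smul, add_assoc,
      X.HQ.large.add_self, add_zero]
  have h5 : X.HQ.large.act d ρ = ρ + m := by rw [hd, s1, s2, s3, s4]
  have h6 : ρ + m ∈ X.RV := by rw [← h5]; exact X.act_RV d hdy hρ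
  have h7 := X.RV.add_mem hρ h6
  rwa [← add_assoc, X.HQ.large.add_self, zero_add] at h7

/-- Type 4: `C_V(y) = [V, y]`. -/
theorem RV_eq_bot (h4 : finrank (ZMod 2) X.FV = 4) : X.RV = ⊥ := by
  have hfin := finite_V X.HQ.large
  rw [Submodule.eq_bot_iff]
  intro ρ hρ
  by_contra hρ0
  obtain ⟨v, hv⟩ : ∃ v, X.HQ.large.b v ρ = 1 := by
    by_contra hcon
    push Not at hcon
    apply hρ0
    apply X.HQ.large.b_nondeg
    intro w
    rw [X.HQ.large.b_comm]
    exact (zmod2_cases _).resolve_right (hcon w)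
  set m : X.HQ.large.V := X.HQ.large.act X.Y v + v with hm
  have hmR : m ∈ X.RV := X.mem_RV_of_beta hW hρ hv
  have hmF : m ∈ X.FF := X.RV_le_FF hW hmR
  have hvm : X.HQ.large.b v m = 0 := by
    have h1 := q_act_add X.HQ.large X.Y v
    rw [← hm, X.q_FF hW hmF] at h1
    rw [hm, map_add, X.HQ.large.b_self, add_zero, X.HQ.large.b_comm]
    exact h1.symm
  -- a vector `u` orthogonal to `ρ, m` and not fixed by `y`
  obtain ⟨u, hu, huF⟩ : ∃ u ∈ perp X.HQ.large (Submodule.span (ZMod 2) {ρ, m}), u ∉ X.FV := by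
    by_contra hcon
    push Not at hcon
    have h1 : perp X.HQ.large (Submodule.span (ZMod 2) {ρ, m}) ≤ X.FV := hcon
    have h2 := Submodule.finrank_mono h1
    have h3 := finrank_perp X.HQ.large (Submodule.span (ZMod 2) {ρ, m})
    rw [X.HQ.finrank_V] at h3
    have h5 : finrank (ZMod 2) (Submodule.span (ZMod 2) ({ρ, m} : Set X.HQ.large.V)) ≤ 2 := by
      classical
      have h6 := finrank_span_finset_le_card (R := ZMod 2) ({ρ, m} : Finset X.HQ.large.V)
      have h7 : (({ρ, m} : Finset X.HQ.large.V) : Set X.HQ.large.V) = {ρ, m} := by simp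
      rw [Set.finrank, h7] at h6
      exact h6.trans Finset.card_le_two
    omega
  have huρ : X.HQ.large.b u ρ = 0 :=
    (mem_perp' _).1 hu ρ (Submodule.subset_span (by simp))
  have hum : X.HQ.large.b u m = 0 :=
    (mem_perp' _).1 hu m (Submodule.subset_span (by simp))
  have hvu : X.HQ.large.b (v + u) ρ = 1 := by
    rw [map_add, LinearMap.add_apply, hv, huρ, add_zero]
  have hR2 := X.mem_RV_of_beta hW hρ hvu
  set t : X.HQ.large.V := X.HQ.large.act X.Y u + u with ht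
  have ht0 : t ≠ 0 := by
    intro h0
    apply huF
    show X.HQ.large.act X.Y u = u
    rw [← add_eq_zero_iff' X.HQ.large]; exact h0
  have e1 : X.HQ.large.act X.Y (v + u) + (v + u) = m + t := by
    rw [map_add, hm, ht]; abel
  rw [e1] at hR2
  have hm0 : m ≠ 0 := by
    intro h0
    have hvF : v ∈ X.FV := by
      show X.HQ.large.act X.Y v = v
      rw [← add_eq_zero_iff' X.HQ.large]; exact h0
    rw [X.HQ.large.b_comm, X.b_FF_FV (X.RV_le_FF hW hρ) hvF] at hv
    exact zero_ne_one hv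
  have hmt0 : m + t ≠ 0 := by
    intro h0
    have hvF : v + u ∈ X.FV := by
      show X.HQ.large.act X.Y (v + u) = v + u
      rw [← add_eq_zero_iff' X.HQ.large, e1]; exact h0
    rw [X.HQ.large.b_comm, X.b_FF_FV (X.RV_le_FF hW hρ) hvF] at hvu
    exact zero_ne_one hvu
  have hne : m ≠ m + t := by
    intro h0
    apply ht0
    have := congrArg (fun w => m + w) h0
    simp only [← add_assoc, X.HQ.large.add_self, zero_add] at this
    exact this.symm
  have h8 := X.beta_RV hW hmR hR2 hm0 hmt0 hne hm.symm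
  rw [map_add, hvm, zero_add, ht, ← X.b_symm, ← hm, X.HQ.large.b_comm, hum] at h8
  exact zero_ne_one h8

/-- Type 1: the image of `Q ∩ P` is `0` or `[V, y]`. -/
theorem RV_eq_of_six (h6 : finrank (ZMod 2) X.FV = 6) : X.RV = ⊥ ∨ X.RV = X.FF := by
  have hfin := finite_V X.HQ.large
  by_cases hbot : X.RV = ⊥
  · exact Or.inl hbot
  right
  obtain ⟨ρ, hρ, hρ0⟩ := (Submodule.ne_bot_iff _).1 hbot
  obtain ⟨v, hv⟩ : ∃ v, X.HQ.large.b v ρ = 1 := by
    by_contra hcon
    push Not at hcon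
    apply hρ0
    apply X.HQ.large.b_nondeg
    intro w
    rw [X.HQ.large.b_comm]
    exact (zmod2_cases _).resolve_right (hcon w)
  set m : X.HQ.large.V := X.HQ.large.act X.Y v + v with hm
  have hmR : m ∈ X.RV := X.mem_RV_of_beta hW hρ hv
  have hmF : m ∈ X.FF := X.RV_le_FF hW hmR
  have hvm : X.HQ.large.b v m = 0 := by
    have h1 := q_act_add X.HQ.large X.Y v
    rw [← hm, X.q_FF hW hmF] at h1
    rw [hm, map_add, X.HQ.large.b_self, add_zero, X.HQ.large.b_comm]
    exact h1.symm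
  have hm0 : m ≠ 0 := by
    intro h0
    have hvF : v ∈ X.FV := by
      show X.HQ.large.act X.Y v = v
      rw [← add_eq_zero_iff' X.HQ.large]; exact h0
    rw [X.HQ.large.b_comm, X.b_FF_FV (X.RV_le_FF hW hρ) hvF] at hv
    exact zero_ne_one hv
  apply Submodule.eq_of_le_of_finrank_le (X.RV_le_FF hW)
  have h7 := X.finrank_FF
  have h8 : finrank (ZMod 2) X.FF = 2 := by omega
  rw [h8]
  -- two independent vectors
  have h9 : LinearIndependent (ZMod 2) ![(⟨ρ, hρ⟩ : X.RV), ⟨m, hmR⟩] := by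
    rw [LinearIndependent.pair_iff]
    intro s t hst
    have h10 : s • ρ + t • m = 0 := congrArg Subtype.val hst
    have h11 := congrArg (X.HQ.large.b v) h10
    rw [map_add, map_smul, map_smul, hv, hvm, map_zero, smul_zero, add_zero, smul_eq_mul,
      mul_one] at h11
    subst h11
    rw [zero_smul, zero_add] at h10
    rcases zmod2_cases t with h12 | h12
    · exact ⟨rfl, h12⟩
    · rw [h12, one_smul] at h10; exact absurd h10 hm0
  have h10 := h9.fintype_card_le_finrank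
  simpa using h10

end full

end Ctx

end Cfsg.Agent.CoOneNWC
end

-- part: CoOneNWC/Trivial
section
/-!
# Subgroups of `C_G(z)` acting trivially on the orthogonal complement of a totally isotropic subspace
-/

set_option autoImplicit false

namespace Cfsg.Agent.CoOneNWC

open Cfsg.Agent.Co2Type.Quad Module

section

variable {G : Type*} [Group G] {Q : Subgroup G} {z : G} (h : Large Q z)

/-- `|{x ∈ Q : x ⟨z⟩ ∈ W}| = 2 |W|`. -/
theorem card_preimage (W : Submodule (ZMod 2) h.V) :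
    Nat.card {x : Q // h.pr x ∈ W} = 2 * Nat.card W := by
  classical
  obtain ⟨s, hs'⟩ := h.pr_surjective.hasRightInverse
  have hs : ∀ v, h.pr (s v) = v := hs'
  have hsz : ∀ v, (s v : G) * z ∈ Q := fun v => Q.mul_mem (s v).2 h.z_mem
  have hprz : ∀ x : Q, h.pr ⟨(x : G) * z, Q.mul_mem x.2 h.z_mem⟩ = h.pr x := by
    intro x
    rw [h.pr_eq_pr]; exact Or.inr rfl
  have e : {x : Q // h.pr x ∈ W} ≃ Bool × W :=
    { toFun := fun x => (decide ((x.1 : G) = s (h.pr x.1)), ⟨h.pr x.1, x.2⟩)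
      invFun := fun p => if p.1 then ⟨s p.2.1, by rw [hs]; exact p.2.2⟩ else
        ⟨⟨(s p.2.1 : G) * z, hsz _⟩, by rw [hprz, hs]; exact p.2.2⟩
      left_inv := by
        rintro ⟨x, hx⟩
        have h1 : h.pr x = h.pr (s (h.pr x)) := (hs _).symm
        rcases h.pr_eq_pr.1 h1 with h2 | h2
        · simp only [← h2, decide_true, if_true]
          apply Subtype.ext
          apply Subtype.ext
          exact h2.symm
        · have h3 : (x : G) ≠ s (h.pr x) := by
            intro h3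
            apply h.z_ne
            rw [h3] at h2
            have := mul_left_cancel ((mul_one _).trans h2)
            exact this.symm
          simp only [h3, decide_false, Bool.false_eq_true, if_false]
          apply Subtype.ext
          apply Subtype.ext
          exact h2.symm
      right_inv := by
        rintro ⟨b, v, hv⟩
        cases b
        · have h3 : (s v : G) * z ≠ s v := by
            intro h3
            exact h.z_ne (mul_left_cancel (h3.trans (mul_one _).symm))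
          simp only [Bool.false_eq_true, if_false, hprz, hs, h3, decide_false]
        · simp only [if_true, hs, decide_true] }
  rw [Nat.card_congr e, Nat.card_prod, Nat.card_eq_fintype_card, Fintype.card_bool]

/-- One step: `b ↦ b v₀ + v₀` is a homomorphism of `B` when it takes values in a subspace `N` fixed by `B`. -/
theorem card_le_step [Finite G] (B : Subgroup (Subgroup.centralizer ({z} : Set G)))
    (N : Submodule (ZMod 2) h.V) (v₀ : h.V) (h1 : ∀ b ∈ B, h.act b v₀ + v₀ ∈ N)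
    (h2 : ∀ b ∈ B, ∀ n ∈ N, h.act b n = n)
    (B₁ : Subgroup (Subgroup.centralizer ({z} : Set G)))
    (hB₁ : ∀ b, b ∈ B → h.act b v₀ = v₀ → b ∈ B₁) :
    Nat.card B ≤ Nat.card N * Nat.card B₁ := by
  have hfin := finite_V h
  let f : B →* Multiplicative N :=
    { toFun := fun b => Multiplicative.ofAdd ⟨h.act b v₀ + v₀, h1 b b.2⟩
      map_one' := by
        rw [← ofAdd_zero]
        congr 1
        apply Subtype.ext
        show h.act ((1 : B) : Subgroup.centralizer ({z} : Set G)) v₀ + v₀ = 0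
        rw [Subgroup.coe_one, act_one, h.add_self]
      map_mul' := by
        intro a b
        rw [← ofAdd_add]
        congr 1
        apply Subtype.ext
        show h.act ((a * b : B) : Subgroup.centralizer ({z} : Set G)) v₀ + v₀ =
          (h.act a v₀ + v₀) + (h.act b v₀ + v₀)
        have h3 : h.act a (h.act b v₀ + v₀) = h.act b v₀ + v₀ := h2 a a.2 _ (h1 b b.2)
        rw [Subgroup.coe_mul, ← act_act, ← h3, map_add]
        have : h.act (a : Subgroup.centralizer ({z} : Set G)) v₀ + v₀ +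
            (h.act a (h.act b v₀) + h.act a v₀) =
            (h.act a (h.act b v₀) + v₀) + (h.act a v₀ + h.act a v₀) := by abel
        rw [this, h.add_self, add_zero] }
  have h3 : Nat.card f.ker ≤ Nat.card B₁ := by
    refine Nat.card_le_card_of_injective (fun b : f.ker => (⟨b.1.1, ?_⟩ : B₁)) ?_
    · apply hB₁ _ b.1.2
      have h4 : f b.1 = 1 := b.2
      have h5 : h.act (b.1 : Subgroup.centralizer ({z} : Set G)) v₀ + v₀ = 0 := by
        have h6 := congrArg (fun t => ((Multiplicative.toAdd t : N) : h.V)) h4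
        exact h6
      rwa [add_eq_zero_iff'] at h5
    · intro a b hab
      apply Subtype.ext
      apply Subtype.ext
      have := congrArg Subtype.val hab
      exact this
  have h4 : Nat.card f.range ≤ Nat.card N := by
    have : Nat.card f.range ≤ Nat.card (Multiplicative N) :=
      Nat.card_le_card_of_injective (fun t : f.range => (t : Multiplicative N))
        Subtype.val_injective
    exact this
  have h5 := f.ker.card_mul_index
  rw [Subgroup.index_ker] at h5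
  rw [← h5, mul_comm]
  exact Nat.mul_le_mul h4 h3

end

/-- A group of elements of `C_G(z)` acting trivially on `F^⊥`, `F` totally isotropic of dimension `d`,
induces at most `2 ^ (d (d - 1) / 2)` elements. -/
theorem Hyp.card_le_of_trivial {G : Type*} [Group G] [Finite G] {Q : Subgroup G} {z : G}
    (H : Hyp Q z) (d : ℕ) : ∀ (F : Submodule (ZMod 2) H.large.V), finrank (ZMod 2) F = d →
    F ≤ perp H.large F → ∀ B : Subgroup (Subgroup.centralizer ({z} : Set G)),
    (∀ b ∈ B, ∀ v ∈ perp H.large F, H.large.act b v = v) →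
    Nat.card B ≤ (∏ i ∈ Finset.range d, 2 ^ i) *
      Nat.card ↥(B ⊓ Q.subgroupOf (Subgroup.centralizer ({z} : Set G))) := by
  have hfin := finite_V H.large
  -- elements with trivial action
  have hact : ∀ b : Subgroup.centralizer ({z} : Set G), (∀ v, H.large.act b v = v) →
      b ∈ Q.subgroupOf (Subgroup.centralizer ({z} : Set G)) := by
    intro b hb
    rw [Subgroup.mem_subgroupOf]
    apply H.large.mem_of_act
    apply LinearEquiv.ext
    intro v; exact hb v
  have hbase : ∀ B : Subgroup (Subgroup.centralizer ({z} : Set G)),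
      (∀ b ∈ B, ∀ v, H.large.act b v = v) →
      Nat.card B ≤ 1 * Nat.card ↥(B ⊓ Q.subgroupOf (Subgroup.centralizer ({z} : Set G))) := by
    intro B hB
    have : B ⊓ Q.subgroupOf (Subgroup.centralizer ({z} : Set G)) = B :=
      inf_eq_left.2 fun b hb => hact b (hB b hb)
    rw [this, one_mul]
  induction d with
  | zero =>
    intro F hF _ B hB
    have hF0 : F = ⊥ := Submodule.finrank_eq_zero.1 hF
    rw [Finset.prod_range_zero]
    apply hbase
    intro b hb v
    apply hB b hb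
    rw [mem_perp, hF0]
    intro w hw
    rw [(Submodule.mem_bot _).1 hw, map_zero, LinearMap.zero_apply]
  | succ d ih =>
    intro F hF hiso B hB
    rw [Finset.prod_range_succ]
    rcases Nat.eq_zero_or_pos d with rfl | hd
    · -- dimension one: parity
      rw [Finset.prod_range_zero, pow_zero, mul_one]
      apply hbase
      intro b hb v
      have h1 : perp H.large F ≤ fixV H.large b := fun v hv => hB b hb v hv
      have h2 := Submodule.finrank_mono h1
      have h3 := finrank_perp H.large F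
      rw [H.finrank_V, hF] at h3
      have h4 := H.even_fix b
      have h5 := Submodule.finrank_le (fixV H.large b)
      rw [H.finrank_V] at h5
      obtain ⟨k, hk⟩ := h4
      have h6 : finrank (ZMod 2) (fixV H.large b) = 8 := by omega
      have h7 : fixV H.large b = ⊤ := by
        apply Submodule.eq_top_of_finrank_eq
        rw [h6, H.finrank_V]
      have h8 : v ∈ fixV H.large b := by rw [h7]; exact Submodule.mem_top
      exact h8
    · -- choose `v₀`
      obtain ⟨v₀, f₀, hf₀, hvf₀, f₁, hf₁, hvf₁⟩ : ∃ v₀ : H.large.V, ∃ f₀ ∈ F,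
          H.large.b v₀ f₀ = 1 ∧ ∃ f₁ ∈ F, H.large.b v₀ f₁ ≠ H.large.q f₁ := by
        have hne : F ≠ ⊥ := by
          intro h0
          rw [h0, finrank_bot] at hF
          omega
        obtain ⟨f₁, hf₁, hf₁0⟩ := (Submodule.ne_bot_iff _).1 hne
        obtain ⟨f₂, hf₂, hf₂0⟩ : ∃ f₂ ∈ F, f₂ ∉ Submodule.span (ZMod 2) {f₁} := by
          by_contra hcon
          push Not at hcon
          have h1 : F ≤ Submodule.span (ZMod 2) {f₁} := hcon
          have h2 := Submodule.finrank_mono h1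
          rw [finrank_span_singleton hf₁0] at h2
          omega
        have hf₁' : f₁ ∉ Submodule.span (ZMod 2) {f₂} := by
          intro h1
          obtain ⟨a, ha⟩ := Submodule.mem_span_singleton.1 h1
          rcases zmod2_cases a with rfl | rfl
          · rw [zero_smul] at ha; exact hf₁0 ha.symm
          · rw [one_smul] at ha
            exact hf₂0 (ha ▸ Submodule.mem_span_singleton_self f₂)
        obtain ⟨v₁, hv₁, hb₁⟩ := exists_perp_ne H.large hf₁'
        obtain ⟨v₂, hv₂, hb₂⟩ := exists_perp_ne H.large hf₂0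
        have hv₂' : H.large.b v₂ f₁ = 0 :=
          (mem_perp' _).1 hv₂ f₁ (Submodule.mem_span_singleton_self f₁)
        by_cases hq : H.large.b v₁ f₁ = H.large.q f₁
        · refine ⟨v₂, f₂, hf₂, hb₂, f₁, hf₁, ?_⟩
          rw [hv₂', ← hq, hb₁]
          exact zero_ne_one
        · exact ⟨v₁, f₁, hf₁, hb₁, f₁, hf₁, hq⟩
      -- `F' = {f ∈ F : b v₀ f = q f}`
      let F' : Submodule (ZMod 2) H.large.V :=
        { carrier := {f | f ∈ F ∧ H.large.b v₀ f = H.large.q f}
          add_mem' := by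
            rintro a b ⟨ha, ha'⟩ ⟨hb, hb'⟩
            refine ⟨F.add_mem ha hb, ?_⟩
            have hab : H.large.b a b = 0 := (mem_perp' _).1 (hiso ha) b hb
            rw [map_add, ha', hb', H.large.q_add', hab, add_zero]
          zero_mem' := ⟨F.zero_mem, by rw [map_zero, H.large.q_zero]⟩
          smul_mem' := by
            rintro c a ⟨ha, ha'⟩
            rcases zmod2_cases c with rfl | rfl
            · rw [zero_smul]; exact ⟨F.zero_mem, by rw [map_zero, H.large.q_zero]⟩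
            · rw [one_smul]; exact ⟨ha, ha'⟩ }
      have hF'le : F' ≤ F := fun f hf => hf.1
      have hF'card : Nat.card F' ≤ 2 ^ d := by
        rw [card_sub]
        apply Nat.pow_le_pow_right (by norm_num)
        have h1 : F' ≠ F := by
          intro h1
          have : f₁ ∈ F' := by rw [h1]; exact hf₁
          exact hvf₁ this.2
        have h2 := Submodule.finrank_lt_finrank_of_lt (lt_of_le_of_ne hF'le h1)
        omega
      -- `F₁ = F ∩ v₀^⊥`
      set F₁ : Submodule (ZMod 2) H.large.V := F ⊓ perp H.large (Submodule.span (ZMod 2) {v₀})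
        with hF₁
      have hv₀perp : ∀ f, f ∈ perp H.large (Submodule.span (ZMod 2) {v₀}) ↔
          H.large.b v₀ f = 0 := by
        intro f
        rw [mem_perp]
        constructor
        · intro hf; exact hf v₀ (Submodule.mem_span_singleton_self v₀)
        · intro hf w hw
          obtain ⟨a, rfl⟩ := Submodule.mem_span_singleton.1 hw
          rw [map_smul, LinearMap.smul_apply, hf, smul_zero]
      have hmemF₁ : ∀ f, f ∈ F₁ ↔ f ∈ F ∧ H.large.b v₀ f = 0 := by
        intro f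
        rw [hF₁, Submodule.mem_inf, hv₀perp]
      have hsplit : ∀ f ∈ F, f ∈ F₁ ∨ f + f₀ ∈ F₁ := by
        intro f hf
        rcases zmod2_cases (H.large.b v₀ f) with h1 | h1
        · left; rw [hmemF₁]; exact ⟨hf, h1⟩
        · right
          rw [hmemF₁]
          refine ⟨F.add_mem hf hf₀, ?_⟩
          rw [map_add, h1, hvf₀]; decide
      have hF₁rank : finrank (ZMod 2) F₁ = d := by
        have h1 : F₁ < F := by
          refine lt_of_le_of_ne (fun f hf => ((hmemF₁ f).1 hf).1) ?_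
          intro h1
          have : f₀ ∈ F₁ := by rw [h1]; exact hf₀
          rw [((hmemF₁ _).1 this).2] at hvf₀
          exact zero_ne_one hvf₀
        have h2 := Submodule.finrank_lt_finrank_of_lt h1
        have h3 : F ≤ F₁ ⊔ Submodule.span (ZMod 2) {f₀} := by
          intro f hf
          rcases hsplit f hf with h4 | h4
          · exact Submodule.mem_sup_left h4
          · rw [Submodule.mem_sup]
            refine ⟨f + f₀, h4, f₀, Submodule.mem_span_singleton_self f₀, ?_⟩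
            rw [add_assoc, H.large.add_self, add_zero]
        have h4 := Submodule.finrank_mono h3
        have h5 := Submodule.finrank_add_le_finrank_add_finrank F₁ (Submodule.span (ZMod 2) {f₀})
        have h6 : finrank (ZMod 2) (Submodule.span (ZMod 2) ({f₀} : Set H.large.V)) ≤ 1 := by
          by_cases hf₀0 : f₀ = 0
          · rw [hf₀0, Submodule.span_zero_singleton, finrank_bot]; exact Nat.zero_le _
          · rw [finrank_span_singleton hf₀0]
        omega
      have hF₁iso : F₁ ≤ perp H.large F₁ := by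
        intro f hf
        rw [mem_perp']
        intro f' hf'
        exact (mem_perp' _).1 (hiso ((hmemF₁ f).1 hf).1) f' ((hmemF₁ f').1 hf').1
      -- the stabiliser
      let B₁ : Subgroup (Subgroup.centralizer ({z} : Set G)) :=
        { carrier := {b | b ∈ B ∧ H.large.act b v₀ = v₀}
          mul_mem' := by
            rintro a b ⟨ha, ha'⟩ ⟨hb, hb'⟩
            exact ⟨B.mul_mem ha hb, by rw [← act_act, hb', ha']⟩
          one_mem' := ⟨B.one_mem, act_one _ _⟩
          inv_mem' := by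
            rintro a ⟨ha, ha'⟩
            refine ⟨B.inv_mem ha, ?_⟩
            conv_lhs => rw [← ha']
            exact act_inv_act _ _ _ }
      have hB₁act : ∀ b ∈ B₁, ∀ v ∈ perp H.large F₁, H.large.act b v = v := by
        rintro b ⟨hb, hb'⟩ v hv
        rcases zmod2_cases (H.large.b v f₀) with h1 | h1
        · apply hB b hb
          rw [mem_perp']
          intro f hf
          rcases hsplit f hf with h2 | h2
          · exact (mem_perp' _).1 hv f h2
          · have h3 := (mem_perp' _).1 hv _ h2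
            rwa [map_add, h1, add_zero] at h3
        · have h4 : H.large.act b (v + v₀) = v + v₀ := by
            apply hB b hb
            rw [mem_perp']
            intro f hf
            have h5 : ∀ f' ∈ F₁, H.large.b (v + v₀) f' = 0 := by
              intro f' hf'
              rw [map_add, LinearMap.add_apply, (mem_perp' _).1 hv f' hf', ((hmemF₁ f').1 hf').2,
                add_zero]
            have h6 : H.large.b (v + v₀) f₀ = 0 := by
              rw [map_add, LinearMap.add_apply, h1, hvf₀]; decide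
            rcases hsplit f hf with h2 | h2
            · exact h5 f h2
            · have h3 := h5 _ h2
              rwa [map_add, h6, add_zero] at h3
          rw [map_add, hb'] at h4
          exact add_right_cancel h4
      have h1 := ih F₁ hF₁rank hF₁iso B₁ hB₁act
      have h2 : Nat.card B ≤ Nat.card F' * Nat.card B₁ := by
        apply card_le_step H.large B F' v₀ _ _ B₁ (fun b hb hb' => ⟨hb, hb'⟩)
        · intro b hb
          have h3 : H.large.act b v₀ + v₀ ∈ F := by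
            rw [← perp_perp H.large F, mem_perp']
            intro w hw
            have h4 : H.large.act b⁻¹ w = w := hB _ (B.inv_mem hb) w hw
            rw [map_add, LinearMap.add_apply, b_act_left, h4, zmod2_add_self]
          refine ⟨h3, ?_⟩
          rw [q_act_add, map_add, H.large.b_self, add_zero, H.large.b_comm]
        · intro b hb n hn
          exact hB b hb n (hiso hn.1)
      have h3 : Nat.card ↥(B₁ ⊓ Q.subgroupOf (Subgroup.centralizer ({z} : Set G))) ≤
          Nat.card ↥(B ⊓ Q.subgroupOf (Subgroup.centralizer ({z} : Set G))) := by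
        have hle : B₁ ≤ B := fun b hb => hb.1
        apply Nat.card_le_card_of_injective
          (Subgroup.inclusion (inf_le_inf_right
            (Q.subgroupOf (Subgroup.centralizer ({z} : Set G))) hle))
        exact Subgroup.inclusion_injective _
      calc Nat.card B ≤ Nat.card F' * Nat.card B₁ := h2
        _ ≤ 2 ^ d * ((∏ i ∈ Finset.range d, 2 ^ i) *
            Nat.card ↥(B₁ ⊓ Q.subgroupOf (Subgroup.centralizer ({z} : Set G)))) :=
          Nat.mul_le_mul hF'card h1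
        _ ≤ 2 ^ d * ((∏ i ∈ Finset.range d, 2 ^ i) *
            Nat.card ↥(B ⊓ Q.subgroupOf (Subgroup.centralizer ({z} : Set G)))) :=
          Nat.mul_le_mul_left _ (Nat.mul_le_mul_left _ h3)
        _ = _ := by ring

end Cfsg.Agent.CoOneNWC
end

-- part: CoOneNWC/TypeI
section
/-!
# Pairs with `dim [V, y] = 2`, except the case `Q ∩ P` covers `[V, y]`
-/

set_option autoImplicit false

namespace Cfsg.Agent.CoOneNWC

open Cfsg.Agent.Co2Type.Quad Module

namespace Ctx

variable {G : Type*} [Group G] {Q P : Subgroup G} {z y : G}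

/-- `B = C_P(z)` -/
def B (_ : Ctx Q P z y) : Subgroup (Subgroup.centralizer ({z} : Set G)) :=
  P.subgroupOf (Subgroup.centralizer ({z} : Set G))

theorem mem_B (X : Ctx Q P z y) {b : Subgroup.centralizer ({z} : Set G)} : b ∈ X.B ↔ (b : G) ∈ P :=
  Subgroup.mem_subgroupOf

theorem comm_cent {z : G} (c : Subgroup.centralizer ({z} : Set G)) : (c : G) * z = z * c :=
  Subgroup.mem_centralizer_singleton_iff.1 c.2

theorem Y_mem_B (X : Ctx Q P z y) : X.Y ∈ X.B := X.mem_B.2 X.HP.large.z_mem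

/-- `[A, B] ≤ Q ∩ P` -/
theorem act_B_WA (X : Ctx Q P z y) {b : Subgroup.centralizer ({z} : Set G)} (hb : b ∈ X.B)
    {w : X.HQ.large.V} (hw : w ∈ X.WA) : X.HQ.large.act b w + w ∈ X.RV := by
  obtain ⟨x, rfl, hx⟩ := hw
  have h1 := X.comm_AB x.2 hx (X.mem_B.1 hb) (comm_cent b)
  refine ⟨⟨_, h1.1⟩, ?_, h1.2⟩
  rw [X.HQ.large.act_pr, ← X.HQ.large.neg_eq (X.HQ.large.pr x), ← X.HQ.large.pr_inv,
    ← X.HQ.large.pr_mul]
  rfl

theorem act_B_RV (X : Ctx Q P z y) {b : Subgroup.centralizer ({z} : Set G)} (hb : b ∈ X.B)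
    {w : X.HQ.large.V} (hw : w ∈ X.RV) : X.HQ.large.act b w = w := by
  obtain ⟨r, rfl, hr⟩ := hw
  rw [X.HQ.large.act_pr]
  congr 1
  apply Subtype.ext
  rw [X.HQ.large.conjQ_coe]
  have h1 := X.symm.comm_R (X.mem_B.1 hb) (comm_cent b) hr r.2
  rw [h1, mul_inv_cancel_right]

theorem act_B_Y (X : Ctx Q P z y) {b : Subgroup.centralizer ({z} : Set G)} (hb : b ∈ X.B)
    (v : X.HQ.large.V) :
    X.HQ.large.act b (X.HQ.large.act X.Y v) = X.HQ.large.act X.Y (X.HQ.large.act b v) := by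
  rw [act_act, act_act]
  congr 2
  apply Subtype.ext
  exact X.HP.large.comm_z _ (X.mem_B.1 hb)

theorem act_B_FV (X : Ctx Q P z y) {b : Subgroup.centralizer ({z} : Set G)} (hb : b ∈ X.B)
    {v : X.HQ.large.V} (hv : v ∈ X.FV) : X.HQ.large.act b v ∈ X.FV := by
  show X.HQ.large.act X.Y _ = _
  rw [← X.act_B_Y hb]
  congr 1

theorem pr_inj_P (X : Ctx Q P z y) {r s : Q} (hr : (r : G) ∈ P) (hs : (s : G) ∈ P)
    (h1 : X.HQ.large.pr r = X.HQ.large.pr s) : r = s := by
  rcases X.HQ.large.pr_eq_pr.1 h1 with h2 | h2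
  · exact Subtype.ext h2
  · exfalso
    apply X.z_notMem
    have h3 := P.mul_mem (P.inv_mem hs) hr
    rwa [h2, inv_mul_cancel_left] at h3

theorem card_RV (X : Ctx Q P z y) : Nat.card X.RV = Nat.card ↥(Q ⊓ P) := by
  symm
  refine Nat.card_eq_of_bijective (fun g : ↥(Q ⊓ P) =>
    (⟨X.HQ.large.pr ⟨g.1, g.2.1⟩, ⟨⟨g.1, g.2.1⟩, rfl, g.2.2⟩⟩ : X.RV)) ⟨?_, ?_⟩
  · intro a b hab
    have h1 := X.pr_inj_P (r := ⟨a.1, a.2.1⟩) (s := ⟨b.1, b.2.1⟩) a.2.2 b.2.2
      (congrArg Subtype.val hab)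
    apply Subtype.ext
    have := congrArg Subtype.val h1
    exact this
  · rintro ⟨_, r, rfl, hr⟩
    exact ⟨⟨r, r.2, hr⟩, rfl⟩

theorem card_RV_symm (X : Ctx Q P z y) : Nat.card X.symm.RV = Nat.card X.RV := by
  rw [X.card_RV, X.symm.card_RV, inf_comm]

theorem card_BQ (X : Ctx Q P z y) :
    Nat.card ↥(X.B ⊓ Q.subgroupOf (Subgroup.centralizer ({z} : Set G))) = Nat.card X.RV := by
  rw [X.card_RV]
  refine Nat.card_eq_of_bijective (fun g => (⟨g.1.1, g.2.2, g.2.1⟩ : ↥(Q ⊓ P))) ⟨?_, ?_⟩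
  · intro a b hab
    apply Subtype.ext
    apply Subtype.ext
    have := congrArg Subtype.val hab
    exact this
  · rintro ⟨g, hg1, hg2⟩
    exact ⟨⟨⟨g, Subgroup.mem_centralizer_singleton_iff.2 (X.HQ.large.comm_z g hg1)⟩, hg2, hg1⟩, rfl⟩

variable [Finite G]

omit [Finite G] in
theorem card_B (X : Ctx Q P z y) : Nat.card X.B = 2 * Nat.card X.symm.WA := by
  rw [← card_preimage X.HP.large X.symm.WA]
  refine Nat.card_eq_of_bijective (fun g => (⟨⟨g.1.1, X.mem_B.1 g.2⟩, ?_⟩ :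
    {x : P // X.HP.large.pr x ∈ X.symm.WA})) ⟨?_, ?_⟩
  · exact (X.symm.pr_mem_WA _).2 (comm_cent g.1)
  · intro a b hab
    apply Subtype.ext
    apply Subtype.ext
    have := congrArg (fun t => ((t.1 : P) : G)) hab
    exact this
  · rintro ⟨x, hx⟩
    have h1 := (X.symm.pr_mem_WA x).1 hx
    exact ⟨⟨⟨x, Subgroup.mem_centralizer_singleton_iff.2 h1⟩, X.mem_B.2 x.2⟩, rfl⟩

theorem finrank_WA (X : Ctx Q P z y) (hne : X.WA ≠ X.FV) :
    finrank (ZMod 2) X.WA + 1 = finrank (ZMod 2) X.FV := by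
  have hfin := finite_V X.HQ.large
  have h1 := Submodule.finrank_lt_finrank_of_lt (lt_of_le_of_ne X.WA_le hne)
  obtain ⟨v, hv, hv'⟩ : ∃ v ∈ X.FV, v ∉ X.WA := by
    by_contra hcon
    push Not at hcon
    exact hne (le_antisymm X.WA_le hcon)
  have h3 : X.FV ≤ X.WA ⊔ Submodule.span (ZMod 2) {v} := by
    intro w hw
    by_cases h4 : w ∈ X.WA
    · exact Submodule.mem_sup_left h4
    · rw [Submodule.mem_sup]
      refine ⟨w + v, X.WA_index hw hv h4 hv', v, Submodule.mem_span_singleton_self v, ?_⟩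
      rw [add_assoc, X.HQ.large.add_self, add_zero]
  have h4 := Submodule.finrank_mono h3
  have h5 := Submodule.finrank_add_le_finrank_add_finrank X.WA (Submodule.span (ZMod 2) {v})
  have h6 : finrank (ZMod 2) (Submodule.span (ZMod 2) ({v} : Set X.HQ.large.V)) ≤ 1 := by
    by_cases hv0 : v = 0
    · rw [hv0, Submodule.span_zero_singleton, finrank_bot]; exact Nat.zero_le _
    · rw [finrank_span_singleton hv0]
  omega

theorem finrank_WA_ge (X : Ctx Q P z y) : 3 ≤ finrank (ZMod 2) X.WA := by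
  rcases X.finrank_FV with h | h
  · by_cases hne : X.WA = X.FV
    · rw [hne]; omega
    · have := X.finrank_WA hne; omega
  · by_cases hne : X.WA = X.FV
    · rw [hne]; omega
    · have := X.finrank_WA hne; omega

theorem sixteen_le_card_B (X : Ctx Q P z y) : 16 ≤ Nat.card X.B := by
  rw [X.card_B, card_sub]
  have h1 := Nat.pow_le_pow_right (n := 2) (by norm_num) X.symm.finrank_WA_ge
  omega

theorem card_B_le (X : Ctx Q P z y) : Nat.card X.B ≤ 128 := by
  rw [X.card_B, card_sub]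
  have hfin := finite_V X.HP.large
  have h1 : finrank (ZMod 2) X.symm.WA ≤ 6 := by
    have h2 := Submodule.finrank_mono X.symm.WA_le
    have h3 := X.symm.finrank_FV
    omega
  have h2 := Nat.pow_le_pow_right (n := 2) (by norm_num) h1
  omega

theorem card_FF (X : Ctx Q P z y) (h6 : finrank (ZMod 2) X.FV = 6) : Nat.card X.FF = 4 := by
  rw [card_sub]
  have := X.finrank_FF
  have h2 : finrank (ZMod 2) X.FF = 2 := by omega
  rw [h2]; norm_num

omit [Finite G] in
theorem comm_lift (X : Ctx Q P z y) {x : Q} {r : X.HQ.large.V} (hr : r ∈ X.RV)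
    (h1 : X.HQ.large.act X.Y (X.HQ.large.pr x) + X.HQ.large.pr x = r) :
    r = 0 ∨ ∃ s : G, s ∈ Q ∧ s ∈ P ∧ x * y * (x : G)⁻¹ * y⁻¹ = s * z := by
  obtain ⟨r, rfl, hrP⟩ := hr
  rw [← X.pr_comm', X.HQ.large.pr_eq_pr] at h1
  rcases h1 with h1 | h1
  · left
    have h3 : (x : G) * y = y * x := X.comm_of_mem (by
      have : (x : G) * y * (x : G)⁻¹ * y⁻¹ = r := h1
      rw [this]; exact hrP)
    have h4 : (r : G) = 1 := by
      rw [← h1]
      show (x : G) * y * (x : G)⁻¹ * y⁻¹ = 1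
      rw [h3]; group
    rw [X.HQ.large.pr_eq_zero]; exact Or.inl h4
  · exact Or.inr ⟨r, r.2, hrP, h1⟩

/-- If `C_Q(y)` does not cover `C_V(y)` then `Q ∩ P` meets `[V, y]` trivially. -/
theorem RV_inf_FF (X : Ctx Q P z y) (hne : X.WA ≠ X.FV) {r : X.HQ.large.V} (hr : r ∈ X.RV)
    (hr' : r ∈ X.FF) : r = 0 := by
  obtain ⟨w, hw⟩ := (X.mem_FF r).1 hr'
  obtain ⟨x, rfl⟩ := X.HQ.large.pr_surjective w
  rcases X.comm_lift hr hw.symm with h1 | ⟨s, hsQ, hsP, hs⟩
  · exact h1
  obtain ⟨v, hv, hv'⟩ : ∃ v ∈ X.FV, v ∉ X.WA := by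
    by_contra hcon
    push Not at hcon
    exact hne (le_antisymm X.WA_le hcon)
  obtain ⟨x', rfl⟩ := X.HQ.large.pr_surjective v
  have h2 := X.conj_of_notMem_WA hv hv'
  have hx'z := X.HQ.large.comm_z x' x'.2
  have hxz := X.HQ.large.comm_z x x.2
  have hsz := X.HQ.large.comm_z s hsQ
  -- `[x', y] = z`
  have h3 : (x' : G) * y * (x' : G)⁻¹ * y⁻¹ = z := by
    have e : (x' : G) * y * (x' : G)⁻¹ * y⁻¹ = x' * (y * x' * y⁻¹)⁻¹ := by group
    rw [e, h2, mul_inv_rev, X.z_inv, ← mul_assoc, hx'z, mul_inv_cancel_right]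
  have h4 : ((x : G) * x') * y * ((x : G) * x')⁻¹ * y⁻¹ = s := by
    calc ((x : G) * x') * y * ((x : G) * x')⁻¹ * y⁻¹
        = x * (x' * y * (x' : G)⁻¹ * y⁻¹) * (x : G)⁻¹ * (x * y * (x : G)⁻¹ * y⁻¹) := by group
      _ = x * z * (x : G)⁻¹ * (s * z) := by rw [h3, hs]
      _ = z * (s * z) := by rw [hxz, mul_inv_cancel_right]
      _ = s * (z * z) := by rw [← mul_assoc, ← hsz, mul_assoc]
      _ = s := by rw [X.zz, mul_one]
  have h5 : ((x : G) * x') * y = y * ((x : G) * x') := X.comm_of_mem (by rw [h4]; exact hsP)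
  have h6 : s = 1 := by rw [← h4, h5]; group
  rw [h6, one_mul] at hs
  rw [hw, ← X.pr_comm', X.HQ.large.pr_eq_zero]
  exact Or.inr hs

/-- If `q ≠ 0` on `[V, y]` then `Q ∩ P = 1`. -/
theorem RV_eq_bot_of_q (X : Ctx Q P z y) {f : X.HQ.large.V} (hf : f ∈ X.FF)
    (hq : X.HQ.large.q f ≠ 0) : X.RV = ⊥ := by
  have hfW : f ∉ X.WA := by rwa [X.mem_WA_iff hf]
  have hfV : f ∈ X.FV := X.FF_le_FV hf
  have hne : X.WA ≠ X.FV := by
    intro h1
    exact hfW (h1 ▸ hfV)
  rw [Submodule.eq_bot_iff]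
  intro r hr
  apply X.RV_inf_FF hne hr
  show r ∈ perp X.HQ.large X.FV
  rw [mem_perp']
  intro w hw
  have hrf : X.HQ.large.b r f = 0 := by
    rw [X.HQ.large.b_comm]
    exact X.b_FF_FV hf (X.WA_le (X.RV_le hr))
  by_cases hw' : w ∈ X.WA
  · exact X.b_RV_WA hr hw'
  · have h2 := X.b_RV_WA hr (X.WA_index hw hfV hw' hfW)
    rwa [map_add, hrf, add_zero] at h2

/-- Type 5: `Q ∩ P = 1`. -/
theorem RV_eq_bot_of_four (X : Ctx Q P z y) (h4 : finrank (ZMod 2) X.FV = 4)
    (hne : X.WA ≠ X.FV) : X.RV = ⊥ := by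
  have hfin := finite_V X.HQ.large
  have h1 : X.FF = X.FV := by
    apply Submodule.eq_of_le_of_finrank_le X.FF_le_FV
    have := X.finrank_FF
    omega
  obtain ⟨v, hv, hv'⟩ : ∃ v ∈ X.FV, v ∉ X.WA := by
    by_contra hcon
    push Not at hcon
    exact hne (le_antisymm X.WA_le hcon)
  rw [← h1] at hv
  refine X.RV_eq_bot_of_q hv ?_
  rwa [Ne, ← X.mem_WA_iff hv]

/-- Types 4 and 5: `Q ∩ P = 1`. -/
theorem RV_eq_bot_four (X : Ctx Q P z y) (h4 : finrank (ZMod 2) X.FV = 4) : X.RV = ⊥ := by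
  by_cases hW : X.WA = X.FV
  · exact X.RV_eq_bot hW h4
  · exact X.RV_eq_bot_of_four h4 hW

omit [Finite G] in
theorem act_B_WA_of_bot (X : Ctx Q P z y) (h0 : X.RV = ⊥)
    {b : Subgroup.centralizer ({z} : Set G)} (hb : b ∈ X.B)
    {w : X.HQ.large.V} (hw : w ∈ X.WA) : X.HQ.large.act b w = w := by
  have h1 := X.act_B_WA hb hw
  rw [h0, Submodule.mem_bot, add_eq_zero_iff'] at h1
  exact h1

omit [Finite G] in
theorem card_BQ_of_bot (X : Ctx Q P z y) (h0 : X.RV = ⊥) :
    Nat.card ↥(X.B ⊓ Q.subgroupOf (Subgroup.centralizer ({z} : Set G))) = 1 := by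
  rw [X.card_BQ, h0]
  exact Nat.card_unique

/-- `[V, y]` is totally isotropic. -/
theorem FF_le_perp (X : Ctx Q P z y) : X.FF ≤ perp X.HQ.large X.FF := by
  rw [X.perp_FF]; exact X.FF_le_FV

/-- Type 1 with `Q ∩ P = 1` does not occur. -/
theorem not_type1_bot (X : Ctx Q P z y) (h6 : finrank (ZMod 2) X.FV = 6) (hW : X.WA = X.FV)
    (h0 : X.RV = ⊥) : False := by
  have h1 := X.HQ.card_le_of_trivial 2 X.FF (by have := X.finrank_FF; omega) X.FF_le_perp X.B
    (fun b hb v hv => by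
      rw [X.perp_FF, ← hW] at hv
      exact X.act_B_WA_of_bot h0 hb hv)
  rw [X.card_BQ_of_bot h0] at h1
  have h2 := X.sixteen_le_card_B
  have h3 : (∏ i ∈ Finset.range 2, 2 ^ i) = 2 := by decide
  rw [h3] at h1
  omega

/-- Type 3 does not occur. -/
theorem not_type3 (X : Ctx Q P z y) (h6 : finrank (ZMod 2) X.FV = 6) {f : X.HQ.large.V}
    (hf : f ∈ X.FF) (hq : X.HQ.large.q f ≠ 0) : False := by
  have hfin := finite_V X.HQ.large
  have h0 := X.RV_eq_bot_of_q hf hq
  have hfW : f ∉ X.WA := by rwa [X.mem_WA_iff hf]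
  have hfV : f ∈ X.FV := X.FF_le_FV hf
  -- the stabiliser of `f` in `B`
  let B₁ : Subgroup (Subgroup.centralizer ({z} : Set G)) :=
    { carrier := {b | b ∈ X.B ∧ X.HQ.large.act b f = f}
      mul_mem' := by
        rintro a b ⟨ha, ha'⟩ ⟨hb, hb'⟩
        exact ⟨X.B.mul_mem ha hb, by rw [← act_act, hb', ha']⟩
      one_mem' := ⟨X.B.one_mem, act_one _ _⟩
      inv_mem' := by
        rintro a ⟨ha, ha'⟩
        refine ⟨X.B.inv_mem ha, ?_⟩
        conv_lhs => rw [← ha']
        exact act_inv_act _ _ _ }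
  have h1 := X.HQ.card_le_of_trivial 2 X.FF (by have := X.finrank_FF; omega) X.FF_le_perp B₁
    (fun b hb v hv => by
      rw [X.perp_FF] at hv
      by_cases hv' : v ∈ X.WA
      · exact X.act_B_WA_of_bot h0 hb.1 hv'
      · have h2 := X.act_B_WA_of_bot h0 hb.1 (X.WA_index hv hfV hv' hfW)
        rw [map_add, hb.2] at h2
        exact add_right_cancel h2)
  have h2 : Nat.card ↥(B₁ ⊓ Q.subgroupOf (Subgroup.centralizer ({z} : Set G))) ≤ 1 := by
    rw [← X.card_BQ_of_bot h0]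
    have hle : B₁ ≤ X.B := fun b hb => hb.1
    apply Nat.card_le_card_of_injective
      (Subgroup.inclusion (inf_le_inf_right
        (Q.subgroupOf (Subgroup.centralizer ({z} : Set G))) hle))
    exact Subgroup.inclusion_injective _
  have h3 : (∏ i ∈ Finset.range 2, 2 ^ i) = 2 := by decide
  rw [h3] at h1
  have h4 : Nat.card X.B ≤ Nat.card ↥(X.FF ⊓ X.WA) * Nat.card B₁ := by
    apply card_le_step X.HQ.large X.B (X.FF ⊓ X.WA) f _ _ B₁ (fun b hb hb' => ⟨hb, hb'⟩)
    · intro b hb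
      have hbF : X.HQ.large.act b f ∈ X.FF := by
        rw [X.mem_FF] at hf ⊢
        obtain ⟨w, rfl⟩ := hf
        refine ⟨X.HQ.large.act b w, ?_⟩
        rw [map_add, X.act_B_Y hb]
      have h5 : X.HQ.large.act b f + f ∈ X.FF := X.FF.add_mem hbF hf
      refine ⟨h5, (X.mem_WA_iff h5).2 ?_⟩
      rw [q_act_add]
      exact X.b_FF_FV hbF hfV
    · intro b hb n hn
      exact X.act_B_WA_of_bot h0 hb hn.2
  have h5 : Nat.card ↥(X.FF ⊓ X.WA) ≤ 2 := by
    rw [card_sub]
    have h6 : finrank (ZMod 2) ↥(X.FF ⊓ X.WA) < finrank (ZMod 2) X.FF := by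
      apply Submodule.finrank_lt_finrank_of_lt
      refine lt_of_le_of_ne inf_le_left ?_
      intro h7
      have : f ∈ X.FF ⊓ X.WA := by rw [h7]; exact hf
      exact hfW this.2
    have h7 := X.finrank_FF
    have h8 : finrank (ZMod 2) ↥(X.FF ⊓ X.WA) ≤ 1 := by omega
    exact (Nat.pow_le_pow_right (n := 2) (by norm_num) h8).trans (by norm_num)
  have h6 := X.sixteen_le_card_B
  have h7 : Nat.card B₁ ≤ 2 := by omega
  have h8 := Nat.mul_le_mul h5 h7
  omega

end Ctx

/-- Subspaces of codimension one over `F₂`. -/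
theorem add_mem_of_finrank {G : Type*} [Group G] [Finite G] {Q : Subgroup G} {z : G}
    (h : Large Q z) {W U : Submodule (ZMod 2) h.V} (hle : W ≤ U)
    (hr : finrank (ZMod 2) U = finrank (ZMod 2) W + 1) {u v : h.V} (hu : u ∈ U) (hv : v ∈ U)
    (hu' : u ∉ W) (hv' : v ∉ W) : u + v ∈ W := by
  have hfin := finite_V h
  have h1 : W < W ⊔ Submodule.span (ZMod 2) {u} := by
    refine lt_of_le_of_ne le_sup_left ?_
    intro h1
    apply hu'
    rw [h1]
    exact Submodule.mem_sup_right (Submodule.mem_span_singleton_self u)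
  have h2 := Submodule.finrank_lt_finrank_of_lt h1
  have h3 : W ⊔ Submodule.span (ZMod 2) {u} ≤ U := by
    refine sup_le hle ?_
    rw [Submodule.span_singleton_le_iff_mem]
    exact hu
  have h4 : W ⊔ Submodule.span (ZMod 2) {u} = U := by
    apply Submodule.eq_of_le_of_finrank_le h3
    omega
  rw [← h4, Submodule.mem_sup] at hv
  obtain ⟨w, hw, t, ht, rfl⟩ := hv
  obtain ⟨a, rfl⟩ := Submodule.mem_span_singleton.1 ht
  rcases zmod2_cases a with rfl | rfl
  · exfalso; apply hv'; rw [zero_smul, add_zero]; exact hw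
  · rw [one_smul]
    have : u + (w + u) = w + (u + u) := by abel
    rw [this, h.add_self, add_zero]; exact hw

namespace Ctx

variable {G : Type*} [Group G] [Finite G] {Q P : Subgroup G} {z y : G}

section type2

variable (X : Ctx Q P z y) (h6 : finrank (ZMod 2) X.FV = 6) (hne : X.WA ≠ X.FV)
  (hq : ∀ f ∈ X.FF, X.HQ.large.q f = 0)

include h6 hne hq

theorem FF_le_WA : X.FF ≤ X.WA := fun f hf => (X.mem_WA_iff hf).2 (hq f hf)

theorem finrank_perp_WA : finrank (ZMod 2) (perp X.HQ.large X.WA) = 3 := by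
  have h1 := X.finrank_WA hne
  have h2 := finrank_perp X.HQ.large X.WA
  rw [X.HQ.finrank_V] at h2
  omega

theorem FF_le_perp_WA : X.FF ≤ perp X.HQ.large X.WA := perp_anti _ X.WA_le

theorem perp_WA_le_FV : perp X.HQ.large X.WA ≤ X.FV := by
  have h1 : perp X.HQ.large X.WA ≤ perp X.HQ.large X.FF := perp_anti _ (X.FF_le_WA h6 hne hq)
  rwa [X.perp_FF] at h1

theorem perp_WA_le : perp X.HQ.large X.WA ≤ X.WA := by
  intro u hu
  rw [← perp_perp X.HQ.large X.WA, mem_perp']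
  intro v hv
  have hF := X.finrank_FF
  have h1 := X.finrank_perp_WA h6 hne hq
  by_cases hu' : u ∈ X.FF
  · exact X.b_FF_FV hu' (X.perp_WA_le_FV h6 hne hq hv)
  · by_cases hv' : v ∈ X.FF
    · rw [X.HQ.large.b_comm]
      exact X.b_FF_FV hv' (X.perp_WA_le_FV h6 hne hq hu)
    · have h2 := add_mem_of_finrank X.HQ.large (X.FF_le_perp_WA h6 hne hq) (by omega) hu hv hu' hv'
      have h3 := X.b_FF_FV h2 (X.perp_WA_le_FV h6 hne hq hu)
      rw [map_add, LinearMap.add_apply, X.HQ.large.b_self, zero_add, X.HQ.large.b_comm] at h3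
      exact h3

/-- Type 2 with `Q ∩ P = 1` does not occur. -/
theorem not_type2_bot (h0 : X.RV = ⊥) : False := by
  have h1 := X.HQ.card_le_of_trivial 3 (perp X.HQ.large X.WA) (X.finrank_perp_WA h6 hne hq)
    (by rw [perp_perp]; exact X.perp_WA_le h6 hne hq) X.B
    (fun b hb v hv => by
      rw [perp_perp] at hv
      exact X.act_B_WA_of_bot h0 hb hv)
  rw [X.card_BQ_of_bot h0] at h1
  have h2 := X.sixteen_le_card_B
  have h3 : (∏ i ∈ Finset.range 3, 2 ^ i) = 8 := by decide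
  rw [h3] at h1
  omega

/-- Type 2: if `B` is not abelian there is a contradiction. -/
theorem not_type2_of_comm {b₁ b₂ : Subgroup.centralizer ({z} : Set G)} (hb₁ : b₁ ∈ X.B)
    (hb₂ : b₂ ∈ X.B) (hc : (b₁ : G) * b₂ = b₂ * b₁ * y) : False := by
  have hfin := finite_V X.HQ.large
  -- elements of `B` map `RV^⊥` to `WA^⊥`
  have step1 : ∀ b ∈ X.B, ∀ v ∈ perp X.HQ.large X.RV,
      X.HQ.large.act b v + v ∈ perp X.HQ.large X.WA := by
    intro b hb v hv
    rw [mem_perp']
    intro w hw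
    have h1 : X.HQ.large.act b⁻¹ w + w ∈ X.RV := X.act_B_WA (X.B.inv_mem hb) hw
    rw [map_add, LinearMap.add_apply, b_act_left, ← map_add]
    exact (mem_perp' _).1 hv _ h1
  have step2 : ∀ b ∈ X.B, ∀ b' ∈ X.B, ∀ v ∈ perp X.HQ.large X.RV,
      X.HQ.large.act b (X.HQ.large.act b' v + v) + (X.HQ.large.act b' v + v) ∈ X.RV := by
    intro b hb b' hb' v hv
    exact X.act_B_WA hb (X.perp_WA_le h6 hne hq (step1 b' hb' v hv))
  have hcY : b₁ * b₂ = b₂ * b₁ * X.Y := Subtype.ext hc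
  have step3 : ∀ v ∈ perp X.HQ.large X.RV, X.HQ.large.act X.Y v + v ∈ X.RV := by
    intro v hv
    have h1 := step2 b₁ hb₁ b₂ hb₂ v hv
    have h2 := step2 b₂ hb₂ b₁ hb₁ v hv
    have h3 := X.RV.add_mem h1 h2
    have h4 : X.HQ.large.act b₁ (X.HQ.large.act b₂ v + v) + (X.HQ.large.act b₂ v + v) +
        (X.HQ.large.act b₂ (X.HQ.large.act b₁ v + v) + (X.HQ.large.act b₁ v + v)) =
        X.HQ.large.act (b₂ * b₁) (X.HQ.large.act X.Y v + v) := by
      rw [map_add, map_add, map_add, act_act, hcY, act_act, act_act]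
      have : X.HQ.large.act (b₂ * b₁ * X.Y) v + X.HQ.large.act b₁ v +
          (X.HQ.large.act b₂ v + v) +
          (X.HQ.large.act (b₂ * b₁) v + X.HQ.large.act b₂ v + (X.HQ.large.act b₁ v + v)) =
          (X.HQ.large.act (b₂ * b₁ * X.Y) v + X.HQ.large.act (b₂ * b₁) v) +
          ((X.HQ.large.act b₁ v + X.HQ.large.act b₁ v) +
            (X.HQ.large.act b₂ v + X.HQ.large.act b₂ v) + (v + v)) := by abel
      rw [this, X.HQ.large.add_self (X.HQ.large.act b₁ v), X.HQ.large.add_self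
        (X.HQ.large.act b₂ v), X.HQ.large.add_self v, add_zero, add_zero, add_zero]
    rw [h4] at h3
    have h5 := X.act_B_RV (X.B.inv_mem (X.B.mul_mem hb₂ hb₁)) h3
    rw [act_inv_act] at h5
    rw [h5]; exact h3
  -- hence `RV^⊥ ≤ C_V(y)`
  have step4 : perp X.HQ.large X.RV ≤ X.FV := by
    intro v hv
    have h1 := X.RV_inf_FF hne (step3 v hv) (X.act_add_mem_FF v)
    exact (add_eq_zero_iff' X.HQ.large _ _).1 h1
  have h1 := Submodule.finrank_mono step4
  have h2 := finrank_perp X.HQ.large X.RV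
  rw [X.HQ.finrank_V] at h2
  -- `dim RV ≤ 1`
  have h3 : finrank (ZMod 2) X.RV ≤ 1 := by
    have h4 : X.RV ⊓ X.FF = ⊥ := by
      rw [Submodule.eq_bot_iff]
      intro r hr
      exact X.RV_inf_FF hne hr.1 hr.2
    have h5 := Submodule.finrank_sup_add_finrank_inf_eq X.RV X.FF
    rw [h4, finrank_bot, add_zero] at h5
    have h6' : X.RV ⊔ X.FF ≤ perp X.HQ.large X.WA :=
      sup_le X.RV_le_perp (X.FF_le_perp_WA h6 hne hq)
    have h7 := Submodule.finrank_mono h6'
    have h8 := X.finrank_perp_WA h6 hne hq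
    have h9 := X.finrank_FF
    omega
  omega

end type2

/-- If `dim (A/⟨z⟩) ≥ 5` then `A` is not abelian. -/
theorem exists_noncomm (X : Ctx Q P z y) (h5 : 5 ≤ finrank (ZMod 2) X.WA) :
    ∃ a b : Q, (a : G) * y = y * a ∧ (b : G) * y = y * b ∧ (a : G) * b = b * a * z := by
  have hfin := finite_V X.HQ.large
  have h1 : ¬ X.WA ≤ perp X.HQ.large X.WA := by
    intro h1
    have h2 := Submodule.finrank_mono h1
    have h3 := finrank_perp X.HQ.large X.WA
    rw [X.HQ.finrank_V] at h3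
    omega
  obtain ⟨v, hv, hv'⟩ := Set.not_subset.1 h1
  have hv'' : v ∉ perp X.HQ.large X.WA := hv'
  rw [mem_perp'] at hv''
  push Not at hv''
  obtain ⟨w, hw, hvw⟩ := hv''
  obtain ⟨a, rfl, ha⟩ := hv
  obtain ⟨b, rfl, hb⟩ := hw
  refine ⟨a, b, ha, hb, ?_⟩
  rw [← X.HQ.large.b_pr_one]
  exact (zmod2_cases _).resolve_left hvw

end Ctx

end Cfsg.Agent.CoOneNWC
end

-- part: CoOneNWC/TypeOne
section
/-!
# Pairs with `dim [V, y] = 2`, `C_Q(y)` covering `C_V(y)` and `Q ∩ P` covering `[V, y]`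
-/

set_option autoImplicit false

namespace Cfsg.Agent.CoOneNWC

open Cfsg.Agent.Co2Type.Quad Module

namespace Ctx

variable {G : Type*} [Group G] [Finite G] {Q P : Subgroup G} {z y : G}

/-- `b` induces `n ↦ n + β n` on `C_V(y)` for some `b ∈ B`. -/
def SS (X : Ctx Q P z y) (β : X.HQ.large.V → X.HQ.large.V) : Prop :=
  ∃ b ∈ X.B, ∀ n ∈ X.FV, X.HQ.large.act b n = n + β n

section one

variable (X : Ctx Q P z y) (hW : X.WA = X.FV) (hR : X.RV = X.FF)

include hW hR

theorem yz_not_conj (g : G) : g * z * g⁻¹ ≠ y * z := by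
  intro hg
  obtain ⟨v, hv⟩ : ∃ v, v ∉ X.FV := by
    by_contra hcon
    push Not at hcon
    exact X.FV_ne_top (by rw [Submodule.eq_top_iff']; exact hcon)
  obtain ⟨x, rfl⟩ := X.HQ.large.pr_surjective v
  have hr : X.HQ.large.act X.Y (X.HQ.large.pr x) + X.HQ.large.pr x ∈ X.RV := by
    rw [hR]; exact X.act_add_mem_FF _
  have hr0 : X.HQ.large.act X.Y (X.HQ.large.pr x) + X.HQ.large.pr x ≠ 0 := by
    intro h0
    rw [add_eq_zero_iff'] at h0
    exact hv h0
  obtain ⟨s, hsQ, hsP, hs⟩ := (X.comm_lift hr rfl).resolve_left hr0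
  have hs1 : s ≠ 1 := by
    rintro rfl
    apply hr0
    rw [← X.pr_comm', X.HQ.large.pr_eq_zero]
    right; rw [one_mul] at hs; exact hs
  have hsy : s ≠ y := by
    rintro rfl
    exact X.y_notMem hsQ
  obtain ⟨p, hpP, hp⟩ : ∃ p ∈ P, s * p ≠ p * s := by
    by_contra hcon
    push Not at hcon
    rcases X.HP.large.cent s hsP hcon with h1 | h1
    · exact hs1 h1
    · exact hsy h1
  have hp' : p * s = s * p * y := by
    rcases X.HP.large.comm p hpP s hsP with h1 | h1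
    · exact absurd h1.symm hp
    · exact h1
  have hpy := X.HP.large.comm_z p hpP
  have e1 : p * s * p⁻¹ = s * y := by
    rw [hp', mul_assoc s p y, hpy]; group
  have hxz := X.HQ.large.comm_z x x.2
  have e2 : (x : G) * y * (x : G)⁻¹ = s * z * y := by rw [← hs]; group
  have e3 : (x : G) * (y * z) * (x : G)⁻¹ = s * y := by
    calc (x : G) * (y * z) * (x : G)⁻¹ = x * (z * y) * (x : G)⁻¹ := by rw [X.yz]
      _ = (x * z) * (y * (x : G)⁻¹) := by group
      _ = z * (x * y * (x : G)⁻¹) := by rw [hxz]; group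
      _ = z * (s * z * y) := by rw [e2]
      _ = (z * s) * (z * y) := by group
      _ = s * (z * z) * y := by rw [← X.HQ.large.comm_z s hsQ]; group
      _ = s * y := by rw [X.zz, mul_one]
  have e4 : (p⁻¹ * x * g) * z * (p⁻¹ * x * g)⁻¹ = s := by
    calc (p⁻¹ * x * g) * z * (p⁻¹ * x * g)⁻¹ = p⁻¹ * (x * (g * z * g⁻¹) * (x : G)⁻¹) * p := by group
      _ = p⁻¹ * (p * s * p⁻¹) * p := by rw [hg, e3, e1]
      _ = s := by group
  have h5 := X.wQ (p⁻¹ * x * g) (by rw [e4]; exact hsQ)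
  rw [e4] at h5
  exact X.z_notMem (h5 ▸ hsP)

/-- Every element of `C_G(z)` commuting with `y` on `V` acts like an element of `C_G(z) ∩ C_G(y)`. -/
theorem exists_lift (c : Subgroup.centralizer ({z} : Set G))
    (hc : ∀ v, X.HQ.large.act c (X.HQ.large.act X.Y v) = X.HQ.large.act X.Y (X.HQ.large.act c v)) :
    ∃ d : Subgroup.centralizer ({z} : Set G), (d : G) * y = y * d ∧
      ∀ v, X.HQ.large.act d v = X.HQ.large.act c v := by
  obtain ⟨x, hx⟩ := X.exists_adjust hW c hc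
  have hxc : (x : G) ∈ Subgroup.centralizer ({z} : Set G) :=
    Subgroup.mem_centralizer_singleton_iff.2 (X.HQ.large.comm_z x x.2)
  refine ⟨⟨x, hxc⟩⁻¹ * c, ?_, ?_⟩
  · rcases hx with hx | hx
    · exact mul_inv_eq_iff_eq_mul.1 hx
    · exfalso
      obtain ⟨g, hg⟩ := X.cj
      apply X.yz_not_conj hW hR ((x : G)⁻¹ * c * g)
      rw [← hx, ← hg]
      group
  · intro v
    rw [← act_act, map_inv, X.HQ.large.act_mem ⟨x, hxc⟩ x.2, inv_one]
    rfl

omit hW hR in
theorem conj_mem_B {d b : Subgroup.centralizer ({z} : Set G)} (hd : (d : G) * y = y * d)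
    (hb : b ∈ X.B) : d * b * d⁻¹ ∈ X.B := by
  rw [X.mem_B] at hb ⊢
  exact X.HP.large.conj_mem d hd b hb

omit hW hR in
theorem act_D_FV {d : Subgroup.centralizer ({z} : Set G)} (hd : (d : G) * y = y * d)
    {v : X.HQ.large.V} (hv : v ∈ X.FV) : X.HQ.large.act d⁻¹ v ∈ X.FV := by
  show X.HQ.large.act X.Y _ = _
  have h1 : X.Y * d⁻¹ = d⁻¹ * X.Y := by
    apply Subtype.ext
    show y * (d : G)⁻¹ = (d : G)⁻¹ * y
    rw [eq_inv_mul_iff_mul_eq, ← mul_assoc, hd, mul_inv_cancel_right]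
  rw [act_act, h1, ← act_act]
  congr 1

omit [Finite G] in
theorem beta_mem {b : Subgroup.centralizer ({z} : Set G)} (hb : b ∈ X.B) {n : X.HQ.large.V}
    (hn : n ∈ X.FV) : X.HQ.large.act b n + n ∈ X.FF := by
  rw [← hR]
  rw [← hW] at hn
  exact X.act_B_WA hb hn

omit hW [Finite G] in
theorem act_B_FF {b : Subgroup.centralizer ({z} : Set G)} (hb : b ∈ X.B) {n : X.HQ.large.V}
    (hn : n ∈ X.FF) : X.HQ.large.act b n = n := by
  rw [← hR] at hn
  exact X.act_B_RV hb hn

theorem SS_mem {β : X.HQ.large.V → X.HQ.large.V} (h : X.SS β) {n : X.HQ.large.V}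
    (hn : n ∈ X.FV) : β n ∈ X.FF := by
  obtain ⟨b, hb, h1⟩ := h
  have h2 := X.beta_mem hW hR hb hn
  rw [h1 n hn] at h2
  have h3 : n + β n + n = β n + (n + n) := by abel
  rwa [h3, X.HQ.large.add_self, add_zero] at h2

theorem SS_add {β β' : X.HQ.large.V → X.HQ.large.V} (h : X.SS β) (h' : X.SS β') :
    X.SS (fun n => β n + β' n) := by
  obtain ⟨b', hb', h2⟩ := h'
  have hm := fun n hn => X.SS_mem hW hR ⟨b', hb', h2⟩ (n := n) hn
  obtain ⟨b, hb, h1⟩ := h
  refine ⟨b * b', X.B.mul_mem hb hb', ?_⟩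
  intro n hn
  rw [← act_act, h2 n hn, map_add, h1 n hn, X.act_B_FF hR hb (hm n hn)]
  exact add_assoc _ _ _

omit hW hR in
theorem SS_congr {β β' : X.HQ.large.V → X.HQ.large.V} (h : X.SS β)
    (he : ∀ n ∈ X.FV, β n = β' n) : X.SS β' := by
  obtain ⟨b, hb, h1⟩ := h
  exact ⟨b, hb, fun n hn => by rw [h1 n hn, he n hn]⟩

omit hW hR in
theorem SS_zero : X.SS (fun _ => 0) := by
  refine ⟨1, X.B.one_mem, fun n _ => ?_⟩
  rw [act_one, add_zero]

/-- additivity of `β` -/
theorem SS_map_add {β : X.HQ.large.V → X.HQ.large.V} (h : X.SS β) {m n : X.HQ.large.V}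
    (hm : m ∈ X.FV) (hn : n ∈ X.FV) : β (m + n) = β m + β n := by
  obtain ⟨b, hb, h1⟩ := h
  have h2 := h1 (m + n) (X.FV.add_mem hm hn)
  rw [map_add, h1 m hm, h1 n hn] at h2
  have h3 : m + β m + (n + β n) = (m + n) + (β m + β n) := by abel
  rw [h3] at h2
  exact (add_left_cancel h2).symm

omit hW in
theorem SS_FF {β : X.HQ.large.V → X.HQ.large.V} (h : X.SS β) {m : X.HQ.large.V}
    (hm : m ∈ X.FF) : β m = 0 := by
  obtain ⟨b, hb, h1⟩ := h
  have h2 := h1 m (X.FF_le_FV hm)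
  rw [X.act_B_FF hR hb hm] at h2
  exact (left_eq_add.1 h2)

theorem SS_smul {β : X.HQ.large.V → X.HQ.large.V} (h : X.SS β) {m : X.HQ.large.V}
    (hm : m ∈ X.FV) (a : ZMod 2) : β (a • m) = a • β m := by
  rcases zmod2_cases a with rfl | rfl
  · rw [zero_smul, zero_smul]; exact X.SS_FF hR h X.FF.zero_mem
  · rw [one_smul, one_smul]

/-- Closure under transvections of `[V, y]`. -/
theorem SS_left {β : X.HQ.large.V → X.HQ.large.V} (h : X.SS β) {m v : X.HQ.large.V} (hm : m ≠ 0)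
    (hv : X.HQ.large.act X.Y v + v = m) : X.SS (fun n => X.HQ.large.b (β n) v • m) := by
  have hmF : m ∈ X.FF := by rw [← hv]; exact X.act_add_mem_FF v
  obtain ⟨c, x, hc, hx, hg⟩ := X.exists_tv hW hm hv
  obtain ⟨d, hdy, hd⟩ := X.exists_lift hW hR c hc
  have h2 : X.SS (fun n => β n + X.HQ.large.b (β n) v • m) := by
    obtain ⟨b, hb, h1⟩ := h
    refine ⟨d * b * d⁻¹, X.conj_mem_B hdy hb, ?_⟩
    intro n hn
    have hn' := X.act_D_FV hdy hn
    obtain ⟨n', hn'e⟩ : ∃ n', n' = X.HQ.large.act d⁻¹ n := ⟨_, rfl⟩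
    rw [← hn'e] at hn'
    have e1 : n = n' + X.HQ.large.b n' x • m := by
      have h3 : X.HQ.large.act d n' = n := by rw [hn'e]; exact act_act_inv _ _ _
      rw [hd, hg] at h3
      have h4 : X.HQ.large.b n' m = 0 := by
        rw [X.HQ.large.b_comm]; exact X.b_FF_FV hmF hn'
      rw [h4, zero_smul, add_zero] at h3
      exact h3.symm
    have hβ : β n' = β n := by
      conv_rhs => rw [e1]
      rw [X.SS_map_add hW hR ⟨b, hb, h1⟩ hn' (X.FV.smul_mem _ (X.FF_le_FV hmF)),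
        X.SS_smul hW hR ⟨b, hb, h1⟩ (X.FF_le_FV hmF), X.SS_FF hR ⟨b, hb, h1⟩ hmF, smul_zero,
        add_zero]
    have hβm : β n' ∈ X.FF := X.SS_mem hW hR ⟨b, hb, h1⟩ hn'
    rw [← act_act, ← act_act, ← hn'e, h1 n' hn', map_add, hd, hd, hg, hg (β n'), hx _ hβm]
    have h5 : X.HQ.large.b n' m = 0 := by
      rw [X.HQ.large.b_comm]; exact X.b_FF_FV hmF hn'
    have h6 : X.HQ.large.b (β n') m = 0 := X.b_FF_FV hβm (X.FF_le_FV hmF)
    rw [h5, h6, zero_smul, add_zero (n'), add_zero (β n'), ← e1, hβ]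
  have h3 := X.SS_add hW hR h h2
  refine X.SS_congr h3 ?_
  intro n _
  show β n + (β n + _) = _
  rw [← add_assoc, X.HQ.large.add_self, zero_add]

/-- Closure under Siegel transformations in `C_V(y)`. -/
theorem SS_right {β : X.HQ.large.V → X.HQ.large.V} (h : X.SS β) {a x : X.HQ.large.V}
    (ha : a ∈ X.FV) (hx : x ∈ X.FV) (hqa : X.HQ.large.q a = 0) (hqx : X.HQ.large.q x = 0)
    (hax : X.HQ.large.b a x = 0) :
    X.SS (fun n => X.HQ.large.b n a • β x + X.HQ.large.b n x • β a) := by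
  obtain ⟨c, hg⟩ := X.HQ.exists_siegel hqa hqx hax
  have hYa : X.HQ.large.act X.Y a = a := ha
  have hYx : X.HQ.large.act X.Y x = x := hx
  have hc : ∀ v, X.HQ.large.act c (X.HQ.large.act X.Y v) =
      X.HQ.large.act X.Y (X.HQ.large.act c v) := by
    intro v
    rw [hg, hg, map_add, map_add, map_smul, map_smul, hYx, hYa, X.b_act_Y, X.b_act_Y, hYx, hYa]
  obtain ⟨d, hdy, hd⟩ := X.exists_lift hW hR c hc
  have h2 : X.SS (fun n => β n + (X.HQ.large.b n a • β x + X.HQ.large.b n x • β a)) := by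
    obtain ⟨b, hb, h1⟩ := h
    refine ⟨d * b * d⁻¹, X.conj_mem_B hdy hb, ?_⟩
    intro n hn
    have hn' := X.act_D_FV hdy hn
    obtain ⟨n', hn'e⟩ : ∃ n', n' = X.HQ.large.act d⁻¹ n := ⟨_, rfl⟩
    rw [← hn'e] at hn'
    have e1 : n = n' + X.HQ.large.b n' a • x + X.HQ.large.b n' x • a := by
      have h3 : X.HQ.large.act d n' = n := by rw [hn'e]; exact act_act_inv _ _ _
      rw [hd, hg] at h3
      exact h3.symm
    have hxa : X.HQ.large.b x a = 0 := by rw [X.HQ.large.b_comm]; exact hax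
    have hna : X.HQ.large.b n a = X.HQ.large.b n' a := by
      conv_lhs => rw [e1]
      rw [map_add, map_add, map_smul, map_smul, LinearMap.add_apply, LinearMap.add_apply,
        LinearMap.smul_apply, LinearMap.smul_apply, hxa, X.HQ.large.b_self, smul_zero, smul_zero,
        add_zero, add_zero]
    have hnx : X.HQ.large.b n x = X.HQ.large.b n' x := by
      conv_lhs => rw [e1]
      rw [map_add, map_add, map_smul, map_smul, LinearMap.add_apply, LinearMap.add_apply,
        LinearMap.smul_apply, LinearMap.smul_apply, hax, X.HQ.large.b_self, smul_zero, smul_zero,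
        add_zero, add_zero]
    have hS : X.SS β := ⟨b, hb, h1⟩
    have hβ : β n = β n' + X.HQ.large.b n a • β x + X.HQ.large.b n x • β a := by
      rw [hna, hnx]
      conv_lhs => rw [e1]
      rw [X.SS_map_add hW hR hS (X.FV.add_mem hn' (X.FV.smul_mem _ hx)) (X.FV.smul_mem _ ha),
        X.SS_map_add hW hR hS hn' (X.FV.smul_mem _ hx), X.SS_smul hW hR hS hx,
        X.SS_smul hW hR hS ha]
    have hβm : β n' ∈ X.FF := X.SS_mem hW hR hS hn'
    show _ = n + (β n + (X.HQ.large.b n a • β x + X.HQ.large.b n x • β a))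
    rw [← act_act, ← act_act, ← hn'e, h1 n' hn', map_add, hd, hd, hg, hg (β n'),
      X.b_FF_FV hβm ha, X.b_FF_FV hβm hx, zero_smul, zero_smul, add_zero, add_zero, ← e1, hβ]
    have : β n' + X.HQ.large.b n a • β x + X.HQ.large.b n x • β a +
        (X.HQ.large.b n a • β x + X.HQ.large.b n x • β a) =
        β n' + ((X.HQ.large.b n a • β x + X.HQ.large.b n x • β a) +
        (X.HQ.large.b n a • β x + X.HQ.large.b n x • β a)) := by abel
    rw [this, X.HQ.large.add_self, add_zero]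
  have h3 := X.SS_add hW hR h h2
  refine X.SS_congr h3 ?_
  intro n _
  show β n + (β n + _) = _
  rw [← add_assoc, X.HQ.large.add_self, zero_add]

/-- The vectors `w ∈ C_V(y)` such that all maps `n ↦ b(n, w) f`, `f ∈ [V, y]`, are induced. -/
noncomputable def WW : Submodule (ZMod 2) X.HQ.large.V where
  carrier := {w | w ∈ X.FV ∧ ∀ f ∈ X.FF, X.SS (fun n => X.HQ.large.b n w • f)}
  add_mem' := by
    rintro u w ⟨hu, hu'⟩ ⟨hw, hw'⟩
    refine ⟨X.FV.add_mem hu hw, fun f hf => ?_⟩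
    refine X.SS_congr (X.SS_add hW hR (hu' f hf) (hw' f hf)) ?_
    intro n _
    show _ • f + _ • f = _ • f
    rw [map_add, add_smul]
  zero_mem' := by
    refine ⟨X.FV.zero_mem, fun f _ => ?_⟩
    refine X.SS_congr X.SS_zero ?_
    intro n _
    show 0 = _ • f
    rw [map_zero, zero_smul]
  smul_mem' := by
    rintro a w ⟨hw, hw'⟩
    refine ⟨X.FV.smul_mem a hw, fun f hf => ?_⟩
    rcases zmod2_cases a with rfl | rfl
    · refine X.SS_congr X.SS_zero ?_
      intro n _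
      show 0 = _ • f
      rw [zero_smul, map_zero, zero_smul]
    · refine X.SS_congr (hw' f hf) ?_
      intro n _
      show _ • f = _ • f
      rw [one_smul]

theorem mem_WW (w : X.HQ.large.V) :
    w ∈ X.WW hW hR ↔ w ∈ X.FV ∧ ∀ f ∈ X.FF, X.SS (fun n => X.HQ.large.b n w • f) := Iff.rfl

theorem WW_siegel {a x w : X.HQ.large.V} (ha : a ∈ X.FV) (hx : x ∈ X.FV)
    (hqa : X.HQ.large.q a = 0) (hqx : X.HQ.large.q x = 0) (hax : X.HQ.large.b a x = 0)
    (hw : w ∈ X.WW hW hR) :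
    X.HQ.large.b x w • a + X.HQ.large.b a w • x ∈ X.WW hW hR := by
  refine ⟨X.FV.add_mem (X.FV.smul_mem _ ha) (X.FV.smul_mem _ hx), fun f hf => ?_⟩
  refine X.SS_congr (X.SS_right hW hR (hw.2 f hf) ha hx hqa hqx hax) ?_
  intro n _
  show X.HQ.large.b n a • X.HQ.large.b x w • f + X.HQ.large.b n x • X.HQ.large.b a w • f =
    X.HQ.large.b n (X.HQ.large.b x w • a + X.HQ.large.b a w • x) • f
  rw [map_add, map_smul, map_smul, smul_eq_mul, smul_eq_mul, add_smul, smul_smul, smul_smul,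
    mul_comm (X.HQ.large.b n a), mul_comm (X.HQ.large.b n x)]

/-- `WW` is larger than `[V, y]`. -/
theorem exists_WW (h6 : finrank (ZMod 2) X.FV = 6) : ∃ w ∈ X.WW hW hR, w ∉ X.FF := by
  have hfin := finite_V X.HQ.large
  have hrF : finrank (ZMod 2) X.FF = 2 := by have := X.finrank_FF; omega
  -- some element of `B` acts non-trivially on `C_V(y)`
  obtain ⟨b, hb, n, hn, hbn⟩ : ∃ b ∈ X.B, ∃ n ∈ X.FV, X.HQ.large.act b n ≠ n := by
    by_contra hcon
    push Not at hcon
    have h1 := X.HQ.card_le_of_trivial 2 X.FF hrF X.FF_le_perp X.B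
      (fun b hb v hv => by
        rw [X.perp_FF] at hv
        exact hcon b hb v hv)
    rw [X.card_BQ, hR, X.card_FF h6] at h1
    have h2 := X.sixteen_le_card_B
    have h3 : (∏ i ∈ Finset.range 2, 2 ^ i) = 2 := by decide
    rw [h3] at h1
    omega
  have hSb : X.SS (fun n => X.HQ.large.act b n + n) := by
    refine ⟨b, hb, fun n _ => ?_⟩
    show _ = n + (X.HQ.large.act b n + n)
    rw [add_comm (X.HQ.large.act b n), ← add_assoc, X.HQ.large.add_self, zero_add]
  obtain ⟨f, hf⟩ : ∃ f, f = X.HQ.large.act b n + n := ⟨_, rfl⟩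
  have hfF : f ∈ X.FF := by rw [hf]; exact X.beta_mem hW hR hb hn
  have hf0 : f ≠ 0 := by
    intro h0
    rw [hf, add_eq_zero_iff'] at h0
    exact hbn h0
  obtain ⟨v, hv⟩ : ∃ v, X.HQ.large.b v f = 1 := by
    by_contra hcon
    push Not at hcon
    apply hf0
    apply X.HQ.large.b_nondeg
    intro w
    rw [X.HQ.large.b_comm]
    exact (zmod2_cases _).resolve_right (hcon w)
  obtain ⟨m, hm⟩ : ∃ m, m = X.HQ.large.act X.Y v + v := ⟨_, rfl⟩
  have hmF : m ∈ X.FF := by rw [hm]; exact X.act_add_mem_FF v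
  have hm0 : m ≠ 0 := by
    intro h0
    have hvF : v ∈ X.FV := by
      show X.HQ.large.act X.Y v = v
      rw [← add_eq_zero_iff' X.HQ.large, ← hm]; exact h0
    rw [X.HQ.large.b_comm, X.b_FF_FV hfF hvF] at hv
    exact zero_ne_one hv
  obtain ⟨w, hw⟩ : ∃ w, w = X.HQ.large.act b⁻¹ v + v := ⟨_, rfl⟩
  have hbw : ∀ u, X.HQ.large.b u w = X.HQ.large.b (X.HQ.large.act b u + u) v := by
    intro u
    rw [hw, map_add, map_add, LinearMap.add_apply, b_act_left]
  have hwF : w ∈ X.FV := by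
    rw [← X.perp_FF, mem_perp]
    intro f' hf'
    rw [hbw, X.act_B_FF hR hb hf', X.HQ.large.add_self, map_zero, LinearMap.zero_apply]
  have hwn : X.HQ.large.b n w = 1 := by
    rw [hbw, ← hf, X.HQ.large.b_comm]; exact hv
  have hwnF : w ∉ X.FF := by
    intro h1
    rw [X.HQ.large.b_comm, X.b_FF_FV h1 hn] at hwn
    exact zero_ne_one hwn
  have hSm : X.SS (fun n => X.HQ.large.b n w • m) := by
    refine X.SS_congr (X.SS_left hW hR hSb hm0 hm.symm) ?_
    intro u _
    show X.HQ.large.b (X.HQ.large.act b u + u) v • m = X.HQ.large.b u w • m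
    rw [hbw]
  refine ⟨w, ⟨hwF, fun f' hf' => ?_⟩, hwnF⟩
  by_cases hf'0 : f' = 0
  · refine X.SS_congr X.SS_zero ?_
    intro u _
    show 0 = _ • f'
    rw [hf'0, smul_zero]
  by_cases hf'm : f' = m
  · rw [hf'm]; exact hSm
  · obtain ⟨v', hv'⟩ := (X.mem_FF f').1 hf'
    have h1 := X.SS_left hW hR hSm hf'0 hv'.symm
    refine X.SS_congr h1 ?_
    intro u _
    show X.HQ.large.b (X.HQ.large.b u w • m) v' • f' = X.HQ.large.b u w • f'
    have h2 : X.HQ.large.b m v' = 1 := by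
      by_contra hcon
      have h3 : X.HQ.large.b m v' = 0 := (zmod2_cases _).resolve_right hcon
      have h4 : X.HQ.large.b f' v' = 0 := by
        have h5 := q_act_add X.HQ.large X.Y v'
        rw [← hv', X.q_FF hW hf'] at h5
        rw [hv', map_add, LinearMap.add_apply, X.HQ.large.b_self, add_zero]
        exact h5.symm
      have h5 : v' ∈ X.FV := by
        rw [← X.perp_FF, mem_perp]
        intro f'' hf''
        have h6 : Submodule.span (ZMod 2) {f'} ≤ X.FF := by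
          rw [Submodule.span_singleton_le_iff_mem]; exact hf'
        have h7 : m ∉ Submodule.span (ZMod 2) {f'} := by
          intro h8
          obtain ⟨a, ha⟩ := Submodule.mem_span_singleton.1 h8
          rcases zmod2_cases a with rfl | rfl
          · rw [zero_smul] at ha; exact hm0 ha.symm
          · rw [one_smul] at ha; exact hf'm ha
        have h8 : ∀ u ∈ Submodule.span (ZMod 2) {f'}, X.HQ.large.b u v' = 0 := by
          intro u hu
          obtain ⟨a, rfl⟩ := Submodule.mem_span_singleton.1 hu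
          rw [map_smul, LinearMap.smul_apply, h4, smul_zero]
        by_cases h9 : f'' ∈ Submodule.span (ZMod 2) {f'}
        · exact h8 f'' h9
        · have h10 := h8 _ (add_mem_of_finrank X.HQ.large h6
            (by rw [finrank_span_singleton hf'0, hrF]) hf'' hmF h9 h7)
          rwa [map_add, LinearMap.add_apply, h3, add_zero] at h10
      apply hf'0
      rw [hv', add_eq_zero_iff']
      exact h5
    rw [map_smul, LinearMap.smul_apply, h2, smul_eq_mul, mul_one]

end one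

end Ctx

end Cfsg.Agent.CoOneNWC
end

-- part: CoOneNWC/TypeOneEnd
section
/-!
# Pairs with `dim [V, y] = 2` do not occur
-/

set_option autoImplicit false

namespace Cfsg.Agent.CoOneNWC

open Cfsg.Agent.Co2Type.Quad Module

section gen

variable {G : Type*} [Group G] [Finite G] {Q : Subgroup G} {z : G}

/-- Totally singular implies totally isotropic. -/
theorem le_perp_of_q (h : Large Q z) {M : Submodule (ZMod 2) h.V} (hM : ∀ v ∈ M, h.q v = 0) :
    M ≤ perp h M := by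
  intro v hv
  rw [mem_perp']
  intro w hw
  have h1 := h.q_add' v w
  rw [hM _ (M.add_mem hv hw), hM v hv, hM w hw, zero_add, zero_add] at h1
  exact h1.symm

theorem perp_sup (h : Large Q z) (U W : Submodule (ZMod 2) h.V) :
    perp h (U ⊔ W) = perp h U ⊓ perp h W := by
  apply le_antisymm
  · exact le_inf (perp_anti h le_sup_left) (perp_anti h le_sup_right)
  · intro v hv
    rw [mem_perp]
    intro w hw
    obtain ⟨a, ha, b, hb, rfl⟩ := Submodule.mem_sup.1 hw
    rw [map_add, LinearMap.add_apply, (mem_perp h).1 hv.1 a ha, (mem_perp h).1 hv.2 b hb, add_zero]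

/-- A totally singular plane lies in a totally singular subspace of dimension four. -/
theorem Hyp.exists_ts_of_plane (H : Hyp Q z) {F : Submodule (ZMod 2) H.large.V}
    (hF : ∀ v ∈ F, H.large.q v = 0) :
    ∃ M : Submodule (ZMod 2) H.large.V, F ≤ M ∧ finrank (ZMod 2) M = 4 ∧
      ∀ v ∈ M, H.large.q v = 0 := by
  have hfin := finite_V H.large
  obtain ⟨M₀, hM₀, hq₀⟩ := H.exists_ts
  have hM₀' : M₀ = perp H.large M₀ := by
    apply Submodule.eq_of_le_of_finrank_le (le_perp_of_q H.large hq₀)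
    have := finrank_perp H.large M₀
    rw [H.finrank_V] at this
    omega
  refine ⟨F ⊔ (M₀ ⊓ perp H.large F), le_sup_left, ?_, ?_⟩
  · have h1 := Submodule.finrank_sup_add_finrank_inf_eq F (M₀ ⊓ perp H.large F)
    have h2 : F ⊓ (M₀ ⊓ perp H.large F) = M₀ ⊓ F := by
      apply le_antisymm
      · exact le_inf (inf_le_right.trans inf_le_left) inf_le_left
      · exact le_inf inf_le_right (le_inf inf_le_left
          (inf_le_right.trans (le_perp_of_q H.large hF)))
    have h3 : M₀ ⊓ perp H.large F = perp H.large (M₀ ⊔ F) := by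
      rw [perp_sup, ← hM₀']
    have h4 := finrank_perp H.large (M₀ ⊔ F)
    have h5 := Submodule.finrank_sup_add_finrank_inf_eq M₀ F
    rw [H.finrank_V, ← h3] at h4
    rw [h2] at h1
    omega
  · intro v hv
    obtain ⟨a, ha, b, hb, rfl⟩ := Submodule.mem_sup.1 hv
    rw [H.large.q_add', hF a ha, hq₀ b hb.1, (mem_perp _).1 hb.2 a ha, add_zero, add_zero]

end gen

namespace Ctx

variable {G : Type*} [Group G] [Finite G] {Q P : Subgroup G} {z y : G}

/-- Hyperbolic vectors in `C_V(y)` modulo `[V, y]`. -/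
theorem exists_hyp (X : Ctx Q P z y) (h6 : finrank (ZMod 2) X.FV = 6) (hW : X.WA = X.FV) :
    ∃ n₁ n₂ p₁ p₂ : X.HQ.large.V, (n₁ ∈ X.FV ∧ n₂ ∈ X.FV ∧ p₁ ∈ X.FV ∧ p₂ ∈ X.FV) ∧
      (X.HQ.large.q n₁ = 0 ∧ X.HQ.large.q n₂ = 0 ∧ X.HQ.large.q p₁ = 0 ∧ X.HQ.large.q p₂ = 0) ∧
      X.HQ.large.b n₁ n₂ = 0 ∧ X.HQ.large.b p₁ p₂ = 0 ∧ X.HQ.large.b n₁ p₁ = 1 ∧
      X.HQ.large.b n₂ p₂ = 1 ∧ X.HQ.large.b n₁ p₂ = 0 ∧ X.HQ.large.b n₂ p₁ = 0 := by
  have hfin := finite_V X.HQ.large
  have hrF : finrank (ZMod 2) X.FF = 2 := by have := X.finrank_FF; omega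
  obtain ⟨M, hFM, hM4, hqM⟩ := X.HQ.exists_ts_of_plane (fun v hv => X.q_FF hW hv)
  have hMM := le_perp_of_q X.HQ.large hqM
  have hMF : M ≤ X.FV := by
    have h1 : M ≤ perp X.HQ.large X.FF := hMM.trans (perp_anti _ hFM)
    rwa [X.perp_FF] at h1
  obtain ⟨n₁, hn₁, hn₁'⟩ : ∃ n ∈ M, n ∉ X.FF := by
    by_contra hcon
    push Not at hcon
    have := Submodule.finrank_mono (show M ≤ X.FF from hcon)
    omega
  obtain ⟨n₂, hn₂, hn₂'⟩ : ∃ n ∈ M, n ∉ X.FF ⊔ Submodule.span (ZMod 2) {n₁} := by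
    by_contra hcon
    push Not at hcon
    have h1 := Submodule.finrank_mono (show M ≤ X.FF ⊔ Submodule.span (ZMod 2) {n₁} from hcon)
    have h2 := Submodule.finrank_add_le_finrank_add_finrank X.FF (Submodule.span (ZMod 2) {n₁})
    have h3 : n₁ ≠ 0 := by rintro rfl; exact hn₁' X.FF.zero_mem
    rw [finrank_span_singleton h3] at h2
    omega
  have hn₁'' : n₁ ∉ X.FF ⊔ Submodule.span (ZMod 2) {n₂} := by
    intro h1
    obtain ⟨f, hf, t, ht, hft⟩ := Submodule.mem_sup.1 h1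
    obtain ⟨a, rfl⟩ := Submodule.mem_span_singleton.1 ht
    rcases zmod2_cases a with rfl | rfl
    · rw [zero_smul, add_zero] at hft
      exact hn₁' (hft ▸ hf)
    · rw [one_smul] at hft
      apply hn₂'
      rw [Submodule.mem_sup]
      refine ⟨f, hf, n₁, Submodule.mem_span_singleton_self _, ?_⟩
      rw [← hft, ← add_assoc, X.HQ.large.add_self, zero_add]
  have hb12 : X.HQ.large.b n₁ n₂ = 0 := (mem_perp' _).1 (hMM hn₁) n₂ hn₂
  have hb21 : X.HQ.large.b n₂ n₁ = 0 := by rw [X.HQ.large.b_comm]; exact hb12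
  -- `p₁`
  obtain ⟨u, hu, hun⟩ := exists_perp_ne X.HQ.large hn₁''
  have huF : u ∈ X.FV := by
    rw [← X.perp_FF]; exact perp_anti _ le_sup_left hu
  have hu2 : X.HQ.large.b u n₂ = 0 := (mem_perp' _).1 hu n₂
    (Submodule.mem_sup_right (Submodule.mem_span_singleton_self _))
  obtain ⟨p₁, hp₁F, hp₁q, hp₁1, hp₁2⟩ : ∃ p ∈ X.FV, X.HQ.large.q p = 0 ∧
      X.HQ.large.b p n₁ = 1 ∧ X.HQ.large.b p n₂ = 0 := by
    rcases zmod2_cases (X.HQ.large.q u) with h1 | h1
    · exact ⟨u, huF, h1, hun, hu2⟩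
    · refine ⟨u + n₁, X.FV.add_mem huF (hMF hn₁), ?_, ?_, ?_⟩
      · rw [X.HQ.large.q_add', h1, hqM n₁ hn₁, hun]; decide
      · rw [map_add, LinearMap.add_apply, hun, X.HQ.large.b_self, add_zero]
      · rw [map_add, LinearMap.add_apply, hu2, hb12, add_zero]
  -- `p₂`
  obtain ⟨t, ht, htn⟩ := exists_perp_ne X.HQ.large hn₂'
  have htF : t ∈ X.FV := by
    rw [← X.perp_FF]; exact perp_anti _ le_sup_left ht
  have ht1 : X.HQ.large.b t n₁ = 0 := (mem_perp' _).1 ht n₁
    (Submodule.mem_sup_right (Submodule.mem_span_singleton_self _))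
  obtain ⟨s, hsF, hs1, hs2, hsp⟩ : ∃ s ∈ X.FV, X.HQ.large.b s n₁ = 0 ∧
      X.HQ.large.b s n₂ = 1 ∧ X.HQ.large.b s p₁ = 0 := by
    rcases zmod2_cases (X.HQ.large.b t p₁) with h1 | h1
    · exact ⟨t, htF, ht1, htn, h1⟩
    · refine ⟨t + n₁, X.FV.add_mem htF (hMF hn₁), ?_, ?_, ?_⟩
      · rw [map_add, LinearMap.add_apply, ht1, X.HQ.large.b_self, add_zero]
      · rw [map_add, LinearMap.add_apply, htn, hb12, add_zero]
      · rw [map_add, LinearMap.add_apply, h1, X.HQ.large.b_comm n₁ p₁, hp₁1]; decide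
  obtain ⟨p₂, hp₂F, hp₂q, hp₂1, hp₂2, hp₂p⟩ : ∃ p ∈ X.FV, X.HQ.large.q p = 0 ∧
      X.HQ.large.b p n₁ = 0 ∧ X.HQ.large.b p n₂ = 1 ∧ X.HQ.large.b p p₁ = 0 := by
    rcases zmod2_cases (X.HQ.large.q s) with h1 | h1
    · exact ⟨s, hsF, h1, hs1, hs2, hsp⟩
    · refine ⟨s + n₂, X.FV.add_mem hsF (hMF hn₂), ?_, ?_, ?_, ?_⟩
      · rw [X.HQ.large.q_add', h1, hqM n₂ hn₂, hs2]; decide
      · rw [map_add, LinearMap.add_apply, hs1, hb21, add_zero]
      · rw [map_add, LinearMap.add_apply, hs2, X.HQ.large.b_self, add_zero]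
      · rw [map_add, LinearMap.add_apply, hsp, X.HQ.large.b_comm n₂ p₁, hp₁2, add_zero]
  refine ⟨n₁, n₂, p₁, p₂, ⟨hMF hn₁, hMF hn₂, hp₁F, hp₂F⟩, ⟨hqM n₁ hn₁, hqM n₂ hn₂, hp₁q, hp₂q⟩,
    hb12, ?_, ?_, ?_, ?_, ?_⟩
  · rw [X.HQ.large.b_comm]; exact hp₂p
  · rw [X.HQ.large.b_comm]; exact hp₁1
  · rw [X.HQ.large.b_comm]; exact hp₂2
  · rw [X.HQ.large.b_comm]; exact hp₂1
  · rw [X.HQ.large.b_comm]; exact hp₁2

/-- Type 1 with `Q ∩ P` covering `[V, y]` does not occur. -/
theorem not_type1_eq (X : Ctx Q P z y) (h6 : finrank (ZMod 2) X.FV = 6) (hW : X.WA = X.FV)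
    (hR : X.RV = X.FF) : False := by
  classical
  have hfin := finite_V X.HQ.large
  have hrF : finrank (ZMod 2) X.FF = 2 := by have := X.finrank_FF; omega
  obtain ⟨n₁, n₂, p₁, p₂, ⟨hn₁F, hn₂F, hp₁F, hp₂F⟩, ⟨hqn₁, hqn₂, hqp₁, hqp₂⟩, hnn, hpp, h11, h22,
    h12, h21⟩ := X.exists_hyp h6 hW
  have h11' : X.HQ.large.b p₁ n₁ = 1 := by rw [X.HQ.large.b_comm]; exact h11
  have h22' : X.HQ.large.b p₂ n₂ = 1 := by rw [X.HQ.large.b_comm]; exact h22
  have h12' : X.HQ.large.b p₂ n₁ = 0 := by rw [X.HQ.large.b_comm]; exact h12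
  have h21' : X.HQ.large.b p₁ n₂ = 0 := by rw [X.HQ.large.b_comm]; exact h21
  have hnn' : X.HQ.large.b n₂ n₁ = 0 := by rw [X.HQ.large.b_comm]; exact hnn
  have hpp' : X.HQ.large.b p₂ p₁ = 0 := by rw [X.HQ.large.b_comm]; exact hpp
  -- combinations
  let L : (Fin 4 → ZMod 2) → X.HQ.large.V := fun a => a 0 • n₁ + a 1 • p₁ + a 2 • n₂ + a 3 • p₂
  have hLF : ∀ a, L a ∈ X.FV := fun a => X.FV.add_mem (X.FV.add_mem (X.FV.add_mem
    (X.FV.smul_mem _ hn₁F) (X.FV.smul_mem _ hp₁F)) (X.FV.smul_mem _ hn₂F)) (X.FV.smul_mem _ hp₂F)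
  have hbn₁ : ∀ a, X.HQ.large.b n₁ (L a) = a 1 := by
    intro a
    simp only [L, map_add, map_smul, smul_eq_mul, X.HQ.large.b_self, h11, hnn, h12]
    ring
  have hbp₁ : ∀ a, X.HQ.large.b p₁ (L a) = a 0 := by
    intro a
    simp only [L, map_add, map_smul, smul_eq_mul, X.HQ.large.b_self, h11', hpp, h21']
    ring
  have hbn₂ : ∀ a, X.HQ.large.b n₂ (L a) = a 3 := by
    intro a
    simp only [L, map_add, map_smul, smul_eq_mul, X.HQ.large.b_self, h22, hnn', h21]
    ring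
  have hbp₂ : ∀ a, X.HQ.large.b p₂ (L a) = a 2 := by
    intro a
    simp only [L, map_add, map_smul, smul_eq_mul, X.HQ.large.b_self, h22', hpp', h12']
    ring
  have hLinj : ∀ a, L a ∈ X.FF → a = 0 := by
    intro a ha
    have e1 := X.b_FF_FV ha hn₁F
    have e2 := X.b_FF_FV ha hp₁F
    have e3 := X.b_FF_FV ha hn₂F
    have e4 := X.b_FF_FV ha hp₂F
    rw [X.HQ.large.b_comm, hbn₁] at e1
    rw [X.HQ.large.b_comm, hbp₁] at e2
    rw [X.HQ.large.b_comm, hbn₂] at e3
    rw [X.HQ.large.b_comm, hbp₂] at e4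
    funext i
    fin_cases i
    · exact e2
    · exact e1
    · exact e4
    · exact e3
  have hLadd : ∀ a b, L (a + b) = L a + L b := by
    intro a b
    simp only [L, Pi.add_apply, add_smul]
    abel
  -- every vector of `C_V(y)` is `L a` modulo `[V, y]`
  have hcov : ∀ w ∈ X.FV, ∃ a, w + L a ∈ X.FF := by
    -- counting
    have hinj : Function.Injective (fun p : X.FF × (Fin 4 → ZMod 2) =>
        (⟨p.1 + L p.2, X.FV.add_mem (X.FF_le_FV p.1.2) (hLF _)⟩ : X.FV)) := by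
      rintro ⟨f, a⟩ ⟨g, b⟩ hab
      have h1 : (f : X.HQ.large.V) + L a = g + L b := congrArg Subtype.val hab
      have h2 : L (a + b) = (f : X.HQ.large.V) + g := by
        rw [hLadd]
        have h3 : L a + L b = (f + L a) + (f + L b) := by
          have : (f : X.HQ.large.V) + L a + (f + L b) = (f + f) + (L a + L b) := by abel
          rw [this, X.HQ.large.add_self, zero_add]
        rw [h3, h1]
        have : (g : X.HQ.large.V) + L b + (f + L b) = (f + g) + (L b + L b) := by abel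
        rw [this, X.HQ.large.add_self, add_zero]
      have h3 : a + b = 0 := hLinj _ (by rw [h2]; exact X.FF.add_mem f.2 g.2)
      have h4 : a = b := by
        funext i
        have := congrFun h3 i
        rw [Pi.add_apply, Pi.zero_apply] at this
        exact (CharTwo.add_eq_zero).1 this
      subst h4
      have h5 : f = g := Subtype.ext (add_right_cancel h1)
      rw [h5]
    have hcard : Nat.card (X.FF × (Fin 4 → ZMod 2)) = Nat.card X.FV := by
      rw [Nat.card_prod, X.card_FF h6, card_sub, h6, Nat.card_fun, Nat.card_zmod, Nat.card_fin]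
      norm_num
    have hbij := (Nat.bijective_iff_injective_and_card _).2 ⟨hinj, hcard⟩
    intro w hw
    obtain ⟨⟨f, a⟩, hfa⟩ := hbij.2 ⟨w, hw⟩
    refine ⟨a, ?_⟩
    have h1 : (f : X.HQ.large.V) + L a = w := congrArg Subtype.val hfa
    rw [← h1, add_assoc, X.HQ.large.add_self, add_zero]
    exact f.2
  -- everything is in `WW`
  obtain ⟨w, hw, hwF⟩ := X.exists_WW hW hR h6
  obtain ⟨a, ha⟩ := hcov w hw.1
  have hbF : ∀ v ∈ X.FV, X.HQ.large.b v w = X.HQ.large.b v (L a) := by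
    intro v hv
    have h1 := X.b_FF_FV ha hv
    rw [X.HQ.large.b_comm, map_add] at h1
    exact CharTwo.add_eq_zero.1 h1
  have ha0 : a ≠ 0 := by
    rintro rfl
    apply hwF
    have : L 0 = 0 := by simp [L]
    rwa [this, add_zero] at ha
  have op1 : ∀ v ∈ X.WW hW hR, X.HQ.large.b n₂ v • n₁ + X.HQ.large.b n₁ v • n₂ ∈ X.WW hW hR :=
    fun v hv => X.WW_siegel hW hR hn₁F hn₂F hqn₁ hqn₂ hnn hv
  have op2 : ∀ v ∈ X.WW hW hR, X.HQ.large.b p₂ v • p₁ + X.HQ.large.b p₁ v • p₂ ∈ X.WW hW hR :=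
    fun v hv => X.WW_siegel hW hR hp₁F hp₂F hqp₁ hqp₂ hpp hv
  have op3 : ∀ v ∈ X.WW hW hR, X.HQ.large.b p₂ v • n₁ + X.HQ.large.b n₁ v • p₂ ∈ X.WW hW hR :=
    fun v hv => X.WW_siegel hW hR hn₁F hp₂F hqn₁ hqp₂ h12 hv
  have op4 : ∀ v ∈ X.WW hW hR, X.HQ.large.b n₂ v • p₁ + X.HQ.large.b p₁ v • n₂ ∈ X.WW hW hR :=
    fun v hv => X.WW_siegel hW hR hp₁F hn₂F hqp₁ hqn₂ h21' hv
  have c1 : n₁ ∈ X.WW hW hR → p₂ ∈ X.WW hW hR := by
    intro h
    have := op2 _ h
    rwa [h12', h11', zero_smul, one_smul, zero_add] at this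
  have c2 : n₁ ∈ X.WW hW hR → n₂ ∈ X.WW hW hR := by
    intro h
    have := op4 _ h
    rwa [hnn', h11', zero_smul, one_smul, zero_add] at this
  have c3 : n₂ ∈ X.WW hW hR → p₁ ∈ X.WW hW hR := by
    intro h
    have := op2 _ h
    rwa [h22', h21', zero_smul, one_smul, add_zero] at this
  have c4 : n₂ ∈ X.WW hW hR → n₁ ∈ X.WW hW hR := by
    intro h
    have := op3 _ h
    rwa [h22', hnn, zero_smul, one_smul, add_zero] at this
  have c5 : p₁ ∈ X.WW hW hR → n₂ ∈ X.WW hW hR := by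
    intro h
    have := op1 _ h
    rwa [h21, h11, zero_smul, one_smul, zero_add] at this
  have c6 : p₂ ∈ X.WW hW hR → n₁ ∈ X.WW hW hR := by
    intro h
    have := op1 _ h
    rwa [h22, h12, zero_smul, one_smul, add_zero] at this
  have hn₁W : n₁ ∈ X.WW hW hR := by
    have e1 := op1 _ hw
    have e2 := op2 _ hw
    rw [hbF _ hn₁F, hbF _ hn₂F, hbn₁, hbn₂] at e1
    rw [hbF _ hp₁F, hbF _ hp₂F, hbp₁, hbp₂] at e2
    rcases zmod2_cases (a 1) with h1 | h1
    · rcases zmod2_cases (a 3) with h3 | h3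
      · rcases zmod2_cases (a 0) with h0 | h0
        · rcases zmod2_cases (a 2) with h2 | h2
          · exfalso
            apply ha0
            funext i
            fin_cases i
            · exact h0
            · exact h1
            · exact h2
            · exact h3
          · rw [h0, h2, one_smul, zero_smul, add_zero] at e2
            exact c4 (c5 e2)
        · have e3 := op4 _ e2
          simp only [h0, map_add, map_smul, h21, h22, X.HQ.large.b_self, hpp, mul_zero,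
            smul_eq_mul, zero_add, add_zero, one_smul, zero_smul] at e3
          exact c4 (c5 e3)
      · rw [h1, h3, one_smul, zero_smul, add_zero] at e1
        exact e1
    · have e3 := op3 _ e1
      simp only [h1, map_add, map_smul, h12', h22', X.HQ.large.b_self, hnn, mul_zero,
        smul_eq_mul, zero_add, add_zero, one_smul, zero_smul] at e3
      exact e3
  have hn₂W := c2 hn₁W
  have hp₁W := c3 hn₂W
  have hp₂W := c1 hn₁W
  have hLW : ∀ a, L a ∈ X.WW hW hR := fun a => (X.WW hW hR).add_mem ((X.WW hW hR).add_mem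
    ((X.WW hW hR).add_mem ((X.WW hW hR).smul_mem _ hn₁W) ((X.WW hW hR).smul_mem _ hp₁W))
    ((X.WW hW hR).smul_mem _ hn₂W)) ((X.WW hW hR).smul_mem _ hp₂W)
  -- two independent vectors in `[V, y]`
  obtain ⟨m₁, hm₁, hm₁0⟩ : ∃ m ∈ X.FF, m ≠ 0 := by
    have : X.FF ≠ ⊥ := by
      intro h0
      rw [h0, finrank_bot] at hrF
      omega
    exact (Submodule.ne_bot_iff _).1 this
  obtain ⟨m₂, hm₂, hm₂'⟩ : ∃ m ∈ X.FF, m ∉ Submodule.span (ZMod 2) {m₁} := by
    by_contra hcon
    push Not at hcon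
    have := Submodule.finrank_mono (show X.FF ≤ Submodule.span (ZMod 2) {m₁} from hcon)
    rw [finrank_span_singleton hm₁0] at this
    omega
  have hind : ∀ s t : ZMod 2, s • m₁ + t • m₂ = 0 → s = 0 ∧ t = 0 := by
    intro s t hst
    rcases zmod2_cases t with rfl | rfl
    · rw [zero_smul, add_zero] at hst
      rcases zmod2_cases s with rfl | rfl
      · exact ⟨rfl, rfl⟩
      · rw [one_smul] at hst; exact absurd hst hm₁0
    · exfalso
      apply hm₂'
      rw [one_smul, add_eq_zero_iff'] at hst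
      rw [← hst]
      exact Submodule.smul_mem _ _ (Submodule.mem_span_singleton_self _)
  have hSS : ∀ a b : Fin 4 → ZMod 2, X.SS (fun n => X.HQ.large.b n (L a) • m₁ +
      X.HQ.large.b n (L b) • m₂) := fun a b =>
    X.SS_add hW hR ((hLW a).2 m₁ hm₁) ((hLW b).2 m₂ hm₂)
  choose f hf hf' using hSS
  have hinj : Function.Injective (fun p : (Fin 4 → ZMod 2) × (Fin 4 → ZMod 2) =>
      (⟨f p.1 p.2, hf p.1 p.2⟩ : X.B)) := by
    rintro ⟨a, b⟩ ⟨a', b'⟩ hab
    have h1 : f a b = f a' b' := congrArg Subtype.val hab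
    have h2 : ∀ n ∈ X.FV, X.HQ.large.b n (L a) = X.HQ.large.b n (L a') ∧
        X.HQ.large.b n (L b) = X.HQ.large.b n (L b') := by
      intro n hn
      have h3 := hf' a b n hn
      rw [h1, hf' a' b' n hn] at h3
      have h4 := add_left_cancel h3
      have h5 : (X.HQ.large.b n (L a) + X.HQ.large.b n (L a')) • m₁ +
          (X.HQ.large.b n (L b) + X.HQ.large.b n (L b')) • m₂ = 0 := by
        rw [add_smul, add_smul]
        have h6 : X.HQ.large.b n (L a) • m₁ + X.HQ.large.b n (L a') • m₁ +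
            (X.HQ.large.b n (L b) • m₂ + X.HQ.large.b n (L b') • m₂) =
            (X.HQ.large.b n (L a') • m₁ + X.HQ.large.b n (L b') • m₂) +
            (X.HQ.large.b n (L a) • m₁ + X.HQ.large.b n (L b) • m₂) := by abel
        rw [h6]
        have h7 : X.HQ.large.b n (L a') • m₁ + X.HQ.large.b n (L b') • m₂ =
          X.HQ.large.b n (L a) • m₁ + X.HQ.large.b n (L b) • m₂ := h4
        rw [h7, X.HQ.large.add_self]
      have h6 := hind _ _ h5
      exact ⟨CharTwo.add_eq_zero.1 h6.1, CharTwo.add_eq_zero.1 h6.2⟩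
    have h3 : ∀ c c' : Fin 4 → ZMod 2,
        (∀ n ∈ X.FV, X.HQ.large.b n (L c) = X.HQ.large.b n (L c')) → c = c' := by
      intro c c' hcc
      funext i
      fin_cases i
      · have := hcc p₁ hp₁F
        rw [hbp₁, hbp₁] at this; exact this
      · have := hcc n₁ hn₁F
        rw [hbn₁, hbn₁] at this; exact this
      · have := hcc p₂ hp₂F
        rw [hbp₂, hbp₂] at this; exact this
      · have := hcc n₂ hn₂F
        rw [hbn₂, hbn₂] at this; exact this
    have h4 := h3 a a' (fun n hn => (h2 n hn).1)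
    have h5 := h3 b b' (fun n hn => (h2 n hn).2)
    rw [h4, h5]
  have h8 := Nat.card_le_card_of_injective _ hinj
  rw [Nat.card_prod, Nat.card_fun, Nat.card_zmod, Nat.card_fin] at h8
  have h9 := X.card_B_le
  have h10 : (2 : ℕ) ^ 4 * 2 ^ 4 = 256 := by norm_num
  omega

/-- Pairs with `dim [V, y] = 2` do not occur. -/
theorem finrank_FV_eq (X : Ctx Q P z y) : finrank (ZMod 2) X.FV = 4 := by
  have main : ∀ {Q P : Subgroup G} {z y : G} (X : Ctx Q P z y), finrank (ZMod 2) X.FV = 6 →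
      X.WA = X.FV → False := by
    intro Q P z y X h6 hW
    rcases X.RV_eq_of_six hW h6 with h0 | hR
    · exact X.not_type1_bot h6 hW h0
    · exact X.not_type1_eq h6 hW hR
  rcases X.finrank_FV with h4 | h6
  · exact h4
  exfalso
  by_cases hW : X.WA = X.FV
  · exact main X h6 hW
  by_cases hq : ∀ f ∈ X.FF, X.HQ.large.q f = 0
  · by_cases h0 : X.RV = ⊥
    · exact X.not_type2_bot h6 hW hq h0
    · -- the other side
      have h1 : X.symm.RV ≠ ⊥ := by
        intro h1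
        apply h0
        have hfin := finite_V X.HQ.large
        have h2 := X.card_RV_symm
        rw [h1, Nat.card_unique, card_sub] at h2
        have h3 : finrank (ZMod 2) X.RV = 0 := by
          by_contra h3
          have h4 : 1 < 2 ^ finrank (ZMod 2) X.RV := Nat.one_lt_two_pow h3
          omega
        exact Submodule.finrank_eq_zero.1 h3
      have h2 : finrank (ZMod 2) X.symm.FV = 6 := by
        rcases X.symm.finrank_FV with h2 | h2
        · exact absurd (X.symm.RV_eq_bot_four h2) h1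
        · exact h2
      have h3 : X.symm.WA ≠ X.symm.FV := fun h3 => main X.symm h2 h3
      have h4 := X.symm.finrank_WA h3
      obtain ⟨a, b, ha, hb, hab⟩ := X.symm.exists_noncomm (by omega)
      exact X.not_type2_of_comm h6 hW hq
        (b₁ := ⟨a, Subgroup.mem_centralizer_singleton_iff.2 ha⟩)
        (b₂ := ⟨b, Subgroup.mem_centralizer_singleton_iff.2 hb⟩)
        (X.mem_B.2 a.2) (X.mem_B.2 b.2) hab
  · push Not at hq
    obtain ⟨f, hf, hqf⟩ := hq
    exact X.not_type3 h6 hf hqf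

end Ctx

end Cfsg.Agent.CoOneNWC
end

-- part: CoOneNWC/TypeFive
section
/-!
# For every pair `C_Q(y)` covers `C_V(y)`
-/

set_option autoImplicit false

namespace Cfsg.Agent.CoOneNWC

open Cfsg.Agent.Co2Type.Quad Module

section gen

variable {G : Type*} [Group G] [Finite G] {Q : Subgroup G} {z : G} (h : Large Q z)

/-- A vector inducing on the totally isotropic space `F` a functional different from `0` and `q`. -/
theorem exists_vector {F : Submodule (ZMod 2) h.V} (hF : 2 ≤ finrank (ZMod 2) F) :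
    ∃ v₀ : h.V, (∃ f₀ ∈ F, h.b v₀ f₀ = 1) ∧ ∃ f₁ ∈ F, h.b v₀ f₁ ≠ h.q f₁ := by
  have hfin := finite_V h
  have hne : F ≠ ⊥ := by
    intro h0
    rw [h0, finrank_bot] at hF
    omega
  obtain ⟨f₁, hf₁, hf₁0⟩ := (Submodule.ne_bot_iff _).1 hne
  obtain ⟨f₂, hf₂, hf₂0⟩ : ∃ f₂ ∈ F, f₂ ∉ Submodule.span (ZMod 2) {f₁} := by
    by_contra hcon
    push Not at hcon
    have h1 : F ≤ Submodule.span (ZMod 2) {f₁} := hcon
    have h2 := Submodule.finrank_mono h1
    rw [finrank_span_singleton hf₁0] at h2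
    omega
  have hf₁' : f₁ ∉ Submodule.span (ZMod 2) {f₂} := by
    intro h1
    obtain ⟨a, ha⟩ := Submodule.mem_span_singleton.1 h1
    rcases zmod2_cases a with rfl | rfl
    · rw [zero_smul] at ha; exact hf₁0 ha.symm
    · rw [one_smul] at ha
      exact hf₂0 (ha ▸ Submodule.mem_span_singleton_self f₂)
  obtain ⟨v₁, hv₁, hb₁⟩ := exists_perp_ne h hf₁'
  obtain ⟨v₂, hv₂, hb₂⟩ := exists_perp_ne h hf₂0
  have hv₂' : h.b v₂ f₁ = 0 :=
    (mem_perp' _).1 hv₂ f₁ (Submodule.mem_span_singleton_self f₁)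
  by_cases hq : h.b v₁ f₁ = h.q f₁
  · refine ⟨v₂, ⟨f₂, hf₂, hb₂⟩, f₁, hf₁, ?_⟩
    rw [hv₂', ← hq, hb₁]
    exact zero_ne_one
  · exact ⟨v₁, ⟨f₁, hf₁, hb₁⟩, f₁, hf₁, hq⟩

theorem fix_mul {a b : Subgroup.centralizer ({z} : Set G)} {v : h.V} (ha : v ∈ fixV h a)
    (hb : v ∈ fixV h b) : v ∈ fixV h (a * b) := by
  show h.act (a * b) v = v
  rw [← act_act, (mem_fixV h b v).1 hb, (mem_fixV h a v).1 ha]

theorem fix_inv {a : Subgroup.centralizer ({z} : Set G)} {v : h.V} (ha : v ∈ fixV h a) :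
    v ∈ fixV h a⁻¹ := by
  show h.act a⁻¹ v = v
  conv_lhs => rw [← (mem_fixV h a v).1 ha]
  exact act_inv_act _ _ _

/-- If all non-trivial elements of `B` have the same fixed space `M = M^⊥` of dimension four, then
`|B| ≤ 8`. -/
theorem card_le_of_same (B : Subgroup (Subgroup.centralizer ({z} : Set G)))
    (M : Submodule (ZMod 2) h.V) (hM4 : finrank (ZMod 2) M = 4) (hMM : M = perp h M)
    (hB : ∀ b ∈ B, b ≠ 1 → fixV h b = M) : Nat.card B ≤ 8 := by
  have hfin := finite_V h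
  obtain ⟨v₀, ⟨f₀, hf₀, hvf₀⟩, f₁, hf₁, hvf₁⟩ := exists_vector h (F := M) (by omega)
  have hfix : ∀ b ∈ B, ∀ m ∈ M, h.act b m = m := by
    intro b hb m hm
    by_cases hb1 : b = 1
    · rw [hb1, act_one]
    · have : m ∈ fixV h b := by rw [hB b hb hb1]; exact hm
      exact this
  have hiso : ∀ a ∈ M, ∀ b ∈ M, h.b a b = 0 := by
    intro a ha b hb
    rw [hMM] at ha
    exact (mem_perp' _).1 ha b hb
  let N : Submodule (ZMod 2) h.V :=
    { carrier := {f | f ∈ M ∧ h.b v₀ f = h.q f}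
      add_mem' := by
        rintro a b ⟨ha, ha'⟩ ⟨hb, hb'⟩
        refine ⟨M.add_mem ha hb, ?_⟩
        rw [map_add, ha', hb', h.q_add', hiso a ha b hb, add_zero]
      zero_mem' := ⟨M.zero_mem, by rw [map_zero, h.q_zero]⟩
      smul_mem' := by
        rintro c a ⟨ha, ha'⟩
        rcases zmod2_cases c with rfl | rfl
        · rw [zero_smul]; exact ⟨M.zero_mem, by rw [map_zero, h.q_zero]⟩
        · rw [one_smul]; exact ⟨ha, ha'⟩ }
  have hNcard : Nat.card N ≤ 8 := by
    rw [card_sub]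
    have h1 : N ≠ M := by
      intro h1
      have : f₁ ∈ N := by rw [h1]; exact hf₁
      exact hvf₁ this.2
    have hle : N ≤ M := fun f hf => hf.1
    have h2 := Submodule.finrank_lt_finrank_of_lt (lt_of_le_of_ne hle h1)
    calc 2 ^ finrank (ZMod 2) N ≤ 2 ^ 3 := Nat.pow_le_pow_right (by norm_num) (by omega)
      _ = 8 := by norm_num
  have h1 : Nat.card B ≤ Nat.card N * Nat.card (⊥ : Subgroup (Subgroup.centralizer ({z} : Set G))) := by
    apply card_le_step h B N v₀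
    · intro b hb
      have h3 : h.act b v₀ + v₀ ∈ M := by
        rw [hMM, mem_perp']
        intro w hw
        have h4 : h.act b⁻¹ w = w := hfix _ (B.inv_mem hb) w hw
        rw [map_add, LinearMap.add_apply, b_act_left, h4, zmod2_add_self]
      refine ⟨h3, ?_⟩
      rw [q_act_add, map_add, h.b_self, add_zero, h.b_comm]
    · intro b hb n hn
      exact hfix b hb n hn.1
    · intro b hb hb'
      rw [Subgroup.mem_bot]
      by_contra hb1
      have h2 : v₀ ∈ M := by rw [← hB b hb hb1]; exact hb'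
      rw [hiso v₀ h2 f₀ hf₀] at hvf₀
      exact zero_ne_one hvf₀
  rw [Subgroup.card_bot, mul_one] at h1
  exact h1.trans hNcard

/-- A group of order 16 whose non-trivial elements have fixed spaces `M = M^⊥` of dimension four, all
containing a given space of dimension at least three, does not exist. -/
theorem not_fix4 (hV : finrank (ZMod 2) h.V = 8)
    (B : Subgroup (Subgroup.centralizer ({z} : Set G))) (W : Submodule (ZMod 2) h.V)
    (hW3 : 3 ≤ finrank (ZMod 2) W) (hWB : ∀ b ∈ B, W ≤ fixV h b)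
    (h4 : ∀ b ∈ B, b ≠ 1 → finrank (ZMod 2) (fixV h b) = 4)
    (hiso : ∀ b ∈ B, b ≠ 1 → fixV h b = perp h (fixV h b)) (hcard : Nat.card B = 16) : False := by
  classical
  have hfin := finite_V h
  obtain ⟨k, hk, hk1⟩ : ∃ k ∈ B, k ≠ 1 := by
    by_contra hcon
    push Not at hcon
    have : B = ⊥ := by rw [Subgroup.eq_bot_iff_forall]; exact hcon
    rw [this, Subgroup.card_bot] at hcard
    omega
  obtain ⟨k', hk', hk'1, hkk'⟩ : ∃ k' ∈ B, k' ≠ 1 ∧ fixV h k' ≠ fixV h k := by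
    by_contra hcon
    push Not at hcon
    have := card_le_of_same h B (fixV h k) (h4 k hk hk1) (hiso k hk hk1) hcon
    omega
  -- equality of fixed spaces from inclusion
  have heq : ∀ {a b : Subgroup.centralizer ({z} : Set G)}, a ∈ B → b ∈ B → a ≠ 1 → b ≠ 1 →
      fixV h a ≤ fixV h b → fixV h a = fixV h b := by
    intro a b ha hb ha1 hb1 hle
    apply Submodule.eq_of_le_of_finrank_le hle
    rw [h4 a ha ha1, h4 b hb hb1]
  -- elements fixing two different spaces are trivial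
  have htriv : ∀ {a b c : Subgroup.centralizer ({z} : Set G)}, a ∈ B → b ∈ B → c ∈ B → a ≠ 1 →
      b ≠ 1 → fixV h a ≠ fixV h b → fixV h a ≤ fixV h c → fixV h b ≤ fixV h c → c = 1 := by
    intro a b c ha hb hc ha1 hb1 hne h1 h2
    by_contra hc1
    exact hne ((heq ha hc ha1 hc1 h1).trans (heq hb hc hb1 hc1 h2).symm)
  have hsub : ∀ {b : Subgroup.centralizer ({z} : Set G)}, b ∈ B → b ≠ 1 →
      fixV h b ≤ perp h W := by
    intro b hb hb1
    rw [hiso b hb hb1]
    exact perp_anti h (hWB b hb)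
  -- `dim W = 3`
  have hW : finrank (ZMod 2) W = 3 := by
    by_contra hne
    have h1 : W = fixV h k := by
      apply Submodule.eq_of_le_of_finrank_le (hWB k hk)
      rw [h4 k hk hk1]; omega
    have h2 : W = fixV h k' := by
      apply Submodule.eq_of_le_of_finrank_le (hWB k' hk')
      rw [h4 k' hk' hk'1]; omega
    exact hkk' (h2.symm.trans h1)
  have hPW : finrank (ZMod 2) (perp h W) = 5 := by
    have := finrank_perp h W
    omega
  -- two different fixed spaces span `W^⊥`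
  have hspan : ∀ {a b : Subgroup.centralizer ({z} : Set G)}, a ∈ B → b ∈ B → a ≠ 1 → b ≠ 1 →
      fixV h a ≠ fixV h b → perp h W ≤ fixV h a ⊔ fixV h b := by
    intro a b ha hb ha1 hb1 hne
    have h1 : fixV h a ⊔ fixV h b ≤ perp h W := sup_le (hsub ha ha1) (hsub hb hb1)
    have h2 : fixV h a < fixV h a ⊔ fixV h b := by
      refine lt_of_le_of_ne le_sup_left ?_
      intro h3
      apply hne
      exact (heq hb ha hb1 ha1 (by rw [h3]; exact le_sup_right)).symm
    have h3 := Submodule.finrank_lt_finrank_of_lt h2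
    rw [h4 a ha ha1] at h3
    rw [Submodule.eq_of_le_of_finrank_le h1 (by omega)]
  -- three different fixed spaces: a fourth one is one of them
  have hthird : ∀ {a b c l : Subgroup.centralizer ({z} : Set G)}, a ∈ B → b ∈ B → c ∈ B → l ∈ B →
      a ≠ 1 → b ≠ 1 → c ≠ 1 → l ≠ 1 → fixV h a ≠ fixV h b → fixV h c ≠ fixV h a →
      fixV h c ≠ fixV h b → fixV h l ≠ fixV h a → fixV h l ≠ fixV h b →
      fixV h l = fixV h c := by
    intro a b c l ha hb hc hl ha1 hb1 hc1 hl1 hab hca hcb hla hlb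
    -- vectors outside `W`
    have key : ∀ {c : Subgroup.centralizer ({z} : Set G)}, c ∈ B → c ≠ 1 →
        fixV h c ≠ fixV h a → fixV h c ≠ fixV h b →
        ∃ v ∈ fixV h c, v ∉ W ∧ ∃ m ∈ fixV h a, m ∉ W ∧ ∃ m' ∈ fixV h b, m' ∉ W ∧ m + m' = v := by
      intro c hc hc1 hca hcb
      obtain ⟨v, hv, hvW⟩ : ∃ v ∈ fixV h c, v ∉ W := by
        by_contra hcon
        push Not at hcon
        have := Submodule.finrank_mono (show fixV h c ≤ W from hcon)
        rw [h4 c hc hc1] at this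
        omega
      obtain ⟨m, hm, m', hm', hmm⟩ := Submodule.mem_sup.1
        (hspan ha hb ha1 hb1 hab (hsub hc hc1 hv))
      -- `fixV c` is generated by `W` and `v`
      have hgen : ∀ {M : Submodule (ZMod 2) h.V}, W ≤ M → v ∈ M → fixV h c ≤ M := by
        intro M hWM hvM u hu
        by_cases huW : u ∈ W
        · exact hWM huW
        · have h1 := add_mem_of_finrank h (hWB c hc) (by rw [h4 c hc hc1, hW]) hu hv huW hvW
          have h2 := M.add_mem (hWM h1) hvM
          rwa [add_assoc, h.add_self, add_zero] at h2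
      refine ⟨v, hv, hvW, m, hm, ?_, m', hm', ?_, hmm⟩
      · intro hmW
        apply hcb
        apply heq hc hb hc1 hb1
        apply hgen (hWB b hb)
        rw [← hmm]
        exact (fixV h b).add_mem (hWB b hb hmW) hm'
      · intro hmW
        apply hca
        apply heq hc ha hc1 ha1
        apply hgen (hWB a ha)
        rw [← hmm]
        exact (fixV h a).add_mem hm (hWB a ha hmW)
    obtain ⟨v, hv, hvW, m, hm, hmW, m', hm', hm'W, hmm⟩ := key hl hl1 hla hlb
    obtain ⟨u, hu, huW, n, hn, hnW, n', hn', hn'W, hnn⟩ := key hc hc1 hca hcb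
    have h1 : m + n ∈ W := add_mem_of_finrank h (hWB a ha) (by rw [h4 a ha ha1, hW]) hm hn hmW hnW
    have h2 : m' + n' ∈ W :=
      add_mem_of_finrank h (hWB b hb) (by rw [h4 b hb hb1, hW]) hm' hn' hm'W hn'W
    have h3 : v + u ∈ W := by
      rw [← hmm, ← hnn]
      have : m + m' + (n + n') = (m + n) + (m' + n') := by abel
      rw [this]; exact W.add_mem h1 h2
    have h5 : v ∈ fixV h c := by
      have h6 := (fixV h c).add_mem (hWB c hc h3) hu
      rwa [add_assoc, h.add_self, add_zero] at h6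
    apply heq hl hc hl1 hc1
    intro t ht
    by_cases htW : t ∈ W
    · exact hWB c hc htW
    · have h6 := add_mem_of_finrank h (hWB l hl) (by rw [h4 l hl hl1, hW]) ht hv htW hvW
      have h7 := (fixV h c).add_mem (hWB c hc h6) h5
      rwa [add_assoc, h.add_self, add_zero] at h7
  -- products
  have hprod : ∀ {a b : Subgroup.centralizer ({z} : Set G)}, a ∈ B → b ∈ B → a ≠ 1 → b ≠ 1 →
      fixV h a ≠ fixV h b → a * b ≠ 1 ∧ fixV h (a * b) ≠ fixV h a ∧ fixV h (a * b) ≠ fixV h b := by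
    intro a b ha hb ha1 hb1 hab
    have hab1 : a * b ≠ 1 := by
      intro h1
      apply hab
      have h2 : b = a⁻¹ := by rw [eq_inv_iff_mul_eq_one, mul_eq_one_comm]; exact h1
      apply heq ha hb ha1 hb1
      intro v hv
      rw [h2]; exact fix_inv h hv
    refine ⟨hab1, ?_, ?_⟩
    · intro h1
      apply hab
      apply heq ha hb ha1 hb1
      intro v hv
      have h2 : b = a⁻¹ * (a * b) := by group
      rw [h2]
      exact fix_mul h (fix_inv h hv) (h1 ▸ hv)
    · intro h1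
      apply hab
      symm
      apply heq hb ha hb1 ha1
      intro v hv
      have h2 : a = (a * b) * b⁻¹ := by group
      rw [h2]
      exact fix_mul h (h1 ▸ hv) (fix_inv h hv)
  obtain ⟨hp1, hpk, hpk'⟩ := hprod hk hk' hk1 hk'1 (Ne.symm hkk')
  have hpB := B.mul_mem hk hk'
  -- `B = {1, k, k', k k'}`
  have hfour : ∀ l ∈ B, l = 1 ∨ l = k ∨ l = k' ∨ l = k * k' := by
    intro l hl
    by_cases hl1 : l = 1
    · exact Or.inl hl1
    right
    by_cases hlk : fixV h l = fixV h k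
    · left
      obtain ⟨h1, h2, h3⟩ := hprod hl hk' hl1 hk'1 (by rw [hlk]; exact Ne.symm hkk')
      have h5 := hthird hk hk' hpB (B.mul_mem hl hk') hk1 hk'1 hp1 h1 (Ne.symm hkk') hpk hpk'
        (by rw [← hlk]; exact h2) h3
      have h6 : l * k⁻¹ = 1 := by
        apply htriv hk hpB (B.mul_mem hl (B.inv_mem hk)) hk1 hp1 (Ne.symm hpk)
        · intro v hv
          exact fix_mul h (hlk ▸ hv) (fix_inv h hv)
        · intro v hv
          have e : l * k⁻¹ = (l * k') * (k * k')⁻¹ := by group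
          rw [e]
          exact fix_mul h (h5 ▸ hv) (fix_inv h hv)
      exact mul_inv_eq_one.1 h6
    by_cases hlk' : fixV h l = fixV h k'
    · right; left
      obtain ⟨h1, h2, h3⟩ := hprod hk hl hk1 hl1 (Ne.symm hlk)
      have h5 := hthird hk hk' hpB (B.mul_mem hk hl) hk1 hk'1 hp1 h1 (Ne.symm hkk') hpk hpk'
        h2 (by rw [← hlk']; exact h3)
      have h6 : k'⁻¹ * l = 1 := by
        apply htriv hk' hpB (B.mul_mem (B.inv_mem hk') hl) hk'1 hp1 (Ne.symm hpk')
        · intro v hv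
          exact fix_mul h (fix_inv h hv) (hlk' ▸ hv)
        · intro v hv
          have e : k'⁻¹ * l = (k * k')⁻¹ * (k * l) := by group
          rw [e]
          exact fix_mul h (fix_inv h hv) (h5 ▸ hv)
      exact (inv_mul_eq_one.1 h6).symm
    · right; right
      have h5 := hthird hk hk' hpB hl hk1 hk'1 hp1 hl1 (Ne.symm hkk') hpk hpk' hlk hlk'
      -- `k⁻¹ l`
      have hki : k⁻¹ ≠ 1 := by rwa [Ne, inv_eq_one]
      have hfi : fixV h k⁻¹ = fixV h k := by
        apply heq (B.inv_mem hk) hk hki hk1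
        intro v hv
        have := fix_inv h hv
        rwa [inv_inv] at this
      obtain ⟨h1, h2, h3⟩ := hprod (B.inv_mem hk) hl hki hl1 (by rw [hfi]; exact Ne.symm hlk)
      have h6 : fixV h (k⁻¹ * l) = fixV h k' := by
        apply hthird hk hpB hk' (B.mul_mem (B.inv_mem hk) hl) hk1 hp1 hk'1 h1 (Ne.symm hpk)
          hkk' (Ne.symm hpk') (by rw [← hfi]; exact h2) (by rw [← h5]; exact h3)
      have h7 : (k * k')⁻¹ * l = 1 := by
        apply htriv hk' hpB (B.mul_mem (B.inv_mem hpB) hl) hk'1 hp1 (Ne.symm hpk')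
        · intro v hv
          have e : (k * k')⁻¹ * l = k'⁻¹ * (k⁻¹ * l) := by group
          rw [e]
          exact fix_mul h (fix_inv h hv) (h6 ▸ hv)
        · intro v hv
          exact fix_mul h (fix_inv h hv) (h5 ▸ hv)
      exact (inv_mul_eq_one.1 h7).symm
  -- `|B| ≤ 4`
  have h1 : (B : Set (Subgroup.centralizer ({z} : Set G))) ⊆
      (({1, k, k', k * k'} : Finset (Subgroup.centralizer ({z} : Set G))) : Set _) := by
    intro l hl
    have := hfour l hl
    simpa using this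
  have h2 : Nat.card B ≤ 4 := by
    have h3 : Nat.card B = Set.ncard (B : Set (Subgroup.centralizer ({z} : Set G))) := rfl
    rw [h3]
    refine (Set.ncard_le_ncard h1 (Finset.finite_toSet _)).trans ?_
    rw [Set.ncard_coe_finset]
    exact Finset.card_le_four
  omega

end gen

namespace Ctx

variable {G : Type*} [Group G] {Q P : Subgroup G} {z y : G}

/-- The pair `(y, y^x)`. -/
theorem conjPair (X : Ctx Q P z y) {x : G} (hc : x * y * x⁻¹ * y = y * (x * y * x⁻¹))
    (hne : x * y * x⁻¹ ≠ y) : Ctx P (P.map (MulAut.conj x).toMonoidHom) y (x * y * x⁻¹) where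
  HQ := X.HP
  HP := X.HP.conj x
  cj := ⟨x, rfl⟩
  wQ := X.wP
  wP := by
    rintro g ⟨p, hp, hpg⟩
    have h1 : x * p * x⁻¹ = g * (x * y * x⁻¹) * g⁻¹ := hpg
    have h2 : (x⁻¹ * g * x) * y * (x⁻¹ * g * x)⁻¹ = p := by
      calc (x⁻¹ * g * x) * y * (x⁻¹ * g * x)⁻¹ = x⁻¹ * (g * (x * y * x⁻¹) * g⁻¹) * x := by group
        _ = p := by rw [← h1]; group
    have h3 := X.wP (x⁻¹ * g * x) (by rw [h2]; exact hp)
    rw [h2] at h3
    rw [← h1, h3]
  ne := hne
  yz := hc

variable [Finite G]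

/-- Type 5 does not occur. -/
theorem WA_eq (X : Ctx Q P z y) : X.WA = X.FV := by
  by_contra hne
  have hfin := finite_V X.HQ.large
  have hfin' := finite_V X.HP.large
  have h4 := X.finrank_FV_eq
  have h4' := X.symm.finrank_FV_eq
  have h0 : X.symm.RV = ⊥ := X.symm.RV_eq_bot_four h4'
  have hFF : X.FF = X.FV := by
    apply Submodule.eq_of_le_of_finrank_le X.FF_le_FV
    have := X.finrank_FF
    omega
  -- every non-trivial element of `A` is a commutator `[x, y]`
  have hcommut : ∀ k ∈ X.symm.B, ∃ x ∈ Q, x * y * x⁻¹ = (k : G) * y := by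
    intro k hk
    have hkQ : (k : G) ∈ Q := X.symm.mem_B.1 hk
    have hky : (k : G) * y = y * k := comm_cent k
    have h1 : X.HQ.large.pr ⟨k, hkQ⟩ ∈ X.FF := by
      rw [hFF]
      exact X.WA_le ((X.pr_mem_WA _).2 hky)
    obtain ⟨w, hw⟩ := (X.mem_FF _).1 h1
    obtain ⟨x, rfl⟩ := X.HQ.large.pr_surjective w
    rw [← X.pr_comm', X.HQ.large.pr_eq_pr] at hw
    rcases hw with hw | hw
    · refine ⟨x, x.2, ?_⟩
      have hw' : (k : G) = x * y * (x : G)⁻¹ * y⁻¹ := hw
      rw [hw', inv_mul_cancel_right]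
    · have hw' : (k : G) = x * y * (x : G)⁻¹ * y⁻¹ * z := hw
      obtain ⟨v, hv, hv'⟩ : ∃ v ∈ X.FV, v ∉ X.WA := by
        by_contra hcon
        push Not at hcon
        exact hne (le_antisymm X.WA_le hcon)
      obtain ⟨x', rfl⟩ := X.HQ.large.pr_surjective v
      have h2 := X.conj_of_notMem_WA hv hv'
      have hx'z := X.HQ.large.comm_z x' x'.2
      have hxz := X.HQ.large.comm_z x x.2
      have h3 : (x' : G) * y * (x' : G)⁻¹ = z * y := by
        have e : (x' : G) * y * (x' : G)⁻¹ = x' * (y * x' * y⁻¹)⁻¹ * y := by group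
        rw [e, h2, mul_inv_rev, X.z_inv, ← mul_assoc, hx'z, mul_inv_cancel_right]
      refine ⟨x * x', Q.mul_mem x.2 x'.2, ?_⟩
      have hcx : Commute z (x : G) := hxz.symm
      have hcy : Commute z y := X.yz.symm
      have hcc : z * (x * y * (x : G)⁻¹) = x * y * (x : G)⁻¹ * z :=
        ((hcx.mul_right hcy).mul_right hcx.inv_right).eq
      calc (x : G) * x' * y * ((x : G) * x')⁻¹ = x * (x' * y * (x' : G)⁻¹) * (x : G)⁻¹ := by group
        _ = (x * z) * (y * (x : G)⁻¹) := by rw [h3]; group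
        _ = z * (x * y * (x : G)⁻¹) := by rw [hxz]; group
        _ = x * y * (x : G)⁻¹ * z := hcc
        _ = k * y := by
            rw [hw']
            calc (x : G) * y * (x : G)⁻¹ * z = x * y * (x : G)⁻¹ * y⁻¹ * (y * z) := by group
              _ = _ := by rw [X.yz]; group
  -- fixed spaces on the other side
  have hfix : ∀ k ∈ X.symm.B, k ≠ 1 → finrank (ZMod 2) (fixV X.HP.large k) = 4 ∧
      fixV X.HP.large k = perp X.HP.large (fixV X.HP.large k) := by
    intro k hk hk1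
    obtain ⟨x, hxQ, hx⟩ := hcommut k hk
    have hky : (k : G) * y = y * k := comm_cent k
    have hc : x * y * x⁻¹ * y = y * (x * y * x⁻¹) := by
      rw [hx, ← mul_assoc, ← hky]
    have hne' : x * y * x⁻¹ ≠ y := by
      rw [hx]
      intro h1
      apply hk1
      apply Subtype.ext
      have h2 : (k : G) * y = 1 * y := by rw [h1, one_mul]
      exact mul_right_cancel h2
    have X2 := X.conjPair hc hne'
    have hY : X2.Y = k * ⟨y, Subgroup.mem_centralizer_singleton_iff.2 rfl⟩ := Subtype.ext hx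
    have hF : fixV X.HP.large k = X2.FV := by
      ext v
      show X.HP.large.act k v = v ↔ X.HP.large.act X2.Y v = v
      rw [hY, ← act_act, X.HP.large.act_mem ⟨y, _⟩ X.HP.large.z_mem]
      rfl
    have h5 := X2.finrank_FV_eq
    have h6 : X2.FF = X2.FV := by
      apply Submodule.eq_of_le_of_finrank_le X2.FF_le_FV
      have := X2.finrank_FF
      omega
    rw [hF]
    exact ⟨h5, h6.symm⟩
  refine not_fix4 X.HP.large X.HP.finrank_V X.symm.B X.symm.WA X.symm.finrank_WA_ge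
    (fun b hb w hw => X.symm.act_B_WA_of_bot h0 hb hw) (fun b hb hb1 => (hfix b hb hb1).1)
    (fun b hb hb1 => (hfix b hb hb1).2) ?_
  rw [X.symm.card_B]
  have h5 := X.finrank_WA hne
  have h6 : finrank (ZMod 2) X.WA = 3 := by omega
  have h7 : Nat.card X.WA = 8 := by rw [card_sub, h6]; norm_num
  show 2 * Nat.card X.WA = 16
  omega

end Ctx

end Cfsg.Agent.CoOneNWC
end

-- part: CoOneNWC/Count
section
/-!
# The final count (S1677, helper978; statement and idea by helper597)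

If `Q ∩ Q^g = 1`, `|C_Q(z^g)| = 32`, … for all `z^g ≠ z` commuting with `z`, then no such `z^g` exists.
-/

set_option autoImplicit false

namespace Cfsg.Agent.CoOneNWC.Count

open Subgroup Cfsg.Agent.Co2Type.Quad

variable {G : Type*} [Group G]

/-- conjugate subgroup -/
def cj (Q : Subgroup G) (k : G) : Subgroup G := Q.map (MulAut.conj k).toMonoidHom

theorem mem_cj {Q : Subgroup G} {k x : G} : x ∈ cj Q k ↔ k⁻¹ * x * k ∈ Q := by
  constructor
  · rintro ⟨y, hy, rfl⟩
    have : k⁻¹ * (k * y * k⁻¹) * k = y := by group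
    show k⁻¹ * (k * y * k⁻¹) * k ∈ Q
    rw [this]; exact hy
  · intro h
    refine ⟨_, h, ?_⟩
    show k * (k⁻¹ * x * k) * k⁻¹ = x
    group

theorem conj_mem_cj {Q : Subgroup G} {k x : G} : k * x * k⁻¹ ∈ cj Q k ↔ x ∈ Q := by
  rw [mem_cj]
  have : k⁻¹ * (k * x * k⁻¹) * k = x := by group
  rw [this]

/-- The properties of a commuting pair of conjugates of `z`. -/
structure PP (Q : Subgroup G) (z k l : G) : Prop where
  inter : ∀ x, x ∈ cj Q k → x ∈ cj Q l → x = 1
  card : Nat.card ↥(cj Q k ⊓ centralizer ({l * z * l⁻¹} : Set G)) = 32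
  comm : ∀ a ∈ cj Q k, a * (l * z * l⁻¹) = (l * z * l⁻¹) * a → ∀ b ∈ cj Q l,
    b * (k * z * k⁻¹) = (k * z * k⁻¹) * b → a * b = b * a
  comm' : ∀ x ∈ cj Q k, ∀ b ∈ cj Q l, b * (k * z * k⁻¹) = (k * z * k⁻¹) * b →
    (b * x * b⁻¹ * x⁻¹) * (l * z * l⁻¹) = (l * z * l⁻¹) * (b * x * b⁻¹ * x⁻¹)
  sq : ∀ x ∈ cj Q k, x * (l * z * l⁻¹) = (l * z * l⁻¹) * x → x * x = 1

theorem conj_comm_iff {k x y : G} :
    (k⁻¹ * x * k) * (k⁻¹ * y * k) = (k⁻¹ * y * k) * (k⁻¹ * x * k) ↔ x * y = y * x := by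
  constructor
  · intro h
    calc x * y = k * ((k⁻¹ * x * k) * (k⁻¹ * y * k)) * k⁻¹ := by group
      _ = k * ((k⁻¹ * y * k) * (k⁻¹ * x * k)) * k⁻¹ := by rw [h]
      _ = y * x := by group
  · intro h
    calc (k⁻¹ * x * k) * (k⁻¹ * y * k) = k⁻¹ * (x * y) * k := by group
      _ = k⁻¹ * (y * x) * k := by rw [h]
      _ = _ := by group

/-- From pairs `(1, g)` to all pairs. -/
theorem pp_of {Q : Subgroup G} {z : G}
    (H : ∀ g : G, g * z * g⁻¹ ≠ z → g * z * g⁻¹ * z = z * (g * z * g⁻¹) →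
      (∀ x ∈ Q, x ∈ Q.map (MulAut.conj g).toMonoidHom → x = 1) ∧
      Nat.card ↥(Q ⊓ Subgroup.centralizer ({g * z * g⁻¹} : Set G)) = 32 ∧
      (∀ a ∈ Q, a * (g * z * g⁻¹) = g * z * g⁻¹ * a → ∀ b ∈ Q.map (MulAut.conj g).toMonoidHom,
        b * z = z * b → a * b = b * a) ∧
      (∀ x ∈ Q, ∀ b ∈ Q.map (MulAut.conj g).toMonoidHom, b * z = z * b →
        (b * x * b⁻¹ * x⁻¹) * (g * z * g⁻¹) = (g * z * g⁻¹) * (b * x * b⁻¹ * x⁻¹)) ∧
      (∀ x ∈ Q, x * (g * z * g⁻¹) = g * z * g⁻¹ * x → x * x = 1))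
    {k l : G} (hne : k * z * k⁻¹ ≠ l * z * l⁻¹)
    (hc : (k * z * k⁻¹) * (l * z * l⁻¹) = (l * z * l⁻¹) * (k * z * k⁻¹)) : PP Q z k l := by
  have ezl : (k⁻¹ * l) * z * (k⁻¹ * l)⁻¹ = k⁻¹ * (l * z * l⁻¹) * k := by group
  have ez : k⁻¹ * (k * z * k⁻¹) * k = z := by group
  have h1 : (k⁻¹ * l) * z * (k⁻¹ * l)⁻¹ ≠ z := by
    rw [ezl]
    intro h
    apply hne
    calc k * z * k⁻¹ = k * (k⁻¹ * (l * z * l⁻¹) * k) * k⁻¹ := by rw [h]
      _ = l * z * l⁻¹ := by group
  have h2 : (k⁻¹ * l) * z * (k⁻¹ * l)⁻¹ * z = z * ((k⁻¹ * l) * z * (k⁻¹ * l)⁻¹) := by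
    rw [ezl]
    have := (conj_comm_iff (k := k)).2 hc
    rw [ez] at this
    exact this.symm
  obtain ⟨c1, c2, c3, c4, c5⟩ := H (k⁻¹ * l) h1 h2
  have hmem : ∀ x, x ∈ cj Q l → k⁻¹ * x * k ∈ Q.map (MulAut.conj (k⁻¹ * l)).toMonoidHom := by
    intro x hx
    have h3 : k⁻¹ * x * k ∈ cj Q (k⁻¹ * l) := by
      rw [mem_cj] at hx ⊢
      have : (k⁻¹ * l)⁻¹ * (k⁻¹ * x * k) * (k⁻¹ * l) = l⁻¹ * x * l := by group
      rw [this]; exact hx
    exact h3
  have hzc : ∀ b : G, b * (k * z * k⁻¹) = (k * z * k⁻¹) * b →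
      (k⁻¹ * b * k) * z = z * (k⁻¹ * b * k) := by
    intro b hb
    have := (conj_comm_iff (k := k)).2 hb
    rwa [ez] at this
  refine ⟨?_, ?_, ?_, ?_, ?_⟩
  · intro x hx hx'
    have h3 := c1 _ (mem_cj.1 hx) (hmem x hx')
    calc x = k * (k⁻¹ * x * k) * k⁻¹ := by group
      _ = 1 := by rw [h3]; group
  · have h3 : cj Q k ⊓ centralizer ({l * z * l⁻¹} : Set G) =
        (Q ⊓ centralizer ({(k⁻¹ * l) * z * (k⁻¹ * l)⁻¹} : Set G)).map
          (MulAut.conj k).toMonoidHom := by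
      ext x
      show x ∈ _ ↔ x ∈ cj _ k
      rw [mem_cj, mem_inf, mem_inf, mem_cj, mem_centralizer_singleton_iff,
        mem_centralizer_singleton_iff, ezl, conj_comm_iff]
    rw [h3, Subgroup.card_map_of_injective (MulAut.conj k).injective]
    exact c2
  · intro a ha hac b hb hbc
    rw [← conj_comm_iff (k := k)]
    exact c3 _ (mem_cj.1 ha) (by rw [ezl, conj_comm_iff]; exact hac) _ (hmem b hb) (hzc b hbc)
  · intro x hx b hb hbc
    rw [← conj_comm_iff (k := k)]
    have h3 := c4 _ (mem_cj.1 hx) _ (hmem b hb) (hzc b hbc)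
    have h4 : (k⁻¹ * b * k) * (k⁻¹ * x * k) * (k⁻¹ * b * k)⁻¹ * (k⁻¹ * x * k)⁻¹ =
        k⁻¹ * (b * x * b⁻¹ * x⁻¹) * k := by group
    rw [h4, ezl] at h3
    exact h3
  · intro x hx hxc
    have h3 := c5 _ (mem_cj.1 hx) (by rw [ezl, conj_comm_iff]; exact hxc)
    have h4 : (k⁻¹ * x * k) * (k⁻¹ * x * k) = k⁻¹ * (x * x) * k := by group
    rw [h4] at h3
    calc x * x = k * (k⁻¹ * (x * x) * k) * k⁻¹ := by group
      _ = 1 := by rw [h3]; group

/-- orbit-stabiliser for conjugation -/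
theorem card_orbit [Finite G] (K : Subgroup G) (w : G) :
    Nat.card {u : G // ∃ x ∈ K, x * w * x⁻¹ = u} *
      Nat.card ↥(K ⊓ centralizer ({w} : Set G)) = Nat.card K := by
  classical
  rw [← Nat.card_prod]
  symm
  let f : K → {u : G // ∃ x ∈ K, x * w * x⁻¹ = u} := fun x => ⟨x * w * (x : G)⁻¹, x, x.2, rfl⟩
  have hs : ∀ u : {u : G // ∃ x ∈ K, x * w * x⁻¹ = u}, ∃ x : K, f x = u := by
    rintro ⟨u, x, hx, hxu⟩
    exact ⟨⟨x, hx⟩, Subtype.ext hxu⟩
  choose s hs using hs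
  have hmem : ∀ x : K, ((s (f x) : G)⁻¹ * x) ∈ K ⊓ centralizer ({w} : Set G) := by
    intro x
    refine mem_inf.2 ⟨K.mul_mem (K.inv_mem (s (f x)).2) x.2, ?_⟩
    rw [mem_centralizer_singleton_iff]
    have h1 : (s (f x) : G) * w * (s (f x) : G)⁻¹ = x * w * (x : G)⁻¹ :=
      congrArg Subtype.val (hs (f x))
    calc ((s (f x) : G)⁻¹ * x) * w = (s (f x) : G)⁻¹ * (x * w * (x : G)⁻¹) * x := by group
      _ = (s (f x) : G)⁻¹ * ((s (f x) : G) * w * (s (f x) : G)⁻¹) * x := by rw [h1]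
      _ = w * ((s (f x) : G)⁻¹ * x) := by group
  refine Nat.card_congr
    { toFun := fun x => (f x, ⟨(s (f x) : G)⁻¹ * x, hmem x⟩)
      invFun := fun p => s p.1 * ⟨p.2.1, (mem_inf.1 p.2.2).1⟩
      left_inv := fun x => ?_
      right_inv := fun p => ?_ }
  · apply Subtype.ext
    show (s (f x) : G) * ((s (f x) : G)⁻¹ * x) = x
    group
  · have h1 : f (s p.1 * ⟨p.2.1, (mem_inf.1 p.2.2).1⟩) = p.1 := by
      rw [← hs p.1]
      apply Subtype.ext
      have h2 := mem_centralizer_singleton_iff.1 (mem_inf.1 p.2.2).2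
      show ((s (f (s p.1)) : G) * p.2.1) * w * ((s (f (s p.1)) : G) * p.2.1)⁻¹ = s p.1 * w * (s p.1 : G)⁻¹
      have h3 : s (f (s p.1)) = s p.1 := by rw [hs p.1]
      rw [h3]
      calc ((s p.1 : G) * p.2.1) * w * ((s p.1 : G) * p.2.1)⁻¹
          = s p.1 * (p.2.1 * w) * (p.2.1)⁻¹ * (s p.1 : G)⁻¹ := by group
        _ = s p.1 * (w * p.2.1) * (p.2.1)⁻¹ * (s p.1 : G)⁻¹ := by rw [h2]
        _ = _ := by group
    refine Prod.ext h1 ?_
    apply Subtype.ext
    show (s (f (s p.1 * ⟨p.2.1, _⟩)) : G)⁻¹ * (s p.1 * p.2.1) = p.2.1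
    rw [h1]; group

/-- The data of a pair. -/
structure Dat (Q P : Subgroup G) (z y : G) : Prop where
  hz : Large Q z
  hy : Large P y
  zy : z * y = y * z
  inter : ∀ x, x ∈ Q → x ∈ P → x = 1
  comm : ∀ a ∈ Q, a * y = y * a → ∀ b ∈ P, b * z = z * b → a * b = b * a
  comm' : ∀ x ∈ Q, ∀ b ∈ P, b * z = z * b → (b * x * b⁻¹ * x⁻¹) * y = y * (b * x * b⁻¹ * x⁻¹)
  comm'' : ∀ x ∈ P, ∀ b ∈ Q, b * y = y * b → (b * x * b⁻¹ * x⁻¹) * z = z * (b * x * b⁻¹ * x⁻¹)
  sq : ∀ x ∈ Q, x * y = y * x → x * x = 1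
  sq' : ∀ x ∈ P, x * z = z * x → x * x = 1

theorem Dat.symm {Q P : Subgroup G} {z y : G} (D : Dat Q P z y) : Dat P Q y z where
  hz := D.hy
  hy := D.hz
  zy := D.zy.symm
  inter := fun x h1 h2 => D.inter x h2 h1
  comm := fun a ha h1 b hb h2 => (D.comm b hb h2 a ha h1).symm
  comm' := D.comm''
  comm'' := D.comm'
  sq := D.sq'
  sq' := D.sq

theorem comm_of_sq {S : Subgroup G} (h : ∀ x ∈ S, x * x = 1) {a b : G} (ha : a ∈ S) (hb : b ∈ S) :
    a * b = b * a := by
  have h1 := h a ha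
  have h2 := h b hb
  have h3 := h _ (S.mul_mem ha hb)
  calc a * b = a * ((a * b) * (a * b)) * b := by rw [h3]; group
    _ = (a * a) * (b * a) * (b * b) := by group
    _ = b * a := by rw [h1, h2]; group

/-- `H₀ = C_Q(y) C_P(z)` -/
def Dat.H0 {Q P : Subgroup G} {z y : G} (D : Dat Q P z y) : Subgroup G where
  carrier := {x | ∃ a ∈ Q, a * y = y * a ∧ ∃ b ∈ P, b * z = z * b ∧ x = a * b}
  one_mem' := ⟨1, Q.one_mem, by group, 1, P.one_mem, by group, by group⟩
  mul_mem' := by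
    rintro _ _ ⟨a, ha, ha', b, hb, hb', rfl⟩ ⟨c, hc, hc', d, hd, hd', rfl⟩
    refine ⟨a * c, Q.mul_mem ha hc, ?_, b * d, P.mul_mem hb hd, ?_, ?_⟩
    · rw [mul_assoc, hc', ← mul_assoc, ha', mul_assoc]
    · rw [mul_assoc, hd', ← mul_assoc, hb', mul_assoc]
    · have := D.comm c hc hc' b hb hb'
      rw [mul_assoc a b, ← mul_assoc b c, ← this]; simp only [mul_assoc]
  inv_mem' := by
    rintro _ ⟨a, ha, ha', b, hb, hb', rfl⟩
    refine ⟨a⁻¹, Q.inv_mem ha, ?_, b⁻¹, P.inv_mem hb, ?_, ?_⟩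
    · have : Commute a y := ha'
      exact this.inv_left.eq
    · have : Commute b z := hb'
      exact this.inv_left.eq
    · rw [D.comm a ha ha' b hb hb', mul_inv_rev]

theorem Dat.mem_H0 {Q P : Subgroup G} {z y : G} (D : Dat Q P z y) {x : G} :
    x ∈ D.H0 ↔ ∃ a ∈ Q, a * y = y * a ∧ ∃ b ∈ P, b * z = z * b ∧ x = a * b := Iff.rfl

theorem Dat.H0_symm {Q P : Subgroup G} {z y : G} (D : Dat Q P z y) : D.symm.H0 = D.H0 := by
  ext x
  rw [D.symm.mem_H0, D.mem_H0]
  constructor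
  · rintro ⟨a, ha, ha', b, hb, hb', rfl⟩
    exact ⟨b, hb, hb', a, ha, ha', (D.comm b hb hb' a ha ha').symm⟩
  · rintro ⟨a, ha, ha', b, hb, hb', rfl⟩
    exact ⟨b, hb, hb', a, ha, ha', D.comm a ha ha' b hb hb'⟩

theorem Dat.A_mem {Q P : Subgroup G} {z y : G} (D : Dat Q P z y) {a : G} (ha : a ∈ Q)
    (ha' : a * y = y * a) : a ∈ D.H0 := ⟨a, ha, ha', 1, P.one_mem, by group, by group⟩

theorem Dat.B_mem {Q P : Subgroup G} {z y : G} (D : Dat Q P z y) {b : G} (hb : b ∈ P)
    (hb' : b * z = z * b) : b ∈ D.H0 := ⟨1, Q.one_mem, by group, b, hb, hb', by group⟩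

theorem Dat.z_mem {Q P : Subgroup G} {z y : G} (D : Dat Q P z y) : z ∈ D.H0 :=
  D.A_mem D.hz.z_mem D.zy

theorem Dat.H0_comm {Q P : Subgroup G} {z y : G} (D : Dat Q P z y) {u w : G} (hu : u ∈ D.H0)
    (hw : w ∈ D.H0) : u * w = w * u := by
  refine comm_of_sq (S := D.H0) ?_ hu hw
  rintro _ ⟨a, ha, ha', b, hb, hb', rfl⟩
  have h1 := D.sq a ha ha'
  have h2 := D.sq' b hb hb'
  have h3 := D.comm a ha ha' b hb hb'
  calc a * b * (a * b) = a * (b * a) * b := by group
    _ = a * (a * b) * b := by rw [h3]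
    _ = (a * a) * (b * b) := by group
    _ = 1 := by rw [h1, h2, mul_one]

theorem Dat.mem_A {Q P : Subgroup G} {z y : G} (D : Dat Q P z y) {x : G} (hx : x ∈ D.H0)
    (hQ : x ∈ Q) : x * y = y * x := by
  obtain ⟨a, ha, ha', b, hb, hb', rfl⟩ := hx
  have h1 : b ∈ Q := by
    have := Q.mul_mem (Q.inv_mem ha) hQ
    rwa [inv_mul_cancel_left] at this
  rw [D.inter b h1 hb, mul_one]
  exact ha'

/-- `Q` normalises `H₀` -/
theorem Dat.conj_H0 {Q P : Subgroup G} {z y : G} (D : Dat Q P z y) {x : G} (hx : x ∈ Q) {u : G}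
    (hu : u ∈ D.H0) : x * u * x⁻¹ ∈ D.H0 := by
  obtain ⟨a, ha, ha', b, hb, hb', rfl⟩ := hu
  have h1 : x * a * x⁻¹ ∈ D.H0 := by
    rcases D.hz.comm x hx a ha with h | h
    · have : x * a * x⁻¹ = a := by rw [h]; group
      rw [this]; exact D.A_mem ha ha'
    · have : x * a * x⁻¹ = a * z := by
        rw [h, mul_assoc _ z, ← (D.hz.commz hx).inv_left.eq]; group
      rw [this]; exact D.H0.mul_mem (D.A_mem ha ha') D.z_mem
  have h2 : x * b * x⁻¹ ∈ D.H0 := by
    have h3 := D.comm' x hx b hb hb'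
    have h4 : x * b * x⁻¹ = (b * x * b⁻¹ * x⁻¹)⁻¹ * b := by group
    rw [h4]
    refine D.H0.mul_mem (D.H0.inv_mem (D.A_mem ?_ h3)) (D.B_mem hb hb')
    exact Q.mul_mem (D.hz.conj_mem b hb' x hx) (Q.inv_mem hx)
  have h3 : x * (a * b) * x⁻¹ = (x * a * x⁻¹) * (x * b * x⁻¹) := by group
  rw [h3]
  exact D.H0.mul_mem h1 h2

theorem Dat.conj_H0' {Q P : Subgroup G} {z y : G} (D : Dat Q P z y) {x : G} (hx : x ∈ P) {u : G}
    (hu : u ∈ D.H0) : x * u * x⁻¹ ∈ D.H0 := by
  rw [← D.H0_symm] at hu ⊢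
  exact D.symm.conj_H0 hx hu

theorem Dat.card_H0 [Finite G] {Q P : Subgroup G} {z y : G} (D : Dat Q P z y)
    (hA : Nat.card ↥(Q ⊓ centralizer ({y} : Set G)) = 32)
    (hB : Nat.card ↥(P ⊓ centralizer ({z} : Set G)) = 32) : Nat.card D.H0 = 1024 := by
  have e : (↥(Q ⊓ centralizer ({y} : Set G)) × ↥(P ⊓ centralizer ({z} : Set G))) ≃ D.H0 := by
    refine Equiv.ofBijective (fun p => ⟨p.1 * p.2, ?_⟩) ⟨?_, ?_⟩
    · exact ⟨p.1, (mem_inf.1 p.1.2).1, mem_centralizer_singleton_iff.1 (mem_inf.1 p.1.2).2,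
        p.2, (mem_inf.1 p.2.2).1, mem_centralizer_singleton_iff.1 (mem_inf.1 p.2.2).2, rfl⟩
    · rintro ⟨a, b⟩ ⟨c, d⟩ h
      have h1 : (a : G) * b = c * d := congrArg Subtype.val h
      have h2 : (c : G)⁻¹ * a = d * (b : G)⁻¹ := by
        rw [inv_mul_eq_iff_eq_mul, ← mul_assoc, ← h1, mul_inv_cancel_right]
      have h3 : (c : G)⁻¹ * a ∈ Q := Q.mul_mem (Q.inv_mem (mem_inf.1 c.2).1) (mem_inf.1 a.2).1
      have h4 : (c : G)⁻¹ * a ∈ P := by
        rw [h2]; exact P.mul_mem (mem_inf.1 d.2).1 (P.inv_mem (mem_inf.1 b.2).1)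
      have h5 := D.inter _ h3 h4
      rw [h5] at h2
      refine Prod.ext (Subtype.ext ?_) (Subtype.ext ?_)
      · exact (inv_mul_eq_one.1 h5).symm
      · exact (mul_inv_eq_one.1 h2.symm).symm
    · rintro ⟨_, a, ha, ha', b, hb, hb', rfl⟩
      exact ⟨(⟨a, mem_inf.2 ⟨ha, mem_centralizer_singleton_iff.2 ha'⟩⟩,
        ⟨b, mem_inf.2 ⟨hb, mem_centralizer_singleton_iff.2 hb'⟩⟩), rfl⟩
  rw [← Nat.card_congr e, Nat.card_prod, hA, hB]

/-- the set `Π` -/
def Dat.Pi {Q P : Subgroup G} {z y : G} (D : Dat Q P z y) : Set G :=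
  {u | u ∈ D.H0 ∧ ∃ k, k * z * k⁻¹ = u ∧ 32 ≤ Nat.card ↥(cj Q k ⊓ D.H0)}

theorem cj_inf_map {Q H : Subgroup G} {n k : G} (hn : ∀ u ∈ H, n * u * n⁻¹ ∈ H)
    (hn' : ∀ u ∈ H, n⁻¹ * u * n ∈ H) :
    (cj Q k ⊓ H).map (MulAut.conj n).toMonoidHom = cj Q (n * k) ⊓ H := by
  ext x
  constructor
  · rintro ⟨u, hu, rfl⟩
    have hu1 := mem_cj.1 (mem_inf.1 hu).1
    refine mem_inf.2 ⟨mem_cj.2 ?_, hn u (mem_inf.1 hu).2⟩
    show (n * k)⁻¹ * (n * u * n⁻¹) * (n * k) ∈ Q
    have : (n * k)⁻¹ * (n * u * n⁻¹) * (n * k) = k⁻¹ * u * k := by group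
    rw [this]; exact hu1
  · intro hx
    have hx1 := mem_cj.1 (mem_inf.1 hx).1
    refine ⟨n⁻¹ * x * n, mem_inf.2 ⟨mem_cj.2 ?_, hn' x (mem_inf.1 hx).2⟩, ?_⟩
    · have : k⁻¹ * (n⁻¹ * x * n) * k = (n * k)⁻¹ * x * (n * k) := by group
      rw [this]; exact hx1
    · show n * (n⁻¹ * x * n) * n⁻¹ = x
      group

theorem Dat.conj_Pi [Finite G] {Q P : Subgroup G} {z y : G} (D : Dat Q P z y) {n : G}
    (hn : ∀ u ∈ D.H0, n * u * n⁻¹ ∈ D.H0) (hn' : ∀ u ∈ D.H0, n⁻¹ * u * n ∈ D.H0) {u : G}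
    (hu : u ∈ D.Pi) : n * u * n⁻¹ ∈ D.Pi := by
  obtain ⟨h1, k, rfl, h2⟩ := hu
  refine ⟨hn _ h1, n * k, by group, ?_⟩
  rw [← cj_inf_map hn hn', Subgroup.card_map_of_injective (MulAut.conj n).injective]
  exact h2

open Classical in
/-- upper bound -/
theorem Dat.Pi_le [Finite G] {Q P : Subgroup G} {z y : G} (D : Dat Q P z y)
    (hpp : ∀ k l : G, k * z * k⁻¹ ≠ l * z * l⁻¹ →
      (k * z * k⁻¹) * (l * z * l⁻¹) = (l * z * l⁻¹) * (k * z * k⁻¹) → PP Q z k l)
    (hc : Nat.card D.H0 = 1024) (S : Finset G) (hS : ∀ u ∈ S, u ∈ D.Pi) : S.card * 31 ≤ 1023 := by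
  have : Fintype G := Fintype.ofFinite G
  have hk : ∀ u : S, ∃ k, k * z * k⁻¹ = u ∧ 32 ≤ Nat.card ↥(cj Q k ⊓ D.H0) := fun u =>
    (hS u u.2).2
  choose k hk1 hk2 using hk
  let T : S → Finset G := fun u => ((cj Q (k u) ⊓ D.H0 : Subgroup G) : Set G).toFinset.erase 1
  have hT : ∀ u, 31 ≤ (T u).card := by
    intro u
    have h1 : (1 : G) ∈ ((cj Q (k u) ⊓ D.H0 : Subgroup G) : Set G).toFinset := by
      rw [Set.mem_toFinset]; exact Subgroup.one_mem _
    have h2 : (((cj Q (k u) ⊓ D.H0 : Subgroup G) : Set G).toFinset).card =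
        Nat.card ↥(cj Q (k u) ⊓ D.H0) := by
      rw [Set.toFinset_card, Nat.card_eq_fintype_card]
      exact Fintype.card_congr (Equiv.refl _)
    show 31 ≤ (Finset.erase _ 1).card
    rw [Finset.card_erase_of_mem h1, h2]
    have := hk2 u
    omega
  have hdisj : ∀ u ∈ (Finset.univ : Finset S), ∀ w ∈ (Finset.univ : Finset S), u ≠ w →
      Disjoint (T u) (T w) := by
    intro u _ w _ huw
    rw [Finset.disjoint_left]
    intro x hx hx'
    have h1 := Finset.mem_erase.1 hx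
    have h2 := Finset.mem_erase.1 hx'
    have h3 := (mem_inf.1 (Set.mem_toFinset.1 h1.2)).1
    have h4 := (mem_inf.1 (Set.mem_toFinset.1 h2.2)).1
    apply h1.1
    refine (hpp (k u) (k w) ?_ ?_).inter x h3 h4
    · rw [hk1, hk1]
      intro h
      exact huw (Subtype.ext h)
    · rw [hk1, hk1]
      exact D.H0_comm (hS u u.2).1 (hS w w.2).1
  have hsub : (Finset.univ.biUnion T) ⊆ ((D.H0 : Set G).toFinset.erase 1) := by
    intro x hx
    obtain ⟨u, _, hu⟩ := Finset.mem_biUnion.1 hx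
    have h1 := Finset.mem_erase.1 hu
    rw [Finset.mem_erase, Set.mem_toFinset]
    exact ⟨h1.1, (mem_inf.1 (Set.mem_toFinset.1 h1.2)).2⟩
  have h1 := Finset.card_le_card hsub
  rw [Finset.card_biUnion hdisj] at h1
  have h2 : ((D.H0 : Set G).toFinset.erase 1).card = 1023 := by
    have h3 : (1 : G) ∈ (D.H0 : Set G).toFinset := by
      rw [Set.mem_toFinset]; exact Subgroup.one_mem _
    rw [Finset.card_erase_of_mem h3, Set.toFinset_card]
    have : Fintype.card (D.H0 : Set G) = Nat.card D.H0 := by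
      rw [Nat.card_eq_fintype_card]
      exact Fintype.card_congr (Equiv.refl _)
    rw [this, hc]
  rw [h2] at h1
  have h3 : (Finset.univ : Finset S).card * 31 ≤ ∑ u : S, (T u).card := by
    rw [← smul_eq_mul]
    exact Finset.card_nsmul_le_sum _ _ _ fun u _ => hT u
  have h4 : (Finset.univ : Finset S).card = S.card := by simp
  rw [h4] at h3
  omega

/-- the final count -/
theorem count_false [Finite G] {Q : Subgroup G} {z : G} (h : Large Q z)
    (hcard : Nat.card Q = 2 ^ 9)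
    (H : ∀ g : G, g * z * g⁻¹ ≠ z → g * z * g⁻¹ * z = z * (g * z * g⁻¹) →
      (∀ x ∈ Q, x ∈ Q.map (MulAut.conj g).toMonoidHom → x = 1) ∧
      Nat.card ↥(Q ⊓ Subgroup.centralizer ({g * z * g⁻¹} : Set G)) = 32 ∧
      (∀ a ∈ Q, a * (g * z * g⁻¹) = g * z * g⁻¹ * a → ∀ b ∈ Q.map (MulAut.conj g).toMonoidHom,
        b * z = z * b → a * b = b * a) ∧
      (∀ x ∈ Q, ∀ b ∈ Q.map (MulAut.conj g).toMonoidHom, b * z = z * b →
        (b * x * b⁻¹ * x⁻¹) * (g * z * g⁻¹) = (g * z * g⁻¹) * (b * x * b⁻¹ * x⁻¹)) ∧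
      (∀ x ∈ Q, x * (g * z * g⁻¹) = g * z * g⁻¹ * x → x * x = 1))
    (g : G) (hne : g * z * g⁻¹ ≠ z) (hc : g * z * g⁻¹ * z = z * (g * z * g⁻¹)) : False := by
  classical
  have hfin : Fintype G := Fintype.ofFinite G
  have hpp : ∀ k l : G, k * z * k⁻¹ ≠ l * z * l⁻¹ →
      (k * z * k⁻¹) * (l * z * l⁻¹) = (l * z * l⁻¹) * (k * z * k⁻¹) → PP Q z k l :=
    fun k l => pp_of H
  have e1 : (1 : G) * z * 1⁻¹ = z := by group
  have hcj1 : cj Q 1 = Q := by
    ext x
    rw [mem_cj]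
    have : (1 : G)⁻¹ * x * 1 = x := by group
    rw [this]
  obtain ⟨y, hy⟩ : ∃ y, y = g * z * g⁻¹ := ⟨_, rfl⟩
  have P1 : PP Q z 1 g := hpp 1 g (by rw [e1]; exact hne.symm) (by rw [e1]; exact hc.symm)
  have P2 : PP Q z g 1 := hpp g 1 (by rw [e1]; exact hne) (by rw [e1]; exact hc)
  obtain ⟨P, hP⟩ : ∃ P, P = cj Q g := ⟨_, rfl⟩
  have hyL : Large P y := by rw [hP, hy]; exact h.conj g
  have hyz : y ≠ z := by rw [hy]; exact hne
  have zy : z * y = y * z := by rw [hy]; exact hc.symm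
  have hcardP : Nat.card P = 2 ^ 9 := by
    rw [hP, cj, Subgroup.card_map_of_injective (MulAut.conj g).injective]
    exact hcard
  have a1 := P1.inter
  have a2 := P1.card
  have a3 := P1.comm
  have a4 := P1.comm'
  have a5 := P1.sq
  have b2 := P2.card
  have b4 := P2.comm'
  have b5 := P2.sq
  rw [hcj1, ← hP] at a1
  rw [hcj1, ← hy] at a2
  rw [hcj1, e1, ← hP, ← hy] at a3
  rw [hcj1, e1, ← hP, ← hy] at a4
  rw [hcj1, ← hy] at a5
  rw [e1, ← hP] at b2
  rw [hcj1, e1, ← hP, ← hy] at b4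
  rw [e1, ← hP] at b5
  have D : Dat Q P z y :=
    { hz := h
      hy := hyL
      zy := zy
      inter := a1
      comm := a3
      comm' := a4
      comm'' := b4
      sq := a5
      sq' := b5 }
  have hc0 := D.card_H0 a2 b2
  -- `z ∈ Π`
  have hzPi : z ∈ D.Pi := by
    refine ⟨D.z_mem, 1, e1, ?_⟩
    rw [hcj1, ← a2]
    apply Nat.card_mono (Set.toFinite _)
    intro x hx
    have hx' := mem_inf.1 hx
    exact mem_inf.2 ⟨hx'.1, D.A_mem hx'.1 (mem_centralizer_singleton_iff.1 hx'.2)⟩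
  have hQn : ∀ x ∈ Q, ∀ u ∈ D.Pi, x * u * x⁻¹ ∈ D.Pi := by
    intro x hx u hu
    refine D.conj_Pi (fun v hv => D.conj_H0 hx hv) (fun v hv => ?_) hu
    have := D.conj_H0 (Q.inv_mem hx) hv
    rwa [inv_inv] at this
  have hPn : ∀ x ∈ P, ∀ u ∈ D.Pi, x * u * x⁻¹ ∈ D.Pi := by
    intro x hx u hu
    refine D.conj_Pi (fun v hv => D.conj_H0' hx hv) (fun v hv => ?_) hu
    have := D.conj_H0' (P.inv_mem hx) hv
    rwa [inv_inv] at this
  -- the orbit of `z` under `P`
  let O : Finset G := Finset.univ.filter fun u => ∃ x ∈ P, x * z * x⁻¹ = u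
  have hO : O.card = 16 := by
    have h1 := card_orbit P z
    rw [b2, hcardP, Nat.card_eq_fintype_card, Fintype.card_subtype] at h1
    have h2 : O.card * 32 = 2 ^ 9 := by convert h1
    omega
  let S : G → Finset G := fun w => Finset.univ.filter fun u => ∃ x ∈ Q, x * w * x⁻¹ = u
  have hzO : z ∈ O := by
    rw [Finset.mem_filter]
    exact ⟨Finset.mem_univ _, 1, P.one_mem, e1⟩
  have hOPi : ∀ w ∈ O, w ∈ D.Pi := by
    intro w hw
    obtain ⟨x, hx, rfl⟩ := (Finset.mem_filter.1 hw).2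
    exact hPn x hx z hzPi
  have hS : ∀ w ∈ O.erase z, (S w).card = 16 := by
    intro w hw
    obtain ⟨hwz, hwO⟩ := Finset.mem_erase.1 hw
    obtain ⟨hw0, k, hk, -⟩ := hOPi w hwO
    have hpk : PP Q z 1 k := hpp 1 k (by rw [e1, hk]; exact hwz.symm)
      (by rw [e1, hk]; exact D.H0_comm D.z_mem hw0)
    have h3 := hpk.card
    rw [hcj1, hk] at h3
    have h1 := card_orbit Q w
    rw [h3, hcard, Nat.card_eq_fintype_card, Fintype.card_subtype] at h1
    have h2 : (S w).card * 32 = 2 ^ 9 := by convert h1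
    omega
  have hSPi : ∀ w ∈ O.erase z, ∀ u ∈ S w, u ∈ D.Pi := by
    intro w hw u hu
    obtain ⟨x, hx, rfl⟩ := (Finset.mem_filter.1 hu).2
    exact hQn x hx w (hOPi w (Finset.mem_erase.1 hw).2)
  have hdis : ∀ w ∈ O.erase z, ∀ w' ∈ O.erase z, w ≠ w' → Disjoint (S w) (S w') := by
    intro w hw w' hw' hww
    rw [Finset.disjoint_left]
    intro u hu hu'
    obtain ⟨x, hx, hxu⟩ := (Finset.mem_filter.1 hu).2
    obtain ⟨x', hx', hxu'⟩ := (Finset.mem_filter.1 hu').2
    apply hww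
    have hq : ∀ w₁ ∈ O, ∀ x₁ ∈ Q, x₁ * w₁ * x₁⁻¹ * w₁⁻¹ ∈ Q := by
      intro w₁ hw₁ x₁ hx₁
      have hw0 := (hOPi w₁ hw₁).1
      have hwz : w₁ * z = z * w₁ := D.H0_comm hw0 D.z_mem
      have e2 : x₁ * w₁ * x₁⁻¹ * w₁⁻¹ = x₁ * (w₁ * x₁⁻¹ * w₁⁻¹) := by group
      rw [e2]
      exact Q.mul_mem hx₁ (D.hz.conj_mem w₁ hwz _ (Q.inv_mem hx₁))
    have hp : ∀ w₁ ∈ O, w₁ * z⁻¹ ∈ P := by
      intro w₁ hw₁
      obtain ⟨p, hp, rfl⟩ := (Finset.mem_filter.1 hw₁).2
      have e2 : p * z * p⁻¹ * z⁻¹ = p * (z * p⁻¹ * z⁻¹) := by group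
      rw [e2]
      exact P.mul_mem hp (D.hy.conj_mem z zy _ (P.inv_mem hp))
    have h1 := hq w (Finset.mem_erase.1 hw).2 x hx
    have h2 := hq w' (Finset.mem_erase.1 hw').2 x' hx'
    rw [hxu] at h1
    rw [hxu'] at h2
    have h3 : w * w'⁻¹ ∈ Q := by
      have := Q.mul_mem (Q.inv_mem h1) h2
      have e2 : (u * w⁻¹)⁻¹ * (u * w'⁻¹) = w * w'⁻¹ := by group
      rwa [e2] at this
    have h4 : w * w'⁻¹ ∈ P := by
      have := P.mul_mem (hp w (Finset.mem_erase.1 hw).2)
        (P.inv_mem (hp w' (Finset.mem_erase.1 hw').2))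
      have e2 : (w * z⁻¹) * (w' * z⁻¹)⁻¹ = w * w'⁻¹ := by group
      rwa [e2] at this
    exact mul_inv_eq_one.1 (a1 _ h3 h4)
  have hfinal := D.Pi_le hpp hc0 ((O.erase z).biUnion S) (by
    intro u hu
    obtain ⟨w, hw, hwu⟩ := Finset.mem_biUnion.1 hu
    exact hSPi w hw u hwu)
  rw [Finset.card_biUnion hdis, Finset.sum_congr rfl hS, Finset.sum_const,
    Finset.card_erase_of_mem hzO, hO] at hfinal
  norm_num at hfinal

end Cfsg.Agent.CoOneNWC.Count
end

-- part: CoOneNWC/Main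
section
/-!
# `z` is not weakly closed in `Q`

If `Q` is large extraspecial of order `2 ^ 9`, `C_G(z) / Q ≅ Ω⁺(8, 2)` and `z` commutes with some conjugate of
`z` different from `z`, then some conjugate of `z` different from `z` lies in `Q`.
-/

set_option autoImplicit false

namespace Cfsg.Agent.CoOneNWC

open Cfsg.Agent.Co2Type.Quad Module

theorem nwc {G : Type*} [Group G] [Finite G] {Q : Subgroup G} {z : G} (H : Hyp Q z) (g : G)
    (hne : g * z * g⁻¹ ≠ z) (hc : g * z * g⁻¹ * z = z * (g * z * g⁻¹)) :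
    ∃ g' : G, g' * z * g'⁻¹ ∈ Q ∧ g' * z * g'⁻¹ ≠ z := by
  by_contra hcon
  push Not at hcon
  refine Count.count_false H.large H.card ?_ g hne hc
  clear hne hc g
  intro g hne hc
  have hwP : ∀ g' : G, g' * (g * z * g⁻¹) * g'⁻¹ ∈ Q.map (MulAut.conj g).toMonoidHom →
      g' * (g * z * g⁻¹) * g'⁻¹ = g * z * g⁻¹ := by
    rintro g' ⟨p, hp, hpg⟩
    have h1 : g * p * g⁻¹ = g' * (g * z * g⁻¹) * g'⁻¹ := hpg
    have h2 : (g⁻¹ * g' * g) * z * (g⁻¹ * g' * g)⁻¹ = p := by
      calc (g⁻¹ * g' * g) * z * (g⁻¹ * g' * g)⁻¹ = g⁻¹ * (g' * (g * z * g⁻¹) * g'⁻¹) * g := by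
            group
        _ = p := by rw [← h1]; group
    have h3 := hcon (g⁻¹ * g' * g) (by rw [h2]; exact hp)
    rw [h2] at h3
    rw [← h1, h3]
  have X : Ctx Q (Q.map (MulAut.conj g).toMonoidHom) z (g * z * g⁻¹) :=
    { HQ := H, HP := H.conj g, cj := ⟨g, rfl⟩, wQ := hcon, wP := hwP, ne := hne, yz := hc }
  have hfin := finite_V X.HQ.large
  have h4 := X.finrank_FV_eq
  have hW := X.WA_eq
  have hR := X.RV_eq_bot_four h4
  have hFF : X.FF = X.FV := by
    apply Submodule.eq_of_le_of_finrank_le X.FF_le_FV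
    have := X.finrank_FF
    omega
  have c1 : ∀ x ∈ Q, x ∈ Q.map (MulAut.conj g).toMonoidHom → x = 1 := by
    intro x hx hxP
    have h1 : X.HQ.large.pr ⟨x, hx⟩ ∈ X.RV := ⟨⟨x, hx⟩, rfl, hxP⟩
    rw [hR, Submodule.mem_bot, X.HQ.large.pr_eq_zero] at h1
    rcases h1 with h1 | h1
    · exact h1
    · exfalso
      apply X.z_notMem
      have h2 : x = z := h1
      rw [← h2]; exact hxP
  refine ⟨c1, ?_, ?_, ?_, ?_⟩
  · have h1 : Nat.card ↥(Q ⊓ Subgroup.centralizer ({g * z * g⁻¹} : Set G)) =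
        Nat.card X.symm.B := by
      refine Nat.card_eq_of_bijective (fun t => (⟨⟨t.1, t.2.2⟩, X.symm.mem_B.2 t.2.1⟩ :
        X.symm.B)) ⟨?_, ?_⟩
      · intro a b hab
        apply Subtype.ext
        have := congrArg (fun t => ((t.1 : Subgroup.centralizer ({g * z * g⁻¹} : Set G)) : G)) hab
        exact this
      · rintro ⟨⟨t, ht⟩, ht'⟩
        exact ⟨⟨t, X.symm.mem_B.1 ht', ht⟩, rfl⟩
    rw [h1, X.symm.card_B]
    show 2 * Nat.card X.WA = 32
    rw [hW, card_sub, h4]; norm_num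
  · intro a ha hay b hb hbz
    have h1 := X.comm_AB ha hay hb hbz
    have h2 := c1 _ h1.1 h1.2
    have h3 : b * a * b⁻¹ = a := mul_inv_eq_one.1 h2
    exact (mul_inv_eq_iff_eq_mul.1 h3).symm
  · intro x hx b hb hbz
    have hbC : b ∈ Subgroup.centralizer ({z} : Set G) :=
      Subgroup.mem_centralizer_singleton_iff.2 hbz
    have hbB : (⟨b, hbC⟩ : Subgroup.centralizer ({z} : Set G)) ∈ X.B := X.mem_B.2 hb
    have hmem : b * x * b⁻¹ * x⁻¹ ∈ Q :=
      Q.mul_mem (X.HQ.large.conj_mem b hbz x hx) (Q.inv_mem hx)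
    have h1 : X.HQ.large.pr ⟨b * x * b⁻¹ * x⁻¹, hmem⟩ =
        X.HQ.large.act ⟨b, hbC⟩ (X.HQ.large.pr ⟨x, hx⟩) + X.HQ.large.pr ⟨x, hx⟩ := by
      rw [X.HQ.large.act_pr, ← X.HQ.large.neg_eq (X.HQ.large.pr ⟨x, hx⟩), ← X.HQ.large.pr_inv,
        ← X.HQ.large.pr_mul]
      rfl
    have h2 : X.HQ.large.pr ⟨b * x * b⁻¹ * x⁻¹, hmem⟩ ∈ X.WA := by
      rw [hW, ← hFF]
      show _ ∈ perp X.HQ.large X.FV
      rw [mem_perp', h1]
      intro w hw
      rw [← hW] at hw
      have h3 := X.act_B_WA_of_bot hR (X.B.inv_mem hbB) hw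
      rw [map_add, LinearMap.add_apply, b_act_left, h3, zmod2_add_self]
    exact (X.pr_mem_WA _).1 h2
  · intro x hx hxy
    have h1 : X.HQ.large.pr ⟨x, hx⟩ ∈ X.WA := (X.pr_mem_WA _).2 hxy
    have h2 : X.HQ.large.pr ⟨x, hx⟩ ∈ X.FF := by rw [hFF, ← hW]; exact h1
    exact X.HQ.large.q_eq_zero.1 ((X.mem_WA_iff h2).1 h1)

end Cfsg.Agent.CoOneNWC
end

-- part: S1677
section
set_option autoImplicit false
open Cfsg

namespace Cfsg.Agent.S1677

/-- The first Conway group from an involution centraliser: let G be a finite group with no non-trivial normal subgroup of odd order and trivial centre, and let t be an involution whose centraliser C is 2-constrained with O₂(C) extraspecial of order 2 ^ 9 and C / O₂(C) isomorphic to Ω⁺(8, 2), the commutator subgroup of the isometry group of the hyperbolic quadratic form in dimension 8 over the field with 2 elements. Then G is isomorphic to the first Conway group (the Leech lattice automorphism group modulo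 its centre). -/
theorem result {G : Type*} [Group G] [Finite G] (hO : Cfsg.oddCore G = ⊥) (hZ : Subgroup.center G = ⊥) (t : G) (ht : orderOf t = 2) (hcon : Cfsg.IsPConstrained 2 (Subgroup.centralizer ({t} : Set G))) (hQ : Cfsg.IsExtraspecial 2 (Cfsg.pCore 2 (Subgroup.centralizer ({t} : Set G)))) (hcard : Nat.card (Cfsg.pCore 2 (Subgroup.centralizer ({t} : Set G))) = 2 ^ 9) (e : (Subgroup.centralizer ({t} : Set G)) ⧸ Cfsg.pCore 2 (Subgroup.centralizer ({t} : Set G)) ≃* Cfsg.Omega (ZMod 2) (Cfsg.quadFormPlus 4 (ZMod 2))) : Cfsg.Spor.IsoCo1 G := by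
  obtain ⟨g, hne, hc⟩ := Cfsg.Agent.CoOneNWC.Shell.exists_conj hO hZ t ht
  obtain ⟨g', hq, hne'⟩ := Cfsg.Agent.CoOneNWC.nwc
    (Cfsg.Agent.CoOneNWC.Shell.hyp t ht hcon hQ hcard e) g hne hc
  have hF := Cfsg.Agent.CoOneNWC.Shell.genFitting_eq t hcon e
  obtain ⟨c, hcQ, hce⟩ := hq
  have hce' : (c : G) = g' * t * g'⁻¹ := hce
  refine Cfsg.Agent.S1718.result t ht _ hF hQ hcard e ⟨g', ⟨?_, ?_⟩, hne'⟩
  · rw [← hce']; exact c.2
  · have : (⟨g' * t * g'⁻¹, by rw [← hce']; exact c.2⟩ : Subgroup.centralizer ({t} : Set G)) = c :=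
      Subtype.ext hce'.symm
    rw [this]; exact hcQ

end Cfsg.Agent.S1677
end
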