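import Cfsg.Prelude.Def_Spor_Suz
import Cfsg.Agent.Lib.PermNetOrbit
import Cfsg.Agent.SporadicRecognition.SuzU43Net
import Cfsg.Statements.S1681
import Cfsg.Agent.SporadicRecognition.CosetCertHyp
import Cfsg.Agent.SporadicRecognition.SuzU43All
set_option linter.all false

-- part: SporadicRecognition/SuzU43Rel
section
/-!
Permutation representation of the presented sporadic Suzuki group on 22880 points: kernel checks of the relators.
-/

set_option autoImplicit false
set_option maxRecDepth 100000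

namespace Cfsg.Agent.SporadicRecognition.SuzU43Rel

open Cfsg.Agent.Lib.PermNet Cfsg.Agent.Lib.PermNetOrbit Cfsg.Agent.SporadicRecognition.SuzU43Net
open Cfsg.Spor

theorem ok_a : aN.ok (2 ^ 15) = true := by decide +kernel
theorem ok_b : bN.ok (2 ^ 15) = true := by decide +kernel
theorem ok_c : cN.ok (2 ^ 15) = true := by decide +kernel
theorem ok_d : dN.ok (2 ^ 15) = true := by decide +kernel
theorem ok_e : eN.ok (2 ^ 15) = true := by decide +kernel
theorem ok_f : fN.ok (2 ^ 15) = true := by decide +kernel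
theorem ok_g : gN.ok (2 ^ 15) = true := by decide +kernel
theorem ok_t : tN.ok (2 ^ 15) = true := by decide +kernel
theorem ok_s : sN.ok (2 ^ 15) = true := by decide +kernel
theorem sq_a : checkEq 15 [aN, aN] [] = true := by decide +kernel
theorem sq_b : checkEq 15 [bN, bN] [] = true := by decide +kernel
theorem sq_c : checkEq 15 [cN, cN] [] = true := by decide +kernel
theorem sq_d : checkEq 15 [dN, dN] [] = true := by decide +kernel
theorem sq_e : checkEq 15 [eN, eN] [] = true := by decide +kernel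
theorem sq_f : checkEq 15 [fN, fN] [] = true := by decide +kernel
theorem sq_g : checkEq 15 [gN, gN] [] = true := by decide +kernel
theorem c_ab : checkEq 15 (wpow [aN, bN] 5) [] = true := by decide +kernel
theorem c_ac : checkEq 15 (wpow [aN, cN] 2) [] = true := by decide +kernel
theorem c_ad : checkEq 15 (wpow [aN, dN] 2) [] = true := by decide +kernel
theorem c_ae : checkEq 15 (wpow [aN, eN] 2) [] = true := by decide +kernel
theorem c_af : checkEq 15 (wpow [aN, fN] 2) [] = true := by decide +kernel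
theorem c_ag : checkEq 15 (wpow [aN, gN] 2) [] = true := by decide +kernel
theorem c_bc : checkEq 15 (wpow [bN, cN] 3) [] = true := by decide +kernel
theorem c_bd : checkEq 15 (wpow [bN, dN] 2) [] = true := by decide +kernel
theorem c_be : checkEq 15 (wpow [bN, eN] 2) [] = true := by decide +kernel
theorem c_bf : checkEq 15 (wpow [bN, fN] 3) [] = true := by decide +kernel
theorem c_bg : checkEq 15 (wpow [bN, gN] 3) [] = true := by decide +kernel
theorem c_cd : checkEq 15 (wpow [cN, dN] 8) [] = true := by decide +kernel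
theorem c_ce : checkEq 15 (wpow [cN, eN] 2) [] = true := by decide +kernel
theorem c_cf : checkEq 15 (wpow [cN, fN] 2) [] = true := by decide +kernel
theorem c_cg : checkEq 15 (wpow [cN, gN] 2) [] = true := by decide +kernel
theorem c_de : checkEq 15 (wpow [dN, eN] 3) [] = true := by decide +kernel
theorem c_df : checkEq 15 (wpow [dN, fN] 2) [] = true := by decide +kernel
theorem c_dg : checkEq 15 (wpow [dN, gN] 2) [] = true := by decide +kernel
theorem c_ef : checkEq 15 (wpow [eN, fN] 2) [] = true := by decide +kernel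
theorem c_eg : checkEq 15 (wpow [eN, gN] 2) [] = true := by decide +kernel
theorem c_fg : checkEq 15 (wpow [fN, gN] 4) [] = true := by decide +kernel
theorem r1 : checkEq 15 [aN] (wpow [cN, dN] 4) = true := by decide +kernel
theorem r2 : checkEq 15 [aN] (wpow [fN, gN] 2) = true := by decide +kernel
theorem r3 : checkEq 15 (wpow [aN, bN, cN, fN] 5) [] = true := by decide +kernel
theorem r4 : checkEq 15 (wpow [bN, fN, gN] 5) [] = true := by decide +kernel
theorem r5a : checkEq 15 [tN] [bN, cN, dN, cN, dN] = true := by decide +kernel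
theorem r5b : checkEq 15 [sN] [tN, tN, tN, tN, tN, eN] = true := by decide +kernel
theorem r5c : checkEq 15 (wpow [sN] 3) [] = true := by decide +kernel

/-- The network of a generator. -/
noncomputable def net : Suz.Gen → Net
  | .a => aN
  | .b => bN
  | .c => cN
  | .d => dN
  | .e => eN
  | .f => fN
  | .g => gN

theorem net_ok (x : Suz.Gen) : (net x).ok (2 ^ 15) = true := by
  cases x
  · exact ok_a
  · exact ok_b
  · exact ok_c
  · exact ok_d
  · exact ok_e
  · exact ok_f
  · exact ok_g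

/-- The permutation of a generator. -/
noncomputable def pg (x : Suz.Gen) : Equiv.Perm ℕ := (net x).perm

theorem pg_a : pg .a = aN.perm := rfl
theorem pg_b : pg .b = bN.perm := rfl
theorem pg_c : pg .c = cN.perm := rfl
theorem pg_d : pg .d = dN.perm := rfl
theorem pg_e : pg .e = eN.perm := rfl
theorem pg_f : pg .f = fN.perm := rfl
theorem pg_g : pg .g = gN.perm := rfl

theorem pair_eq {x y : Suz.Gen} {m : ℕ} (h : checkEq 15 (wpow [net x, net y] m) [] = true) :
    (pg x * pg y) ^ m = 1 := by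
  have hok : WOk (2 ^ 15) [net x, net y] := (WOk.nil _).cons (net_ok y) |>.cons (net_ok x)
  have h1 := wperm_eq_one_of_checkEq (WOk.wpow hok m) h
  rw [wperm_wpow] at h1
  simpa only [wperm_cons, wperm_nil, mul_one, pg] using h1

theorem sq_eq {x : Suz.Gen} (h : checkEq 15 [net x, net x] [] = true) : pg x * pg x = 1 := by
  have hok : WOk (2 ^ 15) [net x, net x] := (WOk.nil _).cons (net_ok x) |>.cons (net_ok x)
  have h1 := wperm_eq_one_of_checkEq hok h
  simpa only [wperm_cons, wperm_nil, mul_one, pg] using h1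

theorem sq_all (x : Suz.Gen) : pg x * pg x = 1 := by
  cases x
  · exact sq_eq (x := .a) sq_a
  · exact sq_eq (x := .b) sq_b
  · exact sq_eq (x := .c) sq_c
  · exact sq_eq (x := .d) sq_d
  · exact sq_eq (x := .e) sq_e
  · exact sq_eq (x := .f) sq_f
  · exact sq_eq (x := .g) sq_g

theorem pg_inv (x : Suz.Gen) : (pg x)⁻¹ = pg x := by
  rw [inv_eq_iff_mul_eq_one]
  exact sq_all x

theorem pair_symm {x y : Suz.Gen} {m : ℕ} (h : (pg x * pg y) ^ m = 1) : (pg y * pg x) ^ m = 1 := by
  have h1 : (pg y * pg x) = (pg x * pg y)⁻¹ := by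
    rw [mul_inv_rev, pg_inv, pg_inv]
  rw [h1, inv_pow, h, inv_one]

theorem cox (x y : Suz.Gen) : (pg x * pg y) ^ coxLabel Suz.edges x y = 1 := by
  cases x <;> cases y
  · exact (pow_one _).trans (sq_all _)
  · exact pair_eq (x := .a) (y := .b) c_ab
  · exact pair_eq (x := .a) (y := .c) c_ac
  · exact pair_eq (x := .a) (y := .d) c_ad
  · exact pair_eq (x := .a) (y := .e) c_ae
  · exact pair_eq (x := .a) (y := .f) c_af
  · exact pair_eq (x := .a) (y := .g) c_ag
  · exact pair_symm (pair_eq (x := .a) (y := .b) c_ab)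
  · exact (pow_one _).trans (sq_all _)
  · exact pair_eq (x := .b) (y := .c) c_bc
  · exact pair_eq (x := .b) (y := .d) c_bd
  · exact pair_eq (x := .b) (y := .e) c_be
  · exact pair_eq (x := .b) (y := .f) c_bf
  · exact pair_eq (x := .b) (y := .g) c_bg
  · exact pair_symm (pair_eq (x := .a) (y := .c) c_ac)
  · exact pair_symm (pair_eq (x := .b) (y := .c) c_bc)
  · exact (pow_one _).trans (sq_all _)
  · exact pair_eq (x := .c) (y := .d) c_cd
  · exact pair_eq (x := .c) (y := .e) c_ce
  · exact pair_eq (x := .c) (y := .f) c_cf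
  · exact pair_eq (x := .c) (y := .g) c_cg
  · exact pair_symm (pair_eq (x := .a) (y := .d) c_ad)
  · exact pair_symm (pair_eq (x := .b) (y := .d) c_bd)
  · exact pair_symm (pair_eq (x := .c) (y := .d) c_cd)
  · exact (pow_one _).trans (sq_all _)
  · exact pair_eq (x := .d) (y := .e) c_de
  · exact pair_eq (x := .d) (y := .f) c_df
  · exact pair_eq (x := .d) (y := .g) c_dg
  · exact pair_symm (pair_eq (x := .a) (y := .e) c_ae)
  · exact pair_symm (pair_eq (x := .b) (y := .e) c_be)
  · exact pair_symm (pair_eq (x := .c) (y := .e) c_ce)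
  · exact pair_symm (pair_eq (x := .d) (y := .e) c_de)
  · exact (pow_one _).trans (sq_all _)
  · exact pair_eq (x := .e) (y := .f) c_ef
  · exact pair_eq (x := .e) (y := .g) c_eg
  · exact pair_symm (pair_eq (x := .a) (y := .f) c_af)
  · exact pair_symm (pair_eq (x := .b) (y := .f) c_bf)
  · exact pair_symm (pair_eq (x := .c) (y := .f) c_cf)
  · exact pair_symm (pair_eq (x := .d) (y := .f) c_df)
  · exact pair_symm (pair_eq (x := .e) (y := .f) c_ef)
  · exact (pow_one _).trans (sq_all _)
  · exact pair_eq (x := .f) (y := .g) c_fg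
  · exact pair_symm (pair_eq (x := .a) (y := .g) c_ag)
  · exact pair_symm (pair_eq (x := .b) (y := .g) c_bg)
  · exact pair_symm (pair_eq (x := .c) (y := .g) c_cg)
  · exact pair_symm (pair_eq (x := .d) (y := .g) c_dg)
  · exact pair_symm (pair_eq (x := .e) (y := .g) c_eg)
  · exact pair_symm (pair_eq (x := .f) (y := .g) c_fg)
  · exact (pow_one _).trans (sq_all _)

theorem extra_1 : pg .a = (pg .c * pg .d) ^ 4 := by
  have h := wperm_eq_of_checkEq ((WOk.nil _).cons ok_a)
    (WOk.wpow (((WOk.nil _).cons ok_d).cons ok_c) 4) r1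
  rw [wperm_wpow] at h
  simpa only [wperm_cons, wperm_nil, mul_one, pg_a, pg_c, pg_d] using h

theorem extra_2 : pg .a = (pg .f * pg .g) ^ 2 := by
  have h := wperm_eq_of_checkEq ((WOk.nil _).cons ok_a)
    (WOk.wpow (((WOk.nil _).cons ok_g).cons ok_f) 2) r2
  rw [wperm_wpow] at h
  simpa only [wperm_cons, wperm_nil, mul_one, pg_a, pg_f, pg_g] using h

theorem extra_3 : (pg .a * pg .b * pg .c * pg .f) ^ 5 = 1 := by
  have h := wperm_eq_one_of_checkEq
    (WOk.wpow (((((WOk.nil _).cons ok_f).cons ok_c).cons ok_b).cons ok_a) 5) r3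
  rw [wperm_wpow] at h
  simpa only [wperm_cons, wperm_nil, mul_one, mul_assoc, pg_a, pg_b, pg_c, pg_f] using h

theorem extra_4 : (pg .b * pg .f * pg .g) ^ 5 = 1 := by
  have h := wperm_eq_one_of_checkEq
    (WOk.wpow ((((WOk.nil _).cons ok_g).cons ok_f).cons ok_b) 5) r4
  rw [wperm_wpow] at h
  simpa only [wperm_cons, wperm_nil, mul_one, mul_assoc, pg_b, pg_f, pg_g] using h

theorem extra_5 : ((pg .b * pg .c * pg .d * pg .c * pg .d) ^ 5 * pg .e) ^ 3 = 1 := by
  have h1 := wperm_eq_of_checkEq ((WOk.nil _).cons ok_t)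
    ((((((WOk.nil _).cons ok_d).cons ok_c).cons ok_d).cons ok_c).cons ok_b) r5a
  have h2 := wperm_eq_of_checkEq ((WOk.nil _).cons ok_s)
    (((((((WOk.nil _).cons ok_e).cons ok_t).cons ok_t).cons ok_t).cons ok_t).cons ok_t) r5b
  have h3 := wperm_eq_one_of_checkEq (WOk.wpow ((WOk.nil _).cons ok_s) 3) r5c
  rw [wperm_wpow] at h3
  simp only [wperm_cons, wperm_nil, mul_one] at h1 h2 h3
  have h4 : pg .b * pg .c * pg .d * pg .c * pg .d = tN.perm := by
    rw [h1, pg_b, pg_c, pg_d]
    simp only [mul_assoc]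
  have h5 : (tN.perm) ^ 5 * pg .e = sN.perm := by
    rw [h2, pg_e]
    simp only [pow_succ, pow_zero, one_mul, mul_assoc]
  rw [h4, h5, h3]

theorem rels_hold : ∀ r ∈ (coxRelators Suz.edges ∪ {r | r ∈ Suz.extra} : Set (FreeGroup Suz.Gen)),
    FreeGroup.lift pg r = 1 := by
  apply cox_lift_eq_one
  · intro x _ y _
    exact cox x y
  · intro r hr
    rw [Suz.extra, List.mem_cons, List.mem_cons, List.mem_cons, List.mem_cons, List.mem_singleton] at hr
    rcases hr with rfl | rfl | rfl | rfl | rfl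
    · simp only [map_mul, map_inv, map_pow, FreeGroup.lift_apply_of]
      rw [← extra_1, mul_inv_cancel]
    · simp only [map_mul, map_inv, map_pow, FreeGroup.lift_apply_of]
      rw [← extra_2, mul_inv_cancel]
    · simp only [map_mul, map_pow, FreeGroup.lift_apply_of]
      exact extra_3
    · simp only [map_mul, map_pow, FreeGroup.lift_apply_of]
      exact extra_4
    · simp only [map_mul, map_pow, FreeGroup.lift_apply_of]
      exact extra_5

/-- The permutation representation of degree 22880. -/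
noncomputable def φ : Suz →* Equiv.Perm ℕ := PresentedGroup.toGroup rels_hold

theorem φ_of (x : Suz.Gen) :
    φ (PresentedGroup.mk (coxRelators Suz.edges ∪ {r | r ∈ Suz.extra}) (FreeGroup.of x)) = (net x).perm :=
  PresentedGroup.toGroup.of rels_hold

theorem sat_ok : Nat.beq (sat [[gN], [fN], [eN], [dN], [cN], [bN], [aN]] 6 (2 ^ 0)) (2 ^ 22880 - 1) = true := by
  decide +kernel

theorem transitive (i : ℕ) (hi : i < 22880) : ∃ g, φ g 0 = i := by
  have hws : WsOk (2 ^ 15) [[gN], [fN], [eN], [dN], [cN], [bN], [aN]] := by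
    intro w hw
    simp only [List.mem_cons, List.not_mem_nil, or_false] at hw
    rcases hw with rfl | rfl | rfl | rfl | rfl | rfl | rfl
    · exact (WOk.nil _).cons ok_g
    · exact (WOk.nil _).cons ok_f
    · exact (WOk.nil _).cons ok_e
    · exact (WOk.nil _).cons ok_d
    · exact (WOk.nil _).cons ok_c
    · exact (WOk.nil _).cons ok_b
    · exact (WOk.nil _).cons ok_a
  have hK : ∀ w ∈ [[gN], [fN], [eN], [dN], [cN], [bN], [aN]], wperm w ∈ φ.range := by
    intro w hw
    simp only [List.mem_cons, List.not_mem_nil, or_false] at hw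
    rcases hw with rfl | rfl | rfl | rfl | rfl | rfl | rfl
    · exact ⟨_, (φ_of .g).trans (by rw [wperm_cons, wperm_nil, mul_one]; rfl)⟩
    · exact ⟨_, (φ_of .f).trans (by rw [wperm_cons, wperm_nil, mul_one]; rfl)⟩
    · exact ⟨_, (φ_of .e).trans (by rw [wperm_cons, wperm_nil, mul_one]; rfl)⟩
    · exact ⟨_, (φ_of .d).trans (by rw [wperm_cons, wperm_nil, mul_one]; rfl)⟩
    · exact ⟨_, (φ_of .c).trans (by rw [wperm_cons, wperm_nil, mul_one]; rfl)⟩
    · exact ⟨_, (φ_of .b).trans (by rw [wperm_cons, wperm_nil, mul_one]; rfl)⟩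
    · exact ⟨_, (φ_of .a).trans (by rw [wperm_cons, wperm_nil, mul_one]; rfl)⟩
  have h1 : (sat [[gN], [fN], [eN], [dN], [cN], [bN], [aN]] 6 (2 ^ 0)).testBit i = true := by
    rw [Nat.eq_of_beq_eq_true sat_ok, Nat.testBit_two_pow_sub_one]
    simpa using hi
  obtain ⟨g, ⟨x, rfl⟩, hg⟩ := sat_point_spec hws hK 6 h1
  exact ⟨x, hg⟩

/-- A generator fixes the point `0`. -/
theorem fix_a : Net.pt aN 0 = 0 := by decide +kernel
theorem fix_b : Net.pt bN 0 = 0 := by decide +kernel
theorem fix_c : Net.pt cN 0 = 0 := by decide +kernel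
theorem fix_d : Net.pt dN 0 = 0 := by decide +kernel
theorem fix_f : Net.pt fN 0 = 0 := by decide +kernel
theorem fix_g : Net.pt gN 0 = 0 := by decide +kernel

end Cfsg.Agent.SporadicRecognition.SuzU43Rel
end

-- part: S1681
section
set_option autoImplicit false
open Cfsg

namespace Cfsg.Agent.S1681

open Cfsg.Spor Cfsg.Agent.Lib.PermNet Cfsg.Agent.Lib.PermNetOrbit
open Cfsg.Agent.SporadicRecognition.CosetCert Cfsg.Agent.SporadicRecognition.CosetCertHyp
open Cfsg.Agent.SporadicRecognition.SuzU43Data Cfsg.Agent.SporadicRecognition.SuzU43All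
open Cfsg.Agent.SporadicRecognition.SuzU43Rel

/-- The subgroup of the statement. -/
abbrev HH : Subgroup Suz := ((Subgroup.closure ({Cfsg.Spor.Suz.a, Cfsg.Spor.Suz.b, Cfsg.Spor.Suz.c, Cfsg.Spor.Suz.d, Cfsg.Spor.Suz.f, Cfsg.Spor.Suz.g} : Set (FreeGroup Cfsg.Spor.Suz.Gen))).map (PresentedGroup.mk (Cfsg.Spor.coxRelators Cfsg.Spor.Suz.edges ∪ {r | r ∈ Cfsg.Spor.Suz.extra})))

/-- The relators. -/
abbrev RR : Set (FreeGroup Suz.Gen) := coxRelators Suz.edges ∪ {r | r ∈ Suz.extra}

/-- The generators in the presented group. -/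
def γ (x : Suz.Gen) : Suz := PresentedGroup.mk RR (FreeGroup.of x)

theorem rel_one {r : FreeGroup Suz.Gen} (h : r ∈ Suz.extra) : PresentedGroup.mk RR r = 1 :=
  PresentedGroup.one_of_mem (Or.inr h)

theorem cox_one (x y : Suz.Gen) : (γ x * γ y) ^ coxLabel Suz.edges x y = 1 := by
  have hx : ∀ z : Suz.Gen, z ∈ coxNodes Suz.edges := by
    intro z
    cases z <;> decide
  have h : PresentedGroup.mk RR ((FreeGroup.of x * FreeGroup.of y) ^ coxLabel Suz.edges x y) = 1 :=
    PresentedGroup.one_of_mem (Or.inl ⟨x, hx x, y, hx y, rfl⟩)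
  rw [map_pow, map_mul] at h
  exact h

theorem sq (x : Suz.Gen) : γ x * γ x = 1 := by
  have h := cox_one x x
  have h1 : coxLabel Suz.edges x x = 1 := by cases x <;> decide
  rw [h1, pow_one] at h
  exact h

theorem inv_eq (x : Suz.Gen) : (γ x)⁻¹ = γ x := by
  rw [inv_eq_iff_mul_eq_one]
  exact sq x

/-- Generators by number. -/
def gg (n : ℕ) : Suz :=
  match n with
  | 0 => γ .a
  | 1 => γ .b
  | 2 => γ .c
  | 3 => γ .d
  | 4 => γ .e
  | 5 => γ .f
  | 6 => γ .g
  | _ => 1

theorem e1 : γ .a = (γ .c * γ .d) ^ 4 := by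
  have h := rel_one (r := Suz.a * ((Suz.c * Suz.d) ^ 4)⁻¹) (by simp [Suz.extra])
  simp only [map_mul, map_inv, map_pow] at h
  exact mul_inv_eq_one.1 h

theorem e2 : γ .a = (γ .f * γ .g) ^ 2 := by
  have h := rel_one (r := Suz.a * ((Suz.f * Suz.g) ^ 2)⁻¹) (by simp [Suz.extra])
  simp only [map_mul, map_inv, map_pow] at h
  exact mul_inv_eq_one.1 h

theorem e3 : (γ .a * γ .b * γ .c * γ .f) ^ 5 = 1 := by
  have h := rel_one (r := (Suz.a * Suz.b * Suz.c * Suz.f) ^ 5) (by simp [Suz.extra])
  simp only [map_mul, map_pow] at h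
  exact h

theorem e4 : (γ .b * γ .f * γ .g) ^ 5 = 1 := by
  have h := rel_one (r := (Suz.b * Suz.f * Suz.g) ^ 5) (by simp [Suz.extra])
  simp only [map_mul, map_pow] at h
  exact h

theorem e5 : ((γ .b * γ .c * γ .d * γ .c * γ .d) ^ 5 * γ .e) ^ 3 = 1 := by
  have h := rel_one (r := ((Suz.b * Suz.c * Suz.d * Suz.c * Suz.d) ^ 5 * Suz.e) ^ 3) (by simp [Suz.extra])
  simp only [map_mul, map_pow] at h
  exact h

theorem ev_pair (x y m : ℕ) : ev gg ((List.replicate m [x, y]).flatten) = (gg x * gg y) ^ m := by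
  induction m with
  | zero => simp [ev_nil]
  | succ m ih =>
    rw [List.replicate_succ, List.flatten_cons, ev_append, ih, pow_succ', ev_cons, ev_cons, ev_nil, mul_one]

theorem ev_pow (l : List ℕ) (m : ℕ) : ev gg ((List.replicate m l).flatten) = (ev gg l) ^ m := by
  induction m with
  | zero => simp [ev_nil]
  | succ m ih =>
    rw [List.replicate_succ, List.flatten_cons, ev_append, ih, pow_succ']

set_option maxRecDepth 10000 in
theorem rels_ev : ∀ r ∈ rels, ev gg r = 1 := by
  intro r hr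
  unfold rels at hr
  simp only [List.mem_cons, List.not_mem_nil, or_false] at hr
  rcases hr with rfl | rfl | rfl | rfl | rfl | rfl | rfl | rfl | rfl | rfl | rfl | rfl | rfl | rfl | rfl | rfl | rfl | rfl | rfl | rfl | rfl | rfl | rfl | rfl | rfl | rfl
  · exact (ev_pair 0 2 2).trans (cox_one .a .c)
  · exact (ev_pair 0 3 2).trans (cox_one .a .d)
  · exact (ev_pair 0 4 2).trans (cox_one .a .e)
  · exact (ev_pair 0 5 2).trans (cox_one .a .f)
  · exact (ev_pair 0 6 2).trans (cox_one .a .g)
  · exact (ev_pair 1 3 2).trans (cox_one .b .d)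
  · exact (ev_pair 1 4 2).trans (cox_one .b .e)
  · exact (ev_pair 2 4 2).trans (cox_one .c .e)
  · exact (ev_pair 2 5 2).trans (cox_one .c .f)
  · exact (ev_pair 2 6 2).trans (cox_one .c .g)
  · exact (ev_pair 3 5 2).trans (cox_one .d .f)
  · exact (ev_pair 3 6 2).trans (cox_one .d .g)
  · exact (ev_pair 4 5 2).trans (cox_one .e .f)
  · exact (ev_pair 4 6 2).trans (cox_one .e .g)
  · have h : (γ .g * γ .f) ^ 2 = γ .a := by
      have h1 : γ .g * γ .f = (γ .f * γ .g)⁻¹ := by rw [mul_inv_rev, inv_eq, inv_eq]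
      rw [h1, inv_pow, ← e2, inv_eq]
    rw [ev_cons, show ([6, 5, 6, 5] : List ℕ) = (List.replicate 2 [6, 5]).flatten from rfl, ev_pair]
    change γ .a * (γ .g * γ .f) ^ 2 = 1
    rw [h, sq]
  · exact (ev_pair 1 2 3).trans (cox_one .b .c)
  · exact (ev_pair 3 4 3).trans (cox_one .d .e)
  · exact (ev_pair 1 5 3).trans (cox_one .b .f)
  · exact (ev_pair 6 1 3).trans (cox_one .g .b)
  · exact (ev_pair 5 6 4).trans (cox_one .f .g)
  · have h : (γ .d * γ .c) ^ 4 = γ .a := by
      have h1 : γ .d * γ .c = (γ .c * γ .d)⁻¹ := by rw [mul_inv_rev, inv_eq, inv_eq]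
      rw [h1, inv_pow, ← e1, inv_eq]
    rw [ev_cons, show ([3, 2, 3, 2, 3, 2, 3, 2] : List ℕ) = (List.replicate 4 [3, 2]).flatten from rfl, ev_pair]
    change γ .a * (γ .d * γ .c) ^ 4 = 1
    rw [h, sq]
  · exact (ev_pair 0 1 5).trans (cox_one .a .b)
  · refine (ev_pow [1, 5, 6] 5).trans ?_
    rw [ev_cons, ev_cons, ev_cons, ev_nil, mul_one, ← mul_assoc]
    exact e4
  · exact (ev_pair 2 3 8).trans (cox_one .c .d)
  · refine (ev_pow [0, 1, 2, 5] 5).trans ?_
    rw [ev_cons, ev_cons, ev_cons, ev_cons, ev_nil, mul_one, ← mul_assoc, ← mul_assoc]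
    exact e3
  · refine (ev_pow ((List.replicate 5 [1, 2, 3, 2, 3]).flatten ++ [4]) 3).trans ?_
    rw [ev_append, ev_pow, ev_cons, ev_cons, ev_cons, ev_cons, ev_cons, ev_nil, ev_cons, ev_nil, mul_one, mul_one,
      ← mul_assoc, ← mul_assoc, ← mul_assoc]
    exact e5

theorem subw_ev : ∀ s ∈ subw, ev gg s ∈ HH := by
  intro s hs
  unfold subw at hs
  simp only [List.mem_cons, List.not_mem_nil, or_false] at hs
  rcases hs with rfl | rfl | rfl | rfl | rfl | rfl <;> rw [ev_cons, ev_nil, mul_one]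
  · exact Subgroup.mem_map_of_mem _ (Subgroup.subset_closure (by simp))
  · exact Subgroup.mem_map_of_mem _ (Subgroup.subset_closure (by simp))
  · exact Subgroup.mem_map_of_mem _ (Subgroup.subset_closure (by simp))
  · exact Subgroup.mem_map_of_mem _ (Subgroup.subset_closure (by simp))
  · exact Subgroup.mem_map_of_mem _ (Subgroup.subset_closure (by simp))
  · exact Subgroup.mem_map_of_mem _ (Subgroup.subset_closure (by simp))

theorem check_ok : checkHyp C rels subw = true := by decide +kernel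

theorem hyp : Hyp C HH gg := by
  apply hyp_of_checks HH gg C rels subw
  · rfl
  · intro x hx
    have hx' : x < 7 := hx
    refine ⟨hx', ?_⟩
    change gg x * gg x = 1
    interval_cases x
    · exact sq .a
    · exact sq .b
    · exact sq .c
    · exact sq .d
    · exact sq .e
    · exact sq .f
    · exact sq .g
  · exact rels_ev
  · exact subw_ev
  · exact check_ok

theorem closure_top : Subgroup.closure (gg '' {x | x < C.k}) = ⊤ := by
  rw [eq_top_iff, ← PresentedGroup.closure_range_of RR, Subgroup.closure_le]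
  rintro _ ⟨x, rfl⟩
  apply Subgroup.subset_closure
  have h7 : C.k = 7 := rfl
  cases x
  · exact ⟨0, by rw [Set.mem_ofPred_eq, h7]; norm_num, rfl⟩
  · exact ⟨1, by rw [Set.mem_ofPred_eq, h7]; norm_num, rfl⟩
  · exact ⟨2, by rw [Set.mem_ofPred_eq, h7]; norm_num, rfl⟩
  · exact ⟨3, by rw [Set.mem_ofPred_eq, h7]; norm_num, rfl⟩
  · exact ⟨4, by rw [Set.mem_ofPred_eq, h7]; norm_num, rfl⟩
  · exact ⟨5, by rw [Set.mem_ofPred_eq, h7]; norm_num, rfl⟩
  · exact ⟨6, by rw [Set.mem_ofPred_eq, h7]; norm_num, rfl⟩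

theorem fix (h : Suz) (hh : h ∈ HH) : φ h 0 = 0 := by
  have key : HH ≤ (MulAction.stabilizer (Equiv.Perm ℕ) (0 : ℕ)).comap φ := by
    rw [Subgroup.map_le_iff_le_comap, Subgroup.closure_le]
    intro x hx
    simp only [Set.mem_insert_iff, Set.mem_singleton_iff] at hx
    rcases hx with rfl | rfl | rfl | rfl | rfl | rfl
    · change φ (PresentedGroup.mk RR (FreeGroup.of .a)) 0 = 0
      rw [φ_of, ← Net.pt_eq (net_ok .a)]; exact fix_a
    · change φ (PresentedGroup.mk RR (FreeGroup.of .b)) 0 = 0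
      rw [φ_of, ← Net.pt_eq (net_ok .b)]; exact fix_b
    · change φ (PresentedGroup.mk RR (FreeGroup.of .c)) 0 = 0
      rw [φ_of, ← Net.pt_eq (net_ok .c)]; exact fix_c
    · change φ (PresentedGroup.mk RR (FreeGroup.of .d)) 0 = 0
      rw [φ_of, ← Net.pt_eq (net_ok .d)]; exact fix_d
    · change φ (PresentedGroup.mk RR (FreeGroup.of .f)) 0 = 0
      rw [φ_of, ← Net.pt_eq (net_ok .f)]; exact fix_f
    · change φ (PresentedGroup.mk RR (FreeGroup.of .g)) 0 = 0
      rw [φ_of, ← Net.pt_eq (net_ok .g)]; exact fix_g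
  exact key hh


/-- In the presented sporadic Suzuki group (generators a, …, g), the subgroup generated by the images of a, b, c, d, f, g has index 22880. -/
theorem result : (((Subgroup.closure ({Cfsg.Spor.Suz.a, Cfsg.Spor.Suz.b, Cfsg.Spor.Suz.c, Cfsg.Spor.Suz.d, Cfsg.Spor.Suz.f, Cfsg.Spor.Suz.g} : Set (FreeGroup Cfsg.Spor.Suz.Gen))).map (PresentedGroup.mk (Cfsg.Spor.coxRelators Cfsg.Spor.Suz.edges ∪ {r | r ∈ Cfsg.Spor.Suz.extra})))).index = 22880 := by

  have h1 := index_le C HH gg hyp part closure_top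
  exact (index_eq_of_action HH φ 22880 fix transitive h1.2 h1.1).1

end Cfsg.Agent.S1681
end
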