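import Cfsg.Agent.Co2Type.Quad
import Cfsg.Agent.Lib.MinNormalNonabelian
import Cfsg.Agent.Lib.Cores
import Cfsg.Agent.SmallSimple.EvenOrder
import Cfsg.Agent.LargeExtra.WCIrr
import Cfsg.Agent.LargeExtra.W2.Coord
import Cfsg.Agent.LargeExtra.W2.Simple
import Cfsg.Agent.LargeExtra.W2.NSBase
import Cfsg.Agent.SmallExtra438.NineAGeo
import Cfsg.Agent.LargeExtra.W2.LFour.Main
import Cfsg.Agent.AltType.Recognize
import Cfsg.Agent.Mrg.LargeExtra.WN3
import Cfsg.Agent.LargeExtra.AsmSeven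
import Cfsg.Agent.LargeExtra.WCEndPSU
import Cfsg.Agent.Fischer480.AllPieces
import Cfsg.Agent.Fischer891.FinalSym
import Cfsg.Agent.Fischer891.FinalO
import Cfsg.Agent.Fischer919.FinalU
import Cfsg.Agent.Fischer545.TEight
import Cfsg.Agent.LargeExtra.Nine.CaseOneMain
import Cfsg.Agent.LargeExtra.W2.NSBridge
import Cfsg.Agent.FixBN.ReduceMain_m3
import Cfsg.Agent.S1675
import Cfsg.Agent.S0095
import Cfsg.Statements.S1760
import Cfsg.Agent.FastGrp
import Cfsg.Agent.Prune
set_option linter.all false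
prune_inst 0x7ffefcfbebfcbfdfffff7e7fa7ffcffdfdb9bfffe6fffdcbffe9ffffdbff4befcfedfbaf8fef90fedff6e23e90f87bd3fbffe67fe36fdc7ffffd5ff45ffbff9fffffbd0d71ffbcbe1ffc6ffffbf2778e7f3fffffffffffffffffffffffffffffffbfffffffff
open scoped Cfsg.Agent.FastGrp

-- part: WCLarge/Reduce
section
/-!
# S1760: the reduction to `F*(G)` simple

`G` a finite group without nontrivial normal subgroup of odd order, `Large Q z`, `z` not central and weakly closed in
`Q`: the normal closure of `z` is a non-abelian simple group with trivial centraliser.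
-/

set_option autoImplicit false

namespace Cfsg.Agent.WCLarge.Reduce

open Cfsg.Agent.Co2Type.Quad Cfsg.Agent.Lib.MinNormalNonabelian Cfsg.Agent.Lib

/-- the setting of S1760 with `z` not central and weakly closed -/
structure Setup {G : Type*} [Group G] (Q : Subgroup G) (z : G) : Prop where
  large : Large Q z
  core : ∀ N : Subgroup G, (∀ n ∈ N, n * z = z * n) → (∀ c, c * z = z * c → ∀ n ∈ N, c * n * c⁻¹ ∈ N) →
    IsPGroup 2 N → N ≤ Q
  wc : ∀ g : G, g * z * g⁻¹ ∈ Q → g * z * g⁻¹ = z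
  odd : ∀ N : Subgroup G, N.Normal → Odd (Nat.card N) → N = ⊥
  ncen : ∃ g : G, g * z * g⁻¹ ≠ z

variable {G : Type*} [Group G] {Q : Subgroup G} {z : G}

/-- conjugation by `z` on a subgroup normalised by `z` -/
def conjHom (N : Subgroup G) (z : G) (hN : ∀ n ∈ N, z * n * z⁻¹ ∈ N) : N →* N where
  toFun n := ⟨z * n * z⁻¹, hN n n.2⟩
  map_one' := Subtype.ext (by show z * 1 * z⁻¹ = 1; group)
  map_mul' a b := Subtype.ext (by
    show z * ((a : G) * b) * z⁻¹ = (z * a * z⁻¹) * (z * b * z⁻¹)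
    group)

theorem fpf [Finite G] (N : Subgroup G) (hzz : z * z = 1) (hN : ∀ n ∈ N, z * n * z⁻¹ ∈ N)
    (h : ∀ n ∈ N, n * z = z * n → n = 1) :
    (∀ a ∈ N, ∀ b ∈ N, Commute a b) ∧ Odd (Nat.card N) := by
  have h1 : MonoidHom.FixedPointFree (conjHom N z hN) := by
    intro n hn
    apply Subtype.ext
    apply h n n.2
    have h2 : z * (n : G) * z⁻¹ = n := congrArg Subtype.val hn
    rw [mul_inv_eq_iff_eq_mul] at h2
    exact h2.symm
  have h2 : Function.Involutive (conjHom N z hN) := by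
    intro n
    apply Subtype.ext
    show z * (z * (n : G) * z⁻¹) * z⁻¹ = n
    calc z * (z * (n : G) * z⁻¹) * z⁻¹ = (z * z) * n * (z * z)⁻¹ := by group
      _ = n := by rw [hzz]; group
  refine ⟨fun a ha b hb => ?_, h1.odd_card_of_involutive h2⟩
  have h3 := h1.commute_all_of_involutive h2 ⟨a, ha⟩ ⟨b, hb⟩
  exact congrArg Subtype.val h3.eq

namespace Setup

variable (S : Setup Q z)
include S

theorem zz : z * z = 1 := S.large.z_sq

/-- `z` lies in each subgroup `M` normalised by `Q` with `M ∩ Q ≠ 1` -/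
theorem mem_of_inf {M : Subgroup G} (hM : ∀ q ∈ Q, ∀ m ∈ M, q * m * q⁻¹ ∈ M) {x : G} (hx : x ∈ M)
    (hxQ : x ∈ Q) (h1 : x ≠ 1) : z ∈ M := by
  by_cases hxz : x = z
  · rw [← hxz]; exact hx
  by_contra hz
  apply h1
  have h2 : ∀ y ∈ Q, x * y = y * x := by
    intro y hy
    rcases S.large.comm y hy x hxQ with h | h
    · exact h.symm
    · exfalso
      apply hz
      have h3 := mul_mem (inv_mem hx) (hM y hy x hx)
      have h4 : x⁻¹ * (y * x * y⁻¹) = z := by
        rw [h]
        have h5 := S.large.comm_z y hy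
        calc x⁻¹ * (x * y * z * y⁻¹) = (y * z) * y⁻¹ := by group
          _ = z * y * y⁻¹ := by rw [h5]
          _ = z := by group
      rwa [h4] at h3
  rcases S.large.cent x hxQ h2 with h | h
  · exact h
  · exact absurd h hxz

/-- `z` lies in every nontrivial normal subgroup -/
theorem mem_normal [Finite G] (N : Subgroup G) (hN : N.Normal) (hne : N ≠ ⊥) : z ∈ N := by
  by_cases h : ∀ n ∈ N, n * z = z * n → n = 1
  · exact absurd (S.odd N hN (fpf N S.zz (fun n hn => hN.conj_mem n hn z) h).2) hne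
  push Not at h
  obtain ⟨x, hx, hxz, hx1⟩ := h
  by_contra hz
  have hd : ∀ y ∈ N, y ∈ Q → y = 1 := by
    intro y hy hyQ
    by_contra hy1
    exact hz (S.mem_of_inf (fun q _ m hm => hN.conj_mem m hm q) hy hyQ hy1)
  have hxQ : x ∈ Q := by
    refine S.large.self x hxz fun q hq => ?_
    have h1 : x * q * x⁻¹ * q⁻¹ = 1 := by
      apply hd
      · have h2 := N.mul_mem hx (hN.conj_mem _ (N.inv_mem hx) q)
        have h3 : x * (q * x⁻¹ * q⁻¹) = x * q * x⁻¹ * q⁻¹ := by group
        rwa [h3] at h2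
      · exact Q.mul_mem (S.large.conj_mem x hxz q hq) (Q.inv_mem hq)
    rw [mul_inv_eq_one, mul_inv_eq_iff_eq_mul] at h1
    exact h1
  exact hx1 (hd x hx hxQ)

/-- the normal closure of `z` -/
theorem le_of_normal [Finite G] (N : Subgroup G) (hN : N.Normal) (hne : N ≠ ⊥) :
    Subgroup.normalClosure ({z} : Set G) ≤ N := by
  apply Subgroup.normalClosure_le_normal
  rintro x rfl
  exact S.mem_normal N hN hne

theorem z_mem_L : z ∈ Subgroup.normalClosure ({z} : Set G) := Subgroup.subset_normalClosure rfl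

/-- the centraliser of `Q ∩ L` in `C_L(z)` lies in `Q` -/
theorem self_L (L : Subgroup G) (hL : L.Normal) {y : G} (hy : y ∈ L) (hyz : y * z = z * y)
    (hyQ : ∀ g ∈ Q, g ∈ L → y * g = g * y) : y ∈ Q := by
  have hzz := S.zz
  let Y : Subgroup G :=
    { carrier := {y | y ∈ L ∧ y * z = z * y ∧ ∀ g ∈ Q, g ∈ L → y * g = g * y}
      one_mem' := ⟨L.one_mem, by group, fun g _ _ => by group⟩
      mul_mem' := by
        rintro a b ⟨ha1, ha2, ha3⟩ ⟨hb1, hb2, hb3⟩
        refine ⟨L.mul_mem ha1 hb1, ?_, fun g hg hgL => ?_⟩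
        · rw [mul_assoc, hb2, ← mul_assoc, ha2, mul_assoc]
        · rw [mul_assoc, hb3 g hg hgL, ← mul_assoc, ha3 g hg hgL, mul_assoc]
      inv_mem' := by
        rintro a ⟨ha1, ha2, ha3⟩
        refine ⟨L.inv_mem ha1, ?_, fun g hg hgL => ?_⟩
        · rw [inv_mul_eq_iff_eq_mul, ← mul_assoc, ha2, mul_inv_cancel_right]
        · rw [inv_mul_eq_iff_eq_mul, ← mul_assoc, ha3 g hg hgL, mul_inv_cancel_right] }
  have hY : Y ≤ Q := by
    refine S.core Y (fun n hn => hn.2.1) ?_ ?_
    · rintro c hc n ⟨h1, h2, h3⟩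
      have hci : c⁻¹ * z = z * c⁻¹ := by rw [inv_mul_eq_iff_eq_mul, ← mul_assoc, hc, mul_inv_cancel_right]
      refine ⟨hL.conj_mem n h1 c, ?_, fun g hg hgL => ?_⟩
      · calc c * n * c⁻¹ * z = c * n * (c⁻¹ * z) := by group
          _ = c * (n * z) * c⁻¹ := by rw [hci]; group
          _ = (c * z) * n * c⁻¹ := by rw [h2]; group
          _ = z * (c * n * c⁻¹) := by rw [hc]; group
      · have h4 := S.large.conj_mem c⁻¹ hci g hg
        rw [inv_inv] at h4
        have h5 : c⁻¹ * g * c ∈ L := by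
          have := hL.conj_mem g hgL c⁻¹
          rwa [inv_inv] at this
        have h6 := h3 _ h4 h5
        calc c * n * c⁻¹ * g = c * (n * (c⁻¹ * g * c)) * c⁻¹ := by group
          _ = c * ((c⁻¹ * g * c) * n) * c⁻¹ := by rw [h6]
          _ = g * (c * n * c⁻¹) := by group
    · rintro ⟨y, h1, h2, h3⟩
      refine ⟨3, ?_⟩
      apply Subtype.ext
      show y ^ (2 ^ 3) = 1
      -- `y² q y⁻² = k² q`
      have key : ∀ q ∈ Q, (y * y) * (y * y) * q = q * ((y * y) * (y * y)) := by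
        intro q hq
        obtain ⟨k, hk⟩ : ∃ k, y * q * y⁻¹ * q⁻¹ = k := ⟨_, rfl⟩
        have hkQ : k ∈ Q := by
          rw [← hk]; exact Q.mul_mem (S.large.conj_mem y h2 q hq) (Q.inv_mem hq)
        have hkL : k ∈ L := by
          rw [← hk]
          have h5 := L.mul_mem h1 (hL.conj_mem _ (L.inv_mem h1) q)
          have h6 : y * (q * y⁻¹ * q⁻¹) = y * q * y⁻¹ * q⁻¹ := by group
          rwa [h6] at h5
        have hyk := h3 k hkQ hkL
        have hyq : y * q = k * q * y := by rw [← hk]; group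
        have h7 : (y * y) * q = k * k * q * (y * y) := by
          calc (y * y) * q = y * (y * q) := by group
            _ = (y * k) * q * y := by rw [hyq]; group
            _ = k * (y * q) * y := by rw [hyk]; group
            _ = k * k * q * (y * y) := by rw [hyq]; group
        have hkk : (y * y) * (k * k) = (k * k) * (y * y) := by
          have hc : Commute y k := hyk
          exact ((hc.mul_left hc).mul_right (hc.mul_left hc)).eq
        have hk4 : k * k * (k * k) = 1 := by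
          rcases S.large.sq k hkQ with h | h
          · rw [h, one_mul]
          · rw [h]; exact hzz
        calc (y * y) * (y * y) * q = (y * y) * ((y * y) * q) := by group
          _ = ((y * y) * (k * k)) * q * (y * y) := by rw [h7]; group
          _ = (k * k) * ((y * y) * q) * (y * y) := by rw [hkk]; group
          _ = (k * k * (k * k)) * q * ((y * y) * (y * y)) := by rw [h7]; group
          _ = q * ((y * y) * (y * y)) := by rw [hk4, one_mul]
      have h4z : ((y * y) * (y * y)) * z = z * ((y * y) * (y * y)) := key z S.large.z_mem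
      have h8 : (y * y) * (y * y) ∈ Q := S.large.self _ h4z key
      have h9 := S.large.cent _ h8 key
      have h10 : y ^ (2 ^ 3) = ((y * y) * (y * y)) * ((y * y) * (y * y)) := by
        rw [show (2 ^ 3 : ℕ) = 8 from rfl]
        simp only [pow_succ, pow_zero, one_mul, mul_assoc]
      rw [h10]
      rcases h9 with h | h
      · rw [h, one_mul]
      · rw [h]; exact hzz
  exact hY ⟨hy, hyz, hyQ⟩

/-- a 2-subgroup normal in `C_L(z)` lies in `Q` -/
theorem core_L [Finite G] (L : Subgroup G) (hL : L.Normal) (N : Subgroup G) (hNL : N ≤ L)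
    (hNz : ∀ n ∈ N, n * z = z * n) (hn : ∀ c ∈ L, c * z = z * c → ∀ n ∈ N, c * n * c⁻¹ ∈ N)
    (h2 : IsPGroup 2 N) : N ≤ Q := by
  let CL : Subgroup G := L ⊓ Subgroup.centralizer ({z} : Set G)
  let M : Subgroup G := (Cfsg.pCore 2 CL).map CL.subtype
  have hMQ : M ≤ Q := by
    refine S.core M ?_ ?_ ?_
    · rintro _ ⟨n, _, rfl⟩
      exact Subgroup.mem_centralizer_singleton_iff.1 (Subgroup.mem_inf.1 n.2).2
    · intro c hc n hn
      obtain ⟨m, hm, rfl⟩ := hn
      have hci : c⁻¹ * z = z * c⁻¹ := by rw [inv_mul_eq_iff_eq_mul, ← mul_assoc, hc, mul_inv_cancel_right]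
      have hcon : ∀ d : G, d * z = z * d → ∀ x ∈ CL, d * x * d⁻¹ ∈ CL := by
        intro d hd x hx
        have hdi : d⁻¹ * z = z * d⁻¹ := by rw [inv_mul_eq_iff_eq_mul, ← mul_assoc, hd, mul_inv_cancel_right]
        refine Subgroup.mem_inf.2 ⟨hL.conj_mem x (Subgroup.mem_inf.1 hx).1 d, ?_⟩
        rw [Subgroup.mem_centralizer_singleton_iff]
        have h3 := Subgroup.mem_centralizer_singleton_iff.1 (Subgroup.mem_inf.1 hx).2
        calc d * x * d⁻¹ * z = d * x * (d⁻¹ * z) := by group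
          _ = d * (x * z) * d⁻¹ := by rw [hdi]; group
          _ = (d * z) * x * d⁻¹ := by rw [h3]; group
          _ = z * (d * x * d⁻¹) := by rw [hd]; group
      let e : CL ≃* CL :=
        { toFun := fun x => ⟨c * x * c⁻¹, hcon c hc x x.2⟩
          invFun := fun x => ⟨c⁻¹ * x * c, by
            have := hcon c⁻¹ hci x x.2
            rwa [inv_inv] at this⟩
          left_inv := fun x => Subtype.ext (by show c⁻¹ * (c * (x : G) * c⁻¹) * c = x; group)
          right_inv := fun x => Subtype.ext (by show c * (c⁻¹ * (x : G) * c) * c⁻¹ = x; group)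
          map_mul' := fun x y => Subtype.ext (by
            show c * ((x : G) * y) * c⁻¹ = (c * x * c⁻¹) * (c * y * c⁻¹)
            group) }
      have h3 := Cores.map_equiv_pCore e 2
      have h4 : e m ∈ Cfsg.pCore 2 CL := by
        rw [← h3]
        exact ⟨m, hm, rfl⟩
      exact ⟨e m, h4, rfl⟩
    · exact (Cores.pCore_isPGroup (G := CL) 2).map _
  have hNC : N ≤ CL := fun n hn => Subgroup.mem_inf.2 ⟨hNL hn, Subgroup.mem_centralizer_singleton_iff.2 (hNz n hn)⟩
  have h3 : (N.subgroupOf CL).Normal := by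
    refine ⟨fun n hn' c => ?_⟩
    exact hn c (Subgroup.mem_inf.1 c.2).1 (Subgroup.mem_centralizer_singleton_iff.1 (Subgroup.mem_inf.1 c.2).2) n hn'
  have h4 : IsPGroup 2 (N.subgroupOf CL) := h2.of_equiv (Subgroup.subgroupOfEquivOfLe hNC).symm
  have h5 := Cores.le_pCore h3 h4
  intro n hn'
  exact hMQ ⟨⟨n, hNC hn'⟩, h5 hn', rfl⟩

/-- members of `minSet L` meet `Q` nontrivially -/
theorem exists_mem_inf [Finite G] {L K : Subgroup G} (hL : L.Normal) (hzL : z ∈ L) (hK : K ∈ minSet L)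
    (hc : ∀ z ∈ K, (∀ t ∈ K, Commute z t) → z = 1) : ∃ x ∈ K, x ∈ Q ∧ x ≠ 1 := by
  obtain ⟨hKL, hK0, hKn, -⟩ := hK
  have hnorm : ∀ g ∈ L, ∀ k ∈ K, g * k * g⁻¹ ∈ K := fun g hg k hk =>
    (Subgroup.mem_normalizer_iff.1 (hKn hg) k).1 hk
  by_cases h : ∀ n ∈ K, n * z = z * n → n = 1
  · exfalso
    apply hK0
    rw [eq_bot_iff]
    intro k hk
    rw [Subgroup.mem_bot]
    exact hc k hk fun t ht => (fpf K S.zz (hnorm z hzL) h).1 k hk t ht
  push Not at h
  obtain ⟨y, hy, hyz, hy1⟩ := h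
  by_contra hcon
  push Not at hcon
  have hyQ : y ∈ Q := by
    refine S.self_L L hL (hKL hy) hyz fun g hg hgL => ?_
    have h1 : y * g * y⁻¹ * g⁻¹ = 1 := by
      apply hcon
      · have h2 := K.mul_mem hy (hnorm g hgL _ (K.inv_mem hy))
        have h3 : y * (g * y⁻¹ * g⁻¹) = y * g * y⁻¹ * g⁻¹ := by group
        rwa [h3] at h2
      · exact Q.mul_mem (S.large.conj_mem y hyz g hg) (Q.inv_mem hg)
    rw [mul_inv_eq_one, mul_inv_eq_iff_eq_mul] at h1
    exact h1
  exact hy1 (hcon y hy hyQ)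

/-- `Q` normalises the members of `minSet L` -/
theorem normalizes [Finite G] {L K : Subgroup G} (hL : L.Normal) (hzL : z ∈ L) (hind : sSupIndep (minSet L))
    (hK : K ∈ minSet L) (hs : IsSimpleGroup K)
    (hc : ∀ z ∈ K, (∀ t ∈ K, Commute z t) → z = 1) {q : G} (hq : q ∈ Q) :
    K.map (MulAut.conj q).toMonoidHom = K := by
  by_contra hne
  set K₂ := K.map (MulAut.conj q).toMonoidHom with hK₂def
  have hK₂ : K₂ ∈ minSet L := map_conj_mem_minSet hK q
  have hdis : Disjoint K K₂ := (hind.pairwiseDisjoint) hK hK₂ (Ne.symm hne)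
  have hd : ∀ x ∈ K, x ∈ K₂ → x = 1 := fun x h1 h2 => Subgroup.disjoint_def.1 hdis h1 h2
  have hcomm : ∀ x ∈ K, ∀ y ∈ K₂, Commute x y := fun x hx y hy =>
    Cfsg.Agent.Lib.MinNormal.commute_of_mem hind (fun S hS => hS.2.2.1) (fun S hS => hS.1) hK hK₂
      (Ne.symm hne) hx hy
  obtain ⟨x, hxK, hxQ, hx1⟩ := S.exists_mem_inf hL hzL hK hc
  have hzz := S.zz
  have hnorm : ∀ g ∈ L, ∀ k ∈ K, g * k * g⁻¹ ∈ K := fun g hg k hk =>
    (Subgroup.mem_normalizer_iff.1 (hK.2.2.1 hg) k).1 hk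
  -- conjugates of elements of `K ∩ Q`
  have key : ∀ x ∈ K, x ∈ Q → x ≠ 1 → q * x * q⁻¹ = x * z := by
    intro x hxK hxQ hx1
    rcases S.large.comm q hq x hxQ with h | h
    · exfalso
      apply hx1
      apply hd x hxK
      refine ⟨x, hxK, ?_⟩
      show q * x * q⁻¹ = x
      rw [h]; group
    · rw [h, mul_assoc x, S.large.comm_z q hq, mul_assoc, mul_assoc, mul_inv_cancel, mul_one]
  have hx₂ : x * z ∈ K₂ := by rw [← key x hxK hxQ hx1]; exact ⟨x, hxK, rfl⟩
  have huniq : ∀ y ∈ K, y ∈ Q → y = 1 ∨ y = x := by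
    intro y hyK hyQ
    by_cases hy1 : y = 1
    · exact Or.inl hy1
    right
    have hy₂ : y * z ∈ K₂ := by rw [← key y hyK hyQ hy1]; exact ⟨y, hyK, rfl⟩
    have h1 : y * x⁻¹ ∈ K₂ := by
      have h2 := K₂.mul_mem hy₂ (K₂.inv_mem hx₂)
      have h3 : y * z * (x * z)⁻¹ = y * x⁻¹ := by
        rw [mul_inv_rev]; group
      rwa [h3] at h2
    have h4 := hd _ (K.mul_mem hyK (K.inv_mem hxK)) h1
    exact mul_inv_eq_one.1 h4
  have hxx : x * x = 1 := by
    rcases huniq (x * x) (K.mul_mem hxK hxK) (Q.mul_mem hxQ hxQ) with h | h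
    · exact h
    · exact absurd (mul_eq_left.1 h) hx1
  -- `C_K(z) = C_K(x)`
  have hyx : ∀ y ∈ K, y * z = z * y → y * x = x * y := by
    intro y hyK hyz
    have h1 := (hcomm y hyK _ hx₂).eq
    -- y * (x z) = (x z) * y
    have h2 : y * x * z = x * y * z := by
      calc y * x * z = y * (x * z) := by group
        _ = x * (z * y) := by rw [h1]; group
        _ = x * y * z := by rw [← hyz]; group
    exact mul_right_cancel h2
  have hyx' : ∀ y ∈ K, y * x = x * y → y * z = z * y := by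
    intro y hyK hyx
    have h1 := (hcomm y hyK _ hx₂).eq
    have h2 : x * (y * z) = x * (z * y) := by
      calc x * (y * z) = (x * y) * z := by group
        _ = y * (x * z) := by rw [← hyx]; group
        _ = x * (z * y) := by rw [h1]; group
    exact mul_left_cancel h2
  -- `C_K(z)` has exponent 4
  have h4 : ∀ y ∈ K, y * z = z * y → (y * y) * (y * y) = 1 := by
    intro y hyK hyz
    have h5 : y * y ∈ Q := by
      refine S.self_L L hL (L.mul_mem (hK.1 hyK) (hK.1 hyK)) ?_ fun g hg hgL => ?_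
      · rw [mul_assoc, hyz, ← mul_assoc, hyz, mul_assoc]
      · have h6 : y * g * y⁻¹ * g⁻¹ = 1 ∨ y * g * y⁻¹ * g⁻¹ = x := by
          apply huniq
          · have h2 := K.mul_mem hyK (hnorm g hgL _ (K.inv_mem hyK))
            have h3 : y * (g * y⁻¹ * g⁻¹) = y * g * y⁻¹ * g⁻¹ := by group
            rwa [h3] at h2
          · exact Q.mul_mem (S.large.conj_mem y hyz g hg) (Q.inv_mem hg)
        rcases h6 with h6 | h6
        · rw [mul_inv_eq_one, mul_inv_eq_iff_eq_mul] at h6
          rw [mul_assoc, h6, ← mul_assoc, h6, mul_assoc]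
        · rw [mul_inv_eq_iff_eq_mul, mul_inv_eq_iff_eq_mul] at h6
          have h7 := hyx y hyK hyz
          calc y * y * g = y * (y * g) := by group
            _ = (y * x) * g * y := by rw [h6]; group
            _ = x * (y * g) * y := by rw [h7]; group
            _ = (x * x) * g * (y * y) := by rw [h6]; group
            _ = g * (y * y) := by rw [hxx, one_mul]
    rcases huniq _ (K.mul_mem hyK hyK) h5 with h | h
    · rw [h, one_mul]
    · rw [h, hxx]
  -- `C_K(z) ≤ Q`
  have hCQ : K ⊓ Subgroup.centralizer ({z} : Set G) ≤ Q := by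
    refine S.core_L L hL _ (inf_le_left.trans hK.1) ?_ ?_ ?_
    · intro n hn
      exact Subgroup.mem_centralizer_singleton_iff.1 (Subgroup.mem_inf.1 hn).2
    · intro c hcL hcz n hn
      obtain ⟨hn1, hn2⟩ := Subgroup.mem_inf.1 hn
      rw [Subgroup.mem_centralizer_singleton_iff] at hn2
      have hci : c⁻¹ * z = z * c⁻¹ := by rw [inv_mul_eq_iff_eq_mul, ← mul_assoc, hcz, mul_inv_cancel_right]
      refine Subgroup.mem_inf.2 ⟨hnorm c hcL n hn1, ?_⟩
      rw [Subgroup.mem_centralizer_singleton_iff]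
      calc c * n * c⁻¹ * z = c * n * (c⁻¹ * z) := by group
        _ = c * (n * z) * c⁻¹ := by rw [hci]; group
        _ = (c * z) * n * c⁻¹ := by rw [hn2]; group
        _ = z * (c * n * c⁻¹) := by rw [hcz]; group
    · rintro ⟨y, hy⟩
      obtain ⟨hy1, hy2⟩ := Subgroup.mem_inf.1 hy
      rw [Subgroup.mem_centralizer_singleton_iff] at hy2
      refine ⟨2, ?_⟩
      apply Subtype.ext
      show y ^ (2 ^ 2) = 1
      rw [show (2 ^ 2 : ℕ) = 4 from rfl]
      have h5 := h4 y hy1 hy2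
      simpa only [pow_succ, pow_zero, one_mul, mul_assoc] using h5
  -- Sylow 2-subgroups of `K` have order 2
  have hfix : ∀ y ∈ K, y * x = x * y → y = 1 ∨ y = x := by
    intro y hyK hyx1
    refine huniq y hyK (hCQ (Subgroup.mem_inf.2 ⟨hyK, ?_⟩))
    rw [Subgroup.mem_centralizer_singleton_iff]
    exact hyx' y hyK hyx1
  have : Fact (Nat.Prime 2) := ⟨Nat.prime_two⟩
  let x' : K := ⟨x, hxK⟩
  have hx'1 : x' ≠ 1 := fun h => hx1 (congrArg Subtype.val h)
  have hx'2 : x' ^ 2 = 1 := Subtype.ext (by show x ^ 2 = 1; rw [pow_two]; exact hxx)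
  have hx'o : orderOf x' = 2 := orderOf_eq_prime hx'2 hx'1
  have hpg : IsPGroup 2 (Subgroup.zpowers x') := IsPGroup.of_card (n := 1) (by
    rw [Nat.card_zpowers, hx'o, pow_one])
  obtain ⟨T, hT⟩ := hpg.exists_le_sylow
  have hx'T : x' ∈ (T : Subgroup K) := hT (Subgroup.mem_zpowers x')
  have hTnt : Nontrivial (T : Subgroup K) := ⟨⟨⟨x', hx'T⟩, 1, fun h => hx'1 (congrArg Subtype.val h)⟩⟩
  have hcen : Nontrivial (Subgroup.center (T : Subgroup K)) := IsPGroup.center_nontrivial T.2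
  obtain ⟨w, hw⟩ := exists_ne (1 : Subgroup.center (T : Subgroup K))
  have hwx : ((w : (T : Subgroup K)) : K) = x' := by
    have h5 : ((w : (T : Subgroup K)) : K) * x' = x' * w := by
      have h6 := Subgroup.mem_center_iff.1 w.2 ⟨x', hx'T⟩
      exact (congrArg Subtype.val h6).symm
    have h7 := hfix _ ((w : (T : Subgroup K)) : K).2 (congrArg Subtype.val h5)
    rcases h7 with h7 | h7
    · exfalso
      apply hw
      apply Subtype.ext
      apply Subtype.ext
      apply Subtype.ext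
      exact h7
    · exact Subtype.ext h7
  have hTle : ∀ t : (T : Subgroup K), (t : K) = 1 ∨ (t : K) = x' := by
    intro t
    have h6 := Subgroup.mem_center_iff.1 w.2 t
    have h7 : (t : K) * x' = x' * t := by
      rw [← hwx]
      exact congrArg Subtype.val h6
    rcases hfix _ (t : K).2 (congrArg Subtype.val h7) with h8 | h8
    · exact Or.inl (Subtype.ext h8)
    · exact Or.inr (Subtype.ext h8)
  have hcyc : IsCyclic (T : Subgroup K) := by
    refine ⟨⟨x', hx'T⟩, fun t => ?_⟩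
    rcases hTle t with h8 | h8
    · refine ⟨0, Subtype.ext ?_⟩
      rw [h8]
      show ((⟨x', hx'T⟩ : (T : Subgroup K)) ^ (0 : ℤ) : (T : Subgroup K)).1 = 1
      rw [zpow_zero]; rfl
    · refine ⟨1, Subtype.ext ?_⟩
      rw [h8]
      show ((⟨x', hx'T⟩ : (T : Subgroup K)) ^ (1 : ℤ) : (T : Subgroup K)).1 = x'
      rw [zpow_one]
  have hna : ¬ IsMulCommutative K := by
    intro h
    apply hx1
    refine hc x hxK fun t ht => ?_
    exact congrArg Subtype.val (h.is_comm.comm (⟨x, hxK⟩ : K) ⟨t, ht⟩)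
  have h2 : 2 ∣ Nat.card K := hx'o ▸ orderOf_dvd_natCard x'
  exact Cfsg.Agent.SmallSimple.EvenOrder.not_isCyclic_sylow_two hna h2 T hcyc

/-- **The reduction**: the normal closure of `z` is a non-abelian simple group with trivial centraliser. -/
theorem simple [Finite G] : IsSimpleGroup ↥(Subgroup.normalClosure ({z} : Set G)) ∧
    ¬ IsMulCommutative ↥(Subgroup.normalClosure ({z} : Set G)) ∧
    Subgroup.centralizer ((Subgroup.normalClosure ({z} : Set G) : Subgroup G) : Set G) = ⊥ := by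
  set L := Subgroup.normalClosure ({z} : Set G) with hLdef
  have hL : L.Normal := Subgroup.normalClosure_normal
  have hzL : z ∈ L := S.z_mem_L
  have hmin : ∀ M : Subgroup G, M.Normal → M ≤ L → M = ⊥ ∨ M = L := by
    intro M hM hML
    by_cases h : M = ⊥
    · exact Or.inl h
    · exact Or.inr (le_antisymm hML (S.le_of_normal M hM h))
  have hna : ¬ ∀ x ∈ L, ∀ y ∈ L, Commute x y := by
    intro hab
    obtain ⟨g, hg⟩ := S.ncen
    apply hg
    apply S.wc
    have hgz : g * z * g⁻¹ ∈ L := hL.conj_mem z hzL g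
    -- `L` is a 2-group
    have h2 : ∀ x ∈ L, x * x = 1 := by
      intro x hx
      let Ω : Subgroup G :=
        { carrier := {y | y ∈ L ∧ y * y = 1}
          one_mem' := ⟨L.one_mem, one_mul 1⟩
          mul_mem' := fun {a b} ha hb => ⟨L.mul_mem ha.1 hb.1, by
            have h3 := (hab a ha.1 b hb.1).eq
            calc a * b * (a * b) = a * (b * a) * b := by group
              _ = (a * a) * (b * b) := by rw [← h3]; group
              _ = 1 := by rw [ha.2, hb.2, one_mul]⟩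
          inv_mem' := fun {a} ha => ⟨L.inv_mem ha.1, by
            rw [← mul_inv_rev, ha.2, inv_one]⟩ }
      have hΩ : Ω.Normal := ⟨fun y hy g => ⟨hL.conj_mem y hy.1 g, by
        calc g * y * g⁻¹ * (g * y * g⁻¹) = g * (y * y) * g⁻¹ := by group
          _ = 1 := by rw [hy.2]; group⟩⟩
      have hLΩ : L ≤ Ω := by
        apply Subgroup.normalClosure_le_normal
        rintro y rfl
        exact ⟨hzL, S.zz⟩
      exact (hLΩ hx).2
    refine S.core L (fun n hn => (hab n hn z hzL).eq) (fun c _ n hn => hL.conj_mem n hn c) ?_ hgz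
    rintro ⟨x, hx⟩
    refine ⟨1, ?_⟩
    apply Subtype.ext
    show x ^ (2 ^ 1) = 1
    rw [pow_one, pow_two]
    exact h2 x hx
  obtain ⟨hne, hind, hsup, hsimp, hcent, -⟩ := nonabelian_structure L hmin hna
  -- `L` has only one minimal normal subgroup
  obtain ⟨K, hK⟩ := hne
  have hall : ∀ K ∈ minSet L, z ∈ K := by
    intro K hK
    obtain ⟨x, hxK, hxQ, hx1⟩ := S.exists_mem_inf hL hzL hK (hcent K hK)
    refine S.mem_of_inf (fun q hq m hm => ?_) hxK hxQ hx1
    have h1 := S.normalizes hL hzL hind hK (hsimp K hK) (hcent K hK) hq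
    rw [← h1]
    exact ⟨m, hm, rfl⟩
  have huniq : ∀ K' ∈ minSet L, K' = K := by
    intro K' hK'
    by_contra hne
    have hdis : Disjoint K' K := hind.pairwiseDisjoint hK' hK hne
    exact S.large.z_ne (Subgroup.disjoint_def.1 hdis (hall K' hK') (hall K hK))
  have hKL : K = L := by
    rw [← hsup]
    apply le_antisymm (le_sSup hK)
    exact sSup_le fun K' hK' => (huniq K' hK').le
  have hs : IsSimpleGroup L := hKL ▸ hsimp K hK
  refine ⟨hs, fun h => hna fun x hx y hy => ?_, ?_⟩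
  · exact congrArg Subtype.val (h.is_comm.comm (⟨x, hx⟩ : L) ⟨y, hy⟩)
  · by_contra hC
    have hCn : (Subgroup.centralizer (L : Set G)).Normal := by
      refine ⟨fun n hn g => ?_⟩
      rw [Subgroup.mem_centralizer_iff] at hn ⊢
      intro y hy
      have h1 := hn (g⁻¹ * y * g) (by
        have := hL.conj_mem y hy g⁻¹
        rwa [inv_inv] at this)
      calc y * (g * n * g⁻¹) = g * ((g⁻¹ * y * g) * n) * g⁻¹ := by group
        _ = g * (n * (g⁻¹ * y * g)) * g⁻¹ := by rw [h1]
        _ = g * n * g⁻¹ * y := by group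
    have h1 := S.le_of_normal _ hCn hC
    apply hna
    intro x hx y hy
    exact (Subgroup.mem_centralizer_iff.1 (h1 hx) y hy).symm

end Setup

end Cfsg.Agent.WCLarge.Reduce
end

-- part: WCLarge/Refl
section
/-!
# Large extraspecial 2-subgroups, `z` weakly closed in `Q`: no hypothesis on subgroups of index two (S1760)

`G` a finite group, `Base P Q`.  A conjugate of `z` never induces a reflection on `Q / ⟨z⟩`
(`no_refl_conj`), so good pairs exist as soon as commuting pairs exist (`exists_good_free`) and the irreducibility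
theorem `main` holds without the hypothesis that `G` has no subgroup of index two (`main_free`, `irreducible_free`).
-/

set_option autoImplicit false

namespace Cfsg.Agent.WCLarge

open Cfsg.Agent.Co2Type.Quad Cfsg.Agent.LargeExtra.WC Cfsg.Agent.LargeExtra.Base Cfsg.Agent.LargeExtra.WCIrr
open Cfsg.Agent.LargeExtra

/-- an involution of `C_G(z)` conjugate to `z` does not induce a reflection on `Q / ⟨z⟩` -/
theorem no_refl_large {G : Type*} [Group G] [Finite G] {Q : Subgroup G} {z : G} (h : Large Q z)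
    (h8 : 8 < Nat.card Q) {u : Q} (hu : (u : G) * u = z) {s : Subgroup.centralizer ({z} : Set G)}
    (hs : (s : G) * s = 1) (g : G) (hg : g * z * g⁻¹ = s)
    (hc : ∀ v, h.act s v = v + h.b (h.pr u) v • h.pr u) : False := by
  have h1 := hc (h.pr u)
  rw [h.b_self, zero_smul, add_zero, h.act_pr, h.pr_eq_pr, h.conjQ_coe] at h1
  have hsz : (s : G) * z = z * s := Subgroup.mem_centralizer_singleton_iff.1 s.2
  rcases h1 with h2 | h2
  · -- `s` commutes with `u`
    have hsu : (s : G) * u * (s : G)⁻¹ = u := h2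
    have hu1 : (u : G) ≠ 1 := by
      intro h3; rw [h3, one_mul] at hu; exact h.z_ne hu.symm
    have huz : (u : G) ≠ z := by
      intro h3; rw [h3, h.z_sq] at hu; exact h.z_ne hu.symm
    obtain ⟨w, hw, hwu⟩ := exists_not_comm h u.2 hu1 huz
    have hb : h.b (h.pr u) (h.pr ⟨w, hw⟩) = 1 := by
      rcases zm_cases (h.b (h.pr u) (h.pr ⟨w, hw⟩)) with h5 | h5
      · exfalso
        have h6 := (h.b_pr _ _).1 h5
        have h7 : (u : G) * w = w * u := h6
        rw [hwu] at h7
        have h8' : (u : G) * w * z = u * w := h7.symm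
        exact h.z_ne (mul_eq_left.1 h8')
      · exact h5
    have h3 := hc (h.pr ⟨w, hw⟩)
    rw [hb, one_smul, ← h.pr_mul, h.act_pr, h.pr_eq_pr, h.conjQ_coe] at h3
    have key : ∀ e : G, (e = 1 ∨ e = z) → (s : G) * w * (s : G)⁻¹ = w * u * e → False := by
      intro e he h4
      have hee : e * e = 1 := by
        rcases he with rfl | rfl
        · exact one_mul 1
        · exact h.z_sq
      have hse : (s : G) * e * (s : G)⁻¹ = e := by
        rcases he with rfl | rfl
        · group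
        · rw [hsz]; group
      have hue : (u : G) * e = e * u := by
        rcases he with rfl | rfl
        · group
        · exact h.comm_z u u.2
      have h5 : (s : G) * ((s : G) * w * (s : G)⁻¹) * (s : G)⁻¹ = w := by
        calc (s : G) * ((s : G) * w * (s : G)⁻¹) * (s : G)⁻¹ = ((s : G) * s) * w * ((s : G) * s)⁻¹ := by group
          _ = w := by rw [hs]; group
      have h6 : (s : G) * (w * u * e) * (s : G)⁻¹ = w * z := by
        calc (s : G) * (w * u * e) * (s : G)⁻¹ = (s * w * (s : G)⁻¹) * (s * u * (s : G)⁻¹) * (s * e * (s : G)⁻¹) := by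
              group
          _ = w * u * e * u * e := by rw [h4, hsu, hse]
          _ = w * u * (e * u) * e := by group
          _ = w * (u * u) * (e * e) := by rw [← hue]; group
          _ = w * z := by rw [hu, hee, mul_one]
      rw [h4, h6] at h5
      exact h.z_ne (mul_eq_left.1 h5)
    rcases h3 with h4 | h4
    · exact key 1 (Or.inl rfl) (by rw [mul_one]; exact h4)
    · exact key z (Or.inr rfl) h4
  · -- `s` inverts `u`
    have hsu : (s : G) * u * (s : G)⁻¹ = u * z := h2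
    have r : LemmaR.Refl h u s := ⟨hc, by
      rw [mul_inv_eq_iff_eq_mul] at hsu
      exact hsu, hu⟩
    exact LemmaR.not_conj r hs h8 g hg

section

variable {G : Type*} [Group G] {P : Set G} {Q : G → Subgroup G} {p t : G}

/-- Good pairs exist: no hypothesis on subgroups of index two. -/
theorem exists_good_free [Finite G] (B : Base P Q) (h8 : ∀ p ∈ P, 8 < Nat.card (Q p)) (c : Com P p t) :
    ∃ s, _root_.Cfsg.Agent.LargeExtra.WCIrr.Good P p s := by
  set h := B.large t c.ht with hh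
  have c' := c.symm
  -- a vector `v` of `V_t` with `[p, v] ≠ 0` singular
  obtain ⟨v, hv0, hvq⟩ : ∃ v, _root_.Cfsg.Agent.LargeExtra.WCIrr.Com.T B c.symm v + v ≠ 0 ∧ h.q (_root_.Cfsg.Agent.LargeExtra.WCIrr.Com.T B c.symm v + v) = 0 := by
    by_contra hcon
    push Not at hcon
    obtain ⟨v1, hv1⟩ := _root_.Cfsg.Agent.LargeExtra.WCIrr.Com.T_ne B c.symm
    set w := _root_.Cfsg.Agent.LargeExtra.WCIrr.Com.T B c.symm v1 + v1 with hw
    have hw0 : w ≠ 0 := fun h => hv1 (eq_of_add h)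
    have hqw : h.q w = 1 := by
      rcases zm_cases (h.q w) with h1 | h1
      · exact absurd h1 (hcon v1 hw0)
      · exact h1
    have hT := _root_.Cfsg.Agent.LargeExtra.WCIrr.Com.T_inv B c.symm
    -- `W = {0, w}`
    have hW : ∀ v, _root_.Cfsg.Agent.LargeExtra.WCIrr.Com.T B c.symm v + v = 0 ∨ _root_.Cfsg.Agent.LargeExtra.WCIrr.Com.T B c.symm v + v = w := by
      intro v
      by_contra hne
      push Not at hne
      have h1 : h.q (_root_.Cfsg.Agent.LargeExtra.WCIrr.Com.T B c.symm v + v) = 1 := by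
        rcases zm_cases (h.q (_root_.Cfsg.Agent.LargeExtra.WCIrr.Com.T B c.symm v + v)) with h1 | h1
        · exact absurd h1 (hcon v hne.1)
        · exact h1
      have h2 : _root_.Cfsg.Agent.LargeExtra.WCIrr.Com.T B c.symm (v + v1) + (v + v1) = (_root_.Cfsg.Agent.LargeExtra.WCIrr.Com.T B c.symm v + v) + w := by
        rw [map_add, hw]; abel
      have h3 : h.b (_root_.Cfsg.Agent.LargeExtra.WCIrr.Com.T B c.symm v + v) w = 0 := hT.isotropic (QS.f_mem_W _ _) (QS.f_mem_W _ _)
      apply hcon (v + v1)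
      · rw [h2]
        exact fun h4 => hne.2 (eq_of_add h4)
      · rw [h2, h.q_add', h1, hqw, h3]; decide
    have hfix : ∀ v, h.b w v = 0 → _root_.Cfsg.Agent.LargeExtra.WCIrr.Com.T B c.symm v = v := by
      intro v hv
      rw [hT.fix_iff, QS.mem_perp]
      rintro _ ⟨u, rfl⟩
      show h.b (_root_.Cfsg.Agent.LargeExtra.WCIrr.Com.T B c.symm u + u) v = 0
      rcases hW u with h1 | h1
      · rw [h1, map_zero]; rfl
      · rw [h1]; exact hv
    rcases TwoCentral.eq_or_refl_of_fix_perp h (_root_.Cfsg.Agent.LargeExtra.WCIrr.Com.T B c.symm) (fun v w => hT.iso.b_eq v w) hfix with h1 | h1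
    · apply hv1
      rw [h1]; rfl
    · obtain ⟨u, hu⟩ := h.pr_surjective w
      rw [← hu] at h1 hqw
      obtain ⟨g, hg⟩ := B.exists_conj t c.ht p c.hp
      exact no_refl_large h (h8 t c.ht) (h.q_eq_one.1 hqw)
        (s := ⟨p, Subgroup.mem_centralizer_singleton_iff.2 c.com⟩) (B.sq c.hp) g hg h1
  obtain ⟨y, hy, rfl⟩ := pr_surj _ v
  rw [WCIrr.Com.T, ac_add] at hv0 hvq
  have ha2 := h.q_eq_zero.1 hvq
  have ha2' : (p * y * p⁻¹ * y⁻¹) * (p * y * p⁻¹ * y⁻¹) = 1 := ha2
  have ha : p * y * p⁻¹ * y⁻¹ ∈ Q t := _root_.Cfsg.Agent.LargeExtra.WCIrr.Com.u_mem B c.symm hy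
  set a := p * y * p⁻¹ * y⁻¹ with haa
  have hs := Com.conj_eq B c.symm y
  rw [← haa] at hs
  have hsP : y * p * y⁻¹ ∈ P := B.conj_mem p c.hp y
  refine ⟨y * p * y⁻¹, ⟨c.hp, hsP, ?_, ?_⟩, ?_⟩
  · intro h1
    rw [hs] at h1
    apply hv0
    exact h.pr_eq_zero.2 (Or.inl (mul_eq_left.1 h1.symm))
  · have h1 : p * (y * p * y⁻¹) = a := by rw [hs, ← mul_assoc, B.sq c.hp, one_mul]
    have h2 : (p * (y * p * y⁻¹))⁻¹ = p * (y * p * y⁻¹) := by
      rw [h1]; exact inv_eq_of_mul_eq_one_left ha2'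
    rw [mul_inv_rev, B.inv c.hp, B.inv hsP] at h2
    exact h2.symm
  · have h1 : p * (y * p * y⁻¹) = a := by rw [hs, ← mul_assoc, B.sq c.hp, one_mul]
    rw [h1]
    intro h2
    have h3 := B.eq_of_mem t c.ht _ h2 ha
    apply hv0
    exact h.pr_eq_zero.2 (Or.inr h3)

/-- **Case I**, no hypothesis on subgroups of index two. -/
theorem main_free [Finite G] (B : Base P Q)
    (h128 : ∀ p ∈ P, 128 ≤ Nat.card (Q p))
    (hO : ∀ p ∈ P, ∀ N : Subgroup (Subgroup.centralizer ({p} : Set G)), N.Normal → IsPGroup 2 N →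
      ∀ x ∈ N, (x : G) ∈ Q p)
    (hex : ∃ p t, Com P p t) {q : G} (hq : q ∈ P)
    {A : Subgroup G} (hA : Inva Q q A) : (∀ m ∈ A, m = 1 ∨ m = q) ∨ A = Q q := by
  have h64 : ∀ p (hp : p ∈ P), 64 ≤ Nat.card (B.large p hp).V := by
    intro p hp
    have h1 := (B.large p hp).card_eq
    have h2 := h128 p hp
    omega
  obtain ⟨p, t, c⟩ := hex
  obtain ⟨s, c'⟩ := exists_good_free B (fun p hp => by have := h128 p hp; omega) c
  obtain ⟨p, t, c, u⟩ := exists_typeU B h64 ⟨p, s, c'⟩
  -- transport `A`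
  obtain ⟨g, hg⟩ := B.exists_conj q hq p c.hp
  have hA2 : Inva Q p (A.map (MulAut.conj g).toMonoidHom) := by
    refine ⟨⟨q, hA.p_mem, hg⟩, ?_, ?_⟩
    · rintro _ ⟨x, hx, rfl⟩
      rw [← hg]
      exact B.Q_conj q hq g x (hA.le hx)
    · rintro k hk _ ⟨x, hx, rfl⟩
      have hk' : (g⁻¹ * k * g) * q = q * (g⁻¹ * k * g) := by
        calc (g⁻¹ * k * g) * q = g⁻¹ * (k * (g * q * g⁻¹)) * g := by group
          _ = g⁻¹ * ((g * q * g⁻¹) * k) * g := by rw [hg, hk]
          _ = q * (g⁻¹ * k * g) := by group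
      refine ⟨_, hA.inv _ hk' x hx, ?_⟩
      show g * (g⁻¹ * k * g * x * (g⁻¹ * k * g)⁻¹) * g⁻¹ = k * (g * x * g⁻¹) * k⁻¹
      group
  rcases c.irreducible B u (hO p c.hp) hA2 with h1 | h1
  · left
    intro m hm
    rcases h1 (g * m * g⁻¹) ⟨m, hm, rfl⟩ with h2 | h2
    · left
      have : m = g⁻¹ * (g * m * g⁻¹) * g := by group
      rw [this, h2]; group
    · right
      have : m = g⁻¹ * (g * m * g⁻¹) * g := by group
      rw [this, h2, ← hg]; group
  · right
    apply le_antisymm hA.le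
    intro x hx
    have h2 : g * x * g⁻¹ ∈ A.map (MulAut.conj g).toMonoidHom := by
      rw [h1, ← hg]
      exact B.Q_conj q hq g x hx
    obtain ⟨y, hy, hxy⟩ := h2
    have hxy' : g * y * g⁻¹ = g * x * g⁻¹ := hxy
    have : y = x := mul_left_cancel (mul_right_cancel hxy')
    rw [← this]; exact hy

end

/-- **Case I** for a finite group `G` in which `z` has a conjugate `≠ z` commuting with `z`. -/
theorem irreducible_free {G : Type*} [Group G] {Q : Subgroup G} {z : G} [Finite G] (h : Large Q z)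
    (h128 : 128 ≤ Nat.card Q)
    (hO : ∀ N : Subgroup (Subgroup.centralizer ({z} : Set G)), N.Normal → IsPGroup 2 N →
      ∀ x ∈ N, (x : G) ∈ Q)
    (hwc : ∀ g : G, g * z * g⁻¹ ∈ Q → g * z * g⁻¹ = z)
    (hex : ∃ g : G, g * z * g⁻¹ ≠ z ∧ g * z * g⁻¹ * z = z * (g * z * g⁻¹))
    {A : Subgroup G} (hzA : z ∈ A) (hAQ : A ≤ Q) (hA : ∀ c, c * z = z * c → ∀ x ∈ A, c * x * c⁻¹ ∈ A) :
    (∀ m ∈ A, m = 1 ∨ m = z) ∨ A = Q := by
  have B := WCIrr.base h hwc
  obtain ⟨g, hg1, hg2⟩ := hex
  have hz : z ∈ cls z := ⟨1, by group⟩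
  have c : Com (cls z) z (g * z * g⁻¹) := ⟨hz, ⟨g, rfl⟩, Ne.symm hg1, hg2.symm⟩
  have hQ : ∀ p ∈ cls z, 128 ≤ Nat.card (QQ Q z p) := by
    intro p hp
    rw [B.card_eq hp hz, QQ_self h]
    exact h128
  have hA' : Inva (QQ Q z) z A := by
    refine ⟨hzA, ?_, hA⟩
    rw [QQ_self h]; exact hAQ
  have h1 := main_free B hQ (fun p hp N hN hN2 => normal_two h hO p hp N hN hN2)
    ⟨z, _, c⟩ hz hA'
  rwa [QQ_self h] at h1

end Cfsg.Agent.WCLarge
end

-- part: WCLarge/GoodTwo
section
/-!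
# Good pairs, `|Q| = 32` (S1760)

`Base P Q`, `Good P p t`, `|Q p| = 32`: `W = [V, t]` is totally singular of order four and `W^⊥ = W`.
-/

set_option autoImplicit false

namespace Cfsg.Agent.WCLarge

open Cfsg.Agent.Co2Type.Quad Cfsg.Agent.LargeExtra.WC Cfsg.Agent.LargeExtra.Base Cfsg.Agent.LargeExtra.WCIrr
open Cfsg.Agent.LargeExtra

theorem sub_eq_of_card {V : Type*} [AddCommGroup V] [Module (ZMod 2) V] [Finite V] {U W : Submodule (ZMod 2) V}
    (hle : U ≤ W) (hc : Nat.card W ≤ Nat.card U) : U = W := by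
  have h1 : (W : Set V).ncard ≤ (U : Set V).ncard := hc
  exact SetLike.coe_injective (Set.eq_of_subset_of_ncard_le hle h1 (Set.toFinite _))

section good

variable {G : Type*} [Group G] {P : Set G} {Q : G → Subgroup G} {p t : G}

/-- `W = [V, t]` has two distinct nonzero vectors -/
theorem exists_pair_W [Finite G] (B : Base P Q) (c : _root_.Cfsg.Agent.LargeExtra.WCIrr.Good P p t) :
    ∃ a ∈ QS.W (WCIrr.Com.T B c.toCom), ∃ b ∈ QS.W (WCIrr.Com.T B c.toCom), a ≠ 0 ∧ b ≠ 0 ∧ a ≠ b := by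
  obtain ⟨v, hv⟩ := WCIrr.Com.T_ne B c.toCom
  have hT := WCIrr.Com.T_inv B c.toCom
  by_contra hcon
  push Not at hcon
  have ha : WCIrr.Com.T B c.toCom v + v ≠ 0 := fun h => hv (eq_of_add h)
  have hW : ∀ w ∈ QS.W (WCIrr.Com.T B c.toCom), w = 0 ∨ w = WCIrr.Com.T B c.toCom v + v := by
    intro w hw
    by_cases hw0 : w = 0
    · exact Or.inl hw0
    · exact Or.inr (hcon _ (QS.f_mem_W _ v) w hw ha hw0).symm
  have h1 : WCIrr.Com.T B c.toCom = 1 := by
    refine TwoCentral.eq_one_of_fix_perp (B.large p c.hp) (a := WCIrr.Com.T B c.toCom v + v)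
      (c.q_W B (QS.f_mem_W _ v)) _ hT.iso ?_
    intro u hu
    rw [hT.fix_iff, QS.mem_perp]
    intro w hw
    rcases hW w hw with h | h
    · rw [h, map_zero]; rfl
    · rw [h]; exact hu
  exact hv (by rw [h1]; rfl)

/-- `W^⊥ = W` -/
theorem perp_W [Finite G] (B : Base P Q) (c : _root_.Cfsg.Agent.LargeExtra.WCIrr.Good P p t) (hc : Nat.card (Q p) = 32) :
    (qs (B.large p c.hp)).perp (QS.W (WCIrr.Com.T B c.toCom)) = QS.W (WCIrr.Com.T B c.toCom) := by
  obtain ⟨a, ha, b, hb, ha0, hb0, hab⟩ := exists_pair_W B c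
  have h1 := (qs (B.large p c.hp)).card_perp (QS.W (WCIrr.Com.T B c.toCom))
  rw [W2.card_V (B.large p c.hp) hc] at h1
  have hle := (WCIrr.Com.T_inv B c.toCom).W_le
  have h3 : 4 ≤ Nat.card (QS.W (WCIrr.Com.T B c.toCom)) := by
    have hinj : Function.Injective (fun x : Bool × Bool =>
        (if x.1 then ⟨a, ha⟩ else 0) + (if x.2 then ⟨b, hb⟩ else 0) : Bool × Bool →
          QS.W (WCIrr.Com.T B c.toCom)) := by
      have hab' : a + b ≠ 0 := fun h => hab (eq_of_add h)
      rintro ⟨x, y⟩ ⟨x', y'⟩ h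
      have h' : (if x then a else 0) + (if y then b else 0) = (if x' then a else 0) + (if y' then b else 0) := by
        have h2 := congrArg Subtype.val h
        revert h2
        cases x <;> cases y <;> cases x' <;> cases y' <;> exact fun h => h
      clear h
      have ha0' := ha0.symm
      have hb0' := hb0.symm
      have hab'' := hab.symm
      have hab''' := hab'.symm
      cases x <;> cases y <;> cases x' <;> cases y' <;> simp_all only [_root_.ne_eq, _root_.Bool.false_eq_true, ↓ _root_.reduceIte, _root_.add_zero, _root_.zero_add, _root_.right_eq_add, _root_.left_eq_add, _root_.add_eq_right, _root_.add_eq_left]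
    have := Nat.card_le_card_of_injective _ hinj
    simpa only [_root_.ge_iff_le, _root_.Nat.card_eq_fintype_card, _root_.Fintype.card_prod, _root_.Fintype.card_bool, _root_.Nat.reduceMul] using this
  apply le_antisymm _ hle
  have hcard : Nat.card ((qs (B.large p c.hp)).perp (QS.W (WCIrr.Com.T B c.toCom))) ≤
      Nat.card (QS.W (WCIrr.Com.T B c.toCom)) := by
    by_contra hcon
    push Not at hcon
    have h5 : 4 * 5 ≤ Nat.card (QS.W (WCIrr.Com.T B c.toCom)) *
      Nat.card ((qs (B.large p c.hp)).perp (QS.W (WCIrr.Com.T B c.toCom))) :=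
      Nat.mul_le_mul h3 (by omega)
    omega
  exact (sub_eq_of_card hle hcard).ge

/-- an element of `Q p` commuting with `t` modulo `⟨p⟩` is an involution modulo ... : elements of `C_{Q p}(t)` are
`1` or involutions -/
theorem sq_of_comm [Finite G] (B : Base P Q) (c : _root_.Cfsg.Agent.LargeExtra.WCIrr.Good P p t) (hc : Nat.card (Q p) = 32) {x : G} (hx : x ∈ Q p)
    (h : t * x * t⁻¹ = x ∨ t * x * t⁻¹ = x * p) : x * x = 1 := by
  have h1 := c.comm_of B h hx
  rw [← c.fix_iff B hx, perp_W B c hc] at h1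
  exact (B.large p c.hp).q_eq_zero.1 (c.q_W B h1)

end good

section minus

open Cfsg.Agent.LargeExtra.W2

variable {G : Type*} [Group G] {Q : Subgroup G} {z i j k l : G}

theorem minus_form : ∀ a b c d a' b' c' d' : ZMod 2,
    a + b + a * b + c * d = 0 → a' + b' + a' * b' + c' * d' = 0 → a * b' + b * a' + (c * d' + d * c') = 0 →
    (a = 0 ∧ b = 0 ∧ c = 0 ∧ d = 0) ∨ (a' = 0 ∧ b' = 0 ∧ c' = 0 ∧ d' = 0) ∨
      (a = a' ∧ b = b' ∧ c = c' ∧ d = d') := by
  decide +kernel

/-- type `-`: distinct singular vectors are not orthogonal -/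
theorem minus_no_pair (h : Large Q z) (M : Minus Q z i j k l) {v w : h.V} (hv : h.q v = 0) (hw : h.q w = 0)
    (hb : h.b v w = 0) : v = 0 ∨ w = 0 ∨ v = w := by
  have hi : i ∈ Q := by rw [M.gen]; exact Subgroup.subset_closure (by simp)
  have hj : j ∈ Q := by rw [M.gen]; exact Subgroup.subset_closure (by simp)
  have hk : k ∈ Q := by rw [M.gen]; exact Subgroup.subset_closure (by simp)
  have hl : l ∈ Q := by rw [M.gen]; exact Subgroup.subset_closure (by simp)
  have hbij := comb_bijective h M.card (x := ⟨i, hi⟩) (y := ⟨j, hj⟩) (u := ⟨k, hk⟩) (v := ⟨l, hl⟩)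
    M.ji M.lk M.ki M.kj M.li M.lj
  have bxy : h.b (h.pr ⟨i, hi⟩) (h.pr ⟨j, hj⟩) = 1 := by
    rw [h.b_pr_one]; exact ac_symm h M.ji
  have byx : h.b (h.pr ⟨j, hj⟩) (h.pr ⟨i, hi⟩) = 1 := by rw [h.b_pr_one]; exact M.ji
  have buv : h.b (h.pr ⟨k, hk⟩) (h.pr ⟨l, hl⟩) = 1 := by
    rw [h.b_pr_one]; exact ac_symm h M.lk
  have bvu : h.b (h.pr ⟨l, hl⟩) (h.pr ⟨k, hk⟩) = 1 := by rw [h.b_pr_one]; exact M.lk
  have bux : h.b (h.pr ⟨k, hk⟩) (h.pr ⟨i, hi⟩) = 0 := by rw [h.b_pr]; exact M.ki
  have buy : h.b (h.pr ⟨k, hk⟩) (h.pr ⟨j, hj⟩) = 0 := by rw [h.b_pr]; exact M.kj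
  have bvx : h.b (h.pr ⟨l, hl⟩) (h.pr ⟨i, hi⟩) = 0 := by rw [h.b_pr]; exact M.li
  have bvy : h.b (h.pr ⟨l, hl⟩) (h.pr ⟨j, hj⟩) = 0 := by rw [h.b_pr]; exact M.lj
  have bxu : h.b (h.pr ⟨i, hi⟩) (h.pr ⟨k, hk⟩) = 0 := by rw [h.b_pr]; exact M.ki.symm
  have byu : h.b (h.pr ⟨j, hj⟩) (h.pr ⟨k, hk⟩) = 0 := by rw [h.b_pr]; exact M.kj.symm
  have bxv : h.b (h.pr ⟨i, hi⟩) (h.pr ⟨l, hl⟩) = 0 := by rw [h.b_pr]; exact M.li.symm
  have byv : h.b (h.pr ⟨j, hj⟩) (h.pr ⟨l, hl⟩) = 0 := by rw [h.b_pr]; exact M.lj.symm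
  have qx : h.q (h.pr ⟨i, hi⟩) = 1 := h.q_eq_one.2 M.ii
  have qy : h.q (h.pr ⟨j, hj⟩) = 1 := h.q_eq_one.2 M.jj
  have qu : h.q (h.pr ⟨k, hk⟩) = 0 := h.q_eq_zero.2 M.kk
  have qv : h.q (h.pr ⟨l, hl⟩) = 0 := h.q_eq_zero.2 M.ll
  have qs' : ∀ (a : ZMod 2) (w : h.V), h.q (a • w) = a * h.q w := by
    intro a w
    rcases zm_cases a with ha | ha
    · rw [ha, zero_smul, zero_mul]; exact (qs h).q_zero
    · rw [ha, one_smul, one_mul]
  have qc : ∀ c : Fin 4 → ZMod 2, h.q (comb h ⟨i, hi⟩ ⟨j, hj⟩ ⟨k, hk⟩ ⟨l, hl⟩ c) =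
      c 0 + c 1 + c 0 * c 1 + c 2 * c 3 := by
    intro c
    simp only [comb, h.q_add', qs', map_add, LinearMap.add_apply, map_smul, LinearMap.smul_apply, smul_eq_mul,
      qx, qy, qu, qv, bxy, buv, bxu, byu, bxv, byv, mul_one, mul_zero, add_zero, zero_add]
    ring
  have bc : ∀ c c' : Fin 4 → ZMod 2, h.b (comb h ⟨i, hi⟩ ⟨j, hj⟩ ⟨k, hk⟩ ⟨l, hl⟩ c)
      (comb h ⟨i, hi⟩ ⟨j, hj⟩ ⟨k, hk⟩ ⟨l, hl⟩ c') =
      c 0 * c' 1 + c 1 * c' 0 + (c 2 * c' 3 + c 3 * c' 2) := by
    intro c c'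
    simp only [comb, map_add, LinearMap.add_apply, map_smul, LinearMap.smul_apply, smul_eq_mul,
      bxy, byx, buv, bvu, bux, buy, bvx, bvy, bxu, byu, bxv, byv, h.b_self, mul_one, mul_zero, add_zero, zero_add]
    ring
  obtain ⟨c, rfl⟩ := hbij.2 v
  obtain ⟨c', rfl⟩ := hbij.2 w
  rw [qc] at hv hw
  rw [bc] at hb
  rcases minus_form _ _ _ _ _ _ _ _ hv hw hb with ⟨h1, h2, h3, h4⟩ | ⟨h1, h2, h3, h4⟩ | ⟨h1, h2, h3, h4⟩
  · left; simp only [comb, h1, h2, h3, h4, zero_smul, add_zero]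
  · right; left; simp only [comb, h1, h2, h3, h4, zero_smul, add_zero]
  · right; right
    congr 1
    funext t
    fin_cases t
    · exact h1
    · exact h2
    · exact h3
    · exact h4

end minus

section plus

open Cfsg.Agent.LargeExtra.W2

variable {G : Type*} [Group G] {Q : Subgroup G} {z i j k l : G}

/-- involutions of `⟨i, j⟩ = C_Q(k, l)` -/
theorem q8_sq (P : Plus Q z i j k l) {x : G} (hx : x ∈ Q) (hk : x * k = k * x) (hl : x * l = l * x)
    (hxx : x * x = 1) : x = 1 ∨ x = z := by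
  have hi : i ∈ Q := by rw [P.gen]; exact Subgroup.subset_closure (by simp)
  have hj : j ∈ Q := by rw [P.gen]; exact Subgroup.subset_closure (by simp)
  have h := P.large
  obtain ⟨r, hr, i', hi', j', hj', hxe, hri, hrj⟩ := exists_proj h hi hj P.ji hx
  have hki' : k * i' = i' * k := by
    rcases hi' with h1 | h1 <;> rw [h1]
    · group
    · exact P.ki
  have hli' : l * i' = i' * l := by
    rcases hi' with h1 | h1 <;> rw [h1]
    · group
    · exact P.li
  have hkj' : k * j' = j' * k := by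
    rcases hj' with h1 | h1 <;> rw [h1]
    · group
    · exact P.kj
  have hlj' : l * j' = j' * l := by
    rcases hj' with h1 | h1 <;> rw [h1]
    · group
    · exact P.lj
  have hrk : r * k = k * r := by
    have h1 : r = x * (i' * j')⁻¹ := by rw [hxe]; group
    have h2 : (i' * j')⁻¹ * k = k * (i' * j')⁻¹ := by
      rw [inv_mul_eq_iff_eq_mul, ← mul_assoc, eq_mul_inv_iff_mul_eq]
      calc k * (i' * j') = (k * i') * j' := by group
        _ = i' * (k * j') := by rw [hki']; group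
        _ = i' * j' * k := by rw [hkj']; group
    calc r * k = x * ((i' * j')⁻¹ * k) := by rw [h1]; group
      _ = (x * k) * (i' * j')⁻¹ := by rw [h2]; group
      _ = k * r := by rw [hk, h1]; group
  have hrl : r * l = l * r := by
    have h1 : r = x * (i' * j')⁻¹ := by rw [hxe]; group
    have h2 : (i' * j')⁻¹ * l = l * (i' * j')⁻¹ := by
      rw [inv_mul_eq_iff_eq_mul, ← mul_assoc, eq_mul_inv_iff_mul_eq]
      calc l * (i' * j') = (l * i') * j' := by group
        _ = i' * (l * j') := by rw [hli']; group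
        _ = i' * j' * l := by rw [hlj']; group
    calc r * l = x * ((i' * j')⁻¹ * l) := by rw [h1]; group
      _ = (x * l) * (i' * j')⁻¹ := by rw [h2]; group
      _ = l * r := by rw [hl, h1]; group
  have hrc : ∀ y ∈ Q, r * y = y * r := by
    intro y hy
    have hQC : Q ≤ Subgroup.centralizer ({r} : Set G) := by
      rw [P.gen, Subgroup.closure_le]
      rintro y (rfl | rfl | rfl | rfl)
      · exact Subgroup.mem_centralizer_singleton_iff.2 hri.symm
      · exact Subgroup.mem_centralizer_singleton_iff.2 hrj.symm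
      · exact Subgroup.mem_centralizer_singleton_iff.2 hrk.symm
      · exact Subgroup.mem_centralizer_singleton_iff.2 hrl.symm
    exact (Subgroup.mem_centralizer_singleton_iff.1 (hQC hy)).symm
  have hr1 := h.cent r hr hrc
  have hrr : r * r = 1 := by
    rcases hr1 with h1 | h1
    · rw [h1, one_mul]
    · rw [h1]; exact h.z_sq
  have hiz := h.comm_z i hi
  have hjz := h.comm_z j hj
  have hw : (i' * j') * (i' * j') = 1 := by
    have h1 : r * (i' * j') = (i' * j') * r := by
      have hri' : r * i' = i' * r := by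
        rcases hi' with h1 | h1 <;> rw [h1]
        · group
        · exact hri
      have hrj' : r * j' = j' * r := by
        rcases hj' with h1 | h1 <;> rw [h1]
        · group
        · exact hrj
      rw [← mul_assoc, hri', mul_assoc, hrj', mul_assoc]
    calc (i' * j') * (i' * j') = (r * r) * ((i' * j') * (i' * j')) := by rw [hrr, one_mul]
      _ = r * (r * (i' * j')) * (i' * j') := by group
      _ = r * ((i' * j') * r) * (i' * j') := by rw [h1]
      _ = (r * (i' * j')) * (r * (i' * j')) := by group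
      _ = x * x := by rw [hxe]; group
      _ = 1 := hxx
  rcases hi' with h1 | h1 <;> rcases hj' with h2 | h2
  · rw [h1, h2, mul_one, mul_one] at hxe
    rw [hxe]; exact hr1
  · exfalso
    rw [h1, h2, one_mul, P.jj] at hw
    exact h.z_ne hw
  · exfalso
    rw [h1, h2, mul_one, P.ii] at hw
    exact h.z_ne hw
  · exfalso
    rw [h1, h2] at hw
    have h3 : (i * j) * (i * j) = z := by
      calc (i * j) * (i * j) = i * (j * i) * j := by group
        _ = i * (i * j * z) * j := by rw [P.ji]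
        _ = (i * i) * j * (z * j) := by group
        _ = z * j * (j * z) := by rw [P.ii, hjz]
        _ = z * (j * j) * z := by group
        _ = z * (z * z) := by rw [P.jj]; group
        _ = z := by rw [h.z_sq, mul_one]
    rw [h3] at hw
    exact h.z_ne hw

theorem plus_swap (P : Plus Q z i j k l) : Plus Q z k l i j := by
  refine ⟨P.large, P.card, ?_, P.kk, P.ll, P.ii, P.jj, P.lk, P.ji, P.ki.symm, P.kj.symm, P.li.symm, P.lj.symm⟩
  rw [P.gen]
  congr 1
  ext x
  simp only [Set.mem_insert_iff, Set.mem_singleton_iff]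
  tauto

/-- conjugation by `t` of `⟨i, j⟩` -/
theorem comm_of_closure {PP : Set G} {QQ : G → Subgroup G} [Finite G] (B : Base PP QQ) {p t : G}
    (c : _root_.Cfsg.Agent.LargeExtra.WCIrr.Good PP p t) (P : Plus (QQ p) p i j k l)
    (ht : ∀ x ∈ Subgroup.closure ({i, j} : Set G), t * x * t⁻¹ ∈ Subgroup.closure ({i, j} : Set G)) {x : G}
    (hx : x ∈ Subgroup.closure ({i, j} : Set G)) : t * x = x * t := by
  have hEQ : Subgroup.closure ({i, j} : Set G) ≤ QQ p := by
    rw [P.gen]
    apply Subgroup.closure_mono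
    rintro y (rfl | rfl)
    · simp
    · simp
  have hEk : Subgroup.closure ({i, j} : Set G) ≤ Subgroup.centralizer ({k} : Set G) := by
    rw [Subgroup.closure_le]
    rintro y (rfl | rfl)
    · exact Subgroup.mem_centralizer_singleton_iff.2 P.ki.symm
    · exact Subgroup.mem_centralizer_singleton_iff.2 P.kj.symm
  have hEl : Subgroup.closure ({i, j} : Set G) ≤ Subgroup.centralizer ({l} : Set G) := by
    rw [Subgroup.closure_le]
    rintro y (rfl | rfl)
    · exact Subgroup.mem_centralizer_singleton_iff.2 P.li.symm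
    · exact Subgroup.mem_centralizer_singleton_iff.2 P.lj.symm
  have hu : t * x * t⁻¹ * x⁻¹ ∈ Subgroup.closure ({i, j} : Set G) := mul_mem (ht x hx) (inv_mem hx)
  rcases q8_sq P (hEQ hu) (Subgroup.mem_centralizer_singleton_iff.1 (hEk hu))
    (Subgroup.mem_centralizer_singleton_iff.1 (hEl hu)) (c.sq_comm B (hEQ hx)) with h | h
  · rw [mul_inv_eq_one, mul_inv_eq_iff_eq_mul] at h
    exact h
  · exact absurd h (c.ne_p B x)

/-- `t` does not normalise both `⟨i, j⟩` and `⟨k, l⟩` -/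
theorem no_good_plus {PP : Set G} {QQ : G → Subgroup G} [Finite G] (B : Base PP QQ) {p t : G}
    (c : _root_.Cfsg.Agent.LargeExtra.WCIrr.Good PP p t) (P : Plus (QQ p) p i j k l)
    (h1 : ∀ x ∈ Subgroup.closure ({i, j} : Set G), t * x * t⁻¹ ∈ Subgroup.closure ({i, j} : Set G))
    (h2 : ∀ x ∈ Subgroup.closure ({k, l} : Set G), t * x * t⁻¹ ∈ Subgroup.closure ({k, l} : Set G)) : False := by
  have hi : t * i = i * t := comm_of_closure B c P h1 (Subgroup.subset_closure (by simp))
  have hj : t * j = j * t := comm_of_closure B c P h1 (Subgroup.subset_closure (by simp))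
  have hk : t * k = k * t := comm_of_closure B c (plus_swap P) h2 (Subgroup.subset_closure (by simp))
  have hl : t * l = l * t := comm_of_closure B c (plus_swap P) h2 (Subgroup.subset_closure (by simp))
  have hQC : QQ p ≤ Subgroup.centralizer ({t} : Set G) := by
    rw [P.gen, Subgroup.closure_le]
    rintro y (rfl | rfl | rfl | rfl)
    · exact Subgroup.mem_centralizer_singleton_iff.2 hi.symm
    · exact Subgroup.mem_centralizer_singleton_iff.2 hj.symm
    · exact Subgroup.mem_centralizer_singleton_iff.2 hk.symm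
    · exact Subgroup.mem_centralizer_singleton_iff.2 hl.symm
  apply WCIrr.Com.notMem B c.toCom
  refine (B.large p c.hp).self t c.com.symm fun y hy => ?_
  exact (Subgroup.mem_centralizer_singleton_iff.1 (hQC hy)).symm

end plus

end Cfsg.Agent.WCLarge
end

-- part: WCLarge/TwoSimple
section
/-!
# S1760, `|Q| = 32`, `G` simple: `PSU₄(2)` or `PSL₄(3)`
-/

set_option autoImplicit false

namespace Cfsg.Agent.WCLarge

open Cfsg.Agent.Co2Type.Quad Cfsg.Agent.LargeExtra.WC Cfsg.Agent.LargeExtra.Base Cfsg.Agent.LargeExtra.WCIrr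
open Cfsg.Agent.LargeExtra Cfsg.Agent.LargeExtra.W2

section

variable {G : Type*} [Group G] {Q : Subgroup G} {z i j k l : G}

theorem norm_closure [Finite G] {S T : Set G} (h : ∀ s ∈ S, ∀ x ∈ T, s * x * s⁻¹ ∈ Subgroup.closure T) {t : G}
    (ht : t ∈ Subgroup.closure S) {x : G} (hx : x ∈ Subgroup.closure T) : t * x * t⁻¹ ∈ Subgroup.closure T := by
  have h1 : Subgroup.closure S ≤ Subgroup.normalizer ((Subgroup.closure T : Subgroup G) : Set G) := by
    rw [Subgroup.closure_le]
    intro s hs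
    apply Subgroup.mem_normalizer_fintype
    intro n hn
    have h2 : Subgroup.closure T ≤ (Subgroup.closure T).comap (MulAut.conj s).toMonoidHom := by
      rw [Subgroup.closure_le]
      intro x hx
      exact h s hs x hx
    exact h2 hn
  exact (h1 ht x).1 hx

/-- a good pair at `z` from the weak closure -/
theorem exists_good [Finite G] (h : Large Q z) (h8 : 8 < Nat.card Q)
    (hwc : ∀ g : G, g * z * g⁻¹ ∈ Q → g * z * g⁻¹ = z)
    (hex : ∃ g : G, g * z * g⁻¹ ≠ z ∧ z * (g * z * g⁻¹) = g * z * g⁻¹ * z) :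
    ∃ s, _root_.Cfsg.Agent.LargeExtra.WCIrr.Good (cls z) z s := by
  have B := WCIrr.base h hwc
  obtain ⟨g, hg1, hg2⟩ := hex
  have hz : z ∈ cls z := ⟨1, by group⟩
  have c : Com (cls z) z (g * z * g⁻¹) := ⟨hz, ⟨g, rfl⟩, Ne.symm hg1, hg2⟩
  refine exists_good_free B ?_ c
  intro p hp
  rw [B.card_eq hp hz, QQ_self h]
  exact h8

/-- all elements of `C_G(z)` normalise `⟨i, j⟩` and `⟨k, l⟩`: no good pair -/
theorem plus_false [Finite G] (P : Plus Q z i j k l)
    (hwc : ∀ g : G, g * z * g⁻¹ ∈ Q → g * z * g⁻¹ = z)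
    (hex : ∃ g : G, g * z * g⁻¹ ≠ z ∧ z * (g * z * g⁻¹) = g * z * g⁻¹ * z) {S : Set G}
    (hS : Subgroup.centralizer ({z} : Set G) = Subgroup.closure S)
    (h1 : ∀ s ∈ S, s * i * s⁻¹ ∈ Subgroup.closure ({i, j} : Set G) ∧ s * j * s⁻¹ ∈ Subgroup.closure ({i, j} : Set G))
    (h2 : ∀ s ∈ S, s * k * s⁻¹ ∈ Subgroup.closure ({k, l} : Set G) ∧ s * l * s⁻¹ ∈ Subgroup.closure ({k, l} : Set G)) :
    False := by
  have h := P.large
  obtain ⟨s, c⟩ := exists_good h (by rw [P.card]; norm_num) hwc hex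
  have B := WCIrr.base h hwc
  have P' : Plus (QQ Q z z) z i j k l := by rw [QQ_self h]; exact P
  have hs : s ∈ Subgroup.closure S := by
    rw [← hS]
    exact Subgroup.mem_centralizer_singleton_iff.2 c.com.symm
  refine no_good_plus B c P' (fun x hx => norm_closure ?_ hs hx) (fun x hx => norm_closure ?_ hs hx)
  · rintro s hs x (rfl | rfl)
    · exact (h1 s hs).1
    · exact (h1 s hs).2
  · rintro s hs x (rfl | rfl)
    · exact (h2 s hs).1
    · exact (h2 s hs).2

theorem caseF2_false [Finite G] {v y : G} (h : CaseF2 Q z i j k l v y)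
    (hwc : ∀ g : G, g * z * g⁻¹ ∈ Q → g * z * g⁻¹ = z)
    (hex : ∃ g : G, g * z * g⁻¹ ≠ z ∧ z * (g * z * g⁻¹) = g * z * g⁻¹ * z) : False := by
  have mi : i ∈ Subgroup.closure ({i, j} : Set G) := Subgroup.subset_closure (by simp)
  have mj : j ∈ Subgroup.closure ({i, j} : Set G) := Subgroup.subset_closure (by simp)
  have mk : k ∈ Subgroup.closure ({k, l} : Set G) := Subgroup.subset_closure (by simp)
  have ml : l ∈ Subgroup.closure ({k, l} : Set G) := Subgroup.subset_closure (by simp)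
  have mz : z ∈ Subgroup.closure ({i, j} : Set G) := by
    have := mul_mem mi mi
    rwa [h.ii] at this
  have mz' : z ∈ Subgroup.closure ({k, l} : Set G) := by
    have := mul_mem mk mk
    rwa [h.kk] at this
  refine plus_false h.toPlus hwc hex h.cent ?_ ?_
  · rintro s (rfl | rfl | rfl | rfl | rfl | rfl)
    · exact ⟨mul_mem (mul_mem mi mi) (inv_mem mi), mul_mem (mul_mem mi mj) (inv_mem mi)⟩
    · exact ⟨mul_mem (mul_mem mj mi) (inv_mem mj), mul_mem (mul_mem mj mj) (inv_mem mj)⟩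
    · rw [h.ki, h.kj, mul_inv_cancel_right, mul_inv_cancel_right]; exact ⟨mi, mj⟩
    · rw [h.li, h.lj, mul_inv_cancel_right, mul_inv_cancel_right]; exact ⟨mi, mj⟩
    · rw [h.v_act.i, h.v_act.j]; exact ⟨mj, mul_mem mi mj⟩
    · rw [h.y_act.i, h.y_act.j]; exact ⟨mul_mem mj mz, mul_mem mi mz⟩
  · rintro s (rfl | rfl | rfl | rfl | rfl | rfl)
    · rw [← h.ki, ← h.li, mul_inv_cancel_right, mul_inv_cancel_right]; exact ⟨mk, ml⟩
    · rw [← h.kj, ← h.lj, mul_inv_cancel_right, mul_inv_cancel_right]; exact ⟨mk, ml⟩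
    · exact ⟨mul_mem (mul_mem mk mk) (inv_mem mk), mul_mem (mul_mem mk ml) (inv_mem mk)⟩
    · exact ⟨mul_mem (mul_mem ml mk) (inv_mem ml), mul_mem (mul_mem ml ml) (inv_mem ml)⟩
    · rw [h.v_act.k, h.v_act.l]; exact ⟨ml, mul_mem mk ml⟩
    · rw [h.y_act.k, h.y_act.l]; exact ⟨mul_mem ml mz', mul_mem mk mz'⟩

theorem case9c_false [Finite G] {x₁ x₂ y : G} (h : Case9c Q z i j k l x₁ x₂ y)
    (hwc : ∀ g : G, g * z * g⁻¹ ∈ Q → g * z * g⁻¹ = z)
    (hex : ∃ g : G, g * z * g⁻¹ ≠ z ∧ z * (g * z * g⁻¹) = g * z * g⁻¹ * z) : False := by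
  have mi : i ∈ Subgroup.closure ({i, j} : Set G) := Subgroup.subset_closure (by simp)
  have mj : j ∈ Subgroup.closure ({i, j} : Set G) := Subgroup.subset_closure (by simp)
  have mk : k ∈ Subgroup.closure ({k, l} : Set G) := Subgroup.subset_closure (by simp)
  have ml : l ∈ Subgroup.closure ({k, l} : Set G) := Subgroup.subset_closure (by simp)
  have mz : z ∈ Subgroup.closure ({i, j} : Set G) := by
    have := mul_mem mi mi
    rwa [h.ii] at this
  have mz' : z ∈ Subgroup.closure ({k, l} : Set G) := by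
    have := mul_mem mk mk
    rwa [h.kk] at this
  refine plus_false h.toPlus hwc hex h.cent ?_ ?_
  · rintro s (rfl | rfl | rfl | rfl | rfl | rfl | rfl)
    · exact ⟨mul_mem (mul_mem mi mi) (inv_mem mi), mul_mem (mul_mem mi mj) (inv_mem mi)⟩
    · exact ⟨mul_mem (mul_mem mj mi) (inv_mem mj), mul_mem (mul_mem mj mj) (inv_mem mj)⟩
    · rw [h.ki, h.kj, mul_inv_cancel_right, mul_inv_cancel_right]; exact ⟨mi, mj⟩
    · rw [h.li, h.lj, mul_inv_cancel_right, mul_inv_cancel_right]; exact ⟨mi, mj⟩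
    · rw [h.x₁_act.i, h.x₁_act.j]; exact ⟨mj, mul_mem mi mj⟩
    · rw [h.x₂_act.i, h.x₂_act.j]; exact ⟨mi, mj⟩
    · rw [h.y_act.i, h.y_act.j]; exact ⟨mul_mem mj mz, mul_mem mi mz⟩
  · rintro s (rfl | rfl | rfl | rfl | rfl | rfl | rfl)
    · rw [← h.ki, ← h.li, mul_inv_cancel_right, mul_inv_cancel_right]; exact ⟨mk, ml⟩
    · rw [← h.kj, ← h.lj, mul_inv_cancel_right, mul_inv_cancel_right]; exact ⟨mk, ml⟩
    · exact ⟨mul_mem (mul_mem mk mk) (inv_mem mk), mul_mem (mul_mem mk ml) (inv_mem mk)⟩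
    · exact ⟨mul_mem (mul_mem ml mk) (inv_mem ml), mul_mem (mul_mem ml ml) (inv_mem ml)⟩
    · rw [h.x₁_act.k, h.x₁_act.l]; exact ⟨mk, ml⟩
    · rw [h.x₂_act.k, h.x₂_act.l]; exact ⟨ml, mul_mem mk ml⟩
    · rw [h.y_act.k, h.y_act.l]; exact ⟨mul_mem ml mz', mul_mem mk mz'⟩

/-- type `-`: no good pair -/
theorem minus_false [Finite G] (M : Minus Q z i j k l)
    (hwc : ∀ g : G, g * z * g⁻¹ ∈ Q → g * z * g⁻¹ = z)
    (hex : ∃ g : G, g * z * g⁻¹ ≠ z ∧ z * (g * z * g⁻¹) = g * z * g⁻¹ * z) : False := by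
  have h := M.large
  obtain ⟨s, c⟩ := exists_good h (by rw [M.card]; norm_num) hwc hex
  have B := WCIrr.base h hwc
  have M' : Minus (QQ Q z z) z i j k l := by rw [QQ_self h]; exact M
  obtain ⟨a, ha, b, hb, ha0, hb0, hab⟩ := exists_pair_W B c
  rcases minus_no_pair (B.large z c.hp) M' (c.q_W B ha) (c.q_W B hb)
    ((WCIrr.Com.T_inv B c.toCom).isotropic ha hb) with h1 | h1 | h1
  · exact ha0 h1
  · exact hb0 h1
  · exact hab h1

end

/-- the case `F1` is not weakly closed -/
theorem caseF1_false {G : Type*} [Group G] [Finite G] [IsSimpleGroup G] (hnc : ¬ IsMulCommutative G)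
    {Q : Subgroup G} {z i j k l w s : G} (h : CaseF1 Q z i j k l w s)
    (hwc : ∀ g : G, g * z * g⁻¹ ∈ Q → g * z * g⁻¹ = z) : False := by
  have h1 := AltType.f1_of_caseF1 h (AltTypeConv.y_sq h)
  have mi := PlusHom.mem_i h.toPlus
  have mj := PlusHom.mem_j h.toPlus
  have mk := PlusHom.mem_k h.toPlus
  have ml := PlusHom.mem_l h.toPlus
  have mz : z ∈ Q := h.large.z_mem
  have ma : z * (i * k) ∈ Q := mul_mem mz (mul_mem mi mk)
  have mb : z * (i * (j * (k * l))) ∈ Q := mul_mem mz (mul_mem mi (mul_mem mj (mul_mem mk ml)))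
  have key : ∀ x ∈ Q, AltType.Fus z x → x = z := by
    rintro x hx ⟨g, hg⟩
    have h2 : g⁻¹ * z * g⁻¹⁻¹ = x := by rw [inv_inv, mul_assoc, hg, inv_mul_cancel_left]
    rw [← h2]
    exact hwc g⁻¹ (by rw [h2]; exact hx)
  have hz1 := h.large.z_ne
  revert h1 ma mb
  generalize z * (i * k) = a
  generalize z * (i * (j * (k * l))) = b
  generalize z * (j * (k * l)) = c
  generalize z * (i * l) = d
  intro h1 ma mb
  have haz : a ≠ z := by
    rintro rfl
    have h2 := h1.ad
    have h3 : a * (d * a) = a * (a * d) := by rw [h1.dz]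
    rw [h3, ← mul_assoc, h1.zz, one_mul] at h2
    exact hz1 (mul_eq_right.1 h2)
  have hbz : b ≠ z := by
    rintro rfl
    have h2 := h1.cb
    rw [h1.cz, ← mul_assoc, h1.zz, one_mul] at h2
    exact hz1 (mul_eq_right.1 h2)
  have habz : z * (a * b) ≠ z := by
    intro h2
    have h3 : a * b = 1 := mul_eq_left.1 h2
    have h4 : a = b := by
      rw [← inv_eq_of_mul_eq_one_left h1.bb]
      exact eq_inv_of_mul_eq_one_left h3
    have h5 := h1.cb
    rw [← h4, ← h1.ac] at h5
    exact hz1 (mul_eq_right.1 h5.symm)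
  rcases h1.caseI hnc with h2 | h2 | h2
  · exact haz (key _ ma h2)
  · exact hbz (key _ mb h2)
  · exact habz (key _ (mul_mem mz (mul_mem ma mb)) h2)

/-- **`|Q| = 32`, `G` simple.** -/
theorem two_simple {G : Type*} [Group G] [Finite G] [IsSimpleGroup G] (hnc : ¬ IsMulCommutative G) (z : G)
    (hz : orderOf z = 2)
    (hE : Cfsg.IsExtraspecial 2 ↥(Cfsg.generalizedFittingSubgroup ↥(Subgroup.centralizer ({z} : Set G))))
    (h32 : Nat.card ↥(Cfsg.generalizedFittingSubgroup ↥(Subgroup.centralizer ({z} : Set G))) = 32)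
    (hwc : ∀ g : G, g * z * g⁻¹ ∈ (Cfsg.generalizedFittingSubgroup ↥(Subgroup.centralizer ({z} : Set G))).map
      (Subgroup.centralizer ({z} : Set G)).subtype → g * z * g⁻¹ = z) :
    (∃ (F : Type) (_ : Field F) (_ : Fintype F), Fintype.card F = 4 ∧ Nonempty (G ≃* Cfsg.PSU 4 F 2)) ∨
      (∃ (F : Type) (_ : Field F) (_ : Fintype F), Fintype.card F = 3 ∧
        Nonempty (G ≃* Matrix.ProjectiveSpecialLinearGroup (Fin 4) F)) := by
  have hG : ∀ H : Subgroup G, H.index ≠ 2 := Simple.no_index_two hnc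
  have h := Base.large_of_genFitting z hz hE
  have hcard : Nat.card ((Cfsg.generalizedFittingSubgroup ↥(Subgroup.centralizer ({z} : Set G))).map
      (Subgroup.centralizer ({z} : Set G)).subtype) = 32 := by
    rw [Subgroup.card_map_of_injective (Subgroup.centralizer ({z} : Set G)).subtype_injective, h32]
  have hO : ∀ N : Subgroup G, (Cfsg.generalizedFittingSubgroup ↥(Subgroup.centralizer ({z} : Set G))).map
      (Subgroup.centralizer ({z} : Set G)).subtype ≤ N → N ≤ Subgroup.centralizer ({z} : Set G) →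
      (∀ c ∈ Subgroup.centralizer ({z} : Set G), ∀ n ∈ N, c * n * c⁻¹ ∈ N) → IsPGroup 2 N →
      N ≤ (Cfsg.generalizedFittingSubgroup ↥(Subgroup.centralizer ({z} : Set G))).map
      (Subgroup.centralizer ({z} : Set G)).subtype := fun N _ h1 h2 h3 => Simple.le_of_two z h1 h2 h3
  have hnc' : ∃ a b : G, a * b ≠ b * a := by
    by_contra hcon
    push Not at hcon
    exact hnc ⟨⟨hcon⟩⟩
  have hex := NonSimple.exists_commuting z hz hnc'
  revert h hcard hO hwc
  generalize (Cfsg.generalizedFittingSubgroup ↥(Subgroup.centralizer ({z} : Set G))).map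
      (Subgroup.centralizer ({z} : Set G)).subtype = Q
  intro hwc h hcard hO
  rcases exists_plus_or_minus h hcard with ⟨i, j, k, l, P⟩ | ⟨i, j, k, l, M⟩
  · rcases Cases.cases_plus hG P hO (OddDead.exists_outer hnc h hcard) with
      ⟨i, j, k, l, w, s, h1⟩ | ⟨i, j, k, l, v, y, h1⟩ | ⟨i, j, k, l, x₁, x₂, s, h1⟩ |
      ⟨i, j, k, l, x₁, x₂, y, h1⟩ | ⟨i, j, k, l, x₁, x₂, y, s, h1⟩ | ⟨i, j, k, l, x₁, x₂, f, h1, h2⟩
    · exact (caseF1_false hnc h1 hwc).elim
    · exact (caseF2_false h1 hwc hex).elim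
    · exact Or.inl (SmallExtra438.NineAGeo.recognize hnc h1)
    · exact (case9c_false h1 hwc hex).elim
    · exact Or.inr (LFour.Main.recognize _ _ _ _ _ _ _ _ _ _ h1 hwc)
    · exact (CType.case94 hnc h1 h2).elim
  · exact (minus_false M hwc hex).elim

end Cfsg.Agent.WCLarge
end

-- part: WCLarge/NotR
section
/-!
# Type `R` does not occur: `Four.not_isR`
-/

set_option autoImplicit false

namespace Cfsg.Agent.WCLarge.NotR

open Cfsg.Agent.Fischer480.Defs Cfsg.Agent.Omega.Exit.Types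

/-- a nonzero vector orthogonal to `k < n` vectors -/
theorem exists_perp {n : ℕ} (B : LinearMap.BilinForm (ZMod 3) (Fin n → ZMod 3)) {k : ℕ} (hk : k < n)
    (u : Fin k → Fin n → ZMod 3) : ∃ w : Fin n → ZMod 3, w ≠ 0 ∧ ∀ i, B w (u i) = 0 := by
  let L : (Fin n → ZMod 3) →ₗ[ZMod 3] (Fin k → ZMod 3) := LinearMap.pi fun i => B.flip (u i)
  have h1 : LinearMap.ker L ≠ ⊥ := by
    apply LinearMap.ker_ne_bot_of_finrank_lt
    simpa only [_root_.Module.finrank_fintype_fun_eq_card, _root_.Fintype.card_fin] using hk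
  obtain ⟨w, hw, hw0⟩ := (Submodule.ne_bot_iff _).1 h1
  refine ⟨w, hw0, fun i => ?_⟩
  exact congrFun (LinearMap.mem_ker.1 hw) i

/-- a singular nonzero vector orthogonal to three vectors, dimension at least six -/
theorem exists_singular {n : ℕ} (hn : 6 ≤ n) (B : LinearMap.BilinForm (ZMod 3) (Fin n → ZMod 3))
    (hs : B.IsSymm) (x y a : Fin n → ZMod 3) :
    ∃ w : Fin n → ZMod 3, w ≠ 0 ∧ B w w = 0 ∧ B w x = 0 ∧ B w y = 0 ∧ B w a = 0 := by
  have hsymm : ∀ u v, B u v = B v u := fun u v => by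
    have := hs.eq u v
    simpa using this
  obtain ⟨w1, h10, h1⟩ := exists_perp B (k := 3) (by omega) ![x, y, a]
  obtain ⟨w2, h20, h2⟩ := exists_perp B (k := 4) (by omega) ![x, y, a, w1]
  obtain ⟨w3, h30, h3⟩ := exists_perp B (k := 5) (by omega) ![x, y, a, w1, w2]
  have x1 : B w1 x = 0 := h1 0
  have y1 : B w1 y = 0 := h1 1
  have a1 : B w1 a = 0 := h1 2
  have x2 : B w2 x = 0 := h2 0
  have y2 : B w2 y = 0 := h2 1
  have a2 : B w2 a = 0 := h2 2
  have w21 : B w2 w1 = 0 := h2 3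
  have x3 : B w3 x = 0 := h3 0
  have y3 : B w3 y = 0 := h3 1
  have a3 : B w3 a = 0 := h3 2
  have w31 : B w3 w1 = 0 := h3 3
  have w32 : B w3 w2 = 0 := h3 4
  have w12 : B w1 w2 = 0 := by rw [hsymm]; exact w21
  have w13 : B w1 w3 = 0 := by rw [hsymm]; exact w31
  have w23 : B w2 w3 = 0 := by rw [hsymm]; exact w32
  by_cases c1 : B w1 w1 = 0
  · exact ⟨w1, h10, c1, x1, y1, a1⟩
  by_cases c2 : B w2 w2 = 0
  · exact ⟨w2, h20, c2, x2, y2, a2⟩
  by_cases c3 : B w3 w3 = 0
  · exact ⟨w3, h30, c3, x3, y3, a3⟩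
  have t : ∀ p q r : ZMod 3, p ≠ 0 → q ≠ 0 → r ≠ 0 → p + q = 0 ∨ p + q + r = 0 ∨ p + r = 0 := by decide
  rcases t _ _ _ c1 c2 c3 with h | h | h
  · refine ⟨w1 + w2, ?_, ?_, ?_, ?_, ?_⟩
    · intro h0
      apply c1
      have : B w1 (w1 + w2) = 0 := by rw [h0, map_zero]
      rwa [map_add, w12, add_zero] at this
    · simp only [map_add, LinearMap.add_apply, w12, w21, add_zero, zero_add]; exact h
    · simp only [map_add, LinearMap.add_apply, x1, x2, add_zero]
    · simp only [map_add, LinearMap.add_apply, y1, y2, add_zero]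
    · simp only [map_add, LinearMap.add_apply, a1, a2, add_zero]
  · refine ⟨w1 + w2 + w3, ?_, ?_, ?_, ?_, ?_⟩
    · intro h0
      apply c1
      have : B w1 (w1 + w2 + w3) = 0 := by rw [h0, map_zero]
      rwa [map_add, map_add, w12, w13, add_zero, add_zero] at this
    · simp only [map_add, LinearMap.add_apply, w12, w21, w13, w31, w23, w32, add_zero, zero_add]
      exact h
    · simp only [map_add, LinearMap.add_apply, x1, x2, x3, add_zero]
    · simp only [map_add, LinearMap.add_apply, y1, y2, y3, add_zero]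
    · simp only [map_add, LinearMap.add_apply, a1, a2, a3, add_zero]
  · refine ⟨w1 + w3, ?_, ?_, ?_, ?_, ?_⟩
    · intro h0
      apply c1
      have : B w1 (w1 + w3) = 0 := by rw [h0, map_zero]
      rwa [map_add, w13, add_zero] at this
    · simp only [map_add, LinearMap.add_apply, w13, w31, add_zero, zero_add]; exact h
    · simp only [map_add, LinearMap.add_apply, x1, x3, add_zero]
    · simp only [map_add, LinearMap.add_apply, y1, y3, add_zero]
    · simp only [map_add, LinearMap.add_apply, a1, a3, add_zero]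

/-- type `R` -/
theorem not_isR {G : Type*} [Group G] {D : Set G} {x y a b : G} (H : Four D x y a b) {n : ℕ} (hn : 6 ≤ n) :
    ¬ IsR n D := by
  rintro ⟨B, f, hs, hnd, h1, hcomm, hinj, hsurj⟩
  have hsymm : ∀ u v, B u v = B v u := fun u v => by
    have := hs.eq u v
    simpa using this
  have bxy : B (f x) (f y) = 0 := ((hcomm x H.hx y H.hy).1 H.cxy).resolve_left H.xy
  have bxa : B (f x) (f a) = 0 := ((hcomm x H.hx a H.ha).1 H.cxa).resolve_left H.xa
  have bya : B (f y) (f a) = 0 := ((hcomm y H.hy a H.ha).1 H.cya).resolve_left H.ya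
  have bax : B (f a) (f x) = 0 := by rw [hsymm]; exact bxa
  have bay : B (f a) (f y) = 0 := by rw [hsymm]; exact bya
  obtain ⟨w, hw0, hww, hwx, hwy, hwa⟩ := exists_singular hn B hs (f x) (f y) (f a)
  have haw : B (f a) w = 0 := by rw [hsymm]; exact hwa
  have hv : B (f a + w) (f a + w) = 1 := by
    simp only [map_add, LinearMap.add_apply, hww, hwa, haw, add_zero, h1 a H.ha]
  obtain ⟨d, hd, hdv⟩ := hsurj _ hv
  have hv1 : B (f a + w) (f x) = 0 := by
    rw [map_add, LinearMap.add_apply, bax, hwx, add_zero]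
  have hv2 : B (f a + w) (f y) = 0 := by
    rw [map_add, LinearMap.add_apply, bay, hwy, add_zero]
  have hv3 : B (f a + w) (f a) = 1 := by
    rw [map_add, LinearMap.add_apply, h1 a H.ha, hwa, add_zero]
  have key : ∀ u, B (f a + w) u = 0 → B (f d) u = 0 := by
    intro u hu
    rcases hdv with h | h
    · rw [← h]; exact hu
    · rw [h, map_neg, LinearMap.neg_apply, neg_eq_zero] at hu
      exact hu
  have hdx : Commute d x := (hcomm d hd x H.hx).2 (Or.inr (key _ hv1))
  have hdy : Commute d y := (hcomm d hd y H.hy).2 (Or.inr (key _ hv2))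
  have hda := H.da d hd hdx hdy
  rcases (hcomm d hd a H.ha).1 hda with h2 | h2
  · subst h2
    rcases hdv with h | h
    · exact hw0 (by simpa using h)
    · have h3 : B (f d + w) (f d) = -1 := by
        rw [h, map_neg, LinearMap.neg_apply, h1 d hd]
      rw [hv3] at h3
      exact absurd h3 (by decide)
  · rcases hdv with h | h
    · rw [h] at hv3
      rw [h2] at hv3
      exact absurd hv3 (by decide)
    · rw [h, map_neg, LinearMap.neg_apply, h2] at hv3
      exact absurd hv3 (by decide)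

end Cfsg.Agent.WCLarge.NotR
end

-- part: LargeExtra/WCFinal
section
/-!
# S1762, case I: `z` weakly closed in `Q`, `|Q| = 2 ^ 7`, `G` simple ⇒ `G ≃* PSU 5 F 2` (helper888, helper622)
-/

set_option autoImplicit false

namespace Cfsg.Agent.LargeExtra.WC

open Cfsg.Agent.Co2Type.Quad

theorem psu5_of_weaklyClosed {G : Type*} [Group G] [Finite G] [IsSimpleGroup G]
    (hG : ¬ IsMulCommutative G) {Q₀ : Subgroup G} {z : G} (h : Large Q₀ z)
    (hcard : Nat.card Q₀ = 2 ^ 7) (hwc : ∀ g : G, g * z * g⁻¹ ∈ Q₀ → g * z * g⁻¹ = z) :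
    ∃ (F : Type) (_ : Field F) (_ : Fintype F), Fintype.card F = 4 ∧ Nonempty (G ≃* Cfsg.PSU 5 F 2) :=
  WCEnd.psu5_of_geom hG (geom_of_large h hcard hwc) (z := z) ⟨1, by group⟩
    (by rw [Qfam_self h]; exact hcard)

end Cfsg.Agent.LargeExtra.WC
end

-- part: WCLarge/Main
section
/-!
# S1760: the assembly
-/

set_option autoImplicit false

namespace Cfsg.Agent.WCLarge

open Cfsg.Agent.Co2Type.Quad Cfsg.Agent.LargeExtra Cfsg.Agent.LargeExtra.WC Cfsg.Agent.LargeExtra.Base
  Cfsg.Agent.LargeExtra.WCIrr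

universe u

/-- the conclusion -/
def Concl (L : Type*) [Group L] : Prop :=
  (∃ (F : Type) (_ : Field F) (_ : Fintype F), Fintype.card F = 4 ∧ ∃ m : ℕ, 4 ≤ m ∧ Nonempty (L ≃* Cfsg.PSU m F 2)) ∨
    Cfsg.Spor.IsoCo2 L ∨
    (∃ (F : Type) (_ : Field F) (_ : Fintype F), Fintype.card F = 3 ∧
      Nonempty (L ≃* Matrix.ProjectiveSpecialLinearGroup (Fin 4) F))

/-- `G` simple, `|Q| ≥ 2¹¹` -/
theorem psu_of_wide {G : Type u} [Group G] [Finite G] [IsSimpleGroup G] (hG : ¬ IsMulCommutative G)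
    {Q : Subgroup G} {z : G} (h : Large Q z)
    (hQ : 2 ^ 11 ≤ Nat.card Q) (hwc : ∀ g : G, g * z * g⁻¹ ∈ Q → g * z * g⁻¹ = z) : Concl G := by
  have hnc : ∃ a b : G, a * b ≠ b * a := by
    by_contra hcon
    push Not at hcon
    exact hG ⟨⟨hcon⟩⟩
  have hR : Cfsg.Agent.LargeExtra.WCIrr.NoRefl Q z :=
    Cfsg.Agent.LargeExtra.WCIrr.noRefl_of_index h (by omega) (fun H => Cfsg.Agent.LargeExtra.WCIrr.index_ne_two hnc H)
  have hz : z ∈ Cfsg.Agent.LargeExtra.WCIrr.cls z := ⟨1, by group⟩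
  have hg := (Cfsg.Agent.LargeExtra.WCIrr.allN_of_wc h hQ hwc hR).geoN
  obtain ⟨x, y, a, b, H⟩ := Cfsg.Agent.Omega.Exit.Types.exists_four hG hg hz
  have hF := Cfsg.Agent.Fischer480.AllPieces.fgroup hnc (hg.isThree hG hz)
  have R := Cfsg.Agent.Fischer891.Cases.rk_of_fgroup hF
  rcases Cfsg.Agent.Fischer480.AllPieces.inList hF with
    ⟨n, hn, h⟩ | ⟨n, hn, h⟩ | ⟨n, hn, h⟩ | ⟨n, hn, hU⟩ | ⟨n, hn, h⟩ | h | h | h
  · exact (Cfsg.Agent.Fischer891.FinalSym.not_simple_of_isSym R hn h).elim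
  · exact (H.not_isSp h).elim
  · exact (Cfsg.Agent.Fischer891.FinalO.not_simple_of_isO R hn h).elim
  · obtain ⟨F, i1, i2, f, U⟩ := Cfsg.Agent.S0480U.UModel.exists_um hU
    have hFD := Cfsg.Agent.SporadicStructure.FischerSpace.fdata_of_class hF.cls
    have hfin := U.fin
    obtain ⟨e, -⟩ := Cfsg.Agent.Fischer920.PsuEnd.exists_equiv_psu hFD
      (Cfsg.Agent.Fischer919.OmegaMain.center_eq_bot hnc)
      (Cfsg.Agent.Fischer919.FinalU.hyp_of_um U hn hFD) U.card U.herm U.dim hn f U.ne U.iso U.comm U.inj U.surj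
    exact Or.inl ⟨F, i1, i2, U.card, n, hn, ⟨e⟩⟩
  · exact (NotR.not_isR H hn h).elim
  · exact (H.not_isT6 h).elim
  · exact (H.not_isT7 h).elim
  · exact (Cfsg.Agent.Fischer545.TEight.not_simple (hg.isThree hG hz) h inferInstance).elim

/-- **`G` simple** -/
theorem simple_case {G : Type u} [Group G] [Finite G] [IsSimpleGroup G] (hnc : ¬ IsMulCommutative G) (z : G)
    (hz : orderOf z = 2)
    (hE : Cfsg.IsExtraspecial 2 ↥(Cfsg.generalizedFittingSubgroup ↥(Subgroup.centralizer ({z} : Set G))))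
    (h32 : 32 ≤ Nat.card ↥(Cfsg.generalizedFittingSubgroup ↥(Subgroup.centralizer ({z} : Set G))))
    (hwc : ∀ g : G, g * z * g⁻¹ ∈ (Cfsg.generalizedFittingSubgroup ↥(Subgroup.centralizer ({z} : Set G))).map
      (Subgroup.centralizer ({z} : Set G)).subtype → g * z * g⁻¹ = z) : Concl G := by
  have : Fact (Nat.Prime 2) := ⟨Nat.prime_two⟩
  have h := Base.large_of_genFitting z hz hE
  obtain ⟨n, -, hn⟩ := Cfsg.Agent.S0095.result hE
  have hcard : Nat.card ((Cfsg.generalizedFittingSubgroup ↥(Subgroup.centralizer ({z} : Set G))).map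
      (Subgroup.centralizer ({z} : Set G)).subtype) = 2 ^ (2 * n + 1) := by
    rw [Subgroup.card_map_of_injective (Subgroup.centralizer ({z} : Set G)).subtype_injective, hn]
  rw [hn] at h32
  have h5 : 5 ≤ 2 * n + 1 := by
    have h6 : 2 ^ 5 ≤ 2 ^ (2 * n + 1) := h32
    exact (Nat.pow_le_pow_iff_right (by norm_num)).1 h6
  rcases (by omega : n = 2 ∨ n = 3 ∨ n = 4 ∨ 5 ≤ n) with h2 | h2 | h2 | h2
  · subst h2
    rcases two_simple hnc z hz hE (by rw [hn]; norm_num) hwc with ⟨F, i1, i2, hF, he⟩ | h3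
    · exact Or.inl ⟨F, i1, i2, hF, 4, le_rfl, he⟩
    · exact Or.inr (Or.inr h3)
  · subst h2
    obtain ⟨F, i1, i2, hF, he⟩ := psu5_of_weaklyClosed hnc h hcard hwc
    exact Or.inl ⟨F, i1, i2, hF, 5, by norm_num, he⟩
  · subst h2
    rcases Cfsg.Agent.LargeExtra.Nine.CaseOneMain.caseOne hnc z hz hE hn hwc Cfsg.Agent.S1675.result with
      ⟨F, i1, i2, hF, he⟩ | h3
    · exact Or.inl ⟨F, i1, i2, hF, 6, by norm_num, he⟩
    · exact Or.inr (Or.inl h3)
  · refine psu_of_wide hnc h ?_ hwc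
    rw [hcard]
    exact Nat.pow_le_pow_right (by norm_num) (by omega)

/-- the setting of the reduction -/
theorem setup_of {G : Type u} [Group G] [Finite G] (hO : Cfsg.oddCore G = ⊥) (z : G) (hz : orderOf z = 2)
    (hE : Cfsg.IsExtraspecial 2 ↥(Cfsg.generalizedFittingSubgroup ↥(Subgroup.centralizer ({z} : Set G))))
    (hcen : z ∉ Subgroup.center G)
    (hwc : ∀ g : G, g * z * g⁻¹ ∈ (Cfsg.generalizedFittingSubgroup ↥(Subgroup.centralizer ({z} : Set G))).map
      (Subgroup.centralizer ({z} : Set G)).subtype → g * z * g⁻¹ = z) :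
    Reduce.Setup ((Cfsg.generalizedFittingSubgroup ↥(Subgroup.centralizer ({z} : Set G))).map
      (Subgroup.centralizer ({z} : Set G)).subtype) z where
  large := Base.large_of_genFitting z hz hE
  core := by
    intro N hN hnorm h2
    have hNC : N ≤ Subgroup.centralizer ({z} : Set G) := fun n hn =>
      Subgroup.mem_centralizer_singleton_iff.2 (hN n hn)
    have h3 : (N.subgroupOf (Subgroup.centralizer ({z} : Set G))).Normal :=
      ⟨fun n hn c => hnorm c (Subgroup.mem_centralizer_singleton_iff.1 c.2) n hn⟩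
    have h4 : IsPGroup 2 (N.subgroupOf (Subgroup.centralizer ({z} : Set G))) :=
      h2.of_equiv (Subgroup.subgroupOfEquivOfLe hNC).symm
    have h5 := TwoCentral.le_of_normal_two h3 h4
    intro n hn
    exact ⟨⟨n, hNC hn⟩, h5 hn, rfl⟩
  wc := hwc
  odd := by
    intro N hN hodd
    have h1 : N ≤ Cfsg.oddCore G := Cfsg.Agent.Lib.Cores.le_pPrimeCore hN hodd.coprime_two_right
    rw [hO] at h1
    exact le_bot_iff.1 h1
  ncen := by
    by_contra hcon
    push Not at hcon
    apply hcen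
    rw [Subgroup.mem_center_iff]
    intro g
    have h1 := hcon g
    rw [mul_inv_eq_iff_eq_mul] at h1
    exact h1

/-- transfer to a normal subgroup containing `Q` -/
theorem transfer {G : Type u} [Group G] [Finite G] (z : G) (hz : orderOf z = 2)
    (hE : Cfsg.IsExtraspecial 2 ↥(Cfsg.generalizedFittingSubgroup ↥(Subgroup.centralizer ({z} : Set G))))
    (h32 : 32 ≤ Nat.card ↥(Cfsg.generalizedFittingSubgroup ↥(Subgroup.centralizer ({z} : Set G))))
    (hwc : ∀ g : G, g * z * g⁻¹ ∈ (Cfsg.generalizedFittingSubgroup ↥(Subgroup.centralizer ({z} : Set G))).map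
      (Subgroup.centralizer ({z} : Set G)).subtype → g * z * g⁻¹ = z)
    (L : Subgroup G) (hn : L.Normal) (hs : IsSimpleGroup L) (hna : ¬ IsMulCommutative L) (hzL : z ∈ L)
    (hle : (Cfsg.generalizedFittingSubgroup ↥(Subgroup.centralizer ({z} : Set G))).map
      (Subgroup.centralizer ({z} : Set G)).subtype ≤ L) : Concl L := by
  obtain ⟨f⟩ := W2.NonSimple.fstar_equiv L hn z hzL
  have hinf : (Cfsg.generalizedFittingSubgroup ↥(Subgroup.centralizer ({z} : Set G))).map
    (Subgroup.centralizer ({z} : Set G)).subtype ⊓ L =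
      (Cfsg.generalizedFittingSubgroup ↥(Subgroup.centralizer ({z} : Set G))).map
    (Subgroup.centralizer ({z} : Set G)).subtype := inf_eq_left.2 hle
  have f2 : ↥(Cfsg.generalizedFittingSubgroup ↥(Subgroup.centralizer ({z} : Set G))) ≃*
      ↥(Cfsg.generalizedFittingSubgroup ↥(Subgroup.centralizer ({(⟨z, hzL⟩ : L)} : Set L))) :=
    (Subgroup.equivMapOfInjective _ _ (Subgroup.subtype_injective _)).trans
      ((MulEquiv.subgroupCongr hinf.symm).trans f.symm)
  refine simple_case hna (⟨z, hzL⟩ : L) ?_ (Cfsg.Agent.J2.ExtQuot.isExtraspecial_of_equiv f2 hE) ?_ ?_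
  · rw [← Subgroup.orderOf_coe]; exact hz
  · rw [← Nat.card_congr f2.toEquiv]; exact h32
  · intro g hg
    apply Subtype.ext
    apply hwc (g : G)
    have h1 : ((g * ⟨z, hzL⟩ * g⁻¹ : L) : G) ∈ ((Cfsg.generalizedFittingSubgroup
        ↥(Subgroup.centralizer ({(⟨z, hzL⟩ : L)} : Set L))).map
      (Subgroup.centralizer ({(⟨z, hzL⟩ : L)} : Set L)).subtype).map L.subtype := ⟨_, hg, rfl⟩
    rw [W2.NonSimple.fstar_inf L hn z hzL] at h1
    exact h1.1

/-- `Q ≤ L` -/
theorem le_L {G : Type u} [Group G] [Finite G] {Q : Subgroup G} {z : G} (S : Reduce.Setup Q z)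
    (L : Subgroup G) (hn : L.Normal) (hs : IsSimpleGroup L) (hna : ¬ IsMulCommutative L) (hzL : z ∈ L)
    (hex : ∃ g : G, g * z * g⁻¹ ≠ z ∧ z * (g * z * g⁻¹) = g * z * g⁻¹ * z)
    (h128 : 128 ≤ Nat.card Q) : Q ≤ L := by
  have h := S.large
  have hO : ∀ N : Subgroup (Subgroup.centralizer ({z} : Set G)), N.Normal → IsPGroup 2 N →
      ∀ x ∈ N, (x : G) ∈ Q := by
    intro N hN h2 x hx
    refine S.core (N.map (Subgroup.centralizer ({z} : Set G)).subtype) ?_ ?_ (h2.map _) ⟨x, hx, rfl⟩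
    · rintro _ ⟨y, -, rfl⟩
      exact Subgroup.mem_centralizer_singleton_iff.1 y.2
    · rintro c hc _ ⟨y, hy, rfl⟩
      exact ⟨_, hN.conj_mem y hy ⟨c, Subgroup.mem_centralizer_singleton_iff.2 hc⟩, rfl⟩
  obtain ⟨g, hg1, hg2⟩ := hex
  rcases irreducible_free h h128 hO S.wc ⟨g, hg1, hg2.symm⟩ (A := Q ⊓ L) ⟨h.z_mem, hzL⟩ inf_le_left
    (fun c hc x hx => ⟨h.conj_mem c hc x hx.1, hn.conj_mem x hx.2 c⟩) with h1 | h1
  · exfalso
    apply hg1
    apply S.wc
    refine S.self_L L hn (hn.conj_mem z hzL g) hg2.symm fun q hq hqL => ?_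
    rcases h1 q ⟨hq, hqL⟩ with h2 | h2
    · rw [h2, mul_one, one_mul]
    · rw [h2]; exact hg2.symm
  · exact inf_eq_left.1 h1

/-- the case `Q ∩ L ≅ 4 ∘ Q₈` does not occur -/
theorem four_false {G : Type u} [Group G] [Finite G] {Q L : Subgroup G} {z : G} (h : Large Q z)
    (hc : Nat.card Q = 32) (hn : L.Normal) (hzL : z ∈ L)
    (hwc : ∀ g : G, g * z * g⁻¹ ∈ Q → g * z * g⁻¹ = z)
    (hex : ∃ g : G, g * z * g⁻¹ ≠ z ∧ z * (g * z * g⁻¹) = g * z * g⁻¹ * z) {e i j : G}
    (F : W2.NonSimple.Four Q L z e i j) : False := by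
  obtain ⟨t, c⟩ := exists_good h (by rw [hc]; norm_num) hwc hex
  have B := WCIrr.base h hwc
  have hcQ : Nat.card (QQ Q z z) = 32 := by rw [QQ_self h]; exact hc
  have htL : t ∈ L := by
    obtain ⟨g, rfl⟩ := c.ht
    exact hn.conj_mem z hzL g
  have hti : t⁻¹ * z = z * t⁻¹ := by
    rw [inv_mul_eq_iff_eq_mul, ← mul_assoc, ← c.com, mul_inv_cancel_right]
  -- conjugation by `t` on `Q ∩ L`
  have hcj : ∀ x, x ∈ Q → x ∈ L → t * x * t⁻¹ ∈ Q ∧ t * x * t⁻¹ ∈ L := fun x hx hxL =>
    ⟨h.conj_mem t c.com.symm x hx, hn.conj_mem x hxL t⟩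
  have hcj' : ∀ x, x ∈ Q → x ∈ L → t⁻¹ * x * t ∈ Q ∧ t⁻¹ * x * t ∈ L := fun x hx hxL => by
    have h1 := h.conj_mem t⁻¹ hti x hx
    have h2 := hn.conj_mem x hxL t⁻¹
    rw [inv_inv] at h1 h2
    exact ⟨h1, h2⟩
  have hw : ∀ r, r ∈ Q → r ∈ L → (t * e * t⁻¹) * r = r * (t * e * t⁻¹) := by
    intro r hr hrL
    have h1 := F.e_cent _ (hcj' r hr hrL).1 (hcj' r hr hrL).2
    calc (t * e * t⁻¹) * r = t * (e * (t⁻¹ * r * t)) * t⁻¹ := by group
      _ = t * ((t⁻¹ * r * t) * e) * t⁻¹ := by rw [h1]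
      _ = r * (t * e * t⁻¹) := by group
  have hez : z * (e * z) * z⁻¹ = z * e := by group
  have h1z : ∀ x, x = 1 ∨ x = z → t * e * t⁻¹ = x → False := by
    intro x hx h1
    have h2 : e = x := by
      have h3 : e = t⁻¹ * x * t := by rw [← h1]; group
      rcases hx with h4 | h4
      · rw [h3, h4]; group
      · rw [h3, h4, hti]; group
    have h3 := F.ee
    rw [h2] at h3
    rcases hx with h4 | h4
    · rw [h4, one_mul] at h3; exact h.z_ne h3.symm
    · rw [h4, h.z_sq] at h3; exact h.z_ne h3.symm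
  have key : t * e * t⁻¹ = e ∨ t * e * t⁻¹ = e * z := by
    rcases F.cent _ (hcj e F.eQ F.eL).1 (hcj e F.eQ F.eL).2 (hw i F.iQ F.iL) (hw j F.jQ F.jL) with
      h1 | h1 | h1 | h1
    · exact (h1z 1 (Or.inl rfl) h1).elim
    · exact (h1z z (Or.inr rfl) h1).elim
    · exact Or.inl h1
    · exact Or.inr h1
  have heQ : e ∈ QQ Q z z := by rw [QQ_self h]; exact F.eQ
  have h1 := sq_of_comm B c hcQ heQ key
  rw [F.ee] at h1
  exact h.z_ne h1

/-- **S1760**, with `z` not central and weakly closed. -/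
theorem main {G : Type u} [Group G] [Finite G] (hO : Cfsg.oddCore G = ⊥) (z : G) (hz : orderOf z = 2)
    (hE : Cfsg.IsExtraspecial 2 ↥(Cfsg.generalizedFittingSubgroup ↥(Subgroup.centralizer ({z} : Set G))))
    (h32 : 32 ≤ Nat.card ↥(Cfsg.generalizedFittingSubgroup ↥(Subgroup.centralizer ({z} : Set G))))
    (hcen : z ∉ Subgroup.center G)
    (hwc : ∀ g : G, g * z * g⁻¹ ∈ (Cfsg.generalizedFittingSubgroup ↥(Subgroup.centralizer ({z} : Set G))).map
      (Subgroup.centralizer ({z} : Set G)).subtype → g * z * g⁻¹ = z) :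
    Subgroup.normalClosure ({z} : Set G) = Cfsg.generalizedFittingSubgroup G ∧
      Concl ↥(Cfsg.generalizedFittingSubgroup G) := by
  have S := setup_of hO z hz hE hcen hwc
  obtain ⟨hs, hna, hc⟩ := S.simple
  have hn : (Subgroup.normalClosure ({z} : Set G)).Normal := Subgroup.normalClosure_normal
  have hF := Cfsg.Agent.FixBN.BTheorem.genFitting_eq hn hs hna hc
  refine ⟨hF.symm, ?_⟩
  rw [hF]
  have hzL : z ∈ Subgroup.normalClosure ({z} : Set G) := Subgroup.subset_normalClosure rfl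
  have hna' : ∃ a b : ↥(Subgroup.normalClosure ({z} : Set G)), a * b ≠ b * a := by
    by_contra hcon
    push Not at hcon
    exact hna ⟨⟨hcon⟩⟩
  have hex : ∃ g : G, g * z * g⁻¹ ≠ z ∧ z * (g * z * g⁻¹) = g * z * g⁻¹ * z := by
    obtain ⟨g, h1, h2⟩ := W2.NonSimple.exists_commuting (⟨z, hzL⟩ : ↥(Subgroup.normalClosure ({z} : Set G)))
      (by rw [← Subgroup.orderOf_coe]; exact hz) hna'
    exact ⟨g, fun h => h1 (Subtype.ext h), congrArg Subtype.val h2⟩
  apply transfer z hz hE h32 hwc _ hn hs hna hzL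
  have : Fact (Nat.Prime 2) := ⟨Nat.prime_two⟩
  obtain ⟨n, -, hcn⟩ := Cfsg.Agent.S0095.result hE
  have hcard : Nat.card ((Cfsg.generalizedFittingSubgroup ↥(Subgroup.centralizer ({z} : Set G))).map
      (Subgroup.centralizer ({z} : Set G)).subtype) = 2 ^ (2 * n + 1) := by
    rw [Subgroup.card_map_of_injective (Subgroup.centralizer ({z} : Set G)).subtype_injective, hcn]
  have h32' := h32
  rw [hcn] at h32'
  have h5 : 5 ≤ 2 * n + 1 := by
    have h6 : 2 ^ 5 ≤ 2 ^ (2 * n + 1) := h32'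
    exact (Nat.pow_le_pow_iff_right (by norm_num)).1 h6
  rcases (by omega : n = 2 ∨ 3 ≤ n) with h2 | h2
  · subst h2
    have H := W2.NonSimple.hyp_of z hz hE (by rw [hcn]; norm_num) _ hn hs hna
    rcases W2.NonSimple.main H with h3 | ⟨e, i, j, h3⟩
    · exact h3
    · exact (four_false S.large (by rw [hcard]; norm_num) hn hzL hwc hex h3).elim
  · refine le_L S _ hn hs hna hzL hex ?_
    rw [hcard]
    calc 128 = 2 ^ 7 := by norm_num
      _ ≤ 2 ^ (2 * n + 1) := Nat.pow_le_pow_right (by norm_num) (by omega)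

end Cfsg.Agent.WCLarge
end

-- part: S1760
section
set_option autoImplicit false
open Cfsg

namespace Cfsg.Agent.S1760

/-- Let G be a finite group with no nontrivial normal subgroup of odd order, and let z be an involution of G such that Q, the generalized Fitting subgroup of the centralizer C of z, is a 2-group of symplectic type (every characteristic abelian subgroup of Q is cyclic); suppose moreover that Q is extraspecial of order at least 32. Then one of the following holds: z is central in G; or some conjugate of z other than z lies in Q; or the normal closure of z in G equals the generalized Fitting subgroup of G and is isomorphic to a projective special unitary group of dimension at least 4 over the field with 4 elements, to the second Conway group, or to the projective special linear group of dimension 4 over the field with 3 elements. -/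
theorem result {G : Type*} [Group G] [Finite G] (hO : Cfsg.oddCore G = ⊥) (z : G) (hz : orderOf z = 2) (hQ : Cfsg.IsOfSymplecticType ↥(Cfsg.generalizedFittingSubgroup ↥(Subgroup.centralizer ({z} : Set G)))) (hE : Cfsg.IsExtraspecial 2 ↥(Cfsg.generalizedFittingSubgroup ↥(Subgroup.centralizer ({z} : Set G))))
    (h32 : 32 ≤ Nat.card ↥(Cfsg.generalizedFittingSubgroup ↥(Subgroup.centralizer ({z} : Set G)))) :
    z ∈ Subgroup.center G ∨
      (∃ g : G, g * z * g⁻¹ ≠ z ∧ g * z * g⁻¹ ∈ (Cfsg.generalizedFittingSubgroup ↥(Subgroup.centralizer ({z} : Set G))).map (Subgroup.centralizer ({z} : Set G)).subtype) ∨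
      (Subgroup.normalClosure ({z} : Set G) = Cfsg.generalizedFittingSubgroup G ∧
        ((∃ (F : Type) (_ : Field F) (_ : Fintype F), Fintype.card F = 4 ∧ ∃ m : ℕ, 4 ≤ m ∧ Nonempty (↥(Cfsg.generalizedFittingSubgroup G) ≃* Cfsg.PSU m F 2)) ∨
          Cfsg.Spor.IsoCo2 ↥(Cfsg.generalizedFittingSubgroup G) ∨
          (∃ (F : Type) (_ : Field F) (_ : Fintype F), Fintype.card F = 3 ∧ Nonempty (↥(Cfsg.generalizedFittingSubgroup G) ≃* Matrix.ProjectiveSpecialLinearGroup (Fin 4) F)))) := by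
  by_cases hcen : z ∈ Subgroup.center G
  · exact Or.inl hcen
  · right
    by_cases hwc : ∃ g : G, g * z * g⁻¹ ≠ z ∧ g * z * g⁻¹ ∈ (Cfsg.generalizedFittingSubgroup ↥(Subgroup.centralizer ({z} : Set G))).map (Subgroup.centralizer ({z} : Set G)).subtype
    · exact Or.inl hwc
    · right
      exact Cfsg.Agent.WCLarge.main hO z hz hE h32 hcen fun g hg => by
        by_contra hne
        exact hwc ⟨g, hne, hg⟩

end Cfsg.Agent.S1760
end
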