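import Cfsg.Statements.S1774
import Cfsg.Agent.ClassificationK.SymplecticExpFour
import Cfsg.Agent.ClassificationK.LargeSymplectic
import Cfsg.Agent.S1313
set_option linter.all false

set_option autoImplicit false
open Cfsg

namespace Cfsg.Agent.S1774

open Subgroup in
/-- `F*(C_G(z))` satisfies the elementwise hypotheses. -/
theorem data_of_symplectic {G : Type*} [Group G] [Finite G] (z : G) (hz : orderOf z = 2)
    (hQ : Cfsg.IsOfSymplecticType ↥(Cfsg.generalizedFittingSubgroup ↥(Subgroup.centralizer ({z} : Set G))))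
    (h4 : ∀ q ∈ (Cfsg.generalizedFittingSubgroup ↥(Subgroup.centralizer ({z} : Set G))).map (Subgroup.centralizer ({z} : Set G)).subtype, q ^ 4 = 1) :
    Cfsg.Agent.ClassificationK.LargeSymplectic.Data
      ((Cfsg.generalizedFittingSubgroup ↥(Subgroup.centralizer ({z} : Set G))).map (Subgroup.centralizer ({z} : Set G)).subtype) z := by
  have hn := Cfsg.Agent.S1755.gfs_normal ↥(Subgroup.centralizer ({z} : Set G))
  have hcen := Cfsg.Agent.S1755.center_le_gfs ↥(Subgroup.centralizer ({z} : Set G))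
  have hcc := Cfsg.Agent.S1313.centralizer_le ↥(Subgroup.centralizer ({z} : Set G))
  revert hQ h4 hn hcen hcc
  generalize Cfsg.generalizedFittingSubgroup ↥(Subgroup.centralizer ({z} : Set G)) = Q
  intro hQ h4 hn hcen hcc
  have hzC : z ∈ centralizer ({z} : Set G) := by rw [mem_centralizer_singleton_iff]
  have hzcen : (⟨z, hzC⟩ : centralizer ({z} : Set G)) ∈ center _ := by
    rw [mem_center_iff]
    rintro ⟨x, hx⟩
    rw [mem_centralizer_singleton_iff] at hx
    exact Subtype.ext hx
  have hzQ : (⟨z, hzC⟩ : centralizer ({z} : Set G)) ∈ Q := hcen hzcen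
  have hzQ2 : orderOf (⟨⟨z, hzC⟩, hzQ⟩ : Q) = 2 := by
    rw [orderOf_mk, orderOf_mk, hz]
  have hzQc : (⟨⟨z, hzC⟩, hzQ⟩ : Q) ∈ center Q := by
    rw [mem_center_iff]
    intro x
    exact Subtype.ext ((mem_center_iff.mp hzcen) x)
  obtain ⟨s1, s2, s3⟩ := Cfsg.Agent.ClassificationK.SymplecticExpFour.structure_exp_four hQ
    (fun q => by
      have := h4 (q : G) ⟨q, q.2, rfl⟩
      exact Subtype.ext (Subtype.ext this)) hzQ2 hzQc
  have hzz : z * z = 1 := by
    have := pow_orderOf_eq_one z
    rwa [hz, pow_two] at this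
  refine ⟨hzz, ?_, ?_, ⟨_, hzQ, rfl⟩, ?_, ?_, ?_, ?_⟩
  · rintro c hc _ ⟨x, hx, rfl⟩
    have hc' : c ∈ centralizer ({z} : Set G) := by
      rw [mem_centralizer_singleton_iff]; exact hc
    exact ⟨⟨c, hc'⟩ * x * ⟨c, hc'⟩⁻¹, hn.conj_mem x hx ⟨c, hc'⟩, rfl⟩
  · intro c hc
    have h1 : z * c * z⁻¹ = c := hc z ⟨_, hzQ, rfl⟩
    have hc' : c ∈ centralizer ({z} : Set G) := by
      rw [mem_centralizer_singleton_iff]; exact (mul_inv_eq_iff_eq_mul.mp h1).symm
    refine ⟨⟨c, hc'⟩, hcc ?_, rfl⟩
    rw [mem_centralizer_iff]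
    intro x hx
    exact Subtype.ext (mul_inv_eq_iff_eq_mul.mp (hc x ⟨x, hx, rfl⟩))
  · rintro _ ⟨x, hx, rfl⟩
    exact mem_centralizer_singleton_iff.mp x.2
  · rintro _ ⟨x, hx, rfl⟩ _ ⟨y, hy, rfl⟩
    rcases s1 ⟨x, hx⟩ ⟨y, hy⟩ with h | h
    · left
      have h' := congrArg (fun w : Q => ((w : centralizer ({z} : Set G)) : G)) h
      exact mul_inv_eq_one.mp h'
    · right
      have h' := congrArg (fun w : Q => ((w : centralizer ({z} : Set G)) : G)) h
      exact mul_inv_eq_iff_eq_mul.mp h'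
  · rintro _ ⟨x, hx, rfl⟩
    rcases s2 ⟨x, hx⟩ with h | h
    · left
      have h' := congrArg (fun w : Q => ((w : centralizer ({z} : Set G)) : G)) h
      rw [← pow_two]; exact h'
    · right
      have h' := congrArg (fun w : Q => ((w : centralizer ({z} : Set G)) : G)) h
      rw [← pow_two]; exact h'
  · rintro _ ⟨x, hx, rfl⟩ h1 h2
    have h3 : (⟨x, hx⟩ : Q) ∈ center Q := by
      rw [mem_center_iff]
      rintro ⟨y, hy⟩
      exact Subtype.ext (Subtype.ext (mul_inv_eq_iff_eq_mul.mp (h1 y ⟨y, hy, rfl⟩)))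
    have h4 : (⟨x, hx⟩ : Q) ^ 2 = 1 := by
      rw [← pow_two] at h2
      exact Subtype.ext (Subtype.ext h2)
    rcases s3 _ h3 h4 with h | h
    · left
      exact congrArg (fun w : Q => ((w : centralizer ({z} : Set G)) : G)) h
    · right
      exact congrArg (fun w : Q => ((w : centralizer ({z} : Set G)) : G)) h

/-- Let G be a finite group and let z be an involution of G such that Q, the generalized Fitting subgroup of the centralizer C of z, is a 2-group of symplectic type (every characteristic abelian subgroup of Q is cyclic); suppose every element of Q has order dividing 4. Let g ∈ G with z' = g z g⁻¹ ≠ z and z' ∈ Q. Then z lies in the conjugate g Q g⁻¹, and the subgroup X generated by Q and g Q g⁻¹ induces every automorphism of the four-group generated by z and z': for any two distinct non-identity elements u, v of that four-group there is x ∈ X with x z x⁻¹ = u and x z' x⁻¹ = v. -/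
theorem result {G : Type*} [Group G] [Finite G] (z : G) (hz : orderOf z = 2) (hQ : Cfsg.IsOfSymplecticType ↥(Cfsg.generalizedFittingSubgroup ↥(Subgroup.centralizer ({z} : Set G))))
    (h4 : ∀ q ∈ (Cfsg.generalizedFittingSubgroup ↥(Subgroup.centralizer ({z} : Set G))).map (Subgroup.centralizer ({z} : Set G)).subtype, q ^ 4 = 1) (g : G) (hne : g * z * g⁻¹ ≠ z) (hin : g * z * g⁻¹ ∈ (Cfsg.generalizedFittingSubgroup ↥(Subgroup.centralizer ({z} : Set G))).map (Subgroup.centralizer ({z} : Set G)).subtype) :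
    z ∈ ((Cfsg.generalizedFittingSubgroup ↥(Subgroup.centralizer ({z} : Set G))).map (Subgroup.centralizer ({z} : Set G)).subtype).map (MulAut.conj g).toMonoidHom ∧
      ∀ u ∈ Subgroup.closure ({z, g * z * g⁻¹} : Set G), ∀ v ∈ Subgroup.closure ({z, g * z * g⁻¹} : Set G),
        u ≠ 1 → v ≠ 1 → u ≠ v →
          ∃ x ∈ (Cfsg.generalizedFittingSubgroup ↥(Subgroup.centralizer ({z} : Set G))).map (Subgroup.centralizer ({z} : Set G)).subtype ⊔ ((Cfsg.generalizedFittingSubgroup ↥(Subgroup.centralizer ({z} : Set G))).map (Subgroup.centralizer ({z} : Set G)).subtype).map (MulAut.conj g).toMonoidHom, x * z * x⁻¹ = u ∧ x * (g * z * g⁻¹) * x⁻¹ = v := by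
  exact Cfsg.Agent.ClassificationK.LargeSymplectic.main (data_of_symplectic z hz hQ h4) hne hin

end Cfsg.Agent.S1774
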