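import Cfsg.Statements.S1892
import Cfsg.Agent.Lib.PSolvable
import Cfsg.Agent.Lib.Cores
import Cfsg.Agent.Lib.ThompsonPQ
set_option linter.all false

set_option autoImplicit false
open Cfsg
open scoped commutatorElement

namespace Cfsg.Agent.S1892

/-- The elements of the normalizer of `N` that act trivially on `P / N`. -/
def actTriv {S : Type*} [Group S] (P N : Subgroup S) [P.Normal] : Subgroup S where
  carrier := {g | g ∈ Subgroup.normalizer (N : Set S) ∧ ∀ x ∈ P, ⁅g, x⁆ ∈ N}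
  one_mem' := by
    refine ⟨one_mem _, fun x _ => ?_⟩
    simp only [commutatorElement_one_left]
    exact one_mem _
  mul_mem' := by
    rintro a b ⟨ha, ha'⟩ ⟨hb, hb'⟩
    refine ⟨mul_mem ha hb, fun x hx => ?_⟩
    have e : ⁅a * b, x⁆ = (a * ⁅b, x⁆ * a⁻¹) * ⁅a, x⁆ := by
      simp only [commutatorElement_def]; group
    rw [e]
    exact mul_mem ((Subgroup.mem_normalizer_iff.1 ha _).1 (hb' x hx)) (ha' x hx)
  inv_mem' := by
    rintro a ⟨ha, ha'⟩
    refine ⟨inv_mem ha, fun x hx => ?_⟩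
    have e : ⁅a⁻¹, x⁆ = a⁻¹ * ⁅a, x⁆⁻¹ * (a⁻¹)⁻¹ := by
      simp only [commutatorElement_def]; group
    rw [e]
    exact (Subgroup.mem_normalizer_iff.1 (inv_mem ha) _).1 (inv_mem (ha' x hx))

theorem mem_actTriv {S : Type*} [Group S] (P N : Subgroup S) [P.Normal] (g : S) :
    g ∈ actTriv P N ↔ g ∈ Subgroup.normalizer (N : Set S) ∧ ∀ x ∈ P, ⁅g, x⁆ ∈ N := Iff.rfl

theorem result {S : Type*} [Group S] [Finite S] {p : ℕ} [Fact p.Prime]
    (hS : Cfsg.IsPSolvable p S) (hred : Cfsg.pPrimeCore p S = ⊥)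
    (A Q : Subgroup S) (hA : IsPGroup p A) (hQ : ¬ p ∣ Nat.card Q) (hQ1 : Q ≠ ⊥)
    (hinv : ∀ a ∈ A, ∀ x ∈ Q, a * x * a⁻¹ ∈ Q) (hAQ : ⁅A, Q⁆ = Q) :
    ⁅⁅Cfsg.pCore p S, A⁆, Q⁆ ≠ ⊥ := by
  intro h0
  apply hQ1
  have hPn : (Cfsg.pCore p S).Normal := inferInstance
  set P := Cfsg.pCore p S with hP
  set N := ⁅P, A⁆ with hN
  have hAN : A ≤ Subgroup.normalizer (N : Set S) := Subgroup.normalizer_commutator_ge_right _ _
  have hQN : Q ≤ Subgroup.normalizer (N : Set S) := by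
    refine le_trans ?_ (Subgroup.centralizer_le_normalizer (N : Set S))
    rw [← Subgroup.commutator_eq_bot_iff_le_centralizer, Subgroup.commutator_comm]
    exact h0
  have hAK : A ≤ actTriv P N := by
    intro a ha
    refine (mem_actTriv _ _ _).2 ⟨hAN ha, fun x hx => ?_⟩
    rw [hN, Subgroup.commutator_comm]
    exact Subgroup.commutator_mem_commutator ha hx
  have hQK : Q ≤ actTriv P N := by
    rw [← hAQ]
    refine Subgroup.commutator_le.2 fun a ha q hq => ?_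
    have e : ⁅a, q⁆ = a * (q * a⁻¹ * q⁻¹) := by simp only [commutatorElement_def]; group
    rw [e]
    refine mul_mem (hAK ha) ((mem_actTriv _ _ _).2 ⟨?_, fun x hx => ?_⟩)
    · exact mul_mem (mul_mem (hQN hq) (inv_mem (hAN ha))) (inv_mem (hQN hq))
    · have e2 : ⁅q * a⁻¹ * q⁻¹, x⁆ = q * ⁅a⁻¹, q⁻¹ * x * q⁻¹⁻¹⁆ * q⁻¹ := by
        simp only [commutatorElement_def]; group
      rw [e2]
      refine (Subgroup.mem_normalizer_iff.1 (hQN hq) _).1 ?_
      exact ((mem_actTriv _ _ _).1 (inv_mem (hAK ha))).2 _ (hPn.conj_mem _ hx _)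
  have hPQ : ⁅P, Q⁆ ≤ N := by
    rw [Subgroup.commutator_comm]
    refine Subgroup.commutator_le.2 fun q hq x hx => ?_
    exact ((mem_actTriv _ _ _).1 (hQK hq)).2 x hx
  have hPQQ : ⁅⁅P, Q⁆, Q⁆ = ⊥ := by
    rw [eq_bot_iff, ← h0]
    exact Subgroup.commutator_mono hPQ le_rfl
  have hPp : IsPGroup p P := Lib.Cores.pCore_isPGroup p
  have hcop : (Nat.card Q).Coprime (Nat.card P) := by
    obtain ⟨n, hn⟩ := (IsPGroup.iff_card).1 hPp
    rw [hn]
    exact (((Fact.out : p.Prime).coprime_iff_not_dvd.2 hQ).symm).pow_right n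
  have hPQ0 : ⁅P, Q⁆ = ⊥ :=
    Lib.ThompsonPQ.commutator_eq_bot_of_coprime hcop (Subgroup.normalizer_eq_top P ▸ le_top) hPQQ
  have hQP : Q ≤ P := by
    refine le_trans ?_ (Lib.PSolvable.centralizer_pCore_le_of_pSolvable p hS hred)
    rw [← Subgroup.commutator_eq_bot_iff_le_centralizer, Subgroup.commutator_comm]
    exact hPQ0
  rw [← Subgroup.card_eq_one]
  exact Nat.Coprime.eq_one_of_dvd hcop (Subgroup.card_dvd_of_le hQP)

end Cfsg.Agent.S1892
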