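import Cfsg.Statements.S1893
import Cfsg.Agent.S0625
import Cfsg.Agent.OddOrderLocal.ActFitting
import Cfsg.Agent.Lib.Cores
import Cfsg.Agent.Lib.PSolvable
import Cfsg.Agent.Lib.ThompsonPQ
import Cfsg.Agent.S0029
import Cfsg.Agent.Lib.NilpotentCoprime
set_option linter.all false

set_option autoImplicit false
open Cfsg

namespace Cfsg.Agent.S1893

open Subgroup
open scoped commutatorElement

/-- An element acting trivially on `Q/Φ(Q)` has a `q`-power centralizing `Q`. -/
theorem pow_mem_centralizer_of_sectionKernel {G : Type*} [Group G] [Finite G] {q : ℕ}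
    [hq : Fact q.Prime] {Q : Subgroup G} [Q.Normal] (hQ : IsPGroup q Q) {h : G}
    (hh : h ∈ sectionKernel Q ((frattini Q).map Q.subtype)) :
    ∃ l : ℕ, h ^ q ^ l ∈ centralizer (Q : Set G) := by
  obtain ⟨l, m, hm, hn⟩ := Nat.exists_eq_pow_mul_and_not_dvd (orderOf_pos h).ne' q hq.out.ne_one
  refine ⟨l, ?_⟩
  have h1 : orderOf (h ^ q ^ l) = m := by
    rw [orderOf_pow, hn, Nat.gcd_eq_right (dvd_mul_right _ _), Nat.mul_div_cancel_left]
    exact pow_pos hq.out.pos l
  have h2 : zpowers (h ^ q ^ l) ≤ centralizer (Q : Set G) := by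
    apply Cfsg.Agent.S0029.result
    · rw [Subgroup.normalizer_eq_top]; exact le_top
    · rw [Nat.card_zpowers, h1]
      obtain ⟨k, hk⟩ := IsPGroup.iff_card.1 (hQ.to_subgroup (frattini Q))
      rw [hk]
      exact Nat.Coprime.pow_right k ((Nat.Prime.coprime_iff_not_dvd hq.out).2 hm).symm
    · intro a ha k hk
      have h3 : a ∈ sectionKernel Q ((frattini Q).map Q.subtype) :=
        (Subgroup.zpowers_le.2 (pow_mem hh _)) ha
      have h4 := Subgroup.mem_comap.1 h3
      rw [Subgroup.mem_centralizer_iff] at h4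
      have h5 := h4 (QuotientGroup.mk' _ k) ⟨k, hk, rfl⟩
      rw [← QuotientGroup.eq_one_iff]
      change (QuotientGroup.mk' ((frattini Q).map Q.subtype)) (a * k * a⁻¹ * k⁻¹) = 1
      rw [map_mul, map_mul, map_mul, map_inv, map_inv, ← h5]
      group
  exact h2 (mem_zpowers _)

/-- The main step: `q`-elements centralizing `A` lie in `A`. -/
theorem core {S : Type*} [Group S] [Finite S] [Group.IsSolvable S] {E A : Subgroup S}
    (hEn : Group.IsNilpotent E) (hFE : Cfsg.fittingSubgroup S ≤ E) (hA : Cfsg.IsSCN E A)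
    {q : ℕ} [hqp : Fact q.Prime] (hq : 5 ≤ q) {x : S} (hx : x ∈ centralizer (A : Set S)) {k : ℕ}
    (hxq : x ^ q ^ k = 1) : x ∈ A := by
  obtain ⟨hAE, hEA, hCA⟩ := hA
  have hAc : ∀ a ∈ A, ∀ b ∈ A, a * b = b * a := by
    intro a ha b hb
    have : b ∈ E ⊓ centralizer (A : Set S) := by rw [hCA]; exact hb
    exact (mem_centralizer_iff.1 this.2) a ha
  have hQE : ∀ p : ℕ, p.Prime → pCore p S ≤ E := by
    intro p hp
    have := Fact.mk hp
    exact (Cfsg.Agent.Lib.Cores.pCore_le_fittingSubgroup p).trans hFE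
  -- `x` centralizes the `p`-cores for `p ≠ q`
  have hcent : ∀ p : ℕ, p.Prime → p ≠ q → x ∈ centralizer (pCore p S : Set S) := by
    intro p hp hpq
    have := Fact.mk hp
    let B : Subgroup S :=
      { carrier := {a | a ∈ A ∧ ∃ k : ℕ, a ^ p ^ k = 1}
        mul_mem' := by
          rintro a b ⟨ha, k, hk⟩ ⟨hb, l, hl⟩
          refine ⟨mul_mem ha hb, k + l, ?_⟩
          have hc : Commute a b := hAc a ha b hb
          rw [hc.mul_pow, pow_add, pow_mul, hk, one_pow, mul_comm (p ^ k), pow_mul, hl, one_pow,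
            one_mul]
        one_mem' := ⟨one_mem _, 0, one_pow _⟩
        inv_mem' := by
          rintro a ⟨ha, k, hk⟩
          exact ⟨inv_mem ha, k, by rw [inv_pow, hk, inv_one]⟩ }
    have hBA : B ≤ A := fun a ha => ha.1
    have hBp : IsPGroup p B := by
      rintro ⟨a, ha⟩
      obtain ⟨k, hk⟩ := ha.2
      exact ⟨k, Subtype.ext (by simpa using hk)⟩
    have key : zpowers x ≤ centralizer (pCore p S : Set S) := by
      apply Cfsg.Agent.Lib.ThompsonPQ.thompson_p_times_q p B (zpowers x) (pCore p S) hBp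
      · rw [Nat.card_zpowers]
        have h1 : orderOf x ∣ q ^ k := orderOf_dvd_of_pow_eq_one hxq
        apply Nat.Coprime.coprime_dvd_left h1
        exact Nat.Coprime.pow_left k ((Nat.coprime_primes hqp.out hp).2 (Ne.symm hpq))
      · exact Cfsg.Agent.Lib.Cores.pCore_isPGroup p
      · intro b hb
        rw [mem_centralizer_iff]
        rintro _ ⟨n, rfl⟩
        have hxb : Commute x b := ((mem_centralizer_iff.1 hx) b (hBA hb)).symm
        exact hxb.zpow_left n
      · rw [Subgroup.normalizer_eq_top]; exact le_top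
      · rw [Subgroup.normalizer_eq_top]; exact le_top
      · rintro u ⟨hu, huB⟩
        -- `u ∈ A`
        have huA : u ∈ A := by
          rw [← hCA]
          refine ⟨hQE p hp hu, ?_⟩
          change u ∈ centralizer (A : Set S)
          rw [mem_centralizer_iff]
          intro a ha
          -- decompose `a`
          obtain ⟨l, m, hm, hn⟩ :=
            Nat.exists_eq_pow_mul_and_not_dvd (orderOf_pos a).ne' p hp.ne_one
          have hcop : (p ^ l).Coprime m :=
            Nat.Coprime.pow_left l ((Nat.Prime.coprime_iff_not_dvd hp).2 hm)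
          -- `a ^ m` is a `p`-element, `a ^ (p ^ l)` a `p'`-element
          have hm1 : a ^ m ∈ B := by
            refine ⟨pow_mem ha m, l, ?_⟩
            rw [← pow_mul, mul_comm, ← hn, pow_orderOf_eq_one]
          have hu1 : Commute (a ^ m) u := by
            exact (mem_centralizer_iff.1 huB) _ hm1
          obtain ⟨j, hj⟩ := Cfsg.Agent.Lib.Cores.pCore_isPGroup (G := S) p ⟨u, hu⟩
          have hj' : u ^ p ^ j = 1 := by
            have := congrArg Subtype.val hj
            simpa using this
          have hu2 : Commute (a ^ p ^ l) u := by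
            have h3 : Commute (⟨a ^ p ^ l, hAE (pow_mem ha _)⟩ : E) ⟨u, hQE p hp hu⟩ := by
              apply Cfsg.Agent.Lib.NilpotentCoprime.commute_of_pow_eq_one
                (m := m) (n := p ^ j)
              · exact (Nat.Coprime.pow_left j ((Nat.Prime.coprime_iff_not_dvd hp).2 hm)).symm
              · apply Subtype.ext
                change (a ^ p ^ l) ^ m = 1
                rw [← pow_mul, ← hn, pow_orderOf_eq_one]
              · apply Subtype.ext
                exact hj'
            exact congrArg Subtype.val h3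
          -- Bezout
          have hbez : Commute a u := by
            have h4 : a ∈ zpowers (a ^ m) ⊔ zpowers (a ^ p ^ l) := by
              have h5 : a = (a ^ m) ^ (Nat.gcdB (p ^ l) m) * (a ^ p ^ l) ^ (Nat.gcdA (p ^ l) m) := by
                rw [← zpow_natCast a m, ← zpow_natCast a (p ^ l), ← zpow_mul, ← zpow_mul,
                  ← zpow_add]
                have h6 := Nat.gcd_eq_gcd_ab (p ^ l) m
                rw [hcop] at h6
                rw [add_comm, ← h6]
                simp
              have h5' : (a ^ m) ^ (Nat.gcdB (p ^ l) m) * (a ^ p ^ l) ^ (Nat.gcdA (p ^ l) m) ∈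
                  zpowers (a ^ m) ⊔ zpowers (a ^ p ^ l) :=
                mul_mem (mem_sup_left (zpow_mem (mem_zpowers _) _))
                  (mem_sup_right (zpow_mem (mem_zpowers _) _))
              rwa [← h5] at h5'
            have h7 : zpowers (a ^ m) ⊔ zpowers (a ^ p ^ l) ≤ centralizer ({u} : Set S) := by
              rw [sup_le_iff, zpowers_le, zpowers_le, mem_centralizer_singleton_iff,
                mem_centralizer_singleton_iff]
              exact ⟨hu1, hu2⟩
            exact mem_centralizer_singleton_iff.1 (h7 h4)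
          exact hbez
        rw [mem_centralizer_iff]
        rintro _ ⟨n, rfl⟩
        have hxb : Commute x u := ((mem_centralizer_iff.1 hx) u huA).symm
        exact hxb.zpow_left n
    exact key (mem_zpowers x)
  -- quadratic action
  have hquad1 : ⁅pCore q S, zpowers x⁆ ≤ A := by
    have h1 : ⁅⁅pCore q S, zpowers x⁆, A⁆ = ⊥ := by
      apply Subgroup.commutator_commutator_eq_bot_of_rotate
      · have h2 : ⁅zpowers x, A⁆ = ⊥ := by
          rw [Subgroup.commutator_eq_bot_iff_le_centralizer, zpowers_le]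
          exact hx
        rw [h2, Subgroup.commutator_bot_left]
      · rw [Subgroup.commutator_eq_bot_iff_le_centralizer]
        have h2 : ⁅A, pCore q S⁆ ≤ A := by
          rw [Subgroup.commutator_comm, Subgroup.commutator_le]
          intro u hu a ha
          have h3 : u ∈ normalizer (A : Set S) := hEA (hQE q hqp.out hu)
          have h4 := (mem_normalizer_iff.1 h3 a).1 ha
          rw [commutatorElement_def]
          exact mul_mem h4 (inv_mem ha)
        refine h2.trans ?_
        rw [le_centralizer_iff, zpowers_le]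
        exact hx
    rw [Subgroup.commutator_eq_bot_iff_le_centralizer] at h1
    rw [← hCA]
    refine le_inf ?_ h1
    exact (Subgroup.commutator_le_left _ _).trans (hQE q hqp.out)
  have hquad : ⁅⁅pCore q S, zpowers x⁆, zpowers x⁆ = ⊥ := by
    rw [Subgroup.commutator_eq_bot_iff_le_centralizer, le_centralizer_iff, zpowers_le]
    exact Subgroup.centralizer_le hquad1 hx
  have hst := (Cfsg.Agent.S0625.result hq
    (Cfsg.Agent.Lib.PSolvable.IsPSolvable_of_solvable (G := S) q)).2.1
  obtain ⟨D, hDn, hCD, ⟨d, hd⟩, hxD⟩ := hst x (by rw [hquad]; exact bot_le)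
  -- the normal subgroup `K`
  let Y : Subgroup S := ⨅ s : {s : Nat.Primes // (s : ℕ) ≠ q},
    centralizer (pCore ((s : Nat.Primes) : ℕ) S : Set S)
  have hYn : Y.Normal := Subgroup.normal_iInf_normal fun s => inferInstance
  have hKn : (D ⊓ Y).Normal := inferInstance
  have hKF : D ⊓ Y ≤ Cfsg.fittingSubgroup S := by
    apply Cfsg.Agent.OddOrderLocal.ActFitting.le_fitting_of_acts _ hKn
    intro r hr g hg
    by_cases hrq : r = q
    · subst hrq
      have h1 : g ^ r ^ d ∈ sectionKernel (pCore r S)
          ((frattini ↥(pCore r S)).map (pCore r S).subtype) := by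
        rw [← hd]
        have : (sectionKernel (pCore r S)
          ((frattini ↥(pCore r S)).map (pCore r S).subtype)).Normal := by
          unfold sectionKernel
          have : ((pCore r S).map
            (QuotientGroup.mk' ((frattini ↥(pCore r S)).map (pCore r S).subtype))).Normal :=
            Subgroup.Normal.map inferInstance _ (QuotientGroup.mk'_surjective _)
          infer_instance
        exact Subgroup.pow_relIndex_mem _ hg.1
      obtain ⟨l, hl⟩ := pow_mem_centralizer_of_sectionKernel
        (Cfsg.Agent.Lib.Cores.pCore_isPGroup (G := S) r) h1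
      exact ⟨d + l, by rw [pow_add, pow_mul]; exact hl⟩
    · refine ⟨0, ?_⟩
      rw [pow_zero, pow_one]
      exact (Subgroup.mem_iInf.1 hg.2) ⟨⟨r, hr.out⟩, hrq⟩
  have hxY : x ∈ Y := by
    rw [Subgroup.mem_iInf]
    rintro ⟨⟨s, hs⟩, hsq⟩
    exact hcent s hs hsq
  rw [← hCA]
  exact ⟨hFE (hKF ⟨hxD, hxY⟩), hx⟩

/-- `n ^ a = 1`, `n ^ b = 1` with `a`, `b` without common prime divisor. -/
theorem eq_one_of_pows {G : Type*} [Group G] {n : G} {a b : ℕ} (hab : a.Coprime b)
    (ha : n ^ a = 1) (hb : n ^ b = 1) : n = 1 := by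
  have h1 := orderOf_dvd_of_pow_eq_one ha
  have h2 := orderOf_dvd_of_pow_eq_one hb
  have h3 := Nat.dvd_gcd h1 h2
  rw [hab] at h3
  exact orderOf_eq_one_iff.1 (Nat.dvd_one.1 h3)

theorem coprime_of_sets {π : Set ℕ} {a b : ℕ} (ha : ∀ p : ℕ, p.Prime → p ∣ a → p ∈ π)
    (hb : ∀ p : ℕ, p.Prime → p ∣ b → p ∉ π) : a.Coprime b := by
  rw [Nat.coprime_iff_gcd_eq_one]
  by_contra h
  obtain ⟨p, hp, hpd⟩ := Nat.exists_prime_and_dvd h
  exact hb p hp (hpd.trans (Nat.gcd_dvd_right _ _)) (ha p hp (hpd.trans (Nat.gcd_dvd_left _ _)))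

theorem pow_card_of_mem {G : Type*} [Group G] {H : Subgroup G} {x : G} (hx : x ∈ H) :
    x ^ Nat.card H = 1 := by
  have h := pow_card_eq_one' (G := H) (x := ⟨x, hx⟩)
  exact congrArg Subtype.val h

/-- A normal `p`-subgroup lies in every Hall `π`-subgroup if `p ∈ π`. -/
theorem pgroup_le_hall {G : Type*} [Group G] [Finite G] {H P : Subgroup G} [P.Normal] {p : ℕ}
    [hp : Fact p.Prime] (hP : IsPGroup p P) (hH : ¬ p ∣ H.index) : P ≤ H := by
  have h1 : H.relIndex (H ⊔ P) ∣ H.index := Subgroup.relIndex_dvd_index_of_le le_sup_left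
  obtain ⟨k, hk⟩ := IsPGroup.iff_card.1 hP
  have h3 : H.relIndex (H ⊔ P) ∣ p ^ k := by
    rw [← hk]
    have e1 := Subgroup.relIndex_mul_relIndex (⊥ : Subgroup G) P (H ⊔ P) bot_le le_sup_right
    have e2 := Subgroup.relIndex_mul_relIndex (⊥ : Subgroup G) H (H ⊔ P) bot_le le_sup_left
    have e3 := Subgroup.relIndex_mul_relIndex (⊥ : Subgroup G) (P ⊓ H) H bot_le inf_le_right
    rw [Subgroup.inf_relIndex_right] at e3
    rw [Subgroup.relIndex_sup_right] at e1
    rw [Subgroup.relIndex_bot_left] at e1 e2 e3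
    rw [Subgroup.relIndex_bot_left] at e3
    refine ⟨Nat.card (P ⊓ H : Subgroup G), ?_⟩
    have h4 : 0 < Nat.card H := Nat.card_pos
    apply Nat.eq_of_mul_eq_mul_left h4
    calc Nat.card H * Nat.card P = Nat.card (P ⊓ H : Subgroup G) * (Nat.card P * P.relIndex H) := by
          rw [← e3]; ring
      _ = Nat.card H * (H.relIndex (H ⊔ P) * Nat.card (P ⊓ H : Subgroup G)) := by
          rw [e1, ← e2]; ring
  obtain ⟨j, -, hj⟩ := (Nat.dvd_prime_pow hp.out).1 h3
  have h5 : H.relIndex (H ⊔ P) = 1 := by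
    rcases Nat.eq_zero_or_pos j with h0 | h0
    · rw [hj, h0, pow_zero]
    · exact absurd ((dvd_pow_self p h0.ne').trans (hj ▸ h1)) hH
  exact le_sup_right.trans (Subgroup.relIndex_eq_one.1 h5)

/-- Let S be a finite solvable group, π a set of primes containing neither 2 nor 3, H a Hall π-subgroup of S, and A a self-centralizing normal subgroup of the Fitting subgroup F(H). Then C_S(A) = A × D for a normal subgroup D of C_S(A) whose order has no prime divisor in π. -/
theorem result {S : Type*} [Group S] [Finite S] [Group.IsSolvable S]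
    (π : Set ℕ) (h2 : 2 ∉ π) (h3 : 3 ∉ π) (H : Subgroup S) (hH : Cfsg.IsPiHall π H)
    (A : Subgroup S) (hA : Cfsg.IsSCN ((Cfsg.fittingSubgroup H).map H.subtype) A) :
    ∃ D : Subgroup S, D ≤ Subgroup.centralizer (A : Set S) ∧
      (∀ c ∈ Subgroup.centralizer (A : Set S), ∀ d ∈ D, c * d * c⁻¹ ∈ D) ∧
      A ⊓ D = ⊥ ∧ A ⊔ D = Subgroup.centralizer (A : Set S) ∧
      ∀ q : ℕ, q.Prime → q ∣ Nat.card D → q ∉ π := by
  set E : Subgroup S := (Cfsg.fittingSubgroup H).map H.subtype with hE
  obtain ⟨hAE, hEA, hCA⟩ := hA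
  have hEH : E ≤ H := by
    rw [hE]
    exact Subgroup.map_subtype_le _
  have hAH : A ≤ H := hAE.trans hEH
  have hAC : A ≤ centralizer (A : Set S) := by
    conv_lhs => rw [← hCA]
    exact inf_le_right
  have hcardA : ∀ p : ℕ, p.Prime → p ∣ Nat.card A → p ∈ π := fun p hp hd =>
    hH.1 p hp (hd.trans (Subgroup.card_dvd_of_le hAH))
  -- the largest normal `π'`-subgroup
  let X : Set (Subgroup S) := {N | N.Normal ∧ ∀ q : ℕ, q.Prime → q ∣ Nat.card N → q ∉ π}
  have hXne : X.Nonempty := by
    refine ⟨⊥, inferInstance, ?_⟩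
    intro q hq hd
    rw [Subgroup.card_bot] at hd
    exact absurd (Nat.dvd_one.1 hd) hq.ne_one
  obtain ⟨N, ⟨hNn, hNπ⟩, hNmax⟩ := (Set.toFinite X).exists_maximal hXne
  have hHN : ∀ x ∈ H, x ∈ N → x = 1 := by
    intro x hx hxN
    apply eq_one_of_pows (coprime_of_sets hH.1 hNπ)
    · exact pow_card_of_mem hx
    · exact pow_card_of_mem hxN
  set f : S →* S ⧸ N := QuotientGroup.mk' N with hf
  have hfsurj : Function.Surjective f := QuotientGroup.mk'_surjective N
  have hker : ∀ x, f x = 1 ↔ x ∈ N := fun x => QuotientGroup.eq_one_iff x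
  -- no normal `π'`-subgroup in the quotient
  have hcore : ∀ M : Subgroup (S ⧸ N), M.Normal → (∀ q : ℕ, q.Prime → q ∣ Nat.card M → q ∉ π) →
      M = ⊥ := by
    intro M hM hMπ
    have h4 : M.comap f ∈ X := by
      refine ⟨hM.comap f, ?_⟩
      intro q hq hd
      have h5 : Nat.card (M.comap f) = Nat.card M * Nat.card N := by
        have h6 := Subgroup.card_mul_index (M.comap f)
        have h7 : (M.comap f).index = M.index := Subgroup.index_comap_of_surjective M hfsurj
        have h8 := Subgroup.card_mul_index M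
        have h9 := Subgroup.card_mul_index N
        have h10 : Nat.card (S ⧸ N) = N.index := rfl
        rw [h7] at h6
        have h11 : 0 < M.index := Nat.pos_of_ne_zero Subgroup.index_ne_zero_of_finite
        apply Nat.eq_of_mul_eq_mul_right h11
        rw [h6, ← h9, ← h10, ← h8]
        ring
      rw [h5, hq.dvd_mul] at hd
      rcases hd with hd | hd
      · exact hMπ q hq hd
      · exact hNπ q hq hd
    have h5 : N ≤ M.comap f := by
      intro x hx
      rw [Subgroup.mem_comap, (hker x).2 hx]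
      exact one_mem _
    have h6 : M.comap f ≤ N := hNmax h4 h5
    rw [eq_bot_iff]
    intro y hy
    obtain ⟨x, rfl⟩ := hfsurj y
    rw [Subgroup.mem_bot, hker]
    exact h6 hy
  -- the Fitting subgroup of the quotient
  have hFE : Cfsg.fittingSubgroup (S ⧸ N) ≤ E.map f := by
    rw [Cfsg.Agent.Lib.Cores.fittingSubgroup_eq_iSup_pCore]
    refine iSup_le fun p => ?_
    obtain ⟨p, hp⟩ := p
    change pCore p (S ⧸ N) ≤ _
    have := Fact.mk hp
    by_cases hpπ : p ∈ π
    · have hPH : pCore p (S ⧸ N) ≤ H.map f := by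
        apply pgroup_le_hall (Cfsg.Agent.Lib.Cores.pCore_isPGroup p)
        intro hd
        refine hH.2 p hp hpπ (hd.trans ?_)
        exact Subgroup.index_map_dvd H hfsurj
      -- pull back to `H`
      let g : H →* S ⧸ N := f.comp H.subtype
      have hg : Function.Injective g := by
        rw [injective_iff_map_eq_one]
        intro x hx
        apply Subtype.ext
        exact hHN x x.2 ((hker _).1 hx)
      have hle : (pCore p (S ⧸ N)).comap g ≤ Cfsg.fittingSubgroup H := by
        apply Cfsg.Agent.Lib.Cores.le_fittingSubgroup (Subgroup.Normal.comap inferInstance g)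
        apply IsPGroup.isNilpotent (p := p)
        apply (Cfsg.Agent.Lib.Cores.pCore_isPGroup (G := S ⧸ N) p).comap_of_injective g hg
      intro y hy
      obtain ⟨x, hx, rfl⟩ := hPH hy
      refine ⟨x, ?_, rfl⟩
      refine ⟨⟨x, hx⟩, hle ?_, rfl⟩
      exact hy
    · have h4 : pCore p (S ⧸ N) = ⊥ := by
        apply hcore _ inferInstance
        intro q hq hd
        obtain ⟨k, hk⟩ := IsPGroup.iff_card.1 (Cfsg.Agent.Lib.Cores.pCore_isPGroup (G := S ⧸ N) p)
        rw [hk] at hd
        rw [(Nat.prime_dvd_prime_iff_eq hq hp).1 (hq.dvd_of_dvd_pow hd)]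
        exact hpπ
      rw [h4]
      exact bot_le
  have hEn : Group.IsNilpotent (E.map f) := by
    have h4 : Group.IsNilpotent (Cfsg.fittingSubgroup H) :=
      Cfsg.Agent.Lib.Cores.fittingSubgroup_isNilpotent
    have h5 : E.map f = (Cfsg.fittingSubgroup H).map (f.comp H.subtype) := by
      rw [hE, Subgroup.map_map]
    rw [h5]
    exact Group.nilpotent_of_surjective _
      ((f.comp H.subtype).subgroupMap_surjective (Cfsg.fittingSubgroup H))
  have hSCN : Cfsg.IsSCN (E.map f) (A.map f) := by
    refine ⟨Subgroup.map_mono hAE, ?_, ?_⟩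
    · exact (Subgroup.map_mono hEA).trans (Subgroup.le_normalizer_map f)
    · apply le_antisymm
      · rintro y ⟨hy, hyC⟩
        obtain ⟨e, he, rfl⟩ := hy
        refine ⟨e, ?_, rfl⟩
        change e ∈ A
        rw [← hCA]
        refine ⟨he, ?_⟩
        change e ∈ centralizer (A : Set S)
        rw [mem_centralizer_iff]
        intro a ha
        have h4 : f a * f e = f e * f a :=
          (mem_centralizer_iff.1 hyC) (f a) ⟨a, ha, rfl⟩
        have h5 : ⁅a, e⁆ = 1 := by
          apply hHN
          · have h6 : a ∈ H := hAH ha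
            have h7 : e ∈ H := hEH he
            rw [commutatorElement_def]
            exact mul_mem (mul_mem (mul_mem h6 h7) (inv_mem h6)) (inv_mem h7)
          · rw [← hker, map_commutatorElement, commutatorElement_eq_one_iff_mul_comm]
            exact h4
        exact commutatorElement_eq_one_iff_mul_comm.1 h5
      · refine le_inf (Subgroup.map_mono hAE) ?_
        rintro _ ⟨a, ha, rfl⟩
        rw [mem_centralizer_iff]
        rintro _ ⟨b, hb, rfl⟩
        rw [← map_mul, ← map_mul, (mem_centralizer_iff.1 (hAC ha)) b hb]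
  -- the `q`-elements centralizing `A`
  have hmain : ∀ q : ℕ, q.Prime → q ∈ π → ∀ x ∈ centralizer (A : Set S), ∀ k : ℕ,
      x ^ q ^ k = 1 → x ∈ A := by
    intro q hq hqπ x hx k hxk
    have := Fact.mk hq
    have h5 : 5 ≤ q := by
      have h6 : q ≠ 2 := fun h => h2 (h ▸ hqπ)
      have h7 : q ≠ 3 := fun h => h3 (h ▸ hqπ)
      have h8 : q ≠ 4 := by rintro rfl; exact absurd hq (by norm_num)
      have := hq.two_le
      omega
    have h6 : f x ∈ A.map f := by
      refine core hEn hFE hSCN h5 (k := k) ?_ (by rw [← map_pow, hxk, map_one])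
      rw [mem_centralizer_iff]
      rintro _ ⟨b, hb, rfl⟩
      rw [← map_mul, ← map_mul, (mem_centralizer_iff.1 hx) b hb]
    obtain ⟨a, ha, hax⟩ := h6
    have hcomm : Commute a x := (mem_centralizer_iff.1 hx) a ha
    have h7 : a⁻¹ * x = 1 := by
      apply eq_one_of_pows (a := Nat.card A * q ^ k) (b := Nat.card N)
      · apply coprime_of_sets (π := π) _ hNπ
        intro p hp hd
        rw [hp.dvd_mul] at hd
        rcases hd with hd | hd
        · exact hcardA p hp hd
        · rw [(Nat.prime_dvd_prime_iff_eq hp hq).1 (hp.dvd_of_dvd_pow hd)]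
          exact hqπ
      · rw [hcomm.inv_left.mul_pow, pow_mul, inv_pow, pow_card_of_mem ha, inv_one,
          one_pow, one_mul, mul_comm (Nat.card A), pow_mul, hxk, one_pow]
      · apply pow_card_of_mem
        rw [← hker, map_mul, map_inv, hax, inv_mul_cancel]
    rw [inv_mul_eq_one.1 h7] at ha
    exact ha
  -- the index of `A` in its centralizer
  set C : Subgroup S := centralizer (A : Set S) with hC
  have hcomm : ∀ c ∈ C, ∀ a ∈ A, c * a = a * c := fun c hc a ha =>
    ((mem_centralizer_iff.1 hc) a ha).symm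
  have hA'n : (A.subgroupOf C).Normal := by
    refine ⟨fun a ha c => ?_⟩
    rw [Subgroup.mem_subgroupOf] at ha ⊢
    have h4 := hcomm c c.2 a ha
    rw [Subgroup.coe_mul, Subgroup.coe_mul, Subgroup.coe_inv, h4, mul_inv_cancel_right]
    exact ha
  have hindex : ∀ q : ℕ, q.Prime → q ∣ (A.subgroupOf C).index → q ∉ π := by
    intro q hq hd hqπ
    have := Fact.mk hq
    obtain ⟨y, hy⟩ := exists_prime_orderOf_dvd_card' (G := C ⧸ A.subgroupOf C) q hd
    obtain ⟨y, rfl⟩ := QuotientGroup.mk_surjective y
    obtain ⟨l, m, hm, hn⟩ :=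
      Nat.exists_eq_pow_mul_and_not_dvd (orderOf_pos y).ne' q hq.ne_one
    have h4 : y ^ m ∈ A.subgroupOf C := by
      rw [Subgroup.mem_subgroupOf]
      apply hmain q hq hqπ _ (y ^ m).2 l
      rw [← Subgroup.coe_pow, ← pow_mul, mul_comm m, ← hn, pow_orderOf_eq_one]
      rfl
    have h5 : (QuotientGroup.mk y : C ⧸ A.subgroupOf C) = 1 := by
      apply eq_one_of_pows (a := m) (b := q)
      · exact ((Nat.Prime.coprime_iff_not_dvd hq).2 hm).symm
      · rw [← QuotientGroup.mk_pow]
        exact (QuotientGroup.eq_one_iff _).2 h4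
      · rw [← hy, pow_orderOf_eq_one]
    rw [h5, orderOf_one] at hy
    exact hq.ne_one hy.symm
  have hcardA' : Nat.card (A.subgroupOf C) = Nat.card A :=
    Nat.card_congr (Subgroup.subgroupOfEquivOfLe hAC).toEquiv
  obtain ⟨D', hD'⟩ := Subgroup.exists_right_complement'_of_coprime (N := A.subgroupOf C) (by
    rw [hcardA']
    exact coprime_of_sets hcardA hindex)
  refine ⟨D'.map C.subtype, Subgroup.map_subtype_le _, ?_, ?_, ?_, ?_⟩
  · rintro c hc _ ⟨d, hd, rfl⟩
    obtain ⟨a, ha, he⟩ : ∃ a ∈ A.subgroupOf C, ∃ e ∈ D', a * e = ⟨c, hc⟩ := by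
      have h4 : (⟨c, hc⟩ : C) ∈ (A.subgroupOf C) ⊔ D' := by
        rw [hD'.sup_eq_top]; exact mem_top _
      rw [Subgroup.mem_sup_of_normal_left] at h4
      exact h4
    obtain ⟨e, heD, hae⟩ := he
    refine ⟨e * d * e⁻¹, mul_mem (mul_mem heD hd) (inv_mem heD), ?_⟩
    have h4 : (a : S) * (e : S) = c := congrArg Subtype.val hae
    have h5 : ((e * d * e⁻¹ : C) : S) * (a : S) = a * ((e * d * e⁻¹ : C) : S) :=
      hcomm _ (e * d * e⁻¹).2 a ha
    change ((e * d * e⁻¹ : C) : S) = c * (d : S) * c⁻¹
    rw [← h4, mul_inv_rev]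
    calc ((e * d * e⁻¹ : C) : S) = (a : S) * ((e * d * e⁻¹ : C) : S) * (a : S)⁻¹ := by
          rw [← h5, mul_inv_cancel_right]
      _ = (a : S) * (e : S) * (d : S) * ((e : S)⁻¹ * (a : S)⁻¹) := by
          simp only [Subgroup.coe_mul, Subgroup.coe_inv, mul_assoc]
  · rw [eq_bot_iff]
    rintro x ⟨hx, ⟨d, hd, hdx⟩⟩
    have h4 : d ∈ A.subgroupOf C := by
      rw [Subgroup.mem_subgroupOf]
      change C.subtype d ∈ A
      rw [hdx]
      exact hx
    have h5 : d ∈ A.subgroupOf C ⊓ D' := ⟨h4, hd⟩
    rw [hD'.disjoint.eq_bot, Subgroup.mem_bot] at h5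
    rw [← hdx, h5]
    exact one_mem _
  · apply le_antisymm (sup_le hAC (Subgroup.map_subtype_le _))
    intro c hc
    have h4 : (⟨c, hc⟩ : C) ∈ (A.subgroupOf C) ⊔ D' := by
      rw [hD'.sup_eq_top]; exact mem_top _
    rw [Subgroup.mem_sup_of_normal_left] at h4
    obtain ⟨a, ha, e, he, hae⟩ := h4
    have h5 : (a : S) * (e : S) = c := congrArg Subtype.val hae
    rw [← h5]
    exact mul_mem (mem_sup_left ha) (mem_sup_right ⟨e, he, rfl⟩)
  · intro q hq hd
    apply hindex q hq
    rw [Subgroup.card_map_of_injective (Subgroup.subtype_injective _)] at hd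
    rw [hD'.symm.index_eq_card]
    exact hd

end Cfsg.Agent.S1893
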