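import Cfsg.Statements.S1894
import Cfsg.Agent.Involutions.NormalFour
set_option linter.all false

set_option autoImplicit false
open Cfsg

namespace Cfsg.Agent.S1894

/-- Let P be a finite p-group, A a normal subgroup of P and B an abelian subgroup of A that is normal in P. Then some subgroup C of A containing B is normal in P and is self-centralizing and normal in A (C ∈ SCN(A)). -/
theorem result {P : Type*} [Group P] [Finite P] {p : ℕ} [Fact p.Prime] (hP : IsPGroup p P)
    (A : Subgroup P) [A.Normal] (B : Subgroup P) [B.Normal] (hBA : B ≤ A) (hB : IsMulCommutative B) :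
    ∃ C : Subgroup P, C.Normal ∧ B ≤ C ∧ Cfsg.IsSCN A C := by
  -- a maximal abelian normal subgroup of `P` inside `A` containing `B`
  let S : Set (Subgroup P) := {C | C.Normal ∧ B ≤ C ∧ C ≤ A ∧ ∀ x ∈ C, ∀ y ∈ C, x * y = y * x}
  have hfin : S.Finite := Set.toFinite S
  have hne : S.Nonempty := by
    refine ⟨B, inferInstance, le_rfl, hBA, fun x hx y hy => ?_⟩
    have := hB.is_comm.comm (⟨x, hx⟩ : B) ⟨y, hy⟩
    exact congrArg Subtype.val this
  obtain ⟨C, hC⟩ := hfin.exists_maximal hne
  obtain ⟨⟨hCn, hBC, hCA, hCc⟩, hmax⟩ := hC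
  refine ⟨C, hCn, hBC, hCA, ?_, ?_⟩
  · rw [Subgroup.normalizer_eq_top]; exact le_top
  apply le_antisymm
  · -- the centralizer
    by_contra hnle
    set D : Subgroup P := A ⊓ Subgroup.centralizer (C : Set P) with hD
    have hDn : D.Normal := by
      rw [hD]
      infer_instance
    -- the image of `D` in `P ⧸ C` is a nontrivial normal subgroup
    let M : Subgroup (P ⧸ C) := D.map (QuotientGroup.mk' C)
    have hMn : M.Normal := hDn.map _ (QuotientGroup.mk'_surjective C)
    have hMne : M ≠ ⊥ := by
      intro h
      apply hnle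
      rw [Subgroup.map_eq_bot_iff, QuotientGroup.ker_mk'] at h
      exact h
    have hq : IsPGroup p (P ⧸ C) := hP.to_quotient C
    obtain ⟨z, hzM, hzc, hz1⟩ :=
      Cfsg.Agent.Involutions.NormalFour.exists_mem_center_of_normal hq M hMne
    obtain ⟨x, hxD, hxz⟩ := hzM
    have hxA : x ∈ A := hxD.1
    have hxC : ∀ c ∈ C, c * x = x * c := Subgroup.mem_centralizer_iff.1 hxD.2
    -- the larger abelian normal subgroup
    let C' : Subgroup P := (Subgroup.zpowers z).comap (QuotientGroup.mk' C)
    have hform : ∀ y ∈ C', ∃ k : ℤ, ∃ c ∈ C, y = x ^ k * c := by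
      intro y hy
      obtain ⟨k, hk⟩ := hy
      refine ⟨k, (x ^ k)⁻¹ * y, ?_, by group⟩
      rw [← QuotientGroup.eq]
      have h1 : z ^ k = QuotientGroup.mk' C y := hk
      rw [← hxz, ← map_zpow] at h1
      exact h1
    have hC'S : C' ∈ S := by
      refine ⟨?_, ?_, ?_, ?_⟩
      · have : (Subgroup.zpowers z).Normal := by
          refine ⟨fun n hn g => ?_⟩
          have h2 : n ∈ Subgroup.center (P ⧸ C) := by
            obtain ⟨k, rfl⟩ := hn
            exact zpow_mem hzc k
          rw [Subgroup.mem_center_iff.1 h2 g, mul_inv_cancel_right]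
          exact hn
        exact this.comap _
      · intro b hb
        refine ⟨0, ?_⟩
        have : QuotientGroup.mk' C b = 1 := (QuotientGroup.eq_one_iff b).2 (hBC hb)
        simpa using this.symm
      · intro y hy
        obtain ⟨k, c, hc, rfl⟩ := hform y hy
        exact mul_mem (zpow_mem hxA k) (hCA hc)
      · intro y hy y' hy'
        obtain ⟨k, c, hc, rfl⟩ := hform y hy
        obtain ⟨l, d, hd, rfl⟩ := hform y' hy'
        have e1 : Commute x c := (hxC c hc).symm
        have e2 : Commute x d := (hxC d hd).symm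
        have e3 : Commute c d := hCc c hc d hd
        have e4 : Commute (x ^ k * c) (x ^ l * d) := by
          apply Commute.mul_left
          · exact ((Commute.refl x).zpow_zpow k l).mul_right (e2.zpow_left k)
          · exact (e1.symm.zpow_right l).mul_right e3
        exact e4
    have hCC' : C ≤ C' := by
      intro b hb
      refine ⟨0, ?_⟩
      have : QuotientGroup.mk' C b = 1 := (QuotientGroup.eq_one_iff b).2 hb
      simpa using this.symm
    have hle : C' ≤ C := hmax hC'S hCC'
    have hx' : x ∈ C := hle ⟨1, by simpa using hxz.symm⟩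
    have hz : z = 1 := by
      rw [← hxz]
      exact (QuotientGroup.eq_one_iff x).2 hx'
    rw [hz, orderOf_one] at hz1
    exact (Fact.out : p.Prime).one_lt.ne hz1
  · refine le_inf hCA ?_
    intro x hx
    rw [Subgroup.mem_centralizer_iff]
    intro y hy
    exact hCc y hy x hx

end Cfsg.Agent.S1894
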