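import Mathlib
import Cfsg.Prelude.Def_CaseTheorems
import Cfsg.Agent.Lib.FrattiniPGroup
import Cfsg.Agent.OddOrderLocal.MetacyclicCoprime
import Cfsg.Agent.Transfer.PGroupNormal
import Cfsg.Agent.Lib.PSolvable
import Cfsg.Agent.Lib.Cores
import Cfsg.Statements.S1895
import Cfsg.Agent.PLocal.PSolvable
import Cfsg.Agent.Mrg.Omega.Sec.Faithful
set_option linter.all false

-- part: H17/Chief
section
/-!
# Chief factors of a finite group

* `IsChief K H`: `H / K` is a chief factor of the ambient group.
* `IsChief.inf`, `IsChief.quotient`: intersection with a normal subgroup and passage to a quotient.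
* `exists_chief_above`: a chief factor above a given normal subgroup.
-/

set_option autoImplicit false

namespace Cfsg.Agent.H17.Chief

open Subgroup

variable {G : Type*} [Group G]

/-- `H / K` is a chief factor of `G`. -/
structure IsChief (K H : Subgroup G) : Prop where
  nK : K.Normal
  nH : H.Normal
  lt : K < H
  max : ∀ L : Subgroup G, L.Normal → K ≤ L → L ≤ H → L = K ∨ L = H

/-- Intersecting a chief factor with a normal subgroup. -/
theorem IsChief.inf {K H : Subgroup G} (h : IsChief K H) (N : Subgroup G) [N.Normal]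
    (hN : ¬ H ⊓ N ≤ K) :
    IsChief (K ⊓ N) (H ⊓ N) ∧ (K ⊓ N).relIndex (H ⊓ N) = K.relIndex H := by
  have := h.nK
  have := h.nH
  have hsup : K ⊔ (H ⊓ N) = H := by
    rcases h.max (K ⊔ (H ⊓ N)) inferInstance le_sup_left (sup_le h.lt.le inf_le_left) with h1 | h1
    · exact absurd (h1 ▸ le_sup_right) hN
    · exact h1
  refine ⟨⟨inferInstance, inferInstance, ?_, ?_⟩, ?_⟩
  · refine lt_of_le_of_ne (inf_le_inf_right N h.lt.le) ?_
    intro he
    apply hN
    rw [← he]
    exact inf_le_left
  · intro L hL hKL hLH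
    rcases h.max (K ⊔ L) inferInstance le_sup_left
      (sup_le h.lt.le (hLH.trans inf_le_left)) with h1 | h1
    · left
      apply le_antisymm _ hKL
      exact le_inf (h1 ▸ le_sup_right) (hLH.trans inf_le_right)
    · right
      apply le_antisymm hLH
      rw [← h1]
      rintro x ⟨hx, hxN⟩
      have hx' : x ∈ L ⊔ K := by rw [sup_comm]; exact hx
      rw [Subgroup.mem_sup_of_normal_left] at hx'
      obtain ⟨l, hl, k, hk, rfl⟩ := hx'
      have hlN : l ∈ N := (hLH hl).2
      have hkN : k ∈ N := by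
        have : l⁻¹ * (l * k) ∈ N := mul_mem (inv_mem hlN) hxN
        rwa [inv_mul_cancel_left] at this
      exact mul_mem hl (hKL ⟨hk, hkN⟩)
  · rw [inf_relIndex_inf_eq_aux h N hsup]
where
  inf_relIndex_inf_eq_aux {K H : Subgroup G} (h : IsChief K H) (N : Subgroup G) [N.Normal]
      (hsup : K ⊔ (H ⊓ N) = H) : (K ⊓ N).relIndex (H ⊓ N) = K.relIndex H := by
    have := h.nK
    have e1 : (K ⊓ N).relIndex (H ⊓ N) = K.relIndex (H ⊓ N) := by
      rw [← inf_relIndex_right K (H ⊓ N), ← inf_assoc, inf_eq_left.2 h.lt.le]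
    have e2 : K.relIndex (K ⊔ (H ⊓ N)) = K.relIndex (H ⊓ N) := relIndex_sup_left _ _
    rw [e1, ← e2, hsup]

/-- Passing to a quotient. -/
theorem IsChief.quotient {K H : Subgroup G} (h : IsChief K H) (N : Subgroup G) [N.Normal]
    (hN : H ⊓ N ≤ K) :
    IsChief (K.map (QuotientGroup.mk' N)) (H.map (QuotientGroup.mk' N)) ∧
      (K.map (QuotientGroup.mk' N)).relIndex (H.map (QuotientGroup.mk' N)) = K.relIndex H ∧
      (K ⊔ N).relIndex (H ⊔ N) = K.relIndex H := by
  have := h.nK
  have := h.nH
  set f := QuotientGroup.mk' N with hf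
  have hfs : Function.Surjective f := QuotientGroup.mk'_surjective N
  have hker : f.ker = N := QuotientGroup.ker_mk' N
  have hnK : (K.map f).Normal := Subgroup.Normal.map inferInstance f hfs
  have hnH : (H.map f).Normal := Subgroup.Normal.map inferInstance f hfs
  have hrel : (K ⊔ N).relIndex (H ⊔ N) = K.relIndex H := by
    have e1 : H ⊔ N = H ⊔ (K ⊔ N) := by
      rw [← sup_assoc, sup_eq_left.2 h.lt.le]
    have e2 : (K ⊔ N).relIndex (H ⊔ (K ⊔ N)) = (K ⊔ N).relIndex H := relIndex_sup_right _ _
    have e3 : (K ⊔ N) ⊓ H = K := by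
      apply le_antisymm
      · rintro x ⟨hx, hxH⟩
        change x ∈ K ⊔ N at hx
        rw [Subgroup.mem_sup_of_normal_left] at hx
        obtain ⟨k, hk, n, hn, rfl⟩ := hx
        have hnH : n ∈ H := by
          have : k⁻¹ * (k * n) ∈ H := mul_mem (inv_mem (h.lt.le hk)) hxH
          rwa [inv_mul_cancel_left] at this
        exact mul_mem hk (hN ⟨hnH, hn⟩)
      · exact le_inf le_sup_left h.lt.le
    rw [e1, e2, ← inf_relIndex_right, e3]
  have hrel' : (K.map f).relIndex (H.map f) = K.relIndex H := by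
    rw [relIndex_map_map, hker, hrel]
  refine ⟨⟨hnK, hnH, ?_, ?_⟩, hrel', hrel⟩
  · refine lt_of_le_of_ne (Subgroup.map_mono h.lt.le) ?_
    intro he
    rw [he, relIndex_self] at hrel'
    have h1 : H ≤ K := relIndex_eq_one.1 hrel'.symm
    exact absurd h.lt (not_lt_of_ge h1)
  · intro L hL hKL hLH
    have hLn : (L.comap f).Normal := hL.comap f
    rcases h.max (L.comap f ⊓ H) inferInstance
      (le_inf (Subgroup.map_le_iff_le_comap.1 hKL) h.lt.le) inf_le_right with h1 | h1
    · left
      apply le_antisymm _ hKL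
      intro y hy
      obtain ⟨x, hx, rfl⟩ := hLH hy
      exact ⟨x, by
        change x ∈ K
        rw [← h1]
        exact ⟨hy, hx⟩, rfl⟩
    · right
      apply le_antisymm hLH
      rw [Subgroup.map_le_iff_le_comap]
      exact inf_eq_right.1 h1

/-- A chief factor above a normal subgroup `M < P`. -/
theorem exists_chief_above [Finite G] {M P : Subgroup G} (hM : M.Normal) (hP : P.Normal)
    (hlt : M < P) : ∃ U : Subgroup G, IsChief M U ∧ U ≤ P := by
  let S : Set (Subgroup G) := {U | U.Normal ∧ M < U ∧ U ≤ P}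
  obtain ⟨U, ⟨hU, hMU, hUP⟩, hmin⟩ := (Set.toFinite S).exists_minimal ⟨P, hP, hlt, le_rfl⟩
  refine ⟨U, ⟨hM, hU, hMU, ?_⟩, hUP⟩
  intro L hL hML hLU
  by_cases h : L = M
  · exact Or.inl h
  · right
    exact le_antisymm hLU (hmin ⟨hL, lt_of_le_of_ne hML (Ne.symm h), hLU.trans hUP⟩ hLU)

end Cfsg.Agent.H17.Chief
end

-- part: H17/PCentral
section
/-!
# `p`-central `p`-groups, `p` odd

`p` an odd prime, `H` a finite `p`-group in which all elements of order `p` are central.

* `comm_pow`: if `x ^ (p * p) = 1` then `⁅x, y⁆ ^ p = 1` for all `y`: the group `H / Ω₁(H)` is again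
  `p`-central.
* `chief_of_pcentral`: if `H` is normal in the finite group `G` and `Ω₁(H)` has order at most `p ^ 2`,
  then the chief factors of `G` below `H` have order at most `p ^ 2`.
-/

set_option autoImplicit false

namespace Cfsg.Agent.H17.PCentral

open Subgroup
open scoped commutatorElement
open Cfsg.Agent.H17.Chief

universe u

theorem card_comap_mk {G : Type*} [Group G] [Finite G] (N : Subgroup G) [N.Normal]
    (M : Subgroup (G ⧸ N)) :
    Nat.card (M.comap (QuotientGroup.mk' N)) = Nat.card M * Nat.card N := by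
  have h6 := Subgroup.card_mul_index (M.comap (QuotientGroup.mk' N))
  have h7 : (M.comap (QuotientGroup.mk' N)).index = M.index :=
    Subgroup.index_comap_of_surjective M (QuotientGroup.mk'_surjective N)
  have h8 := Subgroup.card_mul_index M
  have h9 := Subgroup.card_mul_index N
  have h10 : Nat.card (G ⧸ N) = N.index := rfl
  rw [h7] at h6
  have h11 : 0 < M.index := Nat.pos_of_ne_zero Subgroup.index_ne_zero_of_finite
  apply Nat.eq_of_mul_eq_mul_right h11
  rw [h6, ← h9, ← h10, ← h8]
  ring

/-- `⁅x ^ n, y⁆` when `⁅x, ⁅x, y⁆⁆` is central. -/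
theorem commutator_pow_left_of_central {G : Type*} [Group G] {x y : G}
    (hz : ⁅x, ⁅x, y⁆⁆ ∈ center G) (n : ℕ) :
    ⁅x ^ n, y⁆ = ⁅x, y⁆ ^ n * ⁅x, ⁅x, y⁆⁆ ^ n.choose 2 := by
  set c := ⁅x, y⁆ with hc
  set a := ⁅x, c⁆ with ha
  have hac : ∀ g : G, Commute g a := fun g => mem_center_iff.1 hz g
  have hxc : x * c * x⁻¹ = c * a := by
    have h1 : x * c * x⁻¹ = a * c := by rw [ha, commutatorElement_def]; group
    rw [h1, (hac c).eq]
  induction n with
  | zero => simp
  | succ n ih =>
    have h1 : ⁅x ^ (n + 1), y⁆ = x * ⁅x ^ n, y⁆ * x⁻¹ * c := by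
      rw [hc, commutatorElement_def, commutatorElement_def, commutatorElement_def, pow_succ']
      group
    have h2 : x * (c ^ n * a ^ n.choose 2) * x⁻¹ = (x * c * x⁻¹) ^ n * a ^ n.choose 2 := by
      rw [conj_pow]
      have : a ^ n.choose 2 * x⁻¹ = x⁻¹ * a ^ n.choose 2 := ((hac x⁻¹).pow_right _).eq.symm
      calc x * (c ^ n * a ^ n.choose 2) * x⁻¹ = x * c ^ n * (a ^ n.choose 2 * x⁻¹) := by group
        _ = x * c ^ n * x⁻¹ * a ^ n.choose 2 := by rw [this]; group
    rw [h1, ih, h2, hxc, (hac c).mul_pow, Nat.choose_succ_succ' n 1, Nat.choose_one_right]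
    have h3 : a ^ n * a ^ n.choose 2 * c = c * (a ^ n * a ^ n.choose 2) := by
      rw [← pow_add]; exact ((hac c).pow_right _).eq.symm
    calc c ^ n * a ^ n * a ^ n.choose 2 * c = c ^ n * (a ^ n * a ^ n.choose 2 * c) := by group
      _ = c ^ n * c * (a ^ n * a ^ n.choose 2) := by rw [h3]; group
      _ = c ^ (n + 1) * a ^ (n + n.choose 2) := by rw [← pow_succ, ← pow_add]

/-- The central step. -/
theorem comm_pow_aux {p : ℕ} [hpf : Fact p.Prime] (hp : p ≠ 2) (n : ℕ) :
    ∀ (H : Type u) [Group H] [Finite H], Nat.card H = n → IsPGroup p H →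
      (∀ x : H, x ^ p = 1 → x ∈ center H) → ∀ x : H, (x ^ p) ^ p = 1 → ∀ y : H, ⁅x, y⁆ ^ p = 1 := by
  induction n using Nat.strong_induction_on with
  | _ n ih =>
  intro H _ _ hn hH hc
  let A : Subgroup H :=
    { carrier := {x | x ^ p = 1}
      mul_mem' := by
        intro a b ha hb
        have h1 : Commute a b := mem_center_iff.1 (hc b hb) a
        change (a * b) ^ p = 1
        change a ^ p = 1 at ha
        change b ^ p = 1 at hb
        rw [h1.mul_pow, ha, hb, one_mul]
      one_mem' := one_pow p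
      inv_mem' := by
        intro a ha
        change a⁻¹ ^ p = 1
        change a ^ p = 1 at ha
        rw [inv_pow, ha, inv_one] }
  have hA : ∀ x : H, x ∈ A ↔ x ^ p = 1 := fun x => Iff.rfl
  have hAc : A ≤ center H := fun x hx => hc x hx
  have hAn : A.Normal := by
    refine ⟨fun a ha g => ?_⟩
    rw [mem_center_iff.1 (hAc ha) g, mul_inv_cancel_right]
    exact ha
  have key : ∀ j : ℕ, ∀ x : H, x ^ p ∈ A →
      (QuotientGroup.mk x : H ⧸ A) ∈ Subgroup.upperCentralSeries (H ⧸ A) j → ∀ y : H, ⁅x, y⁆ ∈ A := by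
    intro j
    induction j with
    | zero =>
      intro x _ hxj y
      rw [Subgroup.upperCentralSeries_zero, Subgroup.mem_bot, QuotientGroup.eq_one_iff] at hxj
      have h1 : ⁅x, y⁆ = 1 := by
        rw [commutatorElement_eq_one_iff_mul_comm]
        exact (mem_center_iff.1 (hAc hxj) y).symm
      rw [h1]
      exact one_mem _
    | succ j ihj =>
      intro x hxA hxj y
      have h1 : ∀ y : H, ⁅x, y⁆ ^ p ∈ A := by
        intro y
        by_cases hM : closure ({x, y * x * y⁻¹} : Set H) = ⊤
        · -- `H` is cyclic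
          have h2 : zpowers x ⊔ frattini H = ⊤ := by
            rw [eq_top_iff, ← hM, closure_le]
            rintro z (rfl | rfl)
            · exact mem_sup_left (mem_zpowers _)
            · have h3 : y * x * y⁻¹ = ⁅y, x⁆ * x := by rw [commutatorElement_def]; group
              rw [h3]
              exact mul_mem (mem_sup_right
                (Cfsg.Agent.Lib.FrattiniPGroup.commutator_mem_frattini hH y x))
                (mem_sup_left (mem_zpowers x))
          have h4 : zpowers x = ⊤ := frattini_nongenerating h2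
          have h5 : y ∈ zpowers x := by rw [h4]; exact mem_top y
          obtain ⟨k, rfl⟩ := h5
          have h6 : ⁅x, x ^ k⁆ = 1 := by
            rw [commutatorElement_eq_one_iff_mul_comm]
            exact (Commute.refl x).zpow_right k
          change ⁅x, x ^ k⁆ ^ p ∈ A
          rw [h6, one_pow]
          exact one_mem _
        · set M := closure ({x, y * x * y⁻¹} : Set H) with hMdef
          have hxM : x ∈ M := subset_closure (by simp)
          have hyM : y * x * y⁻¹ ∈ M := subset_closure (by simp)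
          have hlt : Nat.card M < n := by
            rw [← hn]
            exact lt_of_not_ge fun h => hM (Subgroup.eq_top_of_le_card M h)
          have h2 := ih (Nat.card M) hlt M rfl (hH.to_subgroup M) (by
            intro z hz
            have h3 : (z : H) ^ p = 1 := congrArg Subtype.val hz
            rw [mem_center_iff]
            intro g
            exact Subtype.ext (mem_center_iff.1 (hc z h3) g)) ⟨x, hxM⟩ (by
              apply Subtype.ext
              exact hxA) ⟨_, hyM⟩
          have h3 : ⁅x, y * x * y⁻¹⁆ ∈ A := congrArg Subtype.val h2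
          rw [← QuotientGroup.eq_one_iff]
          have h4 : (QuotientGroup.mk ⁅x, y * x * y⁻¹⁆ : H ⧸ A) =
            ⁅(QuotientGroup.mk x : H ⧸ A), (QuotientGroup.mk (y * x * y⁻¹) : H ⧸ A)⁆ := rfl
          rw [← QuotientGroup.eq_one_iff, h4, commutatorElement_eq_one_iff_mul_comm] at h3
          have h5 : (QuotientGroup.mk (⁅x, y⁆ ^ p) : H ⧸ A) =
              ((QuotientGroup.mk x : H ⧸ A) * (QuotientGroup.mk (y * x * y⁻¹) : H ⧸ A)⁻¹) ^ p := by
            rw [← QuotientGroup.mk_inv, ← QuotientGroup.mk_mul, ← QuotientGroup.mk_pow]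
            congr 2
            rw [commutatorElement_def]
            group
          have h6 : Commute (QuotientGroup.mk x : H ⧸ A)
            (QuotientGroup.mk (y * x * y⁻¹) : H ⧸ A)⁻¹ := (show Commute _ _ from h3).inv_right
          rw [h5, h6.mul_pow, inv_pow, ← QuotientGroup.mk_pow, ← QuotientGroup.mk_pow]
          have h7 : (QuotientGroup.mk (x ^ p) : H ⧸ A) = 1 := (QuotientGroup.eq_one_iff _).2 hxA
          have h8 : (QuotientGroup.mk ((y * x * y⁻¹) ^ p) : H ⧸ A) = 1 := by
            rw [QuotientGroup.eq_one_iff, conj_pow]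
            exact hAn.conj_mem _ hxA y
          rw [h7, h8, inv_one, one_mul]
      have h2 : ∀ y z : H, ⁅⁅x, y⁆, z⁆ ∈ A := by
        intro y z
        apply ihj _ (h1 y)
        have h3 := (Subgroup.mem_upperCentralSeries_succ_iff.1 hxj) (QuotientGroup.mk y)
        exact h3
      -- the computation
      have hz : ⁅x, ⁅x, y⁆⁆ ∈ A := by
        rw [← inv_mem_iff, commutatorElement_inv]
        exact h2 y x
      have h3 := commutator_pow_left_of_central (hAc hz) p (x := x) (y := y)
      have h4 : ⁅x ^ p, y⁆ = 1 := by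
        rw [commutatorElement_eq_one_iff_mul_comm]
        exact (mem_center_iff.1 (hAc hxA) y).symm
      have h5 : 2 < p := lt_of_le_of_ne hpf.out.two_le (Ne.symm hp)
      obtain ⟨k, hk⟩ := hpf.out.dvd_choose_self (k := 2) (by norm_num) h5
      have h6 : ⁅x, ⁅x, y⁆⁆ ^ p = 1 := hz
      rw [h4, hk, pow_mul, h6, one_pow, mul_one] at h3
      exact h3.symm
  intro x hx y
  have hq : IsPGroup p (H ⧸ A) := hH.to_quotient A
  have hnil : Group.IsNilpotent (H ⧸ A) := hq.isNilpotent
  obtain ⟨N, hN⟩ := hnil.nilpotent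
  have h1 : ⁅x, y⁆ ∈ A := key N x hx (by rw [hN]; exact mem_top _) y
  exact h1

/-- If all elements of order `p` of the finite `p`-group `H` are central, `p` odd, then
`⁅x, y⁆ ^ p = 1` whenever `x ^ (p ^ 2) = 1`. -/
theorem comm_pow {p : ℕ} [Fact p.Prime] (hp : p ≠ 2) {H : Type*} [Group H] [Finite H]
    (hH : IsPGroup p H) (hc : ∀ x : H, x ^ p = 1 → x ∈ center H) {x : H} (hx : (x ^ p) ^ p = 1)
    (y : H) : ⁅x, y⁆ ^ p = 1 :=
  comm_pow_aux hp (Nat.card H) H rfl hH hc x hx y

/-- Chief factors below a normal `p`-central `p`-subgroup with small `Ω₁`. -/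
theorem chief_of_pcentral_aux {p : ℕ} [hpf : Fact p.Prime] (hp : p ≠ 2) (n : ℕ) :
    ∀ (G : Type u) [Group G] [Finite G] (H : Subgroup G), H.Normal → Nat.card H = n →
      IsPGroup p H → (∀ x ∈ H, x ^ p = 1 → ∀ y ∈ H, x * y = y * x) →
      (∀ A : Subgroup G, A ≤ H → (∀ a ∈ A, a ^ p = 1) → Nat.card A ≤ p ^ 2) →
      ∀ K U : Subgroup G, IsChief K U → U ≤ H → K.relIndex U ≤ p ^ 2 := by
  induction n using Nat.strong_induction_on with
  | _ n ih =>
  intro G _ _ H hHn hn hH hc hb K U hKU hUH
  let A : Subgroup G :=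
    { carrier := {x | x ∈ H ∧ x ^ p = 1}
      mul_mem' := by
        rintro a b ⟨ha, ha'⟩ ⟨hb, hb'⟩
        have h1 : Commute a b := hc a ha ha' b hb
        exact ⟨mul_mem ha hb, by rw [h1.mul_pow, ha', hb', one_mul]⟩
      one_mem' := ⟨one_mem _, one_pow p⟩
      inv_mem' := by
        rintro a ⟨ha, ha'⟩
        exact ⟨inv_mem ha, by rw [inv_pow, ha', inv_one]⟩ }
  have hAn : A.Normal := by
    refine ⟨fun a ha g => ⟨hHn.conj_mem a ha.1 g, ?_⟩⟩
    rw [conj_pow, ha.2, mul_one, mul_inv_cancel]
  have hAH : A ≤ H := fun a ha => ha.1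
  have hAcard : Nat.card A ≤ p ^ 2 := hb A hAH (fun a ha => ha.2)
  by_cases hUA : U ⊓ A ≤ K
  · -- pass to the quotient
    obtain ⟨hq, hrel, -⟩ := hKU.quotient A hUA
    rw [← hrel]
    set f := QuotientGroup.mk' A with hf
    have hfs : Function.Surjective f := QuotientGroup.mk'_surjective A
    have hA1 : A ≠ ⊥ := by
      intro hA
      have hH1 : H ≠ ⊥ := by
        rintro rfl
        have := hKU.lt
        rw [le_bot_iff.1 hUH] at this
        exact not_lt_bot this
      have hnt : Nontrivial H := (Subgroup.nontrivial_iff_ne_bot H).2 hH1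
      obtain ⟨m, hm0, hm⟩ := hH.nontrivial_iff_card.1 hnt
      obtain ⟨z, hz⟩ := exists_prime_orderOf_dvd_card' (G := H) p (by
        rw [hm]; exact dvd_pow_self p hm0.ne')
      have h1 : (z : G) ∈ A := ⟨z.2, by
        have := pow_orderOf_eq_one z
        rw [hz] at this
        exact congrArg Subtype.val this⟩
      rw [hA, Subgroup.mem_bot] at h1
      have h2 : z = 1 := Subtype.ext h1
      rw [h2, orderOf_one] at hz
      exact hpf.out.ne_one hz.symm
    have hcardH : Nat.card (H.map f) * Nat.card A = Nat.card H := by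
      rw [← card_comap_mk]
      congr 1
      have h1 : (H.map f).comap f = H := by
        rw [Subgroup.comap_map_eq, QuotientGroup.ker_mk', sup_eq_left]
        exact hAH
      rw [← hf, h1]
    have hlt : Nat.card (H.map f) < n := by
      rw [← hn, ← hcardH]
      have h1 : 1 < Nat.card A := by
        rw [Subgroup.one_lt_card_iff_ne_bot]; exact hA1
      have h2 : 0 < Nat.card (H.map f) := Nat.card_pos
      nlinarith
    -- the commutator identity
    have hcomm : ∀ x ∈ H, x ^ p ∈ A → ∀ y ∈ H, ⁅x, y⁆ ∈ A := by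
      intro x hx hxA y hy
      have h1 := comm_pow hp hH (by
        intro z hz
        rw [mem_center_iff]
        intro g
        apply Subtype.ext
        exact (hc z z.2 (congrArg Subtype.val hz) g g.2).symm) (x := ⟨x, hx⟩)
        (Subtype.ext hxA.2) ⟨y, hy⟩
      refine ⟨?_, congrArg Subtype.val h1⟩
      exact (⁅(⟨x, hx⟩ : H), ⟨y, hy⟩⁆ : H).2
    refine ih _ hlt (G ⧸ A) (H.map f) (Subgroup.Normal.map hHn f hfs) rfl (hH.map f) ?_ ?_ _ _ hq
      (Subgroup.map_mono hUH)
    · rintro _ ⟨x, hx, rfl⟩ hxp _ ⟨y, hy, rfl⟩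
      rw [← commutatorElement_eq_one_iff_mul_comm, ← map_commutatorElement]
      apply (QuotientGroup.eq_one_iff _).2
      apply hcomm x hx _ y hy
      rw [← map_pow] at hxp
      exact (QuotientGroup.eq_one_iff _).1 hxp
    · intro B hBH hBp
      -- the `p`-power map
      have hBH' : B.comap f ≤ H := by
        intro x hx
        obtain ⟨y, hy, hyx⟩ := hBH hx
        have h1 : y⁻¹ * x ∈ A := by
          rw [← QuotientGroup.eq]
          exact hyx
        have h2 : y * (y⁻¹ * x) ∈ H := mul_mem hy (hAH h1)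
        rwa [mul_inv_cancel_left] at h2
      have hBpow : ∀ x ∈ B.comap f, x ^ p ∈ A := by
        intro x hx
        have h1 := hBp (f x) hx
        rw [← map_pow] at h1
        exact (QuotientGroup.eq_one_iff _).1 h1
      let π : (B.comap f) →* A :=
        { toFun := fun x => ⟨(x : G) ^ p, hBpow x x.2⟩
          map_one' := Subtype.ext (one_pow p)
          map_mul' := by
            intro x y
            apply Subtype.ext
            change ((x : G) * (y : G)) ^ p = (x : G) ^ p * (y : G) ^ p
            have h1 : ⁅(y : G), (x : G)⁆ ∈ A := hcomm y (hBH' y.2) (hBpow y y.2) x (hBH' x.2)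
            exact Cfsg.Agent.OddOrderLocal.MetacyclicCoprime.mul_pow_prime_of_commute_commutator hp
              (hc _ h1.1 h1.2 x (hBH' x.2)).symm (hc _ h1.1 h1.2 y (hBH' y.2)).symm h1.2 }
      have h2 := π.ker.card_mul_index
      rw [Subgroup.index_ker] at h2
      have h3 : Nat.card π.range ≤ p ^ 2 :=
        (Nat.card_le_card_of_injective _ Subtype.val_injective).trans hAcard
      have h4 : Nat.card π.ker ≤ Nat.card A := by
        apply Nat.card_le_card_of_injective
          (fun x : π.ker => (⟨((x : B.comap f) : G), hBH' (x : B.comap f).2, by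
            have := congrArg Subtype.val (MonoidHom.mem_ker.1 x.2)
            exact this⟩ : A))
        intro x y hxy
        apply Subtype.ext
        apply Subtype.ext
        exact congrArg (fun z : A => (z : G)) hxy
      have h5 : Nat.card (B.comap f) = Nat.card B * Nat.card A := card_comap_mk A B
      rw [h5] at h2
      have h6 : 0 < Nat.card A := Nat.card_pos
      have h7 : Nat.card B * Nat.card A ≤ p ^ 2 * Nat.card A := by
        rw [← h2, mul_comm]
        exact Nat.mul_le_mul h3 h4
      exact Nat.le_of_mul_le_mul_right h7 h6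
  · -- inside `A`
    have h1 := (hKU.inf A hUA).2
    rw [← h1]
    calc (K ⊓ A).relIndex (U ⊓ A) ≤ Nat.card (U ⊓ A : Subgroup G) :=
          Nat.le_of_dvd Nat.card_pos (Subgroup.relIndex_dvd_card _ _)
      _ ≤ Nat.card A := Subgroup.card_le_of_le inf_le_right
      _ ≤ p ^ 2 := hAcard

/-- **Chief factors below a normal `p`-central `p`-subgroup** `H` with `|Ω₁(H)| ≤ p ^ 2`. -/
theorem chief_of_pcentral {p : ℕ} [Fact p.Prime] (hp : p ≠ 2) {G : Type*} [Group G] [Finite G]
    (H : Subgroup G) [hn : H.Normal] (hH : IsPGroup p H)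
    (hc : ∀ x ∈ H, x ^ p = 1 → ∀ y ∈ H, x * y = y * x)
    (hb : ∀ A : Subgroup G, A ≤ H → (∀ a ∈ A, a ^ p = 1) → Nat.card A ≤ p ^ 2)
    {K U : Subgroup G} (h : IsChief K U) (hU : U ≤ H) : K.relIndex U ≤ p ^ 2 :=
  chief_of_pcentral_aux hp (Nat.card H) G H hn rfl hH hc hb K U h hU

end Cfsg.Agent.H17.PCentral
end

-- part: H17/RankTwoChief
section
/-!
# Chief factors below a normal `p`-subgroup of rank at most two, `p` odd

`chief_of_rank_two`: let `p` be an odd prime, `P` a normal `p`-subgroup of the finite group `G` all of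
whose elementary abelian subgroups have order at most `p ^ 2`. Then every chief factor of `G` below `P`
has order at most `p ^ 2`.
-/

set_option autoImplicit false

namespace Cfsg.Agent.H17.RankTwoChief

open Subgroup
open scoped commutatorElement
open Cfsg.Agent.H17.Chief Cfsg.Agent.H17.PCentral

variable {G : Type*} [Group G]

/-- The index of the centralizer of `x` is at most the size of a set containing the orbit. -/
theorem relIndex_centralizer_le [Finite G] (H : Subgroup G) (x : G) (S : Set G)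
    (hS : ∀ h ∈ H, h * x * h⁻¹ ∈ S) :
    (centralizer ({x} : Set G)).relIndex H ≤ Nat.card S := by
  have h1 : (centralizer ({x} : Set G)).relIndex H =
    Nat.card (H ⧸ (centralizer ({x} : Set G)).subgroupOf H) := rfl
  rw [h1]
  have hwd : ∀ a b : H, (QuotientGroup.leftRel ((centralizer ({x} : Set G)).subgroupOf H)) a b →
      (⟨(a : G) * x * (a : G)⁻¹, hS a a.2⟩ : S) = ⟨(b : G) * x * (b : G)⁻¹, hS b b.2⟩ := by
    intro a b hab
    rw [QuotientGroup.leftRel_apply, mem_subgroupOf, mem_centralizer_singleton_iff] at hab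
    apply Subtype.ext
    change (a : G) * x * (a : G)⁻¹ = (b : G) * x * (b : G)⁻¹
    have h2 : ((a : G)⁻¹ * (b : G)) * x = x * ((a : G)⁻¹ * (b : G)) := hab
    calc (a : G) * x * (a : G)⁻¹ = a * (x * ((a : G)⁻¹ * (b : G))) * (b : G)⁻¹ := by group
      _ = a * (((a : G)⁻¹ * (b : G)) * x) * (b : G)⁻¹ := by rw [h2]
      _ = (b : G) * x * (b : G)⁻¹ := by group
  apply Nat.card_le_card_of_injective (Quotient.lift
    (fun a : H => (⟨(a : G) * x * (a : G)⁻¹, hS a a.2⟩ : S)) hwd)
  intro a b
  refine Quotient.inductionOn₂ a b ?_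
  intro a b hab
  apply Quotient.sound
  change (QuotientGroup.leftRel ((centralizer ({x} : Set G)).subgroupOf H)) a b
  rw [QuotientGroup.leftRel_apply, mem_subgroupOf, mem_centralizer_singleton_iff]
  have h2 : (a : G) * x * (a : G)⁻¹ = (b : G) * x * (b : G)⁻¹ := congrArg Subtype.val hab
  change ((a : G)⁻¹ * (b : G)) * x = x * ((a : G)⁻¹ * (b : G))
  calc ((a : G)⁻¹ * (b : G)) * x = (a : G)⁻¹ * ((b : G) * x * (b : G)⁻¹) * b := by group
    _ = (a : G)⁻¹ * ((a : G) * x * (a : G)⁻¹) * b := by rw [h2]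
    _ = x * ((a : G)⁻¹ * (b : G)) := by group

theorem relIndex_pow [Finite G] {p : ℕ} [hp : Fact p.Prime] {H : Subgroup G} (hH : IsPGroup p H)
    (L : Subgroup G) : ∃ k : ℕ, L.relIndex H = p ^ k := by
  obtain ⟨n, hn⟩ := IsPGroup.iff_card.1 hH
  have h1 : L.relIndex H ∣ p ^ n := hn ▸ Subgroup.relIndex_dvd_card L H
  obtain ⟨k, -, hk⟩ := (Nat.dvd_prime_pow hp.out).1 h1
  exact ⟨k, hk⟩

/-- A `p`-subgroup normalizing a `p`-subgroup `E` of order at most `p ^ 2` induces on it a group of
order at most `p`. -/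
theorem relIndex_centralizer_le_prime [Finite G] {p : ℕ} [hp : Fact p.Prime] {H E : Subgroup G}
    (hH : IsPGroup p H) (hE : IsPGroup p E) (hHE : ∀ h ∈ H, ∀ e ∈ E, h * e * h⁻¹ ∈ E)
    (hcard : Nat.card E ≤ p ^ 2) : (centralizer (E : Set G)).relIndex H ≤ p := by
  set F : Subgroup G := E ⊓ centralizer (H : Set G) with hF
  by_cases hFE : F = E
  · have h1 : H ≤ centralizer (E : Set G) := by
      rw [le_centralizer_iff]
      rw [← hFE]
      exact inf_le_right
    rw [relIndex_eq_one.2 h1]
    exact hp.out.one_le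
  have hFlt : F < E := lt_of_le_of_ne inf_le_left hFE
  obtain ⟨x, hxE, hxF⟩ := SetLike.exists_of_lt hFlt
  -- the fixed points
  let act : MulAction H E :=
    { smul := fun h e => ⟨h * e * (h : G)⁻¹, hHE h h.2 e e.2⟩
      one_smul := fun e => Subtype.ext (by
        change ((1 : H) : G) * e * ((1 : H) : G)⁻¹ = e
        simp)
      mul_smul := fun a b e => Subtype.ext (by
        change ((a * b : H) : G) * e * ((a * b : H) : G)⁻¹ = a * (b * e * (b : G)⁻¹) * (a : G)⁻¹
        simp [mul_assoc]) }
  have hsmul : ∀ (h : H) (e : E), ((h • e : E) : G) = h * e * (h : G)⁻¹ := fun _ _ => rfl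
  have hfix : ∀ e : E, e ∈ MulAction.fixedPoints H E ↔ (e : G) ∈ F := by
    intro e
    constructor
    · intro h
      refine ⟨e.2, ?_⟩
      change (e : G) ∈ centralizer (H : Set G)
      rw [mem_centralizer_iff]
      intro g hg
      have h1 := congrArg Subtype.val (h ⟨g, hg⟩)
      rw [hsmul] at h1
      exact mul_inv_eq_iff_eq_mul.1 h1
    · intro h g
      apply Subtype.ext
      rw [hsmul]
      exact mul_inv_eq_iff_eq_mul.2 ((mem_centralizer_iff.1 h.2) g g.2)
  have hmod := hH.card_modEq_card_fixedPoints E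
  have hcf : Nat.card (MulAction.fixedPoints H E) = Nat.card F := by
    refine Nat.card_congr
      { toFun := fun e => ⟨(e : E), (hfix e).1 e.2⟩
        invFun := fun f => ⟨⟨f, f.2.1⟩, (hfix _).2 f.2⟩
        left_inv := fun e => rfl
        right_inv := fun f => rfl }
  rw [hcf] at hmod
  obtain ⟨n, hn⟩ := IsPGroup.iff_card.1 hE
  have hn0 : n ≠ 0 := by
    rintro rfl
    rw [pow_zero, Subgroup.card_eq_one] at hn
    rw [hn] at hFlt
    exact not_lt_bot hFlt
  have hpF : p ∣ Nat.card F := by
    have h1 : Nat.card E ≡ 0 [MOD p] := by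
      rw [hn]; exact (Nat.modEq_zero_iff_dvd.2 (dvd_pow_self p hn0))
    exact (Nat.modEq_zero_iff_dvd.1 (hmod.symm.trans h1))
  have hFdvd : Nat.card F ∣ Nat.card E := Subgroup.card_dvd_of_le hFlt.le
  have hFlt' : Nat.card F < Nat.card E := by
    refine lt_of_le_of_ne (Nat.le_of_dvd Nat.card_pos hFdvd) ?_
    intro h
    exact hFE (Subgroup.eq_of_le_of_card_ge hFlt.le h.ge)
  have hFp : p ≤ Nat.card F := Nat.le_of_dvd Nat.card_pos hpF
  have hn2 : n = 2 := by
    have h1 : n ≤ 2 := by
      rw [hn] at hcard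
      exact (Nat.pow_le_pow_iff_right hp.out.one_lt).1 hcard
    have h2 : n ≠ 1 := by
      rintro rfl
      rw [hn, pow_one] at hFlt'
      omega
    omega
  subst hn2
  -- `F` and `x` generate `E`
  have hgen : F ⊔ zpowers x = E := by
    have hle : F ⊔ zpowers x ≤ E := sup_le hFlt.le (by rw [zpowers_le]; exact hxE)
    apply Subgroup.eq_of_le_of_card_ge hle
    have h1 : Nat.card (F ⊔ zpowers x : Subgroup G) ∣ p ^ 2 := by
      rw [← hn]; exact Subgroup.card_dvd_of_le hle
    obtain ⟨m, -, hm⟩ := (Nat.dvd_prime_pow hp.out).1 h1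
    have h2 : Nat.card F < Nat.card (F ⊔ zpowers x : Subgroup G) := by
      refine lt_of_le_of_ne (Subgroup.card_le_of_le le_sup_left) ?_
      intro h
      have h3 := Subgroup.eq_of_le_of_card_ge (le_sup_left : F ≤ F ⊔ zpowers x) h.ge
      apply hxF
      rw [h3]
      exact mem_sup_right (mem_zpowers x)
    rw [hn, hm]
    apply Nat.pow_le_pow_right hp.out.pos
    by_contra hlt
    push Not at hlt
    have h3 : p ^ m ≤ p ^ 1 := Nat.pow_le_pow_right hp.out.pos (by omega)
    rw [pow_one] at h3
    omega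
  have hle : (centralizer (E : Set G)).relIndex H ≤ (centralizer ({x} : Set G)).relIndex H := by
    have h1 : centralizer ({x} : Set G) ⊓ H ≤ centralizer (E : Set G) := by
      rw [le_centralizer_iff, ← hgen, sup_le_iff]
      constructor
      · intro f hf
        rw [mem_centralizer_iff]
        rintro g ⟨-, hg⟩
        exact (mem_centralizer_iff.1 hf.2) g hg
      · rw [zpowers_le, mem_centralizer_iff]
        rintro g ⟨hg, -⟩
        exact mem_centralizer_singleton_iff.1 hg
    have h2 := Subgroup.relIndex_dvd_of_le_left H h1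
    rw [inf_relIndex_right] at h2
    exact Nat.le_of_dvd (Nat.pos_of_ne_zero Subgroup.index_ne_zero_of_finite) h2
  refine hle.trans ?_
  -- the orbit of `x`
  have horb : (centralizer ({x} : Set G)).relIndex H ≤ Nat.card ((E : Set G) \ (F : Set G) : Set G) := by
    apply relIndex_centralizer_le
    intro h hh
    refine ⟨hHE h hh x hxE, ?_⟩
    intro hF'
    apply hxF
    refine ⟨hxE, ?_⟩
    change x ∈ centralizer (H : Set G)
    have h1 := (mem_centralizer_iff.1 hF'.2) h hh
    have h2 : h * x * h⁻¹ = x := by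
      have h3 : h * (h * x * h⁻¹) = h * x := by rw [h1]; group
      exact mul_left_cancel h3
    rw [← h2]
    exact hF'.2
  have hsd : Nat.card ((E : Set G) \ (F : Set G) : Set G) < p ^ 2 := by
    rw [← hn]
    change Nat.card _ < Nat.card (E : Set G)
    rw [Nat.card_coe_set_eq, Nat.card_coe_set_eq]
    apply Set.ncard_lt_ncard _ (Set.toFinite _)
    refine ⟨Set.sdiff_subset, ?_⟩
    intro h
    exact (h (one_mem E)).2 (one_mem F)
  obtain ⟨k, hk⟩ := relIndex_pow hH (centralizer ({x} : Set G))
  rw [hk] at horb ⊢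
  have h1 : p ^ k < p ^ 2 := lt_of_le_of_lt horb hsd
  have h2 : k < 2 := (Nat.pow_lt_pow_iff_right hp.out.one_lt).1 h1
  calc p ^ k ≤ p ^ 1 := Nat.pow_le_pow_right hp.out.pos (by omega)
    _ = p := pow_one p

/-- The inductive statement: all chief factors below `P` smaller than `U` are small. -/
theorem chief_of_rank_two_aux [Finite G] {p : ℕ} [hpf : Fact p.Prime] (hp : p ≠ 2) {P : Subgroup G}
    (hP : IsPGroup p P)
    (hr : ∀ A : Subgroup G, A ≤ P → (∀ a ∈ A, ∀ b ∈ A, a * b = b * a) → (∀ a ∈ A, a ^ p = 1) →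
      Nat.card A ≤ p ^ 2) (n : ℕ) :
    ∀ K H : Subgroup G, Nat.card H = n → IsChief K H → H ≤ P → K.relIndex H ≤ p ^ 2 := by
  induction n using Nat.strong_induction_on with
  | _ n ih =>
  intro K H hn hKH hHP
  by_contra hbig
  push Not at hbig
  have hKn := hKH.nK
  have hHn := hKH.nH
  have hHp : IsPGroup p H := hP.to_le hHP
  have hp1 : 1 < p := hpf.out.one_lt
  -- (*)
  have star : ∀ N : Subgroup G, N.Normal → H ≤ N ∨ H ⊓ N ≤ K := by
    intro N hN
    by_contra hcon
    push Not at hcon
    obtain ⟨h1, h2⟩ := hcon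
    obtain ⟨h3, h4⟩ := hKH.inf N h2
    have hlt : Nat.card (H ⊓ N : Subgroup G) < n := by
      rw [← hn]
      refine lt_of_le_of_ne (Subgroup.card_le_of_le inf_le_left) ?_
      intro h
      have h5 := Subgroup.eq_of_le_of_card_ge (inf_le_left : H ⊓ N ≤ H) h.ge
      exact h1 (inf_eq_left.1 h5)
    have h5 := ih _ hlt _ _ rfl h3 (inf_le_left.trans hHP)
    rw [h4] at h5
    omega
  have s0 : ∀ D : Subgroup G, D.Normal → D.relIndex H ≤ p ^ 2 → H ≤ D := by
    intro D hD hle
    rcases star D hD with h | h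
    · exact h
    · exfalso
      have h1 : K.relIndex H ∣ (D ⊓ H).relIndex H :=
        Subgroup.relIndex_dvd_of_le_left H (by rw [inf_comm]; exact h)
      rw [inf_relIndex_right] at h1
      have h2 : K.relIndex H ≤ D.relIndex H :=
        Nat.le_of_dvd (Nat.pos_of_ne_zero Subgroup.index_ne_zero_of_finite) h1
      omega
  -- (s1) normal elementary abelian subgroups are central
  have s1 : ∀ E : Subgroup G, E.Normal → E ≤ H → (∀ a ∈ E, ∀ b ∈ E, a * b = b * a) →
      (∀ a ∈ E, a ^ p = 1) → ∀ e ∈ E, ∀ h ∈ H, e * h = h * e := by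
    intro E hEn hEH hEc hEp e he h hh
    have h1 : (centralizer (E : Set G)).relIndex H ≤ p :=
      relIndex_centralizer_le_prime hHp (hHp.to_le hEH) (fun h _ e he => hEn.conj_mem e he h)
        (hr E (hEH.trans hHP) hEc hEp)
    have h2 : H ≤ centralizer (E : Set G) := by
      apply s0 _ inferInstance
      exact h1.trans (Nat.le_self_pow (by norm_num) p)
    exact (mem_centralizer_iff.1 (h2 hh)) e he
  -- the group `A = Ω₁(Z(H))`
  let A : Subgroup G :=
    { carrier := {x | x ∈ H ∧ x ^ p = 1 ∧ ∀ h ∈ H, x * h = h * x}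
      mul_mem' := by
        rintro a b ⟨ha, ha', hac⟩ ⟨hb, hb', hbc⟩
        refine ⟨mul_mem ha hb, ?_, ?_⟩
        · rw [(show Commute a b from hac b hb).mul_pow, ha', hb', one_mul]
        · intro h hh
          exact ((show Commute a h from hac h hh).mul_left (hbc h hh))
      one_mem' := ⟨one_mem _, one_pow p, fun h _ => by rw [one_mul, mul_one]⟩
      inv_mem' := by
        rintro a ⟨ha, ha', hac⟩
        exact ⟨inv_mem ha, by rw [inv_pow, ha', inv_one],
          fun h hh => (show Commute a h from hac h hh).inv_left⟩ }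
  have hAn : A.Normal := by
    refine ⟨fun a ha g => ⟨hHn.conj_mem a ha.1 g, ?_, ?_⟩⟩
    · rw [conj_pow, ha.2.1, mul_one, mul_inv_cancel]
    · intro h hh
      have h1 : g⁻¹ * h * g ∈ H := by
        have := hHn.conj_mem h hh g⁻¹
        rwa [inv_inv] at this
      have h2 := ha.2.2 _ h1
      calc g * a * g⁻¹ * h = g * (a * (g⁻¹ * h * g)) * g⁻¹ := by group
        _ = g * ((g⁻¹ * h * g) * a) * g⁻¹ := by rw [h2]
        _ = h * (g * a * g⁻¹) := by group
  have hAH : A ≤ H := fun a ha => ha.1
  have hAc : ∀ a ∈ A, ∀ h ∈ H, a * h = h * a := fun a ha => ha.2.2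
  have hAp : ∀ a ∈ A, a ^ p = 1 := fun a ha => ha.2.1
  have hAcomm : ∀ a ∈ A, ∀ b ∈ A, a * b = b * a := fun a ha b hb => hAc a ha b (hAH hb)
  have hAcard : Nat.card A ≤ p ^ 2 := hr A (hAH.trans hHP) hAcomm hAp
  -- adding an element of order `p`
  have hadd : ∀ x ∈ H, x ^ p = 1 → Nat.card (A ⊔ zpowers x : Subgroup G) ≤ p ^ 2 := by
    intro x hx hxp
    have hform : ∀ y ∈ A ⊔ zpowers x, ∃ a ∈ A, ∃ k : ℤ, y = a * x ^ k := by
      intro y hy
      rw [Subgroup.mem_sup_of_normal_left] at hy
      obtain ⟨a, ha, z, ⟨k, rfl⟩, rfl⟩ := hy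
      exact ⟨a, ha, k, rfl⟩
    apply hr
    · exact (sup_le hAH (by rw [zpowers_le]; exact hx)).trans hHP
    · intro y hy z hz
      obtain ⟨a, ha, k, rfl⟩ := hform y hy
      obtain ⟨b, hb, l, rfl⟩ := hform z hz
      have e1 : Commute a b := hAcomm a ha b hb
      have e2 : Commute a x := hAc a ha x hx
      have e3 : Commute b x := hAc b hb x hx
      exact ((e1.mul_right (e2.zpow_right l))).mul_left
        (((e3.symm.zpow_left k)).mul_right ((Commute.refl x).zpow_zpow k l))
    · intro y hy
      obtain ⟨a, ha, k, rfl⟩ := hform y hy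
      have e2 : Commute a (x ^ k) := (show Commute a x from hAc a ha x hx).zpow_right k
      rw [e2.mul_pow, hAp a ha, one_mul, ← zpow_natCast, ← zpow_mul, mul_comm, zpow_mul,
        zpow_natCast, hxp, one_zpow]
  by_cases hA2 : p < Nat.card A
  · -- `H` is `p`-central
    have hA3 : Nat.card A = p ^ 2 := by
      obtain ⟨k, hk⟩ := IsPGroup.iff_card.1 (hHp.to_le hAH)
      rw [hk] at hA2 hAcard ⊢
      have h1 : k ≤ 2 := (Nat.pow_le_pow_iff_right hp1).1 hAcard
      have h2 : 1 < k := by
        apply (Nat.pow_lt_pow_iff_right hp1).1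
        rw [pow_one]; exact hA2
      have h3 : k = 2 := by omega
      rw [h3]
    have hmem : ∀ x ∈ H, x ^ p = 1 → x ∈ A := by
      intro x hx hxp
      have h1 := Subgroup.eq_of_le_of_card_ge (le_sup_left : A ≤ A ⊔ zpowers x)
        (by rw [hA3]; exact hadd x hx hxp)
      rw [h1]
      exact mem_sup_right (mem_zpowers x)
    have h1 := chief_of_pcentral hp H hHp (fun x hx hxp y hy => hAc x (hmem x hx hxp) y hy)
      (fun B hB hBp => (Subgroup.card_le_of_le (fun b hb => hmem b (hB hb) (hBp b hb))).trans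
        hAcard) hKH le_rfl
    omega
  push Not at hA2
  -- `p`-th powers and commutators of elements of `H` lie in `K`
  have hΦ : (frattini H).map H.subtype ≤ K := by
    rcases star ((frattini H).map H.subtype) inferInstance with h | h
    · exfalso
      have h1 : frattini H = ⊤ := by
        rw [eq_top_iff]
        rintro ⟨x, hx⟩ -
        obtain ⟨y, hy, hyx⟩ := h hx
        have : y = ⟨x, hx⟩ := Subtype.ext hyx
        rwa [this] at hy
      have h2 : (⊥ : Subgroup H) = ⊤ := frattini_nongenerating (by rw [h1]; exact sup_top_eq _)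
      have h3 : H ≤ K := by
        intro x hx
        have h4 : (⟨x, hx⟩ : H) ∈ (⊥ : Subgroup H) := by rw [h2]; exact mem_top _
        have h5 : x = 1 := congrArg Subtype.val (Subgroup.mem_bot.1 h4)
        rw [h5]
        exact one_mem _
      exact absurd hKH.lt (not_lt_of_ge h3)
    · have h1 : (frattini H).map H.subtype ≤ H := map_subtype_le _
      rwa [inf_eq_right.2 h1] at h
  have hpow : ∀ x ∈ H, x ^ p ∈ K := by
    intro x hx
    exact hΦ ⟨_, Cfsg.Agent.Lib.FrattiniPGroup.pow_mem_frattini hHp ⟨x, hx⟩, rfl⟩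
  -- cyclic quotients are small
  have hcycq : ∀ (L : Subgroup H) [L.Normal], L ≤ K.subgroupOf H → IsCyclic (H ⧸ L) → False := by
    intro L hL hLK hcyc
    obtain ⟨g, hg⟩ := hcyc.exists_generator
    obtain ⟨x, rfl⟩ := QuotientGroup.mk_surjective g
    -- `H / K` has at most `p` elements
    have hle : K.relIndex H ≤ p := by
      change Nat.card (H ⧸ K.subgroupOf H) ≤ p
      have hgen : ∀ y : H ⧸ K.subgroupOf H, y ∈ zpowers (QuotientGroup.mk x : H ⧸ K.subgroupOf H) := by
        intro y
        obtain ⟨y, rfl⟩ := QuotientGroup.mk_surjective y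
        obtain ⟨k, hk⟩ := hg (QuotientGroup.mk y)
        refine ⟨k, ?_⟩
        have h1 : (x ^ k)⁻¹ * y ∈ L := by
          rw [← QuotientGroup.eq]; exact hk
        have h2 : (QuotientGroup.mk (x ^ k) : H ⧸ K.subgroupOf H) = QuotientGroup.mk y := by
          rw [QuotientGroup.eq]; exact hLK h1
        exact h2
      rw [← orderOf_eq_card_of_forall_mem_zpowers hgen]
      apply orderOf_le_of_pow_eq_one hpf.out.pos
      rw [← QuotientGroup.mk_pow, QuotientGroup.eq_one_iff, mem_subgroupOf]
      exact hpow x x.2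
    have : p ≤ p ^ 2 := Nat.le_self_pow (by norm_num) p
    omega
  -- a maximal abelian normal subgroup below `H`
  let S : Set (Subgroup G) := {C | C.Normal ∧ C ≤ H ∧ ∀ x ∈ C, ∀ y ∈ C, x * y = y * x}
  have hSne : S.Nonempty := by
    refine ⟨⊥, inferInstance, bot_le, ?_⟩
    intro x hx y hy
    rw [Subgroup.mem_bot.1 hx, Subgroup.mem_bot.1 hy]
  obtain ⟨C, ⟨hCn, hCH, hCc⟩, hCmax⟩ := (Set.toFinite S).exists_maximal hSne
  -- abelian normal subgroups are cyclic
  have hcyc : ∀ B : Subgroup G, B.Normal → B ≤ H → (∀ x ∈ B, ∀ y ∈ B, x * y = y * x) →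
      IsCyclic B := by
    intro B hBn hBH hBc
    let : CommGroup B := { (inferInstance : Group B) with
      mul_comm := fun x y => Subtype.ext (hBc x x.2 y y.2) }
    apply Cfsg.Agent.Transfer.PGroupNormal.isCyclic_of_card_ker_pow_le (p := p) (hHp.to_le hBH)
    -- `Ω₁(B)`
    let E : Subgroup G :=
      { carrier := {x | x ∈ B ∧ x ^ p = 1}
        mul_mem' := by
          rintro a b ⟨ha, ha'⟩ ⟨hb, hb'⟩
          exact ⟨mul_mem ha hb, by
            rw [(show Commute a b from hBc a ha b hb).mul_pow, ha', hb', one_mul]⟩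
        one_mem' := ⟨one_mem _, one_pow p⟩
        inv_mem' := by
          rintro a ⟨ha, ha'⟩
          exact ⟨inv_mem ha, by rw [inv_pow, ha', inv_one]⟩ }
    have hEn : E.Normal := by
      refine ⟨fun a ha g => ⟨hBn.conj_mem a ha.1 g, ?_⟩⟩
      rw [conj_pow, ha.2, mul_one, mul_inv_cancel]
    have hEA : E ≤ A := by
      intro e he
      exact ⟨hBH he.1, he.2, s1 E hEn (fun x hx => hBH hx.1)
        (fun a ha b hb => hBc a ha.1 b hb.1) (fun a ha => ha.2) e he⟩
    refine le_trans ?_ hA2
    apply Nat.card_le_card_of_injective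
      (fun x : (powMonoidHom p : B →* B).ker => (⟨((x : B) : G), hEA ⟨(x : B).2, by
        exact congrArg Subtype.val (MonoidHom.mem_ker.1 x.2)⟩⟩ : A))
    intro x y hxy
    apply Subtype.ext
    apply Subtype.ext
    exact congrArg (fun z : A => (z : G)) hxy
  have hCcyc : IsCyclic C := hcyc C hCn hCH hCc
  -- `H` centralizes `C`
  have hHC : H ≤ centralizer (C : Set G) := by
    rcases star (centralizer (C : Set G)) inferInstance with h | h
    · exact h
    · exfalso
      have hN : normalizer (C : Set G) = ⊤ := Subgroup.normalizer_eq_top C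
      let φ : H →* MulAut C :=
        (C.normalizerMonoidHom).comp (Subgroup.inclusion (by rw [hN]; exact le_top))
      have hker : φ.ker ≤ K.subgroupOf H := by
        intro x hx
        rw [mem_subgroupOf]
        apply h
        refine ⟨x.2, ?_⟩
        change (x : G) ∈ centralizer (C : Set G)
        rw [mem_centralizer_iff]
        intro c hc
        have h1 := congrArg (fun β : MulAut C => ((β ⟨c, hc⟩ : C) : G)) (MonoidHom.mem_ker.1 hx)
        have h2 : (x : G) * c * (x : G)⁻¹ = c := h1
        exact (mul_inv_eq_iff_eq_mul.1 h2).symm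
      have hcycA : IsCyclic (MulAut C) := by
        obtain ⟨k, hk⟩ := IsPGroup.iff_card.1 (hHp.to_le hCH)
        have h1 : IsCyclic (ZMod (Nat.card C))ˣ := by
          rw [hk]
          exact ZMod.isCyclic_units_of_prime_pow p hpf.out hp k
        exact isCyclic_of_surjective (IsCyclic.mulAutMulEquiv C).symm
          (IsCyclic.mulAutMulEquiv C).symm.surjective
      have hcr : IsCyclic (H ⧸ φ.ker) :=
        isCyclic_of_injective (QuotientGroup.kerLift φ) (QuotientGroup.kerLift_injective φ)
      exact hcycq φ.ker hker hcr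
  have hCcen : ∀ c ∈ C, ∀ h ∈ H, c * h = h * c := fun c hc h hh =>
    (mem_centralizer_iff.1 (hHC hh)) c hc
  by_cases hCeq : C = H
  · -- `H` is cyclic
    have hHcyc : IsCyclic H := by rw [← hCeq]; exact hCcyc
    refine hcycq ⊥ bot_le ?_
    exact isCyclic_of_surjective (QuotientGroup.mk' (⊥ : Subgroup H)) (QuotientGroup.mk'_surjective _)
  have hClt : C < H := lt_of_le_of_ne hCH hCeq
  -- the subgroup `B`
  have hCcomm : ∀ b ∈ H, ∀ h ∈ H, ⁅b, h⁆ ∈ C → ∀ g ∈ H, Commute g ⁅b, h⁆ :=
    fun b _ h _ hbh g hg => (hCcen _ hbh g hg).symm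
  let B : Subgroup G :=
    { carrier := {b | b ∈ H ∧ b ^ p ∈ C ∧ ∀ h ∈ H, ⁅b, h⁆ ∈ C}
      mul_mem' := by
        rintro a b ⟨ha, ha', hac⟩ ⟨hb, hb', hbc⟩
        refine ⟨mul_mem ha hb, ?_, ?_⟩
        · rw [Cfsg.Agent.OddOrderLocal.MetacyclicCoprime.mul_pow_of_commute_commutator
            (hCcomm b hb a ha (hbc a ha) a ha) (hCcomm b hb a ha (hbc a ha) b hb)]
          exact mul_mem (mul_mem ha' hb') (pow_mem (hbc a ha) _)
        · intro h hh
          have h1 : ⁅a * b, h⁆ = a * ⁅b, h⁆ * a⁻¹ * ⁅a, h⁆ := by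
            simp only [commutatorElement_def]; group
          rw [h1]
          exact mul_mem (hCn.conj_mem _ (hbc h hh) a) (hac h hh)
      one_mem' := ⟨one_mem _, by rw [one_pow]; exact one_mem _, fun h _ => by
        rw [commutatorElement_one_left]; exact one_mem _⟩
      inv_mem' := by
        rintro a ⟨ha, ha', hac⟩
        refine ⟨inv_mem ha, by rw [inv_pow]; exact inv_mem ha', ?_⟩
        intro h hh
        have h1 : ⁅a⁻¹, h⁆ = a⁻¹ * ⁅a, h⁆⁻¹ * a⁻¹⁻¹ := by
          simp only [commutatorElement_def]; group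
        rw [h1]
        exact hCn.conj_mem _ (inv_mem (hac h hh)) a⁻¹ }
  have hBn : B.Normal := by
    refine ⟨fun b hb g => ⟨hHn.conj_mem b hb.1 g, ?_, ?_⟩⟩
    · rw [conj_pow]; exact hCn.conj_mem _ hb.2.1 g
    · intro h hh
      have h1 : g⁻¹ * h * g ∈ H := by
        have := hHn.conj_mem h hh g⁻¹
        rwa [inv_inv] at this
      have h2 : ⁅g * b * g⁻¹, h⁆ = g * ⁅b, g⁻¹ * h * g⁆ * g⁻¹ := by
        simp only [commutatorElement_def]; group
      rw [h2]
      exact hCn.conj_mem _ (hb.2.2 _ h1) g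
  have hBH : B ≤ H := fun b hb => hb.1
  have hCB : C ≤ B := by
    intro c hc
    refine ⟨hCH hc, pow_mem hc p, ?_⟩
    intro h hh
    rw [commutatorElement_eq_one_iff_mul_comm.2 (hCcen c hc h hh)]
    exact one_mem _
  have hBne : ¬ B ≤ C := by
    intro hle
    -- a central element of order `p` of `H / C`
    have hq : IsPGroup p (H ⧸ C.subgroupOf H) := hHp.to_quotient _
    have hnt : Nontrivial (H ⧸ C.subgroupOf H) := by
      obtain ⟨x, hxH, hxC⟩ := SetLike.exists_of_lt hClt
      refine ⟨⟨QuotientGroup.mk ⟨x, hxH⟩, 1, ?_⟩⟩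
      intro h
      rw [QuotientGroup.eq_one_iff, mem_subgroupOf] at h
      exact hxC h
    have hcn := hq.center_nontrivial
    have hcp : IsPGroup p (center (H ⧸ C.subgroupOf H)) := hq.to_subgroup _
    obtain ⟨m, hm0, hm⟩ := hcp.nontrivial_iff_card.1 hcn
    obtain ⟨z, hz⟩ := exists_prime_orderOf_dvd_card' (G := center (H ⧸ C.subgroupOf H)) p (by
      rw [hm]; exact dvd_pow_self p hm0.ne')
    obtain ⟨y, hy⟩ := QuotientGroup.mk_surjective (z : H ⧸ C.subgroupOf H)
    have hyB : (y : G) ∈ B := by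
      refine ⟨y.2, ?_, ?_⟩
      · have h1 : (z : H ⧸ C.subgroupOf H) ^ p = 1 := by
          have := pow_orderOf_eq_one z
          rw [hz] at this
          exact congrArg Subtype.val this
        rw [← hy, ← QuotientGroup.mk_pow, QuotientGroup.eq_one_iff, mem_subgroupOf] at h1
        exact h1
      · intro h hh
        have h1 := (mem_center_iff.1 z.2) (QuotientGroup.mk ⟨h, hh⟩)
        rw [← hy] at h1
        have h2 : ⁅(QuotientGroup.mk y : H ⧸ C.subgroupOf H),
            (QuotientGroup.mk (⟨h, hh⟩ : H) : H ⧸ C.subgroupOf H)⁆ = 1 :=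
          commutatorElement_eq_one_iff_mul_comm.2 h1.symm
        have h3 : (QuotientGroup.mk ⁅y, (⟨h, hh⟩ : H)⁆ : H ⧸ C.subgroupOf H) = 1 := h2
        rw [QuotientGroup.eq_one_iff, mem_subgroupOf] at h3
        exact h3
    have h1 : (y : G) ∈ C := hle hyB
    have h2 : (z : H ⧸ C.subgroupOf H) = 1 := by
      rw [← hy, QuotientGroup.eq_one_iff, mem_subgroupOf]
      exact h1
    have h3 : z = 1 := Subtype.ext h2
    rw [h3, orderOf_one] at hz
    exact hpf.out.ne_one hz.symm
  -- commutators `⁅b, h⁆` lie in `A`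
  have hBA : ∀ b ∈ B, ∀ h ∈ H, ⁅b, h⁆ ∈ A := by
    intro b hb h hh
    have h1 : ⁅b, h⁆ ∈ C := hb.2.2 h hh
    have h2 : ⁅b, h⁆ ^ p = 1 := by
      rw [← Cfsg.Agent.OddOrderLocal.MetacyclicCoprime.commutator_pow_left
        (hCcomm b hb.1 h hh h1 b hb.1)]
      exact commutatorElement_eq_one_iff_mul_comm.2 (hCcen _ hb.2.1 h hh)
    exact ⟨hCH h1, h2, hCcen _ h1⟩
  have hBmul : ∀ a ∈ B, ∀ b ∈ B, (a * b) ^ p = a ^ p * b ^ p := by
    intro a ha b hb
    have h1 := hBA b hb a ha.1
    exact Cfsg.Agent.OddOrderLocal.MetacyclicCoprime.mul_pow_prime_of_commute_commutator hp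
      (hAc _ h1 a ha.1).symm (hAc _ h1 b hb.1).symm (hAp _ h1)
  -- the subgroup `E`
  let E : Subgroup G :=
    { carrier := {x | x ∈ B ∧ x ^ p = 1}
      mul_mem' := by
        rintro a b ⟨ha, ha'⟩ ⟨hb, hb'⟩
        exact ⟨mul_mem ha hb, by rw [hBmul a ha b hb, ha', hb', one_mul]⟩
      one_mem' := ⟨one_mem _, one_pow p⟩
      inv_mem' := by
        rintro a ⟨ha, ha'⟩
        exact ⟨inv_mem ha, by rw [inv_pow, ha', inv_one]⟩ }
  have hEn : E.Normal := by
    refine ⟨fun a ha g => ⟨hBn.conj_mem a ha.1 g, ?_⟩⟩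
    rw [conj_pow, ha.2, mul_one, mul_inv_cancel]
  have hEB : E ≤ B := fun e he => he.1
  have hEH : E ≤ H := hEB.trans hBH
  have hAB : A ≤ B := by
    intro a ha
    refine ⟨hAH ha, by rw [hAp a ha]; exact one_mem _, ?_⟩
    intro h hh
    rw [commutatorElement_eq_one_iff_mul_comm.2 (hAc a ha h hh)]
    exact one_mem _
  have hAE : A ≤ E := fun a ha => ⟨hAB ha, hAp a ha⟩
  -- orbits of elements of `E`
  have horb : ∀ e ∈ E, (centralizer ({e} : Set G)).relIndex H ≤ p := by
    intro e he
    have h1 : (centralizer ({e} : Set G)).relIndex H ≤ Nat.card {y : G | y * e⁻¹ ∈ A} := by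
      apply relIndex_centralizer_le
      intro h hh
      change h * e * h⁻¹ * e⁻¹ ∈ A
      have h2 := inv_mem (hBA e (hEB he) h hh)
      rw [commutatorElement_inv] at h2
      exact h2
    refine h1.trans (le_trans ?_ hA2)
    apply Nat.card_le_card_of_injective
      (fun y : {y : G | y * e⁻¹ ∈ A} => (⟨(y : G) * e⁻¹, y.2⟩ : A))
    intro x y hxy
    apply Subtype.ext
    exact mul_right_cancel (congrArg Subtype.val hxy)
  have hEcomm : ∀ x ∈ E, ∀ y ∈ E, x * y = y * x := by
    by_contra hcon
    push Not at hcon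
    obtain ⟨x, hx, y, hy, hxy⟩ := hcon
    -- `C_E(x) = A⟨x⟩`
    have hxA : x ∉ A := fun h => hxy (hAc x h y (hEH hy))
    have hA1 : A ≠ ⊥ := by
      intro h
      have h1 := hBA x (hEB hx) y (hEH hy)
      rw [h, Subgroup.mem_bot, commutatorElement_eq_one_iff_mul_comm] at h1
      exact hxy h1
    have hAp' : Nat.card A = p := by
      obtain ⟨k, hk⟩ := IsPGroup.iff_card.1 (hHp.to_le hAH)
      have h1 : k ≠ 0 := by
        rintro rfl
        rw [pow_zero, Subgroup.card_eq_one] at hk
        exact hA1 hk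
      have h2 : p ^ 1 ≤ p ^ k := Nat.pow_le_pow_right hpf.out.pos (Nat.one_le_iff_ne_zero.2 h1)
      rw [pow_one, ← hk] at h2
      exact le_antisymm hA2 h2
    have hT : Nat.card (A ⊔ zpowers x : Subgroup G) = p ^ 2 := by
      apply le_antisymm (hadd x (hEH hx) hx.2)
      obtain ⟨k, hk⟩ := IsPGroup.iff_card.1
        (hHp.to_le (sup_le hAH (by rw [zpowers_le]; exact hEH hx)) : IsPGroup p
          (A ⊔ zpowers x : Subgroup G))
      have h1 : Nat.card A < Nat.card (A ⊔ zpowers x : Subgroup G) := by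
        refine lt_of_le_of_ne (Subgroup.card_le_of_le le_sup_left) ?_
        intro h
        have h3 := Subgroup.eq_of_le_of_card_ge (le_sup_left : A ≤ A ⊔ zpowers x) h.ge
        apply hxA
        rw [h3]
        exact mem_sup_right (mem_zpowers x)
      rw [hAp', hk] at h1
      rw [hk]
      apply Nat.pow_le_pow_right hpf.out.pos
      have h2 : 1 < k := by
        apply (Nat.pow_lt_pow_iff_right hp1).1
        rw [pow_one]; exact h1
      omega
    have hcx : ∀ z ∈ E, z * x = x * z → z ∈ A ⊔ zpowers x := by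
      intro z hz hzx
      have h1 : Nat.card ((A ⊔ zpowers x) ⊔ zpowers z : Subgroup G) ≤ p ^ 2 := by
        have hform : ∀ y ∈ (A ⊔ zpowers x) ⊔ zpowers z, ∃ a ∈ A, ∃ k l : ℤ,
            y = a * x ^ k * z ^ l := by
          intro w hw
          have hle : (A ⊔ zpowers x) ⊔ zpowers z ≤ A ⊔ (zpowers x ⊔ zpowers z) := by
            rw [sup_assoc]
          have hw' := hle hw
          rw [Subgroup.mem_sup_of_normal_left] at hw'
          obtain ⟨a, ha, w', hw', rfl⟩ := hw'
          -- `⟨x⟩ ⊔ ⟨z⟩`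
          have h2 : w' ∈ closure ({x, z} : Set G) := by
            have h3 : zpowers x ⊔ zpowers z ≤ closure ({x, z} : Set G) := by
              rw [sup_le_iff, zpowers_le, zpowers_le]
              exact ⟨subset_closure (by simp), subset_closure (by simp)⟩
            exact h3 hw'
          have hc : Commute x z := hzx.symm
          have h4 : ∀ w' ∈ closure ({x, z} : Set G), ∃ k l : ℤ, w' = x ^ k * z ^ l := by
            intro w' hw'
            induction hw' using Subgroup.closure_induction with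
            | mem u hu =>
              rcases hu with rfl | rfl
              · exact ⟨1, 0, by simp⟩
              · exact ⟨0, 1, by simp⟩
            | one => exact ⟨0, 0, by simp⟩
            | mul u v _ _ hu hv =>
              obtain ⟨k, l, rfl⟩ := hu
              obtain ⟨k', l', rfl⟩ := hv
              refine ⟨k + k', l + l', ?_⟩
              have h5 : z ^ l * x ^ k' = x ^ k' * z ^ l := ((hc.zpow_zpow k' l)).eq.symm
              calc x ^ k * z ^ l * (x ^ k' * z ^ l') = x ^ k * (z ^ l * x ^ k') * z ^ l' := by group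
                _ = x ^ k * (x ^ k' * z ^ l) * z ^ l' := by rw [h5]
                _ = x ^ (k + k') * z ^ (l + l') := by rw [zpow_add, zpow_add]; group
            | inv u _ hu =>
              obtain ⟨k, l, rfl⟩ := hu
              refine ⟨-k, -l, ?_⟩
              rw [mul_inv_rev, ← zpow_neg, ← zpow_neg]
              exact ((hc.zpow_zpow (-k) (-l))).eq.symm
          obtain ⟨k, l, rfl⟩ := h4 w' h2
          exact ⟨a, ha, k, l, by rw [mul_assoc]⟩
        have ex : Commute x z := hzx.symm
        apply hr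
        · refine (sup_le (sup_le hAH ?_) ?_).trans hHP
          · rw [zpowers_le]; exact hEH hx
          · rw [zpowers_le]; exact hEH hz
        · intro u hu v hv
          obtain ⟨a, ha, k, l, rfl⟩ := hform u hu
          obtain ⟨b, hb, k', l', rfl⟩ := hform v hv
          have e1 : Commute a b := hAcomm a ha b hb
          have e2 : Commute a x := hAc a ha x (hEH hx)
          have e3 : Commute b x := hAc b hb x (hEH hx)
          have e4 : Commute a z := hAc a ha z (hEH hz)
          have e5 : Commute b z := hAc b hb z (hEH hz)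
          have f1 : Commute a (b * x ^ k' * z ^ l') :=
            (e1.mul_right (e2.zpow_right k')).mul_right (e4.zpow_right l')
          have f2 : Commute (x ^ k) (b * x ^ k' * z ^ l') :=
            ((e3.symm.zpow_left k).mul_right ((Commute.refl x).zpow_zpow k k')).mul_right
              (ex.zpow_zpow k l')
          have f3 : Commute (z ^ l) (b * x ^ k' * z ^ l') :=
            ((e5.symm.zpow_left l).mul_right (ex.symm.zpow_zpow l k')).mul_right
              ((Commute.refl z).zpow_zpow l l')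
          exact (f1.mul_left f2).mul_left f3
        · intro u hu
          obtain ⟨a, ha, k, l, rfl⟩ := hform u hu
          have e2 : Commute a x := hAc a ha x (hEH hx)
          have e4 : Commute a z := hAc a ha z (hEH hz)
          have f1 : Commute (a * x ^ k) (z ^ l) :=
            (e4.zpow_right l).mul_left (ex.zpow_zpow k l)
          have hxk : (x ^ k) ^ p = 1 := by
            rw [← zpow_natCast, ← zpow_mul, mul_comm, zpow_mul, zpow_natCast, hx.2, one_zpow]
          have hzl : (z ^ l) ^ p = 1 := by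
            rw [← zpow_natCast, ← zpow_mul, mul_comm, zpow_mul, zpow_natCast, hz.2, one_zpow]
          rw [f1.mul_pow, (e2.zpow_right k).mul_pow, hAp a ha, hxk, hzl, one_mul, one_mul]
      have h2 := Subgroup.eq_of_le_of_card_ge
        (le_sup_left : A ⊔ zpowers x ≤ (A ⊔ zpowers x) ⊔ zpowers z) (by rw [hT]; exact h1)
      rw [h2]
      exact mem_sup_right (mem_zpowers z)
    -- elements commuting with `x` and `y` centralize `E`
    have hcent : ∀ h ∈ H, h * x = x * h → h * y = y * h → ∀ e ∈ E, h * e = e * h := by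
      intro h hh hhx hhy
      set F : Subgroup G := E ⊓ centralizer ({h} : Set G) with hF
      have hxF : x ∈ F := ⟨hx, mem_centralizer_singleton_iff.2 hhx.symm⟩
      have hyF : y ∈ F := ⟨hy, mem_centralizer_singleton_iff.2 hhy.symm⟩
      have hAF : A ≤ F := by
        intro a ha
        exact ⟨hAE ha, mem_centralizer_singleton_iff.2 (hAc a ha h hh)⟩
      have hCF : E ⊓ centralizer ({x} : Set G) ≤ F := by
        rintro z ⟨hz, hzx⟩
        have h1 := hcx z hz (mem_centralizer_singleton_iff.1 hzx)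
        have h2 : A ⊔ zpowers x ≤ F := sup_le hAF (by rw [zpowers_le]; exact hxF)
        exact h2 h1
      have hEp : IsPGroup p E := hHp.to_le hEH
      have hle : (E ⊓ centralizer ({x} : Set G)).relIndex E ≤ p := by
        rw [inf_relIndex_left]
        have h1 : (centralizer ({x} : Set G)).relIndex E ≤ Nat.card {z : G | z * x⁻¹ ∈ A} := by
          apply relIndex_centralizer_le
          intro e he
          change e * x * e⁻¹ * x⁻¹ ∈ A
          have h2 := hBA e (hEB he) x (hEH hx)
          rw [commutatorElement_def] at h2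
          exact h2
        refine h1.trans (le_trans ?_ hA2)
        apply Nat.card_le_card_of_injective
          (fun z : {z : G | z * x⁻¹ ∈ A} => (⟨(z : G) * x⁻¹, z.2⟩ : A))
        intro u v huv
        apply Subtype.ext
        exact mul_right_cancel (congrArg Subtype.val huv)
      have hmul := Subgroup.relIndex_mul_relIndex (E ⊓ centralizer ({x} : Set G)) F E hCF inf_le_left
      obtain ⟨k, hk⟩ := relIndex_pow (hEp.to_le (inf_le_left : F ≤ E))
        (E ⊓ centralizer ({x} : Set G))
      have hk0 : k ≠ 0 := by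
        rintro rfl
        rw [pow_zero, Subgroup.relIndex_eq_one] at hk
        have h1 := (hk hyF).2
        exact hxy (mem_centralizer_singleton_iff.1 h1).symm
      have hpk : p ≤ p ^ k := Nat.le_self_pow hk0 p
      have hF1 : F.relIndex E = 1 := by
        rw [hk] at hmul
        rw [← hmul] at hle
        by_contra hne
        have h1 : F.relIndex E ≠ 0 := Subgroup.index_ne_zero_of_finite
        have h2 : 2 ≤ F.relIndex E := by omega
        have h3 : p * 2 ≤ p ^ k * F.relIndex E := Nat.mul_le_mul hpk h2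
        have h4 : 0 < p := hpf.out.pos
        omega
      have hEF : E ≤ F := Subgroup.relIndex_eq_one.1 hF1
      intro e he
      exact (mem_centralizer_singleton_iff.1 (hEF he).2).symm
    have hHE : H ≤ centralizer (E : Set G) := by
      apply s0 _ inferInstance
      have h1 : (centralizer ({x} : Set G) ⊓ centralizer ({y} : Set G)) ⊓ H ≤
          centralizer (E : Set G) := by
        rintro h ⟨⟨hhx, hhy⟩, hh⟩
        rw [mem_centralizer_iff]
        intro e he
        exact (hcent h hh (mem_centralizer_singleton_iff.1 hhx)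
          (mem_centralizer_singleton_iff.1 hhy) e he).symm
      have h2 := Subgroup.relIndex_dvd_of_le_left H h1
      rw [inf_relIndex_right] at h2
      have h3 := Nat.le_of_dvd (Nat.pos_of_ne_zero Subgroup.index_ne_zero_of_finite) h2
      refine h3.trans ?_
      refine (Subgroup.relIndex_inf_le (H := centralizer ({x} : Set G))
        (K := centralizer ({y} : Set G)) (L := H)).trans ?_
      rw [pow_two]
      exact Nat.mul_le_mul (horb x hx) (horb y hy)
    exact hxy ((mem_centralizer_iff.1 (hHE (hEH hy))) x hx)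
  have hEA : E ≤ A := by
    intro e he
    exact ⟨hEH he, he.2, s1 E hEn hEH hEcomm (fun a ha => ha.2) e he⟩
  -- `B` is commutative
  have hBcomm : ∀ x ∈ B, ∀ y ∈ B, x * y = y * x := by
    let π : B →* C :=
      { toFun := fun b => ⟨(b : G) ^ p, b.2.2.1⟩
        map_one' := Subtype.ext (one_pow p)
        map_mul' := fun a b => Subtype.ext (hBmul a a.2 b b.2) }
    have hker : π.ker ≤ center B := by
      intro b hb
      have h1 : (b : G) ^ p = 1 := congrArg Subtype.val (MonoidHom.mem_ker.1 hb)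
      have h2 : (b : G) ∈ A := hEA ⟨b.2, h1⟩
      rw [mem_center_iff]
      intro g
      apply Subtype.ext
      exact (hAc _ h2 g g.2.1).symm
    have h3 := π.isMulCommutative_of_isCyclic_of_ker_le_center hker
    intro x hx y hy
    exact congrArg Subtype.val (h3.is_comm.comm (⟨x, hx⟩ : B) ⟨y, hy⟩)
  exact hBne (hCmax ⟨hBn, hBH, hBcomm⟩ hCB)

/-- **Chief factors below a normal `p`-subgroup of rank at most two**, `p` odd. -/
theorem chief_of_rank_two [Finite G] {p : ℕ} [Fact p.Prime] (hp : p ≠ 2) {P : Subgroup G}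
    (hP : IsPGroup p P)
    (hr : ∀ A : Subgroup G, A ≤ P → (∀ a ∈ A, ∀ b ∈ A, a * b = b * a) → (∀ a ∈ A, a ^ p = 1) →
      Nat.card A ≤ p ^ 2) {K H : Subgroup G} (h : IsChief K H) (hH : H ≤ P) :
    K.relIndex H ≤ p ^ 2 :=
  chief_of_rank_two_aux hp hP hr (Nat.card H) K H rfl h hH

end Cfsg.Agent.H17.RankTwoChief
end

-- part: H17/PSolvChief
section
/-!
# `p`-chief factors of `p`-solvable groups of `p`-rank two

`relIndex_le_of_bot`: the case `O_{p'}(G) = 1`.
-/

set_option autoImplicit false

namespace Cfsg.Agent.H17.PSolvChief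

open Subgroup
open Cfsg.Agent.H17.Chief Cfsg.Agent.H17.RankTwoChief

variable {G : Type*} [Group G]

/-- The kernel of the action of `G` on `U / W`. -/
def secKer (W U : Subgroup G) (hU : U.Normal) : Subgroup G where
  carrier := {x | ∀ u ∈ U, x * u * x⁻¹ * u⁻¹ ∈ W}
  mul_mem' := by
    intro x y hx hy u hu
    have h1 := hx (y * u * y⁻¹) (hU.conj_mem u hu y)
    have h2 := hy u hu
    have h3 := mul_mem h1 h2
    have e : x * (y * u * y⁻¹) * x⁻¹ * (y * u * y⁻¹)⁻¹ * (y * u * y⁻¹ * u⁻¹) =
      x * y * u * (x * y)⁻¹ * u⁻¹ := by group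
    rwa [e] at h3
  one_mem' := by
    intro u _
    have e : (1 : G) * u * 1⁻¹ * u⁻¹ = 1 := by group
    rw [e]
    exact one_mem _
  inv_mem' := by
    intro x hx u hu
    have h0 : x⁻¹ * u * x ∈ U := by simpa using hU.conj_mem u hu x⁻¹
    have h1 := hx _ h0
    have h2 := inv_mem h1
    have e : (x * (x⁻¹ * u * x) * x⁻¹ * (x⁻¹ * u * x)⁻¹)⁻¹ = x⁻¹ * u * x⁻¹⁻¹ * u⁻¹ := by group
    rwa [e] at h2

theorem mem_secKer {W U : Subgroup G} {hU : U.Normal} {x : G} :
    x ∈ secKer W U hU ↔ ∀ u ∈ U, x * u * x⁻¹ * u⁻¹ ∈ W := Iff.rfl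

theorem secKer_normal {W U : Subgroup G} (hW : W.Normal) (hU : U.Normal) :
    (secKer W U hU).Normal := by
  refine ⟨fun x hx g u hu => ?_⟩
  have h0 : g⁻¹ * u * g ∈ U := by simpa using hU.conj_mem u hu g⁻¹
  have h1 := hW.conj_mem _ (hx _ h0) g
  have e : g * (x * (g⁻¹ * u * g) * x⁻¹ * (g⁻¹ * u * g)⁻¹) * g⁻¹ =
    g * x * g⁻¹ * u * (g * x * g⁻¹)⁻¹ * u⁻¹ := by group
  rwa [e] at h1

theorem secKer_eq {W U : Subgroup G} [hW : W.Normal] (hU : U.Normal) :
    secKer W U hU =
      (centralizer (U.map (QuotientGroup.mk' W) : Set (G ⧸ W))).comap (QuotientGroup.mk' W) := by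
  ext x
  rw [mem_secKer, mem_comap, mem_centralizer_iff]
  constructor
  · rintro h _ ⟨u, hu, rfl⟩
    have h1 := h u hu
    have h2 : (QuotientGroup.mk' W) (x * u * x⁻¹ * u⁻¹) = 1 := by
      rw [QuotientGroup.mk'_apply, QuotientGroup.eq_one_iff]
      exact h1
    simp only [map_mul, map_inv] at h2
    exact (commutatorElement_eq_one_iff_mul_comm.1 h2).symm
  · intro h u hu
    have h1 := h _ ⟨u, hu, rfl⟩
    have h2 := commutatorElement_eq_one_iff_mul_comm.2 h1.symm
    rw [commutatorElement_def, ← map_mul, ← map_inv, ← map_mul, ← map_inv, ← map_mul] at h2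
    rwa [QuotientGroup.mk'_apply, QuotientGroup.eq_one_iff] at h2

/-- `p ^ 2` does not divide the index of the kernel of the action on a section of order at most
`p ^ 2`. -/
theorem not_sq_dvd_index_secKer [Finite G] {p : ℕ} [hpf : Fact p.Prime] {W U : Subgroup G}
    (hW : W.Normal) (hU : U.Normal) (hWU : W ≤ U) (hp : IsPGroup p U)
    (hcard : W.relIndex U ≤ p ^ 2) : ¬ p ^ 2 ∣ (secKer W U hU).index := by
  intro hdvd
  rw [secKer_eq hU, index_comap_of_surjective _ (QuotientGroup.mk'_surjective W)] at hdvd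
  set Ub : Subgroup (G ⧸ W) := U.map (QuotientGroup.mk' W) with hUb
  set D := centralizer (Ub : Set (G ⧸ W)) with hD
  have hUbn : Ub.Normal := hU.map _ (QuotientGroup.mk'_surjective W)
  have hUbp : IsPGroup p Ub := hp.map _
  have hUbc : Nat.card Ub ≤ p ^ 2 := by
    have h1 : (W.map (QuotientGroup.mk' W)).relIndex (U.map (QuotientGroup.mk' W)) =
        (W ⊔ (QuotientGroup.mk' W).ker).relIndex (U ⊔ (QuotientGroup.mk' W).ker) :=
      relIndex_map_map _ _ _
    rw [QuotientGroup.ker_mk', sup_idem, sup_eq_left.2 hWU,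
      (Subgroup.map_eq_bot_iff _).2 (QuotientGroup.ker_mk' W).ge, relIndex_bot_left] at h1
    rw [hUb, h1]
    exact hcard
  obtain ⟨Q⟩ : Nonempty (Sylow p (G ⧸ W)) := inferInstance
  have h1 : D.relIndex (Q : Subgroup (G ⧸ W)) ≤ p :=
    relIndex_centralizer_le_prime Q.isPGroup' hUbp (fun h _ e he => hUbn.conj_mem e he h) hUbc
  have hDn : D.Normal := by
    rw [hD]; infer_instance
  have h2 : D.relIndex ((Q : Subgroup (G ⧸ W)) ⊔ D) = D.relIndex Q := relIndex_sup_right _ _
  have h3 : D.relIndex ((Q : Subgroup (G ⧸ W)) ⊔ D) * ((Q : Subgroup (G ⧸ W)) ⊔ D).index =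
    D.index := relIndex_mul_index le_sup_right
  have h4 : ¬ p ∣ ((Q : Subgroup (G ⧸ W)) ⊔ D).index := by
    intro h
    exact Q.not_dvd_index (h.trans (index_dvd_of_le le_sup_left))
  have h5 : (p ^ 2).Coprime ((Q : Subgroup (G ⧸ W)) ⊔ D).index :=
    Nat.Coprime.pow_left 2 ((Nat.Prime.coprime_iff_not_dvd hpf.out).2 h4)
  rw [← h3, h2] at hdvd
  have h6 := h5.dvd_of_dvd_mul_right hdvd
  have h7 : p ^ 2 ≤ D.relIndex (Q : Subgroup (G ⧸ W)) :=
    Nat.le_of_dvd (Nat.pos_of_ne_zero Subgroup.index_ne_zero_of_finite) h6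
  have h8 : p ^ 2 ≤ p := h7.trans h1
  have h9 := hpf.out.two_le
  nlinarith

/-- A subgroup acting trivially on all chief factors below `P = O_p(G)` lies in `P`, if
`C_G(P) ≤ P`. -/
theorem le_pCore_of_secKer [Finite G] {p : ℕ} [hpf : Fact p.Prime]
    (hC : centralizer (Cfsg.pCore p G : Set G) ≤ Cfsg.pCore p G) {T : Subgroup G} (hT : T.Normal)
    (hTs : ∀ W U : Subgroup G, ∀ h : IsChief W U, U ≤ Cfsg.pCore p G → T ≤ secKer W U h.nH) :
    T ≤ Cfsg.pCore p G := by
  set P := Cfsg.pCore p G with hP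
  have hPp : IsPGroup p P := Cfsg.Agent.Lib.Cores.pCore_isPGroup p
  -- `p'`-elements of `T` are trivial
  have key : ∀ x ∈ T, (orderOf x).Coprime p → x = 1 := by
    intro x hx hcop
    have hxP : x ∈ centralizer (P : Set G) := by
      let S : Set (Subgroup G) := {M | M.Normal ∧ M ≤ P ∧ M ≤ centralizer {x}}
      have hSne : S.Nonempty := ⟨⊥, inferInstance, bot_le, bot_le⟩
      obtain ⟨M, ⟨hMn, hMP, hMx⟩, hMmax⟩ := (Set.toFinite S).exists_maximal hSne
      by_cases hMP' : M = P
      · rw [mem_centralizer_iff]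
        intro y hy
        exact (mem_centralizer_singleton_iff.1 (hMx (hMP' ▸ hy)))
      · exfalso
        obtain ⟨U, hU, hUP⟩ := exists_chief_above hMn
          (inferInstance : P.Normal) (lt_of_le_of_ne hMP hMP')
        have h1 := hTs M U hU hUP hx
        have h2 : U ∈ S := by
          refine ⟨hU.nH, hUP, ?_⟩
          intro u hu
          rw [mem_centralizer_singleton_iff]
          have hm := h1 u hu
          set m := x * u * x⁻¹ * u⁻¹ with hmdef
          have hxm : m * x = x * m := mem_centralizer_singleton_iff.1 (hMx hm)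
          have hxu : x * u * x⁻¹ = m * u := by rw [hmdef]; group
          have hk : ∀ k : ℕ, x ^ k * u * (x ^ k)⁻¹ = m ^ k * u := by
            intro k
            induction k with
            | zero => simp
            | succ k ih =>
              have hc : x * m ^ k * x⁻¹ = m ^ k := by
                have : Commute x (m ^ k) := (show Commute x m from hxm.symm).pow_right k
                rw [this.eq]; group
              calc x ^ (k + 1) * u * (x ^ (k + 1))⁻¹ = x * (x ^ k * u * (x ^ k)⁻¹) * x⁻¹ := by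
                    rw [pow_succ']; group
                _ = x * (m ^ k * u) * x⁻¹ := by rw [ih]
                _ = (x * m ^ k * x⁻¹) * (x * u * x⁻¹) := by group
                _ = m ^ k * (m * u) := by rw [hc, hxu]
                _ = m ^ (k + 1) * u := by rw [pow_succ]; group
          have h3 := hk (orderOf x)
          rw [pow_orderOf_eq_one] at h3
          have h4 : m ^ orderOf x = 1 := by
            have : m ^ orderOf x * u = 1 * u := by rw [← h3]; group
            exact mul_right_cancel this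
          obtain ⟨j, hj⟩ := hPp ⟨m, hMP hm⟩
          have hj' : m ^ p ^ j = 1 := congrArg Subtype.val hj
          have h5 : orderOf m ∣ 1 := by
            have h6 : (orderOf x).Coprime (p ^ j) := Nat.Coprime.pow_right j hcop
            rw [← h6]
            exact Nat.dvd_gcd (orderOf_dvd_of_pow_eq_one h4) (orderOf_dvd_of_pow_eq_one hj')
          have h7 : m = 1 := orderOf_eq_one_iff.1 (Nat.dvd_one.1 h5)
          rw [h7, one_mul] at hxu
          calc u * x = (x * u * x⁻¹) * x := by rw [hxu]
            _ = x * u := by group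
        exact absurd (hMmax h2 hU.lt.le) (not_le_of_gt hU.lt)
    have hxP' := hC hxP
    obtain ⟨j, hj⟩ := hPp ⟨x, hxP'⟩
    have hj' : x ^ p ^ j = 1 := congrArg Subtype.val hj
    have h6 : (orderOf x).Coprime (p ^ j) := Nat.Coprime.pow_right j hcop
    have h5 : orderOf x ∣ 1 := by
      rw [← h6]
      exact Nat.dvd_gcd dvd_rfl (orderOf_dvd_of_pow_eq_one hj')
    exact orderOf_eq_one_iff.1 (Nat.dvd_one.1 h5)
  have hTp : IsPGroup p T := by
    rw [IsPGroup.iff_card]
    refine ⟨_, Nat.eq_prime_pow_of_unique_prime_dvd Nat.card_pos.ne' ?_⟩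
    intro q hq hdvd
    have := Fact.mk hq
    obtain ⟨x, hx⟩ := exists_prime_orderOf_dvd_card' (G := T) q hdvd
    by_contra hne
    have h1 := key x x.2 (by
      rw [Subgroup.orderOf_coe, hx]
      exact (Nat.coprime_primes hq hpf.out).2 hne)
    have h2 : x = 1 := Subtype.ext h1
    rw [h2, orderOf_one] at hx
    exact hq.ne_one hx.symm
  exact Cfsg.Agent.Lib.Cores.le_pCore hT hTp

/-- The case `O_{p'}(G) = 1`. -/
theorem relIndex_le_of_bot [Finite G] {p : ℕ} [hpf : Fact p.Prime] (hp2 : p ≠ 2)
    (hG : Cfsg.IsPSolvable p G) (hbot : Cfsg.pPrimeCore p G = ⊥) (hr : Cfsg.PRankLE p 2 G)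
    {H K : Subgroup G} (h : IsChief K H) (hpow : ∃ n : ℕ, K.relIndex H = p ^ n) :
    K.relIndex H ≤ p ^ 2 := by
  have hC := Cfsg.Agent.Lib.PSolvable.centralizer_pCore_le_of_pSolvable p hG hbot
  set P := Cfsg.pCore p G with hP
  have hPp : IsPGroup p P := Cfsg.Agent.Lib.Cores.pCore_isPGroup p
  have hbelow : ∀ W U : Subgroup G, IsChief W U → U ≤ P → W.relIndex U ≤ p ^ 2 := by
    intro W U hWU hUP
    apply chief_of_rank_two hp2 hPp _ hWU hUP
    intro A _ hAc hAp
    exact hr A ⟨⟨fun a b => Subtype.ext (hAc a a.2 b b.2)⟩⟩ hAp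
  by_cases hHP : H ⊓ P ≤ K
  · -- the factor is above `P`
    let S : Set ℕ := {n | ∃ K' H' : Subgroup G, IsChief K' H' ∧ K'.relIndex H' = K.relIndex H ∧
      H' ⊓ P ≤ K' ∧ Nat.card H' = n}
    have hSne : S.Nonempty := ⟨_, K, H, h, rfl, hHP, rfl⟩
    obtain ⟨K', H', hKH', hrel, hHP', hcard⟩ := Nat.sInf_mem hSne
    have hmin : ∀ K'' H'' : Subgroup G, IsChief K'' H'' → K''.relIndex H'' = K.relIndex H →
        H'' ⊓ P ≤ K'' → Nat.card H' ≤ Nat.card H'' := by
      intro K'' H'' h1 h2 h3
      rw [hcard]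
      exact Nat.sInf_le ⟨K'', H'', h1, h2, h3, rfl⟩
    -- some section kernel does not contain `H'`
    have hex : ∃ W U : Subgroup G, ∃ h : IsChief W U, U ≤ P ∧ ¬ H' ≤ secKer W U h.nH := by
      by_contra hcon
      push Not at hcon
      have h1 : H' ≤ P := le_pCore_of_secKer hC hKH'.nH (fun W U hWU hUP => hcon W U hWU hUP)
      have h2 : H' ≤ K' := by
        have := hHP'
        rwa [inf_eq_left.2 h1] at this
      exact absurd hKH'.lt (not_lt_of_ge h2)
    obtain ⟨W, U, hWU, hUP, hnot⟩ := hex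
    set C := secKer W U hWU.nH with hCdef
    have hCn : C.Normal := secKer_normal hWU.nK hWU.nH
    have hHC : H' ⊓ C ≤ K' := by
      by_contra hcon
      obtain ⟨h1, h2⟩ := hKH'.inf C hcon
      have h3 := hmin _ _ h1 (h2.trans hrel) (by
        rintro x ⟨⟨hx1, hx2⟩, hx3⟩
        exact ⟨hHP' ⟨hx1, hx3⟩, hx2⟩)
      have h4 := Subgroup.eq_of_le_of_card_ge (inf_le_left : H' ⊓ C ≤ H') h3
      exact hnot (inf_eq_left.1 h4)
    obtain ⟨-, -, h1⟩ := hKH'.quotient C hHC
    have h2 : K.relIndex H ∣ C.index := by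
      rw [← hrel, ← h1]
      refine dvd_trans ?_ (index_dvd_of_le (le_sup_right : C ≤ K' ⊔ C))
      rw [← relIndex_mul_index (sup_le_sup_right hKH'.lt.le C)]
      exact dvd_mul_right _ _
    have h3 := not_sq_dvd_index_secKer hWU.nK hWU.nH hWU.lt.le (hPp.to_le hUP)
      (hbelow W U hWU hUP)
    obtain ⟨n, hn⟩ := hpow
    rw [hn] at h2 ⊢
    by_contra hcon
    have h4 : 2 ≤ n := by
      by_contra h5
      apply hcon
      exact Nat.pow_le_pow_right hpf.out.pos (by omega)
    exact h3 ((pow_dvd_pow p h4).trans h2)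
  · obtain ⟨h1, h2⟩ := h.inf P hHP
    rw [← h2]
    exact hbelow _ _ h1 inf_le_right

end Cfsg.Agent.H17.PSolvChief
end

-- part: S1895
section
set_option autoImplicit false
open Cfsg

namespace Cfsg.Agent.S1895

open Subgroup Cfsg.Agent.H17.Chief Cfsg.Agent.H17.PSolvChief in
/-- Let p be an odd prime and G a finite p-solvable group with no elementary abelian subgroup of order p³. Then every chief factor H/K of G (H, K normal in G with no normal subgroup of G strictly between them) whose order is a power of p has order p or p². -/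
theorem result {G : Type*} [Group G] [Finite G] {p : ℕ} [Fact p.Prime] (hp : p ≠ 2)
    (hG : Cfsg.IsPSolvable p G) (hr : Cfsg.PRankLE p 2 G)
    (H K : Subgroup G) [H.Normal] [K.Normal] (hKH : K < H) (hpow : ∃ n : ℕ, K.relIndex H = p ^ n)
    (hchief : ∀ L : Subgroup G, L.Normal → K ≤ L → L ≤ H → L = K ∨ L = H) :
    K.relIndex H = p ∨ K.relIndex H = p ^ 2 := by
  have hc : IsChief K H := ⟨inferInstance, inferInstance, hKH, hchief⟩
  set N := Cfsg.pPrimeCore p G with hN
  have hNn : N.Normal := Cfsg.Agent.Lib.Cores.pPrimeCore_normal p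
  have hNc : (Nat.card N).Coprime p := Cfsg.Agent.Lib.Cores.pPrimeCore_coprime p
  have hne1 : K.relIndex H ≠ 1 := fun h => absurd hKH (not_lt_of_ge (relIndex_eq_one.1 h))
  obtain ⟨n, hn⟩ := hpow
  have hn0 : n ≠ 0 := by
    rintro rfl
    exact hne1 hn
  have hHN : H ⊓ N ≤ K := by
    by_contra hcon
    obtain ⟨-, h1⟩ := hc.inf N hcon
    have h2 : (K ⊓ N).relIndex (H ⊓ N) ∣ Nat.card N :=
      (relIndex_dvd_card _ _).trans (card_dvd_of_le inf_le_right)
    rw [h1, hn] at h2
    have h3 : p ∣ Nat.card N := (dvd_pow_self p hn0).trans h2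
    have h4 := (Nat.Prime.coprime_iff_not_dvd (Fact.out : p.Prime)).1 hNc.symm
    exact h4 h3
  obtain ⟨h1, h2, -⟩ := hc.quotient N hHN
  have h3 : (K.map (QuotientGroup.mk' N)).relIndex (H.map (QuotientGroup.mk' N)) ≤ p ^ 2 :=
    relIndex_le_of_bot hp (Cfsg.Agent.PLocal.PSolvable.isPSolvable_quotient hG N)
      (Cfsg.Agent.Lib.Cores.pPrimeCore_quotient_pPrimeCore p)
      (Cfsg.Agent.Omega.Sec.Reduce.prankLE_quotient N hNc hr) h1 ⟨n, h2.trans hn⟩
  rw [h2, hn] at h3
  rw [hn]
  have h4 : n ≤ 2 := (Nat.pow_le_pow_iff_right (Fact.out : p.Prime).one_lt).1 h3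
  have h5 : n = 1 ∨ n = 2 := by omega
  rcases h5 with rfl | rfl
  · left; exact pow_one p
  · right; rfl

end Cfsg.Agent.S1895
end
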