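import Cfsg.Agent.OddOrderLocal.FrobAct
import Cfsg.Agent.ClassicalGeometry.TwoFamilies
import Cfsg.Agent.Classification.TypeZ.Critical
import Cfsg.Agent.Lib.CoprimeAbelian
import Cfsg.Agent.Lib.CoprimeCommutator
import Cfsg.Statements.S1902
import Cfsg.Agent.Lib.ThompsonPQ
import Cfsg.Agent.Lib.CoprimeStab
import Cfsg.Agent.Lib.PSolvable
import Cfsg.Agent.Lib.Cores
import Cfsg.Agent.PLocal.CoprimeLift
import Cfsg.Agent.PLocal.PSolvable
set_option linter.all false

-- part: H18/OmegaCore
section
/-!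
# A `p`-group of exponent `p` and class two with a Frobenius group of operators

`core`: `D` is a finite `p`-group of exponent `p` (`p` odd) and class two, `K` a `p'`-group of operators
which is trivial on `D'` and without fixed points on `D / D'`, `R` a group of order `p` which acts without
fixed points on `K` and acts compatibly on `D`.  Then `|C_D(R)| > p`.
-/

set_option autoImplicit false

namespace Cfsg.Agent.H18.OmegaCore

open Cfsg.Agent.OddOrderLocal.FrobAct
open Module
open scoped commutatorElement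

/-- restriction of an action to an invariant subgroup -/
def restr {A M : Type*} [Group A] [Group M] (α : A →* MulAut M) (H : Subgroup M)
    (h : ∀ a, ∀ x ∈ H, α a x ∈ H) : A →* MulAut H where
  toFun a :=
    { toFun := fun x => ⟨α a x, h a x x.2⟩
      invFun := fun x => ⟨α a⁻¹ x, h a⁻¹ x x.2⟩
      left_inv := fun x => by
        apply Subtype.ext
        show α a⁻¹ (α a (x : M)) = x
        rw [← MulAut.mul_apply, ← map_mul]; simp
      right_inv := fun x => by
        apply Subtype.ext
        show α a (α a⁻¹ (x : M)) = x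
        rw [← MulAut.mul_apply, ← map_mul]; simp
      map_mul' := fun x y => by
        apply Subtype.ext
        show α a ((x * y : H) : M) = α a x * α a y
        simp }
  map_one' := by
    ext x
    show α 1 (x : M) = x
    simp
  map_mul' := fun a b => by
    ext x
    show α (a * b) (x : M) = α a (α b x)
    simp

theorem restr_apply {A M : Type*} [Group A] [Group M] (α : A →* MulAut M) (H : Subgroup M)
    (h : ∀ a, ∀ x ∈ H, α a x ∈ H) (a : A) (x : H) : ((restr α H h a x : H) : M) = α a x := rfl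

/-- The number of fixed points of an automorphism on a quotient is at most the number of its fixed
points. -/
theorem card_fixed_quot_le {D : Type*} [Group D] [Finite D] (N : Subgroup D) [N.Normal] (φ : MulAut D)
    (ψ : D ⧸ N → D ⧸ N) (hψ : ∀ x : D, ψ (x : D ⧸ N) = ((φ x : D) : D ⧸ N)) :
    Nat.card {y : D ⧸ N // ψ y = y} ≤ Nat.card {x : D // φ x = x} := by
  classical
  -- elements `x` with `x⁻¹ φ(x) ∈ N`
  let H := {x : D // x⁻¹ * φ x ∈ N}
  have h1 : Nat.card ({y : D ⧸ N // ψ y = y} × N) ≤ Nat.card H := by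
    let g : {y : D ⧸ N // ψ y = y} × N → H := fun yn =>
      ⟨(Quotient.out yn.1.1 : D) * yn.2, by
        have e1 : ((Quotient.out yn.1.1 * (yn.2 : D) : D) : D ⧸ N) = yn.1.1 := by
          rw [QuotientGroup.mk_mul_of_mem _ yn.2.2]
          exact QuotientGroup.out_eq' yn.1.1
        have e2 : ((φ (Quotient.out yn.1.1 * (yn.2 : D)) : D) : D ⧸ N) =
            ((Quotient.out yn.1.1 * (yn.2 : D) : D) : D ⧸ N) := by
          rw [← hψ, e1]; exact yn.1.2
        exact QuotientGroup.eq.mp e2.symm⟩
    apply Nat.card_le_card_of_injective g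
    rintro ⟨⟨y, hy⟩, n⟩ ⟨⟨y', hy'⟩, n'⟩ h
    have h' : (Quotient.out y : D) * n = (Quotient.out y' : D) * n' := congrArg Subtype.val h
    have e1 : ((Quotient.out y * (n : D) : D) : D ⧸ N) = y := by
      rw [QuotientGroup.mk_mul_of_mem _ n.2]
      exact QuotientGroup.out_eq' y
    have e2 : ((Quotient.out y' * (n' : D) : D) : D ⧸ N) = y' := by
      rw [QuotientGroup.mk_mul_of_mem _ n'.2]
      exact QuotientGroup.out_eq' y'
    have e3 : y = y' := by rw [← e1, ← e2, h']
    subst e3
    have e4 : n = n' := Subtype.ext (mul_left_cancel h')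
    rw [e4]
  have h2 : Nat.card H ≤ Nat.card (N × {x : D // φ x = x}) := by
    let s : N → D := fun n => if h : ∃ x : D, x⁻¹ * φ x = n then h.choose else 1
    have hs : ∀ n : N, (∃ x : D, x⁻¹ * φ x = n) → (s n)⁻¹ * φ (s n) = n := by
      intro n h
      have : s n = h.choose := dif_pos h
      rw [this]; exact h.choose_spec
    let f : H → N × {x : D // φ x = x} := fun x =>
      (⟨x.1⁻¹ * φ x.1, x.2⟩, ⟨x.1 * (s ⟨x.1⁻¹ * φ x.1, x.2⟩)⁻¹, by
        have e := hs ⟨x.1⁻¹ * φ x.1, x.2⟩ ⟨x.1, rfl⟩
        set t := s ⟨x.1⁻¹ * φ x.1, x.2⟩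
        have e' : t⁻¹ * φ t = x.1⁻¹ * φ x.1 := e
        have e2 : φ t = t * (x.1⁻¹ * φ x.1) := by rw [← e']; group
        rw [map_mul, map_inv, e2]; group⟩)
    apply Nat.card_le_card_of_injective f
    rintro ⟨x, hx⟩ ⟨x', hx'⟩ h
    have h1 : x⁻¹ * φ x = x'⁻¹ * φ x' := congrArg (fun z => ((z.1 : N) : D)) h
    have h2 : x * (s ⟨x⁻¹ * φ x, hx⟩)⁻¹ = x' * (s ⟨x'⁻¹ * φ x', hx'⟩)⁻¹ :=
      congrArg (fun z => (z.2 : D)) h
    have h3 : (⟨x⁻¹ * φ x, hx⟩ : N) = ⟨x'⁻¹ * φ x', hx'⟩ := Subtype.ext h1
    rw [h3] at h2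
    exact Subtype.ext (mul_right_cancel h2)
  have h3 := h1.trans h2
  rw [Nat.card_prod, Nat.card_prod, mul_comm] at h3
  exact Nat.le_of_mul_le_mul_left h3 Nat.card_pos

/-- A `p`-group acting on a nontrivial finite `p`-group has a nontrivial fixed point. -/
theorem exists_fixed_ne_one {R N : Type*} [Group R] [Group N] [Finite N] {p : ℕ} [Fact p.Prime]
    (hR : IsPGroup p R) (hN : IsPGroup p N) [Nontrivial N] (β : R →* MulAut N) :
    ∃ z : N, z ≠ 1 ∧ ∀ r, β r z = z := by
  let act : MulAction R N := MulAction.compHom N β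
  have hact : ∀ (r : R) (x : N), r • x = β r x := fun r x => rfl
  have hdvd : p ∣ Nat.card N := by
    obtain ⟨n, hn⟩ := IsPGroup.iff_card.1 hN
    rcases Nat.eq_zero_or_pos n with h0 | h0
    · rw [h0, pow_zero] at hn
      have := Finite.one_lt_card (α := N)
      omega
    · rw [hn]; exact dvd_pow_self p h0.ne'
  obtain ⟨b, hb, hb1⟩ := hR.exists_fixed_point_of_prime_dvd_card_of_fixed_point N hdvd
    (a := 1) (fun r => by rw [hact, map_one])
  exact ⟨b, hb1.symm, fun r => hb r⟩

section Form

variable {D : Type*} [Group D] {p : ℕ} [Fact p.Prime]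

/-- The value of the form. -/
def cval (lam : Additive (commutator D) →+ ZMod p) (x y : D) : ZMod p :=
  lam (Additive.ofMul ⟨⁅x, y⁆, Subgroup.commutator_mem_commutator (Subgroup.mem_top x) (Subgroup.mem_top y)⟩)

theorem cval_mul_left (lam : Additive (commutator D) →+ ZMod p) (hcl : commutator D ≤ Subgroup.center D)
    (x x' y : D) : cval lam (x * x') y = cval lam x y + cval lam x' y := by
  have hc : ∀ a b z : D, ⁅a, b⁆ * z = z * ⁅a, b⁆ := fun a b z =>
    ((Subgroup.mem_center_iff.mp (hcl (Subgroup.commutator_mem_commutator (Subgroup.mem_top a)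
      (Subgroup.mem_top b)))) z).symm
  unfold cval
  rw [← map_add, ← ofMul_mul]
  congr 2
  apply Subtype.ext
  show ⁅x * x', y⁆ = ⁅x, y⁆ * ⁅x', y⁆
  calc ⁅x * x', y⁆ = x * ⁅x', y⁆ * x⁻¹ * ⁅x, y⁆ := by
        simp only [commutatorElement_def]; group
    _ = ⁅x', y⁆ * ⁅x, y⁆ := by rw [← hc x' y x]; group
    _ = ⁅x, y⁆ * ⁅x', y⁆ := by rw [hc]

theorem cval_mul_right (lam : Additive (commutator D) →+ ZMod p) (hcl : commutator D ≤ Subgroup.center D)
    (x y y' : D) : cval lam x (y * y') = cval lam x y + cval lam x y' := by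
  have hc : ∀ a b z : D, ⁅a, b⁆ * z = z * ⁅a, b⁆ := fun a b z =>
    ((Subgroup.mem_center_iff.mp (hcl (Subgroup.commutator_mem_commutator (Subgroup.mem_top a)
      (Subgroup.mem_top b)))) z).symm
  unfold cval
  rw [← map_add, ← ofMul_mul]
  congr 2
  apply Subtype.ext
  show ⁅x, y * y'⁆ = ⁅x, y⁆ * ⁅x, y'⁆
  calc ⁅x, y * y'⁆ = ⁅x, y⁆ * (y * ⁅x, y'⁆ * y⁻¹) := by
        simp only [commutatorElement_def]; group
    _ = ⁅x, y⁆ * ⁅x, y'⁆ := by rw [← hc x y' y]; group

theorem cval_self (lam : Additive (commutator D) →+ ZMod p) (x : D) : cval lam x x = 0 := by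
  unfold cval
  have : (⟨⁅x, x⁆, Subgroup.commutator_mem_commutator (Subgroup.mem_top x) (Subgroup.mem_top x)⟩ :
      commutator D) = 1 := Subtype.ext (commutatorElement_self x)
  rw [this]; exact map_zero lam

theorem cval_comm_left (lam : Additive (commutator D) →+ ZMod p) (hcl : commutator D ≤ Subgroup.center D)
    (x y : D) (hx : x ∈ commutator D) : cval lam x y = 0 := by
  unfold cval
  have : (⟨⁅x, y⁆, Subgroup.commutator_mem_commutator (Subgroup.mem_top x) (Subgroup.mem_top y)⟩ :
      commutator D) = 1 := Subtype.ext (by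
    rw [Subgroup.coe_one, commutatorElement_eq_one_iff_mul_comm]
    exact (Subgroup.mem_center_iff.mp (hcl hx) y).symm)
  rw [this]; exact map_zero lam

theorem cval_comm_right (lam : Additive (commutator D) →+ ZMod p) (hcl : commutator D ≤ Subgroup.center D)
    (x y : D) (hy : y ∈ commutator D) : cval lam x y = 0 := by
  unfold cval
  have : (⟨⁅x, y⁆, Subgroup.commutator_mem_commutator (Subgroup.mem_top x) (Subgroup.mem_top y)⟩ :
      commutator D) = 1 := Subtype.ext (by
    rw [Subgroup.coe_one, commutatorElement_eq_one_iff_mul_comm]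
    exact Subgroup.mem_center_iff.mp (hcl hy) x)
  rw [this]; exact map_zero lam

/-- The form on `D / D'`, as a homomorphism with values in homomorphisms. -/
def formHom (lam : Additive (commutator D) →+ ZMod p) (hcl : commutator D ≤ Subgroup.center D) :
    (D ⧸ commutator D) →* ((D ⧸ commutator D) →* Multiplicative (ZMod p)) :=
  QuotientGroup.lift (commutator D)
    { toFun := fun x => QuotientGroup.lift (commutator D)
        { toFun := fun y => Multiplicative.ofAdd (cval lam x y)
          map_one' := by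
            rw [cval_comm_right lam hcl x 1 (Subgroup.one_mem _)]; rfl
          map_mul' := fun y y' => by rw [cval_mul_right lam hcl]; rfl }
        (fun y hy => by
          show Multiplicative.ofAdd (cval lam x y) = 1
          rw [cval_comm_right lam hcl x y hy]; rfl)
      map_one' := by
        ext y
        show Multiplicative.toAdd (Multiplicative.ofAdd (cval lam 1 y)) = 0
        rw [cval_comm_left lam hcl 1 y (Subgroup.one_mem _)]; rfl
      map_mul' := fun x x' => by
        ext y
        show Multiplicative.toAdd (Multiplicative.ofAdd (cval lam (x * x') y)) = cval lam x y + cval lam x' y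
        rw [cval_mul_left lam hcl]; rfl }
    (fun x hx => by
      ext y
      show Multiplicative.toAdd (Multiplicative.ofAdd (cval lam x y)) = 0
      rw [cval_comm_left lam hcl x y hx]; rfl)

theorem formHom_apply (lam : Additive (commutator D) →+ ZMod p) (hcl : commutator D ≤ Subgroup.center D)
    (x y : D) : formHom lam hcl (x : D ⧸ commutator D) (y : D ⧸ commutator D) =
      Multiplicative.ofAdd (cval lam x y) := rfl

end Form

/-- A nonzero functional on an elementary abelian `p`-group, invariant under a group of order `p`. -/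
theorem exists_lam {N R : Type*} [CommGroup N] [Finite N] [Nontrivial N] {p : ℕ} [hpf : Fact p.Prime]
    (hexp : ∀ x : N, x ^ p = 1) [Group R] (hR : Nat.card R = p) (β : R →* MulAut N) :
    ∃ lam : Additive N →+ ZMod p, lam ≠ 0 ∧ ∀ r z, lam (Additive.ofMul (β r z)) = lam (Additive.ofMul z) := by
  have instM : Module (ZMod p) (Additive N) := AddCommGroup.zmodModule (n := p) (by
    intro x
    exact congrArg Additive.ofMul (hexp x.toMul))
  have hfinR : Finite R := Nat.finite_of_card_ne_zero (by rw [hR]; exact hpf.out.ne_zero)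
  have hRp : IsPGroup p R := IsPGroup.of_card (n := 1) (by rw [hR, pow_one])
  have hNp : IsPGroup p N := fun x => ⟨1, by rw [pow_one]; exact hexp x⟩
  have hRnt : Nontrivial R := by
    rw [← Finite.one_lt_card_iff_nontrivial, hR]; exact hpf.out.one_lt
  obtain ⟨r₀, hr₀⟩ := exists_ne (1 : R)
  have hgen : Subgroup.zpowers r₀ = ⊤ := zpowers_eq_top_of_prime_card hR hr₀
  obtain ⟨z, hz1, hz⟩ := exists_fixed_ne_one hRp hNp β
  let δ : Additive N →ₗ[ZMod p] Additive N :=
    (MonoidHom.toAdditive (β r₀).toMonoidHom).toZModLinearMap p - LinearMap.id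
  have hδ : ∀ x : N, δ (Additive.ofMul x) = Additive.ofMul (β r₀ x) - Additive.ofMul x := fun x => rfl
  have hninj : ¬ Function.Injective δ := by
    intro hinj
    apply hz1
    have h1 : δ (Additive.ofMul z) = δ 0 := by
      rw [hδ, hz, sub_self, map_zero]
    exact congrArg Additive.toMul (hinj h1)
  have hnsurj : ¬ Function.Surjective δ := by
    intro hs
    exact hninj (Finite.injective_iff_surjective.mpr hs)
  have hlt : LinearMap.range δ < ⊤ := by
    rw [lt_top_iff_ne_top]
    intro h
    exact hnsurj (LinearMap.range_eq_top.mp h)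
  obtain ⟨f, hf, hle⟩ := Submodule.exists_le_ker_of_lt_top _ hlt
  refine ⟨f.toAddMonoidHom, ?_, ?_⟩
  · intro h
    apply hf
    ext x
    exact DFunLike.congr_fun h x
  · have h1 : ∀ z : N, f (Additive.ofMul (β r₀ z)) = f (Additive.ofMul z) := by
      intro z
      have h2 : δ (Additive.ofMul z) ∈ LinearMap.ker f := hle ⟨_, rfl⟩
      rw [LinearMap.mem_ker, hδ, map_sub, sub_eq_zero] at h2
      exact h2
    let S : Subgroup R :=
      { carrier := {r | ∀ z : N, f (Additive.ofMul (β r z)) = f (Additive.ofMul z)}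
        one_mem' := fun z => by simp
        mul_mem' := fun {r s} hr hs z => by
          rw [map_mul, MulAut.mul_apply, hr, hs]
        inv_mem' := fun {r} hr z => by
          have := hr (β r⁻¹ z)
          rw [← MulAut.mul_apply, ← map_mul, mul_inv_cancel, map_one, MulAut.one_apply] at this
          exact this.symm }
    have hS : S = ⊤ := by
      rw [eq_top_iff, ← hgen, Subgroup.zpowers_le]
      exact h1
    intro r
    have : r ∈ S := by rw [hS]; trivial
    exact this

theorem core {D K R : Type*} [Group D] [Finite D] [Group K] [Finite K] [Group R] [Finite R] {p : ℕ}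
    [hpf : Fact p.Prime] (hp : p ≠ 2)
    (hexp : ∀ d : D, d ^ p = 1) (hcl : commutator D ≤ Subgroup.center D) (hR : Nat.card R = p)
    (α : K →* MulAut D) (β : R →* MulAut D) (σ : R →* MulAut K)
    (hcompat : ∀ r k v, β r (α k v) = α (σ r k) (β r v))
    (hK : ¬ p ∣ Nat.card K) (hσ : ∀ r : R, r ≠ 1 → ∀ k, σ r k = k → k = 1)
    (hfixβ : Nat.card (fixedPts β) ≤ p)
    (hD' : ∀ k, ∀ x ∈ commutator D, α k x = x)
    (hgen : ∀ x : D, (∀ k, x⁻¹ * α k x ∈ commutator D) → x ∈ commutator D)
    (hne : commutator D ≠ ⊥) : False := by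
  classical
  have hDp : IsPGroup p D := fun x => ⟨1, by rw [pow_one]; exact hexp x⟩
  -- the functional
  let cN : CommGroup (commutator D) := { (inferInstance : Group (commutator D)) with
    mul_comm := fun x y => Subtype.ext (Subgroup.mem_center_iff.mp (hcl y.2) x) }
  have hNnt : Nontrivial (commutator D) := (Subgroup.nontrivial_iff_ne_bot _).2 hne
  obtain ⟨lam, hlam0, hlam⟩ := exists_lam (N := commutator D) (p := p)
    (fun x => Subtype.ext (by simpa using hexp x)) hR ((MulAut.characteristic (commutator D)).comp β)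
  -- the quotient
  let W := D ⧸ commutator D
  let cW : CommGroup W := { (inferInstance : Group W) with
    mul_comm := fun x y => by
      obtain ⟨x, rfl⟩ := QuotientGroup.mk_surjective x
      obtain ⟨y, rfl⟩ := QuotientGroup.mk_surjective y
      show ((x * y : D) : W) = ((y * x : D) : W)
      rw [QuotientGroup.eq]
      have : (x * y)⁻¹ * (y * x) = ⁅y⁻¹, x⁻¹⁆ := by rw [commutatorElement_def]; group
      rw [this]
      exact Subgroup.commutator_mem_commutator (Subgroup.mem_top _) (Subgroup.mem_top _) }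
  let αW : K →* MulAut W := (quotAut (commutator D)).comp α
  let βW : R →* MulAut W := (quotAut (commutator D)).comp β
  have hαW : ∀ k (x : D), αW k (x : W) = ((α k x : D) : W) := fun k x => rfl
  have hβW : ∀ r (x : D), βW r (x : W) = ((β r x : D) : W) := fun k x => rfl
  have hWexp : ∀ v : W, v ^ p = 1 := by
    intro v
    obtain ⟨x, rfl⟩ := QuotientGroup.mk_surjective v
    show ((x ^ p : D) : W) = 1
    rw [hexp x]; rfl
  have hWcompat : ∀ r k v, βW r (αW k v) = αW (σ r k) (βW r v) := by
    intro r k v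
    obtain ⟨x, rfl⟩ := QuotientGroup.mk_surjective v
    rw [hαW, hβW, hβW, hαW, hcompat]
  have hWfix : ∀ v : W, (∀ k, αW k v = v) → v = 1 := by
    intro v hv
    obtain ⟨x, rfl⟩ := QuotientGroup.mk_surjective v
    rw [QuotientGroup.eq_one_iff]
    apply hgen
    intro k
    have := hv k
    rw [hαW] at this
    exact QuotientGroup.eq.mp this.symm
  have hW1 := (card_eq_of_elementary p hWexp hK αW βW σ hWcompat hWfix hσ).1
  have hWp : IsPGroup p W := fun x => ⟨1, by rw [pow_one]; exact hWexp x⟩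
  -- fixed points of `R` on `W`
  have hRnt : Nontrivial R := by
    rw [← Finite.one_lt_card_iff_nontrivial, hR]; exact hpf.out.one_lt
  obtain ⟨r₀, hr₀⟩ := exists_ne (1 : R)
  have hRgen : Subgroup.zpowers r₀ = ⊤ := zpowers_eq_top_of_prime_card hR hr₀
  have hfixr : ∀ {M : Type _} [Group M] (γ : R →* MulAut M) (x : M), γ r₀ x = x → ∀ r, γ r x = x := by
    intro M _ γ x hx r
    let S : Subgroup R :=
      { carrier := {r | γ r x = x}
        one_mem' := by simp
        mul_mem' := fun {r s} hr hs => by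
          show γ (r * s) x = x
          rw [map_mul, MulAut.mul_apply, hs, hr]
        inv_mem' := fun {r} hr => by
          show γ r⁻¹ x = x
          have hr' : γ r x = x := hr
          rw [← hr', ← MulAut.mul_apply, ← map_mul]; simp [hr'] }
    have hS : S = ⊤ := by
      rw [eq_top_iff, ← hRgen, Subgroup.zpowers_le]
      exact hx
    have : r ∈ S := by rw [hS]; trivial
    exact this
  have hcW : Nat.card (fixedPts βW) ≤ p := by
    have h1 := card_fixed_quot_le (commutator D) (β r₀) (βW r₀) (fun x => hβW r₀ x)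
    have h2 : Nat.card {x : D // β r₀ x = x} ≤ Nat.card (fixedPts β) :=
      Nat.card_le_card_of_injective (fun x => ⟨x.1, fun r => hfixr β x.1 x.2 r⟩)
        (fun x y h => Subtype.ext (congrArg (fun z : fixedPts β => (z : D)) h))
    have h3 : Nat.card (fixedPts βW) ≤ Nat.card {y : D ⧸ commutator D // βW r₀ y = y} :=
      Nat.card_le_card_of_injective (fun x => ⟨x.1, x.2 r₀⟩)
        (fun x y h => Subtype.ext (congrArg (fun z => (z.1 : W)) h))
    exact h3.trans (h1.trans (h2.trans hfixβ))
  have hpow : ∀ {M : Type _} [Group M] [Finite M], IsPGroup p M → Nat.card M ≤ p →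
      Nat.card M = 1 ∨ Nat.card M = p := by
    intro M _ _ hM hle
    obtain ⟨n, hn⟩ := IsPGroup.iff_card.1 hM
    rcases Nat.lt_or_ge n 1 with h | h
    · left; rw [hn, Nat.lt_one_iff.mp h, pow_zero]
    · right
      apply le_antisymm hle
      rw [hn]
      exact Nat.le_self_pow (by omega) p
  have hWnt : Nat.card W ≠ 1 := by
    intro h
    have htop : commutator D = ⊤ := Subgroup.index_eq_one.mp h
    have : Group.IsNilpotent D := hDp.isNilpotent
    have hDnt : Nontrivial D := by
      by_contra hs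
      rw [not_nontrivial_iff_subsingleton] at hs
      exact hne (Subsingleton.elim _ _)
    exact (Group.IsSolvable.commutator_lt_top_of_nontrivial D).ne htop
  have hfW : Nat.card (fixedPts βW) = p := by
    rcases hpow (hWp.to_subgroup (fixedPts βW)) hcW with h | h
    · rw [h, one_pow] at hW1; exact absurd hW1 hWnt
    · exact h
  rw [hfW, hR] at hW1
  -- the form
  let F : W →* (W →* Multiplicative (ZMod p)) := formHom lam hcl
  have hF : ∀ x y : D, F (x : W) (y : W) = Multiplicative.ofAdd (cval lam x y) := fun x y => rfl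
  have hcα : ∀ k (x y : D), cval lam (α k x) (α k y) = cval lam x y := by
    intro k x y
    unfold cval
    congr 2
    apply Subtype.ext
    show ⁅α k x, α k y⁆ = ⁅x, y⁆
    rw [← map_commutatorElement]
    exact hD' k _ (Subgroup.commutator_mem_commutator (Subgroup.mem_top _) (Subgroup.mem_top _))
  have hcβ : ∀ r (x y : D), cval lam (β r x) (β r y) = cval lam x y := by
    intro r x y
    unfold cval
    refine Eq.trans ?_ (hlam r _)
    congr 2
    apply Subtype.ext
    show ⁅β r x, β r y⁆ = β r ⁅x, y⁆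
    rw [map_commutatorElement]
  have hFα : ∀ k (v w : W), F (αW k v) (αW k w) = F v w := by
    intro k v w
    obtain ⟨x, rfl⟩ := QuotientGroup.mk_surjective v
    obtain ⟨y, rfl⟩ := QuotientGroup.mk_surjective w
    rw [hαW, hαW, hF, hF, hcα]
  have hFβ : ∀ r (v w : W), F (βW r v) (βW r w) = F v w := by
    intro k v w
    obtain ⟨x, rfl⟩ := QuotientGroup.mk_surjective v
    obtain ⟨y, rfl⟩ := QuotientGroup.mk_surjective w
    rw [hβW, hβW, hF, hF, hcβ]
  -- the radical
  let Rad : Subgroup W := F.ker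
  have hRadmem : ∀ v : W, v ∈ Rad ↔ ∀ w, F v w = 1 := by
    intro v
    rw [MonoidHom.mem_ker]
    constructor
    · intro h w; rw [h]; rfl
    · intro h; exact MonoidHom.ext fun w => h w
  have hRα : ∀ k, ∀ v ∈ Rad, αW k v ∈ Rad := by
    intro k v hv
    rw [hRadmem] at hv ⊢
    intro w
    have : w = αW k (αW k⁻¹ w) := by rw [← MulAut.mul_apply, ← map_mul]; simp
    rw [this, hFα, hv]
  have hRβ : ∀ k, ∀ v ∈ Rad, βW k v ∈ Rad := by
    intro k v hv
    rw [hRadmem] at hv ⊢
    intro w
    have : w = βW k (βW k⁻¹ w) := by rw [← MulAut.mul_apply, ← map_mul]; simp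
    rw [this, hFβ, hv]
  have hRad1 := (card_eq_of_elementary (V := Rad) p (fun v => Subtype.ext (by simpa using hWexp v)) hK
    (restr αW Rad hRα) (restr βW Rad hRβ) σ
    (fun r k v => Subtype.ext (hWcompat r k v))
    (fun v hv => Subtype.ext (hWfix v (fun k => congrArg Subtype.val (hv k)))) hσ).1
  have hfRle : Nat.card (fixedPts (restr βW Rad hRβ)) ≤ p := by
    refine le_trans ?_ hcW
    exact Nat.card_le_card_of_injective
      (fun x : fixedPts (restr βW Rad hRβ) => (⟨x.1.1, fun r => congrArg Subtype.val (x.2 r)⟩ : fixedPts βW))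
      (fun x y h => Subtype.ext (Subtype.ext (congrArg (fun z : fixedPts βW => (z : W)) h)))
  rw [hR] at hRad1
  have hRadtop : Rad ≠ ⊤ := by
    intro htop
    apply hlam0
    have h1 : ∀ x y : D, cval lam x y = 0 := by
      intro x y
      have h2 : (x : W) ∈ Rad := by rw [htop]; trivial
      have h3 := (hRadmem _).mp h2 (y : W)
      rw [hF] at h3
      exact Multiplicative.ofAdd.injective h3
    -- `lam` vanishes on the commutators
    have h2 : ∀ z : D, ∀ hz : z ∈ commutator D, lam (Additive.ofMul ⟨z, hz⟩) = 0 := by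
      intro z hz
      have hz' : z ∈ Subgroup.closure {g : D | ∃ g₁ ∈ (⊤ : Subgroup D), ∃ g₂ ∈ (⊤ : Subgroup D), ⁅g₁, g₂⁆ = g} := hz
      induction hz' using Subgroup.closure_induction with
      | mem x hx =>
        obtain ⟨g₁, -, g₂, -, rfl⟩ := hx
        exact h1 g₁ g₂
      | one => exact map_zero lam
      | mul x y hx hy ihx ihy =>
        have := map_add lam (Additive.ofMul (⟨x, hx⟩ : commutator D)) (Additive.ofMul (⟨y, hy⟩ : commutator D))
        rw [ihx hx, ihy hy, add_zero] at this
        exact this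
      | inv x hx ihx =>
        have := map_neg lam (Additive.ofMul (⟨x, hx⟩ : commutator D))
        rw [ihx hx, neg_zero] at this
        exact this
    apply AddMonoidHom.ext
    intro z
    exact h2 z.toMul.1 z.toMul.2
  have hRadbot : Rad = ⊥ := by
    rcases hpow ((hWp.to_subgroup Rad).to_subgroup (fixedPts (restr βW Rad hRβ))) hfRle with h | h
    · rw [h, one_pow] at hRad1
      exact Subgroup.card_eq_one.mp hRad1
    · exfalso
      apply hRadtop
      apply Subgroup.eq_top_of_card_eq
      rw [hRad1, h, hW1]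
  -- the bilinear form over `ZMod p`
  have instM : Module (ZMod p) (Additive W) := AddCommGroup.zmodModule (n := p) (by
    intro x
    exact congrArg Additive.ofMul (hWexp x.toMul))
  let B : LinearMap.BilinForm (ZMod p) (Additive W) :=
    AddMonoidHom.toZModLinearMap p
      { toFun := fun x => AddMonoidHom.toZModLinearMap p
          { toFun := fun y => Multiplicative.toAdd (F x.toMul y.toMul)
            map_zero' := by
              show Multiplicative.toAdd (F x.toMul 1) = 0
              rw [map_one]; rfl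
            map_add' := fun y y' => by
              show Multiplicative.toAdd (F x.toMul (y.toMul * y'.toMul)) = _
              rw [map_mul]; rfl }
        map_zero' := by
          ext y
          show Multiplicative.toAdd (F 1 y.toMul) = 0
          rw [map_one]; rfl
        map_add' := fun x x' => by
          ext y
          show Multiplicative.toAdd (F (x.toMul * x'.toMul) y.toMul) = _
          rw [map_mul]; rfl }
  have hB : ∀ x y : Additive W, B x y = Multiplicative.toAdd (F x.toMul y.toMul) := fun x y => rfl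
  have hAlt : B.IsAlt := by
    intro x
    obtain ⟨d, hd⟩ := QuotientGroup.mk_surjective x.toMul
    rw [hB, ← hd, hF, cval_self]; rfl
  obtain ⟨m, hm⟩ := Cfsg.Agent.ClassicalGeometry.TwoFamilies.exists_finrank_eq_ker_add B hAlt
  have hker : LinearMap.ker B = ⊥ := by
    rw [eq_bot_iff]
    intro x hx
    have h1 : x.toMul ∈ Rad := by
      rw [hRadmem]
      intro w
      have h2 : B x (Additive.ofMul w) = 0 := by
        rw [LinearMap.mem_ker] at hx; rw [hx]; rfl
      rw [hB] at h2
      exact Multiplicative.toAdd.injective h2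
    rw [hRadbot, Subgroup.mem_bot] at h1
    exact congrArg Additive.ofMul h1
  rw [hker, finrank_bot, zero_add] at hm
  have hcardV : Nat.card W = p ^ finrank (ZMod p) (Additive W) := by
    have := Module.natCard_eq_pow_finrank (K := ZMod p) (V := Additive W)
    rw [Nat.card_zmod] at this
    exact this
  have h2 : finrank (ZMod p) (Additive W) = p := by
    have h3 : p ^ finrank (ZMod p) (Additive W) = p ^ p := by rw [← hcardV]; exact hW1
    exact Nat.pow_right_injective hpf.out.two_le h3
  rw [h2] at hm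
  exact hp (hpf.out.eq_two_or_odd'.resolve_right (by
    rw [Nat.not_odd_iff_even]; exact ⟨m, hm⟩))

end Cfsg.Agent.H18.OmegaCore
end

-- part: H18/OmegaAmb
section
/-!
# Fixed points of an element of order `p` on a `p`-group with a fixed-point-freely normalised operator group

`eq_bot`: `R` a `p`-group (`p` odd), `Q` a `p'`-group acting faithfully on `R`, `b` of order `p` normalising
both, `C_Q(b) = 1`; the elements of `C_R(b)` of order dividing `p` lie in a group of order at most `p` and are
centralized by `Q`.  Then `Q = 1`.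
-/

set_option autoImplicit false

namespace Cfsg.Agent.H18.OmegaAmb

open Cfsg.Agent.OddOrderLocal.FrobAct
open Cfsg.Agent.H18.OmegaCore
open scoped commutatorElement

variable {G : Type*} [Group G]

/-- the conjugation action -/
def cj {A D : Subgroup G} (h : A ≤ Subgroup.normalizer (D : Set G)) : A →* MulAut D :=
  D.normalizerMonoidHom.comp (Subgroup.inclusion h)

theorem cj_apply {A D : Subgroup G} (h : A ≤ Subgroup.normalizer (D : Set G)) (a : A) (x : D) :
    ((cj h a x : D) : G) = a * x * (a : G)⁻¹ := rfl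

/-- an element normalising `A` and `Q` normalises `⁅A, Q⁆` -/
theorem mem_normalizer_commutator {A Q : Subgroup G} {b : G} (hA : b ∈ Subgroup.normalizer (A : Set G))
    (hQ : b ∈ Subgroup.normalizer (Q : Set G)) : b ∈ Subgroup.normalizer ((⁅A, Q⁆ : Subgroup G) : Set G) := by
  have key : ∀ c : G, c ∈ Subgroup.normalizer (A : Set G) → c ∈ Subgroup.normalizer (Q : Set G) →
      ∀ x ∈ (⁅A, Q⁆ : Subgroup G), c * x * c⁻¹ ∈ (⁅A, Q⁆ : Subgroup G) := by
    intro c hcA hcQ
    have hle : (⁅A, Q⁆ : Subgroup G) ≤ (⁅A, Q⁆ : Subgroup G).comap (MulAut.conj c).toMonoidHom := by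
      rw [Subgroup.commutator_le]
      intro x hx y hy
      rw [Subgroup.mem_comap]
      show c * ⁅x, y⁆ * c⁻¹ ∈ _
      have : c * ⁅x, y⁆ * c⁻¹ = ⁅c * x * c⁻¹, c * y * c⁻¹⁆ := by
        simp only [commutatorElement_def]; group
      rw [this]
      exact Subgroup.commutator_mem_commutator ((Subgroup.mem_normalizer_iff.mp hcA x).mp hx)
        ((Subgroup.mem_normalizer_iff.mp hcQ y).mp hy)
    exact fun x hx => hle hx
  rw [Subgroup.mem_normalizer_iff]
  intro x
  refine ⟨key b hA hQ x, fun hx => ?_⟩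
  have := key b⁻¹ (inv_mem hA) (inv_mem hQ) _ hx
  have e : b⁻¹ * (b * x * b⁻¹) * b⁻¹⁻¹ = x := by group
  rwa [e] at this

theorem eq_bot [Finite G] {p : ℕ} [hpf : Fact p.Prime] (hp : p ≠ 2)
    (R Q : Subgroup G) (hR : IsPGroup p R) (hQ : ¬ p ∣ Nat.card Q) (b : G) (hb : orderOf b = p)
    (hQR : Q ≤ Subgroup.normalizer (R : Set G)) (hbR : b ∈ Subgroup.normalizer (R : Set G))
    (hbQ : b ∈ Subgroup.normalizer (Q : Set G))
    (hfix : ∀ x ∈ Q, b * x = x * b → x = 1)
    (hfaith : ∀ x ∈ Q, (∀ r ∈ R, x * r = r * x) → x = 1)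
    (Z : Subgroup G) (hZ : Nat.card Z ≤ p)
    (hZR : ∀ x ∈ R, b * x = x * b → x ^ p = 1 → x ∈ Z ∧ ∀ y ∈ Q, y * x = x * y) : Q = ⊥ := by
  by_contra hQ1
  obtain ⟨C, E, hCR, hEC, hnC, hnE, hE, hcc, -, hfaithE⟩ :=
    Cfsg.Agent.Classification.TypeZ.Critical.exists_critical hp hR
  have hER : E ≤ R := hEC.trans hCR
  have hcopp : (Nat.card Q).Coprime p := ((Nat.Prime.coprime_iff_not_dvd hpf.out).mpr hQ).symm
  have hcop : ∀ A : Subgroup G, A ≤ R → (Nat.card Q).Coprime (Nat.card A) := by
    intro A hA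
    obtain ⟨n, hn⟩ := IsPGroup.iff_card.1 (hR.to_le hA)
    rw [hn]
    exact Nat.Coprime.pow_right n hcopp
  have hbp : IsPGroup p (Subgroup.zpowers b) := IsPGroup.of_card (n := 1) (by
    rw [Nat.card_zpowers, hb, pow_one])
  -- abelian invariant subgroups of exponent `p` are centralized
  have hX : ∀ A : Subgroup G, A ≤ R → (∀ x ∈ A, ∀ y ∈ A, x * y = y * x) → (∀ x ∈ A, x ^ p = 1) →
      Q ≤ Subgroup.normalizer (A : Set G) → b ∈ Subgroup.normalizer (A : Set G) → ⁅A, Q⁆ = ⊥ := by
    intro A hAR hAc hAe hQA hbA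
    by_contra hne
    have hTA : ⁅A, Q⁆ ≤ A := Cfsg.Agent.Lib.CoprimeCommutator.commutator_le_left hQA
    have hbT : Subgroup.zpowers b ≤ Subgroup.normalizer ((⁅A, Q⁆ : Subgroup G) : Set G) := by
      rw [Subgroup.zpowers_le]
      exact mem_normalizer_commutator hbA hbQ
    have : Nontrivial (⁅A, Q⁆ : Subgroup G) := (Subgroup.nontrivial_iff_ne_bot _).2 hne
    obtain ⟨z, hz1, hz⟩ := exists_fixed_ne_one hbp (hR.to_le (hTA.trans hAR)) (cj hbT)
    have hzb : b * z = z * b := by
      have := congrArg Subtype.val (hz ⟨b, Subgroup.mem_zpowers b⟩)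
      rw [cj_apply] at this
      exact mul_inv_eq_iff_eq_mul.mp this
    have hzA : (z : G) ∈ A := hTA z.2
    have h1 := (hZR z (hAR hzA) hzb (hAe z hzA)).2
    have h2 := Cfsg.Agent.Lib.CoprimeAbelian.inf_commutator_eq_bot Q A hAc hQA (hcop A hAR)
    have h3 : (z : G) ∈ (A ⊓ Subgroup.centralizer (Q : Set G)) ⊓ ⁅A, Q⁆ := by
      refine Subgroup.mem_inf.2 ⟨Subgroup.mem_inf.2 ⟨hzA, ?_⟩, z.2⟩
      rw [Subgroup.mem_centralizer_iff]
      exact h1
    rw [h2, Subgroup.mem_bot] at h3
    exact hz1 (Subtype.ext h3)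
  -- the group `D = [E, Q]`
  have hQE : Q ≤ Subgroup.normalizer (E : Set G) := hQR.trans hnE
  have hbE : b ∈ Subgroup.normalizer (E : Set G) := hnE hbR
  set D : Subgroup G := ⁅E, Q⁆ with hDdef
  have hDE : D ≤ E := Cfsg.Agent.Lib.CoprimeCommutator.commutator_le_left hQE
  have hDR : D ≤ R := hDE.trans hER
  have hQD : Q ≤ Subgroup.normalizer (D : Set G) :=
    Cfsg.Agent.Lib.CoprimeCommutator.right_le_normalizer_commutator E Q
  have hbD : Subgroup.zpowers b ≤ Subgroup.normalizer (D : Set G) := by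
    rw [Subgroup.zpowers_le]
    exact mem_normalizer_commutator hbE hbQ
  have hbQ' : Subgroup.zpowers b ≤ Subgroup.normalizer (Q : Set G) := by
    rw [Subgroup.zpowers_le]; exact hbQ
  have hDQ : ⁅D, Q⁆ = D :=
    Cfsg.Agent.Lib.CoprimeCommutator.commutator_commutator_eq Q E hQE (hcop E hER)
  have hD1 : D ≠ ⊥ := by
    intro h
    apply hQ1
    rw [eq_bot_iff]
    intro g hg
    rw [Subgroup.mem_bot]
    apply hfaith g hg
    apply hfaithE g (hQR hg)
    · have h1 : orderOf g ∣ Nat.card Q := by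
        rw [← Subgroup.orderOf_mk g hg]
        exact orderOf_dvd_natCard _
      exact Nat.Coprime.coprime_dvd_left h1 hcopp
    · intro x hx
      rw [hDdef, Subgroup.commutator_eq_bot_iff_le_centralizer] at h
      exact Subgroup.mem_centralizer_iff.mp (h hx) g hg
  have hexp : ∀ d : D, d ^ p = 1 := fun d => Subtype.ext ((hE d).1 (hDE d.2)).2
  have hccD : ∀ x ∈ D, ∀ y ∈ D, ∀ z ∈ D, Commute ⁅x, y⁆ z := fun x hx y hy z hz =>
    hcc x (hEC (hDE hx)) y (hDR hy) z (hEC (hDE hz))
  have hcl : commutator D ≤ Subgroup.center D := by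
    rw [commutator_def, Subgroup.commutator_le]
    intro x _ y _
    rw [Subgroup.mem_center_iff]
    intro z
    exact Subtype.ext (hccD x x.2 y y.2 z z.2).eq.symm
  have hmapc : (commutator D).map D.subtype = ⁅D, D⁆ := by
    rw [commutator_def, Subgroup.map_commutator, ← MonoidHom.range_eq_map, Subgroup.range_subtype]
  -- `Q` centralizes `D'`
  have hDDle : ⁅D, D⁆ ≤ D := Subgroup.commutator_le_self D
  have hDD : ⁅⁅D, D⁆, Q⁆ = ⊥ := by
    apply hX _ (hDDle.trans hDR)
    · intro x hx y hy
      rw [← hmapc] at hx hy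
      obtain ⟨x, hx, rfl⟩ := hx
      obtain ⟨y, hy, rfl⟩ := hy
      exact congrArg Subtype.val (Subgroup.mem_center_iff.mp (hcl hy) x)
    · intro x hx
      exact ((hE x).1 (hDE (hDDle hx))).2
    · intro q hq
      exact mem_normalizer_commutator (hQD hq) (hQD hq)
    · exact mem_normalizer_commutator (hbD (Subgroup.mem_zpowers b)) (hbD (Subgroup.mem_zpowers b))
  have hne : commutator D ≠ ⊥ := by
    intro h
    apply hD1
    rw [← hDQ]
    apply hX D hDR
    · intro x hx y hy
      have h1 : ⁅(⟨x, hx⟩ : D), (⟨y, hy⟩ : D)⁆ ∈ commutator D :=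
        Subgroup.commutator_mem_commutator (Subgroup.mem_top _) (Subgroup.mem_top _)
      rw [h, Subgroup.mem_bot, commutatorElement_eq_one_iff_mul_comm] at h1
      exact congrArg Subtype.val h1
    · intro x hx
      exact ((hE x).1 (hDE hx)).2
    · exact hQD
    · exact hbD (Subgroup.mem_zpowers b)
  -- apply the core
  refine core (D := D) (K := Q) (R := Subgroup.zpowers b) hp hexp hcl (by rw [Nat.card_zpowers, hb])
    (cj hQD) (cj hbD) (cj hbQ') ?_ hQ ?_ ?_ ?_ ?_ hne
  · intro r k v
    apply Subtype.ext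
    rw [cj_apply, cj_apply, cj_apply, cj_apply, cj_apply]
    group
  · intro r hr k hk
    have h1 := congrArg Subtype.val hk
    rw [cj_apply] at h1
    have h2 : (r : G) * k = k * r := mul_inv_eq_iff_eq_mul.mp h1
    have h3 : Subgroup.zpowers r = ⊤ := zpowers_eq_top_of_prime_card (by rw [Nat.card_zpowers, hb]) hr
    have h4 : (⟨b, Subgroup.mem_zpowers b⟩ : Subgroup.zpowers b) ∈ Subgroup.zpowers r := by
      rw [h3]; trivial
    obtain ⟨n, hn⟩ := Subgroup.mem_zpowers_iff.mp h4
    have h5 : b = (r : G) ^ n := by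
      have := congrArg Subtype.val hn
      rw [Subgroup.coe_zpow] at this
      exact this.symm
    apply Subtype.ext
    apply hfix k k.2
    rw [h5]
    exact ((show Commute (r : G) k from h2).zpow_left n).eq
  · refine le_trans (Nat.card_le_card_of_injective
      (fun x : fixedPts (cj hbD) => (⟨x.1.1, ?_⟩ : Z)) ?_) hZ
    · have h1 := congrArg Subtype.val (x.2 ⟨b, Subgroup.mem_zpowers b⟩)
      rw [cj_apply] at h1
      exact (hZR x.1.1 (hDR x.1.2) (mul_inv_eq_iff_eq_mul.mp h1) ((hE _).1 (hDE x.1.2)).2).1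
    · intro x y h
      exact Subtype.ext (Subtype.ext (congrArg (fun z : Z => (z : G)) h))
  · intro k x hx
    apply Subtype.ext
    rw [cj_apply]
    have h1 : (x : G) ∈ ⁅D, D⁆ := by rw [← hmapc]; exact ⟨x, hx, rfl⟩
    rw [Subgroup.commutator_eq_bot_iff_le_centralizer] at hDD
    have h2 := Subgroup.mem_centralizer_iff.mp (hDD h1) k k.2
    exact mul_inv_eq_iff_eq_mul.mpr h2
  · intro x hx
    let W := D ⧸ commutator D
    let cW : CommGroup W := { (inferInstance : Group W) with
      mul_comm := fun x y => by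
        obtain ⟨x, rfl⟩ := QuotientGroup.mk_surjective x
        obtain ⟨y, rfl⟩ := QuotientGroup.mk_surjective y
        show ((x * y : D) : W) = ((y * x : D) : W)
        rw [QuotientGroup.eq]
        have : (x * y)⁻¹ * (y * x) = ⁅y⁻¹, x⁻¹⁆ := by rw [commutatorElement_def]; group
        rw [this]
        exact Subgroup.commutator_mem_commutator (Subgroup.mem_top _) (Subgroup.mem_top _) }
    let αW : Q →* MulAut W := (quotAut (commutator D)).comp (cj hQD)
    have hαW : ∀ k (x : D), αW k (x : W) = ((cj hQD k x : D) : W) := fun k x => rfl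
    have hcopW : (Nat.card Q).Coprime (Nat.card W) :=
      (hcop D hDR).coprime_dvd_right (Subgroup.card_quotient_dvd_card _)
    rw [← QuotientGroup.eq_one_iff]
    apply Cfsg.Agent.Lib.CoprimeAbelian.eq_one_of_fixed_of_mem_closure αW hcopW (x : W)
    · intro a
      rw [hαW]
      exact (QuotientGroup.eq.mpr (hx a)).symm
    · set S := Subgroup.closure {w : W | ∃ a u, w = αW a u * u⁻¹} with hS
      have h1 : ⁅D, Q⁆ ≤ (S.comap (QuotientGroup.mk' (commutator D))).map D.subtype := by
        rw [Subgroup.commutator_le]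
        intro d hd q hq
        refine ⟨⟨d, hd⟩ * cj hQD ⟨q, hq⟩ (⟨d, hd⟩ : D)⁻¹, ?_, ?_⟩
        · have h3 : ((⟨d, hd⟩ * cj hQD ⟨q, hq⟩ (⟨d, hd⟩ : D)⁻¹ : D) : W) =
              αW ⟨q, hq⟩ (((⟨d, hd⟩ : D)⁻¹ : D) : W) * ((((⟨d, hd⟩ : D)⁻¹ : D) : W))⁻¹ := by
            rw [hαW, mul_comm (((cj hQD ⟨q, hq⟩ (⟨d, hd⟩ : D)⁻¹ : D) : W)), QuotientGroup.mk_mul,
              QuotientGroup.mk_inv, inv_inv]
          show ((⟨d, hd⟩ * cj hQD ⟨q, hq⟩ (⟨d, hd⟩ : D)⁻¹ : D) : W) ∈ S
          rw [h3]
          exact Subgroup.subset_closure ⟨_, _, rfl⟩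
        · rw [Subgroup.coe_subtype, Subgroup.coe_mul, cj_apply, commutatorElement_def, Subgroup.coe_inv]
          simp [mul_assoc]
      rw [hDQ] at h1
      obtain ⟨y, hy, hyx⟩ := h1 x.2
      have : y = x := Subtype.ext hyx
      rw [← this]
      exact hy

end Cfsg.Agent.H18.OmegaAmb
end

-- part: S1902
section
set_option autoImplicit false
open Cfsg
open scoped commutatorElement

namespace Cfsg.Agent.S1902

/-- The case of a trivial `p'`-core. -/
theorem core_trivial {G : Type*} [Group G] [Finite G] {p : ℕ} [hpf : Fact p.Prime] (hp : p ≠ 2)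
    (hG : Cfsg.IsPSolvable p G) (hcore : Cfsg.pPrimeCore p G = ⊥) (B : Subgroup G)
    (hBp : ∀ b ∈ B, b ^ p = 1) (hBc : Nat.card B = p ^ 2)
    (b₀ : G) (hb₀ : b₀ ∈ B) (hb₁ : b₀ ≠ 1)
    (hstar : ∀ x ∈ Cfsg.pCore p G, b₀ * x = x * b₀ → x ^ p = 1 → x ∈ B)
    (Q : Subgroup G) (hQ : ¬ p ∣ Nat.card Q) (hBQ : B ≤ Subgroup.normalizer (Q : Set G)) : Q = ⊥ := by
  set R := Cfsg.pCore p G with hRdef
  have hRn : R.Normal := Cfsg.Agent.Lib.Cores.pCore_normal p
  have hRp : IsPGroup p R := Cfsg.Agent.Lib.Cores.pCore_isPGroup p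
  have hCR : Subgroup.centralizer (R : Set G) ≤ R :=
    Cfsg.Agent.Lib.PSolvable.centralizer_pCore_le_of_pSolvable p hG hcore
  have hcopp : (Nat.card Q).Coprime p := ((Nat.Prime.coprime_iff_not_dvd hpf.out).mpr hQ).symm
  have hRN : ∀ A : Subgroup G, A ≤ Subgroup.normalizer (R : Set G) := by
    intro A
    rw [Subgroup.normalizer_eq_top_iff.mpr hRn]; exact le_top
  have hRQ : ∀ x, x ∈ R → x ∈ Q → x = 1 := by
    intro x hxR hxQ
    obtain ⟨n, hn⟩ := IsPGroup.iff_card.1 hRp
    have h1 : orderOf x ∣ p ^ n := by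
      rw [← hn]; exact Cfsg.Agent.Lib.CoprimeStab.orderOf_dvd_natCard_of_mem hxR
    have h2 : orderOf x ∣ Nat.card Q := Cfsg.Agent.Lib.CoprimeStab.orderOf_dvd_natCard_of_mem hxQ
    exact orderOf_eq_one_iff.mp (Nat.eq_one_of_dvd_coprimes (Nat.Coprime.pow_left n hcopp.symm) h1 h2)
  have hob : orderOf b₀ = p := orderOf_eq_prime (hBp b₀ hb₀) hb₁
  -- elements of `B ∩ R` commute with `Q`
  have hF1 : ∀ x ∈ B, x ∈ R → ∀ y ∈ Q, y * x = x * y := by
    intro x hxB hxR y hy
    have h1 : y * x * y⁻¹ * x⁻¹ ∈ R :=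
      R.mul_mem (hRn.conj_mem x hxR y) (R.inv_mem hxR)
    have h2 : y * x * y⁻¹ * x⁻¹ ∈ Q := by
      have e : y * x * y⁻¹ * x⁻¹ = y * (x * y⁻¹ * x⁻¹) := by group
      rw [e]
      exact Q.mul_mem hy ((Subgroup.mem_normalizer_iff.mp (hBQ hxB) _).mp (Q.inv_mem hy))
    have h3 := hRQ _ h1 h2
    calc y * x = (y * x * y⁻¹ * x⁻¹) * (x * y) := by group
      _ = x * y := by rw [h3, one_mul]
  -- `C_Q(b₀) = 1`
  have hF3 : ∀ x ∈ Q, b₀ * x = x * b₀ → x = 1 := by
    set Q₁ := Q ⊓ Subgroup.centralizer ({b₀} : Set G) with hQ₁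
    set R₀ := R ⊓ Subgroup.centralizer ({b₀} : Set G) with hR₀
    have hQ₁c : (Nat.card Q₁).Coprime p :=
      hcopp.coprime_dvd_left (Subgroup.card_dvd_of_le inf_le_left)
    have h1 : Q₁ ≤ Subgroup.centralizer (R₀ : Set G) := by
      apply Cfsg.Agent.Lib.CoprimeStab.le_centralizer_of_omega p hp Q₁ hQ₁c R₀ (hRp.to_le inf_le_left)
      · intro y hy
        have hyC : y ∈ Subgroup.centralizer ({b₀} : Set G) := (Subgroup.mem_inf.1 hy).2
        have key : ∀ c ∈ Subgroup.centralizer ({b₀} : Set G), ∀ x ∈ R₀, c * x * c⁻¹ ∈ R₀ := by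
          intro c hc x hx
          refine Subgroup.mem_inf.2 ⟨hRn.conj_mem x (Subgroup.mem_inf.1 hx).1 c, ?_⟩
          exact Subgroup.mul_mem _ (Subgroup.mul_mem _ hc (Subgroup.mem_inf.1 hx).2) (Subgroup.inv_mem _ hc)
        rw [Subgroup.mem_normalizer_iff]
        intro x
        refine ⟨key y hyC x, fun hx => ?_⟩
        have := key y⁻¹ (Subgroup.inv_mem _ hyC) _ hx
        have e : y⁻¹ * (y * x * y⁻¹) * y⁻¹⁻¹ = x := by group
        rwa [e] at this
      · intro x hx hxp y hy
        have hxR : x ∈ R := (Subgroup.mem_inf.1 hx).1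
        have hxb : b₀ * x = x * b₀ :=
          (Subgroup.mem_centralizer_iff.mp (Subgroup.mem_inf.1 hx).2 b₀ rfl)
        exact (hF1 x (hstar x hxR hxb hxp) hxR y (Subgroup.mem_inf.1 hy).1).symm
    have h2 : Q₁ ≤ Subgroup.centralizer (R : Set G) := by
      apply Cfsg.Agent.Lib.ThompsonPQ.thompson_p_times_q p (Subgroup.zpowers b₀) Q₁ R
        (IsPGroup.of_card (n := 1) (by rw [Nat.card_zpowers, hob, pow_one])) hQ₁c hRp
      · rw [Subgroup.zpowers_le, Subgroup.mem_centralizer_iff]
        intro y hy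
        exact (Subgroup.mem_centralizer_iff.mp (Subgroup.mem_inf.1 hy).2 b₀ rfl).symm
      · exact hRN _
      · exact hRN _
      · have e : R ⊓ Subgroup.centralizer ((Subgroup.zpowers b₀ : Subgroup G) : Set G) ≤ R₀ := by
          refine inf_le_inf_left _ ?_
          apply Subgroup.centralizer_le
          intro x hx
          rw [Set.mem_singleton_iff] at hx
          rw [hx]; exact Subgroup.mem_zpowers b₀
        exact e.trans (Subgroup.le_centralizer_iff.mp h1)
    intro x hx hxb
    have hx1 : x ∈ Q₁ := by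
      refine Subgroup.mem_inf.2 ⟨hx, ?_⟩
      rw [Subgroup.mem_centralizer_iff]
      intro y hy
      rw [Set.mem_singleton_iff] at hy
      rw [hy]; exact hxb
    exact hRQ x (hCR (h2 hx1)) hx
  by_contra hQne
  have hb₀R : b₀ ∉ R := by
    intro h
    apply hQne
    rw [eq_bot_iff]
    intro x hx
    rw [Subgroup.mem_bot]
    exact hF3 x hx (hF1 b₀ hb₀ h x hx).symm
  apply hQne
  have hZle : Nat.card (B ⊓ R : Subgroup G) ≤ p := by
    have h1 : Nat.card (B ⊓ R : Subgroup G) ∣ p ^ 2 := by
      rw [← hBc]; exact Subgroup.card_dvd_of_le inf_le_left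
    obtain ⟨k, hk, hk'⟩ := (Nat.dvd_prime_pow hpf.out).mp h1
    have hk2 : k ≠ 2 := by
      intro h
      rw [h, ← hBc] at hk'
      have h2 : (B ⊓ R : Subgroup G) = B := Subgroup.eq_of_le_of_card_ge inf_le_left hk'.ge
      have h3 : b₀ ∈ (B ⊓ R : Subgroup G) := by rw [h2]; exact hb₀
      exact hb₀R (Subgroup.mem_inf.1 h3).2
    rw [hk']
    calc p ^ k ≤ p ^ 1 := Nat.pow_le_pow_right hpf.out.pos (by omega)
      _ = p := pow_one p
  refine Cfsg.Agent.H18.OmegaAmb.eq_bot hp R Q hRp hQ b₀ hob (hRN _) ?_ (hBQ hb₀) hF3 ?_ (B ⊓ R) hZle ?_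
  · have := hRN ⊤
    exact this (Subgroup.mem_top _)
  · intro x hx hxr
    apply hRQ x _ hx
    apply hCR
    rw [Subgroup.mem_centralizer_iff]
    intro r hr
    exact (hxr r hr).symm
  · intro x hx hxb hxp
    have hxB := hstar x hx hxb hxp
    exact ⟨Subgroup.mem_inf.2 ⟨hxB, hx⟩, hF1 x hxB hx⟩

/-- Let p be an odd prime, G a finite p-solvable group, and B an elementary abelian subgroup of order p² such that B is the subgroup generated by the elements of order p of some Sylow p-subgroup of C_G(b₀), for some nontrivial b₀ ∈ B. Then every B-invariant subgroup of G of order prime to p lies in O_{p'}(G). -/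
theorem result {G : Type*} [Group G] [Finite G] {p : ℕ} [Fact p.Prime] (hp : p ≠ 2)
    (hG : Cfsg.IsPSolvable p G) (B : Subgroup G) (hB : Cfsg.IsElementaryAbelian p B) (hBc : Nat.card B = p ^ 2)
    (b₀ : G) (hb₀ : b₀ ∈ B) (hb₁ : b₀ ≠ 1) (P : Sylow p ↥(Subgroup.centralizer ({b₀} : Set G)))
    (hBP : B = Subgroup.closure {x : G | x ∈ ((P : Subgroup ↥(Subgroup.centralizer ({b₀} : Set G))).map
      (Subgroup.centralizer ({b₀} : Set G)).subtype : Subgroup G) ∧ orderOf x = p})
    (Q : Subgroup G) (hQ : ¬ p ∣ Nat.card Q) (hinv : ∀ b ∈ B, ∀ x ∈ Q, b * x * b⁻¹ ∈ Q) :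
    Q ≤ Cfsg.pPrimeCore p G := by
  have hpp : p.Prime := Fact.out
  set K := Cfsg.pPrimeCore p G with hK
  have hKn : K.Normal := Cfsg.Agent.Lib.Cores.pPrimeCore_normal p
  have hKc : (Nat.card K).Coprime p := Cfsg.Agent.Lib.Cores.pPrimeCore_coprime p
  let π := QuotientGroup.mk' K
  have hπ : Function.Surjective π := QuotientGroup.mk'_surjective K
  have hKp : ∀ x ∈ K, ∀ n, x ^ (p ^ n) = 1 → x = 1 := by
    intro x hx n hn
    have h1 : orderOf x ∣ p ^ n := orderOf_dvd_of_pow_eq_one hn
    have h2 : orderOf x ∣ Nat.card K := Cfsg.Agent.Lib.CoprimeStab.orderOf_dvd_natCard_of_mem hx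
    exact orderOf_eq_one_iff.mp (Nat.eq_one_of_dvd_coprimes (Nat.Coprime.pow_left n hKc.symm) h1 h2)
  have hcore : Cfsg.pPrimeCore p (G ⧸ K) = ⊥ := Cfsg.Agent.Lib.Cores.pPrimeCore_quotient_pPrimeCore p
  have hBinj : ∀ x ∈ B, π x = 1 → x = 1 := by
    intro x hx h
    exact hKp x ((QuotientGroup.eq_one_iff x).mp h) 1 (by rw [pow_one]; exact hB.2 x hx)
  have hBcard : Nat.card (B.map π) = p ^ 2 := by
    rw [← hBc]
    symm
    apply Nat.card_congr
    refine Equiv.ofBijective (π.subgroupMap B) ⟨?_, π.subgroupMap_surjective B⟩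
    rw [injective_iff_map_eq_one]
    intro x hx
    apply Subtype.ext
    exact hBinj x x.2 (congrArg Subtype.val hx)
  have hkey := core_trivial hp (Cfsg.Agent.PLocal.PSolvable.isPSolvable_quotient hG K) hcore (B.map π)
    (by
      rintro _ ⟨b, hb, rfl⟩
      rw [← map_pow, hB.2 b hb, map_one]) hBcard (π b₀) ⟨b₀, hb₀, rfl⟩
    (fun h => hb₁ (hBinj b₀ hb₀ h))
    (by
      intro x hxR hxb hxp
      -- `x` lifts to the centralizer of `b₀`
      have hxC : x ∈ (Subgroup.centralizer ({b₀} : Set G)).map π := by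
        have h1 := Cfsg.Agent.PLocal.CoprimeLift.map_centralizer_mk K (Subgroup.zpowers b₀) hKc
          (IsPGroup.of_card (n := 1) (by
            rw [Nat.card_zpowers, pow_one]
            exact orderOf_eq_prime (hB.2 b₀ hb₀) hb₁))
        have h2 : x ∈ Subgroup.centralizer (((Subgroup.zpowers b₀).map π : Subgroup (G ⧸ K)) : Set (G ⧸ K)) := by
          rw [MonoidHom.map_zpowers, Subgroup.mem_centralizer_iff]
          rintro _ ⟨n, rfl⟩
          exact ((show Commute (π b₀) x from hxb).zpow_left n).eq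
        rw [← h1] at h2
        refine Subgroup.map_mono ?_ h2
        apply Subgroup.centralizer_le
        intro y hy
        rw [Set.mem_singleton_iff] at hy
        rw [hy]; exact Subgroup.mem_zpowers b₀
      let C := Subgroup.centralizer ({b₀} : Set G)
      let f : C →* (C.map π : Subgroup (G ⧸ K)) := π.subgroupMap C
      have hf : Function.Surjective f := π.subgroupMap_surjective C
      let P' : Sylow p (C.map π : Subgroup (G ⧸ K)) := P.mapSurjective hf
      have hRn : (Cfsg.pCore p (G ⧸ K)).Normal := Cfsg.Agent.Lib.Cores.pCore_normal p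
      have hRp : IsPGroup p (Cfsg.pCore p (G ⧸ K)) := Cfsg.Agent.Lib.Cores.pCore_isPGroup p
      have hT : IsPGroup p ((Cfsg.pCore p (G ⧸ K)).subgroupOf (C.map π)) := by
        apply IsPGroup.of_injective (hRp) 
          ((Subgroup.subtype _).comp (Subgroup.subtype _) |>.codRestrict (Cfsg.pCore p (G ⧸ K)) (fun z => Subgroup.mem_subgroupOf.mp z.2))
        intro a b hab
        have := congrArg Subtype.val hab
        exact Subtype.ext (Subtype.ext this)
      have hTle := hT.le_sylow_of_normal P'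
      have hx' : (⟨x, hxC⟩ : (C.map π : Subgroup (G ⧸ K))) ∈ (P' : Subgroup _) :=
        hTle (Subgroup.mem_subgroupOf.mpr hxR)
      have hP' : (P' : Subgroup (C.map π : Subgroup (G ⧸ K))) = (P : Subgroup C).map f := rfl
      rw [hP'] at hx'
      obtain ⟨y, hy, hyx⟩ := hx'
      have hyx' : π (y : G) = x := congrArg Subtype.val hyx
      obtain ⟨n, hn⟩ := P.isPGroup' ⟨y, hy⟩
      have hn' : (y : G) ^ (p ^ n) = 1 := congrArg (fun z : (P : Subgroup C) => ((z : C) : G)) hn
      have hyp : (y : G) ^ p = 1 := by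
        apply hKp _ _ n
        · rw [← pow_mul, mul_comm, pow_mul, hn', one_pow]
        · rw [← QuotientGroup.eq_one_iff]
          have : π ((y : G) ^ p) = 1 := by rw [map_pow, hyx', hxp]
          exact this
      refine ⟨(y : G), ?_, hyx'⟩
      by_cases hy1 : (y : G) = 1
      · rw [hy1]; exact B.one_mem
      · rw [SetLike.mem_coe, hBP]
        exact Subgroup.subset_closure ⟨⟨y, hy, rfl⟩, orderOf_eq_prime hyp hy1⟩)
    (Q.map π)
    (fun h => hQ (h.trans (Subgroup.card_map_dvd Q π)))
    (by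
      rintro _ ⟨b, hb, rfl⟩
      have key : ∀ c ∈ B, ∀ x ∈ Q.map π, π c * x * (π c)⁻¹ ∈ Q.map π := by
        rintro c hc _ ⟨x, hx, rfl⟩
        exact ⟨c * x * c⁻¹, hinv c hc x hx, by rw [map_mul, map_mul, map_inv]⟩
      rw [Subgroup.mem_normalizer_iff]
      intro x
      refine ⟨key b hb x, fun hx => ?_⟩
      have := key b⁻¹ (B.inv_mem hb) _ hx
      have e : π b⁻¹ * (π b * x * (π b)⁻¹) * (π b⁻¹)⁻¹ = x := by rw [map_inv]; group
      rwa [e] at this)
  intro x hx
  have h1 : π x ∈ Q.map π := ⟨x, hx, rfl⟩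
  rw [hkey, Subgroup.mem_bot] at h1
  exact (QuotientGroup.eq_one_iff x).mp h1

end Cfsg.Agent.S1902
end
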