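import Mathlib
import Cfsg.Agent.Transfer.ThompsonTransfer
import Cfsg.Agent.Transfer.Residual
import Cfsg.Statements.S1924
set_option linter.all false

-- part: H23/SemiregSign
section
/-!
# The sign of a semiregular element

An element `c` of order `2 ^ k > 1` of a finite group `G`, no nontrivial power of which is conjugate
into `T`, is an odd permutation of `G ⧸ T` if the index of `T` is `2 ^ k` times an odd number.
-/

set_option autoImplicit false

namespace Cfsg.Agent.H23.SemiregSign

open Equiv.Perm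

theorem sign_semiregular {α : Type*} [Fintype α] [DecidableEq α] (σ : Equiv.Perm α) {k m : ℕ}
    (hk : 1 ≤ k) (hord : σ ^ 2 ^ k = 1) (hsemi : ∀ (x : α) (n : ℕ), (σ ^ n) x = x → 2 ^ k ∣ n)
    (hm : Odd m) (hcard : Fintype.card α = 2 ^ k * m) : sign σ = -1 := by
  have hall : ∀ n ∈ σ.cycleType, n = 2 ^ k := by
    intro n hn
    have h1 : n ∣ 2 ^ k := (dvd_of_mem_cycleType hn).trans (orderOf_dvd_of_pow_eq_one hord)
    rw [mem_cycleType_iff] at hn
    obtain ⟨c, τ, rfl, hd, hc, hn⟩ := hn
    have hne : c.support.Nonempty := by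
      rw [← Finset.card_pos, hn]
      exact Nat.pos_of_dvd_of_pos h1 (by positivity)
    obtain ⟨x, hx⟩ := hne
    have h2 : ((c * τ) ^ n) x = x := by
      rw [hd.commute.mul_pow, Equiv.Perm.mul_apply]
      have h3 : (τ ^ n) x = x := by
        apply Equiv.Perm.pow_apply_eq_self_of_apply_eq_self
        have h4 := hd x
        rcases h4 with h4 | h4
        · exact absurd h4 (Equiv.Perm.mem_support.mp hx)
        · exact h4
      rw [h3, ← hn, ← hc.orderOf, pow_orderOf_eq_one]
      rfl
    exact Nat.dvd_antisymm h1 (hsemi x n h2)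
  have hrep : σ.cycleType = Multiset.replicate σ.cycleType.card (2 ^ k) :=
    Multiset.eq_replicate_card.mpr hall
  have hpos : 0 < 2 ^ k := by positivity
  rw [sign_of_cycleType_eq_replicate hpos hrep]
  have hev : ¬ Odd (2 ^ k) := by
    rw [Nat.not_odd_iff_even]
    exact (Nat.even_pow.mpr ⟨even_two, by omega⟩)
  rw [if_neg hev]
  have hfix : Fintype.card (Function.fixedPoints σ) = 0 := by
    rw [Fintype.card_eq_zero_iff]
    constructor
    rintro ⟨x, hx⟩
    have h1 := hsemi x 1 (by rw [pow_one]; exact hx)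
    have h2 : 2 ^ 1 ∣ 1 := (pow_dvd_pow 2 hk).trans h1
    norm_num at h2
  rw [hfix, Nat.sub_zero, hcard, Nat.mul_div_cancel_left _ hpos]
  exact hm.neg_one_pow

/-- `c` of order `2 ^ k > 1`, no nontrivial power of it is conjugate into `T`: `c` is an odd permutation
of `G ⧸ T`. -/
theorem exists_hom_neg_one {G : Type*} [Group G] [Finite G] (T : Subgroup G) {k m : ℕ} (hk : 1 ≤ k)
    (hT : T.index = 2 ^ k * m) (hm : Odd m) (c : G) (hc : orderOf c = 2 ^ k)
    (h : ∀ (g : G) (n : ℕ), g * c ^ n * g⁻¹ ∈ T → c ^ n = 1) : ∃ f : G →* ℤˣ, f c = -1 := by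
  classical
  have : Finite (G ⧸ T) := inferInstance
  have : Fintype (G ⧸ T) := Fintype.ofFinite _
  refine ⟨(Equiv.Perm.sign).comp (MulAction.toPermHom G (G ⧸ T)), ?_⟩
  show sign (MulAction.toPermHom G (G ⧸ T) c) = -1
  refine sign_semiregular _ hk ?_ ?_ hm ?_
  · rw [← map_pow, ← hc, pow_orderOf_eq_one, map_one]
  · intro x n
    refine QuotientGroup.induction_on x ?_
    intro g hg
    rw [← map_pow] at hg
    have hg' : (c ^ n) • (g : G ⧸ T) = (g : G ⧸ T) := hg
    have h3 : ((c ^ n * g : G) : G ⧸ T) = (g : G ⧸ T) := hg'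
    have h4 := QuotientGroup.eq.1 h3
    have h5 : g⁻¹ * c ^ n * (g⁻¹)⁻¹ ∈ T := by
      have h6 := T.inv_mem h4
      have h7 : ((c ^ n * g)⁻¹ * g)⁻¹ = g⁻¹ * c ^ n * (g⁻¹)⁻¹ := by group
      rwa [h7] at h6
    rw [← hc]
    exact orderOf_dvd_of_pow_eq_one (h _ _ h5)
  · rw [← Nat.card_eq_fintype_card, ← Subgroup.index_eq_card, hT]

end Cfsg.Agent.H23.SemiregSign
end

-- part: S1924
section
/-!
S1924.  `K = O²(G)`.  The involutions of `D` outside `C` are odd permutations of `G ⧸ TC`, so `D ∩ K ≤ C`; a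
generator of `D ∩ K ≠ 1` would be an odd permutation of `K ⧸ T`, but `O²(K) = K`.
-/

set_option autoImplicit false
open Cfsg

namespace Cfsg.Agent.S1924

open Subgroup Cfsg.Agent.Transfer.Residual Cfsg.Agent.Transfer.ThompsonTransfer

/-- the elements of a dihedral group outside a cyclic subgroup of index two are involutions -/
theorem orderOf_dihedral {n : ℕ} (hn : 2 ≤ n) (C : Subgroup (DihedralGroup n)) (hC : IsCyclic C)
    (hi : C.index = 2) {x : DihedralGroup n} (hx : x ∉ C) : orderOf x = 2 := by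
  have : NeZero n := ⟨by omega⟩
  rcases x with i | i
  · -- `x` is a rotation, so `C` contains a reflection
    have hcard : Nat.card C = n := by
      have h1 := C.card_mul_index
      rw [hi, DihedralGroup.nat_card] at h1
      omega
    obtain ⟨⟨c, hc⟩, hgen⟩ := hC.exists_generator
    rcases c with k | k
    · -- all elements of `C` are rotations
      exfalso
      have hle : C ≤ zpowers (DihedralGroup.r 1 : DihedralGroup n) := by
        intro y hy
        obtain ⟨j, hj⟩ := mem_zpowers_iff.mp (hgen ⟨y, hy⟩)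
        have hj' : (DihedralGroup.r k : DihedralGroup n) ^ j = y := congrArg Subtype.val hj
        rw [← hj']
        apply zpow_mem
        rw [mem_zpowers_iff]
        refine ⟨(k.val : ℤ), ?_⟩
        rw [zpow_natCast, DihedralGroup.r_one_pow, ZMod.natCast_zmod_val]
      have hcard2 : Nat.card (zpowers (DihedralGroup.r 1 : DihedralGroup n)) = n := by
        rw [Nat.card_zpowers, DihedralGroup.orderOf_r_one]
      have heq : C = zpowers (DihedralGroup.r 1 : DihedralGroup n) :=
        Subgroup.eq_of_le_of_card_ge hle (by rw [hcard, hcard2])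
      apply hx
      rw [heq, mem_zpowers_iff]
      refine ⟨(i.val : ℤ), ?_⟩
      rw [zpow_natCast, DihedralGroup.r_one_pow, ZMod.natCast_zmod_val]
    · have h2 : n = 2 := by
        have h3 : orderOf (⟨DihedralGroup.sr k, hc⟩ : C) = Nat.card C := orderOf_eq_card_of_forall_mem_zpowers hgen
        rw [Subgroup.orderOf_mk, DihedralGroup.orderOf_sr, hcard] at h3
        exact h3.symm
      subst h2
      have hx1 : (DihedralGroup.r i : DihedralGroup 2) ≠ 1 := by
        intro h; rw [h] at hx; exact hx C.one_mem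
      refine orderOf_eq_prime ?_ hx1
      rw [pow_two, DihedralGroup.r_mul_r, DihedralGroup.one_def]
      have h4 : ∀ j : ZMod 2, j + j = 0 := by decide
      rw [h4 i]
  · exact DihedralGroup.orderOf_sr i

/-- `O²(O²(G)) = O²(G)` -/
theorem pResidual_pResidual {G : Type*} [Group G] {p : ℕ} : pResidual p (pResidual p G) = ⊤ := by
  have h : pResidual p G ≤ (pResidual p (pResidual p G)).map (pResidual p G).subtype := by
    nth_rewrite 1 [pResidual_def]
    rw [closure_le]
    intro g hg
    have hg' : Nat.Coprime (orderOf g) p := hg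
    refine ⟨⟨g, mem_pResidual_of_coprime hg'⟩, mem_pResidual_of_coprime ?_, rfl⟩
    rwa [Subgroup.orderOf_mk]
  rw [eq_top_iff]
  rintro ⟨x, hx⟩ -
  obtain ⟨y, hy, hyx⟩ := h hx
  have : y = ⟨x, hx⟩ := Subtype.ext hyx
  rwa [← this]

theorem card_mul_relIndex {G : Type*} [Group G] {H K : Subgroup G} (h : H ≤ K) :
    Nat.card H * H.relIndex K = Nat.card K := by
  have h1 := (H.subgroupOf K).card_mul_index
  rwa [Nat.card_congr (subgroupOfEquivOfLe h).toEquiv] at h1

/-- If `T ≤ L`, `T ∩ D = 1` and every element of `S` is `td`, then `|S ∩ K| = |T| |D ∩ K|` for `T ≤ K`. -/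
theorem card_inf_eq {G : Type*} [Group G] [Finite G] {T S D K : Subgroup G} (hTS : T ≤ S) (hDS : D ≤ S)
    (hDT : D ⊓ T = ⊥) (hTDc : Nat.card T * Nat.card D = Nat.card S) (hTK : T ≤ K) :
    Nat.card (S ⊓ K : Subgroup G) = Nat.card T * Nat.card (D ⊓ K : Subgroup G) := by
  have hinj : ∀ t t' d d' : G, t ∈ T → t' ∈ T → d ∈ D → d' ∈ D → t * d = t' * d' → t = t' ∧ d = d' := by
    intro t t' d d' ht ht' hd hd' h
    have h1 : t'⁻¹ * t = d' * d⁻¹ := by
      calc t'⁻¹ * t = t'⁻¹ * (t * d) * d⁻¹ := by group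
        _ = t'⁻¹ * (t' * d') * d⁻¹ := by rw [h]
        _ = d' * d⁻¹ := by group
    have h2 : t'⁻¹ * t ∈ D ⊓ T :=
      Subgroup.mem_inf.mpr ⟨by rw [h1]; exact D.mul_mem hd' (D.inv_mem hd), T.mul_mem (T.inv_mem ht') ht⟩
    rw [hDT, mem_bot] at h2
    have h3 : t = t' := (inv_mul_eq_one.mp h2).symm
    refine ⟨h3, ?_⟩
    rw [h3] at h
    exact mul_left_cancel h
  let f : T × D → S := fun x => ⟨x.1 * x.2, mul_mem (hTS x.1.2) (hDS x.2.2)⟩
  have hf : Function.Injective f := by
    rintro ⟨t, d⟩ ⟨t', d'⟩ h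
    have h1 : (t : G) * d = t' * d' := congrArg Subtype.val h
    obtain ⟨h2, h3⟩ := hinj _ _ _ _ t.2 t'.2 d.2 d'.2 h1
    exact Prod.ext (Subtype.ext h2) (Subtype.ext h3)
  have hfb : Function.Bijective f := by
    rw [Nat.bijective_iff_injective_and_card]
    exact ⟨hf, by rw [Nat.card_prod, hTDc]⟩
  let g : T × (D ⊓ K : Subgroup G) → (S ⊓ K : Subgroup G) := fun x =>
    ⟨x.1 * x.2, mul_mem (hTS x.1.2) (hDS x.2.2.1), mul_mem (hTK x.1.2) x.2.2.2⟩
  have hgb : Function.Bijective g := by
    constructor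
    · rintro ⟨t, d⟩ ⟨t', d'⟩ h
      have h1 : (t : G) * d = t' * d' := congrArg Subtype.val h
      obtain ⟨h2, h3⟩ := hinj _ _ _ _ t.2 t'.2 d.2.1 d'.2.1 h1
      exact Prod.ext (Subtype.ext h2) (Subtype.ext h3)
    · rintro ⟨s, hs, hsK⟩
      obtain ⟨⟨t, d⟩, hx⟩ := hfb.2 ⟨s, hs⟩
      have h1 : (t : G) * d = s := congrArg Subtype.val hx
      have h2 : (d : G) ∈ K := by
        have h3 : (d : G) = (t : G)⁻¹ * s := by rw [← h1]; group
        rw [h3]
        exact mul_mem (inv_mem (hTK t.2)) hsK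
      exact ⟨⟨t, ⟨d, d.2, h2⟩⟩, Subtype.ext h1⟩
  rw [← Nat.card_congr (Equiv.ofBijective g hgb), Nat.card_prod]

/-- A consequence of Thompson's transfer lemma. Let G be a finite group, L a subgroup with O²(L) = L, T a Sylow 2-subgroup of L and S a Sylow 2-subgroup of G containing T. Suppose D ≤ S is a dihedral subgroup of order at least 4 (the four-group counts) with D ∩ T = 1 and S = TD as a set of products (so |S| = |T|·|D|), and C ≤ D is cyclic of index 2 in D. If no involution of D outside C is G-conjugate to an involution of the subgroup generated by T and C, and the involution of C is not G-conjugate to any involution of T, then G has a normal subgroup K, containing every Sylow 2-subgroup of L as a Sylow 2-subgroup, with G = KD. -/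
theorem result {G : Type*} [Group G] [Finite G] (L T S D C : Subgroup G) (hL : Cfsg.pResidual 2 ↥L = ⊤)
    (hTL : T ≤ L) (hT2 : IsPGroup 2 T) (hTsyl : ¬ 2 ∣ T.relIndex L)
    (hS2 : IsPGroup 2 S) (hSsyl : ¬ 2 ∣ S.index) (hTS : T ≤ S)
    (hDS : D ≤ S) (hDih : ∃ n : ℕ, 2 ≤ n ∧ Nonempty (↥D ≃* DihedralGroup n)) (hDT : D ⊓ T = ⊥) (hTD : T ⊔ D = S) (hTDc : Nat.card T * Nat.card D = Nat.card S)
    (hCD : C ≤ D) (hC : IsCyclic ↥C) (hCi : C.relIndex D = 2)
    (h1 : ∀ x ∈ D, x ∉ C → orderOf x = 2 → ∀ g : G, g * x * g⁻¹ ∈ T ⊔ C → False)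
    (h2 : ∀ c ∈ C, orderOf c = 2 → ∀ g : G, g * c * g⁻¹ ∈ T → False) :
    ∃ K : Subgroup G, K.Normal ∧ K ⊔ D = ⊤ ∧
      ∀ T' : Subgroup G, T' ≤ L → IsPGroup 2 T' → ¬ 2 ∣ T'.relIndex L → T' ≤ K ∧ ¬ 2 ∣ T'.relIndex K := by
  have hKn : (pResidual 2 G).Normal := pResidual_normal 2
  have hKK : pResidual 2 (pResidual 2 G) = ⊤ := pResidual_pResidual
  set K := pResidual 2 G with hK
  have hLK : L ≤ K := by
    have h3 := pResidual_subgroup_le (G := G) 2 L
    rw [hL, ← MonoidHom.range_eq_map, range_subtype] at h3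
    exact h3
  -- every element of `D` outside `C` is an involution
  have hinv : ∀ x ∈ D, x ∉ C → orderOf x = 2 := by
    intro x hx hxC
    obtain ⟨n, hn, ⟨e⟩⟩ := hDih
    have h3 : orderOf (e ⟨x, hx⟩) = 2 := by
      refine orderOf_dihedral hn ((C.subgroupOf D).map e.toMonoidHom) ?_ ?_ ?_
      · have e1 : C ≃* (C.subgroupOf D).map e.toMonoidHom :=
          (subgroupOfEquivOfLe hCD).symm.trans
            ((C.subgroupOf D).equivMapOfInjective e.toMonoidHom e.injective)
        exact isCyclic_of_surjective e1.toMonoidHom e1.surjective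
      · have h4 := Subgroup.index_map_equiv (C.subgroupOf D) e
        exact h4.trans hCi
      · rintro ⟨y, hy, hyx⟩
        have h4 : y = ⟨x, hx⟩ := e.injective hyx
        rw [h4] at hy
        exact hxC hy
    have h4 : orderOf (e ⟨x, hx⟩) = orderOf (⟨x, hx⟩ : D) := MulEquiv.orderOf_eq e _
    rw [h4, Subgroup.orderOf_mk] at h3
    exact h3
  have hTK : T ≤ K := hTL.trans hLK
  -- the elements of `D` outside `C` are not in `K`
  have hDK : D ⊓ K ≤ C := by
    rintro x ⟨hxD, hxK⟩
    by_contra hxC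
    have hx2 := hinv x hxD hxC
    have hTC : T ⊔ C ≤ S := sup_le hTS (hCD.trans hDS)
    have hxTC : x ∉ T ⊔ C := by
      intro hx
      refine h1 x hxD hxC hx2 1 ?_
      simpa using hx
    -- the index of `TC` in `S` is two
    have hCcard : Nat.card C * 2 = Nat.card D := by
      rw [← hCi]; exact card_mul_relIndex hCD
    have hle : Nat.card T * Nat.card C ≤ Nat.card (T ⊔ C : Subgroup G) := by
      have h3 := card_inf_eq (T := T) (S := S) (D := D) (K := T ⊔ C) hTS hDS hDT hTDc le_sup_left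
      rw [inf_of_le_right hTC] at h3
      rw [h3]
      apply Nat.mul_le_mul_left
      exact Subgroup.card_le_of_le (le_inf hCD le_sup_right)
    have hTCc := card_mul_relIndex hTC
    have hne : (T ⊔ C).relIndex S ≠ 1 := by
      intro h3
      rw [relIndex_eq_one] at h3
      exact hxTC (h3 (hDS hxD))
    have hidx : (T ⊔ C).relIndex S = 2 := by
      have hpos : 0 < Nat.card T * Nat.card C := Nat.mul_pos Nat.card_pos Nat.card_pos
      have h0 : (T ⊔ C).relIndex S ≠ 0 := by
        intro h3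
        rw [h3, mul_zero] at hTCc
        have : 0 < Nat.card S := Nat.card_pos
        omega
      have h4 : (Nat.card T * Nat.card C) * (T ⊔ C).relIndex S ≤ (Nat.card T * Nat.card C) * 2 := by
        calc (Nat.card T * Nat.card C) * (T ⊔ C).relIndex S
            ≤ Nat.card (T ⊔ C : Subgroup G) * (T ⊔ C).relIndex S := Nat.mul_le_mul_right _ hle
          _ = (Nat.card T * Nat.card C) * 2 := by rw [hTCc, ← hTDc, ← hCcard]; ring
      have h5 := Nat.le_of_mul_le_mul_left h4 hpos
      omega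
    obtain ⟨m, hm, hmo⟩ : ∃ m : ℕ, (T ⊔ C).index = 2 * m ∧ Odd m := by
      refine ⟨S.index, ?_, ?_⟩
      · rw [← relIndex_mul_index hTC, hidx]
      · rw [← Nat.not_even_iff_odd, even_iff_two_dvd]
        exact hSsyl
    obtain ⟨f, hf⟩ := exists_hom_eq_neg_one (T ⊔ C) hm hmo x (by rw [← hx2]; exact pow_orderOf_eq_one x)
      (fun g hg => h1 x hxD hxC hx2 g hg)
    have h3 : IsPGroup 2 ℤˣ := by
      intro u
      refine ⟨1, ?_⟩
      rcases Int.units_eq_one_or u with rfl | rfl <;> decide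
    have h4 : f x = 1 := pResidual_le_ker h3 f hxK
    rw [hf] at h4
    exact absurd h4 (by decide)
  have hSK : S.relIndex K ∣ S.index := by
    have h3 : K ⊔ S = ⊤ := pResidual_sup_of_not_dvd_index hSsyl
    have h4 : K.index = K.relIndex S := by
      rw [← relIndex_sup_right (H := S) (K := K), sup_comm, h3, relIndex_top_right]
    have h5 := K.card_mul_index
    have h6 := S.card_mul_index
    have h7 := card_mul_relIndex (inf_le_right : S ⊓ K ≤ K)
    have h8 := card_mul_relIndex (inf_le_right : K ⊓ S ≤ S)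
    rw [inf_relIndex_right] at h7 h8
    rw [inf_comm K S] at h8
    rw [h4, ← h7] at h5
    rw [← h8, ← h5] at h6
    have hpos : 0 < Nat.card (S ⊓ K : Subgroup G) * K.relIndex S := by
      rw [h8]; exact Nat.card_pos
    have h9 : Nat.card (S ⊓ K : Subgroup G) * K.relIndex S * S.index =
        Nat.card (S ⊓ K : Subgroup G) * K.relIndex S * S.relIndex K := by
      rw [h6]; ring
    rw [Nat.eq_of_mul_eq_mul_left hpos h9]
  have hSKo : Odd (S.relIndex K) := by
    rw [← Nat.not_even_iff_odd, even_iff_two_dvd]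
    exact fun h => hSsyl (h.trans hSK)
  have hcSK := card_inf_eq (K := K) hTS hDS hDT hTDc hTK
  have hTidx : T.relIndex K = Nat.card (D ⊓ K : Subgroup G) * S.relIndex K := by
    have h3 := card_mul_relIndex hTK
    have h4 := card_mul_relIndex (inf_le_right : S ⊓ K ≤ K)
    rw [inf_relIndex_right, hcSK, ← h3, mul_assoc] at h4
    have hpos : 0 < Nat.card T := Nat.card_pos
    exact (Nat.eq_of_mul_eq_mul_left hpos h4).symm
  -- `D ∩ K = 1`
  have hDK1 : Nat.card (D ⊓ K : Subgroup G) = 1 := by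
    by_contra hne
    have hcyc : IsCyclic (D ⊓ K : Subgroup G) :=
      isCyclic_of_injective (inclusion hDK) (inclusion_injective hDK)
    obtain ⟨⟨c, hcDK⟩, hgen⟩ := hcyc.exists_generator
    have hcord : orderOf c = Nat.card (D ⊓ K : Subgroup G) := by
      rw [← orderOf_eq_card_of_forall_mem_zpowers hgen, Subgroup.orderOf_mk]
    obtain ⟨k, hk⟩ : ∃ k : ℕ, Nat.card (D ⊓ K : Subgroup G) = 2 ^ k := by
      have h3 : IsPGroup 2 (D ⊓ K : Subgroup G) := hS2.to_le (inf_le_left.trans hDS)
      exact IsPGroup.iff_card.mp h3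
    have hk1 : 1 ≤ k := by
      by_contra hlt
      have : k = 0 := by omega
      rw [this, pow_zero] at hk
      exact hne hk
    have hTi : (T.subgroupOf K).index = 2 ^ k * S.relIndex K := by
      rw [← hk]; exact hTidx
    obtain ⟨f, hf⟩ := Cfsg.Agent.H23.SemiregSign.exists_hom_neg_one (T.subgroupOf K) hk1 hTi hSKo
      (⟨c, hcDK.2⟩ : K) (by rw [Subgroup.orderOf_mk, hcord, hk]) (by
        intro g n hg
        by_contra hcn
        have hcn' : c ^ n ≠ 1 := fun h => hcn (Subtype.ext h)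
        have hcC : c ∈ C := hDK hcDK
        obtain ⟨i, hi⟩ : ∃ i : ℕ, orderOf (c ^ n) = 2 ^ i := by
          obtain ⟨i, -, hi⟩ := (Nat.dvd_prime_pow Nat.prime_two).mp
            (show orderOf (c ^ n) ∣ 2 ^ k by rw [← hk, ← hcord]; exact orderOf_pow_dvd n)
          exact ⟨i, hi⟩
        obtain ⟨j, rfl⟩ : ∃ j, i = j + 1 := by
          rcases Nat.eq_zero_or_pos i with h | h
          · rw [h, pow_zero, orderOf_eq_one_iff] at hi
            exact absurd hi hcn'
          · exact ⟨i - 1, by omega⟩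
        have hord : orderOf ((c ^ n) ^ 2 ^ j) = 2 := by
          rw [orderOf_pow_of_dvd (by positivity) (by rw [hi]; exact pow_dvd_pow 2 (by omega)), hi, pow_succ,
            Nat.mul_div_cancel_left _ (by positivity)]
        refine h2 _ (pow_mem (pow_mem hcC n) _) hord g ?_
        have h3 : (g : G) * (c ^ n) * (g : G)⁻¹ ∈ T := hg
        have h4 := pow_mem h3 (2 ^ j)
        rwa [conj_pow] at h4)
    rw [hom_eq_one_of_pResidual_eq_top hKK f] at hf
    exact absurd hf (by decide)
  rw [hDK1, one_mul] at hTidx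
  refine ⟨K, hKn, ?_, ?_⟩
  · rw [eq_top_iff, ← pResidual_sup_of_not_dvd_index hSsyl, ← hTD]
    exact sup_le le_sup_left (sup_le (hTK.trans le_sup_left) le_sup_right)
  · intro T' hT'L hT'2 hT'syl
    refine ⟨hT'L.trans hLK, ?_⟩
    have h3 := card_mul_relIndex hTL
    have h4 := card_mul_relIndex hT'L
    have h5 := card_mul_relIndex hTK
    have h6 := card_mul_relIndex (hT'L.trans hLK)
    have hcard : Nat.card T' = Nat.card T := by
      obtain ⟨r, hr⟩ := IsPGroup.iff_card.mp hT2
      obtain ⟨s, hs⟩ := IsPGroup.iff_card.mp hT'2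
      rw [hr] at h3 ⊢
      rw [hs] at h4 ⊢
      apply Nat.dvd_antisymm
      · refine Nat.Coprime.dvd_of_dvd_mul_right (n := T.relIndex L) ?_ (by rw [h3, ← h4]; exact dvd_mul_right _ _)
        exact Nat.Coprime.pow_left _ ((Nat.Prime.coprime_iff_not_dvd Nat.prime_two).mpr hTsyl)
      · refine Nat.Coprime.dvd_of_dvd_mul_right (n := T'.relIndex L) ?_ (by rw [h4, ← h3]; exact dvd_mul_right _ _)
        exact Nat.Coprime.pow_left _ ((Nat.Prime.coprime_iff_not_dvd Nat.prime_two).mpr hT'syl)
    have hpos : 0 < Nat.card T := Nat.card_pos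
    rw [hcard, ← h5] at h6
    rw [Nat.eq_of_mul_eq_mul_left hpos h6, hTidx]
    exact fun h => hSsyl (h.trans hSK)

end Cfsg.Agent.S1924
end
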