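import Mathlib
import Cfsg.Prelude.Def_Transfer
import Cfsg.Agent.S0599
import Cfsg.Agent.PLocal.Timmesfeld
import Cfsg.Statements.S1935
set_option linter.all false

-- part: H26/LimitBasic
section
/-!
# Leading coefficients of a twisted polynomial submodule

`S` an additive subgroup of a finite ring `E`, `u`, `v` one-sided invertible polynomials: the leading coefficients of the
polynomials `u f v`, `f ∈ S[X]`, form an additive subgroup `lead u v S` with at least as many elements as `S`.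
-/

set_option autoImplicit false

namespace Cfsg.Agent.H26.Limit

open Polynomial

section Count

variable {E : Type*} [AddCommGroup E]

/-- Counting a finite additive group of finitely supported sequences by leading terms. -/
theorem count (L : AddSubgroup E) [Finite L] (K : ℕ) : ∀ (P : Type*) [AddCommGroup P] [Finite P]
    (φ : P →+ (ℕ → E)), Function.Injective φ → (∀ f k, K ≤ k → φ f k = 0) →
    (∀ f k, (∀ j, k < j → φ f j = 0) → φ f k ∈ L) → Nat.card P ≤ Nat.card L ^ K := by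
  induction K with
  | zero =>
    intro P _ _ φ hφ hK _
    have : Subsingleton P := by
      constructor
      intro a b
      apply hφ
      funext k
      rw [hK a k (Nat.zero_le _), hK b k (Nat.zero_le _)]
    rw [pow_zero]
    exact Finite.card_le_one_iff_subsingleton.2 this
  | succ K ih =>
    intro P _ _ φ hφ hK hL
    let g : P →+ L :=
      { toFun := fun f => ⟨φ f K, hL f K (fun j hj => hK f j hj)⟩
        map_zero' := by simp
        map_add' := by intro a b; simp }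
    have h1 : Nat.card P = Nat.card g.range * Nat.card g.ker := by
      rw [← AddSubgroup.index_ker g, mul_comm]
      exact (AddSubgroup.card_mul_index g.ker).symm
    have h2 : Nat.card g.ker ≤ Nat.card L ^ K := by
      refine ih g.ker (φ.comp g.ker.subtype) (hφ.comp Subtype.val_injective) ?_ ?_
      · rintro ⟨f, hf⟩ k hk
        rcases hk.lt_or_eq with h | h
        · exact hK f k h
        · subst h
          exact congrArg Subtype.val hf
      · rintro ⟨f, hf⟩ k hk
        exact hL f k hk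
    have h3 : Nat.card g.range ≤ Nat.card L := AddSubgroup.card_le_card_addGroup g.range
    rw [h1, pow_succ, mul_comm]
    exact Nat.mul_le_mul h2 h3

theorem le_of_pow_le {s l c : ℕ} (hl : 0 < l) (h : ∀ N : ℕ, s ^ (N + 1) ≤ l ^ (N + c)) : s ≤ l := by
  by_contra hcon
  push Not at hcon
  -- `(l + 1) ^ n ≥ l ^ n + n * l ^ (n - 1)`
  have h1 : ∀ n : ℕ, l ^ (n + 1) + (n + 1) * l ^ n ≤ (l + 1) ^ (n + 1) := by
    intro n
    induction n with
    | zero => simp
    | succ n ih =>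
      calc l ^ (n + 1 + 1) + (n + 1 + 1) * l ^ (n + 1)
          ≤ (l ^ (n + 1) + (n + 1) * l ^ n) * (l + 1) := by
            have : (l ^ (n + 1) + (n + 1) * l ^ n) * (l + 1) =
              l ^ (n + 1 + 1) + (n + 1 + 1) * l ^ (n + 1) + (n + 1) * l ^ n := by ring
            rw [this]; exact Nat.le_add_right _ _
        _ ≤ (l + 1) ^ (n + 1) * (l + 1) := Nat.mul_le_mul_right _ ih
        _ = _ := (pow_succ _ _).symm
  set N := l ^ c with hN
  have h2 := h N
  have h3 := h1 N
  have h4 : (l + 1) ^ (N + 1) ≤ s ^ (N + 1) := Nat.pow_le_pow_left hcon _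
  have h5 : l ^ (N + 1) + (N + 1) * l ^ N ≤ l ^ (N + c) := h3.trans (h4.trans h2)
  have h6 : l ^ (N + c) = N * l ^ N := by rw [pow_add, ← hN, mul_comm]
  rw [h6] at h5
  have h7 : 0 < l ^ N := pow_pos hl _
  rw [add_mul, one_mul] at h5
  generalize N * l ^ N = a at h5
  generalize l ^ (N + 1) = b at h5
  omega

end Count

section Lead

variable {E : Type*} [Ring E]

/-- Leading coefficients of the polynomials `u * f * v`, `f` with coefficients in `S`. -/
def lead (u v : E[X]) (S : AddSubgroup E) : AddSubgroup E where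
  carrier := {x | ∃ f : E[X], (∀ k, f.coeff k ∈ S) ∧ ∃ k, (∀ j, k < j → (u * f * v).coeff j = 0) ∧
    (u * f * v).coeff k = x}
  zero_mem' := ⟨0, by simp, 0, by simp, by simp⟩
  neg_mem' := by
    rintro x ⟨f, hf, k, hk, rfl⟩
    refine ⟨-f, fun j => by simpa using hf j, k, fun j hj => ?_, ?_⟩
    · rw [mul_neg, neg_mul, coeff_neg, hk j hj, neg_zero]
    · rw [mul_neg, neg_mul, coeff_neg]
  add_mem' := by
    rintro x y ⟨f, hf, k, hk, rfl⟩ ⟨g, hg, l, hl, rfl⟩
    have key : ∀ n : ℕ, ∀ f : E[X], (∀ k, f.coeff k ∈ S) → (∀ k, (f * X ^ n).coeff k ∈ S) := by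
      intro n f hf k
      rw [coeff_mul_X_pow']
      split_ifs with h
      · exact hf _
      · exact S.zero_mem
    have hX : ∀ (n : ℕ) (f : E[X]), u * (f * X ^ n) * v = u * f * v * X ^ n := by
      intro n f
      rw [← mul_assoc, mul_assoc (u * f) (X ^ n) v, X_pow_mul, ← mul_assoc]
    refine ⟨f * X ^ l + g * X ^ k, fun j => ?_, k + l, fun j hj => ?_, ?_⟩
    · rw [coeff_add]
      exact S.add_mem (key l f hf j) (key k g hg j)
    · rw [mul_add, add_mul, coeff_add, hX, hX, coeff_mul_X_pow', coeff_mul_X_pow',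
        if_pos (by omega), if_pos (by omega), hk _ (by omega), hl _ (by omega), add_zero]
    · rw [mul_add, add_mul, coeff_add, hX, hX, coeff_mul_X_pow', coeff_mul_X_pow',
        if_pos (by omega), if_pos (by omega)]
      congr 2 <;> omega

theorem mem_lead {u v : E[X]} {S : AddSubgroup E} {x : E} : x ∈ lead u v S ↔
    ∃ f : E[X], (∀ k, f.coeff k ∈ S) ∧ ∃ k, (∀ j, k < j → (u * f * v).coeff j = 0) ∧
    (u * f * v).coeff k = x := Iff.rfl

theorem card_le_lead [Finite E] {u v u' v' : E[X]} (hu : u' * u = 1) (hv : v * v' = 1)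
    (hud : u.natDegree ≤ 1) (hvd : v.natDegree ≤ 1) (S : AddSubgroup E) :
    Nat.card S ≤ Nat.card (lead u v S) := by
  refine le_of_pow_le (c := 3) Nat.card_pos fun N => ?_
  let ι : (Fin (N + 1) → S) →+ E[X] :=
    { toFun := fun s => ∑ i : Fin (N + 1), monomial (i : ℕ) (s i : E)
      map_zero' := by simp
      map_add' := by
        intro s t
        simp [Finset.sum_add_distrib] }
  have hι : ∀ s (i : Fin (N + 1)), (ι s).coeff i = s i := by
    intro s i
    change (∑ j : Fin (N + 1), monomial (j : ℕ) (s j : E)).coeff i = _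
    rw [finsetSum_coeff]
    rw [Finset.sum_eq_single i]
    · rw [coeff_monomial, if_pos rfl]
    · intro j _ hj
      rw [coeff_monomial, if_neg (fun h => hj (Fin.ext h))]
    · intro h; exact absurd (Finset.mem_univ i) h
  have hιS : ∀ s k, (ι s).coeff k ∈ S := by
    intro s k
    change (∑ j : Fin (N + 1), monomial (j : ℕ) (s j : E)).coeff k ∈ _
    rw [finsetSum_coeff]
    refine S.sum_mem fun j _ => ?_
    rw [coeff_monomial]
    split_ifs
    · exact (s j).2
    · exact S.zero_mem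
  have hιd : ∀ s, (ι s).natDegree ≤ N := by
    intro s
    refine natDegree_sum_le_of_forall_le (Finset.univ : Finset (Fin (N + 1)))
      (fun i => monomial (i : ℕ) (s i : E)) fun i _ => ?_
    exact (natDegree_monomial_le _).trans (Nat.lt_succ_iff.1 i.2)
  let φ : (Fin (N + 1) → S) →+ (ℕ → E) :=
    { toFun := fun s k => (u * ι s * v).coeff k
      map_zero' := by funext k; simp
      map_add' := by
        intro s t
        funext k
        simp [mul_add, add_mul] }
  have hcount := count (lead u v S) (N + 3) (Fin (N + 1) → S) φ ?_ ?_ ?_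
  · have h1 : Nat.card (Fin (N + 1) → S) = Nat.card S ^ (N + 1) := by
      rw [Nat.card_fun, Nat.card_eq_fintype_card (α := Fin (N + 1)), Fintype.card_fin]
    rwa [h1] at hcount
  · intro s t hst
    have h1 : u * ι s * v = u * ι t * v := by
      ext k
      exact congrFun hst k
    have h2 : ι s = ι t := by
      have h3 : ∀ w : E[X], u' * (u * w * v) * v' = w := by
        intro w
        calc u' * (u * w * v) * v' = (u' * u) * w * (v * v') := by simp only [mul_assoc]
          _ = w := by rw [hu, hv, one_mul, mul_one]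
      rw [← h3 (ι s), h1, h3]
    funext i
    apply Subtype.ext
    rw [← hι s i, h2, hι]
  · intro s k hk
    change (u * ι s * v).coeff k = 0
    apply coeff_eq_zero_of_natDegree_lt
    calc (u * ι s * v).natDegree ≤ (u * ι s).natDegree + v.natDegree := natDegree_mul_le
      _ ≤ (u.natDegree + (ι s).natDegree) + v.natDegree := Nat.add_le_add_right natDegree_mul_le _
      _ ≤ 1 + N + 1 := Nat.add_le_add (Nat.add_le_add hud (hιd s)) hvd
      _ < k := by omega
  · intro s k hk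
    exact ⟨ι s, hιS s, k, hk, rfl⟩

/-- Products of leading coefficients. -/
theorem lead_mul_eq_zero {u v u₂ v₂ : E[X]} (huv : v * u₂ = 1) {S S₂ : AddSubgroup E}
    (h0 : ∀ x ∈ S, ∀ y ∈ S₂, x * y = 0) {x y : E} (hx : x ∈ lead u v S) (hy : y ∈ lead u₂ v₂ S₂) :
    x * y = 0 := by
  obtain ⟨f, hf, k, hk, rfl⟩ := hx
  obtain ⟨g, hg, l, hl, rfl⟩ := hy
  have hfg : f * g = 0 := by
    ext n
    rw [coeff_mul, coeff_zero]
    refine Finset.sum_eq_zero fun i _ => h0 _ (hf _) _ (hg _)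
  have h1 : (u * f * v) * (u₂ * g * v₂) = 0 := by
    calc (u * f * v) * (u₂ * g * v₂) = u * f * (v * u₂) * g * v₂ := by simp only [mul_assoc]
      _ = u * (f * g) * v₂ := by rw [huv, mul_one]; simp only [mul_assoc]
      _ = 0 := by rw [hfg, mul_zero, zero_mul]
  have h2 : ((u * f * v) * (u₂ * g * v₂)).coeff (k + l) = (u * f * v).coeff k * (u₂ * g * v₂).coeff l := by
    apply coeff_mul_add_eq_of_natDegree_le
    · exact natDegree_le_iff_coeff_eq_zero.2 hk
    · exact natDegree_le_iff_coeff_eq_zero.2 hl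
  rw [← h2, h1, coeff_zero]

end Lead

end Cfsg.Agent.H26.Limit
end

-- part: H26/LimitRing
section
/-!
# Ring identities for the limit construction
-/

set_option autoImplicit false

namespace Cfsg.Agent.H26.Limit

section Div

variable {p : ℕ} [hpf : Fact p.Prime] {E : Type*} [AddCommGroup E]

theorem mem_of_nsmul (hE : ∀ x : E, p • x = 0) {S : AddSubgroup E} {n : ℕ} (hn : n.Coprime p) {x : E}
    (h : n • x ∈ S) : x ∈ S := by
  obtain ⟨m, -, hm⟩ := Nat.exists_mul_mod_eq_one_of_coprime hn hpf.out.one_lt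
  have h1 : n * m = p * (n * m / p) + 1 := by
    conv_lhs => rw [← Nat.div_add_mod (n * m) p, hm]
  have h2 : (n * m) • x = x := by
    rw [h1, add_smul, mul_comm, mul_smul, hE, smul_zero, zero_add, one_smul]
  rw [← h2, mul_comm, mul_smul]
  exact S.nsmul_mem h m

theorem eq_zero_of_nsmul (hE : ∀ x : E, p • x = 0) {n : ℕ} (hn : n.Coprime p) {x : E}
    (h : n • x = 0) : x = 0 := by
  have : x ∈ (⊥ : AddSubgroup E) := mem_of_nsmul hE hn (by rw [h]; exact zero_mem _)
  simpa using this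

theorem exists_half (hE : ∀ x : E, p • x = 0) (hp : p ≠ 2) {S : AddSubgroup E} {x : E} (h : x ∈ S) :
    ∃ y ∈ S, y + y = x := by
  obtain ⟨k, hk⟩ := hpf.out.odd_of_ne_two hp
  refine ⟨(k + 1) • x, S.nsmul_mem h _, ?_⟩
  rw [← add_smul, show k + 1 + (k + 1) = p + 1 by omega, add_smul, hE, zero_add, one_smul]

theorem coprime_two (hp : p ≠ 2) : (2 : ℕ).Coprime p :=
  (Nat.coprime_primes Nat.prime_two hpf.out).2 (Ne.symm hp)

/-- Coefficients of a quartic polynomial with values in `S`. -/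
theorem quartic (hE : ∀ x : E, p • x = 0) (hp : 5 ≤ p) {S : AddSubgroup E} {c₀ c₁ c₂ c₃ c₄ : E}
    (h : ∀ t : ℕ, c₀ + t • c₁ + t ^ 2 • c₂ + t ^ 3 • c₃ + t ^ 4 • c₄ ∈ S) :
    c₀ ∈ S ∧ c₁ ∈ S ∧ c₂ ∈ S ∧ c₃ ∈ S ∧ c₄ ∈ S := by
  have hp24 : (24 : ℕ).Coprime p := by
    rw [Nat.coprime_comm, Nat.Prime.coprime_iff_not_dvd hpf.out]
    intro hd
    have h1 : p ∣ 2 ^ 3 * 3 := hd
    rcases (hpf.out.dvd_mul).1 h1 with h2 | h2
    · have := (Nat.prime_dvd_prime_iff_eq hpf.out Nat.prime_two).1 (hpf.out.dvd_of_dvd_pow h2)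
      omega
    · have := (Nat.prime_dvd_prime_iff_eq hpf.out Nat.prime_three).1 h2
      omega
  have v0 := h 0
  have v1 := h 1
  have v2 := h 2
  have v3 := h 3
  have v4 := h 4
  have h0 : c₀ ∈ S := by
    have e : c₀ = c₀ + 0 • c₁ + 0 ^ 2 • c₂ + 0 ^ 3 • c₃ + 0 ^ 4 • c₄ := by simp
    rw [e]; exact v0
  refine ⟨h0, ?_, ?_, ?_, ?_⟩
  · apply mem_of_nsmul hE hp24
    have e : (24 : ℕ) • c₁ = (96 : ℤ) • (c₀ + 1 • c₁ + 1 ^ 2 • c₂ + 1 ^ 3 • c₃ + 1 ^ 4 • c₄)
        - (72 : ℤ) • (c₀ + 2 • c₁ + 2 ^ 2 • c₂ + 2 ^ 3 • c₃ + 2 ^ 4 • c₄)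
        + (32 : ℤ) • (c₀ + 3 • c₁ + 3 ^ 2 • c₂ + 3 ^ 3 • c₃ + 3 ^ 4 • c₄)
        - (6 : ℤ) • (c₀ + 4 • c₁ + 4 ^ 2 • c₂ + 4 ^ 3 • c₃ + 4 ^ 4 • c₄) - (50 : ℤ) • c₀ := by
      module
    rw [e]
    exact S.sub_mem (S.sub_mem (S.add_mem (S.sub_mem (S.zsmul_mem v1 _) (S.zsmul_mem v2 _))
      (S.zsmul_mem v3 _)) (S.zsmul_mem v4 _)) (S.zsmul_mem h0 _)
  · apply mem_of_nsmul hE hp24
    have e : (24 : ℕ) • c₂ = (-104 : ℤ) • (c₀ + 1 • c₁ + 1 ^ 2 • c₂ + 1 ^ 3 • c₃ + 1 ^ 4 • c₄)
        + (114 : ℤ) • (c₀ + 2 • c₁ + 2 ^ 2 • c₂ + 2 ^ 3 • c₃ + 2 ^ 4 • c₄)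
        - (56 : ℤ) • (c₀ + 3 • c₁ + 3 ^ 2 • c₂ + 3 ^ 3 • c₃ + 3 ^ 4 • c₄)
        + (11 : ℤ) • (c₀ + 4 • c₁ + 4 ^ 2 • c₂ + 4 ^ 3 • c₃ + 4 ^ 4 • c₄) + (35 : ℤ) • c₀ := by
      module
    rw [e]
    exact S.add_mem (S.add_mem (S.sub_mem (S.add_mem (S.zsmul_mem v1 _) (S.zsmul_mem v2 _))
      (S.zsmul_mem v3 _)) (S.zsmul_mem v4 _)) (S.zsmul_mem h0 _)
  · apply mem_of_nsmul hE hp24
    have e : (24 : ℕ) • c₃ = (36 : ℤ) • (c₀ + 1 • c₁ + 1 ^ 2 • c₂ + 1 ^ 3 • c₃ + 1 ^ 4 • c₄)
        - (48 : ℤ) • (c₀ + 2 • c₁ + 2 ^ 2 • c₂ + 2 ^ 3 • c₃ + 2 ^ 4 • c₄)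
        + (28 : ℤ) • (c₀ + 3 • c₁ + 3 ^ 2 • c₂ + 3 ^ 3 • c₃ + 3 ^ 4 • c₄)
        - (6 : ℤ) • (c₀ + 4 • c₁ + 4 ^ 2 • c₂ + 4 ^ 3 • c₃ + 4 ^ 4 • c₄) - (10 : ℤ) • c₀ := by
      module
    rw [e]
    exact S.sub_mem (S.sub_mem (S.add_mem (S.sub_mem (S.zsmul_mem v1 _) (S.zsmul_mem v2 _))
      (S.zsmul_mem v3 _)) (S.zsmul_mem v4 _)) (S.zsmul_mem h0 _)
  · apply mem_of_nsmul hE hp24
    have e : (24 : ℕ) • c₄ = (-4 : ℤ) • (c₀ + 1 • c₁ + 1 ^ 2 • c₂ + 1 ^ 3 • c₃ + 1 ^ 4 • c₄)
        + (6 : ℤ) • (c₀ + 2 • c₁ + 2 ^ 2 • c₂ + 2 ^ 3 • c₃ + 2 ^ 4 • c₄)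
        - (4 : ℤ) • (c₀ + 3 • c₁ + 3 ^ 2 • c₂ + 3 ^ 3 • c₃ + 3 ^ 4 • c₄)
        + (1 : ℤ) • (c₀ + 4 • c₁ + 4 ^ 2 • c₂ + 4 ^ 3 • c₃ + 4 ^ 4 • c₄) + (1 : ℤ) • c₀ := by
      module
    rw [e]
    exact S.add_mem (S.add_mem (S.sub_mem (S.add_mem (S.zsmul_mem v1 _) (S.zsmul_mem v2 _))
      (S.zsmul_mem v3 _)) (S.zsmul_mem v4 _)) (S.zsmul_mem h0 _)

end Div

section Prod

variable {E : Type*} [Ring E]

/-- The product identity. -/
theorem prod_identity {a b z c d e : E} (h2 : ∀ x : E, x + x = 0 → x = 0) (haa : a * a = 0) (hbb : b * b = 0)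
    (hzz : z * z = 0) (haba : a * b * a = 0) (hbab : b * a * b = 0) (haza : a * z * a = 0)
    (hzaz : z * a * z = 0) (hbzb : b * z * b = 0) (hzbz : z * b * z = 0)
    (hc : c + c = a * b - b * a) (hd : d + d = a * z - z * a) (he : e + e = b * z - z * b)
    (hdd : d * d = 0) (hde : d * e = 0) (hed : e * d = 0) (hee : e * e = 0)
    (hx : (a + b + z) * (a + b + z) = 0) :
    (1 + a) * (1 + b) * (1 - c) * (1 + z) * (1 - d) * (1 - e) = 1 + (a + b + z) := by
  have hac : a * c = 0 := h2 _ (by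
    linear_combination (norm := noncomm_ring) a * hc + haa * b - haba)
  have hbc : b * c = 0 := h2 _ (by
    linear_combination (norm := noncomm_ring) b * hc + hbab - hbb * a)
  set s := a * b - c with hs
  have h1 : (1 + a) * (1 + b) * (1 - c) = 1 + a + b + s := by
    rw [hs]
    linear_combination (norm := noncomm_ring) (-1 : E) * hac - hbc - a * hbc
  have hs2 : s + s = a * b + b * a := by
    rw [hs]
    linear_combination (norm := noncomm_ring) (-1 : E) * hc
  have hyz : (a * b + b * a) * z = 0 := by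
    linear_combination (norm := noncomm_ring) hx * z - haa * z - hbb * z - hzz * z - hzaz - hzbz
      - a * hzz - b * hzz
  have hsz : s * z = 0 := h2 _ (by
    linear_combination (norm := noncomm_ring) hs2 * z + hyz)
  have hsde : s + a * z + b * z = d + e := by
    have h3 : (s + a * z + b * z) - (d + e) = 0 := h2 _ (by
      linear_combination (norm := noncomm_ring) hs2 + hx - haa - hbb - hzz - hd - he)
    exact sub_eq_zero.1 h3
  have h3 : (1 + a) * (1 + b) * (1 - c) * (1 + z) = 1 + (a + b + z) + (d + e) := by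
    rw [h1]
    linear_combination (norm := noncomm_ring) hsz + hsde
  have had : a * d = 0 := h2 _ (by
    linear_combination (norm := noncomm_ring) a * hd + haa * z - haza)
  have hbe : b * e = 0 := h2 _ (by
    linear_combination (norm := noncomm_ring) b * he + hbb * z - hbzb)
  have hzd : z * d = 0 := h2 _ (by
    linear_combination (norm := noncomm_ring) z * hd + hzaz - hzz * a)
  have hze : z * e = 0 := h2 _ (by
    linear_combination (norm := noncomm_ring) z * he + hzbz - hzz * b)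
  have h4 : a * e + b * d = 0 := h2 _ (by
    have h5 : a * b * z + a * z * b = 0 := by
      linear_combination (norm := noncomm_ring) a * hx - a * haa - a * hbb - a * hzz - haa * b - haba
        - haa * z - haza
    have h6 : b * a * z + b * z * a = 0 := by
      linear_combination (norm := noncomm_ring) b * hx - b * haa - b * hbb - b * hzz - hbab - hbb * a
        - hbb * z - hbzb
    linear_combination (norm := noncomm_ring) a * he + b * hd + 2 * hyz - h5 - h6)
  rw [h3]
  linear_combination (norm := noncomm_ring) (-1 : E) * had - hbe - hzd - hze - h4 - hdd - hed - hee - hde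
    + (1 + (a + b + z) + (d + e)) * hde

end Prod

end Cfsg.Agent.H26.Limit
end

-- part: H26/LimitTheta
section
/-!
# The twist by `1 + m X`, `m ^ 2 = 0`
-/

set_option autoImplicit false

namespace Cfsg.Agent.H26.Limit

open Polynomial

variable {E : Type*} [Ring E]

/-- `1 + m X`. -/
noncomputable def up (m : E) : E[X] := 1 + monomial 1 m

/-- `1 - m X`. -/
noncomputable def dn (m : E) : E[X] := 1 - monomial 1 m

theorem up_mul_dn {m : E} (hm : m * m = 0) : up m * dn m = 1 := by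
  rw [up, dn]
  have : (monomial 1 m : E[X]) * monomial 1 m = 0 := by rw [monomial_mul_monomial, hm, map_zero]
  linear_combination (norm := noncomm_ring) (-1 : E[X]) * this

theorem dn_mul_up {m : E} (hm : m * m = 0) : dn m * up m = 1 := by
  rw [up, dn]
  have : (monomial 1 m : E[X]) * monomial 1 m = 0 := by rw [monomial_mul_monomial, hm, map_zero]
  linear_combination (norm := noncomm_ring) (-1 : E[X]) * this

theorem natDegree_up (m : E) : (up m).natDegree ≤ 1 := by
  refine (natDegree_add_le _ _).trans (max_le ?_ (natDegree_monomial_le _))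
  simp

theorem natDegree_dn (m : E) : (dn m).natDegree ≤ 1 := by
  refine (natDegree_sub_le _ _).trans (max_le ?_ (natDegree_monomial_le _))
  simp

/-- Polynomials with coefficients in `S` are sums of monomials. -/
theorem mem_of_monomial {S : AddSubgroup E} (P : AddSubgroup E[X])
    (h : ∀ k, ∀ a ∈ S, monomial k a ∈ P) {f : E[X]} (hf : ∀ k, f.coeff k ∈ S) : f ∈ P := by
  rw [f.as_sum_support]
  exact P.sum_mem fun i _ => h i _ (hf i)

/-- the polynomials with coefficients in `S` -/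
def polys (S : AddSubgroup E) : AddSubgroup E[X] where
  carrier := {f | ∀ k, f.coeff k ∈ S}
  zero_mem' := by intro k; simp
  add_mem' := by
    intro f g hf hg k
    rw [coeff_add]; exact S.add_mem (hf k) (hg k)
  neg_mem' := by
    intro f hf k
    rw [coeff_neg]; exact S.neg_mem (hf k)

theorem mem_polys {S : AddSubgroup E} {f : E[X]} : f ∈ polys S ↔ ∀ k, f.coeff k ∈ S := Iff.rfl

theorem monomial_mem_polys {S : AddSubgroup E} {k : ℕ} {a : E} (ha : a ∈ S) : monomial k a ∈ polys S := by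
  intro j
  rw [coeff_monomial]
  split_ifs
  · exact ha
  · exact S.zero_mem

theorem theta_monomial (m a : E) (k : ℕ) : up m * monomial k a * dn m =
    monomial k a + monomial (k + 1) (m * a - a * m) - monomial (k + 2) (m * a * m) := by
  have h1 : (monomial 1 m : E[X]) * monomial k a = monomial (k + 1) (m * a) := by
    rw [monomial_mul_monomial, add_comm]
  have h2 : (monomial k a : E[X]) * monomial 1 m = monomial (k + 1) (a * m) := by
    rw [monomial_mul_monomial]
  have h3 : (monomial (k + 1) (m * a) : E[X]) * monomial 1 m = monomial (k + 2) (m * a * m) := by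
    rw [monomial_mul_monomial]
  rw [up, dn, map_sub]
  calc (1 + monomial 1 m) * monomial k a * (1 - monomial 1 m)
      = monomial k a + monomial 1 m * monomial k a - monomial k a * monomial 1 m
        - (monomial 1 m * monomial k a) * monomial 1 m := by noncomm_ring
    _ = _ := by rw [h1, h2, h3]; abel

/-- All coefficients of `θ f` lie in a subgroup containing `S`, `[m, S]` and `m S m`. -/
theorem coeff_theta_mem {m : E} {S Q : AddSubgroup E} (h0 : ∀ a ∈ S, a ∈ Q)
    (h1 : ∀ a ∈ S, m * a - a * m ∈ Q) (h2 : ∀ a ∈ S, m * a * m ∈ Q) {f : E[X]} (hf : f ∈ polys S) (k : ℕ) :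
    (up m * f * dn m).coeff k ∈ Q := by
  let P : AddSubgroup E[X] :=
    { carrier := {f | up m * f * dn m ∈ polys Q}
      zero_mem' := by
        change up m * 0 * dn m ∈ polys Q
        rw [mul_zero, zero_mul]; exact zero_mem _
      add_mem' := by
        intro f g hf hg
        change up m * (f + g) * dn m ∈ polys Q
        rw [mul_add, add_mul]; exact add_mem hf hg
      neg_mem' := by
        intro f hf
        change up m * (-f) * dn m ∈ polys Q
        rw [mul_neg, neg_mul]; exact neg_mem hf }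
  have : f ∈ P := by
    refine mem_of_monomial P (fun k a ha => ?_) hf
    change up m * _ * dn m ∈ polys Q
    rw [theta_monomial]
    exact sub_mem (add_mem (monomial_mem_polys (h0 a ha)) (monomial_mem_polys (h1 a ha)))
      (monomial_mem_polys (h2 a ha))
  exact this k

/-- `[m, x]` is a leading coefficient. -/
theorem comm_mem_lead {m : E} (hm : m * m = 0) {S : AddSubgroup E} {x : E} (hx : x ∈ lead (up m) (dn m) S) :
    m * x - x * m ∈ lead (up m) (dn m) S := by
  obtain ⟨f, hf, k, hk, rfl⟩ := hx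
  set F := up m * f * dn m with hF
  have hup : derivative (up m) = C m := by
    rw [up, derivative_add, derivative_one, zero_add, derivative_monomial]; simp
  have hdn : derivative (dn m) = - C m := by
    rw [dn, derivative_sub, derivative_one, zero_sub, derivative_monomial]; simp
  have hCm : C m * up m = C m := by
    rw [up, mul_add, mul_one, C_mul_monomial, hm, map_zero, add_zero]
  have hmC : dn m * C m = C m := by
    rw [dn, sub_mul, one_mul, monomial_mul_C, hm, map_zero, sub_zero]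
  have key : up m * derivative f * dn m = derivative F - (C m * F - F * C m) := by
    rw [hF, derivative_mul, derivative_mul, hup, hdn]
    have e1 : C m * (up m * f * dn m) = C m * f * dn m := by
      rw [← mul_assoc, ← mul_assoc, hCm]
    have e2 : up m * f * dn m * C m = up m * f * C m := by
      rw [mul_assoc, hmC]
    rw [e1, e2]; noncomm_ring
  have hder : ∀ j, k ≤ j → (derivative F).coeff j = 0 := by
    intro j hj
    rw [coeff_derivative, hk (j + 1) (by omega), zero_mul]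
  have hcomm : ∀ j, (C m * F - F * C m).coeff j = m * F.coeff j - F.coeff j * m := by
    intro j
    rw [coeff_sub, coeff_C_mul, coeff_mul_C]
  have h1 : -(m * F.coeff k - F.coeff k * m) ∈ lead (up m) (dn m) S := by
    refine ⟨derivative f, fun j => ?_, k, fun j hj => ?_, ?_⟩
    · rw [coeff_derivative]
      have : f.coeff (j + 1) * ((j : E) + 1) = (j + 1) • f.coeff (j + 1) := by
        rw [nsmul_eq_mul, Nat.cast_add, Nat.cast_one]
        exact ((Nat.cast_commute j _).add_left (Commute.one_left _)).eq.symm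
      rw [this]
      exact S.nsmul_mem (hf _) _
    · rw [key, coeff_sub, hder j hj.le, hcomm, hk j hj]; simp
    · rw [key, coeff_sub, hder k le_rfl, hcomm, zero_sub]
  have h2 := neg_mem h1
  rwa [neg_neg] at h2

/-- Conjugation by `1 + m`. -/
theorem conj_up_mem_lead {p : ℕ} [hpf : Fact p.Prime] (hp2 : p ≠ 2) (hE : ∀ x : E, p • x = 0) {m : E}
    (hm : m * m = 0) {S : AddSubgroup E} {x : E} (hx : x ∈ lead (up m) (dn m) S) :
    (1 + m) * x * (1 - m) ∈ lead (up m) (dn m) S := by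
  have h1 := comm_mem_lead hm hx
  have h2 := comm_mem_lead hm h1
  have h3 : (2 : ℕ) • (m * x * m) ∈ lead (up m) (dn m) S := by
    have e : (2 : ℕ) • (m * x * m) = -(m * (m * x - x * m) - (m * x - x * m) * m) := by
      rw [two_nsmul]
      linear_combination (norm := noncomm_ring) hm * x + x * hm
    rw [e]; exact neg_mem h2
  have h4 := mem_of_nsmul hE (coprime_two hp2) h3
  have e : (1 + m) * x * (1 - m) = x + (m * x - x * m) - m * x * m := by noncomm_ring
  rw [e]
  exact sub_mem (add_mem hx h1) h4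

/-- Conjugation by units `g` for which `g(X) a g(X)⁻¹` has coefficients in `S`. -/
theorem conj_mem_lead {m : E} (hm : m * m = 0) {S : AddSubgroup E} {g g' : E}
    (h : ∀ a ∈ S, dn m * C g * up m * C a * dn m * C g' * up m ∈ polys S) {x : E}
    (hx : x ∈ lead (up m) (dn m) S) : g * x * g' ∈ lead (up m) (dn m) S := by
  obtain ⟨f, hf, k, hk, rfl⟩ := hx
  set F := up m * f * dn m with hF
  have h1 : up m * (dn m * C g * up m * f * dn m * C g' * up m) * dn m = C g * F * C g' := by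
    rw [hF]
    calc up m * (dn m * C g * up m * f * dn m * C g' * up m) * dn m
        = (up m * dn m) * C g * up m * f * dn m * C g' * (up m * dn m) := by simp only [mul_assoc]
      _ = _ := by rw [up_mul_dn hm, one_mul, mul_one]; simp only [mul_assoc]
  have h2 : dn m * C g * up m * f * dn m * C g' * up m ∈ polys S := by
    let P : AddSubgroup E[X] :=
      { carrier := {f | dn m * C g * up m * f * dn m * C g' * up m ∈ polys S}
        zero_mem' := by
          change dn m * C g * up m * 0 * dn m * C g' * up m ∈ polys S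
          simp only [mul_zero, zero_mul]; exact zero_mem _
        add_mem' := by
          intro f g₁ hf hg₁
          change dn m * C g * up m * (f + g₁) * dn m * C g' * up m ∈ polys S
          simp only [mul_add, add_mul]
          exact (by simpa only [mul_add, add_mul] using add_mem hf hg₁)
        neg_mem' := by
          intro f hf
          change dn m * C g * up m * (-f) * dn m * C g' * up m ∈ polys S
          simp only [mul_neg, neg_mul]; exact neg_mem hf }
    refine mem_of_monomial P (fun k a ha => ?_) hf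
    change dn m * C g * up m * _ * dn m * C g' * up m ∈ polys S
    rw [← C_mul_X_pow_eq_monomial]
    have h3 : dn m * C g * up m * (C a * X ^ k) * dn m * C g' * up m =
        (dn m * C g * up m * C a * dn m * C g' * up m) * X ^ k := by
      simp only [mul_assoc, X_pow_mul]
    rw [h3]
    intro j
    rw [coeff_mul_X_pow']
    split_ifs
    · exact h a ha _
    · exact S.zero_mem
  refine ⟨_, h2, k, fun j hj => ?_, ?_⟩
  · rw [h1, coeff_mul_C, coeff_C_mul, hk j hj]; simp
  · rw [h1, coeff_mul_C, coeff_C_mul]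

end Cfsg.Agent.H26.Limit
end

-- part: H26/LimitKP
section
/-!
# The limit subgroup
-/

set_option autoImplicit false

namespace Cfsg.Agent.H26.Limit

open Polynomial

section Nil

variable {G : Type*} [Group G] {E : Type*} [Ring E] (ρ : G →* E)

/-- Quadratic subgroups. -/
def Quad (A : Subgroup G) : Prop := ∀ a ∈ A, ∀ b ∈ A, (ρ a - 1) * (ρ b - 1) = 0

variable {ρ}

/-- The additive group `{ρ a - 1}` of a quadratic subgroup. -/
def nil {A : Subgroup G} (hA : Quad ρ A) : AddSubgroup E where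
  carrier := {x | ∃ a ∈ A, ρ a = 1 + x}
  zero_mem' := ⟨1, A.one_mem, by simp⟩
  add_mem' := by
    rintro x y ⟨a, ha, hax⟩ ⟨b, hb, hby⟩
    refine ⟨a * b, A.mul_mem ha hb, ?_⟩
    have h := hA a ha b hb
    rw [hax, hby, add_sub_cancel_left, add_sub_cancel_left] at h
    rw [map_mul, hax, hby]
    linear_combination (norm := noncomm_ring) h
  neg_mem' := by
    rintro x ⟨a, ha, hax⟩
    refine ⟨a⁻¹, A.inv_mem ha, ?_⟩
    have h := hA a ha a ha
    rw [hax, add_sub_cancel_left] at h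
    have h1 : ρ a⁻¹ * ρ a = 1 := by rw [← map_mul, inv_mul_cancel, map_one]
    have h2 : ρ a * (1 + -x) = 1 := by
      rw [hax]; linear_combination (norm := noncomm_ring) (-1 : E) * h
    calc ρ a⁻¹ = ρ a⁻¹ * (ρ a * (1 + -x)) := by rw [h2, mul_one]
      _ = 1 + -x := by rw [← mul_assoc, h1, one_mul]

theorem mem_nil {A : Subgroup G} {hA : Quad ρ A} {x : E} : x ∈ nil hA ↔ ∃ a ∈ A, ρ a = 1 + x := Iff.rfl

theorem sub_one_mem_nil {A : Subgroup G} (hA : Quad ρ A) {a : G} (ha : a ∈ A) : ρ a - 1 ∈ nil hA :=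
  ⟨a, ha, by abel⟩

theorem nil_mul {A : Subgroup G} (hA : Quad ρ A) {x y : E} (hx : x ∈ nil hA) (hy : y ∈ nil hA) :
    x * y = 0 := by
  obtain ⟨a, ha, hax⟩ := hx
  obtain ⟨b, hb, hby⟩ := hy
  have h := hA a ha b hb
  rwa [hax, hby, add_sub_cancel_left, add_sub_cancel_left] at h

theorem card_nil (hρ : Function.Injective ρ) {A : Subgroup G} (hA : Quad ρ A) :
    Nat.card A = Nat.card (nil hA) := by
  refine Nat.card_congr (Equiv.ofBijective (fun a : A => (⟨ρ a - 1, sub_one_mem_nil hA a.2⟩ : nil hA)) ⟨?_, ?_⟩)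
  · intro a b hab
    have h1 : ρ a - 1 = ρ b - 1 := congrArg Subtype.val hab
    exact Subtype.ext (hρ (sub_left_injective h1))
  · rintro ⟨x, a, ha, hax⟩
    refine ⟨⟨a, ha⟩, Subtype.ext ?_⟩
    change ρ a - 1 = x
    rw [hax]; abel

/-- The subgroup `(1 + S) ∩ T`. -/
def grp (ρ : G →* E) (T : Subgroup G) (S : AddSubgroup E) (hS : ∀ x ∈ S, ∀ y ∈ S, x * y = 0) :
    Subgroup G where
  carrier := {t | t ∈ T ∧ ρ t - 1 ∈ S}
  one_mem' := ⟨T.one_mem, by simp⟩
  mul_mem' := by
    rintro a b ⟨ha, ha'⟩ ⟨hb, hb'⟩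
    refine ⟨T.mul_mem ha hb, ?_⟩
    have h := hS _ ha' _ hb'
    have e : ρ (a * b) - 1 = (ρ a - 1) + (ρ b - 1) := by
      rw [map_mul]; linear_combination (norm := noncomm_ring) h
    rw [e]; exact S.add_mem ha' hb'
  inv_mem' := by
    rintro a ⟨ha, ha'⟩
    refine ⟨T.inv_mem ha, ?_⟩
    have h := hS _ ha' _ ha'
    have h1 : ρ a⁻¹ * ρ a = 1 := by rw [← map_mul, inv_mul_cancel, map_one]
    have h2 : ρ a * (1 - (ρ a - 1)) = 1 := by
      linear_combination (norm := noncomm_ring) (-1 : E) * h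
    have e : ρ a⁻¹ - 1 = -(ρ a - 1) := by
      calc ρ a⁻¹ - 1 = ρ a⁻¹ * (ρ a * (1 - (ρ a - 1))) - 1 := by rw [h2, mul_one]
        _ = -(ρ a - 1) := by rw [← mul_assoc, h1, one_mul]; abel
    rw [e]; exact S.neg_mem ha'

theorem mem_grp {T : Subgroup G} {S : AddSubgroup E} {hS : ∀ x ∈ S, ∀ y ∈ S, x * y = 0} {t : G} :
    t ∈ grp ρ T S hS ↔ t ∈ T ∧ ρ t - 1 ∈ S := Iff.rfl

theorem grp_quad {T : Subgroup G} {S : AddSubgroup E} (hS : ∀ x ∈ S, ∀ y ∈ S, x * y = 0) :
    Quad ρ (grp ρ T S hS) := fun _ ha _ hb => hS _ ha.2 _ hb.2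

theorem card_grp (hρ : Function.Injective ρ) {T : Subgroup G} {S : AddSubgroup E}
    (hS : ∀ x ∈ S, ∀ y ∈ S, x * y = 0) (hT : ∀ x ∈ S, ∃ t ∈ T, ρ t = 1 + x) :
    Nat.card (grp ρ T S hS) = Nat.card S := by
  refine Nat.card_congr (Equiv.ofBijective (fun a : grp ρ T S hS => (⟨ρ a - 1, a.2.2⟩ : S)) ⟨?_, ?_⟩)
  · intro a b hab
    have h1 : ρ a - 1 = ρ b - 1 := congrArg Subtype.val hab
    exact Subtype.ext (hρ (sub_left_injective h1))
  · rintro ⟨x, hx⟩
    obtain ⟨t, ht, htx⟩ := hT x hx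
    have h1 : ρ t - 1 = x := by rw [htx]; abel
    refine ⟨⟨t, ht, by rw [h1]; exact hx⟩, Subtype.ext ?_⟩
    exact h1

/-- Conjugation normalises `grp`. -/
theorem conj_mem_grp {T : Subgroup G} {S : AddSubgroup E} {hS : ∀ x ∈ S, ∀ y ∈ S, x * y = 0} {g : G}
    (hgT : ∀ t ∈ T, g * t * g⁻¹ ∈ T) (hgS : ∀ x ∈ S, ρ g * x * ρ g⁻¹ ∈ S) {t : G}
    (ht : t ∈ grp ρ T S hS) : g * t * g⁻¹ ∈ grp ρ T S hS := by
  refine ⟨hgT t ht.1, ?_⟩
  have h1 := hgS _ ht.2
  have e : ρ (g * t * g⁻¹) - 1 = ρ g * (ρ t - 1) * ρ g⁻¹ := by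
    have h2 : ρ g * ρ g⁻¹ = 1 := by rw [← map_mul, mul_inv_cancel, map_one]
    rw [map_mul, map_mul, mul_sub, sub_mul, mul_one, h2]
  rw [e]; exact h1

theorem conj_mem_nil {A : Subgroup G} (hA : Quad ρ A) {g : G} (hg : ∀ a ∈ A, g * a * g⁻¹ ∈ A) {x : E}
    (hx : x ∈ nil hA) : ρ g * x * ρ g⁻¹ ∈ nil hA := by
  obtain ⟨a, ha, hax⟩ := hx
  refine ⟨_, hg a ha, ?_⟩
  have h2 : ρ g * ρ g⁻¹ = 1 := by rw [← map_mul, mul_inv_cancel, map_one]
  rw [map_mul, map_mul, hax, mul_add, add_mul, mul_one, h2]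

end Nil

section Mutual

variable {G : Type*} [Group G] {E : Type*} [Ring E] {ρ : G →* E} {p : ℕ} [hpf : Fact p.Prime]

/-- Inverse of `1 + y`. -/
theorem map_inv_of {b : G} {y : E} (h : ρ b = 1 + y) (hy : y * y = 0) : ρ b⁻¹ = 1 - y := by
  have h1 : ρ b⁻¹ * ρ b = 1 := by rw [← map_mul, inv_mul_cancel, map_one]
  have h2 : ρ b * (1 - y) = 1 := by
    rw [h]; linear_combination (norm := noncomm_ring) (-1 : E) * hy
  calc ρ b⁻¹ = ρ b⁻¹ * (ρ b * (1 - y)) := by rw [h2, mul_one]
    _ = 1 - y := by rw [← mul_assoc, h1, one_mul]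

/-- If `B` normalises `A`, both quadratic, then `[y, x]` and `y x y` lie in the nil group of `A`. -/
theorem mutl (hp2 : p ≠ 2) (hE : ∀ x : E, p • x = 0) {A B : Subgroup G} (hA : Quad ρ A) (hB : Quad ρ B)
    (hBA : ∀ b ∈ B, ∀ a ∈ A, b * a * b⁻¹ ∈ A) {x y : E} (hx : x ∈ nil hA) (hy : y ∈ nil hB) :
    y * x - x * y ∈ nil hA ∧ y * x * y ∈ nil hA := by
  have key : ∀ y ∈ nil hB, y * x - x * y - y * x * y ∈ nil hA := by
    intro y hy
    obtain ⟨b, hb, hby⟩ := hy
    have hyy : y * y = 0 := nil_mul hB ⟨b, hb, hby⟩ ⟨b, hb, hby⟩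
    have h1 := conj_mem_nil hA (hBA b hb) hx
    rw [map_inv_of hby hyy, hby] at h1
    have e : y * x - x * y - y * x * y = (1 + y) * x * (1 - y) - x := by noncomm_ring
    rw [e]; exact sub_mem h1 hx
  have h1 := key y hy
  have h2 := key (y + y) (add_mem hy hy)
  have h3 : (2 : ℕ) • (y * x * y) ∈ nil hA := by
    have e : (2 : ℕ) • (y * x * y) = (y * x - x * y - y * x * y) + (y * x - x * y - y * x * y) -
        ((y + y) * x - x * (y + y) - (y + y) * x * (y + y)) := by
      rw [two_nsmul]; noncomm_ring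
    rw [e]; exact sub_mem (add_mem h1 h1) h2
  have h4 := mem_of_nsmul hE (coprime_two hp2) h3
  refine ⟨?_, h4⟩
  have e : y * x - x * y = (y * x - x * y - y * x * y) + y * x * y := by abel
  rw [e]; exact add_mem h1 h4

/-- `x y x = 0`. -/
theorem xyx (hp2 : p ≠ 2) (hE : ∀ x : E, p • x = 0) {A B : Subgroup G} (hA : Quad ρ A) (hB : Quad ρ B)
    (hBA : ∀ b ∈ B, ∀ a ∈ A, b * a * b⁻¹ ∈ A) {x y : E} (hx : x ∈ nil hA) (hy : y ∈ nil hB) :
    x * y * x = 0 := by
  have h1 := nil_mul hA hx (mutl hp2 hE hA hB hBA hx hy).1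
  have h2 := nil_mul hA hx hx
  linear_combination (norm := noncomm_ring) h1 + h2 * y

/-- **Products**: three mutually normalising quadratic subgroups `A₀, A₁, A₂ ≤ T`. -/
theorem exists_of_three (hp2 : p ≠ 2) (hE : ∀ x : E, p • x = 0) {T A B C : Subgroup G} (hA : Quad ρ A)
    (hB : Quad ρ B) (hC : Quad ρ C) (hAT : A ≤ T) (hBT : B ≤ T) (hCT : C ≤ T)
    (hTA : ∀ t ∈ T, ∀ a ∈ A, t * a * t⁻¹ ∈ A) (hTB : ∀ t ∈ T, ∀ a ∈ B, t * a * t⁻¹ ∈ B)
    (hTC : ∀ t ∈ T, ∀ a ∈ C, t * a * t⁻¹ ∈ C) {a b z : E} (ha : a ∈ nil hA) (hb : b ∈ nil hB)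
    (hz : z ∈ nil hC) (hx : (a + b + z) * (a + b + z) = 0) : ∃ t ∈ T, ρ t = 1 + (a + b + z) := by
  have BA : ∀ b ∈ B, ∀ a ∈ A, b * a * b⁻¹ ∈ A := fun b hb => hTA b (hBT hb)
  have CA : ∀ b ∈ C, ∀ a ∈ A, b * a * b⁻¹ ∈ A := fun b hb => hTA b (hCT hb)
  have AB : ∀ b ∈ A, ∀ a ∈ B, b * a * b⁻¹ ∈ B := fun b hb => hTB b (hAT hb)
  have CB : ∀ b ∈ C, ∀ a ∈ B, b * a * b⁻¹ ∈ B := fun b hb => hTB b (hCT hb)
  have AC : ∀ b ∈ A, ∀ a ∈ C, b * a * b⁻¹ ∈ C := fun b hb => hTC b (hAT hb)
  have BC : ∀ b ∈ B, ∀ a ∈ C, b * a * b⁻¹ ∈ C := fun b hb => hTC b (hBT hb)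
  have inv : ∀ {S : AddSubgroup E} {x y : E}, y * x - x * y ∈ S → x * y - y * x ∈ S := by
    intro S x y h
    have := S.neg_mem h
    rwa [neg_sub] at this
  have habA : a * b - b * a ∈ nil hA := inv (mutl hp2 hE hA hB BA ha hb).1
  have hazA : a * z - z * a ∈ nil hA := inv (mutl hp2 hE hA hC CA ha hz).1
  have hazC : a * z - z * a ∈ nil hC := (mutl hp2 hE hC hA AC hz ha).1
  have hbzB : b * z - z * b ∈ nil hB := inv (mutl hp2 hE hB hC CB hb hz).1
  have hbzC : b * z - z * b ∈ nil hC := (mutl hp2 hE hC hB BC hz hb).1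
  obtain ⟨c, hcA, hc⟩ := exists_half hE hp2 habA
  obtain ⟨d, hdC, hd⟩ := exists_half hE hp2 hazC
  obtain ⟨e, heC, he⟩ := exists_half hE hp2 hbzC
  have h2 : ∀ x : E, x + x = 0 → x = 0 := by
    intro x hx
    exact eq_zero_of_nsmul hE (coprime_two hp2) (by rw [two_nsmul]; exact hx)
  have hprod := prod_identity h2 (nil_mul hA ha ha) (nil_mul hB hb hb) (nil_mul hC hz hz)
    (xyx hp2 hE hA hB BA ha hb) (xyx hp2 hE hB hA AB hb ha) (xyx hp2 hE hA hC CA ha hz)
    (xyx hp2 hE hC hA AC hz ha) (xyx hp2 hE hB hC CB hb hz) (xyx hp2 hE hC hB BC hz hb) hc hd he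
    (nil_mul hC hdC hdC) (nil_mul hC hdC heC) (nil_mul hC heC hdC) (nil_mul hC heC heC) hx
  obtain ⟨a', ha', ha''⟩ := ha
  obtain ⟨b', hb', hb''⟩ := hb
  obtain ⟨z', hz', hz''⟩ := hz
  obtain ⟨c', hc', hc''⟩ := neg_mem hcA
  obtain ⟨d', hd', hd''⟩ := neg_mem hdC
  obtain ⟨e', he', he''⟩ := neg_mem heC
  refine ⟨a' * b' * c' * z' * d' * e', ?_, ?_⟩
  · exact T.mul_mem (T.mul_mem (T.mul_mem (T.mul_mem (T.mul_mem (hAT ha') (hBT hb')) (hAT hc'))
      (hCT hz')) (hCT hd')) (hCT he')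
  · rw [← hprod]
    simp only [map_mul]
    rw [ha'', hb'', hz'', hc'', hd'', he'', ← sub_eq_add_neg, ← sub_eq_add_neg, ← sub_eq_add_neg]

end Mutual

end Cfsg.Agent.H26.Limit
end

-- part: H26/LimitMain
section
/-!
# The limit subgroup: main properties
-/

set_option autoImplicit false

namespace Cfsg.Agent.H26.Limit

open Polynomial

section KP

variable {G : Type*} [Group G] {E : Type*} [Ring E] {ρ : G →* E} {p : ℕ} [hpf : Fact p.Prime]

theorem map_pow_of {b : G} {m : E} (hm : m * m = 0) (hb : ρ b = 1 + m) (t : ℕ) : ρ (b ^ t) = 1 + t • m := by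
  induction t with
  | zero => simp
  | succ t ih =>
    rw [pow_succ, map_mul, ih, hb, mul_add, mul_one, add_mul, one_mul, smul_mul_assoc, hm, smul_zero,
      add_zero, succ_nsmul, add_assoc]

theorem quartic_polys (hp : 5 ≤ p) (hE : ∀ x : E, p • x = 0) {m e a : E} (hm : m * m = 0) {S : AddSubgroup E}
    (h : ∀ t : ℕ, (1 + (e + t • (e * m - m * e) + t ^ 2 • (-(m * e * m)))) * a *
      (1 - (e + t • (e * m - m * e) + t ^ 2 • (-(m * e * m)))) ∈ S) :
    dn m * C (1 + e) * up m * C a * dn m * C (1 - e) * up m ∈ polys S := by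
  set u := e * m - m * e with hu
  set w := -(m * e * m) with hw
  have hq : dn m * C e * up m = monomial 0 e + monomial 1 u + monomial 2 w := by
    rw [dn, up, ← monomial_zero_left]
    have e1 : (monomial 1 m : E[X]) * monomial 0 e = monomial 1 (m * e) := by
      rw [monomial_mul_monomial]
    have e2 : (monomial 0 e : E[X]) * monomial 1 m = monomial 1 (e * m) := by
      rw [monomial_mul_monomial]
    have e3 : (monomial 1 (m * e) : E[X]) * monomial 1 m = monomial 2 (m * e * m) := by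
      rw [monomial_mul_monomial]
    rw [hu, hw, map_sub, map_neg]
    calc (1 - monomial 1 m) * monomial 0 e * (1 + monomial 1 m)
        = monomial 0 e - monomial 1 m * monomial 0 e + monomial 0 e * monomial 1 m
          - (monomial 1 m * monomial 0 e) * monomial 1 m := by noncomm_ring
      _ = _ := by rw [e1, e2, e3]; abel
  have hq1 : dn m * C (1 + e) * up m = 1 + (monomial 0 e + monomial 1 u + monomial 2 w) := by
    rw [← hq, C_add, C_1, mul_add, mul_one, add_mul, dn_mul_up hm]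
  have hq2 : dn m * C (1 - e) * up m = 1 - (monomial 0 e + monomial 1 u + monomial 2 w) := by
    rw [← hq, C_sub, C_1, mul_sub, mul_one, sub_mul, dn_mul_up hm]
  have key : dn m * C (1 + e) * up m * C a * dn m * C (1 - e) * up m =
      monomial 0 (a + (e * a - a * e) - e * a * e)
      + monomial 1 ((u * a - a * u) - (e * a * u + u * a * e))
      + monomial 2 ((w * a - a * w) - (e * a * w + u * a * u + w * a * e))
      + monomial 3 (-(u * a * w + w * a * u)) + monomial 4 (-(w * a * w)) := by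
    have e0 : dn m * C (1 + e) * up m * C a * dn m * C (1 - e) * up m =
        (dn m * C (1 + e) * up m) * C a * (dn m * C (1 - e) * up m) := by simp only [mul_assoc]
    rw [e0, hq1, hq2, ← monomial_zero_left]
    have hone : (1 : E[X]) = monomial 0 1 := by rw [monomial_zero_left, C_1]
    rw [hone]
    simp only [add_mul, mul_add, mul_sub, monomial_mul_monomial, map_add, map_sub, map_neg, one_mul,
      mul_one, zero_add, add_zero, Nat.reduceAdd]
    abel
  have hval : ∀ t : ℕ, (a + (e * a - a * e) - e * a * e)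
      + t • ((u * a - a * u) - (e * a * u + u * a * e))
      + t ^ 2 • ((w * a - a * w) - (e * a * w + u * a * u + w * a * e))
      + t ^ 3 • (-(u * a * w + w * a * u)) + t ^ 4 • (-(w * a * w)) ∈ S := by
    intro t
    have e1 : (a + (e * a - a * e) - e * a * e)
      + t • ((u * a - a * u) - (e * a * u + u * a * e))
      + t ^ 2 • ((w * a - a * w) - (e * a * w + u * a * u + w * a * e))
      + t ^ 3 • (-(u * a * w + w * a * u)) + t ^ 4 • (-(w * a * w)) =
      (1 + (e + t • u + t ^ 2 • w)) * a * (1 - (e + t • u + t ^ 2 • w)) := by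
      simp only [add_mul, mul_add, mul_sub, one_mul, mul_one, smul_mul_assoc, mul_smul_comm]
      module
    rw [e1]; exact h t
  obtain ⟨h0, h1, h2, h3, h4⟩ := quartic hE hp hval
  rw [key]
  exact add_mem (add_mem (add_mem (add_mem (monomial_mem_polys h0) (monomial_mem_polys h1))
    (monomial_mem_polys h2)) (monomial_mem_polys h3)) (monomial_mem_polys h4)

theorem conj_pow_mem {T : Subgroup G} {b : G} (hbT : ∀ t ∈ T, b * t * b⁻¹ ∈ T) (n : ℕ) :
    ∀ t ∈ T, b ^ n * t * (b ^ n)⁻¹ ∈ T := by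
  induction n with
  | zero => intro t ht; simpa using ht
  | succ n ih =>
    intro t ht
    have h1 := hbT _ (ih t ht)
    have e : b ^ (n + 1) * t * (b ^ (n + 1))⁻¹ = b * (b ^ n * t * (b ^ n)⁻¹) * b⁻¹ := by
      rw [pow_succ']; group
    rw [e]; exact h1

/-- Conjugate subgroups -/
theorem quad_map {A : Subgroup G} (hA : Quad ρ A) (b : G) : Quad ρ (A.map (MulAut.conj b).toMonoidHom) := by
  rintro _ ⟨a, ha, rfl⟩ _ ⟨c, hc, rfl⟩
  have h := hA a ha c hc
  have h1 : ∀ x : G, ρ ((MulAut.conj b).toMonoidHom x) - 1 = ρ b * (ρ x - 1) * ρ b⁻¹ := by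
    intro x
    have h2 : ρ b * ρ b⁻¹ = 1 := by rw [← map_mul, mul_inv_cancel, map_one]
    change ρ (b * x * b⁻¹) - 1 = _
    rw [map_mul, map_mul, mul_sub, sub_mul, mul_one, h2]
  have h3 : ρ b⁻¹ * ρ b = 1 := by rw [← map_mul, inv_mul_cancel, map_one]
  rw [h1, h1]
  calc ρ b * (ρ a - 1) * ρ b⁻¹ * (ρ b * (ρ c - 1) * ρ b⁻¹)
      = ρ b * (ρ a - 1) * (ρ b⁻¹ * ρ b) * (ρ c - 1) * ρ b⁻¹ := by simp only [mul_assoc]
    _ = ρ b * ((ρ a - 1) * (ρ c - 1)) * ρ b⁻¹ := by rw [h3, mul_one]; simp only [mul_assoc]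
    _ = 0 := by rw [h, mul_zero, zero_mul]

theorem conj_mem_nil_map {A : Subgroup G} (hA : Quad ρ A) (b : G) {x : E} (hx : x ∈ nil hA) :
    ρ b * x * ρ b⁻¹ ∈ nil (quad_map hA b) := by
  obtain ⟨a, ha, hax⟩ := hx
  refine ⟨b * a * b⁻¹, ⟨a, ha, rfl⟩, ?_⟩
  have h2 : ρ b * ρ b⁻¹ = 1 := by rw [← map_mul, mul_inv_cancel, map_one]
  rw [map_mul, map_mul, hax, mul_add, add_mul, mul_one, h2]

theorem norm_map {T A : Subgroup G} (hTA : ∀ t ∈ T, ∀ a ∈ A, t * a * t⁻¹ ∈ A) {b : G}
    (hbT' : ∀ t ∈ T, b⁻¹ * t * b⁻¹⁻¹ ∈ T) :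
    ∀ t ∈ T, ∀ a ∈ A.map (MulAut.conj b).toMonoidHom, t * a * t⁻¹ ∈ A.map (MulAut.conj b).toMonoidHom := by
  rintro t ht _ ⟨a, ha, rfl⟩
  refine ⟨(b⁻¹ * t * b⁻¹⁻¹) * a * (b⁻¹ * t * b⁻¹⁻¹)⁻¹, hTA _ (hbT' t ht) a ha, ?_⟩
  change b * _ * b⁻¹ = t * (b * a * b⁻¹) * t⁻¹
  group

/-- **The limit subgroup.** -/
theorem kp [Finite G] [Finite E] (hp : 5 ≤ p) (hE : ∀ x : E, p • x = 0) (hρ : Function.Injective ρ)
    {T A : Subgroup G} (hA : Quad ρ A) (hAT : A ≤ T) (hTA : ∀ t ∈ T, ∀ a ∈ A, t * a * t⁻¹ ∈ A)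
    (hT : T ≤ Subgroup.closure {t | t ∈ T ∧ (ρ t - 1) * (ρ t - 1) = 0})
    {b : G} {m : E} (hb : ρ b = 1 + m) (hm : m * m = 0) (hbT : ∀ t ∈ T, b * t * b⁻¹ ∈ T)
    (hbT' : ∀ t ∈ T, b⁻¹ * t * b⁻¹⁻¹ ∈ T) :
    ∃ A' : Subgroup G, ∃ hA' : Quad ρ A', A' ≤ T ∧ nil hA' = lead (up m) (dn m) (nil hA) ∧
      Nat.card A ≤ Nat.card A' ∧ (∀ t ∈ T, ∀ a ∈ A', t * a * t⁻¹ ∈ A') ∧ (∀ a ∈ A', b * a * b⁻¹ ∈ A') ∧
      ∀ c : G, (∀ t ∈ T, c * t * c⁻¹ ∈ T) → (∀ a ∈ A, c * a * c⁻¹ ∈ A) → Commute (ρ c) m →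
        ∀ a ∈ A', c * a * c⁻¹ ∈ A' := by
  have hp2 : p ≠ 2 := by omega
  have hbinv : ρ b⁻¹ = 1 - m := map_inv_of hb hm
  set S := lead (up m) (dn m) (nil hA) with hS
  have hSS : ∀ x ∈ S, ∀ y ∈ S, x * y = 0 := fun x hx y hy =>
    lead_mul_eq_zero (dn_mul_up hm) (fun x hx y hy => nil_mul hA hx hy) hx hy
  have hST : ∀ x ∈ S, ∃ t ∈ T, ρ t = 1 + x := by
    intro x hx
    have hxx := hSS x hx x hx
    obtain ⟨f, hf, k, -, hkx⟩ := hx
    set A₁ := A.map (MulAut.conj b).toMonoidHom with hA₁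
    set A₂ := A.map (MulAut.conj b⁻¹).toMonoidHom with hA₂
    have q₁ : Quad ρ A₁ := quad_map hA b
    have q₂ : Quad ρ A₂ := quad_map hA b⁻¹
    have m₁ : ∀ a ∈ nil hA, (1 + m) * a * (1 - m) ∈ nil q₁ := by
      intro a ha
      have := conj_mem_nil_map hA b ha
      rwa [hbinv, hb] at this
    have m₂ : ∀ a ∈ nil hA, (1 - m) * a * (1 + m) ∈ nil q₂ := by
      intro a ha
      have := conj_mem_nil_map hA b⁻¹ ha
      rwa [hbinv, inv_inv, hb] at this
    have hmem : x ∈ nil hA ⊔ nil q₁ ⊔ nil q₂ := by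
      rw [← hkx]
      have i0 : nil hA ≤ nil hA ⊔ nil q₁ ⊔ nil q₂ := le_sup_left.trans le_sup_left
      have i1 : nil q₁ ≤ nil hA ⊔ nil q₁ ⊔ nil q₂ := le_sup_right.trans le_sup_left
      have i2 : nil q₂ ≤ nil hA ⊔ nil q₁ ⊔ nil q₂ := le_sup_right
      refine coeff_theta_mem (S := nil hA) (fun a ha => i0 ha) (fun a ha => ?_) (fun a ha => ?_) hf k
      · apply mem_of_nsmul hE (coprime_two hp2)
        have e : (2 : ℕ) • (m * a - a * m) = (1 + m) * a * (1 - m) - (1 - m) * a * (1 + m) := by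
          rw [two_nsmul]; noncomm_ring
        rw [e]
        exact sub_mem (i1 (m₁ a ha)) (i2 (m₂ a ha))
      · apply mem_of_nsmul hE (coprime_two hp2)
        have e : (2 : ℕ) • (m * a * m) = a + a - (1 + m) * a * (1 - m) - (1 - m) * a * (1 + m) := by
          rw [two_nsmul]; noncomm_ring
        rw [e]
        exact sub_mem (sub_mem (add_mem (i0 ha) (i0 ha)) (i1 (m₁ a ha))) (i2 (m₂ a ha))
    obtain ⟨y, hy, z, hz, hyz⟩ := AddSubgroup.mem_sup.1 hmem
    obtain ⟨a₀, ha₀, a₁, ha₁, haa⟩ := AddSubgroup.mem_sup.1 hy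
    rw [← hyz, ← haa]
    refine exists_of_three hp2 hE hA q₁ q₂ hAT ?_ ?_ hTA (norm_map hTA hbT') ?_ ha₀ ha₁ hz ?_
    · rintro _ ⟨a, ha, rfl⟩
      exact hbT a (hAT ha)
    · rintro _ ⟨a, ha, rfl⟩
      exact hbT' a (hAT ha)
    · refine norm_map hTA (b := b⁻¹) fun t ht => ?_
      have := hbT t ht
      rwa [inv_inv]
    · rw [haa, hyz]; exact hxx
  have hST' : ∀ x ∈ S, ∀ t, ρ t = 1 + x → t ∈ T := by
    intro x hx t ht
    obtain ⟨t', ht', ht''⟩ := hST x hx
    have : t = t' := hρ (ht.trans ht''.symm)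
    rwa [this]
  set A' := grp ρ T S hSS with hA'
  have hnil : nil (grp_quad (ρ := ρ) (T := T) hSS) = S := by
    ext x
    rw [mem_nil]
    constructor
    · rintro ⟨a, ha, hax⟩
      have := ha.2
      rwa [hax, add_sub_cancel_left] at this
    · intro hx
      obtain ⟨t, ht, htx⟩ := hST x hx
      exact ⟨t, ⟨ht, by rw [htx, add_sub_cancel_left]; exact hx⟩, htx⟩
  refine ⟨A', grp_quad hSS, fun a ha => ha.1, hnil, ?_, ?_, ?_, ?_⟩
  · rw [card_nil hρ hA, hA', card_grp hρ hSS hST]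
    exact card_le_lead (dn_mul_up hm) (dn_mul_up hm) (natDegree_up m) (natDegree_dn m) _
  · -- normalised by `T`
    have gen : ∀ t ∈ T, (ρ t - 1) * (ρ t - 1) = 0 → ∀ x ∈ S, ρ t * x * ρ t⁻¹ ∈ S := by
      intro t ht htt x hx
      obtain ⟨e, he⟩ : ∃ e, ρ t = 1 + e := ⟨ρ t - 1, by abel⟩
      have hee : e * e = 0 := by rwa [he, add_sub_cancel_left] at htt
      rw [map_inv_of he hee, he]
      refine conj_mem_lead hm (fun a ha => ?_) hx
      refine quartic_polys hp hE hm fun n => ?_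
      have h1 := conj_pow_mem hbT' n t ht
      rw [inv_pow, inv_inv] at h1
      have h2 := conj_mem_nil hA (hTA _ h1) ha
      have hbn : ρ (b ^ n) = 1 + n • m := map_pow_of hm hb n
      have hmn : (n • m) * (n • m) = 0 := by rw [smul_mul_assoc, mul_smul_comm, hm, smul_zero, smul_zero]
      have hbn' : ρ (b ^ n)⁻¹ = 1 - n • m := map_inv_of hbn hmn
      have h3 : ρ ((b ^ n)⁻¹ * t * b ^ n) = 1 + (e + n • (e * m - m * e) + n ^ 2 • (-(m * e * m))) := by
        rw [map_mul, map_mul, hbn', hbn, he]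
        simp only [add_mul, mul_add, sub_mul, one_mul, mul_one, smul_mul_assoc, mul_smul_comm, hm, smul_zero]
        module
      have h4 : ρ ((b ^ n)⁻¹ * t * b ^ n)⁻¹ = 1 - (e + n • (e * m - m * e) + n ^ 2 • (-(m * e * m))) := by
        have e1 : ((b ^ n)⁻¹ * t * b ^ n)⁻¹ = (b ^ n)⁻¹ * t⁻¹ * b ^ n := by group
        rw [e1, map_mul, map_mul, hbn', hbn, map_inv_of he hee]
        simp only [mul_add, sub_mul, mul_sub, one_mul, mul_one, smul_mul_assoc, mul_smul_comm, hm,
          smul_zero]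
        module
      rw [h3, h4] at h2
      exact h2
    have all : ∀ t ∈ T, (∀ x ∈ S, ρ t * x * ρ t⁻¹ ∈ S) ∧ (∀ x ∈ S, ρ t⁻¹ * x * ρ t ∈ S) := by
      intro t ht
      refine Subgroup.closure_induction (p := fun t _ => (∀ x ∈ S, ρ t * x * ρ t⁻¹ ∈ S) ∧
        (∀ x ∈ S, ρ t⁻¹ * x * ρ t ∈ S)) ?_ ?_ ?_ ?_ (hT ht)
      · rintro t ⟨ht, htt⟩
        refine ⟨gen t ht htt, ?_⟩
        obtain ⟨e, he⟩ : ∃ e, ρ t = 1 + e := ⟨ρ t - 1, by abel⟩
        have hee : e * e = 0 := by rwa [he, add_sub_cancel_left] at htt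
        have h1 := gen t⁻¹ (T.inv_mem ht) (by
          rw [map_inv_of he hee]
          linear_combination (norm := noncomm_ring) hee)
        rwa [inv_inv] at h1
      · refine ⟨fun x hx => ?_, fun x hx => ?_⟩ <;> simpa using hx
      · rintro s t _ _ ⟨hs, hs'⟩ ⟨ht, ht'⟩
        refine ⟨fun x hx => ?_, fun x hx => ?_⟩
        · have := hs _ (ht x hx)
          rw [mul_inv_rev, map_mul, map_mul]
          simpa only [mul_assoc] using this
        · have := ht' _ (hs' x hx)
          rw [mul_inv_rev, map_mul, map_mul]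
          simpa only [mul_assoc] using this
      · rintro t _ ⟨ht, ht'⟩
        exact ⟨by simpa only [inv_inv] using ht', by simpa only [inv_inv] using ht⟩
    intro t ht a ha
    exact conj_mem_grp (fun s hs => T.mul_mem (T.mul_mem ht hs) (T.inv_mem ht)) (all t ht).1 ha
  · intro a ha
    refine conj_mem_grp hbT (fun x hx => ?_) ha
    rw [hbinv, hb]
    exact conj_up_mem_lead hp2 hE hm hx
  · intro c hcT hcA hcm a ha
    refine conj_mem_grp hcT (fun x hx => ?_) ha
    refine conj_mem_lead hm (fun a ha => ?_) hx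
    have hc1 : dn m * C (ρ c) = C (ρ c) * dn m := by
      rw [dn, sub_mul, mul_sub, one_mul, mul_one, monomial_mul_C, C_mul_monomial, hcm.eq]
    have hcm' : Commute (ρ c⁻¹) m := by
      have h1 : ρ c⁻¹ * ρ c = 1 := by rw [← map_mul, inv_mul_cancel, map_one]
      have h2 : ρ c * ρ c⁻¹ = 1 := by rw [← map_mul, mul_inv_cancel, map_one]
      change ρ c⁻¹ * m = m * ρ c⁻¹
      calc ρ c⁻¹ * m = ρ c⁻¹ * (m * ρ c) * ρ c⁻¹ := by
            rw [mul_assoc, mul_assoc, h2, mul_one]
        _ = ρ c⁻¹ * (ρ c * m) * ρ c⁻¹ := by rw [hcm.eq]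
        _ = m * ρ c⁻¹ := by rw [← mul_assoc, h1, one_mul]
    have hc2 : dn m * C (ρ c⁻¹) = C (ρ c⁻¹) * dn m := by
      rw [dn, sub_mul, mul_sub, one_mul, mul_one, monomial_mul_C, C_mul_monomial, hcm'.eq]
    have key : dn m * C (ρ c) * up m * C a * dn m * C (ρ c⁻¹) * up m = C (ρ c * a * ρ c⁻¹) := by
      rw [hc1]
      calc C (ρ c) * dn m * up m * C a * dn m * C (ρ c⁻¹) * up m
          = C (ρ c) * (dn m * up m) * C a * (dn m * C (ρ c⁻¹)) * up m := by simp only [mul_assoc]
        _ = C (ρ c) * C a * C (ρ c⁻¹) * (dn m * up m) := by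
            rw [hc2, dn_mul_up hm, mul_one]; simp only [mul_assoc, dn_mul_up hm, mul_one]
        _ = _ := by rw [dn_mul_up hm, mul_one, C_mul, C_mul]
    rw [key, ← monomial_zero_left]
    exact monomial_mem_polys (conj_mem_nil hA hcA ha)

end KP

end Cfsg.Agent.H26.Limit
end

-- part: H26/LimitFix
section
/-!
# Fixed points of the limit subgroup
-/

set_option autoImplicit false

namespace Cfsg.Agent.H26.Limit

open Polynomial

variable {p : ℕ} [hpf : Fact p.Prime] {W : Type*} [AddCommGroup W] [Module (ZMod p) W]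

/-- Vectors killed by `S`. -/
def ker (S : AddSubgroup (Module.End (ZMod p) W)) : AddSubgroup W where
  carrier := {w | ∀ x ∈ S, x w = 0}
  zero_mem' := by intro x _; simp
  add_mem' := by
    intro a b ha hb x hx
    rw [map_add, ha x hx, hb x hx, add_zero]
  neg_mem' := by
    intro a ha x hx
    rw [map_neg, ha x hx, neg_zero]

/-- **Fixed points** do not shrink. -/
theorem card_ker_le [Finite W] {m : Module.End (ZMod p) W} (hm : m * m = 0)
    (S : AddSubgroup (Module.End (ZMod p) W)) :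
    Nat.card (ker S) ≤ Nat.card (ker (lead (up m) (dn m) S)) := by
  have hfinE : Finite (Module.End (ZMod p) W) :=
    Finite.of_injective (fun f : Module.End (ZMod p) W => (f : W → W)) DFunLike.coe_injective
  rcases subsingleton_or_nontrivial W with hW | hW
  · have h1 : Nat.card (ker S) ≤ 1 := Finite.card_le_one_iff_subsingleton.2 inferInstance
    exact h1.trans Nat.card_pos
  obtain ⟨w₀, hw₀⟩ := exists_ne (0 : W)
  obtain ⟨l, hl⟩ := Module.Projective.exists_dual_eq_one (ZMod p) hw₀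
  -- rank one operators
  let r : W →+ Module.End (ZMod p) W :=
    { toFun := fun w => LinearMap.smulRight l w
      map_zero' := by ext; simp
      map_add' := by intro a b; ext; simp }
  have hr : ∀ w v, r w v = l v • w := fun w v => rfl
  have hr0 : ∀ w, r w w₀ = w := by intro w; rw [hr, hl, one_smul]
  have hri : Function.Injective r := by
    intro a b hab
    rw [← hr0 a, hab, hr0]
  set S₂ : AddSubgroup (Module.End (ZMod p) W) := (ker S).map r with hS₂
  have h1 : Nat.card (ker S) = Nat.card S₂ := by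
    rw [hS₂]
    exact (Nat.card_congr ((ker S).equivMapOfInjective r hri).toEquiv)
  have h2 : Nat.card S₂ ≤ Nat.card (lead (up m) 1 S₂) :=
    card_le_lead (v' := 1) (dn_mul_up hm) (one_mul 1) (natDegree_up m) (by simp) _
  have hrange : ∀ y ∈ lead (up m) 1 S₂, ∃ w, r w = y := by
    rintro y ⟨f, hf, k, -, rfl⟩
    have h3 : ∀ k, ∃ w, r w = (up m * f).coeff k := by
      intro k
      have h4 : (up m * f).coeff k = f.coeff k + (monomial 1 m * f).coeff k := by
        rw [up, add_mul, one_mul, coeff_add]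
      obtain ⟨w, -, hw⟩ := hf k
      rcases k with _ | k
      · refine ⟨w, ?_⟩
        rw [h4, ← C_mul_X_eq_monomial, mul_assoc, coeff_C_mul, mul_coeff_zero]
        simpa using hw
      · obtain ⟨w', -, hw'⟩ := hf k
        refine ⟨w + m w', ?_⟩
        rw [h4, ← C_mul_X_eq_monomial, mul_assoc, coeff_C_mul, coeff_X_mul, map_add, hw, ← hw']
        congr 1
        ext v
        rw [Module.End.mul_apply, hr, hr, map_smul]
    rw [mul_one]
    exact h3 k
  have h5 : Nat.card (lead (up m) 1 S₂) ≤ Nat.card (ker (lead (up m) (dn m) S)) := by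
    refine Nat.card_le_card_of_injective (fun y => ⟨y.1 w₀, ?_⟩) ?_
    · intro x hx
      have h6 : x * y.1 = 0 := by
        refine lead_mul_eq_zero (u₂ := up m) (dn_mul_up hm) ?_ hx y.2
        rintro a ha _ ⟨w, hw, rfl⟩
        ext v
        rw [Module.End.mul_apply, hr, map_smul, hw a ha, smul_zero]; rfl
      rw [← Module.End.mul_apply, h6]; rfl
    · intro y z hyz
      have h6 : y.1 w₀ = z.1 w₀ := congrArg Subtype.val hyz
      obtain ⟨a, ha⟩ := hrange y.1 y.2
      obtain ⟨b, hb⟩ := hrange z.1 z.2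
      apply Subtype.ext
      rw [← ha, ← hb] at h6 ⊢
      rw [hr0, hr0] at h6
      rw [h6]
  rw [h1]
  exact h2.trans h5

end Cfsg.Agent.H26.Limit
end

-- part: H26/LimitGroup
section
/-!
# A family of subgroups of a nilpotent group with a normalised member
-/

set_option autoImplicit false

namespace Cfsg.Agent.H26.LimitGroup

open Subgroup

variable {G : Type*} [Group G] [Finite G]

theorem mem_normalizer_of {A : Subgroup G} {g : G} (h : ∀ a ∈ A, g * a * g⁻¹ ∈ A) :
    g ∈ normalizer (A : Set G) := by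
  have h1 : A.map (MulAut.conj g).toMonoidHom ≤ A := by
    rintro _ ⟨a, ha, rfl⟩
    exact h a ha
  have h2 : Nat.card (A.map (MulAut.conj g).toMonoidHom) = Nat.card A :=
    (Nat.card_congr (A.equivMapOfInjective _ (MulAut.conj g).injective).toEquiv).symm
  have h3 : A.map (MulAut.conj g).toMonoidHom = A := Subgroup.eq_of_le_of_card_ge h1 h2.ge
  rw [mem_normalizer_iff]
  intro x
  refine ⟨h x, fun hx => ?_⟩
  have h4 : g * x * g⁻¹ ∈ A.map (MulAut.conj g).toMonoidHom := by rw [h3]; exact hx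
  obtain ⟨a, ha, hax⟩ := h4
  have h5 : a = x := (MulAut.conj g).injective hax
  rwa [← h5]

theorem exists_normalised [Group.IsNilpotent G] (O : Set (Subgroup G)) (hne : O.Nonempty)
    (hconj : ∀ A ∈ O, ∀ g : G, A.map (MulAut.conj g).toMonoidHom ∈ O)
    (step : ∀ T A B : Subgroup G, A ∈ O → B ∈ O → A ≤ T → T ≤ normalizer (A : Set G) →
      T = sSup {D | D ∈ O ∧ D ≤ T} → B ≤ normalizer (T : Set G) → ∀ b ∈ B, ∃ A' ∈ O, A' ≤ T ∧
        T ≤ normalizer (A' : Set G) ∧ b ∈ normalizer (A' : Set G) ∧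
        B ⊓ normalizer (A : Set G) ≤ normalizer (A' : Set G)) :
    ∃ A ∈ O, ∀ D ∈ O, D ≤ normalizer (A : Set G) := by
  classical
  set TT : Subgroup G → Subgroup G := fun A => sSup {D | D ∈ O ∧ D ≤ normalizer (A : Set G)} with hTT
  have hTTn : ∀ A : Subgroup G, TT A ≤ normalizer (A : Set G) := fun A => sSup_le fun D hD => hD.2
  have hTTm : ∀ A D : Subgroup G, D ∈ O → D ≤ normalizer (A : Set G) → D ≤ TT A := fun A D h1 h2 => le_sSup ⟨h1, h2⟩
  have : Nonempty O := hne.to_subtype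
  obtain ⟨⟨A, hA⟩, hAmax⟩ := Finite.exists_max (fun A : O => Nat.card (TT A))
  set T := TT A with hT
  have hTgen : T = sSup {D | D ∈ O ∧ D ≤ T} := by
    refine le_antisymm (sSup_le fun D hD => le_sSup ⟨hD.1, hTTm A D hD.1 hD.2⟩) (sSup_le fun D hD => hD.2)
  by_cases hall : ∀ D ∈ O, D ≤ T
  · exact ⟨A, hA, fun D hD => (hall D hD).trans (hTTn A)⟩
  exfalso
  obtain ⟨B, hB, hBN, hBT⟩ : ∃ B ∈ O, B ≤ normalizer (T : Set G) ∧ ¬ B ≤ T := by
    by_contra hcon
    push Not at hcon
    apply hall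
    have htop : normalizer (T : Set G) = ⊤ := by
      by_contra hne
      have h1 := Group.normalizerCondition_of_isNilpotent (G := G) (normalizer (T : Set G)) (lt_top_iff_ne_top.2 hne)
      apply h1.not_ge
      intro g hg
      apply mem_normalizer_of
      have h2 : T ≤ T.comap (MulAut.conj g).toMonoidHom := by
        conv_lhs => rw [hTgen]
        refine sSup_le fun D hD => ?_
        rw [← map_le_iff_le_comap]
        refine hcon _ (hconj D hD.1 g) ?_
        rintro _ ⟨d, hd, rfl⟩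
        exact (mem_normalizer_iff.1 hg d).1 (le_normalizer (hD.2 hd))
      intro a ha
      exact h2 ha
    intro D hD
    exact hcon D hD (by rw [htop]; exact le_top)
  -- maximise the normaliser in `B`
  let O' : Set (Subgroup G) := {A' | A' ∈ O ∧ A' ≤ T ∧ T ≤ normalizer (A' : Set G)}
  have hAO' : A ∈ O' := ⟨hA, hTTm A A hA le_normalizer, hTTn A⟩
  have : Nonempty O' := ⟨⟨A, hAO'⟩⟩
  obtain ⟨⟨A', hA'⟩, hA'max⟩ := Finite.exists_max
    (fun A' : O' => Nat.card (B ⊓ normalizer ((A' : Subgroup G) : Set G) : Subgroup G))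
  have hTA' : TT A' = T := by
    have h1 : T ≤ TT A' := by
      conv_lhs => rw [hTgen]
      exact sSup_le fun D hD => hTTm A' D hD.1 (hD.2.trans hA'.2.2)
    exact (Subgroup.eq_of_le_of_card_ge h1 (hAmax ⟨A', hA'.1⟩)).symm
  have hBA' : ¬ B ≤ normalizer (A' : Set G) := by
    intro h
    apply hBT
    rw [← hTA']
    exact hTTm A' B hB h
  obtain ⟨b, hb, hbA'⟩ := SetLike.not_le_iff_exists.1 hBA'
  obtain ⟨A'', hA''O, hA''T, hTA'', hbA'', hBA''⟩ := step T A' B hA'.1 hB hA'.2.1 hA'.2.2 hTgen hBN b hb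
  have h1 := hA'max ⟨A'', hA''O, hA''T, hTA''⟩
  have h2 : B ⊓ normalizer (A' : Set G) ≤ B ⊓ normalizer (A'' : Set G) := le_inf inf_le_left hBA''
  have h3 := Subgroup.eq_of_le_of_card_ge h2 h1
  apply hbA'
  have h4 : b ∈ B ⊓ normalizer (A'' : Set G) := ⟨hb, hbA''⟩
  rw [← h3] at h4
  exact h4.2

end Cfsg.Agent.H26.LimitGroup
end

-- part: H26/LimitLinear
section
/-!
# Quadratic offenders normalised by all quadratic offenders (`p ≥ 5`)
-/

set_option autoImplicit false

namespace Cfsg.Agent.H26.Limit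

open Subgroup

variable {p : ℕ} [hpf : Fact p.Prime] {W : Type*} [AddCommGroup W] [Module (ZMod p) W]
  {G : Type*} [Group G]

/-- Fixed vectors. -/
def fx (ρ : G →* Module.End (ZMod p) W) (A : Subgroup G) : AddSubgroup W where
  carrier := {w | ∀ a ∈ A, ρ a w = w}
  zero_mem' := by intro x _; simp
  add_mem' := by
    intro a b ha hb x hx
    rw [map_add, ha x hx, hb x hx]
  neg_mem' := by
    intro a ha x hx
    rw [map_neg, ha x hx]

theorem fx_eq {ρ : G →* Module.End (ZMod p) W} {A : Subgroup G} (hA : Quad ρ A) : fx ρ A = ker (nil hA) := by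
  ext w
  constructor
  · rintro h x ⟨a, ha, hax⟩
    have h1 := h a ha
    rw [hax, LinearMap.add_apply, Module.End.one_apply] at h1
    simpa using h1
  · intro h a ha
    have h1 := h _ (sub_one_mem_nil hA ha)
    rw [LinearMap.sub_apply, Module.End.one_apply] at h1
    exact sub_eq_zero.1 h1

/-- The nontrivial quadratic subgroups `A` with `|A| |C_W(A)| ≥ n`. -/
def Off (ρ : G →* Module.End (ZMod p) W) (n : ℕ) : Set (Subgroup G) :=
  {A | A ≠ ⊥ ∧ Quad ρ A ∧ n ≤ Nat.card A * Nat.card (fx ρ A)}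

theorem Off.conj [Finite W] {ρ : G →* Module.End (ZMod p) W} {n : ℕ} {A : Subgroup G} (hA : A ∈ Off ρ n) (g : G) :
    A.map (MulAut.conj g).toMonoidHom ∈ Off ρ n := by
  obtain ⟨h1, h2, h3⟩ := hA
  refine ⟨?_, quad_map h2 g, ?_⟩
  · intro h
    apply h1
    exact (map_eq_bot_iff_of_injective _ (MulAut.conj g).injective).1 h
  · refine h3.trans ?_
    have e1 : Nat.card (A.map (MulAut.conj g).toMonoidHom) = Nat.card A :=
      (Nat.card_congr (A.equivMapOfInjective _ (MulAut.conj g).injective).toEquiv).symm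
    rw [e1]
    refine Nat.mul_le_mul_left _ ?_
    refine Nat.card_le_card_of_injective (fun w => ⟨ρ g w.1, ?_⟩) ?_
    · rintro _ ⟨a, ha, rfl⟩
      change ρ (g * a * g⁻¹) (ρ g w.1) = _
      rw [← Module.End.mul_apply, ← map_mul, inv_mul_cancel_right, map_mul, Module.End.mul_apply, w.2 a ha]
    · intro v w hvw
      have h4 : ρ g v.1 = ρ g w.1 := congrArg Subtype.val hvw
      have h5 : ∀ x : W, ρ g⁻¹ (ρ g x) = x := by
        intro x
        rw [← Module.End.mul_apply, ← map_mul, inv_mul_cancel, map_one, Module.End.one_apply]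
      apply Subtype.ext
      rw [← h5 v.1, h4, h5]

theorem linear_main [Finite G] [Group.IsNilpotent G] [Finite W] (hp : 5 ≤ p) (ρ : G →* Module.End (ZMod p) W)
    (hρ : Function.Injective ρ) (n : ℕ) (hne : (Off ρ n).Nonempty) :
    ∃ A ∈ Off ρ n, ∀ D ∈ Off ρ n, D ≤ normalizer (A : Set G) := by
  have hfinE : Finite (Module.End (ZMod p) W) :=
    Finite.of_injective (fun f : Module.End (ZMod p) W => (f : W → W)) DFunLike.coe_injective
  have hE : ∀ x : Module.End (ZMod p) W, p • x = 0 := by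
    intro x
    rw [← Nat.cast_smul_eq_nsmul (ZMod p), CharP.cast_eq_zero, zero_smul]
  refine LimitGroup.exists_normalised _ hne (fun A hA g => Off.conj hA g) ?_
  intro T A B hA hB hAT hTA hT hBT b hb
  obtain ⟨hA1, hAq, hAn⟩ := hA
  obtain ⟨-, hBq, -⟩ := hB
  obtain ⟨m, hm⟩ : ∃ m, ρ b = 1 + m := ⟨ρ b - 1, by abel⟩
  have hmm : m * m = 0 := by
    have := hBq b hb b hb
    rwa [hm, add_sub_cancel_left] at this
  have conjT : ∀ c ∈ B, ∀ t ∈ T, c * t * c⁻¹ ∈ T := fun c hc t ht =>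
    (mem_normalizer_iff.1 (hBT hc) t).1 ht
  have hTgen : T ≤ closure {t | t ∈ T ∧ (ρ t - 1) * (ρ t - 1) = 0} := by
    conv_lhs => rw [hT]
    refine sSup_le fun D hD d hd => subset_closure ⟨hD.2 hd, hD.1.2.1 d hd d hd⟩
  obtain ⟨A', hA'q, hA'T, hnil, hcard, hTA', hbA', hcA'⟩ := kp hp hE hρ hAq hAT
    (fun t ht a ha => (mem_normalizer_iff.1 (hTA ht) a).1 ha) hTgen hm hmm (conjT b hb)
    (conjT b⁻¹ (B.inv_mem hb))
  refine ⟨A', ⟨?_, hA'q, ?_⟩, hA'T, fun t ht => LimitGroup.mem_normalizer_of (hTA' t ht),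
    LimitGroup.mem_normalizer_of hbA', fun c hc => LimitGroup.mem_normalizer_of ?_⟩
  · intro h
    have h1 : 1 < Nat.card A := (Subgroup.one_lt_card_iff_ne_bot A).2 hA1
    rw [h, Subgroup.card_bot] at hcard
    omega
  · refine hAn.trans (Nat.mul_le_mul hcard ?_)
    rw [fx_eq hAq, fx_eq hA'q, hnil]
    exact card_ker_le hmm _
  · refine hcA' c (conjT c hc.1) (fun a ha => (mem_normalizer_iff.1 hc.2 a).1 ha) ?_
    have h1 := hBq c hc.1 b hb
    have h2 := hBq b hb c hc.1
    rw [hm, add_sub_cancel_left] at h1 h2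
    change ρ c * m = m * ρ c
    linear_combination (norm := noncomm_ring) h1 - h2

end Cfsg.Agent.H26.Limit
end

-- part: H26/LimitTransfer
section
/-!
# From subgroups normalising an elementary abelian subgroup to representations
-/

set_option autoImplicit false

universe u

namespace Cfsg.Agent.H26.Limit

open Subgroup
open scoped commutatorElement

section Rep

variable {Ω : Type u} [Group Ω] {p : ℕ} [hpf : Fact p.Prime]

omit [Group Ω] in
theorem exists_rep_aux {H V' : Type*} [Group H] [CommGroup V'] [Module (ZMod p) (Additive V')]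
    (φ : H →* MulAut V') : ∃ ρ : H →* Module.End (ZMod p) (Additive V'),
      ∀ g w, Additive.toMul (ρ g w) = φ g (Additive.toMul w) := by
  refine ⟨
    { toFun := fun g => (MonoidHom.toAdditive (φ g).toMonoidHom).toZModLinearMap p
      map_one' := ?_
      map_mul' := ?_ }, ?_⟩
  · refine LinearMap.ext fun w => ?_
    apply Additive.toMul.injective
    change φ 1 (Additive.toMul w) = Additive.toMul w
    rw [map_one, MulAut.one_apply]
  · intro g h
    refine LinearMap.ext fun w => ?_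
    apply Additive.toMul.injective
    change φ (g * h) (Additive.toMul w) = φ g (φ h (Additive.toMul w))
    rw [map_mul, MulAut.mul_apply]
  · intro g w; rfl

theorem exists_rep (V G : Subgroup Ω) (hV : Cfsg.IsElementaryAbelian p V)
    (hGV : G ≤ normalizer (V : Set Ω)) :
    ∃ (W : Type u) (_ : AddCommGroup W) (_ : Module (ZMod p) W) (e : W ≃ V)
      (ρ : G →* Module.End (ZMod p) W), (∀ x y, (e (x + y) : Ω) = e x * e y) ∧
      ∀ g w, (e (ρ g w) : Ω) = g * e w * (g : Ω)⁻¹ := by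
  let _ : CommGroup V := { (inferInstance : Group V) with mul_comm := fun x y => hV.1.1.1 x y }
  let _ : Module (ZMod p) (Additive V) := AddCommGroup.zmodModule (fun x => by
    apply Additive.toMul.injective
    apply Subtype.ext
    change ((Additive.toMul (p • x) : V) : Ω) = 1
    rw [toMul_nsmul]
    exact hV.2 _ (Additive.toMul x).2)
  let φ : G →* MulAut V := V.normalizerMonoidHom.comp (Subgroup.inclusion hGV)
  obtain ⟨ρ, hρ⟩ := exists_rep_aux (p := p) φ
  refine ⟨Additive V, inferInstance, inferInstance, Additive.toMul, ρ, ?_, ?_⟩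
  · intro x y; rfl
  · intro g w
    have h1 := congrArg Subtype.val (hρ g w)
    exact h1

variable {V G : Subgroup Ω} {W : Type u} [AddCommGroup W] [Module (ZMod p) W] (e : W ≃ V)
  (ρ : G →* Module.End (ZMod p) W) (he : ∀ x y, (e (x + y) : Ω) = e x * e y)
  (hρ : ∀ g w, (e (ρ g w) : Ω) = g * e w * (g : Ω)⁻¹)

include he

theorem e_sub (x y : W) : (e (x - y) : Ω) = e x * (e y : Ω)⁻¹ := by
  rw [eq_mul_inv_iff_mul_eq, ← he, sub_add_cancel]

theorem e_zero : (e 0 : Ω) = 1 := by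
  have := e_sub e he 0 0
  rwa [sub_self, mul_inv_cancel] at this

include hρ

omit he in
theorem rep_injective (hf : G ⊓ centralizer (V : Set Ω) = ⊥) : Function.Injective ρ := by
  rw [injective_iff_map_eq_one]
  intro g hg
  apply Subtype.ext
  have h1 : (g : Ω) ∈ G ⊓ centralizer (V : Set Ω) := by
    refine ⟨g.2, ?_⟩
    change (g : Ω) ∈ centralizer (V : Set Ω)
    rw [mem_centralizer_iff]
    intro v hv
    have h2 := hρ g (e.symm ⟨v, hv⟩)
    rw [hg, Module.End.one_apply, Equiv.apply_symm_apply] at h2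
    have h3 : v = g * v * (g : Ω)⁻¹ := h2
    nth_rewrite 1 [h3]
    group
  rw [hf, mem_bot] at h1
  exact h1

theorem quad_iff {A : Subgroup G} : Quad ρ A ↔ ⁅⁅V, A.map G.subtype⁆, A.map G.subtype⁆ = ⊥ := by
  rw [Subgroup.commutator_eq_bot_iff_le_centralizer, Subgroup.commutator_le]
  have key : ∀ a b : G, (ρ a - 1) * (ρ b - 1) = 0 ↔ ∀ v ∈ V, (a : Ω) * ⁅(b : Ω), v⁆ = ⁅(b : Ω), v⁆ * a := by
    intro a b
    have h1 : ∀ w, (e ((ρ b - 1) w) : Ω) = ⁅(b : Ω), (e w : Ω)⁆ := by
      intro w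
      rw [LinearMap.sub_apply, Module.End.one_apply, e_sub e he, hρ, commutatorElement_def]
    constructor
    · intro h v hv
      have h2 : ρ a ((ρ b - 1) (e.symm ⟨v, hv⟩)) = (ρ b - 1) (e.symm ⟨v, hv⟩) := by
        have h3 : ((ρ a - 1) * (ρ b - 1)) (e.symm ⟨v, hv⟩) = 0 := by rw [h]; rfl
        rw [Module.End.mul_apply, LinearMap.sub_apply, Module.End.one_apply] at h3
        exact sub_eq_zero.1 h3
      have h3 := hρ a ((ρ b - 1) (e.symm ⟨v, hv⟩))
      rw [h2, h1, Equiv.apply_symm_apply] at h3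
      exact (eq_mul_inv_iff_mul_eq.1 h3).symm
    · intro h
      ext w
      rw [Module.End.mul_apply, LinearMap.zero_apply, LinearMap.sub_apply, Module.End.one_apply, sub_eq_zero]
      apply e.injective
      apply Subtype.ext
      rw [hρ, h1, h _ (e w).2, mul_inv_cancel_right]
  have hcomm : ∀ (x v b : Ω), x * ⁅b, v⁆ = ⁅b, v⁆ * x ↔ x * ⁅v, b⁆ = ⁅v, b⁆ * x := by
    intro x v b
    rw [← commutatorElement_inv v b]
    constructor
    · intro h
      have : Commute x (⁅v, b⁆)⁻¹ := h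
      exact (Commute.inv_right_iff.1 this).eq
    · intro h
      have : Commute x ⁅v, b⁆ := h
      exact (Commute.inv_right_iff.2 this).eq
  constructor
  · rintro h v hv _ ⟨b, hb, rfl⟩
    rw [mem_centralizer_iff]
    rintro _ ⟨a, ha, rfl⟩
    exact (hcomm _ _ _).1 ((key a b).1 (h a ha b hb) v hv)
  · intro h a ha b hb
    rw [key]
    intro v hv
    have h1 := h v hv (b : Ω) ⟨b, hb, rfl⟩
    exact (hcomm _ _ _).2 ((mem_centralizer_iff.1 h1) a ⟨a, ha, rfl⟩)

omit he in
theorem card_fx {A : Subgroup G} : Nat.card (fx ρ A) = Nat.card (V ⊓ centralizer (A.map G.subtype : Set Ω) : Subgroup Ω) := by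
  refine Nat.card_congr (Equiv.ofBijective (fun w : fx ρ A => (⟨(e w.1 : Ω), (e w.1).2, ?_⟩ :
    (V ⊓ centralizer (A.map G.subtype : Set Ω) : Subgroup Ω))) ⟨?_, ?_⟩)
  · change (e w.1 : Ω) ∈ centralizer (A.map G.subtype : Set Ω)
    rw [mem_centralizer_iff]
    rintro _ ⟨a, ha, rfl⟩
    have h1 := hρ a w.1
    rw [w.2 a ha] at h1
    exact (eq_mul_inv_iff_mul_eq.1 h1).symm
  · intro x y hxy
    have h1 : (e x.1 : Ω) = e y.1 := by
      have := congrArg Subtype.val hxy
      exact this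
    exact Subtype.ext (e.injective (Subtype.ext h1))
  · rintro ⟨v, hv, hvc⟩
    refine ⟨⟨e.symm ⟨v, hv⟩, ?_⟩, ?_⟩
    · intro a ha
      apply e.injective
      apply Subtype.ext
      rw [hρ, Equiv.apply_symm_apply]
      have h1 := (mem_centralizer_iff.1 hvc) a ⟨a, ha, rfl⟩
      change (a : Ω) * v * (a : Ω)⁻¹ = v
      rw [h1, mul_inv_cancel_right]
    · apply Subtype.ext
      change (e (e.symm ⟨v, hv⟩) : Ω) = v
      rw [Equiv.apply_symm_apply]

end Rep

end Cfsg.Agent.H26.Limit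
end

-- part: H26/LimitOffender
section
/-!
# Quadratic offenders inside elementary abelian offenders
-/

set_option autoImplicit false

namespace Cfsg.Agent.H26.LimitOffender

open Subgroup PLocal.Timmesfeld
open scoped commutatorElement

variable {G : Type*} [Group G] [Finite G] {p : ℕ} [hpf : Fact p.Prime]

/-- Replacement keeps `|A| |C_V(A)|`. -/
theorem le_replacement (V A : Subgroup G) (hV : Cfsg.IsElementaryAbelian p V)
    (hAV : A ≤ Subgroup.normalizer (V : Set G)) (hA : Cfsg.IsBestOffenderOn p V A) :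
    Nat.card A * Nat.card (V ⊓ centralizer (A : Set G) : Subgroup G) ≤
      Nat.card (A ⊓ centralizer ((⁅V, A⁆ : Subgroup G) : Set G) : Subgroup G) *
      Nat.card (V ⊓ centralizer ((A ⊓ centralizer ((⁅V, A⁆ : Subgroup G) : Set G) : Subgroup G) : Set G) :
        Subgroup G) := by
  classical
  obtain ⟨hbest, hAA, hAp⟩ := hA
  have hVc : ∀ x ∈ V, ∀ y ∈ V, x * y = y * x := fun x hx y hy =>
    congrArg Subtype.val (hV.1.1.1 (⟨x, hx⟩ : V) (⟨y, hy⟩ : V))
  set C : Subgroup G := V ⊓ Subgroup.centralizer (A : Set G) with hC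
  set m : ℕ := Nat.card A * Nat.card C with hm
  have hmpos : 0 < m := Nat.mul_pos Nat.card_pos Nat.card_pos
  have hle : ∀ W : Subgroup G, W ≤ V → meas A W ≤ m := by
    intro W hW
    refine le_trans (Nat.mul_le_mul_left _ ?_) (hbest (A ⊓ Subgroup.centralizer (W : Set G)) inf_le_left)
    refine Subgroup.card_le_of_le ?_
    refine le_inf hW ?_
    rw [Subgroup.le_centralizer_iff]
    exact inf_le_right
  have hUV : ⁅V, A⁆ ≤ V := by
    rw [Subgroup.commutator_le]
    intro u hu a ha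
    exact commutator_mem_of_mem hAV hu ha
  have hCV : C ≤ V := inf_le_left
  let T : Finset G := (Set.toFinite (V : Set G)).toFinset
  have hT : ∀ u, u ∈ T ↔ u ∈ V := fun u => by simp [T]
  have hsup : ⁅V, A⁆ ≤ T.sup (elemComm A) := by
    rw [Subgroup.commutator_le]
    intro u hu a ha
    exact Finset.le_sup (f := elemComm A) ((hT u).2 hu) (Subgroup.subset_closure ⟨a, ha, rfl⟩)
  have hsup' : T.sup (elemComm A) = ⁅V, A⁆ := by
    refine le_antisymm (Finset.sup_le fun u hu => (Subgroup.closure_le _).2 ?_) hsup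
    rintro x ⟨a, ha, rfl⟩
    exact Subgroup.commutator_mem_commutator ((hT u).1 hu) ha
  have hmeasC : m ≤ meas A (⊥ ⊔ C) := by
    rw [bot_sup_eq, meas_def]
    refine Nat.mul_le_mul_right _ (Subgroup.card_le_of_le ?_)
    refine le_inf le_rfl ?_
    rw [Subgroup.le_centralizer_iff]
    exact inf_le_right
  have hmain : (m ≤ meas A (⁅V, A⁆ ⊔ C)) ∧ ⁅V, A⁆ ≤ V := by
    rw [← hsup']
    refine Finset.sup_induction (p := fun W => m ≤ meas A (W ⊔ C) ∧ W ≤ V) ⟨hmeasC, bot_le⟩ ?_ ?_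
    · rintro W₁ ⟨h₁, h₁'⟩ W₂ ⟨h₂, h₂'⟩
      refine ⟨?_, sup_le h₁' h₂'⟩
      have h3 := meas_mul_meas_le A (W₁ ⊔ C) (W₂ ⊔ C)
      have h4 : (W₁ ⊔ C) ⊔ (W₂ ⊔ C) = W₁ ⊔ W₂ ⊔ C := (sup_sup_distrib_right W₁ W₂ C).symm
      rw [h4] at h3
      have h5 := hle ((W₁ ⊔ C) ⊓ (W₂ ⊔ C)) (inf_le_left.trans (sup_le h₁' hCV))
      have h6 : m * m ≤ meas A (W₁ ⊔ W₂ ⊔ C) * m :=
        (Nat.mul_le_mul h₁ h₂).trans (h3.trans (Nat.mul_le_mul_left _ h5))
      exact Nat.le_of_mul_le_mul_right h6 hmpos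
    · intro u hu
      exact ⟨le_meas_elemComm hVc hAV hAA ((hT u).1 hu), elemComm_le hAV ((hT u).1 hu)⟩
  have hmain1 := hmain.1
  rw [meas_def] at hmain1
  refine hmain1.trans ?_
  have hBW : A ⊓ Subgroup.centralizer ((⁅V, A⁆ ⊔ C : Subgroup G) : Set G) =
      A ⊓ Subgroup.centralizer ((⁅V, A⁆ : Subgroup G) : Set G) := by
    refine le_antisymm (inf_le_inf_left _ (Subgroup.centralizer_le (SetLike.coe_subset_coe.2 le_sup_left))) ?_
    refine le_inf inf_le_left ?_
    rw [centralizer_sup]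
    refine le_inf inf_le_right (inf_le_left.trans ?_)
    rw [Subgroup.le_centralizer_iff]
    exact inf_le_right
  rw [hBW]
  refine Nat.mul_le_mul_left _ (Subgroup.card_le_of_le ?_)
  refine le_inf (sup_le hUV hCV) ?_
  rw [Subgroup.le_centralizer_iff, ← hBW]
  exact inf_le_right

/-- An elementary abelian offender, faithful on `V`, contains a nontrivial quadratic offender. -/
theorem exists_quadratic (V E : Subgroup G) (hV : Cfsg.IsElementaryAbelian p V)
    (hEV : E ≤ Subgroup.normalizer (V : Set G)) (hf : E ⊓ centralizer (V : Set G) = ⊥)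
    (hE : Cfsg.IsElementaryAbelian p E) (hE1 : E ≠ ⊥)
    (hoff : Nat.card V ≤ Nat.card E * Nat.card (V ⊓ centralizer (E : Set G) : Subgroup G)) :
    ∃ B ≤ E, B ≠ ⊥ ∧ ⁅⁅V, B⁆, B⁆ = ⊥ ∧
      Nat.card V ≤ Nat.card B * Nat.card (V ⊓ centralizer (B : Set G) : Subgroup G) := by
  let P : Set (Subgroup G) := {F | F ≤ E ∧ F ≠ ⊥}
  have : Nonempty P := ⟨⟨E, le_rfl, hE1⟩⟩
  obtain ⟨⟨A, hAE, hA1⟩, hmax⟩ := Finite.exists_max
    (fun F : P => Nat.card (F : Subgroup G) * Nat.card (V ⊓ centralizer ((F : Subgroup G) : Set G) : Subgroup G))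
  have hVA : Nat.card V ≤ Nat.card A * Nat.card (V ⊓ centralizer (A : Set G) : Subgroup G) :=
    hoff.trans (hmax ⟨E, le_rfl, hE1⟩)
  have hAc : ∀ x ∈ A, ∀ y ∈ A, x * y = y * x := fun x hx y hy =>
    congrArg Subtype.val (hE.1.1.1 (⟨x, hAE hx⟩ : E) (⟨y, hAE hy⟩ : E))
  have hbest : Cfsg.IsBestOffenderOn p V A := by
    refine ⟨?_, ?_, ?_⟩
    · intro B hB
      by_cases hB1 : B = ⊥
      · subst hB1
        rw [Subgroup.card_bot, one_mul]
        exact (Subgroup.card_le_of_le inf_le_left).trans hVA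
      · exact hmax ⟨B, hB.trans hAE, hB1⟩
    · rw [Subgroup.commutator_le]
      intro x hx y hy
      rw [commutatorElement_def, hAc x hx y hy, mul_inv_cancel_right, mul_inv_cancel]
      exact one_mem _
    · intro a ha
      rw [hE.2 a (hAE ha)]
      exact one_mem _
  have hAV : A ≤ Subgroup.normalizer (V : Set G) := hAE.trans hEV
  have h1 := S0599.result V A hV hAV hbest V le_rfl
  have h2 := le_replacement V A hV hAV hbest
  set B := A ⊓ centralizer ((⁅V, A⁆ : Subgroup G) : Set G) with hB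
  refine ⟨B, inf_le_left.trans hAE, ?_, ?_, hVA.trans h2⟩
  · intro hB1
    apply h1.2.2
    · intro h3
      apply hA1
      rw [eq_bot_iff, ← hf]
      refine le_inf hAE ?_
      rw [Subgroup.le_centralizer_iff]
      exact (Subgroup.commutator_eq_bot_iff_le_centralizer).1 h3
    · rw [hB1, Subgroup.commutator_bot_right]
  · rw [Subgroup.commutator_eq_bot_iff_le_centralizer, Subgroup.le_centralizer_iff]
    exact inf_le_right.trans (Subgroup.centralizer_le (SetLike.coe_subset_coe.2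
      (Subgroup.commutator_mono le_rfl inf_le_left)))

end Cfsg.Agent.H26.LimitOffender
end

-- part: S1935
section
set_option autoImplicit false
open Cfsg

namespace Cfsg.Agent.S1935

open Subgroup Cfsg.Agent.H26.Limit
open scoped commutatorElement

/-- Let p ≥ 5 be a prime and, inside an ambient finite group, let G be a p-subgroup acting faithfully by conjugation on an elementary abelian p-subgroup V that it normalizes (only the identity of G centralizes V). Suppose V is an F-module for G: some nontrivial elementary abelian subgroup E of G satisfies #E · #C_V(E) ≥ #V. Then G contains such an offender A that moreover acts quadratically on V ([V, A, A] = 1) and is normal in its normal closure in G. -/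
theorem result {Ω : Type*} [Group Ω] [Finite Ω] (p : ℕ) [Fact p.Prime] (hp : 5 ≤ p) (V G : Subgroup Ω) (hV : Cfsg.IsElementaryAbelian p V) (hG : IsPGroup p ↥G) (hGV : G ≤ Subgroup.normalizer (V : Set Ω)) (hfaith : G ⊓ Subgroup.centralizer (V : Set Ω) = ⊥) (hF : ∃ E : Subgroup Ω, E ≤ G ∧ E ≠ ⊥ ∧ Cfsg.IsElementaryAbelian p E ∧ Nat.card ↥V ≤ Nat.card ↥E * Nat.card ↥(V ⊓ Subgroup.centralizer (E : Set Ω))) : ∃ A : Subgroup Ω, A ≤ G ∧ A ≠ ⊥ ∧ Cfsg.IsElementaryAbelian p A ∧ Nat.card ↥V ≤ Nat.card ↥A * Nat.card ↥(V ⊓ Subgroup.centralizer (A : Set Ω)) ∧ ⁅⁅V, A⁆, A⁆ = ⊥ ∧ ∀ g ∈ Subgroup.closure {x : Ω | ∃ h ∈ G, ∃ a ∈ A, x = h * a * h⁻¹}, ∀ a ∈ A, g * a * g⁻¹ ∈ A := by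
  obtain ⟨W, _, _, e, ρ, he, hρ⟩ := exists_rep V G hV hGV
  have hW : Finite W := Finite.of_equiv V e.symm
  have hinj := rep_injective e ρ hρ hfaith
  have hnil : Group.IsNilpotent G := hG.isNilpotent
  have hcardmap : ∀ A : Subgroup G, Nat.card (A.map G.subtype) = Nat.card A := fun A =>
    (Nat.card_congr (A.equivMapOfInjective _ G.subtype_injective).toEquiv).symm
  have hne : (Off ρ (Nat.card V)).Nonempty := by
    obtain ⟨E, hEG, hE1, hE, hoff⟩ := hF
    obtain ⟨B, hBE, hB1, hBq, hBoff⟩ := Cfsg.Agent.H26.LimitOffender.exists_quadratic V E hV (hEG.trans hGV)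
      (by rw [eq_bot_iff, ← hfaith]; exact inf_le_inf_right _ hEG) hE hE1 hoff
    have hBG : B ≤ G := hBE.trans hEG
    have hmap : (B.subgroupOf G).map G.subtype = B := by
      rw [subgroupOf_map_subtype, inf_eq_left.2 hBG]
    refine ⟨B.subgroupOf G, ?_, ?_, ?_⟩
    · intro h
      apply hB1
      rw [← hmap, h, Subgroup.map_bot]
    · rw [quad_iff e ρ he hρ, hmap]
      exact hBq
    · rw [card_fx e ρ hρ, ← hcardmap, hmap]
      exact hBoff
  obtain ⟨A₀, ⟨hA1, hAq, hAoff⟩, hAn⟩ := linear_main hp ρ hinj (Nat.card V) hne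
  have hAO : A₀ ∈ Off ρ (Nat.card V) := ⟨hA1, hAq, hAoff⟩
  refine ⟨A₀.map G.subtype, map_subtype_le _, ?_, ?_, ?_, ?_, ?_⟩
  · intro h
    apply hA1
    exact (map_eq_bot_iff_of_injective _ G.subtype_injective).1 h
  · have hcomm : ∀ a ∈ A₀, ∀ b ∈ A₀, a * b = b * a := by
      intro a ha b hb
      apply hinj
      rw [map_mul, map_mul]
      have h1 := hAq a ha b hb
      have h2 := hAq b hb a ha
      linear_combination (norm := noncomm_ring) h1 - h2
    refine ⟨⟨⟨?_⟩⟩, ?_⟩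
    · rintro ⟨_, a, ha, rfl⟩ ⟨_, b, hb, rfl⟩
      apply Subtype.ext
      change (a : Ω) * b = b * a
      exact congrArg Subtype.val (hcomm a ha b hb)
    · rintro _ ⟨a, ha, rfl⟩
      have h1 : a ^ p = 1 := by
        apply hinj
        obtain ⟨m, hm⟩ : ∃ m, ρ a = 1 + m := ⟨ρ a - 1, by abel⟩
        have hmm : m * m = 0 := by
          have := hAq a ha a ha
          rwa [hm, add_sub_cancel_left] at this
        rw [map_pow_of hmm hm, map_one, ← Nat.cast_smul_eq_nsmul (ZMod p), CharP.cast_eq_zero, zero_smul,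
          add_zero]
      exact congrArg Subtype.val h1
  · rw [hcardmap, ← card_fx e ρ hρ]
    exact hAoff
  · rw [← quad_iff e ρ he hρ]
    exact hAq
  · intro g hg
    have hle : Subgroup.closure {x : Ω | ∃ h ∈ G, ∃ a ∈ A₀.map G.subtype, x = h * a * h⁻¹} ≤
        (normalizer (A₀ : Set G)).map G.subtype := by
      rw [closure_le]
      rintro _ ⟨h, hh, _, ⟨a, ha, rfl⟩, rfl⟩
      exact ⟨⟨h, hh⟩ * a * ⟨h, hh⟩⁻¹, hAn _ (Off.conj hAO ⟨h, hh⟩) ⟨a, ha, rfl⟩, rfl⟩
    obtain ⟨n, hn, rfl⟩ := hle hg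
    rintro _ ⟨a, ha, rfl⟩
    exact ⟨n * a * n⁻¹, (mem_normalizer_iff.1 hn a).1 ha, rfl⟩

end Cfsg.Agent.S1935
end
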