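import Cfsg.Statements.S1940
import Mathlib
set_option linter.all false

set_option autoImplicit false
open Cfsg

namespace Cfsg.Agent.S1940

/-- Averaging over the cosets of a Sylow subgroup. -/
theorem result {L : Type*} [Group L] [Finite L] {M : Type*} [CommGroup M] [Finite M] [MulDistribMulAction L M]
    {p : ℕ} [Fact p.Prime] (N : Subgroup M) (hN : ∀ (l : L) (m : M), m ∈ N → l • m ∈ N)
    (hquot : IsPGroup p (M ⧸ N)) (htriv : ∀ (l : L) (m : M), (l • m) * m⁻¹ ∈ N) (T : Sylow p L)
    (hT : ∀ m : M, ∃ n ∈ N, ∃ c : M, (∀ t ∈ (T : Subgroup L), t • c = c) ∧ m = n * c) :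
    ∀ m : M, ∃ n ∈ N, ∃ c : M, (∀ l : L, l • c = c) ∧ m = n * c := by
  classical
  intro m
  obtain ⟨n, hn, c, hc, rfl⟩ := hT m
  have : Fintype (L ⧸ (T : Subgroup L)) := Fintype.ofFinite _
  let f : L ⧸ (T : Subgroup L) → M := fun q => Quotient.liftOn' q (fun l => l • c) (by
    intro a b hab
    rw [QuotientGroup.leftRel_apply] at hab
    have h := hc _ hab
    change a • c = b • c
    rw [mul_smul, inv_smul_eq_iff] at h
    exact h.symm)
  have hf : ∀ l : L, f (l : L ⧸ (T : Subgroup L)) = l • c := fun l => rfl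
  have hfs : ∀ (l : L) (q : L ⧸ (T : Subgroup L)), l • f q = f (l • q) := by
    intro l q
    induction q using QuotientGroup.induction_on with
    | H a =>
      rw [hf, ← mul_smul]
      rfl
  set d : M := ∏ q, f q with hd
  have hdfix : ∀ l : L, l • d = d := by
    intro l
    rw [hd, Finset.smul_prod']
    simp_rw [hfs]
    exact Equiv.prod_comp (MulAction.toPerm l : Equiv.Perm (L ⧸ (T : Subgroup L))) f
  -- modulo `N`
  have hmod : (QuotientGroup.mk' N) d = (QuotientGroup.mk' N (n * c)) ^ (T : Subgroup L).index := by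
    rw [hd, map_prod]
    have : ∀ q ∈ Finset.univ, (QuotientGroup.mk' N) (f q) = QuotientGroup.mk' N (n * c) := by
      intro q _
      induction q using QuotientGroup.induction_on with
      | H a =>
        rw [hf]
        have h1 : (a • c) * c⁻¹ ∈ N := htriv a c
        change ((a • c : M) : M ⧸ N) = ((n * c : M) : M ⧸ N)
        rw [eq_comm, QuotientGroup.eq]
        have h2 : (n * c)⁻¹ * a • c = n⁻¹ * (a • c * c⁻¹) := by
          rw [mul_inv, mul_assoc, mul_comm c⁻¹]
        rw [h2]
        exact mul_mem (inv_mem hn) h1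
    rw [Finset.prod_congr rfl this, Finset.prod_const, Finset.card_univ, Subgroup.index_eq_card,
      Nat.card_eq_fintype_card]
  -- the exponent
  obtain ⟨e, he⟩ := hquot (QuotientGroup.mk' N (n * c))
  have hcop : Nat.Coprime (T : Subgroup L).index (p ^ e) := by
    have h1 : ¬ p ∣ (T : Subgroup L).index := T.not_dvd_index
    exact ((Nat.Prime.coprime_iff_not_dvd Fact.out).2 h1).symm.pow_right e
  obtain ⟨k, hk⟩ : ∃ k : ℕ, (QuotientGroup.mk' N (n * c)) ^ ((T : Subgroup L).index * k)
      = QuotientGroup.mk' N (n * c) := by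
    have hord : orderOf (QuotientGroup.mk' N (n * c)) ∣ p ^ e := orderOf_dvd_of_pow_eq_one he
    have hcop2 : Nat.Coprime (T : Subgroup L).index (orderOf (QuotientGroup.mk' N (n * c))) :=
      Nat.Coprime.coprime_dvd_right hord hcop
    obtain ⟨k, hk⟩ := exists_pow_eq_self_of_coprime hcop2
    exact ⟨k, by rw [pow_mul]; exact hk⟩
  refine ⟨(n * c) * (d ^ k)⁻¹, ?_, d ^ k, ?_, ?_⟩
  · rw [← QuotientGroup.eq_one_iff]
    change QuotientGroup.mk' N ((n * c) * (d ^ k)⁻¹) = 1
    rw [map_mul, map_inv, map_pow, hmod, ← pow_mul, hk, mul_inv_cancel]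
  · intro l
    rw [smul_pow', hdfix]
  · rw [inv_mul_cancel_right]

end Cfsg.Agent.S1940
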