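import Cfsg.Statements.S1945
import Cfsg.Agent.Lib.PSolvable
import Cfsg.Agent.H28.TraceSplit
import Cfsg.Agent.H28.WeakClosure
set_option linter.all false

set_option autoImplicit false
open Cfsg

namespace Cfsg.Agent.S1945

open Subgroup Cfsg.Agent.H28

/-- `Z(S) ≤ O_{p',p}(G)` for solvable `G` -/
theorem le_of_solvable {G : Type*} [Group G] [Finite G] {p : ℕ} [Fact p.Prime] (S : Sylow p G)
    (h : Group.IsSolvable G) :
    ((S : Subgroup G) ⊓ centralizer ((S : Subgroup G) : Set G)) ≤ Cfsg.pPrimePCore p G := by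
  have hNn : (pPrimeCore p G).Normal := Cfsg.Agent.Lib.Cores.pPrimeCore_normal p
  have h1 : Group.IsSolvable (G ⧸ pPrimeCore p G) := inferInstance
  have h2 := Cfsg.Agent.Lib.PSolvable.centralizer_pCore_le_of_pSolvable (G := G ⧸ pPrimeCore p G) p
    (Cfsg.Agent.Lib.PSolvable.IsPSolvable_of_solvable p) (Cfsg.Agent.Lib.Cores.pPrimeCore_quotient_pPrimeCore p)
  intro z hz
  have h3 : (QuotientGroup.mk' (pPrimeCore p G) z) ∈ centralizer (pCore p (G ⧸ pPrimeCore p G) : Set (G ⧸ pPrimeCore p G)) := by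
    rw [mem_centralizer_iff]
    intro o ho
    have hle : pCore p (G ⧸ pPrimeCore p G) ≤ (S : Subgroup G).map (QuotientGroup.mk' (pPrimeCore p G)) :=
      Cfsg.Agent.Lib.Cores.pCore_le_sylow (S.mapSurjective (QuotientGroup.mk'_surjective (pPrimeCore p G)))
    obtain ⟨s, hs, rfl⟩ := hle ho
    rw [← map_mul, ← map_mul, mem_centralizer_iff.1 hz.2 s hs]
  exact h2 h3

/-- Let S be a Sylow p-subgroup of the finite group G, and assume that p is odd or that G is solvable. The elements of S each of which is its only G-conjugate in S form a subgroup W of Z(S); W is then a direct factor of Z(S): there is a subgroup K of Z(S) with W ∩ K = 1 and WK = Z(S). (For p = 2 and G not solvable this can fail.) -/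
theorem result {G : Type*} [Group G] [Finite G] {p : ℕ} [Fact p.Prime] (S : Sylow p G) (h : p ≠ 2 ∨ Group.IsSolvable G) :
    ∃ W K : Subgroup G, (∀ x : G, x ∈ W ↔ (x ∈ (S : Subgroup G) ∧ ∀ g : G, g * x * g⁻¹ ∈ (S : Subgroup G) → g * x * g⁻¹ = x)) ∧
      K ≤ ((S : Subgroup G) ⊓ Subgroup.centralizer ((S : Subgroup G) : Set G)) ∧ W ⊓ K = ⊥ ∧ W ⊔ K = ((S : Subgroup G) ⊓ Subgroup.centralizer ((S : Subgroup G) : Set G)) := by
  rcases h with hp | hs
  swap
  · exact TraceSplit.splits S (le_of_solvable S hs)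
  -- the normalizer of `J(S)`
  obtain ⟨J, hJ⟩ : ∃ J, J = thompsonSubgroupAOf (S : Subgroup G) := ⟨_, rfl⟩
  have hSM : (S : Subgroup G) ≤ normalizer (J : Set G) := by
    rw [hJ]
    exact Subgroup.le_normalizer.trans
      (Cfsg.Agent.PLocal.ThompsonJA.normalizer_le_normalizer_thompsonSubgroupAOf _)
  have hJS : J ≤ (S : Subgroup G) := by
    rw [hJ]
    exact Cfsg.Agent.PLocal.ThompsonJA.thompsonSubgroupAOf_le _
  have hZJ : (S : Subgroup G) ⊓ centralizer ((S : Subgroup G) : Set G) ≤ J := by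
    rw [hJ]
    exact (Cfsg.Agent.PLocal.ThompsonJA.inf_centralizer_le_centerThompsonAOf _).trans
      (Cfsg.Agent.PLocal.ThompsonJA.centerThompsonAOf_le_thompsonSubgroupAOf _)
  obtain ⟨T, hT⟩ : ∃ T, T = S.subtype hSM := ⟨_, rfl⟩
  have hTc : (T : Subgroup ↥(normalizer (J : Set G))) = (S : Subgroup G).subgroupOf (normalizer (J : Set G)) := by
    rw [hT, Sylow.coe_subtype]
  -- `Z(T)`
  have hZT : ∀ z : ↥(normalizer (J : Set G)), z ∈ (T : Subgroup _) ⊓ centralizer ((T : Subgroup ↥(normalizer (J : Set G))) : Set ↥(normalizer (J : Set G))) ↔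
      (z : G) ∈ (S : Subgroup G) ⊓ centralizer ((S : Subgroup G) : Set G) := by
    intro z
    constructor
    · rintro ⟨h1, h2⟩
      rw [hTc] at h1
      refine ⟨mem_subgroupOf.1 h1, mem_centralizer_iff.2 fun s hs => ?_⟩
      have h3 : (⟨s, hSM hs⟩ : ↥(normalizer (J : Set G))) ∈ (T : Subgroup _) := by
        rw [hTc]; exact mem_subgroupOf.2 hs
      exact congrArg Subtype.val (mem_centralizer_iff.1 h2 _ h3)
    · rintro ⟨h1, h2⟩
      refine ⟨by rw [hTc]; exact mem_subgroupOf.2 h1, mem_centralizer_iff.2 fun s hs => ?_⟩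
      rw [hTc] at hs
      exact Subtype.ext (mem_centralizer_iff.1 h2 s (mem_subgroupOf.1 hs))
  have hZcore : (T : Subgroup _) ⊓ centralizer ((T : Subgroup ↥(normalizer (J : Set G))) : Set ↥(normalizer (J : Set G))) ≤
      pPrimePCore p ↥(normalizer (J : Set G)) := by
    have hNn : (pPrimeCore p ↥(normalizer (J : Set G))).Normal := Cfsg.Agent.Lib.Cores.pPrimeCore_normal p
    have h1 : (J.subgroupOf (normalizer (J : Set G))).Normal := by infer_instance
    have h2 : IsPGroup p ↥(J.subgroupOf (normalizer (J : Set G))) :=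
      (S.2.to_le hJS).comap_of_injective _ (Subgroup.subtype_injective _)
    have h3 : (J.subgroupOf (normalizer (J : Set G))).map (QuotientGroup.mk' (pPrimeCore p ↥(normalizer (J : Set G)))) ≤
        pCore p (↥(normalizer (J : Set G)) ⧸ pPrimeCore p ↥(normalizer (J : Set G))) := by
      refine Cfsg.Agent.Lib.Cores.le_pCore ?_ (h2.map _)
      exact h1.map _ (QuotientGroup.mk'_surjective _)
    intro z hz
    exact h3 ⟨z, mem_subgroupOf.2 (hZJ ((hZT z).1 hz)), rfl⟩
  obtain ⟨W, K, hW, hK, hWK, hWK'⟩ := TraceSplit.splits T hZcore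
  -- transport
  have hmapZ : ((T : Subgroup _) ⊓ centralizer ((T : Subgroup ↥(normalizer (J : Set G))) : Set ↥(normalizer (J : Set G)))).map
      (normalizer (J : Set G)).subtype = (S : Subgroup G) ⊓ centralizer ((S : Subgroup G) : Set G) := by
    ext z
    constructor
    · rintro ⟨y, hy, rfl⟩
      exact (hZT y).1 hy
    · intro hz
      exact ⟨⟨z, hSM hz.1⟩, (hZT ⟨z, hSM hz.1⟩).2 hz, rfl⟩
  refine ⟨W.map (normalizer (J : Set G)).subtype, K.map (normalizer (J : Set G)).subtype, ?_, ?_, ?_, ?_⟩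
  · intro x
    constructor
    · rintro ⟨y, hy, rfl⟩
      obtain ⟨h1, h2⟩ := (hW y).1 hy
      have hyS : (y : G) ∈ (S : Subgroup G) := by
        rw [hTc] at h1
        exact mem_subgroupOf.1 h1
      refine ⟨hyS, ?_⟩
      -- `y ∈ Z(S) ≤ J`
      have hyZ : (y : G) ∈ (S : Subgroup G) ⊓ centralizer ((S : Subgroup G) : Set G) := by
        rw [← hZT]
        refine ⟨h1, mem_centralizer_iff.2 fun s hs => ?_⟩
        have := h2 s (mul_mem (mul_mem hs h1) (inv_mem hs))
        rw [mul_inv_eq_iff_eq_mul] at this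
        exact this
      refine WeakClosure.weakly_closed hp S y hyS fun g hg => ?_
      rw [← hJ] at hg
      have h3 : g * y * g⁻¹ ∈ J := (mem_normalizer_iff.1 hg _).1 (hZJ hyZ)
      have h4 := h2 ⟨g, hg⟩ (by
        rw [hTc]
        exact mem_subgroupOf.2 (hJS h3))
      have h5 : g * (y : G) * g⁻¹ = y := congrArg Subtype.val h4
      rw [mul_inv_eq_iff_eq_mul] at h5
      exact h5
    · rintro ⟨h1, h2⟩
      refine ⟨⟨x, hSM h1⟩, (hW _).2 ⟨by rw [hTc]; exact mem_subgroupOf.2 h1, fun g hg => ?_⟩, rfl⟩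
      rw [hTc] at hg
      exact Subtype.ext (h2 g (mem_subgroupOf.1 hg))
  · rw [← hmapZ]
    exact Subgroup.map_mono hK
  · rw [← Subgroup.map_inf _ _ _ (Subgroup.subtype_injective _), hWK, Subgroup.map_bot]
  · rw [← Subgroup.map_sup, hWK', hmapZ]

end Cfsg.Agent.S1945
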