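import Mathlib
import Cfsg.Agent.H29.Hyper
import Cfsg.Agent.H29.AlperinSmall
import Cfsg.Agent.Lib.GoldControl
import Cfsg.Statements.S1946
set_option linter.all false

-- part: H29/SmallFusion
section
/-!
# Control of fusion of the small elements implies a normal `p`-complement (helper29)

`q = 4` for `p = 2` and `q = p` otherwise. `main`: if the Sylow `p`-subgroup `P` controls the fusion of
its elements `a` with `a ^ q = 1` then `G` has a normal `p`-complement.
-/

set_option autoImplicit false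

namespace Cfsg.Agent.H29.SmallFusion

open Cfsg AlperinSmall
open Cfsg.Agent.Transfer
open scoped commutatorElement

universe u

/-- `P` controls the fusion of its small elements. -/
def Fus (p : ℕ) {G : Type*} [Group G] (P : Subgroup G) : Prop :=
  ∀ a ∈ P, a ^ qq p = 1 → ∀ g : G, g * a * g⁻¹ ∈ P → ∃ x ∈ P, g * a * g⁻¹ = x * a * x⁻¹

/-- A central weakly closed element of the Sylow subgroup: its centralizer detects `p`-nilpotency. -/
theorem hasNormalPComplement_of_centralizer {X : Type*} [Group X] [Finite X] {p : ℕ}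
    [hp : Fact p.Prime] (S : Sylow p X) (a : X) (haS : a ∈ (S : Subgroup X))
    (hc : ∀ x ∈ (S : Subgroup X), a * x = x * a)
    (hw : ∀ b ∈ Subgroup.zpowers a, ∀ g : X, g * b * g⁻¹ ∈ (S : Subgroup X) → g * b * g⁻¹ = b)
    (hn : HasNormalPComplement p ↥(Subgroup.centralizer ({a} : Set X))) :
    HasNormalPComplement p X := by
  have hSC : (S : Subgroup X) ≤ Subgroup.centralizer ({a} : Set X) := by
    intro x hx
    rw [Subgroup.mem_centralizer_singleton_iff]
    exact (hc x hx).symm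
  have hA : Subgroup.zpowers a ≤ (S : Subgroup X) := by
    rw [Subgroup.zpowers_le]; exact haS
  apply FrobeniusFusion.hasNormalPComplement_of_controls_fusion S
  rintro x hx y hy ⟨g, hg⟩
  have hB : Subgroup.zpowers x ≤ (S : Subgroup X) := by
    rw [Subgroup.zpowers_le]; exact hx
  have hBg : (Subgroup.zpowers x).map (MulAut.conj g).toMonoidHom ≤ (S : Subgroup X) := by
    rw [MonoidHom.map_zpowers, Subgroup.zpowers_le]
    change g * x * g⁻¹ ∈ (S : Subgroup X)
    rw [hg]; exact hy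
  obtain ⟨n, hn1, c, hcc, rfl⟩ := Lib.GoldControl.control S hA
    (fun u hu v hv => by
      obtain ⟨i, rfl⟩ := Subgroup.mem_zpowers_iff.1 hu
      obtain ⟨j, rfl⟩ := Subgroup.mem_zpowers_iff.1 hv
      exact ((Commute.refl a).zpow_zpow i j).eq)
    (fun b hb g hbg => by rw [hw b hb g hbg]; exact hb) hB hBg
  have hcx : c * x * c⁻¹ = x := by
    have := Subgroup.mem_centralizer_iff.1 hcc x (Subgroup.mem_zpowers x)
    rw [← this, mul_inv_cancel_right]
  have hnx : n * x * n⁻¹ = y := by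
    rw [← hg]
    have : n * c * x * (n * c)⁻¹ = n * (c * x * c⁻¹) * n⁻¹ := by group
    rw [this, hcx]
  have hna : n * a * n⁻¹ = a := by
    have h1 : n * a * n⁻¹ ∈ Subgroup.zpowers a :=
      (Subgroup.mem_normalizer_iff.1 hn1 a).1 (Subgroup.mem_zpowers a)
    exact hw a (Subgroup.mem_zpowers a) n (hA h1)
  have hnC : n ∈ Subgroup.centralizer ({a} : Set X) := by
    rw [Subgroup.mem_centralizer_singleton_iff]
    rw [mul_inv_eq_iff_eq_mul] at hna
    exact hna
  have hloc := FrobeniusFusion.hasNormalPComplement_iff_localCondition.1 hn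
  obtain ⟨z, hz, hzx⟩ := FrobeniusFusion.controls_fusion hloc (S.subtype hSC)
    ⟨x, hSC hx⟩ hx ⟨y, hSC hy⟩ hy ⟨⟨n, hnC⟩, Subtype.ext hnx⟩
  exact ⟨z, hz, congrArg Subtype.val hzx⟩

/-- Normal hypercentral `p`-subgroups can be factored out. -/
theorem hasNormalPComplement_of_quotient {G : Type*} [Group G] [Finite G] {p : ℕ}
    [hp : Fact p.Prime] (Z : Subgroup G) [Z.Normal] (n : ℕ)
    (hZ : Z ≤ Subgroup.upperCentralSeries G n) (h : HasNormalPComplement p (G ⧸ Z)) :
    HasNormalPComplement p G := by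
  rw [FrobeniusFusion.hasNormalPComplement_iff_localCondition] at h ⊢
  intro D hD g hg hgp
  have h1 := h (D.map (QuotientGroup.mk' Z)) (hD.map _) (QuotientGroup.mk' Z g)
    (by
      rw [Subgroup.mem_normalizer_iff]
      have hgD : ∀ x ∈ D, g * x * g⁻¹ ∈ D := fun x hx => (Subgroup.mem_normalizer_iff.1 hg x).1 hx
      have hgD' : ∀ x ∈ D, g⁻¹ * x * g ∈ D := fun x hx => by
        have := (Subgroup.mem_normalizer_iff.1 (Subgroup.inv_mem _ hg) x).1 hx
        rwa [inv_inv] at this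
      intro y
      constructor
      · rintro ⟨x, hx, rfl⟩
        exact ⟨g * x * g⁻¹, hgD x hx, by simp⟩
      · rintro ⟨x, hx, hxy⟩
        refine ⟨g⁻¹ * x * g, hgD' x hx, ?_⟩
        rw [map_mul, map_mul, hxy, map_inv]
        group)
    (Nat.Coprime.coprime_dvd_left (orderOf_map_dvd _ g) hgp)
  rw [Subgroup.mem_centralizer_iff]
  intro x hx
  have h2 := Subgroup.mem_centralizer_iff.1 h1 (QuotientGroup.mk' Z x) ⟨x, hx, rfl⟩
  have h3 : ⁅x, g⁆ ∈ Z := by
    rw [← QuotientGroup.eq_one_iff]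
    have h4 : QuotientGroup.mk' Z ⁅x, g⁆ = ⁅QuotientGroup.mk' Z x, QuotientGroup.mk' Z g⁆ :=
      map_commutatorElement _ _ _
    exact h4.trans (commutatorElement_eq_one_iff_mul_comm.2 h2)
  have h5 : ⁅x, g⁆ ∈ D := by
    have h6 : g * x⁻¹ * g⁻¹ ∈ D := (Subgroup.mem_normalizer_iff.1 hg _).1 (D.inv_mem hx)
    have h7 : ⁅x, g⁆ = x * (g * x⁻¹ * g⁻¹) := by rw [commutatorElement_def]; group
    rw [h7]; exact D.mul_mem hx h6
  have h8 : Commute ⁅x, g⁆ g := Hyper.commute_of_upperCentralSeries hD hg hgp n h5 (hZ h3)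
  have hcop : (orderOf g).Coprime (Nat.card D) := by
    obtain ⟨k, hk⟩ := IsPGroup.iff_card.mp hD
    rw [hk]; exact hgp.pow_right k
  exact (Lib.CoprimeStab.commute_of_commutator_commute hcop h5 h8).eq

/-- **Lemma A.** -/
theorem lemmaA {G : Type u} [Group G] [Finite G] {p : ℕ} [hp : Fact p.Prime] (P : Sylow p G)
    (hF : Fus p (P : Subgroup G))
    (hnot : ¬ HasNormalPComplement p G)
    (IH : ∀ H : Subgroup G, (P : Subgroup G) ≤ H → H ≠ ⊤ → HasNormalPComplement p H)
    (Z : Subgroup G) [hZn : Z.Normal] (hZP : Z ≤ (P : Subgroup G)) (n : ℕ)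
    (hZ : Z ≤ Subgroup.upperCentralSeries G n) (a : G) (ha : a ∈ (P : Subgroup G))
    (haq : a ^ qq p = 1) (hac : ∀ x ∈ (P : Subgroup G), ⁅a, x⁆ ∈ Z) (g : G) : ⁅a, g⁆ ∈ Z := by
  set π := QuotientGroup.mk' Z with hπ
  have hsurj : Function.Surjective π := QuotientGroup.mk'_surjective Z
  have hcomm : ∀ u v : G, ⁅u, v⁆ ∈ Z ↔ π u * π v = π v * π u := by
    intro u v
    rw [← commutatorElement_eq_one_iff_mul_comm]
    have h4 : π ⁅u, v⁆ = ⁅π u, π v⁆ := map_commutatorElement _ _ _
    rw [← h4]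
    exact (QuotientGroup.eq_one_iff _).symm
  set H := (Subgroup.centralizer ({π a} : Set (G ⧸ Z))).comap π with hH
  have hmemH : ∀ g : G, g ∈ H ↔ ⁅a, g⁆ ∈ Z := by
    intro g
    rw [hH, Subgroup.mem_comap, Subgroup.mem_centralizer_singleton_iff, hcomm]
    exact eq_comm
  by_cases hHt : H = ⊤
  · rw [← hmemH, hHt]; trivial
  exfalso
  apply hnot
  have hPH : (P : Subgroup G) ≤ H := fun x hx => (hmemH x).2 (hac x hx)
  have h1 := IH H hPH hHt
  have h2 : HasNormalPComplement p ↥(Subgroup.centralizer ({π a} : Set (G ⧸ Z))) :=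
    NormalPComplement.of_surjective (π.subgroupComap _)
      (MonoidHom.subgroupComap_surjective_of_surjective _ _ hsurj) h1
  refine hasNormalPComplement_of_quotient Z n hZ ?_
  refine hasNormalPComplement_of_centralizer (P.mapSurjective hsurj) (π a) ⟨a, ha, rfl⟩ ?_ ?_ h2
  · rintro _ ⟨x, hx, rfl⟩
    exact (hcomm a x).1 (hac x hx)
  · intro b hb y hy
    obtain ⟨i, rfl⟩ := Subgroup.mem_zpowers_iff.1 hb
    obtain ⟨g, rfl⟩ := hsurj y
    have h3 : π (g * a ^ i * g⁻¹) = π g * π a ^ i * (π g)⁻¹ := by simp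
    rw [← h3] at hy ⊢
    obtain ⟨x, hx, hxy⟩ := hy
    have h4 : g * a ^ i * g⁻¹ ∈ (P : Subgroup G) := by
      have h5 : x⁻¹ * (g * a ^ i * g⁻¹) ∈ Z := by
        rw [← QuotientGroup.eq_one_iff]
        have : π (x⁻¹ * (g * a ^ i * g⁻¹)) = 1 := by
          rw [map_mul, map_inv, hxy, inv_mul_cancel]
        exact this
      have h6 : g * a ^ i * g⁻¹ = x * (x⁻¹ * (g * a ^ i * g⁻¹)) := by group
      rw [h6]
      exact (P : Subgroup G).mul_mem hx (hZP h5)
    obtain ⟨w, hw, hwe⟩ := hF (a ^ i) ((P : Subgroup G).zpow_mem ha i)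
      (by rw [← zpow_natCast, ← zpow_mul, mul_comm, zpow_mul, zpow_natCast, haq, one_zpow]) g h4
    have h7 := (hcomm a w).1 (hac w hw)
    have h8 : Commute (π w) (π a) := h7.symm
    rw [hwe, map_mul, map_mul, map_inv, map_zpow, (h8.zpow_right i).eq, mul_inv_cancel_right]

theorem main_step {G : Type u} [Group G] [Finite G] {p : ℕ} [hp : Fact p.Prime] (P : Sylow p G)
    (hF : Fus p (P : Subgroup G))
    (IH : ∀ H : Subgroup G, (P : Subgroup G) ≤ H → H ≠ ⊤ → HasNormalPComplement p H) :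
    HasNormalPComplement p G := by
  by_contra hnot
  set F : Set (Subgroup G) := {Z | Z.Normal ∧ Z ≤ (P : Subgroup G) ∧
    ∃ n, Z ≤ Subgroup.upperCentralSeries G n} with hFdef
  have hbot : (⊥ : Subgroup G) ∈ F := ⟨inferInstance, bot_le, 0, bot_le⟩
  obtain ⟨Z, -, ⟨⟨hZn, hZP, n, hZ⟩, hZmax⟩⟩ := (Set.toFinite F).exists_le_maximal hbot
  have hZp : IsPGroup p Z := P.2.to_le hZP
  -- Claim B
  have claimB : ∀ A : Subgroup ↥(P : Subgroup G), Good p A → A ≤ Z.subgroupOf (P : Subgroup G) := by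
    intro A hA
    by_contra hcon
    set Z' := Z.subgroupOf (P : Subgroup G) with hZ'
    have hZ'n : Z'.Normal := hZn.comap _
    have hq : IsPGroup p (↥(P : Subgroup G) ⧸ Z') := P.2.to_quotient Z'
    obtain ⟨hAn, -, hAq⟩ := hA
    have hAbn : (A.map (QuotientGroup.mk' Z')).Normal :=
      hAn.map _ (QuotientGroup.mk'_surjective Z')
    obtain ⟨z, hz, hzc, hzo⟩ := PGroupNormal.exists_mem_inf_center_orderOf hq
      (A.map (QuotientGroup.mk' Z')) (by
        intro h0
        apply hcon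
        intro x hx
        have : QuotientGroup.mk' Z' x ∈ A.map (QuotientGroup.mk' Z') := ⟨x, hx, rfl⟩
        rw [h0, Subgroup.mem_bot] at this
        exact (QuotientGroup.eq_one_iff x).1 this)
    obtain ⟨a, haA, haz⟩ := hz
    have haZ : (a : G) ∉ Z := by
      intro haZ
      have h1 : QuotientGroup.mk' Z' a = 1 := (QuotientGroup.eq_one_iff a).2 haZ
      rw [haz] at h1
      rw [h1, orderOf_one] at hzo
      exact hp.out.one_lt.ne hzo
    have haq : (a : G) ^ qq p = 1 := by
      have := hAq a haA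
      exact congrArg Subtype.val this
    have hac : ∀ x ∈ (P : Subgroup G), ⁅(a : G), x⁆ ∈ Z := by
      intro x hx
      have h1 := Subgroup.mem_center_iff.1 hzc (QuotientGroup.mk' Z' ⟨x, hx⟩)
      rw [← haz] at h1
      have h2 : QuotientGroup.mk' Z' ⁅a, ⟨x, hx⟩⁆ =
          ⁅QuotientGroup.mk' Z' a, QuotientGroup.mk' Z' ⟨x, hx⟩⁆ := map_commutatorElement _ _ _
      have h3 : ⁅QuotientGroup.mk' Z' a, QuotientGroup.mk' Z' ⟨x, hx⟩⁆ = 1 :=
        commutatorElement_eq_one_iff_mul_comm.2 h1.symm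
      have h4 : ⁅a, (⟨x, hx⟩ : ↥(P : Subgroup G))⁆ ∈ Z' :=
        (QuotientGroup.eq_one_iff _).1 (h2.trans h3)
      exact h4
    have hall := lemmaA P hF hnot IH Z hZP n hZ (a : G) a.2 haq hac
    set L := Z ⊔ Subgroup.zpowers (a : G) with hL
    have hLn : L.Normal := by
      constructor
      intro y hy g
      obtain ⟨z, hz, w, hw, rfl⟩ := Subgroup.mem_sup_of_normal_left.1 hy
      obtain ⟨i, rfl⟩ := Subgroup.mem_zpowers_iff.1 hw
      have h1 : g * (a : G) * g⁻¹ = ⁅(a : G), g⁆⁻¹ * a := by rw [commutatorElement_def]; group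
      have h2 : g * (a : G) * g⁻¹ ∈ L := by
        rw [h1]
        exact L.mul_mem (L.inv_mem (Subgroup.mem_sup_left (hall g)))
          (Subgroup.mem_sup_right (Subgroup.mem_zpowers _))
      have h3 : g * (z * (a : G) ^ i) * g⁻¹ = (g * z * g⁻¹) * (g * (a : G) * g⁻¹) ^ i := by
        rw [conj_zpow]; group
      rw [h3]
      exact L.mul_mem (Subgroup.mem_sup_left (hZn.conj_mem z hz g)) (L.zpow_mem h2 i)
    have hLF : L ∈ F := by
      refine ⟨hLn, sup_le hZP (by rw [Subgroup.zpowers_le]; exact a.2), n + 1, sup_le ?_ ?_⟩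
      · exact hZ.trans (Subgroup.upperCentralSeries_mono G (Nat.le_succ n))
      · rw [Subgroup.zpowers_le, Subgroup.mem_upperCentralSeries_succ_iff]
        intro g; exact hZ (hall g)
    have := hZmax hLF le_sup_left
    exact haZ (this (Subgroup.mem_sup_right (Subgroup.mem_zpowers _)))
  -- Alperin
  obtain ⟨A, -, hAmax⟩ := (Set.toFinite {A : Subgroup ↥(P : Subgroup G) | Good p A}).exists_le_maximal
    (good_bot p)
  have halp : ∀ x ∈ (P : Subgroup G), (∀ z ∈ Z, x * z = z * x) → x ^ qq p = 1 → x ∈ Z := by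
    intro x hx hxz hxq
    have h1 : (⟨x, hx⟩ : ↥(P : Subgroup G)) ∈ A := by
      refine mem_of_maximal P.2 A hAmax.1 ?_ _ ?_ ?_
      · intro B hB hAB
        exact le_antisymm (hAmax.2 hB hAB) hAB
      · intro a ha
        exact Subtype.ext (hxz a (claimB A hAmax.1 ha))
      · exact Subtype.ext hxq
    exact claimB A hAmax.1 h1
  set K := Subgroup.centralizer (Z : Set G) with hK
  have hKn : K.Normal := Subgroup.normal_centralizer
  have hxK : ∀ x ∈ K, (∃ k, x ^ p ^ k = 1) → x ^ qq p = 1 → x ∈ Z := by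
    intro x hxK hxp hxq
    have hzp : IsPGroup p (Subgroup.zpowers x) := by
      obtain ⟨k, hk⟩ := hxp
      rintro ⟨y, hy⟩
      obtain ⟨i, rfl⟩ := Subgroup.mem_zpowers_iff.1 hy
      refine ⟨k, Subtype.ext ?_⟩
      change (x ^ i) ^ p ^ k = 1
      rw [← zpow_natCast, ← zpow_mul, mul_comm, zpow_mul, zpow_natCast, hk, one_zpow]
    obtain ⟨R, hR⟩ := hzp.exists_le_sylow
    obtain ⟨h, hh⟩ := MulAction.exists_smul_eq G R P
    have h1 : h * x * h⁻¹ ∈ (P : Subgroup G) := by
      change h * x * h⁻¹ ∈ P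
      rw [← hh, FrobeniusFusion.mem_smul_sylow]
      have : h⁻¹ * (h * x * h⁻¹) * h = x := by group
      rw [this]
      exact hR (Subgroup.mem_zpowers x)
    have h2 : h * x * h⁻¹ ∈ K := hKn.conj_mem x hxK h
    have h3 : h * x * h⁻¹ ∈ Z := by
      refine halp _ h1 (fun z hz => (Subgroup.mem_centralizer_iff.1 h2 z hz).symm) ?_
      rw [conj_pow, hxq]; group
    have h4 := hZn.conj_mem _ h3 h⁻¹
    have h5 : h⁻¹ * (h * x * h⁻¹) * h⁻¹⁻¹ = x := by group
    rwa [h5] at h4
  -- the local condition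
  apply hnot
  rw [FrobeniusFusion.hasNormalPComplement_iff_localCondition]
  intro D hD g hg hgp
  have hgK : g ∈ K := by
    rw [hK, Subgroup.mem_centralizer_iff]
    intro z hz
    have hgZ : g ∈ Subgroup.normalizer (Z : Set G) := by
      rw [Subgroup.normalizer_eq_top_iff.2 hZn]; trivial
    exact (Hyper.commute_of_upperCentralSeries hZp hgZ hgp n hz (hZ hz)).eq
  have hD0 : IsPGroup p (D ⊓ K : Subgroup G) := hD.to_le inf_le_left
  have hgD0 : g ∈ Subgroup.normalizer ((D ⊓ K : Subgroup G) : Set G) := by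
    rw [Subgroup.mem_normalizer_iff] at hg ⊢
    intro y
    rw [Subgroup.mem_inf, Subgroup.mem_inf, ← hg y]
    refine and_congr_right fun _ => ⟨fun h => hKn.conj_mem y h g, fun h => ?_⟩
    have := hKn.conj_mem _ h g⁻¹
    have h5 : g⁻¹ * (g * y * g⁻¹) * g⁻¹⁻¹ = y := by group
    rwa [h5] at this
  have hcent : g ∈ Subgroup.centralizer ((D ⊓ K : Subgroup G) : Set G) := by
    refine Hyper.mem_centralizer_of_small hD0 hgD0 hgp ?_
    intro x hx hxs
    rw [AlperinSmall.small_iff] at hxs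
    have hxp : ∃ k, x ^ p ^ k = 1 := by
      obtain ⟨k, hk⟩ := hD0 ⟨x, hx⟩
      exact ⟨k, congrArg Subtype.val hk⟩
    have hxZ := hxK x hx.2 hxp hxs
    exact Hyper.commute_of_upperCentralSeries hD0 hgD0 hgp n hx (hZ hxZ)
  rw [Subgroup.mem_centralizer_iff]
  intro x hx
  have h5 : ⁅x, g⁆ ∈ D ⊓ K := by
    refine ⟨?_, ?_⟩
    · have h6 : g * x⁻¹ * g⁻¹ ∈ D := (Subgroup.mem_normalizer_iff.1 hg _).1 (D.inv_mem hx)
      have h7 : ⁅x, g⁆ = x * (g * x⁻¹ * g⁻¹) := by rw [commutatorElement_def]; group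
      rw [h7]; exact D.mul_mem hx h6
    · have h7 : ⁅x, g⁆ = (x * g * x⁻¹) * g⁻¹ := by rw [commutatorElement_def]
      rw [h7]; exact K.mul_mem (hKn.conj_mem g hgK x) (K.inv_mem hgK)
  have h8 : Commute ⁅x, g⁆ g := Subgroup.mem_centralizer_iff.1 hcent _ h5
  have hcop : (orderOf g).Coprime (Nat.card (D ⊓ K : Subgroup G)) := by
    obtain ⟨k, hk⟩ := IsPGroup.iff_card.mp hD0
    rw [hk]; exact hgp.pow_right k
  exact (Lib.CoprimeStab.commute_of_commutator_commute hcop h5 h8).eq

/-- **Control of fusion of small elements gives a normal `p`-complement.** -/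
theorem main {p : ℕ} [hp : Fact p.Prime] : ∀ (n : ℕ) (G : Type u) [Group G] [Finite G]
    (P : Sylow p G), Nat.card G = n → Fus p (P : Subgroup G) → HasNormalPComplement p G := by
  intro n
  induction n using Nat.strong_induction_on with
  | _ n ih =>
    intro G _ _ P hn hF
    refine main_step P hF fun H hPH hH => ?_
    refine ih (Nat.card H) ?_ H (P.subtype hPH) rfl ?_
    · rw [← hn]
      exact lt_of_le_of_ne (Subgroup.card_le_card_group H)
        fun h => hH (Subgroup.eq_top_of_card_eq H h)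
    · intro a ha haq g hg
      obtain ⟨x, hx, hxe⟩ := hF (a : G) ha (congrArg Subtype.val haq) (g : G) hg
      exact ⟨⟨x, hPH hx⟩, hx, Subtype.ext hxe⟩

end Cfsg.Agent.H29.SmallFusion
end

-- part: S1946
section
set_option autoImplicit false
open Cfsg

namespace Cfsg.Agent.S1946

open Cfsg.Agent.H29

/-- Let P be a Sylow p-subgroup of the finite group G. Then G has a normal p-complement if and only if P controls the fusion of its elements of order dividing p (dividing 4 when p = 2): whenever such an element a of P has a G-conjugate g a g⁻¹ in P, that conjugate is already x a x⁻¹ for some x in P. -/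
theorem result {G : Type*} [Group G] [Finite G] {p : ℕ} [Fact p.Prime] (P : Sylow p G) :
    Cfsg.HasNormalPComplement p G ↔
      ∀ a ∈ (P : Subgroup G), (a ^ p = 1 ∨ (p = 2 ∧ a ^ 4 = 1)) → ∀ g : G, g * a * g⁻¹ ∈ (P : Subgroup G) →
        ∃ x ∈ (P : Subgroup G), g * a * g⁻¹ = x * a * x⁻¹ := by
  constructor
  · intro h a ha _ g hg
    have hloc := Transfer.FrobeniusFusion.hasNormalPComplement_iff_localCondition.1 h
    obtain ⟨z, hz, hzx⟩ := Transfer.FrobeniusFusion.controls_fusion hloc P a ha _ hg ⟨g, rfl⟩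
    exact ⟨z, hz, hzx.symm⟩
  · intro h
    refine SmallFusion.main _ G P rfl fun a ha haq g hg => ?_
    exact h a ha ((AlperinSmall.small_iff a).2 haq) g hg

end Cfsg.Agent.S1946
end
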