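import Mathlib
import Cfsg.Prelude.Def_Transfer
import Cfsg.Prelude.Def_KGroupFacts
import Cfsg.Agent.H29.AlperinSmall
import Cfsg.Agent.H794.SmallFix
import Cfsg.Agent.Transfer.PGroupNormal
import Cfsg.Agent.Transfer.NormalPComplement
import Cfsg.Statements.S1949
set_option linter.all false

-- part: H29/DetectSmall
section
/-!
# A small class-two subgroup detecting `p'`-automorphisms (helper29)

`P` a finite `p`-group, `Inn P ≤ G ≤ Aut P`. A `G`-invariant `D ≤ [P, O^p(G)]`, of exponent dividing `p`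
(`4` for `p = 2`), with `[D, P] ≤ Z(D)`, such that `p'`-elements of `G` fixing `D` elementwise are trivial.
-/

set_option autoImplicit false

namespace Cfsg.Agent.H29.DetectSmall

open Cfsg AlperinSmall
open scoped commutatorElement

variable {P : Type*} [Group P]

/-- invariance under a group of automorphisms -/
def Inv (G : Subgroup (MulAut P)) (B : Subgroup P) : Prop := ∀ α ∈ G, ∀ x ∈ B, α x ∈ B

theorem conj_mem_of_inv {G : Subgroup (MulAut P)} (hG : Cfsg.Inn P ≤ G) {B : Subgroup P}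
    (hB : Inv G B) {x : P} (hx : x ∈ B) (g : P) : g * x * g⁻¹ ∈ B :=
  hB (MulAut.conj g) (hG ⟨g, rfl⟩) x hx

theorem normal_of_inv {G : Subgroup (MulAut P)} (hG : Cfsg.Inn P ≤ G) {B : Subgroup P}
    (hB : Inv G B) : B.Normal := ⟨fun _ hx g => conj_mem_of_inv hG hB hx g⟩

/-- `A` abelian of maximal order-type inside `D` contains every element of `D` centralizing it. -/
theorem mem_of_max_abelian {D A : Subgroup P} (hAD : A ≤ D)
    (hab : ∀ a ∈ A, ∀ b ∈ A, a * b = b * a)
    (hmax : ∀ B : Subgroup P, A ≤ B → B ≤ D → IsMulCommutative ↥B → B = A) {w : P} (hw : w ∈ D)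
    (hc : ∀ a ∈ A, a * w = w * a) : w ∈ A := by
  set B := Subgroup.closure ((A : Set P) ∪ {w}) with hB
  have hcomm : ∀ x ∈ (A : Set P) ∪ {w}, ∀ y ∈ (A : Set P) ∪ {w}, x * y = y * x := by
    rintro x (hx | hx) y (hy | hy)
    · exact hab x hx y hy
    · rw [Set.mem_singleton_iff] at hy; subst hy; exact hc x hx
    · rw [Set.mem_singleton_iff] at hx; subst hx; exact (hc y hy).symm
    · rw [Set.mem_singleton_iff] at hx hy; rw [hx, hy]
  have h1 : IsMulCommutative ↥B := Subgroup.isMulCommutative_closure hcomm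
  have h2 : A ≤ B := fun a ha => Subgroup.subset_closure (Or.inl ha)
  have h3 : B ≤ D := by
    rw [hB, Subgroup.closure_le]
    rintro x (hx | hx)
    · exact hAD hx
    · rw [Set.mem_singleton_iff] at hx; rw [hx]; exact hw
  rw [← hmax B h2 h3 h1]
  exact Subgroup.subset_closure (Or.inr rfl)

theorem main [Finite P] {p : ℕ} [hp : Fact p.Prime] (hP : IsPGroup p P)
    (G : Subgroup (MulAut P)) (hG : Cfsg.Inn P ≤ G) :
    ∃ D : Subgroup P,
      Inv G D ∧
      D ≤ Subgroup.closure {y : P | ∃ α ∈ Cfsg.pResidual p ↥G, ∃ x : P, y = x⁻¹ * (α : MulAut P) x} ∧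
      (∀ d ∈ D, d ^ qq p = 1) ∧
      (∀ d ∈ D, ∀ y : P, ⁅d, y⁆ ∈ D ∧ ∀ e ∈ D, ⁅d, y⁆ * e = e * ⁅d, y⁆) ∧
      (∀ α ∈ G, (orderOf α).Coprime p → (∀ d ∈ D, α d = d) → α = 1) := by
  set R := Subgroup.closure {y : P | ∃ α ∈ Cfsg.pResidual p ↥G, ∃ x : P, y = x⁻¹ * (α : MulAut P) x}
    with hR
  have hresn : (Cfsg.pResidual p ↥G).Normal := Transfer.NormalPComplement.pResidual_normal p ↥G
  have hRinv : Inv G R := by
    intro β hβ x hx
    have : R ≤ R.comap β.toMonoidHom := by
      conv_lhs => rw [hR]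
      rw [Subgroup.closure_le]
      rintro _ ⟨α, hα, x, rfl⟩
      set b : ↥G := ⟨β, hβ⟩ with hb
      have hmem : b * α * b⁻¹ ∈ Cfsg.pResidual p ↥G := hresn.conj_mem α hα b
      have h1 : ((b * α * b⁻¹ : ↥G) : MulAut P) (β x) = β ((α : MulAut P) x) := by
        rw [Subgroup.coe_mul, Subgroup.coe_mul, Subgroup.coe_inv, MulAut.mul_apply,
          MulAut.mul_apply, hb, MulAut.inv_apply_self]
      have h2 : (β.toMonoidHom (x⁻¹ * (α : MulAut P) x) : P) =
          (β x)⁻¹ * ((b * α * b⁻¹ : ↥G) : MulAut P) (β x) := by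
        rw [h1]
        change β (x⁻¹ * (α : MulAut P) x) = _
        rw [map_mul, map_inv]
      have h3 : β.toMonoidHom (x⁻¹ * (α : MulAut P) x) ∈ R := by
        rw [h2]
        exact Subgroup.subset_closure ⟨b * α * b⁻¹, hmem, β x, rfl⟩
      exact h3
    exact this hx
  -- maximal invariant abelian subgroup of `R`
  obtain ⟨A, -, ⟨⟨hAinv, hAR, hAab⟩, hAmax⟩⟩ := (Set.toFinite {A : Subgroup P | Inv G A ∧ A ≤ R ∧
    ∀ a ∈ A, ∀ b ∈ A, a * b = b * a}).exists_le_maximal (a := ⊥) (by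
      refine ⟨?_, bot_le, ?_⟩
      · intro α _ x hx
        rw [Subgroup.mem_bot] at hx ⊢
        rw [hx, map_one]
      · intro a ha b hb
        rw [Subgroup.mem_bot] at ha hb; rw [ha, hb])
  have hAn : A.Normal := normal_of_inv hG hAinv
  -- the subgroup `C`
  have hcomm_mul : ∀ x y z : P, ⁅x, z⁆ ∈ A → ⁅y, z⁆ ∈ A → ⁅x * y, z⁆ ∈ A := by
    intro x y z h1 h2
    have h3 : ⁅x * y, z⁆ = (x * ⁅y, z⁆ * x⁻¹) * ⁅x, z⁆ := by
      rw [commutatorElement_def, commutatorElement_def, commutatorElement_def]; group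
    rw [h3]
    exact A.mul_mem (hAn.conj_mem _ h2 x) h1
  have hpow : ∀ (x y : P), (∀ z, ⁅x, z⁆ ∈ A) → ∀ n : ℕ, (x ^ n * y ^ n)⁻¹ * (x * y) ^ n ∈ A := by
    intro x y hx n
    have key : QuotientGroup.mk' A ((x * y) ^ n) = QuotientGroup.mk' A (x ^ n * y ^ n) := by
      have h1 : Commute (QuotientGroup.mk' A x) (QuotientGroup.mk' A y) := by
        have h2 : QuotientGroup.mk' A ⁅x, y⁆ = ⁅QuotientGroup.mk' A x, QuotientGroup.mk' A y⁆ :=
          map_commutatorElement _ _ _
        have h3 : QuotientGroup.mk' A ⁅x, y⁆ = 1 := (QuotientGroup.eq_one_iff _).2 (hx y)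
        exact commutatorElement_eq_one_iff_mul_comm.1 (h2.symm.trans h3)
      rw [map_pow, map_mul, h1.mul_pow, map_mul, map_pow, map_pow]
    rw [← QuotientGroup.eq_one_iff]
    have : QuotientGroup.mk' A ((x ^ n * y ^ n)⁻¹ * (x * y) ^ n) = 1 := by
      rw [map_mul, map_inv, key, inv_mul_cancel]
    exact this
  let C : Subgroup P :=
    { carrier := {x | x ∈ R ∧ (∀ a ∈ A, a * x = x * a) ∧ (∀ y, ⁅x, y⁆ ∈ A) ∧ x ^ p ∈ A}
      one_mem' := by
        refine ⟨R.one_mem, fun a _ => by simp, fun y => ?_, by rw [one_pow]; exact A.one_mem⟩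
        rw [commutatorElement_one_left]; exact A.one_mem
      mul_mem' := by
        rintro x y ⟨hx1, hx2, hx3, hx4⟩ ⟨hy1, hy2, hy3, hy4⟩
        refine ⟨R.mul_mem hx1 hy1, fun a ha => ?_, fun z => hcomm_mul x y z (hx3 z) (hy3 z), ?_⟩
        · rw [← mul_assoc, hx2 a ha, mul_assoc, hy2 a ha, mul_assoc]
        · have h1 := hpow x y hx3 p
          have h2 := A.mul_mem (A.mul_mem hx4 hy4) h1
          rwa [mul_inv_cancel_left] at h2
      inv_mem' := by
        rintro x ⟨hx1, hx2, hx3, hx4⟩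
        refine ⟨R.inv_mem hx1, fun a ha => ?_, fun z => ?_, ?_⟩
        · have h1 : Commute a x := hx2 a ha
          exact h1.inv_right.eq
        · have h1 : ⁅x⁻¹, z⁆ = x⁻¹ * ⁅x, z⁆⁻¹ * x := by
            rw [commutatorElement_def, commutatorElement_def]; group
          rw [h1]
          have := hAn.conj_mem _ (A.inv_mem (hx3 z)) x⁻¹
          rwa [inv_inv] at this
        · rw [inv_pow]; exact A.inv_mem hx4 }
  have hC : ∀ x : P, x ∈ C ↔ x ∈ R ∧ (∀ a ∈ A, a * x = x * a) ∧ (∀ y, ⁅x, y⁆ ∈ A) ∧ x ^ p ∈ A :=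
    fun x => Iff.rfl
  have hAC : A ≤ C := by
    intro a ha
    rw [hC]
    refine ⟨hAR ha, fun b hb => hAab b hb a ha, fun y => ?_, A.pow_mem ha p⟩
    have h1 : ⁅a, y⁆ = a * (y * a⁻¹ * y⁻¹) := by rw [commutatorElement_def]; group
    rw [h1]
    exact A.mul_mem ha (hAn.conj_mem _ (A.inv_mem ha) y)
  have hCinv : Inv G C := by
    intro α hα x hx
    rw [hC] at hx ⊢
    obtain ⟨hx1, hx2, hx3, hx4⟩ := hx
    refine ⟨hRinv α hα x hx1, fun a ha => ?_, fun y => ?_, ?_⟩
    · have h1 := hx2 _ (hAinv α⁻¹ (G.inv_mem hα) a ha)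
      have h2 := congrArg α h1
      rw [map_mul, map_mul, MulAut.apply_inv_self] at h2
      exact h2
    · have h1 := hAinv α hα _ (hx3 (α⁻¹ y))
      rw [map_commutatorElement, MulAut.apply_inv_self] at h1
      exact h1
    · rw [← map_pow]; exact hAinv α hα _ hx4
  have hCn : C.Normal := normal_of_inv hG hCinv
  -- `Z(C) = A`
  have hZC : ∀ x ∈ C, (∀ c ∈ C, x * c = c * x) → x ∈ A := by
    let Z : Subgroup P :=
      { carrier := {x | x ∈ C ∧ ∀ c ∈ C, x * c = c * x}
        one_mem' := ⟨C.one_mem, fun c _ => by simp⟩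
        mul_mem' := by
          rintro x y ⟨hx, hx2⟩ ⟨hy, hy2⟩
          refine ⟨C.mul_mem hx hy, fun c hc => ?_⟩
          rw [mul_assoc, hy2 c hc, ← mul_assoc, hx2 c hc, mul_assoc]
        inv_mem' := by
          rintro x ⟨hx, hx2⟩
          refine ⟨C.inv_mem hx, fun c hc => ?_⟩
          have h1 : Commute x c := hx2 c hc
          exact h1.inv_left.eq }
    have hZ : ∀ x : P, x ∈ Z ↔ x ∈ C ∧ ∀ c ∈ C, x * c = c * x := fun x => Iff.rfl
    have hAZ : A ≤ Z := by
      intro a ha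
      rw [hZ]
      exact ⟨hAC ha, fun c hc => ((hC c).1 hc).2.1 a ha⟩
    have hZF : Z ≤ A := by
      refine hAmax ⟨?_, ?_, ?_⟩ hAZ
      · intro α hα x hx
        rw [hZ] at hx ⊢
        refine ⟨hCinv α hα x hx.1, fun c hc => ?_⟩
        have h1 := hx.2 _ (hCinv α⁻¹ (G.inv_mem hα) c hc)
        have h2 := congrArg α h1
        rw [map_mul, map_mul, MulAut.apply_inv_self] at h2
        exact h2
      · intro x hx; exact ((hC x).1 ((hZ x).1 hx).1).1
      · intro a ha b hb; exact ((hZ a).1 ha).2 b ((hZ b).1 hb).1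
    intro x hx hxc
    exact hZF ((hZ x).2 ⟨hx, hxc⟩)
  -- `C_R(C) = A`
  have hCRC : ∀ x ∈ R, (∀ c ∈ C, x * c = c * x) → x ∈ A := by
    let K : Subgroup P :=
      { carrier := {x | x ∈ R ∧ ∀ c ∈ C, x * c = c * x}
        one_mem' := ⟨R.one_mem, fun c _ => by simp⟩
        mul_mem' := by
          rintro x y ⟨hx, hx2⟩ ⟨hy, hy2⟩
          refine ⟨R.mul_mem hx hy, fun c hc => ?_⟩
          rw [mul_assoc, hy2 c hc, ← mul_assoc, hx2 c hc, mul_assoc]
        inv_mem' := by
          rintro x ⟨hx, hx2⟩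
          refine ⟨R.inv_mem hx, fun c hc => ?_⟩
          have h1 : Commute x c := hx2 c hc
          exact h1.inv_left.eq }
    have hK : ∀ x : P, x ∈ K ↔ x ∈ R ∧ ∀ c ∈ C, x * c = c * x := fun x => Iff.rfl
    have hKinv : Inv G K := by
      intro α hα x hx
      rw [hK] at hx ⊢
      refine ⟨hRinv α hα x hx.1, fun c hc => ?_⟩
      have h1 := hx.2 _ (hCinv α⁻¹ (G.inv_mem hα) c hc)
      have h2 := congrArg α h1
      rw [map_mul, map_mul, MulAut.apply_inv_self] at h2
      exact h2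
    have hKn : K.Normal := normal_of_inv hG hKinv
    by_contra hcon
    push Not at hcon
    obtain ⟨x, hxR, hxc, hxA⟩ := hcon
    have hq : IsPGroup p (P ⧸ A) := hP.to_quotient A
    have hKbn : (K.map (QuotientGroup.mk' A)).Normal :=
      hKn.map _ (QuotientGroup.mk'_surjective A)
    obtain ⟨z, ⟨l, hlK, hlz⟩, hzc, hzo⟩ := Transfer.PGroupNormal.exists_mem_inf_center_orderOf hq
      (K.map (QuotientGroup.mk' A)) (by
        intro h0
        apply hxA
        have : QuotientGroup.mk' A x ∈ K.map (QuotientGroup.mk' A) := ⟨x, ⟨hxR, hxc⟩, rfl⟩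
        rw [h0, Subgroup.mem_bot] at this
        exact (QuotientGroup.eq_one_iff x).1 this)
    have hlK' := (hK l).1 hlK
    have hlC : l ∈ C := by
      rw [hC]
      refine ⟨hlK'.1, fun a ha => (hlK'.2 a (hAC ha)).symm, fun y => ?_, ?_⟩
      · rw [← QuotientGroup.eq_one_iff]
        have h1 := Subgroup.mem_center_iff.1 hzc (QuotientGroup.mk' A y)
        rw [← hlz] at h1
        have h2 : QuotientGroup.mk' A ⁅l, y⁆ = ⁅QuotientGroup.mk' A l, QuotientGroup.mk' A y⁆ :=
          map_commutatorElement _ _ _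
        exact h2.trans (commutatorElement_eq_one_iff_mul_comm.2 h1.symm)
      · rw [← QuotientGroup.eq_one_iff]
        have h1 : QuotientGroup.mk' A (l ^ p) = 1 := by
          rw [map_pow, hlz, ← hzo, pow_orderOf_eq_one]
        exact h1
    have hlA : l ∈ A := hZC l hlC hlK'.2
    have h1 : QuotientGroup.mk' A l = 1 := (QuotientGroup.eq_one_iff l).2 hlA
    rw [hlz] at h1
    rw [h1, orderOf_one] at hzo
    exact hp.out.one_lt.ne hzo
  -- the subgroup `D`
  have hDmul : ∀ x ∈ C, ∀ y ∈ C, x ^ qq p = 1 → y ^ qq p = 1 → (x * y⁻¹) ^ qq p = 1 := by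
    intro x hx y hy hxq hyq
    have hx' := (hC x).1 hx
    have hy' := (hC y).1 hy
    have hc : ⁅x, y⁆ ∈ A := hx'.2.2.1 y
    exact pow_eq_one hp.out (hx'.2.1 _ hc) (hy'.2.1 _ hc) (hy'.2.1 _ hx'.2.2.2) hxq hyq
  let D : Subgroup P :=
    { carrier := {x | x ∈ C ∧ x ^ qq p = 1}
      one_mem' := ⟨C.one_mem, one_pow _⟩
      mul_mem' := by
        rintro x y ⟨hx, hxq⟩ ⟨hy, hyq⟩
        refine ⟨C.mul_mem hx hy, ?_⟩
        have := hDmul x hx y⁻¹ (C.inv_mem hy) hxq (by rw [inv_pow, hyq, inv_one])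
        rwa [inv_inv] at this
      inv_mem' := by
        rintro x ⟨hx, hxq⟩
        exact ⟨C.inv_mem hx, by rw [inv_pow, hxq, inv_one]⟩ }
  have hD : ∀ x : P, x ∈ D ↔ x ∈ C ∧ x ^ qq p = 1 := fun x => Iff.rfl
  have hDinv : Inv G D := by
    intro α hα x hx
    rw [hD] at hx ⊢
    exact ⟨hCinv α hα x hx.1, by rw [← map_pow, hx.2, map_one]⟩
  have hDn : D.Normal := normal_of_inv hG hDinv
  refine ⟨D, hDinv, fun x hx => ((hC x).1 ((hD x).1 hx).1).1, fun d hd => ((hD d).1 hd).2, ?_, ?_⟩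
  · intro d hd y
    have h1 : ⁅d, y⁆ = d * (y * d⁻¹ * y⁻¹) := by rw [commutatorElement_def]; group
    refine ⟨?_, fun e he => ?_⟩
    · rw [h1]; exact D.mul_mem hd (hDn.conj_mem _ (D.inv_mem hd) y)
    · exact ((hC e).1 ((hD e).1 he).1).2.1 _ (((hC d).1 ((hD d).1 hd).1).2.2.1 y)
  · intro α hα hαp hαD
    -- `α` fixes `C`
    have h1 : ∀ c ∈ C, α c = c := by
      obtain ⟨γ, hγe, hγd⟩ := H794.exists_restrict α C (hCinv α hα)
      have hγ1 : γ = 1 := by
        refine H794.mulAut_eq_one_of_fix_small (hP.to_subgroup C) γ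
          (Nat.Coprime.coprime_dvd_left hγd hαp) ?_
        intro x hx
        rw [AlperinSmall.small_iff] at hx
        apply Subtype.ext
        rw [hγe]
        exact hαD x ((hD x).2 ⟨x.2, congrArg Subtype.val hx⟩)
      intro c hc
      have := hγe ⟨c, hc⟩
      rw [hγ1] at this
      exact this.symm
    -- `α` fixes `R`
    have h2 : ∀ x ∈ R, α x = x := by
      intro x hx
      apply H794.fix_of_fix_div hP α hαp x
      have h3 : x⁻¹ * α x ∈ R := R.mul_mem (R.inv_mem hx) (hRinv α hα x hx)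
      have h4 : x⁻¹ * α x ∈ A := by
        refine hCRC _ h3 fun c hc => ?_
        have h5 : α (x * c * x⁻¹) = x * c * x⁻¹ := h1 _ (hCn.conj_mem c hc x)
        rw [map_mul, map_mul, map_inv, h1 c hc] at h5
        have h6 : α x * c = x * c * x⁻¹ * α x := by
          rw [← h5]; group
        calc x⁻¹ * α x * c = x⁻¹ * (α x * c) := by group
          _ = c * (x⁻¹ * α x) := by rw [h6]; group
      exact h1 _ (hAC h4)
    -- `α` is trivial
    apply MulEquiv.ext
    intro x
    apply H794.fix_of_fix_div hP α hαp x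
    apply h2
    refine Subgroup.subset_closure ⟨⟨α, hα⟩, ?_, x, rfl⟩
    apply Transfer.NormalPComplement.mem_pResidual_of_coprime
    rw [Subgroup.orderOf_mk]
    exact hαp

end Cfsg.Agent.H29.DetectSmall
end

-- part: S1949
section
set_option autoImplicit false
open Cfsg

namespace Cfsg.Agent.S1949

open Cfsg.Agent.H29
open scoped commutatorElement

/-- Let P be a finite p-group and G a group of automorphisms of P containing the inner automorphisms. Then there is a G-invariant subgroup D of P, contained in the subgroup generated by the elements x⁻¹α(x) with x in P and α in O^p(G), of exponent dividing p when p is odd and dividing 4 when p = 2, with [D, P] ≤ Z(D), such that every automorphism in G of order prime to p that fixes D elementwise is the identity; moreover every maximal abelian subgroup A of D is normal in P and every automorphism in G fixing A elementwise has p-power order. -/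
theorem result {P : Type*} [Group P] [Finite P] {p : ℕ} [Fact p.Prime] (hP : IsPGroup p P)
    (G : Subgroup (MulAut P)) (hG : Cfsg.Inn P ≤ G) :
    ∃ D : Subgroup P,
      (∀ α ∈ G, D.map α.toMonoidHom = D) ∧
      D ≤ Subgroup.closure {y : P | ∃ α ∈ Cfsg.pResidual p ↥G, ∃ x : P, y = x⁻¹ * (α : MulAut P) x} ∧
      (∀ d ∈ D, d ^ p = 1 ∨ (p = 2 ∧ d ^ 4 = 1)) ∧
      ⁅D, (⊤ : Subgroup P)⁆ ≤ D ⊓ Subgroup.centralizer (D : Set P) ∧
      (∀ α ∈ G, (orderOf α).Coprime p → (∀ d ∈ D, α d = d) → α = 1) ∧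
      ∀ A : Subgroup P, A ≤ D → IsMulCommutative ↥A →
        (∀ B : Subgroup P, A ≤ B → B ≤ D → IsMulCommutative ↥B → B = A) →
        A.Normal ∧ ∀ α ∈ G, (∀ a ∈ A, α a = a) → ∃ k : ℕ, orderOf α = p ^ k := by
  obtain ⟨D, hDinv, hDR, hDq, hDc, hD1⟩ := DetectSmall.main hP G hG
  have hDn : D.Normal := DetectSmall.normal_of_inv hG hDinv
  refine ⟨D, fun α hα => ?_, hDR, fun d hd => (AlperinSmall.small_iff d).2 (hDq d hd), ?_, hD1, ?_⟩
  · apply le_antisymm
    · rintro _ ⟨x, hx, rfl⟩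
      exact hDinv α hα x hx
    · intro x hx
      refine ⟨α⁻¹ x, hDinv α⁻¹ (G.inv_mem hα) x hx, ?_⟩
      exact MulAut.apply_inv_self P α x
  · rw [Subgroup.commutator_le]
    intro d hd y _
    refine Subgroup.mem_inf.2 ⟨(hDc d hd y).1, ?_⟩
    rw [Subgroup.mem_centralizer_iff]
    intro e he
    exact ((hDc d hd y).2 e he).symm
  · intro A hAD hAc hmax
    have hab : ∀ a ∈ A, ∀ b ∈ A, a * b = b * a := by
      intro a ha b hb
      have := hAc.is_comm.comm ⟨a, ha⟩ ⟨b, hb⟩
      exact congrArg Subtype.val this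
    have hmem : ∀ w ∈ D, (∀ a ∈ A, a * w = w * a) → w ∈ A := fun w hw hc =>
      DetectSmall.mem_of_max_abelian hAD hab hmax hw hc
    have hZ : ∀ d ∈ D, ∀ y : P, ⁅d, y⁆ ∈ A := fun d hd y =>
      hmem _ (hDc d hd y).1 fun a ha => ((hDc d hd y).2 a (hAD ha)).symm
    refine ⟨⟨fun a ha g => ?_⟩, ?_⟩
    · have h1 : g * a * g⁻¹ = ⁅a, g⁆⁻¹ * a := by rw [commutatorElement_def]; group
      rw [h1]
      exact A.mul_mem (A.inv_mem (hZ a (hAD ha) g)) ha
    · intro α hα hαA
      have hn : orderOf α ≠ 0 := (orderOf_pos α).ne'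
      set k := (orderOf α).factorization p with hk
      set β := α ^ p ^ k with hβ
      have hβo : (orderOf β).Coprime p :=
        Transfer.NormalPComplement.coprime_orderOf_pow_ordProj (isOfFinOrder_of_finite α)
      have hβG : β ∈ G := G.pow_mem hα _
      have hβA : ∀ a ∈ A, β a = a := by
        have hpow : ∀ n : ℕ, ∀ a ∈ A, (α ^ n) a = a := by
          intro n
          induction n with
          | zero => intro a _; rw [pow_zero]; rfl
          | succ n ih =>
            intro a ha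
            rw [pow_succ, MulAut.mul_apply, hαA a ha, ih a ha]
        exact hpow _
      have hβ1 : β = 1 := by
        refine hD1 β hβG hβo fun d hd => ?_
        apply Cfsg.Agent.H794.fix_of_fix_div hP β hβo d
        apply hβA
        have hwD : d⁻¹ * β d ∈ D := D.mul_mem (D.inv_mem hd) (hDinv β hβG d hd)
        refine hmem _ hwD fun a ha => ?_
        have h2 : d * a * d⁻¹ ∈ A := by
          have h3 : d * a * d⁻¹ = ⁅d, a⁆ * a := by rw [commutatorElement_def]; group
          rw [h3]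
          exact A.mul_mem (hZ d hd a) ha
        have h5 : β (d * a * d⁻¹) = d * a * d⁻¹ := hβA _ h2
        rw [map_mul, map_mul, map_inv, hβA a ha] at h5
        have h6 : β d * a = d * a * d⁻¹ * β d := by
          rw [← h5]; group
        calc a * (d⁻¹ * β d) = d⁻¹ * (d * a * d⁻¹ * β d) := by group
          _ = d⁻¹ * β d * a := by rw [← h6]; group
      have h7 : orderOf α ∣ p ^ k := orderOf_dvd_of_pow_eq_one hβ1
      obtain ⟨j, -, hj⟩ := (Nat.dvd_prime_pow (Fact.out : p.Prime)).1 h7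
      exact ⟨j, hj⟩

end Cfsg.Agent.S1949
end
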