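import Cfsg.Statements.S1951
import Cfsg.Agent.H30.OneClass
set_option linter.all false

set_option autoImplicit false
open Cfsg

namespace Cfsg.Agent.S1951

/-- Let p be a prime and P a nontrivial elementary abelian Sylow p-subgroup of a finite nonabelian simple group G whose nonidentity elements are all conjugate in G. Suppose that two elements of P are conjugate in G only if they are conjugate in N_G(P), that the centralizer of every element of order p of P has a normal p-complement, and that every two elements of order p of G generate a p-solvable subgroup. Then p = 2. -/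
theorem result {G : Type*} [Group G] [Finite G] [IsSimpleGroup G] (hG : ¬ IsMulCommutative G) {p : ℕ} [Fact p.Prime] (P : Sylow p G)
    (hP1 : (P : Subgroup G) ≠ ⊥) (hPe : Cfsg.IsElementaryAbelian p (P : Subgroup G))
    (hconj : ∀ x ∈ (P : Subgroup G), ∀ y ∈ (P : Subgroup G), x ≠ 1 → y ≠ 1 → ∃ g : G, g * x * g⁻¹ = y)
    (ha : ∀ x ∈ (P : Subgroup G), ∀ y ∈ (P : Subgroup G), (∃ g : G, g * x * g⁻¹ = y) →
      ∃ n ∈ Subgroup.normalizer ((P : Subgroup G) : Set G), n * x * n⁻¹ = y)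
    (hb : ∀ x ∈ (P : Subgroup G), orderOf x = p → Cfsg.HasNormalPComplement p ↥(Subgroup.centralizer ({x} : Set G)))
    (hc : ∀ x y : G, orderOf x = p → orderOf y = p → Cfsg.IsPSolvable p ↥(Subgroup.closure ({x, y} : Set G))) :
    p = 2 := by
  classical
  have hp : Fact p.Prime := ‹_›
  by_contra hp2
  -- every nonidentity `p`-element is conjugate into `P`
  have hconjP : ∀ x : G, (∃ k : ℕ, orderOf x = p ^ k) → ∃ g : G, g * x * g⁻¹ ∈ (P : Subgroup G) := by
    rintro x ⟨k, hk⟩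
    have h1 : IsPGroup p (Subgroup.zpowers x) := by
      refine IsPGroup.of_card (n := k) ?_
      rw [Nat.card_zpowers, hk]
    obtain ⟨R, hR⟩ := h1.exists_le_sylow
    obtain ⟨g, hg⟩ := MulAction.exists_smul_eq G R P
    refine ⟨g, ?_⟩
    rw [← hg, Sylow.coe_subgroup_smul]
    exact Subgroup.smul_mem_pointwise_smul x (MulAut.conj g) _ (hR (Subgroup.mem_zpowers x))
  obtain ⟨⟨x₀, hx₀P⟩, hx₀'⟩ := Subgroup.ne_bot_iff_exists_ne_one.1 hP1
  have hx₀1 : x₀ ≠ 1 := fun h => hx₀' (Subtype.ext h)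
  have hx₀ : orderOf x₀ = p := orderOf_eq_prime (hPe.2 x₀ hx₀P) hx₀1
  have hK : ∀ x : G, x ≠ 1 → (∃ k : ℕ, orderOf x = p ^ k) → IsConj x x₀ := by
    intro x hx1 hx
    obtain ⟨g, hg⟩ := hconjP x hx
    have h1 : g * x * g⁻¹ ≠ 1 := by
      intro h
      apply hx1
      have h2 := congrArg (fun z => g⁻¹ * z * g) h
      simpa [mul_assoc] using h2
    obtain ⟨c, hc⟩ := hconj _ hg x₀ hx₀P h1 hx₀1
    refine isConj_iff.2 ⟨c * g, ?_⟩
    rw [← hc]
    group
  have hab : ∀ Q : Subgroup G, IsPGroup p Q → IsMulCommutative Q := by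
    intro Q hQ
    obtain ⟨R, hR⟩ := hQ.exists_le_sylow
    obtain ⟨g, hg⟩ := MulAction.exists_smul_eq G R P
    refine ⟨⟨fun x y => ?_⟩⟩
    have hm : ∀ z : Q, g * (z : G) * g⁻¹ ∈ (P : Subgroup G) := by
      intro z
      rw [← hg, Sylow.coe_subgroup_smul]
      exact Subgroup.smul_mem_pointwise_smul (z : G) (MulAut.conj g) _ (hR z.2)
    have h1 := congrArg Subtype.val (hPe.1.is_comm.comm (⟨_, hm x⟩ : (P : Subgroup G)) ⟨_, hm y⟩)
    have h2 : g * (x : G) * g⁻¹ * (g * (y : G) * g⁻¹) = g * (y : G) * g⁻¹ * (g * (x : G) * g⁻¹) := h1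
    apply Subtype.ext
    have h3 := congrArg (fun z => g⁻¹ * z * g) h2
    simpa [mul_assoc] using h3
  refine Cfsg.Agent.H30.OneClass.contradiction P x₀ hx₀P hx₀ hK
    (Cfsg.Agent.H30.OneClass.index_pPrimeCore (hb x₀ hx₀P hx₀)) ?_
  intro w u hw hu
  exact Cfsg.Agent.H30.PairLocal.dvd_or_dvd hp2 hab hu hw (hc w u hw hu)

end Cfsg.Agent.S1951
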