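import Cfsg.Statements.S1956
set_option linter.all false
-- import your own Cfsg.Agent.* helpers here

set_option autoImplicit false
open Cfsg

namespace Cfsg.Agent.S1956

/-- Let P be a Sylow p-subgroup of the finite group G such that every element of P of order dividing p (dividing 4 when p = 2) is central in P. Then the fusion of these elements is controlled by N_G(P): if such an element a of P has g a g⁻¹ in P, then g = n c with n normalizing P and c commuting with a. -/
theorem result {G : Type*} [Group G] [Finite G] {p : ℕ} [Fact p.Prime] (P : Sylow p G)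
    (hcen : ∀ a ∈ (P : Subgroup G), (a ^ p = 1 ∨ (p = 2 ∧ a ^ 4 = 1)) → ∀ y ∈ (P : Subgroup G), a * y = y * a) :
    ∀ a ∈ (P : Subgroup G), (a ^ p = 1 ∨ (p = 2 ∧ a ^ 4 = 1)) → ∀ g : G, g * a * g⁻¹ ∈ (P : Subgroup G) →
      ∃ n ∈ Subgroup.normalizer ((P : Subgroup G) : Set G), ∃ c : G, c * a = a * c ∧ g = n * c := by
  intro a ha hapow g hga
  have hpow' : ((g * a * g⁻¹) ^ p = 1 ∨ (p = 2 ∧ (g * a * g⁻¹) ^ 4 = 1)) := by
    rcases hapow with h | ⟨h2, h⟩
    · left; rw [conj_pow, h]; group
    · right; exact ⟨h2, by rw [conj_pow, h]; group⟩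
  have h1 := hcen a ha hapow
  have h2 := hcen _ hga hpow'
  have hx : a ∈ Subgroup.centralizer (P : Set G) := by
    rw [Subgroup.mem_centralizer_iff]
    intro y hy
    exact (h1 y hy).symm
  have hy : (g⁻¹)⁻¹ * a * g⁻¹ ∈ Subgroup.centralizer (P : Set G) := by
    rw [Subgroup.mem_centralizer_iff, inv_inv]
    intro y hy
    exact (h2 y hy).symm
  obtain ⟨n, hn, hn2⟩ := P.conj_eq_normalizer_conj_of_mem_centralizer a g⁻¹ hx hy
  rw [inv_inv] at hn2
  refine ⟨n⁻¹, inv_mem hn, n * g, ?_, by group⟩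
  have h3 : n * (g * a * g⁻¹) * g = n * (n⁻¹ * a * n) * g := by rw [hn2]
  have e1 : n * (g * a * g⁻¹) * g = n * g * a := by group
  have e2 : n * (n⁻¹ * a * n) * g = a * (n * g) := by group
  rw [e1, e2] at h3
  exact h3

end Cfsg.Agent.S1956
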