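import Cfsg.Agent.H42.CentralFunctor
import Cfsg.Statements.S2002
set_option linter.all false

-- part: H42/CentralFusion
section
/-!
# Control of strong fusion by a conjugacy functor together with a central functor (S2002)
-/

set_option autoImplicit false

namespace Cfsg.Agent.H42.CentralFusion

open Subgroup Cfsg.Agent.Lib.GoldschmidtFusion Cfsg.Agent.H42.Tower Cfsg.Agent.H42.Chain
  Cfsg.Agent.H42.Control Cfsg.Agent.H42.CentralFunctor

variable {G : Type*} [Group G]

/-- Products of elements of `E` conjugating `X` step by step inside `S`. -/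
inductive SC (E S : Set G) : Set G → G → Prop
  | nil (X : Set G) (hX : X ⊆ S) : SC E S X 1
  | cons (X : Set G) (b g : G) (hX : X ⊆ S) (hb : b ∈ E)
      (h : SC E S ((fun x => b⁻¹ * x * b) '' X) g) : SC E S X (b * g)

theorem SC.sub {E S X : Set G} {g : G} (h : SC E S X g) : X ⊆ S := by
  cases h with
  | nil _ hX => exact hX
  | cons _ _ _ hX _ _ => exact hX

theorem SC.mono {E E' S S' X : Set G} {g : G} (h : SC E S X g) (hE : E ⊆ E') (hS : S ⊆ S') :
    ∀ X' : Set G, X' ⊆ X → SC E' S' X' g := by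
  induction h with
  | nil X hX => intro X' hX'; exact SC.nil _ (hX'.trans (hX.trans hS))
  | cons X b g hX hb h ih =>
    intro X' hX'
    exact SC.cons _ _ _ (hX'.trans (hX.trans hS)) (hE hb) (ih _ (Set.image_mono hX'))

theorem SC.trans {E S X : Set G} {g : G} (h : SC E S X g) :
    ∀ g' : G, SC E S ((fun x => g⁻¹ * x * g) '' X) g' → SC E S X (g * g') := by
  induction h with
  | nil X hX => intro g' h; rw [image_conj_one] at h; rw [one_mul]; exact h
  | cons X b g hX hb h ih =>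
    intro g' h'
    rw [mul_assoc]
    refine SC.cons _ _ _ hX hb (ih g' ?_)
    rw [image_conj_conj]
    exact h'

theorem SC.conj {E S X : Set G} {g : G} (h : SC E S X g) (n : G) :
    SC ((fun x => n * x * n⁻¹) '' E) ((fun x => n * x * n⁻¹) '' S) ((fun x => n * x * n⁻¹) '' X)
      (n * g * n⁻¹) := by
  induction h with
  | nil X hX =>
    have : n * 1 * n⁻¹ = 1 := by group
    rw [this]
    exact SC.nil _ (Set.image_mono hX)
  | cons X b g hX hb h ih =>
    have : n * (b * g) * n⁻¹ = (n * b * n⁻¹) * (n * g * n⁻¹) := by group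
    rw [this]
    refine SC.cons _ _ _ (Set.image_mono hX) ⟨b, hb, rfl⟩ ?_
    have h2 : (fun x => (n * b * n⁻¹)⁻¹ * x * (n * b * n⁻¹)) '' ((fun x => n * x * n⁻¹) '' X) =
        (fun x => n * x * n⁻¹) '' ((fun x => b⁻¹ * x * b) '' X) := by
      rw [Set.image_image, Set.image_image]
      apply Set.image_congr
      intro a _
      group
    rw [h2]
    exact ih

theorem SC.exists_fin {E S X : Set G} {g : G} (h : SC E S X g) :
    ∃ (n : ℕ) (b : Fin n → G), (∀ i, b i ∈ E) ∧ g = (List.ofFn b).prod ∧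
      ∀ k : ℕ, k ≤ n → (fun x => (((List.ofFn b).take k).prod)⁻¹ * x * ((List.ofFn b).take k).prod) '' X ⊆ S := by
  induction h with
  | nil X hX =>
    refine ⟨0, Fin.elim0, fun i => i.elim0, by simp, fun k _ => ?_⟩
    simpa using hX
  | cons X b g hX hb h ih =>
    obtain ⟨n, b', h1, h2, h3⟩ := ih
    refine ⟨n + 1, Fin.cons b b', ?_, ?_, ?_⟩
    · intro i
      refine Fin.cases ?_ ?_ i
      · exact hb
      · intro j; exact h1 j
    · rw [List.ofFn_succ, Fin.cons_zero, List.prod_cons]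
      simp only [Fin.cons_succ]
      rw [h2]
    · intro k hk
      cases k with
      | zero => simpa using hX
      | succ k =>
        have hlist : (List.ofFn (Fin.cons b b' : Fin (n + 1) → G)).take (k + 1) =
            b :: (List.ofFn b').take k := by
          rw [List.ofFn_succ, Fin.cons_zero, List.take_succ_cons]
          simp only [Fin.cons_succ]
        rw [hlist, List.prod_cons, ← image_conj_conj]
        exact h3 k (by omega)

theorem sc_of_fin {E S : Set G} : ∀ (n : ℕ) (X : Set G) (b : Fin n → G), (∀ i, b i ∈ E) →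
    (∀ k : ℕ, k ≤ n → (fun x => (((List.ofFn b).take k).prod)⁻¹ * x * ((List.ofFn b).take k).prod) '' X ⊆ S) →
    SC E S X (List.ofFn b).prod := by
  intro n
  induction n with
  | zero =>
    intro X b _ h
    rw [List.ofFn_zero, List.prod_nil]
    refine SC.nil _ ?_
    simpa using h 0 le_rfl
  | succ n ih =>
    intro X b hb h
    rw [List.ofFn_succ, List.prod_cons]
    refine SC.cons _ _ _ ?_ (hb 0) (ih _ _ (fun i => hb i.succ) ?_)
    · simpa using h 0 (Nat.zero_le _)
    · intro k hk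
      rw [image_conj_conj]
      have := h (k + 1) (by omega)
      have hl : ((List.ofFn b).take (k + 1)).prod =
          b 0 * ((List.ofFn fun i : Fin n => b i.succ).take k).prod := by
        rw [List.ofFn_succ, List.take_succ_cons, List.prod_cons]
      rw [hl] at this
      exact this

/-- `a = c b` with `c` centralizing `X` and `b` a stepwise product. -/
def Good (E S X : Set G) (a : G) : Prop :=
  ∃ c ∈ centralizer X, ∃ b, SC E S X b ∧ a = c * b

theorem conj_image_eq_of_centralizer {X : Set G} {c : G} (hc : c ∈ centralizer X) :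
    (fun x => c⁻¹ * x * c) '' X = X := by
  have : (fun x => c⁻¹ * x * c) '' X = (fun x => x) '' X := by
    apply Set.image_congr
    intro x hx
    have := mem_centralizer_iff.1 hc x hx
    rw [mul_assoc, this]; group
  rw [this, Set.image_id']

theorem Good.sub {E S X : Set G} {a : G} (h : Good E S X a) : X ⊆ S := by
  obtain ⟨_, _, _, h, _⟩ := h
  exact h.sub

theorem Good.mono {E E' S S' X : Set G} {a : G} (h : Good E S X a) (hE : E ⊆ E') (hS : S ⊆ S')
    {X' : Set G} (hX : X' ⊆ X) : Good E' S' X' a := by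
  obtain ⟨c, hc, b, hb, rfl⟩ := h
  exact ⟨c, centralizer_le hX hc, b, hb.mono hE hS X' hX, rfl⟩

theorem Good.image_eq {E S X : Set G} {c b : G} (hc : c ∈ centralizer X) :
    (fun x => (c * b)⁻¹ * x * (c * b)) '' X = (fun x => b⁻¹ * x * b) '' X := by
  rw [← image_conj_conj, conj_image_eq_of_centralizer hc]

theorem Good.trans {E S X : Set G} {a a' : G} (h : Good E S X a)
    (h' : Good E S ((fun x => a⁻¹ * x * a) '' X) a') : Good E S X (a * a') := by
  obtain ⟨c, hc, b, hb, rfl⟩ := h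
  rw [Good.image_eq (E := E) (S := S) hc] at h'
  obtain ⟨c', hc', b', hb', rfl⟩ := h'
  refine ⟨c * (b * c' * b⁻¹), mul_mem hc ?_, b * b', hb.trans _ ?_, by group⟩
  · rw [mem_centralizer_iff]
    intro x hx
    have h1 := mem_centralizer_iff.1 hc' (b⁻¹ * x * b) ⟨x, hx, rfl⟩
    have h2 : x * (b * c' * b⁻¹) = b * ((b⁻¹ * x * b) * c') * b⁻¹ := by group
    rw [h2, h1]; group
  · exact hb'

theorem Good.conj {E S X : Set G} {a : G} (h : Good E S X a) (n : G) :
    Good ((fun x => n * x * n⁻¹) '' E) ((fun x => n * x * n⁻¹) '' S) ((fun x => n * x * n⁻¹) '' X)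
      (n * a * n⁻¹) := by
  obtain ⟨c, hc, b, hb, rfl⟩ := h
  refine ⟨n * c * n⁻¹, ?_, n * b * n⁻¹, hb.conj n, by group⟩
  rw [mem_centralizer_iff]
  rintro _ ⟨x, hx, rfl⟩
  have h1 := mem_centralizer_iff.1 hc x hx
  have h2 : n * x * n⁻¹ * (n * c * n⁻¹) = n * (x * c) * n⁻¹ := by group
  simp only [h2, h1]
  group

theorem Good.of_steps {E E₀ S S₀ : Set G} (hS : S ⊆ S₀)
    (hst : ∀ (X : Set G) (b : G), X ⊆ S → (fun x => b⁻¹ * x * b) '' X ⊆ S → b ∈ E → Good E₀ S₀ X b)
    {X : Set G} {g : G} (h : SC E S X g) : Good E₀ S₀ X g := by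
  induction h with
  | nil X hX => exact ⟨1, one_mem _, 1, SC.nil _ (hX.trans hS), by simp⟩
  | cons X b g hX hb h ih => exact (hst X b hX h.sub hb).trans ih

theorem Good.of_centralizer {E S X : Set G} {c : G} (hX : X ⊆ S) (hc : c ∈ centralizer X) :
    Good E S X c := ⟨c, hc, 1, SC.nil _ hX, by simp⟩

theorem Good.single {E S X : Set G} {b : G} (hX : X ⊆ S) (hX' : (fun x => b⁻¹ * x * b) '' X ⊆ S)
    (hb : b ∈ E) : Good E S X b := by
  refine ⟨1, one_mem _, b, ?_, by simp⟩
  have := SC.cons X b 1 hX hb (SC.nil _ hX')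
  rwa [mul_one] at this

variable [Finite G] {p : ℕ} [hp : Fact p.Prime] {W V : Subgroup G → Subgroup G}

omit [Finite G] in
theorem image_conj_coe (A : Subgroup G) (n : G) :
    (fun x => n * x * n⁻¹) '' (A : Set G) = (A.map (MulAut.conj n).toMonoidHom : Subgroup G) := rfl

/-- The steps allowed in `L` for the Sylow `p`-subgroup `Q`. -/
def Steps (W V : Subgroup G → Subgroup G) (L Q : Subgroup G) : Set G :=
  {b | b ∈ L ⊓ normalizer ((W Q : Subgroup G) : Set G) ∨ b ∈ L ⊓ centralizer ((V Q : Subgroup G) : Set G)}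

theorem fusion_tower2 (P : Sylow p G) (hdiv : p ∣ Nat.card G)
    (hW : IsConjugacyFunctor p W) (hV : IsConjugacyFunctor p V)
    (hWZ : ∀ H : Subgroup G, IsPGroup p ↥H → H ⊓ centralizer ((H : Subgroup G) : Set G) ≤ W H)
    (hVmono : ∀ H K : Subgroup G, IsPGroup p ↥H → IsPGroup p ↥K → H ≠ ⊥ → K ≠ ⊥ →
      H ⊓ centralizer ((H : Subgroup G) : Set G) ≤ K ⊓ centralizer ((K : Subgroup G) : Set G) → V H ≤ V K)
    (hloc : ∀ H : Subgroup G, (P : Subgroup G) ⊓ centralizer (((P : Subgroup G) : Subgroup G) : Set G) ≤ H →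
      H ≤ (P : Subgroup G) → ∃ Q : Subgroup G, Q ≤ normalizer ((H : Subgroup G) : Set G) ∧ IsPGroup p ↥Q ∧
      ¬ p ∣ (Q).relIndex (normalizer ((H : Subgroup G) : Set G)) ∧
      ∀ (X : Set G) (a : G), X ⊆ Q → a ∈ normalizer ((H : Subgroup G) : Set G) →
        (fun x => a⁻¹ * x * a) '' X ⊆ Q →
        Good (Steps W V (normalizer ((H : Subgroup G) : Set G)) Q) (Q : Set G) X a) :
    ∀ (n : ℕ) (T : Subgroup G), IsWellPlaced p W (P : Subgroup G) T →
      (P : Subgroup G) ⊓ centralizer ((P : Subgroup G) : Set G) ≤ T →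
      Nat.card G - Nat.card ↥((P : Subgroup G) ⊓ normalizer (T : Set G)) ≤ n →
      ∀ (X : Set G) (a : G), X ⊆ ((P : Subgroup G) ⊓ normalizer (T : Set G) : Subgroup G) →
        a ∈ normalizer (T : Set G) →
        (fun x => a⁻¹ * x * a) '' X ⊆ ((P : Subgroup G) ⊓ normalizer (T : Set G) : Subgroup G) →
        Good (Steps W V ⊤ (P : Subgroup G)) ((P : Subgroup G) : Set G) X a := by
  have hP : IsPGroup p (P : Subgroup G) := P.isPGroup'
  -- the local condition for `N_P(T)`
  have hloc' : ∀ T : Subgroup G, IsWellPlaced p W (P : Subgroup G) T →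
      (P : Subgroup G) ⊓ centralizer ((P : Subgroup G) : Set G) ≤ T →
      ∀ (X : Set G) (a : G), X ⊆ ((P : Subgroup G) ⊓ normalizer (T : Set G) : Subgroup G) →
        a ∈ normalizer (T : Set G) →
        (fun x => a⁻¹ * x * a) '' X ⊆ ((P : Subgroup G) ⊓ normalizer (T : Set G) : Subgroup G) →
        Good (Steps W V (normalizer (T : Set G)) ((P : Subgroup G) ⊓ normalizer (T : Set G)))
          (((P : Subgroup G) ⊓ normalizer (T : Set G) : Subgroup G) : Set G) X a := by
    intro T hTw hZT X a hX ha hXa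
    obtain ⟨Q, hQN, hQ, hQi, hQx⟩ := hloc T hZT hTw.1
    set N := normalizer (T : Set G) with hN
    obtain ⟨n, hn, hnQ⟩ := exists_conj_sylow_in hQN (inf_le_right : (P : Subgroup G) ⊓ N ≤ N) hQ
      (hP.to_le inf_le_left) hQi (hTw.2 0)
    set R := (P : Subgroup G) ⊓ N with hR
    have h0 : ∀ x : G, x ∈ R → n⁻¹ * x * n ∈ Q := by
      intro x hx
      rw [← hnQ, mem_map_conj] at hx
      exact hx
    have h1 := hQx ((fun x => n⁻¹ * x * n) '' X) (n⁻¹ * a * n) (by
      rintro _ ⟨x, hx, rfl⟩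
      exact h0 x (hX hx)) (mul_mem (mul_mem (inv_mem hn) ha) hn) (by
      rintro _ ⟨_, ⟨x, hx, rfl⟩, rfl⟩
      have h2 := h0 _ (hXa ⟨x, hx, rfl⟩)
      have h3 : (n⁻¹ * a * n)⁻¹ * (n⁻¹ * x * n) * (n⁻¹ * a * n) = n⁻¹ * (a⁻¹ * x * a) * n := by group
      simp only [h3]
      exact h2)
    have h2 := h1.conj n
    have h3 : (fun x => n * x * n⁻¹) '' ((fun x => n⁻¹ * x * n) '' X) = X := by
      rw [Set.image_image]
      have : (fun x => n * (n⁻¹ * x * n) * n⁻¹) = fun x : G => x := by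
        funext x; group
      rw [this, Set.image_id']
    have h4 : n * (n⁻¹ * a * n) * n⁻¹ = a := by group
    rw [h3, h4, image_conj_coe, hnQ] at h2
    refine h2.mono ?_ le_rfl le_rfl
    rintro _ ⟨b, hb, rfl⟩
    rcases hb with hb | hb
    · left
      have h5 := conj_mem_map_conj hb n
      rw [Subgroup.map_inf _ _ (MulAut.conj n).toMonoidHom (MulAut.conj n).injective,
        map_conj_eq_of_mem hn, map_conj_normalizer, ← W_conj hW hQ, hnQ] at h5
      exact h5
    · right
      have h5 := conj_mem_map_conj hb n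
      rw [Subgroup.map_inf _ _ (MulAut.conj n).toMonoidHom (MulAut.conj n).injective,
        map_conj_eq_of_mem hn, map_conj_centralizer, ← W_conj hV hQ, hnQ] at h5
      exact h5
  intro n
  induction n with
  | zero =>
    intro T hTw hZT hn X a hX ha hXa
    have h1 : (P : Subgroup G) ⊓ normalizer (T : Set G) = ⊤ := by
      rw [← Subgroup.card_eq_iff_eq_top]
      have := Subgroup.card_le_card_group ((P : Subgroup G) ⊓ normalizer (T : Set G))
      omega
    have h2 : (P : Subgroup G) ⊓ normalizer (T : Set G) = (P : Subgroup G) := by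
      rw [h1]; exact (top_le_iff.1 (h1 ▸ inf_le_left)).symm
    have h3 := hloc' T hTw hZT X a hX ha hXa
    rw [h2] at h3
    refine h3.mono ?_ le_rfl le_rfl
    rintro b (hb | hb)
    · exact Or.inl ⟨mem_top b, hb.2⟩
    · exact Or.inr ⟨mem_top b, hb.2⟩
  | succ n ih =>
    intro T hTw hZT hn X a hX ha hXa
    have h3 := hloc' T hTw hZT X a hX ha hXa
    set R := (P : Subgroup G) ⊓ normalizer (T : Set G) with hR
    have hRp : IsPGroup p R := hP.to_le inf_le_left
    have hZR : (P : Subgroup G) ⊓ centralizer ((P : Subgroup G) : Set G) ≤ R :=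
      le_inf inf_le_left (hZT.trans le_normalizer)
    by_cases hRP : R = (P : Subgroup G)
    · rw [hRP] at h3
      refine h3.mono ?_ le_rfl le_rfl
      rintro b (hb | hb)
      · exact Or.inl ⟨mem_top b, hb.2⟩
      · exact Or.inr ⟨mem_top b, hb.2⟩
    · have hlt := lt_succ (p := p) hW hP hRP
      have hcard : Nat.card R < Nat.card ↥((P : Subgroup G) ⊓ normalizer ((W R : Subgroup G) : Set G)) := by
        refine lt_of_le_of_ne (Subgroup.card_le_of_le hlt.le) ?_
        intro heq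
        exact hlt.ne (Subgroup.eq_of_le_of_card_ge hlt.le heq.ge)
      have h1 := ih (W R) (wellPlaced_succ hW hP hTw)
        ((center_le P inf_le_left hZR).trans (hWZ R hRp)) (by
        have := Subgroup.card_le_card_group ((P : Subgroup G) ⊓ normalizer ((W R : Subgroup G) : Set G))
        omega)
      obtain ⟨c, hc, b, hb, rfl⟩ := h3
      have hRP' : (R : Set G) ⊆ ((P : Subgroup G) : Set G) := fun x hx => (inf_le_left : R ≤ _) hx
      refine (Good.of_centralizer (hX.trans hRP') hc).trans ?_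
      rw [conj_image_eq_of_centralizer hc]
      refine Good.of_steps (E := Steps W V (normalizer (T : Set G)) R) (S := (R : Set G)) hRP' ?_ hb
      intro Y d hY hYd hd
      rcases hd with hd | hd
      · exact h1 Y d (fun y hy => hlt.le (hY hy)) hd.2 (fun y hy => hlt.le (hYd hy))
      · refine Good.single (hY.trans hRP') (hYd.trans hRP') (Or.inr ⟨mem_top d, ?_⟩)
        exact centralizer_V_le P hdiv hVmono (inf_le_left : R ≤ (P : Subgroup G)) hZR hd.2

/-- **S2002**. -/
theorem fusion_main (P : Sylow p G) (hdiv : p ∣ Nat.card G)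
    (hW : IsConjugacyFunctor p W) (hV : IsConjugacyFunctor p V)
    (hWZ : ∀ H : Subgroup G, IsPGroup p ↥H → H ⊓ centralizer ((H : Subgroup G) : Set G) ≤ W H)
    (hVmono : ∀ H K : Subgroup G, IsPGroup p ↥H → IsPGroup p ↥K → H ≠ ⊥ → K ≠ ⊥ →
      H ⊓ centralizer ((H : Subgroup G) : Set G) ≤ K ⊓ centralizer ((K : Subgroup G) : Set G) → V H ≤ V K)
    (hloc : ∀ H : Subgroup G, (P : Subgroup G) ⊓ centralizer (((P : Subgroup G) : Subgroup G) : Set G) ≤ H →
      H ≤ (P : Subgroup G) → ∃ Q : Subgroup G, Q ≤ normalizer ((H : Subgroup G) : Set G) ∧ IsPGroup p ↥Q ∧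
      ¬ p ∣ (Q).relIndex (normalizer ((H : Subgroup G) : Set G)) ∧
      ∀ (X : Set G) (a : G), X ⊆ Q → a ∈ normalizer ((H : Subgroup G) : Set G) →
        (fun x => a⁻¹ * x * a) '' X ⊆ Q →
        Good (Steps W V (normalizer ((H : Subgroup G) : Set G)) Q) (Q : Set G) X a)
    (X : Set G) (a : G) (hX : X ⊆ ((P : Subgroup G) : Set G))
    (hXa : (fun x => a⁻¹ * x * a) '' X ⊆ ((P : Subgroup G) : Set G)) :
    Good (Steps W V ⊤ (P : Subgroup G)) ((P : Subgroup G) : Set G) X a := by
  have key : ∀ (A : Subgroup G) (g : G), Gen (P : Subgroup G) (fun X => IsWellPlaced p W (P : Subgroup G) X ∧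
      (P : Subgroup G) ⊓ centralizer ((P : Subgroup G) : Set G) ≤ X) A g → ∀ X : Set G, X ⊆ A →
      Good (Steps W V ⊤ (P : Subgroup G)) ((P : Subgroup G) : Set G) X g⁻¹ := by
    intro A g h
    induction h with
    | @cent A c hA hc =>
      intro X hX
      exact Good.of_centralizer (fun x hx => hA (hX hx)) (inv_mem (centralizer_le hX hc))
    | @base A T g hT hF hAT hg =>
      intro X hX
      have hXT : ∀ x ∈ X, x ∈ T := fun x hx => hAT (hX hx)
      refine fusion_tower2 P hdiv hW hV hWZ hVmono hloc _ T hF.1 hF.2 le_rfl X g⁻¹ ?_ (inv_mem hg) ?_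
      · intro x hx
        exact ⟨hT (hXT x hx), le_normalizer (hXT x hx)⟩
      · rintro _ ⟨x, hx, rfl⟩
        have h1 := (mem_normalizer_iff.1 hg x).1 (hXT x hx)
        have h2 : g⁻¹⁻¹ * x * g⁻¹ = g * x * g⁻¹ := by group
        simp only [h2]
        exact ⟨hT h1, le_normalizer h1⟩
    | @mul A g h _ _ ih1 ih2 =>
      intro X hX
      rw [mul_inv_rev]
      refine (ih1 X hX).trans (ih2 _ ?_)
      rintro _ ⟨x, hx, rfl⟩
      have h2 : g⁻¹⁻¹ * x * g⁻¹ = g * x * g⁻¹ := by group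
      simp only [h2]
      exact conj_mem_map_conj (hX hx) g
  have h1 := gen_wellPlaced P hW (A := Subgroup.closure X) (g := a⁻¹) ((Subgroup.closure_le _).2 hX) (by
    rw [MonoidHom.map_closure, Subgroup.closure_le]
    rintro _ ⟨x, hx, rfl⟩
    have := hXa ⟨x, hx, rfl⟩
    simpa using this)
  have h2 := key _ _ h1 X Subgroup.subset_closure
  rwa [inv_inv] at h2

end Cfsg.Agent.H42.CentralFusion
end

-- part: S2002
section
set_option autoImplicit false
open Cfsg

namespace Cfsg.Agent.S2002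

/-- Let p be a prime dividing the order of the finite group G, P a Sylow p-subgroup, W a conjugacy functor for p on G with Z(H) ≤ W(H) for every nontrivial p-subgroup H, and V a central functor (a conjugacy functor with V(H) ≤ Z(H), and V(H) ≤ V(K) whenever Z(H) ≤ Z(K)). Say that W with V controls strong fusion in a subgroup L when some Sylow p-subgroup Q of L has the property: whenever X ⊆ Q and a ∈ L with a⁻¹Xa ⊆ Q, then a = c b with c ∈ C_L(X) and b = b₁ ⋯ bₙ a product of elements each in N_L(W(Q)) or in C_L(V(Q)) such that every partial conjugate (b₁ ⋯ bₖ)⁻¹ X (b₁ ⋯ bₖ) lies in Q. If W with V controls strong fusion in N_G(H) for every subgroup H with Z(P) ≤ H ≤ P, then W with V controls strong fusion in G. -/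
theorem result {G : Type*} [Group G] [Finite G] {p : ℕ} [Fact p.Prime] (hdiv : p ∣ Nat.card G) (P : Sylow p G) (W V : Subgroup G → Subgroup G) (hW : Cfsg.IsConjugacyFunctor p W) (hV : Cfsg.IsConjugacyFunctor p V) (hWZ : ∀ H : Subgroup G, IsPGroup p ↥H → H ⊓ Subgroup.centralizer ((H : Subgroup G) : Set G) ≤ W H) (hVZ : ∀ H : Subgroup G, IsPGroup p ↥H → V H ≤ H ⊓ Subgroup.centralizer ((H : Subgroup G) : Set G)) (hVmono : ∀ H K : Subgroup G, IsPGroup p ↥H → IsPGroup p ↥K → H ≠ ⊥ → K ≠ ⊥ → H ⊓ Subgroup.centralizer ((H : Subgroup G) : Set G) ≤ K ⊓ Subgroup.centralizer ((K : Subgroup G) : Set G) → V H ≤ V K) (hloc : ∀ H : Subgroup G, (P : Subgroup G) ⊓ Subgroup.centralizer (((P : Subgroup G) : Subgroup G) : Set G) ≤ H → H ≤ (P : Subgroup G) → ∃ Q : Subgroup G, Q ≤ Subgroup.normalizer ((H : Subgroup G) : Set G) ∧ IsPGroup p ↥Q ∧ ¬ p ∣ (Q).relIndex (Subgroup.normalizer ((H : Subgroup G) : Set G)) ∧ ∀ (X : Set G) (a : G), X ⊆ Q → a ∈ Subgroup.normalizer ((H : Subgroup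 G) : Set G) → (fun x => a⁻¹ * x * a) '' X ⊆ Q → ∃ c ∈ Subgroup.normalizer ((H : Subgroup G) : Set G) ⊓ Subgroup.centralizer X, ∃ (n : ℕ) (b : Fin n → G), (∀ i, b i ∈ Subgroup.normalizer ((H : Subgroup G) : Set G) ⊓ Subgroup.normalizer ((W Q : Subgroup G) : Set G) ∨ b i ∈ Subgroup.normalizer ((H : Subgroup G) : Set G) ⊓ Subgroup.centralizer ((V Q : Subgroup G) : Set G)) ∧ a = c * (List.ofFn b).prod ∧ ∀ k : ℕ, k ≤ n → (fun x => (((List.ofFn b).take k).prod)⁻¹ * x * ((List.ofFn b).take k).prod) '' ((fun x => c⁻¹ * x * c) '' X) ⊆ Q) : ∃ Q : Subgroup G, IsPGroup p ↥Q ∧ ¬ p ∣ Q.index ∧ ∀ (X : Set G) (a : G), X ⊆ Q → (fun x => a⁻¹ * x * a) '' X ⊆ Q → ∃ c ∈ Subgroup.centralizer X, ∃ (n : ℕ) (b : Fin n → G), (∀ i, b i ∈ ⊤ ⊓ Subgroup.normalizer ((W Q : Subgroup G) : Set G) ∨ b i ∈ ⊤ ⊓ Subgroup.centralizer ((V Q : Subgroup G) : Set G)) ∧ a = c * (List.ofFn b).prod ∧ ∀ k : ℕ, k ≤ n → (fun x => (((List.ofFn b).take k).prod)⁻¹ * x * ((List.ofFn b).take k).prod) '' ((fun x =>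 c⁻¹ * x * c) '' X) ⊆ Q := by
  refine ⟨(P : Subgroup G), P.isPGroup', P.not_dvd_index, ?_⟩
  intro X a hX hXa
  obtain ⟨c, hc, b, hb, rfl⟩ := Cfsg.Agent.H42.CentralFusion.fusion_main P hdiv hW hV hWZ hVmono (by
    intro H hZH hHP
    obtain ⟨Q, hQN, hQ, hQi, h⟩ := hloc H hZH hHP
    refine ⟨Q, hQN, hQ, hQi, fun X a hX ha hXa => ?_⟩
    obtain ⟨c, hc, n, b, hb, rfl, hbk⟩ := h X a hX ha hXa
    refine ⟨c, hc.2, (List.ofFn b).prod, ?_, rfl⟩
    rw [Cfsg.Agent.H42.CentralFusion.conj_image_eq_of_centralizer hc.2] at hbk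
    exact Cfsg.Agent.H42.CentralFusion.sc_of_fin n X b hb hbk) X a hX hXa
  obtain ⟨n, d, hd, rfl, hk⟩ := hb.exists_fin
  refine ⟨c, hc, n, d, hd, rfl, ?_⟩
  rw [Cfsg.Agent.H42.CentralFusion.conj_image_eq_of_centralizer hc]
  exact hk

end Cfsg.Agent.S2002
end
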