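import Cfsg.Statements.S2162
set_option linter.all false

set_option autoImplicit false
open Cfsg

namespace Cfsg.Agent.S2162

open Matrix Module

variable {F : Type*} [Field F]

/-- Normal form basis of a square-zero endomorphism. -/
theorem exists_basis {V : Type*} [AddCommGroup V] [Module F V] [FiniteDimensional F V]
    (f : V →ₗ[F] V) (hf : ∀ v, f (f v) = 0) (ℓ m : ℕ) (hℓ : finrank F (LinearMap.range f) = ℓ)
    (hm : finrank F V = 2 * ℓ + m) :
    ∃ b : Basis (Fin ℓ ⊕ (Fin ℓ ⊕ Fin m)) F V,
      (∀ i, f (b (Sum.inl i)) = b (Sum.inr (Sum.inl i))) ∧ ∀ x, f (b (Sum.inr x)) = 0 := by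
  classical
  set K := LinearMap.ker f with hK
  set R := LinearMap.range f with hR
  have hRK : R ≤ K := by
    rintro _ ⟨v, rfl⟩
    exact hf v
  obtain ⟨W, hW⟩ := Submodule.exists_isCompl K
  obtain ⟨U0, hU0⟩ := Submodule.exists_isCompl R
  set U := U0 ⊓ K with hU
  have hRU : R ⊓ U = ⊥ := by
    rw [hU, ← inf_assoc, hU0.inf_eq_bot, bot_inf_eq]
  have hRUK : R ⊔ U = K := by
    rw [hU, ← sup_inf_assoc_of_le _ hRK, hU0.sup_eq_top, top_inf_eq]
  have hdimK : ℓ + finrank F K = 2 * ℓ + m := by
    rw [← hm, ← hℓ]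
    exact LinearMap.finrank_range_add_finrank_ker f
  have hdimW : finrank F W = ℓ := by
    have := Submodule.finrank_add_eq_of_isCompl hW
    omega
  have hdimU : finrank F U = m := by
    have := Submodule.finrank_sup_add_finrank_inf_eq R U
    rw [hRU, hRUK, finrank_bot] at this
    omega
  -- the map
  let e : (W × W × U) →ₗ[F] V :=
    (W.subtype).coprod ((f ∘ₗ W.subtype).coprod U.subtype)
  have he : ∀ w1 w2 : W, ∀ u : U, e (w1, w2, u) = (w1 : V) + (f w2 + u) := by
    intro w1 w2 u
    simp [e]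
  have hinj : Function.Injective e := by
    rw [← LinearMap.ker_eq_bot, Submodule.eq_bot_iff]
    rintro ⟨w1, w2, u⟩ hz
    rw [LinearMap.mem_ker, he] at hz
    have huK : (u : V) ∈ K := (Submodule.mem_inf.mp u.2).2
    have h1 : (w1 : V) ∈ K := by
      have h2 : (w1 : V) = -(f w2 + u) := by
        rw [eq_neg_iff_add_eq_zero]; exact hz
      rw [h2]
      exact K.neg_mem (K.add_mem (hf w2) huK)
    have h3 : (w1 : V) = 0 := by
      have : (w1 : V) ∈ K ⊓ W := ⟨h1, w1.2⟩
      rwa [hW.inf_eq_bot] at this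
    rw [h3, zero_add] at hz
    have h4 : (f w2 : V) = 0 := by
      have h5 : f w2 ∈ R ⊓ U := by
        refine ⟨⟨_, rfl⟩, ?_⟩
        have h6 : f w2 = -(u : V) := by
          rw [eq_neg_iff_add_eq_zero]; exact hz
        rw [h6]
        exact U.neg_mem u.2
      rwa [hRU] at h5
    have h7 : (w2 : V) = 0 := by
      have : (w2 : V) ∈ K ⊓ W := ⟨h4, w2.2⟩
      rwa [hW.inf_eq_bot] at this
    rw [h4, zero_add] at hz
    have h8 : w1 = 0 := Subtype.ext h3
    have h9 : w2 = 0 := Subtype.ext h7
    have h10 : u = 0 := Subtype.ext hz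
    rw [h8, h9, h10]
    rfl
  have hdim : finrank F (W × W × U) = finrank F V := by
    rw [Module.finrank_prod, Module.finrank_prod, hdimW, hdimU, hm]
    ring
  let E : (W × W × U) ≃ₗ[F] V := LinearEquiv.ofInjectiveOfFinrankEq e hinj hdim
  have hE : ∀ x, E x = e x := fun x => rfl
  let bW : Basis (Fin ℓ) F W := Module.finBasisOfFinrankEq F W hdimW
  let bU : Basis (Fin m) F U := Module.finBasisOfFinrankEq F U hdimU
  refine ⟨(bW.prod (bW.prod bU)).map E, ?_, ?_⟩
  · intro i
    rw [Basis.map_apply, Basis.map_apply, hE, hE]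
    have h1 : (bW.prod (bW.prod bU)) (Sum.inl i) = (bW i, 0, 0) := by
      ext <;> simp
    have h2 : (bW.prod (bW.prod bU)) (Sum.inr (Sum.inl i)) = (0, bW i, 0) := by
      ext <;> simp
    rw [h1, h2, he, he]
    simp
  · intro x
    rw [Basis.map_apply, hE]
    rcases x with i | j
    · have h2 : (bW.prod (bW.prod bU)) (Sum.inr (Sum.inl i)) = (0, bW i, 0) := by
        ext <;> simp
      rw [h2, he]
      simp [hf]
    · have h2 : (bW.prod (bW.prod bU)) (Sum.inr (Sum.inr j)) = (0, 0, bU j) := by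
        ext <;> simp
      rw [h2, he]
      have : f (bU j : V) = 0 := (Submodule.mem_inf.mp (bU j).2).2
      simp [this]

theorem finrank_ge {V : Type*} [AddCommGroup V] [Module F V] [FiniteDimensional F V]
    (f : V →ₗ[F] V) (hf : ∀ v, f (f v) = 0) : 2 * finrank F (LinearMap.range f) ≤ finrank F V := by
  have h := LinearMap.finrank_range_add_finrank_ker f
  have h2 : finrank F (LinearMap.range f) ≤ finrank F (LinearMap.ker f) := by
    apply Submodule.finrank_mono
    rintro _ ⟨v, rfl⟩
    exact hf v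
  omega

/-- Two square-zero endomorphisms of the same rank are conjugate by an automorphism of determinant one,
if each element of the field is a square. -/
theorem exists_conj {V : Type*} [AddCommGroup V] [Module F V] [FiniteDimensional F V]
    (hsq : ∀ x : F, IsSquare x)
    (f g : V →ₗ[F] V) (hf : ∀ v, f (f v) = 0) (hg : ∀ v, g (g v) = 0) (ℓ : ℕ)
    (hfℓ : finrank F (LinearMap.range f) = ℓ) (hgℓ : finrank F (LinearMap.range g) = ℓ)
    (hpos : 0 < ℓ) :
    ∃ e : V ≃ₗ[F] V, LinearEquiv.det e = 1 ∧ ∀ v, e (f v) = g (e v) := by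
  classical
  obtain ⟨m, hm⟩ := Nat.exists_eq_add_of_le (finrank_ge f hf)
  rw [hfℓ] at hm
  obtain ⟨b, hb1, hb2⟩ := exists_basis f hf ℓ m hfℓ hm
  obtain ⟨b', hb1', hb2'⟩ := exists_basis g hg ℓ m hgℓ hm
  let e0 : V ≃ₗ[F] V := b.equiv b' (Equiv.refl _)
  have he0 : ∀ i, e0 (b i) = b' i := fun i => by simp [e0]
  have he0c : ∀ v, e0 (f v) = g (e0 v) := by
    intro v
    have : (e0 : V →ₗ[F] V) ∘ₗ f = g ∘ₗ (e0 : V →ₗ[F] V) := by
      apply b.ext
      intro i
      rcases i with i | i
      · simp only [LinearMap.comp_apply, LinearEquiv.coe_coe, hb1, he0, hb1']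
      · simp only [LinearMap.comp_apply, LinearEquiv.coe_coe, hb2, he0, hb2', map_zero]
    exact LinearMap.congr_fun this v
  obtain ⟨c, hc⟩ := hsq ((LinearEquiv.det e0)⁻¹ : Fˣ)
  have hc0 : c ≠ 0 := by
    rintro rfl
    rw [mul_zero] at hc
    exact Units.ne_zero _ hc
  let i0 : Fin ℓ := ⟨0, hpos⟩
  let d : Fin ℓ ⊕ (Fin ℓ ⊕ Fin m) → F := Sum.elim (fun i => if i = i0 then c else 1)
    (Sum.elim (fun i => if i = i0 then c else 1) (fun _ => 1))
  have hd0 : ∀ i, d i ≠ 0 := by
    rintro (i | i | i)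
    · simp only [d, Sum.elim_inl]
      split_ifs
      · exact hc0
      · exact one_ne_zero
    · simp only [d, Sum.elim_inl, Sum.elim_inr]
      split_ifs
      · exact hc0
      · exact one_ne_zero
    · simp only [d, Sum.elim_inr]
      exact one_ne_zero
  have hdprod : ∏ i, d i = c * c := by
    rw [Fintype.prod_sum_type, Fintype.prod_sum_type]
    simp [d, Finset.prod_ite_eq']
  let D : V →ₗ[F] V := Matrix.toLin b' b' (Matrix.diagonal d)
  have hD : ∀ i, D (b' i) = d i • b' i := by
    intro i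
    simp only [D]
    rw [Matrix.toLin_self]
    rw [Finset.sum_eq_single i]
    · rw [Matrix.diagonal_apply_eq]
    · intro j _ hj
      rw [Matrix.diagonal_apply_ne _ hj, zero_smul]
    · intro hi
      exact absurd (Finset.mem_univ i) hi
  have hDdet : LinearMap.det D = c * c := by
    simp only [D]
    rw [LinearMap.det_toLin, Matrix.det_diagonal, hdprod]
  have hDc : ∀ v, D (g v) = g (D v) := by
    intro v
    have : D ∘ₗ g = g ∘ₗ D := by
      apply b'.ext
      intro i
      rcases i with i | i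
      · simp only [LinearMap.comp_apply, hb1', hD, map_smul]
        rfl
      · simp only [LinearMap.comp_apply, hb2', hD, map_smul, map_zero, smul_zero]
    exact LinearMap.congr_fun this v
  have hDu : IsUnit (LinearMap.det D) := by
    rw [hDdet]
    exact (mul_ne_zero hc0 hc0).isUnit
  let De : V ≃ₗ[F] V := LinearEquiv.ofIsUnitDet (f := D) (v := b') (v' := b') (by
    rw [LinearMap.det_toMatrix]; exact hDu)
  have hDe : ∀ v, De v = D v := fun v => rfl
  refine ⟨e0.trans De, ?_, ?_⟩
  · apply Units.ext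
    rw [LinearEquiv.coe_det]
    have h1 : ((e0.trans De : V ≃ₗ[F] V) : V →ₗ[F] V) = D ∘ₗ (e0 : V →ₗ[F] V) := by
      ext v
      simp [hDe]
    rw [h1, LinearMap.det_comp, hDdet, ← hc, Units.val_one, ← LinearEquiv.coe_det, Units.inv_mul]
  · intro v
    rw [LinearEquiv.trans_apply, LinearEquiv.trans_apply, hDe, hDe, he0c, hDc]

/-- Conjugacy of involutions in the special linear group over a finite field of characteristic two, in dimension at least 3: two elements of order 2 of SL_n(F) are conjugate in SL_n(F) exactly when the matrices a − 1 and b − 1 have the same rank (the rank of a − 1 is the dimension of the commutator space [V, a]). -/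
theorem result {F : Type*} [Field F] [Fintype F] [CharP F 2] {n : ℕ} (hn : 3 ≤ n) (a b : Matrix.SpecialLinearGroup (Fin n) F) (ha : orderOf a = 2) (hb : orderOf b = 2) :
    IsConj a b ↔ ((a : Matrix (Fin n) (Fin n) F) - 1).rank = ((b : Matrix (Fin n) (Fin n) F) - 1).rank := by
  constructor
  · intro h
    obtain ⟨c, hc⟩ := isConj_iff.mp h
    have h1 : (b : Matrix (Fin n) (Fin n) F) - 1 =
        (c : Matrix (Fin n) (Fin n) F) * ((a : Matrix (Fin n) (Fin n) F) - 1) * ((c⁻¹ : Matrix.SpecialLinearGroup (Fin n) F) : Matrix (Fin n) (Fin n) F) := by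
      rw [← hc, Matrix.mul_sub, Matrix.sub_mul, Matrix.mul_one, ← Matrix.SpecialLinearGroup.coe_mul,
        ← Matrix.SpecialLinearGroup.coe_mul, ← Matrix.SpecialLinearGroup.coe_mul, mul_inv_cancel,
        Matrix.SpecialLinearGroup.coe_one]
    rw [h1, Matrix.rank_mul_eq_left_of_isUnit_det, Matrix.rank_mul_eq_right_of_isUnit_det]
    · rw [Matrix.SpecialLinearGroup.det_coe]; exact isUnit_one
    · rw [Matrix.SpecialLinearGroup.det_coe]; exact isUnit_one
  · intro h
    have hsq : ∀ x : F, IsSquare x := fun x =>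
      FiniteField.isSquare_of_char_two ((ringChar.eq_iff).mpr inferInstance) x
    have key : ∀ x : Matrix.SpecialLinearGroup (Fin n) F, orderOf x = 2 →
        ∀ v, (Matrix.toLin' ((x : Matrix (Fin n) (Fin n) F) - 1)) ((Matrix.toLin' ((x : Matrix (Fin n) (Fin n) F) - 1)) v) = 0 := by
      intro x hx v
      rw [← LinearMap.comp_apply, ← Matrix.toLin'_mul]
      have h1 : (x : Matrix (Fin n) (Fin n) F) * x = 1 := by
        rw [← Matrix.SpecialLinearGroup.coe_mul, ← pow_two, ← hx, pow_orderOf_eq_one,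
          Matrix.SpecialLinearGroup.coe_one]
      have h22 : (2 : F) = 0 := CharTwo.two_eq_zero
      have h2 : ((x : Matrix (Fin n) (Fin n) F) - 1) * ((x : Matrix (Fin n) (Fin n) F) - 1) =
          (2 : F) • (1 - (x : Matrix (Fin n) (Fin n) F)) := by
        rw [two_smul]
        rw [Matrix.sub_mul, Matrix.mul_sub, h1]
        noncomm_ring
      rw [h2, h22, zero_smul, map_zero, LinearMap.zero_apply]
    have hrank : ∀ x : Matrix.SpecialLinearGroup (Fin n) F,
        finrank F (LinearMap.range (Matrix.toLin' ((x : Matrix (Fin n) (Fin n) F) - 1))) =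
          ((x : Matrix (Fin n) (Fin n) F) - 1).rank := fun x => rfl
    have hpos : 0 < finrank F (LinearMap.range (Matrix.toLin' ((a : Matrix (Fin n) (Fin n) F) - 1))) := by
      rw [Nat.pos_iff_ne_zero]
      intro h0
      have h1 : LinearMap.range (Matrix.toLin' ((a : Matrix (Fin n) (Fin n) F) - 1)) = ⊥ :=
        Submodule.finrank_eq_zero.mp h0
      have h2 : Matrix.toLin' ((a : Matrix (Fin n) (Fin n) F) - 1) = 0 := LinearMap.range_eq_bot.mp h1
      have h3 : (a : Matrix (Fin n) (Fin n) F) - 1 = 0 := by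
        apply (Matrix.toLin' (R := F) (m := Fin n) (n := Fin n)).injective
        rw [h2, map_zero]
      have h4 : a = 1 := by
        apply Subtype.ext
        rw [sub_eq_zero] at h3
        rw [h3]
        rfl
      rw [h4, orderOf_one] at ha
      omega
    obtain ⟨e, hedet, hec⟩ := exists_conj hsq (Matrix.toLin' ((a : Matrix (Fin n) (Fin n) F) - 1))
      (Matrix.toLin' ((b : Matrix (Fin n) (Fin n) F) - 1)) (key a ha) (key b hb)
      _ rfl (by rw [hrank, hrank, h]) hpos
    let C : Matrix (Fin n) (Fin n) F := LinearMap.toMatrix' (e : (Fin n → F) →ₗ[F] (Fin n → F))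
    have hCdet : C.det = 1 := by
      rw [LinearMap.det_toMatrix', ← LinearEquiv.coe_det, hedet, Units.val_one]
    have hC : C * ((a : Matrix (Fin n) (Fin n) F) - 1) = ((b : Matrix (Fin n) (Fin n) F) - 1) * C := by
      apply (Matrix.toLin' (R := F) (m := Fin n) (n := Fin n)).injective
      rw [Matrix.toLin'_mul, Matrix.toLin'_mul]
      simp only [C, Matrix.toLin'_toMatrix']
      exact LinearMap.ext hec
    have hC2 : C * (a : Matrix (Fin n) (Fin n) F) = (b : Matrix (Fin n) (Fin n) F) * C := by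
      rw [Matrix.mul_sub, Matrix.sub_mul, Matrix.mul_one, Matrix.one_mul] at hC
      exact sub_left_injective hC
    obtain ⟨c, hc⟩ : ∃ c : Matrix.SpecialLinearGroup (Fin n) F, (c : Matrix (Fin n) (Fin n) F) = C :=
      ⟨⟨C, hCdet⟩, rfl⟩
    rw [isConj_iff]
    refine ⟨c, ?_⟩
    rw [mul_inv_eq_iff_eq_mul]
    apply Subtype.ext
    rw [Matrix.SpecialLinearGroup.coe_mul, Matrix.SpecialLinearGroup.coe_mul, hc]
    exact hC2

end Cfsg.Agent.S2162
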