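import Cfsg.Statements.S2164
import Cfsg.Agent.H80.HermTwo
set_option linter.all false

set_option autoImplicit false
open Cfsg

namespace Cfsg.Agent.S2164

/-- Conjugacy of involutions in the special unitary group SU_n(q), q even, n ≥ 3, realised over the field F with q² elements as the matrices of determinant 1 preserving the form Σ u_i v_i^q: for two elements of order 2 of SU_n(q) the following are equivalent — they are conjugate in SU_n(q); they are conjugate in SL_n(F); the matrices a − 1 and b − 1 have the same rank. -/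
theorem result {F : Type*} [Field F] [Fintype F] [CharP F 2] {n q : ℕ} (hF : Fintype.card F = q ^ 2) (hn : 3 ≤ n) (a b : ↥(Cfsg.SU n F q)) (ha : orderOf a = 2) (hb : orderOf b = 2) :
    (IsConj a b ↔ IsConj (a : Matrix.SpecialLinearGroup (Fin n) F) (b : Matrix.SpecialLinearGroup (Fin n) F)) ∧
    (IsConj a b ↔ (((a : Matrix.SpecialLinearGroup (Fin n) F) : Matrix (Fin n) (Fin n) F) - 1).rank = (((b : Matrix.SpecialLinearGroup (Fin n) F) : Matrix (Fin n) (Fin n) F) - 1).rank) := by
  have h2 : (2 : F) = 0 := H80.two_zero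
  have ha2 : a ^ 2 = 1 := orderOf_dvd_iff_pow_eq_one.1 (dvd_of_eq ha)
  have hb2 : b ^ 2 = 1 := orderOf_dvd_iff_pow_eq_one.1 (dvd_of_eq hb)
  have hpos : 0 < (((b : Matrix.SpecialLinearGroup (Fin n) F) : Matrix (Fin n) (Fin n) F) - 1).rank := by
    rw [Nat.pos_iff_ne_zero]
    intro h0
    rw [Matrix.rank, Submodule.finrank_eq_zero, LinearMap.range_eq_bot] at h0
    have h0' : ((b : Matrix.SpecialLinearGroup (Fin n) F) : Matrix (Fin n) (Fin n) F) - 1 = 0 := by
      apply Matrix.mulVec_injective
      funext x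
      rw [← Matrix.mulVecLin_apply, h0, Matrix.zero_mulVec]
      rfl
    rw [sub_eq_zero] at h0'
    replace h0 := h0'
    have hb1 : b = 1 := Subtype.ext (Subtype.ext h0)
    rw [hb1, orderOf_one] at hb
    omega
  have h1 : IsConj a b → IsConj (a : Matrix.SpecialLinearGroup (Fin n) F) (b : Matrix.SpecialLinearGroup (Fin n) F) := by
    intro h
    exact (Cfsg.SU n F q).subtype.map_isConj h
  have h3 : IsConj (a : Matrix.SpecialLinearGroup (Fin n) F) (b : Matrix.SpecialLinearGroup (Fin n) F) →
      (((a : Matrix.SpecialLinearGroup (Fin n) F) : Matrix (Fin n) (Fin n) F) - 1).rank = (((b : Matrix.SpecialLinearGroup (Fin n) F) : Matrix (Fin n) (Fin n) F) - 1).rank := by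
    intro h
    obtain ⟨g, hg⟩ := isConj_iff.1 h
    have hg' : g * (a : Matrix.SpecialLinearGroup (Fin n) F) = (b : Matrix.SpecialLinearGroup (Fin n) F) * g := by
      rw [← hg]; group
    have hgm : (g : Matrix (Fin n) (Fin n) F) * ((a : Matrix.SpecialLinearGroup (Fin n) F) : Matrix (Fin n) (Fin n) F)
        = ((b : Matrix.SpecialLinearGroup (Fin n) F) : Matrix (Fin n) (Fin n) F) * (g : Matrix (Fin n) (Fin n) F) :=
      congrArg Subtype.val hg'
    have hu : IsUnit (g : Matrix (Fin n) (Fin n) F).det := by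
      rw [g.2]; exact isUnit_one
    have h4 : (g : Matrix (Fin n) (Fin n) F) * (((a : Matrix.SpecialLinearGroup (Fin n) F) : Matrix (Fin n) (Fin n) F) - 1)
        = (((b : Matrix.SpecialLinearGroup (Fin n) F) : Matrix (Fin n) (Fin n) F) - 1) * (g : Matrix (Fin n) (Fin n) F) := by
      rw [mul_sub, sub_mul, hgm, mul_one, one_mul]
    rw [← Matrix.rank_mul_eq_right_of_isUnit_det _ _ hu, h4,
      Matrix.rank_mul_eq_left_of_isUnit_det _ _ hu]
  have h5 := fun hr => H80.isConj_SU h2 hF ha2 hb2 hr hpos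
  exact ⟨⟨h1, fun h => h5 (h3 h)⟩, ⟨fun h => h3 (h1 h), h5⟩⟩

end Cfsg.Agent.S2164
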