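import Cfsg.Statements.S2166
import Cfsg.Agent.H80.SympTwo
set_option linter.all false

set_option autoImplicit false
open Cfsg

namespace Cfsg.Agent.S2166

/-- Conjugacy of involutions in the symplectic group Sp_{2m}(F), F a finite field of characteristic two, m ≥ 2 (Sp taken as the matrices A with A J Aᵀ = J, acting on column vectors, with the alternating form f(u, v) = u ⬝ (J v)). For an involution t write V(t) for the set of vectors v with f(v, t v) = 0 (a subspace). Two involutions a, b are conjugate in Sp_{2m}(F) exactly when a − 1 and b − 1 have the same rank and, in case that rank is even, V(a) and V(b) have the same number of elements. -/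
theorem result {F : Type*} [Field F] [Fintype F] [CharP F 2] {m : ℕ} (hm : 2 ≤ m) (a b : ↥(Matrix.symplecticGroup (Fin m) F)) (ha : orderOf a = 2) (hb : orderOf b = 2) :
    IsConj a b ↔ ((((a : ↥(Matrix.symplecticGroup (Fin m) F)) : Matrix (Fin m ⊕ Fin m) (Fin m ⊕ Fin m) F) - 1).rank = (((b : ↥(Matrix.symplecticGroup (Fin m) F)) : Matrix (Fin m ⊕ Fin m) (Fin m ⊕ Fin m) F) - 1).rank ∧
      (Even (((a : ↥(Matrix.symplecticGroup (Fin m) F)) : Matrix (Fin m ⊕ Fin m) (Fin m ⊕ Fin m) F) - 1).rank → Nat.card {v : Fin m ⊕ Fin m → F // Cfsg.sympForm m F v (Matrix.mulVec ((a : ↥(Matrix.symplecticGroup (Fin m) F)) : Matrix (Fin m ⊕ Fin m) (Fin m ⊕ Fin m) F) v) = 0} = Nat.card {v : Fin m ⊕ Fin m → F // Cfsg.sympForm m F v (Matrix.mulVec ((b : ↥(Matrix.symplecticGroup (Fin m) F)) : Matrix (Fin m ⊕ Fin m) (Fin m ⊕ Fin m) F) v) = 0})) := by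
  have ha2 : a ^ 2 = 1 := by rw [← ha]; exact pow_orderOf_eq_one a
  have hb2 : b ^ 2 = 1 := by rw [← hb]; exact pow_orderOf_eq_one b
  constructor
  · intro h
    obtain ⟨g, hg⟩ := isConj_iff.1 h
    have hg' : g * a = b * g := by rw [← hg]; group
    have hgm : (g : Matrix (Fin m ⊕ Fin m) (Fin m ⊕ Fin m) F) * a
        = (b : Matrix (Fin m ⊕ Fin m) (Fin m ⊕ Fin m) F) * g := congrArg Subtype.val hg'
    have hgi : (g : Matrix (Fin m ⊕ Fin m) (Fin m ⊕ Fin m) F)
        * ((g⁻¹ : Matrix.symplecticGroup (Fin m) F) : Matrix (Fin m ⊕ Fin m) (Fin m ⊕ Fin m) F)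
        = 1 := congrArg Subtype.val (mul_inv_cancel g)
    have hgi' : ((g⁻¹ : Matrix.symplecticGroup (Fin m) F) : Matrix (Fin m ⊕ Fin m) (Fin m ⊕ Fin m) F)
        * (g : Matrix (Fin m ⊕ Fin m) (Fin m ⊕ Fin m) F)
        = 1 := congrArg Subtype.val (inv_mul_cancel g)
    have hu : IsUnit (g : Matrix (Fin m ⊕ Fin m) (Fin m ⊕ Fin m) F).det :=
      (Matrix.isUnit_iff_isUnit_det _).1 (Units.isUnit ⟨_, _, hgi, hgi'⟩)
    refine ⟨?_, fun _ => ?_⟩
    · have h1 : (g : Matrix (Fin m ⊕ Fin m) (Fin m ⊕ Fin m) F)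
          * ((a : Matrix (Fin m ⊕ Fin m) (Fin m ⊕ Fin m) F) - 1)
          = ((b : Matrix (Fin m ⊕ Fin m) (Fin m ⊕ Fin m) F) - 1) * g := by
        rw [mul_sub, sub_mul, hgm, mul_one, one_mul]
      rw [← Matrix.rank_mul_eq_right_of_isUnit_det _ _ hu, h1,
        Matrix.rank_mul_eq_left_of_isUnit_det _ _ hu]
    · refine Nat.card_congr ⟨fun v => ⟨(g : Matrix (Fin m ⊕ Fin m) (Fin m ⊕ Fin m) F).mulVec v.1, ?_⟩,
        fun v => ⟨((g⁻¹ : Matrix.symplecticGroup (Fin m) F) :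
          Matrix (Fin m ⊕ Fin m) (Fin m ⊕ Fin m) F).mulVec v.1, ?_⟩, fun v => ?_, fun v => ?_⟩
      · rw [Matrix.mulVec_mulVec, ← hgm, ← Matrix.mulVec_mulVec,
          ClassicalGeometry.SympBasic.sympForm_mulVec g.2]
        exact v.2
      · have h2 : (a : Matrix (Fin m ⊕ Fin m) (Fin m ⊕ Fin m) F)
          * ((g⁻¹ : Matrix.symplecticGroup (Fin m) F) : Matrix (Fin m ⊕ Fin m) (Fin m ⊕ Fin m) F)
          = ((g⁻¹ : Matrix.symplecticGroup (Fin m) F) : Matrix (Fin m ⊕ Fin m) (Fin m ⊕ Fin m) F)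
            * b := by
          have : a * g⁻¹ = g⁻¹ * b := by rw [← hg]; group
          exact congrArg Subtype.val this
        rw [Matrix.mulVec_mulVec, h2, ← Matrix.mulVec_mulVec,
          ClassicalGeometry.SympBasic.sympForm_mulVec (g⁻¹).2]
        exact v.2
      · apply Subtype.ext
        change Matrix.mulVec ((g⁻¹ : Matrix.symplecticGroup (Fin m) F) :
          Matrix (Fin m ⊕ Fin m) (Fin m ⊕ Fin m) F) (Matrix.mulVec
          (g : Matrix (Fin m ⊕ Fin m) (Fin m ⊕ Fin m) F) v.1) = v.1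
        rw [Matrix.mulVec_mulVec, hgi', Matrix.one_mulVec]
      · apply Subtype.ext
        change Matrix.mulVec (g : Matrix (Fin m ⊕ Fin m) (Fin m ⊕ Fin m) F) (Matrix.mulVec
          ((g⁻¹ : Matrix.symplecticGroup (Fin m) F) :
          Matrix (Fin m ⊕ Fin m) (Fin m ⊕ Fin m) F) v.1) = v.1
        rw [Matrix.mulVec_mulVec, hgi, Matrix.one_mulVec]
  · rintro ⟨hr, hc⟩
    apply H80.conj_of_rank ha2 hb2 hr
    have key : ∀ c d : ↥(Matrix.symplecticGroup (Fin m) F), d ^ 2 = 1 →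
        Nat.card {v : Fin m ⊕ Fin m → F // Cfsg.sympForm m F v (Matrix.mulVec (c : Matrix (Fin m ⊕ Fin m) (Fin m ⊕ Fin m) F) v) = 0}
        = Nat.card {v : Fin m ⊕ Fin m → F // Cfsg.sympForm m F v (Matrix.mulVec (d : Matrix (Fin m ⊕ Fin m) (Fin m ⊕ Fin m) F) v) = 0} →
        (∀ v, Cfsg.sympForm m F v (Matrix.mulVec (c : Matrix (Fin m ⊕ Fin m) (Fin m ⊕ Fin m) F) v) = 0) →
        ∀ v, Cfsg.sympForm m F v (Matrix.mulVec (d : Matrix (Fin m ⊕ Fin m) (Fin m ⊕ Fin m) F) v) = 0 := by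
      intro c d hd hcd h
      rcases H80.card_isotropic hd with h1 | h1
      · exact h1
      · exfalso
        rw [← hcd, Nat.card_congr (Equiv.subtypeUnivEquiv h)] at h1
        have h3 : 0 < Nat.card (Fin m ⊕ Fin m → F) := Nat.card_pos
        have h4 : 1 < Fintype.card F := Fintype.one_lt_card
        nlinarith
    constructor
    · intro h
      have he := H80.even_rank ha2 h
      exact key a b hb2 (hc he) h
    · intro h
      have he := H80.even_rank hb2 h
      exact key b a ha2 (hc (hr ▸ he)).symm h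

end Cfsg.Agent.S2166
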