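import Cfsg.Statements.S2181
import Cfsg.Agent.H83.Count
import Cfsg.Agent.H83.RedESeven
import Cfsg.Agent.H82.RankTab
set_option linter.all false
-- import your own Cfsg.Agent.* helpers here

set_option autoImplicit false
open Cfsg

namespace Cfsg.Agent.S2181

open Cfsg.Agent.H83

/-- the ranks of the representatives -/
def f (R : List ℕ) : ℕ :=
  if R = [125] then 34 else if R = [125, 92] then 52 else if R = [125, 92, 63] then 53 else
    if R = [125, 92, 87] then 62 else 63

theorem hp : Cfsg.Agent.Nodes.RGDChev.IsType Cfsg.Lie.chevE7 7 CoxeterMatrix.E₇ := by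
  simp [Cfsg.Agent.Nodes.RGDChev.IsType, Cfsg.Agent.Nodes.RGDChev.typeList]


/-- The Chevalley group of type E₇ over a finite field of characteristic two (the matrix group generated by the root elements) has exactly five conjugacy classes of elements of order 2. -/
theorem result {F : Type*} [Field F] [Fintype F] [CharP F 2] :
    (ConjClasses.mk '' {g : ↥(Cfsg.Lie.chevE7.group F) | orderOf g = 2}).ncard = 5 := by
  have h := Count.ncard_chev (hp := hp) (K := F) (reps := [[125], [125, 92], [125, 92, 63], [125, 92, 87],
    [125, 92, 63, 87]]) RedESeven.allchk_eq f (by decide +kernel) ?_ ?_ (by decide +kernel)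
  · exact h
  · intro R hR
    simp only [List.mem_cons, List.not_mem_nil, or_false] at hR
    rcases hR with rfl | rfl | rfl | rfl | rfl
    · exact Cfsg.Agent.H82.RankTab.rank_coe hp.inList Cfsg.Agent.H82.RankTab.e7a
    · exact Cfsg.Agent.H82.RankTab.rank_coe hp.inList Cfsg.Agent.H82.RankTab.e7b
    · exact Cfsg.Agent.H82.RankTab.rank_coe hp.inList Cfsg.Agent.H82.RankTab.e7c
    · exact Cfsg.Agent.H82.RankTab.rank_coe hp.inList Cfsg.Agent.H82.RankTab.e7d
    · exact Cfsg.Agent.H82.RankTab.rank_coe hp.inList Cfsg.Agent.H82.RankTab.e7e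
  · decide +kernel

end Cfsg.Agent.S2181
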