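import Cfsg.Statements.S2182
import Cfsg.Agent.H83.Count
import Cfsg.Agent.H83.TwESix
import Cfsg.Agent.H82.RankTab
set_option linter.all false
-- import your own Cfsg.Agent.* helpers here

set_option autoImplicit false
open Cfsg

namespace Cfsg.Agent.S2182

open Cfsg.Agent.H83

/-- the ranks of the representatives -/
def f (R : List ℕ) : ℕ := if R = [71] then 22 else if R = [66, 68] then 32 else 38

theorem chk2 : Cfsg.Agent.H82.Rank.chk Cfsg.Lie.chevE6 [66, 68] 32 = true := by decide +kernel
theorem chk3 : Cfsg.Agent.H82.Rank.chk Cfsg.Lie.chevE6 [53, 68, 66] 38 = true := by decide +kernel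


/-- The twisted group ²E₆(q), q even, realised inside the Chevalley group of type E₆ over the field K with q² elements, has exactly three conjugacy classes of elements of order 2. -/
theorem result {K : Type*} [Field K] [Fintype K] [CharP K 2] (q : ℕ) (hK : Fintype.card K = q ^ 2) :
    (ConjClasses.mk '' {g : ↥(Cfsg.Lie.twistedE6 K q) | orderOf g = 2}).ncard = 3 := by
  have h := Count.ncard_sub (K := K) Cfsg.Agent.Nodes.RGDTwE6.hp.inList f (fun t ht h2 => TwESix.exists_rep hK ht h2)
    (TwESix.reps_mem hK) (by decide +kernel) ?_ (by decide +kernel) (by decide +kernel)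
  · exact h
  · intro R hR
    simp only [TwESix.reps, List.mem_cons, List.not_mem_nil, or_false] at hR
    rcases hR with rfl | rfl | rfl
    · exact Cfsg.Agent.H82.RankTab.rank_coe Cfsg.Agent.Nodes.RGDTwE6.hp.inList Cfsg.Agent.H82.RankTab.e6a
    · exact Cfsg.Agent.H82.RankTab.rank_coe Cfsg.Agent.Nodes.RGDTwE6.hp.inList chk2
    · exact Cfsg.Agent.H82.RankTab.rank_coe Cfsg.Agent.Nodes.RGDTwE6.hp.inList chk3

end Cfsg.Agent.S2182
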