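import Cfsg.Statements.S2190
import Cfsg.Agent.H86.SubK
set_option linter.all false

set_option autoImplicit false
open Cfsg

namespace Cfsg.Agent.S2190

/-- Subfield subgroups of prime degree are maximal. Let K be a finite field with q^r elements, r a prime, q a power of the characteristic, and G the Chevalley group of type G₂, B₂, D₄, F₄, E₆, E₇ or E₈ over K (the matrix group generated by the root elements). Let M be the subgroup of G consisting of the matrices all of whose entries lie in the subfield with q elements (entries c with c^q = c). Then M is a proper subgroup of G and is maximal: every subgroup of G containing M is M or G. -/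
theorem result {K : Type*} [Field K] [Fintype K] (p : ℕ) [Fact p.Prime] [CharP K p] (D : Cfsg.Lie.ChevalleyDatum) (hD : D ∈ [Cfsg.Lie.chevG2, Cfsg.Lie.chevB2, Cfsg.Lie.chevD4, Cfsg.Lie.chevF4, Cfsg.Lie.chevE6, Cfsg.Lie.chevE7, Cfsg.Lie.chevE8]) (a r : ℕ) (ha : 1 ≤ a) (hr : r.Prime) (hK : Fintype.card K = (p ^ a) ^ r) (M : Subgroup (GL D.Idx K))
    (hM : ∀ g : GL D.Idx K, g ∈ M ↔ g ∈ D.group K ∧ ∀ i j : D.Idx, ((g : Matrix D.Idx D.Idx K) i j) ^ (p ^ a) = (g : Matrix D.Idx D.Idx K) i j) :
    M ≠ D.group K ∧ ∀ H : Subgroup (GL D.Idx K), M ≤ H → H ≤ D.group K → H = M ∨ H = D.group K := by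
  classical
  have hp : p.Prime := Fact.out
  have hD' : Cfsg.Agent.ChevalleyStructure.Elts.InList D := hD
  have : ExpChar K p := ExpChar.prime Fact.out
  have hq1 : 1 < p ^ a := Nat.one_lt_pow (by omega) hp.one_lt
  have hfr : ∀ (g : GL D.Idx K), (∀ i j : D.Idx, ((g : Matrix D.Idx D.Idx K) i j) ^ (p ^ a) =
      (g : Matrix D.Idx D.Idx K) i j) ↔ Cfsg.Agent.H92.ChevFrob.fr D (iterateFrobenius K p a) g = g := by
    intro g
    constructor
    · intro h
      apply Units.ext
      rw [Cfsg.Agent.H92.ChevFrob.coe_fr]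
      ext i j
      rw [Matrix.map_apply, iterateFrobenius_def, h]
    · intro h i j
      have h2 := congrArg (fun g : GL D.Idx K => (g : Matrix D.Idx D.Idx K) i j) h
      simp only [Cfsg.Agent.H92.ChevFrob.coe_fr, Matrix.map_apply, iterateFrobenius_def] at h2
      exact h2
  have hxM : ∀ s < D.nroots, ∀ t : K, Cfsg.Agent.ChevalleyStructure.Elts.xG hD' s t ∈ M ↔ t ^ (p ^ a) = t := by
    intro s hs t
    rw [hM, hfr, Cfsg.Agent.H92.ChevFrob.fr_xG, iterateFrobenius_def]
    constructor
    · rintro ⟨-, h⟩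
      exact Cfsg.Agent.ChevalleyStructure.Elts.xG_injective hD' hs h
    · intro h
      exact ⟨Cfsg.Agent.ChevalleyStructure.Elts.xG_mem_group hD' s t, by rw [h]⟩
  have htop := Cfsg.Agent.H86.Par.top_lt hD'
  constructor
  · -- `M ≠ G`
    intro hMG
    have hall : ∀ t : K, t ^ (p ^ a) = t := by
      intro t
      rw [← hxM _ htop t, hMG]
      exact Cfsg.Agent.ChevalleyStructure.Elts.xG_mem_group hD' _ t
    have h0 : (Polynomial.X ^ p ^ a - Polynomial.X : Polynomial K) ≠ 0 := FiniteField.X_pow_card_sub_X_ne_zero K hq1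
    have hsub : (Finset.univ : Finset K) ⊆ (Polynomial.X ^ p ^ a - Polynomial.X : Polynomial K).roots.toFinset := by
      intro t _
      rw [Multiset.mem_toFinset, Polynomial.mem_roots h0, Polynomial.IsRoot.def]
      simp [hall t]
    have h1 := Finset.card_le_card hsub
    rw [Finset.card_univ, hK] at h1
    have h2 := (Multiset.toFinset_card_le (Polynomial.X ^ p ^ a - Polynomial.X : Polynomial K).roots).trans
      (Polynomial.card_roots' _)
    rw [FiniteField.X_pow_card_sub_X_natDegree_eq K hq1] at h2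
    have h3 : (p ^ a) ^ 1 < (p ^ a) ^ r := Nat.pow_lt_pow_right hq1 hr.one_lt
    rw [pow_one] at h3
    omega
  · intro H hMH hHG
    have hHfin : Finite H := inferInstance
    have h1 : Cfsg.Agent.H86.Par.HasOne hD' H := fun s hs => hMH ((hxM s hs 1).2 (one_pow _))
    obtain ⟨L, m, hLfin, hm, hcard, hfix, hL, hent⟩ := Cfsg.Agent.H86.Par.finite_overgroup hD' p hHG h1
    have ham : a ∣ m := by
      refine Cfsg.Agent.H86.SubK.dvd_of_fixed (F := K) hp.one_lt ha hm hr.pos hK fun t ht => ?_
      rw [hfix, ← hL _ htop t]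
      exact hMH ((hxM _ htop t).2 ht)
    obtain ⟨i, hi⟩ := ham
    have htopcard : Nat.card (⊤ : Subfield K) = p ^ (a * r) := by
      rw [pow_mul, ← hK, ← Nat.card_eq_fintype_card]
      exact Nat.card_congr Subfield.topEquiv.toEquiv
    obtain ⟨j, hj⟩ := Cfsg.Agent.H86.SubK.card_pow (le_top : L ≤ ⊤) hp.one_lt hcard htopcard
    have hij : r = i * j := by
      rw [hi, mul_assoc] at hj
      exact Nat.eq_of_mul_eq_mul_left ha hj
    rcases (Nat.dvd_prime hr).1 ⟨j, hij⟩ with h | h
    · -- `L` is the field with `q` elements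
      left
      refine le_antisymm (fun g hg => ?_) hMH
      rw [hM]
      refine ⟨hHG hg, fun x y => ?_⟩
      have h2 := (hfix _).2 (hent g hg x y)
      rw [hi, h, mul_one] at h2
      exact h2
    · right
      refine le_antisymm hHG ?_
      rw [Cfsg.Agent.ChevalleyStructure.Elts.group_le_iff hD']
      intro s hs t
      rw [hL s hs t, ← hfix t, hi, h, pow_mul, ← hK]
      exact FiniteField.pow_card t

end Cfsg.Agent.S2190
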