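import Cfsg.Statements.S2209
import Cfsg.Agent.ChevalleyStructure.BruhatSplit
import Cfsg.Agent.ChevalleyStructure.NPerm
import Cfsg.Agent.S0308
import Cfsg.Agent.S0311
import Cfsg.Agent.S1025
import Cfsg.Agent.S1036
import Cfsg.Agent.S1042
import Cfsg.Agent.S1043
import Cfsg.Agent.S1100
set_option linter.all false

set_option autoImplicit false
open Cfsg

namespace Cfsg.Agent.S2209

open Cfsg.Lie Cfsg.Agent.ChevalleyStructure.Elts Cfsg.Agent.ChevalleyStructure.RootCombGood
  Cfsg.Agent.ChevalleyStructure.RootWord Cfsg.Agent.ChevalleyStructure.BruhatSplit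

open scoped Pointwise

universe u

variable {D : ChevalleyDatum} {F : Type u} [Field F]

/-- The combinatorial facts about the highest root `r = nroots - 1`. -/
structure Dat (D : ChevalleyDatum) (L : List ℕ) (k : ℕ) : Prop where
  hk : k < D.rank
  hk1 : D.cartan k (D.nroots - 1) = 1
  hz : ∀ i < D.rank, i ≠ k → D.cartan i (D.nroots - 1) = 0 ∧ D.neg (D.simple i) ∈ L
  hL : ∀ s ∈ L, s < D.nroots ∧ s ≠ D.nroots - 1 ∧ s ≠ D.neg (D.nroots - 1) ∧
    (D.commTerms (D.nroots - 1) s).isEmpty = true
  hU : ∀ s < D.nroots, D.nroots / 2 ≤ s → s ≠ D.nroots - 1 → s ≠ D.neg (D.nroots - 1) ∧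
    (D.commTerms (D.nroots - 1) s).isEmpty = true

theorem datE6 : Dat chevE6 [15, 29, 32, 34, 35] 1 where
  hk := by decide +kernel
  hk1 := by decide +kernel
  hz := by decide +kernel
  hL := by decide +kernel
  hU := by decide +kernel

theorem datE7 : Dat chevE7 [47, 52, 56, 59, 61, 62] 0 where
  hk := by decide +kernel
  hk1 := by decide +kernel
  hz := by decide +kernel
  hL := by decide +kernel
  hU := by decide +kernel

theorem datE8 : Dat chevE8 [77, 98, 104, 109, 113, 116, 118] 7 where
  hk := by decide +kernel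
  hk1 := by decide +kernel
  hz := by decide +kernel
  hL := by decide +kernel
  hU := by decide +kernel

theorem commute_of (hD : InList D) {r s : ℕ} (hr : r < D.nroots) (hs : s < D.nroots) (hrs : s ≠ r)
    (hneg : s ≠ D.neg r) (h : (D.commTerms r s).isEmpty = true) (t v : F) :
    xG hD s v * xG hD r t = xG hD r t * xG hD s v := by
  apply Units.ext
  have h1 := Cfsg.Agent.S1025.result (F := F) D hD r s hr hs hrs hneg t v
  have h2 : D.commWord F r s t v = [] := by
    unfold ChevalleyDatum.commWord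
    rw [List.isEmpty_iff.1 h]
    rfl
  rw [h2, wordMat_nil, mul_one] at h1
  exact h1

/-- distinct root subgroups meet trivially -/
theorem eq_of_xG_eq (hD : InList D) {r s : ℕ} (hr : r < D.nroots) (hs : s < D.nroots) {a b : F} (ha : a ≠ 0)
    (h : xG hD r a = xG hD s b) : s = r := by
  by_contra hrs
  have h2 := congrArg (fun g : GL D.Idx F => (g : Matrix D.Idx D.Idx F) (Sum.inr ⟨r, hr⟩)
    (Sum.inr ⟨D.neg r, Cfsg.Agent.ChevalleyStructure.NPerm.neg_lt hD hr⟩)) h
  simp only [coe_xG] at h2
  rw [Cfsg.Agent.ChevalleyStructure.NPerm.x_entry_self hD hr,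
    Cfsg.Agent.ChevalleyStructure.NPerm.x_entry_ne hD hr hs hrs] at h2
  rw [neg_eq_zero] at h2
  exact ha (pow_eq_zero_iff (two_ne_zero) |>.1 h2)

/-- The group `M = ⟨U, X_{-p} : p ∈ J⟩`. -/
def M (F : Type u) [Field F] (D : ChevalleyDatum) (L : List ℕ) : Subgroup (GL D.Idx F) :=
  D.posUnipotent F ⊔ Subgroup.closure {g : GL D.Idx F | ∃ s ∈ L, ∃ c : F, (g : Matrix D.Idx D.Idx F) = D.x F s c}

theorem xG_mem_M (hD : InList D) {L : List ℕ} {s : ℕ} (hs : s ∈ L) (c : F) : xG hD s c ∈ M F D L :=
  (le_sup_right : _ ≤ M F D L) (Subgroup.subset_closure ⟨s, hs, c, rfl⟩)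

theorem xG_pos_mem_M (hD : InList D) {L : List ℕ} {s : ℕ} (hs : D.IsPosRoot s) (c : F) : xG hD s c ∈ M F D L :=
  (le_sup_left : _ ≤ M F D L) (xG_mem_posUnipotent hD hs c)

theorem M_le_iff (hD : InList D) {L : List ℕ} (K : Subgroup (GL D.Idx F)) :
    M F D L ≤ K ↔ (∀ s, D.IsPosRoot s → ∀ c : F, xG hD s c ∈ K) ∧ ∀ s ∈ L, ∀ c : F, xG hD s c ∈ K := by
  constructor
  · intro h
    exact ⟨fun s hs c => h (xG_pos_mem_M hD hs c), fun s hs c => h (xG_mem_M hD hs c)⟩
  · rintro ⟨h1, h2⟩
    refine sup_le ((posUnipotent_le_iff hD K).2 h1) ((Subgroup.closure_le _).2 ?_)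
    rintro g ⟨s, hs, c, hg⟩
    rw [(eq_xG_iff hD g s c).2 hg]
    exact h2 s hs c

variable {L : List ℕ} {k : ℕ}

/-- `M` centralises `X_r`. -/
theorem M_comm (hD : InList D) (T : Dat D L k) (t : F) :
    M F D L ≤ Subgroup.centralizer {xG hD (D.nroots - 1) t} := by
  have G : Good D := Cfsg.Agent.ChevalleyStructure.RootComb.good_of_mem hD
  have hn0 := G.nroots_pos
  have hr : D.nroots - 1 < D.nroots := by omega
  refine (M_le_iff hD _).2 ⟨fun s hs c => ?_, fun s hs c => ?_⟩
  · rw [Subgroup.mem_centralizer_singleton_iff]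
    by_cases h : s = D.nroots - 1
    · subst h
      rw [xG_add, xG_add, add_comm]
    · obtain ⟨h1, h2⟩ := T.hU s hs.1 (G.isPosRoot_iff.1 hs).1 h
      exact commute_of hD hr hs.1 h h1 h2 t c
  · rw [Subgroup.mem_centralizer_singleton_iff]
    obtain ⟨h0, h, h1, h2⟩ := T.hL s hs
    exact commute_of hD hr h0 h h1 h2 t c

theorem diag_conj_M (hD : InList D) (T : Dat D L k) {h : GL D.Idx F} (hh : h ∈ D.diagonalSubgroup F)
    {m : GL D.Idx F} (hm : m ∈ M F D L) : h * m * h⁻¹ ∈ M F D L := by
  have G : Good D := Cfsg.Agent.ChevalleyStructure.RootComb.good_of_mem hD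
  have hact := acts_of_mem_diagonal hD G hh
  have key : ∀ s < D.nroots, ∀ c : F, ∃ c' : F, h * xG hD s c * h⁻¹ = xG hD s c' := by
    intro s hs c
    have h1 := Subgroup.mem_map_of_mem (MulAut.conj h).toMonoidHom (xG_mem_rootSubgroup (F := F) hD s c)
    rw [hact s hs, wact_nil] at h1
    exact (mem_rootSubgroup_iff hD s _).1 h1
  have hle : M F D L ≤ (M F D L).comap (MulAut.conj h).toMonoidHom := by
    refine (M_le_iff hD _).2 ⟨fun s hs c => ?_, fun s hs c => ?_⟩
    · obtain ⟨c', e⟩ := key s hs.1 c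
      show h * xG hD s c * h⁻¹ ∈ M F D L
      rw [e]
      exact xG_pos_mem_M hD hs c'
    · obtain ⟨c', e⟩ := key s (T.hL s hs).1 c
      show h * xG hD s c * h⁻¹ ∈ M F D L
      rw [e]
      exact xG_mem_M hD hs c'
  exact hle hm

theorem mem_sup_diag (hD : InList D) (T : Dat D L k) {g : GL D.Idx F}
    (hg : g ∈ M F D L ⊔ D.diagonalSubgroup F) : ∃ m ∈ M F D L, ∃ h ∈ D.diagonalSubgroup F, g = m * h := by
  have hn : D.diagonalSubgroup F ≤ Subgroup.normalizer (M F D L : Set (GL D.Idx F)) := by
    intro h hh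
    rw [Subgroup.mem_normalizer_iff]
    intro x
    constructor
    · exact fun hx => diag_conj_M hD T hh hx
    · intro hx
      have := diag_conj_M hD T (Subgroup.inv_mem _ hh) hx
      have e : h⁻¹ * (h * x * h⁻¹) * h⁻¹⁻¹ = x := by group
      rwa [e] at this
  have h3 : ((M F D L ⊔ D.diagonalSubgroup F : Subgroup (GL D.Idx F)) : Set (GL D.Idx F)) =
      (M F D L : Set (GL D.Idx F)) * (D.diagonalSubgroup F : Set (GL D.Idx F)) :=
    Subgroup.coe_mul_of_right_le_normalizer_left _ _ hn
  have h4 : g ∈ ((M F D L ⊔ D.diagonalSubgroup F : Subgroup (GL D.Idx F)) : Set (GL D.Idx F)) := hg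
  rw [h3] at h4
  obtain ⟨u, hu, h, hh, e⟩ := h4
  exact ⟨u, hu, h, hh, e.symm⟩

/-- `n_{p_i} ∈ M`, `h_{p_i}(c) ∈ M` for `i ≠ k`. -/
theorem simple_word_mem (hD : InList D) (T : Dat D L k) {i : ℕ} (hi : i < D.rank) (hik : i ≠ k) (c : F) :
    xG hD (D.simple i) c ∈ M F D L ∧ xG hD (D.neg (D.simple i)) c ∈ M F D L := by
  have G : Good D := Cfsg.Agent.ChevalleyStructure.RootComb.good_of_mem hD
  exact ⟨xG_pos_mem_M hD (G.simple_pos hi) c, xG_mem_M hD (T.hz i hi hik).2 c⟩

theorem nG_mem_M (hD : InList D) (T : Dat D L k) {i : ℕ} (hi : i < D.rank) (hik : i ≠ k) (c : F) :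
    nG hD (D.simple i) c ∈ M F D L := by
  rw [nG_def]
  exact Subgroup.mul_mem _ (simple_word_mem hD T hi hik c).1 (Subgroup.mul_mem _
    (simple_word_mem hD T hi hik _).2 (simple_word_mem hD T hi hik c).1)

theorem hG_mem_M (hD : InList D) (T : Dat D L k) {i : ℕ} (hi : i < D.rank) (hik : i ≠ k) (c : F) :
    hG hD (D.simple i) c ∈ M F D L := by
  rw [hG_def]
  exact Subgroup.mul_mem _ (nG_mem_M hD T hi hik c) (nG_mem_M hD T hi hik _)

theorem hG_one (hD : InList D) (r : ℕ) : hG hD r (1 : F) = 1 := by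
  rw [hG_def, Cfsg.Agent.ChevalleyStructure.MonomialNormal.nG_neg_one hD, mul_inv_cancel]

/-- the action of a product of the `h_{p_i}(c_i)` on a root subgroup -/
theorem conj_word (hD : InList D) (c : ℕ → F) {s : ℕ} (hs : s < D.nroots) (l : List ℕ)
    (hl : ∀ i ∈ l, i < D.rank ∧ c i ≠ 0) (t : F) :
    wordG hD (l.flatMap fun i => D.hWord (D.simple i) (c i)) * xG hD s t *
      (wordG hD (l.flatMap fun i => D.hWord (D.simple i) (c i)))⁻¹ =
      xG hD s ((l.map fun i => c i ^ D.cartan i s).prod * t) := by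
  induction l with
  | nil =>
    rw [List.flatMap_nil, wordG_nil]
    simp
  | cons i l ih =>
    rw [List.flatMap_cons, wordG_append, List.map_cons, List.prod_cons]
    have h1 := ih fun j hj => hl j (List.mem_cons_of_mem _ hj)
    have h2 := hG_simple_conj hD (hl i List.mem_cons_self).1 hs (hl i List.mem_cons_self).2
      ((l.map fun i => c i ^ D.cartan i s).prod * t)
    rw [← h1] at h2
    rw [mul_assoc (c i ^ D.cartan i s), ← h2]
    show hG hD (D.simple i) (c i) * _ * _ * (hG hD (D.simple i) (c i) * _)⁻¹ = _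
    rw [mul_inv_rev]
    simp only [mul_assoc]

theorem word_mem_M (hD : InList D) (T : Dat D L k) (c : ℕ → F) (hck : c k = 1) (l : List ℕ)
    (hl : ∀ i ∈ l, i < D.rank) : wordG hD (l.flatMap fun i => D.hWord (D.simple i) (c i)) ∈ M F D L := by
  induction l with
  | nil =>
    rw [List.flatMap_nil, wordG_nil]
    exact Subgroup.one_mem _
  | cons i l ih =>
    rw [List.flatMap_cons, wordG_append]
    refine Subgroup.mul_mem _ ?_ (ih fun j hj => hl j (List.mem_cons_of_mem _ hj))
    show hG hD (D.simple i) (c i) ∈ M F D L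
    by_cases hik : i = k
    · rw [hik, hck, hG_one]
      exact Subgroup.one_mem _
    · exact hG_mem_M hD T (hl i List.mem_cons_self) hik _

/-- an element of `H` centralising `x_r(1)` lies in `M` -/
theorem diag_mem_M (hD : InList D) (T : Dat D L k) {h : GL D.Idx F} (hh : h ∈ D.diagonalSubgroup F)
    (hc : h * xG hD (D.nroots - 1) 1 * h⁻¹ = xG hD (D.nroots - 1) 1) : h ∈ M F D L := by
  have G : Good D := Cfsg.Agent.ChevalleyStructure.RootComb.good_of_mem hD
  have hn0 := G.nroots_pos
  have hr : D.nroots - 1 < D.nroots := by omega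
  obtain ⟨c, hc0, e⟩ := Cfsg.Agent.S1034.result D hD h hh
  have e' : h = wordG hD ((List.range D.rank).flatMap fun i => D.hWord (D.simple i) (c i)) :=
    (eq_wordG_iff hD h _).2 e
  have h1 := conj_word hD c hr (List.range D.rank)
    (fun i hi => ⟨List.mem_range.1 hi, hc0 i (List.mem_range.1 hi)⟩) 1
  rw [← e', hc, mul_one] at h1
  have h2 : (1 : F) = ((List.range D.rank).map fun i => c i ^ D.cartan i (D.nroots - 1)).prod :=
    xG_injective hD hr h1
  have h3 : ((List.range D.rank).map fun i => c i ^ D.cartan i (D.nroots - 1)).prod =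
      ∏ i ∈ Finset.range D.rank, c i ^ D.cartan i (D.nroots - 1) := by
    rw [← List.toFinset_range, List.prod_toFinset _ List.nodup_range]
  have h4 : ∏ i ∈ Finset.range D.rank, c i ^ D.cartan i (D.nroots - 1) = c k := by
    rw [Finset.prod_eq_single k]
    · rw [T.hk1, zpow_one]
    · intro i hi hik
      rw [(T.hz i (Finset.mem_range.1 hi) hik).1, zpow_zero]
    · intro hk
      exact absurd (Finset.mem_range.2 T.hk) hk
  have hck : c k = 1 := by rw [← h4, ← h3, ← h2]
  rw [e']
  exact word_mem_M hD T c hck _ fun i hi => List.mem_range.1 hi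

theorem mem_normalizer_of {A : Type*} [Group A] {X : Subgroup A} {g : A} (h1 : ∀ x ∈ X, g * x * g⁻¹ ∈ X)
    (h2 : ∀ x ∈ X, g⁻¹ * x * g ∈ X) : g ∈ Subgroup.normalizer (X : Set A) := by
  rw [Subgroup.mem_normalizer_iff]
  intro x
  constructor
  · exact h1 x
  · intro hx
    have := h2 _ hx
    have e : g⁻¹ * (g * x * g⁻¹) * g = x := by group
    rwa [e] at this

theorem root_conj_diag (hD : InList D) {h : GL D.Idx F} (hh : h ∈ D.diagonalSubgroup F) {s : ℕ}
    (hs : s < D.nroots) {x : GL D.Idx F} (hx : x ∈ D.rootSubgroup F s) : h * x * h⁻¹ ∈ D.rootSubgroup F s := by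
  have G : Good D := Cfsg.Agent.ChevalleyStructure.RootComb.good_of_mem hD
  have h1 := Subgroup.mem_map_of_mem (MulAut.conj h).toMonoidHom hx
  rw [acts_of_mem_diagonal hD G hh s hs, wact_nil] at h1
  exact h1

theorem borel_le_normalizer (hD : InList D) (T : Dat D L k) :
    D.borelSubgroup F ≤ Subgroup.normalizer (D.rootSubgroup F (D.nroots - 1) : Set (GL D.Idx F)) := by
  have G : Good D := Cfsg.Agent.ChevalleyStructure.RootComb.good_of_mem hD
  have hn0 := G.nroots_pos
  have hr : D.nroots - 1 < D.nroots := by omega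
  refine sup_le ?_ ?_
  · intro u hu
    have hc : ∀ x ∈ D.rootSubgroup F (D.nroots - 1), u * x = x * u := by
      intro x hx
      obtain ⟨t, rfl⟩ := (mem_rootSubgroup_iff hD _ x).1 hx
      exact Subgroup.mem_centralizer_singleton_iff.1 (M_comm hD T t ((le_sup_left : _ ≤ M F D L) hu))
    refine mem_normalizer_of (fun x hx => ?_) (fun x hx => ?_)
    · rw [hc x hx, mul_inv_cancel_right]
      exact hx
    · rw [mul_assoc, ← hc x hx, inv_mul_cancel_left]
      exact hx
  · intro h hh
    refine mem_normalizer_of (fun x hx => root_conj_diag hD hh hr hx) (fun x hx => ?_)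
    have := root_conj_diag hD (Subgroup.inv_mem _ hh) hr hx
    rwa [inv_inv] at this

theorem mem_sup_of_normalizer (hD : InList D) (T : Dat D L k) {g : GL D.Idx F} (hg : g ∈ D.group F)
    (hn : g ∈ Subgroup.normalizer (D.rootSubgroup F (D.nroots - 1) : Set (GL D.Idx F))) :
    g ∈ M F D L ⊔ D.diagonalSubgroup F := by
  have G : Good D := Cfsg.Agent.ChevalleyStructure.RootComb.good_of_mem hD
  have hn0 := G.nroots_pos
  have hr : D.nroots - 1 < D.nroots := by omega
  obtain ⟨P, hPB, -, hPS⟩ := Cfsg.Agent.S1042.result (F := F) D hD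
  set Q : Subgroup (GL D.Idx F) := Subgroup.normalizer (D.rootSubgroup F (D.nroots - 1) : Set (GL D.Idx F)) with hQ
  obtain ⟨K, hKS, hK⟩ := Cfsg.Agent.S0311.result P (Q.subgroupOf (D.group F)) (by
    rw [hPB]
    intro g hg
    rw [Subgroup.mem_subgroupOf] at hg ⊢
    exact borel_le_normalizer hD T hg)
  have key : Q.subgroupOf (D.group F) ≤ (M F D L ⊔ D.diagonalSubgroup F).subgroupOf (D.group F) := by
    rw [hK]
    refine sup_le ?_ (Subgroup.closure_le _ |>.2 ?_)
    · rw [hPB]
      intro g hg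
      rw [Subgroup.mem_subgroupOf] at hg ⊢
      exact (sup_le_sup_right (le_sup_left : _ ≤ M F D L) _) hg
    · intro a ha
      have haS := hKS ha
      rw [hPS] at haS
      obtain ⟨i, hi, hai⟩ := haS
      have hae : (a : GL D.Idx F) = nG hD (D.simple i) 1 := (eq_nG_iff hD _ _ _).2 hai
      have haQ : a ∈ Q.subgroupOf (D.group F) := by
        rw [hK]
        exact Subgroup.mem_sup_right (Subgroup.subset_closure ha)
      rw [Subgroup.mem_subgroupOf, hae] at haQ
      show (a : GL D.Idx F) ∈ M F D L ⊔ D.diagonalSubgroup F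
      rw [hae]
      -- `w_i r = r`
      have h1 := acts_nG_simple (F := F) hD hi (D.nroots - 1) hr
      rw [wact_cons, wact_nil] at h1
      have h2 : (D.rootSubgroup F (D.nroots - 1)).map (MulAut.conj (nG hD (D.simple i) (1 : F))).toMonoidHom =
          D.rootSubgroup F (D.nroots - 1) := by
        ext x
        rw [mem_map_conj]
        have := Subgroup.mem_normalizer_iff.1 haQ
        constructor
        · intro hx
          have h3 := (this _).1 hx
          have e : nG hD (D.simple i) 1 * ((nG hD (D.simple i) 1)⁻¹ * x * nG hD (D.simple i) 1) *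
            (nG hD (D.simple i) 1)⁻¹ = x := by group
          rwa [e] at h3
        · intro hx
          refine (this _).2 ?_
          have e : nG hD (D.simple i) 1 * ((nG hD (D.simple i) 1)⁻¹ * x * nG hD (D.simple i) 1) *
            (nG hD (D.simple i) 1)⁻¹ = x := by group
          rwa [e]
      have h3 : D.reflectRoot i (D.nroots - 1) = D.nroots - 1 :=
        Cfsg.Agent.ChevalleyStructure.NPerm.rootSubgroup_injective hD F (G.reflect_lt hi hr) hr (h1.symm.trans h2)
      have h4 : D.cartan i (D.nroots - 1) = 0 := (G.reflect_eq_iff hi hr).1 h3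
      have hik : i ≠ k := by
        rintro rfl
        rw [T.hk1] at h4
        exact one_ne_zero h4
      exact Subgroup.mem_sup_left (nG_mem_M hD T hi hik 1)
  exact key (x := ⟨g, hg⟩) hn

theorem conj_mem_of_normalizer {A : Type*} [Group A] {X : Subgroup A} {g x : A}
    (hg : g ∈ Subgroup.normalizer (X : Set A)) (hx : x ∈ X) : g * x * g⁻¹ ∈ X :=
  (Subgroup.mem_normalizer_iff.1 hg x).1 hx

theorem main (hD : InList D) (T : Dat D L k) :
    D.group F ⊓ Subgroup.centralizer {xG hD (D.nroots - 1) (1 : F)} = M F D L := by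
  have G : Good D := Cfsg.Agent.ChevalleyStructure.RootComb.good_of_mem hD
  have hn0 := G.nroots_pos
  have hr : D.nroots - 1 < D.nroots := by omega
  apply le_antisymm
  · rintro g ⟨hg, hc⟩
    have hc := Subgroup.mem_centralizer_singleton_iff.1 hc
    obtain ⟨b, hb, n, hn, b', hb', rfl⟩ := Cfsg.Agent.S1100.exists_bruhat hD hg
    set t : GL D.Idx F := xG hD (D.nroots - 1) (1 : F) with ht
    have hbQ := borel_le_normalizer (F := F) hD T hb
    have hbQ' := borel_le_normalizer (F := F) hD T hb'
    have htX : t ∈ D.rootSubgroup F (D.nroots - 1) := xG_mem_rootSubgroup hD _ _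
    have hx1 : b⁻¹ * t * b ∈ D.rootSubgroup F (D.nroots - 1) := by
      have := conj_mem_of_normalizer (Subgroup.inv_mem _ hbQ) htX
      rwa [inv_inv] at this
    have hx2 : b' * t * b'⁻¹ ∈ D.rootSubgroup F (D.nroots - 1) := conj_mem_of_normalizer hbQ' htX
    have hx3 : n * (b' * t * b'⁻¹) * n⁻¹ = b⁻¹ * t * b := by
      have : (b * n * b') * t * (b * n * b')⁻¹ = t := by rw [hc, mul_inv_cancel_right]
      calc n * (b' * t * b'⁻¹) * n⁻¹ = b⁻¹ * ((b * n * b') * t * (b * n * b')⁻¹) * b := by group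
        _ = b⁻¹ * t * b := by rw [this]
    obtain ⟨w, hw, hact⟩ := exists_acts hD hn
    have hwr := wact_lt G hw hr
    have hx4 : b⁻¹ * t * b ∈ D.rootSubgroup F (wact D w (D.nroots - 1)) := by
      rw [← hx3, ← hact _ hr]
      exact Subgroup.mem_map_of_mem (MulAut.conj n).toMonoidHom hx2
    obtain ⟨c, hc1⟩ := (mem_rootSubgroup_iff hD _ _).1 hx1
    obtain ⟨c', hc2⟩ := (mem_rootSubgroup_iff hD _ _).1 hx4
    have hc0 : c ≠ 0 := by
      rintro rfl
      rw [xG_zero] at hc1
      have : t = 1 := by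
        have e : t = b * (b⁻¹ * t * b) * b⁻¹ := by group
        rw [e, hc1]
        group
      exact one_ne_zero ((xG_eq_one_iff hD hr _).1 this)
    have hwrr : wact D w (D.nroots - 1) = D.nroots - 1 := eq_of_xG_eq hD hr hwr hc0 (hc1.symm.trans hc2)
    have hnQ : n ∈ Subgroup.normalizer (D.rootSubgroup F (D.nroots - 1) : Set (GL D.Idx F)) := by
      have h1 := hact _ hr
      rw [hwrr] at h1
      refine mem_normalizer_of (fun x hx => ?_) (fun x hx => ?_)
      · rw [← h1]
        exact Subgroup.mem_map_of_mem (MulAut.conj n).toMonoidHom hx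
      · rw [← h1, mem_map_conj] at hx
        exact hx
    have hgQ : b * n * b' ∈ Subgroup.normalizer (D.rootSubgroup F (D.nroots - 1) : Set (GL D.Idx F)) :=
      Subgroup.mul_mem _ (Subgroup.mul_mem _ hbQ hnQ) hbQ'
    obtain ⟨m, hm, h, hh, e⟩ := mem_sup_diag hD T (mem_sup_of_normalizer hD T hg hgQ)
    rw [e] at hc ⊢
    refine Subgroup.mul_mem _ hm (diag_mem_M hD T hh ?_)
    have hmt : m * t = t * m := Subgroup.mem_centralizer_singleton_iff.1 (M_comm hD T 1 hm)
    have : m * (h * t) = m * (t * h) := by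
      calc m * (h * t) = m * h * t := (mul_assoc _ _ _).symm
        _ = t * (m * h) := hc
        _ = m * (t * h) := by rw [← mul_assoc, ← hmt, mul_assoc]
    rw [mul_left_cancel this, mul_inv_cancel_right]
  · refine le_inf ?_ (M_comm hD T 1)
    exact (M_le_iff hD _).2 ⟨fun s _ c => xG_mem_group hD s c, fun s _ c => xG_mem_group hD s c⟩

/-- Centralizer of a long root involution in the Chevalley groups of type E₆, E₇, E₈ over a finite field F of characteristic two. Let G be the group generated by the root elements, U the subgroup generated by the positive root subgroups, r the highest root (the last root index: 71, 125, 239 respectively), and t the element of G with matrix x_r(1). Then the centralizer of t in G is the subgroup generated by U together with the root subgroups X_{−p} for the fundamental roots p orthogonal to r — all fundamental roots except p₂ for E₆, except p₁ for E₇, except p₈ for E₈ (numbering with p₁–p₃–p₄–…–p_l the long chain and p₂ joined to p₄); the indices of these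 negative fundamental roots are 15, 29, 32, 34, 35 (E₆), 47, 52, 56, 59, 61, 62 (E₇), 77, 98, 104, 109, 113, 116, 118 (E₈). (This is the unipotent radical of the corresponding maximal parabolic subgroup extended by the root subgroups of its Levi factor, of type A₅, D₆, E₇ respectively.) -/
theorem result {F : Type*} [Field F] [Fintype F] [CharP F 2] (d : Cfsg.Lie.ChevalleyDatum × List ℕ)
    (hd : d ∈ [(Cfsg.Lie.chevE6, [15, 29, 32, 34, 35]), (Cfsg.Lie.chevE7, [47, 52, 56, 59, 61, 62]), (Cfsg.Lie.chevE8, [77, 98, 104, 109, 113, 116, 118])])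
    (t : GL d.1.Idx F) (ht : (t : Matrix d.1.Idx d.1.Idx F) = d.1.x F (d.1.nroots - 1) 1) :
    d.1.group F ⊓ Subgroup.centralizer {t} = d.1.posUnipotent F ⊔ Subgroup.closure {g : GL d.1.Idx F | ∃ s ∈ d.2, ∃ c : F, (g : Matrix d.1.Idx d.1.Idx F) = d.1.x F s c} := by
  simp only [List.mem_cons, List.not_mem_nil, or_false] at hd
  rcases hd with rfl | rfl | rfl
  · have hD : InList chevE6 := by simp [InList]
    rw [(eq_xG_iff hD t _ _).2 ht]
    exact main hD datE6
  · have hD : InList chevE7 := by simp [InList]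
    rw [(eq_xG_iff hD t _ _).2 ht]
    exact main hD datE7
  · have hD : InList chevE8 := by simp [InList]
    rw [(eq_xG_iff hD t _ _).2 ht]
    exact main hD datE8

end Cfsg.Agent.S2209
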