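import Cfsg.Statements.S2214
import Cfsg.Agent.H92.ChevFrob
set_option linter.all false

set_option autoImplicit false
open Cfsg

namespace Cfsg.Agent.S2214

/-- Let k be an algebraically closed field of prime characteristic p, G the adjoint Chevalley group of type G₂, B₂, D₄, F₄, E₆, E₇ or E₈ over k (the matrix group generated by the root elements x_s(t), t ∈ k, acting on the Lie algebra), q = p^a with a ≥ 1, and K a subgroup of G containing every root element x_s(t) with t^q = t and consisting of matrices all of whose entries c satisfy c^q = c. Then the centralizer of K in G is trivial, and the normalizer of K in G is exactly the set of elements of G all of whose entries c satisfy c^q = c. -/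
theorem result {k : Type*} [Field k] [IsAlgClosed k] (p : ℕ) [Fact p.Prime] [CharP k p] (D : Cfsg.Lie.ChevalleyDatum) (hD : D ∈ [Cfsg.Lie.chevG2, Cfsg.Lie.chevB2, Cfsg.Lie.chevD4, Cfsg.Lie.chevF4, Cfsg.Lie.chevE6, Cfsg.Lie.chevE7, Cfsg.Lie.chevE8]) (a : ℕ) (ha : 1 ≤ a) (K : Subgroup (GL D.Idx k)) (hKG : K ≤ D.group k)
    (hLK : Subgroup.closure {g : GL D.Idx k | ∃ (s : ℕ) (t : k), t ^ (p ^ a) = t ∧ (g : Matrix D.Idx D.Idx k) = D.x k s t} ≤ K)
    (hKfix : ∀ g ∈ K, ∀ i j : D.Idx, ((g : Matrix D.Idx D.Idx k) i j) ^ (p ^ a) = (g : Matrix D.Idx D.Idx k) i j) :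
    D.group k ⊓ Subgroup.centralizer (K : Set (GL D.Idx k)) = ⊥ ∧
    ∀ g : GL D.Idx k, g ∈ D.group k → (g ∈ Subgroup.normalizer (K : Set (GL D.Idx k)) ↔ ∀ i j : D.Idx, ((g : Matrix D.Idx D.Idx k) i j) ^ (p ^ a) = (g : Matrix D.Idx D.Idx k) i j) := by
  classical
  obtain ⟨f, hf⟩ : ∃ f : k →+* k, ∀ t, f t = t ^ (p ^ a) :=
    ⟨iterateFrobenius k p a, fun t => iterateFrobenius_def p a t⟩
  have hFL : Cfsg.Agent.H92.ChevFrob.FL D f ≤ K := by
    refine le_trans (Subgroup.closure_mono ?_) hLK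
    rintro g ⟨s, t, ht, hg⟩
    exact ⟨s, t, by rw [← hf]; exact ht, hg⟩
  have hfix : ∀ g : GL D.Idx k, Cfsg.Agent.H92.ChevFrob.fr D f g = g ↔
      ∀ i j : D.Idx, ((g : Matrix D.Idx D.Idx k) i j) ^ (p ^ a) = (g : Matrix D.Idx D.Idx k) i j := by
    intro g
    rw [Units.ext_iff, Cfsg.Agent.H92.ChevFrob.coe_fr, ← Matrix.ext_iff]
    constructor
    · intro h i j
      rw [← hf]
      exact h i j
    · intro h i j
      rw [Matrix.map_apply, hf]
      exact h i j
  have hKc : ∀ g ∈ D.group k, (∀ x ∈ K, g * x = x * g) → g = 1 := by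
    intro g hg h
    refine Cfsg.Agent.H92.ChevCent.eq_one_of_commute_all hD hg fun r _ => h _ (hFL ?_)
    exact Cfsg.Agent.H92.ChevFrob.xG_mem_FL hD r (map_one f)
  constructor
  · rw [eq_bot_iff]
    rintro g ⟨hg, hc⟩
    rw [Subgroup.mem_bot]
    refine hKc g hg fun x hx => ?_
    exact ((Subgroup.mem_centralizer_iff.1 hc) x hx).symm
  · intro g hg
    rw [← hfix]
    constructor
    · intro hn
      have h1 : g⁻¹ * Cfsg.Agent.H92.ChevFrob.fr D f g = 1 := by
        refine hKc _ (Subgroup.mul_mem _ (Subgroup.inv_mem _ hg)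
          (Cfsg.Agent.H92.ChevFrob.fr_mem_group hD f hg)) fun x hx => ?_
        have h2 : g * x * g⁻¹ ∈ K := (Subgroup.mem_normalizer_iff.1 hn x).1 hx
        have h3 : Cfsg.Agent.H92.ChevFrob.fr D f (g * x * g⁻¹) = g * x * g⁻¹ := (hfix _).2 (hKfix _ h2)
        have h4 : Cfsg.Agent.H92.ChevFrob.fr D f x = x := (hfix _).2 (hKfix _ hx)
        rw [map_mul, map_mul, h4, map_inv] at h3
        calc g⁻¹ * Cfsg.Agent.H92.ChevFrob.fr D f g * x
            = g⁻¹ * (Cfsg.Agent.H92.ChevFrob.fr D f g * x * (Cfsg.Agent.H92.ChevFrob.fr D f g)⁻¹) *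
                Cfsg.Agent.H92.ChevFrob.fr D f g := by group
          _ = g⁻¹ * (g * x * g⁻¹) * Cfsg.Agent.H92.ChevFrob.fr D f g := by rw [h3]
          _ = x * (g⁻¹ * Cfsg.Agent.H92.ChevFrob.fr D f g) := by group
      exact (inv_mul_eq_one.1 h1).symm
    · intro hfg
      have key : ∀ g : GL D.Idx k, g ∈ D.group k → Cfsg.Agent.H92.ChevFrob.fr D f g = g → ∀ x ∈ K,
          g * x * g⁻¹ ∈ K := by
        intro g hg hfg x hx
        have h1 := hFL (Cfsg.Agent.H92.ChevFrob.comm_mem hD hg hfg (hKG hx) ((hfix x).2 (hKfix x hx)))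
        have h2 := K.mul_mem h1 hx
        have h3 : g * x * g⁻¹ * x⁻¹ * x = g * x * g⁻¹ := by group
        rwa [h3] at h2
      rw [Subgroup.mem_normalizer_iff]
      intro x
      constructor
      · exact key g hg hfg x
      · intro h
        have h1 := key g⁻¹ (inv_mem hg) (by rw [map_inv, hfg]) _ h
        have h2 : g⁻¹ * (g * x * g⁻¹) * g⁻¹⁻¹ = x := by group
        rwa [h2] at h1

end Cfsg.Agent.S2214
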