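import Cfsg.Agent.H94.Matching
import Cfsg.Statements.S2221
set_option linter.all false

-- part: H94/Orbits
section
/-!
# Orbits of a Sylow 2-subgroup of a symmetric group (helper94)

* `exists_restrict` : `A` a `P`-invariant set, `g ∈ P`: the permutation which is `g` on `A` and `1` off `A` lies in `P`;
* `exists_exps` : `|Ω| = ∑_{i ∈ s} 2^i`, and the orbit sizes of `P` are exactly the `2^i`, `i ∈ s`;
* `orbit_eq_of_card` : two orbits of the same size are equal.
-/

set_option autoImplicit false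
set_option linter.unusedSectionVars false
set_option linter.unusedVariables false

namespace Cfsg.Agent.H94.Syl2Sym

open Equiv Subgroup

variable {Ω : Type*} [DecidableEq Ω] [Fintype Ω]

/-- the permutations which agree on `A` and off `A` with elements of `P` -/
def twoSided (P : Subgroup (Perm Ω)) (A : Set Ω) (hA : ∀ g ∈ P, ∀ i, g i ∈ A ↔ i ∈ A) : Subgroup (Perm Ω) where
  carrier := {h | (∃ g ∈ P, ∀ x ∈ A, h x = g x) ∧ ∃ g ∈ P, ∀ x, x ∉ A → h x = g x}
  mul_mem' := by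
    rintro h h' ⟨⟨g, hg, e1⟩, ⟨g2, hg2, e2⟩⟩ ⟨⟨g', hg', e1'⟩, ⟨g2', hg2', e2'⟩⟩
    refine ⟨⟨g * g', P.mul_mem hg hg', fun x hx => ?_⟩, ⟨g2 * g2', P.mul_mem hg2 hg2', fun x hx => ?_⟩⟩
    · rw [Perm.mul_apply, e1' x hx, e1 _ ((hA _ hg' _).2 hx), Perm.mul_apply]
    · rw [Perm.mul_apply, e2' x hx, e2 _ (fun h => hx ((hA _ hg2' _).1 h)), Perm.mul_apply]
  one_mem' := ⟨⟨1, P.one_mem, fun _ _ => rfl⟩, ⟨1, P.one_mem, fun _ _ => rfl⟩⟩
  inv_mem' := by
    rintro h ⟨⟨g, hg, e1⟩, ⟨g2, hg2, e2⟩⟩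
    refine ⟨⟨g⁻¹, P.inv_mem hg, fun x hx => ?_⟩, ⟨g2⁻¹, P.inv_mem hg2, fun x hx => ?_⟩⟩
    · rw [Perm.inv_eq_iff_eq, e1 _ ((hA _ (P.inv_mem hg) _).2 hx)]
      simp
    · rw [Perm.inv_eq_iff_eq, e2 _ (fun h => hx ((hA _ (P.inv_mem hg2) _).1 h))]
      simp

theorem exists_restrict (P : Sylow 2 (Perm Ω)) {A : Set Ω} (hA : ∀ g ∈ (P : Subgroup (Perm Ω)), ∀ i, g i ∈ A ↔ i ∈ A)
    {g : Perm Ω} (hg : g ∈ (P : Subgroup (Perm Ω))) :
    ∃ h ∈ (P : Subgroup (Perm Ω)), (∀ x ∈ A, h x = g x) ∧ ∀ x, x ∉ A → h x = x := by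
  classical
  have hle : (P : Subgroup (Perm Ω)) ≤ twoSided P A hA := fun g hg => ⟨⟨g, hg, fun _ _ => rfl⟩, ⟨g, hg, fun _ _ => rfl⟩⟩
  have hpg : IsPGroup 2 (twoSided P A hA) := by
    rintro ⟨h, ⟨g1, hg1, e1⟩, ⟨g2, hg2, e2⟩⟩
    obtain ⟨a, ha⟩ := P.isPGroup' ⟨g1, hg1⟩
    obtain ⟨b, hb⟩ := P.isPGroup' ⟨g2, hg2⟩
    have ha' : g1 ^ 2 ^ a = 1 := congrArg Subtype.val ha
    have hb' : g2 ^ 2 ^ b = 1 := congrArg Subtype.val hb
    have p1 : ∀ m : ℕ, ∀ x ∈ A, (h ^ m) x = (g1 ^ m) x := by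
      intro m
      induction m with
      | zero => intro x _; rfl
      | succ m ih =>
        intro x hx
        rw [pow_succ, Perm.mul_apply, e1 x hx, ih _ ((hA _ hg1 _).2 hx), pow_succ, Perm.mul_apply]
    have p2 : ∀ m : ℕ, ∀ x, x ∉ A → (h ^ m) x = (g2 ^ m) x := by
      intro m
      induction m with
      | zero => intro x _; rfl
      | succ m ih =>
        intro x hx
        rw [pow_succ, Perm.mul_apply, e2 x hx, ih _ (fun h => hx ((hA _ hg2 _).1 h)), pow_succ, Perm.mul_apply]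
    refine ⟨a + b, ?_⟩
    apply Subtype.ext
    change h ^ 2 ^ (a + b) = 1
    ext x
    by_cases hx : x ∈ A
    · rw [p1 _ x hx, pow_add, pow_mul, ha', one_pow]
    · rw [p2 _ x hx, pow_add, mul_comm, pow_mul, hb', one_pow]
  have heq : twoSided (P : Subgroup (Perm Ω)) A hA = P := P.is_maximal' hpg hle
  let h : Perm Ω := Perm.ofSubtype (g.subtypePerm (p := fun i => i ∈ A) (fun i => hA g hg i))
  have h1 : ∀ x ∈ A, h x = g x := fun x hx =>
    Perm.ofSubtype_apply_of_mem (g.subtypePerm (p := fun i => i ∈ A) (fun i => hA g hg i)) hx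
  have h2 : ∀ x, x ∉ A → h x = x := fun x hx => Perm.ofSubtype_apply_of_not_mem _ hx
  refine ⟨h, ?_, h1, h2⟩
  rw [← heq]
  exact ⟨⟨g, hg, h1⟩, ⟨1, one_mem _, h2⟩⟩

theorem mem_orbit_iff' (P : Subgroup (Perm Ω)) (x y : Ω) : y ∈ MulAction.orbit P x ↔ ∃ g ∈ P, g x = y := by
  constructor
  · rintro ⟨⟨g, hg⟩, rfl⟩
    exact ⟨g, hg, rfl⟩
  · rintro ⟨g, hg, rfl⟩
    exact ⟨⟨g, hg⟩, rfl⟩

theorem orbit_inv (P : Subgroup (Perm Ω)) (x : Ω) {g : Perm Ω} (hg : g ∈ P) (i : Ω) :
    g i ∈ MulAction.orbit P x ↔ i ∈ MulAction.orbit P x := by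
  rw [mem_orbit_iff', mem_orbit_iff']
  constructor
  · rintro ⟨h, hh, e⟩
    refine ⟨g⁻¹ * h, P.mul_mem (P.inv_mem hg) hh, ?_⟩
    rw [Perm.mul_apply, e]
    simp
  · rintro ⟨h, hh, e⟩
    exact ⟨g * h, P.mul_mem hg hh, by rw [Perm.mul_apply, e]⟩

theorem orbit_card (P : Sylow 2 (Perm Ω)) (x : Ω) : ∃ k, (MulAction.orbit (P : Subgroup (Perm Ω)) x).ncard = 2 ^ k := by
  obtain ⟨k, hk⟩ := P.isPGroup'.card_orbit x
  exact ⟨k, hk⟩

theorem orbit_eq_of_card (P : Sylow 2 (Perm Ω)) {x y : Ω}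
    (h : (MulAction.orbit (P : Subgroup (Perm Ω)) x).ncard = (MulAction.orbit (P : Subgroup (Perm Ω)) y).ncard) :
    MulAction.orbit (P : Subgroup (Perm Ω)) x = MulAction.orbit (P : Subgroup (Perm Ω)) y :=
  set_eq_of_card P (fun _ hp i => orbit_inv _ x hp i) (fun _ hp i => orbit_inv _ y hp i) h

theorem exists_exps (P : Sylow 2 (Perm Ω)) : ∃ s : Finset ℕ, Fintype.card Ω = ∑ i ∈ s, 2 ^ i ∧
    (∀ x : Ω, ∃ i ∈ s, (MulAction.orbit (P : Subgroup (Perm Ω)) x).ncard = 2 ^ i) ∧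
    (∀ i ∈ s, ∃ x : Ω, (MulAction.orbit (P : Subgroup (Perm Ω)) x).ncard = 2 ^ i) := by
  classical
  let Q := MulAction.orbitRel.Quotient (P : Subgroup (Perm Ω)) Ω
  have : Fintype Q := Fintype.ofFinite Q
  choose f hf using fun x : Ω => orbit_card P x
  have hq : ∀ q : Q, ∃ k, q.orbit.ncard = 2 ^ k := by
    intro q
    induction q using Quotient.inductionOn' with
    | h x => exact ⟨f x, by rw [← hf x]; rfl⟩
  choose e he using hq
  have hinj : Function.Injective e := by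
    intro q q' hqq
    induction q using Quotient.inductionOn' with
    | h x =>
      induction q' using Quotient.inductionOn' with
      | h y =>
        have h1 : (MulAction.orbit (P : Subgroup (Perm Ω)) x).ncard = (MulAction.orbit (P : Subgroup (Perm Ω)) y).ncard := by
          have a := he (Quotient.mk'' x)
          have b := he (Quotient.mk'' y)
          rw [hqq] at a
          exact a.trans b.symm
        have h2 := orbit_eq_of_card P h1
        rw [Quotient.eq'']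
        change x ∈ MulAction.orbit (P : Subgroup (Perm Ω)) y
        rw [← h2]
        exact MulAction.mem_orbit_self x
  refine ⟨Finset.univ.image e, ?_, fun x => ?_, fun i hi => ?_⟩
  · rw [Finset.sum_image (fun a _ b _ h => hinj h)]
    have h1 := Fintype.card_congr (MulAction.selfEquivSigmaOrbits' (P : Subgroup (Perm Ω)) Ω)
    rw [Fintype.card_sigma] at h1
    rw [h1]
    refine Finset.sum_congr rfl fun q _ => ?_
    rw [← he q, ← Nat.card_eq_fintype_card]
    rfl
  · refine ⟨e (Quotient.mk'' x), Finset.mem_image_of_mem _ (Finset.mem_univ _), ?_⟩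
    rw [← he]
    rfl
  · rw [Finset.mem_image] at hi
    obtain ⟨q, -, rfl⟩ := hi
    induction q using Quotient.inductionOn' with
    | h x => exact ⟨x, by rw [← he]; rfl⟩

end Cfsg.Agent.H94.Syl2Sym
end

-- part: H94/Decomp
section
/-!
# Direct decompositions of the even part of a Sylow 2-subgroup of a symmetric group (helper94)
-/

set_option autoImplicit false
set_option linter.unusedSectionVars false
set_option linter.unusedVariables false

namespace Cfsg.Agent.H94.Syl2Sym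

open Equiv Subgroup

variable {Ω : Type*} [DecidableEq Ω] [Fintype Ω]

namespace IsMatching

variable {P : Subgroup (Perm Ω)} {p : Ω → Ω}

theorem pp_ne (hp : IsMatching P p) {x : Ω} (h : p x ≠ x) : p (p x) ≠ p x := fun h' => h (hp.inj h')

theorem orbit_fixed (hp : IsMatching P p) (hP : IsPGroup 2 P) {x : Ω} (h : p x = x) :
    MulAction.orbit P x = {x} := by
  ext y
  rw [mem_orbit_iff', Set.mem_singleton_iff]
  constructor
  · rintro ⟨g, hg, rfl⟩
    apply hp.fixed _ _ _ h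
    rw [← hp.comm hP hg, h]
  · rintro rfl
    exact ⟨1, P.one_mem, rfl⟩

theorem orbit_p (hp : IsMatching P p) (x : Ω) : p x ∈ MulAction.orbit P x := by
  rw [mem_orbit_iff']
  exact ⟨_, hp.mem x, swap_apply_left _ _⟩

theorem ne_of_mem_orbit (hp : IsMatching P p) (hP : IsPGroup 2 P) {x y : Ω} (h : p x ≠ x)
    (hy : y ∈ MulAction.orbit P x) : p y ≠ y := by
  rw [mem_orbit_iff'] at hy
  obtain ⟨g, hg, rfl⟩ := hy
  rw [← hp.comm hP hg]
  exact fun h' => h (g.injective h')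

theorem sign_swap (hp : IsMatching P p) {x : Ω} (h : p x ≠ x) : Perm.sign (swap x (p x)) = -1 :=
  Perm.sign_swap h.symm

/-- `e_x e_y` -/
theorem sign_two (hp : IsMatching P p) {x y : Ω} (h : p x ≠ x) (h' : p y ≠ y) :
    Perm.sign (swap x (p x) * swap y (p y)) = 1 := by
  rw [Perm.sign_mul, hp.sign_swap h, hp.sign_swap h']; norm_num

/-- the closure lemma: partial involutions with even pieces are products of `e_x e_y` -/
theorem mem_closure_pairs (hp : IsMatching P p) (hP : IsPGroup 2 P) (K : Subgroup (Perm Ω))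
    (hK : ∀ x y, p x ≠ x → y ∈ MulAction.orbit P x → y ≠ x → y ≠ p x →
      swap x (p x) * swap y (p y) ∈ K) :
    ∀ (n : ℕ) (F : Set Ω), F.ncard = n → (∀ x ∈ F, p x ∈ F) → (∀ x ∈ F, p x ≠ x) →
      (∀ x ∈ F, 4 ∣ (F ∩ MulAction.orbit P x).ncard) → ∀ h : Perm Ω, (∀ x ∈ F, h x = p x) → (∀ x, x ∉ F → h x = x) →
      h ∈ K := by
  intro n
  induction n using Nat.strong_induction_on with
  | _ n ih =>
    intro F hn hF1 hF2 hF3 h hh1 hh2
    rcases F.eq_empty_or_nonempty with hE | ⟨x, hx⟩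
    · have : h = 1 := by
        ext y
        rw [hh2 y (by rw [hE]; simp)]
        rfl
      rw [this]
      exact K.one_mem
    · have hfin : (F ∩ MulAction.orbit P x).Finite := Set.toFinite _
      have hxm : x ∈ F ∩ MulAction.orbit P x := ⟨hx, MulAction.mem_orbit_self x⟩
      have hpxm : p x ∈ F ∩ MulAction.orbit P x := ⟨hF1 x hx, hp.orbit_p x⟩
      have hcard : 4 ≤ (F ∩ MulAction.orbit P x).ncard := by
        apply Nat.le_of_dvd _ (hF3 x hx)
        rw [Set.ncard_pos]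
        exact ⟨x, hxm⟩
      obtain ⟨y, hy, hyn⟩ : ∃ y ∈ F ∩ MulAction.orbit P x, y ∉ ({x, p x} : Set Ω) := by
        by_contra hcon
        push Not at hcon
        have h1 : (F ∩ MulAction.orbit P x).ncard ≤ ({x, p x} : Set Ω).ncard :=
          Set.ncard_le_ncard (fun z hz => hcon z hz) (Set.toFinite _)
        have h2 : ({x, p x} : Set Ω).ncard ≤ 2 := (Set.ncard_insert_le _ _).trans (by rw [Set.ncard_singleton])
        omega
      have hyx : y ≠ x := fun e => hyn (by rw [e]; simp)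
      have hypx : y ≠ p x := fun e => hyn (by rw [e]; simp)
      have hpyx : p y ≠ x := fun e => hypx (by rw [← e, hp.invol])
      have hpypx : p y ≠ p x := fun e => hyx (hp.inj e)
      have hpx := hF2 x hx
      have hpy := hF2 y hy.1
      set D : Set Ω := {x, p x, y, p y} with hD
      have hDF : D ⊆ F ∩ MulAction.orbit P x := by
        have hpym : p y ∈ F ∩ MulAction.orbit P x := by
          refine ⟨hF1 y hy.1, ?_⟩
          have h1 := hp.orbit_p y
          rw [mem_orbit_iff'] at h1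
          obtain ⟨g, hg, e⟩ := h1
          rw [← e, orbit_inv P x hg]
          exact hy.2
        rintro z (rfl | rfl | rfl | rfl)
        · exact hxm
        · exact hpxm
        · exact hy
        · exact hpym
      have hDcard : D.ncard = 4 := by
        rw [hD, Set.ncard_insert_of_notMem, Set.ncard_insert_of_notMem, Set.ncard_pair hpy.symm]
        · simp only [Set.mem_insert_iff, Set.mem_singleton_iff, not_or]
          exact ⟨hypx.symm, hpypx.symm⟩
        · simp only [Set.mem_insert_iff, Set.mem_singleton_iff, not_or]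
          exact ⟨hpx.symm, hyx.symm, hpyx.symm⟩
      have hDp : ∀ z, z ∈ D → p z ∈ D := by
        rintro z (rfl | rfl | rfl | rfl)
        · simp [hD]
        · simp [hD, hp.invol]
        · simp [hD]
        · simp [hD, hp.invol]
      have hDp' : ∀ z, p z ∈ D → z ∈ D := by
        intro z hz
        have := hDp _ hz
        rwa [hp.invol] at this
      have hncF : (F \ D).ncard < n := by
        rw [← hn]
        apply Set.ncard_lt_ncard _ (Set.toFinite _)
        refine ⟨Set.sdiff_subset, fun hcon => ?_⟩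
        exact (hcon hx).2 (by simp [hD])
      set t : Perm Ω := swap x (p x) * swap y (p y) with ht
      have ht1 : ∀ z ∈ D, t z = p z := by
        rintro z (rfl | rfl | rfl | rfl)
        · rw [ht, Perm.mul_apply, swap_apply_of_ne_of_ne hyx.symm hpyx.symm, swap_apply_left]
        · rw [ht, Perm.mul_apply, swap_apply_of_ne_of_ne hypx.symm hpypx.symm, swap_apply_right, hp.invol]
        · rw [ht, Perm.mul_apply, swap_apply_left, swap_apply_of_ne_of_ne hpyx hpypx]
        · rw [ht, Perm.mul_apply, swap_apply_right, swap_apply_of_ne_of_ne hyx hypx, hp.invol]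
      have ht2 : ∀ z, z ∉ D → t z = z := by
        intro z hz
        simp only [hD, Set.mem_insert_iff, Set.mem_singleton_iff, not_or] at hz
        rw [ht, Perm.mul_apply, swap_apply_of_ne_of_ne hz.2.2.1 hz.2.2.2, swap_apply_of_ne_of_ne hz.1 hz.2.1]
      have htK : t ∈ K := hK x y hpx hy.2 hyx hypx
      have hht : h * t ∈ K := by
        refine ih _ hncF (F \ D) rfl ?_ ?_ ?_ (h * t) ?_ ?_
        · rintro z ⟨hz1, hz2⟩
          exact ⟨hF1 z hz1, fun h => hz2 (hDp' z h)⟩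
        · rintro z ⟨hz1, hz2⟩
          exact hF2 z hz1
        · rintro z ⟨hz1, hz2⟩
          by_cases hzo : z ∈ MulAction.orbit P x
          · have hoz : MulAction.orbit P z = MulAction.orbit P x := MulAction.orbit_eq_iff.2 hzo
            rw [hoz]
            have e1 : (F \ D) ∩ MulAction.orbit P x = (F ∩ MulAction.orbit P x) \ D := by
              ext w
              simp only [Set.mem_inter_iff, Set.mem_sdiff]
              tauto
            rw [e1, Set.ncard_sdiff hDF (Set.toFinite _), hDcard]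
            exact Nat.dvd_sub (hF3 x hx) (dvd_refl 4)
          · have e1 : (F \ D) ∩ MulAction.orbit P z = F ∩ MulAction.orbit P z := by
              ext w
              simp only [Set.mem_inter_iff, Set.mem_sdiff]
              constructor
              · rintro ⟨⟨a, -⟩, b⟩; exact ⟨a, b⟩
              · rintro ⟨a, b⟩
                refine ⟨⟨a, fun hw => ?_⟩, b⟩
                have h1 := (hDF hw).2
                have h2 : MulAction.orbit P w = MulAction.orbit P x := MulAction.orbit_eq_iff.2 h1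
                have h3 : MulAction.orbit P w = MulAction.orbit P z := MulAction.orbit_eq_iff.2 b
                apply hzo
                rw [← h2, h3]
                exact MulAction.mem_orbit_self z
            rw [e1]
            exact hF3 z hz1
        · rintro z ⟨hz1, hz2⟩
          rw [Perm.mul_apply, ht2 z hz2, hh1 z hz1]
        · intro z hz
          rw [Perm.mul_apply]
          by_cases hzD : z ∈ D
          · rw [ht1 z hzD, hh1 _ (hDF (hDp z hzD)).1, hp.invol]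
          · rw [ht2 z hzD]
            exact hh2 z (fun h => hz ⟨h, hzD⟩)
      have e : h = (h * t) * t⁻¹ := by group
      rw [e]
      exact K.mul_mem hht (K.inv_mem htK)

end IsMatching

/-- a direct decomposition of the even part of `P` -/
structure Dec (P : Subgroup (Perm Ω)) (p : Ω → Ω) (S₁ S₂ : Subgroup (Perm Ω)) : Prop where
  m : IsMatching P p
  two : IsPGroup 2 P
  le1 : ∀ a ∈ S₁, a ∈ P ∧ Perm.sign a = 1
  le2 : ∀ a ∈ S₂, a ∈ P ∧ Perm.sign a = 1
  comm : ∀ a ∈ S₁, ∀ b ∈ S₂, a * b = b * a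
  inf : ∀ a, a ∈ S₁ → a ∈ S₂ → a = 1
  sup : ∀ g ∈ P, Perm.sign g = 1 → ∃ a ∈ S₁, ∃ b ∈ S₂, g = a * b

namespace Dec

variable {P : Subgroup (Perm Ω)} {p : Ω → Ω} {S₁ S₂ : Subgroup (Perm Ω)}

theorem symm (h : Dec P p S₁ S₂) : Dec P p S₂ S₁ where
  m := h.m
  two := h.two
  le1 := h.le2
  le2 := h.le1
  comm := fun a ha b hb => (h.comm b hb a ha).symm
  inf := fun a ha hb => h.inf a hb ha
  sup := fun g hg hs => by
    obtain ⟨a, ha, b, hb, e⟩ := h.sup g hg hs
    exact ⟨b, hb, a, ha, by rw [e, h.comm a ha b hb]⟩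

theorem cp1 (h : Dec P p S₁ S₂) {a : Perm Ω} (ha : a ∈ S₁) (x : Ω) : a (p x) = p (a x) := h.m.comm h.two (h.le1 a ha).1 x

theorem cp2 (h : Dec P p S₁ S₂) {a : Perm Ω} (ha : a ∈ S₂) (x : Ω) : a (p x) = p (a x) := h.m.comm h.two (h.le2 a ha).1 x

theorem cc (h : Dec P p S₁ S₂) {a b : Perm Ω} (ha : a ∈ S₁) (hb : b ∈ S₂) (x : Ω) : a (b x) = b (a x) := by
  rw [← Perm.mul_apply, h.comm a ha b hb, Perm.mul_apply]

/-- Case I of the key step -/
theorem key_aux (h : Dec P p S₁ S₂) {x : Ω} (hx : p x ≠ x) {s₁ s₂ : Perm Ω} (h1 : s₁ ∈ S₁) (h2 : s₂ ∈ S₂)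
    (ht : ∀ y ∈ MulAction.orbit P x, y ≠ x → y ≠ p x → s₁ (s₂ y) = y) (e1 : s₁ x = p x) (e2 : s₂ x = x)
    {a b : Perm Ω} (ha : a ∈ S₁) (hb : b ∈ S₂) (hax : a x ≠ x) (hax' : a x ≠ p x) (hbx : b x ≠ x) (hbx' : b x ≠ p x) :
    False := by
  have oa : a x ∈ MulAction.orbit P x := (mem_orbit_iff' P x _).2 ⟨a, (h.le1 a ha).1, rfl⟩
  have ob : b x ∈ MulAction.orbit P x := (mem_orbit_iff' P x _).2 ⟨b, (h.le2 b hb).1, rfl⟩
  have oab : a (b x) ∈ MulAction.orbit P x := (orbit_inv P x (h.le1 a ha).1 _).2 ob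
  have t1 := ht _ oa hax hax'
  rw [← h.cc ha h2, e2] at t1
  have t2 := ht _ ob hbx hbx'
  rw [h.cc h1 h2, h.cc h1 hb, e1, h.cp2 hb, h.cp2 h2] at t2
  have t3 : s₂ (b x) = p (b x) := by
    rw [← h.m.invol (s₂ (b x)), t2]
  have f1 : s₁ (a (b x)) = a (b x) := by
    rw [h.cc ha hb, h.cc h1 hb, t1]
  have f2 : s₂ (a (b x)) = p (a (b x)) := by
    rw [← h.cc ha h2, t3, h.cp1 ha]
  by_cases g1 : a (b x) = x
  · rw [g1, e1] at f1
    exact hx f1
  · by_cases g2 : a (b x) = p x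
    · rw [g2, h.cp1 h1, e1, h.m.invol] at f1
      exact hx f1.symm
    · have t4 := ht _ oab g1 g2
      rw [f2, h.cp1 h1, f1] at t4
      exact (h.m.ne_of_mem_orbit h.two hx oab) t4

/-- `S₂` fixes the pair of `x`, or `S₁` does -/
theorem key (h : Dec P p S₁ S₂) {x w : Ω} (hx : p x ≠ x) (hw : p w ≠ w) (hwx : w ∉ MulAction.orbit P x) :
    (∀ b ∈ S₂, b x = x ∨ b x = p x) ∨ ∀ a ∈ S₁, a x = x ∨ a x = p x := by
  by_contra hcon
  push Not at hcon
  obtain ⟨⟨b, hb, hb1, hb2⟩, a, ha, ha1, ha2⟩ := hcon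
  have hpw : p w ∉ MulAction.orbit P x := by
    intro h1
    apply hwx
    have h2 := h.m.orbit_p (p w)
    rw [h.m.invol, mem_orbit_iff'] at h2
    obtain ⟨g, hg, e⟩ := h2
    rw [← e, orbit_inv P x hg]
    exact h1
  have ox := MulAction.mem_orbit_self (M := P) x
  have opx := h.m.orbit_p x
  obtain ⟨s₁, h1, s₂, h2, ht⟩ := h.sup (swap x (p x) * swap w (p w)) (P.mul_mem (h.m.mem x) (h.m.mem w))
    (h.m.sign_two hx hw)
  have n1 : x ≠ w := fun e => hwx (e ▸ ox)
  have n2 : x ≠ p w := fun e => hpw (e ▸ ox)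
  have n3 : p x ≠ w := fun e => hwx (e ▸ opx)
  have n4 : p x ≠ p w := fun e => hpw (e ▸ opx)
  have ty : ∀ y ∈ MulAction.orbit P x, s₁ (s₂ y) = swap x (p x) y := by
    intro y hy
    have m1 : y ≠ w := fun e => hwx (e ▸ hy)
    have m2 : y ≠ p w := fun e => hpw (e ▸ hy)
    rw [← Perm.mul_apply, ← ht, Perm.mul_apply, swap_apply_of_ne_of_ne m1 m2]
  have tx : s₁ (s₂ x) = p x := by rw [ty x ox, swap_apply_left]
  have ty' : ∀ y ∈ MulAction.orbit P x, y ≠ x → y ≠ p x → s₁ (s₂ y) = y := by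
    intro y hy y1 y2
    rw [ty y hy, swap_apply_of_ne_of_ne y1 y2]
  -- `s₁ x ∈ {x, p x}`
  have s1x : s₁ x = x ∨ s₁ x = p x := by
    by_contra hn
    push Not at hn
    have o1 : s₁ x ∈ MulAction.orbit P x := (mem_orbit_iff' P x _).2 ⟨s₁, (h.le1 _ h1).1, rfl⟩
    have h3 := ty' _ o1 hn.1 hn.2
    rw [← h.cc h1 h2, tx] at h3
    exact hx (s₁.injective h3)
  rcases s1x with e | e
  · have e2 : s₂ x = p x := by
      rw [h.cc h1 h2, e] at tx
      exact tx
    refine h.symm.key_aux hx h2 h1 (fun y hy y1 y2 => ?_) e2 e hb ha hb1 hb2 ha1 ha2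
    rw [← h.cc h1 h2]
    exact ty' y hy y1 y2
  · have e2 : s₂ x = x := by
      apply s₁.injective
      rw [tx, e]
    exact h.key_aux hx h1 h2 ty' e e2 ha hb ha1 ha2 hb1 hb2

/-- an element of `P` may be corrected to be even without changing its value at `x` -/
theorem exists_even (m : IsMatching P p) {x w : Ω} (hw : p w ≠ w) (h1 : x ≠ w) (h2 : x ≠ p w) {g : Perm Ω} (hg : g ∈ P) :
    ∃ g' ∈ P, Perm.sign g' = 1 ∧ g' x = g x := by
  rcases Int.units_eq_one_or (Perm.sign g) with h | h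
  · exact ⟨g, hg, h, rfl⟩
  · refine ⟨g * swap w (p w), P.mul_mem hg (m.mem w), ?_, ?_⟩
    · rw [Perm.sign_mul, h, m.sign_swap hw]; norm_num
    · rw [Perm.mul_apply, swap_apply_of_ne_of_ne h1 h2]

/-- if `S₂` fixes the pair of `x`, each `b ∈ S₂` is constant on the orbit of `x` -/
theorem const (h : Dec P p S₁ S₂) {x w : Ω} (hx : p x ≠ x) (hw : p w ≠ w) (hwx : w ∉ MulAction.orbit P x)
    (hS : ∀ b ∈ S₂, b x = x ∨ b x = p x) {y : Ω} (hy : y ∈ MulAction.orbit P x) :
    ∀ b ∈ S₂, (b x = x → b y = y) ∧ (b x = p x → b y = p y) := by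
  rw [mem_orbit_iff'] at hy
  obtain ⟨g, hg, rfl⟩ := hy
  have ox := MulAction.mem_orbit_self (M := P) x
  have opx := h.m.orbit_p x
  have hpw : p w ∉ MulAction.orbit P x := by
    intro h1
    apply hwx
    have h2 := h.m.orbit_p (p w)
    rw [h.m.invol, mem_orbit_iff'] at h2
    obtain ⟨g, hg, e⟩ := h2
    rw [← e, orbit_inv P x hg]
    exact h1
  have n1 : x ≠ w := fun e => hwx (e ▸ ox)
  have n2 : x ≠ p w := fun e => hpw (e ▸ ox)
  obtain ⟨g', hg', hs, e⟩ := exists_even h.m hw n1 n2 hg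
  rw [← e]
  obtain ⟨a, ha, b', hb', rfl⟩ := h.sup g' hg' hs
  intro b hb
  have hb'x := hS b' hb'
  constructor
  · intro hbx
    rw [Perm.mul_apply, ← h.cc ha hb]
    congr 1
    rcases hb'x with e | e
    · rw [e, hbx]
    · rw [e, h.cp2 hb, hbx]
  · intro hbx
    rw [Perm.mul_apply, ← h.cc ha hb, ← h.cp1 ha]
    congr 1
    rcases hb'x with e | e
    · rw [e, hbx]
    · rw [e, h.cp2 hb, hbx]

theorem not_both (h : Dec P p S₁ S₂) {x w : Ω} (hx : p x ≠ x) (hw : p w ≠ w) (hwx : w ∉ MulAction.orbit P x)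
    (hbig : 4 ≤ (MulAction.orbit P x).ncard)
    (hS : ∀ b ∈ S₂, b x = x ∨ b x = p x) (hS' : ∀ a ∈ S₁, a x = x ∨ a x = p x) : False := by
  have hsub : MulAction.orbit P x ⊆ ({x, p x} : Set Ω) := by
    intro y hy
    rw [mem_orbit_iff'] at hy
    obtain ⟨g, hg, rfl⟩ := hy
    have ox := MulAction.mem_orbit_self (M := P) x
    have hpw : p w ∉ MulAction.orbit P x := by
      intro h1
      apply hwx
      have h2 := h.m.orbit_p (p w)
      rw [h.m.invol, mem_orbit_iff'] at h2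
      obtain ⟨g, hg, e⟩ := h2
      rw [← e, orbit_inv P x hg]
      exact h1
    have n1 : x ≠ w := fun e => hwx (e ▸ ox)
    have n2 : x ≠ p w := fun e => hpw (e ▸ ox)
    obtain ⟨g', hg', hs, e⟩ := exists_even h.m hw n1 n2 hg
    rw [← e]
    obtain ⟨a, ha, b, hb, rfl⟩ := h.sup g' hg' hs
    rw [Perm.mul_apply]
    rcases hS b hb with e1 | e1 <;> rcases hS' a ha with e2 | e2
    · rw [e1, e2]; simp
    · rw [e1, e2]; simp
    · rw [e1, h.cp1 ha, e2]; simp
    · rw [e1, h.cp1 ha, e2, h.m.invol]; simp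
  have h1 := Set.ncard_le_ncard hsub (Set.toFinite _)
  have h2 : ({x, p x} : Set Ω).ncard ≤ 2 := (Set.ncard_insert_le _ _).trans (by rw [Set.ncard_singleton])
  omega

theorem fixed (m : IsMatching P p) (hP : IsPGroup 2 P) {y : Ω} (hy : p y = y) {g : Perm Ω} (hg : g ∈ P) : g y = y := by
  have h1 := m.orbit_fixed hP hy
  have h2 : g y ∈ MulAction.orbit P y := (mem_orbit_iff' P y _).2 ⟨g, hg, rfl⟩
  rw [h1] at h2
  exact h2

/-- orbits of the two types cannot both occur -/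
theorem no_mixed (h : Dec P p S₁ S₂) (hbig : ∀ x, p x ≠ x → ∃ k, (MulAction.orbit P x).ncard = 4 * k)
    (hother : ∀ x, p x ≠ x → ∃ w, p w ≠ w ∧ w ∉ MulAction.orbit P x)
    {x w : Ω} (hx : p x ≠ x) (hw : p w ≠ w)
    (hS : ∀ b ∈ S₂, b x = x ∨ b x = p x) (hS' : ∀ a ∈ S₁, a w = w ∨ a w = p w) : False := by
  have hbig' : ∀ x, p x ≠ x → 4 ≤ (MulAction.orbit P x).ncard := by
    intro x hx
    obtain ⟨k, hk⟩ := hbig x hx
    have h1 : 0 < (MulAction.orbit P x).ncard := (Set.ncard_pos (Set.toFinite _)).2 ⟨x, MulAction.mem_orbit_self x⟩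
    omega
  have nb : ∀ y, p y ≠ y → (∀ b ∈ S₂, b y = y ∨ b y = p y) → (∀ a ∈ S₁, a y = y ∨ a y = p y) → False := by
    intro y hy h1 h2
    obtain ⟨v, hv, hvy⟩ := hother y hy
    exact h.not_both hy hv hvy (hbig' y hy) h1 h2
  have c2 : ∀ y z, p y ≠ y → (∀ b ∈ S₂, b y = y ∨ b y = p y) → z ∈ MulAction.orbit P y →
      ∀ b ∈ S₂, (b y = y → b z = z) ∧ (b y = p y → b z = p z) := by
    intro y z hy h1 hz
    obtain ⟨v, hv, hvy⟩ := hother y hy
    exact h.const hy hv hvy h1 hz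
  have c1 : ∀ y z, p y ≠ y → (∀ b ∈ S₁, b y = y ∨ b y = p y) → z ∈ MulAction.orbit P y →
      ∀ b ∈ S₁, (b y = y → b z = z) ∧ (b y = p y → b z = p z) := by
    intro y z hy h1 hz
    obtain ⟨v, hv, hvy⟩ := hother y hy
    exact h.symm.const hy hv hvy h1 hz
  obtain ⟨s₁, h1, s₂, h2, ht⟩ := h.sup (swap x (p x) * swap w (p w)) (P.mul_mem (h.m.mem x) (h.m.mem w))
    (h.m.sign_two hx hw)
  set g : Perm Ω := swap x (p x) * s₁ with hg
  have hg' : g = swap w (p w) * s₂⁻¹ := by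
    have : s₁ = swap x (p x) * swap w (p w) * s₂⁻¹ := by rw [ht]; group
    rw [hg, this, ← mul_assoc, ← mul_assoc, swap_mul_self, one_mul]
  have hgP : g ∈ P := P.mul_mem (h.m.mem x) (h.le1 _ h1).1
  -- values on the two types
  have v1 : ∀ y, p y ≠ y → (∀ b ∈ S₂, b y = y ∨ b y = p y) → g y = s₂⁻¹ y := by
    intro y hy hyS
    rw [hg', Perm.mul_apply]
    have n1 : y ≠ w := fun e => nb w hw (e ▸ hyS) hS'
    have n2 : y ≠ p w := by
      intro e
      apply nb w hw _ hS'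
      intro b hb
      have h3 := hyS b hb
      rw [e, h.cp2 hb, h.m.invol] at h3
      rcases h3 with h4 | h4
      · left; exact h.m.inj h4
      · right
        have := h.m.invol (b w)
        rw [h4] at this
        exact this.symm
    have n3 : p y ≠ w := fun e => n2 (by rw [← e, h.m.invol])
    have n4 : p y ≠ p w := fun e => n1 (h.m.inj e)
    rcases hyS _ (inv_mem h2) with e | e
    · rw [e, swap_apply_of_ne_of_ne n1 n2]
    · rw [e, swap_apply_of_ne_of_ne n3 n4]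
  have v2 : ∀ y, p y ≠ y → (∀ a ∈ S₁, a y = y ∨ a y = p y) → g y = s₁ y := by
    intro y hy hyS
    rw [hg, Perm.mul_apply]
    have n1 : y ≠ x := fun e => nb x hx hS (e ▸ hyS)
    have n2 : y ≠ p x := by
      intro e
      apply nb x hx hS
      intro b hb
      have h3 := hyS b hb
      rw [e, h.cp1 hb, h.m.invol] at h3
      rcases h3 with h4 | h4
      · left; exact h.m.inj h4
      · right
        have := h.m.invol (b x)
        rw [h4] at this
        exact this.symm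
    have n3 : p y ≠ x := fun e => n2 (by rw [← e, h.m.invol])
    have n4 : p y ≠ p x := fun e => n1 (h.m.inj e)
    rcases hyS _ h1 with e | e
    · rw [e, swap_apply_of_ne_of_ne n1 n2]
    · rw [e, swap_apply_of_ne_of_ne n3 n4]
  have ty : ∀ y, p y ≠ y → (∀ b ∈ S₂, b y = y ∨ b y = p y) ∨ ∀ a ∈ S₁, a y = y ∨ a y = p y := by
    intro y hy
    obtain ⟨v, hv, hvy⟩ := hother y hy
    exact h.key hy hv hvy
  have val : ∀ y, g y = y ∨ g y = p y := by
    intro y
    by_cases hy : p y = y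
    · left; exact fixed h.m h.two hy hgP
    · rcases ty y hy with h3 | h3
      · rw [v1 y hy h3]
        exact h3 _ (inv_mem h2)
      · rw [v2 y hy h3]
        exact h3 _ h1
  have cst : ∀ y z, p y ≠ y → z ∈ MulAction.orbit P y → g y = p y → g z = p z := by
    intro y z hy hz e
    have hz' := h.m.ne_of_mem_orbit h.two hy hz
    rcases ty y hy with h3 | h3
    · have h4 : ∀ b ∈ S₂, b z = z ∨ b z = p z := by
        intro b hb
        rcases h3 b hb with e | e
        · exact Or.inl ((c2 y z hy h3 hz b hb).1 e)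
        · exact Or.inr ((c2 y z hy h3 hz b hb).2 e)
      rw [v1 z hz' h4]
      rw [v1 y hy h3] at e
      exact (c2 y z hy h3 hz _ (inv_mem h2)).2 e
    · have h4 : ∀ b ∈ S₁, b z = z ∨ b z = p z := by
        intro b hb
        rcases h3 b hb with e | e
        · exact Or.inl ((c1 y z hy h3 hz b hb).1 e)
        · exact Or.inr ((c1 y z hy h3 hz b hb).2 e)
      rw [v2 z hz' h4]
      rw [v2 y hy h3] at e
      exact (c1 y z hy h3 hz _ h1).2 e
  have hgA : g ∈ alternatingGroup Ω := by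
    refine h.m.mem_closure_pairs h.two (alternatingGroup Ω) ?_ _ {y | p y ≠ y ∧ g y = p y} rfl ?_ ?_ ?_ g ?_ ?_
    · intro y z hy hz _ _
      rw [Perm.mem_alternatingGroup]
      exact h.m.sign_two hy (h.m.ne_of_mem_orbit h.two hy hz)
    · rintro y ⟨hy1, hy2⟩
      refine ⟨h.m.pp_ne hy1, ?_⟩
      rw [h.m.comm h.two hgP, hy2]
    · rintro y ⟨hy1, hy2⟩
      exact hy1
    · rintro y ⟨hy1, hy2⟩
      have : {y | p y ≠ y ∧ g y = p y} ∩ MulAction.orbit P y = MulAction.orbit P y := by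
        rw [Set.inter_eq_right]
        intro z hz
        exact ⟨h.m.ne_of_mem_orbit h.two hy1 hz, cst y z hy1 hz hy2⟩
      rw [this]
      obtain ⟨k, hk⟩ := hbig y hy1
      exact ⟨k, hk⟩
    · rintro y ⟨hy1, hy2⟩
      exact hy2
    · intro y hy
      rcases val y with e | e
      · exact e
      · by_cases hy' : p y = y
        · rw [e, hy']
        · exact absurd ⟨hy', e⟩ hy
  rw [Perm.mem_alternatingGroup, hg, Perm.sign_mul, h.m.sign_swap hx, (h.le1 _ h1).2] at hgA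
  norm_num at hgA

/-- if `S₂` fixes all pairs then it is trivial -/
theorem bot_of_all (P' : Sylow 2 (Perm Ω)) (h : Dec (P' : Subgroup (Perm Ω)) p S₁ S₂)
    (hbig : ∀ x, p x ≠ x → ∃ k, (MulAction.orbit (P' : Subgroup (Perm Ω)) x).ncard = 4 * k)
    (hother : ∀ x, p x ≠ x → ∃ w, p w ≠ w ∧ w ∉ MulAction.orbit (P' : Subgroup (Perm Ω)) x)
    (hall : ∀ x, p x ≠ x → ∀ b ∈ S₂, b x = x ∨ b x = p x) {b : Perm Ω} (hb : b ∈ S₂) : b = 1 := by
  have hall' : ∀ x, ∀ b ∈ S₂, b x = x ∨ b x = p x := by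
    intro x b hb
    by_cases hx : p x = x
    · left; exact fixed h.m h.two hx (h.le2 b hb).1
    · exact hall x hx b hb
  have hab : ∀ b ∈ S₂, ∀ c ∈ S₂, b * c = c * b := by
    intro b hb c hc
    ext y
    rw [Perm.mul_apply, Perm.mul_apply]
    rcases hall' y b hb with e | e <;> rcases hall' y c hc with e' | e'
    · rw [e, e', e]
    · rw [e, e', h.cp2 hb, e]
    · rw [e, e', h.cp2 hc, e', e]
    · rw [e, e', h.cp2 hb, h.cp2 hc, e, e']
  have hcomm : ∀ u ∈ (P' : Subgroup (Perm Ω)), Perm.sign u = 1 → ∀ k ∈ (P' : Subgroup (Perm Ω)), Perm.sign k = 1 →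
      u * k * u⁻¹ * k⁻¹ ∈ S₁ := by
    intro u hu hu1 k hk hk1
    obtain ⟨a1, ha1, b1, hb1, rfl⟩ := h.sup u hu hu1
    obtain ⟨a2, ha2, b2, hb2, rfl⟩ := h.sup k hk hk1
    have e : a1 * b1 * (a2 * b2) * (a1 * b1)⁻¹ * (a2 * b2)⁻¹ = a1 * a2 * a1⁻¹ * a2⁻¹ := by
      have c12 := h.comm a2 ha2 b1 hb1
      have c11 := h.comm a1⁻¹ (inv_mem ha1) b1⁻¹ (inv_mem hb1)
      have c22 := h.comm a2⁻¹ (inv_mem ha2) b2⁻¹ (inv_mem hb2)
      have d12 := h.comm a1⁻¹ (inv_mem ha1) b2 hb2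
      have d11 := h.comm a1⁻¹ (inv_mem ha1) b1 hb1
      have dd := hab b1 hb1 b2 hb2
      calc a1 * b1 * (a2 * b2) * (a1 * b1)⁻¹ * (a2 * b2)⁻¹
          = a1 * (b1 * a2) * b2 * (b1⁻¹ * a1⁻¹) * (b2⁻¹ * a2⁻¹) := by group
        _ = a1 * (a2 * b1) * b2 * (a1⁻¹ * b1⁻¹) * (a2⁻¹ * b2⁻¹) := by rw [c12, c11, c22]
        _ = a1 * a2 * b1 * (b2 * a1⁻¹) * b1⁻¹ * a2⁻¹ * b2⁻¹ := by group
        _ = a1 * a2 * b1 * (a1⁻¹ * b2) * b1⁻¹ * a2⁻¹ * b2⁻¹ := by rw [d12]
        _ = a1 * a2 * (b1 * a1⁻¹) * b2 * b1⁻¹ * a2⁻¹ * b2⁻¹ := by group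
        _ = a1 * a2 * (a1⁻¹ * b1) * b2 * b1⁻¹ * a2⁻¹ * b2⁻¹ := by rw [d11]
        _ = a1 * a2 * a1⁻¹ * (b1 * b2) * b1⁻¹ * a2⁻¹ * b2⁻¹ := by group
        _ = a1 * a2 * a1⁻¹ * (b2 * b1) * b1⁻¹ * a2⁻¹ * b2⁻¹ := by rw [dd]
        _ = a1 * a2 * a1⁻¹ * (b2 * a2⁻¹) * b2⁻¹ := by group
        _ = a1 * a2 * a1⁻¹ * (a2⁻¹ * b2) * b2⁻¹ := by rw [h.comm a2⁻¹ (inv_mem ha2) b2 hb2]
        _ = a1 * a2 * a1⁻¹ * a2⁻¹ := by group
    rw [e]
    exact S₁.mul_mem (S₁.mul_mem (S₁.mul_mem ha1 ha2) (inv_mem ha1)) (inv_mem ha2)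
  have hpairs : ∀ x y, p x ≠ x → y ∈ MulAction.orbit (P' : Subgroup (Perm Ω)) x → y ≠ x → y ≠ p x →
      swap x (p x) * swap y (p y) ∈ S₁ := by
    intro x y hx hy hyx hypx
    obtain ⟨w, hw, hwx⟩ := hother x hx
    obtain ⟨g, hg, hgx⟩ := (mem_orbit_iff' _ x _).1 hy
    obtain ⟨k₀, hk₀, hk1, hk2⟩ := exists_restrict P' (A := MulAction.orbit (P' : Subgroup (Perm Ω)) x)
      (fun g hg i => orbit_inv _ x hg i) hg
    have ox := MulAction.mem_orbit_self (M := (P' : Subgroup (Perm Ω))) x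
    have hpw : p w ∉ MulAction.orbit (P' : Subgroup (Perm Ω)) x := by
      intro h1
      apply hwx
      have h2 := h.m.orbit_p (p w)
      rw [h.m.invol, mem_orbit_iff'] at h2
      obtain ⟨g, hg, e⟩ := h2
      rw [← e, orbit_inv _ x hg]
      exact h1
    have n1 : x ≠ w := fun e => hwx (e ▸ ox)
    have n2 : x ≠ p w := fun e => hpw (e ▸ ox)
    obtain ⟨k, hk, hks, hkx, hkw⟩ : ∃ k ∈ (P' : Subgroup (Perm Ω)), Perm.sign k = 1 ∧ k x = y ∧
        (k w = w ∨ k w = p w) := by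
      rcases Int.units_eq_one_or (Perm.sign k₀) with hs | hs
      · exact ⟨k₀, hk₀, hs, by rw [hk1 x ox, hgx], Or.inl (hk2 w hwx)⟩
      · refine ⟨k₀ * swap w (p w), mul_mem hk₀ (h.m.mem w), ?_, ?_, Or.inr ?_⟩
        · rw [Perm.sign_mul, hs, h.m.sign_swap hw]; norm_num
        · rw [Perm.mul_apply, swap_apply_of_ne_of_ne n1 n2, hk1 x ox, hgx]
        · rw [Perm.mul_apply, swap_apply_left, hk2 _ hpw]
    have h3 := hcomm (swap x (p x) * swap w (p w)) (mul_mem (h.m.mem x) (h.m.mem w)) (h.m.sign_two hx hw) k hk hks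
    have hkpx : k (p x) = p y := by rw [h.m.comm h.two hk, hkx]
    have hkpw : swap (k w) (k (p w)) = swap w (p w) := by
      rw [h.m.comm h.two hk]
      rcases hkw with e | e
      · rw [e]
      · rw [e, h.m.invol, swap_comm]
    have e : swap x (p x) * swap w (p w) * k * (swap x (p x) * swap w (p w))⁻¹ * k⁻¹ = swap x (p x) * swap y (p y) := by
      have e1 : k * swap x (p x) * k⁻¹ = swap y (p y) := by rw [swap_conj, hkx, hkpx]
      have e2 : k * swap w (p w) * k⁻¹ = swap w (p w) := by rw [swap_conj, hkpw]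
      have e3 : (swap x (p x) * swap w (p w))⁻¹ = swap w (p w) * swap x (p x) := by
        rw [mul_inv_rev, swap_inv, swap_inv]
      rw [e3]
      calc swap x (p x) * swap w (p w) * k * (swap w (p w) * swap x (p x)) * k⁻¹
          = swap x (p x) * swap w (p w) * (k * swap w (p w) * k⁻¹) * (k * swap x (p x) * k⁻¹) := by group
        _ = swap x (p x) * (swap w (p w) * swap w (p w)) * swap y (p y) := by rw [e1, e2, mul_assoc (swap x (p x))]
        _ = swap x (p x) * swap y (p y) := by rw [swap_mul_self, mul_one]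
    rw [e] at h3
    exact h3
  apply h.inf b _ hb
  have hbP := (h.le2 b hb).1
  refine h.m.mem_closure_pairs h.two S₁ hpairs _ {y | p y ≠ y ∧ b y = p y} rfl ?_ ?_ ?_ b ?_ ?_
  · rintro y ⟨hy1, hy2⟩
    refine ⟨h.m.pp_ne hy1, ?_⟩
    rw [h.cp2 hb, hy2]
  · rintro y ⟨hy1, hy2⟩
    exact hy1
  · rintro y ⟨hy1, hy2⟩
    have : {y | p y ≠ y ∧ b y = p y} ∩ MulAction.orbit (P' : Subgroup (Perm Ω)) y =
        MulAction.orbit (P' : Subgroup (Perm Ω)) y := by
      rw [Set.inter_eq_right]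
      intro z hz
      obtain ⟨w, hw, hwy⟩ := hother y hy1
      exact ⟨h.m.ne_of_mem_orbit h.two hy1 hz, (h.const hy1 hw hwy (hall y hy1) hz b hb).2 hy2⟩
    rw [this]
    obtain ⟨k, hk⟩ := hbig y hy1
    exact ⟨k, hk⟩
  · rintro y ⟨hy1, hy2⟩
    exact hy2
  · intro y hy
    rcases hall' y b hb with e | e
    · exact e
    · by_cases hy' : p y = y
      · rw [e, hy']
      · exact absurd ⟨hy', e⟩ hy

/-- **all orbits of size divisible by 4 and at least two nontrivial orbits: `P ∩ Alt` is indecomposable** -/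
theorem trivial (P' : Sylow 2 (Perm Ω)) (h : Dec (P' : Subgroup (Perm Ω)) p S₁ S₂)
    (hbig : ∀ x, p x ≠ x → ∃ k, (MulAction.orbit (P' : Subgroup (Perm Ω)) x).ncard = 4 * k)
    (hother : ∀ x, p x ≠ x → ∃ w, p w ≠ w ∧ w ∉ MulAction.orbit (P' : Subgroup (Perm Ω)) x) :
    (∀ a ∈ S₁, a = 1) ∨ ∀ b ∈ S₂, b = 1 := by
  by_cases hall : ∀ x, p x ≠ x → ∀ b ∈ S₂, b x = x ∨ b x = p x
  · right
    intro b hb
    exact bot_of_all P' h hbig hother hall hb
  · left
    intro a ha
    refine bot_of_all P' h.symm hbig hother (fun x hx => ?_) ha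
    push Not at hall
    obtain ⟨w, hw, b, hb, hb1, hb2⟩ := hall
    obtain ⟨v, hv, hvx⟩ := hother x hx
    rcases h.key hx hv hvx with h1 | h1
    · exfalso
      obtain ⟨u, hu, huw⟩ := hother w hw
      rcases h.key hw hu huw with h2 | h2
      · rcases h2 b hb with e | e
        · exact hb1 e
        · exact hb2 e
      · exact h.no_mixed hbig hother hx hw h1 h2
    · exact h1

end Dec

end Cfsg.Agent.H94.Syl2Sym
end

-- part: H94/DecompMain
section
/-!
# Direct decompositions of the even part of a Sylow 2-subgroup, the main statements (helper94)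
-/

set_option autoImplicit false
set_option linter.unusedSectionVars false
set_option linter.unusedVariables false

namespace Cfsg.Agent.H94.Syl2Sym

open Equiv Subgroup

theorem mem_sup_of_comm {G : Type*} [Group G] {A B : Subgroup G} (h : ∀ a ∈ A, ∀ b ∈ B, a * b = b * a) {g : G} :
    g ∈ A ⊔ B ↔ ∃ a ∈ A, ∃ b ∈ B, g = a * b := by
  constructor
  · intro hg
    let K : Subgroup G :=
      { carrier := {g | ∃ a ∈ A, ∃ b ∈ B, g = a * b}
        mul_mem' := by
          rintro _ _ ⟨a, ha, b, hb, rfl⟩ ⟨a', ha', b', hb', rfl⟩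
          refine ⟨a * a', A.mul_mem ha ha', b * b', B.mul_mem hb hb', ?_⟩
          calc a * b * (a' * b') = a * (b * a') * b' := by group
            _ = a * (a' * b) * b' := by rw [h a' ha' b hb]
            _ = a * a' * (b * b') := by group
        one_mem' := ⟨1, A.one_mem, 1, B.one_mem, by simp⟩
        inv_mem' := by
          rintro _ ⟨a, ha, b, hb, rfl⟩
          refine ⟨a⁻¹, A.inv_mem ha, b⁻¹, B.inv_mem hb, ?_⟩
          rw [mul_inv_rev, h _ (A.inv_mem ha) _ (B.inv_mem hb)] }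
    have hA : A ≤ K := fun a ha => ⟨a, ha, 1, B.one_mem, by simp⟩
    have hB : B ≤ K := fun b hb => ⟨1, A.one_mem, b, hb, by simp⟩
    exact (sup_le hA hB) hg
  · rintro ⟨a, ha, b, hb, rfl⟩
    exact Subgroup.mul_mem_sup ha hb

section arith

theorem split_sum (s : Finset ℕ) : ∑ i ∈ s, 2 ^ i = ((if 0 ∈ s then 1 else 0) + (if 1 ∈ s then 2 else 0)) +
    ∑ i ∈ s.filter (fun i => 2 ≤ i), 2 ^ i := by
  rw [← Finset.sum_filter_add_sum_filter_not s (fun i => 2 ≤ i), add_comm]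
  congr 1
  have : s.filter (fun i => ¬ 2 ≤ i) = (if 0 ∈ s then {0} else ∅) ∪ (if 1 ∈ s then {1} else ∅) := by
    ext i
    rw [Finset.mem_filter, Finset.mem_union]
    constructor
    · rintro ⟨h1, h2⟩
      have : i = 0 ∨ i = 1 := by omega
      rcases this with rfl | rfl
      · left; rw [if_pos h1]; simp
      · right; rw [if_pos h1]; simp
    · rintro (h | h)
      · split_ifs at h with h1
        · rw [Finset.mem_singleton] at h
          subst h
          exact ⟨h1, by omega⟩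
        · simp at h
      · split_ifs at h with h1
        · rw [Finset.mem_singleton] at h
          subst h
          exact ⟨h1, by omega⟩
        · simp at h
  rw [this]
  split_ifs <;> simp

theorem four_dvd (s : Finset ℕ) : 4 ∣ ∑ i ∈ s.filter (fun i => 2 ≤ i), 2 ^ i := by
  apply Finset.dvd_sum
  intro i hi
  rw [Finset.mem_filter] at hi
  exact pow_dvd_pow 2 hi.2

theorem big_part {n : ℕ} {s : Finset ℕ} (hn : n = ∑ i ∈ s, 2 ^ i) :
    4 * (n / 4) = ∑ i ∈ s.filter (fun i => 2 ≤ i), 2 ^ i := by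
  have h1 := split_sum s
  have h2 := four_dvd s
  rw [← hn] at h1
  split_ifs at h1 <;> omega

theorem one_mem_iff {n : ℕ} {s : Finset ℕ} (hn : n = ∑ i ∈ s, 2 ^ i) : 1 ∈ s ↔ 2 ≤ n % 4 := by
  have h1 := split_sum s
  have h2 := four_dvd s
  rw [← hn] at h1
  constructor
  · intro h
    rw [if_pos h] at h1
    split_ifs at h1 <;> omega
  · intro h
    by_contra hcon
    rw [if_neg hcon] at h1
    split_ifs at h1 <;> omega

theorem single {n r : ℕ} {s : Finset ℕ} (hn : n = ∑ i ∈ s, 2 ^ i) (h : 4 * (n / 4) = 2 ^ r) :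
    s.filter (fun i => 2 ≤ i) = {r} := by
  rw [big_part hn] at h
  apply Finset.geomSum_injective (n := 2) le_rfl
  simpa using h

theorem exists_one {n : ℕ} {s : Finset ℕ} (hn : n = ∑ i ∈ s, 2 ^ i) (h4 : 4 ≤ n) : ∃ i ∈ s, 2 ≤ i := by
  by_contra hcon
  push Not at hcon
  have h1 := big_part hn
  have : s.filter (fun i => 2 ≤ i) = ∅ := by
    rw [Finset.filter_eq_empty_iff]
    intro i hi h2
    have := hcon i hi
    omega
  rw [this] at h1
  simp at h1
  omega

theorem exists_two {n : ℕ} {s : Finset ℕ} (hn : n = ∑ i ∈ s, 2 ^ i) (h : ∀ r, 4 * (n / 4) ≠ 2 ^ r)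
    {i : ℕ} (hi : i ∈ s) (hi2 : 2 ≤ i) : ∃ j ∈ s, 2 ≤ j ∧ j ≠ i := by
  by_contra hcon
  push Not at hcon
  have h1 := big_part hn
  have : s.filter (fun i => 2 ≤ i) = {i} := by
    ext j
    rw [Finset.mem_filter, Finset.mem_singleton]
    constructor
    · rintro ⟨a, b⟩; exact hcon j a b
    · rintro rfl; exact ⟨hi, hi2⟩
  rw [this] at h1
  simp at h1
  exact h i h1

end arith

variable {Ω : Type*} [DecidableEq Ω] [Fintype Ω]

/-- choose a nonfixed point outside a small set -/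
theorem IsMatching.pick {P : Subgroup (Perm Ω)} {p : Ω → Ω} (hp : IsMatching P p) (s : Finset Ω)
    (hs : s.card + 2 ≤ Fintype.card Ω) : ∃ z, z ∉ s ∧ p z ≠ z := by
  have h1 : 1 < (Finset.univ \ s).card := by
    have := Finset.card_sdiff_add_card_inter Finset.univ s
    rw [Finset.univ_inter, Finset.card_univ] at this
    omega
  obtain ⟨a, ha, b, hb, hab⟩ := Finset.one_lt_card.1 h1
  by_cases h2 : p a = a
  · exact ⟨b, by simpa using hb, fun h3 => hab (hp.fixed a b h2 h3)⟩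
  · exact ⟨a, by simpa using ha, h2⟩

theorem swap_two_apply {x y z w : Ω} (σ : Perm Ω) (hxy : x ≠ y) (hzx : z ≠ x) (hwx : w ≠ x)
    (hc : σ * (swap x y * swap z w) = (swap x y * swap z w) * σ) :
    σ x = x ∨ σ x = y ∨ σ x = z ∨ σ x = w := by
  by_contra hcon
  push Not at hcon
  obtain ⟨h1, h2, h3, h4⟩ := hcon
  have h5 := congrArg (fun f : Perm Ω => f x) hc
  simp only [Perm.mul_apply] at h5
  rw [swap_apply_of_ne_of_ne hzx.symm hwx.symm, swap_apply_left, swap_apply_of_ne_of_ne h3 h4,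
    swap_apply_of_ne_of_ne h1 h2] at h5
  exact hxy (σ.injective h5).symm

/-- an element of `P` centralising the even part of `P` fixes all pairs -/
theorem central_val {P : Subgroup (Perm Ω)} {p : Ω → Ω} (m : IsMatching P p) (hP : IsPGroup 2 P)
    (hc6 : 6 ≤ Fintype.card Ω) {c : Perm Ω} (hc : c ∈ P) (hcc : ∀ g ∈ P, Perm.sign g = 1 → c * g = g * c) (x : Ω) :
    c x = x ∨ c x = p x := by
  by_cases hx : p x = x
  · left; exact Dec.fixed m hP hx hc
  obtain ⟨y, hy, hy2⟩ := m.pick {x, p x} (by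
    have := Finset.card_le_two (a := x) (b := p x)
    omega)
  obtain ⟨z, hz, hz2⟩ := m.pick {x, p x, y, p y} (by
    have := Finset.card_le_four (a := x) (b := p x) (c := y) (d := p y)
    omega)
  simp only [Finset.mem_insert, Finset.mem_singleton, not_or] at hy hz
  have hpyx : p y ≠ x := fun e => hy.2 (by rw [← e, m.invol])
  have hpzx : p z ≠ x := fun e => hz.2.1 (by rw [← e, m.invol])
  have hpzy : p z ≠ y := fun e => hz.2.2.2 (by rw [← e, m.invol])
  have hpzpy : p z ≠ p y := fun e => hz.2.2.1 (m.inj e)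
  have h1 := swap_two_apply c (Ne.symm hx) hy.1 hpyx
    (hcc _ (P.mul_mem (m.mem x) (m.mem y)) (m.sign_two hx hy2))
  have h2 := swap_two_apply c (Ne.symm hx) hz.1 hpzx
    (hcc _ (P.mul_mem (m.mem x) (m.mem z)) (m.sign_two hx hz2))
  rcases h1 with h1 | h1 | h1 | h1
  · exact Or.inl h1
  · exact Or.inr h1
  · rcases h2 with h2 | h2 | h2 | h2
    · exact Or.inl h2
    · exact Or.inr h2
    · exact absurd (h2.symm.trans h1) hz.2.2.1
    · exact absurd (h2.symm.trans h1) hpzy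
  · rcases h2 with h2 | h2 | h2 | h2
    · exact Or.inl h2
    · exact Or.inr h2
    · exact absurd (h2.symm.trans h1) hz.2.2.2
    · exact absurd (h2.symm.trans h1) hpzpy

/-- it is constant on orbits -/
theorem central_const {P : Subgroup (Perm Ω)} {p : Ω → Ω} (m : IsMatching P p) (hP : IsPGroup 2 P)
    (hc6 : 6 ≤ Fintype.card Ω) {c : Perm Ω} (hc : c ∈ P) (hcc : ∀ g ∈ P, Perm.sign g = 1 → c * g = g * c)
    {x y : Ω} (hy : y ∈ MulAction.orbit P x) : (c x = x → c y = y) ∧ (c x = p x → c y = p y) := by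
  obtain ⟨w, hw, hw2⟩ := m.pick {x, p x} (by
    have := Finset.card_le_two (a := x) (b := p x)
    omega)
  simp only [Finset.mem_insert, Finset.mem_singleton, not_or] at hw
  obtain ⟨g, hg, hgx⟩ := (mem_orbit_iff' _ x _).1 hy
  have n2 : x ≠ p w := fun e => hw.2 (by rw [e, m.invol])
  obtain ⟨g', hg', hs, e⟩ := Dec.exists_even m hw2 (Ne.symm hw.1) n2 hg
  have h1 := hcc g' hg' hs
  have h2 : c (g' x) = g' (c x) := by rw [← Perm.mul_apply, h1, Perm.mul_apply]
  rw [← hgx, ← e, h2]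
  constructor
  · intro h; rw [h]
  · intro h; rw [h, m.comm hP hg']

theorem orbit_card_cases (P : Sylow 2 (Perm Ω)) (x : Ω) : (MulAction.orbit (P : Subgroup (Perm Ω)) x).ncard = 1 ∨
    (MulAction.orbit (P : Subgroup (Perm Ω)) x).ncard = 2 ∨
    ∃ k, 0 < k ∧ (MulAction.orbit (P : Subgroup (Perm Ω)) x).ncard = 4 * k := by
  obtain ⟨k, hk⟩ := orbit_card P x
  rw [hk]
  match k with
  | 0 => left; rfl
  | 1 => right; left; rfl
  | (j + 2) => right; right; exact ⟨2 ^ j, by positivity, by ring⟩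

/-- orbits of size 2 are pairs -/
theorem orbit_two {P : Sylow 2 (Perm Ω)} {p : Ω → Ω} (m : IsMatching (P : Subgroup (Perm Ω)) p) {x : Ω}
    (h : (MulAction.orbit (P : Subgroup (Perm Ω)) x).ncard = 2) :
    p x ≠ x ∧ MulAction.orbit (P : Subgroup (Perm Ω)) x = {x, p x} := by
  have hx : p x ≠ x := by
    intro e
    rw [m.orbit_fixed P.isPGroup' e, Set.ncard_singleton] at h
    omega
  refine ⟨hx, ?_⟩
  symm
  apply Set.eq_of_subset_of_ncard_le _ _ (Set.toFinite _)
  · rintro y (rfl | rfl)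
    · exact MulAction.mem_orbit_self _
    · exact m.orbit_p x
  · rw [h, Set.ncard_pair hx.symm]

/-- a central element which is trivial on the big orbits is trivial -/
theorem central_one (P : Sylow 2 (Perm Ω)) {p : Ω → Ω} (m : IsMatching (P : Subgroup (Perm Ω)) p)
    (hc6 : 6 ≤ Fintype.card Ω) {c : Perm Ω} (hc : c ∈ (P : Subgroup (Perm Ω))) (hs : Perm.sign c = 1)
    (hcc : ∀ g ∈ (P : Subgroup (Perm Ω)), Perm.sign g = 1 → c * g = g * c)
    (hbig : ∀ x, 4 ≤ (MulAction.orbit (P : Subgroup (Perm Ω)) x).ncard → c x = x) : c = 1 := by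
  by_contra hne
  have hP := P.isPGroup'
  obtain ⟨x, hx⟩ : ∃ x, c x ≠ x := by
    by_contra hcon
    push Not at hcon
    exact hne (Equiv.ext hcon)
  have hcx : c x = p x := (central_val m hP hc6 hc hcc x).resolve_left hx
  have h2 : (MulAction.orbit (P : Subgroup (Perm Ω)) x).ncard = 2 := by
    rcases orbit_card_cases P x with h | h | ⟨k, hk, h⟩
    · exfalso
      rw [Set.ncard_eq_one] at h
      obtain ⟨a, ha⟩ := h
      have h3 : x ∈ ({a} : Set Ω) := ha ▸ MulAction.mem_orbit_self x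
      have h4 : c x ∈ ({a} : Set Ω) := ha ▸ (mem_orbit_iff' _ x _).2 ⟨c, hc, rfl⟩
      exact hx ((Set.mem_singleton_iff.1 h4).trans (Set.mem_singleton_iff.1 h3).symm)
    · exact h
    · exact absurd (hbig x (by omega)) hx
  obtain ⟨hpx, horb⟩ := orbit_two m h2
  have hceq : c = swap x (p x) := by
    ext y
    by_cases h5 : y = x
    · rw [h5, hcx, swap_apply_left]
    by_cases h6 : y = p x
    · rw [h6, m.comm hP hc, hcx, m.invol, swap_apply_right]
    · rw [swap_apply_of_ne_of_ne h5 h6]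
      rcases orbit_card_cases P y with h | h | ⟨k, hk, h⟩
      · rw [Set.ncard_eq_one] at h
        obtain ⟨a, ha⟩ := h
        have h3 : y ∈ ({a} : Set Ω) := ha ▸ MulAction.mem_orbit_self y
        have h4 : c y ∈ ({a} : Set Ω) := ha ▸ (mem_orbit_iff' _ y _).2 ⟨c, hc, rfl⟩
        exact (Set.mem_singleton_iff.1 h4).trans (Set.mem_singleton_iff.1 h3).symm
      · exfalso
        have h7 := orbit_eq_of_card P (h.trans h2.symm)
        have h8 := MulAction.mem_orbit_self (M := (P : Subgroup (Perm Ω))) y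
        rw [h7, horb] at h8
        rcases h8 with h9 | h9
        · exact h5 h9
        · exact h6 h9
      · exact hbig y (by omega)
  rw [hceq, m.sign_swap hpx] at hs
  norm_num at hs

/-- if there is only one big orbit, a nontrivial central element of the even part is unique -/
theorem central_eq (P : Sylow 2 (Perm Ω)) {p : Ω → Ω} (m : IsMatching (P : Subgroup (Perm Ω)) p)
    (hc6 : 6 ≤ Fintype.card Ω)
    (h1 : ∀ x y : Ω, 4 ≤ (MulAction.orbit (P : Subgroup (Perm Ω)) x).ncard →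
      4 ≤ (MulAction.orbit (P : Subgroup (Perm Ω)) y).ncard → y ∈ MulAction.orbit (P : Subgroup (Perm Ω)) x)
    {c c' : Perm Ω} (hc : c ∈ (P : Subgroup (Perm Ω))) (hs : Perm.sign c = 1)
    (hcc : ∀ g ∈ (P : Subgroup (Perm Ω)), Perm.sign g = 1 → c * g = g * c) (hc1 : c ≠ 1)
    (hc' : c' ∈ (P : Subgroup (Perm Ω))) (hs' : Perm.sign c' = 1)
    (hcc' : ∀ g ∈ (P : Subgroup (Perm Ω)), Perm.sign g = 1 → c' * g = g * c') (hc1' : c' ≠ 1) : c = c' := by
  have hP := P.isPGroup'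
  have key : ∀ c ∈ (P : Subgroup (Perm Ω)), Perm.sign c = 1 →
      (∀ g ∈ (P : Subgroup (Perm Ω)), Perm.sign g = 1 → c * g = g * c) → c ≠ 1 →
      ∀ y, 4 ≤ (MulAction.orbit (P : Subgroup (Perm Ω)) y).ncard → c y = p y := by
    intro c hc hs hcc hc1 y hy
    have hex : ∃ x, 4 ≤ (MulAction.orbit (P : Subgroup (Perm Ω)) x).ncard ∧ c x ≠ x := by
      by_contra hcon
      push Not at hcon
      exact hc1 (central_one P m hc6 hc hs hcc hcon)
    obtain ⟨x, hx, hcx⟩ := hex
    have hcx' : c x = p x := (central_val m hP hc6 hc hcc x).resolve_left hcx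
    exact (central_const m hP hc6 hc hcc (h1 x y hx hy)).2 hcx'
  have k1 := key c hc hs hcc hc1
  have k2 := key c' hc' hs' hcc' hc1'
  have k3 : c * c'⁻¹ = 1 := by
    apply central_one P m hc6 (mul_mem hc (inv_mem hc'))
    · rw [Perm.sign_mul, Perm.sign_inv, hs, hs']; norm_num
    · intro g hg hsg
      have e1 := hcc g hg hsg
      have e2 := hcc' g hg hsg
      have e3 : c'⁻¹ * g = g * c'⁻¹ := by
        rw [inv_mul_eq_iff_eq_mul, ← mul_assoc, e2, mul_assoc, mul_inv_cancel, mul_one]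
      rw [mul_assoc, e3, ← mul_assoc, e1, mul_assoc]
    · intro x hx
      rw [Perm.mul_apply]
      have h2 : c'⁻¹ x = p x := by
        rw [Perm.inv_eq_iff_eq, m.comm hP hc', k2 x hx, m.invol]
      rw [h2, m.comm hP hc, k1 x hx, m.invol]
  exact mul_inv_eq_one.1 k3

/-- **only one big orbit: `P ∩ Alt` is indecomposable** -/
theorem trivial_of_one (P : Sylow 2 (Perm Ω)) {p : Ω → Ω} {S₁ S₂ : Subgroup (Perm Ω)}
    (h : Dec (P : Subgroup (Perm Ω)) p S₁ S₂) (hc6 : 6 ≤ Fintype.card Ω)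
    (h1 : ∀ x y : Ω, 4 ≤ (MulAction.orbit (P : Subgroup (Perm Ω)) x).ncard →
      4 ≤ (MulAction.orbit (P : Subgroup (Perm Ω)) y).ncard → y ∈ MulAction.orbit (P : Subgroup (Perm Ω)) x)
    (hS₁ : S₁ ≠ ⊥) (hS₂ : S₂ ≠ ⊥) : False := by
  have hP := P.isPGroup'
  have : Fact (Nat.Prime 2) := ⟨Nat.prime_two⟩
  have key : ∀ S : Subgroup (Perm Ω), (∀ a ∈ S, a ∈ (P : Subgroup (Perm Ω)) ∧ Perm.sign a = 1) → S ≠ ⊥ →
      ∃ c ∈ S, c ≠ 1 ∧ ∀ a ∈ S, c * a = a * c := by
    intro S hS hne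
    have hpg : IsPGroup 2 S := hP.to_le (fun a ha => (hS a ha).1)
    have : Nontrivial S := (Subgroup.nontrivial_iff_ne_bot S).2 hne
    have := hpg.center_nontrivial
    obtain ⟨⟨c, hc⟩, hc1⟩ := exists_ne (1 : center S)
    refine ⟨c, c.2, fun e => hc1 ?_, fun a ha => ?_⟩
    · apply Subtype.ext
      apply Subtype.ext
      exact e
    · have := (Subgroup.mem_center_iff.1 hc ⟨a, ha⟩)
      exact (congrArg Subtype.val this).symm
  obtain ⟨c, hc, hc1, hcc⟩ := key S₁ h.le1 hS₁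
  obtain ⟨c', hc', hc1', hcc'⟩ := key S₂ h.le2 hS₂
  have e := central_eq P h.m hc6 h1 (h.le1 c hc).1 (h.le1 c hc).2 (by
      intro g hg hs
      obtain ⟨a, ha, b, hb, rfl⟩ := h.sup g hg hs
      rw [← mul_assoc, hcc a ha, mul_assoc, h.comm c hc b hb, mul_assoc]) hc1 (h.le2 c' hc').1 (h.le2 c' hc').2 (by
      intro g hg hs
      obtain ⟨a, ha, b, hb, rfl⟩ := h.sup g hg hs
      rw [← mul_assoc, ← h.comm a ha c' hc', mul_assoc, hcc' b hb, mul_assoc]) hc1'
  exact hc1 (h.inf c hc (e ▸ hc'))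

/-- **an orbit of size 2 and two big orbits: `P ∩ Alt` decomposes** -/
theorem exists_dec (P : Sylow 2 (Perm Ω)) {u a b : Ω}
    (hu : (MulAction.orbit (P : Subgroup (Perm Ω)) u).ncard = 2)
    (ha : 4 ≤ (MulAction.orbit (P : Subgroup (Perm Ω)) a).ncard)
    (hb : 4 ≤ (MulAction.orbit (P : Subgroup (Perm Ω)) b).ncard)
    (hab : b ∉ MulAction.orbit (P : Subgroup (Perm Ω)) a) :
    ∃ S₁ S₂ : Subgroup (Perm Ω), S₁ ≠ ⊥ ∧ S₂ ≠ ⊥ ∧ S₁ ≤ (P : Subgroup (Perm Ω)) ⊓ alternatingGroup Ω ∧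
      S₂ ≤ (P : Subgroup (Perm Ω)) ⊓ alternatingGroup Ω ∧ (∀ x ∈ S₁, ∀ y ∈ S₂, x * y = y * x) ∧ S₁ ⊓ S₂ = ⊥ ∧
      S₁ ⊔ S₂ = (P : Subgroup (Perm Ω)) ⊓ alternatingGroup Ω := by
  obtain ⟨p, m⟩ := exists_matching P
  have hP := P.isPGroup'
  obtain ⟨hpu, horb⟩ := orbit_two m hu
  set A := MulAction.orbit (P : Subgroup (Perm Ω)) a with hA
  have hAinv : ∀ g ∈ (P : Subgroup (Perm Ω)), ∀ i, g i ∈ A ↔ i ∈ A := fun g hg i => orbit_inv _ a hg i
  have hCinv : ∀ g ∈ (P : Subgroup (Perm Ω)), ∀ i, g i ∈ ({u, p u} : Set Ω) ↔ i ∈ ({u, p u} : Set Ω) := by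
    intro g hg i
    rw [← horb]
    exact orbit_inv _ u hg i
  have huA : u ∉ A := by
    intro h
    have := MulAction.orbit_eq_iff.2 h
    rw [this, ← hA] at hu
    omega
  have hpuA : p u ∉ A := by
    intro h
    apply huA
    have h3 := (hAinv _ (m.mem u) u)
    rw [swap_apply_left] at h3
    exact h3.1 h
  have hbu : b ∉ ({u, p u} : Set Ω) := by
    intro h
    rw [← horb] at h
    have := MulAction.orbit_eq_iff.2 h
    rw [this] at hb
    omega
  have big_ne : ∀ x, 4 ≤ (MulAction.orbit (P : Subgroup (Perm Ω)) x).ncard → p x ≠ x := by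
    intro x hx e
    rw [m.orbit_fixed hP e, Set.ncard_singleton] at hx
    omega
  have hpa := big_ne a ha
  have hpb := big_ne b hb
  have haA : a ∈ A := MulAction.mem_orbit_self a
  have hpaA : p a ∈ A := m.orbit_p a
  let S₁ : Subgroup (Perm Ω) :=
    { carrier := {g | (g ∈ (P : Subgroup (Perm Ω)) ∧ g ∈ alternatingGroup Ω) ∧ ∀ x, x ∉ A → x ∉ ({u, p u} : Set Ω) → g x = x}
      mul_mem' := by
        rintro g g' ⟨⟨h1, h2⟩, h3⟩ ⟨⟨h1', h2'⟩, h3'⟩
        refine ⟨⟨mul_mem h1 h1', mul_mem h2 h2'⟩, fun x hx hx' => ?_⟩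
        rw [Perm.mul_apply, h3' x hx hx', h3 x hx hx']
      one_mem' := ⟨⟨one_mem _, one_mem _⟩, fun x _ _ => rfl⟩
      inv_mem' := by
        rintro g ⟨⟨h1, h2⟩, h3⟩
        refine ⟨⟨inv_mem h1, inv_mem h2⟩, fun x hx hx' => ?_⟩
        rw [Perm.inv_eq_iff_eq, h3 x hx hx'] }
  let S₂ : Subgroup (Perm Ω) :=
    { carrier := {g | (g ∈ (P : Subgroup (Perm Ω)) ∧ g ∈ alternatingGroup Ω) ∧ ∀ x ∈ A, g x = x}
      mul_mem' := by
        rintro g g' ⟨⟨h1, h2⟩, h3⟩ ⟨⟨h1', h2'⟩, h3'⟩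
        refine ⟨⟨mul_mem h1 h1', mul_mem h2 h2'⟩, fun x hx => ?_⟩
        rw [Perm.mul_apply, h3' x hx, h3 x hx]
      one_mem' := ⟨⟨one_mem _, one_mem _⟩, fun x _ => rfl⟩
      inv_mem' := by
        rintro g ⟨⟨h1, h2⟩, h3⟩
        refine ⟨⟨inv_mem h1, inv_mem h2⟩, fun x hx => ?_⟩
        rw [Perm.inv_eq_iff_eq, h3 x hx] }
  have mem1 : ∀ g, g ∈ S₁ ↔ (g ∈ (P : Subgroup (Perm Ω)) ∧ g ∈ alternatingGroup Ω) ∧
      ∀ x, x ∉ A → x ∉ ({u, p u} : Set Ω) → g x = x := fun g => Iff.rfl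
  have mem2 : ∀ g, g ∈ S₂ ↔ (g ∈ (P : Subgroup (Perm Ω)) ∧ g ∈ alternatingGroup Ω) ∧ ∀ x ∈ A, g x = x := fun g => Iff.rfl
  -- two elements commute on `{u, p u}`
  have hval : ∀ g ∈ (P : Subgroup (Perm Ω)), (g u = u ∧ g (p u) = p u) ∨ (g u = p u ∧ g (p u) = u) := by
    intro g hg
    have h1 := (hCinv g hg u).2 (by simp)
    rcases h1 with h1 | h1
    · left; exact ⟨h1, by rw [m.comm hP hg, h1]⟩
    · right
      rw [Set.mem_singleton_iff] at h1
      exact ⟨h1, by rw [m.comm hP hg, h1, m.invol]⟩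
  have hcommC : ∀ g ∈ (P : Subgroup (Perm Ω)), ∀ h ∈ (P : Subgroup (Perm Ω)), ∀ x ∈ ({u, p u} : Set Ω), g (h x) = h (g x) := by
    intro g hg h hh x hx
    rcases hval g hg with ⟨a1, a2⟩ | ⟨a1, a2⟩ <;> rcases hval h hh with ⟨b1, b2⟩ | ⟨b1, b2⟩ <;>
      rcases hx with rfl | rfl <;> simp [a1, a2, b1, b2]
  refine ⟨S₁, S₂, ?_, ?_, fun g hg => hg.1, fun g hg => hg.1, ?_, ?_, ?_⟩
  · intro hbot
    have h1 : swap a (p a) * swap u (p u) ∈ S₁ := by
      refine (mem1 _).2 ⟨⟨mul_mem (m.mem a) (m.mem u), ?_⟩, fun x hx hx' => ?_⟩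
      · rw [Perm.mem_alternatingGroup]; exact m.sign_two hpa hpu
      · simp only [Set.mem_insert_iff, Set.mem_singleton_iff, not_or] at hx'
        have n1 : x ≠ a := fun e => hx (e ▸ haA)
        have n2 : x ≠ p a := fun e => hx (e ▸ hpaA)
        rw [Perm.mul_apply, swap_apply_of_ne_of_ne hx'.1 hx'.2, swap_apply_of_ne_of_ne n1 n2]
    rw [hbot, Subgroup.mem_bot] at h1
    have h2 := congrArg (fun f : Perm Ω => f a) h1
    simp only [Perm.mul_apply, Perm.one_apply] at h2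
    have n1 : a ≠ u := fun e => huA (e ▸ haA)
    have n2 : a ≠ p u := fun e => hpuA (e ▸ haA)
    rw [swap_apply_of_ne_of_ne n1 n2, swap_apply_left] at h2
    exact hpa h2
  · intro hbot
    have hpbA : p b ∉ A := by
      intro h
      apply hab
      have h3 := (hAinv _ (m.mem b) b)
      rw [swap_apply_left] at h3
      exact h3.1 h
    have h1 : swap b (p b) * swap u (p u) ∈ S₂ := by
      refine (mem2 _).2 ⟨⟨mul_mem (m.mem b) (m.mem u), ?_⟩, fun x hx => ?_⟩
      · rw [Perm.mem_alternatingGroup]; exact m.sign_two hpb hpu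
      · have n1 : x ≠ u := fun e => huA (e ▸ hx)
        have n2 : x ≠ p u := fun e => hpuA (e ▸ hx)
        have n3 : x ≠ b := fun e => hab (e ▸ hx)
        have n4 : x ≠ p b := fun e => hpbA (e ▸ hx)
        rw [Perm.mul_apply, swap_apply_of_ne_of_ne n1 n2, swap_apply_of_ne_of_ne n3 n4]
    rw [hbot, Subgroup.mem_bot] at h1
    have h2 := congrArg (fun f : Perm Ω => f b) h1
    simp only [Perm.mul_apply, Perm.one_apply] at h2
    simp only [Set.mem_insert_iff, Set.mem_singleton_iff, not_or] at hbu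
    rw [swap_apply_of_ne_of_ne hbu.1 hbu.2, swap_apply_left] at h2
    exact hpb h2
  · rintro g ⟨⟨h1, h2⟩, h3⟩ g' ⟨⟨h1', h2'⟩, h3'⟩
    ext x
    rw [Perm.mul_apply, Perm.mul_apply]
    by_cases hx : x ∈ A
    · rw [h3' x hx, h3' _ ((hAinv g h1 x).2 hx)]
    · by_cases hx' : x ∈ ({u, p u} : Set Ω)
      · rw [hcommC g h1 g' h1' x hx']
      · rw [h3 x hx hx', h3 _ (fun h => hx ((hAinv g' h1' x).1 h)) (fun h => hx' ((hCinv g' h1' x).1 h))]
  · rw [eq_bot_iff]
    rintro g ⟨⟨⟨h1, h2⟩, h3⟩, ⟨⟨h1', h2'⟩, h3'⟩⟩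
    rw [Subgroup.mem_bot]
    rcases hval g h1 with ⟨a1, a2⟩ | ⟨a1, a2⟩
    · ext x
      by_cases hx : x ∈ A
      · rw [h3' x hx]; rfl
      · by_cases hx' : x ∈ ({u, p u} : Set Ω)
        · rcases hx' with rfl | rfl
          · exact a1
          · exact a2
        · rw [h3 x hx hx']; rfl
    · exfalso
      have : g = swap u (p u) := by
        ext x
        by_cases e1 : x = u
        · rw [e1, a1, swap_apply_left]
        by_cases e2 : x = p u
        · rw [e2, a2, swap_apply_right]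
        · rw [swap_apply_of_ne_of_ne e1 e2]
          by_cases hx : x ∈ A
          · exact h3' x hx
          · exact h3 x hx (by simp [e1, e2])
      rw [Perm.mem_alternatingGroup, this, m.sign_swap hpu] at h2
      norm_num at h2
  · apply le_antisymm (sup_le (fun g hg => hg.1) (fun g hg => hg.1))
    rintro g ⟨h1, h2⟩
    obtain ⟨k, hk, k1, k2⟩ := exists_restrict P hAinv h1
    obtain ⟨k', hk', hks, k1', k2'⟩ : ∃ k' ∈ (P : Subgroup (Perm Ω)), k' ∈ alternatingGroup Ω ∧ (∀ x ∈ A, k' x = g x) ∧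
        ∀ x, x ∉ A → x ∉ ({u, p u} : Set Ω) → k' x = x := by
      rcases Int.units_eq_one_or (Perm.sign k) with hs | hs
      · exact ⟨k, hk, hs, k1, fun x hx _ => k2 x hx⟩
      · refine ⟨k * swap u (p u), mul_mem hk (m.mem u), ?_, fun x hx => ?_, fun x hx hx' => ?_⟩
        · rw [Perm.mem_alternatingGroup, Perm.sign_mul, hs, m.sign_swap hpu]; norm_num
        · have n1 : x ≠ u := fun e => huA (e ▸ hx)
          have n2 : x ≠ p u := fun e => hpuA (e ▸ hx)
          rw [Perm.mul_apply, swap_apply_of_ne_of_ne n1 n2, k1 x hx]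
        · simp only [Set.mem_insert_iff, Set.mem_singleton_iff, not_or] at hx'
          rw [Perm.mul_apply, swap_apply_of_ne_of_ne hx'.1 hx'.2, k2 x hx]
    have e : g = k' * (k'⁻¹ * g) := by group
    rw [e]
    refine Subgroup.mul_mem_sup ((mem1 _).2 ⟨⟨hk', hks⟩, k2'⟩) ((mem2 _).2 ⟨⟨mul_mem (inv_mem hk') h1, mul_mem (inv_mem hks) h2⟩, ?_⟩)
    intro x hx
    rw [Perm.mul_apply, Perm.inv_eq_iff_eq, k1' x hx]

end Cfsg.Agent.H94.Syl2Sym
end

-- part: S2221
section
set_option autoImplicit false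
open Cfsg

namespace Cfsg.Agent.S2221


open Equiv Subgroup H94.Syl2Sym

set_option maxRecDepth 100000 in
theorem sq4 : ∀ g : Perm (Fin 4), g ^ 4 = 1 → Perm.sign g = 1 → g ^ 2 = 1 := by decide

set_option maxRecDepth 100000 in
theorem sq5 : ∀ g : Perm (Fin 5), g ^ 4 = 1 → Perm.sign g = 1 → g ^ 2 = 1 := by decide

/-- a group of order 4 and exponent 2 is decomposable -/
theorem dec_of_four {G : Type*} [Group G] [Finite G] (P : Subgroup G) (hc : Nat.card P = 4) (h2 : ∀ g ∈ P, g ^ 2 = 1) :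
    ∃ S₁ S₂ : Subgroup G, S₁ ≠ ⊥ ∧ S₂ ≠ ⊥ ∧ Cfsg.IsInternalDirectProduct S₁ S₂ P := by
  classical
  have hcomm : ∀ a ∈ P, ∀ b ∈ P, a * b = b * a := by
    intro a ha b hb
    have h1 : a * a = 1 := by rw [← pow_two]; exact h2 a ha
    have h3 : b * b = 1 := by rw [← pow_two]; exact h2 b hb
    have h4 : (a * b) * (a * b) = 1 := by rw [← pow_two]; exact h2 _ (P.mul_mem ha hb)
    have h5 : a⁻¹ = a := inv_eq_of_mul_eq_one_right h1
    have h6 : b⁻¹ = b := inv_eq_of_mul_eq_one_right h3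
    have h7 : (a * b)⁻¹ = a * b := inv_eq_of_mul_eq_one_right h4
    rw [mul_inv_rev, h5, h6] at h7
    exact h7.symm
  have hf : (P : Set G).Finite := Set.toFinite _
  have hn : (P : Set G).ncard = 4 := hc
  obtain ⟨a, ha, ha1⟩ : ∃ a ∈ (P : Set G), a ∉ ({1} : Set G) := by
    by_contra hcon
    push Not at hcon
    have := Set.ncard_le_ncard (t := {1}) hcon (Set.toFinite _)
    rw [hn, Set.ncard_singleton] at this
    omega
  obtain ⟨b, hb, hb1⟩ : ∃ b ∈ (P : Set G), b ∉ ({1, a} : Set G) := by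
    by_contra hcon
    push Not at hcon
    have h1 := Set.ncard_le_ncard (t := {1, a}) hcon (Set.toFinite _)
    have h2 : ({1, a} : Set G).ncard ≤ 2 := (Set.ncard_insert_le _ _).trans (by rw [Set.ncard_singleton])
    omega
  simp only [Set.mem_singleton_iff] at ha1
  simp only [Set.mem_insert_iff, Set.mem_singleton_iff, not_or] at hb1
  have zp : ∀ c ∈ P, ∀ x ∈ zpowers c, x = 1 ∨ x = c := by
    intro c hc x hx
    obtain ⟨k, rfl⟩ := mem_zpowers_iff.1 hx
    have h3 : c ^ (2 : ℤ) = 1 := by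
      have := h2 c hc
      exact_mod_cast this
    rcases Int.even_or_odd' k with ⟨m, rfl | rfl⟩
    · left; rw [zpow_mul, h3, one_zpow]
    · right; rw [zpow_add, zpow_mul, h3, one_zpow, one_mul, zpow_one]
  refine ⟨zpowers a, zpowers b, ?_, ?_, ?_, ?_, ?_, ?_, ?_⟩
  · rw [Ne, zpowers_eq_bot]; exact ha1
  · rw [Ne, zpowers_eq_bot]; exact hb1.1
  · rw [zpowers_le]; exact ha
  · rw [zpowers_le]; exact hb
  · intro x hx y hy
    exact hcomm x ((zpowers_le.2 ha) hx) y ((zpowers_le.2 hb) hy)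
  · rw [eq_bot_iff]
    rintro x ⟨hx, hy⟩
    rw [mem_bot]
    rcases zp a ha x hx with e | e
    · exact e
    · rcases zp b hb x hy with e' | e'
      · exact e'
      · exact absurd (e'.symm.trans e) hb1.2
  · have hle : zpowers a ⊔ zpowers b ≤ P := sup_le (zpowers_le.2 ha) (zpowers_le.2 hb)
    apply Subgroup.eq_of_le_of_card_ge hle
    rw [hc]
    have ma : a ∈ zpowers a ⊔ zpowers b := mem_sup_left (mem_zpowers a)
    have mb : b ∈ zpowers a ⊔ zpowers b := mem_sup_right (mem_zpowers b)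
    have h1 : ({1, a, b, a * b} : Set G) ⊆ (zpowers a ⊔ zpowers b : Subgroup G) := by
      rintro x (rfl | rfl | rfl | rfl)
      · exact one_mem _
      · exact ma
      · exact mb
      · exact mul_mem ma mb
    have h3 := Set.ncard_le_ncard h1 (Set.toFinite _)
    have h4 : ({1, a, b, a * b} : Set G).ncard = 4 := by
      rw [Set.ncard_insert_of_notMem, Set.ncard_insert_of_notMem, Set.ncard_pair]
      · intro e; exact ha1 (mul_eq_right.1 e.symm)
      · simp only [Set.mem_insert_iff, Set.mem_singleton_iff, not_or]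
        exact ⟨fun e => hb1.2 e.symm, fun e => hb1.1 (mul_eq_left.1 e.symm)⟩
      · simp only [Set.mem_insert_iff, Set.mem_singleton_iff, not_or]
        refine ⟨fun e => ha1 e.symm, fun e => hb1.1 e.symm, fun e => hb1.2 ?_⟩
        have h5 : a * a = 1 := by rw [← pow_two]; exact h2 a ha
        exact mul_left_cancel (e.symm.trans h5.symm)
    rw [h4] at h3
    exact h3

theorem fact60 : (60 : ℕ).factorization 2 = 2 := by
  have e : (60 : ℕ) = 2 ^ 2 * 15 := by norm_num
  rw [e, Nat.factorization_mul (by norm_num) (by norm_num), Finsupp.add_apply, Nat.factorization_pow,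
    Nat.factorization_eq_zero_of_not_dvd (by norm_num : ¬ 2 ∣ 15)]
  simp [Nat.prime_two.factorization]

theorem fact12 : (12 : ℕ).factorization 2 = 2 := by
  have e : (12 : ℕ) = 2 ^ 2 * 3 := by norm_num
  rw [e, Nat.factorization_mul (by norm_num) (by norm_num), Finsupp.add_apply, Nat.factorization_pow,
    Nat.factorization_eq_zero_of_not_dvd (by norm_num : ¬ 2 ∣ 3)]
  simp [Nat.prime_two.factorization]

theorem small (n : ℕ) (hn : n = 4 ∨ n = 5) (P : Sylow 2 (alternatingGroup (Fin n))) :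
    ∃ S₁ S₂ : Subgroup (alternatingGroup (Fin n)), S₁ ≠ ⊥ ∧ S₂ ≠ ⊥ ∧
        Cfsg.IsInternalDirectProduct S₁ S₂ (P : Subgroup (alternatingGroup (Fin n))) := by
  have h0 : Fact (Nat.Prime 2) := ⟨Nat.prime_two⟩
  have hcard : Nat.card (P : Subgroup (alternatingGroup (Fin n))) = 4 := by
    rcases hn with rfl | rfl
    · have hA : Nat.card (alternatingGroup (Fin 4)) = 12 := by
        rw [nat_card_alternatingGroup, Nat.card_fin]; decide
      have h1 := P.card_eq_multiplicity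
      rw [hA, fact12] at h1
      exact h1
    · have hA : Nat.card (alternatingGroup (Fin 5)) = 60 := by
        rw [nat_card_alternatingGroup, Nat.card_fin]; decide
      have h1 := P.card_eq_multiplicity
      rw [hA, fact60] at h1
      exact h1
  apply dec_of_four _ hcard
  intro g hg
  have h4 : g ^ 4 = 1 := by
    have := pow_card_eq_one' (G := (P : Subgroup (alternatingGroup (Fin n)))) (x := ⟨g, hg⟩)
    rw [hcard] at this
    exact congrArg Subtype.val this
  have h4' : (g : Perm (Fin n)) ^ 4 = 1 := congrArg Subtype.val h4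
  have hs : Perm.sign (g : Perm (Fin n)) = 1 := g.2
  apply Subtype.ext
  change (g : Perm (Fin n)) ^ 2 = 1
  rcases hn with rfl | rfl
  · exact sq4 _ h4' hs
  · exact sq5 _ h4' hs

/-- Direct decomposability of the Sylow 2-subgroups of the alternating groups. Let n ≥ 4 and let P be a Sylow 2-subgroup of the alternating group of degree n. Then P is the internal direct product of two nontrivial subgroups if and only if n = 4, n = 5, or n ≡ 2, 3 (mod 4) with 4⌊n/4⌋ not a power of 2. In the remaining cases (n ≡ 0, 1 (mod 4) with n ≥ 8, or n ≡ 2, 3 (mod 4) with 4⌊n/4⌋ a power of 2) P is directly indecomposable. -/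
theorem result (n : ℕ) (hn : 4 ≤ n)
    (P : Sylow 2 (alternatingGroup (Fin n))) :
    (∃ S₁ S₂ : Subgroup (alternatingGroup (Fin n)), S₁ ≠ ⊥ ∧ S₂ ≠ ⊥ ∧
        Cfsg.IsInternalDirectProduct S₁ S₂ (P : Subgroup (alternatingGroup (Fin n)))) ↔
      (n = 4 ∨ n = 5 ∨ ((n % 4 = 2 ∨ n % 4 = 3) ∧ ∀ r : ℕ, 4 * (n / 4) ≠ 2 ^ r)) := by
  classical
  have h0 : Fact (Nat.Prime 2) := ⟨Nat.prime_two⟩
  obtain ⟨Q, hQ⟩ := (P.isPGroup'.map (alternatingGroup (Fin n)).subtype).exists_le_sylow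
  have hPQ : (Q : Subgroup (Perm (Fin n))).comap (alternatingGroup (Fin n)).subtype = P :=
    P.is_maximal' (Q.isPGroup'.comap_of_injective _ (Subgroup.subtype_injective _)) (map_le_iff_le_comap.1 hQ)
  have hmem : ∀ x : alternatingGroup (Fin n), x ∈ (P : Subgroup (alternatingGroup (Fin n))) ↔
      (x : Perm (Fin n)) ∈ (Q : Subgroup (Perm (Fin n))) := by
    intro x
    rw [← hPQ]
    rfl
  have hmap : (P : Subgroup (alternatingGroup (Fin n))).map (alternatingGroup (Fin n)).subtype =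
      (Q : Subgroup (Perm (Fin n))) ⊓ alternatingGroup (Fin n) := by
    ext x
    constructor
    · rintro ⟨y, hy, rfl⟩
      exact ⟨(hmem y).1 hy, y.2⟩
    · rintro ⟨h1, h2⟩
      exact ⟨⟨x, h2⟩, (hmem _).2 h1, rfl⟩
  obtain ⟨s, hs1, hs2, hs3⟩ := exists_exps Q
  rw [Fintype.card_fin] at hs1
  constructor
  · rintro ⟨S₁, S₂, hS₁, hS₂, hle1, hle2, hcomm, hinf, hsup⟩
    by_contra hcon
    push Not at hcon
    obtain ⟨hn4, hn5, hcon⟩ := hcon
    have hc6 : 6 ≤ Fintype.card (Fin n) := by rw [Fintype.card_fin]; omega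
    obtain ⟨p, m⟩ := exists_matching Q
    have hDec : Dec (Q : Subgroup (Perm (Fin n))) p (S₁.map (alternatingGroup (Fin n)).subtype)
        (S₂.map (alternatingGroup (Fin n)).subtype) := by
      refine ⟨m, Q.isPGroup', ?_, ?_, ?_, ?_, ?_⟩
      · rintro _ ⟨y, hy, rfl⟩
        exact ⟨(hmem y).1 (hle1 hy), y.2⟩
      · rintro _ ⟨y, hy, rfl⟩
        exact ⟨(hmem y).1 (hle2 hy), y.2⟩
      · rintro _ ⟨y, hy, rfl⟩ _ ⟨z, hz, rfl⟩
        exact congrArg Subtype.val (hcomm y hy z hz)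
      · rintro _ ⟨y, hy, rfl⟩ ⟨z, hz, e⟩
        have : z = y := Subtype.ext e
        subst this
        have h1 : z ∈ S₁ ⊓ S₂ := ⟨hy, hz⟩
        rw [hinf, mem_bot] at h1
        rw [h1]
        rfl
      · intro g hg hs
        have h1 : (⟨g, hs⟩ : alternatingGroup (Fin n)) ∈ S₁ ⊔ S₂ := by
          rw [hsup]
          exact (hmem _).2 hg
        obtain ⟨a, ha, b, hb, e⟩ := (H94.Syl2Sym.mem_sup_of_comm hcomm).1 h1
        exact ⟨a, ⟨a, ha, rfl⟩, b, ⟨b, hb, rfl⟩, congrArg Subtype.val e⟩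
    have hne1 : S₁.map (alternatingGroup (Fin n)).subtype ≠ ⊥ := by
      rw [Ne, Subgroup.map_eq_bot_iff_of_injective _ (Subgroup.subtype_injective _)]
      exact hS₁
    have hne2 : S₂.map (alternatingGroup (Fin n)).subtype ≠ ⊥ := by
      rw [Ne, Subgroup.map_eq_bot_iff_of_injective _ (Subgroup.subtype_injective _)]
      exact hS₂
    by_cases hr : ∃ r, 4 * (n / 4) = 2 ^ r
    · obtain ⟨r, hr⟩ := hr
      have hsing := single hs1 hr
      refine trivial_of_one Q hDec hc6 (fun x y hx hy => ?_) hne1 hne2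
      obtain ⟨i, hi, ei⟩ := hs2 x
      obtain ⟨j, hj, ej⟩ := hs2 y
      have big : ∀ k, 4 ≤ 2 ^ k → 2 ≤ k := by
        intro k hk
        by_contra h
        interval_cases k <;> simp at hk
      have h1 : i ∈ s.filter (fun i => 2 ≤ i) := Finset.mem_filter.2 ⟨hi, big i (ei ▸ hx)⟩
      have h2 : j ∈ s.filter (fun i => 2 ≤ i) := Finset.mem_filter.2 ⟨hj, big j (ej ▸ hy)⟩
      rw [hsing, Finset.mem_singleton] at h1 h2
      have h3 := orbit_eq_of_card Q (x := y) (y := x) (by rw [ei, ej, h1, h2])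
      rw [← h3]
      exact MulAction.mem_orbit_self y
    · push Not at hr
      have h1s : 1 ∉ s := by
        intro h1
        rw [one_mem_iff hs1] at h1
        obtain ⟨r, hr'⟩ := hcon (by omega)
        exact hr r hr'
      have hbig : ∀ x, p x ≠ x → ∃ k, 0 < k ∧ (MulAction.orbit (Q : Subgroup (Perm (Fin n))) x).ncard = 4 * k := by
        intro x hx
        rcases orbit_card_cases Q x with h | h | h
        · exfalso
          rw [Set.ncard_eq_one] at h
          obtain ⟨a, ha⟩ := h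
          have h3 : x ∈ ({a} : Set (Fin n)) := ha ▸ MulAction.mem_orbit_self x
          have h4 : p x ∈ ({a} : Set (Fin n)) := ha ▸ m.orbit_p x
          exact hx ((Set.mem_singleton_iff.1 h4).trans (Set.mem_singleton_iff.1 h3).symm)
        · exfalso
          obtain ⟨i, hi, ei⟩ := hs2 x
          rw [h] at ei
          have : i = 1 := by
            have : 2 ^ 1 = 2 ^ i := by rw [← ei]; norm_num
            exact (Nat.pow_right_injective le_rfl this).symm
          exact h1s (this ▸ hi)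
        · exact h
      have hother : ∀ x, p x ≠ x → ∃ w, p w ≠ w ∧ w ∉ MulAction.orbit (Q : Subgroup (Perm (Fin n))) x := by
        intro x hx
        obtain ⟨k, hk, hk2⟩ := hbig x hx
        obtain ⟨i, hi, ei⟩ := hs2 x
        have hi2 : 2 ≤ i := by
          by_contra h
          interval_cases i <;> omega
        obtain ⟨j, hj, hj2, hji⟩ := exists_two hs1 hr hi hi2
        obtain ⟨w, hw⟩ := hs3 j hj
        refine ⟨w, fun e => ?_, fun h => ?_⟩
        · rw [m.orbit_fixed Q.isPGroup' e, Set.ncard_singleton] at hw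
          have : 2 ^ 2 ≤ 2 ^ j := Nat.pow_le_pow_right (by norm_num) hj2
          omega
        · rw [MulAction.orbit_eq_iff.2 h, ei] at hw
          exact hji (Nat.pow_right_injective le_rfl hw).symm
      rcases Dec.trivial Q hDec (fun x hx => by
          obtain ⟨k, -, hk⟩ := hbig x hx
          exact ⟨k, hk⟩) hother with h | h
      · exact hne1 ((Subgroup.eq_bot_iff_forall _).2 h)
      · exact hne2 ((Subgroup.eq_bot_iff_forall _).2 h)
  · intro h
    by_cases h45 : n = 4 ∨ n = 5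
    · exact small n h45 P
    have h' : (n % 4 = 2 ∨ n % 4 = 3) ∧ ∀ r : ℕ, 4 * (n / 4) ≠ 2 ^ r := by tauto
    have h1s : 1 ∈ s := by
      rw [one_mem_iff hs1]
      omega
    obtain ⟨u, hu⟩ := hs3 1 h1s
    obtain ⟨i, hi, hi2⟩ := exists_one hs1 hn
    obtain ⟨j, hj, hj2, hji⟩ := exists_two hs1 h'.2 hi hi2
    obtain ⟨a, ha⟩ := hs3 i hi
    obtain ⟨b, hb⟩ := hs3 j hj
    have p4 : ∀ k, 2 ≤ k → 4 ≤ 2 ^ k := fun k hk => by
      have : 2 ^ 2 ≤ 2 ^ k := Nat.pow_le_pow_right (by norm_num) hk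
      omega
    obtain ⟨S₁, S₂, h1, h2, h3, h4, h5, h6, h7⟩ := exists_dec Q (u := u) (a := a) (b := b) (by rw [hu]; norm_num)
      (by rw [ha]; exact p4 i hi2) (by rw [hb]; exact p4 j hj2) (fun hmem' => by
        rw [MulAction.orbit_eq_iff.2 hmem', ha] at hb
        exact hji (Nat.pow_right_injective le_rfl hb).symm)
    have mc : ∀ S : Subgroup (Perm (Fin n)), S ≤ (Q : Subgroup (Perm (Fin n))) ⊓ alternatingGroup (Fin n) →
        (S.comap (alternatingGroup (Fin n)).subtype).map (alternatingGroup (Fin n)).subtype = S := by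
      intro S hS
      rw [Subgroup.map_comap_eq, Subgroup.range_subtype, inf_eq_right]
      exact hS.trans inf_le_right
    refine ⟨S₁.comap (alternatingGroup (Fin n)).subtype, S₂.comap (alternatingGroup (Fin n)).subtype, ?_, ?_, ?_, ?_,
      ?_, ?_, ?_⟩
    · intro e
      apply h1
      rw [← mc S₁ h3, e, Subgroup.map_bot]
    · intro e
      apply h2
      rw [← mc S₂ h4, e, Subgroup.map_bot]
    · intro x hx
      exact (hmem x).2 (h3 hx).1
    · intro x hx
      exact (hmem x).2 (h4 hx).1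
    · intro x hx y hy
      exact Subtype.ext (h5 x hx y hy)
    · rw [← Subgroup.comap_inf, h6, eq_bot_iff]
      intro x hx
      rw [Subgroup.mem_comap, Subgroup.mem_bot] at hx
      exact Subtype.ext hx
    · apply Subgroup.map_injective (Subgroup.subtype_injective (alternatingGroup (Fin n)))
      rw [Subgroup.map_sup, mc S₁ h3, mc S₂ h4, h7, hmap]

end Cfsg.Agent.S2221
end
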