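import Mathlib
import Cfsg.Agent.Nodes.WittInst
import Cfsg.Agent.H95.OddNorm_mg
import Cfsg.Statements.S2226
set_option linter.all false

-- part: H95/EvenPSU
section
/-!
# Subgroups of `PSU_{2m}(q)` of index prime to the characteristic are pronormal (helper95)
-/

set_option autoImplicit false

namespace Cfsg.Agent.H95.EvenPSU

open Cfsg
open Cfsg.Agent.ChevalleyStructure.CoxeterGeom Cfsg.Agent.Tits.Roots
open Cfsg.Agent.Nodes.Comb Cfsg.Agent.Nodes.Reps Cfsg.Agent.Nodes.WittRoot Cfsg.Agent.Nodes.BNOf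
open Cfsg.Agent.Nodes.RGDLib Cfsg.Agent.Nodes.WittAll Cfsg.Agent.Nodes.WittU Cfsg.Agent.Nodes.RGDChev
open Cfsg.Agent.TitsThree Cfsg.Agent.TitsThree.Siegel Cfsg.Agent.TitsThree.SiegelGen
  Cfsg.Agent.TitsThree.WittFrame Cfsg.Agent.TitsThree.WBridge Cfsg.Agent.TitsThree.WittWeyl
  Cfsg.Agent.TitsThree.FrameCN
open Cfsg.Agent.Nodes

theorem comm_of_span {F V : Type*} [Field F] [AddCommGroup V] [Module F V] {K : HForm F V} {P : PQ K} {m : ℕ}
    (W : WFrame P m) (hW : W.V0 = ⊥) {a b : V ≃ₗ[F] V} (ha : Mono (toFrame W) a id) (hb : Mono (toFrame W) b id) :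
    a * b = b * a := by
  have key : ∀ x, a (b ((toFrame W).b x)) = b (a ((toFrame W).b x)) := by
    intro x
    obtain ⟨k, -, hk⟩ := ha x
    obtain ⟨l, -, hl⟩ := hb x
    rw [id] at hk hl
    rw [hl, map_smul, hk, map_smul, hl, smul_smul, smul_smul, mul_comm]
  have keye : ∀ i, a (b (W.e i)) = b (a (W.e i)) := fun i => key (i, true)
  have keyf : ∀ i, a (b (W.f i)) = b (a (W.f i)) := fun i => key (i, false)
  refine LinearEquiv.ext fun v => ?_
  show a (b v) = b (a v)
  obtain ⟨c, d, w, hw, rfl⟩ := W.span v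
  rw [hW, Submodule.mem_bot] at hw
  simp only [hw, add_zero, map_add, map_sum, map_smul, keye, keyf]

theorem isPronormal {F : Type*} [Field F] [Fintype F] {q m : ℕ} (hF : Fintype.card F = q ^ 2) (hm : 2 ≤ m) {p : ℕ}
    [Fact p.Prime] [CharP F p] (H : Subgroup (PSU (2 * m) F q)) (hH : ¬ p ∣ H.index) : Cfsg.IsPronormal H := by
  obtain ⟨W, hW⟩ := KSideU.exists_wframe_even hF (N := 2 * m) (m := m) rfl
  obtain ⟨p0, hp0, -⟩ := exists_adm hF W
  have hA := AmbT.of_amb (amb_U hF W) p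
  have hfin : Finite (CoxeterMatrix.B m).Group := TypeC.finite_W (CoxeterMatrix.B m).toCoxeterSystem
  have R := rgdC_model (KInstU.model hF (by omega) W) hA hp0 (CoxeterMatrix.B m).toCoxeterSystem
  refine EvenRGD.isPronormal R (eq_top_iff.2 ?_) ?_ H hH
  · have hG := WittModel.G1_eq_top (KInstU.model hF (by omega) W) (n := m) (by omega) (CoxeterMatrix.B m).toCoxeterSystem
    rw [← hG]
    exact le_sup_right
  · rintro _ ⟨a, ha, rfl⟩ _ ⟨b, hb, rfl⟩
    rw [← map_mul, ← map_mul]
    congr 1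
    apply Subtype.ext
    have ha' : Mono (toFrame W) a.1 id := ((WittRGD.mem_Tor _ _).1 ha).2
    have hb' : Mono (toFrame W) b.1 id := ((WittRGD.mem_Tor _ _).1 hb).2
    exact comm_of_span W hW ha' hb'

end Cfsg.Agent.H95.EvenPSU
end

-- part: S2226
section
set_option autoImplicit false
open Cfsg

namespace Cfsg.Agent.S2226

/-- Let F be a finite field with q² elements and d = 2^w ≥ 4 a power of 2 such that the unitary group PSU_d(q) (realised over F) is simple. Then every subgroup H of PSU_d(q) of odd index is pronormal: for every g, H and gHg⁻¹ are conjugate by an element of the subgroup they generate. -/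
theorem result {F : Type*} [Field F] [Fintype F] (q : ℕ)
    (hF : Fintype.card F = q ^ 2) (w : ℕ) (hw : 2 ≤ w) (hs : IsSimpleGroup (Cfsg.PSU (2 ^ w) F q))
    (H : Subgroup (Cfsg.PSU (2 ^ w) F q)) (hH : Odd H.index) : Cfsg.IsPronormal H := by
  have h2p : Fact (Nat.Prime 2) := ⟨Nat.prime_two⟩
  have hH' : ¬ 2 ∣ H.index := by
    rw [← even_iff_two_dvd, Nat.not_even_iff_odd]; exact hH
  have hfin : Finite (PSU (2 ^ w) F q) := by
    have : Finite (Matrix.SpecialLinearGroup (Fin (2 ^ w)) F) := Subtype.finite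
    infer_instance
  by_cases h2 : (2 : F) = 0
  · have hchar : CharP F 2 := CharTwo.of_one_ne_zero_of_two_eq_zero one_ne_zero h2
    have key : ∀ N : ℕ, N = 2 * 2 ^ (w - 1) → ∀ H : Subgroup (Cfsg.PSU N F q), ¬ 2 ∣ H.index →
        Cfsg.IsPronormal H := by
      rintro N rfl H hH
      refine H95.EvenPSU.isPronormal hF ?_ H hH
      calc 2 = 2 ^ 1 := rfl
        _ ≤ 2 ^ (w - 1) := Nat.pow_le_pow_right (by norm_num) (by omega)
    refine key _ ?_ H hH'
    rw [← pow_succ', Nat.sub_add_cancel (by omega)]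
  · obtain ⟨S, hS⟩ := H94.Pronormal.exists_sylow_le H hH'
    exact H94.Pronormal.isPronormal_of_selfNorm S H hS (H95.OddNorm.selfNorm_PSU hF h2 hw S)

end Cfsg.Agent.S2226
end
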