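import Cfsg.Statements.S2231
import Cfsg.Agent.H96.QdTI
import Cfsg.Agent.H96.TISylow
set_option linter.all false

set_option autoImplicit false
open Cfsg

namespace Cfsg.Agent.S2231

/-- Let p be an odd prime and K a finite field of characteristic p. Then Qd(p) (the natural semidirect product of an elementary abelian group of order p² by SL₂(p)) is not involved in the projective special linear group PSL₂(K). -/
theorem result {p : ℕ} [Fact p.Prime] (hp : p ≠ 2) {K : Type*} [Field K] [Fintype K] [CharP K p] : ¬ Cfsg.Involves ↥(Cfsg.qd p) (Matrix.ProjectiveSpecialLinearGroup (Fin 2) K) := by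
  intro h
  refine Cfsg.Agent.H96.QdTI.not_involves_of_ti hp
    (G := (⊤ : Subgroup (Matrix.SpecialLinearGroup (Fin 2) K)))
    (Cfsg.Agent.H96.TISylow.sl_two_ti (p := p) ⊤) ?_
  have h1 : Cfsg.Agent.Lib.Involves.Involves (Matrix.SpecialLinearGroup (Fin 2) K) ↥(Cfsg.qd p) :=
    Cfsg.Agent.Lib.Involves.of_quotient (N := Subgroup.center _)
      (Cfsg.Agent.Lib.Involves.involves_iff.2 h)
  exact (Cfsg.Agent.Lib.Involves.congr_left Subgroup.topEquiv).2 h1

end Cfsg.Agent.S2231
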