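import Cfsg.Statements.S2241
import Cfsg.Agent.H98.SzReal
set_option linter.all false

set_option autoImplicit false
open Cfsg

namespace Cfsg.Agent.S2241

/-- Real 2-elements of the Suzuki group: with q = 2^(2m+1), m ≥ 1, and the group realised as the stabiliser in SL₄ of the Suzuki–Tits ovoid, a non-identity element of a Sylow 2-subgroup is conjugate to its inverse if and only if it is an involution; in particular no element of order 4 is conjugate to its inverse. -/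
theorem result {F : Type*} [Field F] [Fintype F] {m : ℕ} (hm : 1 ≤ m) (hF : Fintype.card F = 2 ^ (2 * m + 1)) (P : Sylow 2 ↥(Cfsg.Sz F m)) (g : ↥(Cfsg.Sz F m)) (hg : g ∈ (P : Subgroup ↥(Cfsg.Sz F m))) (h1 : g ≠ 1) :
    IsConj g g⁻¹ ↔ orderOf g = 2 := by
  constructor
  · intro e
    obtain ⟨x, hx⟩ := isConj_iff.1 e
    obtain ⟨y, rfl⟩ := MulAction.exists_smul_eq (Cfsg.Sz F m) (Cfsg.Agent.LieExceptional.SuzukiSylow.sylowQ hm hF) P
    rw [Cfsg.Agent.H98.SzBasic.mem_smul_sylowQ_iff] at hg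
    obtain ⟨a, b, hab⟩ := hg
    have hconj : (y⁻¹ * x * y) * (y⁻¹ * g * y) * (y⁻¹ * x * y)⁻¹ = (y⁻¹ * g * y)⁻¹ := by
      calc (y⁻¹ * x * y) * (y⁻¹ * g * y) * (y⁻¹ * x * y)⁻¹ = y⁻¹ * (x * g * x⁻¹) * y := by group
        _ = y⁻¹ * g⁻¹ * y := by rw [hx]
        _ = (y⁻¹ * g * y)⁻¹ := by group
    rw [hab] at hconj
    have ha := Cfsg.Agent.H98.SzReal.eq_zero_of_conj_inv hm hF hconj
    subst ha
    have h2 : (y⁻¹ * g * y) * (y⁻¹ * g * y) = 1 := by
      have := Cfsg.Agent.LieExceptional.SuzukiBasic.charP_two hF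
      rw [hab, Cfsg.Agent.LieExceptional.SuzukiSylow.u_mul, Cfsg.Agent.H98.SzBasic.u_eq_one_iff]
      refine ⟨by simp, ?_⟩
      rw [mul_zero, add_zero]
      exact CharTwo.add_self_eq_zero b
    have h3 : g ^ 2 = 1 := by
      calc g ^ 2 = y * ((y⁻¹ * g * y) * (y⁻¹ * g * y)) * y⁻¹ := by rw [pow_two]; group
        _ = 1 := by rw [h2]; group
    exact orderOf_eq_prime h3 h1
  · intro e
    have h2 : g * g = 1 := by rw [← pow_two, ← e, pow_orderOf_eq_one]
    rw [inv_eq_of_mul_eq_one_left h2]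

end Cfsg.Agent.S2241
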