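import Cfsg.Statements.S2244
import Cfsg.Agent.H96.WeakClosedG2
set_option linter.all false

set_option autoImplicit false
open Cfsg

namespace Cfsg.Agent.S2244

open Cfsg.Lie Cfsg.Agent.ChevalleyStructure.Elts Cfsg.Agent.ChevalleyStructure Cfsg.Agent.H96 Cfsg.Agent.H96.WeakClosed
open Cfsg.Agent.ChevalleyStructure.UnipProd

section

universe u

variable {F : Type u} [Field F] [Fintype F] {D : ChevalleyDatum}

omit [Fintype F] in
/-- A weakly closed subgroup of `U` is normalised by the torus. -/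
theorem tstable {hD : InList D} {X : Subgroup (GL D.Idx F)} (hXU : X ≤ D.posUnipotent F)
    (hwc : ∀ g ∈ D.group F, X.map (MulAut.conj g).toMonoidHom ≤ D.posUnipotent F →
      X.map (MulAut.conj g).toMonoidHom = X) : TStable hD X := by
  refine ⟨fun i hi c hc x hx => ?_⟩
  have h1 := hwc (hG hD (D.simple i) c) (hG_mem_group hD _ _) (by
    rintro _ ⟨y, hy, rfl⟩
    show hG hD (D.simple i) c * y * (hG hD (D.simple i) c)⁻¹ ∈ D.posUnipotent F
    have h2 := hXU hy
    rw [← unipGE_eq_posUnipotent hD F (Nat.zero_le _)] at h2 ⊢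
    exact (tor_hG hD hi hc).conj_mem h2)
  rw [← h1]
  exact ⟨x, hx, rfl⟩

omit [Fintype F] in
theorem ustable {hD : InList D} {X : Subgroup (GL D.Idx F)} (hXU : X ≤ D.posUnipotent F)
    (hwc : ∀ g ∈ D.group F, X.map (MulAut.conj g).toMonoidHom ≤ D.posUnipotent F →
      X.map (MulAut.conj g).toMonoidHom = X) :
    ∀ r, D.IsPosRoot r → ∀ t : F, Nrm X (xG hD r t) := by
  intro r hr t x hx
  have h1 := hwc (xG hD r t) (xG_mem_group hD r t) (by
    rintro _ ⟨y, hy, rfl⟩
    show xG hD r t * y * (xG hD r t)⁻¹ ∈ D.posUnipotent F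
    exact mul_mem (mul_mem (xG_mem_posUnipotent hD hr t) (hXU hy)) (inv_mem (xG_mem_posUnipotent hD hr t)))
  rw [← h1]
  exact ⟨x, hx, rfl⟩

/-- The generic case. -/
theorem generic {hD : InList D} {X : Subgroup (GL D.Idx F)} (hXU : X ≤ D.posUnipotent F)
    (hwc : ∀ g ∈ D.group F, X.map (MulAut.conj g).toMonoidHom ≤ D.posUnipotent F →
      X.map (MulAut.conj g).toMonoidHom = X) {k : ℕ} (hk : k + 1 < Fintype.card F)
    (hs : WCTab.chkSep D k (D.nroots / 2) (D.nroots / 2) = true) :
    ∃ J : Set ℕ, (∀ j ∈ J, j < D.rank) ∧ X = D.unipotentRadical F J := by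
  have h := RootVecTab.checked_of_mem hD
  have hev := UnipOrd.nroots_even hD
  have hT := tstable (hD := hD) hXU hwc
  obtain ⟨l, hl, hlm⟩ := exists_lam hk
  have hsound : ∀ b, D.IsPosRoot b → Act D b ∧ ∀ c, b < c → c < D.nroots → SepZ D k b c := fun b hb =>
    chkSep_sound h (lo := D.nroots / 2) (n := D.nroots / 2) (by omega) hs ((UnipOrd.isPosRoot_iff hD b).1 hb).1 hb.1
  refine exists_J (hD := hD) hXU hwc fun b hb hlead => ?_
  refine root_mem_of_lead (fun b' hb' hl' => full_of_lead hT hb' (hsound b' hb').1 hl') hb (fun c hc hbc => ?_) hlead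
  exact Or.inl (sep_of_sepZ hT hl hlm ((hsound b hb).2 c hbc hc.1))

/-- The case `G₂(4)`. -/
theorem gTwoFour {X : Subgroup (GL chevG2.Idx F)} (hXU : X ≤ chevG2.posUnipotent F)
    (hwc : ∀ g ∈ chevG2.group F, X.map (MulAut.conj g).toMonoidHom ≤ chevG2.posUnipotent F →
      X.map (MulAut.conj g).toMonoidHom = X) (hq : Fintype.card F = 4) :
    ∃ J : Set ℕ, (∀ j ∈ J, j < chevG2.rank) ∧ X = chevG2.unipotentRadical F J := by
  have hD := inListG2
  have h := RootVecTab.checked_of_mem hD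
  have hT := tstable (hD := hD) hXU hwc
  have hU := ustable (hD := hD) hXU hwc
  have h2 : (2 : F) = 0 := by
    have h4 : ((Fintype.card F : ℕ) : F) = 0 := Nat.cast_card_eq_zero F
    rw [hq] at h4
    have h5 : (2 : F) * 2 = 0 := by
      have : (2 : F) * 2 = ((4 : ℕ) : F) := by norm_num
      rw [this, h4]
    rcases mul_eq_zero.1 h5 with h | h <;> exact h
  obtain ⟨l, hl, hlm⟩ := exists_lam (F := F) (k := 2) (by omega)
  have hact : ∀ b, chevG2.IsPosRoot b → Act chevG2 b := fun b hb =>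
    (chkSep_sound h (lo := 6) (n := 6) (by decide) WCTab.chkSep_G2 ((UnipOrd.isPosRoot_iff hD b).1 hb).1 hb.1).1
  have hsep : ∀ b, chevG2.IsPosRoot b → ∀ c, b < c → c < chevG2.nroots → Sep hD X b c ∨
      (b = 6 ∧ c = 10) ∨ (b = 6 ∧ c = 11) ∨ (b = 10 ∧ c = 11) := fun b hb c hbc hc => by
    rcases chkSepG_sound h (lo := 6) (n := 6) (by decide) WCTab.chkSepG_G2 ((UnipOrd.isPosRoot_iff hD b).1 hb).1
      hb.1 c hbc hc with h' | h'
    · exact Or.inl (sep_of_sepZ hT hl hlm h')
    · exact Or.inr h'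
  have hfull : ∀ b, chevG2.IsPosRoot b → Lead hD X b → ∀ t : F, ∃ v ∈ unipGE chevG2 F (b + 1), xG hD b t * v ∈ X :=
    fun b hb hl => full_of_lead hT hb (hact b hb) hl
  have h8 : Lead hD X 8 → ∀ t : F, xG hD 8 t ∈ X := by
    intro hl8
    have p8 := (pos_iff_G2 8).2 (by omega)
    refine root_mem_of_lead hfull p8 (fun c hc hbc => ?_) hl8
    rcases hsep 8 p8 c hbc hc.1 with h | h | h | h
    · exact Or.inl h
    all_goals omega
  refine exists_J (hD := hD) hXU hwc fun b hb hlead => ?_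
  refine root_mem_of_lead hfull hb (fun c hc hbc => ?_) hlead
  rcases hsep b hb c hbc hc.1 with h | ⟨rfl, rfl⟩ | ⟨rfl, rfl⟩ | ⟨rfl, rfl⟩
  · exact Or.inl h
  · exact Or.inr (lead_ten h2 hU (h8 (lead_eight hU hlead)))
  · exact Or.inr (lead_eleven hU (lead_ten h2 hU (h8 (lead_eight hU hlead))))
  · exact Or.inr (lead_eleven hU hlead)

end

/-- Weakly closed unipotent subgroups of Chevalley groups: let G be the Chevalley group of type G₂, B₂, D₄, F₄, E₆, E₇ or E₈ over a finite field F (the matrix group generated by the root elements), with |F| ≠ 2, and |F| ≠ 3 as well for the types G₂, B₂, D₄, F₄. Let U be the subgroup generated by the positive root subgroups. If X ≤ U is weakly closed in U with respect to G (every G-conjugate of X lying in U equals X), then X is the unipotent radical U_J of a standard parabolic subgroup for some set J of fundamental roots. -/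
theorem result {F : Type*} [Field F] [Fintype F] (D : Cfsg.Lie.ChevalleyDatum) (hD : D ∈ [Cfsg.Lie.chevG2, Cfsg.Lie.chevB2, Cfsg.Lie.chevD4, Cfsg.Lie.chevF4, Cfsg.Lie.chevE6, Cfsg.Lie.chevE7, Cfsg.Lie.chevE8])
    (h2 : Fintype.card F ≠ 2) (h3 : D ∈ [Cfsg.Lie.chevG2, Cfsg.Lie.chevB2, Cfsg.Lie.chevD4, Cfsg.Lie.chevF4] → Fintype.card F ≠ 3)
    (X : Subgroup (GL D.Idx F)) (hXU : X ≤ D.posUnipotent F)
    (hwc : ∀ g ∈ D.group F, X.map (MulAut.conj g).toMonoidHom ≤ D.posUnipotent F → X.map (MulAut.conj g).toMonoidHom = X) :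
    ∃ J : Set ℕ, (∀ j ∈ J, j < D.rank) ∧ X = D.unipotentRadical F J := by
  have hcard : 1 < Fintype.card F := Fintype.one_lt_card
  have hD' := hD
  simp only [List.mem_cons, List.not_mem_nil, or_false] at hD
  rcases hD with rfl | rfl | rfl | rfl | rfl | rfl | rfl
  · have h3' := h3 (by simp)
    by_cases h4 : Fintype.card F = 4
    · exact gTwoFour hXU hwc h4
    · exact generic (hD := hD') hXU hwc (k := 3) (by omega) WCTab.chkSep_G2
  · have h3' := h3 (by simp)
    exact generic (hD := hD') hXU hwc (k := 2) (by omega) WCTab.chkSep_B2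
  · have h3' := h3 (by simp)
    exact generic (hD := hD') hXU hwc (k := 2) (by omega) WCTab.chkSep_D4
  · have h3' := h3 (by simp)
    exact generic (hD := hD') hXU hwc (k := 2) (by omega) WCTab.chkSep_F4
  · exact generic (hD := hD') hXU hwc (k := 1) (by omega) WCTab.chkSep_E6
  · exact generic (hD := hD') hXU hwc (k := 1) (by omega) WCTab.chkSep_E7
  · exact generic (hD := hD') hXU hwc (k := 1) (by omega) WCTab.chkSep_E8

end Cfsg.Agent.S2244
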