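import Mathlib
import Cfsg.Agent.H99.SylTwoDown
import Cfsg.Statements.S2245
set_option linter.all false

-- part: H99/SylTwoUp
section
/-!
# Overgroups of Sylow 2-subgroups of the symmetric and alternating groups of degree `2 ^ k + 1`
-/

set_option autoImplicit false

open MulAction Equiv Equiv.Perm

namespace Cfsg.Agent.H99

/-- the four-group -/
abbrev V4 : Type := ZMod 2 × ZMod 2

section ThreeCycle

variable {α : Type*} [DecidableEq α]

theorem conj_swap (g : Perm α) (a b : α) : g * swap a b * g⁻¹ = swap (g a) (g b) := by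
  rw [Equiv.mul_swap_eq_swap_mul, mul_inv_cancel_right]

theorem swap_comm_of_ne {a b c d : α} (h1 : a ≠ c) (h2 : a ≠ d) (h3 : b ≠ c) (h4 : b ≠ d) :
    swap a b * swap c d = swap c d * swap a b := by
  ext x
  simp only [Perm.mul_apply]
  simp only [swap_apply_def]
  grind

/-- two four-sets meeting in one point give a 3-cycle -/
theorem three_one (M : Subgroup (Perm α)) {r x p q e f g : α} (h : [r, x, p, q, e, f, g].Nodup)
    (h1 : swap r x * swap p q ∈ M) (h2 : swap r e * swap f g ∈ M) :
    ∃ a b c : α, a ≠ b ∧ a ≠ c ∧ b ≠ c ∧ swap a b * swap a c ∈ M := by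
  simp only [List.nodup_cons, List.mem_cons, List.not_mem_nil, or_false, not_or] at h
  obtain ⟨⟨h01, h02, h03, h04, h05, h06⟩, ⟨h12, h13, h14, h15, h16⟩, ⟨h23, h24, h25, h26⟩,
    ⟨h34, h35, h36⟩, ⟨h45, h46⟩, h56, -⟩ := h
  refine ⟨e, x, r, by tauto, by tauto, by tauto, ?_⟩
  have h3 := M.mul_mem (M.mul_mem (M.mul_mem h1 h2) (M.inv_mem h1)) (M.inv_mem h2)
  convert h3 using 1
  ext y
  simp only [mul_inv_rev, swap_inv, Perm.mul_apply]
  simp only [swap_apply_def]
  grind

/-- two four-sets meeting in three points give a 3-cycle -/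
theorem three_three (M : Subgroup (Perm α)) {x p q r s : α} (h : [x, p, q, r, s].Nodup)
    (h1 : swap x p * swap q r ∈ M) (h2 : swap p s * swap q r ∈ M) :
    ∃ a b c : α, a ≠ b ∧ a ≠ c ∧ b ≠ c ∧ swap a b * swap a c ∈ M := by
  simp only [List.nodup_cons, List.mem_cons, List.not_mem_nil, or_false, not_or] at h
  obtain ⟨⟨h01, h02, h03, h04⟩, ⟨h12, h13, h14⟩, ⟨h23, h24⟩, h34, -⟩ := h
  refine ⟨p, x, s, by tauto, by tauto, by tauto, ?_⟩
  have h3 := M.mul_mem h1 h2
  convert h3 using 1
  ext y
  simp only [Perm.mul_apply]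
  simp only [swap_apply_def]
  grind

end ThreeCycle

theorem v4_cover : ∀ a : V4, ∃ b c d : V4, [a, b, c, d].Nodup := by decide

theorem v4_fourth : ∀ a b c : V4, [a, b, c].Nodup → ∃ d : V4, [a, b, c, d].Nodup := by decide

theorem v4_trans : ∀ a b c d v : V4, [a, b, c, d].Nodup →
    v + (a + b) = (swap a b * swap c d) v := by decide

section Up

variable {α : Type*} [Fintype α] [DecidableEq α] {I : Type*}

/-- The 3-cycle in a transitive overgroup. -/
theorem exists_three (e : Option (I × V4) ≃ α) (M : Subgroup (Perm α))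
    (htr : ∀ x y : α, ∃ g ∈ M, g x = y) [Nonempty I]
    (hQ : ∀ (i : I) (a b c d : V4), [a, b, c, d].Nodup →
      swap (e (some (i, a))) (e (some (i, b))) * swap (e (some (i, c))) (e (some (i, d))) ∈ M) :
    ∃ a b c : α, a ≠ b ∧ a ≠ c ∧ b ≠ c ∧ swap a b * swap a c ∈ M := by
  classical
  obtain ⟨i0⟩ := ‹Nonempty I›
  obtain ⟨g, hg, hg0⟩ := htr (e (some (i0, 0))) (e none)
  obtain ⟨b, c, d, hnd⟩ := v4_cover 0
  -- the three other points of the block
  have hinj : Function.Injective (fun v : V4 => g (e (some (i0, v)))) := by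
    intro v w h
    have := e.injective (g.injective h)
    simpa using this
  have hnd' := hnd.map hinj
  simp only [List.map_cons, List.map_nil, hg0] at hnd'
  have hC : ∀ a' b' c' d' : V4, [a', b', c', d'].Nodup →
      swap (g (e (some (i0, a')))) (g (e (some (i0, b')))) *
        swap (g (e (some (i0, c')))) (g (e (some (i0, d')))) ∈ M := by
    intro a' b' c' d' hn
    have h1 := M.mul_mem (M.mul_mem hg (hQ i0 a' b' c' d' hn)) (M.inv_mem hg)
    rw [← conj_swap, ← conj_swap]
    convert h1 using 1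
    group
  -- coordinates of points different from `e none`
  have hco : ∀ x : α, x ≠ e none → ∃ (i : I) (v : V4), x = e (some (i, v)) := by
    intro x hx
    rcases h : e.symm x with _ | ⟨i, v⟩
    · exact absurd (by rw [← h, Equiv.apply_symm_apply]) hx
    · exact ⟨i, v, by rw [← h, Equiv.apply_symm_apply]⟩
  have h4 := hnd
  simp only [List.nodup_cons, List.mem_cons, List.not_mem_nil, or_false, not_or] at hnd' h4
  obtain ⟨⟨h01, h02, h03⟩, ⟨h12, h13⟩, h23, -⟩ := hnd'
  obtain ⟨⟨k01, k02, k03⟩, ⟨k12, k13⟩, k23, -⟩ := h4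
  obtain ⟨ip, vp, hp⟩ := hco _ (Ne.symm h01)
  obtain ⟨iq, vq, hq⟩ := hco _ (Ne.symm h02)
  obtain ⟨ir, vr, hr⟩ := hco _ (Ne.symm h03)
  -- a point alone in its block
  have alone : ∀ (i : I) (v : V4) (x p q : α), [e (some (i, v)), x, p, q].Nodup →
      (∀ w, x ≠ e (some (i, w))) → (∀ w, p ≠ e (some (i, w))) → (∀ w, q ≠ e (some (i, w))) →
      swap (e (some (i, v))) x * swap p q ∈ M →
      ∃ a b c : α, a ≠ b ∧ a ≠ c ∧ b ≠ c ∧ swap a b * swap a c ∈ M := by
    intro i v x p q hn hx hp hq hm
    obtain ⟨b', c', d', hn'⟩ := v4_cover v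
    refine three_one M (r := e (some (i, v))) (x := x) (p := p) (q := q) (e := e (some (i, b')))
      (f := e (some (i, c'))) (g := e (some (i, d'))) ?_ hm (hQ i v b' c' d' hn')
    have hinj' : Function.Injective (fun v : V4 => (e (some (i, v)))) := by
      intro v w h
      simpa using e.injective h
    have hn'' := hn'.map hinj'
    simp only [List.map_cons, List.map_nil] at hn''
    simp only [List.nodup_cons, List.mem_cons, List.not_mem_nil, or_false, not_or] at hn hn'' ⊢
    refine ⟨⟨hn.1.1, hn.1.2.1, hn.1.2.2, hn''.1.1, hn''.1.2.1, hn''.1.2.2⟩,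
      ⟨hn.2.1.1, hn.2.1.2, hx _, hx _, hx _⟩, ⟨hn.2.2.1, hp _, hp _, hp _⟩, ⟨hq _, hq _, hq _⟩,
      ⟨hn''.2.1.1, hn''.2.1.2⟩, hn''.2.2.1, by simp⟩
  have none_ne : ∀ (i : I) (w : V4), e none ≠ e (some (i, w)) := by
    intro i w h
    have := e.injective h
    simp at this
  have blk_ne : ∀ (i j : I) (v w : V4), i ≠ j → e (some (i, v)) ≠ e (some (j, w)) := by
    intro i j v w hij h
    have := e.injective h
    simp only [Option.some.injEq, Prod.mk.injEq] at this
    exact hij this.1
  rw [hp] at h01 h12 h13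
  rw [hq] at h02 h12 h23
  rw [hr] at h03 h13 h23
  by_cases hpq : ip = iq
  · by_cases hpr : ip = ir
    · -- all in one block
      subst hpq; subst hpr
      have hn3 : [vp, vq, vr].Nodup := by
        simp only [List.nodup_cons, List.mem_cons, List.not_mem_nil, or_false, not_or]
        refine ⟨⟨?_, ?_⟩, ?_, by simp⟩
        · rintro rfl; exact h12 rfl
        · rintro rfl; exact h13 rfl
        · rintro rfl; exact h23 rfl
      obtain ⟨vs, hn4⟩ := v4_fourth vp vq vr hn3
      have hm1 := hC 0 b c d hnd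
      rw [hg0, hp, hq, hr] at hm1
      have hn4' : [vp, vs, vq, vr].Nodup := by
        simp only [List.nodup_cons, List.mem_cons, List.not_mem_nil, or_false, not_or] at hn4 ⊢
        refine ⟨⟨hn4.1.2.2, hn4.1.1, hn4.1.2.1⟩, ⟨fun h => hn4.2.1.2 h.symm, fun h => hn4.2.2.1 h.symm⟩,
          hn4.2.1.1, by simp⟩
      have hm2 := hQ ip vp vs vq vr hn4'
      refine three_three M (x := e none) ?_ hm1 hm2
      have hinj' : Function.Injective (fun v : V4 => (e (some (ip, v)))) := by
        intro v w h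
        simpa using e.injective h
      have hn'' := hn4.map hinj'
      simp only [List.map_cons, List.map_nil] at hn''
      refine List.nodup_cons.mpr ⟨?_, hn''⟩
      simp only [List.mem_cons, List.not_mem_nil, or_false, not_or]
      exact ⟨none_ne _ _, none_ne _ _, none_ne _ _, none_ne _ _⟩
    · -- r alone
      have hm1 := hC d 0 b c (by
        simp only [List.nodup_cons, List.mem_cons, List.not_mem_nil, or_false, not_or]
        exact ⟨⟨Ne.symm k03, Ne.symm k13, Ne.symm k23⟩, ⟨k01, k02⟩, k12, by simp⟩)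
      rw [hg0, hp, hq, hr] at hm1
      refine alone ir vr (e none) _ _ ?_ (none_ne _) (fun w => blk_ne _ _ _ _ hpr)
        (fun w => blk_ne _ _ _ _ (by rw [← hpq]; exact hpr)) hm1
      simp only [List.nodup_cons, List.mem_cons, List.not_mem_nil, or_false, not_or]
      exact ⟨⟨Ne.symm h03, Ne.symm h13, Ne.symm h23⟩, ⟨h01, h02⟩, h12, by simp⟩
  · by_cases hpr : ip = ir
    · -- q alone
      have hm1 := hC c 0 b d (by
        simp only [List.nodup_cons, List.mem_cons, List.not_mem_nil, or_false, not_or]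
        exact ⟨⟨Ne.symm k02, Ne.symm k12, k23⟩, ⟨k01, k03⟩, k13, by simp⟩)
      rw [hg0, hp, hq, hr] at hm1
      refine alone iq vq (e none) _ _ ?_ (none_ne _) (fun w => blk_ne _ _ _ _ hpq)
        (fun w => blk_ne _ _ _ _ (by rw [← hpr]; exact hpq)) hm1
      simp only [List.nodup_cons, List.mem_cons, List.not_mem_nil, or_false, not_or]
      exact ⟨⟨Ne.symm h02, Ne.symm h12, h23⟩, ⟨h01, h03⟩, h13, by simp⟩
    · -- p alone
      have hm1 := hC b 0 c d (by
        simp only [List.nodup_cons, List.mem_cons, List.not_mem_nil, or_false, not_or]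
        exact ⟨⟨Ne.symm k01, k12, k13⟩, ⟨k02, k03⟩, k23, by simp⟩)
      rw [hg0, hp, hq, hr] at hm1
      refine alone ip vp (e none) _ _ ?_ (none_ne _) (fun w => blk_ne _ _ _ _ (Ne.symm hpq))
        (fun w => blk_ne _ _ _ _ (Ne.symm hpr)) hm1
      simp only [List.nodup_cons, List.mem_cons, List.not_mem_nil, or_false, not_or]
      exact ⟨⟨Ne.symm h01, h12, h13⟩, ⟨h02, h03⟩, h23, by simp⟩

/-- A transitive group containing the block four-groups and a group transitive on the complement
of a point contains the alternating group. -/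
theorem alt_le (e : Option (I × V4) ≃ α) (M : Subgroup (Perm α))
    (htr : ∀ x y : α, ∃ g ∈ M, g x = y) [Nonempty I]
    (hQ : ∀ (i : I) (a b c d : V4), [a, b, c, d].Nodup →
      swap (e (some (i, a))) (e (some (i, b))) * swap (e (some (i, c))) (e (some (i, d))) ∈ M)
    (z : α) (hz : ∀ x y : α, x ≠ z → y ≠ z → ∃ g ∈ M, g z = z ∧ g x = y) :
    alternatingGroup α ≤ M := by
  have hprim : IsPreprimitive M α := by
    apply isPreprimitive_of_is_two_pretransitive
    rw [is_two_pretransitive_iff]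
    intro a b c d hab hcd
    obtain ⟨g1, hg1, h1⟩ := htr a z
    obtain ⟨g2, hg2, h2⟩ := htr c z
    have hb : g1 b ≠ z := fun h => hab (g1.injective (h1.trans h.symm))
    have hd : g2 d ≠ z := fun h => hcd (g2.injective (h2.trans h.symm))
    obtain ⟨k, hk, hkz, hk2⟩ := hz _ _ hb hd
    refine ⟨⟨g2⁻¹ * k * g1, M.mul_mem (M.mul_mem (M.inv_mem hg2) hk) hg1⟩, ?_, ?_⟩
    · change g2⁻¹ (k (g1 a)) = c
      rw [h1, hkz, ← h2]; simp
    · change g2⁻¹ (k (g1 b)) = d
      rw [hk2]; simp
  obtain ⟨a, b, c, hab, hac, hbc, hm⟩ := exists_three e M htr hQ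
  exact alternatingGroup_le_of_isPreprimitive_of_isThreeCycle_mem hprim
    (isThreeCycle_swap_mul_swap_same hab hac hbc) hm

end Up

section Explicit

variable (I : Type) [Fintype I] [DecidableEq I] [AddCommGroup I]

/-- block translations -/
def phiQ : Multiplicative (I → V4) →* Perm (Option (I × V4)) where
  toFun f := optionCongr (prodCongrRight fun i => Equiv.addRight (Multiplicative.toAdd f i))
  map_one' := by
    ext x y
    rcases x with _ | ⟨i, v⟩ <;> simp
  map_mul' f g := by
    apply Equiv.ext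
    intro x
    rcases x with _ | ⟨i, v⟩
    · simp
    · simp [add_comm, add_left_comm, add_assoc]

/-- translations -/
def phiT : Multiplicative (I × V4) →* Perm (Option (I × V4)) where
  toFun f := optionCongr (Equiv.addRight (Multiplicative.toAdd f))
  map_one' := by
    ext x y
    rcases x with _ | ⟨i, v⟩ <;> simp
  map_mul' f g := by
    apply Equiv.ext
    intro x
    rcases x with _ | ⟨i, v⟩
    · simp
    · simp [add_comm, add_left_comm, add_assoc]

theorem sign_addRight_V4 : ∀ v : V4, Perm.sign (Equiv.addRight v : Perm V4) = 1 := by decide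

theorem sign_phiQ (f : Multiplicative (I → V4)) : Perm.sign (phiQ I f) = 1 := by
  change Perm.sign (optionCongr _) = 1
  rw [Equiv.optionCongr_sign, Perm.sign_prodCongrRight]
  exact Finset.prod_eq_one fun i _ => sign_addRight_V4 _

theorem sign_phiT (f : Multiplicative (I × V4)) : Perm.sign (phiT I f) = 1 := by
  change Perm.sign (optionCongr _) = 1
  rw [Equiv.optionCongr_sign]
  have h : (Equiv.addRight (Multiplicative.toAdd f) : Perm (I × V4)) =
      (prodCongrLeft fun _ : V4 => Equiv.addRight (Multiplicative.toAdd f).1) *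
      (prodCongrRight fun _ : I => Equiv.addRight (Multiplicative.toAdd f).2) := by
    ext x <;> simp
  rw [h, Perm.sign_mul, Perm.sign_prodCongrRight, Perm.sign_prodCongrLeft]
  rw [Finset.prod_const, Finset.prod_const, sign_addRight_V4]
  have : (Finset.univ : Finset V4).card = 2 * 2 := by decide
  rw [this, pow_mul, Int.units_sq, one_pow, one_mul]

theorem phiQ_swap (i : I) (a b c d : V4) (hn : [a, b, c, d].Nodup) :
    phiQ I (Multiplicative.ofAdd (Pi.single i (a + b))) =
      swap (some (i, a)) (some (i, b)) * swap (some (i, c)) (some (i, d)) := by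
  apply Equiv.ext
  intro x
  rcases x with _ | ⟨j, v⟩
  · simp [phiQ, swap_apply_def]
  · by_cases hj : j = i
    · subst hj
      have h1 := v4_trans a b c d v hn
      have h2 : phiQ I (Multiplicative.ofAdd (Pi.single j (a + b))) (some (j, v)) =
          some (j, v + (a + b)) := by
        simp [phiQ, add_assoc]
      rw [h2, h1]
      simp only [Perm.mul_apply, swap_apply_def]
      simp only [Option.some.injEq, Prod.mk.injEq, true_and]
      split_ifs <;> simp_all
    · have h2 : phiQ I (Multiplicative.ofAdd (Pi.single i (a + b))) (some (j, v)) =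
          some (j, v) := by
        simp [phiQ, hj]
      rw [h2]
      simp only [Perm.mul_apply, swap_apply_def]
      simp [hj]

end Explicit

end Cfsg.Agent.H99
end

-- part: H99/SylTwoMain
section
/-!
# When does a Sylow 2-subgroup of `A_n`, `S_n` lie in a unique maximal subgroup
-/

set_option autoImplicit false

open MulAction Equiv Equiv.Perm
open scoped Pointwise

namespace Cfsg.Agent.H99

section Sylow

theorem exists_conj_mem_sylow {G P : Type*} [Group G] [Finite G] [Group P] {p : ℕ}
    [Fact p.Prime] (R : Sylow p G) (hP : IsPGroup p P) (ψ : P →* G) :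
    ∃ g : G, ∀ x, g * ψ x * g⁻¹ ∈ (R : Subgroup G) := by
  have h1 : IsPGroup p ψ.range := hP.of_surjective ψ.rangeRestrict ψ.rangeRestrict_surjective
  obtain ⟨g, hg⟩ := exists_conj_le (p := p) ψ.range (R : Subgroup G) h1 R.not_dvd_index
  refine ⟨g⁻¹, fun x => ?_⟩
  rw [inv_inv]
  exact hg _ ⟨x, rfl⟩

end Sylow

variable {α : Type*} [Fintype α] [DecidableEq α]

/-- local moves in the centralizer of a perfect matching -/
theorem exists_move (τ : Perm α) (h1 : τ * τ = 1) (h2 : ∀ x, τ x ≠ x) (hα : 6 ≤ Fintype.card α)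
    (x y z : α) (hxy : x ≠ y) (hxy' : x ≠ τ y) (hxz : x ≠ z) (hxz' : x ≠ τ z) (hyz : y ≠ z) :
    ∃ g ∈ alternatingGroup α, g * τ = τ * g ∧ g y = z ∧ g x = x := by
  have hττ : ∀ w, τ (τ w) = w := fun w => by
    rw [← Perm.mul_apply, h1, Perm.one_apply]
  by_cases hz : z = τ y
  · subst hz
    -- choose another pair
    obtain ⟨w, hw⟩ : ∃ w : α, w ∉ ({x, τ x, y, τ y} : Finset α) := by
      by_contra hcon
      push Not at hcon
      have h4 : Finset.univ ⊆ ({x, τ x, y, τ y} : Finset α) := fun w _ => hcon w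
      have h5 := (Finset.card_le_card h4).trans (Finset.card_le_four)
      rw [Finset.card_univ] at h5
      omega
    simp only [Finset.mem_insert, Finset.mem_singleton, not_or] at hw
    obtain ⟨hw1, hw2, hw3, hw4⟩ := hw
    refine ⟨swap y (τ y) * swap w (τ w), ?_, ?_, ?_, ?_⟩
    · rw [mem_alternatingGroup, Perm.sign_mul, sign_swap (h2 y).symm, sign_swap (h2 w).symm]
      rfl
    · have e1 : swap y (τ y) * τ = τ * swap y (τ y) := by
        rw [Equiv.mul_swap_eq_swap_mul, hττ, swap_comm]
      have e2 : swap w (τ w) * τ = τ * swap w (τ w) := by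
        rw [Equiv.mul_swap_eq_swap_mul, hττ, swap_comm]
      rw [mul_assoc, e2, ← mul_assoc, e1, mul_assoc]
    · rw [Perm.mul_apply, swap_apply_of_ne_of_ne (Ne.symm hw3), swap_apply_left]
      intro h
      apply hw4
      rw [h, hττ]
    · have hxw : x ≠ τ w := by
        intro h
        apply hw2
        rw [h, hττ]
      rw [Perm.mul_apply, swap_apply_of_ne_of_ne (Ne.symm hw1) hxw,
        swap_apply_of_ne_of_ne hxy hxy']
  · have hz' : τ z ≠ y := by
      intro h
      apply hz
      rw [← h, hττ]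
    have hne : τ y ≠ τ z := fun h => hyz (τ.injective h)
    refine ⟨swap y z * swap (τ y) (τ z), ?_, ?_, ?_, ?_⟩
    · rw [mem_alternatingGroup, Perm.sign_mul, sign_swap hyz, sign_swap hne]
      rfl
    · have e1 : swap y z * swap (τ y) (τ z) = swap (τ y) (τ z) * swap y z := by
        apply swap_comm_of_ne (h2 y).symm (Ne.symm hz') hz (h2 z).symm
      have e2 : τ * swap y z = swap (τ y) (τ z) * τ := by
        rw [Equiv.mul_swap_eq_swap_mul]
      have e3 : τ * swap (τ y) (τ z) = swap y z * τ := by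
        rw [Equiv.mul_swap_eq_swap_mul, hττ, hττ]
      calc swap y z * swap (τ y) (τ z) * τ = swap y z * (τ * swap y z) := by rw [mul_assoc, e2]
        _ = (swap y z * τ) * swap y z := by rw [mul_assoc]
        _ = τ * swap (τ y) (τ z) * swap y z := by rw [e3]
        _ = τ * (swap y z * swap (τ y) (τ z)) := by rw [mul_assoc, e1]
    · rw [Perm.mul_apply, swap_apply_of_ne_of_ne (Ne.symm (h2 y)) (Ne.symm hz'), swap_apply_left]
    · rw [Perm.mul_apply, swap_apply_of_ne_of_ne hxy' hxz', swap_apply_of_ne_of_ne hxy hxz]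

/-- the centralizer of a matching is transitive -/
theorem exists_move' (τ : Perm α) (h1 : τ * τ = 1) (h2 : ∀ x, τ x ≠ x) (hα : 6 ≤ Fintype.card α)
    (y z : α) : ∃ g ∈ alternatingGroup α, g * τ = τ * g ∧ g y = z := by
  by_cases hyz : y = z
  · exact ⟨1, one_mem _, by rw [one_mul, mul_one], by rw [hyz, Perm.one_apply]⟩
  obtain ⟨x, hx⟩ : ∃ w : α, w ∉ ({z, τ z, y, τ y} : Finset α) := by
    by_contra hcon
    push Not at hcon
    have h4 : Finset.univ ⊆ ({z, τ z, y, τ y} : Finset α) := fun w _ => hcon w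
    have h5 := (Finset.card_le_card h4).trans (Finset.card_le_four)
    rw [Finset.card_univ] at h5
    omega
  simp only [Finset.mem_insert, Finset.mem_singleton, not_or] at hx
  obtain ⟨hx1, hx2, hx3, hx4⟩ := hx
  obtain ⟨g, hg, hg2, hg3, -⟩ := exists_move τ h1 h2 hα x y z hx3 hx4 hx1 hx2 hyz
  exact ⟨g, hg, hg2, hg3⟩

/-- A subgroup of the alternating group containing the stabilizer of a half and the centralizer
of a matching is everything. -/
theorem alt_top (τ : Perm α) (h1 : τ * τ = 1) (h2 : ∀ x, τ x ≠ x) (hα : 8 ≤ Fintype.card α)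
    (s : Set α) (hs : 2 * s.ncard = Fintype.card α) (M : Subgroup (alternatingGroup α))
    (hM1 : stabilizer (alternatingGroup α) s ≤ M)
    (hM2 : ∀ g : alternatingGroup α, (g : Perm α) * τ = τ * g → g ∈ M) : M = ⊤ := by
  have hcs : s.ncard + sᶜ.ncard = Fintype.card α := by
    rw [Set.ncard_add_ncard_compl, Nat.card_eq_fintype_card]
  have hs4 : 4 ≤ s.ncard := by omega
  have hsc4 : 4 ≤ sᶜ.ncard := by omega
  -- transitivity
  haveI htr : IsPretransitive M α := by
    refine ⟨fun x y => ?_⟩
    obtain ⟨g, hg, hg1, hg2⟩ := exists_move' τ h1 h2 (by omega) x y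
    exact ⟨⟨⟨g, hg⟩, hM2 _ hg1⟩, hg2⟩
  -- for each subset of half size there is an element of the centralizer not respecting it
  have key : ∀ t : Set α, 2 * t.ncard = Fintype.card α → ¬ IsBlock M t := by
    intro t ht hb
    have hct : t.ncard + tᶜ.ncard = Fintype.card α := by
      rw [Set.ncard_add_ncard_compl, Nat.card_eq_fintype_card]
    obtain ⟨x, hx⟩ : t.Nonempty := by
      rw [← Set.ncard_pos]; omega
    obtain ⟨y, hy, hyx⟩ : ∃ y ∈ t, y ∉ ({x, τ x} : Set α) := by
      by_contra hcon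
      push Not at hcon
      have h5 := Set.ncard_le_ncard (s := t) (t := {x, τ x}) hcon (Set.toFinite _)
      have h6 : ({x, τ x} : Set α).ncard ≤ 2 := (Set.ncard_insert_le _ _).trans
        (by rw [Set.ncard_singleton])
      omega
    obtain ⟨z, hz, hzx⟩ : ∃ z ∈ tᶜ, z ∉ ({x, τ x} : Set α) := by
      by_contra hcon
      push Not at hcon
      have h5 := Set.ncard_le_ncard (s := tᶜ) (t := {x, τ x}) hcon (Set.toFinite _)
      have h6 : ({x, τ x} : Set α).ncard ≤ 2 := (Set.ncard_insert_le _ _).trans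
        (by rw [Set.ncard_singleton])
      omega
    simp only [Set.mem_insert_iff, Set.mem_singleton_iff, not_or] at hyx hzx
    have hττ : ∀ w, τ (τ w) = w := fun w => by
      rw [← Perm.mul_apply, h1, Perm.one_apply]
    have hxy' : x ≠ τ y := by
      intro h
      apply hyx.2
      rw [h, hττ]
    have hxz' : x ≠ τ z := by
      intro h
      apply hzx.2
      rw [h, hττ]
    obtain ⟨g, hg, hg1, hg2, hg3⟩ := exists_move τ h1 h2 (by omega) x y z (Ne.symm hyx.1) hxy'
      (Ne.symm hzx.1) hxz' (by rintro rfl; exact hz hy)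
    have hgM : (⟨g, hg⟩ : alternatingGroup α) ∈ M := hM2 _ hg1
    rcases hb.smul_eq_or_disjoint ⟨⟨g, hg⟩, hgM⟩ with h | h
    · apply hz
      rw [← h]
      exact ⟨y, hy, hg2⟩
    · exact Set.disjoint_left.mp h ⟨x, hx, hg3⟩ hx
  have hst : s.Nontrivial := by
    rw [← Set.one_lt_ncard_iff_nontrivial]; omega
  have hsct : sᶜ.Nontrivial := by
    rw [← Set.one_lt_ncard_iff_nontrivial]; omega
  have hM1' : stabilizer (alternatingGroup α) sᶜ ≤ M := by rwa [stabilizer_compl]
  have hprim : IsPreprimitive M α := by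
    apply IsPreprimitive.mk
    intro B hB
    unfold IsTrivialBlock
    rw [or_iff_not_imp_left]
    intro hB'
    have hBs : ¬ B ⊆ s := by
      intro h
      rcases h.eq_or_ssubset with h | h
      · subst h
        exact key B hs hB
      · apply hB'
        refine IsBlock.subsingleton_of_ssubset_compl_of_stabilizer_alternatingGroup_le (s := sᶜ)
          hsct (by rwa [compl_compl]) hM1' hB
    have hBsc : ¬ B ⊆ sᶜ := by
      intro h
      rcases h.eq_or_ssubset with h | h
      · subst h
        exact key sᶜ (by omega) hB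
      · apply hB'
        exact IsBlock.subsingleton_of_ssubset_compl_of_stabilizer_alternatingGroup_le (s := s)
          hst h hM1 hB
    haveI h8 := alternatingGroup.isMultiplyPretransitive α
    have hle : s.ncard + 1 ≤ Nat.card α - 2 := by rw [Nat.card_eq_fintype_card]; omega
    haveI h9 : IsMultiplyPretransitive (alternatingGroup α) α (s.ncard + 1) :=
      isMultiplyPretransitive_of_le hle (Nat.sub_le _ _)
    haveI h10 : IsMultiplyPretransitive (alternatingGroup α) α (sᶜ.ncard + 1) := by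
      have : sᶜ.ncard = s.ncard := by omega
      rw [this]; exact h9
    have hb1 : sᶜ ⊆ B := hB.compl_subset_of_stabilizer_le_of_not_subset_of_not_subset_compl
      hM1 hBs hBsc
    have hb2 : sᶜᶜ ⊆ B := hB.compl_subset_of_stabilizer_le_of_not_subset_of_not_subset_compl
      hM1' hBsc (by rwa [compl_compl])
    rw [compl_compl] at hb2
    rw [← Set.univ_subset_iff, ← Set.union_compl_self s]
    exact Set.union_subset hb2 hb1
  exact alternatingGroup.subgroup_eq_top_of_isPreprimitive
    (by rw [Nat.card_eq_fintype_card]; omega) M hM1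


section Up

variable {G : Type*} [Group G] [Finite G]

/-- conjugates of even `2`-subgroups of `Perm α` lie in the Sylow `2`-subgroup -/
theorem exists_conj_lift (ι : G →* Perm α) (hι : alternatingGroup α ≤ ι.range)
    (hinj : Function.Injective ι) (R : Sylow 2 G) {P : Type*} [Group P] (hP : IsPGroup 2 P)
    (Φ : P →* Perm α) (hΦ : ∀ x, Φ x ∈ alternatingGroup α) :
    ∃ g : G, ∀ x, ι g * Φ x * (ι g)⁻¹ ∈ (R : Subgroup G).map ι := by
  let ψ : P →* G := (MonoidHom.ofInjective hinj).symm.toMonoidHom.comp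
    (Φ.codRestrict ι.range fun x => hι (hΦ x))
  have hψ : ∀ x, ι (ψ x) = Φ x := by
    intro x
    have h := MonoidHom.ofInjective_apply (hf := hinj) (x := ψ x)
    rw [← h]
    simp [ψ]
  haveI : Fact (Nat.Prime 2) := ⟨Nat.prime_two⟩
  obtain ⟨g, hg⟩ := exists_conj_mem_sylow R hP ψ
  refine ⟨g, fun x => ⟨_, hg x, ?_⟩⟩
  rw [map_mul, map_mul, hψ, map_inv]

theorem two_nsmul_V4 : ∀ v : V4, 2 • v = 0 := by decide

theorem isPGroup_Q (I : Type) : IsPGroup 2 (Multiplicative (I → V4)) := by
  intro f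
  refine ⟨1, ?_⟩
  rw [pow_one]
  apply Multiplicative.toAdd.injective
  change 2 • Multiplicative.toAdd f = 0
  funext i
  exact two_nsmul_V4 _

theorem isPGroup_T (m : ℕ) : IsPGroup 2 (Multiplicative ((Fin m → ZMod 2) × V4)) := by
  intro f
  refine ⟨1, ?_⟩
  rw [pow_one]
  apply Multiplicative.toAdd.injective
  change 2 • Multiplicative.toAdd f = 0
  have h2 : ∀ v : ZMod 2, 2 • v = 0 := by decide
  refine Prod.ext ?_ (two_nsmul_V4 _)
  funext i
  exact h2 _

/-- transport of permutations along an equivalence -/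
def congrHom {β : Type*} (e : β ≃ α) : Perm β →* Perm α where
  toFun σ := e.permCongr σ
  map_one' := by ext x; simp
  map_mul' σ τ := by ext x; simp

theorem up_core {k : ℕ} (hk : 2 ≤ k) (hα : Fintype.card α = 2 ^ k + 1) (ι : G →* Perm α)
    (hι : alternatingGroup α ≤ ι.range) (hinj : Function.Injective ι) (R : Sylow 2 G)
    (M : Subgroup G) (hRM : (R : Subgroup G) ≤ M) (z0 : α)
    (hz0 : ∀ r ∈ (R : Subgroup G), ι r z0 = z0) (hM : ∃ g ∈ M, ι g z0 ≠ z0) :
    alternatingGroup α ≤ M.map ι := by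
  obtain ⟨m, rfl⟩ : ∃ m, k = m + 2 := ⟨k - 2, by omega⟩
  -- the model
  have hcard : Fintype.card (Option ((Fin m → ZMod 2) × V4)) = Fintype.card α := by
    rw [hα, Fintype.card_option, Fintype.card_prod, Fintype.card_prod, Fintype.card_fun,
      ZMod.card, Fintype.card_fin]
    ring
  obtain ⟨e⟩ := Fintype.card_eq.mp hcard
  -- the two groups
  obtain ⟨g, hg⟩ := exists_conj_lift ι hι hinj R (isPGroup_Q (Fin m → ZMod 2))
    ((congrHom e).comp (phiQ (Fin m → ZMod 2))) (by
      intro x
      rw [mem_alternatingGroup]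
      change Perm.sign (e.permCongr _) = 1
      rw [Perm.sign_permCongr, sign_phiQ])
  obtain ⟨h, hh⟩ := exists_conj_lift ι hι hinj R (isPGroup_T m)
    ((congrHom e).comp (phiT (Fin m → ZMod 2))) (by
      intro x
      rw [mem_alternatingGroup]
      change Perm.sign (e.permCongr _) = 1
      rw [Perm.sign_permCongr, sign_phiT])
  have hRM' : (R : Subgroup G).map ι ≤ M.map ι := Subgroup.map_mono hRM
  -- the second one fixes a point and is transitive on the rest
  have hT : ∀ x y : α, x ≠ ι h (e none) → y ≠ ι h (e none) →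
      ∃ g ∈ (R : Subgroup G).map ι, g x = y := by
    intro x y hx hy
    have hco : ∀ x : α, x ≠ ι h (e none) → ∃ w, x = ι h (e (some w)) := by
      intro x hx
      rcases hw : e.symm ((ι h).symm x) with _ | w
      · exfalso
        apply hx
        rw [← hw, Equiv.apply_symm_apply, Equiv.apply_symm_apply]
      · refine ⟨w, ?_⟩
        rw [← hw, Equiv.apply_symm_apply, Equiv.apply_symm_apply]
    obtain ⟨v, rfl⟩ := hco x hx
    obtain ⟨w, rfl⟩ := hco y hy
    refine ⟨_, hh (Multiplicative.ofAdd (w - v)), ?_⟩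
    simp [congrHom, phiT]
  have hTz : ∀ x, (ι h * ((congrHom e).comp (phiT (Fin m → ZMod 2)) x) * (ι h)⁻¹)
      (ι h (e none)) = ι h (e none) := by
    intro x
    simp [congrHom, phiT]
  have hz : z0 = ι h (e none) := by
    by_contra hne
    -- another point
    have : ∃ y : α, y ≠ z0 ∧ y ≠ ι h (e none) := by
      have h1 : 2 < Fintype.card α := by
        rw [hα, pow_add]
        have := Nat.one_le_two_pow (n := m)
        omega
      obtain ⟨y, hy⟩ : ∃ w : α, w ∉ ({z0, ι h (e none)} : Finset α) := by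
        by_contra hcon
        push Not at hcon
        have h4 : Finset.univ ⊆ ({z0, ι h (e none)} : Finset α) := fun w _ => hcon w
        have h5 := (Finset.card_le_card h4).trans (Finset.card_le_two)
        rw [Finset.card_univ] at h5
        omega
      simp only [Finset.mem_insert, Finset.mem_singleton, not_or] at hy
      exact ⟨y, hy.1, hy.2⟩
    obtain ⟨y, hy1, hy2⟩ := this
    obtain ⟨_, ⟨r, hr, rfl⟩, hr2⟩ := hT z0 y hne hy2
    exact hy1 (hr2.symm.trans (hz0 r hr))
  -- transitivity of M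
  have htr0 : ∀ x : α, ∃ g ∈ M.map ι, g z0 = x := by
    intro x
    by_cases hx : x = z0
    · exact ⟨1, one_mem _, by rw [hx, Perm.one_apply]⟩
    · obtain ⟨g, hg, hgz⟩ := hM
      obtain ⟨t, ht, ht2⟩ := hT (ι g z0) x (by rw [← hz]; exact hgz) (by rw [← hz]; exact hx)
      exact ⟨t * ι g, mul_mem (hRM' ht) ⟨g, hg, rfl⟩, ht2⟩
  have htr : ∀ x y : α, ∃ g ∈ M.map ι, g x = y := by
    intro x y
    obtain ⟨a, ha, ha2⟩ := htr0 x
    obtain ⟨b, hb, hb2⟩ := htr0 y
    refine ⟨b * a⁻¹, mul_mem hb (inv_mem ha), ?_⟩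
    rw [← ha2, ← hb2]
    simp
  refine alt_le (e.trans (ι g)) (M.map ι) htr ?_ z0 ?_
  · intro i a b c d hn
    have h1 := hRM' (hg (Multiplicative.ofAdd (Pi.single i (a + b))))
    rw [MonoidHom.comp_apply, phiQ_swap _ i a b c d hn] at h1
    convert h1 using 1
    have h2 : (congrHom e) (swap (some (i, a)) (some (i, b)) * swap (some (i, c)) (some (i, d))) =
        swap (e (some (i, a))) (e (some (i, b))) * swap (e (some (i, c))) (e (some (i, d))) := by
      rw [map_mul]
      have h3 : ∀ x y, congrHom e (swap x y) = swap (e x) (e y) := by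
        intro x y
        ext z
        simp only [congrHom, MonoidHom.coe_mk, OneHom.coe_mk, permCongr_apply, swap_apply_def]
        simp only [Equiv.symm_apply_eq]
        split_ifs <;> simp
      rw [h3, h3]
    rw [h2]
    have h4 : ι g * (swap (e (some (i, a))) (e (some (i, b))) *
        swap (e (some (i, c))) (e (some (i, d)))) * (ι g)⁻¹ =
        (ι g * swap (e (some (i, a))) (e (some (i, b))) * (ι g)⁻¹) *
        (ι g * swap (e (some (i, c))) (e (some (i, d))) * (ι g)⁻¹) := by group
    rw [h4, conj_swap, conj_swap]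
    rfl
  · intro x y hx hy
    rw [hz] at hx hy
    obtain ⟨t, ⟨r, hr, rfl⟩, ht2⟩ := hT x y hx hy
    exact ⟨ι r, ⟨r, hRM hr, rfl⟩, hz0 r hr, ht2⟩

end Up

end Cfsg.Agent.H99
end

-- part: S2245
section
set_option autoImplicit false
open Cfsg

namespace Cfsg.Agent.S2245

open MulAction Equiv Equiv.Perm Cfsg.Agent.H99
open scoped Pointwise

/-- parity of `C(2 ^ a + m, 2 ^ a)` -/
theorem odd_choose (a : ℕ) : ∀ m : ℕ, m < 2 ^ a → ¬ 2 ∣ (2 ^ a + m).choose (2 ^ a) := by
  haveI : Fact (Nat.Prime 2) := ⟨Nat.prime_two⟩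
  induction a with
  | zero =>
    intro m hm
    have : m = 0 := by simpa using hm
    subst this
    simp
  | succ b ih =>
    intro m hm
    have h := Choose.choose_modEq_choose_mod_mul_choose_div_nat (n := 2 ^ (b + 1) + m)
      (k := 2 ^ (b + 1)) (p := 2)
    have h1 : 2 ^ (b + 1) % 2 = 0 := by rw [pow_succ]; omega
    have h2 : 2 ^ (b + 1) / 2 = 2 ^ b := by rw [pow_succ]; omega
    have h3 : (2 ^ (b + 1) + m) / 2 = 2 ^ b + m / 2 := by rw [pow_succ]; omega
    rw [h1, h2, h3, Nat.choose_zero_right, one_mul] at h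
    intro h4
    refine ih (m / 2) (by rw [pow_succ] at hm; omega) ?_
    rw [Nat.dvd_iff_mod_eq_zero] at h4 ⊢
    have h5 : _ % 2 = _ % 2 := h
    rw [← h5, h4]

theorem cases_n (n : ℕ) (hn : 5 ≤ n) (h : ¬ ∃ k : ℕ, 2 ≤ k ∧ n = 2 ^ k + 1) :
    (¬ 2 ∣ n ∧ ∃ m, ¬ 2 ∣ n.choose m ∧ 2 ≤ m ∧ m + 2 ≤ n) ∨
    (2 ∣ n ∧ ∃ m, ¬ 2 ∣ n.choose m ∧ 1 ≤ m ∧ m + 1 ≤ n ∧ n ≠ 2 * m) ∨
    (∃ a, n = 2 ^ (a + 1) ∧ 8 ≤ n) := by
  set a := Nat.log 2 n with ha
  have h1 : 2 ^ a ≤ n := Nat.pow_log_le_self 2 (by omega)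
  have h2 : n < 2 ^ (a + 1) := Nat.lt_pow_succ_log_self (by norm_num) n
  have h3 : 2 ^ (a + 1) = 2 * 2 ^ a := by ring
  obtain ⟨m, hm⟩ : ∃ m, n = 2 ^ a + m := ⟨n - 2 ^ a, by omega⟩
  have ha2 : 2 ≤ a := by
    by_contra hcon
    have : 2 ^ (a + 1) ≤ 2 ^ 2 := Nat.pow_le_pow_right (by norm_num) (by omega)
    omega
  have h4 : 4 ≤ 2 ^ a := by
    calc 4 = 2 ^ 2 := by norm_num
      _ ≤ 2 ^ a := Nat.pow_le_pow_right (by norm_num) ha2
  have h5 : ¬ 2 ∣ n.choose (2 ^ a) := by
    rw [hm]; exact odd_choose a m (by omega)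
  have h6 : 2 ∣ 2 ^ a := dvd_pow_self 2 (by omega)
  by_cases hev : 2 ∣ n
  · by_cases hm0 : m = 0
    · right; right
      refine ⟨a - 1, ?_, ?_⟩
      · rw [Nat.sub_add_cancel (by omega)]; omega
      · by_contra hcon
        have : a = 2 := by
          by_contra ha3
          have : 2 ^ 3 ≤ 2 ^ a := Nat.pow_le_pow_right (by norm_num) (by omega)
          omega
        rw [this] at hm
        omega
    · right; left
      exact ⟨hev, 2 ^ a, h5, by omega, by omega, by omega⟩
  · left
    refine ⟨hev, 2 ^ a, h5, by omega, ?_⟩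
    have : m ≠ 1 := by
      rintro rfl
      exact h ⟨a, ha2, hm⟩
    omega

section Down

variable {n : ℕ}

/-- an even permutation moving `y` to `w` and fixing `x` -/
theorem three (x y z w : Fin n) (h : [x, y, z, w].Nodup) :
    swap y z * swap y w ∈ alternatingGroup (Fin n) ∧ (swap y z * swap y w) x = x ∧
    (swap y z * swap y w) y = w := by
  simp only [List.nodup_cons, List.mem_cons, List.not_mem_nil, or_false, not_or] at h
  obtain ⟨⟨h01, h02, h03⟩, ⟨h12, h13⟩, h23, -⟩ := h
  refine ⟨?_, ?_, ?_⟩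
  · rw [mem_alternatingGroup, Perm.sign_mul, sign_swap h12, sign_swap h13]
    rfl
  · rw [Perm.mul_apply, swap_apply_of_ne_of_ne h01 h03, swap_apply_of_ne_of_ne h01 h02]
  · rw [Perm.mul_apply, swap_apply_left, swap_apply_of_ne_of_ne (Ne.symm h13) (Ne.symm h23)]

/-- the centralizer of a matching does not contain the alternating group -/
theorem exists_not_comm (hn : 5 ≤ n) (τ : Perm (Fin n)) (h2 : ∀ x, τ x ≠ x) :
    ∃ g ∈ alternatingGroup (Fin n), g * τ ≠ τ * g := by
  have x : Fin n := ⟨0, by omega⟩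
  obtain ⟨z, hz⟩ : ∃ w : Fin n, w ∉ ({x, τ x} : Finset (Fin n)) := by
    by_contra hcon
    push Not at hcon
    have h4 : Finset.univ ⊆ ({x, τ x} : Finset (Fin n)) := fun w _ => hcon w
    have h5 := (Finset.card_le_card h4).trans (Finset.card_le_two)
    rw [Finset.card_univ, Fintype.card_fin] at h5
    omega
  obtain ⟨w, hw⟩ : ∃ w : Fin n, w ∉ ({x, τ x, z} : Finset (Fin n)) := by
    by_contra hcon
    push Not at hcon
    have h4 : Finset.univ ⊆ ({x, τ x, z} : Finset (Fin n)) := fun w _ => hcon w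
    have h5 := (Finset.card_le_card h4).trans (Finset.card_le_three)
    rw [Finset.card_univ, Fintype.card_fin] at h5
    omega
  simp only [Finset.mem_insert, Finset.mem_singleton, not_or] at hz hw
  obtain ⟨g1, g2, g3⟩ := three x (τ x) z w (by
    simp only [List.nodup_cons, List.mem_cons, List.not_mem_nil, or_false, not_or]
    exact ⟨⟨(h2 x).symm, Ne.symm hz.1, Ne.symm hw.1⟩, ⟨Ne.symm hz.2, Ne.symm hw.2.1⟩,
      Ne.symm hw.2.2, by simp⟩)
  refine ⟨_, g1, fun h => ?_⟩
  have h3 := congrArg (fun σ : Perm (Fin n) => σ x) h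
  simp only [Perm.mul_apply] at h3
  simp only [Perm.mul_apply] at g2 g3
  rw [g3, g2] at h3
  exact hw.2.1 h3

/-- the stabilizer of the partition `{s, sᶜ}` -/
def halfStab (s : Finset (Fin n)) : Subgroup (Perm (Fin n)) where
  carrier := {g | g • s = s ∨ g • s = sᶜ}
  one_mem' := Or.inl (one_smul _ _)
  mul_mem' := by
    have hsm : ∀ (g : Perm (Fin n)) (s : Finset (Fin n)), g • sᶜ = (g • s)ᶜ := by
      intro g s
      ext x
      rw [Finset.mem_compl, ← Finset.inv_smul_mem_iff, Finset.mem_compl, Finset.inv_smul_mem_iff]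
    rintro a b (ha | ha) (hb | hb)
    · left; rw [mul_smul, hb, ha]
    · right; rw [mul_smul, hb, hsm, ha]
    · right; rw [mul_smul, hb, ha]
    · left; rw [mul_smul, hb, hsm, ha, compl_compl]
  inv_mem' := by
    have hsm : ∀ (g : Perm (Fin n)) (s : Finset (Fin n)), g • sᶜ = (g • s)ᶜ := by
      intro g s
      ext x
      rw [Finset.mem_compl, ← Finset.inv_smul_mem_iff, Finset.mem_compl, Finset.inv_smul_mem_iff]
    rintro a (ha | ha)
    · left
      exact inv_smul_eq_iff.mpr ha.symm
    · right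
      rw [inv_smul_eq_iff, hsm, ha, compl_compl]

theorem exists_not_half (hn : 8 ≤ n) (s : Finset (Fin n)) (hs : 2 * s.card = n) :
    ∃ g ∈ alternatingGroup (Fin n), g ∉ halfStab s := by
  have hsc : s.card + sᶜ.card = n := by
    rw [Finset.card_add_card_compl, Fintype.card_fin]
  obtain ⟨x, y, hx, hy, hxy⟩ := Finset.one_lt_card_iff.mp (show 1 < s.card by omega)
  obtain ⟨z, w, hz, hw, hzw⟩ := Finset.one_lt_card_iff.mp (show 1 < sᶜ.card by omega)
  rw [Finset.mem_compl] at hz hw
  obtain ⟨g1, g2, g3⟩ := three x y z w (by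
    simp only [List.nodup_cons, List.mem_cons, List.not_mem_nil, or_false, not_or]
    refine ⟨⟨hxy, ?_, ?_⟩, ⟨?_, ?_⟩, hzw, by simp⟩
    · rintro rfl; exact hz hx
    · rintro rfl; exact hw hx
    · rintro rfl; exact hz hy
    · rintro rfl; exact hw hy)
  refine ⟨_, g1, ?_⟩
  rintro (h | h)
  · apply hw
    rw [← h]
    have h3 : (swap y z * swap y w) • y ∈ (swap y z * swap y w) • s :=
      Finset.smul_mem_smul_finset hy
    rwa [Perm.smul_def, g3] at h3
  · have h3 : (swap y z * swap y w) • x ∈ (swap y z * swap y w) • s :=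
      Finset.smul_mem_smul_finset hx
    rw [h, Finset.mem_compl] at h3
    apply h3
    rw [Perm.smul_def, g2]
    exact hx

/-- In a finite group, a proper subgroup containing `R` lies in the unique maximal one. -/
theorem le_of_unique {G : Type*} [Group G] [Finite G] {R M X : Subgroup G}
    (hM : ∀ M' : Subgroup G, IsCoatom M' → R ≤ M' → M' = M) (hRX : R ≤ X) (hX : X ≠ ⊤) :
    X ≤ M := by
  rcases eq_top_or_exists_le_coatom X with h | ⟨M', h1, h2⟩
  · exact absurd h hX
  · rw [← hM M' h1 (hRX.trans h2)]; exact h2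

theorem down_alt (hn : 5 ≤ n) (h : ¬ ∃ k : ℕ, 2 ≤ k ∧ n = 2 ^ k + 1)
    (R : Subgroup (alternatingGroup (Fin n))) (hR : IsPGroup 2 R) :
    ¬ ∃! M : Subgroup (alternatingGroup (Fin n)), IsCoatom M ∧ R ≤ M := by
  haveI : Fact (Nat.Prime 2) := ⟨Nat.prime_two⟩
  rintro ⟨M, ⟨hM1, hM2⟩, hM3⟩
  have huniq : ∀ M' : Subgroup (alternatingGroup (Fin n)), IsCoatom M' → R ≤ M' → M' = M :=
    fun M' h1 h2 => hM3 M' ⟨h1, h2⟩
  have hcn : Nat.card (Fin n) = n := by rw [Nat.card_eq_fintype_card, Fintype.card_fin]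
  rcases cases_n n hn h with ⟨hev, m, hm, hm1, hm2⟩ | ⟨hev, m, hm, hm1, hm2, hm3⟩ | ⟨a, ha, hn8⟩
  · -- `n` odd
    obtain ⟨s, hs, hRs⟩ := exists_set (α := Fin n) R hR m (by rwa [Fintype.card_fin])
    obtain ⟨t, ht, hRt⟩ := exists_set (α := Fin n) R hR 1 (by rwa [Fintype.card_fin, Nat.choose_one_right])
    obtain ⟨x, rfl⟩ := Set.ncard_eq_one.mp ht
    have hsc := Set.ncard_add_ncard_compl s
    rw [hcn, hs] at hsc
    have h1 : IsCoatom (stabilizer (alternatingGroup (Fin n)) s) := by
      apply alternatingGroup.isCoatom_stabilizer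
      · rw [← Set.ncard_pos]; omega
      · rw [← Set.ncard_pos]; omega
      · rw [hcn, hs]; omega
    have h2 : IsCoatom (stabilizer (alternatingGroup (Fin n)) ({x} : Set (Fin n))) := by
      apply alternatingGroup.isCoatom_stabilizer
      · exact Set.singleton_nonempty x
      · rw [← Set.ncard_pos]
        have := Set.ncard_add_ncard_compl ({x} : Set (Fin n))
        rw [hcn, ht] at this
        omega
      · rw [hcn, ht]; omega
    have h3 := (huniq _ h1 hRs).trans (huniq _ h2 hRt).symm
    have key : ∀ u : Set (Fin n), 1 < u.ncard →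
        stabilizer (alternatingGroup (Fin n)) u =
          stabilizer (alternatingGroup (Fin n)) ({x} : Set (Fin n)) → x ∉ u := by
      intro u hu heq hxu
      obtain ⟨b, hb, hbx⟩ := Set.exists_ne_of_one_lt_ncard hu x
      obtain ⟨g, hg, hgx⟩ := alternatingGroup.exists_mem_stabilizer_smul_eq
        (by rw [hcn]; omega) x hxu b hb
      rw [heq] at hg
      have h6 : g • ({x} : Set (Fin n)) = {x} := hg
      rw [Set.smul_set_singleton, Set.singleton_eq_singleton_iff] at h6
      exact hbx (hgx.symm.trans h6)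
    have h4 := key s (by omega) h3
    refine key sᶜ (by omega) ?_ h4
    rw [stabilizer_compl]; exact h3
  · -- `n` even, not a power of 2
    obtain ⟨s, hs, hRs⟩ := exists_set (α := Fin n) R hR m (by rwa [Fintype.card_fin])
    have hsc := Set.ncard_add_ncard_compl s
    rw [hcn, hs] at hsc
    have h1 : IsCoatom (stabilizer (alternatingGroup (Fin n)) s) := by
      apply alternatingGroup.isCoatom_stabilizer
      · rw [← Set.ncard_pos]; omega
      · rw [← Set.ncard_pos]; omega
      · rw [hcn, hs]; omega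
    obtain ⟨m', hm'⟩ := hev
    obtain ⟨τ, hτ1, hτ2, hτ3⟩ := exists_tau (R.map (alternatingGroup (Fin n)).subtype)
      (hR.map _) (m := m') (by omega) (by rw [Fintype.card_fin, hm'])
    set X : Subgroup (alternatingGroup (Fin n)) :=
      (Subgroup.centralizer {τ}).comap (alternatingGroup (Fin n)).subtype with hX
    have hRX : R ≤ X := by
      intro r hr
      rw [hX, Subgroup.mem_comap, Subgroup.mem_centralizer_singleton_iff]
      exact hτ3 _ ⟨r, hr, rfl⟩
    have hXt : X ≠ ⊤ := by
      intro htop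
      obtain ⟨g, hg, hg2⟩ := exists_not_comm hn τ hτ2
      apply hg2
      have : (⟨g, hg⟩ : alternatingGroup (Fin n)) ∈ X := by rw [htop]; trivial
      exact Subgroup.mem_centralizer_singleton_iff.mp this
    have hle := le_of_unique huniq hRX hXt
    rw [← huniq _ h1 hRs] at hle
    obtain ⟨y, hy⟩ : s.Nonempty := by rw [← Set.ncard_pos]; omega
    obtain ⟨z, hz⟩ : sᶜ.Nonempty := by rw [← Set.ncard_pos]; omega
    obtain ⟨g, hg, hg1, hg2⟩ := exists_move' τ hτ1 hτ2 (by rw [Fintype.card_fin]; omega) y z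
    have hgX : (⟨g, hg⟩ : alternatingGroup (Fin n)) ∈ X :=
      Subgroup.mem_centralizer_singleton_iff.mpr hg1
    have h6 : (⟨g, hg⟩ : alternatingGroup (Fin n)) • s = s := hle hgX
    apply hz
    rw [← h6]
    exact ⟨y, hy, hg2⟩
  · -- `n` a power of 2
    obtain ⟨τ, hτ1, hτ2, hτ3⟩ := exists_tau (R.map (alternatingGroup (Fin n)).subtype)
      (hR.map _) (m := 2 ^ a) (Nat.one_le_two_pow) (by rw [Fintype.card_fin, ha]; ring)
    obtain ⟨s, hs, hs2⟩ := exists_half (R.map (alternatingGroup (Fin n)).subtype)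
      (hR.map _) (a := a) (by rw [Fintype.card_fin, ha])
    set X : Subgroup (alternatingGroup (Fin n)) :=
      (Subgroup.centralizer {τ}).comap (alternatingGroup (Fin n)).subtype with hX
    have hRX : R ≤ X := by
      intro r hr
      rw [hX, Subgroup.mem_comap, Subgroup.mem_centralizer_singleton_iff]
      exact hτ3 _ ⟨r, hr, rfl⟩
    have hXt : X ≠ ⊤ := by
      intro htop
      obtain ⟨g, hg, hg2⟩ := exists_not_comm hn τ hτ2
      apply hg2
      have : (⟨g, hg⟩ : alternatingGroup (Fin n)) ∈ X := by rw [htop]; trivial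
      exact Subgroup.mem_centralizer_singleton_iff.mp this
    have hXM := le_of_unique huniq hRX hXt
    set Y : Subgroup (alternatingGroup (Fin n)) :=
      (halfStab s).comap (alternatingGroup (Fin n)).subtype with hY
    have hRY : R ≤ Y := fun r hr => hs2 _ ⟨r, hr, rfl⟩
    have hYt : Y ≠ ⊤ := by
      intro htop
      obtain ⟨g, hg, hg2⟩ := exists_not_half hn8 s (by rw [hs, ha]; ring)
      apply hg2
      have : (⟨g, hg⟩ : alternatingGroup (Fin n)) ∈ Y := by rw [htop]; trivial
      exact this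
    have hYM := le_of_unique huniq hRY hYt
    apply hM1.1
    refine alt_top τ hτ1 hτ2 (by rw [Fintype.card_fin]; exact hn8) (s : Set (Fin n))
      (by rw [Set.ncard_coe_finset, hs, Fintype.card_fin, ha]; ring) M ?_ ?_
    · intro g hg
      apply hYM
      left
      have h6 : (g : Perm (Fin n)) • (s : Set (Fin n)) = (s : Set (Fin n)) := hg
      apply Finset.coe_injective
      rw [Finset.coe_smul_finset]
      exact h6
    · intro g hg
      exact hXM (Subgroup.mem_centralizer_singleton_iff.mpr hg)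

theorem down_sym (hn : 5 ≤ n) (h : ¬ ∃ k : ℕ, 2 ≤ k ∧ n = 2 ^ k + 1)
    (R : Subgroup (Perm (Fin n))) (hR : IsPGroup 2 R) :
    ¬ ∃! M : Subgroup (Perm (Fin n)), IsCoatom M ∧ R ≤ M := by
  haveI : Fact (Nat.Prime 2) := ⟨Nat.prime_two⟩
  rintro ⟨M, ⟨hM1, hM2⟩, hM3⟩
  have huniq : ∀ M' : Subgroup (Perm (Fin n)), IsCoatom M' → R ≤ M' → M' = M :=
    fun M' h1 h2 => hM3 M' ⟨h1, h2⟩
  have hcn : Nat.card (Fin n) = n := by rw [Nat.card_eq_fintype_card, Fintype.card_fin]
  rcases cases_n n hn h with ⟨hev, m, hm, hm1, hm2⟩ | ⟨hev, m, hm, hm1, hm2, hm3⟩ | ⟨a, ha, hn8⟩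
  · -- `n` odd
    obtain ⟨s, hs, hRs⟩ := exists_set (α := Fin n) R hR m (by rwa [Fintype.card_fin])
    obtain ⟨t, ht, hRt⟩ := exists_set (α := Fin n) R hR 1 (by rwa [Fintype.card_fin, Nat.choose_one_right])
    obtain ⟨x, rfl⟩ := Set.ncard_eq_one.mp ht
    have hsc := Set.ncard_add_ncard_compl s
    rw [hcn, hs] at hsc
    have h1 : IsCoatom (stabilizer (Perm (Fin n)) s) := by
      apply Equiv.Perm.isCoatom_stabilizer
      · rw [← Set.ncard_pos]; omega
      · rw [← Set.ncard_pos]; omega
      · rw [hcn, hs]; omega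
    have h2 : IsCoatom (stabilizer (Perm (Fin n)) ({x} : Set (Fin n))) := by
      apply Equiv.Perm.isCoatom_stabilizer
      · exact Set.singleton_nonempty x
      · rw [← Set.ncard_pos]
        have := Set.ncard_add_ncard_compl ({x} : Set (Fin n))
        rw [hcn, ht] at this
        omega
      · rw [hcn, ht]; omega
    have h3 := (huniq _ h1 hRs).trans (huniq _ h2 hRt).symm
    have key : ∀ u : Set (Fin n), 1 < u.ncard →
        stabilizer (Perm (Fin n)) u =
          stabilizer (Perm (Fin n)) ({x} : Set (Fin n)) → x ∉ u := by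
      intro u hu heq hxu
      obtain ⟨b, hb, hbx⟩ := Set.exists_ne_of_one_lt_ncard hu x
      obtain ⟨g, hg, hgx⟩ := Equiv.Perm.exists_mem_stabilizer_smul_eq x hxu b hb
      rw [heq] at hg
      have h6 : g • ({x} : Set (Fin n)) = {x} := hg
      rw [Set.smul_set_singleton, Set.singleton_eq_singleton_iff] at h6
      exact hbx (hgx.symm.trans h6)
    have h4 := key s (by omega) h3
    refine key sᶜ (by omega) ?_ h4
    rw [stabilizer_compl]; exact h3
  · -- `n` even, not a power of 2
    obtain ⟨s, hs, hRs⟩ := exists_set (α := Fin n) R hR m (by rwa [Fintype.card_fin])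
    have hsc := Set.ncard_add_ncard_compl s
    rw [hcn, hs] at hsc
    have h1 : IsCoatom (stabilizer (Perm (Fin n)) s) := by
      apply Equiv.Perm.isCoatom_stabilizer
      · rw [← Set.ncard_pos]; omega
      · rw [← Set.ncard_pos]; omega
      · rw [hcn, hs]; omega
    obtain ⟨m', hm'⟩ := hev
    obtain ⟨τ, hτ1, hτ2, hτ3⟩ := exists_tau R hR (m := m') (by omega)
      (by rw [Fintype.card_fin, hm'])
    have hRX : R ≤ Subgroup.centralizer {τ} := by
      intro r hr
      rw [Subgroup.mem_centralizer_singleton_iff]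
      exact hτ3 _ hr
    have hXt : Subgroup.centralizer {τ} ≠ ⊤ := by
      intro htop
      obtain ⟨g, hg, hg2⟩ := exists_not_comm hn τ hτ2
      apply hg2
      have : g ∈ Subgroup.centralizer {τ} := by rw [htop]; trivial
      exact Subgroup.mem_centralizer_singleton_iff.mp this
    have hle := le_of_unique huniq hRX hXt
    rw [← huniq _ h1 hRs] at hle
    obtain ⟨y, hy⟩ : s.Nonempty := by rw [← Set.ncard_pos]; omega
    obtain ⟨z, hz⟩ : sᶜ.Nonempty := by rw [← Set.ncard_pos]; omega
    obtain ⟨g, hg, hg1, hg2⟩ := exists_move' τ hτ1 hτ2 (by rw [Fintype.card_fin]; omega) y z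
    have hgX : g ∈ Subgroup.centralizer {τ} :=
      Subgroup.mem_centralizer_singleton_iff.mpr hg1
    have h6 : g • s = s := hle hgX
    apply hz
    rw [← h6]
    exact ⟨y, hy, hg2⟩
  · -- `n` a power of 2
    obtain ⟨τ, hτ1, hτ2, hτ3⟩ := exists_tau R hR (m := 2 ^ a) (Nat.one_le_two_pow)
      (by rw [Fintype.card_fin, ha]; ring)
    obtain ⟨s, hs, hs2⟩ := exists_half R hR (a := a) (by rw [Fintype.card_fin, ha])
    have hRX : R ≤ Subgroup.centralizer {τ} := by
      intro r hr
      rw [Subgroup.mem_centralizer_singleton_iff]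
      exact hτ3 _ hr
    have hXt : Subgroup.centralizer {τ} ≠ ⊤ := by
      intro htop
      obtain ⟨g, hg, hg2⟩ := exists_not_comm hn τ hτ2
      apply hg2
      have : g ∈ Subgroup.centralizer {τ} := by rw [htop]; trivial
      exact Subgroup.mem_centralizer_singleton_iff.mp this
    have hXM := le_of_unique huniq hRX hXt
    have hRY : R ≤ halfStab s := fun r hr => hs2 _ hr
    have hYt : halfStab s ≠ ⊤ := by
      intro htop
      obtain ⟨g, hg, hg2⟩ := exists_not_half hn8 s (by rw [hs, ha]; ring)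
      apply hg2
      rw [htop]; trivial
    have hYM := le_of_unique huniq hRY hYt
    have htop : M.comap (alternatingGroup (Fin n)).subtype = ⊤ := by
      refine alt_top τ hτ1 hτ2 (by rw [Fintype.card_fin]; exact hn8) (s : Set (Fin n))
        (by rw [Set.ncard_coe_finset, hs, Fintype.card_fin, ha]; ring) _ ?_ ?_
      · intro g hg
        apply hYM
        left
        have h6 : (g : Perm (Fin n)) • (s : Set (Fin n)) = (s : Set (Fin n)) := hg
        apply Finset.coe_injective
        rw [Finset.coe_smul_finset]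
        exact h6
      · intro g hg
        exact hXM (Subgroup.mem_centralizer_singleton_iff.mpr hg)
    have hAM : alternatingGroup (Fin n) ≤ M := by
      intro g hg
      have : (⟨g, hg⟩ : alternatingGroup (Fin n)) ∈ M.comap (alternatingGroup (Fin n)).subtype := by
        rw [htop]; trivial
      exact this
    -- a transposition in `M`
    obtain ⟨x, y, hx, hy, hxy⟩ := Finset.one_lt_card_iff.mp (show 1 < s.card by
      rw [hs]
      have : 2 ^ (a + 1) = 2 * 2 ^ a := by ring
      omega)
    have hsw : swap x y ∈ M := by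
      apply hYM
      left
      have h7 : swap x y ∈ stabilizer (Perm (Fin n)) (s : Set (Fin n)) :=
        swap_mem_stabilizer hx hy
      apply Finset.coe_injective
      rw [Finset.coe_smul_finset]
      exact h7
    apply hM1.1
    rw [eq_top_iff]
    intro g _
    rcases Int.units_eq_one_or (sign g) with hsg | hsg
    · exact hAM hsg
    · have h8 : g * swap x y ∈ alternatingGroup (Fin n) := by
        rw [mem_alternatingGroup, Perm.sign_mul, hsg, sign_swap hxy]; rfl
      have h9 := M.mul_mem (hAM h8) hsw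
      rwa [mul_assoc, swap_mul_self, mul_one] at h9

end Down

section Up

variable {n k : ℕ}

theorem up_alt (hk : 2 ≤ k) (hn : n = 2 ^ k + 1) (R : Sylow 2 (alternatingGroup (Fin n))) :
    ∃! M : Subgroup (alternatingGroup (Fin n)),
      IsCoatom M ∧ (R : Subgroup (alternatingGroup (Fin n))) ≤ M := by
  haveI : Fact (Nat.Prime 2) := ⟨Nat.prime_two⟩
  have h4 : 4 ≤ 2 ^ k := by
    calc 4 = 2 ^ 2 := by norm_num
      _ ≤ 2 ^ k := Nat.pow_le_pow_right (by norm_num) hk
  have h6 : 2 ∣ 2 ^ k := dvd_pow_self 2 (by omega)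
  have hcn : Nat.card (Fin n) = n := by rw [Nat.card_eq_fintype_card, Fintype.card_fin]
  obtain ⟨t, ht, hRt⟩ := exists_set (α := Fin n)
    (R : Subgroup (alternatingGroup (Fin n))) R.isPGroup' 1
    (by rw [Fintype.card_fin, Nat.choose_one_right]; omega)
  obtain ⟨x, rfl⟩ := Set.ncard_eq_one.mp ht
  have h2 : IsCoatom (stabilizer (alternatingGroup (Fin n)) ({x} : Set (Fin n))) := by
    apply alternatingGroup.isCoatom_stabilizer
    · exact Set.singleton_nonempty x
    · rw [← Set.ncard_pos]
      have := Set.ncard_add_ncard_compl ({x} : Set (Fin n))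
      rw [hcn, ht] at this
      omega
    · rw [hcn, ht]; omega
  refine ⟨_, ⟨h2, hRt⟩, ?_⟩
  rintro M ⟨hM1, hM2⟩
  by_contra hne
  have hmove : ∃ g ∈ M, (alternatingGroup (Fin n)).subtype g x ≠ x := by
    by_contra hcon
    push Not at hcon
    apply hne
    have hle : M ≤ stabilizer (alternatingGroup (Fin n)) ({x} : Set (Fin n)) := by
      intro g hg
      rw [mem_stabilizer_iff, Set.smul_set_singleton]
      have h5 : g • x = x := hcon g hg
      rw [h5]
    by_contra hne2
    exact h2.1 (hM1.2 _ (lt_of_le_of_ne hle hne2))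
  have hfix : ∀ r ∈ (R : Subgroup (alternatingGroup (Fin n))),
      (alternatingGroup (Fin n)).subtype r x = x := by
    intro r hr
    have h5 : r • ({x} : Set (Fin n)) = {x} := hRt hr
    rw [Set.smul_set_singleton, Set.singleton_eq_singleton_iff] at h5
    exact h5
  have h := up_core hk (by rw [Fintype.card_fin, hn]) (alternatingGroup (Fin n)).subtype
    (by rw [Subgroup.range_subtype]) (Subgroup.subtype_injective _) R M hM2 x hfix hmove
  apply hM1.1
  rw [eq_top_iff]
  intro g _
  obtain ⟨g', hg', hgg⟩ := h g.2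
  have : g' = g := Subtype.ext hgg
  rwa [← this]

theorem up_sym (hk : 2 ≤ k) (hn : n = 2 ^ k + 1) (R : Sylow 2 (Perm (Fin n))) :
    ∃! M : Subgroup (Perm (Fin n)),
      IsCoatom M ∧ (R : Subgroup (Perm (Fin n))) ≤ M := by
  haveI : Fact (Nat.Prime 2) := ⟨Nat.prime_two⟩
  have h4 : 4 ≤ 2 ^ k := by
    calc 4 = 2 ^ 2 := by norm_num
      _ ≤ 2 ^ k := Nat.pow_le_pow_right (by norm_num) hk
  have h6 : 2 ∣ 2 ^ k := dvd_pow_self 2 (by omega)
  have hcn : Nat.card (Fin n) = n := by rw [Nat.card_eq_fintype_card, Fintype.card_fin]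
  obtain ⟨t, ht, hRt⟩ := exists_set (α := Fin n)
    (R : Subgroup (Perm (Fin n))) R.isPGroup' 1
    (by rw [Fintype.card_fin, Nat.choose_one_right]; omega)
  obtain ⟨x, rfl⟩ := Set.ncard_eq_one.mp ht
  have h2 : IsCoatom (stabilizer (Perm (Fin n)) ({x} : Set (Fin n))) := by
    apply Equiv.Perm.isCoatom_stabilizer
    · exact Set.singleton_nonempty x
    · rw [← Set.ncard_pos]
      have := Set.ncard_add_ncard_compl ({x} : Set (Fin n))
      rw [hcn, ht] at this
      omega
    · rw [hcn, ht]; omega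
  refine ⟨_, ⟨h2, hRt⟩, ?_⟩
  rintro M ⟨hM1, hM2⟩
  by_contra hne
  have hmove : ∃ g ∈ M, MonoidHom.id (Perm (Fin n)) g x ≠ x := by
    by_contra hcon
    push Not at hcon
    apply hne
    have hle : M ≤ stabilizer (Perm (Fin n)) ({x} : Set (Fin n)) := by
      intro g hg
      rw [mem_stabilizer_iff, Set.smul_set_singleton]
      have h5 : g • x = x := hcon g hg
      rw [h5]
    by_contra hne2
    exact h2.1 (hM1.2 _ (lt_of_le_of_ne hle hne2))
  have hfix : ∀ r ∈ (R : Subgroup (Perm (Fin n))),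
      MonoidHom.id (Perm (Fin n)) r x = x := by
    intro r hr
    have h5 : r • ({x} : Set (Fin n)) = {x} := hRt hr
    rw [Set.smul_set_singleton, Set.singleton_eq_singleton_iff] at h5
    exact h5
  have h := up_core hk (by rw [Fintype.card_fin, hn]) (MonoidHom.id (Perm (Fin n)))
    (fun g _ => ⟨g, rfl⟩) (fun _ _ h => h) R M hM2 x hfix hmove
  rw [Subgroup.map_id] at h
  haveI : Nontrivial (Fin n) := Fin.nontrivial_iff_two_le.mpr (by omega)
  have hidx : M.index ∣ 2 := by
    have h7 := Subgroup.index_dvd_of_le h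
    rwa [alternatingGroup.index_eq_two] at h7
  rcases (Nat.dvd_prime Nat.prime_two).mp hidx with h8 | h8
  · exact hM1.1 (Subgroup.index_eq_one.mp h8)
  · apply R.not_dvd_index
    have h9 := Subgroup.index_dvd_of_le hM2
    rwa [h8] at h9

end Up

/-- For n ≥ 5 with n ≠ 6, a Sylow 2-subgroup of the alternating group A_n lies in exactly one maximal subgroup of A_n if and only if n = 2^k + 1 for some k ≥ 2; the same holds for the symmetric group S_n. -/
theorem result (n : ℕ) (hn : 5 ≤ n) (h6 : n ≠ 6) :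
    ((∀ R : Sylow 2 ↥(alternatingGroup (Fin n)), (∃! M : Subgroup ↥(alternatingGroup (Fin n)), IsCoatom M ∧ (R : Subgroup ↥(alternatingGroup (Fin n))) ≤ M) ↔ ∃ k : ℕ, 2 ≤ k ∧ n = 2 ^ k + 1) ∧
    (∀ R : Sylow 2 (Equiv.Perm (Fin n)), (∃! M : Subgroup (Equiv.Perm (Fin n)), IsCoatom M ∧ (R : Subgroup (Equiv.Perm (Fin n))) ≤ M) ↔ ∃ k : ℕ, 2 ≤ k ∧ n = 2 ^ k + 1)) := by
  refine ⟨fun R => ⟨fun h => ?_, ?_⟩, fun R => ⟨fun h => ?_, ?_⟩⟩
  · by_contra hcon
    exact down_alt hn hcon _ R.isPGroup' h
  · rintro ⟨k, hk, hnk⟩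
    exact up_alt hk hnk R
  · by_contra hcon
    exact down_sym hn hcon _ R.isPGroup' h
  · rintro ⟨k, hk, hnk⟩
    exact up_sym hk hnk R

end Cfsg.Agent.S2245
end
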