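import Cfsg.Statements.S2249
import Cfsg.Agent.H100.GLTwoLower
set_option linter.all false

set_option autoImplicit false
open Cfsg

namespace Cfsg.Agent.S2249

open Cfsg.Agent.FooteOdd Cfsg.Agent.H100.NormRank Cfsg.Agent.H100.GLTwo

/-- The normal 2-rank of the general linear group over a finite field of odd order q: for n ≥ 1 and S a Sylow 2-subgroup of GL_n(F), the largest rank of an elementary abelian subgroup of S that is normal in S equals n when q ≡ 1 (mod 4) and ⌊(n + 1)/2⌋ when q ≡ 3 (mod 4). -/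
theorem result {F : Type*} [Field F] [Fintype F] {q : ℕ} (hF : Fintype.card F = q) (hodd : Odd q) (n : ℕ) (hn : 1 ≤ n) (S : Sylow 2 (Matrix.GeneralLinearGroup (Fin n) F)) :
    (q % 4 = 1 → ((∃ E : Subgroup ↥(S : Subgroup (Matrix.GeneralLinearGroup (Fin n) F)), E.Normal ∧ Cfsg.IsElementaryAbelian 2 E ∧ 2 ^ (n) ≤ Nat.card ↥E) ∧
      ∀ E : Subgroup ↥(S : Subgroup (Matrix.GeneralLinearGroup (Fin n) F)), E.Normal → Cfsg.IsElementaryAbelian 2 E → Nat.card ↥E ≤ 2 ^ (n))) ∧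
    (q % 4 = 3 → ((∃ E : Subgroup ↥(S : Subgroup (Matrix.GeneralLinearGroup (Fin n) F)), E.Normal ∧ Cfsg.IsElementaryAbelian 2 E ∧ 2 ^ ((n + 1) / 2) ≤ Nat.card ↥E) ∧
      ∀ E : Subgroup ↥(S : Subgroup (Matrix.GeneralLinearGroup (Fin n) F)), E.Normal → Cfsg.IsElementaryAbelian 2 E → Nat.card ↥E ≤ 2 ^ ((n + 1) / 2))) := by
  classical
  subst hF
  have hp : Fact (Nat.Prime 2) := ⟨Nat.prime_two⟩
  have two : (2 : F) ≠ 0 := two_of_odd hodd
  refine ⟨fun hq => ?_, fun hq => ?_⟩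
  · have hf : Finite ((Fin n → F) ≃ₗ[F] (Fin n → F)) := finite_gl
    let T : Sylow 2 ((Fin n → F) ≃ₗ[F] (Fin n → F)) := default
    obtain ⟨e⟩ := sylow_equiv (glEquiv : Matrix.GeneralLinearGroup (Fin n) F ≃* _).symm T S
    exact ⟨(lower_one hq n T).congr e,
      (upper_one (K := F) (V := Fin n → F) two (Module.finrank_fin_fun F)
        (T : Subgroup ((Fin n → F) ≃ₗ[F] (Fin n → F)))).congr e⟩
  · obtain ⟨m, r, hr, rfl⟩ : ∃ m r, r ≤ 1 ∧ n = 2 * m + r := ⟨n / 2, n % 2, by omega, by omega⟩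
    have hf : Finite ((Ix (Fin m) (Fin r) → F) ≃ₗ[F] (Ix (Fin m) (Fin r) → F)) := finite_gl
    obtain ⟨T, hT⟩ := upper_three hq m r hr
    have e0 : Ix (Fin m) (Fin r) ≃ Fin (2 * m + r) := Fintype.equivFinOfCardEq (by simp [mul_comm])
    obtain ⟨e⟩ := sylow_equiv ((cjE (LinearEquiv.funCongrLeft F F e0.symm)).trans
      (glEquiv : Matrix.GeneralLinearGroup (Fin (2 * m + r)) F ≃* _).symm) T S
    have h2 : (2 * m + r + 1) / 2 = m + r := by omega
    refine ⟨?_, hT.congr e⟩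
    rw [h2]
    exact (lower_three two m r hr T).congr e

end Cfsg.Agent.S2249
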