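import Cfsg.Statements.S2254
import Cfsg.Agent.H101.NilpPerm
set_option linter.all false

set_option autoImplicit false
open Cfsg

namespace Cfsg.Agent.S2254

section aux
open Nat

open Cfsg.Agent.H101.NilpPerm Cfsg.Agent.H101.NilpArith

theorem exists_aux {n : ℕ} (hn : n % 4 = 3) (N : Subgroup (Equiv.Perm (Fin n)))
    (hN : Group.IsNilpotent N) (hc : Nat.card N = 3 * T (n - 3)) :
    ∃ (c : Equiv.Perm (Fin n)) (Q : Subgroup (Equiv.Perm (Fin n))), c.IsThreeCycle ∧
      Nat.card Q = T (n - 3) ∧ Q ≤ Subgroup.centralizer {c} ∧ N = Subgroup.zpowers c ⊔ Q := by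
  classical
  have hlt := T_lt_G hn
  have hG : G n = 3 * T (n - 3) := by unfold G; rw [if_pos hn]
  have hG' : G (n - 3) = T (n - 3) := by unfold G; rw [if_neg (by omega)]
  have h3 : ¬ ∀ a : Fin n, Nat.card (MulAction.orbit N a) ≠ 3 := by
    intro h
    have := card_le_T N hN h
    rw [Nat.card_fin] at this
    omega
  push Not at h3
  obtain ⟨a, ha⟩ := h3
  have hadd := card_add_card_compl (orb N a)
  rw [card_orb, ha, Nat.card_fin] at hadd
  have h1 : (MulAction.toPermHom N (orb N a)).ker.index ≤ 3 :=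
    Nat.le_of_dvd (by norm_num) (index_ker_orb_three ha)
  have h2 := index_ker_le_G N _ ((orb N a)ᶜ : SubMulAction N (Fin n)) rfl
  have he : Nat.card ((orb N a)ᶜ : SubMulAction N (Fin n)) = n - 3 := by omega
  rw [he, hG'] at h2
  have hmul := index_ker_le_mul (orb N a)
  rw [index_ker_subgroup N, hc] at hmul
  set K := (MulAction.toPermHom N ((orb N a)ᶜ : SubMulAction N (Fin n))).ker with hK
  have hidx : K.index = T (n - 3) := by
    refine le_antisymm h2 ?_
    have : 3 * T (n - 3) ≤ 3 * K.index := hmul.trans (Nat.mul_le_mul_right _ h1)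
    omega
  have hKc : Nat.card K = 3 := by
    have := K.card_mul_index
    rw [hidx, hc] at this
    exact Nat.eq_of_mul_eq_mul_right (T_pos (n - 3)) this
  have : Fact (Nat.Prime 3) := ⟨Nat.prime_three⟩
  obtain ⟨c, hcK⟩ := exists_prime_orderOf_dvd_card' (G := K) 3 (by rw [hKc])
  have hco : orderOf ((c : N) : Equiv.Perm (Fin n)) = 3 := by
    rw [Subgroup.orderOf_coe, Subgroup.orderOf_coe, hcK]
  have hfix : ∀ b : Fin n, b ∉ MulAction.orbit N a → ((c : N) : Equiv.Perm (Fin n)) b = b := by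
    intro b hb
    have h := MonoidHom.mem_ker.1 (show (c : N) ∈
        (MulAction.toPermHom N ((orb N a)ᶜ : SubMulAction N (Fin n))).ker from c.2)
    have := congrArg
      (fun σ => ((σ ⟨b, hb⟩ : ((orb N a)ᶜ : SubMulAction N (Fin n))) : Fin n)) h
    simp at this
    exact this
  have hsupp : (((c : N) : Equiv.Perm (Fin n)).support).card ≤ 3 := by
    have hsub : (((c : N) : Equiv.Perm (Fin n)).support : Set (Fin n)) ⊆ MulAction.orbit N a := by
      intro b hb
      by_contra hb'
      have := hfix b hb'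
      simp at hb
      exact hb this
    have := Set.ncard_le_ncard hsub (Set.toFinite _)
    rwa [Set.ncard_coe_finset, ← Nat.card_coe_set_eq, ha] at this
  have hthree : ((c : N) : Equiv.Perm (Fin n)).IsThreeCycle := by
    rw [← card_support_eq_three_iff]
    have h0 : ((c : N) : Equiv.Perm (Fin n)).support.card ≠ 0 := by
      intro h
      rw [Equiv.Perm.card_support_eq_zero] at h
      rw [h, orderOf_one] at hco
      omega
    have h1 : ((c : N) : Equiv.Perm (Fin n)).support.card ≠ 1 := Equiv.Perm.card_support_ne_one _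
    have h2 : ((c : N) : Equiv.Perm (Fin n)).support.card ≠ 2 := by
      intro h
      rw [Equiv.Perm.card_support_eq_two] at h
      have h2 := h.orderOf
      omega
    omega
  obtain ⟨Q⟩ : Nonempty (Sylow 2 N) := inferInstance
  have hQc : Nat.card ((Q : Subgroup N).map N.subtype) = T (n - 3) := by
    rw [Subgroup.card_subtype, Q.card_eq_multiplicity, hc]
    unfold T
    congr 1
    rw [Nat.factorization_mul (by norm_num) (by positivity), Finsupp.add_apply,
      Nat.Prime.factorization_pow Nat.prime_two]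
    simp [Nat.factorization_eq_zero_of_not_dvd]
  have hcN : ((c : N) : Equiv.Perm (Fin n)) ∈ N := (c : N).2
  have hQN : (Q : Subgroup N).map N.subtype ≤ N := Subgroup.map_subtype_le _
  refine ⟨((c : N) : Equiv.Perm (Fin n)), (Q : Subgroup N).map N.subtype, hthree, hQc, ?_, ?_⟩
  · intro q hq
    rw [Subgroup.mem_centralizer_singleton_iff]
    have hcop : (orderOf q).Coprime (orderOf ((c : N) : Equiv.Perm (Fin n))) := by
      rw [hco]
      have hdvd : orderOf q ∣ Nat.card ((Q : Subgroup N).map N.subtype) :=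
        Subgroup.orderOf_dvd_natCard _ hq
      rw [hQc] at hdvd
      refine Nat.Coprime.coprime_dvd_left hdvd ?_
      unfold T
      exact Nat.Coprime.pow_left _ (by norm_num)
    exact (OddOrderLocal.CNBasic.commute_of_mem_of_coprime hN (hQN hq) hcN hcop).eq
  · symm
    apply Subgroup.eq_of_le_of_card_ge
    · refine sup_le ?_ hQN
      rwa [Subgroup.zpowers_le]
    · have d1 : 3 ∣ Nat.card (Subgroup.zpowers ((c : N) : Equiv.Perm (Fin n)) ⊔
          (Q : Subgroup N).map N.subtype : Subgroup (Equiv.Perm (Fin n))) := by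
        have := Subgroup.card_dvd_of_le (le_sup_left :
          Subgroup.zpowers ((c : N) : Equiv.Perm (Fin n)) ≤
            Subgroup.zpowers ((c : N) : Equiv.Perm (Fin n)) ⊔ (Q : Subgroup N).map N.subtype)
        rwa [Nat.card_zpowers, hco] at this
      have d2 : T (n - 3) ∣ Nat.card (Subgroup.zpowers ((c : N) : Equiv.Perm (Fin n)) ⊔
          (Q : Subgroup N).map N.subtype : Subgroup (Equiv.Perm (Fin n))) := by
        have := Subgroup.card_dvd_of_le (le_sup_right :
          (Q : Subgroup N).map N.subtype ≤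
            Subgroup.zpowers ((c : N) : Equiv.Perm (Fin n)) ⊔ (Q : Subgroup N).map N.subtype)
        rwa [hQc] at this
      have hcop : Nat.Coprime 3 (T (n - 3)) := by
        unfold T
        exact Nat.Coprime.pow_right _ (by norm_num)
      rw [hc]
      exact Nat.le_of_dvd Nat.card_pos (hcop.mul_dvd_of_dvd_of_dvd d1 d2)

theorem conj_aux {n : ℕ} (hn : n % 4 = 3) (N₁ N₂ : Subgroup (Equiv.Perm (Fin n)))
    (h₁ : Group.IsNilpotent N₁) (h₂ : Group.IsNilpotent N₂)
    (hc₁ : Nat.card N₁ = 3 * T (n - 3)) (hc₂ : Nat.card N₂ = 3 * T (n - 3)) :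
    ∃ g : Equiv.Perm (Fin n), N₂ = N₁.map (MulAut.conj g).toMonoidHom := by
  classical
  obtain ⟨c₁, Q₁, ht₁, hQ₁, hle₁, rfl⟩ := exists_aux hn N₁ h₁ hc₁
  obtain ⟨c₂, Q₂, ht₂, hQ₂, hle₂, rfl⟩ := exists_aux hn N₂ h₂ hc₂
  have hconj : IsConj c₁ c₂ := by
    rw [Equiv.Perm.isConj_iff_cycleType_eq, ht₁.cycleType, ht₂.cycleType]
  obtain ⟨g, hg⟩ := isConj_iff.1 hconj
  have : Fact (Nat.Prime 2) := ⟨Nat.prime_two⟩
  set C := Subgroup.centralizer ({c₂} : Set (Equiv.Perm (Fin n))) with hC
  have hCcard : Nat.card C = (n - 3)! * 3 := by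
    rw [hC, Equiv.Perm.nat_card_centralizer, ht₂.cycleType]
    simp
  have hfac : (Nat.card C).factorization 2 = ((n - 3)!).factorization 2 := by
    rw [hCcard, Nat.factorization_mul (Nat.factorial_ne_zero _) (by norm_num), Finsupp.add_apply,
      Nat.factorization_eq_zero_of_not_dvd (n := 3) (by norm_num), add_zero]
  have hle₁' : Q₁.map (MulAut.conj g).toMonoidHom ≤ C := by
    rintro _ ⟨q, hq, rfl⟩
    have h := hle₁ hq
    rw [Subgroup.mem_centralizer_singleton_iff] at h
    rw [hC, Subgroup.mem_centralizer_singleton_iff, ← hg]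
    simp only [MulEquiv.coe_toMonoidHom, MulAut.conj_apply]
    calc g * q * g⁻¹ * (g * c₁ * g⁻¹) = g * (q * c₁) * g⁻¹ := by group
      _ = g * (c₁ * q) * g⁻¹ := by rw [h]
      _ = g * c₁ * g⁻¹ * (g * q * g⁻¹) := by group
  have hmapc : Nat.card (Q₁.map (MulAut.conj g).toMonoidHom) = T (n - 3) := by
    rw [← hQ₁]
    exact (Nat.card_congr (Q₁.equivMapOfInjective _ (MulAut.conj g).injective).toEquiv).symm
  have hs₁ : Nat.card ((Q₁.map (MulAut.conj g).toMonoidHom).subgroupOf C) =
      2 ^ (Nat.card C).factorization 2 := by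
    rw [Nat.card_congr (Subgroup.subgroupOfEquivOfLe hle₁').toEquiv, hmapc, hfac]
    rfl
  have hs₂ : Nat.card (Q₂.subgroupOf C) = 2 ^ (Nat.card C).factorization 2 := by
    rw [Nat.card_congr (Subgroup.subgroupOfEquivOfLe hle₂).toEquiv, hQ₂, hfac]
    rfl
  obtain ⟨h, hh⟩ := MulAction.exists_smul_eq C (Sylow.ofCard _ hs₁) (Sylow.ofCard _ hs₂)
  have hh' := congrArg (fun S : Sylow 2 C => ((S : Subgroup C).map C.subtype)) hh
  have hQ : (Q₁.map (MulAut.conj g).toMonoidHom).map (MulAut.conj (h : Equiv.Perm (Fin n))).toMonoidHom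
      = Q₂ := by
    have e2 : ((Sylow.ofCard _ hs₂ : Sylow 2 C) : Subgroup C).map C.subtype = Q₂ := by
      show (Q₂.subgroupOf C).map C.subtype = Q₂
      exact Subgroup.map_subgroupOf_eq_of_le hle₂
    have e1 : ((h • (Sylow.ofCard _ hs₁ : Sylow 2 C) : Sylow 2 C) : Subgroup C).map C.subtype =
        (Q₁.map (MulAut.conj g).toMonoidHom).map
          (MulAut.conj (h : Equiv.Perm (Fin n))).toMonoidHom := by
      ext x
      constructor
      · rintro ⟨y, hy, rfl⟩
        obtain ⟨z, hz, rfl⟩ := hy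
        refine ⟨(z : Equiv.Perm (Fin n)), ?_, ?_⟩
        · have hz' : z ∈ (Q₁.map (MulAut.conj g).toMonoidHom).subgroupOf C := hz
          exact hz'
        · rfl
      · rintro ⟨z, hz, rfl⟩
        exact ⟨h * ⟨z, hle₁' hz⟩ * h⁻¹, ⟨⟨z, hle₁' hz⟩, hz, rfl⟩, rfl⟩
    rw [← e1, ← e2]
    exact hh'
  have hhc : (h : Equiv.Perm (Fin n)) * c₂ * (h : Equiv.Perm (Fin n))⁻¹ = c₂ := by
    have := Subgroup.mem_centralizer_singleton_iff.1
      (show (h : Equiv.Perm (Fin n)) ∈ Subgroup.centralizer {c₂} from h.2)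
    rw [this]
    group
  refine ⟨(h : Equiv.Perm (Fin n)) * g, ?_⟩
  have hcomp : (MulAut.conj ((h : Equiv.Perm (Fin n)) * g)).toMonoidHom =
      (MulAut.conj (h : Equiv.Perm (Fin n))).toMonoidHom.comp (MulAut.conj g).toMonoidHom := by
    ext1 x
    simp
  rw [hcomp, ← Subgroup.map_map, Subgroup.map_sup, Subgroup.map_sup, hQ]
  congr 1
  rw [MonoidHom.map_zpowers, MonoidHom.map_zpowers]
  simp only [MulEquiv.coe_toMonoidHom, MulAut.conj_apply]
  rw [hg, hhc]

theorem exists_attain {n : ℕ} (hn : n % 4 = 3) (P : Sylow 2 (Equiv.Perm (Fin (n - 3)))) :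
    ∃ M : Subgroup (Equiv.Perm (Fin n)), Group.IsNilpotent M ∧ Nat.card M = 3 * Nat.card P ∧
      Nonempty (M ≃* (↥(P : Subgroup (Equiv.Perm (Fin (n - 3)))) × Multiplicative (ZMod 3))) := by
  classical
  have hcard : Nat.card (Fin (n - 3) ⊕ Multiplicative (ZMod 3)) = Nat.card (Fin n) := by
    rw [Nat.card_sum, Nat.card_fin, Nat.card_fin, Nat.card_eq_fintype_card (α := Multiplicative (ZMod 3)),
      Fintype.card_multiplicative, ZMod.card]
    omega
  obtain ⟨e⟩ : Nonempty (Fin (n - 3) ⊕ Multiplicative (ZMod 3) ≃ Fin n) :=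
    Finite.card_eq.1 hcard
  let ψ : (↥(P : Subgroup (Equiv.Perm (Fin (n - 3)))) × Multiplicative (ZMod 3)) →*
      Equiv.Perm (Fin n) :=
    (e.permCongrHom.toMonoidHom.comp
      (Equiv.Perm.sumCongrHom (Fin (n - 3)) (Multiplicative (ZMod 3)))).comp
      ((P : Subgroup (Equiv.Perm (Fin (n - 3)))).subtype.prodMap
        (MulAction.toPermHom (Multiplicative (ZMod 3)) (Multiplicative (ZMod 3))))
  have hψ : Function.Injective ψ := by
    have h1 : Function.Injective (MulAction.toPermHom (Multiplicative (ZMod 3)) (Multiplicative (ZMod 3))) :=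
      MulAction.toPerm_injective
    intro x y hxy
    have hxy' : (Equiv.Perm.sumCongrHom (Fin (n - 3)) (Multiplicative (ZMod 3)))
        ((P : Subgroup (Equiv.Perm (Fin (n - 3)))).subtype.prodMap
        (MulAction.toPermHom (Multiplicative (ZMod 3)) (Multiplicative (ZMod 3))) x) =
        (Equiv.Perm.sumCongrHom (Fin (n - 3)) (Multiplicative (ZMod 3)))
        ((P : Subgroup (Equiv.Perm (Fin (n - 3)))).subtype.prodMap
        (MulAction.toPermHom (Multiplicative (ZMod 3)) (Multiplicative (ZMod 3))) y) :=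
      e.permCongrHom.injective hxy
    have h2 := Equiv.Perm.sumCongrHom_injective hxy'
    have h3 := congrArg Prod.fst h2
    have h4 := congrArg Prod.snd h2
    exact Prod.ext (Subtype.ext h3) (h1 h4)
  have : Fact (Nat.Prime 2) := ⟨Nat.prime_two⟩
  have hPn : Group.IsNilpotent ↥(P : Subgroup (Equiv.Perm (Fin (n - 3)))) :=
    P.isPGroup'.isNilpotent
  have ε := MonoidHom.ofInjective hψ
  refine ⟨ψ.range, Group.nilpotent_of_mulEquiv ε, ?_, ⟨ε.symm⟩⟩
  rw [← Nat.card_congr ε.toEquiv, Nat.card_prod,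
    Nat.card_eq_fintype_card (α := Multiplicative (ZMod 3)), Fintype.card_multiplicative, ZMod.card,
    mul_comm]

end aux

/-- Let n ≡ 3 (mod 4). Then every nilpotent subgroup of the symmetric group on n letters has order at most 3 times the order of a Sylow 2-subgroup of the symmetric group on n − 3 letters; the bound is attained by a nilpotent subgroup isomorphic to the direct product of such a Sylow 2-subgroup with a cyclic group of order 3; and any two nilpotent subgroups attaining the bound are conjugate. -/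
theorem result  (n : ℕ) (hn : n % 4 = 3)
    (P : Sylow 2 (Equiv.Perm (Fin (n - 3)))) :
    (∀ N : Subgroup (Equiv.Perm (Fin n)), Group.IsNilpotent N → Nat.card N ≤ 3 * Nat.card P) ∧
    (∃ M : Subgroup (Equiv.Perm (Fin n)), Group.IsNilpotent M ∧ Nat.card M = 3 * Nat.card P ∧
      Nonempty (M ≃* (↥(P : Subgroup (Equiv.Perm (Fin (n - 3)))) × Multiplicative (ZMod 3)))) ∧
    (∀ N₁ N₂ : Subgroup (Equiv.Perm (Fin n)), Group.IsNilpotent N₁ → Group.IsNilpotent N₂ →
      Nat.card N₁ = 3 * Nat.card P → Nat.card N₂ = 3 * Nat.card P →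
      ∃ g : Equiv.Perm (Fin n), N₂ = N₁.map (MulAut.conj g).toMonoidHom) := by
  have hP := Cfsg.Agent.H101.NilpPerm.card_sylow_two P
  rw [Nat.card_fin] at hP
  refine ⟨fun N hN => ?_, exists_attain hn P, fun N₁ N₂ h₁ h₂ hc₁ hc₂ => ?_⟩
  · have h := Cfsg.Agent.H101.NilpPerm.card_le_G N hN
    rw [Nat.card_fin] at h
    unfold Cfsg.Agent.H101.NilpArith.G at h
    rw [if_pos hn] at h
    rw [hP]
    exact h
  · rw [hP] at hc₁ hc₂
    exact conj_aux hn N₁ N₂ h₁ h₂ hc₁ hc₂

end Cfsg.Agent.S2254
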