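import Cfsg.Statements.S2256
import Cfsg.Agent.H102.NilpAltCard
import Cfsg.Agent.S2254
set_option linter.all false

set_option autoImplicit false
open Cfsg

namespace Cfsg.Agent.S2256

section aux

open Equiv Equiv.Perm Cfsg.Agent.H101.NilpArith Cfsg.Agent.H102.NilpAltCard

theorem bound {n : ℕ} (hn : n % 4 = 3) (h7 : 7 ≤ n) (P : Sylow 2 (alternatingGroup (Fin (n - 3))))
    (N : Subgroup (alternatingGroup (Fin n))) (hN : Group.IsNilpotent N) :
    Nat.card N ≤ 3 * Nat.card P := by
  have hP := two_mul_card_sylow (by omega : 2 ≤ n - 3) P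
  by_cases hodd : Odd (Nat.card N)
  · have h1 := card_le_B N hN hodd
    have h3 := Cfsg.Agent.H102.NilpOdd.two_B_le' h7 hn
    omega
  · obtain ⟨D, -, -, -, h1, h3⟩ := two_mul_card_le N hN hodd
    have h4 : G n = 3 * T (n - 3) := by
      unfold G
      rw [if_pos hn]
    omega

theorem exists_D {n : ℕ} (hn : n % 4 = 3) (h7 : 7 ≤ n) (P : Sylow 2 (alternatingGroup (Fin (n - 3))))
    (N : Subgroup (alternatingGroup (Fin n))) (hN : Group.IsNilpotent N)
    (hc : Nat.card N = 3 * Nat.card P) :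
    ∃ D : Subgroup (Perm (Fin n)), Group.IsNilpotent D ∧ Nat.card D = 3 * T (n - 3) ∧
      (∃ d ∈ D, sign d = -1) ∧
      N.map (alternatingGroup (Fin n)).subtype = D ⊓ alternatingGroup (Fin n) := by
  have hP := two_mul_card_sylow (by omega : 2 ≤ n - 3) P
  have hodd : ¬ Odd (Nat.card N) := by
    intro h
    rw [hc, Nat.odd_mul] at h
    have : Fact (Nat.Prime 2) := ⟨Nat.prime_two⟩
    have h1 : Nat.card P = 2 ^ (Nat.card (alternatingGroup (Fin (n - 3)))).factorization 2 :=
      P.card_eq_multiplicity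
    have h2 : 8 ≤ T (n - 3) := T_four.trans (T_mono (by omega))
    have h3 := h.2
    rw [h1] at h3 hP
    rcases Nat.eq_zero_or_pos ((Nat.card (alternatingGroup (Fin (n - 3)))).factorization 2) with h0 | h0
    · rw [h0] at hP
      omega
    · exact (Nat.not_even_iff_odd.2 h3) (Nat.even_pow.2 ⟨even_two, by omega⟩)
  obtain ⟨D, hD, hle, hd, h1, h3⟩ := two_mul_card_le N hN hodd
  have h4 : G n = 3 * T (n - 3) := by
    unfold G
    rw [if_pos hn]
  have h5 : Nat.card D = 3 * T (n - 3) := by omega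
  refine ⟨D, hD, h5, hd, ?_⟩
  have h6 := card_inf D hd
  apply Subgroup.eq_of_le_of_card_ge
  · apply le_inf hle
    rintro _ ⟨x, -, rfl⟩
    exact x.2
  · have e := N.equivMapOfInjective (alternatingGroup (Fin n)).subtype Subtype.val_injective
    have hcard : Nat.card (N.map (alternatingGroup (Fin n)).subtype) = Nat.card N :=
      Nat.card_congr e.symm.toEquiv
    rw [hcard]
    omega

theorem conj {n : ℕ} (hn : n % 4 = 3) (h7 : 7 ≤ n) (P : Sylow 2 (alternatingGroup (Fin (n - 3))))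
    (N₁ N₂ : Subgroup (alternatingGroup (Fin n))) (h₁ : Group.IsNilpotent N₁)
    (h₂ : Group.IsNilpotent N₂)
    (hc₁ : Nat.card N₁ = 3 * Nat.card P) (hc₂ : Nat.card N₂ = 3 * Nat.card P) :
    ∃ g : alternatingGroup (Fin n), N₂ = N₁.map (MulAut.conj g).toMonoidHom := by
  obtain ⟨D₁, hD₁, hcard₁, -, he₁⟩ := exists_D hn h7 P N₁ h₁ hc₁
  obtain ⟨D₂, hD₂, hcard₂, ⟨d, hd, hds⟩, he₂⟩ := exists_D hn h7 P N₂ h₂ hc₂
  obtain ⟨g, hg⟩ := Cfsg.Agent.S2254.conj_aux hn D₁ D₂ hD₁ hD₂ hcard₁ hcard₂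
  have key : ∃ g : Perm (Fin n), sign g = 1 ∧ ∀ x, x ∈ D₂ ↔ g⁻¹ * x * g ∈ D₁ := by
    have h0 : ∀ x, x ∈ D₂ ↔ g⁻¹ * x * g ∈ D₁ := by
      intro x
      rw [hg]
      constructor
      · rintro ⟨y, hy, rfl⟩
        have : g⁻¹ * (g * y * g⁻¹) * g = y := by group
        show g⁻¹ * (g * y * g⁻¹) * g ∈ D₁
        rw [this]
        exact hy
      · intro h
        refine ⟨_, h, ?_⟩
        show g * (g⁻¹ * x * g) * g⁻¹ = x
        group
    rcases Int.units_eq_one_or (sign g) with h | h
    · exact ⟨g, h, h0⟩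
    · refine ⟨d * g, ?_, ?_⟩
      · rw [Equiv.Perm.sign_mul, hds, h]
        rfl
      · intro x
        have h1 : (d * g)⁻¹ * x * (d * g) = g⁻¹ * (d⁻¹ * x * d) * g := by group
        rw [h1, ← h0]
        constructor
        · intro hx
          exact D₂.mul_mem (D₂.mul_mem (D₂.inv_mem hd) hx) hd
        · intro hx
          have := D₂.mul_mem (D₂.mul_mem hd hx) (D₂.inv_mem hd)
          have h2 : d * (d⁻¹ * x * d) * d⁻¹ = x := by group
          rwa [h2] at this
  obtain ⟨g, hgs, hg⟩ := key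
  have hmem₁ : ∀ x : alternatingGroup (Fin n), x ∈ N₁ ↔ (x : Perm (Fin n)) ∈ D₁ := by
    intro x
    constructor
    · intro hx
      have : (x : Perm (Fin n)) ∈ N₁.map (alternatingGroup (Fin n)).subtype := ⟨x, hx, rfl⟩
      rw [he₁] at this
      exact this.1
    · intro hx
      have : (x : Perm (Fin n)) ∈ D₁ ⊓ alternatingGroup (Fin n) := ⟨hx, x.2⟩
      rw [← he₁] at this
      obtain ⟨y, hy, hyx⟩ := this
      rwa [← Subtype.ext hyx]
  have hmem₂ : ∀ x : alternatingGroup (Fin n), x ∈ N₂ ↔ (x : Perm (Fin n)) ∈ D₂ := by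
    intro x
    constructor
    · intro hx
      have : (x : Perm (Fin n)) ∈ N₂.map (alternatingGroup (Fin n)).subtype := ⟨x, hx, rfl⟩
      rw [he₂] at this
      exact this.1
    · intro hx
      have : (x : Perm (Fin n)) ∈ D₂ ⊓ alternatingGroup (Fin n) := ⟨hx, x.2⟩
      rw [← he₂] at this
      obtain ⟨y, hy, hyx⟩ := this
      rwa [← Subtype.ext hyx]
  refine ⟨⟨g, hgs⟩, ?_⟩
  ext x
  rw [hmem₂, hg]
  constructor
  · intro h
    refine ⟨(⟨g, hgs⟩ : alternatingGroup (Fin n))⁻¹ * x * ⟨g, hgs⟩, (hmem₁ _).2 h, ?_⟩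
    show (⟨g, hgs⟩ : alternatingGroup (Fin n)) *
      ((⟨g, hgs⟩ : alternatingGroup (Fin n))⁻¹ * x * ⟨g, hgs⟩) * (⟨g, hgs⟩ : alternatingGroup (Fin n))⁻¹ = x
    group
  · rintro ⟨y, hy, rfl⟩
    have h1 := (hmem₁ _).1 hy
    have h2 : g⁻¹ * (g * (y : Perm (Fin n)) * g⁻¹) * g = y := by group
    show g⁻¹ * (g * (y : Perm (Fin n)) * g⁻¹) * g ∈ D₁
    rw [h2]
    exact h1

theorem card_alt_three : Nat.card (alternatingGroup (Fin 3)) = 3 := by
  have h := two_mul_nat_card_alternatingGroup (α := Fin 3)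
  rw [Nat.card_perm, Nat.card_fin] at h
  have : Nat.factorial 3 = 6 := rfl
  omega

theorem exists_M {n m : ℕ} (e : Fin m ⊕ Fin 3 ≃ Fin n) (P : Sylow 2 (alternatingGroup (Fin m))) :
    ∃ M : Subgroup (alternatingGroup (Fin n)), Group.IsNilpotent M ∧ Nat.card M = 3 * Nat.card P ∧
      Nonempty (M ≃* (↥(P : Subgroup (alternatingGroup (Fin m))) × Multiplicative (ZMod 3))) := by
  have : Fact (Nat.Prime 2) := ⟨Nat.prime_two⟩
  have : Fact (Nat.Prime 3) := ⟨Nat.prime_three⟩
  let F : Perm (Fin m) × Perm (Fin 3) →* Perm (Fin n) :=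
    e.permCongrHom.toMonoidHom.comp (Equiv.Perm.sumCongrHom (Fin m) (Fin 3))
  have hF : Function.Injective F := e.permCongrHom.injective.comp Equiv.Perm.sumCongrHom_injective
  have hFs : ∀ x, sign (F x) = sign x.1 * sign x.2 := by
    intro x
    show sign (e.permCongr (Equiv.Perm.sumCongr x.1 x.2)) = _
    rw [sign_permCongr, Equiv.Perm.sign_sumCongr]
  let f : alternatingGroup (Fin m) × alternatingGroup (Fin 3) →* alternatingGroup (Fin n) :=
    (F.comp (MonoidHom.prodMap (alternatingGroup (Fin m)).subtype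
      (alternatingGroup (Fin 3)).subtype)).codRestrict (alternatingGroup (Fin n)) (by
        intro x
        rw [mem_alternatingGroup]
        have h1 : sign (x.1 : Perm (Fin m)) = 1 := x.1.2
        have h2 : sign (x.2 : Perm (Fin 3)) = 1 := x.2.2
        exact (hFs _).trans (by
          show sign (x.1 : Perm (Fin m)) * sign (x.2 : Perm (Fin 3)) = 1
          rw [h1, h2, mul_one]))
  have hf : Function.Injective f := by
    intro x y hxy
    have h1 : F ((x.1 : Perm (Fin m)), (x.2 : Perm (Fin 3))) =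
      F ((y.1 : Perm (Fin m)), (y.2 : Perm (Fin 3))) := congrArg Subtype.val hxy
    have h3 := hF h1
    exact Prod.ext (Subtype.ext (congrArg Prod.fst h3)) (Subtype.ext (congrArg Prod.snd h3))
  let c : Multiplicative (ZMod 3) ≃* alternatingGroup (Fin 3) :=
    mulEquivOfPrimeCardEq (p := 3) (by rw [Nat.card_eq_fintype_card]; rfl) card_alt_three
  let φ : ↥(P : Subgroup (alternatingGroup (Fin m))) × Multiplicative (ZMod 3) →*
      alternatingGroup (Fin n) :=
    f.comp (MonoidHom.prodMap (P : Subgroup (alternatingGroup (Fin m))).subtype c.toMonoidHom)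
  have hφ : Function.Injective φ := by
    refine hf.comp ?_
    intro x y hxy
    have h1 : (x.1 : alternatingGroup (Fin m)) = y.1 := congrArg Prod.fst hxy
    have h2 : c x.2 = c y.2 := congrArg Prod.snd hxy
    exact Prod.ext (Subtype.ext h1) (c.injective h2)
  have eφ := MonoidHom.ofInjective hφ
  have : Group.IsNilpotent (P : Subgroup (alternatingGroup (Fin m))) := P.isPGroup'.isNilpotent
  refine ⟨φ.range, ?_, ?_, ⟨eφ.symm⟩⟩
  · exact Group.nilpotent_of_surjective eφ.toMonoidHom eφ.surjective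
  · rw [← Nat.card_congr eφ.toEquiv, Nat.card_prod, mul_comm]
    congr 1
    rw [Nat.card_eq_fintype_card]
    rfl

end aux

/-- Let n ≡ 3 (mod 4) with n ≥ 7. Then every nilpotent subgroup of the alternating group on n letters has order at most 3 times the order of a Sylow 2-subgroup of the alternating group on n − 3 letters; the bound is attained by a nilpotent subgroup isomorphic to the direct product of such a Sylow 2-subgroup with a cyclic group of order 3; and any two nilpotent subgroups of the alternating group attaining the bound are conjugate in it. -/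
theorem result  (n : ℕ) (hn : n % 4 = 3) (h7 : 7 ≤ n)
    (P : Sylow 2 (alternatingGroup (Fin (n - 3)))) :
    (∀ N : Subgroup (alternatingGroup (Fin n)), Group.IsNilpotent N → Nat.card N ≤ 3 * Nat.card P) ∧
    (∃ M : Subgroup (alternatingGroup (Fin n)), Group.IsNilpotent M ∧ Nat.card M = 3 * Nat.card P ∧
      Nonempty (M ≃* (↥(P : Subgroup (alternatingGroup (Fin (n - 3)))) × Multiplicative (ZMod 3)))) ∧
    (∀ N₁ N₂ : Subgroup (alternatingGroup (Fin n)), Group.IsNilpotent N₁ → Group.IsNilpotent N₂ →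
      Nat.card N₁ = 3 * Nat.card P → Nat.card N₂ = 3 * Nat.card P →
      ∃ g : alternatingGroup (Fin n), N₂ = N₁.map (MulAut.conj g).toMonoidHom) := by
  refine ⟨fun N hN => bound hn h7 P N hN, ?_, fun N₁ N₂ h₁ h₂ hc₁ hc₂ =>
    conj hn h7 P N₁ N₂ h₁ h₂ hc₁ hc₂⟩
  exact exists_M (finSumFinEquiv.trans (finCongr (by omega))) P

end Cfsg.Agent.S2256
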