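import Mathlib
import Cfsg.Agent.H102.PslAct
import Cfsg.Agent.H102.RankOneSol
import Cfsg.Statements.S2257
set_option linter.all false

-- part: H102/PslEven
section
/-!
# Solubilizers in `PSL(2, q)`, `q` even
-/

set_option autoImplicit false
set_option linter.unusedSectionVars false
set_option linter.style.haveILetI false

namespace Cfsg.Agent.H102.PslEven

open Matrix OnePoint MulAction
open Cfsg.Agent.OddCyclic.Zass
open Cfsg.Agent.H102.PslAct
open Cfsg.Agent.H102.RankOneSol (Hyp Free Fix1 Fix2 IsT phi)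

attribute [local instance] act

variable {F : Type*} [Field F] [DecidableEq F] [Fintype F]

theorem zpowers_comm {G : Type*} [Group G] {a x y : G} (hx : x ∈ Subgroup.zpowers a)
    (hy : y ∈ Subgroup.zpowers a) : x * y = y * x := by
  obtain ⟨k, rfl⟩ := hx
  obtain ⟨j, rfl⟩ := hy
  change a ^ k * a ^ j = a ^ j * a ^ k
  rw [← _root_.zpow_add, ← _root_.zpow_add, add_comm]

/-- the centralizer of a free element is a torus (`q` even) -/
theorem cent_free (he : Even (Fintype.card F)) {g : PSL F} (hg : ∀ x : OnePoint F, g • x ≠ x) :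
    ∃ a s : PSL F, Tor a s (Fintype.card F + 1) ∧
      Subgroup.centralizer ({g} : Set (PSL F)) = Subgroup.zpowers a := by
  have hO := ord_even he
  obtain ⟨a, s, T, hga⟩ := exists_tor_of_free hO hg
  refine ⟨a, s, T, T.centralizer_eq hga ?_ ?_⟩
  · rintro rfl
    exact hg ∞ (one_smul _ _)
  · intro h
    have h2 : orderOf g ∣ Fintype.card F + 1 := by
      have := orderOf_dvd_natCard (⟨g, hga⟩ : Subgroup.zpowers a)
      rwa [Subgroup.orderOf_mk, Nat.card_zpowers, T.ord] at this
    have h3 : orderOf g ∣ 2 := orderOf_dvd_of_pow_eq_one (by rw [sq, h])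
    have h4 : Nat.Coprime (Fintype.card F + 1) 2 := by
      rw [Nat.coprime_two_right]
      exact he.add_one
    have h5 := Nat.dvd_gcd h2 h3
    rw [h4] at h5
    have h6 := orderOf_eq_one_iff.1 (Nat.dvd_one.1 h5)
    rw [h6] at hg
    exact hg ∞ (one_smul _ _)

theorem hyp {p : ℕ} (hp : 1 ≤ p) (hF : Fintype.card F = 2 ^ p) :
    Hyp (PSL F) (OnePoint F) (Fintype.card F) (Fintype.card F - 1) := by
  have he : Even (Fintype.card F) := by
    rw [hF]
    exact Nat.even_pow.2 ⟨even_two, by omega⟩
  have hO := ord_even he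
  have hq := hO.q_lt
  refine ⟨card_onePoint F, ⟨p, hp, hF⟩, ?_, fun g a b c => three, fun a b a' b' => trans,
    fun a b hab => card_two hO.card2 hab, fun a b hab g h => comm_two hab, solv_one, ?_, ?_⟩
  · exact Nat.Even.sub_odd (by omega) he odd_one
  · intro g hg
    obtain ⟨a, s, T, hc⟩ := cent_free he hg
    rw [hc, Nat.card_zpowers, T.ord]
    exact he.add_one
  · intro g hg x hx y hy
    obtain ⟨a, s, T, hc⟩ := cent_free he hg
    rw [hc] at hx hy
    exact zpowers_comm hx hy

theorem norm_free (he : Even (Fintype.card F)) (g : PSL F) (hg : Free (OnePoint F) g) :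
    Nat.card (Subgroup.normalizer ((Subgroup.centralizer ({g} : Set (PSL F)) : Subgroup (PSL F)) :
      Set (PSL F))) = 2 ^ 1 * Nat.card (Subgroup.centralizer ({g} : Set (PSL F))) := by
  obtain ⟨a, s, T, hc⟩ := cent_free he hg
  have hq := (ord_even he).q_lt
  rw [hc, Nat.card_zpowers, T.ord, T.card_normalizer (by omega), pow_one]

/-- the number of involutions fixing `∞` -/
theorem card_inv_infty {p : ℕ} (hp : 1 ≤ p) (hF : Fintype.card F = 2 ^ p) :
    Nat.card {x : PSL F // orderOf x = 2 ∧ x • (∞ : OnePoint F) = ∞} = Fintype.card F - 1 := by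
  haveI := finite_psl F
  have H := hyp hp hF
  have h2 : (2 : F) = 0 := by
    have he : Even (Fintype.card F) := by
      rw [hF]
      exact Nat.even_pow.2 ⟨even_two, by omega⟩
    by_contra h
    exact (Nat.not_even_iff_odd.2 ((ClassicalGeometry.PSL2Basic.two_ne_zero_iff_odd F).1 h)) he
  apply le_antisymm
  · rw [← H.card_fix1_at (∞ : OnePoint F)]
    apply Nat.card_le_card_of_injective
      (f := fun x : {x : PSL F // orderOf x = 2 ∧ x • (∞ : OnePoint F) = ∞} =>
        (⟨x.1, by
          obtain ⟨a, ha⟩ := H.fix1_of_pow (x := x.1) (k := 1) (by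
            intro h
            have := x.2.1
            rw [h, orderOf_one] at this
            omega) (by
              have h5 := pow_orderOf_eq_one x.1
              rwa [x.2.1] at h5)
          have : a = ∞ := ((ha ∞).1 x.2.2).symm
          rw [this] at ha
          exact ha⟩ : {x : PSL F // Fix1 x (∞ : OnePoint F)}))
    intro x y hxy
    exact Subtype.ext (congrArg (fun z : {x : PSL F // Fix1 x (∞ : OnePoint F)} => z.1) hxy)
  · have h1 : Nat.card Fˣ = Fintype.card F - 1 := by
      rw [Nat.card_eq_fintype_card, Fintype.card_units]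
    rw [← h1]
    apply Nat.card_le_card_of_injective
      (f := fun t : Fˣ => (⟨QuotientGroup.mk (up (t : F)), by
        constructor
        · apply orderOf_eq_prime
          · rw [sq, ← QuotientGroup.mk_mul, up_mul]
            have h3 : (t : F) + t = 0 := by linear_combination (t : F) * h2
            rw [h3]
            have : up (0 : F) = 1 := by
              apply ext2 <;> simp [up]
            rw [this]
            rfl
          · intro h3
            have h4 : (QuotientGroup.mk (up (t : F)) : PSL F) • ((0 : F) : OnePoint F) = ((0 : F) : OnePoint F) := by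
              rw [h3, one_smul]
            rw [mk_smul, up_smul, OnePoint.coe_eq_coe, zero_add] at h4
            exact t.ne_zero h4
        · rw [mk_smul, up_infty]⟩ : {x : PSL F // orderOf x = 2 ∧ x • (∞ : OnePoint F) = ∞}))
    intro s t hst
    have h3 : (QuotientGroup.mk (up (s : F)) : PSL F) = QuotientGroup.mk (up (t : F)) :=
      congrArg Subtype.val hst
    have h4 : (QuotientGroup.mk (up (s : F)) : PSL F) • ((0 : F) : OnePoint F) =
        (QuotientGroup.mk (up (t : F)) : PSL F) • ((0 : F) : OnePoint F) := by rw [h3]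
    rw [mk_smul, up_smul, mk_smul, up_smul, OnePoint.coe_eq_coe, zero_add, zero_add] at h4
    exact Units.ext h4

theorem two_mul_phi {p : ℕ} (hp : 1 ≤ p) (hF : Fintype.card F = 2 ^ p) {x : PSL F}
    (hx : orderOf x = 2) : 2 * phi (OnePoint F) x = Fintype.card F ^ 2 := by
  haveI := finite_psl F
  have H := hyp hp hF
  have he : Even (Fintype.card F) := by
    rw [hF]
    exact Nat.even_pow.2 ⟨even_two, by omega⟩
  have hO := ord_even he
  have hq := hO.q_lt
  have h1 := RankOneSol.card_mul_phi (Ω := OnePoint F) (fun x : PSL F => orderOf x = 2)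
    (phi (OnePoint F) x) 1 (fun y hy => by
      obtain ⟨g, hg⟩ := H.isConj_of_involution hx hy
      rw [← hg, RankOneSol.phi_conj]) (fun t ht => by
      rw [one_mul]
      exact (H.isT_free ht).card_involutions le_rfl (norm_free he t ht))
  rw [one_mul, H.card_of_fix1 (fun x : PSL F => orderOf x = 2) (fun x hx => by
      apply H.fix1_of_pow (k := 1)
      · intro h1
        rw [h1, orderOf_one] at hx
        omega
      · have h5 := pow_orderOf_eq_one x
        rwa [hx] at h5) (fun g x hx => ((MulAut.conj g).orderOf_eq x).trans hx) ∞,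
    card_inv_infty hp hF] at h1
  haveI := Fintype.ofFinite (PSL F)
  classical
  rw [finsum_eq_sum_of_fintype] at h1
  have h2 : ∀ t : {t : PSL F // Free (OnePoint F) t},
      Nat.card (Subgroup.centralizer ({(t : PSL F)} : Set (PSL F))) = Fintype.card F + 1 := by
    intro t
    obtain ⟨a, s, T, hc⟩ := cent_free he t.2
    rw [hc, Nat.card_zpowers, T.ord]
  rw [Finset.sum_congr rfl (fun t _ => h2 t), Finset.sum_const, smul_eq_mul, Finset.card_univ,
    ← Nat.card_eq_fintype_card (α := {t : PSL F // Free (OnePoint F) t})] at h1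
  have h3 := two_mul_card_free (F := F)
  rw [hO.card1] at h3
  have h4 : Nat.card {t : PSL F // Free (OnePoint F) t} =
      Nat.card {g : PSL F // ∀ x : OnePoint F, g • x ≠ x} := rfl
  rw [h4] at h1
  obtain ⟨k, hk⟩ : ∃ k, Fintype.card F = k + 2 := ⟨Fintype.card F - 2, by omega⟩
  rw [hk] at h1 h3 ⊢
  have e1 : k + 2 - 1 = k + 1 := by omega
  rw [e1] at h1 h3
  generalize Nat.card {g : PSL F // ∀ x : OnePoint F, g • x ≠ x} = N at h1 h3
  generalize phi (OnePoint F) x = f at h1 ⊢
  have h5 : 2 * N = (k + 2) * (k + 1) * (k + 2) := by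
    have : (k + 2) * (k + 1) * (k + 2 + 1) = (k + 2) * (k + 1) * (k + 2) + (k + 2) * (k + 1) := by ring
    omega
  have h6 : ((k + 2 + 1) * (k + 1)) * (2 * f) = ((k + 2 + 1) * (k + 1)) * (k + 2) ^ 2 := by
    calc ((k + 2 + 1) * (k + 1)) * (2 * f) = 2 * (((k + 2 + 1) * (k + 1)) * f) := by ring
      _ = (2 * N) * (k + 2 + 1) := by rw [h1]; ring
      _ = _ := by rw [h5]; ring
  exact Nat.eq_of_mul_eq_mul_left (by positivity) h6

end Cfsg.Agent.H102.PslEven
end

-- part: S2257
section
set_option autoImplicit false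
open Cfsg

namespace Cfsg.Agent.S2257

open MulAction
open Cfsg.Agent.H102.PslAct Cfsg.Agent.H102.PslEven
open Cfsg.Agent.H102.RankOneSol (Hyp Free Fix1 Fix2 IsT phi)

attribute [local instance] act

/-- Let G = PSL_2(F) with F a field of order q = 2^p, p prime, and for x ∈ G call the solubilizer of x the set of y ∈ G such that x and y generate a solvable subgroup. Then the solubilizer of an involution has 3q(q − 1) elements; that of a non-identity element of order dividing q − 1 has 2q(q − 1) elements; and that of a non-identity element of order dividing q + 1 has 2(q + 1) elements. -/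
theorem result (p : ℕ) (hp : p.Prime) {F : Type*} [Field F] [Fintype F]
    (hF : Fintype.card F = 2 ^ p) (x : Matrix.ProjectiveSpecialLinearGroup (Fin 2) F) :
    (orderOf x = 2 → Nat.card {y : Matrix.ProjectiveSpecialLinearGroup (Fin 2) F // Group.IsSolvable ↥(Subgroup.closure ({x, y} : Set (Matrix.ProjectiveSpecialLinearGroup (Fin 2) F)))} = 3 * 2 ^ p * (2 ^ p - 1)) ∧
    (x ≠ 1 → orderOf x ∣ 2 ^ p - 1 → Nat.card {y : Matrix.ProjectiveSpecialLinearGroup (Fin 2) F // Group.IsSolvable ↥(Subgroup.closure ({x, y} : Set (Matrix.ProjectiveSpecialLinearGroup (Fin 2) F)))} = 2 * 2 ^ p * (2 ^ p - 1)) ∧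
    (x ≠ 1 → orderOf x ∣ 2 ^ p + 1 → Nat.card {y : Matrix.ProjectiveSpecialLinearGroup (Fin 2) F // Group.IsSolvable ↥(Subgroup.closure ({x, y} : Set (Matrix.ProjectiveSpecialLinearGroup (Fin 2) F)))} = 2 * (2 ^ p + 1)) := by
  classical
  haveI := finite_psl F
  have hp1 : 1 ≤ p := hp.one_lt.le
  have H := hyp hp1 hF
  have he : Even (Fintype.card F) := by
    rw [hF]
    exact Nat.even_pow.2 ⟨even_two, by omega⟩
  have h4 : 4 ≤ 2 ^ p := by
    calc 4 = 2 ^ 2 := by norm_num
      _ ≤ 2 ^ p := Nat.pow_le_pow_right (by norm_num) hp.two_le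
  have hd : 1 < Fintype.card F - 1 := by rw [hF]; omega
  have hN := norm_free (F := F) he
  have hcopr : Nat.Coprime (2 ^ p - 1) (2 ^ p + 1) := by
    have h1 : Nat.gcd (2 ^ p - 1) (2 ^ p + 1) ∣ 2 := by
      have ha := Nat.gcd_dvd_left (2 ^ p - 1) (2 ^ p + 1)
      have hb := Nat.gcd_dvd_right (2 ^ p - 1) (2 ^ p + 1)
      have := Nat.dvd_sub hb ha
      have e : 2 ^ p + 1 - (2 ^ p - 1) = 2 := by omega
      rwa [e] at this
    have h2 : Odd (2 ^ p + 1) := by
      rw [← hF]; exact he.add_one
    have h3 : Odd (Nat.gcd (2 ^ p - 1) (2 ^ p + 1)) :=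
      Odd.of_dvd_nat h2 (Nat.gcd_dvd_right _ _)
    rcases (Nat.dvd_prime Nat.prime_two).1 h1 with h | h
    · exact h
    · rw [h] at h3
      exact absurd h3 (by decide)
  have hfree : ∀ y : PSL F, Free (OnePoint F) y → orderOf y ∣ 2 ^ p + 1 := by
    intro y hy
    obtain ⟨a, s, T, hc⟩ := cent_free he hy
    have hmem : y ∈ Subgroup.zpowers a := by
      rw [← hc]; exact Subgroup.mem_centralizer_singleton_iff.2 rfl
    have := orderOf_dvd_natCard (⟨y, hmem⟩ : Subgroup.zpowers a)
    rwa [Subgroup.orderOf_mk, Nat.card_zpowers, T.ord, hF] at this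
  have hfix1 : ∀ y : PSL F, y ≠ 1 → ∀ a : OnePoint F, Fix1 y a → ¬ Odd (orderOf y) := by
    intro y hy a ha hodd
    obtain ⟨k, hk⟩ := H.exists_pow_of_fix1 ha
    have h1 := orderOf_dvd_of_pow_eq_one hk
    have h2 : Nat.Coprime (orderOf y) (2 ^ k) := by
      apply Nat.Coprime.pow_right
      exact Nat.coprime_two_right.mpr hodd
    have h3 := Nat.dvd_gcd dvd_rfl h1
    rw [h2] at h3
    exact hy (orderOf_eq_one_iff.1 (Nat.dvd_one.1 h3))
  have hone : ∀ y : PSL F, orderOf y ∣ 2 ^ p - 1 → orderOf y ∣ 2 ^ p + 1 → y = 1 := by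
    intro y h1 h2
    have h3 := Nat.dvd_gcd h1 h2
    rw [hcopr] at h3
    exact orderOf_eq_one_iff.1 (Nat.dvd_one.1 h3)
  refine ⟨?_, ?_, ?_⟩
  · intro hx
    have hx1 : x ≠ 1 := by
      rintro rfl
      rw [orderOf_one] at hx
      omega
    have hxx : x * x = 1 := by
      have h5 := pow_orderOf_eq_one x
      rw [hx, sq] at h5
      exact h5
    obtain ⟨a, ha⟩ := H.fix1_of_pow (k := 1) hx1 (by rw [pow_one, sq, hxx])
    have h1 := H.card_sol_one hd hN ha
    have h2 := H.card_two_of_sq hd ha hxx
    have h3 := two_mul_phi hp1 hF hx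
    have h5 : phi (OnePoint F) x = Nat.card {t : PSL F // Free (OnePoint F) t ∧
          x ∈ Subgroup.normalizer ((Subgroup.centralizer ({t} : Set (PSL F)) : Subgroup (PSL F)) : Set (PSL F))} := rfl
    rw [← h5, pow_one] at h1
    refine h1.trans ?_
    rw [h2, h3, hF]
    obtain ⟨k, hk⟩ : ∃ k, 2 ^ p = k + 2 := ⟨2 ^ p - 2, by omega⟩
    rw [hk]
    have e1 : k + 2 - 1 = k + 1 := by omega
    have e2 : k + 1 - 1 = k := by omega
    rw [e1, e2]
    ring
  · intro hx hord
    rcases H.fix_cases hx with h | ⟨a, ha⟩ | ⟨a, b, hab, hf⟩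
    · exact absurd (hone x hord (hfree x h)) hx
    · exfalso
      apply hfix1 x hx a ha
      apply Odd.of_dvd_nat _ hord
      rw [← hF]
      exact H.odd_d
    · refine (H.card_sol_two hd (H.card_normalizer hd hN) hx hab ((hf a).2 (Or.inl rfl))
        ((hf b).2 (Or.inr rfl))).trans ?_
      rw [hF]
      ring
  · intro hx hord
    rcases H.fix_cases hx with h | ⟨a, ha⟩ | ⟨a, b, hab, hf⟩
    · refine (H.card_sol_free (H.card_normalizer hd hN) h).trans ?_
      rw [hN x h]
      obtain ⟨a, s, T, hc⟩ := cent_free he h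
      rw [hc, Nat.card_zpowers, T.ord, hF]
      ring
    · exfalso
      apply hfix1 x hx a ha
      apply Odd.of_dvd_nat _ hord
      rw [← hF]
      exact he.add_one
    · exfalso
      apply hx
      apply hone x _ hord
      have := H.orderOf_dvd_d hab ((hf a).2 (Or.inl rfl)) ((hf b).2 (Or.inr rfl))
      rwa [hF] at this

end Cfsg.Agent.S2257
end
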