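import Mathlib
import Cfsg.Agent.H102.PslAct
import Cfsg.Agent.H102.RankOneSol
import Cfsg.Agent.SignalizersComponents.CoprimeBasic
import Cfsg.Agent.Involutions.PairCount
import Cfsg.Statements.S2258
set_option linter.all false

-- part: H560/Sol3A
section
/-!
# `PSL(2, q)`, `q ≡ 3 mod 8` a power of three: elements and their centralizers
-/

set_option autoImplicit false
set_option linter.unusedSectionVars false
set_option linter.style.haveILetI false

namespace Cfsg.Agent.H560.Sol3

open Matrix OnePoint MulAction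
open Cfsg.Agent.OddCyclic.Zass
open Cfsg.Agent.H102.PslAct
open Cfsg.Agent.H102.RankOneSol (Free Fix1 Fix2 exists_normal_abelian)

attribute [local instance] act

variable {F : Type*} [Field F] [DecidableEq F] [Fintype F]

/-- the numerical hypotheses on `q` -/
structure Q3 (F : Type*) [Field F] [Fintype F] : Prop where
  three : (3 : F) = 0
  dvd : 3 ∣ Fintype.card F
  mod : Fintype.card F % 8 = 3
  gt : 3 < Fintype.card F

variable (Q : Q3 F)

section basic

theorem fix_cases {g : PSL F} (hg : g ≠ 1) :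
    Free (OnePoint F) g ∨ (∃ a : OnePoint F, Fix1 g a) ∨
      (∃ a b : OnePoint F, a ≠ b ∧ Fix2 g a b) := by
  by_cases hf : Free (OnePoint F) g
  · exact Or.inl hf
  · right
    unfold Free at hf
    push Not at hf
    obtain ⟨a, ha⟩ := hf
    by_cases h1 : ∀ x : OnePoint F, g • x = x → x = a
    · exact Or.inl ⟨a, fun x => ⟨h1 x, fun h => h ▸ ha⟩⟩
    · push Not at h1
      obtain ⟨b, hb, hba⟩ := h1
      refine Or.inr ⟨a, b, Ne.symm hba, fun x => ⟨fun hx => ?_, ?_⟩⟩
      · by_contra hcon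
        push Not at hcon
        exact hg (three (Ne.symm hba) (Ne.symm hcon.1) (Ne.symm hcon.2) ha hb hx)
      · rintro (rfl | rfl)
        · exact ha
        · exact hb

theorem mk_neg (A B : SpecialLinearGroup (Fin 2) F) (h00 : A 0 0 = - B 0 0)
    (h01 : A 0 1 = - B 0 1) (h10 : A 1 0 = - B 1 0) (h11 : A 1 1 = - B 1 1) :
    (QuotientGroup.mk A : PSL F) = QuotientGroup.mk B := by
  have hAB : A = -B := by
    apply ext2
    · rw [h00]; simp
    · rw [h01]; simp
    · rw [h10]; simp
    · rw [h11]; simp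
  apply QuotientGroup.eq.2
  have h1 : A⁻¹ * B = -1 := by
    rw [hAB]
    have : (-B)⁻¹ * B = -1 := by
      rw [inv_mul_eq_iff_eq_mul]
      simp
    exact this
  rw [h1]
  rw [Subgroup.mem_center_iff]
  intro g
  simp

/-- two matrices with the same image differ by a sign -/
theorem eq_or_neg {A B : SpecialLinearGroup (Fin 2) F}
    (h : (QuotientGroup.mk A : PSL F) = QuotientGroup.mk B) :
    (A = B) ∨ (A 0 0 = - B 0 0 ∧ A 0 1 = - B 0 1 ∧ A 1 0 = - B 1 0 ∧ A 1 1 = - B 1 1) := by
  have h1 : A⁻¹ * B ∈ Subgroup.center (SpecialLinearGroup (Fin 2) F) := QuotientGroup.eq.1 h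
  rw [Matrix.SpecialLinearGroup.mem_center_iff] at h1
  obtain ⟨r, hr, hs⟩ := h1
  have hB : B = A * (A⁻¹ * B) := by group
  have h00 : (A⁻¹ * B) 0 0 = r := by rw [← hs]; simp
  have h01 : (A⁻¹ * B) 0 1 = 0 := by rw [← hs]; simp
  have h10 : (A⁻¹ * B) 1 0 = 0 := by rw [← hs]; simp
  have h11 : (A⁻¹ * B) 1 1 = r := by rw [← hs]; simp
  have e00 : B 0 0 = A 0 0 * r := by
    rw [hB, mul00, h00, h10]; ring
  have e01 : B 0 1 = A 0 1 * r := by
    rw [hB, mul01, h01, h11]; ring
  have e10 : B 1 0 = A 1 0 * r := by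
    rw [hB, mul10, h00, h10]; ring
  have e11 : B 1 1 = A 1 1 * r := by
    rw [hB, mul11, h01, h11]; ring
  have hr2 : r * r = 1 := by
    have : r ^ 2 = 1 := by simpa using hr
    rw [← this]; ring
  rcases mul_self_eq_one_iff.1 hr2 with h | h
  · left
    apply ext2
    · rw [e00, h, mul_one]
    · rw [e01, h, mul_one]
    · rw [e10, h, mul_one]
    · rw [e11, h, mul_one]
  · right
    refine ⟨?_, ?_, ?_, ?_⟩
    · rw [e00, h]; ring
    · rw [e01, h]; ring
    · rw [e10, h]; ring
    · rw [e11, h]; ring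

/-- an element interchanging two points is an involution -/
theorem swap_sq {g : PSL F} {a b : OnePoint F} (hab : a ≠ b) (h1 : g • a = b) (h2 : g • b = a) :
    g * g = 1 := by
  obtain ⟨w, hw1, hw2⟩ := exists_pair hab
  have e1 : (w⁻¹ * g * w) • (∞ : OnePoint F) = ((0 : F) : OnePoint F) := by
    rw [mul_smul, mul_smul, hw1, h1, ← hw2, inv_smul_smul]
  have e2 : (w⁻¹ * g * w) • ((0 : F) : OnePoint F) = (∞ : OnePoint F) := by
    rw [mul_smul, mul_smul, hw2, h2, ← hw1, inv_smul_smul]
  obtain ⟨A, hA⟩ := QuotientGroup.mk_surjective (w⁻¹ * g * w)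
  rw [← hA, mk_smul] at e1 e2
  have hd := det_eq A
  have h11 : A 1 1 = 0 := by
    rw [smul_coe'] at e2
    by_contra hne
    rw [mul_zero, zero_add, if_neg hne] at e2
    exact OnePoint.coe_ne_infty _ e2
  have h10 : A 1 0 ≠ 0 := by
    intro h
    rw [h, h11] at hd
    simp at hd
  have h00 : A 0 0 = 0 := by
    rw [smul_infty', if_neg h10, OnePoint.coe_eq_coe] at e1
    rcases div_eq_zero_iff.1 e1 with h | h
    · exact h
    · exact absurd h h10
  rw [h00, h11] at hd
  have e3 : (QuotientGroup.mk A : PSL F) * QuotientGroup.mk A = 1 := by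
    rw [← QuotientGroup.mk_mul]
    have : (1 : PSL F) = QuotientGroup.mk 1 := rfl
    rw [this]
    apply mk_neg
    · rw [mul00, h00]; simp; linear_combination -hd
    · rw [mul01, h00, h11]; simp
    · rw [mul10, h00, h11]; simp
    · rw [mul11, h11]; simp; linear_combination -hd
  rw [hA] at e3
  calc g * g = w * ((w⁻¹ * g * w) * (w⁻¹ * g * w)) * w⁻¹ := by group
    _ = 1 := by rw [e3]; group

/-- elements fixing two points -/
theorem ord_two (hO : Ord F ((Fintype.card F + 1) / 2) ((Fintype.card F - 1) / 2)) {g : PSL F}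
    {a b : OnePoint F} (hab : a ≠ b) (ha : g • a = a) (hb : g • b = b) :
    orderOf g ∣ (Fintype.card F - 1) / 2 := by
  haveI := finite_psl F
  rw [← card_two hO.card2 hab]
  have hmem : g ∈ (stabilizer (PSL F) a ⊓ stabilizer (PSL F) b : Subgroup (PSL F)) := ⟨ha, hb⟩
  have := orderOf_dvd_natCard (⟨g, hmem⟩ : (stabilizer (PSL F) a ⊓ stabilizer (PSL F) b : Subgroup (PSL F)))
  rwa [Subgroup.orderOf_mk] at this

/-- an element fixing only `∞` is a transvection -/
theorem exists_up {x : PSL F} (hx : Fix1 x (∞ : OnePoint F)) :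
    ∃ t : F, t ≠ 0 ∧ x = QuotientGroup.mk (up t) := by
  obtain ⟨A, hA10, rfl⟩ := exists_mk_of_infty ((hx ∞).2 rfl)
  have hd := det_eq A
  rw [hA10, mul_zero, sub_zero] at hd
  have h11 : A 1 1 ≠ 0 := fun h' => by rw [h', mul_zero] at hd; exact zero_ne_one hd
  have heq : A 0 0 = A 1 1 := by
    by_contra hne
    have hne' : A 1 1 - A 0 0 ≠ 0 := fun h => hne (sub_eq_zero.1 h).symm
    have h1 : (QuotientGroup.mk A : PSL F) • (((A 0 1 / (A 1 1 - A 0 0) : F)) : OnePoint F) =
        ((A 0 1 / (A 1 1 - A 0 0) : F) : OnePoint F) := by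
      rw [mk_smul, smul_coe', hA10, zero_mul, zero_add, if_neg h11, OnePoint.coe_eq_coe]
      field_simp
      ring
    exact OnePoint.coe_ne_infty _ ((hx _).1 h1)
  rw [← heq] at hd
  have hneg : A 0 0 = 1 ∨ A 0 0 = -1 := mul_self_eq_one_iff.1 hd
  have key : ∃ t : F, (QuotientGroup.mk A : PSL F) = QuotientGroup.mk (up t) := by
    rcases hneg with h | h
    · refine ⟨A 0 1, ?_⟩
      congr 1
      apply ext2
      · rw [h]; simp [up]
      · simp [up]
      · rw [hA10]; simp [up]
      · rw [← heq, h]; simp [up]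
    · refine ⟨- A 0 1, mk_neg _ _ ?_ ?_ ?_ ?_⟩
      · rw [h]; simp [up]
      · simp [up]
      · rw [hA10]; simp [up]
      · rw [← heq, h]; simp [up]
  obtain ⟨t, ht⟩ := key
  refine ⟨t, ?_, ht⟩
  rintro rfl
  have h1 : (QuotientGroup.mk A : PSL F) • ((0 : F) : OnePoint F) = ((0 : F) : OnePoint F) := by
    rw [ht, mk_smul, up_smul, add_zero]
  exact OnePoint.coe_ne_infty _ ((hx _).1 h1)

theorem fix1_conj {x : PSL F} {a : OnePoint F} (hx : Fix1 x a) (w : PSL F) :
    Fix1 (w * x * w⁻¹) (w • a) := by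
  intro y
  rw [mul_smul, mul_smul]
  constructor
  · intro h
    have h1 : x • (w⁻¹ • y) = w⁻¹ • y := by rw [eq_inv_smul_iff]; exact h
    rw [← (hx _).1 h1, smul_inv_smul]
  · rintro rfl
    rw [inv_smul_smul, (hx a).2 rfl]

theorem fix1_cube (h3 : (3 : F) = 0) {x : PSL F} {a : OnePoint F} (hx : Fix1 x a) : x ^ 3 = 1 := by
  obtain ⟨w, hw⟩ := exists_smul_infty a
  have h1 := fix1_conj hx w⁻¹
  rw [← hw, inv_smul_smul, inv_inv] at h1
  obtain ⟨t, -, ht⟩ := exists_up h1
  have h2 : (w⁻¹ * x * w) ^ 3 = 1 := by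
    rw [ht, pow_three, ← QuotientGroup.mk_mul, ← QuotientGroup.mk_mul, up_mul, up_mul]
    have : t + (t + t) = 0 := by linear_combination t * h3
    rw [this]
    have : up (0 : F) = 1 := by
      apply ext2 <;> simp [up]
    rw [this]
    rfl
  have h4 : x ^ 3 = w * (w⁻¹ * x * w) ^ 3 * w⁻¹ := by
    simp only [pow_three]
    group
  rw [h4, h2]
  group

theorem fix1_ne_one {x : PSL F} {a : OnePoint F} (hx : Fix1 x a) : x ≠ 1 := by
  rintro rfl
  have : ∃ b : OnePoint F, b ≠ a := by
    by_cases h : a = ∞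
    · exact ⟨((0 : F) : OnePoint F), fun h' => OnePoint.coe_ne_infty _ (h'.trans h)⟩
    · exact ⟨∞, Ne.symm h⟩
  obtain ⟨b, hb⟩ := this
  exact hb ((hx b).1 (one_smul _ _))

theorem fix2_ne_one {x : PSL F} {a b : OnePoint F} (hx : Fix2 x a b) (hF : 1 < Fintype.card F) :
    x ≠ 1 := by
  rintro rfl
  have h1 : ∀ c : OnePoint F, c = a ∨ c = b := fun c => (hx c).1 (one_smul _ _)
  have h2 : Nat.card (OnePoint F) ≤ 2 := by
    have : (Set.univ : Set (OnePoint F)) ⊆ {a, b} := fun c _ => h1 c
    have h3 := Set.ncard_le_ncard this (Set.toFinite _)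
    rw [Set.ncard_univ] at h3
    exact h3.trans (Set.ncard_insert_le _ _ |>.trans (by simp))
  rw [card_onePoint] at h2
  omega

end basic

section num

include Q

theorem Q3.hO : Ord F ((Fintype.card F + 1) / 2) ((Fintype.card F - 1) / 2) := by
  apply ord_odd
  rw [Nat.odd_iff]
  have := Q.mod
  omega

theorem Q3.d_odd : Odd ((Fintype.card F - 1) / 2) := by
  rw [Nat.odd_iff]
  have := Q.mod
  omega

theorem Q3.m_mod : ((Fintype.card F + 1) / 2) % 4 = 2 := by
  have := Q.mod
  omega

theorem Q3.not_three_dvd_d : ¬ 3 ∣ (Fintype.card F - 1) / 2 := by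
  have := Q.mod
  have := Q.dvd
  omega

theorem Q3.not_three_dvd_m : ¬ 3 ∣ (Fintype.card F + 1) / 2 := by
  have := Q.mod
  have := Q.dvd
  omega

theorem odd_of_two {g : PSL F} {a b : OnePoint F} (hab : a ≠ b) (ha : g • a = a) (hb : g • b = b) :
    Odd (orderOf g) :=
  Odd.of_dvd_nat Q.d_odd (ord_two Q.hO hab ha hb)

theorem ord_free {g : PSL F} (hg : Free (OnePoint F) g) : orderOf g ∣ (Fintype.card F + 1) / 2 := by
  haveI := finite_psl F
  obtain ⟨a, s, T, h⟩ := exists_tor_of_free Q.hO hg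
  have := orderOf_dvd_natCard (⟨g, h⟩ : Subgroup.zpowers a)
  rwa [Subgroup.orderOf_mk, Nat.card_zpowers, T.ord] at this

theorem fix1_ord {x : PSL F} {a : OnePoint F} (hx : Fix1 x a) : orderOf x = 3 :=
  orderOf_eq_prime (fix1_cube Q.three hx) (fix1_ne_one hx)

theorem fix1_of_ord {x : PSL F} (hx : orderOf x = 3) : ∃ a : OnePoint F, Fix1 x a := by
  have h1 : x ≠ 1 := by
    rintro rfl
    rw [orderOf_one] at hx
    omega
  rcases fix_cases h1 with h | h | ⟨a, b, hab, h⟩
  · have := ord_free Q h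
    rw [hx] at this
    exact absurd this Q.not_three_dvd_m
  · exact h
  · have := ord_two Q.hO hab ((h a).2 (Or.inl rfl)) ((h b).2 (Or.inr rfl))
    rw [hx] at this
    exact absurd this Q.not_three_dvd_d

theorem free_of_ord_two {x : PSL F} (h1 : x ≠ 1) (h2 : x * x = 1) : Free (OnePoint F) x := by
  have ho : orderOf x = 2 := orderOf_eq_prime (by rw [sq, h2]) h1
  rcases fix_cases h1 with h | ⟨a, h⟩ | ⟨a, b, hab, h⟩
  · exact h
  · have := fix1_ord Q h
    omega
  · have := odd_of_two Q hab ((h a).2 (Or.inl rfl)) ((h b).2 (Or.inr rfl))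
    rw [ho] at this
    exact absurd this (by decide)

end num

section tor

variable {a s : PSL F}

theorem mem_tor_comm {x y : PSL F} (hx : x ∈ Subgroup.zpowers a) (hy : y ∈ Subgroup.zpowers a) :
    x * y = y * x := by
  obtain ⟨k, rfl⟩ := hx
  obtain ⟨j, rfl⟩ := hy
  change a ^ k * a ^ j = a ^ j * a ^ k
  rw [← _root_.zpow_add, ← _root_.zpow_add, add_comm]

/-- elements of the normalizer outside the torus -/
theorem tor_out {m : ℕ} (T : Tor a s m) (hm : 2 ≤ m) {g : PSL F}
    (hg : g ∈ Subgroup.normalizer (Subgroup.zpowers a : Set (PSL F)))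
    (hn : g ∉ Subgroup.zpowers a) :
    g * g = 1 ∧ ∀ t ∈ Subgroup.zpowers a, g * t * g⁻¹ = t⁻¹ := by
  have h1 : g * s ∈ Subgroup.zpowers a := by
    rcases (T.mem_normalizer_iff hm).1 hg with h | h
    · exact absurd h hn
    · exact h
  set u := g * s with hu
  have hgu : g = u * s := by rw [hu, mul_assoc, T.ss, mul_one]
  have h2 : ∀ t ∈ Subgroup.zpowers a, g * t * g⁻¹ = t⁻¹ := by
    intro t ht
    have h3 := T.conj_s ht
    have h4 : g * t * g⁻¹ = u * (s * t * s⁻¹) * u⁻¹ := by rw [hgu]; group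
    rw [h4, h3, mem_tor_comm h1 (inv_mem ht)]
    group
  refine ⟨?_, h2⟩
  have h5 := T.conj_s h1
  rw [T.s_inv] at h5
  calc g * g = u * (s * u * s) := by rw [hgu]; group
    _ = 1 := by rw [h5]; group

variable (T : Tor a s ((Fintype.card F + 1) / 2))
include Q T

/-- the torus has a unique involution -/
theorem tor_inv {x y : PSL F} (hx : x ∈ Subgroup.zpowers a) (hy : y ∈ Subgroup.zpowers a)
    (hx1 : x ≠ 1) (hy1 : y ≠ 1) (hxx : x * x = 1) (hyy : y * y = 1) : x = y := by
  obtain ⟨r, hr⟩ : ∃ r : ℕ, (Fintype.card F + 1) / 2 = 2 * r := ⟨(Fintype.card F + 1) / 2 / 2, by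
    have := Q.m_mod; omega⟩
  have key : ∀ x ∈ Subgroup.zpowers a, x ≠ 1 → x * x = 1 → x = a ^ (r : ℤ) := by
    rintro x ⟨k, hk⟩ hx1 hxx
    have hk : a ^ k = x := hk
    have h1 : a ^ (2 * k) = 1 := by
      rw [two_mul, _root_.zpow_add, hk, hxx]
    have h2 : ((orderOf a : ℕ) : ℤ) ∣ 2 * k := orderOf_dvd_iff_zpow_eq_one.2 h1
    rw [T.ord, hr] at h2
    obtain ⟨c, hc⟩ := h2
    have h3 : k = r * c := by
      push_cast at hc
      linarith
    have h4 : a ^ ((2 * r : ℕ) : ℤ) = 1 := by
      rw [zpow_natCast, ← hr, ← T.ord, pow_orderOf_eq_one]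
    rcases Int.even_or_odd' c with ⟨e, he | he⟩
    · exfalso
      apply hx1
      rw [← hk, h3, he]
      have : (r : ℤ) * (2 * e) = ((2 * r : ℕ) : ℤ) * e := by push_cast; ring
      rw [this, _root_.zpow_mul, h4, _root_.one_zpow]
    · rw [← hk, h3, he]
      have : (r : ℤ) * (2 * e + 1) = ((2 * r : ℕ) : ℤ) * e + r := by push_cast; ring
      rw [this, _root_.zpow_add, _root_.zpow_mul, h4, _root_.one_zpow, one_mul]
  rw [key x hx hx1 hxx, key y hy hy1 hyy]

/-- the square of a torus element is not the involution -/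
theorem tor_sq {x y : PSL F} (hx : x ∈ Subgroup.zpowers a) (hy1 : y ≠ 1) (hyy : y * y = 1) :
    x * x ≠ y := by
  haveI := finite_psl F
  intro h
  have h4 : orderOf x = 2 ^ (1 + 1) := by
    apply orderOf_eq_prime_pow
    · rw [pow_one, sq, h]
      exact hy1
    · have : x ^ 2 ^ (1 + 1) = (x * x) * (x * x) := by
        rw [← pow_two, ← pow_two, ← pow_mul]
        norm_num
      rw [this, h, hyy]
  have := orderOf_dvd_natCard (⟨x, hx⟩ : Subgroup.zpowers a)
  rw [Subgroup.orderOf_mk, Nat.card_zpowers, T.ord, h4] at this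
  have h5 := Q.m_mod
  omega

theorem inv_comm_iff {z : PSL F} (hz : z ∈ Subgroup.zpowers a) (hz1 : z ≠ 1) (hzz : z * z = 1)
    {g : PSL F} : g * z = z * g ↔ g ∈ Subgroup.normalizer (Subgroup.zpowers a : Set (PSL F)) := by
  constructor
  · intro h
    apply T.mem_normalizer_of hz hz1
    have : g⁻¹ * z * g = z := by rw [mul_assoc, ← h, inv_mul_cancel_left]
    rwa [this]
  · intro h
    have h1 : g * z * g⁻¹ ∈ Subgroup.zpowers a := (Subgroup.mem_normalizer_iff.1 h z).1 hz
    have h2 : g * z * g⁻¹ = z := by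
      apply tor_inv Q T h1 hz _ hz1 _ hzz
      · intro h3
        apply hz1
        calc z = g⁻¹ * (g * z * g⁻¹) * g := by group
          _ = 1 := by rw [h3]; group
      · calc g * z * g⁻¹ * (g * z * g⁻¹) = g * (z * z) * g⁻¹ := by group
          _ = 1 := by rw [hzz]; group
    calc g * z = g * z * g⁻¹ * g := by group
      _ = z * g := by rw [h2]

end tor

end Cfsg.Agent.H560.Sol3
end

-- part: H560/Sol3B
section
/-!
# `PSL(2, q)`, `q ≡ 3 mod 8` a power of three: solvable subgroups
-/

set_option autoImplicit false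
set_option linter.unusedSectionVars false
set_option linter.style.haveILetI false

namespace Cfsg.Agent.H560.Sol3

open Matrix OnePoint MulAction
open Cfsg.Agent.OddCyclic.Zass
open Cfsg.Agent.H102.PslAct
open Cfsg.Agent.H102.RankOneSol (Free Fix1 Fix2 exists_normal_abelian)

attribute [local instance] act

theorem exists_A {G : Type*} [Group G] {K : Subgroup G} (hs : Group.IsSolvable K) {x : G}
    (hx : x ∈ K) (hx1 : x ≠ 1) :
    ∃ A : Subgroup G, A ≤ K ∧ (∃ t ∈ A, t ≠ 1) ∧ (∀ s ∈ A, ∀ t ∈ A, s * t = t * s) ∧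
      ∀ k ∈ K, ∀ t ∈ A, k * t * k⁻¹ ∈ A := by
  have hnt : Nontrivial K := ⟨⟨⟨x, hx⟩, 1, fun h => hx1 (congrArg Subtype.val h)⟩⟩
  obtain ⟨A, hA, ⟨t, ht, ht1⟩, hc⟩ := exists_normal_abelian hs hnt
  refine ⟨A.map K.subtype, ?_, ⟨t, ⟨t, ht, rfl⟩, fun h => ht1 (Subtype.ext h)⟩, ?_, ?_⟩
  · rintro _ ⟨u, -, rfl⟩
    exact u.2
  · rintro _ ⟨u, hu, rfl⟩ _ ⟨v, hv, rfl⟩
    exact congrArg Subtype.val (hc u hu v hv)
  · rintro k hk _ ⟨u, hu, rfl⟩
    exact ⟨⟨k, hk⟩ * u * ⟨k, hk⟩⁻¹, hA.conj_mem u hu ⟨k, hk⟩, rfl⟩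

/-- the product of two non-trivial elements of a four-group is the third -/
theorem four_mul {G : Type*} [Group G] {z w p q r : G} (hz : z * z = 1) (hw : w * w = 1)
    (hc : z * w = w * z) (hp : p = z ∨ p = w ∨ p = z * w) (hq : q = z ∨ q = w ∨ q = z * w)
    (hr : r = z ∨ r = w ∨ r = z * w) (hpq : p ≠ q) (hpr : p ≠ r) (hqr : q ≠ r) : p * q = r := by
  have e1 : z * (z * w) = w := by rw [← mul_assoc, hz, one_mul]
  have e2 : z * w * z = w := by rw [hc, mul_assoc, hz, mul_one]
  have e3 : w * (z * w) = z := by rw [hc, ← mul_assoc, hw, one_mul]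
  have e4 : z * w * w = z := by rw [mul_assoc, hw, mul_one]
  rcases hp with rfl | rfl | rfl <;> rcases hq with rfl | rfl | rfl <;>
    rcases hr with rfl | rfl | rfl <;>
    first
    | exact absurd rfl hpq
    | exact absurd rfl hpr
    | exact absurd rfl hqr
    | rfl
    | exact hc.symm
    | exact e1
    | exact e2
    | exact e3
    | exact e4

variable {F : Type*} [Field F] [DecidableEq F] [Fintype F] (Q : Q3 F)

theorem comm_fix1 {t s : PSL F} {a : OnePoint F} (ht : Fix1 t a) (h : s * t = t * s) : s • a = a := by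
  rw [← ht, ← mul_smul, ← h, mul_smul, (ht a).2 rfl]

/-- `g` preserves the pair `{a, b}` -/
def Pres (a b : OnePoint F) (g : PSL F) : Prop :=
  (g • a = a ∧ g • b = b) ∨ (g • a = b ∧ g • b = a)

theorem pres_of_conj {t g : PSL F} {a b : OnePoint F} (hab : a ≠ b) (ht : Fix2 t a b)
    (ha : (g * t * g⁻¹) • a = a) (hb : (g * t * g⁻¹) • b = b) : Pres a b g := by
  have h1 : ∀ c : OnePoint F, (g * t * g⁻¹) • c = c → g⁻¹ • c = a ∨ g⁻¹ • c = b := by
    intro c hc
    rw [← ht, eq_inv_smul_iff, ← mul_smul, ← mul_smul]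
    exact hc
  rcases h1 a ha with h | h <;> rcases h1 b hb with h' | h'
  · exact absurd (smul_left_cancel g⁻¹ (h.trans h'.symm)) hab
  · left
    exact ⟨(inv_smul_eq_iff.1 h).symm, (inv_smul_eq_iff.1 h').symm⟩
  · right
    exact ⟨(inv_smul_eq_iff.1 h').symm, (inv_smul_eq_iff.1 h).symm⟩
  · exact absurd (smul_left_cancel g⁻¹ (h.trans h'.symm)) hab

include Q

theorem comm_fix2 {t s : PSL F} {a b : OnePoint F} (hab : a ≠ b) (ht : Fix2 t a b)
    (h : s * t = t * s) : s • a = a ∧ s • b = b := by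
  have hta := (ht a).2 (Or.inl rfl)
  have htb := (ht b).2 (Or.inr rfl)
  have e : s * t * s⁻¹ = t := by rw [h, mul_inv_cancel_right]
  rcases pres_of_conj hab ht (g := s) (by rw [e]; exact hta) (by rw [e]; exact htb) with h1 | h1
  · exact h1
  · exfalso
    have h2 : (s * t) * (s * t) = 1 := swap_sq hab (by rw [mul_smul, hta, h1.1])
      (by rw [mul_smul, htb, h1.2])
    have h3 : s * s = 1 := swap_sq hab h1.1 h1.2
    have h4 : t * t = 1 := by
      calc t * t = (s * s) * (t * t) := by rw [h3, one_mul]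
        _ = s * (s * t) * t := by group
        _ = s * (t * s) * t := by rw [h]
        _ = (s * t) * (s * t) := by group
        _ = 1 := h2
    have h5 : t ≠ 1 := fix2_ne_one ht (by have := Q.gt; omega)
    exact free_of_ord_two Q h5 h4 a hta

theorem two_le_m : 2 ≤ (Fintype.card F + 1) / 2 := by
  have := Q.gt; omega

theorem solv_cases {K : Subgroup (PSL F)} (hs : Group.IsSolvable K) {x : PSL F} (hx : x ∈ K)
    (hx1 : x ≠ 1) :
    (∃ a : OnePoint F, ∀ k ∈ K, k • a = a) ∨
    (∃ a b : OnePoint F, a ≠ b ∧ ∀ k ∈ K, Pres a b k) ∨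
    (∃ a s : PSL F, Tor a s ((Fintype.card F + 1) / 2) ∧
      K ≤ Subgroup.normalizer (Subgroup.zpowers a : Set (PSL F))) ∨
    (∃ A : Subgroup (PSL F), A ≤ K ∧ (∀ t ∈ A, t * t = 1) ∧ (∀ k ∈ K, ∀ t ∈ A, k * t * k⁻¹ ∈ A) ∧
      ∃ z ∈ A, ∃ w ∈ A, z ≠ 1 ∧ w ≠ 1 ∧ z ≠ w ∧ ∀ t ∈ A, t = 1 ∨ t = z ∨ t = w ∨ t = z * w) := by
  obtain ⟨A, hAK, ⟨t, ht, ht1⟩, hc, hn⟩ := exists_A hs hx hx1
  by_cases h1 : ∃ t ∈ A, ∃ a : OnePoint F, Fix1 t a
  · obtain ⟨t, ht, a, hta⟩ := h1
    left
    refine ⟨a, fun k hk => ?_⟩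
    have h2 := hn k hk t ht
    have h3 := comm_fix1 hta (hc _ h2 t ht)
    have h4 := (fix1_conj hta k a).1 h3
    exact h4.symm
  by_cases h2 : ∃ t ∈ A, ∃ a b : OnePoint F, a ≠ b ∧ Fix2 t a b
  · obtain ⟨t, ht, a, b, hab, hta⟩ := h2
    right; left
    refine ⟨a, b, hab, fun k hk => ?_⟩
    have h3 := hn k hk t ht
    obtain ⟨h4, h5⟩ := comm_fix2 Q hab hta (hc _ h3 t ht)
    exact pres_of_conj hab hta h4 h5
  have hfree : ∀ t ∈ A, t ≠ 1 → Free (OnePoint F) t := by
    intro t ht ht1
    rcases fix_cases ht1 with h | h | h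
    · exact h
    · exact absurd ⟨t, ht, h⟩ h1
    · exact absurd ⟨t, ht, h⟩ h2
  right; right
  by_cases h3 : ∃ t ∈ A, t * t ≠ 1
  · left
    obtain ⟨t, ht, ht2⟩ := h3
    have ht1 : t ≠ 1 := by
      rintro rfl
      exact ht2 (one_mul _)
    obtain ⟨a, s, T, hta⟩ := exists_tor_of_free Q.hO (hfree t ht ht1)
    refine ⟨a, s, T, fun k hk => ?_⟩
    have h4 := hn k hk t ht
    have h5 : k * t * k⁻¹ ∈ Subgroup.centralizer ({t} : Set (PSL F)) := by
      rw [Subgroup.mem_centralizer_singleton_iff]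
      exact hc _ h4 t ht
    rw [T.centralizer_eq hta ht1 ht2] at h5
    have h6 := T.mem_normalizer_of hta ht1 (g := k⁻¹) (by rwa [inv_inv])
    exact inv_mem_iff.1 h6
  · push Not at h3
    by_cases h4 : ∃ z ∈ A, z ≠ 1 ∧ ∀ k ∈ K, k * z = z * k
    · left
      obtain ⟨z, hz, hz1, hzc⟩ := h4
      obtain ⟨a, s, T, hza⟩ := exists_tor_of_free Q.hO (hfree z hz hz1)
      exact ⟨a, s, T, fun k hk => (inv_comm_iff Q T hza hz1 (h3 z hz)).1 (hzc k hk)⟩
    · right
      push Not at h4
      obtain ⟨k, hk, hkt⟩ := h4 t ht ht1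
      refine ⟨A, hAK, h3, hn, t, ht, k * t * k⁻¹, hn k hk t ht, ht1, ?_, ?_, ?_⟩
      · intro h
        apply ht1
        calc t = k⁻¹ * (k * t * k⁻¹) * k := by group
          _ = 1 := by rw [h]; group
      · intro h
        apply hkt
        calc k * t = (k * t * k⁻¹) * k := by group
          _ = t * k := by rw [← h]
      · intro u hu
        obtain ⟨a, s, T, hta⟩ := exists_tor_of_free Q.hO (hfree t ht ht1)
        set w := k * t * k⁻¹ with hw
        have hwA : w ∈ A := hn k hk t ht
        have hw1 : w ≠ 1 := by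
          intro h
          apply ht1
          calc t = k⁻¹ * (k * t * k⁻¹) * k := by group
            _ = 1 := by rw [← hw, h]; group
        have hwt : w ≠ t := by
          intro h
          apply hkt
          calc k * t = (k * t * k⁻¹) * k := by group
            _ = t * k := by rw [← hw, h]
        have huN := (inv_comm_iff Q T hta ht1 (h3 t ht)).1 (hc u hu t ht)
        have hwN := (inv_comm_iff Q T hta ht1 (h3 t ht)).1 (hc w hwA t ht)
        by_cases huT : u ∈ Subgroup.zpowers a
        · by_cases hu1 : u = 1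
          · exact Or.inl hu1
          · exact Or.inr (Or.inl (tor_inv Q T huT hta hu1 ht1 (h3 u hu) (h3 t ht)))
        · have hwT : w ∉ Subgroup.zpowers a := fun h =>
            hwt (tor_inv Q T h hta hw1 ht1 (h3 w hwA) (h3 t ht))
          have hus : u * s ∈ Subgroup.zpowers a := by
            rcases (T.mem_normalizer_iff (two_le_m Q)).1 huN with h | h
            · exact absurd h huT
            · exact h
          have hws : w * s ∈ Subgroup.zpowers a := by
            rcases (T.mem_normalizer_iff (two_le_m Q)).1 hwN with h | h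
            · exact absurd h hwT
            · exact h
          have hwi : w⁻¹ = w := inv_eq_of_mul_eq_one_left (h3 w hwA)
          have huw : u * w ∈ Subgroup.zpowers a := by
            have h5 := mul_mem hus (inv_mem hws)
            have e : u * s * (w * s)⁻¹ = u * w⁻¹ := by group
            rwa [e, hwi] at h5
          right; right
          by_cases h5 : u * w = 1
          · left
            calc u = u * w * w⁻¹ := by group
              _ = w := by rw [h5, one_mul, hwi]
          · right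
            have h6 := tor_inv Q T huw hta h5 ht1 (h3 _ (mul_mem hu hwA)) (h3 t ht)
            calc u = u * w * w⁻¹ := by group
              _ = t * w := by rw [h6, hwi]

/-- an element of order prime to six normalizing a four-group centralizes it -/
theorem four_comm {A : Subgroup (PSL F)} {z w x : PSL F} (hz : z ∈ A) (hz1 : z ≠ 1)
    (hA : ∀ t ∈ A, t = 1 ∨ t = z ∨ t = w ∨ t = z * w) (hx : ∀ t ∈ A, x * t * x⁻¹ ∈ A)
    (ho : Nat.Coprime (orderOf x) 6) : x * z = z * x := by
  haveI := finite_psl F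
  have hpow : ∀ k : ℕ, ∀ t ∈ A, x ^ k * t * (x ^ k)⁻¹ ∈ A := by
    intro k
    induction k with
    | zero => intro t ht; simpa using ht
    | succ k ih =>
      intro t ht
      have := hx _ (ih t ht)
      have e : x ^ (k + 1) * t * (x ^ (k + 1))⁻¹ = x * (x ^ k * t * (x ^ k)⁻¹) * x⁻¹ := by
        rw [pow_succ']; group
      rwa [e]
  have hne : ∀ k : ℕ, x ^ k * z * (x ^ k)⁻¹ ≠ 1 := by
    intro k h
    apply hz1
    calc z = (x ^ k)⁻¹ * (x ^ k * z * (x ^ k)⁻¹) * x ^ k := by group
      _ = 1 := by rw [h]; group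
  have key : ∀ k j : ℕ, k < j → x ^ k * z * (x ^ k)⁻¹ = x ^ j * z * (x ^ j)⁻¹ →
      x ^ (j - k) * z * (x ^ (j - k))⁻¹ = z := by
    intro k j hkj h
    have e : x ^ j = x ^ k * x ^ (j - k) := by rw [← pow_add]; congr 1; omega
    rw [e] at h
    calc x ^ (j - k) * z * (x ^ (j - k))⁻¹
        = (x ^ k)⁻¹ * (x ^ k * x ^ (j - k) * z * (x ^ k * x ^ (j - k))⁻¹) * x ^ k := by group
      _ = (x ^ k)⁻¹ * (x ^ k * z * (x ^ k)⁻¹) * x ^ k := by rw [h]
      _ = z := by group
  have hex : ∃ j : ℕ, (j = 1 ∨ j = 2 ∨ j = 3) ∧ x ^ j * z * (x ^ j)⁻¹ = z := by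
    have h0 := hA _ (hpow 0 z hz)
    have h1 := hA _ (hpow 1 z hz)
    have h2 := hA _ (hpow 2 z hz)
    have h3 := hA _ (hpow 3 z hz)
    by_contra hcon
    push Not at hcon
    have d1 := hcon 1 (Or.inl rfl)
    have d2 := hcon 2 (Or.inr (Or.inl rfl))
    have d3 := hcon 3 (Or.inr (Or.inr rfl))
    have e12 : x ^ 1 * z * (x ^ 1)⁻¹ ≠ x ^ 2 * z * (x ^ 2)⁻¹ := fun h => d1 (key 1 2 (by omega) h)
    have e13 : x ^ 1 * z * (x ^ 1)⁻¹ ≠ x ^ 3 * z * (x ^ 3)⁻¹ := fun h => d2 (key 1 3 (by omega) h)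
    have e23 : x ^ 2 * z * (x ^ 2)⁻¹ ≠ x ^ 3 * z * (x ^ 3)⁻¹ := fun h => d1 (key 2 3 (by omega) h)
    rcases h1 with h1 | h1 | h1 | h1
    · exact hne 1 h1
    · exact d1 h1
    all_goals
      rcases h2 with h2 | h2 | h2 | h2
      · exact hne 2 h2
      · exact d2 h2
      all_goals
        rcases h3 with h3 | h3 | h3 | h3
        · exact hne 3 h3
        · exact d3 h3
        all_goals
          first
          | exact e12 (h1.trans h2.symm)
          | exact e13 (h1.trans h3.symm)
          | exact e23 (h2.trans h3.symm)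
  obtain ⟨j, hj, hjz⟩ := hex
  have hcomm : x ^ j * z = z * x ^ j := by
    calc x ^ j * z = x ^ j * z * (x ^ j)⁻¹ * x ^ j := by group
      _ = z * x ^ j := by rw [hjz]
  have hcop : Nat.Coprime (orderOf x) j := by
    rcases hj with rfl | rfl | rfl
    · exact Nat.coprime_one_right _
    · exact Nat.Coprime.coprime_dvd_right (by norm_num) ho
    · exact Nat.Coprime.coprime_dvd_right (by norm_num) ho
  obtain ⟨k, hk⟩ := exists_pow_eq_self_of_coprime hcop.symm
  have h5 : Commute (x ^ j) z := hcomm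
  have h6 : Commute ((x ^ j) ^ k) z := h5.pow_left k
  rw [hk] at h6
  exact h6

theorem cop_two {g : PSL F} {a b : OnePoint F} (hab : a ≠ b) (ha : g • a = a) (hb : g • b = b) :
    Nat.Coprime (orderOf g) 6 := by
  apply Nat.Coprime.coprime_dvd_left (ord_two Q.hO hab ha hb)
  have h1 := Q.d_odd
  have h2 := Q.not_three_dvd_d
  rw [show (6 : ℕ) = 2 * 3 by norm_num]
  exact Nat.Coprime.mul_right (Nat.coprime_two_right.2 h1)
    ((Nat.Prime.coprime_iff_not_dvd Nat.prime_three).2 h2).symm

/-- solvable subgroups containing an element with two fixed points -/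
theorem sol_fix2 {x : PSL F} {a b : OnePoint F} (hab : a ≠ b) (hx : Fix2 x a b)
    {K : Subgroup (PSL F)} (hs : Group.IsSolvable K) (hxK : x ∈ K) :
    (∀ k ∈ K, k • a = a) ∨ (∀ k ∈ K, k • b = b) ∨ (∀ k ∈ K, Pres a b k) := by
  have hxa := (hx a).2 (Or.inl rfl)
  have hxb := (hx b).2 (Or.inr rfl)
  have hx1 : x ≠ 1 := fix2_ne_one hx (by have := Q.gt; omega)
  have hcop := cop_two Q hab hxa hxb
  have hodd : x * x ≠ 1 := fun h => free_of_ord_two Q hx1 h a hxa
  rcases solv_cases Q hs hxK hx1 with ⟨c, hc⟩ | ⟨c, d, hcd, hK⟩ | ⟨c, s, T, hK⟩ |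
    ⟨A, hAK, h2, hn, z, hz, w, hw, hz1, hw1, hzw, hA⟩
  · rcases (hx c).1 (hc x hxK) with rfl | rfl
    · exact Or.inl hc
    · exact Or.inr (Or.inl hc)
  · right; right
    rcases hK x hxK with h | h
    · have h1 := (hx c).1 h.1
      have h2 := (hx d).1 h.2
      rcases h1 with rfl | rfl <;> rcases h2 with rfl | rfl
      · exact absurd rfl hcd
      · exact hK
      · intro k hk
        rcases hK k hk with h | h
        · exact Or.inl ⟨h.2, h.1⟩
        · exact Or.inr ⟨h.2, h.1⟩
      · exact absurd rfl hcd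
    · exact absurd (swap_sq hcd h.1 h.2) hodd
  · exfalso
    by_cases hT : x ∈ Subgroup.zpowers c
    · exact T.free Q.hO hT hx1 a hxa
    · exact hodd (tor_out T (two_le_m Q) (hK hxK) hT).1
  · exfalso
    have h3 := four_comm Q hz hz1 hA (hn x hxK) hcop
    have h4 := (comm_fix2 Q hab hx h3.symm).1
    exact free_of_ord_two Q hz1 (h2 z hz) a h4

/-- solvable subgroups containing a fixed-point-free element which is not an involution -/
theorem sol_free {x a s : PSL F} (T : Tor a s ((Fintype.card F + 1) / 2))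
    (hx : x ∈ Subgroup.zpowers a) (hxx : x * x ≠ 1)
    {K : Subgroup (PSL F)} (hs : Group.IsSolvable K) (hxK : x ∈ K) :
    K ≤ Subgroup.normalizer (Subgroup.zpowers a : Set (PSL F)) := by
  haveI := finite_psl F
  have hx1 : x ≠ 1 := by
    rintro rfl
    exact hxx (one_mul _)
  have hxf : Free (OnePoint F) x := T.free Q.hO hx hx1
  have hxxf : Free (OnePoint F) (x * x) := T.free Q.hO (mul_mem hx hx) hxx
  rcases solv_cases Q hs hxK hx1 with ⟨c, hc⟩ | ⟨c, d, hcd, hK⟩ | ⟨c, s', T', hK⟩ |
    ⟨A, hAK, h2, hn, z, hz, w, hw, hz1, hw1, hzw, hA⟩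
  · exact absurd (hc x hxK) (hxf c)
  · exfalso
    rcases hK x hxK with h | h
    · exact hxf c h.1
    · exact hxx (swap_sq hcd h.1 h.2)
  · by_cases hT : x ∈ Subgroup.zpowers c
    · have h1 := T.centralizer_eq hx hx1 hxx
      have h2 := T'.centralizer_eq hT hx1 hxx
      rw [← h1, h2]
      exact hK
    · exact absurd (tor_out T' (two_le_m Q) (hK hxK) hT).1 hxx
  · exfalso
    have hord : Nat.Coprime (orderOf (x * x)) 6 := by
      have h1 : orderOf (x * x) ∣ (Fintype.card F + 1) / 2 / 2 := by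
        apply orderOf_dvd_of_pow_eq_one
        rw [← sq, ← pow_mul]
        have h3 : 2 * ((Fintype.card F + 1) / 2 / 2) = (Fintype.card F + 1) / 2 := by
          have := Q.m_mod
          omega
        rw [h3]
        exact orderOf_dvd_iff_pow_eq_one.1 (ord_free Q hxf)
      apply Nat.Coprime.coprime_dvd_left h1
      rw [show (6 : ℕ) = 2 * 3 by norm_num]
      apply Nat.Coprime.mul_right
      · rw [Nat.coprime_two_right, Nat.odd_iff]
        have := Q.m_mod
        omega
      · apply Nat.Coprime.symm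
        rw [Nat.Prime.coprime_iff_not_dvd Nat.prime_three]
        have := Q.mod
        have := Q.dvd
        omega
    have hxn : ∀ t ∈ A, (x * x) * t * (x * x)⁻¹ ∈ A := by
      intro t ht
      have := hn x hxK _ (hn x hxK t ht)
      have e : (x * x) * t * (x * x)⁻¹ = x * (x * t * x⁻¹) * x⁻¹ := by group
      rwa [e]
    have hz4 := four_comm Q hz hz1 hA hxn hord
    have hw4 := four_comm Q hw hw1 (fun t ht => by
      rcases hA t ht with h | h | h | h
      · exact Or.inl h
      · exact Or.inr (Or.inr (Or.inl h))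
      · exact Or.inr (Or.inl h)
      · right; right; right
        have h5 := h2 (z * w) (mul_mem hz hw)
        have h6 := h2 z hz
        have h7 := h2 w hw
        rw [h]
        calc z * w = z * w * 1 := by group
          _ = z * w * (z * z) := by rw [h6]
          _ = z * w * z * (w * w) * z := by rw [h7]; group
          _ = (z * w * (z * w)) * (w * z) := by group
          _ = w * z := by rw [h5, one_mul]) hxn hord
    have hx4 : (x * x) * (x * x) ≠ 1 := by
      intro h
      have h5 : orderOf (x * x) ∣ 2 := orderOf_dvd_of_pow_eq_one (by rw [sq, h])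
      have h6 : orderOf (x * x) ∣ 1 := by
        rw [← hord]
        exact Nat.dvd_gcd dvd_rfl (h5.trans (by norm_num))
      exact hxx (orderOf_eq_one_iff.1 (Nat.dvd_one.1 h6))
    have hc := T.centralizer_eq (mul_mem hx hx) hxx hx4
    have hzT : z ∈ Subgroup.zpowers a := by
      rw [← hc, Subgroup.mem_centralizer_singleton_iff]
      exact hz4.symm
    have hwT : w ∈ Subgroup.zpowers a := by
      rw [← hc, Subgroup.mem_centralizer_singleton_iff]
      exact hw4.symm
    exact hzw (tor_inv Q T hzT hwT hz1 hw1 (h2 z hz) (h2 w hw))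

/-- solvable subgroups containing an element of order three and not contained in a Borel subgroup -/
theorem sol_fix1 {x : PSL F} {a : OnePoint F} (hx : Fix1 x a)
    {K : Subgroup (PSL F)} (hs : Group.IsSolvable K) (hxK : x ∈ K) {y : PSL F} (hy : y ∈ K)
    (hya : y • a ≠ a) :
    ∃ (i : ℕ) (w : PSL F), i < 3 ∧ w ≠ 1 ∧ w * w = 1 ∧ (x * w) ^ 3 = 1 ∧ y = x ^ i * w := by
  have hx1 : x ≠ 1 := fix1_ne_one hx
  have hx3 : x ^ 3 = 1 := fix1_cube Q.three hx
  have hxf : ¬ Free (OnePoint F) x := fun h => h a ((hx a).2 rfl)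
  have hxx : x * x ≠ 1 := by
    intro h
    exact free_of_ord_two Q hx1 h a ((hx a).2 rfl)
  rcases solv_cases Q hs hxK hx1 with ⟨c, hc⟩ | ⟨c, d, hcd, hK⟩ | ⟨c, s', T', hK⟩ |
    ⟨A, hAK, h2, hn, z, hz, w, hw, hz1, hw1, hzw, hA⟩
  · exfalso
    have := (hx c).1 (hc x hxK)
    subst this
    exact hya (hc y hy)
  · exfalso
    rcases hK x hxK with h | h
    · exact hcd (((hx c).1 h.1).trans ((hx d).1 h.2).symm)
    · exact hxx (swap_sq hcd h.1 h.2)
  · exfalso
    by_cases hT : x ∈ Subgroup.zpowers c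
    · exact hxf (T'.free Q.hO hT hx1)
    · exact hxx (tor_out T' (two_le_m Q) (hK hxK) hT).1
  · -- `x` centralizes no involution of `A`
    have hnc : ∀ t ∈ A, t ≠ 1 → x * t ≠ t * x := by
      intro t ht ht1 h
      obtain ⟨c, s, T, htc⟩ := exists_tor_of_free Q.hO (free_of_ord_two Q ht1 (h2 t ht))
      have h3 := (inv_comm_iff Q T htc ht1 (h2 t ht)).1 h
      by_cases hT : x ∈ Subgroup.zpowers c
      · exact hxf (T.free Q.hO hT hx1)
      · exact hxx (tor_out T (two_le_m Q) h3 hT).1
    have hcA : ∀ s ∈ A, ∀ t ∈ A, s * t = t * s := by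
      intro s hs t ht
      have h5 := h2 (s * t) (mul_mem hs ht)
      calc s * t = s * 1 * t := by group
        _ = s * (s * t * (s * t)) * t := by rw [h5]
        _ = (s * s) * t * s * (t * t) := by group
        _ = t * s := by rw [h2 s hs, h2 t ht]; group
    have hA' : ∀ t ∈ A, t ≠ 1 → t = z ∨ t = w ∨ t = z * w := by
      intro t ht ht1
      rcases hA t ht with h | h
      · exact absurd h ht1
      · exact h
    have hconj1 : ∀ (g t : PSL F), t ≠ 1 → g * t * g⁻¹ ≠ 1 := by
      intro g t ht h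
      apply ht
      calc t = g⁻¹ * (g * t * g⁻¹) * g := by group
        _ = 1 := by rw [h]; group
    -- the three conjugates of a non-trivial element of `A`
    have h3c : ∀ t ∈ A, t ≠ 1 → x * t * x⁻¹ ∈ A ∧ x * t * x⁻¹ ≠ 1 ∧ x ^ 2 * t * (x ^ 2)⁻¹ ∈ A ∧
        x ^ 2 * t * (x ^ 2)⁻¹ ≠ 1 ∧ t ≠ x * t * x⁻¹ ∧ t ≠ x ^ 2 * t * (x ^ 2)⁻¹ ∧
        x * t * x⁻¹ ≠ x ^ 2 * t * (x ^ 2)⁻¹ := by
      intro t ht ht1
      have e2 : x ^ 2 * t * (x ^ 2)⁻¹ = x * (x * t * x⁻¹) * x⁻¹ := by rw [sq]; group
      have h4 := hn x hxK t ht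
      have h5 : t ≠ x * t * x⁻¹ := by
        intro h
        apply hnc t ht ht1
        calc x * t = x * t * x⁻¹ * x := by group
          _ = t * x := by rw [← h]
      refine ⟨h4, hconj1 _ _ ht1, ?_, hconj1 _ _ ht1, h5, ?_, ?_⟩
      · rw [e2]
        exact hn x hxK _ h4
      · intro h
        have h6 : Commute (x ^ 2) t := by
          show x ^ 2 * t = t * x ^ 2
          calc x ^ 2 * t = x ^ 2 * t * (x ^ 2)⁻¹ * x ^ 2 := by group
            _ = t * x ^ 2 := by rw [← h]
        have h7 : Commute ((x ^ 2) ^ 2) t := h6.pow_left 2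
        have h8 : (x ^ 2) ^ 2 = x := by
          calc (x ^ 2) ^ 2 = x ^ 3 * x := by rw [← pow_mul, ← pow_succ]
            _ = x := by rw [hx3, one_mul]
        rw [h8] at h7
        exact hnc t ht ht1 h7
      · rw [e2]
        intro h
        apply h5
        exact mul_left_cancel (mul_right_cancel h)
    -- the product of the three conjugates
    have hprod : ∀ t ∈ A, t ≠ 1 → (x * t) ^ 3 = 1 := by
      intro t ht ht1
      obtain ⟨m2, n2, m3, n3, d12, d13, d23⟩ := h3c t ht ht1
      have h4 := four_mul (h2 z hz) (h2 w hw) (hcA z hz w hw) (hA' _ m2 n2) (hA' _ m3 n3)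
        (hA' _ ht ht1) d23 d12.symm d13.symm
      calc (x * t) ^ 3 = (x * t * x⁻¹) * (x ^ 2 * t * (x ^ 2)⁻¹) * x ^ 3 * t := by
            simp only [pow_succ, pow_zero, one_mul]; group
        _ = t * t := by rw [h4, hx3, mul_one]
        _ = 1 := h2 t ht
    obtain ⟨m2, n2, m3, n3, d12, d13, d23⟩ := h3c z hz hz1
    have hthree : ∀ t ∈ A, t ≠ 1 → ∃ i : ℕ, i < 3 ∧ t = x ^ i * z * (x ^ i)⁻¹ := by
      intro t ht ht1
      by_contra hcon
      push Not at hcon
      have c0 := hcon 0 (by omega)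
      have c1 := hcon 1 (by omega)
      have c2 := hcon 2 (by omega)
      rw [pow_zero, one_mul, inv_one, mul_one] at c0
      rw [pow_one] at c1
      have h4 := four_mul (h2 z hz) (h2 w hw) (hcA z hz w hw) (hA' _ hz hz1) (hA' _ m2 n2)
        (hA' _ ht ht1) d12 (Ne.symm c0) (Ne.symm c1)
      have h5 := four_mul (h2 z hz) (h2 w hw) (hcA z hz w hw) (hA' _ hz hz1) (hA' _ m2 n2)
        (hA' _ m3 n3) d12 d13 d23
      exact c2 (h4.symm.trans h5)
    obtain ⟨i, hi, hyi⟩ := hthree (y * z * y⁻¹) (hn y hy z hz) (hconj1 _ _ hz1)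
    set v := (x ^ i)⁻¹ * y with hv
    have hyv : y = x ^ i * v := by rw [hv]; group
    have hvK : v ∈ K := mul_mem (inv_mem (pow_mem hxK i)) hy
    have hvz : v * z * v⁻¹ = z := by
      calc v * z * v⁻¹ = (x ^ i)⁻¹ * (y * z * y⁻¹) * x ^ i := by rw [hv]; group
        _ = z := by rw [hyi]; group
    have hvz' : v * z = z * v := by
      calc v * z = v * z * v⁻¹ * v := by group
        _ = z * v := by rw [hvz]
    set z2 := x * z * x⁻¹ with hz2
    have hz2i : z2⁻¹ = z2 := inv_eq_of_mul_eq_one_left (h2 z2 m2)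
    obtain ⟨c, s, T, hzc⟩ := exists_tor_of_free Q.hO (free_of_ord_two Q hz1 (h2 z hz))
    have hvN := (inv_comm_iff Q T hzc hz1 (h2 z hz)).1 hvz'
    have hz2N := (inv_comm_iff Q T hzc hz1 (h2 z hz)).1 (hcA z2 m2 z hz)
    have hz2T : z2 ∉ Subgroup.zpowers c := fun h =>
      d12 (tor_inv Q T hzc h hz1 n2 (h2 z hz) (h2 z2 m2))
    obtain ⟨-, hinv⟩ := tor_out T (two_le_m Q) hz2N hz2T
    have hmulT : ∀ g ∈ Subgroup.normalizer (Subgroup.zpowers c : Set (PSL F)),
        g ∉ Subgroup.zpowers c → g * z2 ∈ Subgroup.zpowers c := by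
      intro g hg hgT
      have h5 : g * s ∈ Subgroup.zpowers c := by
        rcases (T.mem_normalizer_iff (two_le_m Q)).1 hg with h | h
        · exact absurd h hgT
        · exact h
      have h6 : z2 * s ∈ Subgroup.zpowers c := by
        rcases (T.mem_normalizer_iff (two_le_m Q)).1 hz2N with h | h
        · exact absurd h hz2T
        · exact h
      have h7 := mul_mem h5 (inv_mem h6)
      have e : g * s * (z2 * s)⁻¹ = g * z2⁻¹ := by group
      rwa [e, hz2i] at h7
    have hvA : v ∈ A := by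
      have hv2A := hn v hvK z2 m2
      have hv21 := hconj1 v z2 n2
      by_cases hcase : v * z2 * v⁻¹ = z2
      · -- `v` commutes with `z2`
        have hcomm : v * z2 = z2 * v := by
          calc v * z2 = v * z2 * v⁻¹ * v := by group
            _ = z2 * v := by rw [hcase]
        by_cases hvT : v ∈ Subgroup.zpowers c
        · have h5 := hinv v hvT
          have h6 : z2 * v * z2⁻¹ = v := by rw [← hcomm, mul_inv_cancel_right]
          have h7 : v * v = 1 := by
            nth_rewrite 1 [← h6]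
            rw [h5, inv_mul_cancel]
          by_cases hv1 : v = 1
          · rw [hv1]; exact one_mem A
          · rw [tor_inv Q T hvT hzc hv1 hz1 h7 (h2 z hz)]
            exact hz
        · have h5 := hmulT v hvN hvT
          have hvv := (tor_out T (two_le_m Q) hvN hvT).1
          have h6 : (v * z2) * (v * z2) = 1 := by
            calc (v * z2) * (v * z2) = v * (z2 * v) * z2 := by group
              _ = (v * v) * (z2 * z2) := by rw [← hcomm]; group
              _ = 1 := by rw [hvv, h2 z2 m2, one_mul]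
          by_cases h7 : v * z2 = 1
          · have : v = z2 := by
              calc v = v * z2 * z2⁻¹ := by group
                _ = z2 := by rw [h7, one_mul, hz2i]
            rw [this]; exact m2
          · have h8 := tor_inv Q T h5 hzc h7 hz1 h6 (h2 z hz)
            have : v = z * z2 := by
              calc v = v * z2 * z2⁻¹ := by group
                _ = z * z2 := by rw [h8, hz2i]
            rw [this]; exact mul_mem hz m2
      · exfalso
        have hne : v * z2 * v⁻¹ ≠ z := by
          intro h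
          apply d12
          have : v * z2 * v⁻¹ = v * z * v⁻¹ := by rw [h, hvz]
          exact (mul_left_cancel (mul_right_cancel this)).symm
        have h5 := four_mul (h2 z hz) (h2 w hw) (hcA z hz w hw) (hA' _ hz hz1) (hA' _ m2 n2)
          (hA' _ hv2A hv21) d12 hne.symm (Ne.symm hcase)
        -- `v z2 v⁻¹ = z z2`
        by_cases hvT : v ∈ Subgroup.zpowers c
        · have h6 := hinv v⁻¹ (inv_mem hvT)
          rw [inv_inv] at h6
          have h7 : v * v = z := by
            calc v * v = v * (z2 * v⁻¹ * z2⁻¹) := by rw [h6]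
              _ = (v * z2 * v⁻¹) * z2⁻¹ := by group
              _ = z := by rw [← h5, mul_inv_cancel_right]
          exact tor_sq Q T hvT hz1 (h2 z hz) h7
        · have hu := hmulT v hvN hvT
          have h6 := hinv _ (inv_mem hu)
          rw [inv_inv] at h6
          have h7 : (v * z2) * (v * z2) = z := by
            calc (v * z2) * (v * z2) = (v * z2) * (z2 * (v * z2)⁻¹ * z2⁻¹) := by rw [h6]
              _ = (v * (z2 * z2) * z2⁻¹ * v⁻¹) * z2⁻¹ := by group
              _ = (v * z2 * v⁻¹) * z2⁻¹ := by rw [h2 z2 m2, mul_one, hz2i]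
              _ = z := by rw [← h5, mul_inv_cancel_right]
          exact tor_sq Q T hu hz1 (h2 z hz) h7
    have hv1 : v ≠ 1 := by
      intro h
      rw [h, mul_one] at hyv
      apply hya
      rw [hyv]
      have : ∀ k : ℕ, x ^ k • a = a := by
        intro k
        induction k with
        | zero => rw [pow_zero, one_smul]
        | succ k ih => rw [pow_succ, mul_smul, (hx a).2 rfl, ih]
      exact this i
    exact ⟨i, v, hi, hv1, h2 v hvA, hprod v hvA hv1, hyv⟩

end Cfsg.Agent.H560.Sol3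
end

-- part: H560/Sol3C
section
/-!
# `PSL(2, q)`, `q ≡ 3 mod 8` a power of three: sizes of solubilizers
-/

set_option autoImplicit false
set_option linter.unusedSectionVars false
set_option linter.style.haveILetI false

namespace Cfsg.Agent.H560.Sol3

open Matrix OnePoint MulAction
open Cfsg.Agent.OddCyclic.Zass
open Cfsg.Agent.H102.PslAct
open Cfsg.Agent.H102.RankOneSol (Free Fix1 Fix2 exists_normal_abelian)
open Cfsg.Agent.SignalizersComponents.CoprimeBasic (isSolvable_sup)

attribute [local instance] act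

/-- `⟨x, y⟩` is solvable -/
def R {G : Type*} [Group G] (x y : G) : Prop :=
  Group.IsSolvable ↥(Subgroup.closure ({x, y} : Set G))

theorem R_of_mem {G : Type*} [Group G] {x y : G} {K : Subgroup G} (hK : Group.IsSolvable K)
    (hx : x ∈ K) (hy : y ∈ K) : R x y := by
  have hle : Subgroup.closure ({x, y} : Set G) ≤ K := by
    rw [Subgroup.closure_le]
    rintro z (rfl | rfl)
    · exact hx
    · exact hy
  haveI := hK
  exact Group.isSolvable_of_isSolvable_injective (Subgroup.inclusion_injective hle)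

theorem R_symm {G : Type*} [Group G] {x y : G} (h : R x y) : R y x := by
  unfold R at h ⊢
  rwa [Set.pair_comm]

theorem left_mem {G : Type*} [Group G] (x y : G) : x ∈ Subgroup.closure ({x, y} : Set G) :=
  Subgroup.subset_closure (Or.inl rfl)

theorem right_mem {G : Type*} [Group G] (x y : G) : y ∈ Subgroup.closure ({x, y} : Set G) :=
  Subgroup.subset_closure (Or.inr rfl)

theorem solv_zpowers {G : Type*} [Group G] (x : G) : Group.IsSolvable (Subgroup.zpowers x) := by
  apply Group.isSolvable_of_comm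
  rintro ⟨a, ha⟩ ⟨b, hb⟩
  apply Subtype.ext
  obtain ⟨k, rfl⟩ := ha
  obtain ⟨j, rfl⟩ := hb
  show x ^ k * x ^ j = x ^ j * x ^ k
  rw [← _root_.zpow_add, ← _root_.zpow_add, add_comm]

theorem R_inv {G : Type*} [Group G] {x y : G} (h : y * x * y⁻¹ = x⁻¹) : R x y := by
  have h1 : Subgroup.zpowers y ≤ Subgroup.normalizer (Subgroup.zpowers x : Set G) := by
    rw [Subgroup.zpowers_le, Subgroup.mem_normalizer_iff]
    have key : ∀ g : G, g * x * g⁻¹ = x⁻¹ → ∀ t ∈ Subgroup.zpowers x, g * t * g⁻¹ ∈ Subgroup.zpowers x := by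
      rintro g hg _ ⟨k, rfl⟩
      show g * x ^ k * g⁻¹ ∈ _
      rw [← conj_zpow, hg]
      exact zpow_mem (inv_mem (Subgroup.mem_zpowers x)) k
    intro t
    constructor
    · exact key y h t
    · intro ht
      have h2 : y⁻¹ * x * y⁻¹⁻¹ = x⁻¹ := by
        have : x = y⁻¹ * x⁻¹ * y := by rw [← h]; group
        nth_rewrite 2 [this]
        group
      have h3 := key y⁻¹ h2 _ ht
      have e : y⁻¹ * (y * t * y⁻¹) * y⁻¹⁻¹ = t := by group
      rwa [e] at h3
  exact R_of_mem (isSolvable_sup h1 (solv_zpowers x) (solv_zpowers y))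
    (Subgroup.mem_sup_left (Subgroup.mem_zpowers x)) (Subgroup.mem_sup_right (Subgroup.mem_zpowers y))

theorem R_of_sq {G : Type*} [Group G] {x y : G} (hx : x * x = 1) (hy : y * y = 1) : R x y := by
  -- `x y` is inverted by `x`
  have hxi : x⁻¹ = x := inv_eq_of_mul_eq_one_left hx
  have hyi : y⁻¹ = y := inv_eq_of_mul_eq_one_left hy
  have h1 : R (x * y) x := by
    apply R_inv
    rw [_root_.mul_inv_rev, hxi, hyi, ← mul_assoc, hx, one_mul]
  refine R_of_mem h1 (right_mem _ _) ?_
  have : y = x * (x * y) := by rw [← mul_assoc, hx, one_mul]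
  have h2 := mul_mem (right_mem (x * y) x) (left_mem (x * y) x)
  rwa [← this] at h2

/-- quotients of `A₄` are solvable -/
theorem R_of_cube {G : Type*} [Group G] {x w : G} (hx : x ^ 3 = 1) (hw : w * w = 1)
    (h : (x * w) ^ 3 = 1) : R x w := by
  have hwi : w⁻¹ = w := inv_eq_of_mul_eq_one_left hw
  set w2 := x * w * x⁻¹ with hw2
  have hxi : x⁻¹ = x * x := by
    apply inv_eq_of_mul_eq_one_left
    rw [← hx]; simp only [pow_succ, pow_zero, one_mul]
  have h22 : w2 * w2 = 1 := by
    calc w2 * w2 = x * (w * w) * x⁻¹ := by rw [hw2]; group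
      _ = 1 := by rw [hw]; group
  have hw2i : w2⁻¹ = w2 := inv_eq_of_mul_eq_one_left h22
  have h3 : x * w2 * x⁻¹ = w2 * w := by
    have hx2 : x⁻¹ * x⁻¹ = x := by
      calc x⁻¹ * x⁻¹ = x ^ 3 * (x⁻¹ * x⁻¹) := by rw [hx, one_mul]
        _ = x := by simp only [pow_succ, pow_zero, one_mul]; group
    have e1 : w2 * (x * w2 * x⁻¹) * w = 1 := by
      calc w2 * (x * w2 * x⁻¹) * w = x * w * x * w * (x⁻¹ * x⁻¹) * w := by rw [hw2]; group
        _ = x * w * x * w * x * w := by rw [hx2]
        _ = (x * w) ^ 3 := by simp only [pow_succ, pow_zero, one_mul]; group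
        _ = 1 := h
    calc x * w2 * x⁻¹ = w2⁻¹ * (w2 * (x * w2 * x⁻¹) * w) * w⁻¹ := by group
      _ = w2 * w := by rw [e1, hw2i, hwi, mul_one]
  have hcomm : w2 * w = w * w2 := by
    have e1 : (w2 * w) * (w2 * w) = 1 := by
      rw [← h3]
      calc x * w2 * x⁻¹ * (x * w2 * x⁻¹) = x * (w2 * w2) * x⁻¹ := by group
        _ = 1 := by rw [h22]; group
    calc w2 * w = (w2 * w)⁻¹ := (inv_eq_of_mul_eq_one_left e1).symm
      _ = w * w2 := by rw [_root_.mul_inv_rev, hwi, hw2i]
  have hA : Group.IsSolvable ↥(Subgroup.zpowers w ⊔ Subgroup.zpowers w2) := by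
    apply isSolvable_sup _ (solv_zpowers w) (solv_zpowers w2)
    rw [Subgroup.zpowers_le, Subgroup.mem_normalizer_iff]
    intro t
    have key : ∀ t : G, t ∈ Subgroup.zpowers w → w2 * t * w2⁻¹ = t := by
      rintro _ ⟨k, rfl⟩
      show w2 * w ^ k * w2⁻¹ = w ^ k
      rw [← conj_zpow, hcomm, mul_inv_cancel_right]
    constructor
    · intro ht
      rwa [key t ht]
    · intro ht
      have h5 := key _ ht
      have e : t = w2⁻¹ * (w2 * t * w2⁻¹) * w2 := by group
      rw [e]
      nth_rewrite 1 [← h5]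
      have e2 : w2⁻¹ * (w2 * (w2 * t * w2⁻¹) * w2⁻¹) * w2 = w2 * t * w2⁻¹ := by group
      rw [e2]
      exact ht
  set A := Subgroup.zpowers w ⊔ Subgroup.zpowers w2 with hAdef
  have hwA : w ∈ A := Subgroup.mem_sup_left (Subgroup.mem_zpowers w)
  have hw2A : w2 ∈ A := Subgroup.mem_sup_right (Subgroup.mem_zpowers w2)
  have hmap : ∀ t ∈ A, x * t * x⁻¹ ∈ A := by
    have hle : A ≤ A.comap (MulAut.conj x).toMonoidHom := by
      rw [hAdef, sup_le_iff, Subgroup.zpowers_le, Subgroup.zpowers_le]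
      constructor
      · show x * w * x⁻¹ ∈ A
        exact hw2A
      · show x * w2 * x⁻¹ ∈ A
        rw [h3]
        exact mul_mem hw2A hwA
    intro t ht
    exact hle ht
  have hxN : Subgroup.zpowers x ≤ Subgroup.normalizer (A : Set G) := by
    rw [Subgroup.zpowers_le, Subgroup.mem_normalizer_iff]
    intro t
    constructor
    · exact hmap t
    · intro ht
      have h5 := hmap _ (hmap _ ht)
      have e : x * (x * (x * t * x⁻¹) * x⁻¹) * x⁻¹ = t := by
        calc x * (x * (x * t * x⁻¹) * x⁻¹) * x⁻¹ = x ^ 3 * t * (x ^ 3)⁻¹ := by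
              simp only [pow_succ, pow_zero, one_mul]; group
          _ = t := by rw [hx]; group
      rwa [e] at h5
  exact R_of_mem (isSolvable_sup hxN hA (solv_zpowers x))
    (Subgroup.mem_sup_right (Subgroup.mem_zpowers x)) (Subgroup.mem_sup_left hwA)

variable {F : Type*} [Field F] [DecidableEq F] [Fintype F] (Q : Q3 F)

section fix2

include Q

theorem sol_set_fix2 {x : PSL F} {a b : OnePoint F} (hab : a ≠ b) (hx : Fix2 x a b) :
    {y : PSL F | R x y} = ((stabilizer (PSL F) a : Set (PSL F)) ∪ (stabilizer (PSL F) b : Set (PSL F))) ∪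
      {y : PSL F | y • a = b ∧ y • b = a} := by
  have hxa := (hx a).2 (Or.inl rfl)
  have hxb := (hx b).2 (Or.inr rfl)
  ext y
  simp only [Set.mem_ofPred_eq, Set.mem_union, SetLike.mem_coe, mem_stabilizer_iff]
  constructor
  · intro h
    rcases sol_fix2 Q hab hx h (left_mem x y) with h1 | h1 | h1
    · exact Or.inl (Or.inl (h1 y (right_mem x y)))
    · exact Or.inl (Or.inr (h1 y (right_mem x y)))
    · rcases h1 y (right_mem x y) with h2 | h2
      · exact Or.inl (Or.inl h2.1)
      · exact Or.inr h2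
  · rintro ((h | h) | h)
    · exact R_of_mem (K := stabilizer (PSL F) a) (solv_one a) hxa h
    · exact R_of_mem (K := stabilizer (PSL F) b) (solv_one b) hxb h
    · apply R_inv
      have h1 : y * y = 1 := swap_sq hab h.1 h.2
      have h2 : (y * x) * (y * x) = 1 := swap_sq hab (by rw [mul_smul, hxa, h.1])
        (by rw [mul_smul, hxb, h.2])
      have h3 : y⁻¹ = y := inv_eq_of_mul_eq_one_left h1
      rw [h3]
      apply eq_inv_of_mul_eq_one_left
      rw [← h2]; group

/-- elements interchanging two points -/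
theorem card_swap {a b : OnePoint F} (hab : a ≠ b) :
    Nat.card {y : PSL F // y • a = b ∧ y • b = a} = (Fintype.card F - 1) / 2 := by
  haveI := finite_psl F
  obtain ⟨g, hg1, hg2⟩ := trans hab hab.symm
  rw [← card_two Q.hO.card2 hab]
  symm
  apply Nat.card_congr
  exact
    { toFun := fun t => ⟨g * t.1, by
        constructor
        · rw [mul_smul, show t.1 • a = a from t.2.1, hg1]
        · rw [mul_smul, show t.1 • b = b from t.2.2, hg2]⟩
      invFun := fun y => ⟨g⁻¹ * y.1, by
        constructor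
        · show (g⁻¹ * y.1) • a = a
          rw [mul_smul, y.2.1, inv_smul_eq_iff, hg1]
        · show (g⁻¹ * y.1) • b = b
          rw [mul_smul, y.2.2, inv_smul_eq_iff, hg2]⟩
      left_inv := fun t => Subtype.ext (by show g⁻¹ * (g * t.1) = t.1; group)
      right_inv := fun y => Subtype.ext (by show g * (g⁻¹ * y.1) = y.1; group) }

theorem card_sol_fix2 {x : PSL F} {a b : OnePoint F} (hab : a ≠ b) (hx : Fix2 x a b) :
    Nat.card {y : PSL F // R x y} = Fintype.card F * (Fintype.card F - 1) := by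
  haveI := finite_psl F
  have h1 : Nat.card {y : PSL F // R x y} = Set.ncard {y : PSL F | R x y} := rfl
  rw [h1, sol_set_fix2 Q hab hx, Set.ncard_union_eq _ (Set.toFinite _) (Set.toFinite _)]
  · have h2 := Set.ncard_union_add_ncard_inter (stabilizer (PSL F) a : Set (PSL F))
      (stabilizer (PSL F) b : Set (PSL F)) (Set.toFinite _) (Set.toFinite _)
    have h3 : ((stabilizer (PSL F) a : Set (PSL F)) ∩ (stabilizer (PSL F) b : Set (PSL F))).ncard =
        (Fintype.card F - 1) / 2 := card_two Q.hO.card2 hab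
    have h4 : (stabilizer (PSL F) a : Set (PSL F)).ncard = Fintype.card F * ((Fintype.card F - 1) / 2) :=
      card_stabilizer Q.hO a
    have h5 : (stabilizer (PSL F) b : Set (PSL F)).ncard = Fintype.card F * ((Fintype.card F - 1) / 2) :=
      card_stabilizer Q.hO b
    have h6 : ({y : PSL F | y • a = b ∧ y • b = a}).ncard = (Fintype.card F - 1) / 2 :=
      card_swap Q hab
    rw [h6]
    rw [h3, h4, h5] at h2
    rw [h2]
    obtain ⟨k, hk⟩ : ∃ k, Fintype.card F - 1 = 2 * k := ⟨(Fintype.card F - 1) / 2, by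
      have := Q.mod; omega⟩
    rw [hk, Nat.mul_div_cancel_left _ (by norm_num : 0 < 2)]
    ring
  · rw [Set.disjoint_left]
    rintro y (hy | hy) ⟨h1, h2⟩
    · exact hab ((show y • a = a from hy).symm.trans h1)
    · exact hab (h2.symm.trans (show y • b = b from hy))

end fix2

section free

variable {x a s : PSL F} (T : Tor a s ((Fintype.card F + 1) / 2))
include Q T

theorem solv_norm : Group.IsSolvable
    (Subgroup.normalizer (Subgroup.zpowers a : Set (PSL F))) := by
  have h1 : R a s := by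
    apply R_inv
    rw [T.s_inv, T.inv]
  have hle : Subgroup.normalizer (Subgroup.zpowers a : Set (PSL F)) ≤
      Subgroup.closure ({a, s} : Set (PSL F)) := by
    intro g hg
    have h2 : Subgroup.zpowers a ≤ Subgroup.closure ({a, s} : Set (PSL F)) := by
      rw [Subgroup.zpowers_le]; exact left_mem a s
    rcases (T.mem_normalizer_iff (two_le_m Q)).1 hg with h | h
    · exact h2 h
    · have : g = g * s * s := by rw [mul_assoc, T.ss, mul_one]
      rw [this]
      exact mul_mem (h2 h) (right_mem a s)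
  haveI : Group.IsSolvable (Subgroup.closure ({a, s} : Set (PSL F))) := h1
  exact Group.isSolvable_of_isSolvable_injective (Subgroup.inclusion_injective hle)

theorem sol_set_free (hx : x ∈ Subgroup.zpowers a) (hxx : x * x ≠ 1) (y : PSL F) :
    R x y ↔ y ∈ Subgroup.normalizer (Subgroup.zpowers a : Set (PSL F)) := by
  constructor
  · intro h
    exact sol_free Q T hx hxx h (left_mem x y) (right_mem x y)
  · intro h
    exact R_of_mem (solv_norm Q T) (Subgroup.le_normalizer hx) h

theorem card_sol_free (hx : x ∈ Subgroup.zpowers a) (hxx : x * x ≠ 1) :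
    Nat.card {y : PSL F // R x y} = Fintype.card F + 1 := by
  haveI := finite_psl F
  have h1 : Nat.card {y : PSL F // R x y} =
      Nat.card (Subgroup.normalizer (Subgroup.zpowers a : Set (PSL F))) := by
    apply Nat.card_congr
    exact Equiv.subtypeEquivRight (sol_set_free Q T hx hxx)
  rw [h1, T.card_normalizer (two_le_m Q)]
  have := Q.mod
  omega

end free

section three

/-- the involutions `w` with `⟨x, w⟩ ≅ A₄` -/
def Ix (x : PSL F) : Set (PSL F) := {w | w ≠ 1 ∧ w * w = 1 ∧ (x * w) ^ 3 = 1}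

/-- the matrices with trace zero -/
def Z (t : F) (ht : t ≠ 0) (α : F) : SpecialLinearGroup (Fin 2) F :=
  mk α (-(α * α + 1) * t) t⁻¹ (-α) (by field_simp; ring)

theorem Z_sq (t : F) (ht : t ≠ 0) (α : F) :
    (QuotientGroup.mk (Z t ht α) : PSL F) * QuotientGroup.mk (Z t ht α) = 1 := by
  rw [← QuotientGroup.mk_mul]
  have : (1 : PSL F) = QuotientGroup.mk 1 := rfl
  rw [this]
  apply mk_neg
  · rw [mul00]; simp [Z]; field_simp; ring
  · rw [mul01]; simp [Z]; ring
  · rw [mul10]; simp [Z]; ring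
  · rw [mul11]; simp [Z]; field_simp; ring

theorem Z_cube (t : F) (ht : t ≠ 0) (α : F) :
    ((QuotientGroup.mk (up t) : PSL F) * QuotientGroup.mk (Z t ht α)) ^ 3 = 1 := by
  have hti : t * t⁻¹ = 1 := mul_inv_cancel₀ ht
  obtain ⟨B, hB⟩ : ∃ B : SpecialLinearGroup (Fin 2) F,
      B = mk (α + 1) (-(α * α + 1 + α) * t) t⁻¹ (-α) (by linear_combination (α * α + 1 + α) * hti) :=
    ⟨_, rfl⟩
  obtain ⟨C, hC⟩ : ∃ C : SpecialLinearGroup (Fin 2) F,
      C = mk α (-(α * α + 1 + α) * t) t⁻¹ (-α - 1) (by linear_combination (α * α + 1 + α) * hti) :=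
    ⟨_, rfl⟩
  have h1 : up t * Z t ht α = B := by
    apply ext2
    · rw [mul00, hB]; simp [up, Z, ht]
    · rw [mul01, hB]; simp [up, Z]; ring
    · rw [mul10, hB]; simp [up, Z]
    · rw [mul11, hB]; simp [up, Z]
  have h2 : B * B = C := by
    apply ext2
    · rw [mul00, hB, hC]; simp only [mk00, mk01, mk10]; linear_combination (-(α * α + 1 + α)) * hti
    · rw [mul01, hB, hC]; simp only [mk00, mk01, mk11]; ring
    · rw [mul10, hB, hC]; simp only [mk00, mk10, mk11]; ring
    · rw [mul11, hB, hC]; simp only [mk01, mk10, mk11]; linear_combination (-(α * α + 1 + α)) * hti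
  rw [← QuotientGroup.mk_mul, h1, pow_three, ← QuotientGroup.mk_mul, ← QuotientGroup.mk_mul, h2]
  have : (1 : PSL F) = QuotientGroup.mk 1 := rfl
  rw [this]
  apply mk_neg
  · rw [mul00, hB, hC]; simp; linear_combination (-(α * α + 1 + α)) * hti
  · rw [mul01, hB, hC]; simp; ring
  · rw [mul10, hB, hC]; simp; ring
  · rw [mul11, hB, hC]; simp; linear_combination (-(α * α + 1 + α)) * hti

theorem Z_mem (t : F) (ht : t ≠ 0) (α : F) :
    (QuotientGroup.mk (Z t ht α) : PSL F) ∈ Ix (QuotientGroup.mk (up t) : PSL F) := by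
  refine ⟨?_, Z_sq t ht α, Z_cube t ht α⟩
  intro h
  have h1 : (QuotientGroup.mk (Z t ht α) : PSL F) • (∞ : OnePoint F) = ∞ := by rw [h, one_smul]
  rw [mk_smul, smul_infty'] at h1
  have h2 : (Z t ht α) 1 0 ≠ 0 := by
    show t⁻¹ ≠ 0
    exact inv_ne_zero ht
  rw [if_neg h2] at h1
  exact OnePoint.coe_ne_infty _ h1

include Q

theorem Z_surj (t : F) (ht : t ≠ 0) {w : PSL F} (hw : w ∈ Ix (QuotientGroup.mk (up t) : PSL F)) :
    ∃ α : F, w = QuotientGroup.mk (Z t ht α) := by
  obtain ⟨hw1, hww, hcube⟩ := hw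
  have hfree := free_of_ord_two Q hw1 hww
  obtain ⟨B, rfl⟩ := QuotientGroup.mk_surjective w
  have hd := det_eq B
  set α := B 0 0 with hα
  set β := B 0 1 with hβ
  set γ := B 1 0 with hγ
  set δ := B 1 1 with hδ
  have hγ0 : γ ≠ 0 := by
    intro h
    apply hfree ∞
    rw [mk_smul, smul_infty', if_pos h]
  -- the trace is zero
  have hδα : δ = -α := by
    have h1 : (QuotientGroup.mk (B * B) : PSL F) = QuotientGroup.mk 1 := hww
    have h2 : (B * B) 1 0 = 0 := by
      rcases eq_or_neg h1 with h | h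
      · rw [h]; simp
      · rw [h.2.2.1]; simp
    rw [mul10] at h2
    have h3 : γ * (α + δ) = 0 := by rw [← h2]; ring
    rcases mul_eq_zero.1 h3 with h | h
    · exact absurd h hγ0
    · linear_combination h
  rw [hδα] at hd
  have hτ : (t * γ) * (t * γ) = 1 := by
    rw [← QuotientGroup.mk_mul, pow_three, ← QuotientGroup.mk_mul, ← QuotientGroup.mk_mul] at hcube
    have h1 : (QuotientGroup.mk (up t * B * (up t * B * (up t * B))) : PSL F) = QuotientGroup.mk 1 :=
      hcube
    have h2 : (up t * B * (up t * B * (up t * B))) 1 0 = 0 := by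
      rcases eq_or_neg h1 with h | h
      · rw [h]; simp
      · rw [h.2.2.1]; simp
    have e00 : (up t * B) 0 0 = α + t * γ := by
      rw [mul00]; simp [up]; rfl
    have e01 : (up t * B) 0 1 = β - t * α := by
      rw [mul01, ← hδ, hδα]; simp [up]; ring
    have e10 : (up t * B) 1 0 = γ := by
      rw [mul10]; simp [up]; rfl
    have e11 : (up t * B) 1 1 = -α := by
      rw [mul11, ← hδ, hδα]; simp [up]
    rw [mul10, mul00 (up t * B), mul10 (up t * B), e00, e01, e10, e11] at h2
    have h3 : γ * ((t * γ) * (t * γ) - 1) = 0 := by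
      linear_combination h2 + γ * hd
    rcases mul_eq_zero.1 h3 with h | h
    · exact absurd h hγ0
    · linear_combination h
  have hti : t * t⁻¹ = 1 := mul_inv_cancel₀ ht
  rcases mul_self_eq_one_iff.1 hτ with h | h
  · have hγt : γ = t⁻¹ := by
      calc γ = t⁻¹ * (t * γ) := by field_simp
        _ = t⁻¹ := by rw [h, mul_one]
    refine ⟨α, ?_⟩
    congr 1
    apply ext2
    · rfl
    · show β = -(α * α + 1) * t
      rw [hγt] at hd
      linear_combination (-t) * hd - β * hti
    · exact hγt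
    · exact hδα
  · have hγt : γ = -t⁻¹ := by
      calc γ = t⁻¹ * (t * γ) := by field_simp
        _ = -t⁻¹ := by rw [h]; ring
    refine ⟨-α, ?_⟩
    apply mk_neg
    · show α = - -α
      ring
    · show β = -(-((-α) * (-α) + 1) * t)
      rw [hγt] at hd
      linear_combination t * hd - β * hti
    · show γ = - t⁻¹
      exact hγt
    · show δ = - - -α
      rw [hδα]; ring

theorem two_ne : (2 : F) ≠ 0 := by
  intro h
  have h3 := Q.three
  have : (1 : F) = 0 := by linear_combination h3 - h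
  exact one_ne_zero this

theorem Z_inj (t : F) (ht : t ≠ 0) {α β : F}
    (h : (QuotientGroup.mk (Z t ht α) : PSL F) = QuotientGroup.mk (Z t ht β)) : α = β := by
  rcases eq_or_neg h with h | h
  · have : (Z t ht α) 0 0 = (Z t ht β) 0 0 := by rw [h]
    exact this
  · exfalso
    have h1 : t⁻¹ = - t⁻¹ := h.2.2.1
    have h2 : 2 * t⁻¹ = 0 := by linear_combination h1
    rcases mul_eq_zero.1 h2 with h | h
    · exact two_ne Q h
    · exact inv_ne_zero ht h

theorem card_Ix_up (t : F) (ht : t ≠ 0) :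
    (Ix (QuotientGroup.mk (up t) : PSL F)).ncard = Fintype.card F := by
  have h1 : Ix (QuotientGroup.mk (up t) : PSL F) =
      Set.range (fun α : F => (QuotientGroup.mk (Z t ht α) : PSL F)) := by
    ext w
    constructor
    · intro hw
      obtain ⟨α, rfl⟩ := Z_surj Q t ht hw
      exact ⟨α, rfl⟩
    · rintro ⟨α, rfl⟩
      exact Z_mem t ht α
  rw [h1, Set.ncard_eq_toFinset_card', Set.toFinset_range]
  rw [Finset.card_image_of_injective]
  · rfl
  · intro α β h
    exact Z_inj Q t ht h

theorem card_Ix {x : PSL F} {a : OnePoint F} (hx : Fix1 x a) : (Ix x).ncard = Fintype.card F := by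
  obtain ⟨g, hg⟩ := exists_smul_infty a
  have h1 := fix1_conj hx g⁻¹
  rw [← hg, inv_smul_smul, inv_inv] at h1
  obtain ⟨t, ht, hxt⟩ := exists_up h1
  rw [← card_Ix_up Q t ht, ← hxt]
  have h2 : Ix (g⁻¹ * x * g) = (fun w => g⁻¹ * w * g) '' Ix x := by
    ext w
    constructor
    · rintro ⟨h3, h4, h5⟩
      refine ⟨g * w * g⁻¹, ⟨?_, ?_, ?_⟩, ?_⟩
      · intro h
        apply h3
        calc w = g⁻¹ * (g * w * g⁻¹) * g := by group
          _ = 1 := by rw [h]; group
      · calc g * w * g⁻¹ * (g * w * g⁻¹) = g * (w * w) * g⁻¹ := by group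
          _ = 1 := by rw [h4]; group
      · calc (x * (g * w * g⁻¹)) ^ 3 = g * (g⁻¹ * x * g * w) ^ 3 * g⁻¹ := by
              simp only [pow_succ, pow_zero, one_mul]; group
          _ = 1 := by rw [h5]; group
      · show g⁻¹ * (g * w * g⁻¹) * g = w
        group
    · rintro ⟨v, ⟨h3, h4, h5⟩, rfl⟩
      refine ⟨?_, ?_, ?_⟩
      · intro h
        apply h3
        calc v = g * (g⁻¹ * v * g) * g⁻¹ := by group
          _ = 1 := by
            show g * (g⁻¹ * v * g) * g⁻¹ = 1
            rw [show g⁻¹ * v * g = 1 from h]; group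
      · show g⁻¹ * v * g * (g⁻¹ * v * g) = 1
        calc g⁻¹ * v * g * (g⁻¹ * v * g) = g⁻¹ * (v * v) * g := by group
          _ = 1 := by rw [h4]; group
      · show (g⁻¹ * x * g * (g⁻¹ * v * g)) ^ 3 = 1
        calc (g⁻¹ * x * g * (g⁻¹ * v * g)) ^ 3 = g⁻¹ * (x * v) ^ 3 * g := by
              simp only [pow_succ, pow_zero, one_mul]; group
          _ = 1 := by rw [h5]; group
  rw [h2, Set.ncard_image_of_injective]
  intro u v huv
  exact mul_left_cancel (mul_right_cancel huv)

theorem sol_set_fix1 {x : PSL F} {a : OnePoint F} (hx : Fix1 x a) :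
    {y : PSL F | R x y} = (stabilizer (PSL F) a : Set (PSL F)) ∪
      ((Ix x ∪ (fun w => x * w) '' Ix x) ∪ (fun w => x ^ 2 * w) '' Ix x) := by
  have hx3 : x ^ 3 = 1 := fix1_cube Q.three hx
  ext y
  constructor
  · intro h
    by_cases hy : y • a = a
    · exact Or.inl hy
    · right
      obtain ⟨i, w, hi, hw1, hww, hw3, hyw⟩ := sol_fix1 Q hx h (left_mem x y) (right_mem x y) hy
      have hw : w ∈ Ix x := ⟨hw1, hww, hw3⟩
      interval_cases i
      · rw [pow_zero, one_mul] at hyw
        rw [hyw]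
        exact Or.inl (Or.inl hw)
      · rw [pow_one] at hyw
        exact Or.inl (Or.inr ⟨w, hw, hyw.symm⟩)
      · exact Or.inr ⟨w, hw, hyw.symm⟩
  · have key : ∀ w ∈ Ix x, R x w := fun w hw => R_of_cube hx3 hw.2.1 hw.2.2
    rintro (h | (h | ⟨w, h, rfl⟩) | ⟨w, h, rfl⟩)
    · exact R_of_mem (K := stabilizer (PSL F) a) (solv_one a) ((hx a).2 rfl) h
    · exact key y h
    · exact R_of_mem (key w h) (left_mem x w) (mul_mem (left_mem x w) (right_mem x w))
    · exact R_of_mem (key w h) (left_mem x w) (mul_mem (pow_mem (left_mem x w) 2) (right_mem x w))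

theorem card_sol_fix1 {x : PSL F} {a : OnePoint F} (hx : Fix1 x a) :
    2 * Nat.card {y : PSL F // R x y} = Fintype.card F * (Fintype.card F + 5) := by
  haveI := finite_psl F
  have hx3 : x ^ 3 = 1 := fix1_cube Q.three hx
  have hxa := (hx a).2 rfl
  have hcI := card_Ix Q hx
  have h1 : Nat.card {y : PSL F // R x y} = Set.ncard {y : PSL F | R x y} := rfl
  -- `x` is not a product of two elements of `Ix x`
  have hno : ∀ w ∈ Ix x, ∀ v ∈ Ix x, w ≠ x * v := by
    rintro w hw v hv h
    have h2 : w ^ 3 = 1 := by rw [h]; exact hv.2.2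
    apply hw.1
    calc w = w ^ 3 * (w * w)⁻¹ := by simp only [pow_succ, pow_zero, one_mul]; group
      _ = 1 := by rw [h2, hw.2.1]; group
  have hd1 : Disjoint (Ix x) ((fun w => x * w) '' Ix x) := by
    rw [Set.disjoint_left]
    rintro w hw ⟨v, hv, h⟩
    exact hno w hw v hv h.symm
  have hd2 : Disjoint (Ix x ∪ (fun w => x * w) '' Ix x) ((fun w => x ^ 2 * w) '' Ix x) := by
    rw [Set.disjoint_left]
    rintro w (hw | ⟨u, hu, hw⟩) ⟨v, hv, h⟩
    · apply hno v hv w hw
      rw [← h]
      show v = x * (x ^ 2 * v)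
      calc v = x ^ 3 * v := by rw [hx3, one_mul]
        _ = x * (x ^ 2 * v) := by simp only [pow_succ, pow_zero, one_mul]; group
    · apply hno u hu v hv
      have h5 : x * u = x ^ 2 * v := hw.trans h.symm
      calc u = x⁻¹ * (x * u) := by group
        _ = x * v := by rw [h5]; simp only [pow_succ, pow_zero, one_mul]; group
  have hfreeI : ∀ w ∈ Ix x, w • a ≠ a := fun w hw => free_of_ord_two Q hw.1 hw.2.1 a
  have hd3 : Disjoint (stabilizer (PSL F) a : Set (PSL F))
      ((Ix x ∪ (fun w => x * w) '' Ix x) ∪ (fun w => x ^ 2 * w) '' Ix x) := by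
    rw [Set.disjoint_left]
    have hmem : x ∈ stabilizer (PSL F) a := hxa
    rintro w hw ((hw' | ⟨u, hu, rfl⟩) | ⟨u, hu, rfl⟩)
    · exact hfreeI w hw' hw
    · apply hfreeI u hu
      have : u ∈ stabilizer (PSL F) a := by
        have h5 := mul_mem (inv_mem hmem) (show x * u ∈ stabilizer (PSL F) a from hw)
        rwa [inv_mul_cancel_left] at h5
      exact this
    · apply hfreeI u hu
      have : u ∈ stabilizer (PSL F) a := by
        have h5 := mul_mem (inv_mem (pow_mem hmem 2)) (show x ^ 2 * u ∈ stabilizer (PSL F) a from hw)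
        rwa [inv_mul_cancel_left] at h5
      exact this
  rw [h1, sol_set_fix1 Q hx, Set.ncard_union_eq hd3 (Set.toFinite _) (Set.toFinite _),
    Set.ncard_union_eq hd2 (Set.toFinite _) (Set.toFinite _),
    Set.ncard_union_eq hd1 (Set.toFinite _) (Set.toFinite _),
    Set.ncard_image_of_injective _ (mul_right_injective x),
    Set.ncard_image_of_injective _ (mul_right_injective (x ^ 2)), hcI]
  have h5 : (stabilizer (PSL F) a : Set (PSL F)).ncard = Fintype.card F * ((Fintype.card F - 1) / 2) :=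
    card_stabilizer Q.hO a
  rw [h5]
  obtain ⟨k, hk⟩ : ∃ k, Fintype.card F = 2 * k + 1 := ⟨(Fintype.card F - 1) / 2, by
    have := Q.mod; omega⟩
  rw [hk]
  have e : (2 * k + 1 - 1) / 2 = k := by omega
  rw [e]
  ring

end three

end Cfsg.Agent.H560.Sol3
end

-- part: H560/Sol3D
section
/-!
# `PSL(2, q)`, `q ≡ 3 mod 8` a power of three: the solubilizer of an involution
-/

set_option autoImplicit false
set_option linter.unusedSectionVars false
set_option linter.style.haveILetI false

namespace Cfsg.Agent.H560.Sol3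

open Matrix OnePoint MulAction
open Cfsg.Agent.OddCyclic.Zass
open Cfsg.Agent.H102.PslAct
open Cfsg.Agent.H102.RankOneSol (Free Fix1 Fix2 exists_normal_abelian)

attribute [local instance] act

variable {F : Type*} [Field F] [DecidableEq F] [Fintype F] (Q : Q3 F)

/-- involutions -/
def PI (y : PSL F) : Prop := y ≠ 1 ∧ y * y = 1
/-- elements with one fixed point -/
def PU (y : PSL F) : Prop := ∃ a : OnePoint F, Fix1 y a
/-- elements with two fixed points -/
def PP (y : PSL F) : Prop := ∃ a b : OnePoint F, a ≠ b ∧ Fix2 y a b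
/-- other elements without fixed points -/
def PM (y : PSL F) : Prop := Free (OnePoint F) y ∧ y * y ≠ 1

include Q

theorem conj_inv {z z' : PSL F} (h : PI z) (h' : PI z') : ∃ g : PSL F, g * z * g⁻¹ = z' := by
  obtain ⟨a, s, T⟩ := exists_tor Q.hO
  obtain ⟨y, hy⟩ := T.exists_conj Q.hO (free_of_ord_two Q h.1 h.2)
  obtain ⟨y', hy'⟩ := T.exists_conj Q.hO (free_of_ord_two Q h'.1 h'.2)
  have key : ∀ (z y : PSL F), PI z → y⁻¹ * z * y ≠ 1 ∧ (y⁻¹ * z * y) * (y⁻¹ * z * y) = 1 := by
    intro z y h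
    constructor
    · intro h1
      apply h.1
      calc z = y * (y⁻¹ * z * y) * y⁻¹ := by group
        _ = 1 := by rw [h1]; group
    · calc (y⁻¹ * z * y) * (y⁻¹ * z * y) = y⁻¹ * (z * z) * y := by group
        _ = 1 := by rw [h.2]; group
  have h1 := tor_inv Q T hy hy' (key z y h).1 (key z' y' h').1 (key z y h).2 (key z' y' h').2
  refine ⟨y' * y⁻¹, ?_⟩
  calc y' * y⁻¹ * z * (y' * y⁻¹)⁻¹ = y' * (y⁻¹ * z * y) * y'⁻¹ := by group
    _ = z' := by rw [h1]; group

theorem card_cent_inv {z : PSL F} (h : PI z) :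
    Nat.card (Subgroup.centralizer ({z} : Set (PSL F))) = Fintype.card F + 1 := by
  haveI := finite_psl F
  obtain ⟨a, s, T, hza⟩ := exists_tor_of_free Q.hO (free_of_ord_two Q h.1 h.2)
  have h1 : Subgroup.centralizer ({z} : Set (PSL F)) =
      Subgroup.normalizer (Subgroup.zpowers a : Set (PSL F)) := by
    ext g
    rw [Subgroup.mem_centralizer_singleton_iff]
    exact inv_comm_iff Q T hza h.1 h.2
  rw [h1, T.card_normalizer (two_le_m Q)]
  have := Q.mod
  omega

theorem exists_inv' {a s : PSL F} (T : Tor a s ((Fintype.card F + 1) / 2)) :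
    ∃ z ∈ Subgroup.zpowers a, PI z := by
  haveI := finite_psl F
  have h2 : 2 ∣ Nat.card (Subgroup.zpowers a) := by
    rw [Nat.card_zpowers, T.ord]
    have := Q.m_mod
    omega
  haveI : Fact (Nat.Prime 2) := ⟨Nat.prime_two⟩
  obtain ⟨x, hx⟩ := exists_prime_orderOf_dvd_card' 2 h2
  refine ⟨x, x.2, ?_, ?_⟩
  · intro h
    have : x = 1 := Subtype.ext h
    rw [this, orderOf_one] at hx
    omega
  · have := pow_orderOf_eq_one x
    rw [hx, sq] at this
    exact congrArg Subtype.val this

theorem exists_inv : ∃ z : PSL F, PI z := by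
  obtain ⟨a, s, T⟩ := exists_tor Q.hO
  obtain ⟨z, -, hz⟩ := exists_inv' Q T
  exact ⟨z, hz⟩

theorem card_PI : Nat.card {z : PSL F // PI z} * (Fintype.card F + 1) = Nat.card (PSL F) := by
  haveI := finite_psl F
  obtain ⟨z, hz⟩ := exists_inv Q
  have h1 := Cfsg.Agent.Involutions.PairCount.card_class_mul_card_centralizer z
  rw [card_cent_inv Q hz] at h1
  rw [← h1]
  congr 1
  apply Nat.card_congr
  apply Equiv.subtypeEquivRight
  intro u
  rw [isConj_iff]
  constructor
  · intro hu
    exact conj_inv Q hz hu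
  · rintro ⟨g, rfl⟩
    constructor
    · intro h
      apply hz.1
      calc z = g⁻¹ * (g * z * g⁻¹) * g := by group
        _ = 1 := by rw [h]; group
    · calc (g * z * g⁻¹) * (g * z * g⁻¹) = g * (z * z) * g⁻¹ := by group
        _ = 1 := by rw [hz.2]; group

theorem types (y : PSL F) : y = 1 ∧ ¬ PI y ∧ ¬ PU y ∧ ¬ PP y ∧ ¬ PM y ∨
    y ≠ 1 ∧ PI y ∧ ¬ PU y ∧ ¬ PP y ∧ ¬ PM y ∨ y ≠ 1 ∧ ¬ PI y ∧ PU y ∧ ¬ PP y ∧ ¬ PM y ∨
    y ≠ 1 ∧ ¬ PI y ∧ ¬ PU y ∧ PP y ∧ ¬ PM y ∨ y ≠ 1 ∧ ¬ PI y ∧ ¬ PU y ∧ ¬ PP y ∧ PM y := by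
  have h1U : PU y → y ≠ 1 := fun ⟨a, h⟩ => fix1_ne_one h
  have h1P : PP y → y ≠ 1 := fun ⟨a, b, _, h⟩ => fix2_ne_one h (by have := Q.gt; omega)
  have hIF : PI y → Free (OnePoint F) y := fun h => free_of_ord_two Q h.1 h.2
  have hUF : PU y → ¬ Free (OnePoint F) y := fun ⟨a, h⟩ h' => h' a ((h a).2 rfl)
  have hPF : PP y → ¬ Free (OnePoint F) y := fun ⟨a, b, _, h⟩ h' => h' a ((h a).2 (Or.inl rfl))
  have hUP : PU y → ¬ PP y := by
    rintro ⟨a, h⟩ ⟨b, c, hbc, h'⟩
    have e1 := (h b).1 ((h' b).2 (Or.inl rfl))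
    have e2 := (h c).1 ((h' c).2 (Or.inr rfl))
    exact hbc (e1.trans e2.symm)
  have hMF : PM y → Free (OnePoint F) y := fun h => h.1
  by_cases h1 : y = 1
  · left
    refine ⟨h1, fun h => h.1 h1, fun h => h1U h h1, fun h => h1P h h1, fun h => h.2 ?_⟩
    rw [h1, one_mul]
  · right
    rcases fix_cases h1 with h | h | h
    · by_cases h2 : y * y = 1
      · left
        exact ⟨h1, ⟨h1, h2⟩, fun h' => hUF h' h, fun h' => hPF h' h, fun h' => h'.2 h2⟩
      · right; right; right
        exact ⟨h1, fun h' => h2 h'.2, fun h' => hUF h' h, fun h' => hPF h' h, ⟨h, h2⟩⟩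
    · right; left
      exact ⟨h1, fun h' => hUF h (hIF h'), h, hUP h, fun h' => hUF h (hMF h')⟩
    · right; right; left
      exact ⟨h1, fun h' => hPF h (hIF h'), fun h' => hUP h' h, h, fun h' => hPF h (hMF h')⟩

theorem sum_types [Fintype (PSL F)] (f : PSL F → ℕ) (f1 fI fU fP fM : ℕ) (h1 : f 1 = f1)
    (hI : ∀ y, PI y → f y = fI) (hU : ∀ y, PU y → f y = fU) (hP : ∀ y, PP y → f y = fP)
    (hM : ∀ y, PM y → f y = fM) :
    ∑ y : PSL F, f y = f1 + Nat.card {y : PSL F // PI y} * fI + Nat.card {y : PSL F // PU y} * fU +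
      Nat.card {y : PSL F // PP y} * fP + Nat.card {y : PSL F // PM y} * fM := by
  classical
  have h : ∀ y : PSL F, f y = (if y = 1 then f1 else 0) + (if PI y then fI else 0) +
      (if PU y then fU else 0) + (if PP y then fP else 0) + (if PM y then fM else 0) := by
    intro y
    rcases types Q y with ⟨a, b, c, d, e⟩ | ⟨a, b, c, d, e⟩ | ⟨a, b, c, d, e⟩ | ⟨a, b, c, d, e⟩ |
      ⟨a, b, c, d, e⟩
    · rw [if_pos a, if_neg b, if_neg c, if_neg d, if_neg e, a, h1]; rfl
    · rw [if_neg a, if_pos b, if_neg c, if_neg d, if_neg e, hI y b]; omega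
    · rw [if_neg a, if_neg b, if_pos c, if_neg d, if_neg e, hU y c]; omega
    · rw [if_neg a, if_neg b, if_neg c, if_pos d, if_neg e, hP y d]; omega
    · rw [if_neg a, if_neg b, if_neg c, if_neg d, if_pos e, hM y e]; omega
  have hs : ∀ (p : PSL F → Prop) [DecidablePred p] (k : ℕ), ∑ y : PSL F, (if p y then k else 0) =
      Nat.card {y : PSL F // p y} * k := by
    intro p _ k
    rw [← Finset.sum_filter, Finset.sum_const, smul_eq_mul, Nat.card_eq_fintype_card,
      Fintype.card_subtype]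
  simp_rw [h, Finset.sum_add_distrib, hs]
  congr 4
  rw [Nat.card_eq_fintype_card, Fintype.card_subtype_eq, one_mul]

omit Q in
/-- double counting -/
theorem dcount {α β : Type*} [Fintype α] [Fintype β] (r : α → β → Prop) :
    ∑ a : α, Nat.card {b : β // r a b} = ∑ b : β, Nat.card {a : α // r a b} := by
  rw [← Nat.card_sigma, ← Nat.card_sigma]
  apply Nat.card_congr
  exact
    { toFun := fun u => ⟨u.2.1, ⟨u.1, u.2.2⟩⟩
      invFun := fun u => ⟨u.2.1, ⟨u.1, u.2.2⟩⟩
      left_inv := fun u => rfl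
      right_inv := fun u => rfl }

/-- counting fixed points -/
theorem count_fix : (Fintype.card F + 1) + Nat.card {y : PSL F // PU y} +
    Nat.card {y : PSL F // PP y} * 2 = (Fintype.card F + 1) * (Fintype.card F * ((Fintype.card F - 1) / 2)) := by
  haveI := finite_psl F
  haveI := Fintype.ofFinite (PSL F)
  haveI := Fintype.ofFinite (OnePoint F)
  have h1 := dcount (fun (y : PSL F) (a : OnePoint F) => y • a = a)
  have h2 : ∀ a : OnePoint F, Nat.card {y : PSL F // y • a = a} =
      Fintype.card F * ((Fintype.card F - 1) / 2) := fun a => card_stabilizer Q.hO a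
  rw [Finset.sum_congr rfl (fun a _ => h2 a), Finset.sum_const, Finset.card_univ,
    ← Nat.card_eq_fintype_card, card_onePoint, smul_eq_mul] at h1
  have hfree : ∀ y : PSL F, Free (OnePoint F) y → Nat.card {a : OnePoint F // y • a = a} = 0 := by
    intro y hy
    haveI : IsEmpty {a : OnePoint F // y • a = a} := ⟨fun u => hy u.1 u.2⟩
    exact Nat.card_of_isEmpty
  rw [← h1, sum_types Q (fun y => Nat.card {a : OnePoint F // y • a = a}) (Fintype.card F + 1) 0 1 2 0]
  · ring
  · rw [← card_onePoint]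
    apply Nat.card_congr
    exact Equiv.subtypeUnivEquiv (fun a => one_smul _ _)
  · intro y hy
    exact hfree y (free_of_ord_two Q hy.1 hy.2)
  · rintro y ⟨a, ha⟩
    show Nat.card {b : OnePoint F // y • b = b} = 1
    rw [Nat.card_congr (Equiv.subtypeEquivRight ha)]
    exact Nat.card_unique
  · rintro y ⟨a, b, hab, ha⟩
    show Nat.card {b : OnePoint F // y • b = b} = 2
    rw [Nat.card_congr (Equiv.subtypeEquivRight ha)]
    have : Nat.card {c : OnePoint F // c = a ∨ c = b} = ({a, b} : Set (OnePoint F)).ncard := rfl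
    rw [this, Set.ncard_pair hab]
  · intro y hy
    exact hfree y hy.1

theorem count_all : 1 + Nat.card {y : PSL F // PI y} + Nat.card {y : PSL F // PU y} +
    Nat.card {y : PSL F // PP y} + Nat.card {y : PSL F // PM y} = Nat.card (PSL F) := by
  haveI := finite_psl F
  haveI := Fintype.ofFinite (PSL F)
  have h1 := sum_types Q (fun _ : PSL F => 1) 1 1 1 1 1 rfl (fun _ _ => rfl) (fun _ _ => rfl)
    (fun _ _ => rfl) (fun _ _ => rfl)
  rw [Finset.sum_const, Finset.card_univ, ← Nat.card_eq_fintype_card, smul_eq_mul, mul_one] at h1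
  rw [h1]
  ring

theorem count_free : Nat.card {y : PSL F // PI y} + Nat.card {y : PSL F // PM y} =
    Nat.card {g : PSL F // ∀ x : OnePoint F, g • x ≠ x} := by
  haveI := finite_psl F
  haveI := Fintype.ofFinite (PSL F)
  classical
  have h1 := sum_types Q (fun y : PSL F => if Free (OnePoint F) y then 1 else 0) 0 1 0 0 1
    (by
      apply if_neg
      intro h
      exact h ∞ (one_smul _ _))
    (fun y hy => if_pos (free_of_ord_two Q hy.1 hy.2))
    (by
      rintro y ⟨a, ha⟩
      apply if_neg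
      intro h
      exact h a ((ha a).2 rfl))
    (by
      rintro y ⟨a, b, _, ha⟩
      apply if_neg
      intro h
      exact h a ((ha a).2 (Or.inl rfl)))
    (fun y hy => if_pos hy.1)
  rw [Finset.sum_boole] at h1
  have h2 : Nat.card {g : PSL F // ∀ x : OnePoint F, g • x ≠ x} =
      (Finset.univ.filter (fun y : PSL F => Free (OnePoint F) y)).card := by
    show Nat.card {g : PSL F // Free (OnePoint F) g} = _
    rw [Nat.card_eq_fintype_card, Fintype.card_subtype]
  rw [h2]
  have h3 : (((Finset.univ.filter (fun y : PSL F => Free (OnePoint F) y)).card : ℕ)) =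
    0 + Nat.card {y : PSL F // PI y} * 1 + Nat.card {y : PSL F // PU y} * 0 +
      Nat.card {y : PSL F // PP y} * 0 + Nat.card {y : PSL F // PM y} * 1 := by
    rw [← h1]
    simp
  rw [h3]
  ring

/-- the involutions `z` with `⟨z, y⟩` solvable -/
theorem inv_PU {y : PSL F} (hy : PU y) :
    Nat.card {z : {z : PSL F // PI z} // R z.1 y} = Fintype.card F := by
  obtain ⟨a, ha⟩ := hy
  rw [← card_Ix Q ha]
  have hy3 : y ^ 3 = 1 := fix1_cube Q.three ha
  have hy1 : y ≠ 1 := fix1_ne_one ha
  apply Nat.card_congr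
  have key : ∀ z : PSL F, PI z → (R z y ↔ z ∈ Ix y) := by
    intro z hz
    have hzf := free_of_ord_two Q hz.1 hz.2
    have hcube : ∀ g : PSL F, g ^ 3 = 1 → g * g = 1 → g = 1 := by
      intro g h1 h2
      calc g = g ^ 3 * (g * g)⁻¹ := by simp only [pow_succ, pow_zero, one_mul]; group
        _ = 1 := by rw [h1, h2]; group
    constructor
    · intro h
      obtain ⟨i, w, hi, hw1, hww, hw3, hzw⟩ := sol_fix1 Q ha (R_symm h) (left_mem y z)
        (right_mem y z) (hzf a)
      interval_cases i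
      · rw [pow_zero, one_mul] at hzw
        rw [hzw]
        exact ⟨hw1, hww, hw3⟩
      · exfalso
        rw [pow_one] at hzw
        apply hz.1
        rw [hzw]
        exact hcube _ hw3 (by rw [← hzw]; exact hz.2)
      · exfalso
        have h1 : z = y⁻¹ * w := by
          rw [hzw]
          calc y ^ 2 * w = y⁻¹ * (y ^ 3 * w) := by simp only [pow_succ, pow_zero, one_mul]; group
            _ = y⁻¹ * w := by rw [hy3, one_mul]
        have hwi : w⁻¹ = w := inv_eq_of_mul_eq_one_left hww
        have h2 : (y * w) * (y * w) = 1 := by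
          have h3 : (z * z)⁻¹ = 1 := by rw [hz.2]; group
          calc (y * w) * (y * w) = y * ((y⁻¹ * w⁻¹⁻¹) * (y⁻¹ * w⁻¹⁻¹))⁻¹ * y⁻¹ * (y * w * w * y⁻¹) := by
                have e : w⁻¹⁻¹ = w := inv_inv w
                rw [e]
                have e2 : w * y * (w * y) = (w⁻¹ * y) * (w⁻¹ * y) := by rw [hwi]
                calc (y * w) * (y * w) = y * (w * y * (w * y)) * y⁻¹ := by group
                  _ = y * ((w⁻¹ * y) * (w⁻¹ * y)) * y⁻¹ := by rw [e2]
                  _ = y * ((w⁻¹ * y) * (w⁻¹ * y)) * y⁻¹ * 1 := by rw [mul_one]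
                  _ = y * ((w⁻¹ * y) * (w⁻¹ * y)) * y⁻¹ * (y * (w * w) * y⁻¹) := by
                      rw [hww]; group
                  _ = _ := by group
            _ = y * (z * z)⁻¹ * y⁻¹ * (y * (w * w) * y⁻¹) := by rw [inv_inv, ← h1]; group
            _ = 1 := by rw [h3, hww]; group
        have h4 := hcube _ hw3 h2
        have h5 : w = y⁻¹ := by
          calc w = y⁻¹ * (y * w) := by group
            _ = y⁻¹ := by rw [h4, mul_one]
        rw [h5] at hww
        apply hy1
        apply hcube y hy3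
        calc y * y = (y⁻¹ * y⁻¹)⁻¹ := by rw [_root_.mul_inv_rev, inv_inv]
          _ = 1 := by rw [hww]; group
    · intro h
      exact R_symm (R_of_cube hy3 h.2.1 h.2.2)
  exact
    { toFun := fun u => ⟨u.1.1, (key u.1.1 u.1.2).1 u.2⟩
      invFun := fun w => ⟨⟨w.1, w.2.1, w.2.2.1⟩, (key w.1 ⟨w.2.1, w.2.2.1⟩).2 w.2⟩
      left_inv := fun u => rfl
      right_inv := fun u => rfl }

theorem inv_PP {y : PSL F} (hy : PP y) :
    Nat.card {z : {z : PSL F // PI z} // R z.1 y} = (Fintype.card F - 1) / 2 := by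
  obtain ⟨a, b, hab, hya⟩ := hy
  rw [← card_swap Q hab]
  apply Nat.card_congr
  have key : ∀ z : PSL F, PI z → (R z y ↔ (z • a = b ∧ z • b = a)) := by
    intro z hz
    have hzf := free_of_ord_two Q hz.1 hz.2
    have h1 : R z y ↔ z ∈ {z : PSL F | R y z} := ⟨fun h => R_symm h, fun h => R_symm h⟩
    rw [h1, sol_set_fix2 Q hab hya]
    constructor
    · rintro ((h | h) | h)
      · exact absurd h (hzf a)
      · exact absurd h (hzf b)
      · exact h
    · intro h
      exact Or.inr h
  exact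
    { toFun := fun u => ⟨u.1.1, (key u.1.1 u.1.2).1 u.2⟩
      invFun := fun w => ⟨⟨w.1, by
          constructor
          · intro h
            apply hab
            have := w.2.1
            rwa [h, one_smul] at this
          · exact swap_sq hab w.2.1 w.2.2⟩, (key w.1 (by
          constructor
          · intro h
            apply hab
            have := w.2.1
            rwa [h, one_smul] at this
          · exact swap_sq hab w.2.1 w.2.2)).2 w.2⟩
      left_inv := fun u => rfl
      right_inv := fun u => rfl }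

theorem inv_PM {y : PSL F} (hy : PM y) :
    Nat.card {z : {z : PSL F // PI z} // R z.1 y} = (Fintype.card F + 1) / 2 + 1 := by
  haveI := finite_psl F
  obtain ⟨hyf, hyy⟩ := hy
  obtain ⟨a, s, T, hya⟩ := exists_tor_of_free Q.hO hyf
  obtain ⟨z0, hz0T, hz0⟩ := exists_inv' Q T
  have h1 : Nat.card {z : {z : PSL F // PI z} // R z.1 y} =
      Set.ncard {z : PSL F | PI z ∧ z ∈ Subgroup.normalizer (Subgroup.zpowers a : Set (PSL F))} := by
    have key : ∀ z : PSL F, (R z y ↔ z ∈ Subgroup.normalizer (Subgroup.zpowers a : Set (PSL F))) := by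
      intro z
      rw [← sol_set_free Q T hya hyy z]
      exact ⟨fun h => R_symm h, fun h => R_symm h⟩
    apply Nat.card_congr
    exact
      { toFun := fun u => ⟨u.1.1, u.1.2, (key u.1.1).1 u.2⟩
        invFun := fun w => ⟨⟨w.1, w.2.1⟩, (key w.1).2 w.2.2⟩
        left_inv := fun u => rfl
        right_inv := fun u => rfl }
  have h2 : {z : PSL F | PI z ∧ z ∈ Subgroup.normalizer (Subgroup.zpowers a : Set (PSL F))} =
      ((Subgroup.normalizer (Subgroup.zpowers a : Set (PSL F)) : Set (PSL F)) \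
        (Subgroup.zpowers a : Set (PSL F))) ∪ {z0} := by
    ext z
    constructor
    · rintro ⟨h3, h4⟩
      by_cases h5 : z ∈ Subgroup.zpowers a
      · right
        exact tor_inv Q T h5 hz0T h3.1 hz0.1 h3.2 hz0.2
      · exact Or.inl ⟨h4, h5⟩
    · rintro (⟨h3, h4⟩ | h3)
      · refine ⟨⟨?_, (tor_out T (two_le_m Q) h3 h4).1⟩, h3⟩
        rintro rfl
        exact h4 (one_mem _)
      · have h3 : z = z0 := h3
        rw [h3]
        exact ⟨hz0, Subgroup.le_normalizer hz0T⟩
  rw [h1, h2, Set.ncard_union_eq _ (Set.toFinite _) (Set.toFinite _), Set.ncard_singleton]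
  · congr 1
    have h3 := Set.ncard_sdiff_add_ncard_of_subset
      (s := (Subgroup.zpowers a : Set (PSL F)))
      (t := (Subgroup.normalizer (Subgroup.zpowers a : Set (PSL F)) : Set (PSL F)))
      (fun g hg => Subgroup.le_normalizer hg) (Set.toFinite _)
    have h4 : (Subgroup.zpowers a : Set (PSL F)).ncard = (Fintype.card F + 1) / 2 := by
      have : (Subgroup.zpowers a : Set (PSL F)).ncard = Nat.card (Subgroup.zpowers a) := rfl
      rw [this, Nat.card_zpowers, T.ord]
    have h5 : (Subgroup.normalizer (Subgroup.zpowers a : Set (PSL F)) : Set (PSL F)).ncard =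
        2 * ((Fintype.card F + 1) / 2) := T.card_normalizer (two_le_m Q)
    rw [h4, h5] at h3
    omega
  · rw [Set.disjoint_singleton_right]
    rintro ⟨-, h⟩
    exact h hz0T

theorem card_sol_inv {x : PSL F} (hx : PI x) :
    Nat.card {y : PSL F // R x y} = Fintype.card F * (Fintype.card F + 1) := by
  haveI := finite_psl F
  haveI := Fintype.ofFinite (PSL F)
  haveI := Fintype.ofFinite {z : PSL F // PI z}
  have hconst : ∀ z : {z : PSL F // PI z}, Nat.card {y : PSL F // R z.1 y} =
      Nat.card {y : PSL F // R x y} := by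
    intro z
    obtain ⟨g, hg⟩ := conj_inv Q z.2 hx
    apply Nat.card_congr
    apply (MulAut.conj g).toEquiv.subtypeEquiv
    intro y
    show R z.1 y ↔ R x (g * y * g⁻¹)
    have key : ∀ (g u v : PSL F), R u v → R (g * u * g⁻¹) (g * v * g⁻¹) := by
      intro g u v h
      have h1 : Group.IsSolvable ((Subgroup.closure ({u, v} : Set (PSL F))).map
          (MulAut.conj g).toMonoidHom) := by
        haveI : Group.IsSolvable (Subgroup.closure ({u, v} : Set (PSL F))) := h
        exact Group.isSolvable_of_surjective (MonoidHom.subgroupMap_surjective _ _)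
      exact R_of_mem h1 ⟨u, left_mem u v, rfl⟩ ⟨v, right_mem u v, rfl⟩
    constructor
    · intro h
      rw [← hg]
      exact key g _ _ h
    · intro h
      rw [← hg] at h
      have h2 := key g⁻¹ _ _ h
      have e : ∀ u : PSL F, g⁻¹ * (g * u * g⁻¹) * g⁻¹⁻¹ = u := fun u => by group
      rwa [e, e] at h2
  have h1 := dcount (fun (z : {z : PSL F // PI z}) (y : PSL F) => R z.1 y)
  rw [Finset.sum_congr rfl (fun z _ => hconst z), Finset.sum_const, Finset.card_univ,
    ← Nat.card_eq_fintype_card, smul_eq_mul,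
    sum_types Q (fun y => Nat.card {z : {z : PSL F // PI z} // R z.1 y})
      (Nat.card {z : PSL F // PI z}) (Nat.card {z : PSL F // PI z}) (Fintype.card F)
      ((Fintype.card F - 1) / 2) ((Fintype.card F + 1) / 2 + 1)
      (by
        apply Nat.card_congr
        apply Equiv.subtypeUnivEquiv
        intro z
        exact R_of_sq z.2.2 (one_mul _))
      (fun y hy => by
        apply Nat.card_congr
        apply Equiv.subtypeUnivEquiv
        intro z
        exact R_of_sq z.2.2 hy.2)
      (fun y hy => inv_PU Q hy) (fun y hy => inv_PP Q hy) (fun y hy => inv_PM Q hy)] at h1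
  have h2 := count_fix Q
  have h3 := count_all Q
  have h4 := count_free Q
  have h5 := two_mul_card_free (F := F)
  have h6 := card_PI Q
  have h7 := Q.hO.card2
  have h8 := Q.gt
  rw [← h4] at h5
  obtain ⟨k, hk⟩ : ∃ k, Fintype.card F = 2 * (k + 1) + 1 := ⟨(Fintype.card F - 1) / 2 - 1, by
    have := Q.mod; omega⟩
  rw [hk] at h1 h2 h5 h6 h7 ⊢
  have e1 : (2 * (k + 1) + 1 - 1) / 2 = k + 1 := by omega
  have e2 : (2 * (k + 1) + 1 + 1) / 2 = k + 2 := by omega
  have e3 : 2 * (k + 1) + 1 - 1 = 2 * (k + 1) := by omega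
  rw [e1] at h1 h2 h7
  rw [e2] at h1
  rw [e3] at h5
  generalize Nat.card {y : PSL F // PI y} = nI at *
  generalize Nat.card {y : PSL F // PU y} = nU at *
  generalize Nat.card {y : PSL F // PP y} = nP at *
  generalize Nat.card {y : PSL F // PM y} = nM at *
  generalize Nat.card {y : PSL F // R x y} = c at *
  generalize Nat.card (PSL F) = N at *
  subst h7
  have hnI : nI = (k + 1) * (2 * (k + 1) + 1) := by
    have : nI * (2 * (k + 1) + 1 + 1) = (k + 1) * (2 * (k + 1) + 1) * (2 * (k + 1) + 1 + 1) := by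
      rw [h6]; ring
    exact Nat.eq_of_mul_eq_mul_right (by omega) this
  have hnM : nM = (k + 1) * (2 * (k + 1) + 1) * k := by
    nlinarith
  have hnP : nP = (k + 2) * (2 * (k + 1) + 1) * k := by
    nlinarith
  have hnU : nU = 4 * (k + 1) * (k + 2) := by
    nlinarith
  have hpos : 0 < nI := by rw [hnI]; positivity
  apply Nat.eq_of_mul_eq_mul_left hpos
  rw [h1, hnM, hnP, hnU, hnI]
  ring

end Cfsg.Agent.H560.Sol3
end

-- part: S2258
section
set_option autoImplicit false
open Cfsg

namespace Cfsg.Agent.S2258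

open Cfsg.Agent.H560.Sol3 Cfsg.Agent.H102.PslAct
open Cfsg.Agent.H102.RankOneSol (Free Fix1 Fix2)

attribute [local instance] act

/-- Let G = PSL_2(F) with F a field of order q = 3^p, p an odd prime, and for x ∈ G call the solubilizer of x the set of y ∈ G such that x and y generate a solvable subgroup. Then the solubilizer of an involution has q(q + 1) elements; that of an element of order 3 has q(q + 5)/2 elements; that of an element of order neither 1 nor 2 dividing q − 1 has q(q − 1) elements; and that of an element of order neither 1 nor 2 dividing q + 1 has q + 1 elements. -/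
theorem result (p : ℕ) (hp : p.Prime) (hodd : Odd p) {F : Type*} [Field F] [Fintype F]
    (hF : Fintype.card F = 3 ^ p) (x : Matrix.ProjectiveSpecialLinearGroup (Fin 2) F) :
    (orderOf x = 2 → Nat.card {y : Matrix.ProjectiveSpecialLinearGroup (Fin 2) F // Group.IsSolvable ↥(Subgroup.closure ({x, y} : Set (Matrix.ProjectiveSpecialLinearGroup (Fin 2) F)))} = 3 ^ p * (3 ^ p + 1)) ∧
    (orderOf x = 3 → 2 * Nat.card {y : Matrix.ProjectiveSpecialLinearGroup (Fin 2) F // Group.IsSolvable ↥(Subgroup.closure ({x, y} : Set (Matrix.ProjectiveSpecialLinearGroup (Fin 2) F)))} = 3 ^ p * (3 ^ p + 5)) ∧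
    (x ≠ 1 → orderOf x ≠ 2 → orderOf x ∣ 3 ^ p - 1 → Nat.card {y : Matrix.ProjectiveSpecialLinearGroup (Fin 2) F // Group.IsSolvable ↥(Subgroup.closure ({x, y} : Set (Matrix.ProjectiveSpecialLinearGroup (Fin 2) F)))} = 3 ^ p * (3 ^ p - 1)) ∧
    (x ≠ 1 → orderOf x ≠ 2 → orderOf x ∣ 3 ^ p + 1 → Nat.card {y : Matrix.ProjectiveSpecialLinearGroup (Fin 2) F // Group.IsSolvable ↥(Subgroup.closure ({x, y} : Set (Matrix.ProjectiveSpecialLinearGroup (Fin 2) F)))} = 3 ^ p + 1) := by
  classical
  have hp3 : 3 ≤ p := by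
    have h2 := hp.two_le
    rcases hodd with ⟨k, hk⟩
    omega
  have Q : Q3 F := by
    haveI : Fact (Nat.Prime 3) := ⟨Nat.prime_three⟩
    refine ⟨?_, ?_, ?_, ?_⟩
    · have h1 : ((Fintype.card F : ℕ) : F) = 0 := FiniteField.cast_card_eq_zero F
      rw [hF] at h1
      push_cast at h1
      exact pow_eq_zero_iff (by omega) |>.1 h1
    · rw [hF]
      exact dvd_pow_self 3 (by omega)
    · rw [hF]
      obtain ⟨k, rfl⟩ := hodd
      rw [pow_succ, pow_mul, Nat.mul_mod, Nat.pow_mod]
      norm_num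
    · rw [hF]
      calc 3 = 3 ^ 1 := by norm_num
        _ < 3 ^ p := Nat.pow_lt_pow_right (by norm_num) (by omega)
  rw [← hF]
  have hmod := Q.mod
  have hdvd := Q.dvd
  refine ⟨fun h => ?_, fun h => ?_, fun h1 h2 h3 => ?_, fun h1 h2 h3 => ?_⟩
  · apply card_sol_inv Q
    constructor
    · rintro rfl
      rw [orderOf_one] at h
      omega
    · have := pow_orderOf_eq_one x
      rwa [h, sq] at this
  · obtain ⟨a, ha⟩ := fix1_of_ord Q h
    exact card_sol_fix1 Q ha
  · rcases fix_cases h1 with h | ⟨a, h⟩ | ⟨a, b, hab, h⟩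
    · exfalso
      have h4 := ord_free Q h
      have h5 : orderOf x ∣ 2 := by
        have h6 : orderOf x ∣ Fintype.card F + 1 := h4.trans ⟨2, by omega⟩
        have h7 := Nat.dvd_sub h6 h3
        have e : Fintype.card F + 1 - (Fintype.card F - 1) = 2 := by omega
        rwa [e] at h7
      rcases (Nat.dvd_prime Nat.prime_two).1 h5 with h6 | h6
      · exact h1 (orderOf_eq_one_iff.1 h6)
      · exact h2 h6
    · exfalso
      rw [fix1_ord Q h] at h3
      omega
    · exact card_sol_fix2 Q hab h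
  · rcases fix_cases h1 with h | ⟨a, h⟩ | ⟨a, b, hab, h⟩
    · obtain ⟨a, s, T, hx⟩ := exists_tor_of_free Q.hO h
      have hxx : x * x ≠ 1 := by
        intro h5
        exact h2 (orderOf_eq_prime (by rw [sq, h5]) h1)
      exact card_sol_free Q T hx hxx
    · exfalso
      rw [fix1_ord Q h] at h3
      omega
    · exfalso
      have h4 := ord_two Q.hO hab ((h a).2 (Or.inl rfl)) ((h b).2 (Or.inr rfl))
      have h5 : orderOf x ∣ 2 := by
        have h6 : orderOf x ∣ Fintype.card F - 1 := h4.trans ⟨2, by omega⟩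
        have h7 := Nat.dvd_sub h3 h6
        have e : Fintype.card F + 1 - (Fintype.card F - 1) = 2 := by omega
        rwa [e] at h7
      rcases (Nat.dvd_prime Nat.prime_two).1 h5 with h6 | h6
      · exact h1 (orderOf_eq_one_iff.1 h6)
      · exact h2 h6

end Cfsg.Agent.S2258
end
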