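import Cfsg.Statements.S2259
import Cfsg.Agent.H102.SzSol
import Cfsg.Agent.OddCyclic.ClaimC.SzIso
set_option linter.all false

set_option autoImplicit false
open Cfsg

namespace Cfsg.Agent.S2259

/-- Let G be the Suzuki group Sz(q), q = 2^(2m+1) with 2m + 1 prime and m ≥ 1, realised inside Sp_4(F) for F the field of order q, write r = 2^(m+1) (so r² = 2q), and for x ∈ G call the solubilizer of x the set of y ∈ G such that x and y generate a solvable subgroup. Then the solubilizer of an involution has q²(4q − 3) elements; that of an element of order 4 has q²(q + 3) elements; that of a non-identity element of order dividing q − 1 has 2q²(q − 1) elements; that of a non-identity element of order dividing q + r + 1 has 4(q + r + 1) elements; and that of a non-identity element of order dividing q − r + 1 has 4(q − r + 1) elements. -/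
theorem result {F : Type*} [Field F] [Fintype F] {m : ℕ} (hm : 1 ≤ m)
    (hp : (2 * m + 1).Prime) (hF : Fintype.card F = 2 ^ (2 * m + 1)) (x : ↥(Cfsg.Lie.Sz F (2 ^ (m + 1)))) :
    (orderOf x = 2 → Nat.card {y : ↥(Cfsg.Lie.Sz F (2 ^ (m + 1))) // Group.IsSolvable ↥(Subgroup.closure ({x, y} : Set (↥(Cfsg.Lie.Sz F (2 ^ (m + 1))))))} = (2 ^ (2 * m + 1)) ^ 2 * (4 * 2 ^ (2 * m + 1) - 3)) ∧
    (orderOf x = 4 → Nat.card {y : ↥(Cfsg.Lie.Sz F (2 ^ (m + 1))) // Group.IsSolvable ↥(Subgroup.closure ({x, y} : Set (↥(Cfsg.Lie.Sz F (2 ^ (m + 1))))))} = (2 ^ (2 * m + 1)) ^ 2 * (2 ^ (2 * m + 1) + 3)) ∧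
    (x ≠ 1 → orderOf x ∣ 2 ^ (2 * m + 1) - 1 →
      Nat.card {y : ↥(Cfsg.Lie.Sz F (2 ^ (m + 1))) // Group.IsSolvable ↥(Subgroup.closure ({x, y} : Set (↥(Cfsg.Lie.Sz F (2 ^ (m + 1))))))} = 2 * (2 ^ (2 * m + 1)) ^ 2 * (2 ^ (2 * m + 1) - 1)) ∧
    (x ≠ 1 → orderOf x ∣ 2 ^ (2 * m + 1) + 2 ^ (m + 1) + 1 → Nat.card {y : ↥(Cfsg.Lie.Sz F (2 ^ (m + 1))) // Group.IsSolvable ↥(Subgroup.closure ({x, y} : Set (↥(Cfsg.Lie.Sz F (2 ^ (m + 1))))))} = 4 * (2 ^ (2 * m + 1) + 2 ^ (m + 1) + 1)) ∧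
    (x ≠ 1 → orderOf x ∣ 2 ^ (2 * m + 1) - 2 ^ (m + 1) + 1 → Nat.card {y : ↥(Cfsg.Lie.Sz F (2 ^ (m + 1))) // Group.IsSolvable ↥(Subgroup.closure ({x, y} : Set (↥(Cfsg.Lie.Sz F (2 ^ (m + 1))))))} = 4 * (2 ^ (2 * m + 1) - 2 ^ (m + 1) + 1)) := by
  obtain ⟨e⟩ := Cfsg.Agent.OddCyclic.ClaimC.SzIso.iso hm hF
  have hx : e (e.symm x) = x := e.apply_symm_apply x
  have hord : orderOf x = orderOf (e.symm x) := (e.symm.orderOf_eq x).symm
  have hone : x ≠ 1 → e.symm x ≠ 1 := fun h1 h2 => h1 ((map_eq_one_iff e.symm e.symm.injective).1 h2)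
  have hsol : Cfsg.Agent.H102.SzSol.sol x = Cfsg.Agent.H102.SzSol.sol (e.symm x) := by
    rw [← Cfsg.Agent.H102.SzSol.sol_equiv e, hx]
  refine ⟨fun h => ?_, fun h => ?_, fun h1 h => ?_, fun h1 h => ?_, fun h1 h => ?_⟩
  · exact hsol.trans (Cfsg.Agent.H102.SzSol.sol_two hm hF (hord.symm.trans h))
  · exact hsol.trans (Cfsg.Agent.H102.SzSol.sol_four hm hF (hord.symm.trans h))
  · exact hsol.trans (Cfsg.Agent.H102.SzSol.sol_split hm hF (hone h1) (hord ▸ h))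
  · exact hsol.trans (Cfsg.Agent.H102.SzSol.sol_free hm hF (hone h1) (Or.inl rfl) (hord ▸ h))
  · exact hsol.trans (Cfsg.Agent.H102.SzSol.sol_free hm hF (hone h1) (Or.inr rfl) (hord ▸ h))

end Cfsg.Agent.S2259
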