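import Cfsg.Statements.S2268
set_option linter.all false

set_option autoImplicit false
open Cfsg

namespace Cfsg.Agent.S2268

theorem exists_centralizer_mul_mem_normalizer {G : Type*} [Group G] [Finite G] {p : ℕ}
    [Fact p.Prime] (P : Sylow p G) (hP : IsMulCommutative (P : Subgroup G)) (Q : Subgroup G)
    (hQ : Q ≤ (P : Subgroup G)) {g : G} (hg : g ∈ Subgroup.normalizer (Q : Set G)) :
    ∃ c ∈ Subgroup.centralizer (Q : Set G),
      c * g ∈ Subgroup.normalizer ((P : Subgroup G) : Set G) := by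
  have hPC : (P : Subgroup G) ≤ Subgroup.centralizer (Q : Set G) := by
    intro x hx
    rw [Subgroup.mem_centralizer_iff]
    intro y hy
    have := hP.is_comm.comm ⟨y, hQ hy⟩ ⟨x, hx⟩
    exact congrArg Subtype.val this
  have hgPC : ((g • P : Sylow p G) : Subgroup G) ≤ Subgroup.centralizer (Q : Set G) := by
    intro x hx
    rw [Sylow.coe_subgroup_smul, Subgroup.mem_pointwise_smul_iff_inv_smul_mem] at hx
    have hx' : g⁻¹ * x * g ∈ (P : Subgroup G) := by
      simpa [MulAut.smul_def] using hx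
    have h1 := hPC hx'
    rw [Subgroup.mem_centralizer_iff] at h1 ⊢
    intro y hy
    have hy' : g⁻¹ * y * g ∈ (Q : Set G) := by
      have := (Subgroup.mem_normalizer_iff''.mp hg y).mp hy
      exact this
    have h2 := h1 _ hy'
    have h3 : g⁻¹ * (y * x) * g = g⁻¹ * (x * y) * g := by
      calc g⁻¹ * (y * x) * g = (g⁻¹ * y * g) * (g⁻¹ * x * g) := by group
        _ = (g⁻¹ * x * g) * (g⁻¹ * y * g) := h2
        _ = g⁻¹ * (x * y) * g := by group
    exact mul_left_cancel (mul_right_cancel h3)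
  obtain ⟨c, hc⟩ := MulAction.exists_smul_eq (Subgroup.centralizer (Q : Set G))
    ((g • P : Sylow p G).subtype hgPC) (P.subtype hPC)
  refine ⟨c, c.2, ?_⟩
  have h4 : ((c : G) * g) • P = P := by
    rw [Sylow.smul_subtype] at hc
    have h5 := Sylow.subtype_injective hc
    rw [mul_smul]
    exact h5
  exact Sylow.smul_eq_iff_mem_normalizer.mp h4

/-- Let G be a finite group with an abelian Sylow p-subgroup P and let Q ≤ P. Then N_G(Q) = (N_G(Q) ∩ N_G(P))·C_G(Q), so that N_G(Q)/C_G(Q) is a homomorphic image of the subgroup (N_G(Q) ∩ N_G(P))/C_G(P) of N_G(P)/C_G(P); in particular the order of N_G(Q)/C_G(Q) divides the order of N_G(P)/C_G(P). -/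
theorem result {G : Type*} [Group G] [Finite G] {p : ℕ} [Fact p.Prime]
    (P : Sylow p G) (hP : IsMulCommutative (P : Subgroup G)) (Q : Subgroup G) (hQ : Q ≤ (P : Subgroup G)) :
    Subgroup.normalizer (Q : Set G) =
      (Subgroup.normalizer (Q : Set G) ⊓ Subgroup.normalizer ((P : Subgroup G) : Set G)) ⊔ Subgroup.centralizer (Q : Set G) ∧
    ((Subgroup.centralizer (Q : Set G)).subgroupOf (Subgroup.normalizer (Q : Set G))).index ∣ ((Subgroup.centralizer ((P : Subgroup G) : Set G)).subgroupOf (Subgroup.normalizer ((P : Subgroup G) : Set G))).index := by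
  have hCN : Subgroup.centralizer (Q : Set G) ≤ Subgroup.normalizer (Q : Set G) :=
    Subgroup.centralizer_le_normalizer _
  refine ⟨le_antisymm ?_ (sup_le inf_le_left hCN), ?_⟩
  · intro g hg
    obtain ⟨c, hc, hcg⟩ := exists_centralizer_mul_mem_normalizer P hP Q hQ hg
    have h1 : g = c⁻¹ * (c * g) := by group
    rw [h1]
    exact mul_mem (Subgroup.mem_sup_right (inv_mem hc))
      (Subgroup.mem_sup_left ⟨mul_mem (hCN hc) hg, hcg⟩)
  · set NQ := Subgroup.normalizer (Q : Set G)
    set CQ := Subgroup.centralizer (Q : Set G)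
    set NP := Subgroup.normalizer ((P : Subgroup G) : Set G)
    set CP := Subgroup.centralizer ((P : Subgroup G) : Set G)
    have hCC : CP ≤ CQ := Subgroup.centralizer_le hQ
    have hCNP : CP ≤ NP := Subgroup.centralizer_le_normalizer _
    change CQ.relIndex NQ ∣ CP.relIndex NP
    have key : CQ.relIndex NQ = CQ.relIndex (NQ ⊓ NP) := by
      have hn : (CQ.subgroupOf NQ).Normal := by
        refine ⟨fun x hx g => ?_⟩
        rw [Subgroup.mem_subgroupOf] at hx ⊢
        rw [Subgroup.mem_centralizer_iff] at hx ⊢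
        intro y hy
        have hy' : (g : G)⁻¹ * y * g ∈ (Q : Set G) :=
          (Subgroup.mem_normalizer_iff''.mp g.2 y).mp hy
        have h2 := hx _ hy'
        calc y * ((g : G) * x * (g : G)⁻¹)
            = (g : G) * (((g : G)⁻¹ * y * g) * x) * (g : G)⁻¹ := by group
          _ = (g : G) * (x * ((g : G)⁻¹ * y * g)) * (g : G)⁻¹ := by rw [h2]
          _ = (g : G) * x * (g : G)⁻¹ * y := by group
      have htop : (NQ ⊓ NP).subgroupOf NQ ⊔ CQ.subgroupOf NQ = ⊤ := by
        rw [eq_top_iff]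
        rintro ⟨g, hg⟩ -
        obtain ⟨c, hc, hcg⟩ := exists_centralizer_mul_mem_normalizer P hP Q hQ hg
        have h1 : (⟨g, hg⟩ : NQ) = (⟨c, hCN hc⟩ : NQ)⁻¹ * (⟨c * g, mul_mem (hCN hc) hg⟩ : NQ) := by
          apply Subtype.ext
          simp
        rw [h1]
        exact mul_mem (Subgroup.mem_sup_right (inv_mem (Subgroup.mem_subgroupOf.mpr hc)))
          (Subgroup.mem_sup_left (Subgroup.mem_subgroupOf.mpr ⟨mul_mem (hCN hc) hg, hcg⟩))
      have h3 := Subgroup.relIndex_sup_right (H := (NQ ⊓ NP).subgroupOf NQ) (K := CQ.subgroupOf NQ)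
      rw [htop, Subgroup.relIndex_top_right] at h3
      rw [Subgroup.relIndex_subgroupOf inf_le_left] at h3
      exact h3
    rw [key]
    have h1 : CQ.relIndex (NQ ⊓ NP) ∣ CP.relIndex (NQ ⊓ NP) :=
      Subgroup.relIndex_dvd_of_le_left _ hCC
    have h2 : CP.relIndex (NQ ⊓ NP) ∣ CP.relIndex NP := by
      exact Dvd.intro _ (Subgroup.relIndex_mul_relIndex _ _ _ (le_inf (hCC.trans hCN) hCNP) inf_le_right)
    exact h1.trans h2

end Cfsg.Agent.S2268
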