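import Cfsg.Statements.S2269
import Cfsg.Agent.H105.AltSyl
set_option linter.all false

set_option autoImplicit false
open Cfsg

namespace Cfsg.Agent.S2269

/-- Let n ≥ 5 and let P be an abelian Sylow p-subgroup of the alternating group A_n. Then N(P)/C(P) (taken in A_n) has even order, or P is cyclic, except when n = 5 and p = 2, where P is a four-group and N(P)/C(P) has order 3. -/
theorem result (n : ℕ) (hn : 5 ≤ n) {p : ℕ} [Fact p.Prime]
    (P : Sylow p (alternatingGroup (Fin n))) (hP : IsMulCommutative (P : Subgroup (alternatingGroup (Fin n)))) :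
    (¬ (n = 5 ∧ p = 2) → 2 ∣ ((Subgroup.centralizer ((P : Subgroup (alternatingGroup (Fin n))) : Set (alternatingGroup (Fin n)))).subgroupOf (Subgroup.normalizer ((P : Subgroup (alternatingGroup (Fin n))) : Set (alternatingGroup (Fin n))))).index ∨ IsCyclic (P : Subgroup (alternatingGroup (Fin n)))) ∧
    ((n = 5 ∧ p = 2) → ((Subgroup.centralizer ((P : Subgroup (alternatingGroup (Fin n))) : Set (alternatingGroup (Fin n)))).subgroupOf (Subgroup.normalizer ((P : Subgroup (alternatingGroup (Fin n))) : Set (alternatingGroup (Fin n))))).index = 3 ∧ IsKleinFour (P : Subgroup (alternatingGroup (Fin n)))) := by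
  have hpp : p.Prime := Fact.out
  refine ⟨fun h => ?_, ?_⟩
  · by_cases hp2 : p = 2
    · subst hp2
      exact (Cfsg.Agent.H105.alt_sylow_two_not_comm n (by
        have : n ≠ 5 := fun h5 => h ⟨h5, rfl⟩
        omega) P hP).elim
    · by_cases hpn : p + 2 ≤ n
      · left
        exact Cfsg.Agent.H105.alt_sylow_even n p hp2 hpn P hP
      · right
        have := hpp.two_le
        have h3 : 3 ≤ p := by omega
        exact Cfsg.Agent.H105.alt_sylow_cyclic n p (by omega) P
  · rintro ⟨rfl, rfl⟩
    exact ⟨Cfsg.Agent.H105.alt_five_index P, Cfsg.Agent.H105.alt_five_klein P⟩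

end Cfsg.Agent.S2269
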