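import Cfsg.Statements.S2270
import Mathlib.GroupTheory.Perm.Centralizer
import Cfsg.Agent.H105.EvenAut
set_option linter.all false

set_option autoImplicit false
open Cfsg

namespace Cfsg.Agent.S2270

/-- Let n ≥ 3, p an odd prime, and P an abelian Sylow p-subgroup of the symmetric group S_n (with p dividing n!, so that P ≠ 1). Then N(P)/C(P) has even order. -/
theorem result (n : ℕ) (hn : 3 ≤ n) {p : ℕ} [Fact p.Prime] (hp : p ≠ 2) (hpn : p ≤ n)
    (P : Sylow p (Equiv.Perm (Fin n))) (hP : IsMulCommutative (P : Subgroup (Equiv.Perm (Fin n)))) :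
    2 ∣ ((Subgroup.centralizer ((P : Subgroup (Equiv.Perm (Fin n))) : Set (Equiv.Perm (Fin n)))).subgroupOf (Subgroup.normalizer ((P : Subgroup (Equiv.Perm (Fin n))) : Set (Equiv.Perm (Fin n))))).index := by
  have hcard : p ∣ Nat.card (Equiv.Perm (Fin n)) := by
    rw [Nat.card_perm]
    exact (Fact.out : p.Prime).dvd_factorial.mpr (by simpa using hpn)
  obtain ⟨x, hxP, hx⟩ : ∃ x ∈ P, orderOf x = p := by
    have hPc : p ∣ Nat.card P := P.dvd_card_of_dvd_card hcard
    obtain ⟨x, hx⟩ := exists_prime_orderOf_dvd_card' (G := P) p hPc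
    exact ⟨x, x.2, by simpa using hx⟩
  refine Cfsg.Agent.H105.two_dvd_index_of_inv P hP hxP ?_ ?_
  · intro h
    have h2 : orderOf x ∣ 2 := orderOf_dvd_of_pow_eq_one (by
      rw [pow_two]; nth_rewrite 1 [h]; simp)
    rw [hx] at h2
    exact hp ((Nat.prime_dvd_prime_iff_eq Fact.out Nat.prime_two).mp h2)
  · exact Equiv.Perm.isConj_iff_cycleType_eq.mpr (Equiv.Perm.cycleType_inv x).symm

end Cfsg.Agent.S2270
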