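import Cfsg.Agent.LieClassical.SLGen
import Cfsg.Agent.ClassicalGeometry.AutPSL.Root
import Cfsg.Statements.S2278
import Cfsg.Agent.Lib.FieldFour
set_option linter.all false

-- part: H106/SLAxis
section
set_option autoImplicit false

/-!
# Subgroups of `SL ι F` containing all transvections with a given axis

`axisSpace H` is the set of functionals `ρ` such that all transvections `1 + w ρᵀ` (`ρ(w) = 0`) are in `H`.
It is a subspace, invariant under `H`, and if it is everything then `H = SL ι F`.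
-/

namespace Cfsg.Agent.H106.SLAxis

open Matrix Cfsg.Agent.ClassicalGeometry.AutPSL.Root

variable {ι F : Type*} [Fintype ι] [DecidableEq ι] [Field F]

theorem dot_of_vecMul (g : Matrix.SpecialLinearGroup ι F) {a φ ψ : ι → F} (h : φ ⬝ᵥ a = 0)
    (hψ : ψ ᵥ* (g : Matrix ι ι F) = φ) : ψ ⬝ᵥ ((g : Matrix ι ι F) *ᵥ a) = 0 := by
  rw [Matrix.dotProduct_mulVec, hψ, h]

/-- conjugates of transvections -/
theorem conj_tr (g : Matrix.SpecialLinearGroup ι F) (a φ ψ : ι → F) (h : φ ⬝ᵥ a = 0)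
    (hψ : ψ ᵥ* (g : Matrix ι ι F) = φ) :
    g * tr a φ h * g⁻¹ = tr ((g : Matrix ι ι F) *ᵥ a) ψ (dot_of_vecMul g h hψ) := by
  rw [mul_inv_eq_iff_eq_mul]
  apply Subtype.ext
  rw [Matrix.SpecialLinearGroup.coe_mul, Matrix.SpecialLinearGroup.coe_mul, coe_tr, coe_tr,
    mul_add, add_mul, mul_one, one_mul]
  congr 1
  rw [← hψ, Matrix.mul_vecMulVec, Matrix.vecMulVec_mul]

theorem tr_congr {a b φ ψ : ι → F} (hab : a = b) (hφψ : φ = ψ) (h : φ ⬝ᵥ a = 0) :
    tr a φ h = tr b ψ (hab ▸ hφψ ▸ h) := by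
  subst hab
  subst hφψ
  rfl

theorem tr_zero_right (a : ι → F) (h : (0 : ι → F) ⬝ᵥ a = 0) : tr a 0 h = 1 := by
  apply Subtype.ext
  rw [coe_tr, vecMulVec_zero, add_zero]
  rfl

theorem tr_zero_left (φ : ι → F) (h : φ ⬝ᵥ 0 = 0) : tr 0 φ h = 1 := by
  apply Subtype.ext
  rw [coe_tr, zero_vecMulVec, add_zero]
  rfl

theorem tr_smul_right (c : F) (a φ : ι → F) (h : (c • φ) ⬝ᵥ a = 0) (h' : φ ⬝ᵥ (c • a) = 0) :
    tr a (c • φ) h = tr (c • a) φ h' := by
  apply Subtype.ext
  rw [coe_tr, coe_tr, vecMulVec_smul, smul_vecMulVec]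

/-- the functionals `ρ` such that all transvections with axis `ker ρ` are in `H` -/
def axisSpace (H : Subgroup (Matrix.SpecialLinearGroup ι F)) : Submodule F (ι → F) where
  carrier := {ρ | ∀ w (h : ρ ⬝ᵥ w = 0), tr w ρ h ∈ H}
  zero_mem' := by
    intro w h
    rw [tr_zero_right]
    exact H.one_mem
  smul_mem' := by
    intro c ρ hρ w h
    have h' : ρ ⬝ᵥ (c • w) = 0 := by
      rw [dotProduct_smul, ← smul_dotProduct]
      exact h
    rw [tr_smul_right c w ρ h h']
    exact hρ _ h'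
  add_mem' := by
    intro ρ ρ' hρ hρ' w h
    by_cases hw : ∃ w', ρ' ⬝ᵥ w' = 0 ∧ ρ ⬝ᵥ w' ≠ 0
    · obtain ⟨w', h1, h2⟩ := hw
      -- normalize
      let w'' : ι → F := (-(ρ ⬝ᵥ w')⁻¹) • w'
      have h3 : ρ' ⬝ᵥ w'' = 0 := by
        change ρ' ⬝ᵥ ((-(ρ ⬝ᵥ w')⁻¹) • w') = 0
        rw [dotProduct_smul, h1, smul_zero]
      have h4 : ρ ⬝ᵥ w'' = -1 := by
        change ρ ⬝ᵥ ((-(ρ ⬝ᵥ w')⁻¹) • w') = -1
        rw [dotProduct_smul, smul_eq_mul, neg_mul, inv_mul_cancel₀ h2]
      let g := tr w'' ρ' h3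
      have hg : g ∈ H := hρ' _ h3
      have h5 : (ρ + ρ') ᵥ* (g : Matrix ι ι F) = ρ := by
        change (ρ + ρ') ᵥ* (1 + vecMulVec w'' ρ') = ρ
        rw [vecMul_add, vecMul_one, vecMul_vecMulVec, add_dotProduct, h3, h4]
        simp
      have h6 : ρ ⬝ᵥ (((g⁻¹ : Matrix.SpecialLinearGroup ι F) : Matrix ι ι F) *ᵥ w) = 0 := by
        rw [← h5, ← dotProduct_mulVec, mulVec_mulVec, ← Matrix.SpecialLinearGroup.coe_mul,
          mul_inv_cancel, Matrix.SpecialLinearGroup.coe_one, one_mulVec, h]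
      have h7 := conj_tr g (((g⁻¹ : Matrix.SpecialLinearGroup ι F) : Matrix ι ι F) *ᵥ w) ρ (ρ + ρ') h6 h5
      have h8 : (g : Matrix ι ι F) *ᵥ (((g⁻¹ : Matrix.SpecialLinearGroup ι F) : Matrix ι ι F) *ᵥ w) = w := by
        rw [mulVec_mulVec, ← Matrix.SpecialLinearGroup.coe_mul,
          mul_inv_cancel, Matrix.SpecialLinearGroup.coe_one, one_mulVec]
      have h9 : tr w (ρ + ρ') h = g * tr (((g⁻¹ : Matrix.SpecialLinearGroup ι F) : Matrix ι ι F) *ᵥ w) ρ h6 * g⁻¹ := by
        rw [h7]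
        exact (tr_congr h8 rfl _).symm
      rw [h9]
      exact H.mul_mem (H.mul_mem hg (hρ _ h6)) (H.inv_mem hg)
    · push Not at hw
      by_cases h1 : ρ' ⬝ᵥ w = 0
      · have h2 := hw w h1
        rw [← tr_mul_same_center w ρ ρ' h2 h1]
        exact H.mul_mem (hρ _ _) (hρ' _ _)
      · have h0 : ρ + ρ' = 0 := by
          rw [← dotProduct_eq_zero_iff]
          intro x
          have h2 : ρ' ⬝ᵥ (x - ((ρ' ⬝ᵥ x) * (ρ' ⬝ᵥ w)⁻¹) • w) = 0 := by
            rw [dotProduct_sub, dotProduct_smul, smul_eq_mul, mul_assoc, inv_mul_cancel₀ h1, mul_one,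
              sub_self]
          have h3 := hw _ h2
          rw [dotProduct_sub, dotProduct_smul, smul_eq_mul] at h3
          rw [add_dotProduct] at h
          have h4 : ρ ⬝ᵥ w = - (ρ' ⬝ᵥ w) := eq_neg_of_add_eq_zero_left h
          rw [h4] at h3
          rw [add_dotProduct]
          have h5 : ρ' ⬝ᵥ x * (ρ' ⬝ᵥ w)⁻¹ * -(ρ' ⬝ᵥ w) = -(ρ' ⬝ᵥ x) := by
            rw [mul_neg, mul_assoc, inv_mul_cancel₀ h1, mul_one]
          rw [h5, sub_neg_eq_add] at h3
          exact h3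
        rw [tr_congr rfl h0 h, tr_zero_right]
        exact H.one_mem

theorem mem_axisSpace {H : Subgroup (Matrix.SpecialLinearGroup ι F)} {ρ : ι → F} :
    ρ ∈ axisSpace H ↔ ∀ w (h : ρ ⬝ᵥ w = 0), tr w ρ h ∈ H := Iff.rfl

theorem vecMul_mem {H : Subgroup (Matrix.SpecialLinearGroup ι F)} {ρ : ι → F} (hρ : ρ ∈ axisSpace H)
    {g : Matrix.SpecialLinearGroup ι F} (hg : g ∈ H) : ρ ᵥ* (g : Matrix ι ι F) ∈ axisSpace H := by
  intro w h
  have h1 : ρ ⬝ᵥ ((g : Matrix ι ι F) *ᵥ w) = 0 := by rw [dotProduct_mulVec, h]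
  have h2 : (ρ ᵥ* (g : Matrix ι ι F)) ᵥ* ((g⁻¹ : Matrix.SpecialLinearGroup ι F) : Matrix ι ι F) = ρ := by
    rw [vecMul_vecMul, ← Matrix.SpecialLinearGroup.coe_mul, mul_inv_cancel,
      Matrix.SpecialLinearGroup.coe_one, vecMul_one]
  have h3 := conj_tr g⁻¹ ((g : Matrix ι ι F) *ᵥ w) ρ (ρ ᵥ* (g : Matrix ι ι F)) h1 h2
  have h4 : ((g⁻¹ : Matrix.SpecialLinearGroup ι F) : Matrix ι ι F) *ᵥ ((g : Matrix ι ι F) *ᵥ w) = w := by
    rw [mulVec_mulVec, ← Matrix.SpecialLinearGroup.coe_mul, inv_mul_cancel,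
      Matrix.SpecialLinearGroup.coe_one, one_mulVec]
  have h5 : tr w (ρ ᵥ* (g : Matrix ι ι F)) h = g⁻¹ * tr ((g : Matrix ι ι F) *ᵥ w) ρ h1 * g⁻¹⁻¹ := by
    rw [h3]
    exact (tr_congr h4 rfl _).symm
  rw [h5]
  exact H.mul_mem (H.mul_mem (H.inv_mem hg) (hρ _ h1)) (H.inv_mem (H.inv_mem hg))

/-- If `H` contains all transvections of all axes then `H = SL ι F`. -/
theorem eq_top {H : Subgroup (Matrix.SpecialLinearGroup ι F)} (h : axisSpace H = ⊤) : H = ⊤ := by
  rw [eq_top_iff, ← Cfsg.Agent.LieClassical.SLGen.closure_transvections, Subgroup.closure_le]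
  rintro _ ⟨i, j, hij, c, rfl⟩
  rw [transvection_eq_tr]
  have h1 : Pi.single j 1 ∈ axisSpace H := by
    rw [h]
    exact Submodule.mem_top
  exact h1 _ _

end Cfsg.Agent.H106.SLAxis
end

-- part: S2278
section
set_option autoImplicit false
set_option linter.unusedSimpArgs false
open Cfsg

namespace Cfsg.Agent.S2278

open Matrix Cfsg.Agent.ClassicalGeometry.AutPSL.Root Cfsg.Agent.H106.SLAxis

/-- the conclusion -/
def Good (F : Type*) [Field F] : Prop :=
  ∃ u g : Matrix.SpecialLinearGroup (Fin 3) F, IsNilpotent ((u : Matrix (Fin 3) (Fin 3) F) - 1) ∧ ((u : Matrix (Fin 3) (Fin 3) F) - 1) ^ (3 - 1) ≠ 0 ∧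
      Subgroup.closure ({u, g * u * g⁻¹} : Set (Matrix.SpecialLinearGroup (Fin 3) F)) = ⊤

/-- Cayley-Hamilton for a matrix with the characteristic polynomial of a unipotent matrix. -/
theorem sub_one_cube {R : Type*} [CommRing R] (M : Matrix (Fin 3) (Fin 3) R)
    (h1 : M 0 0 + M 1 1 + M 2 2 = 3)
    (h2 : (M 0 0 * M 1 1 - M 0 1 * M 1 0) + (M 0 0 * M 2 2 - M 0 2 * M 2 0) +
      (M 1 1 * M 2 2 - M 1 2 * M 2 1) = 3)
    (h3 : M.det = 1) : (M - 1) ^ 3 = 0 := by
  rw [det_fin_three] at h3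
  ext i j
  fin_cases i <;> fin_cases j <;>
    simp [pow_succ, Matrix.mul_apply, Fin.sum_univ_three, Matrix.sub_apply, Matrix.one_apply]
  · linear_combination (M 0 0 * M 0 0 + M 0 1 * M 1 0 + M 0 2 * M 2 0) * h1 - M 0 0 * h2 + h3
  · linear_combination (M 0 0 * M 0 1 + M 0 1 * M 1 1 + M 0 2 * M 2 1) * h1 - M 0 1 * h2 
  · linear_combination (M 0 0 * M 0 2 + M 0 1 * M 1 2 + M 0 2 * M 2 2) * h1 - M 0 2 * h2 
  · linear_combination (M 1 0 * M 0 0 + M 1 1 * M 1 0 + M 1 2 * M 2 0) * h1 - M 1 0 * h2 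
  · linear_combination (M 1 0 * M 0 1 + M 1 1 * M 1 1 + M 1 2 * M 2 1) * h1 - M 1 1 * h2 + h3
  · linear_combination (M 1 0 * M 0 2 + M 1 1 * M 1 2 + M 1 2 * M 2 2) * h1 - M 1 2 * h2 
  · linear_combination (M 2 0 * M 0 0 + M 2 1 * M 1 0 + M 2 2 * M 2 0) * h1 - M 2 0 * h2 
  · linear_combination (M 2 0 * M 0 1 + M 2 1 * M 1 1 + M 2 2 * M 2 1) * h1 - M 2 1 * h2 
  · linear_combination (M 2 0 * M 0 2 + M 2 1 * M 1 2 + M 2 2 * M 2 2) * h1 - M 2 2 * h2 + h3

/-- Two matrices with the same normal form, with bases of the same determinant, are conjugate in `SL`. -/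
theorem exists_conj {F : Type*} [Field F] (y v : Matrix.SpecialLinearGroup (Fin 3) F)
    (A B J : Matrix (Fin 3) (Fin 3) F) (hA : (y : Matrix (Fin 3) (Fin 3) F) * A = A * J)
    (hB : (v : Matrix (Fin 3) (Fin 3) F) * B = B * J) (hd : A.det = B.det) (hne : A.det ≠ 0) :
    ∃ g : Matrix.SpecialLinearGroup (Fin 3) F, v = g * y * g⁻¹ := by
  have hu : IsUnit A.det := isUnit_iff_ne_zero.2 hne
  have hdet : (B * A⁻¹).det = 1 := by
    rw [det_mul, ← hd, det_nonsing_inv, Ring.inverse_eq_inv', mul_inv_cancel₀ hne]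
  let g : Matrix.SpecialLinearGroup (Fin 3) F := ⟨B * A⁻¹, hdet⟩
  refine ⟨g, ?_⟩
  · rw [eq_mul_inv_iff_mul_eq]
    apply Subtype.ext
    rw [Matrix.SpecialLinearGroup.coe_mul, Matrix.SpecialLinearGroup.coe_mul]
    change (v : Matrix (Fin 3) (Fin 3) F) * (B * A⁻¹) = B * A⁻¹ * y
    have h1 : A⁻¹ * (y : Matrix (Fin 3) (Fin 3) F) = J * A⁻¹ := by
      calc A⁻¹ * (y : Matrix (Fin 3) (Fin 3) F) = A⁻¹ * y * (A * A⁻¹) := by
            rw [mul_nonsing_inv A hu, mul_one]
        _ = A⁻¹ * (y * A) * A⁻¹ := by simp only [mul_assoc]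
        _ = (A⁻¹ * A) * J * A⁻¹ := by rw [hA]; simp only [mul_assoc]
        _ = J * A⁻¹ := by rw [nonsing_inv_mul A hu, one_mul]
    rw [← mul_assoc, hB, mul_assoc, mul_assoc, h1]

section Main

variable {F : Type*} [Field F] [Fintype F]

/-- transvection with centre `e₁` -/
def xe (a c : F) : Matrix.SpecialLinearGroup (Fin 3) F :=
  tr ![0, 1, 0] ![a, 0, c] (by simp)

omit [Fintype F] in
theorem xe_mul (a c a' c' : F) : xe a c * xe a' c' = xe (a + a') (c + c') := by
  rw [xe, xe, tr_mul_same_center]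
  exact tr_congr rfl (by ext i; fin_cases i <;> simp) _

omit [Fintype F] in
theorem xe_zero : xe (0 : F) 0 = 1 := by
  rw [xe]
  exact (tr_congr rfl (by ext i; fin_cases i <;> simp) _).trans (tr_zero_right _ (zero_dotProduct _))

omit [Fintype F] in
theorem xe_inv (a c : F) : (xe a c)⁻¹ = xe (-a) (-c) := by
  rw [inv_eq_iff_mul_eq_one, xe_mul, add_neg_cancel, add_neg_cancel, xe_zero]

/-- A nonzero additive subgroup invariant under multiplication with a field generator is everything. -/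
theorem addSubgroup_eq_top (S : AddSubgroup F) (μ : F) (hμ : Subfield.closure {μ} = ⊤)
    (hS : ∀ c ∈ S, μ * c ∈ S) {c₀ : F} (hc₀ : c₀ ∈ S) (hne : c₀ ≠ 0) (c : F) : c ∈ S := by
  let K : Subfield F :=
    { carrier := {f | ∀ c ∈ S, f * c ∈ S}
      mul_mem' := by
        intro a b ha hb c hc
        rw [mul_assoc]
        exact ha _ (hb _ hc)
      one_mem' := by
        intro c hc
        rwa [one_mul]
      add_mem' := by
        intro a b ha hb c hc
        rw [add_mul]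
        exact S.add_mem (ha _ hc) (hb _ hc)
      zero_mem' := by
        intro c hc
        rw [zero_mul]
        exact S.zero_mem
      neg_mem' := by
        intro a ha c hc
        rw [neg_mul]
        exact S.neg_mem (ha _ hc)
      inv_mem' := by
        intro a ha
        have hpow : ∀ n : ℕ, ∀ c ∈ S, a ^ n * c ∈ S := by
          intro n
          induction n with
          | zero =>
            intro c hc
            rwa [pow_zero, one_mul]
          | succ n ih =>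
            intro c hc
            rw [pow_succ, mul_assoc]
            exact ih _ (ha _ hc)
        intro c hc
        by_cases h0 : a = 0
        · rw [h0, _root_.inv_zero, zero_mul]
          exact S.zero_mem
        · have h1 := FiniteField.pow_card_sub_one_eq_one a h0
          have h2 : a⁻¹ = a ^ (Fintype.card F - 2) := by
            symm
            apply eq_inv_of_mul_eq_one_left
            rw [← pow_succ]
            have h3 : 2 ≤ Fintype.card F := Fintype.one_lt_card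
            have h4 : Fintype.card F - 2 + 1 = Fintype.card F - 1 := by omega
            rw [h4, h1]
          rw [h2]
          exact hpow _ _ hc }
  have hK : K = ⊤ := by
    rw [eq_top_iff, ← hμ, Subfield.closure_le]
    rintro _ rfl
    exact hS
  have h1 : c * c₀⁻¹ ∈ K := hK ▸ Subfield.mem_top _
  have h2 := h1 c₀ hc₀
  rwa [mul_assoc, inv_mul_cancel₀ hne, mul_one] at h2

/-- the diagonal matrix `diag(l, l, m)` -/
def hd (l m : F) (h : l * l * m = 1) : Matrix.SpecialLinearGroup (Fin 3) F :=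
  ⟨!![l, 0, 0; 0, l, 0; 0, 0, m], by rw [det_fin_three]; simp [h]⟩

omit [Fintype F] in
theorem hd_pow (l m : F) (h : l * l * m = 1) (n : ℕ) :
    hd l m h ^ n = hd (l ^ n) (m ^ n) (by rw [← mul_pow, ← mul_pow, h, one_pow]) := by
  induction n with
  | zero =>
    rw [pow_zero]
    apply Subtype.ext
    ext i j
    fin_cases i <;> fin_cases j <;> simp [hd]
  | succ n ih =>
    rw [pow_succ, ih]
    apply Subtype.ext
    rw [Matrix.SpecialLinearGroup.coe_mul]
    ext i j
    fin_cases i <;> fin_cases j <;> simp [hd, Matrix.mul_apply, Fin.sum_univ_three, pow_succ]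

/-- transvection with centre `e₀` and axis `e₁` -/
def te (a : F) : Matrix.SpecialLinearGroup (Fin 3) F :=
  tr ![a, 0, 0] ![0, 1, 0] (by simp)

omit [Fintype F] in
theorem te_pow (a : F) (n : ℕ) : te a ^ n = te (n * a) := by
  induction n with
  | zero =>
    rw [pow_zero, te]
    exact ((tr_congr (by ext i; fin_cases i <;> simp) rfl _).trans (tr_zero_left _ (dotProduct_zero _))).symm
  | succ n ih =>
    rw [pow_succ, ih, te, te, tr_mul_same_axis]
    refine tr_congr ?_ rfl _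
    ext i
    fin_cases i
    · simp
      ring
    · simp
    · simp

theorem mem_parts {H : Subgroup (Matrix.SpecialLinearGroup (Fin 3) F)} (l m : F) (h : l * l * m = 1)
    (a : F) (hz : te a * hd l m h ∈ H) : hd l m h ∈ H ∧ te a ∈ H := by
  have hl : l ≠ 0 := by
    rintro rfl
    simp at h
  have hm : m ≠ 0 := by
    rintro rfl
    simp at h
  have hc : Commute (te a) (hd l m h) := by
    apply Subtype.ext
    rw [Matrix.SpecialLinearGroup.coe_mul, Matrix.SpecialLinearGroup.coe_mul]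
    ext i j
    fin_cases i <;> fin_cases j <;>
      simp [hd, te, coe_tr, Matrix.mul_apply, Fin.sum_univ_three, vecMulVec_apply, Matrix.one_apply, mul_comm]
  have h1 : hd l m h = (te a * hd l m h) ^ Fintype.card F := by
    rw [hc.mul_pow, te_pow, hd_pow]
    have h2 : ((Fintype.card F : ℕ) : F) = 0 := by
      exact FiniteField.cast_card_eq_zero F
    rw [h2, zero_mul]
    have h3 : te (0 : F) = 1 := by
      have := te_pow (0 : F) 0
      rw [pow_zero, mul_zero] at this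
      exact this.symm
    rw [h3, one_mul]
    apply Subtype.ext
    ext i j
    fin_cases i <;> fin_cases j <;> simp [hd, FiniteField.pow_card]
  have h4 : hd l m h ∈ H := by
    rw [h1]
    exact H.pow_mem hz _
  refine ⟨h4, ?_⟩
  have h5 := H.mul_mem hz (H.inv_mem h4)
  rwa [mul_inv_cancel_right] at h5

/-- the unipotent element `y` -/
def yy (b p r s t d : F) (h : b * r - b * p * d = 1) : Matrix.SpecialLinearGroup (Fin 3) F :=
  ⟨!![0, p, r; b, s, t; 0, 1, d], by rw [det_fin_three]; simp; linear_combination h⟩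

theorem main_top (l m b p r s t d : F) (hlm : l * l * m = 1)
    (hl3 : l ^ 3 ≠ 1) (hgen : Subfield.closure {l ^ 3} = ⊤) (hb : b ≠ 0) (hr : r ≠ 0)
    (e3 : b * r - b * p * d = 1) (H : Subgroup (Matrix.SpecialLinearGroup (Fin 3) F))
    (hy : yy b p r s t d e3 ∈ H) (hz : te l⁻¹ * hd l m hlm ∈ H) : H = ⊤ := by
  have hl : l ≠ 0 := by
    rintro rfl
    simp at hlm
  have hm : m ≠ 0 := by
    rintro rfl
    simp at hlm
  obtain ⟨hh, hT⟩ := mem_parts l m hlm _ hz
  set y := yy b p r s t d e3 with hydef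
  -- the conjugate of `T` by `y`
  have h1 : xe (-(l⁻¹ * b ^ 2 * d)) (l⁻¹ * b ^ 2 * r) ∈ H := by
    have h2 : y * te l⁻¹ * y⁻¹ ∈ H := H.mul_mem (H.mul_mem hy hT) (H.inv_mem hy)
    have h3 : (![-(b * d), 0, r * b] : Fin 3 → F) ᵥ* (y : Matrix (Fin 3) (Fin 3) F) = ![0, 1, 0] := by
      ext i
      fin_cases i
      · simp [hydef, yy, vecMul, dotProduct, Fin.sum_univ_three]
      · simp [hydef, yy, vecMul, dotProduct, Fin.sum_univ_three]
        linear_combination e3
      · simp [hydef, yy, vecMul, dotProduct, Fin.sum_univ_three]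
        ring
    rw [te, conj_tr y _ _ _ _ h3] at h2
    have h4 : (y : Matrix (Fin 3) (Fin 3) F) *ᵥ ![l⁻¹, 0, 0] = (l⁻¹ * b) • ![0, 1, 0] := by
      ext i
      fin_cases i
      · simp [hydef, yy, mulVec, dotProduct, Fin.sum_univ_three]
      · simp [hydef, yy, mulVec, dotProduct, Fin.sum_univ_three]
        ring
      · simp [hydef, yy, mulVec, dotProduct, Fin.sum_univ_three]
    have h5 : (l⁻¹ * b) • (![-(b * d), 0, r * b] : Fin 3 → F) =
        ![-(l⁻¹ * b ^ 2 * d), 0, l⁻¹ * b ^ 2 * r] := by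
      ext i
      fin_cases i
      · simp
        ring
      · simp
      · simp
        ring
    rw [tr_congr h4 rfl, ← tr_smul_right _ _ _ (by simp), tr_congr rfl h5] at h2
    exact h2
  -- conjugation by `h`
  have hθ : ∀ a c : F, xe a c ∈ H → xe a (l ^ 3 * c) ∈ H := by
    intro a c hac
    have h2 : hd l m hlm * xe a c * (hd l m hlm)⁻¹ ∈ H := H.mul_mem (H.mul_mem hh hac) (H.inv_mem hh)
    have h3 : (![a * l⁻¹, 0, c * m⁻¹] : Fin 3 → F) ᵥ* (hd l m hlm : Matrix (Fin 3) (Fin 3) F) = ![a, 0, c] := by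
      ext i
      fin_cases i <;> simp [hd, vecMul, dotProduct, Fin.sum_univ_three, hl, hm]
    rw [xe, conj_tr _ _ _ _ _ h3] at h2
    have h4 : (hd l m hlm : Matrix (Fin 3) (Fin 3) F) *ᵥ ![0, 1, 0] = l • ![0, 1, 0] := by
      ext i
      fin_cases i <;> simp [hd, mulVec, dotProduct, Fin.sum_univ_three]
    have h5 : m⁻¹ = l * l := by
      rw [inv_eq_iff_eq_inv]
      exact eq_inv_of_mul_eq_one_right hlm
    have h6 : l • (![a * l⁻¹, 0, c * m⁻¹] : Fin 3 → F) = ![a, 0, l ^ 3 * c] := by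
      ext i
      fin_cases i
      · simp
        field_simp
      · simp
      · simp [h5]
        ring
    rw [tr_congr h4 rfl, ← tr_smul_right _ _ _ (by simp), tr_congr rfl h6] at h2
    exact h2
  -- the root group with centre `e₁` and axis `e₂`
  let S : AddSubgroup F :=
    { carrier := {c | xe 0 c ∈ H}
      add_mem' := by
        intro c c' hc hc'
        have := H.mul_mem hc hc'
        rwa [xe_mul, add_zero] at this
      zero_mem' := by
        change xe 0 0 ∈ H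
        rw [xe_zero]
        exact H.one_mem
      neg_mem' := by
        intro c hc
        have := H.inv_mem hc
        rwa [xe_inv, neg_zero] at this }
  have h23 : ∀ c : F, xe 0 c ∈ H := by
    refine addSubgroup_eq_top S (l ^ 3) hgen (fun c hc => hθ 0 c hc)
      (c₀ := (l ^ 3 - 1) * (l⁻¹ * b ^ 2 * r)) ?_ ?_
    · have h2 := H.mul_mem (hθ _ _ h1) (H.inv_mem h1)
      rw [xe_inv, xe_mul, add_neg_cancel] at h2
      change xe 0 _ ∈ H
      have h3 : (l ^ 3 - 1) * (l⁻¹ * b ^ 2 * r) = l ^ 3 * (l⁻¹ * b ^ 2 * r) + -(l⁻¹ * b ^ 2 * r) := by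
        ring
      rw [h3]
      exact h2
    · refine mul_ne_zero (sub_ne_zero.2 hl3) (mul_ne_zero (mul_ne_zero (inv_ne_zero hl) (pow_ne_zero 2 hb)) hr)
  -- the axis `e₂`
  have hax : (![0, 0, 1] : Fin 3 → F) ∈ axisSpace H := by
    have h13 : ∀ c : F, tr ![l⁻¹, 0, 0] ![0, 0, c] (by simp) ∈ H := by
      intro c
      have h2 : te l⁻¹ * xe 0 c * (te l⁻¹)⁻¹ ∈ H := H.mul_mem (H.mul_mem hT (h23 c)) (H.inv_mem hT)
      have h3 : (![0, 0, c] : Fin 3 → F) ᵥ* (te l⁻¹ : Matrix (Fin 3) (Fin 3) F) = ![0, 0, c] := by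
        rw [te, coe_tr, vecMul_add, vecMul_one, vecMul_vecMulVec]
        simp
      rw [xe, conj_tr _ _ _ _ _ h3] at h2
      have h4 : (te l⁻¹ : Matrix (Fin 3) (Fin 3) F) *ᵥ ![0, 1, 0] = ![l⁻¹, 0, 0] + ![0, 1, 0] := by
        rw [te, tr_mulVec]
        ext i
        fin_cases i <;> simp
      rw [tr_congr h4 rfl, ← tr_mul_same_axis _ _ _ (by simp) (by simp)] at h2
      have h5 := H.mul_mem h2 (H.inv_mem (h23 c))
      rw [xe, mul_inv_cancel_right] at h5
      exact h5
    intro w hw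
    have hw2 : w 2 = 0 := by
      simpa [dotProduct, Fin.sum_univ_three] using hw
    have h2 := H.mul_mem (h13 (l * w 0)) (h23 (w 1))
    have h3 : tr w ![0, 0, 1] hw = tr ![l⁻¹, 0, 0] ![0, 0, l * w 0] (by simp) * xe 0 (w 1) := by
      apply Subtype.ext
      rw [Matrix.SpecialLinearGroup.coe_mul, xe, coe_tr, coe_tr, coe_tr]
      ext i j
      fin_cases i <;> fin_cases j <;>
        simp [Matrix.mul_apply, Fin.sum_univ_three, vecMulVec_apply, Matrix.one_apply, hw2, hl]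
    rw [h3]
    exact h2
  apply Cfsg.Agent.H106.SLAxis.eq_top
  have hax1 := vecMul_mem hax hy
  have hax2 := vecMul_mem hax1 hy
  rw [eq_top_iff]
  intro x _
  have hx : x = (x 0 * b⁻¹) • (((![0, 0, 1] : Fin 3 → F) ᵥ* (yy b p r s t d e3 : Matrix (Fin 3) (Fin 3) F)) ᵥ*
        (yy b p r s t d e3 : Matrix (Fin 3) (Fin 3) F)) +
      (x 1 - x 0 * b⁻¹ * (s + d)) • ((![0, 0, 1] : Fin 3 → F) ᵥ* (yy b p r s t d e3 : Matrix (Fin 3) (Fin 3) F)) +
      (x 2 - x 0 * b⁻¹ * (t + d ^ 2) - (x 1 - x 0 * b⁻¹ * (s + d)) * d) • ![0, 0, 1] := by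
    ext i
    fin_cases i
    · simp [yy, vecMul, dotProduct, Fin.sum_univ_three, hb]
    · simp [yy, vecMul, dotProduct, Fin.sum_univ_three]
      try ring
    · simp [yy, vecMul, dotProduct, Fin.sum_univ_three]
      try ring
  rw [hx]
  exact Submodule.add_mem _ (Submodule.add_mem _ (Submodule.smul_mem _ _ hax2)
    (Submodule.smul_mem _ _ hax1)) (Submodule.smul_mem _ _ hax)

theorem good_of_params (l m b p r s t d : F) (hlm : l * l * m = 1)
    (hl3 : l ^ 3 ≠ 1) (hgen : Subfield.closure {l ^ 3} = ⊤) (hb : b ≠ 0) (hr : r ≠ 0)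
    (e1 : s + d = 3) (e2 : -(p * b) + s * d - t = 3) (e3 : b * r - b * p * d = 1)
    (e4 : b + s * l + d * m = 3)
    (e5 : -(p * b * l ^ 2) + ((b + s * l) * (d * m) - t * m * l) = 3) : Good F := by
  have hl : l ≠ 0 := by
    rintro rfl
    simp at hlm
  have hm : m ≠ 0 := by
    rintro rfl
    simp at hlm
  set y := yy b p r s t d e3 with hydef
  set z := te l⁻¹ * hd l m hlm with hzdef
  have hzc : (z : Matrix (Fin 3) (Fin 3) F) = !![l, 1, 0; 0, l, 0; 0, 0, m] := by
    rw [hzdef, Matrix.SpecialLinearGroup.coe_mul, te, coe_tr]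
    ext i j
    fin_cases i <;> fin_cases j <;>
      simp [Matrix.mul_apply, Fin.sum_univ_three, vecMulVec_apply, Matrix.one_apply, hd, hl]
  have hyc : (y : Matrix (Fin 3) (Fin 3) F) = !![0, p, r; b, s, t; 0, 1, d] := rfl
  have hvc : ((y * z : Matrix.SpecialLinearGroup (Fin 3) F) : Matrix (Fin 3) (Fin 3) F) =
      !![0, p * l, r * m; b * l, b + s * l, t * m; 0, l, d * m] := by
    rw [Matrix.SpecialLinearGroup.coe_mul, hzc, hyc]
    ext i j
    fin_cases i <;> fin_cases j <;> simp [Matrix.mul_apply, Fin.sum_univ_three]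
  have hy3 : ((y : Matrix (Fin 3) (Fin 3) F) - 1) ^ 3 = 0 := by
    apply sub_one_cube _ _ _ y.2
    · rw [hyc]
      simp
      linear_combination e1
    · rw [hyc]
      simp
      linear_combination e2
  have hv3 : (((y * z : Matrix.SpecialLinearGroup (Fin 3) F) : Matrix (Fin 3) (Fin 3) F) - 1) ^ 3 = 0 := by
    apply sub_one_cube _ _ _ (y * z).2
    · rw [hvc]
      simp
      linear_combination e4
    · rw [hvc]
      simp
      linear_combination e5
  -- the vectors `(y - 1)^i e₀` and `(v - 1)^i e₀`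
  have hy1 : ((y : Matrix (Fin 3) (Fin 3) F) - 1) *ᵥ ![1, 0, 0] = ![-1, b, 0] := by
    rw [hyc]
    ext i
    fin_cases i <;> simp [mulVec, dotProduct, Fin.sum_univ_three]
  have hy2 : ((y : Matrix (Fin 3) (Fin 3) F) - 1) *ᵥ ![-1, b, 0] = ![1 + b * p, b * (s - 2), b] := by
    rw [hyc]
    ext i
    fin_cases i
    · simp [mulVec, dotProduct, Fin.sum_univ_three]
      ring
    · simp [mulVec, dotProduct, Fin.sum_univ_three]
      ring
    · simp [mulVec, dotProduct, Fin.sum_univ_three]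
  have hy0 : ((y : Matrix (Fin 3) (Fin 3) F) - 1) *ᵥ ![1 + b * p, b * (s - 2), b] = 0 := by
    rw [← hy2, ← hy1, mulVec_mulVec, mulVec_mulVec, ← pow_two, ← pow_succ, hy3, zero_mulVec]
  have hv1 : (((y * z : Matrix.SpecialLinearGroup (Fin 3) F) : Matrix (Fin 3) (Fin 3) F) - 1) *ᵥ ![1, 0, 0] =
      ![-1, b * l, 0] := by
    rw [hvc]
    ext i
    fin_cases i <;> simp [mulVec, dotProduct, Fin.sum_univ_three]
  have hv2 : (((y * z : Matrix.SpecialLinearGroup (Fin 3) F) : Matrix (Fin 3) (Fin 3) F) - 1) *ᵥ ![-1, b * l, 0] =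
      ![1 + p * b * l ^ 2, b * l * (b + s * l - 2), b * l ^ 2] := by
    rw [hvc]
    ext i
    fin_cases i
    · simp [mulVec, dotProduct, Fin.sum_univ_three]
      ring
    · simp [mulVec, dotProduct, Fin.sum_univ_three]
      ring
    · simp [mulVec, dotProduct, Fin.sum_univ_three]
      ring
  have hv0 : (((y * z : Matrix.SpecialLinearGroup (Fin 3) F) : Matrix (Fin 3) (Fin 3) F) - 1) *ᵥ
      ![1 + p * b * l ^ 2, b * l * (b + s * l - 2), b * l ^ 2] = 0 := by
    rw [← hv2, ← hv1, mulVec_mulVec, mulVec_mulVec, ← pow_two, ← pow_succ, hv3, zero_mulVec]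
  -- normal forms
  obtain ⟨g, hg⟩ := exists_conj y (y * z) !![1, -1, 1 + b * p; 0, b, b * (s - 2); 0, 0, b]
    (l⁻¹ • !![1, -1, 1 + p * b * l ^ 2; 0, b * l, b * l * (b + s * l - 2); 0, 0, b * l ^ 2])
    !![1, 0, 0; 1, 1, 0; 0, 1, 1] (by
      rw [hyc] at hy0 ⊢
      have k0 := congrFun hy0 0
      have k1 := congrFun hy0 1
      have k2 := congrFun hy0 2
      simp [mulVec, dotProduct, Fin.sum_univ_three] at k0 k1 k2
      ext i j
      fin_cases i <;> fin_cases j <;> simp [Matrix.mul_apply, Fin.sum_univ_three]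
      all_goals first
        | ring1
        | linear_combination k0
        | linear_combination k1
        | linear_combination k2)
    (by
      rw [Matrix.mul_smul, Matrix.smul_mul]
      congr 1
      rw [hvc] at hv0 ⊢
      have k0 := congrFun hv0 0
      have k1 := congrFun hv0 1
      have k2 := congrFun hv0 2
      simp [mulVec, dotProduct, Fin.sum_univ_three] at k0 k1 k2
      ext i j
      fin_cases i <;> fin_cases j <;> simp [Matrix.mul_apply, Fin.sum_univ_three]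
      all_goals first
        | ring1
        | linear_combination k0
        | linear_combination k1
        | linear_combination k2)
    (by
      rw [det_smul, det_fin_three, det_fin_three]
      simp
      field_simp)
    (by
      rw [det_fin_three]
      simp [hb])
  refine ⟨y, g, ⟨3, hy3⟩, ?_, ?_⟩
  · intro h0
    have h1 : (((y : Matrix (Fin 3) (Fin 3) F) - 1) ^ (3 - 1)) *ᵥ ![1, 0, 0] = ![1 + b * p, b * (s - 2), b] := by
      rw [show 3 - 1 = 2 from rfl, pow_two, ← mulVec_mulVec, hy1, hy2]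
    rw [h0, zero_mulVec] at h1
    have h2 := congrFun h1 2
    simp at h2
    exact hb h2.symm
  · rw [← hg]
    refine main_top l m b p r s t d hlm hl3 hgen hb hr e3 _ (Subgroup.subset_closure (Set.mem_insert _ _)) ?_
    have h1 : y ∈ Subgroup.closure {y, y * z} := Subgroup.subset_closure (by simp)
    have h2 : y * z ∈ Subgroup.closure {y, y * z} := Subgroup.subset_closure (by simp)
    have h3 := mul_mem (inv_mem h1) h2
    rwa [inv_mul_cancel_left] at h3

theorem good_odd (h2 : (2 : F) ≠ 0) (l : F) (hl : l ≠ 0) (hl3 : l ^ 3 ≠ 1)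
    (hgen : Subfield.closure {l ^ 3} = ⊤) : Good F := by
  have hl1 : l - 1 ≠ 0 := by
    intro h
    apply hl3
    rw [sub_eq_zero.1 h, one_pow]
  have hσ : l ^ 2 + l + 1 ≠ 0 := by
    intro h
    apply hl3
    linear_combination (l - 1) * h
  obtain ⟨σ, hσd⟩ : ∃ σ, σ = l ^ 2 + l + 1 := ⟨_, rfl⟩
  obtain ⟨k, hkd⟩ : ∃ k, k = l - 1 := ⟨_, rfl⟩
  rw [← hσd] at hσ
  rw [← hkd] at hl1
  refine good_of_params l (l⁻¹ * l⁻¹) (k ^ 3 / l)
    ((l ^ 2 - 5 * l + 1) / (σ * k ^ 3)) (2 * l / (σ * k))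
    (3 - l) ((5 * l - l ^ 2 - 1) / (l * σ) + (3 - l) * l - 3) l ?_ hl3 hgen ?_ ?_ ?_ ?_ ?_ ?_ ?_
  · field_simp
  · exact div_ne_zero (pow_ne_zero 3 hl1) hl
  · exact div_ne_zero (mul_ne_zero h2 hl) (mul_ne_zero hσ hl1)
  · ring
  · field_simp
    ring
  · field_simp
    rw [hσd, hkd]
    ring
  · field_simp
    rw [hkd]
    ring
  · field_simp
    rw [hσd, hkd]
    ring

theorem good_even (h2 : (2 : F) = 0) (l : F) (hl : l ≠ 0) (hl3 : l ^ 3 ≠ 1)
    (hgen : Subfield.closure {l ^ 3} = ⊤) : Good F := by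
  have hl1 : l + 1 ≠ 0 := by
    intro h
    apply hl3
    have h3 : l = 1 := by linear_combination h - h2
    rw [h3, one_pow]
  have hσ : l ^ 2 + l + 1 ≠ 0 := by
    intro h
    apply hl3
    linear_combination (l - 1) * h
  obtain ⟨σ, hσd⟩ : ∃ σ, σ = l ^ 2 + l + 1 := ⟨_, rfl⟩
  obtain ⟨k, hkd⟩ : ∃ k, k = l + 1 := ⟨_, rfl⟩
  rw [← hσd] at hσ
  rw [← hkd] at hl1
  refine good_of_params l (l⁻¹ * l⁻¹) (k ^ 2 / l ^ 2)
    ((l ^ 3 + l + 1) / (l * σ * k ^ 2)) (k ^ 3 / (l * σ))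
    0 ((l ^ 3 + l + 1) / (l ^ 3 * σ) + 1) 1 ?_ hl3 hgen ?_ ?_ ?_ ?_ ?_ ?_ ?_
  · field_simp
  · exact div_ne_zero (pow_ne_zero 2 hl1) (pow_ne_zero 2 hl)
  · exact div_ne_zero (pow_ne_zero 3 hl1) (mul_ne_zero hl hσ)
  · linear_combination -h2
  · field_simp
    linear_combination (-(l ^ 3 + l + 1) - 2 * l ^ 3 * σ) * h2
  · field_simp
    rw [hσd, hkd]
    linear_combination (2 * l ^ 4 + 4 * l ^ 3 + 5 * l ^ 2 + 2 * l) * h2
  · field_simp
    rw [hkd]
    linear_combination (-l ^ 2 + l + 1) * h2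
  · field_simp
    rw [hσd, hkd]
    linear_combination (-2 * l ^ 6 - 2 * l ^ 5 - 2 * l ^ 4 + 2 * l ^ 2 + l) * h2

/-- the field generator -/
theorem exists_gen (h2 : Fintype.card F ≠ 2) (h4 : Fintype.card F ≠ 4) :
    ∃ l : F, l ≠ 0 ∧ l ^ 3 ≠ 1 ∧ Subfield.closure {l ^ 3} = ⊤ := by
  classical
  obtain ⟨u, hu⟩ := IsCyclic.exists_generator (α := Fˣ)
  have hq : 2 ≤ Fintype.card F := Fintype.one_lt_card
  have hou : orderOf u = Fintype.card F - 1 := by
    rw [orderOf_eq_card_of_forall_mem_zpowers hu, Nat.card_eq_fintype_card, Fintype.card_units]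
  have hgcd : Nat.gcd (orderOf u) 3 ≤ 3 := Nat.gcd_le_right _ (by norm_num)
  have ho3 : orderOf (u ^ 3) * Nat.gcd (orderOf u) 3 = Fintype.card F - 1 := by
    rw [orderOf_pow, hou]
    exact Nat.div_mul_cancel (Nat.gcd_dvd_left _ _)
  refine ⟨u, u.ne_zero, ?_, ?_⟩
  · intro h
    have h3 : u ^ 3 = 1 := Units.ext (by simpa using h)
    rw [h3, orderOf_one, one_mul] at ho3
    have h5 : Nat.gcd (orderOf u) 3 ∣ 3 := Nat.gcd_dvd_right _ _
    rw [ho3] at h5
    have h6 := (Nat.dvd_prime Nat.prime_three).1 h5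
    omega
  · by_contra hne
    set K := Subfield.closure {((u : F)) ^ 3} with hK
    have hmem : (u : F) ^ 3 ∈ K := Subfield.subset_closure rfl
    -- the size of `K`
    have hcard : Fintype.card F = Fintype.card K ^ Module.finrank K F := Module.card_eq_pow_finrank
    have hfin : 2 ≤ Module.finrank K F := by
      by_contra hlt
      have h0 : 0 < Module.finrank K F := Module.finrank_pos
      have h1 : Module.finrank K F = 1 := by omega
      rw [h1, pow_one] at hcard
      apply hne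
      have hbij : Function.Bijective (K.subtype : K → F) :=
        (Fintype.bijective_iff_injective_and_card _).2 ⟨Subtype.val_injective, hcard.symm⟩
      rw [eq_top_iff]
      intro x _
      obtain ⟨y, hy⟩ := hbij.2 x
      rw [← hy]
      exact y.2
    have hk : orderOf (u ^ 3) ≤ Fintype.card K - 1 := by
      have hne0 : (⟨(u : F) ^ 3, hmem⟩ : K) ≠ 0 := by
        intro h
        have h1 : (u : F) ^ 3 = 0 := congrArg Subtype.val h
        exact pow_ne_zero 3 u.ne_zero h1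
      let w : Kˣ := Units.mk0 ⟨(u : F) ^ 3, hmem⟩ hne0
      have hw : Units.map (K.subtype : K →* F) w = u ^ 3 := by
        apply Units.ext
        simp [w]
      have hinj : Function.Injective (Units.map (K.subtype : K →* F)) :=
        Units.map_injective Subtype.val_injective
      have h1 : orderOf (u ^ 3) = orderOf w := by
        rw [← hw, orderOf_injective _ hinj]
      rw [h1, ← Fintype.card_units]
      exact orderOf_le_card_univ
    have hk2 : 2 ≤ Fintype.card K := Fintype.one_lt_card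
    have h1 : Fintype.card K ^ 2 ≤ Fintype.card F := by
      rw [hcard]
      exact Nat.pow_le_pow_right (by omega) hfin
    have h3 : Fintype.card F - 1 ≤ (Fintype.card K - 1) * 3 := by
      rw [← ho3]
      exact Nat.mul_le_mul hk hgcd
    obtain ⟨k, hkk⟩ : ∃ k, Fintype.card K = k + 2 := ⟨Fintype.card K - 2, by omega⟩
    rw [hkk] at h1 h3
    have h3' : Fintype.card F ≤ 3 * k + 4 := by omega
    have h5 : k = 0 := by
      by_contra hk0
      have : 1 ≤ k := by omega
      nlinarith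
    subst h5
    omega

end Main

/-- transport along a field isomorphism -/
theorem Good.map {K F : Type*} [Field K] [Field F] (e : K ≃+* F) (h : Good K) : Good F := by
  obtain ⟨u, g, h1, h2, h3⟩ := h
  let f : Matrix.SpecialLinearGroup (Fin 3) K →* Matrix.SpecialLinearGroup (Fin 3) F :=
    Matrix.SpecialLinearGroup.map (e : K →+* F)
  have hf : ∀ x : Matrix.SpecialLinearGroup (Fin 3) K,
      ((f x : Matrix.SpecialLinearGroup (Fin 3) F) : Matrix (Fin 3) (Fin 3) F) =
        (e : K →+* F).mapMatrix (x : Matrix (Fin 3) (Fin 3) K) := fun x => rfl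
  have hf1 : ((f u : Matrix.SpecialLinearGroup (Fin 3) F) : Matrix (Fin 3) (Fin 3) F) - 1 =
      (e : K →+* F).mapMatrix ((u : Matrix (Fin 3) (Fin 3) K) - 1) := by
    rw [hf, map_sub, map_one]
  have hsurj : Function.Surjective f := by
    intro x
    refine ⟨Matrix.SpecialLinearGroup.map (e.symm : F →+* K) x, ?_⟩
    apply Subtype.ext
    ext i j
    change e (e.symm ((x : Matrix (Fin 3) (Fin 3) F) i j)) = _
    simp
  refine ⟨f u, f g, ?_, ?_, ?_⟩
  · rw [hf1]
    exact h1.map _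
  · rw [hf1, ← map_pow]
    intro h0
    apply h2
    have hinj : Function.Injective ((e : K →+* F).mapMatrix : Matrix (Fin 3) (Fin 3) K →+* _) := by
      intro A B hAB
      ext i j
      have := congrFun (congrFun hAB i) j
      simpa using this
    apply hinj
    rw [h0, map_zero]
  · have h4 := congrArg (Subgroup.map f) h3
    rw [MonoidHom.map_closure, Subgroup.map_top_of_surjective f hsurj, Set.image_pair] at h4
    simpa using h4


/-- the matrix `A` belongs to the subgroup `H` -/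
def InH {K : Type*} [Field K] (H : Subgroup (Matrix.SpecialLinearGroup (Fin 3) K))
    (A : Matrix (Fin 3) (Fin 3) K) : Prop := ∃ g ∈ H, (g : Matrix (Fin 3) (Fin 3) K) = A

theorem InH.mul {K : Type*} [Field K] {H : Subgroup (Matrix.SpecialLinearGroup (Fin 3) K)}
    {A B : Matrix (Fin 3) (Fin 3) K} (hA : InH H A) (hB : InH H B) : InH H (A * B) := by
  obtain ⟨g, hg, rfl⟩ := hA
  obtain ⟨k, hk, rfl⟩ := hB
  exact ⟨g * k, H.mul_mem hg hk, rfl⟩

theorem InH.congr {K : Type*} [Field K] {H : Subgroup (Matrix.SpecialLinearGroup (Fin 3) K)}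
    {A B : Matrix (Fin 3) (Fin 3) K} (hA : InH H A) (h : A = B) : InH H B := h ▸ hA

theorem InH.one {K : Type*} [Field K] {H : Subgroup (Matrix.SpecialLinearGroup (Fin 3) K)} :
    InH H 1 := ⟨1, H.one_mem, rfl⟩

theorem InH.mem {K : Type*} [Field K] {H : Subgroup (Matrix.SpecialLinearGroup (Fin 3) K)}
    {g : Matrix.SpecialLinearGroup (Fin 3) K} (h : InH H (g : Matrix (Fin 3) (Fin 3) K)) : g ∈ H := by
  obtain ⟨k, hk, hkg⟩ := h
  have : k = g := Subtype.ext hkg
  rwa [← this]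

/-- the root groups with axis `e₂` and one cyclic element generate everything -/
theorem top_of_roots {K : Type*} [Field K] (H : Subgroup (Matrix.SpecialLinearGroup (Fin 3) K))
    (h13 : ∀ c : K, InH H !![1, 0, c; 0, 1, 0; 0, 0, 1])
    (h23 : ∀ c : K, InH H !![1, 0, 0; 0, 1, c; 0, 0, 1]) (y : K)
    (hv : InH H !![1, 0, 0; 1, 1, 0; y, 1, 1]) (h2 : (2 : K) = 0) : H = ⊤ := by
  obtain ⟨v, hvH, hvc⟩ := hv
  have hax : (![0, 0, 1] : Fin 3 → K) ∈ axisSpace H := by
    intro x hx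
    have hx2 : x 2 = 0 := by
      simpa [dotProduct, Fin.sum_univ_three] using hx
    refine (((h13 (x 0)).mul (h23 (x 1))).congr ?_).mem
    rw [coe_tr]
    ext i j
    fin_cases i <;> fin_cases j <;>
      simp [Matrix.mul_apply, Fin.sum_univ_three, vecMulVec_apply, Matrix.one_apply, hx2]
  apply Cfsg.Agent.H106.SLAxis.eq_top
  have hax1 := vecMul_mem hax hvH
  have hax2 := vecMul_mem hax1 hvH
  rw [hvc] at hax1 hax2
  rw [eq_top_iff]
  intro x _
  have hx : x = (x 0 - x 1 * y) • (((![0, 0, 1] : Fin 3 → K) ᵥ* !![1, 0, 0; 1, 1, 0; y, 1, 1]) ᵥ*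
        !![1, 0, 0; 1, 1, 0; y, 1, 1]) +
      (x 1) • ((![0, 0, 1] : Fin 3 → K) ᵥ* !![1, 0, 0; 1, 1, 0; y, 1, 1]) +
      (x 2 - (x 0 - x 1 * y) - x 1) • ![0, 0, 1] := by
    ext i
    fin_cases i
    · simp [vecMul, dotProduct, Fin.sum_univ_three]
      linear_combination (- (x 0 - x 1 * y) * y) * h2
    · simp [vecMul, dotProduct, Fin.sum_univ_three]
      exact Or.inr (by linear_combination h2)
    · simp [vecMul, dotProduct, Fin.sum_univ_three]
  rw [hx]
  exact Submodule.add_mem _ (Submodule.add_mem _ (Submodule.smul_mem _ _ hax2)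
    (Submodule.smul_mem _ _ hax1)) (Submodule.smul_mem _ _ hax)

theorem good_two : Good (ZMod 2) := by
  let u : Matrix.SpecialLinearGroup (Fin 3) (ZMod 2) := ⟨!![1, 1, 0; 0, 1, 1; 0, 0, 1], by decide⟩
  let v : Matrix.SpecialLinearGroup (Fin 3) (ZMod 2) := ⟨!![1, 0, 0; 1, 1, 0; 0, 1, 1], by decide⟩
  obtain ⟨g, hg⟩ := exists_conj u v !![0, 0, 1; 0, 1, 0; 1, 0, 0] 1 !![1, 0, 0; 1, 1, 0; 0, 1, 1]
    (by decide) (by decide) (by decide) (by decide)
  refine ⟨u, g, ⟨3, by decide⟩, by decide, ?_⟩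
  rw [← hg]
  set H := Subgroup.closure {u, v} with hH
  have h0 : InH H !![1, 1, 0; 0, 1, 1; 0, 0, 1] := ⟨u, Subgroup.subset_closure (by simp), rfl⟩
  have h1 : InH H !![1, 0, 0; 1, 1, 0; 0, 1, 1] := ⟨v, Subgroup.subset_closure (by simp), rfl⟩
  have a0 : InH H !![1, 1, 0; 1, 0, 1; 0, 1, 0] := (h1.mul h0).congr (by decide)
  have a1 : InH H !![1, 0, 1; 1, 1, 1; 0, 1, 1] := (a0.mul h0).congr (by decide)
  have a2 : InH H !![1, 1, 1; 0, 0, 1; 1, 0, 1] := (a1.mul h1).congr (by decide)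
  have a3 : InH H !![1, 0, 0; 0, 0, 1; 1, 1, 1] := (a2.mul h0).congr (by decide)
  have a4 : InH H !![1, 0, 0; 0, 1, 1; 0, 0, 1] := (a3.mul h1).congr (by decide)
  have d13 : InH H !![1, 0, 1; 0, 1, 0; 0, 0, 1] := (h0.mul h0).congr (by decide)
  refine top_of_roots H ?_ ?_ 0 h1 (by decide)
  · intro c
    have hc : c = 0 ∨ c = 1 := by revert c; decide
    rcases hc with rfl | rfl
    · exact InH.one.congr (by decide)
    · exact d13
  · intro c
    have hc : c = 0 ∨ c = 1 := by revert c; decide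
    rcases hc with rfl | rfl
    · exact InH.one.congr (by decide)
    · exact a4

open Cfsg.Agent.Lib.FieldFour in
theorem good_four : Good F4 := by
  let u : Matrix.SpecialLinearGroup (Fin 3) F4 := ⟨!![1, 1, 0; 0, 1, 1; 0, 0, 1], by decide⟩
  let v : Matrix.SpecialLinearGroup (Fin 3) F4 := ⟨!![1, 0, 0; 1, 1, 0; F4.w, 1, 1], by decide⟩
  obtain ⟨g, hg⟩ := exists_conj u v !![0, 0, 1; 0, 1, 0; 1, 0, 0] !![1, 0, 0; 0, 1, 0; 0, F4.w, 1]
    !![1, 0, 0; 1, 1, 0; 0, 1, 1]
    (by decide) (by decide) (by decide) (by decide)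
  refine ⟨u, g, ⟨3, by decide⟩, by decide, ?_⟩
  rw [← hg]
  set H := Subgroup.closure {u, v} with hH
  have hu : u ∈ H := Subgroup.subset_closure (by simp)
  have hv : v ∈ H := Subgroup.subset_closure (by simp)
  have h0 : InH H !![1, 1, 0; 0, 1, 1; 0, 0, 1] := ⟨u, hu, rfl⟩
  have h1 : InH H !![1, 0, 0; 1, 1, 0; F4.w, 1, 1] := ⟨v, hv, rfl⟩
  have h2 : InH H !![1, 1, 1; 0, 1, 1; 0, 0, 1] := ((h0.mul h0).mul h0).congr (by decide)
  have h3 : InH H !![1, 0, 0; 1, 1, 0; F4.v, 1, 1] := ((h1.mul h1).mul h1).congr (by decide)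
  have a0 : InH H !![0, 1, 0; F4.v, 0, 1; F4.w, 1, 1] := (h0.mul h1).congr (by decide)
  have a1 : InH H !![1, 1, 0; 1, 1, 1; 1, 0, 1] := (a0.mul h1).congr (by decide)
  have a2 : InH H !![1, 0, 1; 1, 0, 0; 1, 1, 1] := (a1.mul h0).congr (by decide)
  have a3 : InH H !![1, 1, 1; 1, 1, 0; 1, 0, 0] := (a2.mul h0).congr (by decide)
  have a4 : InH H !![F4.v, 0, 1; 0, 1, 0; 1, 0, 0] := (a3.mul h3).congr (by decide)
  have a5 : InH H !![F4.v, F4.v, 1; 0, 1, 1; 1, 1, 0] := (a4.mul h0).congr (by decide)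
  have a6 : InH H !![F4.v, 0, F4.w; 0, 1, 0; 1, 0, 1] := (a5.mul h0).congr (by decide)
  have a7 : InH H !![0, F4.w, F4.w; 1, 1, 0; F4.v, 1, 1] := (a6.mul h1).congr (by decide)
  have a8 : InH H !![1, 0, F4.w; 0, 1, 0; 0, 0, 1] := (a7.mul h1).congr (by decide)
  have h4 : InH H !![1, 0, F4.w; 0, 1, 0; 0, 0, 1] := a8
  have b0 : InH H !![1, 1, 0; 1, 0, 1; F4.w, F4.v, 0] := (h1.mul h0).congr (by decide)
  have b1 : InH H !![0, 1, 0; F4.w, 1, 1; 1, F4.v, 0] := (b0.mul h3).congr (by decide)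
  have b2 : InH H !![0, 1, 1; F4.w, F4.v, 0; 1, F4.w, F4.v] := (b1.mul h0).congr (by decide)
  have b3 : InH H !![F4.v, 0, 1; 1, F4.v, 0; F4.w, 1, F4.v] := (b2.mul h1).congr (by decide)
  have b4 : InH H !![F4.v, 0, 0; 1, F4.v, F4.w; F4.w, 1, 0] := (b3.mul h4).congr (by decide)
  have b5 : InH H !![F4.v, 0, 0; 1, 1, F4.w; F4.v, 1, 0] := (b4.mul h1).congr (by decide)
  have b6 : InH H !![F4.v, 0, 1; 1, 1, 0; F4.v, 1, 1] := (b5.mul h4).congr (by decide)
  have b7 : InH H !![1, 1, 1; 0, 1, 0; 0, 0, 1] := (b6.mul h1).congr (by decide)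
  have b8 : InH H !![1, 0, 0; 0, 1, 1; 0, 0, 1] := (b7.mul h0).congr (by decide)
  have h5 : InH H !![1, 0, 0; 0, 1, 1; 0, 0, 1] := b8
  have c0 : InH H !![1, 1, 0; 1, 0, 1; F4.w, F4.v, 0] := (h1.mul h0).congr (by decide)
  have c1 : InH H !![0, 1, 0; F4.w, 1, 1; 1, F4.v, 0] := (c0.mul h3).congr (by decide)
  have c2 : InH H !![0, 1, 1; F4.w, F4.v, F4.w; 1, F4.w, F4.w] := (c1.mul h2).congr (by decide)
  have c3 : InH H !![F4.v, 0, 1; F4.w, 1, F4.w; 0, 0, F4.w] := (c2.mul h1).congr (by decide)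
  have c4 : InH H !![1, 1, 1; 0, F4.v, F4.w; F4.v, F4.w, F4.w] := (c3.mul h1).congr (by decide)
  have c5 : InH H !![1, 0, 0; 0, F4.v, 1; F4.v, 1, 0] := (c4.mul h0).congr (by decide)
  have c6 : InH H !![1, 0, 0; 0, F4.v, F4.w; F4.v, 1, 1] := (c5.mul h5).congr (by decide)
  have c7 : InH H !![1, 0, 0; 0, 1, F4.w; 0, 0, 1] := (c6.mul h1).congr (by decide)
  have d13 : InH H !![1, 0, 1; 0, 1, 0; 0, 0, 1] := (h0.mul h0).congr (by decide)
  refine top_of_roots H ?_ ?_ F4.w h1 (by decide)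
  · intro c
    rcases c with _ | _ | _ | _
    · exact InH.one.congr (by decide)
    · exact d13.congr (by decide)
    · exact h4.congr (by decide)
    · exact (d13.mul h4).congr (by decide)
  · intro c
    rcases c with _ | _ | _ | _
    · exact InH.one.congr (by decide)
    · exact h5.congr (by decide)
    · exact c7.congr (by decide)
    · exact (h5.mul c7).congr (by decide)

/-- Let F be a finite field. Then SL_3(F) is generated by two conjugate regular unipotent elements: there are u with u − 1 nilpotent and (u − 1)² ≠ 0, and g, such that u and g u g⁻¹ generate SL_3(F). -/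
theorem result {F : Type*} [Field F] [Fintype F] :
    ∃ u g : Matrix.SpecialLinearGroup (Fin 3) F, IsNilpotent ((u : Matrix (Fin 3) (Fin 3) F) - 1) ∧ ((u : Matrix (Fin 3) (Fin 3) F) - 1) ^ (3 - 1) ≠ 0 ∧
      Subgroup.closure ({u, g * u * g⁻¹} : Set (Matrix.SpecialLinearGroup (Fin 3) F)) = ⊤ := by
  change Good F
  by_cases hF2 : Fintype.card F = 2
  · exact good_two.map (FiniteField.ringEquivOfCardEq ((ZMod.card 2).trans hF2.symm))
  by_cases hF4 : Fintype.card F = 4
  · exact good_four.map (Cfsg.Agent.Lib.FieldFour.equivOfCard hF4).symm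
  obtain ⟨l, hl, hl3, hgen⟩ := exists_gen hF2 hF4
  by_cases h2 : (2 : F) = 0
  · exact good_even h2 l hl hl3 hgen
  · exact good_odd h2 l hl hl3 hgen

end Cfsg.Agent.S2278
end
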