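import Mathlib
import Cfsg.Agent.H107.Prime
import Cfsg.Statements.S2279
set_option linter.all false

-- part: H107/ThreeBlock
section
/-!
Three homologies `1 + aᵢ ⊗ fᵢ` in triangular position: a transvection `1 + z a₂ ⊗ f₀` in the group
generated by the quotients of consecutive ones.
-/

set_option autoImplicit false

namespace Cfsg.Agent.H107.ThreeBlock

open Matrix SLHas

variable {n : ℕ} {F : Type*} [Field F]

/-- `1 + E X Φ` -/
def T (E : Matrix (Fin n) (Fin 3) F) (Φ : Matrix (Fin 3) (Fin n) F)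
    (X : Matrix (Fin 3) (Fin 3) F) : Matrix (Fin n) (Fin n) F := 1 + E * X * Φ

variable {E : Matrix (Fin n) (Fin 3) F} {Φ : Matrix (Fin 3) (Fin n) F}
  {G G' : Matrix (Fin 3) (Fin 3) F}

theorem T_mul (hG : Φ * E = G) (X Y : Matrix (Fin 3) (Fin 3) F) :
    T E Φ X * T E Φ Y = T E Φ (X + Y + X * G * Y) := by
  unfold T
  rw [← hG]
  simp only [Matrix.mul_add, Matrix.add_mul, Matrix.one_mul, Matrix.mul_one, Matrix.mul_assoc]
  abel

/-- the multiplicative form -/
def S (E : Matrix (Fin n) (Fin 3) F) (Φ : Matrix (Fin 3) (Fin n) F)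
    (G' M : Matrix (Fin 3) (Fin 3) F) : Matrix (Fin n) (Fin n) F := T E Φ (G' * (M - 1))

theorem S_mul (hG : Φ * E = G) (h : G * G' = 1) (M M' : Matrix (Fin 3) (Fin 3) F) :
    S E Φ G' M * S E Φ G' M' = S E Φ G' (M * M') := by
  unfold S
  rw [T_mul hG]
  congr 1
  have e1 : G' * (M - 1) * G * (G' * (M' - 1)) = G' * ((M - 1) * (M' - 1)) := by
    calc _ = G' * (M - 1) * (G * G') * (M' - 1) := by simp only [Matrix.mul_assoc]
      _ = _ := by rw [h, Matrix.mul_one, Matrix.mul_assoc]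
  rw [e1, ← Matrix.mul_add, ← Matrix.mul_add]
  congr 1
  simp only [Matrix.mul_sub, Matrix.sub_mul, Matrix.mul_one, Matrix.one_mul]
  abel

theorem S_of (h : G' * G = 1) {M X : Matrix (Fin 3) (Fin 3) F} (hM : M - 1 = G * X) :
    S E Φ G' M = T E Φ X := by
  unfold S
  rw [hM, ← Matrix.mul_assoc, h, Matrix.one_mul]

variable {H : Subgroup (Matrix.SpecialLinearGroup (Fin n) F)}

/-- membership -/
def InH (H : Subgroup (Matrix.SpecialLinearGroup (Fin n) F)) (E : Matrix (Fin n) (Fin 3) F)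
    (Φ : Matrix (Fin 3) (Fin n) F) (G' M : Matrix (Fin 3) (Fin 3) F) : Prop :=
  ∃ g ∈ H, (g : Matrix (Fin n) (Fin n) F) = S E Φ G' M

theorem InH.mul (hG : Φ * E = G) (h : G * G' = 1) {A B : Matrix (Fin 3) (Fin 3) F}
    (hA : InH H E Φ G' A) (hB : InH H E Φ G' B) : InH H E Φ G' (A * B) := by
  obtain ⟨a, ha, ea⟩ := hA
  obtain ⟨b, hb, eb⟩ := hB
  exact ⟨a * b, H.mul_mem ha hb, by rw [Matrix.SpecialLinearGroup.coe_mul, ea, eb, S_mul hG h]⟩

theorem InH.div (hG : Φ * E = G) (h : G * G' = 1) {A B C : Matrix (Fin 3) (Fin 3) F}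
    (hA : InH H E Φ G' A) (hB : InH H E Φ G' B) (hC : C * B = A) : InH H E Φ G' C := by
  obtain ⟨a, ha, ea⟩ := hA
  obtain ⟨b, hb, eb⟩ := hB
  refine ⟨a * b⁻¹, H.mul_mem ha (H.inv_mem hb), ?_⟩
  rw [Matrix.SpecialLinearGroup.coe_mul, ea, ← hC, ← S_mul hG h, ← eb, Matrix.mul_assoc,
    mul_inv_coe, Matrix.mul_one]

/-- **The three block lemma.** -/
theorem exists_transvection {a₀ a₁ a₂ f₀ f₁ f₂ : Fin n → F} {lam m κ ν : F}
    (hm : m = lam - 1) (hm0 : m ≠ 0) (hl : lam ≠ 0) (hκ : κ ≠ 0)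
    (h00 : f₀ ⬝ᵥ a₀ = m) (h01 : f₀ ⬝ᵥ a₁ = 0) (h02 : f₀ ⬝ᵥ a₂ = 0)
    (h10 : f₁ ⬝ᵥ a₀ = κ) (h11 : f₁ ⬝ᵥ a₁ = m) (h12 : f₁ ⬝ᵥ a₂ = 0)
    (h20 : f₂ ⬝ᵥ a₀ = ν) (h21 : f₂ ⬝ᵥ a₁ = κ) (h22 : f₂ ⬝ᵥ a₂ = m)
    {r₀ r₁ : Matrix.SpecialLinearGroup (Fin n) F} (hr₀ : r₀ ∈ H) (hr₁ : r₁ ∈ H)
    (e₀ : (r₀ : Matrix (Fin n) (Fin n) F) = (1 + vecMulVec a₀ f₀) * (1 - lam⁻¹ • vecMulVec a₁ f₁))
    (e₁ : (r₁ : Matrix (Fin n) (Fin n) F) = (1 + vecMulVec a₁ f₁) * (1 - lam⁻¹ • vecMulVec a₂ f₂))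
    (h3 : lam ^ 3 ≠ 1 ∨ (2 : F) = 0) :
    ∃ z : F, z ≠ 0 ∧ Has H a₂ (z • f₀) := by
  set E : Matrix (Fin n) (Fin 3) F := Matrix.of fun i j => (![a₀, a₁, a₂] j) i with hE
  set Φ : Matrix (Fin 3) (Fin n) F := Matrix.of ![f₀, f₁, f₂] with hΦ
  set G : Matrix (Fin 3) (Fin 3) F := !![m, 0, 0; κ, m, 0; ν, κ, m] with hG
  have hΦE : Φ * E = G := by
    ext i j
    rw [Matrix.mul_apply]
    change (![f₀, f₁, f₂] i) ⬝ᵥ (![a₀, a₁, a₂] j) = _
    fin_cases i <;> fin_cases j <;> simp [hG, h00, h01, h02, h10, h11, h12, h20, h21, h22]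
  have hdet : IsUnit G.det := by
    rw [isUnit_iff_ne_zero, hG, det_fin_three]
    simp [hm0]
  have hG1 : G * G⁻¹ = 1 := Matrix.mul_nonsing_inv G hdet
  have hG2 : G⁻¹ * G = 1 := Matrix.nonsing_inv_mul G hdet
  have hT : ∀ X : Matrix (Fin 3) (Fin 3) F, T E Φ X = 1 + ∑ i, ∑ j, X i j •
      vecMulVec (![a₀, a₁, a₂] i) (![f₀, f₁, f₂] j) := by
    intro X
    unfold T
    congr 1
    ext k l
    rw [Matrix.mul_apply]
    simp only [Matrix.mul_apply, Matrix.sum_apply, Matrix.add_apply, Matrix.smul_apply,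
      vecMulVec_apply, smul_eq_mul, Fin.sum_univ_three, hE, hΦ, Matrix.of_apply]
    ring
  -- the two elements
  have hM0 : InH H E Φ G⁻¹ !![lam, 0, 0; κ, lam⁻¹, 0; ν, -(lam⁻¹ * κ), 1] := by
    refine ⟨r₀, hr₀, ?_⟩
    rw [S_of hG2 (X := !![1, 0, 0; 0, -lam⁻¹, 0; 0, 0, 0]), hT, e₀]
    · rw [Matrix.mul_sub, Matrix.mul_one, Matrix.mul_smul, Matrix.add_mul, Matrix.one_mul,
        vecMulVec_mul_vecMulVec, h01, zero_smul, vecMulVec_zero]
      simp [Fin.sum_univ_three]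
      abel
    · rw [hG]
      ext i j
      fin_cases i <;> fin_cases j <;>
        simp [Matrix.mul_apply, Fin.sum_univ_three, Matrix.one_apply, hm] <;> field_simp <;> ring
  have hM1 : InH H E Φ G⁻¹ !![1, 0, 0; 0, lam, 0; 0, κ, lam⁻¹] := by
    refine ⟨r₁, hr₁, ?_⟩
    rw [S_of hG2 (X := !![0, 0, 0; 0, 1, 0; 0, 0, -lam⁻¹]), hT, e₁]
    · rw [Matrix.mul_sub, Matrix.mul_one, Matrix.mul_smul, Matrix.add_mul, Matrix.one_mul,
        vecMulVec_mul_vecMulVec, h12, zero_smul, vecMulVec_zero]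
      simp [Fin.sum_univ_three]
      abel
    · rw [hG]
      ext i j
      fin_cases i <;> fin_cases j <;>
        simp [Matrix.mul_apply, Fin.sum_univ_three, Matrix.one_apply, hm] <;> field_simp <;> ring
  -- the commutator
  set x : F := -(κ * m * lam⁻¹) with hx
  set y : F := -(κ * m * lam⁻¹ * lam⁻¹) with hy
  set z : F := (ν * m - κ ^ 2) * lam⁻¹ * lam⁻¹ with hz
  have hg : InH H E Φ G⁻¹ !![1, 0, 0; x, 1, 0; z, y, 1] := by
    refine InH.div hΦE hG1 (InH.mul hΦE hG1 hM0 hM1) (InH.mul hΦE hG1 hM1 hM0) ?_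
    ext i j
    fin_cases i <;> fin_cases j <;>
      simp [Matrix.mul_apply, Fin.sum_univ_three, hx, hy, hz, hm] <;> field_simp <;> ring
  have hxy : x * y ≠ 0 := by
    rw [hx, hy]
    refine mul_ne_zero (neg_ne_zero.2 ?_) (neg_ne_zero.2 ?_)
    · exact mul_ne_zero (mul_ne_zero hκ hm0) (inv_ne_zero hl)
    · exact mul_ne_zero (mul_ne_zero (mul_ne_zero hκ hm0) (inv_ne_zero hl)) (inv_ne_zero hl)
  -- a transvection
  have hfin : ∃ ζ : F, ζ ≠ 0 ∧ InH H E Φ G⁻¹ !![1, 0, 0; 0, 1, 0; ζ, 0, 1] := by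
    rcases h3 with h3 | h3
    · set x' : F := lam⁻¹ * lam⁻¹ * x with hx'
      set y' : F := lam * y with hy'
      set z' : F := (z - lam⁻¹ * κ * x - lam * y * κ) * lam⁻¹ with hz'
      have hg' : InH H E Φ G⁻¹ !![1, 0, 0; x', 1, 0; z', y', 1] := by
        refine InH.div hΦE hG1 (InH.mul hΦE hG1 hM0 hg) hM0 ?_
        ext i j
        fin_cases i <;> fin_cases j <;>
          simp [Matrix.mul_apply, Fin.sum_univ_three, hx', hy', hz'] <;> field_simp <;> ring
      refine ⟨y * x' - y' * x, ?_, ?_⟩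
      · have : y * x' - y' * x = x * y * (lam⁻¹ * lam⁻¹) * (1 - lam ^ 3) := by
          rw [hx', hy']
          field_simp
        rw [this]
        refine mul_ne_zero (mul_ne_zero hxy (mul_ne_zero (inv_ne_zero hl) (inv_ne_zero hl))) ?_
        rw [sub_ne_zero]
        exact h3.symm
      · refine InH.div hΦE hG1 (InH.mul hΦE hG1 hg hg') (InH.mul hΦE hG1 hg' hg) ?_
        ext i j
        fin_cases i <;> fin_cases j <;>
          simp [Matrix.mul_apply, Fin.sum_univ_three] <;> ring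
    · refine ⟨x * y, hxy, ?_⟩
      have h4 := InH.mul hΦE hG1 hg hg
      have e2 : ∀ c : F, c + c = 0 := fun c => by rw [← two_mul, h3, zero_mul]
      have h5 : (!![1, 0, 0; x, 1, 0; z, y, 1] : Matrix (Fin 3) (Fin 3) F) *
          !![1, 0, 0; x, 1, 0; z, y, 1] = !![1, 0, 0; x + x, 1, 0; z + z + x * y, y + y, 1] := by
        ext i j
        fin_cases i <;> fin_cases j <;>
          simp [Matrix.mul_apply, Fin.sum_univ_three] <;> ring
      rw [h5, e2 x, e2 y, e2 z, zero_add] at h4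
      exact h4
  obtain ⟨ζ, hζ, g, hg, eg⟩ := hfin
  refine ⟨ζ * m⁻¹, mul_ne_zero hζ (inv_ne_zero hm0), ?_, g, hg, ?_⟩
  · rw [smul_dotProduct, h02, smul_zero]
  · rw [eg, S_of hG2 (X := !![0, 0, 0; 0, 0, 0; ζ * m⁻¹, 0, 0]), hT]
    · simp [Fin.sum_univ_three, vecMulVec_smul]
    · rw [hG]
      ext i j
      fin_cases i <;> fin_cases j <;>
        simp [Matrix.mul_apply, Fin.sum_univ_three, Matrix.one_apply] <;> field_simp

end Cfsg.Agent.H107.ThreeBlock
end

-- part: H107/TwoGen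
section
/-!
`SL_n(F)`, `n ≥ 4`, `|F| ≥ 4`, is generated by the companion matrix `w` of `(X-1)^n` and its
conjugate under a homology `1 + e₀ ⊗ φ`.
-/

set_option autoImplicit false

namespace Cfsg.Agent.H107.TwoGen

open Matrix SLHas Corner Cfsg.Agent.H107.Comp Cfsg.Agent.H107.Prime

variable {n : ℕ} {F : Type*} [Field F]
variable {w : Matrix.SpecialLinearGroup (Fin n) F}

/-- `a_j = w^j e_0` -/
def aa (w : Matrix.SpecialLinearGroup (Fin n) F) (j : ℕ) : Fin n → F :=
  ((w ^ j : Matrix.SpecialLinearGroup (Fin n) F) : Matrix (Fin n) (Fin n) F) *ᵥ e n F 0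

/-- `f_j = φ w^{-j}` -/
def ff (w : Matrix.SpecialLinearGroup (Fin n) F) (φ : Fin n → F) (j : ℕ) : Fin n → F :=
  φ ᵥ* (((w ^ j)⁻¹ : Matrix.SpecialLinearGroup (Fin n) F) : Matrix (Fin n) (Fin n) F)

theorem aa_lt (hw : Shift w) {j : ℕ} (hj : j < n) : aa w j = e n F j := by
  unfold aa
  rw [Matrix.SpecialLinearGroup.coe_pow, hw.pow_mulVec j 0 (by omega), zero_add]

theorem ff_zero (φ : Fin n → F) : ff w φ 0 = φ := by
  unfold ff
  rw [pow_zero, inv_one, Matrix.SpecialLinearGroup.coe_one, vecMul_one]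

theorem aa_add (i k : ℕ) :
    aa w (i + k) = ((w ^ k : Matrix.SpecialLinearGroup (Fin n) F) : Matrix (Fin n) (Fin n) F) *ᵥ
      aa w i := by
  unfold aa
  rw [mulVec_mulVec, ← Matrix.SpecialLinearGroup.coe_mul, ← pow_add, add_comm]

theorem ff_add (φ : Fin n → F) (i k : ℕ) :
    ff w φ (i + k) = ff w φ i ᵥ*
      (((w ^ k)⁻¹ : Matrix.SpecialLinearGroup (Fin n) F) : Matrix (Fin n) (Fin n) F) := by
  unfold ff
  rw [vecMul_vecMul, ← Matrix.SpecialLinearGroup.coe_mul, ← _root_.mul_inv_rev, ← pow_add,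
    add_comm]

theorem dot_shift (φ : Fin n → F) (i j k : ℕ) :
    ff w φ (i + k) ⬝ᵥ aa w (j + k) = ff w φ i ⬝ᵥ aa w j := by
  rw [ff_add, aa_add, ← dotProduct_mulVec, mulVec_mulVec, inv_mul_coe, one_mulVec]

theorem dot_self (φ : Fin n → F) (i : ℕ) : ff w φ i ⬝ᵥ aa w i = φ ⬝ᵥ aa w 0 := by
  have := dot_shift (w := w) φ 0 0 i
  rwa [zero_add, ff_zero] at this

theorem dot_right (φ : Fin n → F) (i d : ℕ) : ff w φ i ⬝ᵥ aa w (i + d) = φ ⬝ᵥ aa w d := by
  have := dot_shift (w := w) φ 0 d i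
  rwa [zero_add, ff_zero, add_comm d i] at this

theorem dot_left (φ : Fin n → F) (i d : ℕ) :
    ff w φ (i + d) ⬝ᵥ aa w i = ff w φ d ⬝ᵥ aa w 0 := by
  have := dot_shift (w := w) φ d 0 i
  rwa [zero_add, add_comm d i] at this

theorem conj_one_add (W : Matrix.SpecialLinearGroup (Fin n) F) (c : F) (x y : Fin n → F) :
    (W : Matrix (Fin n) (Fin n) F) * (1 + c • vecMulVec x y) *
      ((W⁻¹ : Matrix.SpecialLinearGroup (Fin n) F) : Matrix (Fin n) (Fin n) F) =
    1 + c • vecMulVec ((W : Matrix (Fin n) (Fin n) F) *ᵥ x)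
      (y ᵥ* ((W⁻¹ : Matrix.SpecialLinearGroup (Fin n) F) : Matrix (Fin n) (Fin n) F)) := by
  rw [Matrix.mul_add, Matrix.add_mul, Matrix.mul_one, mul_inv_coe, Matrix.mul_smul,
    Matrix.smul_mul, mul_vecMulVec, vecMulVec_mul]

theorem homology_mul_inv {lam m : F} (hl : lam ≠ 0) (hm : m = lam - 1) {x φ : Fin n → F}
    (h : φ ⬝ᵥ x = m) :
    (1 + vecMulVec x φ) * (1 - lam⁻¹ • vecMulVec x φ) = 1 := by
  rw [Matrix.mul_sub, Matrix.mul_one, Matrix.mul_smul, Matrix.add_mul, Matrix.one_mul,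
    vecMulVec_mul_vecMulVec, h, vecMulVec_smul, hm]
  have : lam⁻¹ • (vecMulVec x φ + (lam - 1) • vecMulVec x φ) = vecMulVec x φ := by
    rw [smul_add, smul_smul, ← add_smul, show lam⁻¹ + lam⁻¹ * (lam - 1) = 1 by
      field_simp; ring, one_smul]
  rw [this]
  abel

/-- the conjugate of `w` under the homology -/
theorem exists_v {lam m : F} (hl : lam ≠ 0) (hm : m = lam - 1) {φ : Fin n → F}
    (h : φ ⬝ᵥ e n F 0 = m) (w : Matrix.SpecialLinearGroup (Fin n) F) :
    ∃ v : Matrix.SpecialLinearGroup (Fin n) F, (v : Matrix (Fin n) (Fin n) F) =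
      (1 + vecMulVec (e n F 0) φ) * (w : Matrix (Fin n) (Fin n) F) *
        (1 - lam⁻¹ • vecMulVec (e n F 0) φ) := by
  refine ⟨⟨(1 + vecMulVec (e n F 0) φ) * (w : Matrix (Fin n) (Fin n) F) *
        (1 - lam⁻¹ • vecMulVec (e n F 0) φ), ?_⟩, rfl⟩
  rw [det_mul, det_mul, Matrix.SpecialLinearGroup.det_coe, mul_one, ← det_mul,
    homology_mul_inv hl hm h, det_one]

theorem reg_of_conj {A B C : Matrix (Fin n) (Fin n) F} (hBC : B * C = 1) (hA : Reg A) :
    Reg (B * A * C) := by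
  have hCB : C * B = 1 := mul_eq_one_comm.1 hBC
  have h1 : B * A * C - 1 = B * (A - 1) * C := by
    rw [Matrix.mul_sub, Matrix.sub_mul, Matrix.mul_one, hBC]
  have h2 : ∀ (X : Matrix (Fin n) (Fin n) F) (k : ℕ), (B * X * C) ^ k = B * X ^ k * C := by
    intro X k
    induction k with
    | zero => rw [pow_zero, pow_zero, Matrix.mul_one, hBC]
    | succ k ih =>
      rw [pow_succ, ih, pow_succ]
      simp only [Matrix.mul_assoc]
      rw [← Matrix.mul_assoc C B, hCB, Matrix.one_mul]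
  obtain ⟨⟨k, hk⟩, hne⟩ := hA
  unfold Reg
  rw [h1]
  refine ⟨⟨k, ?_⟩, ?_⟩
  · rw [h2, hk, Matrix.mul_zero, Matrix.zero_mul]
  · rw [h2]
    intro h
    apply hne
    have h3 := congrArg (fun X => C * X * B) h
    simp only [Matrix.mul_zero, Matrix.zero_mul] at h3
    rw [← h3]
    simp only [Matrix.mul_assoc]
    rw [hCB, Matrix.mul_one, ← Matrix.mul_assoc, hCB, Matrix.one_mul]

/-- `r_j = w^j (v w⁻¹) w^{-j}` -/
theorem r_coe {lam : F} {φ : Fin n → F} {v : Matrix.SpecialLinearGroup (Fin n) F}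
    (hv : (v : Matrix (Fin n) (Fin n) F) =
      (1 + vecMulVec (e n F 0) φ) * (w : Matrix (Fin n) (Fin n) F) *
        (1 - lam⁻¹ • vecMulVec (e n F 0) φ)) (j : ℕ) :
    ((w ^ j * (v * w⁻¹) * (w ^ j)⁻¹ : Matrix.SpecialLinearGroup (Fin n) F) :
      Matrix (Fin n) (Fin n) F) =
    (1 + vecMulVec (aa w j) (ff w φ j)) *
      (1 - lam⁻¹ • vecMulVec (aa w (j + 1)) (ff w φ (j + 1))) := by
  have h1 := conj_one_add (w ^ j) 1 (e n F 0) φ
  have h2 := conj_one_add (w ^ (j + 1)) (-lam⁻¹) (e n F 0) φ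
  rw [one_smul, one_smul] at h1
  rw [neg_smul, neg_smul, ← sub_eq_add_neg, ← sub_eq_add_neg] at h2
  change _ = 1 + vecMulVec (aa w j) (ff w φ j) at h1
  change _ = 1 - lam⁻¹ • vecMulVec (aa w (j + 1)) (ff w φ (j + 1)) at h2
  rw [← h1, ← h2, Matrix.SpecialLinearGroup.coe_mul, Matrix.SpecialLinearGroup.coe_mul,
    Matrix.SpecialLinearGroup.coe_mul, hv]
  have h3 : (((w ^ j)⁻¹ : Matrix.SpecialLinearGroup (Fin n) F) : Matrix (Fin n) (Fin n) F) *
      ((w ^ (j + 1) : Matrix.SpecialLinearGroup (Fin n) F) : Matrix (Fin n) (Fin n) F) =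
      (w : Matrix (Fin n) (Fin n) F) := by
    rw [← Matrix.SpecialLinearGroup.coe_mul, pow_succ, inv_mul_cancel_left]
  have h4 : (((w ^ (j + 1))⁻¹ : Matrix.SpecialLinearGroup (Fin n) F) :
      Matrix (Fin n) (Fin n) F) =
      ((w⁻¹ : Matrix.SpecialLinearGroup (Fin n) F) : Matrix (Fin n) (Fin n) F) *
        (((w ^ j)⁻¹ : Matrix.SpecialLinearGroup (Fin n) F) : Matrix (Fin n) (Fin n) F) := by
    rw [← Matrix.SpecialLinearGroup.coe_mul, ← _root_.mul_inv_rev, ← pow_succ]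
  rw [h4]
  simp only [Matrix.mul_assoc]
  congr 2
  rw [← Matrix.mul_assoc (((w ^ j)⁻¹ : Matrix.SpecialLinearGroup (Fin n) F) :
    Matrix (Fin n) (Fin n) F), h3]

theorem w_apply (hw : Shift w) {i : Fin n} {k : ℕ} (hk : k + 1 < n) :
    (w : Matrix (Fin n) (Fin n) F) i ⟨k, by omega⟩ = if (i : ℕ) = k + 1 then 1 else 0 := by
  rw [← mulVec_e (show k < n by omega) (w : Matrix (Fin n) (Fin n) F) i, hw k hk, e_apply]

theorem mulVec_zero_coord (hn : 2 ≤ n) (hw : Shift w) (y : Fin n → F) :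
    ((w : Matrix (Fin n) (Fin n) F) *ᵥ y) ⟨0, by omega⟩ =
      (w : Matrix (Fin n) (Fin n) F) ⟨0, by omega⟩ ⟨n - 1, by omega⟩ * y ⟨n - 1, by omega⟩ := by
  rw [mulVec, dotProduct, Finset.sum_eq_single ⟨n - 1, by omega⟩]
  · intro k _ hk
    have h1 : (k : ℕ) + 1 < n := by
      have : (k : ℕ) ≠ n - 1 := fun h => hk (Fin.ext h)
      omega
    have h2 := w_apply hw (i := ⟨0, by omega⟩) h1
    rw [Fin.eta] at h2
    rw [h2, if_neg (by simp), zero_mul]
  · intro h
    exact absurd (Finset.mem_univ _) h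

theorem mulVec_succ_coord (hn : 2 ≤ n) (hw : Shift w) (y : Fin n → F)
    (hy : y ⟨n - 1, by omega⟩ = 0) {i : ℕ} (hi : i + 1 < n) :
    ((w : Matrix (Fin n) (Fin n) F) *ᵥ y) ⟨i + 1, hi⟩ = y ⟨i, by omega⟩ := by
  rw [mulVec, dotProduct, Finset.sum_eq_single ⟨i, by omega⟩]
  · rw [w_apply hw hi, if_pos rfl, one_mul]
  · intro k _ hk
    by_cases h1 : (k : ℕ) + 1 < n
    · have h2 := w_apply hw (i := ⟨i + 1, hi⟩) h1
      rw [Fin.eta] at h2
      rw [h2, if_neg, zero_mul]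
      intro h
      apply hk
      apply Fin.ext
      simp at h ⊢
      omega
    · have : k = ⟨n - 1, by omega⟩ := Fin.ext (by simp; omega)
      rw [this, hy, mul_zero]
  · intro h
    exact absurd (Finset.mem_univ _) h

/-- a fixed vector of `w` has non-zero last coordinate -/
theorem last_ne_zero (hn : 2 ≤ n) (hw : Shift w) {y : Fin n → F} (hy : y ≠ 0)
    (h : (w : Matrix (Fin n) (Fin n) F) *ᵥ y = y) : y ⟨n - 1, by omega⟩ ≠ 0 := by
  intro h0
  apply hy
  have h1 : y ⟨0, by omega⟩ = 0 := by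
    rw [← h, mulVec_zero_coord hn hw, h0, mul_zero]
  have h2 : ∀ i (hi : i < n), y ⟨i, hi⟩ = 0 := by
    intro i
    induction i with
    | zero => exact fun _ => h1
    | succ i ih =>
      intro hi
      rw [← h, mulVec_succ_coord hn hw y h0 hi]
      exact ih _
  ext i
  exact h2 i i.2

/-- a non-zero invariant subspace of a unipotent element contains a fixed vector -/
theorem exists_fixed {U : Submodule F (Fin n → F)}
    (hu : IsNilpotent ((w : Matrix (Fin n) (Fin n) F) - 1)) (hU : U ≠ ⊥)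
    (hinv : ∀ x ∈ U, (w : Matrix (Fin n) (Fin n) F) *ᵥ x ∈ U) :
    ∃ y ∈ U, y ≠ 0 ∧ (w : Matrix (Fin n) (Fin n) F) *ᵥ y = y := by
  classical
  obtain ⟨x, hx, hx0⟩ := (Submodule.ne_bot_iff _).1 hU
  set N := (w : Matrix (Fin n) (Fin n) F) - 1 with hN
  obtain ⟨k, hk⟩ := hu
  have hex : ∃ j, (N ^ j) *ᵥ x = 0 := ⟨k, by rw [hk, zero_mulVec]⟩
  have hmem : ∀ j, (N ^ j) *ᵥ x ∈ U := by
    intro j
    induction j with
    | zero => rw [pow_zero, one_mulVec]; exact hx
    | succ j ih =>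
      rw [pow_succ', ← mulVec_mulVec, hN, sub_mulVec, one_mulVec, ← hN]
      exact U.sub_mem (hinv _ ih) ih
  have h0 : Nat.find hex ≠ 0 := by
    intro h
    have := Nat.find_spec hex
    rw [h, pow_zero, one_mulVec] at this
    exact hx0 this
  obtain ⟨j, hj⟩ := Nat.exists_eq_succ_of_ne_zero h0
  refine ⟨(N ^ j) *ᵥ x, hmem j, Nat.find_min hex (by omega), ?_⟩
  have h1 := Nat.find_spec hex
  rw [hj, Nat.succ_eq_add_one, pow_succ', ← mulVec_mulVec, hN, sub_mulVec, one_mulVec, ← hN,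
    sub_eq_zero] at h1
  exact h1

open Module in
/-- The generation argument. -/
theorem top_of_mem (hn : 4 ≤ n) (hw : Shift w)
    (hnil : IsNilpotent ((w : Matrix (Fin n) (Fin n) F) - 1))
    {lam m t : F} (hl : lam ≠ 0) (hm : m = lam - 1) (hm0 : m ≠ 0) (ht : t ≠ 0)
    (hgen : ∀ x : F, x ≠ 0 → ∃ k : ℕ, x = lam ^ k)
    (h3 : lam ^ 3 ≠ 1 ∨ (2 : F) = 0)
    (hκ : ff w (m • e n F 0 + t • e n F (n - 1)) 1 ⬝ᵥ aa w 0 ≠ 0)
    (ht2 : m * (w : Matrix (Fin n) (Fin n) F) ⟨0, by omega⟩ ⟨n - 1, by omega⟩ + t ≠ 0)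
    {v : Matrix.SpecialLinearGroup (Fin n) F}
    (hv : (v : Matrix (Fin n) (Fin n) F) =
      (1 + vecMulVec (e n F 0) (m • e n F 0 + t • e n F (n - 1))) *
        (w : Matrix (Fin n) (Fin n) F) *
        (1 - lam⁻¹ • vecMulVec (e n F 0) (m • e n F 0 + t • e n F (n - 1))))
    {H : Subgroup (Matrix.SpecialLinearGroup (Fin n) F)} (hwH : w ∈ H) (hvH : v ∈ H) :
    H = ⊤ := by
  classical
  set φ : Fin n → F := m • e n F 0 + t • e n F (n - 1) with hφ
  have hφe : ∀ k (hk : k < n), φ ⬝ᵥ e n F k =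
      (if k = 0 then m else 0) + (if k = n - 1 then t else 0) := by
    intro k hk
    rw [dot_e hk, hφ, Pi.add_apply, Pi.smul_apply, Pi.smul_apply, e_apply, e_apply]
    simp
  -- the Gram entries
  have g0 : ∀ i, ff w φ i ⬝ᵥ aa w i = m := by
    intro i
    rw [dot_self, aa_lt hw (by omega), hφe 0 (by omega), if_pos rfl, if_neg (by omega), add_zero]
  have g1 : ∀ i d, 1 ≤ d → d + 1 < n → ff w φ i ⬝ᵥ aa w (i + d) = 0 := by
    intro i d h1 h2
    rw [dot_right, aa_lt hw (by omega), hφe d (by omega), if_neg (by omega), if_neg (by omega),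
      add_zero]
  have gt : ∀ i, ff w φ i ⬝ᵥ aa w (i + (n - 1)) = t := by
    intro i
    rw [dot_right, aa_lt hw (by omega), hφe _ (by omega), if_neg (by omega), if_pos rfl, zero_add]
  set κ := ff w φ 1 ⬝ᵥ aa w 0 with hκd
  have gk : ∀ i, ff w φ (i + 1) ⬝ᵥ aa w i = κ := fun i => by rw [dot_left]
  -- the elements `r_j`
  set r : ℕ → Matrix.SpecialLinearGroup (Fin n) F :=
    fun j => w ^ j * (v * w⁻¹) * (w ^ j)⁻¹ with hr
  have hrH : ∀ j, r j ∈ H := fun j => H.mul_mem (H.mul_mem (H.pow_mem hwH j)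
    (H.mul_mem hvH (H.inv_mem hwH))) (H.inv_mem (H.pow_mem hwH j))
  have hrc : ∀ j, (r j : Matrix (Fin n) (Fin n) F) = (1 + vecMulVec (aa w j) (ff w φ j)) *
      (1 - lam⁻¹ • vecMulVec (aa w (j + 1)) (ff w φ (j + 1))) := fun j => r_coe hv j
  -- a transvection
  obtain ⟨z, hz, hT⟩ := ThreeBlock.exists_transvection (H := H) (a₀ := aa w 0) (a₁ := aa w 1)
    (a₂ := aa w 2) (f₀ := ff w φ 0) (f₁ := ff w φ 1) (f₂ := ff w φ 2) (κ := κ)
    (ν := ff w φ 2 ⬝ᵥ aa w 0) hm hm0 hl hκ (g0 0) (g1 0 1 le_rfl (by omega))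
    (g1 0 2 (by omega) (by omega)) (gk 0) (g0 1) (g1 1 1 le_rfl (by omega)) rfl (gk 1) (g0 2)
    (hrH 0) (hrH 1) (hrc 0) (hrc 1) h3
  rw [ff_zero] at hT
  -- action of `1 + a ⊗ f` and its inverse
  have act : ∀ (c : F) (a f x : Fin n → F), (1 + c • vecMulVec a f) *ᵥ x =
      x + (c * (f ⬝ᵥ x)) • a := by
    intro c a f x
    rw [add_mulVec, one_mulVec, smul_mulVec, vecMulVec_mulVec]
    ext i
    simp
    ring
  have act1 : ∀ (a f x : Fin n → F), (1 + vecMulVec a f) *ᵥ x = x + (f ⬝ᵥ x) • a := by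
    intro a f x
    have := act 1 a f x
    rwa [one_smul, one_mul] at this
  have act2 : ∀ (a f x : Fin n → F), (1 - lam⁻¹ • vecMulVec a f) *ᵥ x =
      x - (lam⁻¹ * (f ⬝ᵥ x)) • a := by
    intro a f x
    have := act (-lam⁻¹) a f x
    rwa [neg_smul, ← sub_eq_add_neg, neg_mul, neg_smul, ← sub_eq_add_neg] at this
  -- row action
  have ract : ∀ (c : F) (a f ψ : Fin n → F), ψ ᵥ* (1 + c • vecMulVec a f) =
      ψ + (c * (ψ ⬝ᵥ a)) • f := by
    intro c a f ψ
    rw [vecMul_add, vecMul_one, vecMul_smul, vecMul_vecMulVec, smul_smul]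
  have ract1 : ∀ (a f ψ : Fin n → F), ψ ᵥ* (1 + vecMulVec a f) = ψ + (ψ ⬝ᵥ a) • f := by
    intro a f ψ
    have := ract 1 a f ψ
    rwa [one_smul, one_mul] at this
  have ract2 : ∀ (a f ψ : Fin n → F), ψ ᵥ* (1 - lam⁻¹ • vecMulVec a f) =
      ψ - (lam⁻¹ * (ψ ⬝ᵥ a)) • f := by
    intro a f ψ
    have := ract (-lam⁻¹) a f ψ
    rwa [neg_smul, ← sub_eq_add_neg, neg_mul, neg_smul, ← sub_eq_add_neg] at this
  -- `φ r₀ = λ φ`, `r₀ a₂ = a₂`
  have hlm : 1 + m = lam := by rw [hm]; ring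
  have hr0a : (r 0 : Matrix (Fin n) (Fin n) F) *ᵥ aa w 2 = aa w 2 := by
    rw [hrc, ← mulVec_mulVec, act2, show ff w φ (0 + 1) ⬝ᵥ aa w 2 = 0 from
      g1 1 1 le_rfl (by omega), mul_zero, zero_smul, sub_zero, act1,
      show ff w φ 0 ⬝ᵥ aa w 2 = 0 from g1 0 2 (by omega) (by omega), zero_smul, add_zero]
  have hr0f : φ ᵥ* (r 0 : Matrix (Fin n) (Fin n) F) = lam • φ := by
    have e1 : φ ⬝ᵥ aa w 0 = m := by
      have := g0 0
      rwa [ff_zero] at this
    have e2 : φ ⬝ᵥ aa w 1 = 0 := by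
      have := g1 0 1 le_rfl (by omega)
      rwa [ff_zero] at this
    rw [hrc, ← vecMul_vecMul, ract1, e1, ff_zero, ract2, add_dotProduct, smul_dotProduct,
      show (0 + 1 : ℕ) = 1 from rfl, e2, smul_zero, add_zero, mul_zero, zero_smul, sub_zero,
      ← hlm, add_smul, one_smul]
  have hscale : ∀ k : ℕ, Has H (aa w 2) ((z * (lam⁻¹) ^ k) • φ) := by
    intro k
    induction k with
    | zero => rw [pow_zero, mul_one]; exact hT
    | succ k ih =>
      have h4 := ih.conj (hrH 0)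
      rw [hr0a] at h4
      have h5 : φ ᵥ* (((r 0)⁻¹ : Matrix.SpecialLinearGroup (Fin n) F) :
          Matrix (Fin n) (Fin n) F) = lam⁻¹ • φ := by
        have h6 : φ = lam⁻¹ • (φ ᵥ* (r 0 : Matrix (Fin n) (Fin n) F)) := by
          rw [hr0f, smul_smul, inv_mul_cancel₀ hl, one_smul]
        conv_lhs => rw [h6]
        rw [smul_vecMul, vecMul_vecMul, mul_inv_coe, vecMul_one]
      rw [smul_vecMul, h5, smul_smul, mul_assoc, ← pow_succ] at h4
      exact h4
  have hF2 : Full H (aa w 2) φ := by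
    intro c
    by_cases hc : c = 0
    · rw [hc, zero_smul]; exact has_zero_right _
    · obtain ⟨k, hk⟩ := hgen (c * z⁻¹)⁻¹ (inv_ne_zero (mul_ne_zero hc (inv_ne_zero hz)))
      have h4 := hscale k
      rw [inv_pow, ← hk, inv_inv, mul_comm z, mul_assoc, inv_mul_cancel₀ hz, mul_one] at h4
      exact h4
  -- step 3
  have hF : ∀ l, l + 4 ≤ n → Full H (aa w (l + 2)) φ := by
    intro l
    induction l with
    | zero => exact fun _ => hF2
    | succ l ih =>
      intro hl4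
      have h4 := ih (by omega)
      have h5 := h4.conj (hrH (l + 2))
      have e1 : (r (l + 2) : Matrix (Fin n) (Fin n) F) *ᵥ aa w (l + 2) =
          lam • aa w (l + 2) - (lam⁻¹ * κ) • aa w (l + 3) := by
        rw [hrc, ← mulVec_mulVec, act2, show ff w φ (l + 2 + 1) ⬝ᵥ aa w (l + 2) = κ from gk _,
          mulVec_sub, mulVec_smul, act1, act1, g0, show ff w φ (l + 2) ⬝ᵥ aa w (l + 2 + 1) = 0
          from g1 _ 1 le_rfl (by omega), zero_smul, add_zero, ← hlm, add_smul, one_smul]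
      have e2 : φ ᵥ* (r (l + 2) : Matrix (Fin n) (Fin n) F) = φ := by
        have e3 : φ ⬝ᵥ aa w (l + 2) = 0 := by
          have := g1 0 (l + 2) (by omega) (by omega)
          rwa [ff_zero, zero_add] at this
        have e4 : φ ⬝ᵥ aa w (l + 2 + 1) = 0 := by
          have := g1 0 (l + 3) (by omega) (by omega)
          rwa [ff_zero, zero_add] at this
        rw [hrc, ← vecMul_vecMul, ract1, e3, zero_smul, add_zero, ract2, e4, mul_zero, zero_smul,
          sub_zero]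
      have e5 : φ ᵥ* (((r (l + 2))⁻¹ : Matrix.SpecialLinearGroup (Fin n) F) :
          Matrix (Fin n) (Fin n) F) = φ := by
        conv_lhs => rw [← e2]
        rw [vecMul_vecMul, mul_inv_coe, vecMul_one]
      rw [e1, e5] at h5
      have h6 := (h5.add_left (h4.smul_left (-lam))).smul_left (-(lam⁻¹ * κ)⁻¹)
      have hk0 : lam⁻¹ * κ ≠ 0 := mul_ne_zero (inv_ne_zero hl) hκ
      have e6 : lam • aa w (l + 2) - (lam⁻¹ * κ) • aa w (l + 3) + -lam • aa w (l + 2) =
          -((lam⁻¹ * κ) • aa w (l + 3)) := by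
        rw [neg_smul]; abel
      rw [e6, neg_smul, smul_neg, neg_neg, smul_smul, inv_mul_cancel₀ hk0, one_smul] at h6
      exact h6
  -- step 4
  obtain ⟨q, rfl⟩ : ∃ q, n = q + 4 := ⟨n - 4, by omega⟩
  have hb0 : Full H (aa w (q + 2)) φ := hF q le_rfl
  have hb : ∀ i, i ≤ q + 1 → Full H (aa w (q + 2)) (ff w φ i) := by
    intro i
    induction i with
    | zero => intro _; rw [ff_zero]; exact hb0
    | succ i ih =>
      intro hi
      have h4 := (ih (by omega)).conj (H.pow_mem hwH 1)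
      rw [← aa_add, ← ff_add] at h4
      refine Full.comm hb0.has h4 ?_ ?_
      · have := g1 (i + 1) (q + 2 - (i + 1)) (by omega) (by omega)
        rwa [show i + 1 + (q + 2 - (i + 1)) = q + 2 by omega] at this
      · have := gt 0
        rw [ff_zero, show 0 + (q + 4 - 1) = q + 2 + 1 by omega] at this
        rw [this]
        exact ht
  -- irreducibility
  have hirr : ∀ U : Submodule F (Fin (q + 4) → F),
      (∀ g ∈ H, ∀ x ∈ U, (g : Matrix (Fin (q + 4)) (Fin (q + 4)) F) *ᵥ x ∈ U) →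
      U = ⊥ ∨ U = ⊤ := by
    intro U hU
    by_cases hbot : U = ⊥
    · exact Or.inl hbot
    right
    obtain ⟨y, hy, hy0, hwy⟩ := exists_fixed hnil hbot (fun x hx => hU w hwH x hx)
    have h5 := last_ne_zero (by omega) hw hy0 hwy
    have h6 := mulVec_zero_coord (by omega) hw y
    rw [hwy] at h6
    have h7 : φ ⬝ᵥ y ≠ 0 := by
      rw [hφ, add_dotProduct, smul_dotProduct, smul_dotProduct, e_dot (by omega),
        e_dot (by omega), h6, smul_eq_mul, smul_eq_mul, ← mul_assoc, ← add_mul]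
      exact mul_ne_zero ht2 h5
    obtain ⟨g, hg, eg⟩ := exists_moving (x := aa w 2) (y := y) (φ := φ) hF2 h7
    have h8 : aa w 2 ∈ U := by
      have := U.sub_mem (hU g hg y hy) hy
      rw [eg, add_sub_cancel_right] at this
      exact this
    have h9 : e (q + 4) F 0 ∈ U := by
      have := hU _ (H.inv_mem (H.pow_mem hwH 2)) _ h8
      unfold aa at this
      rw [mulVec_mulVec, inv_mul_coe, one_mulVec] at this
      exact this
    exact span_of_shift hw U h9 (fun x hx => hU w hwH x hx)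
  refine full_of_rank (by omega) (b := aa w (q + 2)) ?_ ?_ hirr
  · rw [aa_lt hw (by omega)]
    intro h
    have := congrFun h ⟨q + 2, by omega⟩
    rw [e_apply, if_pos rfl] at this
    exact one_ne_zero this
  · -- linear independence
    set f : Fin (q + 2) → (Fin (q + 4) → F) := fun i => ff w φ i with hf
    have hli : LinearIndependent F f := by
      rw [Fintype.linearIndependent_iff]
      intro c hc
      set M : Matrix (Fin (q + 2)) (Fin (q + 2)) F :=
        Matrix.of fun i l => ff w φ i ⬝ᵥ aa w l with hM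
      have hdet : M.det ≠ 0 := by
        rw [det_of_isLowerTriangular M]
        · rw [Finset.prod_ne_zero_iff]
          intro i _
          change ff w φ i ⬝ᵥ aa w i ≠ 0
          rw [g0]
          exact hm0
        · intro i j hij
          have hij' : (i : ℕ) < j := hij
          change ff w φ i ⬝ᵥ aa w j = 0
          have := g1 i (j - i) (by omega) (by omega)
          rwa [show (i : ℕ) + (j - i) = j by omega] at this
      have h5 : c ᵥ* M = 0 := by
        ext l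
        have h6 := congrArg (fun x => x ⬝ᵥ aa w (l : ℕ)) hc
        simp only [zero_dotProduct, sum_dotProduct, smul_dotProduct] at h6
        exact h6
      have h7 := Matrix.eq_zero_of_vecMul_eq_zero hdet h5
      exact fun i => congrFun h7 i
    have h5 : Submodule.span F (Set.range f) ≤ W H (aa w (q + 2)) := by
      rw [Submodule.span_le]
      rintro _ ⟨i, rfl⟩
      exact hb i (by omega)
    have h6 := Submodule.finrank_mono h5
    rw [finrank_span_eq_card hli, Fintype.card_fin] at h6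
    omega

/-- **Two regular unipotent elements generate `SL_n(F)`, `n ≥ 4`, `|F| ≥ 4`.** -/
theorem exists_two [Fintype F] (hn : 4 ≤ n) (hF : 4 ≤ Fintype.card F) :
    ∃ u v : Matrix.SpecialLinearGroup (Fin n) F, Reg (u : Matrix (Fin n) (Fin n) F) ∧
      Reg (v : Matrix (Fin n) (Fin n) F) ∧
      Subgroup.closure ({u, v} : Set (Matrix.SpecialLinearGroup (Fin n) F)) = ⊤ := by
  classical
  obtain ⟨lam, hl, hgen⟩ := exists_gen F
  obtain ⟨w, b, hwb, hw⟩ := exists_comp n F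
  have hreg : Reg (w : Matrix (Fin n) (Fin n) F) := by
    rw [hwb]
    exact (reg_one_add_N (by omega)).conj (u := J n F) b
  have hcard : ∀ s : Finset F, s.card ≤ 3 → ∃ x : F, x ∉ s := by
    intro s hs
    by_contra hcon
    push Not at hcon
    have : (Finset.univ : Finset F) ⊆ s := fun x _ => hcon x
    have := Finset.card_le_card this
    rw [Finset.card_univ] at this
    omega
  have hl1 : lam ≠ 1 := by
    intro h
    obtain ⟨x, hx⟩ := hcard {0, 1} (le_trans (Finset.card_insert_le _ _) (by simp))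
    simp only [Finset.mem_insert, Finset.mem_singleton, not_or] at hx
    obtain ⟨k, hk⟩ := hgen x hx.1
    rw [h, one_pow] at hk
    exact hx.2 hk
  have h3 : lam ^ 3 ≠ 1 ∨ (2 : F) = 0 := by
    by_cases h : lam ^ 3 = 1
    · right
      have h4 : (Finset.univ : Finset F) ⊆ {0, 1, lam, lam ^ 2} := by
        intro x _
        simp only [Finset.mem_insert, Finset.mem_singleton]
        by_cases hx : x = 0
        · exact Or.inl hx
        · right
          obtain ⟨k, hk⟩ := hgen x hx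
          rw [← Nat.div_add_mod k 3, pow_add, pow_mul, h, one_pow, one_mul] at hk
          have : k % 3 < 3 := Nat.mod_lt _ (by norm_num)
          interval_cases k % 3
          · left; rw [hk, pow_zero]
          · right; left; rw [hk, pow_one]
          · right; right; exact hk
      have h5 := Finset.card_le_card h4
      rw [Finset.card_univ] at h5
      have h6 : Finset.card ({0, 1, lam, lam ^ 2} : Finset F) ≤ 4 := Finset.card_le_four
      have h7 : Fintype.card F = 4 := by omega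
      have h8 : ((Fintype.card F : ℕ) : F) = 0 := FiniteField.cast_card_eq_zero F
      rw [h7] at h8
      have h9 : (2 : F) * 2 = 0 := by
        rw [← h8]; norm_num
      rcases mul_eq_zero.1 h9 with h | h <;> exact h
    · exact Or.inl h
  set m : F := lam - 1 with hm
  have hm0 : m ≠ 0 := sub_ne_zero.2 hl1
  set c0 := (w : Matrix (Fin n) (Fin n) F) ⟨0, by omega⟩ ⟨n - 1, by omega⟩ with hc0
  set y := ((w⁻¹ : Matrix.SpecialLinearGroup (Fin n) F) : Matrix (Fin n) (Fin n) F) *ᵥ e n F 0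
    with hy
  have hy1 : y ⟨n - 1, by omega⟩ ≠ 0 := by
    intro h
    have h1 := mulVec_zero_coord (by omega) hw y
    rw [h, mul_zero, hy, mulVec_mulVec, mul_inv_coe, one_mulVec, e_apply, if_pos rfl] at h1
    exact one_ne_zero h1
  obtain ⟨t, ht⟩ := hcard {0, -(m * c0), -(m * y ⟨0, by omega⟩) * (y ⟨n - 1, by omega⟩)⁻¹}
    Finset.card_le_three
  simp only [Finset.mem_insert, Finset.mem_singleton, not_or] at ht
  obtain ⟨ht0, ht1, ht2⟩ := ht
  obtain ⟨v, hv⟩ := exists_v hl hm (φ := m • e n F 0 + t • e n F (n - 1)) (by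
    rw [add_dotProduct, smul_dotProduct, smul_dotProduct, dot_e (show 0 < n by omega),
      dot_e (show 0 < n by omega), e_apply, e_apply, if_pos rfl, if_neg (by simp; omega)]
    simp) w
  refine ⟨w, v, hreg, ?_, ?_⟩
  · rw [hv]
    refine reg_of_conj (homology_mul_inv hl hm ?_) hreg
    rw [add_dotProduct, smul_dotProduct, smul_dotProduct, dot_e (show 0 < n by omega),
      dot_e (show 0 < n by omega), e_apply, e_apply, if_pos rfl, if_neg (by simp; omega)]
    simp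
  · refine top_of_mem hn hw hreg.1 hl hm hm0 ht0 hgen h3 ?_ ?_ hv
      (Subgroup.subset_closure (by simp)) (Subgroup.subset_closure (by simp))
    · unfold ff aa
      rw [pow_one, pow_zero, Matrix.SpecialLinearGroup.coe_one, one_mulVec, ← dotProduct_mulVec,
        ← hy, add_dotProduct, smul_dotProduct, smul_dotProduct, e_dot (show 0 < n by omega),
        e_dot (show n - 1 < n by omega), smul_eq_mul, smul_eq_mul]
      intro h
      apply ht2
      field_simp
      linear_combination h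
    · intro h
      apply ht1
      linear_combination h

end Cfsg.Agent.H107.TwoGen
end

-- part: H107/Lead
section
/-!
Leading terms of lower unitriangular matrices and their commutators; over a field of prime order
the companion matrix `w` of `(X-1)^n`, `n ≥ 4`, and its conjugate under a corner transvection
generate `SL_n`.
-/

set_option autoImplicit false

namespace Cfsg.Agent.H107.Lead

open Matrix SLHas Corner Cfsg.Agent.H107.Comp
open scoped commutatorElement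

variable {n : ℕ} {F : Type*} [Field F]

/-- `g = 1 + A + ...` -/
def Lead (k : ℕ) (g : Matrix.SpecialLinearGroup (Fin n) F) (A : Matrix (Fin n) (Fin n) F) : Prop :=
  Low k A ∧ Low (k + 1) ((g : Matrix (Fin n) (Fin n) F) - 1 - A)

variable {k l : ℕ} {g h : Matrix.SpecialLinearGroup (Fin n) F} {A B : Matrix (Fin n) (Fin n) F}

theorem Lead.low (h : Lead k g A) : Low k ((g : Matrix (Fin n) (Fin n) F) - 1) := by
  have := h.1.add (h.2.mono (by omega))
  rwa [add_sub_cancel] at this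

theorem low_inv (h : Low 1 ((g : Matrix (Fin n) (Fin n) F) - 1)) :
    Low 1 (((g⁻¹ : Matrix.SpecialLinearGroup (Fin n) F) : Matrix (Fin n) (Fin n) F) - 1) := by
  set X := (g : Matrix (Fin n) (Fin n) F) - 1 with hX
  set Y := ((g⁻¹ : Matrix.SpecialLinearGroup (Fin n) F) : Matrix (Fin n) (Fin n) F) - 1 with hY
  have h1 : Y = -X - X * Y := by
    have := mul_inv_coe g
    rw [show (g : Matrix (Fin n) (Fin n) F) = 1 + X by rw [hX]; abel,
      show ((g⁻¹ : Matrix.SpecialLinearGroup (Fin n) F) : Matrix (Fin n) (Fin n) F) = 1 + Y by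
        rw [hY]; abel, add_mul, Matrix.one_mul, mul_add, Matrix.mul_one] at this
    have h2 : 1 + Y + (X + X * Y) - 1 = 0 := by rw [this, sub_self]
    have h3 : Y + (X + X * Y) = 0 := by
      rw [← h2]; abel
    exact (eq_neg_of_add_eq_zero_left h3).trans (by abel)
  intro i
  induction i using WellFoundedLT.induction with
  | ind i ih =>
    intro j hij
    have h2 : (X * Y) i j = 0 := by
      rw [Matrix.mul_apply]
      refine Finset.sum_eq_zero fun m _ => ?_
      by_cases hm : m < i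
      · rw [ih m hm j (by
          have : (m : ℕ) < i := hm
          omega), mul_zero]
      · rw [h i m (by
          have : ¬ (m : ℕ) < i := hm
          omega), zero_mul]
    rw [h1, Matrix.sub_apply, Matrix.neg_apply, h2, h i j hij]
    simp

theorem Lead.mul (hk : 1 ≤ k) (hg : Lead k g A) (hh : Lead k h B) : Lead k (g * h) (A + B) := by
  refine ⟨hg.1.add hh.1, ?_⟩
  have e : ((g * h : Matrix.SpecialLinearGroup (Fin n) F) : Matrix (Fin n) (Fin n) F) - 1 - (A + B)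
      = ((g : Matrix (Fin n) (Fin n) F) - 1) * ((h : Matrix (Fin n) (Fin n) F) - 1) +
        (((g : Matrix (Fin n) (Fin n) F) - 1 - A) + ((h : Matrix (Fin n) (Fin n) F) - 1 - B)) := by
    rw [Matrix.SpecialLinearGroup.coe_mul, Matrix.sub_mul, Matrix.mul_sub, Matrix.one_mul,
      Matrix.mul_one]
    abel
  rw [e]
  exact ((hg.low.mul hh.low).mono (by omega)).add (hg.2.add hh.2)

theorem Lead.comm (hk : 1 ≤ k) (hl : 1 ≤ l) (hg : Lead k g A) (hh : Lead l h B) :
    Lead (k + l) ⁅g, h⁆ (A * B - B * A) := by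
  have hAB : Low (k + l) (A * B - B * A) :=
    (hg.1.mul hh.1).sub ((hh.1.mul hg.1).mono (by omega))
  refine ⟨hAB, ?_⟩
  set X := (g : Matrix (Fin n) (Fin n) F) - 1 with hX
  set Y := (h : Matrix (Fin n) (Fin n) F) - 1 with hY
  have eg : (g : Matrix (Fin n) (Fin n) F) = 1 + X := by rw [hX]; abel
  have eh : (h : Matrix (Fin n) (Fin n) F) = 1 + Y := by rw [hY]; abel
  have hgi := low_inv (hg.low.mono hk)
  have hhi := low_inv (hh.low.mono hl)
  set X' := ((g⁻¹ : Matrix.SpecialLinearGroup (Fin n) F) : Matrix (Fin n) (Fin n) F) - 1 with hX'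
  set Y' := ((h⁻¹ : Matrix.SpecialLinearGroup (Fin n) F) : Matrix (Fin n) (Fin n) F) - 1 with hY'
  have eg' : ((g⁻¹ : Matrix.SpecialLinearGroup (Fin n) F) : Matrix (Fin n) (Fin n) F) = 1 + X' := by
    rw [hX']; abel
  have eh' : ((h⁻¹ : Matrix.SpecialLinearGroup (Fin n) F) : Matrix (Fin n) (Fin n) F) = 1 + Y' := by
    rw [hY']; abel
  -- `⁅g,h⁆ - 1 = (gh - hg) g⁻¹ h⁻¹`
  have e1 : ((⁅g, h⁆ : Matrix.SpecialLinearGroup (Fin n) F) : Matrix (Fin n) (Fin n) F) - 1 =
      (X * Y - Y * X) * ((1 + X') * (1 + Y')) := by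
    have h1 : X * Y - Y * X = ((g * h : Matrix.SpecialLinearGroup (Fin n) F) :
        Matrix (Fin n) (Fin n) F) - ((h * g : Matrix.SpecialLinearGroup (Fin n) F) :
        Matrix (Fin n) (Fin n) F) := by
      rw [Matrix.SpecialLinearGroup.coe_mul, Matrix.SpecialLinearGroup.coe_mul, eg, eh, add_mul,
        add_mul, mul_add, mul_add, mul_add, mul_add]
      simp only [Matrix.one_mul, Matrix.mul_one]
      abel
    rw [h1, ← eg', ← eh', ← Matrix.SpecialLinearGroup.coe_mul, Matrix.sub_mul,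
      ← Matrix.SpecialLinearGroup.coe_mul, ← Matrix.SpecialLinearGroup.coe_mul,
      commutatorElement_def]
    congr 1
    · rw [← mul_assoc (g * h)]
    · rw [show h * g * (g⁻¹ * h⁻¹) = 1 by group, Matrix.SpecialLinearGroup.coe_one]
  rw [e1]
  have hXY : Low (k + l) (X * Y - Y * X) :=
    (hg.low.mul hh.low).sub ((hh.low.mul hg.low).mono (by omega))
  have e2 : (X * Y - Y * X) * ((1 + X') * (1 + Y')) - (A * B - B * A) =
      ((X * Y - Y * X) * (X' + Y' + X' * Y')) + ((X * (Y - B) + (X - A) * B) -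
        (Y * (X - A) + (Y - B) * A)) := by
    simp only [add_mul, mul_add, Matrix.mul_sub, Matrix.sub_mul, Matrix.one_mul, Matrix.mul_one]
    abel
  rw [e2]
  have h3 : Low 1 (X' + Y' + X' * Y') := (hgi.add hhi).add ((hgi.mul hhi).mono (by omega))
  refine (hXY.mul h3).add (Low.sub (Low.add ?_ ?_) (Low.add ?_ ?_))
  · exact (hg.low.mul hh.2).mono (by omega)
  · exact (hg.2.mul hh.1).mono (by omega)
  · exact (hh.low.mul hg.2).mono (by omega)
  · exact (hh.2.mul hg.1).mono (by omega)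

/-- matrix units indexed by natural numbers -/
def EE (n : ℕ) (F : Type*) [Field F] (i k : ℕ) : Matrix (Fin n) (Fin n) F :=
  vecMulVec (e n F i) (e n F k)

theorem EE_apply (i k : ℕ) (a b : Fin n) :
    EE n F i k a b = if (a : ℕ) = i ∧ (b : ℕ) = k then 1 else 0 := by
  unfold EE
  rw [vecMulVec_apply, e_apply, e_apply]
  split_ifs <;> simp_all

theorem EE_mul_of_ne {i k l m : ℕ} (h : k ≠ l) : EE n F i k * EE n F l m = 0 := by
  unfold EE
  rw [vecMulVec_mul_vecMulVec]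
  have : e n F k ⬝ᵥ e n F l = 0 := by
    by_cases hl : l < n
    · rw [dot_e hl, e_apply, if_neg (by simpa using h.symm)]
    · rw [e_of_le (F := F) (show n ≤ l by omega), dotProduct_zero]
  rw [this, zero_smul, vecMulVec_zero]

theorem EE_mul {i k m : ℕ} (h : k < n) : EE n F i k * EE n F k m = EE n F i m := by
  unfold EE
  rw [vecMulVec_mul_vecMulVec, dot_e h, e_apply, if_pos rfl, one_smul]

theorem low_EE {i k m : ℕ} (h : k + m ≤ i) (c : F) : Low m (c • EE n F i k) := by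
  intro a b hab
  rw [Matrix.smul_apply, EE_apply, if_neg (by omega), smul_zero]

end Cfsg.Agent.H107.Lead
end

-- part: H107/TwoPrime
section
/-!
Over a field of prime order the companion matrix `w` of `(X-1)^n`, `n ≥ 4`, and its conjugate
under a corner transvection generate `SL_n`.
-/

set_option autoImplicit false

namespace Cfsg.Agent.H107.TwoPrime

open Matrix SLHas Corner Cfsg.Agent.H107.Comp Cfsg.Agent.H107.Lead
open scoped commutatorElement

variable {n : ℕ} {F : Type*} [Field F]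

/-- the upper right corner transvection -/
def P (hn : 4 ≤ n) (τ : F) : Matrix.SpecialLinearGroup (Fin n) F :=
  Matrix.SpecialLinearGroup.transvection
    (show (⟨0, by omega⟩ : Fin n) ≠ ⟨n - 1, by omega⟩ by
      intro h; rw [Fin.mk.injEq] at h; omega) τ

theorem P_coe (hn : 4 ≤ n) (τ : F) :
    (P hn τ : Matrix (Fin n) (Fin n) F) = 1 + τ • vecMulVec (e n F 0) (e n F (n - 1)) := by
  change (1 : Matrix (Fin n) (Fin n) F) + single _ _ τ = _
  congr 1
  ext k l
  simp only [single_apply, Matrix.smul_apply, vecMulVec_apply, e_apply]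
  by_cases h1 : (k : ℕ) = 0 <;> by_cases h2 : (l : ℕ) = n - 1 <;>
    simp [h1, h2, Fin.ext_iff, eq_comm]

theorem P_inv (hn : 4 ≤ n) (τ : F) : (P hn τ)⁻¹ = P hn (-τ) := by
  rw [inv_eq_iff_mul_eq_one]
  apply Subtype.ext
  have h0 : vecMulVec (e n F 0) (e n F (n - 1)) * vecMulVec (e n F 0) (e n F (n - 1)) = 0 := by
    rw [vecMulVec_mul_vecMulVec, show e n F (n - 1) ⬝ᵥ e n F 0 = 0 by
      rw [dot_e (show 0 < n by omega), e_apply, if_neg (by simp; omega)], zero_smul,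
      vecMulVec_zero]
  rw [Matrix.SpecialLinearGroup.coe_mul, P_coe, P_coe, Matrix.SpecialLinearGroup.coe_one, mul_add,
    Matrix.mul_one, add_mul, Matrix.one_mul, Matrix.smul_mul, Matrix.mul_smul, h0, neg_smul,
    smul_zero, smul_zero]
  abel

variable {w : Matrix.SpecialLinearGroup (Fin n) F}

/-- `w^j P w^{-j}` -/
def R (hn : 4 ≤ n) (w : Matrix.SpecialLinearGroup (Fin n) F) (j : ℕ) (τ : F) :
    Matrix.SpecialLinearGroup (Fin n) F :=
  w ^ j * P hn τ * (w ^ j)⁻¹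

/-- the functional `e_{n-1} w^{-j}` -/
def rho (w : Matrix.SpecialLinearGroup (Fin n) F) (j : ℕ) : Fin n → F :=
  e n F (n - 1) ᵥ* (((w ^ j)⁻¹ : Matrix.SpecialLinearGroup (Fin n) F) : Matrix (Fin n) (Fin n) F)

theorem inv_pow_mulVec (hw : Shift w) {j k : ℕ} (h : k + j < n) :
    (((w ^ j)⁻¹ : Matrix.SpecialLinearGroup (Fin n) F) : Matrix (Fin n) (Fin n) F) *ᵥ
      e n F (k + j) = e n F k := by
  rw [← hw.pow_mulVec j k h, ← Matrix.SpecialLinearGroup.coe_pow, mulVec_mulVec, inv_mul_coe,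
    one_mulVec]

theorem rho_apply (w : Matrix.SpecialLinearGroup (Fin n) F) (j : ℕ) {k : ℕ} (hk : k < n) :
    rho w j ⟨k, hk⟩ = e n F (n - 1) ⬝ᵥ
      ((((w ^ j)⁻¹ : Matrix.SpecialLinearGroup (Fin n) F) : Matrix (Fin n) (Fin n) F) *ᵥ
        e n F k) := by
  rw [dotProduct_mulVec, dot_e hk]
  rfl

theorem rho_ge (hw : Shift w) {j k : ℕ} (hj : 1 ≤ j) (hjk : j ≤ k) (hk : k < n) :
    rho w j ⟨k, hk⟩ = 0 := by
  obtain ⟨d, rfl⟩ := Nat.exists_eq_add_of_le' hjk
  rw [rho_apply, inv_pow_mulVec hw hk, dot_e (by omega), e_apply, if_neg (by simp; omega)]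

theorem rho_pred (hw : Shift w) {j : ℕ} (hj : j + 1 < n) :
    rho w (j + 1) ⟨j, by omega⟩ = rho w 1 ⟨0, by omega⟩ := by
  rw [rho_apply, rho_apply]
  congr 1
  have h1 : ((((w ^ (j + 1))⁻¹ : Matrix.SpecialLinearGroup (Fin n) F)) :
      Matrix (Fin n) (Fin n) F) = (((w ^ 1)⁻¹ : Matrix.SpecialLinearGroup (Fin n) F) :
      Matrix (Fin n) (Fin n) F) * (((w ^ j)⁻¹ : Matrix.SpecialLinearGroup (Fin n) F) :
      Matrix (Fin n) (Fin n) F) := by
    have h2 : (w ^ (j + 1))⁻¹ = (w ^ 1)⁻¹ * (w ^ j)⁻¹ := by rw [← _root_.mul_inv_rev, ← pow_add]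
    rw [h2, Matrix.SpecialLinearGroup.coe_mul]
  rw [h1, ← mulVec_mulVec]
  congr 1
  have := inv_pow_mulVec hw (j := j) (k := 0) (by omega)
  rwa [zero_add] at this

theorem rho_one_ne (hn : 4 ≤ n) (hw : Shift w) : rho w 1 ⟨0, by omega⟩ ≠ 0 := by
  intro h
  have h1 : rho w 1 = 0 := by
    ext i
    by_cases hi : (i : ℕ) = 0
    · have : i = ⟨0, by omega⟩ := Fin.ext hi
      rw [this, h]; rfl
    · exact rho_ge hw le_rfl (by omega) i.2
  have h2 : e n F (n - 1) = 0 := by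
    calc e n F (n - 1) = rho w 1 ᵥ* ((w ^ 1 : Matrix.SpecialLinearGroup (Fin n) F) :
          Matrix (Fin n) (Fin n) F) := by
          unfold rho
          rw [vecMul_vecMul, inv_mul_coe, vecMul_one]
      _ = 0 := by rw [h1, zero_vecMul]
  have h3 := congrFun h2 ⟨n - 1, by omega⟩
  rw [e_apply, if_pos rfl] at h3
  exact one_ne_zero h3

theorem R_coe (hn : 4 ≤ n) (hw : Shift w) {j : ℕ} (hj : j < n) (τ : F) :
    (R hn w j τ : Matrix (Fin n) (Fin n) F) = 1 + τ • vecMulVec (e n F j) (rho w j) := by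
  unfold R
  rw [Matrix.SpecialLinearGroup.coe_mul, Matrix.SpecialLinearGroup.coe_mul, P_coe, mul_add,
    add_mul, Matrix.mul_one, mul_inv_coe, Matrix.mul_smul, Matrix.smul_mul, mul_vecMulVec, vecMulVec_mul,
    Matrix.SpecialLinearGroup.coe_pow, hw.pow_mulVec j 0 (by omega), zero_add]
  rfl

theorem R_inv (hn : 4 ≤ n) (j : ℕ) (τ : F) : (R hn w j τ)⁻¹ = R hn w j (-τ) := by
  unfold R
  rw [← P_inv]
  group

theorem lead_R (hn : 4 ≤ n) (hw : Shift w) {j : ℕ} (hj : j + 1 < n) (τ : F) :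
    Lead 1 (R hn w (j + 1) τ) ((τ * rho w 1 ⟨0, by omega⟩) • EE n F (j + 1) j) := by
  refine ⟨low_EE (by omega) _, ?_⟩
  rw [R_coe hn hw hj, add_sub_cancel_left]
  intro a b hab
  rw [Matrix.sub_apply, Matrix.smul_apply, Matrix.smul_apply, vecMulVec_apply, e_apply, EE_apply]
  by_cases ha : (a : ℕ) = j + 1
  · rw [if_pos ha, one_mul]
    by_cases hb : (b : ℕ) = j
    · have : b = ⟨j, by omega⟩ := Fin.ext hb
      rw [if_pos ⟨ha, hb⟩, this, rho_pred hw hj]
      simp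
    · rw [if_neg (fun h => hb h.2)]
      have := rho_ge hw (j := j + 1) (k := b) (by omega) (by omega) b.2
      rw [Fin.eta] at this
      rw [this]
      simp
  · rw [if_neg ha, if_neg (fun h => ha h.1)]
    simp

/-- `w^j (P w P⁻¹ w⁻¹) w^{-j}` -/
theorem lead_r (hn : 4 ≤ n) (hw : Shift w) {j : ℕ} (hj : j + 2 < n) :
    Lead 1 (R hn w (j + 1) 1 * (R hn w (j + 2) 1)⁻¹)
      ((rho w 1 ⟨0, by omega⟩) • EE n F (j + 1) j + (-rho w 1 ⟨0, by omega⟩) •
        EE n F (j + 2) (j + 1)) := by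
  rw [R_inv]
  have h1 := lead_R hn hw (j := j) (by omega) 1
  have h2 := lead_R hn hw (j := j + 1) (by omega) (-1)
  rw [one_mul] at h1
  rw [neg_one_mul] at h2
  exact Lead.mul le_rfl h1 h2

theorem r_mem (hn : 4 ≤ n) {H : Subgroup (Matrix.SpecialLinearGroup (Fin n) F)} (hwH : w ∈ H)
    (hv : P hn 1 * w * (P hn 1)⁻¹ ∈ H) (j : ℕ) :
    R hn w (j + 1) 1 * (R hn w (j + 2) 1)⁻¹ ∈ H := by
  have h1 : R hn w (j + 1) 1 * (R hn w (j + 2) 1)⁻¹ =
      w ^ (j + 1) * (P hn 1 * w * (P hn 1)⁻¹ * w⁻¹) * (w ^ (j + 1))⁻¹ := by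
    unfold R
    rw [pow_succ w (j + 1)]
    group
  rw [h1]
  exact H.mul_mem (H.mul_mem (H.pow_mem hwH _) (H.mul_mem hv (H.inv_mem hwH)))
    (H.inv_mem (H.pow_mem hwH _))

theorem chain (hn : 4 ≤ n) {H : Subgroup (Matrix.SpecialLinearGroup (Fin n) F)} (hw : Shift w)
    (hwH : w ∈ H) (hv : P hn 1 * w * (P hn 1)⁻¹ ∈ H) (k : ℕ) (hk : k + 2 < n) :
    ∃ g ∈ H, ∃ α β : F, β ≠ 0 ∧
      Lead (k + 1) g (α • EE n F (k + 1) 0 + β • EE n F (k + 2) 1) := by
  have hc := rho_one_ne hn hw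
  induction k with
  | zero =>
    exact ⟨_, r_mem hn hwH hv 0, _, _, neg_ne_zero.2 hc, lead_r hn hw (j := 0) (by omega)⟩
  | succ k ih =>
    obtain ⟨g, hg, α, β, hβ, hL⟩ := ih (by omega)
    have h2 := lead_r hn hw (j := k + 1) (by omega)
    set c := rho w 1 ⟨0, by omega⟩ with hcd
    have h3 := Lead.comm (by omega) le_rfl hL h2
    have hr := r_mem hn hwH hv (k + 1)
    refine ⟨_, H.mul_mem (H.mul_mem (H.mul_mem hg hr) (H.inv_mem hg)) (H.inv_mem hr),
      -(c * α), c * β, mul_ne_zero hc hβ, ?_⟩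
    rw [show -(c * α) • EE n F (k + 1 + 1) 0 + (c * β) • EE n F (k + 1 + 2) 1 =
      (α • EE n F (k + 1) 0 + β • EE n F (k + 2) 1) *
        (c • EE n F (k + 1 + 1) (k + 1) + (-c) • EE n F (k + 1 + 2) (k + 1 + 1)) -
      (c • EE n F (k + 1 + 1) (k + 1) + (-c) • EE n F (k + 1 + 2) (k + 1 + 1)) *
        (α • EE n F (k + 1) 0 + β • EE n F (k + 2) 1) by
      simp only [mul_add, add_mul, Matrix.smul_mul, Matrix.mul_smul]
      rw [EE_mul_of_ne (show 0 ≠ k + 1 + 1 by omega), EE_mul_of_ne (show 0 ≠ k + 1 + 2 by omega),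
        EE_mul_of_ne (show 1 ≠ k + 1 + 1 by omega), EE_mul_of_ne (show 1 ≠ k + 1 + 2 by omega),
        EE_mul (show k + 1 < n by omega), EE_mul_of_ne (show k + 1 ≠ k + 2 by omega),
        EE_mul_of_ne (show k + 1 + 1 ≠ k + 1 by omega), EE_mul (show k + 1 + 1 < n by omega)]
      simp only [smul_zero, add_zero, zero_add, zero_sub, smul_smul]
      module]
    exact h3

/-- the corner transvection lies in `⟨w, P w P⁻¹⟩` -/
theorem corner_mem (hn : 4 ≤ n) {H : Subgroup (Matrix.SpecialLinearGroup (Fin n) F)}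
    (hw : Shift w) (hwH : w ∈ H) (hv : P hn 1 * w * (P hn 1)⁻¹ ∈ H) :
    ∃ τ : F, τ ≠ 0 ∧ Has H (e n F (n - 1)) (τ • e n F 0) := by
  have hc := rho_one_ne hn hw
  obtain ⟨m, rfl⟩ : ∃ m, n = m + 4 := ⟨n - 4, by omega⟩
  obtain ⟨g, hg, α, β, hβ, hL⟩ := chain hn hw hwH hv (m + 1) (by omega)
  have h2 := lead_r hn hw (j := 0) (by omega)
  have hr := r_mem hn hwH hv 0
  set c := rho w 1 ⟨0, by omega⟩ with hcd
  have h3 := Lead.comm (by omega) le_rfl hL h2
  rw [show (α • EE (m + 4) F (m + 1 + 1) 0 + β • EE (m + 4) F (m + 1 + 2) 1) *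
        (c • EE (m + 4) F (0 + 1) 0 + (-c) • EE (m + 4) F (0 + 2) (0 + 1)) -
      (c • EE (m + 4) F (0 + 1) 0 + (-c) • EE (m + 4) F (0 + 2) (0 + 1)) *
        (α • EE (m + 4) F (m + 1 + 1) 0 + β • EE (m + 4) F (m + 1 + 2) 1) =
      (β * c) • EE (m + 4) F (m + 3) 0 by
      simp only [mul_add, add_mul, Matrix.smul_mul, Matrix.mul_smul]
      rw [EE_mul_of_ne (show 0 ≠ 0 + 1 by omega), EE_mul_of_ne (show 0 ≠ 0 + 2 by omega),
        EE_mul (show 1 < m + 4 by omega), EE_mul_of_ne (show 1 ≠ 0 + 2 by omega),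
        EE_mul_of_ne (show 0 ≠ m + 1 + 1 by omega), EE_mul_of_ne (show 0 ≠ m + 1 + 2 by omega),
        EE_mul_of_ne (show 0 + 1 ≠ m + 1 + 1 by omega),
        EE_mul_of_ne (show 0 + 1 ≠ m + 1 + 2 by omega)]
      simp only [smul_zero, add_zero, zero_add, sub_zero, smul_smul]
      rw [mul_comm c β]] at h3
  have h4 := h3.2.eq_zero (by omega)
  refine ⟨β * c, mul_ne_zero hβ hc, ?_, _,
    H.mul_mem (H.mul_mem (H.mul_mem hg hr) (H.inv_mem hg)) (H.inv_mem hr), ?_⟩
  · rw [smul_dotProduct, dot_e (by omega), e_apply, if_neg (by simp), smul_zero]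
  · rw [sub_sub, sub_eq_zero] at h4
    rw [vecMulVec_smul]
    exact h4

/-- **Two conjugate regular unipotent elements generate `SL_n(p)`.** -/
theorem top (hn : 4 ≤ n) [Fintype F] (hp : (Fintype.card F).Prime)
    {H : Subgroup (Matrix.SpecialLinearGroup (Fin n) F)} (hw : Shift w)
    (hwH : w ∈ H) (hv : P hn 1 * w * (P hn 1)⁻¹ ∈ H) : H = ⊤ := by
  obtain ⟨τ, hτ, h⟩ := corner_mem hn hw hwH hv
  exact top_of_corner (by omega) hw hwH (full_of_has hp hτ h)

theorem exists_two (hn : 4 ≤ n) [Fintype F] (hp : (Fintype.card F).Prime) :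
    ∃ u g : Matrix.SpecialLinearGroup (Fin n) F, Reg (u : Matrix (Fin n) (Fin n) F) ∧
      Subgroup.closure ({u, g * u * g⁻¹} : Set (Matrix.SpecialLinearGroup (Fin n) F)) = ⊤ := by
  obtain ⟨w, b, hwb, hw⟩ := exists_comp n F
  refine ⟨w, P hn 1, ?_, ?_⟩
  · rw [hwb]
    exact (reg_one_add_N (by omega)).conj (u := J n F) b
  · exact top hn hp hw (Subgroup.subset_closure (by simp)) (Subgroup.subset_closure (by simp))

end Cfsg.Agent.H107.TwoPrime
end

-- part: S2279
section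
set_option autoImplicit false
open Cfsg

namespace Cfsg.Agent.S2279

/-- Let F be a finite field with q elements and n ≥ 4. Then SL_n(F) is generated by two regular unipotent elements (elements u with u − 1 nilpotent and (u − 1)^(n−1) ≠ 0); if q is prime, the two can be taken conjugate in SL_n(F). -/
theorem result {F : Type*} [Field F] [Fintype F] (n : ℕ) (hn : 4 ≤ n) :
    (∃ u v : Matrix.SpecialLinearGroup (Fin n) F, (IsNilpotent ((u : Matrix (Fin n) (Fin n) F) - 1) ∧ ((u : Matrix (Fin n) (Fin n) F) - 1) ^ (n - 1) ≠ 0) ∧ (IsNilpotent ((v : Matrix (Fin n) (Fin n) F) - 1) ∧ ((v : Matrix (Fin n) (Fin n) F) - 1) ^ (n - 1) ≠ 0) ∧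
      Subgroup.closure ({u, v} : Set (Matrix.SpecialLinearGroup (Fin n) F)) = ⊤) ∧
    ((Fintype.card F).Prime → ∃ u g : Matrix.SpecialLinearGroup (Fin n) F, (IsNilpotent ((u : Matrix (Fin n) (Fin n) F) - 1) ∧ ((u : Matrix (Fin n) (Fin n) F) - 1) ^ (n - 1) ≠ 0) ∧
      Subgroup.closure ({u, g * u * g⁻¹} : Set (Matrix.SpecialLinearGroup (Fin n) F)) = ⊤) := by
  refine ⟨?_, fun hp => Cfsg.Agent.H107.TwoPrime.exists_two hn hp⟩
  by_cases hp : (Fintype.card F).Prime
  · obtain ⟨u, g, hu, h⟩ := Cfsg.Agent.H107.TwoPrime.exists_two (n := n) hn hp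
    exact ⟨u, g * u * g⁻¹, hu, hu.conj g, h⟩
  · have h1 : 1 < Fintype.card F := Fintype.one_lt_card
    have h4 : 4 ≤ Fintype.card F := by
      by_contra hcon
      apply hp
      interval_cases Fintype.card F
      · exact Nat.prime_two
      · exact Nat.prime_three
    obtain ⟨u, v, hu, hv, h⟩ := Cfsg.Agent.H107.TwoGen.exists_two (n := n) hn h4
    exact ⟨u, v, hu, hv, h⟩

end Cfsg.Agent.S2279
end
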