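import Cfsg.Statements.S2280
import Cfsg.Agent.H107.Prime
set_option linter.all false

set_option autoImplicit false
open Cfsg

namespace Cfsg.Agent.S2280

open Matrix Cfsg.Agent.H107.SLHas Cfsg.Agent.H107.RingClo Cfsg.Agent.H107.Corner
  Cfsg.Agent.H107.Comp Cfsg.Agent.H107.Prime

theorem low_transvection {n : ℕ} {F : Type*} [Field F] {i j : Fin n} {k : ℕ}
    (h : (j : ℕ) + k ≤ i) (c : F) : Low k (single i j c) := by
  intro a b hab
  rw [single_apply, if_neg]
  rintro ⟨rfl, rfl⟩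
  omega

theorem low_mul_trans {n : ℕ} {F : Type*} [Field F] {u : Matrix.SpecialLinearGroup (Fin n) F}
    (hu : Low 1 ((u : Matrix (Fin n) (Fin n) F) - 1))
    (h1 : ∀ i j : Fin n, (i : ℕ) = (j : ℕ) + 1 → (u : Matrix (Fin n) (Fin n) F) i j = 1)
    {i j : Fin n} (hij : i ≠ j) (h : (j : ℕ) + 2 ≤ i) (c : F) :
    Low 1 (((u * Matrix.SpecialLinearGroup.transvection hij c :
      Matrix.SpecialLinearGroup (Fin n) F) : Matrix (Fin n) (Fin n) F) - 1) ∧
    ∀ a b : Fin n, (a : ℕ) = (b : ℕ) + 1 →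
      ((u * Matrix.SpecialLinearGroup.transvection hij c :
      Matrix.SpecialLinearGroup (Fin n) F) : Matrix (Fin n) (Fin n) F) a b = 1 := by
  have e1 : ((u * Matrix.SpecialLinearGroup.transvection hij c :
      Matrix.SpecialLinearGroup (Fin n) F) : Matrix (Fin n) (Fin n) F) =
      (u : Matrix (Fin n) (Fin n) F) + (single i j c +
        ((u : Matrix (Fin n) (Fin n) F) - 1) * single i j c) := by
    rw [Matrix.SpecialLinearGroup.coe_mul]
    change (u : Matrix (Fin n) (Fin n) F) * (1 + single i j c) = _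
    rw [Matrix.mul_add, Matrix.sub_mul, Matrix.mul_one, Matrix.one_mul]
    abel
  have h2 : Low 2 (single i j c + ((u : Matrix (Fin n) (Fin n) F) - 1) * single i j c) :=
    (low_transvection h c).add ((hu.mul (low_transvection h c)).mono (by omega))
  constructor
  · rw [e1, add_sub_right_comm]
    exact hu.add (h2.mono (by omega))
  · intro a b hab
    rw [e1, Matrix.add_apply, h1 a b hab, h2 a b (by omega), add_zero]

/-- Let F be a finite field and n ≥ 3. Then SL_n(F) is generated by three conjugate regular unipotent elements: there are u with u − 1 nilpotent and (u − 1)^(n−1) ≠ 0, and g, h, such that u, g u g⁻¹ and h u h⁻¹ generate SL_n(F). -/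
theorem result {F : Type*} [Field F] [Fintype F] (n : ℕ) (hn : 3 ≤ n) :
    ∃ u g h : Matrix.SpecialLinearGroup (Fin n) F, (IsNilpotent ((u : Matrix (Fin n) (Fin n) F) - 1) ∧ ((u : Matrix (Fin n) (Fin n) F) - 1) ^ (n - 1) ≠ 0) ∧
      Subgroup.closure ({u, g * u * g⁻¹, h * u * h⁻¹} : Set (Matrix.SpecialLinearGroup (Fin n) F)) = ⊤ := by
  obtain ⟨p, hp⟩ := CharP.exists F
  have hpp : Fact p.Prime := ⟨CharP.char_is_prime F p⟩
  let f : ZMod p →+* F := ZMod.castHom (dvd_refl p) F
  obtain ⟨α, hα0, hα⟩ := exists_gen F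
  obtain ⟨w, b, hwb, hw⟩ := exists_comp n (ZMod p)
  have h20 : (⟨2, by omega⟩ : Fin n) ≠ ⟨0, by omega⟩ := by
    intro h; rw [Fin.mk.injEq] at h; omega
  have hn0 : (⟨n - 1, by omega⟩ : Fin n) ≠ ⟨0, by omega⟩ := by
    intro h; rw [Fin.mk.injEq] at h; omega
  have hJ1 : Low 1 ((J n F : Matrix (Fin n) (Fin n) F) - 1) := by
    rw [J_coe, add_sub_cancel_left]; exact low_N
  have hJ2 : ∀ i j : Fin n, (i : ℕ) = (j : ℕ) + 1 →
      (J n F : Matrix (Fin n) (Fin n) F) i j = 1 := by
    intro i j hij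
    rw [J_coe, Matrix.add_apply, Matrix.one_apply_ne (by
      intro h; rw [h] at hij; omega), zero_add]
    change (if (i : ℕ) = (j : ℕ) + 1 then (1 : F) else 0) = 1
    rw [if_pos hij]
  set y := Matrix.SpecialLinearGroup.transvection h20 α with hy
  set x := Matrix.SpecialLinearGroup.transvection hn0 (1 : F) with hx
  set u := J n F * y with hu
  obtain ⟨hu1, hu2⟩ := low_mul_trans hJ1 hJ2 h20 (by simp) α
  rw [← hy, ← hu] at hu1 hu2
  obtain ⟨hv1, hv2⟩ := low_mul_trans hu1 hu2 hn0 (by simp; omega) (1 : F)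
  rw [← hx] at hv1 hv2
  obtain ⟨g1, hg1⟩ := exists_conj_J_of_low hu1 hu2
  obtain ⟨g2, hg2⟩ := exists_conj_J_of_low hv1 hv2
  set b' := Matrix.SpecialLinearGroup.map f b with hb'
  have hw' : Matrix.SpecialLinearGroup.map f w = b' * J n F * b'⁻¹ := by
    rw [hwb, map_mul, map_mul, map_inv, Cfsg.Agent.H107.Prime.map_J]
  refine ⟨u, g2 * g1⁻¹, b' * g1⁻¹, ?_, ?_⟩
  · rw [hg1]
    exact (reg_one_add_N (by omega)).conj (u := J n F) g1
  have e1 : g2 * g1⁻¹ * u * (g2 * g1⁻¹)⁻¹ = u * x := by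
    rw [hg2, hg1]; group
  have e2 : b' * g1⁻¹ * u * (b' * g1⁻¹)⁻¹ = Matrix.SpecialLinearGroup.map f w := by
    rw [hw', hg1]; group
  rw [e1, e2]
  set H := Subgroup.closure ({u, u * x, Matrix.SpecialLinearGroup.map f w} :
    Set (Matrix.SpecialLinearGroup (Fin n) F)) with hH
  have huH : u ∈ H := Subgroup.subset_closure (by simp)
  have hvH : u * x ∈ H := Subgroup.subset_closure (by simp)
  have hwH : Matrix.SpecialLinearGroup.map f w ∈ H := Subgroup.subset_closure (by simp)
  have hxH : x ∈ H := (Subgroup.mul_mem_cancel_left H huH).1 hvH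
  have hcorner : Has H (e n F (n - 1)) (e n F 0) := by
    have h2 := (hasE_iff hn0).2 hxH
    unfold HasE at h2
    rw [← e_eq_single, ← e_eq_single, one_smul] at h2
    exact h2
  have hmap := map_mem f (by omega) (H := H) hw hwH hcorner
  have hJH : J n F ∈ H := by
    rw [← Cfsg.Agent.H107.Prime.map_J f]
    exact hmap _
  have hyH : y ∈ H := (Subgroup.mul_mem_cancel_left H hJH).1 huH
  refine top_of_gen hn (fun i j hij => ?_) hα h20 ((hasE_iff h20).2 hyH)
  rw [hasE_iff hij, ← map_one f, ← map_transvection]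
  exact hmap _

end Cfsg.Agent.S2280
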