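import Mathlib
import Cfsg.Agent.ClassicalGeometry.SympBasic
import Cfsg.Agent.H107.SpTr
import Cfsg.Agent.H107.Prime
import Cfsg.Agent.H107.SpConj
import Cfsg.Statements.S2281
set_option linter.all false

-- part: H107/SpReg
section
/-!
A regular unipotent element of the symplectic group with a cyclic vector that is not orthogonal
to its image.
-/

set_option autoImplicit false

namespace Cfsg.Agent.H107.SpReg

open Cfsg.Agent.ClassicalGeometry.SympBasic
open Cfsg.Agent.H107.SpGraph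
open Cfsg.Agent.H107.SpTr
open Cfsg.Agent.H107.Comp
open Matrix

variable {n : ℕ} {F : Type*} [Field F]

local notation "⟪" u ", " v "⟫" => Cfsg.sympForm n F u v

/-- the left and the right Lagrangian -/
def iL (x : Fin n → F) : Fin n ⊕ Fin n → F := Sum.elim x 0

/-- the left and the right Lagrangian -/
def iR (x : Fin n → F) : Fin n ⊕ Fin n → F := Sum.elim 0 x

theorem form_LR (x y x' y' : Fin n → F) :
    ⟪iL x + iR y, iL x' + iR y'⟫ = y ⬝ᵥ x' - x ⬝ᵥ y' := by
  rw [sympForm_eq_sum, Finset.sum_sub_distrib]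
  simp [iL, iR, dotProduct]

theorem form_LL (x x' : Fin n → F) : ⟪iL x, iL x'⟫ = 0 := by
  rw [sympForm_eq_sum]
  simp [iL]

theorem form_RR (x x' : Fin n → F) : ⟪iR x, iR x'⟫ = 0 := by
  rw [sympForm_eq_sum]
  simp [iR]

theorem form_L_R (x x' : Fin n → F) : ⟪iL x, iR x'⟫ = - (x ⬝ᵥ x') := by
  rw [sympForm_eq_sum]
  simp [iR, iL, dotProduct]

theorem form_R_L (x x' : Fin n → F) : ⟪iR x, iL x'⟫ = x ⬝ᵥ x' := by
  rw [sympForm_eq_sum]
  simp [iR, iL, dotProduct]

theorem eq_LR (v : Fin n ⊕ Fin n → F) : v = iL (v ∘ Sum.inl) + iR (v ∘ Sum.inr) := by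
  funext i
  rcases i with i | i <;> simp [iL, iR]

theorem iL_add (x y : Fin n → F) : iL (x + y) = iL x + iL y := by
  funext i
  rcases i with i | i <;> simp [iL]

theorem iR_add (x y : Fin n → F) : iR (x + y) = iR x + iR y := by
  funext i
  rcases i with i | i <;> simp [iR]

theorem iR_sub (x y : Fin n → F) : iR (x - y) = iR x - iR y := by
  funext i
  rcases i with i | i <;> simp [iR]

theorem iL_sub (x y : Fin n → F) : iL (x - y) = iL x - iL y := by
  funext i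
  rcases i with i | i <;> simp [iL]

theorem iR_smul (c : F) (x : Fin n → F) : iR (c • x) = c • iR x := by
  funext i
  rcases i with i | i <;> simp [iR]

theorem iL_zero : iL (0 : Fin n → F) = 0 := by
  funext i
  rcases i with i | i <;> simp [iL]

theorem iR_zero : iR (0 : Fin n → F) = 0 := by
  funext i
  rcases i with i | i <;> simp [iR]

/-- the block diagonal matrix -/
def levMat (A B : Matrix (Fin n) (Fin n) F) : Matrix (Fin n ⊕ Fin n) (Fin n ⊕ Fin n) F :=
  Matrix.fromBlocks A 0 0 Bᵀ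

theorem levMat_L (A B : Matrix (Fin n) (Fin n) F) (x : Fin n → F) :
    levMat A B *ᵥ iL x = iL (A *ᵥ x) := by
  rw [levMat, iL, iL, Matrix.fromBlocks_mulVec]
  simp

theorem levMat_R (A B : Matrix (Fin n) (Fin n) F) (x : Fin n → F) :
    levMat A B *ᵥ iR x = iR (Bᵀ *ᵥ x) := by
  rw [levMat, iR, iR, Matrix.fromBlocks_mulVec]
  simp

theorem levMat_mem {A B : Matrix (Fin n) (Fin n) F} (h : B * A = 1) :
    levMat A B ∈ Matrix.symplecticGroup (Fin n) F := by
  rw [mem_symplecticGroup_iff]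
  intro u v
  have key : ∀ x y : Fin n → F, (Bᵀ *ᵥ x) ⬝ᵥ (A *ᵥ y) = x ⬝ᵥ y := by
    intro x y
    rw [Matrix.mulVec_transpose, ← Matrix.dotProduct_mulVec, Matrix.mulVec_mulVec, h,
      Matrix.one_mulVec]
  rw [eq_LR u, eq_LR v, Matrix.mulVec_add, Matrix.mulVec_add, levMat_L, levMat_R, levMat_L,
    levMat_R, form_LR, form_LR, key, dotProduct_comm (A *ᵥ _), key, dotProduct_comm (v ∘ Sum.inr)]

/-- the block diagonal element -/
def lev (A B : Matrix (Fin n) (Fin n) F) (h : B * A = 1) : Matrix.symplecticGroup (Fin n) F :=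
  ⟨levMat A B, levMat_mem h⟩

/-- the inverse of the Jordan block -/
def Ji (n : ℕ) (F : Type*) [Field F] : Matrix (Fin n) (Fin n) F :=
  ((J n F)⁻¹ : Matrix.SpecialLinearGroup (Fin n) F)

theorem Ji_mul : Ji n F * (1 + N n F) = 1 := by
  have h : (J n F)⁻¹ * J n F = 1 := inv_mul_cancel _
  have h2 := congrArg (fun g : Matrix.SpecialLinearGroup (Fin n) F =>
    (g : Matrix (Fin n) (Fin n) F)) h
  simp only [Matrix.SpecialLinearGroup.coe_mul, Matrix.SpecialLinearGroup.coe_one] at h2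
  exact h2

theorem mul_Ji : (1 + N n F) * Ji n F = 1 := by
  have h : J n F * (J n F)⁻¹ = 1 := mul_inv_cancel _
  have h2 := congrArg (fun g : Matrix.SpecialLinearGroup (Fin n) F =>
    (g : Matrix (Fin n) (Fin n) F)) h
  simp only [Matrix.SpecialLinearGroup.coe_mul, Matrix.SpecialLinearGroup.coe_one] at h2
  exact h2

theorem Ji_sub_one : Ji n F - 1 = -(Ji n F * N n F) := by
  have h := Ji_mul (n := n) (F := F)
  rw [mul_add, mul_one] at h
  rw [← h]
  abel

theorem Ji_comm : Commute (Ji n F) (N n F) := by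
  have h1 := Ji_mul (n := n) (F := F)
  have h2 := mul_Ji (n := n) (F := F)
  rw [mul_add, mul_one] at h1
  rw [add_mul, one_mul] at h2
  exact add_left_cancel (h1.trans h2.symm)

theorem Ji_sub_pow (k : ℕ) : (Ji n F - 1) ^ k = (-1) ^ k * (Ji n F ^ k * N n F ^ k) := by
  rw [Ji_sub_one, neg_pow, Ji_comm.mul_pow]

theorem Ji_sub_pow_eq_zero : (Ji n F - 1) ^ n = 0 := by
  rw [Ji_sub_pow, N_pow, mul_zero, mul_zero]

theorem Ji_fix (hn : 0 < n) : Ji n F *ᵥ e n F (n - 1) = e n F (n - 1) := by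
  have h1 : (1 + N n F) *ᵥ e n F (n - 1) = e n F (n - 1) := by
    rw [Matrix.add_mulVec, Matrix.one_mulVec, N_mulVec_e, e_of_le (k := n - 1 + 1) (by omega),
      add_zero]
  have h2 : Ji n F *ᵥ ((1 + N n F) *ᵥ e n F (n - 1)) = e n F (n - 1) := by
    rw [Matrix.mulVec_mulVec, Ji_mul, Matrix.one_mulVec]
  rwa [h1] at h2

theorem Ji_pow_fix (hn : 0 < n) (k : ℕ) : (Ji n F ^ k) *ᵥ e n F (n - 1) = e n F (n - 1) := by
  induction k with
  | zero => rw [pow_zero, Matrix.one_mulVec]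
  | succ k ih => rw [pow_succ, ← Matrix.mulVec_mulVec, Ji_fix hn, ih]

theorem Ji_sub_pow_e (hn : 0 < n) :
    ((Ji n F - 1) ^ (n - 1)) *ᵥ e n F 0 = (-1 : F) ^ (n - 1) • e n F (n - 1) := by
  rw [Ji_sub_pow, ← Matrix.mulVec_mulVec, ← Matrix.mulVec_mulVec, N_pow_mulVec_e, zero_add,
    Ji_pow_fix hn]
  have : ((-1 : Matrix (Fin n) (Fin n) F) ^ (n - 1)) = ((-1 : F) ^ (n - 1)) • 1 := by
    rcases Nat.even_or_odd (n - 1) with h | h
    · rw [h.neg_one_pow, h.neg_one_pow, one_smul]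
    · rw [h.neg_one_pow, h.neg_one_pow, neg_one_smul]
  rw [this, Matrix.smul_mulVec, Matrix.one_mulVec]

/-- the top entry of the inverse Jordan block -/
theorem Ji_dot_zero (hn : 0 < n) : e n F 0 ⬝ᵥ (Ji n F *ᵥ e n F 0) = 1 := by
  have h1 : Ji n F = 1 - N n F * Ji n F := by
    have h2 := mul_Ji (n := n) (F := F)
    rw [add_mul, one_mul] at h2
    rw [← h2]; abel
  rw [h1, Matrix.sub_mulVec, Matrix.one_mulVec, dotProduct_sub, e_dot hn, ← Matrix.mulVec_mulVec,
    e_apply, if_pos rfl, e_dot hn]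
  have : ∀ x : Fin n → F, (N n F *ᵥ x) ⟨0, hn⟩ = 0 := by
    intro x
    rw [Matrix.mulVec, dotProduct]
    refine Finset.sum_eq_zero fun j _ => ?_
    rw [low_N _ j (by change 0 < _; omega), zero_mul]
  rw [this, sub_zero]

/-- The regular unipotent element. -/
def w₀ (n : ℕ) (F : Type*) [Field F] : Matrix.symplecticGroup (Fin n) F :=
  lev (1 + N n F) (Ji n F) Ji_mul * transv (iR (e n F (n - 1))) 1 * transv (iR (e n F 0)) 1

theorem act_w₀_R (x : Fin n → F) : act (w₀ n F) (iR x) = iR ((Ji n F)ᵀ *ᵥ x) := by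
  have h1 : ∀ y : Fin n → F, act (transv (iR y) 1) (iR x) = iR x := fun y => by
    rw [act_transv, form_RR, mul_zero, zero_smul, add_zero]
  rw [w₀, act_mul, act_mul, h1, h1]
  exact levMat_R _ _ _

theorem act_w₀_L (x : Fin n → F) : act (w₀ n F) (iL x) = iL ((1 + N n F) *ᵥ x) -
    iR ((Ji n F)ᵀ *ᵥ ((x ⬝ᵥ e n F 0) • e n F 0 + (x ⬝ᵥ e n F (n - 1)) • e n F (n - 1))) := by
  have h0 : ∀ y z : Fin n → F, act (transv (iR y) 1) (iR z) = iR z := fun y z => by
    rw [act_transv, form_RR, mul_zero, zero_smul, add_zero]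
  have h3 : act (transv (iR (e n F (n - 1))) 1) (act (transv (iR (e n F 0)) 1) (iL x)) =
      iL x + (1 * -(x ⬝ᵥ e n F (n - 1))) • iR (e n F (n - 1)) +
        (1 * -(x ⬝ᵥ e n F 0)) • iR (e n F 0) := by
    rw [act_transv (iR (e n F 0)) (iL x), act_add, act_smul, h0, act_transv, form_L_R, form_L_R]
  rw [w₀, act_mul, act_mul, h3, act_add, act_add, act_smul, act_smul]
  have h1 : ∀ y : Fin n → F, act (lev (1 + N n F) (Ji n F) Ji_mul) (iR y) =
    iR ((Ji n F)ᵀ *ᵥ y) := fun y => levMat_R _ _ _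
  have h2 : act (lev (1 + N n F) (Ji n F) Ji_mul) (iL x) = iL ((1 + N n F) *ᵥ x) :=
    levMat_L _ _ _
  rw [h1, h1, h2, Matrix.mulVec_add, iR_add, Matrix.mulVec_smul, Matrix.mulVec_smul, iR_smul,
    iR_smul]
  module

theorem sub_one_mulVec (g : Matrix.symplecticGroup (Fin n) F) (x : Fin n ⊕ Fin n → F) :
    ((g : Matrix (Fin n ⊕ Fin n) (Fin n ⊕ Fin n) F) - 1) *ᵥ x = act g x - x := by
  rw [Matrix.sub_mulVec, Matrix.one_mulVec]; rfl

/-- the nilpotent part -/
def Nw (n : ℕ) (F : Type*) [Field F] : Matrix (Fin n ⊕ Fin n) (Fin n ⊕ Fin n) F :=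
  (w₀ n F : Matrix (Fin n ⊕ Fin n) (Fin n ⊕ Fin n) F) - 1

theorem Nw_R (x : Fin n → F) : Nw n F *ᵥ iR x = iR ((Ji n F - 1)ᵀ *ᵥ x) := by
  rw [Nw, sub_one_mulVec, act_w₀_R, Matrix.transpose_sub, Matrix.sub_mulVec,
    Matrix.transpose_one, Matrix.one_mulVec, iR_sub]

theorem Nw_pow_R (k : ℕ) (x : Fin n → F) :
    (Nw n F ^ k) *ᵥ iR x = iR (((Ji n F - 1) ^ k)ᵀ *ᵥ x) := by
  induction k with
  | zero => rw [pow_zero, pow_zero, Matrix.transpose_one, Matrix.one_mulVec, Matrix.one_mulVec]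
  | succ k ih =>
    rw [pow_succ', ← Matrix.mulVec_mulVec, ih, Nw_R, Matrix.mulVec_mulVec,
      ← Matrix.transpose_mul, ← pow_succ]

theorem Nw_L (x : Fin n → F) : Nw n F *ᵥ iL x = iL (N n F *ᵥ x) -
    iR ((Ji n F)ᵀ *ᵥ ((x ⬝ᵥ e n F 0) • e n F 0 + (x ⬝ᵥ e n F (n - 1)) • e n F (n - 1))) := by
  rw [Nw, sub_one_mulVec, act_w₀_L, Matrix.add_mulVec, Matrix.one_mulVec, iL_add]
  abel

theorem Nw_pow_L (k : ℕ) (x : Fin n → F) :
    ∃ y, (Nw n F ^ k) *ᵥ iL x = iL ((N n F ^ k) *ᵥ x) + iR y := by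
  induction k with
  | zero => exact ⟨0, by rw [pow_zero, pow_zero, Matrix.one_mulVec, Matrix.one_mulVec, iR_zero,
      add_zero]⟩
  | succ k ih =>
    obtain ⟨y, hy⟩ := ih
    refine ⟨-((Ji n F)ᵀ *ᵥ (((N n F ^ k *ᵥ x) ⬝ᵥ e n F 0) • e n F 0 +
      ((N n F ^ k *ᵥ x) ⬝ᵥ e n F (n - 1)) • e n F (n - 1))) + (Ji n F - 1)ᵀ *ᵥ y, ?_⟩
    rw [pow_succ', ← Matrix.mulVec_mulVec, hy, Matrix.mulVec_add, Nw_L, Nw_R,
      Matrix.mulVec_mulVec, ← pow_succ', iR_add, ← neg_one_smul F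
        ((Ji n F)ᵀ *ᵥ (((N n F ^ k *ᵥ x) ⬝ᵥ e n F 0) • e n F 0 +
      ((N n F ^ k *ᵥ x) ⬝ᵥ e n F (n - 1)) • e n F (n - 1))), iR_smul]
    module

theorem Nw_pow_eq_zero : Nw n F ^ (2 * n) = 0 := by
  rw [← Matrix.mulVec_injective.eq_iff]
  funext v
  rw [eq_LR v, Matrix.mulVec_add, two_mul, pow_add, ← Matrix.mulVec_mulVec,
    ← Matrix.mulVec_mulVec]
  obtain ⟨y, hy⟩ := Nw_pow_L n (v ∘ Sum.inl)
  rw [hy, N_pow, Matrix.zero_mulVec, iL_zero, zero_add, Nw_pow_R, Nw_pow_R, Nw_pow_R,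
    Ji_sub_pow_eq_zero, Matrix.transpose_zero, Matrix.zero_mulVec, Matrix.zero_mulVec,
    Matrix.zero_mulVec, iR_zero, add_zero]

theorem Nw_pow_e_ne_zero (hn : 2 ≤ n) : (Nw n F ^ (2 * n - 1)) *ᵥ iL (e n F 0) ≠ 0 := by
  obtain ⟨y, hy⟩ := Nw_pow_L (n - 1) (e n F 0)
  rw [N_pow_mulVec_e, zero_add] at hy
  have h1 : (Nw n F ^ n) *ᵥ iL (e n F 0) =
      iR (-((Ji n F)ᵀ *ᵥ e n F (n - 1)) + (Ji n F - 1)ᵀ *ᵥ y) := by
    have hn' : Nw n F ^ n = Nw n F * Nw n F ^ (n - 1) := by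
      rw [← pow_succ']; congr 1; omega
    rw [hn', ← Matrix.mulVec_mulVec, hy, Matrix.mulVec_add, Nw_L, N_mulVec_e,
      e_of_le (k := n - 1 + 1) (by omega), iL_zero, dot_e (by omega : 0 < n),
      dot_e (by omega : n - 1 < n), e_apply, e_apply, if_neg (by change ¬ (0 = n - 1); omega),
      if_pos (by simp), zero_smul, one_smul, zero_add, Nw_R, iR_add, ← neg_one_smul F
        ((Ji n F)ᵀ *ᵥ e n F (n - 1)), iR_smul]
    module
  intro h
  rw [show 2 * n - 1 = (n - 1) + n by omega, pow_add, ← Matrix.mulVec_mulVec, h1, Nw_pow_R] at h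
  have h2 := congrArg (fun v => v ∘ Sum.inr ⬝ᵥ e n F 0) h
  simp only [iR, Sum.elim_comp_inr] at h2
  have h3 : (0 : Fin n ⊕ Fin n → F) ∘ Sum.inr ⬝ᵥ e n F 0 = 0 := zero_dotProduct _
  rw [h3, Matrix.mulVec_transpose, ← Matrix.dotProduct_mulVec, Ji_sub_pow_e (by omega),
    dotProduct_smul, add_dotProduct, neg_dotProduct, Matrix.mulVec_transpose,
    ← Matrix.dotProduct_mulVec, Ji_fix (by omega), Matrix.mulVec_transpose,
    ← Matrix.dotProduct_mulVec, Matrix.sub_mulVec, Ji_fix (by omega), Matrix.one_mulVec, sub_self,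
    dotProduct_zero, add_zero, dot_e (by omega), e_apply, if_pos (by simp), smul_eq_mul] at h2
  exact mul_ne_zero (pow_ne_zero _ (neg_ne_zero.2 one_ne_zero)) (neg_ne_zero.2 one_ne_zero) h2

theorem form_w₀ (hn : 2 ≤ n) : ⟪iL (e n F 0), act (w₀ n F) (iL (e n F 0))⟫ = 1 := by
  rw [act_w₀_L, dot_e (by omega : 0 < n), dot_e (by omega : n - 1 < n), e_apply, e_apply,
    if_pos rfl, if_neg (by change ¬ (n - 1 = 0); omega), one_smul, zero_smul, add_zero,
    sympForm_sub_right, form_LL, form_L_R, zero_sub, neg_neg, Matrix.mulVec_transpose,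
    dotProduct_comm, ← Matrix.dotProduct_mulVec, Ji_dot_zero (by omega)]

end Cfsg.Agent.H107.SpReg
end

-- part: H107/SpCyc
section
/-!
Cyclic vectors of regular unipotent symplectic elements; base change.
-/

set_option autoImplicit false

namespace Cfsg.Agent.H107.SpCyc

open Cfsg.Agent.ClassicalGeometry.SympBasic
open Cfsg.Agent.H107.SpGraph
open Cfsg.Agent.H107.SpTr
open Cfsg.Agent.H107.SpReg
open Matrix

variable {n : ℕ} {F : Type*} [Field F]

local notation "⟪" u ", " v "⟫" => Cfsg.sympForm n F u v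

theorem linInd {ι : Type*} [Fintype ι] [DecidableEq ι] {N : Matrix ι ι F} {m : ℕ} {y : ι → F}
    (h0 : N ^ m = 0) (hy : (N ^ (m - 1)) *ᵥ y ≠ 0) :
    LinearIndependent F (fun i : Fin m => (N ^ (i : ℕ)) *ᵥ y) := by
  rw [Fintype.linearIndependent_iff]
  intro g hg
  have key : ∀ k : ℕ, ∀ i : Fin m, (i : ℕ) = k → g i = 0 := by
    intro k
    induction k using Nat.strong_induction_on with
    | _ k ih =>
      intro i hi
      have h1 := congrArg (fun v => (N ^ (m - 1 - k)) *ᵥ v) hg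
      simp only [Matrix.mulVec_zero] at h1
      rw [Matrix.mulVec_sum, Finset.sum_eq_single i] at h1
      · rw [Matrix.mulVec_smul, Matrix.mulVec_mulVec, ← pow_add, hi,
          show m - 1 - k + k = m - 1 by have := i.2; omega, smul_eq_zero] at h1
        exact h1.resolve_right hy
      · intro j _ hji
        rcases lt_or_gt_of_ne (fun h => hji (Fin.ext h) : (j : ℕ) ≠ (i : ℕ)) with h | h
        · rw [ih j (by omega) j rfl, zero_smul, Matrix.mulVec_zero]
        · rw [Matrix.mulVec_smul, Matrix.mulVec_mulVec, ← pow_add,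
            show m - 1 - k + j = m + (m - 1 - k + j - m) by omega, pow_add, h0, zero_mul,
            Matrix.zero_mulVec, smul_zero]
      · intro h
        exact absurd (Finset.mem_univ i) h
  exact fun i => key i i rfl

theorem span_pow {g : Matrix.symplecticGroup (Fin n) F} {y : Fin n ⊕ Fin n → F} (hn : 0 < n)
    (h0 : ((g : Matrix (Fin n ⊕ Fin n) (Fin n ⊕ Fin n) F) - 1) ^ (2 * n) = 0)
    (hy : (((g : Matrix (Fin n ⊕ Fin n) (Fin n ⊕ Fin n) F) - 1) ^ (2 * n - 1)) *ᵥ y ≠ 0) :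
    Submodule.span F (Set.range fun k : ℕ => act (g ^ k) y) = ⊤ := by
  have h1 := linInd h0 hy
  have hne : Nonempty (Fin (2 * n)) := ⟨⟨0, by omega⟩⟩
  have h2 := h1.span_eq_top_of_card_eq_finrank' (by
    rw [Fintype.card_fin, Module.finrank_fintype_fun_eq_card, Fintype.card_sum, Fintype.card_fin,
      two_mul])
  rw [eq_top_iff, ← h2, Submodule.span_le]
  rintro _ ⟨i, rfl⟩
  have key : ∀ k : ℕ, (((g : Matrix (Fin n ⊕ Fin n) (Fin n ⊕ Fin n) F) - 1) ^ k) *ᵥ y ∈
      Submodule.span F (Set.range fun k : ℕ => act (g ^ k) y) := by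
    have hstab : ∀ x ∈ Submodule.span F (Set.range fun k : ℕ => act (g ^ k) y),
        act g x ∈ Submodule.span F (Set.range fun k : ℕ => act (g ^ k) y) := by
      intro x hx
      induction hx using Submodule.span_induction with
      | mem x hx =>
        obtain ⟨k, rfl⟩ := hx
        refine Submodule.subset_span ⟨k + 1, ?_⟩
        change act (g ^ (k + 1)) y = act g (act (g ^ k) y)
        rw [pow_succ', act_mul]
      | zero => rw [act_zero]; exact Submodule.zero_mem _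
      | add x y _ _ hx hy => rw [act_add]; exact Submodule.add_mem _ hx hy
      | smul c x _ hx => rw [act_smul]; exact Submodule.smul_mem _ _ hx
    intro k
    induction k with
    | zero =>
      rw [pow_zero, Matrix.one_mulVec]
      exact Submodule.subset_span ⟨0, by simp only [pow_zero, act_one]⟩
    | succ k ih =>
      rw [pow_succ', ← Matrix.mulVec_mulVec, sub_one_mulVec]
      exact Submodule.sub_mem _ (hstab _ ih) ih
  exact key i

/-! ### Base change -/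

section Map

variable {K : Type*} [Field K] (f : K →+* F)

/-- the coordinatewise map -/
def io (x : Fin n ⊕ Fin n → K) : Fin n ⊕ Fin n → F := fun i => f (x i)

theorem io_add (x y : Fin n ⊕ Fin n → K) : io f (x + y) = io f x + io f y := by
  funext i; exact map_add f _ _

theorem io_sub (x y : Fin n ⊕ Fin n → K) : io f (x - y) = io f x - io f y := by
  funext i; exact map_sub f _ _

theorem io_smul (c : K) (x : Fin n ⊕ Fin n → K) : io f (c • x) = f c • io f x := by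
  funext i; exact map_mul f _ _

theorem io_zero : io f (0 : Fin n ⊕ Fin n → K) = 0 := by
  funext i; exact map_zero f

theorem io_ne_zero {x : Fin n ⊕ Fin n → K} (h : x ≠ 0) : io f x ≠ 0 := by
  intro h1
  apply h
  funext i
  have h2 := congrFun h1 i
  exact (map_eq_zero f).1 h2

theorem form_io (x y : Fin n ⊕ Fin n → K) :
    ⟪io f x, io f y⟫ = f (Cfsg.sympForm n K x y) := by
  rw [sympForm_eq_sum, sympForm_eq_sum, map_sum]
  refine Finset.sum_congr rfl fun i _ => ?_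
  rw [map_sub, map_mul, map_mul]
  rfl

theorem J_map : (Matrix.J (Fin n) K).map f = Matrix.J (Fin n) F := by
  rw [Matrix.J, Matrix.J, Matrix.fromBlocks_map]
  congr 1
  · ext; simp
  · ext i j; simp [Matrix.one_apply, apply_ite f]
  · ext i j; simp [Matrix.one_apply, apply_ite f]
  · ext; simp

/-- base change of the symplectic group -/
def mapSp : Matrix.symplecticGroup (Fin n) K →* Matrix.symplecticGroup (Fin n) F where
  toFun g := ⟨(g : Matrix (Fin n ⊕ Fin n) (Fin n ⊕ Fin n) K).map f, by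
    rw [SymplecticGroup.mem_iff, ← J_map f, ← Matrix.map_mul, ← Matrix.transpose_map,
      ← Matrix.map_mul, SymplecticGroup.mem_iff.1 g.2]⟩
  map_one' := Subtype.ext (by
    change (1 : Matrix (Fin n ⊕ Fin n) (Fin n ⊕ Fin n) K).map f = 1
    exact Matrix.map_one f (map_zero f) (map_one f))
  map_mul' g h := Subtype.ext (by
    change ((g : Matrix (Fin n ⊕ Fin n) (Fin n ⊕ Fin n) K) * h).map f = _
    rw [Matrix.map_mul]; rfl)

theorem coe_mapSp (g : Matrix.symplecticGroup (Fin n) K) :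
    (mapSp f g : Matrix (Fin n ⊕ Fin n) (Fin n ⊕ Fin n) F) =
      (g : Matrix (Fin n ⊕ Fin n) (Fin n ⊕ Fin n) K).map f := rfl

theorem act_io (g : Matrix.symplecticGroup (Fin n) K) (x : Fin n ⊕ Fin n → K) :
    act (mapSp f g) (io f x) = io f (act g x) := by
  funext i
  rw [act_def, act_def, coe_mapSp]
  exact (RingHom.map_mulVec f _ _ i).symm

theorem mapSp_transv (v : Fin n ⊕ Fin n → K) (c : K) :
    mapSp f (transv v c) = transv (io f v) (f c) := by
  apply Subtype.ext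
  rw [coe_mapSp, coe_transv, coe_transv]
  ext i j
  have h := congrFun (act_io f (transv v c) (Pi.single j 1)) i
  rw [act_transv, act_def, coe_mapSp, coe_transv, io_add, io_smul, map_mul] at h
  have h2 : io f (Pi.single j 1 : Fin n ⊕ Fin n → K) = Pi.single j 1 := by
    funext k
    rw [io]
    by_cases hk : k = j
    · rw [hk, Pi.single_eq_same, Pi.single_eq_same, map_one]
    · rw [Pi.single_eq_of_ne hk, Pi.single_eq_of_ne hk, map_zero]
  rw [← form_io, h2, Matrix.mulVec_single_one] at h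
  have h3 := congrFun (sympTransvection_mulVec (io f v) (Pi.single j 1) (f c)) i
  rw [Matrix.mulVec_single_one] at h3
  exact h.trans h3.symm

theorem sub_one_map (g : Matrix.symplecticGroup (Fin n) K) (k : ℕ) :
    ((mapSp f g : Matrix (Fin n ⊕ Fin n) (Fin n ⊕ Fin n) F) - 1) ^ k =
      (((g : Matrix (Fin n ⊕ Fin n) (Fin n ⊕ Fin n) K) - 1) ^ k).map f := by
  have h1 : (mapSp f g : Matrix (Fin n ⊕ Fin n) (Fin n ⊕ Fin n) F) - 1 =
      (f.mapMatrix ((g : Matrix (Fin n ⊕ Fin n) (Fin n ⊕ Fin n) K) - 1)) := by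
    rw [map_sub, map_one]
    rfl
  rw [h1, ← map_pow]
  rfl

theorem sub_one_map_io (g : Matrix.symplecticGroup (Fin n) K) (k : ℕ) (x : Fin n ⊕ Fin n → K) :
    (((mapSp f g : Matrix (Fin n ⊕ Fin n) (Fin n ⊕ Fin n) F) - 1) ^ k) *ᵥ io f x =
      io f ((((g : Matrix (Fin n ⊕ Fin n) (Fin n ⊕ Fin n) K) - 1) ^ k) *ᵥ x) := by
  funext i
  rw [sub_one_map]
  exact (RingHom.map_mulVec f _ _ i).symm

end Map

end Cfsg.Agent.H107.SpCyc
end

-- part: H107/SpOdd
section
/-!
Three conjugate regular unipotents generate `Sp_{2n}(q)`, odd characteristic.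
-/

set_option autoImplicit false

namespace Cfsg.Agent.H107.SpOdd

open Cfsg.Agent.ClassicalGeometry.SympBasic
open Cfsg.Agent.H107.SpGraph
open Cfsg.Agent.H107.SpTr
open Cfsg.Agent.H107.SpReg
open Cfsg.Agent.H107.SpCyc
open Cfsg.Agent.H107.SpConj
open Cfsg.Agent.H107.Comp
open Matrix

variable {n : ℕ} {F : Type*} [Field F]

local notation "⟪" u ", " v "⟫" => Cfsg.sympForm n F u v

/-- `N^k y` -/
def zv (g : Matrix.symplecticGroup (Fin n) F) (y : Fin n ⊕ Fin n → F) (k : ℕ) :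
    Fin n ⊕ Fin n → F :=
  (((g : Matrix (Fin n ⊕ Fin n) (Fin n ⊕ Fin n) F) - 1) ^ k) *ᵥ y

theorem act_zv (g : Matrix.symplecticGroup (Fin n) F) (y : Fin n ⊕ Fin n → F) (k : ℕ) :
    act g (zv g y k) = zv g y k + zv g y (k + 1) := by
  rw [zv, zv, pow_succ', ← Matrix.mulVec_mulVec, sub_one_mulVec]
  abel

theorem zv_succ (g : Matrix.symplecticGroup (Fin n) F) (y : Fin n ⊕ Fin n → F) (k : ℕ) :
    zv g y (k + 1) = act g (zv g y k) - zv g y k := by
  rw [act_zv]; abel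

theorem zv_zero (g : Matrix.symplecticGroup (Fin n) F) (y : Fin n ⊕ Fin n → F) :
    zv g y 0 = y := by
  rw [zv, pow_zero, Matrix.one_mulVec]

theorem orth_of_fix {g : Matrix.symplecticGroup (Fin n) F} {a : Fin n ⊕ Fin n → F}
    (h : act g a = a) (x : Fin n ⊕ Fin n → F) : ⟪a, act g x - x⟫ = 0 := by
  rw [sympForm_sub_right]
  nth_rewrite 1 [← h]
  rw [form_act, sub_self]

theorem zv_map {K : Type*} [Field K] (f : K →+* F) (g : Matrix.symplecticGroup (Fin n) K)
    (y : Fin n ⊕ Fin n → K) (k : ℕ) : zv (mapSp f g) (io f y) k = io f (zv g y k) :=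
  sub_one_map_io f g k y

/-- base vector -/
def a₀ (n : ℕ) (F : Type*) [Field F] : Fin n ⊕ Fin n → F := iL (e n F 0)

theorem zv_top : zv (w₀ n F) (a₀ n F) (2 * n) = 0 := by
  have h : ((w₀ n F : Matrix (Fin n ⊕ Fin n) (Fin n ⊕ Fin n) F) - 1) ^ (2 * n) = 0 :=
    Nw_pow_eq_zero
  rw [zv, h, Matrix.zero_mulVec]

theorem zv_ne (hn : 2 ≤ n) : zv (w₀ n F) (a₀ n F) (2 * n - 1) ≠ 0 := Nw_pow_e_ne_zero hn

theorem a₀_ne (hn : 0 < n) : a₀ n F ≠ 0 := by
  intro h
  have h1 := congrFun h (Sum.inl ⟨0, hn⟩)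
  rw [a₀, iL, Sum.elim_inl, e_apply, if_pos rfl] at h1
  exact one_ne_zero h1

section Map

variable {K : Type*} [Field K] (f : K →+* F) {H : Subgroup (Matrix.symplecticGroup (Fin n) F)}

theorem span_map (hn : 2 ≤ n) :
    Submodule.span F (Set.range fun k : ℕ =>
      act ((mapSp f (w₀ n K)) ^ k) (io f (a₀ n K))) = ⊤ := by
  refine span_pow (by omega) ?_ ?_
  · rw [sub_one_map]
    have h : ((w₀ n K : Matrix (Fin n ⊕ Fin n) (Fin n ⊕ Fin n) K) - 1) ^ (2 * n) = 0 :=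
      Nw_pow_eq_zero
    rw [h]
    exact Matrix.map_zero f (map_zero f)
  · rw [sub_one_map_io]
    exact io_ne_zero f (Nw_pow_e_ne_zero hn)

theorem form_map (hn : 2 ≤ n) :
    ⟪io f (a₀ n K), act (mapSp f (w₀ n K)) (io f (a₀ n K))⟫ ≠ 0 := by
  rw [act_io, form_io, a₀, form_w₀ hn, map_one]
  exact one_ne_zero

theorem mem_full_comap {p : ℕ} [Fact p.Prime] (f : ZMod p →+* F)
    {H : Subgroup (Matrix.symplecticGroup (Fin n) F)} {a : Fin n ⊕ Fin n → ZMod p} (ha : a ≠ 0)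
    (h : transv (io f a) 1 ∈ H) : a ∈ Full (H.comap (mapSp f)) := by
  refine ⟨ha, fun c => ?_⟩
  rw [Subgroup.mem_comap, mapSp_transv]
  have h1 : f c = (c.val : F) * 1 := by
    rw [mul_one, ← map_natCast f, ZMod.natCast_zmod_val]
  rw [h1, transv_natCast]
  exact H.pow_mem h _

/-- the prime subfield group, odd characteristic -/
theorem comap_eq_top {p : ℕ} [Fact p.Prime] (hp : 3 ≤ p) (f : ZMod p →+* F) (hn : 2 ≤ n)
    {H : Subgroup (Matrix.symplecticGroup (Fin n) F)} (hw : mapSp f (w₀ n (ZMod p)) ∈ H)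
    (h : transv (io f (a₀ n (ZMod p))) 1 ∈ H) : H.comap (mapSp f) = ⊤ := by
  have hK : ∃ ν : ZMod p, ν ≠ 0 ∧ ν ≠ 1 := by
    refine ⟨-1, neg_ne_zero.2 one_ne_zero, ?_⟩
    intro h1
    have h2 : ((2 : ℕ) : ZMod p) = 0 := by
      push_cast
      linear_combination -h1
    rw [ZMod.natCast_eq_zero_iff] at h2
    exact absurd (Nat.le_of_dvd (by norm_num) h2) (by omega)
  refine top_of_full hK (w := w₀ n (ZMod p)) (Subgroup.mem_comap.2 hw)
    (mem_full_comap f (a₀_ne (by omega)) h) ?_ ?_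
  · have := form_w₀ (F := ZMod p) hn
    rw [a₀, this]
    exact one_ne_zero
  · exact span_pow (by omega) Nw_pow_eq_zero (Nw_pow_e_ne_zero hn)

theorem mem_all (hmap : ∀ g : Matrix.symplecticGroup (Fin n) K, mapSp f g ∈ H)
    {v v' : Fin n ⊕ Fin n → K} (hv : v ≠ 0) (hv' : v' ≠ 0) {t : F}
    (h : transv (io f v) t ∈ H) : transv (io f v') t ∈ H := by
  obtain ⟨g, hg⟩ := exists_act_eq hv hv'
  rw [← hg, ← act_io]
  exact mem_transv_act (hmap g) h

theorem sq_mem (hn : 2 ≤ n) (hmap : ∀ g : Matrix.symplecticGroup (Fin n) K, mapSp f g ∈ H)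
    {v : Fin n ⊕ Fin n → K} (hv : v ≠ 0) {t : F}
    (h : transv (io f v) t ∈ H) : transv (io f v) (t ^ 2) ∈ H := by
  have h01 : e n K 0 ⬝ᵥ e n K 1 = 0 := by
    rw [e_dot (by omega), e_apply, if_neg (by change ¬ (0 = 1); omega)]
  have h11 : e n K 1 ⬝ᵥ e n K 1 = 1 := by
    rw [e_dot (by omega), e_apply, if_pos rfl]
  have he : ∀ k, k < n → e n K k ≠ 0 := by
    intro k hk h
    have := congrFun h ⟨k, hk⟩
    rw [e_apply, if_pos rfl] at this
    exact one_ne_zero this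
  have hR : ∀ x : Fin n → K, x ≠ 0 → iR x ≠ 0 := by
    intro x hx h
    apply hx
    funext i
    exact congrFun h (Sum.inr i)
  have hL : ∀ x : Fin n → K, x ≠ 0 → iL x ≠ 0 := by
    intro x hx h
    apply hx
    funext i
    exact congrFun h (Sum.inl i)
  have hA0 : iR (e n K 0) ≠ 0 := hR _ (he _ (by omega))
  have hB0 : iR (e n K 1) ≠ 0 := hR _ (he _ (by omega))
  have hC0 : iL (e n K 1) ≠ 0 := hL _ (he _ (by omega))
  have hAB : Cfsg.sympForm n K (iR (e n K 0)) (iR (e n K 1)) = 0 := form_RR _ _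
  have hAC : Cfsg.sympForm n K (iR (e n K 0)) (iL (e n K 1)) = 0 := by rw [form_R_L, h01]
  have hBC : Cfsg.sympForm n K (iR (e n K 1)) (iL (e n K 1)) = 1 := by rw [form_R_L, h11]
  generalize iR (e n K 0) = A at *
  generalize iR (e n K 1) = B at *
  generalize iL (e n K 1) = C at *
  have hABne : A + B ≠ 0 := by
    intro h
    have h1 : Cfsg.sympForm n K (A + B) C = 0 := by rw [h, sympForm_zero_left]
    rw [sympForm_add_left, hAC, hBC, zero_add] at h1
    exact one_ne_zero h1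
  have hCAne : C + A ≠ 0 := by
    intro h
    have h1 : Cfsg.sympForm n K B (C + A) = 0 := by rw [h, sympForm_zero_right]
    rw [sympForm_add_right, hBC, sympForm_swap B A, hAB, neg_zero, add_zero] at h1
    exact one_ne_zero h1
  have hmem : ∀ x : Fin n ⊕ Fin n → K, x ≠ 0 → transv (io f x) t ∈ H :=
    fun x hx => mem_all f hmap hv hx h
  have hmemn : ∀ x : Fin n ⊕ Fin n → K, x ≠ 0 → transv (io f x) (-t) ∈ H := fun x hx => by
    rw [← transv_inv]; exact H.inv_mem (hmem x hx)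
  have hmem1 : ∀ x : Fin n ⊕ Fin n → K, transv (io f x) 1 ∈ H := fun x => by
    have := hmap (transv x 1)
    rwa [mapSp_transv, map_one] at this
  have hZ : Z (io f A) (io f B) t ∈ H := by
    rw [Z, ← io_add]
    exact H.mul_mem (H.mul_mem (hmem _ hABne) (hmemn _ hA0)) (hmemn _ hB0)
  have hZ2 : Z (io f C) (io f A) (-t) ∈ H := by
    rw [Z, ← io_add, neg_neg]
    exact H.mul_mem (H.mul_mem (hmemn _ hCAne) (hmem _ hC0)) (hmem _ hA0)
  have fAB : ⟪io f A, io f B⟫ = 0 := by rw [form_io, hAB, map_zero]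
  have fAC : ⟪io f A, io f C⟫ = 0 := by rw [form_io, hAC, map_zero]
  have fCA : ⟪io f C, io f A⟫ = 0 := eq_swap.1 fAC
  have fCB : ⟪io f C, io f B⟫ = -1 := by rw [sympForm_swap, form_io, hBC, map_one]
  have h1 := mem_transv_act hZ (hmem1 C)
  rw [act_Z fAB, fCA, fCB, mul_zero, zero_smul, add_zero] at h1
  have h2 : transv (io f C + (t * -1) • io f A) 1 =
      transv (io f C) 1 * Z (io f C) (io f A) (-t) * transv (io f A) (t ^ 2) := by
    apply ext_act
    intro x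
    rw [act_mul, act_mul, act_transv, act_transv, act_Z fCA, act_transv]
    simp only [sympForm_add_left, sympForm_add_right, sympForm_smul_left, sympForm_smul_right,
      sympForm_self, fAC, mul_zero, add_zero]
    module
  rw [h2] at h1
  have h3 : transv (io f A) (t ^ 2) ∈ H :=
    (Subgroup.mul_mem_cancel_left _ (H.mul_mem (hmem1 C) hZ2)).1 h1
  exact mem_all f hmap hA0 hv h3

end Map

/-- the parameters of one transvection group form a field -/
theorem full_of_gen {p : ℕ} [Fact p.Prime] (hp : 3 ≤ p) (f : ZMod p →+* F) (hn : 2 ≤ n)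
    {H : Subgroup (Matrix.symplecticGroup (Fin n) F)}
    (hmap : ∀ g : Matrix.symplecticGroup (Fin n) (ZMod p), mapSp f g ∈ H)
    {v : Fin n ⊕ Fin n → ZMod p} (hv : v ≠ 0) {α : F}
    (hα : ∀ x : F, x ≠ 0 → ∃ k : ℕ, x = α ^ k) (h : transv (io f v) α ∈ H) :
    io f v ∈ Full H := by
  have h2 : (2 : ZMod p) ≠ 0 := by
    intro h2
    have h3 : ((2 : ℕ) : ZMod p) = 0 := by exact_mod_cast h2
    rw [ZMod.natCast_eq_zero_iff] at h3
    exact absurd (Nat.le_of_dvd (by norm_num) h3) (by omega)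
  have hnat : ∀ (t : F) (m : ℕ), transv (io f v) t ∈ H → transv (io f v) ((m : F) * t) ∈ H :=
    fun t m ht => by rw [transv_natCast]; exact H.pow_mem ht _
  have hadd : ∀ s t : F, transv (io f v) s ∈ H → transv (io f v) t ∈ H →
      transv (io f v) (s + t) ∈ H := fun s t hs ht => by
    rw [← transv_mul]; exact H.mul_mem hs ht
  have hneg : ∀ s : F, transv (io f v) s ∈ H → transv (io f v) (-s) ∈ H := fun s hs => by
    rw [← transv_inv]; exact H.inv_mem hs
  have hmul : ∀ s t : F, transv (io f v) s ∈ H → transv (io f v) t ∈ H →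
      transv (io f v) (s * t) ∈ H := by
    intro s t hs ht
    have h3 := hadd _ _ (hadd _ _ (sq_mem f hn hmap hv (hadd _ _ hs ht))
      (hneg _ (sq_mem f hn hmap hv hs))) (hneg _ (sq_mem f hn hmap hv ht))
    have h4 := hnat _ ((2 : ZMod p)⁻¹).val h3
    have h5 : ((((2 : ZMod p)⁻¹).val : ℕ) : F) = (2 : F)⁻¹ := by
      rw [← map_natCast f, ZMod.natCast_zmod_val, map_inv₀, map_ofNat]
    have h6 : (2 : F) ≠ 0 := by
      rw [← map_ofNat f 2]
      exact (map_ne_zero f).2 h2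
    rw [h5] at h4
    have h7 : (2 : F)⁻¹ * ((s + t) ^ 2 + -s ^ 2 + -t ^ 2) = s * t := by
      field_simp; ring
    rwa [h7] at h4
  have hone : transv (io f v) 1 ∈ H := by
    have := hmap (transv v 1)
    rwa [mapSp_transv, map_one] at this
  refine ⟨io_ne_zero f hv, fun c => ?_⟩
  by_cases hc : c = 0
  · rw [hc, transv_zero]; exact H.one_mem
  · obtain ⟨k, rfl⟩ := hα c hc
    clear hc
    induction k with
    | zero => rw [pow_zero]; exact hone
    | succ k ih => rw [pow_succ]; exact hmul _ _ ih h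

/-- **Main theorem, odd characteristic.** -/
theorem main_odd [Finite F] {p : ℕ} [Fact p.Prime] (hp : 3 ≤ p) (f : ZMod p →+* F) (hn : 2 ≤ n) :
    ∃ g h : Matrix.symplecticGroup (Fin n) F,
      Subgroup.closure ({mapSp f (w₀ n (ZMod p)), g * mapSp f (w₀ n (ZMod p)) * g⁻¹,
        h * mapSp f (w₀ n (ZMod p)) * h⁻¹} : Set (Matrix.symplecticGroup (Fin n) F)) = ⊤ := by
  obtain ⟨α, hα0, hα⟩ := Prime.exists_gen F
  have h2 : (2 : F) ≠ 0 := by
    rw [← map_ofNat f 2]
    refine (map_ne_zero f).2 ?_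
    intro h2
    have h3 : ((2 : ℕ) : ZMod p) = 0 := by exact_mod_cast h2
    rw [ZMod.natCast_eq_zero_iff] at h3
    exact absurd (Nat.le_of_dvd (by norm_num) h3) (by omega)
  set W := mapSp f (w₀ n (ZMod p)) with hW
  -- the conjugate of `w₀` fixing the base vector
  obtain ⟨g₀, hg₀⟩ := exists_act_eq (zv_ne (F := ZMod p) hn) (a₀_ne (F := ZMod p) (by omega : 0 < n))
  set z1 := zv (w₀ n (ZMod p)) (a₀ n (ZMod p)) (2 * n - 1) with hz1
  set z2 := zv (w₀ n (ZMod p)) (a₀ n (ZMod p)) (2 * n - 2) with hz2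
  have hfix : act (w₀ n (ZMod p)) z1 = z1 := by
    rw [hz1, act_zv, show 2 * n - 1 + 1 = 2 * n by omega, zv_top, add_zero]
  have hnext : act (w₀ n (ZMod p)) z2 = z2 + z1 := by
    rw [hz2, act_zv, show 2 * n - 2 + 1 = 2 * n - 1 by omega]
  have horth : Cfsg.sympForm n (ZMod p) z1 z2 = 0 := by
    have h3 : z2 = act (w₀ n (ZMod p)) (zv (w₀ n (ZMod p)) (a₀ n (ZMod p)) (2 * n - 3)) -
        zv (w₀ n (ZMod p)) (a₀ n (ZMod p)) (2 * n - 3) := by
      rw [← zv_succ, show 2 * n - 3 + 1 = 2 * n - 2 by omega]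
    rw [h3]
    exact orth_of_fix hfix _
  have hconj : ∀ t : F, ∃ h : Matrix.symplecticGroup (Fin n) F,
      h * W * h⁻¹ = transv (io f z1) t * W := by
    intro t
    refine exists_conj_odd h2 (b := io f z2) ?_ ?_ ?_ t
    · rw [hW, act_io, hfix]
    · rw [hW, act_io, hnext, io_add]
    · rw [form_io, horth, map_zero]
  set G := mapSp f g₀ with hG
  have hGz : act G (io f z1) = io f (a₀ n (ZMod p)) := by rw [hG, act_io, hg₀]
  have hconj' : ∀ t : F, ∃ h : Matrix.symplecticGroup (Fin n) F,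
      h * W * h⁻¹ = transv (io f (a₀ n (ZMod p))) t * (G * W * G⁻¹) := by
    intro t
    obtain ⟨h, hh⟩ := hconj t
    refine ⟨G * h, ?_⟩
    rw [← hGz, ← conj_transv]
    have : G * h * W * (G * h)⁻¹ = G * (h * W * h⁻¹) * G⁻¹ := by group
    rw [this, hh]
    group
  obtain ⟨h1, hh1⟩ := hconj' α
  obtain ⟨h3, hh3⟩ := hconj' (1 + α)
  refine ⟨h1, h3, ?_⟩
  rw [hh1, hh3]
  set T := transv (io f (a₀ n (ZMod p))) with hT
  set H := Subgroup.closure ({W, T α * (G * W * G⁻¹), T (1 + α) * (G * W * G⁻¹)} :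
    Set (Matrix.symplecticGroup (Fin n) F)) with hH
  have hWH : W ∈ H := Subgroup.subset_closure (by simp)
  have hX1 : T α * (G * W * G⁻¹) ∈ H := Subgroup.subset_closure (by simp)
  have hX2 : T (1 + α) * (G * W * G⁻¹) ∈ H := Subgroup.subset_closure (by simp)
  have hT1 : T 1 ∈ H := by
    have h4 := H.mul_mem hX2 (H.inv_mem hX1)
    have h5 : T (1 + α) * (G * W * G⁻¹) * (T α * (G * W * G⁻¹))⁻¹ = T 1 := by
      rw [hT, ← transv_mul]; group
    rwa [h5] at h4
  have hcomap := comap_eq_top hp f hn hWH hT1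
  have hmap : ∀ g : Matrix.symplecticGroup (Fin n) (ZMod p), mapSp f g ∈ H := by
    intro g
    rw [← Subgroup.mem_comap, hcomap]
    trivial
  have hTα : T α ∈ H := by
    have h4 : G * W * G⁻¹ ∈ H := H.mul_mem (H.mul_mem (hmap g₀) hWH) (H.inv_mem (hmap g₀))
    exact (Subgroup.mul_mem_cancel_right _ h4).1 hX1
  have hfull := full_of_gen hp f hn hmap (a₀_ne (by omega)) hα hTα
  refine top_of_full ?_ hWH hfull (form_map f hn) (span_map f hn)
  refine ⟨-1, neg_ne_zero.2 one_ne_zero, ?_⟩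
  intro h4
  exact h2 (by linear_combination -h4)

end Cfsg.Agent.H107.SpOdd
end

-- part: H107/SpEven
section
/-!
Three conjugate regular unipotents generate `Sp_{2n}(q)`, even characteristic:
the root subgroup argument.
-/

set_option autoImplicit false

namespace Cfsg.Agent.H107.SpEven

open Cfsg.Agent.ClassicalGeometry.SympBasic
open Cfsg.Agent.H107.SpGraph
open Cfsg.Agent.H107.SpTr
open Cfsg.Agent.H107.SpReg
open Cfsg.Agent.H107.SpCyc
open Cfsg.Agent.H107.SpConj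
open Cfsg.Agent.H107.SpOdd
open Cfsg.Agent.H107.Comp

variable {n : ℕ} {F : Type*} [Field F]

local notation "⟪" u ", " v "⟫" => Cfsg.sympForm n F u v

/-- the elements of the unipotent radical of the stabiliser of `a` -/
def Q (a b : Fin n ⊕ Fin n → F) (t : F) : Matrix.symplecticGroup (Fin n) F :=
  Z a b 1 * transv a t

theorem act_Q {a b : Fin n ⊕ Fin n → F} (hab : ⟪a, b⟫ = 0) (t : F) (x : Fin n ⊕ Fin n → F) :
    act (Q a b t) x = x + ⟪x, a⟫ • b + (⟪x, b⟫ + t * ⟪x, a⟫) • a := by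
  rw [Q, act_mul, act_Z hab, act_transv]
  simp only [sympForm_add_left, sympForm_smul_left, sympForm_self, hab, mul_zero, add_zero]
  module

theorem conj_Q (g : Matrix.symplecticGroup (Fin n) F) (a b : Fin n ⊕ Fin n → F) (t : F) :
    g * Q a b t * g⁻¹ = Q (act g a) (act g b) t := by
  rw [Q, Q, ← conj_Z, ← conj_transv]
  group

theorem mem_Q_act {H : Subgroup (Matrix.symplecticGroup (Fin n) F)}
    {g : Matrix.symplecticGroup (Fin n) F} (hg : g ∈ H) {a b : Fin n ⊕ Fin n → F} {t : F}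
    (h : Q a b t ∈ H) : Q (act g a) (act g b) t ∈ H := by
  rw [← conj_Q]
  exact H.mul_mem (H.mul_mem hg h) (H.inv_mem hg)

theorem Q_mul (h2 : (2 : F) = 0) {a b b' : Fin n ⊕ Fin n → F} (hab : ⟪a, b⟫ = 0)
    (hab' : ⟪a, b'⟫ = 0) (t t' : F) :
    Q a b t * Q a b' t' = Q a (b + b') (t + t' + ⟪b, b'⟫) := by
  have hba' : ⟪b', a⟫ = 0 := eq_swap.1 hab'
  apply ext_act
  intro x
  rw [act_mul, act_Q hab, act_Q hab', act_Q (by rw [sympForm_add_right, hab, hab', add_zero])]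
  simp only [sympForm_add_left, sympForm_add_right, sympForm_smul_left, sympForm_self, hab,
    hba', mul_zero, add_zero, sympForm_swap b' b]
  match_scalars
  · rfl
  · ring
  · linear_combination (-⟪b, b'⟫ * ⟪x, a⟫) * h2
  · ring

theorem Q_zero (a : Fin n ⊕ Fin n → F) (t : F) : Q a 0 t = transv a t := by
  apply ext_act
  intro x
  rw [act_Q (sympForm_zero_right _), act_transv]
  simp only [sympForm_zero_right, smul_zero, add_zero, zero_add]

theorem Q_swap (h2 : (2 : F) = 0) {a b : Fin n ⊕ Fin n → F} (hab : ⟪a, b⟫ = 0) (x t t' : F) :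
    Q a (x • b) t * Q b (x • a) t' = transv a t * transv b t' := by
  have hba : ⟪b, a⟫ = 0 := eq_swap.1 hab
  apply ext_act
  intro y
  rw [act_mul, act_Q (by rw [sympForm_smul_right, hab, mul_zero]),
    act_Q (by rw [sympForm_smul_right, hba, mul_zero]), act_mul, act_transv, act_transv]
  simp only [sympForm_add_left, sympForm_smul_left, sympForm_smul_right,
    sympForm_self, hab, hba, mul_zero, add_zero]
  match_scalars
  · rfl
  · linear_combination (x * ⟪y, b⟫) * h2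
  · linear_combination (x * ⟪y, a⟫) * h2

theorem transv_mul_transv (h2 : (2 : F) = 0) {a b : Fin n ⊕ Fin n → F} (hab : ⟪a, b⟫ = 0)
    (x : F) : transv b 1 * transv (b + x • a) 1 = Q a (x • b) (x ^ 2) := by
  have hba : ⟪b, a⟫ = 0 := eq_swap.1 hab
  apply ext_act
  intro y
  rw [act_mul, act_Q (by rw [sympForm_smul_right, hab, mul_zero]), act_transv, act_transv]
  simp only [sympForm_add_left, sympForm_add_right, sympForm_smul_left, sympForm_smul_right,
    sympForm_self, hab, mul_zero, add_zero]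
  match_scalars
  · rfl
  · linear_combination (⟪y, b⟫) * h2
  · ring

section Rarg

variable {H : Subgroup (Matrix.symplecticGroup (Fin n) F)} {a b₁ b₂ c : Fin n ⊕ Fin n → F}

theorem swap2 (h2 : (2 : F) = 0) (u v : Fin n ⊕ Fin n → F) : ⟪u, v⟫ = ⟪v, u⟫ := by
  rw [sympForm_swap u v]
  linear_combination (-⟪v, u⟫) * h2

theorem add_self2 (h2 : (2 : F) = 0) (v : Fin n ⊕ Fin n → F) : v + v = 0 := by
  rw [← two_smul F v, h2, zero_smul]

/-- moving along the symmetric group on `b₁, b₂, b₁ + b₂` -/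
theorem R_move (h2 : (2 : F) = 0) (hab2 : ⟪a, b₂⟫ = 0)
    (hbb : ⟪b₁, b₂⟫ = 1) (hT2 : transv b₂ 1 ∈ H) {x t : F} :
    Q a (x • b₁) t ∈ H ↔ Q a (x • (b₁ + b₂)) t ∈ H := by
  have h1 : act (transv b₂ 1) a = a := by
    rw [act_transv, hab2, mul_zero, zero_smul, add_zero]
  have h3 : act (transv b₂ 1) (x • b₁) = x • (b₁ + b₂) := by
    rw [act_smul, act_transv, hbb, one_mul, one_smul]
  have h4 : act (transv b₂ 1) (x • (b₁ + b₂)) = x • b₁ := by
    rw [act_smul, act_transv, sympForm_add_left, hbb, sympForm_self, add_zero, one_mul, one_smul,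
      add_assoc, add_self2 h2, add_zero]
  constructor
  · intro h
    have := mem_Q_act hT2 h
    rwa [h1, h3] at this
  · intro h
    have := mem_Q_act hT2 h
    rwa [h1, h4] at this

theorem R_move' (h2 : (2 : F) = 0) (hab1 : ⟪a, b₁⟫ = 0) (hab2 : ⟪a, b₂⟫ = 0)
    (hbb : ⟪b₁, b₂⟫ = 1) (hT1 : transv b₁ 1 ∈ H) (hT2 : transv b₂ 1 ∈ H) {x t : F} :
    Q a (x • b₁) t ∈ H ↔ Q a (x • b₂) t ∈ H := by
  rw [R_move h2 hab2 hbb hT2, add_comm b₁ b₂]
  exact (R_move (b₁ := b₂) (b₂ := b₁) h2 hab1 (by rw [swap2 h2, hbb]) hT1).symm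

/-- normalising the central coordinate -/
theorem R_norm (h2 : (2 : F) = 0) (hab1 : ⟪a, b₁⟫ = 0) (hab2 : ⟪a, b₂⟫ = 0)
    (hbb : ⟪b₁, b₂⟫ = 1) (hT1 : transv b₁ 1 ∈ H) (hT2 : transv b₂ 1 ∈ H) {x t : F}
    (h : Q a (x • b₁) t ∈ H) : Q a (x • b₁) (x ^ 2) ∈ H := by
  have h1 := (R_move' h2 hab1 hab2 hbb hT1 hT2).1 h
  have h3 := H.mul_mem h h1
  rw [Q_mul h2 (by rw [sympForm_smul_right, hab1, mul_zero])
    (by rw [sympForm_smul_right, hab2, mul_zero]), sympForm_smul_left, sympForm_smul_right, hbb,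
    ← smul_add] at h3
  have h4 : t + t + x * (x * 1) = x ^ 2 := by linear_combination t * h2
  rw [h4] at h3
  exact (R_move h2 hab2 hbb hT2).2 h3

/-- the pair of commuting transvections -/
theorem R_pair (h2 : (2 : F) = 0) (hab1 : ⟪a, b₁⟫ = 0)
    (hac : ⟪a, c⟫ = 1) (hbc : ⟪b₁, c⟫ = 1) (hTa : transv a 1 ∈ H) (hT1 : transv b₁ 1 ∈ H)
    (hTc : transv c 1 ∈ H) {x t : F}
    (h : Q a (x • b₁) t ∈ H) : transv a t * transv b₁ t ∈ H := by
  have e1 : act (transv c 1) a = a + c := by rw [act_transv, hac, one_mul, one_smul]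
  have e2 : act (transv c 1) b₁ = b₁ + c := by rw [act_transv, hbc, one_mul, one_smul]
  have hac' : transv (a + c) 1 ∈ H := by rw [← e1]; exact mem_transv_act hTc hTa
  have hbc' : transv (b₁ + c) 1 ∈ H := by rw [← e2]; exact mem_transv_act hTc hT1
  have hba : ⟪b₁, a⟫ = 0 := eq_swap.1 hab1
  have f1 : act (transv (a + c) 1 * transv (b₁ + c) 1) a = b₁ := by
    rw [act_mul, act_transv, act_transv]
    simp only [sympForm_add_left, sympForm_add_right, sympForm_smul_left, sympForm_self, hab1, hac,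
      hbc, hba, swap2 h2 c a, add_zero, zero_add, one_mul]
    match_scalars
    · linear_combination 2 * h2
    · ring
    · linear_combination 2 * h2
  have f2 : act (transv (a + c) 1 * transv (b₁ + c) 1) b₁ = a := by
    rw [act_mul, act_transv, act_transv]
    simp only [sympForm_add_left, sympForm_add_right, sympForm_smul_left, sympForm_self, hac,
      hbc, hba, swap2 h2 c a, add_zero, zero_add, one_mul]
    match_scalars
    · linear_combination h2
    · linear_combination 2 * h2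
    · linear_combination h2
  have h1 := mem_Q_act (H.mul_mem hac' hbc') h
  rw [act_smul, f1, f2] at h1
  have h3 := H.mul_mem h h1
  rwa [Q_swap h2 hab1] at h3

/-- the multiplicative step -/
theorem R_mul (h2 : (2 : F) = 0) (hab1 : ⟪a, b₁⟫ = 0) (hab2 : ⟪a, b₂⟫ = 0)
    (hbb : ⟪b₁, b₂⟫ = 1) (hac : ⟪a, c⟫ = 1) (hbc : ⟪b₁, c⟫ = 1)
    (hTa : transv a 1 ∈ H) (hT1 : transv b₁ 1 ∈ H) (hT2 : transv b₂ 1 ∈ H)
    (hTc : transv c 1 ∈ H) {x y : F}
    (hx : Q a (x • b₁) (x ^ 2) ∈ H) (hy : Q a (y • b₁) (y ^ 2) ∈ H) :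
    Q a ((x ^ 2 * y) • b₁) (x ^ 2 * y ^ 2) ∈ H := by
  have h1 := R_pair h2 hab1 hac hbc hTa hT1 hTc hx
  have h3 := (R_move' h2 hab1 hab2 hbb hT1 hT2).1 hy
  have h4 := mem_Q_act h1 h3
  have hba : ⟪b₁, a⟫ = 0 := eq_swap.1 hab1
  have hb2a : ⟪b₂, a⟫ = 0 := eq_swap.1 hab2
  have e1 : act (transv a (x ^ 2) * transv b₁ (x ^ 2)) a = a := by
    rw [act_mul, act_transv, act_transv]
    simp only [hab1, sympForm_self, mul_zero, zero_smul, add_zero]
  have e2 : act (transv a (x ^ 2) * transv b₁ (x ^ 2)) (y • b₂) = y • b₂ + (x ^ 2 * y) • b₁ := by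
    rw [act_smul, act_mul, act_transv, act_transv]
    simp only [sympForm_add_left, sympForm_smul_left, hba, hb2a, swap2 h2 b₂ b₁, hbb,
      mul_zero, add_zero, mul_one, zero_smul]
    module
  rw [e1, e2] at h4
  have h5 := H.mul_mem h4 h3
  have e0 : ⟪a, y • b₂ + (x ^ 2 * y) • b₁⟫ = 0 := by
    rw [sympForm_add_right, sympForm_smul_right, sympForm_smul_right, hab1, hab2]
    ring
  rw [Q_mul h2 e0 (by rw [sympForm_smul_right, hab2, mul_zero])] at h5
  simp only [sympForm_add_left, sympForm_smul_left, sympForm_smul_right, sympForm_self,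
    hbb] at h5
  have e3 : y • b₂ + (x ^ 2 * y) • b₁ + y • b₂ = (x ^ 2 * y) • b₁ := by
    rw [add_right_comm, add_self2 h2, zero_add]
  have e4 : y ^ 2 + y ^ 2 + y * (y * 0 + x ^ 2 * y * 1) = x ^ 2 * y ^ 2 := by
    linear_combination (y ^ 2) * h2
  rwa [e3, e4] at h5

/-- **The field argument**: the full transvection group of `a` lies in `H`. -/
theorem full_of_R [Finite F] (h2 : (2 : F) = 0) (hab1 : ⟪a, b₁⟫ = 0) (hab2 : ⟪a, b₂⟫ = 0)
    (hbb : ⟪b₁, b₂⟫ = 1) (hac : ⟪a, c⟫ = 1) (hbc : ⟪b₁, c⟫ = 1)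
    (hTa : transv a 1 ∈ H) (hT1 : transv b₁ 1 ∈ H) (hT2 : transv b₂ 1 ∈ H)
    (hTc : transv c 1 ∈ H) {α : F} (hα0 : α ≠ 0) (hα : ∀ x : F, x ≠ 0 → ∃ k : ℕ, x = α ^ k)
    (hK : ∃ ν : F, ν ≠ 0 ∧ ν ≠ 1)
    (hu : transv (b₁ + α • a) 1 ∈ H) : a ∈ Full H := by
  have hba : ⟪b₁, a⟫ = 0 := eq_swap.1 hab1
  have hR : ∀ x y : F, Q a (x • b₁) (x ^ 2) ∈ H → Q a (y • b₁) (y ^ 2) ∈ H →
      Q a ((x ^ 2 * y) • b₁) ((x ^ 2 * y) ^ 2) ∈ H := fun x y hx hy =>
    R_norm h2 hab1 hab2 hbb hT1 hT2 (R_mul h2 hab1 hab2 hbb hac hbc hTa hT1 hT2 hTc hx hy)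
  have hRα : Q a (α • b₁) (α ^ 2) ∈ H := by
    rw [← transv_mul_transv h2 hab1]
    exact H.mul_mem hT1 hu
  have hodd : ∀ k : ℕ, Q a ((α ^ (2 * k + 1)) • b₁) ((α ^ (2 * k + 1)) ^ 2) ∈ H := by
    intro k
    induction k with
    | zero => rw [mul_zero, zero_add, pow_one]; exact hRα
    | succ k ih =>
      have := hR _ _ hRα ih
      rwa [← pow_add, show 2 + (2 * k + 1) = 2 * (k + 1) + 1 by ring] at this
  -- the order of `α` is odd
  obtain ⟨m, hm⟩ : ∃ m : ℕ, α ^ (2 * m + 1) = 1 := by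
    have hft := Fintype.ofFinite F
    have hcard : ¬ Even (Fintype.card F - 1) := by
      have hch : CharP F 2 := CharTwo.of_one_ne_zero_of_two_eq_zero one_ne_zero h2
      obtain ⟨m, hm⟩ := FiniteField.card F 2
      have hpos : 0 < (m : ℕ) := m.2
      rw [hm.2]
      intro h
      have h3 : 2 ∣ 2 ^ (m : ℕ) := dvd_pow_self 2 (by omega)
      have h4 : 1 ≤ 2 ^ (m : ℕ) := Nat.one_le_two_pow
      obtain ⟨r, hr⟩ := h
      omega
    rw [Nat.not_even_iff_odd] at hcard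
    obtain ⟨m, hm⟩ := hcard
    refine ⟨m, ?_⟩
    rw [← hm]
    exact FiniteField.pow_card_sub_one_eq_one α hα0
  have hall : ∀ x : F, x ≠ 0 → Q a (x • b₁) (x ^ 2) ∈ H := by
    intro x hx
    obtain ⟨k, rfl⟩ := hα x hx
    rcases Nat.even_or_odd k with hk | hk
    · obtain ⟨r, rfl⟩ := hk
      have := hodd (r + m)
      rwa [show 2 * (r + m) + 1 = (r + r) + (2 * m + 1) by ring, pow_add, hm, mul_one] at this
    · obtain ⟨r, rfl⟩ := hk
      exact hodd r
  obtain ⟨ν, hν0, hν1⟩ := hK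
  have ha0 : a ≠ 0 := by
    rintro rfl
    rw [sympForm_zero_left] at hac
    exact zero_ne_one hac
  refine ⟨ha0, fun t => ?_⟩
  by_cases ht : t = 0
  · rw [ht, transv_zero]; exact H.one_mem
  -- find `y` with `t = y² ν² (1 + ν²)`
  have hD : ν ^ 2 * (1 + ν ^ 2) ≠ 0 := by
    refine mul_ne_zero (pow_ne_zero _ hν0) ?_
    intro h
    have h3 : (1 + ν) ^ 2 = 0 := by linear_combination h + ν * h2
    have h4 : 1 + ν = 0 := pow_eq_zero_iff (two_ne_zero) |>.1 h3
    exact hν1 (by linear_combination h4 - h2)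
  obtain ⟨y, hy⟩ : ∃ y : F, y ^ 2 = t / (ν ^ 2 * (1 + ν ^ 2)) := by
    have hch : CharP F 2 := CharTwo.of_one_ne_zero_of_two_eq_zero one_ne_zero h2
    have hf2 : Fact (Nat.Prime 2) := ⟨Nat.prime_two⟩
    obtain ⟨y, hy⟩ := (bijective_frobenius F 2).2 (t / (ν ^ 2 * (1 + ν ^ 2)))
    exact ⟨y, hy⟩
  have hy0 : y ≠ 0 := by
    rintro rfl
    rw [zero_pow two_ne_zero] at hy
    exact (div_ne_zero ht hD) hy.symm
  have h3 := R_mul h2 hab1 hab2 hbb hac hbc hTa hT1 hT2 hTc (hall ν hν0) (hall y hy0)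
  have h4 := hall (ν ^ 2 * y) (mul_ne_zero (pow_ne_zero _ hν0) hy0)
  have h5 := H.mul_mem h3 h4
  have e0 : ⟪a, (ν ^ 2 * y) • b₁⟫ = 0 := by rw [sympForm_smul_right, hab1, mul_zero]
  rw [Q_mul h2 e0 e0, add_self2 h2, sympForm_self, Q_zero, add_zero] at h5
  have e5 : ν ^ 2 * y ^ 2 + (ν ^ 2 * y) ^ 2 = t := by
    have h6 : (ν ^ 2 * (1 + ν ^ 2)) * y ^ 2 = t := by
      rw [hy, mul_div_assoc', mul_div_cancel_left₀ _ hD]
    linear_combination h6
  rwa [e5] at h5

end Rarg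

end Cfsg.Agent.H107.SpEven
end

-- part: H107/SpEvenMain
section
/-!
Three conjugate regular unipotents generate `Sp_{2n}(q)`, even characteristic: the theorem.
-/

set_option autoImplicit false

namespace Cfsg.Agent.H107.SpEvenMain

open Cfsg.Agent.ClassicalGeometry.SympBasic
open Cfsg.Agent.H107.SpGraph
open Cfsg.Agent.H107.SpTr
open Cfsg.Agent.H107.SpReg
open Cfsg.Agent.H107.SpCyc
open Cfsg.Agent.H107.SpConj
open Cfsg.Agent.H107.SpOdd
open Cfsg.Agent.H107.SpEven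
open Cfsg.Agent.H107.Comp

variable {n : ℕ} {F : Type*} [Field F]

local notation "⟪" u ", " v "⟫" => Cfsg.sympForm n F u v

theorem zv_add (g : Matrix.symplecticGroup (Fin n) F) (x y : Fin n ⊕ Fin n → F) (k : ℕ) :
    zv g (x + y) k = zv g x k + zv g y k := Matrix.mulVec_add _ _ _

theorem zv_zv (g : Matrix.symplecticGroup (Fin n) F) (y : Fin n ⊕ Fin n → F) (j k : ℕ) :
    zv g (zv g y j) k = zv g y (k + j) := by
  rw [zv, zv, zv, Matrix.mulVec_mulVec, pow_add]

theorem zv_zero' (g : Matrix.symplecticGroup (Fin n) F) (k : ℕ) :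
    zv g 0 k = 0 := Matrix.mulVec_zero _

theorem zv_ne_zero (hn : 2 ≤ n) {k : ℕ} (hk : k < 2 * n) : zv (w₀ n F) (a₀ n F) k ≠ 0 := by
  intro h
  apply zv_ne (F := F) hn
  have h1 := zv_zv (w₀ n F) (a₀ n F) k (2 * n - 1 - k)
  rw [show 2 * n - 1 - k + k = 2 * n - 1 by omega] at h1
  rw [← h1, h, zv_zero']

theorem zv_eq_zero {k : ℕ} (hk : 2 * n ≤ k) : zv (w₀ n F) (a₀ n F) k = 0 := by
  have h1 := zv_zv (w₀ n F) (a₀ n F) (2 * n) (k - 2 * n)
  rw [zv_top, zv_zero', show k - 2 * n + 2 * n = k by omega] at h1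
  exact h1.symm

theorem orth_two {g : Matrix.symplecticGroup (Fin n) F} {a b : Fin n ⊕ Fin n → F}
    (ha : act g a = a) (hb : act g b = b + a) (x : Fin n ⊕ Fin n → F) :
    ⟪b, act g (act g x - x) - (act g x - x)⟫ = 0 := by
  have h1 : ∀ y, ⟪b, act g y - y⟫ = -⟪a, y⟫ := by
    intro y
    have h2 : act g (b - a) = b := by rw [act_sub, ha, hb, add_sub_cancel_right]
    rw [sympForm_sub_right]
    nth_rewrite 1 [← h2]
    rw [form_act, sympForm_sub_left]
    ring
  rw [h1, orth_of_fix ha, neg_zero]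

theorem zmod_two (x : ZMod 2) : x = 0 ∨ x = 1 := by
  fin_cases x
  · left; rfl
  · right; rfl

/-- the configuration inside the group over the prime field -/
theorem exists_config (f : ZMod 2 →+* F) (hn : 2 ≤ n)
    {H : Subgroup (Matrix.symplecticGroup (Fin n) F)} (hw : mapSp f (w₀ n (ZMod 2)) ∈ H)
    (h : transv (io f (a₀ n (ZMod 2))) 1 ∈ H) :
    ∃ b₁ b₂ c : Fin n ⊕ Fin n → ZMod 2,
      b₁ ≠ 0 ∧ b₁ ≠ a₀ n (ZMod 2) ∧
      transv (io f b₁) 1 ∈ H ∧ transv (io f b₂) 1 ∈ H ∧ transv (io f c) 1 ∈ H ∧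
      Cfsg.sympForm n (ZMod 2) (a₀ n (ZMod 2)) b₁ = 0 ∧
      Cfsg.sympForm n (ZMod 2) (a₀ n (ZMod 2)) b₂ = 0 ∧
      Cfsg.sympForm n (ZMod 2) b₁ b₂ = 1 ∧
      Cfsg.sympForm n (ZMod 2) (a₀ n (ZMod 2)) c = 1 ∧
      Cfsg.sympForm n (ZMod 2) b₁ c = 1 := by
  have hf2 : Fact (Nat.Prime 2) := ⟨Nat.prime_two⟩
  have h2 : (2 : ZMod 2) = 0 := rfl
  set w := w₀ n (ZMod 2) with hw'
  set a := a₀ n (ZMod 2) with ha'
  set D := Full (H.comap (mapSp f)) with hD'
  have hD : Clo D := full_clo _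
  have haD : a ∈ D := mem_full_comap f (a₀_ne (by omega)) h
  have hwD : ∀ v ∈ D, act w v ∈ D := fun v hv => full_act (Subgroup.mem_comap.2 hw) hv
  have haw : Cfsg.sympForm n (ZMod 2) a (act w a) = 1 := form_w₀ hn
  have haw' : Cfsg.sympForm n (ZMod 2) a (act w a) ≠ 0 := by rw [haw]; exact one_ne_zero
  have hsp := nb_span hD hwD haD haw' (span_pow (by omega) Nw_pow_eq_zero (Nw_pow_e_ne_zero hn))
  have hN : Clo (Nb D a) := hD.nb_clo a
  have hC : Conn (Nb D a) := hD.nb_conn haD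
  have hnd : NonDeg (Nb D a) := nonDeg_of_span (D := Nb D a) le_rfl hsp
  have hmem : ∀ k : ℕ, act (w ^ k) a ∈ Nb D a := fun k => pow_act_mem hD hwD haD haw' k
  have ha0 : a ∈ Nb D a := by have := hmem 0; rwa [pow_zero, act_one] at this
  have ha1 : act w a ∈ Nb D a := by have := hmem 1; rwa [pow_one] at this
  have ha2 : act w (act w a) ∈ Nb D a := by have := hmem 2; rwa [pow_two, act_mul] at this
  have e1 : act w a = a + zv w a 1 := by
    have := act_zv w a 0
    rwa [zv_zero] at this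
  have e2 : act w (act w a) = a + zv w a 2 := by
    rw [e1, act_add, e1, act_zv]
    rw [show a + zv w a 1 + (zv w a 1 + zv w a (1 + 1)) = a + zv w a (1 + 1) +
      (zv w a 1 + zv w a 1) by abel, add_self2 h2, add_zero]
  obtain ⟨b₁, hb1, hab1, hne⟩ : ∃ b₁ ∈ Nb D a, Cfsg.sympForm n (ZMod 2) a b₁ = 0 ∧ a ≠ b₁ := by
    rcases zmod_two (Cfsg.sympForm n (ZMod 2) a (act w (act w a))) with h0 | h1
    · refine ⟨_, ha2, h0, ?_⟩
      rw [e2]
      intro h3
      exact zv_ne_zero (F := ZMod 2) hn (k := 2) (by omega) (left_eq_add.1 h3)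
    · refine ⟨act w a + act w (act w a), hN.add _ ha1 _ ha2 ?_, ?_, ?_⟩
      · rw [form_act]; exact haw'
      · rw [sympForm_add_right, haw, h1]; rfl
      · intro h3
        have h4 : act w a + act w (act w a) = zv w a 1 + zv w a 2 := by
          rw [e2, e1]
          rw [show a + zv w a 1 + (a + zv w a 2) = zv w a 1 + zv w a 2 + (a + a) by abel,
            add_self2 h2, add_zero]
        rw [h4] at h3
        have h5 := congrArg (fun x => zv w x (2 * n - 1)) h3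
        simp only [zv_add, zv_zv] at h5
        rw [zv_eq_zero (k := 2 * n - 1 + 1) (by omega), zv_eq_zero (k := 2 * n - 1 + 2) (by omega),
          add_zero] at h5
        exact zv_ne (F := ZMod 2) hn h5
  obtain ⟨b₂, hb2, hab2, hbb⟩ := hN.exists_sep zmod_two hC hnd ha0 hb1 hne hab1
  obtain ⟨c, hc, hac, hbc⟩ := hC a ha0 b₁ hb1
  have hone : ∀ v ∈ Nb D a, transv (io f v) 1 ∈ H := by
    intro v hv
    have h3 := hv.1.2 1
    rwa [Subgroup.mem_comap, mapSp_transv, map_one] at h3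
  exact ⟨b₁, b₂, c, hb1.1.1, hne.symm, hone _ hb1, hone _ hb2, hone _ hc, hab1, hab2, hbb,
    (zmod_two _).resolve_left hac, (zmod_two _).resolve_left hbc⟩

theorem exists_kappa (h2 : (2 : F) = 0) {γ : F} (h : γ = 0 ∨ ∃ ν : F, ν ≠ 0 ∧ ν ≠ 1) :
    ∃ k : F, k + γ * k ^ 2 ≠ 0 := by
  by_cases hγ : γ = 0
  · exact ⟨1, by rw [hγ]; simp⟩
  · obtain ⟨ν, hν0, hν1⟩ := h.resolve_left hγ
    refine ⟨ν / γ, ?_⟩
    have h3 : ν / γ + γ * (ν / γ) ^ 2 = (ν / γ) * (1 + ν) := by field_simp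
    rw [h3]
    refine mul_ne_zero (div_ne_zero hν0 hγ) ?_
    intro h4
    exact hν1 (by linear_combination h4 - h2)

theorem exists_sqrt [Finite F] (h2 : (2 : F) = 0) (x : F) : ∃ y : F, y ^ 2 = x := by
  have hch : CharP F 2 := CharTwo.of_one_ne_zero_of_two_eq_zero one_ne_zero h2
  have hf2 : Fact (Nat.Prime 2) := ⟨Nat.prime_two⟩
  obtain ⟨y, hy⟩ := (bijective_frobenius F 2).2 x
  exact ⟨y, hy⟩

/-- the second conjugate -/
theorem exists_U [Finite F] (f : ZMod 2 →+* F) (hn : 2 ≤ n)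
    (hcase : 3 ≤ n ∨ ∃ ν : F, ν ≠ 0 ∧ ν ≠ 1) {b₁ : Fin n ⊕ Fin n → ZMod 2}
    (hb0 : b₁ ≠ 0) (hba : b₁ ≠ a₀ n (ZMod 2))
    (hab : Cfsg.sympForm n (ZMod 2) (a₀ n (ZMod 2)) b₁ = 0) {t : F} (ht : t ≠ 0) :
    ∃ g h : Matrix.symplecticGroup (Fin n) F,
      act (g * mapSp f (w₀ n (ZMod 2)) * g⁻¹) (io f b₁) = io f b₁ + t • io f (a₀ n (ZMod 2)) ∧
      h * mapSp f (w₀ n (ZMod 2)) * h⁻¹ =
        transv (io f (a₀ n (ZMod 2))) 1 * (g * mapSp f (w₀ n (ZMod 2)) * g⁻¹) := by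
  have h2' : (2 : ZMod 2) = 0 := rfl
  have h2 : (2 : F) = 0 := by rw [← map_ofNat f 2, h2', map_zero]
  set W := mapSp f (w₀ n (ZMod 2)) with hW
  set a := io f (a₀ n (ZMod 2)) with ha
  set z1 := zv (w₀ n (ZMod 2)) (a₀ n (ZMod 2)) (2 * n - 1) with hz1
  set z2 := zv (w₀ n (ZMod 2)) (a₀ n (ZMod 2)) (2 * n - 2) with hz2
  set z3 := zv (w₀ n (ZMod 2)) (a₀ n (ZMod 2)) (2 * n - 3) with hz3
  have hfix : act (w₀ n (ZMod 2)) z1 = z1 := by
    rw [hz1, act_zv, show 2 * n - 1 + 1 = 2 * n by omega, zv_top, add_zero]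
  have hnext : act (w₀ n (ZMod 2)) z2 = z2 + z1 := by
    rw [hz2, act_zv, show 2 * n - 2 + 1 = 2 * n - 1 by omega]
  have hnext2 : act (w₀ n (ZMod 2)) z3 = z3 + z2 := by
    rw [hz3, act_zv, show 2 * n - 3 + 1 = 2 * n - 2 by omega]
  have e2 : z2 = act (w₀ n (ZMod 2)) z3 - z3 := by rw [hnext2, add_sub_cancel_left]
  have e3 : z3 = act (w₀ n (ZMod 2)) (zv (w₀ n (ZMod 2)) (a₀ n (ZMod 2)) (2 * n - 4)) -
      zv (w₀ n (ZMod 2)) (a₀ n (ZMod 2)) (2 * n - 4) := by
    rw [← zv_succ, show 2 * n - 4 + 1 = 2 * n - 3 by omega]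
  have h12 : Cfsg.sympForm n (ZMod 2) z1 z2 = 0 := by
    rw [e2]; exact orth_of_fix hfix _
  have h13 : Cfsg.sympForm n (ZMod 2) z1 z3 = 0 := by
    rw [e3]; exact orth_of_fix hfix _
  have h23 : 3 ≤ n → Cfsg.sympForm n (ZMod 2) z2 z3 = 0 := by
    intro hn3
    have e4 : zv (w₀ n (ZMod 2)) (a₀ n (ZMod 2)) (2 * n - 4) =
      act (w₀ n (ZMod 2)) (zv (w₀ n (ZMod 2)) (a₀ n (ZMod 2)) (2 * n - 5)) -
        zv (w₀ n (ZMod 2)) (a₀ n (ZMod 2)) (2 * n - 5) := by
      rw [← zv_succ, show 2 * n - 5 + 1 = 2 * n - 4 by omega]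
    rw [e3, e4]
    exact orth_two hfix hnext _
  obtain ⟨k, hk⟩ := exists_kappa h2 (γ := ⟪io f z2, io f z3⟫) (by
    rcases hcase with h | h
    · left; rw [form_io, h23 h, map_zero]
    · exact Or.inr h)
  obtain ⟨h₀, hh₀⟩ := exists_conj_two h2 (g := W) (a := io f z1) (b := io f z2) (c := io f z3)
    (by rw [hW, act_io, hfix]) (by rw [hW, act_io, hnext, io_add])
    (by rw [hW, act_io, hnext2, io_add]) (by rw [form_io, h12, map_zero])
    (by rw [form_io, h13, map_zero]) k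
  set s := k + ⟪io f z2, io f z3⟫ * k ^ 2 with hs
  obtain ⟨ρ, hρ⟩ := exists_sqrt h2 s
  have hρ0 : ρ ≠ 0 := by
    rintro rfl
    rw [zero_pow two_ne_zero] at hρ
    exact hk hρ.symm
  have hz1ne : io f z1 ≠ 0 := io_ne_zero f (zv_ne hn)
  have hane : a ≠ 0 := io_ne_zero f (a₀_ne (by omega))
  have hind1 : ∀ c : F, io f z2 ≠ c • io f z1 := by
    intro c hc
    have h3 := congrArg (act W) hc
    rw [act_smul, hW, act_io, act_io, hnext, hfix, io_add, hc] at h3
    exact hz1ne (left_eq_add.1 h3.symm)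
  have hμ0 : t * ρ ≠ 0 := mul_ne_zero ht hρ0
  have hbne : io f b₁ ≠ 0 := io_ne_zero f hb0
  have hind2 : ∀ c : F, (t * ρ)⁻¹ • io f b₁ ≠ c • (ρ⁻¹ • a) := by
    intro c hc
    have h3 : io f b₁ = (t * ρ * c * ρ⁻¹) • a := by
      rw [mul_assoc, mul_smul, mul_smul c, ← hc, smul_inv_smul₀ hμ0]
    -- read a coordinate where `b₁` is not zero
    obtain ⟨i, hi⟩ : ∃ i, b₁ i ≠ 0 := by
      by_contra hcon
      push Not at hcon
      exact hb0 (funext hcon)
    have hi1 : b₁ i = 1 := (zmod_two _).resolve_left hi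
    have h4 := congrFun h3 i
    have h5 : f (b₁ i) = (t * ρ * c * ρ⁻¹) * f (a₀ n (ZMod 2) i) := h4
    rcases zmod_two (a₀ n (ZMod 2) i) with h6 | h6
    · rw [h6, hi1, map_one, map_zero, mul_zero] at h5
      exact one_ne_zero h5
    · rw [h6, hi1, map_one, mul_one] at h5
      rw [← h5, one_smul] at h3
      apply hba
      funext j
      have h7 : f (b₁ j) = f (a₀ n (ZMod 2) j) := congrFun h3 j
      exact f.injective h7
  obtain ⟨g, hg1, hg2⟩ := exists_act_pair hz1ne (by rw [form_io, h12, map_zero]) hind1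
    (a' := ρ⁻¹ • a) (b' := (t * ρ)⁻¹ • io f b₁) (smul_ne_zero (inv_ne_zero hρ0) hane)
    (by rw [sympForm_smul_left, sympForm_smul_right, ha, form_io, hab, map_zero]; ring) hind2
  refine ⟨g, g * h₀, ?_, ?_⟩
  · have h3 : act g⁻¹ (io f b₁) = (t * ρ) • io f z2 := by
      apply act_inj g
      rw [act_act_inv, act_smul, hg2, smul_inv_smul₀ hμ0]
    rw [act_mul, act_mul, h3, act_smul, hW, act_io, hnext, io_add, act_smul, act_add, hg1, hg2,
      smul_add, smul_inv_smul₀ hμ0, smul_smul, mul_assoc, mul_inv_cancel₀ hρ0, mul_one]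
  · have h3 : g * h₀ * W * (g * h₀)⁻¹ = g * (h₀ * W * h₀⁻¹) * g⁻¹ := by group
    rw [h3, hh₀]
    have h4 : g * (transv (io f z1) s * W) * g⁻¹ =
      (g * transv (io f z1) s * g⁻¹) * (g * W * g⁻¹) := by group
    rw [h4, conj_transv, hg1, transv_smul, ← hρ, ← mul_pow, inv_mul_cancel₀ hρ0, one_pow]

/-- **Main theorem, even characteristic.** -/
theorem main_even [Finite F] (f : ZMod 2 →+* F) (hn : 2 ≤ n)
    (hcase : 3 ≤ n ∨ ∃ ν : F, ν ≠ 0 ∧ ν ≠ 1) :
    ∃ g h : Matrix.symplecticGroup (Fin n) F,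
      Subgroup.closure ({mapSp f (w₀ n (ZMod 2)), g * mapSp f (w₀ n (ZMod 2)) * g⁻¹,
        h * mapSp f (w₀ n (ZMod 2)) * h⁻¹} : Set (Matrix.symplecticGroup (Fin n) F)) = ⊤ := by
  have hf2 : Fact (Nat.Prime 2) := ⟨Nat.prime_two⟩
  have h2' : (2 : ZMod 2) = 0 := rfl
  have h2 : (2 : F) = 0 := by rw [← map_ofNat f 2, h2', map_zero]
  obtain ⟨α, hα0, hα⟩ := Prime.exists_gen F
  set W := mapSp f (w₀ n (ZMod 2)) with hW
  set a := io f (a₀ n (ZMod 2)) with ha
  obtain ⟨b₁, b₂, c, hb0, hba, hT1, hT2, hTc, hab1, hab2, hbb, hac, hbc⟩ :=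
    exists_config f hn (H := Subgroup.closure {W, transv a 1})
      (Subgroup.subset_closure (Or.inl rfl)) (Subgroup.subset_closure (Or.inr rfl))
  obtain ⟨g, h, hU, hh⟩ := exists_U f hn hcase hb0 hba hab1 hα0
  rw [← hW, ← ha] at hU hh
  refine ⟨g, h, ?_⟩
  set U := g * W * g⁻¹ with hU'
  rw [hh]
  set H := Subgroup.closure ({W, U, transv a 1 * U} :
    Set (Matrix.symplecticGroup (Fin n) F)) with hH
  have hWH : W ∈ H := Subgroup.subset_closure (by simp)
  have hUH : U ∈ H := Subgroup.subset_closure (by simp)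
  have hX : transv a 1 * U ∈ H := Subgroup.subset_closure (by simp)
  have hTa : transv a 1 ∈ H := (Subgroup.mul_mem_cancel_right _ hUH).1 hX
  have hle : Subgroup.closure {W, transv a 1} ≤ H := by
    rw [Subgroup.closure_le]
    rintro x (rfl | rfl)
    · exact hWH
    · exact hTa
  have fab1 : ⟪a, io f b₁⟫ = 0 := by rw [ha, form_io, hab1, map_zero]
  have fab2 : ⟪a, io f b₂⟫ = 0 := by rw [ha, form_io, hab2, map_zero]
  have fbb : ⟪io f b₁, io f b₂⟫ = 1 := by rw [form_io, hbb, map_one]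
  have fac : ⟪a, io f c⟫ = 1 := by rw [ha, form_io, hac, map_one]
  have fbc : ⟪io f b₁, io f c⟫ = 1 := by rw [form_io, hbc, map_one]
  have hu : transv (io f b₁ + α • a) 1 ∈ H := by
    rw [← hU]
    exact mem_transv_act hUH (hle hT1)
  by_cases hK : ∃ ν : F, ν ≠ 0 ∧ ν ≠ 1
  · have hfull := full_of_R h2 fab1 fab2 fbb fac fbc hTa (hle hT1) (hle hT2) (hle hTc) hα0 hα hK hu
    exact top_of_full hK hWH hfull (form_map f hn) (span_map f hn)
  · have hF : ∀ x : F, x = 0 ∨ x = 1 := by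
      intro x
      by_contra hcon
      push Not at hcon
      exact hK ⟨x, hcon⟩
    have hα1 : α = 1 := (hF α).resolve_left hα0
    rw [hα1, one_smul, add_comm] at hu
    have hfull : ∀ v : Fin n ⊕ Fin n → F, v ≠ 0 → transv v 1 ∈ H → v ∈ Full H := by
      intro v hv hv1
      refine ⟨hv, fun x => ?_⟩
      rcases hF x with rfl | rfl
      · rw [transv_zero]; exact H.one_mem
      · exact hv1
    have hane : a ≠ 0 := io_ne_zero f (a₀_ne (by omega))
    have hb1ne : io f b₁ ≠ 0 := io_ne_zero f hb0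
    have hcne : io f c ≠ 0 := by
      intro h
      rw [h, sympForm_zero_right] at fac
      exact zero_ne_one fac
    have hne : a ≠ io f b₁ := by
      intro h
      apply hba
      funext j
      have h7 : f (a₀ n (ZMod 2) j) = f (b₁ j) := congrFun h j
      exact (f.injective h7).symm
    have hsumne : a + io f b₁ ≠ 0 := by
      intro h
      apply hne
      rw [eq_neg_of_add_eq_zero_left h, neg_eq_iff_add_eq_zero, add_self2 h2]
    refine top_of_full_two hF hWH (hfull a hane hTa) (form_map f hn) (span_map f hn)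
      (b := io f b₁) ⟨hfull _ hb1ne (hle hT1), io f c, hfull _ hcne (hle hTc), ?_, ?_⟩
      (hfull _ hsumne hu) hne fab1
    · rw [fac]; exact one_ne_zero
    · rw [fbc]; exact one_ne_zero

end Cfsg.Agent.H107.SpEvenMain
end

-- part: S2281
section
set_option autoImplicit false
open Cfsg

namespace Cfsg.Agent.S2281

open Cfsg.Agent.H107.SpReg Cfsg.Agent.H107.SpCyc Cfsg.Agent.H107.SpOdd
  Cfsg.Agent.H107.SpEvenMain in
/-- Let F be a finite field and n ≥ 2, excluding the case n = 2 with F of two elements (where the group is not quasisimple). Then the symplectic group Sp_2n(F) is generated by three conjugate regular unipotent elements: there are u ∈ Sp_2n(F) with u − 1 nilpotent and (u − 1)^(2n−1) ≠ 0, and g, h ∈ Sp_2n(F), such that u, g u g⁻¹ and h u h⁻¹ generate Sp_2n(F). -/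
theorem result {F : Type*} [Field F] [Fintype F] (n : ℕ) (hn : 2 ≤ n) (h22 : ¬ (n = 2 ∧ Fintype.card F = 2)) :
    ∃ u g h : Matrix.symplecticGroup (Fin n) F,
      IsNilpotent ((u : Matrix (Fin n ⊕ Fin n) (Fin n ⊕ Fin n) F) - 1) ∧
      ((u : Matrix (Fin n ⊕ Fin n) (Fin n ⊕ Fin n) F) - 1) ^ (2 * n - 1) ≠ 0 ∧
      Subgroup.closure ({u, g * u * g⁻¹, h * u * h⁻¹} : Set (Matrix.symplecticGroup (Fin n) F)) = ⊤ := by
  obtain ⟨p, hp⟩ := CharP.exists F
  have hpp : Fact p.Prime := ⟨CharP.char_is_prime F p⟩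
  let f : ZMod p →+* F := ZMod.castHom (dvd_refl p) F
  have h1 : ((mapSp f (w₀ n (ZMod p)) : Matrix (Fin n ⊕ Fin n) (Fin n ⊕ Fin n) F) - 1) ^ (2 * n)
      = 0 := by
    rw [sub_one_map]
    have h : ((w₀ n (ZMod p) : Matrix (Fin n ⊕ Fin n) (Fin n ⊕ Fin n) (ZMod p)) - 1) ^ (2 * n)
        = 0 := Nw_pow_eq_zero
    rw [h]
    exact Matrix.map_zero f (map_zero f)
  have h2 : ((mapSp f (w₀ n (ZMod p)) : Matrix (Fin n ⊕ Fin n) (Fin n ⊕ Fin n) F) - 1) ^
      (2 * n - 1) ≠ 0 := by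
    intro h
    have h3 := sub_one_map_io f (w₀ n (ZMod p)) (2 * n - 1) (a₀ n (ZMod p))
    rw [h, Matrix.zero_mulVec] at h3
    exact io_ne_zero f (Nw_pow_e_ne_zero hn) h3.symm
  suffices h3 : ∃ g h : Matrix.symplecticGroup (Fin n) F,
      Subgroup.closure ({mapSp f (w₀ n (ZMod p)), g * mapSp f (w₀ n (ZMod p)) * g⁻¹,
        h * mapSp f (w₀ n (ZMod p)) * h⁻¹} : Set (Matrix.symplecticGroup (Fin n) F)) = ⊤ by
    obtain ⟨g, h, hgh⟩ := h3
    exact ⟨_, g, h, ⟨_, h1⟩, h2, hgh⟩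
  by_cases hp2 : p = 2
  · subst hp2
    refine main_even f hn ?_
    by_cases hn3 : 3 ≤ n
    · exact Or.inl hn3
    · right
      by_contra hcon
      push Not at hcon
      apply h22
      refine ⟨by omega, ?_⟩
      classical
      have h4 : (Finset.univ : Finset F) ⊆ {0, 1} := by
        intro x _
        rw [Finset.mem_insert, Finset.mem_singleton]
        by_cases hx : x = 0
        · exact Or.inl hx
        · exact Or.inr (hcon x hx)
      have h5 := Finset.card_le_card h4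
      rw [Finset.card_univ] at h5
      have h6 := Finset.card_le_two (a := (0 : F)) (b := 1)
      have h7 : 1 < Fintype.card F := Fintype.one_lt_card
      omega
  · have hp3 : 3 ≤ p := by
      have := hpp.out.two_le
      omega
    exact main_odd hp3 f hn

end Cfsg.Agent.S2281
end
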