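import Cfsg.Agent.H108.FiveMain
import Cfsg.Statements.S2282
import Cfsg.Agent.S2283
set_option linter.all false

-- part: H108/TwoFive
section
/-!
# `SU_n(2)`, `n ≥ 5` odd: three conjugate regular unipotent generators (helper108)
-/

set_option autoImplicit false
set_option linter.unusedSimpArgs false

namespace Cfsg.Agent.H108.Gen

open Cfsg Module Matrix Cfsg.Agent.LieClassical.HermBasic Cfsg.Agent.ClassicalGeometry.UnitTransv
open Cfsg.Agent.H186 Cfsg.Agent.ClassicalGeometry.HermOrtho Cfsg.Agent.H108.Model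
open Cfsg.Agent.H108.FullTr Cfsg.Agent.H108.FieldEl

variable {F : Type*} [Field F] [Fintype F] {n : ℕ}

/-- Facts about a field with four elements. -/
theorem four_facts (hF : Fintype.card F = 2 ^ 2) :
    (2 : F) = 0 ∧ ∃ ω : F, ω ^ 2 = ω + 1 ∧ ω ≠ 0 ∧ ω ^ 2 ≠ ω := by
  have h2 : (2 : F) = 0 := by
    have h := FiniteField.cast_card_eq_zero F
    rw [hF] at h
    have h4 : (2 : F) ^ 2 = 0 := by exact_mod_cast h
    exact pow_eq_zero_iff (two_ne_zero) |>.1 h4
  refine ⟨h2, ?_⟩
  obtain ⟨ω, hω⟩ := exists_not_fixed hF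
  have h4 : (ω ^ 2) ^ 2 = ω := pow_q_pow_q hF ω
  have h0 : ω ≠ 0 := by
    rintro rfl
    exact hω (by simp)
  have h5 : (ω ^ 2 - ω) * (ω ^ 2 - (ω + 1)) = 0 := by
    linear_combination h4 + (ω - ω ^ 3) * h2
  have h6 := (mul_eq_zero.1 h5).resolve_left (sub_ne_zero.2 hω)
  exact ⟨ω, sub_eq_zero.1 h6, h0, hω⟩

omit [Fintype F] in
/-- The sequence used for the model over the field with four elements. -/
theorem exists_tau_two (hn : 5 ≤ n) (hodd : Odd n) :
    ∃ (τ : ℕ → F) (s : F), τ 0 = 0 ∧ τ 1 = 0 ∧ τ 2 = 0 ∧ τ 3 = 0 ∧ τ 4 = 1 ∧ τ 5 = s ∧ τ 6 = s ∧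
      (s = 0 ∨ s = 1) ∧ (∀ k, τ k ^ 2 = τ k) ∧ (∀ k, n ≤ k → τ k = 0) ∧ τ (n - 1) ≠ 0 := by
  obtain ⟨m, rfl⟩ := hodd
  refine ⟨fun k => if k = 4 then 1 else if k = 5 ∨ k = 6 then (if m = 3 then 1 else 0) else
    if k = 2 * m ∧ 7 ≤ k then 1 else 0, if m = 3 then 1 else 0, by simp, by simp, by simp,
    by simp, by simp, by simp, by simp, ?_, ?_, ?_, ?_⟩
  · split_ifs
    · exact Or.inr rfl
    · exact Or.inl rfl
  · intro k
    dsimp only
    split_ifs <;> simp
  · intro k hk
    dsimp only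
    split_ifs with h1 h2 h3 h4
    · omega
    · omega
    · rfl
    · omega
    · rfl
  · dsimp only
    split_ifs with h1 h2 h3 h4
    · exact one_ne_zero
    · exact one_ne_zero
    · omega
    · exact one_ne_zero
    · omega

/-- The model over the field with four elements. -/
theorem exists_model_two (hF : Fintype.card F = 2 ^ 2) (hn : 5 ≤ n) (hodd : Odd n) :
    ∃ (v : SU n F 2) (f e x0 m : Fin n → F), IsReg (mat v) ∧ act v e = e ∧
      hermForm n F 2 f e ≠ 0 ∧ hermForm n F 2 f f = 0 ∧ hermForm n F 2 (act v f) f ≠ 0 ∧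
      (hermForm n F 2 f (act v f) * hermForm n F 2 f (act v f) *
      hermForm n F 2 (act v (act v f)) f + (hermForm n F 2 f (act v f) *
      hermForm n F 2 f (act v f) * hermForm n F 2 (act v (act v f)) f) ^ 2 ≠ 0) ∧
      act v (act v (act v f)) = m + x0 ∧ m ∈ Submodule.span F {f, act v f, act v (act v f)} ∧
      m ≠ 0 ∧ x0 ≠ 0 ∧ hermForm n F 2 x0 x0 = 0 ∧ hermForm n F 2 x0 f = 0 ∧
      hermForm n F 2 x0 (act v f) = 0 ∧ hermForm n F 2 x0 (act v (act v f)) = 0 := by
  obtain ⟨h2, ω, hω, hω0, hωne⟩ := four_facts hF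
  obtain ⟨τ, s, e0, e1, e2, e3, e4, e5, e6, hs, hτ, hτ0, hτn⟩ := exists_tau_two (F := F) hn hodd
  obtain ⟨E, v, hE, hsep, hv, hreg⟩ := exists_model hF (by omega) τ hτ hτ0 hτn hωne
  have hw3 : ω ^ 3 = 1 := by grind
  set f : Fin n → F := E 0 + ω ^ 2 • E 1 + ω • E 2 + E 3 with hf
  have hvf : act v f = E 0 + ω • E 1 + ω • E 2 + ω ^ 2 • E 3 := by
    have h1 : f = (E 0 + ω ^ 2 • E (0 + 1)) + ω • (E 2 + ω ^ 2 • E (2 + 1)) := by
      rw [hf]
      match_scalars <;> grind
    rw [h1, act_add, act_smul, hv, hv]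
    match_scalars <;> grind
  have hvvf : act v (act v f) = E 0 + ω ^ 2 • E 1 + ω ^ 2 • E 2 + ω • E 3 := by
    have h1 : act v f = (E 0 + ω ^ 2 • E (0 + 1)) + (E 1 + ω ^ 2 • E (1 + 1)) +
        (E 2 + ω ^ 2 • E (2 + 1)) := by
      rw [hvf]
      match_scalars <;> grind
    rw [h1, act_add, act_add, hv, hv, hv]
    match_scalars <;> grind
  have hvvvf : act v (act v (act v f)) = E 0 + ω • E 1 + ω ^ 2 • E 2 + E 3 := by
    have h1 : act v (act v f) = (E 0 + ω ^ 2 • E (0 + 1)) + ω ^ 2 • (E 2 + ω ^ 2 • E (2 + 1)) := by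
      rw [hvvf]
      match_scalars <;> grind
    rw [h1, act_add, act_smul, hv, hv]
    match_scalars <;> grind
  have hc1 : hermForm n F 2 (act v f) f = ω + ω ^ 2 * s := by
    rw [hvf, hf]
    simp only [herm_add_left, herm_add_right hF, herm_smul_left, herm_smul_right, hE, e0, e1, e2,
      e3, e4, e5, e6, Nat.reduceAdd]
    grind
  have hc1' : hermForm n F 2 f (act v f) = ω ^ 2 + ω * s := by
    rw [herm_swap hF, hc1]
    rcases hs with rfl | rfl <;> grind
  have hc2 : hermForm n F 2 (act v (act v f)) f = ω := by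
    rw [hvvf, hf]
    simp only [herm_add_left, herm_add_right hF, herm_smul_left, herm_smul_right, hE, e0, e1, e2,
      e3, e4, e5, e6, Nat.reduceAdd]
    grind
  have hc3 : hermForm n F 2 (act v (act v (act v f))) f ≠ 0 := by
    rw [hvvvf, hf]
    simp only [herm_add_left, herm_add_right hF, herm_smul_left, herm_smul_right, hE, e0, e1, e2,
      e3, e4, e5, e6, Nat.reduceAdd]
    rcases hs with rfl | rfl <;> grind
  have hx0f : hermForm n F 2 (E 0) f = 0 := by
    rw [hf]
    simp only [herm_add_left, herm_add_right hF, herm_smul_left, herm_smul_right, hE, e0, e1, e2,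
      e3, e4, e5, e6, Nat.reduceAdd]
    grind
  have hm : act v (act v (act v f)) = (f + ω • act v f + ω ^ 2 • act v (act v f)) + E 0 := by
    rw [hvvvf, hvvf, hvf, hf]
    match_scalars <;> grind
  refine ⟨v, f, E (n - 1), E 0, f + ω • act v f + ω ^ 2 • act v (act v f), hreg,
    model_fix hτ0 (by omega) hE hsep hv, ?_, ?_, ?_, ?_, hm, ?_, ?_, ?_, ?_, hx0f, ?_, ?_⟩
  · rw [hf]
    simp only [herm_add_left, herm_smul_left, hE]
    rw [hτ0 (1 + (n - 1)) (by omega), hτ0 (2 + (n - 1)) (by omega), hτ0 (3 + (n - 1)) (by omega),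
      mul_zero, mul_zero, add_zero, add_zero, add_zero, zero_add]
    exact hτn
  · rw [hf]
    simp only [herm_add_left, herm_add_right hF, herm_smul_left, herm_smul_right, hE, e0, e1, e2,
      e3, e4, e5, e6, Nat.reduceAdd]
    grind
  · rw [hc1]
    rcases hs with rfl | rfl <;> grind
  · rw [hc1', hc2]
    rcases hs with rfl | rfl <;> grind
  · refine Submodule.add_mem _ (Submodule.add_mem _ (Submodule.subset_span (by simp))
      (Submodule.smul_mem _ _ (Submodule.subset_span (by simp))))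
      (Submodule.smul_mem _ _ (Submodule.subset_span (by simp)))
  · intro h
    apply hc3
    rw [hm, h, zero_add, hx0f]
  · intro h
    have := hE (n - 1) 0
    rw [h, herm_zero_right hF, add_zero] at this
    exact hτn this.symm
  · rw [hE]; exact e0
  · rw [hvf]
    simp only [herm_add_left, herm_add_right hF, herm_smul_left, herm_smul_right, hE, e0, e1, e2,
      e3, e4, e5, e6, Nat.reduceAdd]
    grind
  · rw [hvvf]
    simp only [herm_add_left, herm_add_right hF, herm_smul_left, herm_smul_right, hE, e0, e1, e2,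
      e3, e4, e5, e6, Nat.reduceAdd]
    grind

/-- `SU_n(2)`, `n ≥ 5` odd, is generated by three conjugate regular unipotent elements. -/
theorem main_two (hF : Fintype.card F = 2 ^ 2) (hn : 5 ≤ n) (hodd : Odd n) :
    ∃ v g h : SU n F 2, IsReg (mat v) ∧
      Subgroup.closure ({v, g * v * g⁻¹, h * v * h⁻¹} : Set (SU n F 2)) = ⊤ := by
  obtain ⟨v, f, e, x0, m, hreg, hve, hfe, hff, h1, hT, hm, hmM, hm0, hx0, hxx, hxf, hxvf, hxvvf⟩ :=
    exists_model_two hF hn hodd
  have hf0 : f ≠ 0 := by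
    rintro rfl
    exact hfe (herm_zero_left _)
  have he0 : e ≠ 0 := by
    rintro rfl
    exact hfe (herm_zero_right hF _)
  have hee : hermForm n F 2 e e = 0 := by
    obtain ⟨hee, -⟩ := exists_conj_utv hF (by omega) hreg hve
    exact hee
  have hndtop : ND 2 (⊤ : Submodule F (Fin n → F)) := fun u _ hu =>
    herm_nondeg hF fun x => hu x trivial
  obtain ⟨g, -, -, hg⟩ := conn_iso hF (H := ⊤) (M := ⊤)
    (fun w _ hw => ⟨hw, fun c hc => trivial⟩) hndtop
    (by rw [finrank_top, finrank_fin_fun]; omega) (u := e) (v := f) trivial trivial he0 hf0 hee hff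
  have hgf : act (g * v * g⁻¹) f = f := by
    rw [act_mul, act_mul, ← hg, act_inv_act, hve]
  obtain ⟨hff', c, hc, h, hc0, hmem⟩ := exists_of_data hF (by omega) hreg g hgf
  refine ⟨v, g, h, hreg, ?_⟩
  set H := Subgroup.closure ({v, g * v * g⁻¹, h * v * h⁻¹} : Set (SU n F 2)) with hH
  have hvH : v ∈ H := Subgroup.subset_closure (by simp)
  have hfull : Full hF H f := by
    refine full_of_gen hF hff' hc hc0 hmem (one_mem H) (l := 1) (by rw [act_one, one_smul]) ?_
    intro y hy hy0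
    refine ⟨0, ?_⟩
    rw [pow_zero]
    have : y * (y - 1) = 0 := by linear_combination hy
    exact sub_eq_zero.1 ((mul_eq_zero.1 this).resolve_left hy0)
  have h1' : hermForm n F 2 f (act v f) ≠ 0 := fun h => h1 (herm_eq_zero_swap hF h)
  have hw : ∀ i : ℕ, Full hF H (act (v ^ i) f) := fun i => hfull.map hF (pow_mem hvH i)
  have hvv : act v (act v f) = act (v ^ 2) f := by rw [pow_two, act_mul]
  have hv1 : act v f = act (v ^ 1) f := by rw [pow_one]
  have hv3 : act v (act v (act v f)) = act (v ^ 3) f := by rw [pow_succ', pow_two, act_mul, act_mul]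
  obtain ⟨M, hM, h3, hfM, hf0M, hf1M, hf2M, hMs⟩ := exists_base (f0 := f) (f1 := act v f)
    (f2 := act v (act v f)) hF hfull
    (by rw [hv1]; exact hw 1) (by rw [hvv]; exact hw 2) h1' (by rw [herm_act]; exact hT)
  have hsep : ∀ x : Fin n → F, (∀ i : ℕ, hermForm n F 2 (act (v ^ i) f) x = 0) → x = 0 :=
    fun x hx => sep_of_reg hF (by omega) hreg hve hfe hx
  obtain ⟨i, hi⟩ : ∃ i : ℕ, hermForm n F 2 (act (v ^ i) f) x0 ≠ 0 := by
    by_contra hcon
    push Not at hcon
    exact hx0 (hsep x0 hcon)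
  have hxM : ∀ y ∈ M, hermForm n F 2 x0 y = 0 := by
    intro y hy
    rw [hMs] at hy
    induction hy using Submodule.span_induction with
    | mem y hy =>
      rcases hy with rfl | rfl | rfl
      · exact hxf
      · exact hxvf
      · exact hxvvf
    | zero => exact herm_zero_right hF _
    | add y z _ _ hy hz => rw [herm_add_right hF, hy, hz, add_zero]
    | smul a y _ hy => rw [herm_smul_right, hy, mul_zero]
  obtain ⟨M1, hlt, hM1, h4, hfM1⟩ := extend_two hF hfM hM h3 (m := m) (d' := x0)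
    (by rw [hMs]; exact hmM) hm0 hxM hxx (by rw [← hm, hv3]; exact hw 3) (hw i) hi
  apply eq_top_of_full hF (by omega)
  refine full_of_base hF (w := fun i => act (v ^ i) f) hw hsep ?_ n M1 (by omega) hM1 (by omega)
    (Or.inr h4) hfM1 ?_
  · intro i
    rw [pow_succ, act_mul, herm_act]
    exact h1'
  · rw [pow_zero, act_one]
    exact hlt.le hf0M

end Cfsg.Agent.H108.Gen
end

-- part: S2282
section
set_option autoImplicit false
open Cfsg

namespace Cfsg.Agent.S2282

/-- Let F be a field with q² elements, n ≥ 3 odd with (n, q) ≠ (3, 2), and SU_n(q) the special unitary group of the standard Hermitian form Σ u_i v_i^q. Then SU_n(q) is generated by three conjugate regular unipotent elements: there are u ∈ SU_n(q) with u − 1 nilpotent and (u − 1)^(n−1) ≠ 0, and g, h ∈ SU_n(q), such that u, g u g⁻¹ and h u h⁻¹ generate SU_n(q). -/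
theorem result {F : Type*} [Field F] [Fintype F] (q : ℕ) (hF : Fintype.card F = q ^ 2) (n : ℕ) (hn : 3 ≤ n) (hodd : Odd n) (h32 : ¬ (n = 3 ∧ q = 2)) :
    ∃ u g h : ↥(Cfsg.SU n F q), (IsNilpotent (((u : Matrix.SpecialLinearGroup (Fin n) F) : Matrix (Fin n) (Fin n) F) - 1) ∧ (((u : Matrix.SpecialLinearGroup (Fin n) F) : Matrix (Fin n) (Fin n) F) - 1) ^ (n - 1) ≠ 0) ∧
      Subgroup.closure ({u, g * u * g⁻¹, h * u * h⁻¹} : Set ↥(Cfsg.SU n F q)) = ⊤ := by
  have hq2 : 2 ≤ q := Cfsg.Agent.LieClassical.HermBasic.two_le hF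
  have key : ∃ v g h : ↥(Cfsg.SU n F q),
      Cfsg.Agent.H186.IsReg (Cfsg.Agent.H108.Model.mat v) ∧
      Subgroup.closure ({v, g * v * g⁻¹, h * v * h⁻¹} : Set ↥(Cfsg.SU n F q)) = ⊤ := by
    rcases Nat.lt_or_ge n 4 with h4 | h4
    · have h3 : n = 3 := by omega
      subst h3
      obtain ⟨v, g, hv, hcl⟩ := Cfsg.Agent.S2283.exists_two q (by omega) hF
      refine ⟨v, g, g, hv, ?_⟩
      rw [Set.pair_eq_singleton]
      exact hcl
    · have h5 : 5 ≤ n := by
        rcases Nat.lt_or_ge n 5 with h | h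
        · have : n = 4 := by omega
          subst this
          exact absurd hodd (by decide)
        · exact h
      by_cases h2 : q = 2
      · subst h2
        exact Cfsg.Agent.H108.Gen.main_two hF h5 hodd
      · exact Cfsg.Agent.H108.Gen.main_ge_three hF h5 (by omega)
  obtain ⟨v, g, h, hv, hcl⟩ := key
  exact ⟨v, g, h, ⟨⟨n, hv.1⟩, Cfsg.Agent.H108.Model.IsReg.pow_ne_zero (by omega) hv⟩, hcl⟩

end Cfsg.Agent.S2282
end
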