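import Cfsg.Statements.S2288
import Cfsg.Agent.H109.SLnE
set_option linter.all false

set_option autoImplicit false
open Cfsg

namespace Cfsg.Agent.S2288

theorem cyc {n : ℕ} [NeZero n] {F : Type*} [Field F] [Finite F] :
    IsCyclic (Subgroup.center (Matrix.SpecialLinearGroup (Fin n) F)) := by
  have e := Matrix.SpecialLinearGroup.center_equiv_rootsOfUnity (n := Fin n) (R := F)
  have : NeZero (Fintype.card (Fin n)) := ⟨by simpa using NeZero.ne n⟩
  exact isCyclic_of_surjective e.symm.toMonoidHom e.symm.surjective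

/-- For every finite field F and n ≥ 4: SL_n(F) has a presentation with 7 generators and at most 25 relations, and PSL_n(F) one with 7 generators and at most 26 relations; moreover SL_4(F) has one with 6 generators and at most 21 relations and SL_5(F) one with 6 generators and at most 22 relations. -/
theorem result {F : Type*} [Field F] [Fintype F] (n : ℕ) (hn : 4 ≤ n) :
    (∃ rels : Finset (FreeGroup (Fin 7)), rels.card ≤ 25 ∧ Nonempty (PresentedGroup (↑rels : Set (FreeGroup (Fin 7))) ≃* Matrix.SpecialLinearGroup (Fin n) F)) ∧ (∃ rels : Finset (FreeGroup (Fin 7)), rels.card ≤ 26 ∧ Nonempty (PresentedGroup (↑rels : Set (FreeGroup (Fin 7))) ≃* Matrix.ProjectiveSpecialLinearGroup (Fin n) F)) ∧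
    (∃ rels : Finset (FreeGroup (Fin 6)), rels.card ≤ 21 ∧ Nonempty (PresentedGroup (↑rels : Set (FreeGroup (Fin 6))) ≃* Matrix.SpecialLinearGroup (Fin 4) F)) ∧ (∃ rels : Finset (FreeGroup (Fin 6)), rels.card ≤ 22 ∧ Nonempty (PresentedGroup (↑rels : Set (FreeGroup (Fin 6))) ≃* Matrix.SpecialLinearGroup (Fin 5) F)) := by
  have h7 : H111.HasPres (Matrix.SpecialLinearGroup (Fin n) F) 7 25 := by
    rcases Nat.lt_or_ge 5 n with h | h
    · exact (H109.SLn.sln_six h).add_le (j := 2) (by norm_num) (by norm_num)
    · obtain rfl | rfl : n = 4 ∨ n = 5 := by omega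
      · exact H109.SLn.sln_four.add_le (j := 3) (by norm_num) (by norm_num)
      · exact H109.SLn.sln_five.add_le (j := 3) (by norm_num) (by norm_num)
  have : NeZero n := ⟨by omega⟩
  refine ⟨h7, h7.centerQuo cyc, ?_, ?_⟩
  · exact H109.SLn.sln_four.add_le (j := 2) (by norm_num) (by norm_num)
  · exact H109.SLn.sln_five.add_le (j := 2) (by norm_num) (by norm_num)

end Cfsg.Agent.S2288
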