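import Cfsg.Statements.S2289
import Cfsg.Agent.H112.SUIso
set_option linter.all false

set_option autoImplicit false
open Cfsg

namespace Cfsg.Agent.S2289

/-- Let F be a field with q² elements, q ∉ {2, 3, 5}, and SU_3(q), PSU_3(q) the special unitary group of the standard Hermitian form and its central quotient. Then SU_3(q) has a presentation with 3 generators and at most 23 relations, and PSU_3(q) one with 3 generators and at most 24 relations. -/
theorem result {F : Type*} [Field F] [Fintype F] (q : ℕ) (hF : Fintype.card F = q ^ 2) (h2 : q ≠ 2) (h3 : q ≠ 3) (h5 : q ≠ 5) :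
    (∃ rels : Finset (FreeGroup (Fin 3)), rels.card ≤ 23 ∧ Nonempty (PresentedGroup (↑rels : Set (FreeGroup (Fin 3))) ≃* ↥(Cfsg.SU 3 F q))) ∧ (∃ rels : Finset (FreeGroup (Fin 3)), rels.card ≤ 24 ∧ Nonempty (PresentedGroup (↑rels : Set (FreeGroup (Fin 3))) ≃* Cfsg.PSU 3 F q)) := by
  have hq : 3 < q := by
    have h1 : 1 < Fintype.card F := Fintype.one_lt_card
    rw [hF] at h1
    have h0 : q ≠ 0 := by rintro rfl; norm_num at h1
    have h1' : q ≠ 1 := by rintro rfl; norm_num at h1
    omega
  exact ⟨(H112.pres_SU3 (by rw [Nat.card_eq_fintype_card, hF]) hq).mono (by norm_num),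
    (H112.pres_PSU3 hF hq).mono (by norm_num)⟩

end Cfsg.Agent.S2289
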