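import Cfsg.Statements.S2290
import Cfsg.Agent.S2288
import Cfsg.Agent.H109.SL2b
import Cfsg.Agent.H109.SL3e
import Cfsg.Agent.H109.SLnE
import Cfsg.Agent.H440.TwoGen.Psl
set_option linter.all false

set_option autoImplicit false
open Cfsg

namespace Cfsg.Agent.S2290

open Cfsg.Agent.H111 in
/-- some short presentation of `SL_n(q)` -/
theorem sl_pres {F : Type*} [Field F] [Fintype F] (n : ℕ) (hn : 2 ≤ n) :
    ∃ k, HasPres (Matrix.SpecialLinearGroup (Fin n) F) k 23 := by
  rcases Nat.lt_or_ge n 6 with h | h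
  · obtain rfl | rfl | rfl | rfl : n = 2 ∨ n = 3 ∨ n = 4 ∨ n = 5 := by omega
    · by_cases h2 : (2 : F) = 0
      · exact ⟨_, (H109.sl2_even h2).mono (by norm_num)⟩
      · exact ⟨_, (H109.sl2_odd h2).mono (by norm_num)⟩
    · by_cases h2 : (2 : F) = 0
      · exact ⟨_, (H109.sl3_even h2).mono (by norm_num)⟩
      · exact ⟨_, (H109.sl3_odd h2).mono (by norm_num)⟩
    · exact ⟨_, (H109.SLn.sln_four (F := F)).mono (by norm_num)⟩
    · exact ⟨_, (H109.SLn.sln_five (F := F)).mono (by norm_num)⟩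
  · exact ⟨_, H109.SLn.sln_six (F := F) h⟩

/-- For every finite field F with q elements and n ≥ 2, with q ≥ 4 when n = 2, the simple group PSL_n(F) has a presentation with 2 generators and at most 80 relations. -/
theorem result {F : Type*} [Field F] [Fintype F] (n : ℕ) (hn : 2 ≤ n) (h2 : n = 2 → 4 ≤ Fintype.card F) :
    ∃ rels : Finset (FreeGroup (Fin 2)), rels.card ≤ 80 ∧ Nonempty (PresentedGroup (↑rels : Set (FreeGroup (Fin 2))) ≃* Matrix.ProjectiveSpecialLinearGroup (Fin n) F) := by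
  obtain ⟨k, hk⟩ := sl_pres (F := F) n hn
  have : NeZero n := ⟨by omega⟩
  have h1 : Cfsg.Agent.H111.HasPres (Matrix.ProjectiveSpecialLinearGroup (Fin n) F) k 24 :=
    hk.centerQuo Cfsg.Agent.S2288.cyc
  obtain ⟨m, rfl⟩ : ∃ m, n = m + 1 := ⟨n - 1, by omega⟩
  obtain ⟨x, y, hxy⟩ := Cfsg.Agent.H440.TwoGen.Psl.twoGen_psl (K := F) (n := m) (by omega)
  exact (h1.change_two x y hxy).mono (by norm_num)

end Cfsg.Agent.S2290
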