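import Cfsg.Statements.S2291
import Cfsg.Agent.H112.PresUni
import Cfsg.Agent.S2412
set_option linter.all false

set_option autoImplicit false
open Cfsg

namespace Cfsg.Agent.S2291

/-- Let F be a field with q² elements and n ≥ 3 with (n, q) ≠ (3, 2). Then the simple group PSU_n(q) (for the standard Hermitian form) has a presentation with 2 generators and at most 80 relations. -/
theorem result {F : Type*} [Field F] [Fintype F] (q n : ℕ) (hF : Fintype.card F = q ^ 2) (hn : 3 ≤ n) (h32 : ¬ (n = 3 ∧ q = 2)) :
    ∃ rels : Finset (FreeGroup (Fin 2)), rels.card ≤ 80 ∧ Nonempty (PresentedGroup (↑rels : Set (FreeGroup (Fin 2))) ≃* Cfsg.PSU n F q) := by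
  have hpp : IsPrimePow q := by
    have h1 := Fintype.isPrimePow_card_of_field (α := F)
    rw [hF] at h1
    exact (isPrimePow_pow_iff two_ne_zero).1 h1
  have hq := H112.two_le_of_card hF
  obtain ⟨a, b, hab⟩ := Cfsg.Agent.S2412.result hpp hF n hn (fun h h' => h32 ⟨h, h'⟩)
  have key : H111.HasPres (Cfsg.PSU n F q) 2 80 := by
    rcases Nat.lt_or_ge n 4 with h | h
    · obtain rfl : n = 3 := by omega
      rcases Nat.lt_or_ge 3 q with h' | h'
      · exact ((H112.pres_PSU3 hF h').change_two a b hab).mono (by norm_num)
      · have h2 : q ≠ 2 := fun h => h32 ⟨rfl, h⟩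
        obtain rfl : q = 3 := by omega
        exact (((H112.pres_SU3_three (by rw [Nat.card_eq_fintype_card, hF])).centerQuo
          (H112.center_SU_cyclic hF le_rfl)).change_two a b hab).mono (by norm_num)
    · exact ((H112.pres_PSU_all hF h).1.change_two a b hab).mono (by norm_num)
  exact key

end Cfsg.Agent.S2291
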