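import Cfsg.Statements.S2292
import Cfsg.Agent.H111.SpFinal
import Cfsg.Agent.S2411
set_option linter.all false

set_option autoImplicit false
open Cfsg

namespace Cfsg.Agent.S2292

/-- Let F be a finite field with q elements and m ≥ 2 with (m, q) ≠ (2, 2). Then the simple group PSp_2m(F) has a presentation with 2 generators and at most 80 relations. -/
theorem result {F : Type*} [Field F] [Fintype F] (m : ℕ) (hm : 2 ≤ m) (h22 : ¬ (m = 2 ∧ Fintype.card F = 2)) :
    ∃ rels : Finset (FreeGroup (Fin 2)), rels.card ≤ 80 ∧ Nonempty (PresentedGroup (↑rels : Set (FreeGroup (Fin 2))) ≃* Cfsg.PSp m F) := by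
  have h1 : 1 < Fintype.card F := Fintype.one_lt_card
  obtain ⟨a, b, hab⟩ := Cfsg.Agent.S2411.result (F := F) m hm (fun h => by
    have : Fintype.card F ≠ 2 := fun e => h22 ⟨h, e⟩
    omega)
  have key : ∀ {k r : ℕ}, Cfsg.Agent.H111.HasPres (Matrix.symplecticGroup (Fin m) F) k r → r + 3 ≤ 80 →
      Cfsg.Agent.H111.HasPres (Cfsg.PSp m F) 2 80 := by
    intro k r h hr
    exact ((Cfsg.Agent.H111.SpFinal.psp (by omega) h).change_two a b hab).mono (by omega)
  rcases Nat.lt_or_ge 3 m with h | h
  · exact key (Cfsg.Agent.H111.SpFinal.sp_four h) (by norm_num)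
  · interval_cases m
    · exact key Cfsg.Agent.H111.SpFinal.sp_two (by norm_num)
    · exact key Cfsg.Agent.H111.SpFinal.sp_three (by norm_num)

end Cfsg.Agent.S2292
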