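import Cfsg.Agent.H110.D.Datum_mg
import Cfsg.Agent.LieClassical.OrthFinite
import Cfsg.Agent.LieClassical.OrthForms
import Cfsg.Agent.H110.D.Gen
import Cfsg.Agent.H111.Pres
import Cfsg.Agent.H109.SLnE
import Cfsg.Agent.LieClassical.OmegaCenter
import Cfsg.Statements.S2295
set_option linter.all false

-- part: H110/D/Rel
section
/-!
# Type `D`: the short list of relators (helper110, for S2295)
-/

set_option autoImplicit false

namespace Cfsg.Agent.H110.D

open Equiv Matrix
open scoped commutatorElement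

variable {I L F : Type*} [Fintype I] [DecidableEq I] [Fintype L] [DecidableEq L] [Field F]

/-- block diagonal matrices -/
def bl (e : Fin 2 ⊕ L ≃ I) (g : Matrix.SpecialLinearGroup (Fin 2) F) (h : Matrix.SpecialLinearGroup L F) :
    Matrix.SpecialLinearGroup I F :=
  ⟨(fromBlocks (g : Matrix (Fin 2) (Fin 2) F) 0 0 (h : Matrix L L F)).submatrix e.symm e.symm, by
    rw [det_submatrix_equiv_self, det_fromBlocks_zero₂₁, g.2, h.2, one_mul]⟩

theorem coe_bl (e : Fin 2 ⊕ L ≃ I) (g : Matrix.SpecialLinearGroup (Fin 2) F) (h : Matrix.SpecialLinearGroup L F) :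
    (bl e g h : Matrix I I F) =
      (fromBlocks (g : Matrix (Fin 2) (Fin 2) F) 0 0 (h : Matrix L L F)).submatrix e.symm e.symm := rfl

theorem bl_mul (e : Fin 2 ⊕ L ≃ I) (g g' : Matrix.SpecialLinearGroup (Fin 2) F) (h h' : Matrix.SpecialLinearGroup L F) :
    bl e (g * g') (h * h') = bl e g h * bl e g' h' := by
  apply Subtype.ext
  rw [Matrix.SpecialLinearGroup.coe_mul, coe_bl, coe_bl, coe_bl, submatrix_mul_equiv, fromBlocks_multiply,
    Matrix.SpecialLinearGroup.coe_mul, Matrix.SpecialLinearGroup.coe_mul]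
  simp

theorem bl_one (e : Fin 2 ⊕ L ≃ I) : bl e (1 : Matrix.SpecialLinearGroup (Fin 2) F) (1 : Matrix.SpecialLinearGroup L F) = 1 := by
  apply Subtype.ext
  rw [coe_bl, Matrix.SpecialLinearGroup.coe_one, Matrix.SpecialLinearGroup.coe_one, fromBlocks_one,
    submatrix_one_equiv, Matrix.SpecialLinearGroup.coe_one]

/-- first block -/
def blL (F : Type*) [Field F] (e : Fin 2 ⊕ L ≃ I) : Matrix.SpecialLinearGroup (Fin 2) F →* Matrix.SpecialLinearGroup I F where
  toFun g := bl e g 1
  map_one' := bl_one e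
  map_mul' g g' := by rw [← bl_mul, one_mul]

/-- second block -/
def blR (F : Type*) [Field F] (e : Fin 2 ⊕ L ≃ I) : Matrix.SpecialLinearGroup L F →* Matrix.SpecialLinearGroup I F where
  toFun h := bl e 1 h
  map_one' := bl_one e
  map_mul' g g' := by rw [← bl_mul, one_mul]

theorem blL_X (e : Fin 2 ⊕ L ≃ I) {i j : Fin 2} (hij : i ≠ j) (t : F) :
    blL F e (X i j t) = X (e (.inl i)) (e (.inl j)) t := by
  have h' : e (.inl i) ≠ e (.inl j) := fun h => hij (Sum.inl.inj (e.injective h))
  apply Subtype.ext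
  change (bl e (X i j t) 1 : Matrix I I F) = _
  rw [coe_bl, coe_X hij, coe_X h', Matrix.SpecialLinearGroup.coe_one]
  ext a b
  obtain ⟨a, rfl⟩ := e.surjective a
  obtain ⟨b, rfl⟩ := e.surjective b
  rw [submatrix_apply, e.symm_apply_apply, e.symm_apply_apply, Matrix.add_apply, one_apply, single_apply]
  rcases a with a | a <;> rcases b with b | b
  · rw [fromBlocks_apply₁₁, Matrix.add_apply, one_apply, single_apply]
    simp
  · rw [fromBlocks_apply₁₂]
    simp
  · rw [fromBlocks_apply₂₁]
    simp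
  · rw [fromBlocks_apply₂₂, one_apply]
    simp

theorem inC_blR (e : Fin 2 ⊕ L ≃ I) (h : Matrix.SpecialLinearGroup L F) : InC (e (.inl 0)) (e (.inl 1)) (blR F e h) := by
  intro a
  obtain ⟨a, rfl⟩ := e.surjective a
  change (bl e 1 h : Matrix I I F) _ _ = _ ∧ (bl e 1 h : Matrix I I F) _ _ = _ ∧ (bl e 1 h : Matrix I I F) _ _ = _ ∧
    (bl e 1 h : Matrix I I F) _ _ = _
  rw [coe_bl]
  simp only [submatrix_apply, e.symm_apply_apply, Matrix.SpecialLinearGroup.coe_one, one_apply, e.injective.eq_iff]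
  rcases a with a | a
  · simp only [fromBlocks_apply₁₁, one_apply, Sum.inl.injEq, and_self]
  · simp

theorem exists_blR (e : Fin 2 ⊕ L ≃ I) {g : Matrix.SpecialLinearGroup I F} (hg : InC (e (.inl 0)) (e (.inl 1)) g) :
    ∃ h, g = blR F e h := by
  have key : ∀ i : Fin 2, (∀ a, (g : Matrix I I F) a (e (.inl i)) = (1 : Matrix I I F) a (e (.inl i))) ∧
      ∀ a, (g : Matrix I I F) (e (.inl i)) a = (1 : Matrix I I F) (e (.inl i)) a := by
    intro i
    fin_cases i
    · exact ⟨fun a => (hg a).1, fun a => (hg a).2.2.1⟩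
    · exact ⟨fun a => (hg a).2.1, fun a => (hg a).2.2.2⟩
  have e1 : (g : Matrix I I F) = (fromBlocks (1 : Matrix (Fin 2) (Fin 2) F) 0 0
      ((g : Matrix I I F).submatrix (fun x => e (.inr x)) (fun x => e (.inr x)))).submatrix e.symm e.symm := by
    ext a b
    obtain ⟨a, rfl⟩ := e.surjective a
    obtain ⟨b, rfl⟩ := e.surjective b
    rw [submatrix_apply, e.symm_apply_apply, e.symm_apply_apply]
    rcases a with a | a
    · rw [(key a).2, one_apply]
      simp only [e.injective.eq_iff]
      rcases b with b | b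
      · rw [fromBlocks_apply₁₁, one_apply]; simp
      · rw [fromBlocks_apply₁₂]; simp
    · rcases b with b | b
      · rw [(key b).1, one_apply, fromBlocks_apply₂₁]
        simp
      · rw [fromBlocks_apply₂₂]; rfl
  have hdet : ((g : Matrix I I F).submatrix (fun x => e (.inr x)) (fun x => e (.inr x))).det = 1 := by
    have := g.2
    rw [e1, det_submatrix_equiv_self, det_fromBlocks_zero₂₁, det_one, one_mul] at this
    exact this
  exact ⟨⟨_, hdet⟩, Subtype.ext e1⟩

/-- transposed inverse -/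
def tinv (K F : Type*) [Fintype K] [DecidableEq K] [Field F] :
    Matrix.SpecialLinearGroup K F →* Matrix.SpecialLinearGroup K F where
  toFun g := (g⁻¹).transpose
  map_one' := by
    apply Subtype.ext
    rw [Matrix.SpecialLinearGroup.coe_transpose, inv_one, Matrix.SpecialLinearGroup.coe_one, transpose_one]
  map_mul' g h := by
    apply Subtype.ext
    rw [Matrix.SpecialLinearGroup.coe_mul, Matrix.SpecialLinearGroup.coe_transpose,
      Matrix.SpecialLinearGroup.coe_transpose, Matrix.SpecialLinearGroup.coe_transpose, _root_.mul_inv_rev,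
      Matrix.SpecialLinearGroup.coe_mul, transpose_mul]

theorem tinv_X {K : Type*} [Fintype K] [DecidableEq K] {i j : K} (hij : i ≠ j) (t : F) :
    tinv K F (X i j t) = X j i (-t) := by
  apply Subtype.ext
  change ((X i j t)⁻¹.transpose : Matrix K K F) = _
  rw [Matrix.SpecialLinearGroup.coe_transpose, X_inv, coe_X hij, coe_X hij.symm, transpose_add, transpose_one,
    transpose_single]

section

variable {J : Type*} [Group J]

/-- `s` on the first block -/
theorem Sys1.sB_all {φ : Matrix.SpecialLinearGroup I F →* J} {s : J} {o l c : I} (A : Sys1 φ s o l c)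
    (e : Fin 2 ⊕ L ≃ I) (h0 : e (.inl 0) = o) (h1 : e (.inl 1) = l) (b : Matrix.SpecialLinearGroup (Fin 2) F) :
    MulAut.conj s (φ (blL F e b)) = φ (blL F e (tinv (Fin 2) F b)) := by
  have h2 : b ∈ Subgroup.closure (Cfsg.Agent.LieClassical.SLGen.transvections (Fin 2) F) := by
    rw [Cfsg.Agent.LieClassical.SLGen.closure_transvections]; trivial
  induction h2 using Subgroup.closure_induction with
  | mem x hx =>
    obtain ⟨i, j, hij, t, rfl⟩ := hx
    rw [← X_of hij, tinv_X hij, blL_X e hij, blL_X e hij.symm]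
    fin_cases i <;> fin_cases j
    · exact absurd rfl hij
    · change MulAut.conj s (φ (X (e (.inl 0)) (e (.inl 1)) t)) = φ (X (e (.inl 1)) (e (.inl 0)) (-t))
      rw [h0, h1, A.sB]
    · change MulAut.conj s (φ (X (e (.inl 1)) (e (.inl 0)) t)) = φ (X (e (.inl 0)) (e (.inl 1)) (-t))
      rw [h0, h1, A.sB']
    · exact absurd rfl hij
  | one => simp
  | mul x y _ _ hx hy => rw [map_mul, map_mul, map_mul, hx, hy, map_mul, map_mul, map_mul]
  | inv x _ hx => rw [map_inv, map_inv, map_inv, hx, map_inv, map_inv, map_inv]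

end

end Cfsg.Agent.H110.D
end

-- part: H110/D/Rel2
section
/-!
# Type `D`: the short list of relators, equivalence with the hypotheses (helper110, for S2295)
-/

set_option autoImplicit false

namespace Cfsg.Agent.H110.D

open Equiv Matrix
open scoped commutatorElement

variable {I L F : Type*} [Fintype I] [DecidableEq I] [Fintype L] [DecidableEq L] [Field F] {J J' : Type*} [Group J]
  [Group J']

/-- a relator -/
def relB (P : Pre I F J) (e : Fin 2 ⊕ L ≃ I) (b : Matrix.SpecialLinearGroup (Fin 2) F) : J :=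
  P.s * P.φ (blL F e b) * P.s⁻¹ * (P.φ (blL F e (tinv _ F b)))⁻¹

/-- a relator -/
def relC (P : Pre I F J) (e : Fin 2 ⊕ L ≃ I) (g : Matrix.SpecialLinearGroup L F) : J := ⁅P.s, P.φ (blR F e g)⁆

/-- a relator -/
def rel3 (P : Pre I F J) : J := P.s * MulAut.conj (P.φ (zz F P.o P.l P.c)) P.s *
  MulAut.conj (P.φ (zz F P.o P.l P.c * zz F P.o P.l P.c)) P.s

/-- a relator -/
noncomputable def relII (P : Pre I F J) : J := ⁅P.Y (.inl P.o) (.inl P.l) 1, P.Y (.inl P.o) (.inr P.l) 1⁆

/-- a relator -/
noncomputable def relIII (P : Pre I F J) (d : I) : J := ⁅P.Y (.inl P.o) (.inr P.l) 1, P.Y (.inl P.c) (.inl d) 1⁆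

open Classical in
/-- the relators -/
noncomputable def rels (P : Pre I F J) (e : Fin 2 ⊕ L ≃ I) (b1 b2 : Matrix.SpecialLinearGroup (Fin 2) F)
    (g1 g2 : Matrix.SpecialLinearGroup L F) (d : I) : List J :=
  [relB P e b1, relB P e b2, relC P e g1, relC P e g2] ++
    if (2 : F) ≠ 0 then [P.s * P.s, rel3 P] else
      [rel3 P * (P.s * P.s)⁻¹, relII P] ++ if Fintype.card I = 4 then [relIII P d] else []

theorem length_rels (P : Pre I F J) (e : Fin 2 ⊕ L ≃ I) (b1 b2 : Matrix.SpecialLinearGroup (Fin 2) F)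
    (g1 g2 : Matrix.SpecialLinearGroup L F) (d : I) : (rels P e b1 b2 g1 g2 d).length ≤ 7 := by
  unfold rels
  split_ifs <;> simp

theorem length_rels' (P : Pre I F J) (e : Fin 2 ⊕ L ≃ I) (b1 b2 : Matrix.SpecialLinearGroup (Fin 2) F)
    (g1 g2 : Matrix.SpecialLinearGroup L F) (d : I) (h : Fintype.card I ≠ 4) :
    (rels P e b1 b2 g1 g2 d).length ≤ 6 := by
  unfold rels
  split_ifs <;> simp

theorem map_comm' (f : J →* J') (x y : J) : f ⁅x, y⁆ = ⁅f x, f y⁆ := map_commutatorElement f x y

theorem map_rels (P : Pre I F J) (f : J →* J') (e : Fin 2 ⊕ L ≃ I) (b1 b2 : Matrix.SpecialLinearGroup (Fin 2) F)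
    (g1 g2 : Matrix.SpecialLinearGroup L F) (d : I) :
    rels (P.map f) e b1 b2 g1 g2 d = (rels P e b1 b2 g1 g2 d).map f := by
  have h1 : ∀ b, relB (P.map f) e b = f (relB P e b) := by
    intro b
    unfold relB
    rw [map_mul, map_mul, map_mul, map_inv, map_inv]
    rfl
  have h2 : ∀ g, relC (P.map f) e g = f (relC P e g) := by
    intro g
    unfold relC
    rw [map_comm']
    rfl
  have h3 : rel3 (P.map f) = f (rel3 P) := by
    unfold rel3
    rw [map_mul f, map_mul f, map_conj, map_conj]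
    rfl
  have h4 : relII (P.map f) = f (relII P) := by
    unfold relII
    rw [map_comm', Pre.map_Y, Pre.map_Y]
    rfl
  have h5 : relIII (P.map f) d = f (relIII P d) := by
    unfold relIII
    rw [map_comm', Pre.map_Y, Pre.map_Y]
    rfl
  have h6 : (P.map f).s = f P.s := rfl
  unfold rels
  split_ifs <;> simp only [List.map_append, List.map_cons, List.map_nil, h1, h2, h3, h4, h5, h6, map_mul, map_inv]

/-- in the group the relators hold -/
theorem rels_eq_one {P : Pre I F J} (A : P.S2) (e : Fin 2 ⊕ L ≃ I) (h0 : e (.inl 0) = P.o) (h1 : e (.inl 1) = P.l)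
    (b1 b2 : Matrix.SpecialLinearGroup (Fin 2) F)
    (g1 g2 : Matrix.SpecialLinearGroup L F) (d : I) (d1 : d ≠ P.o) (d2 : d ≠ P.l) (d3 : d ≠ P.c) :
    ∀ r ∈ rels P e b1 b2 g1 g2 d, r = 1 := by
  have k1 : ∀ b, relB P e b = 1 := by
    intro b
    have := Sys1.sB_all A.s1 e h0 h1 b
    rw [MulAut.conj_apply] at this
    unfold relB
    rw [this, mul_inv_cancel]
  have k2 : ∀ g, relC P e g = 1 := by
    intro g
    have hin := inC_blR e g
    rw [h0, h1] at hin
    exact commutatorElement_eq_one_iff_commute.2 (A.s1.sC _ hin)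
  have k3 : rel3 P = 1 := A.s1.s3
  have k4 : relII P = 1 := commutatorElement_eq_one_iff_commute.2
    (A.comm4 (a := .inl P.o) (b := .inl P.l) A.s1.hol 1 1)
  have k5 : relIII P d = 1 := commutatorElement_eq_one_iff_commute.2
    (A.comm3 (a := .inl P.o) (b := .inr P.l) (c := .inl P.c) (d := .inl d) A.s1.hol A.s1.hoc d1.symm A.s1.hlc d2.symm
      d3.symm 1 1)
  have k6 : P.s * P.s = 1 := A.s1.sq
  intro r hr
  unfold rels at hr
  split_ifs at hr <;>
    simp only [List.mem_append, List.mem_cons, List.not_mem_nil, or_false, k1, k2, k3, k4, k5, k6, inv_one,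
      mul_one] at hr <;> tauto

/-- the relators imply the hypotheses -/
theorem s2_of_rels {P : Pre I F J} (e : Fin 2 ⊕ L ≃ I) (h0 : e (.inl 0) = P.o) (h1 : e (.inl 1) = P.l)
    (hoc : P.o ≠ P.c) (hlc : P.l ≠ P.c) (hI : 4 ≤ Fintype.card I)
    (hsq : (2 : F) = 0 → ∀ x : F, ∃ y, y * y = x)
    {b1 b2 : Matrix.SpecialLinearGroup (Fin 2) F} (hb : Subgroup.closure {b1, b2} = ⊤)
    {g1 g2 : Matrix.SpecialLinearGroup L F} (hg : Subgroup.closure {g1, g2} = ⊤)
    {d : I} (d1 : d ≠ P.o) (d2 : d ≠ P.l) (d3 : d ≠ P.c)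
    (hr : ∀ r ∈ rels P e b1 b2 g1 g2 d, r = 1) : P.S2 := by
  have hol : P.o ≠ P.l := by
    rw [← h0, ← h1]
    intro h
    have := e.injective h
    simp at this
  have k1 : relB P e b1 = 1 := hr _ (by unfold rels; simp)
  have k2 : relB P e b2 = 1 := hr _ (by unfold rels; simp)
  have k3 : relC P e g1 = 1 := hr _ (by unfold rels; simp)
  have k4 : relC P e g2 = 1 := hr _ (by unfold rels; simp)
  -- all of the first block
  have hB : ∀ b, MulAut.conj P.s (P.φ (blL F e b)) = P.φ (blL F e (tinv _ F b)) := by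
    have e1 : (MulAut.conj P.s).toMonoidHom.comp (P.φ.comp (blL F e)) = P.φ.comp ((blL F e).comp (tinv _ F)) := by
      refine MonoidHom.eq_of_eqOn_dense hb ?_
      intro b hb
      have : relB P e b = 1 := by
        rcases hb with rfl | hb
        · exact k1
        · rw [Set.mem_singleton_iff] at hb
          rw [hb]; exact k2
      exact mul_inv_eq_one.1 this
    intro b
    exact DFunLike.congr_fun e1 b
  have hsB : ∀ t, MulAut.conj P.s (P.φ (X P.o P.l t)) = P.φ (X P.l P.o (-t)) := by
    intro t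
    have := hB (X 0 1 t)
    rwa [tinv_X (by simp), blL_X e (by simp), blL_X e (by simp), h0, h1] at this
  have hsB' : ∀ t, MulAut.conj P.s (P.φ (X P.l P.o t)) = P.φ (X P.o P.l (-t)) := by
    intro t
    have := hB (X 1 0 t)
    rwa [tinv_X (by simp), blL_X e (by simp), blL_X e (by simp), h0, h1] at this
  -- the second block
  have hC : ∀ g, InC P.o P.l g → Commute P.s (P.φ g) := by
    intro g hg'
    rw [← h0, ← h1] at hg'
    obtain ⟨h, rfl⟩ := exists_blR e hg'
    have hh : h ∈ Subgroup.closure {g1, g2} := by rw [hg]; trivial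
    induction hh using Subgroup.closure_induction with
    | mem x hx =>
      rcases hx with rfl | hx
      · exact commutatorElement_eq_one_iff_commute.1 k3
      · rw [Set.mem_singleton_iff] at hx
        rw [hx]
        exact commutatorElement_eq_one_iff_commute.1 k4
    | one => rw [map_one, map_one]; exact Commute.one_right _
    | mul x y _ _ hx hy =>
      rw [map_mul, map_mul]
      exact (hx (inC_blR e x)).mul_right (hy (inC_blR e y))
    | inv x _ hx =>
      rw [map_inv, map_inv]
      exact (hx (inC_blR e x)).inv_right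
  -- squares
  have hsqr : P.s * P.s = 1 ∧ rel3 P = 1 := by
    by_cases h2 : (2 : F) = 0
    swap
    · exact ⟨hr _ (by unfold rels; rw [if_pos h2]; simp), hr _ (by unfold rels; rw [if_pos h2]; simp)⟩
    have k5 : rel3 P * (P.s * P.s)⁻¹ = 1 := hr _ (by unfold rels; rw [if_neg (by simpa using h2)]; simp)
    have k6 : rel3 P = P.s * P.s := mul_inv_eq_one.1 k5
    suffices P.s * P.s = 1 by
      exact ⟨this, by rw [k6, this]⟩
    have hneg : ∀ x : F, -x = x := fun x => by
      rw [neg_eq_iff_add_eq_zero, ← two_mul, h2, zero_mul]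
    have hz3 := zz3 (F := F) hol hoc hlc
    have hW := zz_W (F := F) hol hoc hlc
    have hWinv : (Wu P.o P.l 1 : Matrix.SpecialLinearGroup I F)⁻¹ = Wu P.o P.l 1 := by
      rw [Wu_inv, hneg]
    have hcW : Commute P.s (P.φ (Wu P.o P.l 1)) := by
      have e1 : MulAut.conj P.s (P.φ (Wu P.o P.l 1)) = P.φ (Wu P.l P.o 1) := by
        unfold Wu
        rw [map_mul, map_mul, map_mul, map_mul, hsB, hsB', map_mul, map_mul, hneg, hneg, hneg]
      have e2 : (Wu P.l P.o 1 : Matrix.SpecialLinearGroup I F) = Wu P.o P.l 1 := by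
        refine (mon_Wu hol.symm one_ne_zero).ext_eq ((mon_Wu hol one_ne_zero).congr (swap_comm _ _) fun a => ?_)
        by_cases h : a = P.o
        · rw [if_pos h, if_neg (by rw [h]; exact hol), if_pos h, inv_one, hneg]
        · by_cases h' : a = P.l
          · rw [if_neg h, if_pos h', if_pos h', inv_one, hneg]
          · rw [if_neg h, if_neg h', if_neg h', if_neg h]
      rw [e2, MulAut.conj_apply, mul_inv_eq_iff_eq_mul] at e1
      exact e1
    set z := zz F P.o P.l P.c with hz
    set W := Wu (F := F) P.o P.l 1 with hWdef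
    set a := P.s with ha
    set b := MulAut.conj (P.φ z) a with hbdef
    set c' := MulAut.conj (P.φ (z * z)) a with hcdef
    have r1 : b * c' = a := by
      have : a * b * c' = a * a := k6
      rw [mul_assoc] at this
      exact mul_left_cancel this
    have c1 : MulAut.conj (P.φ W) a = a := by
      rw [MulAut.conj_apply, ← hcW.eq, mul_inv_cancel_right]
    have c2 : MulAut.conj (P.φ W) c' = b := by
      rw [hcdef, ← MulAut.mul_apply, ← map_mul, ← map_mul, hW, hWinv, map_mul, map_mul, MulAut.mul_apply, c1]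
    have c3 : MulAut.conj (P.φ W) b = c' := by
      rw [← c2, ← MulAut.mul_apply, ← map_mul, ← map_mul]
      have : W * W = 1 := by
        conv_lhs => rw [← hWinv]
        rw [hWinv]
        conv_lhs => arg 1; rw [← hWinv]
        exact inv_mul_cancel _
      rw [this, map_one, map_one, MulAut.one_apply]
    have r2 : c' * b = a := by
      have := congrArg (MulAut.conj (P.φ W)) r1
      rwa [map_mul, c1, c2, c3] at this
    have d1' : MulAut.conj (P.φ z) c' = a := by
      rw [hcdef, ← MulAut.mul_apply, ← map_mul, ← map_mul, ← mul_assoc, hz3, map_one, map_one, MulAut.one_apply]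
    have d2' : MulAut.conj (P.φ z) b = c' := by
      rw [hbdef, ← MulAut.mul_apply, ← map_mul, ← map_mul]
    have r3 : c' * a = b := by
      have := congrArg (MulAut.conj (P.φ z)) r1
      rwa [map_mul, d1', d2'] at this
    have r4 : c' * c' = 1 := by
      have : c' * (c' * a) = a := by rw [r3, r2]
      rw [← mul_assoc] at this
      exact mul_eq_right.1 this
    have := congrArg (MulAut.conj (P.φ z)) r4
    rwa [map_mul, d1', map_one] at this
  have hs1 : P.S1 := { hol := hol, hoc := hoc, hlc := hlc, hI := hI, sq := hsqr.1, sC := hC, sB := hsB, s3 := hsqr.2 }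
  refine ⟨hs1, hsq, fun h2 => ?_, fun h2 h4 => ⟨d, d1, d2, d3, ?_⟩⟩
  · exact commutatorElement_eq_one_iff_commute.1 (hr (relII P) (by unfold rels; rw [if_neg (by simpa using h2)]; simp))
  · exact commutatorElement_eq_one_iff_commute.1 (hr (relIII P d) (by
      unfold rels; rw [if_neg (by simpa using h2), if_pos h4]; simp))

end Cfsg.Agent.H110.D
end

-- part: H110/D/HypD
section
/-!
# Type `D`: injectivity of the map to matrices (helper110, for S2295)
-/

set_option autoImplicit false

namespace Cfsg.Agent.H110.D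

open Equiv Matrix
open Cfsg.Agent.ChevalleyStructure.SteinbergBruhat

variable {m : ℕ} {F : Type*} [Field F]

theorem ymat_apply (a b : Sg m) (t : F) (x y : Sg m) : ymat a b t x y =
    (if x = y then 1 else 0) + ((if b = x ∧ ng a = y then t else 0) - if a = x ∧ ng b = y then t else 0) := by
  unfold ymat
  rw [Matrix.add_apply, Matrix.sub_apply, one_apply, single_apply, single_apply]

theorem ymat_diag {a b : Sg m} (h : idx a ≠ idx b) (t : F) (x : Sg m) : ymat a b t x x = 1 := by
  rw [ymat_apply, if_pos rfl, if_neg, if_neg, sub_zero, add_zero]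
  · rintro ⟨h1, h2⟩
    exact h (by rw [h1, ← h2, idx_ng])
  · rintro ⟨h1, h2⟩
    exact h (by rw [h1, ← h2, idx_ng])

theorem ymat_off {a b : Sg m} (t : F) {x y : Sg m} (hxy : x ≠ y) (hne : ymat a b t x y ≠ 0) :
    (x = b ∧ y = ng a) ∨ (x = a ∧ y = ng b) := by
  rw [ymat_apply, if_neg hxy, zero_add] at hne
  by_contra hcon
  rw [not_or] at hcon
  apply hne
  rw [if_neg (fun h => hcon.1 ⟨h.1.symm, h.2.symm⟩), if_neg (fun h => hcon.2 ⟨h.1.symm, h.2.symm⟩), sub_zero]

theorem ymat_main {a b : Sg m} (h : idx a ≠ idx b) (t : F) : ymat a b t a (ng b) = -t := by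
  rw [ymat_apply, if_neg, if_neg, if_pos ⟨rfl, rfl⟩]
  · ring
  · rintro ⟨h1, _⟩
    exact h (by rw [h1])
  · intro e
    exact h (by rw [e, idx_ng])

variable (m F) in
/-- lower triangular -/
def W0 : Submonoid (GL (Sg m) F) where
  carrier := {g | ∀ a b, (g : Matrix (Sg m) (Sg m) F) a b ≠ 0 → wt b ≤ wt a}
  one_mem' := by
    intro a b h
    rw [Units.val_one, one_apply] at h
    split_ifs at h with h1
    · rw [h1]
    · exact absurd rfl h
  mul_mem' := by
    intro g h hg hh a b hab
    rw [Units.val_mul, mul_apply] at hab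
    obtain ⟨c, _, hc⟩ := Finset.exists_ne_zero_of_sum_ne_zero hab
    exact (hh c b (right_ne_zero_of_mul hc)).trans (hg a c (left_ne_zero_of_mul hc))

variable (m F) in
/-- unitriangular of level `k` -/
def Wk (k : ℤ) (hk : 0 < k) : Submonoid (GL (Sg m) F) where
  carrier := {g | (∀ a, (g : Matrix (Sg m) (Sg m) F) a a = 1) ∧
    ∀ a b, a ≠ b → (g : Matrix (Sg m) (Sg m) F) a b ≠ 0 → wt b + k ≤ wt a}
  one_mem' := by
    constructor
    · intro a; rw [Units.val_one, one_apply, if_pos rfl]
    · intro a b hab h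
      rw [Units.val_one, one_apply, if_neg hab] at h
      exact absurd rfl h
  mul_mem' := by
    intro g h hg hh
    constructor
    · intro a
      rw [Units.val_mul, mul_apply, Finset.sum_eq_single a]
      · rw [hg.1, hh.1, one_mul]
      · intro c _ hc
        by_contra hne
        have h1 := hg.2 a c (Ne.symm hc) (left_ne_zero_of_mul hne)
        have h2 := hh.2 c a hc (right_ne_zero_of_mul hne)
        omega
      · intro h; exact absurd (Finset.mem_univ _) h
    · intro a b hab hne
      rw [Units.val_mul, mul_apply] at hne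
      obtain ⟨c, _, hc⟩ := Finset.exists_ne_zero_of_sum_ne_zero hne
      by_cases h1 : c = a
      · subst h1
        exact hh.2 c b hab (right_ne_zero_of_mul hc)
      by_cases h2 : c = b
      · subst h2
        exact hg.2 a c hab (left_ne_zero_of_mul hc)
      · have h3 := hg.2 a c (Ne.symm h1) (left_ne_zero_of_mul hc)
        have h4 := hh.2 c b h2 (right_ne_zero_of_mul hc)
        omega

variable (F) in
/-- the submonoid of a positive root -/
def Wr' (r : Root m) (hr : 0 < r.ht) : Submonoid (GL (Sg m) F) where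
  carrier := {g | g ∈ Wk m F r.ht hr ∧ ∀ a b, r.1 = s(a, b) → (g : Matrix (Sg m) (Sg m) F) a (ng b) = 0}
  one_mem' := by
    refine ⟨Submonoid.one_mem _, fun a b h => ?_⟩
    rw [Units.val_one, one_apply, if_neg]
    rintro rfl
    have := r.2
    rw [h, isRoot_iff] at this
    exact this (idx_ng _)
  mul_mem' := by
    rintro g h ⟨hg, hg'⟩ ⟨hh, hh'⟩
    refine ⟨Submonoid.mul_mem _ hg hh, fun a b hab => ?_⟩
    have hht : r.ht = wt a + wt b := by rw [Root.ht, hab]; rfl
    have hne : a ≠ ng b := by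
      rintro rfl
      have := r.2
      rw [hab, isRoot_iff] at this
      exact this (idx_ng _)
    rw [Units.val_mul, mul_apply]
    by_contra hne'
    obtain ⟨c, _, hc⟩ := Finset.exists_ne_zero_of_sum_ne_zero hne'
    by_cases h1 : c = a
    · subst h1
      exact right_ne_zero_of_mul hc (hh' c b hab)
    by_cases h2 : c = ng b
    · subst h2
      exact left_ne_zero_of_mul hc (hg' a b hab)
    · have h3 := hg.2 a c (Ne.symm h1) (left_ne_zero_of_mul hc)
      have h4 := hh.2 c (ng b) h2 (right_ne_zero_of_mul hc)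
      rw [wt_ng] at h4
      omega

variable (F) in
/-- the submonoid of a root -/
def Wr (r : Root m) : Submonoid (GL (Sg m) F) := if hr : 0 < r.ht then Wr' F r hr else ⊤

variable {J : Type*} [Group J] {P : Pre (Fin (m + 2)) F J}

namespace Pre.S2

variable (A : P.S2)
include A

theorem hyp (hgen : Subgroup.closure (Set.range P.φ ∪ {P.s}) = ⊤)
    (θ : J →* GL (Sg m) F) (hθ : P.map θ = pmod F P.o P.l P.c) :
    Cfsg.Agent.H111.Inj.Hyp P.rd Root.ht θ (W0 m F) (Wk m F 1 one_pos) (Wr F) := by
  have hs1 : (pmod F P.o P.l P.c).S1 := pmod_s1 A.s1.hol A.s1.hoc A.s1.hlc A.s1.hI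
  have hφ : θ.comp P.φ = phm (Fin (m + 2)) F := congrArg Pre.φ hθ
  have hσ : ∀ p q, θ (P.σ p q) = sm F p q := by
    intro p q
    rw [← map_σ, hθ, pmod_σ hs1]
  have hY : ∀ {a b : Sg m}, idx a ≠ idx b → ∀ t,
      ((θ (P.Y a b t) : GL (Sg m) F) : Matrix (Sg m) (Sg m) F) = ymat a b t := by
    intro a b hab t
    rw [← map_Y, hθ, pmod_Y hs1 hab]
  have hpos1 : ∀ {a b : Sg m}, idx a ≠ idx b → ∀ t, ∀ k : ℤ, (hk : 0 < k) → k ≤ wt a + wt b →
      θ (P.Y a b t) ∈ Wk m F k hk := by
    intro a b hab t k hk hle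
    refine ⟨fun x => ?_, fun x y hxy hne => ?_⟩
    · rw [hY hab, ymat_diag hab]
    · rw [hY hab] at hne
      rcases ymat_off t hxy hne with ⟨rfl, rfl⟩ | ⟨rfl, rfl⟩ <;> rw [wt_ng] <;> omega
  have hdiag : ∀ {h : J}, h ∈ P.H → θ h ∈ W0 m F := by
    intro h hh
    obtain ⟨g, hg, v, hv, rfl⟩ := A.s1.exists_form hh
    -- diagonal matrices
    have hd : ∀ {g : Matrix.SpecialLinearGroup (Fin (m + 2)) F}, g ∈ HSL (Fin (m + 2)) F → θ (P.φ g) ∈ W0 m F := by
      intro g hg
      obtain ⟨c, hc⟩ := mon_of_mem hg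
      have e2 : θ (P.φ g) = phm _ F g := DFunLike.congr_fun hφ _
      intro x y hne
      rw [e2, mon_phm' hc] at hne
      have e1 : (Equiv.sumCongr (1 : Perm (Fin (m + 2))) (1 : Perm (Fin (m + 2)))) = 1 := by
        ext x; rcases x with x | x <;> rfl
      rw [e1, Perm.one_apply] at hne
      split_ifs at hne with h1
      · rw [h1]
      · exact absurd rfl hne
    rw [map_mul]
    refine (W0 m F).mul_mem (hd hg) ?_
    -- the other torus element
    have hol : P.o ≠ P.l := A.s1.hol
    obtain ⟨d, d1, d2, -⟩ := exists_out A.s1.hI P.o P.l P.l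
    have h1 := A.s1.fl_HH (a := .inr P.o) (b := .inl P.l) hol d P.o v
    rw [fl_self (p := P.o) (a := (.inr P.o : Sg m)) rfl,
      fl_of_ne (p := P.o) (a := (.inl P.l : Sg m)) hol.symm, fl_of_ne (p := d) (a := (.inl P.l : Sg m)) d2.symm,
      fl_of_ne (p := d) (a := ng (.inr P.o : Sg m)) d1.symm, ng_inr] at h1
    have hb : P.HH (.inr P.o) (.inl P.l) v = P.φ (Hd P.l P.o v) := by
      unfold Pre.HH Pre.WW Hd Wu
      simp only [ng_inl, ng_inr, Pre.Y_rl, Pre.Y_lr, map_mul]
    rw [← h1, hb, map_conj, hσ]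
    have h2 : θ (P.φ (Hd P.l P.o v)) = phm _ F (Hd P.l P.o v) := DFunLike.congr_fun hφ _
    rw [h2]
    have hm := mon_phm' (mon_Hd (F := F) hol.symm hv)
    have e1 : (Equiv.sumCongr (1 : Perm (Fin (m + 2))) (1 : Perm (Fin (m + 2)))) = 1 := by
      ext x; rcases x with x | x <;> rfl
    rw [e1] at hm
    have h3 : MulAut.conj (sm F d P.o) (phm _ F (Hd P.l P.o v)) * sm F d P.o =
        sm F d P.o * phm _ F (Hd P.l P.o v) := by
      rw [MulAut.conj_apply, inv_mul_cancel_right]
    set M := MulAut.conj (sm F d P.o) (phm _ F (Hd P.l P.o v)) with hM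
    have h6 : ∀ z : Sg m, (flp d * flp P.o) ((flp d * flp P.o) z) = z := by
      intro z
      simp only [Perm.mul_apply, flp_apply]
      rw [fl_comm d P.o, fl_fl, fl_comm, fl_fl]
    have h7 : (flp d * flp P.o)⁻¹ = (flp d * flp P.o : Perm (Sg m)) := by
      rw [_root_.mul_inv_rev, flp_inv, flp_inv, flp_comm]
    intro x y hne
    have h5 := congrArg (fun N : GL (Sg m) F => (N : Matrix (Sg m) (Sg m) F) x ((flp d * flp P.o) y)) h3
    simp only [Units.val_mul] at h5
    change ((M : Matrix (Sg m) (Sg m) F) * pmat F (flp d * flp P.o)) _ _ =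
      (pmat F (flp d * flp P.o) * (phm _ F (Hd P.l P.o v) : Matrix (Sg m) (Sg m) F)) _ _ at h5
    rw [mul_pmat, pmat_mul, h6, h7, hm] at h5
    rw [h5] at hne
    split_ifs at hne with h8
    · rw [Perm.one_apply] at h8
      have := (flp d * flp P.o : Perm (Sg m)).injective h8
      rw [this]
    · exact absurd rfl hne
  exact
  { refl_refl := Root.refl_refl
    refl_sim := refl_simR
    refl_pos := Root.refl_pos
    refl_neg := Root.refl_neg
    pos_iff := fun _ => Iff.rfl
    ht_sim := fun i => by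
      change 0 < (simR i).ht
      rw [ht_simR]; exact one_pos
    ht_neg := Root.ht_neg
    ht_ne := Root.ht_ne
    conjH := fun h hh => Root.ind fun a b hab x hx => by
      rw [A.X_mkR] at hx ⊢
      exact A.conj_H hh hab x hx
    conjn := fun i => Root.ind fun a b hab x hx => by
      rw [A.X_mkR] at hx
      obtain ⟨t, rfl⟩ := hx
      change _ ∈ P.rd.X ((mkR a b hab).refl i)
      rw [Root.refl, im_mkR, A.X_mkR]
      exact A.conj_n i hab t
    conjnH := fun i h hh => A.s1.WW_conj_mem (sab i) hh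
    nn := fun i => A.s1.WW_mul_mem (sab i) one_ne_zero one_ne_zero
    nmem := A.n_mem
    Xneg := A.X_neg
    comm := A.comm
    gen := A.gen hgen
    W0pos := Root.ind fun a b hab hp x hx => by
      rw [A.X_mkR] at hx
      obtain ⟨t, rfl⟩ := hx
      intro c d hne
      by_cases hcd : c = d
      · rw [hcd]
      · have := (hpos1 hab t _ hp le_rfl).2 c d hcd hne
        rw [ht_mkR] at this hp
        omega
    W0H := fun h hh => hdiag hh
    W0neg := Root.ind fun a b hab hp => by
      rw [ht_mkR] at hp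
      refine ⟨P.Y a b 1, ?_, ?_⟩
      · rw [A.X_mkR]; exact ⟨1, rfl⟩
      · intro h
        have := h a (ng b) (by rw [hY hab, ymat_main hab]; exact neg_ne_zero.2 one_ne_zero)
        rw [wt_ng] at this
        omega
    Wpos := fun r s hr hrs hne x hx => by
      obtain ⟨c, d, hcd, t, rfl, rfl⟩ := A.mem_X _ _ hx
      rw [Wr, dif_pos hr]
      refine ⟨hpos1 hcd t _ hr hrs, ?_⟩
      intro a b hab
      by_contra hne'
      have hr' := r.2
      rw [hab, isRoot_iff] at hr'
      have hane : a ≠ ng b := by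
        rintro rfl
        exact hr' (idx_ng _)
      apply hne
      rw [hY hcd] at hne'
      rcases ymat_off t hane hne' with ⟨rfl, h2⟩ | ⟨rfl, h2⟩
      · have h3 : b = c := by rw [← ng_ng b, h2, ng_ng]
        subst h3
        apply Subtype.ext
        rw [hab]
        exact Sym2.eq_swap
      · have h3 : b = d := by rw [← ng_ng b, h2, ng_ng]
        subst h3
        apply Subtype.ext
        rw [hab]; rfl
    Wr := fun r hr x hx hxW => by
      obtain ⟨c, d, hcd, t, rfl, rfl⟩ := A.mem_X _ _ hx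
      rw [Wr, dif_pos hr] at hxW
      have := hxW.2 c d rfl
      rw [hY hcd, ymat_main hcd] at this
      rw [neg_eq_zero.1 this, A.s1.Y_zero]
    W1pos := Root.ind fun a b hab hp x hx => by
      rw [A.X_mkR] at hx
      obtain ⟨t, rfl⟩ := hx
      exact hpos1 hab t _ one_pos hp
    W1H := fun h hh hW => tor_inj A θ hφ hσ hh fun i => hW.1 _ }

theorem injective (hgen : Subgroup.closure (Set.range P.φ ∪ {P.s}) = ⊤)
    (θ : J →* GL (Sg m) F) (hθ : P.map θ = pmod F P.o P.l P.c) : Function.Injective θ :=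
  (A.hyp hgen θ hθ).injective

end Pre.S2

end Cfsg.Agent.H110.D
end

-- part: H110/D/Surj
section
/-!
# Type `D`: the root elements generate `Ω⁺` (helper110, for S2295)
-/

set_option autoImplicit false

namespace Cfsg.Agent.H110.D

open Equiv QuadraticMap
open Cfsg.Agent.LieClassical.OrthCore Cfsg.Agent.LieClassical.OrthForms Cfsg.Agent.LieClassical.OrthFinite

variable {n : ℕ} {F : Type*} [Field F]

/-- basis vectors -/
def bv (F : Type*) [Field F] {n : ℕ} (a : Fin n ⊕ Fin n) : Fin n ⊕ Fin n → F := Pi.single a 1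

theorem polar_bv (a : Fin n ⊕ Fin n) (v : Fin n ⊕ Fin n → F) : polar (plusForm n F) (bv F a) v = v (ng a) := by
  rw [polar_plusForm]
  rcases a with a | a
  · rw [Finset.sum_eq_single a]
    · simp [bv]
    · intro b _ hb
      simp [bv, hb]
    · intro h; exact absurd (Finset.mem_univ _) h
  · rw [Finset.sum_eq_single a]
    · simp [bv]
    · intro b _ hb
      simp [bv, hb]
    · intro h; exact absurd (Finset.mem_univ _) h

theorem Q_bv (a : Fin n ⊕ Fin n) : plusForm n F (bv F a) = 0 := by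
  rw [coe_plusForm, quadFormPlus_apply]
  apply Finset.sum_eq_zero
  intro i _
  rcases a with a | a <;> simp [bv]

theorem Q_smul_bv (a : Fin n ⊕ Fin n) (t : F) : plusForm n F (t • bv F a) = 0 := by
  rw [QuadraticMap.map_smul, Q_bv, smul_zero]

theorem bv_apply_self (a : Fin n ⊕ Fin n) : bv F a a = 1 := by simp [bv]
theorem bv_apply_ne {a b : Fin n ⊕ Fin n} (h : b ≠ a) : bv F a b = 0 := by simp [bv, h]

theorem polar_bv_smul {a b : Fin n ⊕ Fin n} (h : idx a ≠ idx b) (t : F) :
    polar (plusForm n F) (bv F a) (t • bv F b) = 0 := by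
  rw [polar_bv, Pi.smul_apply, bv_apply_ne, smul_zero]
  intro e
  exact h (by rw [← e, idx_ng])

/-- root elements -/
noncomputable def ysg (a b : Fin n ⊕ Fin n) (h : idx a ≠ idx b) (t : F) :
    (Fin n ⊕ Fin n → F) ≃ₗ[F] (Fin n ⊕ Fin n → F) :=
  siegel (plusForm n F) (bv F a) (t • bv F b) (Q_bv a) (polar_bv_smul h t)

variable {K : Subgroup ((Fin n ⊕ Fin n → F) ≃ₗ[F] (Fin n ⊕ Fin n → F))}

theorem siegel_congr {Q : QuadraticForm F (Fin n ⊕ Fin n → F)} {u w u' w' : Fin n ⊕ Fin n → F} (h1 : u = u') (h2 : w = w')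
    (hu : Q u = 0) (hw : polar Q u w = 0) (hu' : Q u' = 0) (hw' : polar Q u' w' = 0) :
    siegel Q u w hu hw = siegel Q u' w' hu' hw' := by
  subst h1; subst h2; rfl

theorem siegel_smul {Q : QuadraticForm F (Fin n ⊕ Fin n → F)} {u u' w : Fin n ⊕ Fin n → F} {c : F} (h : u' = c • u)
    (hu' : Q u' = 0) (hw' : polar Q u' w = 0) (hu : Q u = 0) (hw : polar Q u (c • w) = 0) :
    siegel Q u' w hu' hw' = siegel Q u (c • w) hu hw := by
  subst h
  ext1 v
  rw [siegel_apply, siegel_apply, polar_smul_left, polar_smul_left, QuadraticMap.map_smul]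
  simp only [smul_eq_mul]
  module

theorem step1 (hK : ∀ a b h t, ysg a b h t ∈ K) (a : Fin n ⊕ Fin n) (w : Fin n ⊕ Fin n → F)
    (hw : polar (plusForm n F) (bv F a) w = 0) : siegel (plusForm n F) (bv F a) w (Q_bv a) hw ∈ K := by
  classical
  have hw0 : w (ng a) = 0 := by rwa [polar_bv] at hw
  -- single terms
  have h1 : ∀ b, ∀ h : polar (plusForm n F) (bv F a) (w b • bv F b) = 0,
      siegel (plusForm n F) (bv F a) (w b • bv F b) (Q_bv a) h ∈ K := by
    intro b h
    by_cases hab : idx a = idx b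
    · have : siegel (plusForm n F) (bv F a) (w b • bv F b) (Q_bv a) h = 1 := by
        ext1 v
        rw [siegel_apply, LinearEquiv.coe_one, id_eq]
        rcases eq_or_ng hab with rfl | hab'
        · rw [Q_smul_bv, zero_mul, zero_smul, sub_zero, polar_smul_left, smul_eq_mul, smul_smul, mul_comm,
            add_sub_cancel_right]
        · have hb : b = ng a := by rw [hab', ng_ng]
          subst hb
          rw [hw0, zero_smul, smul_zero, QuadraticMap.map_zero, zero_mul, zero_smul, polar_zero_left, zero_smul]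
          simp
      rw [this]
      exact K.one_mem
    · exact hK a b hab (w b)
  have h2 : ∀ S : Finset (Fin n ⊕ Fin n), ∀ h : polar (plusForm n F) (bv F a) (∑ b ∈ S, w b • bv F b) = 0,
      siegel (plusForm n F) (bv F a) (∑ b ∈ S, w b • bv F b) (Q_bv a) h ∈ K := by
    intro S
    induction S using Finset.induction_on with
    | empty =>
      intro h
      have : siegel (plusForm n F) (bv F a) (∑ b ∈ (∅ : Finset (Fin n ⊕ Fin n)), w b • bv F b) (Q_bv a) h = 1 := by
        ext1 v
        rw [siegel_apply, Finset.sum_empty, smul_zero, QuadraticMap.map_zero, zero_mul, zero_smul, polar_zero_left,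
          zero_smul]
        simp
      rw [this]
      exact K.one_mem
    | insert b S hb ih =>
      intro h
      have hpol : ∀ T : Finset (Fin n ⊕ Fin n), polar (plusForm n F) (bv F a) (∑ b ∈ T, w b • bv F b) = 0 := by
        intro T
        rw [polar_bv, Finset.sum_apply]
        apply Finset.sum_eq_zero
        intro c _
        rw [Pi.smul_apply]
        by_cases hc : c = ng a
        · rw [hc, hw0, zero_smul]
        · rw [bv_apply_ne (Ne.symm hc), smul_zero]
      have e : ∑ c ∈ insert b S, w c • bv F c = w b • bv F b + ∑ c ∈ S, w c • bv F c := Finset.sum_insert hb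
      have h3 : polar (plusForm n F) (bv F a) (w b • bv F b) = 0 := by
        have := hpol {b}
        rwa [Finset.sum_singleton] at this
      have h4 : polar (plusForm n F) (bv F a) (w b • bv F b + ∑ c ∈ S, w c • bv F c) = 0 := by rw [← e]; exact h
      rw [siegel_congr rfl e (Q_bv a) h (Q_bv a) h4, ← siegel_mul (Q_bv a) h3 (hpol S) h4]
      exact K.mul_mem (h1 b h3) (ih _)
  have e : ∑ b : Fin n ⊕ Fin n, w b • bv F b = w := by
    funext x
    rw [Finset.sum_apply, Finset.sum_eq_single x]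
    · rw [Pi.smul_apply, bv_apply_self, smul_eq_mul, mul_one]
    · intro b _ hb
      rw [Pi.smul_apply, bv_apply_ne (Ne.symm hb), smul_zero]
    · intro h; exact absurd (Finset.mem_univ _) h
  have h5 : polar (plusForm n F) (bv F a) (∑ b : Fin n ⊕ Fin n, w b • bv F b) = 0 := by rw [e]; exact hw
  rw [siegel_congr rfl e.symm (Q_bv a) hw (Q_bv a) h5]
  exact h2 _ h5

theorem step2 (hK : ∀ a b h t, ysg a b h t ∈ K) : E (plusForm n F) ≤ K := by
  rw [E, Subgroup.closure_le]
  rintro _ ⟨u, w, hu, hw, rfl⟩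
  by_cases hu0 : u = 0
  · have : siegel (plusForm n F) u w hu hw = 1 := by
      ext1 v
      rw [siegel_apply, hu0, polar_zero_left, smul_zero, zero_smul, smul_zero]
      simp
    rw [this]
    exact K.one_mem
  obtain ⟨x, hx⟩ := Function.ne_iff.1 hu0
  set a := ng x with ha
  set c := u x with hc
  have hc0 : c ≠ 0 := hx
  have hax : ng a = x := by rw [ha, ng_ng]
  set w0 := (-c⁻¹) • (u - c • bv F x - u a • bv F a) with hw0
  have hxa : x ≠ a := fun e => ng_ne x (by rw [← ha, ← e])
  have h1 : polar (plusForm n F) (bv F a) w0 = 0 := by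
    rw [polar_bv, hax, hw0, Pi.smul_apply, Pi.sub_apply, Pi.sub_apply, Pi.smul_apply, Pi.smul_apply, bv_apply_self,
      bv_apply_ne hxa, smul_eq_mul, smul_eq_mul, smul_eq_mul, ← hc]
    ring
  set g := siegel (plusForm n F) (bv F a) w0 (Q_bv a) h1 with hg
  have hgK : g ∈ K := step1 hK a w0 h1
  have hgO : g ∈ O (plusForm n F) := siegel_mem_O _ _
  have hpa : polar (plusForm n F) (bv F a) u = c := by rw [polar_bv, hax]
  obtain ⟨μ, hμ⟩ : ∃ μ : F, g u = c • bv F x + μ • bv F a := by
    refine ⟨u a - polar (plusForm n F) w0 u - plusForm n F w0 * c, ?_⟩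
    rw [hg, siegel_apply, hpa, hw0]
    rw [smul_smul, mul_neg, mul_inv_cancel₀ hc0]
    module
  have h2 : plusForm n F (g u) = 0 := by rw [mem_O.1 hgO]; exact hu
  have hμ0 : μ = 0 := by
    rw [hμ, Q_add, Q_smul_bv, Q_smul_bv, polar_smul_left, polar_smul_right, polar_bv, add_zero, zero_add] at h2
    have : ng x = a := rfl
    rw [this, bv_apply_self, smul_eq_mul, smul_eq_mul, mul_one] at h2
    exact (mul_eq_zero.1 h2).resolve_left hc0
  rw [hμ0, zero_smul, add_zero] at hμ
  have h3 : polar (plusForm n F) (g u) (g w) = 0 := by rw [polar_map hgO]; exact hw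
  have h4 := siegel_conj hgO hu hw h2 h3
  have h5 : polar (plusForm n F) (bv F x) (c • g w) = 0 := by
    rw [hμ, polar_smul_left] at h3
    rw [polar_smul_right]
    exact h3
  have h6 : siegel (plusForm n F) (g u) (g w) h2 h3 = siegel (plusForm n F) (bv F x) (c • g w) (Q_bv x) h5 :=
    siegel_smul hμ h2 h3 (Q_bv x) h5
  have h7 : siegel (plusForm n F) u w hu hw = g⁻¹ * siegel (plusForm n F) (g u) (g w) h2 h3 * g := by
    rw [← h4]; group
  rw [SetLike.mem_coe, h7, h6]
  exact K.mul_mem (K.mul_mem (K.inv_mem hgK) (step1 hK x _ h5)) hgK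

theorem glEquiv_ymat {a b : Fin n ⊕ Fin n} (h : idx a ≠ idx b) (t : F) {g : Matrix.GeneralLinearGroup (Fin n ⊕ Fin n) F}
    (hg : (g : Matrix (Fin n ⊕ Fin n) (Fin n ⊕ Fin n) F) = ymat a b t) :
    glEquiv (Fin n ⊕ Fin n) F g = ysg a b h t := by
  ext1 v
  rw [glEquiv_apply, hg, ysg, siegel_apply, polar_bv, polar_smul_left, polar_bv, Q_smul_bv, zero_mul, zero_smul,
    sub_zero]
  unfold ymat
  rw [Matrix.add_mulVec, Matrix.sub_mulVec, Matrix.one_mulVec, Matrix.single_mulVec, Matrix.single_mulVec]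
  funext x
  simp only [Pi.add_apply, Pi.sub_apply, Pi.smul_apply, smul_eq_mul, bv, Function.update_apply, Pi.zero_apply,
    Pi.single_apply]
  split_ifs <;> ring

end Cfsg.Agent.H110.D
end

-- part: H110/D/Main
section
/-!
# Type `D`: `Ω⁺` as a quotient of `SL_n * ℤ` by six or seven relators (helper110, for S2295)
-/

set_option autoImplicit false

namespace Cfsg.Agent.H110.D

open Equiv Matrix QuadraticMap
open Cfsg.Agent.LieClassical.OrthCore Cfsg.Agent.LieClassical.OrthForms Cfsg.Agent.LieClassical.OrthFinite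
open Cfsg.Agent.H111

section

variable (I F : Type*) [Fintype I] [DecidableEq I] [Field F]

/-- the free product of `SL` and an infinite cyclic group -/
abbrev Pf : Type _ := Monoid.Coprod (Matrix.SpecialLinearGroup I F) (FreeGroup (Fin 1))

variable {I} (o l c : I)

/-- the universal data -/
def pre0 : Pre I F (Pf I F) where
  φ := Monoid.Coprod.inl
  s := Monoid.Coprod.inr (FreeGroup.of 0)
  o := o
  l := l
  c := c

/-- the map to matrices -/
def f0 : Pf I F →* GL (I ⊕ I) F := Monoid.Coprod.lift (phm I F) (FreeGroup.lift fun _ => sm F o l)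

theorem pre0_map : (pre0 F o l c).map (f0 F o l) = pmod F o l c := by
  unfold Pre.map pmod pre0 f0
  congr 1
  simp

theorem gen_pre0 : Subgroup.closure (Set.range (pre0 F o l c).φ ∪ {(pre0 F o l c).s}) = ⊤ := by
  rw [eq_top_iff]
  intro x _
  induction x using Monoid.Coprod.induction_on with
  | inl g => exact Subgroup.subset_closure (Or.inl ⟨g, rfl⟩)
  | inr g =>
    have h1 : (Monoid.Coprod.inr : FreeGroup (Fin 1) →* Pf I F).range ≤
        Subgroup.closure (Set.range (pre0 F o l c).φ ∪ {(pre0 F o l c).s}) := by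
      rw [MonoidHom.range_eq_map, ← FreeGroup.closure_range_of, MonoidHom.map_closure, Subgroup.closure_le]
      rintro _ ⟨_, ⟨i, rfl⟩, rfl⟩
      obtain rfl : i = 0 := Subsingleton.elim _ _
      exact Subgroup.subset_closure (Or.inr rfl)
    exact h1 ⟨g, rfl⟩
  | mul x y hx hy => exact Subgroup.mul_mem _ (hx trivial) (hy trivial)

end

variable {m : ℕ} {L F : Type*} [Fintype L] [DecidableEq L] [Field F]

theorem quo_range {o l c d : Fin (m + 2)} (hol : o ≠ l) (hoc : o ≠ c) (hlc : l ≠ c) (d1 : d ≠ o) (d2 : d ≠ l) (d3 : d ≠ c)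
    (e : Fin 2 ⊕ L ≃ Fin (m + 2)) (h0 : e (.inl 0) = o) (h1 : e (.inl 1) = l) (hm : 2 ≤ m)
    (hsq : (2 : F) = 0 → ∀ x : F, ∃ y, y * y = x)
    {b1 b2 : Matrix.SpecialLinearGroup (Fin 2) F} (hb : Subgroup.closure {b1, b2} = ⊤)
    {g1 g2 : Matrix.SpecialLinearGroup L F} (hg : Subgroup.closure {g1, g2} = ⊤) :
    Quo (Pf (Fin (m + 2)) F) ↥(f0 F o l).range (rels (pre0 F o l c) e b1 b2 g1 g2 d).length := by
  have hI : 4 ≤ Fintype.card (Fin (m + 2)) := by rw [Fintype.card_fin]; omega
  refine Quo.of_inj (f0 F o l).rangeRestrict (f0 F o l).rangeRestrict_surjective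
    (rels (pre0 F o l c) e b1 b2 g1 g2 d) ?_ ?_
  · intro r hr
    apply Subtype.ext
    change f0 F o l r = 1
    have h2 : f0 F o l r ∈ rels ((pre0 F o l c).map (f0 F o l)) e b1 b2 g1 g2 d := by
      rw [map_rels]
      exact List.mem_map_of_mem hr
    rw [pre0_map] at h2
    exact rels_eq_one (pmod_s2 hol hoc hlc hI hsq) e h0 h1 b1 b2 g1 g2 d d1 d2 d3 _ h2
  · intro φ θ hφ hθ hr
    have hS : ((pre0 F o l c).map φ).S2 := by
      refine s2_of_rels e h0 h1 hoc hlc hI hsq hb hg d1 d2 d3 ?_
      intro r hr'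
      rw [map_rels] at hr'
      obtain ⟨x, hx, rfl⟩ := List.mem_map.1 hr'
      exact hr x hx
    have hgen : Subgroup.closure (Set.range ((pre0 F o l c).map φ).φ ∪ {((pre0 F o l c).map φ).s}) = ⊤ := by
      have h3 := congrArg (Subgroup.map φ) (gen_pre0 F o l c)
      rw [MonoidHom.map_closure, Set.image_union, Set.image_singleton, ← Set.range_comp,
        ← MonoidHom.range_eq_map, MonoidHom.range_eq_top.2 hφ] at h3
      exact h3
    have h4 : ((pre0 F o l c).map φ).map ((f0 F o l).range.subtype.comp θ) = pmod F o l c := by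
      rw [← pre0_map]
      have h5 : ∀ p, ((f0 F o l).range.subtype.comp θ) (φ p) = f0 F o l p := by
        intro p
        rw [MonoidHom.comp_apply, hθ]
        rfl
      unfold Pre.map
      congr 1
      · ext1 g
        exact h5 _
      · exact h5 _
    have h6 := hS.injective hgen ((f0 F o l).range.subtype.comp θ) h4
    rw [MonoidHom.coe_comp] at h6
    exact Function.Injective.of_comp h6

/-- the image of the universal group is `Ω⁺` -/
theorem map_range {o l c : Fin (m + 2)} (hol : o ≠ l) (hoc : o ≠ c) (hlc : l ≠ c) (hm : 2 ≤ m) :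
    (f0 F o l).range.map (glEquiv (Fin (m + 2) ⊕ Fin (m + 2)) F).toMonoidHom = E (plusForm (m + 2) F) := by
  have hI : 4 ≤ Fintype.card (Fin (m + 2)) := by rw [Fintype.card_fin]; omega
  have A := pmod_s1 (F := F) hol hoc hlc hI
  have hY : ∀ a b : Sg m, ∀ (h : idx a ≠ idx b) (t : F),
      glEquiv (Fin (m + 2) ⊕ Fin (m + 2)) F ((pmod F o l c).Y a b t) = ysg a b h t := fun a b h t =>
    glEquiv_ymat h t (pmod_Y A h t)
  apply le_antisymm
  · rw [Subgroup.map_le_iff_le_comap, MonoidHom.range_eq_map, ← gen_pre0 F o l c, MonoidHom.map_closure,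
      Subgroup.closure_le]
    have hYE : ∀ a b : Sg m, idx a ≠ idx b → ∀ t : F,
        (pmod F o l c).Y a b t ∈ (E (plusForm (m + 2) F)).comap (glEquiv (Fin (m + 2) ⊕ Fin (m + 2)) F).toMonoidHom := by
      intro a b h t
      change glEquiv (Fin (m + 2) ⊕ Fin (m + 2)) F ((pmod F o l c).Y a b t) ∈ E (plusForm (m + 2) F)
      rw [hY a b h t]
      exact siegel_mem_E _ _
    rintro _ ⟨x, (⟨g, rfl⟩ | hx), rfl⟩
    · have e1 : f0 F o l ((pre0 F o l c).φ g) = phm _ F g := by
        change Monoid.Coprod.lift _ _ (Monoid.Coprod.inl g) = _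
        rw [Monoid.Coprod.lift_apply_inl]
      rw [e1]
      have h1 : g ∈ Subgroup.closure (Cfsg.Agent.LieClassical.SLGen.transvections (Fin (m + 2)) F) := by
        rw [Cfsg.Agent.LieClassical.SLGen.closure_transvections]; trivial
      have h2 : Subgroup.closure (Cfsg.Agent.LieClassical.SLGen.transvections (Fin (m + 2)) F) ≤
          ((E (plusForm (m + 2) F)).comap (glEquiv (Fin (m + 2) ⊕ Fin (m + 2)) F).toMonoidHom).comap
            (phm (Fin (m + 2)) F) := by
        rw [Subgroup.closure_le]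
        rintro _ ⟨i, j, h, c', rfl⟩
        have := hYE (.inr j) (.inl i) (by simpa using h.symm) c'
        rw [Pre.Y_rl, X_of h] at this
        exact this
      exact h2 h1
    · rw [Set.mem_singleton_iff] at hx
      rw [hx]
      have e1 : f0 F o l ((pre0 F o l c).s) = (pmod F o l c).s := by
        rw [← pre0_map]; rfl
      rw [e1]
      have h1 : (pmod F o l c).σ o l = (pmod F o l c).s := Sys1.ss_ol A
      rw [SetLike.mem_coe, ← h1, A.σ_eq hol]
      have hW : ∀ a b : Sg m, idx a ≠ idx b → (pmod F o l c).WW a b 1 ∈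
          (E (plusForm (m + 2) F)).comap (glEquiv (Fin (m + 2) ⊕ Fin (m + 2)) F).toMonoidHom := fun a b hab =>
        Subgroup.mul_mem _ (Subgroup.mul_mem _ (hYE a b hab _) (hYE _ _ (by simpa using hab) _)) (hYE a b hab _)
      exact Subgroup.mul_mem _ (hW _ _ hol.symm) (Subgroup.inv_mem _ (hW _ _ hol.symm))
  · apply step2
    intro a b h t
    rw [← hY a b h t]
    refine ⟨_, ?_, rfl⟩
    rw [← pre0_map, Pre.map_Y]
    exact ⟨_, rfl⟩

/-- `Ω⁺` as a quotient of `SL_n * ℤ` -/
theorem quo_omega [Finite F] (hm : 2 ≤ m) :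
    Quo (Pf (Fin (m + 2)) F) ↥(Cfsg.Omega F (Cfsg.quadFormPlus (m + 2) F)) (if m = 2 then 7 else 6) := by
  have := Fintype.ofFinite F
  obtain ⟨b1, b2, hb⟩ := slGen (K := F) 2 le_rfl
  obtain ⟨g1, g2, hg⟩ := slGen (K := F) m hm
  have hsq : (2 : F) = 0 → ∀ x : F, ∃ y, y * y = x := by
    intro h2 x
    have hc : ringChar F = 2 := by
      have h3 : (ringChar F) ∣ 2 := (ringChar.spec F 2).1 (by exact_mod_cast h2)
      have h4 : ringChar F ≠ 1 := CharP.ringChar_ne_one
      rcases (Nat.dvd_prime Nat.prime_two).1 h3 with h | h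
      · exact absurd h h4
      · exact h
    exact ⟨_, FiniteField.isSquare_of_char_two hc x |>.choose_spec.symm⟩
  set e : Fin 2 ⊕ Fin m ≃ Fin (m + 2) := finSumFinEquiv.trans (finCongr (add_comm 2 m)) with he
  have hne : ∀ {x y : Fin 2 ⊕ Fin m}, x ≠ y → e x ≠ e y := fun h => e.injective.ne h
  have q := quo_range (F := F) (o := e (.inl 0)) (l := e (.inl 1)) (c := e (.inr ⟨0, by omega⟩))
    (d := e (.inr ⟨1, by omega⟩)) (hne (by simp)) (hne (by simp)) (hne (by simp)) (hne (by simp)) (hne (by simp))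
    (hne (by simp)) e rfl rfl hm hsq hb hg
  have hgood : Cfsg.Agent.LieClassical.OrthTrans.Good (plusForm (m + 2) F) :=
    good_of_finite (nondeg_plusForm _ _) (by
      rw [Module.finrank_fintype_fun_eq_card, Fintype.card_sum, Fintype.card_fin]; omega)
  have e1 : ↥(f0 F (e (.inl 0)) (e (.inl 1))).range ≃* ↥(E (plusForm (m + 2) F)) :=
    ((glEquiv (Fin (m + 2) ⊕ Fin (m + 2)) F).subgroupMap _).trans
      (MulEquiv.subgroupCongr (map_range (c := e (.inr ⟨0, by omega⟩)) (hne (by simp)) (hne (by simp))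
        (hne (by simp)) hm))
  have e2 : ↥(Cfsg.Omega F ⇑(plusForm (m + 2) F)) ≃* ↥(E (plusForm (m + 2) F)) :=
    (omegaEquiv _).trans (MulEquiv.subgroupCongr hgood.commutator_eq_E)
  have e3 : ↥(f0 F (e (.inl 0)) (e (.inl 1))).range ≃* ↥(Cfsg.Omega F (Cfsg.quadFormPlus (m + 2) F)) := by
    have := e1.trans e2.symm
    rwa [coe_plusForm] at this
  have q2 := q.trans (Quo.of_mulEquiv e3)
  refine q2.mono ?_
  rw [add_zero]
  split_ifs with h
  · exact length_rels _ _ _ _ _ _ _
  · refine length_rels' _ _ _ _ _ _ _ ?_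
    rw [Fintype.card_fin]; omega

end Cfsg.Agent.H110.D
end

-- part: H110/D/Pres
section
/-!
# Type `D`: presentations of `Ω⁺` and `PΩ⁺` (helper110, for S2295)
-/

set_option autoImplicit false

namespace Cfsg.Agent.H110.D

open QuadraticMap
open Cfsg.Agent.LieClassical.OrthForms Cfsg.Agent.LieClassical.OmegaCenter
open Cfsg.Agent.H111

variable {F : Type*} [Field F] [Fintype F]

theorem hasPres_pf {n k r : ℕ} (h : HasPres (Matrix.SpecialLinearGroup (Fin n) F) k r) :
    HasPres (Pf (Fin n) F) (k + 1) r := h.coprod (HasPres.free 1)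

/-- `Ω⁺_{2n}`, `n ≥ 6` : 6 generators, 29 relators -/
theorem omega_six {n : ℕ} (hn : 6 ≤ n) : HasPres ↥(Cfsg.Omega F (Cfsg.quadFormPlus n F)) 6 29 := by
  obtain ⟨m, rfl⟩ : ∃ m, n = m + 2 := ⟨n - 2, by omega⟩
  have h1 := hasPres_pf (Cfsg.Agent.H109.SLn.sln_six (F := F) hn)
  have h2 := quo_omega (F := F) (m := m) (by omega)
  rw [if_neg (by omega)] at h2
  exact h1.quo h2

/-- `Ω⁺_{10}` : 5 generators, 25 relators -/
theorem omega_five : HasPres ↥(Cfsg.Omega F (Cfsg.quadFormPlus 5 F)) 5 25 := by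
  have h1 := hasPres_pf (Cfsg.Agent.H109.SLn.sln_five (F := F))
  have h2 := quo_omega (F := F) (m := 3) (by omega)
  rw [if_neg (by omega)] at h2
  exact h1.quo h2

/-- `Ω⁺_8` : 5 generators, 26 relators -/
theorem omega_four : HasPres ↥(Cfsg.Omega F (Cfsg.quadFormPlus 4 F)) 5 26 := by
  have h1 := hasPres_pf (Cfsg.Agent.H109.SLn.sln_four (F := F))
  have h2 := quo_omega (F := F) (m := 2) (by omega)
  rw [if_pos rfl] at h2
  exact h1.quo h2


omit [Fintype F] in
/-- the centre of `Ω⁺` is cyclic -/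
theorem cyc_center {n : ℕ} (hn : 2 ≤ n) : IsCyclic (Subgroup.center ↥(Cfsg.Omega F (Cfsg.quadFormPlus n F))) := by
  have hQ : (polarBilin (plusForm n F)).Nondegenerate := by
    have h := nondeg_plusForm n F
    refine ⟨fun x hx => h x hx, fun x hx => h x fun y => ?_⟩
    have := hx y
    rwa [polarBilin_apply_apply, polar_comm] at this
  rw [← coe_plusForm]
  have hs : ∃ u : Fin n ⊕ Fin n → F, u ≠ 0 ∧ plusForm n F u = 0 := by
    refine ⟨bv F (.inl ⟨0, by omega⟩), ?_, Q_bv _⟩
    intro h
    have := congrFun h (.inl ⟨0, by omega⟩)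
    rw [bv_apply_self] at this
    exact one_ne_zero this
  have hcard : 3 ≤ Fintype.card (Fin n ⊕ Fin n) := by
    rw [Fintype.card_sum, Fintype.card_fin]; omega
  have key := mem_center_omega_iff (plusForm n F) hQ hcard hs
  by_cases h : ∃ g : Subgroup.center ↥(Cfsg.Omega F ⇑(plusForm n F)), omegaMat g.1 = -1
  · obtain ⟨g, hg⟩ := h
    refine ⟨g, fun x => ?_⟩
    rcases (key x.1).1 x.2 with h1 | h1
    · have : x = 1 := Subtype.ext (omega_ext h1)
      exact ⟨0, by rw [this]; exact zpow_zero _⟩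
    · have : x = g := Subtype.ext (omega_ext (h1.trans hg.symm))
      exact ⟨1, by rw [this]; exact zpow_one _⟩
  · refine ⟨1, fun x => ?_⟩
    rcases (key x.1).1 x.2 with h1 | h1
    · have : x = 1 := Subtype.ext (omega_ext h1)
      exact ⟨0, by rw [this]; exact zpow_zero _⟩
    · exact absurd ⟨x, h1⟩ h

end Cfsg.Agent.H110.D
end

-- part: S2295
section
set_option autoImplicit false
open Cfsg

namespace Cfsg.Agent.S2295

open Cfsg.Agent.H111 Cfsg.Agent.H110.D in
theorem main {F : Type*} [Field F] [Fintype F] (n : ℕ) (hn : 4 ≤ n) :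
    HasPres ↥(Cfsg.Omega F (Cfsg.quadFormPlus n F)) 8 31 ∧
      (n ≤ 5 → HasPres ↥(Cfsg.Omega F (Cfsg.quadFormPlus n F)) 8 29) := by
  rcases Nat.lt_or_ge 5 n with h | h
  · exact ⟨(omega_six (F := F) h).add_le (j := 2) rfl le_rfl, fun h' => absurd h' (by omega)⟩
  · have h1 : HasPres ↥(Cfsg.Omega F (Cfsg.quadFormPlus n F)) 8 29 := by
      obtain rfl | rfl : n = 4 ∨ n = 5 := by omega
      · exact (omega_four (F := F)).add_le (j := 3) rfl le_rfl
      · exact (omega_five (F := F)).add_le (j := 3) rfl (by norm_num)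
    exact ⟨h1.mono (by norm_num), fun _ => h1⟩

/-- Let F be a finite field and n ≥ 4, and let Ω⁺_2n(F) be the commutator subgroup of the orthogonal group of the hyperbolic quadratic form Σ x_i y_i, with PΩ⁺_2n(F) its central quotient. Then Ω⁺_2n(F) has a presentation with 8 generators and at most 31 relations (at most 29 if n = 4 or 5), and PΩ⁺_2n(F) one with 8 generators and at most 32 relations (at most 30 if n = 4 or 5). -/
theorem result {F : Type*} [Field F] [Fintype F] (n : ℕ) (hn : 4 ≤ n) :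
    (∃ rels : Finset (FreeGroup (Fin 8)), rels.card ≤ 31 ∧ Nonempty (PresentedGroup (↑rels : Set (FreeGroup (Fin 8))) ≃* ↥(Cfsg.Omega F (Cfsg.quadFormPlus n F)))) ∧ (∃ rels : Finset (FreeGroup (Fin 8)), rels.card ≤ 32 ∧ Nonempty (PresentedGroup (↑rels : Set (FreeGroup (Fin 8))) ≃* Cfsg.POmega F (Cfsg.quadFormPlus n F))) ∧
    (n ≤ 5 → (∃ rels : Finset (FreeGroup (Fin 8)), rels.card ≤ 29 ∧ Nonempty (PresentedGroup (↑rels : Set (FreeGroup (Fin 8))) ≃* ↥(Cfsg.Omega F (Cfsg.quadFormPlus n F)))) ∧ (∃ rels : Finset (FreeGroup (Fin 8)), rels.card ≤ 30 ∧ Nonempty (PresentedGroup (↑rels : Set (FreeGroup (Fin 8))) ≃* Cfsg.POmega F (Cfsg.quadFormPlus n F)))) := by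
  obtain ⟨h1, h2⟩ := main (F := F) n hn
  have hc := Cfsg.Agent.H110.D.cyc_center (F := F) (n := n) (by omega)
  exact ⟨h1, h1.centerQuo hc, fun h => ⟨h2 h, (h2 h).centerQuo hc⟩⟩

end Cfsg.Agent.S2295
end
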