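import Cfsg.Agent.H119.SLVec
import Cfsg.Statements.S2336
set_option linter.all false

-- part: H119/SLComm
section
/-!
# The centraliser ring of `SL_n(F)` on the nonzero vectors of `F^n` is commutative (`n ≥ 3`)
-/

set_option autoImplicit false

namespace Cfsg.Agent.H119.SLVec

open Matrix Module Representation Cfsg.Agent.PermutationGroups.PermChar

variable {F : Type*} [Field F] {n : ℕ}

/-- nonzero vectors -/
def Vec (n : ℕ) (F : Type*) [Field F] : Type _ := {v : Fin n → F // v ≠ 0}

theorem act_ne_zero (g : SpecialLinearGroup (Fin n) F) {v : Fin n → F} (hv : v ≠ 0) :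
    g.1 *ᵥ v ≠ 0 := by
  intro h
  apply hv
  rw [← one_mulVec' v, ← inv_mul_cancel g, mul_mulVec, h, Matrix.mulVec_zero]

/-- `SL_n(F)` acts on the nonzero vectors -/
instance instVec : MulAction (SpecialLinearGroup (Fin n) F) (Vec n F) where
  smul g v := ⟨g.1 *ᵥ v.1, act_ne_zero g v.2⟩
  one_smul v := Subtype.ext (one_mulVec' v.1)
  mul_smul g g' v := Subtype.ext (mul_mulVec g g' v.1)

theorem smul_val (g : SpecialLinearGroup (Fin n) F) (v : Vec n F) : (g • v).1 = g.1 *ᵥ v.1 := rfl

noncomputable instance instFintypeVec [Finite F] : Fintype (Vec n F) := by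
  classical
  have := Fintype.ofFinite F
  exact inferInstanceAs (Fintype {v : Fin n → F // v ≠ 0})

/-- scalar multiple of a nonzero vector -/
def sc (c : Fˣ) (v : Vec n F) : Vec n F := ⟨(c : F) • v.1, smul_ne_zero c.ne_zero v.2⟩

theorem sc_smul (c : Fˣ) (g : SpecialLinearGroup (Fin n) F) (v : Vec n F) :
    sc c (g • v) = g • sc c v := by
  apply Subtype.ext
  change (c : F) • (g.1 *ᵥ v.1) = g.1 *ᵥ ((c : F) • v.1)
  rw [Matrix.mulVec_smul]

theorem sc_sc (c d : Fˣ) (v : Vec n F) : sc c (sc d v) = sc (c * d) v := by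
  apply Subtype.ext
  change (c : F) • ((d : F) • v.1) = ((c * d : Fˣ) : F) • v.1
  rw [smul_smul, Units.val_mul]

theorem sc_inj {c d : Fˣ} {v : Vec n F} (h : sc c v = sc d v) : c = d := by
  have h1 : (c : F) • v.1 = (d : F) • v.1 := congrArg Subtype.val h
  exact Units.ext (smul_left_injective F v.2 h1)

theorem sc_inj' {c : Fˣ} {v w : Vec n F} (h : sc c v = sc c w) : v = w := by
  have h1 : (c : F) • v.1 = (c : F) • w.1 := congrArg Subtype.val h
  exact Subtype.ext ((smul_right_injective (Fin n → F) c.ne_zero) h1)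

/-- either proportional or independent -/
theorem prop_or_indep (a b : Vec n F) : (∃ c : Fˣ, b = sc c a) ∨ LinearIndependent F ![a.1, b.1] := by
  by_cases h : LinearIndependent F ![a.1, b.1]
  · exact Or.inr h
  · left
    rw [LinearIndependent.pair_iff' a.2] at h
    push Not at h
    obtain ⟨c, hc⟩ := h
    have hc0 : c ≠ 0 := by
      rintro rfl
      rw [zero_smul] at hc
      exact b.2 hc.symm
    exact ⟨Units.mk0 c hc0, Subtype.ext hc.symm⟩

theorem not_indep (a : Vec n F) (c : Fˣ) : ¬ LinearIndependent F ![a.1, (sc c a).1] := by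
  intro h
  exact (LinearIndependent.pair_iff' a.2).1 h c rfl

theorem pretrans (hn : 2 ≤ n) : MulAction.IsPretransitive (SpecialLinearGroup (Fin n) F) (Vec n F) := by
  refine ⟨fun x y => ?_⟩
  obtain ⟨g, hg⟩ := exists_map_one hn x.2 y.2
  exact ⟨g, Subtype.ext hg⟩

variable [Fintype F] [DecidableEq F]

/-- **form of the intertwiners** -/
theorem exists_form (hn : 3 ≤ n)
    (T : (Cfsg.permRep ℂ (SpecialLinearGroup (Fin n) F) (Vec n F)).IntertwiningMap
      (Cfsg.permRep ℂ (SpecialLinearGroup (Fin n) F) (Vec n F))) :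
    ∃ (k : Fˣ → ℂ) (r : ℂ), ∀ (f : Vec n F → ℂ) (x : Vec n F),
      T f x = ∑ c : Fˣ, k c * f (sc c x) + r * ∑ y, f y := by
  classical
  have h3 : 0 < n := by omega
  -- two independent vectors
  obtain ⟨a0, ha0⟩ : ∃ a : Fin n → F, a ≠ 0 := ⟨Pi.single ⟨0, h3⟩ 1, by simp⟩
  obtain ⟨b0, hb0⟩ := exists_notMem_span ![a0] (by omega : 1 < n)
  have hab : LinearIndependent F ![a0, b0] := by
    refine (LinearIndependent.pair_iff' ha0).2 fun c hc => hb0 ?_
    rw [← hc]
    exact Submodule.smul_mem _ _ (Submodule.subset_span ⟨0, rfl⟩)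
  have hb0' : b0 ≠ 0 := by simpa using hab.ne_zero 1
  set a : Vec n F := ⟨a0, ha0⟩
  set b : Vec n F := ⟨b0, hb0'⟩
  set r : ℂ := T (Pi.single b 1) a with hr
  have hK : ∀ x y : Vec n F, T (Pi.single y 1) x =
      (∑ c : Fˣ, if sc c x = y then T (Pi.single (sc c a) 1) a - r else 0) + r := by
    intro x y
    rcases prop_or_indep x y with ⟨c, hc⟩ | hi
    · rw [Finset.sum_eq_single c]
      · rw [if_pos hc.symm]
        obtain ⟨g, hg⟩ := exists_map_one (by omega : 2 ≤ n) a.2 x.2
        have hg' : g • a = x := Subtype.ext hg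
        have h1 := intertwining_entry T g a (sc c a)
        rw [← sc_smul, hg', ← hc] at h1
        rw [h1, sub_add_cancel]
      · intro d _ hd
        rw [if_neg]
        intro h
        apply hd
        rw [hc] at h
        exact sc_inj h
      · intro h
        exact absurd (Finset.mem_univ _) h
    · rw [Finset.sum_eq_zero]
      · obtain ⟨g, hg1, hg2⟩ := exists_map_pair hn hab hi
        have hg1' : g • a = x := Subtype.ext hg1
        have hg2' : g • b = y := Subtype.ext hg2
        have h1 := intertwining_entry T g a b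
        rw [hg1', hg2'] at h1
        rw [h1, hr, zero_add]
      · intro c _
        rw [if_neg]
        intro h
        rw [← h] at hi
        exact not_indep x c hi
  refine ⟨fun c => T (Pi.single (sc c a) 1) a - r, r, fun f x => ?_⟩
  have h1 := linearMap_apply_eq_sum T.toLinearMap f
  have h2 : T f x = ∑ y, f y * T (Pi.single y 1) x := by
    have h4 := congrFun h1 x
    rw [Finset.sum_apply] at h4
    exact h4
  rw [h2]
  have h5 : ∀ y, f y * T (Pi.single y 1) x =
      (∑ c : Fˣ, if sc c x = y then (T (Pi.single (sc c a) 1) a - r) * f y else 0) + r * f y := by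
    intro y
    rw [hK x y, mul_add, Finset.mul_sum, mul_comm (f y) r]
    congr 1
    refine Finset.sum_congr rfl fun c _ => ?_
    split_ifs
    · ring
    · ring
  rw [Finset.sum_congr rfl (fun y _ => h5 y), Finset.sum_add_distrib, Finset.sum_comm, ← Finset.mul_sum]
  congr 1
  refine Finset.sum_congr rfl fun c _ => ?_
  rw [Finset.sum_ite_eq, if_pos (Finset.mem_univ _)]

/-- **the centraliser ring is commutative** -/
theorem comm (hn : 3 ≤ n)
    (S T : (Cfsg.permRep ℂ (SpecialLinearGroup (Fin n) F) (Vec n F)).IntertwiningMap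
      (Cfsg.permRep ℂ (SpecialLinearGroup (Fin n) F) (Vec n F))) (f : Vec n F → ℂ) :
    S (T f) = T (S f) := by
  classical
  obtain ⟨s, s0, hS⟩ := exists_form hn S
  obtain ⟨t, t0, hT⟩ := exists_form hn T
  have hsum : ∀ (c : Fˣ) (f : Vec n F → ℂ), ∑ y, f (sc c y) = ∑ y, f y := by
    intro c f
    refine Fintype.sum_bijective (sc c) ?_ _ _ (fun _ => rfl)
    rw [Fintype.bijective_iff_injective_and_card]
    exact ⟨fun v w h => sc_inj' h, rfl⟩
  have main : ∀ (s t : Fˣ → ℂ) (s0 t0 : ℂ) (f : Vec n F → ℂ) (x : Vec n F),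
      (∑ c : Fˣ, s c * (∑ d : Fˣ, t d * f (sc d (sc c x)) + t0 * ∑ y, f y) +
        s0 * ∑ y, (∑ d : Fˣ, t d * f (sc d y) + t0 * ∑ y, f y)) =
      (∑ c : Fˣ, ∑ d : Fˣ, s c * t d * f (sc (c * d) x)) +
        ((∑ c : Fˣ, s c) * t0 + s0 * (∑ d : Fˣ, t d) + s0 * t0 * (Fintype.card (Vec n F))) * ∑ y, f y := by
    intro s t s0 t0 f x
    have e1 : ∀ c : Fˣ, s c * (∑ d : Fˣ, t d * f (sc d (sc c x)) + t0 * ∑ y, f y) =
        (∑ d : Fˣ, s c * t d * f (sc (c * d) x)) + s c * (t0 * ∑ y, f y) := by
      intro c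
      rw [mul_add, Finset.mul_sum]
      congr 1
      refine Finset.sum_congr rfl fun d _ => ?_
      rw [sc_sc, mul_comm d c]
      ring
    rw [Finset.sum_congr rfl (fun c _ => e1 c), Finset.sum_add_distrib, ← Finset.sum_mul,
      Finset.sum_add_distrib]
    have e2 : ∀ d : Fˣ, ∑ y, t d * f (sc d y) = t d * ∑ y, f y := by
      intro d
      rw [← Finset.mul_sum, hsum]
    have e3 : ∑ y, ∑ d : Fˣ, t d * f (sc d y) = (∑ d : Fˣ, t d) * ∑ y, f y := by
      rw [Finset.sum_comm, Finset.sum_congr rfl (fun d _ => e2 d), ← Finset.sum_mul]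
    rw [e3, Finset.sum_const, Finset.card_univ, nsmul_eq_mul]
    ring
  funext x
  have e1 : S (T f) x = (∑ c : Fˣ, ∑ d : Fˣ, s c * t d * f (sc (c * d) x)) +
        ((∑ c : Fˣ, s c) * t0 + s0 * (∑ d : Fˣ, t d) + s0 * t0 * (Fintype.card (Vec n F))) *
          ∑ y, f y := by
    rw [hS]
    simp only [hT]
    exact main s t s0 t0 f x
  have e2 : T (S f) x = (∑ c : Fˣ, ∑ d : Fˣ, t c * s d * f (sc (c * d) x)) +
        ((∑ c : Fˣ, t c) * s0 + t0 * (∑ d : Fˣ, s d) + t0 * s0 * (Fintype.card (Vec n F))) *
          ∑ y, f y := by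
    rw [hT]
    simp only [hS]
    exact main t s t0 s0 f x
  rw [e1, e2]
  congr 1
  · rw [Finset.sum_comm]
    refine Finset.sum_congr rfl fun d _ => Finset.sum_congr rfl fun c _ => ?_
    rw [mul_comm c d]
    ring
  · ring

end Cfsg.Agent.H119.SLVec
end

-- part: S2336
section
set_option autoImplicit false
open Cfsg

namespace Cfsg.Agent.S2336

open Matrix Module Representation Cfsg.Agent.PermutationGroups.PermChar
  Cfsg.Agent.PermutationGroups.MultFree Cfsg.Agent.PermutationGroups.IrrSum Cfsg.Agent.H119.SLVec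

/-- the rank of `SL_n(F)` on nonzero vectors -/
theorem card_orbits {F : Type*} [Field F] [Fintype F] {n : ℕ} (hn : 3 ≤ n) (a : Vec n F) :
    Nat.card (MulAction.orbitRel.Quotient
      (MulAction.stabilizer (Matrix.SpecialLinearGroup (Fin n) F) a) (Vec n F)) = Fintype.card F := by
  classical
  let G := Matrix.SpecialLinearGroup (Fin n) F
  -- the invariant
  let κ : Vec n F → Option Fˣ := fun x => if h : ∃ c : Fˣ, x = sc c a then some h.choose else none
  have hκ1 : ∀ c : Fˣ, κ (sc c a) = some c := by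
    intro c
    have h : ∃ d : Fˣ, sc c a = sc d a := ⟨c, rfl⟩
    change (if h : ∃ d : Fˣ, sc c a = sc d a then some h.choose else none) = _
    rw [dif_pos h]
    exact congrArg some (sc_inj h.choose_spec).symm
  have hκ2 : ∀ x : Vec n F, LinearIndependent F ![a.1, x.1] → κ x = none := by
    intro x hx
    change (if h : ∃ d : Fˣ, x = sc d a then some h.choose else none) = _
    rw [dif_neg]
    rintro ⟨c, rfl⟩
    exact not_indep a c hx
  have hsmul : ∀ (g : MulAction.stabilizer G a) (x : Vec n F), (g • x : Vec n F) = (g : G) • x :=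
    fun _ _ => rfl
  have hga : ∀ g : MulAction.stabilizer G a, (g : G) • a = a := fun g => g.2
  have hrel : ∀ x y : Vec n F, MulAction.orbitRel (MulAction.stabilizer G a) (Vec n F) x y ↔
      κ x = κ y := by
    intro x y
    rw [MulAction.orbitRel_apply]
    constructor
    · rintro ⟨g, hg⟩
      simp only at hg
      rw [hsmul] at hg
      rcases prop_or_indep a y with ⟨c, rfl⟩ | hi
      · rw [← sc_smul, hga] at hg
        rw [← hg]
      · rcases prop_or_indep a x with ⟨c, rfl⟩ | hi'
        · exfalso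
          have h1 : y = sc c a := by
            have h2 : (g : G)⁻¹ • ((g : G) • y) = (g : G)⁻¹ • sc c a := by rw [hg]
            rw [inv_smul_smul, ← sc_smul] at h2
            have h3 : (g : G)⁻¹ • a = a := by
              rw [inv_smul_eq_iff, hga]
            rw [h3] at h2
            exact h2
          rw [h1] at hi
          exact not_indep a c hi
        · rw [hκ2 _ hi, hκ2 _ hi']
    · intro h
      rcases prop_or_indep a x with ⟨c, rfl⟩ | hi
      · rcases prop_or_indep a y with ⟨d, rfl⟩ | hi'
        · rw [hκ1, hκ1] at h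
          have : c = d := Option.some_injective _ h
          rw [this]
          exact MulAction.mem_orbit_self _
        · rw [hκ1, hκ2 _ hi'] at h
          exact absurd h (by simp)
      · rcases prop_or_indep a y with ⟨d, rfl⟩ | hi'
        · rw [hκ1, hκ2 _ hi] at h
          exact absurd h (by simp)
        · obtain ⟨g, hg1, hg2⟩ := exists_map_pair hn hi' hi
          refine ⟨⟨g, Subtype.ext hg1⟩, ?_⟩
          exact Subtype.ext hg2
  have hsurj : Function.Surjective κ := by
    intro o
    cases o with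
    | some c => exact ⟨sc c a, hκ1 c⟩
    | none =>
      obtain ⟨b0, hb0⟩ := exists_notMem_span ![a.1] (by omega : 1 < n)
      have hab : LinearIndependent F ![a.1, b0] := by
        refine (LinearIndependent.pair_iff' a.2).2 fun c hc => hb0 ?_
        rw [← hc]
        exact Submodule.smul_mem _ _ (Submodule.subset_span ⟨0, rfl⟩)
      have hb0' : b0 ≠ 0 := by simpa using hab.ne_zero 1
      exact ⟨⟨b0, hb0'⟩, hκ2 _ hab⟩
  have e : MulAction.orbitRel.Quotient (MulAction.stabilizer G a) (Vec n F) ≃ Option Fˣ := by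
    refine Equiv.ofBijective (Quotient.lift κ fun x y h => (hrel x y).1 h) ⟨?_, ?_⟩
    · intro x y
      induction x using Quotient.inductionOn
      induction y using Quotient.inductionOn
      intro h
      exact Quotient.sound ((hrel _ _).2 h)
    · intro o
      obtain ⟨x, hx⟩ := hsurj o
      exact ⟨Quotient.mk _ x, hx⟩
  rw [Nat.card_congr e, Nat.card_eq_fintype_card, Fintype.card_option, Fintype.card_units,
    Nat.sub_add_cancel Fintype.card_pos]

/-- Let F be a finite field with q elements and n ≥ 3. The permutation character of SL_n(F) on the non-zero vectors of F^n (the function sending a matrix to the number of non-zero vectors it fixes) is the sum of the principal character and q − 1 pairwise distinct irreducible complex characters. -/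
theorem result {F : Type*} [Field F] [Fintype F] [DecidableEq F] (n : ℕ) (hn : 3 ≤ n) :
    ∃ χ : Fin (Fintype.card F - 1) → (Matrix.SpecialLinearGroup (Fin n) F → ℂ),
      (∀ i, Cfsg.IsIrrCharacter (Matrix.SpecialLinearGroup (Fin n) F) (χ i)) ∧ Function.Injective χ ∧
      ∀ g : Matrix.SpecialLinearGroup (Fin n) F,
        (Nat.card {v : Fin n → F // v ≠ 0 ∧ (g : Matrix (Fin n) (Fin n) F).mulVec v = v} : ℂ) = 1 + ∑ i, χ i g := by
  classical
  let G := Matrix.SpecialLinearGroup (Fin n) F
  have : MulAction.IsPretransitive G (Vec n F) := pretrans (by omega)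
  let a : Vec n F := ⟨Pi.single ⟨0, by omega⟩ 1, by simp⟩
  obtain ⟨m, hm1, hm2, hm3, -⟩ := exists_decomp (G := G) (Ω := Vec n F) a
  obtain ⟨m', hm'⟩ := exists_sum_irr (isCharacter_of_rep (permRep ℂ G (Vec n F)))
  rw [← permChar_eq] at hm'
  have hmm : m' = m := by
    ext ψ
    have h1 := hm1 ψ
    rw [hm', Cfsg.Agent.PermutationGroups.Subdegree.classInner_finsupp_sum] at h1
    exact_mod_cast h1
  rw [hmm] at hm'
  rw [card_orbits hn a] at hm3
  have hle : ∀ ψ, m ψ = 0 ∨ m ψ = 1 := by
    intro ψ
    have h := (Cfsg.Agent.S0718.result (G := G) (Ω := Vec n F)).2 (by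
      intro S T hS hT
      obtain ⟨S', rfl⟩ := Cfsg.Agent.S0718.exists_intertwining S hS
      obtain ⟨T', rfl⟩ := Cfsg.Agent.S0718.exists_intertwining T hT
      exact LinearMap.ext fun f => comm hn S' T' f) ψ.1 ψ.2
    rw [hm1 ψ] at h
    exact_mod_cast h
  have hcard : m.support.card = Fintype.card F := by
    rw [← hm3, Finset.card_eq_sum_ones]
    refine Finset.sum_congr rfl fun ψ hψ => ?_
    rcases hle ψ with h | h
    · exact absurd h (Finsupp.mem_support_iff.1 hψ)
    · rw [h, one_pow]
  have hone : (⟨_, isIrr_one⟩ : IrrCharacter G) ∈ m.support := by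
    rw [Finsupp.mem_support_iff, hm2]
    exact one_ne_zero
  have hcard' : (m.support.erase ⟨_, isIrr_one⟩).card = Fintype.card F - 1 := by
    rw [Finset.card_erase_of_mem hone, hcard]
  let e := (m.support.erase (⟨_, isIrr_one⟩ : IrrCharacter G)).equivFinOfCardEq hcard'
  refine ⟨fun i => ((e.symm i).1 : IrrCharacter G).1, fun i => ((e.symm i).1 : IrrCharacter G).2,
    ?_, ?_⟩
  · intro i j h
    exact e.symm.injective (Subtype.ext (Subtype.ext h))
  · intro g
    have h1 : Nat.card {v : Fin n → F // v ≠ 0 ∧ (g : Matrix (Fin n) (Fin n) F).mulVec v = v} =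
        Nat.card (MulAction.fixedBy (Vec n F) g) := by
      refine Nat.card_congr ?_
      exact
        { toFun := fun v => ⟨⟨v.1, v.2.1⟩, Subtype.ext v.2.2⟩
          invFun := fun v => ⟨v.1.1, v.1.2, congrArg Subtype.val v.2⟩
          left_inv := fun _ => rfl
          right_inv := fun _ => rfl }
    rw [h1]
    have h2 := congrFun hm' g
    change (Nat.card (MulAction.fixedBy (Vec n F) g) : ℂ) = _ at h2
    rw [h2, Finsupp.sum, Finset.sum_apply, ← Finset.add_sum_erase _ _ hone]
    congr 1
    · rw [hm2, one_smul]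
    · rw [← Finset.sum_coe_sort, ← Equiv.sum_comp e.symm]
      refine Finset.sum_congr rfl fun i _ => ?_
      have h3 : m (e.symm i).1 = 1 := by
        rcases hle (e.symm i).1 with h | h
        · exact absurd h (Finsupp.mem_support_iff.1 (Finset.mem_of_mem_erase (e.symm i).2))
        · exact h
      rw [h3, one_smul]

end Cfsg.Agent.S2336
end
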