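import Cfsg.Statements.S2352
import Cfsg.Agent.H982.LawNC
set_option linter.all false

set_option autoImplicit false
open Cfsg

namespace Cfsg.Agent.S2352

/-- A non-trivial law holds in only finitely many alternating groups: for every non-trivial element w of the free group on countably many generators there is N such that for all n ≥ N some substitution of elements of the alternating group of degree n into w is not the identity. -/
theorem result (w : FreeGroup ℕ) (hw : w ≠ 1) :
    ∃ N : ℕ, ∀ n : ℕ, N ≤ n → ∃ f : ℕ → alternatingGroup (Fin n), FreeGroup.lift f w ≠ 1 := by
  obtain ⟨N, hN⟩ := Cfsg.Agent.H982.LawNC.nc_alternating hw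
  exact ⟨N, fun n hn => (hN n hn).exists_ne_one⟩

end Cfsg.Agent.S2352
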