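import Cfsg.Agent.H982.LawSL
import Cfsg.Prelude.Def_Sz
import Cfsg.Statements.S2354
set_option linter.all false

-- part: H982/LawSz
section
/-!
# Non-trivial words take non-trivial values in large Suzuki groups (helper982)
-/

set_option autoImplicit false

open Polynomial

namespace Cfsg.Agent.H982.LawSz

open Cfsg.Agent.H982.LawWord Cfsg.Agent.H982.LawSL

section mats

variable {A : Type*} [CommRing A]

/-- upper root element -/
def zu (R : ℕ) (b : A) : Matrix (Fin 4) (Fin 4) A := !![1, 0, b, b ^ R; 0, 1, 0, b; 0, 0, 1, 0; 0, 0, 0, 1]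

/-- lower root element -/
def zl (R : ℕ) (b : A) : Matrix (Fin 4) (Fin 4) A := !![1, 0, 0, 0; 0, 1, 0, 0; b, 0, 1, 0; b ^ R, b, 0, 1]

variable [CharP A 2] (k : ℕ)

theorem zu_add (a b : A) : zu (2 ^ k) (a + b) = zu (2 ^ k) a * zu (2 ^ k) b := by
  have h : (a + b) ^ (2 ^ k) = a ^ (2 ^ k) + b ^ (2 ^ k) := add_pow_char_pow a b 2 k
  ext i j
  fin_cases i <;> fin_cases j <;> simp [zu, Matrix.mul_apply, Fin.sum_univ_succ, h, add_comm]

theorem zl_add (a b : A) : zl (2 ^ k) (a + b) = zl (2 ^ k) a * zl (2 ^ k) b := by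
  have h : (a + b) ^ (2 ^ k) = a ^ (2 ^ k) + b ^ (2 ^ k) := add_pow_char_pow a b 2 k
  ext i j
  fin_cases i <;> fin_cases j <;> simp [zl, Matrix.mul_apply, Fin.sum_univ_succ, h]

omit [CharP A 2] in
theorem zu_zero : zu (2 ^ k) (0 : A) = 1 := by
  ext i j
  fin_cases i <;> fin_cases j <;> simp [zu]

omit [CharP A 2] in
theorem zl_zero : zl (2 ^ k) (0 : A) = 1 := by
  ext i j
  fin_cases i <;> fin_cases j <;> simp [zl]

theorem zu_sq (b : A) : zu (2 ^ k) b * zu (2 ^ k) b = 1 := by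
  rw [← zu_add, CharTwo.add_self_eq_zero, zu_zero]

theorem zl_sq (b : A) : zl (2 ^ k) b * zl (2 ^ k) b = 1 := by
  rw [← zl_add, CharTwo.add_self_eq_zero, zl_zero]

/-- upper root element in `GL₄` -/
def Zu (b : A) : GL (Fin 4) A := ⟨zu (2 ^ k) b, zu (2 ^ k) b, zu_sq k b, zu_sq k b⟩

/-- lower root element in `GL₄` -/
def Zl (b : A) : GL (Fin 4) A := ⟨zl (2 ^ k) b, zl (2 ^ k) b, zl_sq k b, zl_sq k b⟩

theorem Zu_add (a b : A) : Zu k (a + b) = Zu k a * Zu k b := Units.ext (zu_add k a b)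

theorem Zl_add (a b : A) : Zl k (a + b) = Zl k a * Zl k b := Units.ext (zl_add k a b)

theorem coe_Zu (b : A) : (Zu k b : Matrix (Fin 4) (Fin 4) A) = zu (2 ^ k) b := rfl

theorem coe_Zl (b : A) : (Zl k b : Matrix (Fin 4) (Fin 4) A) = zl (2 ^ k) b := rfl

omit [CharP A 2] in
theorem zu_mulVec (b : A) (v : Fin 4 → A) : Matrix.mulVec (zu (2 ^ k) b) v =
    ![v 0 + b * v 2 + b ^ (2 ^ k) * v 3, v 1 + b * v 3, v 2, v 3] := by
  ext i
  fin_cases i <;> simp [zu, Matrix.mulVec, dotProduct, Fin.sum_univ_succ]; all_goals ring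

omit [CharP A 2] in
theorem zl_mulVec (b : A) (v : Fin 4 → A) : Matrix.mulVec (zl (2 ^ k) b) v =
    ![v 0, v 1, b * v 0 + v 2, b ^ (2 ^ k) * v 0 + b * v 1 + v 3] := by
  ext i
  fin_cases i <;> simp [zl, Matrix.mulVec, dotProduct, Fin.sum_univ_succ]; all_goals ring

/-- the letters -/
def let4 (t : A) (i : ℕ) : GL (Fin 4) A := Zu k (t ^ (i + 2)) * Zl k t * Zu k (t - t ^ (i + 2))

theorem map_Zu {S : Type*} [CommRing S] [CharP S 2] (f : A →+* S) (b : A) :
    Matrix.GeneralLinearGroup.map f (Zu k b) = Zu k (f b) := by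
  ext i j
  fin_cases i <;> fin_cases j <;> simp [coe_Zu, zu]

theorem map_Zl {S : Type*} [CommRing S] [CharP S 2] (f : A →+* S) (b : A) :
    Matrix.GeneralLinearGroup.map f (Zl k b) = Zl k (f b) := by
  ext i j
  fin_cases i <;> fin_cases j <;> simp [coe_Zl, zl]

theorem map_let4 {S : Type*} [CommRing S] [CharP S 2] (f : A →+* S) (t : A) (i : ℕ) :
    Matrix.GeneralLinearGroup.map f (let4 k t i) = let4 k (f t) i := by
  simp only [let4, map_mul, map_Zu, map_Zl, map_pow, map_sub]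

end mats

section deg

variable {K : Type*} [Field K]

theorem deg_mul_lt {m p : K[X]} {M R : ℕ} (hm : 1 ≤ natDegree m) (hR : 2 ≤ R) (hp : p.degree ≤ (M : ℕ)) :
    (m * p).degree < ((M + R * natDegree m : ℕ) : WithBot ℕ) := by
  have hm0 : m ≠ 0 := by rintro rfl; simp at hm
  have h1 : (m * p).degree ≤ ((M + natDegree m : ℕ) : WithBot ℕ) := by
    rw [degree_mul, degree_eq_natDegree hm0, add_comm, Nat.cast_add]
    gcongr
  refine lt_of_le_of_lt h1 ?_
  exact_mod_cast (by nlinarith : M + natDegree m < M + R * natDegree m)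

theorem deg_pow_mul {m p : K[X]} {M R : ℕ} (hm : 1 ≤ natDegree m) (hp : p.degree = (M : ℕ)) :
    (m ^ R * p).degree = ((M + R * natDegree m : ℕ) : WithBot ℕ) := by
  have hm0 : m ≠ 0 := by rintro rfl; simp at hm
  rw [degree_mul, degree_pow, hp, degree_eq_natDegree hm0, add_comm]
  push_cast
  simp

theorem lt_big {m : K[X]} {M R : ℕ} (hm : 1 ≤ natDegree m) (hR : 2 ≤ R) :
    ((M : ℕ) : WithBot ℕ) < ((M + R * natDegree m : ℕ) : WithBot ℕ) := by
  exact_mod_cast (by nlinarith : M < M + R * natDegree m)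

variable [CharP K 2]

/-- the degree data for `Sz` -/
noncomputable def pp (k : ℕ) (hk : 1 ≤ k) : PP K (GL (Fin 4) K[X]) (Fin 4 → K[X]) where
  act g v := Matrix.mulVec (g : Matrix (Fin 4) (Fin 4) K[X]) v
  act_mul x y v := by rw [Units.val_mul, Matrix.mulVec_mulVec]
  u := Zu k
  l := Zl k
  u_add := Zu_add k
  l_add := Zl_add k
  Up D v := (v 0).degree = ((2 ^ k * D : ℕ) : WithBot ℕ) ∧ (v 1).degree < ((2 ^ k * D : ℕ) : WithBot ℕ) ∧
    (v 2).degree < ((2 ^ k * D : ℕ) : WithBot ℕ) ∧ (v 3).degree < ((2 ^ k * D : ℕ) : WithBot ℕ)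
  Low D v := (v 3).degree = ((2 ^ k * D : ℕ) : WithBot ℕ) ∧ (v 1).degree < ((2 ^ k * D : ℕ) : WithBot ℕ) ∧
    (v 2).degree < ((2 ^ k * D : ℕ) : WithBot ℕ) ∧ (v 0).degree < ((2 ^ k * D : ℕ) : WithBot ℕ)
  e := ![1, 0, 0, 0]
  up_e := by simp
  u_e m := by
    rw [coe_Zu, zu_mulVec]
    ext i
    fin_cases i <;> simp
  u_low D v m h hm := by
    have hR : 2 ≤ 2 ^ k := by
      calc 2 = 2 ^ 1 := (pow_one 2).symm
        _ ≤ 2 ^ k := Nat.pow_le_pow_right (by norm_num) hk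
    obtain ⟨h3, h1, h2, h0⟩ := h
    rw [coe_Zu, zu_mulVec]
    have hM := lt_big (m := m) (M := 2 ^ k * D) hm hR
    have e3 := deg_pow_mul (R := 2 ^ k) hm h3
    have e2 := deg_mul_lt hm hR h2.le
    have e3' := deg_mul_lt hm hR h3.le
    have hD : 2 ^ k * (D + natDegree m) = 2 ^ k * D + 2 ^ k * natDegree m := by ring
    rw [hD]
    refine ⟨?_, ?_, ?_, ?_⟩
    · show (v 0 + m * v 2 + m ^ (2 ^ k) * v 3).degree = _
      rw [degree_add_eq_right_of_degree_lt, e3]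
      rw [e3]
      refine lt_of_le_of_lt (degree_add_le _ _) (max_lt (h0.trans hM) e2)
    · show (v 1 + m * v 3).degree < _
      exact lt_of_le_of_lt (degree_add_le _ _) (max_lt (h1.trans hM) e3')
    · exact h2.trans hM
    · show (v 3).degree < _
      rw [h3]
      exact hM
  l_up D v m h hm := by
    have hR : 2 ≤ 2 ^ k := by
      calc 2 = 2 ^ 1 := (pow_one 2).symm
        _ ≤ 2 ^ k := Nat.pow_le_pow_right (by norm_num) hk
    obtain ⟨h0, h1, h2, h3⟩ := h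
    rw [coe_Zl, zl_mulVec]
    have hM := lt_big (m := m) (M := 2 ^ k * D) hm hR
    have e0 := deg_pow_mul (R := 2 ^ k) hm h0
    have e1 := deg_mul_lt hm hR h1.le
    have e0' := deg_mul_lt hm hR h0.le
    have hD : 2 ^ k * (D + natDegree m) = 2 ^ k * D + 2 ^ k * natDegree m := by ring
    rw [hD]
    refine ⟨?_, ?_, ?_, ?_⟩
    · show (m ^ (2 ^ k) * v 0 + m * v 1 + v 3).degree = _
      rw [add_assoc, degree_add_eq_left_of_degree_lt, e0]
      rw [e0]
      refine lt_of_le_of_lt (degree_add_le _ _) (max_lt e1 (h3.trans hM))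
    · exact h1.trans hM
    · show (m * v 0 + v 2).degree < _
      exact lt_of_le_of_lt (degree_add_le _ _) (max_lt e0' (h2.trans hM))
    · show (v 0).degree < _
      rw [h0]
      exact hM

theorem exists_entry_ne_zero [Fintype K] {w : FreeGroup ℕ} (hw : w ≠ 1) (k : ℕ) (hk : 1 ≤ k)
    (hN : 2 ^ k * PP.bnd w.toWord < Fintype.card K) :
    ∃ t : K, (FreeGroup.lift (let4 k t) w : Matrix (Fin 4) (Fin 4) K) 3 0 ≠ 0 := by
  obtain ⟨D, v, a, h1, h2, h3, h4⟩ := (pp (K := K) k hk).exists_of_ne_one hw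
  have hg : (pp (K := K) k hk).g = let4 k (X : K[X]) := by
    funext i
    rfl
  have hcol : (FreeGroup.lift (let4 k (X : K[X])) w : Matrix (Fin 4) (Fin 4) K[X]) 3 0 = v 3 := by
    have h5 := congrFun h4 3
    rw [hg] at h5
    have h6 : Matrix.mulVec (Zu k a : Matrix (Fin 4) (Fin 4) K[X]) v 3 = v 3 := by
      rw [coe_Zu, zu_mulVec]; rfl
    have h7 : Matrix.mulVec (FreeGroup.lift (let4 k (X : K[X])) w : Matrix (Fin 4) (Fin 4) K[X]) ![1, 0, 0, 0] 3 =
        (FreeGroup.lift (let4 k (X : K[X])) w : Matrix (Fin 4) (Fin 4) K[X]) 3 0 := by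
      simp [Matrix.mulVec, dotProduct, Fin.sum_univ_succ]
    exact h7.symm.trans (h5.trans h6)
  set p : K[X] := v 3 with hp
  have hdeg : p.degree = ((2 ^ k * D : ℕ) : WithBot ℕ) := h3.1
  have hp0 : p ≠ 0 := by
    rintro h
    rw [h, degree_zero] at hdeg
    exact absurd hdeg (WithBot.coe_ne_bot (a := 2 ^ k * D)).symm
  obtain ⟨t, ht⟩ := exists_eval_ne_zero_of_natDegree_lt_card p hp0 (by
    rw [natDegree_eq_of_degree_eq_some hdeg, Cardinal.mk_fintype]
    exact_mod_cast lt_of_le_of_lt (Nat.mul_le_mul_left _ h2) hN)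
  refine ⟨t, ?_⟩
  have hm := lift_comp (Matrix.GeneralLinearGroup.map (evalRingHom t)) (let4 k (X : K[X])) w
  have hm2 : (fun i => Matrix.GeneralLinearGroup.map (evalRingHom t) (let4 k (X : K[X]) i)) = let4 k t := by
    funext i
    rw [map_let4]
    simp
  rw [hm2] at hm
  rw [← hm]
  simpa [hcol] using ht

end deg

section sz

variable {F : Type*} [Field F] [Fintype F]

theorem Zu_mem [CharP F 2] {m : ℕ} (hF : Fintype.card F = 2 ^ (2 * m + 1)) (b : F) :
    Zu (m + 1) b ∈ Cfsg.Lie.Sz F (2 ^ (m + 1)) := by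
  have hb : (b ^ 2 ^ (m + 1)) ^ 2 ^ (m + 1) = b ^ 2 := by
    rw [← pow_mul, ← pow_add, show m + 1 + (m + 1) = (2 * m + 1) + 1 by ring, pow_succ, pow_mul, ← hF, FiniteField.pow_card]
  have h2 : (2 : F) = 0 := CharTwo.two_eq_zero
  refine Subgroup.subset_closure ⟨?_, ?_⟩
  · intro x y
    show Cfsg.Lie.altForm4 (Matrix.mulVec (zu (2 ^ (m + 1)) b) x) (Matrix.mulVec (zu (2 ^ (m + 1)) b) y) = _
    rw [zu_mulVec, zu_mulVec]
    simp only [Cfsg.Lie.altForm4, Matrix.cons_val]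
    linear_combination (b ^ 2 ^ (m + 1) * x 3 * y 3 + b * x 2 * y 3 + b * x 3 * y 2) * h2
  · have hn : ∀ x : F, -x = x := fun x => CharTwo.neg_eq x
    ext i j
    fin_cases i <;> fin_cases j <;>
      simp [Cfsg.Lie.star4, Cfsg.Lie.pairOf, coe_Zu, zu, hn, hb, sq]

theorem Zl_mem [CharP F 2] {m : ℕ} (hF : Fintype.card F = 2 ^ (2 * m + 1)) (b : F) :
    Zl (m + 1) b ∈ Cfsg.Lie.Sz F (2 ^ (m + 1)) := by
  have hb : (b ^ 2 ^ (m + 1)) ^ 2 ^ (m + 1) = b ^ 2 := by
    rw [← pow_mul, ← pow_add, show m + 1 + (m + 1) = (2 * m + 1) + 1 by ring, pow_succ, pow_mul, ← hF, FiniteField.pow_card]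
  have h2 : (2 : F) = 0 := CharTwo.two_eq_zero
  refine Subgroup.subset_closure ⟨?_, ?_⟩
  · intro x y
    show Cfsg.Lie.altForm4 (Matrix.mulVec (zl (2 ^ (m + 1)) b) x) (Matrix.mulVec (zl (2 ^ (m + 1)) b) y) = _
    rw [zl_mulVec, zl_mulVec]
    simp only [Cfsg.Lie.altForm4, Matrix.cons_val]
    linear_combination (b ^ 2 ^ (m + 1) * x 0 * y 0 + b * x 0 * y 1 + b * x 1 * y 0) * h2
  · have hn : ∀ x : F, -x = x := fun x => CharTwo.neg_eq x
    ext i j
    fin_cases i <;> fin_cases j <;>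
      simp [Cfsg.Lie.star4, Cfsg.Lie.pairOf, coe_Zl, zl, hn, hb, sq]

theorem sz_main {w : FreeGroup ℕ} (hw : w ≠ 1) (m : ℕ) (hm : PP.bnd w.toWord ≤ m)
    (hF : Fintype.card F = 2 ^ (2 * m + 1)) :
    ∃ f : ℕ → ↥(Cfsg.Lie.Sz F (2 ^ (m + 1))), FreeGroup.lift f w ≠ 1 := by
  have : CharP F 2 := by
    obtain ⟨p, hp⟩ := CharP.exists F
    have hpp : p.Prime := CharP.char_is_prime F p
    obtain ⟨n, -, hn⟩ := FiniteField.card F p
    have : p = 2 := by
      have h1 : p ∣ Fintype.card F := by rw [hn]; exact dvd_pow_self p n.ne_zero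
      rw [hF] at h1
      exact (Nat.prime_dvd_prime_iff_eq hpp Nat.prime_two).1 (hpp.dvd_of_dvd_pow h1)
    exact this ▸ hp
  have hlt : 2 ^ (m + 1) * PP.bnd w.toWord < Fintype.card F := by
    rw [hF, show 2 * m + 1 = (m + 1) + m by ring, pow_add 2 (m + 1) m]
    exact (Nat.mul_lt_mul_left (Nat.two_pow_pos (m + 1))).2 (lt_of_le_of_lt hm Nat.lt_two_pow_self)
  obtain ⟨t, ht⟩ := exists_entry_ne_zero hw (m + 1) (by omega) hlt
  have hmem : ∀ i, let4 (m + 1) t i ∈ Cfsg.Lie.Sz F (2 ^ (m + 1)) := fun i =>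
    mul_mem (mul_mem (Zu_mem hF _) (Zl_mem hF _)) (Zu_mem hF _)
  refine ⟨fun i => ⟨let4 (m + 1) t i, hmem i⟩, fun h => ht ?_⟩
  have hl := lift_comp (Cfsg.Lie.Sz F (2 ^ (m + 1))).subtype
    (fun i => (⟨let4 (m + 1) t i, hmem i⟩ : Cfsg.Lie.Sz F (2 ^ (m + 1)))) w
  rw [h, map_one] at hl
  have hl' : (1 : GL (Fin 4) F) = FreeGroup.lift (let4 (m + 1) t) w := hl
  rw [← hl']
  simp

end sz

end Cfsg.Agent.H982.LawSz
end

-- part: S2354
section
set_option autoImplicit false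
open Cfsg

namespace Cfsg.Agent.S2354

/-- A non-trivial law holds in only finitely many Suzuki groups: for every non-trivial element w of the free group on countably many generators there is N such that for q = 2^(2m+1) with m ≥ N some substitution of elements of the Suzuki group over the field with q elements into w is not the identity. -/
theorem result (w : FreeGroup ℕ) (hw : w ≠ 1) :
    ∃ N : ℕ, ∀ (F : Type*) [Field F] [Fintype F] (m : ℕ), 1 ≤ m → N ≤ m →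
      Fintype.card F = 2 ^ (2 * m + 1) →
      ∃ f : ℕ → ↥(Cfsg.Lie.Sz F (2 ^ (m + 1))), FreeGroup.lift f w ≠ 1 := by
  refine ⟨Cfsg.Agent.H982.LawWord.PP.bnd w.toWord, fun F _ _ m _ hm hF => ?_⟩
  exact Cfsg.Agent.H982.LawSz.sz_main hw m hm hF

end Cfsg.Agent.S2354
end
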