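import Mathlib
import Cfsg.Agent.H147.Two_mg
import Cfsg.Statements.S2459
set_option linter.all false

-- part: H147/Three
section
/-!
# `SL₃(q)`: every non-scalar matrix is a product of two conjugates of `diag(-1, M)` (helper147)

`M` is a non-split 2×2 matrix of trace `τ` and determinant `-1`.
-/

set_option autoImplicit false

namespace Cfsg.Agent.H147.Three

open Matrix Polynomial Cfsg.Agent.H147

variable {F : Type*} [Field F]

/-- the matrix `diag(-1, M)`, `M` the companion matrix of `X² - τ X - 1` -/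
def X0 (τ : F) : Matrix (Fin 3) (Fin 3) F := !![-1, 0, 0; 0, 0, 1; 0, 1, τ]

theorem X0_def (τ : F) : X0 τ = !![-1, 0, 0; 0, 0, 1; 0, 1, τ] := rfl

/-- conjugate to `X0 τ` in `GL₃` -/
def IsC (τ : F) (y : Matrix (Fin 3) (Fin 3) F) : Prop :=
  ∃ P : Matrix (Fin 3) (Fin 3) F, P.det ≠ 0 ∧ y * P = P * X0 τ

/-- a product of two conjugates of `X0 τ` -/
def Good (τ : F) (g : Matrix (Fin 3) (Fin 3) F) : Prop :=
  ∃ y z : Matrix (Fin 3) (Fin 3) F, IsC τ y ∧ IsC τ z ∧ g = y * z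

theorem IsC.conj {τ : F} {y : Matrix (Fin 3) (Fin 3) F} (h : IsC τ y) {Q : Matrix (Fin 3) (Fin 3) F} (hQ : Q.det ≠ 0) :
    IsC τ (Q * y * Q⁻¹) := by
  obtain ⟨P, hP, hyP⟩ := h
  refine ⟨Q * P, ?_, ?_⟩
  · rw [det_mul]
    exact mul_ne_zero hQ hP
  · calc Q * y * Q⁻¹ * (Q * P) = Q * y * (Q⁻¹ * Q) * P := by simp only [Matrix.mul_assoc]
      _ = Q * (y * P) := by rw [nonsing_inv_mul _ hQ.isUnit, Matrix.mul_one, Matrix.mul_assoc]
      _ = Q * P * X0 τ := by rw [hyP, Matrix.mul_assoc]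

theorem Good.conj {τ : F} {g : Matrix (Fin 3) (Fin 3) F} (h : Good τ g) {Q : Matrix (Fin 3) (Fin 3) F} (hQ : Q.det ≠ 0) :
    Good τ (Q * g * Q⁻¹) := by
  obtain ⟨y, z, hy, hz, rfl⟩ := h
  refine ⟨_, _, hy.conj hQ, hz.conj hQ, ?_⟩
  calc Q * (y * z) * Q⁻¹ = Q * y * 1 * z * Q⁻¹ := by rw [Matrix.mul_one]; simp only [Matrix.mul_assoc]
    _ = Q * y * Q⁻¹ * (Q * z * Q⁻¹) := by
        rw [← nonsing_inv_mul Q hQ.isUnit]
        simp only [Matrix.mul_assoc]

theorem Good.of_conj {τ : F} {g G Q : Matrix (Fin 3) (Fin 3) F} (h : Good τ G) (hQ : Q.det ≠ 0) (hg : g * Q = Q * G) :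
    Good τ g := by
  have := h.conj hQ
  rwa [← hg, Matrix.mul_assoc, mul_nonsing_inv _ hQ.isUnit, Matrix.mul_one] at this

theorem not_scalar {τ : F} (hirr : ∀ a : F, a ^ 2 - τ * a - 1 ≠ 0) (M : Matrix (Fin 2) (Fin 2) F) (ht : M.trace = τ)
    (hd : M.det = -1) : ¬ (M 0 1 = 0 ∧ M 1 0 = 0 ∧ M 0 0 = M 1 1) := by
  rintro ⟨h1, h2, h3⟩
  rw [trace_fin_two] at ht
  rw [det_fin_two, h1, h3] at hd
  rw [h3] at ht
  apply hirr (M 1 1)
  linear_combination -hd + M 1 1 * ht

/-- block lower triangular matrices -/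
theorem isC_lower {τ : F} (hτ : τ ≠ 0) (hirr : ∀ a : F, a ^ 2 - τ * a - 1 ≠ 0) (M : Matrix (Fin 2) (Fin 2) F)
    (ht : M.trace = τ) (hd : M.det = -1) (c0 c1 : F) :
    IsC τ !![-1, 0, 0; c0, M 0 0, M 0 1; c1, M 1 0, M 1 1] := by
  obtain ⟨P, hP, hMP⟩ := Two.exists_conj_comp M (not_scalar hirr M ht hd)
  rw [ht, hd, Two.comp_def] at hMP
  rw [trace_fin_two] at ht
  rw [det_fin_two] at hd
  have e00 := congrFun (congrFun hMP 0) 0
  have e01 := congrFun (congrFun hMP 0) 1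
  have e10 := congrFun (congrFun hMP 1) 0
  have e11 := congrFun (congrFun hMP 1) 1
  simp [Matrix.mul_apply, Fin.sum_univ_two] at e00 e01 e10 e11
  refine ⟨!![1, 0, 0; -((1 + M 1 1) * c0 - M 0 1 * c1) / τ, P 0 0, P 0 1;
    -(-(M 1 0) * c0 + (1 + M 0 0) * c1) / τ, P 1 0, P 1 1], ?_, ?_⟩
  · rw [det_fin_two] at hP
    rw [det_fin_three]
    simpa using hP
  · rw [X0_def]
    ext i j
    fin_cases i <;> fin_cases j <;> simp [Matrix.mul_apply, Fin.sum_univ_three]
    · field_simp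
      linear_combination -c0 * hd - c0 * ht
    · linear_combination e00
    · linear_combination e01
    · field_simp
      linear_combination -c1 * hd - c1 * ht
    · linear_combination e10
    · linear_combination e11

/-- block upper triangular matrices -/
theorem isC_upper {τ : F} (hτ : τ ≠ 0) (hirr : ∀ a : F, a ^ 2 - τ * a - 1 ≠ 0) (M : Matrix (Fin 2) (Fin 2) F)
    (ht : M.trace = τ) (hd : M.det = -1) (b0 b1 : F) :
    IsC τ !![-1, b0, b1; 0, M 0 0, M 0 1; 0, M 1 0, M 1 1] := by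
  obtain ⟨P, hP, hMP⟩ := Two.exists_conj_comp M (not_scalar hirr M ht hd)
  rw [ht, hd, Two.comp_def] at hMP
  have e00 := congrFun (congrFun hMP 0) 0
  have e01 := congrFun (congrFun hMP 0) 1
  have e10 := congrFun (congrFun hMP 1) 0
  have e11 := congrFun (congrFun hMP 1) 1
  simp [Matrix.mul_apply, Fin.sum_univ_two] at e00 e01 e10 e11
  refine ⟨!![1, ((b0 * P 0 0 + b1 * P 1 0) * (1 + τ) - (b0 * P 0 1 + b1 * P 1 1)) / τ,
    (-(b0 * P 0 0 + b1 * P 1 0) + (b0 * P 0 1 + b1 * P 1 1)) / τ; 0, P 0 0, P 0 1; 0, P 1 0, P 1 1], ?_, ?_⟩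
  · rw [det_fin_two] at hP
    rw [det_fin_three]
    simpa using hP
  · rw [X0_def]
    ext i j
    fin_cases i <;> fin_cases j <;> simp [Matrix.mul_apply, Fin.sum_univ_three]
    · field_simp
      ring
    · field_simp
      ring
    · linear_combination e00
    · linear_combination e01
    · linear_combination e10
    · linear_combination e11

/-- the product of the two block triangular matrices -/
theorem good_of_mul {τ : F} (hτ : τ ≠ 0) (hirr : ∀ a : F, a ^ 2 - τ * a - 1 ≠ 0) (M N : Matrix (Fin 2) (Fin 2) F)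
    (hMt : M.trace = τ) (hMd : M.det = -1) (hNt : N.trace = τ) (hNd : N.det = -1) (b0 b1 c0 c1 : F) :
    Good τ !![1, b0, b1; c0, (M * N) 0 0 + c0 * b0, (M * N) 0 1 + c0 * b1;
      c1, (M * N) 1 0 + c1 * b0, (M * N) 1 1 + c1 * b1] := by
  refine ⟨_, _, isC_lower hτ hirr M hMt hMd (-c0) (-c1), isC_upper hτ hirr N hNt hNd (-b0) (-b1), ?_⟩
  ext i j
  fin_cases i <;> fin_cases j <;> simp [Matrix.mul_apply, Fin.sum_univ_three, Fin.sum_univ_two] <;> ring

/-- a matrix with corner `1` and good Schur complement -/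
theorem good_of_schur [Finite F] {τ : F} (hτ : τ ≠ 0) (hirr : ∀ a : F, a ^ 2 - τ * a - 1 ≠ 0)
    (G : Matrix (Fin 3) (Fin 3) F) (h00 : G 0 0 = 1) (S : Matrix (Fin 2) (Fin 2) F)
    (s00 : S 0 0 = G 1 1 - G 1 0 * G 0 1) (s01 : S 0 1 = G 1 2 - G 1 0 * G 0 2)
    (s10 : S 1 0 = G 2 1 - G 2 0 * G 0 1) (s11 : S 1 1 = G 2 2 - G 2 0 * G 0 2)
    (hdet : S.det = 1)
    (hS : (¬ (S 0 1 = 0 ∧ S 1 0 = 0 ∧ S 0 0 = S 1 1) ∧ S.trace ≠ -2) ∨ S = -1) : Good τ G := by
  have key : ∃ M N : Matrix (Fin 2) (Fin 2) F, M.trace = τ ∧ M.det = -1 ∧ N.trace = τ ∧ N.det = -1 ∧ S = M * N := by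
    rcases hS with ⟨h1, h2⟩ | h1
    · apply Two.exists_mul τ (-1) hτ (neg_ne_zero.2 one_ne_zero) S h1
      · rw [hdet]; ring
      · intro h
        apply h2
        rw [h]; ring
    · refine ⟨!![0, 1; 1, τ], !![τ, -1; -1, 0], ?_, ?_, ?_, ?_, ?_⟩
      · simp [trace_fin_two]
      · simp [det_fin_two]
      · simp [trace_fin_two]
      · simp [det_fin_two]
      · rw [h1]
        ext i j
        fin_cases i <;> fin_cases j <;> simp [Matrix.mul_apply, Fin.sum_univ_two]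
  obtain ⟨M, N, hMt, hMd, hNt, hNd, hMN⟩ := key
  have := good_of_mul hτ hirr M N hMt hMd hNt hNd (G 0 1) (G 0 2) (G 1 0) (G 2 0)
  rw [← hMN, s00, s01, s10, s11] at this
  convert this using 1
  ext i j
  fin_cases i <;> fin_cases j <;> simp [h00]

/-- a matrix with first column `(1, 1, 0)` -/
theorem good_of_col [Finite F] {τ : F} (hτ : τ ≠ 0) (hirr : ∀ a : F, a ^ 2 - τ * a - 1 ≠ 0)
    (G : Matrix (Fin 3) (Fin 3) F) (h00 : G 0 0 = 1) (h10 : G 1 0 = 1) (h20 : G 2 0 = 0) (hdet : G.det = 1) :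
    Good τ G := by
  rw [det_fin_three, h00, h10, h20] at hdet
  -- the matrix conjugated by `Q x`
  have hQ : ∀ x : F, G * !![1, 0, x; 0, 1, 0; 0, 0, 1] = !![1, 0, x; 0, 1, 0; 0, 0, 1] *
      !![1, G 0 1 - x * G 2 1, G 0 2 + x - x * G 2 2; 1, G 1 1, G 1 2 + x; 0, G 2 1, G 2 2] := by
    intro x
    ext i j
    fin_cases i <;> fin_cases j <;> simp [Matrix.mul_apply, Fin.sum_univ_three, h00, h10, h20] <;> ring
  have hQd : ∀ x : F, (!![1, 0, x; 0, 1, 0; 0, 0, 1] : Matrix (Fin 3) (Fin 3) F).det ≠ 0 := by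
    intro x
    rw [det_fin_three]
    simp
  have hgo : ∀ x : F, (¬ (G 1 2 - G 0 2 + x * G 2 2 = 0 ∧ G 2 1 = 0 ∧ G 1 1 - (G 0 1 - x * G 2 1) = G 2 2) ∧
      G 1 1 - (G 0 1 - x * G 2 1) + G 2 2 ≠ -2) ∨
      (G 1 2 - G 0 2 + x * G 2 2 = 0 ∧ G 2 1 = 0 ∧ G 1 1 - (G 0 1 - x * G 2 1) = -1 ∧ G 2 2 = -1) → Good τ G := by
    intro x hx
    refine Good.of_conj (good_of_schur hτ hirr _ (by simp)
      !![G 1 1 - (G 0 1 - x * G 2 1), G 1 2 - G 0 2 + x * G 2 2; G 2 1, G 2 2] (by simp) ?_ (by simp) (by simp) ?_ ?_)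
      (hQd x) (hQ x)
    · simp
      ring
    · rw [det_fin_two_of]
      linear_combination hdet
    · rcases hx with ⟨h1, h2⟩ | ⟨h1, h2, h3, h4⟩
      · left
        refine ⟨?_, ?_⟩
        · rintro ⟨e1, e2, e3⟩
          exact h1 ⟨by simpa using e1, by simpa using e2, by simpa using e3⟩
        · simpa [trace_fin_two] using h2
      · right
        rw [h1, h2, h4]
        rw [h2] at h3
        ext i j
        fin_cases i <;> fin_cases j <;> simp
        linear_combination h3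
  by_cases h21 : G 2 1 = 0
  · have hprod : (G 1 1 - G 0 1) * G 2 2 = 1 := by
      rw [h21] at hdet
      linear_combination hdet
    have h22 : G 2 2 ≠ 0 := right_ne_zero_of_mul_eq_one hprod
    by_cases h22' : G 2 2 = -1
    · apply hgo (-(G 1 2 - G 0 2) / G 2 2)
      right
      refine ⟨?_, h21, ?_, h22'⟩
      · field_simp
        ring
      · rw [h21]
        rw [h22'] at hprod
        linear_combination -hprod
    · apply hgo ((1 - (G 1 2 - G 0 2)) / G 2 2)
      left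
      refine ⟨?_, ?_⟩
      · rintro ⟨e1, -, -⟩
        apply one_ne_zero (α := F)
        rw [← e1]
        field_simp
        ring
      · rw [h21]
        intro h
        have h5 : (G 2 2 + 1) * (G 2 2 + 1) = 0 := by
          linear_combination G 2 2 * h - hprod
        apply h22'
        have := mul_self_eq_zero.1 h5
        linear_combination this
  · apply hgo ((-1 - (G 1 1 - G 0 1) - G 2 2) / G 2 1)
    left
    refine ⟨fun h => h21 h.2.1, ?_⟩
    intro h
    have : G 1 1 - (G 0 1 - (-1 - (G 1 1 - G 0 1) - G 2 2) / G 2 1 * G 2 1) + G 2 2 = -1 := by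
      field_simp
      ring
    rw [this] at h
    apply one_ne_zero (α := F)
    linear_combination h

/-- **every non-scalar matrix of determinant one is a product of two conjugates of `X0 τ`** -/
theorem good_of_not_scalar [Finite F] {τ : F} (hτ : τ ≠ 0) (hirr : ∀ a : F, a ^ 2 - τ * a - 1 ≠ 0)
    (g : Matrix (Fin 3) (Fin 3) F) (hdet : g.det = 1) (hg : ∀ c : F, g ≠ c • (1 : Matrix (Fin 3) (Fin 3) F)) :
    Good τ g := by
  -- a vector `v` and `e` such that `v, g v, e` is a basis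
  obtain ⟨v, e, hve⟩ : ∃ v e : Fin 3 → F, (Matrix.of fun i j : Fin 3 => ![v i, (g *ᵥ v) i, e i] j).det ≠ 0 := by
    by_contra hcon
    push Not at hcon
    have hcon' : ∀ v e : Fin 3 → F, v 0 * (g *ᵥ v) 1 * e 2 - v 0 * e 1 * (g *ᵥ v) 2 - (g *ᵥ v) 0 * v 1 * e 2 +
        (g *ᵥ v) 0 * e 1 * v 2 + e 0 * v 1 * (g *ᵥ v) 2 - e 0 * (g *ᵥ v) 1 * v 2 = 0 := by
      intro v e
      have := hcon v e
      rw [det_fin_three] at this
      simpa using this
    have a1 := hcon' ![1, 0, 0] ![0, 0, 1]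
    have a2 := hcon' ![1, 0, 0] ![0, 1, 0]
    have a3 := hcon' ![0, 1, 0] ![0, 0, 1]
    have a4 := hcon' ![0, 1, 0] ![1, 0, 0]
    have a5 := hcon' ![0, 0, 1] ![0, 1, 0]
    have a6 := hcon' ![0, 0, 1] ![1, 0, 0]
    have a7 := hcon' ![1, 1, 0] ![0, 0, 1]
    have a8 := hcon' ![0, 1, 1] ![1, 0, 0]
    simp [Matrix.mulVec, dotProduct, Fin.sum_univ_three] at a1 a2 a3 a4 a5 a6 a7 a8
    apply hg (g 0 0)
    ext i j
    fin_cases i <;> fin_cases j <;> simp [*]
    · simp [a1, a3] at a7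
      linear_combination a7
    · simp [a1, a3] at a7
      simp [a4] at a8
      linear_combination a7 + a8 + a6
  -- the basis `v, g v - v, e`
  let P : Matrix (Fin 3) (Fin 3) F := Matrix.of fun i j : Fin 3 => ![v i, (g *ᵥ v) i - v i, e i] j
  have hP : P.det ≠ 0 := by
    intro h
    apply hve
    rw [det_fin_three] at h ⊢
    simp [P] at h ⊢
    linear_combination h
  have hu : IsUnit P.det := hP.isUnit
  set G := P⁻¹ * g * P with hG
  have hgP : g * P = P * G := by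
    rw [hG, Matrix.mul_assoc, ← Matrix.mul_assoc P, mul_nonsing_inv _ hu, Matrix.one_mul]
  have hPv : P *ᵥ ![1, 0, 0] = v := by
    ext i
    fin_cases i <;> simp [P, Matrix.mulVec, dotProduct, Fin.sum_univ_three]
  have hPgv : P *ᵥ ![1, 1, 0] = g *ᵥ v := by
    ext i
    fin_cases i <;> simp [P, Matrix.mulVec, dotProduct, Fin.sum_univ_three]
  have hcol : G *ᵥ ![1, 0, 0] = ![1, 1, 0] := by
    have h1 : P *ᵥ (G *ᵥ ![1, 0, 0]) = P *ᵥ ![1, 1, 0] := by
      rw [Matrix.mulVec_mulVec, ← hgP, ← Matrix.mulVec_mulVec, hPv, hPgv]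
    exact (Matrix.mulVec_injective_iff_isUnit.2 ((Matrix.isUnit_iff_isUnit_det _).2 hu)) h1
  have c0 := congrFun hcol 0
  have c1 := congrFun hcol 1
  have c2 := congrFun hcol 2
  simp [Matrix.mulVec, dotProduct, Fin.sum_univ_three] at c0 c1 c2
  have hGd : G.det = 1 := by
    rw [hG, det_mul, det_mul, det_nonsing_inv, Ring.inverse_eq_inv', hdet]
    field_simp
  exact (good_of_col hτ hirr G c0 c1 c2 hGd).of_conj hP hgP

end Cfsg.Agent.H147.Three
end

-- part: S2459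
section
set_option autoImplicit false
open Cfsg

namespace Cfsg.Agent.S2459

open Matrix Polynomial Cfsg.Agent.H147

/-- extensionality through the underlying matrices -/
theorem ext_val {F : Type*} [Field F] {A B : Matrix.SpecialLinearGroup (Fin 3) F}
    (h : (A : Matrix (Fin 3) (Fin 3) F) = (B : Matrix (Fin 3) (Fin 3) F)) : A = B :=
  Matrix.SpecialLinearGroup.ext A B (fun i j => congrFun (congrFun h i) j)

/-- a conjugate in `GL₃` of `X0 τ` with determinant one is a conjugate in `SL₃` -/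
theorem exists_conj {F : Type*} [Field F] {τ : F} (A : Matrix.SpecialLinearGroup (Fin 3) F)
    (hA : (A : Matrix (Fin 3) (Fin 3) F) = Three.X0 τ)
    (Y : Matrix.SpecialLinearGroup (Fin 3) F) (hY : Three.IsC τ (Y : Matrix (Fin 3) (Fin 3) F)) :
    ∃ u : Matrix.SpecialLinearGroup (Fin 3) F, Y = u * A * u⁻¹ := by
  obtain ⟨P, hP, hPY⟩ := hY
  have hc : (P * !![P.det⁻¹, 0, 0; 0, 1, 0; 0, 0, 1]).det = 1 := by
    rw [det_mul, det_fin_three !![P.det⁻¹, 0, 0; 0, 1, 0; 0, 0, 1]]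
    simp [hP]
  let U : Matrix.SpecialLinearGroup (Fin 3) F := ⟨_, hc⟩
  suffices h : Y * U = U * A from ⟨U, eq_mul_inv_of_mul_eq h⟩
  apply ext_val
  change (Y : Matrix (Fin 3) (Fin 3) F) * (P * !![P.det⁻¹, 0, 0; 0, 1, 0; 0, 0, 1]) =
    P * !![P.det⁻¹, 0, 0; 0, 1, 0; 0, 0, 1] * (A : Matrix (Fin 3) (Fin 3) F)
  rw [hA]
  change (Y : Matrix (Fin 3) (Fin 3) F) * (P * !![P.det⁻¹, 0, 0; 0, 1, 0; 0, 0, 1]) = P * !![P.det⁻¹, 0, 0; 0, 1, 0; 0, 0, 1] * Three.X0 τ
  rw [← Matrix.mul_assoc, hPY, Matrix.mul_assoc, Matrix.mul_assoc]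
  congr 1
  rw [Three.X0_def]
  ext i j
  fin_cases i <;> fin_cases j <;> simp [Matrix.mul_apply, Fin.sum_univ_three]

/-- `X0 τ` has order dividing `q ^ 2 - 1` -/
theorem pow_X0 {F : Type*} [Field F] [Finite F] {τ : F} (hτ : τ ≠ 0) (hirr : ∀ a : F, a ^ 2 - τ * a - 1 ≠ 0)
    (A : Matrix.SpecialLinearGroup (Fin 3) F)
    (hA : (A : Matrix (Fin 3) (Fin 3) F) = Three.X0 τ) : A ^ (Nat.card F ^ 2 - 1) = 1 := by
  have h1 : (aeval (Three.X0 τ)) ((X - C (-1)) * (X ^ 2 - C τ * X + C (-1)) : F[X]) = 0 := by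
    simp only [map_mul, map_sub, map_add, map_pow, aeval_X, aeval_C]
    ext i j
    fin_cases i <;> fin_cases j <;>
      simp [Three.X0_def, sq, Matrix.mul_apply, Fin.sum_univ_three, Algebra.algebraMap_eq_smul_one]
  have h2 : ((X - C (-1)) * (X ^ 2 - C τ * X + C (-1)) : F[X]) ∣ X ^ (Nat.card F) ^ 2 - X := by
    apply IsCoprime.mul_dvd _ (Irr.dvd_of_lin (-1)) (Irr.dvd_of_irr τ (-1) ?_)
    · refine ⟨-C τ⁻¹ * (X - C (1 + τ)), C τ⁻¹, ?_⟩
      have : (C τ⁻¹ * C τ : F[X]) = 1 := by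
        rw [← C_mul, inv_mul_cancel₀ hτ, C_1]
      simp only [map_neg, map_add, C_1]
      linear_combination this
    · intro a ha
      apply hirr a
      linear_combination ha
  obtain ⟨r, hr⟩ := h2
  have h3 : (Three.X0 τ) ^ (Nat.card F) ^ 2 - Three.X0 τ = 0 := by
    have := congrArg (aeval (Three.X0 τ)) hr
    rw [map_mul, h1, zero_mul] at this
    simpa using this
  have h4 : A ^ (Nat.card F) ^ 2 = A := by
    apply ext_val
    change (A : Matrix (Fin 3) (Fin 3) F) ^ (Nat.card F) ^ 2 = (A : Matrix (Fin 3) (Fin 3) F)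
    rw [hA]
    exact sub_eq_zero.1 h3
  have h5 : 1 ≤ Nat.card F ^ 2 := Nat.one_le_pow _ _ Nat.card_pos
  have h6 : A ^ (Nat.card F ^ 2 - 1) * A = 1 * A := by
    rw [← pow_succ, Nat.sub_add_cancel h5, h4, one_mul]
  exact mul_right_cancel h6

/-- A form of Thompson's conjecture for PSL(3,q), q > 2 (covering the non-identity elements), with a semisimple class: for F a finite field of characteristic p with more than 2 elements there is an element x of PSL(3,F) of order prime to p such that every non-identity element of PSL(3,F) is a product of two conjugates of x. -/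
theorem result {F : Type*} [Field F] [Fintype F] (p : ℕ) [Fact p.Prime] [CharP F p] (h3 : 3 ≤ Fintype.card F) :
    ∃ x : Matrix.ProjectiveSpecialLinearGroup (Fin 3) F, ¬ p ∣ orderOf x ∧ ∀ g : Matrix.ProjectiveSpecialLinearGroup (Fin 3) F, g ≠ 1 → ∃ u v : Matrix.ProjectiveSpecialLinearGroup (Fin 3) F, g = (u * x * u⁻¹) * (v * x * v⁻¹) := by
  obtain ⟨τ, hτ, hirr⟩ := Irr.exists_tau h3
  have hX0 : (Three.X0 τ).det = 1 := by
    rw [Three.X0_def, det_fin_three]
    simp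
  let A : Matrix.SpecialLinearGroup (Fin 3) F := ⟨Three.X0 τ, hX0⟩
  have hA : (A : Matrix (Fin 3) (Fin 3) F) = Three.X0 τ := rfl
  have hpow : A ^ (Nat.card F ^ 2 - 1) = 1 := pow_X0 hτ hirr A hA
  refine ⟨(A : ProjectiveSpecialLinearGroup (Fin 3) F), ?_, ?_⟩
  · apply Irr.not_dvd_orderOf (F := F) p
    rw [← QuotientGroup.mk_pow, hpow]
    rfl
  · intro g
    induction g using QuotientGroup.induction_on with
    | H g =>
      intro hg
      have hgs : ∀ c : F, (g : Matrix (Fin 3) (Fin 3) F) ≠ c • (1 : Matrix (Fin 3) (Fin 3) F) := by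
        intro c hc
        apply hg
        rw [QuotientGroup.eq_one_iff, Subgroup.mem_center_iff]
        intro h
        apply ext_val
        change (h : Matrix (Fin 3) (Fin 3) F) * (g : Matrix (Fin 3) (Fin 3) F) =
          (g : Matrix (Fin 3) (Fin 3) F) * (h : Matrix (Fin 3) (Fin 3) F)
        rw [hc]
        simp
      obtain ⟨y, z, hy, hz, hyz⟩ := Three.good_of_not_scalar hτ hirr (g : Matrix (Fin 3) (Fin 3) F) g.2 hgs
      have hyd : y.det = 1 := by
        obtain ⟨P, hP, hPY⟩ := hy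
        have := congrArg det hPY
        rw [det_mul, det_mul, hX0, mul_one] at this
        exact (mul_eq_right₀ hP).1 this
      have hzd : z.det = 1 := by
        obtain ⟨P, hP, hPY⟩ := hz
        have := congrArg det hPY
        rw [det_mul, det_mul, hX0, mul_one] at this
        exact (mul_eq_right₀ hP).1 this
      obtain ⟨u, hu⟩ := exists_conj A hA ⟨y, hyd⟩ hy
      obtain ⟨v, hv⟩ := exists_conj A hA ⟨z, hzd⟩ hz
      refine ⟨u, v, ?_⟩
      have : g = (u * A * u⁻¹) * (v * A * v⁻¹) := by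
        rw [← hu, ← hv]
        apply ext_val
        exact hyz
      rw [this]
      rfl

end Cfsg.Agent.S2459
end
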