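import Mathlib
import Cfsg.Agent.H147.Two_mg
import Cfsg.Statements.S2460
set_option linter.all false

-- part: H147/Four
section
/-!
# `Sp₄(q)`: block triangular matrices and products of two conjugates of `diag(M, M⁻ᵀ)` (helper147)

`M` is a non-split 2×2 matrix of trace `τ` and determinant `δ ≠ 1`.
-/

set_option autoImplicit false

namespace Cfsg.Agent.H147.Four

open Matrix Polynomial Cfsg.Agent.H147

variable {F : Type*} [Field F]

/-- abbreviation for the 4×4 matrices -/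
abbrev M4 (F : Type*) := Matrix (Fin 2 ⊕ Fin 2) (Fin 2 ⊕ Fin 2) F

/-- abbreviation for the 2×2 matrices -/
abbrev M2 (F : Type*) := Matrix (Fin 2) (Fin 2) F

/-- the symplectic matrices -/
abbrev Sp (F : Type*) [Field F] : Submonoid (M4 F) := symplecticGroup (Fin 2) F

/-- the matrix `diag(M, M⁻ᵀ)`, `M` the companion matrix of `X² - τ X + δ` -/
noncomputable def X0 (τ δ : F) : M4 F := fromBlocks (Two.comp τ δ) 0 0 ((Two.comp τ δ)ᵀ)⁻¹

/-- conjugate to `X0 τ δ` in `Sp₄` -/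
def IsC (τ δ : F) (y : M4 F) : Prop := ∃ P ∈ Sp F, y * P = P * X0 τ δ

/-- a product of two conjugates of `X0 τ δ` -/
def Good (τ δ : F) (g : M4 F) : Prop := ∃ y z : M4 F, IsC τ δ y ∧ IsC τ δ z ∧ g = y * z

theorem unit_of_mem {P : M4 F} (hP : P ∈ Sp F) : IsUnit P.det := SymplecticGroup.symplectic_det hP

theorem inv_mem {P : M4 F} (hP : P ∈ Sp F) : P⁻¹ ∈ Sp F := by
  rw [SymplecticGroup.inv_eq_symplectic_inv P hP]
  exact (⟨P, hP⟩⁻¹ : symplecticGroup (Fin 2) F).2

variable {τ δ : F}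

theorem IsC.conj {y : M4 F} (h : IsC τ δ y) {Q : M4 F} (hQ : Q ∈ Sp F) : IsC τ δ (Q * y * Q⁻¹) := by
  obtain ⟨P, hP, hyP⟩ := h
  refine ⟨Q * P, mul_mem hQ hP, ?_⟩
  calc Q * y * Q⁻¹ * (Q * P) = Q * y * (Q⁻¹ * Q) * P := by simp only [Matrix.mul_assoc]
    _ = Q * (y * P) := by rw [nonsing_inv_mul _ (unit_of_mem hQ), Matrix.mul_one, Matrix.mul_assoc]
    _ = Q * P * X0 τ δ := by rw [hyP, Matrix.mul_assoc]

theorem IsC.of_conj {y G Q : M4 F} (h : IsC τ δ G) (hQ : Q ∈ Sp F) (hg : y * Q = Q * G) : IsC τ δ y := by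
  have := h.conj hQ
  rwa [← hg, Matrix.mul_assoc, mul_nonsing_inv _ (unit_of_mem hQ), Matrix.mul_one] at this

theorem Good.conj {g : M4 F} (h : Good τ δ g) {Q : M4 F} (hQ : Q ∈ Sp F) : Good τ δ (Q * g * Q⁻¹) := by
  obtain ⟨y, z, hy, hz, rfl⟩ := h
  refine ⟨_, _, hy.conj hQ, hz.conj hQ, ?_⟩
  calc Q * (y * z) * Q⁻¹ = Q * y * 1 * z * Q⁻¹ := by rw [Matrix.mul_one]; simp only [Matrix.mul_assoc]
    _ = Q * y * Q⁻¹ * (Q * z * Q⁻¹) := by
        rw [← nonsing_inv_mul Q (unit_of_mem hQ)]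
        simp only [Matrix.mul_assoc]

theorem Good.of_conj {g G Q : M4 F} (h : Good τ δ G) (hQ : Q ∈ Sp F) (hg : g * Q = Q * G) : Good τ δ g := by
  have := h.conj hQ
  rwa [← hg, Matrix.mul_assoc, mul_nonsing_inv _ (unit_of_mem hQ), Matrix.mul_one] at this

/-! ### elements of `Sp₄` -/

theorem lower_mem {Z : M2 F} (hZ : Zᵀ = Z) : fromBlocks 1 0 Z 1 ∈ Sp F := by
  rw [SymplecticGroup.fromBlocks_mem_iff]
  simp [hZ]

theorem upper_mem {Z : M2 F} (hZ : Zᵀ = Z) : fromBlocks 1 Z 0 1 ∈ Sp F := by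
  rw [SymplecticGroup.fromBlocks_mem_iff]
  simp [hZ]

theorem diag_mem {M : M2 F} (hM : M.det ≠ 0) : fromBlocks M 0 0 (Mᵀ)⁻¹ ∈ Sp F := by
  rw [SymplecticGroup.fromBlocks_mem_iff]
  simp only [mul_zero, transpose_zero, zero_mul, sub_zero, true_and]
  rw [mul_nonsing_inv _ (by rw [det_transpose]; exact hM.isUnit)]

/-- the assumptions on `τ`, `δ` -/
structure Hyp (τ δ : F) : Prop where
  t0 : τ ≠ 0
  d0 : δ ≠ 0
  d1 : δ ≠ 1
  irr : ∀ a : F, a ^ 2 - τ * a + δ ≠ 0

theorem Hyp.rel (H : Hyp τ δ) : (1 - δ) * ((1 + δ) ^ 2 - τ ^ 2) ≠ 0 := by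
  refine mul_ne_zero (sub_ne_zero.2 H.d1.symm) ?_
  intro h
  have h1 : (1 + δ - τ) * (1 + δ + τ) = 0 := by linear_combination h
  rcases mul_eq_zero.1 h1 with h1 | h1
  · apply H.irr 1
    linear_combination h1
  · apply H.irr (-1)
    linear_combination h1

/-- the two types of blocks -/
def Typ (τ δ : F) (M : M2 F) : Prop := (M.trace = τ ∧ M.det = δ) ∨ (M.trace = τ / δ ∧ M.det = 1 / δ)

theorem Hyp.typ_det (H : Hyp τ δ) {M : M2 F} (h : Typ τ δ M) : M.det ≠ 0 := by
  rcases h with h | h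
  · rw [h.2]; exact H.d0
  · rw [h.2]; exact div_ne_zero one_ne_zero H.d0

theorem Hyp.typ_rel (H : Hyp τ δ) {M : M2 F} (h : Typ τ δ M) :
    (1 - M.det) * ((1 + M.det) ^ 2 - M.trace ^ 2) ≠ 0 := by
  have hr := H.rel
  have hd := H.d0
  rcases h with h | h
  · rw [h.1, h.2]; exact hr
  · rw [h.1, h.2]
    have : (1 - 1 / δ) * ((1 + 1 / δ) ^ 2 - (τ / δ) ^ 2) = -((1 - δ) * ((1 + δ) ^ 2 - τ ^ 2)) / δ ^ 3 := by
      field_simp
      ring
    rw [this]
    exact div_ne_zero (neg_ne_zero.2 hr) (pow_ne_zero _ hd)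

theorem Hyp.typ_not_scalar (H : Hyp τ δ) {M : M2 F} (h : Typ τ δ M) :
    ¬ (M 0 1 = 0 ∧ M 1 0 = 0 ∧ M 0 0 = M 1 1) := by
  rintro ⟨h1, h2, h3⟩
  have hd := H.d0
  rcases h with h | h
  · obtain ⟨ht, hd'⟩ := h
    rw [trace_fin_two] at ht
    rw [det_fin_two, h1, h3] at hd'
    rw [h3] at ht
    apply H.irr (M 1 1)
    linear_combination -hd' + M 1 1 * ht
  · obtain ⟨ht, hd'⟩ := h
    rw [trace_fin_two] at ht
    rw [det_fin_two, h1, h3] at hd'
    rw [h3] at ht
    apply H.irr (M 1 1 * δ)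
    field_simp at ht hd'
    linear_combination -δ * hd' + M 1 1 * δ * ht

theorem typ_inv_transpose (H : Hyp τ δ) {M : M2 F} (h : Typ τ δ M) : Typ τ δ ((Mᵀ)⁻¹) := by
  have hd := H.d0
  have hM := H.typ_det h
  have e1 : ((Mᵀ)⁻¹).trace = M.trace / M.det := by
    rw [inv_def, det_transpose, Ring.inverse_eq_inv', trace_smul, adjugate_fin_two, trace_fin_two, trace_fin_two]
    simp
    field_simp
    ring
  have e2 : ((Mᵀ)⁻¹).det = 1 / M.det := by
    rw [det_nonsing_inv, det_transpose, Ring.inverse_eq_inv', one_div]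
  rcases h with h | h
  · right
    rw [e1, e2, h.1, h.2]
    exact ⟨rfl, rfl⟩
  · left
    rw [e1, e2, h.1, h.2]
    constructor <;> field_simp

/-- the Sylvester equation -/
theorem sylvester {M : M2 F} (hr : (1 - M.det) * ((1 + M.det) ^ 2 - M.trace ^ 2) ≠ 0)
    {X : M2 F} (hX : Xᵀ = X) : ∃ Z : M2 F, Zᵀ = Z ∧ Mᵀ * Z * M - Z = X := by
  set p := M 0 0 with hp
  set q := M 0 1 with hq
  set r := M 1 0 with hr'
  set s := M 1 1 with hs
  have hX01 : X 0 1 = X 1 0 := by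
    have := congrFun (congrFun hX 1) 0
    simpa using this
  let A : Matrix (Fin 3) (Fin 3) F :=
    !![p ^ 2 - 1, 2 * p * r, r ^ 2; p * q, p * s + q * r - 1, r * s; q ^ 2, 2 * q * s, s ^ 2 - 1]
  have hA : A.det ≠ 0 := by
    intro h
    apply hr
    rw [trace_fin_two, det_fin_two, ← hp, ← hq, ← hr', ← hs]
    rw [det_fin_three] at h
    simp [A] at h
    linear_combination (-1 : F) * h
  have hsur := (Matrix.mulVec_surjective_iff_isUnit.2 ((Matrix.isUnit_iff_isUnit_det _).2 hA.isUnit)) ![X 0 0, X 0 1, X 1 1]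
  obtain ⟨z, hz⟩ := hsur
  have z0 := congrFun hz 0
  have z1 := congrFun hz 1
  have z2 := congrFun hz 2
  simp [A, Matrix.mulVec, dotProduct, Fin.sum_univ_three] at z0 z1 z2
  refine ⟨!![z 0, z 1; z 1, z 2], ?_, ?_⟩
  · ext i j
    fin_cases i <;> fin_cases j <;> simp
  · ext i j
    fin_cases i <;> fin_cases j <;> simp [Matrix.mul_apply, Fin.sum_univ_two, ← hp, ← hq, ← hr', ← hs]
    · linear_combination z0
    · linear_combination z1
    · rw [← hX01]
      linear_combination z1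
    · linear_combination z2

theorem inv_inv_transpose {M : M2 F} (hM : M.det ≠ 0) : (((Mᵀ)⁻¹)ᵀ)⁻¹ = M := by
  rw [transpose_nonsing_inv, transpose_transpose, nonsing_inv_nonsing_inv _ hM.isUnit]

/-- block diagonal matrices -/
theorem diag_isC (H : Hyp τ δ) {M : M2 F} (h : Typ τ δ M) : IsC τ δ (fromBlocks M 0 0 (Mᵀ)⁻¹) := by
  have key : ∀ M : M2 F, (M.trace = τ ∧ M.det = δ) → IsC τ δ (fromBlocks M 0 0 (Mᵀ)⁻¹) := by
    intro M hM
    obtain ⟨Q, hQ, hMQ⟩ := Two.exists_conj_comp M (H.typ_not_scalar (Or.inl hM))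
    rw [hM.1, hM.2] at hMQ
    refine ⟨_, diag_mem hQ, ?_⟩
    rw [X0, fromBlocks_multiply, fromBlocks_multiply]
    simp only [mul_zero, zero_mul, add_zero, zero_add]
    rw [hMQ]
    congr 1
    have h1 := congrArg (fun A : M2 F => (Aᵀ)⁻¹) hMQ
    simp only [transpose_mul, Matrix.mul_inv_rev] at h1
    exact h1
  rcases h with h' | h'
  · exact key M h'
  · have hM := H.typ_det (Or.inr h')
    have h1 := typ_inv_transpose H (Or.inr h' : Typ τ δ M)
    have h2 : ((Mᵀ)⁻¹).trace = τ ∧ ((Mᵀ)⁻¹).det = δ := by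
      have hd := H.d0
      have e1 : ((Mᵀ)⁻¹).trace = M.trace / M.det := by
        rw [inv_def, det_transpose, Ring.inverse_eq_inv', trace_smul, adjugate_fin_two, trace_fin_two, trace_fin_two]
        simp
        field_simp
        ring
      have e2 : ((Mᵀ)⁻¹).det = 1 / M.det := by
        rw [det_nonsing_inv, det_transpose, Ring.inverse_eq_inv', one_div]
      rw [e1, e2, h'.1, h'.2]
      constructor <;> field_simp
    have h3 := key _ h2
    rw [inv_inv_transpose hM] at h3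
    refine h3.of_conj (SymplecticGroup.J_mem (Fin 2) F) ?_
    rw [J, fromBlocks_multiply, fromBlocks_multiply]
    simp

/-- block lower triangular matrices -/
theorem lower_isC (H : Hyp τ δ) {M : M2 F} (h : Typ τ δ M) {X : M2 F} (hX : Xᵀ = X) :
    IsC τ δ (fromBlocks M 0 (X * M) (Mᵀ)⁻¹) := by
  have hM := H.typ_det h
  have hMt : IsUnit (Mᵀ).det := by rw [det_transpose]; exact hM.isUnit
  obtain ⟨Z, hZ, hMZ⟩ := sylvester (H.typ_rel h) (X := Mᵀ * X * M) (by
    rw [transpose_mul, transpose_mul, transpose_transpose, hX, Matrix.mul_assoc])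
  refine (diag_isC H h).of_conj (lower_mem hZ) ?_
  rw [fromBlocks_multiply, fromBlocks_multiply]
  simp only [mul_zero, zero_mul, add_zero, zero_add, mul_one, one_mul]
  congr 1
  have h1 : Mᵀ * (X * M + (Mᵀ)⁻¹ * Z) = Mᵀ * (Z * M) := by
    rw [mul_add, ← Matrix.mul_assoc, ← Matrix.mul_assoc, ← Matrix.mul_assoc, mul_nonsing_inv _ hMt, Matrix.one_mul, ← hMZ,
      sub_add_cancel]
  calc X * M + (Mᵀ)⁻¹ * Z = (Mᵀ)⁻¹ * (Mᵀ * (X * M + (Mᵀ)⁻¹ * Z)) := by
        rw [← Matrix.mul_assoc, nonsing_inv_mul _ hMt, Matrix.one_mul]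
    _ = Z * M := by rw [h1, ← Matrix.mul_assoc, nonsing_inv_mul _ hMt, Matrix.one_mul]

/-- block upper triangular matrices -/
theorem upper_isC (H : Hyp τ δ) {N : M2 F} (h : Typ τ δ N) {Y : M2 F} (hY : Yᵀ = Y) :
    IsC τ δ (fromBlocks N (N * Y) 0 (Nᵀ)⁻¹) := by
  have hN := H.typ_det h
  have hNt : IsUnit (Nᵀ).det := by rw [det_transpose]; exact hN.isUnit
  have h1 := lower_isC H (typ_inv_transpose H h) (X := -(N * Y * Nᵀ)) (by
    rw [transpose_neg, transpose_mul, transpose_mul, transpose_transpose, hY, Matrix.mul_assoc])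
  rw [inv_inv_transpose hN] at h1
  refine h1.of_conj (SymplecticGroup.J_mem (Fin 2) F) ?_
  rw [J, fromBlocks_multiply, fromBlocks_multiply]
  simp only [mul_zero, zero_mul, add_zero, zero_add, mul_one, one_mul, neg_mul, mul_neg, neg_neg, neg_zero]
  congr 1
  rw [Matrix.mul_assoc (N * Y), mul_nonsing_inv _ hNt, Matrix.mul_one]

/-- **block decomposition** -/
theorem good_block (H : Hyp τ δ) {M N B C D : M2 F} (hM : Typ τ δ M) (hN : Typ τ δ N)
    (hG : fromBlocks (M * N) B C D ∈ Sp F) : Good τ δ (fromBlocks (M * N) B C D) := by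
  have hMd := (H.typ_det hM).isUnit
  have hNd := (H.typ_det hN).isUnit
  have hSd : IsUnit (M * N).det := by rw [det_mul]; exact hMd.mul hNd
  have hStd : IsUnit ((M * N)ᵀ).det := by rw [det_transpose]; exact hSd
  obtain ⟨S, hS⟩ : ∃ S, S = M * N := ⟨_, rfl⟩
  rw [← hS] at hG hSd hStd ⊢
  rw [SymplecticGroup.fromBlocks_mem_iff] at hG
  obtain ⟨h1, h2, h3⟩ := hG
  -- `X = C S⁻¹`, `Y = S⁻¹ B`
  have hX : (C * S⁻¹)ᵀ = C * S⁻¹ := by
    rw [transpose_mul, transpose_nonsing_inv]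
    calc (Sᵀ)⁻¹ * Cᵀ = (Sᵀ)⁻¹ * (Cᵀ * S) * S⁻¹ := by
          rw [Matrix.mul_assoc, Matrix.mul_assoc, mul_nonsing_inv _ hSd, Matrix.mul_one]
      _ = C * S⁻¹ := by
          rw [← h1, ← Matrix.mul_assoc (Sᵀ)⁻¹, nonsing_inv_mul _ hStd, Matrix.one_mul]
  have hD : D = (Sᵀ)⁻¹ + C * S⁻¹ * B := by
    have h4 : Sᵀ * D = 1 + Cᵀ * B := by rw [← h3]; abel
    calc D = (Sᵀ)⁻¹ * (Sᵀ * D) := by rw [← Matrix.mul_assoc, nonsing_inv_mul _ hStd, Matrix.one_mul]
      _ = (Sᵀ)⁻¹ + (Sᵀ)⁻¹ * Cᵀ * B := by rw [h4, mul_add, Matrix.mul_one, Matrix.mul_assoc]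
      _ = (Sᵀ)⁻¹ + C * S⁻¹ * B := by
          rw [← hX, transpose_mul, transpose_nonsing_inv]
  have hY : (S⁻¹ * B)ᵀ = S⁻¹ * B := by
    -- `Bᵀ D` symmetric
    have h5 : Bᵀ * (Sᵀ)⁻¹ + Bᵀ * (C * S⁻¹ * B) = S⁻¹ * B + Bᵀ * (C * S⁻¹ * B) := by
      have e1 : Bᵀ * D = Bᵀ * (Sᵀ)⁻¹ + Bᵀ * (C * S⁻¹ * B) := by
        rw [hD, mul_add]
      have e2 : Dᵀ * B = S⁻¹ * B + Bᵀ * (C * S⁻¹ * B) := by
        rw [hD, transpose_add, transpose_mul (C * S⁻¹) B, hX, add_mul, ← transpose_nonsing_inv, transpose_transpose,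
          Matrix.mul_assoc Bᵀ]
      rw [← e1, ← e2, h2]
    rw [transpose_mul, transpose_nonsing_inv]
    exact add_right_cancel h5
  refine ⟨fromBlocks M 0 (C * S⁻¹ * M) (Mᵀ)⁻¹, fromBlocks N (N * (S⁻¹ * B)) 0 (Nᵀ)⁻¹, lower_isC H hM hX,
    upper_isC H hN hY, ?_⟩
  rw [fromBlocks_multiply]
  simp only [mul_zero, zero_mul, add_zero]
  have e1 : M * (N * (S⁻¹ * B)) = B := by
    rw [← Matrix.mul_assoc, ← hS, ← Matrix.mul_assoc, mul_nonsing_inv _ hSd, Matrix.one_mul]
  have e2 : C * S⁻¹ * M * N = C := by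
    rw [Matrix.mul_assoc (C * S⁻¹), ← hS, Matrix.mul_assoc, nonsing_inv_mul _ hSd, Matrix.mul_one]
  have e3 : C * S⁻¹ * M * (N * (S⁻¹ * B)) + (Mᵀ)⁻¹ * (Nᵀ)⁻¹ = D := by
    have e4 : (Mᵀ)⁻¹ * (Nᵀ)⁻¹ = (Sᵀ)⁻¹ := by
      rw [hS, transpose_mul, Matrix.mul_inv_rev]
    rw [e4, hD, add_comm, Matrix.mul_assoc (C * S⁻¹), e1]
  rw [e1, e2, e3, hS]

end Cfsg.Agent.H147.Four
end

-- part: H147/FourB
section
/-!
# `Sp₄(q)`: isotropic planes in general position (helper147)
-/

set_option autoImplicit false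

namespace Cfsg.Agent.H147.Four

open Matrix Polynomial Cfsg.Agent.H147

variable {F : Type*} [Field F] {τ δ : F}

/-- if `E` spans a Lagrangian with `E ∩ g E = 0` then `g` is conjugate to a matrix with prescribed corner `T K` -/
theorem good_pair (H : Hyp τ δ) {g : M4 F} (hg : g ∈ Sp F) (E : Matrix (Fin 2 ⊕ Fin 2) (Fin 2) F)
    (hE : Eᵀ * J (Fin 2) F * E = 0) (hK : (Eᵀ * J (Fin 2) F * g * E).det ≠ 0) {T : M2 F} (hT : Tᵀ = T)
    {M N : M2 F} (hM : Typ τ δ M) (hN : Typ τ δ N) (hMN : T * (Eᵀ * J (Fin 2) F * g * E) = M * N) :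
    Good τ δ g := by
  obtain ⟨K, hKd⟩ : ∃ K, K = Eᵀ * J (Fin 2) F * g * E := ⟨_, rfl⟩
  rw [← hKd] at hK hMN
  have hgJ : gᵀ * J (Fin 2) F * g = J (Fin 2) F := SymplecticGroup.mem_iff'.1 hg
  have hKu : IsUnit K.det := hK.isUnit
  obtain ⟨Q, hQ⟩ : ∃ Q, Q = -(g * E * K⁻¹) := ⟨_, rfl⟩
  have hgE : g * E = -(Q * K) := by
    rw [hQ, Matrix.neg_mul, neg_neg, Matrix.mul_assoc, nonsing_inv_mul _ hKu, Matrix.mul_one]
  have hEQ : Eᵀ * J (Fin 2) F * Q = -1 := by
    rw [hQ, Matrix.mul_neg, ← Matrix.mul_assoc, ← Matrix.mul_assoc, ← hKd, mul_nonsing_inv _ hKu]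
  have hQE : Qᵀ * J (Fin 2) F * E = 1 := by
    have := congrArg Matrix.transpose hEQ
    rw [transpose_mul, transpose_mul, transpose_transpose, J_transpose, transpose_neg, transpose_one] at this
    rw [Matrix.mul_assoc]
    simpa using this
  have hQQ : Qᵀ * J (Fin 2) F * Q = 0 := by
    have h1 : Qᵀ = -((K⁻¹)ᵀ * Eᵀ * gᵀ) := by
      rw [hQ, transpose_neg, transpose_mul, transpose_mul, Matrix.mul_assoc]
    rw [h1, hQ]
    simp only [Matrix.neg_mul, Matrix.mul_neg, neg_neg]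
    calc (K⁻¹)ᵀ * Eᵀ * gᵀ * J (Fin 2) F * (g * E * K⁻¹) = (K⁻¹)ᵀ * (Eᵀ * (gᵀ * J (Fin 2) F * g) * E) * K⁻¹ := by
          simp only [Matrix.mul_assoc]
      _ = 0 := by rw [hgJ, hE]; simp
  obtain ⟨R, hR⟩ : ∃ R, R = Q + E * T := ⟨_, rfl⟩
  have hER : Eᵀ * J (Fin 2) F * R = -1 := by
    rw [hR, Matrix.mul_add, hEQ, ← Matrix.mul_assoc, hE, Matrix.zero_mul, add_zero]
  have hRE : Rᵀ * J (Fin 2) F * E = 1 := by
    rw [hR, transpose_add, transpose_mul, Matrix.add_mul, Matrix.add_mul, hQE, Matrix.mul_assoc, Matrix.mul_assoc, ← Matrix.mul_assoc Eᵀ,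
      hE, Matrix.mul_zero, add_zero]
  have hRR : Rᵀ * J (Fin 2) F * R = 0 := by
    have h1 : Rᵀ * J (Fin 2) F * Q = -T := by
      rw [hR, transpose_add, transpose_mul, Matrix.add_mul, Matrix.add_mul, hQQ, hT, Matrix.mul_assoc, Matrix.mul_assoc,
        ← Matrix.mul_assoc Eᵀ, hEQ]
      simp
    calc Rᵀ * J (Fin 2) F * R = Rᵀ * J (Fin 2) F * Q + Rᵀ * J (Fin 2) F * E * T := by
          nth_rw 2 [hR]
          rw [Matrix.mul_add, ← Matrix.mul_assoc]
      _ = 0 := by rw [h1, hRE, Matrix.one_mul, neg_add_cancel]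
  have hP : fromCols E R ∈ Sp F := by
    rw [SymplecticGroup.mem_iff', transpose_fromCols, fromRows_mul, fromRows_mul_fromCols, hE, hER, hRE, hRR]
    rfl
  have hPi := SymplecticGroup.inv_eq_symplectic_inv _ hP
  obtain ⟨P, hPd⟩ : ∃ P, P = fromCols E R := ⟨_, rfl⟩
  rw [← hPd] at hP hPi
  have hG : P⁻¹ * g * P ∈ Sp F := mul_mem (mul_mem (inv_mem hP) hg) hP
  have h11 : (P⁻¹ * g * P).toBlocks₁₁ = M * N := by
    have h1 : P⁻¹ * g * P = -(J (Fin 2) F) * (fromRows Eᵀ Rᵀ * J (Fin 2) F * g * fromCols E R) := by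
      rw [hPi, hPd, transpose_fromCols]
      simp only [Matrix.mul_assoc]
    have h2 : Rᵀ * J (Fin 2) F * g * E = T * K := by
      rw [Matrix.mul_assoc, hgE, Matrix.mul_neg, ← Matrix.mul_assoc]
      have h3 : Rᵀ * J (Fin 2) F * Q = -T := by
        rw [hR, transpose_add, transpose_mul, Matrix.add_mul, Matrix.add_mul, hQQ, hT, Matrix.mul_assoc, Matrix.mul_assoc,
          ← Matrix.mul_assoc Eᵀ, hEQ]
        simp
      rw [h3, Matrix.neg_mul, neg_neg]
    have hJ : -(J (Fin 2) F) = fromBlocks 0 1 (-1) 0 := by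
      rw [J, fromBlocks_neg]
      simp
    rw [h1, fromRows_mul, fromRows_mul, fromRows_mul_fromCols, hJ, fromBlocks_multiply, toBlocks_fromBlocks₁₁]
    rw [h2, hMN]
    simp
  have hgood : Good τ δ (P⁻¹ * g * P) := by
    rw [← fromBlocks_toBlocks (P⁻¹ * g * P)] at hG ⊢
    rw [h11] at hG ⊢
    exact good_block H hM hN hG
  refine hgood.of_conj hP ?_
  rw [← Matrix.mul_assoc, ← Matrix.mul_assoc, mul_nonsing_inv _ (unit_of_mem hP), Matrix.one_mul]

/-- the alternating form -/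
def bf (u v : Fin 2 ⊕ Fin 2 → F) : F :=
  u (.inr 0) * v (.inl 0) + u (.inr 1) * v (.inl 1) - u (.inl 0) * v (.inr 0) - u (.inl 1) * v (.inr 1)

theorem bf_eq (u v : Fin 2 ⊕ Fin 2 → F) : bf u v = u ⬝ᵥ (J (Fin 2) F *ᵥ v) := by
  simp [bf, dotProduct, J, fromBlocks_mulVec, Fintype.sum_sum_type, Fin.sum_univ_two]
  ring

theorem bf_def (u v : Fin 2 ⊕ Fin 2 → F) : bf u v =
    u (.inr 0) * v (.inl 0) + u (.inr 1) * v (.inl 1) - u (.inl 0) * v (.inr 0) - u (.inl 1) * v (.inr 1) := rfl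

theorem bf_invariant {g : M4 F} (hg : g ∈ Sp F) (u v : Fin 2 ⊕ Fin 2 → F) : bf (g *ᵥ u) (g *ᵥ v) = bf u v := by
  have hgJ : gᵀ * J (Fin 2) F * g = J (Fin 2) F := SymplecticGroup.mem_iff'.1 hg
  rw [bf_eq, bf_eq, ← Matrix.vecMul_transpose, ← Matrix.dotProduct_mulVec, Matrix.mulVec_mulVec, Matrix.mulVec_mulVec, hgJ]

theorem bf_self (u : Fin 2 ⊕ Fin 2 → F) : bf u u = 0 := by
  rw [bf_def]; ring

theorem bf_swap (u v : Fin 2 ⊕ Fin 2 → F) : bf u v = -bf v u := by
  rw [bf_def, bf_def]; ring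

/-- the 4×2 matrix with given columns -/
def cols (e e' : Fin 2 ⊕ Fin 2 → F) : Matrix (Fin 2 ⊕ Fin 2) (Fin 2) F := Matrix.of fun i j => ![e i, e' i] j

theorem cols_form₂ (e e' u u' : Fin 2 ⊕ Fin 2 → F) (A : M4 F) :
    (cols e e')ᵀ * J (Fin 2) F * A * cols u u' =
      !![bf e (A *ᵥ u), bf e (A *ᵥ u'); bf e' (A *ᵥ u), bf e' (A *ᵥ u')] := by
  have key : ∀ i j : Fin 2, ((cols e e')ᵀ * J (Fin 2) F * A * cols u u') i j =
      bf ((cols e e').col i) (A *ᵥ (cols u u').col j) := by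
    intro i j
    rw [bf_eq, Matrix.mulVec_mulVec, Matrix.mul_assoc, Matrix.mul_assoc, Matrix.mul_apply']
    rw [← Matrix.mul_assoc]
    rfl
  have h0 : (cols e e').col 0 = e := by
    ext i; simp [cols, Matrix.col_apply]
  have h1 : (cols e e').col 1 = e' := by
    ext i; simp [cols, Matrix.col_apply]
  have h2 : (cols u u').col 0 = u := by
    ext i; simp [cols, Matrix.col_apply]
  have h3 : (cols u u').col 1 = u' := by
    ext i; simp [cols, Matrix.col_apply]
  ext i j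
  fin_cases i <;> fin_cases j
  · simpa [h0, h1, h2, h3] using key 0 0
  · simpa [h0, h1, h2, h3] using key 0 1
  · simpa [h0, h1, h2, h3] using key 1 0
  · simpa [h0, h1, h2, h3] using key 1 1

theorem cols_form (e e' : Fin 2 ⊕ Fin 2 → F) (A : M4 F) :
    (cols e e')ᵀ * J (Fin 2) F * A * cols e e' =
      !![bf e (A *ᵥ e), bf e (A *ᵥ e'); bf e' (A *ᵥ e), bf e' (A *ᵥ e')] :=
  cols_form₂ e e' e e' A

theorem cols_iso (e e' : Fin 2 ⊕ Fin 2 → F) (h : bf e e' = 0) :
    (cols e e')ᵀ * J (Fin 2) F * cols e e' = 0 := by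
  have h1 := cols_form e e' (1 : M4 F)
  rw [Matrix.mul_one] at h1
  rw [h1, Matrix.one_mulVec, Matrix.one_mulVec, bf_self, bf_self, bf_swap e' e, h]
  ext i j
  fin_cases i <;> fin_cases j <;> simp

/-- first kind of Lagrangian in general position -/
theorem good_i [Finite F] (H : Hyp τ δ) {g : M4 F} (hg : g ∈ Sp F) (e e' : Fin 2 ⊕ Fin 2 → F) (h0 : bf e e' = 0)
    (h1 : bf e (g *ᵥ e) ≠ 0) (h2 : bf e' (g *ᵥ e) = 0) (h3 : bf e' (g *ᵥ e') ≠ 0) : Good τ δ g := by
  have hd0 := H.d0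
  have hK := cols_form e e' g
  rw [h2] at hK
  obtain ⟨a, ha⟩ : ∃ a, a = bf e (g *ᵥ e) := ⟨_, rfl⟩
  obtain ⟨b, hb⟩ : ∃ b, b = bf e (g *ᵥ e') := ⟨_, rfl⟩
  obtain ⟨d, hd⟩ : ∃ d, d = bf e' (g *ᵥ e') := ⟨_, rfl⟩
  rw [← ha, ← hb, ← hd] at hK
  rw [← ha] at h1
  rw [← hd] at h3
  have hKd : ((cols e e')ᵀ * J (Fin 2) F * g * cols e e').det ≠ 0 := by
    rw [hK, det_fin_two_of]
    simpa using ⟨h1, h3⟩
  -- it suffices to find `T`
  have hT : ∀ x y z : F, x * z - y ^ 2 = δ ^ 2 / (a * d) → y ≠ 0 → x * a + y * b + z * d ≠ 2 * δ → Good τ δ g := by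
    intro x y z hdet hy htr
    have hS : !![x, y; y, z] * ((cols e e')ᵀ * J (Fin 2) F * g * cols e e') =
        !![x * a, x * b + y * d; y * a, y * b + z * d] := by
      rw [hK]
      ext i j
      fin_cases i <;> fin_cases j <;> simp [Matrix.mul_apply, Fin.sum_univ_two]
    have hSd : (!![x * a, x * b + y * d; y * a, y * b + z * d] : M2 F).det = δ ^ 2 := by
      rw [det_fin_two_of]
      field_simp at hdet
      linear_combination hdet
    obtain ⟨M, N, hMt, hMd, hNt, hNd, hMN⟩ := Two.exists_mul τ δ H.t0 H.d0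
      !![x * a, x * b + y * d; y * a, y * b + z * d] (by
        rintro ⟨-, e1, -⟩
        simp at e1
        rcases e1 with e1 | e1
        · exact hy e1
        · exact h1 e1) hSd (by
        rw [trace_fin_two_of]
        intro h
        apply htr
        linear_combination h)
    refine good_pair H hg (cols e e') (cols_iso e e' h0) hKd (T := !![x, y; y, z]) ?_ (Or.inl ⟨hMt, hMd⟩)
      (Or.inl ⟨hNt, hNd⟩) (hS.trans hMN)
    ext i j
    fin_cases i <;> fin_cases j <;> simp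
  have had : a * d ≠ 0 := mul_ne_zero h1 h3
  by_cases hchar : (2 : F) = 0
  · -- characteristic two
    have hF : ringChar F = 2 := by
      have h22 : ((2 : ℕ) : F) = 0 := by exact_mod_cast hchar
      have := ringChar.dvd h22
      rcases (Nat.dvd_prime Nat.prime_two).1 this with h | h
      · exfalso
        have := ringChar.Nat.cast_ringChar (R := F)
        rw [h] at this
        simp at this
      · exact h
    obtain ⟨y, hy⟩ := FiniteField.isSquare_of_char_two hF (δ ^ 2 / (a * d))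
    have hy0 : y ≠ 0 := by
      rintro rfl
      rw [mul_zero] at hy
      exact (div_ne_zero (pow_ne_zero 2 hd0) had) hy
    have hneg : ∀ x : F, -x = x := by
      intro x
      linear_combination (-x) * hchar
    by_cases hb0 : b = 0
    · refine hT 1 y 0 ?_ hy0 ?_
      · rw [hy, mul_zero, zero_sub, hneg, sq]
      · rw [hb0, hchar]
        simpa using h1
    · refine hT 0 y 0 ?_ hy0 ?_
      · rw [hy, mul_zero, zero_sub, hneg, sq]
      · rw [hchar]
        simpa using ⟨hy0, hb0⟩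
  · by_cases c1 : a + b + (δ ^ 2 / (a * d) + 1) * d = 2 * δ
    · by_cases c2 : a - b + (δ ^ 2 / (a * d) + 1) * d = 2 * δ
      · refine hT (-1) 1 (-(δ ^ 2 / (a * d) + 1)) (by ring) one_ne_zero ?_
        intro c3
        have e1 : 2 * b = 0 := by linear_combination c1 - c2
        have e2 : b = 0 := by
          rcases mul_eq_zero.1 e1 with e | e
          · exact absurd e hchar
          · exact e
        have e3 : 2 * (2 * δ) = 0 := by
          rw [e2] at c1 c3
          linear_combination -c1 - c3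
        rcases mul_eq_zero.1 e3 with e | e
        · exact hchar e
        · rcases mul_eq_zero.1 e with e | e
          · exact hchar e
          · exact hd0 e
      · refine hT 1 (-1) (δ ^ 2 / (a * d) + 1) (by ring) (neg_ne_zero.2 one_ne_zero) ?_
        intro h
        apply c2
        linear_combination h
    · refine hT 1 1 (δ ^ 2 / (a * d) + 1) (by ring) one_ne_zero ?_
      intro h
      apply c1
      linear_combination h

/-- second kind of Lagrangian in general position -/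
theorem good_ii [Finite F] (H : Hyp τ δ) {g : M4 F} (hg : g ∈ Sp F) (e e' : Fin 2 ⊕ Fin 2 → F) (h0 : bf e e' = 0)
    (h1 : bf e (g *ᵥ e) = 0) (h2 : bf e' (g *ᵥ e) = -bf e (g *ᵥ e')) (h3 : bf e' (g *ᵥ e') = 0)
    (h4 : bf e (g *ᵥ e') ≠ 0) : Good τ δ g := by
  have hd0 := H.d0
  have hK := cols_form e e' g
  rw [h1, h2, h3] at hK
  obtain ⟨b, hb⟩ : ∃ b, b = bf e (g *ᵥ e') := ⟨_, rfl⟩
  rw [← hb] at hK h4
  have hKd : ((cols e e')ᵀ * J (Fin 2) F * g * cols e e').det ≠ 0 := by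
    rw [hK, det_fin_two_of]
    simpa using h4
  by_cases hchar : (2 : F) = 0
  · have hneg : ∀ x : F, -x = x := by
      intro x
      linear_combination (-x) * hchar
    refine good_pair H hg (cols e e') (cols_iso e e' h0) hKd (T := !![0, b⁻¹; b⁻¹, 0]) ?_
      (M := !![0, -δ; 1, τ]) (N := !![τ / δ, 1; -1 / δ, 0]) (Or.inl ?_) (Or.inr ?_) ?_
    · ext i j
      fin_cases i <;> fin_cases j <;> simp
    · simp [trace_fin_two, det_fin_two]
    · simp [trace_fin_two, det_fin_two]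
      field_simp
    · rw [hK]
      ext i j
      fin_cases i <;> fin_cases j <;> simp [Matrix.mul_apply, Fin.sum_univ_two] <;> field_simp
      · exact (hneg 1).symm
      · ring
  · refine ?_
    obtain ⟨M, N, hMt, hMd, hNt, hNd, hMN⟩ := Two.exists_mul τ δ H.t0 H.d0
      !![0, b; -(δ ^ 2 / b), 0] (by
        rintro ⟨e1, -, -⟩
        exact h4 (by simpa using e1)) (by
        rw [det_fin_two_of]
        field_simp
        ring) (by
        rw [trace_fin_two_of]
        intro h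
        have : 2 * δ = 0 := by linear_combination -h
        rcases mul_eq_zero.1 this with e | e
        · exact hchar e
        · exact hd0 e)
    refine good_pair H hg (cols e e') (cols_iso e e' h0) hKd (T := !![1, 0; 0, δ ^ 2 / b ^ 2]) ?_ (Or.inl ⟨hMt, hMd⟩)
      (Or.inl ⟨hNt, hNd⟩) (Eq.trans ?_ hMN)
    · ext i j
      fin_cases i <;> fin_cases j <;> simp
    · rw [hK]
      ext i j
      fin_cases i <;> fin_cases j <;> simp [Matrix.mul_apply, Fin.sum_univ_two] <;> field_simp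

end Cfsg.Agent.H147.Four
end

-- part: H147/FourC
section
/-!
# `Sp₄(q)`: every element `≠ ± 1` is, up to sign, a product of two conjugates of `diag(M, M⁻ᵀ)` (helper147)
-/

set_option autoImplicit false

namespace Cfsg.Agent.H147.Four

open Matrix Polynomial Cfsg.Agent.H147

variable {F : Type*} [Field F] {τ δ : F}

/-- transvections -/
theorem good_trans [Finite F] (H : Hyp τ δ) {c : F} (hc : c ≠ 0) :
    Good τ δ (fromBlocks !![0, 0; 0, 1] !![1 / c, 0; 0, 0] !![-c, 0; 0, 0] !![2, 0; 0, 1]) := by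
  have hP : fromBlocks !![δ ^ 2 - 2, -1 / c; 0, 1] !![1 / c, 0; 0, 0] !![-c, 0; -1, 0] !![0, 0; 0, 1] ∈ Sp F := by
    rw [SymplecticGroup.fromBlocks_mem_iff]
    refine ⟨?_, ?_, ?_⟩ <;>
    · ext i j
      fin_cases i <;> fin_cases j <;> simp [Matrix.mul_apply, Fin.sum_univ_two] <;> field_simp <;> ring
  have hG : fromBlocks !![δ ^ 2, -1 / c; 0, 1] !![1 / c, 0; 0, 0]
      !![-(c * (δ ^ 2 - 1) * (δ ^ 2 - 1)), δ ^ 2 - 1; δ ^ 2 - 1, -1 / c] !![2 - δ ^ 2, 0; 1 / c, 1] ∈ Sp F := by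
    rw [SymplecticGroup.fromBlocks_mem_iff]
    refine ⟨?_, ?_, ?_⟩ <;>
    · ext i j
      fin_cases i <;> fin_cases j <;> simp [Matrix.mul_apply, Fin.sum_univ_two] <;> field_simp <;> ring
  obtain ⟨M, N, hMt, hMd, hNt, hNd, hMN⟩ := Two.exists_mul τ δ H.t0 H.d0
    !![δ ^ 2, -1 / c; 0, 1] (by
      rintro ⟨e1, -, -⟩
      simp [hc] at e1) (by
      rw [det_fin_two_of]
      ring) (by
      rw [trace_fin_two_of]
      intro h
      have : (δ - 1) * (δ - 1) = 0 := by linear_combination h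
      exact H.d1 (sub_eq_zero.1 (mul_self_eq_zero.1 this)))
  rw [hMN] at hG
  have hgood := good_block H (Or.inl ⟨hMt, hMd⟩) (Or.inl ⟨hNt, hNd⟩) hG
  refine hgood.of_conj hP ?_
  rw [← hMN, fromBlocks_multiply, fromBlocks_multiply]
  rw [fromBlocks_inj]
  refine ⟨?_, ?_, ?_, ?_⟩ <;>
  · ext i j
    fin_cases i <;> fin_cases j <;> simp [Matrix.mul_apply, Fin.sum_univ_two] <;> field_simp <;> ring

/-- the four-parameter family -/
def Gm (c a b t : F) : M4 F :=
  fromBlocks !![0, 0; 0, 1] !![1 / c, 0; b, 0] !![-c, -(c * a); 0, 0] !![t, -(c * b); -a, 1]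

theorem Gm_mem {c : F} (hc : c ≠ 0) (a b t : F) : Gm c a b t ∈ Sp F := by
  rw [Gm, SymplecticGroup.fromBlocks_mem_iff]
  refine ⟨?_, ?_, ?_⟩ <;>
  · ext i j
    fin_cases i <;> fin_cases j <;> simp [Matrix.mul_apply, Fin.sum_univ_two] <;> field_simp <;> ring

/-- a vector with given coordinates -/
def vec (x y z w : F) : Fin 2 ⊕ Fin 2 → F := Sum.elim ![x, y] ![z, w]

theorem Gm_mulVec (c a b t x y z w : F) : Gm c a b t *ᵥ vec x y z w =
    vec (z / c) (y + b * z) (-(c * x) - c * a * y + t * z - c * b * w) (-(a * z) + w) := by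
  rw [Gm, vec, fromBlocks_mulVec]
  ext i
  rcases i with i | i <;> fin_cases i <;>
    simp [vec, Matrix.mulVec, dotProduct, Fin.sum_univ_two] <;> ring

theorem bf_vec (x y z w x' y' z' w' : F) : bf (vec x y z w) (vec x' y' z' w') = z * x' + w * y' - x * z' - y * w' := by
  simp [bf, vec]

/-- the members of the family are good -/
theorem good_Gm [Finite F] (H : Hyp τ δ) (hF : (2 : F) = 0 → ∃ m : F, m ≠ 0 ∧ m ≠ 1) {c : F} (hc : c ≠ 0) (a b t : F) :
    Good τ δ (Gm c a b t) := by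
  by_cases hab : a = 0 ∧ b = 0
  · obtain ⟨rfl, rfl⟩ := hab
    by_cases ht : t = 2
    · have := good_trans H hc
      convert this using 1
      rw [Gm, ht]
      simp
    · refine good_i H (Gm_mem hc _ _ _) (vec 1 1 0 0) (vec (-1 / c) 0 (-1) 1) ?_ ?_ ?_ ?_
      · rw [bf_vec]; ring
      · rw [Gm_mulVec, bf_vec]
        simpa using hc
      · rw [Gm_mulVec, bf_vec]
        field_simp
        ring
      · rw [Gm_mulVec, bf_vec]
        intro h
        apply ht
        field_simp at h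
        linear_combination -h
  · -- the element with parameter `s`
    have key : ∀ s : F, s ≠ 0 → -2 / s + (2 - t) / c ≠ 0 → Good τ δ (Gm c a b t) := by
      intro s hs hst
      by_cases ha : a = 0
      · have hb : b ≠ 0 := fun h => hab ⟨ha, h⟩
        refine good_i H (Gm_mem hc _ _ _) (vec 1 (s * b) 0 0) (vec (-1 / c) 0 (-1) (1 / (s * b))) ?_ ?_ ?_ ?_
        · rw [bf_vec]; field_simp; ring
        · rw [Gm_mulVec, bf_vec, ha]
          simpa using hc
        · rw [Gm_mulVec, bf_vec, ha]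
          field_simp
          ring
        · rw [Gm_mulVec, bf_vec, ha]
          refine ne_of_eq_of_ne (b := -2 / s + (2 - t) / c) ?_ hst
          field_simp
          ring
      · refine good_i H (Gm_mem hc _ _ _) (vec 1 (s * b) 0 (-(s * a))) (vec (-1 / c) (1 / (s * a)) (-1) 0) ?_ ?_ ?_ ?_
        · rw [bf_vec]; field_simp; ring
        · rw [Gm_mulVec, bf_vec]
          intro h
          apply hc
          linear_combination h
        · rw [Gm_mulVec, bf_vec]
          field_simp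
          ring
        · rw [Gm_mulVec, bf_vec]
          refine ne_of_eq_of_ne (b := -2 / s + (2 - t) / c) ?_ hst
          field_simp
          ring
    by_cases h2 : (2 : F) = 0
    · by_cases ht : t = 0
      · obtain ⟨m, hm0, hm1⟩ := hF h2
        have hm2 : 1 + m ≠ 0 := by
          intro h
          apply hm1
          linear_combination h - h2
        have hval : (m ^ 2 + 2 * m + 2) / (c * (1 + m) ^ 2) ≠ 0 := by
          refine div_ne_zero ?_ (mul_ne_zero hc (pow_ne_zero 2 hm2))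
          intro h
          have h3 : m * m = 0 := by
            linear_combination h - (m + 1) * h2
          exact hm0 (mul_self_eq_zero.1 h3)
        by_cases ha : a = 0
        · have hb : b ≠ 0 := fun h => hab ⟨ha, h⟩
          refine good_i H (Gm_mem hc _ _ _) (vec 1 0 0 (m / b)) (vec (-1 / (c * (1 + m))) (-b / m) (-1) (a / m)) ?_ ?_ ?_ ?_
          · rw [bf_vec]; field_simp; ring
          · rw [Gm_mulVec, bf_vec]
            refine ne_of_eq_of_ne (b := c * (1 + m)) ?_ (mul_ne_zero hc hm2)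
            field_simp
            ring
          · rw [Gm_mulVec, bf_vec]
            field_simp
            ring
          · rw [Gm_mulVec, bf_vec, ht]
            refine ne_of_eq_of_ne ?_ hval
            field_simp
            ring
        · refine good_i H (Gm_mem hc _ _ _) (vec 1 (m / a) 0 0) (vec (-1 / (c * (1 + m))) (-b / m) (-1) (a / m)) ?_ ?_ ?_ ?_
          · rw [bf_vec]; field_simp; ring
          · rw [Gm_mulVec, bf_vec]
            refine ne_of_eq_of_ne (b := c * (1 + m)) ?_ (mul_ne_zero hc hm2)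
            field_simp
            ring
          · rw [Gm_mulVec, bf_vec]
            field_simp
            ring
          · rw [Gm_mulVec, bf_vec, ht]
            refine ne_of_eq_of_ne ?_ hval
            field_simp
            ring
      · apply key 1 one_ne_zero
        intro h
        field_simp at h
        apply ht
        linear_combination -h + (1 - c) * h2
    · by_cases h4 : -2 / 1 + (2 - t) / c = 0
      · apply key (-1) (neg_ne_zero.2 one_ne_zero)
        intro h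
        have : (2 : F) * 2 = 0 := by
          linear_combination h - h4
        exact h2 (mul_self_eq_zero.1 this)
      · exact key 1 one_ne_zero h4

end Cfsg.Agent.H147.Four
end

-- part: H147/FourD
section
/-!
# `Sp₄(q)`: the reduction to the four-parameter family (helper147)
-/

set_option autoImplicit false

namespace Cfsg.Agent.H147.Four

open Matrix Polynomial Cfsg.Agent.H147

variable {F : Type*} [Field F] {τ δ : F}

theorem bf_add_left (u u' v : Fin 2 ⊕ Fin 2 → F) : bf (u + u') v = bf u v + bf u' v := by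
  simp [bf]; ring

theorem bf_smul_left (a : F) (u v : Fin 2 ⊕ Fin 2 → F) : bf (a • u) v = a * bf u v := by
  simp [bf]; ring

theorem bf_add_right (u v v' : Fin 2 ⊕ Fin 2 → F) : bf u (v + v') = bf u v + bf u v' := by
  simp [bf]; ring

theorem bf_smul_right (a : F) (u v : Fin 2 ⊕ Fin 2 → F) : bf u (a • v) = a * bf u v := by
  simp [bf]; ring

/-- a hyperbolic pair is completed to a symplectic basis -/
theorem exists_pair (v f : Fin 2 ⊕ Fin 2 → F) (h : bf v f = -1) :
    ∃ w w' : Fin 2 ⊕ Fin 2 → F, bf v w = 0 ∧ bf v w' = 0 ∧ bf f w = 0 ∧ bf f w' = 0 ∧ bf w w' = -1 := by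
  have hf : bf f v = 1 := by rw [bf_swap, h, neg_neg]
  -- the projection
  let pr : (Fin 2 ⊕ Fin 2 → F) → (Fin 2 ⊕ Fin 2 → F) := fun x => x + bf v x • f + (-bf f x) • v
  have h1 : ∀ x, bf v (pr x) = 0 := by
    intro x
    simp only [pr, bf_add_right, bf_smul_right, h, bf_self]
    ring
  have h2 : ∀ x, bf f (pr x) = 0 := by
    intro x
    simp only [pr, bf_add_right, bf_smul_right, hf, bf_self]
    ring
  obtain ⟨x, y, hxy⟩ : ∃ x y, bf (pr x) (pr y) ≠ 0 := by
    by_contra hcon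
    push Not at hcon
    have key : ∀ x y, bf x y = bf f y * bf x v - bf v y * bf x f := by
      intro x y
      have := hcon x y
      have e1 : bf (pr x) (pr y) = bf x y + bf v y * bf x f - bf f y * bf x v := by
        have h3 : bf (pr x) (pr y) = bf x (pr y) + bf v x * bf f (pr y) + (-bf f x) * bf v (pr y) := by
          simp only [pr, bf_add_left, bf_smul_left]
        rw [h3, h1, h2]
        simp only [pr, bf_add_right, bf_smul_right]
        ring
      rw [e1] at this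
      linear_combination this
    have k01 := key (vec 1 0 0 0) (vec 0 1 0 0)
    have k02 := key (vec 1 0 0 0) (vec 0 0 1 0)
    have k03 := key (vec 1 0 0 0) (vec 0 0 0 1)
    have k12 := key (vec 0 1 0 0) (vec 0 0 1 0)
    have k13 := key (vec 0 1 0 0) (vec 0 0 0 1)
    have k23 := key (vec 0 0 1 0) (vec 0 0 0 1)
    simp [bf, vec] at k01 k02 k03 k12 k13 k23
    have hp : ∀ a b c d a' b' c' d' : F, (a * b' - b * a') * (c * d' - d * c') - (a * c' - c * a') * (b * d' - d * b') +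
      (a * d' - d * a') * (b * c' - c * b') = 0 := by intros; ring
    have := hp (v (.inl 0)) (v (.inl 1)) (v (.inr 0)) (v (.inr 1)) (f (.inl 0)) (f (.inl 1)) (f (.inr 0)) (f (.inr 1))
    apply one_ne_zero (α := F)
    have c1 : v (.inl 0) * f (.inr 0) - v (.inr 0) * f (.inl 0) = 1 := by linear_combination k02
    have c2 : v (.inl 1) * f (.inr 1) - v (.inr 1) * f (.inl 1) = 1 := by linear_combination k13
    have c3 : v (.inr 0) * f (.inr 1) - v (.inr 1) * f (.inr 0) = 0 := by linear_combination k01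
    have c4 : v (.inl 1) * f (.inr 0) - v (.inr 0) * f (.inl 1) = 0 := by linear_combination k03
    rw [c1, c2, c3, c4] at this
    linear_combination -this
  refine ⟨pr x, (-(bf (pr x) (pr y))⁻¹) • pr y, h1 x, ?_, h2 x, ?_, ?_⟩
  · rw [bf_smul_right, h1, mul_zero]
  · rw [bf_smul_right, h2, mul_zero]
  · rw [bf_smul_right]
    field_simp

/-- the case of a vector `v` with `B(v, g v) ≠ 0` -/
theorem good_of_ne [Finite F] (H : Hyp τ δ) (hF : (2 : F) = 0 → ∃ m : F, m ≠ 0 ∧ m ≠ 1) {g : M4 F} (hg : g ∈ Sp F)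
    (v : Fin 2 ⊕ Fin 2 → F) (hv : bf v (g *ᵥ v) ≠ 0) : Good τ δ g ∨ Good τ δ (-g) := by
  by_cases hw : ∃ w, bf v w = 0 ∧ bf (g *ᵥ v) w = 0 ∧ bf w (g *ᵥ w) ≠ 0
  · obtain ⟨w, h1, h2, h3⟩ := hw
    left
    exact good_i H hg v w h1 hv (by rw [bf_swap, h2, neg_zero]) h3
  push Not at hw
  obtain ⟨c, hc⟩ : ∃ c, c = bf v (g *ᵥ v) := ⟨_, rfl⟩
  rw [← hc] at hv
  obtain ⟨f, hf⟩ : ∃ f, f = (-c⁻¹) • (g *ᵥ v) := ⟨_, rfl⟩
  have hgv : g *ᵥ v = (-c) • f := by
    rw [hf, smul_smul, neg_mul_neg, mul_inv_cancel₀ hv, one_smul]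
  have hvf : bf v f = -1 := by
    rw [hf, bf_smul_right, ← hc, neg_mul, inv_mul_cancel₀ hv]
  have hfv : bf f v = 1 := by rw [bf_swap, hvf, neg_neg]
  obtain ⟨w, w', h1, h2, h3, h4, h5⟩ := exists_pair v f hvf
  have hwv : bf w v = 0 := by rw [bf_swap, h1, neg_zero]
  have hw'v : bf w' v = 0 := by rw [bf_swap, h2, neg_zero]
  have hwf : bf w f = 0 := by rw [bf_swap, h3, neg_zero]
  have hw'f : bf w' f = 0 := by rw [bf_swap, h4, neg_zero]
  have hw'w : bf w' w = 1 := by rw [bf_swap, h5, neg_neg]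
  have hgJ : gᵀ * J (Fin 2) F * g = J (Fin 2) F := SymplecticGroup.mem_iff'.1 hg
  -- the matrix `P`
  obtain ⟨P, hPd⟩ : ∃ P, P = fromCols (cols v w) (cols f w') := ⟨_, rfl⟩
  have hP : P ∈ Sp F := by
    have e1 := cols_form₂ v w v w (1 : M4 F)
    have e2 := cols_form₂ v w f w' (1 : M4 F)
    have e3 := cols_form₂ f w' v w (1 : M4 F)
    have e4 := cols_form₂ f w' f w' (1 : M4 F)
    simp only [Matrix.mul_one, Matrix.one_mulVec, bf_self, hvf, hfv, h1, h2, h3, h4, h5, hwv, hw'v, hwf, hw'f, hw'w]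
      at e1 e2 e3 e4
    rw [SymplecticGroup.mem_iff', hPd, transpose_fromCols, fromRows_mul, fromRows_mul_fromCols, e1, e2, e3, e4, J,
      fromBlocks_inj]
    refine ⟨?_, ?_, ?_, ?_⟩ <;>
    · ext i j
      fin_cases i <;> fin_cases j <;> simp
  -- the entries of `P⁻¹ g P`
  have hG : P⁻¹ * g * P = fromBlocks
      !![bf f (g *ᵥ v), bf f (g *ᵥ w); bf w' (g *ᵥ v), bf w' (g *ᵥ w)]
      !![bf f (g *ᵥ f), bf f (g *ᵥ w'); bf w' (g *ᵥ f), bf w' (g *ᵥ w')]
      !![-bf v (g *ᵥ v), -bf v (g *ᵥ w); -bf w (g *ᵥ v), -bf w (g *ᵥ w)]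
      !![-bf v (g *ᵥ f), -bf v (g *ᵥ w'); -bf w (g *ᵥ f), -bf w (g *ᵥ w')] := by
    have hPi := SymplecticGroup.inv_eq_symplectic_inv _ hP
    have h6 : P⁻¹ * g * P = -(J (Fin 2) F) * (fromRows (cols v w)ᵀ (cols f w')ᵀ * J (Fin 2) F * g *
        fromCols (cols v w) (cols f w')) := by
      rw [hPi, hPd, transpose_fromCols]
      simp only [Matrix.mul_assoc]
    have hJ : -(J (Fin 2) F) = fromBlocks 0 1 (-1) 0 := by
      rw [J, fromBlocks_neg]
      simp
    rw [h6, fromRows_mul, fromRows_mul, fromRows_mul_fromCols, hJ, fromBlocks_multiply, cols_form₂, cols_form₂,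
      cols_form₂, cols_form₂, fromBlocks_inj]
    refine ⟨?_, ?_, ?_, ?_⟩ <;>
    · ext i j
      fin_cases i <;> fin_cases j <;> simp
  have hGm : P⁻¹ * g * P ∈ Sp F := mul_mem (mul_mem (inv_mem hP) hg) hP
  -- values
  have v1 : bf f (g *ᵥ v) = 0 := by rw [hgv, bf_smul_right, bf_self, mul_zero]
  have v2 : bf w' (g *ᵥ v) = 0 := by rw [hgv, bf_smul_right, hw'f, mul_zero]
  have v3 : bf w (g *ᵥ v) = 0 := by rw [hgv, bf_smul_right, hwf, mul_zero]
  have hfg : ∀ x, bf f (g *ᵥ x) = (-c⁻¹) * bf v x := by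
    intro x
    rw [hf, bf_smul_left, bf_invariant hg]
  have v4 : bf f (g *ᵥ w) = 0 := by rw [hfg, h1, mul_zero]
  have v5 : bf f (g *ᵥ w') = 0 := by rw [hfg, h2, mul_zero]
  have v6 : bf f (g *ᵥ f) = 1 / c := by rw [hfg, hvf]; field_simp
  have hW : ∀ x, bf v x = 0 → bf f x = 0 → bf x (g *ᵥ x) = 0 := by
    intro x hx1 hx2
    apply hw x hx1
    rw [hgv, bf_smul_left, hx2, mul_zero]
  have v7 : bf w (g *ᵥ w) = 0 := hW w h1 h3
  have v8 : bf w' (g *ᵥ w') = 0 := hW w' h2 h4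
  have v9 : bf w (g *ᵥ w') = -bf w' (g *ᵥ w) := by
    have := hW (w + w') (by rw [bf_add_right, h1, h2, add_zero]) (by rw [bf_add_right, h3, h4, add_zero])
    rw [Matrix.mulVec_add, bf_add_left, bf_add_right, bf_add_right, v7, v8] at this
    linear_combination this
  obtain ⟨l, hl⟩ : ∃ l, l = bf w' (g *ᵥ w) := ⟨_, rfl⟩
  obtain ⟨r, hr⟩ : ∃ r, r = bf w' (g *ᵥ f) := ⟨_, rfl⟩
  obtain ⟨p, hp⟩ : ∃ p, p = -bf v (g *ᵥ w) := ⟨_, rfl⟩
  obtain ⟨q, hq⟩ : ∃ q, q = -bf v (g *ᵥ w') := ⟨_, rfl⟩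
  obtain ⟨t, ht⟩ : ∃ t, t = -bf v (g *ᵥ f) := ⟨_, rfl⟩
  obtain ⟨s, hs⟩ : ∃ s, s = -bf w (g *ᵥ f) := ⟨_, rfl⟩
  rw [v1, v2, v3, v4, v5, v6, v7, v8, v9, ← hc, ← hl, ← hr, ← hp, ← hq, ← ht, ← hs, neg_neg, neg_zero] at hG
  have hmem := hGm
  rw [hG, SymplecticGroup.fromBlocks_mem_iff] at hmem
  obtain ⟨m1, m2, m3⟩ := hmem
  have n1 := congrFun (congrFun m2 0) 1
  have n2 := congrFun (congrFun m3 1) 0
  have n3 := congrFun (congrFun m3 1) 1
  simp [Matrix.mul_apply, Fin.sum_univ_two] at n1 n2 n3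
  -- `λ² = 1`
  have hq' : q = -(c * l * r) := by
    field_simp at n1
    linear_combination n1
  have hp' : p = c * l * s := by
    field_simp at n2
    linear_combination -n2
  have hl2 : l * l = 1 := n3
  have hfin : Good τ δ (l • (P⁻¹ * g * P)) := by
    have hl0 : l ≠ 0 := left_ne_zero_of_mul_eq_one hl2
    have := good_Gm H hF (mul_ne_zero hl0 hv) (-(l * s)) (l * r) (l * t)
    convert this using 1
    rw [hG, Gm, fromBlocks_smul, fromBlocks_inj]
    refine ⟨?_, ?_, ?_, ?_⟩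
    · ext i j
      fin_cases i <;> fin_cases j <;> simp [hl2]
    · ext i j
      fin_cases i <;> fin_cases j <;> simp
      field_simp
      linear_combination hl2
    · ext i j
      fin_cases i <;> fin_cases j <;> simp
      rw [hp']
      linear_combination (0 : F) * hl2
    · ext i j
      fin_cases i <;> fin_cases j <;> simp [hl2]
      rw [hq']
      ring
  have hl1 : l = 1 ∨ l = -1 := mul_self_eq_one_iff.1 hl2
  have hPu := unit_of_mem hP
  rcases hl1 with rfl | rfl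
  · left
    rw [one_smul] at hfin
    refine hfin.of_conj hP ?_
    rw [← Matrix.mul_assoc, ← Matrix.mul_assoc, mul_nonsing_inv _ hPu, Matrix.one_mul]
  · right
    refine hfin.of_conj hP ?_
    rw [neg_smul, one_smul, mul_neg, ← Matrix.mul_assoc, ← Matrix.mul_assoc, mul_nonsing_inv _ hPu, Matrix.one_mul, neg_mul]

/-- the case of an element with `B(v, g v) = 0` for all `v` -/
theorem good_of_eq [Finite F] (H : Hyp τ δ) {g : M4 F} (hg : g ∈ Sp F)
    (hv : ∀ v : Fin 2 ⊕ Fin 2 → F, bf v (g *ᵥ v) = 0) (h1 : g ≠ 1) (h2 : g ≠ -1) : Good τ δ g := by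
  have hpol : ∀ v w : Fin 2 ⊕ Fin 2 → F, bf w (g *ᵥ v) = -bf v (g *ᵥ w) := by
    intro v w
    have := hv (v + w)
    rw [Matrix.mulVec_add, bf_add_left, bf_add_right, bf_add_right, hv, hv] at this
    linear_combination this
  by_cases hw : ∃ v w, bf v w = 0 ∧ bf v (g *ᵥ w) ≠ 0
  · obtain ⟨v, w, h3, h4⟩ := hw
    exact good_ii H hg v w h3 (hv v) (hpol v w) (hv w) h4
  exfalso
  push Not at hw
  -- `g` is a scalar matrix
  have a01 := hw (vec 1 0 0 0) (vec 1 0 0 0) (by simp [bf, vec])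
  have a02 := hw (vec 1 0 0 0) (vec 0 1 0 0) (by simp [bf, vec])
  have a03 := hw (vec 1 0 0 0) (vec 0 0 0 1) (by simp [bf, vec])
  have b01 := hw (vec 0 1 0 0) (vec 0 1 0 0) (by simp [bf, vec])
  have b02 := hw (vec 0 1 0 0) (vec 1 0 0 0) (by simp [bf, vec])
  have b03 := hw (vec 0 1 0 0) (vec 0 0 1 0) (by simp [bf, vec])
  have c01 := hw (vec 0 0 1 0) (vec 0 1 0 0) (by simp [bf, vec])
  have c02 := hw (vec 0 0 1 0) (vec 0 0 1 0) (by simp [bf, vec])
  have c03 := hw (vec 0 0 1 0) (vec 0 0 0 1) (by simp [bf, vec])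
  have d01 := hw (vec 0 0 0 1) (vec 1 0 0 0) (by simp [bf, vec])
  have d02 := hw (vec 0 0 0 1) (vec 0 0 1 0) (by simp [bf, vec])
  have d03 := hw (vec 0 0 0 1) (vec 0 0 0 1) (by simp [bf, vec])
  have e1 := hw (vec 1 1 0 0) (vec 0 0 1 (-1)) (by simp [bf, vec])
  have e2 := hw (vec 1 0 0 1) (vec 0 1 1 0) (by simp [bf, vec])
  have e3 := hw (vec 0 1 1 0) (vec 1 0 0 1) (by simp [bf, vec])
  simp [bf, vec, Matrix.mulVec, dotProduct, Fin.sum_univ_two, Fintype.sum_sum_type] at a01 a02 a03 b01 b02 b03 c01 c02 c03 d01 d02 d03 e1 e2 e3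
  simp [a02, a03, b02, b03, c03, d02] at e1 e2 e3
  have hsc : g = (g (.inl 0) (.inl 0)) • (1 : M4 F) := by
    ext i j
    rcases i with i | i <;> rcases j with j | j <;> fin_cases i <;> fin_cases j <;> simp [*]
    · linear_combination e2 - e1 - e3
    · linear_combination -e1 - e3
    · linear_combination -e3
  obtain ⟨c, hc⟩ : ∃ c, c = g (.inl 0) (.inl 0) := ⟨_, rfl⟩
  rw [← hc] at hsc
  have hgJ : gᵀ * J (Fin 2) F * g = J (Fin 2) F := SymplecticGroup.mem_iff'.1 hg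
  have hc2 : c * c = 1 := by
    have := congrFun (congrFun hgJ (.inr 0)) (.inl 0)
    rw [hsc] at this
    simpa [J] using this
  rcases mul_self_eq_one_iff.1 hc2 with h | h
  · apply h1
    rw [hsc, h, one_smul]
  · apply h2
    rw [hsc, h, neg_smul, one_smul]

/-- **every symplectic matrix `≠ ± 1` is up to sign a product of two conjugates of `X0 τ δ`** -/
theorem good_main [Finite F] (H : Hyp τ δ) (hF : (2 : F) = 0 → ∃ m : F, m ≠ 0 ∧ m ≠ 1) {g : M4 F} (hg : g ∈ Sp F)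
    (h1 : g ≠ 1) (h2 : g ≠ -1) : Good τ δ g ∨ Good τ δ (-g) := by
  by_cases hv : ∀ v : Fin 2 ⊕ Fin 2 → F, bf v (g *ᵥ v) = 0
  · exact Or.inl (good_of_eq H hg hv h1 h2)
  · push Not at hv
    obtain ⟨v, hv⟩ := hv
    exact good_of_ne H hF hg v hv

end Cfsg.Agent.H147.Four
end

-- part: S2460
section
set_option autoImplicit false
open Cfsg

namespace Cfsg.Agent.S2460

open Matrix Polynomial Cfsg.Agent.H147

/-- in characteristic two there is an element different from `0`, `1` -/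
theorem exists_ne {F : Type*} [Field F] [Fintype F] (h3 : 3 ≤ Fintype.card F) : ∃ m : F, m ≠ 0 ∧ m ≠ 1 := by
  classical
  by_contra hcon
  push Not at hcon
  have : (Finset.univ : Finset F) ⊆ {0, 1} := by
    intro x _
    by_cases hx : x = 0
    · simp [hx]
    · simp [hcon x hx]
  have h2 := Finset.card_le_card this
  rw [Finset.card_univ] at h2
  have h4 : ({0, 1} : Finset F).card ≤ 2 := Finset.card_le_two
  omega

/-- the parameters -/
theorem exists_hyp {F : Type*} [Field F] [Fintype F] (h3 : 3 ≤ Fintype.card F) : ∃ τ δ : F, Four.Hyp τ δ := by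
  obtain ⟨t, ht, hirr⟩ := Irr.exists_tau h3
  have key : ∀ c : F, c ≠ 0 → -c ^ 2 ≠ 1 → Four.Hyp (c * t) (-c ^ 2) := by
    intro c hc hc1
    refine ⟨mul_ne_zero hc ht, neg_ne_zero.2 (pow_ne_zero 2 hc), hc1, ?_⟩
    intro a ha
    apply hirr (a / c)
    field_simp
    linear_combination ha
  by_cases h2 : (2 : F) = 0
  · obtain ⟨m, hm0, hm1⟩ := exists_ne h3
    refine ⟨_, _, key m hm0 ?_⟩
    intro h
    apply hm1
    have : (m - 1) * (m - 1) = 0 := by linear_combination -h - m * h2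
    exact sub_eq_zero.1 (mul_self_eq_zero.1 this)
  · refine ⟨_, _, key 1 one_ne_zero ?_⟩
    intro h
    apply h2
    linear_combination -h

theorem X0_mem {F : Type*} [Field F] {τ δ : F} (H : Four.Hyp τ δ) : Four.X0 τ δ ∈ symplecticGroup (Fin 2) F := by
  apply Four.diag_mem
  rw [Two.comp_def, det_fin_two_of]
  simpa using H.d0

/-- the order of `X0 τ δ` divides `q ^ 2 - 1` -/
theorem pow_X0 {F : Type*} [Field F] [Finite F] {τ δ : F} (H : Four.Hyp τ δ) :
    (Four.X0 τ δ) ^ (Nat.card F ^ 2 - 1) = 1 := by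
  have h1 : (aeval (Two.comp τ δ)) (X ^ 2 - C τ * X + C δ : F[X]) = 0 := by
    simp only [map_mul, map_sub, map_add, map_pow, aeval_X, aeval_C]
    ext i j
    fin_cases i <;> fin_cases j <;>
      simp [Two.comp_def, sq, Matrix.mul_apply, Fin.sum_univ_two, Algebra.algebraMap_eq_smul_one] <;> ring
  obtain ⟨r, hr⟩ := Irr.dvd_of_irr τ δ H.irr
  have h3 : (Two.comp τ δ) ^ (Nat.card F) ^ 2 - Two.comp τ δ = 0 := by
    have := congrArg (aeval (Two.comp τ δ)) hr
    rw [map_mul, h1, zero_mul] at this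
    simpa using this
  have hdet : IsUnit (Two.comp τ δ).det := by
    rw [Two.comp_def, det_fin_two_of]
    simpa using H.d0
  have h5 : 1 ≤ Nat.card F ^ 2 := Nat.one_le_pow _ _ Nat.card_pos
  have h6 : (Two.comp τ δ) ^ (Nat.card F ^ 2 - 1) = 1 := by
    have h7 : (Two.comp τ δ) ^ (Nat.card F ^ 2 - 1) * Two.comp τ δ = Two.comp τ δ := by
      rw [← pow_succ, Nat.sub_add_cancel h5]
      exact sub_eq_zero.1 h3
    have h8 := congrArg (fun A : Matrix (Fin 2) (Fin 2) F => A * (Two.comp τ δ)⁻¹) h7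
    rwa [Matrix.mul_assoc, mul_nonsing_inv _ hdet, Matrix.mul_one] at h8
  have h9 : (((Two.comp τ δ)ᵀ)⁻¹) ^ (Nat.card F ^ 2 - 1) = 1 := by
    rw [Matrix.inv_pow', ← Matrix.transpose_pow, h6, transpose_one, inv_one]
  rw [Four.X0, fromBlocks_diagonal_pow, h6, h9, fromBlocks_one]

/-- A form of Thompson's conjecture for the simple groups PSp(4,q), q ≥ 3 (covering the non-identity elements), with a semisimple class: for F a finite field of characteristic p with at least 3 elements there is an element x of PSp(4,F) of order prime to p such that every non-identity element of PSp(4,F) is a product of two conjugates of x. -/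
theorem result {F : Type*} [Field F] [Fintype F] (p : ℕ) [Fact p.Prime] [CharP F p] (h3 : 3 ≤ Fintype.card F) :
    ∃ x : Cfsg.PSp 2 F, ¬ p ∣ orderOf x ∧ ∀ g : Cfsg.PSp 2 F, g ≠ 1 → ∃ u v : Cfsg.PSp 2 F, g = (u * x * u⁻¹) * (v * x * v⁻¹) := by
  obtain ⟨τ, δ, H⟩ := exists_hyp h3
  let A : symplecticGroup (Fin 2) F := ⟨Four.X0 τ δ, X0_mem H⟩
  have hpow : A ^ (Nat.card F ^ 2 - 1) = 1 := by
    apply Subtype.ext
    exact pow_X0 H
  refine ⟨(A : Cfsg.PSp 2 F), ?_, ?_⟩
  · apply Irr.not_dvd_orderOf (F := F) p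
    rw [← QuotientGroup.mk_pow, hpow]
    rfl
  · intro g
    induction g using QuotientGroup.induction_on with
    | H g =>
      intro hg
      have hg1 : (g : Matrix (Fin 2 ⊕ Fin 2) (Fin 2 ⊕ Fin 2) F) ≠ 1 := by
        intro h
        apply hg
        have : g = 1 := Subtype.ext h
        rw [this]
        rfl
      have hg2 : (g : Matrix (Fin 2 ⊕ Fin 2) (Fin 2 ⊕ Fin 2) F) ≠ -1 := by
        intro h
        apply hg
        rw [QuotientGroup.eq_one_iff, Subgroup.mem_center_iff]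
        intro k
        apply Subtype.ext
        change (k : Matrix (Fin 2 ⊕ Fin 2) (Fin 2 ⊕ Fin 2) F) * (g : Matrix (Fin 2 ⊕ Fin 2) (Fin 2 ⊕ Fin 2) F) =
          (g : Matrix (Fin 2 ⊕ Fin 2) (Fin 2 ⊕ Fin 2) F) * (k : Matrix (Fin 2 ⊕ Fin 2) (Fin 2 ⊕ Fin 2) F)
        rw [h]
        simp
      -- the conclusion for a good element
      have key : ∀ k : symplecticGroup (Fin 2) F, Four.Good τ δ (k : Matrix (Fin 2 ⊕ Fin 2) (Fin 2 ⊕ Fin 2) F) →
          ∃ u v : Cfsg.PSp 2 F, (k : Cfsg.PSp 2 F) = (u * (A : Cfsg.PSp 2 F) * u⁻¹) * (v * (A : Cfsg.PSp 2 F) * v⁻¹) := by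
        rintro k ⟨y, z, ⟨P, hP, hyP⟩, ⟨Q, hQ, hzQ⟩, hk⟩
        have hPu := Four.unit_of_mem hP
        have hQu := Four.unit_of_mem hQ
        let P' : symplecticGroup (Fin 2) F := ⟨P, hP⟩
        let Q' : symplecticGroup (Fin 2) F := ⟨Q, hQ⟩
        have hy : y = ((P' * A * P'⁻¹ : symplecticGroup (Fin 2) F) : Matrix (Fin 2 ⊕ Fin 2) (Fin 2 ⊕ Fin 2) F) := by
          have : ((P'⁻¹ : symplecticGroup (Fin 2) F) : Matrix (Fin 2 ⊕ Fin 2) (Fin 2 ⊕ Fin 2) F) = P⁻¹ :=
            SymplecticGroup.coe_inv' P'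
          change y = P * Four.X0 τ δ * ((P'⁻¹ : symplecticGroup (Fin 2) F) : Matrix (Fin 2 ⊕ Fin 2) (Fin 2 ⊕ Fin 2) F)
          rw [this, ← hyP, Matrix.mul_assoc, mul_nonsing_inv _ hPu, Matrix.mul_one]
        have hz : z = ((Q' * A * Q'⁻¹ : symplecticGroup (Fin 2) F) : Matrix (Fin 2 ⊕ Fin 2) (Fin 2 ⊕ Fin 2) F) := by
          have : ((Q'⁻¹ : symplecticGroup (Fin 2) F) : Matrix (Fin 2 ⊕ Fin 2) (Fin 2 ⊕ Fin 2) F) = Q⁻¹ :=
            SymplecticGroup.coe_inv' Q'
          change z = Q * Four.X0 τ δ * ((Q'⁻¹ : symplecticGroup (Fin 2) F) : Matrix (Fin 2 ⊕ Fin 2) (Fin 2 ⊕ Fin 2) F)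
          rw [this, ← hzQ, Matrix.mul_assoc, mul_nonsing_inv _ hQu, Matrix.mul_one]
        refine ⟨(P' : Cfsg.PSp 2 F), (Q' : Cfsg.PSp 2 F), ?_⟩
        have : k = (P' * A * P'⁻¹) * (Q' * A * Q'⁻¹) := by
          apply Subtype.ext
          rw [hk, hy, hz]
          rfl
        rw [this]
        rfl
      rcases Four.good_main H (fun _ => exists_ne h3) g.2 hg1 hg2 with h | h
      · exact key g h
      · let g' : symplecticGroup (Fin 2) F := ⟨-g.1, SymplecticGroup.neg_mem g.2⟩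
        have hgg : ((g : symplecticGroup (Fin 2) F) : Cfsg.PSp 2 F) = (g' : Cfsg.PSp 2 F) := by
          rw [QuotientGroup.eq, Subgroup.mem_center_iff]
          have h1 : (g⁻¹ * g' : symplecticGroup (Fin 2) F) = ⟨-1, SymplecticGroup.neg_mem (one_mem _)⟩ := by
            rw [inv_mul_eq_iff_eq_mul]
            apply Subtype.ext
            change -g.1 = g.1 * (-1)
            simp
          intro k
          rw [h1]
          apply Subtype.ext
          change k.1 * (-1) = (-1) * k.1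
          simp
        rw [hgg]
        exact key g' h

end Cfsg.Agent.S2460
end
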