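import Cfsg.Statements.S2461
import Cfsg.Agent.H148.Large
import Cfsg.Agent.H148.G24B
set_option linter.all false

set_option autoImplicit false
open Cfsg

namespace Cfsg.Agent.S2461

open Cfsg.Agent.H148.Hex Cfsg.Agent.H148.SLTwo Cfsg.Agent.Cit.HexBase Cfsg.Agent.SplitTwo

universe u in
theorem four {F : Type u} [Field F] [Fintype F] [CharP F 2] (h4 : Fintype.card F = 4) :
    ∃ x : Cfsg.Lie.chevG2.group F, ¬ 2 ∣ orderOf x ∧ ∀ g : Cfsg.Lie.chevG2.group F, g ≠ 1 → Pr x g := by
  obtain ⟨w, h0, h1⟩ := exists_ne (F := F) (by omega)
  let c := g2' F ⟨w, h0, h1⟩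
  have : CharP ↥(fx (RingEquiv.refl F)) 2 := charP_fx
  have hw := prim4 h4 h0 h1
  have h20 := two_eq_zero F
  have hs := act_p3_dg c w h0
  have e1 : nrm (RingEquiv.refl F) w / w ^ 2 = w := by
    rw [nrm_of_fix rfl]
    field_simp
  rw [e1] at hs
  have D : Dat c (⟨w, rfl⟩ : ↥(fx (RingEquiv.refl F))) _ w :=
    { irr := by
        intro x hx
        have hx' : x ^ 2 + w * x + 1 = 0 := hx
        by_cases hx0 : x = 0
        · rw [hx0] at hx'
          simp at hx'
        · rcases cases4 h4 h0 h1 hx0 with h | h | h
          · rw [h] at hx'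
            exact h0 (by linear_combination hx' - h20)
          · rw [h] at hx'
            have : (1 : F) = 0 := by linear_combination hx' - w ^ 2 * h20
            exact one_ne_zero this
          · have h5 : w * (x ^ 2 + w * x + 1) = 0 := by rw [hx', mul_zero]
            have h6 : x = 0 := by
              linear_combination h5 - (x + w) * h - h20 * w
            exact hx0 h6
      nrm1 := by
        intro s hs0
        rw [nrm_of_fix rfl]
        have h := FiniteField.pow_card_sub_one_eq_one s hs0
        rw [h4] at h
        exact h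
      act := hs
      ne1 := h1 }
  exact ⟨_, D.odd, fun g _ => main4 D (fun _ => rfl) h4 g⟩

/-- A form of Thompson's conjecture for the simple Chevalley groups G₂(q), q ≥ 3 (covering the non-identity elements), with a semisimple class: for F a finite field of characteristic p with at least 3 elements there is an element x of the Chevalley group of type G₂ over F of order prime to p such that every non-identity element of that group is a product of two conjugates of x. -/
theorem result {F : Type*} [Field F] [Fintype F] (p : ℕ) [Fact p.Prime] [CharP F p] (h3 : 3 ≤ Fintype.card F) :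
    ∃ x : Cfsg.Lie.chevG2.group F, ¬ p ∣ orderOf x ∧ ∀ g : Cfsg.Lie.chevG2.group F, g ≠ 1 → ∃ u v : Cfsg.Lie.chevG2.group F, g = (u * x * u⁻¹) * (v * x * v⁻¹) := by
  by_cases h2 : (2 : F) = 0
  · have hp : p = 2 := by
      have h5 : ((2 : ℕ) : F) = 0 := by exact_mod_cast h2
      have := (CharP.cast_eq_zero_iff F p 2).1 h5
      exact (Nat.prime_dvd_prime_iff_eq Fact.out Nat.prime_two).1 this
    subst hp
    by_cases h4 : Fintype.card F = 4
    · exact four h4
    · refine g2_even ?_
      have := two_dvd_card F
      omega
  · exact g2_odd p h3 h2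

end Cfsg.Agent.S2461
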