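import Cfsg.Agent.H166.Cov.Scal
import Cfsg.Statements.S2483
set_option linter.all false

-- part: H166/Cov/Good
section
/-!
# The target property
-/

set_option autoImplicit false

namespace Cfsg.Agent.H166.Cov

open Module Polynomial

universe u

variable {F : Type u} [Field F] {V W U : Type u} [AddCommGroup V] [Module F V]
  [AddCommGroup W] [Module F W] [AddCommGroup U] [Module F U]

/-- covering in `n` steps, general linear version -/
def GoodG (T : End F V) : Prop :=
  (∀ g : End F V, NS g → LinearMap.det g = LinearMap.det T ^ finrank F V → HP T (finrank F V) g) ∧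
    ∃ z : F, z ≠ 0 ∧ HP T (finrank F V) (z • (1 : End F V))

/-- covering in `n` steps, special linear version -/
def Good (T : End F V) : Prop :=
  (∀ g : End F V, NS g → LinearMap.det g = LinearMap.det T ^ finrank F V → HPS T (finrank F V) g) ∧
    ∃ z : F, z ≠ 0 ∧ HPS T (finrank F V) (z • (1 : End F V))

theorem Good.of_full {T : End F V} (hT : Full T) (h : GoodG T) : Good T :=
  ⟨fun g h1 h2 => hT.hps (h.1 g h1 h2), by
    obtain ⟨z, hz, h3⟩ := h.2
    exact ⟨z, hz, hT.hps h3⟩⟩

theorem conj_smul_one (e : V ≃ₗ[F] W) (z : F) : e.conj (z • (1 : End F V)) = z • (1 : End F W) := by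
  refine LinearMap.ext fun x => ?_
  rw [LinearEquiv.conj_apply]
  simp

theorem GoodG.sim {S : End F V} {T : End F W} (h : Sim S T) (hS : GoodG S) : GoodG T := by
  have hfr := h.finrank
  refine ⟨fun g h1 h2 => ?_, ?_⟩
  · obtain ⟨e, he⟩ := h.symm
    have hgg := Sim.conj g e
    rw [← hfr] at h2 ⊢
    refine ((hS.1 (e.conj g) (hgg.ns h1) ?_).left h).conj hgg.symm
    rw [← hgg.det, h2, h.det]
  · obtain ⟨z, hz, h3⟩ := hS.2
    refine ⟨z, hz, ?_⟩
    rw [← hfr]
    obtain ⟨e, he⟩ := h
    have hgg := Sim.conj (z • (1 : End F V)) e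
    rw [conj_smul_one] at hgg
    exact (h3.left ⟨e, he⟩).conj hgg

theorem SimS.transport {S T : End F V} (h : SimS S T) (e : V ≃ₗ[F] W) : SimS (e.conj S) (e.conj T) := by
  obtain ⟨f, h1, h2⟩ := h
  refine ⟨e.symm.trans (f.trans e), ?_, fun x => ?_⟩
  · have h3 : ((e.symm.trans (f.trans e) : W ≃ₗ[F] W) : W →ₗ[F] W) =
      (e : V →ₗ[F] W) ∘ₗ (f : V →ₗ[F] V) ∘ₗ (e.symm : W →ₗ[F] V) := rfl
    rw [h3, LinearMap.det_conj, h1]
  · simp [LinearEquiv.conj_apply, h2]

theorem HPS.transport {T g : End F V} {k : ℕ} (h : HPS T k g) (e : V ≃ₗ[F] W) :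
    HPS (e.conj T) k (e.conj g) := by
  obtain ⟨L, h1, h2, h3⟩ := h
  refine ⟨L.map fun A => e.conj A, by simpa using h1, ?_, ?_⟩
  · intro A hA
    obtain ⟨B, hB, rfl⟩ := List.mem_map.1 hA
    exact (h2 B hB).transport e
  · rw [prod_map_conj, h3]

theorem Good.sim {S : End F V} {T : End F W} (h : Sim S T) (hS : Good S) : Good T := by
  have hfr := h.finrank
  obtain ⟨e, he⟩ := h
  have hT : e.conj S = T := Sim.eq_conj he
  subst hT
  refine ⟨fun g h1 h2 => ?_, ?_⟩
  · have hgg := Sim.conj g e.symm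
    have h3 := hS.1 (e.symm.conj g) (hgg.ns h1) (by
      rw [← hgg.det, h2, hfr, (Sim.conj S e).det])
    have h4 := h3.transport e
    rw [← hfr]
    have h5 : e.conj (e.symm.conj g) = g := by
      refine LinearMap.ext fun x => ?_
      simp [LinearEquiv.conj_apply]
    rwa [h5] at h4
  · obtain ⟨z, hz, h3⟩ := hS.2
    refine ⟨z, hz, ?_⟩
    rw [← hfr, ← conj_smul_one e]
    exact h3.transport e

theorem dec_sum {L : List F[X]} {m : ℕ} {T : End F (Fin m → F)} (hT : Dec L T) :
    (L.map natDegree).sum = m := Cfsg.Agent.H269.CovDec.dec_sum hT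

theorem list_two {L : List F[X]} (hd : ∀ f ∈ L, 2 ≤ f.natDegree)
    (h : (L.map natDegree).sum ≤ 2 * L.length) : ∀ f ∈ L, f.natDegree = 2 := by
  induction L with
  | nil => simp
  | cons g L ih =>
    rw [List.map_cons, List.sum_cons, List.length_cons] at h
    have h1 := hd g List.mem_cons_self
    have h2 : 2 * L.length ≤ (L.map natDegree).sum := by
      have h3 : ∀ L : List F[X], (∀ f ∈ L, 2 ≤ f.natDegree) → 2 * L.length ≤ (L.map natDegree).sum := by
        intro L hL
        induction L with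
        | nil => simp
        | cons a L ih =>
          rw [List.map_cons, List.sum_cons, List.length_cons]
          have := ih (fun f hf => hL f (List.mem_cons_of_mem _ hf))
          have := hL a List.mem_cons_self
          omega
      exact h3 L fun f hf => hd f (List.mem_cons_of_mem _ hf)
    intro f hf
    rcases List.mem_cons.1 hf with rfl | hf
    · omega
    · exact ih (fun f hf => hd f (List.mem_cons_of_mem _ hf)) (by omega) f hf

theorem coeff_ne_zero_dec {L : List F[X]} {m : ℕ} {T : End F (Fin m → F)} (h : Dec L T)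
    (hT0 : LinearMap.det T ≠ 0) : ∀ f ∈ L, f.coeff 0 ≠ 0 := by
  intro f hf h0
  apply hT0
  obtain ⟨r, hr⟩ := List.dvd_prod hf
  rw [det_eq_charpoly, charpoly_dec h, hr, mul_coeff_zero, h0, zero_mul, mul_zero]

theorem perm_of_mem {L : List F[X]} {f : F[X]} (hf : f ∈ L) : ∃ L', L.Perm (f :: L') :=
  Cfsg.Agent.H269.CovDec.exists_perm_of_mem hf

/-- a monic quadratic polynomial with a root splits -/
theorem quad_split {f : F[X]} (hf : f.Monic) (hd : f.natDegree = 2) {l : F} (hl : f.eval l = 0) :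
    ∃ β : F, f = (X - C l) * (X - C β) := by
  obtain ⟨g, hg⟩ := dvd_iff_isRoot.2 (show f.IsRoot l from hl)
  have hgm : g.Monic := (monic_X_sub_C l).of_mul_monic_left (hg ▸ hf)
  have hgd : g.natDegree = 1 := by
    have h1 := congrArg natDegree hg
    rw [hd, (monic_X_sub_C l).natDegree_mul hgm, natDegree_X_sub_C] at h1
    omega
  refine ⟨-g.coeff 0, ?_⟩
  rw [hg, hgm.eq_X_add_C hgd]
  simp

theorem quad_form {f : F[X]} (hf : f.Monic) (hd : f.natDegree = 2) :
    f = X ^ 2 - C (-f.coeff 1) * X + C (f.coeff 0) := by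
  conv_lhs => rw [hf.as_sum, hd]
  rw [Finset.sum_range_succ, Finset.sum_range_one]
  simp only [pow_zero, mul_one, pow_one, map_neg]
  ring

end Cfsg.Agent.H166.Cov
end

-- part: H166/Cov/FinLin
section
/-!
# The case of a scalar summand
-/

set_option autoImplicit false

namespace Cfsg.Agent.H166.Cov

open Module Polynomial

universe u

variable {F : Type u} [Field F] {V W U : Type u} [AddCommGroup V] [Module F V]
  [AddCommGroup W] [Module F W] [AddCommGroup U] [Module F U]

/-- a scalar plus a two-dimensional Jordan block is a scalar times a transvection -/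
theorem nonscalar_transv [Finite F] (hq : 4 ≤ Nat.card F) [FiniteDimensional F W]
    [FiniteDimensional F U] {T : End F U} {l : F} (hl : l ≠ 0) (hU : finrank F U = 2)
    (hT : NS T) (hc : LinearMap.charpoly T = (X - C l) ^ 2) (hW : 1 ≤ finrank F W) {g : End F (W × U)}
    (hg : NS g)
    (hd : LinearMap.det g = LinearMap.det ((l • (1 : End F W)).prodMap T) ^ finrank F (W × U)) :
    HP ((l • (1 : End F W)).prodMap T) (finrank F (W × U)) g := by
  set N : End F U := T - l • 1 with hN
  have hN2 : ∀ x, N (N x) = 0 := by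
    intro x
    have h1 := LinearMap.aeval_self_charpoly T
    rw [hc, map_pow, map_sub, aeval_X, aeval_C, Algebra.algebraMap_eq_smul_one, ← hN, pow_two] at h1
    exact LinearMap.congr_fun h1 x
  have hN0 : ∃ x, N x ≠ 0 := by
    by_contra h
    push Not at h
    exact hT l (sub_eq_zero.1 (LinearMap.ext h))
  obtain ⟨x₀, hx₀⟩ := hN0
  set z₀ := N x₀ with hz₀
  -- the image is the line of `z₀`
  have hr : ∀ y, ∃ c : F, N y = c • z₀ := by
    have h1 := LinearMap.finrank_range_add_finrank_ker N
    rw [hU] at h1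
    have h2 : 0 < finrank F (LinearMap.ker N) := by
      rw [Module.finrank_pos_iff]
      exact ⟨⟨⟨z₀, LinearMap.mem_ker.2 (hN2 x₀)⟩, 0, fun h => hx₀ (congrArg Subtype.val h)⟩⟩
    have h3 : Submodule.span F {z₀} ≤ LinearMap.range N := by
      rw [Submodule.span_singleton_le_iff_mem]
      exact ⟨x₀, rfl⟩
    have h4 : Submodule.span F {z₀} = LinearMap.range N := by
      refine Submodule.eq_of_le_of_finrank_eq h3 ?_
      have h5 := Submodule.finrank_mono h3
      rw [finrank_span_singleton hx₀] at h5 ⊢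
      omega
    intro y
    have h5 : N y ∈ Submodule.span F {z₀} := by rw [h4]; exact ⟨y, rfl⟩
    obtain ⟨c, hc⟩ := Submodule.mem_span_singleton.1 h5
    exact ⟨c, hc.symm⟩
  obtain ⟨ψ, hψ⟩ : ∃ ψ : U →ₗ[F] F, ψ z₀ = 1 := by
    obtain ⟨ψ, hψ⟩ := Submodule.exists_le_ker_of_notMem (p := (⊥ : Submodule F U)) (v := z₀)
      (by simpa using hx₀)
    exact ⟨(ψ z₀)⁻¹ • ψ, by simp [inv_mul_cancel₀ hψ.1]⟩
  have hNψ : ∀ y, N y = ψ (N y) • z₀ := by
    intro y
    obtain ⟨c, hc⟩ := hr y
    rw [hc, map_smul, hψ, smul_eq_mul, mul_one]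
  let φ : W × U →ₗ[F] F := l⁻¹ • ((ψ ∘ₗ N) ∘ₗ LinearMap.snd F W U)
  have hφ : ∀ x, φ x = l⁻¹ * ψ (N x.2) := fun x => rfl
  set z : W × U := (0, z₀) with hz
  have hT' : (l • (1 : End F W)).prodMap T = l • (1 + φ.smulRight z) := by
    refine LinearMap.ext fun x => Prod.ext ?_ ?_
    · simp [hz]
    · simp only [LinearMap.prodMap_apply, LinearMap.smul_apply, LinearMap.add_apply,
        Module.End.one_apply, LinearMap.smulRight_apply, hφ, Prod.smul_snd, Prod.snd_add, hz, smul_add,
        smul_smul]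
      rw [← mul_assoc, mul_inv_cancel₀ hl, one_mul, ← hNψ, hN, LinearMap.sub_apply]
      simp
  have hfr : finrank F (W × U) = finrank F W + 2 := by rw [finrank_prod, hU]
  set n := finrank F (W × U) with hn
  have hdT : LinearMap.det ((l • (1 : End F W)).prodMap T) = l ^ n := by
    rw [LinearMap.det_prodMap, LinearMap.det_smul, map_one, mul_one, det_eq_charpoly T, hc, hU, hfr,
      pow_add]
    congr 1
    simp [pow_two, mul_coeff_zero]
  have hln : l ^ n ≠ 0 := pow_ne_zero _ hl
  have h1 := transvections hq (V := W × U) (φ := φ) (z := z) (g := (l ^ n)⁻¹ • g) (by omega)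
    (by
      intro h
      have h2 := LinearMap.congr_fun h ((0, x₀) : W × U)
      rw [hφ] at h2
      have h3 : l⁻¹ * ψ z₀ = 0 := h2
      rw [hψ, mul_one] at h3
      exact inv_ne_zero hl h3)
    (by
      intro h
      exact hx₀ (congrArg Prod.snd h)) (by rw [hφ, hz]; simp only; rw [hN2]; simp)
    (hg.smul (inv_ne_zero hln)) (by
      rw [LinearMap.det_smul, hd, hdT, ← hn, inv_pow, inv_mul_cancel₀ (pow_ne_zero _ hln)])
  have h2 := h1.smul l
  rw [← hT', ← hn, smul_smul, mul_inv_cancel₀ hln, one_smul] at h2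
  exact h2

theorem aeval_lin {T : End F U} {l : F} {q : F[X]} (hq : q.eval l = 0) (hT : aeval T q = 0) :
    aeval ((l • (1 : End F W)).prodMap T) q = 0 := by
  refine LinearMap.ext fun x => ?_
  rw [Cfsg.Agent.H269.CovDec.aeval_prodMap, hT]
  have h1 : l • (1 : End F W) = algebraMap F (End F W) l := (Algebra.algebraMap_eq_smul_one l).symm
  rw [h1, aeval_algebraMap_apply, coe_aeval_eq_eval, hq]
  simp

theorem HP.scal_sim {S : End F V} {T : End F W} {k : ℕ} {z : F} (h : HP S k (z • (1 : End F V)))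
    (hs : Sim S T) : HP T k (z • (1 : End F W)) := by
  obtain ⟨e, he⟩ := id hs
  have h7 := Sim.conj (z • (1 : End F V)) e
  rw [conj_smul_one] at h7
  exact (h.left hs).conj h7

/-- the three-dimensional base case for `scalar_of_two` -/
theorem base_three [Finite F] (hq : 4 ≤ Nat.card F) {B : End F (Fin 2 → F)} {l : F} (hl : l ≠ 0)
    (hB : Coc B) (hB0 : LinearMap.det B ≠ 0) (hlB : (LinearMap.charpoly B).eval l ≠ 0) :
    HP ((l • (1 : End F (Fin 1 → F))).prodMap B) 3
      ((l * LinearMap.det B) • (1 : End F ((Fin 1 → F) × (Fin 2 → F)))) := by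
  have hc1 : LinearMap.charpoly (l • (1 : End F (Fin 1 → F))) = X - C l := by
    rw [(sim_smul_one (V := Fin 1 → F) (W := F) l (by rw [finrank_fin_fun, finrank_self])).charpoly,
      charpoly_smul_one]
  have hco : IsCoprime (LinearMap.charpoly (l • (1 : End F (Fin 1 → F)))) (LinearMap.charpoly B) := by
    rw [hc1, (irreducible_X_sub_C l).coprime_iff_not_dvd, dvd_iff_isRoot]
    exact hlB
  have hcoc : Coc (l • (1 : End F (Fin 1 → F))) :=
    (coc_smul_one l).sim (sim_smul_one l (by rw [finrank_fin_fun, finrank_self]))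
  have hnice : Nice l ((l • (1 : End F (Fin 1 → F))).prodMap B) := by
    rw [prodMap_eq_up]
    refine Nice.up_left 0 ⟨hcoc, 1, by rw [hc1, mul_one], by simp⟩ hB hco
  have hfr : finrank F ((Fin 1 → F) × (Fin 2 → F)) = 3 := by
    rw [finrank_prod, finrank_fin_fun, finrank_fin_fun]
  have hd : LinearMap.det ((l • (1 : End F (Fin 1 → F))).prodMap B) = l * LinearMap.det B := by
    rw [LinearMap.det_prodMap, LinearMap.det_smul, map_one, mul_one, finrank_fin_fun, pow_one]
  have hd0 : LinearMap.det ((l • (1 : End F (Fin 1 → F))).prodMap B) ≠ 0 := by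
    rw [hd]; exact mul_ne_zero hl hB0
  have hg := hnice.gen hq (by omega) hd0 (μ := 0) hl
  refine scalar_of_ns' (hnice.coc.ns (by omega)) hd0 (k := 2) (fun g h1 h2 => (hg g h1 h2).hp)
    (mul_ne_zero hl hB0) ?_
  rw [hfr, hd]

/-- a scalar summand -/
theorem goodG_lin [Finite F] (hq : 4 ≤ Nat.card F) {l : F} (hl : l ≠ 0) {c : ℕ} (hc : 1 ≤ c)
    {L : List F[X]} (hL : L ≠ []) (hm : ∀ f ∈ L, f.Monic) (hd : ∀ f ∈ L, 2 ≤ f.natDegree)
    (hlr : ∀ f ∈ L, f.eval l = 0)
    (h2 : ∀ f ∈ L, ∀ g ∈ L, f.natDegree = 2 → g.natDegree = 2 → f = g)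
    {m : ℕ} {T : End F (Fin m → F)} (hT : Dec L T) (hT0 : LinearMap.det T ≠ 0) :
    GoodG ((l • (1 : End F (Fin c → F))).prodMap T) := by
  have hle := hT.le hd
  have hLl := List.length_pos_iff.2 hL
  have hns := hT.ns hL hd
  have hfr : finrank F ((Fin c → F) × (Fin m → F)) = c + m := by
    rw [finrank_prod, finrank_fin_fun, finrank_fin_fun]
  have hd0 : LinearMap.det ((l • (1 : End F (Fin c → F))).prodMap T) ≠ 0 := by
    rw [LinearMap.det_prodMap, LinearMap.det_smul, map_one, mul_one]
    exact mul_ne_zero (pow_ne_zero _ hl) hT0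
  have hgl : ∀ k, Gen T k l → Gen ((l • (1 : End F (Fin c → F))).prodMap T) (c + k) l :=
    fun k hk => gen_lin (by rw [finrank_fin_fun]; omega) hns hT0 hl hk c
  have hscal : Gen T (m - 1) l → ∃ z : F, z ≠ 0 ∧ HP ((l • (1 : End F (Fin c → F))).prodMap T)
      (c + m) (z • (1 : End F ((Fin c → F) × (Fin m → F)))) := by
    intro h
    refine ⟨_, hd0, ?_⟩
    have h3 := hgl _ h
    have h4 : c + m = c + (m - 1) + 1 := by omega
    rw [h4]
    refine scalar_of_ns' (hns.prodMap_right _) hd0 (fun g h1 h2 => (h3 g h1 h2).hp) hd0 ?_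
    rw [hfr, h4]
  refine ⟨fun g hg hgd => ?_, ?_⟩
  · rw [hfr] at hgd ⊢
    by_cases hm3 : 3 ≤ m
    · exact (hgl m (hT.gen hq hL hd hT0 hm3 (fun _ => hle) l) g hg hgd).hp
    · obtain rfl : m = 2 := by omega
      obtain ⟨f, rfl⟩ : ∃ f, L = [f] := List.length_eq_one_iff.1 (by omega)
      obtain ⟨h3, h4⟩ := dec_single hT
      have hf2 : f.natDegree = 2 := by rw [← h4, LinearMap.charpoly_natDegree, finrank_fin_fun]
      obtain ⟨β, hβ⟩ := quad_split (hm f (by simp)) hf2 (hlr f (by simp))
      by_cases hβl : β = l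
      · rw [hβl, ← pow_two] at hβ
        rw [← hfr] at hgd ⊢
        exact nonscalar_transv hq hl (finrank_fin_fun F) hns (h4.trans hβ)
          (by rw [finrank_fin_fun]; exact hc) hg hgd
      · have hn : Nice β T := ⟨h3, X - C l, by rw [h4, hβ, mul_comm], by
          rw [eval_sub, eval_X, eval_C]; exact sub_ne_zero.2 hβl⟩
        exact (hgl 2 (hn.gen hq (by rw [finrank_fin_fun]) hT0 hβl) g hg hgd).hp
  · rw [hfr]
    by_cases hcase : m = 2 * L.length
    · -- all blocks are equal quadratics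
      have h3 := list_two hd (by rw [dec_sum hT]; omega)
      obtain ⟨f, L', rfl⟩ := List.exists_cons_of_ne_nil hL
      have hf2 := h3 f (by simp)
      obtain ⟨β, hβ⟩ := quad_split (hm f (by simp)) hf2 (hlr f (by simp))
      have h4 : aeval T f = 0 := aeval_dec hT fun g hg =>
        (h2 f (by simp) g hg hf2 (h3 g hg)) ▸ dvd_rfl
      have h5 : aeval ((l • (1 : End F (Fin c → F))).prodMap T) f = 0 := aeval_lin (hlr f (by simp)) h4
      by_cases hβl : β = l
      · rw [hβ, hβl, ← pow_two] at h5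
        exact ⟨_, pow_ne_zero _ hl, scalar_unip hq hl h5 (by omega)⟩
      · rw [hβ] at h5
        have h6 := scalar_diag2 hd0 (Ne.symm hβl) h5
        rwa [hfr] at h6
    · by_cases hm4 : 4 ≤ m
      · exact hscal (hT.gen hq hL hd hT0 (by omega) (fun _ => by omega) l)
      · obtain rfl : m = 3 := by omega
        obtain ⟨f, rfl⟩ : ∃ f, L = [f] := List.length_eq_one_iff.1 (by omega)
        obtain ⟨h3, h4⟩ := dec_single hT
        have hfm := hm f (by simp)
        have hf3 : f.natDegree = 3 := by rw [← h4, LinearMap.charpoly_natDegree, finrank_fin_fun]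
        obtain ⟨g, hg⟩ := dvd_iff_isRoot.2 (show f.IsRoot l from hlr f (by simp))
        have hgm : g.Monic := (monic_X_sub_C l).of_mul_monic_left (hg ▸ hfm)
        have hgd : g.natDegree = 2 := by
          have h1 := congrArg natDegree hg
          rw [hf3, (monic_X_sub_C l).natDegree_mul hgm, natDegree_X_sub_C] at h1
          omega
        by_cases hgl0 : g.eval l = 0
        · obtain ⟨μ, hμ⟩ := quad_split hgm hgd hgl0
          by_cases hμl : μ = l
          · have h5 : aeval T ((X - C l) ^ 3) = 0 := by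
              have h6 := LinearMap.aeval_self_charpoly T
              rw [h4, hg, hμ, hμl] at h6
              rw [← h6]
              congr 1
              ring
            have h7 := aeval_lin (W := Fin c → F) (l := l) (q := (X - C l) ^ 3) (by simp) h5
            exact ⟨l ^ (c + 3), pow_ne_zero _ hl, scalar_unip (m := 3) hq hl h7 (by omega)⟩
          · have hn : Nice μ T := ⟨h3, (X - C l) * (X - C l), by rw [h4, hg, hμ]; ring, by
              rw [eval_mul, eval_sub, eval_X, eval_C]
              exact mul_ne_zero (sub_ne_zero.2 hμl) (sub_ne_zero.2 hμl)⟩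
            exact hscal (hn.gen hq (by rw [finrank_fin_fun]; omega) hT0 hμl)
        · -- `l` is a simple root
          obtain ⟨B, hB, hBc⟩ := exists_coc (F := F) (V := Fin 2 → F) hgm (by rw [hgd, finrank_fin_fun])
          have hc1 : LinearMap.charpoly (l • (1 : End F (Fin 1 → F))) = X - C l := by
            rw [(sim_smul_one (V := Fin 1 → F) (W := F) l
              (by rw [finrank_fin_fun, finrank_self])).charpoly, charpoly_smul_one]
          have hcoc : Coc (l • (1 : End F (Fin 1 → F))) :=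
            (coc_smul_one l).sim (sim_smul_one l (by rw [finrank_fin_fun, finrank_self]))
          have hco : IsCoprime (LinearMap.charpoly (l • (1 : End F (Fin 1 → F))))
              (LinearMap.charpoly B) := by
            rw [hc1, hBc, (irreducible_X_sub_C l).coprime_iff_not_dvd, dvd_iff_isRoot]
            exact hgl0
          have hTB : Sim T ((l • (1 : End F (Fin 1 → F))).prodMap B) := by
            refine Sim.of_coc h3 ?_ ?_
            · rw [prodMap_eq_up]
              exact Coc.up 0 hcoc hB hco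
            · rw [LinearMap.charpoly_prodMap, hc1, hBc, h4, hg]
          have hB0 : LinearMap.det B ≠ 0 := by
            intro h
            rw [hTB.det, LinearMap.det_prodMap, h, mul_zero] at hT0
            exact hT0 rfl
          have h5 := scalar_of_two (base_three hq hl hB hB0 (by rw [hBc]; exact hgl0)) (c + 1)
          have h6 : Sim ((l • (1 : End F (Fin (c + 1) → F))).prodMap B)
              ((l • (1 : End F (Fin c → F))).prodMap T) := by
            refine Sim.trans ?_ ((Sim.refl _).prodMap hTB.symm)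
            refine Sim.trans ?_ (Sim.prod_assoc _ _ _)
            rw [smul_one_prodMap]
            refine (sim_smul_one l ?_).prodMap (Sim.refl _)
            rw [finrank_prod, finrank_fin_fun, finrank_fin_fun, finrank_fin_fun]
          exact ⟨_, mul_ne_zero (pow_ne_zero _ hl) hB0, h5.scal_sim h6⟩

end Cfsg.Agent.H166.Cov
end

-- part: H166/Cov/FinZero
section
/-!
# No scalar summand, full centralizer
-/

set_option autoImplicit false

namespace Cfsg.Agent.H166.Cov

open Module Polynomial

universe u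

variable {F : Type u} [Field F] {V W U : Type u} [AddCommGroup V] [Module F V]
  [AddCommGroup W] [Module F W] [AddCommGroup U] [Module F U]

theorem full_of_split [Finite F] {L : List F[X]} {m : ℕ} {T : End F (Fin m → F)} (hT : Dec L T)
    {f p r : F[X]} (hf : f ∈ L) (hfm : f.Monic) (hp : Irreducible p) (hpm : p.Monic) (hfp : f = p * r)
    (hco : IsCoprime p r) : Full T := by
  obtain ⟨L', hL'⟩ := perm_of_mem hf
  obtain ⟨m₂, T₁, T₂, h1, h2, h3, h4⟩ := dec_cons (hT.perm hL')
  have hrm : r.Monic := hpm.of_mul_monic_left (hfp ▸ hfm)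
  obtain ⟨P, hP, hPc⟩ := exists_coc (F := F) (V := Fin p.natDegree → F) hpm (by rw [finrank_fin_fun])
  obtain ⟨R, hR, hRc⟩ := exists_coc (F := F) (V := Fin r.natDegree → F) hrm (by rw [finrank_fin_fun])
  have h5 : Sim T₁ (P.prodMap R) := by
    refine Sim.of_coc h1 ?_ ?_
    · rw [prodMap_eq_up]
      exact Coc.up 0 hP hR (by rw [hPc, hRc]; exact hco)
    · rw [LinearMap.charpoly_prodMap, h2, hPc, hRc, hfp]
  have hPF : Full P := Full.of_irreducible (by rw [hPc]; exact hp)
  exact Full.sim h4.symm (Full.prodMap_left T₂ (Full.sim h5.symm (Full.prodMap_left R hPF)))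

theorem scalar_of_gen [FiniteDimensional F V] {T : End F V} (hns : NS T)
    (hd0 : LinearMap.det T ≠ 0) {k : ℕ} {μ : F} (h : Gen T k μ) (hk : finrank F V = k + 1) :
    ∃ z : F, z ≠ 0 ∧ HP T (finrank F V) (z • (1 : End F V)) := by
  refine ⟨_, hd0, ?_⟩
  rw [hk]
  refine scalar_of_ns' hns hd0 (fun g h1 h2 => (h g h1 h2).hp) hd0 ?_
  rw [hk]

/-- the generic case -/
theorem goodG_gen [Finite F] (hq : 4 ≤ Nat.card F) {L : List F[X]} (hL : L ≠ [])
    (hd : ∀ f ∈ L, 2 ≤ f.natDegree) {m : ℕ} (hm3 : 3 ≤ m) {T : End F (Fin m → F)} (hT : Dec L T)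
    (hT0 : LinearMap.det T ≠ 0)
    (hs : (m = 2 * L.length ∨ m = 3) → ∃ z : F, z ≠ 0 ∧ HP T m (z • (1 : End F (Fin m → F)))) :
    GoodG T := by
  have hle := hT.le hd
  refine ⟨fun g hg hgd => ?_, ?_⟩
  · rw [finrank_fin_fun] at hgd ⊢
    exact (hT.gen hq hL hd hT0 hm3 (fun _ => hle) 0 g hg hgd).hp
  · by_cases h : m = 2 * L.length ∨ m = 3
    · rw [finrank_fin_fun]
      exact hs h
    · push Not at h
      have h1 := hT.gen hq hL hd hT0 (k := m - 1) (by omega) (fun _ => by omega) 0
      exact scalar_of_gen (hT.ns hL hd) hT0 h1 (by rw [finrank_fin_fun]; omega)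

theorem exists_ne (a : F) : ∃ b : F, a ≠ b := ⟨a + 1, by simp⟩

/-- a monic polynomial of degree one -/
theorem lin_form {f : F[X]} (hf : f.Monic) (hd : f.natDegree = 1) : ∃ a : F, f = X - C a :=
  ⟨-f.coeff 0, by rw [hf.eq_X_add_C hd]; simp⟩

theorem eval_ne_of_coprime {a : F} {r : F[X]} (h : IsCoprime (X - C a) r) : r.eval a ≠ 0 := by
  intro h0
  obtain ⟨u, v, huv⟩ := h
  have := congrArg (eval a) huv
  rw [eval_add, eval_mul, eval_mul, h0, eval_sub, eval_X, eval_C, sub_self, eval_one] at this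
  simp at this

theorem goodG_zero [Finite F] (hq : 4 ≤ Nat.card F) {L : List F[X]} (hL : L ≠ [])
    (hm : ∀ f ∈ L, f.Monic) (hd : ∀ f ∈ L, 2 ≤ f.natDegree)
    (h2 : ∀ f ∈ L, ∀ g ∈ L, f.natDegree = 2 → g.natDegree = 2 → f = g)
    {m : ℕ} (hm3 : 3 ≤ m) {T : End F (Fin m → F)} (hT : Dec L T) (hT0 : LinearMap.det T ≠ 0)
    {f p r : F[X]} (hf : f ∈ L) (hp : Irreducible p) (hpm : p.Monic) (hfp : f = p * r)
    (hco : IsCoprime p r) : GoodG T := by
  have hfm := hm f hf
  have hrm : r.Monic := hpm.of_mul_monic_left (hfp ▸ hfm)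
  have hns := hT.ns hL hd
  have hpd : 0 < p.natDegree := hp.natDegree_pos
  have hdeg : f.natDegree = p.natDegree + r.natDegree := by rw [hfp, hpm.natDegree_mul hrm]
  refine goodG_gen hq hL hd hm3 hT hT0 fun h => ?_
  by_cases hcase : m = 2 * L.length
  · have h3 := list_two hd (by rw [dec_sum hT]; omega)
    have hf2 := h3 f hf
    have h4 : aeval T f = 0 := aeval_dec hT fun g hg => (h2 f hf g hg hf2 (h3 g hg)) ▸ dvd_rfl
    by_cases hp2 : p.natDegree = 2
    · have hr1 : r = 1 := hrm.natDegree_eq_zero.1 (by omega)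
      rw [hr1, mul_one] at hfp
      have hb := coeff_ne_zero_dec hT hT0 f hf
      have h5 := quad_form hfm hf2
      have h6 := scalar_quad (T := T) (a := -f.coeff 1) (b := f.coeff 0)
        (by rw [← h5, hfp]; exact hp) (by rw [← h5]; exact h4) L.length
      rw [← hcase] at h6
      exact ⟨_, pow_ne_zero _ hb, h6⟩
    · obtain ⟨a, ha⟩ := lin_form hpm (by omega)
      obtain ⟨b, hb⟩ := lin_form hrm (by omega)
      have hab : a ≠ b := by
        rintro rfl
        rw [ha, hb] at hco
        exact eval_ne_of_coprime hco (by simp)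
      rw [hfp, ha, hb] at h4
      have h5 := scalar_diag2 hT0 hab h4
      rwa [finrank_fin_fun] at h5
  · have hm3' : m = 3 := h.resolve_left hcase
    subst hm3'
    have hle := hT.le hd
    have hLl := List.length_pos_iff.2 hL
    obtain ⟨f', rfl⟩ : ∃ f, L = [f] := List.length_eq_one_iff.1 (by omega)
    obtain rfl : f = f' := by simpa using hf
    obtain ⟨h3, h4⟩ := dec_single hT
    have hf3 : f.natDegree = 3 := by rw [← h4, LinearMap.charpoly_natDegree, finrank_fin_fun]
    have hnice : ∀ ν : F, Nice ν T → ∃ z : F, z ≠ 0 ∧ HP T 3 (z • (1 : End F (Fin 3 → F))) := by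
      intro ν hν
      obtain ⟨μ, hμ⟩ := exists_ne ν
      have h5 := scalar_of_gen hns hT0 (hν.gen hq (by rw [finrank_fin_fun]; omega) hT0 hμ)
        (by rw [finrank_fin_fun])
      rwa [finrank_fin_fun] at h5
    by_cases hp3 : p.natDegree = 3
    · have hr1 : r = 1 := hrm.natDegree_eq_zero.1 (by omega)
      rw [hr1, mul_one] at hfp
      have h5 := scalar_of_irreducible (T := T) (by rw [h4, hfp]; exact hp)
      rw [finrank_fin_fun] at h5
      exact ⟨_, hT0, h5⟩
    · by_cases hp1 : p.natDegree = 1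
      · obtain ⟨a, ha⟩ := lin_form hpm hp1
        rw [ha] at hco
        exact hnice a ⟨h3, r, by rw [h4, hfp, ha], eval_ne_of_coprime hco⟩
      · obtain ⟨b, hb⟩ := lin_form hrm (by omega)
        rw [hb] at hco
        exact hnice b ⟨h3, p, by rw [h4, hfp, hb, mul_comm], eval_ne_of_coprime hco.symm⟩

end Cfsg.Agent.H166.Cov
end

-- part: H166/Cov/NFLem
section
/-!
# No scalar summand, centralizer not full: lemmas
-/

set_option autoImplicit false

namespace Cfsg.Agent.H166.Cov

open Module Polynomial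

universe u

variable {F : Type u} [Field F] {V W U : Type u} [AddCommGroup V] [Module F V]
  [AddCommGroup W] [Module F W] [AddCommGroup U] [Module F U]

/-- half of `Good` : nonscalars -/
def GoodN (T : End F V) : Prop :=
  ∀ g : End F V, NS g → LinearMap.det g = LinearMap.det T ^ finrank F V → HPS T (finrank F V) g

/-- half of `Good` : scalars -/
def GoodS (T : End F V) : Prop := ∃ z : F, z ≠ 0 ∧ HPS T (finrank F V) (z • (1 : End F V))

theorem GoodN.sim {S : End F V} {T : End F W} (h : Sim S T) (hS : GoodN S) : GoodN T := by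
  have hfr := h.finrank
  obtain ⟨e, he⟩ := h
  have hT : e.conj S = T := Sim.eq_conj he
  subst hT
  intro g h1 h2
  have hgg := Sim.conj g e.symm
  have h3 := hS (e.symm.conj g) (hgg.ns h1) (by
    rw [← hgg.det, h2, hfr, (Sim.conj S e).det])
  have h4 := h3.transport e
  rw [← hfr]
  have h5 : e.conj (e.symm.conj g) = g := by
    refine LinearMap.ext fun x => ?_
    simp [LinearEquiv.conj_apply]
  rwa [h5] at h4

theorem GoodS.sim {S : End F V} {T : End F W} (h : Sim S T) (hS : GoodS S) : GoodS T := by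
  have hfr := h.finrank
  obtain ⟨e, he⟩ := h
  have hT : e.conj S = T := Sim.eq_conj he
  subst hT
  obtain ⟨z, hz, h3⟩ := hS
  refine ⟨z, hz, ?_⟩
  rw [← hfr, ← conj_smul_one e]
  exact h3.transport e

theorem Sim.up {U' W' : Type u} [AddCommGroup U'] [Module F U'] [AddCommGroup W'] [Module F W']
    {P : End F U} {P' : End F U'} (R : W →ₗ[F] U) {T : End F W} {T' : End F W'} (hP : Sim P P')
    (hT : Sim T T') : ∃ R' : W' →ₗ[F] U', Sim (up P R T) (up P' R' T') := by
  obtain ⟨e, he⟩ := hP
  obtain ⟨f, hf⟩ := hT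
  refine ⟨(e : U →ₗ[F] U') ∘ₗ R ∘ₗ (f.symm : W' →ₗ[F] W), e.prodCongr f, fun x => ?_⟩
  rw [up_apply, up_apply]
  refine Prod.ext ?_ (hf _)
  change e (P x.1 + R x.2) = P' (e x.1) + e (R (f.symm (f x.2)))
  rw [map_add, he, LinearEquiv.symm_apply_apply]

theorem up_prodMap (P : End F U) (R : W →ₗ[F] U) (T : End F W) (S : End F V) :
    Sim ((up P R T).prodMap S) (up P (R ∘ₗ LinearMap.fst F W V) (T.prodMap S)) :=
  ⟨LinearEquiv.prodAssoc F U W V, fun _ => rfl⟩

/-- splitting off the left part of a cyclic block -/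
theorem block_lift {f p r : F[X]} (hpm : p.Monic) (hrm : r.Monic) (hf : f = p * r) {L : List F[X]}
    {m : ℕ} {T : End F (Fin m → F)} (hT : Dec (f :: L) T) :
    ∃ (m' : ℕ) (P : End F (Fin p.natDegree → F)) (R : (Fin m' → F) →ₗ[F] (Fin p.natDegree → F))
      (T' : End F (Fin m' → F)), m = p.natDegree + m' ∧ Sim T (up P R T') ∧ Coc P ∧
        LinearMap.charpoly P = p ∧ Dec (r :: L) T' := by
  obtain ⟨m₂, T₁, T₂, h1, h2, h3, h4⟩ := dec_cons hT
  obtain ⟨P, R, S, g1, g2, g3, g4, g5⟩ := exists_up h1 hpm hrm (by rw [h2, hf])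
  have h5 := h4.trans ((g1.prodMap (Sim.refl T₂)).trans (up_prodMap P R S T₂))
  have hfr : finrank F ((Fin r.natDegree → F) × (Fin m₂ → F)) = r.natDegree + m₂ := by
    rw [finrank_prod, finrank_fin_fun, finrank_fin_fun]
  let e : ((Fin r.natDegree → F) × (Fin m₂ → F)) ≃ₗ[F] (Fin (r.natDegree + m₂) → F) :=
    LinearEquiv.ofFinrankEq _ _ (by rw [hfr, finrank_fin_fun])
  have h6 := Sim.conj (S.prodMap T₂) e
  obtain ⟨R', h7⟩ := Sim.up (R ∘ₗ LinearMap.fst F _ _) (Sim.refl P) h6
  have h8 := h5.trans h7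
  refine ⟨r.natDegree + m₂, P, R', _, ?_, h8, g2, g3, ?_⟩
  · have h9 := h8.finrank
    rw [finrank_prod, finrank_fin_fun, finrank_fin_fun, finrank_fin_fun] at h9
    exact h9
  · exact ⟨r.natDegree, m₂, S, T₂, g4, g5, h3, h6.symm⟩

theorem finrank_prod_sub (p : Submodule F V) (q : Submodule F W) [FiniteDimensional F V]
    [FiniteDimensional F W] : finrank F (p.prod q) = finrank F p + finrank F q := by
  let e : (p.prod q) ≃ₗ[F] (p × q) :=
    { toFun := fun x => (⟨x.1.1, x.2.1⟩, ⟨x.1.2, x.2.2⟩)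
      map_add' := fun _ _ => rfl
      map_smul' := fun _ _ => rfl
      invFun := fun x => ⟨(x.1, x.2), x.1.2, x.2.2⟩
      left_inv := fun _ => rfl
      right_inv := fun _ => rfl }
  rw [e.finrank_eq, finrank_prod]

theorem Sim.finrank_ker {S : End F V} {T : End F W} (h : Sim S T) (l : F) :
    Module.finrank F (LinearMap.ker (S - l • (1 : End F V))) =
      Module.finrank F (LinearMap.ker (T - l • (1 : End F W))) := by
  obtain ⟨e, he⟩ := h
  have h1 : (LinearMap.ker (S - l • (1 : End F V))).map (e : V →ₗ[F] W) =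
      LinearMap.ker (T - l • (1 : End F W)) := by
    ext y
    constructor
    · rintro ⟨x, hx, rfl⟩
      have h2 : S x = l • x := by
        have := LinearMap.mem_ker.1 hx
        rw [LinearMap.sub_apply, sub_eq_zero] at this
        simpa using this
      rw [LinearMap.mem_ker, LinearMap.sub_apply, sub_eq_zero]
      change T (e x) = l • e x
      rw [← he, h2, map_smul]
    · intro hy
      have h2 : T y = l • y := by
        have := LinearMap.mem_ker.1 hy
        rw [LinearMap.sub_apply, sub_eq_zero] at this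
        simpa using this
      refine ⟨e.symm y, ?_, e.apply_symm_apply y⟩
      rw [SetLike.mem_coe, LinearMap.mem_ker, LinearMap.sub_apply, sub_eq_zero]
      change S (e.symm y) = l • e.symm y
      apply e.injective
      rw [he, e.apply_symm_apply, h2, map_smul, e.apply_symm_apply]
  rw [← h1]
  exact (LinearEquiv.finrank_map_eq e _).symm

theorem ker_dec {l : F} {L : List F[X]} : ∀ {m : ℕ} {T : End F (Fin m → F)}, Dec L T →
    (∀ f ∈ L, f = (X - C l) ^ 2) →
    finrank F (LinearMap.ker (T - l • (1 : End F (Fin m → F)))) = L.length := by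
  induction L with
  | nil =>
    intro m T h _
    obtain rfl : m = 0 := h
    rw [List.length_nil]
    have h1 := Submodule.finrank_le (LinearMap.ker (T - l • (1 : End F (Fin 0 → F))))
    rw [finrank_fin_fun] at h1
    omega
  | cons f L ih =>
    intro m T h hd
    obtain ⟨m₂, T₁, T₂, h1, h2, h3, h4⟩ := dec_cons h
    have hf := hd f List.mem_cons_self
    have hfd : f.natDegree = 2 := by
      rw [hf, (monic_X_sub_C l).natDegree_pow, natDegree_X_sub_C, mul_one]
    rw [h4.finrank_ker]
    have h5 : T₁.prodMap T₂ - l • (1 : End F ((Fin f.natDegree → F) × (Fin m₂ → F))) =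
        (T₁ - l • 1).prodMap (T₂ - l • 1) := by
      refine LinearMap.ext fun x => Prod.ext ?_ ?_ <;> simp
    have h6 := ih h3 fun g hg => hd g (List.mem_cons_of_mem _ hg)
    rw [h5, LinearMap.ker_prodMap, finrank_prod_sub, h6, List.length_cons, add_comm]
    congr 1
    have hfr : finrank F (Fin f.natDegree → F) = 2 := by rw [finrank_fin_fun, hfd]
    have hns := h1.ns (by rw [hfr])
    have hle := Submodule.finrank_le (LinearMap.ker (T₁ - l • (1 : End F (Fin f.natDegree → F))))
    rw [hfr] at hle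
    have hne2 : finrank F (LinearMap.ker (T₁ - l • (1 : End F (Fin f.natDegree → F)))) ≠ 2 := by
      intro h7
      have h8 := Submodule.eq_top_of_finrank_eq (S := LinearMap.ker (T₁ - l • (1 : End F (Fin f.natDegree → F))))
        (by rw [h7, hfr])
      exact hns l (sub_eq_zero.1 (LinearMap.ker_eq_top.1 h8))
    have hne0 : finrank F (LinearMap.ker (T₁ - l • (1 : End F (Fin f.natDegree → F)))) ≠ 0 := by
      intro h7
      have h8 : LinearMap.ker (T₁ - l • (1 : End F (Fin f.natDegree → F))) = ⊥ :=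
        Submodule.finrank_eq_zero.1 h7
      have h9 := LinearMap.ker_eq_bot.1 h8
      have h10 := LinearMap.aeval_self_charpoly T₁
      rw [h2.trans hf, map_pow, map_sub, aeval_X, aeval_C, Algebra.algebraMap_eq_smul_one, pow_two] at h10
      apply hns l
      refine sub_eq_zero.1 (LinearMap.ext fun x => h9 ?_)
      have h11 := LinearMap.congr_fun h10 x
      rw [Module.End.mul_apply] at h11
      rw [h11]
      simp
    omega

end Cfsg.Agent.H166.Cov
end

-- part: H166/Cov/NF
section
/-!
# No scalar summand, centralizer not full: the cases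
-/

set_option autoImplicit false

namespace Cfsg.Agent.H166.Cov

open Module Polynomial

universe u

variable {F : Type u} [Field F] {V W U : Type u} [AddCommGroup V] [Module F V]
  [AddCommGroup W] [Module F W] [AddCommGroup U] [Module F U]

theorem nf1_n [FiniteDimensional F W] (hW : 2 ≤ finrank F W) {T : End F W} (hT : NS T) {l : F}
    (hl : l ≠ 0) (hT0 : LinearMap.det T ≠ 0) (h : Gen T (finrank F W) l) (R : W →ₗ[F] F) :
    GoodN (up (l • (1 : End F F)) R T) := by
  intro g hg hd
  have hfr : finrank F (F × W) = finrank F W + 1 := by rw [finrank_prod, finrank_self, add_comm]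
  rw [hfr] at hd ⊢
  exact (peel hW hT hl hT0 h R hg hd).hps

theorem NS.up_right (P : End F U) (R : W →ₗ[F] U) {T : End F W} (hT : NS T) : NS (up P R T) := by
  intro c hc
  apply hT c
  refine LinearMap.ext fun y => ?_
  have h1 := congrArg Prod.snd (LinearMap.congr_fun hc (0, y))
  rw [up_apply] at h1
  simpa using h1

theorem nf1_s [FiniteDimensional F W] (hW : 2 ≤ finrank F W) {T : End F W} (hT : NS T) {l : F}
    (hl : l ≠ 0) (hT0 : LinearMap.det T ≠ 0) {k : ℕ} (hk : finrank F W = k + 1) (h : Gen T k l)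
    (R : W →ₗ[F] F) : GoodS (up (l • (1 : End F F)) R T) := by
  have hfr : finrank F (F × W) = k + 1 + 1 := by rw [finrank_prod, finrank_self, add_comm, hk]
  have hd0 : LinearMap.det (up (l • (1 : End F F)) R T) ≠ 0 := by
    rw [det_up, det_smul_one]
    exact mul_ne_zero hl hT0
  refine ⟨_, hd0, ?_⟩
  rw [hfr]
  exact scalar_of_ns (hT.up_right _ _) hd0 (fun g hg hd => (peel hW hT hl hT0 h R hg hd).hps) hd0
    (by rw [hfr])

/-- a pair of coprime cyclic elements, one of them nice -/
def PairOK [FiniteDimensional F U] [FiniteDimensional F W] (P : End F U) (T : End F W) (a : ℕ) : Prop :=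
  ∃ (ν : F) (A : End F U) (B : End F W), Coc A ∧ Coc B ∧
    IsCoprime (LinearMap.charpoly A) (LinearMap.charpoly B) ∧ (Nice ν A ∨ Nice ν B) ∧ HP P a A ∧ HP T a B

theorem PairOK.sns [FiniteDimensional F U] [FiniteDimensional F W] {P : End F U} {T : End F W} {a : ℕ}
    (h : PairOK P T a) (hP : Full P) (R : W →ₗ[F] U) : SNS (up P R T) a := by
  obtain ⟨ν, A, B, h1, h2, h3, h4, h5, h6⟩ := h
  obtain ⟨R', h7⟩ := plift hP R h5 h6
  refine ⟨ν, _, ?_, h7⟩
  rcases h4 with h4 | h4
  · exact h4.up_left R' h2 h3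
  · exact h4.up_right R' h1 h3

theorem pair_add [Finite F] (hq : 4 ≤ Nat.card F) [FiniteDimensional F V] [FiniteDimensional F W]
    (hn : 2 ≤ finrank F V) (hm : 2 ≤ finrank F W) {T : End F V} {S : End F W} (hT : Coc T)
    (hT0 : LinearMap.det T ≠ 0) (hS : NS S) (hS0 : LinearMap.det S ≠ 0) {a : ℕ} (ha : 2 ≤ a)
    (h : SN S a) : PairOK T S (a + 1) := by
  obtain ⟨X, h1, h2, h3⟩ := exists_rootless_end (V := V) hn (δ := LinearMap.det T ^ (a + 1))
    (pow_ne_zero _ hT0)
  obtain ⟨ν, M, h1', h2', h3', h4'⟩ := exists_nice_end (V := W) hq hm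
    (δ := LinearMap.det S ^ (a + 1)) (pow_ne_zero _ hS0) 0
  exact ⟨ν, X, M, h1, h2'.coc, (h4' _ h3).symm, Or.inr h2',
    (hT.gen hq hn hT0 (by omega) 0 X (h1.ns hn) h2).hp, h.all hq hm hS hS0 h2' h3'⟩

theorem pair_two [Finite F] (hq : 4 ≤ Nat.card F) [FiniteDimensional F V] [FiniteDimensional F W]
    (hn : 2 ≤ finrank F V) (hm : 2 ≤ finrank F W) {T : End F V} {S : End F W} (hT : Coc T)
    (hT0 : LinearMap.det T ≠ 0) (hS : Coc S) (hS0 : LinearMap.det S ≠ 0) : PairOK T S 2 := by
  by_cases h : finrank F V = 2 ∧ finrank F W = 2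
  · obtain ⟨X, h1, h2, h3⟩ := exists_rootless_end (V := V) hn (δ := LinearMap.det T ^ 2)
      (pow_ne_zero _ hT0)
    obtain ⟨ν, M, h1', h2', h3', h4'⟩ := exists_nice_end (V := W) hq hm
      (δ := LinearMap.det S ^ 2) (pow_ne_zero _ hS0) 0
    exact ⟨ν, X, M, h1, h2'.coc, (h4' _ h3).symm, Or.inr h2',
      elliptic h.1 h3 (hT.ns hn) h2, hS.hp_nice hq hm hS0 le_rfl h2' h3'⟩
  · obtain ⟨ν₁, ν₂, p₁, p₂, hν, h1, h2, h3, h4, h1', h2', h3', h4', h5⟩ := exists_pair hq hn hm h
      (pow_ne_zero 2 hT0) (pow_ne_zero 2 hS0)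
    obtain ⟨M, hM, hMc⟩ := exists_coc (F := F) (V := V) (f := (X - C ν₁) * p₁)
      ((monic_X_sub_C ν₁).mul h1)
      (by rw [(monic_X_sub_C ν₁).natDegree_mul h1, natDegree_X_sub_C, h2]; omega)
    obtain ⟨M', hM', hMc'⟩ := exists_coc (F := F) (V := W) (f := (X - C ν₂) * p₂)
      ((monic_X_sub_C ν₂).mul h1')
      (by rw [(monic_X_sub_C ν₂).natDegree_mul h1', natDegree_X_sub_C, h2']; omega)
    have hN : Nice ν₁ M := ⟨hM, p₁, hMc, h3⟩
    have hN' : Nice ν₂ M' := ⟨hM', p₂, hMc', h3'⟩
    have hd : LinearMap.det M = LinearMap.det T ^ 2 := by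
      rw [det_eq_charpoly, hMc, h4, ← mul_assoc, ← mul_pow]
      simp
    have hd' : LinearMap.det M' = LinearMap.det S ^ 2 := by
      rw [det_eq_charpoly, hMc', h4', ← mul_assoc, ← mul_pow]
      simp
    exact ⟨ν₁, M, M', hM, hM', by rw [hMc, hMc']; exact h5, Or.inl hN,
      hT.hp_nice hq hn hT0 le_rfl hN hd, hS.hp_nice hq hm hS0 le_rfl hN' hd'⟩

theorem SNS.goodN [Finite F] (hq : 4 ≤ Nat.card F) [FiniteDimensional F V] (hn : 2 ≤ finrank F V)
    {T : End F V} (hT : NS T) (hT0 : LinearMap.det T ≠ 0) {a : ℕ} (h : SNS T a)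
    (ha : 2 * a ≤ finrank F V) : GoodN T := fun _ hg hd => h.ns hq hn hT hT0 ha hg hd

theorem SNS.goodS [Finite F] (hq : 4 ≤ Nat.card F) [FiniteDimensional F V] (hn : 2 ≤ finrank F V)
    {T : End F V} (hT : NS T) (hT0 : LinearMap.det T ≠ 0) {a : ℕ} (h : SNS T a)
    (ha : 2 * a + 1 ≤ finrank F V) : GoodS T := by
  obtain ⟨k, hk⟩ : ∃ k, finrank F V = k + 1 := ⟨finrank F V - 1, by omega⟩
  refine ⟨_, hT0, ?_⟩
  rw [hk]
  exact scalar_of_ns hT hT0 (fun g hg hd => h.ns hq hn hT hT0 (by omega) hg hd) hT0 (by rw [hk])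

theorem goodS_four [FiniteDimensional F V] (hV : finrank F V = 4) {T : End F V} (hT : Coc T)
    (hT0 : LinearMap.det T ≠ 0) {q : F[X]} (hq : q.Monic) (hqd : q.natDegree = 2)
    (hc : LinearMap.charpoly T = q ^ 2) : GoodS T := by
  have hb : q.coeff 0 ≠ 0 := by
    intro h
    apply hT0
    rw [det_eq_charpoly, hc, pow_two, mul_coeff_zero, h, zero_mul, mul_zero]
  rw [quad_form hq hqd] at hc
  obtain ⟨T', h1, h2⟩ := sims_real hV hT hb hc
  have h3 : HPS T (1 + 1) (q.coeff 0 • (1 : End F V)) := by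
    rw [← h2]
    exact (HPS.one (SimS.refl T)).mul (HPS.one h1)
  refine ⟨_, mul_ne_zero hb hb, ?_⟩
  rw [hV]
  exact h3.scal_mul h3

theorem good_three [Finite F] (hq : 4 ≤ Nat.card F) [FiniteDimensional F V] (hV : finrank F V = 3)
    {T : End F V} {l : F} (hl : l ≠ 0) (hT : Coc T) (hc : LinearMap.charpoly T = (X - C l) ^ 3) :
    Good T := by
  refine ⟨fun g hg hd => ?_, l ^ 3, pow_ne_zero _ hl, ?_⟩
  · rw [hV] at hd ⊢
    exact hps_three hq hV hl hT hc hg hd
  · rw [hV]
    exact hps_three_scalar hq hV hl hT hc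

/-- all blocks are Jordan blocks of size two -/
theorem good_sq [Finite F] (hq : 4 ≤ Nat.card F) {l : F} (hl : l ≠ 0) {L : List F[X]} {m : ℕ}
    {T : End F (Fin m → F)} (hT : Dec L T) (hT0 : LinearMap.det T ≠ 0) (hL : 2 ≤ L.length) (hLf : ∀ f ∈ L, f = (X - C l) ^ 2) :
    Good T := by
  have hdeg : ∀ f ∈ L, f.natDegree = 2 := fun f hf => by
    rw [hLf f hf, (monic_X_sub_C l).natDegree_pow, natDegree_X_sub_C, mul_one]
  have hm : m = 2 * L.length := by
    rw [← dec_sum hT]
    have h1 : ∀ L : List F[X], (∀ f ∈ L, f.natDegree = 2) → (L.map natDegree).sum = 2 * L.length := by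
      intro L hL
      induction L with
      | nil => simp
      | cons a L ih =>
        rw [List.map_cons, List.sum_cons, List.length_cons, ih fun f hf => hL f (List.mem_cons_of_mem _ hf),
          hL a List.mem_cons_self]
        ring
    exact h1 L hdeg
  have hne : L ≠ [] := by
    rintro rfl
    simp at hL
  have hns := hT.ns hne fun f hf => (hdeg f hf).ge
  set N : End F (Fin m → F) := l⁻¹ • (T - l • 1) with hN
  have hTN : T = l • (1 + N) := by
    rw [hN, smul_add, smul_smul, mul_inv_cancel₀ hl, one_smul, add_sub_cancel]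
  have hNN : N * N = 0 := by
    have h1 : aeval T ((X - C l) ^ 2) = 0 := aeval_dec hT fun f hf => (hLf f hf) ▸ dvd_rfl
    rw [map_pow, map_sub, aeval_X, aeval_C, Algebra.algebraMap_eq_smul_one, pow_two] at h1
    rw [hN, smul_mul_smul_comm, h1, smul_zero]
  have hr : finrank F (LinearMap.range N) = L.length := by
    have h1 := ker_dec hT hLf
    have h2 : LinearMap.ker N = LinearMap.ker (T - l • (1 : End F (Fin m → F))) := by
      ext x
      rw [hN, LinearMap.mem_ker, LinearMap.mem_ker, LinearMap.smul_apply, smul_eq_zero]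
      exact ⟨fun h => h.resolve_left (inv_ne_zero hl), Or.inr⟩
    have h3 := LinearMap.finrank_range_add_finrank_ker N
    rw [h2, h1, finrank_fin_fun] at h3
    omega
  have hV : finrank F (Fin m → F) = 2 * L.length := by rw [finrank_fin_fun, hm]
  obtain ⟨M, ν, h1, h2⟩ := exists_nice_sq_zero hq hL hV hNN hr hl
  rw [← hTN] at h2
  have hS : SNS T 2 := ⟨ν, M, h1, h2⟩
  refine ⟨hS.goodN hq (by omega) hns hT0 (by omega), ?_⟩
  by_cases h4 : L.length = 2
  · have h5 := sims_sq_zero (by rw [hV, h4]) hNN (by rw [hr, h4]) l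
    rw [← hTN] at h5
    have h6 : HPS T (1 + 1) ((l * l) • (1 : End F (Fin m → F))) := by
      have h7 : T * (l • (1 - N)) = (l * l) • (1 : End F (Fin m → F)) := by
        conv_lhs => rw [hTN]
        rw [smul_mul_smul_comm, mul_sub, mul_one, add_mul, one_mul, hNN, add_zero, add_sub_cancel_right]
      rw [← h7]
      exact (HPS.one (SimS.refl T)).mul (HPS.one h5)
    refine ⟨_, mul_ne_zero (mul_ne_zero hl hl) (mul_ne_zero hl hl), ?_⟩
    rw [hV, h4]
    exact h6.scal_mul h6
  · exact hS.goodS hq (by omega) hns hT0 (by omega)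

/-- every irreducible factor occurs at least twice -/
def SQ (f : F[X]) : Prop := ∀ p r : F[X], Irreducible p → p.Monic → f = p * r → p ∣ r

theorem monic_dvd_eq {p q : F[X]} (hp : Irreducible p) (hq : Irreducible q) (hpm : p.Monic)
    (hqm : q.Monic) (h : p ∣ q) : p = q :=
  eq_of_monic_of_associated hpm hqm (hp.associated_of_dvd hq h)

theorem sq_four {f : F[X]} (hf : f.Monic) (hd : f.natDegree = 4) (hS : SQ f) :
    ∃ q : F[X], q.Monic ∧ q.natDegree = 2 ∧ f = q ^ 2 := by
  obtain ⟨p, hpm, hp, r, hr⟩ := exists_monic_irreducible_factor f (fun h => by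
    have := natDegree_eq_zero_of_isUnit h
    omega)
  obtain ⟨s, hs⟩ := hS p r hp hpm hr
  have hrm : r.Monic := hpm.of_mul_monic_left (hr ▸ hf)
  have hsm : s.Monic := hpm.of_mul_monic_left (hs ▸ hrm)
  have hd1 : f.natDegree = p.natDegree + (p.natDegree + s.natDegree) := by
    rw [hr, hs, hpm.natDegree_mul (hpm.mul hsm), hpm.natDegree_mul hsm]
  have hpd := hp.natDegree_pos
  by_cases hp2 : p.natDegree = 2
  · have hs1 : s = 1 := hsm.natDegree_eq_zero.1 (by omega)
    exact ⟨p, hpm, hp2, by rw [hr, hs, hs1, mul_one, pow_two]⟩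
  · obtain ⟨p', hpm', hp', t, ht⟩ := exists_monic_irreducible_factor s (fun h => by
      have := natDegree_eq_zero_of_isUnit h
      omega)
    have htm : t.Monic := hpm'.of_mul_monic_left (ht ▸ hsm)
    have hd2 : s.natDegree = p'.natDegree + t.natDegree := by rw [ht, hpm'.natDegree_mul htm]
    have hpd' := hp'.natDegree_pos
    have h1 := hS p' (p * p * t) hp' hpm' (by rw [hr, hs, ht]; ring)
    by_cases hpp : p' = p
    · subst hpp
      have htd : t.natDegree = 1 := by omega
      have hti : Irreducible t := irreducible_of_degree_eq_one (by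
        rw [degree_eq_natDegree htm.ne_zero, htd]; rfl)
      have h2 := hS t (p' * p' * p') hti htm (by rw [hr, hs, ht]; ring)
      have h3 : t ∣ p' := by
        rcases hti.prime.dvd_or_dvd h2 with h | h
        · exact (hti.prime.dvd_or_dvd h).elim id id
        · exact h
      have h4 := monic_dvd_eq hti hp' htm hpm' h3
      exact ⟨p' * p', hpm'.mul hpm', by rw [hpm'.natDegree_mul hpm']; omega, by rw [hr, hs, ht, h4]; ring⟩
    · have h3 : p' ∣ t := by
        rcases hp'.prime.dvd_or_dvd h1 with h | h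
        · exact absurd (monic_dvd_eq hp' hp hpm' hpm ((hp'.prime.dvd_or_dvd h).elim id id)) hpp
        · exact h
      obtain ⟨t', ht'⟩ := h3
      have htm' : t'.Monic := hpm'.of_mul_monic_left (ht' ▸ htm)
      have hd3 : t.natDegree = p'.natDegree + t'.natDegree := by rw [ht', hpm'.natDegree_mul htm']
      have ht1 : t' = 1 := htm'.natDegree_eq_zero.1 (by omega)
      exact ⟨p * p', hpm.mul hpm', by rw [hpm.natDegree_mul hpm']; omega, by
        rw [hr, hs, ht, ht', ht1]; ring⟩

end Cfsg.Agent.H166.Cov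
end

-- part: H166/Cov/Main
section
/-!
# Main theorem: products of `n` conjugates
-/

set_option autoImplicit false

namespace Cfsg.Agent.H166.Cov

open Module Polynomial

universe u

variable {F : Type u} [Field F] {V W U : Type u} [AddCommGroup V] [Module F V]
  [AddCommGroup W] [Module F W] [AddCommGroup U] [Module F U]

theorem Good.of_halves {T : End F V} (h : GoodN T) (h' : GoodS T) : Good T := ⟨h, h'⟩

theorem full_of_odd {L : List F[X]} {m : ℕ} {T : End F (Fin m → F)} (hT : Dec L T)
    (hd : ∀ f ∈ L, 2 ≤ f.natDegree) (hL : 2 ≤ L.length) (hm : m = 2 * L.length + 1) : Full T := by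
  obtain ⟨f, hf, hf2⟩ : ∃ f ∈ L, f.natDegree = 2 := by
    by_contra hcon
    push Not at hcon
    have h1 : ∀ L : List F[X], (∀ f ∈ L, 3 ≤ f.natDegree) → 3 * L.length ≤ (L.map natDegree).sum := by
      intro L hL
      induction L with
      | nil => simp
      | cons a L ih =>
        rw [List.map_cons, List.sum_cons, List.length_cons]
        have := ih (fun f hf => hL f (List.mem_cons_of_mem _ hf))
        have := hL a List.mem_cons_self
        omega
    have h2 := h1 L fun f hf => by
      have := hd f hf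
      have := hcon f hf
      omega
    rw [dec_sum hT] at h2
    omega
  obtain ⟨L', hL'⟩ := perm_of_mem hf
  obtain ⟨m₂, T₁, T₂, h1, h2, h3, h4⟩ := dec_cons (hT.perm hL')
  have h5 := h4.finrank
  rw [finrank_prod, finrank_fin_fun, finrank_fin_fun, finrank_fin_fun] at h5
  refine Full.sim h4.symm (Full.of_coprime_finrank T₁ T₂ ?_)
  rw [finrank_fin_fun, finrank_fin_fun, hf2, Nat.coprime_two_left, Nat.odd_iff]
  omega

/-- a block of dimension at least three with an eigenvalue -/
theorem good_nf1 [Finite F] (hq : 4 ≤ Nat.card F) {f : F[X]} {L : List F[X]}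
    (hm : ∀ g ∈ f :: L, g.Monic) (hd : ∀ g ∈ f :: L, 2 ≤ g.natDegree) (hS : SQ f)
    (hf3 : 3 ≤ f.natDegree) {l : F} (hfl : f.eval l = 0) {m : ℕ} {T : End F (Fin m → F)}
    (hT : Dec (f :: L) T) (hT0 : LinearMap.det T ≠ 0) : Good T := by
  have hfm := hm f (by simp)
  have hlm := monic_X_sub_C l
  have hli := irreducible_X_sub_C l
  obtain ⟨r, hr⟩ := dvd_iff_isRoot.2 (show f.IsRoot l from hfl)
  have hlr := hS _ r hli hlm hr
  have hrm : r.Monic := hlm.of_mul_monic_left (hr ▸ hfm)
  have hrd : f.natDegree = 1 + r.natDegree := by rw [hr, hlm.natDegree_mul hrm, natDegree_X_sub_C]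
  have hl0 : l ≠ 0 := by
    rintro rfl
    apply coeff_ne_zero_dec hT hT0 f (by simp)
    rw [coeff_zero_eq_eval_zero, hfl]
  obtain ⟨m', P, R, T', h1, h2, h3, h4, h5⟩ := block_lift hlm hrm hr hT
  rw [natDegree_X_sub_C] at h1
  have hP := eq_smul_one_of_charpoly h4
  obtain ⟨R', h6⟩ := Sim.up (P := P) (P' := l • (1 : End F F)) R (by
    rw [hP]
    exact sim_smul_one l (by rw [finrank_fin_fun, natDegree_X_sub_C, finrank_self])) (Sim.refl T')
  have h7 := h2.trans h6
  have hd' : ∀ g ∈ r :: L, 2 ≤ g.natDegree := by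
    intro g hg
    rcases List.mem_cons.1 hg with rfl | hg
    · omega
    · exact hd g (List.mem_cons_of_mem _ hg)
  have hne : r :: L ≠ [] := by simp
  have hns := h5.ns hne hd'
  have hle := h5.le hd'
  rw [List.length_cons] at hle
  have hT'0 : LinearMap.det T' ≠ 0 := by
    intro h
    rw [h7.det, det_up, h, mul_zero] at hT0
    exact hT0 rfl
  have hfr : finrank F (Fin m' → F) = m' := finrank_fin_fun F
  by_cases hm3 : m' = 2
  · -- dimension three
    have hL0 : L = [] := List.length_eq_zero_iff.1 (by omega)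
    subst hL0
    obtain ⟨g1, g2⟩ := dec_single hT
    obtain ⟨s, hs⟩ := hlr
    have hsm : s.Monic := hlm.of_mul_monic_left (hs ▸ hrm)
    have hrd2 : r.natDegree = 1 + s.natDegree := by rw [hs, hlm.natDegree_mul hsm, natDegree_X_sub_C]
    have hfd : f.natDegree = m := by rw [← g2, LinearMap.charpoly_natDegree, finrank_fin_fun]
    obtain ⟨μ, hμ⟩ := lin_form hsm (by omega)
    have h8 := hS (X - C μ) ((X - C l) * (X - C l)) (irreducible_X_sub_C μ) (monic_X_sub_C μ)
      (by rw [hr, hs, hμ]; ring)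
    have h9 : (X - C μ) ∣ (X - C l) :=
      ((irreducible_X_sub_C μ).prime.dvd_or_dvd h8).elim id id
    have h10 := monic_dvd_eq (irreducible_X_sub_C μ) hli (monic_X_sub_C μ) hlm h9
    exact good_three hq (by rw [finrank_fin_fun]; omega) hl0 g1
      (by rw [g2, hr, hs, hμ, h10]; ring)
  · have hm2 : 3 ≤ m' := by omega
    have hN : GoodN T := (nf1_n (by rw [hfr]; omega) hns hl0 hT'0 (by
      rw [hfr]
      exact h5.gen hq hne hd' hT'0 hm2 (fun _ => by rw [List.length_cons]; omega) l) R').sim h7.symm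
    by_cases hc1 : 4 ≤ m' ∧ 2 * (L.length + 1) + 1 ≤ m'
    · refine Good.of_halves hN ((nf1_s (k := m' - 1) (by rw [hfr]; omega) hns hl0 hT'0
        (by rw [hfr]; omega) ?_ R').sim h7.symm)
      exact h5.gen hq hne hd' hT'0 (by omega) (fun _ => by rw [List.length_cons]; omega) l
    · by_cases hc2 : L = []
      · subst hc2
        obtain ⟨g1, g2⟩ := dec_single hT
        by_cases hm4 : m' = 3
        · have hfd : f.natDegree = m := by rw [← g2, LinearMap.charpoly_natDegree, finrank_fin_fun]
          obtain ⟨q, hqm, hqd, hq2⟩ := sq_four hfm (by omega) hS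
          exact Good.of_halves hN (goodS_four (by rw [finrank_fin_fun]; omega) g1 hT0 hqm hqd
            (by rw [g2, hq2]))
        · refine Good.of_halves hN ((nf1_s (k := m' - 1) (by rw [hfr]; omega) hns hl0 hT'0
            (by rw [hfr]; omega) ?_ R').sim h7.symm)
          exact h5.gen hq hne hd' hT'0 (by omega) (fun h => by simp at h) l
      · have hL1 := List.length_pos_iff.2 hc2
        have hm5 : m = 2 * (f :: L).length + 1 := by rw [List.length_cons]; omega
        refine Good.of_full (full_of_odd hT hd (by rw [List.length_cons]; omega) hm5) ?_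
        refine goodG_gen hq (by simp) hd (by rw [List.length_cons] at hm5; omega) hT hT0 fun h => ?_
        rw [List.length_cons] at hm5 h
        omega

/-- no eigenvalues at all -/
theorem good_nf2 [Finite F] (hq : 4 ≤ Nat.card F) {f : F[X]} {L : List F[X]}
    (hm : ∀ g ∈ f :: L, g.Monic) (hd : ∀ g ∈ f :: L, 2 ≤ g.natDegree) (hS : ∀ g ∈ f :: L, SQ g)
    (hr : ∀ g ∈ f :: L, ∀ l : F, g.eval l ≠ 0) {m : ℕ} {T : End F (Fin m → F)}
    (hT : Dec (f :: L) T) (hT0 : LinearMap.det T ≠ 0) : Good T := by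
  have hfac : ∀ g ∈ f :: L, ∃ p r : F[X], p.Monic ∧ Irreducible p ∧ r.Monic ∧ g = p * r ∧
      2 ≤ p.natDegree ∧ p.natDegree ≤ r.natDegree ∧ g.natDegree = p.natDegree + r.natDegree := by
    intro g hg
    obtain ⟨p, hpm, hp, r, h1⟩ := exists_monic_irreducible_factor g (fun h => by
      have := natDegree_eq_zero_of_isUnit h
      have := hd g hg
      omega)
    have hrm : r.Monic := hpm.of_mul_monic_left (h1 ▸ hm g hg)
    refine ⟨p, r, hpm, hp, hrm, h1, ?_, natDegree_le_of_dvd (hS g hg p r hp hpm h1) hrm.ne_zero,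
      by rw [h1, hpm.natDegree_mul hrm]⟩
    by_contra hcon
    have h2 := hp.natDegree_pos
    obtain ⟨a, ha⟩ := lin_form hpm (by omega)
    apply hr g hg a
    rw [h1, ha]
    simp
  have hd4 : ∀ g ∈ f :: L, 4 ≤ g.natDegree := by
    intro g hg
    obtain ⟨p, r, -, -, -, -, h1, h2, h3⟩ := hfac g hg
    omega
  have hm4 : 4 * (L.length + 1) ≤ m := by
    have h1 : ∀ L : List F[X], (∀ f ∈ L, 4 ≤ f.natDegree) → 4 * L.length ≤ (L.map natDegree).sum := by
      intro L hL
      induction L with
      | nil => simp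
      | cons a L ih =>
        rw [List.map_cons, List.sum_cons, List.length_cons]
        have := ih (fun f hf => hL f (List.mem_cons_of_mem _ hf))
        have := hL a List.mem_cons_self
        omega
    have h2 := h1 _ hd4
    rw [dec_sum hT, List.length_cons] at h2
    exact h2
  obtain ⟨p, r, hpm, hp, hrm, hfpr, hpd, hpr, hfd⟩ := hfac f (by simp)
  obtain ⟨m', P, R, T', h1, h2, h3, h4, h5⟩ := block_lift hpm hrm hfpr hT
  have hd' : ∀ g ∈ r :: L, 2 ≤ g.natDegree := by
    intro g hg
    rcases List.mem_cons.1 hg with rfl | hg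
    · omega
    · exact hd g (List.mem_cons_of_mem _ hg)
  have hne : r :: L ≠ [] := by simp
  have hns := h5.ns hne hd'
  have hle := h5.le hd'
  rw [List.length_cons] at hle
  have hdd := h2.det
  rw [det_up] at hdd
  rw [hdd] at hT0
  have hT'0 := right_ne_zero_of_mul hT0
  have hP0 := left_ne_zero_of_mul hT0
  have hPF : Full P := Full.of_irreducible (by rw [h4]; exact hp)
  have hfr : finrank F ((Fin p.natDegree → F) × (Fin m' → F)) = m := by
    rw [finrank_prod, finrank_fin_fun, finrank_fin_fun, h1]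
  have hup0 : LinearMap.det (up P R T') ≠ 0 := by rw [det_up]; exact hT0
  have hpfr : 2 ≤ finrank F (Fin p.natDegree → F) := by rw [finrank_fin_fun]; exact hpd
  have hm'fr : 2 ≤ finrank F (Fin m' → F) := by rw [finrank_fin_fun]; omega
  by_cases hL : L = []
  · subst hL
    obtain ⟨g1, g2⟩ := dec_single h5
    have h6 := (pair_two hq hpfr hm'fr h3 hP0 g1 hT'0).sns hPF R
    rw [List.length_nil] at hm4
    have hN := (h6.goodN hq (by rw [hfr]; omega) (hns.up_right P R) hup0 (by rw [hfr]; omega)).sim h2.symm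
    by_cases hm5 : m = 4
    · obtain ⟨g3, g4⟩ := dec_single hT
      have hfd' : f.natDegree = m := by rw [← g4, LinearMap.charpoly_natDegree, finrank_fin_fun]
      obtain ⟨q, hqm, hqd, hq2⟩ := sq_four (hm f (by simp)) (by omega) (hS f (by simp))
      exact Good.of_halves hN (goodS_four (by rw [finrank_fin_fun]; omega) g3 (by rw [hdd]; exact hT0)
        hqm hqd (by rw [g4, hq2]))
    · exact Good.of_halves hN ((h6.goodS hq (by rw [hfr]; omega) (hns.up_right P R) hup0
        (by rw [hfr]; omega)).sim h2.symm)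
  · have hL1 := List.length_pos_iff.2 hL
    have h6 := (pair_add hq hpfr hm'fr h3 hP0 hns hT'0 (a := L.length + 1) (by omega)
      (h5.sn hq hne hd' hT'0 (by omega) (by rw [List.length_cons]))).sns hPF R
    exact Good.of_halves
      ((h6.goodN hq (by rw [hfr]; omega) (hns.up_right P R) hup0 (by rw [hfr]; omega)).sim h2.symm)
      ((h6.goodS hq (by rw [hfr]; omega) (hns.up_right P R) hup0 (by rw [hfr]; omega)).sim h2.symm)

theorem good_nf [Finite F] (hq : 4 ≤ Nat.card F) {L : List F[X]} (hL : L ≠ [])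
    (hm : ∀ f ∈ L, f.Monic) (hd : ∀ f ∈ L, 2 ≤ f.natDegree)
    (hpw : L.Pairwise (fun f g => ¬ IsCoprime f g))
    (h2 : ∀ f ∈ L, ∀ g ∈ L, f.natDegree = 2 → g.natDegree = 2 → f = g) (hS : ∀ f ∈ L, SQ f)
    {m : ℕ} (hm3 : 3 ≤ m) {T : End F (Fin m → F)} (hT : Dec L T) (hT0 : LinearMap.det T ≠ 0) :
    Good T := by
  by_cases hroot : ∃ f ∈ L, ∃ l : F, f.eval l = 0
  · by_cases hbig : ∃ f ∈ L, 3 ≤ f.natDegree ∧ ∃ l : F, f.eval l = 0
    · obtain ⟨f, hf, hf3, l, hfl⟩ := hbig
      obtain ⟨L', hL'⟩ := perm_of_mem hf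
      exact good_nf1 hq (fun g hg => hm g (hL'.mem_iff.2 hg)) (fun g hg => hd g (hL'.mem_iff.2 hg))
        (hS f hf) hf3 hfl (hT.perm hL') hT0
    · push Not at hbig
      obtain ⟨f, hf, l, hfl⟩ := hroot
      have hf2 : f.natDegree = 2 := by
        by_contra hne
        exact hbig f hf (by have := hd f hf; omega) l hfl
      obtain ⟨β, hβ⟩ := quad_split (hm f hf) hf2 hfl
      have h3 := hS f hf _ _ (irreducible_X_sub_C l) (monic_X_sub_C l) hβ
      have h4 := monic_dvd_eq (irreducible_X_sub_C l) (irreducible_X_sub_C β) (monic_X_sub_C l)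
        (monic_X_sub_C β) h3
      rw [← h4, ← pow_two] at hβ
      obtain ⟨L', hL'⟩ := perm_of_mem hf
      have hpw' := (hL'.pairwise_iff (fun {x y} h h' => h h'.symm)).1 hpw
      have h5 : ∀ g ∈ L, g = (X - C l) ^ 2 := by
        intro g hg
        rcases List.mem_cons.1 (hL'.mem_iff.1 hg) with rfl | hg'
        · exact hβ
        · have h6 := (List.pairwise_cons.1 hpw').1 g hg'
          have h7 : g.eval l = 0 := by
            by_contra h7
            apply h6
            rw [hβ]
            refine IsCoprime.pow_left ?_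
            rw [(irreducible_X_sub_C l).coprime_iff_not_dvd, dvd_iff_isRoot]
            exact h7
          have h8 : g.natDegree = 2 := by
            by_contra hne
            exact hbig g hg (by have := hd g hg; omega) l h7
          rw [h2 g hg f hf h8 hf2, hβ]
      have hl0 : l ≠ 0 := by
        rintro rfl
        apply coeff_ne_zero_dec hT hT0 f hf
        rw [coeff_zero_eq_eval_zero, hfl]
      have h6 : m = 2 * L.length := by
        have h7 : ∀ L : List F[X], (∀ f ∈ L, f.natDegree = 2) → (L.map natDegree).sum = 2 * L.length := by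
          intro L hL
          induction L with
          | nil => simp
          | cons a L ih =>
            rw [List.map_cons, List.sum_cons, List.length_cons,
              ih fun f hf => hL f (List.mem_cons_of_mem _ hf), hL a List.mem_cons_self]
            ring
        rw [← dec_sum hT]
        exact h7 L fun g hg => by
          rw [h5 g hg, (monic_X_sub_C l).natDegree_pow, natDegree_X_sub_C, mul_one]
      exact good_sq hq hl0 hT hT0 (by omega) h5
  · push Not at hroot
    obtain ⟨f, L, rfl⟩ := List.exists_cons_of_ne_nil hL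
    exact good_nf2 hq hm hd hS hroot hT hT0

theorem good_main [Finite F] (hq : 4 ≤ Nat.card F) {m : ℕ} (hm3 : 3 ≤ m) {T : End F (Fin m → F)}
    (hns : NS T) (hT0 : LinearMap.det T ≠ 0) : Good T := by
  classical
  obtain ⟨L, hT, hL1, hpw, hL2⟩ := exists_dec T
  have hne : L ≠ [] := by
    rintro rfl
    have : m = 0 := hT
    omega
  set L₁ := L.filter (fun f => f.natDegree = 1) with hL₁
  set L₀ := L.filter (fun f => ¬ f.natDegree = 1) with hL₀
  have hperm : L.Perm (L₁ ++ L₀) := by
    have h := List.filter_append_perm (fun f : F[X] => decide (f.natDegree = 1)) L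
    have h1 : L₀ = L.filter (fun x => !decide (x.natDegree = 1)) := by
      rw [hL₀]
      congr 1
      ext f
      simp
    rw [h1]
    exact h.symm
  have hmem₀ : ∀ f ∈ L₀, f ∈ L ∧ f.natDegree ≠ 1 := fun f hf => by
    have := List.mem_filter.1 hf
    exact ⟨this.1, by simpa using this.2⟩
  have hmem₁ : ∀ f ∈ L₁, f ∈ L ∧ f.natDegree = 1 := fun f hf => by
    have := List.mem_filter.1 hf
    exact ⟨this.1, by simpa using this.2⟩
  have hd₀ : ∀ f ∈ L₀, 2 ≤ f.natDegree := fun f hf => by
    obtain ⟨h1, h2⟩ := hmem₀ f hf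
    have := (hL1 f h1).2
    omega
  by_cases hc : L₁ = []
  · -- no scalar summand
    rw [hc, List.nil_append] at hperm
    have hd : ∀ f ∈ L, 2 ≤ f.natDegree := fun f hf => hd₀ f (hperm.mem_iff.1 hf)
    have hmon : ∀ f ∈ L, f.Monic := fun f hf => (hL1 f hf).1
    by_cases hE : ∃ f ∈ L, ∃ p r : F[X], Irreducible p ∧ p.Monic ∧ f = p * r ∧ IsCoprime p r
    · obtain ⟨f, hf, p, r, hp, hpm, hfp, hco⟩ := hE
      exact Good.of_full (full_of_split hT hf (hmon f hf) hp hpm hfp hco)
        (goodG_zero hq hne hmon hd hL2 hm3 hT hT0 hf hp hpm hfp hco)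
    · push Not at hE
      refine good_nf hq hne hmon hd hpw hL2 (fun f hf p r hp hpm hfp => ?_) hm3 hT hT0
      by_contra h
      exact hE f hf p r hp hpm hfp (hp.coprime_iff_not_dvd.2 h)
  · obtain ⟨f₀, L', hL'⟩ := List.exists_cons_of_ne_nil hc
    have hf₀ := hmem₁ f₀ (by rw [hL']; simp)
    obtain ⟨l, hl⟩ := lin_form (hL1 f₀ hf₀.1).1 hf₀.2
    have hpw' := (hperm.pairwise_iff (fun {x y} h h' => h h'.symm)).1 hpw
    rw [hL', List.cons_append, List.pairwise_cons] at hpw'
    have hroot : ∀ g ∈ L' ++ L₀, g.eval l = 0 := by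
      intro g hg
      by_contra h
      apply hpw'.1 g hg
      rw [hl, (irreducible_X_sub_C l).coprime_iff_not_dvd, dvd_iff_isRoot]
      exact h
    have hrep : L₁ = List.replicate L₁.length (X - C l) := by
      rw [List.eq_replicate_iff]
      refine ⟨rfl, fun g hg => ?_⟩
      have hg' := hmem₁ g hg
      obtain ⟨a, ha⟩ := lin_form (hL1 g hg'.1).1 hg'.2
      rw [hL'] at hg
      rcases List.mem_cons.1 hg with rfl | hg
      · exact hl
      · have h1 := hroot g (List.mem_append_left _ hg)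
        rw [ha, eval_sub, eval_X, eval_C, sub_eq_zero] at h1
        rw [ha, h1]
    have hc1 : 1 ≤ L₁.length := List.length_pos_iff.2 hc
    rw [hrep] at hperm
    generalize L₁.length = c at hperm hc1
    obtain ⟨m₀, T₀, h1, h2, h3⟩ := dec_replicate c (hT.perm hperm)
    have hdet := h3.det
    rw [LinearMap.det_prodMap, LinearMap.det_smul, map_one, mul_one, finrank_fin_fun] at hdet
    rw [hdet] at hT0
    have hT₀0 := right_ne_zero_of_mul hT0
    have hl0 : l ≠ 0 := by
      rintro rfl
      exact left_ne_zero_of_mul hT0 (zero_pow (by omega))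
    have hne₀ : L₀ ≠ [] := by
      intro h
      rw [h] at h1
      obtain rfl : m₀ = 0 := h1
      refine hns l ?_
      have h4 := (h3.trans (sim_prod_zero (l • (1 : End F (Fin c → F))) T₀)).symm
      obtain ⟨e, he⟩ := h4
      refine LinearMap.ext fun x => ?_
      obtain ⟨y, rfl⟩ := e.surjective x
      rw [← he]
      simp
    have hfull : Full ((l • (1 : End F (Fin c → F))).prodMap T₀) :=
      Full.prodMap_left T₀ (full_smul_one (by rw [finrank_fin_fun]; omega) l)
    exact (Good.of_full hfull (goodG_lin hq hl0 hc1 hne₀ (fun f hf => (hL1 f (hmem₀ f hf).1).1) hd₀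
      (fun f hf => hroot f (List.mem_append_right _ hf))
      (fun f hf g hg => hL2 f (hmem₀ f hf).1 g (hmem₀ g hg).1) h1 hT₀0)).sim h3.symm

theorem main [Finite F] (hq : 4 ≤ Nat.card F) {n : ℕ} (hn : 3 ≤ n) (T g : End F (Fin n → F))
    (hT : LinearMap.det T = 1) (hns : NS T) (hg : LinearMap.det g = 1) :
    ∃ z : F, z ≠ 0 ∧ HPS T n (z • g) := by
  obtain ⟨h1, z, hz, h2⟩ := good_main hq hn hns (by rw [hT]; exact one_ne_zero)
  rw [finrank_fin_fun] at h1 h2
  by_cases hgs : NS g
  · exact ⟨1, one_ne_zero, by rw [one_smul]; exact h1 g hgs (by rw [hg, hT, one_pow])⟩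
  · unfold NS at hgs
    push Not at hgs
    obtain ⟨c, hc⟩ := hgs
    have hc0 : c ≠ 0 := by
      rintro rfl
      rw [hc, LinearMap.det_smul, zero_pow (by rw [finrank_fin_fun]; omega), zero_mul] at hg
      exact zero_ne_one hg
    exact ⟨z * c⁻¹, mul_ne_zero hz (inv_ne_zero hc0), by
      rw [hc, smul_smul, mul_assoc, inv_mul_cancel₀ hc0, mul_one]; exact h2⟩

end Cfsg.Agent.H166.Cov
end

-- part: S2483
section
set_option autoImplicit false
open Cfsg

namespace Cfsg.Agent.S2483

/-- The covering number of PSL(n,q) is n: let F be a finite field with q ≥ 4 elements and n ≥ 3. For every non-identity element x of PSL(n,F), every element of PSL(n,F) is a product of n conjugates of x; and for some non-identity x, some element is not a product of n − 1 conjugates of x. -/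
theorem result {F : Type*} [Field F] [Fintype F] (h4 : 4 ≤ Fintype.card F) (n : ℕ) (hn : 3 ≤ n) :
    (∀ x : Matrix.ProjectiveSpecialLinearGroup (Fin n) F, x ≠ 1 → ∀ g : Matrix.ProjectiveSpecialLinearGroup (Fin n) F, ∃ f : Fin n → Matrix.ProjectiveSpecialLinearGroup (Fin n) F, g = (List.ofFn fun i => f i * x * (f i)⁻¹).prod) ∧
    (∃ x : Matrix.ProjectiveSpecialLinearGroup (Fin n) F, x ≠ 1 ∧ ∃ g : Matrix.ProjectiveSpecialLinearGroup (Fin n) F, ∀ f : Fin (n - 1) → Matrix.ProjectiveSpecialLinearGroup (Fin n) F, g ≠ (List.ofFn fun i => f i * x * (f i)⁻¹).prod) := by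
  have hq : 4 ≤ Nat.card F := by rwa [Nat.card_eq_fintype_card]
  exact ⟨Cfsg.Agent.H166.Cov.upper_of n hn fun T g hT hns hg =>
    Cfsg.Agent.H166.Cov.main hq hn T g hT hns hg, Cfsg.Agent.H166.Cov.lower n hn⟩

end Cfsg.Agent.S2483
end
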