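import Mathlib
import Cfsg.Statements.S2486
import Cfsg.Agent.ClassicalGeometry.AutPSL.SylowU
import Cfsg.Agent.S0263
import Cfsg.Agent.CharactersDeep.QuatSylow
set_option linter.all false

set_option autoImplicit false
open scoped Pointwise
open Cfsg

namespace Cfsg.Agent.S2486

open Matrix
open Cfsg.Agent.ClassicalGeometry.AutPSL.SylowU

section
variable {n : ℕ}

/-- the group -/
abbrev SS (n : ℕ) : Type := Matrix.SpecialLinearGroup (Fin n) (ZMod 2)

theorem two_cases (a : ZMod 2) : a = 0 ∨ a = 1 := by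
  revert a; decide

theorem transpose_mul' (g h : SS n) : (g * h).transpose = h.transpose * g.transpose :=
  Subtype.ext (Matrix.transpose_mul _ _)

theorem transpose_one' : (1 : SS n).transpose = 1 :=
  Subtype.ext Matrix.transpose_one

theorem transpose_inv' (g : SS n) : (g⁻¹).transpose = (g.transpose)⁻¹ := by
  rw [eq_inv_iff_mul_eq_one, ← transpose_mul', mul_inv_cancel, transpose_one']

/-- lower unitriangular matrices -/
def lower (n : ℕ) : Subgroup (SS n) where
  carrier := {g | g.transpose ∈ upper n (ZMod 2)}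
  mul_mem' {g h} hg hh := by
    rw [Set.mem_ofPred_eq, transpose_mul']
    exact mul_mem hh hg
  one_mem' := by
    rw [Set.mem_ofPred_eq, transpose_one']
    exact one_mem _
  inv_mem' {g} hg := by
    rw [Set.mem_ofPred_eq, transpose_inv']
    exact inv_mem hg

theorem mem_lower {g : SS n} : g ∈ lower n ↔ ∀ i j : Fin n, i ≤ j →
    (g : Matrix (Fin n) (Fin n) (ZMod 2)) i j = if i = j then 1 else 0 := by
  constructor
  · intro h i j hij
    have h1 : (g : Matrix (Fin n) (Fin n) (ZMod 2)) i j = if j = i then 1 else 0 := h j i hij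
    rw [h1]
    simp [eq_comm]
  · intro h i j hij
    have h1 := h j i hij
    change (g : Matrix (Fin n) (Fin n) (ZMod 2)) j i = _
    rw [h1]
    simp [eq_comm]

/-- a matrix which is upper triangular with non-zero diagonal -/
theorem exists_upper {u : Matrix (Fin n) (Fin n) (ZMod 2)} (h0 : ∀ i j, j < i → u i j = 0)
    (h1 : ∀ i, u i i ≠ 0) : ∃ g : SS n, g ∈ upper n (ZMod 2) ∧
      (g : Matrix (Fin n) (Fin n) (ZMod 2)) = u := by
  have hd : ∀ i, u i i = 1 := fun i => (two_cases _).resolve_left (h1 i)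
  have hdet : u.det = 1 := by
    rw [det_of_isUpperTriangular (fun i j hij => h0 i j hij)]
    exact Finset.prod_eq_one fun i _ => hd i
  refine ⟨⟨u, hdet⟩, ?_, rfl⟩
  intro i j hij
  change u i j = _
  by_cases h : i = j
  · subst h
    rw [if_pos rfl, hd]
  · rw [if_neg h]
    exact h0 i j (lt_of_le_of_ne hij (Ne.symm h))

theorem mem_upper_of {g : SS n} (h0 : ∀ i j : Fin n, j < i →
    (g : Matrix (Fin n) (Fin n) (ZMod 2)) i j = 0) : g ∈ upper n (ZMod 2) := by
  have hdet : (g : Matrix (Fin n) (Fin n) (ZMod 2)).det = 1 := g.2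
  rw [det_of_isUpperTriangular (fun i j hij => h0 i j hij)] at hdet
  have h1 : ∀ i, (g : Matrix (Fin n) (Fin n) (ZMod 2)) i i ≠ 0 := by
    intro i hi
    have h3 : ∏ i, (g : Matrix (Fin n) (Fin n) (ZMod 2)) i i = 0 :=
      Finset.prod_eq_zero (Finset.mem_univ i) hi
    rw [h3] at hdet
    exact zero_ne_one hdet
  obtain ⟨g', hg', he⟩ := exists_upper h0 h1
  have : g' = g := Subtype.ext he
  rwa [← this]

theorem mem_lower_of {g : SS n} (h0 : ∀ i j : Fin n, i < j →
    (g : Matrix (Fin n) (Fin n) (ZMod 2)) i j = 0) : g ∈ lower n := by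
  change g.transpose ∈ upper n (ZMod 2)
  apply mem_upper_of
  intro i j hij
  exact h0 j i hij

/-- the transvection `1 + v φ` -/
theorem exists_transvection {v φ : Fin n → ZMod 2} (h : φ ⬝ᵥ v = 0) :
    ∃ g : SS n, (g : Matrix (Fin n) (Fin n) (ZMod 2)) = 1 + vecMulVec v φ := by
  refine ⟨⟨1 + vecMulVec v φ, ?_⟩, rfl⟩
  have := Matrix.det_one_add_replicateCol_mul_replicateRow (ι := Unit) v φ
  rw [h, add_zero] at this
  rw [← this, vecMulVec_eq Unit]

/-- extension by zero -/
def ext0 (P : Fin n → Prop) [DecidablePred P] (w : {k : Fin n // P k} → ZMod 2) : Fin n → ZMod 2 :=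
  fun k => if h : P k then w ⟨k, h⟩ else 0

theorem sum_ext0 (P : Fin n → Prop) [DecidablePred P] (w : {k : Fin n // P k} → ZMod 2)
    (a : Fin n → ZMod 2) : ∑ j, a j * ext0 P w j = ∑ j : {k : Fin n // P k}, a j * w j := by
  have h1 : ∑ j, a j * ext0 P w j = ∑ j ∈ Finset.univ.filter P, a j * ext0 P w j := by
    symm
    apply Finset.sum_subset (Finset.filter_subset _ _)
    intro j _ hj
    have : ¬ P j := fun h => hj (Finset.mem_filter.2 ⟨Finset.mem_univ _, h⟩)
    rw [ext0, dif_neg this, mul_zero]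
  rw [h1, Finset.sum_subtype (Finset.univ.filter P) (p := P) (by simp)]
  refine Finset.sum_congr rfl fun j _ => ?_
  rw [ext0, dif_pos j.2]

theorem mulVec_ext0 (m : Matrix (Fin n) (Fin n) (ZMod 2)) (P : Fin n → Prop) [DecidablePred P]
    (w : {k : Fin n // P k} → ZMod 2) (k : Fin n) :
    (m *ᵥ ext0 P w) k = ∑ j : {k : Fin n // P k}, m k j * w j := sum_ext0 P w (m k)

theorem ext0_vecMul (m : Matrix (Fin n) (Fin n) (ZMod 2)) (P : Fin n → Prop) [DecidablePred P]
    (w : {k : Fin n // P k} → ZMod 2) (k : Fin n) :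
    (ext0 P w ᵥ* m) k = ∑ j : {k : Fin n // P k}, w j * m j k := by
  have h1 := sum_ext0 P w (fun j => m j k)
  have h2 : (ext0 P w ᵥ* m) k = ∑ j, ext0 P w j * m j k := rfl
  rw [h2, Finset.sum_congr rfl fun j _ => mul_comm (ext0 P w j) (m j k), h1]
  exact Finset.sum_congr rfl fun j _ => mul_comm _ _

theorem ext0_ne {P : Fin n → Prop} [DecidablePred P] {w : {k : Fin n // P k} → ZMod 2}
    (hw : w ≠ 0) : ext0 P w ≠ 0 := by
  intro h
  apply hw
  funext k
  have := congrFun h k
  rw [ext0, dif_pos k.2] at this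
  exact this

/-- The first step. -/
theorem no_vec (g : SS n) (hop : ∀ t ∈ upper n (ZMod 2), g⁻¹ * t * g ∈ lower n → t = 1)
    (i : Fin n) (v : Fin n → ZMod 2) (h1 : ∀ k, i ≤ k → v k = 0)
    (h2 : ∀ k, k < i → (((g⁻¹ : SS n) : Matrix (Fin n) (Fin n) (ZMod 2)) *ᵥ v) k = 0) : v = 0 := by
  by_contra hv
  set m : Matrix (Fin n) (Fin n) (ZMod 2) := ((g⁻¹ : SS n) : Matrix (Fin n) (Fin n) (ZMod 2))
    with hm
  let B : Matrix {k : Fin n // k < i} {k : Fin n // k < i} (ZMod 2) :=
    m.submatrix Subtype.val Subtype.val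
  let w : {k : Fin n // k < i} → ZMod 2 := fun k => v k
  have hvw : v = ext0 (fun k => k < i) w := by
    funext k
    rw [ext0]
    split_ifs with h
    · rfl
    · exact h1 k (not_lt.1 h)
  have hw : w ≠ 0 := by
    rintro h
    apply hv
    rw [hvw, h]
    funext k
    rw [ext0]
    split_ifs <;> rfl
  have hBw : B *ᵥ w = 0 := by
    funext k
    have h3 := h2 k k.2
    rw [hvw, mulVec_ext0] at h3
    exact h3
  have hdet : B.det = 0 := exists_mulVec_eq_zero_iff.1 ⟨w, hw, hBw⟩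
  obtain ⟨ψ, hψ, hψB⟩ := exists_vecMul_eq_zero_iff.2 hdet
  set ψ' := ext0 (fun k => k < i) ψ with hψ'
  have hψ0 : ψ' ≠ 0 := ext0_ne hψ
  set φ := ψ' ᵥ* m with hφ
  have hφ1 : ∀ k, k < i → φ k = 0 := by
    intro k hk
    have h3 := congrFun hψB ⟨k, hk⟩
    rw [hφ, hψ', ext0_vecMul]
    exact h3
  have hmg : m * (g : Matrix (Fin n) (Fin n) (ZMod 2)) = 1 := by
    rw [hm, ← Matrix.SpecialLinearGroup.coe_mul, inv_mul_cancel, Matrix.SpecialLinearGroup.coe_one]
  have hφg : φ ᵥ* (g : Matrix (Fin n) (Fin n) (ZMod 2)) = ψ' := by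
    rw [hφ, vecMul_vecMul, hmg, vecMul_one]
  have hφv : φ ⬝ᵥ v = 0 := by
    apply Finset.sum_eq_zero
    intro k _
    by_cases hk : k < i
    · rw [hφ1 k hk, zero_mul]
    · rw [h1 k (not_lt.1 hk), mul_zero]
  obtain ⟨t, ht⟩ := exists_transvection hφv
  have ht1 : t ∈ upper n (ZMod 2) := by
    apply mem_upper_of
    intro k l hkl
    rw [ht, Matrix.add_apply, Matrix.one_apply_ne (ne_of_gt hkl), vecMulVec_apply, zero_add]
    by_cases hk : k < i
    · rw [hφ1 l (hkl.trans hk), mul_zero]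
    · rw [h1 k (not_lt.1 hk), zero_mul]
  have ht2 : g⁻¹ * t * g ∈ lower n := by
    apply mem_lower_of
    intro k l hkl
    rw [Matrix.SpecialLinearGroup.coe_mul, Matrix.SpecialLinearGroup.coe_mul, ht, ← hm, mul_add,
      mul_one, add_mul, hmg, mul_vecMulVec, vecMulVec_mul, hφg, Matrix.add_apply,
      Matrix.one_apply_ne (ne_of_lt hkl), vecMulVec_apply, zero_add]
    by_cases hl : l < i
    · rw [h2 k (hkl.trans hl), zero_mul]
    · rw [hψ', ext0, dif_neg hl, mul_zero]
  have h3 := hop t ht1 ht2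
  have h4 : vecMulVec v φ = 0 := by
    have h5 : (t : Matrix (Fin n) (Fin n) (ZMod 2)) = 1 := by
      rw [h3, Matrix.SpecialLinearGroup.coe_one]
    rw [h5] at ht
    exact left_eq_add.1 ht
  rcases vecMulVec_eq_zero.1 h4 with h5 | h5
  · exact hv h5
  · apply hψ0
    rw [← hφg, h5, zero_vecMul]

/-- The second step. -/
theorem exists_vec (g : SS n) (i : Fin n) : ∃ v : Fin n → ZMod 2, v ≠ 0 ∧ (∀ k, i < k → v k = 0) ∧
    ∀ k, k < i → (((g⁻¹ : SS n) : Matrix (Fin n) (Fin n) (ZMod 2)) *ᵥ v) k = 0 := by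
  set m : Matrix (Fin n) (Fin n) (ZMod 2) := ((g⁻¹ : SS n) : Matrix (Fin n) (Fin n) (ZMod 2))
    with hm
  let B : Matrix {k : Fin n // k < i} {k : Fin n // k ≤ i} (ZMod 2) :=
    m.submatrix Subtype.val Subtype.val
  have hfin : Module.finrank (ZMod 2) ({k : Fin n // k < i} → ZMod 2) <
      Module.finrank (ZMod 2) ({k : Fin n // k ≤ i} → ZMod 2) := by
    rw [Module.finrank_fintype_fun_eq_card, Module.finrank_fintype_fun_eq_card,
      Fintype.card_subtype, Fintype.card_subtype]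
    apply Finset.card_lt_card
    refine ⟨fun k hk => ?_, fun h => ?_⟩
    · rw [Finset.mem_filter] at hk ⊢
      exact ⟨hk.1, hk.2.le⟩
    · have := @h i (Finset.mem_filter.2 ⟨Finset.mem_univ _, le_rfl⟩)
      exact absurd (Finset.mem_filter.1 this).2 (lt_irrefl _)
  have hker := LinearMap.ker_ne_bot_of_finrank_lt (f := B.mulVecLin) hfin
  obtain ⟨w, hw, hw0⟩ := Submodule.exists_mem_ne_zero_of_ne_bot hker
  refine ⟨ext0 (fun k => k ≤ i) w, ext0_ne hw0, ?_, ?_⟩
  · intro k hk
    rw [ext0, dif_neg (not_le.2 hk)]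
  · intro k hk
    have h1 : B *ᵥ w = 0 := hw
    have h2 := congrFun h1 ⟨k, hk⟩
    rw [mulVec_ext0]
    exact h2

/-- The key lemma. -/
theorem key (g : SS n) (hop : ∀ t ∈ upper n (ZMod 2), g⁻¹ * t * g ∈ lower n → t = 1) :
    ∃ u ∈ upper n (ZMod 2), g⁻¹ * u ∈ lower n := by
  choose x hx0 hx1 hx2 using exists_vec g
  obtain ⟨u, hu, hux⟩ := exists_upper (u := Matrix.of fun k i => x i k)
    (fun i j hij => hx1 j i hij) (by
      intro i hi
      apply hx0 i
      apply no_vec g hop i (x i)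
      · intro k hk
        rcases eq_or_lt_of_le hk with h | h
        · rw [← h]; exact hi
        · exact hx1 i k h
      · exact hx2 i)
  refine ⟨u, hu, ?_⟩
  apply mem_lower_of
  intro k i hki
  rw [Matrix.SpecialLinearGroup.coe_mul, hux]
  exact hx2 i k hki

/-- The normaliser of `upper`. -/
theorem normalizer_upper (g : SS n) (hg : ∀ t ∈ upper n (ZMod 2), g⁻¹ * t * g ∈ upper n (ZMod 2)) :
    g ∈ upper n (ZMod 2) := by
  have key : ∀ i : ℕ, ∀ v : Fin n → ZMod 2, (∀ k : Fin n, i ≤ k → v k = 0) →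
      ∀ k : Fin n, i ≤ k → ((g : Matrix (Fin n) (Fin n) (ZMod 2)) *ᵥ v) k = 0 := by
    intro i
    induction i with
    | zero =>
      intro v hv k _
      have : v = 0 := funext fun j => hv j (Nat.zero_le _)
      rw [this, mulVec_zero, Pi.zero_apply]
    | succ i ih =>
      intro v hv k hk
      have hin : i < n := lt_of_lt_of_le (Nat.lt_of_succ_le hk) (Nat.le_of_lt k.2)
      have hik : (⟨i, hin⟩ : Fin n) < k := Nat.lt_of_succ_le hk
      -- the transvection t = 1 + E_{i,k}
      have hperp : (Pi.single k (1 : ZMod 2)) ⬝ᵥ (Pi.single (⟨i, hin⟩ : Fin n) (1 : ZMod 2)) = 0 := by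
        rw [single_dotProduct, one_mul, Pi.single_eq_of_ne (ne_of_gt hik)]
      obtain ⟨t, ht⟩ := exists_transvection hperp
      have htU : t ∈ upper n (ZMod 2) := by
        apply mem_upper_of
        intro a b hab
        rw [ht, Matrix.add_apply, Matrix.one_apply_ne (ne_of_gt hab), vecMulVec_apply, zero_add]
        by_cases ha : a = ⟨i, hin⟩
        · subst ha
          by_cases hb : b = k
          · subst hb
            exact absurd (hab.trans hik) (lt_irrefl _)
          · rw [Pi.single_eq_of_ne hb, mul_zero]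
        · rw [Pi.single_eq_of_ne ha, zero_mul]
      have hs := hg t htU
      set s := g⁻¹ * t * g with hsdef
      have hgs : g * s = t * g := by rw [hsdef]; group
      -- (s - 1) v ∈ V_i
      have h1 : ∀ l : Fin n, i ≤ l →
          ((s : Matrix (Fin n) (Fin n) (ZMod 2)) *ᵥ v - v) l = 0 := by
        intro l hl
        rw [Pi.sub_apply, sub_eq_zero]
        have hexp : ((s : Matrix (Fin n) (Fin n) (ZMod 2)) *ᵥ v) l =
          ∑ j, (s : Matrix (Fin n) (Fin n) (ZMod 2)) l j * v j := rfl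
        rw [hexp, Finset.sum_eq_single l]
        · rw [hs l l le_rfl, if_pos rfl, one_mul]
        · intro j _ hj
          rcases lt_or_gt_of_ne hj with h | h
          · rw [hs l j h.le, if_neg (ne_of_gt h), zero_mul]
          · rw [hv j, mul_zero]
            have : (l : ℕ) < j := h
            omega
        · intro h; exact absurd (Finset.mem_univ _) h
      have h2 := ih _ h1 ⟨i, hin⟩ le_rfl
      have h3 : (g : Matrix (Fin n) (Fin n) (ZMod 2)) *ᵥ
          ((s : Matrix (Fin n) (Fin n) (ZMod 2)) *ᵥ v - v) =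
          vecMulVec (Pi.single (⟨i, hin⟩ : Fin n) (1 : ZMod 2)) (Pi.single k (1 : ZMod 2)) *ᵥ
            ((g : Matrix (Fin n) (Fin n) (ZMod 2)) *ᵥ v) := by
        rw [mulVec_sub, mulVec_mulVec, ← Matrix.SpecialLinearGroup.coe_mul, hgs,
          Matrix.SpecialLinearGroup.coe_mul, ht, add_mul, one_mul, add_mulVec, add_sub_cancel_left,
          mulVec_mulVec]
      rw [h3, vecMulVec_mulVec] at h2
      simpa using h2
  apply mem_upper_of
  intro k l hlk
  have := key (l + 1) (Pi.single l 1) (by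
    intro j hj
    rw [Pi.single_eq_of_ne]
    intro h
    rw [h] at hj
    omega) k hlk
  simpa using this

theorem fact_two : Fact (Nat.Prime 2) := ⟨Nat.prime_two⟩

theorem card_sylow_le (P : Sylow 2 (SS n)) : Nat.card P ≤ 2 ^ (n * (n - 1) / 2) := by
  have := fact_two
  obtain ⟨Q, hQ⟩ := (P.isPGroup'.map (Matrix.SpecialLinearGroup.toGL :
    SS n →* GL (Fin n) (ZMod 2))).exists_le_sylow
  have h1 := Cfsg.Agent.S0263.result (F := ZMod 2) (ZMod.card 2) 2 n Q
  rw [← h1]
  have hinj : Function.Injective (Matrix.SpecialLinearGroup.toGL :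
      SS n →* GL (Fin n) (ZMod 2)) := by
    intro a b h
    apply Subtype.ext
    exact congrArg Units.val h
  rw [Nat.card_congr ((P : Subgroup (SS n)).equivMapOfInjective _ hinj).toEquiv]
  exact Nat.card_le_card_of_injective _ (Subgroup.inclusion_injective hQ)

theorem exists_sylow_of_card (K : Subgroup (SS n)) (hK : Nat.card K = 2 ^ (n * (n - 1) / 2)) :
    ∃ P : Sylow 2 (SS n), (P : Subgroup (SS n)) = K := by
  have := fact_two
  obtain ⟨P, hP⟩ := (IsPGroup.of_card hK).exists_le_sylow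
  refine ⟨P, (Subgroup.eq_of_le_of_card_ge hP ?_).symm⟩
  rw [hK]
  exact card_sylow_le P

theorem exists_conj (K : Subgroup (SS n)) (hK : Nat.card K = 2 ^ (n * (n - 1) / 2))
    (P : Sylow 2 (SS n)) : ∃ a : SS n, ∀ t, t ∈ P ↔ a⁻¹ * t * a ∈ K := by
  have := fact_two
  obtain ⟨Q, hQ⟩ := exists_sylow_of_card K hK
  obtain ⟨a, ha⟩ := MulAction.exists_smul_eq (SS n) Q P
  refine ⟨a, fun t => ?_⟩
  rw [← ha, ← hQ]
  change t ∈ (MulAut.conj a • (Q : Subgroup (SS n))) ↔ _
  rw [Subgroup.mem_pointwise_smul_iff_inv_smul_mem]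
  simp [MulAut.smul_def, mul_assoc]

theorem card_U : Nat.card (upper n (ZMod 2)) = 2 ^ (n * (n - 1) / 2) := by
  rw [card_upper, ZMod.card]

theorem card_L : Nat.card (lower n) = 2 ^ (n * (n - 1) / 2) := by
  rw [← card_U]
  refine Nat.card_congr ⟨fun x => ⟨x.1.transpose, x.2⟩, fun x => ⟨x.1.transpose, x.2⟩, ?_, ?_⟩
  · intro x; rfl
  · intro x; rfl

theorem pairs (P Q : Sylow 2 (SS n)) (h : ∀ t, t ∈ P → t ∈ Q → t = 1) :
    ∃ a : SS n, (∀ t, t ∈ P ↔ a⁻¹ * t * a ∈ upper n (ZMod 2)) ∧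
      (∀ t, t ∈ Q ↔ a⁻¹ * t * a ∈ lower n) := by
  obtain ⟨a, ha⟩ := exists_conj _ card_U P
  obtain ⟨b, hb⟩ := exists_conj _ card_L Q
  obtain ⟨u, hu, hl⟩ := key (a⁻¹ * b) (by
    intro t ht1 ht2
    have h1 : a * t * a⁻¹ ∈ P := by
      rw [ha]
      convert ht1 using 1
      group
    have h2 : a * t * a⁻¹ ∈ Q := by
      rw [hb]
      convert ht2 using 1
      group
    have h3 := h _ h1 h2
    calc t = a⁻¹ * (a * t * a⁻¹) * a := by group
      _ = 1 := by rw [h3]; group)
  refine ⟨a * u, fun t => ?_, fun t => ?_⟩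
  · rw [ha]
    have : (a * u)⁻¹ * t * (a * u) = u⁻¹ * (a⁻¹ * t * a) * u := by group
    rw [this, Subgroup.mul_mem_cancel_right _ hu, Subgroup.mul_mem_cancel_left _ (inv_mem hu)]
  · rw [hb]
    have : (a * u)⁻¹ * t * (a * u) = ((a⁻¹ * b)⁻¹ * u)⁻¹ * (b⁻¹ * t * b) * ((a⁻¹ * b)⁻¹ * u) := by
      group
    rw [this, Subgroup.mul_mem_cancel_right _ hl, Subgroup.mul_mem_cancel_left _ (inv_mem hl)]

theorem self_norm (P : Sylow 2 (SS n)) (z : SS n) (hz : ∀ t, t ∈ P → z⁻¹ * t * z ∈ P) : z ∈ P := by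
  obtain ⟨a, ha⟩ := exists_conj _ card_U P
  rw [ha]
  apply normalizer_upper
  intro t ht
  have h1 : a * t * a⁻¹ ∈ P := by
    rw [ha]
    convert ht using 1
    group
  have h2 := hz _ h1
  rw [ha] at h2
  convert h2 using 1
  group

end

section
variable {G : Type*} [Group G] [Finite G] {n : ℕ} (N : Subgroup G) [N.Normal]
    (e : N ≃* SS n)

/-- trace of a Sylow subgroup -/
theorem exists_trace (H : Sylow 2 G) : ∃ P : Sylow 2 (SS n), ∀ s, s ∈ P ↔ (e.symm s : G) ∈ H := by
  have := fact_two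
  let K : Subgroup (SS n) := ((H : Subgroup G).subgroupOf N).comap e.symm.toMonoidHom
  have h1 : IsPGroup 2 K := by
    apply IsPGroup.comap_of_injective (H := (H : Subgroup G).subgroupOf N)
    · exact H.isPGroup'.comap_subtype
    · exact e.symm.injective
  have h2 : ¬ 2 ∣ K.index := by
    rw [Subgroup.index_comap_of_surjective _ e.symm.surjective]
    exact Cfsg.Agent.CharactersDeep.QuatSylow.not_dvd_relIndex_of_normal H N
  exact ⟨h1.toSylow h2, fun s => Iff.rfl⟩

end

/-- Let n ≥ 4 and let G be a finite group with a normal subgroup N of index 2 isomorphic to SL(n,2) and with trivial centralizer in G (so G is the extension of the simple group L_n(2) by its inverse-transpose automorphism, its full automorphism group). Then any two Sylow 2-subgroups of G have a non-trivial intersection: for a Sylow 2-subgroup H and every x ∈ G, H ∩ H^x ≠ 1. -/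
theorem result {G : Type*} [Group G] [Finite G] {n : ℕ} (hn : 4 ≤ n) (N : Subgroup G) [N.Normal]
    (e : N ≃* Matrix.SpecialLinearGroup (Fin n) (ZMod 2)) (hidx : N.index = 2)
    (hC : Subgroup.centralizer (N : Set G) = ⊥)
    (H : Sylow 2 G) (x : G) :
    (H : Subgroup G) ⊓ MulAut.conj x • (H : Subgroup G) ≠ ⊥ := by
  have := fact_two
  intro hbot
  let H' : Sylow 2 G := x • H
  have hH' : ∀ t, t ∈ H → t ∈ H' → t = 1 := by
    intro t h1 h2
    have : t ∈ (H : Subgroup G) ⊓ MulAut.conj x • (H : Subgroup G) := ⟨h1, h2⟩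
    rwa [hbot, Subgroup.mem_bot] at this
  have hmem : ∀ (K : Sylow 2 G) (g t : G), t ∈ g • K ↔ g⁻¹ * t * g ∈ K := by
    intro K g t
    change t ∈ (MulAut.conj g • (K : Subgroup G)) ↔ _
    rw [Subgroup.mem_pointwise_smul_iff_inv_smul_mem]
    have : (MulAut.conj g)⁻¹ • t = g⁻¹ * t * g := by
      simp [MulAut.smul_def]
    rw [this]
    exact Iff.rfl
  obtain ⟨g, hg⟩ : ∃ g, g ∉ N := by
    by_contra hcon
    push Not at hcon
    have : N = ⊤ := by rw [eq_top_iff]; intro y _; exact hcon y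
    rw [this, Subgroup.index_top] at hidx
    omega
  obtain ⟨P, hP⟩ := exists_trace N e H
  obtain ⟨P', hP'⟩ := exists_trace N e H'
  obtain ⟨Q, hQ⟩ := exists_trace N e (g • H)
  obtain ⟨Q', hQ'⟩ := exists_trace N e (g • H')
  obtain ⟨a, ha, ha'⟩ := pairs P P' (by
    intro t h1 h2
    rw [hP] at h1
    rw [hP'] at h2
    have h3 := hH' _ h1 h2
    have h4 : e.symm t = 1 := Subtype.ext h3
    simpa using h4)
  obtain ⟨b, hb, hb'⟩ := pairs Q Q' (by
    intro t h1 h2
    rw [hQ, hmem] at h1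
    rw [hQ', hmem] at h2
    have h3 := hH' _ h1 h2
    have h5 : (e.symm t : G) = 1 := by
      calc (e.symm t : G) = g * (g⁻¹ * (e.symm t : G) * g) * g⁻¹ := by group
        _ = 1 := by rw [h3]; group
    have h4 : e.symm t = 1 := Subtype.ext h5
    simpa using h4)
  let m : N := e.symm (a * b⁻¹)
  let y : G := m * g
  have hy : y ∉ N := by
    intro h
    apply hg
    have : g = (m : G)⁻¹ * y := by simp only [y]; group
    rw [this]
    exact mul_mem (inv_mem m.2) h
  -- general statement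
  have gen : ∀ (K : Sylow 2 G) (W : Subgroup (SS n)) (R T : Sylow 2 (SS n)),
      (∀ s, s ∈ R ↔ (e.symm s : G) ∈ K) → (∀ s, s ∈ T ↔ (e.symm s : G) ∈ g • K) →
      (∀ t, t ∈ R ↔ a⁻¹ * t * a ∈ W) → (∀ t, t ∈ T ↔ b⁻¹ * t * b ∈ W) →
      ∀ t ∈ N, y * t * y⁻¹ ∈ K ↔ t ∈ K := by
    intro K W R T hR hT hRa hTb t ht
    let t' : N := ⟨t, ht⟩
    let r : N := ⟨g * t * g⁻¹, ‹N.Normal›.conj_mem t ht g⟩
    have e1 : y * t * y⁻¹ = ((m * r * m⁻¹ : N) : G) := by
      simp only [y, r, Subgroup.coe_mul, Subgroup.coe_inv]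
      group
    have e2 : ((m * r * m⁻¹ : N) : G) ∈ K ↔ e (m * r * m⁻¹) ∈ R := by
      rw [hR, e.symm_apply_apply]
    have e3 : a⁻¹ * e (m * r * m⁻¹) * a = b⁻¹ * e r * b := by
      simp only [m, map_mul, map_inv, e.apply_symm_apply]
      group
    rw [e1, e2, hRa, e3, ← hTb, hT, e.symm_apply_apply, hmem]
    have e4 : g⁻¹ * (r : G) * g = t := by simp only [r]; group
    rw [e4]
  have g1 := gen H _ P Q hP hQ ha hb
  have g2 := gen H' _ P' Q' hP' hQ' ha' hb'
  have fin : ∀ (K : Sylow 2 G) (R : Sylow 2 (SS n)), (∀ s, s ∈ R ↔ (e.symm s : G) ∈ K) →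
      (∀ t ∈ N, y * t * y⁻¹ ∈ K ↔ t ∈ K) → y ∈ K := by
    intro K R hR hyK
    obtain ⟨h, hhK, hhN⟩ : ∃ h ∈ K, h ∉ N := by
      by_contra hcon
      push Not at hcon
      have h1 : (K : Subgroup G) ≤ N := hcon
      have h2 := Subgroup.index_dvd_of_le h1
      rw [hidx] at h2
      exact K.not_dvd_index h2
    have hz : h⁻¹ * y ∈ N := by
      rw [Subgroup.mul_mem_iff_of_index_two hidx]
      constructor
      · intro h1
        exact absurd ((inv_mem_iff).1 h1) hhN
      · intro h1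
        exact absurd h1 hy
    let z : N := ⟨h⁻¹ * y, hz⟩
    have h3 : e z ∈ R := by
      apply self_norm
      intro t ht
      rw [hR] at ht ⊢
      have e1 : e.symm ((e z)⁻¹ * t * e z) = z⁻¹ * e.symm t * z := by
        simp
      rw [e1, ← hyK _ (SetLike.coe_mem _)]
      have e2 : y * ((z⁻¹ * e.symm t * z : N) : G) * y⁻¹ = h * (e.symm t : G) * h⁻¹ := by
        simp only [z, Subgroup.coe_mul, Subgroup.coe_inv]
        group
      rw [e2]
      exact mul_mem (mul_mem hhK ht) (inv_mem hhK)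
    rw [hR, e.symm_apply_apply] at h3
    have : y = h * (z : G) := by simp only [z]; group
    rw [this]
    exact mul_mem hhK h3
  have := hH' y (fin H P hP g1) (fin H' P' hP' g2)
  exact hy (this ▸ one_mem N)

end Cfsg.Agent.S2486
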