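import Cfsg.Statements.S2487
set_option linter.all false

set_option autoImplicit false
open scoped Pointwise
open Cfsg

namespace Cfsg.Agent.S2487

open Matrix

section
variable {F : Type*} [Field F] {m : ℕ}

/-- the polar form -/
def pol (x y : Fin m ⊕ Fin m → F) : F :=
  ∑ i : Fin m, (x (.inl i) * y (.inr i) + x (.inr i) * y (.inl i))

theorem pol_add_left (x y z : Fin m ⊕ Fin m → F) : pol (x + y) z = pol x z + pol y z := by
  simp only [pol, Pi.add_apply, ← Finset.sum_add_distrib]
  exact Finset.sum_congr rfl fun i _ => by ring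

theorem pol_smul_left (a : F) (x z : Fin m ⊕ Fin m → F) : pol (a • x) z = a * pol x z := by
  simp only [pol, Pi.smul_apply, smul_eq_mul, Finset.mul_sum]
  exact Finset.sum_congr rfl fun i _ => by ring

theorem pol_comm (x y : Fin m ⊕ Fin m → F) : pol x y = pol y x := by
  simp only [pol]
  exact Finset.sum_congr rfl fun i _ => by ring

theorem q_add (x y : Fin m ⊕ Fin m → F) :
    quadFormPlus m F (x + y) = quadFormPlus m F x + quadFormPlus m F y + pol x y := by
  simp only [quadFormPlus, pol, Pi.add_apply, ← Finset.sum_add_distrib]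
  exact Finset.sum_congr rfl fun i _ => by ring

theorem q_smul (a : F) (x : Fin m ⊕ Fin m → F) :
    quadFormPlus m F (a • x) = a ^ 2 * quadFormPlus m F x := by
  simp only [quadFormPlus, Pi.smul_apply, smul_eq_mul, Finset.mul_sum]
  exact Finset.sum_congr rfl fun i _ => by ring

theorem exists_pol_ne {x : Fin m ⊕ Fin m → F} (hx : x ≠ 0) : ∃ y, pol x y ≠ 0 := by
  obtain ⟨j, hj⟩ := Function.ne_iff.1 hx
  rcases j with j | j
  · refine ⟨Pi.single (.inr j) 1, ?_⟩
    simp only [pol]
    rw [Finset.sum_eq_single j]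
    · simpa using hj
    · intro i _ hi
      simp [hi]
    · intro h; exact absurd (Finset.mem_univ _) h
  · refine ⟨Pi.single (.inl j) 1, ?_⟩
    simp only [pol]
    rw [Finset.sum_eq_single j]
    · simpa using hj
    · intro i _ hi
      simp [hi]
    · intro h; exact absurd (Finset.mem_univ _) h

/-- polar form as linear map in the first variable -/
def polL (a : Fin m ⊕ Fin m → F) : (Fin m ⊕ Fin m → F) →ₗ[F] F where
  toFun x := pol x a
  map_add' x y := pol_add_left x y a
  map_smul' c x := pol_smul_left c x a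

@[simp] theorem polL_apply (a x : Fin m ⊕ Fin m → F) : polL a x = pol x a := rfl

/-- the matrix of an element of the isometry group -/
abbrev mt (t : isometryGroup F (quadFormPlus m F)) :
    Matrix (Fin m ⊕ Fin m) (Fin m ⊕ Fin m) F :=
  ((t : GL (Fin m ⊕ Fin m) F) : Matrix (Fin m ⊕ Fin m) (Fin m ⊕ Fin m) F)

theorem mt_mul (s t : isometryGroup F (quadFormPlus m F)) : mt (s * t) = mt s * mt t := rfl

theorem mt_one : mt (1 : isometryGroup F (quadFormPlus m F)) = 1 := rfl

/-- a linear involution as an element of `GL` -/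
def ofInvol {ι : Type} [Fintype ι] [DecidableEq ι] (T : (ι → F) →ₗ[F] (ι → F))
    (hT : ∀ x, T (T x) = x) : GL ι F :=
  have h : LinearMap.toMatrix' T * LinearMap.toMatrix' T = 1 := by
    rw [← LinearMap.toMatrix'_comp, ← LinearMap.toMatrix'_id]
    congr 1
    exact LinearMap.ext hT
  ⟨LinearMap.toMatrix' T, LinearMap.toMatrix' T, h, h⟩

theorem ofInvol_mulVec {ι : Type} [Fintype ι] [DecidableEq ι] (T : (ι → F) →ₗ[F] (ι → F))
    (hT : ∀ x, T (T x) = x) (x : ι → F) : (ofInvol T hT : Matrix ι ι F) *ᵥ x = T x :=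
  LinearMap.toMatrix'_mulVec T x

theorem mem_iso {g : GL (Fin m ⊕ Fin m) F} : g ∈ isometryGroup F (quadFormPlus m F) ↔
    ∀ x, quadFormPlus m F ((g : Matrix (Fin m ⊕ Fin m) (Fin m ⊕ Fin m) F) *ᵥ x) =
      quadFormPlus m F x :=
  ⟨fun h x => h x x, fun h x _ => h x⟩

/-- an isometric linear involution fixing some vectors -/
theorem exists_of_map (T : (Fin m ⊕ Fin m → F) →ₗ[F] (Fin m ⊕ Fin m → F))
    (hT : ∀ x, T (T x) = x) (hQ : ∀ x, quadFormPlus m F (T x) = quadFormPlus m F x)
    (hne : ∃ x, T x ≠ x) : ∃ t : isometryGroup F (quadFormPlus m F), t ≠ 1 ∧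
      ∀ x, (mt t) *ᵥ x = T x := by
  refine ⟨⟨ofInvol T hT, mem_iso.2 fun x => ?_⟩, ?_, fun x => ofInvol_mulVec T hT x⟩
  · rw [ofInvol_mulVec, hQ]
  · intro h
    obtain ⟨x, hx⟩ := hne
    apply hx
    rw [← ofInvol_mulVec T hT x]
    have h1 : ofInvol T hT = 1 := congrArg Subtype.val h
    rw [h1, Units.val_one, one_mulVec]

theorem pol_self [CharP F 2] (x : Fin m ⊕ Fin m → F) : pol x x = 0 := by
  simp only [pol]
  apply Finset.sum_eq_zero
  intro i _
  rw [mul_comm (x (.inr i))]
  exact CharTwo.add_self_eq_zero _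

/-- A non-trivial isometry fixing at most `2m-2` given vectors. -/
theorem exists_iso [CharP F 2] (hF2 : ∀ a : F, a = 0 ∨ a = 1) {k : ℕ} (hk : k + 2 ≤ 2 * m)
    (a : Fin k → (Fin m ⊕ Fin m → F)) :
    ∃ t : isometryGroup F (quadFormPlus m F), t ≠ 1 ∧
      ∀ i, (mt t) *ᵥ (a i) = a i := by
  classical
  let L : (Fin m ⊕ Fin m → F) →ₗ[F] (Fin k → F) := LinearMap.pi fun i => polL (a i)
  have hfin : 2 ≤ Module.finrank F (LinearMap.ker L) := by
    have h1 := LinearMap.finrank_range_add_finrank_ker L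
    have h2 : Module.finrank F (LinearMap.range L) ≤ k := by
      refine (Submodule.finrank_le _).trans ?_
      simp
    rw [Module.finrank_fintype_fun_eq_card, Fintype.card_sum, Fintype.card_fin] at h1
    omega
  have hker : ∀ x, x ∈ LinearMap.ker L → ∀ i, pol (a i) x = 0 := by
    intro x hx i
    rw [pol_comm]
    have := congrFun (LinearMap.mem_ker.1 hx) i
    simpa [L] using this
  have h2 : ∀ c : F, c + c = 0 := fun c => CharTwo.add_self_eq_zero c
  by_cases hs : ∃ v ∈ LinearMap.ker L, quadFormPlus m F v ≠ 0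
  · obtain ⟨v, hv, hQ⟩ := hs
    have hv1 : quadFormPlus m F v = 1 := (hF2 _).resolve_left hQ
    have hv0 : v ≠ 0 := by
      rintro rfl
      exact hQ (by simp [quadFormPlus])
    let T : (Fin m ⊕ Fin m → F) →ₗ[F] (Fin m ⊕ Fin m → F) :=
      LinearMap.id + (polL v).smulRight v
    have hT : ∀ x, T x = x + pol x v • v := fun x => rfl
    have g1 : ∀ x, T (T x) = x := by
      intro x
      rw [hT, hT, pol_add_left, pol_smul_left, pol_self, mul_zero, add_zero, add_assoc,
        ← add_smul, h2, zero_smul, add_zero]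
    have g2 : ∀ x, quadFormPlus m F (T x) = quadFormPlus m F x := by
      intro x
      rw [hT, q_add, q_smul, hv1, mul_one, pol_comm x (pol x v • v), pol_smul_left, pol_comm v x,
        sq, add_assoc, h2, add_zero]
    have g3 : ∃ x, T x ≠ x := by
      obtain ⟨y, hy⟩ := exists_pol_ne hv0
      refine ⟨y, fun h => ?_⟩
      rw [hT] at h
      have h3 : pol y v • v = 0 := by simpa using h
      rcases smul_eq_zero.1 h3 with h4 | h4
      · exact hy (by rw [pol_comm]; exact h4)
      · exact hv0 h4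
    obtain ⟨t, ht, htx⟩ := exists_of_map T g1 g2 g3
    refine ⟨t, ht, fun i => ?_⟩
    rw [htx, hT, hker v hv i, zero_smul, add_zero]
  · push Not at hs
    obtain ⟨u, hu0, hu⟩ : ∃ u : LinearMap.ker L, u ≠ 0 ∧ True := by
      have : Nontrivial (LinearMap.ker L) := by
        apply Module.nontrivial_of_finrank_pos (R := F)
        omega
      obtain ⟨u, hu⟩ := exists_ne (0 : LinearMap.ker L)
      exact ⟨u, hu, trivial⟩
    obtain ⟨w, hw⟩ : ∃ w : LinearMap.ker L, w ∉ Submodule.span F {u} := by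
      by_contra hcon
      push Not at hcon
      have h3 : Submodule.span F {u} = ⊤ := by
        rw [eq_top_iff]; intro x _; exact hcon x
      have h4 := finrank_span_singleton (K := F) hu0
      rw [h3, finrank_top] at h4
      omega
    have hind : ∀ c d : F, c • (u : Fin m ⊕ Fin m → F) + d • (w : Fin m ⊕ Fin m → F) = 0 →
        c = 0 ∧ d = 0 := by
      intro c d h
      have h' : c • u + d • w = 0 := Subtype.ext h
      have hd : d = 0 := by
        by_contra hd
        apply hw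
        have h5 : d • w = -(c • u) := eq_neg_of_add_eq_zero_right h'
        have h6 : d • w ∈ Submodule.span F {u} := by
          rw [h5]
          exact Submodule.neg_mem _ (Submodule.smul_mem _ _ (Submodule.mem_span_singleton_self u))
        have h7 := Submodule.smul_mem _ d⁻¹ h6
        rwa [inv_smul_smul₀ hd] at h7
      subst hd
      rw [zero_smul, add_zero] at h'
      exact ⟨(smul_eq_zero.1 h').resolve_right hu0, rfl⟩
    have hQu : quadFormPlus m F (u : Fin m ⊕ Fin m → F) = 0 := hs _ u.2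
    have hQw : quadFormPlus m F (w : Fin m ⊕ Fin m → F) = 0 := hs _ w.2
    have hQuw : pol (u : Fin m ⊕ Fin m → F) w = 0 := by
      have h5 := q_add (u : Fin m ⊕ Fin m → F) w
      have h6 : quadFormPlus m F ((u : Fin m ⊕ Fin m → F) + w) = 0 := hs _ (u + w).2
      rw [h6, hQu, hQw, zero_add, zero_add] at h5
      exact h5.symm
    have hwu : pol (w : Fin m ⊕ Fin m → F) u = 0 := by rw [pol_comm]; exact hQuw
    let T : (Fin m ⊕ Fin m → F) →ₗ[F] (Fin m ⊕ Fin m → F) :=
      LinearMap.id + (polL (u : Fin m ⊕ Fin m → F)).smulRight (w : Fin m ⊕ Fin m → F)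
        + (polL (w : Fin m ⊕ Fin m → F)).smulRight (u : Fin m ⊕ Fin m → F)
    have hT : ∀ x, T x = x + pol x u • (w : Fin m ⊕ Fin m → F) +
        pol x w • (u : Fin m ⊕ Fin m → F) := fun x => rfl
    have hpu : ∀ x, pol (T x) u = pol x u := by
      intro x
      rw [hT, pol_add_left, pol_add_left, pol_smul_left, pol_smul_left, hwu, pol_self, mul_zero,
        mul_zero, add_zero, add_zero]
    have hpw : ∀ x, pol (T x) w = pol x w := by
      intro x
      rw [hT, pol_add_left, pol_add_left, pol_smul_left, pol_smul_left, hQuw, pol_self, mul_zero,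
        mul_zero, add_zero, add_zero]
    have g1 : ∀ x, T (T x) = x := by
      intro x
      rw [hT (T x), hpu, hpw, hT]
      have e1 : pol x u • (w : Fin m ⊕ Fin m → F) + pol x u • (w : Fin m ⊕ Fin m → F) = 0 := by
        rw [← add_smul, h2, zero_smul]
      have e2 : pol x w • (u : Fin m ⊕ Fin m → F) + pol x w • (u : Fin m ⊕ Fin m → F) = 0 := by
        rw [← add_smul, h2, zero_smul]
      calc _ = x + (pol x u • (w : Fin m ⊕ Fin m → F) + pol x u • (w : Fin m ⊕ Fin m → F))
            + (pol x w • (u : Fin m ⊕ Fin m → F) + pol x w • (u : Fin m ⊕ Fin m → F)) := by abel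
        _ = x := by rw [e1, e2, add_zero, add_zero]
    have g2 : ∀ x, quadFormPlus m F (T x) = quadFormPlus m F x := by
      intro x
      rw [hT, q_add, q_add, q_smul, q_smul, hQu, hQw, mul_zero, mul_zero, add_zero, add_zero,
        pol_add_left, pol_comm x (pol x u • _), pol_smul_left, pol_smul_left,
        pol_comm x (pol x w • _), pol_smul_left, pol_comm _ (pol x w • (u : Fin m ⊕ Fin m → F)),
        pol_smul_left, hQuw, mul_zero, mul_zero, add_zero, pol_comm (w : Fin m ⊕ Fin m → F) x,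
        pol_comm (u : Fin m ⊕ Fin m → F) x, mul_comm (pol x w), add_assoc, h2, add_zero]
    have g3 : ∃ x, T x ≠ x := by
      have hu0' : (u : Fin m ⊕ Fin m → F) ≠ 0 := fun h => hu0 (Subtype.ext h)
      obtain ⟨y, hy⟩ := exists_pol_ne hu0'
      refine ⟨y, fun h => ?_⟩
      rw [hT, add_assoc] at h
      have h3 : pol y w • (u : Fin m ⊕ Fin m → F) + pol y u • (w : Fin m ⊕ Fin m → F) = 0 := by
        rw [add_comm]
        simpa using h
      exact hy (by rw [pol_comm]; exact (hind _ _ h3).2)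
    obtain ⟨t, ht, htx⟩ := exists_of_map T g1 g2 g3
    refine ⟨t, ht, fun i => ?_⟩
    rw [htx, hT, hker u u.2 i, hker w w.2 i, zero_smul, zero_smul, add_zero, add_zero]


/-- the first basis vectors -/
def bv (i : Fin (m - 1)) : Fin m ⊕ Fin m → F :=
  Pi.single (.inl ⟨i, lt_of_lt_of_le i.2 (Nat.sub_le m 1)⟩) 1

/-- the pointwise stabiliser of the first basis vectors -/
def stab (m : ℕ) (F : Type*) [Field F] : Subgroup (isometryGroup F (quadFormPlus m F)) where
  carrier := {t | ∀ i : Fin (m - 1), (mt t) *ᵥ bv i = bv i}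
  mul_mem' {a b} ha hb i := by
    rw [mt_mul, ← mulVec_mulVec, hb i, ha i]
  one_mem' i := by rw [mt_one, one_mulVec]
  inv_mem' {a} ha i := by
    have h := congrArg (fun v => (mt a⁻¹) *ᵥ v) (ha i)
    simp only [mulVec_mulVec, ← mt_mul, inv_mul_cancel, mt_one, one_mulVec] at h
    exact h.symm

theorem iso_pol {g : GL (Fin m ⊕ Fin m) F} (hg : g ∈ isometryGroup F (quadFormPlus m F))
    (x y : Fin m ⊕ Fin m → F) :
    pol ((g : Matrix (Fin m ⊕ Fin m) (Fin m ⊕ Fin m) F) *ᵥ x)
      ((g : Matrix (Fin m ⊕ Fin m) (Fin m ⊕ Fin m) F) *ᵥ y) = pol x y := by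
  rw [mem_iso] at hg
  have h := hg (x + y)
  rw [mulVec_add, q_add, q_add, hg, hg] at h
  exact add_left_cancel h

theorem pol_bv (x : Fin m ⊕ Fin m → F) (i : Fin (m - 1)) :
    pol x (bv i) = x (.inr ⟨i, lt_of_lt_of_le i.2 (Nat.sub_le m 1)⟩) := by
  simp only [pol, bv]
  rw [Finset.sum_eq_single ⟨i, lt_of_lt_of_le i.2 (Nat.sub_le m 1)⟩]
  · simp
  · intro j _ hj
    simp [hj]
  · intro h; exact absurd (Finset.mem_univ _) h

/-- `x` is in `D^⊥` -/
def InP (x : Fin m ⊕ Fin m → F) : Prop := ∀ i : Fin (m - 1), pol x (bv i) = 0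

/-- `x` is in `D` -/
def InD (x : Fin m ⊕ Fin m → F) : Prop :=
  (∀ i : Fin m, x (.inr i) = 0) ∧ ∀ i : Fin m, (i : ℕ) + 1 = m → x (.inl i) = 0

theorem InD.sum {x : Fin m ⊕ Fin m → F} (h : InD x) :
    x = ∑ i : Fin (m - 1), x (.inl ⟨i, lt_of_lt_of_le i.2 (Nat.sub_le m 1)⟩) • bv i := by
  funext j
  rw [Finset.sum_apply]
  rcases j with j | j
  · by_cases hj : (j : ℕ) + 1 = m
    · rw [h.2 j hj]
      symm
      apply Finset.sum_eq_zero
      intro i _
      have : (⟨i, lt_of_lt_of_le i.2 (Nat.sub_le m 1)⟩ : Fin m) ≠ j := by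
        intro h; have := i.2; rw [← h] at hj; simp at hj; omega
      simp [bv, Ne.symm this]
    · have hj' : (j : ℕ) < m - 1 := by have := j.2; omega
      rw [Finset.sum_eq_single ⟨j, hj'⟩]
      · simp [bv]
      · intro i _ hi
        have : (⟨i, lt_of_lt_of_le i.2 (Nat.sub_le m 1)⟩ : Fin m) ≠ j := by
          intro h; apply hi; ext; simp [← h]
        simp [bv, Ne.symm this]
      · intro h; exact absurd (Finset.mem_univ _) h
  · rw [h.1 j]
    symm
    apply Finset.sum_eq_zero
    intro i _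
    simp [bv]

theorem stab_fix {t : isometryGroup F (quadFormPlus m F)} (ht : t ∈ stab m F)
    {x : Fin m ⊕ Fin m → F} (h : InD x) :
    (mt t) *ᵥ x = x := by
  rw [h.sum, mulVec_sum]
  refine Finset.sum_congr rfl fun i _ => ?_
  rw [mulVec_smul, ht i]

theorem stab_inP {t : isometryGroup F (quadFormPlus m F)} (ht : t ∈ stab m F)
    (x : Fin m ⊕ Fin m → F) (i : Fin (m - 1)) :
    pol ((mt t) *ᵥ x) (bv i) = pol x (bv i) := by
  conv_lhs => rw [← ht i]
  exact iso_pol t.2 _ _

theorem q_inP (hm : 1 ≤ m) {x : Fin m ⊕ Fin m → F} (h : InP x) :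
    quadFormPlus m F x = x (.inl ⟨m - 1, by omega⟩) * x (.inr ⟨m - 1, by omega⟩) := by
  simp only [quadFormPlus]
  rw [Finset.sum_eq_single ⟨m - 1, by omega⟩]
  · intro i _ hi
    have hi' : (i : ℕ) < m - 1 := by
      have := i.2
      have : (i : ℕ) ≠ m - 1 := fun h => hi (Fin.ext h)
      omega
    have h1 := h ⟨i, hi'⟩
    rw [pol_bv] at h1
    have h2 : x (.inr i) = 0 := h1
    rw [h2, mul_zero]
  · intro h; exact absurd (Finset.mem_univ _) h

/-- `last` index -/
def lst (hm : 1 ≤ m) : Fin m := ⟨m - 1, by omega⟩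

theorem coords {t : isometryGroup F (quadFormPlus m F)} (ht : t ∈ stab m F) (hm : 1 ≤ m)
    {x : Fin m ⊕ Fin m → F} (hx : InP x) (j : Fin m ⊕ Fin m)
    (hj : j = .inl (lst hm) ∨ j = .inr (lst hm)) :
    ((mt t) *ᵥ x) j =
      x (.inl (lst hm)) * ((mt t) *ᵥ
        (Pi.single (.inl (lst hm)) 1)) j +
      x (.inr (lst hm)) * ((mt t) *ᵥ
        (Pi.single (.inr (lst hm)) 1)) j := by
  set e : Fin m ⊕ Fin m → F := Pi.single (.inl (lst hm)) 1 with he
  set f : Fin m ⊕ Fin m → F := Pi.single (.inr (lst hm)) 1 with hf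
  have hd : InD (x - x (.inl (lst hm)) • e - x (.inr (lst hm)) • f) := by
    constructor
    · intro i
      by_cases hi : i = lst hm
      · subst hi
        simp [he, hf]
      · have hi' : (i : ℕ) < m - 1 := by
          have := i.2
          have : (i : ℕ) ≠ m - 1 := fun h => hi (Fin.ext h)
          omega
        have h1 := hx ⟨i, hi'⟩
        rw [pol_bv] at h1
        have h2 : x (.inr i) = 0 := h1
        simp [he, hf, h2, Pi.single_apply, hi]
    · intro i hi
      have : i = lst hm := Fin.ext (by simp [lst]; omega)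
      subst this
      simp [he, hf]
  have h1 : x = x (.inl (lst hm)) • e + x (.inr (lst hm)) • f +
      (x - x (.inl (lst hm)) • e - x (.inr (lst hm)) • f) := by abel
  have h2 := stab_fix ht hd
  have h3 : (mt t) *ᵥ x =
      x (.inl (lst hm)) • ((mt t) *ᵥ e) +
      x (.inr (lst hm)) • ((mt t) *ᵥ f) +
      (x - x (.inl (lst hm)) • e - x (.inr (lst hm)) • f) := by
    conv_lhs => rw [h1]
    rw [mulVec_add, mulVec_add, mulVec_smul, mulVec_smul, h2]
  have h4 : (x - x (.inl (lst hm)) • e - x (.inr (lst hm)) • f) j = 0 := by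
    rcases hj with rfl | rfl
    · exact hd.2 _ (by simp [lst]; omega)
    · exact hd.1 _
  rw [h3, Pi.add_apply, Pi.add_apply, h4, add_zero, Pi.smul_apply, Pi.smul_apply, smul_eq_mul,
    smul_eq_mul]

theorem single_inP (hm : 1 ≤ m) (j : Fin m ⊕ Fin m)
    (hj : j = .inl (lst hm) ∨ j = .inr (lst hm)) : InP (F := F) (Pi.single j 1) := by
  intro i
  rw [pol_bv]
  have : (⟨i, lt_of_lt_of_le i.2 (Nat.sub_le m 1)⟩ : Fin m) ≠ lst hm := by
    intro h
    have h1 := congrArg Fin.val h
    have := i.2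
    simp [lst] at h1
    omega
  rcases hj with rfl | rfl
  · simp
  · simp [Pi.single_apply, this]

theorem mul_inP {t : isometryGroup F (quadFormPlus m F)} (ht : t ∈ stab m F)
    {x : Fin m ⊕ Fin m → F} (hx : InP x) :
    InP ((mt t) *ᵥ x) := fun i => by
  rw [stab_inP ht, hx i]

theorem sq_coords (hF2 : ∀ a : F, a = 0 ∨ a = 1)
    {t : isometryGroup F (quadFormPlus m F)} (ht : t ∈ stab m F) (hm : 1 ≤ m)
    {x : Fin m ⊕ Fin m → F} (hx : InP x) (j : Fin m ⊕ Fin m)
    (hj : j = .inl (lst hm) ∨ j = .inr (lst hm)) :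
    ((mt t) *ᵥ
      ((mt t) *ᵥ x)) j = x j := by
  have he : InP (F := F) (Pi.single (.inl (lst hm)) 1) := single_inP hm _ (Or.inl rfl)
  have hf : InP (F := F) (Pi.single (.inr (lst hm)) 1) := single_inP hm _ (Or.inr rfl)
  have q1 := mem_iso.1 t.2 (Pi.single (.inl (lst hm)) 1)
  have q2 := mem_iso.1 t.2 (Pi.single (.inr (lst hm)) 1)
  have q3 := mem_iso.1 t.2 (Pi.single (.inl (lst hm)) 1 + Pi.single (.inr (lst hm)) 1)
  have hef : InP (F := F) (Pi.single (.inl (lst hm)) 1 + Pi.single (.inr (lst hm)) 1) :=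
    fun i => by rw [pol_add_left, he i, hf i, add_zero]
  rw [q_inP hm (mul_inP ht he), q_inP hm he] at q1
  rw [q_inP hm (mul_inP ht hf), q_inP hm hf] at q2
  rw [q_inP hm (mul_inP ht hef), q_inP hm hef, mulVec_add] at q3
  change _ * _ = _ * _ at q1 q2 q3
  have c1 := fun y (hy : InP y) => coords ht hm hy (.inl (lst hm)) (Or.inl rfl)
  have c2 := fun y (hy : InP y) => coords ht hm hy (.inr (lst hm)) (Or.inr rfl)
  have k1 := c1 _ (mul_inP ht hx)
  have k2 := c2 _ (mul_inP ht hx)
  rw [c1 _ hx, c2 _ hx] at k1 k2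
  change ((mt t) *ᵥ _) (.inl (lst hm)) *
    ((mt t) *ᵥ _) (.inr (lst hm)) = _ at q1 q2
  generalize ((mt t) *ᵥ
        (Pi.single (.inl (lst hm)) 1)) = u at q1 q3 k1 k2
  generalize ((mt t) *ᵥ
        (Pi.single (.inr (lst hm)) 1)) = v at q2 q3 k1 k2
  change (u + v) (.inl (lst hm)) * (u + v) (.inr (lst hm)) = _ at q3
  simp only [Pi.add_apply, Pi.single_apply, reduceCtorEq, if_true, if_false, mul_zero, zero_mul,
    mul_one, add_zero, zero_add, lst] at q1 q2 q3 k1 k2
  rcases hF2 (u (.inl ⟨m - 1, by omega⟩)) with ha | ha <;>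
  rcases hF2 (u (.inr ⟨m - 1, by omega⟩)) with hb | hb <;>
  rcases hF2 (v (.inl ⟨m - 1, by omega⟩)) with hc | hc <;>
  rcases hF2 (v (.inr ⟨m - 1, by omega⟩)) with hd | hd <;>
  simp only [ha, hb, hc, hd, lst] at q1 q2 q3 k1 k2 <;>
  rcases hj with rfl | rfl <;>
  simp_all [lst]

theorem stab_pow [CharP F 2] (hF2 : ∀ a : F, a = 0 ∨ a = 1) (hm : 1 ≤ m)
    {t : isometryGroup F (quadFormPlus m F)} (ht : t ∈ stab m F) : t ^ 8 = 1 := by
  set M : Matrix (Fin m ⊕ Fin m) (Fin m ⊕ Fin m) F := (mt t)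
    with hM
  set N := M * M - 1 with hN
  have hNv : ∀ x, N *ᵥ x = M *ᵥ (M *ᵥ x) - x := by
    intro x
    rw [hN, sub_mulVec, one_mulVec, mulVec_mulVec]
  have s1 : ∀ x, InP (N *ᵥ x) := by
    intro x i
    have h1 : M *ᵥ (M *ᵥ x) = N *ᵥ x + x := by rw [hNv, sub_add_cancel]
    have h2 := stab_inP ht (M *ᵥ x) i
    rw [← hM, h1, pol_add_left, hM, stab_inP ht] at h2
    simpa using h2
  have s2 : ∀ x, InP x → InD (N *ᵥ x) := by
    intro x hx
    constructor
    · intro i
      by_cases hi : i = lst hm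
      · subst hi
        rw [hNv, Pi.sub_apply, hM, sq_coords hF2 ht hm hx _ (Or.inr rfl), sub_self]
      · have hi' : (i : ℕ) < m - 1 := by
          have := i.2
          have : (i : ℕ) ≠ m - 1 := fun h => hi (Fin.ext h)
          omega
        have h1 := s1 x ⟨i, hi'⟩
        rw [pol_bv] at h1
        exact h1
    · intro i hi
      have : i = lst hm := Fin.ext (by simp [lst]; omega)
      subst this
      rw [hNv, Pi.sub_apply, hM, sq_coords hF2 ht hm hx _ (Or.inl rfl), sub_self]
  have s3 : ∀ x, InD x → N *ᵥ x = 0 := by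
    intro x hx
    rw [hNv, stab_fix ht hx, stab_fix ht hx, sub_self]
  have s4 : N * N * N = 0 := by
    apply Matrix.toLin'.injective
    apply LinearMap.ext
    intro x
    rw [toLin'_apply, ← mulVec_mulVec, ← mulVec_mulVec, s3 _ (s2 _ (s1 _)), map_zero]
    rfl
  have h2 : ∀ A : Matrix (Fin m ⊕ Fin m) (Fin m ⊕ Fin m) F, A + A = 0 := by
    intro A
    ext i j
    exact CharTwo.add_self_eq_zero _
  have hMM : M * M = 1 + N := by rw [hN]; abel
  have h8 : M ^ 8 = 1 := by
    have e4 : (M * M) * (M * M) = 1 + N * N := by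
      rw [hMM]
      calc (1 + N) * (1 + N) = 1 + (N + N) + N * N := by noncomm_ring
        _ = _ := by rw [h2, add_zero]
    calc M ^ 8 = ((M * M) * (M * M)) * ((M * M) * (M * M)) := by noncomm_ring
      _ = (1 + N * N) * (1 + N * N) := by rw [e4]
      _ = 1 + (N * N + N * N) + N * N * N * N := by noncomm_ring
      _ = 1 := by rw [h2, s4, zero_mul, add_zero, add_zero]
  apply Subtype.ext
  apply Units.ext
  rw [Subgroup.coe_pow, Units.val_pow_eq_pow_val]
  exact h8

theorem stab_isPGroup [CharP F 2] (hF2 : ∀ a : F, a = 0 ∨ a = 1) (hm : 1 ≤ m) :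
    IsPGroup 2 (stab m F) := by
  intro t
  refine ⟨3, ?_⟩
  apply Subtype.ext
  exact stab_pow hF2 hm t.2


end

/-- Let m ≥ 4 and let G be the full isometry group of the hyperbolic quadratic form x₁y₁ + ⋯ + x_m y_m on the 2m-dimensional space over the field with 2 elements (the orthogonal group O⁺(2m,2), which contains Ω⁺(2m,2) with index 2). Then any two Sylow 2-subgroups of G have a non-trivial intersection: for a Sylow 2-subgroup H and every x ∈ G, H ∩ H^x ≠ 1. -/
theorem result {F : Type*} [Field F] [Fintype F] (hF : Fintype.card F = 2) {m : ℕ} (hm : 4 ≤ m)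
    (H : Sylow 2 (Cfsg.isometryGroup F (Cfsg.quadFormPlus m F)))
    (x : Cfsg.isometryGroup F (Cfsg.quadFormPlus m F)) :
    (H : Subgroup (Cfsg.isometryGroup F (Cfsg.quadFormPlus m F))) ⊓ MulAut.conj x • (H : Subgroup _) ≠ ⊥ := by
  classical
  have hF2 : ∀ a : F, a = 0 ∨ a = 1 := by
    intro a
    by_contra hcon
    push Not at hcon
    have : 2 < Fintype.card F := by
      rw [Fintype.two_lt_card_iff]
      exact ⟨0, 1, a, zero_ne_one, Ne.symm hcon.1, Ne.symm hcon.2⟩
    omega
  have : Fact (Nat.Prime 2) := ⟨Nat.prime_two⟩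
  have : CharP F 2 := charP_of_card_eq_prime hF
  obtain ⟨H0, hH0⟩ := (stab_isPGroup (F := F) (m := m) hF2 (by omega)).exists_le_sylow
  obtain ⟨g, hg⟩ := MulAction.exists_smul_eq (isometryGroup F (quadFormPlus m F)) H0 H
  have hmem : ∀ t : isometryGroup F (quadFormPlus m F), ∀ y : isometryGroup F (quadFormPlus m F),
      (∀ i : Fin (m - 1), (mt t) *ᵥ
        ((mt y) *ᵥ bv i) =
          (mt y) *ᵥ bv i) → y⁻¹ * t * y ∈ (H0 : Subgroup _) := by
    intro t y h
    apply hH0
    intro i
    rw [mt_mul, mt_mul, ← mulVec_mulVec, ← mulVec_mulVec, h i, mulVec_mulVec, ← mt_mul,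
      inv_mul_cancel, mt_one, one_mulVec]
  let a : Fin (m - 1) ⊕ Fin (m - 1) → (Fin m ⊕ Fin m → F) :=
    Sum.elim (fun i => (mt g) *ᵥ bv i)
      (fun i => (mt (x * g)) *ᵥ bv i)
  obtain ⟨t, ht1, ht⟩ := exists_iso (F := F) (m := m) hF2 (k := (m - 1) + (m - 1)) (by omega)
    (fun i => a (finSumFinEquiv.symm i))
  have ht' : ∀ i, (mt t) *ᵥ (a i) = a i := by
    intro i
    have := ht (finSumFinEquiv i)
    simpa using this
  have m1 := hmem t g fun i => ht' (.inl i)
  have m2 := hmem t (x * g) fun i => ht' (.inr i)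
  intro hbot
  apply ht1
  rw [← Subgroup.mem_bot, ← hbot, Subgroup.mem_inf]
  constructor
  · rw [← hg]
    change t ∈ (MulAut.conj g • (H0 : Subgroup _))
    rw [Subgroup.mem_pointwise_smul_iff_inv_smul_mem]
    simpa [MulAut.smul_def, mul_assoc] using m1
  · rw [← hg]
    change t ∈ MulAut.conj x • (MulAut.conj g • (H0 : Subgroup _))
    rw [Subgroup.mem_pointwise_smul_iff_inv_smul_mem, Subgroup.mem_pointwise_smul_iff_inv_smul_mem]
    simpa [MulAut.smul_def, mul_assoc] using m2

end Cfsg.Agent.S2487
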