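import Cfsg.Statements.S2488
import Cfsg.Agent.H154.ASix
set_option linter.all false
-- import your own Cfsg.Agent.* helpers here

set_option autoImplicit false
open scoped Pointwise
open Cfsg

namespace Cfsg.Agent.S2488

open Cfsg.Agent.H154.ASix

/-- the involutions of `N` -/
abbrev Inv {G : Type*} [Group G] (N : Subgroup G) : Type _ := {s : N // s ≠ 1 ∧ s * s = 1}

/-- conjugation action on the involutions of a normal subgroup -/
@[reducible] def act {G : Type*} [Group G] (N : Subgroup G) [N.Normal] : MulAction G (Inv N) where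
  smul g s := ⟨MulAut.conjNormal g s.1, by
    refine ⟨fun h => s.2.1 ?_, ?_⟩
    · exact (MulAut.conjNormal g : MulAut N).injective (h.trans (map_one _).symm)
    · rw [← map_mul, s.2.2, map_one]⟩
  one_smul s := Subtype.ext (by
    change (MulAut.conjNormal (1 : G) : MulAut N) s.1 = s.1
    rw [map_one]; rfl)
  mul_smul g h s := Subtype.ext (by
    change (MulAut.conjNormal (g * h) : MulAut N) s.1 =
      (MulAut.conjNormal g : MulAut N) ((MulAut.conjNormal h : MulAut N) s.1)
    rw [map_mul]; rfl)

theorem card_inv {G : Type*} [Group G] (N : Subgroup G)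
    (e : N ≃* alternatingGroup (Fin 6)) : Nat.card (Inv N) = 45 := by
  rw [← count_invol, ← Nat.card_eq_fintype_card]
  refine Nat.card_congr (e.toEquiv.subtypeEquiv fun s => ?_)
  constructor
  · rintro ⟨h1, h2⟩
    refine ⟨fun h => h1 (e.injective (h.trans (map_one e).symm)), ?_⟩
    have := congrArg e h2
    rwa [map_mul, map_one] at this
  · rintro ⟨h1, h2⟩
    refine ⟨fun h => h1 (by rw [h]; exact map_one e), e.injective ?_⟩
    rw [map_mul, map_one]; exact h2

theorem card_five {G : Type*} [Group G] (N : Subgroup G)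
    (e : N ≃* alternatingGroup (Fin 6)) (t : Inv N) (ht : e t.1 = t0) :
    Nat.card {s : Inv N // (t.1 * s.1) ^ 5 = 1} = 17 := by
  rw [← count_five, ← Nat.card_eq_fintype_card]
  refine Nat.card_congr ?_
  refine (Equiv.subtypeSubtypeEquivSubtypeInter (fun s : N => s ≠ 1 ∧ s * s = 1)
    (fun s : N => (t.1 * s) ^ 5 = 1)).trans (e.toEquiv.subtypeEquiv fun s => ?_)
  constructor
  · rintro ⟨⟨h1, h2⟩, h3⟩
    refine ⟨⟨fun h => h1 (e.injective (h.trans (map_one e).symm)), ?_⟩, ?_⟩
    · have := congrArg e h2
      rwa [map_mul, map_one] at this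
    · have := congrArg e h3
      rwa [map_pow, map_mul, map_one, ht] at this
  · rintro ⟨⟨h1, h2⟩, h3⟩
    refine ⟨⟨fun h => h1 (by rw [h]; exact map_one e), e.injective ?_⟩, e.injective ?_⟩
    · rw [map_mul, map_one]; exact h2
    · rw [map_pow, map_mul, map_one, ht]; exact h3

/-- an automorphism moves `t0` to any involution: change the isomorphism -/
theorem exists_iso {G : Type*} [Group G] (N : Subgroup G)
    (e : N ≃* alternatingGroup (Fin 6)) (t : Inv N) :
    ∃ e' : N ≃* alternatingGroup (Fin 6), e' t.1 = t0 := by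
  have hc : IsConj t0 (e t.1) := by
    refine isConj_t0 _ (fun h => t.2.1 (e.injective (h.trans (map_one e).symm))) ?_
    rw [← map_mul, t.2.2, map_one]
  obtain ⟨g, hg⟩ := isConj_iff.1 hc
  refine ⟨e.trans (MulAut.conj g⁻¹), ?_⟩
  change MulAut.conj g⁻¹ (e t.1) = t0
  rw [← hg, MulAut.conj_apply]
  group

theorem transitive {G : Type*} [Group G] (N : Subgroup G) [N.Normal]
    (e : N ≃* alternatingGroup (Fin 6)) (s t : Inv N) :
    ∃ g : G, (act N).smul g s = t := by
  obtain ⟨e', he'⟩ := exists_iso N e s
  have hc : IsConj t0 (e' t.1) := by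
    refine isConj_t0 _ (fun h => t.2.1 (e'.injective (h.trans (map_one e').symm))) ?_
    rw [← map_mul, t.2.2, map_one]
  obtain ⟨g, hg⟩ := isConj_iff.1 hc
  refine ⟨((e'.symm g : N) : G), Subtype.ext ?_⟩
  change (MulAut.conjNormal ((e'.symm g : N) : G) : MulAut N) s.1 = t.1
  apply e'.injective
  rw [← hg, ← he']
  have : (MulAut.conjNormal ((e'.symm g : N) : G) : MulAut N) s.1
      = (e'.symm g) * s.1 * (e'.symm g)⁻¹ := by
    ext
    simp [MulAut.conjNormal_apply]
  rw [this]
  simp

/-- Let G be a finite group with a normal subgroup N of index 4 isomorphic to the alternating group of degree 6 and with trivial centralizer in G (so G is the full automorphism group of A₆). Then any two Sylow 2-subgroups of G have a non-trivial intersection: for a Sylow 2-subgroup H and every x ∈ G, H ∩ H^x ≠ 1. -/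
theorem result {G : Type*} [Group G] [Finite G] (N : Subgroup G) [N.Normal]
    (e : N ≃* alternatingGroup (Fin 6)) (hidx : N.index = 4)
    (hC : Subgroup.centralizer (N : Set G) = ⊥)
    (H : Sylow 2 G) (x : G) :
    (H : Subgroup G) ⊓ MulAut.conj x • (H : Subgroup G) ≠ ⊥ := by
  classical
  intro hbot
  have : Fact (Nat.Prime 2) := ⟨Nat.prime_two⟩
  let _ := act N
  have hNcard : Nat.card N = 360 := by
    rw [Nat.card_congr e.toEquiv, Nat.card_eq_fintype_card]
    have := two_mul_card_alternatingGroup (α := Fin 6)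
    rw [Fintype.card_perm, Fintype.card_fin] at this
    have h6 : Nat.factorial 6 = 720 := by decide
    omega
  have hG : Nat.card G = 1440 := by
    rw [← Subgroup.card_mul_index N, hNcard, hidx]
  have hH : Nat.card (H : Subgroup G) = 32 := by
    rw [H.card_eq_multiplicity, hG]
    rw [show (1440 : ℕ) = 2 ^ 5 * 45 by norm_num, Nat.factorization_mul (by norm_num) (by norm_num),
      Nat.Prime.factorization_pow Nat.prime_two]
    rw [Finsupp.add_apply, Finsupp.single_eq_same,
      Nat.factorization_eq_zero_of_not_dvd (by norm_num : ¬ 2 ∣ 45)]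
    norm_num
  have hI : Nat.card (Inv N) = 45 := card_inv N e
  -- a fixed point of H
  obtain ⟨t, ht⟩ : ∃ t : Inv N, t ∈ MulAction.fixedPoints (H : Subgroup G) (Inv N) := by
    have hp : IsPGroup 2 (H : Subgroup G) := H.isPGroup'
    exact hp.nonempty_fixed_point_of_prime_not_dvd_card (Inv N) (by rw [hI]; norm_num)
  -- the stabilizer of t is H
  have hle : (H : Subgroup G) ≤ MulAction.stabilizer G t := by
    intro h hh
    exact ht ⟨h, hh⟩
  have htrans : MulAction.orbit G t = Set.univ := by
    ext s
    refine ⟨fun _ => trivial, fun _ => ?_⟩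
    obtain ⟨g, hg⟩ := transitive N e t s
    exact ⟨g, hg⟩
  have hstab : Nat.card (MulAction.stabilizer G t) = 32 := by
    have h := MulAction.index_stabilizer G t
    rw [htrans, Set.ncard_univ, hI] at h
    have h2 := Subgroup.card_mul_index (MulAction.stabilizer G t)
    rw [h, hG] at h2
    omega
  have hHeq : (H : Subgroup G) = MulAction.stabilizer G t :=
    Subgroup.eq_of_le_of_card_ge hle (by rw [hstab, hH])
  -- the stabilizer of x • t is the conjugate
  have hst' : MulAction.stabilizer G (x • t) = MulAut.conj x • (H : Subgroup G) := by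
    rw [hHeq]; exact MulAction.stabilizer_smul_eq_stabilizer_map_conj x t
  -- hence h ↦ h • (x • t) is injective on H
  have hinj : Function.Injective fun h : (H : Subgroup G) => (h : G) • (x • t) := by
    intro a b hab
    have h1 : ((b : G)⁻¹ * (a : G)) ∈ (H : Subgroup G) ⊓ MulAut.conj x • (H : Subgroup G) := by
      refine ⟨(H : Subgroup G).mul_mem ((H : Subgroup G).inv_mem b.2) a.2, ?_⟩
      change _ ∈ MulAut.conj x • (H : Subgroup G)
      rw [← hst', MulAction.mem_stabilizer_iff, mul_smul]
      rw [show (a : G) • (x • t) = (b : G) • (x • t) from hab, inv_smul_smul]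
    rw [hbot, Subgroup.mem_bot] at h1
    exact Subtype.ext (inv_mul_eq_one.1 h1).symm
  obtain ⟨e', he'⟩ := exists_iso N e t
  have h17 := card_five N e' t he'
  have h5 : ∀ (h : (H : Subgroup G)) (s : Inv N),
      (t.1 * ((h : G) • s).1) ^ 5 = 1 ↔ (t.1 * s.1) ^ 5 = 1 := by
    intro h s
    have h1 : ((h : G) • t) = t := ht h
    have h2 : (MulAut.conjNormal (h : G) : MulAut N) t.1 = t.1 := congrArg Subtype.val h1
    have h3 : (t.1 * ((h : G) • s).1) ^ 5
        = (MulAut.conjNormal (h : G) : MulAut N) ((t.1 * s.1) ^ 5) := by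
      rw [map_pow, map_mul, h2]; rfl
    rw [h3]
    exact ⟨fun h => (MulAut.conjNormal _ : MulAut N).injective (h.trans (map_one _).symm),
      fun h => by rw [h, map_one]⟩
  by_cases hcase : (t.1 * (x • t).1) ^ 5 = 1
  · -- 32 ≤ 17
    have : Nat.card (H : Subgroup G) ≤ Nat.card {s : Inv N // (t.1 * s.1) ^ 5 = 1} := by
      refine Nat.card_le_card_of_injective
        (fun h : (H : Subgroup G) => ⟨(h : G) • (x • t), (h5 h _).2 hcase⟩) ?_
      intro a b hab
      exact hinj (congrArg Subtype.val hab)
    rw [hH, h17] at this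
    omega
  · have : Nat.card (H : Subgroup G) ≤ Nat.card {s : Inv N // ¬ (t.1 * s.1) ^ 5 = 1} := by
      refine Nat.card_le_card_of_injective
        (fun h : (H : Subgroup G) => ⟨(h : G) • (x • t), fun hc => hcase ((h5 h _).1 hc)⟩) ?_
      intro a b hab
      exact hinj (congrArg Subtype.val hab)
    have hsum : Nat.card {s : Inv N // (t.1 * s.1) ^ 5 = 1} +
        Nat.card {s : Inv N // ¬ (t.1 * s.1) ^ 5 = 1} = Nat.card (Inv N) := by
      rw [← Nat.card_sum]
      exact Nat.card_congr (Equiv.sumCompl _)
    rw [h17, hI] at hsum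
    rw [hH] at this
    omega

end Cfsg.Agent.S2488
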