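import Cfsg.Statements.S2495
import Cfsg.Agent.H155.Cyc
import Cfsg.Agent.Lib.Zsigmondy
set_option linter.all false

set_option autoImplicit false
open Cfsg

namespace Cfsg.Agent.S2495

open Polynomial Cfsg.Agent.H155.Root Cfsg.Agent.H155.Cyc

/-- A matrix annihilated by `X ^ K - c` is central modulo scalars. -/
theorem mk_pow_eq_one {F : Type*} [Field F] {n : ℕ} (x : Matrix.SpecialLinearGroup (Fin n) F) {K : ℕ} {c : F}
    (h : (x : Matrix (Fin n) (Fin n) F) ^ K = Matrix.scalar (Fin n) c) :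
    (QuotientGroup.mk x : Matrix.ProjectiveSpecialLinearGroup (Fin n) F) ^ K = 1 := by
  rw [← QuotientGroup.mk_pow, QuotientGroup.eq_one_iff, Matrix.SpecialLinearGroup.mem_center_iff]
  refine ⟨c, ?_, ?_⟩
  · have h1 : (((x ^ K : Matrix.SpecialLinearGroup (Fin n) F)) : Matrix (Fin n) (Fin n) F).det = 1 :=
      (x ^ K).2
    rw [Matrix.SpecialLinearGroup.coe_pow, h, Matrix.scalar_apply, Matrix.det_diagonal,
      Finset.prod_const, Finset.card_univ] at h1
    exact h1
  · rw [Matrix.SpecialLinearGroup.coe_pow, h]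

theorem forward_aux {F : Type*} [Field F] [Fintype F] {q : ℕ} (hF : Fintype.card F = q) (hodd : Odd q)
    {m : ℕ} (hm : 2 ≤ m) (x : Matrix.SpecialLinearGroup (Fin (2 * m)) F)
    (hg : orderOf (QuotientGroup.mk x : Matrix.ProjectiveSpecialLinearGroup (Fin (2 * m)) F) = q ^ m + 1)
    {L : Type*} [Field L] [Finite L] [Algebra F L]
    (hsp : ((x : Matrix (Fin (2 * m)) (Fin (2 * m)) F).charpoly.map (algebraMap F L)).Splits) :
    Nat.gcd (2 * m) (q - 1) ∣ m := by
  classical
  have hFn : Nat.card F = q := by rw [Nat.card_eq_fintype_card, hF]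
  have hq2 : 2 ≤ q := hF ▸ Fintype.one_lt_card
  obtain ⟨r, hr, hrdvd, -, hrq⟩ := Cfsg.Agent.Lib.Zsigmondy.exists_primitive (a := q) (n := 2 * m) hq2
    (by omega) (by omega) (by rintro ⟨rfl, -⟩; exact absurd hodd (by decide))
  obtain ⟨p, hp⟩ := CharP.exists F
  have hpp : p.Prime := CharP.char_is_prime F p
  have : Fact p.Prime := ⟨hpp⟩
  obtain ⟨f, -, hf⟩ := FiniteField.card F p
  have hrp : r ≠ p := by
    rintro rfl
    apply hrq
    rw [← hF, hf]
    exact dvd_pow_self r f.pos.ne'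
  -- `r` divides the order of `x`
  have hrN : r ∣ q ^ m + 1 := by
    have h1 : r ∣ q ^ (2 * m) - 1 := (hrdvd _).2 dvd_rfl
    have h2 : ¬ r ∣ q ^ m - 1 := by
      rw [hrdvd]
      intro h
      have := Nat.le_of_dvd (by omega) h
      omega
    have h3 : q ^ (2 * m) - 1 = (q ^ m + 1) * (q ^ m - 1) := by
      have := Nat.sq_sub_sq (q ^ m) 1
      rw [one_pow] at this
      rw [mul_comm 2 m, pow_mul, this]
    rw [h3] at h1
    exact (hr.dvd_mul.1 h1).resolve_right h2
  set X0 : Matrix (Fin (2 * m)) (Fin (2 * m)) F := (x : Matrix (Fin (2 * m)) (Fin (2 * m)) F) with hX0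
  have hoX : orderOf X0 = orderOf x := by
    rw [orderOf_eq_orderOf_iff]
    intro k
    rw [hX0, ← Matrix.SpecialLinearGroup.coe_pow, ← Matrix.SpecialLinearGroup.coe_one]
    exact ⟨fun h => Subtype.ext h, fun h => congrArg Subtype.val h⟩
  have hro : r ∣ orderOf X0 := by
    rw [hoX]
    refine (hrN.trans ?_)
    rw [← hg]
    exact orderOf_map_dvd (QuotientGroup.mk' _) x
  have hopos : 0 < orderOf X0 := hoX ▸ orderOf_pos x
  obtain ⟨a, k, ha, hak, hane⟩ := exists_eig hsp hr hrp hro hopos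
  have hcp : X0.charpoly.natDegree = 2 * m := by rw [Matrix.charpoly_natDegree_eq_dim, Fintype.card_fin]
  have hint : IsIntegral F a := IsIntegral.of_finite F a
  have hdiv : minpoly F a ∣ X0.charpoly := minpoly.dvd F a (by
    rw [IsRoot.def, eval_map_algebraMap] at ha
    exact ha)
  have hDpos : 0 < (minpoly F a).natDegree := minpoly.natDegree_pos hint
  have hDle : (minpoly F a).natDegree ≤ 2 * m :=
    hcp ▸ natDegree_le_of_dvd hdiv (Matrix.charpoly_monic X0).ne_zero
  have hrD := dvd_of_orderOf (F := F) hak hane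
  rw [hFn, hrdvd] at hrD
  have hDeq : (minpoly F a).natDegree = 2 * m := by
    have := Nat.le_of_dvd hDpos hrD
    omega
  have hcharpoly : X0.charpoly = minpoly F a :=
    eq_of_monic_of_dvd_of_natDegree_le (minpoly.monic hint) (Matrix.charpoly_monic X0) hdiv
      (by rw [hcp, hDeq])
  set S := ∑ i ∈ Finset.range (2 * m), q ^ i with hS
  have hnorm : a ^ S = 1 := by
    have h1 := norm_minpoly (F := F) a
    have h2 := Matrix.det_eq_sign_charpoly_coeff X0
    rw [Fintype.card_fin, hcharpoly] at h2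
    have h3 : X0.det = 1 := x.2
    rw [hDeq, ← h2, h3, map_one, hFn] at h1
    exact h1.symm
  -- the exponent
  set d := Nat.gcd (2 * m) (q - 1) with hd
  have hdS : d ∣ S := by
    have h1 : S ≡ 2 * m [MOD d] := (geom_modEq (by omega) (2 * m)).of_dvd (Nat.gcd_dvd_right _ _)
    exact (h1.dvd_iff dvd_rfl).2 (Nat.gcd_dvd_left _ _)
  obtain ⟨K, hK⟩ := hdS
  obtain ⟨e, he⟩ : d ∣ q - 1 := Nat.gcd_dvd_right _ _
  have haK : (a ^ K) ^ (Nat.card F - 1) = 1 := by
    rw [hFn, he, ← pow_mul, show K * (d * e) = (d * K) * e by ring, ← hK, pow_mul, hnorm, one_pow]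
  obtain ⟨c, hc⟩ := mem_range_of_pow haK
  have hXK : X0 ^ K = Matrix.scalar (Fin (2 * m)) c := by
    apply pow_eq_scalar
    rw [hcharpoly]
    exact minpoly.dvd F a (by simp [hc])
  have hgK := mk_pow_eq_one x hXK
  have hNK : q ^ m + 1 ∣ K := by
    rw [← hg]
    exact orderOf_dvd_of_pow_eq_one hgK
  -- conclusion
  set M := ∑ i ∈ Finset.range m, q ^ i with hM
  have hSM : S = M * (q ^ m + 1) := geom_two_mul q m
  obtain ⟨t, ht⟩ := hNK
  have hdM : d ∣ M := by
    refine ⟨t, ?_⟩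
    have h1 : M * (q ^ m + 1) = d * t * (q ^ m + 1) := by
      rw [← hSM, hK, ht]; ring
    exact Nat.eq_of_mul_eq_mul_right (by positivity) h1
  have hMm : M ≡ m [MOD d] := (geom_modEq (by omega) m).of_dvd (Nat.gcd_dvd_right _ _)
  exact (hMm.dvd_iff dvd_rfl).1 hdM

theorem forward {F : Type*} [Field F] [Fintype F] {q : ℕ} (hF : Fintype.card F = q) (hodd : Odd q)
    {m : ℕ} (hm : 2 ≤ m) (g : Matrix.ProjectiveSpecialLinearGroup (Fin (2 * m)) F)
    (hg : orderOf g = q ^ m + 1) : Nat.gcd (2 * m) (q - 1) ∣ m := by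
  obtain ⟨x, rfl⟩ := QuotientGroup.mk_surjective g
  have : Finite ((x : Matrix (Fin (2 * m)) (Fin (2 * m)) F).charpoly.SplittingField) :=
    Module.finite_of_finite F
  exact forward_aux hF hodd hm x hg (SplittingField.splits _)

theorem backward {F : Type*} [Field F] [Fintype F] {q : ℕ} (hF : Fintype.card F = q)
    {m : ℕ} (hm : 1 ≤ m) (h : Nat.gcd (2 * m) (q - 1) ∣ m) :
    ∃ g : Matrix.ProjectiveSpecialLinearGroup (Fin (2 * m)) F, orderOf g = q ^ m + 1 := by
  classical
  have hFn : Nat.card F = q := by rw [Nat.card_eq_fintype_card, hF]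
  have hq2 : 2 ≤ q := hF ▸ Fintype.one_lt_card
  obtain ⟨p, hp⟩ := CharP.exists F
  have hpp : p.Prime := CharP.char_is_prime F p
  have : Fact p.Prime := ⟨hpp⟩
  have : NeZero (2 * m) := ⟨by omega⟩
  let E := FiniteField.Extension F p (2 * m)
  have : Finite E := inferInstanceAs (Finite (FiniteField.Extension F p (2 * m)))
  have hfr : Module.finrank F E = 2 * m := FiniteField.finrank_extension F p (2 * m)
  have hcard : Nat.card E = q ^ (2 * m) := by rw [FiniteField.natCard_extension, hFn]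
  set M := ∑ i ∈ Finset.range m, q ^ i with hM
  have hSM : ∑ i ∈ Finset.range (2 * m), q ^ i = M * (q ^ m + 1) := geom_two_mul q m
  have hgeom : (q - 1) * ∑ i ∈ Finset.range (2 * m), q ^ i = q ^ (2 * m) - 1 := by
    rw [mul_comm]
    exact Nat.geomSum_eq hq2 (2 * m) ▸ Nat.div_mul_cancel (Nat.sub_one_dvd_pow_sub_one _ _)
  have hunits : Nat.card Eˣ = (q - 1) * M * (q ^ m + 1) := by
    rw [Nat.card_units, hcard, ← hgeom, hSM, mul_assoc]
  have hMm : M ≡ m [MOD (q - 1)] := geom_modEq (by omega) m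
  have hgcd : Nat.gcd (q - 1) (M * (q ^ m + 1)) ∣ M := by
    have h1 : M * (q ^ m + 1) ≡ 2 * m [MOD (q - 1)] := by
      rw [← hSM]
      exact geom_modEq (by omega) (2 * m)
    have h2 : Nat.gcd (q - 1) (M * (q ^ m + 1)) = Nat.gcd (2 * m) (q - 1) := by
      rw [Nat.gcd_comm, h1.gcd_eq]
    rw [h2]
    have h3 : M ≡ m [MOD Nat.gcd (2 * m) (q - 1)] := hMm.of_dvd (Nat.gcd_dvd_right _ _)
    exact (h3.dvd_iff dvd_rfl).2 h
  obtain ⟨u, hu1, hu2⟩ := exists_elt (C := Eˣ) hunits hgcd
  -- the matrix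
  let b : Module.Basis (Fin (2 * m)) F E := Module.finBasisOfFinrankEq F E hfr
  have hdet : ∀ v : Eˣ, v ^ (M * (q ^ m + 1)) = 1 → (Algebra.leftMulMatrix b (v : E)).det = 1 := by
    intro v hv
    rw [← Algebra.norm_eq_matrix_det]
    apply (algebraMap F E).injective
    rw [FiniteField.algebraMap_norm_eq_pow_sum, hfr, hFn, hSM, map_one, ← Units.val_pow_eq_pow_val, hv,
      Units.val_one]
  let x : Matrix.SpecialLinearGroup (Fin (2 * m)) F := ⟨Algebra.leftMulMatrix b (u : E), hdet u hu1⟩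
  refine ⟨QuotientGroup.mk x, ?_⟩
  rw [← hu2, orderOf_eq_orderOf_iff]
  intro k
  have hxk : ((x ^ k : Matrix.SpecialLinearGroup (Fin (2 * m)) F) : Matrix (Fin (2 * m)) (Fin (2 * m)) F) =
      Algebra.leftMulMatrix b ((u : E) ^ k) := by
    rw [Matrix.SpecialLinearGroup.coe_pow, map_pow]
  have hsc : ∀ c : F, Matrix.scalar (Fin (2 * m)) c = Algebra.leftMulMatrix b (algebraMap F E c) := by
    intro c
    rw [AlgHom.commutes]
    rfl
  constructor
  · intro h
    rw [← QuotientGroup.mk_pow, QuotientGroup.eq_one_iff, Matrix.SpecialLinearGroup.mem_center_iff] at h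
    obtain ⟨c, -, hc⟩ := h
    rw [hxk, hsc] at hc
    have h1 := Algebra.leftMulMatrix_injective b hc
    have hc0 : c ≠ 0 := by
      rintro rfl
      rw [map_zero] at h1
      exact (pow_ne_zero k u.ne_zero) h1.symm
    apply Units.ext
    rw [← pow_mul, mul_comm (q - 1) k, pow_mul, Units.val_pow_eq_pow_val, Units.val_pow_eq_pow_val, ← h1,
      ← map_pow, ← hF, FiniteField.pow_card_sub_one_eq_one c hc0, map_one, Units.val_one]
  · intro h
    have h1 : ((u : E) ^ k) ^ (Nat.card F - 1) = 1 := by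
      rw [hFn, ← pow_mul, mul_comm k (q - 1), pow_mul, ← Units.val_pow_eq_pow_val,
        ← Units.val_pow_eq_pow_val, h, Units.val_one]
    obtain ⟨c, hc⟩ := mem_range_of_pow h1
    apply mk_pow_eq_one x (c := c)
    rw [← Matrix.SpecialLinearGroup.coe_pow, hxk, ← hc, ← hsc]

/-- Let q be an odd prime power, n ≥ 4 even, and L = PSL(n,q). Then L has an element of order q^(n/2) + 1 if and only if the 2-part of n exceeds the 2-part of q − 1. -/
theorem result {F : Type*} [Field F] [Fintype F] {q : ℕ} (hF : Fintype.card F = q) (hodd : Odd q)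
    {n : ℕ} (hn : 4 ≤ n) (heven : Even n) :
    (∃ g : Matrix.ProjectiveSpecialLinearGroup (Fin n) F, orderOf g = q ^ (n / 2) + 1) ↔
      padicValNat 2 (q - 1) < padicValNat 2 n := by
  obtain ⟨m, rfl⟩ := heven
  have hq2 : 2 ≤ q := hF ▸ Fintype.one_lt_card
  rw [← two_mul, Nat.mul_div_cancel_left m (by norm_num), ← gcd_dvd_iff (by omega) (by omega)]
  constructor
  · rintro ⟨g, hg⟩
    exact forward hF hodd (by omega) g hg
  · intro h
    exact backward hF (by omega) h

end Cfsg.Agent.S2495
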