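import Cfsg.Statements.S2496
import Cfsg.Agent.H155.Unit
import Cfsg.Agent.Lib.Zsigmondy
set_option linter.all false

set_option autoImplicit false
open Cfsg

namespace Cfsg.Agent.S2496

open Polynomial Cfsg.Agent.H155.Root Cfsg.Agent.H155.Cyc Cfsg.Agent.H155.Unit Matrix

/-- A prime `r > 2` dividing `q ^ m + (-1) ^ m` with `r ∣ q ^ (2 t) - 1` iff `m ∣ t`. -/
theorem exists_r {q m : ℕ} (hq : 2 ≤ q) (hodd : Odd q) (hm : 2 ≤ m) :
    ∃ r : ℕ, r.Prime ∧ 2 < r ∧ ¬ r ∣ q ∧ r ∣ nN q m ∧ (∀ t, r ∣ q ^ (2 * t) - 1 ↔ m ∣ t) ∧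
      ∀ t, Odd t → ¬ r ∣ q ^ t + 1 := by
  have hq2 : q ≠ 2 := by rintro rfl; exact absurd hodd (by decide)
  have hsq : ∀ t, q ^ (2 * t) - 1 = (q ^ t + 1) * (q ^ t - 1) := by
    intro t
    have := Nat.sq_sub_sq (q ^ t) 1
    rw [one_pow] at this
    rw [mul_comm 2 t, pow_mul, this]
  rcases Nat.even_or_odd m with he | ho
  · obtain ⟨r, hr, hrdvd, hr1, hrq⟩ := Cfsg.Agent.Lib.Zsigmondy.exists_primitive (a := q) (n := 2 * m) hq
      (by omega) (by omega) (by rintro ⟨rfl, -⟩; exact hq2 rfl)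
    have hr2 : 2 < r := by
      have := Nat.le_of_dvd (by have := hr.two_le; omega) hr1
      omega
    refine ⟨r, hr, hr2, hrq, ?_, ?_, ?_⟩
    · unfold nN
      rw [if_pos he]
      have h1 : r ∣ q ^ (2 * m) - 1 := (hrdvd _).2 dvd_rfl
      rw [hsq] at h1
      refine (hr.dvd_mul.1 h1).resolve_right fun h2 => ?_
      have := Nat.le_of_dvd (by omega) ((hrdvd _).1 h2)
      omega
    · intro t
      rw [hrdvd]
      exact Nat.mul_dvd_mul_iff_left (by norm_num)
    · intro t ht h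
      have h1 : r ∣ q ^ (2 * t) - 1 := by rw [hsq]; exact h.mul_right _
      rw [hrdvd] at h1
      have h2 : m ∣ t := (Nat.mul_dvd_mul_iff_left (by norm_num)).1 h1
      exact (Nat.not_even_iff_odd.2 ht) (he.trans_dvd h2)
  · obtain ⟨r, hr, hrdvd, hr1, hrq⟩ := Cfsg.Agent.Lib.Zsigmondy.exists_primitive (a := q) (n := m) hq
      (by omega) (by rintro rfl; exact absurd ho (by decide)) (by rintro ⟨rfl, -⟩; exact hq2 rfl)
    have hm3 : 3 ≤ m := by
      rcases ho with ⟨t, rfl⟩; omega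
    have hr2 : 2 < r := by
      have := Nat.le_of_dvd (by have := hr.two_le; omega) hr1
      omega
    refine ⟨r, hr, hr2, hrq, ?_, ?_, ?_⟩
    · unfold nN
      rw [if_neg (Nat.not_even_iff_odd.2 ho)]
      exact (hrdvd _).2 dvd_rfl
    · intro t
      rw [hrdvd]
      have : Nat.Coprime m 2 := (Nat.coprime_two_right).2 ho
      exact ⟨fun h => this.dvd_of_dvd_mul_left h, fun h => h.mul_left 2⟩
    · intro t ht h
      have h1 : r ∣ q ^ (2 * t) - 1 := by rw [hsq]; exact h.mul_right _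
      rw [hrdvd] at h1
      have : Nat.Coprime m 2 := (Nat.coprime_two_right).2 ho
      have h2 : m ∣ t := this.dvd_of_dvd_mul_left h1
      have h3 : r ∣ q ^ t - 1 := (hrdvd _).2 h2
      have h4 := Nat.dvd_sub h h3
      have h5 : 1 ≤ q ^ t := Nat.one_le_pow _ _ (by omega)
      have h6 : q ^ t + 1 - (q ^ t - 1) = 2 := by omega
      rw [h6] at h4
      have := Nat.le_of_dvd (by norm_num) h4
      omega

theorem mk_pow_eq_one {F : Type*} [Field F] {n q : ℕ} (x : Cfsg.SU n F q) {K : ℕ} {c : F}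
    (h : ((x : Matrix.SpecialLinearGroup (Fin n) F) : Matrix (Fin n) (Fin n) F) ^ K = Matrix.scalar (Fin n) c) :
    (QuotientGroup.mk x : Cfsg.PSU n F q) ^ K = 1 := by
  rw [← QuotientGroup.mk_pow, QuotientGroup.eq_one_iff, Subgroup.mem_center_iff]
  intro y
  apply Subtype.ext
  apply Subtype.ext
  simp only [Subgroup.coe_mul, Subgroup.coe_pow, Matrix.SpecialLinearGroup.coe_mul,
    Matrix.SpecialLinearGroup.coe_pow, h]
  exact (Matrix.scalar_commute c (fun _ => Commute.all _ _) _).eq.symm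

theorem sign_mul {F : Type*} [Field F] (m : ℕ) (c₁ c₂ : F) :
    ((-1) ^ m * c₁) * ((-1) ^ m * c₂) = (-1) ^ (2 * m) * (c₁ * c₂) := by
  rw [two_mul, pow_add]; ring

theorem forward_aux {F : Type*} [Field F] [Fintype F] {q : ℕ} (hF : Fintype.card F = q ^ 2) (hodd : Odd q)
    {m : ℕ} (hm : 2 ≤ m) (x : Cfsg.SU (2 * m) F q)
    (hg : orderOf (QuotientGroup.mk x : Cfsg.PSU (2 * m) F q) = nN q m)
    {L : Type*} [Field L] [Finite L] [Algebra F L]
    (hsp : (((x : Matrix.SpecialLinearGroup (Fin (2 * m)) F) :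
      Matrix (Fin (2 * m)) (Fin (2 * m)) F).charpoly.map (algebraMap F L)).Splits) :
    Nat.gcd (2 * m) (q + 1) ∣ m := by
  classical
  have hFn : Nat.card F = q ^ 2 := by rw [Nat.card_eq_fintype_card, hF]
  have hq1 : 1 ≤ q := hodd.pos
  have hq2 : 2 ≤ q := by
    by_contra h
    have : q = 1 := by omega
    subst this
    have := Fintype.one_lt_card (α := F)
    omega
  obtain ⟨p, hp⟩ := CharP.exists F
  have hpp : p.Prime := CharP.char_is_prime F p
  have : Fact p.Prime := ⟨hpp⟩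
  have : CharP L p := charP_of_injective_algebraMap (algebraMap F L).injective p
  obtain ⟨j, hj0, hj⟩ := exists_pow hF p
  obtain ⟨σ, hσ⟩ := exists_frobHom F p j
  obtain ⟨τ, hτ⟩ := exists_frobHom L p j
  rw [← hj] at hσ hτ
  obtain ⟨r, hr, hr2, hrq, hrN, hrdvd, hrodd⟩ := exists_r hq2 hodd hm
  have hrp : r ≠ p := by
    rintro rfl
    apply hrq
    rw [hj]
    exact dvd_pow_self r hj0.ne'
  set X0 : Matrix (Fin (2 * m)) (Fin (2 * m)) F :=
    ((x : Matrix.SpecialLinearGroup (Fin (2 * m)) F) : Matrix (Fin (2 * m)) (Fin (2 * m)) F) with hX0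
  have hoX : orderOf X0 = orderOf x := by
    rw [orderOf_eq_orderOf_iff]
    intro k
    rw [hX0, ← Matrix.SpecialLinearGroup.coe_pow, ← Matrix.SpecialLinearGroup.coe_one, ← Subgroup.coe_pow]
    exact ⟨fun h => Subtype.ext (Subtype.ext h), fun h => by rw [h]; rfl⟩
  have hro : r ∣ orderOf X0 := by
    rw [hoX]
    refine (hrN.trans ?_)
    rw [← hg]
    exact orderOf_map_dvd (QuotientGroup.mk' _) x
  have hopos : 0 < orderOf X0 := hoX ▸ orderOf_pos x
  have hU : X0ᵀ * X0.map σ = 1 := (mem_SU_iff_matrix σ hσ _).1 x.2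
  obtain ⟨a, k, ha, hak, hane⟩ := exists_eig hsp hr hrp hro hopos
  set a' : L := (a ^ q)⁻¹ with ha'
  have ha'ne : a' ≠ 0 := inv_ne_zero (pow_ne_zero q hane)
  have har : (X0.charpoly.map (algebraMap F L)).IsRoot a' := isRoot_conj σ hσ τ hτ hU hane ha
  have hcop : Nat.Coprime r q := (hr.coprime_iff_not_dvd).2 hrq
  have ha'k : orderOf (a' ^ k) = r := by
    have h1 : a' ^ k = ((a ^ k) ^ q)⁻¹ := by
      rw [ha', inv_pow, ← pow_mul, ← pow_mul, mul_comm]
    have h2 : orderOf ((a ^ k) ^ q) = r := by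
      rw [orderOf_pow' _ (by omega), hak, hcop.gcd_eq_one, Nat.div_one]
    rw [h1, ← h2, orderOf_eq_orderOf_iff]
    intro t
    rw [inv_pow, inv_eq_one]
  have hcp : X0.charpoly.natDegree = 2 * m := by rw [Matrix.charpoly_natDegree_eq_dim, Fintype.card_fin]
  have hint : IsIntegral F a := IsIntegral.of_finite F a
  have hint' : IsIntegral F a' := IsIntegral.of_finite F a'
  have hdiv : minpoly F a ∣ X0.charpoly := minpoly.dvd F a (by
    rw [IsRoot.def, eval_map_algebraMap] at ha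
    exact ha)
  have hdiv' : minpoly F a' ∣ X0.charpoly := minpoly.dvd F a' (by
    rw [IsRoot.def, eval_map_algebraMap] at har
    exact har)
  have hDpos : 0 < (minpoly F a).natDegree := minpoly.natDegree_pos hint
  have hDpos' : 0 < (minpoly F a').natDegree := minpoly.natDegree_pos hint'
  have hrD := dvd_of_orderOf (F := F) hak hane
  have hrD' := dvd_of_orderOf (F := F) ha'k ha'ne
  rw [hFn, ← pow_mul, hrdvd] at hrD hrD'
  have hDm := Nat.le_of_dvd hDpos hrD
  have hDm' := Nat.le_of_dvd hDpos' hrD'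
  -- the two minimal polynomials are different
  have hne : minpoly F a ≠ minpoly F a' := by
    intro h
    obtain ⟨i, hi⟩ := exists_frob h
    rw [hFn] at hi
    have h1 : a ^ ((q ^ 2) ^ i + q) = 1 := by
      rw [pow_add, ← hi, ha']
      exact inv_mul_cancel₀ (pow_ne_zero q hane)
    have h2 : r ∣ (q ^ 2) ^ i + q := by
      rw [← hak]
      apply orderOf_dvd_of_pow_eq_one
      rw [← pow_mul, mul_comm, pow_mul, h1, one_pow]
    rcases Nat.eq_zero_or_pos i with rfl | hi0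
    · apply hrodd 1 odd_one
      rw [pow_one]
      rw [pow_zero, add_comm] at h2
      exact h2
    · have h3 : (q ^ 2) ^ i + q = q * (q ^ (2 * i - 1) + 1) := by
        rw [← pow_mul, mul_add, mul_one, ← pow_succ']
        congr 2
        omega
      rw [h3] at h2
      exact hrodd (2 * i - 1) ⟨i - 1, by omega⟩ (hcop.dvd_of_dvd_mul_left h2)
  have hirr := minpoly.irreducible hint
  have hirr' := minpoly.irreducible hint'
  have hcopr : IsCoprime (minpoly F a) (minpoly F a') := by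
    rw [hirr.coprime_iff_not_dvd]
    intro h
    exact hne (eq_of_monic_of_associated (minpoly.monic hint) (minpoly.monic hint')
      (hirr.associated_of_dvd hirr' h))
  have hprod : minpoly F a * minpoly F a' ∣ X0.charpoly := hcopr.mul_dvd hdiv hdiv'
  have hmon : (minpoly F a * minpoly F a').Monic := (minpoly.monic hint).mul (minpoly.monic hint')
  have hdeg : (minpoly F a * minpoly F a').natDegree = (minpoly F a).natDegree + (minpoly F a').natDegree :=
    (minpoly.monic hint).natDegree_mul (minpoly.monic hint')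
  have hle : (minpoly F a).natDegree + (minpoly F a').natDegree ≤ 2 * m := by
    rw [← hdeg, ← hcp]
    exact natDegree_le_of_dvd hprod (Matrix.charpoly_monic X0).ne_zero
  have hD : (minpoly F a).natDegree = m := by omega
  have hD' : (minpoly F a').natDegree = m := by omega
  have hcharpoly : X0.charpoly = minpoly F a * minpoly F a' :=
    eq_of_monic_of_dvd_of_natDegree_le hmon (Matrix.charpoly_monic X0) hprod
      (by rw [hcp, hdeg, hD, hD']; omega)
  -- the determinant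
  set S := ∑ i ∈ Finset.range m, (q ^ 2) ^ i with hS
  have hnorm : a ^ (S * (q - 1)) = 1 := by
    have h1 := norm_minpoly (F := F) a
    have h1' := norm_minpoly (F := F) a'
    rw [hD, hFn] at h1
    rw [hD', hFn] at h1'
    have h2 := Matrix.det_eq_sign_charpoly_coeff X0
    rw [Fintype.card_fin, hcharpoly, mul_coeff_zero] at h2
    have h3 : X0.det = 1 := (x : Matrix.SpecialLinearGroup (Fin (2 * m)) F).2
    have e1 : ((-1) ^ m * (minpoly F a).coeff 0) * ((-1) ^ m * (minpoly F a').coeff 0) = 1 := by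
      rw [sign_mul, ← h2, h3]
    have h4 : a ^ S * a' ^ S = 1 := by
      rw [← h1, ← h1', ← map_mul, e1, map_one]
    have h5 : a ^ S = (a ^ S) ^ q := by
      have h6 : a' ^ S = ((a ^ S) ^ q)⁻¹ := by
        rw [ha', inv_pow, ← pow_mul, ← pow_mul, mul_comm]
      rw [h6] at h4
      exact (mul_inv_eq_one₀ (pow_ne_zero _ (pow_ne_zero _ hane))).1 h4
    have h7 : (a ^ S) ^ (q - 1) * (a ^ S) = 1 * a ^ S := by
      rw [← pow_succ, Nat.sub_add_cancel hq1, ← h5, one_mul]
    rw [pow_mul]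
    exact mul_right_cancel₀ (pow_ne_zero _ hane) h7
  rw [geom_sq q m hq1] at hnorm
  -- the exponent
  set d := Nat.gcd (2 * m) (q + 1) with hd
  have hdq : d ∣ q + 1 := Nat.gcd_dvd_right _ _
  obtain ⟨K, hK⟩ : d ∣ mM q m * nN q m := (dvd_mul_iff hq1 hdq).2 (Nat.gcd_dvd_left _ _)
  obtain ⟨e, he⟩ := hdq
  have haK1 : (a ^ K) ^ (q + 1) = 1 := by
    rw [he, ← pow_mul, show K * (d * e) = (d * K) * e by ring, ← hK, pow_mul, hnorm, one_pow]
  have haK : (a ^ K) ^ (Nat.card F - 1) = 1 := by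
    have h1 : q ^ 2 - 1 = (q + 1) * (q - 1) := by
      have := Nat.sq_sub_sq q 1
      rwa [one_pow] at this
    rw [hFn, h1, pow_mul, haK1, one_pow]
  obtain ⟨c, hc⟩ := mem_range_of_pow haK
  have ha'K : a' ^ K = algebraMap F L c := by
    have h1 : a' ^ K = ((a ^ K) ^ q)⁻¹ := by
      rw [ha', inv_pow, ← pow_mul, ← pow_mul, mul_comm]
    rw [h1, hc]
    apply inv_eq_of_mul_eq_one_left
    rw [← pow_succ', haK1]
  have hXK : X0 ^ K = Matrix.scalar (Fin (2 * m)) c := by
    apply pow_eq_scalar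
    rw [hcharpoly]
    exact hcopr.mul_dvd (minpoly.dvd F a (by simp [hc])) (minpoly.dvd F a' (by simp [ha'K]))
  have hgK := mk_pow_eq_one x hXK
  have hNK : nN q m ∣ K := by
    rw [← hg]
    exact orderOf_dvd_of_pow_eq_one hgK
  obtain ⟨t, ht⟩ := hNK
  have hNpos : 0 < nN q m := by rw [← hg]; exact orderOf_pos _
  have hdM : d ∣ mM q m := by
    refine ⟨t, ?_⟩
    have h1 : mM q m * nN q m = d * t * nN q m := by
      rw [hK, ht]; ring
    exact Nat.eq_of_mul_eq_mul_right hNpos h1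
  exact (dvd_mM_iff (Nat.gcd_dvd_right _ _)).1 hdM

theorem forward {F : Type*} [Field F] [Fintype F] {q : ℕ} (hF : Fintype.card F = q ^ 2) (hodd : Odd q)
    {m : ℕ} (hm : 2 ≤ m) (g : Cfsg.PSU (2 * m) F q) (hg : orderOf g = nN q m) :
    Nat.gcd (2 * m) (q + 1) ∣ m := by
  obtain ⟨x, rfl⟩ := QuotientGroup.mk_surjective g
  have : Finite (((x : Matrix.SpecialLinearGroup (Fin (2 * m)) F) :
      Matrix (Fin (2 * m)) (Fin (2 * m)) F).charpoly.SplittingField) :=
    Module.finite_of_finite F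
  exact forward_aux hF hodd hm x hg (SplittingField.splits _)

/-- Some `s` satisfies `s ^ (q + 1) = -1`. -/
theorem exists_s {F : Type*} [Field F] [Fintype F] {q : ℕ} (hF : Fintype.card F = q ^ 2) (hodd : Odd q) :
    ∃ s : F, s ^ (q + 1) = -1 := by
  have h2 : ringChar F ≠ 2 := by
    intro h
    have h1 := (FiniteField.even_card_iff_char_two).1 h
    rw [hF] at h1
    have h3 : Odd (q ^ 2) := hodd.pow
    have h4 := Nat.odd_iff.1 h3
    omega
  obtain ⟨a, ha⟩ := FiniteField.exists_nonsquare h2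
  have ha0 : a ≠ 0 := by rintro rfl; exact ha (IsSquare.zero)
  refine ⟨a ^ ((q - 1) / 2), ?_⟩
  have h3 := FiniteField.pow_dichotomy h2 ha0
  have h4 := (FiniteField.isSquare_iff h2 ha0).not.1 ha
  have h5 := h3.resolve_left h4
  rw [← pow_mul]
  have h6 : (q - 1) / 2 * (q + 1) = Fintype.card F / 2 := by
    rw [hF]
    obtain ⟨t, rfl⟩ := hodd
    have e1 : (2 * t + 1 - 1) / 2 = t := by omega
    rw [e1]
    have e2 : (2 * t + 1) ^ 2 = 2 * (t * (2 * t + 1 + 1)) + 1 := by ring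
    rw [e2]; omega
  rw [h6, h5]

section construct

variable {F : Type*} [Field F] {m : ℕ}

/-- The antidiagonal form. -/
def JJ (F : Type*) [Field F] (m : ℕ) : Matrix (Fin m ⊕ Fin m) (Fin m ⊕ Fin m) F := fromBlocks 0 1 1 0

/-- The base change. -/
def PP (m : ℕ) (s : F) : Matrix (Fin m ⊕ Fin m) (Fin m ⊕ Fin m) F :=
  fromBlocks 1 ((2 : F)⁻¹ • 1) (s • 1) ((-(2 : F)⁻¹ * s) • 1)

theorem PP_form (σ : F →+* F) (h2 : (2 : F) ≠ 0) {s : F} (hs : s * σ s = -1) :
    (PP m s)ᵀ * (PP m s).map σ = JJ F m := by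
  have hmapsmul : ∀ c : F, ((c • (1 : Matrix (Fin m) (Fin m) F)).map σ) = σ c • 1 := by
    intro c
    ext i j
    by_cases hij : i = j
    · subst hij; simp
    · simp [hij]
  have hmap1 : (1 : Matrix (Fin m) (Fin m) F).map σ = 1 := Matrix.map_one _ (map_zero _) (map_one _)
  unfold PP JJ
  rw [fromBlocks_transpose, fromBlocks_map, fromBlocks_multiply]
  simp only [transpose_one, transpose_smul, hmapsmul, hmap1, mul_one, one_mul, smul_mul_assoc,
    mul_smul_comm, smul_smul, map_mul, map_neg, map_inv₀, map_ofNat]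
  rw [← one_smul F (1 : Matrix (Fin m) (Fin m) F)]
  simp only [smul_smul, ← add_smul, mul_one]
  have hs' : σ s * s = -1 := by rw [mul_comm]; exact hs
  have h22 : (2 : F)⁻¹ + 2⁻¹ = 1 := by
    rw [← two_mul, mul_inv_cancel₀ h2]
  congr 1
  · rw [show (1 + σ s * s) = 0 by rw [hs']; ring, zero_smul]
  · rw [show (2⁻¹ + -2⁻¹ * σ s * s : F) = 1 by linear_combination (-(2 : F)⁻¹) * hs' + h22]
  · rw [show (2⁻¹ + σ s * (-2⁻¹ * s) : F) = 1 by linear_combination (-(2 : F)⁻¹) * hs' + h22]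
  · rw [show (2⁻¹ * 2⁻¹ + -2⁻¹ * σ s * (-2⁻¹ * s) : F) = 0 by
      linear_combination ((2 : F)⁻¹ * (2 : F)⁻¹) * hs', zero_smul]

theorem JJ_sq : JJ F m * JJ F m = 1 := by
  unfold JJ
  rw [fromBlocks_multiply]
  simp

theorem JJ_transpose : (JJ F m)ᵀ = JJ F m := by
  unfold JJ
  rw [fromBlocks_transpose]
  simp

/-- The inverse of `PP`. -/
def QQ (m : ℕ) (σ : F →+* F) (s : F) : Matrix (Fin m ⊕ Fin m) (Fin m ⊕ Fin m) F :=
  JJ F m * ((PP m s).map σ)ᵀ

theorem QQ_mul (σ : F →+* F) (h2 : (2 : F) ≠ 0) {s : F} (hs : s * σ s = -1) :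
    QQ m σ s * PP m s = 1 := by
  have h1 := congrArg Matrix.transpose (PP_form (m := m) σ h2 hs)
  rw [transpose_mul, transpose_transpose, JJ_transpose] at h1
  unfold QQ
  rw [Matrix.mul_assoc, h1, JJ_sq]

theorem mul_QQ (σ : F →+* F) (h2 : (2 : F) ≠ 0) {s : F} (hs : s * σ s = -1) :
    PP m s * QQ m σ s = 1 := mul_eq_one_comm.1 (QQ_mul σ h2 hs)

/-- The embedding of `GL_m` into the unitary group. -/
def XX (σ : F →+* F) (s : F) (A B : Matrix (Fin m) (Fin m) F) :
    Matrix (Fin m ⊕ Fin m) (Fin m ⊕ Fin m) F := PP m s * fromBlocks A 0 0 B * QQ m σ s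

theorem blk_form (σ : F →+* F) {A B : Matrix (Fin m) (Fin m) F} (h1 : Aᵀ * B.map σ = 1)
    (h2 : Bᵀ * A.map σ = 1) :
    (fromBlocks A 0 0 B)ᵀ * JJ F m * (fromBlocks A 0 0 B).map σ = JJ F m := by
  have h0 : (0 : Matrix (Fin m) (Fin m) F).map σ = 0 := Matrix.map_zero _ (map_zero _)
  unfold JJ
  rw [fromBlocks_transpose, fromBlocks_map, fromBlocks_multiply, fromBlocks_multiply, h0]
  simp [h1, h2]

theorem XX_form (σ : F →+* F) (h2 : (2 : F) ≠ 0) {s : F} (hs : s * σ s = -1)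
    {A B : Matrix (Fin m) (Fin m) F} (hA : Aᵀ * B.map σ = 1) (hB : Bᵀ * A.map σ = 1) :
    (XX σ s A B)ᵀ * (XX σ s A B).map σ = 1 := by
  have e1 : (XX σ s A B)ᵀ * (XX σ s A B).map σ =
      (QQ m σ s)ᵀ * ((fromBlocks A 0 0 B)ᵀ * ((PP m s)ᵀ * (PP m s).map σ) * (fromBlocks A 0 0 B).map σ) *
        (QQ m σ s).map σ := by
    unfold XX
    rw [Matrix.map_mul, Matrix.map_mul, transpose_mul, transpose_mul]
    simp only [Matrix.mul_assoc]
  rw [e1, PP_form σ h2 hs, blk_form σ hA hB, ← PP_form σ h2 hs]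
  have e2 : (QQ m σ s)ᵀ * ((PP m s)ᵀ * (PP m s).map σ) * (QQ m σ s).map σ =
      (PP m s * QQ m σ s)ᵀ * (PP m s * QQ m σ s).map σ := by
    rw [Matrix.map_mul, transpose_mul]
    simp only [Matrix.mul_assoc]
  rw [e2, mul_QQ σ h2 hs, transpose_one, Matrix.map_one _ (map_zero _) (map_one _), mul_one]

theorem XX_mul (σ : F →+* F) (h2 : (2 : F) ≠ 0) {s : F} (hs : s * σ s = -1)
    (A B A' B' : Matrix (Fin m) (Fin m) F) :
    XX σ s A B * XX σ s A' B' = XX σ s (A * A') (B * B') := by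
  unfold XX
  have e1 : PP m s * fromBlocks A 0 0 B * QQ m σ s * (PP m s * fromBlocks A' 0 0 B' * QQ m σ s) =
      PP m s * (fromBlocks A 0 0 B * (QQ m σ s * PP m s) * fromBlocks A' 0 0 B') * QQ m σ s := by
    simp only [Matrix.mul_assoc]
  rw [e1, QQ_mul σ h2 hs, Matrix.mul_one, fromBlocks_multiply]
  simp

theorem XX_one (σ : F →+* F) (h2 : (2 : F) ≠ 0) {s : F} (hs : s * σ s = -1) :
    XX (m := m) σ s 1 1 = 1 := by
  unfold XX
  rw [fromBlocks_one, Matrix.mul_one, mul_QQ σ h2 hs]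

theorem XX_pow (σ : F →+* F) (h2 : (2 : F) ≠ 0) {s : F} (hs : s * σ s = -1)
    (A B : Matrix (Fin m) (Fin m) F) (k : ℕ) :
    XX σ s A B ^ k = XX σ s (A ^ k) (B ^ k) := by
  induction k with
  | zero => rw [pow_zero, pow_zero, pow_zero, XX_one σ h2 hs]
  | succ k ih => rw [pow_succ, ih, XX_mul σ h2 hs, ← pow_succ, ← pow_succ]

theorem XX_scalar (σ : F →+* F) (h2 : (2 : F) ≠ 0) {s : F} (hs : s * σ s = -1)
    (A B : Matrix (Fin m) (Fin m) F) (c : F) :
    XX σ s A B = Matrix.scalar _ c ↔ A = Matrix.scalar _ c ∧ B = Matrix.scalar _ c := by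
  have hsc : (Matrix.scalar (Fin m ⊕ Fin m) c) =
      fromBlocks (Matrix.scalar (Fin m) c) 0 0 (Matrix.scalar (Fin m) c) := by
    rw [Matrix.scalar_apply, Matrix.scalar_apply, fromBlocks_diagonal]
    congr 1
    funext i
    rcases i with i | i <;> rfl
  constructor
  · intro h
    have h1 : QQ m σ s * XX σ s A B * PP m s = fromBlocks A 0 0 B := by
      unfold XX
      have e1 : QQ m σ s * (PP m s * fromBlocks A 0 0 B * QQ m σ s) * PP m s =
          (QQ m σ s * PP m s) * fromBlocks A 0 0 B * (QQ m σ s * PP m s) := by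
        simp only [Matrix.mul_assoc]
      rw [e1, QQ_mul σ h2 hs, Matrix.one_mul, Matrix.mul_one]
    rw [h, ((Matrix.scalar_commute c (fun _ => Commute.all _ _) (QQ m σ s)).eq).symm, Matrix.mul_assoc,
      QQ_mul σ h2 hs, Matrix.mul_one, hsc] at h1
    obtain ⟨h3, -, -, h4⟩ := fromBlocks_inj.1 h1
    exact ⟨h3.symm, h4.symm⟩
  · rintro ⟨rfl, rfl⟩
    unfold XX
    rw [← hsc, ((Matrix.scalar_commute c (fun _ => Commute.all _ _) (PP m s)).eq).symm, Matrix.mul_assoc,
      mul_QQ σ h2 hs, Matrix.mul_one]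

theorem XX_det (σ : F →+* F) (h2 : (2 : F) ≠ 0) {s : F} (hs : s * σ s = -1)
    (A B : Matrix (Fin m) (Fin m) F) : (XX σ s A B).det = A.det * B.det := by
  unfold XX
  rw [det_mul, det_mul, mul_right_comm, ← det_mul, mul_QQ σ h2 hs, det_one, one_mul,
    det_fromBlocks_zero₂₁]

end construct

theorem backward {F : Type*} [Field F] [Fintype F] {q : ℕ} (hF : Fintype.card F = q ^ 2) (hodd : Odd q)
    {m : ℕ} (hm : 2 ≤ m) (h : Nat.gcd (2 * m) (q + 1) ∣ m) :
    ∃ g : Cfsg.PSU (2 * m) F q, orderOf g = nN q m := by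
  classical
  have hFn : Nat.card F = q ^ 2 := by rw [Nat.card_eq_fintype_card, hF]
  have hq1 : 1 ≤ q := hodd.pos
  obtain ⟨p, hp⟩ := CharP.exists F
  have hpp : p.Prime := CharP.char_is_prime F p
  have : Fact p.Prime := ⟨hpp⟩
  obtain ⟨j, hj0, hj⟩ := exists_pow hF p
  obtain ⟨σ, hσ⟩ := exists_frobHom F p j
  rw [← hj] at hσ
  have : NeZero m := ⟨by omega⟩
  let E := FiniteField.Extension F p m
  have : Finite E := inferInstanceAs (Finite (FiniteField.Extension F p m))
  have hfr : Module.finrank F E = m := FiniteField.finrank_extension F p m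
  have hcard : Nat.card E = q ^ (2 * m) := by rw [FiniteField.natCard_extension, hFn, ← pow_mul]
  have hunits : Nat.card Eˣ = (q + 1) * mM q m * nN q m := by
    rw [Nat.card_units, hcard, ← mul_eq q m hq1, mul_assoc]
  have hgcd : Nat.gcd (q + 1) (mM q m * nN q m) ∣ mM q m := by
    rw [gcd_eq hq1]
    exact (dvd_mM_iff (Nat.gcd_dvd_right _ _)).2 h
  obtain ⟨u, hu1, hu2⟩ := exists_elt (C := Eˣ) hunits hgcd
  let b : Module.Basis (Fin m) F E := Module.finBasisOfFinrankEq F E hfr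
  obtain ⟨s, hs0⟩ := exists_s hF hodd
  have hs : s * σ s = -1 := by rw [hσ, ← pow_succ', hs0]
  have h2 : (2 : F) ≠ 0 := by
    intro h0
    have h3 : ringChar F = 2 := by
      have h4 := (ringChar.spec F 2).1 (by exact_mod_cast h0)
      rcases (Nat.dvd_prime Nat.prime_two).1 h4 with h5 | h5
      · exact absurd h5 (CharP.ringChar_ne_one)
      · exact h5
    have h1 := (FiniteField.even_card_iff_char_two).1 h3
    rw [hF] at h1
    have h5 := Nat.odd_iff.1 (hodd.pow (n := 2))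
    omega
  have hσσ : ∀ y : F, σ (σ y) = y := by
    intro y
    rw [hσ, hσ, ← pow_mul, ← sq, ← hF, FiniteField.pow_card]
  -- the two matrices
  let A : Eˣ → Matrix (Fin m) (Fin m) F := fun v => Algebra.leftMulMatrix b (v : E)
  have hAmul : ∀ v w, A (v * w) = A v * A w := fun v w => by
    show Algebra.leftMulMatrix b ((v * w : Eˣ) : E) = _
    rw [Units.val_mul, map_mul]
  have hAone : A 1 = 1 := by
    show Algebra.leftMulMatrix b ((1 : Eˣ) : E) = _
    rw [Units.val_one, map_one]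
  have hApow : ∀ v (k : ℕ), A v ^ k = A (v ^ k) := by
    intro v k
    induction k with
    | zero => rw [pow_zero, pow_zero, hAone]
    | succ k ih => rw [pow_succ, ih, ← hAmul, ← pow_succ]
  set X : Matrix (Fin m ⊕ Fin m) (Fin m ⊕ Fin m) F := XX σ s (A u) ((A u⁻¹).map σ)ᵀ with hX
  have hform1 : (A u)ᵀ * (((A u⁻¹).map σ)ᵀ).map σ = 1 := by
    have e1 : (((A u⁻¹).map σ)ᵀ).map σ = (A u⁻¹)ᵀ := by
      ext i j
      simp [hσσ]
    rw [e1, ← transpose_mul, ← hAmul, inv_mul_cancel, hAone, transpose_one]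
  have hform2 : (((A u⁻¹).map σ)ᵀ)ᵀ * (A u).map σ = 1 := by
    rw [transpose_transpose, ← Matrix.map_mul, ← hAmul, inv_mul_cancel, hAone,
      Matrix.map_one _ (map_zero _) (map_one _)]
  have hXform : Xᵀ * X.map σ = 1 := XX_form σ h2 hs hform1 hform2
  have hdet : X.det = 1 := by
    rw [hX, XX_det σ h2 hs, det_transpose]
    have e1 : ((A u⁻¹).map σ).det = σ (A u⁻¹).det := (RingHom.map_det σ _).symm
    have e2 : (A u).det * (A u⁻¹).det = 1 := by rw [← det_mul, ← hAmul, mul_inv_cancel, hAone, det_one]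
    have e3 : (A u).det ^ (q - 1) = 1 := by
      apply (algebraMap F E).injective
      rw [map_pow, map_one]
      show (algebraMap F E (Algebra.leftMulMatrix b (u : E)).det) ^ (q - 1) = 1
      rw [← Algebra.norm_eq_matrix_det, FiniteField.algebraMap_norm_eq_pow_sum, hfr, hFn, ← pow_mul,
        geom_sq q m hq1, ← Units.val_pow_eq_pow_val, hu1, Units.val_one]
    have e4 : (A u).det = σ (A u).det := by
      rw [hσ]
      conv_lhs => rw [← one_mul (A u).det, ← e3, ← pow_succ, Nat.sub_add_cancel hq1]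
    rw [e1, e4, ← map_mul, e2, map_one]
  -- the element
  let e : Fin m ⊕ Fin m ≃ Fin (2 * m) := finSumFinEquiv.trans (finCongr (two_mul m).symm)
  let R : Matrix (Fin m ⊕ Fin m) (Fin m ⊕ Fin m) F ≃ₐ[F] Matrix (Fin (2 * m)) (Fin (2 * m)) F :=
    Matrix.reindexAlgEquiv F F e
  have hRsc : ∀ c : F, R (Matrix.scalar _ c) = Matrix.scalar _ c := by
    intro c
    exact R.commutes c
  have hRdet : (R X).det = 1 := by
    show (Matrix.reindex e e X).det = 1
    rw [Matrix.det_reindex_self, hdet]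
  let g0 : Matrix.SpecialLinearGroup (Fin (2 * m)) F := ⟨R X, hRdet⟩
  have hg0 : g0 ∈ Cfsg.SU (2 * m) F q := by
    rw [mem_SU_iff_matrix σ hσ]
    show (R X)ᵀ * (R X).map σ = 1
    have e1 : (R X)ᵀ = R Xᵀ := rfl
    have e2 : (R X).map σ = R (X.map σ) := rfl
    rw [e1, e2, ← map_mul, hXform, map_one]
  let x : Cfsg.SU (2 * m) F q := ⟨g0, hg0⟩
  have hxk : ∀ k : ℕ, (((x ^ k : Cfsg.SU (2 * m) F q) : Matrix.SpecialLinearGroup (Fin (2 * m)) F) :
      Matrix (Fin (2 * m)) (Fin (2 * m)) F) = R (X ^ k) := by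
    intro k
    rw [Subgroup.coe_pow, Matrix.SpecialLinearGroup.coe_pow, map_pow]
  have hXk : ∀ k : ℕ, X ^ k = XX σ s (A (u ^ k)) ((A (u ^ k)⁻¹).map σ)ᵀ := by
    intro k
    rw [hX, XX_pow σ h2 hs, hApow, ← Matrix.transpose_pow, ← inv_pow, ← hApow u⁻¹ k]
    congr 2
    have : ((A u⁻¹).map σ) = σ.mapMatrix (A u⁻¹) := rfl
    rw [this, ← map_pow]
    rfl
  have hsc : ∀ c : F, Matrix.scalar (Fin m) c = Algebra.leftMulMatrix b (algebraMap F E c) := by
    intro c
    rw [AlgHom.commutes]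
    rfl
  refine ⟨QuotientGroup.mk x, ?_⟩
  rw [← hu2, orderOf_eq_orderOf_iff]
  intro k
  constructor
  · intro h
    rw [← QuotientGroup.mk_pow, QuotientGroup.eq_one_iff,
      Cfsg.Agent.LieClassical.SUBasic.mem_center_SU_iff hF (by omega)] at h
    obtain ⟨c, hcn, hcq, hc⟩ := h
    have h3 : R (X ^ k) = Matrix.scalar _ c := by
      rw [← hxk, hc]
      rfl
    rw [← hRsc] at h3
    have h4 := R.injective h3
    rw [hXk, XX_scalar σ h2 hs] at h4
    obtain ⟨h5, -⟩ := h4
    rw [hsc] at h5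
    have h6 := Algebra.leftMulMatrix_injective b h5
    apply Units.ext
    rw [← pow_mul, mul_comm (q + 1) k, pow_mul, Units.val_pow_eq_pow_val, h6, ← map_pow, hcq, map_one,
      Units.val_one]
  · intro h
    have h3 : (u ^ k) ^ (q + 1) = 1 := by rw [← pow_mul, mul_comm, pow_mul]; exact h
    have h4 : ((u ^ k : Eˣ) : E) ^ (Nat.card F - 1) = 1 := by
      have h5 : q ^ 2 - 1 = (q + 1) * (q - 1) := by
        have := Nat.sq_sub_sq q 1
        rwa [one_pow] at this
      rw [hFn, h5, pow_mul, ← Units.val_pow_eq_pow_val, h3, Units.val_one, one_pow]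
    obtain ⟨c, hc⟩ := mem_range_of_pow h4
    apply mk_pow_eq_one x (c := c)
    rw [← Matrix.SpecialLinearGroup.coe_pow, ← Subgroup.coe_pow, hxk, ← hRsc]
    congr 1
    rw [hXk, XX_scalar σ h2 hs]
    have hcq : c * σ c = 1 := by
      rw [hσ, ← pow_succ']
      apply (algebraMap F E).injective
      rw [map_pow, hc, ← Units.val_pow_eq_pow_val, h3, Units.val_one, map_one]
    have hA1 : A (u ^ k) = Matrix.scalar (Fin m) c := by
      rw [hsc, hc]
    refine ⟨hA1, ?_⟩
    have hA2 : A (u ^ k)⁻¹ = Matrix.scalar (Fin m) (σ c) := by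
      have h7 : A (u ^ k) * A (u ^ k)⁻¹ = 1 := by rw [← hAmul, mul_inv_cancel, hAone]
      have h8 : Matrix.scalar (Fin m) (σ c) * A (u ^ k) = 1 := by
        rw [hA1, ← map_mul, mul_comm, hcq, map_one]
      calc A (u ^ k)⁻¹ = Matrix.scalar (Fin m) (σ c) * A (u ^ k) * A (u ^ k)⁻¹ := by
            rw [h8, Matrix.one_mul]
        _ = _ := by rw [Matrix.mul_assoc, h7, Matrix.mul_one]
    rw [hA2]
    ext i j
    by_cases hij : i = j
    · subst hij; simp [hσσ]
    · simp [hij, Ne.symm hij]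

/-- Let q be an odd prime power, n ≥ 4 even, and U = PSU(n,q) (realised over the field with q² elements). Then U has an element of order q^(n/2) + (−1)^(n/2) — that is, q^(n/2) + 1 when n/2 is even and q^(n/2) − 1 when n/2 is odd — if and only if the 2-part of n exceeds the 2-part of q + 1. -/
theorem result {F : Type*} [Field F] [Fintype F] {q : ℕ} (hF : Fintype.card F = q ^ 2) (hodd : Odd q)
    {n : ℕ} (hn : 4 ≤ n) (heven : Even n) :
    (∃ g : Cfsg.PSU n F q, orderOf g = if Even (n / 2) then q ^ (n / 2) + 1 else q ^ (n / 2) - 1) ↔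
      padicValNat 2 (q + 1) < padicValNat 2 n := by
  obtain ⟨m, rfl⟩ := heven
  rw [← two_mul, Nat.mul_div_cancel_left m (by norm_num), ← gcd_dvd_iff (by omega) (by omega)]
  constructor
  · rintro ⟨g, hg⟩
    exact forward hF hodd (by omega) g hg
  · intro h
    exact backward hF hodd (by omega) h

end Cfsg.Agent.S2496
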