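import Cfsg.Statements.S2503
import Mathlib
set_option linter.all false

set_option autoImplicit false
open Cfsg

namespace Cfsg.Agent.S2503

open Matrix

variable {F : Type*} [Field F] [Fintype F]

/-- the Artin-Schreier map is not surjective -/
private theorem exists_irr [CharP F 2] : ∃ d : F, ∀ r : F, r ^ 2 ≠ d + 1 * r := by
  classical
  have h : ¬ Function.Surjective (fun r : F => r ^ 2 - r) := by
    intro hs
    have hi := Finite.injective_iff_surjective.mpr hs
    have : (0 : F) = 1 := hi (by simp)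
    exact zero_ne_one this
  rw [Function.Surjective] at h
  push Not at h
  obtain ⟨d, hd⟩ := h
  refine ⟨d, fun r hr => hd r ?_⟩
  rw [hr]
  ring

variable {d : F}

/-- The matrix of the multiplication by `z`. -/
private def mat (z : QuadraticAlgebra F d 1) : Matrix (Fin 2) (Fin 2) F :=
  !![z.re, d * z.im; z.im, z.re + z.im]

private theorem mat_mul (z w : QuadraticAlgebra F d 1) : mat (z * w) = mat z * mat w := by
  ext i j
  fin_cases i <;> fin_cases j <;> simp [mat, Matrix.mul_apply, Fin.sum_univ_two] <;> ring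

private theorem mat_one : mat (1 : QuadraticAlgebra F d 1) = 1 := by
  ext i j
  fin_cases i <;> fin_cases j <;> simp [mat, QuadraticAlgebra.re_one, QuadraticAlgebra.im_one]

private theorem mat_det (z : QuadraticAlgebra F d 1) : (mat z).det = z.norm := by
  rw [QuadraticAlgebra.norm_def, mat, Matrix.det_fin_two_of]
  ring

private theorem mat_inj {z w : QuadraticAlgebra F d 1} (h : mat z = mat w) : z = w := by
  have h0 := congrFun (congrFun h 0) 0
  have h1 := congrFun (congrFun h 1) 0
  simp [mat] at h0 h1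
  exact QuadraticAlgebra.ext h0 h1

private abbrev N1 (d : F) [Fact (∀ r : F, r ^ 2 ≠ d + 1 * r)] : Subgroup (QuadraticAlgebra F d 1)ˣ :=
  (Units.map (QuadraticAlgebra.norm : QuadraticAlgebra F d 1 →* F)).ker

private def toSL [Fact (∀ r : F, r ^ 2 ≠ d + 1 * r)] : N1 d →* Matrix.SpecialLinearGroup (Fin 2) F where
  toFun z := ⟨mat ((z : (QuadraticAlgebra F d 1)ˣ) : QuadraticAlgebra F d 1), by
    rw [mat_det]
    have := z.2
    rw [MonoidHom.mem_ker, Units.ext_iff] at this
    exact this⟩
  map_one' := by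
    apply Subtype.ext
    exact mat_one
  map_mul' z w := by
    apply Subtype.ext
    exact mat_mul _ _

private theorem toSL_inj [Fact (∀ r : F, r ^ 2 ≠ d + 1 * r)] : Function.Injective (toSL (d := d)) := by
  intro z w h
  have := congrArg Subtype.val h
  exact Subtype.ext (Units.ext (mat_inj this))

/-- The unipotent elements. -/
private def uni : Multiplicative F →* Matrix.SpecialLinearGroup (Fin 2) F where
  toFun s := ⟨!![1, s.toAdd; 0, 1], by simp [Matrix.det_fin_two_of]⟩
  map_one' := by
    apply Subtype.ext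
    show !![1, Multiplicative.toAdd (1 : Multiplicative F); 0, 1] = 1
    ext i j
    fin_cases i <;> fin_cases j <;> simp
  map_mul' s t := by
    apply Subtype.ext
    show !![1, Multiplicative.toAdd (s * t); 0, 1] =
      !![1, Multiplicative.toAdd s; 0, 1] * !![1, Multiplicative.toAdd t; 0, 1]
    ext i j
    fin_cases i <;> fin_cases j <;> simp [Matrix.mul_apply, Fin.sum_univ_two, add_comm]

private theorem uni_inj : Function.Injective (uni (F := F)) := by
  intro s t h
  have h1 : !![1, Multiplicative.toAdd s; 0, 1] = !![1, Multiplicative.toAdd t; 0, 1] :=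
    congrArg Subtype.val h
  have h2 := congrFun (congrFun h1 0) 1
  simpa using h2

private theorem finite_quad : Finite (QuadraticAlgebra F d 1) :=
  Finite.of_equiv _ (QuadraticAlgebra.equivProd d 1).symm

private theorem card_quad : Nat.card (QuadraticAlgebra F d 1) = Fintype.card F ^ 2 := by
  rw [Nat.card_congr (QuadraticAlgebra.equivProd d 1), Nat.card_prod, Nat.card_eq_fintype_card, sq]

private theorem sq_surj [CharP F 2] (x : F) : ∃ y : F, y ^ 2 = x := by
  obtain ⟨y, hy⟩ := (frobeniusEquiv F 2).surjective x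
  exact ⟨y, hy⟩

private theorem card_N1 [CharP F 2] [Fact (∀ r : F, r ^ 2 ≠ d + 1 * r)] :
    Nat.card (N1 d) = Fintype.card F + 1 := by
  have hfin : Finite (QuadraticAlgebra F d 1) := finite_quad
  have hsurj : Function.Surjective (Units.map (QuadraticAlgebra.norm : QuadraticAlgebra F d 1 →* F)) := by
    intro u
    obtain ⟨y, hy⟩ := sq_surj (u : F)
    have hy0 : y ≠ 0 := by
      rintro rfl
      exact u.ne_zero (by rw [← hy]; simp)
    refine ⟨Units.map (algebraMap F (QuadraticAlgebra F d 1)).toMonoidHom (Units.mk0 y hy0), ?_⟩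
    apply Units.ext
    show QuadraticAlgebra.norm (algebraMap F (QuadraticAlgebra F d 1) y) = u
    rw [QuadraticAlgebra.norm_algebraMap, hy]
  have h1 := (Units.map (QuadraticAlgebra.norm : QuadraticAlgebra F d 1 →* F)).ker.card_mul_index
  rw [Subgroup.index_ker, MonoidHom.range_eq_top.mpr hsurj, Subgroup.card_top] at h1
  have h2 : Nat.card (QuadraticAlgebra F d 1)ˣ = Fintype.card F ^ 2 - 1 := by
    rw [Nat.card_units, card_quad]
  have h3 : Nat.card Fˣ = Fintype.card F - 1 := by
    rw [Nat.card_units, Nat.card_eq_fintype_card]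
  rw [h2, h3] at h1
  have hq : 1 < Fintype.card F := Fintype.one_lt_card
  have h4 : Fintype.card F ^ 2 - 1 = (Fintype.card F + 1) * (Fintype.card F - 1) := by
    have := Nat.sq_sub_sq (Fintype.card F) 1
    simpa using this
  rw [h4] at h1
  exact Nat.eq_of_mul_eq_mul_right (by omega) h1

private theorem exists_unit [CharP F 2] [Fact (∀ r : F, r ^ 2 ≠ d + 1 * r)]
    (z : QuadraticAlgebra F d 1) (m : F) (hm : m ^ 2 = z.norm) :
    ∃ u : N1 d, z = m • ((u : (QuadraticAlgebra F d 1)ˣ) : QuadraticAlgebra F d 1) := by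
  by_cases h : m = 0
  · refine ⟨1, ?_⟩
    rw [h, zero_smul]
    rw [h, zero_pow two_ne_zero] at hm
    exact QuadraticAlgebra.norm_eq_zero_iff_eq_zero.mp hm.symm
  · have hz : z ≠ 0 := by
      rintro rfl
      rw [QuadraticAlgebra.norm_zero] at hm
      exact h (pow_eq_zero_iff two_ne_zero |>.mp hm)
    have hn : (m⁻¹ • z).norm = 1 := by
      rw [← QuadraticAlgebra.C_mul_eq_smul, map_mul, QuadraticAlgebra.C_eq_algebraMap,
        QuadraticAlgebra.norm_algebraMap, ← hm]
      field_simp
    have hz' : m⁻¹ • z ≠ 0 := smul_ne_zero (inv_ne_zero h) hz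
    refine ⟨⟨Units.mk0 _ hz', ?_⟩, ?_⟩
    · rw [MonoidHom.mem_ker]
      exact Units.ext hn
    · show z = m • (m⁻¹ • z)
      rw [smul_smul, mul_inv_cancel₀ h, one_smul]

private theorem mat_main [CharP F 2] (a c : QuadraticAlgebra F d 1) (s : F) :
    mat a * !![1, s; 0, 1] * mat c =
      mat ((1 + s) • (a * c)) + mat (s • (a * star c)) * !![1, 1; 0, 1] := by
  have h2 : (2 : F) = 0 := CharTwo.two_eq_zero
  ext i j
  fin_cases i <;> fin_cases j <;>
    simp [mat, Matrix.mul_apply, Fin.sum_univ_two, QuadraticAlgebra.re_star,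
      QuadraticAlgebra.im_star]
  · linear_combination (-(a.re * c.re * s)) * h2
  · linear_combination (-(d * s * a.im * c.re)) * h2
  · linear_combination (-(a.im * c.re * s)) * h2
  · linear_combination (-(a.im * s * c.re) - s * a.re * c.re) * h2

private theorem mat_decomp [CharP F 2] (p q r t : F) :
    !![p, q; r, t] = mat (⟨p + q + d * r, p + t⟩ : QuadraticAlgebra F d 1) +
      mat (⟨q + d * r, r + p + t⟩ : QuadraticAlgebra F d 1) * !![1, 1; 0, 1] := by
  have h2 : (2 : F) = 0 := CharTwo.two_eq_zero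
  ext i j
  fin_cases i <;> fin_cases j <;>
    simp [mat, Matrix.mul_apply, Fin.sum_univ_two]
  · linear_combination (-q - d * r) * h2
  · linear_combination (-(d * p) - d * t - d * r) * h2
  · linear_combination (-p - t) * h2
  · linear_combination (-t - 2 * p - q - d * r - r) * h2

/-- The main computation. -/
private theorem main [CharP F 2] [Fact (∀ r : F, r ^ 2 ≠ d + 1 * r)]
    (g : Matrix.SpecialLinearGroup (Fin 2) F) :
    ∃ a c : N1 d, ∃ s : Multiplicative F, g = toSL a * uni s * toSL c := by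
  have hfin : Finite (QuadraticAlgebra F d 1) := finite_quad
  have h2 : (2 : F) = 0 := CharTwo.two_eq_zero
  obtain ⟨g, hg⟩ := g
  have hgd : g = !![g 0 0, g 0 1; g 1 0, g 1 1] := by
    ext i j
    fin_cases i <;> fin_cases j <;> rfl
  set p := g 0 0
  set q := g 0 1
  set r := g 1 0
  set t := g 1 1
  have hdet : p * t - q * r = 1 := by
    rw [← hg, Matrix.det_fin_two]
  set α : QuadraticAlgebra F d 1 := ⟨p + q + d * r, p + t⟩ with hα
  set β : QuadraticAlgebra F d 1 := ⟨q + d * r, r + p + t⟩ with hβ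
  obtain ⟨s, hs⟩ := sq_surj β.norm
  have hs' : (1 + s) ^ 2 = α.norm := by
    rw [CharTwo.add_sq, hs, one_pow]
    rw [QuadraticAlgebra.norm_def, QuadraticAlgebra.norm_def, hα, hβ]
    simp only
    linear_combination hdet + (1 + q * r - q * p - 2 * d * r * p - d * r * t - p * t - p ^ 2) * h2
  obtain ⟨u, hu⟩ := exists_unit α (1 + s) hs'
  obtain ⟨v, hv⟩ := exists_unit β s hs
  have hcop : (Nat.card (N1 d)).Coprime 2 := by
    rw [card_N1]
    have : Even (Fintype.card F) := by
      obtain ⟨n, -, hn⟩ := FiniteField.card F 2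
      rw [hn]
      exact (Nat.even_pow' (PNat.ne_zero n)).mpr even_two
    exact Nat.coprime_two_right.mpr this.add_one
  obtain ⟨a, ha⟩ := (powCoprime hcop).surjective (u * v)
  have ha' : a ^ 2 = u * v := ha
  refine ⟨a, u * a⁻¹, Multiplicative.ofAdd s, ?_⟩
  apply Subtype.ext
  show g = mat _ * !![1, s; 0, 1] * mat _
  rw [mat_main]
  have e1 : ((a : (QuadraticAlgebra F d 1)ˣ) : QuadraticAlgebra F d 1) *
      (((u * a⁻¹ : N1 d) : (QuadraticAlgebra F d 1)ˣ) : QuadraticAlgebra F d 1) =
      ((u : (QuadraticAlgebra F d 1)ˣ) : QuadraticAlgebra F d 1) := by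
    have : a * (u * a⁻¹) = u := by
      rw [mul_comm u, mul_inv_cancel_left]
    exact congrArg (fun w : N1 d => ((w : (QuadraticAlgebra F d 1)ˣ) : QuadraticAlgebra F d 1)) this
  have hstar : ∀ w : N1 d, star ((w : (QuadraticAlgebra F d 1)ˣ) : QuadraticAlgebra F d 1) =
      (((w⁻¹ : N1 d) : (QuadraticAlgebra F d 1)ˣ) : QuadraticAlgebra F d 1) := by
    intro w
    have h1 : ((w : (QuadraticAlgebra F d 1)ˣ) : QuadraticAlgebra F d 1) *
        star ((w : (QuadraticAlgebra F d 1)ˣ) : QuadraticAlgebra F d 1) = 1 := by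
      rw [← QuadraticAlgebra.algebraMap_norm_eq_mul_star]
      have := w.2
      rw [MonoidHom.mem_ker, Units.ext_iff] at this
      have h3 : QuadraticAlgebra.norm ((w : (QuadraticAlgebra F d 1)ˣ) : QuadraticAlgebra F d 1) = 1 :=
        this
      rw [h3, map_one]
    show _ = (((w : (QuadraticAlgebra F d 1)ˣ)⁻¹ : (QuadraticAlgebra F d 1)ˣ) : QuadraticAlgebra F d 1)
    exact (Units.inv_eq_of_mul_eq_one_right h1).symm
  have e2 : ((a : (QuadraticAlgebra F d 1)ˣ) : QuadraticAlgebra F d 1) *
      star (((u * a⁻¹ : N1 d) : (QuadraticAlgebra F d 1)ˣ) : QuadraticAlgebra F d 1) =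
      ((v : (QuadraticAlgebra F d 1)ˣ) : QuadraticAlgebra F d 1) := by
    rw [hstar]
    have : a * (u * a⁻¹)⁻¹ = v := by
      rw [mul_inv, inv_inv, mul_left_comm, ← sq, ha', inv_mul_cancel_left]
    exact congrArg (fun w : N1 d => ((w : (QuadraticAlgebra F d 1)ˣ) : QuadraticAlgebra F d 1)) this
  rw [e1, e2, ← hu, ← hv, hα, hβ, ← mat_decomp]
  exact hgd

private theorem center_eq [CharP F 2] : Subgroup.center (Matrix.SpecialLinearGroup (Fin 2) F) = ⊥ := by
  rw [eq_bot_iff]
  intro g hg
  rw [Subgroup.mem_bot]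
  rw [Matrix.SpecialLinearGroup.mem_center_iff] at hg
  obtain ⟨r, hr, hg⟩ := hg
  apply Subtype.ext
  rw [← hg]
  have : r = 1 := by
    rw [Fintype.card_fin] at hr
    have h := CharTwo.sq_injective (R := F) (show r ^ 2 = 1 ^ 2 by rw [hr, one_pow])
    exact h
  rw [this]
  simp

/-- Let F be a finite field with q = 2^t ≥ 4 elements and L = PSL(2,F). Then L has a cyclic subgroup A of order q + 1 and an elementary abelian 2-subgroup B of order q such that L = ABA: every element of L is a product a·b·a' with a, a' ∈ A and b ∈ B. -/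
theorem result {F : Type*} [Field F] [Fintype F]
    (h2 : 2 ∣ Fintype.card F) (h4 : 4 ≤ Fintype.card F) :
    ∃ A B : Subgroup (Matrix.ProjectiveSpecialLinearGroup (Fin 2) F),
      IsCyclic A ∧ Nat.card A = Fintype.card F + 1 ∧ IsMulCommutative B ∧ (∀ b ∈ B, b * b = 1) ∧
        Nat.card B = Fintype.card F ∧
        ∀ g : Matrix.ProjectiveSpecialLinearGroup (Fin 2) F, ∃ a ∈ A, ∃ b ∈ B, ∃ c ∈ A, g = a * b * c := by
  classical
  have hchar : CharP F 2 := by
    obtain ⟨p, hp⟩ := CharP.exists F
    obtain ⟨n, hpr, hn⟩ := FiniteField.card F p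
    rw [hn] at h2
    have := (Nat.prime_dvd_prime_iff_eq Nat.prime_two hpr).mp (Nat.prime_two.dvd_of_dvd_pow h2)
    rw [this]
    exact hp
  obtain ⟨d, hd⟩ := exists_irr (F := F)
  have hfact : Fact (∀ r : F, r ^ 2 ≠ d + 1 * r) := ⟨hd⟩
  have hfin : Finite (QuadraticAlgebra F d 1) := finite_quad
  let π : Matrix.SpecialLinearGroup (Fin 2) F →* Matrix.ProjectiveSpecialLinearGroup (Fin 2) F :=
    QuotientGroup.mk' _
  have hπ : Function.Injective π := by
    rw [← MonoidHom.ker_eq_bot_iff, QuotientGroup.ker_mk']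
    exact center_eq
  have hπs : Function.Surjective π := QuotientGroup.mk'_surjective _
  have hA : Function.Injective (π.comp (toSL (d := d))) := hπ.comp toSL_inj
  have hB : Function.Injective (π.comp (uni (F := F))) := hπ.comp uni_inj
  refine ⟨(π.comp (toSL (d := d))).range, (π.comp uni).range, ?_, ?_, ?_, ?_, ?_, ?_⟩
  · exact isCyclic_of_surjective _ (MonoidHom.rangeRestrict_surjective _)
  · rw [← card_N1 (d := d)]
    exact (Nat.card_congr (MonoidHom.ofInjective hA).toEquiv).symm
  · refine ⟨⟨?_⟩⟩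
    rintro ⟨_, x, rfl⟩ ⟨_, y, rfl⟩
    apply Subtype.ext
    show (π.comp uni) x * (π.comp uni) y = (π.comp uni) y * (π.comp uni) x
    rw [← map_mul, mul_comm, map_mul]
  · rintro _ ⟨x, rfl⟩
    rw [← map_mul]
    have : x * x = 1 := by
      apply Multiplicative.toAdd.injective
      show x.toAdd + x.toAdd = 0
      exact CharTwo.add_self_eq_zero _
    rw [this, map_one]
  · rw [← Nat.card_eq_fintype_card, ← Nat.card_congr (MonoidHom.ofInjective hB).toEquiv]
    rfl
  · intro g
    obtain ⟨g, rfl⟩ := hπs g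
    obtain ⟨a, c, s, h⟩ := main (d := d) g
    refine ⟨_, ⟨a, rfl⟩, _, ⟨s, rfl⟩, _, ⟨c, rfl⟩, ?_⟩
    rw [h, map_mul, map_mul]
    rfl

end Cfsg.Agent.S2503
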