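import Cfsg.Agent.H159.SpDich
import Cfsg.Agent.H186.Unitary
import Cfsg.Agent.H954.FieldSub
import Cfsg.Agent.LieClassical.SUBasic
import Cfsg.Agent.H159.Orders
import Cfsg.Statements.S2511
set_option linter.all false

-- part: H159/UniMat
section
/-!
Matrices of `GU_n(q)` with prescribed (self-dual) minimal polynomial of degree `n`, and orders of
elements of `PSU_n(q)` modulo scalars.
-/

set_option autoImplicit false

namespace Cfsg.Agent.H159

open Polynomial Module Matrix
open Cfsg.Agent.H186 (st st_mul st_one st_add st_smul st_st st_algebraMap mem_GU_iff_st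
  exists_isConj_iff)

theorem semiconj_aeval {F R : Type*} [Field F] [Ring R] [Algebra F R] {c x y : R}
    (h : c * x = y * c) (P : F[X]) : c * aeval x P = aeval y P * c := by
  have hpow : ∀ k : ℕ, c * x ^ k = y ^ k * c := by
    intro k
    induction k with
    | zero => simp
    | succ k ih => rw [pow_succ', ← mul_assoc, h, mul_assoc, ih, ← mul_assoc, ← pow_succ']
  induction P using Polynomial.induction_on' with
  | add p q hp hq => rw [map_add, mul_add, hp, hq, map_add, add_mul]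
  | monomial k r =>
    rw [aeval_monomial, aeval_monomial, ← mul_assoc, ← Algebra.commutes r c, mul_assoc, hpow,
      mul_assoc]

theorem minpoly_eq_of_semiconj {F R : Type*} [Field F] [Ring R] [Algebra F R] [FiniteDimensional F R]
    {c x y : R} (hc : IsUnit c) (h : c * x = y * c) : minpoly F x = minpoly F y := by
  obtain ⟨c, rfl⟩ := hc
  refine eq_of_monic_of_associated (minpoly.monic (Algebra.IsIntegral.isIntegral x))
    (minpoly.monic (Algebra.IsIntegral.isIntegral y)) (associated_of_dvd_dvd ?_ ?_)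
  · apply minpoly.dvd
    have h1 := semiconj_aeval (F := F) h (minpoly F y)
    rw [minpoly.aeval, zero_mul] at h1
    exact (Units.mul_right_eq_zero c).1 h1
  · apply minpoly.dvd
    have h1 := semiconj_aeval (F := F) h (minpoly F x)
    rw [minpoly.aeval, mul_zero] at h1
    exact (Units.mul_left_eq_zero c).1 h1.symm

variable {F : Type*} [Field F] [Fintype F] {q n : ℕ}

theorem st_zero (hK : Fintype.card F = q ^ 2) : st q (0 : Matrix (Fin n) (Fin n) F) = 0 := by
  have := st_algebraMap (ι := Fin n) hK (0 : F)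
  have hq : q ≠ 0 := by
    rintro rfl
    have := Fintype.card_pos (α := F)
    rw [hK] at this
    simp at this
  rwa [map_zero, zero_pow hq, map_zero] at this

theorem st_aeval (hK : Fintype.card F = q ^ 2) (σ : F →+* F) (hσ : ∀ c, σ c = c ^ q)
    (M : Matrix (Fin n) (Fin n) F) (P : F[X]) :
    st q (aeval M P) = aeval (st q M) (P.map σ) := by
  have hpow : ∀ k : ℕ, st q (M ^ k) = (st q M) ^ k := by
    intro k
    induction k with
    | zero => rw [pow_zero, pow_zero, st_one hK]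
    | succ k ih => rw [pow_succ, st_mul hK, ih, pow_succ']
  induction P using Polynomial.induction_on' with
  | add p r hp hr => rw [map_add, st_add hK, hp, hr, Polynomial.map_add, map_add]
  | monomial k r =>
    rw [aeval_monomial, map_monomial, aeval_monomial, st_mul hK, st_algebraMap hK, hpow, hσ]
    exact (Algebra.commutes _ _).symm

/-- **Existence** of a unitary matrix with given self-dual minimal polynomial of degree `n`. -/
theorem exists_gu_minpoly (hK : Fintype.card F = q ^ 2) (σ : F →+* F) (hσ : ∀ c, σ c = c ^ q)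
    {a : F[X]} (hmon : a.Monic) (h0 : a.coeff 0 ≠ 0) (hself : Associated (dl σ a) a)
    (hd : a.natDegree = n) :
    ∃ B : Matrix (Fin n) (Fin n) F, st q B * B = 1 ∧ minpoly F B = a := by
  have hσσ : ∀ c, σ (σ c) = c := fun c => by
    rw [hσ, hσ, ← pow_mul, ← sq, ← hK, FiniteField.pow_card]
  -- companion matrix
  have hfd : FiniteDimensional F (AdjoinRoot a) := (AdjoinRoot.powerBasis hmon.ne_zero).finite
  have hfr : finrank F (AdjoinRoot a) = n := by
    rw [(AdjoinRoot.powerBasis hmon.ne_zero).finrank, AdjoinRoot.powerBasis_dim, hd]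
  let b := finBasisOfFinrankEq F (AdjoinRoot a) hfr
  have hmroot : minpoly F (AdjoinRoot.root a) = a := by
    rw [AdjoinRoot.minpoly_root hmon.ne_zero, hmon.leadingCoeff]; simp
  obtain ⟨A₀, hA₀⟩ : ∃ A₀ : Matrix (Fin n) (Fin n) F, minpoly F A₀ = a := by
    refine ⟨Algebra.leftMulMatrix b (AdjoinRoot.root a), ?_⟩
    rw [minpoly.algHom_eq _ (Algebra.leftMulMatrix_injective b), hmroot]
  have hunit : IsUnit A₀ := by
    -- `a = X c + a(0)`
    have h1 : aeval A₀ a = 0 := by rw [← hA₀, minpoly.aeval]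
    rw [← Polynomial.divX_mul_X_add a, map_add, map_mul, aeval_X, aeval_C] at h1
    have h2 : A₀ * (-(algebraMap F _ (a.coeff 0)⁻¹) * aeval A₀ a.divX) = 1 := by
      have h3 : aeval A₀ a.divX * A₀ = - algebraMap F _ (a.coeff 0) := eq_neg_of_add_eq_zero_left h1
      have h4 : A₀ * aeval A₀ a.divX = aeval A₀ a.divX * A₀ := by
        have := congrArg (aeval A₀) (mul_comm X a.divX)
        rwa [map_mul, map_mul, aeval_X] at this
      rw [← mul_assoc, mul_neg, ← Algebra.commutes, neg_mul, mul_assoc, h4, h3, mul_neg, neg_neg,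
        ← map_mul, inv_mul_cancel₀ h0, map_one]
    exact (Matrix.isUnit_iff_isUnit_det _).2 (by
      have := congrArg Matrix.det h2
      rw [Matrix.det_mul, Matrix.det_one] at this
      exact IsUnit.of_mul_eq_one _ this)
  obtain ⟨A, hA⟩ := hunit
  -- the inverse adjoint
  set A' : Matrix (Fin n) (Fin n) F := st q ((A⁻¹ : GL (Fin n) F) : Matrix (Fin n) (Fin n) F) with hA'
  have hAst : (st q (A : Matrix (Fin n) (Fin n) F)) * A' = 1 := by
    rw [hA', ← st_mul hK, Units.inv_mul, st_one hK]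
  have hAst' : A' * (st q (A : Matrix (Fin n) (Fin n) F)) = 1 := by
    rw [hA', ← st_mul hK, Units.mul_inv, st_one hK]
  have hinv : (st q (A : Matrix (Fin n) (Fin n) F))⁻¹ = A' := Matrix.inv_eq_right_inv hAst
  have hdual1 : ∀ c : F[X], aeval (A : Matrix (Fin n) (Fin n) F) c = 0 → aeval A' (dl σ c) = 0 := by
    intro c hc
    rw [aeval_dl σ hAst', ← st_aeval hK σ hσ, hc, st_zero hK, mul_zero]
  have hdual2 : ∀ c : F[X], aeval A' c = 0 → aeval (A : Matrix (Fin n) (Fin n) F) (dl σ c) = 0 := by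
    intro c hc
    have h1 : st q A' = ((A⁻¹ : GL (Fin n) F) : Matrix (Fin n) (Fin n) F) := by rw [hA', st_st hK]
    rw [aeval_dl σ (Units.mul_inv A), ← h1, ← st_aeval hK σ hσ, hc, st_zero hK, mul_zero]
  have hmin' : minpoly F A' = a := by
    have h1 : aeval (A : Matrix (Fin n) (Fin n) F) a = 0 := by
      have h2 := minpoly.aeval F A₀
      rw [hA₀] at h2
      rw [hA]; exact h2
    have h2 : minpoly F A' ∣ a := (minpoly.dvd F A' (hdual1 a h1)).trans hself.dvd
    have h3 : a ∣ dl σ (minpoly F A') := by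
      have := minpoly.dvd F _ (hdual2 _ (minpoly.aeval F A'))
      rwa [hA, hA₀] at this
    have h4 : a.natDegree ≤ (minpoly F A').natDegree := by
      refine (natDegree_le_of_dvd h3 (dl_ne_zero σ
        (minpoly.ne_zero (Algebra.IsIntegral.isIntegral _)))).trans ?_
      unfold dl
      exact (reverse_natDegree_le _).trans (natDegree_map_le)
    exact (eq_of_monic_of_dvd_of_natDegree_le (minpoly.monic (Algebra.IsIntegral.isIntegral _)) hmon
      h2 h4).symm
  -- conjugacy
  have hlin : ∀ M : Matrix (Fin n) (Fin n) F, minpoly F M = a →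
      minpoly F (Matrix.toLinAlgEquiv' M) = a := by
    intro M hM
    rw [← hM]
    exact minpoly.algHom_eq (Matrix.toLinAlgEquiv' (R := F) (n := Fin n)).toAlgHom
      (Matrix.toLinAlgEquiv' (R := F) (n := Fin n)).injective M
  have hx := hlin (A : Matrix (Fin n) (Fin n) F) (by rw [hA, hA₀])
  have hy := hlin A' hmin'
  obtain ⟨e, he⟩ := Cfsg.Agent.H954.FieldSub.exists_equiv_minpoly
    (Matrix.toLinAlgEquiv' (A : Matrix (Fin n) (Fin n) F)) (Matrix.toLinAlgEquiv' A') (by rw [hx, hy])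
    (by rw [hx, hd]; simp) (by rw [hy, hd]; simp)
  have hconj : IsConj (A : Matrix (Fin n) (Fin n) F)
      (((A : Matrix (Fin n) (Fin n) F).map (fun x : F => x ^ q)).transpose)⁻¹ := by
    change IsConj (A : Matrix (Fin n) (Fin n) F) (st q (A : Matrix (Fin n) (Fin n) F))⁻¹
    rw [hinv]
    have hc1 : LinearMap.toMatrix' (e : (Fin n → F) →ₗ[F] (Fin n → F)) *
        LinearMap.toMatrix' (e.symm : (Fin n → F) →ₗ[F] (Fin n → F)) = 1 := by
      rw [← LinearMap.toMatrix'_comp]; simp
    have hc2 : LinearMap.toMatrix' (e.symm : (Fin n → F) →ₗ[F] (Fin n → F)) *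
        LinearMap.toMatrix' (e : (Fin n → F) →ₗ[F] (Fin n → F)) = 1 := by
      rw [← LinearMap.toMatrix'_comp]; simp
    refine ⟨⟨_, _, hc1, hc2⟩, ?_⟩
    show LinearMap.toMatrix' (e : (Fin n → F) →ₗ[F] (Fin n → F)) * (A : Matrix (Fin n) (Fin n) F) =
      A' * LinearMap.toMatrix' (e : (Fin n → F) →ₗ[F] (Fin n → F))
    apply Matrix.toLin'.injective
    rw [Matrix.toLin'_mul, Matrix.toLin'_mul, Matrix.toLin'_toMatrix']
    exact LinearMap.ext fun v => he v
  obtain ⟨⟨B, hB⟩, hAB⟩ := (exists_isConj_iff hK A).2 hconj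
  rw [mem_GU_iff_st hK] at hB
  refine ⟨(B : Matrix (Fin n) (Fin n) F), hB, ?_⟩
  obtain ⟨c, hc⟩ := hAB
  have hc' : (((c : GL (Fin n) F)) : Matrix (Fin n) (Fin n) F) * (A : Matrix (Fin n) (Fin n) F) =
      (B : Matrix (Fin n) (Fin n) F) * (((c : GL (Fin n) F)) : Matrix (Fin n) (Fin n) F) := by
    have := congrArg (fun M : GL (Fin n) F => (M : Matrix (Fin n) (Fin n) F)) hc
    simpa using this
  rw [← minpoly_eq_of_semiconj (F := F) (c : GL (Fin n) F).isUnit hc', hA, hA₀]

end Cfsg.Agent.H159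
end

-- part: H159/UniOrd
section
/-!
Orders of elements of `PSU_n(q)` in terms of unitary matrices: transfer, multiplication by an
element of prime order `r ∣ q + 1`, block sums, self-adjoint idempotents.
-/

set_option autoImplicit false

namespace Cfsg.Agent.H159

open Polynomial Module Matrix
open Cfsg.Agent.H186 (st st_mul st_one st_add st_smul st_st st_algebraMap mem_GU_iff_st st_apply)
open Cfsg.Agent.LieClassical.SUBasic (mem_SU_iff mem_center_SU_iff suScalar coe_suScalar)

variable {F : Type*} [Field F] [Fintype F] {q n : ℕ}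

theorem hermForm_iff_st (hK : Fintype.card F = q ^ 2) (M : Matrix (Fin n) (Fin n) F)
    (hM : IsUnit M) :
    (∀ u v : Fin n → F, Cfsg.hermForm n F q (M *ᵥ u) (M *ᵥ v) = Cfsg.hermForm n F q u v) ↔
      st q M * M = 1 := by
  obtain ⟨M, rfl⟩ := hM
  rw [← mem_GU_iff_st hK M]
  exact (Cfsg.Agent.ClassicalGeometry.GUBasic.mem_GU_iff M).symm

theorem psu_pow_eq_one_iff (hK : Fintype.card F = q ^ 2) (hn : 3 ≤ n) (g : Cfsg.SU n F q) (m : ℕ) :
    ((QuotientGroup.mk g : Cfsg.PSU n F q) ^ m = 1) ↔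
      ScPow F ((g : Matrix.SpecialLinearGroup (Fin n) F) : Matrix (Fin n) (Fin n) F) m := by
  have hcoe : (((g ^ m : Cfsg.SU n F q) : Matrix.SpecialLinearGroup (Fin n) F) :
      Matrix (Fin n) (Fin n) F) =
      ((g : Matrix.SpecialLinearGroup (Fin n) F) : Matrix (Fin n) (Fin n) F) ^ m := by
    rw [Subgroup.coe_pow, Matrix.SpecialLinearGroup.coe_pow]
  rw [← QuotientGroup.mk_pow, QuotientGroup.eq_one_iff, mem_center_SU_iff hK hn]
  constructor
  · rintro ⟨c, hcn, hcq, hc⟩
    refine ⟨c, ?_⟩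
    rw [← hcoe, hc, coe_suScalar]
    rfl
  · rintro ⟨c, hc⟩
    have hdiag : (((g ^ m : Cfsg.SU n F q) : Matrix.SpecialLinearGroup (Fin n) F) :
      Matrix (Fin n) (Fin n) F) = Matrix.diagonal (fun _ => c) := by
      rw [hcoe, hc]; rfl
    have hcn : c ^ n = 1 := by
      have h3 := (g ^ m : Cfsg.SU n F q).1.2
      rw [hdiag] at h3
      simpa using h3
    have hcq : c ^ (q + 1) = 1 := by
      have h1 := (mem_SU_iff _).1 (g ^ m : Cfsg.SU n F q).2
      rw [hdiag] at h1
      have h2 := (hermForm_iff_st hK (Matrix.diagonal (fun _ : Fin n => c)) (by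
        rw [Matrix.isUnit_iff_isUnit_det, ← hdiag, (g ^ m : Cfsg.SU n F q).1.2]
        exact isUnit_one)).1 h1
      have h3 := congrFun (congrFun h2 ⟨0, by omega⟩) ⟨0, by omega⟩
      rw [Matrix.mul_diagonal, st_apply, Matrix.diagonal_apply_eq, Matrix.one_apply_eq] at h3
      rw [pow_succ, h3]
    exact ⟨c, hcn, hcq, Subtype.ext (Subtype.ext (by rw [hdiag, coe_suScalar]))⟩

theorem exists_mat_of_psu (hK : Fintype.card F = q ^ 2) (hn : 3 ≤ n) (x : Cfsg.PSU n F q) :
    ∃ g : Matrix (Fin n) (Fin n) F, st q g * g = 1 ∧ g.det = 1 ∧ ∀ m, x ^ m = 1 ↔ ScPow F g m := by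
  obtain ⟨g, rfl⟩ := QuotientGroup.mk_surjective x
  refine ⟨((g : Matrix.SpecialLinearGroup (Fin n) F) : Matrix (Fin n) (Fin n) F), ?_, g.1.2,
    fun m => psu_pow_eq_one_iff hK hn g m⟩
  apply (hermForm_iff_st hK _ _).1 ((mem_SU_iff _).1 g.2)
  rw [Matrix.isUnit_iff_isUnit_det, g.1.2]
  exact isUnit_one

omit [Fintype F] in
theorem st_reindex {ι κ : Type*} (e : ι ≃ κ) (M : Matrix ι ι F) :
    st q (Matrix.reindex e e M) = Matrix.reindex e e (st q M) := rfl

theorem exists_psu_of_mat {ι : Type*} [Fintype ι] [DecidableEq ι] (hK : Fintype.card F = q ^ 2)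
    (hn : 3 ≤ n) (hι : Fintype.card ι = n) (g : Matrix ι ι F) (hg : st q g * g = 1)
    (hdet : g.det = 1) : ∃ x : Cfsg.PSU n F q, ∀ m, x ^ m = 1 ↔ ScPow F g m := by
  let e : ι ≃ Fin n := Fintype.equivFinOfCardEq hι
  set h := Matrix.reindex e e g with hh
  have hdet' : h.det = 1 := by rw [hh, Matrix.det_reindex_self, hdet]
  have hst : st q h * h = 1 := by
    rw [hh, st_reindex, Matrix.reindex_apply, Matrix.reindex_apply, Matrix.submatrix_mul_equiv, hg,
      Matrix.submatrix_one_equiv]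
  obtain ⟨M, hM⟩ : ∃ M : Matrix.SpecialLinearGroup (Fin n) F,
      (M : Matrix (Fin n) (Fin n) F) = h := ⟨⟨h, hdet'⟩, rfl⟩
  have hMm : M ∈ Cfsg.SU n F q := by
    rw [mem_SU_iff, hM]
    apply (hermForm_iff_st hK _ _).2 hst
    rw [Matrix.isUnit_iff_isUnit_det, hdet']
    exact isUnit_one
  refine ⟨QuotientGroup.mk (⟨M, hMm⟩ : Cfsg.SU n F q), fun m => ?_⟩
  rw [psu_pow_eq_one_iff hK hn]
  change ScPow F (M : Matrix (Fin n) (Fin n) F) m ↔ _
  rw [hM, hh]
  exact scPow_of_injective (Matrix.reindexAlgEquiv F F e).toAlgHom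
    (Matrix.reindexAlgEquiv F F e).injective

/-- A primitive `r`-th root of unity of norm one when `r ∣ q + 1`. -/
theorem exists_root_of_unity' (hK : Fintype.card F = q ^ 2) {r : ℕ} (hrq : r ∣ q + 1) :
    ∃ ζ : F, IsPrimitiveRoot ζ r ∧ ζ ^ q * ζ = 1 := by
  have hq := Cfsg.Agent.ClassicalGeometry.GUBasic.two_le hK
  obtain ⟨ζ, hζ⟩ := exists_root_of_unity (F := F) (r := r) (by
    rw [hK]
    have hfac : q ^ 2 - 1 = (q + 1) * (q - 1) := by
      have := Nat.sq_sub_sq q 1
      simpa using this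
    rw [hfac]
    exact hrq.mul_right _)
  refine ⟨ζ, hζ, ?_⟩
  rw [← pow_succ]
  obtain ⟨k, hk⟩ := hrq
  rw [hk, pow_mul, hζ.pow_eq_one, one_pow]

/-- **Adjoining `r`.** -/
theorem exists_psu_mul_r {ι : Type*} [Fintype ι] [DecidableEq ι] {r : ℕ}
    (hK : Fintype.card F = q ^ 2) (hn : 3 ≤ n) (hι : Fintype.card ι = n) (hr : r.Prime)
    (hrq : r ∣ q + 1) (hrn : ¬ r ∣ n) (h e : Matrix ι ι F) (hst : st q h * h = 1)
    (hdet : h.det = 1) (hee : e * e = e) (hes : st q e = e) (he0 : e ≠ 0) (he1 : e ≠ 1)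
    (heh : e * h = h * e) :
    ∃ y : Cfsg.PSU n F q, (∀ m, y ^ m = 1 → ScPow F h m) ∧ r ∣ orderOf y := by
  have hVnt : Nontrivial (Matrix ι ι F) := ⟨⟨e, 0, he0⟩⟩
  obtain ⟨ζ, hζ, hζn⟩ := exists_root_of_unity' (F := F) hK hrq
  obtain ⟨x, hx⟩ := exists_psu_of_mat hK hn hι h hst hdet
  by_cases hrx : r ∣ orderOf x
  · exact ⟨x, fun m hm => (hx m).1 hm, hrx⟩
  have h3 : (1 - e) * (1 - e) = 1 - e := by
    rw [sub_mul, mul_sub, mul_sub, hee]; simp
  have h4 : (1 - e) * e = 0 := by rw [sub_mul, one_mul, hee, sub_self]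
  have h5 : e * (1 - e) = 0 := by rw [mul_sub, mul_one, hee, sub_self]
  -- the element `e + ζ (1 - e)`
  have key : ∀ k : ℕ, (e + ζ • (1 - e)) ^ k = e + ζ ^ k • (1 - e) := by
    intro k
    induction k with
    | zero => simp
    | succ k ih =>
      rw [pow_succ, ih, mul_add, add_mul, add_mul]
      have h1 : e * (ζ • (1 - e)) = 0 := by
        rw [mul_smul_comm, h5, smul_zero]
      have h2 : (ζ ^ k • (1 - e)) * e = 0 := by
        rw [smul_mul_assoc, h4, smul_zero]
      rw [h1, h2, hee, smul_mul_smul_comm, h3, pow_succ]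
      simp
  have hr1 : (e + ζ • (1 - e)) ^ r = 1 := by
    rw [key, hζ.pow_eq_one]; simp
  have hrne : NeZero r := ⟨hr.ne_zero⟩
  obtain ⟨j, -, hj⟩ := hζ.eq_pow_of_pow_eq_one (ξ := Matrix.det (e + ζ • (1 - e))) (by
    rw [← Matrix.det_pow, hr1, Matrix.det_one])
  -- adjust by a scalar
  have hcop : Nat.Coprime n r := ((Nat.Prime.coprime_iff_not_dvd hr).2 hrn).symm
  obtain ⟨i, hi⟩ : ∃ i : ℕ, r ∣ i * n + j := by
    have h1 : IsUnit (n : ZMod r) := (ZMod.isUnit_iff_coprime n r).2 hcop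
    obtain ⟨u, hu⟩ := h1
    refine ⟨(-(j : ZMod r) * ((u⁻¹ : (ZMod r)ˣ) : ZMod r)).val, ?_⟩
    rw [← ZMod.natCast_eq_zero_iff, Nat.cast_add, Nat.cast_mul, ZMod.natCast_val, ZMod.cast_id,
      ← hu, mul_assoc, Units.inv_mul, mul_one, neg_add_cancel]
  set t : Matrix ι ι F := ζ ^ i • (e + ζ • (1 - e)) with ht
  have htr : t ^ r = 1 := by
    rw [ht, _root_.smul_pow, hr1, ← pow_mul, mul_comm i r, pow_mul, hζ.pow_eq_one]; simp
  have htdet : t.det = 1 := by
    rw [ht, Matrix.det_smul, ← hj, hι, ← pow_mul, ← pow_add]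
    obtain ⟨k, hk⟩ := hi
    rw [hk, pow_mul, hζ.pow_eq_one, one_pow]
  have hst1 : st q (1 - e) = 1 - e := by
    have h1 := st_add hK (1 - e) e
    rw [sub_add_cancel, st_one hK, hes] at h1
    exact eq_sub_of_add_eq h1.symm
  have htst : st q t * t = 1 := by
    rw [ht, st_smul, st_add hK, hes, st_smul, hst1, smul_mul_smul_comm, ← pow_mul, mul_comm i q,
      pow_mul, ← mul_pow, hζn, one_pow, one_smul, mul_add, add_mul, add_mul, mul_smul_comm, h5,
      smul_mul_assoc, h4, hee, smul_mul_smul_comm, h3, hζn]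
    simp
  have htsc : ∀ k, ScPow F t k → r ∣ k := by
    rintro k ⟨c, hc⟩
    rw [ht, _root_.smul_pow, key, Algebra.algebraMap_eq_smul_one] at hc
    have h1 := congrArg (fun f => e * f) hc
    have h2 := congrArg (fun f => (1 - e) * f) hc
    simp only [mul_smul_comm, mul_add, hee, h5, smul_zero, add_zero, mul_one] at h1
    simp only [mul_smul_comm, mul_add, h3, h4, zero_add, mul_one] at h2
    have h6 : (ζ ^ i) ^ k = c := by
      have h7 : ((ζ ^ i) ^ k - c) • e = 0 := by rw [sub_smul, h1, sub_self]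
      rcases smul_eq_zero.1 h7 with h8 | h8
      · exact sub_eq_zero.1 h8
      · exact absurd h8 he0
    have hne : (1 - e) ≠ 0 := fun h => he1 (sub_eq_zero.1 h).symm
    have h9 : (ζ ^ i) ^ k * ζ ^ k = c := by
      have h7 : ((ζ ^ i) ^ k * ζ ^ k - c) • (1 - e) = 0 := by
        rw [sub_smul, mul_smul, h2, sub_self]
      rcases smul_eq_zero.1 h7 with h8 | h8
      · exact sub_eq_zero.1 h8
      · exact absurd h8 hne
    have hζ0 : ζ ≠ 0 := hζ.ne_zero hr.ne_zero
    rw [← h6] at h9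
    have h10 : ζ ^ k = 1 := mul_left_cancel₀ (pow_ne_zero k (pow_ne_zero i hζ0)) (by rw [h9, mul_one])
    exact (hζ.pow_eq_one_iff_dvd k).1 h10
  have hcomm : Commute h t := by
    rw [ht]
    have hce : Commute h e := heh.symm
    exact ((hce.add_right (((Commute.one_right h).sub_right hce).smul_right ζ)).smul_right (ζ ^ i))
  obtain ⟨y, hy⟩ := exists_psu_of_mat hK hn hι (h * t) (by
    rw [st_mul hK, mul_assoc, ← mul_assoc (st q h), hst, one_mul, htst])
    (by rw [Matrix.det_mul, hdet, htdet, mul_one])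
  have hmain : ∀ m, y ^ m = 1 → ScPow F h m := by
    intro m hm
    obtain ⟨c, hc⟩ := (hy m).1 hm
    rw [hcomm.mul_pow] at hc
    have h1 : h ^ (m * r) = algebraMap F _ (c ^ r) := by
      have h2 : (h ^ m * t ^ m) ^ r = h ^ (m * r) := by
        rw [(hcomm.pow_pow m m).mul_pow, ← pow_mul, ← pow_mul, mul_comm m r, pow_mul t, htr]
        simp
      rw [← h2, hc, map_pow]
    have h3 : orderOf x ∣ m * r := orderOf_dvd_of_pow_eq_one ((hx _).2 ⟨_, h1⟩)
    have h4 : orderOf x ∣ m :=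
      (((Nat.Prime.coprime_iff_not_dvd hr).2 hrx).symm).dvd_of_dvd_mul_right h3
    exact (hx m).1 (orderOf_dvd_iff_pow_eq_one.1 h4)
  refine ⟨y, hmain, ?_⟩
  have h1 := hmain _ (pow_orderOf_eq_one y)
  obtain ⟨c, hc⟩ := (hy _).1 (pow_orderOf_eq_one y)
  obtain ⟨d, hd⟩ := h1
  apply htsc
  rw [hcomm.mul_pow, hd] at hc
  have hd0 : d ≠ 0 := by
    rintro rfl
    rw [map_zero] at hd
    have hu : IsUnit h := by
      rw [Matrix.isUnit_iff_isUnit_det, hdet]; exact isUnit_one
    exact (hu.pow (orderOf y)).ne_zero hd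
  refine ⟨d⁻¹ * c, ?_⟩
  rw [map_mul, ← hc, ← mul_assoc, ← map_mul, inv_mul_cancel₀ hd0, map_one, one_mul]

/-- **Block sums.** -/
theorem exists_block (hK : Fintype.card F = q ^ 2) {d k : ℕ} (hd : d ≠ 0) (hk : k ≠ 0)
    (B : Matrix (Fin d) (Fin d) F) (hB : st q B * B = 1) :
    ∃ h e : Matrix (Fin d ⊕ Fin k) (Fin d ⊕ Fin k) F, st q h * h = 1 ∧ h.det = 1 ∧ e * e = e ∧
      st q e = e ∧ e ≠ 0 ∧ e ≠ 1 ∧ e * h = h * e ∧ ∀ m, ScPow F h m → ScPow F B m := by
  have hq := Cfsg.Agent.ClassicalGeometry.GUBasic.two_le hK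
  obtain ⟨σ, hσ⟩ := Cfsg.Agent.ClassicalGeometry.GUBasic.exists_powHom hK
  have hstb : ∀ (a : Matrix (Fin d) (Fin d) F) (b : Matrix (Fin k) (Fin k) F),
      st q (Matrix.fromBlocks a 0 0 b) = Matrix.fromBlocks (st q a) 0 0 (st q b) := by
    intro a b
    ext i j
    rcases i with i | i <;> rcases j with j | j
    · rfl
    · simp [st_apply]; omega
    · simp [st_apply]; omega
    · rfl
  have hdetB : B.det ^ q * B.det = 1 := by
    have h1 := congrArg Matrix.det hB
    have h2 : st q B = (σ.mapMatrix B)ᵀ := by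
      ext i j
      rw [st_apply, Matrix.transpose_apply, RingHom.mapMatrix_apply, Matrix.map_apply, hσ]
    rw [Matrix.det_mul, h2, Matrix.det_transpose, ← RingHom.map_det, hσ, Matrix.det_one] at h1
    exact h1
  have hdet0 : B.det ≠ 0 := right_ne_zero_of_mul_eq_one hdetB
  let i0 : Fin k := ⟨0, by omega⟩
  set D : Matrix (Fin k) (Fin k) F := Matrix.diagonal (Function.update 1 i0 (B.det)⁻¹) with hD
  have hDdet : D.det = (B.det)⁻¹ := by
    rw [hD, Matrix.det_diagonal, Finset.prod_update_of_mem (Finset.mem_univ _)]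
    simp
  have hDst : st q D * D = 1 := by
    have h1 : st q D = Matrix.diagonal (fun i => (Function.update (1 : Fin k → F) i0 (B.det)⁻¹ i) ^ q) := by
      ext i j
      rw [st_apply, hD]
      by_cases hij : i = j
      · subst hij; simp
      · rw [Matrix.diagonal_apply_ne _ hij, Matrix.diagonal_apply_ne _ (Ne.symm hij),
          zero_pow (by omega)]
    rw [h1, hD, Matrix.diagonal_mul_diagonal, ← Matrix.diagonal_one]
    congr 1
    funext i
    by_cases hi : i = i0
    · subst hi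
      rw [Function.update_self, inv_pow, ← mul_inv, hdetB, inv_one]
    · rw [Function.update_of_ne hi]; simp
  refine ⟨Matrix.fromBlocks B 0 0 D, Matrix.fromBlocks 1 0 0 0, ?_, ?_, ?_, ?_, ?_, ?_, ?_, ?_⟩
  · rw [hstb, Matrix.fromBlocks_multiply, hB, hDst]
    simp
  · rw [Matrix.det_fromBlocks_zero₂₁, hDdet, mul_inv_cancel₀ hdet0]
  · rw [Matrix.fromBlocks_multiply]; simp
  · rw [hstb, st_one hK, st_zero hK]
  · intro h
    have := congrFun (congrFun h (Sum.inl ⟨0, by omega⟩)) (Sum.inl ⟨0, by omega⟩)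
    simp at this
  · intro h
    have := congrFun (congrFun h (Sum.inr i0)) (Sum.inr i0)
    simp at this
  · rw [Matrix.fromBlocks_multiply, Matrix.fromBlocks_multiply]; simp
  · rintro m ⟨c, hc⟩
    refine ⟨c, ?_⟩
    rw [Matrix.fromBlocks_diagonal_pow] at hc
    ext i j
    have := congrFun (congrFun hc (Sum.inl i)) (Sum.inl j)
    rw [Matrix.fromBlocks_apply₁₁] at this
    rw [this, Matrix.algebraMap_matrix_apply, Matrix.algebraMap_matrix_apply]
    simp [Sum.inl_injective.eq_iff]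

/-- The minimal polynomial of a unitary matrix is self-dual. -/
theorem uni_selfdual (hK : Fintype.card F = q ^ 2) (σ : F →+* F) (hσ : ∀ c, σ c = c ^ q)
    (g : Matrix (Fin n) (Fin n) F) (hg : st q g * g = 1) (h0 : (minpoly F g).coeff 0 ≠ 0) :
    Associated (dl σ (minpoly F g)) (minpoly F g) := by
  have hgg' : g * st q g = 1 := mul_eq_one_comm.1 hg
  have h1 : aeval (st q g) ((minpoly F g).map σ) = 0 := by
    rw [← st_aeval hK σ hσ, minpoly.aeval, st_zero hK]
  have h2 : minpoly F g ∣ dl σ (minpoly F g) := by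
    apply minpoly.dvd
    rw [aeval_dl σ hgg', h1, mul_zero]
  have hne : minpoly F g ≠ 0 := by intro hh; rw [hh] at h0; exact h0 (coeff_zero 0)
  exact (associated_of_dvd_of_natDegree_le h2 (dl_ne_zero σ hne) (natDegree_dl σ h0).le).symm

/-- A self-dual coprime factorisation gives a self-adjoint idempotent. -/
theorem uni_idempotent (hK : Fintype.card F = q ^ 2) (σ : F →+* F) (hσ : ∀ c, σ c = c ^ q)
    (g : Matrix (Fin n) (Fin n) F) (hg : st q g * g = 1) {a b : F[X]}
    (hab : minpoly F g = a * b) (hc : IsCoprime a b) (ha : ¬ IsUnit a) (hb : ¬ IsUnit b)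
    (hda : Associated (dl σ a) a) (hdb : Associated (dl σ b) b) :
    ∃ e : Matrix (Fin n) (Fin n) F, e * e = e ∧ st q e = e ∧ e ≠ 0 ∧ e ≠ 1 ∧ e * g = g * e := by
  have hgg' : g * st q g = 1 := mul_eq_one_comm.1 hg
  have hμ0 : minpoly F g ≠ 0 := minpoly.ne_zero (Algebra.IsIntegral.isIntegral _)
  obtain ⟨u, v, huv⟩ := id hc
  have hprod : aeval g (a * b) = 0 := by rw [← hab, minpoly.aeval]
  have hcg : ∀ (P Q : F[X]), Commute (aeval g P) (aeval g Q) := fun P Q => by
    show aeval g P * aeval g Q = aeval g Q * aeval g P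
    rw [← map_mul, mul_comm, map_mul]
  have hsg : Commute (st q g) g := by
    show st q g * g = g * st q g
    rw [hg, hgg']
  have hcs : ∀ (P : F[X]) (k : ℕ), Commute ((st q g) ^ k) (aeval g P) := by
    intro P k
    induction P using Polynomial.induction_on' with
    | add p r hp hr => rw [map_add]; exact hp.add_right hr
    | monomial m r =>
      rw [aeval_monomial]
      exact (Algebra.commute_algebraMap_right r _).mul_right (hsg.pow_pow k m)
  have hinvpow : ∀ k, (st q g) ^ k * g ^ k = 1 := by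
    intro k
    rw [← hsg.mul_pow, hg, one_pow]
  -- `a^σ(g⁻¹)` is a multiple of `a(g)`
  have hstk : ∀ c : F[X], Associated (dl σ c) c → ∃ k : ℕ, ∃ w : F[X],
      st q (aeval g c) = (st q g) ^ k * aeval g (c * w) := by
    intro c hcc
    obtain ⟨w, hw⟩ := hcc.symm.dvd
    refine ⟨c.natDegree, w, ?_⟩
    rw [st_aeval hK σ hσ, ← hw, aeval_dl σ hgg', ← mul_assoc, hinvpow, one_mul]
  have hkill : ∀ c d y z : F[X], Associated (dl σ c) c → c * d = minpoly F g →
      st q (aeval g (y * c)) * aeval g (z * d) = 0 := by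
    intro c d y z hcc hcd
    obtain ⟨k, w, hkw⟩ := hstk c hcc
    have h1 : st q (aeval g (y * c)) = st q (aeval g c) * st q (aeval g y) := by
      rw [map_mul, st_mul hK]
    have h2 : ∀ P : F[X], Commute (st q (aeval g y)) (aeval g P) := by
      intro P
      rw [st_aeval hK σ hσ]
      have h3 : ∀ Q : F[X], Commute (aeval (st q g) Q) (aeval g P) := by
        intro Q
        induction Q using Polynomial.induction_on' with
        | add p r hp hr => rw [map_add]; exact hp.add_left hr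
        | monomial m r =>
          rw [aeval_monomial]
          exact (Algebra.commute_algebraMap_left r _).mul_left (hcs P m)
      exact h3 _
    rw [h1, mul_assoc, (h2 _).eq, ← mul_assoc, hkw, mul_assoc ((st q g) ^ k), ← map_mul,
      show c * w * (z * d) = (w * z) * (c * d) by ring, hcd, map_mul, minpoly.aeval, mul_zero,
      mul_zero, zero_mul]
  set e := aeval g (u * a) with he
  have h1e : 1 - e = aeval g (v * b) := by
    have h3 : v * b = 1 - u * a := by rw [← huv]; ring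
    rw [h3, map_sub, map_one]
  have h1 : st q e * (1 - e) = 0 := by rw [h1e, he]; exact hkill a b u v hda hab.symm
  have h2 : st q (1 - e) * e = 0 := by
    rw [h1e, he]; exact hkill b a v u hdb (by rw [hab, mul_comm])
  have hes : st q e = e := by
    have h3 : st q e = st q e * e := by
      rw [mul_sub, mul_one, sub_eq_zero] at h1
      exact h1
    have h4 : st q (1 - e) = 1 - st q e := by
      have h5 := st_add hK (1 - e) e
      rw [sub_add_cancel, st_one hK] at h5
      exact eq_sub_of_add_eq h5.symm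
    rw [h4, sub_mul, one_mul, sub_eq_zero] at h2
    rw [h3]; exact h2.symm
  refine ⟨e, ?_, hes, ?_, ?_, ?_⟩
  · have h3 : u * a * (u * a) = u * a - u * v * (a * b) := by
      have : u * a = 1 - v * b := by rw [← huv]; ring
      calc u * a * (u * a) = u * a * (1 - v * b) := by rw [← this]
        _ = _ := by ring
    rw [he, ← map_mul, h3, map_sub, map_mul (aeval g) (u * v), hprod, mul_zero, sub_zero]
  · intro h
    have h1 := minpoly.dvd F g h
    rw [hab, mul_comm a b] at h1
    have ha0 : a ≠ 0 := by rintro rfl; rw [zero_mul] at hab; exact hμ0 hab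
    have h2 : b ∣ u := (mul_dvd_mul_iff_right ha0).1 h1
    apply hb
    rw [isUnit_iff_dvd_one, ← huv]
    exact dvd_add (h2.mul_right a) (Dvd.intro_left v rfl)
  · intro h
    have h3 : aeval g (v * b) = 0 := by
      rw [← h1e, h, sub_self]
    have h1 := minpoly.dvd F g h3
    rw [hab] at h1
    have hb0 : b ≠ 0 := by rintro rfl; rw [mul_zero] at hab; exact hμ0 hab
    have h2 : a ∣ v := (mul_dvd_mul_iff_right hb0).1 h1
    apply ha
    rw [isUnit_iff_dvd_one, ← huv]
    exact dvd_add (Dvd.intro_left u rfl) (h2.mul_right b)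
  · have h4 := hcg (u * a) X
    rw [aeval_X] at h4
    exact h4.eq

end Cfsg.Agent.H159
end

-- part: H159/UniBuild
section
/-!
Unitary matrices of determinant one: regular unipotent ones and "Singer cycles".
-/

set_option autoImplicit false

namespace Cfsg.Agent.H159

open Polynomial Module
open Cfsg.Agent.H186 (st st_mul st_one st_add st_smul st_st st_algebraMap mem_GU_iff_st st_apply)

section general

variable {F : Type*} [Field F] {n : ℕ}

theorem charpoly_eq_minpoly (B : Matrix (Fin n) (Fin n) F) (h : (minpoly F B).natDegree = n) :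
    B.charpoly = minpoly F B := by
  refine (eq_of_monic_of_dvd_of_natDegree_le (minpoly.monic (Algebra.IsIntegral.isIntegral _))
    (Matrix.charpoly_monic B) (Matrix.minpoly_dvd_charpoly B) ?_)
  rw [Matrix.charpoly_natDegree_eq_dim, Fintype.card_fin, h]

theorem det_eq_minpoly (B : Matrix (Fin n) (Fin n) F) (h : (minpoly F B).natDegree = n) :
    B.det = (-1) ^ n * (minpoly F B).coeff 0 := by
  rw [Matrix.det_eq_sign_charpoly_coeff, charpoly_eq_minpoly B h, Fintype.card_fin]

theorem X_sub_one_pow_dvd {p k m : ℕ} [Fact p.Prime] [CharP F p] (hk : k ≠ 0) {c : F}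
    (h : (X - C 1) ^ k ∣ X ^ m - C c) : p ^ Nat.clog p k ∣ m := by
  have hp : p.Prime := Fact.out
  have h1 : (X - C (1 : F)) ∣ X ^ m - C c := (dvd_pow_self _ hk).trans h
  have hc : c = 1 := by
    rw [dvd_iff_isRoot, IsRoot.def] at h1
    simp [sub_eq_zero] at h1
    exact h1.symm
  subst hc
  rcases eq_or_ne m 0 with rfl | hm
  · exact dvd_zero _
  obtain ⟨j, m', hm', rfl⟩ := Nat.exists_eq_pow_mul_and_not_dvd hm p hp.ne_one
  have h2 : (X ^ (p ^ j * m') - C 1 : F[X]) = (X ^ m' - 1) ^ p ^ j := by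
    rw [sub_pow_char_pow, one_pow, ← pow_mul, mul_comm m', C_1]
  rw [h2, ← geom_sum_mul, mul_pow] at h
  have h3 : ¬ (X - C (1 : F)) ∣ ∑ i ∈ Finset.range m', X ^ i := by
    rw [dvd_iff_isRoot, IsRoot.def, eval_finsetSum]
    simp only [eval_pow, eval_X, one_pow, Finset.sum_const, Finset.card_range, nsmul_eq_mul,
      mul_one]
    intro h0
    exact hm' ((CharP.cast_eq_zero_iff F p m').1 h0)
  have h4 : IsCoprime ((X - C (1 : F)) ^ k) ((∑ i ∈ Finset.range m', X ^ i) ^ p ^ j) :=
    (((irreducible_X_sub_C (1 : F)).coprime_iff_not_dvd).2 h3).pow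
  have h5 := h4.dvd_of_dvd_mul_left h
  rw [← C_1, pow_dvd_pow_iff (X_sub_C_ne_zero 1) (not_isUnit_X_sub_C 1)] at h5
  exact (pow_dvd_pow p ((Nat.clog_le_iff_le_pow hp.one_lt).2 h5)).mul_right m'

theorem selfdual_X_sub_one_pow (σ : F →+* F) (k : ℕ) :
    Associated (dl σ ((X - C (1 : F)) ^ k)) ((X - C 1) ^ k) := by
  rw [dl_pow]
  apply Associated.pow_pow
  have h := dl_X_pow_sub_C σ 1 (1 : F)
  rw [pow_one, map_one σ, C_1, one_mul] at h
  rw [C_1, h]
  refine ⟨-1, ?_⟩
  simp

theorem map_dl {K : Type*} [Field K] (σ : F →+* F) (φ : K →+* K) (ι : F →+* K)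
    (h : ∀ c, ι (σ c) = φ (ι c)) (a : F[X]) : (dl σ a).map ι = dl φ (a.map ι) := by
  unfold dl
  ext j
  rw [coeff_map, coeff_reverse, coeff_reverse, coeff_map, coeff_map, coeff_map, natDegree_map,
    natDegree_map, natDegree_map, h]

end general

variable {F : Type*} [Field F] [Fintype F] {q n : ℕ}

/-- A unitary matrix of determinant one with prescribed self-dual minimal polynomial. -/
theorem exists_su_minpoly (hK : Fintype.card F = q ^ 2) (σ : F →+* F) (hσ : ∀ c, σ c = c ^ q)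
    {a : F[X]} (hmon : a.Monic) (hself : Associated (dl σ a) a) (hd : a.natDegree = n)
    (hdet : (-1) ^ n * a.coeff 0 = 1) :
    ∃ B : Matrix (Fin n) (Fin n) F, st q B * B = 1 ∧ B.det = 1 ∧ minpoly F B = a := by
  have h0 : a.coeff 0 ≠ 0 := by
    intro h
    rw [h, mul_zero] at hdet
    exact zero_ne_one hdet
  obtain ⟨B, hB, hBa⟩ := exists_gu_minpoly hK σ hσ hmon h0 hself hd
  refine ⟨B, hB, ?_, hBa⟩
  rw [det_eq_minpoly B (by rw [hBa, hd]), hBa, hdet]

theorem exists_uni_unip (hK : Fintype.card F = q ^ 2) (p : ℕ) [Fact p.Prime] [CharP F p]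
    (hn : n ≠ 0) :
    ∃ B : Matrix (Fin n) (Fin n) F, st q B * B = 1 ∧ B.det = 1 ∧
      ∀ m, ScPow F B m → p ^ Nat.clog p n ∣ m := by
  obtain ⟨σ, hσ⟩ := Cfsg.Agent.ClassicalGeometry.GUBasic.exists_powHom hK
  obtain ⟨B, hB, hdet, hBa⟩ := exists_su_minpoly (n := n) hK σ hσ (a := (X - C (1 : F)) ^ n)
    ((monic_X_sub_C 1).pow n) (selfdual_X_sub_one_pow σ n) (by
      rw [natDegree_pow, natDegree_X_sub_C, mul_one]) (by
      rw [coeff_zero_eq_eval_zero, eval_pow, eval_sub, eval_X, eval_C, zero_sub, ← mul_pow]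
      simp)
  refine ⟨B, hB, hdet, ?_⟩
  intro m hm
  obtain ⟨c, hc⟩ := (scPow_iff_dvd B m).1 hm
  rw [hBa] at hc
  exact X_sub_one_pow_dvd hn hc

/-- The exponent `Σ_{i<n} (-q)^i = ± (q^n - (-1)^n)/(q+1)`. -/
def uz (q n : ℕ) : ℤ := ∑ i ∈ Finset.range n, (-(q : ℤ)) ^ i

theorem uz_mul (q n : ℕ) : uz q n * (-(q : ℤ) - 1) = (-(q : ℤ)) ^ n - 1 := geom_sum_mul _ _

theorem gcd_dvd_uz (q n : ℕ) : Nat.gcd n (q + 1) ∣ (uz q n).natAbs := by
  rw [← Int.natCast_dvd]
  have h1 : uz q n ≡ n [ZMOD (Nat.gcd n (q + 1) : ℕ)] := by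
    unfold uz
    have h2 : ∀ i ∈ Finset.range n, (-(q : ℤ)) ^ i ≡ 1 [ZMOD (Nat.gcd n (q + 1) : ℕ)] := by
      intro i _
      have h3 : -(q : ℤ) ≡ 1 [ZMOD (Nat.gcd n (q + 1) : ℕ)] := by
        apply Int.ModEq.symm
        rw [Int.modEq_iff_dvd]
        have h4 : ((Nat.gcd n (q + 1) : ℕ) : ℤ) ∣ ((q + 1 : ℕ) : ℤ) :=
          Int.natCast_dvd_natCast.2 (Nat.gcd_dvd_right _ _)
        have h5 : (-(q : ℤ) - 1) = -((q + 1 : ℕ) : ℤ) := by push_cast; ring
        rw [h5, dvd_neg]
        exact h4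
      simpa using h3.pow i
    have := Int.ModEq.sum h2
    simpa using this
  exact (Int.ModEq.dvd_iff h1).2 (Int.natCast_dvd_natCast.2 (Nat.gcd_dvd_left _ _))


theorem natAbs_uz_mul (q n : ℕ) :
    (q + 1) * (uz q n).natAbs = ((-(q : ℤ)) ^ n - 1).natAbs := by
  rw [← uz_mul, Int.natAbs_mul, mul_comm]
  congr 1
  omega

theorem prod_zpow_sum {G : Type*} [CommGroup G] (l : G) (s : Finset ℕ) (f : ℕ → ℤ) :
    ∏ i ∈ s, l ^ f i = l ^ ∑ i ∈ s, f i := by
  induction s using Finset.induction_on with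
  | empty => simp
  | insert j s hj ih => rw [Finset.prod_insert hj, Finset.sum_insert hj, ih, zpow_add]

/-- Shifting a product over a period. -/
theorem prod_shift {M : Type*} [CommMonoid M] (n : ℕ) (g : ℕ → M) (h : g n = g 0)
    (hc : ∀ a b : M, g 0 * a = g 0 * b → a = b) :
    ∏ i ∈ Finset.range n, g (i + 1) = ∏ i ∈ Finset.range n, g i := by
  apply hc
  rw [mul_comm, ← Finset.prod_range_succ', Finset.prod_range_succ, h, mul_comm]

theorem dl_X_sub_C {K : Type*} [Field K] (φ : K →+* K) (q : ℕ) (hφ : ∀ c, φ c = c ^ q) (u : Kˣ) :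
    dl φ (X - C (u : K)) =
      C (-(u : K) ^ q) * (X - C (((u ^ (-(q : ℤ)) : Kˣ) : K))) := by
  have h := dl_X_pow_sub_C φ 1 (u : K)
  rw [pow_one] at h
  rw [h, hφ, zpow_neg, zpow_natCast, mul_sub, ← C_mul, C_neg]
  have : -(u : K) ^ q * (((u ^ q)⁻¹ : Kˣ) : K) = -1 := by
    rw [neg_mul, Units.val_inv_eq_inv_val, Units.val_pow_eq_pow_val, mul_inv_cancel₀]
    exact pow_ne_zero _ u.ne_zero
  rw [this, C_neg, C_1]
  ring

/-- The element of order `(q^n-(-1)^n)/((q+1) gcd(n,q+1))`. -/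
theorem exists_uni_singer (hK : Fintype.card F = q ^ 2) (p a : ℕ) [Fact p.Prime] [CharP F p]
    (hqp : q = p ^ a) (hn : n ≠ 0) :
    ∃ B : Matrix (Fin n) (Fin n) F, st q B * B = 1 ∧ B.det = 1 ∧
      ∀ m, ScPow F B m → (uz q n).natAbs / Nat.gcd n (q + 1) ∣ m := by
  have hq := Cfsg.Agent.ClassicalGeometry.GUBasic.two_le hK
  obtain ⟨σ, hσ⟩ := Cfsg.Agent.ClassicalGeometry.GUBasic.exists_powHom hK
  obtain ⟨K, _, _, _, _, g, hKn, hg, hcard⟩ := exists_field_gen F p n hn
  have : CharP K p := charP_of_injective_algebraMap' F p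
  obtain ⟨φ, hφ⟩ : ∃ φ : K →+* K, ∀ c, φ c = c ^ q :=
    ⟨iterateFrobenius K p a, fun x => by rw [hqp]; exact iterateFrobenius_def p a x⟩
  have hφσ : ∀ c, algebraMap F K (σ c) = φ (algebraMap F K c) := fun c => by
    rw [hσ, hφ, map_pow]
  -- the element `θ`
  obtain ⟨θ, hθ⟩ : ∃ θ : Kˣ, orderOf θ = ((-(q : ℤ)) ^ n - 1).natAbs := by
    apply exists_orderOf_eq g
    rw [hg, hK, ← Int.natCast_dvd_natCast, Int.natAbs_dvd]
    refine ⟨(-(q : ℤ)) ^ n + 1, ?_⟩
    rw [Nat.cast_sub (Nat.one_le_pow _ _ (by positivity))]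
    push_cast
    have : ((q : ℤ) ^ 2) ^ n = ((-(q : ℤ)) ^ n) * ((-(q : ℤ)) ^ n) := by
      rw [← mul_pow]; ring
    rw [this]; ring
  have hθ1 : θ ^ ((-(q : ℤ)) ^ n - 1) = 1 := by
    rw [← orderOf_dvd_iff_zpow_eq_one, hθ, Int.natAbs_dvd]
  set l : Kˣ := θ ^ (q + 1) with hl
  set y : ℕ → Kˣ := fun i => l ^ ((-(q : ℤ)) ^ i) with hy
  have hyn : y n = y 0 := by
    have h1 : y n = l ^ ((-(q : ℤ)) ^ n - 1) * l ^ ((-(q : ℤ)) ^ 0) := by
      rw [← zpow_add, pow_zero, sub_add_cancel]
    have h2 : l ^ ((-(q : ℤ)) ^ n - 1) = 1 := by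
      rw [hl, ← zpow_natCast, ← zpow_mul, mul_comm, zpow_mul, hθ1, one_zpow]
    rw [h1, h2, one_mul]
  have hys : ∀ i, y (i + 1) = (y i) ^ (-(q : ℤ)) := by
    intro i
    simp only [hy]
    rw [← zpow_mul, pow_succ]
  have hys1 : y (n + 1) = y 1 := by rw [hys n, hyn, ← hys 0]
  have hys2 : ∀ i, ((y (i + 2) : Kˣ) : K) = ((y i : K) ^ q) ^ q := by
    intro i
    have h1 : y (i + 2) = (y i ^ q) ^ q := by
      rw [hys (i + 1), hys i, ← zpow_mul, neg_mul_neg, ← pow_mul, ← Nat.cast_mul, zpow_natCast]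
    rw [h1, Units.val_pow_eq_pow_val, Units.val_pow_eq_pow_val]
  set a' : K[X] := ∏ i ∈ Finset.range n, (X - C (y i : K)) with ha'
  have hmon' : a'.Monic := monic_prod_of_monic _ _ fun i _ => monic_X_sub_C _
  have hdeg' : a'.natDegree = n := by
    rw [ha', natDegree_prod_of_monic _ _ fun i _ => monic_X_sub_C _]
    simp
  have hshift1 : ∏ i ∈ Finset.range n, (X - C (y (i + 1) : K)) = a' :=
    prod_shift n (fun i => (X - C (y i : K))) (by simp only [hyn])
      (fun a b h => mul_left_cancel₀ (X_sub_C_ne_zero _) h)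
  have hshift2 : ∏ i ∈ Finset.range n, (X - C (y (i + 2) : K)) = a' := by
    rw [← hshift1]
    exact prod_shift n (fun i => (X - C (y (i + 1) : K))) (by simp only [hys1, zero_add])
      (fun a b h => mul_left_cancel₀ (X_sub_C_ne_zero _) h)
  have hinv : (a'.map φ).map φ = a' := by
    nth_rewrite 2 [← hshift2]
    rw [ha', Polynomial.map_prod, Polynomial.map_prod]
    refine Finset.prod_congr rfl fun i _ => ?_
    rw [Polynomial.map_sub, Polynomial.map_sub, map_X, map_X, map_C, map_C, hφ, hφ, hys2]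
  have hdl : dl φ a' = C (∏ i ∈ Finset.range n, (-(y i : K) ^ q)) * a' := by
    have h1 : ∀ s : Finset ℕ, dl φ (∏ i ∈ s, (X - C (y i : K))) =
        ∏ i ∈ s, dl φ (X - C (y i : K)) := by
      intro s
      induction s using Finset.induction_on with
      | empty => simp [dl_one]
      | insert j s hj ih => rw [Finset.prod_insert hj, Finset.prod_insert hj, dl_mul, ih]
    rw [ha', h1]
    simp only [dl_X_sub_C φ q hφ, ← hys]
    rw [Finset.prod_mul_distrib, hshift1, map_prod, ← ha']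
  have hlift : a' ∈ Polynomial.lifts (algebraMap F K) := by
    rw [Polynomial.lifts_iff_coeff_lifts]
    intro i
    have h1 := congrArg (fun f => coeff f i) hinv
    simp only [coeff_map, hφ] at h1
    obtain ⟨c, hc⟩ := mem_range_of_pow_card (F := F) (x := a'.coeff i) (by
      rw [hK, sq, pow_mul]; exact h1)
    exact ⟨c, hc⟩
  obtain ⟨b, hb, hbdeg, hbmon⟩ := Polynomial.lifts_and_natDegree_eq_and_monic hlift hmon'
  rw [hdeg'] at hbdeg
  have hprod : ∏ i ∈ Finset.range n, y i = 1 := by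
    simp only [hy]
    rw [prod_zpow_sum]
    change l ^ uz q n = 1
    rw [hl, ← zpow_natCast, ← zpow_mul, show (((q + 1 : ℕ) : ℤ)) * uz q n =
      (uz q n * (-(q : ℤ) - 1)) * (-1) by push_cast; ring, uz_mul, zpow_mul, hθ1, one_zpow]
  have hb0 : (-1) ^ n * b.coeff 0 = 1 := by
    apply (algebraMap F K).injective
    have h1 : algebraMap F K (b.coeff 0) = ∏ i ∈ Finset.range n, (-(y i : K)) := by
      rw [← coeff_map, hb, ha', coeff_zero_prod]
      refine Finset.prod_congr rfl fun i _ => ?_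
      simp
    have h2 : ∏ i ∈ Finset.range n, (-(y i : K)) = (-1) ^ n := by
      rw [Finset.prod_neg, Finset.card_range, ← Units.coe_prod, hprod, Units.val_one, mul_one]
    rw [map_mul, h1, h2, map_one, map_pow, map_neg, map_one, ← mul_pow]
    simp
  have hself : Associated (dl σ b) b := by
    have h1 : b ∣ dl σ b := by
      rw [← Polynomial.map_dvd_map' (algebraMap F K), map_dl σ φ _ hφσ, hb, hdl]
      exact Dvd.intro_left _ rfl
    have h0 : b.coeff 0 ≠ 0 := right_ne_zero_of_mul_eq_one hb0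
    exact (associated_of_dvd_of_natDegree_le h1 (dl_ne_zero σ hbmon.ne_zero)
      (natDegree_dl σ h0).le).symm
  obtain ⟨B, hB, hdet, hBb⟩ := exists_su_minpoly hK σ hσ hbmon hself hbdeg hb0
  refine ⟨B, hB, hdet, ?_⟩
  rintro m ⟨c, hc⟩
  have hcn : c ^ n = 1 := by
    have h1 := congrArg Matrix.det hc
    rw [Matrix.det_pow, hdet, one_pow, Matrix.algebraMap_eq_diagonal, Matrix.det_diagonal] at h1
    simpa using h1.symm
  have hcq : c ^ (q + 1) = 1 := by
    have h1 : st q (B ^ m) * B ^ m = 1 := by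
      have h2 : ∀ k, st q (B ^ k) * B ^ k = 1 := by
        intro k
        induction k with
        | zero => rw [pow_zero, st_one hK, mul_one]
        | succ k ih => 
          rw [pow_succ, st_mul hK, mul_assoc, ← mul_assoc (st q (B ^ k)), ih, one_mul, hB]
      exact h2 m
    rw [hc, st_algebraMap hK, ← map_mul] at h1
    have h2 := congrFun (congrFun h1 ⟨0, by omega⟩) ⟨0, by omega⟩
    simp [Matrix.algebraMap_matrix_apply] at h2
    rw [pow_succ, h2]
  have hcg : c ^ Nat.gcd n (q + 1) = 1 := by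
    rw [← orderOf_dvd_iff_pow_eq_one] at hcn hcq ⊢
    exact Nat.dvd_gcd hcn hcq
  have hdvd : b ∣ X ^ m - C c := by
    rw [← hBb]
    exact minpoly.dvd F B (by simp [hc])
  have hroot : ((l : Kˣ) : K) ^ m = algebraMap F K c := by
    have h1 : aeval (l : K) b = 0 := by
      rw [aeval_def, eval₂_eq_eval_map, hb, ha', eval_prod]
      apply Finset.prod_eq_zero (Finset.mem_range.2 (Nat.pos_of_ne_zero hn))
      simp [hy]
    obtain ⟨w, hw⟩ := hdvd
    have h2 := congrArg (aeval (l : K)) hw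
    rw [map_mul, h1, zero_mul] at h2
    simpa [sub_eq_zero] using h2
  have h2 : θ ^ ((q + 1) * (m * Nat.gcd n (q + 1))) = 1 := by
    apply Units.ext
    have h3 := congrArg (fun z => z ^ Nat.gcd n (q + 1)) hroot
    simp only [← map_pow, hcg, map_one] at h3
    rw [Units.val_one, pow_mul, pow_mul, ← hl, Units.val_pow_eq_pow_val, Units.val_pow_eq_pow_val]
    exact h3
  rw [← orderOf_dvd_iff_pow_eq_one, hθ, ← natAbs_uz_mul] at h2
  have h5 := Nat.dvd_of_mul_dvd_mul_left (Nat.succ_pos q) h2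
  obtain ⟨s, hs⟩ := gcd_dvd_uz q n
  have hgpos : 0 < Nat.gcd n (q + 1) := Nat.gcd_pos_of_pos_left _ (Nat.pos_of_ne_zero hn)
  rw [hs, Nat.mul_div_cancel_left _ hgpos]
  rw [hs, mul_comm m] at h5
  exact Nat.dvd_of_mul_dvd_mul_left hgpos h5

end Cfsg.Agent.H159
end

-- part: H159/UniDich
section
/-!
The dichotomy for the elements of `PSU_n(q)`.
-/

set_option autoImplicit false

namespace Cfsg.Agent.H159

open Polynomial Module
open Cfsg.Agent.H186 (st st_mul st_one st_add st_smul st_st st_algebraMap mem_GU_iff_st st_apply)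

/-- For a sequence of odd period `d`, doubling the indices permutes the product. -/
theorem prod_double {M : Type*} [CommMonoid M] (g : ℕ → M) (e : ℕ)
    (h : ∀ i, g (i + (2 * e + 1)) = g i) :
    ∏ i ∈ Finset.range (2 * e + 1), g i = ∏ i ∈ Finset.range (2 * e + 1), g (2 * i) := by
  have h1 : ∀ k, ∏ i ∈ Finset.range (2 * k + 1), g i =
      (∏ i ∈ Finset.range (k + 1), g (2 * i)) * ∏ i ∈ Finset.range k, g (2 * i + 1) := by
    intro k
    induction k with
    | zero => simp
    | succ k ih =>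
      rw [show 2 * (k + 1) + 1 = 2 * k + 1 + 1 + 1 by ring, Finset.prod_range_succ,
        Finset.prod_range_succ, ih, Finset.prod_range_succ (fun i => g (2 * i)) (k + 1),
        Finset.prod_range_succ (fun i => g (2 * i + 1)) k, show 2 * (k + 1) = 2 * k + 1 + 1 by ring]
      generalize g (2 * k + 1 + 1) = A
      generalize g (2 * k + 1) = B
      ac_rfl
  rw [h1, show 2 * e + 1 = (e + 1) + e by ring,
    Finset.prod_range_add (fun i => g (2 * i)) (e + 1) e]
  congr 1
  refine Finset.prod_congr rfl fun i _ => ?_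
  rw [← h (2 * i + 1)]
  congr 1
  ring

variable {F : Type*} [Field F] [Fintype F] {q : ℕ}

/-- The root of a self-dual irreducible polynomial. -/
theorem uni_root_selfdual (hK : Fintype.card F = q ^ 2) (p a : ℕ) [Fact p.Prime] [CharP F p]
    (hqp : q = p ^ a) (σ : F →+* F) (hσ : ∀ c, σ c = c ^ q)
    {f : F[X]} (hf : Irreducible f) [hfact : Fact (Irreducible f)] (hff : Associated (dl σ f) f)
    (u : (AdjoinRoot f)ˣ) (hu : (u : AdjoinRoot f) = AdjoinRoot.root f) :
    (∀ i, u ^ ((-(q : ℤ)) ^ (i + f.natDegree)) = u ^ ((-(q : ℤ)) ^ i)) ∧ Odd f.natDegree := by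
  have hfx : aeval (AdjoinRoot.root f) f = 0 := by rw [AdjoinRoot.aeval_eq, AdjoinRoot.mk_self]
  have : CharP (AdjoinRoot f) p := charP_of_injective_algebraMap' F p
  obtain ⟨φ, hφ⟩ : ∃ φ : AdjoinRoot f →+* AdjoinRoot f, ∀ c, φ c = c ^ q :=
    ⟨iterateFrobenius (AdjoinRoot f) p a, fun x => by rw [hqp]; exact iterateFrobenius_def p a x⟩
  have hφσ : ∀ c, φ (algebraMap F (AdjoinRoot f) c) = algebraMap F (AdjoinRoot f) (σ c) :=
    fun c => by rw [hσ, hφ, map_pow]
  have h1 := aeval_dl_inv σ φ hφσ (y := AdjoinRoot.root f) (by rw [← hu]; exact u.ne_zero) hfx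
  have h2 : aeval (φ (AdjoinRoot.root f))⁻¹ f = 0 := aeval_eq_zero_of_dvd_aeval_eq_zero hff.dvd h1
  obtain ⟨j, hj⟩ := exists_pow_of_root hf _ h2
  have h3 : u ^ (-(q : ℤ)) = u ^ (Fintype.card F ^ j) := by
    apply Units.ext
    rw [Units.val_pow_eq_pow_val, hu, ← hj, hφ, zpow_neg, zpow_natCast, Units.val_inv_eq_inv_val,
      Units.val_pow_eq_pow_val, hu]
  have h4 : ∀ i, u ^ ((-(q : ℤ)) ^ i) = u ^ (Fintype.card F ^ (j * i)) := by
    intro i
    induction i with
    | zero => simp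
    | succ i ih =>
      rw [pow_succ, zpow_mul, ih, ← zpow_natCast, ← zpow_mul, mul_comm, zpow_mul, h3, zpow_natCast,
        ← pow_mul, ← pow_add, Nat.mul_succ, add_comm j]
  have h5 : u ^ ((-(q : ℤ)) ^ f.natDegree) = u := by
    rw [h4, mul_comm j]
    apply Units.ext
    rw [Units.val_pow_eq_pow_val]
    exact pow_card_pow_eq hf (u : AdjoinRoot f) j
  constructor
  · intro i
    rw [add_comm i, pow_add, zpow_mul, h5]
  · rw [← Nat.not_even_iff_odd]
    rintro ⟨e, he⟩
    have h6 : (AdjoinRoot.root f) ^ (Fintype.card F ^ e) = AdjoinRoot.root f := by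
      rw [← hu, ← Units.val_pow_eq_pow_val]
      congr 1
      have h7 : (-(q : ℤ)) ^ f.natDegree = ((Fintype.card F ^ e : ℕ) : ℤ) := by
        rw [he, ← two_mul, pow_mul, hK]; push_cast; rw [neg_sq]
      rw [h7, zpow_natCast] at h5
      exact h5
    have h7 := (root_pow_card_iff hf e).1 h6
    have h8 := Nat.eq_zero_of_dvd_of_lt h7 (by have := hf.natDegree_pos; omega)
    have := hf.natDegree_pos
    omega

/-- The norm of the root. -/
theorem norm_root {f : F[X]} (hf : Irreducible f) (hmon : f.Monic) [hfact : Fact (Irreducible f)]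
    (u : (AdjoinRoot f)ˣ) (hu : (u : AdjoinRoot f) = AdjoinRoot.root f) :
    ((u ^ (∑ i ∈ Finset.range f.natDegree, Fintype.card F ^ i) : (AdjoinRoot f)ˣ) : AdjoinRoot f) =
      algebraMap F (AdjoinRoot f) ((-1) ^ f.natDegree * f.coeff 0) := by
  have hfd : FiniteDimensional F (AdjoinRoot f) := (AdjoinRoot.powerBasis hf.ne_zero).finite
  have hfin : Finite (AdjoinRoot f) := Module.finite_of_finite F
  have hd : finrank F (AdjoinRoot f) = f.natDegree := by
    rw [(AdjoinRoot.powerBasis hf.ne_zero).finrank, AdjoinRoot.powerBasis_dim]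
  have hcard : Nat.card (AdjoinRoot f) = Fintype.card F ^ f.natDegree := by
    rw [Module.natCard_eq_pow_finrank (K := F), Nat.card_eq_fintype_card, hd]
  have hnorm : Algebra.norm F (AdjoinRoot.root f) = (-1) ^ f.natDegree * f.coeff 0 := by
    have h1 := Algebra.PowerBasis.norm_gen_eq_coeff_zero_minpoly (AdjoinRoot.powerBasis hf.ne_zero)
    rw [AdjoinRoot.powerBasis_gen, AdjoinRoot.powerBasis_dim, AdjoinRoot.minpoly_root hf.ne_zero,
      hmon.leadingCoeff] at h1
    simpa using h1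
  have h2 := FiniteField.algebraMap_norm_eq_pow (K := F) (x := AdjoinRoot.root f)
  rw [hcard, Nat.card_eq_fintype_card, ← Nat.geomSum_eq Fintype.one_lt_card] at h2
  rw [← hnorm, h2, Units.val_pow_eq_pow_val, hu]

/-- The product identity for `uz`. -/
theorem uz_split (q d k : ℕ) :
    uz q (d * k) = uz q d * ∑ i ∈ Finset.range k, ((-(q : ℤ)) ^ d) ^ i := by
  have h1 := geom_sum_mul (-(q : ℤ)) (d * k)
  have h2 := geom_sum_mul (-(q : ℤ)) d
  have h3 := geom_sum_mul ((-(q : ℤ)) ^ d) k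
  have hne : (-(q : ℤ)) - 1 ≠ 0 := by omega
  apply mul_right_cancel₀ hne
  unfold uz
  rw [h1, pow_mul, ← h3, ← h2]
  ring

theorem uz_even (q m : ℕ) :
    uz q (2 * m) = (1 - (q : ℤ)) * ((∑ i ∈ Finset.range m, (q ^ 2) ^ i : ℕ) : ℤ) := by
  rw [uz_split]
  have h1 : uz q 2 = 1 - (q : ℤ) := by
    unfold uz
    rw [Finset.sum_range_succ, Finset.sum_range_one]
    ring
  rw [h1]
  congr 1
  push_cast
  refine Finset.sum_congr rfl fun i _ => ?_
  rw [neg_sq]

/-- From `u ^ uz = 1` to the scalar. -/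
theorem exists_scalar (hK : Fintype.card F = q ^ 2) {n : ℕ} {f : F[X]}
    [hfact : Fact (Irreducible f)] (u : (AdjoinRoot f)ˣ)
    (hu : (u : AdjoinRoot f) = AdjoinRoot.root f) (h : u ^ uz q n = 1) :
    ∃ c : F, c ^ (q + 1) = 1 ∧ f ∣ X ^ ((uz q n).natAbs / Nat.gcd n (q + 1)) - C c := by
  have hq := Cfsg.Agent.ClassicalGeometry.GUBasic.two_le hK
  set s := (uz q n).natAbs / Nat.gcd n (q + 1) with hs
  have h1 : u ^ (uz q n).natAbs = 1 := by
    rw [← orderOf_dvd_iff_pow_eq_one, ← Int.natCast_dvd, orderOf_dvd_iff_zpow_eq_one]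
    exact h
  have hs2 : (uz q n).natAbs = s * Nat.gcd n (q + 1) :=
    (Nat.div_mul_cancel (gcd_dvd_uz q n)).symm
  have hx2 : (u ^ s) ^ (q + 1) = 1 := by
    obtain ⟨j, hj⟩ := Nat.gcd_dvd_right n (q + 1)
    rw [hj, ← pow_mul, ← mul_assoc, ← hs2, pow_mul, h1, one_pow]
  have hx3 : ((AdjoinRoot.root f) ^ s) ^ (q + 1) = 1 := by
    rw [← hu, ← Units.val_pow_eq_pow_val, ← Units.val_pow_eq_pow_val, hx2, Units.val_one]
  obtain ⟨c, hc⟩ := mem_range_of_pow_card (F := F) (x := (AdjoinRoot.root f) ^ s) (by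
    have hfac : q ^ 2 = (q + 1) * (q - 1) + 1 := by
      obtain ⟨k, rfl⟩ : ∃ k, q = k + 2 := ⟨q - 2, by omega⟩
      rw [show k + 2 - 1 = k + 1 by omega]
      ring
    rw [hK, hfac, pow_succ, pow_mul, hx3, one_pow, one_mul])
  refine ⟨c, ?_, ?_⟩
  · apply (algebraMap F (AdjoinRoot f)).injective
    rw [map_pow, hc, hx3, map_one]
  · rw [AdjoinRoot.algebraMap_eq, ← AdjoinRoot.mk_C, ← AdjoinRoot.mk_X, ← map_pow,
      AdjoinRoot.mk_eq_mk, ← neg_sub, dvd_neg] at hc
    exact hc

omit [Fintype F] in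
theorem dl_dvd_scalar (σ : F →+* F) (hσ : ∀ c, σ c = c ^ q) {f : F[X]} {s : ℕ} {c : F}
    (hc : c ^ (q + 1) = 1) (h : f ∣ X ^ s - C c) : dl σ f ∣ X ^ s - C c := by
  have h1 := dl_dvd σ h
  rw [dl_X_pow_sub_C σ s, hσ] at h1
  have h2 : (X ^ s - C c : F[X]) = C (-c) * (1 - C (c ^ q) * X ^ s) := by
    rw [mul_sub, ← mul_assoc, ← C_mul, neg_mul, ← pow_succ', hc]
    simp
    ring
  rw [h2]
  exact h1.mul_left _

/-- **The primary case.** -/
theorem uni_primary (hK : Fintype.card F = q ^ 2) (p a : ℕ) [Fact p.Prime] [CharP F p]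
    (hqp : q = p ^ a) (σ : F →+* F) (hσ : ∀ c, σ c = c ^ q) {n e : ℕ} (he : n ≤ p ^ e)
    (g : Matrix (Fin n) (Fin n) F) (hdet : g.det = 1) {μ f : F[X]} (hμ : minpoly F g = μ)
    (hf : Irreducible f) (hmon : f.Monic) (h0 : f.coeff 0 ≠ 0) (hdeg : μ.natDegree = n) {k : ℕ}
    (hcase : (Associated μ (f ^ k) ∧ Associated (dl σ f) f) ∨
      (Associated μ (f ^ k * (dl σ f) ^ k) ∧ IsCoprime f (dl σ f))) :
    ScPow F g ((uz q n).natAbs / Nat.gcd n (q + 1) * p ^ e) := by
  have hfact : Fact (Irreducible f) := ⟨hf⟩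
  have hμmon : μ.Monic := by rw [← hμ]; exact minpoly.monic (Algebra.IsIntegral.isIntegral _)
  have hdet' : (-1) ^ n * μ.coeff 0 = 1 := by
    rw [← hμ, ← det_eq_minpoly g (by rw [hμ, hdeg]), hdet]
  have hroot0 : AdjoinRoot.root f ≠ 0 := by
    intro h
    rw [← AdjoinRoot.mk_X, AdjoinRoot.mk_eq_zero] at h
    obtain ⟨c, hc⟩ := h
    have h7 := congrArg (fun f => coeff f 0) hc
    simp only [coeff_X_zero, mul_coeff_zero] at h7
    have h8 : c.coeff 0 = 0 := (mul_eq_zero.1 h7.symm).resolve_left h0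
    have h9 : X ∣ c := X_dvd_iff.2 h8
    obtain ⟨c', hc'⟩ := h9
    rw [hc'] at hc
    have h10 : f * c' = 1 := by
      have : X * (f * c') = X * 1 := by
        rw [mul_one]; nth_rewrite 2 [hc]; ring
      exact mul_left_cancel₀ X_ne_zero this
    exact hf.not_isUnit (IsUnit.of_mul_eq_one _ h10)
  obtain ⟨u, hu⟩ := hroot0.isUnit
  have hnorm := norm_root hf hmon u hu
  set N : (AdjoinRoot f)ˣ := u ^ (∑ i ∈ Finset.range f.natDegree, Fintype.card F ^ i) with hN
  clear_value N
  have hkn : k ≤ n := by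
    rcases hcase with ⟨h1, -⟩ | ⟨h1, -⟩
    · rw [← hdeg, natDegree_eq_of_degree_eq (degree_eq_degree_of_associated h1), natDegree_pow]
      exact Nat.le_mul_of_pos_right _ hf.natDegree_pos
    · rw [← hdeg, natDegree_eq_of_degree_eq (degree_eq_degree_of_associated h1),
        natDegree_mul (pow_ne_zero _ hf.ne_zero) (pow_ne_zero _ (dl_ne_zero _ hf.ne_zero)),
        natDegree_pow, natDegree_pow]
      exact (Nat.le_mul_of_pos_right _ hf.natDegree_pos).trans (Nat.le_add_right _ _)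
  -- the key power relation
  have hkey : u ^ uz q n = 1 := by
    rcases hcase with ⟨h1, hff⟩ | ⟨h1, hcff⟩
    · -- self-dual
      obtain ⟨hper, hodd⟩ := uni_root_selfdual hK p a hqp σ hσ hf hff u hu
      have hμk : μ = f ^ k := eq_of_monic_of_associated hμmon (hmon.pow k) h1
      have hnd : n = f.natDegree * k := by
        rw [← hdeg, hμk, natDegree_pow, mul_comm]
      have hNu : u ^ uz q f.natDegree = N := by
        obtain ⟨m, hm⟩ := hodd
        have h2 := prod_double (fun i => u ^ ((-(q : ℤ)) ^ i)) m (by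
          intro i; rw [← hm]; exact hper i)
        rw [← hm] at h2
        simp only [prod_zpow_sum] at h2
        rw [uz, h2, hN, ← zpow_natCast]
        congr 1
        push_cast
        refine Finset.sum_congr rfl fun i _ => ?_
        rw [hK, pow_mul, neg_sq]; push_cast; ring
      have hNk : N ^ k = 1 := by
        apply Units.ext
        have hfk0 : (f ^ k).coeff 0 = f.coeff 0 ^ k := by
          rw [coeff_zero_eq_eval_zero, coeff_zero_eq_eval_zero, eval_pow]
        rw [Units.val_pow_eq_pow_val, hnorm, ← map_pow, mul_pow, ← pow_mul, ← hnd, ← hfk0, ← hμk,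
          hdet', map_one, Units.val_one]
      have hNd : N ^ ((-(q : ℤ)) ^ f.natDegree) = N := by
        rw [← hNu, ← zpow_mul, mul_comm, zpow_mul]
        have := hper 0
        rw [zero_add, pow_zero, zpow_one] at this
        rw [this]
      have hNi : ∀ i, N ^ (((-(q : ℤ)) ^ f.natDegree) ^ i) = N := by
        intro i
        induction i with
        | zero => simp
        | succ i ih => rw [pow_succ, zpow_mul, ih, hNd]
      rw [hnd, uz_split, zpow_mul, hNu, ← prod_zpow_sum, Finset.prod_congr rfl fun i _ => hNi i,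
        Finset.prod_const, Finset.card_range, hNk]
    · -- not self-dual
      have hnd : n = 2 * (f.natDegree * k) := by
        rw [← hdeg, natDegree_eq_of_degree_eq (degree_eq_degree_of_associated h1),
          natDegree_mul (pow_ne_zero _ hf.ne_zero) (pow_ne_zero _ (dl_ne_zero _ hf.ne_zero)),
          natDegree_pow, natDegree_pow, natDegree_dl _ h0]
        ring
      have hsgn : ((-1 : F)) ^ n = 1 := by rw [hnd, pow_mul, neg_one_sq, one_pow]
      -- `f(0)^k = σ (f(0)^k)`
      have hfk : σ (f.coeff 0) ^ k = f.coeff 0 ^ k := by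
        obtain ⟨w, hw⟩ := h1.symm
        obtain ⟨v, hv⟩ := Polynomial.isUnit_iff.1 w.isUnit
        have hlc : (dl σ f).leadingCoeff = σ (f.coeff 0) := by
          unfold dl
          rw [reverse_leadingCoeff, trailingCoeff, coeff_map]
          congr 1
          have : (f.map σ).natTrailingDegree = 0 := by
            rw [natTrailingDegree_eq_zero]
            right
            rw [coeff_map]
            simpa using h0
          rw [this]
        have h2 : σ (f.coeff 0) ^ k * v = 1 := by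
          have h3 := congrArg leadingCoeff hw
          rw [leadingCoeff_mul, leadingCoeff_mul, leadingCoeff_pow, leadingCoeff_pow,
            hmon.leadingCoeff, hμmon.leadingCoeff, hlc, ← hv.2, leadingCoeff_C, one_pow,
            one_mul] at h3
          exact h3
        have h3 : f.coeff 0 ^ k * v = 1 := by
          have h4 := congrArg (fun f => coeff f 0) hw
          simp only [mul_coeff_zero] at h4
          rw [hsgn, one_mul] at hdet'
          rw [hdet', ← hv.2, coeff_C_zero] at h4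
          have h5 : (f ^ k).coeff 0 = f.coeff 0 ^ k := by
            rw [coeff_zero_eq_eval_zero, coeff_zero_eq_eval_zero, eval_pow]
          have h6 : ((dl σ f) ^ k).coeff 0 = 1 := by
            rw [coeff_zero_eq_eval_zero, eval_pow, ← coeff_zero_eq_eval_zero, coeff_zero_dl,
              hmon.leadingCoeff, map_one, one_pow]
          rw [h5, h6, mul_one] at h4
          exact h4
        have hv0 : v ≠ 0 := hv.1.ne_zero
        exact mul_right_cancel₀ hv0 (h2.trans h3.symm)
      have hNk : N ^ ((k : ℤ) * (1 - (q : ℤ))) = 1 := by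
        have h2 : N ^ (k * q) = N ^ k := by
          apply Units.ext
          rw [Units.val_pow_eq_pow_val, Units.val_pow_eq_pow_val, hnorm, ← map_pow, ← map_pow]
          congr 1
          have h3 : ((-1 : F)) ^ q = -1 := by rw [← hσ, map_neg, map_one]
          rw [mul_pow, mul_pow, pow_mul (f.coeff 0), ← hσ (f.coeff 0 ^ k), map_pow, hfk]
          congr 1
          rw [← pow_mul, ← pow_mul, mul_comm k q, ← mul_assoc, mul_comm f.natDegree q, mul_assoc,
            pow_mul, h3]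
        rw [mul_sub, mul_one, zpow_sub, zpow_natCast, ← Nat.cast_mul, zpow_natCast, h2,
          mul_inv_cancel]
      have hNq : N ^ (Fintype.card F ^ f.natDegree) = N := by
        apply Units.ext
        rw [Units.val_pow_eq_pow_val, hnorm, ← map_pow, FiniteField.pow_card_pow]
      have hNi : ∀ i, N ^ ((Fintype.card F ^ f.natDegree) ^ i) = N := by
        intro i
        induction i with
        | zero => simp
        | succ i ih => rw [pow_succ, pow_mul, ih, hNq]
      have hsplit : ∑ i ∈ Finset.range (f.natDegree * k), (q ^ 2) ^ i =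
          (∑ i ∈ Finset.range f.natDegree, Fintype.card F ^ i) *
          ∑ i ∈ Finset.range k, (Fintype.card F ^ f.natDegree) ^ i := by
        rw [← hK, Nat.geomSum_eq Fintype.one_lt_card, Nat.geomSum_eq Fintype.one_lt_card]
        exact geom_mul Fintype.one_lt_card hf.natDegree_pos
      rw [hnd, uz_even, hsplit, mul_comm, Nat.cast_mul, mul_assoc, zpow_mul, zpow_natCast, ← hN,
        zpow_mul, zpow_natCast, ← Finset.prod_pow_eq_pow_sum, Finset.prod_congr rfl fun i _ => hNi i,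
        Finset.prod_const, Finset.card_range, ← zpow_natCast, ← zpow_mul, hNk]
  obtain ⟨c, hc1, hc2⟩ := exists_scalar hK u hu hkey
  have hc3 := dl_dvd_scalar σ hσ hc1 hc2
  rw [scPow_iff_dvd]
  refine ⟨c ^ p ^ e, ?_⟩
  rw [hμ, pow_mul, C_pow, ← sub_pow_char_pow]
  rcases hcase with ⟨h1, -⟩ | ⟨h1, hcff⟩
  · exact h1.dvd.trans ((pow_dvd_pow f (hkn.trans he)).trans (pow_dvd_pow_of_dvd hc2 _))
  · refine h1.dvd.trans ((hcff.pow).mul_dvd ?_ ?_)
    · exact ((pow_dvd_pow f (hkn.trans he)).trans (pow_dvd_pow_of_dvd hc2 _))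
    · exact ((pow_dvd_pow _ (hkn.trans he)).trans (pow_dvd_pow_of_dvd hc3 _))

end Cfsg.Agent.H159
end

-- part: H159/UniFinal
section
/-!
**The dichotomy for `PSU_n(q)`**: every element has order dividing the order of an element of order
divisible by `r` (`r ∣ q + 1` prime, `r ∤ n`), or its order divides
`(q^n-(-1)^n)/((q+1) gcd(n,q+1)) * p^e`, `n ≤ p^e`.
-/

set_option autoImplicit false

namespace Cfsg.Agent.H159

open Polynomial Module
open Cfsg.Agent.H186 (st st_mul st_one st_add st_smul st_st st_algebraMap mem_GU_iff_st st_apply)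

variable {F : Type*} [Field F] [Fintype F] {q : ℕ}

theorem psu_dich (hK : Fintype.card F = q ^ 2) {n p a e r : ℕ} [Fact p.Prime] [CharP F p]
    (hqp : q = p ^ a) (hn : 3 ≤ n) (he : n ≤ p ^ e)
    (hr : r.Prime) (hrq : r ∣ q + 1) (hrn : ¬ r ∣ n) (x : Cfsg.PSU n F q) :
    (∃ y : Cfsg.PSU n F q, orderOf x ∣ orderOf y ∧ r ∣ orderOf y) ∨
      orderOf x ∣ (uz q n).natAbs / Nat.gcd n (q + 1) * p ^ e := by
  obtain ⟨σ, hσ⟩ := Cfsg.Agent.ClassicalGeometry.GUBasic.exists_powHom hK
  have hσσ : ∀ c, σ (σ c) = c := fun c => by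
    rw [hσ, hσ, ← pow_mul, ← sq, ← hK, FiniteField.pow_card]
  obtain ⟨g, hg, hdet, hx⟩ := exists_mat_of_psu hK hn x
  have hxo : ∀ {y : Cfsg.PSU n F q}, (∀ m, y ^ m = 1 → ScPow F g m) → orderOf x ∣ orderOf y :=
    fun {y} h => orderOf_dvd_of_pow_eq_one ((hx _).2 (h _ (pow_orderOf_eq_one y)))
  have hμne : minpoly F g ≠ 0 := minpoly.ne_zero (Algebra.IsIntegral.isIntegral _)
  have hμmon : (minpoly F g).Monic := minpoly.monic (Algebra.IsIntegral.isIntegral _)
  have hgg' : g * st q g = 1 := mul_eq_one_comm.1 hg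
  have hdeg : (minpoly F g).natDegree ≤ n := by
    refine le_trans (Polynomial.natDegree_le_of_dvd (Matrix.minpoly_dvd_charpoly g)
      (Matrix.charpoly_monic g).ne_zero) ?_
    rw [Matrix.charpoly_natDegree_eq_dim, Fintype.card_fin]
  have hnt : Nontrivial (Matrix (Fin n) (Fin n) F) := by
    have : Nonempty (Fin n) := ⟨⟨0, by omega⟩⟩
    infer_instance
  have hμ0 : (minpoly F g).coeff 0 ≠ 0 := by
    intro h
    obtain ⟨c, hc⟩ := X_dvd_iff.2 h
    have h1 := congrArg (aeval g) hc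
    rw [minpoly.aeval, map_mul, aeval_X] at h1
    have h2 : aeval g c = 0 := by
      have h3 := congrArg (fun z => st q g * z) h1
      simp only [mul_zero] at h3
      rw [← mul_assoc, hg, one_mul] at h3
      exact h3.symm
    have h4 := minpoly.dvd F g h2
    have hc0 : c ≠ 0 := by rintro rfl; rw [mul_zero] at hc; exact hμne hc
    have h5 := natDegree_le_of_dvd h4 hc0
    rw [hc, natDegree_X_mul hc0] at h5
    omega
  have hself := uni_selfdual hK σ hσ g hg hμ0
  have hdeg0 : (minpoly F g).natDegree ≠ 0 := by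
    have := minpoly.natDegree_pos (Algebra.IsIntegral.isIntegral (R := F) g)
    omega
  rcases Nat.lt_or_ge (minpoly F g).natDegree n with hlt | hge
  · -- small degree
    left
    obtain ⟨B, hB, hBμ⟩ := exists_gu_minpoly hK σ hσ hμmon hμ0 hself rfl
    obtain ⟨h, e', h1, h2, h3, h4, h5, h6, h7, h8⟩ := exists_block hK hdeg0
      (k := n - (minpoly F g).natDegree) (by omega) B hB
    obtain ⟨y, hy1, hy2⟩ := exists_psu_mul_r hK hn (by
      rw [Fintype.card_sum, Fintype.card_fin, Fintype.card_fin]; omega) hr hrq hrn h e' h1 h2 h3 h4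
        h5 h6 h7
    refine ⟨y, hxo fun m hm => ?_, hy2⟩
    have h9 := h8 m (hy1 m hm)
    rw [scPow_iff_dvd] at h9 ⊢
    rw [hBμ] at h9
    exact h9
  have hdeg' : (minpoly F g).natDegree = n := le_antisymm hdeg hge
  have hnu : ¬ IsUnit (minpoly F g) := minpoly.not_isUnit F g
  obtain ⟨f, hfmon, hf, hfdvd⟩ := Polynomial.exists_monic_irreducible_factor _ hnu
  have hf0 : f.coeff 0 ≠ 0 := by
    obtain ⟨c, hc⟩ := hfdvd
    rw [hc, mul_coeff_zero] at hμ0
    exact left_ne_zero_of_mul hμ0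
  obtain ⟨A, b, k, hk, hab, hcop, hda, hdb, hcase⟩ :=
    selfdual_factor σ hσσ hμ0 hself hf hfdvd
  by_cases hbu : IsUnit b
  · right
    apply orderOf_dvd_of_pow_eq_one
    rw [hx]
    have hassoc : Associated (minpoly F g) A := by
      rw [hab]; exact associated_mul_unit_left _ _ hbu
    refine uni_primary hK p a hqp σ hσ he g hdet rfl hf hfmon hf0 hdeg' (k := k) ?_
    rcases hcase with ⟨h1, h2⟩ | ⟨h1, h2⟩
    · exact Or.inl ⟨h1 ▸ hassoc, h2⟩
    · exact Or.inr ⟨h1 ▸ hassoc, h2⟩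
  · left
    have hau : ¬ IsUnit A := by
      intro h
      rcases hcase with ⟨h3, -⟩ | ⟨h3, -⟩
      · rw [h3] at h
        exact hf.not_isUnit ((isUnit_pow_iff hk).1 h)
      · rw [h3] at h
        exact hf.not_isUnit ((isUnit_pow_iff hk).1 (isUnit_of_mul_isUnit_left h))
    obtain ⟨e', h1, h2, h3, h4, h5⟩ := uni_idempotent hK σ hσ g hg hab hcop hau hbu hda hdb
    obtain ⟨y, hy1, hy2⟩ := exists_psu_mul_r hK hn (Fintype.card_fin n) hr hrq hrn g e' hg hdet h1
      h2 h3 h4 h5
    exact ⟨y, hxo hy1, hy2⟩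

end Cfsg.Agent.H159
end

-- part: S2511
section
set_option autoImplicit false
open Cfsg

namespace Cfsg.Agent.S2511

open Cfsg.Agent.H159
open Cfsg.Agent.H186 (st)

/-- For `n - 1` not a power of `p` there is an element of order divisible by `r p^e`. -/
theorem exists_mixed {F : Type*} [Field F] [Fintype F] {q : ℕ} (hK : Fintype.card F = q ^ 2)
    (p n r : ℕ) [Fact p.Prime] [CharP F p] (hn : 3 ≤ n) (hr : r.Prime) (hrq : r ∣ q + 1)
    (hrn : ¬ r ∣ n) (hj : ¬ ∃ j : ℕ, n - 1 = p ^ j) :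
    ∃ x : Cfsg.PSU n F q, p ^ Nat.clog p n ∣ orderOf x ∧ r ∣ orderOf x := by
  have hp : p.Prime := Fact.out
  obtain ⟨B, hB, -, hB2⟩ := exists_uni_unip (n := n - 1) hK p (by omega)
  obtain ⟨h, e', h1, h2, h3, h4, h5, h6, h7, h8⟩ := exists_block hK (d := n - 1) (by omega)
    (k := 1) (by omega) B hB
  obtain ⟨y, hy1, hy2⟩ := exists_psu_mul_r hK hn (by
    rw [Fintype.card_sum, Fintype.card_fin, Fintype.card_fin]; omega) hr hrq hrn h e' h1 h2 h3 h4
      h5 h6 h7
  refine ⟨y, ?_, hy2⟩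
  refine dvd_trans ?_ (hB2 _ (h8 _ (hy1 _ (pow_orderOf_eq_one y))))
  apply pow_dvd_pow
  have h9 : n - 1 ≤ p ^ Nat.clog p (n - 1) := Nat.le_pow_clog hp.one_lt _
  have h10 : n - 1 ≠ p ^ Nat.clog p (n - 1) := fun h => hj ⟨_, h⟩
  exact (Nat.clog_le_iff_le_pow hp.one_lt).2 (by omega)

/-- Let F be a finite field with q² elements, q = p^a, n ≥ 3 with (n, q) ≠ (3, 2), L = PSU(n, q) realised over F, and let r be a prime dividing q + 1 and not dividing n. Then for every m the direct product L × L × L × (ℤ/r)^m has the same set of element orders as L × L × L; and if n − 1 is not a power of p, then already L × L × (ℤ/r)^m has the same set of element orders as L × L. -/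
theorem result {F : Type*} [Field F] [Fintype F] (p a n q r m : ℕ) (hp : p.Prime) (ha : 1 ≤ a) (hq : q = p ^ a) (hF : Fintype.card F = q ^ 2)
    (hn : 3 ≤ n) (hn3 : ¬ (n = 3 ∧ q = 2)) (hr : r.Prime) (hrq : r ∣ q + 1) (hrn : ¬ r ∣ n) :
    Set.range (orderOf : Cfsg.PSU n F q × Cfsg.PSU n F q × Cfsg.PSU n F q × Multiplicative (Fin m → ZMod r) → ℕ) = Set.range (orderOf : Cfsg.PSU n F q × Cfsg.PSU n F q × Cfsg.PSU n F q → ℕ) ∧
    ((¬ ∃ j : ℕ, n - 1 = p ^ j) →
      Set.range (orderOf : Cfsg.PSU n F q × Cfsg.PSU n F q × Multiplicative (Fin m → ZMod r) → ℕ) = Set.range (orderOf : Cfsg.PSU n F q × Cfsg.PSU n F q → ℕ)) := by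
  have : Fact p.Prime := ⟨hp⟩
  have : CharP F p := charP_of_card_eq_prime_pow (f := a * 2) (by rw [hF, hq, ← pow_mul])
  have hfin : Finite (Cfsg.PSU n F q) := by
    have : Finite (Matrix.SpecialLinearGroup (Fin n) F) :=
      Finite.of_injective (fun g => (g : Matrix (Fin n) (Fin n) F)) Subtype.val_injective
    exact Quotient.finite _
  have hcop : Nat.Coprime ((uz q n).natAbs / Nat.gcd n (q + 1)) (p ^ Nat.clog p n) := by
    apply Nat.Coprime.pow_right
    rw [Nat.coprime_comm, Nat.Prime.coprime_iff_not_dvd hp]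
    intro h
    have h1 : p ∣ ((-(q : ℤ)) ^ n - 1).natAbs := by
      rw [← natAbs_uz_mul]
      exact (h.trans (Nat.div_dvd_of_dvd (gcd_dvd_uz q n))).mul_left _
    rw [← Int.natCast_dvd] at h1
    have h2 : (p : ℤ) ∣ (-(q : ℤ)) ^ n := by
      refine dvd_pow ?_ (by omega)
      rw [dvd_neg, Int.natCast_dvd_natCast, hq]
      exact dvd_pow_self p (by omega)
    have h3 : (p : ℤ) ∣ 1 := by
      have := dvd_sub h2 h1
      simpa using this
    have h4 : p ∣ 1 := by exact_mod_cast h3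
    exact hp.one_lt.ne' (Nat.dvd_one.1 h4)
  have hdich := psu_dich (F := F) (p := p) hF hq hn (Nat.le_pow_clog hp.one_lt n) hr hrq hrn
  have hlift : ∀ (s : ℕ) (B : Matrix (Fin n) (Fin n) F), st q B * B = 1 → B.det = 1 →
      (∀ m, ScPow F B m → s ∣ m) → ∃ x : Cfsg.PSU n F q, s ∣ orderOf x := by
    intro s B h1 h2 h3
    obtain ⟨x, hx⟩ := exists_psu_of_mat hF hn (Fintype.card_fin n) B h1 h2
    exact ⟨x, h3 _ ((hx _).1 (pow_orderOf_eq_one x))⟩
  obtain ⟨h1, h2⟩ := both_of r m _ _ hcop hdich (by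
      obtain ⟨B, h1, h2, h3⟩ := exists_uni_singer (n := n) hF p a hq (by omega)
      exact hlift _ B h1 h2 h3) (by
      obtain ⟨B, h1, h2, h3⟩ := exists_uni_unip (n := n) hF p (by omega)
      exact hlift _ B h1 h2 h3) (by
      obtain ⟨B, hB, -, -⟩ := exists_uni_unip (n := n - 1) hF p (by omega)
      obtain ⟨h, e', h1, h2, h3, h4, h5, h6, h7, h8⟩ := exists_block hF (d := n - 1) (by omega)
        (k := 1) (by omega) B hB
      obtain ⟨y, hy1, hy2⟩ := exists_psu_mul_r hF hn (by
        rw [Fintype.card_sum, Fintype.card_fin, Fintype.card_fin]; omega) hr hrq hrn h e' h1 h2 h3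
          h4 h5 h6 h7
      exact ⟨y, hy2⟩)
  exact ⟨h1, fun hj => h2 (exists_mixed hF p n r hn hr hrq hrn hj)⟩

end Cfsg.Agent.S2511
end
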