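import Cfsg.Statements.S2514
import Mathlib.Data.Fintype.Lattice
import Mathlib.Data.Fin.Tuple.Basic
set_option linter.all false

set_option autoImplicit false
open Cfsg

namespace Cfsg.Agent.S2514

/-- Every element order divides an element order that is maximal under divisibility. -/
theorem exists_mu {X : Type*} [Group X] [Finite X] (x : X) :
    ∃ m, m ∈ {n : ℕ | n ∈ Set.range (orderOf : X → ℕ) ∧
      ∀ m ∈ Set.range (orderOf : X → ℕ), n ∣ m → m = n} ∧ orderOf x ∣ m := by
  have : Nonempty {y : X // orderOf x ∣ orderOf y} := ⟨⟨x, dvd_rfl⟩⟩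
  obtain ⟨⟨y, hy⟩, hmax⟩ := Finite.exists_max (fun y : {y : X // orderOf x ∣ orderOf y} =>
    orderOf (y : X))
  refine ⟨orderOf y, ⟨⟨y, rfl⟩, ?_⟩, hy⟩
  rintro _ ⟨z, rfl⟩ hz
  exact le_antisymm (hmax ⟨z, hy.trans hz⟩) (Nat.le_of_dvd (orderOf_pos z) hz)

theorem exists_of_dvd {X : Type*} [Group X] [Finite X] (x : X) {d : ℕ} (hd : d ∣ orderOf x) :
    ∃ y : X, orderOf y = d := by
  obtain ⟨e, he⟩ := hd
  have hpos := orderOf_pos x
  have he0 : e ≠ 0 := by
    rintro rfl
    rw [Nat.mul_zero] at he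
    omega
  refine ⟨x ^ e, ?_⟩
  rw [orderOf_pow_of_dvd he0 ⟨d, by rw [he, mul_comm]⟩, he, Nat.mul_div_cancel _ (Nat.pos_of_ne_zero he0)]

theorem pi_dvd {k : ℕ} {X : Type*} [Group X] (x : Fin k → X) (n : ℕ) :
    orderOf x ∣ n ↔ ∀ i, orderOf (x i) ∣ n := by
  simp only [orderOf_dvd_iff_pow_eq_one, funext_iff, Pi.pow_apply, Pi.one_apply]

theorem prod_dvd {k : ℕ} {X Y : Type*} [Group X] [Group Y] (x : Fin k → X) (y : Y) (n : ℕ) :
    orderOf (x, y) ∣ n ↔ (∀ i, orderOf (x i) ∣ n) ∧ orderOf y ∣ n := by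
  rw [Prod.orderOf, Nat.lcm_dvd_iff, pi_dvd]

theorem eq_of_dvd {a b : ℕ} (h : ∀ n, a ∣ n ↔ b ∣ n) : a = b :=
  Nat.dvd_antisymm ((h b).2 dvd_rfl) ((h a).1 dvd_rfl)

/-- For a finite group X write μ(X) for the set of element orders of X that are maximal under divisibility. Let G and H be finite groups and k ≥ 1 such that μ(H) ⊆ μ(G) and μ(G) has fewer than k elements outside μ(H). Then the direct product of k copies of G has the same set of element orders as the direct product of k − 1 copies of G with H. -/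
theorem result {G H : Type*} [Group G] [Finite G] [Group H] [Finite H] (k : ℕ) (hk : 1 ≤ k)
    (hsub : {n : ℕ | n ∈ Set.range (orderOf : H → ℕ) ∧ ∀ m ∈ Set.range (orderOf : H → ℕ), n ∣ m → m = n} ⊆ {n : ℕ | n ∈ Set.range (orderOf : G → ℕ) ∧ ∀ m ∈ Set.range (orderOf : G → ℕ), n ∣ m → m = n})
    (hfew : ({n : ℕ | n ∈ Set.range (orderOf : G → ℕ) ∧ ∀ m ∈ Set.range (orderOf : G → ℕ), n ∣ m → m = n} \ {n : ℕ | n ∈ Set.range (orderOf : H → ℕ) ∧ ∀ m ∈ Set.range (orderOf : H → ℕ), n ∣ m → m = n}).ncard < k) :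
    Set.range (orderOf : (Fin k → G) → ℕ) = Set.range (orderOf : (Fin (k - 1) → G) × H → ℕ) := by
  obtain ⟨k, rfl⟩ : ∃ k', k = k' + 1 := ⟨k - 1, by omega⟩
  clear hk
  have hk1 : k + 1 - 1 = k := rfl
  rw [hk1]
  ext n
  constructor
  · rintro ⟨x, rfl⟩
    choose m hm hxm using fun i => exists_mu (x i)
    by_cases hA : ∃ i, m i ∈ {n : ℕ | n ∈ Set.range (orderOf : H → ℕ) ∧
        ∀ m ∈ Set.range (orderOf : H → ℕ), n ∣ m → m = n}
    · obtain ⟨i, ⟨h0, hh0⟩, -⟩ := hA
      obtain ⟨h, hh⟩ := exists_of_dvd h0 (d := orderOf (x i)) (by rw [hh0]; exact hxm i)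
      refine ⟨(fun j => x (i.succAbove j), h), eq_of_dvd fun n => ?_⟩
      rw [prod_dvd, pi_dvd, Fin.forall_iff_succAbove i, hh, and_comm]
    · push Not at hA
      obtain ⟨i, j, hij, hmij⟩ : ∃ i j, i ≠ j ∧ m i = m j := by
        by_contra hcon
        push Not at hcon
        have hinj : Function.Injective m := by
          intro i j h
          by_contra hne
          exact hcon i j hne h
        have hfin : ({n : ℕ | n ∈ Set.range (orderOf : G → ℕ) ∧
            ∀ m ∈ Set.range (orderOf : G → ℕ), n ∣ m → m = n} \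
            {n : ℕ | n ∈ Set.range (orderOf : H → ℕ) ∧
            ∀ m ∈ Set.range (orderOf : H → ℕ), n ∣ m → m = n}).Finite :=
          (Set.finite_range (orderOf : G → ℕ)).subset fun n hn => hn.1.1
        have hsub' : Set.range m ⊆ ({n : ℕ | n ∈ Set.range (orderOf : G → ℕ) ∧
            ∀ m ∈ Set.range (orderOf : G → ℕ), n ∣ m → m = n} \
            {n : ℕ | n ∈ Set.range (orderOf : H → ℕ) ∧
            ∀ m ∈ Set.range (orderOf : H → ℕ), n ∣ m → m = n}) := by
          rintro _ ⟨i, rfl⟩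
          exact ⟨hm i, hA i⟩
        have hle := Set.ncard_le_ncard hsub' hfin
        have hr : (Set.range m).ncard = k + 1 := by
          rw [← Set.image_univ, Set.ncard_image_of_injective _ hinj, Set.ncard_univ, Nat.card_fin]
        omega
      obtain ⟨j, rfl⟩ := Fin.exists_succAbove_eq (x := j) (y := i) (fun h => hij h.symm)
      obtain ⟨⟨g0, hg0⟩, -⟩ := hm i
      obtain ⟨g, hg⟩ := exists_of_dvd g0
        (d := Nat.lcm (orderOf (x i)) (orderOf (x (i.succAbove j))))
        (by rw [hg0]; exact Nat.lcm_dvd (hxm i) (by rw [hmij]; exact hxm _))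
      refine ⟨(fun l => if l = j then g else x (i.succAbove l), 1), eq_of_dvd fun n => ?_⟩
      rw [prod_dvd, pi_dvd, Fin.forall_iff_succAbove i, orderOf_one]
      constructor
      · rintro ⟨h1, -⟩
        have h2 := h1 j
        rw [if_pos rfl, hg, Nat.lcm_dvd_iff] at h2
        refine ⟨h2.1, fun l => ?_⟩
        by_cases hl : l = j
        · subst hl
          exact h2.2
        · have := h1 l
          rwa [if_neg hl] at this
      · rintro ⟨h1, h2⟩
        refine ⟨fun l => ?_, one_dvd _⟩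
        by_cases hl : l = j
        · simp only [if_pos hl]
          rw [hg, Nat.lcm_dvd_iff]
          exact ⟨h1, h2 j⟩
        · simp only [if_neg hl]
          exact h2 l
  · rintro ⟨⟨x, h⟩, rfl⟩
    obtain ⟨m, hm, hhm⟩ := exists_mu h
    obtain ⟨⟨g0, hg0⟩, -⟩ := hsub hm
    obtain ⟨g, hg⟩ := exists_of_dvd g0 (d := orderOf h) (by rw [hg0]; exact hhm)
    refine ⟨Fin.cons g x, eq_of_dvd fun n => ?_⟩
    rw [prod_dvd, pi_dvd, Fin.forall_fin_succ, Fin.cons_zero, hg, and_comm]
    simp only [Fin.cons_succ]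

end Cfsg.Agent.S2514
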