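import Cfsg.Statements.S2520
import Cfsg.Agent.H161.G2Main
set_option linter.all false

set_option autoImplicit false
open Cfsg

namespace Cfsg.Agent.S2520

/-- Let F be a finite field with q = 2^a ≥ 4 elements and G₂(F) the Chevalley group of type G₂ over it. Every element order of G₂(F) maximal under divisibility lies in the set {8, 12, 2(q + 1), 2(q − 1), q² − 1, q² + q + 1, q² − q + 1}, and every member of that set is an element order of G₂(F). -/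
theorem result {F : Type*} [Field F] [Fintype F] (a : ℕ) (ha : 2 ≤ a) (hF : Fintype.card F = 2 ^ a) :
    {n : ℕ | n ∈ Set.range (orderOf : ↥(Cfsg.Lie.chevG2.group F) → ℕ) ∧ ∀ m ∈ Set.range (orderOf : ↥(Cfsg.Lie.chevG2.group F) → ℕ), n ∣ m → m = n} ⊆ ({8, 12, 2 * (2 ^ a + 1), 2 * (2 ^ a - 1), 2 ^ (2 * a) - 1, 2 ^ (2 * a) + 2 ^ a + 1, 2 ^ (2 * a) - 2 ^ a + 1} : Set ℕ) ∧
    ({8, 12, 2 * (2 ^ a + 1), 2 * (2 ^ a - 1), 2 ^ (2 * a) - 1, 2 ^ (2 * a) + 2 ^ a + 1, 2 ^ (2 * a) - 2 ^ a + 1} : Set ℕ) ⊆ Set.range (orderOf : ↥(Cfsg.Lie.chevG2.group F) → ℕ) := by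
  have hpf : Fact (Nat.Prime 2) := ⟨Nat.prime_two⟩
  have hn : a ≠ 0 := by omega
  have hq4 : 4 ≤ 2 ^ a := by
    calc 4 = 2 ^ 2 := rfl
      _ ≤ 2 ^ a := Nat.pow_le_pow_right (by norm_num) ha
  have hlow : ({8, 12, 2 * (2 ^ a + 1), 2 * (2 ^ a - 1), 2 ^ (2 * a) - 1, 2 ^ (2 * a) + 2 ^ a + 1, 2 ^ (2 * a) - 2 ^ a + 1} : Set ℕ) ⊆ Set.range (orderOf : ↥(Cfsg.Lie.chevG2.group F) → ℕ) := by
    intro N hN
    apply Cfsg.Agent.H161.G2Main.lower hn hF (by omega)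
    simp only [Set.mem_insert_iff, Set.mem_singleton_iff] at hN
    tauto
  refine ⟨Cfsg.Agent.H161.G2Main.max_subset hlow ?_, hlow⟩
  intro m hm
  obtain ⟨N, h1, h2⟩ := Cfsg.Agent.H161.G2Main.upper hF (by omega) hm
  refine ⟨N, ?_, h1⟩
  simp only [Set.mem_insert_iff, Set.mem_singleton_iff]
  rcases h2 with h2 | h2 | h2 | h2 | h2 | h2 | h2
  · tauto
  · tauto
  · tauto
  · tauto
  · tauto
  · tauto
  · rcases h2.1 with h | h
    · exact absurd h (by norm_num)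
    · exact absurd h (by norm_num)

end Cfsg.Agent.S2520
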