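import Mathlib
import Cfsg.Statements.S2648
import Cfsg.Agent.S4010
set_option linter.all false

-- part: H187/WreathTwo
section
/-!
# Derived length of `A ≀ C₂` and 2-subgroups of large derived length in `Sp_2n(q)` (helper187)

* `Wr.sup` : `j : A × A → G` injective, `w ∈ G` of order dividing 2 exchanging the two factors: the subgroup
  `⟨j(A × A), w⟩` is a 2-group if `A` is one, and its derived length is bigger than that of `A`;
* `bdHom` : `Sp(l) × Sp(m) → Sp(l ⊕ m)`;
* `exists_sub` : for `F` finite of odd order and `2 ^ k ≤ n` the group `Sp_2n(F)` has a 2-subgroup of derived length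
  at least `k + 2`.
-/

set_option autoImplicit false
set_option linter.unusedSectionVars false

namespace Cfsg.Agent.H187.WreathTwo

open Subgroup
open scoped commutatorElement

section Wr

variable {A G : Type*} [Group A] [Group G]

/-- `D_n(A) ≤ pr₁ (j⁻¹ (D_{n+1}(H)))` -/
theorem derived_le (j : A × A →* G) (w : G) (hw : ∀ x y, w * j (x, y) * w⁻¹ = j (y, x)) (n : ℕ) :
    derivedSeries A n ≤ ((derivedSeries G (n + 1)).comap j).map (MonoidHom.fst A A) := by
  induction n with
  | zero =>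
    intro x _
    refine ⟨(x, x⁻¹), ?_, rfl⟩
    show j (x, x⁻¹) ∈ derivedSeries G 1
    have h : j (x, x⁻¹) = ⁅j (x, 1), w⁆ := by
      have h1 : (j (x, 1))⁻¹ = j (x⁻¹, 1) := by
        rw [← map_inv]; congr 1; ext <;> simp
      rw [commutatorElement_def, h1, mul_assoc (j (x, 1)), mul_assoc (j (x, 1)), hw, ← map_mul]
      congr 1
      ext <;> simp
    rw [h]
    show ⁅j (x, 1), w⁆ ∈ ⁅(⊤ : Subgroup G), (⊤ : Subgroup G)⁆
    exact Subgroup.commutator_mem_commutator (Subgroup.mem_top _) (Subgroup.mem_top _)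
  | succ n ih =>
    rw [derivedSeries_succ A]
    refine (Subgroup.commutator_mono ih ih).trans ?_
    rw [← Subgroup.map_commutator]
    apply Subgroup.map_mono
    rw [← Subgroup.map_le_iff_le_comap, Subgroup.map_commutator, derivedSeries_succ G]
    exact Subgroup.commutator_mono (Subgroup.map_comap_le _ _) (Subgroup.map_comap_le _ _)

theorem derived_ne_bot (j : A × A →* G) (w : G) (hw : ∀ x y, w * j (x, y) * w⁻¹ = j (y, x)) {n : ℕ}
    (h : derivedSeries A n ≠ ⊥) (hj : Function.Injective j) : derivedSeries G (n + 1) ≠ ⊥ := by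
  intro hb
  apply h
  rw [eq_bot_iff]
  refine (derived_le j w hw n).trans ?_
  rw [hb]
  rintro _ ⟨⟨x, y⟩, hxy, rfl⟩
  have h1 : j (x, y) = 1 := hxy
  have h2 : (x, y) = 1 := hj (by rw [h1, map_one])
  have h3 : x = 1 := congrArg Prod.fst h2
  exact h3

/-- the wreath product with a group of order two inside `G` -/
theorem sup (hA : IsPGroup 2 A) (j : A × A →* G) (hj : Function.Injective j) (w : G) (hw2 : w * w = 1)
    (hw : ∀ x y, w * j (x, y) * w⁻¹ = j (y, x)) {n : ℕ} (h : derivedSeries A n ≠ ⊥) :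
    ∃ H : Subgroup G, IsPGroup 2 H ∧ derivedSeries H (n + 1) ≠ ⊥ := by
  refine ⟨zpowers w ⊔ j.range, ?_, ?_⟩
  · apply IsPGroup.to_sup_of_normal_right'
    · rw [IsPGroup.iff_orderOf]
      rintro ⟨g, hg⟩
      obtain ⟨k, rfl⟩ := mem_zpowers_iff.1 hg
      have h1 : orderOf (w ^ k) ∣ 2 := by
        rw [orderOf_dvd_iff_pow_eq_one, ← zpow_natCast, ← zpow_mul, mul_comm, zpow_mul]
        have : w ^ ((2 : ℕ) : ℤ) = 1 := by
          rw [zpow_natCast, pow_two, hw2]
        rw [this, one_zpow]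
      rw [Subgroup.orderOf_mk]
      rcases (Nat.dvd_prime Nat.prime_two).1 h1 with h2 | h2
      · exact ⟨0, by rw [h2, pow_zero]⟩
      · exact ⟨1, by rw [h2, pow_one]⟩
    · have hAA : IsPGroup 2 (A × A) := by
        intro x
        obtain ⟨a, ha⟩ := hA x.1
        obtain ⟨b, hb⟩ := hA x.2
        refine ⟨a + b, ?_⟩
        apply Prod.ext
        · show x.1 ^ 2 ^ (a + b) = 1
          rw [pow_add, pow_mul, ha, one_pow]
        · show x.2 ^ 2 ^ (a + b) = 1
          rw [add_comm, pow_add, pow_mul, hb, one_pow]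
      exact hAA.of_surjective j.rangeRestrict j.rangeRestrict_surjective
    · rw [zpowers_le]
      rw [Subgroup.mem_normalizer_iff]
      intro g
      constructor
      · rintro ⟨⟨x, y⟩, rfl⟩
        rw [hw]
        exact ⟨_, rfl⟩
      · rintro ⟨⟨x, y⟩, hxy⟩
        have hwi : w⁻¹ = w := inv_eq_of_mul_eq_one_left hw2
        have h1 := hw x y
        rw [hxy, hwi] at h1
        have h2 : w * (w * g * w) * w = g := by
          calc w * (w * g * w) * w = (w * w) * g * (w * w) := by group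
            _ = g := by rw [hw2, one_mul, mul_one]
        rw [h2] at h1
        exact ⟨_, h1.symm⟩
  · have hle : j.range ≤ zpowers w ⊔ j.range := le_sup_right
    have hwm : w ∈ zpowers w ⊔ j.range := le_sup_left (a := zpowers w) (mem_zpowers w)
    refine derived_ne_bot (j.codRestrict (zpowers w ⊔ j.range) (fun x => hle ⟨x, rfl⟩)) ⟨w, hwm⟩ ?_ h ?_
    · intro x y
      apply Subtype.ext
      exact hw x y
    · intro x y hxy
      exact hj (congrArg Subtype.val hxy)

end Wr

/-! ### Symplectic groups -/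

section Sp

open Matrix

variable {l m : Type*} [Fintype l] [Fintype m] [DecidableEq l] [DecidableEq m] {F : Type*} [Field F]

/-- rearrangement of the blocks -/
abbrev ee (l m : Type*) : (l ⊕ m) ⊕ (l ⊕ m) ≃ (l ⊕ l) ⊕ (m ⊕ m) := Equiv.sumSumSumComm l m l m

/-- the block sum -/
def bd (M : Matrix (l ⊕ l) (l ⊕ l) F) (N : Matrix (m ⊕ m) (m ⊕ m) F) :
    Matrix ((l ⊕ m) ⊕ (l ⊕ m)) ((l ⊕ m) ⊕ (l ⊕ m)) F :=
  (fromBlocks M 0 0 N).submatrix (ee l m) (ee l m)

theorem bd_mul (M M' : Matrix (l ⊕ l) (l ⊕ l) F) (N N' : Matrix (m ⊕ m) (m ⊕ m) F) :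
    bd M N * bd M' N' = bd (M * M') (N * N') := by
  rw [bd, bd, bd, Matrix.submatrix_mul_equiv, fromBlocks_multiply]
  simp

theorem bd_one : bd (1 : Matrix (l ⊕ l) (l ⊕ l) F) (1 : Matrix (m ⊕ m) (m ⊕ m) F) = 1 := by
  rw [bd, fromBlocks_one, Matrix.submatrix_one_equiv]

theorem bd_transpose (M : Matrix (l ⊕ l) (l ⊕ l) F) (N : Matrix (m ⊕ m) (m ⊕ m) F) :
    (bd M N)ᵀ = bd Mᵀ Nᵀ := by
  rw [bd, bd, Matrix.transpose_submatrix, fromBlocks_transpose]
  simp

theorem bd_J : bd (J l F) (J m F) = J (l ⊕ m) F := by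
  ext i j
  rcases i with (i | i) | (i | i) <;> rcases j with (j | j) | (j | j) <;>
    simp [bd, J, Matrix.one_apply]

theorem bd_injective {M M' : Matrix (l ⊕ l) (l ⊕ l) F} {N N' : Matrix (m ⊕ m) (m ⊕ m) F}
    (h : bd M N = bd M' N') : M = M' ∧ N = N' := by
  have h1 : fromBlocks M 0 0 N = fromBlocks M' 0 0 N' := by
    ext i j
    have h2 := congrFun (congrFun h ((ee l m).symm i)) ((ee l m).symm j)
    simp only [bd, submatrix_apply, Equiv.apply_symm_apply] at h2
    exact h2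
  rw [fromBlocks_inj] at h1
  exact ⟨h1.1, h1.2.2.2⟩

/-- `Sp(l) × Sp(m) → Sp(l ⊕ m)` -/
def bdHom (l m : Type*) [Fintype l] [Fintype m] [DecidableEq l] [DecidableEq m] (F : Type*) [Field F] :
    symplecticGroup l F × symplecticGroup m F →* symplecticGroup (l ⊕ m) F where
  toFun x := ⟨bd x.1.1 x.2.1, by
    rw [SymplecticGroup.mem_iff, bd_transpose, ← bd_J, bd_mul, bd_mul,
      SymplecticGroup.mem_iff.1 x.1.2, SymplecticGroup.mem_iff.1 x.2.2]⟩
  map_one' := Subtype.ext bd_one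
  map_mul' x y := Subtype.ext (bd_mul _ _ _ _).symm

theorem bdHom_injective : Function.Injective (bdHom l m F) := by
  intro x y h
  have h1 := bd_injective (congrArg Subtype.val h)
  exact Prod.ext (Subtype.ext h1.1) (Subtype.ext h1.2)

/-- conjugation by permutations of the index set -/
def ridx (e : l ≃ m) : symplecticGroup l F →* symplecticGroup m F where
  toFun x := ⟨x.1.submatrix (Sum.map e.symm e.symm) (Sum.map e.symm e.symm), by
    obtain ⟨f, hf⟩ : ∃ f : m ⊕ m ≃ l ⊕ l, (f : m ⊕ m → l ⊕ l) = Sum.map e.symm e.symm :=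
      ⟨Equiv.sumCongr e.symm e.symm, rfl⟩
    have hJ : J m F = (J l F).submatrix f f := by
      rw [hf]
      ext i j
      rcases i with i | i <;> rcases j with j | j <;> simp [J, Matrix.one_apply]
    rw [SymplecticGroup.mem_iff, ← hf, hJ, transpose_submatrix, submatrix_mul_equiv, submatrix_mul_equiv,
      SymplecticGroup.mem_iff.1 x.2]⟩
  map_one' := by
    apply Subtype.ext
    show (1 : Matrix (l ⊕ l) (l ⊕ l) F).submatrix _ _ = 1
    exact submatrix_one_equiv (Equiv.sumCongr e.symm e.symm)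
  map_mul' x y := by
    apply Subtype.ext
    show (x.1 * y.1).submatrix _ _ = x.1.submatrix _ _ * y.1.submatrix _ _
    exact (submatrix_mul_equiv x.1 y.1 _ (Equiv.sumCongr e.symm e.symm) _).symm

theorem ridx_injective (e : l ≃ m) : Function.Injective (ridx (F := F) e) := by
  intro x y h
  have h1 : x.1.submatrix (Equiv.sumCongr e.symm e.symm) (Equiv.sumCongr e.symm e.symm) =
      y.1.submatrix (Equiv.sumCongr e.symm e.symm) (Equiv.sumCongr e.symm e.symm) := congrArg Subtype.val h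
  apply Subtype.ext
  ext i j
  have h2 := congrFun (congrFun h1 ((Equiv.sumCongr e.symm e.symm).symm i)) ((Equiv.sumCongr e.symm e.symm).symm j)
  rw [submatrix_apply, submatrix_apply, Equiv.apply_symm_apply, Equiv.apply_symm_apply] at h2
  exact h2

/-- the exchange of the two summands -/
def ww (l : Type*) [Fintype l] [DecidableEq l] (F : Type*) [Field F] : symplecticGroup (l ⊕ l) F :=
  ⟨fromBlocks (fromBlocks 0 1 1 0) 0 0 (fromBlocks 0 1 1 0), by
    rw [SymplecticGroup.mem_iff]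
    rw [J, fromBlocks_transpose, fromBlocks_transpose, fromBlocks_multiply, fromBlocks_multiply]
    simp [fromBlocks_multiply]⟩

theorem ww_mul_self : ww l F * ww l F = 1 := by
  apply Subtype.ext
  show fromBlocks (fromBlocks 0 1 1 0) 0 0 (fromBlocks 0 1 1 0) *
    fromBlocks (fromBlocks 0 1 1 0) 0 0 (fromBlocks 0 1 1 0) = (1 : Matrix ((l ⊕ l) ⊕ (l ⊕ l)) ((l ⊕ l) ⊕ (l ⊕ l)) F)
  rw [fromBlocks_multiply]
  simp [fromBlocks_multiply]

theorem ww_conj (x y : symplecticGroup l F) : ww l F * bdHom l l F (x, y) * (ww l F)⁻¹ = bdHom l l F (y, x) := by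
  rw [mul_inv_eq_iff_eq_mul]
  apply Subtype.ext
  show fromBlocks (fromBlocks 0 1 1 0) 0 0 (fromBlocks 0 1 1 0) * bd x.1 y.1 =
    bd y.1 x.1 * fromBlocks (fromBlocks 0 1 1 0) 0 0 (fromBlocks 0 1 1 0)
  have hbd : ∀ x y : Matrix (l ⊕ l) (l ⊕ l) F, bd x y =
      fromBlocks (fromBlocks x.toBlocks₁₁ 0 0 y.toBlocks₁₁) (fromBlocks x.toBlocks₁₂ 0 0 y.toBlocks₁₂)
        (fromBlocks x.toBlocks₂₁ 0 0 y.toBlocks₂₁) (fromBlocks x.toBlocks₂₂ 0 0 y.toBlocks₂₂) := by
    intro x y
    ext i j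
    rcases i with (i | i) | (i | i) <;> rcases j with (j | j) | (j | j) <;> rfl
  rw [hbd, hbd, fromBlocks_multiply, fromBlocks_multiply]
  simp [fromBlocks_multiply]

/-- `Sp(l)` has a 2-subgroup with nontrivial `d`-th derived group -/
def T (l : Type*) [Fintype l] [DecidableEq l] (F : Type*) [Field F] (d : ℕ) : Prop :=
  ∃ H : Subgroup (symplecticGroup l F), IsPGroup 2 H ∧ derivedSeries H d ≠ ⊥

theorem T.map {d : ℕ} (h : T l F d) (f : symplecticGroup l F →* symplecticGroup m F)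
    (hf : Function.Injective f) : T m F d := by
  obtain ⟨H, h1, h2⟩ := h
  refine ⟨H.map f, h1.map f, ?_⟩
  intro hb
  apply h2
  rw [eq_bot_iff]
  intro x hx
  have h3 : (H.equivMapOfInjective f hf) x ∈ derivedSeries (H.map f) d :=
    map_derivedSeries_le_derivedSeries (H.equivMapOfInjective f hf).toMonoidHom d ⟨x, hx, rfl⟩
  rw [hb, Subgroup.mem_bot] at h3
  rw [Subgroup.mem_bot]
  exact (H.equivMapOfInjective f hf).injective (by rw [h3, map_one])

theorem T.congr {d : ℕ} (h : T l F d) (e : l ≃ m) : T m F d := h.map (ridx e) (ridx_injective e)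

theorem T.left {d : ℕ} (h : T l F d) : T (l ⊕ m) F d :=
  h.map ((bdHom l m F).comp (MonoidHom.inl _ _)) (bdHom_injective.comp (fun _ _ h => (Prod.ext_iff.1 h).1))

theorem T.double {d : ℕ} (h : T l F d) : T (l ⊕ l) F (d + 1) := by
  obtain ⟨H, h1, h2⟩ := h
  refine sup h1 ((bdHom l l F).comp (H.subtype.prodMap H.subtype)) ?_ (ww l F) ww_mul_self ?_ h2
  · apply bdHom_injective.comp
    rintro ⟨x, y⟩ ⟨x', y'⟩ h
    exact Prod.ext (Subtype.ext (congrArg Prod.fst h)) (Subtype.ext (congrArg Prod.snd h))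
  · intro x y
    exact ww_conj _ _

/-- the quaternion group in `Sp_2` -/
theorem T_one [Finite F] (h2 : (2 : F) ≠ 0) : T (Fin 1) F 1 := by
  obtain ⟨a, b, hab⟩ : ∃ a b : F, a ^ 2 + b ^ 2 = -1 := by
    obtain ⟨p, hp⟩ := CharP.exists F
    have hpp : p.Prime := (CharP.char_is_prime_or_zero F p).resolve_right (CharP.char_ne_zero_of_finite F p)
    have := Fact.mk hpp
    obtain ⟨a, b, hab⟩ := CharP.sq_add_sq F p (-1)
    exact ⟨a, b, by rw [hab]; push_cast; rfl⟩
  obtain ⟨k, hk⟩ : ∃ k : Matrix (Fin 1 ⊕ Fin 1) (Fin 1 ⊕ Fin 1) F, k = fromBlocks (a • 1) (b • 1) (b • 1) (-a • 1) :=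
    ⟨_, rfl⟩
  have hkk : k * k = -1 := by
    rw [hk, fromBlocks_multiply]
    ext (i | i) (j | j) <;>
      simp [Subsingleton.elim i j] <;> first | ring1 | linear_combination hab
  have hJk : J (Fin 1) F * k = -(k * J (Fin 1) F) := by
    rw [hk, J, fromBlocks_multiply, fromBlocks_multiply]
    ext (i | i) (j | j) <;> simp [Subsingleton.elim i j]
  have hkT : kᵀ = k := by
    rw [hk, fromBlocks_transpose]
    simp
  have hkm : k ∈ symplecticGroup (Fin 1) F := by
    rw [SymplecticGroup.mem_iff, hkT, mul_assoc, hJk, mul_neg, ← mul_assoc, hkk]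
    simp
  obtain ⟨K, hK⟩ : ∃ K : symplecticGroup (Fin 1) F, K.1 = k := ⟨⟨k, hkm⟩, rfl⟩
  obtain ⟨L, hL⟩ : ∃ L : symplecticGroup (Fin 1) F, L.1 = J (Fin 1) F := ⟨⟨_, SymplecticGroup.J_mem _ _⟩, rfl⟩
  have hLL : L.1 * L.1 = -1 := by
    rw [hL]; exact Matrix.J_squared _ _
  have hK4 : K ^ 4 = 1 := by
    apply Subtype.ext
    show K.1 ^ 4 = 1
    rw [hK, show (4 : ℕ) = 2 * 2 from rfl, pow_mul, pow_two k, hkk]
    simp
  have hL4 : L ^ 4 = 1 := by
    apply Subtype.ext
    show L.1 ^ 4 = 1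
    rw [show (4 : ℕ) = 2 * 2 from rfl, pow_mul, pow_two L.1, hLL]
    simp
  have hLK : L * K * L⁻¹ = K⁻¹ := by
    rw [mul_inv_eq_iff_eq_mul, eq_inv_mul_iff_mul_eq, ← mul_assoc]
    apply Subtype.ext
    show K.1 * L.1 * K.1 = L.1
    rw [hK, hL, mul_assoc, hJk, mul_neg, ← mul_assoc, hkk]
    simp
  have hK2 : K * K ≠ 1 := by
    intro h
    have h1 : K.1 * K.1 = 1 := congrArg Subtype.val h
    rw [hK, hkk] at h1
    have h3 := congrFun (congrFun h1 (Sum.inl 0)) (Sum.inl 0)
    simp only [Matrix.neg_apply, Matrix.one_apply_eq] at h3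
    exact h2 (by linear_combination -h3)
  have hpz : ∀ g : symplecticGroup (Fin 1) F, g ^ 4 = 1 → IsPGroup 2 (zpowers g) := by
    intro g hg
    rintro ⟨y, hy⟩
    obtain ⟨n, rfl⟩ := mem_zpowers_iff.1 hy
    refine ⟨2, Subtype.ext ?_⟩
    show (g ^ n) ^ 4 = 1
    rw [← zpow_natCast, ← _root_.zpow_mul, mul_comm, _root_.zpow_mul]
    have : g ^ ((4 : ℕ) : ℤ) = 1 := by rw [zpow_natCast, hg]
    rw [this, _root_.one_zpow]
  refine ⟨zpowers L ⊔ zpowers K, ?_, ?_⟩
  · apply IsPGroup.to_sup_of_normal_right' (hpz L hL4) (hpz K hK4)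
    rw [zpowers_le, Subgroup.mem_normalizer_iff]
    have key : ∀ g : symplecticGroup (Fin 1) F, g ∈ zpowers K → L * g * L⁻¹ ∈ zpowers K := by
      intro g hg
      obtain ⟨n, rfl⟩ := mem_zpowers_iff.1 hg
      rw [← conj_zpow, hLK]
      exact zpow_mem (inv_mem (mem_zpowers K)) n
    intro g
    refine ⟨key g, fun hg => ?_⟩
    have h3 := key _ (key _ (key _ hg))
    have h4 : L * (L * (L * (L * g * L⁻¹) * L⁻¹) * L⁻¹) * L⁻¹ = L ^ 4 * g * (L ^ 4)⁻¹ := by
      simp only [pow_succ, pow_zero, one_mul, _root_.mul_inv_rev, mul_assoc]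
    rw [h4, hL4, one_mul, inv_one, mul_one] at h3
    exact h3
  · intro hb
    have hLm : L ∈ zpowers L ⊔ zpowers K := le_sup_left (a := zpowers L) (mem_zpowers L)
    have hKm : K ∈ zpowers L ⊔ zpowers K := le_sup_right (b := zpowers K) (mem_zpowers K)
    have h3 : ⁅(⟨L, hLm⟩ : ↥(zpowers L ⊔ zpowers K)), ⟨K, hKm⟩⁆ ∈ derivedSeries ↥(zpowers L ⊔ zpowers K) 1 :=
      Subgroup.commutator_mem_commutator (Subgroup.mem_top _) (Subgroup.mem_top _)
    rw [hb, Subgroup.mem_bot] at h3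
    have h4 : L * K * L⁻¹ * K⁻¹ = 1 := congrArg Subtype.val h3
    rw [hLK] at h4
    apply hK2
    rw [← _root_.mul_inv_rev, inv_eq_one] at h4
    exact h4

/-- **2-subgroups of large derived length.** -/
theorem exists_sub [Finite F] (h2 : (2 : F) ≠ 0) {n k : ℕ} (hk : 2 ^ k ≤ n) : T (Fin n) F (k + 1) := by
  have h1 : T (Fin (2 ^ k)) F (k + 1) := by
    clear hk
    induction k with
    | zero => exact T_one h2
    | succ k ih =>
      have h3 := T.double ih
      apply h3.congr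
      exact finSumFinEquiv.trans (finCongr (by rw [pow_succ]; ring))
  have h3 : T (Fin (2 ^ k) ⊕ Fin (n - 2 ^ k)) F (k + 1) := h1.left
  exact h3.congr (finSumFinEquiv.trans (finCongr (by omega)))

end Sp

end Cfsg.Agent.H187.WreathTwo
end

-- part: S2648
section
set_option autoImplicit false
open Cfsg

namespace Cfsg.Agent.S2648

/-- Let q be odd, F a field with q elements and n ≥ 1. A Sylow 2-subgroup R of the symplectic group Sp_{2n}(F) has derived length exactly k + 1, where 2^k ≤ 2n < 2^{k+1}: the (k+1)-st term of its derived series is trivial and the k-th is not. -/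
theorem result {F : Type*} [Field F] [Fintype F] [DecidableEq F] (q : ℕ) (hF : Fintype.card F = q) (hq : Odd q) (n : ℕ) (hn : 1 ≤ n) (R : Sylow 2 ↥(Matrix.symplecticGroup (Fin n) F)) : derivedSeries ↥(R : Subgroup ↥(Matrix.symplecticGroup (Fin n) F)) (Nat.log 2 (2 * n) + 1) = ⊥ ∧ derivedSeries ↥(R : Subgroup ↥(Matrix.symplecticGroup (Fin n) F)) (Nat.log 2 (2 * n)) ≠ ⊥ := by
  classical
  have h2 : (2 : F) ≠ 0 := by
    apply Ring.two_ne_zero
    intro h
    have h1 := FiniteField.even_card_iff_char_two.1 h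
    rw [hF] at h1
    rw [Nat.odd_iff] at hq
    omega
  have hfact : Fact (Nat.Prime 2) := ⟨Nat.prime_two⟩
  have hlog : Nat.log 2 (2 * n) = Nat.log 2 n + 1 := by
    rw [mul_comm]
    exact Nat.log_mul_base (by norm_num) (by omega)
  constructor
  · -- the upper bound
    obtain ⟨e⟩ : Nonempty ((Fin n ⊕ Fin n) ≃ Fin (2 * n)) := ⟨finSumFinEquiv.trans (finCongr (by ring))⟩
    have hinv : ∀ A : Matrix.symplecticGroup (Fin n) F, (A.1 * (A⁻¹).1 = 1) ∧ ((A⁻¹).1 * A.1 = 1) := fun A =>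
      ⟨congrArg Subtype.val (mul_inv_cancel A), congrArg Subtype.val (inv_mul_cancel A)⟩
    let f : Matrix.symplecticGroup (Fin n) F →* Matrix.GeneralLinearGroup (Fin (2 * n)) F :=
      (Units.map (Matrix.reindexRingEquiv F e : Matrix (Fin n ⊕ Fin n) (Fin n ⊕ Fin n) F →*
        Matrix (Fin (2 * n)) (Fin (2 * n)) F)).comp
      { toFun := fun A => ⟨A.1, (A⁻¹).1, (hinv A).1, (hinv A).2⟩
        map_one' := Units.ext rfl
        map_mul' := fun _ _ => Units.ext rfl }
    have hf : Function.Injective f := by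
      intro A B h
      have h1 : Matrix.reindexRingEquiv F e A.1 = Matrix.reindexRingEquiv F e B.1 := congrArg Units.val h
      exact Subtype.ext ((Matrix.reindexRingEquiv F e).injective h1)
    exact Cfsg.Agent.S4010.result 2 R.isPGroup' F (2 * n) (by omega)
      (f.comp (R : Subgroup (Matrix.symplecticGroup (Fin n) F)).subtype) (hf.comp Subtype.val_injective)
  · -- the lower bound
    intro hb
    rw [hlog] at hb
    obtain ⟨H, hH, hne⟩ := Cfsg.Agent.H187.WreathTwo.exists_sub (F := F) h2 (n := n) (k := Nat.log 2 n)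
      (Nat.pow_log_le_self 2 (by omega))
    obtain ⟨Q, hQ⟩ := hH.exists_le_sylow
    have e := Sylow.equiv Q R
    apply hne
    rw [eq_bot_iff]
    intro x hx
    have h3 : (e.toMonoidHom.comp (Subgroup.inclusion hQ)) x ∈ derivedSeries R (Nat.log 2 n + 1) :=
      map_derivedSeries_le_derivedSeries (e.toMonoidHom.comp (Subgroup.inclusion hQ)) _ ⟨x, hx, rfl⟩
    rw [hb, Subgroup.mem_bot] at h3
    rw [Subgroup.mem_bot]
    have h4 : Subgroup.inclusion hQ x = 1 := e.injective (by rw [map_one]; exact h3)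
    exact (Subgroup.inclusion_injective hQ) (by rw [h4, map_one])

end Cfsg.Agent.S2648
end
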