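import Cfsg.Statements.S2677
import Cfsg.Agent.ClassicalGeometry.GUBasic
import Cfsg.Agent.ClassicalGeometry.HermParabolic
import Cfsg.Agent.BpLin.Descent
import Cfsg.Agent.S0277
set_option linter.all false

set_option autoImplicit false
open Cfsg

namespace Cfsg.Agent.S2677

open Cfsg.Agent.LieClassical.HermBasic Cfsg.Agent.ClassicalGeometry.HermParabolic Cfsg.Agent.BpLin
open Matrix

section Field

variable {K : Type*} [Field K]

/-- the fixed field -/
def fixF (τ : K ≃+* K) : Subfield K := RingHom.eqLocusField (τ : K →+* K) (RingHom.id K)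

theorem mem_fixF {τ : K ≃+* K} {a : K} : a ∈ fixF τ ↔ τ a = a := Iff.rfl

/-- the degree of the fixed field of an automorphism of order `p` -/
theorem card_fixF [Finite K] {p : ℕ} (hp : p.Prime) {τ : K ≃+* K} (ho : orderOf τ = p) :
    Nat.card K = Nat.card ↥(fixF τ) ^ p := by
  classical
  have : Fact p.Prime := ⟨hp⟩
  let G : Subgroup (K ≃+* K) := Subgroup.zpowers τ
  have hGc : Nat.card ↥G = p := by rw [Nat.card_zpowers, ho]
  have hfin : Finite ↥G := Nat.finite_of_card_ne_zero (by rw [hGc]; exact hp.ne_zero)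
  have : Fintype ↥G := Fintype.ofFinite _
  have hff : FaithfulSMul ↥G K := ⟨fun {a b} h => by
    apply Subtype.ext
    ext x
    exact h x⟩
  have h1 := FixedPoints.finrank_eq_card ↥G K
  rw [← Nat.card_eq_fintype_card, hGc] at h1
  have h2 : FixedPoints.subfield ↥G K = fixF τ := by
    ext a
    rw [mem_fixF]
    constructor
    · intro ha
      exact ha ⟨τ, Subgroup.mem_zpowers τ⟩
    · rintro ha ⟨g, n, rfl⟩
      have h3 : τ ∈ MulAction.stabilizer (K ≃+* K) a := ha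
      exact (MulAction.stabilizer (K ≃+* K) a).zpow_mem h3 n
  rw [h2] at h1
  rw [Module.natCard_eq_pow_finrank (K := ↥(fixF τ)) (V := K), h1]


end Field

section Main

variable {K : Type*} [Field K] [Fintype K] {q₀ q r n : ℕ}

theorem pow_fix {k : Type*} [Field k] [Fintype k] (hk : Fintype.card k = q₀ ^ 2) (hr : Odd r) (x : k) :
    x ^ (q₀ ^ r) = x ^ q₀ := by
  obtain ⟨j, rfl⟩ := hr
  rw [pow_succ, pow_mul, pow_mul q₀ 2 j, ← hk, FiniteField.pow_card_pow]

/-- matrix form of membership -/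
theorem mem_GU {F : Type*} [Field F] [Fintype F] (hF : Fintype.card F = q ^ 2) (D : GL (Fin n) F) :
    D ∈ GU n F q ↔ (D : Matrix (Fin n) (Fin n) F)ᵀ * (D : Matrix (Fin n) (Fin n) F).map (fun x => x ^ q) = 1 :=
  mem_GU_iff_matrix hF D

/-- the embedding of the unitary group over the fixed field -/
theorem mem_GU_map {σ : K ≃+* K} [Fintype (fixF σ)] (hK : Fintype.card K = q ^ 2)
    (hk : Fintype.card (fixF σ) = q₀ ^ 2) (hpow : ∀ x : fixF σ, x ^ q = x ^ q₀) (A : GL (Fin n) (fixF σ)) :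
    A ∈ GU n (fixF σ) q₀ ↔ GeneralLinearGroup.map (fixF σ).subtype A ∈ GU n K q := by
  rw [mem_GU hk, mem_GU hK]
  have h1 : ((GeneralLinearGroup.map (fixF σ).subtype A : GL (Fin n) K) : Matrix (Fin n) (Fin n) K) =
      (A : Matrix (Fin n) (Fin n) (fixF σ)).map (fixF σ).subtype := rfl
  rw [h1]
  have h2 : ((A : Matrix (Fin n) (Fin n) (fixF σ)).map (fixF σ).subtype).map (fun x => x ^ q) =
      ((A : Matrix (Fin n) (Fin n) (fixF σ)).map (fun x => x ^ q₀)).map (fixF σ).subtype := by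
    ext i j
    simp only [Matrix.map_apply]
    rw [← map_pow, hpow]
  rw [h2, ← Matrix.transpose_map, ← Matrix.map_mul]
  have h3 : (1 : Matrix (Fin n) (Fin n) (fixF σ)).map (fixF σ).subtype = 1 := by
    ext i j
    by_cases hij : i = j <;> simp [Matrix.one_apply, hij]
  rw [← h3]
  exact (Matrix.map_injective (fixF σ).subtype_injective).eq_iff.symm

theorem card_fixed {σ : K ≃+* K} [Fintype (fixF σ)] (hK : Fintype.card K = q ^ 2)
    (hk : Fintype.card (fixF σ) = q₀ ^ 2) (hpow : ∀ x : fixF σ, x ^ q = x ^ q₀) :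
    Nat.card {g : ↥(GU n K q) // ((g : GL (Fin n) K) : Matrix (Fin n) (Fin n) K).map σ =
      ((g : GL (Fin n) K) : Matrix (Fin n) (Fin n) K)} = Nat.card (GU n (fixF σ) q₀) := by
  symm
  let f : GU n (fixF σ) q₀ → {g : ↥(GU n K q) // ((g : GL (Fin n) K) : Matrix (Fin n) (Fin n) K).map σ =
      ((g : GL (Fin n) K) : Matrix (Fin n) (Fin n) K)} := fun A =>
    ⟨⟨GeneralLinearGroup.map (fixF σ).subtype A.1, (mem_GU_map hK hk hpow _).1 A.2⟩, by
      ext i j
      exact ((A.1 : Matrix (Fin n) (Fin n) (fixF σ)) i j).2⟩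
  have hf : ∀ A i j, (((f A).1 : GL (Fin n) K) : Matrix (Fin n) (Fin n) K) i j =
      ((A.1 : Matrix (Fin n) (Fin n) (fixF σ)) i j : K) := fun A i j => rfl
  refine Nat.card_congr (Equiv.ofBijective f ⟨?_, ?_⟩)
  · intro A B h
    apply Subtype.ext
    apply Units.ext
    ext i j
    rw [← hf, ← hf, h]
  · rintro ⟨g, hg⟩
    let M : Matrix (Fin n) (Fin n) (fixF σ) := fun i j =>
      ⟨((g : GL (Fin n) K) : Matrix (Fin n) (Fin n) K) i j, congrFun (congrFun hg i) j⟩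
    have hM : M.map (fixF σ).subtype = ((g : GL (Fin n) K) : Matrix (Fin n) (Fin n) K) := by
      ext i j; rfl
    have hdet : M.det ≠ 0 := by
      intro h0
      have h1 : ((fixF σ).subtype.mapMatrix M).det = 0 := by
        rw [← RingHom.map_det, h0, map_zero]
      rw [RingHom.mapMatrix_apply, hM] at h1
      exact (Matrix.GeneralLinearGroup.det_ne_zero (g : GL (Fin n) K)) h1
    let A : GL (Fin n) (fixF σ) := GeneralLinearGroup.mkOfDetNeZero M hdet
    have hA : GeneralLinearGroup.map (fixF σ).subtype A = (g : GL (Fin n) K) := by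
      apply Units.ext
      exact hM
    refine ⟨⟨A, (mem_GU_map hK hk hpow _).2 (hA ▸ g.2)⟩, ?_⟩
    apply Subtype.ext
    apply Subtype.ext
    exact hA

omit [Fintype K] in
/-- the scalar unitary matrices -/
theorem smul_mem {u : K} (hu : u * u ^ q = 1) (g : GU n K q) :
    ∃ h : GU n K q, ((h : GL (Fin n) K) : Matrix (Fin n) (Fin n) K) =
      u • ((g : GL (Fin n) K) : Matrix (Fin n) (Fin n) K) := by
  refine ⟨Cfsg.Agent.ClassicalGeometry.GUBasic.guDiag q (fun _ => u) (fun _ => by rw [pow_succ', hu]) * g, ?_⟩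
  rw [Subgroup.coe_mul, Units.val_mul, Cfsg.Agent.ClassicalGeometry.GUBasic.coe_guDiag]
  ext i j
  simp

omit [Fintype K] in
theorem exists_ne (hn : 1 ≤ n) (g : GL (Fin n) K) : ∃ i j, (g : Matrix (Fin n) (Fin n) K) i j ≠ 0 := by
  by_contra hcon
  push Not at hcon
  have h0 : (g : Matrix (Fin n) (Fin n) K) = 0 := by ext i j; exact hcon i j
  have h1 := Matrix.GeneralLinearGroup.det_ne_zero g
  have : Nonempty (Fin n) := ⟨⟨0, hn⟩⟩
  rw [h0, Matrix.det_zero] at h1
  exact h1 rfl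

/-- the scalars are unitary and of norm one -/
theorem scalar_props {σ : K ≃+* K} (hn : 1 ≤ n) (hr : σ ^ r = 1) (hK : Fintype.card K = q ^ 2)
    (g : GU n K q) {c : K}
    (h : ((g : GL (Fin n) K) : Matrix (Fin n) (Fin n) K).map σ = c • ((g : GL (Fin n) K) : Matrix (Fin n) (Fin n) K)) :
    nrm σ r c = 1 ∧ c * c ^ q = 1 := by
  constructor
  · obtain ⟨i, j, hij⟩ := exists_ne hn (g : GL (Fin n) K)
    have h1 : ∀ k : ℕ, (σ ^ k) (((g : GL (Fin n) K) : Matrix (Fin n) (Fin n) K) i j) =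
        nrm σ k c * ((g : GL (Fin n) K) : Matrix (Fin n) (Fin n) K) i j := by
      intro k
      induction k with
      | zero => simp [nrm]
      | succ k ih =>
        rw [pow_succ']
        change σ ((σ ^ k) _) = _
        have h2 : σ (((g : GL (Fin n) K) : Matrix (Fin n) (Fin n) K) i j) =
          c * ((g : GL (Fin n) K) : Matrix (Fin n) (Fin n) K) i j := congrFun (congrFun h i) j
        rw [ih, map_mul, h2, nrm, nrm, map_prod, Finset.prod_range_succ', ← mul_assoc]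
        congr 2
        refine Finset.prod_congr rfl fun x _ => ?_
        rw [pow_succ']
        rfl
    have h2 := h1 r
    rw [hr] at h2
    change _ = _ at h2
    exact (mul_eq_right₀ hij).1 h2.symm
  · have h1 := (mem_GU hK _).1 g.2
    have h2 := congrArg (fun M : Matrix (Fin n) (Fin n) K => M.map σ) h1
    have h3 : (1 : Matrix (Fin n) (Fin n) K).map σ = 1 := by
      ext i j
      by_cases hij : i = j <;> simp [Matrix.one_apply, hij]
    simp only [h3] at h2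
    have h4 : ∀ M : Matrix (Fin n) (Fin n) K, (M.map (fun x => x ^ q)).map σ = (M.map σ).map (fun x => x ^ q) := by
      intro M
      ext i j
      simp
    have h5 : ∀ M N : Matrix (Fin n) (Fin n) K, (M * N).map σ = M.map σ * N.map σ := by
      intro M N
      exact Matrix.map_mul (f := (σ : K →+* K))
    have h6 : (c • ((g : GL (Fin n) K) : Matrix (Fin n) (Fin n) K)).map (fun x => x ^ q) =
      c ^ q • (((g : GL (Fin n) K) : Matrix (Fin n) (Fin n) K)).map (fun x => x ^ q) := by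
      ext i j
      simp [mul_pow]
    rw [h5, h4, Matrix.transpose_map, h, h6, Matrix.transpose_smul, Matrix.smul_mul, Matrix.mul_smul, h1,
      smul_smul] at h2
    have h7 := congrFun (congrFun h2 ⟨0, hn⟩) ⟨0, hn⟩
    simpa using h7

theorem exists_decomp {σ : K ≃+* K} [Fintype (fixF σ)] (hn : 1 ≤ n) (hr : r.Prime)
    (ho : orderOf σ = r) (hK : Fintype.card K = q ^ 2)
    (hk : Fintype.card (fixF σ) = q₀ ^ 2) (hpow : ∀ x : fixF σ, x ^ q = x ^ q₀)
    (g : GU n K q) {c : K} (hc : c ≠ 0)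
    (h : ((g : GL (Fin n) K) : Matrix (Fin n) (Fin n) K).map σ = c • ((g : GL (Fin n) K) : Matrix (Fin n) (Fin n) K)) :
    ∃ u : K, u * u ^ q = 1 ∧ ∃ h : GU n K q, ((h : GL (Fin n) K) : Matrix (Fin n) (Fin n) K).map σ =
      ((h : GL (Fin n) K) : Matrix (Fin n) (Fin n) K) ∧ ((g : GL (Fin n) K) : Matrix (Fin n) (Fin n) K) =
      u • ((h : GL (Fin n) K) : Matrix (Fin n) (Fin n) K) := by
  have hs : σ ^ r = 1 := ho ▸ pow_orderOf_eq_one σ
  have hs1 : σ ≠ 1 := by
    intro h1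
    rw [h1, orderOf_one] at ho
    exact hr.one_lt.ne ho
  obtain ⟨hn1, hc1⟩ := scalar_props hn hs hK g h
  obtain ⟨y, hy0, hy⟩ := exists_units hr hs hs1 hn1
  -- `y ^ (q + 1)` is fixed
  have hσy : σ y = c⁻¹ * y := by
    rw [eq_inv_mul_iff_mul_eq₀ hc]; exact hy
  have hβ : σ (y * y ^ q) = y * y ^ q := by
    rw [map_mul, map_pow, hσy, mul_pow]
    have : (c⁻¹ * y) * ((c⁻¹) ^ q * y ^ q) = (c * c ^ q)⁻¹ * (y * y ^ q) := by
      rw [mul_inv, inv_pow]; ring
    rw [this, hc1, inv_one, one_mul]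
  let β : fixF σ := ⟨y * y ^ q, hβ⟩
  have hβq : β ^ q₀ = β := by
    rw [← hpow]
    apply Subtype.ext
    change (y * y ^ q) ^ q = y * y ^ q
    exact norm_pow_q hK y
  obtain ⟨b, hb⟩ := exists_norm_eq hk hβq
  have hb' : (b : K) * (b : K) ^ q = y * y ^ q := by
    have := congrArg (Subtype.val) hb
    rw [← hpow] at this
    exact this
  have hb0 : (b : K) ≠ 0 := by
    intro h0
    rw [h0, zero_mul] at hb'
    exact mul_ne_zero hy0 (pow_ne_zero q hy0) hb'.symm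
  have hu : ((b : K) * y⁻¹) * ((b : K) * y⁻¹) ^ q = 1 := by
    rw [mul_pow]
    have : (b : K) * y⁻¹ * ((b : K) ^ q * y⁻¹ ^ q) = ((b : K) * (b : K) ^ q) * (y * y ^ q)⁻¹ := by
      rw [mul_inv, inv_pow]; ring
    rw [this, hb', mul_inv_cancel₀ (mul_ne_zero hy0 (pow_ne_zero q hy0))]
  have hu' : ((b : K)⁻¹ * y) * ((b : K)⁻¹ * y) ^ q = 1 := by
    have : (b : K)⁻¹ * y = ((b : K) * y⁻¹)⁻¹ := by rw [mul_inv, inv_inv]
    rw [this, inv_pow, ← mul_inv, hu, inv_one]
  obtain ⟨h', hh'⟩ := smul_mem hu' g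
  refine ⟨_, hu, h', ?_, ?_⟩
  · rw [hh']
    ext i j
    have h2 : σ (((g : GL (Fin n) K) : Matrix (Fin n) (Fin n) K) i j) =
          c * ((g : GL (Fin n) K) : Matrix (Fin n) (Fin n) K) i j := congrFun (congrFun h i) j
    rw [Matrix.map_apply, Matrix.smul_apply, smul_eq_mul, map_mul, map_mul, map_inv₀, h2, hσy,
      show σ (b : K) = b from b.2]
    field_simp
  · rw [hh', smul_smul]
    have : (b : K) * y⁻¹ * ((b : K)⁻¹ * y) = 1 := by field_simp
    rw [this, one_smul]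

theorem card_eq_mul {α β : Type*} [Finite α] [Finite β] (f : α → β) (k : ℕ)
    (h : ∀ b, Nat.card {a // f a = b} = k) : Nat.card α = Nat.card β * k := by
  classical
  have := Fintype.ofFinite β
  rw [← Nat.card_congr (Equiv.sigmaFiberEquiv f), Nat.card_sigma]
  simp [h]

theorem count {σ : K ≃+* K} [Fintype (fixF σ)] (hn : 1 ≤ n) (hr : r.Prime)
    (ho : orderOf σ = r) (hK : Fintype.card K = q ^ 2)
    (hk : Fintype.card (fixF σ) = q₀ ^ 2) (hpow : ∀ x : fixF σ, x ^ q = x ^ q₀) :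
    (q + 1) * Nat.card (GU n (fixF σ) q₀) =
      Nat.card {g : ↥(Cfsg.GU n K q) // ∃ c : K, c ≠ 0 ∧ ((g : GL (Fin n) K) : Matrix (Fin n) (Fin n) K).map σ =
        c • ((g : GL (Fin n) K) : Matrix (Fin n) (Fin n) K)} * (q₀ + 1) := by
  classical
  rw [← card_norm_eq_one hK, ← card_fixed hK hk hpow, ← Nat.card_prod]
  have hex : ∀ x : {x : K // x * x ^ q = 1} × {g : ↥(GU n K q) // ((g : GL (Fin n) K) : Matrix (Fin n) (Fin n) K).map σ =
      ((g : GL (Fin n) K) : Matrix (Fin n) (Fin n) K)},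
      ∃ g : {g : ↥(Cfsg.GU n K q) // ∃ c : K, c ≠ 0 ∧ ((g : GL (Fin n) K) : Matrix (Fin n) (Fin n) K).map σ =
        c • ((g : GL (Fin n) K) : Matrix (Fin n) (Fin n) K)},
        ((g.1 : GL (Fin n) K) : Matrix (Fin n) (Fin n) K) = x.1.1 • ((x.2.1 : GL (Fin n) K) : Matrix (Fin n) (Fin n) K) := by
    rintro ⟨⟨u, hu⟩, ⟨h, hh⟩⟩
    obtain ⟨g, hg⟩ := smul_mem hu h
    have hu0 : u ≠ 0 := left_ne_zero_of_mul_eq_one hu
    refine ⟨⟨g, σ u * u⁻¹, mul_ne_zero ((map_ne_zero_iff σ σ.injective).2 hu0) (inv_ne_zero hu0), ?_⟩, hg⟩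
    rw [hg, smul_smul, mul_assoc, inv_mul_cancel₀ hu0, mul_one]
    ext i j
    rw [Matrix.map_apply, Matrix.smul_apply, smul_eq_mul, map_mul, Matrix.smul_apply, smul_eq_mul]
    congr 1
    exact congrFun (congrFun hh i) j
  choose f hf using hex
  refine card_eq_mul f (q₀ + 1) ?_
  rintro ⟨g, c, hc, hg⟩
  obtain ⟨u₀, hu₀, h₀, hh₀, hgh⟩ := exists_decomp hn hr ho hK hk hpow g hc hg
  have hu₀0 : u₀ ≠ 0 := left_ne_zero_of_mul_eq_one hu₀
  rw [← card_norm_eq_one hk]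
  obtain ⟨i₀, j₀, hij⟩ := exists_ne hn (h₀ : GL (Fin n) K)
  -- the quotient of the scalars
  have key : ∀ a : {a // f a = ⟨g, c, hc, hg⟩}, a.1.1.1 ≠ 0 ∧
      ((a.1.2.1 : GL (Fin n) K) : Matrix (Fin n) (Fin n) K) =
        (u₀ * a.1.1.1⁻¹) • ((h₀ : GL (Fin n) K) : Matrix (Fin n) (Fin n) K) := by
    rintro ⟨⟨⟨u, hu⟩, ⟨h, hh⟩⟩, hfa⟩
    have hu0 : u ≠ 0 := left_ne_zero_of_mul_eq_one hu
    refine ⟨hu0, ?_⟩
    have h1 := hf ⟨⟨u, hu⟩, ⟨h, hh⟩⟩
    rw [hfa] at h1
    change ((g : GL (Fin n) K) : Matrix (Fin n) (Fin n) K) = u • ((h : GL (Fin n) K) : Matrix (Fin n) (Fin n) K) at h1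
    change ((h : GL (Fin n) K) : Matrix (Fin n) (Fin n) K) = (u₀ * u⁻¹) • ((h₀ : GL (Fin n) K) : Matrix (Fin n) (Fin n) K)
    rw [mul_comm, mul_smul, ← hgh, h1, smul_smul, inv_mul_cancel₀ hu0, one_smul]
  have hfix : ∀ a : {a // f a = ⟨g, c, hc, hg⟩}, σ (u₀ * a.1.1.1⁻¹) = u₀ * a.1.1.1⁻¹ := by
    intro a
    obtain ⟨-, h1⟩ := key a
    have h2 := congrFun (congrFun a.1.2.2 i₀) j₀
    rw [h1] at h2
    rw [Matrix.map_apply, Matrix.smul_apply, smul_eq_mul, map_mul] at h2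
    have h3 : σ (((h₀ : GL (Fin n) K) : Matrix (Fin n) (Fin n) K) i₀ j₀) =
      ((h₀ : GL (Fin n) K) : Matrix (Fin n) (Fin n) K) i₀ j₀ := congrFun (congrFun hh₀ i₀) j₀
    rw [h3] at h2
    exact mul_right_cancel₀ hij h2
  have hnorm : ∀ a : {a // f a = ⟨g, c, hc, hg⟩}, (u₀ * a.1.1.1⁻¹) * (u₀ * a.1.1.1⁻¹) ^ q = 1 := by
    intro a
    rw [Cfsg.Agent.LieClassical.HermBasic.norm_mul, hu₀, inv_pow, ← mul_inv, a.1.1.2, inv_one, one_mul]
  let F : {a // f a = ⟨g, c, hc, hg⟩} → {x : fixF σ // x * x ^ q₀ = 1} := fun a =>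
    ⟨⟨u₀ * a.1.1.1⁻¹, hfix a⟩, by
      rw [← hpow]
      apply Subtype.ext
      exact hnorm a⟩
  refine Nat.card_congr (Equiv.ofBijective F ⟨?_, ?_⟩)
  · intro a b hab
    have h1 : u₀ * a.1.1.1⁻¹ = u₀ * b.1.1.1⁻¹ := congrArg (fun x => (x.1 : K)) hab
    have h2 : a.1.1.1 = b.1.1.1 := inv_injective (mul_left_cancel₀ hu₀0 h1)
    apply Subtype.ext
    apply Prod.ext
    · exact Subtype.ext h2
    · apply Subtype.ext
      apply Subtype.ext
      apply Units.ext
      rw [(key a).2, (key b).2, h1]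
  · rintro ⟨⟨w, hw⟩, hww⟩
    have hw1 : w * w ^ q = 1 := by
      rw [← hpow] at hww
      exact congrArg Subtype.val hww
    have hw0 : w ≠ 0 := left_ne_zero_of_mul_eq_one hw1
    obtain ⟨h, hh⟩ := smul_mem hw1 h₀
    have hu : (u₀ * w⁻¹) * (u₀ * w⁻¹) ^ q = 1 := by
      rw [Cfsg.Agent.LieClassical.HermBasic.norm_mul, hu₀, inv_pow, ← mul_inv, hw1, inv_one, one_mul]
    have hσh : ((h : GL (Fin n) K) : Matrix (Fin n) (Fin n) K).map σ = ((h : GL (Fin n) K) : Matrix (Fin n) (Fin n) K) := by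
      rw [hh]
      ext i j
      have h3 : σ (((h₀ : GL (Fin n) K) : Matrix (Fin n) (Fin n) K) i j) =
        ((h₀ : GL (Fin n) K) : Matrix (Fin n) (Fin n) K) i j := congrFun (congrFun hh₀ i) j
      rw [Matrix.map_apply, Matrix.smul_apply, smul_eq_mul, map_mul, h3, show σ w = w from hw]
    refine ⟨⟨⟨⟨u₀ * w⁻¹, hu⟩, ⟨h, hσh⟩⟩, ?_⟩, ?_⟩
    · apply Subtype.ext
      apply Subtype.ext
      apply Units.ext
      rw [hf]
      change (u₀ * w⁻¹) • ((h : GL (Fin n) K) : Matrix (Fin n) (Fin n) K) = ((g : GL (Fin n) K) : Matrix (Fin n) (Fin n) K)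
      rw [hh, smul_smul, mul_assoc, inv_mul_cancel₀ hw0, mul_one, hgh]
    · apply Subtype.ext
      apply Subtype.ext
      change u₀ * (u₀ * w⁻¹)⁻¹ = w
      field_simp

end Main

/-- Centraliser of a field automorphism of odd prime order in PGU_n(q): let q = q₀^r with r an odd prime, K the field with q² elements and σ a field automorphism of K of order r (fixed field of order q₀²). The elements g of GU_n(q) whose entrywise image under σ is a scalar multiple of g — those whose coset modulo the q + 1 unitary scalars is fixed by σ — number (q + 1)/(q₀ + 1) · |GU_n(q₀)|; equivalently the centraliser in PGU_n(q) of the induced automorphism has the order of PGU_n(q₀). -/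
theorem result {K : Type*} [Field K] [Fintype K] {q₀ q r n : ℕ} (hr : r.Prime) (hr2 : r ≠ 2) (hn : 1 ≤ n) (hq : q = q₀ ^ r) (hK : Fintype.card K = q ^ 2) (σ : K ≃+* K) (hσ : orderOf σ = r) : (Nat.card {g : ↥(Cfsg.GU n K q) // ∃ c : K, c ≠ 0 ∧ ((g : GL (Fin n) K) : Matrix (Fin n) (Fin n) K).map σ = c • ((g : GL (Fin n) K) : Matrix (Fin n) (Fin n) K)} : ℤ) = ((q + 1) / (q₀ + 1) : ℕ) * ((q₀ : ℤ) ^ (n * (n - 1) / 2) * ∏ i : Fin n, ((q₀ : ℤ) ^ ((i : ℕ) + 1) - (-1) ^ ((i : ℕ) + 1))) := by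
  classical
  have hodd : Odd r := hr.odd_of_ne_two hr2
  have := Fintype.ofFinite (fixF σ)
  have hk : Fintype.card (fixF σ) = q₀ ^ 2 := by
    have h1 := card_fixF hr hσ
    rw [Nat.card_eq_fintype_card, Nat.card_eq_fintype_card, hK, hq, ← pow_mul, mul_comm, pow_mul] at h1
    exact (Nat.pow_left_injective hr.ne_zero h1).symm
  have hpow : ∀ x : fixF σ, x ^ q = x ^ q₀ := fun x => by rw [hq]; exact pow_fix hk hodd x
  have h1 := count hn hr hσ hK hk hpow
  rw [Cfsg.Agent.S0277.result hk n] at h1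
  have hd : q₀ + 1 ∣ q + 1 := by
    have := hodd.nat_add_dvd_pow_add_pow q₀ 1
    rwa [one_pow, ← hq] at this
  obtain ⟨B, hB⟩ := hd
  have h2 : (q + 1) / (q₀ + 1) = B := by
    rw [hB, Nat.mul_div_cancel_left _ (Nat.succ_pos q₀)]
  rw [h2]
  rw [hB] at h1
  have h3 : Nat.card {g : ↥(Cfsg.GU n K q) // ∃ c : K, c ≠ 0 ∧ ((g : GL (Fin n) K) : Matrix (Fin n) (Fin n) K).map σ =
        c • ((g : GL (Fin n) K) : Matrix (Fin n) (Fin n) K)} =
      B * (q₀ ^ (n * (n - 1) / 2) * ∏ i ∈ Finset.range n, (if Even i then q₀ ^ (i + 1) + 1 else q₀ ^ (i + 1) - 1)) := by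
    apply Nat.eq_of_mul_eq_mul_right (Nat.succ_pos q₀)
    rw [← h1]
    simp only [Nat.succ_eq_add_one]
    ring
  rw [h3, Nat.cast_mul, Nat.cast_mul, Nat.cast_pow, Nat.cast_prod, ← Fin.prod_univ_eq_prod_range
    (fun i => (((if Even i then q₀ ^ (i + 1) + 1 else q₀ ^ (i + 1) - 1 : ℕ)) : ℤ)) n]
  congr 2
  refine Finset.prod_congr rfl fun i _ => ?_
  have hq0 : 0 < q₀ := two_le hk |>.trans' (by norm_num)
  by_cases hi : Even (i : ℕ)
  · rw [if_pos hi, (Even.add_one hi).neg_one_pow]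
    push_cast
    ring
  · rw [if_neg hi, (Nat.not_even_iff_odd.1 hi).add_one.neg_one_pow, Nat.cast_sub (Nat.one_le_pow _ _ hq0)]
    push_cast
    ring

end Cfsg.Agent.S2677
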