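import Cfsg.Agent.S2991
import Cfsg.Statements.S2988
set_option linter.all false

-- part: H260/GN15
section
/-!
# Glauberman-Niles, part 15: no elementary abelian large subgroups
-/

set_option autoImplicit false
set_option linter.unusedSectionVars false
set_option linter.unusedVariables false
set_option linter.style.haveILetI false

namespace Cfsg.Agent.H260.GN

open Subgroup Push
open scoped commutatorElement Pointwise

universe u

section equivariance

variable {P P' : Type*} [Group P] [Group P']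

theorem omega_map (e : P ≃* P') (p : ℕ) (X : Subgroup P) :
    (Cfsg.omegaOneCenter p X).map e.toMonoidHom = Cfsg.omegaOneCenter p (X.map e.toMonoidHom) := by
  unfold Cfsg.omegaOneCenter Cfsg.omegaOne
  have h : (X.map e.toMonoidHom) ⊓ centralizer ((X.map e.toMonoidHom : Subgroup P') : Set P') =
      (X ⊓ centralizer (X : Set P)).map e.toMonoidHom := (map_cen e.toMonoidHom e.injective X).symm
  rw [h, MonoidHom.map_closure]
  congr 1
  ext z
  constructor
  · rintro ⟨x, ⟨hx, hxp⟩, rfl⟩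
    refine ⟨⟨x, hx, rfl⟩, ?_⟩
    rw [← map_pow, hxp, map_one]
  · rintro ⟨⟨x, hx, rfl⟩, hxp⟩
    refine ⟨x, ⟨hx, ?_⟩, rfl⟩
    apply e.injective
    rw [map_pow, map_one]
    exact hxp

theorem card_omega_map (e : P ≃* P') (p : ℕ) (X : Subgroup P) :
    Nat.card (Cfsg.omegaOneCenter p (X.map e.toMonoidHom)) = Nat.card (Cfsg.omegaOneCenter p X) := by
  rw [← omega_map, ClEquiv.card_map]

theorem mz_eq (e : P ≃* P') (p : ℕ) :
    Cfsg.maxOmegaCenterOfMinimalCL p P = Cfsg.maxOmegaCenterOfMinimalCL p P' := by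
  unfold Cfsg.maxOmegaCenterOfMinimalCL
  congr 1
  ext k
  constructor
  · rintro ⟨Q, hQ, rfl⟩
    exact ⟨Q.map e.toMonoidHom, (ClEquiv.isMinimalCentrallyLarge_map e).mpr hQ, card_omega_map e p Q⟩
  · rintro ⟨Q, hQ, rfl⟩
    exact ⟨Q.map e.symm.toMonoidHom, (ClEquiv.isMinimalCentrallyLarge_map e.symm).mpr hQ,
      card_omega_map e.symm p Q⟩

variable {p : ℕ} [hp : Fact p.Prime]

theorem frattini_sub_eq [Finite P] (hP : IsPGroup p P) (Q : Subgroup P) :
    (frattini Q).map Q.subtype = phi p Q := frattini_map_eq Q (hP.to_subgroup Q)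

theorem fj_map_le [Finite P] [Finite P'] (e : P ≃* P') (hP : IsPGroup p P) (hP' : IsPGroup p P') :
    (Cfsg.frattiniOfMinimalCLJoin p P).map e.toMonoidHom ≤ Cfsg.frattiniOfMinimalCLJoin p P' := by
  unfold Cfsg.frattiniOfMinimalCLJoin
  rw [Subgroup.map_iSup]
  apply iSup_le
  rintro ⟨Q, hQ1, hQ2⟩
  rw [frattini_sub_eq hP, phi_map]
  have h1 : Cfsg.IsMinimalCentrallyLarge (Q.map e.toMonoidHom) ∧
      Nat.card (Cfsg.omegaOneCenter p (Q.map e.toMonoidHom)) = Cfsg.maxOmegaCenterOfMinimalCL p P' := by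
    refine ⟨(ClEquiv.isMinimalCentrallyLarge_map e).mpr hQ1, ?_⟩
    rw [card_omega_map, hQ2, mz_eq e]
  simp only
  rw [← frattini_sub_eq hP']
  exact le_iSup (fun Q : {Q : Subgroup P' // Cfsg.IsMinimalCentrallyLarge Q ∧
    Nat.card (Cfsg.omegaOneCenter p Q) = Cfsg.maxOmegaCenterOfMinimalCL p P'} =>
      ((frattini (Q : Subgroup P')).map (Q : Subgroup P').subtype)) ⟨_, h1⟩

theorem fj_map [Finite P] [Finite P'] (e : P ≃* P') (hP : IsPGroup p P) (hP' : IsPGroup p P') :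
    (Cfsg.frattiniOfMinimalCLJoin p P).map e.toMonoidHom = Cfsg.frattiniOfMinimalCLJoin p P' := by
  apply le_antisymm (fj_map_le e hP hP')
  have h := Subgroup.map_mono (f := e.toMonoidHom) (fj_map_le e.symm hP' hP)
  rwa [ClEquiv.map_map_symm] at h

end equivariance

theorem pair_frattini {P : Type u} [Group P] [Finite P] [Nontrivial P] {p : ℕ} [hp : Fact p.Prime]
    (hP : IsPGroup p P) (hJ : Cfsg.thompsonSubgroupA P = ⊤)
    (hel : ¬ ∃ A ∈ Cfsg.maxAbelianSubgroups P, Cfsg.IsElementaryAbelian p A) :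
    Pair p (center P) (Cfsg.frattiniOfMinimalCLJoin p P) := by
  have ht : centralizer (zj P : Set P) = ⊤ := by
    rw [eq_top_iff, Subgroup.le_centralizer_iff]
    unfold zj
    rw [hJ]
    exact inf_le_right
  have hch : (Cfsg.frattiniOfMinimalCLJoin p P).Characteristic := by
    rw [characteristic_iff_map_eq]
    intro φ
    exact fj_map φ hP hP
  refine ⟨center_ne hP, ?_, inferInstance, hch, le_rfl, ?_, char_subgroupOf_top ht hch, ?_⟩
  · intro h
    obtain ⟨Q, hQ1, hQ2, hQ3⟩ := S2989.elem_of_bot p hP h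
    exact hel ⟨Q, (H264.CD.min_iff_of_comm hQ1 hQ2 Q).mp hQ1, (H264.CD.isMulCommutative_iff Q).mpr hQ2, hQ3⟩
  · rw [ht]; exact le_top
  intro G _ _ P₀ e hE
  have hJ' : P₀ ≤ centralizer (Cfsg.centerThompsonAOf P₀ : Set G) := by
    have h1 := emb_centralizer P₀ e (zj P)
    rw [ht, emb_top, emb_zj] at h1
    exact h1.le.trans inf_le_right
  have h1 := (S2989.result P₀ hE hJ').1
  have hP₀ : IsPGroup p P₀ := hP.of_equiv e
  rw [emb_center, emb_map, fj_map e hP hP₀]
  exact h1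

end Cfsg.Agent.H260.GN
end

-- part: S2988
section
set_option autoImplicit false
universe u
open scoped Pointwise
open Cfsg

namespace Cfsg.Agent.S2988

/-- Let p be a prime and S a nontrivial finite p-group. Write J(S) for the subgroup generated by the abelian subgroups of S of largest order (the large abelian subgroups) and J̃(S) = C_S(Z(J(S))). Unless S satisfies all of the following conditions — S is non-abelian; J(S) = S; Z(S) and Φ(S) are elementary abelian; Φ(S) ≤ Z(S) if p = 2, Φ(S) ≤ Z₂(S) if p = 3, and Φ(S) ≤ Z(S) with S of exponent p if p > 3; some large abelian subgroup is elementary abelian; and for all large abelian subgroups A, B and all subgroups Q of S one has |A|² = |S|·|Z(S)| ≥ |Q|·|Z(Q)| and ⟨A, B⟩ = AB = C_S(A ∩ B) — there exist nontrivial characteristic subgroups S₁ ≤ Z(S) and S₂ ≤ J̃(S) of S, S₂ characteristic in J̃(S), such that whenever S is embedded as a Sylow p-subgroup of a finite group G in the basic pushing-up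 situation, the image of S₁ or of S₂ is normal in G. -/
theorem result {p : ℕ} [Fact p.Prime] (S : Type u) [Group S] [Finite S] [Nontrivial S] (hS : IsPGroup p S) (hexc : ¬ (¬ IsMulCommutative S ∧ Cfsg.thompsonSubgroupA S = ⊤ ∧ Cfsg.IsElementaryAbelian p (Subgroup.center S) ∧ Cfsg.IsElementaryAbelian p (frattini S) ∧ (p = 2 → frattini S ≤ Subgroup.center S) ∧ (p = 3 → frattini S ≤ Subgroup.upperCentralSeries S 2) ∧ (3 < p → frattini S ≤ Subgroup.center S ∧ Monoid.exponent S = p) ∧ (∃ A ∈ Cfsg.maxAbelianSubgroups S, Cfsg.IsElementaryAbelian p A) ∧ (∀ A ∈ Cfsg.maxAbelianSubgroups S, ∀ B ∈ Cfsg.maxAbelianSubgroups S, ∀ Q : Subgroup S, Nat.card ↥A ^ 2 = Nat.card S * Nat.card ↥(Subgroup.center S) ∧ Nat.card ↥Q * Nat.card ↥(Subgroup.center ↥Q) ≤ Nat.card S * Nat.card ↥(Subgroup.center S) ∧ ((A ⊔ B : Subgroup S) : Set S) = (A : Set S) * (B : Set S) ∧ A ⊔ B = Subgroup.centralizer ((A ⊓ B : Subgroup S) : Set S)))) : ∃ S₁ S₂ : Subgroup S, S₁ ≠ ⊥ ∧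 S₂ ≠ ⊥ ∧ S₁.Characteristic ∧ S₂.Characteristic ∧ S₁ ≤ Subgroup.center S ∧ S₂ ≤ Subgroup.centralizer ((Cfsg.thompsonSubgroupA S ⊓ Subgroup.centralizer (Cfsg.thompsonSubgroupA S : Set S) : Subgroup S) : Set S) ∧ (S₂.subgroupOf (Subgroup.centralizer ((Cfsg.thompsonSubgroupA S ⊓ Subgroup.centralizer (Cfsg.thompsonSubgroupA S : Set S) : Subgroup S) : Set S))).Characteristic ∧ ∀ (G : Type u) [Group G] [Finite G] (P : Subgroup G) (e : S ≃* ↥P), Cfsg.IsPushingUpSituation p P → ((S₁).map ((P.subtype).comp (e : S ≃* ↥P).toMonoidHom)).Normal ∨ ((S₂).map ((P.subtype).comp (e : S ≃* ↥P).toMonoidHom)).Normal := by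
  by_cases hexc' : (¬ IsMulCommutative S ∧ Cfsg.thompsonSubgroupA S = ⊤ ∧ Cfsg.IsElementaryAbelian p (Subgroup.center S) ∧ Cfsg.IsElementaryAbelian p (frattini S) ∧ (p = 2 → frattini S ≤ Subgroup.center S) ∧ (p = 3 → frattini S ≤ Subgroup.upperCentralSeries S 2) ∧ (3 < p → frattini S ≤ Subgroup.center S ∧ Monoid.exponent S = p) ∧ (∀ A ∈ Cfsg.maxAbelianSubgroups S, ∀ B ∈ Cfsg.maxAbelianSubgroups S, ∀ Q : Subgroup S, Nat.card ↥A ^ 2 = Nat.card S * Nat.card ↥(Subgroup.center S) ∧ Nat.card ↥Q * Nat.card ↥(Subgroup.center ↥Q) ≤ Nat.card S * Nat.card ↥(Subgroup.center S) ∧ ((A ⊔ B : Subgroup S) : Set S) = (A : Set S) * (B : Set S) ∧ A ⊔ B = Subgroup.centralizer ((A ⊓ B : Subgroup S) : Set S)))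
  swap
  · obtain ⟨S₁, S₂, h1, h2, h3, h4, h5, h6, h7, -, h8⟩ := S2991.result S hS hexc'
    exact ⟨S₁, S₂, h1, h2, h3, h4, h5, h6, h7, h8⟩
  obtain ⟨k1, k2, k3, k4, k5, k6, k7, k8⟩ := hexc'
  have hel : ¬ ∃ A ∈ Cfsg.maxAbelianSubgroups S, Cfsg.IsElementaryAbelian p A := by
    intro h
    exact hexc ⟨k1, k2, k3, k4, k5, k6, k7, h, k8⟩
  have h := H260.GN.pair_frattini hS k2 hel
  exact ⟨_, _, h.ne1, h.ne2, h.ch1, h.ch2, h.le1, h.le2, h.ch2', h.nrm⟩

end Cfsg.Agent.S2988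
end
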