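import Cfsg.Statements.S2808
import Cfsg.Agent.S2988
set_option linter.all false

set_option autoImplicit false
universe u
open Cfsg

namespace Cfsg.Agent.S2808

/-- Let p be a prime and S a finite p-group with J(S) generated by the abelian subgroups of largest order, Z(J(S)) its centre and J̃(S) = C_S(Z(J(S))). Put S₀ = [Φ(S), S]·Φ(Φ(S)) if p = 2, S₀ = [[Φ(S), S], S]·Φ(Φ(S)) if p = 3, and S₀ = [Φ(S), S]·℧¹(S) if p > 3. If [Z(J(S)), S] ≠ 1 or S₀ ≠ 1, then S has nontrivial characteristic subgroups S₁ ≤ Z(S) and S₂ ≤ J̃(S), with S₂ characteristic in J̃(S), such that in every finite group G containing S as a Sylow p-subgroup with C_G(O_p(G)) ≤ O_p(G), S in exactly one maximal subgroup of G, and G/K ≅ PSL₂(p^n) for some normal K and n ≥ 1, at least one of S₁, S₂ is normal. -/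
theorem result {S : Type u} [Group S] [Finite S] {p : ℕ} [Fact p.Prime] (hS : IsPGroup p S) (S₀ : Subgroup S) (hS₀ : S₀ = if p = 2 then ⁅frattini S, (⊤ : Subgroup S)⁆ ⊔ (frattini ↥(frattini S)).map (frattini S).subtype else if p = 3 then ⁅⁅frattini S, (⊤ : Subgroup S)⁆, (⊤ : Subgroup S)⁆ ⊔ (frattini ↥(frattini S)).map (frattini S).subtype else ⁅frattini S, (⊤ : Subgroup S)⁆ ⊔ Cfsg.powerClosure p 1 (⊤ : Subgroup S)) (h : ⁅Cfsg.thompsonSubgroupA S ⊓ Subgroup.centralizer (Cfsg.thompsonSubgroupA S : Set S), (⊤ : Subgroup S)⁆ ≠ ⊥ ∨ S₀ ≠ ⊥) : ∃ S₁ S₂ : Subgroup S, S₁ ≠ ⊥ ∧ S₂ ≠ ⊥ ∧ S₁.Characteristic ∧ S₂.Characteristic ∧ S₁ ≤ Subgroup.center S ∧ S₂ ≤ Subgroup.centralizer ((Cfsg.thompsonSubgroupA S ⊓ Subgroup.centralizer (Cfsg.thompsonSubgroupA S : Set S) : Subgroup S) : Set S) ∧ (S₂.subgroupOf (Subgroup.centralizer ((Cfsg.thompsonSubgroupA S ⊓ Subgroup.centralizer (Cfsg.thompsonSubgroupA S : Set S) : Subgroup S) : Set S))).Characteristic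 ∧ ∀ (G : Type u) [Group G] [Finite G] (τ : S →* G), Function.Injective τ → (∃ P : Sylow p G, (P : Subgroup G) = τ.range) → Subgroup.centralizer (Cfsg.pCore p G : Set G) ≤ Cfsg.pCore p G → (∃! M : Subgroup G, IsCoatom M ∧ τ.range ≤ M) → (∃ (K : Subgroup G) (_ : K.Normal) (F : Type) (_ : Field F) (_ : Fintype F) (n : ℕ), 1 ≤ n ∧ Fintype.card F = p ^ n ∧ Nonempty (G ⧸ K ≃* Matrix.ProjectiveSpecialLinearGroup (Fin 2) F)) → (S₁.map τ).Normal ∨ (S₂.map τ).Normal := by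
  have hs0 : S₀ = H260.GN.s0 p (⊤ : Subgroup S) := by
    rw [hS₀, H260.GN.s0]
    have e1 : (frattini ↥(frattini S)).map (frattini S).subtype = H260.Push.phi p (frattini S) :=
      H260.GN.frattini_sub_eq hS (frattini S)
    rw [e1, H260.GN.frattini_eq_phi hS]
  haveI hnt : Nontrivial S := by
    by_contra hn
    rw [not_nontrivial_iff_subsingleton] at hn
    rcases h with h | h
    · exact h (Subsingleton.elim _ _)
    · exact h (Subsingleton.elim _ _)
  obtain ⟨S₁, S₂, h1, h2, h3, h4, h5, h6, h7, h8⟩ := S2988.result S hS (by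
    rintro ⟨k1, k2, k3, k4, k5, k6, k7, k8, k9⟩
    rcases h with h | h
    · apply h
      rw [k2]
      apply H260.GN.comm_bot_of
      intro x hx y hy
      exact (Subgroup.mem_centralizer_iff.mp hx.2 y hy).symm
    · apply h
      rw [hs0]
      exact H260.GN.s0_of_exc hS k4 k5 k6 k7)
  refine ⟨S₁, S₂, h1, h2, h3, h4, h5, h6, h7, ?_⟩
  intro G _ _ τ hτ hP hc hM hK
  obtain ⟨P, hP⟩ := hP
  obtain ⟨K, hKn, F, hF1, hF2, n, hn, hcard, he⟩ := hK
  have hE : Cfsg.IsPushingUpSituation p τ.range := by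
    refine ⟨?_, ⟨P, hP⟩, hc, hM, K, hKn, F, hF1, hF2, n, hcard, he⟩
    intro htop
    obtain ⟨x, y, hxy⟩ := hnt
    apply hxy
    apply hτ
    have hx : τ x ∈ (⊤ : Subgroup G) := Subgroup.mem_top _
    have hy : τ y ∈ (⊤ : Subgroup G) := Subgroup.mem_top _
    rw [htop, Subgroup.mem_bot] at hx hy
    rw [hx, hy]
  have h9 := h8 G τ.range (MonoidHom.ofInjective hτ) hE
  have h10 : (τ.range.subtype).comp ((MonoidHom.ofInjective hτ : S ≃* ↥τ.range)).toMonoidHom = τ := by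
    ext x
    rfl
  rwa [h10] at h9

end Cfsg.Agent.S2808
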