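import Cfsg.Statements.S2897
import Cfsg.Agent.H240.StrongP
import Cfsg.Agent.SignalizersComponents.CharP
import Cfsg.Agent.Transfer.PGroupNormal
set_option linter.all false

set_option autoImplicit false
open Cfsg

namespace Cfsg.Agent.S2897

open Subgroup

/-- Let p be a prime dividing the order of the finite group G, suppose G has parabolic characteristic p, let S be a Sylow p-subgroup of G and G₁ a normal subgroup of G. If Ω₁(Z(S ∩ G₁)) is nontrivial and contained in Ω₁(Z(S)), then G₁ has parabolic characteristic p. -/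
theorem result {G : Type*} [Group G] [Finite G] {p : ℕ} [Fact p.Prime] (hdiv : p ∣ Nat.card G) (hG : Cfsg.IsOfParabolicCharacteristic p G) (S : Sylow p G) (G₁ : Subgroup G) [G₁.Normal] (hne : Cfsg.omegaOne p (((S : Subgroup G) ⊓ G₁) ⊓ Subgroup.centralizer (((S : Subgroup G) ⊓ G₁ : Subgroup G) : Set G)) ≠ ⊥) (hle : Cfsg.omegaOne p (((S : Subgroup G) ⊓ G₁) ⊓ Subgroup.centralizer (((S : Subgroup G) ⊓ G₁ : Subgroup G) : Set G)) ≤ Cfsg.omegaOne p ((S : Subgroup G) ⊓ Subgroup.centralizer ((S : Subgroup G) : Set G))) : Cfsg.IsOfParabolicCharacteristic p ↥G₁ := by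
  intro R hRp hRne hpar
  obtain ⟨T₁, hT₁⟩ := hpar
  obtain ⟨Q, hQ⟩ := T₁.exists_comap_subtype_eq
  obtain ⟨k, hk⟩ := MulAction.exists_smul_eq G S Q
  -- `R ≤ T₁`
  have hRT : R ≤ (T₁ : Subgroup G₁) := by
    have h1 : IsPGroup p ((T₁ : Subgroup G₁) ⊔ R : Subgroup G₁) :=
      T₁.isPGroup'.to_sup_of_normal_right' hRp hT₁
    have h2 := T₁.is_maximal' h1 le_sup_left
    rw [← h2]
    exact le_sup_right
  -- a central element of `T₁` in `R`
  obtain ⟨z₁, hz₁R, hz₁p, hz₁c⟩ : ∃ z : G₁, z ∈ R ∧ orderOf z = p ∧ ∀ t ∈ (T₁ : Subgroup G₁), t * z = z * t := by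
    have hn : (R.subgroupOf (T₁ : Subgroup G₁)).Normal :=
      (Subgroup.normal_subgroupOf_iff_le_normalizer hRT).2 hT₁
    have hne' : R.subgroupOf (T₁ : Subgroup G₁) ≠ ⊥ := by
      intro h
      rw [Subgroup.subgroupOf_eq_bot, disjoint_iff, inf_eq_left.mpr hRT] at h
      exact hRne h
    obtain ⟨z, hzR, hzc, hzp⟩ := Transfer.PGroupNormal.exists_mem_inf_center_orderOf T₁.isPGroup' _ hne'
    refine ⟨z, mem_subgroupOf.1 hzR, (Subgroup.orderOf_coe z).trans hzp, fun t ht => ?_⟩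
    exact congrArg Subtype.val (mem_center_iff.1 hzc ⟨t, ht⟩)
  have hz₁pG : orderOf (z₁ : G) = p := (Subgroup.orderOf_coe z₁).trans hz₁p
  have hmemQ : ∀ t : G₁, t ∈ (T₁ : Subgroup G₁) ↔ (t : G) ∈ (Q : Subgroup G) := by
    intro t
    rw [← hQ]
    rfl
  have hmemS : ∀ x : G, x ∈ (S : Subgroup G) → k * x * k⁻¹ ∈ (Q : Subgroup G) := by
    intro x hx
    rw [← hk, Sylow.coe_subgroup_smul]
    exact Subgroup.mem_map.2 ⟨x, hx, rfl⟩
  have hmemS' : ∀ x : G, x ∈ (Q : Subgroup G) → k⁻¹ * x * k ∈ (S : Subgroup G) := by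
    intro x hx
    rw [← hk, Sylow.coe_subgroup_smul] at hx
    obtain ⟨s, hs, rfl⟩ := Subgroup.mem_map.1 hx
    change k⁻¹ * (k * s * k⁻¹) * k ∈ (S : Subgroup G)
    have : k⁻¹ * (k * s * k⁻¹) * k = s := by group
    rw [this]; exact hs
  have hz₀ : k⁻¹ * z₁ * k ∈ Cfsg.omegaOne p (((S : Subgroup G) ⊓ G₁) ⊓ Subgroup.centralizer (((S : Subgroup G) ⊓ G₁ : Subgroup G) : Set G)) := by
    apply Subgroup.subset_closure
    have hG1 : k⁻¹ * z₁ * k ∈ G₁ := by
      have := (inferInstance : G₁.Normal).conj_mem (z₁ : G) z₁.2 k⁻¹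
      simpa using this
    refine ⟨⟨⟨hmemS' _ ((hmemQ z₁).1 (hRT hz₁R)), hG1⟩, ?_⟩, ?_⟩
    · refine mem_centralizer_iff.2 ?_
      rintro s ⟨hsS, hsG⟩
      have h1 : k * s * k⁻¹ ∈ G₁ := (inferInstance : G₁.Normal).conj_mem s hsG k
      have h2 : (⟨k * s * k⁻¹, h1⟩ : G₁) ∈ (T₁ : Subgroup G₁) := (hmemQ _).2 (hmemS s hsS)
      have h3 : k * s * k⁻¹ * z₁ = z₁ * (k * s * k⁻¹) := congrArg Subtype.val (hz₁c _ h2)
      calc s * (k⁻¹ * z₁ * k) = k⁻¹ * (k * s * k⁻¹ * z₁) * k := by group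
        _ = k⁻¹ * (z₁ * (k * s * k⁻¹)) * k := by rw [h3]
        _ = _ := by group
    · have h1 : (k⁻¹ * z₁ * k) ^ p = k⁻¹ * (z₁ : G) ^ p * k := by
        have := conj_pow (i := p) (a := k⁻¹) (b := (z₁ : G))
        simpa using this
      rw [h1, ← hz₁pG, pow_orderOf_eq_one]
      group
  have hz₀' : k⁻¹ * z₁ * k ∈ (S : Subgroup G) ⊓ Subgroup.centralizer ((S : Subgroup G) : Set G) := by
    have h1 : Cfsg.omegaOne p ((S : Subgroup G) ⊓ Subgroup.centralizer ((S : Subgroup G) : Set G)) ≤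
        (S : Subgroup G) ⊓ Subgroup.centralizer ((S : Subgroup G) : Set G) := by
      unfold Cfsg.omegaOne
      rw [closure_le]
      exact fun x hx => hx.1
    exact h1 (hle hz₀)
  have hzQ : ∀ x ∈ (Q : Subgroup G), x * z₁ = z₁ * x := by
    intro x hx
    have h1 : k⁻¹ * x * k * (k⁻¹ * z₁ * k) = k⁻¹ * z₁ * k * (k⁻¹ * x * k) :=
      mem_centralizer_iff.1 hz₀'.2 _ (hmemS' x hx)
    calc x * (z₁ : G) = k * (k⁻¹ * x * k * (k⁻¹ * z₁ * k)) * k⁻¹ := by group
      _ = k * (k⁻¹ * z₁ * k * (k⁻¹ * x * k)) * k⁻¹ := by rw [h1]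
      _ = _ := by group
  set N : Subgroup G := normalizer ((zpowers (z₁ : G) : Subgroup G) : Set G) with hN
  have hcN : centralizer ({(z₁ : G)} : Set G) ≤ N := H240.StrongP.centralizer_le_normalizer_zpowers _
  have hQN : (Q : Subgroup G) ≤ N := fun x hx => hcN (mem_centralizer_singleton_iff.2 (hzQ x hx))
  have hz1 : (z₁ : G) ≠ 1 := by
    intro h
    rw [h, orderOf_one] at hz₁pG
    exact (Fact.out : p.Prime).one_lt.ne hz₁pG
  have hchar := hG (zpowers (z₁ : G)) (H240.StrongP.zpowers_isPGroup hz₁pG) (by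
    rw [Ne, zpowers_eq_bot]; exact hz1) ⟨Q, hQN⟩
  -- `O = O_p(N)` viewed in `G`
  set O : Subgroup G := (pCore p ↥N).map N.subtype with hO
  have hOp : IsPGroup p O := (Lib.Cores.pCore_isPGroup p).map _
  have hON : ∀ n ∈ N, ∀ x ∈ O, n * x * n⁻¹ ∈ O := by
    rintro n hn _ ⟨x, hx, rfl⟩
    exact ⟨_, (Lib.Cores.pCore_normal p).conj_mem x hx ⟨n, hn⟩, rfl⟩
  have hOc : ∀ n ∈ N, (∀ x ∈ O, x * n = n * x) → n ∈ O := by
    intro n hn h
    refine ⟨⟨n, hn⟩, hchar ?_, rfl⟩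
    rw [mem_centralizer_iff]
    intro x hx
    exact Subtype.ext (h x ⟨x, hx, rfl⟩)
  have hXN : ∀ g : G₁, g ∈ centralizer ({z₁} : Set G₁) → (g : G) ∈ N := by
    intro g hg
    apply hcN
    rw [mem_centralizer_singleton_iff] at hg ⊢
    exact congrArg Subtype.val hg
  refine SignalizersComponents.CharP.charP_normalizer (R := O.subgroupOf G₁) (X := centralizer ({z₁} : Set G₁))
    hOp.comap_subtype ?_ ?_ hRp ?_ ?_
  · intro g hg
    rw [mem_normalizer_iff]
    intro x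
    rw [mem_subgroupOf, mem_subgroupOf]
    constructor
    · intro hx
      exact hON _ (hXN g hg) _ hx
    · intro hx
      have h1 := hON _ (N.inv_mem (hXN g hg)) _ hx
      have h2 : (g : G)⁻¹ * ((g * x * g⁻¹ : G₁) : G) * ((g : G)⁻¹)⁻¹ = x := by
        push_cast
        group
      rwa [h2] at h1
  · -- `C_X(O ∩ G₁) ≤ O`
    set C : Subgroup G₁ := centralizer ({z₁} : Set G₁) ⊓ centralizer ((O.subgroupOf G₁ : Subgroup G₁) : Set G₁) with hC
    have hp' : ∀ x ∈ C, (orderOf x).Coprime p → x = 1 := by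
      intro x hx hxo
      have hxN : (x : G) ∈ N := hXN x hx.1
      have hxoG : (orderOf (x : G)).Coprime p := by rw [Subgroup.orderOf_coe]; exact hxo
      have hcop : (orderOf (x : G)).Coprime (Nat.card O) := by
        obtain ⟨n, hn⟩ := IsPGroup.iff_card.mp hOp
        rw [hn]
        exact hxoG.pow_right n
      have hxO : ∀ u ∈ O, Commute u (x : G) := by
        refine Lib.ThompsonPQ.commute_of_commutator_commute hcop ?_ ?_
        · rw [mem_normalizer_iff]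
          intro y
          constructor
          · exact hON _ hxN y
          · intro hy
            have h1 := hON _ (N.inv_mem hxN) _ hy
            have h2 : (x : G)⁻¹ * ((x : G) * y * (x : G)⁻¹) * ((x : G)⁻¹)⁻¹ = y := by group
            rwa [h2] at h1
        · intro u hu
          have h1 : (x : G)⁻¹ * u * x * u⁻¹ ∈ O := by
            have h2 := hON _ (N.inv_mem hxN) u hu
            rw [inv_inv] at h2
            exact O.mul_mem h2 (O.inv_mem hu)
          have h2 : (x : G)⁻¹ * u * x * u⁻¹ ∈ G₁ := by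
            have h3 := (inferInstance : G₁.Normal).conj_mem (x : G) x.2 u
            have h4 : (x : G)⁻¹ * u * x * u⁻¹ = (x : G)⁻¹ * (u * x * u⁻¹) := by group
            rw [h4]
            exact G₁.mul_mem (G₁.inv_mem x.2) h3
          have h3 := mem_centralizer_iff.1 hx.2 ⟨_, h2⟩ (mem_subgroupOf.2 h1)
          exact congrArg Subtype.val h3
      have h1 : (x : G) ∈ O := hOc _ hxN fun u hu => hxO u hu
      obtain ⟨n, hn⟩ := hOp ⟨x, h1⟩
      have hn' : (x : G) ^ p ^ n = 1 := congrArg Subtype.val hn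
      have h6 : orderOf (x : G) ∣ p ^ n := orderOf_dvd_of_pow_eq_one hn'
      have h7 : orderOf (x : G) = 1 := Nat.Coprime.eq_one_of_dvd (hxoG.pow_right n) h6
      exact Subtype.ext (orderOf_eq_one_iff.mp h7)
    -- `C` viewed in `N`
    have hCN : C.map G₁.subtype ≤ N := by
      rintro _ ⟨x, hx, rfl⟩
      exact hXN x hx.1
    have hz₁c' : ∀ n ∈ N, ∀ y : G, (y * z₁ = z₁ * y) → (n * y * n⁻¹) * z₁ = z₁ * (n * y * n⁻¹) := by
      intro n hn y hy
      have h1 : n⁻¹ * z₁ * n⁻¹⁻¹ ∈ zpowers (z₁ : G) :=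
        (mem_normalizer_iff.1 (N.inv_mem hn) z₁).1 (mem_zpowers _)
      rw [inv_inv] at h1
      obtain ⟨j, hj⟩ := mem_zpowers_iff.1 h1
      have h2 : Commute y ((z₁ : G) ^ j) := (show Commute y (z₁ : G) from hy).zpow_right j
      have h3 : y * (n⁻¹ * z₁ * n) = n⁻¹ * z₁ * n * y := by rw [← hj]; exact h2
      calc n * y * n⁻¹ * z₁ = n * (y * (n⁻¹ * z₁ * n)) * n⁻¹ := by group
        _ = n * (n⁻¹ * z₁ * n * y) * n⁻¹ := by rw [h3]
        _ = _ := by group
    have hCn : ((C.map G₁.subtype).subgroupOf N).Normal := by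
      constructor
      rintro ⟨y, hyN⟩ hy ⟨n, hn⟩
      rw [mem_subgroupOf] at hy ⊢
      obtain ⟨x, hx, hxy⟩ := hy
      have hxy' : (x : G) = y := hxy
      have hnG : n * (x : G) * n⁻¹ ∈ G₁ := (inferInstance : G₁.Normal).conj_mem (x : G) x.2 n
      refine ⟨⟨n * (x : G) * n⁻¹, hnG⟩, ⟨?_, ?_⟩, ?_⟩
      · refine mem_centralizer_singleton_iff.2 ?_
        apply Subtype.ext
        have h1 : (x : G) * z₁ = z₁ * x := congrArg Subtype.val (mem_centralizer_singleton_iff.1 hx.1)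
        exact hz₁c' n hn x h1
      · refine mem_centralizer_iff.2 ?_
        rintro ⟨u, huG⟩ hu
        have hu' : u ∈ O := hu
        apply Subtype.ext
        change u * (n * (x : G) * n⁻¹) = n * (x : G) * n⁻¹ * u
        have h1 : n⁻¹ * u * n⁻¹⁻¹ ∈ O := hON _ (N.inv_mem hn) u hu'
        have h2 : n⁻¹ * u * n⁻¹⁻¹ ∈ G₁ := (inferInstance : G₁.Normal).conj_mem u huG n⁻¹
        have h3 := congrArg Subtype.val (mem_centralizer_iff.1 hx.2 ⟨_, h2⟩ (mem_subgroupOf.2 h1))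
        have h4 : n⁻¹ * u * n⁻¹⁻¹ * (x : G) = (x : G) * (n⁻¹ * u * n⁻¹⁻¹) := h3
        calc u * (n * (x : G) * n⁻¹) = n * (n⁻¹ * u * n⁻¹⁻¹ * (x : G)) * n⁻¹ := by group
          _ = n * ((x : G) * (n⁻¹ * u * n⁻¹⁻¹)) * n⁻¹ := by rw [h4]
          _ = _ := by group
      · change n * (x : G) * n⁻¹ = n * y * n⁻¹
        rw [hxy']
    have hCle : (C.map G₁.subtype).subgroupOf N ≤ pCore p ↥N := by
      refine SignalizersComponents.CharP.le_pCore_of_forall hCn ?_
      rintro ⟨y, hyN⟩ hy hyo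
      rw [mem_subgroupOf] at hy
      obtain ⟨x, hx, hxy⟩ := hy
      have hxy' : (x : G) = y := hxy
      have h1 : x = 1 := hp' x hx (by
        rw [← Subgroup.orderOf_coe, hxy']
        rwa [Subgroup.orderOf_mk] at hyo)
      apply Subtype.ext
      change y = 1
      rw [← hxy', h1]; rfl
    intro x hx
    rw [mem_subgroupOf]
    have h1 : (⟨(x : G), hXN x hx.1⟩ : N) ∈ pCore p ↥N := hCle (mem_subgroupOf.2 ⟨x, hx, rfl⟩)
    exact ⟨_, h1, rfl⟩
  · intro t ht
    rw [mem_centralizer_singleton_iff]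
    exact hz₁c t (hRT ht)
  · intro g hg
    rw [mem_centralizer_singleton_iff]
    exact (mem_centralizer_iff.1 hg z₁ hz₁R).symm

end Cfsg.Agent.S2897
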