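import Cfsg.Statements.S2907
set_option linter.all false

set_option autoImplicit false
open Cfsg

namespace Cfsg.Agent.S2907

open Subgroup

/-- Let X be a finite semi-extraspecial p-group and x an element of X outside the centre. Then the index of C_X(x) in X equals the order of Z(X), and the commutators [x, y], y ∈ X, form exactly the centre Z(X). -/
theorem result {X : Type*} [Group X] [Finite X] {p : ℕ} [Fact p.Prime] (hX : Cfsg.IsSemiExtraspecial p X) (x : X) (hx : x ∉ Subgroup.center X) : (Subgroup.centralizer ({x} : Set X)).index = Nat.card ↥(Subgroup.center X) ∧ {z : X | ∃ y : X, z = x * y * x⁻¹ * y⁻¹} = (Subgroup.center X : Set X) := by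
  obtain ⟨⟨hXp, hfr, hcomm⟩, hY⟩ := hX
  have hc : ∀ y : X, x * y * x⁻¹ * y⁻¹ ∈ center X := by
    intro y
    rw [← hcomm]
    exact Subgroup.commutator_mem_commutator (Subgroup.mem_top x) (Subgroup.mem_top y)
  let f : X →* ↥(center X) :=
    { toFun := fun y => ⟨x * y * x⁻¹ * y⁻¹, hc y⟩
      map_one' := Subtype.ext (by simp)
      map_mul' := by
        intro a b
        apply Subtype.ext
        change x * (a * b) * x⁻¹ * (a * b)⁻¹ = x * a * x⁻¹ * a⁻¹ * (x * b * x⁻¹ * b⁻¹)
        have h1 := mem_center_iff.1 (hc b) (x * a * x⁻¹)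
        have h2 := mem_center_iff.1 (hc b) a⁻¹
        calc x * (a * b) * x⁻¹ * (a * b)⁻¹ = x * a * x⁻¹ * (x * b * x⁻¹ * b⁻¹) * a⁻¹ := by group
          _ = x * a * x⁻¹ * ((x * b * x⁻¹ * b⁻¹) * a⁻¹) := by group
          _ = x * a * x⁻¹ * (a⁻¹ * (x * b * x⁻¹ * b⁻¹)) := by rw [h2]
          _ = _ := by group }
  have hf : ∀ y, ((f y : ↥(center X)) : X) = x * y * x⁻¹ * y⁻¹ := fun y => rfl
  have hker : f.ker = centralizer ({x} : Set X) := by
    ext y
    rw [MonoidHom.mem_ker, mem_centralizer_singleton_iff]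
    constructor
    · intro h
      have h1 : x * y * x⁻¹ * y⁻¹ = 1 := congrArg Subtype.val h
      calc y * x = (x * y * x⁻¹ * y⁻¹) * (y * x) := by rw [h1, one_mul]
        _ = x * y := by group
    · intro h
      apply Subtype.ext
      change x * y * x⁻¹ * y⁻¹ = 1
      rw [← h]; group
  have hsurj : f.range = ⊤ := by
    by_contra hne
    obtain ⟨M, hM, hle⟩ := (eq_top_or_exists_le_coatom f.range).resolve_left hne
    set Y : Subgroup X := M.map (center X).subtype with hYdef
    have hYZ : Y ≤ center X := Subgroup.map_subtype_le _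
    have hYM : Y.subgroupOf (center X) = M := by
      rw [hYdef, Subgroup.subgroupOf, Subgroup.comap_map_eq_self_of_injective (center X).subtype_injective]
    obtain ⟨hYn, hE⟩ := hY Y hYZ (by rw [hYM]; exact hM)
    have h1 : (QuotientGroup.mk' Y x) ∈ center (X ⧸ Y) := by
      rw [mem_center_iff]
      intro q
      obtain ⟨y, rfl⟩ := QuotientGroup.mk'_surjective Y q
      rw [← map_mul, ← map_mul, QuotientGroup.mk'_apply, QuotientGroup.mk'_apply, QuotientGroup.eq]
      -- `(y x)⁻¹ (x y) = [x⁻¹, y⁻¹]`-like; use centrality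
      have h2 : x * y * x⁻¹ * y⁻¹ ∈ Y := ⟨f y, hle ⟨y, rfl⟩, rfl⟩
      have h3 : (y * x)⁻¹ * (x * y) = x⁻¹ * y⁻¹ * (x * y * x⁻¹ * y⁻¹) * (y * x) := by group
      have h4 := mem_center_iff.1 (hc y) (x⁻¹ * y⁻¹)
      rw [h3, h4]
      have h5 : x * y * x⁻¹ * y⁻¹ * (x⁻¹ * y⁻¹) * (y * x) = x * y * x⁻¹ * y⁻¹ := by group
      rw [h5]
      exact h2
    have h6 : commutator (X ⧸ Y) = center (X ⧸ Y) := hE.1.2.2
    rw [← h6] at h1
    have h7 : (commutator X).map (QuotientGroup.mk' Y) = commutator (X ⧸ Y) := by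
      rw [commutator_def, Subgroup.map_commutator, commutator_def,
        Subgroup.map_top_of_surjective _ (QuotientGroup.mk'_surjective Y)]
    rw [← h7, hcomm] at h1
    obtain ⟨z, hz, hzx⟩ := h1
    rw [QuotientGroup.mk'_apply, QuotientGroup.mk'_apply, QuotientGroup.eq] at hzx
    apply hx
    have h8 : x = z * (z⁻¹ * x) := by group
    rw [h8]
    exact (center X).mul_mem hz (hYZ hzx)
  constructor
  · rw [← hker, Subgroup.index_ker, hsurj]
    exact Nat.card_congr (Subgroup.topEquiv (G := ↥(center X))).toEquiv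
  · ext z
    constructor
    · rintro ⟨y, rfl⟩
      exact hc y
    · intro hz
      have h1 : (⟨z, hz⟩ : ↥(center X)) ∈ f.range := by rw [hsurj]; trivial
      obtain ⟨y, hy⟩ := h1
      exact ⟨y, (congrArg Subtype.val hy).symm⟩

end Cfsg.Agent.S2907
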