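import Cfsg.Statements.S2909
import Cfsg.Agent.H940.Basic
import Cfsg.Agent.S0028
import Cfsg.Agent.S0058
import Cfsg.Agent.S2908
set_option linter.all false

set_option autoImplicit false
open Cfsg

namespace Cfsg.Agent.S2909

open scoped commutatorElement

/-- the elements normalizing `W` and centralizing `E` modulo `W` -/
def stabMod {G : Type*} [Group G] (E W : Subgroup G) : Subgroup G where
  carrier := {g | g ∈ Subgroup.normalizer (W : Set G) ∧ ∀ e ∈ E, ⁅e, g⁆ ∈ W}
  one_mem' := ⟨Subgroup.one_mem _, fun e _ => by simp [Subgroup.one_mem]⟩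
  mul_mem' := by
    rintro g h ⟨hg, hg2⟩ ⟨hh, hh2⟩
    refine ⟨Subgroup.mul_mem _ hg hh, fun e he => ?_⟩
    have e1 : ⁅e, g * h⁆ = ⁅e, g⁆ * (g * ⁅e, h⁆ * g⁻¹) := by
      simp only [commutatorElement_def]; group
    rw [e1]
    exact W.mul_mem (hg2 e he) ((Subgroup.mem_normalizer_iff.1 hg _).1 (hh2 e he))
  inv_mem' := by
    rintro g ⟨hg, hg2⟩
    refine ⟨Subgroup.inv_mem _ hg, fun e he => ?_⟩
    have e1 : ⁅e, g⁻¹⁆ = g⁻¹ * ⁅e, g⁆⁻¹ * g⁻¹⁻¹ := by
      simp only [commutatorElement_def]; group
    rw [e1]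
    exact (Subgroup.mem_normalizer_iff.1 (Subgroup.inv_mem _ hg) _).1 (W.inv_mem (hg2 e he))

theorem mem_stabMod {G : Type*} [Group G] {E W : Subgroup G} {g : G} :
    g ∈ stabMod E W ↔ g ∈ Subgroup.normalizer (W : Set G) ∧ ∀ e ∈ E, ⁅e, g⁆ ∈ W := Iff.rfl

/-- Let p be a prime, E a normal p-subgroup of the finite group G, and U a non-cyclic elementary abelian p-subgroup of G such that either C_E(U) = C_E(u) for every nontrivial u ∈ U, or [E, U] = [E, ⟨u⟩] for every nontrivial u ∈ U. If R is a subgroup of order prime to p normalized by U, then [R, U] centralizes E. -/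
theorem result {G : Type*} [Group G] [Finite G] {p : ℕ} [Fact p.Prime] (E : Subgroup G) [E.Normal] (hE : IsPGroup p ↥E) (U : Subgroup G) (hU : Cfsg.IsElementaryAbelian p U) (hnc : ¬ IsCyclic ↥U) (hcond : (∀ u ∈ U, u ≠ 1 → E ⊓ Subgroup.centralizer (U : Set G) = E ⊓ Subgroup.centralizer ({u} : Set G)) ∨ (∀ u ∈ U, u ≠ 1 → ⁅E, U⁆ = ⁅E, Subgroup.zpowers u⁆)) (R : Subgroup G) (hR : ¬ p ∣ Nat.card ↥R) (hRU : U ≤ Subgroup.normalizer (R : Set G)) : ⁅R, U⁆ ≤ Subgroup.centralizer (E : Set G) := by
  have hUc : ∀ a ∈ U, ∀ b ∈ U, a * b = b * a := fun a ha b hb => by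
    have := hU.1
    exact congrArg Subtype.val (mul_comm' (⟨a, ha⟩ : U) ⟨b, hb⟩)
  have hUp : IsPGroup p U := by
    intro u
    exact ⟨1, Subtype.ext (by rw [pow_one]; exact hU.2 u u.2)⟩
  have hcop : (Nat.card U).Coprime (Nat.card R) := by
    obtain ⟨k, hk⟩ := IsPGroup.iff_card.1 hUp
    rw [hk]
    exact Nat.Coprime.pow_left k ((Nat.Prime.coprime_iff_not_dvd Fact.out).2 hR)
  have hEn : ∀ g : G, g ∈ Subgroup.normalizer (E : Set G) := fun g => by
    rw [Subgroup.normalizer_eq_top]; exact Subgroup.mem_top g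
  -- the main step
  have key : ∀ u ∈ U, u ≠ 1 → ⁅R ⊓ Subgroup.centralizer ({u} : Set G), U⁆ ≤
      Subgroup.centralizer (E : Set G) := by
    intro u hu hu1
    set B : Subgroup G := R ⊓ Subgroup.centralizer ({u} : Set G) with hB
    have hBu : ∀ b ∈ B, u * b = b * u := fun b hb =>
      (Subgroup.mem_centralizer_iff.1 hb.2) u rfl
    have hUu : ∀ v ∈ U, v ∈ Subgroup.normalizer ((Subgroup.centralizer ({u} : Set G) : Subgroup G) : Set G) := by
      intro v hv
      refine Subgroup.le_normalizer ?_
      rw [Subgroup.mem_centralizer_iff]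
      intro w hw
      rw [Set.mem_singleton_iff.1 hw]
      exact hUc u hu v hv
    have hUB : U ≤ Subgroup.normalizer (B : Set G) := fun v hv =>
      H940.mem_normalizer_inf (hRU hv) (hUu v hv)
    have hDB : ⁅B, U⁆ ≤ B := Subgroup.le_normalizer_iff_commutator_le_left.1 hUB
    set D : Subgroup G := ⁅B, U⁆ with hD
    have hzU : Subgroup.zpowers u ≤ U := by rw [Subgroup.zpowers_le]; exact hu
    have hDp : ¬ p ∣ Nat.card D := fun h => hR (h.trans (Subgroup.card_dvd_of_le (hDB.trans inf_le_left)))
    have huD : Subgroup.zpowers u ≤ Subgroup.centralizer (D : Set G) := by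
      rw [Subgroup.zpowers_le, Subgroup.mem_centralizer_iff]
      intro d hd
      exact (hBu d (hDB hd)).symm
    rcases hcond with h | h
    · -- first case
      have hF := h u hu hu1
      set F : Subgroup G := E ⊓ Subgroup.centralizer (U : Set G) with hFdef
      have hBF : ∀ b ∈ B, b ∈ Subgroup.normalizer (F : Set G) := by
        intro b hb
        rw [hF]
        refine H940.mem_normalizer_inf (hEn b) ?_
        exact Subgroup.le_normalizer hb.2
      have hDF : D ≤ Subgroup.centralizer (F : Set G) := by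
        rw [hD, Subgroup.commutator_le]
        intro b hb v hv
        have hvF : v ∈ Subgroup.centralizer (F : Set G) := by
          rw [Subgroup.mem_centralizer_iff]
          intro f hf
          exact ((Subgroup.mem_centralizer_iff.1 hf.2) v hv).symm
        rw [commutatorElement_def]
        refine Subgroup.mul_mem _ ?_ (Subgroup.inv_mem _ hvF)
        exact (Subgroup.mem_normalizer_iff.1 (H940.mem_normalizer_centralizer (hBF b hb)) v).1 hvF
      refine Cfsg.Agent.S0028.result p (Subgroup.zpowers u) D E (hUp.to_le hzU) ?_ hE huD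
        (fun g _ => hEn g) (fun g _ => hEn g) ?_
      · exact ((Nat.Prime.coprime_iff_not_dvd Fact.out).2 hDp).symm
      · intro x hx
        have hx2 : x ∈ F := by
          rw [hF]
          refine ⟨hx.1, ?_⟩
          show x ∈ Subgroup.centralizer ({u} : Set G)
          rw [Subgroup.mem_centralizer_iff]
          intro w hw
          rw [Set.mem_singleton_iff.1 hw]
          exact (Subgroup.mem_centralizer_iff.1 hx.2) u (Subgroup.mem_zpowers u)
        rw [Subgroup.mem_centralizer_iff]
        intro d hd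
        exact ((Subgroup.mem_centralizer_iff.1 (hDF hd)) x hx2).symm
    · -- second case
      have hW := h u hu hu1
      set W : Subgroup G := ⁅E, U⁆ with hWdef
      have hBW : ∀ b ∈ B, b ∈ Subgroup.normalizer (W : Set G) := by
        intro b hb
        rw [hW]
        refine H940.mem_normalizer_commutator (hEn b) (H940.mem_normalizer_of_commute ?_)
        intro k hk
        obtain ⟨m, rfl⟩ := Subgroup.mem_zpowers_iff.1 hk
        exact ((Commute.zpow_left (hBu b hb : Commute u b) m).eq).symm
      have hUW : ∀ v ∈ U, v ∈ Subgroup.normalizer (W : Set G) := fun v hv =>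
        Subgroup.normalizer_commutator_ge_right E U hv
      have hUst : U ≤ stabMod E W := fun v hv =>
        ⟨hUW v hv, fun e he => Subgroup.commutator_mem_commutator he hv⟩
      have hDst : D ≤ stabMod E W := by
        rw [hD, Subgroup.commutator_le]
        intro b hb v hv
        rw [commutatorElement_def]
        refine Subgroup.mul_mem _ ?_ (Subgroup.inv_mem _ (hUst hv))
        refine ⟨Subgroup.mul_mem _ (Subgroup.mul_mem _ (hBW b hb) (hUW v hv)) (Subgroup.inv_mem _ (hBW b hb)), ?_⟩
        intro e he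
        have e1 : ⁅e, b * v * b⁻¹⁆ = b * ⁅b⁻¹ * e * b, v⁆ * b⁻¹ := by
          simp only [commutatorElement_def]; group
        rw [e1]
        refine (Subgroup.mem_normalizer_iff.1 (hBW b hb) _).1 ?_
        refine Subgroup.commutator_mem_commutator ?_ hv
        have := (Subgroup.mem_normalizer_iff.1 (hEn b⁻¹) e).1 he
        rwa [inv_inv] at this
      have h1 : ⁅E, D⁆ ≤ ⁅E, Subgroup.zpowers u⁆ := by
        rw [← hW, Subgroup.commutator_le]
        intro e he d hd
        exact (hDst hd).2 e he
      have h2 : ⁅Subgroup.zpowers u, D⁆ = ⊥ := Subgroup.commutator_eq_bot_iff_le_centralizer.2 huD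
      have h3 := Cfsg.Agent.S2908.result E (Subgroup.zpowers u) D hE (hUp.to_le hzU) hDp
        (fun g _ => hEn g) (fun g _ => hEn g) h2 h1
      rw [Subgroup.commutator_comm] at h3
      exact Subgroup.commutator_eq_bot_iff_le_centralizer.1 h3
  -- generation
  have hUm : IsMulCommutative U := hU.1
  have hgen := Cfsg.Agent.S0058.result U R hnc hRU hcop
  have hCn : (Subgroup.centralizer (E : Set G)).Normal := inferInstance
  -- the elements `r` with `[r, U] ≤ C(E)`
  have hle : R ≤ stabMod U (Subgroup.centralizer (E : Set G)) := by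
    rw [← hgen]
    refine iSup₂_le ?_
    rintro u ⟨hu, hu1⟩
    intro b hb
    refine ⟨?_, fun v hv => ?_⟩
    · rw [Subgroup.normalizer_eq_top]; exact Subgroup.mem_top b
    · have := Subgroup.inv_mem _ (key u hu hu1 (Subgroup.commutator_mem_commutator hb hv))
      rwa [commutatorElement_inv] at this
  rw [Subgroup.commutator_comm, Subgroup.commutator_le]
  intro v hv r hr
  exact (hle hr).2 v hv

end Cfsg.Agent.S2909
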