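import Mathlib
import Cfsg.Statements.S2912
import Cfsg.Agent.Lib.CoprimeAbelian
import Cfsg.Agent.Transfer.Extraspecial
set_option linter.all false

-- part: H240/ExtraBound
section
/-!
# Lower bound for the order of a faithful irreducible module of a group of central type

`E` finite with `[E, E] ≤ Z(E)`, `|Z(E)| = p`, `|E / Z(E)| = p ^ (2 w)`, acting irreducibly on a
finite additive group `V` killed by the prime `r`, the centre acting non-trivially:
`|V| ≥ r ^ (n p ^ w)` when `n` is least with `p ∣ r ^ n - 1`.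
-/

set_option autoImplicit false

namespace Cfsg.Agent.H240.ExtraBound

open Subgroup
open scoped commutatorElement

section Core

variable {E V : Type*} [Group E] [AddCommGroup V] [DistribMulAction E V]

/-- The action on `V`. -/
abbrev rho (E V : Type*) [Group E] [AddCommGroup V] [DistribMulAction E V] :
    E →* AddMonoid.End V := DistribMulAction.toAddMonoidEnd E V

theorem rho_apply (e : E) (v : V) : rho E V e v = e • v := rfl

theorem comm_of_mem (E V : Type*) [Group E] [AddCommGroup V] [DistribMulAction E V] :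
    ∀ a ∈ (rho E V) '' (center E : Set E), ∀ b ∈ (rho E V) '' (center E : Set E), a * b = b * a := by
  rintro _ ⟨a, ha, rfl⟩ _ ⟨b, hb, rfl⟩
  rw [← map_mul, ← map_mul, mem_center_iff.mp hb a]

/-- The ring generated by the centre. -/
abbrev KK (E V : Type*) [Group E] [AddCommGroup V] [DistribMulAction E V] :
    Subring (AddMonoid.End V) := Subring.closure ((rho E V) '' (center E : Set E))

theorem comm_rho (k : KK E V) (e : E) : (k : AddMonoid.End V) * rho E V e = rho E V e * k := by
  have h : KK E V ≤ Subring.centralizer (Set.range (rho E V)) := by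
    rw [Subring.closure_le]
    rintro _ ⟨z, hz, rfl⟩
    rw [SetLike.mem_coe, Subring.mem_centralizer_iff]
    rintro _ ⟨e, rfl⟩
    rw [← map_mul, ← map_mul, mem_center_iff.mp hz e]
  exact ((Subring.mem_centralizer_iff.mp (h k.2)) _ ⟨e, rfl⟩).symm

theorem smul_comm_rho (k : KK E V) (e : E) (v : V) :
    (k : AddMonoid.End V) (e • v) = e • ((k : AddMonoid.End V) v) := by
  have h1 : ((k : AddMonoid.End V) * rho E V e) v = (rho E V e * k) v := by rw [comm_rho]
  exact h1

/-- Kernel of an element of the ring. -/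
def kerK (k : KK E V) : AddSubgroup V where
  carrier := {v | (k : AddMonoid.End V) v = 0}
  zero_mem' := map_zero _
  add_mem' := by
    intro a b ha hb
    rw [Set.mem_ofPred_eq] at ha hb ⊢
    rw [map_add, ha, hb, add_zero]
  neg_mem' := by
    intro a ha
    rw [Set.mem_ofPred_eq] at ha ⊢
    rw [map_neg, ha, neg_zero]

theorem mem_kerK {k : KK E V} {v : V} : v ∈ kerK k ↔ (k : AddMonoid.End V) v = 0 := Iff.rfl

theorem injective_of_ne (hirr : ∀ W : AddSubgroup V, (∀ e : E, ∀ w ∈ W, e • w ∈ W) → W = ⊥ ∨ W = ⊤)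
    (k : KK E V) (hk : k ≠ 0) : ∀ v : V, (k : AddMonoid.End V) v = 0 → v = 0 := by
  have h := hirr (kerK k) (by
    intro e w hw
    rw [mem_kerK] at hw ⊢
    rw [smul_comm_rho, hw, smul_zero])
  rcases h with h | h
  · intro v hv
    have : v ∈ kerK k := hv
    rw [h] at this
    exact this
  · exact absurd (Subtype.ext (AddMonoidHom.ext fun v => by
      have : v ∈ kerK k := by rw [h]; trivial
      exact this)) hk

/-- The commutative ring structure. -/
noncomputable abbrev commRing (E V : Type*) [Group E] [AddCommGroup V] [DistribMulAction E V] :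
    CommRing (KK E V) :=
  { (inferInstance : Ring (KK E V)) with
    mul_comm := by
      intro a b
      have h : KK E V ≤ Subring.centralizer (KK E V : Set (AddMonoid.End V)) := by
        rw [Subring.closure_le]
        intro x hx
        rw [SetLike.mem_coe, Subring.mem_centralizer_iff]
        intro y hy
        obtain ⟨e, _, rfl⟩ := hx
        exact comm_rho ⟨y, hy⟩ e
      exact Subtype.ext ((Subring.mem_centralizer_iff.mp (h b.2)) _ a.2) }

theorem noZero (hirr : ∀ W : AddSubgroup V, (∀ e : E, ∀ w ∈ W, e • w ∈ W) → W = ⊥ ∨ W = ⊤) :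
    NoZeroDivisors (KK E V) := ⟨by
  intro a b hab
  by_cases ha : a = 0
  · exact Or.inl ha
  · right
    refine Subtype.ext (AddMonoidHom.ext fun v => ?_)
    refine injective_of_ne hirr a ha _ ?_
    have h2 : ((a : AddMonoid.End V) * (b : AddMonoid.End V)) v = 0 := by
      have : ((a * b : KK E V) : AddMonoid.End V) v = 0 := by rw [hab]; rfl
      exact this
    exact h2⟩

theorem nontrivial' [Nontrivial V] : Nontrivial (KK E V) := by
  refine ⟨⟨0, 1, fun h => ?_⟩⟩
  obtain ⟨v, hv⟩ := exists_ne (0 : V)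
  apply hv
  have h3 : ((0 : KK E V) : AddMonoid.End V) v = ((1 : KK E V) : AddMonoid.End V) v := by rw [h]
  exact h3.symm

/-- The field structure. -/
noncomputable abbrev fieldK [Finite V] [Nontrivial V]
    (hirr : ∀ W : AddSubgroup V, (∀ e : E, ∀ w ∈ W, e • w ∈ W) → W = ⊥ ∨ W = ⊤) :
    Field (KK E V) :=
  letI : CommRing (KK E V) := commRing E V
  haveI := noZero hirr
  haveI := nontrivial' (E := E) (V := V)
  haveI : IsDomain (KK E V) := NoZeroDivisors.to_isDomain _
  haveI : Finite (AddMonoid.End V) := Finite.of_injective (fun f : AddMonoid.End V => (f : V → V))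
    DFunLike.coe_injective
  (Finite.isField_of_domain (KK E V)).toField

/-- Central elements, in the ring. -/
def zK (E V : Type*) [Group E] [AddCommGroup V] [DistribMulAction E V] (z : E) (hz : z ∈ center E) :
    KK E V := ⟨rho E V z, Subring.subset_closure ⟨z, hz, rfl⟩⟩

theorem zK_apply {z : E} (hz : z ∈ center E) (v : V) : (zK E V z hz : AddMonoid.End V) v = z • v := rfl

theorem comm_mul_left (hc : ∀ a b : E, ⁅a, b⁆ ∈ center E) (a b t : E) :
    ⁅a * b, t⁆ = ⁅a, t⁆ * ⁅b, t⁆ := by
  have h1 : ⁅a * b, t⁆ = a * ⁅b, t⁆ * a⁻¹ * ⁅a, t⁆ := by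
    simp only [commutatorElement_def]; group
  have h2 : a * ⁅b, t⁆ * a⁻¹ = ⁅b, t⁆ := by
    rw [mem_center_iff.mp (hc b t) a]; group
  rw [h1, h2, mem_center_iff.mp (hc b t) ⁅a, t⁆]

/-- The character of `E` with values in the ring attached to `t`. -/
noncomputable def chi (V : Type*) [AddCommGroup V] [DistribMulAction E V]
    (hc : ∀ a b : E, ⁅a, b⁆ ∈ center E) (t : E) : E →* KK E V where
  toFun e := zK E V ⁅e, t⁆ (hc e t)
  map_one' := Subtype.ext (AddMonoidHom.ext fun v => by
    change ⁅(1 : E), t⁆ • v = v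
    rw [commutatorElement_one_left, one_smul])
  map_mul' a b := Subtype.ext (AddMonoidHom.ext fun v => by
    change ⁅a * b, t⁆ • v = ⁅a, t⁆ • (⁅b, t⁆ • v)
    rw [comm_mul_left hc, mul_smul])

theorem eq_one_of_smul [Finite E] {p : ℕ} [hp : Fact p.Prime] (hZ : Nat.card (center E) = p)
    (hnt : ∃ z ∈ center E, ∃ v : V, z • v ≠ v) {z : E} (hz : z ∈ center E) (h : ∀ v : V, z • v = v) :
    z = 1 := by
  by_contra hne
  obtain ⟨z0, hz0, v, hv⟩ := hnt
  have h1 : (⟨z0, hz0⟩ : center E) ∈ zpowers (⟨z, hz⟩ : center E) :=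
    mem_zpowers_of_prime_card hZ (fun h => hne (congrArg Subtype.val h))
  obtain ⟨k, hk⟩ := mem_zpowers_iff.mp h1
  have h2 : z ^ k = z0 := congrArg Subtype.val hk
  apply hv
  rw [← h2]
  have h3 : z ∈ MulAction.stabilizer E v := h v
  exact (MulAction.stabilizer E v).zpow_mem h3 k

theorem chi_injective [Finite E] {p : ℕ} [hp : Fact p.Prime] (hZ : Nat.card (center E) = p)
    (hnt : ∃ z ∈ center E, ∃ v : V, z • v ≠ v) (hc : ∀ a b : E, ⁅a, b⁆ ∈ center E) {t t' : E}
    (h : chi V hc t = chi V hc t') : (QuotientGroup.mk t : E ⧸ center E) = QuotientGroup.mk t' := by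
  rw [QuotientGroup.eq, mem_center_iff]
  intro e
  have h1 : ⁅e, t⁆ = ⁅e, t'⁆ := by
    have h2 : (⁅e, t'⁆)⁻¹ * ⁅e, t⁆ = 1 := by
      refine eq_one_of_smul hZ hnt ((center E).mul_mem ((center E).inv_mem (hc e t')) (hc e t)) ?_
      intro v
      have h3 : chi V hc t e = chi V hc t' e := by rw [h]
      have h4 : ⁅e, t⁆ • v = ⁅e, t'⁆ • v := by
        have := congrArg (fun k : KK E V => (k : AddMonoid.End V) v) h3
        exact this
      rw [mul_smul, h4, inv_smul_smul]
    exact (inv_mul_eq_one.mp h2).symm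
  simp only [commutatorElement_def] at h1
  have h2 : t * e⁻¹ * t⁻¹ = t' * e⁻¹ * t'⁻¹ := by
    have h5 : e * (t * e⁻¹ * t⁻¹) = e * (t' * e⁻¹ * t'⁻¹) := by
      simpa only [mul_assoc] using h1
    exact mul_left_cancel h5
  have h3 : t * e * t⁻¹ = t' * e * t'⁻¹ := by
    have h4 := congrArg (fun x => x⁻¹) h2
    simpa [mul_inv_rev, mul_assoc] using h4
  have h5 : e = t⁻¹ * (t' * e * t'⁻¹) * t := by rw [← h3]; group
  calc e * (t⁻¹ * t') = (t⁻¹ * (t' * e * t'⁻¹) * t) * (t⁻¹ * t') := by rw [← h5]
    _ = t⁻¹ * t' * e := by group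

theorem bound [Finite E] [Finite V] [Nontrivial V]
    (hirr : ∀ W : AddSubgroup V, (∀ e : E, ∀ w ∈ W, e • w ∈ W) → W = ⊥ ∨ W = ⊤)
    {p r : ℕ} [hp : Fact p.Prime] [hrp : Fact r.Prime] (hr : ∀ v : V, r • v = 0)
    (hZ : Nat.card (center E) = p) (hnt : ∃ z ∈ center E, ∃ v : V, z • v ≠ v)
    (hc : ∀ a b : E, ⁅a, b⁆ ∈ center E) (w : ℕ) (hcard : Nat.card E = p ^ (2 * w + 1)) (n : ℕ)
    (hmin : ∀ k : ℕ, 1 ≤ k → p ∣ r ^ k - 1 → n ≤ k) : r ^ (n * p ^ w) ≤ Nat.card V := by
  classical
  have hfinEnd : Finite (AddMonoid.End V) := Finite.of_injective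
    (fun f : AddMonoid.End V => (f : V → V)) DFunLike.coe_injective
  letI : Field (KK E V) := fieldK hirr
  have hfinK : Finite (KK E V) := inferInstance
  have hmul : ∀ (k : KK E V) (v : V), k • v = (k : AddMonoid.End V) v := fun k v => rfl
  let rhoL : E → (V →ₗ[KK E V] V) := fun e =>
    { toFun := fun v => e • v
      map_add' := smul_add e
      map_smul' := fun k v => (smul_comm_rho k e v).symm }
  have hrhoL : ∀ e v, rhoL e v = e • v := fun e v => rfl
  -- linear independence
  have hinj : Function.Injective (fun t : E ⧸ center E => chi V hc t.out) := by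
    intro t t' h
    have h1 := chi_injective hZ hnt hc h
    rwa [QuotientGroup.out_eq', QuotientGroup.out_eq'] at h1
  have hli0 : LinearIndependent (KK E V)
      (fun t : E ⧸ center E => (chi V hc t.out : E → KK E V)) :=
    (linearIndependent_monoidHom E (KK E V)).comp _ hinj
  haveI : Fintype (E ⧸ center E) := Fintype.ofFinite _
  have hli : LinearIndependent (KK E V) (fun t : E ⧸ center E => rhoL t.out) := by
    rw [Fintype.linearIndependent_iff]
    intro g hg t0
    rw [Fintype.linearIndependent_iff] at hli0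
    obtain ⟨v0, hv0⟩ := exists_ne (0 : V)
    obtain ⟨φ, hφ⟩ : ∃ φ : Module.Dual (KK E V) V, φ v0 ≠ 0 := by
      by_contra hne
      push Not at hne
      exact hv0 ((Module.forall_dual_apply_eq_zero_iff (KK E V) v0).mp hne)
    have hkey : ∀ v : V, ∀ e : E,
        ∑ t : E ⧸ center E, (g t * φ (t.out • v)) * chi V hc t.out e = 0 := by
      intro v e
      have h1 : (∑ t : E ⧸ center E, g t • rhoL t.out) (e⁻¹ • v) = 0 := by rw [hg]; rfl
      rw [LinearMap.sum_apply] at h1
      have h2 := congrArg (fun x => φ (e • x)) h1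
      simp only [smul_zero, map_zero, Finset.smul_sum, map_sum] at h2
      rw [← h2]
      refine Finset.sum_congr rfl fun t _ => ?_
      have h3 : e • ((g t • rhoL t.out) (e⁻¹ • v)) = g t • (chi V hc t.out e • (t.out • v)) := by
        rw [LinearMap.smul_apply, hrhoL, hmul, ← smul_comm_rho, ← hmul]
        congr 1
        have h4 : chi V hc t.out e • (t.out • v) = ⁅e, t.out⁆ • (t.out • v) := rfl
        rw [h4, smul_smul, smul_smul, smul_smul]
        congr 1
        simp only [commutatorElement_def]; group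
      rw [h3, LinearMap.map_smul φ, LinearMap.map_smul φ, smul_eq_mul, smul_eq_mul]
      ring
    have h5 := hli0 (fun t => g t * φ (t.out • (t0.out⁻¹ • v0))) (by
      funext e
      have := hkey (t0.out⁻¹ • v0) e
      simpa [Finset.sum_apply] using this) t0
    rw [smul_inv_smul] at h5
    exact (mul_eq_zero.mp h5).resolve_right hφ
  have hfr := hli.fintype_card_le_finrank
  rw [Module.finrank_linearMap] at hfr
  set d := Module.finrank (KK E V) V with hd
  have hquot : Fintype.card (E ⧸ center E) = p ^ (2 * w) := by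
    rw [← Nat.card_eq_fintype_card]
    have h1 := Subgroup.card_eq_card_quotient_mul_card_subgroup (center E)
    rw [hcard, hZ, pow_succ] at h1
    exact (Nat.eq_of_mul_eq_mul_right hp.out.pos h1).symm
  rw [hquot] at hfr
  have hd1 : p ^ w ≤ d := by
    by_contra hlt
    push Not at hlt
    have : d * d < p ^ w * p ^ w := Nat.mul_self_lt_mul_self hlt
    rw [← pow_add, ← two_mul] at this
    omega
  -- the order of the field
  have hchar : ((r : ℕ) : KK E V) = 0 := by
    refine Subtype.ext (AddMonoidHom.ext fun v => ?_)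
    have h1 : ((r : ℕ) : KK E V) • v = r • v := Nat.cast_smul_eq_nsmul _ r v
    rw [hr v] at h1
    exact h1
  have hCP : CharP (KK E V) r := by
    have h1 : ringChar (KK E V) ∣ r := ringChar.dvd hchar
    rcases (Nat.dvd_prime hrp.out).mp h1 with h2 | h2
    · have := CharP.ringChar_ne_one (R := KK E V)
      exact absurd h2 this
    · exact h2 ▸ ringChar.charP (KK E V)
  haveI : Fintype (KK E V) := Fintype.ofFinite _
  obtain ⟨m, _, hm⟩ := FiniteField.card (KK E V) r
  have hVcard : Nat.card V = Nat.card (KK E V) ^ d := Module.natCard_eq_pow_finrank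
  have hKcard : Nat.card (KK E V) = r ^ (m : ℕ) := by rw [Nat.card_eq_fintype_card, hm]
  -- p divides r^m - 1
  have hdvd : p ∣ r ^ (m : ℕ) - 1 := by
    obtain ⟨z, hz, v, hv⟩ := hnt
    have hz1 : z ^ p = 1 := by
      have h1 : (⟨z, hz⟩ : center E) ^ Nat.card (center E) = 1 := pow_card_eq_one'
      rw [hZ] at h1
      exact congrArg Subtype.val h1
    have hzK1 : (zK E V z hz) ^ p = 1 := by
      have : (rho E V z) ^ p = 1 := by rw [← map_pow, hz1, map_one]
      exact Subtype.ext (by rw [SubmonoidClass.coe_pow]; exact this)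
    have hzK2 : zK E V z hz ≠ 1 := by
      intro h
      apply hv
      have := congrArg (fun k : KK E V => (k : AddMonoid.End V) v) h
      exact this
    have hord : orderOf (zK E V z hz) = p := orderOf_eq_prime hzK1 hzK2
    have hne : zK E V z hz ≠ 0 := by
      intro h
      rw [h, zero_pow hp.out.ne_zero] at hzK1
      exact zero_ne_one hzK1
    have hu : orderOf (Units.mk0 (zK E V z hz) hne) = p := by
      rw [← orderOf_units, Units.val_mk0, hord]
    have h2 : orderOf (Units.mk0 (zK E V z hz) hne) ∣ Nat.card (KK E V)ˣ := orderOf_dvd_natCard _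
    rw [hu, Nat.card_units, hKcard] at h2
    exact h2
  have hnm : n ≤ m := hmin m m.2 hdvd
  rw [hVcard, hKcard, ← pow_mul]
  exact Nat.pow_le_pow_right hrp.out.pos (Nat.mul_le_mul hnm hd1)

end Core

end Cfsg.Agent.H240.ExtraBound
end

-- part: S2912
section
-- import your own Cfsg.Agent.* helpers here

set_option autoImplicit false
open Cfsg

namespace Cfsg.Agent.S2912

open scoped commutatorElement

/-- `E` acts by conjugation on a subgroup it normalises (written additively). -/
noncomputable def act {G : Type*} [Group G] (E A0 : Subgroup G)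
    (hc : ∀ x ∈ A0, ∀ y ∈ A0, x * y = y * x) (h : E ≤ Subgroup.normalizer (A0 : Set G)) :
    letI : CommGroup A0 := { (inferInstance : Group A0) with
      mul_comm := fun x y => Subtype.ext (hc x x.2 y y.2) }
    DistribMulAction E (Additive A0) :=
  letI : CommGroup A0 := { (inferInstance : Group A0) with
    mul_comm := fun x y => Subtype.ext (hc x x.2 y y.2) }
  { smul := fun e v => Additive.ofMul (((Subgroup.normalizerMonoidHom A0).comp
      (Subgroup.inclusion h)) e (Additive.toMul v))
    one_smul := fun v => by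
      change Additive.ofMul (((Subgroup.normalizerMonoidHom A0).comp
        (Subgroup.inclusion h)) 1 (Additive.toMul v)) = v
      rw [map_one]; rfl
    mul_smul := fun a b v => by
      change Additive.ofMul (((Subgroup.normalizerMonoidHom A0).comp
        (Subgroup.inclusion h)) (a * b) (Additive.toMul v)) = _
      rw [map_mul]; rfl
    smul_zero := fun a => by
      change Additive.ofMul (((Subgroup.normalizerMonoidHom A0).comp
        (Subgroup.inclusion h)) a 1) = _
      rw [map_one]; rfl
    smul_add := fun a v w => by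
      change Additive.ofMul (((Subgroup.normalizerMonoidHom A0).comp
        (Subgroup.inclusion h)) a (Additive.toMul v * Additive.toMul w)) = _
      rw [map_mul]; rfl }

/-- Let p and r be distinct primes, let E be an extraspecial subgroup of order p^(2w+1) of a finite group, and let A be an elementary abelian r-subgroup normalized by E on which E acts faithfully (C_E(A) = 1). If n ≥ 1 is least with p dividing rⁿ − 1 (the smallest dimension of a faithful representation of a group of order p over the field with r elements), then the order of A is at least r^(n·p^w). -/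
theorem result {G : Type*} [Group G] [Finite G] {p r : ℕ} [Fact p.Prime] [hr : Fact r.Prime] (hpr : p ≠ r) (E A : Subgroup G) (w : ℕ) (hE : Cfsg.IsExtraspecial p ↥E) (hEcard : Nat.card ↥E = p ^ (2 * w + 1)) (hA : Cfsg.IsElementaryAbelian r A) (hnorm : E ≤ Subgroup.normalizer (A : Set G)) (hfaith : E ⊓ Subgroup.centralizer (A : Set G) = ⊥) (n : ℕ) (hn : 1 ≤ n) (hdiv : p ∣ r ^ n - 1) (hmin : ∀ k : ℕ, 1 ≤ k → p ∣ r ^ k - 1 → n ≤ k) : r ^ (n * p ^ w) ≤ Nat.card ↥A := by
  classical
  have hp : p.Prime := Fact.out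
  set Z : Subgroup G := (Subgroup.center E).map E.subtype with hZdef
  have hZE : Z ≤ E := Subgroup.map_subtype_le _
  have hZc : ∀ z ∈ Z, ∀ e ∈ E, e * z = z * e := by
    rintro _ ⟨z, hz, rfl⟩ e he
    exact congrArg Subtype.val (Subgroup.mem_center_iff.mp hz ⟨e, he⟩)
  have hZcard : Nat.card Z = p := by
    rw [hZdef, Subgroup.card_subtype]
    exact hE.2
  have hAc : ∀ x ∈ A, ∀ y ∈ A, x * y = y * x := fun x hx y hy =>
    congrArg Subtype.val (hA.1.is_comm.comm ⟨x, hx⟩ ⟨y, hy⟩)
  have hAr : IsPGroup r A := fun x => ⟨1, by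
    rw [pow_one]; exact Subtype.ext (hA.2 x x.2)⟩
  have hcop : (Nat.card Z).Coprime (Nat.card A) := by
    obtain ⟨k, hk⟩ := IsPGroup.iff_card.mp hAr
    rw [hZcard, hk]
    exact Nat.Coprime.pow_right k ((Nat.coprime_primes hp hr.out).mpr hpr)
  have hEconj : ∀ e ∈ E, ∀ x ∈ A, e * x * e⁻¹ ∈ A := fun e he x hx =>
    (Subgroup.mem_normalizer_iff.mp (hnorm he) x).mp hx
  set B : Subgroup G := ⁅A, Z⁆ with hBdef
  have hBA : B ≤ A := by
    rw [hBdef, Subgroup.commutator_le]
    intro a ha z hz
    have h1 : ⁅a, z⁆ = a * (z * a⁻¹ * z⁻¹) := by simp only [commutatorElement_def]; group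
    rw [h1]
    exact A.mul_mem ha (hEconj z (hZE hz) _ (A.inv_mem ha))
  have hEB : ∀ e ∈ E, ∀ x ∈ B, e * x * e⁻¹ ∈ B := by
    intro e he x hx
    rw [hBdef, Subgroup.commutator_def] at hx
    induction hx using Subgroup.closure_induction with
    | mem y hy =>
      obtain ⟨k, hk, z, hz, rfl⟩ := hy
      have h1 : e * ⁅k, z⁆ * e⁻¹ = ⁅e * k * e⁻¹, z⁆ := by
        have h2 : e * z * e⁻¹ = z := by rw [hZc z hz e he]; group
        have h3 : e * ⁅k, z⁆ * e⁻¹ = ⁅e * k * e⁻¹, e * z * e⁻¹⁆ := by
          simp only [commutatorElement_def]; group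
        rw [h3, h2]
      rw [h1]
      exact Subgroup.commutator_mem_commutator (hEconj e he k hk) hz
    | one => simp
    | mul y z _ _ hy hz =>
      have h1 : e * (y * z) * e⁻¹ = (e * y * e⁻¹) * (e * z * e⁻¹) := by group
      rw [h1]; exact Subgroup.mul_mem _ hy hz
    | inv y _ hy =>
      have h1 : e * y⁻¹ * e⁻¹ = (e * y * e⁻¹)⁻¹ := by group
      rw [h1]; exact Subgroup.inv_mem _ hy
  have norm_of : ∀ {K H : Subgroup G}, (∀ a ∈ K, ∀ x ∈ H, a * x * a⁻¹ ∈ H) →
      K ≤ Subgroup.normalizer (H : Set G) := by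
    intro K H h a ha
    rw [Subgroup.mem_normalizer_iff]
    intro x
    refine ⟨h a ha x, fun hx => ?_⟩
    have h2 := h a⁻¹ (K.inv_mem ha) _ hx
    have h1 : a⁻¹ * (a * x * a⁻¹) * a⁻¹⁻¹ = x := by group
    rwa [h1] at h2
  have hBne : B ≠ ⊥ := by
    intro hB0
    have h1 : Z ≤ E ⊓ Subgroup.centralizer (A : Set G) := by
      refine le_inf hZE fun z hz => ?_
      rw [Subgroup.mem_centralizer_iff]
      intro a ha
      have h2 : ⁅a, z⁆ ∈ B := Subgroup.commutator_mem_commutator ha hz
      rw [hB0, Subgroup.mem_bot, commutatorElement_eq_one_iff_mul_comm] at h2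
      exact h2
    rw [hfaith, le_bot_iff] at h1
    rw [h1, Subgroup.card_bot] at hZcard
    exact hp.ne_one hZcard.symm
  obtain ⟨A0, ⟨hA0B, hA0ne, hA0n⟩, hA0min⟩ :
      ∃ A0 : Subgroup G, (A0 ≤ B ∧ A0 ≠ ⊥ ∧ E ≤ Subgroup.normalizer (A0 : Set G)) ∧
        ∀ W : Subgroup G, (W ≤ B ∧ W ≠ ⊥ ∧ E ≤ Subgroup.normalizer (W : Set G)) → W ≤ A0 → W = A0 := by
    have hfin : {W : Subgroup G | W ≤ B ∧ W ≠ ⊥ ∧ E ≤ Subgroup.normalizer (W : Set G)}.Finite :=
      Set.toFinite _
    obtain ⟨A0, hA0⟩ := hfin.exists_minimal ⟨B, le_rfl, hBne, norm_of hEB⟩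
    exact ⟨A0, hA0.1, fun W hW hWle => le_antisymm hWle (hA0.2 hW hWle)⟩
  have hA0A : A0 ≤ A := hA0B.trans hBA
  have hA0c : ∀ x ∈ A0, ∀ y ∈ A0, x * y = y * x := fun x hx y hy => hAc x (hA0A hx) y (hA0A hy)
  letI : CommGroup A0 := { (inferInstance : Group A0) with
    mul_comm := fun x y => Subtype.ext (hA0c x x.2 y y.2) }
  letI : DistribMulAction E (Additive A0) := act E A0 hA0c hA0n
  have hact : ∀ (e : E) (v : Additive A0),
      ((Additive.toMul (e • v) : A0) : G) = e * (Additive.toMul v : A0) * (e : G)⁻¹ :=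
    fun e v => rfl
  have hnt0 : Nontrivial A0 := (Subgroup.nontrivial_iff_ne_bot A0).mpr hA0ne
  have hnt : Nontrivial (Additive A0) := inferInstance
  have hfinA : Finite (Additive A0) := inferInstanceAs (Finite A0)
  have hirr : ∀ W : AddSubgroup (Additive A0), (∀ e : E, ∀ w ∈ W, e • w ∈ W) → W = ⊥ ∨ W = ⊤ := by
    intro W hW
    set W' : Subgroup G := (AddSubgroup.toSubgroup' W).map A0.subtype with hW'
    have hmem : ∀ x : A0, ((x : G) ∈ W' ↔ Additive.ofMul x ∈ W) := by
      intro x
      constructor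
      · rintro ⟨y, hy, hyx⟩
        have : y = x := Subtype.ext hyx
        subst this
        exact hy
      · intro hx
        exact ⟨x, hx, rfl⟩
    have hW'A : W' ≤ A0 := Subgroup.map_subtype_le _
    by_cases hbot : W' = ⊥
    · left
      rw [eq_bot_iff]
      intro x hx
      have h1 : ((Additive.toMul x : A0) : G) ∈ W' := (hmem (Additive.toMul x)).mpr hx
      rw [hbot, Subgroup.mem_bot] at h1
      have h2 : Additive.toMul x = 1 := Subtype.ext h1
      exact h2
    · right
      have h1 : W' = A0 := by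
        refine hA0min W' ⟨hW'A.trans hA0B, hbot, norm_of ?_⟩ hW'A
        intro e he x hx
        have hxA := hW'A hx
        have h2 : Additive.ofMul (⟨x, hxA⟩ : A0) ∈ W := (hmem ⟨x, hxA⟩).mp hx
        have h3 := hW ⟨e, he⟩ _ h2
        exact (hmem (Additive.toMul ((⟨e, he⟩ : E) • Additive.ofMul (⟨x, hxA⟩ : A0)))).mpr h3
      rw [eq_top_iff]
      intro x _
      have h2 : ((Additive.toMul x : A0) : G) ∈ W' := by rw [h1]; exact (Additive.toMul x).2
      exact (hmem (Additive.toMul x)).mp h2
  have hrv : ∀ v : Additive A0, r • v = 0 := by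
    intro v
    have h1 : (Additive.toMul v) ^ r = 1 := Subtype.ext (hA.2 _ (hA0A (Additive.toMul v).2))
    exact h1
  have hntz : ∃ z ∈ Subgroup.center E, ∃ v : Additive A0, z • v ≠ v := by
    by_contra hcon
    push Not at hcon
    have h1 : A0 ≤ (A ⊓ Subgroup.centralizer (Z : Set G)) ⊓ ⁅A, Z⁆ := by
      refine le_inf (le_inf hA0A ?_) hA0B
      intro x hx
      rw [Subgroup.mem_centralizer_iff]
      rintro _ ⟨z, hz, rfl⟩
      have h2 := hcon z hz (Additive.ofMul ⟨x, hx⟩)
      have h3 : (z : G) * x * (z : G)⁻¹ = x := by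
        have := hact z (Additive.ofMul ⟨x, hx⟩)
        rw [h2] at this
        exact this.symm
      exact mul_inv_eq_iff_eq_mul.mp h3
    rw [Lib.CoprimeAbelian.inf_commutator_eq_bot Z A hAc (hZE.trans hnorm) hcop] at h1
    exact hA0ne (le_bot_iff.mp h1)
  have hfinal := H240.ExtraBound.bound (E := E) (V := Additive A0) hirr hrv hE.2 hntz
    (fun a b => Transfer.Extraspecial.comm_mem_center hE a b) w hEcard n hmin
  refine hfinal.trans ?_
  have h1 : Nat.card (Additive A0) = Nat.card A0 := rfl
  rw [h1]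
  exact Nat.card_le_card_of_injective _ (Subgroup.inclusion_injective hA0A)

end Cfsg.Agent.S2912
end
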