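import Cfsg.Statements.S2925
import Cfsg.Agent.SignalizersComponents.Components
import Cfsg.Agent.S0542
set_option linter.all false

set_option autoImplicit false
open Cfsg

namespace Cfsg.Agent.S2925

open Subgroup Cfsg.Agent.SignalizersComponents.Components
open scoped Pointwise

/-- commutators of `T ∩ K` are central in `K` -/
theorem key {X : Type*} [Group X] (K : Subgroup X) (hK : Cfsg.IsComponent K) (T Y : Subgroup X)
    (hYT : Y ≤ T) (hYn : ∀ y ∈ Y, ∀ s ∈ T, s * y * s⁻¹ ∈ Y) (hYab : ∀ a ∈ Y, ∀ b ∈ Y, a * b = b * a)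
    (hnot : ¬ Y ≤ Subgroup.normalizer (K : Set X)) (s t : K) (hs : (s : X) ∈ T)
    (ht : (t : X) ∈ T) : t⁻¹ * s⁻¹ * t * s ∈ center K := by
  obtain ⟨y, hyY, hy⟩ := SetLike.not_le_iff_exists.1 hnot
  have hLc : IsComponent (K.map (MulAut.conj y).toMonoidHom) := isComponent_conj y hK
  have hne : K ≠ K.map (MulAut.conj y).toMonoidHom := by
    intro h
    apply hy
    rw [mem_normalizer_iff]
    intro x
    constructor
    · intro hx
      rw [h]
      exact ⟨x, hx, by simp⟩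
    · intro hx
      rw [h] at hx
      obtain ⟨z, hz, hzx⟩ := hx
      have : z = x := by
        simpa using hzx
      exact this ▸ hz
  have hcomm : ∀ a ∈ K, ∀ b ∈ K.map (MulAut.conj y).toMonoidHom, a * b = b * a := by
    intro a ha b hb
    exact (mem_centralizer_iff.1 (component_le_centralizer_of_ne hLc hK hne.symm hb) a ha)
  have hyT := hYT hyY
  have hc : ∀ u : K, (u : X) ∈ T → (y * u * y⁻¹) * (u : X)⁻¹ ∈ Y := by
    intro u hu
    have h1 : (u : X) * y⁻¹ * (u : X)⁻¹ ∈ Y := hYn _ (Y.inv_mem hyY) _ hu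
    have h2 := Y.mul_mem hyY h1
    convert h2 using 1
    group
  have hmem : ∀ u : K, y * (u : X) * y⁻¹ ∈ K.map (MulAut.conj y).toMonoidHom := fun u =>
    ⟨u, u.2, by simp⟩
  have hab := hYab _ (hc s hs) _ (hc t ht)
  set s' : X := y * s * y⁻¹ with hs'
  set t' : X := y * t * y⁻¹ with ht'
  have hsL := hmem s
  have htL := hmem t
  rw [← hs'] at hsL
  rw [← ht'] at htL
  have e1 : (s : X)⁻¹ * t' = t' * (s : X)⁻¹ := hcomm _ (K.inv_mem s.2) _ htL
  have e2 : (t : X)⁻¹ * s' = s' * (t : X)⁻¹ := hcomm _ (K.inv_mem t.2) _ hsL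
  have e3 : s' * t' * ((s : X)⁻¹ * (t : X)⁻¹) = t' * s' * ((t : X)⁻¹ * (s : X)⁻¹) := by
    calc s' * t' * ((s : X)⁻¹ * (t : X)⁻¹) = s' * (t' * (s : X)⁻¹) * (t : X)⁻¹ := by group
      _ = s' * ((s : X)⁻¹ * t') * (t : X)⁻¹ := by rw [e1]
      _ = s' * (s : X)⁻¹ * (t' * (t : X)⁻¹) := by group
      _ = t' * (t : X)⁻¹ * (s' * (s : X)⁻¹) := hab
      _ = t' * ((t : X)⁻¹ * s') * (s : X)⁻¹ := by group
      _ = t' * (s' * (t : X)⁻¹) * (s : X)⁻¹ := by rw [e2]
      _ = _ := by group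
  have e4 : (t : X)⁻¹ * (s : X)⁻¹ * t * s = (t' * s')⁻¹ * (s' * t') := by
    have h5 : (t' * s')⁻¹ * (s' * t') * ((s : X)⁻¹ * (t : X)⁻¹) = (t : X)⁻¹ * (s : X)⁻¹ := by
      rw [mul_assoc, e3]
      group
    calc (t : X)⁻¹ * (s : X)⁻¹ * t * s
        = (t' * s')⁻¹ * (s' * t') * ((s : X)⁻¹ * (t : X)⁻¹) * t * s := by rw [h5]
      _ = _ := by group
  have hw : (t : X)⁻¹ * (s : X)⁻¹ * t * s ∈ K.map (MulAut.conj y).toMonoidHom := by
    rw [e4]
    exact mul_mem (inv_mem (mul_mem htL hsL)) (mul_mem hsL htL)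
  rw [mem_center_iff]
  intro g
  apply Subtype.ext
  have := hcomm (g : X) g.2 _ hw
  simpa using this

/-- Let K be a component of the finite group X and T a Sylow 2-subgroup of X. If some abelian normal subgroup Y of T does not normalize K, then K ⧸ Z(K) has abelian Sylow 2-subgroups. -/
theorem result {X : Type*} [Group X] [Finite X] (K : Subgroup X) (hK : Cfsg.IsComponent K) (T : Sylow 2 X) (Y : Subgroup X) (hYT : Y ≤ (T : Subgroup X)) (hYn : (Y.subgroupOf (T : Subgroup X)).Normal) (hYab : IsMulCommutative ↥Y) (hnot : ¬ Y ≤ Subgroup.normalizer (K : Set X)) (P : Sylow 2 (↥K ⧸ Subgroup.center ↥K)) : IsMulCommutative ↥(P : Subgroup (↥K ⧸ Subgroup.center ↥K)) := by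
  classical
  have hYn' : ∀ y ∈ Y, ∀ s ∈ (T : Subgroup X), s * y * s⁻¹ ∈ Y := by
    intro y hy s hs
    have := hYn.conj_mem ⟨y, hYT hy⟩ (mem_subgroupOf.2 hy) ⟨s, hs⟩
    simpa [mem_subgroupOf] using this
  have hYab' : ∀ a ∈ Y, ∀ b ∈ Y, a * b = b * a := by
    intro a ha b hb
    exact congrArg Subtype.val (hYab.is_comm.comm (⟨a, ha⟩ : Y) ⟨b, hb⟩)
  obtain ⟨Q, hQ⟩ := Cfsg.Agent.S0542.result 2 K hK.1 T
  have hcQ : ∀ s ∈ (Q : Subgroup K), ∀ t ∈ (Q : Subgroup K), t⁻¹ * s⁻¹ * t * s ∈ center K := by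
    intro s hs t ht
    rw [hQ] at hs ht
    exact key K hK T Y hYT hYn' hYab' hnot s t hs ht
  have hsurj : Function.Surjective (QuotientGroup.mk' (center K)) :=
    QuotientGroup.mk'_surjective _
  obtain ⟨g, hg⟩ := MulAction.exists_smul_eq (↥K ⧸ center ↥K) (Q.mapSurjective hsurj) P
  have hP : ∀ a ∈ (P : Subgroup (↥K ⧸ center ↥K)), ∃ s ∈ (Q : Subgroup K),
      a = g * (QuotientGroup.mk' (center K) s) * g⁻¹ := by
    intro a ha
    rw [← hg] at ha
    have ha' : a ∈ MulAut.conj g • ((Q.mapSurjective hsurj : Sylow 2 _) :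
      Subgroup (↥K ⧸ center ↥K)) := ha
    rw [Subgroup.mem_smul_pointwise_iff_exists] at ha'
    obtain ⟨b, hb, rfl⟩ := ha'
    rw [Sylow.coe_mapSurjective] at hb
    obtain ⟨s, hs, rfl⟩ := hb
    exact ⟨s, hs, by simp⟩
  refine ⟨⟨?_⟩⟩
  rintro ⟨a, ha⟩ ⟨b, hb⟩
  apply Subtype.ext
  obtain ⟨s, hs, rfl⟩ := hP a ha
  obtain ⟨t, ht, rfl⟩ := hP b hb
  have h1 : QuotientGroup.mk' (center K) (t⁻¹ * s⁻¹ * t * s) = 1 := by
    rw [QuotientGroup.mk'_apply, QuotientGroup.eq_one_iff]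
    exact hcQ s hs t ht
  have h2 : (QuotientGroup.mk' (center K) s) * (QuotientGroup.mk' (center K) t) =
      (QuotientGroup.mk' (center K) t) * (QuotientGroup.mk' (center K) s) := by
    rw [map_mul, map_mul, map_mul, map_inv, map_inv] at h1
    set u := QuotientGroup.mk' (center K) s
    set v := QuotientGroup.mk' (center K) t
    have h3 : v * u = u * v := by
      have : (u * v) * (v⁻¹ * u⁻¹ * v * u) = u * v := by rw [h1, mul_one]
      calc v * u = (u * v) * (v⁻¹ * u⁻¹ * v * u) := by group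
        _ = u * v := this
    exact h3.symm
  show g * _ * g⁻¹ * (g * _ * g⁻¹) = g * _ * g⁻¹ * (g * _ * g⁻¹)
  calc g * (QuotientGroup.mk' (center K)) s * g⁻¹ * (g * (QuotientGroup.mk' (center K)) t * g⁻¹)
      = g * ((QuotientGroup.mk' (center K)) s * (QuotientGroup.mk' (center K)) t) * g⁻¹ := by group
    _ = g * ((QuotientGroup.mk' (center K)) t * (QuotientGroup.mk' (center K)) s) * g⁻¹ := by
        rw [h2]
    _ = _ := by group

end Cfsg.Agent.S2925
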