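import Mathlib
import Cfsg.Statements.S2928
import Cfsg.Agent.H247.PermQS
import Cfsg.Agent.H247.PermQS2
set_option linter.all false

-- part: H247/Matching
section
/-!
# Primitive groups containing all products of two transpositions of a matching

`R` is a primitive permutation group of degree at least 8 and `s` an involution with at most one
fixed point such that `(y, s y)(z, s z) ∈ R` for all `y`, `z` moved by `s`. Then `R` contains a
3-cycle, or the degree is 8, `s ∈ R` has no fixed point and `s` commutes with its conjugates.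
-/

set_option autoImplicit false
set_option linter.style.haveILetI false

namespace Cfsg.Agent.H247

open Equiv Equiv.Perm Subgroup
open scoped Pointwise

variable {Y : Type*} [Fintype Y] [DecidableEq Y]

theorem exists_not_mem_finset (F : Finset Y) (h : F.card < Fintype.card Y) : ∃ y, y ∉ F := by
  by_contra hc
  push Not at hc
  have : F = Finset.univ := Finset.eq_univ_iff_forall.2 hc
  rw [this, Finset.card_univ] at h
  exact lt_irrefl _ h

theorem three_cycle_of_matching (R : Subgroup (Perm Y)) (hprim : MulAction.IsPreprimitive R Y)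
    (s : Perm Y) (hs : ∀ y, s (s y) = y) (hfix : ∀ y z, s y = y → s z = z → y = z)
    (hcl : ∀ y z, s y ≠ y → s z ≠ z → swap y (s y) * swap z (s z) ∈ R)
    (h8 : 8 ≤ Fintype.card Y) :
    (∃ g ∈ R, g.IsThreeCycle) ∨
      (Fintype.card Y = 8 ∧ s ∈ R ∧ (∀ y, s y ≠ y) ∧
        ∀ g ∈ R, s * (g * s * g⁻¹) = (g * s * g⁻¹) * s) := by
  by_contra hcon
  push Not at hcon
  obtain ⟨no3, hcon⟩ := hcon
  -- uniqueness in a class
  have uniq : ∀ y a b : Y, y ≠ a → y ≠ b → swap y a * swap y b ∈ R → a = b := by
    intro y a b hya hyb h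
    by_contra hab
    exact no3 _ h (isThreeCycle_swap_mul_swap_same hya hyb hab)
  have trans : ∀ y y' z z' w w' : Y, swap y y' * swap z z' ∈ R → swap z z' * swap w w' ∈ R →
      swap y y' * swap w w' ∈ R := by
    intro y y' z z' w w' h1 h2
    have := R.mul_mem h1 h2
    rwa [mul_assoc, ← mul_assoc (swap z z'), swap_mul_self, one_mul] at this
  have symm : ∀ y y' z z' : Y, swap y y' * swap z z' ∈ R → swap z z' * swap y y' ∈ R := by
    intro y y' z z' h
    have := R.inv_mem h
    simpa using this
  have conj : ∀ g ∈ R, ∀ y y' z z' : Y, swap y y' * swap z z' ∈ R →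
      swap (g y) (g y') * swap (g z) (g z') ∈ R := by
    intro g hg y y' z z' h
    rw [swap_apply_apply, swap_apply_apply]
    have := R.mul_mem (R.mul_mem hg h) (R.inv_mem hg)
    convert this using 1
    group
  -- the conjugates of `s`
  have hs1 : ∀ g ∈ R, ∀ y z, (g * s * g⁻¹) y ≠ y → (g * s * g⁻¹) z ≠ z →
      swap y ((g * s * g⁻¹) y) * swap z ((g * s * g⁻¹) z) ∈ R := by
    intro g hg y z hy hz
    have := conj g hg _ _ _ _ (hcl (g⁻¹ y) (g⁻¹ z) (by
      intro h; apply hy; show g (s (g⁻¹ y)) = y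
      rw [h]; exact g.apply_symm_apply y) (by
      intro h; apply hz; show g (s (g⁻¹ z)) = z
      rw [h]; exact g.apply_symm_apply z))
    simpa using this
  have hs1inv : ∀ (g : Perm Y) (y : Y), (g * s * g⁻¹) ((g * s * g⁻¹) y) = y := by
    intro g y; simp [hs]
  -- agreement
  have agree : ∀ g ∈ R, ∀ y z, s y ≠ y → s z ≠ z → (g * s * g⁻¹) z ≠ z →
      s y = (g * s * g⁻¹) y → s z = (g * s * g⁻¹) z := by
    intro g hg y z hy hz hz1 hyy
    apply uniq z _ _ hz.symm hz1.symm
    apply trans z (s z) y (s y) z _ (hcl z y hz hy)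
    have := hs1 g hg y z (by rw [← hyy]; exact hy) hz1
    rwa [← hyy] at this
  by_cases hf : ∃ f, s f = f
  · -- a fixed point
    obtain ⟨f, hf⟩ := hf
    have hmv : ∀ y, y ≠ f → s y ≠ y := fun y hy h => hy (hfix y f h hf)
    haveI := hprim.toIsPretransitive
    obtain ⟨f1, hf1⟩ := exists_not_mem_finset ({f} : Finset Y) (by simp; omega)
    rw [Finset.mem_singleton] at hf1
    obtain ⟨⟨g, hg⟩, hgf⟩ := MulAction.exists_smul_eq R f f1
    have hgf : g f = f1 := hgf
    set s1 := g * s * g⁻¹ with hs1def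
    have hs1f1 : s1 f1 = f1 := by
      rw [hs1def, ← hgf]; simp [hf]
    have hmv1 : ∀ y, y ≠ f1 → s1 y ≠ y := by
      intro y hy h
      apply hy
      rw [← hgf]
      have : s (g⁻¹ y) = g⁻¹ y := by
        rw [hs1def] at h
        simp only [Perm.mul_apply] at h
        rw [Perm.eq_inv_iff_eq]; exact h
      have := hfix _ _ this hf
      rw [← this]; simp
    have hbf : s1 f ≠ f := hmv1 f (Ne.symm hf1)
    set b := s1 f with hb
    obtain ⟨y, hy⟩ := exists_not_mem_finset ({f, b, s b, f1, s f1} : Finset Y)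
      ((Finset.card_le_five).trans_lt (by omega))
    simp only [Finset.mem_insert, Finset.mem_singleton, not_or] at hy
    obtain ⟨hy1, hy2, hy3, hy4, hy5⟩ := hy
    have hsy4 : s y ≠ f1 := fun h => hy5 (by rw [← h, hs])
    -- the conjugation argument
    have key : ∀ z, z ≠ f → z ≠ b → z ≠ s b → z ≠ y → z ≠ s y → s1 y = s y ∨ s1 y = z ∨ s1 y = s z := by
      intro z hz1 hz2 hz3 hz4 hz5
      by_contra hcc
      push Not at hcc
      obtain ⟨hc1, hc2, hc3⟩ := hcc
      have ht : swap y (s y) * swap z (s z) ∈ R := hcl y z (hmv y hy1) (hmv z hz1)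
      have h1 := hs1 g hg f y hbf (hmv1 y hy4)
      have h2 := conj _ ht _ _ _ _ h1
      have hsyf : s y ≠ f := by
        intro h; apply hy1; rw [← hs y, h, hf]
      have hszf : s z ≠ f := by
        intro h; apply hz1; rw [← hs z, h, hf]
      have e1 : (swap y (s y) * swap z (s z)) f = f := by
        rw [Perm.mul_apply, swap_apply_of_ne_of_ne (Ne.symm hz1) hszf.symm,
          swap_apply_of_ne_of_ne (Ne.symm hy1) hsyf.symm]
      have hsyb : s y ≠ b := fun h => hy3 (by rw [← h, hs])
      have hszb : s z ≠ b := fun h => hz3 (by rw [← h, hs])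
      have e2 : (swap y (s y) * swap z (s z)) b = b := by
        rw [Perm.mul_apply, swap_apply_of_ne_of_ne hz2.symm hszb.symm,
          swap_apply_of_ne_of_ne (Ne.symm hy2) hsyb.symm]
      have hszy : s z ≠ y := fun h => hz5 (by rw [← h, hs])
      have e3 : (swap y (s y) * swap z (s z)) y = s y := by
        rw [Perm.mul_apply, swap_apply_of_ne_of_ne hz4.symm hszy.symm, swap_apply_left]
      have e4 : (swap y (s y) * swap z (s z)) (s1 y) = s1 y := by
        rw [Perm.mul_apply, swap_apply_of_ne_of_ne hc2 hc3, swap_apply_of_ne_of_ne (hmv1 y hy4) hc1]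
      rw [← hs1def, ← hb, e1, e2, e3, e4] at h2
      have h3 := hs1 g hg f (s y) hbf (hmv1 _ hsy4)
      rw [← hs1def, ← hb] at h3
      have h4 := trans _ _ _ _ _ _ (symm _ _ _ _ h2) h3
      have h5 := uniq _ _ _ (Ne.symm hc1) (hmv1 _ hsy4).symm h4
      have h6 := s1.injective h5
      exact hmv y hy1 h6.symm
    obtain ⟨z, hz⟩ := exists_not_mem_finset ({f, b, s b, y, s y} : Finset Y)
      ((Finset.card_le_five).trans_lt (by omega))
    simp only [Finset.mem_insert, Finset.mem_singleton, not_or] at hz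
    obtain ⟨hz1, hz2, hz3, hz4, hz5⟩ := hz
    obtain ⟨w, hw⟩ := exists_not_mem_finset (insert z (insert (s z) ({f, b, s b, y, s y} : Finset Y)))
      (by
        have h1 := Finset.card_insert_le z (insert (s z) ({f, b, s b, y, s y} : Finset Y))
        have h2 := Finset.card_insert_le (s z) ({f, b, s b, y, s y} : Finset Y)
        have h3 : ({f, b, s b, y, s y} : Finset Y).card ≤ 5 := Finset.card_le_five
        omega)
    simp only [Finset.mem_insert, Finset.mem_singleton, not_or] at hw
    obtain ⟨hw8, hw9, hw1, hw2, hw3, hw4, hw5⟩ := hw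
    have hk : s1 y = s y := by
      rcases key z hz1 hz2 hz3 hz4 hz5 with h | h | h
      · exact h
      · rcases key w hw1 hw2 hw3 hw4 hw5 with h' | h' | h'
        · exact h'
        · exact absurd (h'.symm.trans h) hw8
        · exfalso; apply hw9
          rw [← h, h', hs]
      · rcases key w hw1 hw2 hw3 hw4 hw5 with h' | h' | h'
        · exact h'
        · exact absurd (h'.symm.trans h) hw9
        · exfalso; apply hw8
          exact s.injective (h'.symm.trans h)
    -- now `s` and `s1` agree on all points moved by both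
    have hag : ∀ z, z ≠ f → z ≠ f1 → s z = s1 z := fun z hz hz' =>
      agree g hg y z (hmv y hy1) (hmv z hz) (hmv1 z hz') hk.symm
    have h1 : s f1 ≠ f := by
      intro h; apply hf1; rw [← hs f1, h, hf]
    have h2 : s f1 ≠ f1 := hmv f1 hf1
    have h3 := hag (s f1) h1 h2
    rw [hs] at h3
    apply h2
    apply s1.injective
    rw [← h3, hs1f1]
  · -- no fixed point
    push Not at hf
    by_cases hcomm : ∀ g ∈ R, g * s * g⁻¹ = s
    · -- blocks of size two
      exfalso
      obtain ⟨y, -⟩ := exists_not_mem_finset (∅ : Finset Y) (by simp; omega)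
      have hblock : MulAction.IsBlock R ({y, s y} : Set Y) := by
        have himg : ∀ g : R, g • ({y, s y} : Set Y) = {g.1 y, s (g.1 y)} := by
          rintro ⟨g, hg⟩
          rw [← Set.image_smul, Set.image_pair]
          have h1 : g (s y) = s (g y) := by
            have := congrArg (fun σ : Perm Y => σ (g y)) (hcomm g hg)
            simpa using this
          show ({g y, g (s y)} : Set Y) = {g y, s (g y)}
          rw [h1]
        intro g₁ g₂ hne
        rw [himg, himg] at hne ⊢
        rw [Set.disjoint_left]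
        intro x hx hx'
        apply hne
        simp only [Set.mem_insert_iff, Set.mem_singleton_iff] at hx hx'
        rcases hx with rfl | hx <;> rcases hx' with hx' | hx'
        · rw [hx']
        · rw [hx', hs, Set.pair_comm]
        · rw [← hx', hx, hs, Set.pair_comm]
        · rw [s.injective (hx.symm.trans hx')]
      have := hprim.isTrivialBlock_of_isBlock hblock
      rcases this with h | h
      · exact hf y (h (by simp) (by simp))
      · obtain ⟨z, hz⟩ := exists_not_mem_finset ({y, s y} : Finset Y)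
          (Finset.card_le_two.trans_lt (by omega))
        apply hz
        have : z ∈ ({y, s y} : Set Y) := by rw [h]; trivial
        simpa using this
    · push Not at hcomm
      obtain ⟨g0, hg0, hne0⟩ := hcomm
      have key : ∀ g ∈ R, g * s * g⁻¹ ≠ s → ∀ a y z, y ≠ a → y ≠ s a → y ≠ (g * s * g⁻¹) a →
          y ≠ s ((g * s * g⁻¹) a) → z ≠ a → z ≠ s a → z ≠ (g * s * g⁻¹) a →
          z ≠ s ((g * s * g⁻¹) a) → z ≠ y → z ≠ s y →
          ((g * s * g⁻¹) y = z ∨ (g * s * g⁻¹) y = s z) ∧
            s ((g * s * g⁻¹) y) = (g * s * g⁻¹) (s y) := by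
        intro g hg hne a y z hya hya' hyb hyb' hza hza' hzb hzb' hzy hzy'
        set s1 := g * s * g⁻¹ with hs1def
        have hmv1 : ∀ y, s1 y ≠ y := by
          intro y h
          apply hf (g⁻¹ y)
          rw [hs1def] at h
          simp only [Perm.mul_apply] at h
          rw [Perm.eq_inv_iff_eq]; exact h
        have hdiff : ∀ z, s z ≠ s1 z := by
          intro z hz
          apply hne
          ext w
          exact (agree g hg z w (hf z) (hf w) (hmv1 w) hz).symm
        set b := s1 a with hb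
        have ht : swap y (s y) * swap z (s z) ∈ R := hcl y z (hf y) (hf z)
        have h1 := hs1 g hg a y (hmv1 a) (hmv1 y)
        have h2 := conj _ ht _ _ _ _ h1
        have hsya : s y ≠ a := fun h => hya' (by rw [← h, hs])
        have hsza : s z ≠ a := fun h => hza' (by rw [← h, hs])
        have hsyb : s y ≠ b := fun h => hyb' (by rw [← h, hs])
        have hszb : s z ≠ b := fun h => hzb' (by rw [← h, hs])
        have hszy : s z ≠ y := fun h => hzy' (by rw [← h, hs])
        have e1 : (swap y (s y) * swap z (s z)) a = a := by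
          rw [Perm.mul_apply, swap_apply_of_ne_of_ne hza.symm hsza.symm,
            swap_apply_of_ne_of_ne hya.symm hsya.symm]
        have e2 : (swap y (s y) * swap z (s z)) b = b := by
          rw [Perm.mul_apply, swap_apply_of_ne_of_ne hzb.symm hszb.symm,
            swap_apply_of_ne_of_ne hyb.symm hsyb.symm]
        have e3 : (swap y (s y) * swap z (s z)) y = s y := by
          rw [Perm.mul_apply, swap_apply_of_ne_of_ne hzy.symm hszy.symm, swap_apply_left]
        rw [← hs1def, ← hb, e1, e2, e3] at h2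
        have h3 := hs1 g hg a (s y) (hmv1 a) (hmv1 _)
        rw [← hs1def, ← hb] at h3
        have h4 := trans _ _ _ _ _ _ (symm _ _ _ _ h2) h3
        have hyt : s y ≠ (swap y (s y) * swap z (s z)) (s1 y) := by
          intro h
          exact hmv1 y ((swap y (s y) * swap z (s z)).injective (e3.trans h)).symm
        have h5 := uniq _ _ _ hyt (hmv1 _).symm h4
        have h6 : s1 y = z ∨ s1 y = s z := by
          by_contra hcc
          push Not at hcc
          rw [Perm.mul_apply, swap_apply_of_ne_of_ne hcc.1 hcc.2,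
            swap_apply_of_ne_of_ne (hmv1 y) (hdiff y).symm] at h5
          exact hf y (s1.injective h5).symm
        refine ⟨h6, ?_⟩
        rw [← h5]
        rcases h6 with h | h
        · rw [h, Perm.mul_apply, swap_apply_left, swap_apply_of_ne_of_ne hszy]
          intro h'; exact hzy (s.injective h')
        · rw [h, hs, Perm.mul_apply, swap_apply_right, swap_apply_of_ne_of_ne hzy hzy']
      rcases h8.eq_or_lt with h8' | h8'
      · -- degree 8
        have hsR : s ∈ R := by
          obtain ⟨y, -⟩ := exists_not_mem_finset (∅ : Finset Y) (by simp; omega)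
          obtain ⟨z, hz⟩ := exists_not_mem_finset ({y, s y} : Finset Y)
            (Finset.card_le_two.trans_lt (by omega))
          simp only [Finset.mem_insert, Finset.mem_singleton, not_or] at hz
          obtain ⟨w, hw⟩ := exists_not_mem_finset ({y, s y, z, s z} : Finset Y)
            (Finset.card_le_four.trans_lt (by omega))
          simp only [Finset.mem_insert, Finset.mem_singleton, not_or] at hw
          obtain ⟨u, hu⟩ := exists_not_mem_finset ({y, s y, z, s z, w, s w} : Finset Y)
            (Finset.card_le_six.trans_lt (by omega))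
          simp only [Finset.mem_insert, Finset.mem_singleton, not_or] at hu
          have f4 : ∀ a b : Y, b ≠ a → b ≠ s a → a ≠ b ∧ a ≠ s b ∧ s a ≠ b ∧ s a ≠ s b :=
            fun a b h1 h2 => ⟨h1.symm, fun h => h2 (by rw [h, hs]), h2.symm,
              fun h => h1 (s.injective h).symm⟩
          obtain ⟨a1, a2, a3, a4⟩ := f4 y z hz.1 hz.2
          obtain ⟨b1, b2, b3, b4⟩ := f4 y w hw.1 hw.2.1
          obtain ⟨c1, c2, c3, c4⟩ := f4 z w hw.2.2.1 hw.2.2.2
          obtain ⟨d1, d2, d3, d4⟩ := f4 y u hu.1 hu.2.1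
          obtain ⟨e1, e2, e3, e4⟩ := f4 z u hu.2.2.1 hu.2.2.2.1
          obtain ⟨g1, g2, g3, g4⟩ := f4 w u hu.2.2.2.2.1 hu.2.2.2.2.2
          have hnd : [y, s y, z, s z, w, s w, u, s u].Nodup := by
            simp only [List.nodup_cons, List.mem_cons, List.not_mem_nil, or_false, not_or,
              not_false_eq_true, List.nodup_nil, and_true]
            exact ⟨⟨(hf y).symm, a1, a2, b1, b2, d1, d2⟩, ⟨a3, a4, b3, b4, d3, d4⟩,
              ⟨(hf z).symm, c1, c2, e1, e2⟩, ⟨c3, c4, e3, e4⟩, ⟨(hf w).symm, g1, g2⟩, ⟨g3, g4⟩,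
              (hf u).symm⟩
          have hall : ∀ x, x = y ∨ x = s y ∨ x = z ∨ x = s z ∨ x = w ∨ x = s w ∨ x = u ∨ x = s u := by
            intro x
            have huniv : [y, s y, z, s z, w, s w, u, s u].toFinset = Finset.univ := by
              apply Finset.eq_univ_of_card
              rw [List.toFinset_card_of_nodup hnd]
              exact h8'
            have : x ∈ [y, s y, z, s z, w, s w, u, s u].toFinset := by
              rw [huniv]; exact Finset.mem_univ _
            simpa using this
          have hprod : s = (swap y (s y) * swap z (s z)) * (swap w (s w) * swap u (s u)) := by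
            ext x
            rw [Perm.mul_apply, Perm.mul_apply, Perm.mul_apply]
            rcases hall x with rfl | rfl | rfl | rfl | rfl | rfl | rfl | rfl
            · rw [swap_apply_of_ne_of_ne d1 d2, swap_apply_of_ne_of_ne b1 b2,
                swap_apply_of_ne_of_ne a1 a2, swap_apply_left]
            · rw [swap_apply_of_ne_of_ne d3 d4, swap_apply_of_ne_of_ne b3 b4,
                swap_apply_of_ne_of_ne a3 a4, swap_apply_right, hs]
            · rw [swap_apply_of_ne_of_ne e1 e2, swap_apply_of_ne_of_ne c1 c2,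
                swap_apply_left, swap_apply_of_ne_of_ne a2.symm a4.symm]
            · rw [swap_apply_of_ne_of_ne e3 e4, swap_apply_of_ne_of_ne c3 c4,
                swap_apply_right, swap_apply_of_ne_of_ne a1.symm a3.symm, hs]
            · rw [swap_apply_of_ne_of_ne g1 g2, swap_apply_left,
                swap_apply_of_ne_of_ne c2.symm c4.symm, swap_apply_of_ne_of_ne b2.symm b4.symm]
            · rw [swap_apply_of_ne_of_ne g3 g4, swap_apply_right,
                swap_apply_of_ne_of_ne c1.symm c3.symm, swap_apply_of_ne_of_ne b1.symm b3.symm, hs]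
            · rw [swap_apply_left, swap_apply_of_ne_of_ne g2.symm g4.symm,
                swap_apply_of_ne_of_ne e2.symm e4.symm, swap_apply_of_ne_of_ne d2.symm d4.symm]
            · rw [swap_apply_right, swap_apply_of_ne_of_ne g1.symm g3.symm,
                swap_apply_of_ne_of_ne e1.symm e3.symm, swap_apply_of_ne_of_ne d1.symm d3.symm, hs]
          rw [hprod]
          exact R.mul_mem (hcl _ _ (hf _) (hf _)) (hcl _ _ (hf _) (hf _))
        obtain ⟨g, hg, hne⟩ := hcon h8'.symm hsR hf
        apply hne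
        by_cases hgs : g * s * g⁻¹ = s
        · rw [hgs]
        ext y
        obtain ⟨a, ha⟩ := exists_not_mem_finset
          ({y, s y, (g * s * g⁻¹) y, (g * s * g⁻¹) (s y)} : Finset Y)
          (Finset.card_le_four.trans_lt (by omega))
        simp only [Finset.mem_insert, Finset.mem_singleton, not_or] at ha
        obtain ⟨ha1, ha2, ha3, ha4⟩ := ha
        obtain ⟨z, hz⟩ := exists_not_mem_finset
          ({a, s a, (g * s * g⁻¹) a, s ((g * s * g⁻¹) a), y, s y} : Finset Y)
          (Finset.card_le_six.trans_lt (by omega))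
        simp only [Finset.mem_insert, Finset.mem_singleton, not_or] at hz
        obtain ⟨hz1, hz2, hz3, hz4, hz5, hz6⟩ := hz
        have := (key g hg hgs a y z (Ne.symm ha1) (fun h => ha2 (by rw [h, hs]))
          (fun h => ha3 (by rw [h, hs1inv])) (fun h => ha4 (by rw [h, hs, hs1inv]))
          hz1 hz2 hz3 hz4 hz5 hz6).2
        rw [Perm.mul_apply, Perm.mul_apply]
        exact this
      · -- degree at least 9
        obtain ⟨a, -⟩ := exists_not_mem_finset (∅ : Finset Y) (by simp; omega)
        obtain ⟨y, hy⟩ := exists_not_mem_finset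
          ({a, s a, (g0 * s * g0⁻¹) a, s ((g0 * s * g0⁻¹) a)} : Finset Y)
          (Finset.card_le_four.trans_lt (by omega))
        simp only [Finset.mem_insert, Finset.mem_singleton, not_or] at hy
        obtain ⟨hy1, hy2, hy3, hy4⟩ := hy
        obtain ⟨z, hz⟩ := exists_not_mem_finset
          ({a, s a, (g0 * s * g0⁻¹) a, s ((g0 * s * g0⁻¹) a), y, s y} : Finset Y)
          (Finset.card_le_six.trans_lt (by omega))
        simp only [Finset.mem_insert, Finset.mem_singleton, not_or] at hz
        obtain ⟨hz1, hz2, hz3, hz4, hz5, hz6⟩ := hz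
        obtain ⟨w, hw⟩ := exists_not_mem_finset (insert z (insert (s z)
          ({a, s a, (g0 * s * g0⁻¹) a, s ((g0 * s * g0⁻¹) a), y, s y} : Finset Y)))
          (by
            have h1 := Finset.card_insert_le z (insert (s z)
              ({a, s a, (g0 * s * g0⁻¹) a, s ((g0 * s * g0⁻¹) a), y, s y} : Finset Y))
            have h2 := Finset.card_insert_le (s z)
              ({a, s a, (g0 * s * g0⁻¹) a, s ((g0 * s * g0⁻¹) a), y, s y} : Finset Y)
            have h3 : ({a, s a, (g0 * s * g0⁻¹) a, s ((g0 * s * g0⁻¹) a), y, s y} : Finset Y).card ≤ 6 :=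
              Finset.card_le_six
            omega)
        simp only [Finset.mem_insert, Finset.mem_singleton, not_or] at hw
        obtain ⟨hw8, hw9, hw1, hw2, hw3, hw4, hw5, hw6⟩ := hw
        have h1 := (key g0 hg0 hne0 a y z hy1 hy2 hy3 hy4 hz1 hz2 hz3 hz4 hz5 hz6).1
        have h2 := (key g0 hg0 hne0 a y w hy1 hy2 hy3 hy4 hw1 hw2 hw3 hw4 hw5 hw6).1
        rcases h1 with h | h <;> rcases h2 with h' | h'
        · exact hw8 (h'.symm.trans h)
        · apply hw9; rw [← h, h', hs]
        · exact hw9 (h'.symm.trans h)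
        · exact hw8 (s.injective (h'.symm.trans h))

end Cfsg.Agent.H247
end

-- part: S2928
section
set_option autoImplicit false
set_option linter.style.haveILetI false
open Cfsg

namespace Cfsg.Agent.S2928

open Equiv Equiv.Perm Subgroup Cfsg.Agent.H247

/-- a block of four points with its regular four-group -/
theorem smallTrans_four {X : Type*} [DecidableEq X] {H : Subgroup (Perm X)} {b0 b1 b2 b3 : X}
    (h01 : b0 ≠ b1) (h02 : b0 ≠ b2) (h03 : b0 ≠ b3) (h12 : b1 ≠ b2) (h13 : b1 ≠ b3) (h23 : b2 ≠ b3)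
    (hv1 : swap b0 b1 * swap b2 b3 ∈ H) (hv2 : swap b0 b2 * swap b1 b3 ∈ H) :
    SmallTrans H.subtype {b0, b1, b2, b3} := by
  have h4 : ({b0, b1, b2, b3} : Set X).ncard = 4 := by
    rw [Set.ncard_insert_of_notMem, Set.ncard_insert_of_notMem, Set.ncard_pair h23]
    · simp [h12, h13]
    · simp [h01, h02, h03]
  refine ⟨by omega, by omega, ?_⟩
  have hv3 : (swap b0 b1 * swap b2 b3) * (swap b0 b2 * swap b1 b3) ∈ H := H.mul_mem hv1 hv2
  have hf : ∀ c, c ∉ ({b0, b1, b2, b3} : Set X) →
      (swap b0 b1 * swap b2 b3) c = c ∧ (swap b0 b2 * swap b1 b3) c = c ∧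
      ((swap b0 b1 * swap b2 b3) * (swap b0 b2 * swap b1 b3)) c = c := by
    intro c hc
    simp only [Set.mem_insert_iff, Set.mem_singleton_iff, not_or] at hc
    obtain ⟨h0, h1, h2, h3⟩ := hc
    have e1 : (swap b0 b1 * swap b2 b3) c = c := by
      rw [Perm.mul_apply, swap_apply_of_ne_of_ne h2 h3, swap_apply_of_ne_of_ne h0 h1]
    have e2 : (swap b0 b2 * swap b1 b3) c = c := by
      rw [Perm.mul_apply, swap_apply_of_ne_of_ne h1 h3, swap_apply_of_ne_of_ne h0 h2]
    refine ⟨e1, e2, ?_⟩
    rw [Perm.mul_apply, e2, e1]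
  have p0 : (swap b0 b1 * swap b2 b3) b0 = b1 := by
    rw [Perm.mul_apply, swap_apply_of_ne_of_ne h02 h03, swap_apply_left]
  have p1 : (swap b0 b1 * swap b2 b3) b1 = b0 := by
    rw [Perm.mul_apply, swap_apply_of_ne_of_ne h12 h13, swap_apply_right]
  have p2 : (swap b0 b1 * swap b2 b3) b2 = b3 := by
    rw [Perm.mul_apply, swap_apply_left, swap_apply_of_ne_of_ne h03.symm h13.symm]
  have p3 : (swap b0 b1 * swap b2 b3) b3 = b2 := by
    rw [Perm.mul_apply, swap_apply_right, swap_apply_of_ne_of_ne h02.symm h12.symm]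
  have q0 : (swap b0 b2 * swap b1 b3) b0 = b2 := by
    rw [Perm.mul_apply, swap_apply_of_ne_of_ne h01 h03, swap_apply_left]
  have q2 : (swap b0 b2 * swap b1 b3) b2 = b0 := by
    rw [Perm.mul_apply, swap_apply_of_ne_of_ne h12.symm h23, swap_apply_right]
  have q1 : (swap b0 b2 * swap b1 b3) b1 = b3 := by
    rw [Perm.mul_apply, swap_apply_left, swap_apply_of_ne_of_ne h03.symm h23.symm]
  have q3 : (swap b0 b2 * swap b1 b3) b3 = b1 := by
    rw [Perm.mul_apply, swap_apply_right, swap_apply_of_ne_of_ne h01.symm h12]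
  have r0 : ((swap b0 b1 * swap b2 b3) * (swap b0 b2 * swap b1 b3)) b0 = b3 := by
    rw [Perm.mul_apply, q0, p2]
  have r1 : ((swap b0 b1 * swap b2 b3) * (swap b0 b2 * swap b1 b3)) b1 = b2 := by
    rw [Perm.mul_apply, q1, p3]
  have r2 : ((swap b0 b1 * swap b2 b3) * (swap b0 b2 * swap b1 b3)) b2 = b1 := by
    rw [Perm.mul_apply, q2, p0]
  have r3 : ((swap b0 b1 * swap b2 b3) * (swap b0 b2 * swap b1 b3)) b3 = b0 := by
    rw [Perm.mul_apply, q3, p1]
  intro a ha b hb hab
  simp only [Set.mem_insert_iff, Set.mem_singleton_iff] at ha hb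
  rcases ha with rfl | rfl | rfl | rfl <;> rcases hb with rfl | rfl | rfl | rfl
  · exact absurd rfl hab
  · exact ⟨⟨_, hv1⟩, p0, fun c hc => (hf c hc).1⟩
  · exact ⟨⟨_, hv2⟩, q0, fun c hc => (hf c hc).2.1⟩
  · exact ⟨⟨_, hv3⟩, r0, fun c hc => (hf c hc).2.2⟩
  · exact ⟨⟨_, hv1⟩, p1, fun c hc => (hf c hc).1⟩
  · exact absurd rfl hab
  · exact ⟨⟨_, hv3⟩, r1, fun c hc => (hf c hc).2.2⟩
  · exact ⟨⟨_, hv2⟩, q1, fun c hc => (hf c hc).2.1⟩
  · exact ⟨⟨_, hv2⟩, q2, fun c hc => (hf c hc).2.1⟩
  · exact ⟨⟨_, hv3⟩, r2, fun c hc => (hf c hc).2.2⟩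
  · exact absurd rfl hab
  · exact ⟨⟨_, hv1⟩, p2, fun c hc => (hf c hc).1⟩
  · exact ⟨⟨_, hv3⟩, r3, fun c hc => (hf c hc).2.2⟩
  · exact ⟨⟨_, hv2⟩, q3, fun c hc => (hf c hc).2.1⟩
  · exact ⟨⟨_, hv1⟩, p3, fun c hc => (hf c hc).1⟩
  · exact absurd rfl hab

/-- permutations preserving each block of 4 and the system of blocks of 2 -/
def U (n : ℕ) : Subgroup (Perm (Fin n)) where
  carrier := {σ | (∀ x, (σ x).1 / 4 = x.1 / 4) ∧ ∀ x y, x.1 / 2 = y.1 / 2 ↔ (σ x).1 / 2 = (σ y).1 / 2}
  mul_mem' := by
    intro a b ha hb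
    refine ⟨fun x => ?_, fun x y => ?_⟩
    · rw [Perm.mul_apply, ha.1, hb.1]
    · rw [Perm.mul_apply, Perm.mul_apply, hb.2, ha.2]
  one_mem' := ⟨fun _ => rfl, fun _ _ => Iff.rfl⟩
  inv_mem' := by
    intro a ha
    refine ⟨fun x => ?_, fun x y => ?_⟩
    · have := ha.1 (a⁻¹ x)
      have h1 : a (a⁻¹ x) = x := a.apply_symm_apply x
      rw [h1] at this
      exact this.symm
    · have := ha.2 (a⁻¹ x) (a⁻¹ y)
      have h1 : a (a⁻¹ x) = x := a.apply_symm_apply x
      have h2 : a (a⁻¹ y) = y := a.apply_symm_apply y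
      rw [h1, h2] at this
      exact this.symm

theorem mem_U {n : ℕ} {σ : Perm (Fin n)} : σ ∈ U n ↔ (∀ x, (σ x).1 / 4 = x.1 / 4) ∧
    ∀ x y, x.1 / 2 = y.1 / 2 ↔ (σ x).1 / 2 = (σ y).1 / 2 := Iff.rfl

theorem U_pow {n : ℕ} {σ : Perm (Fin n)} (hσ : σ ∈ U n) : σ ^ 4 = 1 := by
  obtain ⟨h1, h2⟩ := mem_U.1 hσ
  -- the square fixes the blocks of size two
  have h3 : ∀ x, (σ (σ x)).1 / 2 = x.1 / 2 := by
    intro x
    have a1 := h1 x
    have a2 := h1 (σ x)
    have a3 := h2 x (σ x)
    omega
  have h4 : ∀ x, σ (σ (σ (σ x))) = x := by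
    intro x
    by_cases hx : σ (σ x) = x
    · rw [hx, hx]
    · have b1 := h3 x
      have b2 := h3 (σ (σ x))
      have b3 : σ (σ (σ (σ x))) ≠ σ (σ x) := by
        intro h
        exact hx (σ.injective (σ.injective h))
      rw [Fin.ext_iff] at hx
      rw [ne_eq, Fin.ext_iff] at b3
      apply Fin.ext
      omega
  ext x
  have : (σ ^ 4) x = σ (σ (σ (σ x))) := rfl
  rw [this, h4]
  rfl

theorem U_pgroup (n : ℕ) : IsPGroup 2 ((U n).comap (alternatingGroup (Fin n)).subtype) := by
  intro x
  refine ⟨2, ?_⟩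
  apply Subtype.ext
  apply Subtype.ext
  exact U_pow x.2

theorem swap_div {n : ℕ} {a b : Fin n} (h : a.1 / 2 = b.1 / 2) (x : Fin n) :
    (swap a b x).1 / 2 = x.1 / 2 := by
  rw [swap_apply_def]
  split_ifs with h1 h2
  · rw [h1, h]
  · rw [h2, h]
  · rfl

theorem swap_mul_swap_mem {n : ℕ} {a b c d : Fin n} (h : a.1 / 2 = b.1 / 2)
    (h' : c.1 / 2 = d.1 / 2) : swap a b * swap c d ∈ U n := by
  have h1 : ∀ x, ((swap a b * swap c d) x).1 / 2 = x.1 / 2 := by
    intro x
    rw [Perm.mul_apply, swap_div h, swap_div h']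
  rw [mem_U]
  refine ⟨fun x => ?_, fun x y => ?_⟩
  · have := h1 x; omega
  · rw [h1, h1]

/-- the second involution of the four-group on the `q`-th block of size four -/
def sq (n q : ℕ) (h : 4 * q + 3 < n) : Perm (Fin n) :=
  swap ⟨4 * q, by omega⟩ ⟨4 * q + 2, by omega⟩ * swap ⟨4 * q + 1, by omega⟩ ⟨4 * q + 3, h⟩

theorem sq_apply (n q : ℕ) (h : 4 * q + 3 < n) (x : Fin n) :
    (sq n q h x).1 = if x.1 / 4 = q then (if x.1 / 2 = 2 * q then x.1 + 2 else x.1 - 2) else x.1 := by
  rw [sq, Perm.mul_apply, swap_apply_def (⟨4 * q + 1, by omega⟩ : Fin n)]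
  split_ifs with a1 a2 a3 a4 a5 a6 a7 a8 a9
  all_goals simp only [Fin.ext_iff] at *
  all_goals try (exfalso; omega)
  all_goals rw [swap_apply_def]
  all_goals split_ifs with c1 c2
  all_goals simp only [Fin.ext_iff] at *
  all_goals omega

theorem sq_mem (n q : ℕ) (h : 4 * q + 3 < n) : sq n q h ∈ U n := by
  rw [mem_U]
  refine ⟨fun x => ?_, fun x y => ?_⟩
  · rw [sq_apply]
    split_ifs <;> omega
  · rw [sq_apply, sq_apply]
    split_ifs <;> omega

/-- the partner -/
def par {n : ℕ} (x : Fin n) : Fin n :=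
  if h : x.1 % 2 = 0 then (if h' : x.1 + 1 < n then ⟨x.1 + 1, h'⟩ else x)
  else ⟨x.1 - 1, by have := x.2; omega⟩

theorem par_div {n : ℕ} (x : Fin n) : (par x).1 / 2 = x.1 / 2 := by
  unfold par
  split_ifs with h h'
  · simp only; omega
  · rfl
  · simp only; omega

theorem par_par {n : ℕ} (x : Fin n) : par (par x) = x := by
  by_cases h : x.1 % 2 = 0
  · by_cases h' : x.1 + 1 < n
    · have e : par x = ⟨x.1 + 1, h'⟩ := by rw [par, dif_pos h, dif_pos h']
      rw [e, par, dif_neg (by simp only; omega)]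
      apply Fin.ext
      simp
    · have e : par x = x := by rw [par, dif_pos h, dif_neg h']
      rw [e, e]
  · have e : par x = ⟨x.1 - 1, by have := x.2; omega⟩ := by rw [par, dif_neg h]
    rw [e, par, dif_pos (by simp only; omega), dif_pos (by have := x.2; simp only; omega)]
    apply Fin.ext
    simp only
    omega

theorem par_fix {n : ℕ} (x y : Fin n) (hx : par x = x) (hy : par y = y) : x = y := by
  have key : ∀ x : Fin n, par x = x → x.1 + 1 = n := by
    intro x hx
    have h2 := x.2
    rw [par] at hx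
    split_ifs at hx with h h'
    · exfalso
      have := congrArg Fin.val hx
      simp at this
    · omega
    · exfalso
      have := congrArg Fin.val hx
      simp only at this
      omega
  have h1 := key x hx
  have h2 := key y hy
  apply Fin.ext
  omega

/-- Let n ≥ 8 and let H be a subgroup of the symmetric group of degree n whose generalized Fitting subgroup F*(H) is quasisimple. If H contains a Sylow 2-subgroup of the alternating group of degree n, then F*(H) is isomorphic to an alternating group of degree m for some m ∈ {n − 3, n − 2, n − 1, n}. -/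
theorem result (n : ℕ) (hn : 8 ≤ n) (H : Subgroup (Equiv.Perm (Fin n))) (hF : Cfsg.IsQuasisimple ↥(Cfsg.generalizedFittingSubgroup ↥H)) (hS : ∃ P : Sylow 2 ↥(alternatingGroup (Fin n)), ((P : Subgroup ↥(alternatingGroup (Fin n))).map (alternatingGroup (Fin n)).subtype) ≤ H) : ∃ m : ℕ, (m = n - 3 ∨ m = n - 2 ∨ m = n - 1 ∨ m = n) ∧ Nonempty (↥(Cfsg.generalizedFittingSubgroup ↥H) ≃* ↥(alternatingGroup (Fin m))) := by
  classical
  obtain ⟨P, hP⟩ := hS
  obtain ⟨γ, hγ⟩ := exists_conj_mem P (U_pgroup n)
  obtain ⟨g, hgA⟩ := γ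
  have hg : ∀ σ ∈ U n, sign σ = 1 → g * σ * g⁻¹ ∈ H := by
    intro σ hσ hs
    apply hP
    exact ⟨_, hγ ⟨σ, mem_alternatingGroup.2 hs⟩ hσ, rfl⟩
  have hQS := qs_of_quasisimple hF
  have hinj : Function.Injective H.subtype := H.subtype_injective
  -- products of two transpositions
  have hmem : ∀ a b c d : Fin n, a ≠ b → c ≠ d → swap a b * swap c d ∈ U n →
      swap (g a) (g b) * swap (g c) (g d) ∈ H := by
    intro a b c d hab hcd h
    have h1 := hg _ h (by rw [Perm.sign_mul, sign_swap hab, sign_swap hcd]; rfl)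
    rw [swap_apply_apply, swap_apply_apply]
    convert h1 using 1
    group
  have hpair : ∀ a b c d : Fin n, a ≠ b → c ≠ d → a.1 / 2 = b.1 / 2 → c.1 / 2 = d.1 / 2 →
      swap (g a) (g b) * swap (g c) (g d) ∈ H :=
    fun a b c d hab hcd h1 h2 => hmem a b c d hab hcd (swap_mul_swap_mem h1 h2)
  have hne : ∀ (a b : ℕ) (ha : a < n) (hb : b < n), a ≠ b → (⟨a, ha⟩ : Fin n) ≠ ⟨b, hb⟩ := by
    intro a b ha hb hab h
    rw [Fin.mk.injEq] at h
    exact hab h
  have hsm : ∀ (q : ℕ) (h : 4 * q + 3 < n), SmallTrans H.subtype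
      {g ⟨4 * q, by omega⟩, g ⟨4 * q + 1, by omega⟩, g ⟨4 * q + 2, by omega⟩, g ⟨4 * q + 3, h⟩} := by
    intro q h
    have hne' : ∀ (a b : ℕ) (ha : a < n) (hb : b < n), a ≠ b →
      g ⟨a, ha⟩ ≠ g ⟨b, hb⟩ := fun a b ha hb hab h => hne a b ha hb hab (g.injective h)
    refine smallTrans_four (hne' _ _ _ _ (by omega)) (hne' _ _ _ _ (by omega))
      (hne' _ _ _ _ (by omega)) (hne' _ _ _ _ (by omega)) (hne' _ _ _ _ (by omega))
      (hne' _ _ _ _ (by omega)) ?_ ?_
    · exact hpair _ _ _ _ (hne _ _ _ _ (by omega)) (hne _ _ _ _ (by omega))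
        (by simp only; omega) (by simp only; omega)
    · exact hmem _ _ _ _ (hne _ _ _ _ (by omega)) (hne _ _ _ _ (by omega)) (sq_mem n q h)
  obtain ⟨D, hD, hDinj, hDtr, hDB⟩ := hQS.exists_delta hinj (hsm 0 (by omega))
  have hs0 := (hsm 0 (by omega)).restr hD (hDB _ (hsm 0 (by omega)))
  have h5 := hQS.five_le hDinj
  haveI : Nonempty D := by
    by_contra hc
    rw [not_nonempty_iff] at hc
    simp at h5
  have hprim := hQS.isPreprimitive hDinj (by
    intro x y
    obtain ⟨k, hk, hkx⟩ := hDtr x x.2 y y.2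
    exact ⟨k, hk, Subtype.ext hkx⟩) hs0
  -- the degree
  have hcard : D.ncard ≤ n ∧ 4 * (n / 4) ≤ D.ncard := by
    constructor
    · have := Set.ncard_le_card (s := D)
      simpa using this
    · have hsub : g '' {i : Fin n | i.1 < 4 * (n / 4)} ⊆ D := by
        rintro _ ⟨i, hi, rfl⟩
        rw [Set.mem_ofPred_eq] at hi
        have hq : 4 * (i.1 / 4) + 3 < n := by omega
        apply hDB _ (hsm (i.1 / 4) hq)
        simp only [Set.mem_insert_iff, Set.mem_singleton_iff, EmbeddingLike.apply_eq_iff_eq,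
          Fin.ext_iff]
        omega
      have h1 := Set.ncard_le_ncard hsub
      rw [Set.ncard_image_of_injective _ g.injective] at h1
      have h2 : {i : Fin n | i.1 < 4 * (n / 4)}.ncard = 4 * (n / 4) := by
        have : {i : Fin n | i.1 < 4 * (n / 4)} =
            Set.range (fun j : Fin (4 * (n / 4)) => (⟨j.1, by have := j.2; omega⟩ : Fin n)) := by
          ext i
          simp only [Set.mem_ofPred_eq, Set.mem_range]
          constructor
          · intro h; exact ⟨⟨i.1, h⟩, rfl⟩
          · rintro ⟨j, rfl⟩; exact j.2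
        rw [this, ← Set.image_univ, Set.ncard_image_of_injective, Set.ncard_univ]
        · simp
        · intro a b hab
          rw [Fin.mk.injEq] at hab
          exact Fin.ext hab
      omega
  refine ⟨D.ncard, by omega, ?_⟩
  -- partners stay in `D`
  have hpar : ∀ i : Fin n, g i ∈ D → g (par i) ∈ D := by
    intro i hi
    by_cases hpi : par i = i
    · rw [hpi]; exact hi
    obtain ⟨c, d, hcd, hcd2, hci⟩ : ∃ c d : Fin n, c ≠ d ∧ c.1 / 2 = d.1 / 2 ∧ c.1 / 2 ≠ i.1 / 2 := by
      by_cases h0 : i.1 / 2 = 0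
      · exact ⟨⟨2, by omega⟩, ⟨3, by omega⟩, hne _ _ _ _ (by omega), by norm_num, by simp only; omega⟩
      · exact ⟨⟨0, by omega⟩, ⟨1, by omega⟩, hne _ _ _ _ (by omega), by norm_num, by simp only; omega⟩
    have h1 := hpair i (par i) c d (Ne.symm hpi) hcd (par_div i).symm hcd2
    have h2 := hD ⟨_, h1⟩ _ hi
    have h3 : (swap (g i) (g (par i)) * swap (g c) (g d)) (g i) = g (par i) := by
      have hc' : g i ≠ g c := by intro h; apply hci; rw [g.injective h]
      have hd' : g i ≠ g d := by intro h; apply hci; rw [g.injective h]; exact hcd2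
      rw [Perm.mul_apply, swap_apply_of_ne_of_ne hc' hd', swap_apply_left]
    rw [← h3]; exact h2
  let f : D → D := fun y => ⟨g (par (g.symm y)), hpar _ (by rw [g.apply_symm_apply]; exact y.2)⟩
  have hf : Function.Involutive f := by
    intro y
    apply Subtype.ext
    show g (par (g.symm (g (par (g.symm y))))) = y
    rw [g.symm_apply_apply, par_par, g.apply_symm_apply]
  let s : Perm D := hf.toPerm
  have hsf : ∀ y, s y = f y := fun y => rfl
  haveI : Fintype D := Fintype.ofFinite D
  have hD8 : 8 ≤ Fintype.card D := by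
    rw [← Nat.card_eq_fintype_card, Nat.card_coe_set_eq]
    omega
  rcases three_cycle_of_matching _ hprim s hf
    (by
      intro y z hy hz
      have hy' : g (par (g.symm y)) = y := congrArg Subtype.val hy
      have hz' : g (par (g.symm z)) = z := congrArg Subtype.val hz
      have h1 := par_fix (g.symm y) (g.symm z) (by rw [← g.injective.eq_iff, hy', g.apply_symm_apply])
        (by rw [← g.injective.eq_iff, hz', g.apply_symm_apply])
      exact Subtype.ext (g.symm.injective h1))
    (by
      intro y z hy hz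
      have hy' : par (g.symm y) ≠ g.symm y := by
        intro h
        apply hy
        apply Subtype.ext
        show g (par (g.symm y)) = y
        rw [h, g.apply_symm_apply]
      have hz' : par (g.symm z) ≠ g.symm z := by
        intro h
        apply hz
        apply Subtype.ext
        show g (par (g.symm z)) = z
        rw [h, g.apply_symm_apply]
      refine ⟨⟨_, hpair (g.symm y) (par (g.symm y)) (g.symm z) (par (g.symm z)) (Ne.symm hy')
        (Ne.symm hz') (par_div _).symm (par_div _).symm⟩, ?_⟩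
      ext w
      rw [restr_apply, Perm.mul_apply, coe_swap, coe_swap, hsf, hsf]
      show ((swap (g (g.symm y)) (g (par (g.symm y))) *
        swap (g (g.symm z)) (g (par (g.symm z)))) (w : Fin n) : Fin n).1 = _
      rw [g.apply_symm_apply, g.apply_symm_apply]
      rfl) hD8 with h3 | h8
  · -- three-cycle
    obtain ⟨c, hc, hc3⟩ := h3
    have hle := alternatingGroup_le_of_isPreprimitive_of_isThreeCycle_mem hprim hc3 hc
    refine hQS.equiv_alternating hDinj _ rfl h5 ?_
    intro i1 i2
    convert hle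
  · -- degree eight
    exfalso
    obtain ⟨-, ⟨g0, hg0⟩, hsfix, hcomm⟩ := h8
    have hN : (normalClosure ({g0} : Set H)) = ⊥ := by
      refine hQS.abelian_normal_eq_bot hDinj hprim inferInstance ?_
      rw [normalClosure]
      apply closure_commute
      intro a ha b hb
      rw [Group.mem_conjugatesOfSet_iff] at ha hb
      obtain ⟨a', ha', ha⟩ := ha
      obtain ⟨b', hb', hb⟩ := hb
      rw [Set.mem_singleton_iff] at ha' hb'
      rw [isConj_iff, ha'] at ha
      rw [isConj_iff, hb'] at hb
      obtain ⟨x, rfl⟩ := ha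
      obtain ⟨y, rfl⟩ := hb
      apply hDinj
      have h1 := hcomm (restr H.subtype D hD (x⁻¹ * y)) ⟨_, rfl⟩
      rw [← hg0] at h1
      simp only [← map_mul, ← map_inv] at h1
      have h2 := hDinj h1
      congr 1
      calc x * g0 * x⁻¹ * (y * g0 * y⁻¹) = x * (g0 * (x⁻¹ * y * g0 * (x⁻¹ * y)⁻¹)) * x⁻¹ := by group
        _ = x * (x⁻¹ * y * g0 * (x⁻¹ * y)⁻¹ * g0) * x⁻¹ := by rw [h2]
        _ = _ := by group
    have h1 : g0 ∈ normalClosure ({g0} : Set H) := subset_normalClosure rfl
    rw [hN, Subgroup.mem_bot] at h1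
    rw [h1, map_one] at hg0
    obtain ⟨y⟩ := ‹Nonempty D›
    apply hsfix y
    rw [← hg0]
    rfl

end Cfsg.Agent.S2928
end
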