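import Cfsg.Statements.S2929
import Cfsg.Agent.H247.PermQS
set_option linter.all false

set_option autoImplicit false
set_option linter.style.haveILetI false
open Cfsg

namespace Cfsg.Agent.S2929

open Equiv Equiv.Perm Subgroup Cfsg.Agent.H247

theorem smallTrans_three {X : Type*} [DecidableEq X] {H : Subgroup (Perm X)} {x y z : X}
    (hxy : x ≠ y) (hxz : x ≠ z) (hyz : y ≠ z) (hτ : swap x y * swap x z ∈ H) :
    SmallTrans H.subtype {x, y, z} := by
  have h3 : ({x, y, z} : Set X).ncard = 3 := by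
    rw [Set.ncard_eq_three]
    exact ⟨x, y, z, hxy, hxz, hyz, rfl⟩
  refine ⟨by omega, by omega, ?_⟩
  have hi : swap x z * swap x y ∈ H := by
    have := H.inv_mem hτ
    simpa using this
  have hf : ∀ c, c ∉ ({x, y, z} : Set X) →
      (swap x y * swap x z) c = c ∧ (swap x z * swap x y) c = c := by
    intro c hc
    simp only [Set.mem_insert_iff, Set.mem_singleton_iff, not_or] at hc
    obtain ⟨h1, h2, h3⟩ := hc
    simp [swap_apply_of_ne_of_ne, h1, h2, h3]
  have e1 : (swap x y * swap x z) x = z := by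
    simp [swap_apply_of_ne_of_ne hxz.symm hyz.symm]
  have e2 : (swap x y * swap x z) z = y := by simp
  have e3 : (swap x y * swap x z) y = x := by
    simp [swap_apply_of_ne_of_ne hxy.symm hyz]
  have f1 : (swap x z * swap x y) z = x := by
    simp [swap_apply_of_ne_of_ne hxz.symm hyz.symm]
  have f2 : (swap x z * swap x y) y = z := by simp
  have f3 : (swap x z * swap x y) x = y := by
    simp [swap_apply_of_ne_of_ne hxy.symm hyz]
  intro a ha b hb hab
  simp only [Set.mem_insert_iff, Set.mem_singleton_iff] at ha hb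
  rcases ha with rfl | rfl | rfl <;> rcases hb with rfl | rfl | rfl
  · exact absurd rfl hab
  · exact ⟨⟨_, hi⟩, f3, fun c hc => (hf c hc).2⟩
  · exact ⟨⟨_, hτ⟩, e1, fun c hc => (hf c hc).1⟩
  · exact ⟨⟨_, hτ⟩, e3, fun c hc => (hf c hc).1⟩
  · exact absurd rfl hab
  · exact ⟨⟨_, hi⟩, f2, fun c hc => (hf c hc).2⟩
  · exact ⟨⟨_, hi⟩, f1, fun c hc => (hf c hc).2⟩
  · exact ⟨⟨_, hτ⟩, e2, fun c hc => (hf c hc).1⟩
  · exact absurd rfl hab

/-- the three-cycle on the `q`-th block -/
def cyc (n q : ℕ) (h : 3 * q + 2 < n) : Perm (Fin n) :=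
  swap ⟨3 * q, by omega⟩ ⟨3 * q + 1, by omega⟩ * swap ⟨3 * q, by omega⟩ ⟨3 * q + 2, h⟩

theorem cyc_isThreeCycle (n q : ℕ) (h : 3 * q + 2 < n) : (cyc n q h).IsThreeCycle := by
  apply isThreeCycle_swap_mul_swap_same <;> simp [Fin.ext_iff]

theorem cyc_fix (n q : ℕ) (h : 3 * q + 2 < n) (x : Fin n) (hx : x.1 / 3 ≠ q) :
    cyc n q h x = x := by
  have h0 : x ≠ ⟨3 * q, by omega⟩ := by
    intro hc; apply hx; rw [hc]; simp
  have h1 : x ≠ ⟨3 * q + 1, by omega⟩ := by
    intro hc; apply hx; rw [hc]; simp only; omega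
  have h2 : x ≠ ⟨3 * q + 2, by omega⟩ := by
    intro hc; apply hx; rw [hc]; simp only; omega
  rw [cyc, mul_apply, swap_apply_of_ne_of_ne h0 h2, swap_apply_of_ne_of_ne h0 h1]

theorem cyc_comm (n q r : ℕ) (h : 3 * q + 2 < n) (h' : 3 * r + 2 < n) :
    cyc n q h * cyc n r h' = cyc n r h' * cyc n q h := by
  by_cases hqr : q = r
  · subst hqr; rfl
  · have h1 : Disjoint (cyc n q h) (cyc n r h') := by
      intro x
      by_cases hx : x.1 / 3 = q
      · right
        apply cyc_fix
        omega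
      · left
        exact cyc_fix n q h x hx
    exact h1.commute

/-- the 3-group generated by the cycles -/
def E (n : ℕ) : Subgroup (Perm (Fin n)) := closure {x | ∃ q h, x = cyc n q h}

theorem E_pgroup (n : ℕ) : IsPGroup 3 (E n) := by
  intro x
  refine ⟨1, ?_⟩
  apply Subtype.ext
  apply closure_pow_eq_one (S := {x | ∃ q h, x = cyc n q h}) (p := 3 ^ 1) _ _ _ x.2
  · rintro _ ⟨q, h, rfl⟩ _ ⟨r, h', rfl⟩
    exact cyc_comm n q r h h'
  · rintro _ ⟨q, h, rfl⟩
    have := (cyc_isThreeCycle n q h).orderOf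
    rw [pow_one, ← this]
    exact pow_orderOf_eq_one _

/-- Let n ≥ 5 and let H be a subgroup of the symmetric group of degree n whose generalized Fitting subgroup F*(H) is quasisimple. If H contains a Sylow 3-subgroup of the symmetric group, then F*(H) is isomorphic to an alternating group of degree m for some m ∈ {n − 2, n − 1, n}. -/
theorem result (n : ℕ) (hn : 5 ≤ n) (H : Subgroup (Equiv.Perm (Fin n))) (hF : Cfsg.IsQuasisimple ↥(Cfsg.generalizedFittingSubgroup ↥H)) (hS : ∃ P : Sylow 3 (Equiv.Perm (Fin n)), (P : Subgroup (Equiv.Perm (Fin n))) ≤ H) : ∃ m : ℕ, (m = n - 2 ∨ m = n - 1 ∨ m = n) ∧ Nonempty (↥(Cfsg.generalizedFittingSubgroup ↥H) ≃* ↥(alternatingGroup (Fin m))) := by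
  classical
  obtain ⟨P, hP⟩ := hS
  obtain ⟨g, hg⟩ := exists_conj_mem P (E_pgroup n)
  have hQS := qs_of_quasisimple hF
  have hinj : Function.Injective H.subtype := H.subtype_injective
  -- the blocks
  have hmem : ∀ (q : ℕ) (h : 3 * q + 2 < n),
      swap (g ⟨3 * q, by omega⟩) (g ⟨3 * q + 1, by omega⟩) *
        swap (g ⟨3 * q, by omega⟩) (g ⟨3 * q + 2, h⟩) ∈ H := by
    intro q h
    have h1 := hP (hg (cyc n q h) (subset_closure ⟨q, h, rfl⟩))
    rw [swap_apply_apply, swap_apply_apply]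
    convert h1 using 1
    rw [cyc]
    group
  have hne : ∀ (q a b : ℕ) (ha : 3 * q + a < n) (hb : 3 * q + b < n), a ≠ b →
      g ⟨3 * q + a, ha⟩ ≠ g ⟨3 * q + b, hb⟩ := by
    intro q a b ha hb hab h
    have := g.injective h
    rw [Fin.mk.injEq] at this
    omega
  have hsm : ∀ (q : ℕ) (h : 3 * q + 2 < n), SmallTrans H.subtype
      {g ⟨3 * q, by omega⟩, g ⟨3 * q + 1, by omega⟩, g ⟨3 * q + 2, h⟩} := by
    intro q h
    exact smallTrans_three (hne q 0 1 _ _ (by omega)) (hne q 0 2 _ _ (by omega))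
      (hne q 1 2 _ _ (by omega)) (hmem q h)
  obtain ⟨D, hD, hDinj, hDtr, hDB⟩ := hQS.exists_delta hinj (hsm 0 (by omega))
  have hs0 := (hsm 0 (by omega)).restr hD (hDB _ (hsm 0 (by omega)))
  have h5 := hQS.five_le hDinj
  haveI : Nonempty D := by
    by_contra hc
    rw [not_nonempty_iff] at hc
    simp at h5
  have hprim := hQS.isPreprimitive hDinj (by
    intro x y
    obtain ⟨k, hk, hkx⟩ := hDtr x x.2 y y.2
    exact ⟨k, hk, Subtype.ext hkx⟩) hs0
  -- the degree
  have hcard : D.ncard = n - 2 ∨ D.ncard = n - 1 ∨ D.ncard = n := by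
    have hle : D.ncard ≤ n := by
      have := Set.ncard_le_card (s := D)
      simpa using this
    have hge : 3 * (n / 3) ≤ D.ncard := by
      have hsub : g '' {i : Fin n | i.1 < 3 * (n / 3)} ⊆ D := by
        rintro _ ⟨i, hi, rfl⟩
        rw [Set.mem_ofPred_eq] at hi
        have hq : 3 * (i.1 / 3) + 2 < n := by omega
        apply hDB _ (hsm (i.1 / 3) hq)
        simp only [Set.mem_insert_iff, Set.mem_singleton_iff, EmbeddingLike.apply_eq_iff_eq,
          Fin.ext_iff]
        omega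
      have h1 := Set.ncard_le_ncard hsub
      rw [Set.ncard_image_of_injective _ g.injective] at h1
      have h2 : {i : Fin n | i.1 < 3 * (n / 3)}.ncard = 3 * (n / 3) := by
        have : {i : Fin n | i.1 < 3 * (n / 3)} =
            Set.range (fun j : Fin (3 * (n / 3)) => (⟨j.1, by have := j.2; omega⟩ : Fin n)) := by
          ext i
          simp only [Set.mem_ofPred_eq, Set.mem_range]
          constructor
          · intro h; exact ⟨⟨i.1, h⟩, rfl⟩
          · rintro ⟨j, rfl⟩; exact j.2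
        rw [this, ← Set.image_univ, Set.ncard_image_of_injective, Set.ncard_univ]
        · simp
        · intro a b hab
          rw [Fin.mk.injEq] at hab
          exact Fin.ext hab
      omega
    omega
  refine ⟨D.ncard, hcard, ?_⟩
  refine hQS.equiv_alternating hDinj _ rfl h5 ?_
  intro _ _
  have hB0 := hDB _ (hsm 0 (by omega))
  have hx : g ⟨3 * 0, by omega⟩ ∈ D := hB0 (by simp)
  have hy : g ⟨3 * 0 + 1, by omega⟩ ∈ D := hB0 (by simp)
  have hz : g ⟨3 * 0 + 2, by omega⟩ ∈ D := hB0 (by simp)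
  refine alternatingGroup_le_of_isPreprimitive_of_isThreeCycle_mem hprim
    (g := swap ⟨_, hx⟩ ⟨_, hy⟩ * swap ⟨_, hx⟩ ⟨_, hz⟩) ?_ ?_
  · apply isThreeCycle_swap_mul_swap_same
    · intro h; exact hne 0 0 1 _ _ (by omega) (congrArg Subtype.val h)
    · intro h; exact hne 0 0 2 _ _ (by omega) (congrArg Subtype.val h)
    · intro h; exact hne 0 1 2 _ _ (by omega) (congrArg Subtype.val h)
  · refine ⟨⟨_, hmem 0 (by omega)⟩, ?_⟩
    ext w
    rw [restr_apply, mul_apply, coe_swap, coe_swap]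
    rfl

end Cfsg.Agent.S2929
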