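import Mathlib
import Cfsg.Agent.S0256
import Cfsg.Statements.S2932
set_option linter.all false

-- part: H247/NatSL
section
/-!
# Overgroups of `SL₂(q)` in the additive automorphisms of its natural module

`Γ` is a group of additive automorphisms of `F²` containing `SL₂(F)`, and a Sylow `p`-subgroup of
`Γ` normalizes `SL₂(F)`. If `|F| ≠ 4` then `Γ` normalizes `SL₂(F)`.
-/

set_option autoImplicit false
set_option linter.style.haveILetI false

namespace Cfsg.Agent.H247.NatSL

open Matrix Pointwise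

variable (F : Type*) [Field F]

/-- the additive automorphisms of `F²` -/
abbrev A : Type _ := (Fin 2 → F) ≃ₗ[ℤ] (Fin 2 → F)

/-- the action of `SL₂(F)` on column vectors -/
def act : SpecialLinearGroup (Fin 2) F →* A F where
  toFun g := (SpecialLinearGroup.toLin' g).restrictScalars ℤ
  map_one' := by
    rw [map_one]
    rfl
  map_mul' g h := by
    rw [map_mul]
    rfl

theorem act_apply (g : SpecialLinearGroup (Fin 2) F) (u : Fin 2 → F) :
    act F g u = (g : Matrix (Fin 2) (Fin 2) F) *ᵥ u := rfl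

/-- `SL₂(F)` as a group of additive automorphisms -/
def SLs : Subgroup (A F) := (act F).range

/-- the matrix with given entries -/
def mkSL (a b c d : F) (h : a * d - b * c = 1) : SpecialLinearGroup (Fin 2) F :=
  ⟨!![a, b; c, d], by rw [det_fin_two_of]; exact h⟩

theorem act_mkSL (a b c d : F) (h : a * d - b * c = 1) (u : Fin 2 → F) :
    act F (mkSL F a b c d h) u = ![a * u 0 + b * u 1, c * u 0 + d * u 1] := by
  rw [act_apply]
  change !![a, b; c, d] *ᵥ u = _
  ext i
  fin_cases i <;> simp [mulVec, dotProduct, Fin.sum_univ_two]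

/-- the transvections fixing the first basis vector -/
def tr (c : F) : SpecialLinearGroup (Fin 2) F := mkSL F 1 c 0 1 (by ring)

theorem act_tr (c : F) (u : Fin 2 → F) : act F (tr F c) u = ![u 0 + c * u 1, u 1] := by
  rw [tr, act_mkSL]
  simp

theorem act_tr_eq (c : F) (u : Fin 2 → F) : act F (tr F c) u = u + ![c * u 1, 0] := by
  rw [act_tr]
  ext i
  fin_cases i <;> simp

/-- the root group -/
def Q : Subgroup (A F) where
  carrier := {g | ∃ c, g = act F (tr F c)}
  one_mem' := ⟨0, by
    apply LinearEquiv.ext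
    intro u
    ext i
    rw [act_tr]
    fin_cases i <;> simp⟩
  mul_mem' := by
    rintro _ _ ⟨c, rfl⟩ ⟨d, rfl⟩
    refine ⟨c + d, ?_⟩
    apply LinearEquiv.ext
    intro u
    ext i
    rw [LinearEquiv.mul_apply, act_tr, act_tr, act_tr]
    fin_cases i
    · simp; ring
    · simp
  inv_mem' := by
    rintro _ ⟨c, rfl⟩
    refine ⟨-c, ?_⟩
    rw [inv_eq_iff_mul_eq_one]
    apply LinearEquiv.ext
    intro u
    ext i
    rw [LinearEquiv.mul_apply, act_tr, act_tr]
    fin_cases i <;> simp

theorem mem_Q {g : A F} : g ∈ Q F ↔ ∃ c, g = act F (tr F c) := Iff.rfl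

theorem Q_le : Q F ≤ SLs F := by
  rintro _ ⟨c, rfl⟩
  exact ⟨_, rfl⟩

/-- the first coordinate axis -/
def W : AddSubgroup (Fin 2 → F) where
  carrier := {u | u 1 = 0}
  zero_mem' := rfl
  add_mem' {u v} hu hv := by
    change u 1 + v 1 = 0
    rw [show u 1 = 0 from hu, show v 1 = 0 from hv, add_zero]
  neg_mem' {u} hu := by
    change - u 1 = 0
    rw [show u 1 = 0 from hu, neg_zero]

theorem mem_W {u : Fin 2 → F} : u ∈ W F ↔ u 1 = 0 := Iff.rfl

variable {F}

theorem exists_sl {u : Fin 2 → F} (hu : u ≠ 0) :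
    ∃ g : SpecialLinearGroup (Fin 2) F, act F g ![1, 0] = u := by
  by_cases h0 : u 0 = 0
  · have h1 : u 1 ≠ 0 := by
      intro h1
      apply hu
      ext i
      fin_cases i <;> simp [h0, h1]
    refine ⟨mkSL F 0 (-(u 1)⁻¹) (u 1) 0 (by simp [h1]), ?_⟩
    rw [act_mkSL]
    ext i
    fin_cases i <;> simp [h0]
  · refine ⟨mkSL F (u 0) 0 (u 1) (u 0)⁻¹ (by simp [h0]), ?_⟩
    rw [act_mkSL]
    ext i
    fin_cases i <;> simp

/-- additive maps commuting with `SL₂(F)` are scalar -/
theorem exists_scalar (T : (Fin 2 → F) →+ (Fin 2 → F))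
    (hT : ∀ g : SpecialLinearGroup (Fin 2) F, ∀ u, T (act F g u) = act F g (T u)) :
    ∃ b : F, ∀ u, T u = b • u := by
  have h1 : act F (tr F 1) ![1, 0] = ![1, 0] := by
    rw [act_tr]
    ext i
    fin_cases i <;> simp
  have h2 : (T ![1, 0]) 1 = 0 := by
    have h3 := hT (tr F 1) ![1, 0]
    rw [h1, act_tr] at h3
    have h4 := congrFun h3 0
    simpa using h4
  refine ⟨(T ![1, 0]) 0, fun u => ?_⟩
  by_cases hu : u = 0
  · rw [hu, map_zero, smul_zero]
  obtain ⟨g, hg⟩ := exists_sl hu
  have h3 : T ![1, 0] = (T ![1, 0]) 0 • ![1, 0] := by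
    ext i
    fin_cases i <;> simp [h2]
  rw [← hg, hT, h3, act_apply, act_apply, mulVec_smul]
  simp

/-- elements of the normalizer of `SL₂(F)` are semilinear -/
theorem exists_ringAut {n : A F} (hn : n ∈ Subgroup.normalizer (SLs F : Set (A F))) :
    ∃ σ : RingAut F, ∀ (a : F) (u : Fin 2 → F), n (a • u) = σ a • n u := by
  have h1 : ∀ a : F, ∃ b : F, ∀ u : Fin 2 → F, n (a • n⁻¹ u) = b • u := by
    intro a
    let T : (Fin 2 → F) →+ (Fin 2 → F) :=
      { toFun := fun u => n (a • n⁻¹ u)
        map_zero' := by simp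
        map_add' := fun u v => by simp }
    apply exists_scalar T
    intro g u
    have h2 : n⁻¹ * act F g * n ∈ SLs F := by
      have h3 := (Subgroup.mem_normalizer_iff.1 (inv_mem hn) (act F g)).1 ⟨g, rfl⟩
      simpa using h3
    obtain ⟨g', hg'⟩ := h2
    have h3 : ∀ v, n⁻¹ (act F g (n v)) = act F g' v := by
      intro v
      rw [hg']
      rfl
    have h4 : ∀ v, act F g (n v) = n (act F g' v) := by
      intro v
      rw [← h3]
      exact (n.apply_symm_apply _).symm
    change n (a • n⁻¹ (act F g u)) = act F g (n (a • n⁻¹ u))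
    rw [h4]
    congr 1
    have h5 : n⁻¹ (act F g u) = act F g' (n⁻¹ u) := by
      rw [← h3]
      congr 2
      exact (n.apply_symm_apply _).symm
    rw [h5, act_apply, act_apply, mulVec_smul]
  choose b hb using h1
  have hinj : ∀ {x y : F}, (∀ u : Fin 2 → F, x • u = y • u) → x = y := by
    intro x y hxy
    have := congrFun (hxy ![1, 0]) 0
    simpa using this
  have hn1 : ∀ v, n (n⁻¹ v) = v := fun v => n.apply_symm_apply v
  have hn2 : ∀ v, n⁻¹ (n v) = v := fun v => n.symm_apply_apply v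
  have hb0 : ∀ a u, n (a • u) = b a • n u := by
    intro a u
    rw [← hb a (n u), hn2]
  have hinj' : Function.Injective b := by
    intro x y hxy
    apply hinj
    intro u
    apply n.injective
    rw [hb0, hb0, hxy]
  have hsurj : Function.Surjective b := by
    intro c
    -- apply the first part to `n⁻¹`
    let T : (Fin 2 → F) →+ (Fin 2 → F) :=
      { toFun := fun u => n⁻¹ (c • n u)
        map_zero' := by simp
        map_add' := fun u v => by simp }
    obtain ⟨a, ha⟩ := exists_scalar T (by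
      intro g u
      have h2 : n * act F g * n⁻¹ ∈ SLs F :=
        (Subgroup.mem_normalizer_iff.1 hn (act F g)).1 ⟨g, rfl⟩
      obtain ⟨g', hg'⟩ := h2
      have h3 : ∀ v, n (act F g (n⁻¹ v)) = act F g' v := by
        intro v
        rw [hg']
        rfl
      have h4 : ∀ v, n (act F g v) = act F g' (n v) := by
        intro v
        rw [← h3, hn2]
      change n⁻¹ (c • n (act F g u)) = act F g (n⁻¹ (c • n u))
      apply n.injective
      rw [hn1, h4, h4, hn1, act_apply, act_apply, mulVec_smul])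
    refine ⟨a, hinj fun u => ?_⟩
    rw [← hb a u, ← ha (n⁻¹ u)]
    change n (n⁻¹ (c • n (n⁻¹ u))) = _
    rw [hn1, hn1]
  let σ : RingAut F :=
    { toFun := b
      invFun := Function.surjInv hsurj
      left_inv := fun x => hinj' (Function.surjInv_eq hsurj _)
      right_inv := fun x => Function.surjInv_eq hsurj x
      map_mul' := fun x y => by
        apply hinj
        intro u
        rw [← hb, mul_smul, mul_smul, hb0, hb]
      map_add' := fun x y => by
        apply hinj
        intro u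
        rw [← hb, add_smul, add_smul, map_add, hb, hb] }
  exact ⟨σ, hb0⟩

theorem scalar_inj {x y : F} (h : ∀ u : Fin 2 → F, x • u = y • u) : x = y := by
  have := congrFun (h ![1, 0]) 0
  simpa using this

/-- the field automorphism attached to an element of the normalizer -/
noncomputable def sig : Subgroup.normalizer (SLs F : Set (A F)) →* RingAut F :=
  MonoidHom.mk' (fun n => (exists_ringAut n.2).choose) (by
    intro n m
    apply RingEquiv.ext
    intro a
    apply scalar_inj
    intro u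
    obtain ⟨v, rfl⟩ := (n * m : Subgroup.normalizer (SLs F : Set (A F))).1.surjective u
    rw [← (exists_ringAut (n * m).2).choose_spec]
    change n.1 (m.1 (a • v)) = (exists_ringAut n.2).choose ((exists_ringAut m.2).choose a) • n.1 (m.1 v)
    rw [(exists_ringAut m.2).choose_spec, (exists_ringAut n.2).choose_spec])

theorem sig_spec (n : Subgroup.normalizer (SLs F : Set (A F))) (a : F) (u : Fin 2 → F) :
    n.1 (a • u) = sig n a • n.1 u := (exists_ringAut n.2).choose_spec a u

theorem sig_eq_one_iff (n : Subgroup.normalizer (SLs F : Set (A F))) :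
    sig n = 1 ↔ ∀ (a : F) (u : Fin 2 → F), n.1 (a • u) = a • n.1 u := by
  constructor
  · intro h a u
    rw [sig_spec, h]
    rfl
  · intro h
    apply RingEquiv.ext
    intro a
    apply scalar_inj
    intro u
    obtain ⟨v, rfl⟩ := n.1.surjective u
    rw [← sig_spec, h]
    rfl

variable (F) in
theorem Q_le_normalizer : Q F ≤ Subgroup.normalizer (SLs F : Set (A F)) :=
  (Q_le F).trans Subgroup.le_normalizer

theorem act_smul (g : SpecialLinearGroup (Fin 2) F) (a : F) (u : Fin 2 → F) :
    act F g (a • u) = a • act F g u := by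
  rw [act_apply, act_apply, mulVec_smul]

theorem fix_W {x : A F} (hx : x ∈ Q F) {w : Fin 2 → F} (hw : w ∈ W F) : x w = w := by
  obtain ⟨c, rfl⟩ := hx
  rw [act_tr_eq, (mem_W F).1 hw]
  ext i
  fin_cases i <;> simp

theorem mem_W_of_fix {w : Fin 2 → F} (h : ∀ x ∈ Q F, x w = w) : w ∈ W F := by
  have h1 := congrFun (h _ ⟨1, rfl⟩) 0
  rw [act_tr] at h1
  rw [mem_W]
  simpa using h1

theorem mem_W_of_fix_ne {x : A F} (hx : x ∈ Q F) (hx1 : x ≠ 1) {w : Fin 2 → F} (h : x w = w) : w ∈ W F := by
  obtain ⟨c, rfl⟩ := hx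
  have hc : c ≠ 0 := by
    rintro rfl
    apply hx1
    apply LinearEquiv.ext
    intro u
    rw [act_tr_eq]
    ext i
    fin_cases i <;> simp
  have h1 := congrFun h 0
  rw [act_tr] at h1
  rw [mem_W]
  simpa [hc] using h1

theorem exists_Q {u w : Fin 2 → F} (hu : u ∉ W F) (hw : w ∈ W F) : ∃ x ∈ Q F, x u = u + w := by
  have hu' : u 1 ≠ 0 := hu
  refine ⟨_, ⟨w 0 / u 1, rfl⟩, ?_⟩
  rw [act_tr_eq]
  congr 1
  ext i
  fin_cases i
  · simp [hu']
  · simp [(mem_W F).1 hw]

/-- the transvections with axis `Y` -/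
def Rt (Y : AddSubgroup (Fin 2 → F)) : Subgroup (A F) where
  carrier := {r | (∀ w ∈ Y, r w = w) ∧ ∀ u, r u - u ∈ Y}
  one_mem' := ⟨fun w _ => rfl, fun u => by
    change u - u ∈ Y
    rw [sub_self]
    exact Y.zero_mem⟩
  mul_mem' := by
    rintro r s ⟨hr1, hr2⟩ ⟨hs1, hs2⟩
    refine ⟨fun w hw => ?_, fun u => ?_⟩
    · rw [LinearEquiv.mul_apply, hs1 w hw, hr1 w hw]
    · rw [LinearEquiv.mul_apply, ← sub_add_sub_cancel _ (s u)]
      exact Y.add_mem (hr2 _) (hs2 _)
  inv_mem' := by
    rintro r ⟨hr1, hr2⟩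
    have h1 : ∀ u, r (r⁻¹ u) = u := fun u => r.apply_symm_apply u
    refine ⟨fun w hw => ?_, fun u => ?_⟩
    · apply r.injective
      rw [h1, hr1 w hw]
    · have h2 := hr2 (r⁻¹ u)
      rw [h1] at h2
      rw [← neg_sub]
      exact Y.neg_mem h2

theorem Rt_pow {Y : AddSubgroup (Fin 2 → F)} {r : A F} (hr : r ∈ Rt Y) (n : ℕ) (u : Fin 2 → F) :
    (r ^ n) u = u + n • (r u - u) := by
  induction n with
  | zero => simp
  | succ n ih =>
    rw [pow_succ', LinearEquiv.mul_apply, ih, map_add, map_nsmul, hr.1 _ (hr.2 u)]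
    rw [succ_nsmul]
    abel

theorem Rt_pow_char {p : ℕ} [CharP F p] {Y : AddSubgroup (Fin 2 → F)} {r : A F} (hr : r ∈ Rt Y) :
    r ^ p = 1 := by
  apply LinearEquiv.ext
  intro u
  rw [Rt_pow hr]
  have h1 : p • (r u - u) = 0 := by
    ext i
    simp
  rw [h1, add_zero]
  rfl

theorem Rt_isPGroup {p : ℕ} [CharP F p] (Y : AddSubgroup (Fin 2 → F)) : IsPGroup p (Rt Y) := by
  intro r
  refine ⟨1, ?_⟩
  rw [pow_one]
  exact Subtype.ext (Rt_pow_char r.2)

theorem mem_smul_iff {g : A F} {Y : AddSubgroup (Fin 2 → F)} {u : Fin 2 → F} :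
    u ∈ g • Y ↔ g⁻¹ u ∈ Y := AddSubgroup.mem_pointwise_smul_iff_inv_smul_mem

theorem apply_mem_smul_iff {g : A F} {Y : AddSubgroup (Fin 2 → F)} {u : Fin 2 → F} :
    g u ∈ g • Y ↔ u ∈ Y := AddSubgroup.smul_mem_pointwise_smul_iff

theorem inv_apply (g : A F) (u : Fin 2 → F) : g⁻¹ (g u) = u := g.symm_apply_apply u

theorem apply_inv (g : A F) (u : Fin 2 → F) : g (g⁻¹ u) = u := g.apply_symm_apply u

theorem mem_Rt_smul {g r : A F} {Y : AddSubgroup (Fin 2 → F)} :
    r ∈ Rt (g • Y) ↔ g⁻¹ * r * g ∈ Rt Y := by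
  constructor
  · rintro ⟨h1, h2⟩
    refine ⟨fun w hw => ?_, fun u => ?_⟩
    · rw [LinearEquiv.mul_apply, LinearEquiv.mul_apply, h1 _ (apply_mem_smul_iff.2 hw), inv_apply]
    · rw [LinearEquiv.mul_apply, LinearEquiv.mul_apply, ← apply_mem_smul_iff (g := g), map_sub,
        apply_inv]
      exact h2 _
  · rintro ⟨h1, h2⟩
    refine ⟨fun w hw => ?_, fun u => ?_⟩
    · have h3 := h1 _ (mem_smul_iff.1 hw)
      rw [LinearEquiv.mul_apply, LinearEquiv.mul_apply, apply_inv] at h3
      have h4 := congrArg g h3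
      rwa [apply_inv, apply_inv] at h4
    · have h3 := h2 (g⁻¹ u)
      rw [LinearEquiv.mul_apply, LinearEquiv.mul_apply, apply_inv] at h3
      rw [mem_smul_iff, map_sub]
      exact h3

/-- the hypotheses on `Γ` and its Sylow subgroup `S` -/
structure Setup (p : ℕ) (Γ S : Subgroup (A F)) : Prop where
  hL : SLs F ≤ Γ
  hSG : S ≤ Γ
  hSp : IsPGroup p S
  hmax : ∀ T : Subgroup (A F), T ≤ Γ → IsPGroup p T → Nat.card T ≤ Nat.card S
  hQS : Q F ≤ S
  hSN : S ≤ Subgroup.normalizer (SLs F : Set (A F))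

section

variable [Finite F] {p : ℕ} [Fact p.Prime] [CharP F p] {Γ S : Subgroup (A F)}

instance instFiniteA : Finite (A F) := by
  haveI : Finite ((Fin 2 → F) → (Fin 2 → F)) := inferInstance
  exact Finite.of_injective (fun f : A F => (f : (Fin 2 → F) → (Fin 2 → F))) DFunLike.coe_injective

omit [Finite F] in
theorem sig_one_of_mem_Q {x : A F} (hx : x ∈ Q F) : sig ⟨x, Q_le_normalizer F hx⟩ = 1 := by
  rw [sig_eq_one_iff]
  obtain ⟨c, rfl⟩ := hx
  intro a u
  exact act_smul _ _ _

omit [Finite F] in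
theorem eq_one_of_pow_char_pow (p : ℕ) [Fact p.Prime] [CharP F p] {d : F} {k : ℕ} (h : d ^ p ^ k = 1) :
    d = 1 := by
  have h1 : (d - 1) ^ p ^ k = 0 := by
    rw [sub_pow_char_pow, h, one_pow, sub_self]
  have h2 := pow_eq_zero_iff (pow_ne_zero k (Fact.out : p.Prime).ne_zero) |>.1 h1
  exact sub_eq_zero.1 h2

/-- the linear elements of `S` are in `Q` -/
theorem mem_Q_of_sig (H : Setup p Γ S) {s : A F} (hs : s ∈ S) (h : sig ⟨s, H.hSN hs⟩ = 1) :
    s ∈ Q F := by
  -- the linear elements of `S`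
  let K : Subgroup (A F) :=
    { carrier := {x | x ∈ S ∧ ∀ (a : F) (u : Fin 2 → F), x (a • u) = a • x u}
      one_mem' := ⟨one_mem _, fun a u => rfl⟩
      mul_mem' := by
        rintro x y ⟨hx, hx'⟩ ⟨hy, hy'⟩
        refine ⟨mul_mem hx hy, fun a u => ?_⟩
        rw [LinearEquiv.mul_apply, LinearEquiv.mul_apply, hy', hx']
      inv_mem' := by
        rintro x ⟨hx, hx'⟩
        refine ⟨inv_mem hx, fun a u => ?_⟩
        apply x.injective
        rw [hx', apply_inv, apply_inv] }
  have hKp : IsPGroup p K := H.hSp.to_le (fun x hx => hx.1)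
  have hQK : Q F ≤ K := by
    intro x hx
    refine ⟨H.hQS hx, ?_⟩
    obtain ⟨c, rfl⟩ := hx
    exact fun a u => act_smul _ _ _
  have hsK : s ∈ K := ⟨hs, (sig_eq_one_iff _).1 h⟩
  -- a fixed vector of `K`
  obtain ⟨v, hv, hv0⟩ : ∃ v : Fin 2 → F, (∀ x ∈ K, x v = v) ∧ v ≠ 0 := by
    have hcard : p ∣ Nat.card (Fin 2 → F) := by
      rw [Nat.card_fun, Nat.card_eq_fintype_card (α := Fin 2), Fintype.card_fin]
      haveI := Fintype.ofFinite F
      obtain ⟨n, hp, hn⟩ := FiniteField.card F p
      rw [Nat.card_eq_fintype_card, hn]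
      exact dvd_pow (dvd_pow_self p n.2.ne') two_ne_zero
    have h0 : (0 : Fin 2 → F) ∈ MulAction.fixedPoints K (Fin 2 → F) := by
      rintro ⟨x, hx⟩
      exact map_zero x
    obtain ⟨v, hv, hv0⟩ := hKp.exists_fixed_point_of_prime_dvd_card_of_fixed_point (Fin 2 → F) hcard h0
    exact ⟨v, fun x hx => hv ⟨x, hx⟩, fun h => hv0 h.symm⟩
  have hvW : v ∈ W F := mem_W_of_fix fun x hx => hv x (hQK hx)
  rw [mem_W] at hvW
  have hv1 : v 0 ≠ 0 := by
    intro h0
    apply hv0
    ext i
    fin_cases i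
    · exact h0
    · exact hvW
  have hv2 : v = v 0 • ![1, 0] := by
    ext i
    fin_cases i <;> simp [hvW]
  have hfix : ∀ x ∈ K, x ![1, 0] = ![1, 0] := by
    intro x hx
    have h1 := hv x hx
    rw [hv2, hx.2] at h1
    have h2 := congrArg (fun w => (v 0)⁻¹ • w) h1
    simp only [smul_smul] at h2
    rwa [inv_mul_cancel₀ hv1, one_smul, one_smul] at h2
  -- the second basis vector
  have hx1 : ∀ x ∈ K, ∀ u : Fin 2 → F, x u = ![u 0 + u 1 * (x ![0, 1]) 0, u 1 * (x ![0, 1]) 1] := by
    intro x hx u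
    have h1 : u = u 0 • ![1, 0] + u 1 • ![0, 1] := by
      ext i
      fin_cases i <;> simp
    conv_lhs => rw [h1]
    rw [map_add, hx.2, hx.2, hfix x hx]
    ext i
    fin_cases i <;> simp
  have hx2 : ∀ x ∈ K, ∀ n : ℕ, ((x ^ n) ![0, 1]) 1 = ((x ![0, 1]) 1) ^ n := by
    intro x hx n
    induction n with
    | zero => simp
    | succ n ih =>
      rw [pow_succ', LinearEquiv.mul_apply, hx1 x hx]
      change ((x ^ n) ![0, 1]) 1 * (x ![0, 1]) 1 = _
      rw [ih, pow_succ]
  have hd : (s ![0, 1]) 1 = 1 := by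
    obtain ⟨k, hk⟩ := hKp ⟨s, hsK⟩
    have h1 : s ^ p ^ k = 1 := congrArg Subtype.val hk
    apply eq_one_of_pow_char_pow p (k := k)
    rw [← hx2 s hsK, h1]
    simp
  refine ⟨(s ![0, 1]) 0, ?_⟩
  apply LinearEquiv.ext
  intro u
  rw [hx1 s hsK, act_tr, hd, mul_one, mul_comm]

/-- `S` normalizes the axis -/
theorem smul_W (H : Setup p Γ S) {s : A F} (hs : s ∈ S) : s • W F = W F := by
  have h1 : ∀ s ∈ S, ∀ w ∈ W F, s w ∈ W F := by
    intro s hs w hw
    apply mem_W_of_fix
    intro x hx
    have h2 : s⁻¹ * x * s ∈ Q F := by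
      have h3 : s⁻¹ * x * s ∈ S := mul_mem (mul_mem (inv_mem hs) (H.hQS hx)) hs
      apply mem_Q_of_sig H h3
      have h4 : (⟨s⁻¹ * x * s, H.hSN h3⟩ : Subgroup.normalizer (SLs F : Set (A F))) =
          ⟨s, H.hSN hs⟩⁻¹ * ⟨x, Q_le_normalizer F hx⟩ * ⟨s, H.hSN hs⟩ := rfl
      rw [h4, map_mul, map_mul, sig_one_of_mem_Q hx, mul_one, ← map_mul, inv_mul_cancel, map_one]
    have h3 := fix_W h2 hw
    rw [LinearEquiv.mul_apply, LinearEquiv.mul_apply] at h3
    have h4 := congrArg s h3
    rwa [apply_inv] at h4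
  ext u
  rw [mem_smul_iff]
  constructor
  · intro h
    have h2 := h1 s hs _ h
    rwa [apply_inv] at h2
  · intro h
    exact h1 _ (inv_mem hs) u h

omit [Finite F] in
theorem Q_le_Rt : Q F ≤ Rt (W F) := by
  intro x hx
  refine ⟨fun w hw => fix_W hx hw, fun u => ?_⟩
  obtain ⟨c, rfl⟩ := hx
  rw [act_tr_eq, add_sub_cancel_left, mem_W]
  simp

theorem Rt_inf (H : Setup p Γ S) : Rt (W F) ⊓ Γ = Q F := by
  apply le_antisymm
  · have hp : IsPGroup p (Rt (W F) ⊓ Γ : Subgroup (A F)) := (Rt_isPGroup (W F)).to_le inf_le_left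
    have hn : S ≤ Subgroup.normalizer ((Rt (W F) ⊓ Γ : Subgroup (A F)) : Set (A F)) := by
      intro s hs
      rw [Subgroup.mem_normalizer_iff]
      intro h
      have e1 : h ∈ Rt (W F) ↔ s * h * s⁻¹ ∈ Rt (W F) := by
        conv_rhs => rw [← smul_W H hs, mem_Rt_smul]
        rw [show s⁻¹ * (s * h * s⁻¹) * s = h by group]
      have e2 : h ∈ Γ ↔ s * h * s⁻¹ ∈ Γ := by
        constructor
        · intro hh
          exact mul_mem (mul_mem (H.hSG hs) hh) (inv_mem (H.hSG hs))
        · intro hh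
          have h3 := mul_mem (mul_mem (inv_mem (H.hSG hs)) hh) (H.hSG hs)
          rwa [show s⁻¹ * (s * h * s⁻¹) * s = h by group] at h3
      rw [Subgroup.mem_inf, Subgroup.mem_inf, e1, e2]
    have hsup : IsPGroup p (S ⊔ (Rt (W F) ⊓ Γ) : Subgroup (A F)) := H.hSp.to_sup_of_normal_right' hp hn
    have hle := H.hmax _ (sup_le H.hSG inf_le_right) hsup
    have heq : S = S ⊔ (Rt (W F) ⊓ Γ) := Subgroup.eq_of_le_of_card_ge le_sup_left hle
    have hS : Rt (W F) ⊓ Γ ≤ S := by
      conv_rhs => rw [heq]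
      exact le_sup_right
    intro r hr
    apply mem_Q_of_sig H (hS hr)
    apply RingEquiv.ext
    intro a
    have h1 := sig_spec ⟨r, H.hSN (hS hr)⟩ a ![1, 0]
    have h2 : r ![1, 0] = ![1, 0] := hr.1.1 _ (by rw [mem_W]; simp)
    have h3 : r (a • ![1, 0]) = a • ![1, 0] := hr.1.1 _ (by rw [mem_W]; simp)
    change r (a • ![1, 0]) = _ • r ![1, 0] at h1
    rw [h2, h3] at h1
    have h4 := congrFun h1 0
    simp at h4
    exact h4.symm
  · exact le_inf Q_le_Rt ((Q_le F).trans H.hL)

theorem fix_smul_W (H : Setup p Γ S) {g : A F} (hg : g ∈ Γ) {x : A F} (hx : x ∈ Rt (g • W F))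
    (hxΓ : x ∈ Γ) (hx1 : x ≠ 1) {u : Fin 2 → F} (hu : x u = u) : u ∈ g • W F := by
  have h1 : g⁻¹ * x * g ∈ Q F := by
    rw [← Rt_inf H]
    exact Subgroup.mem_inf.2 ⟨mem_Rt_smul.1 hx, mul_mem (mul_mem (inv_mem hg) hxΓ) hg⟩
  have h2 : g⁻¹ * x * g ≠ 1 := by
    intro h
    apply hx1
    have h3 : x = g * (g⁻¹ * x * g) * g⁻¹ := by group
    rw [h3, h]
    group
  rw [mem_smul_iff]
  apply mem_W_of_fix_ne h1 h2
  rw [LinearEquiv.mul_apply, LinearEquiv.mul_apply, apply_inv, hu]

omit [Finite F] [Fact p.Prime] [CharP F p] in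
theorem exists_Rt (H : Setup p Γ S) {g : A F} (hg : g ∈ Γ) {u w : Fin 2 → F} (hu : u ∉ g • W F)
    (hw : w ∈ g • W F) : ∃ x ∈ Rt (g • W F) ⊓ Γ, x u = u + w := by
  rw [mem_smul_iff] at hu hw
  obtain ⟨y, hy, hy1⟩ := exists_Q hu hw
  refine ⟨g * y * g⁻¹, Subgroup.mem_inf.2 ⟨?_, ?_⟩, ?_⟩
  · rw [mem_Rt_smul, show g⁻¹ * (g * y * g⁻¹) * g = y by group]
    exact Q_le_Rt hy
  · exact mul_mem (mul_mem hg (H.hL (Q_le F hy))) (inv_mem hg)
  · rw [LinearEquiv.mul_apply, LinearEquiv.mul_apply, hy1, map_add, apply_inv, apply_inv]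

omit [Finite F] in
theorem card_W : Nat.card (W F) = Nat.card F := by
  apply Nat.card_congr
  exact
    { toFun := fun u => u.1 0
      invFun := fun a => ⟨![a, 0], by rw [mem_W]; simp⟩
      left_inv := by
        rintro ⟨u, hu⟩
        rw [mem_W] at hu
        apply Subtype.ext
        ext i
        fin_cases i <;> simp [hu]
      right_inv := by
        intro a
        simp }

omit [Finite F] in
theorem card_smul (g : A F) (Y : AddSubgroup (Fin 2 → F)) :
    Nat.card ↥(g • Y) = Nat.card Y := by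
  apply Nat.card_congr
  exact
    { toFun := fun u => ⟨g⁻¹ u.1, mem_smul_iff.1 u.2⟩
      invFun := fun u => ⟨g u.1, apply_mem_smul_iff.2 u.2⟩
      left_inv := by
        rintro ⟨u, hu⟩
        exact Subtype.ext (apply_inv g u)
      right_inv := by
        rintro ⟨u, hu⟩
        exact Subtype.ext (inv_apply g u) }

/-- the fixed field of `σ` -/
abbrev FF (σ : RingAut F) : Subfield F := FixedPoints.subfield (Subgroup.zpowers σ) F

omit [Finite F] in
theorem mem_FF {σ : RingAut F} {a : F} (h : σ a = a) : a ∈ FF σ := by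
  rintro ⟨τ, hτ⟩
  have h1 : Subgroup.zpowers σ ≤ MulAction.stabilizer (RingAut F) a := by
    rw [Subgroup.zpowers_le]
    exact h
  exact h1 hτ

omit [CharP F p] in
theorem card_FF {σ : RingAut F} (hσ : σ ≠ 1) (hp : σ ^ p = 1) : Nat.card (FF σ) ^ p = Nat.card F := by
  haveI : Finite (RingAut F) :=
    Finite.of_injective (fun f : RingAut F => (f : F → F)) DFunLike.coe_injective
  haveI := Fintype.ofFinite (Subgroup.zpowers σ)
  have h1 := FixedPoints.finrank_eq_card (Subgroup.zpowers σ) F
  have h2 : Fintype.card (Subgroup.zpowers σ) = p := by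
    rw [← Nat.card_eq_fintype_card, Nat.card_zpowers]
    exact orderOf_eq_prime hp hσ
  have h3 : Nat.card F = Nat.card (FF σ) ^ Module.finrank (FF σ) F := Module.natCard_eq_pow_finrank
  rw [h3, h1, h2]

theorem card_bounds (H : Setup p Γ S) {g : A F} {x : A F} (hx : x ∈ Rt (g • W F))
    (hxS : x ∈ S) :
    Nat.card ↥(g • W F ⊓ W F) ≤ Nat.card (FF (sig ⟨x, H.hSN hxS⟩)) ∧
    Nat.card F ≤ Nat.card ↥(g • W F ⊓ W F) * Nat.card (FF (sig ⟨x, H.hSN hxS⟩)) := by
  set σ := sig ⟨x, H.hSN hxS⟩ with hσ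
  have hsl : ∀ (a : F) (u : Fin 2 → F), x (a • u) = σ a • x u := fun a u => sig_spec ⟨x, H.hSN hxS⟩ a u
  constructor
  · by_cases h0 : ∀ b : Fin 2 → F, b ∈ g • W F ⊓ W F → b = 0
    · have h1 : g • W F ⊓ W F = ⊥ := by
        rw [eq_bot_iff]
        intro b hb
        rw [AddSubgroup.mem_bot]
        exact h0 b hb
      rw [h1, AddSubgroup.card_bot]
      exact Nat.card_pos
    · push Not at h0
      obtain ⟨b, hb, hb0⟩ := h0
      have hb1 : b 1 = 0 := hb.2
      have hb2 : b 0 ≠ 0 := by
        intro h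
        apply hb0
        ext i
        fin_cases i
        · exact h
        · exact hb1
      have key : ∀ u ∈ g • W F ⊓ W F, u 0 / b 0 ∈ FF σ := by
        intro u hu
        apply mem_FF
        have hu1 : u 1 = 0 := hu.2
        have h1 : u = (u 0 / b 0) • b := by
          ext i
          fin_cases i
          · simp [hb2]
          · simp [hb1, hu1]
        have h2 : x u = u := hx.1 u hu.1
        have h3 : x b = b := hx.1 b hb.1
        rw [h1, hsl, h3] at h2
        have h4 := congrFun h2 0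
        simp only [Pi.smul_apply, smul_eq_mul] at h4
        exact mul_right_cancel₀ hb2 h4
      apply Nat.card_le_card_of_injective (fun u : ↥(g • W F ⊓ W F) => (⟨u.1 0 / b 0, key u.1 u.2⟩ : FF σ))
      intro u v huv
      have h1 : u.1 0 / b 0 = v.1 0 / b 0 := congrArg Subtype.val huv
      have h2 : u.1 0 = v.1 0 := by
        field_simp at h1
        exact h1
      apply Subtype.ext
      ext i
      fin_cases i
      · exact h2
      · have h3 : u.1 1 = 0 := u.2.2
        have h4 : v.1 1 = 0 := v.2.2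
        change u.1 1 = v.1 1
        rw [h3, h4]
  · -- the projection of `g • W` to the second coordinate
    let π : ↥(g • W F) →+ F :=
      { toFun := fun u => u.1 1
        map_zero' := rfl
        map_add' := fun u v => rfl }
    have h1 : Nat.card ↥(g • W F) = Nat.card π.ker * Nat.card π.range := by
      have h2 := AddSubgroup.card_mul_index π.ker
      rw [AddSubgroup.index_ker] at h2
      exact h2.symm
    have h2 : Nat.card π.ker = Nat.card ↥(g • W F ⊓ W F) := by
      apply Nat.card_congr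
      exact
        { toFun := fun u => ⟨u.1.1, u.1.2, u.2⟩
          invFun := fun u => ⟨⟨u.1, u.2.1⟩, u.2.2⟩
          left_inv := fun u => rfl
          right_inv := fun u => rfl }
    have h3 : Nat.card π.range ≤ Nat.card (FF σ) := by
      by_cases h0 : ∀ u ∈ g • W F, u 1 = 0
      · have h4 : π.range = ⊥ := by
          rw [eq_bot_iff]
          rintro _ ⟨u, rfl⟩
          rw [AddSubgroup.mem_bot]
          exact h0 u.1 u.2
        rw [h4, AddSubgroup.card_bot]
        exact Nat.card_pos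
      · push Not at h0
        obtain ⟨b, hb, hb1⟩ := h0
        have key : ∀ u ∈ g • W F, u 1 / b 1 ∈ FF σ := by
          intro u hu
          apply mem_FF
          have h4 : u - (u 1 / b 1) • b ∈ W F := by
            rw [mem_W]
            simp [hb1]
          have h5 : x (u - (u 1 / b 1) • b) ∈ W F := by
            rw [← smul_W H hxS]
            exact apply_mem_smul_iff.2 h4
          rw [map_sub, hsl, hx.1 u hu, hx.1 b hb, mem_W] at h5
          simp only [Pi.sub_apply, Pi.smul_apply, smul_eq_mul] at h5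
          rw [eq_div_iff hb1]
          exact (sub_eq_zero.1 h5).symm
        have key2 : ∀ y : π.range, y.1 / b 1 ∈ FF σ := by
          rintro ⟨y, ⟨u, rfl⟩⟩
          exact key u.1 u.2
        apply Nat.card_le_card_of_injective (fun y : π.range => (⟨y.1 / b 1, key2 y⟩ : FF σ))
        intro y z hyz
        have h4 : y.1 / b 1 = z.1 / b 1 := congrArg Subtype.val hyz
        apply Subtype.ext
        field_simp at h4
        exact h4
    rw [← card_W, ← card_smul g (W F), h1, h2]
    exact Nat.mul_le_mul_left _ h3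

theorem arith {p f k q : ℕ} (hp : 2 ≤ p) (hf : 2 ≤ f) (h1 : k ≤ f) (h2 : q ≤ k * f) (h3 : f ^ p = q) :
    p = 2 ∧ k ^ 2 = q := by
  have hp2 : p = 2 := by
    by_contra hne
    have h4 : 3 ≤ p := by omega
    have h5 : f ^ 3 ≤ f ^ p := Nat.pow_le_pow_right (by omega) h4
    have h6 : k * f ≤ f * f := Nat.mul_le_mul_right _ h1
    have h7 : f * f < f ^ 3 := by
      have : f ^ 3 = f * f * f := by ring
      rw [this]
      have : 0 < f * f := by positivity
      nlinarith
    omega
  subst hp2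
  refine ⟨rfl, ?_⟩
  have h4 : k = f := by
    apply le_antisymm h1
    by_contra hcon
    have h5 : k * f < f * f := Nat.mul_lt_mul_of_pos_right (by omega) (by omega)
    nlinarith
  rw [h4, h3]

omit [Finite F] [Fact p.Prime] in
theorem sig_pow_char (H : Setup p Γ S) {Y : AddSubgroup (Fin 2 → F)} {x : A F} (hx : x ∈ Rt Y)
    (hxS : x ∈ S) : (sig ⟨x, H.hSN hxS⟩) ^ p = 1 := by
  rw [← map_pow]
  have h1 : (⟨x, H.hSN hxS⟩ : Subgroup.normalizer (SLs F : Set (A F))) ^ p = 1 :=
    Subtype.ext (Rt_pow_char hx)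
  rw [h1, map_one]

instance instIsCyclicRingAut : IsCyclic (RingAut F) := by
  obtain ⟨p, hp⟩ := CharP.exists F
  haveI : Fact p.Prime := by
    refine ⟨?_⟩
    rcases CharP.char_is_prime_or_zero F p with h | h
    · exact h
    · subst h
      haveI := CharP.charP_to_charZero F
      exact absurd (inferInstance : Finite F) (not_finite_iff_infinite.2 inferInstance)
  letI := ZMod.algebra F p
  let e : RingAut F →* (F ≃ₐ[ZMod p] F) :=
    { toFun := fun f => AlgEquiv.ofRingEquiv (f := f) (fun r => by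
        have h1 : (f : F →+* F).comp (algebraMap (ZMod p) F) = algebraMap (ZMod p) F :=
          Subsingleton.elim _ _
        exact RingHom.congr_fun h1 r)
      map_one' := rfl
      map_mul' := fun f g => rfl }
  apply isCyclic_of_injective e
  intro f g h
  apply RingEquiv.ext
  intro a
  exact congrArg (fun k : F ≃ₐ[ZMod p] F => k a) h

theorem P0 (H : Setup p Γ S) {g : A F} (hg : g ∈ Γ) (hne : g • W F ≠ W F) {N : Subgroup (A F)}
    (hNS : N ≤ S) (hNR : N ≤ Rt (g • W F)) :
    Nat.card N ≤ p ∧ (N ≠ ⊥ → p = 2 ∧ Nat.card ↥(g • W F ⊓ W F) ^ 2 = Nat.card F) := by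
  -- a nontrivial element of `N` has a nontrivial field automorphism
  have key : ∀ x (hx : x ∈ N), sig ⟨x, H.hSN (hNS hx)⟩ = 1 → x = 1 := by
    intro x hx h
    by_contra hx1
    have hxQ : x ∈ Q F := mem_Q_of_sig H (hNS hx) h
    apply hne
    ext u
    constructor
    · intro hu
      exact mem_W_of_fix_ne hxQ hx1 ((hNR hx).1 u hu)
    · intro hu
      exact fix_smul_W H hg (hNR hx) (H.hSG (hNS hx)) hx1 (fix_W hxQ hu)
  constructor
  · let φ : N →* RingAut F := sig.comp (Subgroup.inclusion (hNS.trans H.hSN))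
    have hφ : Function.Injective φ := by
      rw [injective_iff_map_eq_one]
      intro x hx
      exact Subtype.ext (key x.1 x.2 hx)
    haveI : IsCyclic N := isCyclic_of_injective φ hφ
    obtain ⟨x, hx⟩ := IsCyclic.exists_generator (α := N)
    have h1 : orderOf x = Nat.card N := orderOf_eq_card_of_forall_mem_zpowers hx
    have h2 : x ^ p = 1 := Subtype.ext (Rt_pow_char (hNR x.2))
    rw [← h1]
    exact orderOf_le_of_pow_eq_one (Fact.out : p.Prime).pos h2
  · intro hN
    obtain ⟨⟨x, hx⟩, hx1⟩ := Subgroup.ne_bot_iff_exists_ne_one.1 hN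
    have hxS := hNS hx
    have hs1 : sig ⟨x, H.hSN hxS⟩ ≠ 1 := fun h => hx1 (Subtype.ext (key x hx h))
    obtain ⟨h1, h2⟩ := card_bounds H (hNR hx) hxS
    have h3 := card_FF hs1 (sig_pow_char H (hNR hx) hxS)
    exact arith (Fact.out : p.Prime).two_le Finite.one_lt_card h1 h2 h3

/-- the stabilizer of the axis in `Γ` -/
def Mst (Γ : Subgroup (A F)) : Subgroup (A F) := MulAction.stabilizer (A F) (W F) ⊓ Γ

theorem exists_conj_le (H : Setup p Γ S) {N : Subgroup (A F)} (hN : N ≤ Mst Γ) (hNp : IsPGroup p N) :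
    ∃ m ∈ Mst Γ, ∀ x ∈ N, m * x * m⁻¹ ∈ S := by
  have hSM : S ≤ Mst Γ := fun s hs => Subgroup.mem_inf.2 ⟨smul_W H hs, H.hSG hs⟩
  -- `S` is a Sylow subgroup of the stabilizer
  let S' : Sylow p (Mst Γ) :=
    { (S.subgroupOf (Mst Γ)) with
      isPGroup' := H.hSp.comap_subtype
      is_maximal' := by
        intro T hT hle
        have h1 : IsPGroup p (T.map (Mst Γ).subtype) := hT.map _
        have h2 : T.map (Mst Γ).subtype ≤ Γ := by
          rintro _ ⟨t, -, rfl⟩
          exact t.2.2
        have h3 := H.hmax _ h2 h1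
        have h4 : S ≤ T.map (Mst Γ).subtype := by
          intro s hs
          exact ⟨⟨s, hSM hs⟩, hle hs, rfl⟩
        have h5 := Subgroup.eq_of_le_of_card_ge h4 h3
        apply le_antisymm
        · intro t ht
          change (t : A F) ∈ S
          rw [h5]
          exact ⟨t, ht, rfl⟩
        · exact hle }
  obtain ⟨P, hP⟩ := (hNp.comap_subtype : IsPGroup p (N.subgroupOf (Mst Γ))).exists_le_sylow
  obtain ⟨m, hm⟩ := MulAction.exists_smul_eq (Mst Γ) P S'
  refine ⟨m.1, m.2, fun x hx => ?_⟩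
  have h1 : (⟨x, hN hx⟩ : Mst Γ) ∈ (P : Subgroup (Mst Γ)) := hP hx
  have h2 : m * ⟨x, hN hx⟩ * m⁻¹ ∈ (S' : Subgroup (Mst Γ)) := by
    rw [← hm, Sylow.coe_subgroup_smul]
    exact Subgroup.smul_mem_pointwise_smul _ _ _ h1
  exact h2

theorem P1 (H : Setup p Γ S) {g : A F} (hg : g ∈ Γ) (hne : g • W F ≠ W F) {N : Subgroup (A F)}
    (hNW : ∀ x ∈ N, x • W F = W F) (hNR : N ≤ Rt (g • W F)) (hNΓ : N ≤ Γ) :
    Nat.card N ≤ p ∧ (N ≠ ⊥ → p = 2 ∧ Nat.card ↥(g • W F ⊓ W F) ^ 2 = Nat.card F) := by
  have hNM : N ≤ Mst Γ := fun x hx => Subgroup.mem_inf.2 ⟨hNW x hx, hNΓ hx⟩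
  obtain ⟨m, hm, hmN⟩ := exists_conj_le H hNM ((Rt_isPGroup _).to_le hNR)
  have hmΓ : m ∈ Γ := (Subgroup.mem_inf.1 hm).2
  have hmW : m • W F = W F := (Subgroup.mem_inf.1 hm).1
  let N' : Subgroup (A F) := N.map (MulAut.conj m).toMonoidHom
  have hcard : Nat.card N' = Nat.card N :=
    Nat.card_congr (N.equivMapOfInjective _ (MulAut.conj m).injective).symm.toEquiv
  have hN'S : N' ≤ S := by
    rintro _ ⟨x, hx, rfl⟩
    exact hmN x hx
  have hN'R : N' ≤ Rt ((m * g) • W F) := by
    rintro _ ⟨x, hx, rfl⟩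
    have h1 := hNR hx
    rw [mem_Rt_smul] at h1 ⊢
    change (m * g)⁻¹ * (m * x * m⁻¹) * (m * g) ∈ _
    rw [show (m * g)⁻¹ * (m * x * m⁻¹) * (m * g) = g⁻¹ * x * g by group]
    exact h1
  have hne' : (m * g) • W F ≠ W F := by
    intro h
    apply hne
    rw [mul_smul] at h
    have h2 := congrArg (fun Y => m⁻¹ • Y) h
    simp only [inv_smul_smul] at h2
    rw [h2, inv_smul_eq_iff, hmW]
  obtain ⟨h1, h2⟩ := P0 H (mul_mem hmΓ hg) hne' hN'S hN'R
  refine ⟨hcard ▸ h1, fun hN => ?_⟩
  have hN'1 : N' ≠ ⊥ := by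
    intro h
    apply hN
    rw [← Subgroup.card_eq_one, ← hcard, h, Subgroup.card_bot]
  obtain ⟨h3, h4⟩ := h2 hN'1
  refine ⟨h3, ?_⟩
  have h5 : (m * g) • W F ⊓ W F = m • (g • W F ⊓ W F) := by
    ext u
    have h6 : u ∈ W F ↔ m⁻¹ u ∈ W F := by
      conv_lhs => rw [← hmW]
      rw [mem_smul_iff]
    rw [AddSubgroup.mem_inf, mem_smul_iff, mem_smul_iff, AddSubgroup.mem_inf, mem_smul_iff, h6,
      _root_.mul_inv_rev, LinearEquiv.mul_apply]
  rw [h5, card_smul] at h4
  exact h4

/-- distinct conjugates of the axis meet trivially -/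
theorem inf_eq_bot (H : Setup p Γ S) (h4 : Nat.card F ≠ 4) {g : A F} (hg : g ∈ Γ)
    (hne : g • W F ≠ W F) : g • W F ⊓ W F = ⊥ := by
  -- decreasing induction on the order of the intersection
  have key : ∀ n : ℕ, ∀ g ∈ Γ, g • W F ≠ W F → g • W F ⊓ W F ≠ ⊥ →
      Nat.card F - Nat.card ↥(g • W F ⊓ W F) = n → False := by
    intro n
    induction n using Nat.strong_induction_on with
    | _ n ih =>
      intro g hg hne hbot hn
      -- a vector of `W` outside `g • W`
      obtain ⟨w, hw, hwg⟩ : ∃ w ∈ W F, w ∉ g • W F := by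
        by_contra hcon
        push Not at hcon
        apply hne
        apply (AddSubgroup.eq_of_le_of_card_ge hcon _).symm
        rw [card_smul]
      -- the elements moving `w` into `w + I`
      have hx : ∀ i : ↥(g • W F ⊓ W F), ∃ x ∈ Rt (g • W F) ⊓ Γ, x w = w + i.1 :=
        fun i => exists_Rt H hg hwg i.2.1
      choose x hx1 hx2 using hx
      have hxW : ∀ i, x i • W F = W F := by
        intro i
        by_contra hcon
        have hiW : i.1 ∈ W F := i.2.2
        have hxi : ∀ j ∈ g • W F, x i j = j := fun j hj => (Subgroup.mem_inf.1 (hx1 i)).1.1 j hj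
        have hle : g • W F ⊓ W F ≤ x i • W F ⊓ W F := by
          intro j hj
          refine AddSubgroup.mem_inf.2 ⟨?_, hj.2⟩
          rw [← hxi j hj.1]
          exact apply_mem_smul_iff.2 hj.2
        have hwin : w ∈ x i • W F ⊓ W F := by
          refine AddSubgroup.mem_inf.2 ⟨?_, hw⟩
          have h1 : x i (w - i.1) = w := by
            rw [map_sub, hx2, hxi i.1 i.2.1, add_sub_cancel_right]
          rw [← h1]
          exact apply_mem_smul_iff.2 (AddSubgroup.sub_mem _ hw hiW)
        have hlt : Nat.card ↥(g • W F ⊓ W F) < Nat.card ↥(x i • W F ⊓ W F) := by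
          by_contra hge
          push Not at hge
          have h1 := AddSubgroup.eq_of_le_of_card_ge hle hge
          have h2 : w ∈ g • W F ⊓ W F := by rw [h1]; exact hwin
          exact hwg h2.1
        have hle2 : Nat.card ↥(x i • W F ⊓ W F) ≤ Nat.card F := by
          rw [← card_W (F := F)]
          exact Nat.card_le_card_of_injective _
            (AddSubgroup.inclusion_injective (inf_le_right : x i • W F ⊓ W F ≤ W F))
        refine ih (Nat.card F - Nat.card ↥(x i • W F ⊓ W F)) (by omega) (x i)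
          (Subgroup.mem_inf.1 (hx1 i)).2 hcon ?_ rfl
        intro h0
        rw [h0] at hle
        exact hbot (le_bot_iff.1 hle)
      -- the group of elements fixing `W`
      let N : Subgroup (A F) := Rt (g • W F) ⊓ Γ ⊓ MulAction.stabilizer (A F) (W F)
      obtain ⟨hN1, hN2⟩ := P1 H hg hne (N := N) (fun y hy => (Subgroup.mem_inf.1 hy).2)
        (fun y hy => (Subgroup.mem_inf.1 (Subgroup.mem_inf.1 hy).1).1)
        (fun y hy => (Subgroup.mem_inf.1 (Subgroup.mem_inf.1 hy).1).2)
      have hxN : ∀ i, x i ∈ N := fun i => Subgroup.mem_inf.2 ⟨hx1 i, hxW i⟩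
      have hcard : Nat.card ↥(g • W F ⊓ W F) ≤ Nat.card N := by
        apply Nat.card_le_card_of_injective (fun i => (⟨x i, hxN i⟩ : N))
        intro i j hij
        have h1 : x i = x j := congrArg Subtype.val hij
        have h2 := hx2 i
        rw [h1, hx2 j] at h2
        exact Subtype.ext (add_left_cancel h2).symm
      have h2 : 1 < Nat.card ↥(g • W F ⊓ W F) := by
        rw [AddSubgroup.one_lt_card_iff_ne_bot]
        exact hbot
      have hNbot : N ≠ ⊥ := by
        intro h
        rw [h, Subgroup.card_bot] at hcard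
        omega
      obtain ⟨hp, hq⟩ := hN2 hNbot
      have h3 : Nat.card ↥(g • W F ⊓ W F) = 2 := by omega
      rw [h3] at hq
      exact h4 hq.symm
  by_contra hbot
  exact key _ g hg hne hbot rfl

omit [Finite F] in
/-- `SL₂(F)` is generated by the conjugates of the root group -/
theorem SLs_le_of (K : Subgroup (A F)) (hK : ∀ g : SpecialLinearGroup (Fin 2) F, ∀ x ∈ Q F,
    act F g * x * (act F g)⁻¹ ∈ K) : SLs F ≤ K := by
  have hQ : Q F ≤ K := by
    intro x hx
    have := hK 1 x hx
    rwa [map_one, one_mul, inv_one, mul_one] at this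
  have hlow : ∀ c : F, act F (mkSL F 1 0 c 1 (by ring)) ∈ K := by
    intro c
    have h1 := hK (mkSL F 0 (-1) 1 0 (by ring)) (act F (tr F (-c))) ⟨-c, rfl⟩
    have h2 : act F (mkSL F 0 (-1) 1 0 (by ring)) * act F (tr F (-c)) * (act F (mkSL F 0 (-1) 1 0 (by ring)))⁻¹
        = act F (mkSL F 1 0 c 1 (by ring)) := by
      rw [mul_inv_eq_iff_eq_mul]
      apply LinearEquiv.ext
      intro u
      rw [LinearEquiv.mul_apply, LinearEquiv.mul_apply, act_mkSL, act_mkSL, act_mkSL, act_tr]
      ext i
      fin_cases i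
      · simp
      · simp
        ring
    rw [← h2]
    exact h1
  -- matrices with nonzero lower left entry
  have hgen : ∀ (a b c d : F) (h : a * d - b * c = 1), c ≠ 0 → act F (mkSL F a b c d h) ∈ K := by
    intro a b c d h hc
    have h1 : act F (mkSL F a b c d h) = act F (tr F ((a - 1) / c)) *
        act F (mkSL F 1 0 c 1 (by ring)) * act F (tr F ((d - 1) / c)) := by
      apply LinearEquiv.ext
      intro u
      rw [LinearEquiv.mul_apply, LinearEquiv.mul_apply, act_mkSL, act_mkSL, act_tr, act_tr]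
      have hb : b = (a * d - 1) / c := by
        field_simp
        linear_combination -h
      ext i
      fin_cases i
      · simp
        rw [hb]
        field_simp
        ring
      · simp
        field_simp
        ring
    rw [h1]
    exact mul_mem (mul_mem (hQ ⟨_, rfl⟩) (hlow c)) (hQ ⟨_, rfl⟩)
  rintro _ ⟨g, rfl⟩
  have hg : g = mkSL F (g.1 0 0) (g.1 0 1) (g.1 1 0) (g.1 1 1) (by
      have h1 := g.2
      rw [det_fin_two] at h1
      exact h1) := by
    apply Subtype.ext
    ext i j
    fin_cases i <;> fin_cases j <;> rfl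
  by_cases hc : g.1 1 0 = 0
  · have hdet : g.1 0 0 * g.1 1 1 - g.1 0 1 * g.1 1 0 = 1 := by
      have h1 := g.2
      rw [det_fin_two] at h1
      exact h1
    have ha : g.1 0 0 ≠ 0 := by
      intro ha
      rw [ha, hc] at hdet
      simp at hdet
    have h1 : act F g = (act F (mkSL F 1 0 1 1 (by ring)))⁻¹ *
        act F (mkSL F (g.1 0 0) (g.1 0 1) (g.1 0 0 + g.1 1 0) (g.1 0 1 + g.1 1 1)
          (by linear_combination hdet)) := by
      rw [eq_inv_mul_iff_mul_eq]
      apply LinearEquiv.ext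
      intro u
      conv_lhs => rw [hg]
      rw [LinearEquiv.mul_apply, act_mkSL, act_mkSL, act_mkSL]
      ext i
      fin_cases i
      · simp
      · simp
        ring
    rw [h1]
    apply mul_mem (inv_mem (hlow 1))
    apply hgen
    rw [hc, add_zero]
    exact ha
  · rw [hg]
    exact hgen _ _ _ _ _ hc

/-- **Main theorem away from `q = 4`.** -/
theorem normalizes (H : Setup p Γ S) (h4 : Nat.card F ≠ 4) :
    Γ ≤ Subgroup.normalizer (SLs F : Set (A F)) := by
  -- conjugates of the axis under `Γ` are conjugates under `SL₂(F)`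
  have h1 : ∀ g ∈ Γ, ∃ l : SpecialLinearGroup (Fin 2) F, g • W F = act F l • W F := by
    intro g hg
    have hv : g ![1, 0] ≠ 0 := by
      intro h
      have h2 : (![1, 0] : Fin 2 → F) = 0 := g.injective (by rw [h, map_zero])
      have h3 := congrFun h2 0
      simp at h3
    obtain ⟨l, hl⟩ := exists_sl hv
    refine ⟨l, ?_⟩
    by_contra hne
    have hlΓ : act F l ∈ Γ := H.hL ⟨l, rfl⟩
    have hne' : ((act F l)⁻¹ * g) • W F ≠ W F := by
      intro h
      apply hne
      rw [mul_smul, inv_smul_eq_iff] at h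
      exact h
    have h5 := inf_eq_bot H h4 (mul_mem (inv_mem hlΓ) hg) hne'
    have hW : (![1, 0] : Fin 2 → F) ∈ W F := by
      rw [mem_W]; simp
    have h6 : (![1, 0] : Fin 2 → F) ∈ ((act F l)⁻¹ * g) • W F ⊓ W F := by
      refine AddSubgroup.mem_inf.2 ⟨?_, hW⟩
      have h7 : (![1, 0] : Fin 2 → F) = ((act F l)⁻¹ * g) ![1, 0] := by
        rw [LinearEquiv.mul_apply, ← hl, inv_apply]
      have h8 : ((act F l)⁻¹ * g) ![1, 0] ∈ ((act F l)⁻¹ * g) • W F := apply_mem_smul_iff.2 hW
      rwa [← h7] at h8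
    rw [h5, AddSubgroup.mem_bot] at h6
    have h8 := congrFun h6 0
    simp at h8
  -- `SL₂(F)` is mapped into itself
  have h2 : ∀ g ∈ Γ, ∀ l ∈ SLs F, g * l * g⁻¹ ∈ SLs F := by
    intro g hg
    have h3 : SLs F ≤ (SLs F).comap (MulAut.conj g).toMonoidHom := by
      apply SLs_le_of
      intro l x hx
      change g * (act F l * x * (act F l)⁻¹) * g⁻¹ ∈ SLs F
      obtain ⟨l', hl'⟩ := h1 (g * act F l) (mul_mem hg (H.hL ⟨l, rfl⟩))
      have h5 : g * (act F l * x * (act F l)⁻¹) * g⁻¹ ∈ Rt ((g * act F l) • W F) := by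
        rw [mem_Rt_smul]
        rw [show (g * act F l)⁻¹ * (g * (act F l * x * (act F l)⁻¹) * g⁻¹) * (g * act F l) = x by group]
        exact Q_le_Rt hx
      rw [hl', mem_Rt_smul] at h5
      have h6 : (act F l')⁻¹ * (g * (act F l * x * (act F l)⁻¹) * g⁻¹) * act F l' ∈ Q F := by
        rw [← Rt_inf H]
        refine Subgroup.mem_inf.2 ⟨h5, ?_⟩
        have e1 : act F l ∈ Γ := H.hL ⟨l, rfl⟩
        have e2 : act F l' ∈ Γ := H.hL ⟨l', rfl⟩
        have e3 : x ∈ Γ := H.hL (Q_le F hx)
        exact mul_mem (mul_mem (inv_mem e2) (mul_mem (mul_mem hg (mul_mem (mul_mem e1 e3) (inv_mem e1)))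
          (inv_mem hg))) e2
      have h7 := Q_le F h6
      have e2 : act F l' ∈ SLs F := ⟨l', rfl⟩
      have h8 := mul_mem (mul_mem e2 h7) (inv_mem e2)
      rwa [show act F l' * ((act F l')⁻¹ * (g * (act F l * x * (act F l)⁻¹) * g⁻¹) * act F l') * (act F l')⁻¹ =
        g * (act F l * x * (act F l)⁻¹) * g⁻¹ by group] at h8
    intro l hl
    exact h3 hl
  intro g hg
  rw [Subgroup.mem_normalizer_iff]
  intro l
  refine ⟨fun hl => h2 g hg l hl, fun hl => ?_⟩
  have h3 := h2 g⁻¹ (inv_mem hg) _ hl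
  rwa [show g⁻¹ * (g * l * g⁻¹) * g⁻¹⁻¹ = l by group] at h3

end

end Cfsg.Agent.H247.NatSL
end

-- part: H247/AltEight
section
/-!
# Subgroups of `A₈` containing a natural `A₅`

`G ≤ A₈` contains a subgroup `L` of order 60 centralizing an element of order 3, generated by
involutions, and a Sylow 2-subgroup of `G` normalizes `L`. Then `G` normalizes `L` or `G ≅ A₇`.
-/

set_option autoImplicit false
set_option linter.style.haveILetI false

namespace Cfsg.Agent.H247.AltEight

open Equiv Equiv.Perm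

variable {α : Type*} [Fintype α] [DecidableEq α]

/-- a permutation of prime order with few moved points is a cycle -/
theorem cycleType_eq {σ : Perm α} {r : ℕ} (hr : r.Prime) (hσ : orderOf σ = r)
    (hs : σ.support.card < 2 * r) : σ.cycleType = {r} := by
  obtain ⟨n, hn⟩ := cycleType_prime_order (σ := σ) (by rw [hσ]; exact hr)
  rw [hσ] at hn
  have h1 := sum_cycleType σ
  rw [hn, Multiset.sum_replicate, smul_eq_mul] at h1
  have h2 : n = 0 := by
    by_contra hne
    have h3 : 2 ≤ n + 1 := by omega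
    have h4 : 2 * r ≤ (n + 1) * r := Nat.mul_le_mul_right _ h3
    omega
  rw [hn, h2]
  rfl

theorem support_card_eq {σ : Perm α} {r : ℕ} (h : σ.cycleType = {r}) : σ.support.card = r := by
  rw [← sum_cycleType, h, Multiset.sum_singleton]

theorem isCycle_of {σ : Perm α} {r : ℕ} (h : σ.cycleType = {r}) : σ.IsCycle := by
  rw [← card_cycleType_eq_one, h, Multiset.card_singleton]

omit [Fintype α] [DecidableEq α] in
/-- an element commuting with a cycle and fixing a moved point fixes all moved points -/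
theorem fix_of_commute {f z : Perm α} (hf : f.IsCycle) (hc : z * f = f * z) {x₀ : α}
    (hx₀ : f x₀ ≠ x₀) (hz : z x₀ = x₀) {x : α} (hx : f x ≠ x) : z x = x := by
  obtain ⟨i, hi⟩ := hf.sameCycle hx₀ hx
  have h1 : Commute z f := hc
  have h2 := (h1.zpow_right i).eq
  have h3 := DFunLike.congr_fun h2 x₀
  rw [Perm.mul_apply, Perm.mul_apply, hz, hi] at h3
  exact h3

/-- an element of order 3 commuting with a 5-cycle in degree 8 fixes the five moved points -/
theorem fix_five {f z : Perm (Fin 8)} (hf : f.cycleType = {5}) (hc : z * f = f * z)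
    (hz : orderOf z = 3) {x : Fin 8} (hx : f x ≠ x) : z x = x := by
  have hcyc := isCycle_of hf
  have h5 := support_card_eq hf
  -- `z` preserves the set of moved points of `f`
  have hinv : ∀ y, f y ≠ y ↔ f (z y) ≠ z y := by
    intro y
    have h1 : f (z y) = z (f y) := (DFunLike.congr_fun hc y).symm
    rw [h1]
    exact z.injective.ne_iff.symm
  obtain ⟨x₀, hx₀, hzx₀⟩ : ∃ x₀, f x₀ ≠ x₀ ∧ z x₀ = x₀ := by
    by_contra hcon
    push Not at hcon
    have hsub : f.support ⊆ z.support := by
      intro y hy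
      rw [mem_support] at hy ⊢
      exact hcon y hy
    obtain ⟨n, hn⟩ := cycleType_prime_order (σ := z) (by rw [hz]; exact Nat.prime_three)
    have h1 := sum_cycleType z
    rw [hn, hz, Multiset.sum_replicate, smul_eq_mul] at h1
    have h2 : z.support.card ≤ 8 := by
      simpa using Finset.card_le_univ z.support
    have h3 := Finset.card_le_card hsub
    rw [h5] at h3
    have h6 : z.support.card = 6 := by omega
    have h7 : (z.support \ f.support).card = 1 := by
      rw [Finset.card_sdiff_of_subset hsub, h6, h5]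
    obtain ⟨y, hy⟩ := Finset.card_eq_one.1 h7
    have hy1 : y ∈ z.support \ f.support := by rw [hy]; exact Finset.mem_singleton_self _
    rw [Finset.mem_sdiff, mem_support, notMem_support] at hy1
    have hy2 : z y ∈ z.support \ f.support := by
      rw [Finset.mem_sdiff, mem_support, notMem_support]
      refine ⟨fun h => hy1.1 (z.injective h), ?_⟩
      by_contra h
      exact (hinv y).2 h hy1.2
    rw [hy, Finset.mem_singleton] at hy2
    exact hy1.1 hy2
  exact fix_of_commute hcyc hc hx₀ hzx₀ hx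

/-- an involution commuting with a 3-cycle fixes its three moved points -/
theorem fix_three {t z : Perm α} (hz : z.cycleType = {3}) (hc : z * t = t * z) (ht : t * t = 1)
    {x : α} (hx : z x ≠ x) : t x = x := by
  have hcyc := isCycle_of hz
  have ho : z ^ 3 = 1 := by
    have h1 : orderOf z = 3 := by rw [← lcm_cycleType, hz, Multiset.lcm_singleton]; rfl
    rw [← h1]
    exact pow_orderOf_eq_one z
  have h3 : ∀ y, z (z (z y)) = y := by
    intro y
    have := DFunLike.congr_fun ho y
    simpa [pow_succ] using this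
  have h2 : ∀ y, t (t y) = y := fun y => DFunLike.congr_fun ht y
  have hcx : ∀ y, t (z y) = z (t y) := fun y => (DFunLike.congr_fun hc y).symm
  have htx : z (t x) ≠ t x := by
    rw [← hcx]
    exact fun h => hx (t.injective h)
  -- the support is `{x, z x, z (z x)}`
  have hzzx : z (z x) ≠ x := by
    intro h
    have h4 := h3 x
    rw [h] at h4
    exact hx h4
  have hsupp : ({x, z x, z (z x)} : Finset α) = z.support := by
    apply Finset.eq_of_subset_of_card_le
    · intro y hy
      rw [mem_support]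
      simp only [Finset.mem_insert, Finset.mem_singleton] at hy
      rcases hy with rfl | rfl | rfl
      · exact hx
      · exact fun h => hx (z.injective h)
      · exact fun h => hx (z.injective (z.injective h))
    · rw [support_card_eq hz]
      rw [Finset.card_insert_of_notMem, Finset.card_pair]
      · exact fun h => hx (z.injective h).symm
      · simp only [Finset.mem_insert, Finset.mem_singleton, not_or]
        exact ⟨fun h => hx h.symm, fun h => hzzx h.symm⟩
  have hmem : t x ∈ z.support := by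
    rw [mem_support]; exact htx
  rw [← hsupp] at hmem
  simp only [Finset.mem_insert, Finset.mem_singleton] at hmem
  rcases hmem with h | h | h
  · exact h
  · exfalso
    have h4 := h2 x
    rw [h, hcx, h] at h4
    exact hzzx h4
  · exfalso
    have h4 := h2 x
    rw [h, hcx, hcx, h, h3] at h4
    exact hx h4

/-- the even permutations with support in a 5-set form a group of order 60 -/
theorem eq_of_card_sixty {L : Subgroup (Perm (Fin 8))} (hL : Nat.card L = 60)
    (hLA : L ≤ alternatingGroup (Fin 8)) {D : Finset (Fin 8)} (hD : D.card = 5)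
    (hLD : ∀ l ∈ L, l.support ⊆ D) {g : Perm (Fin 8)} (hg : g ∈ alternatingGroup (Fin 8))
    (hgD : g.support ⊆ D) : g ∈ L := by
  let K : Subgroup (Perm (Fin 8)) := (alternatingGroup.ofSubtype D).range.map (alternatingGroup (Fin 8)).subtype
  have hmem : ∀ k : Perm (Fin 8), k ∈ K ↔ k ∈ alternatingGroup (Fin 8) ∧ k.support ⊆ D := by
    intro k
    constructor
    · rintro ⟨k', hk', rfl⟩
      exact ⟨k'.2, (alternatingGroup.mem_range_ofSubtype_iff D k').1 hk'⟩
    · rintro ⟨h1, h2⟩
      exact ⟨⟨k, h1⟩, (alternatingGroup.mem_range_ofSubtype_iff D ⟨k, h1⟩).2 h2, rfl⟩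
  have hcardK : Nat.card K = 60 := by
    have h1 : Nat.card K = Nat.card (alternatingGroup.ofSubtype D).range :=
      Nat.card_congr (Subgroup.equivMapOfInjective _ _ (Subgroup.subtype_injective _)).symm.toEquiv
    have h2 : Nat.card (alternatingGroup.ofSubtype D).range = Nat.card (alternatingGroup D) :=
      Nat.card_congr (MonoidHom.ofInjective alternatingGroup.ofSubtype_injective).symm.toEquiv
    haveI : Nontrivial D := by
      rw [← Fintype.one_lt_card_iff_nontrivial, Fintype.card_coe, hD]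
      norm_num
    rw [h1, h2, nat_card_alternatingGroup, Nat.card_eq_fintype_card, Fintype.card_coe, hD]
    decide
  have hLK : L ≤ K := fun l hl => (hmem l).2 ⟨hLA hl, hLD l hl⟩
  have heq : L = K := Subgroup.eq_of_le_of_card_ge hLK (by rw [hL, hcardK])
  rw [heq]
  exact (hmem g).2 ⟨hg, hgD⟩

/-- a transitive group of even permutations of seven of the eight points containing an element of order 3
with at most five moved points -/
theorem equiv_alt_seven {G : Subgroup (Perm (Fin 8))} (hG : G ≤ alternatingGroup (Fin 8)) {y : Fin 8}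
    (hy : ∀ g ∈ G, g y = y) (htr : ∀ a b : Fin 8, a ≠ y → b ≠ y → ∃ g ∈ G, g a = b)
    {t : Perm (Fin 8)} (ht : t ∈ G) (ht3 : t.cycleType = {3}) :
    Nonempty (G ≃* alternatingGroup (Fin 7)) := by
  let β : Type := {x : Fin 8 // x ≠ y}
  have hinv : ∀ g ∈ G, ∀ x, g x ≠ y ↔ x ≠ y := by
    intro g hg x
    constructor
    · rintro h rfl
      exact h (hy g hg)
    · intro h h1
      apply h
      apply g.injective
      rw [h1, hy g hg]
  let r : G →* Perm β :=
    { toFun := fun g => subtypePerm g.1 (hinv g.1 g.2)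
      map_one' := by ext x; rfl
      map_mul' := fun g h => by ext x; rfl }
  have hr : ∀ (g : G) (x : β), (r g x).1 = g.1 x.1 := fun g x => rfl
  have hrinj : Function.Injective r := by
    intro g h hgh
    apply Subtype.ext
    ext x
    by_cases hx : x = y
    · rw [hx, hy g.1 g.2, hy h.1 h.2]
    · have h1 := hr g ⟨x, hx⟩
      have h2 := hr h ⟨x, hx⟩
      rw [← h1, ← h2, hgh]
  have hsign : ∀ g : G, sign (r g) = 1 := by
    intro g
    have h1 : sign (r g) = sign g.1 := sign_subtypePerm g.1 (hinv g.1 g.2) (fun x hx hxy => hx (by rw [hxy]; exact hy g.1 g.2))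
    rw [h1]
    exact mem_alternatingGroup.1 (hG g.2)
  have hcard : Nat.card β = 7 := by
    rw [Nat.card_eq_fintype_card]
    change Fintype.card {x : Fin 8 // x ≠ y} = 7
    rw [Fintype.card_subtype_compl, Fintype.card_fin, Fintype.card_subtype_eq]
  haveI hpt : MulAction.IsPretransitive r.range β := by
    refine ⟨fun a b => ?_⟩
    obtain ⟨g, hg, hgab⟩ := htr a.1 b.1 a.2 b.2
    exact ⟨⟨r ⟨g, hg⟩, ⟨⟨g, hg⟩, rfl⟩⟩, Subtype.ext hgab⟩
  have hprim : MulAction.IsPreprimitive r.range β :=
    MulAction.IsPreprimitive.of_prime_card (by rw [hcard]; norm_num)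
  have h3 : IsThreeCycle (r ⟨t, ht⟩) := by
    have h1 : ofSubtype (r ⟨t, ht⟩) = t :=
      ofSubtype_subtypePerm (hinv t ht) (fun x hx hxy => hx (by rw [hxy]; exact hy t ht))
    have h2 : (r ⟨t, ht⟩).cycleType = t.cycleType := by
      rw [← cycleType_ofSubtype, h1]
    rw [IsThreeCycle, h2, ht3]
  have hle : alternatingGroup β ≤ r.range :=
    alternatingGroup_le_of_isPreprimitive_of_isThreeCycle_mem hprim h3 ⟨_, rfl⟩
  have heq : r.range = alternatingGroup β := by
    apply le_antisymm _ hle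
    rintro _ ⟨g, rfl⟩
    exact mem_alternatingGroup.2 (hsign g)
  have e1 : G ≃* r.range := MonoidHom.ofInjective hrinj
  have e2 : r.range ≃* alternatingGroup β := MulEquiv.subgroupCongr heq
  have e3 : β ≃ Fin 7 := Fintype.equivFinOfCardEq (by rw [← Nat.card_eq_fintype_card, hcard])
  exact ⟨(e1.trans e2).trans (Equiv.altCongrHom e3)⟩

theorem perm_main {G L S : Subgroup (Perm (Fin 8))} (hG : G ≤ alternatingGroup (Fin 8))
    (hLG : L ≤ G) (hL : Nat.card L = 60) (hSG : S ≤ G) (hS : IsPGroup 2 S)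
    (hmax : ∀ T : Subgroup (Perm (Fin 8)), T ≤ G → IsPGroup 2 T → Nat.card T ≤ Nat.card S)
    (hSN : S ≤ Subgroup.normalizer (L : Set (Perm (Fin 8)))) {z : Perm (Fin 8)} (hz : orderOf z = 3)
    (hzL : ∀ l ∈ L, z * l = l * z)
    (hgen : ∀ K : Subgroup (Perm (Fin 8)), (∀ t ∈ L, t * t = 1 → t ∈ K) → L ≤ K) :
    G ≤ Subgroup.normalizer (L : Set (Perm (Fin 8))) ∨ Nonempty (G ≃* alternatingGroup (Fin 7)) := by
  -- a 5-cycle in `L`
  obtain ⟨f, hfL, hf⟩ : ∃ f ∈ L, f.cycleType = {5} := by
    haveI : Fact (Nat.Prime 5) := ⟨Nat.prime_five⟩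
    obtain ⟨f, hf⟩ := exists_prime_orderOf_dvd_card' (G := L) 5 (by rw [hL]; norm_num)
    refine ⟨f.1, f.2, cycleType_eq Nat.prime_five (by rw [← hf]; exact Subgroup.orderOf_coe f) ?_⟩
    have h2 : f.1.support.card ≤ 8 := by
      simpa using Finset.card_le_univ f.1.support
    omega
  have hf5 := support_card_eq hf
  have hfcyc := isCycle_of hf
  -- `z` fixes the points moved by `f`
  have hzf : ∀ x, f x ≠ x → z x = x := fun x hx => fix_five hf (hzL f hfL) hz hx
  have hdisj : Disjoint f.support z.support := by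
    rw [Finset.disjoint_left]
    intro x hx hx'
    rw [mem_support] at hx hx'
    exact hx' (hzf x hx)
  have hzcard : f.support.card + z.support.card ≤ 8 := by
    rw [← Finset.card_union_of_disjoint hdisj]
    simpa using Finset.card_le_univ (f.support ∪ z.support)
  have hz3 : z.cycleType = {3} := cycleType_eq Nat.prime_three hz (by omega)
  have hzs := support_card_eq hz3
  have huniv : ∀ x, f x ≠ x ∨ z x ≠ x := by
    intro x
    by_contra hcon
    push Not at hcon
    have h1 : x ∉ f.support ∪ z.support := by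
      rw [Finset.mem_union, mem_support, mem_support]
      push Not
      exact hcon
    have h2 : (insert x (f.support ∪ z.support)).card ≤ 8 := by
      simpa using Finset.card_le_univ (insert x (f.support ∪ z.support))
    rw [Finset.card_insert_of_notMem h1, Finset.card_union_of_disjoint hdisj] at h2
    omega
  -- `L` fixes the points fixed by `f`
  have hLfix : ∀ l ∈ L, ∀ x, f x = x → l x = x := by
    let K : Subgroup (Perm (Fin 8)) :=
      { carrier := {l | ∀ x, f x = x → l x = x}
        one_mem' := fun x _ => rfl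
        mul_mem' := fun {a b} ha hb x hx => by
          rw [Perm.mul_apply, hb x hx, ha x hx]
        inv_mem' := fun {a} ha x hx => by
          rw [Perm.inv_eq_iff_eq]
          exact (ha x hx).symm }
    have h1 : L ≤ K := by
      apply hgen
      intro t ht ht2 x hx
      rcases huniv x with h | h
      · exact absurd hx h
      · exact fix_three hz3 (hzL t ht) ht2 h
    exact fun l hl => h1 hl
  have hLsupp : ∀ l ∈ L, l.support ⊆ f.support := by
    intro l hl x hx
    rw [mem_support] at hx ⊢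
    exact fun h => hx (hLfix l hl x h)
  -- `S` preserves the support of `f`
  have hSf : ∀ s ∈ S, ∀ x, f x = x → f (s x) = s x := by
    intro s hs x hx
    have h1 : s⁻¹ * f * s ∈ L := by
      have h2 := (Subgroup.mem_normalizer_iff.1 (hSN (inv_mem hs)) f).1 hfL
      rwa [inv_inv] at h2
    have h2 := hLfix _ h1 x hx
    rw [Perm.mul_apply, Perm.mul_apply, Perm.inv_eq_iff_eq] at h2
    exact h2
  -- a fixed point of `S` moved by `f`
  obtain ⟨x₀, hx₀, hSx₀⟩ : ∃ x₀, f x₀ ≠ x₀ ∧ ∀ s ∈ S, s x₀ = x₀ := by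
    let X : SubMulAction S (Fin 8) :=
      { carrier := {x | f x ≠ x}
        smul_mem' := by
          rintro ⟨s, hs⟩ x hx h
          apply hx
          have h1 := hSf s⁻¹ (inv_mem hs) (s x) h
          have h3 : s⁻¹ (s x) = x := s.symm_apply_apply x
          rw [h3] at h1
          exact h1 }
    have hX : Nat.card X = 5 := by
      change Nat.card {x // f x ≠ x} = 5
      rw [← hf5, Nat.card_eq_fintype_card]
      exact Fintype.card_of_subtype f.support (fun x => mem_support)
    obtain ⟨x, hx⟩ := hS.nonempty_fixed_point_of_prime_not_dvd_card X (by rw [hX]; norm_num)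
    exact ⟨x.1, x.2, fun s hs => congrArg Subtype.val (hx ⟨s, hs⟩)⟩
  -- the orbit of `x₀` has odd length
  have hodd : ¬ 2 ∣ (MulAction.orbit G x₀).ncard := by
    let S' : Sylow 2 G :=
      { (S.subgroupOf G) with
        isPGroup' := hS.comap_subtype
        is_maximal' := by
          intro T hT hle
          have h1 : IsPGroup 2 (T.map G.subtype) := hT.map _
          have h2 : T.map G.subtype ≤ G := by
            rintro _ ⟨t, -, rfl⟩
            exact t.2
          have h3 := hmax _ h2 h1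
          have h4 : S ≤ T.map G.subtype := by
            intro s hs
            exact ⟨⟨s, hSG hs⟩, hle hs, rfl⟩
          have h5 := Subgroup.eq_of_le_of_card_ge h4 h3
          apply le_antisymm
          · intro t ht
            change (t : Perm (Fin 8)) ∈ S
            rw [h5]
            exact ⟨t, ht, rfl⟩
          · exact hle }
    have h1 : ¬ 2 ∣ (S' : Subgroup G).index := S'.not_dvd_index
    have h2 : (S' : Subgroup G) ≤ MulAction.stabilizer G x₀ := by
      intro s hs
      exact hSx₀ s.1 hs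
    rw [← MulAction.index_stabilizer]
    exact fun h => h1 (h.trans (Subgroup.index_dvd_of_le h2))
  have hsub : (f.support : Set (Fin 8)) ⊆ MulAction.orbit G x₀ := by
    intro x hx
    rw [Finset.mem_coe, mem_support] at hx
    obtain ⟨i, hi⟩ := hfcyc.sameCycle hx₀ hx
    exact ⟨⟨f ^ i, zpow_mem (hLG hfL) i⟩, hi⟩
  have hinv : ∀ g ∈ G, ∀ x, x ∈ MulAction.orbit G x₀ ↔ g x ∈ MulAction.orbit G x₀ := by
    intro g hg x
    constructor
    · rintro ⟨h, rfl⟩
      exact ⟨⟨g, hg⟩ * h, rfl⟩
    · rintro ⟨h, hh⟩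
      refine ⟨(⟨g, hg⟩ : G)⁻¹ * h, ?_⟩
      have e1 : h.1 x₀ = g x := hh
      change g⁻¹ (h.1 x₀) = x
      rw [e1]
      exact g.symm_apply_apply x
  have hge : 5 ≤ (MulAction.orbit G x₀).ncard := by
    rw [← hf5, ← Set.ncard_coe_finset]
    exact Set.ncard_le_ncard hsub (Set.toFinite _)
  have hle8 : (MulAction.orbit G x₀).ncard ≤ 8 := by
    have h1 := Set.ncard_le_ncard (Set.subset_univ (MulAction.orbit G x₀)) (Set.toFinite _)
    simpa using h1
  have hcases : (MulAction.orbit G x₀).ncard = 5 ∨ (MulAction.orbit G x₀).ncard = 7 := by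
    omega
  rcases hcases with h5 | h7
  · left
    have hΩ : (f.support : Set (Fin 8)) = MulAction.orbit G x₀ := by
      apply Set.eq_of_subset_of_ncard_le hsub _ (Set.toFinite _)
      rw [h5, Set.ncard_coe_finset, hf5]
    have hmem : ∀ x, x ∈ f.support ↔ x ∈ MulAction.orbit G x₀ := by
      intro x
      rw [← hΩ, Finset.mem_coe]
    have key : ∀ g ∈ G, ∀ l ∈ L, g * l * g⁻¹ ∈ L := by
      intro g hg l hl
      apply eq_of_card_sixty hL (hLG.trans hG) hf5 hLsupp
        (hG (mul_mem (mul_mem hg (hLG hl)) (inv_mem hg)))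
      intro x hx
      rw [mem_support, Perm.mul_apply, Perm.mul_apply] at hx
      have h1 : l (g⁻¹ x) ≠ g⁻¹ x := by
        intro h
        apply hx
        rw [h]
        exact g.apply_symm_apply x
      have h2 : g⁻¹ x ∈ f.support := hLsupp l hl (mem_support.2 h1)
      rw [hmem, hinv g hg] at h2
      have h3 : g (g⁻¹ x) = x := g.apply_symm_apply x
      rw [h3] at h2
      rw [hmem]
      exact h2
    intro g hg
    rw [Subgroup.mem_normalizer_iff]
    intro l
    refine ⟨fun hl => key g hg l hl, fun hl => ?_⟩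
    have h3 := key g⁻¹ (inv_mem hg) _ hl
    rwa [show g⁻¹ * (g * l * g⁻¹) * g⁻¹⁻¹ = l by group] at h3
  · right
    obtain ⟨y, hy⟩ : ∃ y, (MulAction.orbit G x₀)ᶜ = {y} := by
      rw [← Set.ncard_eq_one, Set.ncard_compl, h7]
      simp
    have hy' : ∀ x, x ≠ y ↔ x ∈ MulAction.orbit G x₀ := by
      intro x
      rw [← not_iff_not, not_not, ← Set.mem_compl_iff, hy, Set.mem_singleton_iff]
    -- an element of order 3 of `L`
    haveI : Fact (Nat.Prime 3) := ⟨Nat.prime_three⟩
    obtain ⟨t, ht⟩ := exists_prime_orderOf_dvd_card' (G := L) 3 (by rw [hL]; norm_num)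
    have ht3 : t.1.cycleType = {3} := by
      apply cycleType_eq Nat.prime_three (by rw [← ht]; exact Subgroup.orderOf_coe t)
      have h1 := Finset.card_le_card (hLsupp t.1 t.2)
      omega
    apply equiv_alt_seven hG (y := y) _ _ (hLG t.2) ht3
    · intro g hg
      by_contra h
      have h1 : g y ∈ MulAction.orbit G x₀ := (hy' _).1 h
      rw [← hinv g hg, ← hy'] at h1
      exact h1 rfl
    · intro a b ha hb
      rw [hy'] at ha hb
      obtain ⟨g, hg⟩ := ha
      obtain ⟨h, hh⟩ := hb
      refine ⟨h.1 * g.1⁻¹, mul_mem h.2 (inv_mem g.2), ?_⟩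
      have e1 : g.1 x₀ = a := hg
      have e2 : h.1 x₀ = b := hh
      rw [Perm.mul_apply, ← e1, ← e2]
      congr 1
      exact g.1.symm_apply_apply x₀

end Cfsg.Agent.H247.AltEight
end

-- part: H247/EmbedEight
section
/-!
# The case `q = 4`

The additive automorphisms of `F²`, `|F| = 4`, embed into `A₈`.
-/

set_option autoImplicit false
set_option linter.style.haveILetI false

namespace Cfsg.Agent.H247.EmbedEight

open Matrix

theorem zmod_two_eq_one : ∀ x y : ZMod 2, x * y = 1 → x = 1 := by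
  decide

theorem zmod_two_pow_four : ∀ x : ZMod 2, x ^ 4 = 1 → x = 1 := by
  decide

theorem sl_four_two : ∃ f : SpecialLinearGroup (Fin 4) (ZMod 2) →* Equiv.Perm (Fin 8),
    Function.Injective f ∧ ∀ g, f g ∈ alternatingGroup (Fin 8) := by
  haveI : Fact (Nat.Prime 2) := ⟨Nat.prime_two⟩
  obtain ⟨e⟩ := Cfsg.Agent.S0256.result (F := ZMod 2) (ZMod.card 2)
  have hc : Subgroup.center (SpecialLinearGroup (Fin 4) (ZMod 2)) = ⊥ := by
    rw [eq_bot_iff]
    intro A hA
    rw [Matrix.SpecialLinearGroup.mem_center_iff] at hA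
    obtain ⟨r, hr, hA⟩ := hA
    have hr1 : r = 1 := zmod_two_pow_four r (by simpa using hr)
    subst hr1
    rw [Subgroup.mem_bot]
    apply Subtype.ext
    rw [← hA]
    simp
  refine ⟨(alternatingGroup (Fin 8)).subtype.comp (e.toMonoidHom.comp
    (QuotientGroup.mk' (Subgroup.center (SpecialLinearGroup (Fin 4) (ZMod 2))))), ?_, ?_⟩
  · apply (Subgroup.subtype_injective _).comp
    apply e.injective.comp
    rw [injective_iff_map_eq_one]
    intro A hA
    have h1 : A ∈ Subgroup.center (SpecialLinearGroup (Fin 4) (ZMod 2)) :=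
      (QuotientGroup.eq_one_iff A).1 hA
    rwa [hc, Subgroup.mem_bot] at h1
  · intro g
    exact (e (QuotientGroup.mk' _ g)).2

theorem embed {F : Type*} [Field F] [Finite F] [CharP F 2] (hF : Nat.card F = 4) :
    ∃ f : NatSL.A F →* Equiv.Perm (Fin 8),
    Function.Injective f ∧ ∀ g, f g ∈ alternatingGroup (Fin 8) := by
  haveI : Fact (Nat.Prime 2) := ⟨Nat.prime_two⟩
  obtain ⟨f, hf, hfA⟩ := sl_four_two
  letI : Algebra (ZMod 2) F := ZMod.algebra F 2
  have hfr : Module.finrank (ZMod 2) (Fin 2 → F) = 4 := by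
    have h1 : Nat.card (Fin 2 → F) = Nat.card (ZMod 2) ^ Module.finrank (ZMod 2) (Fin 2 → F) :=
      Module.natCard_eq_pow_finrank
    rw [Nat.card_fun, Nat.card_eq_fintype_card (α := Fin 2), Fintype.card_fin, hF, Nat.card_zmod] at h1
    have h2 : 2 ^ 4 = 2 ^ Module.finrank (ZMod 2) (Fin 2 → F) := by rw [← h1]; norm_num
    exact (Nat.pow_right_injective le_rfl h2).symm
  let b : Module.Basis (Fin 4) (ZMod 2) (Fin 2 → F) := Module.finBasisOfFinrankEq _ _ hfr
  let lin : NatSL.A F →* Module.End (ZMod 2) (Fin 2 → F) :=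
    { toFun := fun g => AddMonoidHom.toZModLinearMap 2 (g.toAddEquiv.toAddMonoidHom)
      map_one' := rfl
      map_mul' := fun g h => rfl }
  let m : NatSL.A F →* Matrix (Fin 4) (Fin 4) (ZMod 2) :=
    (LinearMap.toMatrixAlgEquiv b : Module.End (ZMod 2) (Fin 2 → F) →* Matrix (Fin 4) (Fin 4) (ZMod 2)).comp lin
  have hminj : Function.Injective m := by
    intro g h hgh
    have h1 : lin g = lin h := (LinearMap.toMatrixAlgEquiv b).injective hgh
    apply LinearEquiv.ext
    intro u
    exact congrArg (fun k : Module.End (ZMod 2) (Fin 2 → F) => k u) h1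
  have hdet : ∀ g, (m g).det = 1 := by
    intro g
    have h1 : (m g).det * (m g⁻¹).det = 1 := by
      rw [← det_mul, ← map_mul, mul_inv_cancel, map_one, det_one]
    exact zmod_two_eq_one _ _ h1
  let Ψ : NatSL.A F →* SpecialLinearGroup (Fin 4) (ZMod 2) :=
    { toFun := fun g => ⟨m g, hdet g⟩
      map_one' := Subtype.ext (map_one m)
      map_mul' := fun g h => Subtype.ext (map_mul m g h) }
  refine ⟨f.comp Ψ, hf.comp ?_, fun g => hfA _⟩
  intro g h hgh
  exact hminj (congrArg Subtype.val hgh)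

open NatSL in
theorem act_injective (F : Type*) [Field F] : Function.Injective (act F) := by
  intro g h hgh
  apply Subtype.ext
  apply Matrix.ext_of_mulVec_single
  intro i
  have h1 := LinearEquiv.congr_fun hgh (Pi.single i 1)
  exact h1

open NatSL in
theorem card_SLs {F : Type*} [Field F] [Finite F] (hF : Nat.card F = 4) : Nat.card (SLs F) = 60 := by
  haveI := Fintype.ofFinite F
  have h1 : Nat.card (SLs F) = Nat.card (SpecialLinearGroup (Fin 2) F) :=
    Nat.card_congr (MonoidHom.ofInjective (act_injective F)).symm.toEquiv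
  have h2 := Cfsg.Agent.S0242.result (F := F) (q := 4) (by rw [← Nat.card_eq_fintype_card, hF]) 2 (by norm_num)
  rw [Fin.prod_univ_two] at h2
  norm_num at h2
  rw [h1]
  omega

open NatSL in
theorem four {F : Type*} [Field F] [Finite F] [CharP F 2] (hF : Nat.card F = 4)
    {Γ S : Subgroup (NatSL.A F)} (H : NatSL.Setup 2 Γ S) :
    Γ ≤ Subgroup.normalizer (SLs F : Set (NatSL.A F)) ∨ Nonempty (Γ ≃* alternatingGroup (Fin 7)) := by
  haveI : Fact (Nat.Prime 2) := ⟨Nat.prime_two⟩
  haveI : Fact (Nat.Prime 3) := ⟨Nat.prime_three⟩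
  obtain ⟨f, hf, hfA⟩ := embed hF
  have hcardmap : ∀ K : Subgroup (NatSL.A F), Nat.card (K.map f) = Nat.card K := fun K =>
    Nat.card_congr (K.equivMapOfInjective f hf).symm.toEquiv
  have hmemmap : ∀ (K : Subgroup (NatSL.A F)) (x : NatSL.A F), f x ∈ K.map f ↔ x ∈ K := by
    intro K x
    exact Subgroup.mem_map_iff_mem hf
  -- a scalar of order 3
  obtain ⟨ω, hω⟩ : ∃ ω : Fˣ, orderOf ω = 3 := by
    apply exists_prime_orderOf_dvd_card' 3
    haveI := Fintype.ofFinite F
    classical
    rw [Nat.card_units, hF]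
  let sc : Fˣ →* NatSL.A F := DistribMulAction.toModuleAut ℤ (Fin 2 → F)
  have hsc : ∀ (a : Fˣ) (u : Fin 2 → F), sc a u = (a : F) • u := fun a u => rfl
  have hscinj : Function.Injective sc := by
    intro a b hab
    apply Units.ext
    apply NatSL.scalar_inj
    intro u
    rw [← hsc, ← hsc, hab]
  have key := AltEight.perm_main (G := Γ.map f) (L := (SLs F).map f) (S := S.map f)
    (by rintro _ ⟨g, -, rfl⟩; exact hfA g) (Subgroup.map_mono H.hL)
    (by rw [hcardmap, card_SLs hF]) (Subgroup.map_mono H.hSG) (H.hSp.map f)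
    (by
      intro T hT hTp
      have h1 : T = (T.comap f).map f := by
        rw [Subgroup.map_comap_eq_self]
        refine hT.trans ?_
        rintro _ ⟨g, -, rfl⟩
        exact ⟨g, rfl⟩
      rw [hcardmap, h1, hcardmap]
      apply H.hmax
      · intro x hx
        exact (hmemmap Γ x).1 (hT hx)
      · exact hTp.comap_of_injective f hf)
    (by
      rintro _ ⟨s, hs, rfl⟩
      rw [Subgroup.mem_normalizer_iff]
      intro h
      constructor
      · rintro ⟨l, hl, rfl⟩
        exact ⟨s * l * s⁻¹, (Subgroup.mem_normalizer_iff.1 (H.hSN hs) l).1 hl, by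
          rw [map_mul, map_mul, map_inv]⟩
      · rintro ⟨l, hl, hl'⟩
        refine ⟨s⁻¹ * l * s, ?_, ?_⟩
        · have h2 := (Subgroup.mem_normalizer_iff.1 (H.hSN (inv_mem hs)) l).1 hl
          rwa [inv_inv] at h2
        · rw [map_mul, map_mul, map_inv, hl']
          group)
    (z := f (sc ω)) (by rw [orderOf_injective f hf, orderOf_injective sc hscinj, hω])
    (by
      rintro _ ⟨_, ⟨g, rfl⟩, rfl⟩
      rw [← map_mul, ← map_mul]
      congr 1
      apply LinearEquiv.ext
      intro u
      rw [LinearEquiv.mul_apply, LinearEquiv.mul_apply, hsc, hsc, act_smul])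
    (by
      intro K hK
      have h1 : SLs F ≤ K.comap f := by
        apply SLs_le_of
        intro g x hx
        apply hK
        · refine ⟨_, ?_, rfl⟩
          exact mul_mem (mul_mem ⟨g, rfl⟩ (Q_le F hx)) (inv_mem ⟨g, rfl⟩)
        · rw [← map_mul, ← map_one f]
          congr 1
          have h2 : x * x = 1 := by
            rw [← pow_two]
            exact Rt_pow_char (Q_le_Rt hx)
          calc act F g * x * (act F g)⁻¹ * (act F g * x * (act F g)⁻¹) =
              act F g * (x * x) * (act F g)⁻¹ := by group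
            _ = 1 := by rw [h2]; group
      rintro _ ⟨l, hl, rfl⟩
      exact h1 hl)
  rcases key with h | ⟨⟨e⟩⟩
  · left
    intro g hg
    rw [Subgroup.mem_normalizer_iff]
    intro l
    have h1 := h ((hmemmap Γ g).2 hg)
    have h2 := Subgroup.mem_normalizer_iff.1 h1 (f l)
    rw [hmemmap, ← map_inv, ← map_mul, ← map_mul, hmemmap] at h2
    exact h2
  · right
    exact ⟨(Γ.equivMapOfInjective f hf).trans e⟩

end Cfsg.Agent.H247.EmbedEight
end

-- part: S2932
section
set_option autoImplicit false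
set_option linter.style.haveILetI false
open Cfsg

namespace Cfsg.Agent.S2932

open Cfsg.Agent.H247.NatSL

section

variable {X : Type*} [Group X] {F : Type} [Field F] {V G L : Subgroup X}

/-- the action of `G` on the natural module -/
noncomputable def theta (hGV : G ≤ Subgroup.normalizer (V : Set X)) (ψ : Additive V ≃+ (Fin 2 → F)) :
    G →* A F where
  toFun g := AddEquiv.toIntLinearEquiv (ψ.symm.trans
    ((MulEquiv.toAdditive (V.normalizerMonoidHom ⟨g.1, hGV g.2⟩)).trans ψ))
  map_one' := by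
    apply LinearEquiv.ext
    intro u
    obtain ⟨v, rfl⟩ := ψ.surjective u
    change ψ (MulEquiv.toAdditive (V.normalizerMonoidHom 1) (ψ.symm (ψ v))) = ψ v
    rw [map_one, ψ.symm_apply_apply]
    rfl
  map_mul' g h := by
    apply LinearEquiv.ext
    intro u
    obtain ⟨v, rfl⟩ := ψ.surjective u
    change ψ (MulEquiv.toAdditive (V.normalizerMonoidHom (⟨g.1, hGV g.2⟩ * ⟨h.1, hGV h.2⟩)) (ψ.symm (ψ v))) =
      ψ (MulEquiv.toAdditive (V.normalizerMonoidHom ⟨g.1, hGV g.2⟩) (ψ.symm
        (ψ (MulEquiv.toAdditive (V.normalizerMonoidHom ⟨h.1, hGV h.2⟩) (ψ.symm (ψ v))))))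
    rw [map_mul, ψ.symm_apply_apply, ψ.symm_apply_apply]
    rfl

theorem theta_apply (hGV : G ≤ Subgroup.normalizer (V : Set X)) (ψ : Additive V ≃+ (Fin 2 → F)) (g : G)
    (v w : V) (h : (w : X) = (g : X) * (v : X) * (g : X)⁻¹) :
    theta hGV ψ g (ψ (Additive.ofMul v)) = ψ (Additive.ofMul w) := by
  change ψ (MulEquiv.toAdditive (V.normalizerMonoidHom ⟨g.1, hGV g.2⟩) (ψ.symm (ψ (Additive.ofMul v)))) = _
  rw [ψ.symm_apply_apply]
  congr 1
  apply Subtype.ext
  exact h.symm

theorem theta_injective (hGV : G ≤ Subgroup.normalizer (V : Set X)) (ψ : Additive V ≃+ (Fin 2 → F))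
    (hfaith : G ⊓ Subgroup.centralizer (V : Set X) = ⊥) : Function.Injective (theta hGV ψ) := by
  rw [injective_iff_map_eq_one]
  intro g hg
  have h1 : g.1 ∈ G ⊓ Subgroup.centralizer (V : Set X) := by
    refine Subgroup.mem_inf.2 ⟨g.2, ?_⟩
    rw [Subgroup.mem_centralizer_iff]
    intro v hv
    have h2 : g.1 * v * g.1⁻¹ ∈ V := (Subgroup.mem_normalizer_iff.1 (hGV g.2) v).1 hv
    have h3 := theta_apply hGV ψ g ⟨v, hv⟩ ⟨_, h2⟩ rfl
    rw [hg] at h3
    have h4 : (⟨v, hv⟩ : V) = ⟨_, h2⟩ := ψ.injective h3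
    have h5 : v = g.1 * v * g.1⁻¹ := congrArg Subtype.val h4
    conv_lhs => rw [h5]
    group
  rw [hfaith, Subgroup.mem_bot] at h1
  exact Subtype.ext h1

end

theorem main {X : Type*} [Group X] [Finite X] {p : ℕ} [Fact p.Prime] (F : Type) [Field F] [Finite F]
    [CharP F p] (V G L : Subgroup X) (hGV : G ≤ Subgroup.normalizer (V : Set X))
    (hfaith : G ⊓ Subgroup.centralizer (V : Set X) = ⊥) (hLG : L ≤ G)
    (hnat : Cfsg.IsNaturalSL2Module F V L)
    (hSyl : ∀ S : Sylow p ↥(G ⊓ Subgroup.normalizer (L : Set X)), ∀ P : Sylow p ↥G,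
      Nat.card S = Nat.card P) :
    (L.subgroupOf G).Normal ∨ (Nat.card F = 4 ∧ Nonempty (↥G ≃* ↥(alternatingGroup (Fin 7)))) := by
  obtain ⟨-, ρ, ψ, hρs, -, hρψ⟩ := hnat
  let θ := theta hGV ψ
  have hθ : Function.Injective θ := theta_injective hGV ψ hfaith
  -- `L` acts as `SL₂(F)`
  have hθL : ∀ l : L, θ ⟨l.1, hLG l.2⟩ = act F (ρ l) := by
    intro l
    apply LinearEquiv.ext
    intro u
    obtain ⟨v, rfl⟩ := ψ.surjective u
    obtain ⟨w, hw1, hw2⟩ := hρψ l (Additive.toMul v)
    have h1 := theta_apply hGV ψ ⟨l.1, hLG l.2⟩ (Additive.toMul v) w hw1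
    change θ _ (ψ v) = ψ (Additive.ofMul w) at h1
    rw [h1, hw2]
    rfl
  have hLmem : ∀ g : G, θ g ∈ SLs F ↔ g.1 ∈ L := by
    intro g
    constructor
    · rintro ⟨s, hs⟩
      obtain ⟨l, rfl⟩ := hρs s
      rw [← hθL] at hs
      have h1 := hθ hs
      rw [← h1]
      exact l.2
    · intro hg
      exact ⟨ρ ⟨g.1, hg⟩, (hθL ⟨g.1, hg⟩).symm⟩
  have hSLrange : SLs F ≤ θ.range := by
    rintro _ ⟨s, rfl⟩
    obtain ⟨l, rfl⟩ := hρs s
    exact ⟨_, hθL l⟩
  -- the normalizer
  let N := G ⊓ Subgroup.normalizer (L : Set X)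
  let ι : N →* A F := θ.comp (Subgroup.inclusion inf_le_left)
  have hι : Function.Injective ι := hθ.comp (Subgroup.inclusion_injective _)
  have hQp : IsPGroup p (Q F) := (Rt_isPGroup (W F)).to_le Q_le_Rt
  obtain ⟨S₁, hS₁⟩ := (hQp.comap_of_injective ι hι).exists_le_sylow
  have hcard : Nat.card ((S₁ : Subgroup N).map ι) = Nat.card S₁ :=
    Nat.card_congr ((S₁ : Subgroup N).equivMapOfInjective ι hι).symm.toEquiv
  have H : Setup p θ.range ((S₁ : Subgroup N).map ι) :=
    { hL := hSLrange
      hSG := by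
        rintro _ ⟨s, -, rfl⟩
        exact ⟨_, rfl⟩
      hSp := S₁.isPGroup'.map ι
      hmax := by
        intro T hT hTp
        obtain ⟨P, hP⟩ := (hTp.comap_of_injective θ hθ).exists_le_sylow
        have h1 : T = (T.comap θ).map θ := by
          rw [Subgroup.map_comap_eq_self hT]
        rw [hcard, hSyl S₁ P, h1,
          Nat.card_congr ((T.comap θ).equivMapOfInjective θ hθ).symm.toEquiv]
        exact Nat.card_le_card_of_injective _ (Subgroup.inclusion_injective hP)
      hQS := by
        intro x hx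
        obtain ⟨g, rfl⟩ := hSLrange (Q_le F hx)
        have hgL : g.1 ∈ L := (hLmem g).1 (Q_le F hx)
        have hgN : g.1 ∈ N := Subgroup.mem_inf.2 ⟨g.2, Subgroup.le_normalizer hgL⟩
        exact ⟨⟨g.1, hgN⟩, hS₁ hx, rfl⟩
      hSN := by
        rintro _ ⟨s, -, rfl⟩
        have hs := (Subgroup.mem_inf.1 s.2).2
        have key : ∀ n : G, n.1 ∈ Subgroup.normalizer (L : Set X) → ∀ l ∈ SLs F, θ n * l * (θ n)⁻¹ ∈ SLs F := by
          intro n hn l hl
          obtain ⟨g, rfl⟩ := hSLrange hl
          rw [hLmem] at hl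
          rw [← map_inv, ← map_mul, ← map_mul, hLmem]
          exact (Subgroup.mem_normalizer_iff.1 hn g.1).1 hl
        rw [Subgroup.mem_normalizer_iff]
        intro l
        refine ⟨fun hl => key _ hs l hl, fun hl => ?_⟩
        have h1 := key (Subgroup.inclusion inf_le_left s)⁻¹ (inv_mem hs) _ hl
        rw [map_inv] at h1
        have h2 : (θ (Subgroup.inclusion inf_le_left s))⁻¹ * (ι s * l * (ι s)⁻¹) *
            (θ (Subgroup.inclusion inf_le_left s))⁻¹⁻¹ = l := by
          change (ι s)⁻¹ * (ι s * l * (ι s)⁻¹) * (ι s)⁻¹⁻¹ = l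
          group
        rwa [h2] at h1 }
  have hnormal : θ.range ≤ Subgroup.normalizer (SLs F : Set (A F)) → (L.subgroupOf G).Normal := by
    intro h
    refine ⟨fun l hl g => ?_⟩
    rw [Subgroup.mem_subgroupOf] at hl ⊢
    rw [← hLmem] at hl ⊢
    rw [map_mul, map_mul, map_inv]
    exact (Subgroup.mem_normalizer_iff.1 (h ⟨g, rfl⟩) _).1 hl
  by_cases h4 : Nat.card F = 4
  · have hp2 : p = 2 := by
      haveI := Fintype.ofFinite F
      obtain ⟨n, hp, hn⟩ := FiniteField.card F p
      rw [← Nat.card_eq_fintype_card, h4] at hn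
      have h1 : p ∣ 2 ^ 2 := by
        rw [show (2 : ℕ) ^ 2 = 4 by norm_num, hn]
        exact dvd_pow_self p n.2.ne'
      exact (Nat.prime_dvd_prime_iff_eq hp Nat.prime_two).1 (hp.dvd_of_dvd_pow h1)
    subst hp2
    rcases Cfsg.Agent.H247.EmbedEight.four h4 H with h | ⟨⟨e⟩⟩
    · exact Or.inl (hnormal h)
    · exact Or.inr ⟨h4, ⟨(MonoidHom.ofInjective hθ).trans e⟩⟩
  · exact Or.inl (hnormal (normalizes H h4))

/-- Let p be a prime. Inside a finite ambient group let V be an elementary abelian p-subgroup and G a subgroup normalizing V and acting faithfully on it (G ∩ C(V) = 1), and let L ≤ G act on V as SL₂(F) on its natural module, F a finite field of characteristic p, with L ≅ SL₂(F). If every Sylow p-subgroup of N_G(L) is a Sylow p-subgroup of G, then either L is normal in G, or F has 4 elements and G is isomorphic to the alternating group of degree 7. -/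
theorem result {X : Type*} [Group X] [Finite X] {p : ℕ} [Fact p.Prime] (F : Type) [Field F] [Fintype F] [CharP F p] (V G L : Subgroup X) (hV : Cfsg.IsElementaryAbelian p V) (hGV : G ≤ Subgroup.normalizer (V : Set X)) (hfaith : G ⊓ Subgroup.centralizer (V : Set X) = ⊥) (hLG : L ≤ G) (hnat : Cfsg.IsNaturalSL2Module F V L) (hLiso : Nonempty (↥L ≃* Matrix.SpecialLinearGroup (Fin 2) F)) (hSyl : ∀ S : Sylow p ↥(G ⊓ Subgroup.normalizer (L : Set X)), ∀ P : Sylow p ↥G, Nat.card S = Nat.card P) : (L.subgroupOf G).Normal ∨ (Fintype.card F = 4 ∧ Nonempty (↥G ≃* ↥(alternatingGroup (Fin 7)))) := by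
  rw [← Nat.card_eq_fintype_card]
  exact main F V G L hGV hfaith hLG hnat hSyl

end Cfsg.Agent.S2932
end
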