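import Cfsg.Statements.S2957
import Cfsg.Agent.H555.SylChainTwo
import Cfsg.Agent.H555.CharP
set_option linter.all false

set_option autoImplicit false
open Cfsg

namespace Cfsg.Agent.S2957

/-- Let p be a prime dividing the order of the finite group G, f an equivariant assignment of a set of subgroups f(P) of P to every p-subgroup P, each normalized by N_G(P), and S a Sylow p-subgroup. If G = G₁G₂ for subgroups G₁, G₂ both containing S and both regular for f (in each Gᵢ, the family of normalizers in Gᵢ of the members of f(P), P a Sylow p-subgroup of Gᵢ, controls Sylow p-intersections), then G itself is regular for f. -/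
theorem result {G : Type*} [Group G] [Finite G] (p : ℕ) [Fact p.Prime] (hdiv : p ∣ Nat.card G)
    (f : Subgroup G → Set (Subgroup G)) (hf : Cfsg.IsNormalizerFunctor p f) (S : Sylow p G)
    (G₁ G₂ : Subgroup G) (h₁ : (S : Subgroup G) ≤ G₁) (h₂ : (S : Subgroup G) ≤ G₂)
    (hprod : ∀ g : G, ∃ g₁ ∈ G₁, ∃ g₂ ∈ G₂, g = g₁ * g₂)
    (hr₁ : Cfsg.IsFunctorRegular p f G₁) (hr₂ : Cfsg.IsFunctorRegular p f G₂) :
    Cfsg.IsFunctorRegular p f ⊤ := by
  have hS : Cfsg.Agent.H555.SylChain.IsSyl p ⊤ (S : Subgroup G) :=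
    Cfsg.Agent.H555.SylChain.isSyl_top_iff.mpr ⟨S, rfl⟩
  rw [Cfsg.Agent.H555.SylChain.regular_iff hf] at hr₁ hr₂ ⊢
  refine Cfsg.Agent.H555.SylChain.regular_of_factorization hf (S : Subgroup G) G₁ G₂ hS h₁ h₂ ?_
    hr₁ hr₂
  intro g
  obtain ⟨U, hU1, hU2⟩ := Cfsg.Agent.H555.CharP.exists_sylow_inf S G₁ G₂ h₁ h₂ hprod g
  exact ⟨U, Cfsg.Agent.H555.SylChain.isSyl_top_iff.mpr ⟨U, rfl⟩, hU1, hU2⟩

end Cfsg.Agent.S2957
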