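import Cfsg.Agent.S0215
import Cfsg.Agent.Lib.Cores
import Cfsg.Statements.S2962
import Cfsg.Agent.S0205
import Cfsg.Agent.FastGrp
import Cfsg.Agent.Prune
set_option linter.all false
prune_inst 0x7f00000000000000000000000000000000000000000000000000000000000000000000000000000000000000000000000000000000000000000000000000000000000000000000000000000000000000003fffffffffffffffffffffffffffbeffbdffffffff
open scoped Cfsg.Agent.FastGrp

-- part: H254/ZStarElt
section
/-!
# The Z*-theorem for 2-elements of arbitrary order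

`t` a 2-element of the finite group `G` commuting with no other conjugate of itself: then `[t, g] ∈ O(G)` for all `g`.
-/

set_option autoImplicit false

open Cfsg Subgroup
open scoped Pointwise

namespace Cfsg.Agent.H254.ZStarElt

universe u

/-- An element of a finite `p`-group commuting with no other conjugate is central. -/
theorem central_of_isolated {S : Type*} [Group S] [Finite S] {p : ℕ} [Fact p.Prime] (hS : IsPGroup p S)
    {t : S} (h : ∀ g : S, Commute (g * t * g⁻¹) t → g * t * g⁻¹ = t) (g : S) : g * t * g⁻¹ = t := by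
  have hn : Group.IsNilpotent S := hS.isNilpotent
  have hnc : NormalizerCondition S := Group.normalizerCondition_of_isNilpotent
  set H : Subgroup S := centralizer ({t} : Set S) with hH
  have htop : H = ⊤ := by
    by_contra hne
    have hlt := hnc H (lt_top_iff_ne_top.2 hne)
    obtain ⟨x, hxN, hxH⟩ := SetLike.exists_of_lt hlt
    apply hxH
    have ht : t ∈ H := by
      rw [hH, mem_centralizer_singleton_iff]
    have h1 : x * t * x⁻¹ ∈ H := (mem_normalizer_iff.1 hxN t).1 ht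
    rw [hH, mem_centralizer_singleton_iff] at h1
    have h2 := h x h1
    rw [hH, mem_centralizer_singleton_iff]
    exact mul_inv_eq_iff_eq_mul.1 h2
  have h3 : g ∈ H := htop ▸ mem_top g
  rw [hH, mem_centralizer_singleton_iff] at h3
  rw [h3]; group

theorem comm_of_iso {G : Type*} [Group G] {P : Subgroup G} {t : G} (ht : t ∈ P)
    (h : ∀ g : G, g * t * g⁻¹ ∈ P → g * t * g⁻¹ = t) {s : G} (hs : s ∈ P) : s * t = t * s :=
  mul_inv_eq_iff_eq_mul.1 (h s (P.mul_mem (P.mul_mem hs ht) (P.inv_mem hs)))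

/-- In a finite group a `p`-element of a subgroup `C` containing the Sylow subgroup `P` is `C`-conjugate into `P`. -/
theorem exists_conj_mem {G : Type*} [Group G] [Finite G] {p : ℕ} [Fact p.Prime] (P : Sylow p G) (C : Subgroup G)
    (hPC : (P : Subgroup G) ≤ C) {t : G} (ht : t ∈ C) (htp : IsPGroup p (zpowers t)) :
    ∃ c ∈ C, c * t * c⁻¹ ∈ P := by
  let Q : Sylow p C := P.subtype hPC
  have h1 : IsPGroup p (zpowers (⟨t, ht⟩ : C)) := by
    have h2 : (zpowers (⟨t, ht⟩ : C)).map C.subtype = zpowers t := by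
      rw [MonoidHom.map_zpowers]; rfl
    have h3 : IsPGroup p ((zpowers (⟨t, ht⟩ : C)).map C.subtype) := by rw [h2]; exact htp
    exact h3.of_equiv ((zpowers (⟨t, ht⟩ : C)).equivMapOfInjective C.subtype C.subtype_injective).symm
  obtain ⟨R, hR⟩ := h1.exists_le_sylow
  obtain ⟨c, hc⟩ := MulAction.exists_smul_eq C R Q
  refine ⟨c, c.2, ?_⟩
  have h4 : c * (⟨t, ht⟩ : C) * c⁻¹ ∈ Q := by
    rw [← hc]
    exact (Subgroup.mem_smul_pointwise_iff_exists _ _ _).2 ⟨⟨t, ht⟩, hR (mem_zpowers _), rfl⟩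
  exact h4

/-- Powers of weakly closed elements are weakly closed. -/
theorem pow_iso {G : Type*} [Group G] [Finite G] {p : ℕ} [Fact p.Prime] (P : Sylow p G) {t : G} (ht : t ∈ P)
    (h : ∀ g : G, g * t * g⁻¹ ∈ P → g * t * g⁻¹ = t) (m : ℕ) (g : G)
    (hg : g * t ^ m * g⁻¹ ∈ P) : g * t ^ m * g⁻¹ = t ^ m := by
  have hcomm : ∀ s ∈ P, s * t = t * s := fun s hs => comm_of_iso (P := (P : Subgroup G)) ht h hs
  set y := g * t ^ m * g⁻¹ with hy
  have hyt : t ∈ centralizer ({y} : Set G) := by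
    rw [mem_centralizer_singleton_iff]
    exact (hcomm y hg).symm
  have hP' : ((g • P : Sylow p G) : Subgroup G) ≤ centralizer ({y} : Set G) := by
    intro s hs
    obtain ⟨s', hs', rfl⟩ := (Subgroup.mem_smul_pointwise_iff_exists _ _ _).1 hs
    rw [mem_centralizer_singleton_iff]
    have h1 : Commute s' (t ^ m) := (Commute.pow_right (hcomm s' hs') m)
    have h2 : MulAut.conj g • s' = g * s' * g⁻¹ := rfl
    rw [h2, hy]
    calc g * s' * g⁻¹ * (g * t ^ m * g⁻¹) = g * (s' * t ^ m) * g⁻¹ := by group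
      _ = g * (t ^ m * s') * g⁻¹ := by rw [h1.eq]
      _ = _ := by group
  have htp : IsPGroup p (zpowers t) := P.isPGroup'.to_le (zpowers_le.2 ht)
  obtain ⟨c, hc, hct⟩ := exists_conj_mem (g • P) _ hP' hyt htp
  obtain ⟨s', hs', hs2⟩ := (Subgroup.mem_smul_pointwise_iff_exists _ _ _).1 hct
  have h2 : MulAut.conj g • s' = g * s' * g⁻¹ := rfl
  rw [h2] at hs2
  have h3 : s' = (g⁻¹ * c) * t * (g⁻¹ * c)⁻¹ := by
    calc s' = g⁻¹ * (g * s' * g⁻¹) * g := by group
      _ = g⁻¹ * (c * t * c⁻¹) * g := by rw [hs2]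
      _ = _ := by group
  have h4 : s' = t := by rw [h3]; exact h _ (h3 ▸ hs')
  have h5 : c * t ^ m * c⁻¹ = y := by
    rw [hy, ← conj_pow, ← hs2, h4, conj_pow]
  have h6 : c * y = y * c := mem_centralizer_singleton_iff.1 hc
  calc y = c⁻¹ * (c * y) := by group
    _ = c⁻¹ * (y * c) := by rw [h6]
    _ = c⁻¹ * (c * t ^ m * c⁻¹ * c) := by rw [h5]
    _ = t ^ m := by group

/-- A normal subgroup `N` with an involution `u`, central in `G`, of index odd in `N`: the elements of odd order of `N` form a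
normal subgroup; so `N = ⟨u⟩` if `G` has no nontrivial normal subgroup of odd order. -/
theorem le_of_central {G : Type*} [Group G] [Finite G] (hO : ∀ N : Subgroup G, N.Normal → Odd (Nat.card N) → N = ⊥)
    (U : Subgroup G) (hU : ∀ u ∈ U, ∀ g : G, u * g = g * u) (hU2 : IsPGroup 2 U) (N : Subgroup G) (hN : N.Normal) (hUN : U ≤ N)
    (hodd : Odd (U.relIndex N)) : N ≤ U := by
  have h2 : Fact (Nat.Prime 2) := ⟨Nat.prime_two⟩
  have hUn : (U.subgroupOf N).Normal := by
    constructor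
    intro z hz g
    have h1 : g * z * g⁻¹ = z := by
      apply Subtype.ext
      have h3 := hU z hz g
      calc (g : G) * z * (g : G)⁻¹ = z * g * (g : G)⁻¹ := by rw [h3]
        _ = z := by group
    rw [h1]; exact hz
  have hUp : IsPGroup 2 (U.subgroupOf N) := hU2.of_equiv (Subgroup.subgroupOfEquivOfLe hUN).symm
  have hcop : (Nat.card (U.subgroupOf N)).Coprime (U.subgroupOf N).index := by
    obtain ⟨n, hn⟩ := IsPGroup.iff_card.mp hUp
    rw [hn]
    exact Nat.Coprime.pow_left n (Nat.coprime_two_left.mpr hodd)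
  obtain ⟨X, hX⟩ := Subgroup.exists_left_complement'_of_coprime hcop
  have hcard : Nat.card X = (U.subgroupOf N).index := hX.index_eq_card.symm
  have hXodd : Odd (Nat.card X) := by rw [hcard]; exact hodd
  have hdec : ∀ y : N, ∃ z ∈ U.subgroupOf N, ∃ x ∈ X, y = z * x := by
    intro y
    obtain ⟨⟨x, z⟩, hxz⟩ := hX.2 y
    refine ⟨z, z.2, x, x.2, ?_⟩
    rw [← hxz]
    apply Subtype.ext
    exact (hU z z.2 x).symm
  -- the elements of odd order are those of `X`
  have hmem : ∀ y : N, Odd (orderOf y) → y ∈ X := by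
    intro y hy
    obtain ⟨z, hz, x, hx, rfl⟩ := hdec y
    have hzx : Commute z x := by
      apply Subtype.ext
      exact hU z hz x
    have hx1 : x ^ Nat.card X = 1 := by
      have := pow_card_eq_one' (x := (⟨x, hx⟩ : X))
      exact congrArg Subtype.val this
    have h3 : (z * x) ^ (orderOf (z * x) * Nat.card X) = 1 := by
      rw [pow_mul, pow_orderOf_eq_one, one_pow]
    rw [hzx.mul_pow, mul_comm (orderOf (z * x)), pow_mul x, hx1, one_pow, mul_one] at h3
    have h4 : Odd (Nat.card X * orderOf (z * x)) := hXodd.mul hy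
    have h5 : orderOf z ∣ Nat.card X * orderOf (z * x) := orderOf_dvd_of_pow_eq_one h3
    obtain ⟨k, hk⟩ := hUp ⟨z, hz⟩
    have h6 : z ^ 2 ^ k = 1 := congrArg Subtype.val hk
    have h7 : orderOf z ∣ 2 ^ k := orderOf_dvd_of_pow_eq_one h6
    have h8 : orderOf z = 1 := by
      have : Nat.Coprime (2 ^ k) (Nat.card X * orderOf (z * x)) :=
        Nat.Coprime.pow_left k (Nat.coprime_two_left.mpr h4)
      exact Nat.eq_one_of_dvd_coprimes this h7 h5
    rw [orderOf_eq_one_iff] at h8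
    rw [h8, one_mul]
    exact hx
  have hXn : (X.map N.subtype).Normal := by
    constructor
    rintro _ ⟨y, hy, rfl⟩ g
    have h3 : g * (y : G) * g⁻¹ ∈ N := hN.conj_mem _ y.2 g
    refine ⟨⟨g * (y : G) * g⁻¹, h3⟩, hmem _ ?_, rfl⟩
    have h4 : orderOf (⟨g * (y : G) * g⁻¹, h3⟩ : N) = orderOf y := by
      rw [Subgroup.orderOf_mk, ← Subgroup.orderOf_coe y]
      have h := orderOf_injective (MulAut.conj g).toMonoidHom (MulAut.conj g).injective (y : G)
      simpa using h
    rw [h4]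
    have h5 : orderOf y ∣ Nat.card X := by
      have := orderOf_dvd_natCard (⟨y, hy⟩ : X)
      rwa [← orderOf_coe] at this
    exact Odd.of_dvd_nat hXodd h5
  have hXbot : X.map N.subtype = ⊥ := by
    apply hO _ hXn
    rw [Nat.card_congr (X.equivMapOfInjective N.subtype N.subtype_injective).symm.toEquiv]
    exact hXodd
  have hXbot' : X = ⊥ := by
    rwa [Subgroup.map_eq_bot_iff_of_injective _ N.subtype_injective] at hXbot
  intro y hy
  obtain ⟨z, hz, x, hx, h9⟩ := hdec ⟨y, hy⟩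
  rw [hXbot', mem_bot] at hx
  rw [hx, mul_one] at h9
  have : y = (z : G) := congrArg Subtype.val h9
  rw [this]; exact hz

/-- The Z*-theorem for 2-elements of any order, in groups without nontrivial normal subgroups of odd order. -/
theorem central_of_pow (k : ℕ) : ∀ {G : Type u} [Group G] [Finite G]
    (_ : ∀ N : Subgroup G, N.Normal → Odd (Nat.card N) → N = ⊥) (P : Sylow 2 G) {t : G} (_ : t ∈ P)
    (_ : ∀ g : G, g * t * g⁻¹ ∈ P → g * t * g⁻¹ = t) (_ : t ^ 2 ^ k = 1) (g : G), g * t * g⁻¹ = t := by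
  have h2 : Fact (Nat.Prime 2) := ⟨Nat.prime_two⟩
  induction k with
  | zero =>
    intro G _ _ _ P t _ _ h g
    have : t = 1 := by simpa using h
    simp [this]
  | succ k ih =>
    intro G _ _ hO P t ht hiso htk g
    by_cases htk' : t ^ 2 ^ k = 1
    · exact ih hO P ht hiso htk' g
    set u := t ^ 2 ^ k with hu
    have huP : u ∈ P := P.pow_mem ht _
    have hu2 : orderOf u = 2 := by
      apply orderOf_eq_prime _ htk'
      rw [hu, ← pow_mul, ← pow_succ]
      exact htk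
    obtain ⟨N, hN, hNodd, hNu⟩ := Cfsg.Agent.S0215.result P u hu2 huP (fun g hg => pow_iso P ht hiso _ g hg)
    have hN1 := hO N hN hNodd
    have hucen : ∀ g : G, u * g = g * u := by
      intro g
      have h1 := hNu g
      rw [hN1, mem_bot] at h1
      calc u * g = (u * g * u⁻¹ * g⁻¹) * g * u := by group
        _ = g * u := by rw [h1, one_mul]
    set U : Subgroup G := zpowers u with hU
    have hUcen : ∀ v ∈ U, ∀ g : G, v * g = g * v := by
      intro v hv g
      obtain ⟨n, rfl⟩ := mem_zpowers_iff.1 hv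
      exact (Commute.zpow_left (hucen g) n)
    have hUn : U.Normal := ⟨fun v hv g => by
      rw [← hUcen v hv g, mul_assoc, mul_inv_cancel, mul_one]; exact hv⟩
    have hUP : U ≤ P := zpowers_le.2 huP
    have hUp : IsPGroup 2 U := P.isPGroup'.to_le hUP
    -- the quotient
    have hsurj : Function.Surjective (QuotientGroup.mk' U) := QuotientGroup.mk'_surjective U
    let Pb : Sylow 2 (G ⧸ U) := P.mapSurjective hsurj
    have hPb : ∀ x : G, (QuotientGroup.mk' U x) ∈ Pb ↔ x ∈ P := by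
      intro x
      constructor
      · rintro ⟨y, hy, hxy⟩
        have h3 : y⁻¹ * x ∈ U := QuotientGroup.eq.1 hxy
        have : x = y * (y⁻¹ * x) := by group
        rw [this]
        exact P.mul_mem hy (hUP h3)
      · intro hx
        exact ⟨x, hx, rfl⟩
    have hOb : ∀ N : Subgroup (G ⧸ U), N.Normal → Odd (Nat.card N) → N = ⊥ := by
      intro N hN hodd
      have hNc : (N.comap (QuotientGroup.mk' U)).Normal := hN.comap _
      have hUN : U ≤ N.comap (QuotientGroup.mk' U) := by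
        intro v hv
        rw [mem_comap, QuotientGroup.mk'_apply, (QuotientGroup.eq_one_iff v).2 hv]
        exact N.one_mem
      have hrel : U.relIndex (N.comap (QuotientGroup.mk' U)) = Nat.card N := by
        have h3 : (QuotientGroup.mk' U).ker = U := QuotientGroup.ker_mk' U
        have h4 := Subgroup.relIndex_comap (⊥ : Subgroup (G ⧸ U)) (QuotientGroup.mk' U)
          (N.comap (QuotientGroup.mk' U))
        rw [Subgroup.map_comap_eq_self_of_surjective hsurj, MonoidHom.comap_bot, h3] at h4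
        rw [h4, Subgroup.relIndex_bot_left]
      have h5 := le_of_central hO U hUcen hUp _ hNc hUN (by rw [hrel]; exact hodd)
      rw [eq_bot_iff]
      intro x hx
      obtain ⟨y, rfl⟩ := hsurj x
      have h6 : y ∈ U := h5 hx
      rw [mem_bot]
      exact (QuotientGroup.eq_one_iff y).2 h6
    have htb : QuotientGroup.mk' U t ∈ Pb := (hPb t).2 ht
    have hisob : ∀ g : G ⧸ U, g * QuotientGroup.mk' U t * g⁻¹ ∈ Pb →
        g * QuotientGroup.mk' U t * g⁻¹ = QuotientGroup.mk' U t := by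
      intro x hx
      obtain ⟨y, rfl⟩ := hsurj x
      rw [← map_inv, ← map_mul, ← map_mul] at hx ⊢
      rw [hiso y ((hPb _).1 hx)]
    have htkb : (QuotientGroup.mk' U t) ^ 2 ^ k = 1 := by
      rw [← map_pow]
      exact (QuotientGroup.eq_one_iff _).2 (mem_zpowers u)
    have h7 := ih hOb Pb htb hisob htkb (QuotientGroup.mk' U g)
    rw [← map_inv, ← map_mul, ← map_mul] at h7
    apply hiso
    rw [← hPb, h7]
    exact htb

/-- Weak closure passes to quotients by normal subgroups of order prime to `p`. -/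
theorem iso_quotient {G : Type*} [Group G] [Finite G] {p : ℕ} [Fact p.Prime] (P : Sylow p G) {t : G} (ht : t ∈ P)
    (hiso : ∀ g : G, g * t * g⁻¹ ∈ P → g * t * g⁻¹ = t) (N : Subgroup G) [N.Normal]
    (g : G) (hg : ∃ x ∈ P, x⁻¹ * (g * t * g⁻¹) ∈ N) : ∃ n ∈ N, g * t * g⁻¹ = n⁻¹ * t * n := by
  set y := g * t * g⁻¹ with hy
  set C : Subgroup G := (P : Subgroup G) ⊔ N with hC
  have hyC : y ∈ C := by
    obtain ⟨x, hx, hxy⟩ := hg
    have : y = x * (x⁻¹ * y) := by group
    rw [this]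
    exact C.mul_mem (le_sup_left (a := (P : Subgroup G)) hx) (le_sup_right (a := (P : Subgroup G)) hxy)
  have hyp : IsPGroup p (zpowers y) := by
    have h1 : IsPGroup p (zpowers t) := P.isPGroup'.to_le (zpowers_le.2 ht)
    have h2 : (zpowers t).map (MulAut.conj g).toMonoidHom = zpowers y := by
      rw [MonoidHom.map_zpowers]; rfl
    rw [← h2]
    exact h1.map _
  obtain ⟨c, hc, hcy⟩ := exists_conj_mem P C le_sup_left hyC hyp
  have h3 : c * y * c⁻¹ = t := by
    have e : c * y * c⁻¹ = (c * g) * t * (c * g)⁻¹ := by rw [hy]; group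
    rw [e]; apply hiso; rw [← e]; exact hcy
  -- write `c = s n` with `s ∈ P`, `n ∈ N`
  have hc' : c ∈ (((P : Subgroup G) : Set G) * (N : Set G)) := by
    rw [← Subgroup.mul_normal]; exact hc
  obtain ⟨s, hs, n, hn, hsn'⟩ := Set.mem_mul.1 hc'
  have hsn : s * n = c := hsn'
  refine ⟨n, hn, ?_⟩
  have h4 : s * t = t * s := comm_of_iso (P := (P : Subgroup G)) ht hiso hs
  calc y = c⁻¹ * (c * y * c⁻¹) * c := by group
    _ = (s * n)⁻¹ * t * (s * n) := by rw [h3, hsn]
    _ = n⁻¹ * (s⁻¹ * (t * s)) * n := by group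
    _ = n⁻¹ * (s⁻¹ * (s * t)) * n := by rw [h4]
    _ = n⁻¹ * t * n := by group

/-- **The Z*-theorem for 2-elements of arbitrary order.** -/
theorem zstar {G : Type u} [Group G] [Finite G] (P : Sylow 2 G) {t : G} (ht : t ∈ P)
    (hiso : ∀ g : G, g * t * g⁻¹ ∈ P → g * t * g⁻¹ = t) (g : G) :
    g * t * g⁻¹ * t⁻¹ ∈ pPrimeCore 2 G := by
  have h2 : Fact (Nat.Prime 2) := ⟨Nat.prime_two⟩
  have hN : (pPrimeCore 2 G).Normal := Lib.Cores.pPrimeCore_normal 2
  set N := pPrimeCore 2 G with hNdef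
  have hsurj : Function.Surjective (QuotientGroup.mk' N) := QuotientGroup.mk'_surjective N
  let Pb : Sylow 2 (G ⧸ N) := P.mapSurjective hsurj
  have hO : ∀ M : Subgroup (G ⧸ N), M.Normal → Odd (Nat.card M) → M = ⊥ := by
    intro M hM hodd
    rw [eq_bot_iff, ← Lib.Cores.pPrimeCore_quotient_pPrimeCore (G := G) 2]
    exact Lib.Cores.le_pPrimeCore hM (Nat.coprime_two_right.2 hodd)
  have htb : QuotientGroup.mk' N t ∈ Pb := ⟨t, ht, rfl⟩
  have hisob : ∀ g : G ⧸ N, g * QuotientGroup.mk' N t * g⁻¹ ∈ Pb →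
      g * QuotientGroup.mk' N t * g⁻¹ = QuotientGroup.mk' N t := by
    intro x hx
    obtain ⟨y, rfl⟩ := hsurj x
    obtain ⟨z, hz, hzy⟩ := hx
    rw [← map_inv, ← map_mul, ← map_mul] at hzy ⊢
    have h3 : z⁻¹ * (y * t * y⁻¹) ∈ N := QuotientGroup.eq.1 hzy
    obtain ⟨n, hn, h4⟩ := iso_quotient P ht hiso N y ⟨z, hz, h3⟩
    rw [h4, map_mul, map_mul]
    have h5 : QuotientGroup.mk' N n = 1 := (QuotientGroup.eq_one_iff n).2 hn
    rw [map_inv, h5]; simp
  obtain ⟨k, hk⟩ := P.isPGroup' ⟨t, ht⟩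
  have hk' : t ^ 2 ^ k = 1 := congrArg Subtype.val hk
  have h6 := central_of_pow k hO Pb htb hisob (by rw [← map_pow, hk', map_one]) (QuotientGroup.mk' N g)
  rw [← map_inv, ← map_mul, ← map_mul] at h6
  rw [← QuotientGroup.eq_one_iff (N := N)]
  have h7 : QuotientGroup.mk' N (g * t * g⁻¹ * t⁻¹) = 1 := by
    rw [map_mul, h6, map_inv, mul_inv_cancel]
  exact h7

/-- The Z*-theorem for 2-elements commuting with no other conjugate. -/
theorem zstar_of_isolated {G : Type u} [Group G] [Finite G] {t : G} (ht : IsPGroup 2 (zpowers t))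
    (hiso : ∀ g : G, Commute (g * t * g⁻¹) t → g * t * g⁻¹ = t) (g : G) :
    g * t * g⁻¹ * t⁻¹ ∈ pPrimeCore 2 G := by
  have h2 : Fact (Nat.Prime 2) := ⟨Nat.prime_two⟩
  obtain ⟨P, hP⟩ := ht.exists_le_sylow
  have htP : t ∈ P := hP (mem_zpowers t)
  apply zstar P htP
  intro x hx
  apply hiso
  have h3 := central_of_isolated P.isPGroup' (t := (⟨t, htP⟩ : P)) (fun g hg => by
    apply Subtype.ext
    exact hiso g (congrArg Subtype.val hg)) ⟨x * t * x⁻¹, hx⟩
  have h4 : (x * t * x⁻¹) * t * (x * t * x⁻¹)⁻¹ = t := congrArg Subtype.val h3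
  exact mul_inv_eq_iff_eq_mul.1 h4

end Cfsg.Agent.H254.ZStarElt
end

-- part: S2962
section
set_option autoImplicit false
open Cfsg Subgroup
open scoped Pointwise commutatorElement

namespace Cfsg.Agent.S2962

/-- Under the hypotheses of the statement `t` commutes with no other conjugate. -/
theorem isolated {G : Type*} [Group G] (N Q : Subgroup G) [N.Normal] (hG : Q ⊔ N = ⊤)
    (hdisj : Q ⊓ N = ⊥) (t : G) (htZ : t ∈ Q ⊓ Subgroup.centralizer (Q : Set G)) (htQ : t ∈ ⁅Q, Q⁆)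
    (hC : ∀ n ∈ N, n * t = t * n → ∀ q ∈ Q, n * q = q * n) (g : G)
    (hg : Commute (g * t * g⁻¹) t) : g * t * g⁻¹ = t := by
  have hdec : ∀ x : G, ∃ q ∈ Q, ∃ n ∈ N, x = q * n := by
    intro x
    have hx : x ∈ ((Q : Set G) * (N : Set G)) := by
      rw [← Subgroup.mul_normal, hG]; trivial
    obtain ⟨q, hq, n, hn, h⟩ := Set.mem_mul.1 hx
    exact ⟨q, hq, n, hn, h.symm⟩
  have htq : ∀ q ∈ Q, q * t = t * q := fun q hq => mem_centralizer_iff.1 htZ.2 q hq
  set y := g * t * g⁻¹ with hy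
  -- `s = t⁻¹ y ∈ N`
  have hsN : t⁻¹ * y ∈ N := by
    obtain ⟨q, hq, n, hn, rfl⟩ := hdec g
    have h1 : t⁻¹ * y = q * ((t⁻¹ * n * t) * n⁻¹) * q⁻¹ := by
      have h2 : q * t⁻¹ = t⁻¹ * q := by
        have := htq q hq
        calc q * t⁻¹ = t⁻¹ * (t * q) * t⁻¹ := by group
          _ = t⁻¹ * (q * t) * t⁻¹ := by rw [this]
          _ = _ := by group
      have h3 : t * q⁻¹ = q⁻¹ * t := by
        have := htq q hq
        calc t * q⁻¹ = q⁻¹ * (q * t) * q⁻¹ := by group
          _ = q⁻¹ * (t * q) * q⁻¹ := by rw [this]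
          _ = _ := by group
      calc t⁻¹ * y = t⁻¹ * q * (n * t * n⁻¹) * q⁻¹ := by rw [hy]; group
        _ = q * t⁻¹ * (n * t * n⁻¹) * q⁻¹ := by rw [h2]
        _ = _ := by group
    rw [h1]
    apply Normal.conj_mem inferInstance
    apply N.mul_mem _ (N.inv_mem hn)
    have := Normal.conj_mem (inferInstance : N.Normal) n hn t⁻¹
    simpa using this
  set s := t⁻¹ * y with hs
  have hst : s * t = t * s := by
    have h1 : y * t = t * y := hg
    calc s * t = t⁻¹ * (y * t) := by rw [hs]; group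
      _ = t⁻¹ * (t * y) := by rw [h1]
      _ = t * s := by rw [hs]; group
  have hsQ : ∀ q ∈ Q, s * q = q * s := hC s hsN hst
  -- the conjugate statement
  have hCg : ∀ n ∈ N, n * y = y * n → ∀ q ∈ Q, n * (g * q * g⁻¹) = (g * q * g⁻¹) * n := by
    intro n hn hny q hq
    have h1 : g⁻¹ * n * g ∈ N := by
      have := Normal.conj_mem (inferInstance : N.Normal) n hn g⁻¹
      simpa using this
    have h2 : (g⁻¹ * n * g) * t = t * (g⁻¹ * n * g) := by
      calc (g⁻¹ * n * g) * t = g⁻¹ * (n * y) * g := by rw [hy]; group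
        _ = g⁻¹ * (y * n) * g := by rw [hny]
        _ = _ := by rw [hy]; group
    have h3 := hC _ h1 h2 q hq
    calc n * (g * q * g⁻¹) = g * ((g⁻¹ * n * g) * q) * g⁻¹ := by group
      _ = g * (q * (g⁻¹ * n * g)) * g⁻¹ := by rw [h3]
      _ = _ := by group
  have hsy : s * y = y * s := by
    have h1 : y * t = t * y := hg
    calc s * y = t⁻¹ * y * y := by rw [hs]
      _ = t⁻¹ * (y * t) * t⁻¹ * y := by group
      _ = t⁻¹ * (t * y) * t⁻¹ * y := by rw [h1]
      _ = y * s := by rw [hs]; group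
  have hsQg := hCg s hsN hsy
  -- `Q` and its conjugate centralise `t` and `y`
  have hyQ : ∀ q ∈ Q, q * y = y * q := by
    intro q hq
    have e : y = t * s := by rw [hs]; group
    have c : Commute q (t * s) := Commute.mul_right (htq q hq) (hsQ q hq).symm
    rw [← e] at c
    exact c
  have hyQg : ∀ q ∈ Q, (g * q * g⁻¹) * y = y * (g * q * g⁻¹) := by
    intro q hq
    calc (g * q * g⁻¹) * y = g * (q * t) * g⁻¹ := by rw [hy]; group
      _ = g * (t * q) * g⁻¹ := by rw [htq q hq]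
      _ = _ := by rw [hy]; group
  have htQg : ∀ q ∈ Q, (g * q * g⁻¹) * t = t * (g * q * g⁻¹) := by
    intro q hq
    have e : y * s⁻¹ = t := by
      have h1 : y * t = t * y := hg
      calc y * s⁻¹ = y * (y⁻¹ * t) := by rw [hs]; group
        _ = t := by group
    have h1 : Commute s (g * q * g⁻¹) := hsQg q hq
    have c : Commute (g * q * g⁻¹) (y * s⁻¹) := Commute.mul_right (hyQg q hq) h1.symm.inv_right
    rw [e] at c
    exact c
  -- the decomposition of the elements of the conjugate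
  have key : ∀ q ∈ Q, ∃ a ∈ Q, ∃ n ∈ N, g * q * g⁻¹ = a * n ∧ (∀ b ∈ Q, n * b = b * n) ∧
      (∀ b ∈ Q, n * (g * b * g⁻¹) = (g * b * g⁻¹) * n) := by
    intro q hq
    obtain ⟨a, ha, n, hn, han⟩ := hdec (g * q * g⁻¹)
    have en : n = a⁻¹ * (g * q * g⁻¹) := by rw [han]; group
    have h1 : n * t = t * n := by
      have h2 : a⁻¹ * t = t * a⁻¹ := htq a⁻¹ (Q.inv_mem ha)
      rw [en, mul_assoc, htQg q hq, ← mul_assoc, h2, mul_assoc]
    have h2 : n * y = y * n := by
      have h3 : a⁻¹ * y = y * a⁻¹ := hyQ a⁻¹ (Q.inv_mem ha)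
      rw [en, mul_assoc, hyQg q hq, ← mul_assoc, h3, mul_assoc]
    exact ⟨a, ha, n, hn, han, hC n hn h1, hCg n hn h2⟩
  -- the derived subgroup of the conjugate lies in `Q`
  have hder : ∀ x ∈ ⁅Q, Q⁆, g * x * g⁻¹ ∈ Q := by
    have hle : ⁅Q, Q⁆ ≤ Q.comap (MulAut.conj g).toMonoidHom := by
      rw [commutator_le]
      intro q₁ hq₁ q₂ hq₂
      obtain ⟨a₁, ha₁, n₁, hn₁, h₁, hc₁, hd₁⟩ := key q₁ hq₁
      obtain ⟨a₂, ha₂, n₂, hn₂, h₂, hc₂, hd₂⟩ := key q₂ hq₂
      have h12 : n₁ * n₂ = n₂ * n₁ := by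
        have e2 : n₂ = a₂⁻¹ * (g * q₂ * g⁻¹) := by rw [h₂]; group
        have e3 := hc₁ _ (Q.inv_mem ha₂)
        have e4 := hd₁ q₂ hq₂
        calc n₁ * n₂ = n₁ * a₂⁻¹ * (g * q₂ * g⁻¹) := by rw [e2]; group
          _ = a₂⁻¹ * (n₁ * (g * q₂ * g⁻¹)) := by rw [e3]; group
          _ = n₂ * n₁ := by rw [e4, e2]; group
      have h3 : g * ⁅q₁, q₂⁆ * g⁻¹ = ⁅a₁, a₂⁆ := by
        have e3 : g * ⁅q₁, q₂⁆ * g⁻¹ = ⁅g * q₁ * g⁻¹, g * q₂ * g⁻¹⁆ := by
          simp only [commutatorElement_def]; group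
        rw [e3, h₁, h₂]
        have c1 : Commute n₁ a₁ := hc₁ a₁ ha₁
        have c2 : Commute n₁ a₂ := hc₁ a₂ ha₂
        have c3 : Commute n₂ a₁ := hc₂ a₁ ha₁
        have c4 : Commute n₂ a₂ := hc₂ a₂ ha₂
        have c5 : Commute n₁ n₂ := h12
        simp only [commutatorElement_def, mul_inv_rev]
        calc a₁ * n₁ * (a₂ * n₂) * (n₁⁻¹ * a₁⁻¹) * (n₂⁻¹ * a₂⁻¹)
            = a₁ * (n₁ * a₂) * n₂ * n₁⁻¹ * a₁⁻¹ * n₂⁻¹ * a₂⁻¹ := by group
          _ = a₁ * a₂ * (n₁ * n₂) * n₁⁻¹ * a₁⁻¹ * n₂⁻¹ * a₂⁻¹ := by rw [c2.eq]; group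
          _ = a₁ * a₂ * (n₂ * a₁⁻¹) * n₂⁻¹ * a₂⁻¹ := by rw [c5.eq]; group
          _ = a₁ * a₂ * a₁⁻¹ * a₂⁻¹ := by rw [(c3.inv_right).eq]; group
      have h4 : (MulAut.conj g).toMonoidHom ⁅q₁, q₂⁆ = g * ⁅q₁, q₂⁆ * g⁻¹ := rfl
      rw [mem_comap, h4, h3]
      exact Q.mul_mem (Q.mul_mem (Q.mul_mem ha₁ ha₂) (Q.inv_mem ha₁)) (Q.inv_mem ha₂)
    intro x hx
    exact hle hx
  have hyQ' : y ∈ Q := hder t htQ
  have h1 : s ∈ Q ⊓ N := ⟨Q.mul_mem (Q.inv_mem htZ.1) hyQ', hsN⟩
  rw [hdisj, mem_bot] at h1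
  have e : y = t * s := by rw [hs]; group
  rw [e, h1, mul_one]

/-- Let G be a finite group with G = QN, where N is a normal subgroup of G and Q is a non-abelian 2-subgroup with Q ∩ N = 1. Suppose that some nontrivial element t of Z(Q) ∩ [Q, Q] satisfies C_N(Q) = C_N(t). Then [N, Q] is solvable of odd order. -/
theorem result {G : Type*} [Group G] [Finite G] (N Q : Subgroup G) [N.Normal] (hG : Q ⊔ N = ⊤) (hQ : IsPGroup 2 ↥Q) (hQna : ¬ IsMulCommutative ↥Q) (hdisj : Q ⊓ N = ⊥) (t : G) (ht1 : t ≠ 1) (htZ : t ∈ Q ⊓ Subgroup.centralizer (Q : Set G)) (htQ : t ∈ ⁅Q, Q⁆) (hC : N ⊓ Subgroup.centralizer (Q : Set G) = N ⊓ Subgroup.centralizer ({t} : Set G)) : Group.IsSolvable ↥⁅N, Q⁆ ∧ Odd (Nat.card ↥⁅N, Q⁆) := by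
  have h2 : Fact (Nat.Prime 2) := ⟨Nat.prime_two⟩
  have hC' : ∀ n ∈ N, n * t = t * n → ∀ q ∈ Q, n * q = q * n := by
    intro n hn hnt q hq
    have h1 : n ∈ N ⊓ centralizer (Q : Set G) := by
      rw [hC]; exact ⟨hn, mem_centralizer_singleton_iff.2 hnt⟩
    exact (mem_centralizer_iff.1 h1.2 q hq).symm
  have hiso := isolated N Q hG hdisj t htZ htQ hC'
  have htp : IsPGroup 2 (zpowers t) := hQ.to_le (zpowers_le.2 htZ.1)
  have hz := H254.ZStarElt.zstar_of_isolated htp hiso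
  set K := pPrimeCore 2 G with hK
  have hKn : K.Normal := Lib.Cores.pPrimeCore_normal 2
  have hKodd : Odd (Nat.card K) := Nat.coprime_two_right.1 (Lib.Cores.pPrimeCore_coprime (G := G) 2)
  -- `K ≤ N`
  have hKN : K ≤ N := by
    intro k hk
    have hx : k ∈ ((Q : Set G) * (N : Set G)) := by
      rw [← Subgroup.mul_normal, hG]; trivial
    obtain ⟨q, hq, n, hn, h⟩ := Set.mem_mul.1 hx
    have h' : q * n = k := h
    -- `q` is trivial mod `N`
    have h3 : QuotientGroup.mk' N k = QuotientGroup.mk' N q := by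
      rw [← h', map_mul, (QuotientGroup.eq_one_iff n).2 hn |> (fun e => (e : QuotientGroup.mk' N n = 1)), mul_one]
    have h4 : orderOf (QuotientGroup.mk' N k) ∣ Nat.card K := by
      have h5 : orderOf (QuotientGroup.mk' N k) ∣ orderOf k := orderOf_map_dvd _ k
      exact h5.trans (by
        have := orderOf_dvd_natCard (⟨k, hk⟩ : K)
        rwa [Subgroup.orderOf_mk] at this)
    have h6 : ∃ m, orderOf (QuotientGroup.mk' N k) ∣ 2 ^ m := by
      obtain ⟨m, hm⟩ := hQ ⟨q, hq⟩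
      refine ⟨m, ?_⟩
      rw [h3]
      apply orderOf_dvd_of_pow_eq_one
      have h7 : q ^ 2 ^ m = 1 := congrArg Subtype.val hm
      rw [← map_pow, h7, map_one]
    obtain ⟨m, hm⟩ := h6
    have h8 : orderOf (QuotientGroup.mk' N k) = 1 :=
      Nat.eq_one_of_dvd_coprimes (Nat.Coprime.pow_left m (Nat.coprime_two_left.mpr hKodd)) hm h4
    rw [orderOf_eq_one_iff] at h8
    exact (QuotientGroup.eq_one_iff k).1 h8
  -- `N = K C_N(t)`
  have hfac : ∀ n ∈ N, ∃ k ∈ K, ∀ q ∈ Q, (k * n) * q = q * (k * n) := by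
    intro n hn
    set H : Subgroup G := zpowers t ⊔ K with hH
    -- a Sylow 2-subgroup of `H`
    have hTH : zpowers t ≤ H := le_sup_left
    have hnt : n * t * n⁻¹ ∈ H := by
      have h1 := hz n
      have : n * t * n⁻¹ = (n * t * n⁻¹ * t⁻¹) * t := by group
      rw [this]
      exact H.mul_mem (le_sup_right (a := zpowers t) h1) (hTH (mem_zpowers t))
    obtain ⟨P, hP⟩ := (hQ.to_le (zpowers_le.2 htZ.1) : IsPGroup 2 (zpowers t)).exists_le_sylow
    -- Sylow in `H`
    have hTp : IsPGroup 2 ((zpowers t).subgroupOf H) := htp.of_equiv (Subgroup.subgroupOfEquivOfLe hTH).symm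
    have hHdec : ∀ x ∈ H, ∃ a ∈ zpowers t, ∃ b ∈ K, a * b = x := by
      intro x hx
      have hx' : x ∈ (((zpowers t : Subgroup G) : Set G) * (K : Set G)) := by
        rw [← Subgroup.mul_normal]; exact hx
      obtain ⟨a, ha, b, hb, h⟩ := Set.mem_mul.1 hx'
      exact ⟨a, ha, b, hb, h⟩
    have hmax : ∀ R : Subgroup H, IsPGroup 2 R → (zpowers t).subgroupOf H ≤ R → R = (zpowers t).subgroupOf H := by
      intro R hR hle
      apply le_antisymm _ hle
      intro x hx
      obtain ⟨a, ha, b, hb, hab⟩ := hHdec x x.2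
      have hbH : b ∈ H := le_sup_right (a := zpowers t) hb
      have haH : a ∈ H := hTH ha
      have hbR : (⟨b, hbH⟩ : H) ∈ R := by
        have e : (⟨b, hbH⟩ : H) = (⟨a, haH⟩ : H)⁻¹ * x := by
          apply Subtype.ext
          show b = a⁻¹ * x
          rw [← hab]; group
        rw [e]
        exact R.mul_mem (R.inv_mem (hle ha)) hx
      have hb1 : b = 1 := by
        obtain ⟨m, hm⟩ := hR ⟨_, hbR⟩
        have h7 : b ^ 2 ^ m = 1 := congrArg (fun z : R => ((z : H) : G)) hm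
        have h8 : orderOf b ∣ 2 ^ m := orderOf_dvd_of_pow_eq_one h7
        have h9 : orderOf b ∣ Nat.card K := by
          have := orderOf_dvd_natCard (⟨b, hb⟩ : K)
          rwa [Subgroup.orderOf_mk] at this
        have h10 : orderOf b = 1 :=
          Nat.eq_one_of_dvd_coprimes (Nat.Coprime.pow_left m (Nat.coprime_two_left.mpr hKodd)) h8 h9
        rwa [orderOf_eq_one_iff] at h10
      rw [hb1, mul_one] at hab
      show (x : G) ∈ zpowers t
      rw [← hab]; exact ha
    let T : Sylow 2 H :=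
      { toSubgroup := (zpowers t).subgroupOf H
        isPGroup' := hTp
        is_maximal' := fun {R} hR hle => hmax R hR hle }
    have h3 : IsPGroup 2 (zpowers (⟨n * t * n⁻¹, hnt⟩ : H)) := by
      have h4 : IsPGroup 2 (zpowers (n * t * n⁻¹)) := by
        have h2 : (zpowers t).map (MulAut.conj n).toMonoidHom = zpowers (n * t * n⁻¹) := by
          rw [MonoidHom.map_zpowers]; rfl
        rw [← h2]
        exact htp.map _
      have h2 : (zpowers (⟨n * t * n⁻¹, hnt⟩ : H)).map H.subtype = zpowers (n * t * n⁻¹) := by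
        rw [MonoidHom.map_zpowers]; rfl
      have h3 : IsPGroup 2 ((zpowers (⟨n * t * n⁻¹, hnt⟩ : H)).map H.subtype) := by rw [h2]; exact h4
      exact h3.of_equiv ((zpowers (⟨n * t * n⁻¹, hnt⟩ : H)).equivMapOfInjective H.subtype
        H.subtype_injective).symm
    obtain ⟨R, hR⟩ := h3.exists_le_sylow
    obtain ⟨c, hc⟩ := MulAction.exists_smul_eq H R T
    have h4 : c * (⟨n * t * n⁻¹, hnt⟩ : H) * c⁻¹ ∈ T := by
      rw [← hc]
      exact (Subgroup.mem_smul_pointwise_iff_exists _ _ _).2 ⟨_, hR (mem_zpowers _), rfl⟩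
    have h5 : (c : G) * (n * t * n⁻¹) * (c : G)⁻¹ ∈ zpowers t := h4
    obtain ⟨a, ha, b, hb, hab⟩ := hHdec c c.2
    -- `b n` normalises `⟨t⟩`
    have h6 : b * (n * t * n⁻¹) * b⁻¹ ∈ zpowers t := by
      have e : b * (n * t * n⁻¹) * b⁻¹ = a⁻¹ * ((c : G) * (n * t * n⁻¹) * (c : G)⁻¹) * a := by
        rw [← hab]; group
      rw [e]
      exact (zpowers t).mul_mem ((zpowers t).mul_mem ((zpowers t).inv_mem ha) h5) ha
    have h7 : (b * n) * t * (b * n)⁻¹ * t⁻¹ ∈ Q ⊓ N := by
      constructor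
      · have e : (b * n) * t * (b * n)⁻¹ * t⁻¹ = (b * (n * t * n⁻¹) * b⁻¹) * t⁻¹ := by group
        rw [e]
        exact Q.mul_mem ((zpowers_le.2 htZ.1) h6) (Q.inv_mem htZ.1)
      · have hbn : b * n ∈ N := N.mul_mem (hKN hb) hn
        have e : (b * n) * t * (b * n)⁻¹ * t⁻¹ = (b * n) * (t * (b * n)⁻¹ * t⁻¹) := by group
        rw [e]
        exact N.mul_mem hbn (Normal.conj_mem inferInstance _ (N.inv_mem hbn) t)
    rw [hdisj, mem_bot] at h7
    refine ⟨b, hb, ?_⟩
    apply hC' _ (N.mul_mem (hKN hb) hn)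
    calc (b * n) * t = ((b * n) * t * (b * n)⁻¹ * t⁻¹) * t * (b * n) := by group
      _ = t * (b * n) := by rw [h7, one_mul]
  -- `[N, Q] ≤ K`
  have hle : ⁅N, Q⁆ ≤ K := by
    rw [commutator_le]
    intro n hn q hq
    obtain ⟨k, hk, hkq⟩ := hfac n hn
    have e : ⁅n, q⁆ = k⁻¹ * (q * k * q⁻¹) := by
      rw [commutatorElement_def]
      calc n * q * n⁻¹ * q⁻¹ = k⁻¹ * ((k * n) * q) * n⁻¹ * q⁻¹ := by group
        _ = k⁻¹ * (q * (k * n)) * n⁻¹ * q⁻¹ := by rw [hkq q hq]
        _ = _ := by group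
    rw [e]
    exact K.mul_mem (K.inv_mem hk) (hKn.conj_mem k hk q)
  have hodd : Odd (Nat.card ↥⁅N, Q⁆) := Odd.of_dvd_nat hKodd (Subgroup.card_dvd_of_le hle)
  exact ⟨Cfsg.Agent.S0205.result hodd, hodd⟩

end Cfsg.Agent.S2962
end
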