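import Cfsg.Statements.S2963
set_option linter.all false

set_option autoImplicit false
open Cfsg
open scoped Pointwise

namespace Cfsg.Agent.S2963

/-- `C(2^a + r, 2^a)` is odd for `r < 2^a`. -/
theorem choose_odd (a : ℕ) : ∀ r : ℕ, r < 2 ^ a → (2 ^ a + r).choose (2 ^ a) % 2 = 1 := by
  have h2 : Fact (Nat.Prime 2) := ⟨Nat.prime_two⟩
  induction a with
  | zero => intro r hr; simp at hr; subst hr; simp
  | succ a ih =>
    intro r hr
    have h := Choose.choose_modEq_choose_mod_mul_choose_div_nat (n := 2 ^ (a + 1) + r)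
      (k := 2 ^ (a + 1)) (p := 2)
    have e1 : (2 ^ (a + 1)) % 2 = 0 := by omega
    have e2 : (2 ^ (a + 1)) / 2 = 2 ^ a := by omega
    have e3 : (2 ^ (a + 1) + r) / 2 = 2 ^ a + r / 2 := by omega
    rw [e1, e2, e3, Nat.choose_zero_right, one_mul] at h
    have h' : r / 2 < 2 ^ a := by omega
    have := ih (r / 2) h'
    unfold Nat.ModEq at h
    omega

theorem result (n : ℕ) (hn : Odd n) (h : Cfsg.IsPMinimal 2 (Equiv.Perm (Fin n))) : ∃ m : ℕ, n = 2 ^ m + 1 := by
  have h2 : Fact (Nat.Prime 2) := ⟨Nat.prime_two⟩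
  obtain ⟨S⟩ : Nonempty (Sylow 2 (Equiv.Perm (Fin n))) := inferInstance
  obtain ⟨hS, M, ⟨hM, hSM⟩, huniq⟩ := h S
  -- `n ≥ 3`
  have hn1 : n ≠ 1 := by
    rintro rfl
    apply hS
    have : Subsingleton (Equiv.Perm (Fin 1)) := inferInstance
    have e : (S : Subgroup (Equiv.Perm (Fin 1))) = ⊤ := Subsingleton.elim _ _
    rw [e]; infer_instance
  have hn3 : 3 ≤ n := by
    obtain ⟨k, rfl⟩ := hn
    omega
  by_contra hcon
  push Not at hcon
  -- the highest power of two
  set a := Nat.log 2 n with ha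
  have h3 : 2 ^ a ≤ n := Nat.pow_log_le_self 2 (by omega)
  have h4 : n < 2 ^ (a + 1) := Nat.lt_pow_succ_log_self (by omega) n
  obtain ⟨r, hr⟩ : ∃ r, n = 2 ^ a + r := ⟨n - 2 ^ a, by omega⟩
  have hra : r < 2 ^ a := by rw [pow_succ] at h4; omega
  have ha1 : 1 ≤ a := by
    by_contra hlt
    have : a = 0 := by omega
    rw [this] at h4; omega
  have hr1 : 2 ≤ r := by
    by_contra hlt
    have h5 : r ≠ 1 := fun h6 => hcon a (by omega)
    have h6 : r = 0 := by omega
    have h7 : Even (2 ^ a) := (Nat.even_pow.2 ⟨even_two, by omega⟩)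
    rw [hr, h6, add_zero] at hn
    exact (Nat.not_even_iff_odd.2 hn) h7
  have h2a : 2 ≤ 2 ^ a := by
    calc 2 = 2 ^ 1 := rfl
      _ ≤ 2 ^ a := Nat.pow_le_pow_right (by norm_num) ha1
  -- `S` fixes a point
  have hfix1 : (MulAction.fixedPoints (S : Subgroup (Equiv.Perm (Fin n))) (Fin n)).Nonempty := by
    apply S.isPGroup'.nonempty_fixed_point_of_prime_not_dvd_card
    rw [Nat.card_eq_fintype_card, Fintype.card_fin]
    intro hd
    exact (Nat.not_even_iff_odd.2 hn) (even_iff_two_dvd.2 hd)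
  obtain ⟨x, hx⟩ := hfix1
  -- `S` fixes a `2^a`-subset
  have hfix2 : ∃ A : Set (Fin n), A.ncard = 2 ^ a ∧
      (S : Subgroup (Equiv.Perm (Fin n))) ≤ MulAction.stabilizer (Equiv.Perm (Fin n)) A := by
    have hc : Nat.card (Set.powersetCard (Fin n) (2 ^ a)) = n.choose (2 ^ a) := by
      rw [Set.powersetCard.card]; simp
    have hnd : ¬ 2 ∣ Nat.card (Set.powersetCard (Fin n) (2 ^ a)) := by
      rw [hc]
      have := choose_odd a r hra
      rw [← hr] at this
      omega
    obtain ⟨A, hA⟩ := S.isPGroup'.nonempty_fixed_point_of_prime_not_dvd_card _ hnd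
    refine ⟨((A : Finset (Fin n)) : Set (Fin n)), ?_, ?_⟩
    · rw [Set.ncard_coe_finset]
      exact Set.powersetCard.card_eq A
    · intro s hs
      have h5 := hA ⟨s, hs⟩
      rw [MulAction.mem_stabilizer_iff]
      have h6 : ((s • A : Set.powersetCard (Fin n) (2 ^ a)) : Finset (Fin n)) = A := by
        have : (s • A : Set.powersetCard (Fin n) (2 ^ a)) = A := h5
        rw [this]
      rw [Set.powersetCard.coe_smul] at h6
      rw [← Finset.coe_smul_finset, h6]
  obtain ⟨A, hA, hSA⟩ := hfix2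
  have hcardn : Nat.card (Fin n) = n := by simp
  have hAc : Aᶜ.ncard = r := by
    have h5 := Set.ncard_add_ncard_compl A
    rw [hA, hcardn] at h5
    omega
  -- a proper subgroup containing `S` lies in `M`
  have hle : ∀ H : Subgroup (Equiv.Perm (Fin n)), (S : Subgroup (Equiv.Perm (Fin n))) ≤ H → H ≠ ⊤ → H ≤ M := by
    intro H hSH hH
    obtain h5 | ⟨K, hK, hHK⟩ := eq_top_or_exists_le_coatom H
    · exact absurd h5 hH
    · rw [huniq K ⟨hK, hSH.trans hHK⟩] at hHK
      exact hHK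
  -- the two stabilizers
  have hM1 : MulAction.stabilizer (Equiv.Perm (Fin n)) x ≤ M := by
    apply hle
    · intro s hs
      exact hx ⟨s, hs⟩
    · intro htop
      obtain ⟨y, hy⟩ : ∃ y : Fin n, y ≠ x := by
        have : Nontrivial (Fin n) := Fin.nontrivial_iff_two_le.2 (by omega)
        exact exists_ne x
      have h5 : Equiv.swap x y ∈ MulAction.stabilizer (Equiv.Perm (Fin n)) x := by
        rw [htop]; trivial
      rw [MulAction.mem_stabilizer_iff, Equiv.Perm.smul_def, Equiv.swap_apply_left] at h5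
      exact hy h5
  have hstabA : ∀ σ : Equiv.Perm (Fin n), (∀ y ∈ A, σ y ∈ A) →
      σ ∈ MulAction.stabilizer (Equiv.Perm (Fin n)) A := by
    intro σ hσ
    rw [MulAction.mem_stabilizer_iff]
    apply Set.eq_of_subset_of_ncard_le
    · rintro _ ⟨y, hy, rfl⟩
      exact hσ y hy
    · rw [Set.ncard_smul_set]
    · exact Set.toFinite _
  have hM2 : MulAction.stabilizer (Equiv.Perm (Fin n)) A ≤ M := by
    apply hle _ hSA
    intro htop
    obtain ⟨y, hy⟩ : A.Nonempty := by
      rw [← Set.ncard_pos]; omega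
    obtain ⟨z, hz⟩ : Aᶜ.Nonempty := by
      rw [← Set.ncard_pos]; omega
    have h5 : Equiv.swap y z ∈ MulAction.stabilizer (Equiv.Perm (Fin n)) A := by
      rw [htop]; trivial
    rw [MulAction.mem_stabilizer_iff] at h5
    apply hz
    rw [← h5]
    exact ⟨y, hy, by simp⟩
  -- a transposition in `M` moving `x`
  obtain ⟨y, hyx, hyM⟩ : ∃ y : Fin n, y ≠ x ∧ Equiv.swap x y ∈ M := by
    by_cases hxA : x ∈ A
    · obtain ⟨y, hy, hyx⟩ : ∃ y ∈ A, y ≠ x := Set.exists_ne_of_one_lt_ncard (by omega) x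
      refine ⟨y, hyx, hM2 (hstabA _ ?_)⟩
      intro z hz
      by_cases h5 : z = x
      · rw [h5, Equiv.swap_apply_left]; exact hy
      by_cases h6 : z = y
      · rw [h6, Equiv.swap_apply_right]; exact hxA
      · rw [Equiv.swap_apply_of_ne_of_ne h5 h6]; exact hz
    · obtain ⟨y, hy, hyx⟩ : ∃ y ∈ Aᶜ, y ≠ x := Set.exists_ne_of_one_lt_ncard (by omega) x
      refine ⟨y, hyx, hM2 (hstabA _ ?_)⟩
      intro z hz
      have h5 : z ≠ x := by rintro rfl; exact hxA hz
      have h6 : z ≠ y := by rintro rfl; exact hy hz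
      rw [Equiv.swap_apply_of_ne_of_ne h5 h6]; exact hz
  -- all transpositions lie in `M`
  have hsw0 : ∀ z w : Fin n, z ≠ x → w ≠ x → Equiv.swap z w ∈ M := by
    intro z w hz hw
    apply hM1
    rw [MulAction.mem_stabilizer_iff, Equiv.Perm.smul_def]
    exact Equiv.swap_apply_of_ne_of_ne hz.symm hw.symm
  have hsw1 : ∀ z : Fin n, Equiv.swap x z ∈ M := by
    intro z
    by_cases hzx : z = x
    · rw [hzx, Equiv.swap_self]; exact M.one_mem
    by_cases hzy : z = y
    · rw [hzy]; exact hyM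
    have h5 : Equiv.swap y z * Equiv.swap x y * (Equiv.swap y z)⁻¹ = Equiv.swap x z := by
      rw [← Equiv.swap_apply_apply]
      rw [Equiv.swap_apply_left, Equiv.swap_apply_of_ne_of_ne hyx.symm (Ne.symm hzx)]
    rw [← h5]
    exact M.mul_mem (M.mul_mem (hsw0 y z hyx hzx) hyM) (M.inv_mem (hsw0 y z hyx hzx))
  have htop : M = ⊤ := by
    rw [eq_top_iff, ← Equiv.Perm.closure_isSwap, Subgroup.closure_le]
    rintro _ ⟨z, w, hzw, rfl⟩
    by_cases hz : z = x
    · rw [hz]; exact hsw1 w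
    by_cases hw : w = x
    · rw [hw, Equiv.swap_comm]; exact hsw1 z
    exact hsw0 z w hz hw
  exact hM.1 htop

end Cfsg.Agent.S2963
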