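import Cfsg.Agent.H264.CDLarge
import Cfsg.Statements.S2990
import Cfsg.Agent.H260.Push5
set_option linter.all false

-- part: H260/ClEquiv
section
/-!
# Centrally large subgroups and isomorphisms
-/

set_option autoImplicit false

namespace Cfsg.Agent.H260.ClEquiv

open Subgroup

variable {P P' : Type*} [Group P] [Group P']

theorem card_map (e : P ≃* P') (R : Subgroup P) : Nat.card (R.map e.toMonoidHom) = Nat.card R :=
  Nat.card_congr (R.equivMapOfInjective e.toMonoidHom e.injective).symm.toEquiv

theorem card_center_map (e : P ≃* P') (R : Subgroup P) :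
    Nat.card (center (R.map e.toMonoidHom : Subgroup P')) = Nat.card (center R) :=
  Nat.card_congr (Subgroup.centerCongr (R.equivMapOfInjective e.toMonoidHom e.injective)).symm.toEquiv

theorem map_symm_map (e : P ≃* P') (R : Subgroup P) :
    (R.map e.toMonoidHom).map e.symm.toMonoidHom = R := by
  rw [Subgroup.map_map]
  have : e.symm.toMonoidHom.comp e.toMonoidHom = MonoidHom.id P := by
    ext x; simp
  rw [this, Subgroup.map_id]

theorem map_map_symm (e : P ≃* P') (R : Subgroup P') :
    (R.map e.symm.toMonoidHom).map e.toMonoidHom = R := by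
  rw [Subgroup.map_map]
  have : e.toMonoidHom.comp e.symm.toMonoidHom = MonoidHom.id P' := by
    ext x; simp
  rw [this, Subgroup.map_id]

theorem maxCentralProduct_eq (e : P ≃* P') : Cfsg.maxCentralProduct P = Cfsg.maxCentralProduct P' := by
  unfold Cfsg.maxCentralProduct
  congr 1
  ext k
  constructor
  · rintro ⟨R, hR⟩
    exact ⟨R.map e.toMonoidHom, by rw [card_map, card_center_map]; exact hR⟩
  · rintro ⟨R, hR⟩
    refine ⟨R.map e.symm.toMonoidHom, ?_⟩
    rw [card_map, card_center_map]
    exact hR

theorem isCentrallyLarge_map (e : P ≃* P') {R : Subgroup P} :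
    Cfsg.IsCentrallyLarge (R.map e.toMonoidHom) ↔ Cfsg.IsCentrallyLarge R := by
  unfold Cfsg.IsCentrallyLarge
  rw [card_map, card_center_map, maxCentralProduct_eq e]

theorem isMinimalCentrallyLarge_map (e : P ≃* P') {R : Subgroup P} :
    Cfsg.IsMinimalCentrallyLarge (R.map e.toMonoidHom) ↔ Cfsg.IsMinimalCentrallyLarge R := by
  unfold Cfsg.IsMinimalCentrallyLarge
  rw [isCentrallyLarge_map]
  constructor
  · rintro ⟨h1, h2⟩
    refine ⟨h1, fun R' hR' hcl => ?_⟩
    have := h2 (R'.map e.toMonoidHom) (Subgroup.map_mono hR') ((isCentrallyLarge_map e).mpr hcl)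
    exact Subgroup.map_injective e.injective this
  · rintro ⟨h1, h2⟩
    refine ⟨h1, fun R' hR' hcl => ?_⟩
    have h3 : R'.map e.symm.toMonoidHom ≤ R := by
      rw [← map_symm_map e R]
      exact Subgroup.map_mono hR'
    have := h2 (R'.map e.symm.toMonoidHom) h3 ((isCentrallyLarge_map e.symm).mpr hcl)
    rw [← this, map_map_symm]

end Cfsg.Agent.H260.ClEquiv
end

-- part: S2990
section
set_option autoImplicit false
open Cfsg

namespace Cfsg.Agent.S2990

/-- Let G be a finite group and S a Sylow p-subgroup of G in the basic pushing-up situation (G ≠ 1, C_G(O_p(G)) ≤ O_p(G), S lies in a unique maximal subgroup of G, and some quotient of G is isomorphic to PSL₂ over a field of order a power of p), and suppose that S centralizes Z(J(S)), where J(S) is generated by the abelian subgroups of S of largest order (that is, J̃(S) = C_S(Z(J(S))) = S). Call a subgroup R of S centrally large if |R|·|Z(R)| is as large as possible among subgroups of S, let Q be a minimal centrally large subgroup of S and let S_MCL be the subgroup generated by all minimal centrally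 large subgroups of S. Then the derived subgroup [Q, Q] is characteristic in S; Z(S) ∩ [Q, Q] or S_MCL is normal in G; and if [Q, Q] = 1, the minimal centrally large subgroups of S are exactly the abelian subgroups of S of largest order. -/
theorem result {G : Type*} [Group G] [Finite G] {p : ℕ} [Fact p.Prime] (S : Subgroup G) (hE : Cfsg.IsPushingUpSituation p S) (hJ : S ≤ Subgroup.centralizer (Cfsg.centerThompsonAOf S : Set G)) (Q : Subgroup ↥S) (hQ : Cfsg.IsMinimalCentrallyLarge Q) : (⁅Q, Q⁆).Characteristic ∧ (((S ⊓ Subgroup.centralizer (S : Set G)) ⊓ (⁅Q, Q⁆).map S.subtype).Normal ∨ ((Cfsg.minimalCentrallyLargeJoin ↥S).map S.subtype).Normal) ∧ (⁅Q, Q⁆ = ⊥ → ∀ R : Subgroup ↥S, Cfsg.IsMinimalCentrallyLarge R ↔ R ∈ Cfsg.maxAbelianSubgroups ↥S) := by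
  obtain ⟨q, M, c⟩ := H260.Push.exists_core hE
  have hR := (H260.Push.mcl_iff S Q).mp hQ
  refine ⟨?_, ?_, ?_⟩
  · rw [Subgroup.characteristic_iff_map_eq]
    intro φ
    rw [Subgroup.map_commutator]
    exact H264.CD.commutator_eq' ((H260.ClEquiv.isMinimalCentrallyLarge_map φ).mpr hQ) hQ
  · rw [Subgroup.map_commutator]
    have h1 : (Cfsg.minimalCentrallyLargeJoin ↥S).map S.subtype =
        sSup {R : Subgroup G | H260.Push.MCL S R} := by
      unfold Cfsg.minimalCentrallyLargeJoin
      apply le_antisymm
      · rw [Subgroup.map_le_iff_le_comap]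
        apply sSup_le
        intro R hR'
        rw [← Subgroup.map_le_iff_le_comap]
        exact le_sSup ((H260.Push.mcl_iff S R).mp hR')
      · apply sSup_le
        intro R hR'
        have h2 := H260.Push.mcl_of_ambient hR'
        rw [← H260.Push.map_subgroupOf' hR'.1.1]
        exact Subgroup.map_mono (le_sSup h2)
    rw [h1]
    exact H260.Push.inf_commutator_normal_or c hJ hR
  · intro h R
    apply H264.CD.min_iff_of_comm hQ
    rwa [← Subgroup.commutator_eq_bot_iff_le_centralizer]

end Cfsg.Agent.S2990
end
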