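import Cfsg.Agent.H260.GN11
import Cfsg.Agent.H264.CD
import Cfsg.Agent.S2990
import Cfsg.Agent.H264.CDLarge
import Cfsg.Agent.Lib.NormalAbelian
import Cfsg.Agent.S2769
import Cfsg.Agent.S2770
import Cfsg.Agent.S2989
import Cfsg.Statements.S2991
set_option linter.all false

-- part: H260/GN12
section
/-!
# Glauberman-Niles, part 12: the Chermak-Delgado lattice
-/

set_option autoImplicit false
set_option linter.unusedSectionVars false
set_option linter.unusedVariables false
set_option linter.style.haveILetI false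

namespace Cfsg.Agent.H260.GN

open Subgroup Push
open scoped commutatorElement

section comap

variable {P G : Type*} [Group P] [Group G] {β : P →* G} (hβ : Function.Injective β)
include hβ

theorem map_comap_eq' {X : Subgroup G} (hX : X ≤ β.range) : (X.comap β).map β = X := by
  rw [Subgroup.map_comap_eq, inf_eq_right.mpr hX]

theorem comap_iSup' {κ : Sort*} {X : κ → Subgroup G} (hX : ∀ k, X k ≤ β.range) :
    (⨆ k, X k).comap β = ⨆ k, (X k).comap β := by
  apply Subgroup.map_injective hβ
  rw [map_comap_eq' hβ (iSup_le hX), Subgroup.map_iSup]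
  congr 1
  ext1 k
  rw [map_comap_eq' hβ (hX k)]

theorem card_comap' {X : Subgroup G} (hX : X ≤ β.range) : Nat.card (X.comap β) = Nat.card X := by
  rw [← card_map' β hβ, map_comap_eq' hβ hX]

theorem centralizer_comap' {X : Subgroup G} (hX : X ≤ β.range) :
    centralizer ((X.comap β : Subgroup P) : Set P) = (β.range ⊓ centralizer (X : Set G)).comap β := by
  ext x
  rw [mem_centralizer_iff, mem_comap]
  constructor
  · intro h
    refine ⟨⟨x, rfl⟩, mem_centralizer_iff.mpr ?_⟩
    intro y hy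
    obtain ⟨z, rfl⟩ := hX hy
    rw [← map_mul, ← map_mul, h z hy]
  · intro h z hz
    apply hβ
    rw [map_mul, map_mul]
    exact mem_centralizer_iff.mp h.2 _ hz

end comap

section fam

variable {G : Type*} [Group G] {ι : Type*} {P : Type*} [Group P] [Finite P] {β : P →* G}
  (hβ : Function.Injective β)

/-- `X ≤ S` lies in the Chermak-Delgado lattice of `S`. -/
def CDb (β : P →* G) (X : Subgroup G) : Prop := X ≤ β.range ∧ Cfsg.IsCentralizerLarge (X.comap β)

include hβ

theorem CDb.of_card {X : Subgroup G} (hX : X ≤ β.range)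
    (h : Cfsg.maxCentralizerProduct P ≤ Nat.card X * Nat.card (β.range ⊓ centralizer (X : Set G) : Subgroup G)) :
    CDb β X := by
  refine ⟨hX, H264.CD.cl_of_ge ?_⟩
  rwa [card_comap' hβ hX, centralizer_comap' hβ hX, card_comap' hβ inf_le_left]

theorem CDb.card {X : Subgroup G} (h : CDb β X) :
    Nat.card X * Nat.card (β.range ⊓ centralizer (X : Set G) : Subgroup G) = Cfsg.maxCentralizerProduct P := by
  have := h.2
  unfold Cfsg.IsCentralizerLarge at this
  rwa [card_comap' hβ h.1, centralizer_comap' hβ h.1, card_comap' hβ inf_le_left] at this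

theorem CDb.iSup {κ : Sort*} [hκ : Nonempty κ] {X : κ → Subgroup G} (h : ∀ k, CDb β (X k)) :
    CDb β (⨆ k, X k) := by
  refine ⟨iSup_le fun k => (h k).1, ?_⟩
  rw [comap_iSup' hβ fun k => (h k).1]
  apply H264.CD.CL.sSup_mem
  · obtain ⟨k⟩ := hκ
    exact ⟨_, k, rfl⟩
  · rintro _ ⟨k, rfl⟩
    exact (h k).2

variable {p : ℕ} [hp : Fact p.Prime] {S : Subgroup G}

theorem Loc.cdV {q : ℕ} {L Q V C M : Subgroup G} (c : Loc p q β.range L Q V C M)
    (hCL : Cfsg.IsCentralizerLarge (⊤ : Subgroup P)) : CDb β V := by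
  apply CDb.of_card hβ c.VS
  rw [c.cV, c.cardV]
  have h1 : CDb β β.range := by
    refine ⟨le_rfl, ?_⟩
    have : β.range.comap β = ⊤ := by
      rw [eq_top_iff]
      exact fun x _ => ⟨x, rfl⟩
    rwa [this]
  have h2 := h1.card hβ
  rw [← h2]
  have h3 : Nat.card (β.range ⊓ centralizer (β.range : Set G) : Subgroup G) = Nat.card (cen β.range) := rfl
  rw [h3, c.cardS]
  exact le_of_eq (by ring)

theorem Loc.cdcj {q : ℕ} {L Q V C M : Subgroup G} (c : Loc p q β.range L Q V C M) {X : Subgroup G}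
    (hX : CDb β X) (hVX : V ≤ X) (hXQ : X ≤ Q) {l : G} (hl : l ∈ L) : CDb β (cj l X) := by
  have h1 : cj l X ≤ Q := by
    have := cj_mono (g := l) hXQ
    rwa [c.Qn l hl] at this
  apply CDb.of_card hβ (h1.trans c.QS)
  rw [← hX.card hβ, card_cj]
  apply Nat.mul_le_mul le_rfl
  rw [← card_cj l (β.range ⊓ centralizer (X : Set G))]
  haveI := c.finS
  haveI : Finite (β.range ⊓ centralizer (cj l X : Set G) : Subgroup G) := fin_le inf_le_left
  apply card_mono'
  have h2 : β.range ⊓ centralizer (X : Set G) ≤ Q := by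
    rw [← c.cV]
    exact inf_le_inf le_rfl (centralizer_le (SetLike.coe_subset_coe.mpr hVX))
  have h3 : cj l (β.range ⊓ centralizer (X : Set G)) ≤ Q := by
    have := cj_mono (g := l) h2
    rwa [c.Qn l hl] at this
  apply le_inf (h3.trans c.QS)
  rw [cj_inf, cj_centralizer]
  exact inf_le_right

end fam

section words

variable {G : Type*} [Group G] {ι : Type*} {P : Type*} [Group P] [Finite P] {β : P →* G}
  (hβ : Function.Injective β) {p : ℕ} [hp : Fact p.Prime] {q : ι → ℕ} {L Q V C M : ι → Subgroup G}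

/-- `⟨(V i)^w⟩` for words `w` of length `n`. -/
def En (L V : ι → Subgroup G) (n : ℕ) : Subgroup G := ⨆ w : Wd L n, ⨆ i, cj (w : G) (V i)

theorem le_En {n : ℕ} {w : G} (hw : w ∈ Wd L n) (i : ι) : cj w (V i) ≤ En L V n :=
  (le_iSup (fun i => cj w (V i)) i).trans (le_iSup (fun w : Wd L n => ⨆ i, cj (w : G) (V i)) ⟨w, hw⟩)

theorem En_le {n : ℕ} {X : Subgroup G} (h : ∀ w ∈ Wd L n, ∀ i, cj w (V i) ≤ X) : En L V n ≤ X :=
  iSup_le fun w => iSup_le fun i => h w w.2 i

variable (loc : ∀ i, Loc p (q i) β.range (L i) (Q i) (V i) (C i) (M i)) (hall : ∀ n, CommN L V n)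
include loc hall

theorem cjw_le {n : ℕ} {w : G} (hw : w ∈ Wd L n) (i : ι) : cj w (V i) ≤ β.range := by
  have h := inS loc (hall n) (x := 1) (y := w) (by
    have : (1 : G)⁻¹ * w = w := by group
    rw [this]
    exact wd_le i (Nat.le_succ n) hw) i
  rwa [cj_one] at h

theorem cm_words {n m : ℕ} {w w' : G} (hw : w ∈ Wd L n) (hw' : w' ∈ Wd L m) (i j : ι) :
    Cm (cj w (V i)) (cj w' (V j)) :=
  (hall (n + m)).cm (wd_mul (wd_inv hw) hw') i j

theorem En_le_S (n : ℕ) : En L V n ≤ β.range := En_le fun w hw i => cjw_le loc hall hw i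

theorem En_cm (n m : ℕ) : Cm (En L V n) (En L V m) :=
  Cm.iSup_left fun w => Cm.iSup_left fun i => Cm.iSup_right fun w' => Cm.iSup_right fun j =>
    cm_words loc hall w.2 w'.2 i j

include hβ in
theorem cdEn [hι : Nonempty ι] (hCL : Cfsg.IsCentralizerLarge (⊤ : Subgroup P)) (n : ℕ) :
    CDb β (En L V n) := by
  induction n with
  | zero =>
    have h1 : En L V 0 = ⨆ i, V i := by
      apply le_antisymm
      · apply En_le
        intro w hw i
        rw [wd_zero] at hw
        subst hw
        rw [cj_one]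
        exact le_iSup V i
      · apply iSup_le
        intro i
        have := le_En (V := V) (wd_zero.mpr rfl : (1 : G) ∈ Wd L 0) i
        rwa [cj_one] at this
    rw [h1]
    exact CDb.iSup hβ fun i => (loc i).cdV hβ hCL
  | succ n ih =>
    have h1 : En L V (n + 1) = ⨆ j, ⨆ l : L j, cj (l : G) (En L V n) := by
      apply le_antisymm
      · apply En_le
        intro w hw i
        obtain ⟨j, l, hl, w', hw', rfl⟩ := wd_succ.mp hw
        rw [← cj_mul]
        exact (cj_mono (le_En hw' i)).trans ((le_iSup (fun l : L j => cj (l : G) (En L V n)) ⟨l, hl⟩).trans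
          (le_iSup (fun j => ⨆ l : L j, cj (l : G) (En L V n)) j))
      · apply iSup_le
        intro j
        apply iSup_le
        rintro ⟨l, hl⟩
        show cj l (En L V n) ≤ _
        rw [cj_le_iff]
        apply En_le
        intro w hw i
        rw [le_cj_iff, inv_inv, cj_mul]
        exact le_En (wd_cons hl hw) i
    rw [h1]
    apply CDb.iSup hβ
    intro j
    apply CDb.iSup hβ
    rintro ⟨l, hl⟩
    have hVE : V j ≤ En L V n := by
      have := le_En (V := V) (wd_one j n : (1 : G) ∈ Wd L n) j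
      rwa [cj_one] at this
    apply (loc j).cdcj hβ ih hVE _ hl
    apply (loc j).le_Q (En_le_S loc hall n)
    exact (En_cm loc hall n n).mono hVE le_rfl

/-- **The abelian subgroup.** -/
theorem exists_E [hι : Nonempty ι] (hβ : Function.Injective β)
    (hCL : Cfsg.IsCentralizerLarge (⊤ : Subgroup P)) :
    ∃ E : Subgroup P, Cfsg.IsCentralizerLarge E ∧ E ≤ centralizer (E : Set P) ∧
      (∀ i, V i ≤ E.map β) ∧ (∀ i, ∀ l ∈ L i, cj l (E.map β) = E.map β) ∧
      ∀ F : Subgroup P, (∀ i, V i ≤ F.map β) → (∀ i, ∀ l ∈ L i, cj l (F.map β) = F.map β) → E ≤ F := by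
  set E' : Subgroup G := ⨆ n, En L V n with hE'
  have hS : E' ≤ β.range := iSup_le fun n => En_le_S loc hall n
  have hcm : Cm E' E' := Cm.iSup_left fun n => Cm.iSup_right fun m => En_cm loc hall n m
  have hcd : CDb β E' := CDb.iSup hβ fun n => cdEn hβ loc hall hCL n
  have hmap : (E'.comap β).map β = E' := map_comap_eq' hβ hS
  have hle : ∀ {n : ℕ} {w : G}, w ∈ Wd L n → ∀ i, cj w (V i) ≤ E' := fun {n w} hw i =>
    (le_En hw i).trans (le_iSup (fun n => En L V n) n)
  refine ⟨E'.comap β, hcd.2, ?_, ?_, ?_, ?_⟩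
  · intro x hx
    rw [mem_centralizer_iff]
    intro y hy
    apply hβ
    rw [map_mul, map_mul]
    exact hcm _ hy _ hx
  · intro i
    rw [hmap]
    have := hle (wd_zero.mpr rfl : (1 : G) ∈ Wd L 0) i
    rwa [cj_one] at this
  · intro i l hl
    rw [hmap]
    have key : ∀ l ∈ L i, cj l E' ≤ E' := by
      intro l hl
      rw [cj_le_iff]
      apply iSup_le
      intro n
      apply En_le
      intro w hw j
      rw [le_cj_iff, inv_inv, cj_mul]
      exact hle (wd_cons hl hw) j
    apply le_antisymm (key l hl)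
    rw [le_cj_iff]
    exact key _ ((L i).inv_mem hl)
  · intro F h1 h2
    have h3 : E' ≤ F.map β := by
      apply iSup_le
      intro n
      apply En_le
      induction n with
      | zero =>
        intro w hw i
        rw [wd_zero] at hw
        subst hw
        rw [cj_one]
        exact h1 i
      | succ n ih =>
        intro w hw i
        obtain ⟨j, l, hl, w', hw', rfl⟩ := wd_succ.mp hw
        rw [← cj_mul, ← h2 j l hl]
        exact cj_mono (ih w' hw' i)
    intro x hx
    exact (map_mem_iff β hβ).mp (h3 hx)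

end words

end Cfsg.Agent.H260.GN
end

-- part: H260/GN13
section
/-!
# Glauberman-Niles, part 13: the ambient pushout and the second characteristic subgroup
-/

set_option autoImplicit false
set_option linter.unusedSectionVars false
set_option linter.unusedVariables false
set_option linter.style.haveILetI false

namespace Cfsg.Agent.H260.GN

open Subgroup Push
open scoped commutatorElement

universe u

section core

variable {G : Type*} [Group G] [Finite G] {p q : ℕ} [hp : Fact p.Prime] {S T M : Subgroup G}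

theorem loc_of_core (c : Core p q S T M) (hZ : ¬ (cen S).Normal) {A : Subgroup G} (hA : LargeAb S A)
    (hAT : ¬ A ≤ T) (hel : ∀ z ∈ cen S, z ^ p = 1) : Loc p q S ⊤ T (cen T) (center G) M := by
  have N := c.nat hZ hA hAT
  have hTn := c.normT
  refine
    { fin := inferInstance
      SL := le_top
      pg := c.pgS
      idx := ?_
      QS := c.le
      Qn := fun g _ => cj_normal g T
      Vd := rfl
      cV := N.centX
      Cd := ?_
      SM := c.leM
      ML := le_top
      ex := ?_
      gen := fun g _ hg => c.gen g hg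
      ti := fun g _ hg => c.ti g hg
      quad := N.quad
      cmc := N.cmc
      cardS := c.card
      cardV := N.cardX
      cardZ := N.cardZ
      big := ⟨A, hA, hAT⟩
      el := hel }
  · obtain ⟨P, hP⟩ := c.syl
    rw [← hP, relIndex_top_right]
    exact P.not_dvd_index
  · apply le_antisymm
    · apply le_inf c.center_le
      intro x hx
      rw [mem_centralizer_iff]
      intro y _
      exact mem_center_iff.mp hx y
    · intro x hx
      rw [mem_center_iff]
      intro g
      exact mem_centralizer_iff.mp hx.2 g (mem_top g)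
  · obtain ⟨g, hg⟩ := c.exists_notMem_M
    exact ⟨g, mem_top g, hg⟩

end core

/-! ## invariance of the Thompson subgroup -/

section thompson

variable {P P' : Type*} [Group P] [Group P']

theorem comm_iff_all (B : Subgroup P) : IsMulCommutative B ↔ ∀ x ∈ B, ∀ y ∈ B, x * y = y * x := by
  constructor
  · intro hB x hx y hy
    have := hB.is_comm.comm (⟨x, hx⟩ : B) ⟨y, hy⟩
    exact congrArg Subtype.val this
  · intro hB
    exact ⟨⟨fun a b => Subtype.ext (hB a a.2 b b.2)⟩⟩

theorem comm_map_iff (e : P ≃* P') (A : Subgroup P) :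
    IsMulCommutative (A.map e.toMonoidHom) ↔ IsMulCommutative A := by
  rw [comm_iff_all, comm_iff_all]
  constructor
  · intro h1 x hx y hy
    have := h1 _ ⟨x, hx, rfl⟩ _ ⟨y, hy, rfl⟩
    apply e.injective
    rw [map_mul, map_mul]
    exact this
  · rintro h1 _ ⟨x, hx, rfl⟩ _ ⟨y, hy, rfl⟩
    rw [← map_mul, ← map_mul, h1 x hx y hy]

theorem maxAb_map (e : P ≃* P') {A : Subgroup P} (hA : A ∈ Cfsg.maxAbelianSubgroups P) :
    A.map e.toMonoidHom ∈ Cfsg.maxAbelianSubgroups P' := by
  refine ⟨(comm_map_iff e A).mpr hA.1, ?_⟩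
  intro B hB
  rw [ClEquiv.card_map]
  have h1 := hA.2 (B.map e.symm.toMonoidHom) ((comm_map_iff e.symm B).mpr hB)
  rwa [ClEquiv.card_map] at h1

theorem thompson_map_le (e : P ≃* P') :
    (Cfsg.thompsonSubgroupA P).map e.toMonoidHom ≤ Cfsg.thompsonSubgroupA P' := by
  unfold Cfsg.thompsonSubgroupA
  rw [Subgroup.map_le_iff_le_comap]
  apply sSup_le
  intro A hA
  rw [← Subgroup.map_le_iff_le_comap]
  exact le_sSup (maxAb_map e hA)

theorem thompson_map (e : P ≃* P') :
    (Cfsg.thompsonSubgroupA P).map e.toMonoidHom = Cfsg.thompsonSubgroupA P' := by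
  apply le_antisymm (thompson_map_le e)
  have h := Subgroup.map_mono (f := e.toMonoidHom) (thompson_map_le e.symm)
  rwa [ClEquiv.map_map_symm] at h

end thompson

/-- The configurations in which `S₁` is not normal. -/
structure Conf (p : ℕ) {P : Type u} [Group P] (S₁ : Subgroup P) : Type (u + 1) where
  G : Type u
  [grp : Group G]
  [fin : Finite G]
  P₀ : Subgroup G
  e : P ≃* P₀
  hE : Cfsg.IsPushingUpSituation p P₀
  hn : ¬ (S₁.map (P₀.subtype.comp e.toMonoidHom)).Normal

attribute [instance] Conf.grp Conf.fin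

namespace Conf

variable {p : ℕ} {P : Type u} [Group P] {S₁ : Subgroup P}

/-- the embedding. -/
def f (i : Conf p S₁) : P →* i.G := i.P₀.subtype.comp i.e.toMonoidHom

theorem f_inj (i : Conf p S₁) : Function.Injective i.f := by
  intro x y h
  exact i.e.injective (Subtype.ext h)

theorem f_range (i : Conf p S₁) : i.f.range = i.P₀ := by
  unfold f
  rw [MonoidHom.range_eq_map, ← Subgroup.map_map]
  have : (⊤ : Subgroup P).map i.e.toMonoidHom = ⊤ := by
    rw [← MonoidHom.range_eq_map, MonoidHom.range_eq_top]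
    exact i.e.surjective
  rw [this, ← MonoidHom.range_eq_map, range_subtype]

theorem map_top (i : Conf p S₁) : (⊤ : Subgroup P).map i.f = i.P₀ := by
  rw [← MonoidHom.range_eq_map, f_range]

theorem map_center (i : Conf p S₁) : (center P).map i.f = cen i.P₀ := by
  have : (center P) = cen (⊤ : Subgroup P) := by
    ext x
    rw [mem_center_iff]
    constructor
    · intro h
      exact ⟨mem_top x, mem_centralizer_iff.mpr fun y _ => h y⟩
    · intro h y
      exact mem_centralizer_iff.mp h.2 y (mem_top y)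
  rw [this, map_cen i.f i.f_inj, map_top]

theorem normal_of_le_center {G : Type*} [Group G] {H : Subgroup G} (h : H ≤ center G) : H.Normal := by
  constructor
  intro x hx g
  have h3 := Subgroup.mem_center_iff.mp (h hx) g
  rw [h3, mul_inv_cancel_right]
  exact hx

theorem loc [Finite P] [Fact p.Prime] (hS₁ : S₁ ≤ center P) (hJ : Cfsg.thompsonSubgroupA P = ⊤)
    (hZ : ∀ z ∈ center P, z ^ p = 1) (i : Conf p S₁) :
    ∃ q M, Loc p q i.P₀ ⊤ (Cfsg.pCore p i.G) (cen (Cfsg.pCore p i.G)) (center i.G) M := by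
  obtain ⟨q, M, c⟩ := exists_core i.hE
  have hZn : ¬ (cen i.P₀).Normal := by
    intro h
    apply i.hn
    apply normal_of_le_center
    refine le_trans ?_ (c.center_of_normal h)
    rw [← i.map_center]
    exact Subgroup.map_mono hS₁
  have hJ1 : Cfsg.thompsonSubgroupAOf i.P₀ = i.P₀ := by
    unfold Cfsg.thompsonSubgroupAOf
    rw [← thompson_map i.e, hJ, Subgroup.map_map]
    exact i.map_top
  have hJ2 : i.P₀ ≤ centralizer (Cfsg.centerThompsonAOf i.P₀ : Set i.G) := by
    unfold Cfsg.centerThompsonAOf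
    rw [hJ1]
    intro x hx
    rw [mem_centralizer_iff]
    intro y hy
    exact (mem_centralizer_iff.mp hy.2 x hx).symm
  obtain ⟨A, hA, hAT⟩ := exists_large_not_le c hZn hJ2
  refine ⟨q, M, loc_of_core c hZn hA hAT ?_⟩
  rw [← i.map_center]
  rintro _ ⟨z, hz, rfl⟩
  rw [← map_pow, hZ z hz, map_one]

end Conf

/-- invariance under the image of `G`. -/
theorem inv_iff_normal {G G' : Type*} [Group G] [Group G'] {ψ : G →* G'} (hψ : Function.Injective ψ)
    (F : Subgroup G) : (∀ l ∈ (⊤ : Subgroup G).map ψ, cj l (F.map ψ) = F.map ψ) ↔ F.Normal := by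
  constructor
  · intro h
    apply normal_of_cj
    intro g
    apply Subgroup.map_injective hψ
    rw [map_cj]
    exact h _ ⟨g, mem_top g, rfl⟩
  · rintro h _ ⟨g, _, rfl⟩
    rw [← map_cj, cj_normal g F]

theorem exists_S₂ {p : ℕ} [hp : Fact p.Prime] {P : Type u} [Group P] [Finite P] [Nontrivial P]
    (hP : IsPGroup p P) (S₁ : Subgroup P) (hS₁c : S₁.Characteristic) (hS₁ : S₁ ≤ s0 p ⊤ ⊓ center P)
    (hJ : Cfsg.thompsonSubgroupA P = ⊤) (hZ : ∀ z ∈ center P, z ^ p = 1)
    (hCL : Cfsg.IsCentralizerLarge (⊤ : Subgroup P)) :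
    ∃ S₂ : Subgroup P, S₂ ≠ ⊥ ∧ S₂.Characteristic ∧ Cfsg.IsCentrallyLarge S₂ ∧
      ∀ (G : Type u) [Group G] [Finite G] (P₀ : Subgroup G) (e : P ≃* P₀),
        Cfsg.IsPushingUpSituation p P₀ →
        (S₁.map (P₀.subtype.comp e.toMonoidHom)).Normal ∨ (S₂.map (P₀.subtype.comp e.toMonoidHom)).Normal := by
  have hS₁Z : S₁ ≤ center P := hS₁.trans inf_le_right
  by_cases hne : Nonempty (Conf p S₁)
  swap
  · refine ⟨⊤, top_ne_bot, inferInstance, ?_, ?_⟩
    · rw [H264.CD.isCentrallyLarge_iff]
      exact ⟨hCL, le_top⟩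
    · intro G _ _ P₀ e hE
      left
      by_contra hn
      exact hne ⟨⟨G, P₀, e, hE, hn⟩⟩
  choose q M hloc using fun i : Conf p S₁ => i.loc hS₁Z hJ hZ
  set φ : ∀ i : Conf p S₁, P →* i.G := fun i => i.f with hφ
  have hφi : ∀ i, Function.Injective (φ i) := fun i => i.f_inj
  set β : P →* Monoid.PushoutI φ := Monoid.PushoutI.base φ with hβd
  have hβ : Function.Injective β := Monoid.PushoutI.base_injective hφi
  set ψ : ∀ i : Conf p S₁, i.G →* Monoid.PushoutI φ := fun i => Monoid.PushoutI.of i with hψd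
  have hψ : ∀ i, Function.Injective (ψ i) := fun i => Monoid.PushoutI.of_injective hφi i
  have hcomp : ∀ i, (ψ i).comp (φ i) = β := fun i => Monoid.PushoutI.of_comp_eq_base i
  have hmapβ : ∀ (i : Conf p S₁) (X : Subgroup P), X.map β = (X.map i.f).map (ψ i) := by
    intro i X
    rw [Subgroup.map_map, hcomp i]
  have hrange : ∀ i : Conf p S₁, i.P₀.map (ψ i) = β.range := by
    intro i
    rw [← i.map_top, ← hmapβ, ← MonoidHom.range_eq_map]
  have loc : ∀ i : Conf p S₁, Loc p (q i) β.range ((⊤ : Subgroup i.G).map (ψ i))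
      ((Cfsg.pCore p i.G).map (ψ i)) ((cen (Cfsg.pCore p i.G)).map (ψ i)) ((center i.G).map (ψ i))
      ((M i).map (ψ i)) := by
    intro i
    have h := (hloc i).map (ψ i) (hψ i)
    rwa [hrange i] at h
  have hrt : β.range = (⊤ : Subgroup P).map β := MonoidHom.range_eq_map β
  rcases main loc with hall | ⟨i, hi⟩
  swap
  · exfalso
    apply i.hn
    apply Conf.normal_of_le_center
    show S₁.map i.f ≤ _
    rintro _ ⟨x, hx, rfl⟩
    apply (map_mem_iff (ψ i) (hψ i)).mp
    apply hi
    have e1 : ψ i (i.f x) = β x := by rw [← hcomp i]; rfl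
    rw [e1]
    constructor
    · rw [hrt, ← s0_map]
      exact ⟨x, (hS₁ hx).1, rfl⟩
    · have h2 := (hS₁ hx).2
      refine ⟨⟨x, rfl⟩, mem_centralizer_iff.mpr ?_⟩
      rintro _ ⟨y, rfl⟩
      rw [← map_mul, ← map_mul, mem_center_iff.mp h2 y]
  obtain ⟨E, hE1, hE2, hE3, hE4, hE5⟩ := exists_E loc hall hβ hCL
  have key : ∀ (i : Conf p S₁) (F : Subgroup P),
      ((cen (Cfsg.pCore p i.G)).map (ψ i) ≤ F.map β ∧
        ∀ l ∈ (⊤ : Subgroup i.G).map (ψ i), cj l (F.map β) = F.map β) ↔
      (cen (Cfsg.pCore p i.G) ≤ F.map i.f ∧ (F.map i.f).Normal) := by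
    intro i F
    rw [hmapβ i, inv_iff_normal (hψ i), Subgroup.map_le_map_iff_of_injective (hψ i)]
  have hEc : E.Characteristic := by
    rw [characteristic_iff_le_map]
    intro α
    have hall' : ∀ i : Conf p S₁, (cen (Cfsg.pCore p i.G) ≤ (E.map α.toMonoidHom).map i.f ∧
        ((E.map α.toMonoidHom).map i.f).Normal) := by
      intro i
      have hα : ∀ X : Subgroup P, X.map (i.P₀.subtype.comp (α.trans i.e).toMonoidHom) =
          (X.map α.toMonoidHom).map i.f := by
        intro X
        rw [Subgroup.map_map]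
        rfl
      let i' : Conf p S₁ := ⟨i.G, i.P₀, α.trans i.e, i.hE, by
        rw [hα, characteristic_iff_map_eq.mp hS₁c α]
        exact i.hn⟩
      have h1 := (key i' E).mp ⟨hE3 i', hE4 i'⟩
      have h2 : E.map i'.f = (E.map α.toMonoidHom).map i.f := hα E
      rw [h2] at h1
      exact h1
    apply hE5
    · exact fun i => ((key i _).mpr (hall' i)).1
    · exact fun i => ((key i _).mpr (hall' i)).2
  refine ⟨centralizer (E : Set P), ?_, ?_, ?_, ?_⟩
  · intro h
    have h1 : center P ≤ centralizer (E : Set P) := by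
      intro x hx
      rw [mem_centralizer_iff]
      intro y _
      exact mem_center_iff.mp hx y
    rw [h, le_bot_iff] at h1
    have := hP.center_nontrivial
    rw [h1] at this
    obtain ⟨⟨x, hx⟩, ⟨y, hy⟩, hxy⟩ := this
    rw [mem_bot] at hx hy
    exact hxy (Subtype.ext (hx.trans hy.symm))
  · infer_instance
  · rw [H264.CD.isCentrallyLarge_iff]
    refine ⟨H264.CD.CL.centralizer hE1, ?_⟩
    rw [H264.CD.CL.cc hE1]
    exact hE2
  · intro G _ _ P₀ e hE
    by_cases hn : (S₁.map (P₀.subtype.comp e.toMonoidHom)).Normal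
    · exact Or.inl hn
    right
    let i : Conf p S₁ := ⟨G, P₀, e, hE, hn⟩
    show ((centralizer (E : Set P)).map i.f).Normal
    rw [← inv_iff_normal (hψ i), ← hmapβ i]
    intro l hl
    have c := loc i
    have h1 : (centralizer (E : Set P)).map β = β.range ⊓ centralizer (E.map β : Set _) := by
      have := map_cent β hβ ⊤ E
      rwa [top_inf_eq, ← hrt] at this
    have h2 : β.range ⊓ centralizer (E.map β : Set _) =
        (Cfsg.pCore p i.G).map (ψ i) ⊓ centralizer (E.map β : Set _) := by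
      apply le_antisymm
      · apply le_inf _ inf_le_right
        rw [← c.cV]
        exact inf_le_inf le_rfl (centralizer_le (SetLike.coe_subset_coe.mpr (hE3 i)))
      · exact inf_le_inf c.QS le_rfl
    rw [h1, h2]
    apply cj_inf_eq (c.Qn l hl)
    rw [cj_centralizer, hE4 i l hl]

end Cfsg.Agent.H260.GN
end

-- part: H260/GN14
section
/-!
# Glauberman-Niles, part 14: the reductions
-/

set_option autoImplicit false
set_option linter.unusedSectionVars false
set_option linter.unusedVariables false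
set_option linter.style.haveILetI false

namespace Cfsg.Agent.H260.GN

open Subgroup Push
open scoped commutatorElement Pointwise

universe u

/-- `Z(J(P))`. -/
abbrev zj (P : Type*) [Group P] : Subgroup P :=
  Cfsg.thompsonSubgroupA P ⊓ Subgroup.centralizer (Cfsg.thompsonSubgroupA P : Set P)

section transfer

variable {P G : Type*} [Group P] [Group G]

/-- the embedding -/
abbrev emb (P₀ : Subgroup G) (e : P ≃* P₀) : P →* G := P₀.subtype.comp (e : P ≃* ↥P₀).toMonoidHom

variable (P₀ : Subgroup G) (e : P ≃* P₀)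

theorem emb_inj : Function.Injective (emb P₀ e) := by
  intro x y h
  exact e.injective (Subtype.ext h)

theorem emb_map (X : Subgroup P) : X.map (emb P₀ e) = (X.map e.toMonoidHom).map P₀.subtype := by
  rw [Subgroup.map_map]

theorem emb_top : (⊤ : Subgroup P).map (emb P₀ e) = P₀ := by
  rw [emb_map]
  have : (⊤ : Subgroup P).map e.toMonoidHom = ⊤ := by
    rw [← MonoidHom.range_eq_map, MonoidHom.range_eq_top]
    exact e.surjective
  rw [this, ← MonoidHom.range_eq_map, range_subtype]

theorem emb_thompson : (Cfsg.thompsonSubgroupA P).map (emb P₀ e) = Cfsg.thompsonSubgroupAOf P₀ := by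
  unfold Cfsg.thompsonSubgroupAOf
  rw [emb_map, thompson_map]

theorem emb_zj : (zj P).map (emb P₀ e) = Cfsg.centerThompsonAOf P₀ := by
  unfold Cfsg.centerThompsonAOf
  have := map_cen (emb P₀ e) (emb_inj P₀ e) (Cfsg.thompsonSubgroupA P)
  rw [emb_thompson] at this
  exact this

theorem center_eq : center P = cen (⊤ : Subgroup P) := by
  ext x
  rw [mem_center_iff]
  constructor
  · intro h
    exact ⟨mem_top x, mem_centralizer_iff.mpr fun y _ => h y⟩
  · intro h y
    exact mem_centralizer_iff.mp h.2 y (mem_top y)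

theorem emb_center : (center P).map (emb P₀ e) = P₀ ⊓ centralizer (P₀ : Set G) := by
  rw [center_eq, map_cen (emb P₀ e) (emb_inj P₀ e), emb_top]
  rfl

theorem emb_centralizer (X : Subgroup P) :
    (centralizer (X : Set P)).map (emb P₀ e) = P₀ ⊓ centralizer (X.map (emb P₀ e) : Set G) := by
  have := map_cent (emb P₀ e) (emb_inj P₀ e) ⊤ X
  rwa [top_inf_eq, emb_top] at this

theorem minJoin_map_le {P' : Type*} [Group P'] (e : P ≃* P') :
    (Cfsg.minimalCentrallyLargeJoin P).map e.toMonoidHom ≤ Cfsg.minimalCentrallyLargeJoin P' := by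
  unfold Cfsg.minimalCentrallyLargeJoin
  rw [Subgroup.map_le_iff_le_comap]
  apply sSup_le
  intro A hA
  rw [← Subgroup.map_le_iff_le_comap]
  exact le_sSup ((ClEquiv.isMinimalCentrallyLarge_map e).mpr hA)

theorem minJoin_map {P' : Type*} [Group P'] (e : P ≃* P') :
    (Cfsg.minimalCentrallyLargeJoin P).map e.toMonoidHom = Cfsg.minimalCentrallyLargeJoin P' := by
  apply le_antisymm (minJoin_map_le e)
  have h := Subgroup.map_mono (f := e.toMonoidHom) (minJoin_map_le e.symm)
  rwa [ClEquiv.map_map_symm] at h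

end transfer

/-- A solution. -/
structure Pair (p : ℕ) {P : Type u} [Group P] (S₁ S₂ : Subgroup P) : Prop where
  ne1 : S₁ ≠ ⊥
  ne2 : S₂ ≠ ⊥
  ch1 : S₁.Characteristic
  ch2 : S₂.Characteristic
  le1 : S₁ ≤ center P
  le2 : S₂ ≤ centralizer (zj P : Set P)
  ch2' : (S₂.subgroupOf (centralizer (zj P : Set P))).Characteristic
  nrm : ∀ (G : Type u) [Group G] [Finite G] (P₀ : Subgroup G) (e : P ≃* P₀),
    Cfsg.IsPushingUpSituation p P₀ → (S₁.map (emb P₀ e)).Normal ∨ (S₂.map (emb P₀ e)).Normal

section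

variable {P : Type u} [Group P]

theorem char_subgroupOf_top {S₂ X : Subgroup P} (hX : X = ⊤) (h : S₂.Characteristic) :
    (S₂.subgroupOf X).Characteristic := by
  subst hX
  constructor
  intro φ
  ext x
  have h1 := h.fixed ((topEquiv.symm.trans φ).trans topEquiv)
  have h2 : (x : P) ∈ S₂.comap ((topEquiv.symm.trans φ).trans topEquiv).toMonoidHom ↔ (x : P) ∈ S₂ := by
    rw [h1]
  rw [mem_comap] at h2 ⊢
  rw [mem_subgroupOf, mem_subgroupOf]
  exact h2

theorem self_subgroupOf_char (X : Subgroup P) : (X.subgroupOf X).Characteristic := by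
  rw [subgroupOf_self]
  infer_instance

instance thompson_char : (Cfsg.thompsonSubgroupA P).Characteristic := by
  rw [characteristic_iff_map_eq]
  intro φ
  exact thompson_map φ

instance minJoin_char : (Cfsg.minimalCentrallyLargeJoin P).Characteristic := by
  rw [characteristic_iff_map_eq]
  intro φ
  exact minJoin_map φ

theorem pc_char {p : ℕ} {X : Subgroup P} (h : X.Characteristic) : (Cfsg.powerClosure p 1 X).Characteristic := by
  rw [characteristic_iff_map_eq]
  intro φ
  rw [pc_map, characteristic_iff_map_eq.mp h φ]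

theorem s0_char {p : ℕ} : (s0 p (⊤ : Subgroup P)).Characteristic := by
  rw [characteristic_iff_map_eq]
  intro φ
  rw [s0_map]
  congr 1
  rw [← MonoidHom.range_eq_map, MonoidHom.range_eq_top]
  exact φ.surjective

theorem center_le_centralizer (X : Subgroup P) : center P ≤ centralizer (X : Set P) := by
  intro x hx
  rw [mem_centralizer_iff]
  intro y _
  exact mem_center_iff.mp hx y

variable [Finite P] {p : ℕ} [hp : Fact p.Prime]

theorem inf_center_ne (hP : IsPGroup p P) {N : Subgroup P} (hN : N.Normal) (h : N ≠ ⊥) :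
    N ⊓ center P ≠ ⊥ := by
  haveI := hP.isNilpotent
  exact Lib.NormalAbelian.normal_inf_center_ne_bot N h

theorem center_ne [Nontrivial P] (hP : IsPGroup p P) : center P ≠ ⊥ := by
  haveI := hP.isNilpotent
  exact Group.IsNilpotent.center_ne_bot P

theorem n_pos {F : Type*} [Field F] [Fintype F] {n : ℕ} (hF : Fintype.card F = p ^ n) : 1 ≤ n := by
  rcases Nat.eq_zero_or_pos n with h | h
  · exfalso
    rw [h, pow_zero] at hF
    have := Fintype.one_lt_card (α := F)
    omega
  · exact h

/-- first case: `[Z(J(P)), P] ≠ 1`. -/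
theorem pair_case1 [Nontrivial P] (hP : IsPGroup p P) (h : ⁅zj P, (⊤ : Subgroup P)⁆ ≠ ⊥) :
    Pair p (⁅zj P, (⊤ : Subgroup P)⁆ ⊓ center P) (centralizer (zj P : Set P)) where
  ne1 := inf_center_ne hP inferInstance h
  ne2 := fun h1 => center_ne hP (le_bot_iff.mp ((center_le_centralizer (zj P)).trans h1.le))
  ch1 := inferInstance
  ch2 := inferInstance
  le1 := inf_le_right
  le2 := le_rfl
  ch2' := self_subgroupOf_char _
  nrm := by
    intro G _ _ P₀ e hE
    obtain ⟨-, ⟨Q, hQ⟩, hc, hM, K, hK, F, _, _, n, hF, he⟩ := hE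
    subst hQ
    have h1 : ⁅Cfsg.centerThompsonAOf (Q : Subgroup G), (Q : Subgroup G)⁆ ≠ ⊥ := by
      intro h2
      apply h
      apply Subgroup.map_injective (emb_inj (Q : Subgroup G) e)
      rw [Subgroup.map_commutator, emb_zj, emb_top, h2, Subgroup.map_bot]
    have := S2769.result Q hc hM K F n (n_pos (p := p) hF) hF he h1
    rwa [Subgroup.map_inf _ _ _ (emb_inj (Q : Subgroup G) e), Subgroup.map_commutator, emb_zj, emb_top,
      emb_center, emb_centralizer, emb_zj]

/-- second case: `Z(P)` is not elementary abelian. -/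
theorem pair_case2 [Nontrivial P] (hP : IsPGroup p P) {z : P} (hz : z ∈ center P) (hz' : z ^ p ≠ 1) :
    Pair p (Cfsg.powerClosure p 1 (center P)) (centralizer (zj P : Set P)) where
  ne1 := by
    intro h
    apply hz'
    have : z ^ p ∈ Cfsg.powerClosure p 1 (center P) := subset_closure ⟨z, hz, by rw [pow_one]⟩
    rwa [h, mem_bot] at this
  ne2 := fun h1 => center_ne hP (le_bot_iff.mp ((center_le_centralizer (zj P)).trans h1.le))
  ch1 := pc_char inferInstance
  ch2 := inferInstance
  le1 := pc_le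
  le2 := le_rfl
  ch2' := self_subgroupOf_char _
  nrm := by
    intro G _ _ P₀ e hE
    obtain ⟨-, ⟨Q, hQ⟩, hc, hM, K, hK, F, _, _, n, hF, he⟩ := hE
    subst hQ
    have h1 : ¬ Cfsg.IsElementaryAbelian p ((Q : Subgroup G) ⊓ centralizer ((Q : Subgroup G) : Set G)) := by
      rintro ⟨-, h2⟩
      apply hz'
      apply emb_inj (Q : Subgroup G) e
      rw [map_pow, map_one]
      apply h2
      rw [← emb_center (Q : Subgroup G) e]
      exact ⟨z, hz, rfl⟩
    have := S2770.result Q hc hM K F n (n_pos (p := p) hF) hF he h1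
    rwa [pc_map, emb_center, emb_centralizer, emb_zj]

/-- third case: `P` abelian. -/
theorem pair_abelian [Nontrivial P] (h : ∀ x y : P, x * y = y * x) :
    Pair p (⊤ : Subgroup P) (⊤ : Subgroup P) := by
  have hc : center P = ⊤ := by
    rw [eq_top_iff]
    intro x _
    rw [mem_center_iff]
    exact fun y => h y x
  have ht : centralizer (zj P : Set P) = ⊤ := by
    rw [eq_top_iff, ← hc]
    exact center_le_centralizer _
  refine ⟨top_ne_bot, top_ne_bot, inferInstance, inferInstance, hc.ge, ht.ge,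
    char_subgroupOf_top ht inferInstance, ?_⟩
  intro G _ _ P₀ e hE
  exfalso
  obtain ⟨q, M, c⟩ := exists_core hE
  apply c.ne
  apply le_antisymm _ c.le
  refine le_trans ?_ c.cent
  intro x hx
  rw [mem_centralizer_iff]
  intro y hy
  have hy' := c.le hy
  have h1 := h (e.symm ⟨y, hy'⟩) (e.symm ⟨x, hx⟩)
  have h2 := congrArg e h1
  rw [map_mul, map_mul, e.apply_symm_apply, e.apply_symm_apply] at h2
  exact congrArg Subtype.val h2

/-- the maximal central product of a centrally large subgroup. -/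
theorem mcp_eq {R : Subgroup P} (h : Cfsg.IsCentrallyLarge R) :
    Cfsg.maxCentralProduct R = Cfsg.maxCentralProduct P := by
  apply le_antisymm
  · obtain ⟨R', hR'⟩ := H264.CD.exists_cent (G := R)
    unfold Cfsg.IsCentrallyLarge at hR'
    rw [← hR']
    have e1 : Nat.card (R'.map R.subtype) = Nat.card R' := card_map_sub R R'
    have e2 : mu (R'.map R.subtype) = Nat.card R' * Nat.card (center R') := mu_map R R'
    rw [← e2]
    have e3 := H264.CD.cent_le (R'.map R.subtype)
    unfold mu
    rwa [H264.CD.card_center_eq] at e3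
  · unfold Cfsg.IsCentrallyLarge at h
    rw [← h]
    have := H264.CD.cent_le (⊤ : Subgroup R)
    have e1 : Nat.card (⊤ : Subgroup R) = Nat.card R := Nat.card_congr (topEquiv).toEquiv
    have e2 : Nat.card (center (⊤ : Subgroup R)) = Nat.card (center R) :=
      Nat.card_congr (Subgroup.centerCongr topEquiv).toEquiv
    rwa [e1, e2] at this

theorem mcp_top {X : Subgroup P} (h : X = ⊤) : Cfsg.maxCentralProduct X = Cfsg.maxCentralProduct P := by
  subst h
  exact ClEquiv.maxCentralProduct_eq topEquiv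

theorem cl_ne_bot [Nontrivial P] (hP : IsPGroup p P) {R : Subgroup P} (h : Cfsg.IsCentrallyLarge R) :
    R ≠ ⊥ := by
  intro h1
  have h2 := H264.CD.CL.center_le ((H264.CD.isCentrallyLarge_iff R).mp h).1
  rw [h1] at h2
  exact center_ne hP (le_bot_iff.mp h2)

/-- fourth case: non-abelian minimal centrally large subgroups. -/
theorem pair_case4 [Nontrivial P] (hP : IsPGroup p P) (ht : centralizer (zj P : Set P) = ⊤)
    {Q : Subgroup P} (hQ : Cfsg.IsMinimalCentrallyLarge Q) (hne : ⁅Q, Q⁆ ≠ ⊥) :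
    Pair p (⁅Q, Q⁆ ⊓ center P) (Cfsg.minimalCentrallyLargeJoin P) := by
  have hch : (⁅Q, Q⁆).Characteristic := by
    rw [Subgroup.characteristic_iff_map_eq]
    intro φ
    rw [Subgroup.map_commutator]
    exact H264.CD.commutator_eq' ((ClEquiv.isMinimalCentrallyLarge_map φ).mpr hQ) hQ
  refine ⟨inf_center_ne hP inferInstance hne, cl_ne_bot hP H264.CD.isCentrallyLarge_minJoin, inferInstance,
    inferInstance, inf_le_right, ?_, char_subgroupOf_top ht inferInstance, ?_⟩
  · rw [ht]; exact le_top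
  intro G _ _ P₀ e hE
  have hJ : P₀ ≤ centralizer (Cfsg.centerThompsonAOf P₀ : Set G) := by
    have h1 := emb_centralizer P₀ e (zj P)
    rw [ht, emb_top, emb_zj] at h1
    exact h1.le.trans inf_le_right
  have h1 := (S2990.result P₀ hE hJ (Q.map e.toMonoidHom)
    ((ClEquiv.isMinimalCentrallyLarge_map e).mpr hQ)).2.1
  rw [Subgroup.map_inf _ _ _ (emb_inj P₀ e), emb_center, emb_map P₀ e (Cfsg.minimalCentrallyLargeJoin P),
    minJoin_map, emb_map, Subgroup.map_commutator, inf_comm]
  exact h1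

/-- If the minimal centrally large subgroups are abelian and `Z(J(P)) ≤ Z(P)` then `P = J(P)`. -/
theorem thompson_top (ht : centralizer (zj P : Set P) = ⊤) {Q : Subgroup P}
    (hQ : Cfsg.IsMinimalCentrallyLarge Q) (hc : ⁅Q, Q⁆ = ⊥) :
    Cfsg.thompsonSubgroupA P = ⊤ ∧ Cfsg.IsCentralizerLarge (⊤ : Subgroup P) ∧
      ∀ A ∈ Cfsg.maxAbelianSubgroups P, Cfsg.IsMinimalCentrallyLarge A := by
  have hQc : Q ≤ centralizer (Q : Set P) := commutator_eq_bot_iff_le_centralizer.mp hc
  have hiff := H264.CD.min_iff_of_comm hQ hQc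
  have hJ : Cfsg.thompsonSubgroupA P = Cfsg.minimalCentrallyLargeJoin P := by
    unfold Cfsg.thompsonSubgroupA Cfsg.minimalCentrallyLargeJoin
    congr 1
    ext A
    exact (hiff A).symm
  have hcl : Cfsg.IsCentrallyLarge (Cfsg.thompsonSubgroupA P) := by
    rw [hJ]
    exact H264.CD.isCentrallyLarge_minJoin
  rw [H264.CD.isCentrallyLarge_iff] at hcl
  have h1 : zj P = centralizer (Cfsg.thompsonSubgroupA P : Set P) := by
    have h9 : Cfsg.thompsonSubgroupA P ⊓ centralizer (Cfsg.thompsonSubgroupA P : Set P) =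
        centralizer (Cfsg.thompsonSubgroupA P : Set P) := by
      apply inf_of_le_right
      exact hcl.2
    exact h9
  have h2 := H264.CD.CL.cc hcl.1
  rw [← h1, ht] at h2
  refine ⟨h2.symm, ?_, fun A hA => (hiff A).mpr hA⟩
  rw [h2]
  exact hcl.1

/-- the numerical conditions. -/
theorem num_of (hCL : Cfsg.IsCentralizerLarge (⊤ : Subgroup P))
    (hmin : ∀ A ∈ Cfsg.maxAbelianSubgroups P, Cfsg.IsMinimalCentrallyLarge A) :
    ∀ A ∈ Cfsg.maxAbelianSubgroups P, ∀ B ∈ Cfsg.maxAbelianSubgroups P, ∀ Q : Subgroup P,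
      Nat.card ↥A ^ 2 = Nat.card P * Nat.card ↥(Subgroup.center P) ∧
      Nat.card ↥Q * Nat.card ↥(Subgroup.center ↥Q) ≤ Nat.card P * Nat.card ↥(Subgroup.center P) ∧
      ((A ⊔ B : Subgroup P) : Set P) = (A : Set P) * (B : Set P) ∧
      A ⊔ B = Subgroup.centralizer ((A ⊓ B : Subgroup P) : Set P) := by
  intro A hA B hB Q
  have hmax : Cfsg.maxCentralizerProduct P = Nat.card P * Nat.card (center P) := by
    unfold Cfsg.IsCentralizerLarge at hCL
    rw [← hCL, Subgroup.card_top, coe_top, centralizer_univ]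
  have hcA := ((H264.CD.isCentrallyLarge_iff A).mp (hmin A hA).1).1
  have hcB := ((H264.CD.isCentrallyLarge_iff B).mp (hmin B hB).1).1
  have eA : centralizer (A : Set P) = A := H264.CD.MA.centralizer_eq hA
  have eB : centralizer (B : Set P) = B := H264.CD.MA.centralizer_eq hB
  refine ⟨?_, ?_, H264.CD.CL.sup_eq_mul hcA hcB, ?_⟩
  · have h1 := hcA
    unfold Cfsg.IsCentralizerLarge at h1
    rw [eA, hmax] at h1
    rw [pow_two]
    exact h1
  · have h1 := H264.CD.cent_le Q
    rwa [H264.CD.max_eq, hmax] at h1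
  · rw [H264.CD.CL.centralizer_inf hcA hcB, eA, eB]

/-- last case. -/
theorem pair_last [Nontrivial P] (hP : IsPGroup p P) (hJ : Cfsg.thompsonSubgroupA P = ⊤)
    (hZ : ∀ z ∈ center P, z ^ p = 1) (hCL : Cfsg.IsCentralizerLarge (⊤ : Subgroup P))
    (ht : centralizer (zj P : Set P) = ⊤) (h0 : s0 p (⊤ : Subgroup P) ≠ ⊥) :
    ∃ S₂, Pair p (s0 p (⊤ : Subgroup P) ⊓ center P) S₂ ∧ Cfsg.IsCentrallyLarge S₂ := by
  haveI := s0_char (P := P) (p := p)
  obtain ⟨S₂, h1, h2, h3, h4⟩ := exists_S₂ hP (s0 p (⊤ : Subgroup P) ⊓ center P) inferInstance le_rfl hJ hZ hCL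
  refine ⟨S₂, ⟨inf_center_ne hP inferInstance h0, h1, inferInstance, h2, inf_le_right, ?_,
    char_subgroupOf_top ht h2, ?_⟩, h3⟩
  · rw [ht]; exact le_top
  · intro G _ _ P₀ e hE
    exact h4 G P₀ e hE

theorem frattini_eq_phi (hP : IsPGroup p P) : frattini P = phi p (⊤ : Subgroup P) := by
  apply le_antisymm
  · have hn : (phi p (⊤ : Subgroup P)).Normal := by
      constructor
      intro x hx g
      have h2 : g * x * g⁻¹ = ⁅g, x⁆ * x := by rw [commutatorElement_def]; group
      rw [h2]
      exact mul_mem (comm_mem_phi (mem_top g) (mem_top x)) hx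
    exact Lib.FrattiniPGroup.frattini_le (p := p) _ (fun x y => comm_mem_phi (mem_top x) (mem_top y))
      (fun x => pow_mem_phi (mem_top x))
  · unfold phi
    rw [closure_le]
    rintro _ (⟨x, hx, y, hy, rfl⟩ | ⟨x, hx, rfl⟩)
    · exact Lib.FrattiniPGroup.commutator_mem_frattini hP x y
    · exact Lib.FrattiniPGroup.pow_mem_frattini hP x

theorem phi_bot_iff {X : Subgroup P} (h : phi p X = ⊥) :
    IsMulCommutative X ∧ ∀ x ∈ X, x ^ p = 1 := by
  constructor
  · rw [comm_iff_all]
    intro x hx y hy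
    have h1 := comm_mem_phi (p := p) hx hy
    rw [h, mem_bot, commutatorElement_eq_one_iff_mul_comm] at h1
    exact h1
  · intro x hx
    have h1 := pow_mem_phi (p := p) hx
    rwa [h, mem_bot] at h1

theorem comm_top_bot {X : Subgroup P} (h : ⁅X, (⊤ : Subgroup P)⁆ = ⊥) : X ≤ center P := by
  intro x hx
  rw [mem_center_iff]
  intro y
  have h1 := commutator_mem_commutator hx (mem_top y)
  rw [h, mem_bot, commutatorElement_eq_one_iff_mul_comm] at h1
  exact h1.symm

theorem le_ucs_two {X : Subgroup P} (h : ⁅X, (⊤ : Subgroup P)⁆ ≤ center P) :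
    X ≤ Subgroup.upperCentralSeries P 2 := by
  intro x hx
  rw [Subgroup.mem_upperCentralSeries_succ_iff]
  intro y
  rw [Subgroup.upperCentralSeries_one]
  have := h (commutator_mem_commutator hx (mem_top y))
  rwa [commutatorElement_def] at this

theorem ucs_two_le {X : Subgroup P} (h : X ≤ Subgroup.upperCentralSeries P 2) :
    ⁅X, (⊤ : Subgroup P)⁆ ≤ center P := by
  rw [Subgroup.commutator_le]
  intro x hx y _
  have h1 := h hx
  rw [Subgroup.mem_upperCentralSeries_succ_iff] at h1
  have h2 := h1 y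
  rw [Subgroup.upperCentralSeries_one] at h2
  rwa [commutatorElement_def]

/-- `S₀ = 1` implies the exceptional conditions. -/
theorem exc_of_s0 [Nontrivial P] (hP : IsPGroup p P) (h0 : s0 p (⊤ : Subgroup P) = ⊥) :
    Cfsg.IsElementaryAbelian p (frattini P) ∧ (p = 2 → frattini P ≤ center P) ∧
      (p = 3 → frattini P ≤ Subgroup.upperCentralSeries P 2) ∧
      (3 < p → frattini P ≤ center P ∧ Monoid.exponent P = p) := by
  rw [frattini_eq_phi hP]
  unfold s0 at h0
  split_ifs at h0 with h2 h3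
  · rw [sup_eq_bot_iff] at h0
    refine ⟨phi_bot_iff h0.2, fun _ => comm_top_bot h0.1, fun h => ?_, fun h => ?_⟩ <;> omega
  · rw [sup_eq_bot_iff] at h0
    refine ⟨phi_bot_iff h0.2, fun h => ?_, fun _ => le_ucs_two (comm_top_bot h0.1), fun h => ?_⟩ <;> omega
  · rw [sup_eq_bot_iff] at h0
    have h4 := comm_top_bot h0.1
    have h5 : ∀ x : P, x ^ p = 1 := by
      intro x
      have : x ^ p ∈ Cfsg.powerClosure p 1 (⊤ : Subgroup P) :=
        subset_closure ⟨x, mem_top x, by rw [pow_one]⟩
      rwa [h0.2, mem_bot] at this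
    refine ⟨⟨?_, fun x _ => h5 x⟩, fun h => ?_, fun h => ?_, fun _ => ⟨h4, ?_⟩⟩
    · rw [comm_iff_all]
      intro x hx y _
      exact (mem_center_iff.mp (h4 hx) y).symm
    · omega
    · omega
    · have h6 : Monoid.exponent P ∣ p := Monoid.exponent_dvd_of_forall_pow_eq_one h5
      rcases (Nat.dvd_prime hp.out).mp h6 with h7 | h7
      · exfalso
        rw [Monoid.exp_eq_one_iff] at h7
        exact not_subsingleton P h7
      · exact h7

/-- the exceptional conditions imply `S₀ = 1`. -/
theorem s0_of_exc (hP : IsPGroup p P) (h1 : Cfsg.IsElementaryAbelian p (frattini P))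
    (h2 : p = 2 → frattini P ≤ center P) (h3 : p = 3 → frattini P ≤ Subgroup.upperCentralSeries P 2)
    (h4 : 3 < p → frattini P ≤ center P ∧ Monoid.exponent P = p) : s0 p (⊤ : Subgroup P) = ⊥ := by
  rw [frattini_eq_phi hP] at h1 h2 h3 h4
  have h5 : phi p (phi p (⊤ : Subgroup P)) = ⊥ := by
    apply phi_bot_of
    · intro x hx y hy
      exact (comm_iff_all _).mp h1.1 x hx y hy
    · exact h1.2
  have h6 : ∀ X : Subgroup P, X ≤ center P → ⁅X, (⊤ : Subgroup P)⁆ = ⊥ := by
    intro X hX
    apply comm_bot_of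
    intro x hx y _
    exact (mem_center_iff.mp (hX hx) y).symm
  unfold s0
  split_ifs with k2 k3
  · rw [h5, h6 _ (h2 k2), sup_bot_eq]
  · rw [h5, h6 _ (ucs_two_le (h3 k3)), sup_bot_eq]
  · have hp2 := hp.out.two_le
    obtain ⟨k4, k5⟩ := h4 (by omega)
    rw [h6 _ k4, bot_sup_eq]
    apply pc_bot_of
    intro x _
    rw [← k5]
    exact Monoid.pow_exponent_eq_one x

end

end Cfsg.Agent.H260.GN
end

-- part: S2991
section
set_option autoImplicit false
universe u
open scoped Pointwise
open Cfsg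

namespace Cfsg.Agent.S2991

/-- Let p be a prime and S a nontrivial finite p-group; write J(S) for the subgroup generated by the abelian subgroups of S of largest order and J̃(S) = C_S(Z(J(S))), and call a subgroup R of a p-group X centrally large in X if |R|·|Z(R)| is as large as possible among subgroups of X. Unless S satisfies all of: S is non-abelian; J(S) = S; Z(S) and Φ(S) are elementary abelian; Φ(S) ≤ Z(S) if p = 2, Φ(S) ≤ Z₂(S) if p = 3, Φ(S) ≤ Z(S) with S of exponent p if p > 3; and for all abelian subgroups A, B of largest order and all subgroups Q of S, |A|² = |S|·|Z(S)| ≥ |Q|·|Z(Q)| and ⟨A, B⟩ = AB = C_S(A ∩ B) — there exist nontrivial characteristic subgroups S₁ ≤ Z(S) and S₂ ≤ J̃(S) of S, S₂ characteristic in J̃(S) and containing a centrally large subgroup of J̃(S) (the largest value of |R|·|Z(R)| over subgroups R of S₂ equals that over subgroups of J̃(S)), such that whenever S is embedded as a Sylow p-subgroup of a finite group G in the basic pushing-up situation,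 the image of S₁ or of S₂ is normal in G. -/
theorem result {p : ℕ} [Fact p.Prime] (S : Type u) [Group S] [Finite S] [Nontrivial S] (hS : IsPGroup p S) (hexc : ¬ (¬ IsMulCommutative S ∧ Cfsg.thompsonSubgroupA S = ⊤ ∧ Cfsg.IsElementaryAbelian p (Subgroup.center S) ∧ Cfsg.IsElementaryAbelian p (frattini S) ∧ (p = 2 → frattini S ≤ Subgroup.center S) ∧ (p = 3 → frattini S ≤ Subgroup.upperCentralSeries S 2) ∧ (3 < p → frattini S ≤ Subgroup.center S ∧ Monoid.exponent S = p) ∧ (∀ A ∈ Cfsg.maxAbelianSubgroups S, ∀ B ∈ Cfsg.maxAbelianSubgroups S, ∀ Q : Subgroup S, Nat.card ↥A ^ 2 = Nat.card S * Nat.card ↥(Subgroup.center S) ∧ Nat.card ↥Q * Nat.card ↥(Subgroup.center ↥Q) ≤ Nat.card S * Nat.card ↥(Subgroup.center S) ∧ ((A ⊔ B : Subgroup S) : Set S) = (A : Set S) * (B : Set S) ∧ A ⊔ B = Subgroup.centralizer ((A ⊓ B : Subgroup S) : Set S)))) : ∃ S₁ S₂ : Subgroup S, S₁ ≠ ⊥ ∧ S₂ ≠ ⊥ ∧ S₁.Characteristic ∧ S₂.Characteristic ∧ S₁ ≤ Subgroup.center S ∧ S₂ ≤ Subgroup.centralizer ((Cfsg.thompsonSubgroupA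 S ⊓ Subgroup.centralizer (Cfsg.thompsonSubgroupA S : Set S) : Subgroup S) : Set S) ∧ (S₂.subgroupOf (Subgroup.centralizer ((Cfsg.thompsonSubgroupA S ⊓ Subgroup.centralizer (Cfsg.thompsonSubgroupA S : Set S) : Subgroup S) : Set S))).Characteristic ∧ Cfsg.maxCentralProduct ↥S₂ = Cfsg.maxCentralProduct ↥(Subgroup.centralizer ((Cfsg.thompsonSubgroupA S ⊓ Subgroup.centralizer (Cfsg.thompsonSubgroupA S : Set S) : Subgroup S) : Set S)) ∧ ∀ (G : Type u) [Group G] [Finite G] (P : Subgroup G) (e : S ≃* ↥P), Cfsg.IsPushingUpSituation p P → ((S₁).map ((P.subtype).comp (e : S ≃* ↥P).toMonoidHom)).Normal ∨ ((S₂).map ((P.subtype).comp (e : S ≃* ↥P).toMonoidHom)).Normal := by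
  by_cases h1 : ⁅H260.GN.zj S, (⊤ : Subgroup S)⁆ = ⊥
  swap
  · have h := H260.GN.pair_case1 hS h1
    exact ⟨_, _, h.ne1, h.ne2, h.ch1, h.ch2, h.le1, h.le2, h.ch2', rfl, h.nrm⟩
  by_cases h2 : ∀ z ∈ Subgroup.center S, z ^ p = 1
  swap
  · push Not at h2
    obtain ⟨z, hz, hz'⟩ := h2
    have h := H260.GN.pair_case2 hS hz hz'
    exact ⟨_, _, h.ne1, h.ne2, h.ch1, h.ch2, h.le1, h.le2, h.ch2', rfl, h.nrm⟩
  have ht : Subgroup.centralizer (H260.GN.zj S : Set S) = ⊤ := by
    rw [eq_top_iff, Subgroup.le_centralizer_iff]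
    exact (H260.GN.comm_top_bot h1).trans (H260.GN.center_le_centralizer _)
  by_cases h3 : ∀ x y : S, x * y = y * x
  · have h := H260.GN.pair_abelian (p := p) h3
    refine ⟨_, _, h.ne1, h.ne2, h.ch1, h.ch2, h.le1, h.le2, h.ch2', ?_, h.nrm⟩
    rw [H260.GN.mcp_top ht, H260.GN.mcp_top rfl]
  obtain ⟨Q, hQ⟩ := H264.CD.exists_min (G := S)
  by_cases h4 : ⁅Q, Q⁆ = ⊥
  swap
  · have h := H260.GN.pair_case4 hS ht hQ h4
    refine ⟨_, _, h.ne1, h.ne2, h.ch1, h.ch2, h.le1, h.le2, h.ch2', ?_, h.nrm⟩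
    rw [H260.GN.mcp_top ht, H260.GN.mcp_eq H264.CD.isCentrallyLarge_minJoin]
  obtain ⟨hJ, hCL, hmin⟩ := H260.GN.thompson_top ht hQ h4
  by_cases h0 : H260.GN.s0 p (⊤ : Subgroup S) = ⊥
  swap
  · obtain ⟨S₂, h, hS₂⟩ := H260.GN.pair_last hS hJ h2 hCL ht h0
    refine ⟨_, _, h.ne1, h.ne2, h.ch1, h.ch2, h.le1, h.le2, h.ch2', ?_, h.nrm⟩
    rw [H260.GN.mcp_top ht, H260.GN.mcp_eq hS₂]
  exfalso
  apply hexc
  obtain ⟨e1, e2, e3, e4⟩ := H260.GN.exc_of_s0 hS h0
  refine ⟨?_, hJ, ⟨inferInstance, h2⟩, e1, e2, e3, e4, H260.GN.num_of hCL hmin⟩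
  intro hcomm
  exact h3 fun x y => hcomm.is_comm.comm x y

end Cfsg.Agent.S2991
end
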