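import Cfsg.Agent.H262.Pair
import Cfsg.Agent.LFourB.RelExt
import Cfsg.Agent.CharactersDeep.QuatSylow
import Cfsg.Prelude.Def_BaumannBlocks
import Cfsg.Prelude.Def_LocalEven
import Cfsg.Statements.S2999
import Cfsg.Agent.S0598
set_option linter.all false

-- part: H262/Core
section
/-!
# The core of the `SL₂(q)` lemma

Abstract setting: `P` acts on the finite elementary abelian `p`-group `V`.
-/

set_option autoImplicit false

namespace Cfsg.Agent.H262.Core

open Pair

section NilAction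

variable {P V : Type*} [Group P] [AddCommGroup V] [DistribMulAction P V]

/-- the map induced by `t` on `V / X` -/
def qmap (X : AddSubgroup V) (t : P) (h : ∀ x ∈ X, t • x ∈ X) : V ⧸ X →+ V ⧸ X :=
  QuotientAddGroup.map X X (DistribSMul.toAddMonoidHom V t) (fun x hx => h x hx)

theorem qmap_mk (X : AddSubgroup V) (t : P) (h : ∀ x ∈ X, t • x ∈ X) (v : V) :
    qmap X t h (QuotientAddGroup.mk v) = QuotientAddGroup.mk (t • v) := rfl

/-- A `p`-group acting on an elementary abelian `p`-group `W > W0` (both invariant) acts trivially on `W / X` for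
some proper `X ≥ W0`. -/
theorem exists_proper [Finite V] {p : ℕ} [hpf : Fact p.Prime]
    (hp : ∀ v : V, p • v = 0) (T : Subgroup P) [Finite T] (hT : IsPGroup p T) (W W0 : AddSubgroup V)
    (hW : ∀ t ∈ T, ∀ w ∈ W, t • w ∈ W) (hW0 : ∀ t ∈ T, ∀ w ∈ W0, t • w ∈ W0) (hlt : W0 < W) :
    ∃ X : AddSubgroup V, W0 ≤ X ∧ X < W ∧ ∀ t ∈ T, ∀ w ∈ W, t • w - w ∈ X := by
  classical
  -- a maximal invariant proper subgroup
  let 𝒳 : Set (AddSubgroup V) := {X | W0 ≤ X ∧ X < W ∧ ∀ t ∈ T, ∀ x ∈ X, t • x ∈ X}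
  have h𝒳ne : 𝒳.Nonempty := ⟨W0, le_rfl, hlt, hW0⟩
  obtain ⟨X, hX⟩ := (Set.toFinite 𝒳).exists_maximal h𝒳ne
  obtain ⟨⟨hX0, hXW, hXT⟩, hXmax⟩ := hX
  let α := ↥(W.map (QuotientAddGroup.mk' X))
  let _ : MulAction T α :=
    { smul := fun t q => ⟨qmap X (t : P) (hXT t t.2) q, by
        obtain ⟨w, hw, hwq⟩ := q.2
        refine ⟨(t : P) • w, hW t t.2 w hw, ?_⟩
        rw [← hwq]; rfl⟩
      one_smul := fun q => by
        apply Subtype.ext
        show qmap X ((1 : T) : P) _ (q : V ⧸ X) = q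
        obtain ⟨v, hv⟩ := QuotientAddGroup.mk_surjective (q : V ⧸ X)
        rw [← hv, qmap_mk]
        show (QuotientAddGroup.mk ((1 : P) • v) : V ⧸ X) = _
        rw [one_smul]
      mul_smul := fun s t q => by
        apply Subtype.ext
        show qmap X ((s * t : T) : P) _ (q : V ⧸ X) = qmap X (s : P) _ (qmap X (t : P) _ (q : V ⧸ X))
        obtain ⟨v, hv⟩ := QuotientAddGroup.mk_surjective (q : V ⧸ X)
        rw [← hv, qmap_mk, qmap_mk, qmap_mk]
        show (QuotientAddGroup.mk (((s : P) * t) • v) : V ⧸ X) = _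
        rw [mul_smul] }
  have hsmul : ∀ (t : T) (q : α), ((t • q : α) : V ⧸ X) = qmap X (t : P) (hXT t t.2) q :=
    fun _ _ => rfl
  have : Finite α := inferInstance
  have hdvd : p ∣ Nat.card α := by
    obtain ⟨w, hw, hwX⟩ := Set.exists_of_ssubset hXW
    let q : α := ⟨QuotientAddGroup.mk w, w, hw, rfl⟩
    have hq0 : q ≠ 0 := by
      intro h
      have h1 : (QuotientAddGroup.mk w : V ⧸ X) = 0 := congrArg Subtype.val h
      exact hwX ((QuotientAddGroup.eq_zero_iff _).1 h1)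
    have hpq : p • q = 0 := by
      apply Subtype.ext
      show p • (QuotientAddGroup.mk w : V ⧸ X) = 0
      rw [← QuotientAddGroup.mk_nsmul, hp]; rfl
    rw [← addOrderOf_eq_prime hpq hq0]
    exact addOrderOf_dvd_natCard q
  have hfix := hT.card_modEq_card_fixedPoints α
  have hdvd2 : p ∣ Nat.card (MulAction.fixedPoints T α) := (Nat.ModEq.dvd_iff hfix dvd_rfl).1 hdvd
  have h0 : (0 : α) ∈ MulAction.fixedPoints T α := by
    intro t
    apply Subtype.ext
    rw [hsmul]
    exact map_zero _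
  have hcard : 1 < Nat.card (MulAction.fixedPoints T α) := by
    have : Nonempty (MulAction.fixedPoints T α) := ⟨⟨0, h0⟩⟩
    have h1 := Nat.le_of_dvd Nat.card_pos hdvd2
    have := hpf.out.two_le
    omega
  have hnt := Finite.one_lt_card_iff_nontrivial.1 hcard
  obtain ⟨q, hq⟩ := exists_ne (⟨0, h0⟩ : MulAction.fixedPoints T α)
  obtain ⟨⟨q, w, hw, rfl⟩, hqf⟩ := q
  have hwX : w ∉ X := by
    intro h
    apply hq
    apply Subtype.ext
    apply Subtype.ext
    exact (QuotientAddGroup.eq_zero_iff _).2 h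
  have hwf : ∀ t ∈ T, t • w - w ∈ X := by
    intro t ht
    have h1 := congrArg Subtype.val (hqf ⟨t, ht⟩)
    rw [hsmul] at h1
    have h2 : (QuotientAddGroup.mk (t • w) : V ⧸ X) = QuotientAddGroup.mk w := h1
    rw [eq_comm, QuotientAddGroup.eq] at h2
    have : t • w - w = -w + t • w := by abel
    rw [this]; exact h2
  let C : AddSubgroup V :=
    { carrier := {w | w ∈ W ∧ ∀ t ∈ T, t • w - w ∈ X}
      zero_mem' := ⟨W.zero_mem, fun t _ => by rw [smul_zero, sub_zero]; exact X.zero_mem⟩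
      add_mem' := by
        rintro a b ⟨ha, ha'⟩ ⟨hb, hb'⟩
        refine ⟨W.add_mem ha hb, fun t ht => ?_⟩
        have : t • (a + b) - (a + b) = (t • a - a) + (t • b - b) := by rw [smul_add]; abel
        rw [this]; exact X.add_mem (ha' t ht) (hb' t ht)
      neg_mem' := by
        rintro a ⟨ha, ha'⟩
        refine ⟨W.neg_mem ha, fun t ht => ?_⟩
        have : t • (-a) - (-a) = -(t • a - a) := by rw [smul_neg]; abel
        rw [this]; exact X.neg_mem (ha' t ht) }
  have hXC : X ≤ C := fun x hx => ⟨hXW.le hx, fun t ht => X.sub_mem (hXT t ht x hx) hx⟩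
  have hCW : C ≤ W := fun c hc => hc.1
  have hCT : ∀ t ∈ T, ∀ x ∈ C, t • x ∈ C := by
    rintro t ht c ⟨hc, hc'⟩
    refine ⟨hW t ht c hc, fun s hs => ?_⟩
    have h1 := hc' (t⁻¹ * s * t) (T.mul_mem (T.mul_mem (T.inv_mem ht) hs) ht)
    have h2 := hXT t ht _ h1
    rw [smul_sub, ← mul_smul] at h2
    have : t * (t⁻¹ * s * t) = s * t := by group
    rw [this, mul_smul] at h2
    exact h2
  have hCeq : C = W := by
    by_contra hne
    have hlt' : C < W := lt_of_le_of_ne hCW hne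
    have h1 := hXmax (show C ∈ 𝒳 from ⟨hX0.trans hXC, hlt', hCT⟩) hXC
    exact hwX (h1 (show w ∈ C from ⟨hw, hwf⟩))
  refine ⟨X, hX0, hXW, fun t ht w' hw' => ?_⟩
  rw [← hCeq] at hw'
  exact hw'.2 t ht

end NilAction

section Card

theorem card_sup_mul_card_inf {V : Type*} [AddCommGroup V] (X Y : AddSubgroup V) :
    Nat.card (X ⊔ Y : AddSubgroup V) * Nat.card (X ⊓ Y : AddSubgroup V) = Nat.card X * Nat.card Y := by
  have h1 := AddSubgroup.relIndex_mul_relIndex ⊥ Y (X ⊔ Y) bot_le le_sup_right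
  have h2 := AddSubgroup.relIndex_mul_relIndex ⊥ (X ⊓ Y) X bot_le inf_le_left
  have h3 : Y.relIndex (X ⊔ Y) = Y.relIndex X := AddSubgroup.relIndex_sup_right X Y
  rw [AddSubgroup.relIndex_bot_left, AddSubgroup.relIndex_bot_left] at h1 h2
  rw [AddSubgroup.inf_relIndex_left] at h2
  rw [← h1, ← h2, h3]
  ring

end Card

section Core

variable {P V : Type*} [Group P] [AddCommGroup V] [DistribMulAction P V]

/-- conjugate subgroup `x A x⁻¹` -/
abbrev cj (x : P) (A : Subgroup P) : Subgroup P := A.map (MulAut.conj x).toMonoidHom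

theorem mem_cj {x y : P} {A : Subgroup P} : y ∈ cj x A ↔ x⁻¹ * y * x ∈ A := by
  constructor
  · rintro ⟨a, ha, rfl⟩
    have : x⁻¹ * (MulAut.conj x).toMonoidHom a * x = a := by
      show x⁻¹ * (x * a * x⁻¹) * x = a
      group
    rw [this]; exact ha
  · intro h
    refine ⟨x⁻¹ * y * x, h, ?_⟩
    show x * (x⁻¹ * y * x) * x⁻¹ = y
    group

theorem conj_mem_cj {x a : P} {A : Subgroup P} (ha : a ∈ A) : x * a * x⁻¹ ∈ cj x A :=
  ⟨a, ha, rfl⟩

theorem cj_cj (x y : P) (A : Subgroup P) : cj x (cj y A) = cj (x * y) A := by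
  ext g
  rw [mem_cj, mem_cj, mem_cj]
  have : y⁻¹ * (x⁻¹ * g * x) * y = (x * y)⁻¹ * g * (x * y) := by group
  rw [this]

theorem cj_mono {x : P} {A B : Subgroup P} (h : A ≤ B) : cj x A ≤ cj x B := Subgroup.map_mono h

theorem cj_one (A : Subgroup P) : cj 1 A = A := by
  ext g; rw [mem_cj]; simp

theorem cj_top (x : P) : cj x (⊤ : Subgroup P) = ⊤ := by
  ext g; rw [mem_cj]; simp

theorem cj_self {x : P} {M : Subgroup P} (hx : x ∈ M) : cj x M = M := by
  ext g; rw [mem_cj]
  constructor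
  · intro h
    have := M.mul_mem (M.mul_mem hx h) (M.inv_mem hx)
    have e : x * (x⁻¹ * g * x) * x⁻¹ = g := by group
    rwa [e] at this
  · intro h
    exact M.mul_mem (M.mul_mem (M.inv_mem hx) h) hx

theorem mem_fix_cj {x : P} {A : Subgroup P} {v : V} : v ∈ fix V (cj x A) ↔ x⁻¹ • v ∈ fix V A := by
  constructor
  · intro h a ha
    have h1 := h (x * a * x⁻¹) (conj_mem_cj ha)
    have : a • x⁻¹ • v = x⁻¹ • ((x * a * x⁻¹) • v) := by
      rw [← mul_smul, ← mul_smul]; congr 1; group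
    rw [this, h1]
  · rintro h _ ⟨a, ha, rfl⟩
    have h1 := h a ha
    show (x * a * x⁻¹) • v = v
    rw [mul_smul, mul_smul, h1, smul_inv_smul]

theorem smul_mem_fix_cj {x : P} {A : Subgroup P} {v : V} (h : v ∈ fix V A) :
    x • v ∈ fix V (cj x A) := by
  rw [mem_fix_cj, inv_smul_smul]; exact h

theorem mem_fix_top_smul {g : P} {v : V} (h : v ∈ fix V (⊤ : Subgroup P)) : g • v = v :=
  h g (Subgroup.mem_top g)

/-- The hypotheses. -/
structure Hyp (p : ℕ) (M R A : Subgroup P) (T : Sylow p P) (W : AddSubgroup V) : Prop where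
  hp : ∀ v : V, p • v = 0
  Winv : ∀ (g : P), ∀ w ∈ W, g • w ∈ W
  TM : (T : Subgroup P) ≤ M
  Mtop : M ≠ ⊤
  uniq : ∀ H : Subgroup P, (T : Subgroup P) ≤ H → H ≠ ⊤ → H ≤ M
  AT : A ≤ T
  Rn : R.Normal
  Rtriv : ∀ r ∈ R, ∀ w ∈ W, r • w = w
  gen : ∀ x, x ∉ M → ∀ H : Subgroup P, A ≤ H → cj x A ≤ H → R ≤ H → H = ⊤
  Wgen : ∀ X : AddSubgroup V, (∀ (g : P), ∀ x ∈ X, g • x ∈ X) → W ⊓ fix V (T : Subgroup P) ≤ X → W ≤ X
  Zne : ∃ z ∈ W, z ∈ fix V (T : Subgroup P) ∧ z ∉ fix V (⊤ : Subgroup P)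
  quad : ∀ a ∈ A, ∀ w ∈ W, a • w - w ∈ fix V A

namespace Hyp

variable {p : ℕ} {M R A : Subgroup P} {T : Sylow p P} {W : AddSubgroup V}

theorem A_le_M (h : Hyp p M R A T W) : A ≤ M := h.AT.trans h.TM

/-- (F1) -/
theorem le_cj (h : Hyp p M R A T W) {x : P} {H : Subgroup P} (hH : H ≠ ⊤) (hA : cj x A ≤ H)
    (hR : R ≤ H) : H ≤ cj x M := by
  intro y hy
  rw [mem_cj]
  by_contra hcon
  apply hH
  have h1 : A ≤ cj x⁻¹ H := by
    have := cj_mono (x := x⁻¹) hA
    rwa [cj_cj, inv_mul_cancel, cj_one] at this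
  have h2 : cj (x⁻¹ * y * x) A ≤ cj x⁻¹ H := by
    have e : cj (x⁻¹ * y * x) A = cj x⁻¹ (cj y (cj x A)) := by
      rw [cj_cj, cj_cj, mul_assoc]
    rw [e]
    refine cj_mono ?_
    have := cj_mono (x := y) hA
    rwa [cj_self hy] at this
  have h3 : R ≤ cj x⁻¹ H := by
    intro r hr
    rw [mem_cj]
    apply hR
    have := h.Rn.conj_mem r hr x
    simpa using this
  have h4 := h.gen _ hcon (cj x⁻¹ H) h1 h2 h3
  have h5 := congrArg (cj x) h4
  rw [cj_cj, mul_inv_cancel, cj_one, cj_top] at h5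
  exact h5

theorem stab_R (h : Hyp p M R A T W) {v : V} (hv : v ∈ W) : R ≤ MulAction.stabilizer P v :=
  fun r hr => h.Rtriv r hr v hv

theorem stab_A {v : V} {H : Subgroup P} (hv : v ∈ fix V H) : H ≤ MulAction.stabilizer P v :=
  fun a ha => hv a ha

theorem fix_of_stab {v : V} (hv : MulAction.stabilizer P v = ⊤) : v ∈ fix V (⊤ : Subgroup P) := by
  intro g _
  have : g ∈ MulAction.stabilizer P v := by rw [hv]; exact Subgroup.mem_top g
  exact this

/-- (F2) -/
theorem inter (h : Hyp p M R A T W) {x : P} (hx : x ∉ M) {v : V} (hv : v ∈ W) (h1 : v ∈ fix V A)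
    (h2 : v ∈ fix V (cj x A)) : v ∈ fix V (⊤ : Subgroup P) :=
  fix_of_stab (h.gen x hx _ (stab_A h1) (stab_A h2) (h.stab_R hv))

/-- (F3) -/
theorem move (h : Hyp p M R A T W) {x g : P} {v : V} (hv : v ∈ W) (h1 : v ∈ fix V (cj x A))
    (h2 : v ∉ fix V (⊤ : Subgroup P)) (h3 : g • v - v ∈ fix V (⊤ : Subgroup P)) : g ∈ cj x M := by
  have hne : MulAction.stabilizer P v ≠ ⊤ := fun h0 => h2 (fix_of_stab h0)
  rw [mem_cj]
  by_contra hcon
  apply hne
  -- `stab (g v) = stab v`
  have h4 : cj g (MulAction.stabilizer P v) ≤ MulAction.stabilizer P v := by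
    intro y hy
    rw [mem_cj] at hy
    have h5 : (g⁻¹ * y * g) • v = v := hy
    have h6 : y • g • v = g • v := by
      have : y • g • v = g • ((g⁻¹ * y * g) • v) := by
        rw [← mul_smul, ← mul_smul]; congr 1; group
      rw [this, h5]
    have h7 : g • v = (g • v - v) + v := by abel
    rw [h7, smul_add, mem_fix_top_smul h3] at h6
    exact add_left_cancel h6
  have h5 : A ≤ cj x⁻¹ (MulAction.stabilizer P v) := by
    have := cj_mono (x := x⁻¹) (stab_A h1)
    rwa [cj_cj, inv_mul_cancel, cj_one] at this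
  have h6 : cj (x⁻¹ * g * x) A ≤ cj x⁻¹ (MulAction.stabilizer P v) := by
    have e : cj (x⁻¹ * g * x) A = cj x⁻¹ (cj g (cj x A)) := by
      rw [cj_cj, cj_cj, mul_assoc]
    rw [e]
    exact cj_mono ((cj_mono (stab_A h1)).trans h4)
  have h7 : R ≤ cj x⁻¹ (MulAction.stabilizer P v) := by
    intro r hr
    rw [mem_cj]
    apply h.stab_R hv
    have := h.Rn.conj_mem r hr x
    simpa using this
  have h8 := h.gen _ hcon _ h5 h6 h7
  have h9 := congrArg (cj x) h8
  rw [cj_cj, mul_inv_cancel, cj_one, cj_top] at h9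
  exact h9

theorem W0_ne (h : Hyp p M R A T W) : ∃ z ∈ W, z ∈ fix V A ∧ z ∉ fix V (⊤ : Subgroup P) := by
  obtain ⟨z, hz, hzT, hz0⟩ := h.Zne
  exact ⟨z, hz, fix_anti h.AT hzT, hz0⟩

/-- (F5) -/
theorem exists_not_mem [Finite P] [Fact p.Prime] (h : Hyp p M R A T W) {a : P} (ha : a ∈ A)
    (hne : ¬ ∀ w ∈ W, a • w = w) : ∃ x, x ∉ M ∧ a ∉ cj x M := by
  by_contra hcon
  push Not at hcon
  have hcore : a ∈ M.normalCore := by
    intro b
    by_cases hb : b⁻¹ ∈ M
    · have h1 := M.mul_mem (M.mul_mem (M.inv_mem hb) (h.A_le_M ha)) hb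
      simpa using h1
    · have h1 := hcon _ hb
      rw [mem_cj] at h1
      simpa using h1
  set N := M.normalCore with hN
  have hNM : N ≤ M := Subgroup.normalCore_le M
  -- `N ∩ T` is normal in `P`
  have hnorm : ((T : Subgroup P) ⊓ N).Normal := by
    rw [← Subgroup.normalizer_eq_top_iff]
    by_contra hne'
    have h1 : (T : Subgroup P) ≤ Subgroup.normalizer (((T : Subgroup P) ⊓ N : Subgroup P) : Set P) := by
      intro t ht
      rw [Subgroup.mem_normalizer_iff]
      intro y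
      constructor
      · rintro ⟨hy1, hy2⟩
        exact ⟨(T : Subgroup P).mul_mem ((T : Subgroup P).mul_mem ht hy1) ((T : Subgroup P).inv_mem ht),
          (inferInstance : N.Normal).conj_mem y hy2 t⟩
      · rintro ⟨hy1, hy2⟩
        have e : y = t⁻¹ * (t * y * t⁻¹) * t := by group
        refine ⟨?_, ?_⟩
        · rw [e]
          exact (T : Subgroup P).mul_mem ((T : Subgroup P).mul_mem ((T : Subgroup P).inv_mem ht) hy1) ht
        · rw [e]
          have := (inferInstance : N.Normal).conj_mem _ hy2 t⁻¹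
          simpa using this
    have h2 := h.uniq _ h1 hne'
    -- Frattini
    have hdvd := CharactersDeep.QuatSylow.not_dvd_relIndex_of_normal T N
    have h3 : ∀ g : P, g ∈ M := by
      intro g
      have hgK : N.map (MulAut.conj g).toMonoidHom = N := by
        ext y
        rw [← Subgroup.mem_carrier]
        constructor
        · rintro ⟨n, hn, rfl⟩
          exact (inferInstance : N.Normal).conj_mem n hn g
        · intro hy
          refine ⟨g⁻¹ * y * g, ?_, ?_⟩
          · have := (inferInstance : N.Normal).conj_mem y hy g⁻¹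
            simpa using this
          · show g * (g⁻¹ * y * g) * g⁻¹ = y
            group
      obtain ⟨k, hk, hkR⟩ : ∃ k ∈ N, ((T : Subgroup P) ⊓ N).map (MulAut.conj (k * g)).toMonoidHom
          = (T : Subgroup P) ⊓ N :=
        LFourB.RelExt.frattini (p := p) (T.isPGroup'.to_le inf_le_left) inf_le_right
          (by rw [Subgroup.inf_relIndex_right]; exact hdvd) hgK
      have h4 : k * g ∈ Subgroup.normalizer (((T : Subgroup P) ⊓ N : Subgroup P) : Set P) := by
        rw [Subgroup.mem_normalizer_iff]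
        intro z
        constructor
        · intro hz
          have : k * g * z * (k * g)⁻¹ ∈ ((T : Subgroup P) ⊓ N).map (MulAut.conj (k * g)).toMonoidHom :=
            ⟨z, hz, rfl⟩
          rwa [hkR] at this
        · intro hz
          have hz' : k * g * z * (k * g)⁻¹ ∈
              ((T : Subgroup P) ⊓ N).map (MulAut.conj (k * g)).toMonoidHom := by
            rw [hkR]; exact hz
          obtain ⟨w, hw, hwz⟩ := hz'
          have : w = z := (MulAut.conj (k * g)).injective hwz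
          rw [← this]; exact hw
      have h5 := h2 h4
      have h6 := M.mul_mem (M.inv_mem (hNM hk)) h5
      simpa [← mul_assoc] using h6
    exact h.Mtop (by rw [eq_top_iff]; intro g _; exact h3 g)
  apply hne
  have hX : ∀ (g : P), ∀ x ∈ fix V ((T : Subgroup P) ⊓ N), g • x ∈ fix V ((T : Subgroup P) ⊓ N) := by
    intro g x hx t ht
    have h1 := hnorm.conj_mem t ht g⁻¹
    have h2 := hx _ h1
    have : t • g • x = g • ((g⁻¹ * t * g⁻¹⁻¹) • x) := by
      rw [← mul_smul, ← mul_smul]; congr 1; group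
    rw [this, h2]
  have h1 := h.Wgen _ hX (inf_le_right.trans (fix_anti inf_le_left))
  intro w hw
  exact h1 hw a ⟨h.AT ha, hcore⟩

theorem smul_sub_mem (h : Hyp p M R A T W) {a : P} (ha : a ∈ A) {w : V} (hw : w ∈ W) :
    a • w - w ∈ W ⊓ fix V A :=
  ⟨W.sub_mem (h.Winv a w hw) hw, h.quad a ha w hw⟩

theorem quad_cj (h : Hyp p M R A T W) {x b : P} (hb : b ∈ cj x A) {w : V} (hw : w ∈ W) :
    b • w - w ∈ W ⊓ fix V (cj x A) := by
  refine ⟨W.sub_mem (h.Winv b w hw) hw, ?_⟩
  show b • w - w ∈ fix V (cj x A)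
  rw [mem_fix_cj]
  rw [mem_cj] at hb
  have h1 := h.quad _ hb _ (h.Winv x⁻¹ w hw)
  have : (x⁻¹ * b * x) • x⁻¹ • w - x⁻¹ • w = x⁻¹ • (b • w - w) := by
    rw [smul_sub, ← mul_smul, ← mul_smul]
    congr 2; group
  rwa [this] at h1

theorem card_fix_cj [Finite V] (h : Hyp p M R A T W) (x : P) :
    Nat.card (W ⊓ fix V (cj x A) : AddSubgroup V) = Nat.card (W ⊓ fix V A : AddSubgroup V) := by
  symm
  apply Nat.card_congr
  exact
    { toFun := fun v => ⟨x • (v : V), h.Winv x v v.2.1, smul_mem_fix_cj v.2.2⟩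
      invFun := fun v => ⟨x⁻¹ • (v : V), h.Winv x⁻¹ v v.2.1, mem_fix_cj.1 v.2.2⟩
      left_inv := fun v => Subtype.ext (inv_smul_smul x (v : V))
      right_inv := fun v => Subtype.ext (smul_inv_smul x (v : V)) }

/-- (F6) -/
theorem comm_eq [Finite P] [Finite V] [Fact p.Prime] (h : Hyp p M R A T W) {a : P} (ha : a ∈ A)
    (hne : ¬ ∀ w ∈ W, a • w = w) {y : V} (hy : y ∈ W ⊓ fix V A) :
    ∃ w ∈ W, y - (a • w - w) ∈ fix V (⊤ : Subgroup P) := by
  obtain ⟨x, hx, hax⟩ := h.exists_not_mem ha hne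
  set V0 := fix V (⊤ : Subgroup P) with hV0
  set D := W ⊓ fix V (cj x A) with hD
  -- the map `D → (W ∩ fix A)/V0`
  let Y := W ⊓ fix V A
  let f : D →+ (Y ⧸ V0.addSubgroupOf Y) :=
    { toFun := fun d => QuotientAddGroup.mk ⟨a • (d : V) - d, h.smul_sub_mem ha d.2.1⟩
      map_zero' := by
        rw [QuotientAddGroup.eq_zero_iff, AddSubgroup.mem_addSubgroupOf]
        show a • (0 : V) - 0 ∈ V0
        rw [smul_zero, sub_zero]; exact V0.zero_mem
      map_add' := fun d e => by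
        rw [← QuotientAddGroup.mk_add]
        congr 1
        apply Subtype.ext
        show a • ((d : V) + e) - (d + e) = (a • (d : V) - d) + (a • (e : V) - e)
        rw [smul_add]; abel }
  have hker : ∀ d : D, f d = 0 → (d : V) ∈ V0 := by
    intro d hd
    by_contra hd0
    have h1 := (QuotientAddGroup.eq_zero_iff _).1 hd
    rw [AddSubgroup.mem_addSubgroupOf] at h1
    exact hax (h.move d.2.1 d.2.2 hd0 h1)
  have hkereq : f.ker = V0.addSubgroupOf D := by
    ext d
    rw [AddMonoidHom.mem_ker, AddSubgroup.mem_addSubgroupOf]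
    constructor
    · exact hker d
    · intro hd
      show QuotientAddGroup.mk _ = _
      rw [QuotientAddGroup.eq_zero_iff, AddSubgroup.mem_addSubgroupOf]
      show a • (d : V) - d ∈ V0
      rw [mem_fix_top_smul hd, sub_self]; exact V0.zero_mem
  have hV0D : Nat.card (V0.addSubgroupOf D) = Nat.card (W ⊓ V0 : AddSubgroup V) := by
    apply Nat.card_congr
    exact
      { toFun := fun d => ⟨(d : D), (d : D).2.1, d.2⟩
        invFun := fun v => ⟨⟨v, v.2.1, fix_anti le_top v.2.2⟩, v.2.2⟩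
        left_inv := fun d => rfl
        right_inv := fun v => rfl }
  have hV0Y : Nat.card (V0.addSubgroupOf Y) = Nat.card (W ⊓ V0 : AddSubgroup V) := by
    apply Nat.card_congr
    exact
      { toFun := fun d => ⟨(d : Y), (d : Y).2.1, d.2⟩
        invFun := fun v => ⟨⟨v, v.2.1, fix_anti le_top v.2.2⟩, v.2.2⟩
        left_inv := fun d => rfl
        right_inv := fun v => rfl }
  have hsurj : Function.Surjective f := by
    have h1 := AddSubgroup.card_eq_card_quotient_mul_card_addSubgroup (V0.addSubgroupOf Y)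
    have h2 := AddSubgroup.card_eq_card_quotient_mul_card_addSubgroup f.ker
    have h3 : Nat.card (D ⧸ f.ker) = Nat.card f.range :=
      Nat.card_congr (QuotientAddGroup.quotientKerEquivRange f).toEquiv
    have h4 : Nat.card f.ker = Nat.card (W ⊓ V0 : AddSubgroup V) := by rw [hkereq, hV0D]
    rw [h3, h4] at h2
    rw [hV0Y] at h1
    have h5 : Nat.card D = Nat.card Y := h.card_fix_cj x
    rw [h5, h1] at h2
    have h6 := Nat.eq_of_mul_eq_mul_right Nat.card_pos h2
    rw [← AddMonoidHom.range_eq_top]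
    apply AddSubgroup.eq_top_of_card_eq
    rw [← h6]
  obtain ⟨d, hd⟩ := hsurj (QuotientAddGroup.mk ⟨y, hy⟩)
  refine ⟨d, d.2.1, ?_⟩
  have h1 : (QuotientAddGroup.mk (⟨a • (d : V) - d, h.smul_sub_mem ha d.2.1⟩ : Y) :
    (Y ⧸ V0.addSubgroupOf Y)) = QuotientAddGroup.mk ⟨y, hy⟩ := hd
  rw [QuotientAddGroup.eq, AddSubgroup.mem_addSubgroupOf] at h1
  have e : y - (a • (d : V) - d) = -(a • (d : V) - d) + y := by abel
  rw [e]; exact h1

theorem R_le_M (h : Hyp p M R A T W) : R ≤ M := by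
  obtain ⟨z, hz, hzT, hz0⟩ := h.Zne
  have h1 : MulAction.stabilizer P z ≠ ⊤ := fun h0 => hz0 (fix_of_stab h0)
  exact (h.stab_R hz).trans (h.uniq _ (stab_A hzT) h1)

/-- (F7) -/
theorem inter_cj [Finite P] [Finite V] [Fact p.Prime] (h : Hyp p M R A T W) {x b : P} (hx : x ∉ M)
    (hb : b ∈ A) (hbx : b ∈ cj x M) : ∀ w ∈ W, b • w = w := by
  by_contra hne
  -- move `b` into a conjugate of `T`
  have hTi : ¬ p ∣ (cj x (T : Subgroup P)).relIndex (cj x M) := by
    rw [Subgroup.relIndex_map_map_of_injective _ _ (MulAut.conj x).injective]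
    intro hd
    exact T.not_dvd_index (hd.trans (Subgroup.relIndex_dvd_index_of_le h.TM))
  have hbp : IsPGroup p (Subgroup.zpowers b) :=
    T.isPGroup'.to_le (by rw [Subgroup.zpowers_le]; exact h.AT hb)
  obtain ⟨k, hk, hkb⟩ := Lib.GoldschmidtFusion.exists_conj_le_in (p := p) (T.isPGroup'.map _) hTi
    (by rw [Subgroup.zpowers_le]; exact hbx) hbp
  -- `k b k⁻¹ ∈ x T x⁻¹`
  have h1 : k * b * k⁻¹ ∈ cj x (T : Subgroup P) := hkb ⟨b, Subgroup.mem_zpowers b, rfl⟩
  set y := k⁻¹ * x with hy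
  have hby : b ∈ cj y (T : Subgroup P) := by
    rw [mem_cj] at h1 ⊢
    have e : y⁻¹ * b * y = x⁻¹ * (k * b * k⁻¹) * x := by rw [hy]; group
    rw [e]; exact h1
  have hyM : y ∉ M := by
    intro hyM
    rw [mem_cj] at hk
    apply hx
    have h2 := M.mul_mem hyM hk
    have e : y * (x⁻¹ * k * x) = x := by rw [hy]; group
    rwa [e] at h2
  -- the subgroup `[W, T^y] + W0`
  set V0 := fix V (⊤ : Subgroup P) with hV0
  obtain ⟨z, hz, hzT, hz0⟩ := h.Zne
  have hlt : W ⊓ V0 < W := lt_of_le_of_ne inf_le_left (fun h0 => by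
    apply hz0
    have : z ∈ W ⊓ V0 := by rw [h0]; exact hz
    exact this.2)
  obtain ⟨X, hX0, hXW, hXT⟩ := exists_proper h.hp (cj y (T : Subgroup P)) (T.isPGroup'.map _) W
    (W ⊓ V0) (fun t _ w hw => h.Winv t w hw)
    (fun t _ w hw => by rw [mem_fix_top_smul hw.2]; exact hw) hlt
  have hAX : W ⊓ fix V A ≤ X := by
    intro v hv
    obtain ⟨w, hw, hw0⟩ := h.comm_eq hb hne hv
    have h2 := hXT b hby w hw
    have h3 : v - (b • w - w) ∈ X :=
      hX0 ⟨W.sub_mem hv.1 (W.sub_mem (h.Winv b w hw) hw), hw0⟩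
    have := X.add_mem h3 h2
    rwa [sub_add_cancel] at this
  -- the set stabiliser of `X`
  have hsm : ∀ (H : Subgroup P), (∀ g ∈ H, ∀ v ∈ X, g • v - v ∈ X) →
      ∀ g ∈ H, ∀ v ∈ X, g • v ∈ X := by
    intro H hH g hg v hv
    have := X.add_mem (hH g hg v hv) hv
    rwa [sub_add_cancel] at this
  let S : Subgroup P :=
    { carrier := {g | (∀ v ∈ X, g • v ∈ X) ∧ (∀ v ∈ X, g⁻¹ • v ∈ X)}
      one_mem' := ⟨fun v hv => by rwa [one_smul], fun v hv => by rwa [inv_one, one_smul]⟩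
      mul_mem' := by
        rintro a b ⟨ha, ha'⟩ ⟨hb, hb'⟩
        refine ⟨fun v hv => by rw [mul_smul]; exact ha _ (hb _ hv), fun v hv => ?_⟩
        rw [mul_inv_rev, mul_smul]; exact hb' _ (ha' _ hv)
      inv_mem' := by
        rintro a ⟨ha, ha'⟩
        exact ⟨ha', fun v hv => by rw [inv_inv]; exact ha _ hv⟩ }
  have hS : ∀ H : Subgroup P, (∀ g ∈ H, ∀ v ∈ X, g • v ∈ X) → H ≤ S := by
    intro H hH g hg
    exact ⟨hH g hg, hH g⁻¹ (H.inv_mem hg)⟩
  have hSA : A ≤ S := hS _ (hsm _ (fun a ha v hv => hAX (h.smul_sub_mem ha (hXW.le hv))))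
  have hST : cj y (T : Subgroup P) ≤ S := hS _ (hsm _ (fun a ha v hv => hXT a ha v (hXW.le hv)))
  have hSR : R ≤ S := hS _ (fun r hr v hv => by rw [h.Rtriv r hr v (hXW.le hv)]; exact hv)
  have hStop : S = ⊤ := h.gen y hyM S hSA ((cj_mono h.AT).trans hST) hSR
  have hXinv : ∀ (g : P), ∀ v ∈ X, g • v ∈ X := by
    intro g
    have : g ∈ S := by rw [hStop]; exact Subgroup.mem_top g
    exact this.1
  have h2 := h.Wgen X hXinv ((inf_le_inf_left W (fix_anti h.AT)).trans hAX)
  exact absurd h2 (not_le_of_gt hXW)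

/-- the elements acting trivially on `W` -/
def tw (W : AddSubgroup V) : Subgroup P where
  carrier := {g | ∀ w ∈ W, g • w = w}
  one_mem' := fun w _ => one_smul P w
  mul_mem' := fun {a b} ha hb w hw => by rw [mul_smul, hb w hw, ha w hw]
  inv_mem' := fun {a} ha w hw => by
    rw [inv_smul_eq_iff]; exact (ha w hw).symm

theorem mem_tw {g : P} : g ∈ tw (P := P) W ↔ ∀ w ∈ W, g • w = w := Iff.rfl

/-- the homomorphism `a ↦ a v - v` -/
def cmap (h : Hyp p M R A T W) (v : V) (hv : v ∈ W) :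
    ↥A →* Multiplicative (↥(W ⊓ fix V A) ⧸ (fix V (⊤ : Subgroup P)).addSubgroupOf (W ⊓ fix V A)) where
  toFun a := Multiplicative.ofAdd (QuotientAddGroup.mk ⟨(a : P) • v - v, h.smul_sub_mem a.2 hv⟩)
  map_one' := by
    rw [← ofAdd_zero]
    congr 1
    rw [QuotientAddGroup.eq_zero_iff, AddSubgroup.mem_addSubgroupOf]
    show ((1 : A) : P) • v - v ∈ fix V (⊤ : Subgroup P)
    rw [Subgroup.coe_one, one_smul, sub_self]; exact AddSubgroup.zero_mem _
  map_mul' a b := by
    rw [← ofAdd_add, ← QuotientAddGroup.mk_add]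
    congr 2
    apply Subtype.ext
    show ((a * b : A) : P) • v - v = ((a : P) • v - v) + ((b : P) • v - v)
    have h1 := (h.smul_sub_mem b.2 hv).2 a a.2
    rw [smul_sub] at h1
    rw [Subgroup.coe_mul, mul_smul]
    have h2 : (a : P) • (b : P) • v = ((b : P) • v - v) + (a : P) • v := by
      rw [← h1]; abel
    rw [h2]; abel

theorem cmap_ker (h : Hyp p M R A T W) [Finite P] [Finite V] [Fact p.Prime] {x : P} (hx : x ∉ M)
    {v : V} (hv : v ∈ W) (h1 : v ∈ fix V (cj x A)) (h2 : v ∉ fix V (⊤ : Subgroup P)) (a : A)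
    (ha : h.cmap v hv a = 1) : (a : P) ∈ A ⊓ tw W := by
  refine ⟨a.2, ?_⟩
  have h3 : (QuotientAddGroup.mk (⟨(a : P) • v - v, h.smul_sub_mem a.2 hv⟩ : ↥(W ⊓ fix V A)) :
    (↥(W ⊓ fix V A) ⧸ (fix V (⊤ : Subgroup P)).addSubgroupOf (W ⊓ fix V A))) = 0 := ha
  rw [QuotientAddGroup.eq_zero_iff, AddSubgroup.mem_addSubgroupOf] at h3
  exact h.inter_cj hx a.2 (h.move hv h1 h2 h3)

theorem card_quot [Finite V] (_h : Hyp p M R A T W) :
    Nat.card (W ⊓ fix V A : AddSubgroup V) =
      Nat.card (↥(W ⊓ fix V A) ⧸ (fix V (⊤ : Subgroup P)).addSubgroupOf (W ⊓ fix V A)) *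
        Nat.card (W ⊓ fix V (⊤ : Subgroup P) : AddSubgroup V) := by
  have h1 := AddSubgroup.card_eq_card_quotient_mul_card_addSubgroup
    ((fix V (⊤ : Subgroup P)).addSubgroupOf (W ⊓ fix V A))
  have hV0Y : Nat.card ((fix V (⊤ : Subgroup P)).addSubgroupOf (W ⊓ fix V A)) =
      Nat.card (W ⊓ fix V (⊤ : Subgroup P) : AddSubgroup V) := by
    apply Nat.card_congr
    exact
      { toFun := fun d => ⟨(d : ↥(W ⊓ fix V A)), (d : ↥(W ⊓ fix V A)).2.1, d.2⟩
        invFun := fun v => ⟨⟨v, v.2.1, fix_anti le_top v.2.2⟩, v.2.2⟩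
        left_inv := fun d => rfl
        right_inv := fun v => rfl }
  rw [hV0Y] at h1
  exact h1

theorem card_ker_le (h : Hyp p M R A T W) [Finite P] [Finite V] [Fact p.Prime] {x : P} (hx : x ∉ M)
    {v : V} (hv : v ∈ W) (h1 : v ∈ fix V (cj x A)) (h2 : v ∉ fix V (⊤ : Subgroup P)) :
    Nat.card (h.cmap v hv).ker ≤ Nat.card (A ⊓ tw W : Subgroup P) := by
  apply Nat.card_le_card_of_injective
    (fun a : (h.cmap v hv).ker => (⟨((a : A) : P), h.cmap_ker hx hv h1 h2 a a.2⟩ :
      (A ⊓ tw W : Subgroup P)))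
  intro a b hab
  have := congrArg Subtype.val hab
  exact Subtype.ext (Subtype.ext this)

theorem exists_nf (h : Hyp p M R A T W) (x : P) :
    ∃ v ∈ W, v ∈ fix V (cj x A) ∧ v ∉ fix V (⊤ : Subgroup P) := by
  obtain ⟨z, hz, hzA, hz0⟩ := h.W0_ne
  refine ⟨x • z, h.Winv x z hz, smul_mem_fix_cj hzA, fun h0 => hz0 ?_⟩
  have : z = x⁻¹ • x • z := (inv_smul_smul x z).symm
  rw [this, mem_fix_top_smul h0]
  exact h0

/-- (F8) -/
theorem card_le (h : Hyp p M R A T W) [Finite P] [Finite V] [Fact p.Prime] {x : P} (hx : x ∉ M) :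
    Nat.card A * Nat.card (W ⊓ fix V (⊤ : Subgroup P) : AddSubgroup V) ≤
      Nat.card (A ⊓ tw W : Subgroup P) * Nat.card (W ⊓ fix V A : AddSubgroup V) := by
  obtain ⟨v, hv, h1, h2⟩ := h.exists_nf x
  have h3 := Subgroup.card_eq_card_quotient_mul_card_subgroup (h.cmap v hv).ker
  have h4 : Nat.card (↥A ⧸ (h.cmap v hv).ker) = Nat.card (h.cmap v hv).range :=
    Nat.card_congr (QuotientGroup.quotientKerEquivRange (h.cmap v hv)).toEquiv
  have h5 : Nat.card (h.cmap v hv).range ≤ Nat.card (↥(W ⊓ fix V A) ⧸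
      (fix V (⊤ : Subgroup P)).addSubgroupOf (W ⊓ fix V A)) :=
    Nat.card_le_card_of_injective (Subtype.val) Subtype.val_injective
  have h6 := h.card_ker_le hx hv h1 h2
  rw [h4] at h3
  rw [h3, h.card_quot]
  calc Nat.card (h.cmap v hv).range * Nat.card (h.cmap v hv).ker *
        Nat.card (W ⊓ fix V (⊤ : Subgroup P) : AddSubgroup V)
      ≤ Nat.card (↥(W ⊓ fix V A) ⧸ (fix V (⊤ : Subgroup P)).addSubgroupOf (W ⊓ fix V A)) *
        Nat.card (A ⊓ tw W : Subgroup P) *
        Nat.card (W ⊓ fix V (⊤ : Subgroup P) : AddSubgroup V) :=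
        Nat.mul_le_mul_right _ (Nat.mul_le_mul h5 h6)
    _ = _ := by ring

theorem inf_inf (h : Hyp p M R A T W) {x : P} (hx : x ∉ M) :
    (W ⊓ fix V A) ⊓ (W ⊓ fix V (cj x A)) = W ⊓ fix V (⊤ : Subgroup P) := by
  apply le_antisymm
  · rintro v ⟨⟨hv, h1⟩, _, h2⟩
    exact ⟨hv, h.inter hx hv h1 h2⟩
  · rintro v ⟨hv, h1⟩
    exact ⟨⟨hv, fix_anti le_top h1⟩, hv, fix_anti le_top h1⟩

theorem exists_not_mem_M (h : Hyp p M R A T W) : ∃ x, x ∉ M := by
  by_contra hcon
  push Not at hcon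
  exact h.Mtop (by rw [eq_top_iff]; intro g _; exact hcon g)

theorem card_sq_le (h : Hyp p M R A T W) [Finite V] :
    Nat.card (W ⊓ fix V A : AddSubgroup V) * Nat.card (W ⊓ fix V A : AddSubgroup V) ≤
      Nat.card W * Nat.card (W ⊓ fix V (⊤ : Subgroup P) : AddSubgroup V) := by
  obtain ⟨x, hx⟩ := h.exists_not_mem_M
  have h1 := card_sup_mul_card_inf (W ⊓ fix V A) (W ⊓ fix V (cj x A))
  rw [h.inf_inf hx, h.card_fix_cj x] at h1
  rw [← h1]
  apply Nat.mul_le_mul_right
  exact Nat.card_le_card_of_injective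
    (AddSubgroup.inclusion (sup_le inf_le_left inf_le_left : _ ≤ W))
    (AddSubgroup.inclusion_injective _)

section Size

variable [Finite P] [Finite V] [Fact p.Prime]

/-- (c1) -/
theorem c1 (h : Hyp p M R A T W) (hs : Nat.card W * Nat.card (A ⊓ tw W : Subgroup P) ≤
    Nat.card A * Nat.card (W ⊓ fix V A : AddSubgroup V)) :
    Nat.card (A ⊓ tw W : Subgroup P) * Nat.card (W ⊓ fix V A : AddSubgroup V) =
      Nat.card A * Nat.card (W ⊓ fix V (⊤ : Subgroup P) : AddSubgroup V) := by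
  obtain ⟨x, hx⟩ := h.exists_not_mem_M
  have h1 := h.card_le hx
  have h2 := h.card_sq_le
  have hpos : 0 < Nat.card (W ⊓ fix V A : AddSubgroup V) := Nat.card_pos
  have hpos1 : 0 < Nat.card (A ⊓ tw W : Subgroup P) := Nat.card_pos
  have hpos0 : 0 < Nat.card (W ⊓ fix V (⊤ : Subgroup P) : AddSubgroup V) := Nat.card_pos
  generalize Nat.card (W ⊓ fix V A : AddSubgroup V) = a at *
  generalize Nat.card (A ⊓ tw W : Subgroup P) = b at *
  generalize Nat.card (W ⊓ fix V (⊤ : Subgroup P) : AddSubgroup V) = c at *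
  generalize Nat.card W = w at *
  generalize Nat.card A = n at *
  apply le_antisymm _ h1
  -- b a ≤ n c
  have h3 : a * (b * a) ≤ a * (n * c) := by
    calc a * (b * a) = (a * a) * b := by ring
      _ ≤ (w * c) * b := Nat.mul_le_mul_right _ h2
      _ = (w * b) * c := by ring
      _ ≤ (n * a) * c := Nat.mul_le_mul_right _ hs
      _ = a * (n * c) := by ring
  exact Nat.le_of_mul_le_mul_left h3 hpos

/-- (c2) -/
theorem c2 (h : Hyp p M R A T W) (hs : Nat.card W * Nat.card (A ⊓ tw W : Subgroup P) ≤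
    Nat.card A * Nat.card (W ⊓ fix V A : AddSubgroup V)) :
    Nat.card W * Nat.card (W ⊓ fix V (⊤ : Subgroup P) : AddSubgroup V) =
      Nat.card (W ⊓ fix V A : AddSubgroup V) * Nat.card (W ⊓ fix V A : AddSubgroup V) := by
  have h1 := h.c1 hs
  have h2 := h.card_sq_le
  have hpos1 : 0 < Nat.card (A ⊓ tw W : Subgroup P) := Nat.card_pos
  generalize Nat.card (W ⊓ fix V A : AddSubgroup V) = a at *
  generalize Nat.card (A ⊓ tw W : Subgroup P) = b at *
  generalize Nat.card (W ⊓ fix V (⊤ : Subgroup P) : AddSubgroup V) = c at *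
  generalize Nat.card W = w at *
  generalize Nat.card A = n at *
  apply le_antisymm _ h2
  have h3 : b * (w * c) ≤ b * (a * a) := by
    calc b * (w * c) = (w * b) * c := by ring
      _ ≤ (n * a) * c := Nat.mul_le_mul_right _ hs
      _ = (n * c) * a := by ring
      _ = (b * a) * a := by rw [h1]
      _ = b * (a * a) := by ring
  exact Nat.le_of_mul_le_mul_left h3 hpos1

/-- (c3) -/
theorem c3 (h : Hyp p M R A T W) (hs : Nat.card W * Nat.card (A ⊓ tw W : Subgroup P) ≤
    Nat.card A * Nat.card (W ⊓ fix V A : AddSubgroup V)) {x : P} (hx : x ∉ M) :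
    (W ⊓ fix V A) ⊔ (W ⊓ fix V (cj x A)) = W := by
  have h1 := card_sup_mul_card_inf (W ⊓ fix V A) (W ⊓ fix V (cj x A))
  rw [h.inf_inf hx, h.card_fix_cj x, ← h.c2 hs] at h1
  have hpos0 : 0 < Nat.card (W ⊓ fix V (⊤ : Subgroup P) : AddSubgroup V) := Nat.card_pos
  have h2 := Nat.eq_of_mul_eq_mul_right hpos0 h1
  exact AddSubgroup.eq_of_le_of_card_ge (sup_le inf_le_left inf_le_left) h2.ge

/-- (c4) -/
theorem c4 (h : Hyp p M R A T W) (hs : Nat.card W * Nat.card (A ⊓ tw W : Subgroup P) ≤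
    Nat.card A * Nat.card (W ⊓ fix V A : AddSubgroup V)) :
    Nat.card W * Nat.card (A ⊓ tw W : Subgroup P) =
    Nat.card A * Nat.card (W ⊓ fix V A : AddSubgroup V) := by
  have h1 := h.c1 hs
  have h2 := h.c2 hs
  have hpos0 : 0 < Nat.card (W ⊓ fix V (⊤ : Subgroup P) : AddSubgroup V) := Nat.card_pos
  generalize Nat.card (W ⊓ fix V A : AddSubgroup V) = a at *
  generalize Nat.card (A ⊓ tw W : Subgroup P) = b at *
  generalize Nat.card (W ⊓ fix V (⊤ : Subgroup P) : AddSubgroup V) = c at *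
  generalize Nat.card W = w at *
  generalize Nat.card A = n at *
  have h3 : c * (w * b) = c * (n * a) := by
    calc c * (w * b) = (w * c) * b := by ring
      _ = (a * a) * b := by rw [h2]
      _ = a * (b * a) := by ring
      _ = a * (n * c) := by rw [h1]
      _ = c * (n * a) := by ring
  exact Nat.eq_of_mul_eq_mul_left hpos0 h3

/-- (F10) -/
theorem cover (h : Hyp p M R A T W) (hs : Nat.card W * Nat.card (A ⊓ tw W : Subgroup P) ≤
    Nat.card A * Nat.card (W ⊓ fix V A : AddSubgroup V)) {x : P} (hx : x ∉ M)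
    {v : V} (hv : v ∈ W) (h1 : v ∈ fix V (cj x A)) (h2 : v ∉ fix V (⊤ : Subgroup P))
    {y : V} (hy : y ∈ W ⊓ fix V A) : ∃ a ∈ A, y - (a • v - v) ∈ fix V (⊤ : Subgroup P) := by
  have h3 := Subgroup.card_eq_card_quotient_mul_card_subgroup (h.cmap v hv).ker
  have h4 : Nat.card (↥A ⧸ (h.cmap v hv).ker) = Nat.card (h.cmap v hv).range :=
    Nat.card_congr (QuotientGroup.quotientKerEquivRange (h.cmap v hv)).toEquiv
  have h6 := h.card_ker_le hx hv h1 h2
  have h7 := h.c1 hs
  have h8 := h.card_quot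
  rw [h4] at h3
  have hpos0 : 0 < Nat.card (W ⊓ fix V (⊤ : Subgroup P) : AddSubgroup V) := Nat.card_pos
  have hpos1 : 0 < Nat.card (A ⊓ tw W : Subgroup P) := Nat.card_pos
  have htop : (h.cmap v hv).range = ⊤ := by
    apply Subgroup.eq_top_of_le_card
    have h9 : Nat.card (Multiplicative (↥(W ⊓ fix V A) ⧸
      (fix V (⊤ : Subgroup P)).addSubgroupOf (W ⊓ fix V A))) = Nat.card (↥(W ⊓ fix V A) ⧸
      (fix V (⊤ : Subgroup P)).addSubgroupOf (W ⊓ fix V A)) := rfl
    rw [h9]
    generalize Nat.card (↥(W ⊓ fix V A) ⧸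
      (fix V (⊤ : Subgroup P)).addSubgroupOf (W ⊓ fix V A)) = q at *
    generalize Nat.card (h.cmap v hv).range = r at *
    generalize Nat.card (h.cmap v hv).ker = k at *
    generalize Nat.card (W ⊓ fix V A : AddSubgroup V) = a at *
    generalize Nat.card (A ⊓ tw W : Subgroup P) = b at *
    generalize Nat.card (W ⊓ fix V (⊤ : Subgroup P) : AddSubgroup V) = c at *
    generalize Nat.card A = n at *
    -- b q c = b a = n c = r k c ≤ r b c
    have h10 : (b * c) * q ≤ (b * c) * r := by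
      calc (b * c) * q = b * (q * c) := by ring
        _ = b * a := by rw [h8]
        _ = n * c := h7
        _ = (r * k) * c := by rw [h3]
        _ ≤ (r * b) * c := Nat.mul_le_mul_right _ (Nat.mul_le_mul_left _ h6)
        _ = (b * c) * r := by ring
    exact Nat.le_of_mul_le_mul_left h10 (Nat.mul_pos hpos1 hpos0)
  have h11 : Multiplicative.ofAdd (QuotientAddGroup.mk (⟨y, hy⟩ : ↥(W ⊓ fix V A)) :
      (↥(W ⊓ fix V A) ⧸ (fix V (⊤ : Subgroup P)).addSubgroupOf (W ⊓ fix V A))) ∈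
      (h.cmap v hv).range := by rw [htop]; exact Subgroup.mem_top _
  obtain ⟨a, ha⟩ := h11
  refine ⟨a, a.2, ?_⟩
  have h12 : (QuotientAddGroup.mk (⟨(a : P) • v - v, h.smul_sub_mem a.2 hv⟩ : ↥(W ⊓ fix V A)) :
    (↥(W ⊓ fix V A) ⧸ (fix V (⊤ : Subgroup P)).addSubgroupOf (W ⊓ fix V A))) =
      QuotientAddGroup.mk ⟨y, hy⟩ := ha
  rw [QuotientAddGroup.eq, AddSubgroup.mem_addSubgroupOf] at h12
  have e : y - ((a : P) • v - v) = -((a : P) • v - v) + y := by abel
  rw [e]; exact h12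

/-- `A` lies in no other conjugate of `M`. -/
theorem mem_M_of_le (h : Hyp p M R A T W) {g : P} (hg : A ≤ cj g M) : g ∈ M := by
  by_contra hcon
  have h1 := h.gen g hcon (cj g M) hg (cj_mono h.A_le_M) (by
    intro r hr
    rw [mem_cj]
    apply h.R_le_M
    have := h.Rn.conj_mem r hr g⁻¹
    simpa using this)
  apply h.Mtop
  have h2 := congrArg (cj g⁻¹) h1
  rwa [cj_cj, inv_mul_cancel, cj_one, cj_top] at h2

/-- (F9) the spread property -/
theorem spread (h : Hyp p M R A T W) (hs : Nat.card W * Nat.card (A ⊓ tw W : Subgroup P) ≤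
    Nat.card A * Nat.card (W ⊓ fix V A : AddSubgroup V)) {x b : P} (hx : x ∉ M)
    (hb : b ∈ cj x A) (hbW : b ∉ tw W) :
    ∃ a ∈ A, ∀ y ∈ W ⊓ fix V A, ∃ y' ∈ W ⊓ fix V (cj x A), b • y = a • y' := by
  set V0 := fix V (⊤ : Subgroup P) with hV0
  have hx' : x⁻¹ ∉ M := fun h0 => hx (by simpa using M.inv_mem h0)
  -- for each `y ∉ V0`, `b y` lies in some `a (W ∩ fix B)`
  have key : ∀ y ∈ W ⊓ fix V A, y ∉ V0 → ∃ a ∈ A, a⁻¹ • b • y ∈ W ⊓ fix V (cj x A) := by
    intro y hy hy0
    have hbnot : b • y ∉ fix V A := by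
      intro hcon
      have h1 : b • y - y ∈ V0 := by
        apply h.inter hx (W.sub_mem (h.Winv b y hy.1) hy.1)
        · exact AddSubgroup.sub_mem _ hcon hy.2
        · exact (h.quad_cj hb hy.1).2
      have h2 : b ∈ cj 1 M := h.move hy.1 (by rw [cj_one]; exact hy.2) hy0 h1
      rw [cj_one] at h2
      -- `x⁻¹ b x ∈ A ∩ x⁻¹ M x`
      have h3 : x⁻¹ * b * x ∈ A := mem_cj.1 hb
      have h4 : x⁻¹ * b * x ∈ cj x⁻¹ M := by
        rw [mem_cj]
        have e : x⁻¹⁻¹ * (x⁻¹ * b * x) * x⁻¹ = b := by group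
        rw [e]; exact h2
      have h5 := h.inter_cj hx' h3 h4
      apply hbW
      intro w hw
      have h6 := h5 _ (h.Winv x⁻¹ w hw)
      have h7 : b • w = x • ((x⁻¹ * b * x) • x⁻¹ • w) := by
        rw [← mul_smul, ← mul_smul]; congr 1; group
      rw [h7, h6, smul_inv_smul]
    have hbW : b • y ∈ W := h.Winv b y hy.1
    rw [← h.c3 hs hx] at hbW
    obtain ⟨u, hu, u', hu', huu⟩ := AddSubgroup.mem_sup.1 hbW
    have hu'0 : u' ∉ V0 := by
      intro h0
      apply hbnot
      rw [← huu]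
      exact AddSubgroup.add_mem _ hu.2 (fix_anti le_top h0)
    obtain ⟨a, ha, hau⟩ := h.cover hs hx hu'.1 hu'.2 hu'0 hu
    refine ⟨a, ha, ?_⟩
    have e : b • y = a • (u' + (u - (a • u' - u'))) := by
      rw [smul_add, mem_fix_top_smul hau, ← huu]; abel
    rw [e, inv_smul_smul]
    exact AddSubgroup.add_mem _ hu' ⟨W.sub_mem hu.1 (W.sub_mem (h.Winv a _ hu'.1) hu'.1),
      fix_anti le_top hau⟩
  obtain ⟨y0, hy0W, hy0A, hy00⟩ := h.W0_ne
  obtain ⟨a, ha, hay0⟩ := key y0 ⟨hy0W, hy0A⟩ hy00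
  -- the stabiliser argument
  have stab : ∀ y ∈ W ⊓ fix V A, y ∉ V0 → ∀ c ∈ A, c⁻¹ • b • y ∈ W ⊓ fix V (cj x A) →
      b⁻¹ * c * x ∈ M := by
    intro y hy hy0 c hc hcy
    have hby0 : b • y ∉ V0 := by
      intro h0
      apply hy0
      have : y = b⁻¹ • b • y := (inv_smul_smul b y).symm
      rw [this, mem_fix_top_smul h0]; exact h0
    have hne : MulAction.stabilizer P (b • y) ≠ ⊤ := fun h0 => hby0 (fix_of_stab h0)
    have h1 : cj b A ≤ MulAction.stabilizer P (b • y) := stab_A (smul_mem_fix_cj hy.2)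
    have h2 : cj (c * x) A ≤ MulAction.stabilizer P (b • y) := by
      apply stab_A
      have h3 := smul_mem_fix_cj (x := c) hcy.2
      rwa [smul_inv_smul, cj_cj] at h3
    have h4 := h.le_cj hne h2 (h.stab_R (h.Winv b y hy.1))
    have h5 := h1.trans h4
    have h6 := cj_mono (x := b⁻¹) h5
    rw [cj_cj, cj_cj, inv_mul_cancel, cj_one] at h6
    have h7 := h.mem_M_of_le h6
    rwa [← mul_assoc] at h7
  refine ⟨a, ha, fun y hy => ⟨a⁻¹ • b • y, ?_, (smul_inv_smul a _).symm⟩⟩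
  by_cases hy0 : y ∈ V0
  · rw [mem_fix_top_smul hy0, mem_fix_top_smul hy0]
    exact ⟨hy.1, fix_anti le_top hy0⟩
  obtain ⟨c, hc, hcy⟩ := key y hy hy0
  have m1 := stab y0 ⟨hy0W, hy0A⟩ hy00 a ha hay0
  have m2 := stab y hy hy0 c hc hcy
  have m3 : a⁻¹ * c ∈ cj x M := by
    rw [mem_cj]
    have := M.mul_mem (M.inv_mem m1) m2
    have e : (b⁻¹ * a * x)⁻¹ * (b⁻¹ * c * x) = x⁻¹ * (a⁻¹ * c) * x := by group
    rwa [e] at this
  have m4 := h.inter_cj hx (A.mul_mem (A.inv_mem ha) hc) m3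
  have e : a⁻¹ • b • y = (a⁻¹ * c) • c⁻¹ • b • y := by
    rw [← mul_smul (a⁻¹ * c) c⁻¹]
    congr 1; group
  rw [e, m4 _ hcy.1]
  exact hcy

/-- **Main result**: `⟨A, A^x⟩` is `SL₂(F)` with a natural module. -/
theorem main (h : Hyp p M R A T W) (hs : Nat.card W * Nat.card (A ⊓ tw W : Subgroup P) ≤
    Nat.card A * Nat.card (W ⊓ fix V A : AddSubgroup V))
    (hfaith : ∀ a ∈ A, (∀ w ∈ W, a • w = w) → a = 1) (hV : W ⊔ fix V A = ⊤) {x : P} (hx : x ∉ M) :
    W ⊔ fix V (A ⊔ cj x A) = ⊤ ∧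
    ∃ (F : Type) (_ : Field F) (_ : Fintype F)
      (ρ : ↥(A ⊔ cj x A) →* Matrix.SpecialLinearGroup (Fin 2) F) (ψ : V →+ (Fin 2 → F)),
      Fintype.card F = Nat.card A ∧ Function.Surjective ρ ∧ Function.Surjective ψ ∧
      (∀ v, ψ v = 0 ↔ v ∈ fix V (A ⊔ cj x A)) ∧
      ∀ g v, ψ (g • v) = ((ρ g : Matrix.SpecialLinearGroup (Fin 2) F) :
        Matrix (Fin 2) (Fin 2) F).mulVec (ψ v) := by
  have hAtw : A ⊓ tw W = ⊥ := by
    rw [eq_bot_iff]
    rintro a ⟨ha, ha'⟩
    exact hfaith a ha ha'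
  have hfaithB : ∀ b ∈ cj x A, (∀ w ∈ W, b • w = w) → b = 1 := by
    intro b hb hbW
    have h1 := hfaith _ (mem_cj.1 hb) (fun w hw => by
      have h2 := hbW _ (h.Winv x w hw)
      have : (x⁻¹ * b * x) • w = x⁻¹ • (b • x • w) := by
        rw [← mul_smul, ← mul_smul]
      rw [this, h2, inv_smul_smul])
    have : b = x * (x⁻¹ * b * x) * x⁻¹ := by group
    rw [this, h1]; group
  have hx' : x⁻¹ ∉ M := fun h0 => hx (by simpa using M.inv_mem h0)
  have hVB : ∀ v : V, ∃ w ∈ W, ∃ u ∈ fix V (cj x A), w + u = v := by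
    intro v
    have h1 : x⁻¹ • v ∈ W ⊔ fix V A := by rw [hV]; exact AddSubgroup.mem_top _
    obtain ⟨w, hw, u, hu, hwu⟩ := AddSubgroup.mem_sup.1 h1
    refine ⟨x • w, h.Winv x w hw, x • u, smul_mem_fix_cj hu, ?_⟩
    rw [← smul_add, hwu, smul_inv_smul]
  set L := A ⊔ cj x A with hL
  set V1 := fix V L with hV1
  have hV1eq : V1 = fix V A ⊓ fix V (cj x A) := by rw [hV1, hL, fix_sup]
  have hc3 := h.c3 hs hx
  have hdecW : ∀ w ∈ W, ∃ y ∈ W ⊓ fix V A, ∃ y' ∈ W ⊓ fix V (cj x A), y + y' = w := by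
    intro w hw
    rw [← hc3] at hw
    exact AddSubgroup.mem_sup.1 hw
  have hVtop : ∀ v : V, ∃ w ∈ W, ∃ u ∈ V1, w + u = v := by
    intro v
    have h1 : v ∈ W ⊔ fix V A := by rw [hV]; exact AddSubgroup.mem_top _
    obtain ⟨w, hw, u, hu, hwu⟩ := AddSubgroup.mem_sup.1 h1
    obtain ⟨w', hw', u', hu', hwu'⟩ := hVB u
    obtain ⟨y, hy, y', hy', hyy⟩ := hdecW w' hw'
    refine ⟨w + y, W.add_mem hw hy.1, u - y, ?_, by rw [← hwu]; abel⟩
    rw [hV1eq]
    refine ⟨AddSubgroup.sub_mem _ hu hy.2, ?_⟩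
    have e : u - y = y' + u' := by rw [← hwu', ← hyy]; abel
    rw [e]
    exact AddSubgroup.add_mem _ hy'.2 hu'
  have hWV1 : ∀ v ∈ W, v ∈ V1 → v ∈ fix V (⊤ : Subgroup P) := by
    intro v hv hv1
    rw [hV1eq] at hv1
    exact h.inter hx hv hv1.1 hv1.2
  have hV0V1 : fix V (⊤ : Subgroup P) ≤ V1 := fix_anti le_top
  have hV1A : V1 ≤ fix V A := fix_anti le_sup_left
  have hV1B : V1 ≤ fix V (cj x A) := fix_anti le_sup_right
  have htopV : W ⊔ V1 = ⊤ := by
    rw [eq_top_iff]
    intro v _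
    obtain ⟨w, hw, u, hu, hwu⟩ := hVtop v
    rw [← hwu]
    exact AddSubgroup.add_mem_sup hw hu
  refine ⟨htopV, ?_⟩
  -- quadratic action on `V`
  have hqA : ∀ a ∈ A, ∀ v : V, a • v - v ∈ fix V A := by
    intro a ha v
    obtain ⟨w, hw, u, hu, rfl⟩ := hVtop v
    have e : a • (w + u) - (w + u) = a • w - w := by
      rw [smul_add, hV1A hu a ha]; abel
    rw [e]; exact h.quad a ha w hw
  have hqB : ∀ a ∈ cj x A, ∀ v : V, a • v - v ∈ fix V (cj x A) := by
    intro a ha v
    obtain ⟨w, hw, u, hu, rfl⟩ := hVtop v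
    have e : a • (w + u) - (w + u) = a • w - w := by
      rw [smul_add, hV1B hu a ha]; abel
    rw [e]; exact (h.quad_cj ha hw).2
  have htopAB : fix V A ⊔ fix V (cj x A) = ⊤ := by
    rw [eq_top_iff]
    intro v _
    obtain ⟨w, hw, u, hu, rfl⟩ := hVtop v
    obtain ⟨y, hy, y', hy', rfl⟩ := hdecW w hw
    have e : y + y' + u = y + (y' + u) := by abel
    rw [e]
    exact AddSubgroup.add_mem_sup hy.2 (AddSubgroup.add_mem _ hy'.2 (hV1B hu))
  have hAinj : ∀ a ∈ A, a ≠ 1 → ∀ v : V, a • v - v ∈ V1 → v ∈ fix V A := by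
    intro a ha ha1 v hv
    obtain ⟨w, hw, u, hu, rfl⟩ := hVtop v
    obtain ⟨y, hy, y', hy', rfl⟩ := hdecW w hw
    have e : a • (y + y' + u) - (y + y' + u) = a • y' - y' := by
      rw [smul_add, smul_add, hV1A hu a ha, hy.2 a ha]; abel
    rw [e] at hv
    have h1 := hWV1 _ (W.sub_mem (h.Winv a _ hy'.1) hy'.1) hv
    have h2 : y' ∈ fix V (⊤ : Subgroup P) := by
      by_contra h0
      exact ha1 (hfaith a ha (h.inter_cj hx ha (h.move hy'.1 hy'.2 h0 h1)))
    exact AddSubgroup.add_mem _ (AddSubgroup.add_mem _ hy.2 (fix_anti le_top h2)) (hV1A hu)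
  have hBinj : ∀ b ∈ cj x A, b ≠ 1 → ∀ v : V, b • v - v ∈ V1 → v ∈ fix V (cj x A) := by
    intro b hb hb1 v hv
    obtain ⟨w, hw, u, hu, rfl⟩ := hVtop v
    obtain ⟨y, hy, y', hy', rfl⟩ := hdecW w hw
    have e : b • (y + y' + u) - (y + y' + u) = b • y - y := by
      rw [smul_add, smul_add, hV1B hu b hb, hy'.2 b hb]; abel
    rw [e] at hv
    have h1 := hWV1 _ (W.sub_mem (h.Winv b _ hy.1) hy.1) hv
    have h2 : y ∈ fix V (⊤ : Subgroup P) := by
      by_contra h0
      have h3 : b ∈ cj 1 M := h.move hy.1 (by rw [cj_one]; exact hy.2) h0 h1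
      rw [cj_one] at h3
      have h4 : x⁻¹ * b * x ∈ cj x⁻¹ M := by
        rw [mem_cj]
        have e : x⁻¹⁻¹ * (x⁻¹ * b * x) * x⁻¹ = b := by group
        rw [e]; exact h3
      have h5 := hfaith _ (mem_cj.1 hb) (h.inter_cj hx' (mem_cj.1 hb) h4)
      apply hb1
      have : b = x * (x⁻¹ * b * x) * x⁻¹ := by group
      rw [this, h5]; group
    exact AddSubgroup.add_mem _ (AddSubgroup.add_mem _ (fix_anti le_top h2) hy'.2) (hV1B hu)
  -- cardinalities
  have hcfix : Nat.card (fix V (cj x A)) = Nat.card (fix V A) := by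
    symm
    apply Nat.card_congr
    exact
      { toFun := fun v => ⟨x • (v : V), smul_mem_fix_cj v.2⟩
        invFun := fun v => ⟨x⁻¹ • (v : V), mem_fix_cj.1 v.2⟩
        left_inv := fun v => Subtype.ext (inv_smul_smul x (v : V))
        right_inv := fun v => Subtype.ext (smul_inv_smul x (v : V)) }
  have hcA : Nat.card A * Nat.card V1 = Nat.card (fix V A) := by
    have h1 := card_sup_mul_card_inf (W ⊓ fix V A) V1
    have h2 : (W ⊓ fix V A) ⊔ V1 = fix V A := by
      apply le_antisymm (sup_le inf_le_right hV1A)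
      intro v hv
      obtain ⟨w, hw, u, hu, rfl⟩ := hVtop v
      refine AddSubgroup.add_mem_sup ⟨hw, ?_⟩ hu
      have : w = (w + u) - u := by abel
      rw [this]
      exact AddSubgroup.sub_mem _ hv (hV1A hu)
    have h3 : (W ⊓ fix V A) ⊓ V1 = W ⊓ fix V (⊤ : Subgroup P) := by
      apply le_antisymm
      · rintro v ⟨⟨hv, _⟩, hv1⟩
        exact ⟨hv, hWV1 v hv hv1⟩
      · rintro v ⟨hv, hv0⟩
        exact ⟨⟨hv, fix_anti le_top hv0⟩, hV0V1 hv0⟩
    have h4 := h.c1 hs
    rw [hAtw, Subgroup.card_bot, one_mul] at h4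
    rw [h2, h3, h4] at h1
    have hpos0 : 0 < Nat.card (W ⊓ fix V (⊤ : Subgroup P) : AddSubgroup V) := Nat.card_pos
    have h5 : Nat.card (W ⊓ fix V (⊤ : Subgroup P) : AddSubgroup V) * Nat.card (fix V A) =
        Nat.card (W ⊓ fix V (⊤ : Subgroup P) : AddSubgroup V) * (Nat.card A * Nat.card V1) := by
      rw [mul_comm, h1]; ring
    exact (Nat.eq_of_mul_eq_mul_left hpos0 h5).symm
  have hA1 : 1 < Nat.card A := by
    by_contra hcon
    have h1 : Nat.card A = 1 := by
      have : 0 < Nat.card A := Nat.card_pos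
      omega
    have h2 : A = ⊥ := Subgroup.card_eq_one.1 h1
    rw [h1, one_mul] at hcA
    have h3 : V1 = fix V A := AddSubgroup.eq_of_le_of_card_ge hV1A hcA.ge
    obtain ⟨z, hz, hzA, hz0⟩ := h.W0_ne
    exact hz0 (hWV1 z hz (by rw [h3]; exact hzA))
  have hBc : Nat.card (cj x A) = Nat.card A :=
    Subgroup.card_map_of_injective (MulAut.conj x).injective
  -- spread
  have hsp : ∀ b ∈ cj x A, b ≠ 1 → ∃ a ∈ A, ∀ y ∈ fix V A, ∃ y' ∈ fix V (cj x A), b • y = a • y' := by
    intro b hb hb1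
    obtain ⟨a, ha, hab⟩ := h.spread hs hx hb (fun h0 => hb1 (hfaithB b hb h0))
    refine ⟨a, ha, fun y hy => ?_⟩
    obtain ⟨w, hw, u, hu, rfl⟩ := hVtop y
    have hw' : w ∈ W ⊓ fix V A := by
      refine ⟨hw, ?_⟩
      have : w = (w + u) - u := by abel
      show w ∈ fix V A
      rw [this]
      exact AddSubgroup.sub_mem _ hy (hV1A hu)
    obtain ⟨y', hy', hyy⟩ := hab w hw'
    refine ⟨y' + u, AddSubgroup.add_mem _ hy'.2 (hV1B hu), ?_⟩
    rw [smul_add, smul_add, hyy, hV1A hu a ha, hV1B hu b hb]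
  -- the action of `L`
  have hAL : A ≤ L := le_sup_left
  have hBL : cj x A ≤ L := le_sup_right
  have efix : ∀ {H : Subgroup P} (hH : H ≤ L), fix V (H.subgroupOf L) = fix V H := by
    intro H hH
    ext v
    constructor
    · intro hv a ha
      exact hv ⟨a, hH ha⟩ ha
    · intro hv a ha
      exact hv a ha
  have efixtop : fix V (⊤ : Subgroup ↥L) = V1 := by
    ext v
    constructor
    · intro hv a ha
      exact hv ⟨a, ha⟩ (Subgroup.mem_top _)
    · intro hv a _
      exact hv a a.2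
  have ecard : ∀ {H : Subgroup P} (hH : H ≤ L), Nat.card (H.subgroupOf L) = Nat.card H := fun hH =>
    Nat.card_congr (Subgroup.subgroupOfEquivOfLe hH).toEquiv
  have hpair := pair_theorem (P := ↥L) (V := V) (p := p) h.hp (A.subgroupOf L) ((cj x A).subgroupOf L)
    (by
      rw [← Subgroup.subgroupOf_sup hAL hBL]
      exact Subgroup.subgroupOf_self L)
    (by
      intro a ha v
      rw [efix hAL]; exact hqA a ha v)
    (by
      intro a ha v
      rw [efix hBL]; exact hqB a ha v)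
    (by rw [efix hAL, efix hBL]; exact htopAB)
    (by
      intro a ha ha1 v hv
      rw [efixtop] at hv
      rw [efix hAL]
      exact hAinj a ha (fun h0 => ha1 (Subtype.ext h0)) v hv)
    (by
      intro a ha ha1 v hv
      rw [efixtop] at hv
      rw [efix hBL]
      exact hBinj a ha (fun h0 => ha1 (Subtype.ext h0)) v hv)
    (by rw [efixtop, efix hAL, ecard hAL]; exact hcA)
    (by rw [ecard hAL, ecard hBL]; exact hBc)
    (by rw [efix hAL, efix hBL]; exact hcfix)
    (by rw [ecard hAL]; exact hA1)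
    (by
      intro b hb hb1
      obtain ⟨a, ha, hab⟩ := hsp b hb (fun h0 => hb1 (Subtype.ext h0))
      refine ⟨⟨a, hAL ha⟩, ha, fun y hy => ?_⟩
      rw [efix hAL] at hy
      obtain ⟨y', hy', hyy⟩ := hab y hy
      exact ⟨y', by rw [efix hBL]; exact hy', hyy⟩)
  obtain ⟨F, i1, i2, ρ, ψ, k1, k2, k3, k4, k5⟩ := hpair
  refine ⟨F, i1, i2, ρ, ψ, by rw [k1, ecard hAL], k2, k3, fun v => ?_, k5⟩
  rw [k4, efixtop]

end Size

end Hyp

end Core

end Cfsg.Agent.H262.Core
end

-- part: H262/Conj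
section
/-!
# The action of `P ≤ N_G(V)` on an abelian subgroup `V` by conjugation, in additive notation
-/

set_option autoImplicit false

open scoped commutatorElement

namespace Cfsg.Agent.H262.Conj

open Cfsg.Agent.H262.Pair Cfsg.Agent.H262.Core

variable {G : Type*} [Group G]

/-- `V` written additively -/
def Ad (V : Subgroup G) (_hV : IsMulCommutative V) : Type _ := Additive ↥V

def mk {V : Subgroup G} {hV : IsMulCommutative V} (v : ↥V) : Ad V hV := Additive.ofMul v

def val {V : Subgroup G} {hV : IsMulCommutative V} (v : Ad V hV) : G := ((Additive.toMul v : ↥V) : G)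

theorem val_mem {V : Subgroup G} {hV : IsMulCommutative V} (v : Ad V hV) : val v ∈ V :=
  (Additive.toMul v : ↥V).2

theorem val_mk {V : Subgroup G} {hV : IsMulCommutative V} (v : ↥V) : val (mk v : Ad V hV) = v := rfl

theorem val_inj {V : Subgroup G} {hV : IsMulCommutative V} {v w : Ad V hV} (h : val v = val w) :
    v = w := Subtype.ext h

instance instAddCommGroupAd (V : Subgroup G) (hV : IsMulCommutative V) : AddCommGroup (Ad V hV) :=
  { (inferInstance : AddGroup (Additive ↥V)) with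
    add_comm := fun a b => val_inj (by
      have := hV.is_comm.comm (Additive.toMul a) (Additive.toMul b)
      exact congrArg Subtype.val this) }

instance instFiniteAd [Finite G] (V : Subgroup G) (hV : IsMulCommutative V) : Finite (Ad V hV) :=
  (inferInstance : Finite ↥V)

theorem val_add {V : Subgroup G} {hV : IsMulCommutative V} (v w : Ad V hV) :
    val (v + w) = val v * val w := rfl

theorem val_zero {V : Subgroup G} {hV : IsMulCommutative V} : val (0 : Ad V hV) = 1 := rfl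

theorem val_neg {V : Subgroup G} {hV : IsMulCommutative V} (v : Ad V hV) :
    val (-v) = (val v)⁻¹ := rfl

theorem val_sub {V : Subgroup G} {hV : IsMulCommutative V} (v w : Ad V hV) :
    val (v - w) = val v * (val w)⁻¹ := by
  rw [sub_eq_add_neg, val_add, val_neg]

theorem val_nsmul {V : Subgroup G} {hV : IsMulCommutative V} (n : ℕ) (v : Ad V hV) :
    val (n • v) = val v ^ n := by
  induction n with
  | zero => rw [zero_smul, pow_zero, val_zero]
  | succ n ih => rw [succ_nsmul, val_add, ih, pow_succ]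

theorem conj_mem {V P : Subgroup G} (hPV : P ≤ Subgroup.normalizer (V : Set G)) {g v : G}
    (hg : g ∈ P) (hv : v ∈ V) : g * v * g⁻¹ ∈ V := ((Subgroup.mem_normalizer_iff.1 (hPV hg)) v).1 hv

/-- the action by conjugation -/
@[reducible] def act {V P : Subgroup G} (hV : IsMulCommutative V)
    (hPV : P ≤ Subgroup.normalizer (V : Set G)) : DistribMulAction ↥P (Ad V hV) where
  smul g v := mk ⟨g * val v * (g : G)⁻¹, conj_mem hPV g.2 (val_mem v)⟩
  one_smul v := val_inj (by
    show ((1 : ↥P) : G) * val v * ((1 : ↥P) : G)⁻¹ = val v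
    simp)
  mul_smul g h v := val_inj (by
    show ((g * h : ↥P) : G) * val v * ((g * h : ↥P) : G)⁻¹ = g * (h * val v * (h : G)⁻¹) * (g : G)⁻¹
    rw [Subgroup.coe_mul]; group)
  smul_zero g := val_inj (by
    show (g : G) * val (0 : Ad V hV) * (g : G)⁻¹ = val (0 : Ad V hV)
    rw [val_zero]; group)
  smul_add g v w := val_inj (by
    show (g : G) * val (v + w) * (g : G)⁻¹ = (g * val v * (g : G)⁻¹) * (g * val w * (g : G)⁻¹)
    rw [val_add]; group)

theorem val_smul {V P : Subgroup G} (hV : IsMulCommutative V)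
    (hPV : P ≤ Subgroup.normalizer (V : Set G)) (g : ↥P) (v : Ad V hV) :
    val ((act hV hPV).toSMul.smul g v) = g * val v * (g : G)⁻¹ := rfl

theorem mem_fix_iff {V P : Subgroup G} (hV : IsMulCommutative V)
    (hPV : P ≤ Subgroup.normalizer (V : Set G)) (H : Subgroup ↥P) (v : Ad V hV) :
    v ∈ @fix ↥P (Ad V hV) _ _ (act hV hPV) H ↔
      val v ∈ Subgroup.centralizer ((H.map P.subtype : Subgroup G) : Set G) := by
  rw [Subgroup.mem_centralizer_iff]
  constructor
  · rintro h _ ⟨a, ha, rfl⟩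
    have h1 := congrArg val (h a ha)
    have h2 : (a : G) * val v * (a : G)⁻¹ = val v := h1
    show (a : G) * val v = val v * a
    exact mul_inv_eq_iff_eq_mul.1 h2
  · intro h a ha
    apply val_inj
    have h1 := h (a : G) ⟨a, ha, rfl⟩
    show (a : G) * val v * (a : G)⁻¹ = val v
    rw [h1]; group

theorem card_fix {V P : Subgroup G} (hV : IsMulCommutative V)
    (hPV : P ≤ Subgroup.normalizer (V : Set G)) (H : Subgroup ↥P) :
    Nat.card (@fix ↥P (Ad V hV) _ _ (act hV hPV) H) =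
      Nat.card (V ⊓ Subgroup.centralizer ((H.map P.subtype : Subgroup G) : Set G) : Subgroup G) := by
  apply Nat.card_congr
  exact
    { toFun := fun v => ⟨val (v : Ad V hV), val_mem _, (mem_fix_iff hV hPV H v).1 v.2⟩
      invFun := fun v => ⟨mk ⟨v, v.2.1⟩, (mem_fix_iff hV hPV H _).2 v.2.2⟩
      left_inv := fun v => Subtype.ext (val_inj rfl)
      right_inv := fun v => rfl }

theorem card_Ad {V : Subgroup G} (hV : IsMulCommutative V) : Nat.card (Ad V hV) = Nat.card V := rfl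

/-- the commutator `[V, H]` -/
theorem comm_mem {V P : Subgroup G} (hV : IsMulCommutative V)
    (hPV : P ≤ Subgroup.normalizer (V : Set G)) {H : Subgroup ↥P} {a : ↥P} (ha : a ∈ H)
    (v : Ad V hV) :
    val ((act hV hPV).toSMul.smul a v - v) ∈ ⁅V, H.map P.subtype⁆ := by
  rw [val_sub, val_smul]
  have h1 : (a : G) * val v * (a : G)⁻¹ * (val v)⁻¹ = ⁅(a : G), val v⁆ := by
    rw [commutatorElement_def]
  rw [h1]
  rw [Subgroup.commutator_comm]
  exact Subgroup.commutator_mem_commutator ⟨a, ha, rfl⟩ (val_mem v)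

end Cfsg.Agent.H262.Conj
end

-- part: S2999
section
set_option autoImplicit false
open Cfsg
open scoped commutatorElement

namespace Cfsg.Agent.S2999

open Cfsg.Agent.H262.Pair Cfsg.Agent.H262.Core Cfsg.Agent.H262.Conj

/-- Let p be a prime and let P and V be subgroups of a finite group with V elementary abelian, P normalizing V and acting faithfully on it (P ∩ C(V) = 1). Suppose P is p-minimal (a Sylow p-subgroup T of P is not normal and lies in a unique maximal subgroup M of P) and A ≤ T is an elementary abelian subgroup such that: |V/C_V(A)| ≤ |A| while |A₀|·|C_V(A₀)| < |A|·|C_V(A)| for every nontrivial proper subgroup A₀ of A; [C_V(T), P] ≠ 1; and P = ⟨A, xAx⁻¹⟩ for every x ∈ P outside M. Then, with q = |A|, there is a field F with q elements such that P ≅ SL₂(F), C_V(A) = [V, A]·C_V(P), and P acts on V/C_V(P) as SL₂(F) on its natural two-dimensional module. -/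
theorem result {G : Type*} [Group G] [Finite G] {p : ℕ} [Fact p.Prime] (V P : Subgroup G) (hV : Cfsg.IsElementaryAbelian p V) (hPV : P ≤ Subgroup.normalizer (V : Set G)) (hfaith : P ⊓ Subgroup.centralizer (V : Set G) = ⊥) (hmin : Cfsg.IsPMinimal p ↥P) (T : Sylow p ↥P) (M : Subgroup ↥P) (hM : IsCoatom M) (hTM : (T : Subgroup ↥P) ≤ M) (A : Subgroup G) (hAT : A ≤ ((T : Subgroup ↥P).map P.subtype)) (hAel : Cfsg.IsElementaryAbelian p A) (hi : Nat.card ↥V ≤ Nat.card ↥A * Nat.card ↥(V ⊓ Subgroup.centralizer ((A : Subgroup G) : Set G)) ∧ ∀ A₀ : Subgroup G, A₀ ≤ A → A₀ ≠ ⊥ → A₀ ≠ A → Nat.card ↥A₀ * Nat.card ↥(V ⊓ Subgroup.centralizer ((A₀ : Subgroup G) : Set G)) < Nat.card ↥A * Nat.card ↥(V ⊓ Subgroup.centralizer ((A : Subgroup G) : Set G))) (hii : ⁅(V ⊓ Subgroup.centralizer ((((T : Subgroup ↥P).map P.subtype) : Subgroup G) : Set G)), P⁆ ≠ ⊥) (hiii : ∀ x : ↥P, x ∉ M → A ⊔ A.map (MulAut.conj (x : G)).toMonoidHom = P) : ∃ (F : Type) (_ : Field F) (_ : Fintype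 F), Fintype.card F = Nat.card ↥A ∧ Nonempty (↥P ≃* Matrix.SpecialLinearGroup (Fin 2) F) ∧ (V ⊓ Subgroup.centralizer ((A : Subgroup G) : Set G)) = ⁅V, A⁆ ⊔ (V ⊓ Subgroup.centralizer ((P : Subgroup G) : Set G)) ∧ Cfsg.ActsAsSL2OnSection F ⊤ P V (V ⊓ Subgroup.centralizer ((P : Subgroup G) : Set G)) := by
  classical
  have hVc : IsMulCommutative ↥V := hV.1
  let inst : DistribMulAction ↥P (Ad V hVc) := act hVc hPV
  have hsm : ∀ (g : ↥P) (v : Ad V hVc), val (g • v) = g * val v * (g : G)⁻¹ := fun g v => rfl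
  have hTG : (T : Subgroup ↥P).map P.subtype ≤ P := by
    rintro _ ⟨t, _, rfl⟩; exact t.2
  have hAP : A ≤ P := hAT.trans hTG
  set A' : Subgroup ↥P := A.subgroupOf P with hA'
  have hA'map : A'.map P.subtype = A := by
    rw [hA', Subgroup.map_subgroupOf_eq_of_le hAP]
  have hA'T : A' ≤ T := by
    intro a ha
    obtain ⟨t, ht, hta⟩ := hAT (show (a : G) ∈ A from ha)
    have : t = a := Subtype.ext hta
    rw [← this]; exact ht
  have hp : ∀ v : Ad V hVc, p • v = 0 := fun v => val_inj (by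
    rw [val_nsmul, val_zero]; exact hV.2 _ (val_mem v))
  -- the unique maximal subgroup
  obtain ⟨hTn, M', ⟨hM'1, hM'2⟩, hM'u⟩ := hmin T
  have hMM' : M = M' := hM'u M ⟨hM, hTM⟩
  have huniq : ∀ H : Subgroup ↥P, (T : Subgroup ↥P) ≤ H → H ≠ ⊤ → H ≤ M := by
    intro H hTH hH
    obtain ⟨M₂, hM₂, hle⟩ := (eq_top_or_exists_le_coatom H).resolve_left hH
    rw [hMM', ← hM'u M₂ ⟨hM₂, hTH.trans hle⟩]
    exact hle
  have hgen' : ∀ x : ↥P, x ∉ M → A' ⊔ cj x A' = ⊤ := by
    intro x hx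
    have h1 := hiii x hx
    have h2 : (A' ⊔ cj x A').map P.subtype = P := by
      rw [Subgroup.map_sup, hA'map]
      have h3 : (cj x A').map P.subtype = A.map (MulAut.conj (x : G)).toMonoidHom := by
        rw [← hA'map, Subgroup.map_map, Subgroup.map_map]
        rfl
      rw [h3, h1]
    have h4 : (⊤ : Subgroup ↥P).map P.subtype = P := by
      rw [← MonoidHom.range_eq_map, Subgroup.range_subtype]
    exact Subgroup.map_injective P.subtype_injective (h2.trans h4.symm)
  -- translation of the measure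
  have hfixc : ∀ H : Subgroup ↥P, Nat.card (fix (Ad V hVc) H) =
      Nat.card (V ⊓ Subgroup.centralizer ((H.map P.subtype : Subgroup G) : Set G) : Subgroup G) :=
    fun H => card_fix hVc hPV H
  have hmapc : ∀ H : Subgroup ↥P, Nat.card (H.map P.subtype) = Nat.card H := fun H =>
    Subgroup.card_map_of_injective P.subtype_injective
  have hi1 : Nat.card (Ad V hVc) ≤ Nat.card A' * Nat.card (fix (Ad V hVc) A') := by
    rw [hfixc, hA'map, ← hmapc A', hA'map]
    exact hi.1
  have hi2 : ∀ H : Subgroup ↥P, H ≤ A' → H ≠ ⊥ → H ≠ A' →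
      Nat.card H * Nat.card (fix (Ad V hVc) H) < Nat.card A' * Nat.card (fix (Ad V hVc) A') := by
    intro H h1 h2 h3
    rw [hfixc, hfixc, hA'map, ← hmapc A', hA'map, ← hmapc H]
    apply hi.2
    · rw [← hA'map]; exact Subgroup.map_mono h1
    · intro h0
      apply h2
      rwa [Subgroup.map_eq_bot_iff_of_injective _ P.subtype_injective] at h0
    · intro h0
      apply h3
      apply Subgroup.map_injective P.subtype_injective
      rw [h0, hA'map]
  have hfaithV : ∀ g : ↥P, (∀ v : Ad V hVc, g • v = v) → g = 1 := by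
    intro g hg
    have h1 : (g : G) ∈ P ⊓ Subgroup.centralizer (V : Set G) := by
      refine ⟨g.2, ?_⟩
      show (g : G) ∈ Subgroup.centralizer (V : Set G)
      rw [Subgroup.mem_centralizer_iff]
      intro v hv
      have h2 := congrArg val (hg (mk ⟨v, hv⟩))
      rw [hsm] at h2
      have h3 : (g : G) * v * (g : G)⁻¹ = v := h2
      exact (mul_inv_eq_iff_eq_mul.1 h3).symm
    rw [hfaith, Subgroup.mem_bot] at h1
    exact Subtype.ext h1
  have hApg : IsPGroup p A' := T.isPGroup'.to_le hA'T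
  -- the fixed point `z`
  obtain ⟨z, hzT, hz0⟩ : ∃ z : Ad V hVc, z ∈ fix (Ad V hVc) (T : Subgroup ↥P) ∧
      z ∉ fix (Ad V hVc) (⊤ : Subgroup ↥P) := by
    by_contra hcon
    push Not at hcon
    apply hii
    rw [eq_bot_iff, Subgroup.commutator_le]
    rintro v ⟨hv, hvT⟩ g hg
    have h1 : (mk ⟨v, hv⟩ : Ad V hVc) ∈ fix (Ad V hVc) (T : Subgroup ↥P) :=
      (mem_fix_iff hVc hPV _ _).2 hvT
    have h2 := hcon _ h1 ⟨g, hg⟩ (Subgroup.mem_top _)
    have h3 := congrArg val h2
    rw [hsm] at h3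
    have h4 : g * v * g⁻¹ = v := h3
    rw [Subgroup.mem_bot, commutatorElement_eq_one_iff_mul_comm]
    exact (mul_inv_eq_iff_eq_mul.1 h4).symm
  obtain ⟨x0, hx0⟩ : ∃ x : ↥P, x ∉ M := by
    by_contra hcon
    push Not at hcon
    exact hM.1 (by rw [eq_top_iff]; intro g _; exact hcon g)
  have hA'ne : A' ≠ ⊥ := by
    intro h0
    have h1 := hgen' x0 hx0
    have hcb : cj x0 (⊥ : Subgroup ↥P) = ⊥ := Subgroup.map_bot _
    rw [h0, hcb, sup_bot_eq] at h1
    apply hTn
    have : (T : Subgroup ↥P) = ⊤ := by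
      rw [eq_top_iff, ← h1]; exact bot_le
    rw [this]; infer_instance
  -- quadratic action
  have hquadV : ∀ a ∈ A', ∀ v : Ad V hVc, a • v - v ∈ fix (Ad V hVc) A' := by
    obtain ⟨B, hBA, hB⟩ := S0598.result (p := p) V A hV (hAP.trans hPV) (by
      have : ⁅A, A⁆ = ⊥ := by
        rw [eq_bot_iff, Subgroup.commutator_le]
        intro a ha b hb
        rw [Subgroup.mem_bot, commutatorElement_eq_one_iff_mul_comm]
        exact congrArg Subtype.val (hAel.1.is_comm.comm (⟨a, ha⟩ : A) ⟨b, hb⟩)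
      rw [this]; exact bot_le) V le_rfl
    have hBcases : B = ⊥ ∨ B = A ∨ (Nat.card B * Nat.card (V ⊓ Subgroup.centralizer (B : Set G) : Subgroup G)
        < Nat.card A * Nat.card (V ⊓ Subgroup.centralizer (A : Set G) : Subgroup G)) := by
      by_cases h1 : B = ⊥
      · exact Or.inl h1
      by_cases h2 : B = A
      · exact Or.inr (Or.inl h2)
      · exact Or.inr (Or.inr (hi.2 B hBA h1 h2))
    have hVb : V ⊓ Subgroup.centralizer (((⊥ : Subgroup G)) : Set G) = V := by
      rw [inf_eq_left]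
      intro v _
      rw [Subgroup.mem_centralizer_iff]
      intro b hb
      rw [Subgroup.coe_bot, Set.mem_singleton_iff] at hb
      rw [hb]; simp
    rcases hB with hlt | ⟨hBeq, hBfix, hBcard⟩
    · exfalso
      rcases hBcases with rfl | rfl | h1
      · rw [Subgroup.card_bot, one_mul, hVb] at hlt
        exact absurd hi.1 (not_le_of_gt hlt)
      · exact lt_irrefl _ hlt
      · exact lt_asymm h1 hlt
    · rcases hBcases with rfl | rfl | h1
      · -- `V = [V, A] C_V(A)`: then `A` acts trivially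
        exfalso
        rw [hVb] at hBfix
        have hlt : fix (Ad V hVc) A' < ⊤ := by
          rw [lt_top_iff_ne_top]
          intro h0
          apply hA'ne
          rw [eq_bot_iff]
          intro a ha
          rw [Subgroup.mem_bot]
          apply hfaithV
          intro v
          have : v ∈ fix (Ad V hVc) A' := by rw [h0]; exact AddSubgroup.mem_top v
          exact this a ha
        obtain ⟨X, hX0, hXt, hXa⟩ := exists_proper hp A' hApg ⊤ (fix (Ad V hVc) A')
          (fun _ _ _ _ => AddSubgroup.mem_top _)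
          (fun t ht w hw => by rw [hw t ht]; exact hw) hlt
        -- the subgroup of `G` corresponding to `X`
        let XG : Subgroup G :=
          { carrier := {g | ∃ h : g ∈ V, (mk ⟨g, h⟩ : Ad V hVc) ∈ X}
            one_mem' := ⟨V.one_mem, X.zero_mem⟩
            mul_mem' := by
              rintro a b ⟨ha, ha'⟩ ⟨hb, hb'⟩
              exact ⟨V.mul_mem ha hb, X.add_mem ha' hb'⟩
            inv_mem' := by
              rintro a ⟨ha, ha'⟩
              exact ⟨V.inv_mem ha, X.neg_mem ha'⟩ }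
        have h2 : V ≤ XG := by
          rw [hBfix]
          refine sup_le ?_ ?_
          · rw [Subgroup.commutator_comm, Subgroup.commutator_le]
            intro a ha v hv
            have h3 := hXa ⟨a, hAP ha⟩ ha (mk ⟨v, hv⟩) (AddSubgroup.mem_top _)
            have h4 := val_mem ((⟨a, hAP ha⟩ : ↥P) • (mk ⟨v, hv⟩ : Ad V hVc) - mk ⟨v, hv⟩)
            have h5 : val ((⟨a, hAP ha⟩ : ↥P) • (mk ⟨v, hv⟩ : Ad V hVc) - mk ⟨v, hv⟩) = ⁅a, v⁆ := by
              rw [val_sub, hsm]; rfl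
            have h6 : ⁅a, v⁆ ∈ V := by rw [← h5]; exact h4
            refine ⟨h6, ?_⟩
            have h7 : (mk ⟨⁅a, v⁆, h6⟩ : Ad V hVc) =
                (⟨a, hAP ha⟩ : ↥P) • (mk ⟨v, hv⟩ : Ad V hVc) - mk ⟨v, hv⟩ := val_inj h5.symm
            rw [h7]; exact h3
          · rintro v ⟨hv, hvA⟩
            refine ⟨hv, hX0 ?_⟩
            rw [mem_fix_iff hVc hPV, hA'map]
            exact hvA
        apply hXt.ne
        rw [eq_top_iff]
        intro v _
        obtain ⟨_, h3⟩ := h2 (val_mem v)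
        exact h3
      · -- `A` centralises `[V, A]`
        intro a ha v
        rw [mem_fix_iff hVc hPV, hA'map]
        have h2 : B ≤ Subgroup.centralizer ((⁅V, B⁆ : Subgroup G) : Set G) := by
          rw [← left_eq_inf]; exact hBeq
        rw [Subgroup.le_centralizer_iff] at h2
        apply h2
        have h3 := comm_mem hVc hPV ha v
        rw [hA'map] at h3
        exact h3
      · exact absurd hBcard.symm h1.ne
  -- the submodule `W` generated by the fixed points of `T`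
  let W : AddSubgroup (Ad V hVc) := AddSubgroup.closure
    {v | ∃ g : ↥P, ∃ u ∈ fix (Ad V hVc) (T : Subgroup ↥P), v = g • u}
  have hWinv : ∀ (g : ↥P), ∀ w ∈ W, g • w ∈ W := by
    intro g w hw
    refine AddSubgroup.closure_induction ?_ ?_ ?_ ?_ hw
    · rintro _ ⟨k, u, hu, rfl⟩
      exact AddSubgroup.subset_closure ⟨g * k, u, hu, (mul_smul g k u).symm⟩
    · rw [smul_zero]; exact W.zero_mem
    · intro a b _ _ ha hb
      rw [smul_add]; exact W.add_mem ha hb
    · intro a _ ha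
      rw [smul_neg]; exact W.neg_mem ha
  have hZW : fix (Ad V hVc) (T : Subgroup ↥P) ≤ W := fun u hu =>
    AddSubgroup.subset_closure ⟨1, u, hu, (one_smul _ u).symm⟩
  have H : Hyp p M ⊥ A' T W :=
    { hp := hp
      Winv := hWinv
      TM := hTM
      Mtop := hM.1
      uniq := huniq
      AT := hA'T
      Rn := inferInstance
      Rtriv := by
        intro r hr w _
        rw [Subgroup.mem_bot] at hr
        rw [hr, one_smul]
      gen := by
        intro x hx K h1 h2 _
        rw [eq_top_iff, ← hgen' x hx]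
        exact sup_le h1 h2
      Wgen := by
        intro X hX hZX
        rw [AddSubgroup.closure_le]
        rintro _ ⟨g, u, hu, rfl⟩
        exact hX g u (hZX ⟨hZW hu, hu⟩)
      Zne := ⟨z, hZW hzT, hzT, hz0⟩
      quad := fun a ha w _ => hquadV a ha w }
  -- the numerical condition
  set A1 := A' ⊓ Hyp.tw W with hA1
  have hA1A : A1 ≤ A' := inf_le_left
  have hWA1 : W ⊔ fix (Ad V hVc) A' ≤ fix (Ad V hVc) A1 :=
    sup_le (fun w hw a ha => ha.2 w hw) (fix_anti hA1A)
  have hA1ne : A1 ≠ A' := by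
    intro h0
    apply hz0
    have h1 : A' ≤ MulAction.stabilizer ↥P z := by
      intro a ha
      rw [← h0] at ha
      exact ha.2 z (hZW hzT)
    have h2 : cj x0 A' ≤ MulAction.stabilizer ↥P z := by
      intro b hb
      rw [mem_cj, ← h0] at hb
      have h3 := hb.2 _ (hWinv x0⁻¹ z (hZW hzT))
      show b • z = z
      have e : b • z = x0 • ((x0⁻¹ * b * x0) • x0⁻¹ • z) := by
        rw [← mul_smul, ← mul_smul]; congr 1; group
      rw [e, h3, smul_inv_smul]
    have h3 : MulAction.stabilizer ↥P z = ⊤ := by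
      rw [eq_top_iff, ← hgen' x0 hx0]
      exact sup_le h1 h2
    exact Hyp.fix_of_stab h3
  have hA1m : Nat.card A1 * Nat.card (fix (Ad V hVc) A1) ≤
      Nat.card A' * Nat.card (fix (Ad V hVc) A') := by
    by_cases h0 : A1 = ⊥
    · rw [h0, Subgroup.card_bot, one_mul]
      refine le_trans ?_ hi1
      exact Nat.card_le_card_of_injective Subtype.val Subtype.val_injective
    · exact (hi2 A1 hA1A h0 hA1ne).le
  have hsup := card_sup_mul_card_inf W (fix (Ad V hVc) A')
  have hle1 : Nat.card (W ⊔ fix (Ad V hVc) A' : AddSubgroup (Ad V hVc)) ≤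
      Nat.card (fix (Ad V hVc) A1) :=
    Nat.card_le_card_of_injective (AddSubgroup.inclusion hWA1) (AddSubgroup.inclusion_injective _)
  have hposY : 0 < Nat.card (fix (Ad V hVc) A') := Nat.card_pos
  have hposWY : 0 < Nat.card (W ⊓ fix (Ad V hVc) A' : AddSubgroup (Ad V hVc)) := Nat.card_pos
  have hs : Nat.card W * Nat.card A1 ≤
      Nat.card A' * Nat.card (W ⊓ fix (Ad V hVc) A' : AddSubgroup (Ad V hVc)) := by
    have h1 : Nat.card (fix (Ad V hVc) A') * (Nat.card W * Nat.card A1) ≤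
        Nat.card (fix (Ad V hVc) A') *
          (Nat.card A' * Nat.card (W ⊓ fix (Ad V hVc) A' : AddSubgroup (Ad V hVc))) := by
      calc Nat.card (fix (Ad V hVc) A') * (Nat.card W * Nat.card A1)
          = Nat.card A1 * (Nat.card W * Nat.card (fix (Ad V hVc) A')) := by ring
        _ = Nat.card A1 * (Nat.card (W ⊔ fix (Ad V hVc) A' : AddSubgroup (Ad V hVc)) *
            Nat.card (W ⊓ fix (Ad V hVc) A' : AddSubgroup (Ad V hVc))) := by rw [hsup]
        _ ≤ Nat.card A1 * (Nat.card (fix (Ad V hVc) A1) *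
            Nat.card (W ⊓ fix (Ad V hVc) A' : AddSubgroup (Ad V hVc))) :=
            Nat.mul_le_mul_left _ (Nat.mul_le_mul_right _ hle1)
        _ = (Nat.card A1 * Nat.card (fix (Ad V hVc) A1)) *
            Nat.card (W ⊓ fix (Ad V hVc) A' : AddSubgroup (Ad V hVc)) := by ring
        _ ≤ (Nat.card A' * Nat.card (fix (Ad V hVc) A')) *
            Nat.card (W ⊓ fix (Ad V hVc) A' : AddSubgroup (Ad V hVc)) :=
            Nat.mul_le_mul_right _ hA1m
        _ = _ := by ring
    exact Nat.le_of_mul_le_mul_left h1 hposY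
  have hc4 := H.c4 hs
  rw [← hA1] at hc4
  have hA1bot : A1 = ⊥ := by
    by_contra h0
    have h1 := hi2 A1 hA1A h0 hA1ne
    have h2 : Nat.card (fix (Ad V hVc) A') * (Nat.card W * Nat.card A1) <
        Nat.card (fix (Ad V hVc) A') *
          (Nat.card A' * Nat.card (W ⊓ fix (Ad V hVc) A' : AddSubgroup (Ad V hVc))) := by
      calc Nat.card (fix (Ad V hVc) A') * (Nat.card W * Nat.card A1)
          = Nat.card A1 * (Nat.card W * Nat.card (fix (Ad V hVc) A')) := by ring
        _ = Nat.card A1 * (Nat.card (W ⊔ fix (Ad V hVc) A' : AddSubgroup (Ad V hVc)) *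
            Nat.card (W ⊓ fix (Ad V hVc) A' : AddSubgroup (Ad V hVc))) := by rw [hsup]
        _ ≤ Nat.card A1 * (Nat.card (fix (Ad V hVc) A1) *
            Nat.card (W ⊓ fix (Ad V hVc) A' : AddSubgroup (Ad V hVc))) :=
            Nat.mul_le_mul_left _ (Nat.mul_le_mul_right _ hle1)
        _ = (Nat.card A1 * Nat.card (fix (Ad V hVc) A1)) *
            Nat.card (W ⊓ fix (Ad V hVc) A' : AddSubgroup (Ad V hVc)) := by ring
        _ < (Nat.card A' * Nat.card (fix (Ad V hVc) A')) *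
            Nat.card (W ⊓ fix (Ad V hVc) A' : AddSubgroup (Ad V hVc)) :=
            Nat.mul_lt_mul_of_pos_right h1 hposWY
        _ = _ := by ring
    rw [hc4] at h2
    exact lt_irrefl _ h2
  rw [hA1bot, Subgroup.card_bot, mul_one] at hc4
  have hfaithA : ∀ a ∈ A', (∀ w ∈ W, a • w = w) → a = 1 := by
    intro a ha haW
    have : a ∈ A1 := ⟨ha, haW⟩
    rw [hA1bot, Subgroup.mem_bot] at this
    exact this
  have hVtop : W ⊔ fix (Ad V hVc) A' = ⊤ := by
    apply AddSubgroup.eq_top_of_le_card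
    have h1 : Nat.card (W ⊔ fix (Ad V hVc) A' : AddSubgroup (Ad V hVc)) =
        Nat.card A' * Nat.card (fix (Ad V hVc) A') := by
      have h2 : Nat.card (W ⊓ fix (Ad V hVc) A' : AddSubgroup (Ad V hVc)) *
          Nat.card (W ⊔ fix (Ad V hVc) A' : AddSubgroup (Ad V hVc)) =
          Nat.card (W ⊓ fix (Ad V hVc) A' : AddSubgroup (Ad V hVc)) *
          (Nat.card A' * Nat.card (fix (Ad V hVc) A')) := by
        rw [mul_comm, hsup, hc4]; ring
      exact Nat.eq_of_mul_eq_mul_left hposWY h2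
    rw [h1]; exact hi1
  have hs' : Nat.card W * Nat.card (A' ⊓ Hyp.tw W : Subgroup ↥P) ≤
      Nat.card A' * Nat.card (W ⊓ fix (Ad V hVc) A' : AddSubgroup (Ad V hVc)) := hs
  obtain ⟨hWtop, F, iF, iFin, ρ, ψ, hFc, hρ, hψ, hψk, hact⟩ := H.main hs' hfaithA hVtop hx0
  have hLtop : A' ⊔ cj x0 A' = ⊤ := hgen' x0 hx0
  -- move to `P`
  have hLmem : ∀ g : ↥P, g ∈ A' ⊔ cj x0 A' := fun g => by rw [hLtop]; exact Subgroup.mem_top g
  let toL : ↥P →* ↥(A' ⊔ cj x0 A') :=
    { toFun := fun g => ⟨g, hLmem g⟩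
      map_one' := rfl
      map_mul' := fun _ _ => rfl }
  let σ : ↥P →* Matrix.SpecialLinearGroup (Fin 2) F := ρ.comp toL
  have hσact : ∀ (g : ↥P) (v : Ad V hVc), ψ (g • v) = ((σ g : Matrix.SpecialLinearGroup (Fin 2) F) :
      Matrix (Fin 2) (Fin 2) F).mulVec (ψ v) := fun g v => hact (toL g) v
  have hσs : Function.Surjective σ := by
    intro m
    obtain ⟨g, hg⟩ := hρ m
    exact ⟨g, hg⟩
  have hψk' : ∀ v, ψ v = 0 ↔ v ∈ fix (Ad V hVc) (⊤ : Subgroup ↥P) := by
    intro v
    rw [hψk, hLtop]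
  rw [hLtop] at hWtop
  -- the kernel is trivial
  have hσk : ∀ g : ↥P, σ g = 1 → g = 1 := by
    set N := σ.ker with hN
    have hNact : ∀ g ∈ N, ∀ v : Ad V hVc, g • v - v ∈ fix (Ad V hVc) (⊤ : Subgroup ↥P) := by
      intro g hg v
      rw [← hψk', map_sub, hσact, hg]
      simp
    have hNp : IsPGroup p N := by
      intro g
      refine ⟨1, ?_⟩
      apply Subtype.ext
      apply hfaithV
      intro v
      rw [pow_one]
      have h1 : ∀ n : ℕ, ((g : ↥P) ^ n) • v = v + n • ((g : ↥P) • v - v) := by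
        intro n
        induction n with
        | zero => simp
        | succ n ih =>
          rw [pow_succ', mul_smul, ih, smul_add]
          have h2 : (g : ↥P) • (n • ((g : ↥P) • v - v)) = n • ((g : ↥P) • v - v) :=
            mem_fix_top_smul (AddSubgroup.nsmul_mem _ (hNact g g.2 v) n)
          rw [h2, succ_nsmul]; abel
      show ((g : ↥P) ^ p) • v = v
      rw [h1, hp, add_zero]
    have hNT : N ≤ T := IsPGroup.le_sylow_of_normal hNp T
    have hNW : ∀ g ∈ N, ∀ w ∈ W, g • w = w := by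
      intro g hg w hw
      refine AddSubgroup.closure_induction ?_ ?_ ?_ ?_ hw
      · rintro _ ⟨k, u, hu, rfl⟩
        have h1 : k⁻¹ * g * k ∈ N := by
          have := (inferInstance : N.Normal).conj_mem g hg k⁻¹
          simpa using this
        have h2 := hu _ (hNT h1)
        have e : g • k • u = k • ((k⁻¹ * g * k) • u) := by
          rw [← mul_smul, ← mul_smul]; congr 1; group
        rw [e, h2]
      · rw [smul_zero]
      · intro a b _ _ ha hb
        rw [smul_add, ha, hb]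
      · intro a _ ha
        rw [smul_neg, ha]
    intro g hg
    apply hfaithV
    intro v
    have h1 : v ∈ W ⊔ fix (Ad V hVc) (⊤ : Subgroup ↥P) := by
      rw [hWtop]; exact AddSubgroup.mem_top v
    obtain ⟨w, hw, u, hu, rfl⟩ := AddSubgroup.mem_sup.1 h1
    rw [smul_add, hNW g hg w hw, mem_fix_top_smul hu]
  have hσi : Function.Injective σ := (injective_iff_map_eq_one σ).2 hσk
  have hmaptop : (⊤ : Subgroup ↥P).map P.subtype = P := by
    rw [← MonoidHom.range_eq_map, Subgroup.range_subtype]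
  have hfixP : ∀ v : Ad V hVc, v ∈ fix (Ad V hVc) (⊤ : Subgroup ↥P) ↔
      val v ∈ Subgroup.centralizer (P : Set G) := by
    intro v
    rw [mem_fix_iff hVc hPV, hmaptop]
  refine ⟨F, iF, iFin, ?_, ⟨MulEquiv.ofBijective σ ⟨hσi, hσs⟩⟩, ?_, ?_⟩
  · rw [hFc, ← hmapc A', hA'map]
  · apply le_antisymm
    · rintro v ⟨hv, hvA⟩
      have hvf : (mk ⟨v, hv⟩ : Ad V hVc) ∈ fix (Ad V hVc) A' := by
        rw [mem_fix_iff hVc hPV, hA'map]; exact hvA
      have h1 : (mk ⟨v, hv⟩ : Ad V hVc) ∈ W ⊔ fix (Ad V hVc) (⊤ : Subgroup ↥P) := by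
        rw [hWtop]; exact AddSubgroup.mem_top _
      obtain ⟨w, hw, u, hu, hwu⟩ := AddSubgroup.mem_sup.1 h1
      have hwA : w ∈ fix (Ad V hVc) A' := by
        have : w = (mk ⟨v, hv⟩ : Ad V hVc) - u := by rw [← hwu]; abel
        rw [this]
        exact AddSubgroup.sub_mem _ hvf (fix_anti le_top hu)
      obtain ⟨a, ha, ha1⟩ : ∃ a : ↥P, a ∈ A' ∧ a ≠ 1 := by
        by_contra hcon
        push Not at hcon
        exact hA'ne ((Subgroup.eq_bot_iff_forall A').2 hcon)
      obtain ⟨w', hw', h2⟩ := H.comm_eq ha (fun h0 => ha1 (hfaithA a ha h0)) ⟨hw, hwA⟩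
      have e : v = val (a • w' - w') * val (w - (a • w' - w') + u) := by
        rw [← val_add]
        have : a • w' - w' + (w - (a • w' - w') + u) = mk ⟨v, hv⟩ := by
          rw [← hwu]; abel
        rw [this]; rfl
      rw [e]
      have m1 : val (a • w' - w') ∈ ⁅V, A⁆ := by
        have := comm_mem hVc hPV ha w'
        rw [hA'map] at this
        exact this
      have m2 : val (w - (a • w' - w') + u) ∈ V ⊓ Subgroup.centralizer (P : Set G) :=
        ⟨val_mem _, (hfixP _).1 (AddSubgroup.add_mem _ h2 hu)⟩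
      exact Subgroup.mul_mem_sup m1 m2
    · refine sup_le ?_ ?_
      · rw [Subgroup.commutator_comm, Subgroup.commutator_le]
        intro a ha v hv
        have h1 := hquadV ⟨a, hAP ha⟩ ha (mk ⟨v, hv⟩)
        rw [mem_fix_iff hVc hPV, hA'map] at h1
        have h2 := val_mem ((⟨a, hAP ha⟩ : ↥P) • (mk ⟨v, hv⟩ : Ad V hVc) - mk ⟨v, hv⟩)
        have h5 : val ((⟨a, hAP ha⟩ : ↥P) • (mk ⟨v, hv⟩ : Ad V hVc) - mk ⟨v, hv⟩) = ⁅a, v⁆ := by
          rw [val_sub, hsm]; rfl
        rw [h5] at h1 h2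
        exact ⟨h2, h1⟩
      · exact inf_le_inf_left V (Subgroup.centralizer_le hAP)
  · refine ⟨hPV, inf_le_left, σ, ?_, ?_, ?_, ?_, ?_⟩
    · exact
        { toFun := fun u => Multiplicative.ofAdd (ψ (mk u))
          map_one' := by
            have : (mk (1 : ↥V) : Ad V hVc) = 0 := rfl
            rw [this, map_zero]; rfl
          map_mul' := fun u v => by
            have : (mk (u * v) : Ad V hVc) = mk u + mk v := rfl
            rw [this, map_add]; rfl }
    · exact MonoidHom.range_eq_top.2 hσs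
    · intro f
      obtain ⟨v, hv⟩ := hψ (Multiplicative.toAdd f)
      exact ⟨Additive.toMul v, congrArg Multiplicative.ofAdd hv⟩
    · intro u
      show Multiplicative.ofAdd (ψ (mk u)) = 1 ↔ _
      rw [ofAdd_eq_one, hψk', hfixP]
      constructor
      · intro h
        exact ⟨u.2, h⟩
      · intro h
        exact h.2
    · intro e u
      refine ⟨⟨e * u * (e : G)⁻¹, conj_mem hPV e.2 u.2⟩, rfl, ?_⟩
      exact hσact e (mk u)

end Cfsg.Agent.S2999
end
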