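import Cfsg.Agent.H264.FixAtom
import Mathlib.GroupTheory.QuotientGroup.Basic
import Cfsg.Agent.H264.CDLarge
import Cfsg.Statements.S3008
set_option linter.all false

-- part: H264/FixQuot
section
/-!
# The fixed-point theorem, for subgroups of a group above a normal subgroup with abelian factor group (helper264)
-/

set_option autoImplicit false
set_option linter.style.haveILetI false

open scoped Pointwise commutatorElement

namespace Cfsg.Agent.H264.FixQuot

open Cfsg.Agent.H264.FixAtom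

variable {Y : Type*} [Group Y] (N : Subgroup Y) [N.Normal]

/-- the commutative quotient group -/
@[reducible] def quotComm (hc : ∀ x y : Y, ⁅x, y⁆ ∈ N) : CommGroup (Y ⧸ N) :=
  { (inferInstance : Group (Y ⧸ N)) with
    mul_comm := by
      intro a b
      induction a using QuotientGroup.induction_on with
      | H x =>
        induction b using QuotientGroup.induction_on with
        | H y =>
          rw [← QuotientGroup.mk_mul, ← QuotientGroup.mk_mul, QuotientGroup.eq]
          have h := hc y⁻¹ x⁻¹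
          rw [commutatorElement_def, inv_inv, inv_inv] at h
          have : (x * y)⁻¹ * (y * x) = y⁻¹ * x⁻¹ * y * x := by group
          rw [this]
          exact h }

variable {Γ : Type*} [Group Γ] [MulDistribMulAction Γ Y]

/-- the action on the quotient, as a map -/
def qmap (hN : ∀ g : Γ, ∀ x ∈ N, g • x ∈ N) (g : Γ) : Y ⧸ N →* Y ⧸ N :=
  QuotientGroup.map N N (MulDistribMulAction.toMonoidHom Y g) (fun x hx => hN g x hx)

theorem qmap_mk (hN : ∀ g : Γ, ∀ x ∈ N, g • x ∈ N) (g : Γ) (x : Y) :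
    qmap N hN g (x : Y ⧸ N) = ((g • x : Y) : Y ⧸ N) := rfl

/-- the action on the additive quotient -/
@[reducible] def quotAct (hc : ∀ x y : Y, ⁅x, y⁆ ∈ N) (hN : ∀ g : Γ, ∀ x ∈ N, g • x ∈ N) :
    letI := quotComm N hc
    DistribMulAction Γ (Additive (Y ⧸ N)) :=
  letI := quotComm N hc
  { smul := fun g m => Additive.ofMul (qmap N hN g m.toMul)
    one_smul := by
      intro m
      refine Additive.toMul.injective ?_
      change qmap N hN 1 m.toMul = m.toMul
      induction m.toMul using QuotientGroup.induction_on with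
      | H x => rw [qmap_mk, one_smul]
    mul_smul := by
      intro g h m
      refine Additive.toMul.injective ?_
      change qmap N hN (g * h) m.toMul = qmap N hN g (qmap N hN h m.toMul)
      induction m.toMul using QuotientGroup.induction_on with
      | H x => rw [qmap_mk, qmap_mk, qmap_mk, mul_smul]
    smul_zero := by
      intro g
      refine Additive.toMul.injective ?_
      change qmap N hN g 1 = 1
      exact map_one _
    smul_add := by
      intro g x y
      refine Additive.toMul.injective ?_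
      change qmap N hN g (x.toMul * y.toMul) = qmap N hN g x.toMul * qmap N hN g y.toMul
      exact map_mul _ _ _ }

theorem core' {p : ℕ} [Fact p.Prime] [Finite Y] [Finite Γ] (hY : IsPGroup p Y) (hΓ : IsPGroup p Γ)
    (hc : ∀ x y : Y, ⁅x, y⁆ ∈ N) (hN : ∀ g : Γ, ∀ x ∈ N, g • x ∈ N)
    (𝓣 : Set (Subgroup Y)) (hle : ∀ S ∈ 𝓣, N ≤ S) (hbot : N ∈ 𝓣) (htop : ⊤ ∈ 𝓣)
    (hsup : ∀ a ∈ 𝓣, ∀ b ∈ 𝓣, a ⊔ b ∈ 𝓣) (hinf : ∀ a ∈ 𝓣, ∀ b ∈ 𝓣, a ⊓ b ∈ 𝓣)
    (hact : ∀ g : Γ, ∀ S ∈ 𝓣, g • S ∈ 𝓣) (T : Set Γ) (hT : Subgroup.closure T = ⊤)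
    (hTc : ∀ g : Γ, ∀ t ∈ T, g * t * g⁻¹ ∈ T) (L₀ : Subgroup Y) (hL₀ : L₀ ∈ 𝓣) (hL₀N : L₀ ≠ N)
    (hL₀a : ∀ S ∈ 𝓣, S ≤ L₀ → S = N ∨ S = L₀)
    (hspan : ⨆ g : Γ, g • L₀ = ⊤)
    (hQ : ∀ g : Γ, ∀ t ∈ T, ∃ E ∈ 𝓣, (∀ e ∈ E, (t • e) * e⁻¹ ∈ N) ∧ E ≤ g • L₀ ⊔ t • g • L₀ ∧
      t • g • L₀ ≤ g • L₀ ⊔ E)
    (hD : ∀ D ∈ 𝓣, (∀ g : Γ, g • D = D) → ∃ D' ∈ 𝓣, (∀ g : Γ, g • D' = D') ∧ D ⊓ D' = N ∧ D ⊔ D' = ⊤) :
    ∀ g : Γ, g • L₀ = L₀ := by
  letI := quotComm N hc
  letI : DistribMulAction Γ (Additive (Y ⧸ N)) := quotAct N hc hN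
  let π : Y →* Y ⧸ N := QuotientGroup.mk' N
  have hπ : Function.Surjective π := QuotientGroup.mk'_surjective N
  let pre : AddSubgroup (Additive (Y ⧸ N)) → Subgroup Y := fun S => (AddSubgroup.toSubgroup' S).comap π
  let im : Subgroup Y → AddSubgroup (Additive (Y ⧸ N)) := fun L => Subgroup.toAddSubgroup (L.map π)
  have hpm : ∀ S x, x ∈ pre S ↔ Additive.ofMul (π x) ∈ S := fun S x => Iff.rfl
  have him : ∀ L : Subgroup Y, N ≤ L → pre (im L) = L := by
    intro L hL
    change (L.map π).comap π = L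
    rw [Subgroup.comap_map_eq, sup_eq_left.mpr]
    rw [QuotientGroup.ker_mk']
    exact hL
  have hinj : Function.Injective pre := by
    intro S S' h
    exact AddSubgroup.toSubgroup'.injective (Subgroup.comap_injective hπ h)
  have hmono : ∀ S S', pre S ≤ pre S' ↔ S ≤ S' := by
    intro S S'
    constructor
    · intro h
      have h1 := (Subgroup.comap_le_comap_of_surjective hπ).mp h
      exact h1
    · intro h x hx
      exact h hx
  have hpsup : ∀ S S', pre (S ⊔ S') = pre S ⊔ pre S' := by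
    intro S S'
    change (AddSubgroup.toSubgroup' (S ⊔ S')).comap π = _
    rw [OrderIso.map_sup]
    exact (Subgroup.comap_sup_eq _ _ _ hπ).symm
  have hpinf : ∀ S S', pre (S ⊓ S') = pre S ⊓ pre S' := fun S S' => rfl
  have hpbot : pre ⊥ = N := by
    ext x
    rw [hpm, AddSubgroup.mem_bot]
    exact QuotientGroup.eq_one_iff x
  have hptop : pre ⊤ = ⊤ := rfl
  have hsm : ∀ (g : Γ) (x : Y), g • (Additive.ofMul (π x)) = Additive.ofMul (π (g • x)) := fun g x => rfl
  have hpsm : ∀ (g : Γ) S, pre (g • S) = g • pre S := by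
    intro g S
    ext x
    rw [hpm, Subgroup.mem_pointwise_smul_iff_inv_smul_mem, hpm,
      AddSubgroup.mem_pointwise_smul_iff_inv_smul_mem, hsm]
  have h𝓢 : Lat {S | pre S ∈ 𝓣} := by
    refine ⟨?_, ?_, ?_, ?_⟩
    · change pre ⊥ ∈ 𝓣; rw [hpbot]; exact hbot
    · exact htop
    · intro a ha b hb
      change pre (a ⊔ b) ∈ 𝓣
      rw [hpsup]; exact hsup _ ha _ hb
    · intro a ha b hb
      exact hinf _ ha _ hb
  have hgN : ∀ g : Γ, ∀ L : Subgroup Y, N ≤ L → N ≤ g • L := by
    intro g L hL x hx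
    rw [Subgroup.mem_pointwise_smul_iff_inv_smul_mem]
    exact hL (hN _ _ hx)
  have himsm : ∀ (g : Γ) (L : Subgroup Y), N ≤ L → g • im L = im (g • L) := by
    intro g L hL
    apply hinj
    rw [hpsm, him L hL, him _ (hgN g L hL)]
  have hNL₀ := hle L₀ hL₀
  have key := core (M := Additive (Y ⧸ N)) (Γ := Γ) (𝓢 := {S | pre S ∈ 𝓣}) hΓ (by
      obtain ⟨n, hn⟩ := IsPGroup.iff_card.mp (hY.to_quotient N)
      exact ⟨n, hn⟩) h𝓢
    (fun g S hS => by
      change pre (g • S) ∈ 𝓣
      rw [hpsm]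
      exact hact g _ hS) T hT hTc (im L₀)
    ⟨by
      change pre (im L₀) ∈ 𝓣
      rw [him L₀ hNL₀]; exact hL₀, fun h => hL₀N (by rw [← him L₀ hNL₀, h, hpbot]), fun S hS hSL => by
        have h1 : pre S ≤ L₀ := by rw [← him L₀ hNL₀]; exact (hmono _ _).mpr hSL
        rcases hL₀a _ hS h1 with h | h
        · left
          apply hinj
          rw [h, hpbot]
        · right
          apply hinj
          rw [h, him L₀ hNL₀]⟩
    (by
      rw [eq_top_iff]
      rw [← hmono, hptop, ← hspan]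
      refine iSup_le fun g => ?_
      rw [← him (g • L₀) (hgN g L₀ hNL₀), hmono, ← himsm g L₀ hNL₀]
      exact le_iSup (fun g : Γ => g • im L₀) g)
    (by
      intro g t ht
      obtain ⟨E, hE, h1, h2, h3⟩ := hQ g t ht
      have hNE := hle E hE
      refine ⟨im E, by change pre (im E) ∈ 𝓣; rw [him E hNE]; exact hE, ?_, ?_, ?_⟩
      · rintro e ⟨y, hy, rfl⟩
        have h4 := h1 y hy
        have h5 : π (t • y) = π y := by
          have : π ((t • y) * y⁻¹) = 1 := (QuotientGroup.eq_one_iff _).mpr h4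
          rw [map_mul, map_inv, mul_inv_eq_one] at this
          exact this
        exact congrArg Additive.ofMul h5
      · rw [himsm g L₀ hNL₀, himsm t _ (hgN g L₀ hNL₀), ← hmono, hpsup, him E hNE, him _ (hgN g L₀ hNL₀),
          him _ (hgN t _ (hgN g L₀ hNL₀))]
        exact h2
      · rw [himsm g L₀ hNL₀, himsm t _ (hgN g L₀ hNL₀), ← hmono, hpsup, him E hNE, him _ (hgN g L₀ hNL₀),
          him _ (hgN t _ (hgN g L₀ hNL₀))]
        exact h3)
    (by
      intro D hD1 hD2
      obtain ⟨D', hD', h1, h2, h3⟩ := hD (pre D) hD1 (fun g => by rw [← hpsm, hD2])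
      have hND' := hle D' hD'
      refine ⟨im D', by change pre (im D') ∈ 𝓣; rw [him D' hND']; exact hD', ?_, ?_, ?_⟩
      · intro g
        rw [himsm g D' hND', h1]
      · apply hinj
        rw [hpinf, him D' hND', h2, hpbot]
      · apply hinj
        rw [hpsup, him D' hND', h3, hptop])
  intro g
  have h1 := key g
  rw [himsm g L₀ hNL₀] at h1
  have h2 := congrArg pre h1
  rwa [him _ hNL₀, him _ (hgN g L₀ hNL₀)] at h2

end Cfsg.Agent.H264.FixQuot
end

-- part: H264/MinNormal
section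
/-!
# A minimal centrally large subgroup normalized by `J(P)` and by all minimal centrally large subgroups (helper264)

`P` is a finite `p`-group. Glauberman's theorem (the part of S3008 that uses a finite analogue of Borel's fixed point
theorem): some minimal centrally large subgroup of `P` is normalized by `J(P)` and by `P_MCL`.

* `third` : for `L` abelian in the Chermak-Delgado lattice, `A` large abelian, `t ∈ A`, the subgroup
  `F = A ∩ L L^t` is in the lattice and `L L^t = L F`;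
* `atoms_comm` : distinct atoms above an abelian `N` commute modulo `N`;
* `step` : an abelian member `N` of the lattice normalized by `J(P)` which is not maximal abelian in the lattice is properly
  contained in another one normalized by `J(P)`;
* `exists_min_normal` : the theorem.
-/

set_option autoImplicit false
set_option linter.style.haveILetI false

open scoped Pointwise commutatorElement
open Cfsg

namespace Cfsg.Agent.H264.MinNormal

open Cfsg.Agent.H264.CD

variable {P : Type*} [Group P]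

local notation "C(" H ")" => Subgroup.centralizer ((H : Subgroup P) : Set P)

section Smul

theorem mem_smul {φ : MulAut P} {H : Subgroup P} {x : P} : x ∈ φ • H ↔ φ⁻¹ x ∈ H := by
  rw [Subgroup.mem_pointwise_smul_iff_inv_smul_mem]
  rfl

theorem mem_conj_smul {g : P} {H : Subgroup P} {x : P} : x ∈ MulAut.conj g • H ↔ g⁻¹ * x * g ∈ H := by
  rw [mem_smul, ← map_inv, MulAut.conj_apply, inv_inv]

theorem cent_smul (φ : MulAut P) (H : Subgroup P) : C(φ • H) = φ • C(H) := by
  ext x
  rw [mem_smul, Subgroup.mem_centralizer_iff, Subgroup.mem_centralizer_iff]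
  constructor
  · intro h y hy
    have h1 := h (φ y) (by
      rw [SetLike.mem_coe, mem_smul]
      simpa using hy)
    have h2 := congrArg (φ⁻¹ : MulAut P) h1
    simpa using h2
  · intro h y hy
    rw [SetLike.mem_coe, mem_smul] at hy
    have h1 := h _ hy
    have h2 := congrArg φ h1
    simpa using h2

theorem card_smul (φ : MulAut P) (H : Subgroup P) : Nat.card (φ • H : Subgroup P) = Nat.card H :=
  Nat.card_congr (Subgroup.equivSMul φ H).symm.toEquiv

theorem CL_smul [Finite P] (φ : MulAut P) {H : Subgroup P} (hH : IsCentralizerLarge H) :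
    IsCentralizerLarge (φ • H) := by
  unfold IsCentralizerLarge at *
  rw [cent_smul, card_smul, card_smul, hH]

theorem ab_smul (φ : MulAut P) {H : Subgroup P} (hH : H ≤ C(H)) : φ • H ≤ C(φ • H) := by
  rw [cent_smul]
  exact Subgroup.pointwise_smul_le_pointwise_smul_iff.mpr hH

theorem max_smul [Finite P] (φ : MulAut P) {A : Subgroup P} (hA : A ∈ maxAbelianSubgroups P) :
    φ • A ∈ maxAbelianSubgroups P := by
  refine MA.mk_of hA (ab_smul φ (MA.le_cent hA)) ?_
  rw [card_smul]

theorem normalizer_iff [Finite P] {H : Subgroup P} {g : P} :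
    g ∈ Subgroup.normalizer (H : Set P) ↔ MulAut.conj g • H = H := by
  rw [Subgroup.mem_normalizer_iff]
  constructor
  · intro h
    ext x
    rw [mem_conj_smul]
    rw [h (g⁻¹ * x * g)]
    group
  · intro h x
    conv_rhs => rw [← h]
    rw [mem_conj_smul]
    group

theorem smul_eq_of_le [Finite P] {H : Subgroup P} {φ : MulAut P} (h : φ • H ≤ H) : φ • H = H := by
  refine Subgroup.eq_of_le_of_card_ge h ?_
  rw [card_smul]

theorem conj_smul_le_sup {L A : Subgroup P} {t : P} (ht : t ∈ A) : MulAut.conj t • L ≤ L ⊔ A := by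
  intro x hx
  rw [mem_conj_smul] at hx
  have : x = t * (t⁻¹ * x * t) * t⁻¹ := by group
  rw [this]
  exact mul_mem (mul_mem (Subgroup.mem_sup_right ht) (Subgroup.mem_sup_left hx))
    (inv_mem (Subgroup.mem_sup_right ht))

end Smul

variable [Finite P]

/-- the basic property of the action of a large abelian subgroup on the abelian members of the lattice -/
theorem third {L A : Subgroup P} (hL : IsCentralizerLarge L) (hLab : L ≤ C(L))
    (hA : A ∈ maxAbelianSubgroups P) {t : P} (ht : t ∈ A) :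
    IsCentralizerLarge (A ⊓ (L ⊔ MulAut.conj t • L)) ∧
      MulAut.conj t • L ≤ L ⊔ (A ⊓ (L ⊔ MulAut.conj t • L)) := by
  set L' := MulAut.conj t • L with hL'
  set F := A ⊓ (L ⊔ L') with hF
  have hAA := MA.le_cent hA
  have hCA := MA.centralizer_eq hA
  have hL'cl : IsCentralizerLarge L' := CL_smul _ hL
  -- `Q = C(L)` is centrally large
  have hCL : C(C(L)) = L := CL.cc hL
  have hQ : IsCentrallyLarge (C(L)) := by
    rw [isCentrallyLarge_iff]
    exact ⟨CL.centralizer hL, by rw [hCL]; exact hLab⟩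
  obtain ⟨hQA1, hQA2, -⟩ := MA.main hQ hA
  have hQAcl := ((isCentrallyLarge_iff _).mp hQA1).1
  have hmul := MA.centralizer_sup_eq_mul hQ hA
  rw [hCL] at hmul
  have hle : L ⊔ L' ≤ L ⊔ A := sup_le le_sup_left (conj_smul_le_sup ht)
  -- `L ⊔ L' = L F`
  have hmem : ∀ x ∈ L ⊔ L', ∃ l ∈ L, ∃ f ∈ F, l * f = x := by
    intro x hx
    have h1 : x ∈ ((L ⊔ A : Subgroup P) : Set P) := hle hx
    rw [hmul] at h1
    obtain ⟨l, hl, a, ha, rfl⟩ := h1
    refine ⟨l, hl, a, Subgroup.mem_inf.mpr ⟨ha, ?_⟩, rfl⟩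
    have := mul_mem (inv_mem (Subgroup.mem_sup_left hl : l ∈ L ⊔ L')) hx
    simpa using this
  have hLF : L ⊔ F = L ⊔ L' := by
    apply le_antisymm (sup_le le_sup_left inf_le_right)
    intro x hx
    obtain ⟨l, hl, f, hf, rfl⟩ := hmem x hx
    exact mul_mem (Subgroup.mem_sup_left hl) (Subgroup.mem_sup_right hf)
  have hLFset : ((L ⊔ F : Subgroup P) : Set P) = (L : Set P) * (F : Set P) := by
    apply Set.Subset.antisymm _ (mul_subset_sup L F)
    rw [hLF]
    intro x hx
    obtain ⟨l, hl, f, hf, rfl⟩ := hmem x hx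
    exact ⟨l, hl, f, hf, rfl⟩
  refine ⟨?_, by rw [hLF]; exact le_sup_right⟩
  -- orders
  have c1 : Nat.card (L ⊔ L' : Subgroup P) * Nat.card (L ⊓ A : Subgroup P) = Nat.card L * Nat.card F := by
    have h1 := card_sup_mul_card_inf_of_mul hLFset
    have h2 : L ⊓ F = L ⊓ A := by
      apply le_antisymm
      · exact le_inf inf_le_left (inf_le_right.trans inf_le_left)
      · exact le_inf inf_le_left (le_inf inf_le_right (inf_le_left.trans le_sup_left))
    rwa [h2, hLF] at h1
  have hCQA : C(C(L) ⊔ A) = L ⊓ A := by rw [centralizer_sup, hCL, hCA]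
  have hAF : A ≤ C(F) := hAA.trans (Subgroup.centralizer_le (SetLike.coe_subset_coe.mpr inf_le_left))
  have hCFle : C(F) ≤ C(L) ⊔ A := by
    have h1 : L ⊓ A ≤ F := le_inf inf_le_right (inf_le_left.trans le_sup_left)
    calc C(F) ≤ C(L ⊓ A) := Subgroup.centralizer_le (SetLike.coe_subset_coe.mpr h1)
      _ = C(C(C(L) ⊔ A)) := by rw [hCQA]
      _ = C(L) ⊔ A := CL.cc hQAcl
  have hCFQ : C(F) ⊓ C(L) = C(L) ⊓ C(L') := by
    rw [← centralizer_sup, ← centralizer_sup, sup_comm F L, hLF]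
  have hset : ((C(F) ⊓ C(L) ⊔ A : Subgroup P) : Set P) = ((C(F) ⊓ C(L) : Subgroup P) : Set P) * (A : Set P) ∧
      C(F) ⊓ C(L) ⊔ A = C(F) := by
    have hm : ∀ x ∈ C(F), ∃ q ∈ C(F) ⊓ C(L), ∃ a ∈ A, q * a = x := by
      intro x hx
      have h1 : x ∈ ((C(L) ⊔ A : Subgroup P) : Set P) := hCFle hx
      rw [hQA2] at h1
      obtain ⟨q, hq, a, ha, rfl⟩ := h1
      refine ⟨q, Subgroup.mem_inf.mpr ⟨?_, hq⟩, a, ha, rfl⟩
      have := mul_mem hx (inv_mem (hAF ha))
      simpa using this
    have h2 : C(F) ⊓ C(L) ⊔ A = C(F) := by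
      apply le_antisymm (sup_le inf_le_left hAF)
      intro x hx
      obtain ⟨q, hq, a, ha, rfl⟩ := hm x hx
      exact mul_mem (Subgroup.mem_sup_left hq) (Subgroup.mem_sup_right ha)
    refine ⟨?_, h2⟩
    apply Set.Subset.antisymm _ (mul_subset_sup _ _)
    rw [h2]
    intro x hx
    obtain ⟨q, hq, a, ha, rfl⟩ := hm x hx
    exact ⟨q, hq, a, ha, rfl⟩
  have c2 : Nat.card (C(F)) * Nat.card (C(L) ⊓ A : Subgroup P) =
      Nat.card (C(L) ⊓ C(L') : Subgroup P) * Nat.card A := by
    have h1 := card_sup_mul_card_inf_of_mul hset.1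
    have h2 : C(F) ⊓ C(L) ⊓ A = C(L) ⊓ A := by
      apply le_antisymm
      · exact le_inf (inf_le_left.trans inf_le_right) inf_le_right
      · exact le_inf (le_inf (inf_le_right.trans hAF) inf_le_left) inf_le_right
    rw [h2, hset.2, hCFQ] at h1
    exact h1
  have c3 : Nat.card (L ⊔ L' : Subgroup P) * Nat.card (C(L) ⊓ C(L') : Subgroup P) =
      maxCentralizerProduct P := by
    have h1 := CL.sup hL hL'cl
    unfold IsCentralizerLarge at h1
    rwa [centralizer_sup] at h1
  have c4 : Nat.card (C(L) ⊔ A : Subgroup P) * Nat.card (C(L) ⊓ A : Subgroup P) =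
      Nat.card (C(L)) * Nat.card A := card_sup_mul_card_inf_of_mul hQA2
  have c5 : Nat.card (C(L) ⊔ A : Subgroup P) * Nat.card (L ⊓ A : Subgroup P) = maxCentralizerProduct P := by
    have h1 := hQAcl
    unfold IsCentralizerLarge at h1
    rwa [hCQA] at h1
  have c6 : Nat.card L * Nat.card (C(L)) = maxCentralizerProduct P := hL
  have p1 := card_pos L
  have p2 := card_pos (C(L) ⊓ A)
  have p3 := card_pos (L ⊓ A)
  have pm := max_pos (G := P)
  -- |L| |Q ∩ A| = |A| |L ∩ A|
  have c7 : Nat.card L * Nat.card (C(L) ⊓ A : Subgroup P) = Nat.card A * Nat.card (L ⊓ A : Subgroup P) := by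
    apply Nat.eq_of_mul_eq_mul_left pm
    calc maxCentralizerProduct P * (Nat.card L * Nat.card (C(L) ⊓ A : Subgroup P))
        = (Nat.card (C(L) ⊔ A : Subgroup P) * Nat.card (L ⊓ A : Subgroup P)) *
          (Nat.card L * Nat.card (C(L) ⊓ A : Subgroup P)) := by rw [c5]
      _ = (Nat.card (C(L) ⊔ A : Subgroup P) * Nat.card (C(L) ⊓ A : Subgroup P)) *
          (Nat.card L * Nat.card (L ⊓ A : Subgroup P)) := by ring
      _ = (Nat.card (C(L)) * Nat.card A) * (Nat.card L * Nat.card (L ⊓ A : Subgroup P)) := by rw [c4]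
      _ = (Nat.card L * Nat.card (C(L))) * (Nat.card A * Nat.card (L ⊓ A : Subgroup P)) := by ring
      _ = _ := by rw [c6]
  unfold IsCentralizerLarge
  apply Nat.eq_of_mul_eq_mul_left (Nat.mul_pos p1 p2)
  calc Nat.card L * Nat.card (C(L) ⊓ A : Subgroup P) * (Nat.card F * Nat.card (C(F)))
      = (Nat.card L * Nat.card F) * (Nat.card (C(F)) * Nat.card (C(L) ⊓ A : Subgroup P)) := by ring
    _ = (Nat.card (L ⊔ L' : Subgroup P) * Nat.card (L ⊓ A : Subgroup P)) *
        (Nat.card (C(L) ⊓ C(L') : Subgroup P) * Nat.card A) := by rw [← c1, c2]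
    _ = (Nat.card (L ⊔ L' : Subgroup P) * Nat.card (C(L) ⊓ C(L') : Subgroup P)) *
        (Nat.card A * Nat.card (L ⊓ A : Subgroup P)) := by ring
    _ = maxCentralizerProduct P * (Nat.card L * Nat.card (C(L) ⊓ A : Subgroup P)) := by rw [c3, c7]
    _ = _ := by ring

/-- atoms of the lattice above `N` -/
def IsAt (N L : Subgroup P) : Prop :=
  IsCentralizerLarge L ∧ N < L ∧ L ≤ C(N) ∧ ∀ S : Subgroup P, IsCentralizerLarge S → N ≤ S → S ≤ L → S = N ∨ S = L

theorem atom_conj {N L₁ L₂ : Subgroup P} (h₁ : IsAt N L₁) (h₂ : IsAt N L₂)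
    {y : P} (hy : y ∈ L₂) : MulAut.conj y • L₁ = L₁ := by
  by_contra hcon
  have hcl := CL_smul (MulAut.conj y) h₁.1
  have hyN : MulAut.conj y • N = N := by
    apply smul_eq_of_le
    intro x hx
    rw [mem_conj_smul] at hx
    have h3 := Subgroup.mem_centralizer_iff.mp (h₂.2.2.1 hy) _ hx
    -- (y⁻¹ x y) y = y (y⁻¹ x y)
    have h4 : y * (y⁻¹ * x * y) * y⁻¹ = x := by group
    rw [← h4, ← h3, mul_inv_cancel_right]
    exact hx
  have hN1 : N ≤ MulAut.conj y • L₁ := by
    rw [← hyN]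
    exact Subgroup.pointwise_smul_le_pointwise_smul_iff.mpr h₁.2.1.le
  have hle : MulAut.conj y • L₁ ≤ L₁ ⊔ L₂ := conj_smul_le_sup hy
  have hI := CL.inf (CL.sup h₁.1 hcl) h₂.1
  have hmodular : L₁ ⊔ MulAut.conj y • L₁ ≤ L₁ ⊔ ((L₁ ⊔ MulAut.conj y • L₁) ⊓ L₂) := by
    intro x hx
    have hx' : x ∈ L₁ ⊔ L₂ := sup_le le_sup_left hle hx
    obtain ⟨a, ha, b, hb, rfl⟩ := (CL.mem_sup h₁.1 h₂.1).mp hx'
    refine mul_mem (Subgroup.mem_sup_left ha) (Subgroup.mem_sup_right (Subgroup.mem_inf.mpr ⟨?_, hb⟩))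
    have := mul_mem (inv_mem (Subgroup.mem_sup_left ha : a ∈ L₁ ⊔ MulAut.conj y • L₁)) hx
    simpa using this
  rcases h₂.2.2.2 _ hI (le_inf (h₁.2.1.le.trans le_sup_left) h₂.2.1.le) inf_le_right with h | h
  · rw [h, sup_eq_left.mpr h₁.2.1.le] at hmodular
    exact hcon (smul_eq_of_le (le_sup_right.trans hmodular))
  · have hy1 : y⁻¹ ∈ L₁ ⊔ MulAut.conj y • L₁ := inf_eq_right.mp h (inv_mem hy)
    obtain ⟨a, ha, b, hb, hab⟩ := (CL.mem_sup h₁.1 hcl).mp hy1
    rw [mem_conj_smul] at hb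
    have h5 : y = a⁻¹ * (y⁻¹ * b * y)⁻¹ := by
      have : b = a⁻¹ * y⁻¹ := by rw [← hab]; group
      rw [this]
      group
    have hyL : y ∈ L₁ := by
      rw [h5]
      exact mul_mem (inv_mem ha) (inv_mem hb)
    apply hcon
    apply smul_eq_of_le
    intro x hx
    rw [mem_conj_smul] at hx
    have h6 : y * (y⁻¹ * x * y) * y⁻¹ = x := by group
    rw [← h6]
    exact mul_mem (mul_mem hyL hx) (inv_mem hyL)

/-- distinct atoms commute modulo `N` -/
theorem atoms_comm {N L₁ L₂ : Subgroup P} (h₁ : IsAt N L₁) (h₂ : IsAt N L₂)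
    (hne : L₁ ≠ L₂) {x y : P} (hx : x ∈ L₁) (hy : y ∈ L₂) : ⁅x, y⁆ ∈ N := by
  have h3 : L₁ ⊓ L₂ = N := by
    rcases h₁.2.2.2 _ (CL.inf h₁.1 h₂.1) (le_inf h₁.2.1.le h₂.2.1.le) inf_le_left with h | h
    · exact h
    · have h4 : L₁ ≤ L₂ := inf_eq_left.mp h
      rcases h₂.2.2.2 _ h₁.1 h₁.2.1.le h4 with h5 | h5
      · exact absurd h5 h₁.2.1.ne'
      · exact absurd h5 hne
  rw [← h3]
  refine Subgroup.mem_inf.mpr ⟨?_, ?_⟩
  · rw [commutatorElement_def, mul_assoc, mul_assoc, ← mul_assoc y]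
    refine mul_mem hx ?_
    have h4 : y * x⁻¹ * y⁻¹ ∈ MulAut.conj y • L₁ := by
      rw [mem_conj_smul]
      have : y⁻¹ * (y * x⁻¹ * y⁻¹) * y = x⁻¹ := by group
      rw [this]
      exact inv_mem hx
    rwa [atom_conj h₁ h₂ hy] at h4
  · rw [commutatorElement_def]
    refine mul_mem ?_ (inv_mem hy)
    have h4 : x * y * x⁻¹ ∈ MulAut.conj x • L₂ := by
      rw [mem_conj_smul]
      have : x⁻¹ * (x * y * x⁻¹) * x = y := by group
      rw [this]
      exact hy
    rwa [atom_conj h₂ h₁ hx] at h4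

section Step

local notation "J" => thompsonSubgroupA P

theorem conj_J (g : P) : MulAut.conj g • J = J := by
  apply smul_eq_of_le
  have h1 : J ≤ (MulAut.conj g)⁻¹ • J := by
    refine sSup_le fun A hA => ?_
    rw [← Subgroup.pointwise_smul_subset_iff]
    exact le_sSup (max_smul _ hA)
  rw [Subgroup.pointwise_smul_subset_iff]
  exact h1

/-- the conjugation action of `J` on a subgroup it normalizes -/
@[reducible] def actOn (Y : Subgroup P) (hY : ∀ g : J, MulAut.conj (g : P) • Y = Y) :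
    MulDistribMulAction J Y :=
  { smul := fun g y => ⟨(g : P) * y * (g : P)⁻¹, by
      have h1 : (g : P) * y * (g : P)⁻¹ ∈ MulAut.conj (g : P) • Y := by
        rw [mem_conj_smul]
        have : (g : P)⁻¹ * ((g : P) * y * (g : P)⁻¹) * g = y := by group
        rw [this]
        exact y.2
      rwa [hY g] at h1⟩
    one_smul := fun y => Subtype.ext (by change ((1 : J) : P) * y * ((1 : J) : P)⁻¹ = y; simp)
    mul_smul := fun g h y => Subtype.ext (by
      change ((g * h : J) : P) * y * ((g * h : J) : P)⁻¹ = (g : P) * ((h : P) * y * (h : P)⁻¹) * (g : P)⁻¹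
      rw [Subgroup.coe_mul]
      group)
    smul_one := fun g => Subtype.ext (by change (g : P) * ((1 : Y) : P) * (g : P)⁻¹ = 1; simp)
    smul_mul := fun g x y => Subtype.ext (by
      change (g : P) * ((x * y : Y) : P) * (g : P)⁻¹ = ((g : P) * x * (g : P)⁻¹) * ((g : P) * y * (g : P)⁻¹)
      rw [Subgroup.coe_mul]
      group) }

theorem exists_atom {N : Subgroup P} (hex : ∃ L : Subgroup P, IsCentralizerLarge L ∧ L ≤ C(L) ∧ N < L) :
    ∃ L : Subgroup P, IsAt N L ∧ L ≤ C(L) := by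
  obtain ⟨L, hL, hmin⟩ := (Set.toFinite {L : Subgroup P | IsCentralizerLarge L ∧ L ≤ C(L) ∧ N < L}).exists_minimalFor
    id _ hex
  refine ⟨L, ⟨hL.1, hL.2.2, ?_, fun S hS hNS hSL => ?_⟩, hL.2.1⟩
  · exact hL.2.1.trans (Subgroup.centralizer_le (SetLike.coe_subset_coe.mpr hL.2.2.le))
  · by_cases h : S = N
    · exact Or.inl h
    · right
      refine le_antisymm hSL (hmin (j := S) ⟨hS, ?_, lt_of_le_of_ne hNS (Ne.symm h)⟩ hSL)
      exact hSL.trans (hL.2.1.trans (Subgroup.centralizer_le (SetLike.coe_subset_coe.mpr hSL)))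

theorem isAt_smul {N L : Subgroup P} (h : IsAt N L) {g : P} (hg : MulAut.conj g • N = N) :
    IsAt N (MulAut.conj g • L) := by
  have hg' : (MulAut.conj g)⁻¹ • N = N := by
    conv_lhs => rw [← hg]
    rw [inv_smul_smul]
  refine ⟨CL_smul _ h.1, ?_, ?_, fun S hS hNS hSL => ?_⟩
  · have h1 := h.2.1
    rw [lt_iff_le_not_ge] at h1 ⊢
    conv_lhs => rw [← hg]
    rw [Subgroup.pointwise_smul_le_pointwise_smul_iff]
    conv_rhs => rw [← hg]
    rw [Subgroup.pointwise_smul_le_pointwise_smul_iff]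
    exact h1
  · conv_rhs => rw [← hg, cent_smul]
    exact Subgroup.pointwise_smul_le_pointwise_smul_iff.mpr h.2.2.1
  · rcases h.2.2.2 ((MulAut.conj g)⁻¹ • S) (CL_smul _ hS) (by
      conv_lhs => rw [← hg']
      exact Subgroup.pointwise_smul_le_pointwise_smul_iff.mpr hNS)
      (Subgroup.subset_pointwise_smul_iff.mp hSL) with h1 | h1
    · left
      rw [inv_smul_eq_iff] at h1
      rw [h1, hg]
    · right
      rwa [inv_smul_eq_iff] at h1

/-- the main step -/
theorem step {p : ℕ} [Fact p.Prime] (hP : IsPGroup p P) {N : Subgroup P} (hN : IsCentralizerLarge N)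
    (hJN : ∀ g ∈ J, MulAut.conj g • N = N)
    (hex : ∃ L : Subgroup P, IsCentralizerLarge L ∧ L ≤ C(L) ∧ N < L) :
    ∃ L : Subgroup P, IsCentralizerLarge L ∧ L ≤ C(L) ∧ N < L ∧ ∀ g ∈ J, MulAut.conj g • L = L := by
  by_contra hcon
  push Not at hcon
  obtain ⟨L₀, hL₀, hL₀ab⟩ := exists_atom hex
  have hat : ∀ g : J, IsAt N (MulAut.conj (g : P) • L₀) := fun g => isAt_smul hL₀ (hJN g g.2)
  set Y : Subgroup P := ⨆ g : J, MulAut.conj (g : P) • L₀ with hYdef
  have hYcl : IsCentralizerLarge Y := by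
    rw [hYdef, ← sSup_range]
    refine CL.sSup_mem (Set.range_nonempty _) ?_
    rintro _ ⟨g, rfl⟩
    exact (hat g).1
  have hLY : ∀ g : J, MulAut.conj (g : P) • L₀ ≤ Y := fun g => le_iSup (fun g : J => MulAut.conj (g : P) • L₀) g
  have hL₀Y : L₀ ≤ Y := by
    have := hLY 1
    simpa using this
  have hNY : N ≤ Y := hL₀.2.1.le.trans hL₀Y
  have hYC : Y ≤ C(N) := iSup_le fun g => (hat g).2.2.1
  have hYinv : ∀ g : J, MulAut.conj (g : P) • Y = Y := by
    intro g
    apply smul_eq_of_le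
    rw [Subgroup.pointwise_smul_subset_iff]
    refine iSup_le fun h => ?_
    rw [← Subgroup.pointwise_smul_subset_iff, smul_smul, ← map_mul]
    exact hLY (g * h)
  -- commutators
  have hcomm1 : ∀ g h : J, ∀ x ∈ MulAut.conj (g : P) • L₀, ∀ y ∈ MulAut.conj (h : P) • L₀, ⁅x, y⁆ ∈ N := by
    intro g h x hx y hy
    by_cases he : MulAut.conj (g : P) • L₀ = MulAut.conj (h : P) • L₀
    · have h1 : MulAut.conj (h : P) • L₀ ≤ C(MulAut.conj (h : P) • L₀) := ab_smul _ hL₀ab
      rw [he] at hx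
      have h2 := comm_of_le h1 hx hy
      rw [commutatorElement_eq_one_iff_mul_comm.mpr h2]
      exact one_mem _
    · exact atoms_comm (hat g) (hat h) he hx hy
  have hfix : ∀ z ∈ C(N), ∀ n ∈ N, z * n * z⁻¹ = n := by
    intro z hz n hn
    rw [← Subgroup.mem_centralizer_iff.mp hz n hn, mul_inv_cancel_right]
  let K : P → Subgroup P := fun y =>
    { carrier := {x | x ∈ C(N) ∧ ⁅x, y⁆ ∈ N}
      one_mem' := ⟨one_mem _, by rw [commutatorElement_one_left]; exact one_mem _⟩
      mul_mem' := by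
        rintro a b ⟨ha, ha'⟩ ⟨hb, hb'⟩
        refine ⟨mul_mem ha hb, ?_⟩
        have : ⁅a * b, y⁆ = (a * ⁅b, y⁆ * a⁻¹) * ⁅a, y⁆ := by
          simp only [commutatorElement_def]; group
        rw [this, hfix a ha _ hb']
        exact mul_mem hb' ha'
      inv_mem' := by
        rintro a ⟨ha, ha'⟩
        refine ⟨inv_mem ha, ?_⟩
        have : ⁅a⁻¹, y⁆ = a⁻¹ * ⁅a, y⁆⁻¹ * a⁻¹⁻¹ := by
          simp only [commutatorElement_def]; group
        rw [this, hfix a⁻¹ (inv_mem ha) _ (inv_mem ha')]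
        exact inv_mem ha' }
  have hK1 : ∀ h : J, ∀ y ∈ MulAut.conj (h : P) • L₀, Y ≤ K y := by
    intro h y hy
    refine iSup_le fun g x hx => ⟨(hat g).2.2.1 hx, hcomm1 g h x hx y hy⟩
  have hK2 : ∀ x ∈ Y, Y ≤ K x := by
    intro x hx
    refine iSup_le fun g y hy => ⟨(hat g).2.2.1 hy, ?_⟩
    have h1 := (hK1 g y hy hx).2
    rw [← inv_mem_iff, commutatorElement_inv] at h1
    exact h1
  have hcommY : ∀ x ∈ Y, ∀ y ∈ Y, ⁅x, y⁆ ∈ N := fun x hx y hy => (hK2 y hy hx).2
  -- set up the abstract theorem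
  letI : MulDistribMulAction J Y := actOn Y hYinv
  have hsm : ∀ (g : J) (y : Y), ((g • y : Y) : P) = (g : P) * y * (g : P)⁻¹ := fun _ _ => rfl
  let N' : Subgroup Y := N.subgroupOf Y
  haveI hN'n : N'.Normal := by
    refine ⟨fun n hn g => ?_⟩
    rw [Subgroup.mem_subgroupOf] at hn ⊢
    have : ((g * n * g⁻¹ : Y) : P) = (g : P) * n * (g : P)⁻¹ := by simp
    rw [this, hfix g (hYC g.2) _ hn]
    exact hn
  let up : Subgroup Y → Subgroup P := fun S => S.map Y.subtype
  have hupsm : ∀ (g : J) (S : Subgroup Y), up (g • S) = MulAut.conj (g : P) • up S := by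
    intro g S
    ext x
    rw [mem_conj_smul]
    constructor
    · rintro ⟨y, hy, rfl⟩
      rw [SetLike.mem_coe, Subgroup.mem_pointwise_smul_iff_inv_smul_mem] at hy
      refine ⟨g⁻¹ • y, hy, ?_⟩
      rw [Subgroup.coe_subtype, hsm]
      simp
    · rintro ⟨y, hy, hyx⟩
      refine ⟨g • y, Subgroup.smul_mem_pointwise_smul y g S hy, ?_⟩
      rw [Subgroup.coe_subtype, hsm]
      rw [Subgroup.coe_subtype] at hyx
      rw [hyx]
      group
  have hup_of : ∀ L : Subgroup P, L ≤ Y → up (L.subgroupOf Y) = L := fun L hL =>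
    Subgroup.map_subgroupOf_eq_of_le hL
  have hupinj : Function.Injective up := Subgroup.map_injective Y.subtype_injective
  have hupmono : ∀ S S' : Subgroup Y, up S ≤ up S' ↔ S ≤ S' := fun S S' =>
    Subgroup.map_le_map_iff_of_injective Y.subtype_injective
  have hupN : up N' = N := hup_of N hNY
  have huptop : up ⊤ = Y := by
    change (⊤ : Subgroup Y).map Y.subtype = Y
    rw [← MonoidHom.range_eq_map, Subgroup.range_subtype]
  have hupsup : ∀ S S' : Subgroup Y, up (S ⊔ S') = up S ⊔ up S' := fun S S' => Subgroup.map_sup _ _ _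
  have hupinf : ∀ S S' : Subgroup Y, up (S ⊓ S') = up S ⊓ up S' := fun S S' =>
    Subgroup.map_inf _ _ _ Y.subtype_injective
  let T : Set J := {t | ∃ A ∈ maxAbelianSubgroups P, (t : P) ∈ A}
  have hJinv : ∀ g : J, ∀ x ∈ N', g • x ∈ N' := by
    intro g x hx
    rw [Subgroup.mem_subgroupOf] at hx ⊢
    rw [hsm]
    have h1 : (g : P) * x * (g : P)⁻¹ ∈ MulAut.conj (g : P) • N := by
      rw [mem_conj_smul]
      have : (g : P)⁻¹ * ((g : P) * x * (g : P)⁻¹) * g = x := by group
      rw [this]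
      exact hx
    rwa [hJN g g.2] at h1
  have hT : Subgroup.closure T = ⊤ := by
    have h1 : J ≤ (Subgroup.closure T).map (Subgroup.subtype J) := by
      refine sSup_le fun A hA x hx => ?_
      have hxJ : x ∈ J := (le_sSup hA : A ≤ J) hx
      exact ⟨⟨x, hxJ⟩, Subgroup.subset_closure ⟨A, hA, hx⟩, rfl⟩
    rw [eq_top_iff]
    rintro ⟨x, hx⟩ -
    obtain ⟨y, hy, hyx⟩ := h1 hx
    have : y = ⟨x, hx⟩ := Subtype.ext hyx
    rwa [← this]
  have key := FixQuot.core' (Y := Y) (Γ := J) N' (p := p) (hP.to_subgroup Y) (hP.to_subgroup _)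
    (fun x y => by
      rw [Subgroup.mem_subgroupOf]
      have : ((⁅x, y⁆ : Y) : P) = ⁅(x : P), (y : P)⁆ := by simp [commutatorElement_def]
      rw [this]
      exact hcommY x x.2 y y.2) hJinv
    {S | N' ≤ S ∧ IsCentralizerLarge (up S)} (fun S hS => hS.1)
    ⟨le_rfl, by rw [hupN]; exact hN⟩ ⟨le_top, by rw [huptop]; exact hYcl⟩
    (fun a ha b hb => ⟨ha.1.trans le_sup_left, by rw [hupsup]; exact CL.sup ha.2 hb.2⟩)
    (fun a ha b hb => ⟨le_inf ha.1 hb.1, by rw [hupinf]; exact CL.inf ha.2 hb.2⟩)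
    (fun g S hS => ⟨by
      intro x hx
      rw [Subgroup.mem_pointwise_smul_iff_inv_smul_mem]
      exact hS.1 (hJinv _ x hx), by rw [hupsm]; exact CL_smul _ hS.2⟩)
    T hT
    (by
      rintro g t ⟨A, hA, ht⟩
      refine ⟨MulAut.conj (g : P) • A, max_smul _ hA, ?_⟩
      rw [mem_conj_smul]
      have : (g : P)⁻¹ * ((g * t * g⁻¹ : J) : P) * g = t := by
        simp only [Subgroup.coe_mul, Subgroup.coe_inv]
        group
      rw [this]
      exact ht)
    (L₀.subgroupOf Y) ⟨by rw [← hupmono, hupN, hup_of L₀ hL₀Y]; exact hL₀.2.1.le, by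
      rw [hup_of L₀ hL₀Y]; exact hL₀.1⟩
    (fun h => by
      have := congrArg up h
      rw [hup_of L₀ hL₀Y, hupN] at this
      exact hL₀.2.1.ne' this)
    (fun S hS hSL => by
      rcases hL₀.2.2.2 (up S) hS.2 (by rw [← hupN]; exact (hupmono _ _).mpr hS.1)
        (by rw [← hup_of L₀ hL₀Y]; exact (hupmono _ _).mpr hSL) with h | h
      · left
        apply hupinj
        rw [h, hupN]
      · right
        apply hupinj
        rw [h, hup_of L₀ hL₀Y])
    (by
      apply hupinj
      rw [huptop]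
      change (⨆ g : J, g • L₀.subgroupOf Y).map Y.subtype = Y
      rw [Subgroup.map_iSup]
      refine Eq.trans (iSup_congr fun g => ?_) hYdef.symm
      change up (g • L₀.subgroupOf Y) = _
      rw [hupsm, hup_of L₀ hL₀Y])
    (by
      rintro g t ⟨A, hA, htA⟩
      set L := MulAut.conj (g : P) • L₀ with hLdef
      have hLt : MulAut.conj (t : P) • L ≤ Y := by
        rw [hLdef, smul_smul, ← map_mul]
        exact hLY (t * g)
      obtain ⟨hF, hF2⟩ := third (hat g).1 (ab_smul _ hL₀ab) hA htA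
      rw [← hLdef] at hF hF2
      set F := A ⊓ (L ⊔ MulAut.conj (t : P) • L) with hFdef
      have hEY : N ⊔ F ≤ Y := sup_le hNY (inf_le_right.trans (sup_le (hLY g) hLt))
      have hNL : N ≤ L := (hat g).2.1.le
      have hup1 : up (g • L₀.subgroupOf Y) = L := by rw [hupsm, hup_of L₀ hL₀Y]
      have hup2 : up (t • g • L₀.subgroupOf Y) = MulAut.conj (t : P) • L := by rw [hupsm, hup1]
      refine ⟨(N ⊔ F).subgroupOf Y, ⟨?_, ?_⟩, ?_, ?_, ?_⟩
      · rw [← hupmono, hupN, hup_of _ hEY]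
        exact le_sup_left
      · rw [hup_of _ hEY]
        exact CL.sup hN hF
      · intro e he
        rw [Subgroup.mem_subgroupOf] at he ⊢
        obtain ⟨n, hn, f, hf, hnf⟩ := (CL.mem_sup hN hF).mp he
        have h1 : ((t • e * e⁻¹ : Y) : P) = ((t : P) * n * (t : P)⁻¹) * n⁻¹ := by
          rw [Subgroup.coe_mul, hsm, Subgroup.coe_inv, ← hnf]
          have h2 : (t : P) * f = f * t := comm_of_le (MA.le_cent hA) htA hf.1
          have h3 : (t : P) * (n * f) * (t : P)⁻¹ * (n * f)⁻¹ = (t : P) * n * (f * (t : P)⁻¹ * f⁻¹) * n⁻¹ := by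
            group
          have h4 : f * (t : P)⁻¹ * f⁻¹ = (t : P)⁻¹ := by
            have : f * (t : P)⁻¹ = (t : P)⁻¹ * f := by
              rw [eq_inv_mul_iff_mul_eq, ← mul_assoc, h2, mul_inv_cancel_right]
            rw [this, mul_inv_cancel_right]
          rw [h3, h4]
        rw [h1]
        refine mul_mem ?_ (inv_mem hn)
        have h5 : (t : P) * n * (t : P)⁻¹ ∈ MulAut.conj (t : P) • N := by
          rw [mem_conj_smul]
          have : (t : P)⁻¹ * ((t : P) * n * (t : P)⁻¹) * t = n := by group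
          rw [this]
          exact hn
        rwa [hJN t t.2] at h5
      · rw [← hupmono, hupsup, hup_of _ hEY, hup1, hup2]
        exact sup_le (hNL.trans le_sup_left) inf_le_right
      · rw [← hupmono, hupsup, hup_of _ hEY, hup1, hup2]
        exact hF2.trans (sup_le_sup_left le_sup_right _))
    (by
      rintro D ⟨hD1, hD2⟩ hDinv
      set D₁ := up D with hD₁
      have hND : N ≤ D₁ := by rw [← hupN]; exact (hupmono _ _).mpr hD1
      have hDY : D₁ ≤ Y := by rw [← huptop]; exact (hupmono _ _).mpr le_top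
      have hD₁inv : ∀ g ∈ J, MulAut.conj g • D₁ = D₁ := by
        intro g hg
        have := hupsm ⟨g, hg⟩ D
        rw [hDinv] at this
        exact this.symm
      have hCD := CL.centralizer hD2
      have hNC : N ≤ C(D₁) := by
        rw [Subgroup.le_centralizer_iff]
        exact hDY.trans hYC
      -- `D₁ ∩ C(D₁) = N`
      have hI : D₁ ⊓ C(D₁) = N := by
        by_contra hne
        have hlt : N < D₁ ⊓ C(D₁) := lt_of_le_of_ne (le_inf hND hNC) (Ne.symm hne)
        obtain ⟨g, hg, hgne⟩ := hcon (D₁ ⊓ C(D₁)) (CL.inf hD2 hCD)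
          (inf_le_right.trans (Subgroup.centralizer_le (SetLike.coe_subset_coe.mpr inf_le_left))) hlt
        apply hgne
        rw [Subgroup.smul_inf, ← cent_smul, hD₁inv g hg]
      have hDY' : Y ⊓ C(D₁) ≤ Y := inf_le_left
      refine ⟨(Y ⊓ C(D₁)).subgroupOf Y, ⟨?_, ?_⟩, ?_, ?_, ?_⟩
      · rw [← hupmono, hupN, hup_of _ hDY']
        exact le_inf hNY hNC
      · rw [hup_of _ hDY']
        exact CL.inf hYcl hCD
      · intro g
        apply hupinj
        rw [hupsm, hup_of _ hDY', Subgroup.smul_inf, ← cent_smul, hD₁inv g g.2, hYinv]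
      · apply hupinj
        rw [hupinf, hup_of _ hDY', hupN, ← inf_assoc, inf_comm (up D) Y, inf_assoc, ← hD₁, hI]
        exact inf_eq_right.mpr hNY
      · apply hupinj
        rw [hupsup, hup_of _ hDY', huptop, ← hD₁]
        apply le_antisymm (sup_le hDY inf_le_left)
        intro y hy
        have h1 : C(D₁ ⊓ C(D₁)) = C(D₁) ⊔ D₁ := by
          rw [CL.centralizer_inf hD2 hCD, CL.cc hD2]
        rw [hI] at h1
        have h2 : y ∈ D₁ ⊔ C(D₁) := by rw [sup_comm, ← h1]; exact hYC hy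
        obtain ⟨d, hd, c, hc, rfl⟩ := (CL.mem_sup hD2 hCD).mp h2
        refine mul_mem (Subgroup.mem_sup_left hd) (Subgroup.mem_sup_right (Subgroup.mem_inf.mpr ⟨?_, hc⟩))
        have := mul_mem (inv_mem (hDY hd)) hy
        simpa using this)
  obtain ⟨g, hg, hgne⟩ := hcon L₀ hL₀.1 hL₀ab hL₀.2.1
  apply hgne
  have h1 := congrArg up (key ⟨g, hg⟩)
  rw [hupsm, hup_of L₀ hL₀Y] at h1
  exact h1

/-- **some minimal centrally large subgroup is normalized by `J(P)` and `P_MCL`** -/
theorem exists_min_normal {p : ℕ} [Fact p.Prime] (hP : IsPGroup p P) :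
    ∃ Q : Subgroup P, IsMinimalCentrallyLarge Q ∧ J ≤ Subgroup.normalizer (Q : Set P) ∧
      minimalCentrallyLargeJoin P ≤ Subgroup.normalizer (Q : Set P) := by
  -- a starting point
  obtain ⟨Q₀, hQ₀⟩ := exists_cent (G := P)
  have hR := sup_thompson hQ₀
  obtain ⟨hR1, hR2⟩ := (isCentrallyLarge_iff _).mp hR
  have hst : ∃ N : Subgroup P, IsCentralizerLarge N ∧ N ≤ C(N) ∧ ∀ g ∈ J, MulAut.conj g • N = N := by
    refine ⟨C(Q₀ ⊔ J), CL.centralizer hR1, ?_, ?_⟩
    · rw [CL.cc hR1]; exact hR2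
    · intro g hg
      apply smul_eq_of_le
      intro x hx
      rw [mem_conj_smul] at hx
      have h1 : (g : P) ∈ Q₀ ⊔ J := Subgroup.mem_sup_right hg
      have h2 := Subgroup.mem_centralizer_iff.mp hx g h1
      have h3 : g * (g⁻¹ * x * g) * g⁻¹ = x := by group
      rw [h2, mul_inv_cancel_right] at h3
      rw [← h3]
      exact hx
  obtain ⟨N, hN, hmax⟩ := (Set.toFinite {N : Subgroup P | IsCentralizerLarge N ∧ N ≤ C(N) ∧
    ∀ g ∈ J, MulAut.conj g • N = N}).exists_maximalFor id _ hst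
  have hNmax : ∀ L : Subgroup P, IsCentralizerLarge L → L ≤ C(L) → N ≤ L → L = N := by
    intro L hL hLab hNL
    by_contra hne
    obtain ⟨L', h1, h2, h3, h4⟩ := step hP hN.1 hN.2.2 ⟨L, hL, hLab, lt_of_le_of_ne hNL (Ne.symm hne)⟩
    exact absurd (hmax (j := L') ⟨h1, h2, h4⟩ h3.le) (not_le_of_gt h3)
  have hNN := CL.cc hN.1
  have hQmin : IsMinimalCentrallyLarge (C(N)) := by
    constructor
    · rw [isCentrallyLarge_iff]
      exact ⟨CL.centralizer hN.1, by rw [hNN]; exact hN.2.1⟩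
    · intro R hR hRcl
      obtain ⟨hRc1, hRc2⟩ := (isCentrallyLarge_iff _).mp hRcl
      have h1 : N ≤ C(R) := by rw [Subgroup.le_centralizer_iff]; exact hR
      have h2 := hNmax (C(R)) (CL.centralizer hRc1) (by rw [CL.cc hRc1]; exact hRc2) h1
      rw [← h2, CL.cc hRc1]
  have hJQ : J ≤ Subgroup.normalizer ((C(N) : Subgroup P) : Set P) := by
    intro g hg
    rw [normalizer_iff, ← cent_smul, hN.2.2 g hg]
  refine ⟨C(N), hQmin, hJQ, ?_⟩
  refine sSup_le fun R hR => ?_
  rw [← min_eq hR hQmin]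
  refine sup_le (inf_le_right.trans Subgroup.le_normalizer) ?_
  refine le_trans ?_ hJQ
  obtain ⟨A, hA⟩ := MA.exists_mem (G := P)
  exact le_sup_right.trans (le_sSup (MA.main hR.1 hA).2.2)

end Step

end Cfsg.Agent.H264.MinNormal
end

-- part: S3008
section
set_option autoImplicit false
open Cfsg

namespace Cfsg.Agent.S3008

open Cfsg.Agent.H264.CD

/-- Let P be a finite p-group, with J(P) generated by its abelian subgroups of largest order and J̃(P) = C_P(Z(J(P))); call R ≤ P centrally large if |R|·|Z(R)| is as large as possible, and let P_MCL be generated by the minimal centrally large subgroups. Then: for every centrally large Q, Q·J(P) ⊇ J̃(P); some minimal centrally large subgroup of P is normalized by both J(P) and P_MCL; if P = J(P) and d(P)² = |P|·|Z(P)|, where d(P) is the largest order of an abelian subgroup, then every minimal centrally large subgroup of P is abelian; and if every minimal centrally large subgroup is abelian then J̃(P) = J(P). -/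
theorem result {p : ℕ} [Fact p.Prime] (P : Type*) [Group P] [Finite P] (hP : IsPGroup p P) : (∀ Q : Subgroup P, Cfsg.IsCentrallyLarge Q → Subgroup.centralizer ((Cfsg.thompsonSubgroupA P ⊓ Subgroup.centralizer (Cfsg.thompsonSubgroupA P : Set P) : Subgroup P) : Set P) ≤ Q ⊔ Cfsg.thompsonSubgroupA P) ∧ (∃ Q : Subgroup P, Cfsg.IsMinimalCentrallyLarge Q ∧ Cfsg.thompsonSubgroupA P ≤ Subgroup.normalizer (Q : Set P) ∧ Cfsg.minimalCentrallyLargeJoin P ≤ Subgroup.normalizer (Q : Set P)) ∧ (Cfsg.thompsonSubgroupA P = ⊤ → (∀ A ∈ Cfsg.maxAbelianSubgroups P, Nat.card ↥A ^ 2 = Nat.card P * Nat.card ↥(Subgroup.center P)) → ∀ Q : Subgroup P, Cfsg.IsMinimalCentrallyLarge Q → IsMulCommutative ↥Q) ∧ ((∀ Q : Subgroup P, Cfsg.IsMinimalCentrallyLarge Q → IsMulCommutative ↥Q) → Subgroup.centralizer ((Cfsg.thompsonSubgroupA P ⊓ Subgroup.centralizer (Cfsg.thompsonSubgroupA P : Set P) : Subgroup P) : Set P) = Cfsg.thompsonSubgroupA P) := by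
  refine ⟨fun Q hQ => thompson_le hQ, Cfsg.Agent.H264.MinNormal.exists_min_normal hP, ?_, ?_⟩
  · intro hJ hd Q hQ
    -- `P` itself is centrally large
    have h1 : IsCentrallyLarge (⊤ : Subgroup P) := by
      have h2 := centralizer_le_of_thompson_le (G := P) isCentrallyLarge_join thompson_le_join
      rw [hJ, top_inf_eq] at h2
      have h3 : Subgroup.centralizer ((Subgroup.centralizer ((⊤ : Subgroup P) : Set P) : Subgroup P) : Set P) = ⊤ := by
        rw [eq_top_iff]
        exact le_cc ⊤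
      rw [h3, top_le_iff] at h2
      rw [← h2]
      exact isCentrallyLarge_join
    obtain ⟨A, hA⟩ := MA.exists_mem (G := P)
    have h2 := ((isCentrallyLarge_iff _).mp h1).1
    unfold IsCentralizerLarge at h2
    rw [Subgroup.coe_top, Subgroup.centralizer_univ] at h2
    have h3 : Nat.card (⊤ : Subgroup P) = Nat.card P := Subgroup.card_top
    rw [h3, ← hd A hA] at h2
    have hAcl : IsCentrallyLarge A := by
      rw [isCentrallyLarge_iff]
      refine ⟨?_, (MA.centralizer_eq hA).le⟩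
      unfold IsCentralizerLarge
      rw [MA.centralizer_eq hA, ← h2, sq]
    obtain ⟨R, hRA, hR⟩ := exists_min_le hAcl
    have hRc : R ≤ Subgroup.centralizer (R : Set P) :=
      hRA.trans ((MA.le_cent hA).trans (Subgroup.centralizer_le (SetLike.coe_subset_coe.mpr hRA)))
    exact ((min_iff_of_comm hR hRc Q).mp hQ).1
  · intro hall
    obtain ⟨Q, hQ⟩ := exists_min (G := P)
    have hQc := (isMulCommutative_iff Q).mp (hall Q hQ)
    have h1 : minimalCentrallyLargeJoin P = thompsonSubgroupA P := by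
      unfold minimalCentrallyLargeJoin thompsonSubgroupA
      congr 1
      ext X
      exact min_iff_of_comm hQ hQc X
    have h2 := isCentrallyLarge_minJoin (G := P)
    rw [h1] at h2
    rw [inf_centralizer_eq h2]
    exact CL.cc ((isCentrallyLarge_iff _).mp h2).1

end Cfsg.Agent.S3008
end
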