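import Cfsg.Agent.H264.FixAtom
import Mathlib.LinearAlgebra.Matrix.SpecialLinearGroup
import Mathlib.Tactic
import Cfsg.Statements.S3009
set_option linter.all false

-- part: H264/NatSL2
section
/-!
# Quadratic irreducible modules of `SL₂(F)` (helper264)

`M` is an irreducible nontrivial module for `SL₂(F)` (any additive group with an action by automorphisms).

* `exists_equiv` : if the upper unitriangular group acts quadratically, then `M` is the natural module `F²`;
* `quad_of_card` : if `F` is finite, `M` a finite `p`-group (`p` the characteristic) and `|M| ≤ |C_M(U)|²`, then the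
  upper unitriangular group `U` acts quadratically.
-/

set_option autoImplicit false
set_option linter.unnecessarySeqFocus false

open scoped Pointwise MatrixGroups

namespace Cfsg.Agent.H264.NatSL2

variable {F : Type*} [Field F]

/-- upper unitriangular -/
def u (s : F) : Matrix.SpecialLinearGroup (Fin 2) F := ⟨!![1, s; 0, 1], by simp [Matrix.det_fin_two]⟩

/-- lower unitriangular -/
def l (s : F) : Matrix.SpecialLinearGroup (Fin 2) F := ⟨!![1, 0; s, 1], by simp [Matrix.det_fin_two]⟩

/-- monomial -/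
def w (s : F) : Matrix.SpecialLinearGroup (Fin 2) F := u s * l (-s⁻¹) * u s

/-- diagonal -/
def h (s : F) : Matrix.SpecialLinearGroup (Fin 2) F := w s * w (-1)

theorem u_coe (s : F) : (u s : Matrix (Fin 2) (Fin 2) F) = !![1, s; 0, 1] := rfl

theorem l_coe (s : F) : (l s : Matrix (Fin 2) (Fin 2) F) = !![1, 0; s, 1] := rfl

theorem u_zero : u (0 : F) = 1 := by
  ext i j
  fin_cases i <;> fin_cases j <;> simp [u]

theorem l_zero : l (0 : F) = 1 := by
  ext i j
  fin_cases i <;> fin_cases j <;> simp [l]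

theorem u_add (s t : F) : u (s + t) = u s * u t := by
  ext i j
  rw [Matrix.SpecialLinearGroup.coe_mul, u_coe, u_coe, u_coe]
  fin_cases i <;> fin_cases j <;> simp [Matrix.mul_apply, Fin.sum_univ_two, add_comm]

theorem l_add (s t : F) : l (s + t) = l s * l t := by
  ext i j
  rw [Matrix.SpecialLinearGroup.coe_mul, l_coe, l_coe, l_coe]
  fin_cases i <;> fin_cases j <;> simp [Matrix.mul_apply, Fin.sum_univ_two]

theorem u_neg (s : F) : u (-s) = (u s)⁻¹ := by
  rw [eq_inv_iff_mul_eq_one, ← u_add, neg_add_cancel, u_zero]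

theorem l_neg (s : F) : l (-s) = (l s)⁻¹ := by
  rw [eq_inv_iff_mul_eq_one, ← l_add, neg_add_cancel, l_zero]

theorem w_coe {s : F} (hs : s ≠ 0) : (w s : Matrix (Fin 2) (Fin 2) F) = !![0, s; -s⁻¹, 0] := by
  ext i j
  rw [w, Matrix.SpecialLinearGroup.coe_mul, Matrix.SpecialLinearGroup.coe_mul, u_coe, l_coe]
  fin_cases i <;> fin_cases j <;> simp [Matrix.mul_apply, Fin.sum_univ_two, hs]

theorem w_eq {s : F} (hs : s ≠ 0) : w s = l (-s⁻¹) * u s * l (-s⁻¹) := by
  ext i j
  rw [w_coe hs, Matrix.SpecialLinearGroup.coe_mul, Matrix.SpecialLinearGroup.coe_mul, u_coe, l_coe]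
  fin_cases i <;> fin_cases j <;> simp [Matrix.mul_apply, Fin.sum_univ_two, hs]

theorem h_coe {s : F} (hs : s ≠ 0) : (h s : Matrix (Fin 2) (Fin 2) F) = !![s, 0; 0, s⁻¹] := by
  ext i j
  rw [h, Matrix.SpecialLinearGroup.coe_mul, w_coe hs, w_coe (neg_ne_zero.mpr one_ne_zero)]
  fin_cases i <;> fin_cases j <;> simp [Matrix.mul_apply, Fin.sum_univ_two]

theorem h_mul {s t : F} (hs : s ≠ 0) (ht : t ≠ 0) : h (s * t) = h s * h t := by
  ext i j
  rw [Matrix.SpecialLinearGroup.coe_mul, h_coe hs, h_coe ht, h_coe (mul_ne_zero hs ht)]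
  fin_cases i <;> fin_cases j <;> simp [Matrix.mul_apply, Fin.sum_univ_two, mul_comm]

theorem u_mul_w {s : F} (hs : s ≠ 0) (t : F) : u t * w s = w s * l (-(s⁻¹ * s⁻¹ * t)) := by
  ext i j
  rw [Matrix.SpecialLinearGroup.coe_mul, Matrix.SpecialLinearGroup.coe_mul, w_coe hs]
  fin_cases i <;> fin_cases j <;> simp [u, l, Matrix.mul_apply, Fin.sum_univ_two] <;> field_simp

theorem l_mul_w {s : F} (hs : s ≠ 0) (t : F) : l t * w s = w s * u (-(s * s * t)) := by
  ext i j
  rw [Matrix.SpecialLinearGroup.coe_mul, Matrix.SpecialLinearGroup.coe_mul, w_coe hs]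
  fin_cases i <;> fin_cases j <;> simp [u, l, Matrix.mul_apply, Fin.sum_univ_two] <;> field_simp

theorem u_mul_h {s : F} (hs : s ≠ 0) (t : F) : u t * h s = h s * u (s⁻¹ * s⁻¹ * t) := by
  ext i j
  rw [Matrix.SpecialLinearGroup.coe_mul, Matrix.SpecialLinearGroup.coe_mul, h_coe hs]
  fin_cases i <;> fin_cases j <;> simp [u, Matrix.mul_apply, Fin.sum_univ_two] <;> field_simp

theorem l_mul_h {s : F} (hs : s ≠ 0) (t : F) : l t * h s = h s * l (s * s * t) := by
  ext i j
  rw [Matrix.SpecialLinearGroup.coe_mul, Matrix.SpecialLinearGroup.coe_mul, h_coe hs]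
  fin_cases i <;> fin_cases j <;> simp [l, Matrix.mul_apply, Fin.sum_univ_two] <;> field_simp

/-- Bruhat/Gauss decomposition -/
theorem decomp (g : Matrix.SpecialLinearGroup (Fin 2) F) :
    (∃ c a b : F, a ≠ 0 ∧ g = l c * h a * u b) ∨ (∃ b d : F, b ≠ 0 ∧ g = w b * u d) := by
  have hdet : (g : Matrix (Fin 2) (Fin 2) F) 0 0 * (g : Matrix (Fin 2) (Fin 2) F) 1 1 -
      (g : Matrix (Fin 2) (Fin 2) F) 0 1 * (g : Matrix (Fin 2) (Fin 2) F) 1 0 = 1 := by
    have := g.2
    rwa [Matrix.det_fin_two] at this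
  set a := (g : Matrix (Fin 2) (Fin 2) F) 0 0 with ha
  set b := (g : Matrix (Fin 2) (Fin 2) F) 0 1 with hb
  set c := (g : Matrix (Fin 2) (Fin 2) F) 1 0 with hc
  set d := (g : Matrix (Fin 2) (Fin 2) F) 1 1 with hd
  have hg : (g : Matrix (Fin 2) (Fin 2) F) = !![a, b; c, d] := by
    ext i j
    fin_cases i <;> fin_cases j <;> rfl
  by_cases ha0 : a = 0
  · right
    have hbc : -(b * c) = 1 := by rw [ha0] at hdet; linear_combination hdet
    have hb0 : b ≠ 0 := by
      rintro h0
      rw [h0] at hbc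
      simp at hbc
    refine ⟨b, -(b * d), hb0, ?_⟩
    have hc' : c = -b⁻¹ := by
      field_simp
      linear_combination -hbc
    ext i j
    rw [Matrix.SpecialLinearGroup.coe_mul, w_coe hb0, hg]
    fin_cases i <;> fin_cases j <;> simp [u, Matrix.mul_apply, Fin.sum_univ_two, ha0, hc', hb0]
  · left
    refine ⟨c / a, a, b / a, ha0, ?_⟩
    have hd' : d = (1 + b * c) / a := by
      field_simp
      linear_combination hdet
    ext i j
    rw [Matrix.SpecialLinearGroup.coe_mul, Matrix.SpecialLinearGroup.coe_mul, h_coe ha0, hg]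
    fin_cases i <;> fin_cases j <;> simp [u, l, Matrix.mul_apply, Fin.sum_univ_two, hd'] <;> field_simp
    ring

/-- induction principle: `SL₂(F)` is generated by the elements `u s`, `l s` -/
theorem induct {q : Matrix.SpecialLinearGroup (Fin 2) F → Prop} (hu : ∀ s, q (u s)) (hl : ∀ s, q (l s))
    (hm : ∀ g g', q g → q g' → q (g * g')) (g : Matrix.SpecialLinearGroup (Fin 2) F) : q g := by
  have hw : ∀ s, q (w s) := fun s => hm _ _ (hm _ _ (hu s) (hl _)) (hu s)
  have hh : ∀ s, q (h s) := fun s => hm _ _ (hw s) (hw _)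
  rcases decomp g with ⟨c, a, b, -, rfl⟩ | ⟨b, d, -, rfl⟩
  · exact hm _ _ (hm _ _ (hl c) (hh a)) (hu b)
  · exact hm _ _ (hw b) (hu d)

section Module

variable {M : Type*} [AddCommGroup M] [DistribMulAction (Matrix.SpecialLinearGroup (Fin 2) F) M]

/-- `C_M(U)` -/
def VA (F : Type*) [Field F] (M : Type*) [AddCommGroup M] [DistribMulAction (Matrix.SpecialLinearGroup (Fin 2) F) M] :
    AddSubgroup M where
  carrier := {m | ∀ s : F, u s • m = m}
  zero_mem' := fun s => smul_zero _
  add_mem' := fun {x y} hx hy s => by rw [smul_add, hx s, hy s]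
  neg_mem' := fun {x} hx s => by rw [smul_neg, hx s]

/-- `C_M(U⁻)` -/
def VB (F : Type*) [Field F] (M : Type*) [AddCommGroup M] [DistribMulAction (Matrix.SpecialLinearGroup (Fin 2) F) M] :
    AddSubgroup M where
  carrier := {m | ∀ s : F, l s • m = m}
  zero_mem' := fun s => smul_zero _
  add_mem' := fun {x y} hx hy s => by rw [smul_add, hx s, hy s]
  neg_mem' := fun {x} hx s => by rw [smul_neg, hx s]

theorem mem_VA {m : M} : m ∈ VA F M ↔ ∀ s : F, u s • m = m := Iff.rfl
theorem mem_VB {m : M} : m ∈ VB F M ↔ ∀ s : F, l s • m = m := Iff.rfl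

/-- irreducible and nontrivial -/
structure Irr (F : Type*) [Field F] (M : Type*) [AddCommGroup M]
    [DistribMulAction (Matrix.SpecialLinearGroup (Fin 2) F) M] : Prop where
  irr : ∀ U : AddSubgroup M, (∀ g : Matrix.SpecialLinearGroup (Fin 2) F, ∀ x ∈ U, g • x ∈ U) → U = ⊥ ∨ U = ⊤
  nt : ∃ (g : Matrix.SpecialLinearGroup (Fin 2) F) (m : M), g • m ≠ m

theorem w_VB {s : F} (hs : s ≠ 0) {m : M} (hm : m ∈ VB F M) : w s • m ∈ VA F M := by
  intro t
  rw [smul_smul, u_mul_w hs, mul_smul, hm]

theorem w_VA {s : F} (hs : s ≠ 0) {m : M} (hm : m ∈ VA F M) : w s • m ∈ VB F M := by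
  intro t
  rw [smul_smul, l_mul_w hs, mul_smul, hm]

theorem h_VA {s : F} (hs : s ≠ 0) {m : M} (hm : m ∈ VA F M) : h s • m ∈ VA F M := by
  intro t
  rw [smul_smul, u_mul_h hs, mul_smul, hm]

theorem h_VB {s : F} (hs : s ≠ 0) {m : M} (hm : m ∈ VB F M) : h s • m ∈ VB F M := by
  intro t
  rw [smul_smul, l_mul_h hs, mul_smul, hm]

theorem inf_eq_bot (hI : Irr F M) : VA F M ⊓ VB F M = ⊥ := by
  have key : ∀ g : Matrix.SpecialLinearGroup (Fin 2) F, ∀ x ∈ VA F M ⊓ VB F M, g • x = x := by
    intro g
    induction g using induct with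
    | hu s => exact fun x hx => (AddSubgroup.mem_inf.mp hx).1 s
    | hl s => exact fun x hx => (AddSubgroup.mem_inf.mp hx).2 s
    | hm g g' hg hg' =>
      intro x hx
      rw [mul_smul, hg' x hx, hg x hx]
  rcases hI.irr (VA F M ⊓ VB F M) (fun g x hx => by rw [key g x hx]; exact hx) with h1 | h1
  · exact h1
  · exfalso
    obtain ⟨g, m, hgm⟩ := hI.nt
    exact hgm (key g m (by rw [h1]; trivial))

/-- uniqueness of the decomposition -/
theorem eq_of_add_eq (hI : Irr F M) {a a' b b' : M} (ha : a ∈ VA F M) (ha' : a' ∈ VA F M) (hb : b ∈ VB F M)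
    (hb' : b' ∈ VB F M) (h : a + b = a' + b') : a = a' ∧ b = b' := by
  have h1 : a - a' = b' - b := by
    rw [sub_eq_sub_iff_add_eq_add, h, add_comm]
  have h2 : a - a' ∈ VA F M ⊓ VB F M := AddSubgroup.mem_inf.mpr
    ⟨sub_mem ha ha', by rw [h1]; exact sub_mem hb' hb⟩
  rw [inf_eq_bot hI, AddSubgroup.mem_bot] at h2
  refine ⟨sub_eq_zero.mp h2, ?_⟩
  rw [h2] at h1
  exact (sub_eq_zero.mp h1.symm).symm

/-- quadratic action of `U` -/
def Quad (F : Type*) [Field F] (M : Type*) [AddCommGroup M]
    [DistribMulAction (Matrix.SpecialLinearGroup (Fin 2) F) M] : Prop :=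
  ∀ (s : F) (m : M), u s • m - m ∈ VA F M

theorem quadB (hq : Quad F M) (s : F) (m : M) : l s • m - m ∈ VB F M := by
  have h1 : (1 : F) ≠ 0 := one_ne_zero
  -- `l s = w 1 * u (-s) * (w 1)⁻¹`
  have h2 : l s * w 1 = w 1 * u (-s) := by
    have := l_mul_w h1 s
    simpa using this
  have h3 := w_VA h1 (hq (-s) ((w (1 : F))⁻¹ • m))
  rw [smul_sub, smul_inv_smul, smul_smul, ← h2, mul_smul, smul_inv_smul] at h3
  exact h3

variable (hI : Irr F M) (hq : Quad F M)

include hI hq in
theorem sup_eq_top : VA F M ⊔ VB F M = ⊤ := by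
  let U : AddSubgroup M := AddSubgroup.closure
    ({x | ∃ (s : F) (m : M), x = u s • m - m} ∪ {x | ∃ (s : F) (m : M), x = l s • m - m})
  have hU : U ≤ VA F M ⊔ VB F M := by
    rw [AddSubgroup.closure_le]
    rintro x (⟨s, m, rfl⟩ | ⟨s, m, rfl⟩)
    · exact AddSubgroup.mem_sup_left (hq s m)
    · exact AddSubgroup.mem_sup_right (quadB hq s m)
  have hmu : ∀ s (m : M), u s • m - m ∈ U := fun s m => AddSubgroup.subset_closure (Or.inl ⟨s, m, rfl⟩)
  have hml : ∀ s (m : M), l s • m - m ∈ U := fun s m => AddSubgroup.subset_closure (Or.inr ⟨s, m, rfl⟩)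
  have hinv : ∀ g : Matrix.SpecialLinearGroup (Fin 2) F, ∀ x ∈ U, g • x ∈ U := by
    intro g
    induction g using induct with
    | hu s =>
      intro x hx
      have : u s • x = (u s • x - x) + x := by abel
      rw [this]
      exact add_mem (hmu s x) hx
    | hl s =>
      intro x hx
      have : l s • x = (l s • x - x) + x := by abel
      rw [this]
      exact add_mem (hml s x) hx
    | hm g g' hg hg' =>
      intro x hx
      rw [mul_smul]
      exact hg _ (hg' x hx)
  rcases hI.irr U hinv with h1 | h1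
  · exfalso
    obtain ⟨g, m, hgm⟩ := hI.nt
    have key : ∀ (g : Matrix.SpecialLinearGroup (Fin 2) F) (m : M), g • m = m := by
      intro g
      induction g using induct with
      | hu s =>
        intro m
        have := hmu s m
        rw [h1, AddSubgroup.mem_bot] at this
        exact sub_eq_zero.mp this
      | hl s =>
        intro m
        have := hml s m
        rw [h1, AddSubgroup.mem_bot] at this
        exact sub_eq_zero.mp this
      | hm g g' hg hg' =>
        intro m
        rw [mul_smul, hg', hg]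
    exact hgm (key g m)
  · rw [eq_top_iff, ← h1]
    exact hU

/-- `α(s) m = u(s) m - m` -/
def al (s : F) : M →+ M where
  toFun m := u s • m - m
  map_zero' := by simp
  map_add' x y := by rw [smul_add]; abel

/-- `β(s) m = l(s) m - m` -/
def be (s : F) : M →+ M where
  toFun m := l s • m - m
  map_zero' := by simp
  map_add' x y := by rw [smul_add]; abel

theorem al_apply (s : F) (m : M) : al s m = u s • m - m := rfl
theorem be_apply (s : F) (m : M) : be s m = l s • m - m := rfl
theorem u_smul (s : F) (m : M) : u s • m = m + al s m := by rw [al_apply]; abel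
theorem l_smul (s : F) (m : M) : l s • m = m + be s m := by rw [be_apply]; abel

theorem al_VA {s : F} {m : M} (hm : m ∈ VA F M) : al s m = 0 := by rw [al_apply, hm s, sub_self]
theorem be_VB {s : F} {m : M} (hm : m ∈ VB F M) : be s m = 0 := by rw [be_apply, hm s, sub_self]

include hq in
theorem al_mem (s : F) (m : M) : al s m ∈ VA F M := hq s m

include hq in
theorem be_mem (s : F) (m : M) : be s m ∈ VB F M := quadB hq s m

include hq in
theorem al_add (s t : F) (m : M) : al (s + t) m = al s m + al t m := by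
  have h1 : u s • (al t m) = al t m := al_mem hq t m s
  rw [al_apply, u_add, mul_smul, u_smul t m, smul_add, h1, u_smul s m]
  abel

include hq in
theorem be_add (s t : F) (m : M) : be (s + t) m = be s m + be t m := by
  have h1 : l s • (be t m) = be t m := be_mem hq t m s
  rw [be_apply, l_add, mul_smul, l_smul t m, smul_add, h1, l_smul s m]
  abel

theorem al_zero (m : M) : al (0 : F) m = 0 := by rw [al_apply, u_zero, one_smul, sub_self]
theorem be_zero (m : M) : be (0 : F) m = 0 := by rw [be_apply, l_zero, one_smul, sub_self]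

include hq in
theorem al_neg (s : F) (m : M) : al (-s) m = -al s m := by
  have := al_add hq (-s) s m
  rw [neg_add_cancel, al_zero] at this
  exact eq_neg_of_add_eq_zero_left this.symm

include hq in
theorem be_neg (s : F) (m : M) : be (-s) m = -be s m := by
  have := be_add hq (-s) s m
  rw [neg_add_cancel, be_zero] at this
  exact eq_neg_of_add_eq_zero_left this.symm

include hI hq in
/-- the action of `w(s)` on `C_M(U⁻)` -/
theorem w_on_VB {s : F} (hs : s ≠ 0) {b : M} (hb : b ∈ VB F M) :
    be s⁻¹ (al s b) = b ∧ w s • b = al s b := by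
  have hb' := w_VB hs hb
  set b' := w s • b with hb'def
  have h1 : l (-s⁻¹) • u s • b = b' := by
    have h2 : u (-s) • b' = b' := hb' (-s)
    rw [← h2, hb'def, w, smul_smul, smul_smul]
    congr 1
    rw [u_neg]
    group
  have h3 : u s • b = l s⁻¹ • b' := by
    rw [← h1, smul_smul, smul_smul, l_neg]
    congr 1
    group
  rw [u_smul, l_smul, add_comm] at h3
  obtain ⟨h4, h5⟩ := eq_of_add_eq hI (al_mem hq s b) hb' hb (be_mem hq _ _) h3
  refine ⟨?_, h4.symm⟩
  rw [h4, ← h5]

include hI hq in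
/-- the action of `w(s)` on `C_M(U)` -/
theorem w_on_VA {s : F} (hs : s ≠ 0) {a : M} (ha : a ∈ VA F M) :
    al s (be s⁻¹ a) = a ∧ w s • a = -be s⁻¹ a := by
  have ha' := w_VA hs ha
  set a' := w s • a with ha'def
  have h1 : u s • l (-s⁻¹) • a = a' := by
    have h2 : l s⁻¹ • a' = a' := ha' _
    rw [← h2, ha'def, w_eq hs, smul_smul, smul_smul, l_neg]
    congr 1
    group
  have h3 : l (-s⁻¹) • a = u (-s) • a' := by
    rw [← h1, smul_smul, smul_smul, u_neg]
    congr 1
    group
  rw [u_smul, l_smul, add_comm a'] at h3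
  obtain ⟨h4, h5⟩ := eq_of_add_eq hI ha (al_mem hq _ _) (be_mem hq _ _) ha' h3
  rw [be_neg hq] at h5
  refine ⟨?_, h5.symm⟩
  have h6 : al (-s) a' = a := h4.symm
  rw [← h5, al_neg hq, map_neg, neg_neg] at h6
  exact h6

include hI hq in
/-- the torus on `C_M(U)` -/
theorem h_on_VA {s : F} (hs : s ≠ 0) {a : M} (ha : a ∈ VA F M) : h s • a = al s (be (1 : F) a) := by
  have h1 : w (-1 : F) • a = be (1 : F) a := by
    have := (w_on_VA hI hq (s := (-1 : F)) (neg_ne_zero.mpr one_ne_zero) ha).2
    rw [this]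
    have h2 : (-1 : F)⁻¹ = -1 := by norm_num
    rw [h2, be_neg hq, neg_neg]
  rw [h, mul_smul, h1]
  exact (w_on_VB hI hq hs (be_mem hq (1 : F) a)).2

/-- the coordinates -/
def coord (b₀ : M) (hq : Quad F M) : (Fin 2 → F) →+ M where
  toFun v := al (v 0) b₀ + be (1 : F) (al (v 1) b₀)
  map_zero' := by
    rw [Pi.zero_apply, Pi.zero_apply, al_zero, map_zero, add_zero]
  map_add' v v' := by
    rw [Pi.add_apply, Pi.add_apply, al_add hq, al_add hq, map_add]
    abel

include hI hq in
/-- **a quadratic irreducible nontrivial module is natural** -/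
theorem exists_equiv : ∃ φ : (Fin 2 → F) →+ M, Function.Bijective φ ∧
    ∀ (g : Matrix.SpecialLinearGroup (Fin 2) F) (v : Fin 2 → F),
      φ ((g : Matrix (Fin 2) (Fin 2) F).mulVec v) = g • φ v := by
  have h10 : (1 : F) ≠ 0 := one_ne_zero
  -- `C_M(U) ≠ 0`
  have hVA : VA F M ≠ ⊥ := by
    intro hbot
    have hVB : VB F M = ⊥ := by
      rw [eq_bot_iff]
      intro x hx
      have h1 := w_VB h10 hx
      rw [hbot, AddSubgroup.mem_bot] at h1
      rw [AddSubgroup.mem_bot]
      have := congrArg (fun y => (w (1 : F))⁻¹ • y) h1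
      simpa using this
    have h2 := sup_eq_top hI hq
    rw [hbot, hVB, sup_bot_eq] at h2
    obtain ⟨g, m, hgm⟩ := hI.nt
    have h3 : ∀ x : M, x = 0 := by
      intro x
      have : x ∈ (⊤ : AddSubgroup M) := trivial
      rwa [← h2, AddSubgroup.mem_bot] at this
    exact hgm (by rw [h3 (g • m), h3 m])
  obtain ⟨a₀, ha₀, ha₀0⟩ := FixAtom.exists_ne hVA
  set b₀ := be (1 : F) a₀ with hb₀
  have hb₀B : b₀ ∈ VB F M := be_mem hq (1 : F) a₀
  have hal1 : al (1 : F) b₀ = a₀ := by
    have := (w_on_VA hI hq h10 ha₀).1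
    rwa [inv_one] at this
  -- K3
  have K3 : ∀ s y : F, al s (be (1 : F) (al y b₀)) = al (s * y) b₀ := by
    intro s y
    by_cases hs : s = 0
    · rw [hs, zero_mul, al_zero, al_zero]
    by_cases hy : y = 0
    · rw [hy, mul_zero, al_zero, map_zero, map_zero]
    · have h1 := h_on_VA hI hq hs (al_mem hq y b₀)
      rw [← h1]
      have h2 := h_on_VA hI hq hy ha₀
      rw [← hb₀] at h2
      rw [← h2, smul_smul, ← h_mul hs hy, h_on_VA hI hq (mul_ne_zero hs hy) ha₀]
  -- K4
  have K4 : ∀ s x : F, be s (al x b₀) = be (1 : F) (al (s * x) b₀) := by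
    intro s x
    by_cases hs : s = 0
    · rw [hs, zero_mul, be_zero, al_zero, map_zero]
    have hc : be (1 : F) (al (s * x) b₀) ∈ VB F M := be_mem hq _ _
    have h1 := (w_on_VB hI hq (inv_ne_zero hs) hc).1
    rw [inv_inv, K3, ← mul_assoc, inv_mul_cancel₀ hs, one_mul] at h1
    exact h1
  let φ := coord b₀ hq
  have hφ : ∀ v, φ v = al (v 0) b₀ + be (1 : F) (al (v 1) b₀) := fun v => rfl
  have hequiv : ∀ (g : Matrix.SpecialLinearGroup (Fin 2) F) (v : Fin 2 → F),
      φ ((g : Matrix (Fin 2) (Fin 2) F).mulVec v) = g • φ v := by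
    intro g
    induction g using induct with
    | hu s =>
      intro v
      rw [hφ, hφ, u_smul, map_add, al_VA (al_mem hq _ _), zero_add, K3]
      have e0 : (u s : Matrix (Fin 2) (Fin 2) F).mulVec v 0 = v 0 + s * v 1 := by
        rw [u_coe]; simp [Matrix.mulVec, dotProduct, Fin.sum_univ_two]
      have e1 : (u s : Matrix (Fin 2) (Fin 2) F).mulVec v 1 = v 1 := by
        rw [u_coe]; simp [Matrix.mulVec, dotProduct, Fin.sum_univ_two]
      rw [e0, e1, al_add hq]
      abel
    | hl s =>
      intro v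
      rw [hφ, hφ, l_smul, map_add, be_VB (be_mem hq (1 : F) _), add_zero, K4 s]
      have e0 : (l s : Matrix (Fin 2) (Fin 2) F).mulVec v 0 = v 0 := by
        rw [l_coe]; simp [Matrix.mulVec, dotProduct, Fin.sum_univ_two]
      have e1 : (l s : Matrix (Fin 2) (Fin 2) F).mulVec v 1 = s * v 0 + v 1 := by
        rw [l_coe]; simp [Matrix.mulVec, dotProduct, Fin.sum_univ_two]
      rw [e0, e1, al_add hq, map_add]
      abel
    | hm g g' hg hg' =>
      intro v
      rw [Matrix.SpecialLinearGroup.coe_mul, ← Matrix.mulVec_mulVec, hg, hg', mul_smul]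
  refine ⟨φ, ⟨?_, ?_⟩, hequiv⟩
  · rw [injective_iff_map_eq_zero]
    intro v hv
    rw [hφ] at hv
    have h1 : al (v 0) b₀ + be (1 : F) (al (v 1) b₀) = 0 + 0 := by rw [hv, add_zero]
    obtain ⟨h2, h3⟩ := eq_of_add_eq hI (al_mem hq _ _) (zero_mem _) (be_mem hq _ _) (zero_mem _) h1
    have h4 : ∀ x : F, al x b₀ = 0 → x = 0 := by
      intro x hx
      by_contra hne
      have h5 := (w_on_VB hI hq hne hb₀B).1
      rw [hx, map_zero] at h5
      rw [← h5, map_zero] at hal1
      exact ha₀0 hal1.symm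
    have h5 : al (v 1) b₀ = 0 := by
      have h6 := (w_on_VA hI hq h10 (al_mem hq (v 1) b₀)).1
      rw [inv_one, h3, map_zero] at h6
      exact h6.symm
    funext i
    fin_cases i
    · exact h4 _ h2
    · exact h4 _ h5
  · have hr : φ.range = ⊤ := by
      rcases hI.irr φ.range (by
        rintro g _ ⟨v, rfl⟩
        exact ⟨_, hequiv g v⟩) with h1 | h1
      · exfalso
        have h2 : a₀ ∈ φ.range := ⟨![1, 0], by
          rw [hφ]
          simp only [Matrix.cons_val_zero, Matrix.cons_val_one]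
          rw [al_zero, map_zero, add_zero, hal1]⟩
        rw [h1, AddSubgroup.mem_bot] at h2
        exact ha₀0 h2
      · exact h1
    exact AddMonoidHom.range_eq_top.mp hr

/-- quadratic action of `U⁻` gives quadratic action of `U` -/
theorem quad_of_B (h : ∀ (s : F) (m : M), l s • m - m ∈ VB F M) : Quad F M := by
  intro s m
  have h1 : (1 : F) ≠ 0 := one_ne_zero
  have h2 : u s * w 1 = w 1 * l (-s) := by
    have := u_mul_w h1 s
    simpa using this
  have h3 := w_VB h1 (h (-s) ((w (1 : F))⁻¹ • m))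
  rw [smul_sub, smul_inv_smul, smul_smul, ← h2, mul_smul, smul_inv_smul] at h3
  exact h3

theorem card_VB_eq : Nat.card (VB F M) = Nat.card (VA F M) := by
  have h1 : (1 : F) ≠ 0 := one_ne_zero
  refine Nat.card_congr (Equiv.ofBijective (fun x : VB F M => (⟨w (1 : F) • (x : M), w_VB h1 x.2⟩ : VA F M)) ⟨?_, ?_⟩)
  · intro x y hxy
    exact Subtype.ext (smul_left_cancel _ (congrArg Subtype.val hxy))
  · rintro ⟨x, hx⟩
    have h2 : w (-1 : F) • x ∈ VB F M := w_VA (neg_ne_zero.mpr h1) hx
    refine ⟨⟨_, h2⟩, Subtype.ext ?_⟩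
    change w (1 : F) • w (-1 : F) • x = x
    rw [smul_smul]
    have h3 : w (1 : F) * w (-1) = 1 := by
      have h4 : h (1 : F) = 1 := by
        ext i j
        rw [h_coe h1]
        fin_cases i <;> fin_cases j <;> simp
      rw [h] at h4
      exact h4
    rw [h3, one_smul]

include hI in
/-- **`|M| ≤ |C_M(U)|²` forces quadratic action** -/
theorem quad_of_card {p : ℕ} [Fact p.Prime] [Finite M] [Finite F] (hF : ∃ n, Nat.card F = p ^ n)
    (hM : ∃ n, Nat.card M = p ^ n) (hc : Nat.card M ≤ Nat.card (VA F M) ^ 2) : Quad F M := by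
  -- `M = C_M(U) ⊕ C_M(U⁻)`
  have hsum : VA F M ⊔ VB F M = ⊤ := by
    have hinj : Function.Injective (fun x : VA F M × VB F M => (x.1 : M) + (x.2 : M)) := by
      rintro ⟨a, b⟩ ⟨a', b'⟩ hab
      obtain ⟨h1, h2⟩ := eq_of_add_eq hI a.2 a'.2 b.2 b'.2 hab
      exact Prod.ext (Subtype.ext h1) (Subtype.ext h2)
    have hbij := hinj.bijective_of_nat_card_le (by rw [Nat.card_prod, card_VB_eq, ← sq]; exact hc)
    rw [eq_top_iff]
    intro x _
    obtain ⟨⟨a, b⟩, rfl⟩ := hbij.2 x
    exact add_mem (AddSubgroup.mem_sup_left a.2) (AddSubgroup.mem_sup_right b.2)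
  have hdec : ∀ m : M, ∃ a ∈ VA F M, ∃ b ∈ VB F M, a + b = m := by
    intro m
    have : m ∈ VA F M ⊔ VB F M := by rw [hsum]; trivial
    exact AddSubgroup.mem_sup.mp this
  let W : AddSubgroup M :=
    { carrier := {a | a ∈ VA F M ∧ ∀ s : F, l s • a - a ∈ VB F M}
      zero_mem' := ⟨zero_mem _, fun s => by rw [smul_zero, sub_zero]; exact zero_mem _⟩
      add_mem' := by
        rintro x y ⟨hx, hx'⟩ ⟨hy, hy'⟩
        refine ⟨add_mem hx hy, fun s => ?_⟩
        have : l s • (x + y) - (x + y) = (l s • x - x) + (l s • y - y) := by rw [smul_add]; abel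
        rw [this]
        exact add_mem (hx' s) (hy' s)
      neg_mem' := by
        rintro x ⟨hx, hx'⟩
        refine ⟨neg_mem hx, fun s => ?_⟩
        have : l s • (-x) - (-x) = -(l s • x - x) := by rw [smul_neg]; abel
        rw [this]
        exact neg_mem (hx' s) }
  have hWmem : ∀ x, x ∈ W ↔ x ∈ VA F M ∧ ∀ s : F, l s • x - x ∈ VB F M := fun x => Iff.rfl
  -- `W ≠ 0`
  have hVBtop : VB F M ≠ ⊤ := by
    intro htop
    have h1 := inf_eq_bot hI
    rw [htop, inf_top_eq] at h1
    have h2 := card_VB_eq (F := F) (M := M)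
    rw [htop, h1, AddSubgroup.card_bot, AddSubgroup.card_top] at h2
    obtain ⟨g, m, hgm⟩ := hI.nt
    have := (Nat.card_eq_one_iff_unique.mp h2).1
    exact hgm (Subsingleton.elim _ _)
  have hW : W ≠ ⊥ := by
    let _ : MulAction (Multiplicative F) (M ⧸ VB F M) :=
      { smul := fun s x => Quotient.map' (fun m : M => l s.toAdd • m) (by
          intro a b hab
          rw [QuotientAddGroup.leftRel_apply] at hab ⊢
          have : -(l s.toAdd • a) + l s.toAdd • b = l s.toAdd • (-a + b) := by rw [smul_add, smul_neg]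
          change -(l s.toAdd • a) + l s.toAdd • b ∈ _
          rw [this, hab]
          exact hab) x
        one_smul := by
          intro x
          induction x using QuotientAddGroup.induction_on with
          | H m =>
            change ((l (0 : F) • m : M) : M ⧸ VB F M) = m
            rw [l_zero, one_smul]
        mul_smul := by
          intro s t x
          induction x using QuotientAddGroup.induction_on with
          | H m =>
            change ((l (s.toAdd + t.toAdd) • m : M) : M ⧸ VB F M) = ((l s.toAdd • l t.toAdd • m : M) : M ⧸ VB F M)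
            rw [l_add, mul_smul] }
    have hsm : ∀ (s : Multiplicative F) (m : M), s • (m : M ⧸ VB F M) = ((l s.toAdd • m : M) : M ⧸ VB F M) :=
      fun _ _ => rfl
    have hpg : IsPGroup p (Multiplicative F) := by
      obtain ⟨n, hn⟩ := hF
      exact IsPGroup.of_card (n := n) (by rw [← hn]; rfl)
    have hdvd : p ∣ Nat.card (M ⧸ VB F M) := by
      obtain ⟨n, hn⟩ := hM
      have h1 : Nat.card (M ⧸ VB F M) ∣ p ^ n := hn ▸ AddSubgroup.card_quotient_dvd_card _
      obtain ⟨k, -, hk⟩ := (Nat.dvd_prime_pow Fact.out).mp h1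
      rw [hk]
      refine dvd_pow_self p ?_
      rintro rfl
      rw [pow_zero] at hk
      exact hVBtop (AddSubgroup.index_eq_one.mp hk)
    have h0 : (0 : M ⧸ VB F M) ∈ MulAction.fixedPoints (Multiplicative F) (M ⧸ VB F M) := by
      intro s
      change s • (((0 : M) : M ⧸ VB F M)) = ((0 : M) : M ⧸ VB F M)
      rw [hsm, smul_zero]
    obtain ⟨x, hx, hx0⟩ := hpg.exists_fixed_point_of_prime_dvd_card_of_fixed_point _ hdvd h0
    induction x using QuotientAddGroup.induction_on with
    | H m =>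
      obtain ⟨a, ha, b, hb, rfl⟩ := hdec m
      have haW : a ∈ W := by
        refine (hWmem a).mpr ⟨ha, fun s => ?_⟩
        have h1 := hx (Multiplicative.ofAdd s)
        rw [hsm, QuotientAddGroup.eq] at h1
        have h2 : l s • a - a = -(-(l s • (a + b)) + (a + b)) := by
          rw [smul_add, hb s]
          abel
        rw [h2]
        exact neg_mem h1
      intro hbot
      rw [hbot, AddSubgroup.mem_bot] at haW
      apply hx0
      rw [haW, zero_add]
      exact ((QuotientAddGroup.eq_zero_iff b).mpr hb).symm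
  -- `M = W + C_M(U⁻)`
  have hWh : ∀ {s : F}, s ≠ 0 → ∀ x ∈ W, h s • x ∈ W := by
    intro s hs x hx
    obtain ⟨hx1, hx2⟩ := (hWmem x).mp hx
    refine (hWmem _).mpr ⟨h_VA hs hx1, fun t => ?_⟩
    have : l t • h s • x - h s • x = h s • (l (s * s * t) • x - x) := by
      rw [smul_sub, smul_smul, l_mul_h hs, mul_smul]
    rw [this]
    exact h_VB hs (hx2 _)
  have hgW : ∀ (g : Matrix.SpecialLinearGroup (Fin 2) F), ∀ x ∈ W, g • x ∈ W ⊔ VB F M := by
    intro g x hx
    obtain ⟨hx1, hx2⟩ := (hWmem x).mp hx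
    rcases decomp g with ⟨c, a, b, ha, rfl⟩ | ⟨b, d, hb, rfl⟩
    · rw [mul_smul, mul_smul, hx1 b]
      have h1 := hWh ha x hx
      have h2 : l c • h a • x = h a • x + (l c • h a • x - h a • x) := by abel
      rw [h2]
      exact add_mem (AddSubgroup.mem_sup_left h1) (AddSubgroup.mem_sup_right (((hWmem _).mp h1).2 c))
    · rw [mul_smul, hx1 d]
      exact AddSubgroup.mem_sup_right (w_VA hb hx1)
  let U : AddSubgroup M := AddSubgroup.closure
    {y | ∃ (g : Matrix.SpecialLinearGroup (Fin 2) F) (x : M), x ∈ W ∧ y = g • x}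
  have hUle : U ≤ W ⊔ VB F M := by
    rw [AddSubgroup.closure_le]
    rintro y ⟨g, x, hx, rfl⟩
    exact hgW g x hx
  have hUtop : U = ⊤ := by
    rcases hI.irr U (by
      intro g x hx
      induction hx using AddSubgroup.closure_induction with
      | mem y hy =>
        obtain ⟨g', x, hx, rfl⟩ := hy
        exact AddSubgroup.subset_closure ⟨g * g', x, hx, by rw [mul_smul]⟩
      | zero => rw [smul_zero]; exact zero_mem _
      | add y z _ _ hy hz => rw [smul_add]; exact add_mem hy hz
      | neg y _ hy => rw [smul_neg]; exact neg_mem hy) with h1 | h1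
    · exfalso
      apply hW
      rw [eq_bot_iff, ← h1]
      intro x hx
      exact AddSubgroup.subset_closure ⟨1, x, hx, by rw [one_smul]⟩
    · exact h1
  have hVAW : ∀ a ∈ VA F M, a ∈ W := by
    intro a ha
    have h1 : a ∈ W ⊔ VB F M := hUle (by rw [hUtop]; trivial)
    obtain ⟨x, hx, b, hb, hxb⟩ := AddSubgroup.mem_sup.mp h1
    have h2 : a + 0 = x + b := by rw [add_zero, hxb]
    obtain ⟨h3, -⟩ := eq_of_add_eq hI ha ((hWmem x).mp hx).1 (zero_mem _) hb h2
    rw [h3]
    exact hx
  apply quad_of_B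
  intro s m
  obtain ⟨a, ha, b, hb, rfl⟩ := hdec m
  have : l s • (a + b) - (a + b) = l s • a - a := by
    rw [smul_add, hb s]
    abel
  rw [this]
  exact ((hWmem a).mp (hVAW a ha)).2 s

end Module

end Cfsg.Agent.H264.NatSL2
end

-- part: S3009
section
set_option autoImplicit false
set_option linter.style.haveILetI false
open Cfsg

namespace Cfsg.Agent.S3009

open Cfsg.Agent.H264.NatSL2

section Aux

variable {X : Type*} [Group X] (G V : Subgroup X) {F : Type*} [Field F]

/-- the commutative group structure -/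
@[reducible] def cgV (hV : IsMulCommutative ↥V) : CommGroup ↥V :=
  { (inferInstance : Group ↥V) with mul_comm := hV.is_comm.comm }

/-- the action of `SL₂(F)` on the module -/
@[reducible] def actV (hV : IsMulCommutative ↥V) (hGV : G ≤ Subgroup.normalizer (V : Set X))
    (e : ↥G ≃* Matrix.SpecialLinearGroup (Fin 2) F) :
    letI := cgV V hV
    DistribMulAction (Matrix.SpecialLinearGroup (Fin 2) F) (Additive ↥V) :=
  letI := cgV V hV
  { smul := fun g m => Additive.ofMul ⟨(e.symm g : X) * m.toMul * (e.symm g : X)⁻¹,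
      (Subgroup.mem_normalizer_iff.mp (hGV (e.symm g).2) _).mp m.toMul.2⟩
    one_smul := by
      intro m
      refine Additive.toMul.injective (Subtype.ext ?_)
      change (e.symm 1 : X) * m.toMul * (e.symm 1 : X)⁻¹ = m.toMul
      simp
    mul_smul := by
      intro g h m
      refine Additive.toMul.injective (Subtype.ext ?_)
      change (e.symm (g * h) : X) * m.toMul * (e.symm (g * h) : X)⁻¹ =
        (e.symm g : X) * ((e.symm h : X) * m.toMul * (e.symm h : X)⁻¹) * (e.symm g : X)⁻¹
      rw [map_mul, Subgroup.coe_mul]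
      group
    smul_zero := by
      intro g
      refine Additive.toMul.injective (Subtype.ext ?_)
      change (e.symm g : X) * ((1 : ↥V) : X) * (e.symm g : X)⁻¹ = ((1 : ↥V) : X)
      simp
    smul_add := by
      intro g x y
      refine Additive.toMul.injective (Subtype.ext ?_)
      change (e.symm g : X) * ((x.toMul * y.toMul : ↥V) : X) * (e.symm g : X)⁻¹ =
        ((e.symm g : X) * x.toMul * (e.symm g : X)⁻¹) * ((e.symm g : X) * y.toMul * (e.symm g : X)⁻¹)
      rw [Subgroup.coe_mul]
      group }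

open scoped Pointwise in
/-- an isomorphism under which the upper unitriangular group corresponds to a subgroup of a given Sylow subgroup -/
theorem exists_iso {G : Type*} [Group G] [Finite G] {p : ℕ} [Fact p.Prime] {F : Type*} [Field F] [Fintype F] {n : ℕ}
    (hF : Fintype.card F = p ^ n) (hG : Nonempty (G ≃* Matrix.SpecialLinearGroup (Fin 2) F)) (S : Sylow p G) :
    ∃ e : G ≃* Matrix.SpecialLinearGroup (Fin 2) F, ∀ s : F, e.symm (u s) ∈ (S : Subgroup G) := by
  obtain ⟨e⟩ := hG
  let f : Multiplicative F →* G :=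
    { toFun := fun s => e.symm (u s.toAdd)
      map_one' := by
        change e.symm (u (0 : F)) = 1
        rw [u_zero, map_one]
      map_mul' := fun s t => by
        change e.symm (u (s.toAdd + t.toAdd)) = _
        rw [u_add, map_mul] }
  have hpg : IsPGroup p (Multiplicative F) := IsPGroup.of_card (n := n) (by
    rw [← hF, ← Nat.card_eq_fintype_card]; rfl)
  have hf : IsPGroup p f.range := hpg.of_surjective f.rangeRestrict f.rangeRestrict_surjective
  obtain ⟨Q, hQ⟩ := hf.exists_le_sylow
  obtain ⟨x, hx⟩ := MulAction.exists_smul_eq G S Q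
  refine ⟨(MulAut.conj x).trans e, fun s => ?_⟩
  have h1 : e.symm (u s) ∈ (Q : Subgroup G) := hQ ⟨Multiplicative.ofAdd s, rfl⟩
  rw [← hx] at h1
  have h2 : e.symm (u s) ∈ MulAut.conj x • (S : Subgroup G) := h1
  rw [Subgroup.mem_pointwise_smul_iff_inv_smul_mem] at h2
  exact h2

end Aux

/-- Let p be a prime and let G and V be subgroups of a finite group with V elementary abelian and normalized by G, and G isomorphic to SL₂(F) for a finite field F with pⁿ elements. Suppose G acts irreducibly and nontrivially on V by conjugation (no G-invariant subgroups of V other than 1 and V, and [V, G] ≠ 1), and let S be a Sylow p-subgroup of G and V₀ = C_V(S). If [V, S, S] = 1 or |V| ≤ |V₀|², then G acts on V as SL₂(F) on its natural two-dimensional module; in particular |V| = |F|². -/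
theorem result {X : Type*} [Group X] [Finite X] {p : ℕ} [Fact p.Prime] (G V : Subgroup X) (hV : Cfsg.IsElementaryAbelian p V) (hGV : G ≤ Subgroup.normalizer (V : Set X)) (F : Type) [Field F] [Fintype F] (n : ℕ) (hF : Fintype.card F = p ^ n) (hG : Nonempty (↥G ≃* Matrix.SpecialLinearGroup (Fin 2) F)) (hirr : ∀ U : Subgroup X, U ≤ V → G ≤ Subgroup.normalizer (U : Set X) → U = ⊥ ∨ U = V) (hnt : ⁅V, G⁆ ≠ ⊥) (S : Sylow p ↥G) (hyp : ⁅⁅V, (S : Subgroup ↥G).map G.subtype⁆, (S : Subgroup ↥G).map G.subtype⁆ = ⊥ ∨ Nat.card ↥V ≤ Nat.card ↥(V ⊓ Subgroup.centralizer (((S : Subgroup ↥G).map G.subtype : Subgroup X) : Set X)) ^ 2) : Cfsg.ActsAsSL2OnSection F ⊤ G V ⊥ := by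
  -- an isomorphism under which the upper unitriangular group corresponds to a subgroup of `S`
  obtain ⟨e, he⟩ : ∃ e : ↥G ≃* Matrix.SpecialLinearGroup (Fin 2) F, ∀ s : F, e.symm (u s) ∈ (S : Subgroup ↥G) := by
    exact exists_iso hF hG S
  letI := cgV V hV.1
  letI : DistribMulAction (Matrix.SpecialLinearGroup (Fin 2) F) (Additive ↥V) := actV G V hV.1 hGV e
  have hsm : ∀ (g : Matrix.SpecialLinearGroup (Fin 2) F) (m : Additive ↥V),
      (((g • m).toMul : ↥V) : X) = (e.symm g : X) * m.toMul * (e.symm g : X)⁻¹ := fun _ _ => rfl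
  have hsme : ∀ (g : ↥G) (m : Additive ↥V),
      (((e g • m).toMul : ↥V) : X) = (g : X) * m.toMul * (g : X)⁻¹ := by
    intro g m
    rw [hsm, e.symm_apply_apply]
  have hext : ∀ m m' : Additive ↥V, ((m.toMul : ↥V) : X) = ((m'.toMul : ↥V) : X) → m = m' :=
    fun m m' h => Additive.toMul.injective (Subtype.ext h)
  have hI : Irr F (Additive ↥V) := by
    constructor
    · intro U hU
      let U' : Subgroup X := (AddSubgroup.toSubgroup' U).map V.subtype
      have hUV : U' ≤ V := by
        rintro _ ⟨y, -, rfl⟩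
        exact y.2
      have hmem : ∀ (x : X) (hx : x ∈ V), x ∈ U' ↔ Additive.ofMul (⟨x, hx⟩ : ↥V) ∈ U := by
        intro x hx
        constructor
        · rintro ⟨y, hy, hyx⟩
          have : y = ⟨x, hx⟩ := Subtype.ext hyx
          rw [← this]
          exact hy
        · intro h
          exact ⟨⟨x, hx⟩, h, rfl⟩
      have hinv : ∀ g : ↥G, ∀ x ∈ U', (g : X) * x * (g : X)⁻¹ ∈ U' := by
        intro g x hx
        have hxV := hUV hx
        have h1 := hU (e g) _ ((hmem x hxV).mp hx)
        have h2 : (g : X) * x * (g : X)⁻¹ ∈ V := (Subgroup.mem_normalizer_iff.mp (hGV g.2) _).mp hxV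
        refine (hmem _ h2).mpr ?_
        have h3 : (e g • Additive.ofMul (⟨x, hxV⟩ : ↥V)) = Additive.ofMul ⟨(g : X) * x * (g : X)⁻¹, h2⟩ := by
          apply hext
          rw [hsme]
          rfl
        rwa [h3] at h1
      have hN : G ≤ Subgroup.normalizer (U' : Set X) := by
        intro g hg
        rw [Subgroup.mem_normalizer_iff]
        intro x
        constructor
        · exact hinv ⟨g, hg⟩ x
        · intro hx
          have := hinv (⟨g, hg⟩⁻¹) _ hx
          have h4 : (((⟨g, hg⟩ : ↥G)⁻¹ : ↥G) : X) * (g * x * g⁻¹) * (((⟨g, hg⟩ : ↥G)⁻¹ : ↥G) : X)⁻¹ = x := by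
            simp only [Subgroup.coe_inv]
            group
          rwa [h4] at this
      rcases hirr U' hUV hN with h | h
      · left
        rw [eq_bot_iff]
        intro m hm
        have h1 : ((m.toMul : ↥V) : X) ∈ U' := (hmem _ m.toMul.2).mpr hm
        rw [h, Subgroup.mem_bot] at h1
        rw [AddSubgroup.mem_bot]
        exact hext m 0 h1
      · right
        rw [eq_top_iff]
        intro m _
        have h1 : ((m.toMul : ↥V) : X) ∈ U' := by rw [h]; exact m.toMul.2
        exact (hmem _ m.toMul.2).mp h1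
    · by_contra hcon
      push Not at hcon
      apply hnt
      rw [Subgroup.commutator_eq_bot_iff_le_centralizer]
      intro v hv
      rw [Subgroup.mem_centralizer_iff]
      intro g hg
      have h1 := hcon (e ⟨g, hg⟩) (Additive.ofMul ⟨v, hv⟩)
      have h2 := congrArg (fun m : Additive ↥V => ((m.toMul : ↥V) : X)) h1
      rw [hsme] at h2
      have h3 : g * v * g⁻¹ = v := h2
      rw [mul_inv_eq_iff_eq_mul] at h3
      exact h3
  have hcard : ∃ k, Nat.card (Additive ↥V) = p ^ k := by
    have hpg : IsPGroup p ↥V := by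
      intro v
      refine ⟨1, ?_⟩
      rw [pow_one]
      exact Subtype.ext (hV.2 v v.2)
    obtain ⟨k, hk⟩ := IsPGroup.iff_card.mp hpg
    exact ⟨k, hk⟩
  have hq : Quad F (Additive ↥V) := by
    rcases hyp with hyp | hyp
    · intro s m t
      apply hext
      have hs := he s
      have ht := he t
      set a : X := (e.symm (u s) : X) with ha
      set b : X := (e.symm (u t) : X) with hb
      have haS : a ∈ (S : Subgroup ↥G).map G.subtype := ⟨_, hs, rfl⟩
      have hbS : b ∈ (S : Subgroup ↥G).map G.subtype := ⟨_, ht, rfl⟩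
      set v : X := ((m.toMul : ↥V) : X) with hv
      have hvV : v ∈ V := m.toMul.2
      have h1 : v * a * v⁻¹ * a⁻¹ ∈ ⁅V, (S : Subgroup ↥G).map G.subtype⁆ :=
        Subgroup.commutator_mem_commutator hvV haS
      have h2 : (v * a * v⁻¹ * a⁻¹) * b * (v * a * v⁻¹ * a⁻¹)⁻¹ * b⁻¹ = 1 := by
        have := Subgroup.commutator_mem_commutator h1 hbS
        rw [hyp, Subgroup.mem_bot] at this
        exact this
      have h3 : (((u s • m - m).toMul : ↥V) : X) = (v * a * v⁻¹ * a⁻¹)⁻¹ := by
        have h4 : (((u s • m - m).toMul : ↥V) : X) = (((u s • m).toMul : ↥V) : X) * ((m.toMul : ↥V) : X)⁻¹ := by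
          rw [sub_eq_add_neg]
          rfl
        rw [h4, hsm, ← ha, ← hv]
        group
      rw [hsm, h3, ← hb]
      rw [mul_inv_eq_one] at h2
      rw [mul_inv_eq_iff_eq_mul] at h2
      rw [mul_inv_eq_iff_eq_mul]
      -- c b = b c ⟹ b c⁻¹ = c⁻¹ b
      set c := v * a * v⁻¹ * a⁻¹ with hc
      rw [eq_inv_mul_iff_mul_eq, ← mul_assoc, h2, mul_inv_cancel_right]
    · refine quad_of_card (p := p) hI ⟨n, by rw [← hF, Nat.card_eq_fintype_card]⟩ hcard ?_
      refine le_trans (le_of_eq rfl) (hyp.trans (Nat.pow_le_pow_left ?_ 2))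
      refine Nat.card_le_card_of_injective (fun x : ↥(V ⊓ Subgroup.centralizer
        (((S : Subgroup ↥G).map G.subtype : Subgroup X) : Set X)) => (⟨Additive.ofMul ⟨(x : X), x.2.1⟩, ?_⟩ :
          VA F (Additive ↥V))) ?_
      · intro s
        apply hext
        rw [hsm]
        have h1 := Subgroup.mem_centralizer_iff.mp x.2.2 (e.symm (u s) : X) ⟨_, he s, rfl⟩
        change (e.symm (u s) : X) * (x : X) * (e.symm (u s) : X)⁻¹ = x
        rw [h1, mul_inv_cancel_right]
      · intro x y hxy
        have h1 := congrArg (fun m : VA F (Additive ↥V) => (((m : Additive ↥V).toMul : ↥V) : X)) hxy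
        exact Subtype.ext h1
  obtain ⟨φ, hφ, hequiv⟩ := exists_equiv hI hq
  let Φ : (Fin 2 → F) ≃+ Additive ↥V := AddEquiv.ofBijective φ hφ
  have hΦ : ∀ v, Φ v = φ v := fun v => rfl
  refine ⟨hGV, bot_le, e.toMonoidHom,
    { toFun := fun v => Multiplicative.ofAdd (Φ.symm (Additive.ofMul v))
      map_one' := by
        change Multiplicative.ofAdd (Φ.symm 0) = 1
        rw [map_zero]; rfl
      map_mul' := fun x y => by
        change Multiplicative.ofAdd (Φ.symm (Additive.ofMul x + Additive.ofMul y)) = _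
        rw [map_add]; rfl }, ?_, ?_, ?_, ?_⟩
  · exact MonoidHom.range_eq_top.mpr e.surjective
  · intro v
    refine ⟨(Φ v.toAdd).toMul, ?_⟩
    change Multiplicative.ofAdd (Φ.symm (Φ v.toAdd)) = v
    rw [Φ.symm_apply_apply]; rfl
  · intro v
    rw [Subgroup.mem_bot]
    change Multiplicative.ofAdd (Φ.symm (Additive.ofMul v)) = 1 ↔ _
    constructor
    · intro h
      have h1 : Φ.symm (Additive.ofMul v) = 0 := h
      rw [EmbeddingLike.map_eq_zero_iff] at h1
      have h2 : v = 1 := h1
      rw [h2]; rfl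
    · intro h
      have h2 : v = 1 := Subtype.ext h
      rw [h2]
      change Multiplicative.ofAdd (Φ.symm 0) = 1
      rw [map_zero]; rfl
  · intro g v
    refine ⟨(e g • Additive.ofMul v).toMul, ?_, ?_⟩
    · rw [hsme]; rfl
    · change Φ.symm (e g • Additive.ofMul v) = ((e g : Matrix.SpecialLinearGroup (Fin 2) F) :
        Matrix (Fin 2) (Fin 2) F).mulVec (Φ.symm (Additive.ofMul v))
      rw [AddEquiv.symm_apply_eq, hΦ, hequiv, ← hΦ, Φ.apply_symm_apply]

end Cfsg.Agent.S3009
end
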