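import Cfsg.Statements.S3012
set_option linter.all false

set_option autoImplicit false
open Cfsg

namespace Cfsg.Agent.S3012

/-- Let G be a finite group, V a nontrivial elementary abelian 2-subgroup of G satisfying the Sidki pair condition (every odd-order element inverted by an element of V commutes with a nontrivial element of V), and K a normal subgroup of G with V ∩ K = 1. Then the image of V in G/K satisfies the Sidki pair condition in G/K. -/
theorem result {G : Type*} [Group G] [Finite G] (V K : Subgroup G) [K.Normal] (hV : Cfsg.IsElementaryAbelian 2 V) (hV1 : V ≠ ⊥) (hS : Cfsg.IsSidkiPair V) (hVK : V ⊓ K = ⊥) : Cfsg.IsSidkiPair (V.map (QuotientGroup.mk' K)) := by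
  rintro h' v' ⟨v, hv, rfl⟩ hodd hinv
  obtain ⟨h, rfl⟩ := QuotientGroup.mk'_surjective K h'
  set π : G →* G ⧸ K := QuotientGroup.mk' K with hπ
  have hv2 : v * v = 1 := by
    have := hV.2 v hv
    rwa [pow_two] at this
  have hvinv : v⁻¹ = v := inv_eq_of_mul_eq_one_left hv2
  -- the commutator-like element
  set y : G := v * h * v⁻¹ * h⁻¹ with hy
  have hyinv : v * y * v⁻¹ = y⁻¹ := by
    rw [hy]
    simp only [mul_inv_rev, inv_inv, hvinv]
    calc v * (v * h * v * h⁻¹) * v = (v * v) * (h * v * h⁻¹ * v) := by group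
      _ = h * v * h⁻¹ * v := by rw [hv2, one_mul]
      _ = h * (v * (h⁻¹ * v)) := by group
  have hπy : π y = (π h ^ 2)⁻¹ := by
    have : π y = (π v * π h * (π v)⁻¹) * (π h)⁻¹ := by
      rw [hy]; simp
    rw [this, hinv, pow_two]; group
  have hinvpow : ∀ n : ℕ, v * y ^ n * v⁻¹ = (y ^ n)⁻¹ := by
    intro n
    rw [← conj_pow, hyinv, inv_pow]
  obtain ⟨k, m, hm, hkm⟩ := Nat.exists_eq_two_pow_mul_odd (orderOf_pos y).ne'
  have hord : orderOf (y ^ (2 ^ k)) = m := by
    rw [orderOf_pow_of_dvd (by positivity) ⟨m, hkm⟩, hkm, Nat.mul_div_cancel_left _ (by positivity)]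
  obtain ⟨w, hwV, hw1, hwy⟩ := hS (y ^ (2 ^ k)) v hv (hord ▸ hm) (hinvpow _)
  refine ⟨π w, ⟨w, hwV, rfl⟩, ?_, ?_⟩
  · intro h1
    have : w ∈ K := (QuotientGroup.eq_one_iff w).1 h1
    have h2 : w ∈ V ⊓ K := ⟨hwV, this⟩
    rw [hVK, Subgroup.mem_bot] at h2
    exact hw1 h2
  · have hc1 : Commute (π w) (π (y ^ (2 ^ k))) := by
      have h3 : Commute w (y ^ (2 ^ k)) := hwy
      exact h3.map π
    rw [map_pow, hπy, inv_pow, ← pow_mul] at hc1
    have hc2 : Commute (π w) ((π h) ^ (2 * 2 ^ k)) := by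
      have := hc1.inv_right
      rwa [inv_inv] at this
    have hcop : Nat.Coprime (orderOf (π h)) (2 * 2 ^ k) := by
      rw [← pow_succ']
      exact (Nat.Coprime.pow_left (k + 1) (Nat.coprime_two_left.2 hodd)).symm
    have hmem : π h ∈ Subgroup.zpowers ((π h) ^ (2 * 2 ^ k)) := by
      rw [mem_zpowers_pow_iff]
      exact hcop.symm
    obtain ⟨n, hn⟩ := Subgroup.mem_zpowers_iff.1 hmem
    have hc3 : Commute (π w) (π h) := by
      rw [← hn]
      exact hc2.zpow_right n
    exact hc3.eq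

end Cfsg.Agent.S3012
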