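import Cfsg.Statements.S3014
import Mathlib
set_option linter.all false

set_option autoImplicit false
open Cfsg

namespace Cfsg.Agent.S3014

open MulAction

/-- **Frobenius–Wielandt, abelian case.** Let `φ : M →* A` be a homomorphism to an abelian group such that `t⁻¹ M t ∩ M` lies in
the kernel for every `t ∉ M`. Then `φ` extends to `G`. -/
theorem exists_extension {G : Type*} [Group G] [Finite G] {M : Subgroup G} {A : Type*}
    [CommGroup A] (φ : M →* A)
    (h : ∀ (t m : G), t ∉ M → m ∈ M → (hm : t⁻¹ * m * t ∈ M) → φ ⟨t⁻¹ * m * t, hm⟩ = 1) :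
    ∃ ψ : G →* A, ∀ m : M, ψ (m : G) = φ m := by
  classical
  have : Fintype (G ⧸ M) := Fintype.ofFinite _
  refine ⟨MonoidHom.transfer φ, ?_⟩
  rintro ⟨m, hm⟩
  have : Fintype (Quotient (orbitRel (Subgroup.zpowers m) (G ⧸ M))) := Fintype.ofFinite _
  rw [MonoidHom.transfer_eq_prod_quotient_orbitRel_zpowers_quot]
  -- the orbit of the trivial coset
  have hfix : m • ((1 : G) : G ⧸ M) = ((1 : G) : G ⧸ M) := by
    show ((m * 1 : G) : G ⧸ M) = ((1 : G) : G ⧸ M)
    rw [mul_one]
    rw [QuotientGroup.eq]
    simpa using hm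
  set q₀ : Quotient (orbitRel (Subgroup.zpowers m) (G ⧸ M)) := Quotient.mk'' ((1 : G) : G ⧸ M)
    with hq₀
  have hfixz : ∀ y ∈ Subgroup.zpowers m, y • ((1 : G) : G ⧸ M) = ((1 : G) : G ⧸ M) := by
    intro y hy
    have hyM : y ∈ M := (Subgroup.zpowers_le.2 hm) hy
    show ((y * 1 : G) : G ⧸ M) = ((1 : G) : G ⧸ M)
    rw [mul_one, QuotientGroup.eq]
    simpa using hyM
  have hout : ∀ q : Quotient (orbitRel (Subgroup.zpowers m) (G ⧸ M)),
      q.out = ((1 : G) : G ⧸ M) ↔ q = q₀ := by
    intro q
    constructor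
    · intro hq
      rw [hq₀, ← hq]
      exact (Quotient.out_eq' q).symm
    · rintro rfl
      have h1 : (orbitRel (Subgroup.zpowers m) (G ⧸ M)).r q₀.out ((1 : G) : G ⧸ M) :=
        Quotient.exact (Quotient.out_eq' q₀)
      have h2 : q₀.out ∈ MulAction.orbit (Subgroup.zpowers m) (((1 : G) : G ⧸ M)) := h1
      obtain ⟨⟨y, hy⟩, hy'⟩ := h2
      rw [← hy']
      exact hfixz y hy
  have houtM : ∀ c : G ⧸ M, c.out ∈ M ↔ c = ((1 : G) : G ⧸ M) := by
    intro c
    constructor
    · intro hc
      rw [← QuotientGroup.out_eq' c, QuotientGroup.eq]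
      simpa using hc
    · rintro rfl
      have h1 : (((((1 : G) : G ⧸ M)).out : G) : G ⧸ M) = ((1 : G) : G ⧸ M) :=
        QuotientGroup.out_eq' _
      rw [QuotientGroup.eq] at h1
      have := M.inv_mem h1
      simpa using this
  rw [Finset.prod_eq_single q₀]
  · have e1 : q₀.out = ((1 : G) : G ⧸ M) := (hout q₀).2 rfl
    have e2 : Function.minimalPeriod (m • · : G ⧸ M → G ⧸ M) q₀.out = 1 := by
      rw [e1, Function.minimalPeriod_eq_one_iff_isFixedPt]
      exact hfix
    have e3 : q₀.out.out ∈ M := (houtM _).2 e1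
    have e4 : (⟨q₀.out.out⁻¹ * m ^ Function.minimalPeriod (m • · : G ⧸ M → G ⧸ M) q₀.out *
        q₀.out.out, QuotientGroup.out_conj_pow_minimalPeriod_mem M m q₀.out⟩ : M) =
        (⟨q₀.out.out, e3⟩ : M)⁻¹ * ⟨m, hm⟩ * ⟨q₀.out.out, e3⟩ := by
      apply Subtype.ext
      show q₀.out.out⁻¹ * m ^ Function.minimalPeriod (m • · : G ⧸ M → G ⧸ M) q₀.out *
        q₀.out.out = q₀.out.out⁻¹ * m * q₀.out.out
      rw [e2, pow_one]
    rw [e4, map_mul, map_mul, map_inv]
    rw [mul_comm (φ ⟨q₀.out.out, e3⟩)⁻¹, inv_mul_cancel_right]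
  · intro q _ hq
    apply h
    · intro hc
      exact hq ((hout q).1 ((houtM _).1 hc))
    · exact M.pow_mem hm _
  · intro h1
    exact absurd (Finset.mem_univ _) h1

/-- Let G be a finite group and H ≤ M ≤ G subgroups such that for every g ∈ G the subgroup generated by H and g H g⁻¹ meets M exactly in H. If H is a maximal subgroup of M and M is a maximal subgroup of G, then the normal closure of H in G meets M exactly in H. -/
theorem result {G : Type*} [Group G] [Finite G] (H M : Subgroup G) (hHM : H ≤ M) (hcl : ∀ g : G, (H ⊔ H.map (MulAut.conj g).toMonoidHom) ⊓ M = H) (hmaxH : IsCoatom (H.subgroupOf M)) (hmaxM : IsCoatom M) : Subgroup.normalClosure (H : Set G) ⊓ M = H := by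
  have hle : H ≤ Subgroup.normalClosure (H : Set G) ⊓ M :=
    le_inf Subgroup.le_normalClosure hHM
  refine le_antisymm ?_ hle
  -- `H` is normalized by `M`
  have hconj : ∀ g ∈ M, ∀ x ∈ H, g * x * g⁻¹ ∈ H := by
    intro g hg x hx
    have h1 : g * x * g⁻¹ ∈ (H ⊔ H.map (MulAut.conj g).toMonoidHom) ⊓ M :=
      ⟨Subgroup.mem_sup_right ⟨x, hx, by simp⟩, M.mul_mem (M.mul_mem hg (hHM hx)) (M.inv_mem hg)⟩
    rwa [hcl g] at h1
  have hMN : M ≤ Subgroup.normalizer (H : Set G) := by
    intro g hg
    rw [Subgroup.mem_normalizer_iff]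
    intro x
    refine ⟨hconj g hg x, fun hx => ?_⟩
    have := hconj g⁻¹ (M.inv_mem hg) _ hx
    simpa [mul_assoc] using this
  have hnorm : (H.subgroupOf M).Normal := by
    constructor
    intro n hn g
    rw [Subgroup.mem_subgroupOf] at hn ⊢
    simpa using hconj g g.2 n hn
  -- it suffices to find a normal subgroup
  have hred : ∀ K : Subgroup G, K.Normal → H ≤ K → K ⊓ M ≤ H →
      Subgroup.normalClosure (H : Set G) ⊓ M ≤ H := by
    intro K hK hHK hKM
    have : Subgroup.normalClosure (H : Set G) ≤ K := Subgroup.normalClosure_le_normal hHK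
    exact (inf_le_inf_right M this).trans hKM
  by_cases hn : ∃ g, g ∉ M ∧ M ≤ Subgroup.normalizer
      ((H ⊔ H.map (MulAut.conj g).toMonoidHom : Subgroup G) : Set G)
  · obtain ⟨g, hg, hgN⟩ := hn
    set L : Subgroup G := H ⊔ H.map (MulAut.conj g).toMonoidHom with hL
    rcases hmaxM.le_iff.1 hgN with h1 | h1
    · have hLn : L.Normal := Subgroup.normalizer_eq_top_iff.1 h1
      exact hred L hLn le_sup_left (hcl g).le
    · have hLM : L ≤ M := by
        rw [← h1]; exact Subgroup.le_normalizer
      have hLH : L = H := by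
        rw [← hcl g]; exact (inf_eq_left.2 hLM).symm
      have hgH : H.map (MulAut.conj g).toMonoidHom ≤ H := by
        have : H.map (MulAut.conj g).toMonoidHom ≤ L := le_sup_right
        rwa [hLH] at this
      have hgN' : g ∈ Subgroup.normalizer (H : Set G) := by
        have heq : H.map (MulAut.conj g).toMonoidHom = H := by
          apply Subgroup.eq_of_le_of_card_ge hgH
          rw [Subgroup.card_map_of_injective (MulAut.conj g).injective]
        rw [Subgroup.mem_normalizer_iff]
        intro x
        constructor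
        · intro hx
          exact hgH ⟨x, hx, by simp⟩
        · intro hx
          rw [← heq] at hx
          obtain ⟨y, hy, hyx⟩ := hx
          have : y = x := by
            have h2 : g * y * g⁻¹ = g * x * g⁻¹ := by simpa using hyx
            exact mul_left_cancel (mul_right_cancel h2)
          exact this ▸ hy
      rcases hmaxM.le_iff.1 hMN with h2 | h2
      · have hHn : H.Normal := Subgroup.normalizer_eq_top_iff.1 h2
        exact hred H hHn le_rfl inf_le_left
      · rw [h2] at hgN'
        exact absurd hgN' hg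
  · push Not at hn
    -- `M` and `H` form a Frobenius–Wielandt pair
    have hFW : ∀ g, g ∉ M → ∀ m ∈ M, g⁻¹ * m * g ∈ M → g⁻¹ * m * g ∈ H := by
      intro g hg m hm hgm
      have hg' : g⁻¹ ∉ M := fun h => hg (by simpa using M.inv_mem h)
      have hnM := hn g⁻¹ hg'
      set L : Subgroup G := H ⊔ H.map (MulAut.conj g⁻¹).toMonoidHom with hL
      -- `N_M(L) = H`
      have hHL : H.subgroupOf M ≤ (Subgroup.normalizer (L : Set G)).subgroupOf M := by
        intro x hx
        rw [Subgroup.mem_subgroupOf] at hx ⊢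
        exact Subgroup.le_normalizer (le_sup_left (a := H) hx)
      have hNL : (Subgroup.normalizer (L : Set G)).subgroupOf M = H.subgroupOf M := by
        rcases hmaxH.le_iff.1 hHL with h1 | h1
        · exfalso
          apply hnM
          intro x hx
          have : (⟨x, hx⟩ : M) ∈ (Subgroup.normalizer (L : Set G)).subgroupOf M := by
            rw [h1]; exact Subgroup.mem_top _
          exact this
        · exact h1
      have hmem : g⁻¹ * m * g ∈ Subgroup.normalizer (L : Set G) := by
        rw [Subgroup.mem_normalizer_iff]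
        have key : ∀ y : G, y ∈ M → g * y * g⁻¹ ∈ M → ∀ x, x ∈ L → y * x * y⁻¹ ∈ L := by
          intro y hy hgy x hx
          have : L ≤ L.comap (MulAut.conj y).toMonoidHom := by
            rw [hL, sup_le_iff]
            constructor
            · intro z hz
              rw [Subgroup.mem_comap]
              have := hconj y hy z hz
              exact Subgroup.mem_sup_left (by simpa using this)
            · rintro _ ⟨z, hz, rfl⟩
              rw [Subgroup.mem_comap]
              apply Subgroup.mem_sup_right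
              refine ⟨(g * y * g⁻¹) * z * (g * y * g⁻¹)⁻¹, hconj _ hgy z hz, ?_⟩
              simp [mul_assoc]
          have h2 := this hx
          rw [Subgroup.mem_comap] at h2
          simpa using h2
        intro x
        have h3 : g * (g⁻¹ * m * g) * g⁻¹ ∈ M := by
          have e : g * (g⁻¹ * m * g) * g⁻¹ = m := by group
          rw [e]; exact hm
        refine ⟨key _ hgm h3 x, fun hx => ?_⟩
        have h4 : g * (g⁻¹ * m * g)⁻¹ * g⁻¹ ∈ M := by
          have e : g * (g⁻¹ * m * g)⁻¹ * g⁻¹ = m⁻¹ := by group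
          rw [e]; exact M.inv_mem hm
        have h5 := key _ (M.inv_mem hgm) h4 _ hx
        have e : (g⁻¹ * m * g)⁻¹ * (g⁻¹ * m * g * x * (g⁻¹ * m * g)⁻¹) * ((g⁻¹ * m * g)⁻¹)⁻¹ = x := by
          group
        rwa [e] at h5
      have h6 : (⟨g⁻¹ * m * g, hgm⟩ : M) ∈ (Subgroup.normalizer (L : Set G)).subgroupOf M := hmem
      rw [hNL] at h6
      exact h6
    -- `M / H` is abelian
    have hcomm : ∀ a b : M ⧸ H.subgroupOf M, a * b = b * a := by
      obtain ⟨m, hm⟩ : ∃ m : M, m ∉ H.subgroupOf M := by
        by_contra hcon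
        push Not at hcon
        exact hmaxH.1 ((Subgroup.eq_top_iff' _).2 hcon)
      have htop : H.subgroupOf M ⊔ Subgroup.zpowers m = ⊤ := by
        apply hmaxH.2
        refine lt_of_le_of_ne le_sup_left ?_
        intro heq
        apply hm
        rw [heq]
        exact Subgroup.mem_sup_right (Subgroup.mem_zpowers m)
      have hz : ∀ a : M ⧸ H.subgroupOf M, a ∈ Subgroup.zpowers (m : M ⧸ H.subgroupOf M) := by
        intro a
        obtain ⟨a, rfl⟩ := QuotientGroup.mk'_surjective _ a
        have h1 : a ∈ H.subgroupOf M ⊔ Subgroup.zpowers m := by rw [htop]; trivial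
        have h2 : (H.subgroupOf M ⊔ Subgroup.zpowers m) ≤
            (Subgroup.zpowers (m : M ⧸ H.subgroupOf M)).comap (QuotientGroup.mk' (H.subgroupOf M)) := by
          rw [sup_le_iff]
          constructor
          · intro x hx
            rw [Subgroup.mem_comap]
            have : (QuotientGroup.mk' (H.subgroupOf M)) x = 1 := (QuotientGroup.eq_one_iff x).2 hx
            rw [this]
            exact Subgroup.one_mem _
          · rw [Subgroup.zpowers_le, Subgroup.mem_comap]
            exact Subgroup.mem_zpowers _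
        exact h2 h1
      intro a b
      obtain ⟨i, rfl⟩ := Subgroup.mem_zpowers_iff.1 (hz a)
      obtain ⟨j, rfl⟩ := Subgroup.mem_zpowers_iff.1 (hz b)
      rw [← zpow_add, ← zpow_add, add_comm]
    let _ : CommGroup (M ⧸ H.subgroupOf M) :=
      { (inferInstance : Group (M ⧸ H.subgroupOf M)) with mul_comm := hcomm }
    obtain ⟨ψ, hψ⟩ := exists_extension (QuotientGroup.mk' (H.subgroupOf M)) (by
      intro t m ht hm htm
      exact (QuotientGroup.eq_one_iff _).2 (hFW t ht m hm htm))
    refine hred ψ.ker inferInstance ?_ ?_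
    · intro x hx
      rw [MonoidHom.mem_ker]
      have h1 := hψ ⟨x, hHM hx⟩
      rw [h1]
      exact (QuotientGroup.eq_one_iff _).2 hx
    · rintro x ⟨hx, hxM⟩
      have hx' : ψ x = 1 := hx
      have h1 := hψ ⟨x, hxM⟩
      rw [hx'] at h1
      have h2 : (⟨x, hxM⟩ : M) ∈ H.subgroupOf M :=
        (QuotientGroup.eq_one_iff (⟨x, hxM⟩ : M)).1 h1.symm
      exact h2

end Cfsg.Agent.S3014
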