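import Cfsg.Prelude.Def_Solvable
import Cfsg.Agent.Lib.LocalCore
import Cfsg.Agent.OddOrderLocal.NilParts
import Mathlib.GroupTheory.IsSubnormal
import Cfsg.Statements.S3023
import Cfsg.Agent.S0542
import Cfsg.Agent.Lib.NormalAbelian
set_option linter.all false

-- part: H267/CharP
section
/-!
# Groups of characteristic `p`: `C_G(O_p(G)) ≤ O_p(G)`

The property passes to normal and subnormal subgroups, to isomorphic groups, and to normalizers of
`p`-subgroups.
-/

set_option autoImplicit false

namespace Cfsg.Agent.H267.ChP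

open Subgroup Cfsg

/-- `C_G(O_p(G)) ≤ O_p(G)`. -/
def CharP (p : ℕ) (G : Type*) [Group G] : Prop :=
  Subgroup.centralizer (pCore p G : Set G) ≤ pCore p G

theorem charP_def {p : ℕ} {G : Type*} [Group G] :
    CharP p G ↔ Subgroup.centralizer (pCore p G : Set G) ≤ pCore p G := Iff.rfl

/-- A finite group without elements of prime order `q ≠ p` is a `p`-group. -/
theorem isPGroup_of_no_prime {G : Type*} [Group G] [Finite G] {p : ℕ} [hp : Fact p.Prime]
    (h : ∀ q : ℕ, q.Prime → q ≠ p → ∀ x : G, orderOf x = q → False) : IsPGroup p G := by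
  rw [IsPGroup.iff_card]
  refine ⟨_, Nat.eq_prime_pow_of_unique_prime_dvd (Nat.card_pos.ne') ?_⟩
  intro q hq hqd
  by_contra hne
  haveI : Fact q.Prime := ⟨hq⟩
  obtain ⟨x, hx⟩ := exists_prime_orderOf_dvd_card' q hqd
  exact h q hq hne x hx

/-- An element of prime order `q ≠ p` is not in a `p`-group. -/
theorem not_mem_of_orderOf {G : Type*} [Group G] {p q : ℕ} (hp : p.Prime) (hq : q.Prime)
    (hne : q ≠ p) {P : Subgroup G} (hP : IsPGroup p P) {x : G} (hx : orderOf x = q) : x ∉ P := by
  intro hxP
  obtain ⟨k, hk⟩ := hP ⟨x, hxP⟩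
  have h1 : x ^ p ^ k = 1 := by
    have := congrArg (Subtype.val) hk
    simpa using this
  have h2 : q ∣ p ^ k := by rw [← hx]; exact orderOf_dvd_of_pow_eq_one h1
  exact hne ((Nat.prime_dvd_prime_iff_eq hq hp).1 (hq.dvd_of_dvd_pow h2))

/-- Criterion: it suffices that no element of prime order `q ≠ p` centralizes `O_p(G)`. -/
theorem charP_of_no_prime {G : Type*} [Group G] [Finite G] {p : ℕ} [hp : Fact p.Prime]
    (h : ∀ q : ℕ, q.Prime → q ≠ p → ∀ x : G, orderOf x = q →
      (∀ u ∈ pCore p G, u * x = x * u) → False) : CharP p G := by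
  refine Lib.Cores.le_pCore ?_ ?_
  · haveI := Lib.Cores.pCore_normal (G := G) p
    infer_instance
  · refine isPGroup_of_no_prime ?_
    intro q hq hne x hx
    refine h q hq hne (x : G) ?_ ?_
    · rw [← hx]; exact Subgroup.orderOf_coe x
    · intro u hu
      exact (Subgroup.mem_centralizer_iff.1 x.2) u hu

theorem CharP.no_prime {G : Type*} [Group G] {p : ℕ} [hp : Fact p.Prime] (h : CharP p G)
    {q : ℕ} (hq : q.Prime) (hne : q ≠ p) {x : G} (hx : orderOf x = q)
    (hc : ∀ u ∈ pCore p G, u * x = x * u) : False :=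
  not_mem_of_orderOf hp.out hq hne (Lib.Cores.pCore_isPGroup p) hx
    (h (Subgroup.mem_centralizer_iff.2 hc))

theorem charP_congr {G H : Type*} [Group G] [Group H] (e : G ≃* H) {p : ℕ} (h : CharP p G) :
    CharP p H := by
  intro x hx
  rw [← Lib.Cores.map_equiv_pCore e p] at hx ⊢
  refine ⟨e.symm x, ?_, by simp⟩
  apply h
  rw [Subgroup.mem_centralizer_iff] at hx ⊢
  intro u hu
  have := hx (e u) ⟨u, hu, rfl⟩
  apply e.injective
  simpa using this

/-- Characteristic `p` passes to normal subgroups. -/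
theorem charP_normal {G : Type*} [Group G] [Finite G] {p : ℕ} [hp : Fact p.Prime]
    (h : CharP p G) (N : Subgroup G) (hN : N.Normal) : CharP p ↥N := by
  refine charP_of_no_prime ?_
  intro q hq hne x hx hc
  have hxo : orderOf (x : G) = q := by rw [← hx]; exact Subgroup.orderOf_coe x
  have hR : (pCore p ↥N).map N.subtype = N ⊓ pCore p G := by
    rw [Lib.Cores.map_subtype_pCore p hN]
  refine h.no_prime hq hne hxo ?_
  intro u hu
  have hcop : (orderOf (x : G)).Coprime (Nat.card ↥(pCore p G)) := by
    obtain ⟨n, hn⟩ := (Lib.Cores.pCore_isPGroup (G := G) p).exists_card_eq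
    rw [hxo, hn]
    exact ((Nat.coprime_primes hq hp.out).2 hne).pow_right n
  have hnorm := (Lib.Cores.pCore_normal (G := G) p)
  refine (Lib.ThompsonPQ.commute_of_commutator_commute (U := pCore p G) hcop ?_ ?_ u hu).eq
  · rw [Subgroup.normalizer_eq_top]; trivial
  · intro v hv
    have hmem : ((x : G)⁻¹ * v * x * v⁻¹) ∈ N ⊓ pCore p G := by
      constructor
      · have h1 : v * (x : G) * v⁻¹ ∈ N := hN.conj_mem _ x.2 v
        have h2 := N.mul_mem (N.inv_mem x.2) h1
        simpa [mul_assoc] using h2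
      · have h1 : (x : G)⁻¹ * v * x ∈ pCore p G := by
          simpa using hnorm.conj_mem v hv (x : G)⁻¹
        exact (pCore p G).mul_mem h1 ((pCore p G).inv_mem hv)
    rw [← hR] at hmem
    obtain ⟨w, hw, hwe⟩ := hmem
    have := hc w hw
    have h3 := congrArg (Subtype.val) this
    rw [← hwe]
    exact h3

/-- Characteristic `p` passes to subnormal subgroups. -/
theorem charP_subnormal {G : Type*} [Group G] [Finite G] {p : ℕ} [hp : Fact p.Prime]
    (h : CharP p G) (N : Subgroup G) (hN : N.IsSubnormal) : CharP p ↥N := by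
  induction hN with
  | top => exact charP_congr Subgroup.topEquiv.symm h
  | step A B hle hB hn ih =>
    exact charP_congr (Subgroup.subgroupOfEquivOfLe hle) (charP_normal ih _ hn)

/-- Let `z` be an element of the `p`-subgroup `R` of `H` centralizing a Sylow `p`-subgroup of `H`
which normalizes `R`.  If `C_H(z)` has characteristic `p` then so has `N_H(R)`. -/
theorem charP_normalizer_of_central {H : Type*} [Group H] [Finite H] {p : ℕ} [hp : Fact p.Prime]
    (R : Subgroup H) (hR : IsPGroup p R) (T : Sylow p H)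
    (hT : (T : Subgroup H) ≤ Subgroup.normalizer (R : Set H)) (z : H) (hzR : z ∈ R)
    (hzT : ∀ t ∈ (T : Subgroup H), z * t = t * z)
    (hD : CharP p ↥(Subgroup.centralizer ({z} : Set H))) :
    CharP p ↥(Subgroup.normalizer (R : Set H)) := by
  set L := Subgroup.normalizer (R : Set H) with hL
  set P : Subgroup H := (pCore p ↥L).map L.subtype with hPdef
  have hRP : R ≤ P := Lib.LocalCore.le_map_pCore Subgroup.le_normalizer hR le_rfl
  have hPp : IsPGroup p P := Lib.LocalCore.isPGroup_map_pCore p L
  have hPT : P ≤ T := by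
    have h1 : pCore p ↥L ≤ ((T.subtype hT : Sylow p ↥L) : Subgroup ↥L) :=
      Lib.Cores.pCore_le_sylow _
    have h2 := Subgroup.map_mono (f := L.subtype) h1
    refine h2.trans ?_
    rw [Sylow.coe_subtype, subgroupOf_map_subtype]
    exact inf_le_left
  have hzP : ∀ u ∈ P, z * u = u * z := fun u hu => hzT u (hPT hu)
  refine charP_of_no_prime ?_
  intro q hq hne x hx hc
  have hxo : orderOf (x : H) = q := by rw [← hx]; exact Subgroup.orderOf_coe x
  have hcP : ∀ u ∈ P, u * (x : H) = x * u := by
    rintro _ ⟨u, hu, rfl⟩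
    exact congrArg Subtype.val (hc u hu)
  set D := Subgroup.centralizer ({z} : Set H) with hDdef
  have hxD : (x : H) ∈ D := by
    rw [hDdef, Subgroup.mem_centralizer_singleton_iff]
    exact (hcP z (hRP hzR)).symm
  have hPD : P ≤ D := by
    intro u hu
    rw [hDdef, Subgroup.mem_centralizer_singleton_iff]
    exact (hzP u hu).symm
  -- `O_p(D)` as a subgroup of `H`
  set U : Subgroup H := (pCore p ↥D).map D.subtype with hUdef
  have hUD : U ≤ D := Subgroup.map_subtype_le _
  have hUp : IsPGroup p U := Lib.LocalCore.isPGroup_map_pCore p D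
  have hDU : D ≤ Subgroup.normalizer (U : Set H) := Lib.LocalCore.le_normalizer_map_pCore p D
  have hDU' : ∀ u ∈ U, u * (x : H) = x * u := by
    have hkey := Lib.ThompsonPQ.thompson_p_times_q p P (Subgroup.zpowers (x : H)) U hPp
      (by
        rw [Nat.card_zpowers, hxo]
        exact (Nat.coprime_primes hq hp.out).2 hne) hUp
      (by
        intro u hu
        rw [Subgroup.mem_centralizer_iff]
        intro y hy
        obtain ⟨k, rfl⟩ := Subgroup.mem_zpowers_iff.1 hy
        have hcomm : Commute (x : H) u := (hcP u hu).symm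
        exact (hcomm.zpow_left k).eq)
      (hPD.trans hDU)
      (by
        rw [Subgroup.zpowers_le]
        exact hDU hxD)
      (by
        -- `U ⊓ C(P)` is normal in `C_L(P) = C_H(P)`, so lies in `P`
        have hsub : U ⊓ Subgroup.centralizer (P : Set H) ≤ P := by
          -- the centralizer of `P`
          set C := Subgroup.centralizer (P : Set H) with hCdef
          have hCD : C ≤ D := by
            intro c hcC
            rw [hDdef, Subgroup.mem_centralizer_singleton_iff]
            exact ((Subgroup.mem_centralizer_iff.1 hcC) z (hRP hzR)).symm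
          have hCL : C ≤ L := by
            refine le_trans ?_ (Subgroup.centralizer_le_normalizer (R : Set H))
            exact Subgroup.centralizer_le hRP
          have hUC : C ≤ Subgroup.normalizer ((U ⊓ C : Subgroup H) : Set H) := by
            refine le_trans (le_inf (hCD.trans hDU) Subgroup.le_normalizer) ?_
            exact Subgroup.inf_normalizer_le_normalizer_inf
          have hUCp : IsPGroup p ↥(U ⊓ C : Subgroup H) := hUp.to_le inf_le_left
          -- `L` normalizes `C`
          have hLP : L ≤ Subgroup.normalizer (P : Set H) :=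
            Lib.LocalCore.le_normalizer_map_pCore p L
          have hLC : L ≤ Subgroup.normalizer (C : Set H) := by
            refine hLP.trans ?_
            exact OddOrderLocal.NilParts.normalizer_le_normalizer_centralizer _
          -- O_p(C) is normalized by L
          have h1 : U ⊓ C ≤ (pCore p ↥C).map C.subtype :=
            Lib.LocalCore.le_map_pCore inf_le_right hUCp hUC
          refine h1.trans ?_
          refine Lib.LocalCore.le_map_pCore ((Subgroup.map_subtype_le _).trans hCL)
            (Lib.LocalCore.isPGroup_map_pCore p C) ?_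
          exact hLC.trans (OddOrderLocal.NilParts.normalizer_le_of_characteristic _
            (Lib.Cores.pCore_characteristic p))
        intro u hu
        have huP := hsub hu
        rw [Subgroup.mem_centralizer_iff]
        intro y hy
        obtain ⟨k, rfl⟩ := Subgroup.mem_zpowers_iff.1 hy
        have hcomm : Commute (x : H) u := (hcP u huP).symm
        exact (hcomm.zpow_left k).eq)
    intro u hu
    exact (Subgroup.mem_centralizer_iff.1 (hkey (Subgroup.mem_zpowers (x : H)))) u hu
  refine hD.no_prime hq hne (x := ⟨x, hxD⟩) (by rw [← hxo]; exact (Subgroup.orderOf_coe (⟨x, hxD⟩ : D)).symm) ?_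
  intro u hu
  apply Subtype.ext
  exact hDU' u ⟨u, hu, rfl⟩

end Cfsg.Agent.H267.ChP
end

-- part: S3023
section
set_option autoImplicit false
open Cfsg

namespace Cfsg.Agent.S3023

open Subgroup H267.ChP

/-- A nontrivial `p`-subgroup `R` normalized by a Sylow `p`-subgroup `T` meets the centre of `T`. -/
theorem exists_central {H : Type*} [Group H] [Finite H] {p : ℕ} [Fact p.Prime] (R : Subgroup H)
    (hR : IsPGroup p R) (hR1 : R ≠ ⊥) (T : Sylow p H)
    (hT : (T : Subgroup H) ≤ Subgroup.normalizer (R : Set H)) :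
    R ≤ (T : Subgroup H) ∧ ∃ z : H, z ∈ R ∧ z ≠ 1 ∧ ∀ t ∈ (T : Subgroup H), z * t = t * z := by
  have hRT : R ≤ (T : Subgroup H) := by
    have hRn : (R.subgroupOf (Subgroup.normalizer (R : Set H))).Normal :=
      Subgroup.normal_in_normalizer
    have h1 : R.subgroupOf (Subgroup.normalizer (R : Set H)) ≤
        ((T.subtype hT : Sylow p ↥(Subgroup.normalizer (R : Set H))) :
          Subgroup ↥(Subgroup.normalizer (R : Set H))) :=
      (Lib.Cores.le_pCore hRn (hR.of_equiv
        (subgroupOfEquivOfLe Subgroup.le_normalizer).symm)).trans (Lib.Cores.pCore_le_sylow _)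
    intro r hr
    exact h1 (show (⟨r, Subgroup.le_normalizer hr⟩ :
      ↥(Subgroup.normalizer (R : Set H))) ∈ R.subgroupOf _ from hr)
  refine ⟨hRT, ?_⟩
  have hne : R.subgroupOf (T : Subgroup H) ≠ ⊥ := by
    intro h
    rw [Subgroup.subgroupOf_eq_bot, disjoint_iff, inf_eq_left.mpr hRT] at h
    exact hR1 h
  haveI : (R.subgroupOf (T : Subgroup H)).Normal :=
    Subgroup.normal_subgroupOf_of_le_normalizer hT
  haveI : Group.IsNilpotent ↥(T : Subgroup H) := T.isPGroup'.isNilpotent
  have hnt := Lib.NormalAbelian.normal_inf_center_ne_bot (R.subgroupOf (T : Subgroup H)) hne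
  rw [Subgroup.ne_bot_iff_exists_ne_one] at hnt
  obtain ⟨⟨z, hz1, hz2⟩, hz3⟩ := hnt
  refine ⟨z, hz1, ?_, ?_⟩
  · intro h
    apply hz3
    apply Subtype.ext
    apply Subtype.ext
    exact h
  · intro t ht
    have := Subgroup.mem_center_iff.1 hz2 ⟨t, ht⟩
    exact (congrArg Subtype.val this).symm

/-- Let G be a finite group, S a Sylow p-subgroup. -/
theorem charP_centralizer {G : Type*} [Group G] [Finite G] {p : ℕ} [Fact p.Prime]
    (hG : Cfsg.IsOfParabolicCharacteristic p G) (S : Sylow p G) (z : G) (hz1 : z ≠ 1)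
    (hzp : IsPGroup p ↥(Subgroup.zpowers z))
    (hzS : (S : Subgroup G) ≤ Subgroup.centralizer ({z} : Set G)) :
    H267.ChP.CharP p ↥(Subgroup.centralizer ({z} : Set G)) := by
  have hcn : Subgroup.centralizer ({z} : Set G) ≤
      Subgroup.normalizer ((Subgroup.zpowers z : Subgroup G) : Set G) := by
    have h : Subgroup.centralizer ({z} : Set G) =
        Subgroup.centralizer ((Subgroup.zpowers z : Subgroup G) : Set G) := by
      rw [Subgroup.zpowers_eq_closure, Subgroup.centralizer_closure]
    rw [h]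
    exact Subgroup.centralizer_le_normalizer _
  have h1 : H267.ChP.CharP p
      ↥(Subgroup.normalizer ((Subgroup.zpowers z : Subgroup G) : Set G)) := by
    refine hG (Subgroup.zpowers z) hzp ?_ ⟨S, hzS.trans hcn⟩
    rwa [Ne, Subgroup.zpowers_eq_bot]
  have hnorm : ((Subgroup.centralizer ({z} : Set G)).subgroupOf
      (Subgroup.normalizer ((Subgroup.zpowers z : Subgroup G) : Set G))).Normal := by
    refine Subgroup.normal_subgroupOf_of_le_normalizer ?_
    have h : Subgroup.centralizer ({z} : Set G) =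
        Subgroup.centralizer ((Subgroup.zpowers z : Subgroup G) : Set G) := by
      rw [Subgroup.zpowers_eq_closure, Subgroup.centralizer_closure]
    rw [h]
    exact OddOrderLocal.NilParts.normalizer_le_normalizer_centralizer _
  exact charP_congr (Subgroup.subgroupOfEquivOfLe hcn) (charP_normal h1 _ hnorm)

/-- Let p be a prime, G a finite group of parabolic characteristic p (every p-local subgroup containing a Sylow p-subgroup of G has characteristic p), S a Sylow p-subgroup of G and G₁ a subnormal subgroup of G. If the centre of S ∩ G₁ is nontrivial and contained in the centre of S, then G₁ has parabolic characteristic p. -/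
theorem result {G : Type*} [Group G] [Finite G] {p : ℕ} [Fact p.Prime] (hG : Cfsg.IsOfParabolicCharacteristic p G) (S : Sylow p G) (G₁ : Subgroup G) (hsn : G₁.IsSubnormal) (hne : ((S : Subgroup G) ⊓ G₁) ⊓ Subgroup.centralizer (((S : Subgroup G) ⊓ G₁ : Subgroup G) : Set G) ≠ ⊥) (hle : ((S : Subgroup G) ⊓ G₁) ⊓ Subgroup.centralizer (((S : Subgroup G) ⊓ G₁ : Subgroup G) : Set G) ≤ (S : Subgroup G) ⊓ Subgroup.centralizer ((S : Subgroup G) : Set G)) : Cfsg.IsOfParabolicCharacteristic p ↥G₁ := by
  intro R hR hR1 hpar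
  obtain ⟨T, hT⟩ := hpar
  -- `R ∩ Z(T) ≠ 1`
  obtain ⟨hRT, z, hzR, hz1, hzT⟩ := exists_central R hR hR1 T hT
  -- a conjugate of `T` is `S ∩ G₁`
  obtain ⟨Q, hQ⟩ := S0542.result p G₁ hsn S
  obtain ⟨g, hg⟩ := MulAction.exists_smul_eq ↥G₁ Q T
  have hzTm : z ∈ (T : Subgroup ↥G₁) := hRT hzR
  have hmemQ : ∀ x : ↥G₁, x ∈ (Q : Subgroup ↥G₁) ↔ g * x * g⁻¹ ∈ (T : Subgroup ↥G₁) := by
    intro x
    rw [← hg, Sylow.coe_subgroup_smul, Subgroup.mem_pointwise_smul_iff_inv_smul_mem]
    simp [MulAut.smul_def, ← mul_assoc]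
  have hQS : ∀ x : ↥G₁, x ∈ (Q : Subgroup ↥G₁) ↔ (x : G) ∈ (S : Subgroup G) := by
    intro x
    rw [hQ]; rfl
  -- the element `w = g⁻¹ z g` is in `Z(S ∩ G₁)`
  set w : ↥G₁ := g⁻¹ * z * g with hw
  have hwQ : w ∈ (Q : Subgroup ↥G₁) := by
    rw [hmemQ, hw]
    have : g * (g⁻¹ * z * g) * g⁻¹ = z := by group
    rw [this]; exact hzTm
  have hwc : (w : G) ∈ (S : Subgroup G) ⊓ Subgroup.centralizer ((S : Subgroup G) : Set G) := by
    apply hle
    refine ⟨⟨(hQS w).1 hwQ, w.2⟩, ?_⟩
    show (w : G) ∈ Subgroup.centralizer _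
    rw [Subgroup.mem_centralizer_iff]
    intro x hx
    have hxQ : (⟨x, hx.2⟩ : ↥G₁) ∈ (Q : Subgroup ↥G₁) := (hQS _).2 hx.1
    have h1 := (hmemQ _).1 hxQ
    have h2 := hzT _ h1
    have h3 : (⟨x, hx.2⟩ : ↥G₁) * w = w * ⟨x, hx.2⟩ := by
      rw [hw]
      have h4 : g⁻¹ * (z * (g * ⟨x, hx.2⟩ * g⁻¹)) * g = g⁻¹ * ((g * ⟨x, hx.2⟩ * g⁻¹) * z) * g := by
        rw [h2]
      have e1 : g⁻¹ * (z * (g * ⟨x, hx.2⟩ * g⁻¹)) * g = g⁻¹ * z * g * ⟨x, hx.2⟩ := by group
      have e2 : g⁻¹ * ((g * ⟨x, hx.2⟩ * g⁻¹) * z) * g = ⟨x, hx.2⟩ * (g⁻¹ * z * g) := by group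
      rw [← e1, ← e2, h4]
    exact congrArg Subtype.val h3
  -- so the Sylow subgroup `gSg⁻¹` centralizes `z`
  have hzS : ((((g : G) • S : Sylow p G)) : Subgroup G) ≤
      Subgroup.centralizer ({(z : G)} : Set G) := by
    intro y hy
    rw [Sylow.coe_subgroup_smul, Subgroup.mem_pointwise_smul_iff_inv_smul_mem] at hy
    have hy' : (g : G)⁻¹ * y * (g : G) ∈ (S : Subgroup G) := by
      simpa [MulAut.smul_def] using hy
    have h1 := (Subgroup.mem_centralizer_iff.1 hwc.2) _ hy'
    rw [Subgroup.mem_centralizer_singleton_iff]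
    have hwe : (w : G) = (g : G)⁻¹ * z * g := by rw [hw]; simp
    rw [hwe] at h1
    have e1 : (g : G) * ((g : G)⁻¹ * y * (g : G) * ((g : G)⁻¹ * z * g)) * (g : G)⁻¹ = y * z := by
      group
    have e2 : (g : G) * ((g : G)⁻¹ * z * g * ((g : G)⁻¹ * y * (g : G))) * (g : G)⁻¹ = z * y := by
      group
    rw [← e1, ← e2, h1]
  have hz1' : (z : G) ≠ 1 := by
    intro h
    exact hz1 (Subtype.ext h)
  have hzp : IsPGroup p ↥(Subgroup.zpowers (z : G)) := by
    have h1 : IsPGroup p ↥(Subgroup.zpowers z) :=
      hR.to_le (by rw [Subgroup.zpowers_le]; exact hzR)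
    have h2 := h1.map G₁.subtype
    rwa [MonoidHom.map_zpowers] at h2
  have hC := charP_centralizer hG _ (z : G) hz1' hzp hzS
  -- intersect with `G₁`
  have hsub : ((G₁.subgroupOf (Subgroup.centralizer ({(z : G)} : Set G)))).IsSubnormal :=
    hsn.subgroupOf
  have hD1 := charP_subnormal hC _ hsub
  have hD : H267.ChP.CharP p ↥(Subgroup.centralizer ({z} : Set ↥G₁)) := by
    refine charP_congr ?_ hD1
    exact
      { toFun := fun x => ⟨⟨(x : ↥(Subgroup.centralizer ({(z : G)} : Set G))), x.2⟩, by
          have h := x.1.2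
          rw [Subgroup.mem_centralizer_singleton_iff] at h ⊢
          exact Subtype.ext h⟩
        invFun := fun x => ⟨⟨((x : ↥G₁) : G), by
          have h := x.2
          rw [Subgroup.mem_centralizer_singleton_iff] at h ⊢
          exact congrArg Subtype.val h⟩, x.1.2⟩
        left_inv := fun x => rfl
        right_inv := fun x => rfl
        map_mul' := fun a b => rfl }
  exact charP_normalizer_of_central R hR T hT z hzR hzT hD

end Cfsg.Agent.S3023
end
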