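import Cfsg.Statements.S3025
import Cfsg.Agent.Solvable.UniqueOrderP
import Cfsg.Agent.Lib.SubnormalJoin
set_option linter.all false

set_option autoImplicit false
open Cfsg

namespace Cfsg.Agent.S3025

/-- Kernel of the conjugation action on a normal subgroup. -/
theorem ker_conjNormal {F : Type*} [Group F] (N : Subgroup F) [N.Normal] :
    (MulAut.conjNormal : F →* MulAut N).ker = Subgroup.centralizer (N : Set F) := by
  ext g
  rw [MonoidHom.mem_ker, Subgroup.mem_centralizer_iff]
  constructor
  · intro h x hx
    have h1 := congrArg (fun φ : MulAut N => ((φ ⟨x, hx⟩ : N) : F)) h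
    simp only [MulAut.conjNormal_apply, MulAut.one_apply] at h1
    calc x * g = (g * x * g⁻¹) * g := by rw [h1]
      _ = g * x := by group
  · intro h
    ext x
    simp only [MulAut.conjNormal_apply, MulAut.one_apply]
    rw [← h x x.2]
    group

/-- The quotient by the centralizer of a normal subgroup of prime order is cyclic of order
dividing `p - 1`. -/
theorem quot_prime {F : Type*} [Group F] [Finite F] (N : Subgroup F) [N.Normal]
    (hp : (Nat.card N).Prime) :
    (∃ g : F, Subgroup.centralizer (N : Set F) ⊔ Subgroup.zpowers g = ⊤) ∧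
      (Subgroup.centralizer (N : Set F)).index ∣ Nat.card N - 1 := by
  have : Fact (Nat.card N).Prime := ⟨hp⟩
  have : IsCyclic N := isCyclic_of_prime_card rfl
  set φ : F →* (ZMod (Nat.card N))ˣ :=
    (IsCyclic.mulAutMulEquiv N).toMonoidHom.comp (MulAut.conjNormal : F →* MulAut N) with hφ
  have hker : φ.ker = Subgroup.centralizer (N : Set F) := by
    rw [← ker_conjNormal N]
    ext g
    simp [hφ, MonoidHom.mem_ker]
  constructor
  · obtain ⟨y, hy⟩ := (inferInstance : IsCyclic φ.range).exists_generator
    obtain ⟨g, hg⟩ := y.2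
    refine ⟨g, ?_⟩
    rw [eq_top_iff]
    intro x _
    obtain ⟨n, hn⟩ := Subgroup.mem_zpowers_iff.1 (hy ⟨φ x, x, rfl⟩)
    have h1 : φ (g ^ n) = φ x := by
      rw [map_zpow, hg]
      have := congrArg Subtype.val hn
      simpa using this
    have h2 : x * (g ^ n)⁻¹ ∈ φ.ker := by
      rw [MonoidHom.mem_ker, map_mul, map_inv, h1, mul_inv_cancel]
    rw [hker] at h2
    have h3 : x = (x * (g ^ n)⁻¹) * g ^ n := by group
    rw [h3]
    exact Subgroup.mul_mem_sup h2 (Subgroup.zpow_mem_zpowers g n)
  · rw [← hker, Subgroup.index_ker]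
    have h := Subgroup.card_subgroup_dvd_card φ.range
    rw [Nat.card_eq_fintype_card (α := (ZMod (Nat.card N))ˣ), ZMod.card_units_eq_totient,
      Nat.totient_prime hp] at h
    exact h

/-- Let F be a finite group and H a nontrivial subgroup of F that is contained in every nontrivial subgroup of F which H normalizes. Then F has a nontrivial normal subgroup N contained in every nontrivial normal subgroup of F (a unique minimal normal subgroup), N is simple, and one of the following holds: C_F(N) = 1; or H = N has prime order p, C_F(N) is cyclic of order a power of p, and F/C_F(N) is cyclic of order dividing p − 1; or H = N has order 2, N is central in F, and F is a generalized quaternion group. -/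
theorem result {F : Type*} [Group F] [Finite F] (H : Subgroup F) (hH : H ≠ ⊥)
    (hmin : ∀ R : Subgroup F, R ≠ ⊥ → H ≤ Subgroup.normalizer (R : Set F) → H ≤ R) :
    ∃ N : Subgroup F, N.Normal ∧ N ≠ ⊥ ∧ (∀ M : Subgroup F, M.Normal → M ≠ ⊥ → N ≤ M) ∧ IsSimpleGroup ↥N ∧
      (Subgroup.centralizer (N : Set F) = ⊥ ∨
       (H = N ∧ (Nat.card N).Prime ∧ IsCyclic ↥(Subgroup.centralizer (N : Set F)) ∧
          (∃ k : ℕ, 1 ≤ k ∧ Nat.card ↥(Subgroup.centralizer (N : Set F)) = Nat.card N ^ k) ∧
          (∃ g : F, Subgroup.centralizer (N : Set F) ⊔ Subgroup.zpowers g = ⊤) ∧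
          (Subgroup.centralizer (N : Set F)).index ∣ Nat.card N - 1) ∨
       (H = N ∧ Nat.card N = 2 ∧ Subgroup.centralizer (N : Set F) = ⊤ ∧
          ∃ k : ℕ, 1 ≤ k ∧ Nonempty (F ≃* QuaternionGroup (2 ^ k)))) := by
  classical
  have hnorm : ∀ M : Subgroup F, M.Normal → M ≠ ⊥ → H ≤ M := fun M hM hM0 =>
    hmin M hM0 (by have := hM; rw [Subgroup.normalizer_eq_top]; exact le_top)
  have : Nontrivial F := by
    by_contra h
    rw [not_nontrivial_iff_subsingleton] at h
    exact hH (Subsingleton.elim _ _)
  obtain ⟨N, hN, hN0, hNmin⟩ := Cfsg.Agent.Lib.SubnormalJoin.exists_minimal_normal F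
  have := hN
  have hle : ∀ M : Subgroup F, M.Normal → M ≠ ⊥ → N ≤ M := by
    intro M hM hM0
    have := hM
    have h1 : H ≤ N ⊓ M := le_inf (hnorm N hN hN0) (hnorm M hM hM0)
    rcases hNmin (N ⊓ M) inferInstance inf_le_left with h | h
    · rw [h] at h1
      exact absurd (le_bot_iff.1 h1) hH
    · rw [← h]; exact inf_le_right
  have hHN : H ≤ N := hnorm N hN hN0
  have hsimple : IsSimpleGroup N := by
    have : Nontrivial N := (Subgroup.nontrivial_iff_ne_bot N).2 hN0
    refine ⟨fun K hK => ?_⟩
    by_cases hK0 : K = ⊥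
    · exact Or.inl hK0
    right
    set K' : Subgroup F := K.map N.subtype with hK'
    have hK'N : K' ≤ N := by
      rw [hK']; exact Subgroup.map_subtype_le K
    have hNK : ∀ n ∈ N, ∀ k ∈ K', n * k * n⁻¹ ∈ K' := by
      rintro n hn k ⟨k', hk', rfl⟩
      exact ⟨⟨n, hn⟩ * k' * ⟨n, hn⟩⁻¹, hK.conj_mem k' hk' ⟨n, hn⟩, by simp⟩
    have hK'0 : K' ≠ ⊥ := by
      intro h
      apply hK0
      rwa [hK', Subgroup.map_eq_bot_iff_of_injective _ N.subtype_injective] at h
    have hconj : ∀ g : F, H ≤ K'.map (MulAut.conj g).toMonoidHom := by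
      intro g
      apply hmin
      · intro h
        apply hK'0
        rwa [Subgroup.map_eq_bot_iff_of_injective _ (MulAut.conj g).injective] at h
      · refine hHN.trans ?_
        rw [Subgroup.le_normalizer_iff]
        rintro n hn x ⟨k, hk, rfl⟩
        have h1 : g⁻¹ * n * g ∈ N := by
          have := hN.conj_mem n hn g⁻¹
          simpa using this
        refine ⟨(g⁻¹ * n * g) * k * (g⁻¹ * n * g)⁻¹, hNK _ h1 k hk, ?_⟩
        simp only [MulEquiv.coe_toMonoidHom, MulAut.conj_apply]
        group
    have hcore : H ≤ K'.normalCore := by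
      intro x hx g
      obtain ⟨k, hk, hkx⟩ := hconj g⁻¹ hx
      have : g * x * g⁻¹ = k := by
        rw [← hkx]
        simp only [MulEquiv.coe_toMonoidHom, MulAut.conj_apply]
        group
      rw [this]; exact hk
    have hcore0 : K'.normalCore ≠ ⊥ := by
      intro h
      rw [h] at hcore
      exact hH (le_bot_iff.1 hcore)
    have h2 : N ≤ K' := (hle _ inferInstance hcore0).trans (Subgroup.normalCore_le K')
    rw [eq_top_iff]
    intro x _
    obtain ⟨k, hk, hkx⟩ := h2 x.2
    have : k = x := Subtype.ext hkx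
    rwa [← this]
  refine ⟨N, hN, hN0, hle, hsimple, ?_⟩
  by_cases hC : Subgroup.centralizer (N : Set F) = ⊥
  · exact Or.inl hC
  right
  have hNC : N ≤ Subgroup.centralizer (N : Set F) := hle _ inferInstance hC
  have hcomm : ∀ a b : N, a * b = b * a := by
    intro a b
    have := Subgroup.mem_centralizer_iff.1 (hNC b.2) a a.2
    exact Subtype.ext this
  have hpr : (Nat.card N).Prime := by
    let : CommGroup N := { (inferInstance : Group N) with mul_comm := hcomm }
    exact IsSimpleGroup.prime_card (α := N)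
  have hfp : Fact (Nat.card N).Prime := ⟨hpr⟩
  have hHeq : H = N := by
    refine le_antisymm hHN ?_
    have h1 : H.subgroupOf N ≠ ⊥ := by
      intro h
      rw [Subgroup.subgroupOf_eq_bot] at h
      exact hH (by rw [← inf_eq_left.2 hHN]; exact disjoint_iff.1 h)
    have hnn : (H.subgroupOf N).Normal := ⟨fun x hx g => by
      rw [hcomm g x]; simpa using hx⟩
    have h2 := (hsimple.eq_bot_or_eq_top_of_normal _ hnn).resolve_left h1
    exact Subgroup.subgroupOf_eq_top.1 h2
  have hCR : ∀ R : Subgroup F, R ≤ Subgroup.centralizer (N : Set F) → R ≠ ⊥ → N ≤ R := by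
    intro R hR hR0
    rw [← hHeq]
    apply hmin R hR0
    rw [hHeq, Subgroup.le_normalizer_iff]
    intro n hn r hr
    have := Subgroup.mem_centralizer_iff.1 (hR hr) n hn
    rw [this, mul_inv_cancel_right]; exact hr
  set C := Subgroup.centralizer (N : Set F) with hCdef
  have hcardC : ∃ k : ℕ, 1 ≤ k ∧ Nat.card C = Nat.card N ^ k := by
    have h1 : Nat.card C = Nat.card N ^ (Nat.card C).primeFactorsList.length := by
      apply Nat.eq_prime_pow_of_unique_prime_dvd Nat.card_pos.ne'
      intro q hq hqd
      have : Fact q.Prime := ⟨hq⟩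
      obtain ⟨x, hx⟩ := exists_prime_orderOf_dvd_card' (G := C) q hqd
      have h2 : N ≤ Subgroup.zpowers (x : F) := by
        apply hCR
        · rw [Subgroup.zpowers_le]; exact x.2
        · rw [Ne, Subgroup.zpowers_eq_bot]
          intro h
          have : x = 1 := Subtype.ext h
          rw [this, orderOf_one] at hx
          exact hq.one_lt.ne hx
      have h3 := Subgroup.card_dvd_of_le h2
      rw [Nat.card_zpowers, Subgroup.orderOf_coe, hx] at h3
      exact ((Nat.prime_dvd_prime_iff_eq hpr hq).1 h3).symm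
    refine ⟨_, ?_, h1⟩
    by_contra hlt
    have h0 : (Nat.card C).primeFactorsList.length = 0 := by omega
    rw [h0, pow_zero] at h1
    exact hC (Subgroup.card_eq_one.1 h1)
  have hpC : IsPGroup (Nat.card N) C := by
    obtain ⟨k, -, hk⟩ := hcardC
    exact IsPGroup.of_card hk
  have huniq : ∀ X Y : Subgroup C, Nat.card X = Nat.card N → Nat.card Y = Nat.card N → X = Y := by
    have key : ∀ X : Subgroup C, Nat.card X = Nat.card N → X.map C.subtype = N := by
      intro X hX
      have h1 : N ≤ X.map C.subtype := by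
        apply hCR
        · exact Subgroup.map_subtype_le X
        · intro h
          rw [Subgroup.map_eq_bot_iff_of_injective _ C.subtype_injective] at h
          rw [h, Subgroup.card_bot] at hX
          exact hpr.one_lt.ne hX
      have h2 : Nat.card (X.map C.subtype) = Nat.card X :=
        Subgroup.card_map_of_injective C.subtype_injective
      exact (Subgroup.eq_of_le_of_card_ge h1 (by rw [h2, hX])).symm
    intro X Y hX hY
    exact Subgroup.map_injective C.subtype_injective ((key X hX).trans (key Y hY).symm)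
  obtain ⟨hq1, hq2⟩ := quot_prime N hpr
  rcases Cfsg.Agent.Solvable.UniqueOrderP.cyclic_or_quaternion hpC
    (Cfsg.Agent.Solvable.UniqueOrderP.uniqueP_of_subgroup _ huniq) with hcyc | ⟨h2, m, hm, ⟨e⟩⟩
  · left
    exact ⟨hHeq, hpr, hcyc, hcardC, hq1, hq2⟩
  · right
    rw [h2] at hq2
    have hidx : C.index = 1 := Nat.dvd_one.1 hq2
    have hCt : C = ⊤ := Subgroup.index_eq_one.1 hidx
    refine ⟨hHeq, h2, hCt, m, Nat.one_le_iff_ne_zero.2 hm, ⟨?_⟩⟩
    exact (Subgroup.topEquiv.symm.trans (MulEquiv.subgroupCongr hCt.symm)).trans e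

end Cfsg.Agent.S3025
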