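import Cfsg.Statements.S3027
set_option linter.all false

set_option autoImplicit false
open Cfsg

namespace Cfsg.Agent.S3027

universe u

/-- Two normal supplements of `D`, with `G/D` perfect: their intersection is a supplement. -/
theorem inf_sup {G : Type*} [Group G] (D A B : Subgroup G) [hD : D.Normal]
    (hA : A.Normal) (hB : B.Normal)
    (hperf : ⁅(⊤ : Subgroup G), (⊤ : Subgroup G)⁆ ⊔ D = ⊤) (hAD : A ⊔ D = ⊤) (hBD : B ⊔ D = ⊤) :
    (A ⊓ B) ⊔ D = ⊤ := by
  have hE : ((A ⊓ B) ⊔ D).Normal := Subgroup.sup_normal _ _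
  rw [eq_top_iff, ← hperf]
  refine sup_le ?_ le_sup_right
  rw [Subgroup.commutator_le]
  intro x _ y _
  obtain ⟨a, ha, d, hd, rfl⟩ := Subgroup.mem_sup_of_normal_right.1 (hAD ▸ Subgroup.mem_top x : x ∈ A ⊔ D)
  obtain ⟨b, hb, e, he, rfl⟩ := Subgroup.mem_sup_of_normal_right.1 (hBD ▸ Subgroup.mem_top y : y ∈ B ⊔ D)
  rw [← QuotientGroup.eq_one_iff]
  have hd' : ((d : G) : G ⧸ (A ⊓ B) ⊔ D) = 1 :=
    (QuotientGroup.eq_one_iff d).2 ((le_sup_right : D ≤ (A ⊓ B) ⊔ D) hd)
  have he' : ((e : G) : G ⧸ (A ⊓ B) ⊔ D) = 1 :=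
    (QuotientGroup.eq_one_iff e).2 ((le_sup_right : D ≤ (A ⊓ B) ⊔ D) he)
  have hab : ((a * b * a⁻¹ * b⁻¹ : G) : G ⧸ (A ⊓ B) ⊔ D) = 1 := by
    rw [QuotientGroup.eq_one_iff]
    apply (le_sup_left : A ⊓ B ≤ (A ⊓ B) ⊔ D)
    exact Subgroup.commutator_le_inf A B (Subgroup.commutator_mem_commutator ha hb)
  rw [commutatorElement_def]
  simp only [QuotientGroup.mk_mul, QuotientGroup.mk_inv, hd', he', mul_one] at hab ⊢
  exact hab

theorem exists_least {G : Type*} [Group G] [Finite G] (D : Subgroup G) [hD : D.Normal]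
    (hperf : ⁅(⊤ : Subgroup G), (⊤ : Subgroup G)⁆ ⊔ D = ⊤) :
    ∃ B : Subgroup G, B.Normal ∧ B ⊔ D = ⊤ ∧ ∀ B' : Subgroup G, B'.Normal → B' ⊔ D = ⊤ → B ≤ B' := by
  have hfin : Set.Finite {B : Subgroup G | B.Normal ∧ B ⊔ D = ⊤} := Set.toFinite _
  obtain ⟨B, hB⟩ := hfin.exists_minimal ⟨⊤, inferInstance, top_sup_eq _⟩
  refine ⟨B, hB.prop.1, hB.prop.2, fun B' hB' hB'D => ?_⟩
  have h1 : (B ⊓ B').Normal := by
    have := hB.prop.1
    exact inferInstance
  have h2 := inf_sup D B B' hB.prop.1 hB' hperf hB.prop.2 hB'D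
  exact (hB.le_of_le ⟨h1, h2⟩ inf_le_left).trans inf_le_right

theorem main (n : ℕ) : ∀ (G : Type u) [Group G] [Finite G], Nat.card G = n → ∀ (D : Subgroup G) [D.Normal],
    ⁅(⊤ : Subgroup G), (⊤ : Subgroup G)⁆ ⊔ D = ⊤ → ∀ A : Subgroup G, A.IsSubnormal → A ⊔ D = ⊤ →
    ∃ N : Subgroup G, N.Normal ∧ N ≤ A ∧ N ⊔ D = ⊤ := by
  induction n using Nat.strong_induction_on with
  | _ n ih =>
    intro G _ _ hn D hD hperf A hA hAD
    by_cases hAt : A = ⊤
    · exact ⟨⊤, inferInstance, by rw [hAt], top_sup_eq _⟩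
    obtain ⟨K, hK, hAK, hKt⟩ := hA.exists_normal_and_le_and_lt_top_of_ne hAt
    have hcard : Nat.card K < n := by
      rw [← hn]
      rw [← Subgroup.card_top (G := G)]
      refine lt_of_le_of_ne (Subgroup.card_le_of_le le_top) fun h => ?_
      exact hKt.ne (Subgroup.eq_of_le_of_card_ge le_top h.ge)
    have hKD : K ⊔ D = ⊤ := by
      rw [eq_top_iff, ← hAD]; exact sup_le_sup_right hAK D
    have hAD' : A.subgroupOf K ⊔ D.subgroupOf K = ⊤ := by
      rw [eq_top_iff]
      rintro k -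
      obtain ⟨a, ha, d, hd, hk⟩ := Subgroup.mem_sup_of_normal_right.1 (hAD ▸ Subgroup.mem_top (k : G) : (k : G) ∈ A ⊔ D)
      have hdK : d ∈ K := by
        have : d = a⁻¹ * k := by rw [← hk]; group
        rw [this]; exact K.mul_mem (K.inv_mem (hAK ha)) k.2
      have : k = (⟨a, hAK ha⟩ : K) * ⟨d, hdK⟩ := Subtype.ext hk.symm
      rw [this]
      exact Subgroup.mul_mem_sup ha hd
    have hperf' : ⁅(⊤ : Subgroup K), (⊤ : Subgroup K)⁆ ⊔ D.subgroupOf K = ⊤ := by
      have h1 : (⁅(⊤ : Subgroup K), (⊤ : Subgroup K)⁆).map K.subtype = ⁅K, K⁆ := by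
        rw [Subgroup.map_commutator, ← MonoidHom.range_eq_map, Subgroup.range_subtype]
      have h2 : ⁅K, K⁆ ⊔ D = ⊤ := by
        have hE : (⁅K, K⁆ ⊔ D).Normal := Subgroup.sup_normal _ _
        rw [eq_top_iff, ← hperf]
        refine sup_le ?_ le_sup_right
        rw [Subgroup.commutator_le]
        intro x _ y _
        obtain ⟨a, ha, d, hd, rfl⟩ := Subgroup.mem_sup_of_normal_right.1 (hKD ▸ Subgroup.mem_top x : x ∈ K ⊔ D)
        obtain ⟨b, hb, e, he, rfl⟩ := Subgroup.mem_sup_of_normal_right.1 (hKD ▸ Subgroup.mem_top y : y ∈ K ⊔ D)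
        rw [← QuotientGroup.eq_one_iff]
        have hd' : ((d : G) : G ⧸ ⁅K, K⁆ ⊔ D) = 1 :=
          (QuotientGroup.eq_one_iff d).2 ((le_sup_right : D ≤ ⁅K, K⁆ ⊔ D) hd)
        have he' : ((e : G) : G ⧸ ⁅K, K⁆ ⊔ D) = 1 :=
          (QuotientGroup.eq_one_iff e).2 ((le_sup_right : D ≤ ⁅K, K⁆ ⊔ D) he)
        have hab : ((a * b * a⁻¹ * b⁻¹ : G) : G ⧸ ⁅K, K⁆ ⊔ D) = 1 := by
          rw [QuotientGroup.eq_one_iff]
          apply (le_sup_left : ⁅K, K⁆ ≤ ⁅K, K⁆ ⊔ D)
          exact Subgroup.commutator_mem_commutator ha hb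
        rw [commutatorElement_def]
        simp only [QuotientGroup.mk_mul, QuotientGroup.mk_inv, hd', he', mul_one] at hab ⊢
        exact hab
      rw [eq_top_iff]
      rintro k -
      obtain ⟨a, ha, d, hd, hk⟩ := Subgroup.mem_sup_of_normal_right.1
        (h2 ▸ Subgroup.mem_top (k : G) : (k : G) ∈ ⁅K, K⁆ ⊔ D)
      rw [← h1] at ha
      obtain ⟨a', ha', rfl⟩ := ha
      have hdK : d ∈ K := by
        have : d = (a' : G)⁻¹ * k := by rw [← hk]; simp
        rw [this]; exact K.mul_mem (K.inv_mem a'.2) k.2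
      have : k = a' * ⟨d, hdK⟩ := Subtype.ext hk.symm
      rw [this]
      exact Subgroup.mul_mem_sup ha' hd
    have hDK : (D.subgroupOf K).Normal := inferInstance
    obtain ⟨N, hN, hNA, hND⟩ := ih (Nat.card K) hcard K rfl (D.subgroupOf K) hperf' (A.subgroupOf K)
      hA.subgroupOf hAD'
    obtain ⟨B, hB, hBD, hBmin⟩ := exists_least (D.subgroupOf K) hperf'
    refine ⟨B.map K.subtype, ⟨?_⟩, ?_, ?_⟩
    · rintro x ⟨b, hb, rfl⟩ g
      -- `B` is contained in its image under conjugation by `g⁻¹`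
      have h3 : B ≤ B.map (MulAut.conjNormal g⁻¹ : MulAut K).toMonoidHom := by
        apply hBmin
        · exact hB.map _ (MulAut.conjNormal g⁻¹ : MulAut K).surjective
        · have h4 : (D.subgroupOf K).map (MulAut.conjNormal g⁻¹ : MulAut K).toMonoidHom
              = D.subgroupOf K := by
            apply le_antisymm
            · rintro _ ⟨d, hd, rfl⟩
              rw [Subgroup.mem_subgroupOf]
              simp only [MulEquiv.coe_toMonoidHom, MulAut.conjNormal_apply]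
              exact hD.conj_mem _ hd _
            · intro d hd
              refine ⟨MulAut.conjNormal g d, ?_, ?_⟩
              · show ((MulAut.conjNormal g d : K) : G) ∈ D
                rw [MulAut.conjNormal_apply]
                exact hD.conj_mem _ hd _
              · ext
                simp only [MulEquiv.coe_toMonoidHom, MulAut.conjNormal_apply]
                group
          rw [← h4, ← Subgroup.map_sup, hBD, ← MonoidHom.range_eq_map]
          exact MonoidHom.range_eq_top.2 (MulAut.conjNormal g⁻¹ : MulAut K).surjective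
      obtain ⟨c, hc, hcb⟩ := h3 hb
      refine ⟨c, hc, ?_⟩
      have h5 := congrArg Subtype.val hcb
      simp only [MulEquiv.coe_toMonoidHom, MulAut.conjNormal_apply] at h5
      simp only [Subgroup.coe_subtype]
      rw [← h5]
      group
    · rintro _ ⟨b, hb, rfl⟩
      exact hNA (hBmin N hN hND hb)
    · rw [eq_top_iff, ← hKD]
      refine sup_le ?_ le_sup_right
      intro k hk
      obtain ⟨b, hb, d, hd, hk'⟩ := Subgroup.mem_sup_of_normal_right.1
        (hBD ▸ Subgroup.mem_top (⟨k, hk⟩ : K) : (⟨k, hk⟩ : K) ∈ B ⊔ D.subgroupOf K)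
      have : k = (b : G) * (d : G) := (congrArg Subtype.val hk').symm
      rw [this]
      exact Subgroup.mul_mem_sup ⟨b, hb, rfl⟩ hd

/-- Let G be a finite group and D a normal subgroup of G such that G/D is perfect (that is, G = G′D). Then among the subnormal subgroups B of G with BD = G there is a least one, and it is normal in G. -/
theorem result {G : Type*} [Group G] [Finite G] (D : Subgroup G) [D.Normal] (hperf : ⁅(⊤ : Subgroup G), (⊤ : Subgroup G)⁆ ⊔ D = ⊤) :
    ∃ B : Subgroup G, B.Normal ∧ B ⊔ D = ⊤ ∧ ∀ B' : Subgroup G, B'.IsSubnormal → B' ⊔ D = ⊤ → B ≤ B' := by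
  obtain ⟨B, hB, hBD, hBmin⟩ := exists_least D hperf
  refine ⟨B, hB, hBD, fun B' hB' hB'D => ?_⟩
  obtain ⟨N, hN, hNB, hND⟩ := main (Nat.card G) G rfl D hperf B' hB' hB'D
  exact (hBmin N hN hND).trans hNB

end Cfsg.Agent.S3027
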