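import Mathlib
import Cfsg.Prelude.Def_SolvableStructure
import Cfsg.Agent.H269.StrongFixed
import Cfsg.Agent.Characters.CNBasic
import Cfsg.Agent.SolvableStructure.SupersolvableBasic
import Cfsg.Agent.H466.RealLift
import Cfsg.Agent.PLocal.PConstrained
import Cfsg.Agent.Transfer.NormalPComplement
import Cfsg.Agent.Transfer.Residual
import Cfsg.Statements.S3032
set_option linter.all false

-- part: H269/Eigen
section
/-!
# Chief factors of prime order

* `exists_eigen`: an endomorphism `φ` of a nontrivial elementary abelian `q`-group with `φ ^ q = φ` has an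
  eigenvector.
* `exists_normal_of_order`: if `N ≠ 1` is an elementary abelian normal `q`-subgroup of `G` centralized by all
  commutators and all `(q - 1)`-th powers of elements of `G`, then `N` contains a normal subgroup of `G` of order `q`.
-/

set_option autoImplicit false

namespace Cfsg.Agent.H269

open Subgroup
open scoped commutatorElement

/-- An endomorphism `φ` of a nontrivial finite elementary abelian `q`-group with `φ ^ q = φ` has an
eigenvector. -/
theorem exists_eigen {A : Type*} [CommGroup A] [Finite A] [Nontrivial A] {q : ℕ} [hq : Fact q.Prime]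
    (hA : ∀ a : A, a ^ q = 1) (φ : A →* A) (hφ : ∀ a : A, φ^[q] a = φ a) :
    ∃ (c : ℕ) (a : A), a ≠ 1 ∧ φ a = a ^ c := by
  let _ : Module (ZMod q) (Additive A) := AddCommGroup.zmodModule (n := q) (fun x => hA x.toMul)
  let f : Module.End (ZMod q) (Additive A) := (MonoidHom.toAdditive φ).toZModLinearMap q
  have hf1 : ∀ x : Additive A, f x = Additive.ofMul (φ x.toMul) := fun x => rfl
  have hfk : ∀ (k : ℕ) (x : Additive A), (f ^ k) x = Additive.ofMul (φ^[k] x.toMul) := by
    intro k
    induction k with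
    | zero => intro x; rfl
    | succ k ih =>
      intro x
      rw [pow_succ, Module.End.mul_apply, ih, hf1, Function.iterate_succ, Function.comp_apply]
      rfl
  have haev : Polynomial.aeval f (Polynomial.X ^ q - Polynomial.X : Polynomial (ZMod q)) = 0 := by
    rw [map_sub, map_pow, Polynomial.aeval_X, sub_eq_zero]
    apply LinearMap.ext
    intro x
    rw [hfk, hφ, hf1]
  have hdvd := minpoly.dvd (ZMod q) f haev
  have hne : (Polynomial.X ^ q - Polynomial.X : Polynomial (ZMod q)) ≠ 0 :=
    FiniteField.X_pow_card_sub_X_ne_zero _ hq.out.one_lt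
  have hsplit : (Polynomial.X ^ q - Polynomial.X : Polynomial (ZMod q)).Splits := by
    have h := FiniteField.splits_X_pow_card_sub_X (K := ZMod q) (p := q)
    rw [ZMod.card] at h
    have h2 : algebraMap (ZMod q) (ZMod q) = RingHom.id _ := rfl
    rw [h2, Polynomial.map_id] at h
    exact h
  have hsp := hsplit.of_dvd hne hdvd
  have hfin : Module.Finite (ZMod q) (Additive A) := Module.Finite.of_finite
  have hnt : Nontrivial (Additive A) := inferInstance
  have hdeg : (minpoly (ZMod q) f).degree ≠ 0 := by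
    have hint : IsIntegral (ZMod q) f := Algebra.IsIntegral.isIntegral f
    exact (minpoly.degree_pos hint).ne'
  obtain ⟨μ, hμ⟩ := hsp.exists_eval_eq_zero hdeg
  have hev := Module.End.hasEigenvalue_of_isRoot (f := f) (μ := μ) hμ
  obtain ⟨v, hv⟩ := hev.exists_hasEigenvector
  refine ⟨μ.val, v.toMul, ?_, ?_⟩
  · intro h
    exact hv.2 (by
      have : Additive.ofMul v.toMul = Additive.ofMul 1 := congrArg _ h
      exact this)
  · have h1 := hv.apply_eq_smul
    have h2 : μ • v = μ.val • v := by
      conv_lhs => rw [← ZMod.natCast_zmod_val μ]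
      rw [Nat.cast_smul_eq_nsmul]
    rw [h2, hf1] at h1
    exact h1

/-- If `N ≠ 1` is an elementary abelian normal `q`-subgroup of `G` centralized by all commutators and all
`(q - 1)`-th powers of elements of `G`, then `N` contains a normal subgroup of `G` of order `q`. -/
theorem exists_normal_of_order {G : Type*} [Group G] [Finite G] {q : ℕ} [hq : Fact q.Prime] : ∀ (n : ℕ)
    (N : Subgroup G), N.Normal → Nat.card N = n → N ≠ ⊥ → (∀ a ∈ N, ∀ b ∈ N, a * b = b * a) →
    (∀ a ∈ N, a ^ q = 1) → (∀ z ∈ N, ∀ a b : G, ⁅a, b⁆ * z = z * ⁅a, b⁆) →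
    (∀ z ∈ N, ∀ a : G, a ^ (q - 1) * z = z * a ^ (q - 1)) →
    ∃ M ≤ N, M.Normal ∧ Nat.card M = q := by
  intro n
  induction n using Nat.strong_induction_on with
  | _ n ih =>
  intro N hNn hcard hne hab hexp hcomm hpow
  by_cases hall : ∀ a : G, ∃ c : ℕ, ∀ z ∈ N, a * z * a⁻¹ = z ^ c
  · obtain ⟨⟨z, hz⟩, hz0⟩ := Subgroup.ne_bot_iff_exists_ne_one.1 hne
    have hz1 : z ≠ 1 := fun h' => hz0 (Subtype.ext h')
    have hzq : orderOf (z : G) = q := orderOf_eq_prime (hexp _ hz) hz1
    refine ⟨zpowers (z : G), zpowers_le.2 hz, ⟨?_⟩, by rw [Nat.card_zpowers, hzq]⟩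
    rintro _ ⟨k, rfl⟩ g
    obtain ⟨c, hc⟩ := hall g
    have h1 : g * (z : G) ^ k * g⁻¹ = (g * z * g⁻¹) ^ k := by rw [conj_zpow]
    show g * (z : G) ^ k * g⁻¹ ∈ zpowers (z : G)
    rw [h1, hc _ hz]
    exact zpow_mem (pow_mem (mem_zpowers _) c) k
  · push Not at hall
    obtain ⟨a, ha⟩ := hall
    let _ : CommGroup N := { (inferInstance : Group N) with mul_comm := fun x y => Subtype.ext (hab x x.2 y y.2) }
    have : Nontrivial N := (Subgroup.nontrivial_iff_ne_bot N).2 hne
    let φ : N →* N :=
      { toFun := fun z => ⟨a * z * a⁻¹, hNn.conj_mem z z.2 a⟩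
        map_one' := Subtype.ext (by simp)
        map_mul' := fun x y => Subtype.ext (by simp [mul_assoc]) }
    have hφk : ∀ (k : ℕ) (z : N), ((φ^[k] z : N) : G) = a ^ k * z * (a ^ k)⁻¹ := by
      intro k
      induction k with
      | zero => intro z; simp
      | succ k ihk =>
        intro z
        rw [Function.iterate_succ, Function.comp_apply, ihk]
        show a ^ k * (a * z * a⁻¹) * (a ^ k)⁻¹ = _
        rw [pow_succ]
        group
    obtain ⟨c, z, hz1, hz⟩ := exists_eigen (A := N) (q := q) (fun x => Subtype.ext (by simpa using hexp x x.2)) φ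
      (by
        intro z
        apply Subtype.ext
        rw [hφk]
        show a ^ q * (z : G) * (a ^ q)⁻¹ = a * z * a⁻¹
        obtain ⟨m, hm⟩ : ∃ m, q = m + 1 := ⟨q - 1, by have := hq.out.pos; omega⟩
        have h1 := hpow z z.2 a
        have h2 : q - 1 = m := by omega
        rw [h2] at h1
        rw [hm, pow_succ']
        calc a * a ^ m * (z : G) * (a * a ^ m)⁻¹ = a * (a ^ m * z) * (a * a ^ m)⁻¹ := by group
          _ = a * (z * a ^ m) * (a * a ^ m)⁻¹ := by rw [h1]
          _ = a * z * a⁻¹ := by group)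
    -- the eigenspace
    let Nc : Subgroup G :=
      { carrier := {x | x ∈ N ∧ a * x * a⁻¹ = x ^ c}
        one_mem' := ⟨one_mem _, by simp⟩
        mul_mem' := by
          rintro x y ⟨hx, hx'⟩ ⟨hy, hy'⟩
          refine ⟨mul_mem hx hy, ?_⟩
          have hcxy : Commute x y := hab x hx y hy
          rw [hcxy.mul_pow, ← hx', ← hy']
          group
        inv_mem' := by
          rintro x ⟨hx, hx'⟩
          refine ⟨inv_mem hx, ?_⟩
          rw [inv_pow, ← hx']
          group }
    have hmem : ∀ x, x ∈ Nc ↔ x ∈ N ∧ a * x * a⁻¹ = x ^ c := fun x => Iff.rfl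
    have hNcN : Nc ≤ N := fun x hx => hx.1
    have hNcn : Nc.Normal := by
      refine ⟨fun x hx g => ?_⟩
      obtain ⟨hx1, hx2⟩ := (hmem x).1 hx
      refine (hmem _).2 ⟨hNn.conj_mem x hx1 g, ?_⟩
      have h1 := hcomm x hx1 a⁻¹ g⁻¹
      have h2 : a * (g * x * g⁻¹) * a⁻¹ = g * (a * (⁅a⁻¹, g⁻¹⁆ * x * ⁅a⁻¹, g⁻¹⁆⁻¹) * a⁻¹) * g⁻¹ := by
        rw [commutatorElement_def]; group
      rw [h2, h1, mul_inv_cancel_right, hx2]
      rw [conj_pow]
    have hNc1 : Nc ≠ ⊥ := by
      intro h
      have h1 : (z : G) ∈ Nc := (hmem _).2 ⟨z.2, by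
        have h3 : ((φ z : N) : G) = ((z ^ c : N) : G) := congrArg (fun w : N => (w : G)) hz
        exact h3⟩
      rw [h, mem_bot] at h1
      exact hz1 (Subtype.ext h1)
    have hlt : Nat.card Nc < n := by
      rw [← hcard]
      apply lt_of_le_of_ne (Subgroup.card_le_of_le hNcN)
      intro h
      have h1 : Nc = N := Subgroup.eq_of_le_of_card_ge hNcN h.ge
      obtain ⟨w, hw, hw'⟩ := ha c
      rw [← h1] at hw
      exact hw' ((hmem w).1 hw).2
    obtain ⟨M, hM1, hM2, hM3⟩ := ih _ hlt Nc hNcn rfl hNc1 (fun x hx y hy => hab x (hNcN hx) y (hNcN hy))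
      (fun x hx => hexp x (hNcN hx)) (fun x hx => hcomm x (hNcN hx)) (fun x hx => hpow x (hNcN hx))
    exact ⟨M, hM1.trans hNcN, hM2, hM3⟩

end Cfsg.Agent.H269
end

-- part: H269/SupersolvStep
section
/-!
# Supersolvability from a normal `q`-subgroup all of whose subgroups of one order are normal
-/

set_option autoImplicit false

namespace Cfsg.Agent.H269

open Subgroup
open scoped commutatorElement

universe u

/-- The part of order prime to `q` of an element as a power which does not move images of order prime to `q`. -/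
theorem exists_coprime_pow {G : Type*} [Group G] [Finite G] {q : ℕ} [hq : Fact q.Prime] (w : G) :
    ∃ t : ℕ, (orderOf (w ^ t)).Coprime q ∧
      ∀ {H : Type u} [Group H] (f : G →* H), (orderOf (f w)).Coprime q → f (w ^ t) = f w := by
  obtain ⟨c, m, hm, hcm⟩ := Nat.exists_eq_pow_mul_and_not_dvd (orderOf_pos w).ne' q hq.out.ne_one
  have hmc : m.Coprime q := ((Nat.Prime.coprime_iff_not_dvd hq.out).2 hm).symm
  have hcop : (q ^ c).Coprime m := (Nat.Coprime.pow_right c hmc).symm
  obtain ⟨t, ht⟩ := Nat.chineseRemainder hcop 0 1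
  have ht0 : q ^ c ∣ t := (Nat.modEq_zero_iff_dvd).1 ht.1
  have ht1 : t ≡ 1 [MOD m] := ht.2
  refine ⟨t, ?_, ?_⟩
  · apply Nat.Coprime.coprime_dvd_left _ hmc
    apply orderOf_dvd_of_pow_eq_one
    rw [← pow_mul]
    apply orderOf_dvd_iff_pow_eq_one.1
    rw [hcm]
    exact Nat.mul_dvd_mul_right ht0 m
  · intro H _ f hf
    have h1 : orderOf (f w) ∣ m := by
      have h2 := orderOf_map_dvd f w
      rw [hcm] at h2
      exact (Nat.Coprime.pow_right c hf).dvd_of_dvd_mul_left h2
    have h2 : t ≡ 1 [MOD orderOf (f w)] := ht1.of_dvd h1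
    rw [map_pow]
    have h3 := pow_eq_pow_iff_modEq.2 h2
    rw [h3, pow_one]

/-- The subgroup generated by all commutators and all `n`-th powers. -/
def powComm (G : Type*) [Group G] (n : ℕ) : Subgroup G :=
  closure ({x | ∃ a b : G, x = ⁅a, b⁆} ∪ {x | ∃ a : G, x = a ^ n})

theorem commutator_mem_powComm {G : Type*} [Group G] (n : ℕ) (a b : G) : ⁅a, b⁆ ∈ powComm G n :=
  subset_closure (Or.inl ⟨a, b, rfl⟩)

theorem pow_mem_powComm {G : Type*} [Group G] (n : ℕ) (a : G) : a ^ n ∈ powComm G n :=
  subset_closure (Or.inr ⟨a, rfl⟩)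

theorem powComm_normal {G : Type*} [Group G] (n : ℕ) : (powComm G n).Normal := by
  refine ⟨fun x hx g => ?_⟩
  have h : powComm G n ≤ (powComm G n).comap (MulAut.conj g).toMonoidHom := by
    rw [powComm, closure_le]
    rintro y (⟨a, b, rfl⟩ | ⟨a, rfl⟩)
    · show (MulAut.conj g).toMonoidHom ⁅a, b⁆ ∈ powComm G n
      rw [map_commutatorElement]
      exact commutator_mem_powComm n _ _
    · show (MulAut.conj g).toMonoidHom (a ^ n) ∈ powComm G n
      rw [map_pow]
      exact pow_mem_powComm n _
  exact h hx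

theorem powComm_map {G H : Type*} [Group G] [Group H] (n : ℕ) (f : G →* H) (hf : Function.Surjective f) :
    (powComm G n).map f = powComm H n := by
  apply le_antisymm
  · rw [map_le_iff_le_comap, powComm, closure_le]
    rintro y (⟨a, b, rfl⟩ | ⟨a, rfl⟩)
    · show f ⁅a, b⁆ ∈ powComm H n
      rw [map_commutatorElement]
      exact commutator_mem_powComm n _ _
    · show f (a ^ n) ∈ powComm H n
      rw [map_pow]
      exact pow_mem_powComm n _
  · rw [powComm, closure_le]
    rintro y (⟨a, b, rfl⟩ | ⟨a, rfl⟩)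
    · obtain ⟨a, rfl⟩ := hf a
      obtain ⟨b, rfl⟩ := hf b
      exact ⟨⁅a, b⁆, commutator_mem_powComm n a b, map_commutatorElement f a b⟩
    · obtain ⟨a, rfl⟩ := hf a
      exact ⟨a ^ n, pow_mem_powComm n a, map_pow f a n⟩

/-- **Extension theorem.** `Q` a normal `q`-subgroup of the finite group `G` with `G / Q` supersolvable such that
all `q'`-elements in the subgroup generated by the commutators and `(q - 1)`-th powers centralize `Q`. Then `G` is
supersolvable. -/
theorem isSupersolvable_of_powComm {q : ℕ} [hq : Fact q.Prime] : ∀ (n : ℕ) {G : Type u} [Group G] [Finite G]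
    (Q : Subgroup G) [Q.Normal], Nat.card G = n → IsPGroup q Q →
    (∀ x ∈ powComm G (q - 1), (orderOf x).Coprime q → ∀ r ∈ Q, x * r = r * x) →
    Cfsg.IsSupersolvable (G ⧸ Q) → Cfsg.IsSupersolvable G := by
  intro n
  induction n using Nat.strong_induction_on with
  | _ n ih =>
  intro G _ _ Q hQn hcard hQ hcent hss
  by_cases hbot : Q = ⊥
  · subst hbot
    exact SolvableStructure.SupersolvableBasic.of_mulEquiv hss QuotientGroup.quotientBot
  · set G₀ := powComm G (q - 1) with hG₀
    have hG₀n : G₀.Normal := powComm_normal _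
    -- a Sylow `q`-subgroup of `G₀`
    obtain ⟨S⟩ : Nonempty (Sylow q G₀) := inferInstance
    let S' : Subgroup G := (S : Subgroup G₀).map G₀.subtype
    have hS' : IsPGroup q S' := S.isPGroup'.map _
    have hSQ : IsPGroup q (S' ⊔ Q : Subgroup G) := hS'.to_sup_of_normal_right hQ
    obtain ⟨w, hwQ, hw1, hw⟩ := Characters.CNBasic.exists_mem_center_of_normal (S' ⊔ Q : Subgroup G) hSQ Q hQ hbot
      (fun t _ d hd => hQn.conj_mem d hd t)
    -- `w` is centralized by `G₀`
    have hwG₀ : G₀ ≤ centralizer {w} := by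
      apply le_of_coprime_of_relIndex (p := q) (S := S')
      · intro s hs
        rw [mem_centralizer_singleton_iff]
        exact hw s (le_sup_left (b := Q) hs)
      · have h1 : S'.relIndex G₀ = (S : Subgroup G₀).index := by
          rw [relIndex, subgroupOf, comap_map_eq_self_of_injective (Subgroup.subtype_injective _)]
        rw [h1]
        exact S.not_dvd_index
      · intro x hx hxq
        rw [mem_centralizer_singleton_iff]
        exact hcent x hx hxq w hwQ
    -- the normal subgroup
    let N₁ : Subgroup G := Q ⊓ centralizer (G₀ : Set G) ⊓ centralizer (Q : Set G)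
    have hN₁n : N₁.Normal := by
      have h1 : (centralizer (G₀ : Set G)).Normal := inferInstance
      have h2 : (centralizer (Q : Set G)).Normal := inferInstance
      infer_instance
    have hN₁ : ∀ x, x ∈ N₁ ↔ (x ∈ Q ∧ x ∈ centralizer (G₀ : Set G)) ∧ x ∈ centralizer (Q : Set G) := fun x => by
      rw [mem_inf, mem_inf]
    have hab : ∀ a ∈ N₁, ∀ b ∈ N₁, a * b = b * a := by
      intro a ha b hb
      have := mem_centralizer_iff.1 ((hN₁ a).1 ha).2 b ((hN₁ b).1 hb).1.1
      exact this.symm
    let N₂ : Subgroup G :=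
      { carrier := {x | x ∈ N₁ ∧ x ^ q = 1}
        one_mem' := ⟨one_mem _, one_pow _⟩
        mul_mem' := by
          rintro x y ⟨hx, hx'⟩ ⟨hy, hy'⟩
          refine ⟨mul_mem hx hy, ?_⟩
          have hc : Commute x y := hab x hx y hy
          rw [hc.mul_pow, hx', hy', one_mul]
        inv_mem' := by
          rintro x ⟨hx, hx'⟩
          exact ⟨inv_mem hx, by rw [inv_pow, hx', inv_one]⟩ }
    have hN₂ : ∀ x, x ∈ N₂ ↔ x ∈ N₁ ∧ x ^ q = 1 := fun x => Iff.rfl
    have hN₂n : N₂.Normal := by
      refine ⟨fun x hx g => ?_⟩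
      obtain ⟨h1, h2⟩ := (hN₂ x).1 hx
      exact (hN₂ _).2 ⟨hN₁n.conj_mem x h1 g, by rw [conj_pow, h2, mul_one, mul_inv_cancel]⟩
    have hwN₁ : w ∈ N₁ := by
      refine (hN₁ w).2 ⟨⟨hwQ, ?_⟩, ?_⟩
      · rw [mem_centralizer_iff]
        intro g hg
        exact (mem_centralizer_singleton_iff.1 (hwG₀ hg))
      · rw [mem_centralizer_iff]
        intro r hr
        exact hw r (le_sup_right (a := S') hr)
    have hN₂ne : N₂ ≠ ⊥ := by
      intro h
      obtain ⟨k, hk⟩ := hQ ⟨w, hwQ⟩
      have hk' : w ^ q ^ k = 1 := by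
        have := congrArg (Subtype.val) hk
        simpa using this
      -- the last nontrivial power
      obtain ⟨j, hj1, hj2⟩ : ∃ j, w ^ q ^ j ≠ 1 ∧ w ^ q ^ (j + 1) = 1 := by
        clear hk
        induction k with
        | zero => rw [pow_zero, pow_one] at hk'; exact absurd hk' hw1
        | succ k ihk =>
          by_cases h0 : w ^ q ^ k = 1
          · exact ihk h0
          · exact ⟨k, h0, hk'⟩
      have h1 : w ^ q ^ j ∈ N₂ := (hN₂ _).2 ⟨pow_mem hwN₁ _, by rw [← pow_mul, ← pow_succ]; exact hj2⟩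
      rw [h, mem_bot] at h1
      exact hj1 h1
    obtain ⟨M, hMN, hMn, hMq⟩ := exists_normal_of_order (q := q) _ N₂ hN₂n rfl hN₂ne
      (fun a ha b hb => hab a ha.1 b hb.1) (fun a ha => ha.2)
      (fun z hz a b => (mem_centralizer_iff.1 ((hN₁ z).1 hz.1).1.2 _ (commutator_mem_powComm (q - 1) a b)))
      (fun z hz a => (mem_centralizer_iff.1 ((hN₁ z).1 hz.1).1.2 _ (pow_mem_powComm (q - 1) a)))
    have hMQ : M ≤ Q := fun x hx => ((hN₁ x).1 (hMN hx).1).1.1
    have hMc : IsCyclic M := isCyclic_of_prime_card hMq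
    -- pass to the quotient
    have hlt : Nat.card (G ⧸ M) < n := by
      have h1 := M.card_mul_index
      rw [hcard, hMq] at h1
      have h2 : 0 < M.index := Nat.pos_of_ne_zero (FiniteIndex.index_ne_zero)
      have h3 : Nat.card (G ⧸ M) = M.index := rfl
      rw [h3, ← h1]
      have := hq.out.two_le
      nlinarith
    let Q' : Subgroup (G ⧸ M) := Q.map (QuotientGroup.mk' M)
    have hQ'n : Q'.Normal := hQn.map _ (QuotientGroup.mk'_surjective M)
    have hQ' : IsPGroup q Q' := hQ.map _
    have hcent' : ∀ x ∈ powComm (G ⧸ M) (q - 1), (orderOf x).Coprime q → ∀ r ∈ Q', x * r = r * x := by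
      rintro x hx hxq _ ⟨r, hr, rfl⟩
      rw [← powComm_map (q - 1) (QuotientGroup.mk' M) (QuotientGroup.mk'_surjective M)] at hx
      obtain ⟨y, hy, rfl⟩ := hx
      obtain ⟨t, ht1, ht2⟩ := exists_coprime_pow.{u} (q := q) y
      have h1 := hcent (y ^ t) (pow_mem hy t) ht1 r hr
      have h2 := ht2 (QuotientGroup.mk' M) hxq
      rw [← h2, ← map_mul, ← map_mul, h1]
    have hss' : Cfsg.IsSupersolvable ((G ⧸ M) ⧸ Q') :=
      SolvableStructure.SupersolvableBasic.of_mulEquiv hss
        (QuotientGroup.quotientQuotientEquivQuotient M Q hMQ).symm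
    have h1 := ih _ hlt Q' rfl hQ' hcent' hss'
    exact SolvableStructure.SupersolvableBasic.of_normal_isCyclic M hMc h1

end Cfsg.Agent.H269
end

-- part: H269/SupersolvMain
section
/-!
# Supersolvability from the strong closure of the subgroups of one fixed order
-/

set_option autoImplicit false
set_option linter.unusedSectionVars false

namespace Cfsg.Agent.H269

open Subgroup
open scoped commutatorElement

universe u

section Cyclic

variable {G : Type*} [Group G] [Finite G] {q : ℕ} [hq : Fact q.Prime]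

/-- `q'`-elements of the subgroup generated by commutators and `(q - 1)`-th powers centralize the normal cyclic
`q`-subgroups. -/
theorem centralizes_normal_cyclic (F : Subgroup G) [hF : F.Normal] (hFc : IsCyclic F) {n : ℕ}
    (hn : Nat.card F = q ^ n) (x : G) (hx : x ∈ powComm G (q - 1)) (hxq : (orderOf x).Coprime q) :
    ∀ r ∈ F, x * r * x⁻¹ = r := by
  let ψ : G →* MulAut F := MulAut.conjNormal
  have hcomm : ∀ a b : MulAut F, a * b = b * a := by
    intro a b
    apply (hFc.mulAutMulEquiv).injective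
    rw [map_mul, map_mul, mul_comm]
  have hcard : Nat.card (MulAut F) ∣ (q - 1) * q ^ n := by
    have h2 : Nat.card (MulAut F) = (Nat.card F).totient := hFc.card_mulAut
    rw [h2, hn]
    cases n with
    | zero => simp
    | succ n =>
      rw [Nat.totient_prime_pow_succ hq.out, mul_comm (q - 1), pow_succ]
      exact Nat.mul_dvd_mul_right (Dvd.intro _ rfl) _
  let B : Subgroup G :=
    { carrier := {g | ψ g ^ (q ^ n) = 1}
      one_mem' := by simp
      mul_mem' := by
        intro a b ha hb
        have ha' : ψ a ^ (q ^ n) = 1 := ha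
        have hb' : ψ b ^ (q ^ n) = 1 := hb
        show ψ (a * b) ^ (q ^ n) = 1
        have hc : Commute (ψ a) (ψ b) := hcomm _ _
        rw [map_mul, hc.mul_pow, ha', hb', one_mul]
      inv_mem' := by
        intro a ha
        have ha' : ψ a ^ (q ^ n) = 1 := ha
        show ψ a⁻¹ ^ (q ^ n) = 1
        rw [map_inv, inv_pow, ha', inv_one] }
  have hle : powComm G (q - 1) ≤ B := by
    rw [powComm, closure_le]
    rintro y (⟨a, b, rfl⟩ | ⟨a, rfl⟩)
    · show ψ ⁅a, b⁆ ^ (q ^ n) = 1
      rw [map_commutatorElement, commutatorElement_def, hcomm (ψ a) (ψ b)]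
      simp
    · show ψ (a ^ (q - 1)) ^ (q ^ n) = 1
      rw [map_pow, ← pow_mul]
      exact orderOf_dvd_iff_pow_eq_one.1 ((_root_.orderOf_dvd_natCard _).trans hcard)
  have h1 : ψ x ^ (q ^ n) = 1 := hle hx
  have h2 : orderOf (ψ x) ∣ q ^ n := orderOf_dvd_of_pow_eq_one h1
  have h3 : (orderOf (ψ x)).Coprime (q ^ n) :=
    Nat.Coprime.pow_right n (Nat.Coprime.coprime_dvd_left (orderOf_map_dvd ψ x) hxq)
  have h4 : orderOf (ψ x) = 1 := Nat.Coprime.eq_one_of_dvd h3 h2
  rw [orderOf_eq_one_iff] at h4
  intro r hr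
  have h5 : ((ψ x ⟨r, hr⟩ : F) : G) = x * r * x⁻¹ := rfl
  rw [← h5, h4]
  rfl

/-- If all subgroups of order `q ^ k` of the normal `q`-subgroup `Q` are strongly closed then the `q'`-elements of
the subgroup generated by commutators and `(q - 1)`-th powers centralize `Q`. -/
theorem centralizes_of_allHSub (Q : Subgroup G) [hQn : Q.Normal] (hQ : IsPGroup q Q) {k : ℕ} (hk : 1 ≤ k)
    (hQk : q ^ (k + 1) ∣ Nat.card Q) (hall : AllHSub Q (q ^ k)) (x : G) (hx : x ∈ powComm G (q - 1))
    (hxq : (orderOf x).Coprime q) : ∀ r ∈ Q, x * r = r * x := by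
  -- normality of the subgroups of order `q ^ k` (or 4)
  have hnorm : ∀ F : Subgroup G, F ≤ Q → (Nat.card F = q ^ k ∨ (q ^ k = 2 ∧ Nat.card F = 4)) → F.Normal := by
    intro F hFQ hF
    refine ⟨fun f hf g => ?_⟩
    exact (hall F hFQ hF).mem_of_mem hQ hFQ hf (hQn.conj_mem f (hFQ hf) g)
  have hxN : x ∈ normalizer (Q : Set G) := by
    rw [normalizer_eq_top_iff.2 hQn]
    exact mem_top x
  obtain ⟨b, hb, hbo⟩ := exists_conj_aut Q x hxN
  have hb1 : (orderOf b).Coprime q := Nat.Coprime.coprime_dvd_left hbo hxq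
  have hmapcard : ∀ E : Subgroup Q, Nat.card (E.map Q.subtype) = Nat.card E := fun E =>
    (Nat.card_congr (E.equivMapOfInjective Q.subtype Q.subtype_injective).toEquiv).symm
  have hb3 : b = 1 := by
    apply eq_one_of_fixed_order hQ b hb1 hk hQk
    · intro E M hEM hE hM hMc m hm
      -- `M` is normal in `G`
      have hM' : (M.map Q.subtype).Normal := by
        refine ⟨?_⟩
        rintro _ ⟨m, hm, rfl⟩ g
        have hmo : (m : G) ^ q ^ k = 1 := by
          obtain ⟨j, hj, hj'⟩ := (Nat.dvd_prime_pow hq.out).1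
            ((hM ▸ M.orderOf_dvd_natCard hm : orderOf m ∣ q ^ (k + 1)))
          have hne : j ≠ k + 1 := by
            intro hje
            apply hMc
            have h5 : zpowers m = M := by
              apply Subgroup.eq_of_le_of_card_ge (zpowers_le.2 hm)
              rw [Nat.card_zpowers, hj', hje, hM]
            rw [← h5]
            infer_instance
          apply orderOf_dvd_iff_pow_eq_one.1
          rw [Subgroup.orderOf_coe, hj']
          exact pow_dvd_pow q (by omega)
        obtain ⟨E', hmE', hE'M, hE'⟩ := exists_subgroup_mem (p := q) (M.map Q.subtype) (m := k)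
          (by rw [hmapcard, hM]; exact pow_dvd_pow q (Nat.le_succ k)) (m : G) ⟨m, hm, rfl⟩ hmo
        exact hE'M ((hnorm E' (hE'M.trans (map_subtype_le M)) (Or.inl hE')).conj_mem _ hmE' g)
      have hE' : (E.map Q.subtype).Normal := hnorm _ (map_subtype_le E) (Or.inl (by rw [hmapcard]; exact hE))
      -- the section
      let π := QuotientGroup.mk' (E.map Q.subtype)
      let F := (M.map Q.subtype).map π
      have hFn : F.Normal := hM'.map π (QuotientGroup.mk'_surjective _)
      have hFcard : Nat.card F = q := by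
        have h1 : Nat.card F = (E.map Q.subtype).relIndex (M.map Q.subtype) := by
          have := Subgroup.relIndex_ker (M.map Q.subtype) π
          rw [QuotientGroup.ker_mk'] at this
          exact this.symm
        have h2 : (E.map Q.subtype).relIndex (M.map Q.subtype) * Nat.card (E.map Q.subtype) =
            Nat.card (M.map Q.subtype) := by
          have h3 := ((E.map Q.subtype).subgroupOf (M.map Q.subtype)).card_mul_index
          have h4 : Nat.card ((E.map Q.subtype).subgroupOf (M.map Q.subtype)) = Nat.card (E.map Q.subtype) :=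
            Nat.card_congr (Subgroup.subgroupOfEquivOfLe (map_mono hEM)).toEquiv
          rw [h4] at h3
          rw [mul_comm]
          exact h3
        rw [hmapcard, hmapcard, hE, hM, pow_succ, mul_comm] at h2
        rw [h1]
        exact Nat.eq_of_mul_eq_mul_left (pow_pos hq.out.pos k) h2
      have hFc : IsCyclic F := isCyclic_of_prime_card hFcard
      have hx' : π x ∈ powComm (G ⧸ E.map Q.subtype) (q - 1) := by
        rw [← powComm_map (q - 1) π (QuotientGroup.mk'_surjective _)]
        exact ⟨x, hx, rfl⟩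
      have h5 := centralizes_normal_cyclic (q := q) F hFc (n := 1) (by rw [pow_one]; exact hFcard) (π x) hx'
        (Nat.Coprime.coprime_dvd_left (orderOf_map_dvd π x) hxq) (π (m : G)) ⟨(m : G), ⟨m, hm, rfl⟩, rfl⟩
      have h6 : π ((m : G)⁻¹ * (x * m * x⁻¹)) = 1 := by
        rw [map_mul, map_mul, map_mul, map_inv, map_inv, h5, inv_mul_cancel]
      have h7 : (m : G)⁻¹ * (x * m * x⁻¹) ∈ E.map Q.subtype := (QuotientGroup.eq_one_iff _).1 h6
      rw [← hb] at h7
      obtain ⟨y, hy, hy'⟩ := h7
      have h8 : y = m⁻¹ * b m := Subtype.ext hy'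
      rw [← h8]
      exact hy
    · intro E hEc hE e he
      have hE' : (E.map Q.subtype).Normal := hnorm _ (map_subtype_le E) (by rw [hmapcard]; exact hE)
      have hEc' : IsCyclic (E.map Q.subtype) := by
        exact isCyclic_of_surjective (E.equivMapOfInjective Q.subtype Q.subtype_injective)
          (E.equivMapOfInjective Q.subtype Q.subtype_injective).surjective
      obtain ⟨n, hn⟩ := (hQ.to_subgroup E).exists_card_eq
      have h1 := centralizes_normal_cyclic (q := q) (E.map Q.subtype) hEc' (n := n) (by rw [hmapcard]; exact hn)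
        x hx hxq (e : G) ⟨e, he, rfl⟩
      apply Subtype.ext
      rw [hb]
      exact h1
  intro r hr
  have h1 := hb ⟨r, hr⟩
  rw [hb3] at h1
  have h2 : r = x * r * x⁻¹ := h1
  calc x * r = x * r * x⁻¹ * x := by group
    _ = r * x := by rw [← h2]

end Cyclic

section Hyp

variable {G : Type u} [Group G] [Finite G]

/-- The hypothesis of the supersolvability criterion. -/
def Hyp (E : Subgroup G) : Prop :=
  ∀ p : ℕ, p.Prime → ∀ P : Subgroup G, P ≤ E → IsPGroup p P → ¬ p ∣ P.relIndex E → ¬ IsCyclic P →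
    ∃ k : ℕ, 1 ≤ k ∧ p ^ (k + 1) ∣ Nat.card P ∧ AllHSub P (p ^ k)

theorem isHSub_of_map_subtype {E : Subgroup G} {F : Subgroup E} (h : IsHSub (F.map E.subtype)) : IsHSub F := by
  rintro g x ⟨⟨f, hf, hx⟩, hxn⟩
  have hx' : g * f * g⁻¹ = x := hx
  have h1 : (x : G) ∈ F.map E.subtype := by
    apply h (g : G)
    refine ⟨⟨(f : G), ⟨f, hf, rfl⟩, ?_⟩, ?_⟩
    · rw [← hx']; rfl
    · apply mem_normalizer_of_forall
      rintro _ ⟨y, hy, rfl⟩
      exact ⟨x * y * x⁻¹, (mem_normalizer_iff.1 hxn y).1 hy, rfl⟩
  obtain ⟨y, hy, hy'⟩ := h1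
  rw [← Subtype.ext hy']
  exact hy

/-- Trivial `p`-subgroups of `p'`-groups. -/
theorem eq_bot_of_not_dvd {p : ℕ} [hp : Fact p.Prime] {R K : Subgroup G} (hR : IsPGroup p R) (hRK : R ≤ K)
    (hK : ¬ p ∣ Nat.card K) : R = ⊥ := by
  obtain ⟨n, hn⟩ := hR.exists_card_eq
  have h1 : Nat.card R ∣ Nat.card K := Subgroup.card_dvd_of_le hRK
  rcases Nat.eq_zero_or_pos n with h0 | h0
  · rw [h0, pow_zero] at hn
    exact Subgroup.card_eq_one.1 hn
  · exfalso
    apply hK
    rw [hn] at h1
    exact (dvd_pow_self p h0.ne').trans h1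

theorem relIndex_mul_relIndex_of_le {H K L : Subgroup G} (hHK : H ≤ K) (hKL : K ≤ L) :
    H.relIndex K * K.relIndex L = H.relIndex L := relIndex_mul_relIndex H K L hHK hKL

/-- **Existence of a normal Sylow subgroup.** -/
theorem exists_normal_sylow : ∀ (n : ℕ) (E : Subgroup G), E.Normal → Nat.card E = n → E ≠ ⊥ → Hyp E →
    ∃ (q : ℕ) (Q : Subgroup G), q.Prime ∧ Q.Normal ∧ Q ≤ E ∧ Q ≠ ⊥ ∧ IsPGroup q Q ∧ ¬ q ∣ Q.relIndex E := by
  intro n
  induction n using Nat.strong_induction_on with
  | _ n ih =>
  intro E hEn hcard hne hyp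
  have hcard1 : Nat.card E ≠ 1 := fun h => hne (Subgroup.card_eq_one.1 h)
  set p := (Nat.card E).minFac with hpdef
  have hp : p.Prime := Nat.minFac_prime hcard1
  have : Fact p.Prime := ⟨hp⟩
  have hpd : p ∣ Nat.card E := Nat.minFac_dvd _
  have hmin : ∀ q : ℕ, q.Prime → q ∣ Nat.card E → p ≤ q := fun q hq hqd => Nat.minFac_le_of_dvd hq.two_le hqd
  obtain ⟨P⟩ : Nonempty (Sylow p E) := inferInstance
  have hcompl : Cfsg.HasNormalPComplement p E := by
    by_cases hc : IsCyclic P
    · exact ⟨P, _, inferInstance, IsCyclic.isComplement' hpdef.symm hc⟩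
    · have hPmap : IsPGroup p ((P : Subgroup E).map E.subtype) := P.isPGroup'.map _
      have hPcard : Nat.card ((P : Subgroup E).map E.subtype) = Nat.card P :=
        (Nat.card_congr ((P : Subgroup E).equivMapOfInjective E.subtype E.subtype_injective).toEquiv).symm
      have hrel : ((P : Subgroup E).map E.subtype).relIndex E = (P : Subgroup E).index := by
        rw [relIndex, subgroupOf, comap_map_eq_self_of_injective (Subgroup.subtype_injective _)]
      obtain ⟨k, hk, hkc, hall⟩ := hyp p hp ((P : Subgroup E).map E.subtype) (map_subtype_le _) hPmap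
        (by rw [hrel]; exact P.not_dvd_index)
        (by
          intro h
          apply hc
          exact isCyclic_of_surjective
            ((P : Subgroup E).equivMapOfInjective E.subtype E.subtype_injective).symm
            ((P : Subgroup E).equivMapOfInjective E.subtype E.subtype_injective).symm.surjective)
      apply hasNormalPComplement_of_allHSub hmin P hk
      · intro F hFP hF
        apply isHSub_of_map_subtype
        apply hall _ (map_mono hFP)
        have h1 : Nat.card (F.map E.subtype) = Nat.card F :=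
          (Nat.card_congr (F.equivMapOfInjective E.subtype E.subtype_injective).toEquiv).symm
        rw [h1]
        exact hF
      · rw [← hPcard]
        exact hkc
  have hKc := Transfer.NormalPComplement.isComplement'_pResidual hcompl P
  have hKchar : (Cfsg.pResidual p E).Characteristic := Transfer.Residual.pResidual_characteristic p
  set K' := Cfsg.pResidual p E with hK'
  let K : Subgroup G := K'.map E.subtype
  have hKn : K.Normal := ConjAct.normal_of_characteristic_of_normal
  have hKE : K ≤ E := map_subtype_le _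
  have hKcard : Nat.card K = Nat.card K' :=
    (Nat.card_congr (K'.equivMapOfInjective E.subtype E.subtype_injective).toEquiv).symm
  have hKp : ¬ p ∣ Nat.card K := by
    rw [hKcard, ← hKc.index_eq_card]
    exact P.not_dvd_index
  have hKrel : ∃ m, K.relIndex E = p ^ m := by
    have h1 : K.relIndex E = K'.index := by
      rw [relIndex, subgroupOf, comap_map_eq_self_of_injective (Subgroup.subtype_injective _)]
    rw [h1, hKc.symm.index_eq_card]
    exact P.isPGroup'.exists_card_eq
  obtain ⟨m, hm⟩ := hKrel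
  have hKlt : Nat.card K < n := by
    rw [← hcard]
    apply lt_of_le_of_ne (Subgroup.card_le_of_le hKE)
    intro h
    rw [h] at hKp
    exact hKp hpd
  by_cases hKbot : K = ⊥
  · refine ⟨p, E, hp, hEn, le_rfl, hne, ?_, ?_⟩
    · rw [hKbot, relIndex_bot_left] at hm
      exact IsPGroup.of_card hm
    · rw [relIndex_self]
      exact hp.one_lt.ne' ∘ Nat.dvd_one.1
  · have hypK : Hyp K := by
      intro r hr R hRK hR hri hRc
      have : Fact r.Prime := ⟨hr⟩
      by_cases hrp : r = p
      · subst hrp
        exfalso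
        apply hRc
        rw [eq_bot_of_not_dvd hR hRK hKp]
        infer_instance
      · apply hyp r hr R (hRK.trans hKE) hR _ hRc
        rw [← relIndex_mul_relIndex_of_le hRK hKE, hm]
        intro hd
        rcases (Nat.Prime.dvd_mul hr).1 hd with h1 | h1
        · exact hri h1
        · exact hrp ((Nat.prime_dvd_prime_iff_eq hr hp).1 (hr.dvd_of_dvd_pow h1))
    obtain ⟨q, Q, hq, hQn, hQK, hQne, hQ, hQi⟩ := ih _ hKlt K hKn rfl hKbot hypK
    refine ⟨q, Q, hq, hQn, hQK.trans hKE, hQne, hQ, ?_⟩
    rw [← relIndex_mul_relIndex_of_le hQK hKE, hm]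
    intro hd
    rcases (Nat.Prime.dvd_mul hq).1 hd with h1 | h1
    · exact hQi h1
    · have hqp : q = p := (Nat.prime_dvd_prime_iff_eq hq hp).1 (hq.dvd_of_dvd_pow h1)
      subst hqp
      exact hQne (eq_bot_of_not_dvd hQ hQK hKp)

/-- The image of a strongly closed `r`-subgroup modulo a normal `r'`-subgroup is strongly closed in its normalizer. -/
theorem isHSub_map {q r : ℕ} [hq : Fact q.Prime] [hr : Fact r.Prime] (hqr : q ≠ r) (Q : Subgroup G) [hQn : Q.Normal]
    (hQ : IsPGroup q Q) (F : Subgroup G) (hF : IsPGroup r F) (h : IsHSub F) :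
    IsHSub (F.map (QuotientGroup.mk' Q)) := by
  obtain ⟨n, hn⟩ := hQ.exists_card_eq
  have hcopr : (Nat.card (QuotientGroup.mk' Q).ker).Coprime r := by
    rw [QuotientGroup.ker_mk', hn]
    exact Nat.Coprime.pow_left n ((Nat.coprime_primes hq.out hr.out).2 hqr)
  intro g' x'
  obtain ⟨g, rfl⟩ := QuotientGroup.mk'_surjective Q g'
  rintro ⟨⟨_, ⟨f, hf, rfl⟩, hx⟩, hxn⟩
  have hx' : QuotientGroup.mk' Q (g * f * g⁻¹) = x' := by
    rw [map_mul, map_mul, map_inv]
    exact hx
  set y := g * f * g⁻¹ with hy
  -- a representative normalizing `F`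
  obtain ⟨v, hv, hvy⟩ := PLocal.PConstrained.exists_mul_mem_normalizer (QuotientGroup.mk' Q) hcopr hF y (by
    intro z hz
    rw [map_mul, map_mul, map_inv, hx']
    exact (mem_normalizer_iff.1 hxn _).1 ⟨z, hz, rfl⟩)
  have hv1 : QuotientGroup.mk' Q v = 1 := hv
  have hyord : (orderOf y).Coprime q := by
    obtain ⟨j, hj⟩ := hF ⟨f, hf⟩
    have h1 : f ^ r ^ j = 1 := by
      have := congrArg Subtype.val hj
      simpa using this
    have h2 : y ^ r ^ j = 1 := by
      rw [hy, conj_pow, h1, mul_one, mul_inv_cancel]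
    apply Nat.Coprime.coprime_dvd_left (orderOf_dvd_of_pow_eq_one h2)
    exact Nat.Coprime.pow_left j ((Nat.coprime_primes hr.out hq.out).2 hqr.symm)
  have hvy' : QuotientGroup.mk' Q (v * y) = QuotientGroup.mk' Q y := by rw [map_mul, hv1, one_mul]
  obtain ⟨t, ht1, ht2⟩ := exists_coprime_pow.{u} (q := q) (v * y)
  have ht3 := ht2 (QuotientGroup.mk' Q) (by
    rw [hvy']
    exact Nat.Coprime.coprime_dvd_left (orderOf_map_dvd _ y) hyord)
  set z := (v * y) ^ t with hz
  have hzN : z ∈ normalizer (F : Set G) := pow_mem hvy t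
  have hzy : QuotientGroup.mk' Q z = QuotientGroup.mk' Q y := by rw [ht3, hvy']
  have hcz : (orderOf z).Coprime (Nat.card Q) := by rw [hn]; exact Nat.Coprime.pow_right n ht1
  have hcy : (orderOf y).Coprime (Nat.card Q) := by rw [hn]; exact Nat.Coprime.pow_right n hyord
  have hconj : IsConj y z := H466.RealLift.isConj_of_quotient Q hcy hcz (by
    have h1 : (QuotientGroup.mk y : G ⧸ Q) = QuotientGroup.mk z := hzy.symm
    rw [h1])
  obtain ⟨c, hc⟩ := isConj_iff.1 hconj
  have h1 : (c * g) * f * (c * g)⁻¹ = z := by rw [← hc, hy]; group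
  have h2 : z ∈ F := by
    rw [← h1]
    apply h.mem hf
    rw [h1]
    exact hzN
  rw [← hx', ← hzy]
  exact ⟨z, h2, rfl⟩

/-- The hypothesis passes to the quotient by a normal Sylow subgroup of `E`. -/
theorem hyp_quotient {q : ℕ} [hq : Fact q.Prime] (Q : Subgroup G) [hQn : Q.Normal]
    (hQ : IsPGroup q Q) (E : Subgroup G) (hQE : Q ≤ E) (hQi : ¬ q ∣ Q.relIndex E) (hyp : Hyp E) :
    Hyp (E.map (QuotientGroup.mk' Q)) := by
  set π := QuotientGroup.mk' Q with hπ
  have hπs : Function.Surjective π := QuotientGroup.mk'_surjective Q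
  have hker : π.ker = Q := QuotientGroup.ker_mk' Q
  obtain ⟨n, hn⟩ := hQ.exists_card_eq
  have hcardmap : Nat.card (E.map π) = Q.relIndex E := by
    have := Subgroup.relIndex_ker E π
    rw [hker] at this
    exact this.symm
  intro r hr R' hR'E hR' hR'i hR'c
  have : Fact r.Prime := ⟨hr⟩
  by_cases hrq : r = q
  · subst hrq
    exfalso
    apply hR'c
    rw [eq_bot_of_not_dvd hR' hR'E (by rw [hcardmap]; exact hQi)]
    infer_instance
  · -- the preimage
    set X : Subgroup G := R'.comap π with hX
    have hXE : X ≤ E := by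
      intro x hx
      obtain ⟨e, he, hex⟩ := hR'E hx
      have h1 : π (e⁻¹ * x) = 1 := by rw [map_mul, map_inv, hex, inv_mul_cancel]
      have h2 : e⁻¹ * x ∈ Q := by rw [← hker]; exact h1
      have h3 := E.mul_mem he (hQE h2)
      rwa [mul_inv_cancel_left] at h3
    have hXmap : X.map π = R' := map_comap_eq_self_of_surjective hπs R'
    obtain ⟨S⟩ : Nonempty (Sylow r X) := inferInstance
    let R : Subgroup G := (S : Subgroup X).map X.subtype
    have hRX : R ≤ X := map_subtype_le _
    have hR : IsPGroup r R := S.isPGroup'.map _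
    have hRi : R.relIndex X = (S : Subgroup X).index := by
      rw [relIndex, subgroupOf, comap_map_eq_self_of_injective (Subgroup.subtype_injective _)]
    have hcop : (Nat.card Q).Coprime r := by
      rw [hn]
      exact Nat.Coprime.pow_left n ((Nat.coprime_primes hq.out hr).2 (Ne.symm hrq))
    -- `π` is injective on `r`-subgroups
    have hinj : ∀ A : Subgroup G, A ≤ R → Nat.card (A.map π) = Nat.card A := by
      intro A hA
      have h1 := Subgroup.relIndex_ker A π
      have h2 : A ⊓ Q = ⊥ := by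
        apply (disjoint_of_coprime_natCard ?_).eq_bot
        obtain ⟨a, ha⟩ := (hR.to_le hA).exists_card_eq
        rw [ha]
        exact (Nat.Coprime.pow_right a hcop).symm
      rw [← h1, hker, ← inf_relIndex_left, h2, relIndex_bot_left]
    have hRmap : R.map π = R' := by
      have hle : R.map π ≤ R' := by
        rw [← hXmap]; exact map_mono hRX
      apply Subgroup.eq_of_le_of_card_ge hle
      rw [hinj R le_rfl]
      -- `#R' ∣ #X`, `#R` is the `r`-part of `#X`
      have h1 : Nat.card R' ∣ Nat.card R * R.relIndex X := by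
        have h2 : Nat.card R * R.relIndex X = Nat.card X := by
          have h3 := (R.subgroupOf X).card_mul_index
          have h4 : Nat.card (R.subgroupOf X) = Nat.card R :=
            Nat.card_congr (Subgroup.subgroupOfEquivOfLe hRX).toEquiv
          rw [h4] at h3
          exact h3
        rw [h2, ← hXmap]
        exact Subgroup.card_map_dvd X π
      obtain ⟨a, ha⟩ := hR'.exists_card_eq
      have h5 : (Nat.card R').Coprime (R.relIndex X) := by
        rw [ha, hRi]
        exact Nat.Coprime.pow_left a ((Nat.Prime.coprime_iff_not_dvd hr).2 S.not_dvd_index)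
      exact Nat.le_of_dvd Nat.card_pos (h5.dvd_of_dvd_mul_right h1)
    have hRE : ¬ r ∣ R.relIndex E := by
      rw [← relIndex_mul_relIndex_of_le hRX hXE]
      intro hd
      rcases (Nat.Prime.dvd_mul hr).1 hd with h1 | h1
      · rw [hRi] at h1
        exact S.not_dvd_index h1
      · apply hR'i
        have h2 : X.relIndex E = R'.relIndex (E.map π) := by
          rw [hX, relIndex_comap]
        rwa [h2] at h1
    obtain ⟨k, hk, hkc, hall⟩ := hyp r hr R (hRX.trans hXE) hR hRE (by
      intro hc
      apply hR'c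
      rw [← hRmap]
      exact isCyclic_of_surjective (π.subgroupMap R) (π.subgroupMap_surjective R))
    refine ⟨k, hk, ?_, ?_⟩
    · rw [← hRmap, hinj R le_rfl]
      exact hkc
    · intro F' hF' hF'c
      let F : Subgroup G := R ⊓ F'.comap π
      have hFmap : F.map π = F' := by
        apply le_antisymm
        · rintro _ ⟨x, hx, rfl⟩
          exact hx.2
        · intro x hx
          have h1 : x ∈ R.map π := by rw [hRmap]; exact hF' hx
          obtain ⟨y, hy, rfl⟩ := h1
          exact ⟨y, ⟨hy, hx⟩, rfl⟩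
      have hFc : Nat.card F = Nat.card F' := by
        rw [← hFmap]
        exact (hinj F inf_le_left).symm
      rw [← hFmap]
      apply isHSub_map (Ne.symm hrq) Q hQ F (hR.to_le inf_le_left)
      apply hall F inf_le_left
      rw [hFc]
      exact hF'c

/-- **Main theorem.** -/
theorem isSupersolvable_of_hyp : ∀ (n : ℕ) {G : Type u} [Group G] [Finite G] (E : Subgroup G) [E.Normal],
    Nat.card G = n → Cfsg.IsSupersolvable (G ⧸ E) → Hyp E → Cfsg.IsSupersolvable G := by
  intro n
  induction n using Nat.strong_induction_on with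
  | _ n ih =>
  intro G _ _ E hEn hcard hss hyp
  by_cases hbot : E = ⊥
  · subst hbot
    exact SolvableStructure.SupersolvableBasic.of_mulEquiv hss QuotientGroup.quotientBot
  · obtain ⟨q, Q, hq, hQn, hQE, hQne, hQ, hQi⟩ := exists_normal_sylow _ E hEn rfl hbot hyp
    have : Fact q.Prime := ⟨hq⟩
    have hlt : Nat.card (G ⧸ Q) < n := by
      have h1 := Q.card_mul_index
      rw [hcard] at h1
      have h2 : 0 < Q.index := Nat.pos_of_ne_zero (FiniteIndex.index_ne_zero)
      have h3 : Nat.card (G ⧸ Q) = Q.index := rfl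
      have h4 : 1 < Nat.card Q := (Subgroup.one_lt_card_iff_ne_bot Q).2 hQne
      rw [h3, ← h1]
      nlinarith
    have hE'n : (E.map (QuotientGroup.mk' Q)).Normal := hEn.map _ (QuotientGroup.mk'_surjective Q)
    have h1 : Cfsg.IsSupersolvable ((G ⧸ Q) ⧸ E.map (QuotientGroup.mk' Q)) :=
      SolvableStructure.SupersolvableBasic.of_mulEquiv hss
        (QuotientGroup.quotientQuotientEquivQuotient Q E hQE).symm
    have h2 := ih _ hlt (E.map (QuotientGroup.mk' Q)) rfl h1 (hyp_quotient Q hQ E hQE hQi hyp)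
    by_cases hc : IsCyclic Q
    · exact SolvableStructure.SupersolvableBasic.of_normal_isCyclic Q hc h2
    · obtain ⟨k, hk, hkc, hall⟩ := hyp q hq Q hQE hQ hQi hc
      exact isSupersolvable_of_powComm _ Q rfl hQ (fun x hx hxq => centralizes_of_allHSub Q hQ hk hkc hall x hx hxq) h2

end Hyp

end Cfsg.Agent.H269
end

-- part: S3032
section
set_option autoImplicit false
open Cfsg

namespace Cfsg.Agent.S3032

/-- Let G be a finite group and E a normal subgroup with G/E supersolvable. Suppose that for every prime p and every non-cyclic Sylow p-subgroup P of E there is a subgroup D of P with 1 < |D| < |P| such that every subgroup F of P of order |D|, and also every subgroup F of P of order 4 when |D| = 2, satisfies g F g⁻¹ ∩ N_G(F) ≤ F for all g ∈ G. Then G is supersolvable. -/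
theorem result {G : Type*} [Group G] [Finite G] (E : Subgroup G) [E.Normal] (hGE : Cfsg.IsSupersolvable (G ⧸ E))
    (h : ∀ (p : ℕ), p.Prime → ∀ P : Subgroup G, P ≤ E → IsPGroup p P → ¬ p ∣ P.relIndex E → ¬ IsCyclic ↥P →
      ∃ D : Subgroup G, D ≤ P ∧ 1 < Nat.card D ∧ Nat.card D < Nat.card P ∧
        ∀ F : Subgroup G, F ≤ P → (Nat.card F = Nat.card D ∨ (Nat.card D = 2 ∧ Nat.card F = 4)) →
          ∀ g : G, F.map (MulAut.conj g).toMonoidHom ⊓ Subgroup.normalizer (F : Set G) ≤ F) :
    Cfsg.IsSupersolvable G := by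
  refine H269.isSupersolvable_of_hyp _ E rfl hGE ?_
  intro p hp P hPE hP hPi hPc
  have : Fact p.Prime := ⟨hp⟩
  obtain ⟨D, hDP, hD1, hD2, hall⟩ := h p hp P hPE hP hPi hPc
  obtain ⟨k, hk⟩ := (hP.to_le hDP).exists_card_eq
  obtain ⟨n, hn⟩ := hP.exists_card_eq
  have hk1 : 1 ≤ k := by
    by_contra h0
    have : k = 0 := by omega
    rw [hk, this, pow_zero] at hD1
    exact lt_irrefl 1 hD1
  have hkn : k < n := by
    rw [hk, hn] at hD2
    exact (Nat.pow_lt_pow_iff_right hp.one_lt).1 hD2
  rw [hk] at hall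
  refine ⟨k, hk1, ?_, hall⟩
  rw [hn]
  exact pow_dvd_pow p hkn

end Cfsg.Agent.S3032
end
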