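import Cfsg.Agent.H272.TIInv.Cov
import Cfsg.Prelude.Def_LieExceptional
import Cfsg.Agent.PermutationGroups.SharpThreeEven
import Cfsg.Agent.S0738
import Cfsg.Agent.S0741
import Cfsg.Agent.S0742
import Cfsg.Prelude.Def_Transfer
import Cfsg.Agent.Involutions.BaerSuzuki
import Cfsg.Agent.Lib.Cores
import Cfsg.Agent.Lib.Dihedral
import Cfsg.Agent.S0058
import Cfsg.Agent.LieClassical.SLTwoTorus
import Cfsg.Agent.S1230
import Cfsg.Agent.Transfer.PGroupNormal
import Cfsg.Statements.S3043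
set_option linter.all false

-- part: H272/TIInv/Big
section
/-!
The case `C(z) ∩ N(M) ≠ ⟨z⟩`: `G` is a Zassenhaus group on the cosets of `N(M)`.
-/

set_option autoImplicit false

namespace Cfsg.Agent.H272.TIInv

open Subgroup

variable {G : Type*} [Group G] {M : Subgroup G} {z u : G}

structure Big (M : Subgroup G) (z u : G) : Prop extends Cov M z where
  uu : u * u = 1
  uN : u ∉ normalizer (M : Set G)
  uz : u * z = z * u
  ne2 : Nat.card (HH M z) ≠ 2

theorem Cov.exists_big [Finite G] (h : Cov M z) (hN : normalizer (M : Set G) ≠ ⊤)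
    (hne : Nat.card (HH M z) ≠ 2) : ∃ u, Big M z u := by
  obtain ⟨x, hx⟩ : ∃ x, x ∉ normalizer (M : Set G) := by
    by_contra hcon
    push Not at hcon
    exact hN ((Subgroup.eq_top_iff' _).mpr hcon)
  obtain ⟨y, hy, hxy⟩ := h.cov x hx
  have hxyN := Hyp.mul_not_mem hx hy
  obtain ⟨w, hw, hwz⟩ := h.exists_conj_comm hxy hxyN
  have hN' := Hyp.mul_not_mem (Hyp.mul_not_mem' hxyN (M.inv_mem hw)) hw
  exact ⟨_, { h with uu := h.sq_of_comm hN' hwz, uN := hN', uz := hwz, ne2 := hne }⟩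

/-- if `H` has exponent 2 then it has order 2 -/
theorem Hyp.card_HH_of_sq [Finite G] (h : Hyp M z) (hsq : ∀ k ∈ HH M z, k * k = 1) :
    Nat.card (HH M z) = 2 := by
  have hH : HH M z = Subgroup.zpowers z := by
    apply le_antisymm
    · intro k hk
      by_cases hk1 : k = 1
      · rw [hk1]; exact one_mem _
      · obtain ⟨hkN, hkz⟩ := mem_HH.mp hk
        obtain ⟨y, hy, rfl⟩ := h.exists_eq_of_mem_N (hsq k hk) hk1 hkN
        have hy1 : y = 1 := by
          refine h.eq_one_of_comm_z hy ?_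
          have h1 : y * z * z = z * (y * z) := hkz
          calc z * y = z * (y * z) * z⁻¹ := by group
            _ = y * z * z * z⁻¹ := by rw [h1]
            _ = y * z := by group
        rw [hy1, one_mul]
        exact Subgroup.mem_zpowers z
    · rw [Subgroup.zpowers_le]
      exact mem_HH.mpr ⟨h.zN, rfl⟩
  rw [hH, Nat.card_zpowers]
  exact orderOf_eq_prime (by rw [pow_two]; exact h.zz) h.z1

namespace Big

theorem u_inv (h : Big M z u) : u⁻¹ = u := inv_eq_of_mul_eq_one_left h.uu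

theorem inv_HH [Finite G] (h : Big M z u) {k : G} (hk : k ∈ HH M z) : u * k * u = k⁻¹ :=
  h.inv_of_comm h.uu h.uN h.uz (mem_HH.mp hk).1 (mem_HH.mp hk).2

theorem comm_HH [Finite G] (h : Big M z u) {a b : G} (ha : a ∈ HH M z) (hb : b ∈ HH M z) :
    a * b = b * a := by
  have h1 := h.inv_HH (mul_mem ha hb)
  have h2 : u * (a * b) * u = (u * a * u) * (u * b * u) := by
    calc u * (a * b) * u = u * a * (u * u) * b * u := by rw [h.uu]; group
      _ = (u * a * u) * (u * b * u) := by group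
  rw [h2, h.inv_HH ha, h.inv_HH hb] at h1
  have h3 : (a⁻¹ * b⁻¹)⁻¹ = (a * b)⁻¹⁻¹ := by rw [h1]
  rw [inv_inv, mul_inv_rev, inv_inv, inv_inv] at h3
  exact h3.symm

theorem mul_mem_HH [Finite G] (h : Big M z u) {x : G} (hx : x ∉ normalizer (M : Set G))
    (hxz : x * z = z * x) : u * x ∈ HH M z := by
  have hxx := h.sq_of_comm hx hxz
  have huxz : u * x * z = z * (u * x) := by
    calc u * x * z = u * (x * z) := by group
      _ = (u * z) * x := by rw [hxz]; group
      _ = z * (u * x) := by rw [h.uz]; group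
  rw [mem_HH]
  refine ⟨?_, huxz⟩
  by_contra hcon
  apply h.ne2
  apply h.card_HH_of_sq
  intro k hk
  obtain ⟨hkN, hkz⟩ := mem_HH.mp hk
  have h1 := h.sq_of_comm hcon huxz
  have h2 := h.inv_of_comm h1 hcon huxz hkN hkz
  have h3 := h.inv_of_comm hxx hx hxz hkN hkz
  have hxi : x⁻¹ = x := inv_eq_of_mul_eq_one_left hxx
  have h4 : u * x = x * u := by
    have h5 : (u * x)⁻¹ = u * x := inv_eq_of_mul_eq_one_left h1
    rw [mul_inv_rev, hxi, h.u_inv] at h5
    exact h5.symm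
  have h5 : u * x * k * (u * x) = k := by
    calc u * x * k * (u * x) = u * x * k * (x * u) := by rw [h4]
      _ = u * (x * k * x) * u := by group
      _ = u * k⁻¹ * u := by rw [h3]
      _ = k := by rw [h.inv_HH (inv_mem hk), inv_inv]
  rw [h5] at h2
  calc k * k = k * k⁻¹ := by rw [← h2]
    _ = 1 := mul_inv_cancel k

theorem card_c' [Finite G] (h : Big M z u) :
    Nat.card {x : G // x ∉ normalizer (M : Set G) ∧ x * z = z * x} = Nat.card (HH M z) := by
  refine Nat.card_congr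
    { toFun := fun x => ⟨u * x, h.mul_mem_HH x.2.1 x.2.2⟩
      invFun := fun k => ⟨u * k, ?_, ?_⟩
      left_inv := ?_
      right_inv := ?_ }
  · intro hcon
    apply h.uN
    have := mul_mem hcon (inv_mem (mem_HH.mp k.2).1)
    rwa [mul_inv_cancel_right] at this
  · have h1 := (mem_HH.mp k.2).2
    calc u * k * z = u * (k * z) := by group
      _ = (u * z) * k := by rw [h1]; group
      _ = z * (u * k) := by rw [h.uz]; group
  · intro x
    apply Subtype.ext
    show u * (u * x) = x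
    rw [← mul_assoc, h.uu, one_mul]
  · intro k
    apply Subtype.ext
    show u * (u * k) = k
    rw [← mul_assoc, h.uu, one_mul]

theorem card_G' [Finite G] (h : Big M z u) :
    Nat.card G = Nat.card (normalizer (M : Set G)) * (Nat.card M + 1) := by
  rw [h.card_G, h.card_c', h.card_N]; ring

theorem index_N [Finite G] (h : Big M z u) : (normalizer (M : Set G)).index = Nat.card M + 1 := by
  have h1 := (normalizer (M : Set G)).card_mul_index
  rw [h.card_G'] at h1
  exact Nat.eq_of_mul_eq_mul_left Nat.card_pos h1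

theorem decomp [Finite G] (h : Big M z u) {x : G} (hx : x ∉ normalizer (M : Set G)) :
    ∃ y ∈ M, ∃ k ∈ normalizer (M : Set G), x = y * u * k := by
  obtain ⟨w, hw, hxw⟩ := h.cov x hx
  have hxwN := Hyp.mul_not_mem hx hw
  obtain ⟨y, hy, hyz⟩ := h.exists_conj_comm hxw hxwN
  have hN' := Hyp.mul_not_mem (Hyp.mul_not_mem' hxwN (M.inv_mem hy)) hy
  have h1 := h.mul_mem_HH hN' hyz
  refine ⟨y, hy, (u * (y⁻¹ * (x * w) * y)) * y⁻¹ * w⁻¹, ?_, ?_⟩
  · exact mul_mem (mul_mem (mem_HH.mp h1).1 (inv_mem (le_N hy))) (inv_mem (le_N hw))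
  · calc x = y * (y⁻¹ * (x * w) * y) * y⁻¹ * w⁻¹ := by group
      _ = y * (u * u) * (y⁻¹ * (x * w) * y) * y⁻¹ * w⁻¹ := by rw [h.uu]; group
      _ = _ := by group

theorem uniq [Finite G] (h : Big M z u) {y y' : G} (hy : y ∈ M) (hy' : y' ∈ M)
    (he : (y * u)⁻¹ * (y' * u) ∈ normalizer (M : Set G)) : y = y' := by
  have h1 : u * (y⁻¹ * y') * u ∈ normalizer (M : Set G) := by
    have h2 : (y * u)⁻¹ * (y' * u) = u * (y⁻¹ * y') * u := by
      rw [mul_inv_rev, h.u_inv]; group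
    rwa [h2] at he
  have h2 := h.eq_one_of_conj_mem h.uu h.uN (M.mul_mem (M.inv_mem hy) hy') h1
  exact (inv_mul_eq_one.mp h2)

/-- only the identity fixes three points -/
theorem eq_one_of_three [Finite G] (h : Big M z u) {g y : G} (hg : g ∈ normalizer (M : Set G))
    (hug : u * g * u ∈ normalizer (M : Set G)) (hy : y ∈ M) (hy1 : y ≠ 1)
    (hyg : u * (y⁻¹ * g * y) * u ∈ normalizer (M : Set G)) : g = 1 := by
  have hgz := h.comm_of_mem h.uu h.uN h.uz hg hug
  have hg'N : y⁻¹ * g * y ∈ normalizer (M : Set G) :=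
    mul_mem (mul_mem (inv_mem (le_N hy)) hg) (le_N hy)
  have hg'z := h.comm_of_mem h.uu h.uN h.uz hg'N hyg
  -- `g` commutes with `y`
  have hgy : y⁻¹ * g * y = g := by
    have h1 : g⁻¹ * (y⁻¹ * g * y) = 1 := by
      refine h.eq_one_of_comm_z ?_ ?_
      · have h2 : g⁻¹ * (y⁻¹ * g * y) = (g⁻¹ * y⁻¹ * g) * y := by group
        rw [h2]
        exact M.mul_mem (conj_mem' hg (M.inv_mem hy)) hy
      · have h2 : z * g⁻¹ = g⁻¹ * z := by
          calc z * g⁻¹ = g⁻¹ * (g * z) * g⁻¹ := by group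
            _ = g⁻¹ * z := by rw [hgz]; group
        calc z * (g⁻¹ * (y⁻¹ * g * y)) = (z * g⁻¹) * (y⁻¹ * g * y) := by group
          _ = g⁻¹ * (z * (y⁻¹ * g * y)) := by rw [h2]; group
          _ = g⁻¹ * (y⁻¹ * g * y) * z := by rw [← hg'z]; group
    exact (inv_mul_eq_one.mp h1).symm
  by_contra hg1
  -- `C(g) ≤ N`
  have hCg : ∀ x : G, x * g = g * x → x ∈ normalizer (M : Set G) := by
    intro x hxg
    by_contra hxN
    obtain ⟨w, hw, hv⟩ := h.cov x hxN
    have hvN := Hyp.mul_not_mem hxN hw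
    have hvi : (x * w)⁻¹ = x * w := inv_eq_of_mul_eq_one_left hv
    have h1 : (x * w) * g * (x * w) = w⁻¹ * g * w := by
      have h2 : (x * w) * g * (x * w) = (x * w)⁻¹ * g * (x * w) := by rw [hvi]
      rw [h2]
      calc (x * w)⁻¹ * g * (x * w) = w⁻¹ * x⁻¹ * (g * x) * w := by group
        _ = w⁻¹ * g * w := by rw [← hxg]; group
    have h2 := h.inv_of_mem hv hvN hg (by
      rw [h1]; exact mul_mem (mul_mem (inv_mem (le_N hw)) hg) (le_N hw))
    rw [h1] at h2
    have h3 : g⁻¹ * g⁻¹ ∈ M := by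
      have h4 : g⁻¹ * g⁻¹ = w⁻¹ * (g * w * g⁻¹) := by
        calc g⁻¹ * g⁻¹ = (w⁻¹ * g * w) * g⁻¹ := by rw [h2]
          _ = w⁻¹ * (g * w * g⁻¹) := by group
      rw [h4]
      exact M.mul_mem (M.inv_mem hw) (conj_mem hg hw)
    have h4 : g⁻¹ * g⁻¹ = 1 := by
      refine h.eq_one_of_comm_z h3 ?_
      have h2 : z * g⁻¹ = g⁻¹ * z := by
        calc z * g⁻¹ = g⁻¹ * (g * z) * g⁻¹ := by group
          _ = g⁻¹ * z := by rw [hgz]; group
      calc z * (g⁻¹ * g⁻¹) = (z * g⁻¹) * g⁻¹ := by group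
        _ = (g⁻¹ * z) * g⁻¹ := by rw [h2]
        _ = g⁻¹ * (z * g⁻¹) := by group
        _ = g⁻¹ * (g⁻¹ * z) := by rw [h2]
        _ = g⁻¹ * g⁻¹ * z := by group
    have h5 : g * g = 1 := by
      have : (g⁻¹ * g⁻¹)⁻¹ = 1⁻¹ := by rw [h4]
      simpa using this
    apply hg1
    refine h.odd y hy hy1 g h5 ?_
    calc g * y = y * (y⁻¹ * g * y) := by group
      _ = y * g := by rw [hgy]
  have hug' := h.inv_of_mem h.uu h.uN hg hug
  apply hy1
  refine h.eq_one_of_conj_mem h.uu h.uN hy (hCg _ ?_)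
  -- `u y u` commutes with `g`
  have hgi : g⁻¹ * y = y * g⁻¹ := by
    calc g⁻¹ * y = g⁻¹ * (y * g) * g⁻¹ := by group
      _ = g⁻¹ * (y * (y⁻¹ * g * y)) * g⁻¹ := by rw [hgy]
      _ = y * g⁻¹ := by group
  calc u * y * u * g = u * y * (u * g * u) * u := by
        have : u * y * (u * g * u) * u = u * y * u * g * (u * u) := by group
        rw [this, h.uu, mul_one]
    _ = u * (y * g⁻¹) * u := by rw [hug']; group
    _ = u * (g⁻¹ * y) * u := by rw [hgi]
    _ = (u * g⁻¹ * u) * (u * y * u) := by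
        have : (u * g⁻¹ * u) * (u * y * u) = u * g⁻¹ * (u * u) * y * u := by group
        rw [this, h.uu, mul_one]; group
    _ = g * (u * y * u) := by
        have : u * g⁻¹ * u = g := by
          have h6 : (u * g * u)⁻¹ = g⁻¹⁻¹ := by rw [hug']
          rw [mul_inv_rev, mul_inv_rev, h.u_inv, inv_inv] at h6
          rw [mul_assoc]; exact h6
        rw [this]

/-! ### the action on the cosets of `N(M)` -/

theorem smul_mk (N : Subgroup G) (g x : G) : g • (x : G ⧸ N) = ((g * x : G) : G ⧸ N) := rfl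

theorem mk_eq_one {N : Subgroup G} {x : G} : (x : G ⧸ N) = ((1 : G) : G ⧸ N) ↔ x ∈ N := by
  rw [eq_comm, QuotientGroup.eq, inv_one, one_mul]

/-- the points other than `N` -/
theorem exists_point [Finite G] (h : Big M z u) {a : G ⧸ normalizer (M : Set G)}
    (ha : a ≠ ((1 : G) : G ⧸ normalizer (M : Set G))) :
    ∃ y ∈ M, a = ((y * u : G) : G ⧸ normalizer (M : Set G)) := by
  induction a using QuotientGroup.induction_on with
  | H x =>
    have hx : x ∉ normalizer (M : Set G) := fun hx => ha (mk_eq_one.mpr hx)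
    obtain ⟨y, hy, k, hk, rfl⟩ := h.decomp hx
    refine ⟨y, hy, ?_⟩
    rw [QuotientGroup.eq]
    have h1 : (y * u * k)⁻¹ * (y * u) = k⁻¹ := by group
    rw [h1]
    exact inv_mem hk

theorem point_ne (h : Big M z u) {y : G} (hy : y ∈ M) :
    ((y * u : G) : G ⧸ normalizer (M : Set G)) ≠ ((1 : G) : G ⧸ normalizer (M : Set G)) := by
  rw [Ne, mk_eq_one]
  exact Hyp.mul_not_mem' h.uN hy

/-- `G` moves `(N, u N)` to any pair of distinct points -/
theorem exists_move [Finite G] (h : Big M z u) {a b : G ⧸ normalizer (M : Set G)} (hab : a ≠ b) :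
    ∃ g : G, g • ((1 : G) : G ⧸ normalizer (M : Set G)) = a ∧
      g • ((u : G) : G ⧸ normalizer (M : Set G)) = b := by
  induction a using QuotientGroup.induction_on with
  | H x =>
    have h1 : x⁻¹ • b ≠ ((1 : G) : G ⧸ normalizer (M : Set G)) := by
      intro h2
      apply hab
      have h3 : b = x • (x⁻¹ • b) := by rw [smul_inv_smul]
      rw [h3, h2, smul_mk, mul_one]
    obtain ⟨y, hy, hyb⟩ := h.exists_point h1
    refine ⟨x * y, ?_, ?_⟩
    · rw [smul_mk, mul_one, QuotientGroup.eq]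
      have h2 : (x * y)⁻¹ * x = y⁻¹ := by group
      rw [h2]
      exact inv_mem (le_N hy)
    · rw [mul_smul, smul_mk, ← hyb, smul_inv_smul]

theorem two_trans [Finite G] (h : Big M z u) :
    MulAction.IsMultiplyPretransitive G (G ⧸ normalizer (M : Set G)) 2 := by
  rw [MulAction.is_two_pretransitive_iff]
  intro a b c d hab hcd
  obtain ⟨g, hg1, hg2⟩ := h.exists_move hab
  obtain ⟨k, hk1, hk2⟩ := h.exists_move hcd
  refine ⟨k * g⁻¹, ?_, ?_⟩
  · rw [mul_smul, ← hg1, inv_smul_smul, hk1]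
  · rw [mul_smul, ← hg2, inv_smul_smul, hk2]

theorem mem_of_smul_one {g : G} (hg : g • ((1 : G) : G ⧸ normalizer (M : Set G)) =
    ((1 : G) : G ⧸ normalizer (M : Set G))) : g ∈ normalizer (M : Set G) := by
  rw [smul_mk, mul_one] at hg
  exact mk_eq_one.mp hg

theorem mem_of_smul_u (h : Big M z u) {g : G} (hg : g • ((u : G) : G ⧸ normalizer (M : Set G)) =
    ((u : G) : G ⧸ normalizer (M : Set G))) : u * g * u ∈ normalizer (M : Set G) := by
  rw [smul_mk, QuotientGroup.eq] at hg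
  have h1 := inv_mem hg
  have h2 : ((g * u)⁻¹ * u)⁻¹ = u * g * u := by
    rw [mul_inv_rev, inv_inv, h.u_inv]; group
  rwa [h2] at h1

theorem no_three [Finite G] (h : Big M z u) (g : G) (a b c : G ⧸ normalizer (M : Set G))
    (hab : a ≠ b) (hbc : b ≠ c) (hac : a ≠ c) (ha : g • a = a) (hb : g • b = b) (hc : g • c = c) :
    g = 1 := by
  obtain ⟨k, hk1, hk2⟩ := h.exists_move hab
  have hfix : ∀ x y : G ⧸ normalizer (M : Set G), k • x = y → g • y = y → (k⁻¹ * g * k) • x = x := by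
    intro x y hxy hy
    rw [mul_smul, mul_smul, hxy, hy, ← hxy, inv_smul_smul]
  have h1 := mem_of_smul_one (hfix _ _ hk1 ha)
  have h2 := h.mem_of_smul_u (hfix _ _ hk2 hb)
  have hc1 : k⁻¹ • c ≠ ((1 : G) : G ⧸ normalizer (M : Set G)) := by
    intro h3
    apply hac
    rw [← hk1, ← h3, smul_inv_smul]
  obtain ⟨y, hy, hyc⟩ := h.exists_point hc1
  have hy1 : y ≠ 1 := by
    rintro rfl
    apply hbc
    rw [← hk2]
    rw [one_mul] at hyc
    rw [← hyc, smul_inv_smul]
  have h3 : (k⁻¹ * g * k) • (k⁻¹ • c) = k⁻¹ • c := hfix _ _ (smul_inv_smul k c) hc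
  rw [hyc, smul_mk, QuotientGroup.eq] at h3
  have h4 : u * (y⁻¹ * (k⁻¹ * g * k) * y) * u ∈ normalizer (M : Set G) := by
    have h5 := inv_mem h3
    have h6 : (((k⁻¹ * g * k) * (y * u))⁻¹ * (y * u))⁻¹ = u * (y⁻¹ * (k⁻¹ * g * k) * y) * u := by
      have h7 : (((k⁻¹ * g * k) * (y * u))⁻¹ * (y * u))⁻¹ = u⁻¹ * (y⁻¹ * (k⁻¹ * g * k) * y) * u := by
        group
      rw [h7, h.u_inv]
    rwa [h6] at h5
  have h5 := h.eq_one_of_three h1 h2 hy hy1 h4
  calc g = k * (k⁻¹ * g * k) * k⁻¹ := by group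
    _ = 1 := by rw [h5]; group

end Big

end Cfsg.Agent.H272.TIInv
end

-- part: H272/TIInv/Zass
section
/-!
`G` is a Zassenhaus group on the cosets of `N(M)`.
-/

set_option autoImplicit false

namespace Cfsg.Agent.H272.TIInv

open Subgroup

variable {G : Type*} [Group G] {M : Subgroup G} {z u : G}

namespace Big

theorem four_le [Finite G] (h : Big M z u) : 4 ≤ Nat.card (HH M z) ∧ Even (Nat.card (HH M z)) := by
  have hz : z ∈ HH M z := mem_HH.mpr ⟨h.zN, rfl⟩
  have h1 : 2 ∣ Nat.card (HH M z) := by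
    have h2 : orderOf (⟨z, hz⟩ : HH M z) = 2 :=
      orderOf_eq_prime (by rw [pow_two]; exact Subtype.ext h.zz) (fun h0 => h.z1 (congrArg Subtype.val h0))
    rw [← h2]
    exact orderOf_dvd_natCard _
  refine ⟨?_, even_iff_two_dvd.mpr h1⟩
  have h2 : 0 < Nat.card (HH M z) := Nat.card_pos
  have h3 := h.ne2
  omega

/-- no regular normal subgroup -/
theorem not_regular [Finite G] (h : Big M z u) (hlt : Nat.card (HH M z) < Nat.card M)
    (E : Subgroup G) (hE : E.Normal) (htr : MulAction.IsPretransitive E (G ⧸ normalizer (M : Set G)))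
    (hst : ∀ a : G ⧸ normalizer (M : Set G), MulAction.stabilizer E a = ⊥) : False := by
  classical
  -- uniqueness and existence
  have huniq : ∀ e ∈ E, ∀ f ∈ E, e • ((1 : G) : G ⧸ normalizer (M : Set G)) =
      f • ((1 : G) : G ⧸ normalizer (M : Set G)) → e = f := by
    intro e he f hf hef
    have h1 : (⟨f⁻¹ * e, E.mul_mem (E.inv_mem hf) he⟩ : E) ∈
        MulAction.stabilizer E ((1 : G) : G ⧸ normalizer (M : Set G)) := by
      rw [MulAction.mem_stabilizer_iff]
      show (f⁻¹ * e) • ((1 : G) : G ⧸ normalizer (M : Set G)) = _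
      rw [mul_smul, hef, inv_smul_smul]
    rw [hst, Subgroup.mem_bot] at h1
    exact (inv_mul_eq_one.mp (congrArg Subtype.val h1)).symm
  obtain ⟨⟨e0, he0E⟩, he0⟩ := htr.exists_smul_eq ((1 : G) : G ⧸ normalizer (M : Set G))
    ((u : G) : G ⧸ normalizer (M : Set G))
  have he0' : e0 • ((1 : G) : G ⧸ normalizer (M : Set G)) = ((u : G) : G ⧸ normalizer (M : Set G)) := he0
  have hu1 : ((u : G) : G ⧸ normalizer (M : Set G)) ≠ ((1 : G) : G ⧸ normalizer (M : Set G)) := by
    have := h.point_ne (y := 1) M.one_mem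
    rwa [one_mul] at this
  have he01 : e0 ≠ 1 := by
    rintro rfl
    rw [one_smul] at he0'
    exact hu1 he0'.symm
  -- all non-identity elements of `E` are conjugate to `e0`
  have hconj : ∀ e ∈ E, e ≠ 1 → ∃ y ∈ M, y⁻¹ * e * y = e0 := by
    intro e he he1
    have h1 : e • ((1 : G) : G ⧸ normalizer (M : Set G)) ≠ ((1 : G) : G ⧸ normalizer (M : Set G)) := by
      intro h2
      apply he1
      apply huniq e he 1 E.one_mem
      rw [h2, one_smul]
    obtain ⟨y, hy, hye⟩ := h.exists_point h1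
    refine ⟨y, hy, huniq _ ?_ _ he0E ?_⟩
    · have := hE.conj_mem e he y⁻¹
      rwa [inv_inv] at this
    · have h2 : y • ((1 : G) : G ⧸ normalizer (M : Set G)) = ((1 : G) : G ⧸ normalizer (M : Set G)) := by
        rw [smul_mk, mul_one, mk_eq_one]; exact le_N hy
      rw [mul_smul, mul_smul, h2, hye, he0', smul_mk]
      congr 1
      group
  -- the order of `E`
  have hcardE : Nat.card E = Nat.card M + 1 := by
    rw [← h.index_N, Subgroup.index]
    refine Nat.card_congr (Equiv.ofBijective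
      (fun e : E => (e : G) • ((1 : G) : G ⧸ normalizer (M : Set G))) ⟨?_, ?_⟩)
    · intro e f hef
      exact Subtype.ext (huniq e e.2 f f.2 hef)
    · intro a
      obtain ⟨e, he⟩ := htr.exists_smul_eq ((1 : G) : G ⧸ normalizer (M : Set G)) a
      exact ⟨e, he⟩
  have hodd := h.odd_card
  have : Fact (Nat.Prime 2) := ⟨Nat.prime_two⟩
  obtain ⟨w, hw⟩ := exists_prime_orderOf_dvd_card' (G := E) 2 (by
    rw [hcardE]
    obtain ⟨k, hk⟩ := hodd
    rw [hk]
    exact ⟨k + 1, by ring⟩)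
  have hww : (w : G) * w = 1 := by
    have h1 : w * w = 1 := by rw [← pow_two, ← hw]; exact pow_orderOf_eq_one _
    exact congrArg Subtype.val h1
  have hw1 : (w : G) ≠ 1 := by
    intro h1
    have h2 : w = 1 := Subtype.ext h1
    rw [h2, orderOf_one] at hw
    norm_num at hw
  have he0sq : e0 * e0 = 1 := by
    obtain ⟨y, hy, hyw⟩ := hconj w w.2 hw1
    rw [← hyw]
    calc y⁻¹ * w * y * (y⁻¹ * w * y) = y⁻¹ * ((w : G) * w) * y := by group
      _ = 1 := by rw [hww]; group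
  have hsq : ∀ e ∈ E, e * e = 1 := by
    intro e he
    by_cases he1 : e = 1
    · rw [he1, one_mul]
    · obtain ⟨y, hy, hye⟩ := hconj e he he1
      calc e * e = y * ((y⁻¹ * e * y) * (y⁻¹ * e * y)) * y⁻¹ := by group
        _ = 1 := by rw [hye, he0sq]; group
  have hcomm : ∀ a ∈ E, ∀ b ∈ E, a * b = b * a := by
    intro a ha b hb
    have h6 : (a : G)⁻¹ = a := inv_eq_of_mul_eq_one_left (hsq a ha)
    have h7 : (b : G)⁻¹ = b := inv_eq_of_mul_eq_one_left (hsq b hb)
    have h8 : ((a : G) * b)⁻¹ = a * b := inv_eq_of_mul_eq_one_left (hsq _ (E.mul_mem ha hb))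
    rw [← h8, mul_inv_rev, h6, h7]
  have hz1 : z • ((1 : G) : G ⧸ normalizer (M : Set G)) = ((1 : G) : G ⧸ normalizer (M : Set G)) := by
    rw [smul_mk, mul_one, mk_eq_one]; exact h.zN
  have hzu : z • ((u : G) : G ⧸ normalizer (M : Set G)) = ((u : G) : G ⧸ normalizer (M : Set G)) := by
    rw [smul_mk, ← h.uz, QuotientGroup.eq]
    have h1 : (u * z)⁻¹ * u = z⁻¹ := by group
    rw [h1]; exact inv_mem h.zN
  have hzE : ∀ e ∈ E, z * e * z⁻¹ ∈ E := fun e he => hE.conj_mem e he z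
  have hzinv : z⁻¹ • ((1 : G) : G ⧸ normalizer (M : Set G)) = ((1 : G) : G ⧸ normalizer (M : Set G)) := by
    rw [inv_smul_eq_iff, hz1]
  -- fixed points of `z` in `E`
  have hfix : ∀ e ∈ E, z * e * z⁻¹ = e → e = 1 ∨ e = e0 := by
    intro e he hze
    by_contra hcon
    push Not at hcon
    apply h.z1
    refine h.no_three z ((1 : G) : G ⧸ normalizer (M : Set G)) ((u : G) : G ⧸ normalizer (M : Set G))
      (e • ((1 : G) : G ⧸ normalizer (M : Set G))) hu1.symm ?_ ?_ hz1 hzu ?_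
    · intro h1
      exact hcon.2 (huniq e he e0 he0E (by rw [← h1, he0']))
    · intro h1
      exact hcon.1 (huniq e he 1 E.one_mem (by rw [← h1, one_smul]))
    · have h1 : z • e • ((1 : G) : G ⧸ normalizer (M : Set G)) =
          (z * e * z⁻¹) • ((1 : G) : G ⧸ normalizer (M : Set G)) := by
        rw [mul_smul, mul_smul, hzinv]
      rw [h1, hze]
  have hw' : ∀ e ∈ E, e * (z * e * z⁻¹) = 1 ∨ e * (z * e * z⁻¹) = e0 := by
    intro e he
    refine hfix _ (E.mul_mem he (hzE e he)) ?_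
    have hzz2 : z * (z * e * z⁻¹) * z⁻¹ = e := by
      calc z * (z * e * z⁻¹) * z⁻¹ = (z * z) * e * (z * z)⁻¹ := by group
        _ = e := by rw [h.zz]; group
    calc z * (e * (z * e * z⁻¹)) * z⁻¹ = (z * e * z⁻¹) * (z * (z * e * z⁻¹) * z⁻¹) := by group
      _ = (z * e * z⁻¹) * e := by rw [hzz2]
      _ = e * (z * e * z⁻¹) := (hcomm _ he _ (hzE e he)).symm
  -- for `e ∉ {1, e0}`: `z e z⁻¹ = e e0`
  have hz' : ∀ e ∈ E, e ≠ 1 → e ≠ e0 → z * e * z⁻¹ = e * e0 := by
    intro e he he1 he2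
    rcases hw' e he with h1 | h1
    · exfalso
      have h2 : z * e * z⁻¹ = e⁻¹ := (eq_inv_of_mul_eq_one_right h1)
      rw [inv_eq_of_mul_eq_one_left (hsq e he)] at h2
      rcases hfix e he h2 with h3 | h3
      · exact he1 h3
      · exact he2 h3
    · calc z * e * z⁻¹ = (e * e) * (z * e * z⁻¹) := by rw [hsq e he, one_mul]
        _ = e * (e * (z * e * z⁻¹)) := by group
        _ = e * e0 := by rw [h1]
  -- `E` has at most four elements
  obtain ⟨h4, -⟩ := h.four_le
  have h6 : 6 ≤ Nat.card E := by omega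
  by_cases hex : ∃ e ∈ E, e ≠ 1 ∧ e ≠ e0
  · obtain ⟨e, he, he1, he2⟩ := hex
    have hsub : (E : Set G) ⊆ (({1, e0, e, e * e0} : Finset G) : Set G) := by
      intro f hf
      by_cases hf1 : f = 1
      · simp [hf1]
      by_cases hf2 : f = e0
      · simp [hf2]
      have h7 : z * (e * f) * z⁻¹ = e * f := by
        calc z * (e * f) * z⁻¹ = (z * e * z⁻¹) * (z * f * z⁻¹) := by group
          _ = (e * e0) * (f * e0) := by rw [hz' e he he1 he2, hz' f hf hf1 hf2]
          _ = e * (e0 * f) * e0 := by group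
          _ = e * (f * e0) * e0 := by rw [hcomm e0 he0E f hf]
          _ = e * f * (e0 * e0) := by group
          _ = e * f := by rw [he0sq, mul_one]
      have hei : e⁻¹ = e := inv_eq_of_mul_eq_one_left (hsq e he)
      rcases hfix _ (E.mul_mem he hf) h7 with h8 | h8
      · have h9 : f = e := by
          have := eq_inv_of_mul_eq_one_right h8
          rw [this, hei]
        simp [h9]
      · have h9 : f = e * e0 := by
          calc f = (e * e) * f := by rw [hsq e he, one_mul]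
            _ = e * (e * f) := by group
            _ = e * e0 := by rw [h8]
        simp [h9]
    have h7 : Nat.card E ≤ ({1, e0, e, e * e0} : Finset G).card := by
      have h8 := Set.ncard_le_ncard hsub (Finset.finite_toSet _)
      rw [Set.ncard_coe_finset] at h8
      exact h8
    have h8 : ({1, e0, e, e * e0} : Finset G).card ≤ 4 := Finset.card_le_four
    omega
  · push Not at hex
    have hsub : (E : Set G) ⊆ (({1, e0} : Finset G) : Set G) := by
      intro f hf
      by_cases hf1 : f = 1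
      · simp [hf1]
      · simp [hex f hf hf1]
    have h7 : Nat.card E ≤ ({1, e0} : Finset G).card := by
      have h8 := Set.ncard_le_ncard hsub (Finset.finite_toSet _)
      rw [Set.ncard_coe_finset] at h8
      exact h8
    have h8 : ({1, e0} : Finset G).card ≤ 2 := Finset.card_le_two
    omega

theorem isZassenhaus [Finite G] (h : Big M z u) (hlt : Nat.card (HH M z) < Nat.card M) :
    Cfsg.IsZassenhausGroup G (G ⧸ normalizer (M : Set G)) := by
  have hu1 : ((u : G) : G ⧸ normalizer (M : Set G)) ≠ ((1 : G) : G ⧸ normalizer (M : Set G)) := by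
    have := h.point_ne (y := 1) M.one_mem
    rwa [one_mul] at this
  have hz1 : z • ((1 : G) : G ⧸ normalizer (M : Set G)) = ((1 : G) : G ⧸ normalizer (M : Set G)) := by
    rw [smul_mk, mul_one, mk_eq_one]; exact h.zN
  have hzu : z • ((u : G) : G ⧸ normalizer (M : Set G)) = ((u : G) : G ⧸ normalizer (M : Set G)) := by
    rw [smul_mk, ← h.uz, QuotientGroup.eq]
    have h1 : (u * z)⁻¹ * u = z⁻¹ := by group
    rw [h1]; exact inv_mem h.zN
  refine ⟨⟨?_⟩, h.two_trans, ?_, ⟨z, h.z1, _, _, hu1.symm, hz1, hzu⟩, ?_⟩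
  · intro g k hgk
    obtain ⟨y, hy, hy1⟩ := h.exists_ne
    have hyu : ((y * u : G) : G ⧸ normalizer (M : Set G)) ≠ ((u : G) : G ⧸ normalizer (M : Set G)) := by
      intro h1
      apply hy1
      apply h.uniq hy M.one_mem
      rw [one_mul]
      exact QuotientGroup.eq.mp h1
    have h1 : ∀ a : G ⧸ normalizer (M : Set G), (k⁻¹ * g) • a = a := by
      intro a
      rw [mul_smul, hgk a, inv_smul_smul]
    have h2 := h.no_three (k⁻¹ * g) _ _ _ hu1.symm hyu.symm (h.point_ne hy).symm (h1 _) (h1 _) (h1 _)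
    exact (inv_mul_eq_one.mp h2).symm
  · intro g a b c hab hbc hac ha hb hc
    exact h.no_three g a b c hab hbc hac ha hb hc
  · intro E hE htr
    by_contra hcon
    push Not at hcon
    exact h.not_regular hlt E hE htr hcon

/-- two point stabilisers -/
theorem stab_inf [Finite G] (h : Big M z u) :
    MulAction.stabilizer G ((1 : G) : G ⧸ normalizer (M : Set G)) ⊓
      MulAction.stabilizer G ((u : G) : G ⧸ normalizer (M : Set G)) = HH M z := by
  ext g
  rw [Subgroup.mem_inf, MulAction.mem_stabilizer_iff, MulAction.mem_stabilizer_iff]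
  constructor
  · rintro ⟨h1, h2⟩
    have h3 := mem_of_smul_one h1
    exact mem_HH.mpr ⟨h3, h.comm_of_mem h.uu h.uN h.uz h3 (h.mem_of_smul_u h2)⟩
  · intro hg
    have h1 := (mem_HH.mp hg).1
    refine ⟨by rw [smul_mk, mul_one, mk_eq_one]; exact h1, ?_⟩
    rw [smul_mk, QuotientGroup.eq]
    have h2 := h.inv_HH hg
    have h3 : (g * u)⁻¹ * u = (u * g * u)⁻¹ := by
      rw [mul_inv_rev, mul_inv_rev, mul_inv_rev, h.u_inv]; group
    rw [h3, h2, inv_inv]
    exact h1

theorem stab_one (M : Subgroup G) :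
    MulAction.stabilizer G ((1 : G) : G ⧸ normalizer (M : Set G)) = normalizer (M : Set G) := by
  ext g
  rw [MulAction.mem_stabilizer_iff, smul_mk, mul_one, mk_eq_one]

end Big

end Cfsg.Agent.H272.TIInv
end

-- part: H272/TIInv/PGLCore
section
/-!
A sharply 3-transitive group with abelian two point stabilisers inverted by an involution swapping
the two points is `PGL(2, F)`.
-/

set_option autoImplicit false

namespace Cfsg.Agent.H272.TIInv

open Equiv

theorem pgl_core1 {K : Type*} (G : Subgroup (Perm (Option K))) (N H : Subgroup (Perm K))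
    (o e : K) (hoe : o ≠ e)
    (hNc : ∀ a ∈ N, ∀ b ∈ N, a * b = b * a) (hNt : ∀ x, ∃ a ∈ N, a o = x)
    (hHc : ∀ a ∈ H, ∀ b ∈ H, a * b = b * a) (hH0 : ∀ h ∈ H, h o = o)
    (hHt : ∀ x, x ≠ o → ∃ h ∈ H, h e = x) (hHN : ∀ h ∈ H, ∀ a ∈ N, h * a * h⁻¹ ∈ N)
    (hNG : ∀ a ∈ N, ∃ g ∈ G, g none = none ∧ ∀ y, g (some y) = some (a y))
    (hHG : ∀ a ∈ H, ∃ g ∈ G, g none = none ∧ ∀ y, g (some y) = some (a y))
    (t : Perm (Option K)) (htG : t ∈ G) (ht1 : t none = some o) (ht2 : t (some o) = none)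
    (htH : ∀ h ∈ H, t (some (h e)) = some (h⁻¹ e)) :
    ∃ F : Field K, (∀ b : K, ∃ g ∈ G, g none = none ∧ ∀ y : K, g (some y) = some (F.add b y)) ∧
      (∀ a : K, a ≠ F.zero → ∃ g ∈ G, g none = none ∧ ∀ y : K, g (some y) = some (F.mul a y)) ∧
      (∃ g ∈ G, g none = some F.zero ∧ g (some F.zero) = none ∧
        ∀ y : K, y ≠ F.zero → g (some y) = some (F.inv y)) := by
  classical
  obtain ⟨F, hF1, hF2, hF0, hFe⟩ := Cfsg.Agent.PermutationGroups.FieldOfAffine.exists_field N H o e hoe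
    hNc hNt hHc hH0 hHt hHN
  refine ⟨F, ?_, ?_, ?_⟩
  · intro b
    obtain ⟨a, ha, hab⟩ := hNt b
    obtain ⟨g, hg, hg1, hg2⟩ := hNG a ha
    refine ⟨g, hg, hg1, ?_⟩
    intro y
    rw [hg2, hF1 a ha y, hab]
  · intro a ha0
    rw [hF0] at ha0
    obtain ⟨h, hh, hha⟩ := hHt a ha0
    obtain ⟨g, hg, hg1, hg2⟩ := hHG h hh
    refine ⟨g, hg, hg1, ?_⟩
    intro y
    rw [hg2, hF2 h hh y, hha]
  · rw [hF0]
    refine ⟨t, htG, ht1, ht2, ?_⟩
    intro y hy
    obtain ⟨h, hh, hha⟩ := hHt y hy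
    have h4 := htH h hh
    rw [hha] at h4
    rw [h4]
    congr 1
    have h5 := hF2 h hh (h⁻¹ e)
    have h7 : h (h⁻¹ e) = e := Equiv.apply_symm_apply h e
    rw [h7, hha] at h5
    let _ := F
    have h6 : y * (h⁻¹ e) = 1 := by
      have : (1 : K) = e := hFe
      rw [this]; exact h5.symm
    exact eq_inv_of_mul_eq_one_right h6

theorem pgl_core {m : ℕ} (G : Subgroup (Perm (Option (Fin m)))) (N H : Subgroup (Perm (Fin m)))
    (o e : Fin m) (hoe : o ≠ e)
    (hNc : ∀ a ∈ N, ∀ b ∈ N, a * b = b * a) (hNt : ∀ x, ∃ a ∈ N, a o = x)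
    (hHc : ∀ a ∈ H, ∀ b ∈ H, a * b = b * a) (hH0 : ∀ h ∈ H, h o = o)
    (hHt : ∀ x, x ≠ o → ∃ h ∈ H, h e = x) (hHN : ∀ h ∈ H, ∀ a ∈ N, h * a * h⁻¹ ∈ N)
    (hNG : ∀ a ∈ N, ∃ g ∈ G, g none = none ∧ ∀ y, g (some y) = some (a y))
    (hHG : ∀ a ∈ H, ∃ g ∈ G, g none = none ∧ ∀ y, g (some y) = some (a y))
    (t : Perm (Option (Fin m))) (htG : t ∈ G) (ht1 : t none = some o) (ht2 : t (some o) = none)
    (htH : ∀ h ∈ H, t (some (h e)) = some (h⁻¹ e))
    (h3 : ∀ a b c a' b' c' : Option (Fin m), a ≠ b → a ≠ c → b ≠ c → a' ≠ b' → a' ≠ c' → b' ≠ c' →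
      ∃ g ∈ G, g a = a' ∧ g b = b' ∧ g c = c')
    (hs : ∀ g ∈ G, ∀ a b c : Option (Fin m), a ≠ b → a ≠ c → b ≠ c → g a = a → g b = b → g c = c →
      g = 1) :
    ∃ (F : Type) (_ : Field F) (_ : Fintype F), Fintype.card F = m ∧
      Nonempty (G ≃* Matrix.ProjGenLinGroup (Fin 2) F) := by
  classical
  obtain ⟨F, hF1, hF2, hF3⟩ := pgl_core1 G N H o e hoe hNc hNt hHc hH0 hHt hHN hNG hHG t htG ht1 ht2 htH
  refine ⟨Fin m, F, inferInstance, Fintype.card_fin m, ?_⟩
  let _ := F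
  exact Cfsg.Agent.PermutationGroups.SharpThreeEven.core2 (K := Fin m) G h3 hs hF1 hF2 hF3

end Cfsg.Agent.H272.TIInv
end

-- part: H272/TIInv/PSL
section
/-!
The case `C(z) ∩ N(M) ≠ ⟨z⟩`: identification of `G`.
-/

set_option autoImplicit false

namespace Cfsg.Agent.H272.TIInv

open Subgroup

variable {G : Type*} [Group G] {M : Subgroup G} {z u : G}

namespace Big

theorem exists_unique_move [Finite G] (h : Big M z u) (a b : G ⧸ normalizer (M : Set G))
    (ha : a ≠ ((1 : G) : G ⧸ normalizer (M : Set G)))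
    (hb : b ≠ ((1 : G) : G ⧸ normalizer (M : Set G))) : ∃! m : M, (m : G) • a = b := by
  obtain ⟨y, hy, rfl⟩ := h.exists_point ha
  obtain ⟨w, hw, rfl⟩ := h.exists_point hb
  refine ⟨⟨w * y⁻¹, M.mul_mem hw (M.inv_mem hy)⟩, ?_, ?_⟩
  · show (w * y⁻¹) • ((y * u : G) : G ⧸ normalizer (M : Set G)) = _
    rw [smul_mk]
    congr 1
    group
  · rintro ⟨m, hm⟩ hmy
    have h1 : m • ((y * u : G) : G ⧸ normalizer (M : Set G)) =
      ((w * u : G) : G ⧸ normalizer (M : Set G)) := hmy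
    rw [smul_mk, QuotientGroup.eq] at h1
    have h2 : m * y = w := by
      apply h.uniq (M.mul_mem hm hy) hw
      rwa [mul_assoc]
    apply Subtype.ext
    show m = w * y⁻¹
    rw [← h2]; group

/-- the prime -/
theorem exists_prime [Finite G] (h : Big M z u) (hlt : Nat.card (HH M z) < Nat.card M) :
    Nat.card M - 1 ≤ 2 * Nat.card (HH M z) ∧ IsMulCommutative M ∧
      ∃ p f : ℕ, p.Prime ∧ (∀ x ∈ M, x ^ p = 1) ∧ Nat.card M = p ^ f := by
  classical
  have : Fintype (G ⧸ normalizer (M : Set G)) := Fintype.ofFinite _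
  have hΩ : Fintype.card (G ⧸ normalizer (M : Set G)) = Nat.card M + 1 := by
    rw [← h.index_N, Subgroup.index, Nat.card_eq_fintype_card]
  have hZ := h.isZassenhaus hlt
  have hu1 : ((1 : G) : G ⧸ normalizer (M : Set G)) ≠ ((u : G) : G ⧸ normalizer (M : Set G)) := by
    have := h.point_ne (y := 1) M.one_mem
    rw [one_mul] at this
    exact this.symm
  have h1 := Cfsg.Agent.S0741.result hZ hu1 (by rw [h.stab_inf]; exact h.four_le.2)
  have h2 := Cfsg.Agent.S0738.result hZ hu1 h1 M (by rw [stab_one]; exact Subgroup.le_normalizer) (by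
    rw [stab_one]
    exact Subgroup.normal_in_normalizer) (fun a b => h.exists_unique_move a b)
  rw [h.stab_inf, hΩ] at h1
  refine ⟨by omega, h2.1, ?_⟩
  obtain ⟨-, p, f, hp, hpM, hf⟩ := h2
  rw [hΩ] at hf
  exact ⟨p, f, hp, hpM, by omega⟩

theorem one_lt_card [Finite G] (h : Big M z u) : 1 < Nat.card M := by
  obtain ⟨y, hy, hy1⟩ := h.exists_ne
  have h1 : 0 < Nat.card M := Nat.card_pos
  have h2 : Nat.card M ≠ 1 := by
    intro h3
    exact hy1 (Subgroup.mem_bot.mp ((Subgroup.card_eq_one.mp h3) ▸ hy))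
  omega

theorem psl [Finite G] (h : Big M z u) (hlt : Nat.card (HH M z) < Nat.card M)
    (hle : 2 * Nat.card (HH M z) ≤ Nat.card M - 1) :
    ∃ (F : Type) (_ : Field F) (_ : Fintype F) (p : ℕ) (_ : Fact p.Prime) (_ : CharP F p),
      Fintype.card F = Nat.card M ∧ Cfsg.IsElementaryAbelian p M ∧
      Fintype.card F % 4 = 1 ∧ Nonempty (G ≃* Matrix.ProjectiveSpecialLinearGroup (Fin 2) F) := by
  classical
  obtain ⟨h1, hcomm, p, f, hp, hpM, hf⟩ := h.exists_prime hlt
  have : Fintype (G ⧸ normalizer (M : Set G)) := Fintype.ofFinite _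
  have hΩ : Fintype.card (G ⧸ normalizer (M : Set G)) = Nat.card M + 1 := by
    rw [← h.index_N, Subgroup.index, Nat.card_eq_fintype_card]
  have hZ := h.isZassenhaus hlt
  have hu1 : ((1 : G) : G ⧸ normalizer (M : Set G)) ≠ ((u : G) : G ⧸ normalizer (M : Set G)) := by
    have := h.point_ne (y := 1) M.one_mem
    rw [one_mul] at this
    exact this.symm
  obtain ⟨p', f', K, hK1, hK2, hp', hp'2, hKc, hΩ', hiso⟩ := Cfsg.Agent.S0742.result hZ hu1
    (by rw [h.stab_inf]; exact h.four_le.2) (by rw [h.stab_inf, hΩ]; omega)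
  rw [hΩ] at hΩ'
  have hMc : Nat.card M = p' ^ f' := by omega
  have hM1 := h.one_lt_card
  have hf0 : f ≠ 0 := by
    rintro rfl
    rw [pow_zero] at hf
    omega
  have hpp : p = p' := by
    have h2 : p ∣ p' ^ f' := by
      rw [← hMc, hf]
      exact dvd_pow_self p hf0
    exact (Nat.prime_dvd_prime_iff_eq hp hp').mp (hp.dvd_of_dvd_pow h2)
  subst hpp
  have hfact : Fact p.Prime := ⟨hp⟩
  refine ⟨K, hK1, hK2, p, hfact, charP_of_card_eq_prime_pow hKc,
    by rw [hKc, hMc], ⟨hcomm, hpM⟩, ?_, hiso⟩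
  rw [hKc, ← hMc]
  obtain ⟨k, hk⟩ := h.four_le.2
  omega

end Big

end Cfsg.Agent.H272.TIInv
end

-- part: H272/TIInv/PGL
section
/-!
The case `C(z) ∩ N(M) ≠ ⟨z⟩`: identification of `G` with `PGL(2, F)`.
-/

set_option autoImplicit false

namespace Cfsg.Agent.H272.TIInv

open Subgroup

variable {G : Type*} [Group G] {M : Subgroup G} {z u : G}

namespace Big

theorem conj_smul [Finite G] (h : Big M z u) {k : G} (hk : k ∈ HH M z) (y : G) :
    k • ((y * u : G) : G ⧸ normalizer (M : Set G)) =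
      ((k * y * k⁻¹ * u : G) : G ⧸ normalizer (M : Set G)) := by
  rw [smul_mk, QuotientGroup.eq]
  have h1 : (k * (y * u))⁻¹ * (k * y * k⁻¹ * u) = u⁻¹ * k⁻¹ * u := by group
  rw [h1, h.u_inv, h.inv_HH (inv_mem hk), inv_inv]
  exact (mem_HH.mp hk).1

theorem eq_one_of_comm_M [Finite G] (h : Big M z u) {k y : G} (hk : k ∈ HH M z) (hy : y ∈ M)
    (hy1 : y ≠ 1) (hky : k * y = y * k) : k = 1 := by
  have hkN := (mem_HH.mp hk).1
  have h1 : u * k * u ∈ normalizer (M : Set G) := by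
    rw [h.inv_HH hk]; exact inv_mem hkN
  refine h.eq_one_of_three hkN h1 hy hy1 ?_
  have h2 : y⁻¹ * k * y = k := by
    calc y⁻¹ * k * y = y⁻¹ * (k * y) := by group
      _ = k := by rw [hky]; group
  rw [h2]
  exact h1

/-- `C(z) ∩ N(M)` is transitive on `M ∖ 1` -/
theorem transitive [Finite G] (h : Big M z u) (hgt : Nat.card M - 1 < 2 * Nat.card (HH M z))
    {x y : G} (hx : x ∈ M) (hx1 : x ≠ 1) (hy : y ∈ M) (hy1 : y ≠ 1) :
    ∃ k ∈ HH M z, k * y * k⁻¹ = x := by
  classical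
  by_contra hcon
  push Not at hcon
  have hinj : ∀ w ∈ M, w ≠ 1 → ∀ k ∈ HH M z, ∀ l ∈ HH M z, k * w * k⁻¹ = l * w * l⁻¹ → k = l := by
    intro w hw hw1 k hk l hl hkl
    have h1 : l⁻¹ * k = 1 := by
      refine h.eq_one_of_comm_M (mul_mem (inv_mem hl) hk) hw hw1 ?_
      calc l⁻¹ * k * w = l⁻¹ * (k * w * k⁻¹) * k := by group
        _ = w * (l⁻¹ * k) := by rw [hkl]; group
    exact (inv_mul_eq_one.mp h1).symm
  have hmem : ∀ w ∈ M, w ≠ 1 → ∀ k : HH M z, (k : G) * w * (k : G)⁻¹ ∈ M ∧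
      (k : G) * w * (k : G)⁻¹ ≠ 1 := by
    intro w hw hw1 k
    refine ⟨conj_mem (mem_HH.mp k.2).1 hw, ?_⟩
    intro h1
    apply hw1
    calc w = (k : G)⁻¹ * ((k : G) * w * (k : G)⁻¹) * k := by group
      _ = 1 := by rw [h1]; group
  let f : HH M z ⊕ HH M z → {w : M // w ≠ 1} := Sum.elim
    (fun (k : HH M z) => (⟨⟨(k : G) * y * (k : G)⁻¹, (hmem y hy hy1 k).1⟩,
      fun h1 => (hmem y hy hy1 k).2 (congrArg Subtype.val h1)⟩ : {w : M // w ≠ 1}))
    (fun (k : HH M z) => (⟨⟨(k : G) * x * (k : G)⁻¹, (hmem x hx hx1 k).1⟩,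
      fun h1 => (hmem x hx hx1 k).2 (congrArg Subtype.val h1)⟩ : {w : M // w ≠ 1}))
  have hne : ∀ k l : HH M z, (k : G) * y * (k : G)⁻¹ ≠ (l : G) * x * (l : G)⁻¹ := by
    intro k l hkl
    apply hcon _ (mul_mem (inv_mem l.2) k.2)
    calc ((l : G)⁻¹ * k) * y * ((l : G)⁻¹ * k)⁻¹ = (l : G)⁻¹ * (k * y * (k : G)⁻¹) * l := by group
      _ = x := by rw [hkl]; group
  have hf : Function.Injective f := by
    rintro (k | k) (l | l) hkl
    · have h1 : (k : G) * y * (k : G)⁻¹ = (l : G) * y * (l : G)⁻¹ :=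
        congrArg (fun s : {w : M // w ≠ 1} => ((s : M) : G)) hkl
      rw [Subtype.ext (hinj y hy hy1 k k.2 l l.2 h1)]
    · exact absurd (congrArg (fun s : {w : M // w ≠ 1} => ((s : M) : G)) hkl) (hne k l)
    · exact absurd (congrArg (fun s : {w : M // w ≠ 1} => ((s : M) : G)) hkl).symm (hne l k)
    · have h1 : (k : G) * x * (k : G)⁻¹ = (l : G) * x * (l : G)⁻¹ :=
        congrArg (fun s : {w : M // w ≠ 1} => ((s : M) : G)) hkl
      rw [Subtype.ext (hinj x hx hx1 k k.2 l l.2 h1)]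
  have h1 := Nat.card_le_card_of_injective f hf
  rw [Nat.card_sum] at h1
  have h2 : Nat.card {w : M // w ≠ 1} = Nat.card M - 1 := by
    have : Fintype M := Fintype.ofFinite _
    rw [Nat.card_eq_fintype_card, Nat.card_eq_fintype_card, Fintype.card_subtype_compl,
      Fintype.card_subtype_eq]
  omega

/-- choice of the involution fixing a third point -/
theorem exists_swap [Finite G] (h : Big M z u) (hgt : Nat.card M - 1 < 2 * Nat.card (HH M z))
    {y : G} (hy : y ∈ M) (hy1 : y ≠ 1) :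
    ∃ t : G, Big M z t ∧ t • ((1 : G) : G ⧸ normalizer (M : Set G)) = ((u : G) : G ⧸ normalizer (M : Set G)) ∧
      t • ((u : G) : G ⧸ normalizer (M : Set G)) = ((1 : G) : G ⧸ normalizer (M : Set G)) ∧
      t • ((y * u : G) : G ⧸ normalizer (M : Set G)) = ((y * u : G) : G ⧸ normalizer (M : Set G)) := by
  have hP : u • ((y * u : G) : G ⧸ normalizer (M : Set G)) ≠ ((1 : G) : G ⧸ normalizer (M : Set G)) := by
    rw [smul_mk, Ne, mk_eq_one]
    intro h1
    apply hy1
    refine h.eq_one_of_conj_mem h.uu h.uN hy ?_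
    rwa [mul_assoc]
  obtain ⟨x, hx, hxu⟩ := h.exists_point hP
  have hx1 : x ≠ 1 := by
    rintro rfl
    rw [one_mul, smul_mk, QuotientGroup.eq] at hxu
    apply Hyp.mul_not_mem' h.uN hy
    have h1 := inv_mem hxu
    have h2 : ((u * (y * u))⁻¹ * u)⁻¹ = u⁻¹ * u * (y * u) := by group
    rw [h2] at h1
    simpa using h1
  obtain ⟨k, hk, hkx⟩ := h.transitive hgt hx hx1 hy hy1
  have hki : u * k⁻¹ * u = k := by rw [h.inv_HH (inv_mem hk), inv_inv]
  have hkN := (mem_HH.mp hk).1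
  refine ⟨k⁻¹ * u, { h with uu := ?_, uN := ?_, uz := ?_ }, ?_, ?_, ?_⟩
  · calc k⁻¹ * u * (k⁻¹ * u) = k⁻¹ * (u * k⁻¹ * u) := by group
      _ = 1 := by rw [hki]; group
  · intro h1
    apply h.uN
    have h2 := mul_mem hkN h1
    rwa [mul_inv_cancel_left] at h2
  · have h2 := (mem_HH.mp (inv_mem hk)).2
    calc k⁻¹ * u * z = k⁻¹ * (u * z) := by group
      _ = (k⁻¹ * z) * u := by rw [h.uz]; group
      _ = z * (k⁻¹ * u) := by rw [h2]; group
  · rw [smul_mk, mul_one, QuotientGroup.eq]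
    have h2 : (k⁻¹ * u)⁻¹ * u = u⁻¹ * k * u := by group
    rw [h2, h.u_inv, h.inv_HH hk]
    exact inv_mem hkN
  · rw [smul_mk, mul_assoc, h.uu, mul_one, mk_eq_one]
    exact inv_mem hkN
  · rw [mul_smul, hxu, inv_smul_eq_iff, h.conj_smul hk, hkx]

theorem pgl [Finite G] (h : Big M z u) (hlt : Nat.card (HH M z) < Nat.card M)
    (hgt : Nat.card M - 1 < 2 * Nat.card (HH M z)) :
    ∃ (F : Type) (_ : Field F) (_ : Fintype F) (p : ℕ) (_ : Fact p.Prime) (_ : CharP F p),
      Fintype.card F = Nat.card M ∧ Cfsg.IsElementaryAbelian p M ∧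
      Nonempty (G ≃* (GL (Fin 2) F ⧸ Subgroup.center (GL (Fin 2) F))) := by
  classical
  obtain ⟨-, hcomm, p, f, hp, hpM, hf⟩ := h.exists_prime hlt
  have hfact : Fact p.Prime := ⟨hp⟩
  obtain ⟨y, hy, hy1⟩ := h.exists_ne
  obtain ⟨t, hT, ht1, ht2, ht3⟩ := h.exists_swap hgt hy hy1
  let φ : M ≃ Fin (Nat.card M) := Finite.equivFin M
  let ε : Option (Fin (Nat.card M)) ≃ G ⧸ normalizer (M : Set G) := Equiv.ofBijective
    (fun o => o.elim ((1 : G) : G ⧸ normalizer (M : Set G))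
      (fun i => (((φ.symm i : M) : G) * u : G))) (by
    constructor
    · rintro (_ | i) (_ | j) hij
      · rfl
      · exact absurd hij.symm (h.point_ne (φ.symm j).2)
      · exact absurd hij (h.point_ne (φ.symm i).2)
      · have h1 := h.uniq (φ.symm i).2 (φ.symm j).2 (QuotientGroup.eq.mp hij)
        rw [φ.symm.injective (Subtype.ext h1)]
    · intro a
      by_cases ha : a = ((1 : G) : G ⧸ normalizer (M : Set G))
      · exact ⟨none, ha.symm⟩
      · obtain ⟨w, hw, hwa⟩ := h.exists_point ha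
        refine ⟨some (φ ⟨w, hw⟩), ?_⟩
        show (((φ.symm (φ ⟨w, hw⟩) : M) : G) * u : G) = a
        rw [Equiv.symm_apply_apply, hwa])
  have hε0 : ε none = ((1 : G) : G ⧸ normalizer (M : Set G)) := rfl
  have hε1 : ∀ i, ε (some i) = (((φ.symm i : M) : G) * u : G) := fun i => rfl
  have hε2 : ∀ w (hw : w ∈ M), ε (some (φ ⟨w, hw⟩)) = ((w * u : G) : G ⧸ normalizer (M : Set G)) := by
    intro w hw
    rw [hε1, Equiv.symm_apply_apply]
  let ρ : G →* Equiv.Perm (Option (Fin (Nat.card M))) :=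
    { toFun := fun g => ⟨fun x => ε.symm (g • ε x), fun x => ε.symm (g⁻¹ • ε x),
        by intro x; simp, by intro x; simp⟩
      map_one' := by apply Equiv.ext; intro x; simp
      map_mul' := by intro a b; apply Equiv.ext; intro x; simp [mul_smul] }
  have hρ : ∀ g x, ρ g x = ε.symm (g • ε x) := fun g x => rfl
  have hρ' : ∀ g x w, ρ g x = w ↔ g • ε x = ε w := by
    intro g x w
    rw [hρ, Equiv.symm_apply_eq]
  have hρi : Function.Injective ρ := by
    have := (h.isZassenhaus hlt).1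
    rw [injective_iff_map_eq_one]
    intro g hg
    apply FaithfulSMul.eq_of_smul_eq_smul (α := G ⧸ normalizer (M : Set G))
    intro a
    have h1 : ρ g (ε.symm a) = ε.symm a := by rw [hg]; rfl
    rw [hρ'] at h1
    rw [Equiv.apply_symm_apply] at h1
    rw [h1, one_smul]
  let ν : M →* Equiv.Perm (Fin (Nat.card M)) :=
    { toFun := fun a => ⟨fun i => φ (a * φ.symm i), fun i => φ (a⁻¹ * φ.symm i),
        by intro x; simp, by intro x; simp⟩
      map_one' := by apply Equiv.ext; intro x; simp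
      map_mul' := by intro a b; apply Equiv.ext; intro x; simp [mul_assoc] }
  have hν : ∀ a i, ν a i = φ (a * φ.symm i) := fun a i => rfl
  have hmem : ∀ (k : HH M z) (a : M), (k : G) * a * (k : G)⁻¹ ∈ M :=
    fun k a => conj_mem (mem_HH.mp k.2).1 a.2
  have hmem' : ∀ (k : HH M z) (a : M), (k : G)⁻¹ * a * (k : G) ∈ M :=
    fun k a => conj_mem' (mem_HH.mp k.2).1 a.2
  let η : HH M z →* Equiv.Perm (Fin (Nat.card M)) :=
    { toFun := fun k => ⟨fun i => φ ⟨_, hmem k (φ.symm i)⟩, fun i => φ ⟨_, hmem' k (φ.symm i)⟩,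
        by intro x; simp [mul_assoc], by intro x; simp [mul_assoc]⟩
      map_one' := by apply Equiv.ext; intro x; simp
      map_mul' := by intro a b; apply Equiv.ext; intro x; simp [mul_assoc] }
  have hη : ∀ k i, η k i = φ ⟨_, hmem k (φ.symm i)⟩ := fun a i => rfl
  have hzH : z ∈ HH M z := mem_HH.mpr ⟨h.zN, rfl⟩
  have huT : ((t : G) : G ⧸ normalizer (M : Set G)) = ((u : G) : G ⧸ normalizer (M : Set G)) := by
    rw [← ht1, smul_mk, mul_one]
  -- values of `ρ`
  have hρk : ∀ k (hk : k ∈ HH M z) w (hw : w ∈ M), ρ k (some (φ ⟨w, hw⟩)) =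
      some (φ ⟨k * w * k⁻¹, hmem ⟨k, hk⟩ ⟨w, hw⟩⟩) := by
    intro k hk w hw
    rw [hρ', hε2, hε2, h.conj_smul hk]
  have hρk0 : ∀ k, k ∈ normalizer (M : Set G) → ρ k none = none := by
    intro k hk
    rw [hρ', hε0, smul_mk, mul_one, mk_eq_one]
    exact hk
  have hρm : ∀ a (ha : a ∈ M) w (hw : w ∈ M), ρ a (some (φ ⟨w, hw⟩)) =
      some (φ ⟨a * w, M.mul_mem ha hw⟩) := by
    intro a ha w hw
    rw [hρ', hε2, hε2, smul_mk, mul_assoc]
  have hsurj : ∀ i : Fin (Nat.card M), ∃ w, ∃ hw : w ∈ M, i = φ ⟨w, hw⟩ := by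
    intro i
    exact ⟨φ.symm i, (φ.symm i).2, by simp⟩
  have hone : φ 1 = φ ⟨1, M.one_mem⟩ := rfl
  have hηφ : ∀ (k : HH M z) w (hw : w ∈ M), η k (φ ⟨w, hw⟩) = φ ⟨(k : G) * w * (k : G)⁻¹, hmem k ⟨w, hw⟩⟩ := by
    intro k w hw
    rw [hη]
    congr 1
    apply Subtype.ext
    simp
  have hνφ : ∀ (a : M) w (hw : w ∈ M), ν a (φ ⟨w, hw⟩) = φ (a * ⟨w, hw⟩) := by
    intro a w hw
    rw [hν, Equiv.symm_apply_apply]
  have key := pgl_core ρ.range ν.range η.range (φ 1) (φ ⟨y, hy⟩)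
    (by
      intro h1
      exact hy1 (congrArg Subtype.val (φ.injective h1)).symm)
    (by
      rintro _ ⟨a, rfl⟩ _ ⟨b, rfl⟩
      rw [← map_mul, ← map_mul, hcomm.is_comm.comm a b])
    (by
      intro x
      refine ⟨ν (φ.symm x), ⟨_, rfl⟩, ?_⟩
      rw [hν, Equiv.symm_apply_apply, mul_one, Equiv.apply_symm_apply])
    (by
      rintro _ ⟨a, rfl⟩ _ ⟨b, rfl⟩
      rw [← map_mul, ← map_mul]
      congr 1
      exact Subtype.ext (h.comm_HH a.2 b.2))
    (by
      rintro _ ⟨k, rfl⟩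
      rw [hone, hηφ]
      congr 1
      apply Subtype.ext
      simp)
    (by
      intro x hx
      obtain ⟨w, hw, rfl⟩ := hsurj x
      have hw1 : w ≠ 1 := by
        rintro rfl
        exact hx rfl
      obtain ⟨k, hk, hkw⟩ := h.transitive hgt hw hw1 hy hy1
      refine ⟨η ⟨k, hk⟩, ⟨_, rfl⟩, ?_⟩
      rw [hηφ]
      congr 1
      exact Subtype.ext hkw)
    (by
      rintro _ ⟨k, rfl⟩ _ ⟨a, rfl⟩
      refine ⟨⟨_, hmem k a⟩, ?_⟩
      rw [eq_mul_inv_iff_mul_eq]
      apply Equiv.ext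
      intro x
      obtain ⟨w, hw, rfl⟩ := hsurj x
      show ν _ (η k _) = η k (ν a _)
      rw [hηφ, hνφ, hνφ]
      have h1 : (a * ⟨w, hw⟩ : M) = ⟨a * w, M.mul_mem a.2 hw⟩ := rfl
      rw [h1, hηφ]
      congr 1
      apply Subtype.ext
      show (k : G) * a * (k : G)⁻¹ * (k * w * (k : G)⁻¹) = k * (a * w) * (k : G)⁻¹
      group)
    (by
      rintro _ ⟨a, rfl⟩
      refine ⟨ρ a, ⟨_, rfl⟩, hρk0 _ (le_N a.2), ?_⟩
      intro x
      obtain ⟨w, hw, rfl⟩ := hsurj x
      rw [hρm _ a.2, hνφ]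
      rfl)
    (by
      rintro _ ⟨k, rfl⟩
      refine ⟨ρ k, ⟨_, rfl⟩, hρk0 _ (mem_HH.mp k.2).1, ?_⟩
      intro x
      obtain ⟨w, hw, rfl⟩ := hsurj x
      rw [hρk _ k.2, hηφ])
    (ρ t) ⟨t, rfl⟩
    (by
      rw [hρ', hone, hε0, hε2, ht1, one_mul])
    (by
      rw [hρ', hone, hε0, hε2, one_mul, ht2])
    (by
      rintro _ ⟨k, rfl⟩
      have h1 : (η k)⁻¹ = η k⁻¹ := (map_inv η k).symm
      rw [h1, hηφ, hηφ, hρ', hε2, hε2]
      have h2 : (((k⁻¹ : HH M z) : G)) = (k : G)⁻¹ := rfl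
      rw [h2]
      have h3 := h.conj_smul k.2 y
      have h4 := h.conj_smul (inv_mem k.2) y
      rw [← h3, ← h4, smul_smul]
      have h5 : t * (k : G) = (k : G)⁻¹ * t := by
        have h6 := hT.inv_HH k.2
        calc t * (k : G) = t * k * (t * t) := by rw [hT.uu, mul_one]
          _ = (t * k * t) * t := by group
          _ = (k : G)⁻¹ * t := by rw [h6]
      rw [h5, mul_smul, ht3])
    (by
      -- sharply 3-transitive
      have hstd : ∀ a b c : G ⧸ normalizer (M : Set G), a ≠ b → a ≠ c → b ≠ c →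
          ∃ g : G, g • ((1 : G) : G ⧸ normalizer (M : Set G)) = a ∧
            g • ((u : G) : G ⧸ normalizer (M : Set G)) = b ∧
            g • ((y * u : G) : G ⧸ normalizer (M : Set G)) = c := by
        intro a b c hab hac hbc
        obtain ⟨g, hg1, hg2⟩ := h.exists_move hab
        have hc1 : g⁻¹ • c ≠ ((1 : G) : G ⧸ normalizer (M : Set G)) := by
          intro h1
          apply hac
          rw [← hg1, ← h1, smul_inv_smul]
        obtain ⟨w, hw, hwc⟩ := h.exists_point hc1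
        have hw1 : w ≠ 1 := by
          rintro rfl
          apply hbc
          rw [one_mul] at hwc
          rw [← hg2, ← hwc, smul_inv_smul]
        obtain ⟨k, hk, hkw⟩ := h.transitive hgt hw hw1 hy hy1
        have hkN := (mem_HH.mp hk).1
        refine ⟨g * k, ?_, ?_, ?_⟩
        · rw [mul_smul]
          have h1 : k • ((1 : G) : G ⧸ normalizer (M : Set G)) = ((1 : G) : G ⧸ normalizer (M : Set G)) := by
            rw [smul_mk, mul_one, mk_eq_one]; exact hkN
          rw [h1, hg1]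
        · rw [mul_smul]
          have h1 := h.conj_smul hk 1
          have h2 : k * 1 * k⁻¹ * u = u := by group
          rw [one_mul, h2] at h1
          rw [h1, hg2]
        · rw [mul_smul, h.conj_smul hk, hkw, ← hwc, smul_inv_smul]
      intro a b c a' b' c' hab hac hbc hab' hac' hbc'
      obtain ⟨g, hg1, hg2, hg3⟩ := hstd (ε a) (ε b) (ε c) (ε.injective.ne hab) (ε.injective.ne hac)
        (ε.injective.ne hbc)
      obtain ⟨k, hk1, hk2, hk3⟩ := hstd (ε a') (ε b') (ε c') (ε.injective.ne hab')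
        (ε.injective.ne hac') (ε.injective.ne hbc')
      refine ⟨ρ (k * g⁻¹), ⟨_, rfl⟩, ?_, ?_, ?_⟩
      · rw [hρ', mul_smul, ← hg1, inv_smul_smul, hk1]
      · rw [hρ', mul_smul, ← hg2, inv_smul_smul, hk2]
      · rw [hρ', mul_smul, ← hg3, inv_smul_smul, hk3])
    (by
      rintro _ ⟨g, rfl⟩ a b c hab hac hbc ha hb hc
      rw [hρ'] at ha hb hc
      rw [h.no_three g _ _ _ (ε.injective.ne hab) (ε.injective.ne hbc) (ε.injective.ne hac) ha hb hc,
        map_one])
  obtain ⟨F, hF1, hF2, hF3, ⟨e⟩⟩ := key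
  exact ⟨F, hF1, hF2, p, hfact, charP_of_card_eq_prime_pow (hF3.trans hf), hF3, ⟨hcomm, hpM⟩,
    ⟨(MonoidHom.ofInjective hρi).trans e⟩⟩

end Big

end Cfsg.Agent.H272.TIInv
end

-- part: H272/TIInv/CaseTwo
section
/-!
The case `C(z) ∩ N(M) = ⟨z⟩`: `C(z)` is elementary abelian, of order `q`, and `|M|` is `q + 1` or
`q / 2 + 1`.
-/

set_option autoImplicit false

namespace Cfsg.Agent.H272.TIInv

open Subgroup

theorem num_aux {c m k : ℕ} (hc : 2 ≤ c) (hcm : Nat.Coprime c m) (hm : 1 < m)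
    (hk : c * k = m * (m * (c - 1) + 1)) (hle : k ≤ m * (2 * c - 1)) :
    (m = 2 * c + 1 ∧ k = m * (2 * c - 1)) ∨ (m = c + 1 ∧ k = m * c) := by
  obtain ⟨d, rfl⟩ : ∃ d, c = d + 1 := ⟨c - 1, by omega⟩
  obtain ⟨n, rfl⟩ : ∃ n, m = n + 1 := ⟨m - 1, by omega⟩
  rw [Nat.add_sub_cancel] at hk
  have h1 : (d + 1) ∣ (n + 1) * ((n + 1) * d + 1) := ⟨k, hk.symm⟩
  have h2 : (d + 1) ∣ (n + 1) * d + 1 := hcm.dvd_of_dvd_mul_left h1
  have h3 : (d + 1) ∣ n := by
    have h4 : (n + 1) * (d + 1) = ((n + 1) * d + 1) + n := by ring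
    have h5 : (d + 1) ∣ ((n + 1) * d + 1) + n := by rw [← h4]; exact Dvd.intro_left _ rfl
    exact (Nat.dvd_add_right h2).mp h5
  obtain ⟨b, rfl⟩ := h3
  have h6 : k = ((d + 1) * b + 1) * (b * d + 1) := by
    have h7 : (d + 1) * k = (d + 1) * (((d + 1) * b + 1) * (b * d + 1)) := by
      rw [hk]; ring
    exact Nat.eq_of_mul_eq_mul_left (by omega) h7
  have h8 : 2 * (d + 1) - 1 = 2 * d + 1 := by omega
  rw [h8] at hle ⊢
  rw [h6] at hle
  have h9 : b * d + 1 ≤ 2 * d + 1 := Nat.le_of_mul_le_mul_left hle (by omega)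
  have hd : 1 ≤ d := by omega
  have h10 : b ≤ 2 := by
    by_contra hcon
    push Not at hcon
    have : 3 * d ≤ b * d := Nat.mul_le_mul_right d hcon
    omega
  have h11 : 1 ≤ b := by
    rcases Nat.eq_zero_or_pos b with h0 | h0
    · rw [h0] at hm; omega
    · exact h0
  interval_cases b
  · right
    refine ⟨by ring, ?_⟩
    rw [h6]; ring
  · left
    refine ⟨by ring, ?_⟩
    rw [h6]

variable {G : Type*} [Group G] {M : Subgroup G} {z : G}

namespace Cov

theorem HH_eq [Finite G] (h : Cov M z) (h2 : Nat.card (HH M z) = 2) {x : G} (hx : x ∈ HH M z) :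
    x = 1 ∨ x = z := by
  by_contra hcon
  push Not at hcon
  have hz : z ∈ HH M z := mem_HH.mpr ⟨h.zN, rfl⟩
  let f : Fin 3 → HH M z := ![1, ⟨z, hz⟩, ⟨x, hx⟩]
  have hf : Function.Injective f := by
    intro i j hij
    fin_cases i <;> fin_cases j <;> simp [f, Subtype.ext_iff] at hij ⊢
    · exact h.z1 hij.symm
    · exact hcon.1 hij.symm
    · exact h.z1 hij
    · exact hcon.2 hij.symm
    · exact hcon.1 hij
    · exact hcon.2 hij
  have h3 := Nat.card_le_card_of_injective f hf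
  rw [h2, Nat.card_fin] at h3
  omega

theorem sq_C [Finite G] (h : Cov M z) (h2 : Nat.card (HH M z) = 2) {x : G} (hx : x * z = z * x) :
    x * x = 1 := by
  by_cases hxN : x ∈ normalizer (M : Set G)
  · rcases h.HH_eq h2 (mem_HH.mpr ⟨hxN, hx⟩) with rfl | rfl
    · exact one_mul 1
    · exact h.zz
  · exact h.sq_of_comm hxN hx

theorem isPGroup_C [Finite G] (h : Cov M z) (h2 : Nat.card (HH M z) = 2) :
    IsPGroup 2 (centralizer ({z} : Set G)) := by
  intro x
  refine ⟨1, Subtype.ext ?_⟩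
  rw [pow_one, pow_two]
  exact h.sq_C h2 (Subgroup.mem_centralizer_singleton_iff.mp x.2)

/-- the numbers -/
theorem exists_numbers [Finite G] (h : Cov M z) (h2 : Nat.card (HH M z) = 2)
    (hN : normalizer (M : Set G) ≠ ⊤) : ∃ d : ℕ, 1 ≤ d ∧
      Nat.card (centralizer ({z} : Set G)) = 2 * 2 ^ d ∧
      Nat.card {g : G // g * g = 1 ∧ g ≠ 1} = Nat.card M * (2 * 2 ^ d - 1) ∧
      ((Nat.card M = 2 * 2 ^ d + 1 ∧
          (centralizer ({z} : Set G)).index = Nat.card {g : G // g * g = 1 ∧ g ≠ 1}) ∨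
        (Nat.card M = 2 ^ d + 1 ∧ (centralizer ({z} : Set G)).index = Nat.card M * 2 ^ d)) := by
  have : Fact (Nat.Prime 2) := ⟨Nat.prime_two⟩
  obtain ⟨e, he⟩ := IsPGroup.iff_card.mp (h.isPGroup_C h2)
  set c' := Nat.card {x : G // x ∉ normalizer (M : Set G) ∧ x * z = z * x} with hc'
  have hC := h.card_C
  rw [h2, he, ← hc'] at hC
  -- `c' ≥ 1`
  have hc1 : 1 ≤ c' := by
    obtain ⟨x, hx⟩ : ∃ x, x ∉ normalizer (M : Set G) := by
      by_contra hcon
      push Not at hcon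
      exact hN ((Subgroup.eq_top_iff' _).mpr hcon)
    obtain ⟨y, hy, hxy⟩ := h.cov x hx
    have hxyN := Hyp.mul_not_mem hx hy
    obtain ⟨w, hw, hwz⟩ := h.exists_conj_comm hxy hxyN
    have : Nonempty {x : G // x ∉ normalizer (M : Set G) ∧ x * z = z * x} :=
      ⟨⟨_, Hyp.mul_not_mem (Hyp.mul_not_mem' hxyN (M.inv_mem hw)) hw, hwz⟩⟩
    exact Nat.card_pos
  obtain ⟨d, hd⟩ : ∃ d, e = d + 1 := by
    cases e with
    | zero => simp at hC; omega
    | succ d => exact ⟨d, rfl⟩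
  subst hd
  have hd1 : 1 ≤ d := by
    rcases Nat.eq_zero_or_pos d with h0 | h0
    · subst h0; norm_num at hC; omega
    · exact h0
  have h2d : 2 ^ (d + 1) = 2 * 2 ^ d := by ring
  rw [h2d] at hC he
  have h2le : 2 ≤ 2 ^ d := by
    calc 2 = 2 ^ 1 := rfl
      _ ≤ 2 ^ d := Nat.pow_le_pow_right (by norm_num) hd1
  have hI : Nat.card {g : G // g * g = 1 ∧ g ≠ 1} = Nat.card M * (2 * 2 ^ d - 1) := by
    rw [h.card_I, h.card_J, ← hc']
    have : 2 * 2 ^ d - 1 = c' + 1 := by omega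
    rw [this]; ring
  -- the conjugacy class of `z`
  let C := centralizer ({z} : Set G)
  let φ : G ⧸ C → {g : G // g * g = 1 ∧ g ≠ 1} := Quotient.lift
    (fun g : G => (⟨g * z * g⁻¹, by
      constructor
      · calc g * z * g⁻¹ * (g * z * g⁻¹) = g * (z * z) * g⁻¹ := by group
          _ = 1 := by rw [h.zz]; group
      · intro h3
        exact h.z1 (by simpa using h3)⟩ : {g : G // g * g = 1 ∧ g ≠ 1})) (by
      intro a b hab
      have h3 : a⁻¹ * b ∈ C := QuotientGroup.leftRel_apply.mp hab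
      have h4 := Subgroup.mem_centralizer_singleton_iff.mp h3
      apply Subtype.ext
      show a * z * a⁻¹ = b * z * b⁻¹
      calc a * z * a⁻¹ = a * (z * (a⁻¹ * b)) * b⁻¹ := by group
        _ = a * (a⁻¹ * b * z) * b⁻¹ := by rw [h4]
        _ = b * z * b⁻¹ := by group)
  have hφ : Function.Injective φ := by
    intro a b
    refine Quotient.inductionOn₂ a b ?_
    intro a b hab
    have h3 : a * z * a⁻¹ = b * z * b⁻¹ := congrArg Subtype.val hab
    apply Quotient.sound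
    refine QuotientGroup.leftRel_apply.mpr (Subgroup.mem_centralizer_singleton_iff.mpr ?_)
    calc a⁻¹ * b * z = a⁻¹ * (b * z * b⁻¹) * b := by group
      _ = a⁻¹ * (a * z * a⁻¹) * b := by rw [h3]
      _ = z * (a⁻¹ * b) := by group
  have hk : C.index ≤ Nat.card {g : G // g * g = 1 ∧ g ≠ 1} :=
    Nat.card_le_card_of_injective φ hφ
  have hG := h.card_G
  rw [h2, ← hc'] at hG
  have hCi := C.card_mul_index
  have hCc : Nat.card C = 2 * 2 ^ d := he
  rw [hCc, hG] at hCi
  have hodd := h.odd_card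
  have hcop : Nat.Coprime (2 ^ d) (Nat.card M) := by
    apply Nat.Coprime.pow_left
    exact (Nat.coprime_two_left).mpr hodd
  have hm : 1 < Nat.card M := by
    rw [Subgroup.one_lt_card_iff_ne_bot]
    exact h.ne
  have hkey : 2 ^ d * C.index = Nat.card M * (Nat.card M * (2 ^ d - 1) + 1) := by
    have h3 : c' = 2 * (2 ^ d - 1) := by omega
    rw [h3] at hCi
    have h4 : 2 * (2 ^ d * C.index) = 2 * (Nat.card M * (Nat.card M * (2 ^ d - 1) + 1)) := by
      calc 2 * (2 ^ d * C.index) = 2 * 2 ^ d * C.index := by ring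
        _ = _ := by rw [hCi]; ring
    exact Nat.eq_of_mul_eq_mul_left (by norm_num) h4
  rw [hI] at hk
  refine ⟨d, hd1, he, hI, ?_⟩
  rcases num_aux h2le hcop hm hkey hk with ⟨h3, h4⟩ | ⟨h3, h4⟩
  · exact Or.inl ⟨h3, by rw [hI]; exact h4⟩
  · exact Or.inr ⟨h3, h4⟩

/-- if the class of `z` has as many elements as there are involutions then it contains all -/
theorem exists_conj_of_index [Finite G] (h : Cov M z)
    (hi : (centralizer ({z} : Set G)).index = Nat.card {g : G // g * g = 1 ∧ g ≠ 1}) {t : G}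
    (ht : t * t = 1) (ht1 : t ≠ 1) : ∃ g : G, t = g * z * g⁻¹ := by
  let C := centralizer ({z} : Set G)
  let φ : G ⧸ C → {g : G // g * g = 1 ∧ g ≠ 1} := Quotient.lift
    (fun g : G => (⟨g * z * g⁻¹, by
      constructor
      · calc g * z * g⁻¹ * (g * z * g⁻¹) = g * (z * z) * g⁻¹ := by group
          _ = 1 := by rw [h.zz]; group
      · intro h3
        exact h.z1 (by simpa using h3)⟩ : {g : G // g * g = 1 ∧ g ≠ 1})) (by
      intro a b hab
      have h3 : a⁻¹ * b ∈ C := QuotientGroup.leftRel_apply.mp hab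
      have h4 := Subgroup.mem_centralizer_singleton_iff.mp h3
      apply Subtype.ext
      show a * z * a⁻¹ = b * z * b⁻¹
      calc a * z * a⁻¹ = a * (z * (a⁻¹ * b)) * b⁻¹ := by group
        _ = a * (a⁻¹ * b * z) * b⁻¹ := by rw [h4]
        _ = b * z * b⁻¹ := by group)
  have hφ : Function.Injective φ := by
    intro a b
    refine Quotient.inductionOn₂ a b ?_
    intro a b hab
    have h3 : a * z * a⁻¹ = b * z * b⁻¹ := congrArg Subtype.val hab
    apply Quotient.sound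
    refine QuotientGroup.leftRel_apply.mpr (Subgroup.mem_centralizer_singleton_iff.mpr ?_)
    calc a⁻¹ * b * z = a⁻¹ * (b * z * b⁻¹) * b := by group
      _ = a⁻¹ * (a * z * a⁻¹) * b := by rw [h3]
      _ = z * (a⁻¹ * b) := by group
  have hbij := (Nat.bijective_iff_injective_and_card φ).mpr ⟨hφ, hi⟩
  obtain ⟨a, ha⟩ := hbij.2 ⟨t, ht, ht1⟩
  induction a using Quotient.inductionOn with
  | h g => exact ⟨g, (congrArg Subtype.val ha).symm⟩

end Cov

end Cfsg.Agent.H272.TIInv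
end

-- part: H272/TIInv/CaseE
section
/-!
The case `|M| = 2 ^ d + 1`: `G = O₂(G) N(M)` with `O₂(G)` elementary abelian of order `2 ^ (2 d)`.
-/

set_option autoImplicit false

namespace Cfsg.Agent.H272.TIInv

open Subgroup

variable {G : Type*} [Group G] {M : Subgroup G} {z : G}

/-- involutions of `N(M)` are conjugate to `z` -/
theorem Hyp.conj_of_mem_N [Finite G] (h : Hyp M z) {t : G} (ht : t * t = 1) (ht1 : t ≠ 1)
    (htN : t ∈ normalizer (M : Set G)) : ∃ g : G, t = g * z * g⁻¹ := by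
  obtain ⟨y, hy, rfl⟩ := h.exists_eq_of_mem_N ht ht1 htN
  obtain ⟨w, hw, hww⟩ := h.exists_sqrt hy
  refine ⟨w, ?_⟩
  have h2 : z * w⁻¹ = w * z := by
    have := h.z_mul (M.inv_mem hw)
    rwa [inv_inv] at this
  rw [mul_assoc w z, h2, ← mul_assoc, hww]

/-- a prime order element of order prime to `|G : M|` is conjugate into `M` -/
theorem exists_conj_mem [Finite G] {p : ℕ} [Fact p.Prime] {w : G} (hw : orderOf w = p)
    (hp : ¬ p ∣ M.index) : ∃ g : G, g⁻¹ * w * g ∈ M := by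
  have hP : IsPGroup p (Subgroup.zpowers w) := by
    rw [IsPGroup.iff_card, Nat.card_zpowers]
    exact ⟨1, by rw [hw, pow_one]⟩
  obtain ⟨x, hx⟩ := hP.nonempty_fixed_point_of_prime_not_dvd_card (α := G ⧸ M) hp
  induction x using QuotientGroup.induction_on with
  | H g =>
    refine ⟨g, ?_⟩
    have h1 := hx ⟨w, Subgroup.mem_zpowers w⟩
    have h2 : ((w * g : G) : G ⧸ M) = (g : G ⧸ M) := h1
    have h3 := QuotientGroup.eq.mp h2.symm
    have h4 : g⁻¹ * (w * g) = g⁻¹ * w * g := by group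
    rwa [h4] at h3

/-- an involution not conjugate to `z` lies in `O₂(G)` if `|G : M|` is a power of 2 -/
theorem Hyp.mem_pCore_of_not_conj [Finite G] (h : Hyp M z)
    (hidx : ∀ p : ℕ, p.Prime → p ∣ M.index → p = 2) {u : G} (hu : u * u = 1) (hu1 : u ≠ 1)
    (hnc : ∀ g : G, u ≠ g * z * g⁻¹) : u ∈ Cfsg.pCore 2 G := by
  by_contra hcon
  have h0 : ¬ IsPGroup 2 (Subgroup.normalClosure {u} : Subgroup G) := fun hP =>
    hcon (Cfsg.Agent.Lib.Cores.le_pCore Subgroup.normalClosure_normal hP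
      (Subgroup.subset_normalClosure rfl))
  obtain ⟨x, hx1, hxo, hux⟩ := Cfsg.Agent.Involutions.BaerSuzuki.exists_odd_inverted u hu h0
  have hne : orderOf x ≠ 1 := fun h1 => hx1 (orderOf_eq_one_iff.mp h1)
  set p := (orderOf x).minFac with hp
  have hpp : p.Prime := Nat.minFac_prime hne
  have : Fact p.Prime := ⟨hpp⟩
  have hpd : p ∣ orderOf x := Nat.minFac_dvd _
  have hp2 : p ≠ 2 := by
    intro h2
    rw [h2] at hpd
    exact (Nat.not_even_iff_odd.mpr hxo) (even_iff_two_dvd.mpr hpd)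
  obtain ⟨k, hk⟩ := hpd
  have hk0 : k ≠ 0 := by
    rintro rfl
    rw [mul_zero] at hk
    exact (orderOf_pos x).ne' hk
  have hw : orderOf (x ^ k) = p := by
    rw [orderOf_pow' x hk0, hk, Nat.gcd_eq_right (Dvd.intro_left p rfl)]
    exact Nat.mul_div_cancel _ (Nat.pos_of_ne_zero hk0)
  have huw : u * x ^ k * u⁻¹ = (x ^ k)⁻¹ := by
    rw [← conj_pow, hux, inv_pow]
  obtain ⟨g, hg⟩ := exists_conj_mem (M := M) hw (fun hd => hp2 (hidx p hpp hd))
  set w := x ^ k with hwdef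
  have hw1 : g⁻¹ * w * g ≠ 1 := by
    intro h1
    have h2 : w = 1 := by
      calc w = g * (g⁻¹ * w * g) * g⁻¹ := by group
        _ = 1 := by rw [h1]; group
    rw [h2, orderOf_one] at hw
    exact hpp.one_lt.ne hw
  have h1 : g⁻¹ * u * g ∈ normalizer (M : Set G) := by
    refine h.ti _ _ hg hw1 ?_
    have h2 : g⁻¹ * u * g * (g⁻¹ * w * g) * (g⁻¹ * u * g)⁻¹ = g⁻¹ * (u * w * u⁻¹) * g := by group
    have h3 : g⁻¹ * (u * w * u⁻¹) * g = (g⁻¹ * w * g)⁻¹ := by rw [huw]; group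
    rw [h2, h3]
    exact M.inv_mem hg
  obtain ⟨a, ha⟩ := h.conj_of_mem_N (t := g⁻¹ * u * g) (by
      calc g⁻¹ * u * g * (g⁻¹ * u * g) = g⁻¹ * (u * u) * g := by group
        _ = 1 := by rw [hu]; group) (by
      intro h2
      apply hu1
      calc u = g * (g⁻¹ * u * g) * g⁻¹ := by group
        _ = 1 := by rw [h2]; group) h1
  apply hnc (g * a)
  calc u = g * (g⁻¹ * u * g) * g⁻¹ := by group
    _ = g * a * z * (g * a)⁻¹ := by rw [ha]; group

theorem Hyp.z_not_mem_pCore [Finite G] (h : Hyp M z) : z ∉ Cfsg.pCore 2 G := by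
  intro hz
  obtain ⟨x, hx, hx1⟩ := h.exists_ne
  have hn := Cfsg.Agent.Lib.Cores.pCore_normal (G := G) 2
  have h1 : z * x * z⁻¹ * x⁻¹ ∈ Cfsg.pCore 2 G := by
    have h2 : x * z⁻¹ * x⁻¹ ∈ Cfsg.pCore 2 G := hn.conj_mem _ (inv_mem hz) x
    have := mul_mem hz h2
    have h3 : z * (x * z⁻¹ * x⁻¹) = z * x * z⁻¹ * x⁻¹ := by group
    rwa [h3] at this
  have h2 : z * x * z⁻¹ * x⁻¹ = x⁻¹ * x⁻¹ := by
    rw [h.inverts h.zz h.z1 h.zN hx]
  rw [h2] at h1
  -- an element of odd order in a 2-group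
  obtain ⟨k, hk⟩ := (Cfsg.Agent.Lib.Cores.pCore_isPGroup (G := G) 2) ⟨_, h1⟩
  have hk' : (x⁻¹ * x⁻¹) ^ 2 ^ k = 1 := congrArg Subtype.val hk
  have h3 : orderOf (x⁻¹ * x⁻¹) ∣ 2 ^ k := orderOf_dvd_of_pow_eq_one hk'
  have hmem : x⁻¹ * x⁻¹ ∈ M := M.mul_mem (M.inv_mem hx) (M.inv_mem hx)
  have h4 : orderOf (x⁻¹ * x⁻¹) ∣ Nat.card M := Subgroup.orderOf_dvd_natCard _ hmem
  have hcop : Nat.Coprime (2 ^ k) (Nat.card M) :=
    Nat.Coprime.pow_left _ ((Nat.coprime_two_left).mpr h.odd_card)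
  have h5 : orderOf (x⁻¹ * x⁻¹) = 1 := Nat.eq_one_of_dvd_coprimes hcop h3 h4
  have h6 : x⁻¹ * x⁻¹ = 1 := orderOf_eq_one_iff.mp h5
  have h7 := h.eq_one_of_sq (M.inv_mem hx) h6
  exact hx1 (inv_eq_one.mp h7)

/-- `M` acts without fixed points on a normal 2-subgroup `≠ 1`, so it is cyclic -/
theorem Hyp.isCyclic [Finite G] (h : Hyp M z) {E : Subgroup G} (hE : E.Normal) (hE2 : IsPGroup 2 E)
    (hE1 : E ≠ ⊥) : IsCyclic M := by
  by_contra hnc
  have hcomm : IsMulCommutative M := ⟨⟨fun a b => Subtype.ext (h.comm a.2 b.2)⟩⟩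
  have hME : M ≤ normalizer (E : Set G) := by
    rw [Subgroup.normalizer_eq_top_iff.mpr hE]; exact le_top
  have : Fact (Nat.Prime 2) := ⟨Nat.prime_two⟩
  obtain ⟨k, hk⟩ := IsPGroup.iff_card.mp hE2
  have hcop : (Nat.card M).Coprime (Nat.card E) := by
    rw [hk]
    exact Nat.Coprime.pow_right _ ((Nat.coprime_two_right).mpr h.odd_card)
  have h1 := Cfsg.Agent.S0058.result M E hnc hME hcop
  apply hE1
  rw [← h1, iSup_eq_bot]
  intro a
  rw [iSup_eq_bot]
  rintro ⟨ha, ha1⟩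
  rw [Subgroup.eq_bot_iff_forall]
  rintro x ⟨hxE, hxa⟩
  by_contra hx1
  -- a power of `x` is an involution
  obtain ⟨j, hj⟩ := hE2 ⟨x, hxE⟩
  have hj' : x ^ 2 ^ j = 1 := congrArg Subtype.val hj
  have hex : ∃ i, x ^ 2 ^ i = 1 := ⟨j, hj'⟩
  classical
  have hi := Nat.find_spec hex
  have hi0 : Nat.find hex ≠ 0 := by
    intro h0
    rw [h0] at hi
    simp at hi
    exact hx1 hi
  obtain ⟨i, hi'⟩ : ∃ i, Nat.find hex = i + 1 := ⟨Nat.find hex - 1, by omega⟩
  have hlt := Nat.find_min hex (m := i) (by omega)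
  rw [hi'] at hi
  refine hlt (h.odd a ha ha1 (x ^ 2 ^ i) ?_ ?_)
  · rw [← pow_add, ← two_mul, ← pow_succ']; exact hi
  · have hc : Commute x a := (Subgroup.mem_centralizer_singleton_iff.mp hxa)
    exact hc.pow_left _

theorem Cov.caseE [Finite G] (h : Cov M z) (h2 : Nat.card (HH M z) = 2) {d : ℕ} (hd : 1 ≤ d)
    (hC : Nat.card (centralizer ({z} : Set G)) = 2 * 2 ^ d)
    (hI : Nat.card {g : G // g * g = 1 ∧ g ≠ 1} = Nat.card M * (2 * 2 ^ d - 1))
    (hM : Nat.card M = 2 ^ d + 1)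
    (hi : (centralizer ({z} : Set G)).index = Nat.card M * 2 ^ d) :
    ∃ E : Subgroup G, E.Normal ∧ Cfsg.IsElementaryAbelian 2 E ∧ Nat.card E = 2 ^ (2 * d) ∧
      E ⊓ normalizer (M : Set G) = ⊥ ∧ E ⊔ normalizer (M : Set G) = ⊤ ∧
      Nonempty (normalizer (M : Set G) ≃* DihedralGroup (2 ^ d + 1)) := by
  classical
  have : Fact (Nat.Prime 2) := ⟨Nat.prime_two⟩
  have hG : Nat.card G = 2 ^ (2 * d + 1) * Nat.card M := by
    rw [← (centralizer ({z} : Set G)).card_mul_index, hC, hi]; ring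
  have hMpos : 0 < Nat.card M := Nat.card_pos
  have hidx : M.index = 2 ^ (2 * d + 1) := by
    have h3 := M.card_mul_index
    rw [hG, mul_comm] at h3
    exact Nat.eq_of_mul_eq_mul_right hMpos h3
  have hidx' : ∀ p : ℕ, p.Prime → p ∣ M.index → p = 2 := by
    intro p hp hpd
    rw [hidx] at hpd
    exact (Nat.prime_dvd_prime_iff_eq hp Nat.prime_two).mp (hp.dvd_of_dvd_pow hpd)
  let Q : Subgroup G := Cfsg.pCore 2 G
  have hQn : Q.Normal := Cfsg.Agent.Lib.Cores.pCore_normal 2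
  have hQ2 : IsPGroup 2 Q := Cfsg.Agent.Lib.Cores.pCore_isPGroup 2
  have hzQ : z ∉ Q := h.z_not_mem_pCore
  -- counting
  let I := {g : G // g * g = 1 ∧ g ≠ 1}
  let P : I → Prop := fun t => ∃ g : G, (t : G) = g * z * g⁻¹
  have hsplit : Nat.card I = Nat.card {t : I // P t} + Nat.card {t : I // ¬ P t} := by
    rw [← Nat.card_congr (Equiv.sumCompl P), Nat.card_sum]
  have hK : Nat.card {t : I // P t} ≤ (centralizer ({z} : Set G)).index := by
    let φ : {t : I // P t} → G ⧸ (centralizer ({z} : Set G)) := fun t => (t.2.choose : G ⧸ _)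
    refine Nat.card_le_card_of_injective φ ?_
    intro s t hst
    have h3 := QuotientGroup.eq.mp hst
    have h4 := Subgroup.mem_centralizer_singleton_iff.mp h3
    have hs := s.2.choose_spec
    have ht := t.2.choose_spec
    set a := s.2.choose
    set b := t.2.choose
    apply Subtype.ext
    apply Subtype.ext
    rw [hs, ht]
    calc a * z * a⁻¹ = a * (z * (a⁻¹ * b)) * b⁻¹ := by group
      _ = a * (a⁻¹ * b * z) * b⁻¹ := by rw [h4]
      _ = b * z * b⁻¹ := by group
  have hinQ : ∀ t : {t : I // ¬ P t}, ((t : I) : G) ∈ Q := fun t =>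
    h.mem_pCore_of_not_conj hidx' t.1.2.1 t.1.2.2 (fun g hg => t.2 ⟨g, hg⟩)
  let ψ : Option {t : I // ¬ P t} → Q := fun o => match o with
    | none => 1
    | some t => ⟨t, hinQ t⟩
  have hψ : Function.Injective ψ := by
    rintro (_ | s) (_ | t) hst
    · rfl
    · exfalso
      have h3 : ((ψ none : Q) : G) = ψ (some t) := by rw [hst]
      exact t.1.2.2 h3.symm
    · exfalso
      have h3 : ((ψ (some s) : Q) : G) = ψ none := by rw [hst]
      exact s.1.2.2 h3
    · have h3 : ((ψ (some s) : Q) : G) = ψ (some t) := by rw [hst]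
      rw [Subtype.ext (Subtype.ext h3)]
  have hcard1 : Nat.card {t : I // ¬ P t} + 1 ≤ Nat.card Q := by
    have := Nat.card_le_card_of_injective ψ hψ
    rwa [Finite.card_option] at this
  have h2d : 1 ≤ 2 ^ d := Nat.one_le_two_pow
  have hpow : 2 ^ (2 * d) ≤ Nat.card {t : I // ¬ P t} + 1 := by
    have h3 : Nat.card I = (2 ^ d + 1) * (2 * 2 ^ d - 1) := by rw [← hM]; exact hI
    rw [h3] at hsplit
    rw [hi, hM] at hK
    obtain ⟨a, ha⟩ : ∃ a, 2 ^ d = a + 1 := ⟨2 ^ d - 1, by omega⟩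
    have h4 : 2 ^ (2 * d) = (a + 1) * (a + 1) := by rw [two_mul, pow_add, ha]
    rw [h4]
    rw [ha] at hsplit hK
    have h5 : 2 * (a + 1) - 1 = 2 * a + 1 := by omega
    rw [h5] at hsplit
    nlinarith
  -- the order of `Q`
  obtain ⟨k, hk⟩ := IsPGroup.iff_card.mp hQ2
  have hkle : k ≤ 2 * d + 1 := by
    have h3 : 2 ^ k ∣ 2 ^ (2 * d + 1) * Nat.card M := by
      rw [← hk, ← hG]; exact Q.card_subgroup_dvd_card
    have h4 : 2 ^ k ∣ 2 ^ (2 * d + 1) :=
      (Nat.Coprime.pow_left _ ((Nat.coprime_two_left).mpr h.odd_card)).dvd_of_dvd_mul_right h3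
    exact (Nat.pow_dvd_pow_iff_le_right (by norm_num)).mp h4
  have hkge : 2 * d ≤ k := by
    have h3 : 2 ^ (2 * d) ≤ 2 ^ k := by rw [← hk]; exact hpow.trans hcard1
    exact (Nat.pow_le_pow_iff_right (by norm_num)).mp h3
  have hkne : k ≠ 2 * d + 1 := by
    intro hke
    apply hzQ
    have h3 : Q.index = Nat.card M := by
      have h4 := Q.card_mul_index
      rw [hk, hke, hG] at h4
      exact Nat.eq_of_mul_eq_mul_left (by positivity) h4
    have h4 : ((z : G) : G ⧸ Q) = 1 := by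
      have h5 : orderOf ((z : G) : G ⧸ Q) ∣ 2 := by
        apply orderOf_dvd_of_pow_eq_one
        rw [pow_two, ← QuotientGroup.mk_mul, h.zz]; rfl
      have h6 : orderOf ((z : G) : G ⧸ Q) ∣ Nat.card M := by
        rw [← h3]; exact orderOf_dvd_natCard _
      have h7 : orderOf ((z : G) : G ⧸ Q) = 1 :=
        Nat.eq_one_of_dvd_coprimes ((Nat.coprime_two_left).mpr h.odd_card) h5 h6
      exact orderOf_eq_one_iff.mp h7
    exact (QuotientGroup.eq_one_iff z).mp h4
  have hk2 : k = 2 * d := by omega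
  rw [hk2] at hk
  -- all elements of `Q` are involutions
  have hbij : Function.Bijective ψ := by
    refine (Nat.bijective_iff_injective_and_card ψ).mpr ⟨hψ, ?_⟩
    rw [Finite.card_option]
    omega
  have hsqQ : ∀ x ∈ Q, x * x = 1 := by
    intro x hx
    obtain ⟨o, ho⟩ := hbij.2 ⟨x, hx⟩
    have ho' : ((ψ o : Q) : G) = x := by rw [ho]
    rcases o with _ | t
    · have h3 : (1 : G) = x := ho'
      rw [← h3, one_mul]
    · have h3 : ((t : I) : G) = x := ho'
      rw [← h3]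
      exact t.1.2.1
  have hQel : Cfsg.IsElementaryAbelian 2 Q := by
    refine ⟨⟨⟨fun a b => Subtype.ext ?_⟩⟩, fun a ha => by rw [pow_two]; exact hsqQ a ha⟩
    have h3 := hsqQ _ (Q.mul_mem a.2 b.2)
    have h4 := hsqQ _ a.2
    have h5 := hsqQ _ b.2
    show (a : G) * b = b * a
    have h6 : (a : G)⁻¹ = a := inv_eq_of_mul_eq_one_left h4
    have h7 : (b : G)⁻¹ = b := inv_eq_of_mul_eq_one_left h5
    have h8 : ((a : G) * b)⁻¹ = a * b := inv_eq_of_mul_eq_one_left h3
    rw [← h8, mul_inv_rev, h6, h7]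
  have hQN : Q ⊓ normalizer (M : Set G) = ⊥ := by
    rw [Subgroup.eq_bot_iff_forall]
    rintro x ⟨hxQ, hxN⟩
    by_contra hx1
    obtain ⟨g, hg⟩ := h.conj_of_mem_N (hsqQ x hxQ) hx1 hxN
    apply hzQ
    have h3 : g⁻¹ * x * g⁻¹⁻¹ ∈ Q := hQn.conj_mem x hxQ g⁻¹
    have h4 : g⁻¹ * x * g⁻¹⁻¹ = z := by rw [hg]; group
    rwa [h4] at h3
  have hNcard : Nat.card (normalizer (M : Set G)) = 2 * (2 ^ d + 1) := by
    rw [h.card_N, h2, hM, mul_comm]
  have hcompl : Q.IsComplement' (normalizer (M : Set G)) := by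
    apply Subgroup.isComplement'_of_card_mul_and_disjoint
    · rw [hk, hNcard, hG, hM]; ring
    · rw [disjoint_iff]; exact hQN
  refine ⟨Q, hQn, hQel, hk, hQN, hcompl.sup_eq_top, ?_⟩
  have hQ1 : Q ≠ ⊥ := by
    intro h0
    have h3 : Nat.card Q = 1 := by rw [h0]; exact Subgroup.card_bot
    rw [hk] at h3
    have h4 : 1 < 2 ^ (2 * d) := Nat.one_lt_two_pow (by omega)
    omega
  have hcyc := h.isCyclic hQn hQ2 hQ1
  obtain ⟨⟨r, hrM⟩, hr⟩ := hcyc.exists_generator
  have hro : orderOf r = 2 ^ d + 1 := by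
    have h3 := orderOf_eq_card_of_forall_mem_zpowers hr
    rw [hM] at h3
    rw [← h3]
    exact (Subgroup.orderOf_mk r hrM).symm
  refine Cfsg.Agent.Lib.Dihedral.nonempty_mulEquiv_subgroup (by positivity) _ r z
    (le_N hrM) h.zN hro h.zz (h.z_conj hrM) ?_ hNcard
  intro hz
  exact h.z_not_mem ((Subgroup.zpowers_le.mpr hrM) hz)

end Cfsg.Agent.H272.TIInv
end

-- part: H272/TIInv/CaseL
section
/-!
The case `|M| = q + 1`: `G ≅ PSL(2, q)`, `q` even, and `M` is cyclic.
-/

set_option autoImplicit false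

namespace Cfsg.Agent.H272.TIInv

open Subgroup

/-- the centre of `SL(2, F)` is trivial in characteristic two -/
theorem sl_center_triv {F : Type*} [Field F] [CharP F 2] {x : Matrix.SpecialLinearGroup (Fin 2) F}
    (hx : x ∈ Subgroup.center (Matrix.SpecialLinearGroup (Fin 2) F)) : x = 1 := by
  obtain ⟨r, hr, hrx⟩ := Matrix.SpecialLinearGroup.mem_center_iff.mp hx
  rw [Fintype.card_fin] at hr
  have h1 : (r - 1) * (r - 1) = 0 := by
    have h2 : (2 : F) = 0 := CharTwo.two_eq_zero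
    have h3 : (r - 1) * (r - 1) = r ^ 2 - 1 - 2 * (r - 1) := by ring
    rw [h3, hr, h2]; ring
  have h2 : r = 1 := by
    have := mul_self_eq_zero.mp h1
    exact sub_eq_zero.mp this
  rw [h2, map_one] at hrx
  exact Subtype.ext hrx.symm

/-- an abelian subgroup of odd order of `PSL(2, F)`, `F` of characteristic two, is cyclic -/
theorem isCyclic_of_psl {G : Type*} [Group G] [Finite G] {F : Type*} [Field F] [CharP F 2]
    [Finite F] (e : G ≃* Matrix.ProjectiveSpecialLinearGroup (Fin 2) F) (M : Subgroup G)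
    (hc : ∀ x ∈ M, ∀ y ∈ M, x * y = y * x) (hodd : Odd (Nat.card M)) : IsCyclic M := by
  have : Fact (Nat.Prime 2) := ⟨Nat.prime_two⟩
  by_cases hM : ∃ y ∈ M, y ≠ 1
  swap
  · push Not at hM
    have hbot : M = ⊥ := (Subgroup.eq_bot_iff_forall _).mpr hM
    subst hbot
    infer_instance
  obtain ⟨y, hy, hy1⟩ := hM
  let π : Matrix.SpecialLinearGroup (Fin 2) F →* Matrix.ProjectiveSpecialLinearGroup (Fin 2) F :=
    QuotientGroup.mk' _
  have hker : ∀ x, π x = 1 → x = 1 := fun x hx => sl_center_triv ((QuotientGroup.eq_one_iff x).mp hx)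
  have hsurj : Function.Surjective π := QuotientGroup.mk'_surjective _
  let f : Matrix.SpecialLinearGroup (Fin 2) F →* G := e.symm.toMonoidHom.comp π
  have hfk : ∀ x, f x = 1 → x = 1 := by
    intro x hx
    apply hker
    have h1 : e.symm (π x) = 1 := hx
    exact (map_eq_one_iff e.symm e.symm.injective).mp h1
  have hfs : Function.Surjective f := e.symm.surjective.comp hsurj
  have hfi : Function.Injective f := (injective_iff_map_eq_one f).mpr hfk
  let H : Subgroup (Matrix.SpecialLinearGroup (Fin 2) F) := M.comap f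
  let g : H →* M := (f.comp H.subtype).codRestrict M (fun x => x.2)
  have hgs : Function.Surjective g := by
    rintro ⟨m, hm⟩
    obtain ⟨x, hx⟩ := hfs m
    exact ⟨⟨x, show f x ∈ M by rw [hx]; exact hm⟩, Subtype.ext hx⟩
  have hgi : Function.Injective g := by
    intro a b hab
    have h1 : f a = f b := congrArg Subtype.val hab
    exact Subtype.ext (hfi h1)
  have hcard : Nat.card H = Nat.card M := Nat.card_congr (Equiv.ofBijective g ⟨hgi, hgs⟩)
  obtain ⟨x, hx⟩ := hfs y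
  have hxH : x ∈ H := show f x ∈ M by rw [hx]; exact hy
  have hcyc : IsCyclic H := by
    refine Cfsg.Agent.LieClassical.SLTwoTorus.isCyclic_of_commute 2 H ?_ (x : Matrix (Fin 2) (Fin 2) F)
      ?_ ?_
    · rw [hcard]
      exact (Nat.coprime_two_right).mpr hodd
    · intro c hcx
      apply hy1
      rw [← hx]
      have h1 : x = 1 := by
        apply sl_center_triv
        rw [Matrix.SpecialLinearGroup.mem_center_iff]
        refine ⟨c, ?_, ?_⟩
        · have h2 := x.2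
          rw [hcx, Matrix.det_smul, Matrix.det_one, mul_one] at h2
          exact h2
        · rw [hcx, Matrix.scalar_apply, Matrix.smul_one_eq_diagonal]
      rw [h1, map_one]
    · intro k hk
      have h1 : k * x = x * k := by
        apply hfi
        rw [map_mul, map_mul]
        exact hc _ hk _ hxH
      exact congrArg Subtype.val h1
  exact isCyclic_of_surjective g hgs

variable {G : Type*} [Group G] {M : Subgroup G} {z : G}

theorem Cov.caseL [Finite G] (h : Cov M z) (h2 : Nat.card (HH M z) = 2) {d : ℕ} (hd : 1 ≤ d)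
    (hC : Nat.card (centralizer ({z} : Set G)) = 2 * 2 ^ d)
    (hM : Nat.card M = 2 * 2 ^ d + 1)
    (hi : (centralizer ({z} : Set G)).index = Nat.card {g : G // g * g = 1 ∧ g ≠ 1}) :
    ∃ (F : Type) (_ : Field F) (_ : Fintype F) (e : ℕ), 1 < e ∧ Fintype.card F = 2 ^ e ∧
      IsCyclic M ∧ Nat.card M = 2 ^ e + 1 ∧
        Nonempty (G ≃* Matrix.ProjectiveSpecialLinearGroup (Fin 2) F) := by
  have : Fact (Nat.Prime 2) := ⟨Nat.prime_two⟩
  have h2d : 2 ≤ 2 ^ d := by
    calc 2 = 2 ^ 1 := rfl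
      _ ≤ 2 ^ d := Nat.pow_le_pow_right (by norm_num) hd
  -- centralizers of involutions
  have hsqC : ∀ t : G, t * t = 1 → t ≠ 1 → ∀ c : G, c * t = t * c → c * c = 1 := by
    intro t ht ht1 c hc
    obtain ⟨g, hg⟩ := h.exists_conj_of_index hi ht ht1
    have h3 : (g⁻¹ * c * g) * (g⁻¹ * c * g) = 1 := by
      apply h.sq_C h2
      rw [hg] at hc
      calc g⁻¹ * c * g * z = g⁻¹ * (c * (g * z * g⁻¹)) * g := by group
        _ = g⁻¹ * (g * z * g⁻¹ * c) * g := by rw [hc]
        _ = z * (g⁻¹ * c * g) := by group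
    calc c * c = g * ((g⁻¹ * c * g) * (g⁻¹ * c * g)) * g⁻¹ := by group
      _ = 1 := by rw [h3]; group
  have hab : ∀ H : Subgroup G, (∀ x ∈ H, x * x = 1) → ∀ a ∈ H, ∀ b ∈ H, a * b = b * a := by
    intro H hH a ha b hb
    have h6 : (a : G)⁻¹ = a := inv_eq_of_mul_eq_one_left (hH a ha)
    have h7 : (b : G)⁻¹ = b := inv_eq_of_mul_eq_one_left (hH b hb)
    have h8 : ((a : G) * b)⁻¹ = a * b := inv_eq_of_mul_eq_one_left (hH _ (H.mul_mem ha hb))
    rw [← h8, mul_inv_rev, h6, h7]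
  have hconv : ∀ t : G, orderOf t = 2 → t * t = 1 ∧ t ≠ 1 := by
    intro t ht
    refine ⟨by rw [← pow_two, ← ht]; exact pow_orderOf_eq_one t, ?_⟩
    rintro rfl
    rw [orderOf_one] at ht
    norm_num at ht
  obtain ⟨T, hT⟩ := (h.isPGroup_C h2).exists_le_sylow
  have hzT : z ∈ (T : Subgroup G) := hT (Subgroup.mem_centralizer_singleton_iff.mpr rfl)
  -- `T` is the centralizer of `z`
  have hTsq : ∀ x ∈ (T : Subgroup G), x * x = 1 := by
    have hTne : (⊤ : Subgroup T) ≠ ⊥ := by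
      intro h0
      apply h.z1
      have h3 : (⟨z, hzT⟩ : T) ∈ (⊤ : Subgroup T) := Subgroup.mem_top _
      rw [h0, Subgroup.mem_bot] at h3
      exact congrArg Subtype.val h3
    obtain ⟨w, -, hwc, hw⟩ := Cfsg.Agent.Transfer.PGroupNormal.exists_mem_inf_center_orderOf
      (p := 2) T.isPGroup' ⊤ hTne
    have hw' : orderOf (w : G) = 2 := (Subgroup.orderOf_coe w).trans hw
    obtain ⟨hww, hw1⟩ := hconv _ hw'
    intro x hx
    refine hsqC w hww hw1 x ?_
    exact congrArg Subtype.val (Subgroup.mem_center_iff.mp hwc ⟨x, hx⟩)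
  have hTC : (T : Subgroup G) = centralizer ({z} : Set G) := by
    refine le_antisymm ?_ hT
    intro x hx
    exact Subgroup.mem_centralizer_singleton_iff.mpr (hab _ hTsq x hx z hzT)
  have hTcard : Nat.card T = 2 * 2 ^ d := by
    rw [← hC]
    exact congrArg (fun H : Subgroup G => Nat.card H) hTC
  have hnc : ¬ IsCyclic (T : Subgroup G) := by
    intro hcyc
    obtain ⟨g, hg⟩ := hcyc.exists_generator
    have h3 := orderOf_eq_card_of_forall_mem_zpowers hg
    have h4 : g ^ 2 = 1 := by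
      rw [pow_two]
      exact Subtype.ext (hTsq g g.2)
    have h5 := Nat.le_of_dvd (by norm_num) (orderOf_dvd_of_pow_eq_one h4)
    rw [h3] at h5
    have h6 : Nat.card (T : Subgroup G) = 2 * 2 ^ d := hTcard
    omega
  have hnn : ¬ (T : Subgroup G).Normal := by
    intro hn
    exact h.z_not_mem_pCore (Cfsg.Agent.Lib.Cores.le_pCore hn T.isPGroup' hzT)
  obtain ⟨F, i1, i2, hF, ⟨e⟩⟩ := Cfsg.Agent.S1230.result T hnc hnn (by
    intro t ht
    obtain ⟨htt, ht1⟩ := hconv t ht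
    have h3 : ∀ x ∈ centralizer ({t} : Set G), x * x = 1 := fun x hx =>
      hsqC t htt ht1 x (Subgroup.mem_centralizer_singleton_iff.mp hx)
    refine ⟨⟨⟨fun a b => Subtype.ext (hab _ h3 a a.2 b b.2)⟩⟩, fun c hc => ?_⟩
    rw [pow_two]
    exact h3 c hc)
  have hF' : Fintype.card F = 2 ^ (d + 1) := by rw [hF, hTcard]; ring
  have hchar : CharP F 2 := charP_of_card_eq_prime_pow hF'
  refine ⟨F, i1, i2, d + 1, by omega, hF', ?_, ?_, ⟨e⟩⟩
  · exact isCyclic_of_psl e M (fun x hx y hy => h.comm hx hy) h.odd_card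
  · rw [hM]; ring

end Cfsg.Agent.H272.TIInv
end

-- part: S3043
section
set_option autoImplicit false
open Cfsg

namespace Cfsg.Agent.S3043

open Cfsg.Agent.H272.TIInv in
theorem mkHyp {G : Type*} [Group G] [Finite G] (M : Subgroup G) (hM1 : M ≠ ⊥)
    (hTI : ∀ g : G, M ⊓ M.map (MulAut.conj g).toMonoidHom ≠ ⊥ → M.map (MulAut.conj g).toMonoidHom = M)
    (z : G) (hz : orderOf z = 2) (hzN : z ∈ Subgroup.normalizer (M : Set G))
    (hfac : M ⊔ (Subgroup.normalizer (M : Set G) ⊓ Subgroup.centralizer ({z} : Set G)) = Subgroup.normalizer (M : Set G))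
    (hodd : ∀ x ∈ M, x ≠ 1 → Odd (Nat.card ↥(Subgroup.centralizer ({x} : Set G)))) : Hyp M z := by
  have hord : ∀ g : G, orderOf g = 2 ↔ g * g = 1 ∧ g ≠ 1 := by
    intro g
    constructor
    · intro h
      refine ⟨by rw [← pow_two, ← h]; exact pow_orderOf_eq_one g, ?_⟩
      rintro rfl
      rw [orderOf_one] at h
      norm_num at h
    · rintro ⟨h1, h2⟩
      exact orderOf_eq_prime (by rw [pow_two]; exact h1) h2
  refine ⟨hM1, ?_, ((hord z).mp hz).1, ((hord z).mp hz).2, hzN, ?_, ?_⟩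
  · intro g x hx hx1 hgx
    have h1 : M.map (MulAut.conj g).toMonoidHom = M := by
      apply hTI
      intro h2
      have h3 : g * x * g⁻¹ ∈ M ⊓ M.map (MulAut.conj g).toMonoidHom :=
        ⟨hgx, ⟨x, hx, rfl⟩⟩
      rw [h2, Subgroup.mem_bot] at h3
      apply hx1
      calc x = g⁻¹ * (g * x * g⁻¹) * g := by group
        _ = 1 := by rw [h3]; group
    rw [Subgroup.mem_normalizer_iff]
    intro w
    constructor
    · intro hw
      have h2 : g * w * g⁻¹ ∈ M.map (MulAut.conj g).toMonoidHom := ⟨w, hw, rfl⟩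
      rwa [h1] at h2
    · intro hw
      have h2 : g * w * g⁻¹ ∈ (M : Subgroup G) := hw
      rw [← h1] at h2
      obtain ⟨v, hv, hvw⟩ := h2
      have h3 : g * v * g⁻¹ = g * w * g⁻¹ := hvw
      have h4 : v = w := by
        calc v = g⁻¹ * (g * v * g⁻¹) * g := by group
          _ = w := by rw [h3]; group
      rw [← h4]; exact hv
  · intro g hg
    rw [← hfac] at hg
    have h1 := Subgroup.coe_mul_of_right_le_normalizer_left M
      (Subgroup.normalizer (M : Set G) ⊓ Subgroup.centralizer ({z} : Set G)) inf_le_left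
    have h2 : g ∈ ((M ⊔ (Subgroup.normalizer (M : Set G) ⊓ Subgroup.centralizer ({z} : Set G)) : Subgroup G) : Set G) := hg
    rw [h1] at h2
    obtain ⟨y, hy, k, hk, rfl⟩ := h2
    refine ⟨y, hy, k, hk.1, ?_, rfl⟩
    exact (Subgroup.mem_centralizer_singleton_iff.mp hk.2)
  · intro x hx hx1 t ht htx
    by_contra ht1
    have h1 := hodd x hx hx1
    have h2 : t ∈ Subgroup.centralizer ({x} : Set G) := Subgroup.mem_centralizer_singleton_iff.mpr htx
    have h3 : orderOf (⟨t, h2⟩ : Subgroup.centralizer ({x} : Set G)) = 2 := by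
      rw [← (hord t).mpr ⟨ht, ht1⟩]
      exact Subgroup.orderOf_mk t h2
    have h4 := orderOf_dvd_natCard (⟨t, h2⟩ : Subgroup.centralizer ({x} : Set G))
    rw [h3] at h4
    exact (Nat.not_even_iff_odd.mpr h1) (even_iff_two_dvd.mpr h4)

/-- Let M be a nontrivial subgroup of a finite group G meeting each of its other conjugates trivially, with N_G(M) = M · C_{N_G(M)}(z) for some involution z ∈ N_G(M), and with C_G(x) of odd order for every nontrivial x ∈ M. Then one of the following holds: M is normal in G; the number of involutions of G is at most |G : M|; G is isomorphic to PGL₂(F) or to PSL₂(F) for a finite field F with |F| = |M|, M is an elementary abelian p-group for the characteristic p of F, and |F| ≡ 1 (mod 4) in the PSL₂ case; G is isomorphic to PSL₂(F) with |F| = 2^e, e > 1, and M is cyclic of order 2^e + 1; or for some d ≥ 1, G has an elementary abelian normal subgroup of order 2^{2d} complemented by N_G(M), and N_G(M) is dihedral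 of order 2(2^d + 1). -/
theorem result {G : Type*} [Group G] [Finite G] (M : Subgroup G) (hM1 : M ≠ ⊥)
    (hTI : ∀ g : G, M ⊓ M.map (MulAut.conj g).toMonoidHom ≠ ⊥ → M.map (MulAut.conj g).toMonoidHom = M)
    (z : G) (hz : orderOf z = 2) (hzN : z ∈ Subgroup.normalizer (M : Set G))
    (hfac : M ⊔ (Subgroup.normalizer (M : Set G) ⊓ Subgroup.centralizer ({z} : Set G)) = Subgroup.normalizer (M : Set G))
    (hodd : ∀ x ∈ M, x ≠ 1 → Odd (Nat.card ↥(Subgroup.centralizer ({x} : Set G)))) :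
    M.Normal ∨
    Nat.card {g : G // orderOf g = 2} ≤ M.index ∨
    (∃ (F : Type) (_ : Field F) (_ : Fintype F) (p : ℕ) (_ : Fact p.Prime) (_ : CharP F p), Fintype.card F = Nat.card M ∧ Cfsg.IsElementaryAbelian p M ∧
        (Nonempty (G ≃* (GL (Fin 2) F ⧸ Subgroup.center (GL (Fin 2) F))) ∨
         (Fintype.card F % 4 = 1 ∧ Nonempty (G ≃* Matrix.ProjectiveSpecialLinearGroup (Fin 2) F)))) ∨
    (∃ (F : Type) (_ : Field F) (_ : Fintype F) (e : ℕ), 1 < e ∧ Fintype.card F = 2 ^ e ∧ IsCyclic ↥M ∧ Nat.card M = 2 ^ e + 1 ∧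
        Nonempty (G ≃* Matrix.ProjectiveSpecialLinearGroup (Fin 2) F)) ∨
    (∃ (d : ℕ) (E : Subgroup G), 1 ≤ d ∧ E.Normal ∧ Cfsg.IsElementaryAbelian 2 E ∧ Nat.card E = 2 ^ (2 * d) ∧
        E ⊓ Subgroup.normalizer (M : Set G) = ⊥ ∧ E ⊔ Subgroup.normalizer (M : Set G) = ⊤ ∧
        Nonempty (↥(Subgroup.normalizer (M : Set G)) ≃* DihedralGroup (2 ^ d + 1))) := by
  classical
  by_cases hn : Subgroup.normalizer (M : Set G) = ⊤
  · exact Or.inl (Subgroup.normalizer_eq_top_iff.mp hn)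
  by_cases hI : Nat.card {g : G // orderOf g = 2} ≤ M.index
  · exact Or.inr (Or.inl hI)
  right; right
  push Not at hI
  have hyp := mkHyp M hM1 hTI z hz hzN hfac hodd
  have hIc : Nat.card {g : G // orderOf g = 2} = Nat.card {g : G // g * g = 1 ∧ g ≠ 1} := by
    apply Nat.card_congr
    apply Equiv.subtypeEquivRight
    intro g
    constructor
    · intro h
      refine ⟨by rw [← pow_two, ← h]; exact pow_orderOf_eq_one g, ?_⟩
      rintro rfl
      rw [orderOf_one] at h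
      norm_num at h
    · rintro ⟨h1, h2⟩
      exact orderOf_eq_prime (by rw [pow_two]; exact h1) h2
  rw [hIc] at hI
  have hcov : Cfsg.Agent.H272.TIInv.Cov M z := { hyp with cov := fun x hx => hyp.cover hI hx }
  by_cases h2 : Nat.card (Cfsg.Agent.H272.TIInv.HH M z) = 2
  · obtain ⟨d, hd, hC, hIn, hcase⟩ := hcov.exists_numbers h2 hn
    rcases hcase with ⟨hM, hi⟩ | ⟨hM, hi⟩
    · exact Or.inr (Or.inl (hcov.caseL h2 hd hC hM hi))
    · obtain ⟨E, hE1, hE2, hE3, hE4, hE5, hE6⟩ := hcov.caseE h2 hd hC hIn hM hi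
      exact Or.inr (Or.inr ⟨d, E, hd, hE1, hE2, hE3, hE4, hE5, hE6⟩)
  · left
    obtain ⟨u, hu⟩ := hcov.exists_big hn h2
    have hlt := hcov.card_HH_lt hI
    by_cases hle : 2 * Nat.card (Cfsg.Agent.H272.TIInv.HH M z) ≤ Nat.card M - 1
    · obtain ⟨F, i1, i2, p, i3, i4, h5, h6, h7, h8⟩ := hu.psl hlt hle
      exact ⟨F, i1, i2, p, i3, i4, h5, h6, Or.inr ⟨h7, h8⟩⟩
    · push Not at hle
      obtain ⟨F, i1, i2, p, i3, i4, h5, h6, h7⟩ := hu.pgl hlt hle
      exact ⟨F, i1, i2, p, i3, i4, h5, h6, Or.inl h7⟩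

end Cfsg.Agent.S3043
end
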