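import Cfsg.Agent.H273.IsoSolv
import Cfsg.Agent.Lib.CoprimeHyperplane
import Cfsg.Agent.SignalizersComponents.FStarNormal
import Cfsg.Agent.S0007
import Cfsg.Statements.S3044
set_option linter.all false

-- part: H273/IsoNonsolv
section
/-!
# Isolated `p`-minimal subgroups: the nonsolvable case (S3044)

`Y = ⟨O^p(P)^G⟩` not solvable: `Y / O_p(Y)` is a central product of components, transitively permuted by `S`, and
`p` divides its order.
-/

set_option autoImplicit false
set_option linter.unusedSectionVars false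
set_option linter.style.haveILetI false

open Subgroup
open scoped commutatorElement Pointwise

namespace Cfsg.Agent.H273.IsoNonsolv

open Cfsg.Agent.H273.PMinimal Cfsg.Agent.H273.IsoSolv Cfsg.Agent.SignalizersComponents.Components

variable {G : Type*} [Group G] [Finite G] {p : ℕ} [hpf : Fact p.Prime]

/-- `P` is isolated again in `Y S`. -/
theorem isolated_sub (S : Sylow p G) {P Y L₀ : Subgroup G} (hiso : Isolated S P)
    (hL₀ : L₀ = (normalizer ((S : Subgroup G) : Set G) ⊓ (Y ⊔ (S : Subgroup G))) ⊔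
          ⨆ P' : {P' : Subgroup G // (S : Subgroup G) ≤ P' ∧ P' ≤ Y ⊔ (S : Subgroup G) ∧ Cfsg.IsPMinimal p ↥P' ∧ P' ≠ P}, (P' : Subgroup G)) :
    ¬ core p L₀ ≤ core p P := by
  intro h
  apply hiso
  refine le_trans ?_ h
  have hSL₀ : (S : Subgroup G) ≤ L₀ := by
    rw [hL₀]; exact (le_inf le_normalizer le_sup_right).trans le_sup_left
  have hL₀L : L₀ ≤ LL S P := by
    rw [hL₀]
    refine sup_le (inf_le_left.trans (normalizer_le_LL S P)) (iSup_le ?_)
    rintro ⟨P', h1, h2, h3, h4⟩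
    exact pMinimal_le_LL S h1 h3 h4
  exact le_core ((core_le_sylow S (sylow_le_LL S P)).trans hSL₀) (core_isPGroup _)
    (hL₀L.trans (le_normalizer_core _))

local notation "O" => Cfsg.pCore p G

instance instNormal : (Cfsg.pCore p G).Normal := Lib.Cores.pCore_normal p

/-- The reduction map modulo `O_p(G)`. -/
abbrev pr (p : ℕ) [Fact p.Prime] (G : Type*) [Group G] [Finite G] : G →* G ⧸ Cfsg.pCore p G :=
  QuotientGroup.mk' (Cfsg.pCore p G)

theorem pr_surj : Function.Surjective (pr p G) := QuotientGroup.mk'_surjective _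

theorem ker_pr : (pr p G).ker = Cfsg.pCore p G := QuotientGroup.ker_mk' _

theorem comap_map_pr {T : Subgroup (G ⧸ Cfsg.pCore p G)} : (T.comap (pr p G)).map (pr p G) = T :=
  map_comap_eq_self_of_surjective pr_surj T

theorem map_comm_eq_bot {A B : Subgroup G} : ⁅A.map (pr p G), B.map (pr p G)⁆ = ⊥ ↔ ⁅A, B⁆ ≤ Cfsg.pCore p G := by
  rw [← Subgroup.map_commutator, Subgroup.map_eq_bot_iff, ker_pr]

theorem bar_le (S : Sylow p G) {P : Subgroup G} {T : Subgroup (G ⧸ Cfsg.pCore p G)}
    (hT : (S : Subgroup G).map (pr p G) ≤ normalizer (T : Set (G ⧸ Cfsg.pCore p G))) :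
    T.comap (pr p G) ≤ LL S P ∨ (res p P).map (pr p G) ≤ T := by
  have h1 : (S : Subgroup G) ≤ normalizer ((T.comap (pr p G) : Subgroup G) : Set G) := by
    refine le_trans ?_ (Subgroup.le_normalizer_comap (pr p G))
    exact map_le_iff_le_comap.1 hT
  rcases le_LL_or_res_le (P := P) S h1 with h | h
  · exact Or.inl h
  · exact Or.inr (map_le_iff_le_comap.2 h)

theorem bar_normal (S : Sylow p G) {P Y : Subgroup G} (hSP : (S : Subgroup G) ≤ P)
    (hP : Cfsg.IsPMinimal p ↥P) (hiso : Isolated S P)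
    (hY : Y = normalClosure ((res p P : Subgroup G) : Set G)) {T : Subgroup (G ⧸ Cfsg.pCore p G)} (hT : T.Normal) :
    ⁅T, Y.map (pr p G)⁆ = ⊥ ∨ Y.map (pr p G) ≤ T := by
  haveI hn : (T.comap (pr p G)).Normal := Subgroup.normal_comap _
  rcases normal_le_LL_or_res_le (N := T.comap (pr p G)) (P := P) S with h | h
  · left
    have h1 := commutator_closure_le S hSP hP hiso h
    rw [← hY, ← map_comm_eq_bot, comap_map_pr] at h1
    exact h1
  · right
    rw [map_le_iff_le_comap, hY]
    exact normalClosure_le_normal h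

/-- If `T ≤ L` is `S`-invariant then `[T, O_p(L)]` lies in a `p`-subgroup of `T` normalised by `T`. -/
theorem exists_Z (S : Sylow p G) {P : Subgroup G} {T : Subgroup (G ⧸ Cfsg.pCore p G)}
    (hS : (S : Subgroup G).map (pr p G) ≤ normalizer (T : Set (G ⧸ Cfsg.pCore p G)))
    (hT : T.comap (pr p G) ≤ LL S P) :
    ∃ Z : Subgroup (G ⧸ Cfsg.pCore p G), ⁅T, (core p (LL S P)).map (pr p G)⁆ ≤ Z ∧ Z ≤ T ∧ IsPGroup p Z ∧
      T ≤ normalizer (Z : Set (G ⧸ Cfsg.pCore p G)) := by
  set T₀ := T.comap (pr p G) with hT₀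
  set Q := core p (LL S P) with hQ
  have hmap : T₀.map (pr p G) = T := comap_map_pr
  have hST : (S : Subgroup G) ≤ normalizer (T₀ : Set G) :=
    (map_le_iff_le_comap.1 hS).trans (Subgroup.le_normalizer_comap (pr p G))
  have hQS : Q ≤ (S : Subgroup G) := core_le_sylow S (sylow_le_LL S P)
  have hTQ : T₀ ≤ normalizer (Q : Set G) := hT.trans (le_normalizer_core _)
  refine ⟨(Q ⊓ T₀).map (pr p G), ?_, ?_, ?_, ?_⟩
  · rw [← hmap, ← Subgroup.map_commutator]
    refine map_mono (le_inf ?_ ?_)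
    · exact le_normalizer_iff_commutator_le_right.1 hTQ
    · rw [commutator_comm]
      exact le_normalizer_iff_commutator_le_right.1 (hQS.trans hST)
  · rw [← hmap]; exact map_mono inf_le_right
  · exact (((core_isPGroup (LL S P)).to_le inf_le_left : IsPGroup p ↥(Q ⊓ T₀))).map _
  · rw [← hmap]
    refine le_trans (map_mono ?_) (Subgroup.le_normalizer_map (pr p G))
    exact Lib.MinNormal.le_normalizer_inf hTQ le_normalizer

/-- `Ȳ` is not solvable. -/
theorem bar_not_solvable {Y : Subgroup G} (hns : ¬ Group.IsSolvable ↥Y) : ¬ Group.IsSolvable ↥(Y.map (pr p G)) := by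
  intro h
  apply hns
  have h1 : Group.IsSolvable ↥(Cfsg.pCore p G) := by
    haveI : Group.IsNilpotent ↥(Cfsg.pCore p G) := (Lib.Cores.pCore_isPGroup (G := G) p).isNilpotent
    infer_instance
  let f : ↥Y →* ↥(Y.map (pr p G)) := (pr p G).subgroupMap Y
  let g : ↥((Cfsg.pCore p G).subgroupOf Y) →* ↥Y := ((Cfsg.pCore p G).subgroupOf Y).subtype
  have h2 : Group.IsSolvable ↥((Cfsg.pCore p G).subgroupOf Y) := by
    let k : ↥((Cfsg.pCore p G).subgroupOf Y) →* ↥(Cfsg.pCore p G) :=
      { toFun := fun x => ⟨((x : ↥Y) : G), x.2⟩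
        map_one' := rfl
        map_mul' := fun a b => rfl }
    have hk : Function.Injective k := fun a b hab => Subtype.ext (Subtype.ext (by
      have h9 := congrArg Subtype.val hab
      exact h9))
    exact Group.isSolvable_of_isSolvable_injective hk
  refine Group.isSolvable_of_ker_le_range g f ?_
  intro x hx
  rw [MonoidHom.mem_ker] at hx
  have h3 : (pr p G) (x : G) = 1 := congrArg Subtype.val hx
  rw [← MonoidHom.mem_ker, ker_pr] at h3
  exact ⟨⟨x, h3⟩, rfl⟩

/-- `Ȳ` is generated by its components. -/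
theorem layer_eq_top (S : Sylow p G) {P Y : Subgroup G} (hSP : (S : Subgroup G) ≤ P)
    (hP : Cfsg.IsPMinimal p ↥P) (hiso : Isolated S P)
    (hY : Y = normalClosure ((res p P : Subgroup G) : Set G)) (hns : ¬ Group.IsSolvable ↥Y) :
    Cfsg.layer ↥(Y.map (pr p G)) = ⊤ := by
  haveI hYn : Y.Normal := hY ▸ normalClosure_normal
  haveI hYbn : (Y.map (pr p G)).Normal := Lib.Cores.map_normal_of_surjective pr_surj hYn
  have hns' := bar_not_solvable (p := p) hns
  haveI := layer_characteristic ↥(Y.map (pr p G))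
  set E := (Cfsg.layer ↥(Y.map (pr p G))).map (Y.map (pr p G)).subtype with hE
  haveI hEn : E.Normal := inferInstance
  rcases bar_normal S hSP hP hiso hY hEn with h | h
  · exfalso
    apply hns'
    have h1 : E = ⊥ := by
      have h2 : ⁅E, E⁆ = E := by
        rw [hE, ← Subgroup.map_commutator, layer_commutator_self]
      rw [← le_bot_iff, ← h]
      calc E = ⁅E, E⁆ := h2.symm
        _ ≤ ⁅E, Y.map (pr p G)⁆ := commutator_mono le_rfl (map_subtype_le _)
    have h2 : Cfsg.layer ↥(Y.map (pr p G)) = ⊥ := by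
      rw [hE, Subgroup.map_eq_bot_iff_of_injective _ (Y.map (pr p G)).subtype_injective] at h1
      exact h1
    have h3 : Y.map (pr p G) ≤ Cfsg.generalizedFittingSubgroup (G ⧸ Cfsg.pCore p G) := by
      rw [map_le_iff_le_comap, hY]
      haveI : (Cfsg.generalizedFittingSubgroup (G ⧸ Cfsg.pCore p G)).Normal := Lib.GenFitting.genFitting_normal
      haveI : ((Cfsg.generalizedFittingSubgroup (G ⧸ Cfsg.pCore p G)).comap (pr p G)).Normal := Subgroup.normal_comap _
      exact normalClosure_le_normal (res_le_fstar S hSP hP hiso)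
    have h4 := SignalizersComponents.FStarNormal.genFitting_inf_normal hYbn
    rw [inf_eq_right.2 h3, Lib.GenFitting.genFitting_def, h2, bot_sup_eq] at h4
    have h5 : Cfsg.fittingSubgroup ↥(Y.map (pr p G)) = ⊤ := by
      rw [eq_top_iff]
      intro x _
      have h6 : (x : G ⧸ Cfsg.pCore p G) ∈ (Cfsg.fittingSubgroup ↥(Y.map (pr p G))).map (Y.map (pr p G)).subtype := by
        rw [← h4]; exact x.2
      obtain ⟨y, hy, hyx⟩ := h6
      have : y = x := Subtype.ext hyx
      rwa [← this]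
    haveI h6 : Group.IsNilpotent ↥(Cfsg.fittingSubgroup ↥(Y.map (pr p G))) := Lib.Cores.fittingSubgroup_isNilpotent
    rw [h5] at h6
    have h7 : Group.IsSolvable ↥(⊤ : Subgroup ↥(Y.map (pr p G))) := by infer_instance
    exact Group.isSolvable_of_surjective (f := (Subgroup.topEquiv (G := ↥(Y.map (pr p G)))).toMonoidHom)
      (Subgroup.topEquiv (G := ↥(Y.map (pr p G)))).surjective
  · rw [eq_top_iff]
    intro x _
    obtain ⟨y, hy, hyx⟩ := h x.2
    have : y = x := Subtype.ext hyx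
    rwa [← this]


theorem le_normalizer_of_conj {X : Type*} [Group X] {K H : Subgroup X} (h : ∀ k ∈ K, ∀ x ∈ H, k * x * k⁻¹ ∈ H) :
    K ≤ normalizer (H : Set X) := by
  intro k hk
  rw [mem_normalizer_iff]
  intro x
  refine ⟨h k hk x, fun hx => ?_⟩
  have h1 := h k⁻¹ (inv_mem hk) _ hx
  have h2 : k⁻¹ * (k * x * k⁻¹) * k⁻¹⁻¹ = x := by group
  rwa [h2] at h1

theorem bar_le_layer (S : Sylow p G) {P Y : Subgroup G} (hSP : (S : Subgroup G) ≤ P)
    (hP : Cfsg.IsPMinimal p ↥P) (hiso : Isolated S P)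
    (hY : Y = normalClosure ((res p P : Subgroup G) : Set G)) (hns : ¬ Group.IsSolvable ↥Y) :
    Y.map (pr p G) ≤ Cfsg.layer (G ⧸ Cfsg.pCore p G) := by
  haveI hYn : Y.Normal := hY ▸ normalClosure_normal
  haveI hYbn : (Y.map (pr p G)).Normal := Lib.Cores.map_normal_of_surjective pr_surj hYn
  have h1 := map_subtype_layer_le (Subgroup.Normal.isSubnormal hYbn)
  rw [layer_eq_top S hSP hP hiso hY hns, ← MonoidHom.range_eq_map, range_subtype] at h1
  exact h1

theorem bar_comm_ne (S : Sylow p G) {P Y : Subgroup G} (hSP : (S : Subgroup G) ≤ P)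
    (hP : Cfsg.IsPMinimal p ↥P) (hiso : Isolated S P)
    (hY : Y = normalClosure ((res p P : Subgroup G) : Set G)) :
    ⁅Y.map (pr p G), (core p (LL S P)).map (pr p G)⁆ ≠ ⊥ := by
  haveI hYn : Y.Normal := hY ▸ normalClosure_normal
  intro h
  rw [map_comm_eq_bot] at h
  have hYL : Y ⊔ LL S P = ⊤ := by rw [hY]; exact closure_sup_LL S hSP
  exact commutator_not_le S hSP hP hiso hYL
    (h.trans ((Lib.Cores.pCore_le_sylow S).trans (sylow_le_LL S P)))

/-- No component of `Ȳ` commutes with `O_p(L)`. -/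
theorem component_not_commute (S : Sylow p G) {P Y : Subgroup G} (hSP : (S : Subgroup G) ≤ P)
    (hP : Cfsg.IsPMinimal p ↥P) (hiso : Isolated S P)
    (hY : Y = normalClosure ((res p P : Subgroup G) : Set G)) (hns : ¬ Group.IsSolvable ↥Y)
    {K : Subgroup (G ⧸ Cfsg.pCore p G)} (hK : Cfsg.IsComponent K) (hKY : K ≤ Y.map (pr p G)) :
    ⁅(core p (LL S P)).map (pr p G), K⁆ ≠ ⊥ := by
  intro hKQ
  haveI hYn : Y.Normal := hY ▸ normalClosure_normal
  haveI hYbn : (Y.map (pr p G)).Normal := Lib.Cores.map_normal_of_surjective pr_surj hYn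
  set Qb := (core p (LL S P)).map (pr p G) with hQb
  set 𝒩 : Set (Subgroup (G ⧸ Cfsg.pCore p G)) := {K | Cfsg.IsComponent K ∧ K ≤ Y.map (pr p G) ∧ ⁅Qb, K⁆ = ⊥} with h𝒩
  have hKN : K ≤ sSup 𝒩 := le_sSup ⟨hK, hKY, hKQ⟩
  have hLQ : (LL S P).map (pr p G) ≤ normalizer (Qb : Set (G ⧸ Cfsg.pCore p G)) :=
    (map_mono (le_normalizer_core _)).trans (Subgroup.le_normalizer_map (pr p G))
  have hn : (sSup 𝒩).Normal := by
    have hYL : Y ⊔ LL S P = ⊤ := by rw [hY]; exact closure_sup_LL S hSP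
    have hLV : Y.map (pr p G) ⊔ (LL S P).map (pr p G) = ⊤ := by
      rw [← Subgroup.map_sup, hYL, Subgroup.map_top_of_surjective _ pr_surj]
    rw [← normalizer_eq_top_iff, ← top_le_iff, ← hLV]
    refine sup_le ?_ ?_
    · refine Lib.MinNormal.le_normalizer_sSup ?_
      intro K hK
      exact (bar_le_layer S hSP hP hiso hY hns).trans (layer_le_normalizer_component hK.1)
    · apply le_normalizer_of_conj
      intro g hg
      have h1 : sSup 𝒩 ≤ (sSup 𝒩).comap (MulAut.conj g).toMonoidHom := by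
        refine sSup_le fun K hK => ?_
        rw [← map_le_iff_le_comap]
        refine le_sSup ⟨isComponent_conj g hK.1, ?_, ?_⟩
        · rintro _ ⟨x, hx, rfl⟩
          exact hYbn.conj_mem _ (hK.2.1 hx) g
        · have h2 := congrArg (Subgroup.map (MulAut.conj g).toMonoidHom) hK.2.2
          rw [Subgroup.map_commutator, Subgroup.map_bot] at h2
          have h3 : Qb.map (MulAut.conj g).toMonoidHom = Qb := mem_normalizer_iff_map_conj_eq.1 (hLQ hg)
          rwa [h3] at h2
      intro x hx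
      exact h1 hx
  rcases bar_normal S hSP hP hiso hY hn with h | h
  · have h1 : K ≤ ⁅sSup 𝒩, Y.map (pr p G)⁆ := by
      rw [← component_commutator_self hK]
      exact commutator_mono hKN hKY
    rw [h] at h1
    exact component_ne_bot hK (le_bot_iff.1 h1)
  · apply bar_comm_ne S hSP hP hiso hY
    rw [commutator_eq_bot_iff_le_centralizer]
    refine h.trans (sSup_le fun K hK => ?_)
    have h1 := hK.2.2
    rw [commutator_comm, commutator_eq_bot_iff_le_centralizer] at h1
    exact h1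

/-- `O^p(P)` lies in the product of each `S`-orbit of components. -/
theorem res_le_orbit (S : Sylow p G) {P Y : Subgroup G} (hSP : (S : Subgroup G) ≤ P)
    (hP : Cfsg.IsPMinimal p ↥P) (hiso : Isolated S P)
    (hY : Y = normalClosure ((res p P : Subgroup G) : Set G)) (hns : ¬ Group.IsSolvable ↥Y)
    {K : Subgroup (G ⧸ Cfsg.pCore p G)} (hK : Cfsg.IsComponent K) (hKY : K ≤ Y.map (pr p G)) :
    (res p P).map (pr p G) ≤ ⨆ s : (S : Subgroup G), K.map (MulAut.conj (pr p G s)).toMonoidHom := by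
  set R := ⨆ s : (S : Subgroup G), K.map (MulAut.conj (pr p G s)).toMonoidHom with hR
  have hSR : (S : Subgroup G).map (pr p G) ≤ normalizer (R : Set (G ⧸ Cfsg.pCore p G)) := by
    apply le_normalizer_of_conj
    rintro _ ⟨t, ht, rfl⟩
    have h1 : R ≤ R.comap (MulAut.conj (pr p G t)).toMonoidHom := by
      refine iSup_le fun s => ?_
      rw [← map_le_iff_le_comap, Subgroup.map_map]
      have h2 : (MulAut.conj (pr p G t)).toMonoidHom.comp (MulAut.conj (pr p G s)).toMonoidHom =
          (MulAut.conj (pr p G (⟨t, ht⟩ * s : (S : Subgroup G)))).toMonoidHom := by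
        refine MonoidHom.ext fun x => ?_
        show pr p G t * (pr p G s * x * (pr p G s)⁻¹) * (pr p G t)⁻¹ = pr p G (t * s) * x * (pr p G (t * s))⁻¹
        rw [map_mul]; group
      rw [h2]
      exact le_iSup (fun s : (S : Subgroup G) => K.map (MulAut.conj (pr p G s)).toMonoidHom) _
    intro x hx
    exact h1 hx
  have hKR : K ≤ R := by
    have h1 : K.map (MulAut.conj (pr p G ((1 : (S : Subgroup G)) : G))).toMonoidHom = K := by
      rw [Subgroup.coe_one, map_one, map_one]
      exact Subgroup.map_id K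
    rw [← h1]
    exact le_iSup (fun s : (S : Subgroup G) => K.map (MulAut.conj (pr p G s)).toMonoidHom) 1
  refine (bar_le (P := P) S hSR).resolve_left fun h => ?_
  obtain ⟨Z, hZ1, hZ2, hZ3, hZ4⟩ := exists_Z S hSR h
  have hZs : Group.IsSolvable ↥Z := by
    haveI : Group.IsNilpotent ↥Z := hZ3.isNilpotent
    infer_instance
  have h1 : ⁅K, Z⁆ = ⊥ := component_commutator_solvable hK (hKR.trans hZ4) hZs
  apply component_not_commute S hSP hP hiso hY hns hK hKY
  haveI := hK.2.1
  apply commutator_eq_bot_of_commutator_commutator_eq_bot hK.2.1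
  rw [← le_bot_iff, ← h1, commutator_comm K Z]
  refine commutator_mono ?_ le_rfl
  rw [commutator_comm]
  exact (commutator_mono hKR le_rfl).trans hZ1

theorem res_not_le_centralizer {P Y : Subgroup G}
    (hY : Y = normalClosure ((res p P : Subgroup G) : Set G)) (hns : ¬ Group.IsSolvable ↥Y) :
    ¬ (res p P).map (pr p G) ≤ centralizer ((Y.map (pr p G) : Subgroup (G ⧸ Cfsg.pCore p G)) : Set (G ⧸ Cfsg.pCore p G)) := by
  intro h
  haveI hYn : Y.Normal := hY ▸ normalClosure_normal
  haveI hYbn : (Y.map (pr p G)).Normal := Lib.Cores.map_normal_of_surjective pr_surj hYn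
  apply bar_not_solvable (p := p) hns
  haveI hn : ((centralizer ((Y.map (pr p G) : Subgroup (G ⧸ Cfsg.pCore p G)) : Set (G ⧸ Cfsg.pCore p G))).comap
    (pr p G)).Normal := Subgroup.normal_comap _
  have h1 : Y.map (pr p G) ≤ centralizer ((Y.map (pr p G) : Subgroup (G ⧸ Cfsg.pCore p G)) : Set (G ⧸ Cfsg.pCore p G)) := by
    rw [map_le_iff_le_comap]
    conv_lhs => rw [hY]
    exact normalClosure_le_normal (map_le_iff_le_comap.1 h)
  letI : CommGroup ↥(Y.map (pr p G)) :=
    { (inferInstance : Group ↥(Y.map (pr p G))) with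
      mul_comm := fun a b => Subtype.ext ((mem_centralizer_iff.1 (h1 b.2)) a a.2) }
  exact Group.isSolvable_of_comm fun a b => mul_comm a b

/-- `S` is transitive on the components of `Ȳ`. -/
theorem transitive (S : Sylow p G) {P Y : Subgroup G} (hSP : (S : Subgroup G) ≤ P)
    (hP : Cfsg.IsPMinimal p ↥P) (hiso : Isolated S P)
    (hY : Y = normalClosure ((res p P : Subgroup G) : Set G)) (hns : ¬ Group.IsSolvable ↥Y)
    {K₁ K₂ : Subgroup (G ⧸ Cfsg.pCore p G)} (hK₁ : Cfsg.IsComponent K₁) (hKY₁ : K₁ ≤ Y.map (pr p G))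
    (hK₂ : Cfsg.IsComponent K₂) (hKY₂ : K₂ ≤ Y.map (pr p G)) :
    ∃ s ∈ (S : Subgroup G), K₂ = K₁.map (MulAut.conj (pr p G s)).toMonoidHom := by
  by_contra hcon
  push Not at hcon
  haveI hYn : Y.Normal := hY ▸ normalClosure_normal
  haveI hYbn : (Y.map (pr p G)).Normal := Lib.Cores.map_normal_of_surjective pr_surj hYn
  apply res_not_le_centralizer hY hns
  rw [le_centralizer_iff]
  -- a component outside the orbit of `K'` commutes with `O^p(P)`
  have key : ∀ K' K : Subgroup (G ⧸ Cfsg.pCore p G), Cfsg.IsComponent K' → K' ≤ Y.map (pr p G) →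
      Cfsg.IsComponent K → (∀ s ∈ (S : Subgroup G), K ≠ K'.map (MulAut.conj (pr p G s)).toMonoidHom) →
      K ≤ centralizer (((res p P).map (pr p G) : Subgroup (G ⧸ Cfsg.pCore p G)) : Set (G ⧸ Cfsg.pCore p G)) := by
    intro K' K hK' hKY' hK hne
    rw [le_centralizer_iff]
    refine (res_le_orbit S hSP hP hiso hY hns hK' hKY').trans (iSup_le fun s => ?_)
    exact component_le_centralizer_of_ne (isComponent_conj _ hK') hK (hne s s.2).symm
  have hall : ∀ K : Subgroup (G ⧸ Cfsg.pCore p G), Cfsg.IsComponent K →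
      K ≤ centralizer (((res p P).map (pr p G) : Subgroup (G ⧸ Cfsg.pCore p G)) : Set (G ⧸ Cfsg.pCore p G)) := by
    intro K hK
    by_cases h : ∀ s ∈ (S : Subgroup G), K ≠ K₁.map (MulAut.conj (pr p G s)).toMonoidHom
    · exact key K₁ K hK₁ hKY₁ hK h
    · push Not at h
      obtain ⟨s, hs, rfl⟩ := h
      refine key K₂ _ hK₂ hKY₂ hK ?_
      intro t ht h2
      apply hcon (t⁻¹ * s) (mul_mem (inv_mem ht) hs)
      have h3 := congrArg (Subgroup.map (MulAut.conj (pr p G t)⁻¹).toMonoidHom) h2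
      rw [Lib.MinNormal.map_conj_map_conj, Lib.MinNormal.map_conj_map_conj, inv_mul_cancel,
        Lib.MinNormal.map_conj_one] at h3
      rw [← h3, map_mul (pr p G), map_inv (pr p G)]
  exact (bar_le_layer S hSP hP hiso hY hns).trans (layer_le_iff.2 hall)

/-! ### `p` divides `|Ȳ|` -/

theorem le_commutator (S : Sylow p G) {P Y : Subgroup G} (hSP : (S : Subgroup G) ≤ P)
    (hP : Cfsg.IsPMinimal p ↥P) (hiso : Isolated S P)
    (hY : Y = normalClosure ((res p P : Subgroup G) : Set G)) : Y ≤ ⁅Y, core p (LL S P)⁆ := by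
  haveI hYn : Y.Normal := hY ▸ normalClosure_normal
  have hYL : Y ⊔ LL S P = ⊤ := by rw [hY]; exact closure_sup_LL S hSP
  have hKn : (⁅Y, core p (LL S P)⁆).Normal := by
    rw [← normalizer_eq_top_iff, ← top_le_iff, ← hYL]
    refine sup_le (normalizer_commutator_ge_left _ _) ?_
    exact le_normalizer_commutator' (by rw [normalizer_eq_top_iff.2 hYn]; exact le_top) (le_normalizer_core _)
  have h1 := (normal_le_LL_or_res_le (N := ⁅Y, core p (LL S P)⁆) (P := P) S).resolve_left
      (commutator_not_le S hSP hP hiso hYL)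
  conv_lhs => rw [hY]
  exact normalClosure_le_normal h1

theorem dvd_card (S : Sylow p G) {P Y : Subgroup G} (hSP : (S : Subgroup G) ≤ P)
    (hP : Cfsg.IsPMinimal p ↥P) (hiso : Isolated S P)
    (hY : Y = normalClosure ((res p P : Subgroup G) : Set G)) (hns : ¬ Group.IsSolvable ↥Y) :
    p ∣ Nat.card ↥(Y.map (pr p G)) := by
  by_contra hp
  haveI hYn : Y.Normal := hY ▸ normalClosure_normal
  haveI hYbn : (Y.map (pr p G)).Normal := Lib.Cores.map_normal_of_surjective pr_surj hYn
  have hns' := bar_not_solvable (p := p) hns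
  set Yb := Y.map (pr p G) with hYb
  set Qb := (core p (LL S P)).map (pr p G) with hQb
  have hSb : IsPGroup p ↥((S : Subgroup G).map (pr p G)) := S.isPGroup'.map _
  have hSY : (S : Subgroup G).map (pr p G) ≤ normalizer (Yb : Set (G ⧸ Cfsg.pCore p G)) := by
    rw [normalizer_eq_top_iff.2 hYbn]; exact le_top
  have hQS : Qb ≤ (S : Subgroup G).map (pr p G) := map_mono (core_le_sylow S (sylow_le_LL S P))
  have hsyl := fun (t : ℕ) [Fact t.Prime] => Lib.CoprimeHyperplane.exists_invariant_sylow hSb hSY hp t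
  -- every `S`-invariant Sylow subgroup centralises `Q` or contains `O^p(P)`
  have hdich : ∀ (t : ℕ) [Fact t.Prime], ∃ T : Sylow t Yb,
      (S : Subgroup G).map (pr p G) ≤ normalizer (((T : Subgroup Yb).map Yb.subtype : Subgroup _) : Set (G ⧸ Cfsg.pCore p G)) ∧
      ((T : Subgroup Yb) ≤ (centralizer (Qb : Set (G ⧸ Cfsg.pCore p G))).subgroupOf Yb ∨
        (res p P).map (pr p G) ≤ (T : Subgroup Yb).map Yb.subtype) := by
    intro t _
    obtain ⟨T, hT⟩ := hsyl t
    refine ⟨T, hT, ?_⟩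
    rcases bar_le (P := P) S hT with h | h
    · left
      obtain ⟨Z, hZ1, hZ2, hZ3, -⟩ := exists_Z S hT h
      have hZ : Z = ⊥ := by
        obtain ⟨k, hk⟩ := IsPGroup.iff_card.1 hZ3
        rcases Nat.eq_zero_or_pos k with h0 | h0
        · rw [h0, pow_zero] at hk
          exact Subgroup.card_eq_one.1 hk
        · exfalso
          apply hp
          have h1 : Nat.card Z ∣ Nat.card Yb := Subgroup.card_dvd_of_le (hZ2.trans (map_subtype_le _))
          rw [hk] at h1
          exact (dvd_pow_self p h0.ne').trans h1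
      rw [hZ, le_bot_iff, commutator_eq_bot_iff_le_centralizer] at hZ1
      intro x hx
      exact hZ1 ⟨x, hx, rfl⟩
    · exact Or.inr h
  set C := (centralizer (Qb : Set (G ⧸ Cfsg.pCore p G))).subgroupOf Yb with hC
  by_cases hr : ∀ (t : ℕ) [Fact t.Prime], ∃ T : Sylow t Yb, (T : Subgroup Yb) ≤ C
  · -- `Q` centralises `Ȳ`
    have h1 : C.index = 1 := by
      by_contra hne
      obtain ⟨t, ht, htd⟩ := Nat.exists_prime_and_dvd hne
      haveI : Fact t.Prime := ⟨ht⟩
      obtain ⟨T, hT⟩ := hr t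
      exact T.not_dvd_index (htd.trans (Subgroup.index_dvd_of_le hT))
    rw [Subgroup.index_eq_one, hC, subgroupOf_eq_top, ← commutator_eq_bot_iff_le_centralizer] at h1
    exact bar_comm_ne S hSP hP hiso hY h1
  push Not at hr
  obtain ⟨r, hrp, hr⟩ := hr
  obtain ⟨R, hRn, hR⟩ := hdich r
  replace hR := hR.resolve_left (hr R)
  have hCR : C.index.Coprime (R : Subgroup Yb).index := by
    rw [Nat.coprime_iff_gcd_eq_one]
    by_contra hne
    obtain ⟨t, ht, htd⟩ := Nat.exists_prime_and_dvd hne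
    haveI : Fact t.Prime := ⟨ht⟩
    have h1 : t ∣ C.index := htd.trans (Nat.gcd_dvd_left _ _)
    have h2 : t ∣ (R : Subgroup Yb).index := htd.trans (Nat.gcd_dvd_right _ _)
    have htr : t ≠ r := by rintro rfl; exact R.not_dvd_index h2
    obtain ⟨T, hTn, hT⟩ := hdich t
    rcases hT with hT | hT
    · exact T.not_dvd_index (h1.trans (Subgroup.index_dvd_of_le hT))
    · -- `O^p(P)` is a `t`-group and an `r`-group
      have h3 : IsPGroup t ↥((T : Subgroup Yb).map Yb.subtype) := T.isPGroup'.map _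
      have h4 : IsPGroup r ↥((R : Subgroup Yb).map Yb.subtype) := R.isPGroup'.map _
      have h5 : (res p P).map (pr p G) = ⊥ := by
        rw [← inf_idem ((res p P).map (pr p G)), ← disjoint_iff]
        exact IsPGroup.disjoint_of_ne t r htr _ _ (h3.to_le hT) (h4.to_le hR)
      rw [Subgroup.map_eq_bot_iff, ker_pr] at h5
      exact res_not_isPGroup S hSP hP ((Lib.Cores.pCore_isPGroup (G := G) p).to_le h5)
  -- `[Ȳ, Q̄] ≤ R`
  have hYQ : ⁅Yb, Qb⁆ ≤ (R : Subgroup Yb).map Yb.subtype := by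
    rw [commutator_le]
    intro y hy q hq
    obtain ⟨a, ha, c, hc, hac⟩ := Cfsg.Agent.S0007.exists_mul_eq (R : Subgroup Yb) C hCR.symm ⟨y, hy⟩
    have h1 : y = (a : G ⧸ Cfsg.pCore p G) * c := congrArg Subtype.val hac
    have h2 : (c : G ⧸ Cfsg.pCore p G) * q = q * c := (mem_centralizer_iff.1 hc q hq).symm
    have h3 : ⁅y, q⁆ = (a : G ⧸ Cfsg.pCore p G) * (q * (a : G ⧸ Cfsg.pCore p G)⁻¹ * q⁻¹) := by
      rw [h1, commutatorElement_def]
      calc (a : G ⧸ Cfsg.pCore p G) * c * q * ((a : G ⧸ Cfsg.pCore p G) * c)⁻¹ * q⁻¹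
          = a * (c * q) * (c : G ⧸ Cfsg.pCore p G)⁻¹ * (a : G ⧸ Cfsg.pCore p G)⁻¹ * q⁻¹ := by group
        _ = a * (q * c) * (c : G ⧸ Cfsg.pCore p G)⁻¹ * (a : G ⧸ Cfsg.pCore p G)⁻¹ * q⁻¹ := by rw [h2]
        _ = _ := by group
    rw [h3]
    have h4 : (a : G ⧸ Cfsg.pCore p G) ∈ (R : Subgroup Yb).map Yb.subtype := ⟨a, ha, rfl⟩
    exact mul_mem h4 ((mem_normalizer_iff.1 (hRn (hQS hq)) _).1 (inv_mem h4))
  have hYR : Yb ≤ (R : Subgroup Yb).map Yb.subtype := by
    refine le_trans ?_ hYQ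
    rw [hYb, hQb, ← Subgroup.map_commutator]
    exact map_mono (le_commutator S hSP hP hiso hY)
  apply hns'
  have h1 : IsPGroup r ↥Yb := (R.isPGroup'.map Yb.subtype).to_le hYR
  haveI : Group.IsNilpotent ↥Yb := h1.isNilpotent
  infer_instance

/-! ### Transfer to `Y / O_p(Y)` -/

theorem exists_iso {Y : Subgroup G} (hYn : Y.Normal) [hn : (Cfsg.pCore p ↥Y).Normal] :
    ∃ e : (↥Y ⧸ Cfsg.pCore p ↥Y) ≃* ↥(Y.map (pr p G)),
      ∀ y : ↥Y, ((e (QuotientGroup.mk' (Cfsg.pCore p ↥Y) y) : ↥(Y.map (pr p G))) : G ⧸ Cfsg.pCore p G) = pr p G y := by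
  let f : ↥Y →* ↥(Y.map (pr p G)) := (pr p G).subgroupMap Y
  have hf : Function.Surjective f := (pr p G).subgroupMap_surjective Y
  have hker : f.ker = Cfsg.pCore p ↥Y := by
    have h1 := Lib.Cores.map_subtype_pCore p hYn
    apply Subgroup.map_injective Y.subtype_injective
    rw [h1]
    ext x
    constructor
    · rintro ⟨y, hy, rfl⟩
      refine mem_inf.2 ⟨y.2, ?_⟩
      have h2 : pr p G (y : G) = 1 := congrArg Subtype.val ((MonoidHom.mem_ker).1 hy)
      rw [← MonoidHom.mem_ker, ker_pr] at h2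
      exact h2
    · intro hx
      obtain ⟨hxY, hxO⟩ := mem_inf.1 hx
      refine ⟨⟨x, hxY⟩, ?_, rfl⟩
      rw [SetLike.mem_coe, MonoidHom.mem_ker]
      apply Subtype.ext
      show pr p G x = 1
      rw [← MonoidHom.mem_ker, ker_pr]; exact hxO
  refine ⟨(QuotientGroup.quotientMulEquivOfEq hker.symm).trans (QuotientGroup.quotientKerEquivOfSurjective f hf), ?_⟩
  intro y
  rfl

theorem main (S : Sylow p G) {P Y : Subgroup G} (hSP : (S : Subgroup G) ≤ P)
    (hP : Cfsg.IsPMinimal p ↥P) (hiso : Isolated S P)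
    (hY : Y = normalClosure ((res p P : Subgroup G) : Set G)) (hns : ¬ Group.IsSolvable ↥Y) :
    ∃ _ : (Cfsg.pCore p ↥Y).Normal,
       p ∣ Nat.card (↥Y ⧸ Cfsg.pCore p ↥Y) ∧ Cfsg.layer (↥Y ⧸ Cfsg.pCore p ↥Y) = ⊤ ∧
       ∀ K₁ K₂ : Subgroup (↥Y ⧸ Cfsg.pCore p ↥Y), Cfsg.IsComponent K₁ → Cfsg.IsComponent K₂ →
         ∃ s ∈ (S : Subgroup G), ((K₂.comap (QuotientGroup.mk' (Cfsg.pCore p ↥Y))).map Y.subtype) =
          (((K₁.comap (QuotientGroup.mk' (Cfsg.pCore p ↥Y))).map Y.subtype)).map (MulAut.conj s).toMonoidHom := by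
  haveI hYn : Y.Normal := hY ▸ normalClosure_normal
  haveI hYbn : (Y.map (pr p G)).Normal := Lib.Cores.map_normal_of_surjective pr_surj hYn
  haveI hn : (Cfsg.pCore p ↥Y).Normal := Lib.Cores.pCore_normal p
  obtain ⟨e, he⟩ := exists_iso hYn (p := p)
  refine ⟨hn, ?_, ?_, ?_⟩
  · rw [Nat.card_congr e.toEquiv]
    exact dvd_card S hSP hP hiso hY hns
  · have h1 := map_equiv_layer e
    rw [layer_eq_top S hSP hP hiso hY hns] at h1
    have h2 := congrArg (Subgroup.comap e.toMonoidHom) h1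
    rw [comap_map_eq_self_of_injective e.injective, comap_top] at h2
    exact h2
  · intro K₁ K₂ hK₁ hK₂
    -- the components of `Ḡ`
    have hcomp : ∀ K : Subgroup (↥Y ⧸ Cfsg.pCore p ↥Y), Cfsg.IsComponent K →
        Cfsg.IsComponent ((K.map e.toMonoidHom).map (Y.map (pr p G)).subtype) := fun K hK =>
      isComponent_map_subtype (Subgroup.Normal.isSubnormal hYbn) (isComponent_map_equiv e hK)
    have hmem : ∀ (K : Subgroup (↥Y ⧸ Cfsg.pCore p ↥Y)) (x : G),
        x ∈ (K.comap (QuotientGroup.mk' (Cfsg.pCore p ↥Y))).map Y.subtype ↔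
          x ∈ Y ∧ pr p G x ∈ (K.map e.toMonoidHom).map (Y.map (pr p G)).subtype := by
      intro K x
      constructor
      · rintro ⟨y, hy, rfl⟩
        exact ⟨y.2, _, ⟨_, hy, rfl⟩, he y⟩
      · rintro ⟨hxY, _, ⟨k, hk, rfl⟩, hkx⟩
        refine ⟨⟨x, hxY⟩, ?_, rfl⟩
        have h1 : e (QuotientGroup.mk' (Cfsg.pCore p ↥Y) ⟨x, hxY⟩) = e k := by
          apply Subtype.ext
          rw [he]; exact hkx.symm
        have h2 := e.injective h1
        rw [SetLike.mem_coe, mem_comap, h2]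
        exact hk
    obtain ⟨s, hs, hst⟩ := transitive S hSP hP hiso hY hns (hcomp K₁ hK₁) (map_subtype_le _) (hcomp K₂ hK₂)
      (map_subtype_le _)
    refine ⟨s, hs, ?_⟩
    ext x
    have hconj : ∀ H : Subgroup G, x ∈ H.map (MulAut.conj s).toMonoidHom ↔ s⁻¹ * x * s ∈ H := by
      intro H
      constructor
      · rintro ⟨y, hy, rfl⟩
        have h2 : s⁻¹ * (s * y * s⁻¹) * s = y := by group
        show s⁻¹ * (s * y * s⁻¹) * s ∈ H
        rwa [h2]
      · intro h
        refine ⟨_, h, ?_⟩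
        show s * (s⁻¹ * x * s) * s⁻¹ = x
        group
    rw [hconj, hmem, hmem, hst]
    have h1 : s⁻¹ * x * s ∈ Y ↔ x ∈ Y := by
      constructor
      · intro h
        have h2 := hYn.conj_mem _ h s
        have h3 : s * (s⁻¹ * x * s) * s⁻¹ = x := by group
        rwa [h3] at h2
      · intro h
        have h2 := hYn.conj_mem _ h s⁻¹
        rwa [inv_inv] at h2
    rw [h1]
    refine and_congr_right fun _ => ?_
    constructor
    · rintro ⟨y, hy, hyx⟩
      have h2 : pr p G (s⁻¹ * x * s) = y := by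
        rw [map_mul, map_mul, ← hyx, map_inv]
        show (pr p G s)⁻¹ * (pr p G s * y * (pr p G s)⁻¹) * pr p G s = y
        group
      rw [h2]; exact hy
    · intro h
      refine ⟨_, h, ?_⟩
      show pr p G s * pr p G (s⁻¹ * x * s) * (pr p G s)⁻¹ = pr p G x
      rw [map_mul, map_mul, map_inv]
      group

end Cfsg.Agent.H273.IsoNonsolv
end

-- part: S3044
section
set_option autoImplicit false
open Cfsg

namespace Cfsg.Agent.S3044

/-- Let G be a finite group, p a prime, S a Sylow p-subgroup of G and P a p-minimal subgroup of G containing S (S is not normal in P and lies in exactly one maximal subgroup of P). Let L be the subgroup generated by N_G(S) and all p-minimal subgroups of G containing S other than P, and suppose P is isolated: O_p(L) is not contained in O_p(P). Put Y for the normal closure of O^p(P) in G. Then G = YL; P is again isolated in the subgroup YS (the subgroup L₀ generated by N_{YS}(S) and the p-minimal subgroups of YS containing S other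 than P has O_p(L₀) not contained in O_p(P)); and either Y = O^p(P), or p divides |Y/O_p(Y)|, Y/O_p(Y) is generated by its components (a central product of quasisimple groups), and S permutes these components transitively by conjugation. -/
theorem result {G : Type*} [Group G] [Finite G] {p : ℕ} [Fact p.Prime] (S : Sylow p G) (P : Subgroup G) (hSP : (S : Subgroup G) ≤ P) (hPmin : Cfsg.IsPMinimal p ↥P)
    (L Y : Subgroup G)
    (hL : L = Subgroup.normalizer ((S : Subgroup G) : Set G) ⊔ ⨆ P' : {P' : Subgroup G // (S : Subgroup G) ≤ P' ∧ Cfsg.IsPMinimal p ↥P' ∧ P' ≠ P}, (P' : Subgroup G))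
    (hiso : ¬ (Cfsg.pCore p ↥L).map L.subtype ≤ (Cfsg.pCore p ↥P).map P.subtype)
    (hY : Y = Subgroup.normalClosure (((Cfsg.pResidual p ↥P).map P.subtype : Subgroup G) : Set G)) :
    Y ⊔ L = ⊤ ∧
    ¬ (Cfsg.pCore p ↥((Subgroup.normalizer ((S : Subgroup G) : Set G) ⊓ (Y ⊔ (S : Subgroup G))) ⊔
          ⨆ P' : {P' : Subgroup G // (S : Subgroup G) ≤ P' ∧ P' ≤ Y ⊔ (S : Subgroup G) ∧ Cfsg.IsPMinimal p ↥P' ∧ P' ≠ P}, (P' : Subgroup G))).map
        (Subgroup.subtype _) ≤ (Cfsg.pCore p ↥P).map P.subtype ∧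
    ((Cfsg.pResidual p ↥P).map P.subtype = Y ∨
     ∃ _ : (Cfsg.pCore p ↥Y).Normal,
       p ∣ Nat.card (↥Y ⧸ Cfsg.pCore p ↥Y) ∧ Cfsg.layer (↥Y ⧸ Cfsg.pCore p ↥Y) = ⊤ ∧
       ∀ K₁ K₂ : Subgroup (↥Y ⧸ Cfsg.pCore p ↥Y), Cfsg.IsComponent K₁ → Cfsg.IsComponent K₂ →
         ∃ s ∈ (S : Subgroup G), ((K₂.comap (QuotientGroup.mk' (Cfsg.pCore p ↥Y))).map Y.subtype) = (((K₁.comap (QuotientGroup.mk' (Cfsg.pCore p ↥Y))).map Y.subtype)).map (MulAut.conj s).toMonoidHom) := by
  subst hL
  refine ⟨?_, ?_, ?_⟩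
  · rw [hY]
    exact Cfsg.Agent.H273.PMinimal.closure_sup_LL S hSP
  · exact Cfsg.Agent.H273.IsoNonsolv.isolated_sub S hiso rfl
  · by_cases hs : Group.IsSolvable ↥Y
    · exact Or.inl (Cfsg.Agent.H273.IsoSolv.res_eq_of_solvable S hSP hPmin hiso hY hs)
    · exact Or.inr (Cfsg.Agent.H273.IsoNonsolv.main S hSP hPmin hiso hY hs)

end Cfsg.Agent.S3044
end
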