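import Cfsg.Agent.H273.PMinimal
import Cfsg.Agent.H273.VecSU3
import Cfsg.Statements.S3047
set_option linter.all false

-- part: H273/CentralRankOne
section
/-!
# `p`-elements in the centre of `L_G(P, S)`, `P` `p`-minimal of rank one (S3047)
-/

set_option autoImplicit false
set_option linter.unusedSectionVars false
set_option linter.style.haveILetI false

open Subgroup
open scoped Pointwise

namespace Cfsg.Agent.H273.CentralRankOne

open Cfsg.Agent.H273.PMinimal

section Abs

variable {X : Type*} [Group X] [Finite X] {p : ℕ} [hpf : Fact p.Prime]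

/-- The Sylow subgroup of a normal subgroup. -/
noncomputable def sylInf (T : Sylow p X) (K : Subgroup X) [K.Normal] : Sylow p K :=
  (Lib.SylowNormalInf.isPGroup_subgroupOf T K).toSylow (Lib.SylowNormalInf.not_dvd_relIndex T K)

theorem coe_sylInf (T : Sylow p X) (K : Subgroup X) [K.Normal] :
    (sylInf T K : Subgroup K) = (T : Subgroup X).subgroupOf K := rfl

theorem mem_normalizer_sylInf (T : Sylow p X) (K : Subgroup X) [K.Normal] (b : K) :
    b ∈ normalizer (sylInf T K : Set K) ↔ (b : X) ∈ normalizer (((T : Subgroup X) ⊓ K : Subgroup X) : Set X) := by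
  change b ∈ normalizer ((sylInf T K : Subgroup K) : Set K) ↔ _
  constructor
  · intro h
    rw [mem_normalizer_iff] at h ⊢
    intro x
    constructor
    · intro hx
      obtain ⟨hxT, hxK⟩ := mem_inf.1 hx
      have h1 := (h ⟨x, hxK⟩).1 hxT
      exact mem_inf.2 ⟨h1, K.mul_mem (K.mul_mem b.2 hxK) (K.inv_mem b.2)⟩
    · intro hx
      obtain ⟨hxT, hxK⟩ := mem_inf.1 hx
      have hxK' : x ∈ K := by
        have h2 := K.mul_mem (K.mul_mem (K.inv_mem b.2) hxK) b.2
        have h3 : (b : X)⁻¹ * (b * x * (b : X)⁻¹) * b = x := by group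
        rwa [h3] at h2
      exact mem_inf.2 ⟨(h ⟨x, hxK'⟩).2 hxT, hxK'⟩
  · intro h
    rw [mem_normalizer_iff] at h ⊢
    intro x
    have h1 := h (x : X)
    constructor
    · intro hx
      exact (mem_inf.1 (h1.1 (mem_inf.2 ⟨hx, x.2⟩))).1
    · intro hx
      exact (mem_inf.1 (h1.2 (mem_inf.2 ⟨hx, (b * x * b⁻¹ : K).2⟩))).1

theorem mem_center_of_commute (K : Subgroup X) [hKn : K.Normal] (hK : RankOneSyl p ↥K) (T : Sylow p X)
    (hKT : K ⊔ (T : Subgroup X) = ⊤) {z : X}
    (hz : ∀ x ∈ normalizer (((T : Subgroup X) ⊓ K : Subgroup X) : Set X), x * z = z * x) : z ∈ center X := by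
  have h1 : (MulAut.conjNormal z : MulAut K) = 1 := by
    apply hK.rigid _ (sylInf T K)
    intro b hb
    apply Subtype.ext
    rw [MulAut.conjNormal_apply, ← hz _ ((mem_normalizer_sylInf T K b).1 hb), mul_inv_cancel_right]
  have h2 : K ≤ centralizer {z} := by
    intro k hk
    rw [mem_centralizer_singleton_iff]
    have h3 := congrArg (fun γ : MulAut K => ((γ ⟨k, hk⟩ : K) : X)) h1
    have h4 : z * k * z⁻¹ = k := h3
    rw [mul_inv_eq_iff_eq_mul] at h4
    exact h4.symm
  have h3 : (T : Subgroup X) ≤ centralizer {z} := by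
    intro t ht
    rw [mem_centralizer_singleton_iff]
    refine hz t ?_
    refine Lib.MinNormal.le_normalizer_inf (K := (T : Subgroup X)) le_normalizer ?_ ht
    rw [normalizer_eq_top_iff.2 hKn]; exact le_top
  rw [mem_center_iff]
  intro g
  have h4 : g ∈ centralizer {z} := by
    have h5 : K ⊔ (T : Subgroup X) ≤ centralizer {z} := sup_le h2 h3
    rw [hKT] at h5
    exact h5 (mem_top g)
  rw [mem_centralizer_singleton_iff] at h4
  exact h4

theorem normalizer_ne_top (K : Subgroup X) [hKn : K.Normal] (hK : RankOneSyl p ↥K) (T : Sylow p X) :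
    normalizer (((T : Subgroup X) ⊓ K : Subgroup X) : Set X) ≠ ⊤ := by
  intro h
  obtain ⟨U₀, t, hne, -⟩ := hK.tor (sylInf T K)
  apply hne
  obtain ⟨g, rfl⟩ := MulAction.exists_smul_eq K (sylInf T K) U₀
  rw [Sylow.smul_eq_iff_mem_normalizer, mem_normalizer_sylInf, h]
  exact mem_top _

end Abs

variable {G : Type*} [Group G] [Finite G] {p : ℕ} [hpf : Fact p.Prime]

theorem main (S : Sylow p G) {P : Subgroup G} (hSP : (S : Subgroup G) ≤ P) [hn : (Cfsg.pCore p ↥P).Normal]
    (hK : RankOneSyl p ↥(Cfsg.pResidual p (↥P ⧸ Cfsg.pCore p ↥P))) {z : G}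
    (hzc : z ∈ centralizer (LL S P : Set G)) {k : ℕ} (hzk : orderOf z = p ^ k) :
    z ∈ core p P := by
  -- `z ∈ S`
  have hzp : IsPGroup p (zpowers z) := by
    refine IsPGroup.of_card (n := k) ?_
    rw [Nat.card_zpowers, hzk]
  have hzS : z ∈ (S : Subgroup G) := by
    have h1 := hzp.inf_normalizer_sylow S
    have h2 : z ∈ zpowers z ⊓ normalizer (S : Set G) := by
      refine mem_inf.2 ⟨mem_zpowers z, ?_⟩
      apply centralizer_le_normalizer
      rw [mem_centralizer_iff] at hzc ⊢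
      intro s hs
      exact hzc s (sylow_le_LL S P hs)
    rw [h1] at h2
    exact (mem_inf.1 h2).2
  have hzP : z ∈ P := hSP hzS
  set zP : ↥P := ⟨z, hzP⟩ with hzPdef
  set π := QuotientGroup.mk' (Cfsg.pCore p ↥P) with hπ
  have hπs : Function.Surjective π := QuotientGroup.mk'_surjective _
  set T : Sylow p ↥P := S.subtype hSP with hT
  set Tb : Sylow p (↥P ⧸ Cfsg.pCore p ↥P) := T.mapSurjective hπs with hTb
  set K := Cfsg.pResidual p (↥P ⧸ Cfsg.pCore p ↥P) with hKdef
  haveI hKn : K.Normal := Transfer.Residual.pResidual_normal p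
  have hKT : K ⊔ (Tb : Subgroup (↥P ⧸ Cfsg.pCore p ↥P)) = ⊤ := Transfer.Residual.pResidual_sup_sylow Tb
  set N := normalizer (((Tb : Subgroup (↥P ⧸ Cfsg.pCore p ↥P)) ⊓ K : Subgroup (↥P ⧸ Cfsg.pCore p ↥P)) :
    Set (↥P ⧸ Cfsg.pCore p ↥P)) with hN
  have hNtop : N ≠ ⊤ := normalizer_ne_top K hK Tb
  have hTN : (Tb : Subgroup (↥P ⧸ Cfsg.pCore p ↥P)) ≤ N := by
    refine Lib.MinNormal.le_normalizer_inf le_normalizer ?_
    rw [normalizer_eq_top_iff.2 hKn]; exact le_top
  -- the preimage of `N` in `G`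
  set H := (N.comap π).map P.subtype with hH
  have hHP : H ≤ P := map_subtype_le _
  have hSH : (S : Subgroup G) ≤ H := by
    intro s hs
    refine ⟨⟨s, hSP hs⟩, ?_, rfl⟩
    exact hTN (mem_map_of_mem π (show (⟨s, hSP hs⟩ : ↥P) ∈ (T : Subgroup ↥P) from hs))
  have hPH : ¬ P ≤ H := by
    intro h
    apply hNtop
    rw [eq_top_iff]
    intro x _
    obtain ⟨y, rfl⟩ := hπs x
    obtain ⟨w, hw, hwy⟩ := h y.2
    have : w = y := Subtype.ext hwy
    rw [← this]; exact hw
  have hHL : H ≤ LL S P := le_LL S hSH hPH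
  have hcomm : ∀ x ∈ N, x * π zP = π zP * x := by
    intro x hx
    obtain ⟨y, rfl⟩ := hπs x
    rw [← map_mul, ← map_mul]
    congr 1
    apply Subtype.ext
    exact mem_centralizer_iff.1 hzc _ (hHL ⟨y, hx, rfl⟩)
  have hzcen : π zP ∈ center (↥P ⧸ Cfsg.pCore p ↥P) := mem_center_of_commute K hK Tb hKT hcomm
  -- so `π z ∈ O_p(P / O_p(P)) = 1`
  have h1 : zpowers (π zP) ≤ Cfsg.pCore p (↥P ⧸ Cfsg.pCore p ↥P) := by
    refine Lib.Cores.le_pCore ?_ ?_
    · refine ⟨fun x hx g => ?_⟩
      have hxc : x ∈ center (↥P ⧸ Cfsg.pCore p ↥P) := (zpowers_le.2 hzcen) hx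
      have h2 : g * x * g⁻¹ = x := by rw [mem_center_iff.1 hxc g, mul_inv_cancel_right]
      rw [h2]; exact hx
    · have h2 : (zpowers z).subgroupOf P = zpowers zP := by
        ext x
        rw [mem_subgroupOf, mem_zpowers_iff, mem_zpowers_iff]
        constructor
        · rintro ⟨n, hn⟩; exact ⟨n, Subtype.ext (by simpa using hn)⟩
        · rintro ⟨n, hn⟩; exact ⟨n, by simpa using congrArg Subtype.val hn⟩
      have h3 : IsPGroup p (zpowers zP) := by
        rw [← h2]; exact hzp.comap_of_injective P.subtype P.subtype_injective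
      have h4 := h3.map π
      rwa [MonoidHom.map_zpowers] at h4
  rw [Lib.Cores.pCore_quotient_pCore, le_bot_iff, zpowers_eq_bot] at h1
  have h2 : zP ∈ Cfsg.pCore p ↥P := by
    rw [← QuotientGroup.ker_mk' (Cfsg.pCore p ↥P), MonoidHom.mem_ker]; exact h1
  exact ⟨zP, h2, rfl⟩

end Cfsg.Agent.H273.CentralRankOne
end

-- part: H273/VecSL2
section
/-!
# `SL₂(q)` as a group of Lie rank one

`VecData p F act I` for `SL₂(F)` acting on the nonzero vectors, `|F| = p ^ a`, `p ≥ 5`.
-/

set_option autoImplicit false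
set_option linter.unusedSectionVars false

namespace Cfsg.Agent.H273.VecSL2

open Matrix

variable {F : Type*} [Field F]

/-- the action on column vectors -/
def act (g : SpecialLinearGroup (Fin 2) F) (v : Fin 2 → F) : Fin 2 → F := (g : Matrix (Fin 2) (Fin 2) F) *ᵥ v

theorem act_zero_apply (g : SpecialLinearGroup (Fin 2) F) (v : Fin 2 → F) : act g v 0 = g 0 0 * v 0 + g 0 1 * v 1 := by
  unfold act
  rw [mulVec, dotProduct, Fin.sum_univ_two]

theorem act_one_apply (g : SpecialLinearGroup (Fin 2) F) (v : Fin 2 → F) : act g v 1 = g 1 0 * v 0 + g 1 1 * v 1 := by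
  unfold act
  rw [mulVec, dotProduct, Fin.sum_univ_two]

theorem ext2 {u v : Fin 2 → F} (h0 : u 0 = v 0) (h1 : u 1 = v 1) : u = v := by
  funext i
  fin_cases i
  · exact h0
  · exact h1

theorem act_one (v : Fin 2 → F) : act (1 : SpecialLinearGroup (Fin 2) F) v = v := one_mulVec v

theorem act_mul (g h : SpecialLinearGroup (Fin 2) F) (v : Fin 2 → F) : act (g * h) v = act g (act h v) := by
  have h1 : ((g * h : SpecialLinearGroup (Fin 2) F) : Matrix (Fin 2) (Fin 2) F) =
    (g : Matrix (Fin 2) (Fin 2) F) * (h : Matrix (Fin 2) (Fin 2) F) := Matrix.SpecialLinearGroup.coe_mul g h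
  show ((g * h : SpecialLinearGroup (Fin 2) F) : Matrix (Fin 2) (Fin 2) F) *ᵥ v =
    (g : Matrix (Fin 2) (Fin 2) F) *ᵥ ((h : Matrix (Fin 2) (Fin 2) F) *ᵥ v)
  rw [h1, mulVec_mulVec]

theorem act_smul (g : SpecialLinearGroup (Fin 2) F) (c : F) (v : Fin 2 → F) : act g (c • v) = c • act g v :=
  mulVec_smul _ _ _

theorem act_inv_act (g : SpecialLinearGroup (Fin 2) F) (v : Fin 2 → F) : act g⁻¹ (act g v) = v := by
  rw [← act_mul, inv_mul_cancel, act_one]

theorem ext_act {g h : SpecialLinearGroup (Fin 2) F} (H : ∀ v, act g v = act h v) : g = h := by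
  apply Subtype.ext
  apply Matrix.ext_of_mulVec_single
  intro i
  exact H _

/-- the determinant form -/
def om (u v : Fin 2 → F) : F := u 0 * v 1 - u 1 * v 0

theorem det_eq (g : SpecialLinearGroup (Fin 2) F) : g 0 0 * g 1 1 - g 0 1 * g 1 0 = 1 := by
  have := g.2
  rwa [det_fin_two] at this

theorem om_act (g : SpecialLinearGroup (Fin 2) F) (u v : Fin 2 → F) : om (act g u) (act g v) = om u v := by
  unfold om
  rw [act_zero_apply, act_one_apply, act_zero_apply, act_one_apply]
  linear_combination (u 0 * v 1 - u 1 * v 0) * det_eq g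

theorem om_smul_left (c : F) (u v : Fin 2 → F) : om (c • u) v = c * om u v := by
  unfold om
  simp only [Pi.smul_apply, smul_eq_mul]; ring

theorem om_smul_right (c : F) (u v : Fin 2 → F) : om u (c • v) = c * om u v := by
  unfold om
  simp only [Pi.smul_apply, smul_eq_mul]; ring

theorem om_self (u : Fin 2 → F) : om u u = 0 := by
  unfold om; ring

theorem om_sub_right (u v w : Fin 2 → F) : om u (v - w) = om u v - om u w := by
  unfold om
  simp only [Pi.sub_apply]; ring

theorem parallel {u v : Fin 2 → F} (hu : u ≠ 0) (h : om u v = 0) : ∃ c : F, v = c • u := by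
  unfold om at h
  by_cases h0 : u 0 = 0
  · have h1 : u 1 ≠ 0 := fun h1 => hu (ext2 h0 h1)
    refine ⟨v 1 / u 1, ext2 ?_ ?_⟩
    · rw [Pi.smul_apply, smul_eq_mul, h0, mul_zero]
      rw [h0, zero_mul, zero_sub, neg_eq_zero] at h
      exact (mul_eq_zero.1 h).resolve_left h1
    · rw [Pi.smul_apply, smul_eq_mul, div_mul_cancel₀ _ h1]
  · refine ⟨v 0 / u 0, ext2 ?_ ?_⟩
    · rw [Pi.smul_apply, smul_eq_mul, div_mul_cancel₀ _ h0]
    · rw [Pi.smul_apply, smul_eq_mul, div_mul_eq_mul_div, eq_div_iff h0]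
      linear_combination h

/-- the transvection `x ↦ x + c ω(u, x) u` -/
def tv (u : Fin 2 → F) (c : F) : SpecialLinearGroup (Fin 2) F :=
  ⟨!![1 - c * u 0 * u 1, c * u 0 * u 0; -(c * u 1 * u 1), 1 + c * u 0 * u 1], by
    rw [det_fin_two_of]; ring⟩

theorem act_tv (u : Fin 2 → F) (c : F) (x : Fin 2 → F) : act (tv u c) x = x + (c * om u x) • u := by
  apply ext2
  · rw [act_zero_apply]
    show (1 - c * u 0 * u 1) * x 0 + (c * u 0 * u 0) * x 1 = x 0 + (c * (u 0 * x 1 - u 1 * x 0)) * u 0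
    ring
  · rw [act_one_apply]
    show (-(c * u 1 * u 1)) * x 0 + (1 + c * u 0 * u 1) * x 1 = x 1 + (c * (u 0 * x 1 - u 1 * x 0)) * u 1
    ring

theorem exists_torus {u v : Fin 2 → F} (huv : om u v = 1) {l : F} (hl : l ≠ 0) :
    ∃ t : SpecialLinearGroup (Fin 2) F, act t u = l • u ∧ act t v = l⁻¹ • v := by
  let h : SpecialLinearGroup (Fin 2) F := ⟨!![u 0, v 0; u 1, v 1], by
    rw [det_fin_two_of]; unfold om at huv; linear_combination huv⟩
  let d : SpecialLinearGroup (Fin 2) F := ⟨!![l, 0; 0, l⁻¹], by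
    rw [det_fin_two_of, mul_inv_cancel₀ hl]; ring⟩
  have h1 : act h ![1, 0] = u := by
    apply ext2
    · rw [act_zero_apply]
      show u 0 * 1 + v 0 * 0 = u 0
      ring
    · rw [act_one_apply]
      show u 1 * 1 + v 1 * 0 = u 1
      ring
  have h2 : act h ![0, 1] = v := by
    apply ext2
    · rw [act_zero_apply]
      show u 0 * 0 + v 0 * 1 = v 0
      ring
    · rw [act_one_apply]
      show u 1 * 0 + v 1 * 1 = v 1
      ring
  have h3 : act d ![1, 0] = l • ![1, 0] := by
    apply ext2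
    · rw [act_zero_apply]
      show l * 1 + 0 * 0 = l * 1
      ring
    · rw [act_one_apply]
      show 0 * 1 + l⁻¹ * 0 = l * 0
      ring
  have h4 : act d ![0, 1] = l⁻¹ • ![0, 1] := by
    apply ext2
    · rw [act_zero_apply]
      show l * 0 + 0 * 1 = l⁻¹ * 0
      ring
    · rw [act_one_apply]
      show 0 * 0 + l⁻¹ * 1 = l⁻¹ * 1
      ring
  refine ⟨h * d * h⁻¹, ?_, ?_⟩
  · rw [act_mul, act_mul]
    conv_lhs => rw [← h1]
    rw [act_inv_act, h3, act_smul, h1]
  · rw [act_mul, act_mul]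
    conv_lhs => rw [← h2]
    rw [act_inv_act, h4, act_smul, h2]

theorem exists_partner {u : Fin 2 → F} (hu : u ≠ 0) : ∃ v : Fin 2 → F, om u v = 1 := by
  by_cases h0 : u 0 = 0
  · have h1 : u 1 ≠ 0 := fun h1 => hu (ext2 h0 h1)
    refine ⟨![-(u 1)⁻¹, 0], ?_⟩
    show u 0 * 0 - u 1 * (-(u 1)⁻¹) = 1
    rw [mul_neg, mul_inv_cancel₀ h1]; ring
  · refine ⟨![0, (u 0)⁻¹], ?_⟩
    show u 0 * (u 0)⁻¹ - u 1 * 0 = 1
    rw [mul_inv_cancel₀ h0]; ring

theorem vecData [Fintype F] {p a : ℕ} [hpf : Fact p.Prime] (hp : 5 ≤ p) (ha : 1 ≤ a) (hF : Fintype.card F = p ^ a) :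
    VecData p F (fun (g : SpecialLinearGroup (Fin 2) F) (v : Fin 2 → F) => act g v) {u | u ≠ 0} := by
  classical
  have : CharP F p := charP_of_card_eq_prime_pow hF
  have hcard : 5 ≤ Fintype.card F := by
    rw [hF]; exact hp.trans (Nat.le_self_pow (by omega) p)
  obtain ⟨l, hl0, hl2⟩ : ∃ l : F, l ≠ 0 ∧ l ^ 2 ≠ 1 := by
    by_contra hcon
    push Not at hcon
    have h1 : (Finset.univ : Finset F) ⊆ {0, 1, -1} := by
      intro x _
      by_cases hx : x = 0
      · simp [hx]
      · have h2 := hcon x hx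
        have h3 : (x - 1) * (x + 1) = 0 := by linear_combination h2
        rcases mul_eq_zero.1 h3 with h4 | h4
        · simp [sub_eq_zero.1 h4]
        · simp [eq_neg_of_add_eq_zero_left h4]
    have h2 := Finset.card_le_card h1
    rw [Finset.card_univ] at h2
    have h3 := Finset.card_le_three (a := (0 : F)) (b := 1) (c := -1)
    omega
  refine ⟨act_one, act_mul, act_smul, ?_, fun u hu => hu, ?_, ?_, ?_, ?_, ?_, ?_, ?_, ?_, ?_⟩
  · intro x k hk
    have h1 : (x - 1) ^ p ^ k = 0 := by rw [sub_pow_char_pow, hk, one_pow, sub_self]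
    exact sub_eq_zero.1 (pow_eq_zero_iff (pow_ne_zero k hpf.out.ne_zero) |>.1 h1)
  · refine ⟨![1, 0], fun h => ?_⟩
    have := congrFun h 0
    exact one_ne_zero this
  · intro g u hu h
    apply hu
    have h1 := act_inv_act g u
    rw [← h1]
    have h2 : act g u = 0 := h
    rw [h2]
    exact mulVec_zero _
  · intro u hu g hg
    have hg' : act g u = u := hg
    refine ⟨1, ?_⟩
    have hN : ((g : Matrix (Fin 2) (Fin 2) F) - 1) ^ 2 = 0 := by
      have h1 : ∀ x, ∃ c : F, ((g : Matrix (Fin 2) (Fin 2) F) - 1) *ᵥ x = c • u := by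
        intro x
        apply parallel hu
        rw [sub_mulVec, one_mulVec, om_sub_right]
        have h2 : om u (act g x) = om u x := by
          conv_lhs => rw [← hg']
          exact om_act g u x
        exact sub_eq_zero.2 h2
      have h2 : ((g : Matrix (Fin 2) (Fin 2) F) - 1) *ᵥ u = 0 := by
        rw [sub_mulVec, one_mulVec]
        exact sub_eq_zero.2 hg'
      apply Matrix.ext_of_mulVec_single
      intro i
      obtain ⟨c, hc⟩ := h1 (Pi.single i 1)
      rw [pow_two, ← mulVec_mulVec, hc, mulVec_smul, h2, smul_zero, zero_mulVec]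
    have h1 : ((g : Matrix (Fin 2) (Fin 2) F) - 1) ^ p = (g : Matrix (Fin 2) (Fin 2) F) ^ p - 1 := by
      rw [sub_pow_char_of_commute p (Commute.one_right _), one_pow]
    have h2 : ((g : Matrix (Fin 2) (Fin 2) F) - 1) ^ p = 0 := pow_eq_zero_of_le (by omega) hN
    rw [h2] at h1
    rw [pow_one]
    have h3 : ((g ^ p : SpecialLinearGroup (Fin 2) F) : Matrix (Fin 2) (Fin 2) F) = 1 := by
      rw [Matrix.SpecialLinearGroup.coe_pow]
      exact sub_eq_zero.1 h1.symm
    exact Subtype.ext h3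
  · intro u hu v hv h
    by_contra hne
    have h1 : om u v ≠ 0 := fun h1 => hne (parallel hu h1)
    have h2 : act (tv u 1) v = v := h (tv u 1) (by
      show act (tv u 1) u = u
      rw [act_tv, om_self]; simp)
    rw [act_tv, one_mul, add_eq_left, smul_eq_zero] at h2
    exact h2.elim h1 hu
  · intro u hu v hv w hw hvu hwu
    have h1 : om u v ≠ 0 := fun h1 => hvu (parallel hu h1)
    have h2 : om u w ≠ 0 := fun h1 => hwu (parallel hu h1)
    obtain ⟨b, hb⟩ := parallel (u := u) (v := (om u v / om u w) • w - v) hu (by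
      rw [om_sub_right, om_smul_right, div_mul_cancel₀ _ h2, sub_self])
    refine ⟨tv u (b / om u v), ?_, om u v / om u w, div_ne_zero h1 h2, ?_⟩
    · show act (tv u (b / om u v)) u = u
      rw [act_tv, om_self]; simp
    · show act (tv u (b / om u v)) v = _
      rw [act_tv, div_mul_cancel₀ _ h1, ← hb]
      abel
  · intro u hu
    obtain ⟨v, huv⟩ := exists_partner hu
    have hv : v ≠ 0 := by
      rintro rfl
      unfold om at huv
      simp at huv
    obtain ⟨t, ht1, ht2⟩ := exists_torus huv hl0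
    refine ⟨v, hv, ?_, t, ⟨l, ht1⟩, ⟨l⁻¹, ht2⟩, ?_⟩
    · rintro ⟨c, rfl⟩
      rw [om_smul_right, om_self, mul_zero] at huv
      exact zero_ne_one huv
    · rintro w hw ⟨c, hc⟩
      have hc' : act t w = c • w := hc
      have e1 : l * c * om u w = om u w := by
        have h3 := om_act t u w
        rw [ht1, hc', om_smul_left, om_smul_right, ← mul_assoc] at h3
        exact h3
      have e2 : l⁻¹ * c * om v w = om v w := by
        have h3 := om_act t v w
        rw [ht2, hc', om_smul_left, om_smul_right, ← mul_assoc] at h3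
        exact h3
      by_cases h3 : om u w = 0
      · exact Or.inl (parallel hu h3)
      by_cases h4 : om v w = 0
      · exact Or.inr (parallel hv h4)
      exfalso
      have e3 : l * c = 1 := mul_right_cancel₀ h3 (by rw [e1, one_mul])
      have e4 : l⁻¹ * c = 1 := mul_right_cancel₀ h4 (by rw [e2, one_mul])
      rw [inv_mul_eq_one₀ hl0] at e4
      apply hl2
      rw [pow_two]
      conv_lhs => rw [e4]
      rw [← e4]; rw [← e4] at e3; exact e3
  · intro g hg
    have h01 : (![1, 0] : Fin 2 → F) ≠ 0 := fun h => one_ne_zero (congrFun h 0)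
    have h10 : (![0, 1] : Fin 2 → F) ≠ 0 := fun h => one_ne_zero (congrFun h 1)
    have h11 : (![1, 1] : Fin 2 → F) ≠ 0 := fun h => one_ne_zero (congrFun h 1)
    obtain ⟨c1, hc1⟩ := hg _ h01
    obtain ⟨c2, hc2⟩ := hg _ h10
    obtain ⟨c3, hc3⟩ := hg _ h11
    have a1 : g 1 0 = 0 := by
      have h := congrFun hc1 1
      have h' : act g ![1, 0] 1 = c1 * 0 := h
      rw [act_one_apply] at h'
      have h'' : g 1 0 * 1 + g 1 1 * 0 = c1 * 0 := h'
      linear_combination h''
    have a2 : g 0 1 = 0 := by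
      have h := congrFun hc2 0
      have h' : act g ![0, 1] 0 = c2 * 0 := h
      rw [act_zero_apply] at h'
      have h'' : g 0 0 * 0 + g 0 1 * 1 = c2 * 0 := h'
      linear_combination h''
    have a3 : g 0 0 = g 1 1 := by
      have h' : act g ![1, 1] 0 = c3 * 1 := congrFun hc3 0
      have k' : act g ![1, 1] 1 = c3 * 1 := congrFun hc3 1
      rw [act_zero_apply] at h'
      rw [act_one_apply] at k'
      have h'' : g 0 0 * 1 + g 0 1 * 1 = c3 * 1 := h'
      have k'' : g 1 0 * 1 + g 1 1 * 1 = c3 * 1 := k'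
      linear_combination h'' - k'' - a2 + a1
    have hs : ∀ v, act g v = (g 0 0) • v := by
      intro v
      apply ext2
      · rw [act_zero_apply, a2, Pi.smul_apply, smul_eq_mul]; ring
      · rw [act_one_apply, a1, Pi.smul_apply, smul_eq_mul, a3]; ring
    rw [Subgroup.mem_center_iff]
    intro x
    apply ext_act
    intro v
    rw [act_mul, act_mul, hs, hs, act_smul]
  · intro g hg
    have h01 : (![1, 0] : Fin 2 → F) ≠ 0 := fun h => one_ne_zero (congrFun h 0)
    have h10 : (![0, 1] : Fin 2 → F) ≠ 0 := fun h => one_ne_zero (congrFun h 1)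
    have e1 : act g ![1, 0] = ![1, 0] := hg _ h01
    have e2 : act g ![0, 1] = ![0, 1] := hg _ h10
    have hd : ∀ v : Fin 2 → F, v = v 0 • ![1, 0] + v 1 • ![0, 1] := by
      intro v
      apply ext2
      · show v 0 = v 0 * 1 + v 1 * 0
        ring
      · show v 1 = v 0 * 0 + v 1 * 1
        ring
    apply ext_act
    intro v
    rw [act_one]
    have h3 : act g v = v 0 • act g ![1, 0] + v 1 • act g ![0, 1] := by
      conv_lhs => rw [hd v]
      unfold act
      rw [mulVec_add, mulVec_smul, mulVec_smul]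
    rw [h3, e1, e2]
    exact (hd v).symm
  · rw [← commutator_def]
    exact SL2.commutator_eq_top hl0 hl2

end Cfsg.Agent.H273.VecSL2
end

-- part: S3047
section
set_option autoImplicit false
open Cfsg

namespace Cfsg.Agent.S3047

/-- Let p ≥ 5 be a prime, G a finite group all of whose composition factors are known simple groups, S a Sylow p-subgroup and P a p-minimal subgroup of G containing S such that O^p(P/O_p(P)) is isomorphic to SL₂(pᵃ), PSL₂(pᵃ), SU₃(pᵃ) or PSU₃(pᵃ) for some a ≥ 1. Let L be the subgroup generated by N_G(S) and the p-minimal subgroups of G containing S other than P. Then either O^p(P) is normal in G, or every p-element of the centre of L lies in O_p(P). -/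
theorem result {G : Type*} [Group G] [Finite G] {p : ℕ} [Fact p.Prime] (hp : 5 ≤ p) (hK : Cfsg.IsCompositionKGroup G)
    (S : Sylow p G) (P : Subgroup G) (hSP : (S : Subgroup G) ≤ P) (hPmin : Cfsg.IsPMinimal p ↥P) [hn : (Cfsg.pCore p ↥P).Normal]
    (hrk1 : ∃ (F : Type) (_ : Field F) (_ : Fintype F) (a : ℕ), 1 ≤ a ∧
      ((Fintype.card F = p ^ a ∧ (Nonempty (↥(Cfsg.pResidual p (↥P ⧸ Cfsg.pCore p ↥P)) ≃* Matrix.SpecialLinearGroup (Fin 2) F) ∨
                                  Nonempty (↥(Cfsg.pResidual p (↥P ⧸ Cfsg.pCore p ↥P)) ≃* Matrix.ProjectiveSpecialLinearGroup (Fin 2) F))) ∨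
       (Fintype.card F = p ^ (2 * a) ∧ (Nonempty (↥(Cfsg.pResidual p (↥P ⧸ Cfsg.pCore p ↥P)) ≃* ↥(Cfsg.SU 3 F (p ^ a))) ∨
                                        Nonempty (↥(Cfsg.pResidual p (↥P ⧸ Cfsg.pCore p ↥P)) ≃* Cfsg.PSU 3 F (p ^ a))))))
    (L : Subgroup G)
    (hL : L = Subgroup.normalizer ((S : Subgroup G) : Set G) ⊔ ⨆ P' : {P' : Subgroup G // (S : Subgroup G) ≤ P' ∧ Cfsg.IsPMinimal p ↥P' ∧ P' ≠ P}, (P' : Subgroup G)) :
    ((Cfsg.pResidual p ↥P).map P.subtype).Normal ∨
    ∀ z ∈ L ⊓ Subgroup.centralizer (L : Set G), (∃ k : ℕ, orderOf z = p ^ k) → z ∈ (Cfsg.pCore p ↥P).map P.subtype := by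
  subst hL
  right
  rintro z hz ⟨k, hk⟩
  refine Cfsg.Agent.H273.CentralRankOne.main S hSP ?_ (Subgroup.mem_inf.1 hz).2 hk
  obtain ⟨F, _, _, a, ha, h | h⟩ := hrk1
  · obtain ⟨hF, he⟩ := h
    rcases he with ⟨⟨e⟩⟩ | ⟨⟨e⟩⟩
    · exact (Cfsg.Agent.H273.VecSL2.vecData hp ha hF).rankOneSyl.of_equiv e.symm
    · haveI : Finite (Matrix.ProjectiveSpecialLinearGroup (Fin 2) F) := Finite.of_equiv _ e.toEquiv
      exact (Cfsg.Agent.H273.VecSL2.vecData hp ha hF).rankOneSyl_quot.of_equiv e.symm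
  · obtain ⟨hF, he⟩ := h
    rcases he with ⟨⟨e⟩⟩ | ⟨⟨e⟩⟩
    · exact (Cfsg.Agent.H273.VecSU3.vecData hp hF).rankOneSyl.of_equiv e.symm
    · haveI : Finite (Cfsg.PSU 3 F (p ^ a)) := Finite.of_equiv _ e.toEquiv
      exact (Cfsg.Agent.H273.VecSU3.vecData hp hF).rankOneSyl_quot.of_equiv e.symm

end Cfsg.Agent.S3047
end
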