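import Cfsg.Statements.S3053
import Mathlib
import Cfsg.Agent.Transfer.CentralComm
set_option linter.all false

set_option autoImplicit false
open Cfsg

namespace Cfsg.Agent.S3053

open Subgroup
open scoped commutatorElement Pointwise

/-- The basic structure of an extraspecial group of order `p³` and exponent `p²`, `p` odd. -/
theorem struct {R : Type*} [Group R] [Finite R] {p : ℕ} [hp1 : Fact p.Prime] (hp : p ≠ 2)
    (hE : Cfsg.IsExtraspecial p R) (hcard : Nat.card R = p ^ 3) (hexp : Monoid.exponent R = p ^ 2) :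
    (∀ a b : R, ⁅a, b⁆ ∈ center R) ∧
    ∃ Om : Subgroup R, (∀ a, a ∈ Om ↔ a ^ p = 1) ∧ Nat.card Om = p ^ 2 ∧
      (∀ a ∈ Om, ∀ b ∈ Om, a * b = b * a) ∧ (∀ a ∈ center R, a ^ p = 1) := by
  obtain ⟨⟨hpg, hfr, hcom⟩, hZ⟩ := hE
  have hc : ∀ a b : R, ⁅a, b⁆ ∈ center R := by
    intro a b
    rw [← hcom]
    exact commutator_mem_commutator (mem_top a) (mem_top b)
  have hzp : ∀ a ∈ center R, a ^ p = 1 := by
    intro a ha
    have h1 : orderOf (⟨a, ha⟩ : center R) ∣ Nat.card (center R) := orderOf_dvd_natCard _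
    rw [hZ] at h1
    have h2 := orderOf_dvd_iff_pow_eq_one.mp h1
    simpa using congrArg Subtype.val h2
  have hpc : ∀ a : R, a ^ p ∈ center R := by
    intro a
    rw [mem_center_iff]
    intro b
    have h1 : ⁅a ^ p, b⁆ = 1 := by
      rw [Transfer.CentralComm.comm_pow_left hc]
      exact hzp _ (hc _ _)
    rw [commutatorElement_eq_one_iff_mul_comm] at h1
    exact h1.symm
  have hmul : ∀ a b : R, (a * b) ^ p = a ^ p * b ^ p := fun a b =>
    Transfer.CentralComm.mul_pow_prime hc hp1.out hp (hzp _ (hc _ _))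
  let f : R →* center R :=
    { toFun := fun a => ⟨a ^ p, hpc a⟩
      map_one' := by ext; simp
      map_mul' := by intro a b; ext; simpa using hmul a b }
  have hf : ∀ a, a ∈ f.ker ↔ a ^ p = 1 := by
    intro a
    rw [MonoidHom.mem_ker]
    constructor
    · intro h
      simpa [f] using congrArg Subtype.val h
    · intro h
      ext
      simpa [f] using h
  have hfr : f.range = ⊤ := by
    have hne : f.range ≠ ⊥ := by
      intro h0
      have h1 : ∀ a : R, a ^ p = 1 := by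
        intro a
        rw [← hf a, MonoidHom.mem_ker]
        have : f a ∈ f.range := ⟨a, rfl⟩
        rw [h0, mem_bot] at this
        exact this
      have h2 : Monoid.exponent R ∣ p := Monoid.exponent_dvd_of_forall_pow_eq_one h1
      rw [hexp] at h2
      have h3 := Nat.le_of_dvd hp1.out.pos h2
      have h4 := hp1.out.one_lt
      nlinarith
    have : Fact (Nat.card (center R)).Prime := by rw [hZ]; exact hp1
    rcases (f.range).eq_bot_or_eq_top_of_prime_card with h | h
    · exact absurd h hne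
    · exact h
  have hker : Nat.card f.ker = p ^ 2 := by
    have h1 : Nat.card f.ker * f.ker.index = Nat.card R := f.ker.card_mul_index
    rw [index_ker, hfr, hcard] at h1
    have h2 : Nat.card (⊤ : Subgroup (center R)) = p := by rw [card_top, hZ]
    rw [h2] at h1
    have h3 : p ^ 3 = p ^ 2 * p := by ring
    rw [h3] at h1
    exact Nat.eq_of_mul_eq_mul_right hp1.out.pos h1
  refine ⟨hc, f.ker, hf, hker, ?_, hzp⟩
  intro a ha b hb
  have := (IsPGroup.isMulCommutative_of_card_eq_prime_sq hker).is_comm.comm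
    (⟨a, ha⟩ : f.ker) ⟨b, hb⟩
  simpa using congrArg Subtype.val this

/-- If the `p`-subgroup `A` centralizes the conjugate `y = g x g⁻¹` of an element `x` centralized by a Sylow
`p`-subgroup `P`, then some `h` conjugates `x` to `y` and satisfies `h⁻¹ A h ≤ P`. -/
theorem exists_conj {G : Type*} [Group G] [Finite G] {p : ℕ} [Fact p.Prime] (P : Sylow p G) {x : G}
    (hx : ∀ a ∈ (P : Subgroup G), a * x = x * a) (g : G) (A : Subgroup G) (hA : IsPGroup p A)
    (hA' : ∀ a ∈ A, a * (g * x * g⁻¹) = (g * x * g⁻¹) * a) :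
    ∃ h : G, h * x * h⁻¹ = g * x * g⁻¹ ∧ ∀ a ∈ A, h⁻¹ * a * h ∈ (P : Subgroup G) := by
  set y := g * x * g⁻¹ with hy
  let D : Subgroup G := centralizer {y}
  have hAD : A ≤ D := by
    intro a ha
    rw [mem_centralizer_singleton_iff]
    exact (hA' a ha)
  have hPD : ((g • P : Sylow p G) : Subgroup G) ≤ D := by
    intro a ha
    rw [Sylow.coe_subgroup_smul, Subgroup.mem_pointwise_smul_iff_inv_smul_mem] at ha
    have h1 := hx _ ha
    simp only [← map_inv, MulAut.smul_def, MulAut.conj_apply, inv_inv] at h1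
    rw [mem_centralizer_singleton_iff, hy]
    calc a * (g * x * g⁻¹) = g * (g⁻¹ * a * g * x) * g⁻¹ := by group
      _ = g * (x * (g⁻¹ * a * g)) * g⁻¹ := by rw [h1]
      _ = _ := by group
  let P1 : Sylow p D := (g • P : Sylow p G).subtype hPD
  obtain ⟨Q, hQ⟩ := (hA.comap_subtype (K := D)).exists_le_sylow
  obtain ⟨d, hd⟩ := MulAction.exists_smul_eq D P1 Q
  refine ⟨(d : G) * g, ?_, ?_⟩
  · have h1 : (d : G) * y = y * d := mem_centralizer_singleton_iff.mp d.2
    calc (d : G) * g * x * ((d : G) * g)⁻¹ = (d : G) * y * (d : G)⁻¹ := by rw [hy]; group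
      _ = y := by rw [h1]; group
  · intro a ha
    have h1 : (⟨a, hAD ha⟩ : D) ∈ (Q : Subgroup D) := hQ (mem_subgroupOf.mpr ha)
    rw [← hd, Sylow.coe_subgroup_smul, Subgroup.mem_pointwise_smul_iff_inv_smul_mem] at h1
    have h2 : ((d : G))⁻¹ * a * d ∈ ((g • P : Sylow p G) : Subgroup G) := by
      have h3 : (((MulAut.conj d)⁻¹ • (⟨a, hAD ha⟩ : D) : D) : G) ∈ ((g • P : Sylow p G) : Subgroup G) := h1
      simpa [← map_inv, MulAut.smul_def] using h3
    rw [Sylow.coe_subgroup_smul, Subgroup.mem_pointwise_smul_iff_inv_smul_mem] at h2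
    simp only [← map_inv, MulAut.smul_def, MulAut.conj_apply, inv_inv] at h2
    have h4 : ((d : G) * g)⁻¹ * a * ((d : G) * g) = g⁻¹ * ((d : G)⁻¹ * a * d) * g := by group
    rw [h4]
    exact h2


theorem conj_inv_mem {G : Type*} [Group G] [Finite G] {E : Subgroup G} {g : G}
    (h : ∀ e ∈ E, g * e * g⁻¹ ∈ E) : ∀ e ∈ E, g⁻¹ * e * g ∈ E := by
  have h1 : E.map (MulAut.conj g).toMonoidHom ≤ E := by
    rintro _ ⟨e, he, rfl⟩
    exact h e he
  have h2 : E.map (MulAut.conj g).toMonoidHom = E := by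
    apply Subgroup.eq_of_le_of_card_ge h1
    rw [Subgroup.card_map_of_injective (MulAut.conj g).injective]
  intro e he
  rw [← h2] at he
  obtain ⟨e', he', rfl⟩ := he
  have : g⁻¹ * (MulAut.conj g).toMonoidHom e' * g = e' := by
    simp only [MulEquiv.toMonoidHom_eq_coe, MonoidHom.coe_coe, MulAut.conj_apply]
    group
  rw [this]
  exact he'

/-- No element `t` inverts the subgroup `E` of elements of order dividing `p` of `P`, if `E` is abelian,
self-centralizing in `P`, and some element of `P \ E` has `p`-th power in `E`. -/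
theorem main {G : Type*} [Group G] [Finite G] {p : ℕ} [hp1 : Fact p.Prime] (hp : p ≠ 2) (P : Sylow p G)
    (E : Subgroup G) (hEP : E ≤ P) (hE : ∀ a ∈ (P : Subgroup G), a ∈ E ↔ a ^ p = 1)
    (hEab : ∀ a ∈ E, ∀ b ∈ E, a * b = b * a)
    (u t : G) (hu : u ∈ (P : Subgroup G)) (huE : u ∉ E) (hup : ∀ e ∈ E, (u * e) ^ p ∈ E)
    (hcP : ∀ a ∈ (P : Subgroup G), (∀ b ∈ E, a * b = b * a) → a ∈ E)
    (hinv : ∀ e ∈ E, t * e * t⁻¹ = e⁻¹)
    (hun : ∀ e ∈ E, u * e * u⁻¹ ∈ E) :
    False := by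
  classical
  -- the centralizer of `E`
  let C : Subgroup G := centralizer (E : Set G)
  have hmemC : ∀ a, a ∈ C ↔ ∀ e ∈ E, a * e = e * a := by
    intro a
    rw [mem_centralizer_iff]
    exact ⟨fun h e he => (h e he).symm, fun h e he => (h e he).symm⟩
  have hEC : E ≤ C := fun a ha => (hmemC a).mpr fun e he => hEab a ha e he
  have hEp : IsPGroup p E := P.2.to_le hEP
  -- `E` is a Sylow subgroup of `C`
  obtain ⟨Q, hQ⟩ := (hEp.comap_subtype (K := C)).exists_le_sylow
  have hQE : ∀ a : C, a ∈ (Q : Subgroup C) → (a : G) ∈ E := by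
    have hQ1 : IsPGroup p ((Q : Subgroup C).map C.subtype) := Q.2.map _
    obtain ⟨R, hR⟩ := hQ1.exists_le_sylow
    obtain ⟨g, hg⟩ := MulAction.exists_smul_eq G R P
    have hRP : ∀ a ∈ (R : Subgroup G), g * a * g⁻¹ ∈ (P : Subgroup G) := by
      intro a ha
      rw [← hg, Sylow.coe_subgroup_smul]
      have := Subgroup.smul_mem_pointwise_smul a (MulAut.conj g) (R : Subgroup G) ha
      simpa [MulAut.smul_def] using this
    have hgE : ∀ e ∈ E, g * e * g⁻¹ ∈ E := by
      intro e he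
      have h1 : (⟨e, hEC he⟩ : C) ∈ (Q : Subgroup C) := hQ (mem_subgroupOf.mpr he)
      have h2 : e ∈ (R : Subgroup G) := hR ⟨⟨e, hEC he⟩, h1, rfl⟩
      rw [hE _ (hRP e h2), conj_pow, (hE e (hEP he)).mp he]
      group
    have hgE' := conj_inv_mem hgE
    intro a ha
    have h2 : (a : G) ∈ (R : Subgroup G) := hR ⟨a, ha, rfl⟩
    have h3 : g * a * g⁻¹ ∈ E := by
      apply hcP _ (hRP a h2)
      intro b hb
      have h4 := (hmemC a).mp a.2 _ (hgE' b hb)
      calc g * a * g⁻¹ * b = g * (a * (g⁻¹ * b * g)) * g⁻¹ := by group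
        _ = g * ((g⁻¹ * b * g) * a) * g⁻¹ := by rw [h4]
        _ = b * (g * a * g⁻¹) := by group
    have h5 := hgE' _ h3
    simpa [mul_assoc] using h5
  have hQn : normalizer ((Q : Subgroup C) : Set C) ≤ centralizer ((Q : Subgroup C) : Set C) := by
    intro a _
    rw [mem_centralizer_iff]
    intro q hq
    have := (hmemC a).mp a.2 q (hQE q hq)
    ext
    exact this.symm
  have hcompl := MonoidHom.ker_transferSylow_isComplement' Q hQn
  have hndvd := MonoidHom.not_dvd_card_ker_transferSylow Q hQn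
  set K : Subgroup C := (MonoidHom.transferSylow Q hQn).ker with hK
  have hKmem : ∀ a : C, a ∈ K ↔ ¬ p ∣ orderOf a := by
    intro a
    constructor
    · intro ha hd
      exact hndvd (hd.trans (Subgroup.orderOf_dvd_natCard K ha))
    · intro ha
      rw [hK, MonoidHom.mem_ker, ← orderOf_eq_one_iff]
      have h1 : orderOf (MonoidHom.transferSylow Q hQn a) ∣ orderOf a := orderOf_map_dvd _ a
      obtain ⟨k, hk⟩ := (IsPGroup.iff_orderOf.mp Q.2) (MonoidHom.transferSylow Q hQn a)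
      rw [hk] at h1 ⊢
      rcases Nat.eq_zero_or_pos k with h0 | h0
      · rw [h0, pow_zero]
      · exact absurd ((dvd_pow_self p h0.ne').trans h1) ha
  -- the same subgroup in `G`
  let KG : Subgroup G := K.map C.subtype
  have hKG : ∀ a, a ∈ KG ↔ a ∈ C ∧ ¬ p ∣ orderOf a := by
    intro a
    constructor
    · rintro ⟨b, hb, rfl⟩
      refine ⟨b.2, ?_⟩
      have := (hKmem b).mp hb
      simpa using this
    · rintro ⟨h1, h2⟩
      refine ⟨⟨a, h1⟩, (hKmem _).mpr ?_, rfl⟩
      simpa using h2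
  have hnC : ∀ g : G, (∀ e ∈ E, g * e * g⁻¹ ∈ E) → ∀ a ∈ C, g * a * g⁻¹ ∈ C := by
    intro g hg a ha
    rw [hmemC] at ha ⊢
    intro e he
    have h4 := ha _ (conj_inv_mem hg e he)
    calc g * a * g⁻¹ * e = g * (a * (g⁻¹ * e * g)) * g⁻¹ := by group
      _ = g * ((g⁻¹ * e * g) * a) * g⁻¹ := by rw [h4]
      _ = e * (g * a * g⁻¹) := by group
  have hnK : ∀ g : G, (∀ e ∈ E, g * e * g⁻¹ ∈ E) → ∀ a ∈ KG, g * a * g⁻¹ ∈ KG := by
    intro g hg a ha
    rw [hKG] at ha ⊢
    refine ⟨hnC g hg a ha.1, ?_⟩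
    have : orderOf (g * a * g⁻¹) = orderOf a := by
      have := (MulAut.conj g).orderOf_eq a
      simpa [MulAut.conj_apply] using this
    rw [this]
    exact ha.2
  -- decompose `u⁻¹ * (t * u * t⁻¹)`
  have hinv' : ∀ e ∈ E, t⁻¹ * e * t = e⁻¹ := by
    intro e he
    have h1 := hinv _ (E.inv_mem he)
    rw [inv_inv] at h1
    calc t⁻¹ * e * t = t⁻¹ * (t * e⁻¹ * t⁻¹) * t := by rw [h1]
      _ = e⁻¹ := by group
  have hc : u⁻¹ * (t * u * t⁻¹) ∈ C := by
    rw [hmemC]
    intro e he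
    have h1 : t * u * t⁻¹ * e = (u * e * u⁻¹) * (t * u * t⁻¹) := by
      have h2 := hinv' e he
      have h3 := hinv _ (hun _ he)
      calc t * u * t⁻¹ * e = t * u * (t⁻¹ * e * t) * t⁻¹ := by group
        _ = t * (u * e * u⁻¹)⁻¹ * t⁻¹ * (t * u * t⁻¹) := by rw [h2]; group
        _ = (t * (u * e * u⁻¹) * t⁻¹)⁻¹ * (t * u * t⁻¹) := by group
        _ = _ := by rw [h3, inv_inv]
    calc u⁻¹ * (t * u * t⁻¹) * e = u⁻¹ * (t * u * t⁻¹ * e) := by group
      _ = e * (u⁻¹ * (t * u * t⁻¹)) := by rw [h1]; group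
  obtain ⟨⟨⟨k, hk⟩, ⟨q, hq⟩⟩, hkq⟩ := hcompl.2 (⟨_, hc⟩ : C)
  have hkq' : (k : G) * (q : G) = u⁻¹ * (t * u * t⁻¹) := congrArg Subtype.val hkq
  have hqE : (q : G) ∈ E := hQE q hq
  have hkK : (k : G) ∈ KG := ⟨k, hk, rfl⟩
  have hqp : (q : G) ^ p = 1 := (hE _ (hEP hqE)).mp hqE
  obtain ⟨m, hm⟩ : ∃ m, p = 2 * m + 1 := hp1.out.odd_of_ne_two hp
  set f : G := (q : G) ^ (m + 1) with hf
  have hfE : f ∈ E := E.pow_mem hqE _
  have hff : f * f = q := by
    rw [hf, ← pow_add]
    have : m + 1 + (m + 1) = p + 1 := by omega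
    rw [this, pow_succ, hqp, one_mul]
  have hCk : ∀ e ∈ E, (k : G) * e = e * k := (hmemC k).mp k.2
  set a : G := u * f with ha
  have haP : a ∈ (P : Subgroup G) := mul_mem hu (hEP hfE)
  have hta : t * a * t⁻¹ = a * k := by
    have h1 := hinv f hfE
    have h2 : t * u * t⁻¹ = u * ((k : G) * q) := by rw [hkq']; group
    calc t * a * t⁻¹ = (t * u * t⁻¹) * (t * f * t⁻¹) := by rw [ha]; group
      _ = u * ((k : G) * (f * f)) * f⁻¹ := by rw [h1, h2, hff]
      _ = u * ((k : G) * f) := by group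
      _ = a * k := by rw [hCk f hfE, ha]; group
  have hnE : ∀ e ∈ E, a * e * a⁻¹ ∈ E := by
    intro e he
    have h1 : a * e * a⁻¹ = u * (f * e * f⁻¹) * u⁻¹ := by rw [ha]; group
    rw [h1]
    exact hun _ (E.mul_mem (E.mul_mem hfE he) (E.inv_mem hfE))
  have hpow : ∀ n : ℕ, ∃ k' ∈ KG, (a * k) ^ n = a ^ n * k' := by
    intro n
    induction n with
    | zero => exact ⟨1, KG.one_mem, by simp⟩
    | succ n ih =>
      obtain ⟨k', hk', h⟩ := ih
      refine ⟨a⁻¹ * k' * a * k, KG.mul_mem ?_ hkK, ?_⟩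
      · have := hnK a⁻¹ (by
          intro e he
          rw [inv_inv]
          exact conj_inv_mem hnE e he) k' hk'
        simpa using this
      · rw [pow_succ, h, pow_succ]
        group
  obtain ⟨k', hk', h⟩ := hpow p
  have hw : a ^ p ∈ E := hup f hfE
  have h1 : t * a ^ p * t⁻¹ = a ^ p * k' := by
    rw [← h, ← hta, conj_pow]
  rw [hinv _ hw] at h1
  have hk'E : k' ∈ E := by
    have : k' = (a ^ p)⁻¹ * (a ^ p)⁻¹ := by
      nth_rw 2 [h1]
      rw [inv_mul_cancel_left]
    rw [this]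
    exact E.mul_mem (E.inv_mem hw) (E.inv_mem hw)
  have hk'1 : k' = 1 := by
    have h2 := (hE _ (hEP hk'E)).mp hk'E
    have h3 := ((hKG _).mp hk').2
    rcases (Nat.dvd_prime hp1.out).mp (orderOf_dvd_of_pow_eq_one h2) with h4 | h4
    · exact orderOf_eq_one_iff.mp h4
    · exact absurd (by rw [h4]) h3
  rw [hk'1, mul_one] at h1
  have hw1 : a ^ p = 1 := by
    have h2 := (hE _ (hEP hw)).mp hw
    have h3 : (a ^ p) ^ 2 = 1 := by
      rw [pow_two]
      nth_rw 1 [← h1]
      group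
    have h4 : (a ^ p) ^ p = a ^ p := by
      nth_rw 2 [hm]
      rw [pow_succ, pow_mul, h3, one_pow, one_mul]
    rw [← h4, h2]
  have haE : a ∈ E := (hE _ haP).mpr hw1
  apply huE
  have : u = a * f⁻¹ := by rw [ha]; group
  rw [this]
  exact E.mul_mem haE (E.inv_mem hfE)

/-- Let p be an odd prime and G a finite group with a Sylow p-subgroup P that is extraspecial of order p³ and exponent p². Then the centre of P is strongly closed in P with respect to G: a G-conjugate of an element of Z(P) that lies in P already lies in Z(P). In particular a nontrivial central element of P is conjugate in G to no noncentral element of P. -/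
theorem result {G : Type*} [Group G] [Finite G]
    {p : ℕ} [Fact p.Prime] (hp : p ≠ 2) (P : Sylow p G) (hE : Cfsg.IsExtraspecial p ↥P)
    (hcard : Nat.card P = p ^ 3) (hexp : Monoid.exponent ↥P = p ^ 2) :
    Cfsg.IsStronglyClosed ((Subgroup.center ↥P).map (P : Subgroup G).subtype) (P : Subgroup G) := by
  have hp1 : Fact p.Prime := inferInstance
  have hZcard := hE.2
  obtain ⟨hc, Om, hOm, hOmc, hOmab, hZp⟩ := struct hp hE hcard hexp
  have hZmem : ∀ a : G, a ∈ (Subgroup.center ↥P).map (P : Subgroup G).subtype ↔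
      a ∈ (P : Subgroup G) ∧ ∀ b ∈ (P : Subgroup G), b * a = a * b := by
    intro a
    constructor
    · rintro ⟨b, hb, rfl⟩
      refine ⟨b.2, fun c hc' => ?_⟩
      have := mem_center_iff.mp hb ⟨c, hc'⟩
      exact congrArg Subtype.val this
    · rintro ⟨h1, h2⟩
      refine ⟨⟨a, h1⟩, mem_center_iff.mpr fun b => ?_, rfl⟩
      ext
      exact h2 b b.2
  refine ⟨map_subtype_le _, ?_⟩
  intro x hx g hy
  by_contra hyZ
  set y := g * x * g⁻¹ with hydef
  rw [hZmem] at hx hyZ
  push Not at hyZ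
  obtain ⟨u, hu, huy⟩ := hyZ hy
  -- transport `Om` to `G`
  let E : Subgroup G := Om.map (P : Subgroup G).subtype
  have hEP : E ≤ P := map_subtype_le _
  have hE' : ∀ a ∈ (P : Subgroup G), a ∈ E ↔ a ^ p = 1 := by
    intro a ha
    constructor
    · rintro ⟨b, hb, rfl⟩
      exact congrArg Subtype.val ((hOm b).mp hb)
    · intro h
      exact ⟨⟨a, ha⟩, (hOm _).mpr (Subtype.ext h), rfl⟩
  have hEc : Nat.card E = p ^ 2 := by
    rw [← hOmc]
    exact Subgroup.card_map_of_injective (subtype_injective _)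
  have hEab : ∀ a ∈ E, ∀ b ∈ E, a * b = b * a := by
    rintro _ ⟨a, ha, rfl⟩ _ ⟨b, hb, rfl⟩
    exact congrArg Subtype.val (hOmab a ha b hb)
  have hxp : x ^ p = 1 := congrArg Subtype.val (hZp ⟨x, hx.1⟩ (mem_center_iff.mpr fun b => Subtype.ext (hx.2 b b.2)))
  have hyp : y ^ p = 1 := by rw [hydef, conj_pow, hxp]; group
  have hyE : y ∈ E := (hE' y hy).mpr hyp
  have huE : u ∉ E := fun h => huy (hEab u h y hyE)
  -- commutators are central
  have hcG : ∀ a ∈ (P : Subgroup G), ∀ b ∈ (P : Subgroup G),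
      ⁅a, b⁆ ∈ (P : Subgroup G) ∧ ∀ c ∈ (P : Subgroup G), c * ⁅a, b⁆ = ⁅a, b⁆ * c := by
    intro a ha b hb
    have := hc ⟨a, ha⟩ ⟨b, hb⟩
    rw [mem_center_iff] at this
    refine ⟨?_, fun c hc' => congrArg Subtype.val (this ⟨c, hc'⟩)⟩
    exact (⁅(⟨a, ha⟩ : ↥P), ⟨b, hb⟩⁆ : ↥P).2
  have hZpow : ∀ a ∈ (P : Subgroup G), (∀ c ∈ (P : Subgroup G), c * a = a * c) → a ∈ E := by
    intro a ha h
    rw [hE' a ha]
    exact congrArg Subtype.val (hZp ⟨a, ha⟩ (mem_center_iff.mpr fun b => Subtype.ext (h b b.2)))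
  -- the centre is generated by any of its nontrivial elements
  have hZgen : ∀ a ∈ (P : Subgroup G), (∀ c ∈ (P : Subgroup G), c * a = a * c) → a ≠ 1 →
      ∀ b ∈ (P : Subgroup G), (∀ c ∈ (P : Subgroup G), c * b = b * c) → b ∈ zpowers a := by
    intro a ha h ha1 b hb h'
    have haZ : (⟨a, ha⟩ : ↥P) ∈ center ↥P := mem_center_iff.mpr fun b => Subtype.ext (h b b.2)
    have hbZ : (⟨b, hb⟩ : ↥P) ∈ center ↥P := mem_center_iff.mpr fun c => Subtype.ext (h' c c.2)
    have hpr : (Nat.card (center ↥P)).Prime := by rw [hZcard]; exact hp1.out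
    have := Fact.mk hpr
    have h1 : zpowers (⟨⟨a, ha⟩, haZ⟩ : center ↥P) = ⊤ := by
      rcases (zpowers (⟨⟨a, ha⟩, haZ⟩ : center ↥P)).eq_bot_or_eq_top_of_prime_card with h2 | h2
      · rw [zpowers_eq_bot] at h2
        exact absurd (congrArg (fun z : center ↥P => ((z : ↥P) : G)) h2) ha1
      · exact h2
    have h2 : (⟨⟨b, hb⟩, hbZ⟩ : center ↥P) ∈ zpowers (⟨⟨a, ha⟩, haZ⟩ : center ↥P) := by
      rw [h1]; exact mem_top _
    obtain ⟨n, hn⟩ := h2
    refine ⟨n, ?_⟩
    have := congrArg (fun z : center ↥P => ((z : ↥P) : G)) hn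
    simpa using this
  set z : G := ⁅u, y⁆ with hz
  have hzP : z ∈ (P : Subgroup G) := (hcG u hu y hy).1
  have hzc : ∀ c ∈ (P : Subgroup G), c * z = z * c := (hcG u hu y hy).2
  have hz1 : z ≠ 1 := by
    rw [hz, Ne, commutatorElement_eq_one_iff_mul_comm]
    exact huy
  have hzE : z ∈ E := hZpow z hzP hzc
  have huz : u * z * u⁻¹ = z := by rw [hzc u hu]; group
  have huy' : u * y * u⁻¹ = z * y := by rw [hz, commutatorElement_def]; group
  -- another Sylow subgroup
  obtain ⟨h, hh1, hh2⟩ := exists_conj P (fun a ha => hx.2 a ha) g E (P.2.to_le hEP)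
    (fun a ha => hEab a ha y hyE)
  rw [← hydef] at hh1
  have hhE : ∀ e ∈ E, h⁻¹ * e * h ∈ E := by
    intro e he
    rw [hE' _ (hh2 e he)]
    have h1 : (h⁻¹ * e * h) ^ p = h⁻¹ * e ^ p * h := by
      have := conj_pow (a := h⁻¹) (b := e) (i := p)
      rwa [inv_inv] at this
    rw [h1, (hE' e (hEP he)).mp he]
    group
  have hxh : x = h⁻¹ * y * h := by rw [← hh1]; group
  have hx1 : x ≠ 1 := by
    intro h1
    apply huy
    rw [hydef, h1]
    group
  set z' : G := h⁻¹ * z * h with hz'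
  have hz'E : z' ∈ E := hhE z hzE
  have hz'n : ∃ v ∈ (P : Subgroup G), v * z' ≠ z' * v := by
    by_contra hcon
    push Not at hcon
    obtain ⟨n, hn⟩ := hZgen x hx.1 hx.2 hx1 z' (hEP hz'E) hcon
    have h1 : z = y ^ n := by
      have h2 : z = h * z' * h⁻¹ := by rw [hz']; group
      rw [h2, ← hn]
      have h3 : y = h * x * h⁻¹ := hh1.symm
      rw [h3]
      exact (conj_zpow).symm
    -- `y` is a power of `z`
    have h2 : y ∈ zpowers z := by
      have h3 : orderOf y = p := orderOf_eq_prime hyp (by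
        intro h4
        apply huy; rw [h4]; group)
      have h5 : zpowers z = zpowers y := by
        have h6 : zpowers z ≤ zpowers y := by
          rw [zpowers_le, h1]
          exact ⟨n, rfl⟩
        apply Subgroup.eq_of_le_of_card_ge h6
        rw [Nat.card_zpowers, Nat.card_zpowers, h3]
        have h7 : orderOf z = p := orderOf_eq_prime ((hE' z hzP).mp hzE) hz1
        rw [h7]
      rw [h5]
      exact mem_zpowers y
    obtain ⟨m, hm⟩ := h2
    apply huy
    rw [← hm]
    have h3 : Commute u z := hzc u hu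
    exact h3.zpow_right m
  obtain ⟨v, hv, hvz⟩ := hz'n
  -- normalise the commutator
  have hcv : ⁅v, z'⁆ ∈ zpowers x :=
    hZgen x hx.1 hx.2 hx1 _ (hcG v hv z' (hEP hz'E)).1 (hcG v hv z' (hEP hz'E)).2
  obtain ⟨j, hj⟩ := hcv
  have hxord : orderOf x = p := orderOf_eq_prime hxp hx1
  have hjp : ¬ (p : ℤ) ∣ j := by
    intro h1
    apply hvz
    rw [← commutatorElement_eq_one_iff_mul_comm, ← hj]
    show x ^ j = 1
    rw [← orderOf_dvd_iff_zpow_eq_one, hxord]
    exact h1
  obtain ⟨i, hi⟩ : ∃ i : ℕ, x ^ (j * i) = x⁻¹ := by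
    have h1 : IsCoprime j (p : ℤ) := by
      rw [Int.isCoprime_iff_gcd_eq_one, Int.gcd_comm]
      exact (Int.isCoprime_iff_gcd_eq_one.mp ((Nat.prime_iff_prime_int.mp hp1.out).coprime_iff_not_dvd.mpr hjp))
    obtain ⟨a, b, hab⟩ := h1
    refine ⟨((-a) % p).toNat, ?_⟩
    have h2 : (0 : ℤ) ≤ (-a) % p := Int.emod_nonneg _ (by exact_mod_cast hp1.out.ne_zero)
    rw [Int.toNat_of_nonneg h2]
    have h3 : x ^ (j * ((-a) % p)) = x ^ (j * (-a)) := by
      rw [← zpow_mod_orderOf, ← zpow_mod_orderOf x (j * (-a)), hxord]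
      congr 1
      exact Int.ModEq.mul_left j (Int.mod_modEq _ _)
    rw [h3]
    have h4 : j * (-a) = -1 + p * b := by linarith
    rw [h4, zpow_add, zpow_mul]
    have h5 : x ^ (p : ℤ) = 1 := by exact_mod_cast hxp
    rw [h5, one_zpow, mul_one, zpow_neg_one]
  have hvi : ⁅v ^ i, z'⁆ = x⁻¹ := by
    have h1 := Transfer.CentralComm.comm_pow_left hc ⟨v, hv⟩ ⟨z', hEP hz'E⟩ i
    have h2 : ⁅v ^ i, z'⁆ = ⁅v, z'⁆ ^ i := by
      exact congrArg Subtype.val h1
    rw [h2, ← hj, ← hi]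
    show (x ^ j) ^ i = _
    rw [zpow_mul, zpow_natCast]
  set w : G := h * v ^ i * h⁻¹ with hw
  have hwz : w * z * w⁻¹ = y⁻¹ * z := by
    have h1 : w * z * w⁻¹ * z⁻¹ = h * ⁅v ^ i, z'⁆ * h⁻¹ := by
      rw [hw, hz', commutatorElement_def]
      group
    have h2 : h * ⁅v ^ i, z'⁆ * h⁻¹ = y⁻¹ := by
      rw [hvi, ← hh1]
      group
    rw [h2] at h1
    rw [← h1]
    group
  have hwy : w * y * w⁻¹ = y := by
    have h1 : v ^ i * x = x * v ^ i := hx.2 _ (pow_mem hv i)
    calc w * y * w⁻¹ = h * (v ^ i * x) * (v ^ i)⁻¹ * h⁻¹ := by rw [hw, ← hh1]; group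
      _ = h * x * h⁻¹ := by rw [h1]; group
      _ = y := hh1
  have hzy : z * y = y * z := hEab z hzE y hyE
  set s : G := u * w * u with hs
  have hsz : s * z * s⁻¹ = y⁻¹ := by
    calc s * z * s⁻¹ = u * (w * (u * z * u⁻¹) * w⁻¹) * u⁻¹ := by rw [hs]; group
      _ = u * (y⁻¹ * z) * u⁻¹ := by rw [huz, hwz]
      _ = (u * y * u⁻¹)⁻¹ * (u * z * u⁻¹) := by group
      _ = y⁻¹ := by rw [huy', huz]; group
  have hsy : s * y * s⁻¹ = z := by
    calc s * y * s⁻¹ = u * (w * (u * y * u⁻¹) * w⁻¹) * u⁻¹ := by rw [hs]; group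
      _ = u * ((w * z * w⁻¹) * (w * y * w⁻¹)) * u⁻¹ := by rw [huy']; group
      _ = u * (y⁻¹ * (z * y)) * u⁻¹ := by rw [hwz, hwy]; group
      _ = u * z * u⁻¹ := by rw [hzy]; group
      _ = z := huz
  set t : G := s * s with ht
  have htz : t * z * t⁻¹ = z⁻¹ := by
    calc t * z * t⁻¹ = s * (s * z * s⁻¹) * s⁻¹ := by rw [ht]; group
      _ = (s * y * s⁻¹)⁻¹ := by rw [hsz]; group
      _ = z⁻¹ := by rw [hsy]
  have hty : t * y * t⁻¹ = y⁻¹ := by
    calc t * y * t⁻¹ = s * (s * y * s⁻¹) * s⁻¹ := by rw [ht]; group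
      _ = y⁻¹ := by rw [hsy, hsz]
  -- `E` is generated by `y` and `z`
  have hgen : closure {y, z} = E := by
    have h1 : closure {y, z} ≤ E := by
      rw [closure_le]
      rintro a (rfl | rfl)
      · exact hyE
      · exact hzE
    apply Subgroup.eq_of_le_of_card_ge h1
    have h2 : Nat.card (closure {y, z}) ∣ p ^ 2 := by
      rw [← hEc]; exact Subgroup.card_dvd_of_le h1
    obtain ⟨k, hk, hk'⟩ := (Nat.dvd_prime_pow hp1.out).mp h2
    have h7 : orderOf z = p := orderOf_eq_prime ((hE' z hzP).mp hzE) hz1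
    have h3 : zpowers z < closure {y, z} := by
      apply lt_of_le_of_ne
      · rw [zpowers_le]; exact subset_closure (by simp)
      · intro h4
        have h5 : y ∈ zpowers z := by rw [h4]; exact subset_closure (by simp)
        obtain ⟨m, hm⟩ := h5
        apply huy
        rw [← hm]
        have h3 : Commute u z := hzc u hu
        exact h3.zpow_right m
    have h4 : Nat.card (zpowers z) < Nat.card (closure {y, z}) := by
      by_contra h5
      exact h3.ne (Subgroup.eq_of_le_of_card_ge h3.le (not_lt.mp h5))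
    rw [Nat.card_zpowers, h7, hk'] at h4
    have h5 : 1 < k := by
      by_contra h6
      have h8 : p ^ k ≤ p ^ 1 := Nat.pow_le_pow_right hp1.out.pos (by omega)
      rw [pow_one] at h8
      omega
    rw [hEc, hk']
    exact Nat.pow_le_pow_right hp1.out.pos h5
  have hinv : ∀ e ∈ E, t * e * t⁻¹ = e⁻¹ := by
    intro e he
    rw [← hgen] at he
    have : ∀ e, e ∈ closure {y, z} → e ∈ E ∧ t * e * t⁻¹ = e⁻¹ := by
      intro e he
      induction he using closure_induction with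
      | mem a ha =>
        rcases ha with rfl | rfl
        · exact ⟨hyE, hty⟩
        · exact ⟨hzE, htz⟩
      | one => exact ⟨E.one_mem, by group⟩
      | mul a b _ _ ha hb =>
        refine ⟨E.mul_mem ha.1 hb.1, ?_⟩
        calc t * (a * b) * t⁻¹ = (t * a * t⁻¹) * (t * b * t⁻¹) := by group
          _ = (b * a)⁻¹ := by rw [ha.2, hb.2]; group
          _ = (a * b)⁻¹ := by rw [hEab b hb.1 a ha.1]
      | inv a _ ha =>
        refine ⟨E.inv_mem ha.1, ?_⟩
        calc t * a⁻¹ * t⁻¹ = (t * a * t⁻¹)⁻¹ := by group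
          _ = _ := by rw [ha.2]
    exact (this e he).2
  have hun : ∀ e ∈ E, u * e * u⁻¹ ∈ E := by
    intro e he
    have h1 : u * e * u⁻¹ ∈ (P : Subgroup G) := mul_mem (mul_mem hu (hEP he)) (inv_mem hu)
    rw [hE' _ h1, conj_pow, (hE' e (hEP he)).mp he]
    group
  have hcP : ∀ a ∈ (P : Subgroup G), (∀ b ∈ E, a * b = b * a) → a ∈ E := by
    intro a ha hab
    let Y : Subgroup ↥P := centralizer {(⟨y, hy⟩ : ↥P)}
    have h1 : Om ≤ Y := by
      intro b hb
      rw [mem_centralizer_singleton_iff]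
      exact hOmab b hb ⟨y, hy⟩ ((hOm _).mpr (Subtype.ext hyp))
    have h2 : Y ≠ ⊤ := by
      intro h3
      have h4 : (⟨u, hu⟩ : ↥P) ∈ Y := by rw [h3]; exact mem_top _
      rw [mem_centralizer_singleton_iff] at h4
      exact huy (congrArg Subtype.val h4)
    have h3 : Om = Y := by
      apply Subgroup.eq_of_le_of_card_ge h1
      have h4 : Nat.card Y ∣ p ^ 3 := by
        rw [← hcard]
        exact Subgroup.card_subgroup_dvd_card Y
      obtain ⟨k, hk, hk'⟩ := (Nat.dvd_prime_pow hp1.out).mp h4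
      rw [hOmc, hk']
      apply Nat.pow_le_pow_right hp1.out.pos
      by_contra h5
      have h6 : k = 3 := by omega
      apply h2
      apply Subgroup.eq_top_of_card_eq
      rw [hk', h6]
      exact hcard.symm
    have h4 : (⟨a, ha⟩ : ↥P) ∈ Y := by
      rw [mem_centralizer_singleton_iff]
      exact Subtype.ext (hab y hyE)
    rw [← h3] at h4
    exact ⟨_, h4, rfl⟩
  have hup : ∀ e ∈ E, (u * e) ^ p ∈ E := by
    intro e he
    have h1 : u * e ∈ (P : Subgroup G) := mul_mem hu (hEP he)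
    rw [hE' _ (pow_mem h1 p), ← pow_mul, ← pow_two, ← hexp]
    exact congrArg Subtype.val (Monoid.pow_exponent_eq_one (⟨u * e, h1⟩ : ↥P))
  exact main hp P E hEP hE' hEab u t hu huE hup hcP hinv hun

end Cfsg.Agent.S3053
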