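import Cfsg.Agent.H275.PlanesMain
import Cfsg.Statements.S3054
set_option linter.all false

-- part: H275/ThreePlanes
section
set_option autoImplicit false
set_option linter.unusedSectionVars false

/-!
# Planes all of whose transvections are induced
-/

namespace Cfsg.Agent.H275.ThreePlanes

open Matrix Cfsg.Agent.H275.Heis Cfsg.Agent.H275.GLTwoFix Cfsg.Agent.H275.Planes Cfsg.Agent.H275.PlanesMain

section Aut

variable {p : ℕ} [hp : Fact p.Prime]

/-- The lower unitriangular matrices as automorphisms. -/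
def waut (t : ZMod p) : Multiplicative (Fin 2 → ZMod p) ≃* Multiplicative (Fin 2 → ZMod p) where
  toFun v := Multiplicative.ofAdd (W t *ᵥ Multiplicative.toAdd v)
  invFun v := Multiplicative.ofAdd (W (-t) *ᵥ Multiplicative.toAdd v)
  left_inv v := by
    change Multiplicative.ofAdd (W (-t) *ᵥ (W t *ᵥ Multiplicative.toAdd v)) = v
    rw [Matrix.mulVec_mulVec, W_mul, neg_add_cancel, W_zero, Matrix.one_mulVec]; rfl
  right_inv v := by
    change Multiplicative.ofAdd (W t *ᵥ (W (-t) *ᵥ Multiplicative.toAdd v)) = v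
    rw [Matrix.mulVec_mulVec, W_mul, add_neg_cancel, W_zero, Matrix.one_mulVec]; rfl
  map_mul' v w := by
    change Multiplicative.ofAdd (W t *ᵥ (Multiplicative.toAdd v + Multiplicative.toAdd w)) = _
    rw [Matrix.mulVec_add]; rfl

theorem waut_apply (t : ZMod p) (v : Fin 2 → ZMod p) :
    waut t (Multiplicative.ofAdd v) = Multiplicative.ofAdd (W t *ᵥ v) := rfl

/-- The automorphism of a plane induced by a lower unitriangular matrix. -/
def phi {A : Type*} [Group A] (e : Multiplicative (Fin 2 → ZMod p) ≃* A) (t : ZMod p) : MulAut A :=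
  (e.symm.trans (waut t)).trans e

theorem phi_apply {A : Type*} [Group A] (e : Multiplicative (Fin 2 → ZMod p) ≃* A) (t : ZMod p)
    (v : Fin 2 → ZMod p) : phi e t (e (Multiplicative.ofAdd v)) = e (Multiplicative.ofAdd (W t *ᵥ v)) := by
  unfold phi
  rw [MulEquiv.trans_apply, MulEquiv.trans_apply, MulEquiv.symm_apply_apply, waut_apply]

theorem phi_pow_apply {A : Type*} [Group A] (e : Multiplicative (Fin 2 → ZMod p) ≃* A) (t : ZMod p) (n : ℕ)
    (v : Fin 2 → ZMod p) : (phi e t ^ n) (e (Multiplicative.ofAdd v)) =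
      e (Multiplicative.ofAdd (W (n * t) *ᵥ v)) := by
  induction n generalizing v with
  | zero => rw [pow_zero, Nat.cast_zero, zero_mul, W_zero, Matrix.one_mulVec]; rfl
  | succ n ih =>
    rw [pow_succ, MulAut.mul_apply, phi_apply, ih, Matrix.mulVec_mulVec, W_mul]
    congr 4
    push_cast; ring

theorem orderOf_phi {A : Type*} [Group A] (e : Multiplicative (Fin 2 → ZMod p) ≃* A) {t : ZMod p} (ht : t ≠ 0) :
    orderOf (phi e t) = p := by
  apply orderOf_eq_prime
  · ext x
    obtain ⟨v, rfl⟩ := e.surjective x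
    have h1 := phi_pow_apply e t p (Multiplicative.toAdd v)
    rw [CharP.cast_eq_zero, zero_mul, W_zero, Matrix.one_mulVec] at h1
    exact h1
  · intro h
    have h1 := phi_apply e t ![1, 0]
    rw [h] at h1
    have h2 := Multiplicative.ofAdd.injective (e.injective h1)
    have h3 := congrFun h2 1
    simp [W, Matrix.mulVec, dotProduct, Fin.sum_univ_two] at h3
    exact ht h3.symm

end Aut

variable {G : Type*} [Group G] [Finite G] {p : ℕ} [hp : Fact p.Prime] (P : Sylow p G) (D : HData p P)

theorem card_center (D : HData p P) : Nat.card (Subgroup.center P) = p := by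
  rw [D.center_eq, Nat.card_zpowers, orderOf_eq_prime (D.pow_p _) D.z_ne]

/-- A subgroup of order `p ^ 2` contains the centre. -/
theorem center_le (D : HData p P) (A : Subgroup P) (hA : Nat.card A = p ^ 2) : Subgroup.center P ≤ A := by
  by_contra hcon
  have hcomm : ∀ x y : A, x * y = y * x := (IsPGroup.isMulCommutative_of_card_eq_prime_sq hA).is_comm.comm
  have h1 : A < A ⊔ Subgroup.center P := by
    refine lt_of_le_of_ne le_sup_left ?_
    intro h
    exact hcon (h ▸ le_sup_right)
  have h2 : Nat.card A < Nat.card ↥(A ⊔ Subgroup.center P) := by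
    by_contra h3
    push Not at h3
    exact h1.ne (Subgroup.eq_of_le_of_card_ge h1.le h3)
  have h3 : Nat.card ↥(A ⊔ Subgroup.center P) ∣ p ^ 3 := by
    rw [← D.card_eq]; exact Subgroup.card_subgroup_dvd_card _
  obtain ⟨k, hk, hk'⟩ := (Nat.dvd_prime_pow hp.out).1 h3
  have h4 : k = 3 := by
    rw [hA, hk', Nat.pow_lt_pow_iff_right hp.out.one_lt] at h2
    omega
  have h5 : A ⊔ Subgroup.center P = ⊤ := by
    apply Subgroup.eq_top_of_card_eq
    rw [hk', h4, D.card_eq]
  have h6 : A ≤ Subgroup.center P := by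
    intro x hx
    rw [Subgroup.mem_center_iff]
    intro y
    have h7 : A ⊔ Subgroup.center P ≤ Subgroup.centralizer {x} := by
      apply sup_le
      · intro a ha
        rw [Subgroup.mem_centralizer_singleton_iff]
        exact congrArg Subtype.val (hcomm ⟨a, ha⟩ ⟨x, hx⟩)
      · intro a ha
        rw [Subgroup.mem_centralizer_singleton_iff]
        exact (Subgroup.mem_center_iff.1 ha x).symm
    rw [h5] at h7
    exact Subgroup.mem_centralizer_singleton_iff.1 (h7 (Subgroup.mem_top y))
  have h7 := Subgroup.card_dvd_of_le h6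
  rw [hA, card_center P D] at h7
  have h8 := Nat.le_of_dvd hp.out.pos h7
  have h9 : p ^ 1 < p ^ 2 := Nat.pow_lt_pow_right hp.out.one_lt (by norm_num)
  rw [pow_one] at h9
  omega

/-- The data of a plane. -/
theorem plane (D : HData p P) (A : Subgroup G) (hAP : A ≤ (P : Subgroup G)) (hA : Nat.card A = p ^ 2)
    (hSL : ∀ φ : MulAut A, orderOf φ = p → ∃ g : G, ∀ a : A, (φ a : G) = g * (a : G) * g⁻¹) :
    ∃ a : P, (a : G) ∈ A ∧ D.pi a ≠ 0 ∧ (D.z : G) ∈ A ∧ (∀ x ∈ A, ∃ v : Fin 2 → ZMod p, x = E (D.z : G) (a : G) v) ∧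
      ∀ lam : (ZMod p)ˣ, ∃ g : G, Rel (D.z : G) (a : G) g
        !![(lam : ZMod p), 0; 0, ((lam⁻¹ : (ZMod p)ˣ) : ZMod p)] := by
  set A' : Subgroup P := A.subgroupOf P with hA'
  have hcA' : Nat.card A' = p ^ 2 := by
    rw [← hA]
    exact Nat.card_congr (Subgroup.subgroupOfEquivOfLe hAP).toEquiv
  have hzA' := center_le P D A' hcA'
  have hzA : (D.z : G) ∈ A := by
    have := hzA' D.z_mem
    rwa [hA', Subgroup.mem_subgroupOf] at this
  have hexa : ∃ a ∈ A', a ∉ Subgroup.center P := by
    by_contra hcon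
    push Not at hcon
    have h7 := Subgroup.card_dvd_of_le (show A' ≤ Subgroup.center P from hcon)
    rw [hcA', card_center P D] at h7
    have h8 := Nat.le_of_dvd hp.out.pos h7
    have h9 : p ^ 1 < p ^ 2 := Nat.pow_lt_pow_right hp.out.one_lt (by norm_num)
    rw [pow_one] at h9
    omega
  obtain ⟨a, haA, ha⟩ := hexa
  have haA' : (a : G) ∈ A := by rwa [hA', Subgroup.mem_subgroupOf] at haA
  have hpa : D.pi a ≠ 0 := fun h => ha (D.pi_eq_zero_iff.1 h)
  have hzp := coe_pow_p P D D.z
  have hap := coe_pow_p P D a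
  have hza := coe_commute P D a
  have hEA : ∀ v : Fin 2 → ZMod p, E (D.z : G) (a : G) v ∈ A :=
    fun v => A.mul_mem (pw_mem hzA _) (pw_mem haA' _)
  have hEP : ∀ v : Fin 2 → ZMod p, E (D.z : G) (a : G) v = ((E D.z a v : P) : G) := by
    intro v
    unfold E
    rw [Subgroup.coe_mul, coe_pw, coe_pw]
  let f : Multiplicative (Fin 2 → ZMod p) →* A :=
    { toFun := fun v => ⟨E (D.z : G) (a : G) (Multiplicative.toAdd v), hEA _⟩
      map_one' := Subtype.ext E_zero
      map_mul' := fun v w => Subtype.ext (E_add hzp hap hza _ _) }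
  have hf : ∀ v, ((f (Multiplicative.ofAdd v) : A) : G) = E (D.z : G) (a : G) v := fun v => rfl
  have hinj : Function.Injective f := by
    intro v w hvw
    have h1 : E (D.z : G) (a : G) (Multiplicative.toAdd v) = E (D.z : G) (a : G) (Multiplicative.toAdd w) :=
      congrArg Subtype.val hvw
    rw [hEP, hEP] at h1
    have h2 : E D.z a (Multiplicative.toAdd v) = E D.z a (Multiplicative.toAdd w) := Subtype.ext h1
    have h3 := congrArg D.pi h2
    unfold E at h3 h2
    rw [D.pi_mul, D.pi_mul, D.pi_pw, D.pi_pw, D.pi_pw, D.pi_pw, D.pi_eq_zero_iff.2 D.z_mem, smul_zero, smul_zero,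
      zero_add, zero_add, ← sub_eq_zero, ← sub_smul, smul_eq_zero] at h3
    have h4 := sub_eq_zero.1 (h3.resolve_right hpa)
    rw [h4] at h2
    have h5 := (pw_inj (D.pow_p _) D.z_ne).1 (mul_right_cancel h2)
    apply Multiplicative.toAdd.injective
    ext i
    fin_cases i
    · exact h5
    · exact h4
  have hcardV : Nat.card (Multiplicative (Fin 2 → ZMod p)) = p ^ 2 := by
    rw [Nat.card_congr Multiplicative.toAdd, Nat.card_pi]
    simp
  have hbij : Function.Bijective f := by
    rw [Nat.bijective_iff_injective_and_card]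
    exact ⟨hinj, by rw [hcardV, hA]⟩
  let e : Multiplicative (Fin 2 → ZMod p) ≃* A := MulEquiv.ofBijective f hbij
  have he : ∀ v, ((e (Multiplicative.ofAdd v) : A) : G) = E (D.z : G) (a : G) v := fun v => rfl
  refine ⟨a, haA', hpa, hzA, ?_, ?_⟩
  · intro x hx
    obtain ⟨v, hv⟩ := e.surjective ⟨x, hx⟩
    refine ⟨Multiplicative.toAdd v, ?_⟩
    rw [← he]
    exact (congrArg Subtype.val hv).symm
  · intro lam
    apply exists_diag (hlm := Units.mul_inv lam)
    · intro t
      obtain ⟨g, -, hg⟩ := exists_U P D a hpa t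
      exact ⟨g, hg⟩
    · intro t
      by_cases ht : t = 0
      · rw [ht, W_zero]
        exact ⟨1, rel_one⟩
      · obtain ⟨g, hg⟩ := hSL (phi e t) (orderOf_phi e ht)
        refine ⟨g, fun v => ?_⟩
        have h1 := hg (e (Multiplicative.ofAdd v))
        rw [phi_apply, he, he] at h1
        exact h1.symm

/-- **S3054**. -/
theorem main (hp2 : p ≠ 2) (hE : Cfsg.IsExtraspecial p P) (hcard : Nat.card P = p ^ 3)
    (hexp : Monoid.exponent P = p) (A : Fin 3 → Subgroup G) (hA : Function.Injective A)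
    (hAP : ∀ i, A i ≤ (P : Subgroup G)) (hAcard : ∀ i, Nat.card ↥(A i) = p ^ 2)
    (hSL : ∀ i, ∀ φ : MulAut ↥(A i), orderOf φ = p → ∃ g : G, ∀ a : ↥(A i), (φ a : G) = g * (a : G) * g⁻¹) :
    p ≤ 13 := by
  obtain ⟨D⟩ := exists_hData hE hcard hexp
  choose a haA hpa hzA hgen hrel using fun i => plane P D (A i) (hAP i) (hAcard i) (hSL i)
  refine (three P D hp2 a hpa ?_ hrel).1
  intro i j hij c hc
  apply hij
  apply hA
  apply Subgroup.eq_of_le_of_card_ge
  · intro x hx
    obtain ⟨v, rfl⟩ := hgen i x hx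
    have h1 : D.pi ((pw (a j) c)⁻¹ * a i) = 0 := by
      have h2 : D.pi (pw (a j) c * ((pw (a j) c)⁻¹ * a i)) = D.pi (pw (a j) c) + D.pi ((pw (a j) c)⁻¹ * a i) :=
        D.pi_mul _ _
      rw [mul_inv_cancel_left, D.pi_pw, hc] at h2
      exact left_eq_add.1 h2
    rw [D.pi_eq_zero_iff, D.center_eq] at h1
    obtain ⟨k, hk⟩ := exists_pw_of_mem_zpowers (D.pow_p _) h1
    have h2 : a i = pw (a j) c * pw D.z k := by rw [← hk, mul_inv_cancel_left]
    have h3 : (a i : G) = pw (a j : G) c * pw (D.z : G) k := by rw [h2, Subgroup.coe_mul, coe_pw, coe_pw]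
    have h4 : (a i : G) ∈ A j := by
      rw [h3]
      exact (A j).mul_mem (pw_mem (haA j) _) (pw_mem (hzA j) _)
    exact (A j).mul_mem (pw_mem (hzA j) _) (pw_mem h4 _)
  · rw [hAcard, hAcard]

end Cfsg.Agent.H275.ThreePlanes
end

-- part: S3054
section
set_option autoImplicit false
open Cfsg

namespace Cfsg.Agent.S3054

/-- Let p be an odd prime and G a finite group with a Sylow p-subgroup P that is extraspecial of order p³ and exponent p. Suppose P contains three distinct subgroups A of order p² (each is elementary abelian of rank 2) such that every automorphism of A of order p is induced by conjugation by an element of G; equivalently the automorphism group induced on A by its normalizer contains the special linear group of A. Then p ≤ 13. -/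
theorem result {G : Type*} [Group G] [Finite G]
    {p : ℕ} [Fact p.Prime] (hp : p ≠ 2) (P : Sylow p G) (hE : Cfsg.IsExtraspecial p ↥P)
    (hcard : Nat.card P = p ^ 3) (hexp : Monoid.exponent ↥P = p)
    (A : Fin 3 → Subgroup G) (hA : Function.Injective A) (hAP : ∀ i, A i ≤ (P : Subgroup G))
    (hAcard : ∀ i, Nat.card ↥(A i) = p ^ 2)
    (hSL : ∀ i, ∀ φ : MulAut ↥(A i), orderOf φ = p → ∃ g : G, ∀ a : ↥(A i), (φ a : G) = g * (a : G) * g⁻¹) :
    p ≤ 13 := by
  exact Cfsg.Agent.H275.ThreePlanes.main P hp hE hcard hexp A hA hAP hAcard hSL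

end Cfsg.Agent.S3054
end
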