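import Cfsg.Agent.H275.PlanesMain
import Cfsg.Statements.S3055
set_option linter.all false

-- part: H275/AllConj
section
set_option autoImplicit false
set_option linter.unusedSectionVars false

/-!
# All elements of the Sylow subgroup conjugate
-/

namespace Cfsg.Agent.H275.AllConj

open Matrix Cfsg.Agent.H275.Heis Cfsg.Agent.H275.GLTwoFix Cfsg.Agent.H275.Planes Cfsg.Agent.H275.PlanesMain

section Swap

variable {G : Type*} [Group G] {p : ℕ} [hp : Fact p.Prime] {z a b g : G}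

/-- The swap matrix. -/
def Sw (p : ℕ) : Matrix (Fin 2) (Fin 2) (ZMod p) := !![0, 1; 1, 0]

theorem swap_conj (h1 : g * z * g⁻¹ = b) (h2 : g * a * g⁻¹ = z) (hzb : Commute z b) (v : Fin 2 → ZMod p) :
    g * E z a v * g⁻¹ = E z b (Sw p *ᵥ v) := by
  have h3 : g * E z a v * g⁻¹ = pw (g * z * g⁻¹) (v 0) * pw (g * a * g⁻¹) (v 1) := by
    rw [← conj_pw, ← conj_pw]
    unfold E
    group
  rw [h3, h1, h2, (pw_commute hzb.symm _ _).eq]
  unfold E
  simp [Sw, Matrix.mulVec, dotProduct, Fin.sum_univ_two]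

theorem Sw_mul : Sw p * Sw p = 1 := by
  ext i j
  fin_cases i <;> fin_cases j <;> simp [Sw, Matrix.mul_apply, Fin.sum_univ_two]

theorem rel_swap (h1 : g * z * g⁻¹ = b) (h2 : g * a * g⁻¹ = z) (hzb : Commute z b)
    {w : G} {M : Matrix (Fin 2) (Fin 2) (ZMod p)} (hw : Rel z a w M) :
    Rel z b (g * w * g⁻¹) (Sw p * M * Sw p) := by
  intro v
  have h3 : E z b v = g * E z a (Sw p *ᵥ v) * g⁻¹ := by
    rw [swap_conj h1 h2 hzb, Matrix.mulVec_mulVec, Sw_mul, Matrix.one_mulVec]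
  rw [h3]
  have h4 : g * w * g⁻¹ * (g * E z a (Sw p *ᵥ v) * g⁻¹) * (g * w * g⁻¹)⁻¹ =
      g * (w * E z a (Sw p *ᵥ v) * w⁻¹) * g⁻¹ := by group
  rw [h4, hw, swap_conj h1 h2 hzb, Matrix.mulVec_mulVec, Matrix.mulVec_mulVec, mul_assoc]

theorem rel_swap' (h1 : g * z * g⁻¹ = b) (h2 : g * a * g⁻¹ = z) (hzb : Commute z b)
    {w : G} {M : Matrix (Fin 2) (Fin 2) (ZMod p)} (hw : Rel z b w M) :
    Rel z a (g⁻¹ * w * g) (Sw p * M * Sw p) := by
  intro v
  have h3 : ∀ v, E z a v = g⁻¹ * E z b (Sw p *ᵥ v) * g := by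
    intro v
    rw [← swap_conj h1 h2 hzb]; group
  rw [h3 v, h3]
  have h4 : g⁻¹ * w * g * (g⁻¹ * E z b (Sw p *ᵥ v) * g) * (g⁻¹ * w * g)⁻¹ =
      g⁻¹ * (w * E z b (Sw p *ᵥ v) * w⁻¹) * g := by group
  rw [h4, hw, Matrix.mulVec_mulVec, Matrix.mulVec_mulVec]
  congr 3
  rw [← mul_assoc, ← mul_assoc, Sw_mul, one_mul]

end Swap

variable {G : Type*} [Group G] [Finite G] {p : ℕ} [hp : Fact p.Prime] (P : Sylow p G) (D : HData p P)

/-- Moving an element into the Sylow subgroup without moving the central element `z`. -/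
theorem exists_conj {a : P} (hconj : ∃ g : G, g * (a : G) * g⁻¹ = (D.z : G)) :
    ∃ g : G, g * (a : G) * g⁻¹ = (D.z : G) ∧ g * (D.z : G) * g⁻¹ ∈ (P : Subgroup G) := by
  obtain ⟨g0, hg0⟩ := hconj
  set z : G := (D.z : G) with hz
  set C : Subgroup G := Subgroup.centralizer {z} with hC
  have hPC : (P : Subgroup G) ≤ C := by
    intro w hw
    rw [hC, Subgroup.mem_centralizer_singleton_iff]
    have := (coe_commute P D ⟨w, hw⟩).eq
    exact this.symm
  have hy : g0 * z * g0⁻¹ ∈ C := by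
    rw [hC, Subgroup.mem_centralizer_singleton_iff]
    have h1 : z * (a : G) = a * z := (coe_commute P D a).eq
    calc g0 * z * g0⁻¹ * z = g0 * z * g0⁻¹ * (g0 * (a : G) * g0⁻¹) := by rw [hg0]
      _ = g0 * (z * (a : G)) * g0⁻¹ := by group
      _ = g0 * ((a : G) * z) * g0⁻¹ := by rw [h1]
      _ = (g0 * (a : G) * g0⁻¹) * (g0 * z * g0⁻¹) := by group
      _ = z * (g0 * z * g0⁻¹) := by rw [hg0]
  have hyp : IsPGroup p (Subgroup.zpowers (⟨g0 * z * g0⁻¹, hy⟩ : C)) := by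
    rw [IsPGroup.iff_card]
    have h1 : (⟨g0 * z * g0⁻¹, hy⟩ : C) ^ p = 1 := by
      apply Subtype.ext
      change (g0 * z * g0⁻¹) ^ p = 1
      rw [conj_pow, coe_pow_p P D]; group
    rw [Nat.card_zpowers]
    have h2 : orderOf (⟨g0 * z * g0⁻¹, hy⟩ : C) ∣ p ^ 1 := by
      rw [pow_one]; exact orderOf_dvd_of_pow_eq_one h1
    obtain ⟨k, -, hk⟩ := (Nat.dvd_prime_pow hp.out).1 h2
    exact ⟨k, hk⟩
  obtain ⟨Q, hQ⟩ := hyp.exists_le_sylow
  obtain ⟨c, hc⟩ := MulAction.exists_smul_eq C Q (P.subtype hPC)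
  refine ⟨(c : G) * g0, ?_, ?_⟩
  · have h1 : (c : G) * z = z * (c : G) := Subgroup.mem_centralizer_singleton_iff.1 c.2
    calc (c : G) * g0 * (a : G) * ((c : G) * g0)⁻¹ = (c : G) * (g0 * (a : G) * g0⁻¹) * (c : G)⁻¹ := by group
      _ = (c : G) * z * (c : G)⁻¹ := by rw [hg0]
      _ = z := by rw [h1]; group
  · have h1 : (⟨g0 * z * g0⁻¹, hy⟩ : C) ∈ (Q : Subgroup C) := hQ (Subgroup.mem_zpowers _)
    have h2 : c * (⟨g0 * z * g0⁻¹, hy⟩ : C) * c⁻¹ ∈ ((P.subtype hPC : Sylow p C) : Subgroup C) := by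
      rw [← hc, Sylow.coe_subgroup_smul]
      exact ⟨_, h1, by simp [MulAut.smul_def, MulAut.conj_apply]⟩
    rw [Sylow.coe_subtype, Subgroup.mem_subgroupOf] at h2
    have h3 : (c : G) * g0 * z * ((c : G) * g0)⁻¹ = ((c * (⟨g0 * z * g0⁻¹, hy⟩ : C) * c⁻¹ : C) : G) := by
      simp only [Subgroup.coe_mul, Subgroup.coe_inv]
      group
    rw [h3]
    exact h2

theorem exists_rel_diag {a : P} (ha : D.pi a ≠ 0) (hconj : ∃ g : G, g * (a : G) * g⁻¹ = (D.z : G))
    (lam : (ZMod p)ˣ) : ∃ g : G, Rel (D.z : G) (a : G) g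
      !![(lam : ZMod p), 0; 0, ((lam⁻¹ : (ZMod p)ˣ) : ZMod p)] := by
  obtain ⟨g, hg1, hg2⟩ := exists_conj P D hconj
  set b : P := ⟨g * (D.z : G) * g⁻¹, hg2⟩ with hb
  have hb' : g * (D.z : G) * g⁻¹ = (b : G) := rfl
  have hzb : Commute (D.z : G) (b : G) := coe_commute P D b
  have hbne : D.pi b ≠ 0 := by
    intro h0
    rw [D.pi_eq_zero_iff, D.center_eq] at h0
    obtain ⟨k, hk⟩ := exists_pw_of_mem_zpowers (D.pow_p _) h0
    have h1 : (b : G) = pw (D.z : G) k := by rw [hk, coe_pw]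
    rw [← hb', ← hg1, ← conj_pw, hg1] at h1
    have h2 : (D.z : G) = pw (a : G) k := by
      have := mul_right_cancel h1
      exact mul_left_cancel this
    have h3 : D.z = pw a k := by
      apply Subtype.ext
      rw [h2, coe_pw]
    have h4 : D.pi D.z = 0 := D.pi_eq_zero_iff.2 D.z_mem
    rw [h3, D.pi_pw] at h4
    rcases smul_eq_zero.1 h4 with h5 | h5
    · rw [h5, pw_zero] at h3
      exact D.z_ne h3
    · exact ha h5
  have hU : ∀ t : ZMod p, ∃ h : G, Rel (D.z : G) (b : G) h (U t) := by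
    intro t
    obtain ⟨h, -, hh⟩ := exists_U P D b hbne t
    exact ⟨h, hh⟩
  have hW : ∀ t : ZMod p, ∃ h : G, Rel (D.z : G) (b : G) h (W t) := by
    intro t
    obtain ⟨h, -, hh⟩ := exists_U P D a ha t
    refine ⟨g * h * g⁻¹, ?_⟩
    have h1 := rel_swap hb' hg1 hzb hh
    have h2 : Sw p * U t * Sw p = W t := by
      ext i j
      fin_cases i <;> fin_cases j <;> simp [Sw, U, W, Matrix.mul_apply, Fin.sum_univ_two]
    rw [h2] at h1
    exact h1
  obtain ⟨h, hh⟩ := exists_diag hU hW (Units.inv_mul lam)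
  refine ⟨g⁻¹ * h * g, ?_⟩
  have h1 := rel_swap' hb' hg1 hzb hh
  have h2 : ∀ l m : ZMod p, Sw p * !![m, 0; 0, l] * Sw p = !![l, 0; 0, m] := by
    intro l m
    ext i j
    fin_cases i <;> fin_cases j <;> simp [Sw, Matrix.mul_apply, Fin.sum_univ_two]
  rw [h2] at h1
  exact h1

/-- **S3055**. -/
theorem main (hp2 : p ≠ 2) (hE : Cfsg.IsExtraspecial p P) (hcard : Nat.card P = p ^ 3)
    (hexp : Monoid.exponent P = p)
    (hconj : ∀ x y : P, x ≠ 1 → y ≠ 1 → ∃ g : G, g * (x : G) * g⁻¹ = (y : G)) : p ≤ 7 := by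
  obtain ⟨D⟩ := exists_hData hE hcard hexp
  have hall : ∀ (v : Fin 2 → ZMod p), v ≠ 0 → ∃ a : P, D.pi a = v ∧ ∀ lam : (ZMod p)ˣ,
      ∃ g : G, Rel (D.z : G) (a : G) g !![(lam : ZMod p), 0; 0, ((lam⁻¹ : (ZMod p)ˣ) : ZMod p)] := by
    intro v hv
    refine ⟨pw D.x0 (v 0) * pw D.y0 (v 1), D.pi_lift v, fun lam => ?_⟩
    have h1 : D.pi (pw D.x0 (v 0) * pw D.y0 (v 1)) ≠ 0 := by rw [D.pi_lift]; exact hv
    apply exists_rel_diag P D h1
    apply hconj _ _ _ D.z_ne
    intro h2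
    rw [h2, D.pi_one] at h1
    exact h1 rfl
  -- three lines
  have h3 : p ≤ 13 ∧ p ≠ 11 := by
    let v : Fin 3 → Fin 2 → ZMod p := ![![1, 0], ![0, 1], ![1, 1]]
    have hv : ∀ i, v i ≠ 0 := by
      intro i h0
      fin_cases i
      · have := congrFun h0 0; simp [v] at this
      · have := congrFun h0 1; simp [v] at this
      · have := congrFun h0 1; simp [v] at this
    choose a ha1 ha2 using fun i => hall (v i) (hv i)
    refine three P D hp2 a (fun i => by rw [ha1]; exact hv i) ?_ ha2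
    intro i j hij c hc
    rw [ha1, ha1] at hc
    have e0 := congrFun hc 0
    have e1 := congrFun hc 1
    clear ha1 ha2 hc
    fin_cases i <;> fin_cases j <;>
      first
        | exact hij rfl
        | (simp [v] at e0 e1; done)
        | (simp [v] at e0 e1; rw [e0] at e1; exact one_ne_zero e1)
        | (simp [v] at e0 e1; rw [e0] at e1; exact zero_ne_one e1)
  by_cases h13 : p = 13
  · exfalso
    let v : Fin 7 → Fin 2 → ZMod p := fun i => ![((i : ℕ) : ZMod p), 1]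
    have hv : ∀ i, v i ≠ 0 := by
      intro i h0
      have := congrFun h0 1
      simp [v] at this
    choose a ha1 ha2 using fun i => hall (v i) (hv i)
    refine seven P D hp2 a (fun i => by rw [ha1]; exact hv i) ?_ ha2 h13
    intro i j hij c hc
    rw [ha1, ha1] at hc
    have e0 := congrFun hc 0
    have e1 := congrFun hc 1
    simp only [v, Pi.smul_apply, smul_eq_mul, Matrix.cons_val_zero, Matrix.cons_val_one, mul_one] at e0 e1
    rw [e1, one_mul, ZMod.natCast_eq_natCast_iff'] at e0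
    have h4 := i.2
    have h5 := j.2
    rw [Nat.mod_eq_of_lt (by omega), Nat.mod_eq_of_lt (by omega)] at e0
    exact hij (Fin.ext e0.symm)
  · by_contra hcon
    push Not at hcon
    obtain ⟨h5, h6⟩ := h3
    have h7 := hp.out
    interval_cases p <;> first | (exact absurd rfl h6) | (exact absurd rfl h13) | (revert h7; decide)

end Cfsg.Agent.H275.AllConj
end

-- part: S3055
section
set_option autoImplicit false
open Cfsg

namespace Cfsg.Agent.S3055

/-- Let p be an odd prime and G a finite group with a Sylow p-subgroup P that is extraspecial of order p³ and exponent p. If all nonidentity elements of P are conjugate in G, then p ≤ 7. -/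
theorem result {G : Type*} [Group G] [Finite G]
    {p : ℕ} [Fact p.Prime] (hp : p ≠ 2) (P : Sylow p G) (hE : Cfsg.IsExtraspecial p ↥P)
    (hcard : Nat.card P = p ^ 3) (hexp : Monoid.exponent ↥P = p)
    (hconj : ∀ x y : ↥P, x ≠ 1 → y ≠ 1 → ∃ g : G, g * (x : G) * g⁻¹ = (y : G)) :
    p ≤ 7 := by
  exact Cfsg.Agent.H275.AllConj.main P hp hE hcard hexp hconj

end Cfsg.Agent.S3055
end
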