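import Mathlib
import Cfsg.Prelude.Def_Solvable
import Cfsg.Agent.Solvable.FrobeniusTheorem
import Cfsg.Statements.S3064
set_option linter.all false

-- part: H276/Isolated
section
/-!
# Isolated `p`-elements centralising every `p'`-subgroup that they normalise are central
-/

set_option autoImplicit false

open Subgroup
open scoped Pointwise

namespace Cfsg.Agent.H276

universe u

/-- Induction form. -/
theorem mem_center_of_isolated_aux {p : ℕ} [Fact p.Prime] (n : ℕ) :
    ∀ (G : Type u) [Group G] [Finite G], Nat.card G = n → ∀ x : G,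
      (∃ k : ℕ, x ^ p ^ k = 1) →
      (∀ Q : Subgroup G, IsPGroup p Q → x ∈ Q → ∀ g : G, g⁻¹ * x * g ∈ Q → g⁻¹ * x * g = x) →
      (∀ H : Subgroup G, (Nat.card H).Coprime p → (∀ h ∈ H, x * h * x⁻¹ ∈ H) →
        ∀ h ∈ H, x * h = h * x) →
      x ∈ Subgroup.center G := by
  induction n using Nat.strong_induction_on with
  | _ n ih =>
  intro G _ _ hn x hxp hU hb
  by_contra hxc
  have hp : p.Prime := Fact.out
  -- proper subgroups containing x lie in C(x)
  have hprop : ∀ H : Subgroup G, H ≠ ⊤ → x ∈ H → H ≤ centralizer {x} := by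
    intro H hH hx
    have hlt : Nat.card H < n := by
      rw [← hn]
      refine lt_of_le_of_ne (Subgroup.card_le_card_group H) ?_
      intro heq
      exact hH (Subgroup.eq_top_of_card_eq H heq)
    have h := ih (Nat.card H) hlt H rfl ⟨x, hx⟩ ?_ ?_ ?_
    · intro y hy
      have h2 := mem_center_iff.mp h ⟨y, hy⟩
      rw [mem_centralizer_iff]
      intro z hz
      rw [Set.mem_singleton_iff] at hz; subst hz
      exact (congrArg Subtype.val h2).symm
    · obtain ⟨k, hk⟩ := hxp
      exact ⟨k, Subtype.ext hk⟩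
    · intro Q hQ hxQ g hg
      have := hU (Q.map H.subtype) (hQ.map _) ⟨_, hxQ, rfl⟩ (g : G) ⟨_, hg, rfl⟩
      exact Subtype.ext this
    · intro K hK hK2 h hh
      have hcard : Nat.card (K.map H.subtype) = Nat.card K :=
        Nat.card_congr (K.equivMapOfInjective _ H.subtype_injective).symm.toEquiv
      have := hb (K.map H.subtype) (by rw [hcard]; exact hK) ?_ (h : G) ⟨h, hh, rfl⟩
      · exact Subtype.ext this
      · rintro _ ⟨y, hy, rfl⟩
        exact ⟨_, hK2 y hy, rfl⟩
  set M := centralizer ({x} : Set G) with hM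
  set Z := Subgroup.center G with hZ
  have hZM : Z ≤ M := center_le_centralizer _
  have hxM : x ∈ M := by
    rw [hM, mem_centralizer_iff]; intro y hy; rw [Set.mem_singleton_iff] at hy; rw [hy]
  have hMtop : M ≠ ⊤ := by
    intro h
    apply hxc
    rw [mem_center_iff]
    intro g
    have : g ∈ M := by rw [h]; exact mem_top g
    exact (mem_centralizer_iff.mp this x rfl).symm
  have hxpg : IsPGroup p (zpowers x) := by
    obtain ⟨k, hk⟩ := hxp
    intro ⟨y, hy⟩
    obtain ⟨m, rfl⟩ := mem_zpowers_iff.mp hy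
    refine ⟨k, Subtype.ext ?_⟩
    have : (x ^ m) ^ p ^ k = (x ^ p ^ k) ^ m := by
      rw [← zpow_natCast, ← zpow_mul, mul_comm, zpow_mul, zpow_natCast]
    simp only [SubmonoidClass.coe_pow, OneMemClass.coe_one]
    rw [this, hk, one_zpow]
  -- conjugates generate
  have hgen : ∀ g : G, g ∉ M → ∀ c : G, c * x = x * c → c * (g * x * g⁻¹) = (g * x * g⁻¹) * c →
      c ∈ Z := by
    intro g hg c hc1 hc2
    have hK : closure {x, g * x * g⁻¹} = ⊤ := by
      by_contra hK
      have hle := hprop _ hK (subset_closure (by simp))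
      have hcomm : x * (g * x * g⁻¹) = (g * x * g⁻¹) * x := by
        have : g * x * g⁻¹ ∈ M := hle (subset_closure (by simp))
        exact mem_centralizer_iff.mp this x rfl
      have hyp : IsPGroup p (zpowers (g * x * g⁻¹)) := by
        have h1 : zpowers (g * x * g⁻¹) = (zpowers x).map (MulAut.conj g).toMonoidHom := by
          rw [MonoidHom.map_zpowers]; simp
        rw [h1]; exact hxpg.map _
      have hQ : IsPGroup p (zpowers (g * x * g⁻¹) ⊔ zpowers x : Subgroup G) := by
        apply IsPGroup.to_sup_of_normal_right' hyp hxpg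
        rw [zpowers_le]
        refine centralizer_le_normalizer _ ?_
        rw [mem_centralizer_iff]
        intro z hz
        obtain ⟨m, rfl⟩ := mem_zpowers_iff.mp hz
        exact ((show Commute x (g * x * g⁻¹) from hcomm).zpow_left m)
      have h2 := hU _ hQ (mem_sup_right (mem_zpowers x)) g⁻¹ (by
        rw [inv_inv]; exact mem_sup_left (mem_zpowers _))
      rw [inv_inv] at h2
      apply hg
      rw [hM, mem_centralizer_iff]
      intro z hz
      rw [Set.mem_singleton_iff] at hz; subst hz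
      rw [mul_inv_eq_iff_eq_mul] at h2
      exact h2.symm
    rw [hZ, mem_center_iff]
    intro y
    have hy : y ∈ closure {x, g * x * g⁻¹} := by rw [hK]; exact mem_top y
    have hcc : closure {x, g * x * g⁻¹} ≤ centralizer {c} := by
      rw [closure_le]
      rintro z (hz | hz)
      · subst hz
        rw [SetLike.mem_coe, mem_centralizer_iff]
        intro w hw; rw [Set.mem_singleton_iff] at hw; subst hw; exact hc1
      · rw [Set.mem_singleton_iff] at hz; subst hz
        rw [SetLike.mem_coe, mem_centralizer_iff]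
        intro w hw; rw [Set.mem_singleton_iff] at hw; subst hw; exact hc2
    exact (mem_centralizer_iff.mp (hcc hy) c rfl).symm
  -- the quotient
  let π := QuotientGroup.mk' Z
  have hπs : Function.Surjective π := QuotientGroup.mk'_surjective Z
  have hπ1 : ∀ g : G, π g = 1 ↔ g ∈ Z := fun g => QuotientGroup.eq_one_iff g
  have hMbar : ∀ g : G, π g ∈ M.map π ↔ g ∈ M := by
    intro g
    constructor
    · rintro ⟨m, hm, hmg⟩
      have h1 : π (m⁻¹ * g) = 1 := by rw [map_mul, map_inv, hmg, inv_mul_cancel]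
      have h2 := hZM ((hπ1 _).mp h1)
      have : g = m * (m⁻¹ * g) := by group
      rw [this]; exact mul_mem hm h2
    · intro h; exact ⟨g, h, rfl⟩
  have hF : Cfsg.IsFrobeniusComplement (M.map π) := by
    refine ⟨?_, ?_, ?_⟩
    · intro hbot
      apply hxc
      have : π x ∈ M.map π := ⟨x, hxM, rfl⟩
      rw [hbot, mem_bot] at this
      exact (hπ1 x).mp this
    · intro htop
      apply hMtop
      rw [eq_top_iff]
      intro g _
      rw [← hMbar, htop]; exact mem_top _
    · intro gb hgb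
      obtain ⟨g, rfl⟩ := hπs gb
      rw [hMbar] at hgb
      rw [eq_bot_iff]
      intro yb hyb
      obtain ⟨y, rfl⟩ := hπs yb
      obtain ⟨h1, h2⟩ := mem_inf.mp hyb
      rw [hMbar] at h1
      rw [Cfsg.Agent.Solvable.FrobeniusKernel.mem_conj_smul, ← map_inv, ← map_mul, ← map_mul,
        hMbar] at h2
      rw [mem_bot, hπ1]
      have h1' := mem_centralizer_iff.mp h1 x rfl
      have h2' := mem_centralizer_iff.mp h2 x rfl
      refine hgen g hgb y h1'.symm ?_
      -- h2' : x * (g⁻¹ * y * g) = g⁻¹ * y * g * x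
      calc y * (g * x * g⁻¹) = g * ((g⁻¹ * y * g) * x) * g⁻¹ := by group
        _ = g * (x * (g⁻¹ * y * g)) * g⁻¹ := by rw [h2']
        _ = _ := by group
  obtain ⟨Nb, -, hNbn, hNbc⟩ := Cfsg.Agent.Solvable.FrobeniusTheorem.frobenius hF
  -- the order of Nb is prime to p
  have hNbcard : ¬ p ∣ Nat.card Nb := by
    obtain ⟨S, hS⟩ := hxpg.exists_le_sylow
    have hxS : x ∈ (S : Subgroup G) := hS (mem_zpowers x)
    have hSM : (S : Subgroup G) ≤ M := by
      intro s hs
      have h1 : s⁻¹ * x * s ∈ (S : Subgroup G) := mul_mem (mul_mem (inv_mem hs) hxS) hs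
      have h2 := hU (S : Subgroup G) S.isPGroup' hxS s h1
      rw [hM, mem_centralizer_iff]
      intro z hz
      rw [Set.mem_singleton_iff] at hz; subst hz
      calc z * s = s * (s⁻¹ * z * s) := by group
        _ = s * z := by rw [h2]
    have h1 : ¬ p ∣ M.index := fun h =>
      S.not_dvd_index (h.trans (Subgroup.index_dvd_of_le hSM))
    have h2 : (M.map π).index = M.index := by
      rw [Subgroup.index_map_eq _ hπs]
      rw [QuotientGroup.ker_mk']; exact hZM
    have h3 : Nat.card Nb = (M.map π).index := by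
      exact hNbc.index_eq_card.symm
    rw [h3, h2]; exact h1
  let N := Nb.comap π
  -- p-elements of N are central
  have hNZ : ∀ y ∈ N, ∀ k : ℕ, y ^ p ^ k = 1 → y ∈ Z := by
    intro y hy k hk
    rw [← hπ1]
    have h1 : (⟨π y, hy⟩ : Nb) ^ p ^ k = 1 := by
      apply Subtype.ext
      simp only [SubmonoidClass.coe_pow, OneMemClass.coe_one]
      rw [← map_pow, hk, map_one]
    have h2 : orderOf (⟨π y, hy⟩ : Nb) ∣ p ^ k := orderOf_dvd_of_pow_eq_one h1
    have h3 : orderOf (⟨π y, hy⟩ : Nb) ∣ Nat.card Nb := orderOf_dvd_natCard _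
    have h4 : (p ^ k).Coprime (Nat.card Nb) := Nat.Coprime.pow_left k ((hp.coprime_iff_not_dvd).mpr hNbcard)
    have h5 := Nat.eq_one_of_dvd_coprimes h4 h2 h3
    rw [orderOf_eq_one_iff] at h5
    exact congrArg Subtype.val h5
  obtain ⟨P₀⟩ : Nonempty (Sylow p N) := inferInstance
  have hP₀Z : ∀ y : N, y ∈ P₀ → (y : G) ∈ Z := by
    intro y hy
    obtain ⟨k, hk⟩ := P₀.isPGroup' ⟨y, hy⟩
    refine hNZ y y.2 k ?_
    have := congrArg Subtype.val (congrArg Subtype.val hk)
    exact this
  have hPC : normalizer ((P₀ : Subgroup N) : Set N) ≤ centralizer ((P₀ : Subgroup N) : Set N) := by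
    intro y _
    rw [mem_centralizer_iff]
    intro z hz
    exact Subtype.ext ((mem_center_iff.mp (hP₀Z z hz) y).symm)
  set φ := MonoidHom.transferSylow P₀ hPC with hφ
  have hcompl := MonoidHom.ker_transferSylow_isComplement' P₀ hPC
  have hnd := MonoidHom.not_dvd_card_ker_transferSylow P₀ hPC
  rw [← hφ] at hcompl hnd
  let U : Subgroup G := φ.ker.map N.subtype
  have hUcard : (Nat.card U).Coprime p := by
    have hcard : Nat.card U = Nat.card φ.ker :=
      Nat.card_congr (φ.ker.equivMapOfInjective _ N.subtype_injective).symm.toEquiv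
    rw [hcard, Nat.coprime_comm, hp.coprime_iff_not_dvd]
    exact hnd
  have hNn : N.Normal := hNbn.comap π
  have hUx : ∀ h ∈ U, x * h * x⁻¹ ∈ U := by
    rintro _ ⟨h, hh, rfl⟩
    have hmem : x * (h : G) * x⁻¹ ∈ N := hNn.conj_mem _ h.2 x
    refine ⟨⟨_, hmem⟩, ?_, rfl⟩
    rw [SetLike.mem_coe, MonoidHom.mem_ker]
    -- the order
    obtain ⟨k, hk⟩ := P₀.isPGroup' (φ ⟨_, hmem⟩)
    have h2 : orderOf (φ ⟨_, hmem⟩) ∣ p ^ k := orderOf_dvd_of_pow_eq_one hk
    have h3 : orderOf (φ ⟨_, hmem⟩) ∣ Nat.card φ.ker := by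
      refine (orderOf_map_dvd φ _).trans ?_
      have e1 : orderOf (⟨x * (h : G) * x⁻¹, hmem⟩ : N) = orderOf (x * (h : G) * x⁻¹) := by
        rw [← Subgroup.orderOf_coe]
      have e2 : orderOf (x * (h : G) * x⁻¹) = orderOf (h : G) := by
        have := MulEquiv.orderOf_eq (MulAut.conj x) (h : G)
        exact this
      have e3 : orderOf (h : G) = orderOf (⟨h, hh⟩ : φ.ker) := by
        rw [← Subgroup.orderOf_coe (⟨h, hh⟩ : φ.ker), ← Subgroup.orderOf_coe h]
      rw [e1, e2, e3]
      exact orderOf_dvd_natCard _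
    have h4 : (p ^ k).Coprime (Nat.card φ.ker) :=
      Nat.Coprime.pow_left k ((hp.coprime_iff_not_dvd).mpr hnd)
    have h5 := Nat.eq_one_of_dvd_coprimes h4 h2 h3
    rwa [orderOf_eq_one_iff] at h5
  have hUc := hb U hUcard hUx
  have hNM : N ≤ M := by
    intro y hy
    obtain ⟨⟨a, b⟩, hab⟩ := hcompl.2 ⟨y, hy⟩
    have hab' : (a : N) * (b : N) = ⟨y, hy⟩ := hab
    have ha : ((a : N) : G) ∈ U := ⟨a, a.2, rfl⟩
    have h1 := hUc _ ha
    have h2 := mem_center_iff.mp (hP₀Z b b.2) x
    rw [hM, mem_centralizer_iff]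
    intro z hz
    rw [Set.mem_singleton_iff] at hz; subst hz
    have hy2 : y = ((a : N) : G) * ((b : N) : G) := by
      have := congrArg Subtype.val hab'
      exact this.symm
    rw [hy2, ← mul_assoc, h1, mul_assoc, h2, mul_assoc]
  -- contradiction
  apply hF.2.1
  have hNb : Nb = ⊥ := by
    rw [eq_bot_iff]
    intro yb hyb
    obtain ⟨y, rfl⟩ := hπs yb
    have h1 : y ∈ N := hyb
    have h2 : π y ∈ M.map π := ⟨y, hNM h1, rfl⟩
    have h3 := hNbc.disjoint
    rw [disjoint_def] at h3
    rw [mem_bot]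
    exact h3 hyb h2
  rw [hNb] at hNbc
  exact Subgroup.isComplement'_bot_left.mp hNbc

/-- A `p`-element `x` of a Sylow `p`-subgroup `S` which is its only conjugate in `S` and centralises
every `p'`-subgroup that it normalises is central. -/
theorem mem_center_of_isolated {G : Type u} [Group G] [Finite G] {p : ℕ} [Fact p.Prime]
    (S : Sylow p G) (x : G) (hx : x ∈ S)
    (hU : ∀ g : G, g⁻¹ * x * g ∈ S → g⁻¹ * x * g = x)
    (hb : ∀ H : Subgroup G, (Nat.card H).Coprime p → (∀ h ∈ H, x * h * x⁻¹ ∈ H) →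
      ∀ h ∈ H, x * h = h * x) :
    x ∈ Subgroup.center G := by
  refine mem_center_of_isolated_aux (p := p) _ G rfl x ?_ ?_ hb
  · obtain ⟨k, hk⟩ := S.isPGroup' ⟨x, hx⟩
    exact ⟨k, congrArg Subtype.val hk⟩
  · intro Q hQ hxQ g hg
    obtain ⟨T, hT⟩ := hQ.exists_le_sylow
    obtain ⟨h, hh⟩ := MulAction.exists_smul_eq G S T
    have hmem : ∀ y : G, y ∈ Q → h⁻¹ * y * h ∈ S := by
      intro y hy
      have h1 : y ∈ (T : Subgroup G) := hT hy
      rw [← hh] at h1
      have h2 : y ∈ MulAut.conj h • (S : Subgroup G) := h1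
      rwa [Cfsg.Agent.Solvable.FrobeniusKernel.mem_conj_smul] at h2
    have h1 := hU h (hmem x hxQ)
    have h2 := hmem _ hg
    have h3 : h⁻¹ * (g⁻¹ * x * g) * h = (g * h)⁻¹ * x * (g * h) := by group
    rw [h3] at h2
    have h4 := hU _ h2
    rw [← h3] at h4
    have h5 : g⁻¹ * x * g = h * x * h⁻¹ := by
      calc g⁻¹ * x * g = h * (h⁻¹ * (g⁻¹ * x * g) * h) * h⁻¹ := by group
        _ = h * x * h⁻¹ := by rw [h4]
    have h6 : h * x * h⁻¹ = x := by
      have : x = h * x * h⁻¹ := by
        calc x = h * (h⁻¹ * x * h) * h⁻¹ := by group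
          _ = h * x * h⁻¹ := by rw [h1]
      exact this.symm
    rw [h5, h6]

end Cfsg.Agent.H276
end

-- part: S3064
section
set_option autoImplicit false
open Cfsg

namespace Cfsg.Agent.S3064

/-- Let S be a Sylow p-subgroup of the finite group G and x an element of S such that (i) x is the only G-conjugate of x lying in S, and (ii) x centralizes every subgroup of order prime to p that it normalizes. Then x lies in the centre of G. -/
theorem result {G : Type*} [Group G] [Finite G] {p : ℕ} [Fact p.Prime]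
    (S : Sylow p G) (x : G) (hx : x ∈ S)
    (hU : ∀ g : G, g⁻¹ * x * g ∈ S → g⁻¹ * x * g = x)
    (hb : ∀ H : Subgroup G, (Nat.card H).Coprime p → (∀ h ∈ H, x * h * x⁻¹ ∈ H) → ∀ h ∈ H, x * h = h * x) :
    x ∈ Subgroup.center G :=
  Cfsg.Agent.H276.mem_center_of_isolated S x hx hU hb

end Cfsg.Agent.S3064
end
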