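import Cfsg.Agent.H263.FF.OddOff
import Cfsg.Agent.TwoFusion.SLTwoFacts
import Mathlib.NumberTheory.SumTwoSquares
import Cfsg.Agent.H215.J7.Iface_mg
import Cfsg.Agent.H215.Off
import Cfsg.Agent.H273.PMinimal
import Cfsg.Agent.Lib.SylowNormalInf
import Mathlib
import Cfsg.Agent.S0633
import Cfsg.Agent.Lib.PSolvable
import Cfsg.Agent.Lib.Cores
import Cfsg.Agent.H41.ChiefFactor
import Cfsg.Agent.H39.FTMain
import Cfsg.Agent.H215.J7.Assembly
import Cfsg.Statements.S3068
set_option linter.all false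

-- part: H456/J7/FF
section
/-!
# S3068, T7a: central involutions for FF-modules (helper456)
-/

set_option autoImplicit false

namespace Cfsg.Agent.H456.J7.FF

open Subgroup Cfsg
open Cfsg.Agent.H263.FF.Basic Cfsg.Agent.H263.FF.OddOff
open scoped commutatorElement

open Matrix in
/-- `y² = -1` and `x y x⁻¹ = - y` in `SL₂(F)` -/
theorem exists_xy (F : Type*) [Field F] [Fintype F] : ∃ x y : SpecialLinearGroup (Fin 2) F,
    y * y = -1 ∧ x * y * x⁻¹ = -1 * y := by
  obtain ⟨q, hq⟩ := CharP.exists F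
  have : NeZero q := ⟨CharP.char_ne_zero_of_finite F q⟩
  obtain ⟨a, b, hab⟩ := CharP.sq_add_sq F q (-1)
  have hab' : (a : F) ^ 2 + (b : F) ^ 2 = -1 := by rw [hab]; simp
  have h1 : det (!![(a : F), b; b, -a]) = 1 := by rw [det_fin_two_of]; linear_combination -hab'
  have h2 : det (!![(0 : F), 1; -1, 0]) = 1 := by rw [det_fin_two_of]; ring
  obtain ⟨x, hx⟩ : ∃ x : SpecialLinearGroup (Fin 2) F, (x : Matrix (Fin 2) (Fin 2) F) = !![(a : F), b; b, -a] :=
    ⟨⟨_, h1⟩, rfl⟩
  obtain ⟨y, hy⟩ : ∃ x : SpecialLinearGroup (Fin 2) F, (x : Matrix (Fin 2) (Fin 2) F) = !![(0 : F), 1; -1, 0] :=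
    ⟨⟨_, h2⟩, rfl⟩
  refine ⟨x, y, ?_, ?_⟩
  · apply Matrix.SpecialLinearGroup.ext
    intro i j
    rw [Matrix.SpecialLinearGroup.coe_mul, hy, Matrix.SpecialLinearGroup.coe_neg, Matrix.SpecialLinearGroup.coe_one]
    fin_cases i <;> fin_cases j <;> simp
  · have h3 : x * y = -1 * y * x := by
      apply Matrix.SpecialLinearGroup.ext
      intro i j
      rw [Matrix.SpecialLinearGroup.coe_mul, Matrix.SpecialLinearGroup.coe_mul, Matrix.SpecialLinearGroup.coe_mul, hx, hy,
        Matrix.SpecialLinearGroup.coe_neg, Matrix.SpecialLinearGroup.coe_one]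
      fin_cases i <;> fin_cases j <;> simp
    rw [h3, mul_inv_cancel_right]

variable {X : Type*} [Group X] {V : Type*} [AddCommGroup V] [DistribMulAction X V]

/-- the elements of one factor -/
structure One (V : Type*) [AddCommGroup V] [DistribMulAction X V] (E : Subgroup X) (x y z : X) : Prop where
  hx : x ∈ E
  hy : y ∈ E
  hz : z ∈ E
  yy : y * y = z
  xy : x * y * x⁻¹ = z * y
  zc : ∀ e ∈ E, z * e = e * z
  neg : ∀ e ∈ E, ∀ v : V, e • (z • v + v) = z • v + v

theorem exists_one {E : Subgroup X} (h : NatA V E) : ∃ x y z : X, One V E x y z := by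
  obtain ⟨F, hF, hFt, φ, π, hs, hk, ha⟩ := h
  obtain ⟨x, y, h1, h2⟩ := exists_xy F
  refine ⟨φ.symm x, φ.symm y, φ.symm (-1), (φ.symm x).2, (φ.symm y).2, (φ.symm (-1)).2, ?_, ?_, ?_, ?_⟩
  · rw [← Subgroup.coe_mul, ← map_mul, h1]
  · rw [← Subgroup.coe_mul, ← map_mul, ← Subgroup.coe_inv, ← map_inv, ← Subgroup.coe_mul, ← map_mul, h2,
      map_mul, Subgroup.coe_mul]
  · intro e he
    have h3 : φ.symm (-1) * ⟨e, he⟩ = ⟨e, he⟩ * φ.symm (-1) := by
      apply φ.injective
      rw [map_mul, map_mul, φ.apply_symm_apply]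
      exact (neg_one_mul _).trans (mul_neg_one _).symm
    exact congrArg Subtype.val h3
  · intro e he v
    apply (hk _).1 ?_ e he
    rw [map_add, ha, φ.apply_symm_apply]
    show Matrix.mulVec (-1 : Matrix (Fin 2) (Fin 2) F) (π v) + π v = 0
    rw [Matrix.neg_mulVec, Matrix.one_mulVec, neg_add_cancel]

/-- the properties of `x`, `y`, `z` for the set `s` of factors -/
structure Good {r : ℕ} (E : Fin r → Subgroup X) (V : Type*) [AddCommGroup V] [DistribMulAction X V]
    (s : Finset (Fin r)) (x y z : X) : Prop where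
  hx : x ∈ ⨆ i, E i
  hy : y ∈ ⨆ i, E i
  hz : z ∈ ⨆ i, E i
  yy : y * y = z
  xy : x * y * x⁻¹ = z * y
  zc : ∀ i, ∀ e ∈ E i, z * e = e * z
  xc : ∀ i ∉ s, ∀ e ∈ E i, x * e = e * x
  yc : ∀ i ∉ s, ∀ e ∈ E i, y * e = e * y
  neg : ∀ i ∈ s, ∀ e ∈ E i, ∀ v : V, e • (z • v + v) = z • v + v
  out : ∀ i ∉ s, ∀ e ∈ E i, ∀ v : V, e • (z • v - v) = z • v - v

theorem exists_good {r : ℕ} {E : Fin r → Subgroup X} (hc : ∀ i j, i ≠ j → ∀ g ∈ E i, ∀ h ∈ E j, g * h = h * g)
    (ho : ∀ i j, i ≠ j → ∀ g ∈ E i, ∀ h ∈ E j, ∀ v : V, h • (g • v - v) = g • v - v)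
    (h : ∀ i, ∃ x y z : X, One V (E i) x y z) (s : Finset (Fin r)) : ∃ x y z : X, Good E V s x y z := by
  classical
  induction s using Finset.induction_on with
  | empty =>
    refine ⟨1, 1, 1, one_mem _, one_mem _, one_mem _, ?_, ?_, ?_, ?_, ?_, ?_, ?_⟩
    · simp
    · simp
    · intro i e _; simp
    · intro i _ e _; simp
    · intro i _ e _; simp
    · intro i hi; exact absurd hi (Finset.notMem_empty i)
    · intro i _ e _ v; simp
  | @insert k s hk ih =>
    obtain ⟨x, y, z, g⟩ := ih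
    obtain ⟨x', y', z', o⟩ := h k
    have hle : E k ≤ ⨆ i, E i := le_iSup E k
    have e1 : x * x' = x' * x := g.xc k hk x' o.hx
    have e2 : y * y' = y' * y := g.yc k hk y' o.hy
    have e3 : x * y' = y' * x := g.xc k hk y' o.hy
    have e4 : y * x' = x' * y := g.yc k hk x' o.hx
    have e5 : z * y' = y' * z := g.zc k y' o.hy
    have e6 : z * x' = x' * z := g.zc k x' o.hx
    have e7 : z' * y = y * z' := (g.yc k hk z' o.hz).symm
    have e8 : z' * y' = y' * z' := o.zc y' o.hy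
    refine ⟨x * x', y * y', z * z', mul_mem g.hx (hle o.hx), mul_mem g.hy (hle o.hy), mul_mem g.hz (hle o.hz),
      ?_, ?_, ?_, ?_, ?_, ?_, ?_⟩
    · rw [mul_assoc, ← mul_assoc y', ← e2, mul_assoc y, o.yy, ← mul_assoc, g.yy]
    · have h1 : x * y = z * y * x := by rw [← g.xy, inv_mul_cancel_right]
      have h2 : x' * y' = z' * y' * x' := by rw [← o.xy, inv_mul_cancel_right]
      rw [mul_inv_eq_iff_eq_mul]
      calc x * x' * (y * y') = x * (x' * y) * y' := by group
        _ = x * y * (x' * y') := by rw [← e4]; group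
        _ = z * y * x * (z' * y' * x') := by rw [h1, h2]
        _ = z * y * (x * z') * y' * x' := by group
        _ = z * y * z' * (x * y') * x' := by rw [g.xc k hk z' o.hz]; group
        _ = z * (y * z') * y' * (x * x') := by rw [e3]; group
        _ = z * z' * (y * y') * (x * x') := by rw [← e7]; group
    · intro i e he
      have h1 : z' * e = e * z' := by
        by_cases hik : i = k
        · subst hik; exact o.zc e he
        · exact hc k i (fun h => hik h.symm) z' o.hz e he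
      rw [mul_assoc, h1, ← mul_assoc, g.zc i e he, mul_assoc]
    · intro i hi e he
      rw [Finset.mem_insert, not_or] at hi
      rw [mul_assoc, hc k i (fun h => hi.1 h.symm) x' o.hx e he, ← mul_assoc, g.xc i hi.2 e he, mul_assoc]
    · intro i hi e he
      rw [Finset.mem_insert, not_or] at hi
      rw [mul_assoc, hc k i (fun h => hi.1 h.symm) y' o.hy e he, ← mul_assoc, g.yc i hi.2 e he, mul_assoc]
    · intro i hi e he v
      rcases Finset.mem_insert.1 hi with rfl | hi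
      · have e9 : (z * z') • v + v = (z • (z' • v) - z' • v) + (z' • v + v) := by
          rw [mul_smul]; abel
        rw [e9, smul_add, g.out i hk e he, o.neg e he]
      · have hik : k ≠ i := by rintro rfl; exact hk hi
        have e9 : (z * z') • v + v = (z • (z' • v) + z' • v) - (z' • v - v) := by
          rw [mul_smul]; abel
        rw [e9, smul_sub, g.neg i hi e he, ho k i hik z' o.hz e he]
    · intro i hi e he v
      rw [Finset.mem_insert, not_or] at hi
      have e9 : (z * z') • v - v = (z • (z' • v) - z' • v) + (z' • v - v) := by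
        rw [mul_smul]; abel
      rw [e9, smul_add, g.out i hi.2 e he, ho k i (fun h => hi.1 h.symm) z' o.hz e he]

theorem card_ge {p : ℕ} (hp : Nat.Prime p) (h5 : 5 ≤ p) (hpV : ∀ v : V, p • v = 0) (F : Type) [Field F] [Fintype F] (π : V →+ (Fin 2 → F))
    (hs : Function.Surjective π) : 3 < Fintype.card F := by
  have h0 : (p : F) = 0 := by
    obtain ⟨v, hv⟩ := hs (fun _ => 1)
    have h1 : π (p • v) = 0 := by rw [hpV, map_zero]
    rw [map_nsmul, hv] at h1
    have h2 := congrFun h1 0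
    simpa using h2
  have : Fact p.Prime := ⟨hp⟩
  have : CharP F p := by
    obtain ⟨q, hq⟩ := CharP.exists F
    have h1 : q ∣ p := (CharP.cast_eq_zero_iff F q p).1 h0
    rcases (Nat.dvd_prime hp).1 h1 with h2 | h2
    · exact absurd h2 (CharP.char_ne_one F q)
    · rw [← h2]; exact hq
  obtain ⟨n, -, hn⟩ := FiniteField.card F p
  have h1 : p ^ 1 ≤ p ^ (n : ℕ) := Nat.pow_le_pow_right hp.pos n.2
  rw [pow_one] at h1
  omega

theorem commutator_eq_self {p : ℕ} (hp : Nat.Prime p) (h5 : 5 ≤ p) (hpV : ∀ v : V, p • v = 0) {E : Subgroup X}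
    (h : NatA V E) : ⁅E, E⁆ = E := by
  obtain ⟨F, hF, hFt, φ, π, hs, hk, ha⟩ := h
  have h1 := TwoFusion.SLTwoFacts.commutator_eq_top (card_ge hp h5 hpV F π hs)
  have h2 : commutator E = ⊤ := by
    have h3 : (commutator (Matrix.SpecialLinearGroup (Fin 2) F)).map φ.symm.toMonoidHom = ⊤ := by
      rw [h1, ← MonoidHom.range_eq_map]
      exact MonoidHom.range_eq_top.2 φ.symm.surjective
    rw [eq_top_iff, ← h3, commutator_def, Subgroup.map_commutator, commutator_def]
    exact Subgroup.commutator_mono le_top le_top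
  rw [← Subgroup.map_subtype_commutator, h2, ← MonoidHom.range_eq_map, Subgroup.range_subtype]

/-- **T7a** -/
theorem t7a_ff {p : ℕ} [Fact p.Prime] {X : Type*} [Group X] [Finite X] {V : Type*} [AddCommGroup V] [Finite V] [DistribMulAction X V]
    (hp : 5 ≤ p) (hX : Cfsg.IsPMinimal p X) (hcore : ∀ N : Subgroup X, N.Normal → IsPGroup p N → N = ⊥)
    (h2 : ∀ v : V, p • v = 0) (hf : ∀ x : X, (∀ v : V, x • v = v) → x = 1) {A : Subgroup X} (hA : EA p A)
    (hne : A ≠ ⊥) (hoff : Nat.card V ≤ mm V A) :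
    ∃ E : Subgroup X, A ≤ E ∧ (∀ J : Subgroup X, J.Normal → A ≤ J → E ≤ J) ∧ ⁅E, E⁆ = E ∧
      ∃ x ∈ E, ∃ y ∈ E, ∃ z ∈ E, y * y = z ∧ x * y * x⁻¹ = z * y ∧ (∀ e ∈ E, z * e = e * z) ∧
        ∀ v : V, z • v = v → ∀ a ∈ A, a • v = v := by
  have hpp : Nat.Prime p := Fact.out
  have hp2 : p ≠ 2 := by omega
  obtain ⟨T⟩ : Nonempty (Sylow p X) := inferInstance
  obtain ⟨r, E, -, hc, -, -, ho, hn, hall⟩ := full hX hp2 hcore h2 hf hA hne hoff T
  obtain ⟨hAE, hJ⟩ := hall A hA hne hoff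
  obtain ⟨x, y, z, g⟩ := exists_good hc ho (fun i => exists_one (hn i)) Finset.univ
  have hsm : ∀ (S : Subgroup X) , (∀ i, E i ≤ S) → ∀ e ∈ ⨆ i, E i, e ∈ S := fun S hS e he =>
    (iSup_le hS : (⨆ i, E i) ≤ S) he
  refine ⟨⨆ i, E i, hAE, hJ, ?_, x, g.hx, y, g.hy, z, g.hz, g.yy, g.xy, ?_, ?_⟩
  · apply le_antisymm (Subgroup.commutator_le_self _)
    refine iSup_le fun i => ?_
    rw [← commutator_eq_self hpp hp h2 (hn i)]
    exact Subgroup.commutator_mono (le_iSup E i) (le_iSup E i)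
  · intro e he
    have := hsm (centralizer {z}) (fun i e he => by
      rw [mem_centralizer_iff]
      rintro _ rfl
      exact g.zc i e he) e he
    exact (mem_centralizer_iff.1 this) z rfl
  · intro v hv a ha
    have key : ∀ i, E i ≤ MulAction.stabilizer X v := by
      intro i e he
      rw [MulAction.mem_stabilizer_iff]
      have h1 := g.neg i (Finset.mem_univ i) e he v
      rw [hv, smul_add] at h1
      have h3 : (2 : ℕ) • (e • v - v) = 0 := by
        rw [two_nsmul]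
        have : (e • v - v) + (e • v - v) = (e • v + e • v) - (v + v) := by abel
        rw [this, h1, sub_self]
      have h4 : p • (e • v - v) = 0 := h2 _
      have hcop : Nat.Coprime 2 p := (Nat.coprime_primes Nat.prime_two hpp).2 (Ne.symm hp2)
      have h5 : addOrderOf (e • v - v) ∣ Nat.gcd 2 p :=
        Nat.dvd_gcd (addOrderOf_dvd_of_nsmul_eq_zero h3) (addOrderOf_dvd_of_nsmul_eq_zero h4)
      rw [hcop] at h5
      exact sub_eq_zero.1 (AddMonoid.addOrderOf_eq_one_iff.1 (Nat.dvd_one.1 h5))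
    exact MulAction.mem_stabilizer_iff.1 (hsm _ key a (hAE ha))

end Cfsg.Agent.H456.J7.FF
end

-- part: H456/J7/Invol
section
/-!
# S3068, T7d: the element `t` (helper456)
-/

set_option autoImplicit false
set_option linter.unusedSectionVars false

namespace Cfsg.Agent.H456.J7.Invol

open Subgroup Cfsg Cfsg.Agent.H215.J7
open Cfsg.Agent.H215.Off Cfsg.Agent.H215.Act Cfsg.Agent.H215.Setup Cfsg.Agent.H215.Setup.Min
open Cfsg.Agent.H263.FF.Basic Cfsg.Agent.H263.FF.Setup
open scoped commutatorElement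

/-- the statement of T7b -/
def T7b (p : ℕ) (Y X : Type*) [Group Y] [Finite Y] [Group X] : Prop :=
  ∀ (π : Y →* X) (_ : Function.Surjective π)
    (_ : ¬ p ∣ Nat.card π.ker) {A : Subgroup Y} (_ : IsPGroup p A) (_ : ∀ a ∈ A, ∀ k ∈ π.ker, a * k = k * a)
    {E : Subgroup X} (_ : A.map π ≤ E) (_ : ∀ J : Subgroup X, J.Normal → A.map π ≤ J → E ≤ J)
    (_ : ⁅E, E⁆ = E) {x y z : X} (_ : x ∈ E) (_ : y ∈ E) (_ : y * y = z) (_ : x * y * x⁻¹ = z * y)
    (_ : ∀ e ∈ E, z * e = e * z),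
    ∃ t : Y, t * t = 1 ∧ π t = z ∧ ∀ a ∈ A, t * a = a * t

/-- the statement of T7c -/
def T7c (p : ℕ) (G : Type*) [Group G] : Prop :=
  ∀ (_ : centralizer (pCore p G : Set G) ≤ pCore p G) {D N A : Subgroup G} (_ : D.Normal)
    (_ : D ≤ pCore p G) (_ : pCore p G ⊓ centralizer (D : Set G) ≤ D) (_ : N.Normal) (_ : pCore p G ≤ N)
    (_ : ¬ p ∣ (pCore p G).relIndex N) (_ : IsPGroup p A)
    (_ : ∀ U V : Subgroup G, IsChiefFactor U V → U ≤ D → ∀ a ∈ A, iterCommutator U (zpowers a) 6 ≤ V),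
    ⁅N, A⁆ ≤ pCore p G

variable {G : Type*} [Group G] [Finite G] {p : ℕ} [hp : Fact p.Prime]

/-- the hypotheses for the quotient `G / C_G(V)` -/
structure Cf (p : ℕ) [Fact p.Prime] (S : Sylow p G) (M : Subgroup G) : Prop where
  Mne : M ≠ ⊤
  max : ∀ H : Subgroup G, (S : Subgroup G) ≤ H → H ≠ ⊤ → H ≤ M
  CS : centralizer (V p G : Set G) ⊔ (S : Subgroup G) ≠ ⊤
  SQ : ¬ (S : Subgroup G) ≤ pCore p G

namespace Cf

variable {S : Sylow p G} {M : Subgroup G} (m : Cf p S M)
include m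

theorem S_ne : (S : Subgroup G) ≠ ⊤ := by
  intro h
  apply m.CS
  rw [h]; exact sup_top_eq _

theorem SM : (S : Subgroup G) ≤ M := m.max _ le_rfl m.S_ne

theorem CM : centralizer (V p G : Set G) ≤ M := le_sup_left.trans (m.max _ le_sup_right m.CS)

theorem sup_or_inf (N : Subgroup G) (hN : N.Normal) : N ⊔ S = ⊤ ∨ (S : Subgroup G) ⊓ N ≤ pCore p G := by
  by_cases h : N ⊔ S = ⊤
  · exact Or.inl h
  right
  have hNM : N ≤ M := le_sup_left.trans (m.max _ le_sup_right h)
  have h1 := Cfsg.Agent.H39.sylow_le_normalizer_inf S N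
  have h2 : Subgroup.normalizer (((S : Subgroup G) ⊓ N : Subgroup G) : Set G) = ⊤ := by
    by_contra h3
    have h4 := m.max _ h1 h3
    apply m.Mne
    rw [eq_top_iff]
    intro x _
    obtain ⟨n, hn, l, hl, rfl⟩ := Cfsg.Agent.H39.exists_mul_normalizer S N x
    exact mul_mem (h4 hn) (hNM hl)
  exact Cfsg.Agent.Lib.Cores.le_pCore (Subgroup.normalizer_eq_top_iff.1 h2) (S.isPGroup'.to_le inf_le_left)

theorem CS_inf : (S : Subgroup G) ⊓ centralizer (V p G : Set G) ≤ pCore p G := by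
  have _ := V_normal (p := p) (G := G)
  exact (m.sup_or_inf _ inferInstance).resolve_left m.CS

theorem comap_M : (M.map (pp p G)).comap (pp p G) = M := by
  rw [Subgroup.comap_map_eq, ker_pp]
  exact sup_eq_left.2 m.CM

theorem M_ne : M.map (pp p G) ≠ ⊤ := by
  intro h
  apply m.Mne
  rw [← comap_M m, h, Subgroup.comap_top]

theorem le_of_TT {H : Subgroup (Xg p G)} (h : (TT S : Subgroup (Xg p G)) ≤ H) : H ≤ M.map (pp p G) ∨ H = ⊤ := by
  by_cases h1 : H.comap (pp p G) = ⊤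
  · right
    rw [eq_top_iff]
    intro x _
    obtain ⟨x, rfl⟩ := pr_surj x
    have : x ∈ H.comap (pp p G) := by rw [h1]; trivial
    exact this
  · left
    have h2 : (S : Subgroup G) ≤ H.comap (pp p G) := by
      rw [← Subgroup.map_le_iff_le_comap]; exact h
    have h3 := m.max _ h2 h1
    intro x hx
    obtain ⟨x, rfl⟩ := pr_surj x
    exact ⟨x, h3 hx, rfl⟩

theorem coatom_M : IsCoatom (M.map (pp p G)) := by
  refine ⟨M_ne m, fun K hK => ?_⟩
  refine (le_of_TT m ?_).resolve_left fun h => hK.not_ge h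
  exact (Subgroup.map_mono m.SM).trans hK.le

theorem TT_not_normal : ¬ (TT S : Subgroup (Xg p G)).Normal := by
  intro h
  have h1 : ((TT S : Subgroup (Xg p G)).comap (pp p G)).Normal := h.comap _
  rw [coe_TT, Subgroup.comap_map_eq, ker_pp] at h1
  rcases m.sup_or_inf _ h1 with h2 | h2
  · apply m.CS
    rw [← h2]
    apply le_antisymm
    · exact sup_le (le_sup_right.trans le_sup_left) le_sup_right
    · exact sup_le (sup_le le_sup_right le_sup_left) le_sup_right
  · exact m.SQ ((le_inf le_rfl le_sup_left).trans h2)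

theorem pmin : IsPMinimal p (Xg p G) := by
  refine Cfsg.Agent.H273.PMinimal.isPMinimal_of_sylow (TT S) (TT_not_normal m)
    ⟨M.map (pp p G), ⟨coatom_M m, Subgroup.map_mono m.SM⟩, ?_⟩
  rintro N ⟨hN, hTN⟩
  have h3 := (le_of_TT m hTN).resolve_right hN.1
  by_contra hne
  exact M_ne m (hN.2 _ (lt_of_le_of_ne h3 hne))

theorem core (N : Subgroup (Xg p G)) (hN : N.Normal) (hNp : IsPGroup p N) : N = ⊥ := by
  have h1 : (N.comap (pp p G)).Normal := hN.comap _
  have hNT : N ≤ (TT S : Subgroup (Xg p G)) :=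
    (Cfsg.Agent.Lib.Cores.le_pCore hN hNp).trans (Cfsg.Agent.Lib.Cores.pCore_le_sylow (TT S))
  rcases m.sup_or_inf _ h1 with h2 | h2
  · exfalso
    apply m.CS
    have h3 : N.comap (pp p G) ≤ Subgroup.centralizer (V p G : Set G) ⊔ S := by
      have h4 := Subgroup.comap_mono (f := pp p G) hNT
      rw [coe_TT, Subgroup.comap_map_eq, ker_pp, sup_comm] at h4
      exact h4
    rw [eq_top_iff, ← h2]
    exact sup_le h3 le_sup_right
  · rw [eq_bot_iff]
    intro n hn
    obtain ⟨s, hs, rfl⟩ := hNT hn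
    rw [Subgroup.mem_bot]
    have h3 : s ∈ (pp p G).ker := by
      rw [ker_pp]; exact QC (h2 ⟨hs, hn⟩)
    exact h3

end Cf

theorem VV_eq : VV p (pCore p G) = V p G := rfl

/-- the image of `A` is elementary abelian -/
theorem ea_map {A : Subgroup G} (hAc : Ab A)
    (hquad : ∀ z ∈ ZZ (pCore p G), ∀ a ∈ A, ∀ b ∈ A, ⁅a, ⁅b, z⁆⁆ = 1) : EA p (A.map (pp p G)) := by
  constructor
  · rintro _ ⟨a, ha, rfl⟩ _ ⟨b, hb, rfl⟩
    rw [← map_mul, ← map_mul, hAc a ha b hb]
  · rintro _ ⟨a, ha, rfl⟩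
    apply pr_faithful
    intro v
    have hq : pp p G a • (pp p G a • v - v) = pp p G a • v - v := by
      show a • (a • v - v) = a • v - v
      rw [Md.smul_eq_iff]
      have e : (a • v - v).val = ⁅a, v.val⁆ := by
        rw [Md.val_sub, Md.val_smul]; rfl
      rw [e]
      have := hquad v.val v.val_mem.1 a ha a ha
      exact commutatorElement_eq_one_iff_mul_comm.1 this
    have key : ∀ k : ℕ, (pp p G a) ^ k • v = v + k • (pp p G a • v - v) := by
      intro k
      induction k with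
      | zero => rw [pow_zero, one_smul, zero_smul, add_zero]
      | succ k ih =>
        have h3 : pp p G a • (k • (pp p G a • v - v)) = k • (pp p G a • v - v) := by
          rw [smul_comm, hq]
        rw [pow_succ', mul_smul, ih, smul_add, h3, succ_nsmul]
        abel
    rw [key, W_pow, add_zero]

theorem relIndex_inf_mul (S : Sylow p G) {N : Subgroup G} [N.Normal] (h : (S : Subgroup G) ⊓ N ≤ pCore p G) :
    ¬ p ∣ (pCore p G).relIndex N := by
  intro hd
  apply Lib.SylowNormalInf.not_dvd_relIndex S N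
  have h1 : ((S : Subgroup G) ⊓ N).relIndex N = (S : Subgroup G).relIndex N := inf_relIndex_right _ _
  rw [← h1]
  refine hd.trans ?_
  have h2 : (S : Subgroup G) ⊓ N = pCore p G ⊓ N := by
    apply le_antisymm
    · exact le_inf h inf_le_right
    · exact inf_le_inf_right _ (Cfsg.Agent.Lib.Cores.pCore_le_sylow S)
  rw [h2, inf_relIndex_right]

/-- **T7d**, from T7b and T7c -/
theorem t7d_of (hp5 : 5 ≤ p) (S : Sylow p G) {M : Subgroup G} (c : Cfg p (S : Subgroup G) M)
    {R D A : Subgroup G} (h : RD p (pCore p G) R D) (hAS : A ≤ S) (hAc : Ab A)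
    (hAm : ∀ B ≤ (S : Subgroup G), Ab B → Nat.card B ≤ Nat.card A) (hAQ : ¬ A ≤ pCore p G)
    (hquad : ∀ z ∈ ZZ (pCore p G), ∀ a ∈ A, ∀ b ∈ A, ⁅a, ⁅b, z⁆⁆ = 1)
    (hN : centralizer (VV p (pCore p G) : Set G) ⊔ (S : Subgroup G) ≠ ⊤)
    (hb : ∀ U V : Subgroup G, IsChiefFactor U V → U ≤ D → ∀ a ∈ A, iterCommutator U (zpowers a) 6 ≤ V)
    [hQn : (pCore p G).Normal] (t7b : T7b p (G ⧸ pCore p G) (Xg p G)) (t7c : T7c p G) :
    ∃ t : G, t * t ∈ pCore p G ∧ (∀ a ∈ A, ⁅t, a⁆ ∈ pCore p G) ∧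
      ∀ v ∈ VV p (pCore p G), t * v = v * t → ∀ a ∈ A, a * v = v * a := by
  rw [VV_eq] at hN ⊢
  have m : Cf p S M := ⟨c.ne, c.max, hN, fun hc => hAQ (hAS.trans hc)⟩
  have hVn := V_normal (p := p) (G := G)
  set N := centralizer (V p G : Set G) with hNdef
  have hNn : N.Normal := inferInstance
  have hQN : pCore p G ≤ N := QC
  have hQS : pCore p G ≤ S := Cfsg.Agent.Lib.Cores.pCore_le_sylow S
  have hNp : ¬ p ∣ (pCore p G).relIndex N := relIndex_inf_mul S m.CS_inf
  have hAp : IsPGroup p A := S.isPGroup'.to_le hAS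
  have hNA : ⁅N, A⁆ ≤ pCore p G := t7c c.cen h.Dn h.leQ (h.cen.trans h.le) hNn hQN hNp hAp hb
  -- the module
  have hEA := ea_map hAc hquad
  have hA1 : A.map (pp p G) ≠ ⊥ := by
    intro h1
    apply hAQ
    rw [Subgroup.map_eq_bot_iff, ker_pp] at h1
    exact (le_inf hAS h1).trans m.CS_inf
  have hLA : H215.Fun.LA (S : Subgroup G) A := ⟨hAS, hAc, hAm⟩
  have hVS : V p G ≤ S := V_le.trans hQS
  have hoff : Nat.card (W p G) ≤ mm (W p G) (A.map (pp p G)) := by
    have h1 := mm_le (p := p) hLA hVS (B := ⊥) bot_le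
    rwa [mm_bot] at h1
  obtain ⟨E, hAE, hEJ, hEE, x, hx, y, hy, z, hz, hyy, hxy, hzc, hfix⟩ :=
    FF.t7a_ff hp5 m.pmin m.core W_pow pr_faithful hEA hA1 hoff
  -- the projection of `G / Q`
  let π : G ⧸ pCore p G →* Xg p G := QuotientGroup.lift (pCore p G) (pp p G) (by
    intro g hg
    have h1 : g ∈ (pp p G).ker := by rw [ker_pp]; exact hQN hg
    exact h1)
  have hπ : ∀ g : G, π (QuotientGroup.mk' (pCore p G) g) = pp p G g := fun g => rfl
  have hπs : Function.Surjective π := by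
    intro g
    obtain ⟨g, rfl⟩ := pr_surj g
    exact ⟨QuotientGroup.mk' _ g, rfl⟩
  have hker : π.ker = N.map (QuotientGroup.mk' (pCore p G)) := by
    ext g
    obtain ⟨g, rfl⟩ := QuotientGroup.mk'_surjective _ g
    rw [MonoidHom.mem_ker, hπ]
    constructor
    · intro h1
      have h3 : g ∈ (pp p G).ker := h1
      rw [ker_pp] at h3
      exact ⟨g, h3, rfl⟩
    · rintro ⟨n, hn, hng⟩
      have h1 : pp p G n = 1 := by
        have : n ∈ (pp p G).ker := by rw [ker_pp]; exact hn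
        exact this
      rw [← hπ, ← hng, hπ, h1]
  have hKp : ¬ p ∣ Nat.card π.ker := by
    rw [hker]
    intro hd
    apply hNp
    have h1 := card_map_mul (QuotientGroup.mk' (pCore p G)) N
    rw [QuotientGroup.ker_mk', inf_eq_right.2 hQN] at h1
    have h3 := Lib.SylowNormalInf.card_mul_relIndex (pCore p G) N hQN
    have h4 : Nat.card (N.map (QuotientGroup.mk' (pCore p G))) = (pCore p G).relIndex N := by
      have hpos : 0 < Nat.card (pCore p G) := Nat.card_pos
      apply Nat.eq_of_mul_eq_mul_left hpos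
      rw [h3, ← h1, mul_comm]
    rwa [h4] at hd
  have hmap : (A.map (QuotientGroup.mk' (pCore p G))).map π = A.map (pp p G) := by
    rw [Subgroup.map_map]; rfl
  obtain ⟨t, ht1, ht2, ht3⟩ := t7b π hπs hKp (A := A.map (QuotientGroup.mk' (pCore p G)))
    (hAp.map _) (by
      rintro _ ⟨a, ha, rfl⟩ k hk
      rw [hker] at hk
      obtain ⟨n, hn, rfl⟩ := hk
      have h1 : ⁅n, a⁆ ∈ pCore p G := hNA (commutator_mem_commutator hn ha)
      have h3 : ⁅QuotientGroup.mk' (pCore p G) n, QuotientGroup.mk' (pCore p G) a⁆ = 1 := by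
        rw [← map_commutatorElement]
        exact (QuotientGroup.eq_one_iff _).2 h1
      exact (commutatorElement_eq_one_iff_mul_comm.1 h3).symm) (E := E)
    (by rw [hmap]; exact hAE) (by intro J hJ hJA; rw [hmap] at hJA; exact hEJ J hJ hJA) hEE hx hy hyy hxy hzc
  obtain ⟨t, rfl⟩ := QuotientGroup.mk'_surjective _ t
  refine ⟨t, ?_, ?_, ?_⟩
  · rw [← map_mul] at ht1
    exact (QuotientGroup.eq_one_iff _).1 ht1
  · intro a ha
    have h1 := ht3 _ ⟨a, ha, rfl⟩
    have h3 : QuotientGroup.mk' (pCore p G) ⁅t, a⁆ = 1 := by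
      rw [map_commutatorElement]
      exact commutatorElement_eq_one_iff_mul_comm.2 h1
    exact (QuotientGroup.eq_one_iff _).1 h3
  · intro v hv htv a ha
    have h1 : z • (Md.mk _ hInv hv : W p G) = Md.mk _ hInv hv := by
      rw [← ht2, hπ]
      exact (Md.smul_eq_iff t _).2 htv
    exact (Md.smul_eq_iff a (Md.mk _ hInv hv : W p G)).1 (hfix _ h1 _ ⟨a, ha, rfl⟩)

end Cfsg.Agent.H456.J7.Invol
end

-- part: H250/J7/T7b
section
/-!
# S3068, task T7b: lifting the involution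
-/

set_option autoImplicit false

namespace Cfsg.Agent.H250.J7

open Subgroup
open scoped commutatorElement

theorem t7b_lift {p : ℕ} [Fact p.Prime] {Y X : Type*} [Group Y] [Finite Y] [Group X] (π : Y →* X) (hπ : Function.Surjective π)
    (hK : ¬ p ∣ Nat.card π.ker) {A : Subgroup Y} (hA : IsPGroup p A) (hAK : ∀ a ∈ A, ∀ k ∈ π.ker, a * k = k * a)
    {E : Subgroup X} (hAE : A.map π ≤ E) (hEJ : ∀ J : Subgroup X, J.Normal → A.map π ≤ J → E ≤ J)
    (hEE : ⁅E, E⁆ = E) {x y z : X} (hx : x ∈ E) (hy : y ∈ E) (hyz : y * y = z) (hxy : x * y * x⁻¹ = z * y)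
    (hz : ∀ e ∈ E, z * e = e * z) :
    ∃ t : Y, t * t = 1 ∧ π t = z ∧ ∀ a ∈ A, t * a = a * t := by
  -- the normal closure
  set Γ : Subgroup Y := normalClosure (A : Set Y) with hΓ
  have hAΓ : A ≤ Γ := subset_normalClosure
  have hΓn : Γ.Normal := normalClosure_normal
  -- `Γ` centralises the kernel
  have hΓK : ∀ g ∈ Γ, ∀ k ∈ π.ker, g * k = k * g := by
    have h1 : Γ ≤ centralizer (π.ker : Set Y) := by
      rw [hΓ]
      have hn : (centralizer (π.ker : Set Y)).Normal := inferInstance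
      refine normalClosure_le_normal fun a ha => ?_
      intro k hk
      exact (hAK a ha k hk).symm
    intro g hg k hk
    exact (h1 hg k hk).symm
  have hEΓ : E ≤ Γ.map π := hEJ _ (hΓn.map π hπ) (map_mono hAΓ)
  set ΓE : Subgroup Y := Γ ⊓ E.comap π with hΓE
  have hmapE : ΓE.map π = E := by
    apply le_antisymm
    · rw [map_le_iff_le_comap]; exact inf_le_right
    · intro e he
      obtain ⟨g, hg, rfl⟩ := hEΓ he
      exact ⟨g, ⟨hg, he⟩, rfl⟩
  set D : Subgroup Y := ⁅ΓE, ΓE⁆ with hD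
  have hmapD : D.map π = E := by rw [hD, map_commutator, hmapE, hEE]
  have hDΓ : D ≤ Γ := by
    rw [hD]
    exact (commutator_le.2 fun a ha b hb => by
      rw [commutatorElement_def]
      exact Γ.mul_mem (Γ.mul_mem (Γ.mul_mem ha.1 hb.1) (Γ.inv_mem ha.1)) (Γ.inv_mem hb.1))
  -- elements over `C(E)` commute with `D`
  have key : ∀ g ∈ Γ, (∀ e ∈ E, π g * e = e * π g) → ∀ w ∈ D, g * w = w * g := by
    intro g hg hge
    have hker : ∀ w ∈ ΓE, g * w * g⁻¹ * w⁻¹ ∈ π.ker := by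
      intro w hw
      rw [MonoidHom.mem_ker, map_mul, map_mul, map_mul, map_inv, map_inv, hge _ hw.2]
      group
    -- the centraliser of `g` contains the commutators
    have hc : D ≤ centralizer ({g} : Set Y) := by
      rw [hD, commutator_le]
      intro a ha b hb
      rw [mem_centralizer_singleton_iff]
      have h1 : g * a * g⁻¹ = (g * a * g⁻¹ * a⁻¹) * a := by group
      have h2 : g * b * g⁻¹ = (g * b * g⁻¹ * b⁻¹) * b := by group
      set k := g * a * g⁻¹ * a⁻¹ with hk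
      set l := g * b * g⁻¹ * b⁻¹ with hl
      have hkK : k ∈ π.ker := hker a ha
      have hlK : l ∈ π.ker := hker b hb
      have ka := hΓK a ha.1 k hkK
      have kb := hΓK b hb.1 k hkK
      have la := hΓK a ha.1 l hlK
      have lb := hΓK b hb.1 l hlK
      have hkΓ : k ∈ Γ := by
        rw [hk]; exact Γ.mul_mem (Γ.mul_mem (Γ.mul_mem hg ha.1) (Γ.inv_mem hg)) (Γ.inv_mem ha.1)
      have kl := hΓK k hkΓ l hlK
      have h3 : g * ⁅a, b⁆ * g⁻¹ = ⁅a, b⁆ := by
        have e1 : g * ⁅a, b⁆ * g⁻¹ = (g * a * g⁻¹) * (g * b * g⁻¹) * (g * a * g⁻¹)⁻¹ * (g * b * g⁻¹)⁻¹ := by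
          rw [commutatorElement_def]; group
        rw [e1, h1, h2, commutatorElement_def]
        have e2 : k * a * (l * b) = (k * l) * (a * b) := by
          calc k * a * (l * b) = k * (a * l) * b := by group
            _ = k * (l * a) * b := by rw [la]
            _ = _ := by group
        have e3 : (k * a)⁻¹ * (l * b)⁻¹ = (k * l)⁻¹ * (a⁻¹ * b⁻¹) := by
          have e4 : (l * b) * (k * a) = (k * l) * (b * a) := by
            calc (l * b) * (k * a) = l * (b * k) * a := by group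
              _ = l * (k * b) * a := by rw [kb]
              _ = (l * k) * (b * a) := by group
              _ = _ := by rw [kl]
          have e5 : (k * l) * (b * a) = (b * a) * (k * l) := by
            have f1 : b * a * k = k * (b * a) := by rw [mul_assoc, ka, ← mul_assoc, kb, mul_assoc]
            have f2 : b * a * l = l * (b * a) := by rw [mul_assoc, la, ← mul_assoc, lb, mul_assoc]
            rw [← mul_assoc (b * a), f1, mul_assoc k (b * a), f2]; group
          calc (k * a)⁻¹ * (l * b)⁻¹ = ((l * b) * (k * a))⁻¹ := by group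
            _ = ((b * a) * (k * l))⁻¹ := by rw [e4, e5]
            _ = _ := by group
        have e6 : (k * l) * (a * b) * (k * l)⁻¹ = a * b := by
          have f1 : a * b * k = k * (a * b) := by rw [mul_assoc, kb, ← mul_assoc, ka, mul_assoc]
          have f2 : a * b * l = l * (a * b) := by rw [mul_assoc, lb, ← mul_assoc, la, mul_assoc]
          rw [mul_inv_eq_iff_eq_mul, ← mul_assoc (a * b), f1, mul_assoc k (a * b), f2]; group
        calc k * a * (l * b) * (k * a)⁻¹ * (l * b)⁻¹ = (k * a * (l * b)) * ((k * a)⁻¹ * (l * b)⁻¹) := by group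
          _ = ((k * l) * (a * b) * (k * l)⁻¹) * (a⁻¹ * b⁻¹) := by rw [e2, e3]; group
          _ = a * b * a⁻¹ * b⁻¹ := by rw [e6]; group
      rw [mul_inv_eq_iff_eq_mul] at h3
      exact h3.symm
    intro w hw
    have := hc hw
    rw [mem_centralizer_singleton_iff] at this
    exact this.symm
  -- the lifts
  obtain ⟨x', hx', hx'e⟩ : x ∈ D.map π := by rw [hmapD]; exact hx
  obtain ⟨y', hy', hy'e⟩ : y ∈ D.map π := by rw [hmapD]; exact hy
  have hxΓ := hDΓ hx'
  have hyΓ := hDΓ hy'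
  set t := x' * y' * x'⁻¹ * y'⁻¹ with ht
  have htΓ : t ∈ Γ := Γ.mul_mem (Γ.mul_mem (Γ.mul_mem hxΓ hyΓ) (Γ.inv_mem hxΓ)) (Γ.inv_mem hyΓ)
  have hπt : π t = z := by
    rw [ht, map_mul, map_mul, map_mul, map_inv, map_inv, hx'e, hy'e, hxy, mul_inv_cancel_right]
  have hπy : π (y' * y') = z := by rw [map_mul, hy'e, hyz]
  have hty : t * y' = y' * t := key t htΓ (by rw [hπt]; exact hz) y' hy'
  have hyy : (y' * y') * x' = x' * (y' * y') := key _ (Γ.mul_mem hyΓ hyΓ) (by rw [hπy]; exact hz) x' hx'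
  have htt : t * t = 1 := by
    have e1 : x' * y' * x'⁻¹ = t * y' := by rw [ht]; group
    have e2 : x' * (y' * y') * x'⁻¹ = (t * t) * (y' * y') := by
      calc x' * (y' * y') * x'⁻¹ = (x' * y' * x'⁻¹) * (x' * y' * x'⁻¹) := by group
        _ = t * (y' * t) * y' := by rw [e1]; group
        _ = t * (t * y') * y' := by rw [hty]
        _ = _ := by group
    rw [← hyy, mul_inv_cancel_right] at e2
    exact (mul_eq_right.1 e2.symm)
  refine ⟨t, htt, hπt, fun a ha => ?_⟩
  -- the commutator map on `A`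
  have hcK : ∀ b ∈ A, t * b * t⁻¹ * b⁻¹ ∈ π.ker := by
    intro b hb
    rw [MonoidHom.mem_ker, map_mul, map_mul, map_mul, map_inv, map_inv, hπt, hz _ (hAE ⟨b, hb, rfl⟩)]
    group
  have hpow : ∀ n : ℕ, t * a ^ n * t⁻¹ * (a ^ n)⁻¹ = (t * a * t⁻¹ * a⁻¹) ^ n := by
    intro n
    induction n with
    | zero => simp
    | succ n ih =>
      have e1 := hAK (a ^ n) (A.pow_mem ha n) _ (hcK a ha)
      rw [pow_succ (t * a * t⁻¹ * a⁻¹), ← ih]
      calc t * a ^ (n + 1) * t⁻¹ * (a ^ (n + 1))⁻¹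
          = (t * a ^ n * t⁻¹) * (t * a * t⁻¹ * a⁻¹) * (a ^ n)⁻¹ := by rw [pow_succ]; group
        _ = (t * a ^ n * t⁻¹) * ((a ^ n)⁻¹ * (a ^ n)) * (t * a * t⁻¹ * a⁻¹) * (a ^ n)⁻¹ := by
            rw [inv_mul_cancel, mul_one]
        _ = (t * a ^ n * t⁻¹ * (a ^ n)⁻¹) * ((a ^ n) * (t * a * t⁻¹ * a⁻¹)) * (a ^ n)⁻¹ := by group
        _ = (t * a ^ n * t⁻¹ * (a ^ n)⁻¹) * (t * a * t⁻¹ * a⁻¹) := by rw [e1]; group
  set c := t * a * t⁻¹ * a⁻¹ with hc
  have hcK' : c ∈ π.ker := hcK a ha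
  obtain ⟨k, hk⟩ := hA ⟨a, ha⟩
  have hk' : a ^ p ^ k = 1 := congrArg Subtype.val hk
  have h1 : c ^ p ^ k = 1 := by
    rw [← hpow, hk']; group
  have h2 : c = 1 := by
    have h3 : orderOf c ∣ p ^ k := orderOf_dvd_of_pow_eq_one h1
    have h4 : orderOf c ∣ Nat.card π.ker := by
      have := orderOf_dvd_natCard (⟨c, hcK'⟩ : ↥π.ker)
      rwa [← Subgroup.orderOf_coe] at this
    rcases (Nat.dvd_prime_pow Fact.out).1 h3 with ⟨j, -, hj⟩
    rcases Nat.eq_zero_or_pos j with hj0 | hj0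
    · rw [hj0, pow_zero] at hj
      exact orderOf_eq_one_iff.1 hj
    · exfalso
      apply hK
      exact ((dvd_pow_self p hj0.ne').trans (hj ▸ dvd_rfl)).trans h4
  rw [hc, mul_inv_eq_one, mul_inv_eq_iff_eq_mul] at h2
  exact h2

end Cfsg.Agent.H250.J7
end

-- part: H456/J7/T7d
section
/-!
# S3068, T7d: the element `t`, from T7c (helper456)
-/

set_option autoImplicit false

namespace Cfsg.Agent.H456.J7

open Subgroup Cfsg Cfsg.Agent.H215.J7
open scoped commutatorElement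

universe u

variable {G : Type u} [Group G] [Finite G] {p : ℕ} [Fact p.Prime]

/-- **T7d**, from T7c (`hc` is exactly the statement of `t7c_hh` for `G`) -/
theorem t7d_of_t7c (hp : 7 ≤ p)
    (hc : ∀ (_ : centralizer (pCore p G : Set G) ≤ pCore p G) {D N A : Subgroup G} (_ : D.Normal)
      (_ : D ≤ pCore p G) (_ : pCore p G ⊓ centralizer (D : Set G) ≤ D) (_ : N.Normal) (_ : pCore p G ≤ N)
      (_ : ¬ p ∣ (pCore p G).relIndex N) (_ : IsPGroup p A)
      (_ : ∀ U V : Subgroup G, IsChiefFactor U V → U ≤ D → ∀ a ∈ A, iterCommutator U (zpowers a) 6 ≤ V),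
      ⁅N, A⁆ ≤ pCore p G)
    (S : Sylow p G) {M : Subgroup G} (c : Cfg p (S : Subgroup G) M)
    {R D A : Subgroup G} (h : RD p (pCore p G) R D) (hAS : A ≤ S) (hAc : Ab A)
    (hAm : ∀ B ≤ (S : Subgroup G), Ab B → Nat.card B ≤ Nat.card A) (hAQ : ¬ A ≤ pCore p G)
    (hquad : ∀ z ∈ ZZ (pCore p G), ∀ a ∈ A, ∀ b ∈ A, ⁅a, ⁅b, z⁆⁆ = 1)
    (hN : centralizer (VV p (pCore p G) : Set G) ⊔ (S : Subgroup G) ≠ ⊤)
    (hb : ∀ U V : Subgroup G, IsChiefFactor U V → U ≤ D → ∀ a ∈ A, iterCommutator U (zpowers a) 6 ≤ V) :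
    ∃ t : G, t * t ∈ pCore p G ∧ (∀ a ∈ A, ⁅t, a⁆ ∈ pCore p G) ∧
      ∀ v ∈ VV p (pCore p G), t * v = v * t → ∀ a ∈ A, a * v = v * a := by
  have hQn := Cfsg.Agent.Lib.Cores.pCore_normal p (G := G)
  refine Invol.t7d_of (by omega) S c h hAS hAc hAm hAQ hquad hN hb ?_ hc
  intro π h1 h2 A h3 h4 E h5 h6 h7 x y z h8 h9 h10 h11 h12
  exact Cfsg.Agent.H250.J7.t7b_lift π h1 h2 h3 h4 h5 h6 h7 h8 h9 h10 h11 h12

end Cfsg.Agent.H456.J7
end

-- part: H764/J7/HH
section
/-! # S3068, T7c: Hall–Higman for a normal `p'`-subgroup and an element with `(a - 1)^6 = 0`, `p ≥ 7` -/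
set_option autoImplicit false

namespace Cfsg.Agent.H764.J7
open Cfsg Subgroup Cfsg.Agent.Lib
open scoped commutatorElement

theorem six_ne {q m : ℕ} (hq : q.Prime) (h : 6 = q ^ m) : False := by
  have h2 : 2 ∣ q ^ m := by rw [← h]; norm_num
  have h3 : 3 ∣ q ^ m := by rw [← h]; norm_num
  have h4 := (Nat.prime_dvd_prime_iff_eq Nat.prime_two hq).1 (Nat.prime_two.dvd_of_dvd_pow h2)
  have h5 := (Nat.prime_dvd_prime_iff_eq Nat.prime_three hq).1 (Nat.prime_three.dvd_of_dvd_pow h3)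
  omega

/-- `A` normal `p'`-subgroup `K` of `H = K⟨x⟩` with `x^p = 1`, `x ∉ C(K)`: `O_p(H) = 1`. -/
theorem core_bot {H : Type*} [Group H] [Finite H] {p : ℕ} [Fact p.Prime] (K : Subgroup H) (hKn : K.Normal)
    (hK : ¬ p ∣ Nat.card K) (x : H) (hx : x ^ p = 1) (ht : K ⊔ zpowers x = ⊤) (hc : ¬ ∀ k ∈ K, x * k = k * x) :
    pCore p H = ⊥ := by
  have hp : p.Prime := Fact.out
  have hPp : IsPGroup p (pCore p H) := Cores.pCore_isPGroup p
  have hPn : (pCore p H).Normal := Cores.pCore_normal p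
  -- `P` centralizes `K`
  have hdis : K ⊓ pCore p H = ⊥ := by
    rw [eq_bot_iff]
    intro y hy
    obtain ⟨j, hj⟩ := hPp ⟨y, hy.2⟩
    have h1 : y ^ p ^ j = 1 := congrArg Subtype.val hj
    have h2 : orderOf y ∣ p ^ j := orderOf_dvd_of_pow_eq_one h1
    have h3 : orderOf y ∣ Nat.card K := by
      have := orderOf_dvd_natCard (⟨y, hy.1⟩ : K)
      rwa [orderOf_mk] at this
    have h4 : Nat.Coprime (p ^ j) (Nat.card K) := Nat.Coprime.pow_left _ ((Nat.Prime.coprime_iff_not_dvd hp).2 hK)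
    have h5 : orderOf y = 1 := Nat.eq_one_of_dvd_coprimes h4 h2 h3
    exact orderOf_eq_one_iff.1 h5
  have hcomm : ∀ k ∈ K, ∀ y ∈ pCore p H, y * k = k * y := by
    intro k hk y hy
    have h1 : ⁅y, k⁆ ∈ K ⊓ pCore p H := by
      refine Subgroup.mem_inf.2 ⟨?_, ?_⟩
      · rw [commutatorElement_def]
        exact mul_mem (hKn.conj_mem k hk y) (inv_mem hk)
      · rw [commutatorElement_def]
        have : y * k * y⁻¹ * k⁻¹ = y * (k * y⁻¹ * k⁻¹) := by group
        rw [this]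
        exact mul_mem hy (hPn.conj_mem _ (inv_mem hy) k)
    rw [hdis, mem_bot, commutatorElement_eq_one_iff_mul_comm] at h1
    exact h1
  by_contra hne
  apply hc
  intro k hk
  refine hcomm k hk x ?_
  -- `|H| = |K| p`
  have hxK : ∀ y : H, ∃ j : ℕ, x ^ j * y ∈ K := by
    intro y
    have hy : y ∈ K ⊔ zpowers x := by rw [ht]; exact mem_top y
    rw [sup_comm, Subgroup.mem_sup_of_normal_right] at hy
    obtain ⟨u, hu, v, hv, rfl⟩ := hy
    obtain ⟨i, hi⟩ := (Subgroup.mem_zpowers_iff.1 hu)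
    obtain ⟨j, hj⟩ : ∃ j : ℕ, x ^ j = u⁻¹ := by
      have h0 : u⁻¹ ∈ zpowers x := (zpowers x).inv_mem hu
      have h1 : u⁻¹ ∈ Submonoid.powers x := (mem_powers_iff_mem_zpowers).2 h0
      obtain ⟨j, hj⟩ := h1
      exact ⟨j, hj⟩
    exact ⟨j, by rw [hj, inv_mul_cancel_left]; exact hv⟩
  -- Sylow
  obtain ⟨T, hT⟩ := (IsPGroup.of_card (p := p) (n := orderOf x |>.factorization p) (G := zpowers x) (by
    have h1 : orderOf x ∣ p := orderOf_dvd_of_pow_eq_one hx
    rw [Nat.card_zpowers]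
    rcases (Nat.dvd_prime hp).1 h1 with h2 | h2
    · rw [h2]; simp
    · rw [h2]; simp [Nat.Prime.factorization_self hp])).exists_le_sylow
  have hPT : pCore p H ≤ T := by
    have := hPp.exists_le_sylow
    obtain ⟨T', hT'⟩ := this
    obtain ⟨g, hg⟩ := MulAction.exists_smul_eq H T' T
    intro y hy
    rw [← hg]
    rw [Sylow.coe_subgroup_smul]
    rw [Subgroup.mem_pointwise_smul_iff_inv_smul_mem]
    refine hT' ?_
    have := hPn.conj_mem y hy g⁻¹
    simpa using this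
  -- `T` embeds in `H / K`, of order dividing `p`
  have hTp : Nat.card T ∣ p := by
    have h1 : K ⊓ (T : Subgroup H) = ⊥ := by
      rw [eq_bot_iff]
      intro y hy
      obtain ⟨j, hj⟩ := T.2 ⟨y, hy.2⟩
      have h1 : y ^ p ^ j = 1 := congrArg Subtype.val hj
      have h2 : orderOf y ∣ p ^ j := orderOf_dvd_of_pow_eq_one h1
      have h3 : orderOf y ∣ Nat.card K := by
        have := orderOf_dvd_natCard (⟨y, hy.1⟩ : K)
        rwa [orderOf_mk] at this
      have h4 : Nat.Coprime (p ^ j) (Nat.card K) := Nat.Coprime.pow_left _ ((Nat.Prime.coprime_iff_not_dvd hp).2 hK)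
      exact orderOf_eq_one_iff.1 (Nat.eq_one_of_dvd_coprimes h4 h2 h3)
    -- every element of `T` has `p`-th power in `K`... use the index
    have h2 : Nat.card (H ⧸ K) ∣ p := by
      let f : zpowers x →* H ⧸ K := (QuotientGroup.mk' K).comp (zpowers x).subtype
      have hf : Function.Surjective f := by
        intro y
        obtain ⟨y, rfl⟩ := QuotientGroup.mk_surjective y
        obtain ⟨j, hj⟩ := hxK y
        refine ⟨⟨(x ^ j)⁻¹, inv_mem (pow_mem (mem_zpowers x) j)⟩, ?_⟩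
        show (((x ^ j)⁻¹ : H) : H ⧸ K) = y
        rw [QuotientGroup.eq, inv_inv]
        exact hj
      have h3 := Subgroup.card_dvd_of_surjective f hf
      refine h3.trans ?_
      rw [Nat.card_zpowers]
      exact orderOf_dvd_of_pow_eq_one hx
    have h3 : Nat.card (T : Subgroup H) ∣ Nat.card (H ⧸ K) := by
      let f : T →* H ⧸ K := (QuotientGroup.mk' K).comp (T : Subgroup H).subtype
      refine Subgroup.card_dvd_of_injective f ?_
      rw [injective_iff_map_eq_one]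
      rintro ⟨y, hy⟩ h4
      have h5 : (y : H ⧸ K) = 1 := h4
      rw [QuotientGroup.eq_one_iff] at h5
      have : y ∈ K ⊓ (T : Subgroup H) := ⟨h5, hy⟩
      rw [h1, mem_bot] at this
      exact Subtype.ext this
    exact h3.trans h2
  have hPc : p ∣ Nat.card (pCore p H) := by
    obtain ⟨j, hj⟩ := IsPGroup.iff_card.1 hPp
    rcases Nat.eq_zero_or_pos j with h1 | h1
    · exfalso
      apply hne
      rw [h1, pow_zero] at hj
      exact Subgroup.card_eq_one.1 hj
    · rw [hj]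
      exact dvd_pow_self p h1.ne'
  have hEq : pCore p H = (T : Subgroup H) := by
    refine Subgroup.eq_of_le_of_card_ge hPT ?_
    exact Nat.le_of_dvd Nat.card_pos (hTp.trans hPc)
  rw [hEq]
  exact hT (mem_zpowers x)

theorem hh {F : Type*} [Field F] {p : ℕ} [hp : Fact p.Prime] [CharP F p] {V : Type*}
    [AddCommGroup V] [Module F V] [FiniteDimensional F V] {Γ : Type*} [Group Γ] [Finite Γ] (h7 : 7 ≤ p)
    (σ : Γ →* (V ≃ₗ[F] V)) (N : Subgroup Γ) (hN : N.Normal) (a : Γ) (hNa : N ⊔ zpowers a = ⊤)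
    (hNp : ¬ p ∣ Nat.card (N.map σ))
    (hx : (((σ a : V ≃ₗ[F] V) : Module.End F V) - 1) ^ 6 = 0) : ∀ n ∈ N, σ a * σ n = σ n * σ a := by
  by_contra hc
  have hnt : Nontrivial V := by
    by_contra hV
    rw [not_nontrivial_iff_subsingleton] at hV
    apply hc
    intro k hk
    ext v
    exact Subsingleton.elim _ _
  have hchar : CharP (Module.End F V) p :=
    charP_of_injective_algebraMap (algebraMap F (Module.End F V)).injective p
  have hxp : σ a ^ p = 1 := by
    have h1 : (((σ a : V ≃ₗ[F] V) : Module.End F V) - 1) ^ p = ((σ a : V ≃ₗ[F] V) : Module.End F V) ^ p - 1 := by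
      rw [sub_pow_char_of_commute p (Commute.one_right _), one_pow]
    have h2 : (((σ a : V ≃ₗ[F] V) : Module.End F V) - 1) ^ p = 0 := by
      have h3 : p = 6 + (p - 6) := by omega
      rw [h3, pow_add, hx, zero_mul]
    rw [h1, sub_eq_zero] at h2
    have h3 : ((σ a ^ p : V ≃ₗ[F] V) : Module.End F V) = ((σ a : V ≃ₗ[F] V) : Module.End F V) ^ p :=
      map_pow (LinearEquiv.automorphismGroup.toLinearMapMonoidHom (R := F) (M := V)) (σ a) p
    apply LinearEquiv.toLinearMap_injective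
    rw [h3, h2]
    rfl
  have hx1 : σ a ≠ 1 := by
    intro h1
    exact hc fun k _ => by rw [h1, one_mul, mul_one]
  have hxo : orderOf (σ a) = p := orderOf_eq_prime hxp hx1
  have hs := σ.rangeRestrict_surjective
  set K : Subgroup σ.range := N.map σ.rangeRestrict with hK
  have hKn : K.Normal := hN.map _ hs
  have hKc : Nat.card K = Nat.card (N.map σ) := by
    have h1 : K.map σ.range.subtype = N.map σ := by
      rw [hK, Subgroup.map_map]
      rfl
    rw [← h1]
    exact Nat.card_congr (K.equivMapOfInjective _ σ.range.subtype_injective).toEquiv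
  have hfin : Finite σ.range := Finite.of_surjective _ hs
  have ht : K ⊔ zpowers (σ.rangeRestrict a) = ⊤ := by
    rw [hK, ← MonoidHom.map_zpowers, ← Subgroup.map_sup, hNa, ← MonoidHom.range_eq_map, MonoidHom.range_eq_top]
    exact hs
  have hcore : pCore p σ.range = ⊥ := by
    refine core_bot K hKn (by rw [hKc]; exact hNp) (σ.rangeRestrict a) (Subtype.ext hxp) ht ?_
    intro h1
    apply hc
    intro n hn
    exact congrArg Subtype.val (h1 _ (mem_map_of_mem _ hn))
  have hsol : IsPSolvable p σ.range := by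
    refine PSolvable.IsPSolvable_of_quotient p K (Or.inr ?_) ?_
    · rw [hKc]
      exact ((Nat.Prime.coprime_iff_not_dvd hp.out).2 hNp).symm
    · have hcyc : Group.IsSolvable (σ.range ⧸ K) := by
        have hsurj : Function.Surjective ((QuotientGroup.mk' K).comp (zpowers (σ.rangeRestrict a)).subtype) := by
          rw [← MonoidHom.range_eq_top, MonoidHom.range_comp, Subgroup.range_subtype]
          have h1 : (K ⊔ zpowers (σ.rangeRestrict a)).map (QuotientGroup.mk' K) = ⊤ := by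
            rw [ht, ← MonoidHom.range_eq_map, MonoidHom.range_eq_top]
            exact QuotientGroup.mk'_surjective K
          rw [Subgroup.map_sup, QuotientGroup.map_mk'_self, bot_sup_eq] at h1
          exact h1
        exact Group.isSolvable_of_surjective hsurj
      exact PSolvable.IsPSolvable_of_solvable p
  rcases S0633.bound (H := σ.range) hsol hcore (σ a) ⟨a, rfl⟩ 1 le_rfl (by rw [hxo, pow_one]) 6 hx with
    h1 | ⟨n₀, q, m, h1, h2, h3, h4, h5, h6, h8⟩
  · rw [pow_one] at h1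
    omega
  · have h9 : n₀ = 1 := by omega
    subst h9
    rw [pow_one, Nat.sub_self, pow_zero, one_mul] at h8
    rw [pow_one] at h5
    have h10 : p = 7 := by omega
    subst h10
    exact six_ne h3 h5

end Cfsg.Agent.H764.J7
end

-- part: H764/J7/TSevenC
section
/-! # S3068, T7c (`tools/plans/S3068.md`) -/
set_option autoImplicit false

namespace Cfsg.Agent.H764.J7
open Cfsg Subgroup Cfsg.Agent.Lib Cfsg.Agent.H215.J7
open scoped commutatorElement

universe u

variable {G : Type u} [Group G]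

theorem pow_conj {y u v : G} (h : y * u * y⁻¹ = v * u) (hyv : y * v = v * y) (j : ℕ) :
    y ^ j * u * (y ^ j)⁻¹ = v ^ j * u := by
  induction j with
  | zero => simp
  | succ j ih =>
    have h1 : y ^ (j + 1) * u * (y ^ (j + 1))⁻¹ = y * (y ^ j * u * (y ^ j)⁻¹) * y⁻¹ := by
      rw [pow_succ']
      group
    have h2 : y * v ^ j * y⁻¹ = v ^ j := by
      rw [mul_inv_eq_iff_eq_mul]
      exact ((show Commute y v from hyv).pow_right j)
    have h3 : y * (v ^ j * u) * y⁻¹ = (y * v ^ j * y⁻¹) * (y * u * y⁻¹) := by group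
    rw [h1, ih, h3, h2, h, ← mul_assoc, ← pow_succ]

theorem eq_one_of_cop {p : ℕ} [Fact p.Prime] {Q : Subgroup G} (hQ : IsPGroup p Q) {v : G} (hv : v ∈ Q) {n : ℕ}
    (hn : n.Coprime p) (h : v ^ n = 1) : v = 1 := by
  obtain ⟨j, hj⟩ := hQ ⟨v, hv⟩
  have h1 : v ^ p ^ j = 1 := congrArg Subtype.val hj
  exact orderOf_eq_one_iff.1 (Nat.eq_one_of_dvd_coprimes (hn.pow_right j) (orderOf_dvd_of_pow_eq_one h)
    (orderOf_dvd_of_pow_eq_one h1))

theorem comm_of_cop {p : ℕ} [Fact p.Prime] {Q : Subgroup G} (hQ : IsPGroup p Q) {y u : G} (hv : ⁅y, u⁆ ∈ Q)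
    (hyv : y * ⁅y, u⁆ = ⁅y, u⁆ * y) {n : ℕ} (hn : n.Coprime p) (h : y ^ n = 1) : ⁅y, u⁆ = 1 := by
  have h1 : y * u * y⁻¹ = ⁅y, u⁆ * u := by rw [commutatorElement_def]; group
  have h2 := pow_conj h1 hyv n
  rw [h, one_mul, inv_one, mul_one] at h2
  exact eq_one_of_cop hQ hv hn (mul_eq_right.1 h2.symm)

variable [Finite G] {p : ℕ} [hpf : Fact p.Prime]

/-- the action on a chief factor below `O_p(G)` -/
theorem step_chief (hp : 7 ≤ p) {N : Subgroup G} (hN : N.Normal) (hQN : pCore p G ≤ N)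
    (hNp : ¬ p ∣ (pCore p G).relIndex N) {U V : Subgroup G} (hUV : IsChiefFactor U V) (hUQ : U ≤ pCore p G) {a : G}
    (ha : iterCommutator U (zpowers a) 6 ≤ V) {n : G} (hn : n ∈ N) {u : G} (hu : u ∈ U) : ⁅⁅n, a⁆, u⁆ ∈ V := by
  have hQn : (pCore p G).Normal := Cores.pCore_normal p
  have hQp : IsPGroup p (pCore p G) := Cores.pCore_isPGroup p
  obtain ⟨E, i1, i2, π, ρ, hsurj, hadd, hker, hcard, hρ⟩ := H41.ChiefFactor.exists_chief_rep hUV hQn hQp hUQ
  have hinv : ∀ a : ↥U, π a⁻¹ = -π a := fun a => OddOrderCharacters.PF9.SectionModule.pi_inv hadd a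
  have hfinE : Finite E := Finite.of_surjective π hsurj
  have hfd : FiniteDimensional (ZMod p) E := Module.Finite.of_finite
  have hQ1 : ∀ r ∈ pCore p G, ρ r = 1 := by
    intro r hr
    ext v
    obtain ⟨u, rfl⟩ := hsurj v
    rw [hρ, Module.End.one_apply, ← sub_eq_zero, sub_eq_add_neg, ← hinv, ← hadd, hker]
    have h1 := H41.ChiefFactor.comm_mem hUV hQn hQp hUQ u.2 hr
    have h2 := V.inv_mem h1
    change r * u * r⁻¹ * (u : G)⁻¹ ∈ V
    have h3 : r * u * r⁻¹ * (u : G)⁻¹ = ((u : G) * r * (u : G)⁻¹ * r⁻¹)⁻¹ := by group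
    rw [h3]
    exact h2
  set Γ : Subgroup G := N ⊔ zpowers a with hΓ
  have haΓ : a ∈ Γ := (le_sup_right : zpowers a ≤ Γ) (mem_zpowers a)
  have hNΓ : N ≤ Γ := le_sup_left
  let σ : Γ →* (E ≃ₗ[ZMod p] E) :=
    (LinearMap.GeneralLinearGroup.generalLinearEquiv (ZMod p) E).toMonoidHom.comp (ρ.toHomUnits.comp Γ.subtype)
  have hσ : ∀ g : Γ, ((σ g : E ≃ₗ[ZMod p] E) : Module.End (ZMod p) E) = ρ g := fun g => rfl
  have hN' : (N.subgroupOf Γ).Normal := hN.subgroupOf Γ
  have htop : N.subgroupOf Γ ⊔ zpowers (⟨a, haΓ⟩ : Γ) = ⊤ := by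
    have h1 : zpowers (⟨a, haΓ⟩ : Γ) = (zpowers a).subgroupOf Γ := by
      ext ⟨x, hx⟩
      rw [mem_subgroupOf, mem_zpowers_iff, mem_zpowers_iff]
      constructor
      · rintro ⟨k, hk⟩
        exact ⟨k, congrArg Subtype.val hk⟩
      · rintro ⟨k, hk⟩
        exact ⟨k, Subtype.ext hk⟩
    rw [h1, ← Subgroup.subgroupOf_sup hNΓ (le_sup_right : zpowers a ≤ Γ), subgroupOf_self]
  have hcardN : ¬ p ∣ Nat.card ((N.subgroupOf Γ).map σ) := by
    intro hd
    apply hNp
    have h1 := Subgroup.relIndex_ker (K := N.subgroupOf Γ) σ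
    have h2 : (pCore p G).subgroupOf Γ ≤ σ.ker := by
      intro x hx
      rw [mem_subgroupOf] at hx
      rw [MonoidHom.mem_ker]
      apply LinearEquiv.toLinearMap_injective
      rw [hσ, hQ1 _ hx]
      rfl
    have h3 := Subgroup.relIndex_dvd_of_le_left (N.subgroupOf Γ) h2
    rw [Subgroup.relIndex_subgroupOf hNΓ] at h3
    rw [h1] at h3
    exact hd.trans h3
  have hx : (((σ ⟨a, haΓ⟩ : E ≃ₗ[ZMod p] E) : Module.End (ZMod p) E) - 1) ^ 6 = 0 := by
    rw [hσ]
    ext v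
    obtain ⟨u, rfl⟩ := hsurj v
    obtain ⟨w, hw, hw2⟩ := H41.ChiefFactor.sub_one_pow_apply hUV.2.1 π ρ hadd hρ a 6 u
    rw [hw2, LinearMap.zero_apply, hker]
    exact ha hw
  have h1 := hh hp σ (N.subgroupOf Γ) hN' ⟨a, haΓ⟩ htop hcardN hx ⟨n, hNΓ hn⟩ hn
  have h2 : ρ ⁅n, a⁆ = 1 := by
    have h3 : σ ⁅(⟨n, hNΓ hn⟩ : Γ), ⟨a, haΓ⟩⁆ = 1 := by
      rw [map_commutatorElement, commutatorElement_eq_one_iff_mul_comm]
      exact h1.symm
    have h4 := hσ ⁅(⟨n, hNΓ hn⟩ : Γ), ⟨a, haΓ⟩⁆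
    rw [h3] at h4
    exact h4.symm
  have h3 := hρ ⁅n, a⁆ ⟨u, hu⟩
  rw [h2, Module.End.one_apply] at h3
  have h5 : π (⟨⁅n, a⁆ * u * ⁅n, a⁆⁻¹, hUV.2.1.conj_mem u hu _⟩ * (⟨u, hu⟩ : U)⁻¹) = 0 := by
    rw [hadd, hinv, h3]
    exact add_neg_cancel _
  rw [hker] at h5
  exact h5

/-- the elements of `N` acting trivially on all chief factors below `D` -/
def cenChief (N D : Subgroup G) : Subgroup G where
  carrier := {g | g ∈ N ∧ ∀ U V : Subgroup G, IsChiefFactor U V → U ≤ D → ∀ u ∈ U, ⁅g, u⁆ ∈ V}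
  mul_mem' := by
    rintro g h ⟨hg, hg'⟩ ⟨hh, hh'⟩
    refine ⟨mul_mem hg hh, fun U V hUV hUD u hu => ?_⟩
    have h1 : ⁅g * h, u⁆ = g * ⁅h, u⁆ * g⁻¹ * ⁅g, u⁆ := by simp only [commutatorElement_def]; group
    rw [h1]
    exact mul_mem (hUV.2.2.1.conj_mem _ (hh' U V hUV hUD u hu) g) (hg' U V hUV hUD u hu)
  one_mem' := ⟨one_mem _, fun U V _ _ u _ => by rw [commutatorElement_one_left]; exact one_mem _⟩
  inv_mem' := by
    rintro g ⟨hg, hg'⟩
    refine ⟨inv_mem hg, fun U V hUV hUD u hu => ?_⟩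
    have h1 : ⁅g⁻¹, u⁆ = g⁻¹ * ⁅g, u⁆⁻¹ * g⁻¹⁻¹ := by simp only [commutatorElement_def]; group
    rw [h1]
    exact hUV.2.2.1.conj_mem _ (inv_mem (hg' U V hUV hUD u hu)) g⁻¹

theorem cenChief_normal {N D : Subgroup G} (hN : N.Normal) : (cenChief N D).Normal := by
  refine ⟨fun g hg x => ⟨hN.conj_mem g hg.1 x, fun U V hUV hUD u hu => ?_⟩⟩
  have h1 : ⁅x * g * x⁻¹, u⁆ = x * ⁅g, x⁻¹ * u * x⁻¹⁻¹⁆ * x⁻¹ := by simp only [commutatorElement_def]; group
  rw [h1]
  exact hUV.2.2.1.conj_mem _ (hg.2 U V hUV hUD _ (hUV.2.1.conj_mem u hu x⁻¹)) x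

theorem cenChief_le (hc : centralizer (pCore p G : Set G) ≤ pCore p G) {D N : Subgroup G} (hD : D.Normal)
    (hDQ : D ≤ pCore p G) (hcen : pCore p G ⊓ centralizer (D : Set G) ≤ D) (hN : N.Normal) :
    cenChief N D ≤ pCore p G := by
  have hQn : (pCore p G).Normal := Cores.pCore_normal p
  have hQp : IsPGroup p (pCore p G) := Cores.pCore_isPGroup p
  have key : ∀ y ∈ cenChief N D, ∀ n : ℕ, n.Coprime p → y ^ n = 1 → y = 1 := by
    intro y hy n hn hyn
    -- `y` centralizes `D`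
    have h1 : ∀ (k : ℕ) (U : Subgroup G), Nat.card U = k → U.Normal → U ≤ D → ∀ u ∈ U, ⁅y, u⁆ = 1 := by
      intro k
      induction k using Nat.strong_induction_on with
      | _ k ih =>
      intro U hk hU hUD u hu
      by_cases hb : U = ⊥
      · rw [hb, mem_bot] at hu
        rw [hu, commutatorElement_one_right]
      · obtain ⟨V, hUV⟩ := H39.exists_chief hU hb
        have h2 : ⁅y, u⁆ ∈ V := hy.2 U V hUV hUD u hu
        have h3 : Nat.card V < k := by
          rw [← hk]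
          exact lt_of_le_of_ne (Nat.le_of_dvd Nat.card_pos (Subgroup.card_dvd_of_le hUV.1.le)) fun h =>
            hUV.1.ne (Subgroup.eq_of_le_of_card_ge hUV.1.le h.ge)
        have h4 := ih _ h3 V rfl hUV.2.2.1 (hUV.1.le.trans hUD) _ h2
        rw [commutatorElement_eq_one_iff_mul_comm] at h4
        exact comm_of_cop hQp (hDQ (hUD (hUV.1.le h2))) h4 hn hyn
    have hyD : ∀ d ∈ D, y * d = d * y := fun d hd =>
      commutatorElement_eq_one_iff_mul_comm.1 (h1 _ D rfl hD le_rfl d hd)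
    have hyQ : y ∈ centralizer (pCore p G : Set G) := by
      rw [mem_centralizer_iff]
      intro x hx
      have h5 : ⁅y, x⁆ ∈ pCore p G := by
        rw [commutatorElement_def]
        exact mul_mem (hQn.conj_mem x hx y) (inv_mem hx)
      have h6 : ⁅y, x⁆ ∈ centralizer (D : Set G) := by
        rw [mem_centralizer_iff]
        intro d hd
        have h7 := hyD _ (hD.conj_mem d hd x⁻¹)
        have h8 := hyD _ hd
        rw [inv_inv] at h7
        have h9 : y⁻¹ * (x⁻¹ * d * x) * y = x⁻¹ * d * x := by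
          rw [mul_assoc, ← h7, inv_mul_cancel_left]
        have h10 : y * d * y⁻¹ = d := by rw [h8, mul_inv_cancel_right]
        have h11 : ⁅y, x⁆ * d * ⁅y, x⁆⁻¹ = y * x * (y⁻¹ * (x⁻¹ * d * x) * y) * x⁻¹ * y⁻¹ := by
          simp only [commutatorElement_def]; group
        rw [h9] at h11
        have h12 : y * x * (x⁻¹ * d * x) * x⁻¹ * y⁻¹ = y * d * y⁻¹ := by group
        rw [h12, h10, mul_inv_eq_iff_eq_mul] at h11
        exact h11.symm
      have h13 : ⁅y, x⁆ ∈ D := hcen (Subgroup.mem_inf.2 ⟨h5, h6⟩)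
      have h14 := comm_of_cop hQp h5 (hyD _ h13) hn hyn
      exact (commutatorElement_eq_one_iff_mul_comm.1 h14).symm
    exact eq_one_of_cop hQp (hc hyQ) hn hyn
  refine Cores.le_pCore (cenChief_normal hN) ?_
  rintro ⟨g, hg⟩
  obtain ⟨s, r, hr, hs⟩ := Nat.exists_eq_pow_mul_and_not_dvd (orderOf_pos g).ne' p hpf.out.ne_one
  refine ⟨s, Subtype.ext ?_⟩
  show g ^ p ^ s = 1
  refine key _ (pow_mem hg _) r ((Nat.Prime.coprime_iff_not_dvd hpf.out).2 hr).symm ?_
  rw [← pow_mul, ← hs]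
  exact pow_orderOf_eq_one g

/-- **T7c** -/
theorem t7c_hh (hp : 7 ≤ p) (hc : centralizer (pCore p G : Set G) ≤ pCore p G) {D N A : Subgroup G} (hD : D.Normal)
    (hDQ : D ≤ pCore p G) (hcen : pCore p G ⊓ centralizer (D : Set G) ≤ D) (hN : N.Normal) (hQN : pCore p G ≤ N)
    (hNp : ¬ p ∣ (pCore p G).relIndex N) (hA : IsPGroup p A)
    (hb : ∀ U V : Subgroup G, IsChiefFactor U V → U ≤ D → ∀ a ∈ A, iterCommutator U (zpowers a) 6 ≤ V) :
    ⁅N, A⁆ ≤ pCore p G := by
  rw [commutator_le]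
  intro n hn a ha
  refine cenChief_le hc hD hDQ hcen hN ⟨?_, fun U V hUV hUD u hu =>
    step_chief hp hN hQN hNp hUV (hUD.trans hDQ) (hb U V hUV hUD a ha) hn hu⟩
  have h1 : ⁅n, a⁆ = n * (a * n⁻¹ * a⁻¹) := by rw [commutatorElement_def]; group
  rw [h1]
  exact mul_mem hn (hN.conj_mem _ (inv_mem hn) a)

end Cfsg.Agent.H764.J7
end

-- part: H215/J7/Final
section
/-!
# S3068: the final step
-/

set_option autoImplicit false

namespace Cfsg.Agent.H215.J7

open Subgroup Cfsg Cfsg.Agent.H215.J7.Form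
open scoped commutatorElement

universe u

variable {G : Type u} [Group G] [Finite G] {p : ℕ} [Fact p.Prime]

/-- four for minimal failures -/
theorem t9_four (hp : 7 ≤ p) (S : Sylow p G) {M : Subgroup G} (c : Cfg p (S : Subgroup G) M)
    {R D A : Subgroup G} (h : RD p (pCore p G) R D) (hA : Pick (S : Subgroup G) (pCore p G) R D A) :
    ∀ x ∈ D, ∀ u ∈ A, ⁅u, ⁅u, ⁅u, ⁅u, x⁆⁆⁆⁆ ∈ R := by
  by_cases hN : centralizer (VV p (pCore p G) : Set G) ⊔ (S : Subgroup G) = ⊤
  · exact four_b hp S h hA hN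
  · obtain ⟨t, ht, htA, htV⟩ := H456.J7.t7d_of_t7c hp
      (fun hc {_ _ _} h1 h2 h3 h4 h5 h6 h7 h8 => H764.J7.t7c_hh hp hc h1 h2 h3 h4 h5 h6 h7 h8)
      S c h hA.le hA.comm hA.max hA.not_le (H587.S3068.t3_quad S h hA) hN (six_chief hp S h hA)
    exact four_t hp S h hA ht htA htV

/-- a good element -/
theorem exists_good (hp : 7 ≤ p) (S : Sylow p G) (M : Subgroup G) (c : Cfg p (S : Subgroup G) M)
    (hJ : ¬ thompsonSubgroupAOf (S : Subgroup G) ≤ pCore p G) :
    ∃ g : G, g ∈ (S : Subgroup G) ∧ g ∉ pCore p G ∧ H39.Good p (pCore p G) g := by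
  obtain ⟨R, D, h⟩ := H352.J7.t5_exists_RD (p := p) (pCore p G) (pCore_normal p G) (pCore_isP p G)
  obtain ⟨A, hA⟩ := H587.S3068.t2_exists_pick S hJ R D
  obtain ⟨g, hgA, hgQ⟩ := SetLike.not_le_iff_exists.1 hA.not_le
  exact ⟨g, hA.le hgA, hgQ, H575.J7.t8_good hp h
    (fun X hX hXR x hx => H587.S3068.t3_cubic S h hA hX hXR x hx g hgA g hgA g hgA)
    (fun x hx => t9_four hp S c h hA x hx g hgA)⟩

end Cfsg.Agent.H215.J7
end

-- part: S3068
section
set_option autoImplicit false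

namespace Cfsg.Agent.S3068

/-- Let p ≥ 7 be a prime, S a Sylow p-subgroup of the finite group G, J(S) the subgroup generated by the abelian subgroups of S of largest order and M = N_G(J(S)). Then G/O^p(G) ≅ M/O^p(M): the largest p-factor group of G is that of M (here O^p(X) is the subgroup generated by the elements of X of order prime to p). -/
theorem result {G : Type*} [Group G] [Finite G] {p : ℕ} [Fact p.Prime]
    (hp : 7 ≤ p) (S : Sylow p G)
    [hn : (Cfsg.pResidual p G).Normal]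
    [hm : (Cfsg.pResidual p ↥(Subgroup.normalizer (Cfsg.thompsonSubgroupAOf (S : Subgroup G) : Set G))).Normal] :
    Nonempty (G ⧸ Cfsg.pResidual p G ≃*
      ↥(Subgroup.normalizer (Cfsg.thompsonSubgroupAOf (S : Subgroup G) : Set G)) ⧸
        Cfsg.pResidual p ↥(Subgroup.normalizer (Cfsg.thompsonSubgroupAOf (S : Subgroup G) : Set G))) :=
  H587.S3068.t1_reduction hp (fun _ _ _ S M c hJ => H215.J7.exists_good hp S M c hJ) S

end Cfsg.Agent.S3068
end
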