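import Mathlib
import Cfsg.Agent.Lib.CoprimeStab
import Cfsg.Agent.Lib.CoprimeAbelian
import Cfsg.Agent.PLocal.ThompsonReplacement
import Cfsg.Agent.H278.ThompsonSurj
import Cfsg.Prelude.Def_PLocal
import Cfsg.Agent.H278.Automizer
import Cfsg.Agent.Lib.CoprimeCommutator
import Cfsg.Agent.Lib.Cores
import Cfsg.Agent.PLocal.ThompsonJA
import Cfsg.Agent.PLocal.ComplementReduction
import Cfsg.Agent.Transfer.PNilpotentBasic
import Mathlib.GroupTheory.Sylow
import Cfsg.Prelude.Def_Transfer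
set_option linter.all false

-- part: H278/MinSection
section
/-!
# A section `B / M` of a normal `p`-subgroup

`exists_BM`: `Q ≤ K` normal in `G`, `Q` a `p`-group, `K / Q` a `p'`-group, `C_K(Q) ≤ Q`, `K ≠ Q`.  There are normal
subgroups `M < B ≤ Q` of `G` with `B / M` elementary abelian, `[B, Q] ≤ M`, `M ≤ Z(B)`, `K = L Q` with `[L, M] = 1`,
and `C_{B/M}(K) = 1`.

`iso_comm`: for `K / Q` abelian and `y ∈ B` the elements `(k y k⁻¹)(k⁻¹ y k)`, `k ∈ K`, commute with each other.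
-/

set_option autoImplicit false

namespace Cfsg.Agent.H278.MinSection

open Subgroup
open scoped commutatorElement

variable {G : Type*} [Group G]

theorem normal_closure_of_conj {S : Set G} (hS : ∀ s ∈ S, ∀ g : G, g * s * g⁻¹ ∈ S) :
    (closure S).Normal := by
  constructor
  intro n hn g
  have h1 : closure S ≤ (closure S).map (MulAut.conj g⁻¹).toMonoidHom := by
    rw [closure_le]
    intro s hs
    refine ⟨g * s * g⁻¹, subset_closure (hS s hs g), ?_⟩
    simp only [MulEquiv.toMonoidHom_eq_coe, MonoidHom.coe_coe, MulAut.conj_apply]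
    group
  obtain ⟨w, hw, hwv⟩ := h1 hn
  have : g * n * g⁻¹ = w := by
    rw [← hwv]
    simp only [MulEquiv.toMonoidHom_eq_coe, MonoidHom.coe_coe, MulAut.conj_apply]
    group
  rw [this]; exact hw

theorem mem_of_pow_mem_pow_mem {H : Subgroup G} {x : G} {m n : ℕ} (hmn : m.Coprime n)
    (hm : x ^ m ∈ H) (hn : x ^ n ∈ H) : x ∈ H := by
  have h1 : x = (x ^ m) ^ (Nat.gcdA m n) * (x ^ n) ^ (Nat.gcdB m n) := by
    have h2 := Nat.gcd_eq_gcd_ab m n
    rw [Nat.Coprime.gcd_eq_one hmn] at h2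
    rw [← zpow_natCast x m, ← zpow_natCast x n, ← zpow_mul, ← zpow_mul, ← zpow_add, ← h2]
    simp
  rw [h1]
  exact mul_mem (zpow_mem hm _) (zpow_mem hn _)

/-- `K = L Q` for `L` generated by the `p'`-elements of `K`. -/
theorem le_closure_sup [Finite G] {p : ℕ} [hp : Fact p.Prime] {Q K : Subgroup G} [Q.Normal]
    (hKi : (Q.relIndex K).Coprime p) :
    K ≤ closure {x : G | x ∈ K ∧ (orderOf x).Coprime p} ⊔ Q := by
  intro k hk
  have h1 : k ^ (Q.relIndex K) ∈ Q := by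
    have h2 := Subgroup.pow_index_mem (H := Q.subgroupOf K) (⟨k, hk⟩ : K)
    exact h2
  obtain ⟨n, m, hm, hnm⟩ := Nat.exists_eq_pow_mul_and_not_dvd (n := orderOf k)
    (orderOf_pos k).ne' p hp.out.ne_one
  have h3 : k ^ (p ^ n) ∈ closure {x : G | x ∈ K ∧ (orderOf x).Coprime p} := by
    apply Subgroup.subset_closure
    refine ⟨pow_mem hk _, ?_⟩
    rw [orderOf_pow, hnm, Nat.gcd_eq_right (Dvd.intro _ rfl),
      Nat.mul_div_cancel_left _ (pow_pos hp.out.pos n)]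
    exact ((Nat.Prime.coprime_iff_not_dvd hp.out).mpr hm).symm
  refine mem_of_pow_mem_pow_mem (m := Q.relIndex K) (n := p ^ n) (hKi.pow_right n) ?_ ?_
  · exact (le_sup_right : Q ≤ _) h1
  · exact (le_sup_left : closure {x : G | x ∈ K ∧ (orderOf x).Coprime p} ≤ _) h3

theorem exists_BM [Finite G] {p : ℕ} [hp : Fact p.Prime] (Q K : Subgroup G) [hQn : Q.Normal]
    [hKn : K.Normal] (hQ : IsPGroup p Q) (hKi : (Q.relIndex K).Coprime p)
    (hC : K ⊓ centralizer (Q : Set G) ≤ Q) (hKQ : ¬ K ≤ Q) :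
    ∃ B M : Subgroup G, B.Normal ∧ M.Normal ∧ B ≤ Q ∧ M ≤ B ∧ ¬ B ≤ M ∧
      (∀ x ∈ B, ∀ y ∈ B, ⁅x, y⁆ ∈ M) ∧ (∀ b ∈ B, ∀ m ∈ M, b * m = m * b) ∧
      (∀ x ∈ B, x ^ p ∈ M) ∧ (∀ q ∈ Q, ∀ b ∈ B, ⁅q, b⁆ ∈ M) ∧
      (∃ L : Subgroup G, K ≤ L ⊔ Q ∧ (∀ l ∈ L, ∀ m ∈ M, l * m = m * l)) ∧
      (∀ b ∈ B, (∀ k ∈ K, k * b * k⁻¹ * b⁻¹ ∈ M) → b ∈ M) := by
  classical
  obtain ⟨L, hL⟩ : ∃ L, L = closure {x : G | x ∈ K ∧ (orderOf x).Coprime p} := ⟨_, rfl⟩
  have hKLQ : K ≤ L ⊔ Q := by rw [hL]; exact le_closure_sup hKi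
  have hLK : L ≤ K := by rw [hL, closure_le]; exact fun x hx => hx.1
  have hLn : L.Normal := by
    rw [hL]
    apply normal_closure_of_conj
    rintro s ⟨hs1, hs2⟩ g
    refine ⟨hKn.conj_mem s hs1 g, ?_⟩
    have : g * s * g⁻¹ = MulAut.conj g s := rfl
    rw [this, MulEquiv.orderOf_eq]
    exact hs2
  -- an element of a `p`-group normalized... : coprime action
  have hcop : ∀ x ∈ K, (orderOf x).Coprime p → ∀ b ∈ Q, Commute ⁅b, x⁆ x → Commute b x := by
    intro x hx hxp b hb hc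
    refine Lib.CoprimeStab.commute_of_commutator_commute (H := Q) ?_ ?_ hc
    · obtain ⟨n, hn⟩ := IsPGroup.iff_card.mp hQ
      rw [hn]; exact hxp.pow_right n
    · rw [commutatorElement_def]
      have := hQn.conj_mem b⁻¹ (inv_mem hb) x
      have e : b * x * b⁻¹ * x⁻¹ = b * (x * b⁻¹ * x⁻¹) := by group
      rw [e]; exact mul_mem hb this
  -- the minimal choice of `B`
  let 𝒴 : Set (Subgroup G) := {B | B.Normal ∧ B ≤ Q ∧ ¬ B ≤ centralizer (L : Set G)}
  have hQ𝒴 : Q ∈ 𝒴 := by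
    refine ⟨hQn, le_rfl, fun h => hKQ ?_⟩
    have h1 : L ≤ Q := by
      intro l hl
      apply hC
      refine ⟨hLK hl, mem_centralizer_iff.mpr fun q hq => ?_⟩
      exact ((mem_centralizer_iff.mp (h hq)) l hl).symm
    exact hKLQ.trans (sup_le h1 le_rfl)
  obtain ⟨B, ⟨hBn, hBQ, hBL⟩, hBmin⟩ := Set.Finite.exists_minimal (Set.toFinite 𝒴) ⟨Q, hQ𝒴⟩
  have hBmin' : ∀ N : Subgroup G, N.Normal → N ≤ B → N ≠ B → N ≤ centralizer (L : Set G) := by
    intro N hN hNB hne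
    by_contra h
    exact hne (le_antisymm hNB (hBmin ⟨hN, hNB.trans hBQ, h⟩ hNB))
  obtain ⟨M, hM⟩ : ∃ M, M = B ⊓ centralizer (L : Set G) := ⟨_, rfl⟩
  have hMn : M.Normal := by rw [hM]; infer_instance
  have hMB : M ≤ B := by rw [hM]; exact inf_le_left
  have hML : M ≤ centralizer (L : Set G) := by rw [hM]; exact inf_le_right
  have hBM : ¬ B ≤ M := fun h => hBL (h.trans hML)
  have hleM : ∀ N : Subgroup G, N.Normal → N ≤ B → N ≠ B → N ≤ M := by
    intro N hN hNB hne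
    rw [hM]; exact le_inf hNB (hBmin' N hN hNB hne)
  have hLM : ∀ l ∈ L, ∀ m ∈ M, l * m = m * l := fun l hl m hm =>
    (mem_centralizer_iff.mp (hML hm)) l hl
  -- `[B, Q] ≤ M`
  have hB1 : B ≠ ⊥ := by
    rintro rfl
    exact hBM bot_le
  have hQnil : Group.IsNilpotent Q := hQ.isNilpotent
  have h1 : ⁅B, Q⁆ ≤ M := by
    apply hleM _ inferInstance (Subgroup.commutator_le_left B Q)
    intro h
    exact hB1 (Cfsg.Agent.PLocal.ThompsonReplacement.eq_bot_of_le_commutator hQnil hBQ h.ge)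
  -- `[B, L] = B`
  have h2 : ⁅B, L⁆ = B := by
    by_contra hne
    have h3 := hleM _ inferInstance (Subgroup.commutator_le_left B L) hne
    apply hBL
    intro b hb
    have h4 : L ≤ centralizer ({b} : Set G) := by
      rw [hL, closure_le]
      rintro x ⟨hxK, hxp⟩
      have hxL : x ∈ L := by rw [hL]; exact subset_closure ⟨hxK, hxp⟩
      rw [SetLike.mem_coe, mem_centralizer_iff]
      intro b' hb'
      rw [Set.mem_singleton_iff] at hb'
      rw [hb']
      refine hcop x hxK hxp b (hBQ hb) ?_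
      have h5 : ⁅b, x⁆ ∈ M := h3 (commutator_mem_commutator hb hxL)
      exact (hLM x hxL _ h5).symm
    rw [mem_centralizer_iff]
    intro l hl
    exact ((mem_centralizer_iff.mp (h4 hl)) b rfl).symm
  -- `[B, M] = 1`
  have h3 : ⁅B, M⁆ = ⊥ := by
    rw [← h2]
    apply Subgroup.commutator_commutator_eq_bot_of_rotate
    · have : ⁅L, M⁆ = ⊥ := by
        rw [Subgroup.commutator_eq_bot_iff_le_centralizer]
        intro l hl
        rw [mem_centralizer_iff]
        intro m hm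
        exact (hLM l hl m hm).symm
      rw [this, Subgroup.commutator_bot_left]
    · have h4 : ⁅⁅M, B⁆, L⁆ ≤ ⁅M, L⁆ := commutator_mono (Subgroup.commutator_le_left M B) le_rfl
      have h5 : ⁅M, L⁆ = ⊥ := by
        rw [Subgroup.commutator_eq_bot_iff_le_centralizer]; exact hML
      rw [h5] at h4
      exact le_bot_iff.mp h4
  have h4 : ∀ b ∈ B, ∀ m ∈ M, b * m = m * b := by
    intro b hb m hm
    have := (Subgroup.commutator_eq_bot_iff_le_centralizer.mp h3) hb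
    exact ((mem_centralizer_iff.mp this) m hm).symm
  refine ⟨B, M, hBn, hMn, hBQ, hMB, hBM, ?_, h4, ?_, ?_, ⟨L, hKLQ, hLM⟩, ?_⟩
  · intro x hx y hy
    exact h1 (commutator_mem_commutator hx (hBQ hy))
  · -- `x ^ p ∈ M`
    obtain ⟨N, hN⟩ : ∃ N, N = M ⊔ closure {x : G | ∃ b ∈ B, x = b ^ p} := ⟨_, rfl⟩
    have hcn : (closure {x : G | ∃ b ∈ B, x = b ^ p}).Normal := by
      apply normal_closure_of_conj
      rintro _ ⟨b, hb, rfl⟩ g
      exact ⟨g * b * g⁻¹, hBn.conj_mem b hb g, by rw [conj_pow]⟩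
    have hNn : N.Normal := by rw [hN]; infer_instance
    have hNB : N ≤ B := by
      rw [hN]
      refine sup_le hMB ((closure_le _).mpr ?_)
      rintro _ ⟨b, hb, rfl⟩
      exact pow_mem hb p
    have hne : N ≠ B := by
      intro h
      -- the quotient `B / M`
      have hM' : (M.subgroupOf B).Normal := inferInstance
      have hnt : Nontrivial (B ⧸ M.subgroupOf B) := by
        by_contra hnt
        rw [not_nontrivial_iff_subsingleton] at hnt
        apply hBM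
        intro b hb
        have h5 : (QuotientGroup.mk (⟨b, hb⟩ : B) : B ⧸ M.subgroupOf B) = 1 := Subsingleton.elim _ _
        have h6 := (QuotientGroup.eq_one_iff (⟨b, hb⟩ : B)).mp h5
        exact h6
      have hpg : IsPGroup p (B ⧸ M.subgroupOf B) := (hQ.to_le hBQ).to_quotient _
      obtain ⟨R, hRn, hRi, hRp, -⟩ := Lib.CoprimeStab.exists_normal_index_prime
        (B ⧸ M.subgroupOf B) hpg
      have h6 : N ≤ (R.comap (QuotientGroup.mk' (M.subgroupOf B))).map B.subtype := by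
        rw [hN]
        refine sup_le ?_ ((closure_le _).mpr ?_)
        · intro m hm
          refine ⟨⟨m, hMB hm⟩, ?_, rfl⟩
          have h5 : (QuotientGroup.mk' (M.subgroupOf B)) (⟨m, hMB hm⟩ : B) = 1 :=
            (QuotientGroup.eq_one_iff _).mpr hm
          change (QuotientGroup.mk' (M.subgroupOf B)) (⟨m, hMB hm⟩ : B) ∈ R
          rw [h5]; exact one_mem R
        · rintro _ ⟨b, hb, rfl⟩
          refine ⟨⟨b, hb⟩ ^ p, ?_, rfl⟩
          change (QuotientGroup.mk' (M.subgroupOf B)) (⟨b, hb⟩ ^ p) ∈ R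
          rw [map_pow]
          exact hRp _
      have h7 : R = ⊤ := by
        rw [eq_top_iff]
        intro x _
        obtain ⟨b, rfl⟩ := QuotientGroup.mk'_surjective (M.subgroupOf B) x
        have h8 : (b : G) ∈ N := by rw [h]; exact b.2
        obtain ⟨c, hc, hcb⟩ := h6 h8
        have : c = b := Subtype.ext hcb
        rw [← this]
        exact hc
      rw [h7, Subgroup.index_top] at hRi
      exact hp.out.one_lt.ne hRi
    intro x hx
    apply hleM N hNn hNB hne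
    rw [hN]
    exact (le_sup_right : closure {x : G | ∃ b ∈ B, x = b ^ p} ≤ _) (subset_closure ⟨x, hx, rfl⟩)
  · intro q hq b hb
    rw [Subgroup.commutator_comm] at h1
    exact h1 (commutator_mem_commutator hq hb)
  · intro b hb hk
    rw [hM]
    refine ⟨hb, ?_⟩
    have h5 : L ≤ centralizer ({b} : Set G) := by
      rw [hL, closure_le]
      rintro x ⟨hxK, hxp⟩
      have hxL : x ∈ L := by rw [hL]; exact subset_closure ⟨hxK, hxp⟩
      rw [SetLike.mem_coe, mem_centralizer_iff]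
      intro b' hb'
      rw [Set.mem_singleton_iff] at hb'
      rw [hb']
      refine hcop x hxK hxp b (hBQ hb) ?_
      have h6 : ⁅b, x⁆ ∈ M := by
        have h7 := inv_mem (hk x hxK)
        have e : (x * b * x⁻¹ * b⁻¹)⁻¹ = ⁅b, x⁆ := by rw [commutatorElement_def]; group
        rwa [e] at h7
      exact (hLM x hxL _ h6).symm
    exact mem_centralizer_iff.mpr fun l hl => ((mem_centralizer_iff.mp (h5 hl)) b rfl).symm

/-- The elements `(k y k⁻¹)(k⁻¹ y k)` commute with each other. -/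
theorem iso_comm {B M L Q K : Subgroup G} [hBn : B.Normal] [hMn : M.Normal] [hQn : Q.Normal]
    (hMB : M ≤ B) (hBB : ∀ x ∈ B, ∀ y ∈ B, ⁅x, y⁆ ∈ M) (hBM : ∀ b ∈ B, ∀ m ∈ M, b * m = m * b)
    (hQB : ∀ q ∈ Q, ∀ b ∈ B, ⁅q, b⁆ ∈ M) (hKL : K ≤ L ⊔ Q) (hLM : ∀ l ∈ L, ∀ m ∈ M, l * m = m * l)
    (hKc : ∀ s ∈ K, ∀ t ∈ K, ⁅s, t⁆ ∈ Q) {y : G} (hy : y ∈ B) {k k' : G} (hk : k ∈ K)
    (hk' : k' ∈ K) :
    Commute ((k * y * k⁻¹) * (k⁻¹ * y * k)) ((k' * y * k'⁻¹) * (k'⁻¹ * y * k')) := by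
  have hcj : ∀ g : G, ∀ b ∈ B, g * b * g⁻¹ ∈ B := fun g b hb => hBn.conj_mem b hb g
  -- bilinearity
  have c1 : ∀ x ∈ B, ∀ x' ∈ B, ∀ z ∈ B, ⁅x * x', z⁆ = ⁅x, z⁆ * ⁅x', z⁆ := by
    intro x hx x' hx' z hz
    have h1 : ⁅x * x', z⁆ = x * ⁅x', z⁆ * x⁻¹ * ⁅x, z⁆ := by
      simp only [commutatorElement_def]; group
    rw [h1, hBM x hx _ (hBB x' hx' z hz), mul_inv_cancel_right]
    exact (hBM _ (hMB (hBB x' hx' z hz)) _ (hBB x hx z hz))
  have c1' : ∀ x ∈ B, ∀ z ∈ B, ∀ z' ∈ B, ⁅x, z * z'⁆ = ⁅x, z⁆ * ⁅x, z'⁆ := by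
    intro x hx z hz z' hz'
    have h1 : ⁅x, z * z'⁆ = ⁅x, z⁆ * (z * ⁅x, z'⁆ * z⁻¹) := by
      simp only [commutatorElement_def]; group
    rw [h1, hBM z hz _ (hBB x hx z' hz'), mul_inv_cancel_right]
  have cM : ∀ m ∈ M, ∀ z ∈ B, ⁅m, z⁆ = 1 := by
    intro m hm z hz
    rw [commutatorElement_eq_one_iff_mul_comm]
    exact (hBM z hz m hm).symm
  have cM' : ∀ m ∈ M, ∀ z ∈ B, ⁅z, m⁆ = 1 := by
    intro m hm z hz
    rw [commutatorElement_eq_one_iff_mul_comm]
    exact hBM z hz m hm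
  have hqb : ∀ q ∈ Q, ∀ b ∈ B, q * b * q⁻¹ = ⁅q, b⁆ * b := by
    intro q _ b _
    rw [commutatorElement_def]; group
  have hconj : ∀ g x z : G, ⁅g * x * g⁻¹, g * z * g⁻¹⁆ = g * ⁅x, z⁆ * g⁻¹ := by
    intro g x z
    simp only [commutatorElement_def]; group
  -- `Q` centralizes the commutators
  have hQc : ∀ q ∈ Q, ∀ x ∈ B, ∀ z ∈ B, q * ⁅x, z⁆ * q⁻¹ = ⁅x, z⁆ := by
    intro q hq x hx z hz
    rw [← hconj, hqb q hq x hx, hqb q hq z hz, c1 _ (hMB (hQB q hq x hx)) _ hx _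
      (mul_mem (hMB (hQB q hq z hz)) hz), cM _ (hQB q hq x hx) _
      (mul_mem (hMB (hQB q hq z hz)) hz), one_mul, c1' _ hx _ (hMB (hQB q hq z hz)) _ hz,
      cM' _ (hQB q hq z hz) _ hx, one_mul]
  have hKc' : ∀ s ∈ K, ∀ x ∈ B, ∀ z ∈ B, ⁅s * x * s⁻¹, s * z * s⁻¹⁆ = ⁅x, z⁆ := by
    intro s hs x hx z hz
    rw [hconj]
    obtain ⟨l, hl, q, hq, rfl⟩ := Subgroup.mem_sup_of_normal_right.mp (hKL hs)
    have h1 : l * q * ⁅x, z⁆ * (l * q)⁻¹ = l * (q * ⁅x, z⁆ * q⁻¹) * l⁻¹ := by group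
    rw [h1, hQc q hq x hx z hz, hLM l hl _ (hBB x hx z hz), mul_inv_cancel_right]
  -- the function `φ`
  let φ : G → G := fun m => ⁅y, m * y * m⁻¹⁆
  have hφ : ∀ m, φ m = ⁅y, m * y * m⁻¹⁆ := fun _ => rfl
  have hφM : ∀ m, φ m ∈ M := fun m => hBB y hy _ (hcj m y hy)
  have hst : ∀ s ∈ K, ∀ t ∈ K, ⁅s * y * s⁻¹, t * y * t⁻¹⁆ = φ (s⁻¹ * t) := by
    intro s hs t ht
    have h1 := hKc' s⁻¹ (inv_mem hs) (s * y * s⁻¹) (hcj s y hy) (t * y * t⁻¹) (hcj t y hy)
    rw [← h1, hφ]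
    congr 1
    · group
    · group
  have hφQ : ∀ m m' : G, m⁻¹ * m' ∈ Q → φ m' = φ m := by
    intro m m' hmm
    have h1 : m' * y * m'⁻¹ = (m * ⁅m⁻¹ * m', y⁆ * m⁻¹) * (m * y * m⁻¹) := by
      rw [commutatorElement_def]; group
    have h2 : m * ⁅m⁻¹ * m', y⁆ * m⁻¹ ∈ M := hMn.conj_mem _ (hQB _ hmm y hy) m
    rw [hφ, hφ, h1, c1' y hy _ (hMB h2) _ (hcj m y hy), cM' _ h2 _ hy, one_mul]
  have hφi : ∀ m ∈ K, φ m⁻¹ = (φ m)⁻¹ := by
    intro m hm
    have h1 := hKc' m hm y hy (m⁻¹ * y * m⁻¹⁻¹) (hcj _ y hy)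
    rw [hφ m⁻¹, ← h1]
    have e : m * (m⁻¹ * y * m⁻¹⁻¹) * m⁻¹ = y := by group
    rw [e, hφ m, commutatorElement_inv]
  -- the computation
  have hk1 : k⁻¹ ∈ K := inv_mem hk
  have hk1' : k'⁻¹ ∈ K := inv_mem hk'
  have e1 : k⁻¹ * y * k = k⁻¹ * y * (k⁻¹)⁻¹ := by rw [inv_inv]
  have e2 : k'⁻¹ * y * k' = k'⁻¹ * y * (k'⁻¹)⁻¹ := by rw [inv_inv]
  rw [← commutatorElement_eq_one_iff_commute, e1, e2,
    c1 _ (hcj k y hy) _ (hcj k⁻¹ y hy) _ (mul_mem (hcj k' y hy) (hcj k'⁻¹ y hy)),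
    c1' _ (hcj k y hy) _ (hcj k' y hy) _ (hcj k'⁻¹ y hy),
    c1' _ (hcj k⁻¹ y hy) _ (hcj k' y hy) _ (hcj k'⁻¹ y hy),
    hst k hk k' hk', hst k hk k'⁻¹ hk1', hst k⁻¹ hk1 k' hk', hst k⁻¹ hk1 k'⁻¹ hk1', inv_inv]
  have f1 : φ (k * k') = (φ (k⁻¹ * k'⁻¹))⁻¹ := by
    rw [← hφi _ (mul_mem hk1 hk1')]
    apply hφQ
    have e : ((k⁻¹ * k'⁻¹)⁻¹)⁻¹ * (k * k') = ⁅k⁻¹, k'⁻¹⁆ := by
      rw [commutatorElement_def]; group
    rw [e]
    exact hKc _ hk1 _ hk1'
  have f2 : φ (k * k'⁻¹) = (φ (k⁻¹ * k'))⁻¹ := by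
    rw [← hφi _ (mul_mem hk1 hk')]
    apply hφQ
    have e : ((k⁻¹ * k')⁻¹)⁻¹ * (k * k'⁻¹) = ⁅k⁻¹, k'⁆ := by
      rw [commutatorElement_def]; group
    rw [e]
    exact hKc _ hk1 _ hk'
  rw [f1, f2]
  group

end Cfsg.Agent.H278.MinSection
end

-- part: H278/OrbitIndep
section
/-!
# Orbits of a `p`-group in a module over `ZMod p`

`linearIndependent_of_sum_ne_zero`: an equivariant family indexed by a transitive set of a `p`-group is linearly
independent if its sum is nonzero.  `exists_good`: the vector `w = k v + k⁻¹ v` used in the proof of the normal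
`p`-complement theorem for `J(S)`.
-/

set_option autoImplicit false

namespace Cfsg.Agent.H278.OrbitIndep

section indep

variable {p : ℕ} [Fact p.Prime] {A T W : Type*} [Group A] [MulAction A T]
  [AddCommGroup W] [Module (ZMod p) W] [DistribMulAction A W]

theorem smul_zmod (a : A) (c : ZMod p) (w : W) : a • (c • w) = c • (a • w) :=
  ZMod.map_smul (DistribSMul.toAddMonoidHom W a) c w

theorem linearIndependent_of_sum_ne_zero [Finite A] [Fintype T] [MulAction.IsPretransitive A T]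
    (hA : IsPGroup p A) (w : T → W)
    (hw : ∀ (a : A) (t : T), a • w t = w (a • t)) (hsum : ∑ t, w t ≠ 0) :
    LinearIndependent (ZMod p) w := by
  classical
  rw [Fintype.linearIndependent_iff]
  by_contra hcon
  push Not at hcon
  obtain ⟨g, hg, t0, ht0⟩ := hcon
  let Λ : Submodule (ZMod p) (T → ZMod p) := LinearMap.ker (Fintype.linearCombination (ZMod p) w)
  have hmem : ∀ l : T → ZMod p, l ∈ Λ ↔ ∑ t, l t • w t = 0 := fun l => by
    rw [LinearMap.mem_ker, Fintype.linearCombination_apply]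
  have hact : ∀ (a : A) (l : T → ZMod p), l ∈ Λ → (fun t => l (a⁻¹ • t)) ∈ Λ := by
    intro a l hl
    rw [hmem] at hl ⊢
    have h1 : ∑ t, l (a⁻¹ • t) • w t = a • ∑ t, l t • w t := by
      rw [Finset.smul_sum, ← Equiv.sum_comp (MulAction.toPerm a) (fun t => l (a⁻¹ • t) • w t)]
      refine Finset.sum_congr rfl fun t _ => ?_
      rw [MulAction.toPerm_apply, inv_smul_smul, ← hw, smul_zmod]
    rw [h1, hl, smul_zero]
  let _ : MulAction A Λ :=
    { smul := fun a l => ⟨fun t => l.1 (a⁻¹ • t), hact a l.1 l.2⟩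
      one_smul := fun l => by
        apply Subtype.ext
        funext t
        change l.1 ((1 : A)⁻¹ • t) = l.1 t
        rw [inv_one, one_smul]
      mul_smul := fun a b l => by
        apply Subtype.ext
        funext t
        change l.1 ((a * b)⁻¹ • t) = l.1 (b⁻¹ • a⁻¹ • t)
        rw [mul_inv_rev, mul_smul] }
  have hsm : ∀ (a : A) (l : Λ) (t : T), (a • l).1 t = l.1 (a⁻¹ • t) := fun _ _ _ => rfl
  have hnt : Nontrivial Λ := ⟨⟨g, (hmem g).mpr hg⟩, 0, fun h => ht0 (by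
    have := congrArg (fun l : Λ => l.1 t0) h
    simpa using this)⟩
  have hcard : p ∣ Nat.card Λ := by
    rw [Module.natCard_eq_pow_finrank (K := ZMod p), Nat.card_zmod]
    exact dvd_pow_self p (Module.finrank_pos (R := ZMod p) (M := Λ)).ne'
  obtain ⟨l, hl, hne⟩ := hA.exists_fixed_point_of_prime_dvd_card_of_fixed_point Λ hcard (a := 0)
    (by intro a; apply Subtype.ext; funext t; rw [hsm]; rfl)
  have hl1 : ∀ (a : A) (t : T), l.1 (a • t) = l.1 t := by
    intro a t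
    have h2 := congrArg (fun l : Λ => l.1 t) (hl a⁻¹)
    simpa [hsm] using h2
  obtain ⟨s, hs⟩ : ∃ s, l.1 s ≠ 0 := by
    by_contra h
    push Not at h
    exact hne (Subtype.ext (funext fun t => (h t).symm))
  have hc : ∀ t, l.1 t = l.1 s := by
    intro t
    obtain ⟨a, rfl⟩ := MulAction.exists_smul_eq A s t
    exact hl1 a s
  have h3 := (hmem l.1).mp l.2
  simp only [hc] at h3
  rw [← Finset.smul_sum] at h3
  rcases smul_eq_zero.mp h3 with h4 | h4
  · exact hs h4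
  · exact hsum h4

theorem exists_smul_ne [Finite A] [Fintype T] [MulAction.IsPretransitive A T] (hp2 : p ≠ 2)
    (hA : IsPGroup p A) (w : T → W)
    (hw : ∀ (a : A) (t : T), a • w t = w (a • t)) (hsum : ∑ t, w t ≠ 0)
    (hcard : 4 ≤ Fintype.card T) {t0 t1 : T} (t2 : T) (h01 : t0 ≠ t1) :
    ∃ a : A, a • (w t0 + w t0 - w t2 - w t1) ≠ w t0 + w t0 - w t2 - w t1 := by
  classical
  by_contra hcon
  push Not at hcon
  have hli := linearIndependent_of_sum_ne_zero hA w hw hsum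
  rw [Fintype.linearIndependent_iff] at hli
  obtain ⟨s, hs⟩ : ∃ s : T, s ∉ ({t0, t1, t2} : Finset T) := by
    by_contra h
    push Not at h
    have h1 : (Finset.univ : Finset T) ⊆ {t0, t1, t2} := fun x _ => h x
    have h2 := Finset.card_le_card h1
    have h3 : ({t0, t1, t2} : Finset T).card ≤ 3 := Finset.card_le_three
    rw [Finset.card_univ] at h2
    omega
  simp only [Finset.mem_insert, Finset.mem_singleton, not_or] at hs
  obtain ⟨hs0, hs1, hs2⟩ := hs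
  obtain ⟨a, ha⟩ := MulAction.exists_smul_eq A t0 s
  have h1 := hcon a
  let e : T → T → ZMod p := fun x t => if t = x then 1 else 0
  have he : ∀ x, ∑ t, e x t • w t = w x := by
    intro x
    simp [e, ite_smul]
  have h2 := hli (fun t => e (a • t0) t + e (a • t0) t - e (a • t2) t - e (a • t1) t -
    (e t0 t + e t0 t - e t2 t - e t1 t)) (by
      simp only [sub_smul, add_smul, Finset.sum_sub_distrib, Finset.sum_add_distrib, he]
      rw [smul_sub, smul_sub, smul_add, hw, hw, hw] at h1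
      rw [h1, sub_self]) s
  have h3 : e (a • t0) s = 1 := by simp [e, ha]
  have h4 : e (a • t1) s = 0 := by
    have : s ≠ a • t1 := by
      rw [← ha]
      intro h
      exact h01 (MulAction.injective a h)
    simp [e, this]
  have h5 : e t0 s = 0 := by simp [e, hs0]
  have h6 : e t1 s = 0 := by simp [e, hs1]
  have h7 : e t2 s = 0 := by simp [e, hs2]
  simp only [h3, h4, h5, h6, h7] at h2
  have h8 : e (a • t2) s = 0 ∨ e (a • t2) s = 1 := by
    simp only [e]; split_ifs <;> simp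
  rcases h8 with h8 | h8
  · rw [h8] at h2
    have h9 : (2 : ZMod p) = 0 := by linear_combination h2
    have h10 : ((2 : ℕ) : ZMod p) = 0 := by exact_mod_cast h9
    rw [ZMod.natCast_eq_zero_iff] at h10
    exact hp2 ((Nat.prime_dvd_prime_iff_eq Fact.out Nat.prime_two).mp h10)
  · rw [h8] at h2
    have h9 : (1 : ZMod p) = 0 := by linear_combination h2
    exact one_ne_zero h9

end indep

section main

variable {p : ℕ} [Fact p.Prime] {Γ W : Type*} [Group Γ] [Finite Γ] [AddCommGroup W]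
  [Module (ZMod p) W] [DistribMulAction Γ W]

/-- The conjugates of `k₀` under `A`. -/
def Cls (A : Subgroup Γ) (k₀ : Γ) : Type _ := {k : Γ // ∃ a : A, (a : Γ) * k₀ * (a : Γ)⁻¹ = k}

noncomputable instance (A : Subgroup Γ) (k₀ : Γ) : Fintype (Cls A k₀) :=
  Fintype.ofFinite {k : Γ // ∃ a : A, (a : Γ) * k₀ * (a : Γ)⁻¹ = k}

instance (A : Subgroup Γ) (k₀ : Γ) : MulAction A (Cls A k₀) where
  smul := fun a k => ⟨(a : Γ) * k.1 * (a : Γ)⁻¹, by
    obtain ⟨b, hb⟩ := k.2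
    refine ⟨a * b, ?_⟩
    rw [← hb, Subgroup.coe_mul]
    group⟩
  one_smul := fun k => by
    apply Subtype.ext
    change ((1 : A) : Γ) * k.1 * ((1 : A) : Γ)⁻¹ = k.1
    simp
  mul_smul := fun a b k => by
    apply Subtype.ext
    change ((a * b : A) : Γ) * k.1 * ((a * b : A) : Γ)⁻¹ =
      (a : Γ) * ((b : Γ) * k.1 * (b : Γ)⁻¹) * (a : Γ)⁻¹
    rw [Subgroup.coe_mul]
    group

omit [Finite Γ] in
theorem Cls.smul_val (A : Subgroup Γ) (k₀ : Γ) (a : A) (k : Cls A k₀) :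
    (a • k).1 = (a : Γ) * k.1 * (a : Γ)⁻¹ := rfl

instance (A : Subgroup Γ) (k₀ : Γ) : MulAction.IsPretransitive A (Cls A k₀) where
  exists_smul_eq := by
    intro x y
    obtain ⟨a, ha⟩ := x.2
    obtain ⟨b, hb⟩ := y.2
    refine ⟨b * a⁻¹, Subtype.ext ?_⟩
    rw [Cls.smul_val, ← ha, ← hb]
    simp only [Subgroup.coe_mul, Subgroup.coe_inv]
    group

omit [Fact p.Prime] [Finite Γ] in
theorem sum_smul_eq_zero [Fintype Γ] [DecidableEq Γ] (K : Subgroup Γ) [DecidablePred (· ∈ K)]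
    (hW : ∀ w : W, (∀ k ∈ K, k • w = w) → w = 0) (v : W) :
    ∑ k ∈ Finset.univ.filter (· ∈ K), k • v = 0 := by
  apply hW
  intro k hk
  rw [Finset.smul_sum]
  refine Finset.sum_bij (fun x _ => k * x) ?_ ?_ ?_ ?_
  · intro x hx
    simp only [Finset.mem_filter, Finset.mem_univ, true_and] at hx ⊢
    exact mul_mem hk hx
  · intro x _ y _ h
    exact mul_left_cancel h
  · intro x hx
    simp only [Finset.mem_filter, Finset.mem_univ, true_and] at hx
    refine ⟨k⁻¹ * x, ?_, by simp⟩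
    simp only [Finset.mem_filter, Finset.mem_univ, true_and]
    exact mul_mem (inv_mem hk) hx
  · intro x _
    rw [mul_smul]

theorem exists_orbit (hp2 : p ≠ 2) (K A : Subgroup Γ) (hAK : A ≤ Subgroup.normalizer (K : Set Γ))
    (hW : ∀ w : W, (∀ k ∈ K, k • w = w) → w = 0) (v : W) (hv : v ≠ 0) :
    ∃ k₀ ∈ K, k₀ ≠ 1 ∧ (∑ k : Cls A k₀, ((k.1 : Γ) • v + (k.1 : Γ)⁻¹ • v)) ≠ 0 := by
  classical
  have := Fintype.ofFinite Γ
  by_contra hcon
  push Not at hcon
  let F : Γ → W := fun k => k • v + k⁻¹ • v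
  have hF : ∀ k, F k = k • v + k⁻¹ • v := fun _ => rfl
  have h1 := sum_smul_eq_zero K hW v
  have h2 : ∑ k ∈ Finset.univ.filter (· ∈ K), k⁻¹ • v = 0 := by
    rw [← h1]
    refine Finset.sum_bij (fun x _ => x⁻¹) ?_ ?_ ?_ ?_
    · intro x hx
      simp only [Finset.mem_filter, Finset.mem_univ, true_and] at hx ⊢
      exact inv_mem hx
    · intro x _ y _ h
      exact inv_injective h
    · intro x hx
      simp only [Finset.mem_filter, Finset.mem_univ, true_and] at hx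
      refine ⟨x⁻¹, ?_, by simp⟩
      simp only [Finset.mem_filter, Finset.mem_univ, true_and]
      exact inv_mem hx
    · intro x _; rfl
  have h3 : ∑ k ∈ Finset.univ.filter (· ∈ K), F k = 0 := by
    simp only [hF, Finset.sum_add_distrib, h1, h2, add_zero]
  -- the sum over the nonidentity elements
  let S : Finset Γ := (Finset.univ.filter (· ∈ K)).erase 1
  have hS : ∀ x, x ∈ S ↔ x ∈ K ∧ x ≠ 1 := by
    intro x
    simp only [S, Finset.mem_erase, Finset.mem_filter, Finset.mem_univ, true_and]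
    tauto
  have h4 : F 1 + ∑ k ∈ S, F k = 0 := by
    rw [← h3]
    exact Finset.add_sum_erase _ _ (by simp)
  let R : Setoid Γ :=
    { r := fun x y => ∃ a : A, (a : Γ) * y * (a : Γ)⁻¹ = x
      iseqv :=
        { refl := fun x => ⟨1, by simp⟩
          symm := by
            rintro x y ⟨a, ha⟩
            refine ⟨a⁻¹, ?_⟩
            rw [← ha, Subgroup.coe_inv]
            group
          trans := by
            rintro x y z ⟨a, ha⟩ ⟨b, hb⟩
            refine ⟨a * b, ?_⟩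
            rw [← ha, ← hb, Subgroup.coe_mul]
            group } }
  have h5 : ∑ k ∈ S, F k = 0 := by
    refine Finset.sum_cancels_of_partition_cancels R ?_
    intro x hx
    obtain ⟨hxK, hx1⟩ := (hS x).mp hx
    have h6 := hcon x hxK hx1
    rw [← h6]
    have h7 : ∀ y, y ∈ S.filter (fun a => R a x) ↔ ∃ a : A, (a : Γ) * x * (a : Γ)⁻¹ = y := by
      intro y
      rw [Finset.mem_filter, hS]
      constructor
      · rintro ⟨-, h⟩; exact h
      · rintro ⟨a, rfl⟩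
        refine ⟨⟨((Subgroup.mem_normalizer_iff.mp (hAK a.2)) x).mp hxK, ?_⟩, a, rfl⟩
        intro h
        apply hx1
        rwa [conj_eq_one_iff] at h
    exact Finset.sum_subtype _ h7 F
  rw [h5, add_zero, hF, inv_one, one_smul] at h4
  have h6 : (2 : ZMod p) • v = 0 := by
    rw [two_smul]; exact h4
  rcases smul_eq_zero.mp h6 with h7 | h7
  · have h10 : ((2 : ℕ) : ZMod p) = 0 := by exact_mod_cast h7
    rw [ZMod.natCast_eq_zero_iff] at h10
    exact hp2 ((Nat.prime_dvd_prime_iff_eq Fact.out Nat.prime_two).mp h10)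
  · exact hv h7

theorem exists_good (hp : 5 ≤ p) (K A : Subgroup Γ) (hAK : A ≤ Subgroup.normalizer (K : Set Γ))
    (hA : IsPGroup p A) (hfix : ∀ k ∈ K, (∀ a ∈ A, a * k = k * a) → k = 1)
    (hW : ∀ w : W, (∀ k ∈ K, k • w = w) → w = 0) (v : W) (hv : v ≠ 0)
    (hAv : ∀ a ∈ A, a • v = v) :
    ∃ k ∈ K, ∃ a₀ ∈ A, ∀ a ∈ A, ∃ b ∈ A,
      b • (a₀ • (k • v + k⁻¹ • v) + a₀ • (k • v + k⁻¹ • v) - a • (k • v + k⁻¹ • v) -
        (k • v + k⁻¹ • v)) ≠
      a₀ • (k • v + k⁻¹ • v) + a₀ • (k • v + k⁻¹ • v) - a • (k • v + k⁻¹ • v) -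
        (k • v + k⁻¹ • v) := by
  classical
  obtain ⟨k, hk, hk1, hsum⟩ := exists_orbit (p := p) (by omega) K A hAK hW v hv
  have h1 : ¬ ∀ a ∈ A, a * k = k * a := fun h => hk1 (hfix k hk h)
  push Not at h1
  obtain ⟨a₀, ha₀, hne⟩ := h1
  refine ⟨k, hk, a₀, ha₀, ?_⟩
  intro a ha
  let w : Cls A k → W := fun t => t.1 • v + t.1⁻¹ • v
  have hAi : ∀ a ∈ A, a⁻¹ • v = v := fun a ha => hAv _ (inv_mem ha)
  have hw' : ∀ (a : Γ) (x : Γ), a ∈ A → a • (x • v + x⁻¹ • v) =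
      (a * x * a⁻¹) • v + (a * x * a⁻¹)⁻¹ • v := by
    intro a x ha
    have e : (a * x * a⁻¹)⁻¹ = a * x⁻¹ * a⁻¹ := by group
    rw [e, smul_add, mul_smul, mul_smul, mul_smul, mul_smul, hAi a ha]
  have hw : ∀ (a : A) (t : Cls A k), a • w t = w (a • t) := by
    intro a t
    change (a : Γ) • (t.1 • v + t.1⁻¹ • v) = _
    rw [hw' a t.1 a.2]
    rfl
  let t1 : Cls A k := ⟨k, 1, by simp⟩
  let t0 : Cls A k := ⟨a₀ * k * a₀⁻¹, ⟨a₀, ha₀⟩, rfl⟩
  let t2 : Cls A k := ⟨a * k * a⁻¹, ⟨a, ha⟩, rfl⟩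
  have h01 : t0 ≠ t1 := by
    intro h
    apply hne
    have h2 : a₀ * k * a₀⁻¹ = k := congrArg Subtype.val h
    rw [mul_inv_eq_iff_eq_mul] at h2
    exact h2
  have hcard : 4 ≤ Fintype.card (Cls A k) := by
    obtain ⟨n, hn⟩ := hA.card_orbit t1
    rw [MulAction.orbit_eq_univ, Nat.card_univ, Nat.card_eq_fintype_card] at hn
    have h3 : 1 < Fintype.card (Cls A k) := Fintype.one_lt_card_iff.mpr ⟨t0, t1, h01⟩
    rw [hn] at h3 ⊢
    have h4 : n ≠ 0 := by
      rintro rfl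
      simp at h3
    calc 4 ≤ p := by omega
      _ ≤ p ^ n := Nat.le_self_pow h4 p
  obtain ⟨b, hb⟩ := exists_smul_ne (p := p) (by omega) hA w hw hsum hcard t2 h01
  refine ⟨b, b.2, ?_⟩
  have e0 : w t0 = a₀ • (k • v + k⁻¹ • v) := (hw' a₀ k ha₀).symm
  have e1 : w t1 = k • v + k⁻¹ • v := rfl
  have e2 : w t2 = a • (k • v + k⁻¹ • v) := (hw' a k ha).symm
  rw [e0, e1, e2] at hb
  exact hb

end main

end Cfsg.Agent.H278.OrbitIndep
end

-- part: H278/AbelianOffender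
section
/-!
# Abelian subgroups of largest order act trivially on abelian `K / Q` for `p ≥ 5`
-/

set_option autoImplicit false

namespace Cfsg.Agent.H278.AbelianOffender

open Subgroup
open scoped commutatorElement

universe u

/-- The module `B / M`. -/
theorem exists_module {G : Type u} [Group G] [Finite G] {p : ℕ} [hp : Fact p.Prime]
    (B M : Subgroup G) [hBn : B.Normal] [hMn : M.Normal]
    (hab : ∀ x ∈ B, ∀ y ∈ B, ⁅x, y⁆ ∈ M) (hpow : ∀ x ∈ B, x ^ p ∈ M) :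
    ∃ (Γ : Type u) (_ : Group Γ) (_ : Finite Γ) (W : Type u) (_ : AddCommGroup W)
      (_ : Module (ZMod p) W) (_ : Finite W) (_ : DistribMulAction Γ W)
      (φ : G →* Γ) (cl : B → W),
      (∀ x y : B, cl (x * y) = cl x + cl y) ∧ Function.Surjective cl ∧
      (∀ x : B, cl x = 0 ↔ (x : G) ∈ M) ∧
      (∀ (g : G) (x : B), φ g • (cl x) = cl ⟨g * x * g⁻¹, hBn.conj_mem x x.2 g⟩) ∧
      (∀ g : G, (∀ b ∈ B, ⁅g, b⁆ ∈ M) → φ g = 1) := by
  obtain ⟨M', hM'⟩ : ∃ M' : Subgroup B, M' = M.subgroupOf B := ⟨_, rfl⟩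
  have hM'n : M'.Normal := by rw [hM']; infer_instance
  have hmem : ∀ x : B, x ∈ M' ↔ (x : G) ∈ M := fun x => by rw [hM']; exact Iff.rfl
  let X := B ⧸ M'
  let cX : CommGroup X := { (inferInstance : Group (B ⧸ M')) with
    mul_comm := fun a b => by
      obtain ⟨x, rfl⟩ := QuotientGroup.mk'_surjective M' a
      obtain ⟨y, rfl⟩ := QuotientGroup.mk'_surjective M' b
      change (QuotientGroup.mk' M' x) * (QuotientGroup.mk' M' y) =
        (QuotientGroup.mk' M' y) * (QuotientGroup.mk' M' x)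
      rw [← map_mul, ← map_mul]
      refine (QuotientGroup.eq (s := M') (a := x * y) (b := y * x)).mpr ?_
      rw [hmem]
      have h1 := hab (y : G)⁻¹ (inv_mem y.2) (x : G)⁻¹ (inv_mem x.2)
      have e : ((((x * y)⁻¹ * (y * x) : B)) : G) = ⁅(y : G)⁻¹, (x : G)⁻¹⁆ := by
        rw [commutatorElement_def]
        simp only [Subgroup.coe_mul, Subgroup.coe_inv]
        group
      rw [e]; exact h1 }
  let W := Additive X
  let cl : B → W := fun x => Additive.ofMul ((QuotientGroup.mk' M' x : B ⧸ M') : X)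
  have hcls : Function.Surjective cl := by
    intro w
    obtain ⟨x, hx⟩ := QuotientGroup.mk'_surjective M' (Additive.toMul w)
    exact ⟨x, hx⟩
  have hcl : ∀ x y : B, cl (x * y) = cl x + cl y := fun x y => rfl
  have hcl0 : ∀ x : B, cl x = 0 ↔ (x : G) ∈ M := by
    intro x
    rw [← hmem, ← QuotientGroup.eq_one_iff]
    rfl
  have hclp : ∀ (n : ℕ) (x : B), n • cl x = cl (x ^ n) := by
    intro n x
    induction n with
    | zero =>
      rw [zero_nsmul, pow_zero]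
      exact ((hcl0 1).mpr (one_mem M)).symm
    | succ n ih => rw [succ_nsmul, ih, pow_succ, hcl]
  let hmod : Module (ZMod p) W := AddCommGroup.zmodModule (n := p) (fun w => by
    obtain ⟨x, rfl⟩ := hcls w
    rw [hclp]
    exact (hcl0 _).mpr (hpow x x.2))
  -- the action
  have hconj : ∀ g : G, M'.map ((MulAut.conjNormal g : MulAut B) : B →* B) = M' := by
    intro g
    ext x
    constructor
    · rintro ⟨y, hy, rfl⟩
      rw [hmem]
      exact hMn.conj_mem y ((hmem y).mp hy) g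
    · intro hx
      refine ⟨(MulAut.conjNormal g)⁻¹ x, ?_, ?_⟩
      · rw [SetLike.mem_coe, hmem, MulAut.conjNormal_inv_apply]
        have := hMn.conj_mem x ((hmem x).mp hx) g⁻¹
        rwa [inv_inv] at this
      · exact (MulAut.conjNormal g : MulAut B).apply_symm_apply x
  let ψ : G → MulAut X := fun g => QuotientGroup.congr M' M' (MulAut.conjNormal g) (hconj g)
  have hψ : ∀ (g : G) (x : B), ψ g (QuotientGroup.mk' M' x) =
      QuotientGroup.mk' M' ⟨g * x * g⁻¹, hBn.conj_mem x x.2 g⟩ := by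
    intro g x
    rfl
  let φ : G →* MulAut X :=
    { toFun := ψ
      map_one' := by
        ext x
        obtain ⟨y, rfl⟩ := QuotientGroup.mk'_surjective M' x
        rw [hψ]
        change _ = QuotientGroup.mk' M' y
        congr 1
        apply Subtype.ext
        simp
      map_mul' := fun g h => by
        ext x
        obtain ⟨y, rfl⟩ := QuotientGroup.mk'_surjective M' x
        rw [hψ, MulAut.mul_apply, hψ, hψ]
        congr 1
        apply Subtype.ext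
        simp only [mul_inv_rev, mul_assoc] }
  let act : DistribMulAction (MulAut X) W :=
    { smul := fun f w => Additive.ofMul (f (Additive.toMul w))
      one_smul := fun w => rfl
      mul_smul := fun f g w => rfl
      smul_zero := fun f => by
        change Additive.ofMul (f 1) = Additive.ofMul 1
        rw [map_one]
      smul_add := fun f w w' => by
        change Additive.ofMul (f (Additive.toMul w * Additive.toMul w')) = _
        rw [map_mul]
        rfl }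
  refine ⟨MulAut X, inferInstance, inferInstance, W, inferInstance, hmod, ?_, act, φ, cl, hcl, hcls,
    hcl0, fun g x => rfl, ?_⟩
  · exact (inferInstance : Finite (B ⧸ M'))
  · intro g hg
    ext x
    obtain ⟨y, rfl⟩ := QuotientGroup.mk'_surjective M' x
    change ψ g (QuotientGroup.mk' M' y) = QuotientGroup.mk' M' y
    rw [hψ]
    refine ((QuotientGroup.eq (s := M')).mpr ?_).symm
    rw [hmem]
    have h1 := hg (y : G) y.2
    have h2 := hMn.conj_mem _ h1 (y : G)⁻¹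
    have e : ((y⁻¹ * ⟨g * y * g⁻¹, hBn.conj_mem y y.2 g⟩ : B) : G) =
      (y : G)⁻¹ * ⁅g, (y : G)⁆ * (y : G)⁻¹⁻¹ := by
      rw [commutatorElement_def]
      simp only [Subgroup.coe_mul, Subgroup.coe_inv]
      group
    rw [e]; exact h2

theorem offender_step {G : Type u} [Group G] [Finite G] {p : ℕ} [hpf : Fact p.Prime] (hp : 5 ≤ p)
    (Q K A : Subgroup G) [hQn : Q.Normal] [hKn : K.Normal] (hQ : IsPGroup p Q)
    (hKc : ∀ s ∈ K, ∀ t ∈ K, ⁅s, t⁆ ∈ Q) (hKi : (Q.relIndex K).Coprime p)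
    (hC : K ⊓ centralizer (Q : Set G) ≤ Q) (hAp : IsPGroup p A)
    (hAc : ∀ a ∈ A, ∀ b ∈ A, a * b = b * a)
    (hmax : ∀ D : Subgroup G, D ≤ Q ⊔ A → (∀ x ∈ D, ∀ y ∈ D, x * y = y * x) →
      Nat.card D ≤ Nat.card A)
    (hKA : K ≤ ⁅K, A⁆ ⊔ Q) : K ≤ Q := by
  classical
  by_contra hKQ
  obtain ⟨B, M, hBn, hMn, hBQ, hMB, hBM, hBB, hBMc, hpow, hQB, ⟨L, hKL, hLM⟩, hfixM⟩ :=
    MinSection.exists_BM Q K hQ hKi hC hKQ
  obtain ⟨Γ, _, _, W, _, _, _, _, φ, cl, hcl, hcls, hcl0, hφ, hφ1⟩ :=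
    exists_module (p := p) B M hBB hpow
  have hcli : ∀ x : B, cl x⁻¹ = - cl x := by
    intro x
    have h1 := hcl x x⁻¹
    rw [mul_inv_cancel] at h1
    have h2 : cl 1 = 0 := (hcl0 1).mpr (one_mem M)
    rw [h2] at h1
    exact (neg_eq_of_add_eq_zero_right h1.symm).symm
  have hcleq : ∀ x y : B, cl x = cl y ↔ (x : G) * (y : G)⁻¹ ∈ M := by
    intro x y
    rw [← sub_eq_zero, sub_eq_add_neg, ← hcli, ← hcl, hcl0]
    rfl
  have hφQ : ∀ q ∈ Q, φ q = 1 := fun q hq => hφ1 q (hQB q hq)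
  -- `K̂` and `Â`
  have hAK : A.map φ ≤ normalizer ((K.map φ : Subgroup Γ) : Set Γ) := by
    have h1 := Subgroup.le_normalizer_map (H := K) φ
    rw [Subgroup.normalizer_eq_top_iff.mpr hKn] at h1
    exact (map_mono le_top).trans h1
  have hKcomm : ∀ x ∈ K.map φ, ∀ y ∈ K.map φ, x * y = y * x := by
    rintro _ ⟨s, hs, rfl⟩ _ ⟨t, ht, rfl⟩
    have h1 := hφQ _ (hKc s hs t ht)
    rw [commutatorElement_def, map_mul, map_mul, map_mul, map_inv, map_inv] at h1
    rw [mul_inv_eq_one, mul_inv_eq_iff_eq_mul] at h1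
    exact h1
  have hcopK : ¬ p ∣ Nat.card (K.map φ) := by
    intro hdvd
    obtain ⟨x, hx⟩ := exists_prime_orderOf_dvd_card' p hdvd
    obtain ⟨k, hk, hkx⟩ := x.2
    have h1 : k ^ (Q.relIndex K) ∈ Q := Subgroup.pow_index_mem (H := Q.subgroupOf K) (⟨k, hk⟩ : K)
    have h2 : x ^ (Q.relIndex K) = 1 := by
      apply Subtype.ext
      rw [Subgroup.coe_pow, ← hkx, ← map_pow, hφQ _ h1, Subgroup.coe_one]
    have h3 : p ∣ Q.relIndex K := by
      rw [← hx]; exact orderOf_dvd_of_pow_eq_one h2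
    have h4 := Nat.dvd_gcd h3 dvd_rfl
    rw [hKi] at h4
    exact hpf.out.one_lt.ne' (Nat.dvd_one.mp h4)
  have hcop : (Nat.card (A.map φ)).Coprime (Nat.card (K.map φ)) := by
    obtain ⟨n, hn⟩ := IsPGroup.iff_card.mp (hAp.map φ)
    rw [hn]
    exact Nat.Coprime.pow_left n ((Nat.Prime.coprime_iff_not_dvd hpf.out).mpr hcopK)
  have hKle : K.map φ ≤ ⁅K.map φ, A.map φ⁆ := by
    have h1 := map_mono (f := φ) hKA
    rw [Subgroup.map_sup, Subgroup.map_commutator] at h1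
    refine h1.trans (sup_le le_rfl ?_)
    rintro _ ⟨q, hq, rfl⟩
    rw [hφQ q hq]; exact one_mem _
  have hfix : ∀ k ∈ K.map φ, (∀ a ∈ A.map φ, a * k = k * a) → k = 1 := by
    intro k hk hka
    have h1 := Lib.CoprimeAbelian.inf_commutator_eq_bot (A.map φ) (K.map φ) hKcomm hAK hcop
    have h2 : k ∈ (K.map φ ⊓ centralizer ((A.map φ : Subgroup Γ) : Set Γ)) ⊓ ⁅K.map φ, A.map φ⁆ :=
      ⟨⟨hk, mem_centralizer_iff.mpr hka⟩, hKle hk⟩
    rw [h1] at h2
    exact Subgroup.mem_bot.mp h2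
  have hW : ∀ w : W, (∀ k ∈ K.map φ, k • w = w) → w = 0 := by
    intro w hw
    obtain ⟨b, rfl⟩ := hcls w
    rw [hcl0]
    apply hfixM b b.2
    intro k hk
    have h1 := hw (φ k) ⟨k, hk, rfl⟩
    rw [hφ, hcleq] at h1
    exact h1
  -- a fixed vector of `A`
  obtain ⟨v, hv, hAv⟩ : ∃ v : W, v ≠ 0 ∧ ∀ a ∈ A.map φ, a • v = v := by
    have hnt : Nontrivial W := by
      obtain ⟨b, hb, hbM⟩ := SetLike.not_le_iff_exists.mp hBM
      exact ⟨cl ⟨b, hb⟩, 0, fun h => hbM ((hcl0 _).mp h)⟩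
    have hcard : p ∣ Nat.card W := by
      rw [Module.natCard_eq_pow_finrank (K := ZMod p), Nat.card_zmod]
      exact dvd_pow_self p (Module.finrank_pos (R := ZMod p) (M := W)).ne'
    obtain ⟨v, hv, hne⟩ := (hAp.map φ).exists_fixed_point_of_prime_dvd_card_of_fixed_point W hcard
      (a := 0) (fun a => smul_zero (a : Γ))
    exact ⟨v, hne.symm, fun a ha => hv ⟨a, ha⟩⟩
  obtain ⟨_, ⟨k, hk, rfl⟩, _, ⟨a₀, ha₀, rfl⟩, hgood⟩ := OrbitIndep.exists_good (p := p) hp
    (K.map φ) (A.map φ) hAK (hAp.map φ) hfix hW v hv hAv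
  -- the element `y`
  obtain ⟨⟨y₀, hy₀⟩, hy₀v⟩ := hcls v
  have hcj : ∀ g : G, ∀ b ∈ B, g * b * g⁻¹ ∈ B := fun g b hb => hBn.conj_mem b hb g
  obtain ⟨Y, hY⟩ : ∃ Y : G → G, ∀ s, Y s = (s * y₀ * s⁻¹) * (s⁻¹ * y₀ * s) := ⟨_, fun _ => rfl⟩
  have hcj' : ∀ s, s⁻¹ * y₀ * s ∈ B := by
    intro s
    have := hcj s⁻¹ y₀ hy₀
    rwa [inv_inv] at this
  have hYB : ∀ s, Y s ∈ B := fun s => by rw [hY]; exact mul_mem (hcj s y₀ hy₀) (hcj' s)
  obtain ⟨y, hy⟩ : ∃ y, y = Y k := ⟨_, rfl⟩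
  have hyB : y ∈ B := by rw [hy]; exact hYB k
  have hcly : cl ⟨y, hyB⟩ = φ k • v + (φ k)⁻¹ • v := by
    rw [← hy₀v, ← map_inv, hφ, hφ, ← hcl]
    congr 1
    apply Subtype.ext
    change y = k * y₀ * k⁻¹ * (k⁻¹ * y₀ * k⁻¹⁻¹)
    rw [hy, hY, inv_inv]
  have hYY : ∀ s ∈ K, ∀ t ∈ K, Commute (Y s) (Y t) := by
    intro s hs t ht
    rw [hY, hY]
    exact MinSection.iso_comm hMB hBB hBMc hQB hKL hLM hKc hy₀ hs ht
  have hconjY : ∀ a ∈ A, ∃ m ∈ M, a * y * a⁻¹ = m * Y (a * k * a⁻¹) := by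
    intro a ha
    have h1 : a * y₀ * a⁻¹ * y₀⁻¹ ∈ M := by
      have h2 := hAv (φ a) ⟨a, ha, rfl⟩
      rw [← hy₀v, hφ, hcleq] at h2
      exact h2
    obtain ⟨m, hm⟩ : ∃ m, m = a * y₀ * a⁻¹ * y₀⁻¹ := ⟨_, rfl⟩
    rw [← hm] at h1
    have h3 : a * y₀ * a⁻¹ = m * y₀ := by rw [hm]; group
    obtain ⟨s, hs⟩ : ∃ s, s = a * k * a⁻¹ := ⟨_, rfl⟩
    have h4 : a * y * a⁻¹ = (s * m * s⁻¹) * (s * y₀ * s⁻¹) * ((s⁻¹ * m * s) * (s⁻¹ * y₀ * s)) := by
      have e : a * y * a⁻¹ = (s * (a * y₀ * a⁻¹) * s⁻¹) * (s⁻¹ * (a * y₀ * a⁻¹) * s) := by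
        rw [hy, hY, hs]; group
      rw [e, h3]; group
    have h5 : s * m * s⁻¹ ∈ M := hMn.conj_mem m h1 s
    have h6 : s⁻¹ * m * s ∈ M := by
      have := hMn.conj_mem m h1 s⁻¹
      rwa [inv_inv] at this
    refine ⟨(s * m * s⁻¹) * (s⁻¹ * m * s), mul_mem h5 h6, ?_⟩
    rw [h4, hY, ← hs]
    have h7 := hBMc _ (hcj s y₀ hy₀) _ h6
    calc (s * m * s⁻¹) * (s * y₀ * s⁻¹) * ((s⁻¹ * m * s) * (s⁻¹ * y₀ * s))
        = (s * m * s⁻¹) * ((s * y₀ * s⁻¹) * (s⁻¹ * m * s)) * (s⁻¹ * y₀ * s) := by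
          simp only [mul_assoc]
      _ = _ := by rw [h7]; simp only [mul_assoc]
  have hXX : ∀ a ∈ A, ∀ b ∈ A, Commute (a * y * a⁻¹) (b * y * b⁻¹) := by
    intro a ha b hb
    obtain ⟨m, hm, h1⟩ := hconjY a ha
    obtain ⟨m', hm', h2⟩ := hconjY b hb
    rw [h1, h2]
    have hkK : ∀ a, a * k * a⁻¹ ∈ K := fun a => hKn.conj_mem k hk a
    have c1 : Commute m m' := (hBMc m (hMB hm) m' hm')
    have c2 : Commute m (Y (b * k * b⁻¹)) := (hBMc _ (hYB _) m hm).symm
    have c3 : Commute (Y (a * k * a⁻¹)) m' := hBMc _ (hYB _) m' hm'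
    have c4 := hYY _ (hkK a) _ (hkK b)
    exact (c1.mul_right c2).mul_left (c3.mul_right c4)
  -- the subgroup `V`
  obtain ⟨V, hV⟩ : ∃ V, V = closure {x : G | ∃ a ∈ A, x = a * y * a⁻¹ * y⁻¹} := ⟨_, rfl⟩
  have hVQ : V ≤ Q := by
    rw [hV, closure_le]
    rintro _ ⟨a, ha, rfl⟩
    exact hBQ (mul_mem (hcj a y hyB) (inv_mem hyB))
  have hVc : ∀ x ∈ V, ∀ z ∈ V, x * z = z * x := by
    rw [hV]
    apply ThompsonSurj.comm_closure
    rintro _ ⟨a, ha, rfl⟩ _ ⟨b, hb, rfl⟩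
    have h1 : Commute (a * y * a⁻¹) y := by
      have := hXX a ha 1 (one_mem A)
      simpa using this
    have h2 : Commute (b * y * b⁻¹) y := by
      have := hXX b hb 1 (one_mem A)
      simpa using this
    have h3 := hXX a ha b hb
    exact ((h3.mul_right h1.inv_right).mul_left
      ((h2.symm.mul_right ((Commute.refl y).inv_right)).inv_left))
  have hδ : ∀ a ∈ A, a * y * a⁻¹ * y⁻¹ ∈ B := fun a ha => mul_mem (hcj a y hyB) (inv_mem hyB)
  obtain ⟨a, ha, z, hz, hzA, hzeq⟩ := ThompsonSurj.exists_eq hAc hmax hV hVQ hVc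
    ((a₀ * y * a₀⁻¹ * y⁻¹) * (a₀ * y * a₀⁻¹ * y⁻¹)) (by
      have : a₀ * y * a₀⁻¹ * y⁻¹ ∈ V := by rw [hV]; exact Subgroup.subset_closure ⟨a₀, ha₀, rfl⟩
      exact mul_mem this this)
  have hzB : z ∈ B := by
    have h1 : z = (a * y * a⁻¹ * y⁻¹)⁻¹ * ((a₀ * y * a₀⁻¹ * y⁻¹) * (a₀ * y * a₀⁻¹ * y⁻¹)) := by
      rw [hzeq]; group
    rw [h1]
    exact mul_mem (inv_mem (hδ a ha)) (mul_mem (hδ a₀ ha₀) (hδ a₀ ha₀))
  have hclδ : ∀ (a : G) (ha : a ∈ A), cl ⟨a * y * a⁻¹ * y⁻¹, hδ a ha⟩ =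
      φ a • cl ⟨y, hyB⟩ - cl ⟨y, hyB⟩ := by
    intro a ha
    rw [hφ, sub_eq_add_neg, ← hcli, ← hcl]
    rfl
  have h1 : cl ⟨a₀ * y * a₀⁻¹ * y⁻¹, hδ a₀ ha₀⟩ + cl ⟨a₀ * y * a₀⁻¹ * y⁻¹, hδ a₀ ha₀⟩ =
      cl ⟨a * y * a⁻¹ * y⁻¹, hδ a ha⟩ + cl ⟨z, hzB⟩ := by
    rw [← hcl, ← hcl]
    congr 1
    exact Subtype.ext hzeq
  rw [hclδ a₀ ha₀, hclδ a ha] at h1
  obtain ⟨_, ⟨b, hb, rfl⟩, hne⟩ := hgood (φ a) ⟨a, ha, rfl⟩
  apply hne
  rw [← hcly]
  have h2 : φ a₀ • cl ⟨y, hyB⟩ + φ a₀ • cl ⟨y, hyB⟩ - φ a • cl ⟨y, hyB⟩ - cl ⟨y, hyB⟩ =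
      cl ⟨z, hzB⟩ := by
    rw [eq_comm, ← sub_eq_zero]
    have h3 : cl ⟨z, hzB⟩ = (φ a₀ • cl ⟨y, hyB⟩ - cl ⟨y, hyB⟩) + (φ a₀ • cl ⟨y, hyB⟩ - cl ⟨y, hyB⟩)
        - (φ a • cl ⟨y, hyB⟩ - cl ⟨y, hyB⟩) := by
      rw [h1]; abel
    rw [h3]; abel
  rw [h2, hφ]
  congr 1
  apply Subtype.ext
  change b * z * b⁻¹ = z
  rw [hzA b hb]; group

end Cfsg.Agent.H278.AbelianOffender
end

-- part: H278/JComplement
section
/-!
# The normal `p`-complement theorem for `J(S)`, `p ≥ 5`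
-/

set_option autoImplicit false

namespace Cfsg.Agent.H278.JComplement

open Subgroup Cfsg
open scoped commutatorElement
open Cfsg.Agent.PLocal.ThompsonJA

universe u

variable {G : Type u} [Group G]

/-- `[K, A] ≤ Q` for `K / Q` abelian and `A` abelian of largest order in a `p`-group `P ≥ Q`. -/
theorem commutator_le_of_max [Finite G] {p : ℕ} [hpf : Fact p.Prime] (hp : 5 ≤ p)
    (Q K₀ P A : Subgroup G) [hQn : Q.Normal] [hKn : K₀.Normal] (hQP : Q ≤ P) (hP : IsPGroup p P)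
    (hQK : Q ≤ K₀) (hKc : ⁅K₀, K₀⁆ ≤ Q) (hKi : (Q.relIndex K₀).Coprime p)
    (hC : centralizer (Q : Set G) ≤ Q) (hA : A ∈ maxAbelianIn P) : ⁅K₀, A⁆ ≤ Q := by
  obtain ⟨hAP, hAc, hAm⟩ := hA
  have hAc' := (isMulCommutative_iff A).mp hAc
  obtain ⟨K, hK⟩ : ∃ K, K = ⁅K₀, A⁆ ⊔ Q := ⟨_, rfl⟩
  have hcle : ⁅K₀, A⁆ ≤ K₀ := Subgroup.commutator_le_left K₀ A
  have hKK₀ : K ≤ K₀ := by rw [hK]; exact sup_le hcle hQK
  have hQK' : Q ≤ K := by rw [hK]; exact le_sup_right
  have hAN : A ≤ normalizer (K : Set G) := by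
    rw [hK]
    have h1 := Cfsg.Agent.Lib.CoprimeCommutator.right_le_normalizer_commutator K₀ A
    have h2 : A ≤ normalizer (Q : Set G) := by
      rw [Subgroup.normalizer_eq_top_iff.mpr hQn]; exact le_top
    intro a ha
    have h3 := Subgroup.mem_normalizer_iff_map_conj_eq.mp (h1 ha)
    have h4 := Subgroup.mem_normalizer_iff_map_conj_eq.mp (h2 ha)
    rw [Subgroup.mem_normalizer_iff_map_conj_eq, Subgroup.map_sup, h3, h4]
  -- `K = [K, A] Q`
  have hKA : K ≤ ⁅K, A⁆ ⊔ Q := by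
    let π := QuotientGroup.mk' Q
    have hcop : (Nat.card (A.map π)).Coprime (Nat.card (K₀.map π)) := by
      obtain ⟨n, hn⟩ := IsPGroup.iff_card.mp ((hP.to_le hAP).map π)
      rw [hn]
      apply Nat.Coprime.pow_left n
      have h1 : Nat.card (K₀.map π) = Q.relIndex K₀ := by
        rw [← Subgroup.relIndex_ker, QuotientGroup.ker_mk']
      rw [h1]; exact hKi.symm
    have hAK : A.map π ≤ normalizer ((K₀.map π : Subgroup (G ⧸ Q)) : Set (G ⧸ Q)) := by
      have h1 : (K₀.map π).Normal := hKn.map _ (QuotientGroup.mk'_surjective Q)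
      rw [Subgroup.normalizer_eq_top_iff.mpr h1]; exact le_top
    have h1 := Cfsg.Agent.Lib.CoprimeCommutator.commutator_commutator_eq (A.map π) (K₀.map π)
      hAK hcop
    have hQb : Q.map π = ⊥ := by
      rw [Subgroup.map_eq_bot_iff, QuotientGroup.ker_mk']
    have h2 : K.map π = ⁅K₀.map π, A.map π⁆ := by
      rw [hK, Subgroup.map_sup, hQb, sup_bot_eq, Subgroup.map_commutator]
    have h3 : ⁅K, A⁆.map π = K.map π := by
      rw [Subgroup.map_commutator, h2, h1]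
    have h4 : K ≤ (⁅K, A⁆.map π).comap π := by
      rw [h3]; exact Subgroup.le_comap_map π K
    rw [Subgroup.comap_map_eq, QuotientGroup.ker_mk'] at h4
    exact h4
  -- the ambient group `N(K)`
  let N : Subgroup G := normalizer (K : Set G)
  have hKN : K ≤ N := le_normalizer
  have hQN : Q ≤ N := hQK'.trans hKN
  have hKsub : (K.subgroupOf N).Normal := by
    exact (normal_subgroupOf_iff_le_normalizer hKN).mpr le_rfl
  have key : K.subgroupOf N ≤ Q.subgroupOf N := by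
    have hQsn : (Q.subgroupOf N).Normal := inferInstance
    refine AbelianOffender.offender_step hp (Q.subgroupOf N) (K.subgroupOf N) (A.subgroupOf N)
      ?_ ?_ ?_ ?_ ?_ ?_ ?_ ?_
    · exact (hP.to_le hQP).comap_of_injective _ N.subtype_injective
    · intro s hs t ht
      have h1 : ⁅(s : G), (t : G)⁆ ∈ Q :=
        hKc (commutator_mem_commutator (hKK₀ hs) (hKK₀ ht))
      exact h1
    · rw [Subgroup.relIndex_subgroupOf hKN]
      have h1 : Q.relIndex K ∣ Q.relIndex K₀ := by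
        rw [← Subgroup.relIndex_mul_relIndex Q K K₀ hQK' hKK₀]
        exact dvd_mul_right _ _
      exact hKi.coprime_dvd_left h1
    · rintro x ⟨-, hx⟩
      apply hC
      rw [mem_centralizer_iff]
      intro q hq
      have h1 := (mem_centralizer_iff.mp hx) (⟨q, hQN hq⟩ : N) hq
      exact congrArg Subtype.val h1
    · exact (hP.to_le hAP).comap_of_injective _ N.subtype_injective
    · intro a ha b hb
      exact Subtype.ext (hAc' a ha b hb)
    · intro D hD hDc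
      have h1 : D.map N.subtype ≤ P := by
        have h2 := map_mono (f := N.subtype) hD
        rw [Subgroup.map_sup, subgroupOf_map_subtype, subgroupOf_map_subtype] at h2
        exact h2.trans (sup_le (inf_le_left.trans hQP) (inf_le_left.trans hAP))
      have h3 := hAm (D.map N.subtype) h1 (isMulCommutative_map _ ((isMulCommutative_iff D).mpr hDc))
      rw [card_map_of_injective _ N.subtype_injective] at h3
      rwa [Nat.card_congr (Subgroup.subgroupOfEquivOfLe hAN).toEquiv]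
    · have h1 : (⁅K.subgroupOf N, A.subgroupOf N⁆ ⊔ Q.subgroupOf N).map N.subtype = ⁅K, A⁆ ⊔ Q := by
        rw [Subgroup.map_sup, Subgroup.map_commutator, subgroupOf_map_subtype,
          subgroupOf_map_subtype, subgroupOf_map_subtype, inf_eq_left.mpr hKN,
          inf_eq_left.mpr hAN, inf_eq_left.mpr hQN]
      rw [← Subgroup.map_le_map_iff_of_injective N.subtype_injective, h1, subgroupOf_map_subtype,
        inf_eq_left.mpr hKN]
      exact hKA
  have h5 : K ≤ Q := by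
    intro k hk
    exact key (show (⟨k, hKN hk⟩ : N) ∈ K.subgroupOf N from hk)
  have h6 : ⁅K₀, A⁆ ≤ K := by rw [hK]; exact le_sup_left
  exact h6.trans h5

/-- `J(P) ≤ O_p(G)` in the minimal configuration. -/
theorem thompson_le [Finite G] {p : ℕ} [hpf : Fact p.Prime] (hp : 5 ≤ p) (P : Sylow p G)
    (K₀ : Subgroup G) (hKn : K₀.Normal) (hQK : Cfsg.pCore p G ≤ K₀)
    (hKc : ⁅K₀, K₀⁆ ≤ Cfsg.pCore p G) (hKi : ((Cfsg.pCore p G).relIndex K₀).Coprime p)
    (htop : K₀ ⊔ (P : Subgroup G) = ⊤)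
    (hC : centralizer (Cfsg.pCore p G : Set G) ≤ Cfsg.pCore p G) :
    thompsonSubgroupAOf (P : Subgroup G) ≤ Cfsg.pCore p G := by
  have hQn : (Cfsg.pCore p G).Normal := Cfsg.Agent.Lib.Cores.pCore_normal p
  obtain ⟨Q, hQ⟩ : ∃ Q, Q = Cfsg.pCore p G := ⟨_, rfl⟩
  rw [← hQ] at hQK hKc hKi hC hQn ⊢
  have hQp : IsPGroup p Q := by rw [hQ]; exact Cfsg.Agent.Lib.Cores.pCore_isPGroup p
  have hQP : Q ≤ (P : Subgroup G) := by
    rw [hQ]; exact Cfsg.Agent.Lib.Cores.pCore_le_sylow P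
  rw [thompsonSubgroupAOf_eq_sSup]
  refine sSup_le ?_
  intro A hA
  have h1 := commutator_le_of_max hp Q K₀ (P : Subgroup G) A hQP P.isPGroup' hQK hKc hKi hC hA
  -- the elements of `P` centralizing `K₀ / Q`
  let π := QuotientGroup.mk' Q
  have hKpn : (K₀.map π).Normal := hKn.map _ (QuotientGroup.mk'_surjective Q)
  obtain ⟨C, hCdef⟩ : ∃ C : Subgroup G, C = (centralizer ((K₀.map π : Subgroup (G ⧸ Q)) : Set (G ⧸ Q))).comap π :=
    ⟨_, rfl⟩
  have hCn : C.Normal := by rw [hCdef]; infer_instance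
  have hCmem : ∀ g : G, g ∈ C ↔ ∀ k ∈ K₀, ⁅k, g⁆ ∈ Q := by
    intro g
    rw [hCdef, Subgroup.mem_comap, mem_centralizer_iff]
    constructor
    · intro h k hk
      have h2 := h (π k) ⟨k, hk, rfl⟩
      rw [← QuotientGroup.eq_one_iff]
      change π ⁅k, g⁆ = 1
      rw [map_commutatorElement, commutatorElement_eq_one_iff_mul_comm]
      exact h2
    · rintro h _ ⟨k, hk, rfl⟩
      have h2 := h k hk
      rw [← QuotientGroup.eq_one_iff] at h2
      change π ⁅k, g⁆ = 1 at h2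
      rw [map_commutatorElement, commutatorElement_eq_one_iff_mul_comm] at h2
      exact h2
  obtain ⟨E, hE⟩ : ∃ E : Subgroup G, E = (P : Subgroup G) ⊓ C := ⟨_, rfl⟩
  have hEn : E.Normal := by
    rw [← Subgroup.normalizer_eq_top_iff, eq_top_iff, ← htop]
    refine sup_le ?_ ?_
    · intro k hk
      have hQE : Q ≤ E := by
        rw [hE]
        refine le_inf hQP ?_
        intro q hq
        rw [hCmem]
        intro k hk
        rw [commutatorElement_def]
        exact mul_mem (hQn.conj_mem q hq k) (inv_mem hq)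
      have h2 : ∀ k ∈ K₀, ∀ e ∈ E, k * e * k⁻¹ ∈ E := by
        intro k hk e he
        have h3 : ⁅k, e⁆ ∈ Q := (hCmem e).mp (by rw [hE] at he; exact he.2) k hk
        have h4 := mul_mem (hQE h3) he
        rw [commutatorElement_def, inv_mul_cancel_right] at h4
        exact h4
      rw [Subgroup.mem_normalizer_iff]
      intro e
      refine ⟨h2 k hk e, fun h => ?_⟩
      have h3 := h2 k⁻¹ (inv_mem hk) _ h
      have e1 : k⁻¹ * (k * e * k⁻¹) * k⁻¹⁻¹ = e := by group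
      rwa [e1] at h3
    · rw [hE]
      exact (le_inf le_normalizer (by rw [Subgroup.normalizer_eq_top_iff.mpr hCn]; exact le_top)).trans
        inf_normalizer_le_normalizer_inf
  have hEQ : E ≤ Q := by
    rw [hQ]
    exact Cfsg.Agent.Lib.Cores.le_pCore hEn (by rw [hE]; exact P.isPGroup'.to_le inf_le_left)
  refine le_trans ?_ hEQ
  rw [hE]
  refine le_inf hA.1 ?_
  intro a ha
  rw [hCmem]
  intro k hk
  exact h1 (commutator_mem_commutator hk ha)

/-- `J(P)` is compatible with homomorphisms injective on `P`. -/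
theorem map_thompsonSubgroupAOf_of_injOn {G H : Type*} [Group G] [Group H] (f : G →* H)
    (P : Subgroup G) (hf : Set.InjOn f P) :
    (thompsonSubgroupAOf P).map f = thompsonSubgroupAOf (P.map f) := by
  have h1 : Function.Injective (f.comp P.subtype) := by
    intro x y hxy
    exact Subtype.ext (hf x.2 y.2 hxy)
  have h2 : (⊤ : Subgroup P).map P.subtype = P := by
    rw [← MonoidHom.range_eq_map, Subgroup.range_subtype]
  have h3 := PLocal.ThompsonJA.map_thompsonSubgroupAOf P.subtype P.subtype_injective ⊤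
  have h4 := PLocal.ThompsonJA.map_thompsonSubgroupAOf (f.comp P.subtype) h1 ⊤
  rw [← Subgroup.map_map, h3, ← Subgroup.map_map, h2] at h4
  exact h4

/-- The normal `p`-complement theorem for `J(P)`, `p ≥ 5`. -/
theorem hasNormalPComplement (G : Type u) [Group G] [Finite G] {p : ℕ} [Fact p.Prime] (hp : 5 ≤ p)
    (P : Sylow p G)
    (hN : Cfsg.HasNormalPComplement p
      (Subgroup.normalizer (thompsonSubgroupAOf (P : Subgroup G) : Set G))) :
    Cfsg.HasNormalPComplement p G := by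
  refine PLocal.ComplementReduction.hasNormalPComplement_of_functor (p := p)
    (fun G _ P => thompsonSubgroupAOf P) ?_ ?_ ?_ ?_ G P hN
  · intro G G' _ _ _ _ f P hf _
    exact map_thompsonSubgroupAOf_of_injOn f P hf
  · intro G _ _ P _
    exact PLocal.ThompsonJA.thompsonSubgroupAOf_le P
  · intro G _ _ P hP hP1 h
    apply PLocal.ThompsonJA.centerThompsonAOf_ne_bot P hP hP1
    rw [eq_bot_iff, ← h]
    exact PLocal.ThompsonJA.centerThompsonAOf_le_thompsonSubgroupAOf P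
  · intro G _ _ P A hA hlt hab hcop htop hc _ hN
    have h1 := thompson_le hp P A hA hlt.le hab hcop htop hc
    have h2 := PLocal.ThompsonJA.thompsonSubgroupAOf_eq_of_le h1
      (Cfsg.Agent.Lib.Cores.pCore_le_sylow P)
    have h3 : (Cfsg.pCore p G).Normal := Cfsg.Agent.Lib.Cores.pCore_normal p
    have h4 := PLocal.ThompsonJA.normalizer_le_normalizer_thompsonSubgroupAOf (Cfsg.pCore p G)
    rw [Subgroup.normalizer_eq_top_iff.mpr h3, top_le_iff, h2] at h4
    rw [h4] at hN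
    exact (Transfer.PNilpotentBasic.hnc_top).1 hN

end Cfsg.Agent.H278.JComplement
end

-- part: S3070
section
set_option autoImplicit false

namespace Cfsg.Agent.S3070

open Subgroup
open Cfsg.Agent.PLocal.ThompsonJA

/-- Let p ≥ 5 be a prime, S a Sylow p-subgroup of the finite group G and J(S) the subgroup generated by the abelian subgroups of S of largest order. Then G has a normal p-complement if and only if N_G(J(S))/C_G(J(S)) is a p-group (every element of N_G(J(S)) of order prime to p centralizes J(S)). -/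
theorem result {G : Type*} [Group G] [Finite G] {p : ℕ} [Fact p.Prime]
    (hp : 5 ≤ p) (S : Sylow p G) :
    Cfsg.HasNormalPComplement p G ↔
      ∀ g ∈ Subgroup.normalizer (Cfsg.thompsonSubgroupAOf (S : Subgroup G) : Set G), (orderOf g).Coprime p →
        g ∈ Subgroup.centralizer (Cfsg.thompsonSubgroupAOf (S : Subgroup G) : Set G) := by
  have h1 := Cfsg.Agent.H278.Automizer.hnc_normalizer_iff S
    (Cfsg.thompsonSubgroupAOf (S : Subgroup G)) (thompsonSubgroupAOf_le _)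
    (le_normalizer.trans (normalizer_le_normalizer_thompsonSubgroupAOf _))
    (by
      rw [inf_centralizer_thompsonSubgroupAOf_eq]
      exact centerThompsonAOf_le_thompsonSubgroupAOf _)
  rw [← h1]
  constructor
  · intro h
    exact Cfsg.Agent.Transfer.PNilpotentBasic.hnc_subgroup _ h
  · exact Cfsg.Agent.H278.JComplement.hasNormalPComplement G hp S

end Cfsg.Agent.S3070
end
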