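import Mathlib
import Cfsg.Statements.S3075
set_option linter.all false

-- part: H275/PlaneSplit
section
set_option autoImplicit false

/-!
# Extensions of a self-centralizing group of order `p²` by `SL₂(p)` split for odd `p`
-/

namespace Cfsg.Agent.H275.PlaneSplit

variable {N : Type*} [Group N] [Finite N] {p : ℕ} [hp : Fact p.Prime]

/-- A proper nontrivial subgroup of a group of order `p ^ 2` is generated by each of its nontrivial elements. -/
theorem eq_zpowers {A C : Subgroup N} (hA : Nat.card A = p ^ 2) (hCA : C ≤ A) (hne : C ≠ A) {c : N} (hc : c ∈ C)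
    (hc1 : c ≠ 1) : C = Subgroup.zpowers c := by
  have h1 : Nat.card C ∣ p ^ 2 := by rw [← hA]; exact Subgroup.card_dvd_of_le hCA
  obtain ⟨k, hk, hk'⟩ := (Nat.dvd_prime_pow hp.out).1 h1
  have hk2 : k ≠ 2 := by
    rintro rfl
    exact hne (Subgroup.eq_of_le_of_card_ge hCA (by rw [hA, hk']))
  have hk0 : k ≠ 0 := by
    rintro rfl
    rw [pow_zero] at hk'
    have := Subgroup.card_eq_one.1 hk'
    rw [this, Subgroup.mem_bot] at hc
    exact hc1 hc
  have hk1 : k = 1 := by omega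
  subst hk1
  rw [pow_one] at hk'
  symm
  apply Subgroup.eq_of_le_of_card_ge (Subgroup.zpowers_le.2 hc)
  rw [hk', Nat.card_zpowers]
  have h2 : orderOf c ∣ p := by
    rw [← hk']
    have := orderOf_dvd_natCard (⟨c, hc⟩ : C)
    rwa [Subgroup.orderOf_mk] at this
  rcases (Nat.dvd_prime hp.out).1 h2 with h3 | h3
  · exact absurd (orderOf_eq_one_iff.1 h3) hc1
  · exact h3.ge

theorem conj_comm {c n m : N} (hn : n * c * n⁻¹ ∈ Subgroup.zpowers c) (hm : m * c * m⁻¹ ∈ Subgroup.zpowers c) :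
    (n * m) * c * (n * m)⁻¹ = (m * n) * c * (m * n)⁻¹ := by
  obtain ⟨k, hk⟩ := hn
  obtain ⟨l, hl⟩ := hm
  simp only at hk hl
  have h1 : (n * m) * c * (n * m)⁻¹ = n * (m * c * m⁻¹) * n⁻¹ := by group
  have h2 : (m * n) * c * (m * n)⁻¹ = m * (n * c * n⁻¹) * m⁻¹ := by group
  rw [h1, h2, ← hk, ← hl, ← conj_zpow, ← conj_zpow, ← hk, ← hl, ← zpow_mul, ← zpow_mul, mul_comm]

theorem main (hp2 : p ≠ 2) (A : Subgroup N) [A.Normal] (hAcomm : IsMulCommutative A) (hAcard : Nat.card A = p ^ 2)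
    (hAself : Subgroup.centralizer (A : Set N) = A)
    {F : Type*} [Field F] [Fintype F] (hF : Fintype.card F = p) (e : N ⧸ A ≃* Matrix.SpecialLinearGroup (Fin 2) F) :
    ∃ U : Subgroup N, A ⊓ U = ⊥ ∧ A ⊔ U = ⊤ := by
  classical
  have hodd : Odd (p ^ 2) := (hp.out.odd_of_ne_two hp2).pow
  have hchar : (2 : F) ≠ 0 := by
    intro h
    have h1 : ringChar F ∣ 2 := by
      rw [← CharP.cast_eq_zero_iff F (ringChar F)]; exact_mod_cast h
    have h2 := FiniteField.card F (ringChar F)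
    obtain ⟨n, hn, hn'⟩ := h2
    rw [hF] at hn'
    have h3 : ringChar F ∣ p := by rw [hn']; exact dvd_pow_self _ n.pos.ne'
    have h4 := (Nat.prime_dvd_prime_iff_eq hn hp.out).1 h3
    rw [h4] at h1
    exact hp2 ((Nat.prime_dvd_prime_iff_eq hp.out Nat.prime_two).1 h1)
  have hAc : ∀ a ∈ A, ∀ b ∈ A, a * b = b * a := by
    intro a ha b hb
    exact congrArg Subtype.val (hAcomm.is_comm.comm ⟨a, ha⟩ ⟨b, hb⟩)
  have hApow : ∀ a ∈ A, a ^ (p ^ 2) = 1 := by
    intro a ha
    have := pow_card_eq_one' (x := (⟨a, ha⟩ : A))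
    rw [hAcard] at this
    exact congrArg Subtype.val this
  have hsq : ∀ a ∈ A, a * a = 1 → a = 1 := by
    intro a ha h
    obtain ⟨k, hk⟩ := hodd
    have h1 := hApow a ha
    rw [hk, pow_succ, pow_mul, sq, h, one_pow, one_mul] at h1
    exact h1
  -- the central involution
  set s : N ⧸ A := e.symm (-1) with hs
  have hs1 : s ≠ 1 := by
    intro h
    have h1 : (-1 : Matrix.SpecialLinearGroup (Fin 2) F) = 1 := by
      rw [← e.apply_symm_apply (-1), ← hs, h, map_one]
    have h2 := congrArg (fun M : Matrix.SpecialLinearGroup (Fin 2) F => (M : Matrix (Fin 2) (Fin 2) F) 0 0) h1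
    simp at h2
    apply hchar
    linear_combination -h2
  have hs2 : s * s = 1 := by
    rw [hs, ← map_mul]
    simp
  have hsc : ∀ x : N ⧸ A, x * s = s * x := by
    intro x
    apply e.injective
    rw [map_mul, map_mul, hs, e.apply_symm_apply]
    simp
  obtain ⟨x, hx⟩ := QuotientGroup.mk_surjective s
  have hx2 : x * x ∈ A := by
    rw [← QuotientGroup.eq_one_iff, QuotientGroup.mk_mul, hx, hs2]
  set t : N := x ^ (p ^ 2) with ht
  have ht2 : t * t = 1 := by
    rw [ht, ← pow_add, ← two_mul, pow_mul, sq]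
    exact hApow _ hx2
  have hts : (QuotientGroup.mk t : N ⧸ A) = s := by
    obtain ⟨k, hk⟩ := hodd
    rw [ht, QuotientGroup.mk_pow, hx, hk, pow_succ, pow_mul, sq, hs2, one_pow, one_mul]
  have htinv : t⁻¹ = t := inv_eq_of_mul_eq_one_left ht2
  have htA : t ∉ A := by
    intro h
    apply hs1
    rw [← hts, QuotientGroup.eq_one_iff]
    exact h
  -- all conjugates of `t` act like `t`
  have hconj : ∀ n : N, ∃ a ∈ A, n * t * n⁻¹ = t * a := by
    intro n
    refine ⟨t⁻¹ * (n * t * n⁻¹), ?_, by group⟩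
    rw [← QuotientGroup.eq_one_iff]
    simp only [QuotientGroup.mk_mul, QuotientGroup.mk_inv, hts]
    rw [hsc]; group
  have hact : ∀ n : N, ∀ b ∈ A, (n * t * n⁻¹) * b * (n * t * n⁻¹)⁻¹ = t * b * t⁻¹ := by
    intro n b hb
    obtain ⟨a, ha, hna⟩ := hconj n
    rw [hna]
    have h1 : t * a * b * (t * a)⁻¹ = t * (a * b * a⁻¹) * t⁻¹ := by group
    rw [h1, hAc a ha b hb]; group
  -- the fixed points of `t` in `A` are trivial
  have hfix : ∀ c ∈ A, t * c * t⁻¹ = c → c = 1 := by
    intro c hcA hct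
    by_contra hc1
    -- some element of `A` does not commute with `t`
    obtain ⟨a, haA, hat⟩ : ∃ a ∈ A, t * a * t⁻¹ ≠ a := by
      by_contra hcon
      push Not at hcon
      apply htA
      rw [← hAself, Subgroup.mem_centralizer_iff]
      intro a ha
      have h1 := hcon a ha
      calc a * t = (t * a * t⁻¹) * t := by rw [h1]
        _ = t * a := by group
    set d : N := a⁻¹ * (t * a * t⁻¹) with hd
    have hta : t * a * t⁻¹ ∈ A := Subgroup.Normal.conj_mem inferInstance a haA t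
    have hdA : d ∈ A := A.mul_mem (A.inv_mem haA) hta
    have hd1 : d ≠ 1 := by
      intro h
      apply hat
      rw [hd, inv_mul_eq_one] at h
      exact h.symm
    have hdt : t * d * t⁻¹ = d⁻¹ := by
      have h1 : t * d * t⁻¹ = (t * a⁻¹ * t⁻¹) * ((t * t) * a * (t * t)⁻¹) := by rw [hd]; group
      rw [h1, ht2]
      have h2 : d⁻¹ = (t * a⁻¹ * t⁻¹) * a := by rw [hd]; group
      rw [h2]; group
    let C : Subgroup N :=
      { carrier := {y | y ∈ A ∧ t * y * t⁻¹ = y}
        one_mem' := ⟨A.one_mem, by group⟩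
        mul_mem' := by
          rintro y z ⟨h1, h2⟩ ⟨h3, h4⟩
          refine ⟨A.mul_mem h1 h3, ?_⟩
          calc t * (y * z) * t⁻¹ = (t * y * t⁻¹) * (t * z * t⁻¹) := by group
            _ = y * z := by rw [h2, h4]
        inv_mem' := by
          rintro y ⟨h1, h2⟩
          refine ⟨A.inv_mem h1, ?_⟩
          calc t * y⁻¹ * t⁻¹ = (t * y * t⁻¹)⁻¹ := by group
            _ = y⁻¹ := by rw [h2] }
    let I : Subgroup N :=
      { carrier := {y | y ∈ A ∧ t * y * t⁻¹ = y⁻¹}
        one_mem' := ⟨A.one_mem, by group⟩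
        mul_mem' := by
          rintro y z ⟨h1, h2⟩ ⟨h3, h4⟩
          refine ⟨A.mul_mem h1 h3, ?_⟩
          calc t * (y * z) * t⁻¹ = (t * y * t⁻¹) * (t * z * t⁻¹) := by group
            _ = y⁻¹ * z⁻¹ := by rw [h2, h4]
            _ = (y * z)⁻¹ := by rw [hAc y h1 z h3, mul_inv_rev]
        inv_mem' := by
          rintro y ⟨h1, h2⟩
          refine ⟨A.inv_mem h1, ?_⟩
          calc t * y⁻¹ * t⁻¹ = (t * y * t⁻¹)⁻¹ := by group
            _ = (y⁻¹)⁻¹ := by rw [h2] }
    have hCmem : ∀ y, y ∈ C ↔ y ∈ A ∧ t * y * t⁻¹ = y := fun y => Iff.rfl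
    have hImem : ∀ y, y ∈ I ↔ y ∈ A ∧ t * y * t⁻¹ = y⁻¹ := fun y => Iff.rfl
    have hC : C = Subgroup.zpowers c := by
      apply eq_zpowers hAcard (fun y hy => ((hCmem y).1 hy).1) ?_ ((hCmem c).2 ⟨hcA, hct⟩) hc1
      intro h
      have : a ∈ C := by rw [h]; exact haA
      exact hat this.2
    have hI : I = Subgroup.zpowers d := by
      apply eq_zpowers hAcard (fun y hy => ((hImem y).1 hy).1) ?_ ((hImem d).2 ⟨hdA, hdt⟩) hd1
      intro h
      have h1 : c ∈ I := by rw [h]; exact hcA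
      have h2 := h1.2
      rw [hct] at h2
      exact hc1 (hsq c hcA (by nth_rewrite 1 [h2]; group))
    -- both are normal
    have key : ∀ n : N, ∀ y ∈ A, t * (n * y * n⁻¹) * t⁻¹ = n * (t * y * t⁻¹) * n⁻¹ := by
      intro n y hy
      have h1 := hact n⁻¹ y hy
      have h2 : n * (n⁻¹ * t * n⁻¹⁻¹ * y * (n⁻¹ * t * n⁻¹⁻¹)⁻¹) * n⁻¹ = t * (n * y * n⁻¹) * t⁻¹ := by group
      rw [← h2, h1]
    have hCn : ∀ n : N, n * c * n⁻¹ ∈ Subgroup.zpowers c := by
      intro n
      rw [← hC, hCmem]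
      refine ⟨Subgroup.Normal.conj_mem inferInstance c hcA n, ?_⟩
      rw [key n c hcA, hct]
    have hIn : ∀ n : N, n * d * n⁻¹ ∈ Subgroup.zpowers d := by
      intro n
      rw [← hI, hImem]
      refine ⟨Subgroup.Normal.conj_mem inferInstance d hdA n, ?_⟩
      rw [key n d hdA, hdt]; group
    -- `A` is generated by `c` and `d`
    have hAgen : ∀ y ∈ A, ∃ u ∈ Subgroup.zpowers c, ∃ v ∈ Subgroup.zpowers d, y * y = u * v := by
      intro y hy
      have hty : t * y * t⁻¹ ∈ A := Subgroup.Normal.conj_mem inferInstance y hy t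
      refine ⟨y * (t * y * t⁻¹), ?_, y * (t * y * t⁻¹)⁻¹, ?_, ?_⟩
      · rw [← hC, hCmem]
        refine ⟨A.mul_mem hy hty, ?_⟩
        have h1 : t * (y * (t * y * t⁻¹)) * t⁻¹ = (t * y * t⁻¹) * ((t * t) * y * (t * t)⁻¹) := by group
        rw [h1, ht2, hAc y hy _ hty]; group
      · rw [← hI, hImem]
        refine ⟨A.mul_mem hy (A.inv_mem hty), ?_⟩
        have h1 : t * (y * (t * y * t⁻¹)⁻¹) * t⁻¹ = (t * y * t⁻¹) * ((t * t) * y * (t * t)⁻¹)⁻¹ := by group
        rw [h1, ht2]; group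
      · have h1 : y * (t * y * t⁻¹) * (y * (t * y * t⁻¹)⁻¹) = y * ((t * y * t⁻¹) * y) * (t * y * t⁻¹)⁻¹ := by group
        rw [h1, hAc _ hty y hy]; group
    -- commutators centralize `A`
    have hcomm : ∀ n m : N, (m * n)⁻¹ * (n * m) ∈ A := by
      intro n m
      rw [← hAself, Subgroup.mem_centralizer_iff]
      have hcen : ∀ y : N, (n * m) * y * (n * m)⁻¹ = (m * n) * y * (m * n)⁻¹ →
          Commute ((m * n)⁻¹ * (n * m)) y := by
        intro y hy
        show (m * n)⁻¹ * (n * m) * y = y * ((m * n)⁻¹ * (n * m))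
        calc (m * n)⁻¹ * (n * m) * y = (m * n)⁻¹ * ((n * m) * y * (n * m)⁻¹) * (n * m) := by group
          _ = (m * n)⁻¹ * ((m * n) * y * (m * n)⁻¹) * (n * m) := by rw [hy]
          _ = _ := by group
      have h1 := hcen c (conj_comm (hCn n) (hCn m))
      have h2 := hcen d (conj_comm (hIn n) (hIn m))
      intro y hy
      obtain ⟨u, ⟨i, rfl⟩, v, ⟨j, rfl⟩, huv⟩ := hAgen y hy
      simp only at huv
      have h3 : Commute ((m * n)⁻¹ * (n * m)) (y * y) := by
        rw [huv]; exact (h1.zpow_right i).mul_right (h2.zpow_right j)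
      obtain ⟨k, hk⟩ := hodd
      have h4 : y = ((y * y) ^ (k + 1)) := by
        have h5 := hApow y hy
        have h6 : (y * y) ^ (k + 1) = y ^ (p ^ 2) * y := by
          rw [← sq, ← pow_mul, ← pow_succ, hk]; congr 1
        rw [h6, h5, one_mul]
      rw [h4]
      exact (h3.pow_right (k + 1)).eq.symm
    -- so `SL₂(F)` is abelian
    have habel : ∀ g h : Matrix.SpecialLinearGroup (Fin 2) F, g * h = h * g := by
      intro g h
      obtain ⟨n, hn⟩ := QuotientGroup.mk_surjective (e.symm g)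
      obtain ⟨m, hm⟩ := QuotientGroup.mk_surjective (e.symm h)
      have h1 : (QuotientGroup.mk ((m * n)⁻¹ * (n * m)) : N ⧸ A) = 1 := (QuotientGroup.eq_one_iff _).2 (hcomm n m)
      simp only [QuotientGroup.mk_mul, QuotientGroup.mk_inv, hn, hm] at h1
      rw [inv_mul_eq_one] at h1
      have h2 := congrArg e h1
      simp only [map_mul, e.apply_symm_apply] at h2
      exact h2.symm
    let g : Matrix.SpecialLinearGroup (Fin 2) F := ⟨!![1, 1; 0, 1], by simp⟩
    let h : Matrix.SpecialLinearGroup (Fin 2) F := ⟨!![1, 0; 1, 1], by simp⟩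
    have h1 := habel g h
    have h2 : (!![1, 1; 0, 1] * !![1, 0; 1, 1] : Matrix (Fin 2) (Fin 2) F) 0 0 =
        (!![1, 0; 1, 1] * !![1, 1; 0, 1] : Matrix (Fin 2) (Fin 2) F) 0 0 :=
      congrArg (fun M : Matrix.SpecialLinearGroup (Fin 2) F => (M : Matrix (Fin 2) (Fin 2) F) 0 0) h1
    simp [Matrix.mul_apply, Fin.sum_univ_two] at h2
  -- `t` inverts `A`
  have hinvA : ∀ a ∈ A, t * a * t⁻¹ = a⁻¹ := by
    intro a ha
    have hta : t * a * t⁻¹ ∈ A := Subgroup.Normal.conj_mem inferInstance a ha t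
    have h1 : a * (t * a * t⁻¹) = 1 := by
      apply hfix _ (A.mul_mem ha hta)
      have h1 : t * (a * (t * a * t⁻¹)) * t⁻¹ = (t * a * t⁻¹) * ((t * t) * a * (t * t)⁻¹) := by group
      rw [h1, ht2, hAc a ha _ hta]; group
    exact (inv_eq_of_mul_eq_one_right h1).symm
  refine ⟨Subgroup.centralizer {t}, ?_, ?_⟩
  · rw [eq_bot_iff]
    rintro a ⟨ha, hat⟩
    rw [Subgroup.mem_bot]
    apply hfix a ha
    have h1 := Subgroup.mem_centralizer_singleton_iff.1 hat
    rw [← h1]; group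
  · rw [eq_top_iff]
    intro n _
    obtain ⟨a, ha, hna⟩ := hconj n
    obtain ⟨k, hk⟩ := hodd
    -- `b ^ (-2) = a`
    set b : N := (a ^ (k + 1))⁻¹ with hb
    have hbA : b ∈ A := A.inv_mem (A.pow_mem ha _)
    have hbb : b⁻¹ * b⁻¹ = a := by
      rw [hb, inv_inv, ← pow_add]
      have h1 : k + 1 + (k + 1) = p ^ 2 + 1 := by rw [hk]; ring
      rw [h1, pow_succ, hApow a ha, one_mul]
    have h1 : b * t * b⁻¹ = t * a := by
      have h2 := hinvA b hbA
      have h3 : b * t * b⁻¹ = t * (t⁻¹ * b * t) * b⁻¹ := by group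
      have h4 : t⁻¹ * b * t = b⁻¹ := by
        have h5 : t⁻¹ * b * t = t * b * t⁻¹ := by rw [htinv]
        rw [h5, h2]
      rw [h3, h4, mul_assoc, hbb]
    have h2 : b⁻¹ * n ∈ Subgroup.centralizer ({t} : Set N) := by
      rw [Subgroup.mem_centralizer_singleton_iff]
      have h3 : n * t * n⁻¹ = b * t * b⁻¹ := by rw [hna, h1]
      calc b⁻¹ * n * t = b⁻¹ * (n * t * n⁻¹) * n := by group
        _ = b⁻¹ * (b * t * b⁻¹) * n := by rw [h3]
        _ = t * (b⁻¹ * n) := by group
    have h3 : n = b * (b⁻¹ * n) := by group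
    rw [h3]
    exact Subgroup.mul_mem_sup hbA h2

end Cfsg.Agent.H275.PlaneSplit
end

-- part: S3075
section
set_option autoImplicit false
open Cfsg

namespace Cfsg.Agent.S3075

/-- Let p be an odd prime and N a finite group with a normal elementary abelian subgroup A of order p² that is its own centralizer in N, such that N/A is isomorphic to SL₂(p) (over any field F with p elements). Then N splits over A: some subgroup U of N satisfies A ∩ U = 1 and AU = N. -/
theorem result {N : Type*} [Group N] [Finite N] {p : ℕ} [Fact p.Prime] (hp : p ≠ 2)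
    (A : Subgroup N) [A.Normal] (hAcomm : IsMulCommutative A) (hAcard : Nat.card A = p ^ 2) (hAexp : Monoid.exponent ↥A = p)
    (hAself : Subgroup.centralizer (A : Set N) = A)
    {F : Type*} [Field F] [Fintype F] (hF : Fintype.card F = p) (e : N ⧸ A ≃* Matrix.SpecialLinearGroup (Fin 2) F) :
    ∃ U : Subgroup N, A ⊓ U = ⊥ ∧ A ⊔ U = ⊤ := by
  exact Cfsg.Agent.H275.PlaneSplit.main hp A hAcomm hAcard hAself hF e

end Cfsg.Agent.S3075
end
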