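import Cfsg.Prelude.Def_Local
import Cfsg.Agent.Lib.Cores
import Cfsg.Agent.H275.StrongEmb
import Cfsg.Statements.S3076
set_option linter.all false

-- part: H275/CentricRadical
section
set_option autoImplicit false

/-!
# Centric radical `p`-subgroups: two formulations
-/

namespace Cfsg.Agent.H275.CentricRadical

open Cfsg Cfsg.Agent.Lib.Cores

section Abs

variable {Γ : Type*} [Group Γ] [Finite Γ] {p : ℕ} [hp : Fact p.Prime]

/-- A finite group with a central `p`-subgroup of index prime to `p`. -/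
theorem sup_pPrimeCore_eq_top {Z : Subgroup Γ} (hZ : IsPGroup p Z) (hZc : Z ≤ Subgroup.center Γ)
    (hidx : ¬ p ∣ Z.index) : Z ⊔ pPrimeCore p Γ = ⊤ := by
  have hZn : Z.Normal := by
    constructor
    intro n hn g
    have h1 := Subgroup.mem_center_iff.1 (hZc hn) g
    rw [h1, mul_inv_cancel_right]
    exact hn
  have hcop : (Nat.card Z).Coprime Z.index := by
    obtain ⟨n, hn⟩ := IsPGroup.iff_card.1 hZ
    rw [hn]
    exact Nat.Coprime.pow_left n ((Nat.Prime.coprime_iff_not_dvd hp.out).2 hidx)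
  obtain ⟨K, hK⟩ := Subgroup.exists_right_complement'_of_coprime hcop
  have hKn : K.Normal := by
    constructor
    intro x hx g
    have hg : g ∈ Z ⊔ K := by rw [hK.sup_eq_top]; exact Subgroup.mem_top _
    obtain ⟨z, hz, k, hk, rfl⟩ := Subgroup.mem_sup_of_normal_left.1 hg
    have h1 : z * k * x * (z * k)⁻¹ = z * (k * x * k⁻¹) * z⁻¹ := by group
    have h2 := Subgroup.mem_center_iff.1 (hZc hz) (k * x * k⁻¹)
    rw [h1, ← h2, mul_inv_cancel_right]
    exact K.mul_mem (K.mul_mem hk hx) (K.inv_mem hk)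
  have hKcard : (Nat.card K).Coprime p := by
    have h1 : Nat.card K = Z.index := hK.symm.index_eq_card.symm
    rw [h1, Nat.coprime_comm]
    exact (Nat.Prime.coprime_iff_not_dvd hp.out).2 hidx
  rw [eq_top_iff, ← hK.sup_eq_top]
  exact sup_le_sup_left (le_pPrimeCore hKn hKcard) Z

/-- `C_Γ(H) ≤ H O_{p'}(Γ)` if `C_H(H)` is Sylow in `C_Γ(H)`. -/
theorem centralizer_le {H : Subgroup Γ} [H.Normal] (hH : IsPGroup p H)
    (hidx : ¬ p ∣ H.relIndex (Subgroup.centralizer (H : Set Γ))) :
    Subgroup.centralizer (H : Set Γ) ≤ H ⊔ pPrimeCore p Γ := by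
  set C := Subgroup.centralizer (H : Set Γ) with hC
  have hCn : C.Normal := Subgroup.normal_centralizer
  have hZ : IsPGroup p (H.subgroupOf C) := IsPGroup.comap_of_injective hH C.subtype C.subtype_injective
  have hZc : H.subgroupOf C ≤ Subgroup.center C := by
    intro z hz
    rw [Subgroup.mem_center_iff]
    intro g
    apply Subtype.ext
    have h1 := Subgroup.mem_centralizer_iff.1 g.2 (z : Γ) hz
    exact h1.symm
  have h1 : H.subgroupOf C ⊔ pPrimeCore p C = ⊤ := sup_pPrimeCore_eq_top hZ hZc hidx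
  have hK : (pPrimeCore p C).map C.subtype ≤ pPrimeCore p Γ := by
    rw [map_subtype_pPrimeCore p hCn]
    exact inf_le_right
  intro x hx
  have hx1 : (⟨x, hx⟩ : C) ∈ H.subgroupOf C ⊔ pPrimeCore p C := by rw [h1]; exact Subgroup.mem_top _
  obtain ⟨y, hy, z, hz, hyz⟩ := Subgroup.mem_sup_of_normal_right.1 hx1
  have h2 : x = (y : Γ) * (z : Γ) := (congrArg Subtype.val hyz).symm
  rw [h2]
  exact mul_mem (Subgroup.mem_sup_left hy) (Subgroup.mem_sup_right (hK ⟨z, hz, rfl⟩))

theorem relIndex_centralizer_eq {H C : Subgroup Γ} [H.Normal] : H.relIndex (H ⊔ C) = H.relIndex C := by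
  exact Subgroup.relIndex_sup_left C H

theorem isPGroup_map_iff {N M : Subgroup Γ} [N.Normal] :
    IsPGroup p (M.map (QuotientGroup.mk' N)) ↔ ∀ x ∈ M, ∃ k : ℕ, x ^ p ^ k ∈ N := by
  constructor
  · intro h x hx
    obtain ⟨k, hk⟩ := h ⟨QuotientGroup.mk' N x, ⟨x, hx, rfl⟩⟩
    refine ⟨k, ?_⟩
    have h1 : (QuotientGroup.mk' N x) ^ p ^ k = 1 := congrArg Subtype.val hk
    rw [← map_pow, QuotientGroup.mk'_apply, QuotientGroup.eq_one_iff] at h1
    exact h1
  · rintro h ⟨_, x, hx, rfl⟩
    obtain ⟨k, hk⟩ := h x hx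
    refine ⟨k, Subtype.ext ?_⟩
    change (QuotientGroup.mk' N x) ^ p ^ k = 1
    rw [← map_pow, QuotientGroup.mk'_apply, QuotientGroup.eq_one_iff]
    exact hk

theorem mem_comap_pCore_of {N M : Subgroup Γ} [N.Normal] (hM : M.Normal) (h : ∀ x ∈ M, ∃ k : ℕ, x ^ p ^ k ∈ N) :
    M ≤ (pCore p (Γ ⧸ N)).comap (QuotientGroup.mk' N) := by
  rw [← Subgroup.map_le_iff_le_comap]
  apply le_pCore
  · exact hM.map _ (QuotientGroup.mk'_surjective N)
  · exact isPGroup_map_iff.2 h

theorem exists_pow_mem_of_comap {N : Subgroup Γ} [N.Normal] {x : Γ}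
    (hx : x ∈ (pCore p (Γ ⧸ N)).comap (QuotientGroup.mk' N)) : ∃ k : ℕ, x ^ p ^ k ∈ N := by
  rw [Subgroup.mem_comap] at hx
  obtain ⟨k, hk⟩ := pCore_isPGroup (G := Γ ⧸ N) p ⟨_, hx⟩
  refine ⟨k, ?_⟩
  have h1 : (QuotientGroup.mk' N x) ^ p ^ k = 1 := congrArg Subtype.val hk
  rw [← map_pow, QuotientGroup.mk'_apply, QuotientGroup.eq_one_iff] at h1
  exact h1

theorem relIndex_eq_pow {N M : Subgroup Γ} [N.Normal] (hNM : N ≤ M) (h : ∀ x ∈ M, ∃ k : ℕ, x ^ p ^ k ∈ N) :
    ∃ m : ℕ, N.relIndex M = p ^ m := by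
  have h1 := isPGroup_map_iff.2 h
  obtain ⟨m, hm⟩ := IsPGroup.iff_card.1 h1
  refine ⟨m, ?_⟩
  rw [← hm, ← Subgroup.relIndex_ker, QuotientGroup.ker_mk']

/-- The abstract form of the equivalence, inside `Γ = N_G(H)`. -/
theorem abs_iff {H : Subgroup Γ} [H.Normal] (hH : IsPGroup p H) (S : Sylow p Γ)
    [hC : (Subgroup.centralizer (H : Set Γ)).Normal] :
    (H ≤ (pCore p (Γ ⧸ Subgroup.centralizer (H : Set Γ))).comap (QuotientGroup.mk' _) ∧
      ¬ p ∣ H.relIndex ((pCore p (Γ ⧸ Subgroup.centralizer (H : Set Γ))).comap (QuotientGroup.mk' _))) ↔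
    ((S : Subgroup Γ) ⊓ Subgroup.centralizer (H : Set Γ) ≤ H ∧
      pPrimePCore p Γ = H ⊔ Subgroup.centralizer (H : Set Γ)) := by
  set C := Subgroup.centralizer (H : Set Γ) with hCdef
  set M := (pCore p (Γ ⧸ C)).comap (QuotientGroup.mk' C) with hM
  have hHn : H.Normal := inferInstance
  have hMn : M.Normal := by rw [hM]; infer_instance
  -- `O_{p'}(Γ) ≤ C`
  have hdisj : Disjoint (pPrimeCore p Γ) H := by
    rw [disjoint_iff]
    apply Subgroup.inf_eq_bot_of_coprime
    obtain ⟨n, hn⟩ := IsPGroup.iff_card.1 hH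
    rw [hn]
    exact Nat.Coprime.pow_right n (pPrimeCore_coprime p)
  have hKC : pPrimeCore p Γ ≤ C := by
    intro x hx
    rw [hCdef, Subgroup.mem_centralizer_iff]
    intro h hh
    exact (Subgroup.commute_of_normal_of_disjoint _ _ inferInstance hHn hdisj x h hx hh).eq.symm
  have hHM : H ≤ M := by
    apply mem_comap_pCore_of hHn
    intro x hx
    obtain ⟨k, hk⟩ := hH ⟨x, hx⟩
    refine ⟨k, ?_⟩
    have h1 : x ^ p ^ k = 1 := congrArg Subtype.val hk
    rw [h1]; exact C.one_mem
  have hCM : C ≤ M := by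
    intro x hx
    rw [hM, Subgroup.mem_comap, QuotientGroup.mk'_apply, (QuotientGroup.eq_one_iff x).2 hx]
    exact one_mem _
  have hHCM : H ⊔ C ≤ M := sup_le hHM hCM
  have hmul : H.relIndex C * (H ⊔ C).relIndex M = H.relIndex M := by
    rw [← relIndex_centralizer_eq, Subgroup.relIndex_mul_relIndex H (H ⊔ C) M le_sup_left hHCM]
  have hHpow : ∀ x ∈ H, ∃ k : ℕ, x ^ p ^ k ∈ pPrimeCore p Γ := by
    intro x hx
    obtain ⟨k, hk⟩ := hH ⟨x, hx⟩
    refine ⟨k, ?_⟩
    have h1 : x ^ p ^ k = 1 := congrArg Subtype.val hk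
    rw [h1]; exact one_mem _
  have hHP : H ≤ pPrimePCore p Γ := mem_comap_pCore_of hHn hHpow
  have hKP : pPrimeCore p Γ ≤ pPrimePCore p Γ := by
    intro x hx
    unfold pPrimePCore
    rw [Subgroup.mem_comap, QuotientGroup.mk'_apply, (QuotientGroup.eq_one_iff x).2 hx]
    exact one_mem _
  constructor
  · rintro ⟨-, hidx⟩
    have hidxC : ¬ p ∣ H.relIndex C := fun h => hidx (by rw [← hmul]; exact h.mul_right _)
    have hCle := centralizer_le hH hidxC
    -- `M = H C`
    have hMle : M = H ⊔ C := by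
      apply le_antisymm _ hHCM
      rw [← Subgroup.relIndex_eq_one]
      obtain ⟨m, hm⟩ := relIndex_eq_pow (p := p) hCM (fun x hx => exists_pow_mem_of_comap hx)
      have h1 : (H ⊔ C).relIndex M ∣ p ^ m := by
        rw [← hm, ← Subgroup.relIndex_mul_relIndex C (H ⊔ C) M le_sup_right hHCM]
        exact Dvd.intro_left _ rfl
      obtain ⟨j, -, hj⟩ := (Nat.dvd_prime_pow hp.out).1 h1
      rcases Nat.eq_zero_or_pos j with rfl | hj0
      · rw [hj, pow_zero]
      · exfalso
        apply hidx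
        rw [← hmul, hj]
        exact (dvd_pow_self p hj0.ne').mul_left _
    refine ⟨?_, ?_⟩
    · -- `S ∩ C ≤ H`
      rintro x ⟨hxS, hxC⟩
      obtain ⟨k, hk⟩ := S.isPGroup' ⟨x, hxS⟩
      have hk' : x ^ p ^ k = 1 := congrArg Subtype.val hk
      -- in `C / (H ∩ C)`, of order prime to `p`
      have hn : (H.subgroupOf C).Normal := inferInstance
      have h1 : (QuotientGroup.mk (⟨x, hxC⟩ : C) : C ⧸ H.subgroupOf C) ^ (H.relIndex C) = 1 := by
        have := pow_card_eq_one' (x := (QuotientGroup.mk (⟨x, hxC⟩ : C) : C ⧸ H.subgroupOf C))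
        exact this
      have h2 : (QuotientGroup.mk (⟨x, hxC⟩ : C) : C ⧸ H.subgroupOf C) ^ (p ^ k) = 1 := by
        rw [← QuotientGroup.mk_pow]
        have : (⟨x, hxC⟩ : C) ^ p ^ k = 1 := Subtype.ext hk'
        rw [this]; rfl
      have h3 : (QuotientGroup.mk (⟨x, hxC⟩ : C) : C ⧸ H.subgroupOf C) = 1 := by
        have hcop : Nat.Coprime (p ^ k) (H.relIndex C) :=
          Nat.Coprime.pow_left k ((Nat.Prime.coprime_iff_not_dvd hp.out).2 hidxC)
        have h4 := Nat.dvd_gcd (orderOf_dvd_of_pow_eq_one h2) (orderOf_dvd_of_pow_eq_one h1)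
        rw [hcop.gcd_eq_one] at h4
        exact orderOf_eq_one_iff.1 (Nat.dvd_one.1 h4)
      exact (QuotientGroup.eq_one_iff (⟨x, hxC⟩ : C)).1 h3
    · apply le_antisymm
      · rw [← hMle]
        apply mem_comap_pCore_of
        · unfold pPrimePCore; infer_instance
        · intro x hx
          obtain ⟨k, hk⟩ := exists_pow_mem_of_comap hx
          exact ⟨k, hKC hk⟩
      · exact sup_le hHP (hCle.trans (sup_le hHP hKP))
  · rintro ⟨hSC, hPP⟩
    refine ⟨hHM, ?_⟩
    have hidxC : ¬ p ∣ H.relIndex C := by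
      obtain ⟨R, hR⟩ := Cfsg.Agent.H275.StrongEmb.exists_sylow_le_of_normal C S
      intro h
      apply R.not_dvd_index
      refine h.trans (Subgroup.index_dvd_of_le ?_)
      intro r hr
      rw [Subgroup.mem_subgroupOf]
      exact hSC ⟨hR ⟨r, hr, rfl⟩, r.2⟩
    have hCle := centralizer_le hH hidxC
    have hMle : M = H ⊔ C := by
      apply le_antisymm _ hHCM
      rw [← hPP]
      apply mem_comap_pCore_of hMn
      intro x hx
      obtain ⟨k, hk⟩ := exists_pow_mem_of_comap hx
      have h1 := hCle hk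
      have h2 : H ⊔ pPrimeCore p Γ ≤ pPrimePCore p Γ := sup_le hHP hKP
      obtain ⟨j, hj⟩ := exists_pow_mem_of_comap (h2 h1)
      refine ⟨k + j, ?_⟩
      rw [pow_add, pow_mul]
      exact hj
    rw [hMle, relIndex_centralizer_eq]
    exact hidxC

end Abs

section Transfer

open Cfsg

variable {G : Type*} [Group G] [Finite G] {p : ℕ} [hp : Fact p.Prime]

theorem main (P : Sylow p G) (H : Subgroup G) (hHP : H ≤ (P : Subgroup G))
    (hSyl : ¬ p ∣ ((P : Subgroup G) ⊓ Subgroup.normalizer (H : Set G)).relIndex (Subgroup.normalizer (H : Set G)))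
    [hC : ((Subgroup.centralizer (H : Set G)).subgroupOf (Subgroup.normalizer (H : Set G))).Normal] :
    (H ≤ ((Cfsg.pCore p (↥(Subgroup.normalizer (H : Set G)) ⧸
              (Subgroup.centralizer (H : Set G)).subgroupOf (Subgroup.normalizer (H : Set G)))).comap
            (QuotientGroup.mk' _)).map (Subgroup.normalizer (H : Set G)).subtype ∧
      ¬ p ∣ H.relIndex (((Cfsg.pCore p (↥(Subgroup.normalizer (H : Set G)) ⧸
              (Subgroup.centralizer (H : Set G)).subgroupOf (Subgroup.normalizer (H : Set G)))).comap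
            (QuotientGroup.mk' _)).map (Subgroup.normalizer (H : Set G)).subtype)) ↔
    ((P : Subgroup G) ⊓ Subgroup.centralizer (H : Set G) ≤ H ∧
      (Cfsg.pPrimePCore p ↥(Subgroup.normalizer (H : Set G))).map (Subgroup.normalizer (H : Set G)).subtype =
        H ⊔ Subgroup.centralizer (H : Set G)) := by
  set N := Subgroup.normalizer (H : Set G) with hN
  have hHN : H ≤ N := Subgroup.le_normalizer
  have hCN : Subgroup.centralizer (H : Set G) ≤ N := by
    intro x hx
    rw [hN, Subgroup.mem_normalizer_iff]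
    intro h
    have hx' := Subgroup.mem_centralizer_iff.1 hx
    constructor
    · intro hh
      have := hx' h hh
      rw [← this, mul_inv_cancel_right]
      exact hh
    · intro hh
      have h2 := hx' _ hh
      have h3 : h = x * h * x⁻¹ := by
        have : x * h * x⁻¹ * x = x * (x * h * x⁻¹) := h2
        have h4 : x * h = x * (x * h * x⁻¹) := by rw [← this]; group
        exact mul_left_cancel h4
      rw [h3]; exact hh
  -- the subgroup `H` inside `N`
  set H' : Subgroup N := H.subgroupOf N with hH'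
  have hH'n : H'.Normal := by
    rw [hH', hN]; exact Subgroup.normal_in_normalizer
  have hH'map : H'.map N.subtype = H := by rw [hH', Subgroup.subgroupOf_map_subtype, inf_eq_left.2 hHN]
  have hH'p : IsPGroup p H' := by
    rw [hH']
    exact IsPGroup.comap_of_injective (P.isPGroup'.to_le hHP) N.subtype N.subtype_injective
  have hCeq : (Subgroup.centralizer (H : Set G)).subgroupOf N = Subgroup.centralizer (H' : Set N) := by
    ext x
    rw [Subgroup.mem_subgroupOf, Subgroup.mem_centralizer_iff, Subgroup.mem_centralizer_iff]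
    constructor
    · intro h y hy
      exact Subtype.ext (h y hy)
    · intro h y hy
      exact congrArg Subtype.val (h ⟨y, hHN hy⟩ hy)
  -- the Sylow subgroup of `N`
  have hPp : IsPGroup p (((P : Subgroup G) ⊓ N).subgroupOf N) :=
    IsPGroup.comap_of_injective (P.isPGroup'.to_le inf_le_left) N.subtype N.subtype_injective
  let S : Sylow p N := hPp.toSylow hSyl
  have hS : (S : Subgroup N) = ((P : Subgroup G) ⊓ N).subgroupOf N := rfl
  -- rewrite
  have key : ∀ (D : Subgroup N) [D.Normal] (hD : D = Subgroup.centralizer (H' : Set N)),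
      (H' ≤ (pCore p (N ⧸ D)).comap (QuotientGroup.mk' _) ∧
        ¬ p ∣ H'.relIndex ((pCore p (N ⧸ D)).comap (QuotientGroup.mk' _))) ↔
      ((S : Subgroup N) ⊓ D ≤ H' ∧ pPrimePCore p N = H' ⊔ D) := by
    intro D hDn hD
    subst hD
    exact abs_iff hH'p S
  have key2 := key _ hCeq
  set M := (pCore p (N ⧸ (Subgroup.centralizer (H : Set G)).subgroupOf N)).comap
    (QuotientGroup.mk' _) with hM
  have e1 : H ≤ M.map N.subtype ↔ H' ≤ M := by
    constructor
    · intro h x hx
      obtain ⟨y, hy, hyx⟩ := h hx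
      have : y = x := Subtype.ext hyx
      rw [← this]; exact hy
    · intro h x hx
      exact ⟨⟨x, hHN hx⟩, h hx, rfl⟩
  have e2 : H.relIndex (M.map N.subtype) = H'.relIndex M := by
    conv_lhs => rw [← hH'map]
    exact Subgroup.relIndex_map_map_of_injective H' M N.subtype_injective
  have e3 : ((P : Subgroup G) ⊓ Subgroup.centralizer (H : Set G) ≤ H) ↔
      ((S : Subgroup N) ⊓ (Subgroup.centralizer (H : Set G)).subgroupOf N ≤ H') := by
    constructor
    · rintro h x ⟨hx1, hx2⟩
      exact h ⟨hx1.1, hx2⟩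
    · rintro h x ⟨hx1, hx2⟩
      exact h (x := ⟨x, hCN hx2⟩) ⟨⟨hx1, hCN hx2⟩, hx2⟩
  have e4 : ((pPrimePCore p N).map N.subtype = H ⊔ Subgroup.centralizer (H : Set G)) ↔
      pPrimePCore p N = H' ⊔ (Subgroup.centralizer (H : Set G)).subgroupOf N := by
    have h1 : (H' ⊔ (Subgroup.centralizer (H : Set G)).subgroupOf N).map N.subtype =
        H ⊔ Subgroup.centralizer (H : Set G) := by
      rw [Subgroup.map_sup, hH'map, Subgroup.subgroupOf_map_subtype, inf_eq_left.2 hCN]
    constructor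
    · intro h
      apply Subgroup.map_injective N.subtype_injective
      rw [h1]; exact h
    · intro h
      rw [h, h1]
  rw [e1, e2, e3, e4]
  exact key2

end Transfer

end Cfsg.Agent.H275.CentricRadical
end

-- part: S3076
section
set_option autoImplicit false
open Cfsg

namespace Cfsg.Agent.S3076

/-- Let P be a Sylow p-subgroup of the finite group G and H ≤ P a subgroup with N_P(H) a Sylow p-subgroup of N_G(H). Let N be the preimage in N_G(H) of O_p(N_G(H)/C_G(H)). Then H is a Sylow p-subgroup of N if and only if C_P(H) ≤ H and O_{p',p}(N_G(H)) = H·C_G(H). -/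
theorem result {G : Type*} [Group G] [Finite G] {p : ℕ} [Fact p.Prime]
    (P : Sylow p G) (H : Subgroup G) (hHP : H ≤ (P : Subgroup G))
    (hSyl : ¬ p ∣ ((P : Subgroup G) ⊓ Subgroup.normalizer (H : Set G)).relIndex (Subgroup.normalizer (H : Set G)))
    [hC : ((Subgroup.centralizer (H : Set G)).subgroupOf (Subgroup.normalizer (H : Set G))).Normal] :
    (H ≤ ((Cfsg.pCore p (↥(Subgroup.normalizer (H : Set G)) ⧸
              (Subgroup.centralizer (H : Set G)).subgroupOf (Subgroup.normalizer (H : Set G)))).comap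
            (QuotientGroup.mk' _)).map (Subgroup.normalizer (H : Set G)).subtype ∧
      ¬ p ∣ H.relIndex (((Cfsg.pCore p (↥(Subgroup.normalizer (H : Set G)) ⧸
              (Subgroup.centralizer (H : Set G)).subgroupOf (Subgroup.normalizer (H : Set G)))).comap
            (QuotientGroup.mk' _)).map (Subgroup.normalizer (H : Set G)).subtype)) ↔
    ((P : Subgroup G) ⊓ Subgroup.centralizer (H : Set G) ≤ H ∧
      (Cfsg.pPrimePCore p ↥(Subgroup.normalizer (H : Set G))).map (Subgroup.normalizer (H : Set G)).subtype =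
        H ⊔ Subgroup.centralizer (H : Set G)) := by
  exact Cfsg.Agent.H275.CentricRadical.main P H hHP hSyl

end Cfsg.Agent.S3076
end
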