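import Cfsg.Statements.S3080
import Cfsg.Agent.H280.StrongFusion
set_option linter.all false

set_option autoImplicit false
open Cfsg

namespace Cfsg.Agent.S3080

open Cfsg.Agent.H280 Cfsg.Agent.PLocal.ZJ Cfsg.Agent.Transfer.FusionCases

/-- Control of fusion by `⋂ maxAb e D`. -/
theorem ctrl {G : Type*} [Group G] [Finite G] {p : ℕ} [Fact p.Prime] (hp : p ≠ 2) {e : ℕ}
    (hpe : p ∣ e) (he : e = 0 ∨ Odd e) (P : Sylow p G) (D : Subgroup G)
    (hD : Cfsg.IsStronglyClosed D (P : Subgroup G)) (hst : Cfsg.IsNormalizerPStable p G)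
    (hc : ∀ U : Subgroup G, U ≤ (P : Subgroup G) → U ≠ ⊥ →
      Cfsg.IsPConstrained p ↥(Subgroup.normalizer (U : Set G))) :
    Ctrl (P : Subgroup G) (Subgroup.normalizer ((sInf (maxAb e D) : Subgroup G) : Set G)) := by
  by_cases hD1 : D = ⊥
  · subst hD1; exact StrongFusion.ctrl_of_eq_bot _
  refine StrongFusion.ctrl_of_local_stronglyClosed hpe P hD hD1 ?_
  intro R hRP hR1 T E hE
  have hRp : IsPGroup p R := P.isPGroup'.to_le hRP
  have hRn : (R.subgroupOf (Subgroup.normalizer (R : Set G))).Normal :=
    Subgroup.normal_in_normalizer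
  have hO : pCore p ↥(Subgroup.normalizer (R : Set G)) ≠ ⊥ := by
    intro h
    have h1 := Cfsg.Agent.Lib.Cores.le_pCore hRn
      (hRp.comap_of_injective (Subgroup.normalizer (R : Set G)).subtype
        (Subgroup.subtype_injective _))
    rw [h, le_bot_iff, Subgroup.subgroupOf_eq_bot, disjoint_iff,
      inf_eq_left.mpr Subgroup.le_normalizer] at h1
    exact hR1 h1
  exact StrongQuot.ctrl_of_constrained hp he (hc R hRP hR1)
    (StrongQuot.isPStable_of_isNormalizerPStable hp hO
      (StrongQuot.isNormalizerPStable_subgroup hst _)) T hE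

/-- Let p be an odd prime, G a finite group that is p-stable in the normalizer form, P a Sylow p-subgroup such that N_G(U) is p-constrained for every nontrivial subgroup U of P, and D a subgroup of P strongly closed in P with respect to G. Then N_G(Z(J(D))) controls strong G-fusion in P (for every subset A of P and every g ∈ G with gAg⁻¹ ⊆ P, some element of that normalizer acts on A exactly as g does; J(D) is generated by the abelian subgroups of D of largest order), and so does N_G(Ω₁(Z(J_e(D)))) (J_e(D) generated by the elementary abelian subgroups of largest order). -/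
theorem result {G : Type*} [Group G] [Finite G] {p : ℕ} [Fact p.Prime] (hp : p ≠ 2) (P : Sylow p G) (D : Subgroup G) (hD : Cfsg.IsStronglyClosed D (P : Subgroup G)) (hst : Cfsg.IsNormalizerPStable p G) (hc : ∀ U : Subgroup G, U ≤ (P : Subgroup G) → U ≠ ⊥ → Cfsg.IsPConstrained p ↥(Subgroup.normalizer (U : Set G))) : (∀ A : Set G, A ⊆ (P : Subgroup G) → Cfsg.ControlsStrongFusionOf (Subgroup.normalizer ((Cfsg.centerThompsonAOf D) : Set G)) (P : Subgroup G) A) ∧ (∀ A : Set G, A ⊆ (P : Subgroup G) → Cfsg.ControlsStrongFusionOf (Subgroup.normalizer ((Cfsg.omegaOne p (Cfsg.centerThompsonOf p D)) : Set G)) (P : Subgroup G) A) := by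
  rw [centerThompsonAOf_eq, StrongZJ.omegaOne_centerThompsonOf_eq]
  exact ⟨fun A hA => StrongFusion.controlsStrongFusionOf_of_ctrl
      (ctrl hp (dvd_zero p) (Or.inl rfl) P D hD hst hc) A hA,
    fun A hA => StrongFusion.controlsStrongFusionOf_of_ctrl
      (ctrl hp dvd_rfl (Or.inr ((Fact.out : p.Prime).odd_of_ne_two hp)) P D hD hst hc) A hA⟩

end Cfsg.Agent.S3080
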