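import Mathlib
import Cfsg.Prelude.Def_LocalEven
import Cfsg.Agent.Lib.Cores
import Cfsg.Agent.PLocal.ComplementReduction
import Cfsg.Agent.PLocal.AbelianStable
import Cfsg.Agent.Transfer.PNilpotentBasic
import Cfsg.Agent.S0072
import Cfsg.Agent.H280.StrongFusion
import Cfsg.Statements.S3082
set_option linter.all false

-- part: H280/StrongNPC
section
set_option autoImplicit false

/-!
# The normal `p`-complement theorem of Glauberman and Thompson for strongly closed subgroups

`hasNormalPComplement_of_stronglyClosed`: `p` odd, `D` strongly closed in the Sylow `p`-subgroup `P` of `G`; if the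
normalizer of `⋂ maxAb e D` (`e = 0`: `Z(J(D))`; `e = p`: `Ω₁(Z(J_e(D)))`) has a normal `p`-complement, so has `G`.
-/

namespace Cfsg.Agent.H280.StrongNPC

open Subgroup Cfsg
open Cfsg.Agent.PLocal Cfsg.Agent.PLocal.ZJ
open Cfsg.Agent.Transfer.FusionBasic
open Cfsg.Agent.H280.StrongZJ Cfsg.Agent.H280.StrongQuot Cfsg.Agent.H280.StrongFusion

universe u

variable {p : ℕ} [hpf : Fact p.Prime]

/-- The induction hypothesis. -/
def IHyp (p e : ℕ) (G : Type u) [Group G] : Prop :=
  ∀ (L : Type u) [Group L] [Finite L], Nat.card L < Nat.card G → ∀ (Q : Sylow p L) (E : Subgroup L),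
    Cfsg.IsStronglyClosed E (Q : Subgroup L) →
    Cfsg.HasNormalPComplement p ↥(normalizer ((sInf (maxAb e E) : Subgroup L) : Set L)) →
    Cfsg.HasNormalPComplement p L

/-- A normal `p`-complement of the normalizer of `Z(E)` is inherited along injective maps. -/
theorem npc_of_map {e : ℕ} {L G : Type u} [Group L] [Group G] [Finite L] [Finite G] (f : L →* G)
    (hf : Function.Injective f) (E : Subgroup L)
    (h : Cfsg.HasNormalPComplement p
      ↥(normalizer ((sInf (maxAb e (E.map f)) : Subgroup G) : Set G))) :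
    Cfsg.HasNormalPComplement p ↥(normalizer ((sInf (maxAb e E) : Subgroup L) : Set L)) := by
  rw [← map_sInf_maxAb_of_injective hf] at h
  let g : ↥(normalizer ((sInf (maxAb e E) : Subgroup L) : Set L)) →*
      ↥(normalizer (((sInf (maxAb e E)).map f : Subgroup G) : Set G)) :=
    (f.comp (Subgroup.subtype _)).codRestrict _
      (fun x => Subgroup.le_normalizer_map f ⟨x, x.2, rfl⟩)
  exact Transfer.NormalPComplement.of_injective g
    (fun a b hab => Subtype.ext (hf (congrArg Subtype.val hab))) h

theorem npc_subgroup {e : ℕ} (G : Type u) [Group G] [Finite G] (IH : IHyp p e G)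
    (L : Subgroup G) (hL : L ≠ ⊤) (Q : Sylow p L) (E : Subgroup L)
    (hE : Cfsg.IsStronglyClosed E (Q : Subgroup L))
    (h : Cfsg.HasNormalPComplement p
      ↥(normalizer ((sInf (maxAb e (E.map L.subtype)) : Subgroup G) : Set G))) :
    Cfsg.HasNormalPComplement p L := by
  refine IH L ?_ Q E hE (npc_of_map L.subtype L.subtype_injective _ h)
  have := ConjFunctor.card_lt_card_of_lt (lt_top_iff_ne_top.mpr hL)
  rwa [Subgroup.card_top] at this

theorem npc_overgroup {e : ℕ} (G : Type u) [Group G] [Finite G] (IH : IHyp p e G)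
    (P : Sylow p G) (D : Subgroup G) (hD : Cfsg.IsStronglyClosed D (P : Subgroup G))
    (h : Cfsg.HasNormalPComplement p
      ↥(normalizer ((sInf (maxAb e D) : Subgroup G) : Set G)))
    (L : Subgroup G) (hL : L ≠ ⊤) (hPL : (P : Subgroup G) ≤ L) :
    Cfsg.HasNormalPComplement p L := by
  refine npc_subgroup G IH L hL (P.subtype hPL) (D.subgroupOf L) ?_ ?_
  · rw [Sylow.coe_subtype]
    exact stronglyClosed_subgroupOf hD
  · rw [Subgroup.subgroupOf_map_subtype, inf_eq_left.mpr (hD.1.trans hPL)]
    exact h

/-- The normalizer of `R` normalizes the `D`-part of `R`. -/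
theorem normalizer_le_dPart {G : Type*} [Group G] (D R : Subgroup G) :
    normalizer (R : Set G) ≤ normalizer (dPart D R : Set G) := by
  intro x hx
  rw [Subgroup.mem_normalizer_iff_map_conj_eq] at hx ⊢
  have h1 := dPart_map_conj D R x
  change dPart D (R.map (MulAut.conj x : G →* G)) = _ at h1
  rw [hx] at h1
  exact h1.symm

/-- The local step. -/
theorem pCore_ne_bot {e : ℕ} (hpe : p ∣ e) (G : Type u) [Group G] [Finite G] (IH : IHyp p e G)
    (P : Sylow p G) (D : Subgroup G) (hD : Cfsg.IsStronglyClosed D (P : Subgroup G)) (hD1 : D ≠ ⊥)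
    (h : Cfsg.HasNormalPComplement p
      ↥(normalizer ((sInf (maxAb e D) : Subgroup G) : Set G)))
    (hG : ¬ Cfsg.HasNormalPComplement p G) : Cfsg.pCore p G ≠ ⊥ := by
  classical
  let m : Subgroup G → ℕ := fun H =>
    Nat.card ((default : Sylow p ↥(Subgroup.normalizer (H : Set G))) :
      Subgroup ↥(Subgroup.normalizer (H : Set G)))
  let X : Set (Subgroup G) := {H | IsPGroup p H ∧ H ≠ ⊥ ∧
    ¬ Cfsg.HasNormalPComplement p (Subgroup.normalizer (H : Set G))}
  have hXne : X.Nonempty := by
    by_contra hne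
    rw [Set.not_nonempty_iff_eq_empty] at hne
    apply hG
    rw [Cfsg.Agent.S0072.result p]
    intro Q hQ hQ1
    by_contra hc
    have : Q ∈ X := ⟨hQ, hQ1, hc⟩
    rw [hne] at this
    exact this
  obtain ⟨H, hHX, hHmax⟩ := Set.exists_max_image X m (Set.toFinite X) hXne
  obtain ⟨hHp, hH1, hHn⟩ := hHX
  have hNtop : Subgroup.normalizer (H : Set G) = ⊤ := by
    by_contra hne
    apply hHn
    let Q : Sylow p ↥(Subgroup.normalizer (H : Set G)) := default
    have hmH : m H = Nat.card (Q : Subgroup ↥(Subgroup.normalizer (H : Set G))) := rfl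
    have hHQ := ConjFunctor.le_map_sylow_normalizer hHp Q
    have hQp := ConjFunctor.isPGroup_map_sylow Q
    have hQc := ConjFunctor.card_map_sylow Q
    have hQs := sylIn_map Q
    have hQo : (Q : Subgroup ↥(Subgroup.normalizer (H : Set G))) =
        ((Q : Subgroup ↥(Subgroup.normalizer (H : Set G))).map
          (Subgroup.subtype _)).subgroupOf (Subgroup.normalizer (H : Set G)) :=
      (comap_map_eq_self_of_injective (Subgroup.subtype_injective _) _).symm
    obtain ⟨Q', hQ'⟩ : ∃ Q' : Subgroup G, Q' = (Q : Subgroup ↥(Subgroup.normalizer (H : Set G))).map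
      (Subgroup.subtype _) := ⟨_, rfl⟩
    rw [← hQ'] at hHQ hQp hQc hQs hQo
    have hEne : dPart D Q' ≠ ⊥ := dPart_ne_bot P hD hD1 hHp hQs
    have hEQ : dPart D Q' ≤ Q' := dPart_le D Q'
    refine npc_subgroup G IH _ hne Q ((dPart D Q').subgroupOf _) ?_ ?_
    · rw [hQo]
      exact stronglyClosed_subgroupOf (dPart_stronglyClosed P hD hQp)
    rw [Subgroup.subgroupOf_map_subtype, inf_eq_left.mpr (hEQ.trans hQs.le)]
    obtain ⟨P', hP'⟩ := hQp.exists_le_sylow
    by_cases hQP : Q' = P'
    · obtain ⟨g, hg⟩ := MulAction.exists_smul_eq G P' P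
      have h1 := ConjFunctor.map_conj_smul_sylow P' g
      rw [hg] at h1
      have h2 : (dPart D Q').map (MulAut.conj g).toMonoidHom = D := by
        rw [← dPart_map_conj, hQP, ← h1, dPart_eq_inf hD le_rfl, inf_eq_right.mpr hD.1]
      refine npc_of_map (MulAut.conj g).toMonoidHom (MulAut.conj g).injective _ ?_
      rw [h2]
      exact h
    · have hlt : Q' < P' := lt_of_le_of_ne hP' hQP
      have hR := ConjFunctor.lt_inf_normalizer P'.isPGroup' hlt
      by_contra hcon
      have hmem : sInf (maxAb e (dPart D Q')) ∈ X :=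
        ⟨hQp.to_le ((sInf_maxAb_le e _).trans hEQ), sInf_maxAb_ne_bot hpe (hQp.to_le hEQ) hEne, hcon⟩
      have hle := hHmax _ hmem
      obtain ⟨W, hW⟩ : ∃ W, W = sInf (maxAb e (dPart D Q')) := ⟨_, rfl⟩
      rw [← hW] at hle hmem
      have h3 : (P' : Subgroup G) ⊓ Subgroup.normalizer (Q' : Set G) ≤
          Subgroup.normalizer (W : Set G) := by
        rw [hW]
        exact inf_le_right.trans ((normalizer_le_dPart D Q').trans
          (normalizer_le_normalizer_sInf e _))
      have h4 : IsPGroup p ((P' : Subgroup G) ⊓ Subgroup.normalizer (Q' : Set G) : Subgroup G) :=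
        P'.isPGroup'.to_le inf_le_left
      obtain ⟨S, hS⟩ := ConjFunctor.exists_sylow_of_le h4 h3
      have h5 : Nat.card Q' < Nat.card ((S : Subgroup
          ↥(Subgroup.normalizer (W : Set G))).map (Subgroup.subtype _)) :=
        ConjFunctor.card_lt_card_of_lt (lt_of_lt_of_le hR hS)
      rw [ConjFunctor.card_map_sylow] at h5
      have h6 : Nat.card (S : Subgroup ↥(Subgroup.normalizer (W : Set G))) = m W := by
        change _ = Nat.card ((default : Sylow p ↥(Subgroup.normalizer (W : Set G))) :
          Subgroup ↥(Subgroup.normalizer (W : Set G)))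
        rw [S.card_eq_multiplicity, Sylow.card_eq_multiplicity]
      omega
  intro h0
  apply hH1
  rw [← le_bot_iff, ← h0]
  exact Lib.Cores.le_pCore (Subgroup.normalizer_eq_top_iff.mp hNtop) hHp

theorem card_quotient_lt {G : Type*} [Group G] [Finite G] (M : Subgroup G) (hne : M ≠ ⊥) :
    Nat.card (G ⧸ M) < Nat.card G := by
  have h1 := M.card_mul_index
  have h2 : Nat.card M ≠ 1 := fun h0 => hne (Subgroup.card_eq_one.mp h0)
  have h3 : 0 < Nat.card M := Nat.card_pos
  have h4 : 0 < M.index := Nat.pos_of_ne_zero M.index_ne_zero_of_finite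
  rw [Subgroup.index_eq_card] at h1 h4
  have h5 : 2 ≤ Nat.card M := by omega
  calc Nat.card (G ⧸ M) < 2 * Nat.card (G ⧸ M) := by omega
    _ ≤ Nat.card M * Nat.card (G ⧸ M) := Nat.mul_le_mul_right _ h5
    _ = Nat.card G := h1

/-- A minimal counterexample has no nontrivial normal `p'`-subgroup. -/
theorem pPrimeCore_eq_bot {e : ℕ} (G : Type u) [Group G] [Finite G] (IH : IHyp p e G)
    (P : Sylow p G) (D : Subgroup G) (hD : Cfsg.IsStronglyClosed D (P : Subgroup G))
    (h : Cfsg.HasNormalPComplement p
      ↥(normalizer ((sInf (maxAb e D) : Subgroup G) : Set G)))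
    (hG : ¬ Cfsg.HasNormalPComplement p G) : Cfsg.pPrimeCore p G = ⊥ := by
  by_contra hne
  obtain ⟨M, hM⟩ : ∃ M : Subgroup G, M = Cfsg.pPrimeCore p G := ⟨_, rfl⟩
  have hMn : M.Normal := by rw [hM]; exact Lib.Cores.pPrimeCore_normal p
  have hMc : (Nat.card M).Coprime p := by rw [hM]; exact Lib.Cores.pPrimeCore_coprime p
  rw [← hM] at hne
  apply hG
  refine Transfer.NormalPComplement.of_quotient M hMc ?_
  have hs := QuotientGroup.mk'_surjective M
  refine IH (G ⧸ M) (card_quotient_lt M hne) (P.mapSurjective hs) (D.map (QuotientGroup.mk' M)) ?_ ?_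
  · rw [Sylow.coe_mapSurjective]
    exact stronglyClosed_map_quotient P hD M
  · have hDp : IsPGroup p D := P.isPGroup'.to_le hD.1
    rw [← map_sInf_maxAb_of_injOn (QuotientGroup.mk' M) e D (fun x hx hx1 =>
      eq_one_of_mem_of_coprime hDp hMc hx ((QuotientGroup.eq_one_iff x).mp hx1)),
      ← CoprimeLift.map_normalizer_mk M _ hMc (hDp.to_le (sInf_maxAb_le e D))]
    exact Transfer.NormalPComplement.of_surjective
      ((QuotientGroup.mk' M).subgroupMap _) ((QuotientGroup.mk' M).subgroupMap_surjective _) h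

/-- In a minimal counterexample the quotient by `O_p(G)` has a normal `p`-complement. -/
theorem quotient_npc {e : ℕ} (hpe : p ∣ e) (G : Type u) [Group G] [Finite G] (IH : IHyp p e G)
    (P : Sylow p G) (D : Subgroup G) (hD : Cfsg.IsStronglyClosed D (P : Subgroup G))
    (h : Cfsg.HasNormalPComplement p
      ↥(normalizer ((sInf (maxAb e D) : Subgroup G) : Set G)))
    (hR1 : Cfsg.pCore p G ≠ ⊥) (hDR : ¬ D ≤ Cfsg.pCore p G) :
    Cfsg.HasNormalPComplement p (G ⧸ Cfsg.pCore p G) := by
  obtain ⟨R, hR⟩ : ∃ R : Subgroup G, R = Cfsg.pCore p G := ⟨_, rfl⟩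
  have hRn : R.Normal := by rw [hR]; exact Lib.Cores.pCore_normal p
  have hRp : IsPGroup p R := by rw [hR]; exact Lib.Cores.pCore_isPGroup p
  have hRmax : ∀ N : Subgroup G, N.Normal → IsPGroup p N → N ≤ R := by
    intro N h1 h2; rw [hR]; exact Lib.Cores.le_pCore h1 h2
  have key : Cfsg.HasNormalPComplement p (G ⧸ R) := by
    rw [← hR] at hR1 hDR
    have hs := QuotientGroup.mk'_surjective R
    have hD1 : D.map (QuotientGroup.mk' R) ≠ ⊥ := by
      intro h0
      rw [Subgroup.map_eq_bot_iff, QuotientGroup.ker_mk'] at h0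
      exact hDR h0
    have hDp : IsPGroup p D := P.isPGroup'.to_le hD.1
    have hDbp : IsPGroup p (D.map (QuotientGroup.mk' R)) := hDp.map _
    have hDbs := stronglyClosed_map_quotient P hD R
    refine IH (G ⧸ R) (card_quotient_lt R hR1) (P.mapSurjective hs) (D.map (QuotientGroup.mk' R)) ?_ ?_
    · rw [Sylow.coe_mapSurjective]
      exact hDbs
    · obtain ⟨W, hW⟩ : ∃ W : Subgroup (G ⧸ R), W = sInf (maxAb e (D.map (QuotientGroup.mk' R))) :=
        ⟨_, rfl⟩
      have hWne : W ≠ ⊥ := by rw [hW]; exact sInf_maxAb_ne_bot hpe hDbp hD1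
      have hWp : IsPGroup p W := by rw [hW]; exact hDbp.to_le (sInf_maxAb_le e _)
      have hPW : (P : Subgroup G).map (QuotientGroup.mk' R) ≤ Subgroup.normalizer (W : Set (G ⧸ R)) := by
        rw [hW]
        exact (le_normalizer_of_stronglyClosed hDbs).trans (normalizer_le_normalizer_sInf e _)
      rw [← hW]
      let K : Subgroup G := W.comap (QuotientGroup.mk' R)
      have hKn : (Subgroup.normalizer (W : Set (G ⧸ R))).comap (QuotientGroup.mk' R) =
          Subgroup.normalizer (K : Set G) := by
        apply Subgroup.comap_normalizer_eq_of_le_range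
        rw [MonoidHom.range_eq_top.mpr hs]
        exact le_top
      have hKp : IsPGroup p K := by
        apply hWp.comap_of_ker_isPGroup
        rw [QuotientGroup.ker_mk']; exact hRp
      have hPK : (P : Subgroup G) ≤ Subgroup.normalizer (K : Set G) := by
        rw [← hKn, ← Subgroup.map_le_iff_le_comap]
        exact hPW
      have hKtop : Subgroup.normalizer (K : Set G) ≠ ⊤ := by
        intro h0
        have h1 := hRmax K (Subgroup.normalizer_eq_top_iff.mp h0) hKp
        apply hWne
        rw [← Subgroup.map_comap_eq_self_of_surjective hs W, Subgroup.map_eq_bot_iff,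
          QuotientGroup.ker_mk']
        exact h1
      have h1 := npc_overgroup G IH P D hD h _ hKtop hPK
      rw [← hKn] at h1
      exact Transfer.NormalPComplement.of_surjective
        ((QuotientGroup.mk' R).subgroupComap _)
        ((QuotientGroup.mk' R).subgroupComap_surjective_of_surjective _ hs) h1
  subst hR
  exact key

/-- A normal `Z(D)`: the hypothesis is the conclusion. -/
theorem npc_of_normal {e : ℕ} (G : Type u) [Group G] [Finite G] (D : Subgroup G)
    (hn : (sInf (maxAb e D)).Normal)
    (h : Cfsg.HasNormalPComplement p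
      ↥(normalizer ((sInf (maxAb e D) : Subgroup G) : Set G))) :
    Cfsg.HasNormalPComplement p G := by
  rw [Subgroup.normalizer_eq_top_iff.mpr hn] at h
  exact (Transfer.NormalPComplement.congr Subgroup.topEquiv).mp h

/-- **The normal `p`-complement theorem for strongly closed subgroups**, `p` odd. -/
theorem hasNormalPComplement_of_stronglyClosed (hp : p ≠ 2) {e : ℕ} (hpe : p ∣ e)
    (he : e = 0 ∨ Odd e) (G : Type u) [Group G] [Finite G] (P : Sylow p G) (D : Subgroup G)
    (hD : Cfsg.IsStronglyClosed D (P : Subgroup G))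
    (h : Cfsg.HasNormalPComplement p
      ↥(normalizer ((sInf (maxAb e D) : Subgroup G) : Set G))) :
    Cfsg.HasNormalPComplement p G := by
  obtain ⟨n, hn⟩ : ∃ n, Nat.card G = n := ⟨_, rfl⟩
  induction n using Nat.strong_induction_on generalizing G with
  | _ n ih =>
    have IH : IHyp p e G := by
      intro L _ _ hL Q E hE hQ
      exact ih (Nat.card L) (by omega) L Q E hE hQ rfl
    by_contra hG
    have hD1 : D ≠ ⊥ := by
      intro h0
      apply hG
      refine npc_of_normal G D ?_ h
      have h1 : sInf (maxAb e D) = ⊥ := le_bot_iff.mp (h0 ▸ sInf_maxAb_le e D)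
      rw [h1]; infer_instance
    have h1 := pCore_ne_bot hpe G IH P D hD hD1 h hG
    have h2 := pPrimeCore_eq_bot G IH P D hD h hG
    have hOn : (pCore p G).Normal := Lib.Cores.pCore_normal p
    have hDn : D.Normal → False := by
      intro hDn
      apply hG
      refine npc_of_normal G D ?_ h
      rw [← Subgroup.normalizer_eq_top_iff, eq_top_iff, ← Subgroup.normalizer_eq_top_iff.mpr hDn]
      exact normalizer_le_normalizer_sInf e D
    have h3' : ¬ D ≤ Cfsg.pCore p G := by
      intro h0
      apply hDn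
      have h3 := inf_normal_of_stronglyClosed hD hOn (Lib.Cores.pCore_le_sylow P)
      rwa [inf_eq_right.mpr h0] at h3
    have h3 : (P : Subgroup G) ≠ Cfsg.pCore p G := by
      intro h0
      exact h3' (h0 ▸ hD.1)
    have h4 := quotient_npc hpe G IH P D hD h h1 h3'
    have h5 := ComplementReduction.isPSolvable_of_quotient_npc _ (Lib.Cores.pCore_isPGroup p) h4
    have h6 := Constrained.centralizer_pCore_le h2 (PSolvable.isPSolvable_subgroup h5 _)
    have h7 : ∀ M : Subgroup G, (P : Subgroup G) ≤ M → M = P ∨ M = ⊤ := by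
      intro M hM
      by_cases hMt : M = ⊤
      · exact Or.inr hMt
      · exact Or.inl (ComplementReduction.eq_of_npc h6 P M hM (npc_overgroup G IH P D hD h M hMt hM))
    obtain ⟨A, hA1, hA2, hA3, hA4, hA5⟩ := ComplementReduction.exists_abelian P h3 h7 h4
    apply hG
    refine npc_of_normal G D ?_ h
    refine sInf_maxAb_normal hp he h6 P D hD ?_
    intro V hVn hV
    refine stableFor_of_isPStableOn _ V ?_
    exact PLocal.AbelianStable.isPStableOn_of_abelian hp P (pCore p G) A
      (Lib.Cores.pCore_isPGroup p) hA2.le hA3 hA4 hA5 V (Lib.Cores.le_pCore hVn hV)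

end Cfsg.Agent.H280.StrongNPC
end

-- part: S3082
section
set_option autoImplicit false
open Cfsg

namespace Cfsg.Agent.S3082

open Cfsg.Agent.H280 Cfsg.Agent.PLocal.ZJ

/-- The Glauberman–Thompson normal p-complement criterion for strongly closed subgroups, p odd. Let G be a finite group, P a Sylow p-subgroup and D a subgroup of P strongly closed in P with respect to G. If N_G(Z(J(D))) has a normal p-complement (J(D) generated by the abelian subgroups of D of largest order), or N_G(Ω₁(Z(J_e(D)))) has one (J_e(D) generated by the elementary abelian subgroups of largest order), then G has a normal p-complement. -/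
theorem result {G : Type*} [Group G] [Finite G] {p : ℕ} [Fact p.Prime] (hp : p ≠ 2) (P : Sylow p G) (D : Subgroup G) (hD : Cfsg.IsStronglyClosed D (P : Subgroup G)) (h : Cfsg.HasNormalPComplement p ↥(Subgroup.normalizer ((Cfsg.centerThompsonAOf D) : Set G)) ∨ Cfsg.HasNormalPComplement p ↥(Subgroup.normalizer ((Cfsg.omegaOne p (Cfsg.centerThompsonOf p D)) : Set G))) : Cfsg.HasNormalPComplement p G := by
  rw [centerThompsonAOf_eq, StrongZJ.omegaOne_centerThompsonOf_eq] at h
  rcases h with h | h
  · exact StrongNPC.hasNormalPComplement_of_stronglyClosed hp (dvd_zero p) (Or.inl rfl) G P D hD h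
  · exact StrongNPC.hasNormalPComplement_of_stronglyClosed hp dvd_rfl
      (Or.inr ((Fact.out : p.Prime).odd_of_ne_two hp)) G P D hD h

end Cfsg.Agent.S3082
end
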