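import Mathlib
import Cfsg.Agent.OddHalf.D9.Plug.Ru
import Cfsg.Statements.S3149
import Cfsg.Agent.H297.FrameB
import Cfsg.Agent.H297.Solv
import Cfsg.Agent.FastGrp
import Cfsg.Agent.Prune
set_option linter.all false
prune_inst 0x7f00000000000000000000000000000000000000000000000000000000000000000000000000000000000000000000000000000000000000000000000000000000000000000000000000000000000000003fffffffffffffffffffffffffffbeffbdffffffff
open scoped Cfsg.Agent.FastGrp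

-- part: H297/RuFr
section
/-!
# The kill for `2.Ru` with a weaker ambient hypothesis

The development of `OddHalf.D9.Ru.Kill`, where `C(K)` is an arbitrary group with one involution: it is enough to
know that the perfect subgroups of `C(z)` lie in `K`.
-/

set_option autoImplicit false

namespace Cfsg.Agent.H297.RuFr

open Subgroup Cfsg.Agent.OddHalf.D9.M12Glue Cfsg.Agent.OddHalf.D9.Ru.Label Cfsg.Agent.OddHalf.D9.Ru.Kill

universe u

/-- The ambient hypotheses. -/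
structure Amb' {G : Type*} [Group G] (z : G) (K : Subgroup G) : Prop where
  zK : z ∈ K
  /-- `C(z)` normalises `K` -/
  norm : ∀ h, h * z = z * h → ∀ k ∈ K, h * k * h⁻¹ ∈ K
  /-- `C(K)` has one involution -/
  one : ∀ r : G, (∀ k ∈ K, r * k = k * r) → r * r = 1 → r = 1 ∨ r = z
  /-- perfect subgroups of `C(z)` lie in `K` -/
  perf : ∀ Y : Subgroup G, ⁅Y, Y⁆ = Y → (∀ y ∈ Y, y * z = z * y) → Y ≤ K

namespace Amb'

variable {G : Type*} [Group G] {z : G} {K : Subgroup G}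

/-- conjugation by `h ∈ C(z)` on `K` -/
def act (A : Amb' z K) {h : G} (hz : h * z = z * h) : MulAut K where
  toFun k := ⟨h * k * h⁻¹, A.norm h hz k k.2⟩
  invFun k := ⟨h⁻¹ * k * h, by
    have := A.norm h⁻¹ (by rw [inv_mul_eq_iff_eq_mul, ← mul_assoc, hz, mul_inv_cancel_right]) k k.2
    rwa [inv_inv] at this⟩
  left_inv k := Subtype.ext (by show h⁻¹ * (h * k * h⁻¹) * h = (k : G); group)
  right_inv k := Subtype.ext (by show h * (h⁻¹ * k * h) * h⁻¹ = (k : G); group)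
  map_mul' k l := Subtype.ext (by
    show h * (k * l) * h⁻¹ = h * k * h⁻¹ * (h * l * h⁻¹)
    group)

theorem of_inn (A : Amb' z K) {h : G} (hz : h * z = z * h) (hi : A.act hz ∈ Inn K) :
    ∃ k ∈ K, ∃ r, (∀ l ∈ K, r * l = l * r) ∧ h = k * r := by
  obtain ⟨k, hk⟩ := hi
  refine ⟨k, k.2, (k : G)⁻¹ * h, ?_, by group⟩
  intro l hl
  have h1 := congrArg (fun φ : MulAut K => ((φ ⟨l, hl⟩ : K) : G)) hk
  have h2 : (k : G) * l * (k : G)⁻¹ = h * l * h⁻¹ := h1
  calc (k : G)⁻¹ * h * l = (k : G)⁻¹ * (h * l * h⁻¹) * h := by group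
    _ = (k : G)⁻¹ * ((k : G) * l * (k : G)⁻¹) * h := by rw [h2]
    _ = l * ((k : G)⁻¹ * h) := by group

end Amb'

variable {G : Type u} [Group G] {z : G} {K : Subgroup G} {ℓ : Lbl.{u}}

/-- the frame -/
structure Fr (ℓ : Lbl.{u}) (z : G) (K : Subgroup G) : Prop where
  inv : IsoInv ℓ
  A : Amb' z K
  F : KFacts ℓ ↥K ⟨z, A.zK⟩

namespace Fr

theorem Kz (H : Fr ℓ z K) {k : G} (hk : k ∈ K) : k * z = z * k := by
  have := ((H.F.cen ⟨z, H.A.zK⟩).mpr (Or.inr rfl)) ⟨k, hk⟩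
  exact (congrArg Subtype.val this).symm

theorem zz (H : Fr ℓ z K) : z * z = 1 := congrArg Subtype.val H.F.cc

theorem z1 (H : Fr ℓ z K) : z ≠ 1 := fun h => H.F.c1 (Subtype.ext h)

/-- `C(z) = K C(K)` -/
theorem mem_KR (H : Fr ℓ z K) {h : G} (hz : h * z = z * h) : ∃ k ∈ K, ∃ r, (∀ l ∈ K, r * l = l * r) ∧ h = k * r :=
  H.A.of_inn hz (H.F.inn _)

theorem perf_le (H : Fr ℓ z K) {Y : Subgroup G} (hY : ⁅Y, Y⁆ = Y) (hz : ∀ y ∈ Y, y * z = z * y) : Y ≤ K :=
  H.A.perf Y hY hz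

theorem cenK (H : Fr ℓ z K) {r : G} (hr : r ∈ K) (h : ∀ l ∈ K, r * l = l * r) : r = 1 ∨ r = z := by
  rcases (H.F.cen ⟨r, hr⟩).mp (fun y => Subtype.ext (h y y.2)) with h | h
  · exact Or.inl (congrArg Subtype.val h)
  · exact Or.inr (congrArg Subtype.val h)

/-- the core of `C(z) ∩ C(kr)` is the core of `C_K(k)` -/
theorem P2_eq (H : Fr ℓ z K) (k : K) {r : G} (hr : ∀ l ∈ K, r * l = l * r) :
    P2 z (k * r) = (PCen k).map K.subtype := by
  rw [PC_map_subtype]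
  apply le_antisymm
  · have hp : P2 z (k * r) ≤ K := H.perf_le (PC_perf _) (fun y hy => P2_z hy)
    apply le_PC _ (PC_perf _)
    intro y hy
    have h1 := P2_e hy
    have h2 := hp hy
    refine ⟨⟨y, h2⟩, ?_, rfl⟩
    refine mem_centralizer_singleton_iff.mpr ?_
    apply Subtype.ext
    show y * (k : G) = k * y
    have h3 := hr y h2
    have h4 : y * k * r = k * y * r := by
      calc y * k * r = y * (k * r) := by group
        _ = k * (r * y) := by rw [h1]; group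
        _ = k * y * r := by rw [h3]; group
    exact mul_right_cancel h4
  · apply PC_mono
    rintro _ ⟨y, hy, rfl⟩
    have h1 : (y : G) * k = k * y := congrArg Subtype.val (mem_centralizer_singleton_iff.mp hy)
    refine mem_inf.mpr ⟨mem_centralizer_singleton_iff.mpr (H.Kz y.2), mem_centralizer_singleton_iff.mpr ?_⟩
    show (y : G) * (k * r) = k * r * y
    rw [← mul_assoc, h1, mul_assoc, ← hr y y.2, mul_assoc]

theorem P2_eq' (H : Fr ℓ z K) (k : K) : P2 z (k : G) = (PCen k).map K.subtype := by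
  have := H.P2_eq k (r := 1) (fun l _ => by rw [one_mul, mul_one])
  rwa [mul_one] at this

/-- an involution of `C(z)` is in `K` or `v r` with `v² = z = r²` -/
theorem cases (H : Fr ℓ z K) {e : G} (he : e * e = 1) (hz : e * z = z * e) :
    e ∈ K ∨ ∃ k r, k ∈ K ∧ (∀ l ∈ K, r * l = l * r) ∧ e = k * r ∧ k * k = z ∧ r * r = z := by
  obtain ⟨k, hk, r, hr, rfl⟩ := H.mem_KR hz
  have h1 : k * k * (r * r) = 1 := by
    calc k * k * (r * r) = k * (k * r) * r := by group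
      _ = k * (r * k) * r := by rw [hr k hk]
      _ = 1 := by rw [← he]; group
  have h2 : k * k = (r * r)⁻¹ := eq_inv_of_mul_eq_one_left h1
  have h3 : ∀ l ∈ K, (r * r) * l = l * (r * r) := fun l hl => by
    rw [mul_assoc, hr l hl, ← mul_assoc, hr l hl, mul_assoc]
  have h4 : k * k = 1 ∨ k * k = z := by
    refine H.cenK (K.mul_mem hk hk) ?_
    intro l hl
    rw [h2, inv_mul_eq_iff_eq_mul, ← mul_assoc, h3 l hl, mul_inv_cancel_right]
  rcases h4 with h4 | h4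
  · left
    have h5 : r * r = 1 := by rwa [h4, one_mul] at h1
    rcases H.A.one r hr h5 with rfl | rfl
    · rwa [mul_one]
    · exact K.mul_mem hk H.A.zK
  · right
    refine ⟨k, r, hk, hr, rfl, h4, ?_⟩
    rw [h4] at h1
    calc r * r = (z * z) * (r * r) := by rw [H.zz, one_mul]
      _ = z * (z * (r * r)) := by group
      _ = z := by rw [h1, mul_one]

theorem invL (H : Fr ℓ z K) {f : G} (hf : f ∈ K) (h2 : f * f = 1) (h1 : f ≠ 1) (hz : f ≠ z) :
    InvL (⟨z, H.A.zK⟩ : K) ⟨f, hf⟩ :=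
  ⟨Subtype.ext h2, fun h => h1 (congrArg Subtype.val h), fun h => hz (congrArg Subtype.val h)⟩

/-- SWAP, `e = g z g⁻¹`, `e' = g⁻¹ z g`: the core of `C(z) ∩ C(e')` goes to the core of `C(z) ∩ C(e)`. -/
theorem swap (z g : G) : (P2 z (g⁻¹ * z * g)).map (MulAut.conj g).toMonoidHom = P2 z (g * z * g⁻¹) := by
  rw [P2_conj]
  have : g * (g⁻¹ * z * g) * g⁻¹ = z := by group
  rw [this]
  show PC (centralizer {g * z * g⁻¹} ⊓ centralizer {z}) = PC (centralizer {z} ⊓ centralizer {g * z * g⁻¹})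
  rw [inf_comm]

theorem comm' {z g : G} (hg : g * z * g⁻¹ * z = z * (g * z * g⁻¹)) : g⁻¹ * z * g * z = z * (g⁻¹ * z * g) := by
  calc g⁻¹ * z * g * z = g⁻¹ * (z * (g * z * g⁻¹)) * g := by group
    _ = g⁻¹ * (g * z * g⁻¹ * z) * g := by rw [hg]
    _ = z * (g⁻¹ * z * g) := by group

theorem ne' {z g : G} (hg : g * z * g⁻¹ ≠ z) : g⁻¹ * z * g ≠ z := by
  intro h
  apply hg
  calc g * z * g⁻¹ = g * (g⁻¹ * z * g) * g⁻¹ := by rw [h]
    _ = z := by group

theorem sqc (H : Fr ℓ z K) (g : G) : g * z * g⁻¹ * (g * z * g⁻¹) = 1 := by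
  calc g * z * g⁻¹ * (g * z * g⁻¹) = g * (z * z) * g⁻¹ := by group
    _ = 1 := by rw [H.zz]; group

theorem nec (H : Fr ℓ z K) (g : G) : g * z * g⁻¹ ≠ 1 := by
  intro h
  exact H.z1 (conj_eq_one_iff.mp h)

/-- if `e' = g⁻¹ z g` is in `K` then `e = g z g⁻¹` is in `K` -/
theorem mem_of_mem (H : Fr ℓ z K) {g : G} (hne : g⁻¹ * z * g ≠ z) (h : g⁻¹ * z * g ∈ K) : g * z * g⁻¹ ∈ K := by
  have hsq : g⁻¹ * z * g * (g⁻¹ * z * g) = 1 := by
    have := H.sqc g⁻¹
    rwa [inv_inv] at this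
  have hne1 : g⁻¹ * z * g ≠ 1 := by
    have := H.nec g⁻¹
    rwa [inv_inv] at this
  have h1 := H.F.mem _ (H.invL h hsq hne1 hne)
  have h2 : z ∈ P2 z (g⁻¹ * z * g) := by
    rw [H.P2_eq' ⟨g⁻¹ * z * g, h⟩]
    exact ⟨_, h1, rfl⟩
  have h3 : g * z * g⁻¹ ∈ P2 z (g * z * g⁻¹) := by
    rw [← swap]
    exact ⟨z, h2, rfl⟩
  exact H.perf_le (PC_perf _) (fun y hy => P2_z hy) h3

/-- every conjugate of `z` commuting with `z` is in `K` -/
theorem mem_K (H : Fr ℓ z K) {g : G} (hg : g * z * g⁻¹ * z = z * (g * z * g⁻¹)) : g * z * g⁻¹ ∈ K := by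
  by_contra hn
  have hne : g * z * g⁻¹ ≠ z := fun h => hn (by rw [h]; exact H.A.zK)
  have hn' : g⁻¹ * z * g ∉ K := fun h => hn (H.mem_of_mem (ne' hne) h)
  have hsq' : g⁻¹ * z * g * (g⁻¹ * z * g) = 1 := by
    have := H.sqc g⁻¹
    rwa [inv_inv] at this
  obtain ⟨v, r, hv, hr, he, hvv, hrr⟩ := (H.cases (H.sqc g) hg).resolve_left hn
  obtain ⟨v', r', hv', hr', he', hvv', hrr'⟩ := (H.cases hsq' (comm' hg)).resolve_left hn'
  -- `s = g r' g⁻¹` centralises the core of `C(z) ∩ C(e)`, `s² = e`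
  have hs : g * r' * g⁻¹ * (g * r' * g⁻¹) = g * z * g⁻¹ := by
    calc g * r' * g⁻¹ * (g * r' * g⁻¹) = g * (r' * r') * g⁻¹ := by group
      _ = g * z * g⁻¹ := by rw [hrr']
  have hsz : g * r' * g⁻¹ * z = z * (g * r' * g⁻¹) := by
    have h1 : r' * (g⁻¹ * z * g) = g⁻¹ * z * g * r' := by
      rw [he']
      calc r' * (v' * r') = (r' * v') * r' := by group
        _ = v' * r' * r' := by rw [hr' v' hv']
    calc g * r' * g⁻¹ * z = g * (r' * (g⁻¹ * z * g)) * g⁻¹ := by group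
      _ = g * (g⁻¹ * z * g * r') * g⁻¹ := by rw [h1]
      _ = z * (g * r' * g⁻¹) := by group
  have hsc : ∀ y ∈ P2 z (g * z * g⁻¹), g * r' * g⁻¹ * y = y * (g * r' * g⁻¹) := by
    intro y hy
    rw [← swap] at hy
    obtain ⟨x, hx, rfl⟩ := hy
    have hxK : x ∈ K := H.perf_le (PC_perf _) (fun y hy => P2_z hy) hx
    have := hr' x hxK
    show g * r' * g⁻¹ * (g * x * g⁻¹) = g * x * g⁻¹ * (g * r' * g⁻¹)
    calc g * r' * g⁻¹ * (g * x * g⁻¹) = g * (r' * x) * g⁻¹ := by group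
      _ = g * (x * r') * g⁻¹ := by rw [this]
      _ = g * x * g⁻¹ * (g * r' * g⁻¹) := by group
  obtain ⟨k, hk, t, ht, hkt⟩ := H.mem_KR hsz
  have hPle : P2 z (g * z * g⁻¹) ≤ K :=
    H.perf_le (PC_perf _) (fun y hy => P2_z hy)
  have hkc : ∀ y ∈ P2 z (g * z * g⁻¹), k * y = y * k := by
    intro y hy
    have h1 := hsc y hy
    rw [hkt] at h1
    have h2 := ht y (hPle hy)
    have h3 : k * y * t = y * k * t := by
      calc k * y * t = k * (y * t) := by group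
        _ = k * (t * y) := by rw [h2]
        _ = k * t * y := by group
        _ = y * k * t := by rw [h1]; group
    exact mul_right_cancel h3
  have hPeq : P2 z (g * z * g⁻¹) = (PCen (⟨v, hv⟩ : K)).map K.subtype := by
    rw [he]
    exact H.P2_eq ⟨v, hv⟩ hr
  have hsqk : k * k = 1 ∨ k * k = z := by
    rcases H.F.sq ⟨v, hv⟩ ⟨k, hk⟩ (Subtype.ext hvv) (by
      intro y hy
      apply Subtype.ext
      show k * (y : G) = y * k
      apply hkc
      rw [hPeq]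
      exact ⟨y, hy, rfl⟩) with h | h
    · exact Or.inl (congrArg Subtype.val h)
    · exact Or.inr (congrArg Subtype.val h)
  -- `v r = k² t²`
  have h1 : k * k * (t * t) = v * r := by
    rw [← he, ← hs, hkt]
    calc k * k * (t * t) = k * (k * t) * t := by group
      _ = k * (t * k) * t := by rw [ht k hk]
      _ = k * t * (k * t) := by group
  have h2 : (k * k)⁻¹ * v = t * t * r⁻¹ := by
    calc (k * k)⁻¹ * v = (k * k)⁻¹ * (v * r) * r⁻¹ := by group
      _ = (k * k)⁻¹ * (k * k * (t * t)) * r⁻¹ := by rw [h1]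
      _ = t * t * r⁻¹ := by group
  have h3 : ∀ l ∈ K, (k * k)⁻¹ * v * l = l * ((k * k)⁻¹ * v) := by
    intro l hl
    rw [h2]
    have e1 := ht l hl
    have e2 : r⁻¹ * l = l * r⁻¹ := by
      rw [inv_mul_eq_iff_eq_mul, ← mul_assoc, hr l hl, mul_inv_cancel_right]
    calc t * t * r⁻¹ * l = t * t * (r⁻¹ * l) := by group
      _ = t * (t * l) * r⁻¹ := by rw [e2]; group
      _ = t * (l * t) * r⁻¹ := by rw [e1]
      _ = (t * l) * t * r⁻¹ := by group
      _ = (l * t) * t * r⁻¹ := by rw [e1]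
      _ = l * (t * t * r⁻¹) := by group
  have h4 := H.cenK (K.mul_mem (K.inv_mem (K.mul_mem hk hk)) hv) h3
  have h5 : v = 1 ∨ v = z := by
    have h6 : v = k * k * ((k * k)⁻¹ * v) := by group
    rcases h4 with h4 | h4 <;> rcases hsqk with h7 | h7
    · left; rw [h6, h4, h7, one_mul]
    · right; rw [h6, h4, h7, mul_one]
    · right; rw [h6, h4, h7, one_mul]
    · left; rw [h6, h4, h7, H.zz]
  rcases h5 with h5 | h5
  · rw [h5, one_mul] at hvv
    exact H.z1 hvv.symm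
  · rw [h5, H.zz] at hvv
    exact H.z1 hvv.symm

/-- the label of a conjugate `e ≠ z` of `z` in `C(z)` is `ez` -/
theorem lab (H : Fr ℓ z K) {g : G} (hg : g * z * g⁻¹ * z = z * (g * z * g⁻¹)) (hne : g * z * g⁻¹ ≠ z) :
    Lab ℓ (P2 z (g * z * g⁻¹)) (g * z * g⁻¹ * z) := by
  have hK := H.mem_K hg
  have hg' := comm' hg
  have hK' : g⁻¹ * z * g ∈ K := by
    have := H.mem_K (g := g⁻¹) (by rwa [inv_inv])
    rwa [inv_inv] at this
  have hsq' : g⁻¹ * z * g * (g⁻¹ * z * g) = 1 := by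
    have := H.sqc g⁻¹
    rwa [inv_inv] at this
  have hne1' : g⁻¹ * z * g ≠ 1 := by
    have := H.nec g⁻¹
    rwa [inv_inv] at this
  have hI' := H.invL hK' hsq' hne1' (ne' hne)
  have hI := H.invL hK (H.sqc g) (H.nec g) hne
  have hinj : Function.Injective (MulAut.conj g).toMonoidHom := (MulAut.conj g).injective
  rcases H.F.lab_or _ hI' with h | h
  · -- label `e'`: goes to `z`
    exfalso
    have h1 := h.map H.inv K.subtype K.subtype_injective
    rw [← H.P2_eq' ⟨g⁻¹ * z * g, hK'⟩] at h1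
    have h2 := h1.map H.inv (MulAut.conj g).toMonoidHom hinj
    have h3 : Lab ℓ (P2 z (g * z * g⁻¹)) z := by
      have e1 : (MulAut.conj g).toMonoidHom (K.subtype ⟨g⁻¹ * z * g, hK'⟩) = z := by
        show g * (g⁻¹ * z * g) * g⁻¹ = z
        group
      rw [e1] at h2
      have e2 := swap z g
      rw [← e2]
      exact h2
    rw [H.P2_eq' ⟨g * z * g⁻¹, hK⟩] at h3
    exact H.F.lab_c _ hI (Lab.of_map H.inv K.subtype K.subtype_injective (x := ⟨z, H.A.zK⟩) h3)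
  · have h1 := h.map H.inv K.subtype K.subtype_injective
    rw [← H.P2_eq' ⟨g⁻¹ * z * g, hK'⟩] at h1
    have h2 := h1.map H.inv (MulAut.conj g).toMonoidHom hinj
    have e1 : (MulAut.conj g).toMonoidHom (K.subtype (⟨g⁻¹ * z * g, hK'⟩ * ⟨z, H.A.zK⟩)) = g * z * g⁻¹ * z := by
      show g * (g⁻¹ * z * g * z) * g⁻¹ = g * z * g⁻¹ * z
      calc g * (g⁻¹ * z * g * z) * g⁻¹ = z * (g * z * g⁻¹) := by group
        _ = g * z * g⁻¹ * z := hg.symm
    rw [e1] at h2
    rw [← swap z g]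
    exact h2

theorem labK (H : Fr ℓ z K) {g : G} (hg : g * z * g⁻¹ * z = z * (g * z * g⁻¹)) (hne : g * z * g⁻¹ ≠ z) :
    Lab ℓ (PCen (⟨g * z * g⁻¹, H.mem_K hg⟩ : K)) (⟨g * z * g⁻¹, H.mem_K hg⟩ * ⟨z, H.A.zK⟩) := by
  have h1 := H.lab hg hne
  rw [H.P2_eq' ⟨g * z * g⁻¹, H.mem_K hg⟩] at h1
  exact Lab.of_map H.inv K.subtype K.subtype_injective (x := ⟨g * z * g⁻¹, H.mem_K hg⟩ * ⟨z, H.A.zK⟩) h1

/-- `e` and `ez` are not both conjugate to `z` -/
theorem not_both (H : Fr ℓ z K) {g h : G} (hg : g * z * g⁻¹ * z = z * (g * z * g⁻¹)) (hne : g * z * g⁻¹ ≠ z)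
    (hh : h * z * h⁻¹ = g * z * g⁻¹ * z) : False := by
  have hg2 : h * z * h⁻¹ * z = z * (h * z * h⁻¹) := by
    rw [hh]
    calc g * z * g⁻¹ * z * z = z * (g * z * g⁻¹) * z := by rw [hg]
      _ = z * (g * z * g⁻¹ * z) := by group
  have hne2 : h * z * h⁻¹ ≠ z := by
    rw [hh]
    intro h1
    exact H.nec g (mul_eq_right.mp h1)
  have h1 := H.lab hg2 hne2
  have hK := H.mem_K hg
  have h2 : P2 z (h * z * h⁻¹) = P2 z (g * z * g⁻¹) := by
    rw [hh, H.P2_eq ⟨g * z * g⁻¹, hK⟩ (r := z) (fun l hl => (H.Kz hl).symm), H.P2_eq' ⟨g * z * g⁻¹, hK⟩]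
  rw [h2] at h1
  have h3 : h * z * h⁻¹ * z = g * z * g⁻¹ := by
    rw [hh, mul_assoc, H.zz, mul_one]
  rw [h3, H.P2_eq' ⟨g * z * g⁻¹, hK⟩] at h1
  have hI := H.invL hK (H.sqc g) (H.nec g) hne
  exact H.F.lab_not _ hI (Lab.of_map H.inv K.subtype K.subtype_injective (x := ⟨g * z * g⁻¹, hK⟩) h1) (H.labK hg hne)

/-- **(PF)**: if `x ≠ y` are commuting conjugates of `z` then `xy` is not conjugate to `z` -/
theorem pf (H : Fr ℓ z K) {x y : G} (hx : ∃ a, a * z * a⁻¹ = x) (hy : ∃ a, a * z * a⁻¹ = y)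
    (hw : ∃ a, a * z * a⁻¹ = x * y) (hc : x * y = y * x) (hne : x ≠ y) : False := by
  obtain ⟨a, rfl⟩ := hx
  obtain ⟨b, rfl⟩ := hy
  obtain ⟨d, hd⟩ := hw
  have e1 : a⁻¹ * b * z * (a⁻¹ * b)⁻¹ = a⁻¹ * (b * z * b⁻¹) * a := by group
  refine H.not_both (g := a⁻¹ * b) (h := a⁻¹ * d) ?_ ?_ ?_
  · rw [e1]
    calc a⁻¹ * (b * z * b⁻¹) * a * z = a⁻¹ * (b * z * b⁻¹ * (a * z * a⁻¹)) * a := by group
      _ = a⁻¹ * (a * z * a⁻¹ * (b * z * b⁻¹)) * a := by rw [hc]
      _ = z * (a⁻¹ * (b * z * b⁻¹) * a) := by group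
  · rw [e1]
    intro h
    apply hne
    calc a * z * a⁻¹ = a * (a⁻¹ * (b * z * b⁻¹) * a) * a⁻¹ := by rw [h]
      _ = b * z * b⁻¹ := by group
  · calc a⁻¹ * d * z * (a⁻¹ * d)⁻¹ = a⁻¹ * (d * z * d⁻¹) * a := by group
      _ = a⁻¹ * (a * z * a⁻¹ * (b * z * b⁻¹)) * a := by rw [hd]
      _ = a⁻¹ * (b * z * b⁻¹ * (a * z * a⁻¹)) * a := by rw [hc]
      _ = a⁻¹ * b * z * (a⁻¹ * b)⁻¹ * z := by group

/-- `z` commutes with no other conjugate -/
theorem isolated (H : Fr ℓ z K) (g : G) (hg : g * z * g⁻¹ * z = z * (g * z * g⁻¹)) : g * z * g⁻¹ = z := by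
  by_contra hne
  have hK := H.mem_K hg
  have hI := H.invL hK (H.sqc g) (H.nec g) hne
  have hl := H.labK hg hne
  have key : ∀ f : K, InvL (⟨z, H.A.zK⟩ : K) f → Lab ℓ (PCen f) (f * ⟨z, H.A.zK⟩) → ∃ a, a * z * a⁻¹ = (f : G) := by
    intro f hf hlf
    obtain ⟨k, hk⟩ := H.F.conj _ f hI hf hl hlf
    refine ⟨k * g, ?_⟩
    have := congrArg Subtype.val hk
    calc (k : G) * g * z * ((k : G) * g)⁻¹ = k * (g * z * g⁻¹) * (k : G)⁻¹ := by group
      _ = f := this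
  obtain ⟨x, y, hx, hy, hxy, hc, hne', lx, ly, lxy⟩ := H.F.pf
  exact H.pf (key x hx lx) (key y hy ly) (key (x * y) hxy lxy) (congrArg Subtype.val hc)
    (fun h => hne' (Subtype.ext h))

end Fr

end Cfsg.Agent.H297.RuFr
end

-- part: S3149
section
set_option autoImplicit false
open Cfsg

namespace Cfsg.Agent.S3149

open Subgroup

/-- Let G be a finite group with no nontrivial normal subgroup of odd order and A a standard subgroup of G which is a double cover of the Rudvalis group (the centre of A has order 2 and A modulo its centre is isomorphic to the Rudvalis group). If the centralizer of A in G has cyclic Sylow 2-subgroups, then A is normal in G. -/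
theorem result {G : Type*} [Group G] [Finite G] (hO : Cfsg.oddCore G = ⊥) (A : Subgroup G) (hA : Cfsg.IsStandardSubgroup A)
    (hZ : Nat.card ↥(Subgroup.center ↥A) = 2) (hAX : Cfsg.Spor.IsoRu (↥A ⧸ Subgroup.center ↥A))
    (hR : ∀ R : Sylow 2 ↥(Subgroup.centralizer (A : Set G)), IsCyclic ↥(R : Subgroup ↥(Subgroup.centralizer (A : Set G)))) : A.Normal := by
  have : Fact (Nat.Prime 2) := ⟨Nat.prime_two⟩
  -- the central involution
  obtain ⟨c, hc1⟩ : ∃ c : center ↥A, orderOf c = 2 :=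
    exists_prime_orderOf_dvd_card' 2 (by rw [hZ])
  have hcc : (c : ↥A) ∈ center ↥A := c.2
  have hc1' : (c : ↥A) ≠ 1 := by
    intro h
    have : c = 1 := Subtype.ext h
    rw [this, orderOf_one] at hc1
    exact absurd hc1 (by norm_num)
  have hperf : commutator ↥A = ⊤ := hA.1.1.commutator_eq_top
  obtain ⟨ℓ, hℓ, hF⟩ := Cfsg.Agent.OddHalf.D9.Ru.RowFin.facts ↥A inferInstance hperf hZ hAX c hcc hc1'
  have hz1 : ((c : ↥A) : G) ≠ 1 := fun h => hc1' (Subtype.ext h)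
  have hzz : ((c : ↥A) : G) * ((c : ↥A) : G) = 1 := congrArg Subtype.val hF.cc
  have hzC : ((c : ↥A) : G) ∈ centralizer (A : Set G) := by
    rw [mem_centralizer_iff]
    intro a ha
    exact congrArg Subtype.val (mem_center_iff.1 hcc ⟨a, ha⟩)
  have hzcen : ∀ g ∈ centralizer (A : Set G), g * ((c : ↥A) : G) = ((c : ↥A) : G) * g := fun g hg =>
    (mem_centralizer_iff.1 hg _ (c : ↥A).2).symm
  have hle := (Cfsg.Agent.S1754.result A hA ((c : ↥A) : G) (orderOf_eq_prime (by rw [pow_two, hzz]) hz1) hzC).1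
  have hnorm : ∀ h : G, h * ((c : ↥A) : G) = ((c : ↥A) : G) * h → h ∈ normalizer (A : Set G) := fun h hh =>
    hle (mem_centralizer_singleton_iff.2 hh)
  have amb : H297.RuFr.Amb' ((c : ↥A) : G) A := by
    refine ⟨(c : ↥A).2, fun h hh k hk => (mem_normalizer_iff.1 (hnorm h hh) k).1 hk, ?_, ?_⟩
    · intro r hr hrr
      exact H297.Frame.uniq hR hzC hzcen hzz hz1 (mem_centralizer_iff.2 fun k hk => (hr k hk).symm) hrr
    · intro Y hY hYz
      refine H297.Solv.perf_le (B := centralizer (A : Set G)) (fun b hb a ha => (mem_centralizer_iff.1 hb a ha).symm)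
        (H297.Solv.solvable hR) hY ?_
      intro y hy
      have hn := hnorm y (hYz y hy)
      obtain ⟨s, hs⟩ := hF.inn (H297.Frame.act hn)
      refine ⟨s, s.2, _, H297.Frame.exists_mul hn (s := s) fun k => ?_, (mul_inv_cancel_left _ _).symm⟩
      rw [← hs, MulAut.conj_apply]
  have fr : H297.RuFr.Fr ℓ ((c : ↥A) : G) A := ⟨hℓ, amb, hF⟩
  exact H297.Frame.normal_of_isolated hO hA hz1 hzz hzC fun g hg => fr.isolated g hg

end Cfsg.Agent.S3149
end
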