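import Cfsg.Statements.S3153
import Cfsg.Agent.Lib.KleinGen
import Cfsg.Agent.Lib.PComponents
import Cfsg.Agent.SignalizersComponents.StandardTools
set_option linter.all false

set_option autoImplicit false
open Cfsg
open scoped Pointwise

namespace Cfsg.Agent.S3153

section aux

variable {H : Type*} [Group H]

/-- two commuting involutions of a group of 2-rank at most one are equal -/
theorem eq_of_rank_one [Finite H] (hr : Cfsg.PRankLE 2 1 H) {x y : H} (hx : x * x = 1) (hy : y * y = 1)
    (hxy : x * y = y * x) (hx1 : x ≠ 1) (hy1 : y ≠ 1) : x = y := by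
  by_contra hne
  have e1 : x * (x * y) = y := by rw [← mul_assoc, hx, one_mul]
  have e2 : y * (x * y) = x := by rw [hxy, ← mul_assoc, hy, one_mul]
  have e3 : x * y * x = y := by rw [hxy, mul_assoc, hx, mul_one]
  have e4 : x * y * y = x := by rw [mul_assoc, hy, mul_one]
  have e5 : x * y * (x * y) = 1 := by rw [← mul_assoc, e3, hy]
  let A : Subgroup H :=
    { carrier := {1, x, y, x * y}
      one_mem' := by simp
      mul_mem' := by
        rintro a b (rfl | rfl | rfl | rfl) (rfl | rfl | rfl | rfl) <;>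
          simp [hx, hy, e1, e2, e3, e4, e5, ← hxy]
      inv_mem' := by
        rintro a (rfl | rfl | rfl | rfl)
        · simp
        · rw [inv_eq_of_mul_eq_one_left hx]; simp
        · rw [inv_eq_of_mul_eq_one_left hy]; simp
        · rw [inv_eq_of_mul_eq_one_left e5]; simp }
  have hm : ∀ a, a ∈ A ↔ a = 1 ∨ a = x ∨ a = y ∨ a = x * y := fun a => Iff.rfl
  have hcomm : IsMulCommutative A := by
    refine ⟨⟨?_⟩⟩
    rintro ⟨a, ha⟩ ⟨b, hb⟩
    apply Subtype.ext
    change a * b = b * a
    rw [hm] at ha hb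
    rcases ha with rfl | rfl | rfl | rfl <;> rcases hb with rfl | rfl | rfl | rfl <;>
      simp [e1, e2, e3, e4, ← hxy]
  have hsq : ∀ a ∈ A, a ^ 2 = 1 := by
    intro a ha
    rw [hm] at ha
    rcases ha with rfl | rfl | rfl | rfl
    · simp
    · rw [pow_two, hx]
    · rw [pow_two, hy]
    · rw [pow_two, e5]
  have h2 := hr A hcomm hsq
  have h3 : 3 ≤ Nat.card A := by
    let f : Fin 3 → A := ![⟨1, (hm 1).2 (Or.inl rfl)⟩, ⟨x, (hm x).2 (Or.inr (Or.inl rfl))⟩,
      ⟨y, (hm y).2 (Or.inr (Or.inr (Or.inl rfl)))⟩]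
    have hinj : Function.Injective f := by
      have h01 : f 0 ≠ f 1 := fun h => hx1 (congrArg Subtype.val h).symm
      have h02 : f 0 ≠ f 2 := fun h => hy1 (congrArg Subtype.val h).symm
      have h12 : f 1 ≠ f 2 := fun h => hne (congrArg Subtype.val h)
      intro i j hij
      fin_cases i <;> fin_cases j
      · rfl
      · exact absurd hij h01
      · exact absurd hij h02
      · exact absurd hij.symm h01
      · rfl
      · exact absurd hij h12
      · exact absurd hij.symm h02
      · exact absurd hij.symm h12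
      · rfl
    have := Nat.card_le_card_of_injective _ hinj
    simpa using this
  omega

end aux

theorem main {X : Type*} [Group X] [Finite X] (P : Subgroup X) (hP : Cfsg.IsStandardSubgroup P)
    (C : Subgroup X) (hCdef : C = Subgroup.centralizer (P : Set X))
    (hr : Cfsg.PRankLE 2 1 ↥C) (hZ : Odd (Nat.card ↥(Subgroup.center ↥P)))
    (N : Subgroup X) (hNdef : N = Subgroup.normalizer (P : Set X))
    (S : Sylow 2 ↥N) (t : X) (ht : orderOf t = 2)
    (SN : Subgroup X) (hSN : SN = (S : Subgroup ↥N).map N.subtype) (htS : t ∈ SN) (htP : t ∈ C)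
    (g : X) (hgN : ∀ s ∈ SN, g * s * g⁻¹ ∈ SN) (hgS : g ∉ SN) (hg2 : g ^ 2 ∈ SN)
    (hgt : g * t * g⁻¹ ∈ P ⊔ C)
    (K : Subgroup X) (hK : K = Cfsg.oddCore X) :
    ⁅P, K⁆ = ⊥ ∧
      ∀ L : Subgroup X, Cfsg.IsPComponent 2 L → P ≤ L → Cfsg.IsQuasisimple ↥L := by
  classical
  have hKn : K.Normal := by rw [hK]; infer_instance
  have hKodd : Odd (Nat.card K) := by
    rw [hK]
    have := Cfsg.Agent.Lib.Cores.pPrimeCore_coprime (G := X) 2
    exact Nat.coprime_two_right.mp this
  have hPC : ∀ p ∈ P, ∀ c ∈ C, p * c = c * p := fun p hp c hc =>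
    Subgroup.mem_centralizer_iff.1 (hCdef ▸ hc) p hp
  have hSNN : SN ≤ N := by
    rw [hSN]
    rintro _ ⟨x, -, rfl⟩
    exact x.2
  have hCN : C ≤ N := by
    rw [hCdef, hNdef]
    exact Subgroup.centralizer_le_normalizer _
  -- `SN` is a 2-group
  have hS2 : ∀ s ∈ SN, ∃ k : ℕ, s ^ 2 ^ k = 1 := by
    rw [hSN]
    rintro _ ⟨x, hx, rfl⟩
    obtain ⟨k, hk⟩ := S.2 ⟨x, hx⟩
    refine ⟨k, ?_⟩
    have := congrArg (fun y : (S : Subgroup ↥N) => ((y : ↥N) : X)) hk
    simpa using this
  -- `g` does not normalize `P`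
  have hgN' : g ∉ N := by
    intro hg
    apply hgS
    have h1 : (⟨g, hg⟩ : ↥N) ∈ (S : Subgroup ↥N) := by
      have hp : IsPGroup 2 (Subgroup.zpowers (⟨g, hg⟩ : ↥N)) := by
        obtain ⟨k, hk⟩ := hS2 _ hg2
        have hk' : (⟨g, hg⟩ : ↥N) ^ 2 ^ (k + 1) = 1 := by
          apply Subtype.ext
          simp only [SubmonoidClass.coe_pow, OneMemClass.coe_one]
          rw [pow_succ', pow_mul, hk]
        rintro ⟨_, m, rfl⟩
        refine ⟨k + 1, ?_⟩
        apply Subtype.ext
        simp only [SubmonoidClass.coe_pow, OneMemClass.coe_one]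
        rw [← zpow_natCast, ← zpow_mul, mul_comm, zpow_mul, zpow_natCast, hk', one_zpow]
      have h2 : (⟨g, hg⟩ : ↥N) ∈ Subgroup.normalizer ((S : Subgroup ↥N) : Set ↥N) := by
        apply Subgroup.mem_normalizer_fintype
        intro n hn
        rw [hSN] at hgN
        obtain ⟨y, hy, hy2⟩ := hgN n ⟨n, hn, rfl⟩
        have : (⟨g, hg⟩ : ↥N) * n * (⟨g, hg⟩ : ↥N)⁻¹ = y := by
          apply Subtype.ext
          exact hy2.symm
        rw [this]
        exact hy
      have h3 := IsPGroup.inf_normalizer_sylow hp S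
      have h4 : (⟨g, hg⟩ : ↥N) ∈ Subgroup.zpowers (⟨g, hg⟩ : ↥N) ⊓
          (S : Subgroup ↥N) := h3 ▸ ⟨Subgroup.mem_zpowers _, h2⟩
      exact h4.2
    rw [hSN]
    exact ⟨⟨g, hg⟩, h1, rfl⟩
  have hgC : g ∉ Subgroup.normalizer (C : Set X) := by
    rw [hCdef, ← hP.2.2.2, ← hNdef]
    exact hgN'
  have ht2 : t * t = 1 := by rw [← pow_two, ← ht, pow_orderOf_eq_one]
  have ht1 : t ≠ 1 := by
    rintro rfl
    simp at ht
  set u := g * t * g⁻¹ with hu
  have hu2 : u * u = 1 := by
    have : u * u = g * (t * t) * g⁻¹ := by rw [hu]; group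
    rw [this, ht2]
    group
  have hu1 : u ≠ 1 := by
    intro h
    apply ht1
    have : t = g⁻¹ * u * g := by rw [hu]; group
    rw [this, h]
    group
  have huS : u ∈ SN := hgN t htS
  -- uniqueness of the involution of `SN ∩ C`
  have huniq : ∀ y ∈ SN, y ∈ C → y * y = 1 → y ≠ 1 → y = t := by
    set D := SN ⊓ C with hD
    have hDp : IsPGroup 2 D := by
      rintro ⟨x, hx⟩
      obtain ⟨k, hk⟩ := hS2 x hx.1
      exact ⟨k, Subtype.ext (by simpa using hk)⟩
    have htD : t ∈ D := ⟨htS, htP⟩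
    haveI : Nontrivial D := ⟨⟨⟨t, htD⟩, 1, fun h => ht1 (congrArg Subtype.val h)⟩⟩
    haveI : Fact (Nat.Prime 2) := ⟨Nat.prime_two⟩
    have := hDp.center_nontrivial
    have hcp : IsPGroup 2 (Subgroup.center D) := hDp.to_subgroup _
    obtain ⟨n, hn0, hn⟩ := hcp.nontrivial_iff_card.1 inferInstance
    have h2 : 2 ∣ Nat.card (Subgroup.center D) := by
      rw [hn]
      exact dvd_pow_self 2 hn0.ne'
    obtain ⟨z, hz⟩ := exists_prime_orderOf_dvd_card' (G := Subgroup.center D) 2 h2
    have hzz : (((z : D) : X)) * ((z : D) : X) = 1 := by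
      have : z * z = 1 := by rw [← pow_two, ← hz, pow_orderOf_eq_one]
      have := congrArg (fun w : Subgroup.center D => ((w : D) : X)) this
      simpa using this
    have hz1 : ((z : D) : X) ≠ 1 := by
      intro h
      have : z = 1 := Subtype.ext (Subtype.ext h)
      rw [this] at hz
      simp at hz
    have key : ∀ y ∈ D, y * y = 1 → y ≠ 1 → y = ((z : D) : X) := by
      intro y hy hyy hy1
      have hcomm : y * ((z : D) : X) = ((z : D) : X) * y := by
        have := Subgroup.mem_center_iff.1 z.2 ⟨y, hy⟩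
        exact congrArg Subtype.val this
      have := eq_of_rank_one (H := ↥C) hr (x := ⟨y, hy.2⟩) (y := ⟨((z : D) : X), (z : D).2.2⟩)
        (Subtype.ext hyy) (Subtype.ext hzz) (Subtype.ext hcomm) (fun h => hy1 (congrArg Subtype.val h))
        (fun h => hz1 (congrArg Subtype.val h))
      exact congrArg Subtype.val this
    intro y hyS hyC hyy hy1
    rw [key y ⟨hyS, hyC⟩ hyy hy1, key t htD ht2 ht1]
  -- `t` is central in `SN`
  have htcen : ∀ s ∈ SN, s * t = t * s := by
    intro s hs
    have h1 : s * t * s⁻¹ ∈ SN := SN.mul_mem (SN.mul_mem hs htS) (SN.inv_mem hs)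
    have hsN : s ∈ N := hSNN hs
    have hsC : s ∈ Subgroup.normalizer (C : Set X) := by
      rw [hCdef, ← hP.2.2.2, ← hNdef]; exact hsN
    have h2 : s * t * s⁻¹ ∈ C := (Subgroup.mem_normalizer_iff.1 hsC t).1 htP
    have h3 : s * t * s⁻¹ * (s * t * s⁻¹) = 1 := by
      have : s * t * s⁻¹ * (s * t * s⁻¹) = s * (t * t) * s⁻¹ := by group
      rw [this, ht2]; group
    have h4 : s * t * s⁻¹ ≠ 1 := by
      intro h
      apply ht1
      have : t = s⁻¹ * (s * t * s⁻¹) * s := by group
      rw [this, h]; group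
    have h5 := huniq _ h1 h2 h3 h4
    calc s * t = s * t * s⁻¹ * s := by group
      _ = t * s := by rw [h5]
  have htu : u * t = t * u := htcen u huS
  -- `u` is not in `C`
  have huC : u ∉ C := by
    intro h
    have hodd : Odd (Nat.card ↥(C ⊓ C.map (MulAut.conj g).toMonoidHom)) := by
      have := hP.2.1.2 g
      rw [← hCdef] at this
      exact this hgC
    have hmem : u ∈ C ⊓ C.map (MulAut.conj g).toMonoidHom := by
      refine ⟨h, t, htP, ?_⟩
      simp [hu]
    have h1 : orderOf (⟨u, hmem⟩ : ↥(C ⊓ C.map (MulAut.conj g).toMonoidHom)) = 2 := by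
      apply orderOf_eq_prime
      · apply Subtype.ext
        rw [SubmonoidClass.coe_pow, pow_two]
        exact hu2
      · intro h'
        exact hu1 (congrArg Subtype.val h')
    have h2 : 2 ∣ Nat.card ↥(C ⊓ C.map (MulAut.conj g).toMonoidHom) := by
      rw [← h1]; exact orderOf_dvd_natCard _
    exact (Nat.not_even_iff_odd.2 hodd) (even_iff_two_dvd.2 h2)
  -- the decomposition `u = a b`
  obtain ⟨a, haP, b, hbC, hab, haa, hbb⟩ : ∃ a ∈ P, ∃ b ∈ C, u = a * b ∧ a * a = 1 ∧ b * b = 1 := by
    have h0 : u ∈ ((P : Set X) * (C : Set X) : Set X) := by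
      rw [← Subgroup.coe_mul_of_left_le_normalizer_right P C]
      · exact hgt
      · rw [hCdef, ← hP.2.2.2]
        exact Subgroup.le_normalizer
    obtain ⟨a₀, ha₀, b₀, hb₀, hab₀⟩ := h0
    have hab₀' : a₀ * b₀ = u := hab₀
    have hcom : a₀ * b₀ = b₀ * a₀ := hPC a₀ ha₀ b₀ hb₀
    have hsq : a₀ * a₀ * (b₀ * b₀) = 1 := by
      calc a₀ * a₀ * (b₀ * b₀) = a₀ * (a₀ * b₀) * b₀ := by group
        _ = a₀ * (b₀ * a₀) * b₀ := by rw [hcom]
        _ = (a₀ * b₀) * (a₀ * b₀) := by group
        _ = 1 := by rw [hab₀', hu2]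
    have hz : a₀ * a₀ ∈ C := by
      have : a₀ * a₀ = (b₀ * b₀)⁻¹ := eq_inv_of_mul_eq_one_left hsq
      rw [this]
      exact C.inv_mem (C.mul_mem hb₀ hb₀)
    obtain ⟨n, hn⟩ := Cfsg.Agent.Lib.KleinGen.exists_sqrt_exponent (Subgroup.center P) hZ
    have hzc : (⟨a₀ * a₀, P.mul_mem ha₀ ha₀⟩ : ↥P) ∈ Subgroup.center P := by
      rw [Subgroup.mem_center_iff]
      rintro ⟨p, hp⟩
      exact Subtype.ext (hPC p hp _ hz)
    have hw := (hn _ hzc).1
    have hw' : (a₀ * a₀) ^ n * (a₀ * a₀) ^ n = a₀ * a₀ := by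
      have := congrArg Subtype.val hw
      simpa using this
    set w := (a₀ * a₀) ^ n with hwdef
    have hwP : w ∈ P := P.pow_mem (P.mul_mem ha₀ ha₀) n
    have hwC : w ∈ C := C.pow_mem hz n
    have hwa : a₀ * w = w * a₀ := hPC a₀ ha₀ w hwC
    refine ⟨a₀ * w⁻¹, P.mul_mem ha₀ (P.inv_mem hwP), w * b₀, C.mul_mem hwC hb₀, ?_, ?_, ?_⟩
    · rw [← hab₀']; group
    · have hwa' : w⁻¹ * a₀ = a₀ * w⁻¹ := by
        have := hPC a₀ ha₀ w⁻¹ (C.inv_mem hwC)
        exact this.symm
      calc a₀ * w⁻¹ * (a₀ * w⁻¹) = a₀ * (w⁻¹ * a₀) * w⁻¹ := by group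
        _ = a₀ * a₀ * (w * w)⁻¹ := by rw [hwa']; group
        _ = 1 := by rw [hw']; group
    · have hwb : b₀ * w = w * b₀ := (hPC w hwP b₀ hb₀).symm
      calc w * b₀ * (w * b₀) = w * (b₀ * w) * b₀ := by group
        _ = w * w * (b₀ * b₀) := by rw [hwb]; group
        _ = 1 := by rw [hw', hsq]
  have ha1 : a ≠ 1 := by
    rintro rfl
    apply huC
    rw [hab, one_mul]
    exact hbC
  have hbt : b * t = t * b := by
    have h1 : a * t = t * a := hPC a haP t htP
    have h2 : a * (b * t) = a * (t * b) := by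
      calc a * (b * t) = (a * b) * t := by group
        _ = t * (a * b) := by rw [← hab, htu]
        _ = (t * a) * b := by group
        _ = (a * t) * b := by rw [h1]
        _ = a * (t * b) := by group
    exact mul_left_cancel h2
  have hb : b = 1 ∨ b = t := by
    by_cases hb1 : b = 1
    · exact Or.inl hb1
    · right
      have := eq_of_rank_one (H := ↥C) hr (x := ⟨b, hbC⟩) (y := ⟨t, htP⟩)
        (Subtype.ext hbb) (Subtype.ext ht2) (Subtype.ext hbt) (fun h => hb1 (congrArg Subtype.val h))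
        (fun h => ht1 (congrArg Subtype.val h))
      exact congrArg Subtype.val this
  have hPeven : 2 ∣ Nat.card P := by
    have h1 : orderOf (⟨a, haP⟩ : ↥P) = 2 := by
      apply orderOf_eq_prime
      · apply Subtype.ext
        simpa [pow_two] using haa
      · intro h'
        exact ha1 (congrArg Subtype.val h')
    rw [← h1]; exact orderOf_dvd_natCard _
  have hPK : ¬ P ≤ K := by
    intro h
    have h1 := (hPeven.trans (Subgroup.card_dvd_of_le h))
    exact (Nat.not_even_iff_odd.2 hKodd) (even_iff_two_dvd.2 h1)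
  -- `C_K(t)` centralizes `P`
  have hKt : ∀ c ∈ K, t * c = c * t → c ∈ C := by
    set D := K ⊓ Subgroup.centralizer ({t} : Set X) with hD
    have hDN : D ≤ N := by
      intro c hc
      have h1 : Subgroup.centralizer ((Subgroup.zpowers t : Subgroup X) : Set X) ≤ N := by
        rw [hNdef]
        refine Cfsg.Agent.SignalizersComponents.StandardTools.centralizer_le_of_even hP ?_ ?_
        · rw [Subgroup.zpowers_le, ← hCdef]; exact htP
        · rw [Nat.card_zpowers, ht]
          exact even_two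
      apply h1
      rw [Subgroup.mem_centralizer_iff]
      rintro _ ⟨k, rfl⟩
      have h2 : t * c = c * t := Subgroup.mem_centralizer_iff.1 hc.2 t rfl
      exact (Commute.zpow_left h2 k)
    have hPD : P ≤ Subgroup.normalizer (D : Set X) := by
      intro p hp
      apply Subgroup.mem_normalizer_fintype
      rintro c ⟨hcK, hct⟩
      refine ⟨hKn.conj_mem c hcK p, ?_⟩
      have h2 : t * c = c * t := Subgroup.mem_centralizer_iff.1 hct t rfl
      have h3 : p * t = t * p := hPC p hp t htP
      have h4 : p⁻¹ * t = t * p⁻¹ := hPC p⁻¹ (P.inv_mem hp) t htP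
      refine Subgroup.mem_centralizer_iff.2 ?_
      intro t' ht'
      rw [Set.mem_singleton_iff] at ht'
      rw [ht']
      calc t * (p * c * p⁻¹) = (t * p) * c * p⁻¹ := by group
        _ = p * (t * c) * p⁻¹ := by rw [← h3]; group
        _ = p * c * (t * p⁻¹) := by rw [h2]; group
        _ = p * c * p⁻¹ * t := by rw [← h4]; group
    intro c hcK hct
    have hcD : c ∈ D := by
      refine ⟨hcK, Subgroup.mem_centralizer_iff.2 ?_⟩
      rintro _ rfl
      exact hct
    rcases Cfsg.Agent.SignalizersComponents.StandardTools.le_or_le_centralizer hP.1 (hNdef ▸ hDN)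
      hPD with h | h
    · exact absurd (h.trans inf_le_left) hPK
    · rw [hCdef]; exact h hcD
  have h1 : ∀ c ∈ K, t * c = c * t → u * c = c * u := by
    intro c hc hct
    have hcC := hKt c hc hct
    have h2 : a * c = c * a := hPC a haP c hcC
    rcases hb with rfl | rfl
    · rw [hab, mul_one, h2]
    · rw [hab, mul_assoc, hct, ← mul_assoc, h2, mul_assoc]
  have hgg : g * u * g⁻¹ = t := by
    have h2 := htcen _ hg2
    calc g * u * g⁻¹ = g ^ 2 * t * (g ^ 2)⁻¹ := by rw [hu, pow_two]; group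
      _ = t := by rw [h2]; group
  have h2 : ∀ c ∈ K, u * c = c * u → t * c = c * t := by
    intro c hc hcu
    have h3 : t * (g⁻¹ * c * g) = (g⁻¹ * c * g) * t := by
      have h4 : t = g⁻¹ * u * g := by rw [hu]; group
      calc t * (g⁻¹ * c * g) = g⁻¹ * (u * c) * g := by rw [h4]; group
        _ = g⁻¹ * (c * u) * g := by rw [hcu]
        _ = (g⁻¹ * c * g) * t := by rw [h4]; group
    have h5 : g⁻¹ * c * g ∈ K := by
      have := hKn.conj_mem c hc g⁻¹
      simpa using this
    have h6 := h1 _ h5 h3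
    calc t * c = g * (u * (g⁻¹ * c * g)) * g⁻¹ := by rw [← hgg]; group
      _ = g * ((g⁻¹ * c * g) * u) * g⁻¹ := by rw [h6]
      _ = c * (g * u * g⁻¹) := by group
      _ = c * t := by rw [hgg]
  have h3 : K ≤ Subgroup.centralizer ({t * u} : Set X) := by
    refine Cfsg.Agent.Lib.KleinGen.le_of_klein K _ hKodd t u ht2 hu2 htu.symm
      (fun h hh => hKn.conj_mem h hh t) (fun h hh => hKn.conj_mem h hh u) ?_ ?_ inf_le_right
    · rintro c ⟨hcK, hct⟩
      have h4 : t * c = c * t := Subgroup.mem_centralizer_iff.1 hct t rfl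
      have h5 := h1 c hcK h4
      rw [Subgroup.mem_centralizer_iff]
      rintro _ rfl
      rw [mul_assoc, h5, ← mul_assoc, h4, mul_assoc]
    · rintro c ⟨hcK, hct⟩
      have h5 : u * c = c * u := Subgroup.mem_centralizer_iff.1 hct u rfl
      have h4 := h2 c hcK h5
      rw [Subgroup.mem_centralizer_iff]
      rintro _ rfl
      rw [mul_assoc, h5, ← mul_assoc, h4, mul_assoc]
  set W := Subgroup.centralizer (K : Set X) with hW
  have hWn : W.Normal := inferInstance
  have htuW : t * u ∈ W := by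
    rw [hW, Subgroup.mem_centralizer_iff]
    intro c hc
    exact (Subgroup.mem_centralizer_iff.1 (h3 hc) _ rfl).symm
  have hPnM : P ≤ Subgroup.normalizer ((W ⊓ N : Subgroup X) : Set X) := by
    intro p hp
    have hpN : p ∈ N := by rw [hNdef]; exact Subgroup.le_normalizer hp
    apply Subgroup.mem_normalizer_fintype
    rintro c ⟨hcW, hcN⟩
    exact ⟨hWn.conj_mem c hcW p, N.mul_mem (N.mul_mem hpN hcN) (N.inv_mem hpN)⟩
  have hMN : W ⊓ N ≤ Subgroup.normalizer (P : Set X) := by
    rw [← hNdef]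
    exact inf_le_right
  have hPW : P ≤ W := by
    rcases Cfsg.Agent.SignalizersComponents.StandardTools.le_or_le_centralizer hP.1 hMN hPnM with h | h
    · exact h.trans inf_le_left
    · exfalso
      apply huC
      rw [← hCdef] at h
      have h4 : t * u ∈ C := h ⟨htuW, N.mul_mem (hCN htP) (hSNN huS)⟩
      have h5 : t⁻¹ * (t * u) ∈ C := C.mul_mem (C.inv_mem htP) h4
      rwa [inv_mul_cancel_left] at h5
  refine ⟨Subgroup.commutator_eq_bot_iff_le_centralizer.2 hPW, ?_⟩
  intro L hL hPL
  subst hK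
  set K := Cfsg.oddCore X with hK
  set π := QuotientGroup.mk' K with hπ
  have hπker : π.ker = K := QuotientGroup.ker_mk' K
  have hLcomp : IsComponent (L.map π) := hL.2.1
  have hLW : L ≤ W := by
    have hsub : (L ⊓ W).IsSubnormal := hL.1.inf hWn.isSubnormal
    have hsub' : ((L ⊓ W).map π).IsSubnormal := hsub.map (QuotientGroup.mk'_surjective K)
    rcases Cfsg.Agent.SignalizersComponents.Components.component_le_or_commutator_eq_bot
      hLcomp hsub' with h | h
    · have h4 := hL.2.2 (L ⊓ W) hsub inf_le_left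
        (le_antisymm (Subgroup.map_mono inf_le_left) h)
      rw [← h4]
      exact inf_le_right
    · exfalso
      have h5 : ⁅P.map π, P.map π⁆ = ⊥ := by
        rw [eq_bot_iff, ← h]
        exact Subgroup.commutator_mono (Subgroup.map_mono hPL) (Subgroup.map_mono (le_inf hPL hPW))
      have h6 : ⁅P, P⁆ = P := by
        have := hP.1.1
        exact Subgroup.commutator_eq_self
      rw [← Subgroup.map_commutator, h6, Subgroup.map_eq_bot_iff, hπker] at h5
      exact hPK h5
  -- `L` is quasisimple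
  have hLperf : Group.IsPerfect L :=
    Subgroup.isPerfect_iff.2 (Cfsg.Agent.Lib.PComponents.pcomp_perfect hL)
  set f : ↥L →* ↥(L.map π) := π.subgroupMap L with hf
  have hfs : Function.Surjective f := π.subgroupMap_surjective L
  have hfk : f.ker ≤ Subgroup.center L := by
    intro x hx
    have h4 : (x : X) ∈ K := by
      have h5 : π (x : X) = 1 := congrArg Subtype.val (MonoidHom.mem_ker.1 hx)
      rw [← hπker]
      exact h5
    rw [Subgroup.mem_center_iff]
    rintro ⟨y, hy⟩
    apply Subtype.ext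
    have := Subgroup.mem_centralizer_iff.1 (hLW hy) x h4
    exact this.symm
  refine ⟨hLperf, ?_⟩
  have hs := hLcomp.2.2
  set h := (QuotientGroup.mk' (Subgroup.center ↥(L.map π))).comp f with hh
  have hhs : Function.Surjective h := (QuotientGroup.mk'_surjective _).comp hfs
  have hker : h.ker = Subgroup.center L := by
    apply le_antisymm
    · have h7 : ⁅⁅h.ker, (⊤ : Subgroup L)⁆, (⊤ : Subgroup L)⁆ = ⊥ := by
        have h8 : ⁅h.ker, (⊤ : Subgroup L)⁆ ≤ Subgroup.center L := by
          rw [Subgroup.commutator_le]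
          intro x hx y _
          apply hfk
          rw [MonoidHom.mem_ker, map_commutatorElement]
          have h9 : f x ∈ Subgroup.center ↥(L.map π) := by
            have : h x = 1 := hx
            rw [hh, MonoidHom.comp_apply] at this
            exact (QuotientGroup.eq_one_iff (f x)).1 this
          rw [commutatorElement_eq_one_iff_mul_comm]
          exact (Subgroup.mem_center_iff.1 h9 (f y)).symm
        rw [Subgroup.commutator_eq_bot_iff_le_centralizer]
        intro x hx
        rw [Subgroup.mem_centralizer_iff]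
        intro y _
        exact Subgroup.mem_center_iff.1 (h8 hx) y
      have h10 := Cfsg.Agent.SignalizersComponents.Components.commutator_eq_bot_of_commutator_commutator_eq_bot
        (Group.IsPerfect.top_iff.2 hLperf) h7
      rw [Subgroup.commutator_eq_bot_iff_le_centralizer] at h10
      intro x hx
      rw [Subgroup.mem_center_iff]
      intro y
      exact Subgroup.mem_centralizer_iff.1 (h10 hx) y (Subgroup.mem_top y)
    · intro x hx
      rw [MonoidHom.mem_ker, hh, MonoidHom.comp_apply]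
      refine (QuotientGroup.eq_one_iff (f x)).2 ?_
      rw [Subgroup.mem_center_iff]
      intro y
      obtain ⟨y, rfl⟩ := hfs y
      rw [← map_mul, ← map_mul, Subgroup.mem_center_iff.1 hx y]
  have e := (QuotientGroup.quotientMulEquivOfEq hker.symm).trans
    (QuotientGroup.quotientKerEquivOfSurjective h hhs)
  exact e.isSimpleGroup

theorem result {X : Type*} [Group X] [Finite X] (P : Subgroup X) (hP : Cfsg.IsStandardSubgroup P)
    (hr : Cfsg.PRankLE 2 1 ↥(Subgroup.centralizer (P : Set X))) (hZ : Odd (Nat.card ↥(Subgroup.center ↥P)))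
    (S : Sylow 2 ↥(Subgroup.normalizer (P : Set X))) (t : X) (ht : orderOf t = 2) (htS : t ∈ (S : Subgroup ↥(Subgroup.normalizer (P : Set X))).map (Subgroup.normalizer (P : Set X)).subtype)
    (htP : t ∈ Subgroup.centralizer (P : Set X))
    (g : X) (hgN : ∀ s ∈ (S : Subgroup ↥(Subgroup.normalizer (P : Set X))).map (Subgroup.normalizer (P : Set X)).subtype, g * s * g⁻¹ ∈ (S : Subgroup ↥(Subgroup.normalizer (P : Set X))).map (Subgroup.normalizer (P : Set X)).subtype)
    (hgS : g ∉ (S : Subgroup ↥(Subgroup.normalizer (P : Set X))).map (Subgroup.normalizer (P : Set X)).subtype) (hg2 : g ^ 2 ∈ (S : Subgroup ↥(Subgroup.normalizer (P : Set X))).map (Subgroup.normalizer (P : Set X)).subtype)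
    (hgt : g * t * g⁻¹ ∈ P ⊔ Subgroup.centralizer (P : Set X)) :
    ⁅P, Cfsg.oddCore X⁆ = ⊥ ∧
      ∀ L : Subgroup X, Cfsg.IsPComponent 2 L → P ≤ L → (∀ l ∈ L, t * l * t⁻¹ ∈ L) → Cfsg.IsQuasisimple ↥L := by
  obtain ⟨h1, h2⟩ := main P hP _ rfl hr hZ _ rfl S t ht _ rfl htS htP g hgN hgS hg2 hgt _ rfl
  exact ⟨h1, fun L hL hPL _ => h2 L hL hPL⟩

end Cfsg.Agent.S3153
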