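import Cfsg.Agent.StdLThreeFour.Facts1
import Cfsg.Agent.Solvable.Gaschutz
import Cfsg.Agent.Lib.FrattiniPGroup
import Cfsg.Statements.S3154
set_option linter.all false

-- part: H298/LFour
section
/-!
# The normalizers of the two elementary abelian subgroups of order 16 of a Sylow 2-subgroup of `PSL(3,4)`

`P j ≅ SL(2,4)` complements `A j` in its normalizer.
-/

set_option autoImplicit false

namespace Cfsg.Agent.H298.LFour

open Matrix
open Cfsg.Agent.SporadicA.FieldFour
open Cfsg.Agent.ONType.Psl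
open Cfsg.Agent.ONType.PslCard
open Cfsg.Agent.StdLThreeFour.Base
open Cfsg.Agent.StdLThreeFour.Facts1

/-- `SL(2,4)` -/
abbrev SLTwo : Type := SpecialLinearGroup (Fin 2) F4

/-- an element of `SL(2,4)` -/
def mk2 (a b c d : F4) (h : a * d - b * c = 1) : SLTwo :=
  ⟨Matrix.of ![![a, b], ![c, d]], by rw [Matrix.det_fin_two]; exact h⟩

/-- block matrix -/
def mB (j : Bool) (B : Matrix (Fin 2) (Fin 2) F4) : Matrix (Fin 3) (Fin 3) F4 :=
  if j then !![B 0 0, B 0 1, 0; B 1 0, B 1 1, 0; 0, 0, 1]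
  else !![1, 0, 0; 0, B 0 0, B 0 1; 0, B 1 0, B 1 1]

theorem mB_mul (j : Bool) (B C : Matrix (Fin 2) (Fin 2) F4) : mB j (B * C) = mB j B * mB j C := by
  cases j <;> ext a b <;> fin_cases a <;> fin_cases b <;>
    simp [mB, Matrix.mul_apply, Fin.sum_univ_succ]

theorem mB_one (j : Bool) : mB j 1 = 1 := by
  cases j <;> ext a b <;> fin_cases a <;> fin_cases b <;> simp [mB]

theorem mB_det (j : Bool) (B : Matrix (Fin 2) (Fin 2) F4) : (mB j B).det = B.det := by
  cases j <;> rw [Matrix.det_fin_three, Matrix.det_fin_two] <;> simp [mB]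

/-- the embedding of `SL(2,4)` in `SL(3,4)` -/
def blk (j : Bool) : SLTwo →* SL3 where
  toFun B := ⟨mB j B.1, by rw [mB_det]; exact B.2⟩
  map_one' := Subtype.ext (mB_one j)
  map_mul' B C := Subtype.ext (mB_mul j B.1 C.1)

/-- the embedding of `SL(2,4)` in `PSL(3,4)` -/
def pj (j : Bool) : SLTwo →* L0 := (QuotientGroup.mk' (Subgroup.center SL3)).comp (blk j)

theorem pj_apply (j : Bool) (B : SLTwo) : pj j B = (QuotientGroup.mk (blk j B) : L0) := rfl

/-- an element of `A j` -/
def aj (j : Bool) (u c : F4) : L0 := if j then e 0 u c else e u 0 c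

theorem mem_A' {j : Bool} {g : L0} : g ∈ A j ↔ ∃ u c, g = aj j u c := by
  cases j <;> rfl

/-- matrix of `aj` -/
def mA (j : Bool) (u c : F4) : Matrix (Fin 3) (Fin 3) F4 := if j then um 0 u c else um u 0 c

theorem um_zero (a b c : F4) (h : a * b = 0) : um a b (a * b + c) = um a b c := by rw [h, zero_add]

/-- lift of `aj` to `SL3` -/
def Aj (j : Bool) (u c : F4) : SL3 := if j then T 0 1 0 * T 1 2 u * T 0 2 c else T 0 1 u * T 1 2 0 * T 0 2 c

theorem Aj_val (j : Bool) (u c : F4) : (Aj j u c : Matrix (Fin 3) (Fin 3) F4) = mA j u c := by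
  cases j
  · show tm 0 1 u * tm 1 2 0 * tm 0 2 c = um u 0 c
    rw [tm_prod, um_zero _ _ _ (by rw [mul_zero])]
  · show tm 0 1 0 * tm 1 2 u * tm 0 2 c = um 0 u c
    rw [tm_prod, um_zero _ _ _ (by rw [zero_mul])]

theorem aj_eq (j : Bool) (u c : F4) : aj j u c = (QuotientGroup.mk (Aj j u c) : L0) := by
  cases j <;> rfl

/-- the new coordinates of the conjugate of `aj` -/
def cu (j : Bool) (B : Matrix (Fin 2) (Fin 2) F4) (u c : F4) : F4 :=
  if j then B 1 0 * c + B 1 1 * u else u * B 1 1 + c * B 1 0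

def cc (j : Bool) (B : Matrix (Fin 2) (Fin 2) F4) (u c : F4) : F4 :=
  if j then B 0 0 * c + B 0 1 * u else u * B 0 1 + c * B 0 0

theorem mat_conj (j : Bool) (B : Matrix (Fin 2) (Fin 2) F4) (hB : B.det = 1) (u c : F4) :
    mB j B * mA j u c = mA j (cu j B u c) (cc j B u c) * mB j B := by
  rw [Matrix.det_fin_two] at hB
  have h2 : ∀ x : F4, x + x = 0 := by decide
  have h3 : ∀ x : F4, -x = x := by decide
  have key : ∀ a b c' d u c : F4, a * d - b * c' = 1 →
      (u * d + c * c') * a + (u * b + c * a) * c' = u ∧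
      (u * d + c * c') * b + (u * b + c * a) * d = c := by
    intro a b c' d u c h
    constructor
    · have : (u * d + c * c') * a + (u * b + c * a) * c' =
        u * (a * d - b * c') + (u * (b * c') + u * (b * c')) + (c * c' * a + c * c' * a) := by ring
      rw [this, h, h2, h2]; ring
    · have : (u * d + c * c') * b + (u * b + c * a) * d =
        c * (a * d - b * c') + (c * (b * c') + c * (b * c')) + (u * d * b + u * d * b) := by ring
      rw [this, h, h2, h2]; ring
  obtain ⟨k1, k2⟩ := key _ _ _ _ u c hB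
  cases j
  · ext a b
    fin_cases a <;> fin_cases b <;>
      simp [mB, mA, um, cu, cc, Matrix.mul_apply, Fin.sum_univ_succ]
    · exact k1.symm
    · exact k2.symm
  · ext a b
    fin_cases a <;> fin_cases b <;>
      simp [mB, mA, um, cu, cc, Matrix.mul_apply, Fin.sum_univ_succ]

theorem conj_aj (j : Bool) (B : SLTwo) (u c : F4) :
    pj j B * aj j u c * (pj j B)⁻¹ = aj j (cu j B.1 u c) (cc j B.1 u c) := by
  rw [mul_inv_eq_iff_eq_mul, aj_eq, aj_eq, pj_apply]
  have h : blk j B * Aj j u c = Aj j (cu j B.1 u c) (cc j B.1 u c) * blk j B := by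
    apply Subtype.ext
    show mB j B.1 * (Aj j u c : Matrix (Fin 3) (Fin 3) F4) =
      (Aj j (cu j B.1 u c) (cc j B.1 u c) : Matrix (Fin 3) (Fin 3) F4) * mB j B.1
    rw [Aj_val, Aj_val]
    exact mat_conj j B.1 B.2 u c
  exact congrArg (QuotientGroup.mk : SL3 → PSL3) h

/-- the subgroup `P j ≅ SL(2,4)` -/
def P (j : Bool) : Subgroup L0 := (pj j).range

theorem trans_aux (j : Bool) : ∀ u c : F4, ¬ (u = 0 ∧ c = 0) → ∃ a b c' d : F4,
    a * d - b * c' = 1 ∧ (if j then c' * c + d * u else u * d + c * c') = 0 ∧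
      (if j then a * c + b * u else u * b + c * a) = 1 := by
  cases j <;> decide +kernel

theorem exists_conj (j : Bool) {u c : F4} (h : ¬ (u = 0 ∧ c = 0)) :
    ∃ B : SLTwo, pj j B * aj j u c * (pj j B)⁻¹ = aj j 0 1 := by
  obtain ⟨a, b, c', d, h1, h2, h3⟩ := trans_aux j u c h
  refine ⟨mk2 a b c' d h1, ?_⟩
  rw [conj_aj]
  have e1 : cu j (mk2 a b c' d h1).1 u c = 0 := by
    refine Eq.trans ?_ h2
    cases j
    · rfl
    · rfl
  have e2 : cc j (mk2 a b c' d h1).1 u c = 1 := by
    refine Eq.trans ?_ h3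
    cases j
    · rfl
    · rfl
  rw [e1, e2]

theorem aj_zero_one (j : Bool) : aj j 0 1 = t 0 2 1 := by
  cases j <;> exact e_02 1

theorem aj_zero (j : Bool) : aj j 0 0 = 1 := by
  cases j <;> exact e_zero

theorem pj_eq_aj {j : Bool} {B : SLTwo} {u c : F4} (h : pj j B = aj j u c) : B = 1 := by
  rw [pj_apply, aj_eq, QuotientGroup.eq, Matrix.SpecialLinearGroup.mem_center_iff] at h
  obtain ⟨r, _, hr⟩ := h
  have e1 : mA j u c = mB j B.1 * Matrix.scalar (Fin 3) r := by
    rw [hr, ← Aj_val]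
    have : Aj j u c = blk j B * ((blk j B)⁻¹ * Aj j u c) := by group
    conv_lhs => rw [this]
    rfl
  have en : ∀ i k, mA j u c i k = mB j B.1 i k * r := by
    intro i k
    rw [e1]
    simp [Matrix.mul_diagonal]
  cases j
  · have e0 : (1 : F4) = 1 * r := en 0 0
    rw [one_mul] at e0
    subst e0
    apply Subtype.ext
    ext a b
    fin_cases a <;> fin_cases b
    · have := en 1 1; simpa [mA, mB, um] using this.symm
    · have := en 1 2; simpa [mA, mB, um] using this.symm
    · have := en 2 1; simpa [mA, mB, um] using this.symm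
    · have := en 2 2; simpa [mA, mB, um] using this.symm
  · have e0 : (1 : F4) = 1 * r := en 2 2
    rw [one_mul] at e0
    subst e0
    apply Subtype.ext
    ext a b
    fin_cases a <;> fin_cases b
    · have := en 0 0; simpa [mA, mB, um] using this.symm
    · have := en 0 1; simpa [mA, mB, um] using this.symm
    · have := en 1 0; simpa [mA, mB, um] using this.symm
    · have := en 1 1; simpa [mA, mB, um] using this.symm

theorem pj_injective (j : Bool) : Function.Injective (pj j) := by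
  rw [injective_iff_map_eq_one]
  intro B h
  apply pj_eq_aj (u := 0) (c := 0)
  rw [h, aj_zero]

theorem P_inf_A (j : Bool) : P j ⊓ A j = ⊥ := by
  rw [eq_bot_iff]
  rintro _ ⟨⟨B, rfl⟩, h⟩
  obtain ⟨u, c, h⟩ := mem_A'.1 h
  rw [pj_eq_aj h, map_one]
  exact Subgroup.one_mem _

theorem P_conj {j : Bool} {p a : L0} (hp : p ∈ P j) (ha : a ∈ A j) : p * a * p⁻¹ ∈ A j := by
  obtain ⟨B, rfl⟩ := hp
  obtain ⟨u, c, rfl⟩ := mem_A'.1 ha
  rw [conj_aj]
  exact mem_A'.2 ⟨_, _, rfl⟩

theorem P_le (j : Bool) : P j ≤ Subgroup.normalizer (A j : Set L0) := by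
  intro p hp
  rw [Subgroup.mem_normalizer_iff]
  intro a
  refine ⟨fun h => P_conj hp h, fun h => ?_⟩
  have := P_conj (Subgroup.inv_mem _ hp) h
  have e1 : p⁻¹ * (p * a * p⁻¹) * p⁻¹⁻¹ = a := by group
  rwa [e1] at this

theorem t_mem_P_false (b : F4) : t 1 2 b ∈ P false := by
  refine ⟨mk2 1 b 0 1 (by rw [mul_zero, mul_one, sub_zero]), ?_⟩
  rw [pj_apply]
  have h : blk false (mk2 1 b 0 1 (by rw [mul_zero, mul_one, sub_zero])) = T 1 2 b := by
    apply Subtype.ext
    show mB false (Matrix.of ![![1, b], ![0, 1]]) = tm 1 2 b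
    ext i k
    fin_cases i <;> fin_cases k <;> simp [mB, tm]
  rw [h]
  rfl

theorem t_mem_P_true (b : F4) : t 0 1 b ∈ P true := by
  refine ⟨mk2 1 b 0 1 (by rw [mul_zero, mul_one, sub_zero]), ?_⟩
  rw [pj_apply]
  have h : blk true (mk2 1 b 0 1 (by rw [mul_zero, mul_one, sub_zero])) = T 0 1 b := by
    apply Subtype.ext
    show mB true (Matrix.of ![![1, b], ![0, 1]]) = tm 0 1 b
    ext i k
    fin_cases i <;> fin_cases k <;> simp [mB, tm]
  rw [h]
  rfl

theorem S0_le (j : Bool) : S0 ≤ A j ⊔ P j := by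
  rintro _ ⟨a, b, c, rfl⟩
  cases j
  · rw [e_split]
    refine Subgroup.mul_mem _ (le_sup_left (α := Subgroup L0) (eA_false a c)) ?_
    rw [e_12]
    exact le_sup_right (α := Subgroup L0) (t_mem_P_false b)
  · have h : e a b c = e 0 b (c + a * b) * e a 0 0 := by
      rw [e_mul]
      have : ∀ a b c : F4, a = 0 + a ∧ b = b + 0 ∧ c = a * b + (c + a * b) + 0 := by decide +kernel
      obtain ⟨h1, h2, h3⟩ := this a b c
      rw [← h3, ← h1, ← h2]
    rw [h]
    refine Subgroup.mul_mem _ (le_sup_left (α := Subgroup L0) (eA_true _ _)) ?_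
    rw [e_01]
    exact le_sup_right (α := Subgroup L0) (t_mem_P_true a)

theorem normalizer_eq (j : Bool) : Subgroup.normalizer (A j : Set L0) = A j ⊔ P j := by
  apply le_antisymm
  · intro g hg
    have h1 : aj j 0 1 ∈ A j := mem_A'.2 ⟨0, 1, rfl⟩
    have h2 : g * aj j 0 1 * g⁻¹ ∈ A j := (Subgroup.mem_normalizer_iff.1 hg _).1 h1
    obtain ⟨u, c, h3⟩ := mem_A'.1 h2
    have hne : ¬ (u = 0 ∧ c = 0) := by
      rintro ⟨rfl, rfl⟩
      rw [aj_zero, mul_inv_eq_iff_eq_mul, one_mul] at h3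
      have h4 : aj j 0 1 = 1 := by
        have := mul_left_cancel (h3.trans (mul_one g).symm)
        exact this
      rw [aj_zero_one, ← e_02] at h4
      have := (e_one h4).2.2
      revert this
      decide
    obtain ⟨B, hB⟩ := exists_conj j hne
    have h5 : (pj j B * g) * t 0 2 1 = t 0 2 1 * (pj j B * g) := by
      rw [← aj_zero_one j, ← mul_inv_eq_iff_eq_mul]
      rw [← h3] at hB
      calc pj j B * g * aj j 0 1 * (pj j B * g)⁻¹
          = pj j B * (g * aj j 0 1 * g⁻¹) * (pj j B)⁻¹ := by group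
        _ = aj j 0 1 := hB
    have h6 := S0_le j (cent_t02' (c := 1) (by decide) h5)
    have h7 : (pj j B)⁻¹ * (pj j B * g) ∈ A j ⊔ P j :=
      Subgroup.mul_mem _ (Subgroup.inv_mem _ (le_sup_right (α := Subgroup L0) ⟨B, rfl⟩)) h6
    rwa [inv_mul_cancel_left] at h7
  · exact sup_le Subgroup.le_normalizer (P_le j)

theorem center_SLTwo : Subgroup.center SLTwo = ⊥ := by
  rw [eq_bot_iff]
  intro x hx
  rw [Matrix.SpecialLinearGroup.mem_center_iff] at hx
  obtain ⟨r, hr, hx⟩ := hx
  have h1 : ∀ r : F4, r ^ 2 = 1 → r = 1 := by decide +kernel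
  have h2 : r = 1 := h1 r (by simpa using hr)
  rw [Subgroup.mem_bot]
  apply Subtype.ext
  rw [← hx, h2]
  simp

/-- `P j ≅ PSL(2,4)` -/
theorem nonempty_equiv (j : Bool) : Nonempty (P j ≃* ProjectiveSpecialLinearGroup (Fin 2) F4) := by
  have e1 : SLTwo ≃* P j := MonoidHom.ofInjective (pj_injective j)
  have e2 : ProjectiveSpecialLinearGroup (Fin 2) F4 ≃* SLTwo :=
    (QuotientGroup.quotientMulEquivOfEq center_SLTwo).trans QuotientGroup.quotientBot
  exact ⟨e1.symm.trans e2.symm⟩

end Cfsg.Agent.H298.LFour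
end

-- part: H298/LFourCover
section
/-!
# Central extensions of `PSL(3,4)` by groups of exponent two: the preimages of the `A j`
-/

set_option autoImplicit false

namespace Cfsg.Agent.H298.LFourCover

open Matrix
open Cfsg.Agent.SporadicA.FieldFour
open Cfsg.Agent.ONType.Psl
open Cfsg.Agent.ONType.PslCard
open Cfsg.Agent.StdLThreeFour.Base
open Cfsg.Agent.StdLThreeFour.Facts1
open Cfsg.Agent.H298.LFour

/-- complements of a common normal subgroup are isomorphic -/
theorem compl_equiv {G : Type*} [Group G] (A P R : Subgroup G) (hP : P ⊓ A = ⊥) (hR : R ⊓ A = ⊥)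
    (hn : A ⊔ P ≤ Subgroup.normalizer (A : Set G)) (h : A ⊔ P = A ⊔ R) : Nonempty (P ≃* R) := by
  have key2 : ∀ (Q : Subgroup G), A ⊔ Q = A ⊔ P → Q ⊓ A = ⊥ →
      ∃ hA : (A.subgroupOf (A ⊔ P)).Normal,
        Nonempty ((↥(A ⊔ P) ⧸ A.subgroupOf (A ⊔ P)) ≃* Q) := by
    intro Q hQ hQA
    have hA : (A.subgroupOf (A ⊔ P)).Normal := Subgroup.normal_subgroupOf_of_le_normalizer hn
    refine ⟨hA, ?_⟩
    have hQle : Q ≤ A ⊔ P := hQ ▸ le_sup_right
    have hdisj : Disjoint (Q.subgroupOf (A ⊔ P)) (A.subgroupOf (A ⊔ P)) := by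
      rw [disjoint_iff]
      have h1 : (Q ⊓ A).subgroupOf (A ⊔ P) = Q.subgroupOf (A ⊔ P) ⊓ A.subgroupOf (A ⊔ P) :=
        Subgroup.comap_inf _ _ _
      rw [← h1, hQA]
      exact Subgroup.bot_subgroupOf _
    have hsup : Q.subgroupOf (A ⊔ P) ⊔ A.subgroupOf (A ⊔ P) = ⊤ := by
      rw [← Subgroup.subgroupOf_sup hQle le_sup_left, sup_comm Q A, hQ, Subgroup.subgroupOf_self]
    have hc : (Q.subgroupOf (A ⊔ P)).IsComplement' (A.subgroupOf (A ⊔ P)) := by
      apply Subgroup.isComplement'_of_disjoint_and_mul_eq_univ hdisj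
      rw [← Subgroup.mul_normal, hsup]
      rfl
    exact ⟨hc.QuotientMulEquiv.trans (Subgroup.subgroupOfEquivOfLe hQle)⟩
  obtain ⟨_, ⟨e1⟩⟩ := key2 P rfl hP
  obtain ⟨_, ⟨e2⟩⟩ := key2 R h.symm hR
  exact ⟨e1.symm.trans e2⟩

section

variable {X : Type*} [Group X] {π : X →* L0}

theorem sq_const (hs : Function.Surjective π) (hk : π.ker = Subgroup.center X)
    (hz : ∀ z ∈ Subgroup.center X, z * z = 1) {x y : X} (hx : π x ≠ 1) (hx2 : π x * π x = 1)
    (hy : π y ≠ 1) (hy2 : π y * π y = 1) : x * x = y * y := by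
  obtain ⟨l1, h1⟩ := inv_conj hx hx2
  obtain ⟨l2, h2⟩ := inv_conj hy hy2
  obtain ⟨g, hg⟩ := hs (l2⁻¹ * l1)
  have h3 : π (g * x * g⁻¹) = π y := by
    rw [map_mul, map_mul, map_inv, hg]
    have h4 : l1 * π x * l1⁻¹ = l2 * π y * l2⁻¹ := h1.trans h2.symm
    calc l2⁻¹ * l1 * π x * (l2⁻¹ * l1)⁻¹ = l2⁻¹ * (l1 * π x * l1⁻¹) * l2 := by group
      _ = π y := by rw [h4]; group
  set z := y⁻¹ * (g * x * g⁻¹) with hzdef
  have hzc : z ∈ Subgroup.center X := by
    rw [← hk, MonoidHom.mem_ker, hzdef, map_mul, h3, map_inv, inv_mul_cancel]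
  have h5 : g * x * g⁻¹ = y * z := by rw [hzdef]; group
  have h6 : z * y = y * z := (Subgroup.mem_center_iff.1 hzc y).symm
  have h7 : g * x * g⁻¹ * (g * x * g⁻¹) = y * y := by
    rw [h5]
    calc y * z * (y * z) = y * (z * y) * z := by group
      _ = y * y * (z * z) := by rw [h6]; group
      _ = y * y := by rw [hz z hzc, mul_one]
  have h8 : x * x ∈ Subgroup.center X := by
    rw [← hk, MonoidHom.mem_ker, map_mul, hx2]
  have h9 : g * (x * x) = (x * x) * g := Subgroup.mem_center_iff.1 h8 g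
  calc x * x = (x * x) * g * g⁻¹ := by group
    _ = g * (x * x) * g⁻¹ := by rw [h9]
    _ = g * x * g⁻¹ * (g * x * g⁻¹) := by group
    _ = y * y := h7

theorem aj_mul (j : Bool) (u c u' c' : F4) : aj j u c * aj j u' c' = aj j (u + u') (c + c') := by
  cases j
  · show e u 0 c * e u' 0 c' = e (u + u') 0 (c + c')
    rw [e_mul]
    have : ∀ u' c c' : F4, (0 : F4) + 0 = 0 ∧ u' * 0 + c + c' = c + c' := by decide
    rw [(this u' c c').1, (this u' c c').2]
  · show e 0 u c * e 0 u' c' = e 0 (u + u') (c + c')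
    rw [e_mul]
    have : ∀ u c c' : F4, (0 : F4) + 0 = 0 ∧ 0 * u + c + c' = c + c' := by decide
    rw [(this u c c').1, (this u c c').2]

theorem aj_ne_one {j : Bool} {u c : F4} (h : ¬ (u = 0 ∧ c = 0)) : aj j u c ≠ 1 := by
  intro h1
  apply h
  cases j
  · exact ⟨(e_one h1).1, (e_one h1).2.2⟩
  · exact ⟨(e_one h1).2.1, (e_one h1).2.2⟩

/-- **the preimage of `A j` has exponent two** -/
theorem sq_eq_one (hs : Function.Surjective π) (hk : π.ker = Subgroup.center X)
    (hz : ∀ z ∈ Subgroup.center X, z * z = 1) (j : Bool) {h : X} (hh : h ∈ (A j).comap π) :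
    h * h = 1 := by
  obtain ⟨p, hp⟩ := hs (aj j 0 1)
  obtain ⟨q, hq⟩ := hs (aj j 0 ω)
  obtain ⟨r, hr⟩ := hs (aj j 1 0)
  have hpA : p ∈ (A j).comap π := by rw [Subgroup.mem_comap, hp]; exact mem_A'.2 ⟨_, _, rfl⟩
  have hqA : q ∈ (A j).comap π := by rw [Subgroup.mem_comap, hq]; exact mem_A'.2 ⟨_, _, rfl⟩
  have hrA : r ∈ (A j).comap π := by rw [Subgroup.mem_comap, hr]; exact mem_A'.2 ⟨_, _, rfl⟩
  have hp1 : π p ≠ 1 := by rw [hp]; exact aj_ne_one (by decide)
  have hq1 : π q ≠ 1 := by rw [hq]; exact aj_ne_one (by decide)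
  have hr1 : π r ≠ 1 := by rw [hr]; exact aj_ne_one (by decide)
  have hpq1 : π (p * q) ≠ 1 := by rw [map_mul, hp, hq, aj_mul]; exact aj_ne_one (by decide)
  have hpr1 : π (p * r) ≠ 1 := by rw [map_mul, hp, hr, aj_mul]; exact aj_ne_one (by decide)
  have hqr1 : π (q * r) ≠ 1 := by rw [map_mul, hq, hr, aj_mul]; exact aj_ne_one (by decide)
  have hpqr1 : π (p * (q * r)) ≠ 1 := by
    rw [map_mul, map_mul, hp, hq, hr, aj_mul, aj_mul]; exact aj_ne_one (by decide)
  have hsq : ∀ x ∈ (A j).comap π, π x * π x = 1 := fun x hx => sq_of_mem_A hx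
  set c := p * p with hc
  have hcc : c ∈ Subgroup.center X := by
    rw [← hk, MonoidHom.mem_ker, hc, map_mul]
    exact hsq p hpA
  have hc2 : c * c = 1 := hz c hcc
  have hcomm : ∀ x : X, x * c = c * x := fun x => Subgroup.mem_center_iff.1 hcc x
  have hx2 : ∀ x ∈ (A j).comap π, π x ≠ 1 → x * x = c := fun x hx h1 =>
    sq_const hs hk hz h1 (hsq x hx) hp1 (hsq p hpA)
  have key : ∀ x ∈ (A j).comap π, ∀ y ∈ (A j).comap π, π x ≠ 1 → π y ≠ 1 → π (x * y) ≠ 1 →
      x * y = c * (y * x) := by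
    intro x hx y hy h1 h2 h3
    set k := x * y * x⁻¹ * y⁻¹ with hkdef
    have hkc : k ∈ Subgroup.center X := by
      rw [← hk, MonoidHom.mem_ker, hkdef, map_mul, map_mul, map_mul, map_inv, map_inv]
      rw [A_comm hx hy]
      group
    have e1 : x * y = k * (y * x) := by rw [hkdef]; group
    have e2 : x * y * (x * y) = c := hx2 _ (Subgroup.mul_mem _ hx hy) h3
    have e3 : x * y * (x * y) = k := by
      calc x * y * (x * y) = k * (y * x) * (x * y) := by rw [← e1]
        _ = k * (y * (x * x) * y) := by group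
        _ = k * ((y * c) * y) := by rw [hx2 x hx h1]
        _ = k * (c * (y * y)) := by rw [hcomm]; group
        _ = k := by rw [hx2 y hy h2, hc2, mul_one]
    rw [e1, ← e3, e2]
  have hc1 : c = 1 := by
    have e1 := key p hpA q hqA hp1 hq1 hpq1
    have e2 := key p hpA r hrA hp1 hr1 hpr1
    have e3 := key p hpA (q * r) (Subgroup.mul_mem _ hqA hrA) hp1 hqr1 hpqr1
    have e4 : p * (q * r) = q * r * p := by
      calc p * (q * r) = p * q * r := by group
        _ = c * (q * p) * r := by rw [e1]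
        _ = (c * q) * (p * r) := by group
        _ = (q * c) * (c * (r * p)) := by rw [e2, hcomm q]
        _ = q * (c * c) * (r * p) := by group
        _ = q * r * p := by rw [hc2]; group
    have e5 : c * (q * r * p) = 1 * (q * r * p) := by rw [← e3, e4, one_mul]
    exact mul_right_cancel e5
  by_cases h1 : π h = 1
  · apply hz
    rw [← hk]
    exact h1
  · rw [hx2 h hh h1, hc1]

theorem comm_of_sq {H : Subgroup X} (h : ∀ x ∈ H, x * x = 1) : ∀ x ∈ H, ∀ y ∈ H, x * y = y * x := by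
  intro x hx y hy
  have h1 := h _ (H.mul_mem hx hy)
  have h2 := h x hx
  have h3 := h y hy
  calc x * y = x * (x * y * (x * y)) * y := by rw [h1]; group
    _ = (x * x) * (y * x) * (y * y) := by group
    _ = y * x := by rw [h2, h3]; group

/-- **the centre of the preimage of `S0`** -/
theorem mem_comap_Z0 {x : X} (hs : Function.Surjective π) (hx : x ∈ S0.comap π)
    (hc : ∀ y ∈ S0.comap π, x * y = y * x) : x ∈ Z0.comap π := by
  obtain ⟨a, b, c, h⟩ := hx
  rw [Subgroup.mem_comap, h, mem_Z0_iff]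
  obtain ⟨y1, h1⟩ := hs (e 1 0 0)
  obtain ⟨y2, h2⟩ := hs (e 0 1 0)
  have e1 := congrArg π (hc y1 (by rw [Subgroup.mem_comap, h1]; exact e_mem _ _ _))
  have e2 := congrArg π (hc y2 (by rw [Subgroup.mem_comap, h2]; exact e_mem _ _ _))
  rw [map_mul, map_mul, h, h1, comm_iff] at e1
  rw [map_mul, map_mul, h, h2, comm_iff] at e2
  constructor
  · simpa using e2
  · simpa using e1

/-- **The normalizer of the preimage of `A j` splits.** -/
theorem exists_compl [Finite X] (hs : Function.Surjective π) (hk : π.ker = Subgroup.center X)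
    (hz : ∀ z ∈ Subgroup.center X, z * z = 1) (j : Bool) :
    ∃ C : Subgroup X, C ≤ Subgroup.normalizer ((A j).comap π : Set X) ∧ C ⊓ (A j).comap π = ⊥ ∧
      (A j).comap π ⊔ C = Subgroup.normalizer ((A j).comap π : Set X) ∧
      Nonempty (C ≃* ProjectiveSpecialLinearGroup (Fin 2) F4) := by
  have hker : ∀ B : Subgroup L0, π.ker ≤ B.comap π := fun B x hx => by
    rw [Subgroup.mem_comap, MonoidHom.mem_ker.1 hx]; exact B.one_mem
  set N := Subgroup.normalizer ((A j).comap π : Set X) with hN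
  have hN' : (Subgroup.normalizer (A j : Set L0)).comap π = N :=
    Subgroup.comap_normalizer_eq_of_surjective (A j) hs
  have hHN : (A j).comap π ≤ N := Subgroup.le_normalizer
  have hSN : S0.comap π ≤ N := by
    rw [← hN']
    apply Subgroup.comap_mono
    rw [normalizer_eq]
    exact S0_le j
  have hKS : (A (!j)).comap π ≤ S0.comap π := Subgroup.comap_mono (A_le _)
  have hHS : (A j).comap π ≤ S0.comap π := Subgroup.comap_mono (A_le _)
  -- complement in the Sylow subgroup
  obtain ⟨K0, hK0, hK0i, hK0s⟩ : ∃ K0 : Subgroup X, K0 ≤ (A (!j)).comap π ∧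
      K0 ⊓ (A j).comap π = ⊥ ∧ (A j).comap π ⊔ K0 = S0.comap π := by
    have h1 : ∀ x ∈ (A (!j)).comap π, x * x = 1 := fun x hx => sq_eq_one hs hk hz _ hx
    have h2 := comm_of_sq h1
    obtain ⟨K, hK⟩ := Cfsg.Agent.Lib.FrattiniPGroup.exists_isCompl_of_elementary (p := 2)
      (V := ↥((A (!j)).comap π)) (fun a b => Subtype.ext (h2 a.1 a.2 b.1 b.2))
      (fun a => Subtype.ext (by rw [Subgroup.coe_pow, pow_two]; exact h1 a.1 a.2))
      (((A j).comap π).subgroupOf ((A (!j)).comap π))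
    refine ⟨K.map (Subgroup.subtype _), Subgroup.map_subtype_le K, ?_, ?_⟩
    · rw [eq_bot_iff]
      rintro _ ⟨⟨x, hx, rfl⟩, hx2⟩
      have h3 : x ∈ ((A j).comap π).subgroupOf ((A (!j)).comap π) ⊓ K := ⟨hx2, hx⟩
      rw [disjoint_iff.1 hK.disjoint, Subgroup.mem_bot] at h3
      rw [h3]
      exact Subgroup.one_mem _
    · have h3 : (A (!j)).comap π ≤ (A j).comap π ⊔ K.map (Subgroup.subtype _) := by
        intro x hx
        have h4 : (⟨x, hx⟩ : ↥((A (!j)).comap π)) ∈
            ((A j).comap π).subgroupOf ((A (!j)).comap π) ⊔ K := by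
          rw [codisjoint_iff.1 hK.codisjoint]; trivial
        have h5 := Subgroup.mem_map_of_mem (Subgroup.subtype _) h4
        rw [Subgroup.map_sup] at h5
        have h6 : (((A j).comap π).subgroupOf ((A (!j)).comap π)).map (Subgroup.subtype _) ≤
            (A j).comap π := by
          rw [Subgroup.subgroupOf_map_subtype]
          exact inf_le_left
        exact (sup_le_sup h6 (le_refl _) :
          (((A j).comap π).subgroupOf ((A (!j)).comap π)).map (Subgroup.subtype _) ⊔
            K.map (Subgroup.subtype _) ≤ (A j).comap π ⊔ K.map (Subgroup.subtype _)) h5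
      apply le_antisymm
      · exact sup_le hHS ((Subgroup.map_subtype_le K).trans hKS)
      · have h6 : (A j).comap π ⊔ (A (!j)).comap π = S0.comap π := by
          have h7 : A j ⊔ A (!j) = S0 := by
            cases j
            · exact A_sup
            · rw [sup_comm]; exact A_sup
          rw [← h7]
          exact (Subgroup.comap_sup_eq_of_le_range π
            (by rw [MonoidHom.range_eq_top.2 hs]; exact le_top)
            (by rw [MonoidHom.range_eq_top.2 hs]; exact le_top))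
        rw [← h6]
        exact sup_le le_sup_left h3
  -- Gaschütz
  have hn : (((A j).comap π).subgroupOf N).Normal := Subgroup.normal_in_normalizer
  have hc : IsMulCommutative (((A j).comap π).subgroupOf N) := by
    refine ⟨⟨?_⟩⟩
    rintro ⟨⟨a, ha⟩, ha'⟩ ⟨⟨b, hb⟩, hb'⟩
    apply Subtype.ext
    apply Subtype.ext
    exact comm_of_sq (fun x hx => sq_eq_one hs hk hz j hx) a ha' b hb'
  have hidx : ¬ 2 ∣ ((S0.comap π).subgroupOf N).index := by
    intro h
    have h1 : (S0.comap π).relIndex N * N.index = (S0.comap π).index :=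
      Subgroup.relIndex_mul_index hSN
    have h2 : (S0.comap π).index = S0.index := Subgroup.index_comap_of_surjective _ hs
    have h3 : 2 ∣ (S0.comap π).relIndex N := h
    have h4 : 2 ∣ S0.index := by rw [← h2, ← h1]; exact Dvd.dvd.mul_right h3 _
    exact index_odd h4
  have hbij : Function.Bijective fun k : ↥(((A j).comap π).subgroupOf N) =>
      k ^ ((S0.comap π).subgroupOf N).index := by
    have h1 : (fun k : ↥(((A j).comap π).subgroupOf N) =>
        k ^ ((S0.comap π).subgroupOf N).index) = id := by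
      funext k
      have hk2 : k ^ 2 = 1 := by
        apply Subtype.ext
        apply Subtype.ext
        simp only [Subgroup.coe_pow, OneMemClass.coe_one]
        rw [pow_two]
        exact sq_eq_one hs hk hz j k.2
      obtain ⟨m, hm⟩ : ∃ m, ((S0.comap π).subgroupOf N).index = 2 * m + 1 :=
        ⟨((S0.comap π).subgroupOf N).index / 2, by omega⟩
      rw [hm, pow_add, pow_mul, hk2, one_pow, one_mul, pow_one]
      rfl
    rw [h1]
    exact Function.bijective_id
  obtain ⟨C, hC⟩ := Cfsg.Agent.Solvable.Gaschutz.exists_complement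
    (((A j).comap π).subgroupOf N) ((S0.comap π).subgroupOf N) hbij (K0.subgroupOf N)
    (by
      have h1 : (K0 ⊓ (A j).comap π).subgroupOf N =
          K0.subgroupOf N ⊓ ((A j).comap π).subgroupOf N := Subgroup.comap_inf _ _ _
      rw [← h1, hK0i]
      exact Subgroup.bot_subgroupOf _)
    (by
      rw [← Subgroup.subgroupOf_sup hHN ((hK0.trans hKS).trans hSN), hK0s])
  have hCi : C.map N.subtype ⊓ (A j).comap π = ⊥ := by
    rw [eq_bot_iff]
    rintro _ ⟨⟨x, hx, rfl⟩, hx2⟩
    have h3 : x ∈ ((A j).comap π).subgroupOf N ⊓ C := ⟨hx2, hx⟩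
    rw [disjoint_iff.1 hC.disjoint, Subgroup.mem_bot] at h3
    rw [h3]
    exact Subgroup.one_mem _
  have hCs : (A j).comap π ⊔ C.map N.subtype = N := by
    have h1 := hC.sup_eq_top
    have h2 := congrArg (Subgroup.map N.subtype) h1
    rw [Subgroup.map_sup, Subgroup.subgroupOf_map_subtype, inf_eq_left.2 hHN] at h2
    rw [h2, ← MonoidHom.range_eq_map, Subgroup.range_subtype]
  refine ⟨C.map N.subtype, Subgroup.map_subtype_le C, hCi, hCs, ?_⟩
  -- the isomorphism type
  set D := C.map N.subtype with hD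
  have hinj : Function.Injective (π.comp D.subtype) := by
    rw [injective_iff_map_eq_one]
    rintro ⟨x, hx⟩ h1
    have h2 : x ∈ D ⊓ (A j).comap π := by
      refine ⟨hx, ?_⟩
      have : π x = 1 := h1
      refine Subgroup.mem_comap.2 ?_
      rw [this]
      exact Subgroup.one_mem _
    rw [hCi, Subgroup.mem_bot] at h2
    exact Subtype.ext h2
  have e1 : D ≃* (π.comp D.subtype).range := MonoidHom.ofInjective hinj
  have hrange : (π.comp D.subtype).range = D.map π := by
    rw [MonoidHom.range_comp, Subgroup.range_subtype]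
  have hmap : A j ⊔ D.map π = A j ⊔ P j := by
    rw [← normalizer_eq]
    have h1 : (N.map π) = Subgroup.normalizer (A j : Set L0) := by
      rw [← hN', Subgroup.map_comap_eq_self_of_surjective hs]
    rw [← h1, ← hCs, Subgroup.map_sup, Subgroup.map_comap_eq_self_of_surjective hs]
  have hDA : D.map π ⊓ A j = ⊥ := by
    rw [eq_bot_iff]
    rintro _ ⟨⟨x, hx, rfl⟩, hx2⟩
    have h2 : x ∈ D ⊓ (A j).comap π := ⟨hx, hx2⟩
    rw [hCi, Subgroup.mem_bot] at h2
    rw [h2, map_one]
    exact Subgroup.one_mem _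
  obtain ⟨e2⟩ := compl_equiv (A j) (P j) (D.map π) (P_inf_A j) hDA
    (by rw [← normalizer_eq]) hmap.symm
  obtain ⟨e3⟩ := nonempty_equiv j
  exact ⟨(e1.trans (MulEquiv.subgroupCongr hrange)).trans (e2.symm.trans e3)⟩

end

end Cfsg.Agent.H298.LFourCover
end

-- part: S3154
section
set_option autoImplicit false
open Cfsg

namespace Cfsg.Agent.S3154

open Cfsg.Agent.SporadicA.FieldFour
open Cfsg.Agent.StdLThreeFour.Base
open Cfsg.Agent.StdLThreeFour.Facts1
open Cfsg.Agent.H298.LFour
open Cfsg.Agent.H298.LFourCover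

theorem part {X : Type*} [Group X] [Finite X] {F : Type*} [Field F] [Fintype F] (hF : Fintype.card F = 4)
    {π : X →* L0} (hs : Function.Surjective π) (hk : π.ker = Subgroup.center X)
    (hz : ∀ z ∈ Subgroup.center X, z * z = 1) {H : Subgroup X} {j : Bool} (hH : H = (A j).comap π) :
    Cfsg.IsElementaryAbelian 2 H ∧
      (∃ C : Subgroup X, C ≤ Subgroup.normalizer (H : Set X) ∧ C ⊓ H = ⊥ ∧ H ⊔ C = Subgroup.normalizer (H : Set X) ∧
        Nonempty (↥C ≃* Matrix.ProjectiveSpecialLinearGroup (Fin 2) F)) := by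
  subst hH
  refine ⟨⟨⟨⟨?_⟩⟩, ?_⟩, ?_⟩
  · rintro ⟨a, ha⟩ ⟨b, hb⟩
    exact Subtype.ext (comm_of_sq (fun x hx => sq_eq_one hs hk hz j hx) a ha b hb)
  · intro a ha
    rw [pow_two]
    exact sq_eq_one hs hk hz j ha
  · obtain ⟨C, h1, h2, h3, ⟨e⟩⟩ := exists_compl hs hk hz j
    obtain ⟨e'⟩ := nonempty_psl_equiv (n := Fin 2) F hF
    exact ⟨C, h1, h2, h3, ⟨e.trans e'⟩⟩

theorem inf_eq {X : Type*} [Group X] [Finite X]
    {π : X →* L0} (hs : Function.Surjective π) (hk : π.ker = Subgroup.center X)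
    (hz : ∀ z ∈ Subgroup.center X, z * z = 1) (j : Bool) :
    (A j).comap π ⊓ (A (!j)).comap π =
      (Subgroup.center ↥((A j).comap π ⊔ (A (!j)).comap π)).map
        ((A j).comap π ⊔ (A (!j)).comap π).subtype := by
  have h6 : (A j).comap π ⊔ (A (!j)).comap π = S0.comap π := by
    have h7 : A j ⊔ A (!j) = S0 := by
      cases j
      · exact A_sup
      · rw [sup_comm]; exact A_sup
    rw [← h7]
    exact (Subgroup.comap_sup_eq_of_le_range π
      (by rw [MonoidHom.range_eq_top.2 hs]; exact le_top)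
      (by rw [MonoidHom.range_eq_top.2 hs]; exact le_top))
  have hinf : A j ⊓ A (!j) = Z0 := by
    cases j
    · exact A_inf
    · rw [inf_comm]; exact A_inf
  have hcommj : ∀ i, ∀ x ∈ (A i).comap π, ∀ y ∈ (A i).comap π, x * y = y * x := fun i =>
    comm_of_sq (fun x hx => sq_eq_one hs hk hz i hx)
  apply le_antisymm
  · rintro x ⟨hx1, hx2⟩
    have hx : x ∈ (A j).comap π ⊔ (A (!j)).comap π := le_sup_left (α := Subgroup X) hx1
    refine ⟨⟨x, hx⟩, ?_, rfl⟩
    have h1 : (A j).comap π ⊔ (A (!j)).comap π ≤ Subgroup.centralizer ({x} : Set X) := by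
      apply sup_le
      · intro y hy
        rw [Subgroup.mem_centralizer_iff]
        rintro _ rfl
        exact hcommj j _ hx1 y hy
      · intro y hy
        rw [Subgroup.mem_centralizer_iff]
        rintro _ rfl
        exact hcommj (!j) _ hx2 y hy
    rw [SetLike.mem_coe, Subgroup.mem_center_iff]
    rintro ⟨y, hy⟩
    apply Subtype.ext
    exact (Subgroup.mem_centralizer_iff.1 (h1 hy) x rfl).symm
  · rintro _ ⟨⟨x, hx⟩, hxc, rfl⟩
    rw [SetLike.mem_coe, Subgroup.mem_center_iff] at hxc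
    have hx' : x ∈ S0.comap π := h6 ▸ hx
    have h2 := mem_comap_Z0 hs hx' (fun y hy => by
      have hy' : y ∈ (A j).comap π ⊔ (A (!j)).comap π := h6.symm ▸ hy
      exact (congrArg Subtype.val (hxc ⟨y, hy'⟩)).symm)
    have h3 : x ∈ (A j ⊓ A (!j)).comap π := by rw [hinf]; exact h2
    exact h3

theorem result {X : Type*} [Group X] [Finite X] (hq : Cfsg.IsQuasisimple X) (hZ : Cfsg.IsElementaryAbelian 2 (Subgroup.center X))
    {F : Type*} [Field F] [Fintype F] (hF : Fintype.card F = 4) (hXL : Nonempty ((X ⧸ Subgroup.center X) ≃* Matrix.ProjectiveSpecialLinearGroup (Fin 3) F))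
    (T : Sylow 2 X) (H K : Subgroup X) (hHK : H ≠ K) (hHT : H ≤ T) (hKT : K ≤ T) (hZH : Subgroup.center X ≤ H) (hZK : Subgroup.center X ≤ K)
    (hH : Cfsg.IsElementaryAbelian 2 (H.map (QuotientGroup.mk' (Subgroup.center X))) ∧ Nat.card ↥(H.map (QuotientGroup.mk' (Subgroup.center X))) = 16)
    (hK : Cfsg.IsElementaryAbelian 2 (K.map (QuotientGroup.mk' (Subgroup.center X))) ∧ Nat.card ↥(K.map (QuotientGroup.mk' (Subgroup.center X))) = 16) :
    Cfsg.IsElementaryAbelian 2 H ∧ Cfsg.IsElementaryAbelian 2 K ∧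
      H ⊓ K = (Subgroup.center ↥(H ⊔ K)).map (H ⊔ K).subtype ∧
      (∃ C : Subgroup X, C ≤ Subgroup.normalizer (H : Set X) ∧ C ⊓ H = ⊥ ∧ H ⊔ C = Subgroup.normalizer (H : Set X) ∧
        Nonempty (↥C ≃* Matrix.ProjectiveSpecialLinearGroup (Fin 2) F)) ∧
      (∃ C : Subgroup X, C ≤ Subgroup.normalizer (K : Set X) ∧ C ⊓ K = ⊥ ∧ K ⊔ C = Subgroup.normalizer (K : Set X) ∧
        Nonempty (↥C ≃* Matrix.ProjectiveSpecialLinearGroup (Fin 2) F)) := by
  obtain ⟨e⟩ := hXL
  obtain ⟨e'⟩ := nonempty_psl_equiv (n := Fin 3) F hF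
  have hz : ∀ z ∈ Subgroup.center X, z * z = 1 := fun z hz => by
    have := hZ.2 z hz
    rwa [pow_two] at this
  set E : (X ⧸ Subgroup.center X) ≃* L0 := e.trans e'.symm with hE
  set π₀ : X →* L0 := E.toMonoidHom.comp (QuotientGroup.mk' (Subgroup.center X)) with hπ₀
  obtain ⟨l, hl⟩ := exists_conj_S0 (P := (T : Subgroup X).map π₀) (T.2.map π₀)
  set E' : (X ⧸ Subgroup.center X) ≃* L0 := E.trans (MulAut.conj l) with hE'
  set π : X →* L0 := E'.toMonoidHom.comp (QuotientGroup.mk' (Subgroup.center X)) with hπ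
  have hs : Function.Surjective π := E'.surjective.comp (QuotientGroup.mk'_surjective _)
  have hk : π.ker = Subgroup.center X := by
    ext x
    rw [MonoidHom.mem_ker]
    constructor
    · intro h
      have h1 : E' (QuotientGroup.mk' (Subgroup.center X) x) = 1 := h
      rw [map_eq_one_iff E' E'.injective] at h1
      exact (QuotientGroup.eq_one_iff x).1 h1
    · intro h
      have h1 : QuotientGroup.mk' (Subgroup.center X) x = 1 := (QuotientGroup.eq_one_iff x).2 h
      rw [hπ, MonoidHom.comp_apply, h1, map_one]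
  have hTS : (T : Subgroup X) ≤ S0.comap π := fun x hx => hl (π₀ x) ⟨x, hx, rfl⟩
  have key : ∀ H : Subgroup X, H ≤ T → Subgroup.center X ≤ H →
      (Cfsg.IsElementaryAbelian 2 (H.map (QuotientGroup.mk' (Subgroup.center X))) ∧
        Nat.card ↥(H.map (QuotientGroup.mk' (Subgroup.center X))) = 16) →
      ∃ j, H = (A j).comap π := by
    intro H hHT hZH hH
    have h1 : H.map π = (H.map (QuotientGroup.mk' (Subgroup.center X))).map E'.toMonoidHom := by
      rw [Subgroup.map_map]
    obtain ⟨j, hj⟩ := eq_A_of_card (V := H.map π) (by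
        rw [Subgroup.map_le_iff_le_comap]
        exact hHT.trans hTS) (by
        rw [h1]
        rintro _ ⟨y, hy, rfl⟩
        have := hH.1.2 y hy
        rw [← map_mul, ← pow_two, this, map_one]) (by
        rw [h1, Subgroup.card_map_of_injective E'.injective, hH.2])
    refine ⟨j, ?_⟩
    rw [← hj, Subgroup.comap_map_eq_self]
    rw [hk]
    exact hZH
  obtain ⟨j, hj⟩ := key H hHT hZH hH
  obtain ⟨j', hj'⟩ := key K hKT hZK hK
  have hjj : j' = !j := by
    have : j ≠ j' := by
      rintro rfl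
      exact hHK (hj.trans hj'.symm)
    revert this
    cases j <;> cases j' <;> simp
  obtain ⟨a1, a2⟩ := part hF hs hk hz hj
  obtain ⟨b1, b2⟩ := part hF hs hk hz hj'
  refine ⟨a1, b1, ?_, a2, b2⟩
  subst hjj
  subst hj
  subst hj'
  exact inf_eq hs hk hz j

end Cfsg.Agent.S3154
end
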