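import Mathlib
import Cfsg.Agent.StdLThreeFour.Facts1
import Cfsg.Agent.OddCyclic.FpfThree
import Cfsg.Statements.S3157
import Cfsg.Agent.SmallSimple.OrderEight
set_option linter.all false

-- part: J2Sylow/SThree
section
set_option autoImplicit false

/-!
# A fixed-point-free automorphism of order 3 inverted by an involution

`ρ b : T →* T` with `b² = 1`, `ρ³ = 1`, `b ρ b = ρ⁻¹` (written `ρ (b (ρ x)) = b x`), `ρ` without
nontrivial fixed points.  Then `x` commutes with `ρ x`, `x * ρ x * ρ (ρ x) = 1`,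
`T = C(b) ρ(C(b))` and `|H| = |C_H(b)|²` for every finite invariant subgroup `H`.
-/

namespace Cfsg.Agent.J2Sylow.SThree

variable {T : Type*} [Group T]

/-- The data: `ρ` is a fixed-point-free automorphism of order 3, `b` an involution inverting it. -/
structure Act (ρ b : T →* T) : Prop where
  hb : ∀ x, b (b x) = x
  h3 : ∀ x, ρ (ρ (ρ x)) = x
  hinv : ∀ x, b (ρ x) = ρ (ρ (b x))
  hfix : ∀ x, ρ x = x → x = 1

namespace Act

variable {ρ b : T →* T} (h : Act ρ b)

include h

theorem b_inj : Function.Injective b := fun x y hxy => by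
  rw [← h.hb x, hxy, h.hb]

theorem rho_inj : Function.Injective ρ := fun x y hxy => by
  rw [← h.h3 x, hxy, h.h3]

theorem hinv2 (x : T) : b (ρ (ρ x)) = ρ (b x) := by
  rw [h.hinv, h.hinv, h.h3]

theorem hinv' (x : T) : ρ (b (ρ x)) = b x := by
  rw [h.hinv, h.h3]

theorem delta_inj : Function.Injective (fun t : T => t * (ρ t)⁻¹) := by
  intro s t hst
  have h1 : s * (ρ s)⁻¹ = t * (ρ t)⁻¹ := hst
  have h2 : ρ (t⁻¹ * s) = t⁻¹ * s := by
    have h3 : s = t * (ρ t)⁻¹ * ρ s := by rw [← h1]; group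
    calc ρ (t⁻¹ * s) = (ρ t)⁻¹ * ρ s := by rw [map_mul, map_inv]
      _ = t⁻¹ * (t * (ρ t)⁻¹ * ρ s) := by group
      _ = t⁻¹ * s := by rw [← h3]
  exact (inv_mul_eq_one.1 (h.hfix _ h2)).symm

section fin

variable [Finite T]

theorem delta_bij : Function.Bijective (fun t : T => t * (ρ t)⁻¹) :=
  Finite.injective_iff_bijective.1 h.delta_inj

/-- only the identity commutes (in the semidirect product) with `g ρ` -/
theorem eq_one_of_comm {g c : T} (hc : c * g = g * ρ c) : c = 1 := by
  obtain ⟨t, rfl⟩ := h.delta_bij.2 g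
  have h1 : c * (t * (ρ t)⁻¹) = t * (ρ t)⁻¹ * ρ c := hc
  have h2 : ρ (t⁻¹ * c * t) = t⁻¹ * c * t := by
    simp only [map_mul, map_inv]
    have : c * t = t * (ρ t)⁻¹ * ρ c * ρ t := by rw [← h1]; group
    calc (ρ t)⁻¹ * ρ c * ρ t = t⁻¹ * (t * (ρ t)⁻¹ * ρ c * ρ t) := by group
      _ = t⁻¹ * (c * t) := by rw [← this]
      _ = t⁻¹ * c * t := by group
  have h3 := h.hfix _ h2
  have : c = t * (t⁻¹ * c * t) * t⁻¹ := by group
  rw [this, h3]; simp

theorem prod_eq_one (x : T) : x * ρ x * ρ (ρ x) = 1 := by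
  obtain ⟨t, rfl⟩ := h.delta_bij.2 x
  simp only [map_mul, map_inv, h.h3]
  group

theorem comm (x : T) : x * ρ x = ρ x * x := by
  have h1 := h.prod_eq_one x
  have h2 := h.prod_eq_one x⁻¹
  simp only [map_inv] at h2
  have h3 : ρ (ρ x) = (x * ρ x)⁻¹ := eq_inv_of_mul_eq_one_right h1
  have h4 : (ρ (ρ x))⁻¹ = (x⁻¹ * (ρ x)⁻¹)⁻¹ := eq_inv_of_mul_eq_one_right h2
  rw [h3, inv_inv] at h4
  rw [h4]; group

theorem rho_rho (x : T) : ρ (ρ x) = (x * ρ x)⁻¹ := eq_inv_of_mul_eq_one_right (h.prod_eq_one x)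

theorem rho_rho' (x : T) : ρ (ρ x) = x⁻¹ * (ρ x)⁻¹ := by
  rw [h.rho_rho, h.comm, mul_inv_rev]

/-- all elements inverted by `b` are of the form `t b(t)⁻¹` -/
theorem exists_of_inverted {x : T} (hx : x * b x = 1) : ∃ t, x = t * (b t)⁻¹ := by
  obtain ⟨t, ht⟩ := h.delta_bij.2 x
  have ht' : t * (ρ t)⁻¹ = x := ht
  refine ⟨t, ?_⟩
  have hbx : b x = x⁻¹ := (inv_eq_of_mul_eq_one_right hx).symm
  have h1 : x * b t = b (ρ t) := by
    have h2 : b x = b t * (b (ρ t))⁻¹ := by rw [← ht', map_mul, map_inv]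
    rw [hbx] at h2
    have h4 : x = b (ρ t) * (b t)⁻¹ := by
      rw [← inv_inv x, h2]; group
    rw [h4]; group
  have h2 : ρ x * ρ (b t) = b t := by rw [← map_mul, h1, h.hinv']
  have h3 : t * (b t)⁻¹ * x⁻¹ = 1 := by
    apply h.eq_one_of_comm (g := x)
    have h5 : ρ (t * (b t)⁻¹ * x⁻¹) = ρ t * (b t)⁻¹ := by
      simp only [map_mul, map_inv]
      have : (ρ (b t))⁻¹ * (ρ x)⁻¹ = (b t)⁻¹ := by rw [← mul_inv_rev, h2]
      rw [mul_assoc, this]
    rw [h5]
    calc t * (b t)⁻¹ * x⁻¹ * x = t * (ρ t)⁻¹ * (ρ t * (b t)⁻¹) := by group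
      _ = x * (ρ t * (b t)⁻¹) := by rw [ht']
  exact (mul_inv_eq_one.1 h3).symm

/-- the fixed points of `b` -/
def _root_.Cfsg.Agent.J2Sylow.SThree.fixed (b : T →* T) : Subgroup T := b.eqLocus (MonoidHom.id T)

omit h [Finite T] in
theorem mem_fixed {x : T} : x ∈ fixed b ↔ b x = x := Iff.rfl

omit [Finite T] in
/-- the second involution -/
theorem second : Act ρ (b.comp ρ) where
  hb x := by
    show b (ρ (b (ρ x))) = x
    rw [h.hinv', h.hb]
  h3 := h.h3
  hinv x := by
    show b (ρ (ρ x)) = ρ (ρ (b (ρ x)))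
    rw [h.hinv2, h.hinv']
  hfix := h.hfix

theorem card_inverted_mul : Nat.card {x : T // x * b x = 1} * Nat.card (fixed b) = Nat.card T := by
  rw [Subgroup.card_eq_card_quotient_mul_card_subgroup (fixed b)]
  congr 1
  symm
  have hf : ∀ s t : T, s⁻¹ * t ∈ fixed b ↔ s * (b s)⁻¹ = t * (b t)⁻¹ := by
    intro s t
    rw [mem_fixed, map_mul, map_inv]
    constructor
    · intro h1
      have : s * (b s)⁻¹ = t * (s⁻¹ * t)⁻¹ * ((b s)⁻¹) := by group
      rw [this, ← h1]; group
    · intro h1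
      have : t = s * (b s)⁻¹ * b t := by rw [h1]; group
      calc (b s)⁻¹ * b t = s⁻¹ * (s * (b s)⁻¹ * b t) := by group
        _ = s⁻¹ * t := by rw [← this]
  refine Nat.card_congr (Equiv.ofBijective (fun q : T ⧸ fixed b => Quotient.liftOn' q
    (fun t : T => (⟨t * (b t)⁻¹, by rw [map_mul, map_inv, h.hb]; group⟩ :
      {x : T // x * b x = 1})) ?_) ⟨?_, ?_⟩)
  · intro s t hst
    rw [QuotientGroup.leftRel_apply] at hst
    exact Subtype.ext ((hf s t).1 hst)
  · intro p q
    induction p using Quotient.inductionOn'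
    induction q using Quotient.inductionOn'
    intro hpq
    apply Quotient.sound'
    rw [QuotientGroup.leftRel_apply]
    exact (hf _ _).2 (congrArg Subtype.val hpq)
  · rintro ⟨x, hx⟩
    obtain ⟨t, ht⟩ := h.exists_of_inverted hx
    exact ⟨Quotient.mk'' t, Subtype.ext ht.symm⟩

omit [Finite T] in
theorem card_fixed_second : Nat.card (fixed (b.comp ρ)) = Nat.card (fixed b) := by
  symm
  refine Nat.card_congr (Equiv.ofBijective
    (fun x : fixed b => (⟨ρ x, ?_⟩ : fixed (b.comp ρ))) ⟨?_, ?_⟩)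
  · show b (ρ (ρ x)) = ρ x
    rw [h.hinv2, show b (x : T) = x from x.2]
  · intro x y hxy
    exact Subtype.ext (h.rho_inj (congrArg Subtype.val hxy))
  · rintro ⟨y, hy⟩
    have hy' : b (ρ y) = y := hy
    refine ⟨⟨ρ (ρ y), ?_⟩, Subtype.ext (h.h3 y)⟩
    show b (ρ (ρ y)) = ρ (ρ y)
    rw [← h.h3 (b (ρ (ρ y))), h.hinv' (ρ y), hy']

theorem card_mul_le : Nat.card {x : T // x * b x = 1} * Nat.card {x : T // x * b.comp ρ x = 1} ≤
    Nat.card T := by
  rw [← Nat.card_prod]
  refine Nat.card_le_card_of_injective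
    (fun p : {x : T // x * b x = 1} × {x : T // x * b.comp ρ x = 1} => (p.1 : T) * b p.2) ?_
  rintro ⟨⟨x, hx⟩, ⟨y, hy⟩⟩ ⟨⟨x', hx'⟩, ⟨y', hy'⟩⟩ hxy
  have hg : x * b y = x' * b y' := hxy
  have hy1 : y * b (ρ y) = 1 := hy
  have hy1' : y' * b (ρ y') = 1 := hy'
  have e1 : b y * ρ y = 1 := by
    have := congrArg b hy1
    rwa [map_mul, h.hb, map_one] at this
  have e1' : b y' * ρ y' = 1 := by
    have := congrArg b hy1'
    rwa [map_mul, h.hb, map_one] at this
  have e2 : b x = x⁻¹ := (inv_eq_of_mul_eq_one_right hx).symm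
  have e2' : b x' = x'⁻¹ := (inv_eq_of_mul_eq_one_right hx').symm
  have e3 : b y = (ρ y)⁻¹ := eq_inv_of_mul_eq_one_left e1
  have e3' : b y' = (ρ y')⁻¹ := eq_inv_of_mul_eq_one_left e1'
  -- `b y * ρ x = b y' * ρ x'`
  have e4 : y⁻¹ * x = y'⁻¹ * x' := by
    have := congrArg b hg
    rw [map_mul, map_mul, h.hb, h.hb, e2, e2'] at this
    have h5 := congrArg (·⁻¹) this
    simpa using h5
  have e5 : b y * ρ x = b y' * ρ x' := by
    rw [e3, e3', ← map_inv, ← map_inv, ← map_mul, ← map_mul, e4]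
  have e6 : x' * x⁻¹ = 1 := by
    apply h.eq_one_of_comm (g := x * b y)
    rw [map_mul, map_inv]
    calc x' * x⁻¹ * (x * b y) = x' * (b y * ρ x) * (ρ x)⁻¹ := by group
      _ = x' * (b y' * ρ x') * (ρ x)⁻¹ := by rw [e5]
      _ = (x' * b y') * (ρ x' * (ρ x)⁻¹) := by group
      _ = x * b y * (ρ x' * (ρ x)⁻¹) := by rw [hg]
  have e8 : x' = x := mul_inv_eq_one.1 e6
  subst e8
  have e9 : b y = b y' := mul_left_cancel hg
  have e10 := h.b_inj e9
  subst e10
  rfl

theorem card_eq : Nat.card T = Nat.card (fixed b) ^ 2 := by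
  have h1 := h.card_inverted_mul
  have h2 := h.second.card_inverted_mul
  have h3 := h.card_mul_le
  rw [h.card_fixed_second] at h2
  have hpos : 0 < Nat.card T := Nat.card_pos
  -- the other inequality
  have h4 : Nat.card (fixed b) * Nat.card (fixed (b.comp ρ)) ≤ Nat.card T := by
    rw [← Nat.card_prod]
    refine Nat.card_le_card_of_injective
      (fun p : fixed b × fixed (b.comp ρ) => (p.1 : T) * p.2) ?_
    rintro ⟨⟨x, hx⟩, ⟨y, hy⟩⟩ ⟨⟨x', hx'⟩, ⟨y', hy'⟩⟩ hxy
    have hg : x * y = x' * y' := hxy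
    have h5 : x'⁻¹ * x = y' * y⁻¹ := by
      calc x'⁻¹ * x = x'⁻¹ * (x * y) * y⁻¹ := by group
        _ = x'⁻¹ * (x' * y') * y⁻¹ := by rw [hg]
        _ = y' * y⁻¹ := by group
    have h6 : x'⁻¹ * x ∈ fixed b := (fixed b).mul_mem ((fixed b).inv_mem hx') hx
    have h7 : x'⁻¹ * x ∈ fixed (b.comp ρ) := by
      rw [h5]; exact (fixed (b.comp ρ)).mul_mem hy' ((fixed (b.comp ρ)).inv_mem hy)
    have h8 : b (x'⁻¹ * x) = x'⁻¹ * x := h6
    have h9 : b (ρ (x'⁻¹ * x)) = x'⁻¹ * x := h7
    have h10 : x'⁻¹ * x = 1 := by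
      apply h.hfix
      apply h.b_inj
      rw [h9, h8]
    have h11 : x = x' := (inv_mul_eq_one.1 h10).symm
    subst h11
    have h12 : y = y' := mul_left_cancel hg
    subst h12
    rfl
  rw [h.card_fixed_second] at h4
  apply le_antisymm _ (by rw [pow_two]; exact h4)
  set i := Nat.card {x : T // x * b x = 1} with hi
  set j := Nat.card {x : T // x * b.comp ρ x = 1} with hj
  set c := Nat.card (fixed b) with hc
  set n := Nat.card T with hn
  -- i * c = n, j * c = n, i * j ≤ n
  have h5 : n * n ≤ n * c ^ 2 := by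
    calc n * n = (i * c) * (j * c) := by rw [h1, h2]
      _ = (i * j) * c ^ 2 := by ring
      _ ≤ n * c ^ 2 := Nat.mul_le_mul_right _ h3
  exact Nat.le_of_mul_le_mul_left h5 hpos

omit [Finite T] in
/-- the restricted action -/
theorem restrict (H : Subgroup T) (hρ : ∀ x ∈ H, ρ x ∈ H) (hbH : ∀ x ∈ H, b x ∈ H) :
    Act ((ρ.comp H.subtype).codRestrict H fun x => hρ x x.2)
      ((b.comp H.subtype).codRestrict H fun x => hbH x x.2) where
  hb x := Subtype.ext (h.hb x)
  h3 x := Subtype.ext (h.h3 x)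
  hinv x := Subtype.ext (h.hinv x)
  hfix x hx := Subtype.ext (h.hfix x (congrArg Subtype.val hx))

theorem card_sub (H : Subgroup T) (hρ : ∀ x ∈ H, ρ x ∈ H) (hbH : ∀ x ∈ H, b x ∈ H) :
    Nat.card H = Nat.card (H ⊓ fixed b : Subgroup T) ^ 2 := by
  rw [(h.restrict H hρ hbH).card_eq]
  congr 1
  refine Nat.card_congr ⟨fun x => ⟨x.1.1, x.1.2, congrArg Subtype.val x.2⟩,
    fun x => ⟨⟨x.1, x.2.1⟩, Subtype.ext x.2.2⟩, fun x => rfl, fun x => rfl⟩

theorem exists_mul (t : T) : ∃ x y : T, b x = x ∧ b y = y ∧ t = x * ρ y := by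
  have hinj : Function.Injective (fun p : fixed b × fixed b => (p.1 : T) * ρ p.2) := by
    rintro ⟨⟨x, hx⟩, ⟨y, hy⟩⟩ ⟨⟨x', hx'⟩, ⟨y', hy'⟩⟩ hxy
    have hg : x * ρ y = x' * ρ y' := hxy
    have h5 : x'⁻¹ * x = ρ (y' * y⁻¹) := by
      rw [map_mul, map_inv]
      calc x'⁻¹ * x = x'⁻¹ * (x * ρ y) * (ρ y)⁻¹ := by group
        _ = x'⁻¹ * (x' * ρ y') * (ρ y)⁻¹ := by rw [hg]
        _ = ρ y' * (ρ y)⁻¹ := by group
    have h6 : b (x'⁻¹ * x) = x'⁻¹ * x := (fixed b).mul_mem ((fixed b).inv_mem hx') hx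
    have h7 : b (y' * y⁻¹) = y' * y⁻¹ := (fixed b).mul_mem hy' ((fixed b).inv_mem hy)
    have h8 : b (x'⁻¹ * x) = ρ (x'⁻¹ * x) := by
      rw [h5, h.hinv, h7]
    have h10 : x'⁻¹ * x = 1 := by
      apply h.hfix
      rw [← h8, h6]
    have h11 : x = x' := (inv_mul_eq_one.1 h10).symm
    subst h11
    have h12 : y = y' := h.rho_inj (mul_left_cancel hg)
    subst h12
    rfl
  have hbij := (Nat.bijective_iff_injective_and_card _).2 ⟨hinj, by
    rw [Nat.card_prod, h.card_eq, pow_two]⟩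
  obtain ⟨⟨x, y⟩, hxy⟩ := hbij.2 t
  exact ⟨x, y, x.2, y.2, hxy.symm⟩

end fin

end Act

end Cfsg.Agent.J2Sylow.SThree
end

-- part: H299/UTRecog
section
/-!
# Recognition of the Sylow 2-subgroup of `PSL(3,4)`

`exists_mulEquiv_S0`: a group of order 64 with maps `A B Z : F4 → T` satisfying the relations of the
unitriangular group is isomorphic to `S0`.
`exists_mulEquiv_of_fpf`: a group of order 64 with a fixed-point-free automorphism of order three and two
non-commuting involutions `a`, `b` with `[a, b]` central of order two is isomorphic to `S0`.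
-/

set_option autoImplicit false

namespace Cfsg.Agent.H299.UTRecog

open Cfsg.Agent.SporadicA.FieldFour
open scoped commutatorElement
open Cfsg.Agent.StdLThreeFour.Base Cfsg.Agent.StdLThreeFour.Facts1

/-- the coordinates of an element of `S0` -/
noncomputable def crd (g : S0) : F4 × F4 × F4 :=
  (Classical.choose g.2, Classical.choose (Classical.choose_spec g.2),
    Classical.choose (Classical.choose_spec (Classical.choose_spec g.2)))

theorem crd_spec (g : S0) : (g : L0) = e (crd g).1 (crd g).2.1 (crd g).2.2 :=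
  Classical.choose_spec (Classical.choose_spec (Classical.choose_spec g.2))

theorem crd_mul (g h : S0) : crd (g * h) = ((crd g).1 + (crd h).1, (crd g).2.1 + (crd h).2.1,
    (crd h).1 * (crd g).2.1 + (crd g).2.2 + (crd h).2.2) := by
  have h1 := crd_spec (g * h)
  rw [Subgroup.coe_mul, crd_spec g, crd_spec h, e_mul] at h1
  obtain ⟨h2, h3, h4⟩ := e_inj h1
  rw [h2, h3, h4]

theorem crd_e (a b c : F4) : crd ⟨e a b c, e_mem a b c⟩ = (a, b, c) := by
  have h1 := crd_spec ⟨e a b c, e_mem a b c⟩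
  obtain ⟨h2, h3, h4⟩ := e_inj h1
  exact Prod.ext h2.symm (Prod.ext h3.symm h4.symm)

theorem crd_inj {g h : S0} (hgh : crd g = crd h) : g = h := by
  apply Subtype.ext
  rw [crd_spec g, crd_spec h, hgh]

theorem sub_ne (a b : F4) (h : ¬ (a = 0 ∧ b = 0)) : ∃ a' b' : F4, a' * b + a * b' ≠ 0 := by
  revert a b; decide

/-- **Recognition by coordinates.** -/
theorem exists_mulEquiv_S0 {T : Type*} [Group T] (hT : Nat.card T = 64) (A B Z : F4 → T)
    (hA : ∀ s t, A (s + t) = A s * A t) (hB : ∀ s t, B (s + t) = B s * B t)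
    (hZ : ∀ s t, Z (s + t) = Z s * Z t) (hZc : ∀ s g, Z s * g = g * Z s)
    (hBA : ∀ s t, B t * A s = A s * B t * Z (s * t)) (hZi : ∀ s, Z s = 1 → s = 0) :
    Nonempty (T ≃* S0) := by
  have : Finite T := Nat.finite_of_card_ne_zero (by rw [hT]; norm_num)
  let F : S0 →* T :=
    MonoidHom.mk' (fun g => A (crd g).1 * B (crd g).2.1 * Z (crd g).2.2) (by
      intro g h
      show A (crd (g * h)).1 * B (crd (g * h)).2.1 * Z (crd (g * h)).2.2 = _
      rw [crd_mul]
      simp only [hA, hB, hZ]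
      set a := (crd g).1
      set b := (crd g).2.1
      set c := (crd g).2.2
      set a' := (crd h).1
      set b' := (crd h).2.1
      set c' := (crd h).2.2
      calc A a * A a' * (B b * B b') * (Z (a' * b) * Z c * Z c')
          = A a * A a' * B b * (Z (a' * b) * Z c * B b') * Z c' := by
            have : Z (a' * b) * Z c * B b' = B b' * (Z (a' * b) * Z c) := by
              rw [mul_assoc, hZc c, ← mul_assoc, hZc (a' * b), mul_assoc]
            rw [this]; group
        _ = A a * (A a' * B b * Z (a' * b)) * Z c * B b' * Z c' := by group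
        _ = A a * (B b * A a') * Z c * B b' * Z c' := by rw [← hBA]
        _ = A a * B b * (A a' * Z c) * B b' * Z c' := by group
        _ = A a * B b * (Z c * A a') * B b' * Z c' := by rw [hZc c]
        _ = A a * B b * Z c * (A a' * B b' * Z c') := by group)
  have hF : ∀ g, F g = A (crd g).1 * B (crd g).2.1 * Z (crd g).2.2 := fun g => rfl
  have hA0 : A 0 = 1 := by
    have := hA 0 0; rw [add_zero] at this; exact left_eq_mul.mp this
  have hB0 : B 0 = 1 := by
    have := hB 0 0; rw [add_zero] at this; exact left_eq_mul.mp this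
  have hZ0 : Z 0 = 1 := by
    have := hZ 0 0; rw [add_zero] at this; exact left_eq_mul.mp this
  have hinj : Function.Injective F := by
    rw [injective_iff_map_eq_one]
    intro g hg
    have key : (crd g).1 = 0 ∧ (crd g).2.1 = 0 := by
      by_contra hne
      obtain ⟨a', b', hab⟩ := sub_ne _ _ hne
      let k : S0 := ⟨e a' b' 0, e_mem _ _ _⟩
      have h1 : F (g * k * g⁻¹ * k⁻¹) = 1 := by
        rw [map_mul, map_mul, map_mul, hg, map_inv, hg, map_inv]; group
      have h2 : g * k * g⁻¹ * k⁻¹ = ⟨e 0 0 (a' * (crd g).2.1 + (crd g).1 * b'), e_mem _ _ _⟩ := by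
        apply Subtype.ext
        show (g : L0) * e a' b' 0 * (g : L0)⁻¹ * (e a' b' 0)⁻¹ = _
        rw [crd_spec g, e_comm]
      rw [h2, hF, crd_e] at h1
      simp only [hA0, hB0, one_mul] at h1
      exact hab (hZi _ h1)
    have h3 : Z (crd g).2.2 = 1 := by
      have := hF g
      rw [hg, key.1, key.2, hA0, hB0, one_mul, one_mul] at this
      exact this.symm
    have h4 := hZi _ h3
    apply crd_inj
    have h5 : crd (1 : S0) = (0, 0, 0) := by
      have : (1 : S0) = ⟨e 0 0 0, e_mem 0 0 0⟩ := Subtype.ext e_zero.symm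
      rw [this, crd_e]
    rw [h5]
    exact Prod.ext key.1 (Prod.ext key.2 h4)
  have hbij : Function.Bijective F :=
    (Nat.bijective_iff_injective_and_card F).2 ⟨hinj, by rw [card_S0, hT]⟩
  exact ⟨(MulEquiv.ofBijective F hbij).symm⟩

/-- In a 2-group with a fixed-point-free automorphism `α` of order three:
`⁅x, α y⁆ = ⁅α x, y⁆`. -/
theorem comm_swap {T : Type*} [Group T] [Finite T] {α : T →* T} (h : TwoFusion.FpfThree.Fpf3 α)
    (hQ : IsPGroup 2 T) (x y : T) : ⁅x, α y⁆ = ⁅α x, y⁆ := by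
  have h1 := h.comm (x * y)
  have h2 : ⁅x * y, α x * α y⁆ = 1 := by
    rw [commutatorElement_eq_one_iff_mul_comm, ← map_mul]; exact h1
  rw [OddCyclic.FpfThree.comm_mul_left h hQ, OddCyclic.FpfThree.comm_mul_right h hQ,
    OddCyclic.FpfThree.comm_mul_right h hQ,
    commutatorElement_eq_one_iff_mul_comm.mpr (h.comm x),
    commutatorElement_eq_one_iff_mul_comm.mpr (h.comm y), one_mul, mul_one] at h2
  rw [eq_inv_of_mul_eq_one_left h2, commutatorElement_inv]

/-- `α ⁅x, α y⁆ = ⁅x, y⁆`. -/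
theorem map_comm_swap {T : Type*} [Group T] [Finite T] {α : T →* T}
    (h : TwoFusion.FpfThree.Fpf3 α) (hQ : IsPGroup 2 T) (x y : T) : α ⁅x, α y⁆ = ⁅x, y⁆ := by
  apply h.injective
  set c := ⁅x, α y⁆ with hc
  have hcc : ∀ g, g * c = c * g := Subgroup.mem_center_iff.mp
    (OddCyclic.FpfThree.comm_mem_center h hQ x (α y))
  have h1 : α c = ⁅α x, α (α y)⁆ := by rw [hc, map_commutatorElement]
  have h2 : ⁅α x, y * α y⁆ = c * α ⁅x, y⁆ := by
    rw [OddCyclic.FpfThree.comm_mul_right h hQ, ← comm_swap h hQ, map_commutatorElement]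
  have h3 : ⁅α x, α (α y)⁆ * ⁅α x, y * α y⁆ = 1 := by
    rw [← OddCyclic.FpfThree.comm_mul_right h hQ, h.map_map y, inv_mul_cancel,
      commutatorElement_one_right]
  rw [← h1, h2] at h3
  -- α c * (c * α ⁅x,y⁆) = 1
  have h4 : α ⁅x, y⁆ = (α c * c)⁻¹ := by
    rw [← mul_assoc] at h3
    exact eq_inv_of_mul_eq_one_right h3
  rw [h4, hcc (α c), h.map_map c]

theorem comm_map_right {T : Type*} [Group T] [Finite T] {α : T →* T}
    (h : TwoFusion.FpfThree.Fpf3 α) (hQ : IsPGroup 2 T) (x y : T) :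
    ⁅x, α y⁆ = α (α ⁅x, y⁆) := by
  rw [← map_comm_swap h hQ x y, h.cube]

theorem comm_map_left {T : Type*} [Group T] [Finite T] {α : T →* T}
    (h : TwoFusion.FpfThree.Fpf3 α) (hQ : IsPGroup 2 T) (x y : T) :
    ⁅α x, y⁆ = α (α ⁅x, y⁆) := by
  rw [← comm_swap h hQ x y, comm_map_right h hQ]

/-- the homomorphism `(F4, +) → T` given by an involution `x` and `α` -/
def lin {T : Type*} [Group T] (α : T →* T) (x : T) : F4 → T
  | F4.z => 1
  | F4.o => x
  | F4.w => α x
  | F4.v => α (α x)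

/-- the conjugate homomorphism -/
def linc {T : Type*} [Group T] (α : T →* T) (x : T) : F4 → T
  | F4.z => 1
  | F4.o => x
  | F4.w => α (α x)
  | F4.v => α x

theorem lin_add {T : Type*} [Group T] [Finite T] {α : T →* T}
    (h : TwoFusion.FpfThree.Fpf3 α) {x : T} (hx : x * x = 1) (s t : F4) :
    lin α x (s + t) = lin α x s * lin α x t := by
  have hxi : x⁻¹ = x := inv_eq_of_mul_eq_one_right hx
  have h1 : α x * α x = 1 := by rw [← map_mul, hx, map_one]
  have h2 : α (α x) * α (α x) = 1 := by rw [← map_mul, h1, map_one]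
  have h1i : (α x)⁻¹ = α x := inv_eq_of_mul_eq_one_right h1
  have h3 : α (α x) = α x * x := by rw [h.map_map x, mul_inv_rev, hxi, h1i]
  have h4 : α (α x) = x * α x := by rw [h3, h.comm]
  have h5 : x * α (α x) = α x := by rw [h4, ← mul_assoc, hx, one_mul]
  have h6 : α (α x) * x = α x := by rw [h3, mul_assoc, hx, mul_one]
  have h7 : α x * α (α x) = x := by rw [h3, ← mul_assoc, h1, one_mul]
  have h8 : α (α x) * α x = x := by rw [h4, mul_assoc, h1, mul_one]
  cases s <;> cases t
  · show 1 = 1 * 1; rw [mul_one]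
  · show x = 1 * x; rw [one_mul]
  · show α x = 1 * α x; rw [one_mul]
  · show α (α x) = 1 * α (α x); rw [one_mul]
  · show x = x * 1; rw [mul_one]
  · exact hx.symm
  · exact h4
  · exact h5.symm
  · show α x = α x * 1; rw [mul_one]
  · exact h3
  · exact h1.symm
  · exact h7.symm
  · show α (α x) = α (α x) * 1; rw [mul_one]
  · exact h6.symm
  · exact h8.symm
  · exact h2.symm

theorem linc_eq {T : Type*} [Group T] (α : T →* T) (x : T) (s : F4) :
    linc α x s = lin α x (s * s) := by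
  cases s <;> rfl

theorem linc_add {T : Type*} [Group T] [Finite T] {α : T →* T}
    (h : TwoFusion.FpfThree.Fpf3 α) {x : T} (hx : x * x = 1) (s t : F4) :
    linc α x (s + t) = linc α x s * linc α x t := by
  have h1 : ∀ s t : F4, (s + t) * (s + t) = s * s + t * t := by decide
  rw [linc_eq, linc_eq, linc_eq, h1, lin_add h hx]

/-- **Recognition.** A group of order 64 with a fixed-point-free automorphism of order three and two
involutions which do not commute is isomorphic to a Sylow 2-subgroup of `PSL(3,4)`. -/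
theorem exists_mulEquiv_of_fpf {T : Type*} [Group T] (hT : Nat.card T = 64) {α : T →* T}
    (h : TwoFusion.FpfThree.Fpf3 α) {a b : T} (ha : a * a = 1) (hb : b * b = 1)
    (hab : ⁅b, a⁆ ≠ 1) : Nonempty (T ≃* S0) := by
  have : Finite T := Nat.finite_of_card_ne_zero (by rw [hT]; norm_num)
  have hQ : IsPGroup 2 T := IsPGroup.of_card (n := 6) (by rw [hT]; norm_num)
  set z := ⁅b, a⁆ with hz
  have hcen : ∀ x y : T, ⁅x, y⁆ ∈ Subgroup.center T := OddCyclic.FpfThree.comm_mem_center h hQ
  have hzz : z * z = 1 := by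
    have h1 := OddCyclic.FpfThree.comm_mul_left h hQ b b a
    rw [hb, commutatorElement_one_left] at h1
    exact h1.symm
  have hzc : ∀ g, z * g = g * z := fun g => (Subgroup.mem_center_iff.mp (hcen b a) g).symm
  have hαz : ∀ g, α z * g = g * α z := fun g => by
    rw [hz, map_commutatorElement]
    exact (Subgroup.mem_center_iff.mp (hcen _ _) g).symm
  have hααz : ∀ g, α (α z) * g = g * α (α z) := fun g => by
    rw [hz, map_commutatorElement, map_commutatorElement]
    exact (Subgroup.mem_center_iff.mp (hcen _ _) g).symm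
  have c01 : ⁅b, α a⁆ = α (α z) := comm_map_right h hQ b a
  have c10 : ⁅α b, a⁆ = α (α z) := comm_map_left h hQ b a
  have c11 : ⁅α b, α a⁆ = α z := by rw [← map_commutatorElement]
  have c02 : ⁅b, α (α a)⁆ = α z := by
    rw [comm_map_right h hQ, c01, h.cube]
  have c20 : ⁅α (α b), a⁆ = α z := by
    rw [comm_map_left h hQ, c10, h.cube]
  have c12 : ⁅α b, α (α a)⁆ = z := by
    rw [← map_commutatorElement, c01, h.cube]
  have c21 : ⁅α (α b), α a⁆ = z := by
    rw [← map_commutatorElement, c10, h.cube]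
  have c22 : ⁅α (α b), α (α a)⁆ = α (α z) := by
    rw [← map_commutatorElement, ← map_commutatorElement]
  have key : ∀ (x y w : T), ⁅y, x⁆ = w → (∀ g, w * g = g * w) → y * x = x * y * w := by
    intro x y w h1 h2
    rw [← h2, ← h1, commutatorElement_def]; group
  refine exists_mulEquiv_S0 hT (lin α a) (lin α b) (linc α z) (lin_add h ha) (lin_add h hb)
    (linc_add h hzz) ?_ ?_ ?_
  · intro s g
    cases s
    · show 1 * g = g * 1; rw [one_mul, mul_one]
    · exact hzc g
    · exact hααz g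
    · exact hαz g
  · intro s t
    cases s <;> cases t
    · show 1 * 1 = 1 * 1 * 1; simp
    · show b * 1 = 1 * b * 1; simp
    · show α b * 1 = 1 * α b * 1; simp
    · show α (α b) * 1 = 1 * α (α b) * 1; simp
    · show 1 * a = a * 1 * 1; simp
    · exact key _ _ _ rfl hzc
    · exact key _ _ _ c10 hααz
    · exact key _ _ _ c20 hαz
    · show 1 * α a = α a * 1 * 1; simp
    · exact key _ _ _ c01 hααz
    · exact key _ _ _ c11 hαz
    · exact key _ _ _ c21 hzc
    · show 1 * α (α a) = α (α a) * 1 * 1; simp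
    · exact key _ _ _ c02 hαz
    · exact key _ _ _ c12 hzc
    · exact key _ _ _ c22 hααz
  · intro s hs
    cases s
    · rfl
    · exact absurd hs hab
    · exact absurd (h.map_eq_one (h.map_eq_one hs)) hab
    · exact absurd (h.map_eq_one hs) hab

end Cfsg.Agent.H299.UTRecog
end

-- part: S3157
section
set_option autoImplicit false
open Cfsg

namespace Cfsg.Agent.S3157

open scoped commutatorElement
open Cfsg.Agent.H299.UTRecog
open Cfsg.Agent.SporadicA.FieldFour

theorem d8_elements : ∃ a b : DihedralGroup 4, a * a = 1 ∧ b * b = 1 ∧ ⁅b, a⁆ ≠ 1 :=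
  ⟨DihedralGroup.sr 0, DihedralGroup.sr 1, by decide, by decide, by decide⟩

theorem q8_elements : ∃ u v : QuaternionGroup 2, u * u = ⁅u, v⁆ ∧ v * v = ⁅u, v⁆ ∧ ⁅u, v⁆ ≠ 1 ∧
    ⁅u, v⁆ * ⁅u, v⁆ = 1 :=
  ⟨QuaternionGroup.a 1, QuaternionGroup.xa 0, by decide, by decide, by decide, by decide⟩

/-- Let T be a non-abelian group of order 64 admitting automorphisms ρ of order 3 and x of order 2 with x ρ x⁻¹ = ρ⁻¹ (so they generate a symmetric group of degree 3), where ρ fixes only the identity. Then T is isomorphic to a Sylow 2-subgroup of the projective special linear group of dimension 3 over the field with 4 elements, and the subgroup of fixed points of x is dihedral of order 8 or quaternion of order 8. -/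
theorem result {T : Type*} [Group T] [Finite T] (hT : Nat.card T = 64) (hna : ¬ IsMulCommutative T) (ρ x : MulAut T) (hρ : orderOf ρ = 3) (hx : orderOf x = 2)
    (hxr : x * ρ * x⁻¹ = ρ⁻¹) (hfp : ∀ y : T, ρ y = y → y = 1) (C : Subgroup T) (hC : ∀ y : T, y ∈ C ↔ x y = y) :
    (∃ (F : Type) (_ : Field F) (_ : Fintype F), Fintype.card F = 4 ∧
        ∃ S : Sylow 2 (Matrix.ProjectiveSpecialLinearGroup (Fin 3) F), Nonempty (T ≃* ↥(S : Subgroup (Matrix.ProjectiveSpecialLinearGroup (Fin 3) F)))) ∧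
      (Nonempty (↥C ≃* DihedralGroup 4) ∨ Nonempty (↥C ≃* QuaternionGroup 2)) := by
  have hQ : IsPGroup 2 T := IsPGroup.of_card (n := 6) (by rw [hT]; norm_num)
  have hρ3 : ρ * ρ * ρ = 1 := by
    have := pow_orderOf_eq_one ρ
    rw [hρ] at this
    simpa [pow_succ] using this
  have hx2 : x * x = 1 := by
    have := pow_orderOf_eq_one x
    rw [hx, sq] at this
    exact this
  let α : T →* T := ρ.toMonoidHom
  let b : T →* T := x.toMonoidHom
  have hαρ : ∀ t, α t = ρ t := fun t => rfl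
  have hbx : ∀ t, b t = x t := fun t => rfl
  have h3 : ∀ t, α (α (α t)) = t := fun t => by
    exact DFunLike.congr_fun hρ3 t
  have h : TwoFusion.FpfThree.Fpf3 α := ⟨h3, hfp⟩
  have hact : J2Sylow.SThree.Act α b := by
    refine ⟨fun t => ?_, h3, fun t => ?_, hfp⟩
    · exact DFunLike.congr_fun hx2 t
    · have h1 : x * ρ = ρ * ρ * x := by
        have h2 : ρ⁻¹ = ρ * ρ := inv_eq_of_mul_eq_one_left hρ3
        rw [← h2, ← hxr]; group
      exact DFunLike.congr_fun h1 t
  have hCf : C = J2Sylow.SThree.fixed b := by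
    ext y
    rw [hC]
    exact Iff.rfl
  have hC8 : Nat.card C = 8 := by
    have h1 := hact.card_eq
    rw [hT, ← hCf] at h1
    have : (8 : ℕ) ^ 2 = Nat.card C ^ 2 := by rw [← h1]; norm_num
    exact (Nat.pow_left_injective (n := 2) (by norm_num) this).symm
  -- C is not commutative
  have hlemC : ∀ n c : T, n * c = c * n → n * α c = α c * n := fun n c hnc =>
    OddCyclic.FpfThree.commute_map h hQ hnc
  have hCna : ¬ IsMulCommutative C := by
    intro hCc
    apply hna
    have hcc : ∀ c d : T, c ∈ C → d ∈ C → c * d = d * c := fun c d hc hd => by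
      have := hCc.is_comm.comm (⟨c, hc⟩ : C) ⟨d, hd⟩
      exact congrArg Subtype.val this
    refine ⟨⟨fun t s => ?_⟩⟩
    obtain ⟨c, d, hc, hd, rfl⟩ := hact.exists_mul t
    obtain ⟨c', d', hc', hd', rfl⟩ := hact.exists_mul s
    have mc : c ∈ C := (hC c).2 hc
    have md : d ∈ C := (hC d).2 hd
    have mc' : c' ∈ C := (hC c').2 hc'
    have md' : d' ∈ C := (hC d').2 hd'
    have e1 : Commute c c' := hcc c c' mc mc'
    have e2 : Commute c (α d') := hlemC c d' (hcc c d' mc md')
    have e3 : Commute (α d) c' := (hlemC c' d (hcc c' d mc' md)).symm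
    have e4 : Commute (α d) (α d') := by
      show α d * α d' = α d' * α d
      rw [← map_mul, ← map_mul, hcc d d' md md']
    exact ((e1.mul_right e2).mul_left (e3.mul_right e4)).eq
  have hCcase := SmallSimple.OrderEight.dihedral_or_quaternion_of_card_eight hC8 hCna
  refine ⟨?_, hCcase⟩
  -- it suffices to find two involutions
  suffices hab : ∃ a b : T, a * a = 1 ∧ b * b = 1 ∧ ⁅b, a⁆ ≠ 1 by
    obtain ⟨a, b, ha, hb, hab⟩ := hab
    obtain ⟨f⟩ := exists_mulEquiv_of_fpf hT h ha hb hab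
    refine ⟨F4, inferInstance, inferInstance, rfl, StdLThreeFour.Facts1.syl, ⟨f.trans ?_⟩⟩
    exact MulEquiv.subgroupCongr StdLThreeFour.Facts1.coe_syl.symm
  rcases hCcase with ⟨⟨f⟩⟩ | ⟨⟨f⟩⟩
  · obtain ⟨a, b, ha, hb, hab⟩ := d8_elements
    refine ⟨(f.symm a : C), (f.symm b : C), ?_, ?_, ?_⟩
    · rw [← Subgroup.coe_mul, ← map_mul, ha, map_one, Subgroup.coe_one]
    · rw [← Subgroup.coe_mul, ← map_mul, hb, map_one, Subgroup.coe_one]
    · intro h1
      apply hab
      have h2 : ((⁅f.symm b, f.symm a⁆ : C) : T) = 1 := h1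
      have h3 : ⁅f.symm b, f.symm a⁆ = 1 := Subtype.ext h2
      rw [← map_commutatorElement] at h3
      exact (MulEquiv.map_eq_one_iff f.symm).mp h3
  · obtain ⟨u, v, hu, hv, huv, hzz⟩ := q8_elements
    set U : T := ((f.symm u : C) : T) with hU
    set V : T := ((f.symm v : C) : T) with hV
    have hUV : ⁅U, V⁆ = ((f.symm ⁅u, v⁆ : C) : T) := by
      rw [map_commutatorElement]; rfl
    set z := ⁅U, V⁆ with hz
    have hUU : U * U = z := by
      rw [hUV, ← hu, map_mul]; rfl
    have hVV : V * V = z := by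
      rw [hUV, ← hv, map_mul]; rfl
    have hz1 : z ≠ 1 := by
      rw [hUV]
      intro h1
      apply huv
      have h3 : f.symm ⁅u, v⁆ = 1 := Subtype.ext h1
      exact (MulEquiv.map_eq_one_iff f.symm).mp h3
    have hzz' : z * z = 1 := by
      rw [hUV, ← Subgroup.coe_mul, ← map_mul, hzz, map_one, Subgroup.coe_one]
    have hcen : ∀ x y : T, ⁅x, y⁆ ∈ Subgroup.center T := OddCyclic.FpfThree.comm_mem_center h hQ
    have hzc : ∀ g, z * g = g * z := fun g => (Subgroup.mem_center_iff.mp (hcen U V) g).symm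
    have hαz : ∀ g, α z * g = g * α z := fun g => by
      rw [hz, map_commutatorElement]
      exact (Subgroup.mem_center_iff.mp (hcen _ _) g).symm
    have hααz : ∀ g, α (α z) * g = g * α (α z) := fun g => by
      rw [hz, map_commutatorElement, map_commutatorElement]
      exact (Subgroup.mem_center_iff.mp (hcen _ _) g).symm
    have c01 : ⁅U, α V⁆ = α (α z) := comm_map_right h hQ U V
    have c02 : ⁅U, α (α V)⁆ = α z := by rw [comm_map_right h hQ, c01, h.cube]
    have hprod := h.prod_eq_one z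
    -- squares
    have sq : ∀ y w : T, y * y = w → (∀ g, w * g = g * w) → ∀ c, ⁅U, y⁆ = c →
        (U * y) * (U * y) = z * w * c := by
      intro y w hy hw c hc
      have hcc : ∀ g, c * g = g * c := fun g => by
        rw [← hc]; exact (Subgroup.mem_center_iff.mp (hcen _ _) g).symm
      have h1 : y * U = c⁻¹ * (U * y) := by
        rw [← hc, commutatorElement_def]; group
      have hcci : c⁻¹ * (U * y) = (U * y) * c⁻¹ := by
        have := hcc (U * y)
        rw [inv_mul_eq_iff_eq_mul, ← mul_assoc, this]; group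
      -- y U = c⁻¹ U y ; U y U y = U (c⁻¹ U y) y = c⁻¹ z w
      have hc2 : c * c = 1 := by
        have h5 := OddCyclic.FpfThree.comm_mul_left h hQ U U y
        rw [hUU, hc] at h5
        rw [← h5]
        exact commutatorElement_eq_one_iff_mul_comm.mpr (hzc y)
      have hci : c⁻¹ = c := inv_eq_of_mul_eq_one_right hc2
      calc (U * y) * (U * y) = U * (y * U) * y := by group
        _ = U * (c⁻¹ * (U * y)) * y := by rw [h1]
        _ = U * ((U * y) * c⁻¹) * y := by rw [hcci]
        _ = (U * U) * y * (c⁻¹ * y) := by group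
        _ = z * y * (y * c) := by rw [hUU, hci, hcc y]
        _ = z * (y * y) * c := by group
        _ = z * w * c := by rw [hy]
    have ha2 : α V * α V = α z := by rw [← map_mul, hVV]
    have hb2 : α (α V) * α (α V) = α (α z) := by rw [← map_mul, ha2]
    refine ⟨U * α V, U * α (α V), ?_, ?_, ?_⟩
    · rw [sq (α V) (α z) ha2 hαz _ c01, hprod]
    · rw [sq (α (α V)) (α (α z)) hb2 hααz _ c02, mul_assoc, ← hαz, ← mul_assoc, hprod]
    · intro h1
      rw [OddCyclic.FpfThree.comm_mul_left h hQ, OddCyclic.FpfThree.comm_mul_right h hQ,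
        OddCyclic.FpfThree.comm_mul_right h hQ, commutatorElement_self, one_mul, c01] at h1
      have h2 : ⁅α (α V), α V⁆ = 1 := by
        rw [← map_commutatorElement, commutatorElement_eq_one_iff_mul_comm.mpr (h.comm V).symm, map_one]
      have h3 : ⁅α (α V), U⁆ = (α z)⁻¹ := by
        rw [← c02, commutatorElement_inv]
      rw [h2, h3, mul_one] at h1
      have h4 : α (α z) = α z := by
        rw [mul_inv_eq_one] at h1; exact h1
      exact hz1 (hfp z (h.injective h4))

end Cfsg.Agent.S3157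
end
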