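import Cfsg.Statements.S3156
import Cfsg.Agent.TwoFusion.GoldU34
import Cfsg.Agent.TwoFusion.GoldM1Form
import Cfsg.Agent.S3157
set_option linter.all false

set_option autoImplicit false
open Cfsg

namespace Cfsg.Agent.S3156

open scoped commutatorElement

theorem perm_elements : ∃ r s : Equiv.Perm (Fin 3), r * r * r = 1 ∧ r ≠ 1 ∧ s * s = 1 ∧ s ≠ 1 ∧
    s * r * s⁻¹ = r⁻¹ :=
  ⟨finRotate 3, Equiv.swap 0 1, by decide, by decide, by decide, by decide, by decide⟩

theorem q8_elements : ∃ u v : QuaternionGroup 2, ∃ a : QuaternionGroup 2, u * u = a ∧ v * v = a ∧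
    u * v * (u * v) = a ∧ a ≠ 1 :=
  ⟨QuaternionGroup.a 1, QuaternionGroup.xa 0, QuaternionGroup.a 2, by decide, by decide, by decide,
    by decide⟩

/-- If a finite group T is isomorphic to a Sylow 2-subgroup of the projective special unitary group of dimension 3 with parameter 4 (realised over the field with 16 elements), then no subgroup of the automorphism group of T is isomorphic to the symmetric group of degree 3. -/
theorem result {T : Type*} [Group T] [Finite T] (hT : (∃ (F : Type) (_ : Field F) (_ : Fintype F), Fintype.card F = 16 ∧ ∃ S : Sylow 2 (Cfsg.PSU 3 F 4), Nonempty (T ≃* ↥(S : Subgroup (Cfsg.PSU 3 F 4))))) (H : Subgroup (MulAut T)) : ¬ Nonempty (↥H ≃* Equiv.Perm (Fin 3)) := by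
  rintro ⟨g⟩
  obtain ⟨F, iF, iFt, hF, S, ⟨f⟩⟩ := hT
  have hfin : Finite (Cfsg.SU 3 F 4) := by
    have : Finite (Matrix.SpecialLinearGroup (Fin 3) F) := Subtype.finite
    exact Subtype.finite
  have hfin' : Finite (Cfsg.PSU 3 F 4) := Quotient.finite _
  obtain ⟨Z, hd⟩ := TwoFusion.GoldU34.exists_data hF (MulEquiv.refl (Cfsg.PSU 3 F 4)) S
  have hS : TwoFusion.GoldM1.Syl (S : Subgroup (Cfsg.PSU 3 F 4)) Z :=
    ⟨hd.card_T, hd.Z_le, hd.card_Z, hd.central, hd.sq_eq, hd.inv, hd.comm_mem, hd.surj⟩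
  -- transport to `T`
  let j : T →* Cfsg.PSU 3 F 4 := (S : Subgroup (Cfsg.PSU 3 F 4)).subtype.comp f.toMonoidHom
  have hj : ∀ t, j t = (f t : Cfsg.PSU 3 F 4) := fun t => rfl
  have hjinj : Function.Injective j := fun s t hst => f.injective (Subtype.ext hst)
  have hjS : ∀ t, j t ∈ (S : Subgroup (Cfsg.PSU 3 F 4)) := fun t => (f t).2
  have hjsurj : ∀ s ∈ (S : Subgroup (Cfsg.PSU 3 F 4)), ∃ t, j t = s := fun s hs =>
    ⟨f.symm ⟨s, hs⟩, by rw [hj, MulEquiv.apply_symm_apply]⟩
  have hI : ∀ t : T, t * t = 1 ↔ j t ∈ Z := fun t => by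
    constructor
    · intro h
      exact hS.inv _ (hjS t) (by rw [← map_mul, h, map_one])
    · intro h
      apply hjinj
      rw [map_mul, hS.sq _ h, map_one]
  have hsq : ∀ t : T, (t * t) * (t * t) = 1 := fun t => by
    rw [hI, map_mul]
    exact hS.sq_mem (hjS t)
  have hcen : ∀ t : T, t * t = 1 → ∀ s, t * s = s * t := fun t ht s => by
    apply hjinj
    rw [map_mul, map_mul]
    exact hS.cen _ ((hI t).1 ht) _ (hjS s)
  have hquat : ∀ v w a : T, v * v = a → w * w = a → v * w * (v * w) = a → a = 1 := by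
    intro v w a h1 h2 h3
    apply hjinj
    rw [map_one]
    exact hS.no_quat (hjS v) (hjS w) (by rw [← map_mul, h1]) (by rw [← map_mul, h2])
      (by rw [← map_mul, ← map_mul, h3])
  have hmem : ∀ a b c : T, a * a = 1 → b * b = 1 → a ≠ 1 → b ≠ 1 → a ≠ b → c * c = 1 →
      c = 1 ∨ c = a ∨ c = b ∨ c = a * b := by
    intro a b c ha hb ha1 hb1 hab hc
    have h1 : ∀ x : T, x ≠ 1 → j x ≠ 1 := fun x hx h => hx (hjinj (by rw [h, map_one]))
    rcases hS.mem_A ((hI a).1 ha) ((hI b).1 hb) (h1 a ha1) (h1 b hb1) (fun h => hab (hjinj h))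
      ((hI c).1 hc) with h | h | h | h
    · left; exact hjinj (by rw [h, map_one])
    · right; left; exact hjinj h
    · right; right; left; exact hjinj h
    · right; right; right; exact hjinj (by rw [h, map_mul])
  have hT64 : Nat.card T = 64 := by rw [Nat.card_congr f.toEquiv]; exact hd.card_T
  have hna : ¬ IsMulCommutative T := by
    intro hc
    obtain ⟨s, hs, hsZ⟩ : ∃ s ∈ (S : Subgroup (Cfsg.PSU 3 F 4)), s ∉ Z := by
      by_contra h
      push Not at h
      have h1 := Subgroup.card_le_of_le (show (S : Subgroup (Cfsg.PSU 3 F 4)) ≤ Z from h)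
      rw [hd.card_T, hd.card_Z] at h1
      omega
    obtain ⟨z, hz, hz1⟩ : ∃ z ∈ Z, z ≠ 1 := by
      by_contra h
      push Not at h
      have h1 : Z = ⊥ := (Subgroup.eq_bot_iff_forall Z).2 h
      have h2 := hd.card_Z
      rw [h1, Subgroup.card_bot] at h2
      omega
    obtain ⟨u, hu, hsu⟩ := hd.surj s hs hsZ z hz
    obtain ⟨s', rfl⟩ := hjsurj s hs
    obtain ⟨u', rfl⟩ := hjsurj u hu
    apply hz1
    rw [← hsu, ← map_inv, ← map_inv, ← map_mul, ← map_mul, ← map_mul]
    have := hc.is_comm.comm s' u'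
    rw [this]
    simp
  -- the elements ρ and x
  obtain ⟨r, s, hr3, hr1, hs2, hs1, hsr⟩ := perm_elements
  set ρ : MulAut T := ((g.symm r : H) : MulAut T) with hρdef
  set x : MulAut T := ((g.symm s : H) : MulAut T) with hxdef
  have hρ3 : ρ * ρ * ρ = 1 := by
    rw [hρdef, ← Subgroup.coe_mul, ← Subgroup.coe_mul, ← map_mul, ← map_mul, hr3, map_one, Subgroup.coe_one]
  have hρ1 : ρ ≠ 1 := by
    intro h
    apply hr1
    have h1 : g.symm r = 1 := Subtype.ext h
    exact (MulEquiv.map_eq_one_iff g.symm).mp h1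
  have hx2 : x * x = 1 := by
    rw [hxdef, ← Subgroup.coe_mul, ← map_mul, hs2, map_one, Subgroup.coe_one]
  have hx1 : x ≠ 1 := by
    intro h
    apply hs1
    have h1 : g.symm s = 1 := Subtype.ext h
    exact (MulEquiv.map_eq_one_iff g.symm).mp h1
  have hxr : x * ρ * x⁻¹ = ρ⁻¹ := by
    rw [hρdef, hxdef, ← Subgroup.coe_inv, ← Subgroup.coe_mul, ← Subgroup.coe_mul, ← map_inv, ← map_mul,
      ← map_mul, hsr, map_inv, Subgroup.coe_inv]
  have hρo : orderOf ρ = 3 := by
    have : Fact (Nat.Prime 3) := ⟨Nat.prime_three⟩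
    exact orderOf_eq_prime (by rw [pow_succ, sq, hρ3]) hρ1
  have hxo : orderOf x = 2 := by
    have : Fact (Nat.Prime 2) := ⟨Nat.prime_two⟩
    exact orderOf_eq_prime (by rw [sq, hx2]) hx1
  have h3 : ∀ t, ρ (ρ (ρ t)) = t := fun t => DFunLike.congr_fun hρ3 t
  -- ρ is fixed point free
  have hfp : ∀ y : T, ρ y = y → y = 1 := by
    by_contra hcon
    push Not at hcon
    -- WLOG y has square one
    obtain ⟨y, hyρ, hyy, hy1⟩ : ∃ y : T, ρ y = y ∧ y * y = 1 ∧ y ≠ 1 := by
      obtain ⟨y, hy, hy1⟩ := hcon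
      by_cases hyy : y * y = 1
      · exact ⟨y, hy, hyy, hy1⟩
      · exact ⟨y * y, by rw [map_mul, hy], hsq y, hyy⟩
    -- ρ is trivial on the elements of square one
    have htriv : ∀ t : T, t * t = 1 → ρ t = t := by
      intro t ht
      by_cases ht1 : t = 1
      · rw [ht1, map_one]
      by_cases hty : y = t
      · rw [← hty, hyρ]
      have hρt : ρ t * ρ t = 1 := by rw [← map_mul, ht, map_one]
      rcases hmem y t (ρ t) hyy ht hy1 ht1 hty hρt with h | h | h | h
      · exact absurd ((MulEquiv.map_eq_one_iff ρ).mp h) ht1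
      · exact absurd (ρ.injective (h.trans hyρ.symm)).symm hty
      · exact h
      · exfalso
        have h4 := h3 t
        rw [h, map_mul, hyρ, h, ← mul_assoc, hyy, one_mul] at h4
        exact hy1 (mul_eq_right.mp (h.symm.trans h4))
    apply hρ1
    apply MulEquiv.ext
    intro u
    rw [MulAut.one_apply]
    set v := u⁻¹ * ρ u with hv
    have hprod : v * ρ v * ρ (ρ v) = 1 := by
      rw [hv]; simp only [map_mul, map_inv, h3]; group
    have hvv : ρ (v * v) = v * v := htriv _ (hsq v)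
    have h4 : ρ v * ρ v = v * v := by rw [← map_mul, hvv]
    have h5 : v * ρ v * (v * ρ v) = v * v := by
      have h6 : v * ρ v = (ρ (ρ v))⁻¹ := eq_inv_of_mul_eq_one_left hprod
      rw [h6, ← mul_inv_rev, ← map_mul, ← map_mul, hvv, hvv]
      exact inv_eq_of_mul_eq_one_right (hsq v)
    have h7 : v * v = 1 := hquat v (ρ v) (v * v) rfl h4 h5
    have h8 : ρ v = v := htriv v h7
    have h9 : ρ u = u * v := by rw [hv]; group
    have h10 : ρ (ρ u) = u := by
      rw [h9, map_mul, h8, h9, mul_assoc, h7, mul_one]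
    have h11 := h3 u
    rw [h10] at h11
    exact h11
  -- the fixed points of x
  let C : Subgroup T :=
    { carrier := {t | x t = t}
      mul_mem' := fun {a b} ha hb => by
        show x (a * b) = a * b
        rw [map_mul, show x a = a from ha, show x b = b from hb]
      one_mem' := map_one x
      inv_mem' := fun {a} ha => by
        show x a⁻¹ = a⁻¹
        rw [map_inv, show x a = a from ha] }
  obtain ⟨-, hC⟩ := S3157.result hT64 hna ρ x hρo hxo hxr hfp C (fun y => Iff.rfl)
  rcases hC with ⟨⟨k⟩⟩ | ⟨⟨k⟩⟩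
  · obtain ⟨a, b, ha, -, hab⟩ := S3157.d8_elements
    have h1 : ((k.symm a : C) : T) * (k.symm a : C) = 1 := by
      rw [← Subgroup.coe_mul, ← map_mul, ha, map_one, Subgroup.coe_one]
    have h2 := hcen _ h1 ((k.symm b : C) : T)
    apply hab
    rw [commutatorElement_eq_one_iff_mul_comm]
    apply k.symm.injective
    rw [map_mul, map_mul]
    exact Subtype.ext h2.symm
  · obtain ⟨u, v, a, h1, h2, h4, h5⟩ := q8_elements
    apply h5
    have h6 := hquat ((k.symm u : C) : T) ((k.symm v : C) : T) ((k.symm a : C) : T)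
      (by rw [← Subgroup.coe_mul, ← map_mul, h1]) (by rw [← Subgroup.coe_mul, ← map_mul, h2])
      (by rw [← Subgroup.coe_mul, ← map_mul, ← Subgroup.coe_mul, ← map_mul, h4])
    exact (MulEquiv.map_eq_one_iff k.symm).mp (Subtype.ext h6)

end Cfsg.Agent.S3156
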