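import Cfsg.Statements.S3161
import Cfsg.Agent.H300.SingerFour
import Cfsg.Agent.H300.SingerForm
set_option linter.all false

set_option autoImplicit false
open Cfsg

namespace Cfsg.Agent.S3161

open scoped commutatorElement

/-- Let Q be a non-abelian finite 2-group admitting commuting automorphisms α of order 2 and ρ of order 2^n − 1, where n ≥ 2, such that the fixed points of α form an elementary abelian subgroup of order 2^n on whose nonidentity elements the group generated by ρ acts transitively. Then Q is isomorphic to a Sylow 2-subgroup of the projective special unitary group of dimension 3 with parameter 2^n (realised over the field with 4^n elements) or of the projective special linear group of dimension 3 over the field with 2^n elements. -/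
theorem result {Q : Type*} [Group Q] [Finite Q] (hQ : IsPGroup 2 Q) (hna : ¬ IsMulCommutative Q) (n : ℕ) (hn : 2 ≤ n)
    (α ρ : MulAut Q) (hα : orderOf α = 2) (hρ : orderOf ρ = 2 ^ n - 1) (hc : Commute α ρ)
    (C : Subgroup Q) (hC : ∀ x : Q, x ∈ C ↔ α x = x) (hCE : Cfsg.IsElementaryAbelian 2 C ∧ Nat.card ↥C = 2 ^ n)
    (htr : ∀ x y : Q, x ∈ C → y ∈ C → x ≠ 1 → y ≠ 1 → ∃ k : ℕ, (ρ ^ k) x = y) :
    (∃ (F : Type) (_ : Field F) (_ : Fintype F), Fintype.card F = 4 ^ n ∧
        ∃ S : Sylow 2 (Cfsg.PSU 3 F (2 ^ n)), Nonempty (Q ≃* ↥(S : Subgroup (Cfsg.PSU 3 F (2 ^ n))))) ∨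
      (∃ (F : Type) (_ : Field F) (_ : Fintype F), Fintype.card F = 2 ^ n ∧
        ∃ S : Sylow 2 (Matrix.ProjectiveSpecialLinearGroup (Fin 3) F), Nonempty (Q ≃* ↥(S : Subgroup (Matrix.ProjectiveSpecialLinearGroup (Fin 3) F)))) := by
  have hfix : Cfsg.Agent.H300.Singer.fix α = C := by
    ext x
    rw [Cfsg.Agent.H300.Singer.mem_fix, hC]
  have hcard : Nat.card {x // α x = x} = 2 ^ n := by
    rw [← hCE.2]
    exact Nat.card_congr (Equiv.subtypeEquivRight fun x => (hC x).symm)
  have h4 : 4 ≤ 2 ^ n := by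
    calc 4 = 2 ^ 2 := by norm_num
      _ ≤ 2 ^ n := Nat.pow_le_pow_right (by norm_num) hn
  have h : Cfsg.Agent.H300.Singer.Hyp (2 ^ n) α ρ :=
    { four := h4
      two := hQ
      inv := fun x => by
        have h1 : α ^ 2 = 1 := by rw [← hα]; exact pow_orderOf_eq_one α
        have h2 := DFunLike.congr_fun h1 x
        rwa [pow_two, MulAut.mul_apply] at h2
      comm := fun x => DFunLike.congr_fun hc.eq x
      odd := ⟨2 ^ n - 1, by
        rw [Nat.odd_sub (by omega)]
        have : Even (2 ^ n) := (Nat.even_pow.2 ⟨even_two, by omega⟩)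
        simp [this], by rw [← hρ]; exact pow_orderOf_eq_one ρ⟩
      sq := fun x hx => by
        have := hCE.1.2 x ((hC x).2 hx)
        rwa [pow_two] at this
      trans := fun x y hx hy => htr x y ((hC x).2 hx) ((hC y).2 hy)
      card := hcard }
  have hna' : ∃ x y : Q, ⁅x, y⁆ ≠ 1 := by
    by_contra hcon
    push Not at hcon
    exact hna ⟨⟨fun x y => commutatorElement_eq_one_iff_mul_comm.1 (hcon x y)⟩⟩
  obtain ⟨a, b, hb, hm⟩ := h.model rfl hna'
  exact Cfsg.Agent.H300.SingerForm.concl hn hb hm

end Cfsg.Agent.S3161
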