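import Cfsg.Statements.S3171
import Cfsg.Agent.H302.Count
set_option linter.all false

set_option autoImplicit false
open Cfsg

namespace Cfsg.Agent.S3171

open Cfsg.Agent.H302 in
/-- Let P be a Sylow 2-subgroup of the Mathieu group of degree 24 and S the quotient of P by its centre. Then the centre of every maximal subgroup of S has order at most 8; S has an elementary abelian subgroup of order 64; and S has only one abelian subgroup of order 64. -/
theorem result (P : Sylow 2 ↥Cfsg.M24) :
    (∀ M : Subgroup (↥(P : Subgroup ↥Cfsg.M24) ⧸ Subgroup.center ↥(P : Subgroup ↥Cfsg.M24)), IsCoatom M →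
        Nat.card ↥(Subgroup.center ↥M) ≤ 8) ∧
      (∃ A : Subgroup (↥(P : Subgroup ↥Cfsg.M24) ⧸ Subgroup.center ↥(P : Subgroup ↥Cfsg.M24)),
        Cfsg.IsElementaryAbelian 2 A ∧ Nat.card ↥A = 64) ∧
      ∀ A B : Subgroup (↥(P : Subgroup ↥Cfsg.M24) ⧸ Subgroup.center ↥(P : Subgroup ↥Cfsg.M24)),
        IsMulCommutative ↥A → Nat.card ↥A = 64 → IsMulCommutative ↥B → Nat.card ↥B = 64 → A = B := by
  obtain ⟨u, h⟩ := exists_emb_quot P
  set Q := ↥(P : Subgroup ↥Cfsg.M24) ⧸ Subgroup.center ↥(P : Subgroup ↥Cfsg.M24) with hQ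
  have hcard : Nat.card Q = 2 ^ 9 := by
    have h1 := h.card
    rwa [Subgroup.card_top] at h1
  have : Finite Q := Nat.finite_of_card_ne_zero (by rw [hcard]; norm_num)
  have f2 : Fact (Nat.Prime 2) := ⟨Nat.prime_two⟩
  refine ⟨?_, ⟨h.A, h.A_elem, h.card_A⟩, ?_⟩
  · intro M hM
    apply h.card_center_le le_top
    have hMd : Nat.card M ∣ 2 ^ 9 := hcard ▸ Subgroup.card_subgroup_dvd_card M
    obtain ⟨k, hk, hk'⟩ := (Nat.dvd_prime_pow Nat.prime_two).1 hMd
    have hk8 : k ≤ 8 := by
      by_contra hcon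
      have : k = 9 := by omega
      apply hM.1
      rw [← Subgroup.card_eq_iff_eq_top, hcard, hk', this]
    obtain ⟨K, hK, hMK⟩ := Sylow.exists_subgroup_card_pow_prime_le 2 (n := k) (m := 8)
      (by rw [hcard]; norm_num) M hk' hk8
    have hKne : K ≠ ⊤ := by
      intro h1
      rw [h1, Subgroup.card_top, hcard] at hK
      norm_num at hK
    have hKM : K = M := by
      by_contra hne
      exact hKne (hM.2 K (lt_of_le_of_ne hMK (Ne.symm hne)))
    rw [← hKM, hK]
    norm_num
  · intro A B hA hA64 hB hB64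
    rw [h.unique le_top hA hA64, h.unique le_top hB hB64]

end Cfsg.Agent.S3171
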