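import Cfsg.Statements.S3175
import Cfsg.Agent.H303.RuNorm
set_option linter.all false

set_option autoImplicit false
open Cfsg

namespace Cfsg.Agent.S3175

/-- Let G be a finite group whose Sylow 2-subgroup T has order at least 2^14 and whose upper central series has fourth term of order 16; let W be the centralizer in T of the third term, and suppose the Frattini subgroup of W has order at most 8 and lies in every subgroup of W of index at most 16. Then the normalizer of T in G has a normal 2-complement, and W is weakly closed in T with respect to G. -/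
theorem result {G : Type*} [Group G] [Finite G]
    (T : Sylow 2 G) (ha : 2 ^ 14 ≤ Nat.card ↥(T : Subgroup G))
    (hb : Nat.card ↥(Subgroup.upperCentralSeries ↥(T : Subgroup G) 4) = 16)
    (W : Subgroup ↥(T : Subgroup G))
    (hW : W = Subgroup.centralizer ((Subgroup.upperCentralSeries ↥(T : Subgroup G) 3 : Subgroup ↥(T : Subgroup G)) : Set ↥(T : Subgroup G)))
    (hc : Nat.card ↥(frattini ↥W) ≤ 8)
    (hd : ∀ U : Subgroup ↥W, U.index ≤ 16 → frattini ↥W ≤ U) :
    Cfsg.HasNormalPComplement 2 ↥(Subgroup.normalizer ((T : Subgroup G) : Set G)) ∧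
      Cfsg.IsWeaklyClosed (W.map (T : Subgroup G).subtype) (T : Subgroup G) := by
  have h : Cfsg.Agent.H303.RuMain.Hyp ↥(T : Subgroup G) W :=
    ⟨inferInstance, T.isPGroup', ha, hb, hW, hc, hd⟩
  have : Fact (Nat.Prime 2) := ⟨Nat.prime_two⟩
  refine ⟨?_, ?_, ?_⟩
  · -- the normal complement
    set N := Subgroup.normalizer ((T : Subgroup G) : Set G) with hN
    have hTN : (T : Subgroup G) ≤ N := Subgroup.le_normalizer
    let P : Sylow 2 ↥N := T.subtype hTN
    have hPn : (P : Subgroup ↥N).Normal := by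
      show ((T : Subgroup G).subgroupOf N).Normal
      exact Subgroup.normal_in_normalizer
    obtain ⟨K, hK⟩ := Subgroup.exists_right_complement'_of_coprime
      (N := (P : Subgroup ↥N)) P.card_coprime_index
    have hKodd : Odd (Nat.card ↥K) := by
      have h1 := P.card_coprime_index
      rw [hK.symm.index_eq_card] at h1
      obtain ⟨n, hn⟩ := IsPGroup.iff_card.1 P.isPGroup'
      have h2 : n ≠ 0 := by
        rintro rfl
        have h3 : Nat.card ↥(P : Subgroup ↥N) = Nat.card ↥(T : Subgroup G) :=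
          Nat.card_congr (Subgroup.subgroupOfEquivOfLe hTN).toEquiv
        rw [hn] at h3
        rw [← h3] at ha
        norm_num at ha
      rw [hn] at h1
      have h3 : Nat.Coprime 2 (Nat.card ↥K) :=
        Nat.Coprime.coprime_dvd_left (dvd_pow_self 2 h2) h1
      exact Nat.coprime_two_left.1 h3
    -- `K` centralises `T`
    have hcent : ∀ k ∈ K, ∀ t ∈ (T : Subgroup G), (k : G) * t * (k : G)⁻¹ = t := by
      intro k hk t ht
      have h1 : k ^ (Nat.card ↥K) = 1 := by
        have := pow_card_eq_one' (x := (⟨k, hk⟩ : ↥K))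
        exact congrArg Subtype.val this
      have h2 := h.aut_trivial ((T : Subgroup G).normalizerMonoidHom k) hKodd
        (by rw [← map_pow, h1, map_one]) ⟨t, ht⟩
      exact congrArg Subtype.val h2
    refine ⟨P, K, ?_, hK.symm⟩
    refine ⟨fun k hk n => ?_⟩
    obtain ⟨⟨p, q⟩, hpq⟩ := hK.2 n
    have hpq' : (p : ↥N) * (q : ↥N) = n := hpq
    have hp : ((p : ↥N) : G) ∈ (T : Subgroup G) := p.2
    have h2 : (p : ↥N) * ((q : ↥N) * k * (q : ↥N)⁻¹) * (p : ↥N)⁻¹ = (q : ↥N) * k * (q : ↥N)⁻¹ := by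
      have hqk : (q : ↥N) * k * (q : ↥N)⁻¹ ∈ K := K.mul_mem (K.mul_mem q.2 hk) (K.inv_mem q.2)
      have h3 := hcent _ hqk _ hp
      apply Subtype.ext
      have h4 : (((q : ↥N) * k * (q : ↥N)⁻¹ : ↥N) : G) * ((p : ↥N) : G) =
        ((p : ↥N) : G) * (((q : ↥N) * k * (q : ↥N)⁻¹ : ↥N) : G) := mul_inv_eq_iff_eq_mul.1 h3
      show ((p : ↥N) : G) * (((q : ↥N) * k * (q : ↥N)⁻¹ : ↥N) : G) * ((p : ↥N) : G)⁻¹ = _
      rw [← h4, mul_inv_cancel_right]
    have h5 : n * k * n⁻¹ = (p : ↥N) * ((q : ↥N) * k * (q : ↥N)⁻¹) * (p : ↥N)⁻¹ := by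
      rw [← hpq']; group
    rw [h5, h2]
    exact K.mul_mem (K.mul_mem q.2 hk) (K.inv_mem q.2)
  · exact Subgroup.map_subtype_le _
  · intro g hg
    set X := ((W.map (T : Subgroup G).subtype).map (MulAut.conj g).toMonoidHom) with hX
    have e1 : ↥W ≃* ↥(W.map (T : Subgroup G).subtype) :=
      Subgroup.equivMapOfInjective _ _ (T : Subgroup G).subtype_injective
    have e2 : ↥(W.map (T : Subgroup G).subtype) ≃* ↥X :=
      Subgroup.equivMapOfInjective _ _ (MulAut.conj g).injective
    have e3 : ↥X ≃* ↥(X.subgroupOf (T : Subgroup G)) := (Subgroup.subgroupOfEquivOfLe hg).symm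
    have h1 := h.eq_of_equiv (X.subgroupOf (T : Subgroup G)) ((e1.trans e2).trans e3)
    rw [← h1, Subgroup.map_subgroupOf_eq_of_le hg]

end Cfsg.Agent.S3175
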