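import Cfsg.Statements.S3178
import Cfsg.Agent.H304.CIBasic
import Cfsg.Agent.S0111
import Cfsg.Agent.S1254
set_option linter.all false

set_option autoImplicit false
open Cfsg

namespace Cfsg.Agent.S3178

open Subgroup

/-- The set-up: `a` of order `2^n`, `b` an involution, `b a b⁻¹ = a^(2^(n-1)+1)`. -/
structure Mod {G : Type*} [Group G] (n : ℕ) (a b : G) : Prop where
  hn : 3 ≤ n
  hao : orderOf a = 2 ^ n
  hbo : orderOf b = 2
  hrel : b * a * b⁻¹ = a ^ (2 ^ (n - 1) + 1)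

namespace Mod

variable {G : Type*} [Group G] {n : ℕ} {a b : G} (h : Mod n a b)

include h

theorem bb : b * b = 1 := by
  have := pow_orderOf_eq_one b
  rw [h.hbo, pow_two] at this
  exact this

theorem binv : b⁻¹ = b := inv_eq_of_mul_eq_one_left h.bb

theorem pow_n : a ^ 2 ^ n = 1 := by rw [← h.hao]; exact pow_orderOf_eq_one a

/-- `z = a^(2^(n-1))`. -/
theorem z_ne : a ^ 2 ^ (n - 1) ≠ 1 := by
  intro h1
  have h2 := orderOf_dvd_of_pow_eq_one h1
  rw [h.hao] at h2
  have h3 := (Nat.pow_dvd_pow_iff_le_right (by norm_num : 1 < 2)).mp h2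
  have := h.hn
  omega

theorem two_mul_z : a ^ (2 * 2 ^ (n - 1)) = 1 := by
  have : 2 * 2 ^ (n - 1) = 2 ^ n := by
    rw [← pow_succ']
    congr 1
    have := h.hn
    omega
  rw [this, h.pow_n]

/-- `b a^i = a^(i (2^(n-1)+1)) b`. -/
theorem b_mul (i : ℕ) : b * a ^ i = a ^ (i * (2 ^ (n - 1) + 1)) * b := by
  have h1 : b * a ^ i * b⁻¹ = (b * a * b⁻¹) ^ i := by rw [conj_pow]
  rw [h.hrel, ← pow_mul, mul_comm _ i] at h1
  rw [← h1]; group

/-- `b` commutes with the squares in `⟨a⟩`. -/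
theorem b_sq (i : ℕ) : b * a ^ (2 * i) = a ^ (2 * i) * b := by
  rw [h.b_mul]
  congr 1
  have : 2 * i * (2 ^ (n - 1) + 1) = (2 * 2 ^ (n - 1)) * i + 2 * i := by ring
  rw [this, pow_add, pow_mul, h.two_mul_z, one_pow, one_mul]

theorem not_mem : b ∉ zpowers a := by
  intro hb
  obtain ⟨k, rfl⟩ := mem_zpowers_iff.mp hb
  have h1 := h.hrel
  have h2 : a ^ k * a * (a ^ k)⁻¹ = a := by group
  rw [h2, pow_succ] at h1
  have h3 : (1 : G) * a = a ^ 2 ^ (n - 1) * a := by rw [one_mul]; exact h1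
  exact h.z_ne (mul_right_cancel h3).symm

/-- an involution among the powers of `a` is `z`. -/
theorem eq_z {k : ℕ} (h1 : a ^ k ≠ 1) (h2 : a ^ k * a ^ k = 1) : a ^ k = a ^ 2 ^ (n - 1) := by
  have h3 : a ^ (2 * k) = 1 := by rw [two_mul, pow_add, h2]
  have h4 := orderOf_dvd_of_pow_eq_one h3
  have h5 : 2 ^ n = 2 * 2 ^ (n - 1) := by
    rw [← pow_succ']
    congr 1
    have := h.hn
    omega
  rw [h.hao, h5] at h4
  have h6 := Nat.dvd_of_mul_dvd_mul_left (by norm_num) h4
  obtain ⟨m, rfl⟩ := h6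
  rcases Nat.even_or_odd' m with ⟨c, rfl | rfl⟩
  · exfalso
    apply h1
    have : 2 ^ (n - 1) * (2 * c) = (2 * 2 ^ (n - 1)) * c := by ring
    rw [this, pow_mul, h.two_mul_z, one_pow]
  · have : 2 ^ (n - 1) * (2 * c + 1) = (2 * 2 ^ (n - 1)) * c + 2 ^ (n - 1) := by ring
    rw [this, pow_add, pow_mul, h.two_mul_z, one_pow, one_mul]

/-- the elements of a Sylow subgroup of order `2^(n+1)` containing `a` and `b`. -/
theorem elem [Finite G] {S : Subgroup G} (hS : Nat.card ↥S = 2 ^ (n + 1)) (ha : a ∈ S) (hb : b ∈ S) {s : G}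
    (hs : s ∈ S) : ∃ i : ℕ, s = a ^ i ∨ s = a ^ i * b := by
  have hle : zpowers a ≤ S := by rw [zpowers_le]; exact ha
  have hidx : (zpowers a).relIndex S = 2 := by
    have h1 := ((zpowers a).subgroupOf S).index_mul_card
    rw [hS, Nat.card_congr (subgroupOfEquivOfLe hle).toEquiv, Nat.card_zpowers, h.hao, pow_succ'] at h1
    exact Nat.eq_of_mul_eq_mul_right (by positivity) h1
  have hidx' : ((zpowers a).subgroupOf S).index = 2 := hidx
  have hpow : ∀ x ∈ zpowers a, ∃ i : ℕ, x = a ^ i := by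
    intro x hx
    obtain ⟨i, hi⟩ := mem_powers_iff_mem_zpowers.mpr hx
    exact ⟨i, hi.symm⟩
  by_cases hsa : s ∈ zpowers a
  · obtain ⟨i, hi⟩ := hpow s hsa
    exact ⟨i, Or.inl hi⟩
  · have h1 : (⟨s, hs⟩ : ↥S) * ⟨b, hb⟩ ∈ (zpowers a).subgroupOf S ↔
        ((⟨s, hs⟩ : ↥S) ∈ (zpowers a).subgroupOf S ↔ (⟨b, hb⟩ : ↥S) ∈ (zpowers a).subgroupOf S) :=
      mul_mem_iff_of_index_two hidx'
    have h2 : s * b ∈ zpowers a := by
      have := h1.mpr ⟨fun h3 => absurd h3 hsa, fun h3 => absurd h3 h.not_mem⟩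
      exact this
    obtain ⟨i, hi⟩ := hpow _ h2
    refine ⟨i, Or.inr ?_⟩
    rw [← hi, mul_assoc, h.bb, mul_one]

/-- squares in `S` are powers of `a`. -/
theorem sq [Finite G] {S : Subgroup G} (hS : Nat.card ↥S = 2 ^ (n + 1)) (ha : a ∈ S) (hb : b ∈ S) {s : G}
    (hs : s ∈ S) : ∃ k : ℕ, s * s = a ^ k := by
  obtain ⟨i, rfl | rfl⟩ := h.elem hS ha hb hs
  · exact ⟨i + i, by rw [pow_add]⟩
  · refine ⟨i + i * (2 ^ (n - 1) + 1), ?_⟩
    rw [pow_add]
    calc a ^ i * b * (a ^ i * b) = a ^ i * (b * a ^ i) * b := by group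
      _ = a ^ i * (a ^ (i * (2 ^ (n - 1) + 1)) * b) * b := by rw [h.b_mul]
      _ = a ^ i * a ^ (i * (2 ^ (n - 1) + 1)) * (b * b) := by group
      _ = _ := by rw [h.bb, mul_one]

/-- elements of order 4 of `S` have square `z`. -/
theorem sq_eq_z [Finite G] {S : Subgroup G} (hS : Nat.card ↥S = 2 ^ (n + 1)) (ha : a ∈ S) (hb : b ∈ S) {s : G}
    (hs : s ∈ S) (h1 : s * s ≠ 1) (h2 : s * s * (s * s) = 1) : s * s = a ^ 2 ^ (n - 1) := by
  obtain ⟨k, hk⟩ := h.sq hS ha hb hs
  rw [hk] at h1 h2 ⊢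
  exact h.eq_z h1 h2

/-- the element `y = a^(2^(n-2))` of order 4. -/
theorem y_sq : a ^ 2 ^ (n - 2) * a ^ 2 ^ (n - 2) = a ^ 2 ^ (n - 1) := by
  rw [← pow_add, ← two_mul, ← pow_succ']
  congr 2
  have := h.hn
  omega

theorem y_comm : b * a ^ 2 ^ (n - 2) = a ^ 2 ^ (n - 2) * b := by
  have h1 : 2 ^ (n - 2) = 2 * 2 ^ (n - 3) := by
    rw [← pow_succ']
    congr 1
    have := h.hn
    omega
  rw [h1]
  exact h.b_sq _

theorem zz : a ^ 2 ^ (n - 1) * a ^ 2 ^ (n - 1) = 1 := by
  rw [← pow_add, ← two_mul, h.two_mul_z]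

/-- `b` is not conjugate to a power of `a`. -/
theorem not_conj [Finite G] (S : Sylow 2 G) (hS : Nat.card ↥(S : Subgroup G) = 2 ^ (n + 1))
    (ha : a ∈ (S : Subgroup G)) (hb : b ∈ (S : Subgroup G)) (g : G) : g * b * g⁻¹ ∉ zpowers a := by
  have : Fact (Nat.Prime 2) := ⟨Nat.prime_two⟩
  intro hg
  obtain ⟨k, hk⟩ := mem_powers_iff_mem_zpowers.mpr hg
  simp only at hk
  have hb1 : b ≠ 1 := by
    intro h1
    have := h.hbo
    rw [h1, orderOf_one] at this
    omega
  have h1 : a ^ k ≠ 1 := by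
    rw [hk]
    intro h2
    apply hb1
    have h3 := congrArg (fun w => g⁻¹ * w * g) h2
    simpa [mul_assoc] using h3
  have h2 : a ^ k * a ^ k = 1 := by
    rw [hk]
    calc g * b * g⁻¹ * (g * b * g⁻¹) = g * (b * b) * g⁻¹ := by group
      _ = 1 := by rw [h.bb]; group
  have hz := h.eq_z h1 h2
  rw [hk] at hz
  -- `g b g⁻¹ = z`
  set z := a ^ 2 ^ (n - 1) with hzdef
  have hzS : ∀ s ∈ (S : Subgroup G), s * z = z * s := by
    intro s hs
    have haz : a * z = z * a := by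
      rw [hzdef]
      exact ((Commute.refl a).pow_right _).eq
    have hbz : b * z = z * b := by
      have h3 : 2 ^ (n - 1) = 2 * 2 ^ (n - 2) := by
        rw [← pow_succ']
        congr 1
        have := h.hn
        omega
      rw [hzdef, h3]
      exact h.b_sq _
    have haz' : ∀ i : ℕ, a ^ i * z = z * a ^ i := fun i => ((show Commute a z from haz).pow_left i).eq
    obtain ⟨i, rfl | rfl⟩ := h.elem hS ha hb hs
    · exact haz' i
    · rw [mul_assoc, hbz, ← mul_assoc, haz', mul_assoc]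
  -- the Sylow subgroup `T = g⁻¹ S g` centralises `b`
  have hT : ((g⁻¹ • S : Sylow 2 G) : Subgroup G) ≤ centralizer ({b} : Set G) := by
    rintro _ ⟨s, hs, rfl⟩
    rw [mem_centralizer_iff]
    intro w hw
    rw [Set.mem_singleton_iff.mp hw]
    show b * (g⁻¹ * s * g⁻¹⁻¹) = g⁻¹ * s * g⁻¹⁻¹ * b
    have hbz : b = g⁻¹ * z * g := by rw [← hz]; group
    rw [hbz]
    calc g⁻¹ * z * g * (g⁻¹ * s * g⁻¹⁻¹) = g⁻¹ * (z * s) * g := by group
      _ = g⁻¹ * (s * z) * g := by rw [hzS s hs]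
      _ = g⁻¹ * s * g⁻¹⁻¹ * (g⁻¹ * z * g) := by group
  set y := a ^ 2 ^ (n - 2) with hy
  have hyz : y * y = z := h.y_sq
  have hycent : zpowers y ≤ centralizer ({b} : Set G) := by
    rw [zpowers_le, mem_centralizer_iff]
    intro w hw
    rw [Set.mem_singleton_iff.mp hw]
    exact h.y_comm
  have hyp : IsPGroup 2 ↥(zpowers y) := by
    refine S.isPGroup'.to_le ?_
    rw [zpowers_le]
    exact (S : Subgroup G).pow_mem ha _
  obtain ⟨c, hc, hcy⟩ := Cfsg.Agent.H304.CIBasic.exists_conj_le (g⁻¹ • S) hT hyp hycent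
  obtain ⟨s, hs, hs'⟩ := hcy y (mem_zpowers y)
  have hs2 : g⁻¹ * s * g⁻¹⁻¹ = c * y * c⁻¹ := hs'
  have hs3 : s = g * c * y * (g * c)⁻¹ := by
    have h3 := congrArg (fun w => g * w * g⁻¹) hs2
    simpa [mul_assoc] using h3
  have hss : s * s = g * c * z * (g * c)⁻¹ := by
    rw [hs3, ← hyz]; group
  have hz1 : z ≠ 1 := h.z_ne
  have hzz : z * z = 1 := h.zz
  have h4 : s * s ≠ 1 := by
    rw [hss]
    intro h5
    apply hz1
    have h6 := congrArg (fun w => (g * c)⁻¹ * w * (g * c)) h5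
    simpa [mul_assoc] using h6
  have h5 : s * s * (s * s) = 1 := by
    rw [hss]
    calc g * c * z * (g * c)⁻¹ * (g * c * z * (g * c)⁻¹) = g * c * (z * z) * (g * c)⁻¹ := by group
      _ = 1 := by rw [hzz]; group
  have h6 : s * s = z := h.sq_eq_z hS ha hb hs h4 h5
  rw [hss, ← hz] at h6
  have h7 : c * (g * b * g⁻¹) * c⁻¹ = b := by
    have h8 := congrArg (fun w => g⁻¹ * w * g) h6
    simpa [mul_assoc] using h8
  rw [hz] at h7
  have hcb : b * c = c * b := mem_centralizer_iff.mp hc b rfl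
  have h8 : z = b := by
    have h9 := congrArg (fun w => c⁻¹ * w * c) h7
    have h10 : c⁻¹ * b * c = b := by rw [mul_assoc, hcb, ← mul_assoc, inv_mul_cancel, one_mul]
    simp only [h10] at h9
    simpa [mul_assoc] using h9
  apply h.not_mem
  rw [← h8]
  exact Subgroup.npow_mem_zpowers a _

end Mod

/-- Groups with a modular Sylow 2-subgroup have a normal 2-complement. Let S, of order 2^(n+1) with n ≥ 3, be a Sylow 2-subgroup of a finite group G, and suppose S contains an element a of order 2^n and an involution b with b a b⁻¹ = a^(2^(n-1) + 1); so S is the non-abelian 2-group with a cyclic subgroup of index 2 that is neither dihedral, semidihedral nor generalized quaternion. Then G has a normal 2-complement. -/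
theorem result {G : Type*} [Group G] [Finite G]
    (S : Sylow 2 G) (n : ℕ) (hn : 3 ≤ n) (hS : Nat.card ↥(S : Subgroup G) = 2 ^ (n + 1))
    (a b : G) (ha : a ∈ (S : Subgroup G)) (hb : b ∈ (S : Subgroup G))
    (hao : orderOf a = 2 ^ n) (hbo : orderOf b = 2) (hrel : b * a * b⁻¹ = a ^ (2 ^ (n - 1) + 1)) :
    Cfsg.HasNormalPComplement 2 G := by
  classical
  have : Fact (Nat.Prime 2) := ⟨Nat.prime_two⟩
  have h : Mod n a b := ⟨hn, hao, hbo, hrel⟩
  have hle : zpowers a ≤ (S : Subgroup G) := by rw [zpowers_le]; exact ha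
  have hidx : (zpowers a).relIndex (S : Subgroup G) = 2 := by
    have h1 := ((zpowers a).subgroupOf (S : Subgroup G)).index_mul_card
    rw [hS, Nat.card_congr (subgroupOfEquivOfLe hle).toEquiv, Nat.card_zpowers, h.hao, pow_succ'] at h1
    exact Nat.eq_of_mul_eq_mul_right (by positivity) h1
  rcases Cfsg.Agent.S0111.result S (zpowers a) hle hidx b hbo hb h.not_mem with ⟨M, hMn, hM2, hbM⟩ | ⟨g, hg⟩
  swap
  · exact absurd hg (h.not_conj S hS ha hb g)
  -- an element of order `2^n` in `M`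
  have hx : ∃ x ∈ M, orderOf x = 2 ^ n := by
    by_cases haM : a ∈ M
    · exact ⟨a, haM, hao⟩
    · refine ⟨a * b, (mul_mem_iff_of_index_two hM2).mpr ⟨fun h3 => absurd h3 haM, fun h3 => absurd h3 hbM⟩, ?_⟩
      have hsq : a * b * (a * b) = a ^ (2 * (2 ^ (n - 2) + 1)) := by
        have h3 := h.b_mul 1
        rw [pow_one, one_mul] at h3
        calc a * b * (a * b) = a * (b * a) * b := by group
          _ = a * (a ^ (2 ^ (n - 1) + 1) * b) * b := by rw [h3]
          _ = a * a ^ (2 ^ (n - 1) + 1) * (b * b) := by group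
          _ = a ^ (2 * (2 ^ (n - 2) + 1)) := by
            rw [h.bb, mul_one, ← pow_succ']
            congr 1
            have : 2 ^ (n - 1) = 2 * 2 ^ (n - 2) := by
              rw [← pow_succ']
              congr 1
              omega
            omega
      have h2n : 2 ^ n = 2 * 2 ^ (n - 1) := by
        rw [← pow_succ']
        congr 1
        omega
      have h4 : orderOf (a * b) ∣ 2 ^ (n + 1) := by
        have h5 : (⟨a * b, mul_mem ha hb⟩ : ↥(S : Subgroup G)) ^ Nat.card ↥(S : Subgroup G) = 1 :=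
          pow_card_eq_one'
        rw [hS] at h5
        exact orderOf_dvd_of_pow_eq_one (congrArg Subtype.val h5)
      obtain ⟨j, hj, hj'⟩ := (Nat.dvd_prime_pow Nat.prime_two).mp h4
      rw [hj']
      congr 1
      -- `(a b)^(2^(n-1)) ≠ 1` and `(a b)^(2^n) = 1`
      have hodd : ∀ m : ℕ, (a * b) ^ (2 * m) = a ^ (2 * (2 ^ (n - 2) + 1) * m) := by
        intro m
        rw [pow_mul, pow_two, hsq, ← pow_mul]
      have h5 : (a * b) ^ 2 ^ n = 1 := by
        rw [h2n, hodd]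
        have : 2 * (2 ^ (n - 2) + 1) * 2 ^ (n - 1) = (2 * 2 ^ (n - 1)) * (2 ^ (n - 2) + 1) := by ring
        rw [this, pow_mul, h.two_mul_z, one_pow]
      have h6 : (a * b) ^ 2 ^ (n - 1) ≠ 1 := by
        have h7 : 2 ^ (n - 1) = 2 * 2 ^ (n - 2) := by
          rw [← pow_succ']
          congr 1
          omega
        rw [h7, hodd]
        intro h8
        have h9 := orderOf_dvd_of_pow_eq_one h8
        rw [hao] at h9
        have h10 : 2 * (2 ^ (n - 2) + 1) * 2 ^ (n - 2) = 2 ^ (n - 1) * (2 ^ (n - 2) + 1) := by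
          rw [h7]; ring
        rw [h10, h2n, mul_comm 2 (2 ^ (n - 1))] at h9
        have h11 := Nat.dvd_of_mul_dvd_mul_left (by positivity) h9
        have h12 : 2 ^ (n - 2) = 2 * 2 ^ (n - 3) := by
          rw [← pow_succ']
          congr 1
          omega
        omega
      have h7 : j ≤ n := by
        have := orderOf_dvd_of_pow_eq_one h5
        rw [hj'] at this
        exact (Nat.pow_dvd_pow_iff_le_right (by norm_num : 1 < 2)).mp this
      have h8 : ¬ j ≤ n - 1 := by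
        intro h9
        apply h6
        have h10 : 2 ^ j ∣ 2 ^ (n - 1) := pow_dvd_pow 2 h9
        exact orderOf_dvd_iff_pow_eq_one.mp (by rw [hj']; exact h10)
      omega
  obtain ⟨x, hxM, hxo⟩ := hx
  have hcardG : Nat.card G = 2 * Nat.card ↥M := by
    rw [← M.index_mul_card, hM2]
  have hfac : (Nat.card G).factorization 2 = n + 1 := by
    have h1 := S.card_eq_multiplicity
    rw [hS] at h1
    exact (Nat.pow_right_injective (le_refl 2) h1).symm
  have hM0 : Nat.card ↥M ≠ 0 := Nat.card_pos.ne'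
  have hfacM : (Nat.card ↥M).factorization 2 = n := by
    rw [hcardG, Nat.factorization_mul (by norm_num) hM0, Finsupp.add_apply,
      Nat.Prime.factorization_self Nat.prime_two] at hfac
    omega
  have hxp : IsPGroup 2 ↥(zpowers (⟨x, hxM⟩ : ↥M)) := by
    apply IsPGroup.of_card (n := n)
    rw [Nat.card_zpowers, Subgroup.orderOf_mk, hxo]
  obtain ⟨P, hP⟩ := hxp.exists_le_sylow
  have hPc : Nat.card ↥(P : Subgroup ↥M) = 2 ^ n := by rw [P.card_eq_multiplicity, hfacM]
  have hcyc : IsCyclic ↥(P : Subgroup ↥M) := by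
    refine isCyclic_of_orderOf_eq_card (⟨⟨x, hxM⟩, hP (mem_zpowers _)⟩ : ↥(P : Subgroup ↥M)) ?_
    rw [Subgroup.orderOf_mk, Subgroup.orderOf_mk, hxo, hPc]
  refine Cfsg.Agent.S1254.hasNormalPComplement_of_cyclic M hM2 ?_ P hcyc
  by_contra h2
  rw [Nat.factorization_eq_zero_of_not_dvd h2] at hfacM
  omega

end Cfsg.Agent.S3178
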