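import Cfsg.Statements.S3179
import Cfsg.Agent.H304.GL52
import Cfsg.Agent.ClassicalGeometry.PSL2Basic
import Cfsg.Agent.S0280
import Cfsg.Agent.S1163
set_option linter.all false

set_option autoImplicit false
open Cfsg

namespace Cfsg.Agent.S3179

open Cfsg.Agent.H304.GL52

theorem card_dvd {H : Subgroup (GL (Fin 5) (ZMod 2))} {K : Subgroup ↥H} [K.Normal] {X : Type*} [Group X]
    (e : ↥H ⧸ K ≃* X) : Nat.card X ∣ 9999360 := by
  rw [← Nat.card_congr e.toEquiv, ← card_gl]
  exact (Subgroup.card_quotient_dvd_card K).trans (Subgroup.card_subgroup_dvd_card H)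

/-- a quotient of a subgroup of `GL(5,2)` has no element of order 9. -/
theorem cube_quot {H : Subgroup (GL (Fin 5) (ZMod 2))} {K : Subgroup ↥H} [K.Normal] {X : Type*} [Group X]
    (e : ↥H ⧸ K ≃* X) {x : X} (hx : x ^ 9 = 1) : x ^ 3 = 1 := by
  obtain ⟨h, hh⟩ := QuotientGroup.mk_surjective (e.symm x)
  have hfin : Finite ↥H := inferInstance
  obtain ⟨k, m, hm3, hm⟩ := Nat.exists_eq_pow_mul_and_not_dvd (orderOf_pos h).ne' 3 (by norm_num)
  have h1 : ((h : GL (Fin 5) (ZMod 2)) ^ m) ^ 3 ^ k = 1 := by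
    rw [← pow_mul, mul_comm, ← hm]
    exact congrArg Subtype.val (pow_orderOf_eq_one h)
  have h2 := cube_eq_one h1
  have h3 : h ^ (m * 3) = 1 := by
    apply Subtype.ext
    rw [pow_mul]
    simpa using h2
  have h4 : x ^ (m * 3) = 1 := by
    apply e.symm.injective
    rw [map_pow, ← hh, map_one, ← QuotientGroup.mk_pow, h3]
    rfl
  have h5 := Nat.dvd_gcd (orderOf_dvd_of_pow_eq_one h4) (orderOf_dvd_of_pow_eq_one hx)
  have h6 : Nat.gcd (m * 3) 9 = 3 := by
    have h7 : Nat.Coprime m 3 := ((Nat.prime_three.coprime_iff_not_dvd).mpr hm3).symm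
    rw [show (9 : ℕ) = 3 * 3 from rfl, Nat.gcd_mul_right]
    rw [h7.gcd_eq_one]
  rw [h6] at h5
  exact orderOf_dvd_iff_pow_eq_one.mp h5

theorem two_pow_le {n : ℕ} (h : 2 ^ n ∣ 9999360) : n ≤ 10 := by
  by_contra hn
  push Not at hn
  have h1 : 2 ^ 11 ∣ 9999360 := (pow_dvd_pow 2 hn).trans h
  norm_num at h1

/-- Let X be a section of the general linear group GL(5, 2), that is, a quotient of a subgroup of it. If X is isomorphic to PSL(2, 2^n) for some n ≥ 2, to a Suzuki group over the field with 2^(2m+1) elements for some m ≥ 1, or to PSU(3, 2^n) for some n ≥ 2, then X is isomorphic to PSL(2, 4). -/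
theorem result {H : Subgroup (GL (Fin 5) (ZMod 2))}
    {K : Subgroup ↥H} [K.Normal]
    (hX : (∃ (n : ℕ) (F : Type) (_ : Field F) (_ : Fintype F), 2 ≤ n ∧ Fintype.card F = 2 ^ n ∧
        Nonempty (↥H ⧸ K ≃* Matrix.ProjectiveSpecialLinearGroup (Fin 2) F)) ∨
      (∃ (m : ℕ) (F : Type) (_ : Field F) (_ : Fintype F), 1 ≤ m ∧ Fintype.card F = 2 ^ (2 * m + 1) ∧
        Nonempty (↥H ⧸ K ≃* ↥(Cfsg.Lie.Sz F (2 ^ (m + 1))))) ∨
      (∃ (n : ℕ) (F : Type) (_ : Field F) (_ : Fintype F), 2 ≤ n ∧ Fintype.card F = 4 ^ n ∧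
        Nonempty (↥H ⧸ K ≃* Cfsg.PSU 3 F (2 ^ n)))) :
    ∃ (F : Type) (_ : Field F) (_ : Fintype F), Fintype.card F = 4 ∧
      Nonempty (↥H ⧸ K ≃* Matrix.ProjectiveSpecialLinearGroup (Fin 2) F) := by
  rcases hX with ⟨n, F, i1, i2, hn, hF, ⟨e⟩⟩ | ⟨m, F, i1, i2, hm, hF, ⟨e⟩⟩ | ⟨n, F, i1, i2, hn, hF, ⟨e⟩⟩
  · have hev : Even (Fintype.card F) := by
      rw [hF]
      exact (Nat.even_pow' (by omega)).mpr even_two
    have hd := card_dvd e
    rw [Cfsg.Agent.ClassicalGeometry.PSL2Basic.card_PSL2_even F hev, hF] at hd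
    have hn10 : n ≤ 10 := two_pow_le ((Dvd.intro _ rfl).trans hd)
    interval_cases n
    · exact ⟨F, i1, i2, by rw [hF]; norm_num, ⟨e⟩⟩
    · exfalso
      obtain ⟨x, hx9, hx3⟩ := exists_nine (F := F) (by rw [hF]; norm_num)
      exact hx3 (cube_quot e hx9)
    all_goals norm_num at hd
  · exfalso
    have hd := card_dvd e
    rw [(Cfsg.Agent.S1163.result hm hF).1] at hd
    have h1 : 2 * (2 * m + 1) ≤ 10 := by
      apply two_pow_le
      rw [mul_comm, pow_mul]
      rw [mul_assoc] at hd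
      exact (Dvd.intro _ rfl).trans hd
    have hm2 : m ≤ 2 := by omega
    interval_cases m
    all_goals norm_num at hd
  · exfalso
    have hd := card_dvd e
    have hF' : Fintype.card F = (2 ^ n) ^ 2 := by
      rw [hF, ← pow_mul, mul_comm, pow_mul]; norm_num
    have hc := Cfsg.Agent.S0280.result (F := F) hF' 3 (by norm_num)
    rw [Finset.prod_range_succ, Finset.prod_range_succ, Finset.prod_range_one] at hc
    rw [if_pos (by decide), if_neg (by decide), if_pos (by decide)] at hc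
    have hpos : Nat.card (Cfsg.PSU 3 F (2 ^ n)) ≤ 9999360 := Nat.le_of_dvd (by norm_num) hd
    have hn3 : n ≤ 3 := by
      by_contra hcon
      push Not at hcon
      have hq : 16 ≤ 2 ^ n := by
        calc 16 = 2 ^ 4 := by norm_num
          _ ≤ 2 ^ n := Nat.pow_le_pow_right (by norm_num) hcon
      have hg : Nat.gcd 3 (2 ^ n + 1) ≤ 3 := Nat.le_of_dvd (by norm_num) (Nat.gcd_dvd_left _ _)
      generalize 2 ^ n = q at *
      have h1 : Nat.gcd 3 (q + 1) * ((q + 1) * Nat.card (Cfsg.PSU 3 F q)) ≤ 3 * ((q + 1) * 9999360) := by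
        gcongr
      rw [hc] at h1
      have h2 : 16 ^ (3 * (3 - 1) / 2) * ((q + 1) * (16 ^ 2 - 1) * (16 ^ 3 + 1)) ≤
          q ^ (3 * (3 - 1) / 2) * ((q ^ (0 + 1) + 1) * (q ^ (1 + 1) - 1) * (q ^ (2 + 1) + 1)) := by
        have e1 : q ^ (0 + 1) + 1 = q + 1 := by ring
        rw [e1]
        have e2 : 16 ^ 2 - 1 ≤ q ^ (1 + 1) - 1 := by
          have : 16 ^ 2 ≤ q ^ 2 := Nat.pow_le_pow_left hq 2
          exact Nat.sub_le_sub_right this 1
        gcongr
      have h3 := h2.trans h1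
      norm_num at h3
      omega
    interval_cases n
    · generalize Nat.card (Cfsg.PSU 3 F (2 ^ 2)) = c at *
      norm_num at hc
      have h1 : c = 62400 := by omega
      subst h1
      norm_num at hd
    · generalize Nat.card (Cfsg.PSU 3 F (2 ^ 3)) = c at *
      norm_num at hc
      have h1 : c = 5515776 := by omega
      subst h1
      norm_num at hd

end Cfsg.Agent.S3179
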