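import Cfsg.Statements.S3190
import Cfsg.Agent.Lib.CoprimeAbelian
import Cfsg.Agent.Characters.CNBasic
set_option linter.all false
-- import your own Cfsg.Agent.* helpers here

set_option autoImplicit false
open Cfsg

namespace Cfsg.Agent.S3190

open Subgroup
open scoped commutatorElement

/-- Let p be an odd prime and, inside a finite group, let P be a p-subgroup normalized by a Klein four-group T. Let R be a subgroup of P, normal in P and normalized by T, such that P is the product of R with the centralizer of T in P. If T centralizes the centre of P, then T centralizes the centre of R. -/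
theorem result {X : Type*} [Group X] [Finite X]
    {p : ℕ} (hp : p.Prime) (hodd : Odd p) (P T R : Subgroup X) (hP : IsPGroup p ↥P) (hT : IsKleinFour ↥T)
    (hTP : T ≤ Subgroup.normalizer (P : Set X)) (hRP : R ≤ P) (hRn : (R.subgroupOf P).Normal)
    (hTR : T ≤ Subgroup.normalizer (R : Set X)) (hfac : R ⊔ (P ⊓ Subgroup.centralizer (T : Set X)) = P)
    (hZ : T ≤ Subgroup.centralizer (((Subgroup.center ↥P).map P.subtype : Subgroup X) : Set X)) :
    T ≤ Subgroup.centralizer (((Subgroup.center ↥R).map R.subtype : Subgroup X) : Set X) := by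
  have : Fact p.Prime := ⟨hp⟩
  have memV : ∀ v : X, v ∈ (Subgroup.center ↥R).map R.subtype ↔ v ∈ R ∧ ∀ r ∈ R, r * v = v * r := by
    intro v
    constructor
    · rintro ⟨z, hz, rfl⟩
      refine ⟨z.2, fun r hr => ?_⟩
      exact congrArg Subtype.val (mem_center_iff.1 hz ⟨r, hr⟩)
    · rintro ⟨h1, h2⟩
      exact ⟨⟨v, h1⟩, mem_center_iff.2 (fun r => Subtype.ext (h2 r r.2)), rfl⟩
  have memVP : ∀ v : X, v ∈ P → (∀ r ∈ P, r * v = v * r) → v ∈ (Subgroup.center ↥P).map P.subtype := by
    intro v h1 h2
    exact ⟨⟨v, h1⟩, mem_center_iff.2 (fun r => Subtype.ext (h2 r r.2)), rfl⟩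
  have conjV : ∀ g : X, g ∈ normalizer (R : Set X) → ∀ v ∈ (Subgroup.center ↥R).map R.subtype,
      g * v * g⁻¹ ∈ (Subgroup.center ↥R).map R.subtype := by
    intro g hg v hv
    obtain ⟨h1, h2⟩ := (memV v).1 hv
    refine (memV _).2 ⟨(mem_normalizer_iff.1 hg v).1 h1, fun r hr => ?_⟩
    have h3 : g⁻¹ * r * g ∈ R := by
      have := (mem_normalizer_iff.1 (inv_mem hg) r).1 hr
      rwa [inv_inv] at this
    have h4 := h2 _ h3
    calc r * (g * v * g⁻¹) = g * ((g⁻¹ * r * g) * v) * g⁻¹ := by group
      _ = g * (v * (g⁻¹ * r * g)) * g⁻¹ := by rw [h4]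
      _ = (g * v * g⁻¹) * r := by group
  have leNV : normalizer (R : Set X) ≤ normalizer (((Subgroup.center ↥R).map R.subtype : Subgroup X) : Set X) := by
    intro g hg
    rw [mem_normalizer_iff]
    intro v
    constructor
    · exact conjV g hg v
    · intro h
      have h2 := conjV g⁻¹ (inv_mem hg) _ h
      have h3 : g⁻¹ * (g * v * g⁻¹) * g⁻¹⁻¹ = v := by group
      rwa [h3] at h2
  set V : Subgroup X := (Subgroup.center ↥R).map R.subtype with hV
  have hVR : V ≤ R := fun v hv => ((memV v).1 hv).1
  have hab : ∀ x ∈ V, ∀ y ∈ V, x * y = y * x := fun x hx y hy => ((memV y).1 hy).2 x (hVR hx)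
  have hPR : P ≤ normalizer (R : Set X) := (normal_subgroupOf_iff_le_normalizer hRP).1 hRn
  have hTV : T ≤ normalizer (V : Set X) := hTR.trans leNV
  have hcop : (Nat.card T).Coprime (Nat.card V) := by
    have h4 : Nat.card T = 4 := hT.card_four
    obtain ⟨k, hk⟩ := (IsPGroup.iff_card (p := p)).1 (hP.to_le (hVR.trans hRP))
    rw [h4, hk]
    apply Nat.Coprime.pow_right
    have : Nat.Coprime (2 ^ 2) p := Nat.Coprime.pow_left _ hodd.coprime_two_left
    simpa using this
  have h0 := Lib.CoprimeAbelian.inf_commutator_eq_bot T V hab hTV hcop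
  have hWV : ⁅V, T⁆ ≤ V := by
    rw [commutator_le]
    intro v hv t ht
    have h1 := (mem_normalizer_iff.1 (hTV ht) v⁻¹).1 (inv_mem hv)
    have h2 : ⁅v, t⁆ = v * (t * v⁻¹ * t⁻¹) := by rw [commutatorElement_def]; group
    rw [h2]
    exact mul_mem hv h1
  have hcomm : ⁅V, T⁆ = ⊥ := by
    by_contra hne
    have hPW : ∀ t ∈ P, ∀ d ∈ ⁅V, T⁆, t * d * t⁻¹ ∈ ⁅V, T⁆ := by
      have h1 : P ≤ normalizer ((⁅V, T⁆ : Subgroup X) : Set X) := by
        rw [← hfac]
        refine sup_le ?_ ?_
        · intro r hr
          rw [mem_normalizer_iff]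
          intro x
          have key : ∀ y ∈ V, r * y = y * r := fun y hy => ((memV y).1 hy).2 r hr
          constructor
          · intro hx
            rw [key x (hWV hx)]
            simpa using hx
          · intro hx
            have h2 := key _ (hWV hx)
            have h3 : r * x * r⁻¹ = x := by
              have h4 : r * (r * x * r⁻¹) = (r * x * r⁻¹) * r := h2
              have h5 : r * (r * x * r⁻¹) = r * x := by rw [h4]; group
              exact mul_left_cancel h5
            rwa [h3] at hx
        · rintro g ⟨hgP, hgT⟩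
          have hgV : g ∈ normalizer (V : Set X) := leNV (hPR hgP)
          have key : ∀ g : X, g ∈ normalizer (V : Set X) → g ∈ centralizer (T : Set X) →
              ∀ x ∈ ⁅V, T⁆, g * x * g⁻¹ ∈ ⁅V, T⁆ := by
            intro g hgV hgT
            have h5 : ⁅V, T⁆ ≤ (⁅V, T⁆).comap (MulAut.conj g).toMonoidHom := by
              rw [commutator_le]
              intro v hv t ht
              rw [mem_comap]
              have h6 : g * t = t * g := (mem_centralizer_iff.1 hgT t ht).symm
              have h7 : g * t * g⁻¹ = t := by rw [h6]; group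
              have h8 : (MulAut.conj g).toMonoidHom ⁅v, t⁆ = ⁅g * v * g⁻¹, t⁆ := by
                rw [map_commutatorElement]
                change ⁅g * v * g⁻¹, g * t * g⁻¹⁆ = _
                rw [h7]
              rw [h8]
              exact commutator_mem_commutator ((mem_normalizer_iff.1 hgV v).1 hv) ht
            exact fun x hx => h5 hx
          rw [mem_normalizer_iff]
          intro x
          constructor
          · exact key g hgV hgT x
          · intro hx
            have h2 := key g⁻¹ (inv_mem hgV) (inv_mem hgT) _ hx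
            have h3 : g⁻¹ * (g * x * g⁻¹) * g⁻¹⁻¹ = x := by group
            rwa [h3] at h2
      intro t ht d hd
      exact (mem_normalizer_iff.1 (h1 ht) d).1 hd
    obtain ⟨w, hw, hw1, hwc⟩ := Characters.CNBasic.exists_mem_center_of_normal P hP ⁅V, T⁆
      (hP.to_le (hWV.trans (hVR.trans hRP))) hne hPW
    have hwV := hWV hw
    have hwT : w ∈ centralizer (T : Set X) := by
      rw [mem_centralizer_iff]
      intro t ht
      have h1 := hZ ht
      rw [mem_centralizer_iff] at h1
      exact (h1 w (memVP w (hRP (hVR hwV)) hwc)).symm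
    have h2 : w ∈ (V ⊓ centralizer (T : Set X)) ⊓ ⁅V, T⁆ := ⟨⟨hwV, hwT⟩, hw⟩
    rw [h0, mem_bot] at h2
    exact hw1 h2
  rw [commutator_comm] at hcomm
  exact commutator_eq_bot_iff_le_centralizer.1 hcomm

end Cfsg.Agent.S3190
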