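import Cfsg.Statements.S3191
import Cfsg.Agent.H244.Kondo.Final
set_option linter.all false

set_option autoImplicit false
open Cfsg

namespace Cfsg.Agent.S3191

/-- Let n ≥ 1 and r = 2 or 3, and let H be the centralizer in the alternating group of degree 4n + r of an involution moving exactly 4n points (a product of 2n disjoint transpositions). Let G be a finite group that has no normal subgroup of index 2 and that contains an involution t which is central in some Sylow 2-subgroup of G and whose centralizer is isomorphic to H. Then G has exactly n conjugacy classes of involutions. -/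
theorem result (n r : ℕ) (hn : 1 ≤ n) (hr : r = 2 ∨ r = 3)
    (α : ↥(alternatingGroup (Fin (4 * n + r)))) (hα : orderOf α = 2)
    (hα4 : (α : Equiv.Perm (Fin (4 * n + r))).support.card = 4 * n)
    {G : Type*} [Group G] [Finite G] (h2 : ∀ H : Subgroup G, H.Normal → H.index ≠ 2)
    (t : G) (ht : orderOf t = 2) (S : Sylow 2 G) (htS : t ∈ (S : Subgroup G))
    (htZ : ∀ s ∈ (S : Subgroup G), s * t = t * s)
    (hiso : Nonempty (↥(Subgroup.centralizer ({t} : Set G)) ≃*
      ↥(Subgroup.centralizer ({α} : Set ↥(alternatingGroup (Fin (4 * n + r))))))) :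
    Nat.card {c : ConjClasses G // ∃ x ∈ c.carrier, orderOf x = 2} = n := by
  obtain ⟨ρ, hρ1, hρ2, -, -⟩ := Cfsg.Agent.H306.Kon.exists_rho hn hr α hα hα4
  obtain ⟨e⟩ := hiso
  have e2 : Fin (2 * n) ≃ Cfsg.Agent.H244.Kondo.La n := Fintype.equivOfCardEq (by
    rw [Fintype.card_fin, Fintype.card_prod, Fintype.card_fin, Fintype.card_bool, mul_comm])
  let π : Subgroup.centralizer ({t} : Set G) →* Cfsg.Agent.H306.Kon.Wr (Cfsg.Agent.H244.Kondo.La n) :=
    (Cfsg.Agent.H244.Kondo.Wr.congr e2).toMonoidHom.comp (ρ.comp e.toMonoidHom)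
  have hπ : Function.Surjective π :=
    (Cfsg.Agent.H244.Kondo.Wr.congr e2).surjective.comp (hρ1.comp e.surjective)
  have hker : Odd (Nat.card π.ker) := by
    have h1 : Nat.card π.ker = Nat.card ρ.ker := by
      refine Nat.card_congr (e.toEquiv.subtypeEquiv fun x => ?_)
      change Cfsg.Agent.H244.Kondo.Wr.congr e2 (ρ (e x)) = 1 ↔ ρ (e x) = 1
      exact map_eq_one_iff _ (Cfsg.Agent.H244.Kondo.Wr.congr e2).injective
    rw [h1]
    rcases hρ2 with h | h
    · rw [h]; decide
    · rw [h]; decide
  have hS : (S : Subgroup G) ≤ Subgroup.centralizer {t} := fun s hs =>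
    Subgroup.mem_centralizer_singleton_iff.2 (htZ s hs)
  refine Cfsg.Agent.H244.Kondo.main hn ?_ S hS htS π hπ hker ?_
  · intro H hH
    exact h2 H (Subgroup.normal_of_index_eq_two hH) hH
  · intro h
    have : Nonempty (Cfsg.Agent.H244.Kondo.La n) := ⟨(⟨0, by omega⟩, false)⟩
    apply Cfsg.Agent.H244.Kondo.eq_z_of_central
    · intro y
      obtain ⟨c, rfl⟩ := hπ y
      rw [← map_mul, ← map_mul]
      congr 1
      exact (Subtype.ext (Subgroup.mem_centralizer_singleton_iff.1 c.2)).symm
    · intro h1
      have h3 : IsPGroup 2 (Subgroup.zpowers (⟨t, h⟩ : Subgroup.centralizer ({t} : Set G))) :=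
        IsPGroup.of_card (n := 1) (by
          rw [Nat.card_zpowers, ← Subgroup.orderOf_coe]
          exact ht)
      have h4 := Cfsg.Agent.H244.Kondo.eq_one_of_odd hker h3 (Subgroup.mem_zpowers _) h1
      have h5 : t = 1 := congrArg Subtype.val h4
      rw [h5, orderOf_one] at ht
      omega

end Cfsg.Agent.S3191
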