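import Cfsg.Statements.S3195
import Cfsg.Agent.S0200
set_option linter.all false

set_option autoImplicit false
open Cfsg

namespace Cfsg.Agent.S3195

/-- an element of odd order commuting with another one of odd order: if their product has square one, it is one. -/
theorem eq_one_of_odd {G : Type*} [Group G] {w : G} (hw : Odd (orderOf w)) (h2 : w * w = 1) : w = 1 := by
  have h : orderOf w ∣ 2 := orderOf_dvd_of_pow_eq_one (by rw [pow_two]; exact h2)
  rcases (Nat.dvd_prime Nat.prime_two).1 h with h1 | h1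
  · exact orderOf_eq_one_iff.1 h1
  · rw [h1] at hw; exact absurd hw (by decide)

/-- square roots of elements of odd order. -/
theorem exists_sqrt {G : Type*} [Group G] {u : G} (hu : Odd (orderOf u)) :
    ∃ k : ℕ, (u ^ k) * (u ^ k) = u := by
  obtain ⟨m, hm⟩ := hu
  refine ⟨m + 1, ?_⟩
  rw [← pow_add]
  have : m + 1 + (m + 1) = orderOf u + 1 := by omega
  rw [this, pow_succ, pow_orderOf_eq_one, one_mul]

/-- core computation -/
theorem core {G : Type*} [Group G] (A : Subgroup G)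
    (h : ∀ a ∈ A, a ≠ 1 → ∀ g : G, ∃ b ∈ A, b ≠ 1 ∧ b * (g * a * g⁻¹) = g * a * g⁻¹ * b)
    {x y : G} (hx : x ∈ A) (hy : y ∈ A) (hA : ∀ b ∈ A, b = 1 ∨ b = x ∨ b = y ∨ b = x * y)
    (hxx : x * x = 1) (hyy : y * y = 1) (hxy : x * y = y * x) (hxy1 : x * y ≠ 1)
    {u v : G} (hu : Odd (orderOf u)) (hv : Odd (orderOf v)) (hu1 : u ≠ 1) (hv1 : v ≠ 1)
    (hxu : x * u = u⁻¹ * x) (hyv : y * v = v⁻¹ * y) (hxv : x * v = v * x) (hyu : y * u = u * y)
    (huv : u * v = v * u) : False := by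
  obtain ⟨k, hk⟩ := exists_sqrt hu
  obtain ⟨l, hl⟩ := exists_sqrt hv
  have hxuk : ∀ n : ℕ, x * u ^ n = (u ^ n)⁻¹ * x := by
    intro n
    induction n with
    | zero => simp
    | succ n ih =>
      rw [pow_succ, ← mul_assoc, ih, mul_assoc, hxu, ← mul_assoc]
      congr 1
      rw [mul_inv_rev]
      exact ((Commute.refl u).pow_left n).inv_inv.eq
  have hyvl : ∀ n : ℕ, y * v ^ n = (v ^ n)⁻¹ * y := by
    intro n
    induction n with
    | zero => simp
    | succ n ih =>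
      rw [pow_succ, ← mul_assoc, ih, mul_assoc, hyv, ← mul_assoc]
      congr 1
      rw [mul_inv_rev]
      exact ((Commute.refl v).pow_left n).inv_inv.eq
  have cxv : Commute x v := hxv
  have cyu : Commute y u := hyu
  have cuv : Commute u v := huv
  set w := u ^ k with hw
  set w' := v ^ l with hw'
  -- conjugating by `g = w * w'` : the line becomes `x u`, `y v`
  have hnv : ∀ n m : G, n * m = m * n → True := fun _ _ _ => trivial
  obtain ⟨b, hb, hb1, hbc⟩ := h (x * y) (A.mul_mem hx hy) hxy1 (w * w')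
  have cxw' : Commute x w' := cxv.pow_right l
  have cyw : Commute y w := cyu.pow_right k
  have cww' : Commute w w' := (cuv.pow_left k).pow_right l
  have hxw : x * w = w⁻¹ * x := hxuk k
  have hyw' : y * w' = w'⁻¹ * y := hyvl l
  -- (w w') (x y) (w w')⁻¹ = (x y) * (u⁻¹ v⁻¹)
  have hconj : w * w' * (x * y) * (w * w')⁻¹ = x * y * (u⁻¹ * v⁻¹) := by
    have h1 : w * x = x * w⁻¹ := by
      have := hxw
      calc w * x = w * x * w * w⁻¹ := by group
        _ = w * (x * w) * w⁻¹ := by group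
        _ = w * (w⁻¹ * x) * w⁻¹ := by rw [hxw]
        _ = x * w⁻¹ := by group
    have h2 : w' * y = y * w'⁻¹ := by
      calc w' * y = w' * (y * w') * w'⁻¹ := by group
        _ = w' * (w'⁻¹ * y) * w'⁻¹ := by rw [hyw']
        _ = y * w'⁻¹ := by group
    have h3 : w⁻¹ * y = y * w⁻¹ := (cyw.inv_right).symm.eq
    have h4 : w' * x = x * w' := cxw'.symm.eq
    have h5 : w'⁻¹ * w⁻¹ = w⁻¹ * w'⁻¹ := (cww'.inv_inv).symm.eq
    calc w * w' * (x * y) * (w * w')⁻¹ = w * (w' * x) * y * w'⁻¹ * w⁻¹ := by group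
      _ = w * (x * w') * y * w'⁻¹ * w⁻¹ := by rw [h4]
      _ = (w * x) * (w' * y) * w'⁻¹ * w⁻¹ := by group
      _ = (x * w⁻¹) * (y * w'⁻¹) * w'⁻¹ * w⁻¹ := by rw [h1, h2]
      _ = x * (w⁻¹ * y) * w'⁻¹ * (w'⁻¹ * w⁻¹) := by group
      _ = x * (y * w⁻¹) * w'⁻¹ * (w⁻¹ * w'⁻¹) := by rw [h3, h5]
      _ = x * y * (w⁻¹ * (w'⁻¹ * w⁻¹) * w'⁻¹) := by group
      _ = x * y * (w⁻¹ * (w⁻¹ * w'⁻¹) * w'⁻¹) := by rw [h5]
      _ = x * y * ((w * w)⁻¹ * (w' * w')⁻¹) := by group
      _ = x * y * (u⁻¹ * v⁻¹) := by rw [hk, hl]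
  rw [hconj] at hbc
  have cxy : Commute x y := hxy
  -- normal forms
  have eux : u * x = x * u⁻¹ := by
    calc u * x = u * (x * u) * u⁻¹ := by group
      _ = u * (u⁻¹ * x) * u⁻¹ := by rw [hxu]
      _ = x * u⁻¹ := by group
  have evy : v * y = y * v⁻¹ := by
    calc v * y = v * (y * v) * v⁻¹ := by group
      _ = v * (v⁻¹ * y) * v⁻¹ := by rw [hyv]
      _ = y * v⁻¹ := by group
  have eu'x : u⁻¹ * x = x * u := hxu.symm
  have ev'y : v⁻¹ * y = y * v := hyv.symm
  have ev'x : v⁻¹ * x = x * v⁻¹ := cxv.symm.inv_left.eq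
  have eu'y : u⁻¹ * y = y * u⁻¹ := cyu.symm.inv_left.eq
  have evx : v * x = x * v := hxv.symm
  have euy : u * y = y * u := hyu.symm
  rcases hA b hb with hb2 | hb2 | hb2 | hb2
  · exact hb1 hb2
  · -- b = x
    subst hb2
    have e1 : b * (b * y * (u⁻¹ * v⁻¹)) = y * (u⁻¹ * v⁻¹) := by
      calc b * (b * y * (u⁻¹ * v⁻¹)) = (b * b) * y * (u⁻¹ * v⁻¹) := by group
        _ = _ := by rw [hxx, one_mul]
    have e2 : b * y * (u⁻¹ * v⁻¹) * b = y * (u * v⁻¹) := by
      calc b * y * (u⁻¹ * v⁻¹) * b = b * y * u⁻¹ * (v⁻¹ * b) := by group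
        _ = b * y * (u⁻¹ * b) * v⁻¹ := by rw [ev'x]; group
        _ = b * (y * b) * u * v⁻¹ := by rw [eu'x]; group
        _ = (b * b) * y * u * v⁻¹ := by rw [← hxy]; group
        _ = y * (u * v⁻¹) := by rw [hxx]; group
    rw [e1, e2] at hbc
    have e3 : u⁻¹ = u := mul_right_cancel (mul_left_cancel hbc)
    exact hu1 (eq_one_of_odd hu (by nth_rewrite 1 [← e3]; simp))
  · subst hb2
    have e1 : b * (x * b * (u⁻¹ * v⁻¹)) = x * (u⁻¹ * v⁻¹) := by
      calc b * (x * b * (u⁻¹ * v⁻¹)) = (b * x) * b * (u⁻¹ * v⁻¹) := by group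
        _ = x * (b * b) * (u⁻¹ * v⁻¹) := by rw [← hxy]; group
        _ = _ := by rw [hyy]; group
    have e2 : x * b * (u⁻¹ * v⁻¹) * b = x * (u⁻¹ * v) := by
      calc x * b * (u⁻¹ * v⁻¹) * b = x * b * u⁻¹ * (v⁻¹ * b) := by group
        _ = x * b * (u⁻¹ * b) * v := by rw [ev'y]; group
        _ = x * (b * b) * u⁻¹ * v := by rw [eu'y]; group
        _ = x * (u⁻¹ * v) := by rw [hyy]; group
    rw [e1, e2] at hbc
    have e3 : v⁻¹ = v := mul_left_cancel (mul_left_cancel hbc)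
    exact hv1 (eq_one_of_odd hv (by nth_rewrite 1 [← e3]; simp))
  · subst hb2
    have e0 : x * y * (x * y) = 1 := by
      calc x * y * (x * y) = x * (y * x) * y := by group
        _ = x * (x * y) * y := by rw [← hxy]
        _ = (x * x) * (y * y) := by group
        _ = 1 := by rw [hxx, hyy, one_mul]
    have e1 : x * y * (x * y * (u⁻¹ * v⁻¹)) = u⁻¹ * v⁻¹ := by
      rw [← mul_assoc, e0, one_mul]
    have e2 : x * y * (u⁻¹ * v⁻¹) * (x * y) = u * v := by
      calc x * y * (u⁻¹ * v⁻¹) * (x * y) = x * y * u⁻¹ * (v⁻¹ * x) * y := by group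
        _ = x * y * (u⁻¹ * x) * (v⁻¹ * y) := by rw [ev'x]; group
        _ = x * y * x * (u * y) * v := by rw [eu'x, ev'y]; group
        _ = (x * y * (x * y)) * u * v := by rw [euy]; group
        _ = u * v := by rw [e0, one_mul]
    rw [e1, e2] at hbc
    -- u⁻¹ v⁻¹ = u v
    have e3 : (u * v) * (u * v) = 1 := by
      have e4 : (u * v)⁻¹ = u⁻¹ * v⁻¹ := by rw [mul_inv_rev]; exact (cuv.inv_inv).symm.eq
      nth_rewrite 1 [← hbc]
      rw [← e4, inv_mul_cancel]
    have hodd : Odd (orderOf (u * v)) := by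
      have := cuv.orderOf_mul_dvd_lcm
      refine Odd.of_dvd_nat ?_ this
      have h1 : Nat.Coprime 2 (orderOf u) := Nat.coprime_two_left.2 hu
      have h2 : Nat.Coprime 2 (orderOf v) := Nat.coprime_two_left.2 hv
      exact Nat.coprime_two_left.1 (Nat.Coprime.coprime_dvd_right (Nat.lcm_dvd_mul _ _) (h1.mul_right h2))
    have e5 : u * v = 1 := eq_one_of_odd hodd e3
    have e6 : v = u⁻¹ := (eq_inv_of_mul_eq_one_right e5)
    have e7 : u * y = y * u⁻¹ := by rw [e6, inv_inv] at ev'y; exact ev'y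
    rw [euy] at e7
    have e8 : u = u⁻¹ := mul_left_cancel e7
    exact hu1 (eq_one_of_odd hu (by nth_rewrite 2 [e8]; simp))

/-- Let A be a Klein four-subgroup of a finite group G. If every G-conjugate of every involution of A commutes with some involution of A (its centralizer meets A nontrivially), then A meets the largest normal 2-subgroup O₂(G) nontrivially. -/
theorem result {G : Type*} [Group G] [Finite G]
    (A : Subgroup G) (hA : IsKleinFour ↥A)
    (h : ∀ a ∈ A, a ≠ 1 → ∀ g : G, A ⊓ Subgroup.centralizer ({g * a * g⁻¹} : Set G) ≠ ⊥) :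
    A ⊓ Cfsg.pCore 2 G ≠ ⊥ := by
  intro hcon
  -- reformulation of the hypothesis
  have h' : ∀ a ∈ A, a ≠ 1 → ∀ g : G, ∃ b ∈ A, b ≠ 1 ∧ b * (g * a * g⁻¹) = g * a * g⁻¹ * b := by
    intro a ha ha1 g
    obtain ⟨b, hb1⟩ := Subgroup.ne_bot_iff_exists_ne_one.1 (h a ha ha1 g)
    have hb' := (Subgroup.mem_inf.1 b.2)
    refine ⟨b.1, hb'.1, ?_, ?_⟩
    · intro hh
      exact hb1 (Subtype.ext hh)
    · exact (Subgroup.mem_centralizer_iff.1 hb'.2 _ (Set.mem_singleton _)).symm
  -- squares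
  have hsq : ∀ a ∈ A, a * a = 1 := by
    intro a ha
    have := IsKleinFour.mul_self (⟨a, ha⟩ : ↥A)
    simpa using congrArg Subtype.val this
  have hcomm : ∀ a ∈ A, ∀ b ∈ A, a * b = b * a := by
    intro a ha b hb
    have h1 := hsq _ (A.mul_mem ha hb)
    have h2 := hsq _ ha
    have h3 := hsq _ hb
    calc a * b = a * ((a * b) * (a * b)) * b := by rw [h1, mul_one]
      _ = (a * a) * b * a * (b * b) := by group
      _ = b * a := by rw [h2, h3]; group
  have hcard : Nat.card ↥A = 4 := IsKleinFour.card_four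
  -- elements not in the core invert something
  have hinv : ∀ a ∈ A, a ≠ 1 → ∃ u : G, u ≠ 1 ∧ Odd (orderOf u) ∧ a * u = u⁻¹ * a := by
    intro a ha ha1
    have ho : orderOf a = 2 := orderOf_eq_prime (by rw [pow_two]; exact hsq a ha) ha1
    obtain ⟨u, hu1, hu2, hu3⟩ := Cfsg.Agent.S0200.result a ho (by
      intro N hN hN2 haN
      have : a ∈ A ⊓ Cfsg.pCore 2 G := ⟨ha, (le_sSup (show N ∈ {N : Subgroup G | N.Normal ∧ IsPGroup 2 N} from ⟨hN, hN2⟩)) haN⟩
      rw [hcon] at this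
      exact ha1 (Subgroup.mem_bot.1 this))
    refine ⟨u, hu1, hu2, ?_⟩
    rw [← hu3]; group
  -- all four elements
  have hall : ∀ x ∈ A, ∀ y ∈ A, x ≠ 1 → y ≠ 1 → x ≠ y → ∀ b ∈ A, b = 1 ∨ b = x ∨ b = y ∨ b = x * y := by
    intro x hx y hy hx1 hy1 hxy b hb
    by_contra hne
    push Not at hne
    obtain ⟨n1, n2, n3, n4⟩ := hne
    have := IsKleinFour.eq_mul_of_ne_all (x := (⟨x, hx⟩ : ↥A)) (y := ⟨y, hy⟩) (z := ⟨b, hb⟩)
      (by simpa using hx1) (by simpa using hy1) (by simpa using hxy) (by simpa using n1)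
      (by simpa using n2) (by simpa using n3)
    exact n4 (by simpa using congrArg Subtype.val this)
  -- choose `x`
  have hne : A ≠ ⊥ := by
    intro hh
    rw [hh, Subgroup.card_bot] at hcard
    omega
  obtain ⟨x', hx'1⟩ := Subgroup.ne_bot_iff_exists_ne_one.1 hne
  obtain ⟨x, hx⟩ := x'
  have hx1 : x ≠ 1 := fun hh => hx'1 (Subtype.ext hh)
  obtain ⟨u, hu1, hu, hxu⟩ := hinv x hx hx1
  -- the conjugate `x * u ^ j` of `x`
  have hxuj : ∀ j : ℕ, x * u ^ j = (u ^ j)⁻¹ * x := by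
    intro n
    induction n with
    | zero => simp
    | succ n ih =>
      rw [pow_succ, ← mul_assoc, ih, mul_assoc, hxu, ← mul_assoc]
      congr 1
      rw [mul_inv_rev]
      exact ((Commute.refl u).pow_left n).inv_inv.eq
  have hoddpow : ∀ j : ℕ, Odd (orderOf (u ^ j)) := fun j =>
    Odd.of_dvd_nat hu (orderOf_pow_dvd j)
  -- `w ∈ ⟨u⟩` with `w⁻¹ x w = x u^j`
  have hconj : ∀ j : ℕ, ∃ l : ℕ, (u ^ l) * (u ^ l) = u ^ j ∧ (u ^ l)⁻¹ * x * (u ^ l) = x * u ^ j := by
    intro j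
    obtain ⟨l, hl⟩ := exists_sqrt (hoddpow j)
    refine ⟨j * l, by rw [pow_mul]; exact hl, ?_⟩
    rw [← hxuj, mul_assoc, pow_mul, hl]
  obtain ⟨y, hy, hy1, hyx⟩ : ∃ b ∈ A, b ≠ 1 ∧ b * (x * u) = (x * u) * b := by
    obtain ⟨l, hl, hl2⟩ := hconj 1
    obtain ⟨b, hb, hb1, hb2⟩ := h' x hx hx1 (u ^ l)⁻¹
    rw [inv_inv, hl2, pow_one] at hb2
    exact ⟨b, hb, hb1, hb2⟩
  have hxy : x ≠ y := by
    intro hh
    subst hh
    have h1 : x * (x * u) = u := by rw [← mul_assoc, hsq x hx, one_mul]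
    have h2 : x * u * x = u⁻¹ := by rw [hxu, mul_assoc, hsq x hx, mul_one]
    rw [h1, h2] at hyx
    exact hu1 (eq_one_of_odd hu (by nth_rewrite 1 [hyx]; simp))
  have hxyc : x * y = y * x := hcomm x hx y hy
  have hyu : y * u = u * y := by
    have h1 : y * (x * u) = x * (y * u) := by rw [← mul_assoc, ← hxyc, mul_assoc]
    rw [h1, mul_assoc] at hyx
    exact mul_left_cancel hyx
  obtain ⟨v, hv1, hv, hyv⟩ := hinv y hy hy1
  have hyyy := hsq y hy
  have hxxx := hsq x hx
  have hxy1 : x * y ≠ 1 := by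
    intro hh
    rw [← hxxx] at hh
    exact hxy (mul_left_cancel hh).symm
  have hcyu : Commute y u := hyu
  -- `x u^j` centralizes or inverts `v`
  have hkey : ∀ j : ℕ, (x * u ^ j) * v = v * (x * u ^ j) ∨ (x * u ^ j) * v = v⁻¹ * (x * u ^ j) := by
    intro j
    obtain ⟨l, hl, hl2⟩ := hconj j
    obtain ⟨m, hm⟩ := exists_sqrt hv
    -- element y v = (v^m)⁻¹ y v^m, conjugate of `y`
    have hyvm : ∀ n : ℕ, y * v ^ n = (v ^ n)⁻¹ * y := by
      intro n
      induction n with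
      | zero => simp
      | succ n ih =>
        rw [pow_succ, ← mul_assoc, ih, mul_assoc, hyv, ← mul_assoc]
        congr 1
        rw [mul_inv_rev]
        exact ((Commute.refl v).pow_left n).inv_inv.eq
    have hyvc : (v ^ m)⁻¹ * y * (v ^ m) = y * v := by
      rw [← hyvm, mul_assoc, hm]
    obtain ⟨b, hb, hb1, hb2⟩ := h' y hy hy1 ((u ^ l) * (v ^ m)⁻¹)
    set w := u ^ l with hw
    have hb3 : w * (v ^ m)⁻¹ * y * (w * (v ^ m)⁻¹)⁻¹ = w * (y * v) * w⁻¹ := by
      rw [← hyvc]; group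
    rw [hb3] at hb2
    -- conjugating back by `w`
    have hb4 : (w⁻¹ * b * w) * (y * v) = (y * v) * (w⁻¹ * b * w) := by
      calc (w⁻¹ * b * w) * (y * v) = w⁻¹ * (b * (w * (y * v) * w⁻¹)) * w := by group
        _ = w⁻¹ * (w * (y * v) * w⁻¹ * b) * w := by rw [hb2]
        _ = _ := by group
    have hwy : w⁻¹ * y * w = y := by
      have : Commute y w := hcyu.pow_right l
      rw [mul_assoc, this.eq]; group
    have hcy : Commute y (u ^ j) := hcyu.pow_right j
    rcases hall x hx y hy hx1 hy1 hxy b hb with h0 | h0 | h0 | h0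
    · exact absurd h0 hb1
    · -- b = x
      left
      rw [h0, hl2] at hb4
      -- (x u^j)(y v) = (y v)(x u^j)
      have e1 : x * u ^ j * (y * v) = y * (x * u ^ j * v) := by
        calc x * u ^ j * (y * v) = x * (u ^ j * y) * v := by group
          _ = (x * y) * u ^ j * v := by rw [← hcy.eq]; group
          _ = _ := by rw [hxyc]; group
      rw [e1, mul_assoc y v] at hb4
      exact mul_left_cancel hb4
    · exfalso
      rw [h0, hwy] at hb4
      have e1 : y * (y * v) = v := by rw [← mul_assoc, hyyy, one_mul]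
      have e2 : y * v * y = v⁻¹ := by rw [hyv, mul_assoc, hyyy, mul_one]
      rw [e1, e2] at hb4
      exact hv1 (eq_one_of_odd hv (by nth_rewrite 1 [hb4]; simp))
    · right
      have e0 : w⁻¹ * b * w = x * u ^ j * y := by
        rw [h0]
        calc w⁻¹ * (x * y) * w = (w⁻¹ * x * w) * (w⁻¹ * y * w) := by group
          _ = _ := by rw [hl2, hwy]
      rw [e0] at hb4
      -- x u^j y y v = y v x u^j y
      have e1 : x * u ^ j * y * (y * v) = x * u ^ j * v := by
        calc x * u ^ j * y * (y * v) = x * u ^ j * (y * y) * v := by group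
          _ = _ := by rw [hyyy, mul_one]
      have e2 : y * v * (x * u ^ j * y) = v⁻¹ * (x * u ^ j) := by
        calc y * v * (x * u ^ j * y) = (y * v) * x * (u ^ j * y) := by group
          _ = (v⁻¹ * y) * x * (y * u ^ j) := by rw [hyv, ← hcy.eq]
          _ = v⁻¹ * (y * x * y) * u ^ j := by group
          _ = v⁻¹ * x * u ^ j := by rw [← hxyc, mul_assoc x, hyyy, mul_one]
          _ = _ := by group
      rw [e1, e2] at hb4
      exact hb4
  -- `u` commutes with `v`
  have hsame : ∀ i : ℕ, ∀ n : ℕ, (x * u ^ i) * v = v * (x * u ^ i) → (x * u ^ (i + n)) * v = v * (x * u ^ (i + n)) → Commute (u ^ n) v := by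
    intro i n h1 h2
    have h3 : x * u ^ (i + n) = (x * u ^ i) * u ^ n := by rw [pow_add, mul_assoc]
    rw [h3] at h2
    have h4 : x * u ^ i * u ^ n * v = x * u ^ i * (v * u ^ n) := by
      rw [h2, ← mul_assoc, ← h1]; group
    rw [mul_assoc] at h4
    exact mul_left_cancel h4
  have hsame' : ∀ i : ℕ, ∀ n : ℕ, (x * u ^ i) * v = v⁻¹ * (x * u ^ i) → (x * u ^ (i + n)) * v = v⁻¹ * (x * u ^ (i + n)) → Commute (u ^ n) v := by
    intro i n h1 h2
    have h3 : x * u ^ (i + n) = (x * u ^ i) * u ^ n := by rw [pow_add, mul_assoc]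
    rw [h3] at h2
    have h4 : x * u ^ i * u ^ n * v = x * u ^ i * (v * u ^ n) := by
      rw [h2, ← mul_assoc, ← h1]; group
    rw [mul_assoc] at h4
    exact mul_left_cancel h4
  have huv : Commute u v := by
    have hsqc : Commute (u ^ 2) v → Commute u v := by
      intro hc
      obtain ⟨k, hk⟩ := exists_sqrt hu
      have : u = (u ^ 2) ^ k := by rw [← pow_mul, mul_comm, pow_mul, pow_two]; exact hk.symm
      rw [this]
      exact hc.pow_left k
    have h0 := hkey 0
    have h1 := hkey 1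
    have h2 := hkey 2
    rcases h0 with h0 | h0 <;> rcases h1 with h1 | h1 <;> rcases h2 with h2 | h2
    · simpa using hsame 0 1 h0 h1
    · simpa using hsame 0 1 h0 h1
    · exact hsqc (hsame 0 2 h0 h2)
    · simpa using hsame' 1 1 h1 h2
    · simpa using hsame 1 1 h1 h2
    · exact hsqc (hsame' 0 2 h0 h2)
    · simpa using hsame' 0 1 h0 h1
    · simpa using hsame' 0 1 h0 h1
  rcases hkey 0 with h0 | h0
  · rw [pow_zero, mul_one] at h0
    exact core A h' hx hy (hall x hx y hy hx1 hy1 hxy) hxxx hyyy hxyc hxy1 hu hv hu1 hv1 hxu hyv h0 hyu huv.eq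
  · rw [pow_zero, mul_one] at h0
    -- replace x by x * y
    have hzz := hsq _ (A.mul_mem hx hy)
    have hz1 : x * y ≠ 1 := hxy1
    have hzy : x * y ≠ y := by intro hh; exact hx1 (mul_eq_right.1 hh)
    refine core A h' (A.mul_mem hx hy) hy (hall _ (A.mul_mem hx hy) y hy hz1 hy1 hzy) hzz hyyy
      (hcomm _ (A.mul_mem hx hy) y hy) ?_ hu hv hu1 hv1 ?_ hyv ?_ hyu huv.eq
    · rw [mul_assoc, hyyy, mul_one]; exact hx1
    · calc x * y * u = x * (y * u) := by group
        _ = (x * u) * y := by rw [hyu]; group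
        _ = u⁻¹ * (x * y) := by rw [hxu]; group
    · have e1 : x * v⁻¹ = v * x := by
        calc x * v⁻¹ = v * (v⁻¹ * x) * v⁻¹ := by group
          _ = v * (x * v) * v⁻¹ := by rw [h0]
          _ = v * x := by group
      calc x * y * v = x * (y * v) := by group
        _ = x * v⁻¹ * y := by rw [hyv]; group
        _ = v * (x * y) := by rw [e1]; group

end Cfsg.Agent.S3195
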