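import Mathlib
import Cfsg.Statements.S3196
set_option linter.all false

set_option autoImplicit false
open Cfsg

namespace Cfsg.Agent.S3196

section

open scoped Pointwise

variable {G : Type*} [Group G]

/-- elementwise commuting -/
def Com (X Y : Subgroup G) : Prop := ∀ x ∈ X, ∀ y ∈ Y, x * y = y * x

theorem Com.symm {X Y : Subgroup G} (h : Com X Y) : Com Y X := fun y hy x hx => (h x hx y hy).symm

theorem Com.mono {X Y X' Y' : Subgroup G} (h : Com X Y) (hX : X' ≤ X) (hY : Y' ≤ Y) : Com X' Y' :=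
  fun x hx y hy => h x (hX hx) y (hY hy)

theorem com_iff {X Y : Subgroup G} : Com X Y ↔ X ≤ Subgroup.centralizer (Y : Set G) := by
  constructor
  · intro h x hx
    rw [Subgroup.mem_centralizer_iff]
    intro y hy
    exact (h x hx y hy).symm
  · intro h x hx y hy
    exact (Subgroup.mem_centralizer_iff.1 (h hx) y hy).symm

theorem com_sup {X Y W : Subgroup G} (h1 : Com X W) (h2 : Com Y W) : Com (X ⊔ Y) W := by
  rw [com_iff] at *
  exact sup_le h1 h2

/-- subgroups of prime order: intersect trivially or are equal -/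
theorem inf_eq_bot {p : ℕ} (hp : p.Prime) {X Y : Subgroup G} (hX : Nat.card X = p)
    (hY : Nat.card Y = p) (hne : X ≠ Y) : X ⊓ Y = ⊥ := by
  by_contra h
  obtain ⟨⟨x, hx⟩, hx1'⟩ := (Subgroup.ne_bot_iff_exists_ne_one (H := X ⊓ Y)).1 h
  have hx1 : x ≠ 1 := fun h2 => hx1' (Subtype.ext h2)
  apply hne
  have key : ∀ {Z : Subgroup G}, Nat.card Z = p → (x : G) ∈ Z → Z = Subgroup.zpowers (x : G) := by
    intro Z hZ hxZ
    have : Finite Z := Nat.finite_of_card_ne_zero (by rw [hZ]; exact hp.ne_zero)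
    have h1 : orderOf (x : G) = p := by
      have h2 : orderOf (⟨x, hxZ⟩ : Z) ∣ p := hZ ▸ orderOf_dvd_natCard _
      rw [Subgroup.orderOf_mk] at h2
      rcases (Nat.dvd_prime hp).1 h2 with h3 | h3
      · exact absurd (orderOf_eq_one_iff.1 h3) hx1
      · exact h3
    symm
    apply Subgroup.eq_of_le_of_card_ge
    · rw [Subgroup.zpowers_le]; exact hxZ
    · rw [hZ, Nat.card_zpowers, h1]
  rw [key hX hx.1, key hY hx.2]

theorem eq_zpowers {p : ℕ} (hp : p.Prime) {Z : Subgroup G} (hZ : Nat.card Z = p) {x : G}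
    (hxZ : x ∈ Z) (hx1 : x ≠ 1) : Z = Subgroup.zpowers x ∧ orderOf x = p := by
  have : Finite Z := Nat.finite_of_card_ne_zero (by rw [hZ]; exact hp.ne_zero)
  have h1 : orderOf (x : G) = p := by
    have h2 : orderOf (⟨x, hxZ⟩ : Z) ∣ p := hZ ▸ orderOf_dvd_natCard _
    rw [Subgroup.orderOf_mk] at h2
    rcases (Nat.dvd_prime hp).1 h2 with h3 | h3
    · exact absurd (orderOf_eq_one_iff.1 h3) hx1
    · exact h3
  refine ⟨?_, h1⟩
  symm
  apply Subgroup.eq_of_le_of_card_ge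
  · rw [Subgroup.zpowers_le]; exact hxZ
  · rw [hZ, Nat.card_zpowers, h1]

theorem exists_ne_one {p : ℕ} (hp : p.Prime) {Z : Subgroup G} (hZ : Nat.card Z = p) :
    ∃ x ∈ Z, x ≠ 1 := by
  have h : Z ≠ ⊥ := by
    rintro rfl
    rw [Subgroup.card_bot] at hZ
    exact hp.one_lt.ne hZ
  obtain ⟨x, hx⟩ := (Subgroup.ne_bot_iff_exists_ne_one (H := Z)).1 h
  exact ⟨x, x.2, fun h => hx (Subtype.ext h)⟩

theorem self_com {p : ℕ} (hp : p.Prime) {Z : Subgroup G} (hZ : Nat.card Z = p) : Com Z Z := by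
  obtain ⟨x, hx, hx1⟩ := exists_ne_one hp hZ
  obtain ⟨h1, -⟩ := eq_zpowers hp hZ hx hx1
  intro a ha b hb
  rw [h1] at ha hb
  obtain ⟨i, rfl⟩ := Subgroup.mem_zpowers_iff.1 ha
  obtain ⟨j, rfl⟩ := Subgroup.mem_zpowers_iff.1 hb
  rw [← zpow_add, ← zpow_add, add_comm]

/-- an element of a subgroup of prime order commuting with something -/
theorem com_of_elem {p : ℕ} (hp : p.Prime) {Z W : Subgroup G} (hZ : Nat.card Z = p) {x : G}
    (hxZ : x ∈ Z) (hx1 : x ≠ 1) (h : ∀ w ∈ W, x * w = w * x) : Com Z W := by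
  obtain ⟨h1, -⟩ := eq_zpowers hp hZ hxZ hx1
  intro a ha b hb
  rw [h1] at ha
  obtain ⟨i, rfl⟩ := Subgroup.mem_zpowers_iff.1 ha
  exact (Commute.zpow_left (h b hb) i)

/-- the product of two commuting subgroups of order p has order p^2 -/
theorem card_sup {p : ℕ} (hp : p.Prime) {X Y : Subgroup G} (hX : Nat.card X = p)
    (hY : Nat.card Y = p) (hne : X ≠ Y) (hc : Com X Y) : Nat.card (X ⊔ Y : Subgroup G) = p * p := by
  have : Finite X := Nat.finite_of_card_ne_zero (by rw [hX]; exact hp.ne_zero)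
  have : Finite Y := Nat.finite_of_card_ne_zero (by rw [hY]; exact hp.ne_zero)
  have h1 : X ≤ Subgroup.normalizer (Y : Set G) := by
    intro x hx
    rw [Subgroup.mem_normalizer_iff]
    intro y
    constructor
    · intro hy
      rw [hc x hx y hy, mul_inv_cancel_right]; exact hy
    · intro hy
      have h2 := hc x⁻¹ (X.inv_mem hx) _ hy
      have h3 : y = x * y * x⁻¹ := by
        calc y = x⁻¹ * (x * y * x⁻¹) * x := by group
          _ = (x * y * x⁻¹) * x⁻¹ * x := by rw [h2]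
          _ = _ := by group
      rw [h3]; exact hy
  have h2 : ((X ⊔ Y : Subgroup G) : Set G) = (X : Set G) * (Y : Set G) :=
    (Subgroup.coe_mul_of_left_le_normalizer_right X Y h1)
  have hinf := inf_eq_bot hp hX hY hne
  let f : X × Y → (X ⊔ Y : Subgroup G) := fun q => ⟨q.1 * q.2,
    (X ⊔ Y).mul_mem (Subgroup.mem_sup_left q.1.2) (Subgroup.mem_sup_right q.2.2)⟩
  have hf : Function.Bijective f := by
    constructor
    · rintro ⟨a, b⟩ ⟨c, d⟩ h
      have h3 : (a : G) * b = c * d := congrArg Subtype.val h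
      have h4 : (c : G)⁻¹ * a = d * (b : G)⁻¹ := by
        calc (c : G)⁻¹ * a = (c : G)⁻¹ * (a * b) * (b : G)⁻¹ := by group
          _ = _ := by rw [h3]; group
      have h5 : (c : G)⁻¹ * a ∈ X ⊓ Y :=
        ⟨X.mul_mem (X.inv_mem c.2) a.2, h4 ▸ Y.mul_mem d.2 (Y.inv_mem b.2)⟩
      rw [hinf, Subgroup.mem_bot] at h5
      have h6 : (a : G) = c := by
        have := inv_mul_eq_one.1 h5
        exact this.symm
      have h7 : (b : G) = d := by
        rw [h6] at h3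
        exact mul_left_cancel h3
      exact Prod.ext (Subtype.ext h6) (Subtype.ext h7)
    · rintro ⟨g, hg⟩
      have hg' : g ∈ ((X ⊔ Y : Subgroup G) : Set G) := hg
      rw [h2, Set.mem_mul] at hg'
      obtain ⟨a, ha, b, hb, rfl⟩ := hg'
      exact ⟨⟨⟨a, ha⟩, ⟨b, hb⟩⟩, rfl⟩
  rw [← Nat.card_congr (Equiv.ofBijective f hf), Nat.card_prod, hX, hY]

theorem com_self_sup {p : ℕ} (hp : p.Prime) {X Y : Subgroup G} (hX : Nat.card X = p)
    (hY : Nat.card Y = p) (hc : Com X Y) : Com (X ⊔ Y) (X ⊔ Y) := by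
  have h1 : Com (X ⊔ Y) X := com_sup (self_com hp hX) hc.symm
  have h2 : Com (X ⊔ Y) Y := com_sup hc (self_com hp hY)
  exact (com_sup h1.symm h2.symm)

/-- two distinct subgroups of order p on a line generate the line -/
theorem line_eq {p : ℕ} (hp : p.Prime) {X Y Z W : Subgroup G} (hX : Nat.card X = p)
    (hY : Nat.card Y = p) (hne : X ≠ Y) (hc : Com X Y) (hZ : Nat.card Z = p) (hW : Nat.card W = p)
    (hZW : Z ≠ W) (hZl : Z ≤ X ⊔ Y) (hWl : W ≤ X ⊔ Y) : Z ⊔ W = X ⊔ Y := by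
  have h1 := card_sup hp hX hY hne hc
  have h2 := com_self_sup hp hX hY hc
  have h3 := card_sup hp hZ hW hZW (h2.mono hZl hWl)
  have : Finite (X ⊔ Y : Subgroup G) := Nat.finite_of_card_ne_zero (by
    rw [h1]; exact Nat.mul_ne_zero hp.ne_zero hp.ne_zero)
  exact Subgroup.eq_of_le_of_card_ge (sup_le hZl hWl) (by rw [h1, h3])

/-- elements of a line have order dividing p -/
theorem line_pow {p : ℕ} (hp : p.Prime) {X Y : Subgroup G} (hX : Nat.card X = p)
    (hY : Nat.card Y = p) (hc : Com X Y) {g : G} (hg : g ∈ X ⊔ Y) : g ^ p = 1 := by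
  have h2 := com_self_sup hp hX hY hc
  have hsub : ∀ {Z : Subgroup G}, Nat.card Z = p → ∀ z ∈ Z, z ^ p = 1 := by
    intro Z hZ z hz
    by_cases h1 : z = 1
    · rw [h1, one_pow]
    · rw [← (eq_zpowers hp hZ hz h1).2, pow_orderOf_eq_one]
  have h3 : X ⊔ Y ≤ Subgroup.closure ((X : Set G) ∪ (Y : Set G)) := by
    rw [Subgroup.closure_union, Subgroup.closure_eq, Subgroup.closure_eq]
  have h4 := h3 hg
  have h5 : ∀ x ∈ Subgroup.closure ((X : Set G) ∪ (Y : Set G)), x ∈ X ⊔ Y := by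
    intro x hx
    rwa [Subgroup.closure_union, Subgroup.closure_eq, Subgroup.closure_eq] at hx
  induction h4 using Subgroup.closure_induction with
  | mem x hx =>
    rcases hx with hx | hx
    · exact hsub hX x hx
    · exact hsub hY x hx
  | one => exact one_pow p
  | mul x y hx hy ihx ihy =>
    have hxy : Commute x y := h2 x (h5 x hx) y (h5 y hy)
    rw [hxy.mul_pow, ihx (h5 x hx), ihy (h5 y hy), one_mul]
  | inv x hx ihx => rw [inv_pow, ihx (h5 x hx), inv_one]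

/-- conjugates -/
theorem com_conj {X Y : Subgroup G} (h : Com X Y) (g : G) :
    Com (X.map (MulAut.conj g).toMonoidHom) (Y.map (MulAut.conj g).toMonoidHom) := by
  rintro _ ⟨x, hx, rfl⟩ _ ⟨y, hy, rfl⟩
  show (MulAut.conj g) x * (MulAut.conj g) y = (MulAut.conj g) y * (MulAut.conj g) x
  rw [← map_mul, ← map_mul, h x hx y hy]

/-- a subgroup commuting with `g` is fixed by conjugation with `g` -/
theorem conj_eq_self {X : Subgroup G} {g : G} (h : ∀ x ∈ X, g * x = x * g) :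
    X.map (MulAut.conj g).toMonoidHom = X := by
  ext y
  constructor
  · rintro ⟨x, hx, rfl⟩
    show g * x * g⁻¹ ∈ X
    rw [h x hx, mul_inv_cancel_right]; exact hx
  · intro hy
    refine ⟨y, hy, ?_⟩
    show g * y * g⁻¹ = y
    rw [h y hy, mul_inv_cancel_right]

/-- The Fermat lemma -/
theorem fermat {p : ℕ} (hp : p.Prime) {s t r : G} (hs : s ^ p = 1) (ht : orderOf t = p)
    {R : Subgroup G} (hR : ∀ x ∈ R, s * x = x * s) (hRt : ∀ x ∈ R, t * x = x * t)
    (hRT : Subgroup.zpowers t ⊓ R = ⊥) (k : ℕ) (hr : r ∈ R) (hst : s * t * s⁻¹ = t ^ k * r) :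
    s * t * s⁻¹ * t⁻¹ ∈ R := by
  have key : ∀ n : ℕ, ∃ x ∈ R, s ^ n * t * (s ^ n)⁻¹ = t ^ (k ^ n) * x := by
    intro n
    induction n with
    | zero => exact ⟨1, one_mem _, by simp⟩
    | succ n ih =>
      obtain ⟨x, hx, h1⟩ := ih
      refine ⟨r ^ (k ^ n) * x, R.mul_mem (R.pow_mem hr _) hx, ?_⟩
      have h2 : s ^ (n + 1) * t * (s ^ (n + 1))⁻¹ = s * (s ^ n * t * (s ^ n)⁻¹) * s⁻¹ := by
        rw [pow_succ']; group
      have h3 : s * t ^ (k ^ n) * s⁻¹ = (s * t * s⁻¹) ^ (k ^ n) := by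
        rw [conj_pow]
      have h4 : s * (t ^ (k ^ n) * x) * s⁻¹ = (s * t ^ (k ^ n) * s⁻¹) * (s * x * s⁻¹) := by group
      have h5 : s * x * s⁻¹ = x := by rw [hR x hx, mul_inv_cancel_right]
      have h6 : Commute (t ^ k) r := Commute.pow_left (hRt r hr) k
      rw [h2, h1, h4, h5, h3, hst, h6.mul_pow, ← pow_mul, mul_assoc, pow_succ' k n]
  obtain ⟨x, hx, h1⟩ := key p
  rw [hs] at h1
  have h2 : t = t ^ (k ^ p) * x := by
    rw [← h1]; group
  have h3 : x ∈ Subgroup.zpowers t ⊓ R := by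
    have h4 : x = (t ^ (k ^ p))⁻¹ * t := eq_inv_mul_of_mul_eq h2.symm
    have h5 : x ∈ Subgroup.zpowers t := by
      rw [h4]
      exact mul_mem (inv_mem (pow_mem (Subgroup.mem_zpowers t) _)) (Subgroup.mem_zpowers t)
    exact ⟨h5, hx⟩
  rw [hRT, Subgroup.mem_bot] at h3
  rw [h3, mul_one] at h2
  have h5 : k ^ p ≡ 1 [MOD p] := by
    have h6 : t ^ (k ^ p) = t ^ 1 := by rw [pow_one]; exact h2.symm
    rw [pow_eq_pow_iff_modEq, ht] at h6
    exact h6
  have := Fact.mk hp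
  have h7 : k ≡ 1 [MOD p] := by
    have h8 : ((k ^ p : ℕ) : ZMod p) = ((1 : ℕ) : ZMod p) := (ZMod.natCast_eq_natCast_iff _ _ _).2 h5
    rw [Nat.cast_pow, ZMod.pow_card] at h8
    exact (ZMod.natCast_eq_natCast_iff _ _ _).1 h8
  have h9 : t ^ k = t := by
    have h10 : t ^ k = t ^ 1 := by
      rw [pow_eq_pow_iff_modEq, ht]; exact h7
    rw [h10, pow_one]
  rw [hst, h9, hRt r hr, mul_inv_cancel_right]
  exact hr

/-- The configuration. -/
structure Cfg (G : Type*) [Group G] (p : ℕ) (K : Set (Subgroup G)) : Prop where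
  hp : p.Prime
  hK : ∀ X ∈ K, Nat.card ↥X = p
  hKc : ∀ X ∈ K, ∀ g : G, X.map (MulAut.conj g).toMonoidHom ∈ K
  hex : ∃ X ∈ K, ∃ Y ∈ K, X ≠ Y ∧ Com X Y
  ha : ∀ X ∈ K, ∀ Y ∈ K, X ≠ Y → Com X Y →
      ∀ Z : Subgroup G, Z ≤ X ⊔ Y → Nat.card ↥Z = p → Z ∈ K
  hb : ∀ X ∈ K, ∀ Y ∈ K, X ≠ Y → Com X Y →
      ∀ W ∈ K, (X ⊔ Y) ⊓ Subgroup.centralizer (W : Set G) ≠ ⊥
  nd : ∀ V ∈ K, ∃ W ∈ K, ¬ Com V W

namespace Cfg

variable {p : ℕ} {K : Set (Subgroup G)} (c : Cfg G p K)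
include c

/-- on every line there is a point commuting with `W` -/
theorem point {X Y W : Subgroup G} (hX : X ∈ K) (hY : Y ∈ K) (hne : X ≠ Y) (hc : Com X Y)
    (hW : W ∈ K) : ∃ Z ∈ K, Z ≤ X ⊔ Y ∧ Com Z W := by
  obtain ⟨x, hx⟩ := (Subgroup.ne_bot_iff_exists_ne_one).1 (c.hb X hX Y hY hne hc W hW)
  have hx1 : (x : G) ≠ 1 := fun h => hx (Subtype.ext h)
  have hxl : (x : G) ∈ X ⊔ Y := x.2.1
  have hxc := x.2.2
  have h1 := line_pow c.hp (c.hK X hX) (c.hK Y hY) hc hxl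
  have h2 : orderOf (x : G) = p := by
    rcases (Nat.dvd_prime c.hp).1 (orderOf_dvd_of_pow_eq_one h1) with h3 | h3
    · exact absurd (orderOf_eq_one_iff.1 h3) hx1
    · exact h3
  have h3 : Nat.card (Subgroup.zpowers (x : G)) = p := by rw [Nat.card_zpowers, h2]
  have h4 : Subgroup.zpowers (x : G) ≤ X ⊔ Y := by rw [Subgroup.zpowers_le]; exact hxl
  refine ⟨Subgroup.zpowers (x : G), c.ha X hX Y hY hne hc _ h4 h3, h4, ?_⟩
  rw [com_iff, Subgroup.zpowers_le]
  exact hxc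

/-- if `W` commutes with two points of a line it commutes with the line -/
theorem two {X Y Z W V : Subgroup G} (hX : X ∈ K) (hY : Y ∈ K) (hne : X ≠ Y) (hc : Com X Y)
    (hZ : Z ∈ K) (hW : W ∈ K) (hZW : Z ≠ W) (hZl : Z ≤ X ⊔ Y) (hWl : W ≤ X ⊔ Y)
    (h1 : Com Z V) (h2 : Com W V) : Com (X ⊔ Y) V := by
  rw [← line_eq c.hp (c.hK X hX) (c.hK Y hY) hne hc (c.hK Z hZ) (c.hK W hW) hZW hZl hWl]
  exact com_sup h1 h2

theorem claimA {X Y : Subgroup G} (hX : X ∈ K) (hY : Y ∈ K) (hne : X ≠ Y) (hc : Com X Y) :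
    ∃ T ∈ K, Com T X ∧ ¬ Com T Y := by
  by_contra hcon
  push Not at hcon
  obtain ⟨W, hW, hWY'⟩ := c.nd Y hY
  have hWY : ¬ Com W Y := fun h => hWY' h.symm
  have hWX : ¬ Com W X := fun h => hWY (hcon W hW h)
  obtain ⟨Z, hZ, hZl, hZW⟩ := c.point hX hY hne hc hW
  have hl := com_self_sup c.hp (c.hK X hX) (c.hK Y hY) hc
  have hZX : Com Z X := hl.mono hZl le_sup_left
  have hZY : Com Z Y := hl.mono hZl le_sup_right
  obtain ⟨V, hV, hVZ⟩ := c.nd Z hZ
  have hZneW : Z ≠ W := by rintro rfl; exact hWY hZY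
  obtain ⟨V1, hV1, hV1l, hV1V⟩ := c.point hZ hW hZneW hZW hV
  have hV1Z : V1 ≠ Z := by rintro rfl; exact hVZ hV1V
  have hl2 := com_self_sup c.hp (c.hK Z hZ) (c.hK W hW) hZW
  have hV1cZ : Com V1 Z := hl2.mono hV1l le_sup_left
  have hV1X : ¬ Com V1 X := by
    intro h
    have h2 := c.two hZ hW hZneW hZW hV1 hZ hV1Z hV1l le_sup_left h hZX
    exact hWX (h2.mono le_sup_right le_rfl)
  have hV1neV : V1 ≠ V := by rintro rfl; exact hVZ hV1cZ.symm
  obtain ⟨V3, hV3, hV3l, hV3X⟩ := c.point hV1 hV hV1neV hV1V hX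
  have hV3Y := hcon V3 hV3 hV3X
  have hV3Z : Com V3 Z := ((com_sup hV3X.symm hV3Y.symm).mono hZl le_rfl).symm
  have hV3V1 : V3 ≠ V1 := by rintro rfl; exact hV1X hV3X
  have h3 := c.two hV1 hV hV1neV hV1V hV3 hV1 hV3V1 hV3l le_sup_left hV3Z hV1cZ
  exact hVZ (h3.mono le_sup_right le_rfl).symm

/-- the key step: the commutator subgroup of two noncommuting points is a point -/
theorem claimB {T S : Subgroup G} (hT : T ∈ K) (hS : S ∈ K) (hTS : ¬ Com T S) :
    ∃ R ∈ K, Com R T ∧ Com R S ∧ ∃ s ∈ S, ∃ t ∈ T, s ≠ 1 ∧ t ≠ 1 ∧ s * t * s⁻¹ * t⁻¹ ∈ R := by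
  have hp := c.hp
  -- a common neighbour `Z`
  obtain ⟨Z, hZ, hZneS, hZS, hZT⟩ : ∃ Z ∈ K, Z ≠ S ∧ Com Z S ∧ Com Z T := by
    obtain ⟨P, hP, hPS, hPcS⟩ : ∃ P ∈ K, P ≠ S ∧ Com P S := by
      obtain ⟨X, hX, Y, hY, hne, hc⟩ := c.hex
      obtain ⟨P, hP, hPl, hPc⟩ := c.point hX hY hne hc hS
      by_cases h : P = S
      · by_cases h2 : X = S
        · exact ⟨Y, hY, fun h3 => hne (h2.trans h3.symm), by rw [← h2]; exact hc.symm⟩
        · refine ⟨X, hX, h2, ?_⟩
          rw [← h]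
          exact (com_self_sup hp (c.hK X hX) (c.hK Y hY) hc).mono le_sup_left hPl
      · exact ⟨P, hP, h, hPc⟩
    obtain ⟨Z, hZ, hZl, hZT⟩ := c.point hP hS hPS hPcS hT
    refine ⟨Z, hZ, ?_, ?_, hZT⟩
    · rintro rfl; exact hTS hZT.symm
    · exact (com_self_sup hp (c.hK P hP) (c.hK S hS) hPcS).mono hZl le_sup_right
  -- `T'`
  obtain ⟨T', hT', hT'T, hT'S, hT'Z⟩ : ∃ T' ∈ K, Com T' T ∧ Com T' S ∧ ¬ Com T' Z := by
    obtain ⟨T2, hT2, hT2S, hT2Z⟩ := c.claimA hS hZ (Ne.symm hZneS) hZS.symm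
    have hSneT2 : S ≠ T2 := by rintro rfl; exact hT2Z hZS.symm
    obtain ⟨T', hT', hT'l, hT'T⟩ := c.point hS hT2 hSneT2 hT2S.symm hT
    have hT'neS : T' ≠ S := by rintro rfl; exact hTS hT'T.symm
    refine ⟨T', hT', hT'T, ?_, ?_⟩
    · exact (com_self_sup hp (c.hK S hS) (c.hK T2 hT2) hT2S.symm).mono hT'l le_sup_left
    · intro h
      exact hT2Z ((c.two hS hT2 hSneT2 hT2S.symm hT' hS hT'neS hT'l le_sup_left h hZS.symm).mono
        le_sup_right le_rfl)
  obtain ⟨s, hs, hs1⟩ := exists_ne_one hp (c.hK S hS)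
  obtain ⟨z, hz, hz1⟩ := exists_ne_one hp (c.hK Z hZ)
  obtain ⟨t, ht, ht1⟩ := exists_ne_one hp (c.hK T hT)
  have hTne : T ≠ T' := by rintro rfl; exact hT'Z hZT.symm
  -- the point `Q` on `TT'`
  have hzs : z * s ∈ Z ⊔ S := mul_mem (Subgroup.mem_sup_left hz) (Subgroup.mem_sup_right hs)
  have hzs1 : z * s ≠ 1 := by
    intro h
    have h1 : z = s⁻¹ := mul_eq_one_iff_eq_inv.1 h
    have h2 : z ∈ Z ⊓ S := ⟨hz, by rw [h1]; exact S.inv_mem hs⟩
    rw [inf_eq_bot hp (c.hK Z hZ) (c.hK S hS) hZneS, Subgroup.mem_bot] at h2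
    exact hz1 h2
  have hXo : orderOf (z * s) = p := by
    rcases (Nat.dvd_prime hp).1 (orderOf_dvd_of_pow_eq_one
      (line_pow hp (c.hK Z hZ) (c.hK S hS) hZS hzs)) with h3 | h3
    · exact absurd (orderOf_eq_one_iff.1 h3) hzs1
    · exact h3
  have hXc : Nat.card (Subgroup.zpowers (z * s)) = p := by rw [Nat.card_zpowers, hXo]
  have hXl : Subgroup.zpowers (z * s) ≤ Z ⊔ S := by rw [Subgroup.zpowers_le]; exact hzs
  have hXK := c.ha Z hZ S hS hZneS hZS _ hXl hXc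
  obtain ⟨Q, hQ, hQl, hQX⟩ := c.point hT hT' hTne hT'T.symm hXK
  have hQzs : ∀ q ∈ Q, (z * s) * q = q * (z * s) := fun q hq =>
    (hQX q hq _ (Subgroup.mem_zpowers _)).symm
  have hQneT' : Q ≠ T' := by
    rintro rfl
    apply hT'Z
    refine (com_of_elem hp (c.hK Z hZ) hz hz1 ?_).symm
    intro q hq
    have h1 := hQzs q hq
    have h2 : s * q = q * s := (hT'S q hq s hs).symm
    have h3 : z * q * s = q * z * s := by
      calc z * q * s = z * (q * s) := by group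
        _ = z * s * q := by rw [← h2]; group
        _ = q * (z * s) := h1
        _ = q * z * s := by group
    exact mul_right_cancel h3
  -- conjugation by `s` and `z s` agree on `T`
  set Ts := T.map (MulAut.conj s).toMonoidHom with hTs
  have hTsK : Ts ∈ K := c.hKc T hT s
  have hTzs : T.map (MulAut.conj (z * s)).toMonoidHom = Ts := by
    have h1 : ∀ x ∈ T, (z * s) * x * (z * s)⁻¹ = s * x * s⁻¹ := by
      intro x hx
      have h2 : z * x = x * z := hZT z hz x hx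
      have h3 : z * s = s * z := hZS z hz s hs
      rw [h3]
      calc s * z * x * (s * z)⁻¹ = s * (z * x) * z⁻¹ * s⁻¹ := by group
        _ = _ := by rw [h2]; group
    ext y
    constructor
    · rintro ⟨x, hx, rfl⟩
      exact ⟨x, hx, (h1 x hx).symm⟩
    · rintro ⟨x, hx, rfl⟩
      exact ⟨x, hx, h1 x hx⟩
  have hTQ : Com T Q := (com_self_sup hp (c.hK T hT) (c.hK T' hT') hT'T.symm).mono le_sup_left hQl
  have hTsQ : Com Ts Q := by
    have h1 := com_conj hTQ (z * s)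
    rw [hTzs, conj_eq_self hQzs] at h1
    exact h1
  have hTsT' : Com Ts T' := by
    have h1 := com_conj hT'T.symm s
    rwa [conj_eq_self (X := T') (fun x hx => (hT'S x hx s hs).symm)] at h1
  have hTsT : Com Ts T :=
    ((c.two hT hT' hTne hT'T.symm hQ hT' hQneT' hQl le_sup_right hTsQ.symm hTsT'.symm).mono
      le_sup_left le_rfl).symm
  have hspow : s ^ p = 1 := by rw [← (eq_zpowers hp (c.hK S hS) hs hs1).2, pow_orderOf_eq_one]
  obtain ⟨hTz, hto⟩ := eq_zpowers hp (c.hK T hT) ht ht1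
  have hstTs : s * t * s⁻¹ ∈ Ts := ⟨t, ht, rfl⟩
  -- `Ts ≠ T`
  have hTsne : Ts ≠ T := by
    intro h
    apply hTS
    have h1 : s * t * s⁻¹ ∈ T := h ▸ hstTs
    rw [hTz] at h1
    have hfo : IsOfFinOrder t := by
      rw [← orderOf_pos_iff, hto]; exact hp.pos
    obtain ⟨k, hk⟩ := (hfo.mem_powers_iff_mem_zpowers.2 h1 : _ ∈ Submonoid.powers t)
    have h2 := fermat hp hspow hto (R := ⊥) (by intro x hx; rw [Subgroup.mem_bot] at hx; simp [hx])
      (by intro x hx; rw [Subgroup.mem_bot] at hx; simp [hx]) (inf_bot_eq _) k (r := 1) (one_mem _)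
      (by rw [mul_one]; exact hk.symm)
    rw [Subgroup.mem_bot, mul_inv_eq_one, mul_inv_eq_iff_eq_mul] at h2
    refine com_of_elem hp (c.hK T hT) ht ht1 fun w hw => ?_
    have h3 := com_of_elem hp (c.hK S hS) hs hs1 (W := Subgroup.zpowers t) (by
      intro w hw
      obtain ⟨i, rfl⟩ := Subgroup.mem_zpowers_iff.1 hw
      exact Commute.zpow_right h2 i)
    exact (h3 w hw t (Subgroup.mem_zpowers t)).symm
  -- the point `R`
  obtain ⟨R, hR, hRl, hRS⟩ := c.point hT hTsK hTsne.symm hTsT.symm hS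
  have hRneT : R ≠ T := by rintro rfl; exact hTS hRS
  have hl3 := com_self_sup hp (c.hK T hT) (c.hK _ hTsK) hTsT.symm
  have hRT : Com R T := hl3.mono hRl le_sup_left
  refine ⟨R, hR, hRT, hRS, s, hs, t, ht, hs1, ht1, ?_⟩
  have hline : T ⊔ R = T ⊔ Ts := by
    exact line_eq hp (c.hK T hT) (c.hK _ hTsK) hTsne.symm hTsT.symm (c.hK T hT) (c.hK R hR)
      hRneT.symm le_sup_left hRl
  have hmem : s * t * s⁻¹ ∈ T ⊔ R := by rw [hline]; exact Subgroup.mem_sup_right hstTs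
  have hnorm : T ≤ Subgroup.normalizer (R : Set G) := by
    intro x hx
    rw [Subgroup.mem_normalizer_iff]
    intro y
    constructor
    · intro hy
      rw [← hRT y hy x hx, mul_inv_cancel_right]; exact hy
    · intro hy
      have h2 := hRT _ hy x⁻¹ (T.inv_mem hx)
      have h3 : y = x * y * x⁻¹ := by
        calc y = x⁻¹ * (x * y * x⁻¹) * x := by group
          _ = (x * y * x⁻¹) * x⁻¹ * x := by rw [← h2]
          _ = _ := by group
      rw [h3]; exact hy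
  have hmem' : s * t * s⁻¹ ∈ (T : Set G) * (R : Set G) := by
    rw [← Subgroup.coe_mul_of_left_le_normalizer_right T R hnorm]; exact hmem
  obtain ⟨t', ht', r, hr, htr⟩ := Set.mem_mul.1 hmem'
  rw [SetLike.mem_coe, hTz] at ht'
  have : Finite T := Nat.finite_of_card_ne_zero (by rw [c.hK T hT]; exact hp.ne_zero)
  have hfo : IsOfFinOrder t := by
    rw [← orderOf_pos_iff, hto]; exact hp.pos
  obtain ⟨k, hk⟩ := (hfo.mem_powers_iff_mem_zpowers.2 ht' : _ ∈ Submonoid.powers t)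
  refine fermat hp hspow hto (R := R) (fun x hx => (hRS x hx s hs).symm)
    (fun x hx => (hRT x hx t ht).symm) ?_ k (r := r) hr ?_
  · rw [← hTz]; exact inf_eq_bot hp (c.hK T hT) (c.hK R hR) hRneT.symm
  · rw [← htr, ← hk]

theorem false : False := by
  have hp := c.hp
  -- two noncommuting points
  obtain ⟨S, hS, hex⟩ : ∃ S ∈ K, ∃ T ∈ K, ¬ Com T S := by
    obtain ⟨X, hX, -⟩ := c.hex
    obtain ⟨W, hW, h⟩ := c.nd X hX
    exact ⟨X, hX, W, hW, fun h2 => h h2.symm⟩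
  obtain ⟨T, hT, hTS⟩ := hex
  obtain ⟨R, hR, hRT, hRS, s, hs, t, ht, hs1, ht1, hst⟩ := c.claimB hT hS hTS
  obtain ⟨W, hW, hRW⟩ := c.nd R hR
  have hRneT : R ≠ T := by rintro rfl; exact hTS hRS
  have hRneS : R ≠ S := by rintro rfl; exact hTS hRT.symm
  obtain ⟨T1, hT1, hT1l, hT1W⟩ := c.point hR hT hRneT hRT hW
  obtain ⟨S1, hS1, hS1l, hS1W⟩ := c.point hR hS hRneS hRS hW
  have hT1ne : T1 ≠ R := by rintro rfl; exact hRW hT1W
  have hS1ne : S1 ≠ R := by rintro rfl; exact hRW hS1W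
  -- all commutators of elements of the two lines lie in `R`
  have gen : ∀ (x : G), (∀ r ∈ R, x * r = r * x) → ∀ (A : Set G), (∀ a ∈ A, (∀ r ∈ R, a * r = r * a)
      ∧ a * x * a⁻¹ * x⁻¹ ∈ R) → ∀ y ∈ Subgroup.closure A, (∀ r ∈ R, y * r = r * y)
      ∧ y * x * y⁻¹ * x⁻¹ ∈ R := by
    intro x hx A hA y hy
    induction hy using Subgroup.closure_induction with
    | mem a ha => exact hA a ha
    | one => exact ⟨fun r _ => by rw [one_mul, mul_one], by simp⟩
    | mul a b _ _ iha ihb =>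
      refine ⟨fun r hr => ?_, ?_⟩
      · rw [mul_assoc, ihb.1 r hr, ← mul_assoc, iha.1 r hr, mul_assoc]
      · have h1 : a * b * x * (a * b)⁻¹ * x⁻¹ = a * (b * x * b⁻¹ * x⁻¹) * (x * a⁻¹ * x⁻¹) := by group
        have h2 : a * (b * x * b⁻¹ * x⁻¹) = (b * x * b⁻¹ * x⁻¹) * a := iha.1 _ ihb.2
        rw [h1, h2]
        have h3 : b * x * b⁻¹ * x⁻¹ * a * (x * a⁻¹ * x⁻¹) =
            (b * x * b⁻¹ * x⁻¹) * (a * x * a⁻¹ * x⁻¹) := by group
        rw [h3]
        exact R.mul_mem ihb.2 iha.2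
    | inv a _ iha =>
      refine ⟨fun r hr => ?_, ?_⟩
      · have h1 := iha.1 r hr
        calc a⁻¹ * r = a⁻¹ * (r * a) * a⁻¹ := by group
          _ = a⁻¹ * (a * r) * a⁻¹ := by rw [h1]
          _ = r * a⁻¹ := by group
      · have h1 : a⁻¹ * x * a⁻¹⁻¹ * x⁻¹ = a⁻¹ * (a * x * a⁻¹ * x⁻¹)⁻¹ * a := by group
        have h2 : a * (a * x * a⁻¹ * x⁻¹)⁻¹ = (a * x * a⁻¹ * x⁻¹)⁻¹ * a :=
          iha.1 _ (R.inv_mem iha.2)
        have h3 : a⁻¹ * (a * x * a⁻¹ * x⁻¹)⁻¹ * a = (a * x * a⁻¹ * x⁻¹)⁻¹ := by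
          calc a⁻¹ * (a * x * a⁻¹ * x⁻¹)⁻¹ * a = a⁻¹ * ((a * x * a⁻¹ * x⁻¹)⁻¹ * a) := by group
            _ = a⁻¹ * (a * (a * x * a⁻¹ * x⁻¹)⁻¹) := by rw [h2]
            _ = _ := by group
        rw [h1, h3]
        exact R.inv_mem iha.2
  have hsR : ∀ r ∈ R, s * r = r * s := fun r hr => (hRS r hr s hs).symm
  have htR : ∀ r ∈ R, t * r = r * t := fun r hr => (hRT r hr t ht).symm
  have hRR := self_com hp (c.hK R hR)
  have hTz := (eq_zpowers hp (c.hK T hT) ht ht1).1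
  have hSz := (eq_zpowers hp (c.hK S hS) hs hs1).1
  have hlT : R ⊔ T = Subgroup.closure ((R : Set G) ∪ {t}) := by
    rw [Subgroup.closure_union, Subgroup.closure_eq, ← Subgroup.zpowers_eq_closure, ← hTz]
  have hlS : R ⊔ S = Subgroup.closure ((R : Set G) ∪ {s}) := by
    rw [Subgroup.closure_union, Subgroup.closure_eq, ← Subgroup.zpowers_eq_closure, ← hSz]
  have hflip : ∀ a b : G, a * b * a⁻¹ * b⁻¹ ∈ R → b * a * b⁻¹ * a⁻¹ ∈ R := by
    intro a b h
    have h1 : b * a * b⁻¹ * a⁻¹ = (a * b * a⁻¹ * b⁻¹)⁻¹ := by group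
    rw [h1]; exact R.inv_mem h
  have g1 : ∀ y ∈ R ⊔ T, (∀ r ∈ R, y * r = r * y) ∧ y * s * y⁻¹ * s⁻¹ ∈ R := by
    intro y hy
    rw [hlT] at hy
    refine gen s hsR _ ?_ y hy
    rintro a (ha | ha)
    · refine ⟨fun r hr => hRR a ha r hr, ?_⟩
      have h1 : a * s * a⁻¹ * s⁻¹ = 1 := by
        rw [← hsR a ha]; group
      rw [h1]; exact one_mem _
    · rw [Set.mem_singleton_iff] at ha
      subst ha
      exact ⟨htR, hflip _ _ hst⟩
  have g2 : ∀ y ∈ R ⊔ T, ∀ x ∈ R ⊔ S, x * y * x⁻¹ * y⁻¹ ∈ R := by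
    intro y hy x hx
    rw [hlS] at hx
    refine (gen y (g1 y hy).1 _ ?_ x hx).2
    rintro a (ha | ha)
    · refine ⟨fun r hr => hRR a ha r hr, ?_⟩
      have h1 : a * y * a⁻¹ * y⁻¹ = 1 := by
        rw [← (g1 y hy).1 a ha]; group
      rw [h1]; exact one_mem _
    · rw [Set.mem_singleton_iff] at ha
      subst ha
      exact ⟨hsR, hflip _ _ (g1 y hy).2⟩
  -- `T1` and `S1` do not commute
  have hT1S1 : ¬ Com T1 S1 := by
    intro h
    have hlS' := com_self_sup hp (c.hK R hR) (c.hK S hS) hRS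
    have hlT' := com_self_sup hp (c.hK R hR) (c.hK T hT) hRT
    have h1 : Com (R ⊔ T) S1 := c.two hR hT hRneT hRT hT1 hR hT1ne hT1l le_sup_left h
      (hlS'.mono le_sup_left hS1l)
    have h2 : Com (R ⊔ S) T := c.two hR hS hRneS hRS hS1 hR hS1ne hS1l le_sup_left
      (h1.mono le_sup_right le_rfl).symm hRT
    exact hTS (h2.mono le_sup_right le_rfl).symm
  have hex2 : ∃ x ∈ S1, ∃ y ∈ T1, x * y * x⁻¹ * y⁻¹ ≠ 1 := by
    by_contra hcon
    push Not at hcon
    apply hT1S1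
    intro y hy x hx
    have h1 := hcon x hx y hy
    rw [mul_inv_eq_one, mul_inv_eq_iff_eq_mul] at h1
    exact h1.symm
  obtain ⟨x, hx, y, hy, hxy⟩ := hex2
  refine hRW (com_of_elem hp (c.hK R hR) (g2 y (hT1l hy) x (hS1l hx)) hxy ?_)
  intro w hw
  have h1 : Commute x w := hS1W x hx w hw
  have h2 : Commute y w := hT1W y hy w hw
  exact (((h1.mul_left h2).mul_left h1.inv_left).mul_left h2.inv_left)

end Cfg

end

/-- Let p be a prime and K a set of subgroups of order p of a finite group G, closed under conjugation, such that at least two distinct members of K commute elementwise, and whenever two distinct members X, Y of K commute: every subgroup of order p of the group XY they generate belongs to K, and every member W of K has centralizer meeting XY nontrivially. Then some member V of K commutes elementwise with every member of K and lies in O_p(G); in particular G is not simple. -/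
theorem result {G : Type*} [Group G] [Finite G]
    {p : ℕ} (hp : p.Prime) (K : Set (Subgroup G)) (hK : ∀ X ∈ K, Nat.card ↥X = p)
    (hKc : ∀ X ∈ K, ∀ g : G, X.map (MulAut.conj g).toMonoidHom ∈ K)
    (hex : ∃ X ∈ K, ∃ Y ∈ K, X ≠ Y ∧ ∀ x ∈ X, ∀ y ∈ Y, x * y = y * x)
    (ha : ∀ X ∈ K, ∀ Y ∈ K, X ≠ Y → (∀ x ∈ X, ∀ y ∈ Y, x * y = y * x) →
      ∀ Z : Subgroup G, Z ≤ X ⊔ Y → Nat.card ↥Z = p → Z ∈ K)
    (hb : ∀ X ∈ K, ∀ Y ∈ K, X ≠ Y → (∀ x ∈ X, ∀ y ∈ Y, x * y = y * x) →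
      ∀ W ∈ K, (X ⊔ Y) ⊓ Subgroup.centralizer (W : Set G) ≠ ⊥) :
    (∃ V ∈ K, (∀ W ∈ K, ∀ v ∈ V, ∀ w ∈ W, v * w = w * v) ∧ V ≤ Cfsg.pCore p G) ∧ ¬ IsSimpleGroup G := by
  have hV : ∃ V ∈ K, ∀ W ∈ K, Com V W := by
    by_contra hcon
    push Not at hcon
    exact Cfg.false ⟨hp, hK, hKc, hex, ha, hb, hcon⟩
  obtain ⟨V, hVK, hVc⟩ := hV
  -- the subgroup generated by the radical
  set Rad : Set (Subgroup G) := {X | X ∈ K ∧ ∀ W ∈ K, Com X W} with hRad
  set A : Set G := {x | ∃ X ∈ Rad, x ∈ X} with hA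
  have hAc : ∀ x ∈ A, ∀ y ∈ A, x * y = y * x := by
    rintro x ⟨X, hX, hx⟩ y ⟨Y, hY, hy⟩
    exact hX.2 Y hY.1 x hx y hy
  have hconj : ∀ X ∈ Rad, ∀ g : G, X.map (MulAut.conj g).toMonoidHom ∈ Rad := by
    intro X hX g
    refine ⟨hKc X hX.1 g, fun W hW => ?_⟩
    have h1 := com_conj (hX.2 _ (hKc W hW g⁻¹)) g
    have h2 : (W.map (MulAut.conj g⁻¹).toMonoidHom).map (MulAut.conj g).toMonoidHom = W := by
      ext y
      constructor
      · rintro ⟨_, ⟨x, hx, rfl⟩, rfl⟩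
        show g * (g⁻¹ * x * g⁻¹⁻¹) * g⁻¹ ∈ W
        have h3 : g * (g⁻¹ * x * g⁻¹⁻¹) * g⁻¹ = x := by group
        rw [h3]; exact hx
      · intro hy
        refine ⟨_, ⟨y, hy, rfl⟩, ?_⟩
        show g * (g⁻¹ * y * g⁻¹⁻¹) * g⁻¹ = y
        group
    rwa [h2] at h1
  set M := Subgroup.closure A with hM
  have hMn : M.Normal := by
    refine ⟨fun n hn g => ?_⟩
    have h1 : M.map (MulAut.conj g).toMonoidHom ≤ M := by
      rw [hM, MonoidHom.map_closure, Subgroup.closure_le]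
      rintro _ ⟨x, ⟨X, hX, hx⟩, rfl⟩
      exact Subgroup.subset_closure ⟨_, hconj X hX g, ⟨x, hx, rfl⟩⟩
    exact h1 ⟨n, hn, rfl⟩
  have hMc : ∀ x ∈ M, ∀ y ∈ M, x * y = y * x := by
    have h1 : M ≤ Subgroup.centralizer (M : Set G) := by
      rw [hM, Subgroup.closure_le]
      intro x hx
      have h2 : Subgroup.closure A ≤ Subgroup.centralizer ({x} : Set G) := by
        rw [Subgroup.closure_le]
        intro y hy
        rw [SetLike.mem_coe, Subgroup.mem_centralizer_singleton_iff]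
        exact hAc y hy x hx
      rw [SetLike.mem_coe, Subgroup.mem_centralizer_iff]
      intro y hy
      exact Subgroup.mem_centralizer_singleton_iff.1 (h2 hy)
    intro x hx y hy
    exact (Subgroup.mem_centralizer_iff.1 (h1 hx) y hy).symm
  have hMp : ∀ x ∈ M, x ^ p = 1 := by
    intro x hx
    induction hx using Subgroup.closure_induction with
    | mem x hx =>
      obtain ⟨X, hX, hx⟩ := hx
      by_cases h1 : x = 1
      · rw [h1, one_pow]
      · rw [← (eq_zpowers hp (hK X hX.1) hx h1).2, pow_orderOf_eq_one]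
    | one => exact one_pow p
    | mul x y hx hy ihx ihy =>
      have hxy : Commute x y := hMc x hx y hy
      rw [hxy.mul_pow, ihx, ihy, one_mul]
    | inv x hx ihx => rw [inv_pow, ihx, inv_one]
  have hMP : IsPGroup p M := by
    intro x
    exact ⟨1, Subtype.ext (by rw [pow_one]; exact hMp x x.2)⟩
  have hVM : V ≤ M := fun v hv => Subgroup.subset_closure ⟨V, ⟨hVK, hVc⟩, hv⟩
  refine ⟨⟨V, hVK, fun W hW v hv w hw => hVc W hW v hv w hw, hVM.trans ?_⟩, ?_⟩
  · exact le_sSup ⟨hMn, hMP⟩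
  · intro hG
    obtain ⟨v, hv, hv1⟩ := exists_ne_one hp (hK V hVK)
    have hMtop : M = ⊤ := by
      rcases hMn.eq_bot_or_eq_top with h | h
      · have h1 := hVM hv
        rw [h, Subgroup.mem_bot] at h1
        exact absurd h1 hv1
      · exact h
    obtain ⟨X, hX, Y, hY, hne, -⟩ := hex
    have htop : ∀ Z ∈ K, Z = ⊤ := by
      intro Z hZ
      have hZn : Z.Normal := by
        refine ⟨fun n hn g => ?_⟩
        rw [hMc g (hMtop ▸ Subgroup.mem_top g) n (hMtop ▸ Subgroup.mem_top n),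
          mul_inv_cancel_right]
        exact hn
      rcases hZn.eq_bot_or_eq_top with h | h
      · obtain ⟨z, hz, hz1⟩ := exists_ne_one hp (hK Z hZ)
        rw [h, Subgroup.mem_bot] at hz
        exact absurd hz hz1
      · exact h
    exact hne ((htop X hX).trans (htop Y hY).symm)

end Cfsg.Agent.S3196
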