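import Mathlib
import Cfsg.Agent.J2Sylow.TabZ_mg
import Cfsg.Agent.R15.NormalElem
import Cfsg.Agent.S0205
import Cfsg.Agent.S0215
import Cfsg.Statements.S3199
import Cfsg.Agent.H308.JSetup
import Cfsg.Agent.FastGrp
import Cfsg.Agent.Prune
set_option linter.all false
prune_inst 0x7f00000000000000000000000000000000000000000000000000000000000000000000000000000000000000000000000000000000000000000000000000000000000000000000000000000000000000003fffffffffffffffffffffffffffbeffbdffffffff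
open scoped Cfsg.Agent.FastGrp

-- part: J2Sylow/InstZ
section
/-!
# `CentZ` without hypotheses
-/

set_option autoImplicit false

namespace Cfsg.Agent.J2Sylow.InstZ

universe u

theorem solvFun : Functor.SolvFun.{u} := by
  intro X _ _ A θ h1 h2 h3 h4 h5 h6 h7 h8
  exact (SignalizersComponents.SFTwo.result A h1 h2 h3 θ h4 h5 h6 h7 h8).1

theorem oddSolv : Functor.OddSolv.{u} := fun _ _ _ hX => S0205.result hX

theorem zStar : ZNonsing.ZStar.{u} := fun _ _ _ P a ha haP h => S0215.result P a ha haP h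

end Cfsg.Agent.J2Sylow.InstZ
end

-- part: H308/JFour
section
/-!
# Groups with a Sylow 2-subgroup of J2 type and no subgroup of index 2: the fusion in `C(z)`

The fusion `f2` holds whether or not `z` is isolated.
-/

set_option autoImplicit false

namespace Cfsg.Agent.H308.JFour

open Cfsg.Agent.J2Sylow Cfsg.Agent.J2Sylow.Model Subgroup

variable {G : Type*} [Group G] (h : Setup G)

/-- Step 4 when `k z k⁻¹` is moved back to `z` by an element normalising `R`. -/
theorem step4 [Finite G] (hG : ∀ H : Subgroup G, H.index ≠ 2)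
    (hn : ∀ x ∈ h.U, x ≠ 1 → IsConj h.z x →
      ∃ g : G, (∀ x ∈ h.R, g * x * g⁻¹ ∈ h.R) ∧ g * x * g⁻¹ = h.z) :
    ∃ c : G, c * h.z = h.z * c ∧ ∀ x ∈ T.Ct, c * h.φ x * c⁻¹ ∈ T.QR.map h.φ := by
  obtain ⟨k, hk1, hk2, hk3⟩ := h.step1 hG
  obtain ⟨f, hf, hff⟩ := h.exists_hom T.Ct k hk3
  have htau : T.tau ∈ T.Ct := by decide
  have hzC : T.z ∈ T.Ct := by decide
  have hy : h.φ (f ⟨T.tau, htau⟩) = k * h.tau * k⁻¹ := hff _
  have hz' : h.φ (f ⟨T.z, hzC⟩) = k * h.z * k⁻¹ := hff _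
  have hyz : f ⟨T.tau, htau⟩ ≠ f ⟨T.z, hzC⟩ := by
    intro h0
    have h1 := congrArg Subtype.val (hf h0)
    exact absurd h1 (show ¬ (T.tau = T.z) by decide)
  have hfR : ∀ x, f x ∈ T.R := by
    intro x
    have h1 : f ⟨T.tau, htau⟩ * f x = f x * f ⟨T.tau, htau⟩ := by
      rw [← map_mul, ← map_mul]
      congr 1
      exact Subtype.ext x.2.symm
    have h2 : f ⟨T.z, hzC⟩ * f x = f x * f ⟨T.z, hzC⟩ := by
      rw [← map_mul, ← map_mul]
      congr 1
      exact Subtype.ext (T.z_comm _)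
    have hyU : f ⟨T.tau, htau⟩ ∈ T.U := by
      rw [← h.phi_mem_U, hy]; exact hk1
    have hzU : f ⟨T.z, hzC⟩ ∈ T.U := by
      rw [← h.phi_mem_U, hz']; exact hk2
    have hy1 : f ⟨T.tau, htau⟩ ≠ 1 := by
      intro h0
      have h3 : (⟨T.tau, htau⟩ : T.Ct) = 1 := hf (by rw [h0, map_one])
      exact absurd (congrArg Subtype.val h3) (show ¬ (T.tau = 1) by decide)
    have hz1 : f ⟨T.z, hzC⟩ ≠ 1 := by
      intro h0
      have h3 : (⟨T.z, hzC⟩ : T.Ct) = 1 := hf (by rw [h0, map_one])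
      exact absurd (congrArg Subtype.val h3) (show ¬ (T.z = 1) by decide)
    rcases T.U_cases _ hyU with h3 | h3 | h3 | h3
    · exact absurd h3 hy1
    · rcases T.U_cases _ hzU with h4 | h4 | h4 | h4
      · exact absurd h4 hz1
      · exact absurd (h3.trans h4.symm) hyz
      · rw [h4] at h2
        exact T.comm_v _ h2
      · rw [h4] at h2
        exact T.comm_vz _ h2
    · rw [h3] at h1
      exact T.comm_v _ h1
    · rw [h3] at h1
      exact T.comm_vz _ h1
  obtain ⟨n, hn1, hn2⟩ := hn _ hk2 (h.ne_one (by decide) k) (isConj_iff.2 ⟨k, rfl⟩)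
  have hcz : n * k * h.z * (n * k)⁻¹ = h.z := by
    refine Eq.trans ?_ hn2
    group
  refine ⟨n * k, ?_, ?_⟩
  · exact mul_inv_eq_iff_eq_mul.1 hcz
  · intro x hx
    have h1 : n * k * h.φ x * (n * k)⁻¹ = n * (k * h.φ x * k⁻¹) * n⁻¹ := by group
    have h2 : n * k * h.φ x * (n * k)⁻¹ ∈ h.R := by
      rw [h1, ← hff ⟨x, hx⟩]
      exact hn1 _ (h.phi_mem_R.2 (hfR _))
    have hU : ∀ w ∈ h.U, n * w * n⁻¹ ∈ h.U := by
      rintro _ ⟨w, hw, rfl⟩
      exact h.conj_U n (fun x hx => hn1 _ (h.phi_mem_R.2 hx)) w hw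
    have hUQ : ∀ w ∈ h.U, w ∈ T.QR.map h.φ := by
      rintro _ ⟨w, hw, rfl⟩
      exact h.phi_mem_map.2 (T.mem_QR.2 ⟨T.U_le_Q hw, T.U_le_R hw⟩)
    have hz1 : n * k * h.φ T.z * (n * k)⁻¹ = h.z := hcz
    have htU : n * k * h.φ T.tau * (n * k)⁻¹ ∈ h.U := by
      have h3 : n * k * h.φ T.tau * (n * k)⁻¹ = n * (k * h.φ T.tau * k⁻¹) * n⁻¹ := by group
      rw [h3]
      exact hU _ hk1
    rcases T.sq_cent_tau x hx with h3 | h3 | h3 | h3 | h3
    · obtain ⟨w, hw, hw2⟩ := h2
      refine ⟨w, ⟨?_, ?_⟩, hw2⟩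
      · refine T.mem_Q_of_sq w hw (h.inj ?_)
        rw [map_mul, hw2]
        calc n * k * h.φ x * (n * k)⁻¹ * (n * k * h.φ x * (n * k)⁻¹)
            = n * k * h.φ (x * x) * (n * k)⁻¹ := by rw [map_mul]; group
          _ = _ := by rw [h3]; exact hz1
      · exact hw
    · rw [h3, map_one]
      have : n * k * 1 * (n * k)⁻¹ = 1 := by group
      rw [this]
      exact Subgroup.one_mem _
    · rw [h3]
      exact hUQ _ htU
    · rw [h3, hz1]
      exact hUQ _ h.z_mem_U
    · rw [h3, map_mul]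
      have h4 : n * k * (h.φ T.tau * h.φ T.z) * (n * k)⁻¹
          = (n * k * h.φ T.tau * (n * k)⁻¹) * (n * k * h.φ T.z * (n * k)⁻¹) := by group
      rw [h4, hz1]
      exact hUQ _ (h.U.mul_mem htU h.z_mem_U)

/-- **The fusion in `C(z)`** of a group with a Sylow 2-subgroup of J2 type and without subgroups of
index 2 (`z` may be isolated). -/
theorem f2 [Finite G] (hG : ∀ H : Subgroup G, H.index ≠ 2) :
    ∃ g : G, g * h.z = h.z * g ∧ (∀ x ∈ h.Q, g * x * g⁻¹ ∈ h.Q) ∧ g * h.tau * g⁻¹ = h.v := by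
  by_cases hz : ∃ g, g * h.z * g⁻¹ ∈ h.S ∧ g * h.z * g⁻¹ ≠ h.z
  · exact (h.fused hG hz).f2
  · push Not at hz
    obtain ⟨c, hc1, hc2⟩ := step4 h hG (by
      intro x hx hx1 hconj
      obtain ⟨g, rfl⟩ := isConj_iff.1 hconj
      refine ⟨1, fun x hx => by simpa using hx, ?_⟩
      rw [hz g (h.U_le_S hx)]; group)
    exact h.step5 hc1 hc2

end Cfsg.Agent.H308.JFour
end

-- part: H308/CentExt
section
/-!
# Central extensions by a group of order 2 are determined by their Sylow 2-subgroups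

Two finite groups `X`, `X'` with central subgroups `{1,z}`, `{1,z'}` and the same quotient `B` are
isomorphic if their Sylow 2-subgroups are isomorphic over `B`.
-/

set_option autoImplicit false

namespace Cfsg.Agent.H308.CentExt

open Subgroup

section

variable {B X X' T : Type*} [Group B] [Group X] [Group X'] [Group T]

/-- the fibre product -/
def Fib (π : X →* B) (π' : X' →* B) : Subgroup (X × X') :=
  (π.comp (MonoidHom.fst X X')).eqLocus (π'.comp (MonoidHom.snd X X'))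

theorem mem_Fib {π : X →* B} {π' : X' →* B} {p : X × X'} : p ∈ Fib π π' ↔ π p.1 = π' p.2 := Iff.rfl

/-- the second projection of the fibre product -/
def snd (π : X →* B) (π' : X' →* B) : Fib π π' →* X' := (MonoidHom.snd X X').comp (Fib π π').subtype

/-- the first projection of the fibre product -/
def fst (π : X →* B) (π' : X' →* B) : Fib π π' →* X := (MonoidHom.fst X X').comp (Fib π π').subtype

theorem snd_surjective {π : X →* B} {π' : X' →* B} (hπ : Function.Surjective π) :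
    Function.Surjective (snd π π') := by
  intro x'
  obtain ⟨x, hx⟩ := hπ (π' x')
  exact ⟨⟨(x, x'), hx⟩, rfl⟩

/-- **uniqueness of central extensions by a group of order 2 with given Sylow 2-subgroup** -/
theorem iso_of_sylow [Finite X] [Finite X'] (π : X →* B) (π' : X' →* B)
    (hπ : Function.Surjective π) (hπ' : Function.Surjective π')
    {z : X} {z' : X'} (hz1 : z ≠ 1) (hzz : z * z = 1)
    (hzc : ∀ x, x * z = z * x)
    (hker : ∀ x, π x = 1 ↔ x = 1 ∨ x = z) (hker' : ∀ x, π' x = 1 ↔ x = 1 ∨ x = z')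
    (f : T →* X) (f' : T →* X') (hf' : Function.Injective f') (hff : ∀ t, π (f t) = π' (f' t))
    (hodd : Odd f'.range.index)
    (hcomm : ∃ a b : T, f (a * b * a⁻¹ * b⁻¹) = z ∧ f' (a * b * a⁻¹ * b⁻¹) = z') :
    Nonempty (X ≃* X') := by
  classical
  set P := Fib π π' with hP
  have hPf : Finite P := inferInstance
  set H : Subgroup P := f'.range.comap (snd π π') with hH
  have hidx : H.index = f'.range.index := index_comap_of_surjective _ (snd_surjective hπ)
  -- the section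
  let t : H → T := fun h => (MonoidHom.ofInjective hf').symm ⟨h.1.1.2, h.2⟩
  have ht : ∀ h : H, f' (t h) = h.1.1.2 := by
    intro h
    have h1 : MonoidHom.ofInjective hf' (t h) = ⟨h.1.1.2, h.2⟩ :=
      (MonoidHom.ofInjective hf').apply_symm_apply _
    exact congrArg Subtype.val h1
  have htm : ∀ h k : H, t (h * k) = t h * t k := by
    intro h k
    apply hf'
    rw [map_mul, ht, ht, ht]; rfl
  have hcase : ∀ h : H, h.1.1.1 = f (t h) ∨ h.1.1.1 = z * f (t h) := by
    intro h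
    have h1 : π (h.1.1.1 * (f (t h))⁻¹) = 1 := by
      rw [map_mul, map_inv, hff, ht, mul_inv_eq_one]
      exact h.1.2
    rcases (hker _).1 h1 with h2 | h2
    · left; exact mul_inv_eq_one.1 h2
    · right; exact mul_inv_eq_iff_eq_mul.1 h2
  have hne : ∀ x : X, z * x ≠ x := by
    intro x hx
    exact hz1 (mul_eq_right.1 hx)
  let χ : H →* Multiplicative (ZMod 2) := MonoidHom.mk'
    (fun h => if h.1.1.1 = f (t h) then Multiplicative.ofAdd 0 else Multiplicative.ofAdd 1) (by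
      intro h k
      have h3 : (h * k).1.1.1 = h.1.1.1 * k.1.1.1 := rfl
      have h4 : f (t (h * k)) = f (t h) * f (t k) := by rw [htm, map_mul]
      have hd : (Multiplicative.ofAdd (1 : ZMod 2)) * Multiplicative.ofAdd 1 =
        Multiplicative.ofAdd 0 := rfl
      have e0 : ∀ (x y : X), x = y → (if x = y then Multiplicative.ofAdd (0 : ZMod 2) else
          Multiplicative.ofAdd 1) = Multiplicative.ofAdd 0 := fun x y hxy => if_pos hxy
      have e1 : ∀ (x y : X), x = z * y → (if x = y then Multiplicative.ofAdd (0 : ZMod 2) else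
          Multiplicative.ofAdd 1) = Multiplicative.ofAdd 1 := fun x y hxy =>
        if_neg (by rw [hxy]; exact hne y)
      rw [h3, h4]
      rcases hcase h with h1 | h1 <;> rcases hcase k with h2 | h2
      · rw [e0 _ _ (by rw [h1, h2]), e0 _ _ h1, e0 _ _ h2]; rfl
      · rw [e0 _ _ h1, e1 _ _ h2, e1 _ _ (by rw [h1, h2, ← mul_assoc, hzc, mul_assoc])]; rfl
      · rw [e1 _ _ h1, e0 _ _ h2, e1 _ _ (by rw [h1, h2, mul_assoc])]; rfl
      · rw [e1 _ _ h1, e1 _ _ h2, hd]
        refine e0 _ _ ?_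
        rw [h1, h2]
        calc z * f (t h) * (z * f (t k)) = z * (f (t h) * z) * f (t k) := by group
          _ = z * (z * f (t h)) * f (t k) := by rw [hzc]
          _ = (z * z) * (f (t h) * f (t k)) := by group
          _ = _ := by rw [hzz, one_mul])
  have hfi : H.FiniteIndex := inferInstance
  let V : P →* Multiplicative (ZMod 2) := χ.transfer
  have hz1P : ((z, 1) : X × X') ∈ P := by
    rw [hP, mem_Fib]
    show π z = π' 1
    rw [map_one, hker]; exact Or.inr rfl
  set ζ : P := ⟨(z, 1), hz1P⟩ with hζ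
  have hζc : ∀ g : P, g * ζ = ζ * g := by
    rintro ⟨⟨x, x'⟩, hg⟩
    apply Subtype.ext
    show ((x * z, x' * 1) : X × X') = (z * x, 1 * x')
    rw [hzc, mul_one, one_mul]
  have hζH : ζ ∈ H := by
    show (snd π π') ζ ∈ f'.range
    have h1 : (snd π π') ζ = 1 := rfl
    rw [h1]; exact one_mem _
  have hχζ : χ ⟨ζ, hζH⟩ = Multiplicative.ofAdd 1 := by
    show (if (z : X) = f (t ⟨ζ, hζH⟩) then Multiplicative.ofAdd (0 : ZMod 2)
      else Multiplicative.ofAdd 1) = _
    rw [if_neg]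
    have h1 : t ⟨ζ, hζH⟩ = 1 := by
      apply hf'
      rw [ht, map_one]
    rw [h1, map_one]
    exact hz1
  have hVζ : V ζ = Multiplicative.ofAdd 1 := by
    have h1 := MonoidHom.transfer_eq_pow χ ζ (by
      intro k g _
      have h2 : Commute g (ζ ^ k) := (show Commute g ζ from hζc g).pow_right k
      rw [mul_assoc, ← h2.eq, ← mul_assoc, inv_mul_cancel, one_mul])
    show χ.transfer ζ = _
    rw [h1]
    have h3 : χ ((⟨ζ, hζH⟩ : H) ^ H.index) = Multiplicative.ofAdd 1 := by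
      rw [map_pow, hχζ, hidx]
      obtain ⟨m, hm⟩ := hodd
      rw [hm, pow_add, pow_mul, pow_one]
      have h4 : (Multiplicative.ofAdd (1 : ZMod 2)) ^ 2 = 1 := rfl
      rw [h4, one_pow, one_mul]
    exact h3
  obtain ⟨a, b, hab, hab'⟩ := hcomm
  have hzzP : ((z, z') : X × X') ∈ P := by
    rw [hP, mem_Fib]
    show π z = π' z'
    rw [(hker z).2 (Or.inr rfl), (hker' z').2 (Or.inr rfl)]
  have hVD : V ⟨(z, z'), hzzP⟩ = 1 := by
    have hm : ∀ c : T, ((f c, f' c) : X × X') ∈ P := fun c => hff c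
    have h1 : (⟨(z, z'), hzzP⟩ : P) = ⟨_, hm a⟩ * ⟨_, hm b⟩ * ⟨_, hm a⟩⁻¹ * ⟨_, hm b⟩⁻¹ := by
      apply Subtype.ext
      show ((z, z') : X × X') = (f a * f b * (f a)⁻¹ * (f b)⁻¹, f' a * f' b * (f' a)⁻¹ * (f' b)⁻¹)
      rw [← hab, ← hab']
      simp only [map_mul, map_inv]
    rw [h1, map_mul, map_mul, map_mul, map_inv, map_inv]
    rw [mul_comm (V ⟨_, hm a⟩) (V ⟨_, hm b⟩), mul_inv_cancel_right, mul_inv_cancel]
  have h1z'P : ((1, z') : X × X') ∈ P := by
    rw [hP, mem_Fib]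
    show π 1 = π' z'
    rw [map_one, (hker' z').2 (Or.inr rfl)]
  have hV1z : V ⟨(1, z'), h1z'P⟩ = Multiplicative.ofAdd 1 := by
    have h1 : (⟨(z, z'), hzzP⟩ : P) = ζ * ⟨(1, z'), h1z'P⟩ := by
      apply Subtype.ext
      show ((z, z') : X × X') = (z * 1, 1 * z')
      rw [mul_one, one_mul]
    rw [h1, map_mul, hVζ] at hVD
    have h2 : ∀ w : Multiplicative (ZMod 2), Multiplicative.ofAdd 1 * w = 1 →
      w = Multiplicative.ofAdd 1 := by decide
    exact h2 _ hVD
  have hne1 : (Multiplicative.ofAdd (1 : ZMod 2)) ≠ 1 := by decide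
  have hdich : ∀ w : Multiplicative (ZMod 2), w = 1 ∨ w = Multiplicative.ofAdd 1 := by decide
  -- the two projections of the kernel
  let p1 : V.ker →* X := (fst π π').comp V.ker.subtype
  let p2 : V.ker →* X' := (snd π π').comp V.ker.subtype
  have hp1 : Function.Bijective p1 := by
    constructor
    · rw [injective_iff_map_eq_one]
      rintro ⟨⟨⟨x, x'⟩, hx⟩, hV⟩ h1
      have h2 : x = 1 := h1
      subst h2
      have h3 : π' x' = 1 := by
        have h4 : π 1 = π' x' := hx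
        rw [← h4, map_one]
      rcases (hker' x').1 h3 with h4 | h4
      · subst h4; rfl
      · subst h4
        exfalso
        rw [MonoidHom.mem_ker] at hV
        exact hne1 (hV1z.symm.trans hV)
    · intro x
      obtain ⟨x', hx'⟩ := hπ' (π x)
      have hxP : ((x, x') : X × X') ∈ P := hx'.symm
      rcases hdich (V ⟨_, hxP⟩) with h1 | h1
      · exact ⟨⟨⟨_, hxP⟩, h1⟩, rfl⟩
      · refine ⟨⟨⟨_, hxP⟩ * ⟨_, h1z'P⟩, ?_⟩, ?_⟩
        · rw [MonoidHom.mem_ker, map_mul, h1, hV1z]; rfl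
        · show x * 1 = x
          rw [mul_one]
  have hp2 : Function.Bijective p2 := by
    constructor
    · rw [injective_iff_map_eq_one]
      rintro ⟨⟨⟨x, x'⟩, hx⟩, hV⟩ h1
      have h2 : x' = 1 := h1
      subst h2
      have h3 : π x = 1 := by
        have h4 : π x = π' 1 := hx
        rw [h4, map_one]
      rcases (hker x).1 h3 with h4 | h4
      · subst h4; rfl
      · subst h4
        exfalso
        rw [MonoidHom.mem_ker] at hV
        exact hne1 (hVζ.symm.trans hV)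
    · intro x'
      obtain ⟨x, hx⟩ := hπ (π' x')
      have hxP : ((x, x') : X × X') ∈ P := hx
      rcases hdich (V ⟨_, hxP⟩) with h1 | h1
      · exact ⟨⟨⟨_, hxP⟩, h1⟩, rfl⟩
      · refine ⟨⟨⟨_, hxP⟩ * ζ, ?_⟩, ?_⟩
        · rw [MonoidHom.mem_ker, map_mul, h1, hVζ]; rfl
        · show x' * 1 = x'
          rw [mul_one]
  exact ⟨(MulEquiv.ofBijective p1 hp1).symm.trans (MulEquiv.ofBijective p2 hp2)⟩

end

end Cfsg.Agent.H308.CentExt
end

-- part: H308/JModel
section
/-!
# The signed permutation model of `C(z)/O(C(z))` is unique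

`Mod X f ρ`: `f : T → X` embeds the Sylow 2-subgroup `T` of `J₂`, `ρ : X → SP` is the signed
permutation model of `X`.  Two such groups `X` are isomorphic.
-/

set_option autoImplicit false

namespace Cfsg.Agent.H308.JModel

open Cfsg.Agent.J2Sylow Cfsg.Agent.J2Sylow.Model Subgroup Cfsg.Agent.J2Type.Model
open Cfsg.Agent.J2Sylow.ZIsModel (r)

/-- `X` with its Sylow 2-subgroup `T` and its signed permutation model `ρ` -/
structure Mod {X : Type*} [Group X] (f : T →* X) (ρ : X →* SP) : Prop where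
  inj : Function.Injective f
  z_comm : ∀ x, x * f T.z = f T.z * x
  ker : ∀ x, ρ x = 1 ↔ x = 1 ∨ x = f T.z
  range : ∀ g, (∃ x, ρ x = g) ↔ (Equiv.Perm.sign g.σ = 1 ∧ ∑ i, g.s i = 0)
  conj : ∀ x i, x * f (r i) * x⁻¹ = zp (f T.z) ((ρ x).s i) * f (r ((ρ x).σ i))
  v_inj : ∀ a b i j, zp (f T.z) a * f (r i) = zp (f T.z) b * f (r j) → a = b ∧ i = j
  card : Nat.card X = 1920

theorem map_zp {X : Type*} [Group X] (f : T →* X) (a : ZMod 2) : f (zp T.z a) = zp (f T.z) a := by
  rcases zmod2_cases a with rfl | rfl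
  · rw [zp_zero, zp_zero, map_one]
  · rw [zp_one, zp_one]

theorem rho_eq {X X' : Type*} [Group X] [Group X'] {f : T →* X} {ρ : X →* SP} {f' : T →* X'}
    {ρ' : X' →* SP} (m : Mod f ρ) (m' : Mod f' ρ') (t : T) : ρ (f t) = ρ' (f' t) := by
  have h1 : ∀ i, t * r i * t⁻¹ = zp T.z ((ρ (f t)).s i) * r ((ρ (f t)).σ i) := by
    intro i
    apply m.inj
    rw [map_mul, map_mul, map_mul, map_inv, map_zp]
    exact m.conj (f t) i
  have h2 : ∀ i, zp (f' T.z) ((ρ (f t)).s i) * f' (r ((ρ (f t)).σ i)) =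
      zp (f' T.z) ((ρ' (f' t)).s i) * f' (r ((ρ' (f' t)).σ i)) := by
    intro i
    rw [← m'.conj (f' t) i, ← map_zp, ← map_mul, ← h1, map_mul, map_mul, map_inv]
  apply SP.ext
  · apply Equiv.ext
    intro i
    exact (m'.v_inj _ _ _ _ (h2 i)).2
  · funext i
    exact (m'.v_inj _ _ _ _ (h2 i)).1

/-- **uniqueness of the model** -/
theorem unique {X X' : Type*} [Group X] [Group X'] [Finite X] [Finite X'] {f : T →* X}
    {ρ : X →* SP} {f' : T →* X'} {ρ' : X' →* SP} (m : Mod f ρ) (m' : Mod f' ρ') :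
    Nonempty (X ≃* X') := by
  have hr : ∀ x', ρ' x' ∈ ρ.range := by
    intro x'
    rw [MonoidHom.mem_range, m.range, ← m'.range]
    exact ⟨x', rfl⟩
  have hz : f T.z ≠ 1 := by
    intro h
    have h2 : T.z = 1 := m.inj (by rw [h, map_one])
    exact absurd h2 (by decide)
  refine CentExt.iso_of_sylow (B := ρ.range) ρ.rangeRestrict (ρ'.codRestrict ρ.range hr)
    ρ.rangeRestrict_surjective ?_ (z := f T.z) (z' := f' T.z) hz ?_ m.z_comm ?_ ?_ f f' m'.inj ?_
    ?_ ?_
  · rintro ⟨g, hg⟩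
    rw [MonoidHom.mem_range, m.range, ← m'.range] at hg
    obtain ⟨x', hx'⟩ := hg
    exact ⟨x', Subtype.ext hx'⟩
  · rw [← map_mul]
    have h1 : T.z * T.z = 1 := by decide
    rw [h1, map_one]
  · intro x
    rw [← m.ker x]
    constructor
    · intro h; exact congrArg Subtype.val h
    · intro h; exact Subtype.ext h
  · intro x
    rw [← m'.ker x]
    constructor
    · intro h; exact congrArg Subtype.val h
    · intro h; exact Subtype.ext h
  · intro t
    exact Subtype.ext (rho_eq m m' t)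
  · have h1 := f'.range.card_mul_index
    have h2 : Nat.card f'.range = 128 := by
      rw [← Nat.card_congr (MonoidHom.ofInjective m'.inj).toEquiv, T.card_T]
    rw [h2, m'.card] at h1
    have h3 : f'.range.index = 15 := by omega
    rw [h3]; decide
  · have h1 : T.tau * T.v * T.tau⁻¹ * T.v⁻¹ = T.z := by decide
    exact ⟨T.tau, T.v, by rw [h1], by rw [h1]⟩

universe u

open Cfsg.Agent.J2Sylow.Functor CentZBuild
open Cfsg.Agent.J2Sylow.ZNonsing (ZStar)

/-- `C(z)/O(C(z))` has the model -/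
theorem mod_of_f2 (hSF : SolvFun.{u}) (hFT : OddSolv.{u}) (hZS : ZStar.{u}) {G : Type u} [Group G]
    [Finite G] (h : Setup G)
    (f2 : ∃ g : G, g * h.z = h.z * g ∧ (∀ x ∈ h.Q, g * x * g⁻¹ ∈ h.Q) ∧
      g * h.tau * g⁻¹ = h.v) :
    ∃ ρ : (↥(centralizer ({h.z} : Set G)) ⧸ Cfsg.oddCore ↥(centralizer ({h.z} : Set G))) →* SP,
      Mod ((QuotientGroup.mk' (Cfsg.oddCore ↥(centralizer ({h.z} : Set G)))).comp (setupC h).φ)
        ρ := by
  have hOn : (Cfsg.oddCore (centralizer ({h.z} : Set G))).Normal := Lib.Cores.pPrimeCore_normal 2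
  set π := QuotientGroup.mk' (Cfsg.oddCore (centralizer ({h.z} : Set G))) with hπ
  obtain ⟨⟨ρ, hρ⟩, hcard⟩ := ZIsModel.model (setupC h) (hzC h) (f2C h f2) hSF hFT hZS π
    (QuotientGroup.mk'_surjective _) (QuotientGroup.ker_mk' _)
  refine ⟨ρ, ?_, hρ.z_comm, hρ.ker, hρ.range, hρ.conj, hρ.v_inj, hcard⟩
  rw [injective_iff_map_eq_one]
  intro t ht
  have h1 : (setupC h).φ t ∈ Cfsg.oddCore (centralizer ({h.z} : Set G)) :=
    (QuotientGroup.eq_one_iff _).1 ht
  have h2 : Odd (orderOf ((setupC h).φ t)) := by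
    have h3 : Odd (Nat.card (Cfsg.oddCore (centralizer ({h.z} : Set G)))) := ZQuot.oddCore_odd _
    exact odd_orderOf_of_mem h3 h1
  have h3 : orderOf ((setupC h).φ t) = orderOf t := orderOf_injective _ (setupC h).inj t
  rw [h3] at h2
  have h4 : orderOf t ∣ 2 ^ 7 := by
    have h5 := orderOf_dvd_natCard t
    rw [T.card_T] at h5
    exact h5
  have h6 : Nat.Coprime (orderOf t) (2 ^ 7) :=
    Nat.Coprime.pow_right _ (Nat.coprime_two_right.mpr h2)
  exact orderOf_eq_one_iff.1 (Nat.Coprime.eq_one_of_dvd h6 h4)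

end Cfsg.Agent.H308.JModel
end

-- part: S3199
section
set_option autoImplicit false
open Cfsg

namespace Cfsg.Agent.S3199

open Cfsg.Agent.J2Sylow Cfsg.Agent.J2Sylow.Model Cfsg.Agent.H308 in
/-- the centralizer of `z` modulo its core, for any two groups with Sylow 2-subgroup of J2 type -/
theorem aux {G : Type*} {G' : Type*} [Group G] [Finite G] [Group G'] [Finite G'] (h : Setup G)
    (h' : Setup G') (hG : ∀ H : Subgroup G, H.index ≠ 2) (hG' : ∀ H : Subgroup G', H.index ≠ 2) :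
    Nonempty ((↥(Subgroup.centralizer ({h.z} : Set G)) ⧸
        Cfsg.oddCore ↥(Subgroup.centralizer ({h.z} : Set G))) ≃*
      (↥(Subgroup.centralizer ({h'.z} : Set G')) ⧸
        Cfsg.oddCore ↥(Subgroup.centralizer ({h'.z} : Set G')))) ∧
    Nat.card (↥(Subgroup.centralizer ({h'.z} : Set G')) ⧸
        Cfsg.oddCore ↥(Subgroup.centralizer ({h'.z} : Set G'))) = 1920 := by
  obtain ⟨ρ, hρ⟩ := JModel.mod_of_f2 InstZ.solvFun InstZ.oddSolv InstZ.zStar h (JFour.f2 h hG)
  obtain ⟨ρ', hρ'⟩ := JModel.mod_of_f2 InstZ.solvFun InstZ.oddSolv InstZ.zStar h' (JFour.f2 h' hG')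
  exact ⟨JModel.unique hρ hρ', hρ'.card⟩

/-- Let G be a finite group with no normal subgroup of index 2 whose Sylow 2-subgroups are isomorphic to those of the Hall–Janko group J₂, and let z be an involution central in a Sylow 2-subgroup of G. Then the centralizer of z modulo its largest normal subgroup of odd order is isomorphic to the centralizer of a 2-central involution in J₂ or to the centralizer of a 2-central involution in the third Janko group J₃. -/
theorem result {G : Type*} [Group G] [Finite G]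
    (S : Sylow 2 G) (P : Sylow 2 Cfsg.Spor.J2) (hS : Nonempty (↥(S : Subgroup G) ≃* ↥(P : Subgroup Cfsg.Spor.J2)))
    (h2 : ∀ H : Subgroup G, H.Normal → H.index ≠ 2)
    (z : G) (hz : orderOf z = 2) (hzS : z ∈ (S : Subgroup G)) (hzc : ∀ s ∈ (S : Subgroup G), s * z = z * s) :
    (∃ (z' : Cfsg.Spor.J2) (Q : Sylow 2 Cfsg.Spor.J2), orderOf z' = 2 ∧ z' ∈ (Q : Subgroup Cfsg.Spor.J2) ∧
        (∀ s ∈ (Q : Subgroup Cfsg.Spor.J2), s * z' = z' * s) ∧
        Nonempty ((↥(Subgroup.centralizer ({z} : Set G)) ⧸ Cfsg.oddCore ↥(Subgroup.centralizer ({z} : Set G))) ≃*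
          ↥(Subgroup.centralizer ({z'} : Set Cfsg.Spor.J2)))) ∨
      (∃ (F : Type) (_ : Field F) (_ : Fintype F) (ω : F), Fintype.card F = 4 ∧ ω ^ 2 + ω + 1 = 0 ∧
        ∃ (z' : Cfsg.Spor.J3 F ω) (Q : Sylow 2 (Cfsg.Spor.J3 F ω)), orderOf z' = 2 ∧ z' ∈ (Q : Subgroup (Cfsg.Spor.J3 F ω)) ∧
          (∀ s ∈ (Q : Subgroup (Cfsg.Spor.J3 F ω)), s * z' = z' * s) ∧
          Nonempty ((↥(Subgroup.centralizer ({z} : Set G)) ⧸ Cfsg.oddCore ↥(Subgroup.centralizer ({z} : Set G))) ≃*
            ↥(Subgroup.centralizer ({z'} : Set (Cfsg.Spor.J3 F ω))))) := by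
  left
  obtain ⟨z', Q, hz', hzQ', hzc', hcard⟩ := Cfsg.Agent.H308.JSetup.exists_invol
  have hJf : Finite Cfsg.Spor.J2 :=
    Nat.finite_of_card_ne_zero (by rw [Cfsg.Agent.J2Sylow.SporSylow.card_J2]; norm_num)
  obtain ⟨eP⟩ := Cfsg.Agent.J2Sylow.SporSylow.exists_equiv P
  obtain ⟨eS⟩ := hS
  obtain ⟨h, -, hhz⟩ := Cfsg.Agent.H308.JSetup.exists_setup S ⟨eP.trans eS.symm⟩ hz hzS hzc
  obtain ⟨h', -, hhz'⟩ := Cfsg.Agent.H308.JSetup.exists_setup Q
    (Cfsg.Agent.J2Sylow.SporSylow.exists_equiv Q) hz' hzQ' hzc'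
  have hidx : ∀ H : Subgroup G, H.index ≠ 2 := by
    intro H hH
    exact h2 H (Subgroup.normal_of_index_eq_two hH) hH
  obtain ⟨⟨e⟩, hc⟩ := aux h h' hidx Cfsg.Agent.H308.JSetup.index_ne_two
  refine ⟨z', Q, hz', hzQ', hzc', ?_⟩
  subst hhz
  subst hhz'
  -- the core of the centralizer in `J₂` is trivial
  have hbij : Function.Bijective (QuotientGroup.mk' (Cfsg.oddCore
      ↥(Subgroup.centralizer ({h'.z} : Set Cfsg.Spor.J2)))) := by
    rw [Nat.bijective_iff_surjective_and_card]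
    exact ⟨QuotientGroup.mk'_surjective _, by rw [hcard, hc]⟩
  exact ⟨e.trans (MulEquiv.ofBijective _ hbij).symm⟩

end Cfsg.Agent.S3199
end
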