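import Cfsg.Statements.S3201
import Cfsg.Agent.H309.QuatQuot
import Cfsg.Agent.Lib.FrattiniPGroup
set_option linter.all false

set_option autoImplicit false
open Cfsg

namespace Cfsg.Agent.S3201

open Subgroup Cfsg.Agent.Lib.DihedralRecog

/-- Let S be a finite 2-group whose centre Z(S) has n ≥ 2 distinct maximal subgroups C₁, …, Cₙ with trivial intersection such that each quotient S/Cᵢ is a non-abelian group with exactly one involution (a generalized quaternion group). Then S is the internal direct product of an elementary abelian subgroup and a non-abelian subgroup with exactly one involution. -/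
theorem result {S : Type*} [Group S] [Finite S]
    (hS : IsPGroup 2 S) (n : ℕ) (hn : 2 ≤ n) (C : Fin n → Subgroup ↥(Subgroup.center S))
    (hCmax : ∀ i, IsCoatom (C i)) (hCinj : Function.Injective C) (hCint : ⨅ i, C i = ⊥)
    (hCq : ∀ i, ∃ (_ : ((C i).map (Subgroup.center S).subtype).Normal),
      ¬ IsMulCommutative (S ⧸ (C i).map (Subgroup.center S).subtype) ∧
      ∃! x : S ⧸ (C i).map (Subgroup.center S).subtype, orderOf x = 2) :
    ∃ E Q : Subgroup S, Cfsg.IsInternalDirectProduct E Q ⊤ ∧ Cfsg.IsElementaryAbelian 2 E ∧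
      ¬ IsMulCommutative ↥Q ∧ ∃! x : ↥Q, orderOf x = 2 := by
  classical
  have : Fact (Nat.Prime 2) := ⟨Nat.prime_two⟩
  set K : Fin n → Subgroup S := fun i => (C i).map (center S).subtype with hK
  have hKn : ∀ i, (K i).Normal := fun i => (hCq i).1
  have hKle : ∀ i, K i ≤ center S := fun i => map_subtype_le (C i)
  have hKint : ∀ x : S, (∀ i, x ∈ K i) → x = 1 := by
    intro x hx
    by_cases hn0 : n = 0
    · omega
    have hxz : x ∈ center S := hKle ⟨0, by omega⟩ (hx _)
    have : (⟨x, hxz⟩ : center S) ∈ ⨅ i, C i := by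
      rw [mem_iInf]
      intro i
      obtain ⟨y, hy, hyx⟩ := hx i
      have : y = ⟨x, hxz⟩ := Subtype.ext hyx
      rw [← this]; exact hy
    rw [hCint, mem_bot] at this
    exact congrArg Subtype.val this
  have hmem : ∀ (i : Fin n) (z : S) (hz : z ∈ center S), (⟨z, hz⟩ : center S) ∈ C i ↔ z ∈ K i := by
    intro i z hz
    constructor
    · intro h; exact ⟨_, h, rfl⟩
    · rintro ⟨w, hw, hwz⟩
      have : w = ⟨z, hz⟩ := Subtype.ext hwz
      rw [← this]; exact hw
  have hZ : IsPGroup 2 (center S) := hS.to_subgroup _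
  have hidx : ∀ i, (C i).index = 2 := fun i =>
    Cfsg.Agent.Lib.FrattiniPGroup.index_of_coatom hZ (hCmax i)
  -- index 2
  have hKidx : ∀ i, ∀ x ∈ center S, ∀ y ∈ center S, x ∉ K i → y ∉ K i → x * y ∈ K i := by
    intro i x hx y hy hxi hyi
    rw [← hmem i _ (mul_mem hx hy)]
    have h1 := Subgroup.mul_mem_iff_of_index_two (hidx i) (a := (⟨x, hx⟩ : center S)) (b := (⟨y, hy⟩ : center S))
    have h2 : (⟨x * y, mul_mem hx hy⟩ : center S) = ⟨x, hx⟩ * (⟨y, hy⟩ : center S) := rfl
    rw [h2, h1, hmem, hmem]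
    simp [hxi, hyi]
  have hKsq : ∀ i, ∀ z ∈ center S, z * z ∈ K i := by
    intro i z hz
    by_cases h : z ∈ K i
    · exact mul_mem h h
    · exact hKidx i z hz z hz h h
  have hzsq : ∀ z ∈ center S, z * z = 1 := fun z hz => hKint _ (fun i => hKsq i z hz)
  have hKne : ∀ i, ∃ z ∈ center S, z ∉ K i := by
    intro i
    by_contra h
    push Not at h
    apply (hCmax i).1
    rw [eq_top_iff']
    rintro ⟨z, hz⟩
    exact (hmem i z hz).2 (h z hz)
  -- squares of noncentral elements with central square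
  have hsq : ∀ s : S, s ∉ center S → s * s ∈ center S → ∀ i, s * s ∉ K i := by
    intro s hs hss i hsi
    obtain ⟨hn', -, hu⟩ := hCq i
    obtain ⟨z, hz, hzi⟩ := hKne i
    have h1 : orderOf (QuotientGroup.mk s : S ⧸ K i) = 2 := by
      apply orderOf_eq_prime
      · rw [sq, ← QuotientGroup.mk_mul, QuotientGroup.eq_one_iff]; exact hsi
      · intro h
        rw [QuotientGroup.eq_one_iff] at h
        exact hs (hKle i h)
    have h2 : orderOf (QuotientGroup.mk z : S ⧸ K i) = 2 := by
      apply orderOf_eq_prime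
      · rw [sq, ← QuotientGroup.mk_mul, QuotientGroup.eq_one_iff]; exact hKsq i z hz
      · intro h
        rw [QuotientGroup.eq_one_iff] at h
        exact hzi h
    have h3 : (QuotientGroup.mk z : S ⧸ K i) = QuotientGroup.mk s := hu.unique h2 h1
    rw [QuotientGroup.eq] at h3
    apply hs
    have : s = z * (z⁻¹ * s) := by group
    rw [this]
    exact mul_mem hz (hKle i h3)
  have hsqeq : ∀ s t : S, s ∉ center S → s * s ∈ center S → t ∉ center S → t * t ∈ center S →
      s * s = t * t := by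
    intro s t hs hss ht htt
    have h1 : ∀ i, (s * s) * (t * t) ∈ K i := fun i =>
      hKidx i _ hss _ htt (hsq s hs hss i) (hsq t ht htt i)
    have h2 := hKint _ h1
    have h3 := hzsq _ htt
    calc s * s = (s * s) * ((t * t) * (t * t)) := by rw [h3, mul_one]
      _ = ((s * s) * (t * t)) * (t * t) := by simp only [mul_assoc]
      _ = t * t := by rw [h2, one_mul]
  -- the quaternion quotient
  set i0 : Fin n := ⟨0, by omega⟩ with hi0
  obtain ⟨hn', hna, hu⟩ := hCq i0
  obtain ⟨m, f, hm, hf, hker⟩ := Cfsg.Agent.H309.exists_quaternion_hom hS _ hna hu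
  have hker' : ∀ s : S, s ∈ K i0 ↔ f s = 1 := by
    intro s
    rw [← MonoidHom.mem_ker, hker]
  have hcast : ((2 ^ m : ℕ) : ZMod (2 * 2 ^ m)) ≠ 0 := by
    rw [Ne, ZMod.natCast_eq_zero_iff]
    intro h
    have h1 : 0 < 2 ^ m := by positivity
    have := Nat.le_of_dvd h1 h
    omega
  have hcast2 : ((2 ^ m : ℕ) : ZMod (2 * 2 ^ m)) + ((2 ^ m : ℕ) : ZMod (2 * 2 ^ m)) = 0 := by
    rw [← Nat.cast_add, ← two_mul]
    exact ZMod.natCast_self _
  have hane : (QuaternionGroup.a ((2 ^ m : ℕ) : ZMod (2 * 2 ^ m)) : QuaternionGroup (2 ^ m)) ≠ 1 := by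
    rw [QuaternionGroup.one_def]
    intro h
    injection h with h
    exact hcast h
  have hfz : ∀ z ∈ center S, f z * f z = 1 := by
    intro z hz
    rw [← map_mul, hzsq z hz, map_one]
  -- elements with `f s ^ 2 = a (2 ^ m)`
  have hgood : ∀ s : S, f s * f s = .a ((2 ^ m : ℕ) : ZMod (2 * 2 ^ m)) → s ∉ center S ∧ s * s ∈ center S := by
    intro s hs
    refine ⟨fun h => hane (by rw [← hs, hfz s h]), ?_⟩
    obtain ⟨z, hz, hzi⟩ := hKne i0
    have h1 : orderOf (QuotientGroup.mk (s * s) : S ⧸ K i0) = 2 := by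
      apply orderOf_eq_prime
      · rw [sq, ← QuotientGroup.mk_mul, QuotientGroup.eq_one_iff, hker', map_mul, map_mul, hs,
          QuaternionGroup.a_mul_a, hcast2, QuaternionGroup.a_zero]
      · intro h
        rw [QuotientGroup.eq_one_iff, hker', map_mul, hs] at h
        exact hane h
    have h2 : orderOf (QuotientGroup.mk z : S ⧸ K i0) = 2 := by
      apply orderOf_eq_prime
      · rw [sq, ← QuotientGroup.mk_mul, QuotientGroup.eq_one_iff]; exact hKsq i0 z hz
      · intro h
        rw [QuotientGroup.eq_one_iff] at h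
        exact hzi h
    have h3 : (QuotientGroup.mk z : S ⧸ K i0) = QuotientGroup.mk (s * s) := hu.unique h2 h1
    rw [QuotientGroup.eq] at h3
    have : s * s = z * (z⁻¹ * (s * s)) := by group
    rw [this]
    exact mul_mem hz (hKle i0 h3)
  have hgoodeq : ∀ s t : S, f s * f s = .a ((2 ^ m : ℕ) : ZMod (2 * 2 ^ m)) →
      f t * f t = .a ((2 ^ m : ℕ) : ZMod (2 * 2 ^ m)) → s * s = t * t := fun s t hs ht =>
    hsqeq s t (hgood s hs).1 (hgood s hs).2 (hgood t ht).1 (hgood t ht).2
  obtain ⟨x, hx⟩ := hf (.a 1)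
  obtain ⟨y, hy⟩ := hf (.xa 0)
  have hfy : f y * f y = .a ((2 ^ m : ℕ) : ZMod (2 * 2 ^ m)) := by
    rw [hy, QuaternionGroup.xa_mul_xa]; simp
  have hfyx : f (y * x) * f (y * x) = .a ((2 ^ m : ℕ) : ZMod (2 * 2 ^ m)) := by
    rw [map_mul, hy, hx, QuaternionGroup.xa_mul_a, QuaternionGroup.xa_mul_xa]; simp
  obtain ⟨k, rfl⟩ := Nat.exists_eq_succ_of_ne_zero hm
  have hfx : f (x ^ 2 ^ k) * f (x ^ 2 ^ k) = .a ((2 ^ (k + 1) : ℕ) : ZMod (2 * 2 ^ (k + 1))) := by
    rw [← map_mul, ← pow_add, map_pow, hx, QuaternionGroup.a_one_pow, pow_succ]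
    congr 2
    ring
  have e1 : y * y = (y * x) * (y * x) := hgoodeq _ _ hfy hfyx
  have e2 : y * y = x ^ 2 ^ (k + 1) := by
    rw [hgoodeq _ _ hfy hfx, ← pow_add, pow_succ]
    congr 1
    ring
  have e3 : y * x * y⁻¹ = x⁻¹ := by
    have h1 : y = x * (y * x) := by
      apply mul_left_cancel (a := y)
      rw [e1]; group
    have h2 : y * x = x⁻¹ * y := by
      calc y * x = x⁻¹ * (x * (y * x)) := by group
        _ = x⁻¹ * y := by rw [← h1]
    rw [h2]; group
  have e4 : x ^ (2 * 2 ^ (k + 1)) = 1 := by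
    rw [two_mul, pow_add, ← e2]
    exact hzsq _ (hgood y hfy).2
  set φ := quaternionHom x y e4 e2 e3 with hφ
  have hfφ : ∀ q, f (φ q) = q := by
    rintro (i | i)
    · obtain ⟨i, rfl⟩ := ZMod.intCast_surjective i
      rw [hφ, quaternionHom_a, zpw_intCast, map_zpow, hx, Cfsg.Agent.H309.a_one_zpow]
    · obtain ⟨i, rfl⟩ := ZMod.intCast_surjective i
      rw [hφ, quaternionHom_xa, zpw_intCast, map_mul, map_zpow, hx, hy, Cfsg.Agent.H309.a_one_zpow,
        QuaternionGroup.xa_mul_a, zero_add]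
  have hφinj : Function.Injective φ := Function.LeftInverse.injective hfφ
  have hcomm : ∀ a ∈ K i0, ∀ b : S, a * b = b * a := fun a ha b =>
    ((mem_center_iff.1 (hKle i0 ha)) b).symm
  have hinf : ∀ s ∈ φ.range, s ∈ K i0 → s = 1 := by
    rintro _ ⟨q, rfl⟩ h
    rw [hker', hfφ] at h
    rw [h, map_one]
  refine ⟨K i0, φ.range, ⟨le_top, le_top, fun a ha b _ => hcomm a ha b, ?_, ?_⟩, ⟨⟨⟨?_⟩⟩, ?_⟩, ?_, ?_⟩
  · rw [eq_bot_iff]
    rintro s ⟨h1, h2⟩
    exact hinf s h2 h1
  · rw [eq_top_iff]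
    intro s _
    have : s = (s * (φ (f s))⁻¹) * φ (f s) := by group
    rw [this]
    apply mul_mem_sup
    · rw [hker', map_mul, map_inv, hfφ, mul_inv_cancel]
    · exact ⟨_, rfl⟩
  · rintro ⟨a, ha⟩ ⟨b, hb⟩
    exact Subtype.ext (hcomm a ha b)
  · intro a ha
    rw [sq]; exact hzsq a (hKle i0 ha)
  · rintro ⟨⟨hc⟩⟩
    apply hna
    refine ⟨⟨fun a b => ?_⟩⟩
    obtain ⟨a, rfl⟩ := QuotientGroup.mk_surjective a
    obtain ⟨b, rfl⟩ := QuotientGroup.mk_surjective b
    rw [← QuotientGroup.mk_mul, ← QuotientGroup.mk_mul, QuotientGroup.eq]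
    change _ ∈ K i0
    have h1 := congrArg Subtype.val (hc ⟨φ (f a), ⟨_, rfl⟩⟩ ⟨φ (f b), ⟨_, rfl⟩⟩)
    have h2 : φ (f a * f b) = φ (f b * f a) := by
      rw [map_mul φ, map_mul φ]; exact h1
    have h3 := hφinj h2
    rw [hker']
    simp only [map_mul, map_inv]
    rw [h3]; group
  · refine ⟨⟨y * y, ⟨.xa 0 * .xa 0, ?_⟩⟩, ?_, ?_⟩
    · rw [map_mul, hφ, quaternionHom_xa, zpw_zero, mul_one]
    · have h1 : orderOf (y * y) = 2 := by
        apply orderOf_eq_prime
        · rw [sq]; exact hzsq _ (hgood y hfy).2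
        · intro h
          have h2 := congrArg f h
          rw [map_mul, hfy, map_one] at h2
          exact hane h2
      show orderOf _ = 2
      rw [← Subgroup.orderOf_coe]
      exact h1
    · rintro ⟨s, hs⟩ h
      rw [← Subgroup.orderOf_coe] at h
      apply Subtype.ext
      show s = y * y
      have hs2 : s * s = 1 := by
        rw [← sq, ← h]; exact pow_orderOf_eq_one s
      have hs1 : s ≠ 1 := by
        intro h1
        simp [h1] at h
      have hsZ : s ∈ center S := by
        by_contra hcon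
        have := hsq s hcon (by rw [hs2]; exact one_mem _) i0
        rw [hs2] at this
        exact this (one_mem _)
      have hsK : s ∉ K i0 := fun h => hs1 (hinf s hs h)
      have h3 : s * (y * y) ∈ K i0 := hKidx i0 s hsZ _ (hgood y hfy).2 hsK
        (hsq y (hgood y hfy).1 (hgood y hfy).2 i0)
      have h4 : y * y ∈ φ.range := by
        refine ⟨.xa 0 * .xa 0, ?_⟩
        rw [map_mul, hφ, quaternionHom_xa, zpw_zero, mul_one]
      have h5 := hinf _ (mul_mem hs h4) h3
      calc s = s * ((y * y) * (y * y)) := by rw [hzsq _ (hgood y hfy).2, mul_one]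
        _ = (s * (y * y)) * (y * y) := by simp only [mul_assoc]
        _ = y * y := by rw [h5, one_mul]

end Cfsg.Agent.S3201
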