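import Cfsg.Agent.H309.Ru.Basic
import Cfsg.Agent.Lib.FrattiniPGroup
import Cfsg.Agent.H309.Conj
import Cfsg.Agent.Lib.CoprimeAbelian
import Cfsg.Agent.Lib.PGroupCoprimeAction
import Cfsg.Agent.Lib.ElemAbGL
import Cfsg.Agent.H309.Ru.Trans
import Cfsg.Agent.S0087
import Cfsg.Agent.Transfer.TateComplement
import Cfsg.Agent.Lib.Cores
import Cfsg.Prelude.Def_CaseTheorems
import Cfsg.Statements.S3204
set_option linter.all false

-- part: H309/Ru/AbsC
section
/-!
# S3204: large subgroups of `W` are nonabelian modulo proper subgroups of `Z` (helper309)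
-/

set_option autoImplicit false

namespace Cfsg.Agent.H309.Ru

open Subgroup
open scoped commutatorElement

variable {P : Type*} [Group P] [Finite P]

theorem card_subgroupOf {A B : Subgroup P} (h : A ≤ B) : Nat.card (A.subgroupOf B) = Nat.card A :=
  Nat.card_congr (subgroupOfEquivOfLe h).toEquiv

/-- `|K N / N| |N| = |K|` for `N ≤ K`. -/
theorem card_map_mk (N K : Subgroup P) [N.Normal] (h : N ≤ K) :
    Nat.card (K.map (QuotientGroup.mk' N)) * Nat.card N = Nat.card K := by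
  have h1 := ((QuotientGroup.mk' N).comp K.subtype).ker.card_mul_index
  rw [index_ker] at h1
  have h2 : ((QuotientGroup.mk' N).comp K.subtype).ker = N.subgroupOf K := by
    ext x
    rw [MonoidHom.mem_ker, mem_subgroupOf]
    simp
  have h3 : ((QuotientGroup.mk' N).comp K.subtype).range = K.map (QuotientGroup.mk' N) := by
    rw [MonoidHom.range_comp, range_subtype]
  rw [h2, card_subgroupOf h, h3] at h1
  rw [mul_comm]; exact h1

/-- An elementary abelian group: a subgroup missing a given subgroup of order 2, of index 2. -/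
theorem exists_index_two {V : Type*} [Group V] [Finite V] (hcomm : ∀ a b : V, a * b = b * a)
    (hsq : ∀ a : V, a * a = 1) (F : Subgroup V) :
    ∃ K : Subgroup V, F ⊓ K = ⊥ ∧ Nat.card V ≤ Nat.card F * Nat.card K := by
  have : Fact (Nat.Prime 2) := ⟨Nat.prime_two⟩
  obtain ⟨K, hK⟩ := Cfsg.Agent.Lib.FrattiniPGroup.exists_isCompl_of_elementary (p := 2) hcomm
    (fun a => by rw [sq]; exact hsq a) F
  refine ⟨K, hK.inf_eq_bot, ?_⟩
  have h1 := K.card_mul_index
  have hKn : K.Normal := ⟨fun k hk v => by rw [hcomm v k, mul_inv_cancel_right]; exact hk⟩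
  have h2 : K.index ≤ Nat.card F := by
    have hsurj : Function.Surjective (fun f : F => (QuotientGroup.mk (f : V) : V ⧸ K)) := by
      intro q
      obtain ⟨v, rfl⟩ := QuotientGroup.mk_surjective q
      have hv : v ∈ F ⊔ K := by rw [hK.sup_eq_top]; trivial
      obtain ⟨f, hf, k, hk, rfl⟩ := Subgroup.mem_sup_of_normal_right.1 hv
      refine ⟨⟨f, hf⟩, ?_⟩
      rw [QuotientGroup.eq]
      simpa using hk
    exact Nat.card_le_card_of_surjective _ hsurj
  rw [← h1, mul_comm]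
  exact Nat.mul_le_mul_right _ h2

theorem lemC (hP : IsPGroup 2 P) (W Z : Subgroup P) (hZW : Z ≤ W)
    (cen : ∀ z ∈ Z, ∀ w ∈ W, w * z = z * w) (sqW : ∀ w ∈ W, w * w ∈ Z)
    (comW : ∀ w ∈ W, ∀ w' ∈ W, ⁅w, w'⁆ ∈ Z)
    (hd : ∀ U : Subgroup P, U ≤ W → Nat.card W ≤ 16 * Nat.card U → Z ≤ U)
    (U : Subgroup P) (hU : U ≤ W) (hcard : Nat.card W ≤ 4 * Nat.card U) (H : Subgroup P)
    (hH : ∀ x ∈ U, ∀ y ∈ U, ⁅x, y⁆ ∈ H) : Z ≤ H := by
  classical
  have : Fact (Nat.Prime 2) := ⟨Nat.prime_two⟩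
  by_contra hcon
  -- a maximal subgroup of Z containing Z ∩ H
  have hne : H.subgroupOf Z ≠ ⊤ := by
    intro h
    rw [subgroupOf_eq_top] at h
    exact hcon h
  obtain ⟨M, hM, hle⟩ := (eq_top_or_exists_le_coatom (H.subgroupOf Z)).resolve_left hne
  have hMidx : M.index = 2 := Cfsg.Agent.Lib.FrattiniPGroup.index_of_coatom (hP.to_subgroup Z) hM
  set H1 : Subgroup P := M.map Z.subtype with hH1
  have hH1Z : H1 ≤ Z := map_subtype_le M
  have hmem1 : ∀ (z : P) (hz : z ∈ Z), z ∈ H1 ↔ (⟨z, hz⟩ : Z) ∈ M := by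
    intro z hz
    constructor
    · rintro ⟨w, hw, hwz⟩
      have : w = ⟨z, hz⟩ := Subtype.ext hwz
      rw [← this]; exact hw
    · intro h; exact ⟨_, h, rfl⟩
  have hHH1 : ∀ z ∈ Z, z ∈ H → z ∈ H1 := by
    intro z hz hzH
    rw [hmem1 z hz]
    exact hle (mem_subgroupOf.2 hzH)
  have hcardH1 : Nat.card Z = 2 * Nat.card H1 := by
    have h1 := M.card_mul_index
    rw [hMidx] at h1
    rw [hH1, Subgroup.card_map_of_injective Z.subtype_injective, ← h1, mul_comm]
  have hmul1 : ∀ a ∈ Z, ∀ b ∈ Z, (a * b ∈ H1 ↔ (a ∈ H1 ↔ b ∈ H1)) := by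
    intro a ha b hb
    rw [hmem1 _ (mul_mem ha hb), hmem1 a ha, hmem1 b hb]
    exact mul_mem_iff_of_index_two hMidx (a := (⟨a, ha⟩ : Z)) (b := ⟨b, hb⟩)
  -- U1 = U Z
  set U1 : Subgroup P := U ⊔ Z with hU1
  have hU1W : U1 ≤ W := sup_le hU hZW
  have hcomU1 : ∀ x ∈ U1, ∀ y ∈ U1, ⁅x, y⁆ ∈ H1 := by
    have hform : ∀ x ∈ U1, ∃ u ∈ U, ∃ z ∈ Z, x = u * z := by
      intro x hx
      have hZn : U ≤ normalizer (Z : Set P) := by
        intro u hu
        rw [mem_normalizer_iff]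
        intro z
        constructor
        · intro hz
          rw [cen z hz u (hU hu)]; simpa using hz
        · intro hz
          have h1 := cen _ hz u (hU hu)
          have h2 : u * z * u⁻¹ = z := by
            have : u * (u * z * u⁻¹) = u * z := by rw [h1]; group
            exact mul_left_cancel this
          rwa [h2] at hz
      have hx' : x ∈ ((U ⊔ Z : Subgroup P) : Set P) := hx
      rw [coe_mul_of_left_le_normalizer_right U Z hZn] at hx'
      obtain ⟨u, hu, z, hz, rfl⟩ := hx'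
      exact ⟨u, hu, z, hz, rfl⟩
    intro x hx y hy
    obtain ⟨u, hu, z, hz, rfl⟩ := hform x hx
    obtain ⟨u', hu', z', hz', rfl⟩ := hform y hy
    have e : ⁅u * z, u' * z'⁆ = ⁅u, u'⁆ := by
      rw [commutatorElement_def, commutatorElement_def]
      have c1 := cen z hz u' (hU hu')
      have c2 := cen z' hz' u⁻¹ (inv_mem (hU hu))
      have c3 := cen z' hz' z⁻¹ (inv_mem (hZW hz))
      have c4 := cen z hz u⁻¹ (inv_mem (hU hu))
      calc u * z * (u' * z') * (u * z)⁻¹ * (u' * z')⁻¹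
          = u * (z * u') * z' * z⁻¹ * u⁻¹ * z'⁻¹ * u'⁻¹ := by group
        _ = u * (u' * z) * z' * z⁻¹ * u⁻¹ * z'⁻¹ * u'⁻¹ := by rw [c1]
        _ = u * u' * z * (z' * z⁻¹) * u⁻¹ * z'⁻¹ * u'⁻¹ := by group
        _ = u * u' * z * (z⁻¹ * z') * u⁻¹ * z'⁻¹ * u'⁻¹ := by rw [c3]
        _ = u * u' * (z' * u⁻¹) * z'⁻¹ * u'⁻¹ := by group
        _ = u * u' * (u⁻¹ * z') * z'⁻¹ * u'⁻¹ := by rw [c2]
        _ = u * u' * u⁻¹ * u'⁻¹ := by group
    rw [e]
    exact hHH1 _ (comW u (hU hu) u' (hU hu')) (hH u hu u' hu')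
  -- Ω
  let Ω : Subgroup P :=
    { carrier := {x | x ∈ U1 ∧ x * x ∈ H1}
      one_mem' := ⟨one_mem _, by rw [mul_one]; exact one_mem _⟩
      mul_mem' := by
        rintro x y ⟨hx, hx2⟩ ⟨hy, hy2⟩
        refine ⟨mul_mem hx hy, ?_⟩
        have : x * y * (x * y) = (x * x) * ⁅x⁻¹, y⁆ * (y * y) := by
          rw [commutatorElement_def]; group
        rw [this]
        exact mul_mem (mul_mem hx2 (hcomU1 _ (inv_mem hx) _ hy)) hy2
      inv_mem' := by
        rintro x ⟨hx, hx2⟩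
        refine ⟨inv_mem hx, ?_⟩
        rw [← mul_inv_rev]; exact inv_mem hx2 }
  have hΩ : ∀ x, x ∈ Ω ↔ x ∈ U1 ∧ x * x ∈ H1 := fun x => Iff.rfl
  have hZΩ : Z ≤ Ω := by
    intro z hz
    refine ⟨(le_sup_right : Z ≤ U ⊔ Z) hz, ?_⟩
    rw [hmul1 z hz z hz]
  have hΩU1 : Ω ≤ U1 := fun x hx => hx.1
  have hcardΩ : Nat.card U1 ≤ 2 * Nat.card Ω := by
    by_cases hall : ∀ x ∈ U1, x ∈ Ω
    · have : U1 ≤ Ω := hall
      have h1 := Nat.le_of_dvd Nat.card_pos (card_dvd_of_le this)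
      omega
    · push Not at hall
      obtain ⟨x, hx, hxΩ⟩ := hall
      have hidx : (Ω.subgroupOf U1).index = 2 := by
        rw [index_eq_two_iff_exists_notMem_and]
        refine ⟨⟨x, hx⟩, by rw [mem_subgroupOf]; exact hxΩ, ?_⟩
        rintro ⟨y, hy⟩
        by_cases hyΩ : y ∈ Ω
        · right; rw [mem_subgroupOf]; exact hyΩ
        · left
          rw [mem_subgroupOf]
          show y * x ∈ Ω
          refine ⟨mul_mem hy hx, ?_⟩
          have hx2 : x * x ∉ H1 := fun h => hxΩ ⟨hx, h⟩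
          have hy2 : y * y ∉ H1 := fun h => hyΩ ⟨hy, h⟩
          have : y * x * (y * x) = (y * y) * ⁅y⁻¹, x⁆ * (x * x) := by
            rw [commutatorElement_def]; group
          rw [this]
          have h3 := hcomU1 _ (inv_mem hy) _ hx
          have h4 : (y * y) * (⁅y⁻¹, x⁆ * (x * x)) ∈ H1 := by
            rw [hmul1 _ (sqW y (hU1W hy)) _ (mul_mem (hH1Z h3) (sqW x (hU1W hx))),
              hmul1 _ (hH1Z h3) _ (sqW x (hU1W hx))]
            simp [hx2, hy2, h3]
          rw [mul_assoc]; exact h4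
      have h1 := (Ω.subgroupOf U1).card_mul_index
      rw [hidx, card_subgroupOf hΩU1] at h1
      omega
  -- the quotient Ω / H1
  have hH1Ω : H1 ≤ Ω := hH1Z.trans hZΩ
  have hnorm : (H1.subgroupOf Ω).Normal := by
    constructor
    rintro ⟨a, ha⟩ haH ⟨b, hb⟩
    rw [mem_subgroupOf] at haH ⊢
    show b * a * b⁻¹ ∈ H1
    have h1 := hcomU1 b hb.1 a ha.1
    have : b * a * b⁻¹ = ⁅b, a⁆ * a := by rw [commutatorElement_def]; group
    rw [this]; exact mul_mem h1 haH
  set V := Ω ⧸ H1.subgroupOf Ω with hV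
  have hVcomm : ∀ a b : V, a * b = b * a := by
    intro a b
    obtain ⟨a, rfl⟩ := QuotientGroup.mk_surjective a
    obtain ⟨b, rfl⟩ := QuotientGroup.mk_surjective b
    rw [← QuotientGroup.mk_mul, ← QuotientGroup.mk_mul, QuotientGroup.eq, mem_subgroupOf]
    show ((a : P) * b)⁻¹ * (b * a) ∈ H1
    have h1 := hcomU1 _ (inv_mem b.2.1) _ (inv_mem a.2.1)
    have : ((a : P) * b)⁻¹ * (b * a) = ⁅(b : P)⁻¹, (a : P)⁻¹⁆ := by rw [commutatorElement_def]; group
    rw [this]; exact h1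
  have hVsq : ∀ a : V, a * a = 1 := by
    intro a
    obtain ⟨a, rfl⟩ := QuotientGroup.mk_surjective a
    rw [← QuotientGroup.mk_mul, QuotientGroup.eq_one_iff, mem_subgroupOf]
    exact a.2.2
  obtain ⟨K, hK1, hK2⟩ := exists_index_two hVcomm hVsq
    ((Z.subgroupOf Ω).map (QuotientGroup.mk' (H1.subgroupOf Ω)))
  set Q : Subgroup P := (K.comap (QuotientGroup.mk' (H1.subgroupOf Ω))).map Ω.subtype with hQ
  have hQΩ : Q ≤ Ω := map_subtype_le _
  have hQmem : ∀ (x : P) (hx : x ∈ Ω), x ∈ Q ↔ QuotientGroup.mk' (H1.subgroupOf Ω) ⟨x, hx⟩ ∈ K := by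
    intro x hx
    constructor
    · rintro ⟨w, hw, hwz⟩
      have : w = ⟨x, hx⟩ := Subtype.ext hwz
      rw [← this]; exact hw
    · intro h; exact ⟨_, h, rfl⟩
  have hnotle : ¬ Z ≤ Q := by
    intro h
    have hZH1 : Z ≤ H1 := by
      intro z hz
      have h1 : QuotientGroup.mk' (H1.subgroupOf Ω) ⟨z, hZΩ hz⟩ ∈ K := (hQmem z (hZΩ hz)).1 (h hz)
      have h2 : QuotientGroup.mk' (H1.subgroupOf Ω) ⟨z, hZΩ hz⟩ ∈
          (Z.subgroupOf Ω).map (QuotientGroup.mk' (H1.subgroupOf Ω)) :=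
        ⟨⟨z, hZΩ hz⟩, mem_subgroupOf.2 hz, rfl⟩
      have h3 : QuotientGroup.mk' (H1.subgroupOf Ω) ⟨z, hZΩ hz⟩ ∈ (⊥ : Subgroup V) := by
        rw [← hK1]; exact ⟨h2, h1⟩
      rw [mem_bot, QuotientGroup.mk'_apply, QuotientGroup.eq_one_iff, mem_subgroupOf] at h3
      exact h3
    have h1 := Nat.le_of_dvd Nat.card_pos (card_dvd_of_le hZH1)
    have h2 : 0 < Nat.card H1 := Nat.card_pos
    omega
  have hcardQ : Nat.card Ω ≤ 2 * Nat.card Q := by
    have h1 := card_map_mk (H1.subgroupOf Ω) (Z.subgroupOf Ω) (fun x hx => hH1Z hx)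
    rw [card_subgroupOf hH1Ω, card_subgroupOf hZΩ, hcardH1] at h1
    have hpos : 0 < Nat.card H1 := Nat.card_pos
    have hF : Nat.card ((Z.subgroupOf Ω).map (QuotientGroup.mk' (H1.subgroupOf Ω))) = 2 :=
      Nat.eq_of_mul_eq_mul_right hpos h1
    rw [hF] at hK2
    have h2 : Nat.card Q = Nat.card (K.comap (QuotientGroup.mk' (H1.subgroupOf Ω))) :=
      Subgroup.card_map_of_injective Ω.subtype_injective
    have h3 := card_map_mk (H1.subgroupOf Ω) (K.comap (QuotientGroup.mk' (H1.subgroupOf Ω))) (by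
      intro x hx
      rw [mem_comap, QuotientGroup.mk'_apply, (QuotientGroup.eq_one_iff x).2 hx]
      exact one_mem _)
    rw [map_comap_eq_self_of_surjective (QuotientGroup.mk'_surjective _)] at h3
    have h4 := (H1.subgroupOf Ω).card_mul_index
    have h5 : (H1.subgroupOf Ω).index = Nat.card V := rfl
    rw [h5] at h4
    rw [← h4, h2, ← h3]
    calc Nat.card (H1.subgroupOf Ω) * Nat.card V ≤ Nat.card (H1.subgroupOf Ω) * (2 * Nat.card K) :=
          Nat.mul_le_mul_left _ hK2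
      _ = 2 * (Nat.card K * Nat.card (H1.subgroupOf Ω)) := by ring
  have hUU1 : Nat.card U ≤ Nat.card U1 := Nat.le_of_dvd Nat.card_pos (card_dvd_of_le le_sup_left)
  exact hnotle (hd Q (hQΩ.trans (hΩU1.trans hU1W)) (by omega))

end Cfsg.Agent.H309.Ru
end

-- part: H309/Ru/AbsD
section
/-!
# S3204: the Sylow 2-subgroup as an abstract group (helper309)
-/

set_option autoImplicit false

namespace Cfsg.Agent.H309.Ru

open Subgroup
open scoped commutatorElement

local notation "UC" => Subgroup.upperCentralSeries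

variable {P : Type*} [Group P] [Finite P]

theorem uc_mem {i : ℕ} {x : P} : x ∈ UC P (i + 1) ↔ ∀ y : P, ⁅y, x⁆ ∈ UC P i := by
  rw [Subgroup.mem_upperCentralSeries_succ_iff]
  constructor
  · intro h y
    rw [← commutatorElement_inv]; exact inv_mem (h y)
  · intro h y
    rw [← commutatorElement_inv]; exact inv_mem (h y)

theorem uc_one_mem {x : P} : x ∈ UC P 1 ↔ ∀ y : P, y * x = x * y := by
  rw [uc_mem]
  simp only [Subgroup.upperCentralSeries_zero, mem_bot, commutatorElement_eq_one_iff_mul_comm]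

theorem eq_eight (n : ℕ) (h1 : n ≤ 8) (h2 : 16384 ≤ 2 ^ n * 8 * n) : n = 8 := by
  interval_cases n <;> first | rfl | (exfalso; revert h2; norm_num)

/-- The orders: `|P| = 2^14`, `|W| = 2^11`, `|Φ(W)| = 8`. -/
theorem orders (hP : IsPGroup 2 P) (ha : 2 ^ 14 ≤ Nat.card P) (hb : Nat.card (UC P 4) = 16)
    (W : Subgroup P) (hW : W = centralizer (UC P 3 : Set P)) (hc : Nat.card (frattini W) ≤ 8) :
    W.index = 8 ∧ Nat.card W = 2048 ∧ Nat.card P = 16384 ∧ UC P 4 ≤ W ∧
      (frattini W).map W.subtype = UC P 3 ∧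
      (∀ z2 ∈ UC P 2, z2 ∉ UC P 1 → ∀ z3 ∈ UC P 3, z3 ∉ UC P 2 → ∀ a ∈ UC P 1, ∀ b ∈ UC P 2,
        ∃ t : P, ⁅t, z2⁆ = a ∧ ⁅t, z3⁆ = b) := by
  classical
  have : Fact (Nat.Prime 2) := ⟨Nat.prime_two⟩
  have hn : Group.IsNilpotent P := hP.isNilpotent
  have ha' : 16384 ≤ Nat.card P := by norm_num at ha; exact ha
  obtain ⟨k1, k2, k3⟩ := cards hn hb (by omega)
  have m12 : UC P 1 ≤ UC P 2 := Subgroup.upperCentralSeries_mono P (by norm_num)
  have m23 : UC P 2 ≤ UC P 3 := Subgroup.upperCentralSeries_mono P (by norm_num)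
  have m34 : UC P 3 ≤ UC P 4 := Subgroup.upperCentralSeries_mono P (by norm_num)
  have hcs : ∀ i < 4, Nat.card (UC P (i + 1)) = 2 * Nat.card (UC P i) := by
    intro i hi
    have h0 : Nat.card (UC P 0) = 1 := by
      rw [Subgroup.upperCentralSeries_zero]; exact card_bot
    interval_cases i
    · rw [zero_add, k1, h0]
    · rw [k1]; exact k2
    · rw [k2]; exact k3
    · rw [k3]; exact hb
  have memW : ∀ t : P, t ∈ W ↔ ∀ z ∈ UC P 3, t * z = z * t := by
    intro t
    rw [hW, mem_centralizer_iff]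
    constructor
    · intro h z hz; exact (h z hz).symm
    · intro h z hz; exact (h z hz).symm
  -- centralizing z2 and z3 is enough
  have hcent : ∀ z2 ∈ UC P 2, z2 ∉ UC P 1 → ∀ z3 ∈ UC P 3, z3 ∉ UC P 2 → ∀ t : P,
      t * z2 = z2 * t → t * z3 = z3 * t → t ∈ W := by
    intro z2 h2 h2' z3 h3 h3' t e2 e3
    have c1 : ∀ z ∈ UC P 1, t * z = z * t := fun z hz => uc_one_mem.1 hz t
    have c2 : ∀ z ∈ UC P 2, t * z = z * t := by
      intro z hz
      rcases mem_or_mem m12 (hcs 1 (by norm_num)) h2 h2' hz with h | h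
      · exact c1 z h
      · have h5 := c1 _ h
        have : z = z2 * (z2⁻¹ * z) := by group
        rw [this, ← mul_assoc, e2, mul_assoc, h5, ← mul_assoc]
    rw [memW]
    intro z hz
    rcases mem_or_mem m23 (hcs 2 (by norm_num)) h3 h3' hz with h | h
    · exact c2 z h
    · have h5 := c2 _ h
      have : z = z3 * (z3⁻¹ * z) := by group
      rw [this, ← mul_assoc, e3, mul_assoc, h5, ← mul_assoc]
  -- existence of z2, z3
  obtain ⟨w2, hw2, hw2'⟩ : ∃ z ∈ UC P 2, z ∉ UC P 1 := by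
    by_contra h
    push Not at h
    have := Nat.le_of_dvd Nat.card_pos (card_dvd_of_le (show UC P 2 ≤ UC P 1 from h))
    omega
  obtain ⟨w3, hw3, hw3'⟩ : ∃ z ∈ UC P 3, z ∉ UC P 2 := by
    by_contra h
    push Not at h
    have := Nat.le_of_dvd Nat.card_pos (card_dvd_of_le (show UC P 3 ≤ UC P 2 from h))
    omega
  have b2 : ∀ z ∈ UC P 2, ∀ t : P, ⁅t, z⁆ ∈ UC P 1 := fun z hz t => uc_mem.1 hz t
  have b3 : ∀ z ∈ UC P 3, ∀ t : P, ⁅t, z⁆ ∈ UC P 2 := fun z hz t => uc_mem.1 hz t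
  have comeq : ∀ (t t' z : P), ⁅t, z⁆ = ⁅t', z⁆ → (t'⁻¹ * t) * z = z * (t'⁻¹ * t) := by
    intro t t' z h
    rw [commutatorElement_def, commutatorElement_def] at h
    have h1 : t * z * t⁻¹ = t' * z * t'⁻¹ := mul_right_cancel h
    calc (t'⁻¹ * t) * z = t'⁻¹ * (t * z * t⁻¹) * t := by group
      _ = t'⁻¹ * (t' * z * t'⁻¹) * t := by rw [h1]
      _ = z * (t'⁻¹ * t) := by group
  -- injectivity
  have hinj : ∀ z2 (h2 : z2 ∈ UC P 2), z2 ∉ UC P 1 → ∀ z3 (h3 : z3 ∈ UC P 3), z3 ∉ UC P 2 →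
      Function.Injective (fun q : P ⧸ W => ((⟨⁅q.out, z2⁆, b2 _ h2 _⟩, ⟨⁅q.out, z3⁆, b3 _ h3 _⟩) :
        UC P 1 × UC P 2)) := by
    intro z2 h2 h2' z3 h3 h3' q q' hqq'
    rw [Prod.mk.injEq, Subtype.mk.injEq, Subtype.mk.injEq] at hqq'
    have h4 := hcent z2 h2 h2' z3 h3 h3' (q'.out⁻¹ * q.out) (comeq _ _ _ hqq'.1) (comeq _ _ _ hqq'.2)
    have h5 : (QuotientGroup.mk q'.out : P ⧸ W) = QuotientGroup.mk q.out := QuotientGroup.eq.2 h4
    rw [QuotientGroup.out_eq', QuotientGroup.out_eq'] at h5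
    exact h5.symm
  have hcardprod : Nat.card (UC P 1 × UC P 2) = 8 := by rw [Nat.card_prod, k1, k2]
  have hidx8 : W.index ≤ 8 := by
    rw [← hcardprod]
    exact Nat.card_le_card_of_injective _ (hinj w2 hw2 hw2' w3 hw3 hw3')
  have hWn : W.Normal := by
    rw [hW]; infer_instance
  -- UC 4 ≤ W
  have hWcard : 2048 ≤ Nat.card W := by
    have h1 := W.card_mul_index
    by_contra hcon
    push Not at hcon
    have : Nat.card W * W.index ≤ 2047 * 8 := Nat.mul_le_mul (by omega) hidx8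
    omega
  have h4W : UC P 4 ≤ W := by
    apply ucs_le_of_normal hn 4 hcs W hWn 3 (by norm_num)
    intro hle
    have := Nat.le_of_dvd Nat.card_pos (card_dvd_of_le hle)
    omega
  -- Φ
  set Φ : Subgroup P := (frattini W).map W.subtype with hΦ
  have hΦn : Φ.Normal := by
    rw [hΦ]; exact ConjAct.normal_of_characteristic_of_normal
  have hΦcard : Nat.card Φ = Nat.card (frattini W) :=
    Subgroup.card_map_of_injective W.subtype_injective
  have hΦ3 : Φ ≤ UC P 3 := by
    by_contra hcon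
    have := ucs_le_of_normal hn 4 hcs Φ hΦn 3 (by norm_num) hcon
    have := Nat.le_of_dvd Nat.card_pos (card_dvd_of_le this)
    simp only [Nat.reduceAdd] at this
    omega
  have hΦW : Φ ≤ W := map_subtype_le _
  obtain ⟨j, hj, hΦj⟩ : ∃ j ≤ 3, Φ = UC P j := by
    by_cases h2 : Φ ≤ UC P 2
    · by_cases h1 : Φ ≤ UC P 1
      · by_cases h0 : Φ ≤ UC P 0
        · refine ⟨0, by norm_num, le_antisymm h0 ?_⟩
          rw [Subgroup.upperCentralSeries_zero]; exact bot_le
        · exact ⟨1, by norm_num, le_antisymm h1 (ucs_le_of_normal hn 4 hcs Φ hΦn 0 (by norm_num) h0)⟩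
      · exact ⟨2, by norm_num, le_antisymm h2 (ucs_le_of_normal hn 4 hcs Φ hΦn 1 (by norm_num) h1)⟩
    · exact ⟨3, by norm_num, le_antisymm hΦ3 (ucs_le_of_normal hn 4 hcs Φ hΦn 2 (by norm_num) h2)⟩
  -- the quotient
  have hWp : IsPGroup 2 W := hP.to_subgroup W
  have sqΦ : ∀ w ∈ W, w * w ∈ Φ := by
    intro w hw
    refine ⟨⟨w, hw⟩ * ⟨w, hw⟩, ?_, rfl⟩
    have := Cfsg.Agent.Lib.FrattiniPGroup.pow_mem_frattini hWp (⟨w, hw⟩ : W)
    rw [sq] at this
    exact this
  set A : Subgroup (P ⧸ Φ) := W.map (QuotientGroup.mk' Φ) with hA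
  have hA2 : ∀ a ∈ A, a * a = 1 := by
    rintro _ ⟨w, hw, rfl⟩
    rw [← map_mul, QuotientGroup.mk'_apply, QuotientGroup.eq_one_iff]
    exact sqΦ w hw
  have hAc : ∀ a ∈ A, ∀ b ∈ A, a * b = b * a := by
    intro a ha b hb
    have h1 := hA2 _ (mul_mem ha hb)
    have ha' : a⁻¹ = a := inv_eq_of_mul_eq_one_left (hA2 a ha)
    have hb' : b⁻¹ = b := inv_eq_of_mul_eq_one_left (hA2 b hb)
    have h4 : (a * b)⁻¹ = a * b := inv_eq_of_mul_eq_one_left h1
    rw [mul_inv_rev, ha', hb'] at h4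
    exact h4.symm
  have hAn : ∀ r : P ⧸ Φ, ∀ a ∈ A, r * a * r⁻¹ ∈ A := by
    intro r a ha
    have : A.Normal := hWn.map _ (QuotientGroup.mk'_surjective Φ)
    exact this.conj_mem a ha r
  have h5 := card_fix_le_pow (hP.to_quotient Φ) A hA2 hAn _ A rfl
  have hAA : A ⊓ centralizer (A : Set (P ⧸ Φ)) = A := by
    apply inf_of_le_left
    intro a ha
    rw [mem_centralizer_iff]
    intro b hb
    exact hAc b hb a ha
  have hAidx : A.index = W.index := by
    have h1 := A.card_mul_index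
    have h2 := card_map_mk Φ W hΦW
    have h3 := W.card_mul_index
    have h4 := Φ.card_mul_index
    have h6 : Φ.index = Nat.card (P ⧸ Φ) := rfl
    rw [h6, ← h1] at h4
    rw [← h3, ← h2] at h4
    have hpos : 0 < Nat.card Φ := Nat.card_pos
    have hpos2 : 0 < Nat.card A := Nat.card_pos
    have : (Nat.card Φ * Nat.card A) * A.index = (Nat.card Φ * Nat.card A) * W.index := by
      rw [mul_assoc, h4]; ring
    exact Nat.eq_of_mul_eq_mul_left (Nat.mul_pos hpos hpos2) this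
  have hfix : Nat.card (A ⊓ center (P ⧸ Φ) : Subgroup (P ⧸ Φ)) ≤ 2 := by
    have hle : (A ⊓ center (P ⧸ Φ) : Subgroup (P ⧸ Φ)) ≤ (UC P (j + 1)).map (QuotientGroup.mk' Φ) := by
      rintro x ⟨⟨w, hw, rfl⟩, hx⟩
      refine ⟨w, ?_, rfl⟩
      show w ∈ UC P (j + 1)
      rw [uc_mem]
      intro y
      rw [← hΦj, ← QuotientGroup.eq_one_iff]
      have h6 := mem_center_iff.1 hx (QuotientGroup.mk' Φ y)
      have : (QuotientGroup.mk' Φ) ⁅y, w⁆ = 1 := by
        rw [map_commutatorElement, commutatorElement_eq_one_iff_mul_comm]; exact h6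
      exact this
    have h7 := card_map_mk Φ (UC P (j + 1)) (by
      rw [hΦj]; exact Subgroup.upperCentralSeries_mono P (Nat.le_succ j))
    have h8 := hcs j (by omega)
    have hpos : 0 < Nat.card (UC P j) := Nat.card_pos
    have hcΦ : Nat.card Φ = Nat.card (UC P j) := by rw [hΦj]
    rw [h8, hcΦ] at h7
    have h9 : Nat.card ((UC P (j + 1)).map (QuotientGroup.mk' Φ)) = 2 :=
      Nat.eq_of_mul_eq_mul_right hpos h7
    calc _ ≤ Nat.card ((UC P (j + 1)).map (QuotientGroup.mk' Φ)) :=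
          Nat.le_of_dvd Nat.card_pos (card_dvd_of_le hle)
      _ = 2 := h9
  rw [hAA, hAidx] at h5
  have h6 : Nat.card A ≤ 2 ^ W.index := h5.trans (Nat.pow_le_pow_left hfix _)
  have h7 := card_map_mk Φ W hΦW
  have h8 := W.card_mul_index
  have h9 : Nat.card Φ ≤ 8 := by rw [hΦcard]; exact hc
  have hbig : 16384 ≤ 2 ^ W.index * 8 * W.index := by
    calc 16384 ≤ Nat.card P := ha'
      _ = Nat.card A * Nat.card Φ * W.index := by rw [← h8, ← h7]
      _ ≤ 2 ^ W.index * 8 * W.index := Nat.mul_le_mul_right _ (Nat.mul_le_mul h6 h9)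
  have hidx : W.index = 8 := eq_eight _ hidx8 hbig
  rw [hidx] at h6 h8
  have hcardW : Nat.card W = 2048 := by
    have : Nat.card A * Nat.card Φ ≤ 2 ^ 8 * 8 := Nat.mul_le_mul h6 h9
    rw [h7] at this
    norm_num at this
    omega
  have hΦ8 : Nat.card Φ = 8 := by
    have hA256 : Nat.card A ≤ 256 := by norm_num at h6; exact h6
    have : 2048 ≤ 256 * Nat.card Φ := by
      calc 2048 = Nat.card A * Nat.card Φ := by rw [h7, hcardW]
        _ ≤ 256 * Nat.card Φ := Nat.mul_le_mul_right _ hA256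
    omega
  refine ⟨hidx, hcardW, by rw [← h8, hcardW], h4W, eq_of_le_of_card_ge hΦ3 (by rw [hΦ8, k3]), ?_⟩
  intro z2 h2 h2' z3 h3 h3' a ha2 b hb2
  have hbij := (Nat.bijective_iff_injective_and_card _).2 ⟨hinj z2 h2 h2' z3 h3 h3', by
    rw [hcardprod]; exact hidx⟩
  obtain ⟨q, hq⟩ := hbij.2 (⟨a, ha2⟩, ⟨b, hb2⟩)
  rw [Prod.mk.injEq, Subtype.mk.injEq, Subtype.mk.injEq] at hq
  exact ⟨q.out, hq.1, hq.2⟩

end Cfsg.Agent.H309.Ru
end

-- part: H309/Ru/AbsE
section
/-!
# S3204: `Hyp` for the Sylow 2-subgroup as an abstract group (helper309)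
-/

set_option autoImplicit false

namespace Cfsg.Agent.H309.Ru

open Subgroup
open scoped commutatorElement

local notation "UC" => Subgroup.upperCentralSeries

variable {P : Type*} [Group P] [Finite P]

theorem comm_mul_left (t t' z : P) : ⁅t * t', z⁆ = t * ⁅t', z⁆ * t⁻¹ * ⁅t, z⁆ := by
  simp only [commutatorElement_def]; group

theorem comm_mul_right (t z z' : P) : ⁅t, z * z'⁆ = ⁅t, z⁆ * (z * ⁅t, z'⁆ * z⁻¹) := by
  simp only [commutatorElement_def]; group

/-- The elements of `⊤` acting trivially on `K` modulo the normal subgroup `N`. -/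
def actT (N K : Subgroup P) [hN : N.Normal] : Subgroup P where
  carrier := {t | ∀ z ∈ K, ⁅t, z⁆ ∈ N}
  one_mem' := by
    intro z _
    rw [commutatorElement_one_left]; exact one_mem _
  mul_mem' := by
    intro t t' ht ht' z hz
    rw [comm_mul_left]
    exact mul_mem (hN.conj_mem _ (ht' z hz) t) (ht z hz)
  inv_mem' := by
    intro t ht z hz
    have : ⁅t⁻¹, z⁆ = t⁻¹ * ⁅t, z⁆⁻¹ * t⁻¹⁻¹ := by simp only [commutatorElement_def]; group
    rw [this]
    exact hN.conj_mem _ (inv_mem (ht z hz)) _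

theorem mem_actT {N K : Subgroup P} [N.Normal] {t : P} : t ∈ actT N K ↔ ∀ z ∈ K, ⁅t, z⁆ ∈ N := Iff.rfl

theorem card_of_index_two {H : Subgroup P} (h : H.index = 2) : Nat.card P = 2 * Nat.card H := by
  rw [← H.card_mul_index, h, mul_comm]

/-- the fixed points in a section of `P / UC i` -/
theorem card_fix_uc (hcs : ∀ i < 4, Nat.card (UC P (i + 1)) = 2 * Nat.card (UC P i)) (i : ℕ) (hi : i < 4)
    (B : Subgroup (P ⧸ UC P i)) :
    Nat.card (B ⊓ centralizer ((⊤ : Subgroup (P ⧸ UC P i)) : Set (P ⧸ UC P i)) : Subgroup (P ⧸ UC P i)) ≤ 2 := by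
  have hle : (B ⊓ centralizer ((⊤ : Subgroup (P ⧸ UC P i)) : Set (P ⧸ UC P i)) : Subgroup (P ⧸ UC P i)) ≤
      (UC P (i + 1)).map (QuotientGroup.mk' (UC P i)) := by
    rintro x ⟨-, hx⟩
    obtain ⟨w, rfl⟩ := QuotientGroup.mk'_surjective _ x
    refine ⟨w, ?_, rfl⟩
    show w ∈ UC P (i + 1)
    rw [uc_mem]
    intro y
    rw [← QuotientGroup.eq_one_iff]
    have h6 := mem_centralizer_iff.1 hx (QuotientGroup.mk' (UC P i) y) (mem_top _)
    have : (QuotientGroup.mk' (UC P i)) ⁅y, w⁆ = 1 := by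
      rw [map_commutatorElement, commutatorElement_eq_one_iff_mul_comm]; exact h6
    exact this
  have h7 := card_map_mk (UC P i) (UC P (i + 1)) (Subgroup.upperCentralSeries_mono P (Nat.le_succ i))
  have h8 := hcs i hi
  have hpos : 0 < Nat.card (UC P i) := Nat.card_pos
  rw [h8] at h7
  have h9 : Nat.card ((UC P (i + 1)).map (QuotientGroup.mk' (UC P i))) = 2 :=
    Nat.eq_of_mul_eq_mul_right hpos h7
  calc _ ≤ Nat.card ((UC P (i + 1)).map (QuotientGroup.mk' (UC P i))) :=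
        Nat.le_of_dvd Nat.card_pos (card_dvd_of_le hle)
    _ = 2 := h9

/-- Counting bound used twice: `A ≥ UC i` normal, elementary abelian modulo `UC i`, centralized by an index 2
subgroup modulo `UC i`. -/
theorem card_le_four_mul (hcs : ∀ i < 4, Nat.card (UC P (i + 1)) = 2 * Nat.card (UC P i)) (i : ℕ) (hi : i < 4)
    (T1 : Subgroup P) (hT1 : T1.index = 2) (hUT : UC P i ≤ T1) (A : Subgroup P) (hA : UC P i ≤ A)
    (hsq : ∀ a ∈ A, a * a ∈ UC P i) (hn : ∀ t : P, ∀ a ∈ A, t * a * t⁻¹ ∈ A)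
    (hc : ∀ t ∈ T1, ∀ a ∈ A, ⁅t, a⁆ ∈ UC P i) : Nat.card A ≤ 4 * Nat.card (UC P i) := by
  set π := QuotientGroup.mk' (UC P i) with hπ
  have hsurj : Function.Surjective π := QuotientGroup.mk'_surjective _
  have h1 := card_fix_le (A.map π) (by
    rintro _ ⟨a, ha, rfl⟩
    rw [← map_mul, hπ, QuotientGroup.mk'_apply, QuotientGroup.eq_one_iff]
    exact hsq a ha) (T1.map π) ⊤ le_top (by
      have e1 := card_map_mk (UC P i) T1 hUT
      have e2 := card_of_index_two hT1
      have e3 := (UC P i).card_mul_index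
      have e4 : (UC P i).index = Nat.card (P ⧸ UC P i) := rfl
      rw [e4] at e3
      rw [card_top]
      have hpos : 0 < Nat.card (UC P i) := Nat.card_pos
      apply Nat.eq_of_mul_eq_mul_left hpos
      rw [e3, e2, ← e1]; ring) (by
      rintro r - _ ⟨a, ha, rfl⟩
      obtain ⟨t, rfl⟩ := hsurj r
      exact ⟨t * a * t⁻¹, hn t a ha, by simp⟩)
  have h2 : (A.map π ⊓ centralizer ((T1.map π : Subgroup (P ⧸ UC P i)) : Set (P ⧸ UC P i)) :
      Subgroup (P ⧸ UC P i)) = A.map π := by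
    apply inf_of_le_left
    rintro _ ⟨a, ha, rfl⟩
    rw [mem_centralizer_iff]
    rintro _ ⟨t, ht, rfl⟩
    have h3 := hc t ht a ha
    rw [← QuotientGroup.eq_one_iff] at h3
    have h4 : π ⁅t, a⁆ = 1 := h3
    rw [map_commutatorElement, commutatorElement_eq_one_iff_mul_comm] at h4
    exact h4
  rw [h2] at h1
  have h3 := card_fix_uc hcs i hi (A.map π)
  have h4 : Nat.card (A.map π) ≤ 4 := h1.trans (by
    calc _ ≤ 2 ^ 2 := Nat.pow_le_pow_left h3 2
      _ = 4 := by norm_num)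
  have h5 := card_map_mk (UC P i) A hA
  rw [← h5]
  exact Nat.mul_le_mul_right _ h4

theorem hyp_of (hP : IsPGroup 2 P) (ha : 2 ^ 14 ≤ Nat.card P) (hb : Nat.card (UC P 4) = 16)
    (W : Subgroup P) (hW : W = centralizer (UC P 3 : Set P)) (hc : Nat.card (frattini W) ≤ 8)
    (hd : ∀ U : Subgroup W, U.index ≤ 16 → frattini W ≤ U) :
    ∃ T1 T2 : Subgroup P, Hyp ⊤ T1 T2 W (UC P 4) (UC P 3) (UC P 2) (UC P 1) ∧
      (commutator W).map W.subtype = UC P 3 := by
  classical
  have : Fact (Nat.Prime 2) := ⟨Nat.prime_two⟩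
  obtain ⟨hidx, hcW, hcP, h4W, hΦ, hfull⟩ := orders hP ha hb W hW hc
  have hn : Group.IsNilpotent P := hP.isNilpotent
  obtain ⟨k1, k2, k3⟩ := cards hn hb (by omega)
  have m12 : UC P 1 ≤ UC P 2 := Subgroup.upperCentralSeries_mono P (by norm_num)
  have m23 : UC P 2 ≤ UC P 3 := Subgroup.upperCentralSeries_mono P (by norm_num)
  have m34 : UC P 3 ≤ UC P 4 := Subgroup.upperCentralSeries_mono P (by norm_num)
  have hcs : ∀ i < 4, Nat.card (UC P (i + 1)) = 2 * Nat.card (UC P i) := by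
    intro i hi
    have h0 : Nat.card (UC P 0) = 1 := by
      rw [Subgroup.upperCentralSeries_zero]; exact card_bot
    interval_cases i
    · rw [zero_add, k1, h0]
    · rw [k1]; exact k2
    · rw [k2]; exact k3
    · rw [k3]; exact hb
  have memW : ∀ t : P, t ∈ W ↔ ∀ z ∈ UC P 3, t * z = z * t := by
    intro t
    rw [hW, mem_centralizer_iff]
    constructor
    · intro h z hz; exact (h z hz).symm
    · intro h z hz; exact (h z hz).symm
  have b1 : ∀ z ∈ UC P 1, ∀ t : P, t * z = z * t := fun z hz t => uc_one_mem.1 hz t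
  have b2 : ∀ z ∈ UC P 2, ∀ t : P, ⁅t, z⁆ ∈ UC P 1 := fun z hz t => uc_mem.1 hz t
  have b3 : ∀ z ∈ UC P 3, ∀ t : P, ⁅t, z⁆ ∈ UC P 2 := fun z hz t => uc_mem.1 hz t
  have b4 : ∀ z ∈ UC P 4, ∀ t : P, ⁅t, z⁆ ∈ UC P 3 := fun z hz t => uc_mem.1 hz t
  have hWn : W.Normal := by
    rw [hW]; infer_instance
  have hWp : IsPGroup 2 W := hP.to_subgroup W
  have cen : ∀ z ∈ UC P 3, ∀ w ∈ W, w * z = z * w := fun z hz w hw => (memW w).1 hw z hz
  have sqW : ∀ w ∈ W, w * w ∈ UC P 3 := by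
    intro w hw
    rw [← hΦ]
    refine ⟨⟨w, hw⟩ * ⟨w, hw⟩, ?_, rfl⟩
    have := Cfsg.Agent.Lib.FrattiniPGroup.pow_mem_frattini hWp (⟨w, hw⟩ : W)
    rw [sq] at this
    exact this
  have comW : ∀ w ∈ W, ∀ w' ∈ W, ⁅w, w'⁆ ∈ UC P 3 := by
    intro w hw w' hw'
    rw [← hΦ]
    refine ⟨⁅(⟨w, hw⟩ : W), ⟨w', hw'⟩⁆, ?_, rfl⟩
    exact Cfsg.Agent.Lib.FrattiniPGroup.commutator_mem_frattini hWp _ _
  have hd' : ∀ U : Subgroup P, U ≤ W → Nat.card W ≤ 16 * Nat.card U → UC P 3 ≤ U := by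
    intro U hU hcard
    have h1 := (U.subgroupOf W).card_mul_index
    rw [card_subgroupOf hU] at h1
    have h2 : (U.subgroupOf W).index ≤ 16 := by
      by_contra hcon
      push Not at hcon
      have hpos : 0 < Nat.card U := Nat.card_pos
      nlinarith
    have h3 := hd _ h2
    rw [← hΦ, map_le_iff_le_comap]
    exact h3
  have hC := lemC hP W (UC P 3) (m34.trans h4W) cen sqW comW hd'
  -- Z is elementary abelian
  have sqZ : ∀ z ∈ UC P 3, z * z = 1 := by
    let H : Subgroup P :=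
      { carrier := {z | z ∈ UC P 3 ∧ z * z = 1}
        one_mem' := ⟨one_mem _, by simp⟩
        mul_mem' := by
          rintro x y ⟨hx, hx2⟩ ⟨hy, hy2⟩
          refine ⟨mul_mem hx hy, ?_⟩
          have h1 := cen y hy x (h4W (m34 hx))
          calc x * y * (x * y) = (x * y) * x * y := by group
            _ = (y * x) * x * y := by rw [h1]
            _ = y * (x * x) * y := by group
            _ = 1 := by rw [hx2, mul_one, hy2]
        inv_mem' := by
          rintro x ⟨hx, hx2⟩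
          exact ⟨inv_mem hx, by rw [← mul_inv_rev, hx2, inv_one]⟩ }
    have h1 : UC P 3 ≤ H := by
      apply hC W le_rfl (by omega)
      intro x hx y hy
      refine ⟨comW x hx y hy, ?_⟩
      have hc1 := comW x hx y hy
      have e1 := cen _ (sqW x hx) y hy
      -- ⁅x*x, y⁆ = 1
      have e2 : ⁅x * x, y⁆ = 1 := by
        rw [commutatorElement_eq_one_iff_mul_comm]; exact e1.symm
      rw [comm_mul_left] at e2
      have e3 := cen _ hc1 x hx
      have e4 : x * ⁅x, y⁆ * x⁻¹ = ⁅x, y⁆ := by rw [e3]; group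
      rw [e4] at e2
      exact e2
    exact fun z hz => (h1 hz).2
  -- z1, z2, z3
  obtain ⟨z1, hz1, hz1'⟩ : ∃ z ∈ UC P 1, z ≠ 1 := by
    by_contra h
    push Not at h
    have : UC P 1 = ⊥ := by
      rw [eq_bot_iff]; intro z hz; exact mem_bot.2 (h z hz)
    rw [this, card_bot] at k1
    omega
  obtain ⟨z2, hz2, hz2'⟩ : ∃ z ∈ UC P 2, z ∉ UC P 1 := by
    by_contra h
    push Not at h
    have := Nat.le_of_dvd Nat.card_pos (card_dvd_of_le (show UC P 2 ≤ UC P 1 from h))
    omega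
  obtain ⟨z3, hz3, hz3'⟩ : ∃ z ∈ UC P 3, z ∉ UC P 2 := by
    by_contra h
    push Not at h
    have := Nat.le_of_dvd Nat.card_pos (card_dvd_of_le (show UC P 3 ≤ UC P 2 from h))
    omega
  have hZ1 : ∀ z ∈ UC P 1, z = 1 ∨ z = z1 := by
    intro z hz
    have h0 : Nat.card (UC P 0) = 1 := by
      rw [Subgroup.upperCentralSeries_zero]; exact card_bot
    rcases mem_or_mem (A := UC P 0) (B := UC P 1) (Subgroup.upperCentralSeries_mono P (by norm_num))
      (by rw [k1, h0]) hz1 (by rw [Subgroup.upperCentralSeries_zero, mem_bot]; exact hz1') hz with h | h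
    · left; rwa [Subgroup.upperCentralSeries_zero, mem_bot] at h
    · right
      rw [Subgroup.upperCentralSeries_zero, mem_bot] at h
      have := mul_eq_one_iff_eq_inv.1 h
      rw [inv_inj] at this; exact this.symm
  have hmod2 : ∀ z ∈ UC P 2, z ∈ UC P 1 ∨ z2⁻¹ * z ∈ UC P 1 := fun z hz =>
    mem_or_mem m12 (hcs 1 (by norm_num)) hz2 hz2' hz
  have hmod3 : ∀ z ∈ UC P 3, z ∈ UC P 2 ∨ z3⁻¹ * z ∈ UC P 2 := fun z hz =>
    mem_or_mem m23 (hcs 2 (by norm_num)) hz3 hz3' hz
  -- products of two elements of UC2 \ UC1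
  have hprod2 : ∀ a ∈ UC P 2, ∀ b ∈ UC P 2, a ∉ UC P 1 → b ∉ UC P 1 → a * b ∈ UC P 1 := by
    intro a ha b hb ha' hb'
    have h1 := mem_or_mem m12 (hcs 1 (by norm_num)) (inv_mem ha) (by rwa [inv_mem_iff]) hb
    rw [inv_inv] at h1
    exact h1.resolve_left hb'
  -- T1 and T2
  set T1 : Subgroup P := actT (UC P 1) (UC P 3) with hT1
  set T2 : Subgroup P := actT (UC P 0) (UC P 2) with hT2
  have mem1 : ∀ t, t ∈ T1 ↔ ⁅t, z3⁆ ∈ UC P 1 := by
    intro t
    constructor
    · intro h; exact h z3 hz3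
    · intro h z hz
      rcases hmod3 z hz with h1 | h1
      · exact b2 z h1 t
      · have : z = z3 * (z3⁻¹ * z) := by group
        rw [this, comm_mul_right]
        have hN : (UC P 1).Normal := inferInstance
        exact mul_mem h (hN.conj_mem _ (b2 _ h1 t) _)
  have mem2 : ∀ t, t ∈ T2 ↔ ⁅t, z2⁆ = 1 := by
    intro t
    rw [hT2, mem_actT]
    constructor
    · intro h
      have := h z2 hz2
      rwa [Subgroup.upperCentralSeries_zero, mem_bot] at this
    · intro h z hz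
      rw [Subgroup.upperCentralSeries_zero, mem_bot]
      have hc1 : ∀ z ∈ UC P 1, ⁅t, z⁆ = 1 := fun z hz => by
        rw [commutatorElement_eq_one_iff_mul_comm]; exact b1 z hz t
      rcases hmod2 z hz with h1 | h1
      · exact hc1 z h1
      · have : z = z2 * (z2⁻¹ * z) := by group
        rw [this, comm_mul_right, h, hc1 _ h1]; simp
  have mem2' : ∀ t, t ∈ T2 ↔ ∀ z ∈ UC P 2, t * z = z * t := by
    intro t
    rw [hT2, mem_actT]
    constructor
    · intro h z hz
      have := h z hz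
      rwa [Subgroup.upperCentralSeries_zero, mem_bot, commutatorElement_eq_one_iff_mul_comm] at this
    · intro h z hz
      rw [Subgroup.upperCentralSeries_zero, mem_bot, commutatorElement_eq_one_iff_mul_comm]
      exact h z hz
  have idx1 : T1.index = 2 := by
    rw [index_eq_two_iff_exists_notMem_and]
    obtain ⟨a, ha1, ha2⟩ := hfull z2 hz2 hz2' z3 hz3 hz3' 1 (one_mem _) z2 hz2
    refine ⟨a, ?_, ?_⟩
    · rw [mem1, ha2]; exact hz2'
    · intro b
      by_cases hb' : b ∈ T1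
      · exact Or.inr hb'
      · left
        rw [mem1, comm_mul_left, ha2]
        rw [mem1] at hb'
        have hN : (UC P 2).Normal := inferInstance
        have hN1 : (UC P 1).Normal := inferInstance
        apply hprod2 _ (hN.conj_mem _ hz2 b) _ (b3 z3 hz3 b) _ hb'
        intro hcon
        apply hz2'
        have := hN1.conj_mem _ hcon b⁻¹
        simpa [mul_assoc] using this
  have idx2 : T2.index = 2 := by
    rw [index_eq_two_iff_exists_notMem_and]
    obtain ⟨a, ha1, ha2⟩ := hfull z2 hz2 hz2' z3 hz3 hz3' z1 hz1 1 (one_mem _)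
    refine ⟨a, ?_, ?_⟩
    · rw [mem2, ha1]; exact hz1'
    · intro b
      by_cases hb' : b ∈ T2
      · exact Or.inr hb'
      · left
        rw [mem2, comm_mul_left, ha1]
        rw [mem2] at hb'
        have h1 := (hZ1 _ (b2 z2 hz2 b)).resolve_left hb'
        rw [h1, b1 z1 hz1 b, mul_assoc, mul_assoc, ← mul_assoc b, mul_inv_cancel, one_mul]
        exact sqZ z1 (m23 (m12 hz1))
  have hcT1 : Nat.card T1 = 8192 := by
    have := card_of_index_two idx1; omega
  have hcT2 : Nat.card T2 = 8192 := by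
    have := card_of_index_two idx2; omega
  have hW1 : W ≤ T1 := by
    intro w hw
    rw [mem1]
    have : ⁅w, z3⁆ = 1 := by rw [commutatorElement_eq_one_iff_mul_comm]; exact cen z3 hz3 w hw
    rw [this]; exact one_mem _
  have hW2 : W ≤ T2 := by
    intro w hw
    rw [mem2']
    intro z hz; exact cen z (m23 hz) w hw
  refine ⟨T1, T2, ?_, ?_⟩
  · refine
      { Z1_le := m12, Z2_le := m23, Z_le := m34, Z4_le := h4W, W_le1 := hW1, W_le2 := hW2
        T1_le := le_top, T2_le := le_top, cZ1 := k1, cZ2 := k2, cZ := k3, cZ4 := hb, cW := hcW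
        cT1 := hcT1, cT2 := hcT2, cT := by rw [card_top]; exact hcP
        sqZ := sqZ, cen := cen, memW := fun t _ h => (memW t).2 h, sqW := sqW, comW := comW
        c1 := fun t _ z hz => b1 z hz t, c2 := fun t _ z hz => b2 z hz t
        c3 := fun t _ z hz => b3 z hz t, c4 := fun t _ z hz => b4 z hz t
        nW := fun t _ w hw => hWn.conj_mem w hw t
        memT1 := fun t => ⟨fun h => ⟨trivial, h⟩, fun h => h.2⟩
        memT2 := fun t => ⟨fun h => ⟨trivial, (mem2' t).1 h⟩, fun h => (mem2' t).2 h.2⟩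
        d := hd', C := hC
        up1 := fun x _ h => uc_mem.2 (fun y => h y trivial)
        norm2 := ?_, norm4 := ?_
        full := ?_, b1 := ?_, e1 := ?_ }
    · intro K hK hKn hK1
      have hKN : K.Normal := ⟨fun k hk t => hKn t trivial k hk⟩
      exact ucs_le_of_normal hn 4 hcs K hKN 1 (by norm_num) hK1
    · intro K hK hKn hK1
      have hKN : K.Normal := ⟨fun k hk t => hKn t trivial k hk⟩
      exact ucs_le_of_normal hn 4 hcs K hKN 3 (by norm_num) hK1
    · intro z2 h2 h2' z3 h3 h3' a ha b hb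
      obtain ⟨t, ht1, ht2⟩ := hfull z2 h2 h2' z3 h3 h3' a ha b hb
      exact ⟨t, trivial, ht1, ht2⟩
    · intro A hAW hZA hT1A hAn
      have := card_le_four_mul hcs 3 (by norm_num) T1 idx1 ((m34.trans h4W).trans hW1) A hZA
        (fun a ha => sqW a (hAW ha)) (fun t a ha => hAn t trivial a ha) hT1A
      omega
    · intro A _ hZA hsq hAn hT1A
      have := card_le_four_mul hcs 1 (by norm_num) T1 idx1 (m12.trans (m23.trans ((m34.trans h4W).trans hW1)))
        A hZA (fun a ha => by rw [hsq a ha]; exact one_mem _) (fun t a ha => hAn t trivial a ha) hT1A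
      omega
  · apply le_antisymm
    · rw [← hΦ]
      apply map_mono
      exact Cfsg.Agent.Lib.FrattiniPGroup.commutator_le_frattini hWp
    · apply hC W le_rfl (by omega)
      intro x hx y hy
      refine ⟨⁅(⟨x, hx⟩ : W), ⟨y, hy⟩⁆, ?_, rfl⟩
      exact commutator_mem_commutator (mem_top _) (mem_top _)

end Cfsg.Agent.H309.Ru
end

-- part: H309/Ru/Key
section
/-!
# S3204: a group of automorphisms of an elementary abelian group of order 256 (helper309)

If `K ⊴ B ≤ Aut(V)`, `K` of odd order, `B / K` simple of order divisible by 7 and a 2-subgroup `Tb` of `B`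
fixes exactly one nontrivial element of `V`, then `K = 1`.
-/

set_option autoImplicit false

namespace Cfsg.Agent.H309.Ru

open Subgroup Pointwise

section fix

variable {V : Type*} [CommGroup V] [Finite V]

/-- A 2-group fixes a nontrivial element in each invariant nontrivial subgroup of a 2-group. -/
theorem exists_fix (Tb : Subgroup (MulAut V)) (hT : IsPGroup 2 Tb) (X : Subgroup V) {n : ℕ}
    (hV : Nat.card V = 2 ^ n)
    (hX : ∀ t ∈ Tb, ∀ x ∈ X, t x ∈ X) (hne : X ≠ ⊥) : ∃ c ∈ X, c ≠ 1 ∧ ∀ t ∈ Tb, t c = c := by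
  have : Fact (Nat.Prime 2) := ⟨Nat.prime_two⟩
  let act : MulAction Tb X :=
    { smul := fun t x => ⟨(t : MulAut V) x, hX t t.2 x x.2⟩
      one_smul := fun x => Subtype.ext rfl
      mul_smul := fun s t x => Subtype.ext rfl }
  have h1 : 2 ∣ Nat.card X := by
    have h2 := X.card_subgroup_dvd_card
    rw [hV] at h2
    obtain ⟨k, -, hk⟩ := (Nat.dvd_prime_pow Nat.prime_two).1 h2
    have h3 : k ≠ 0 := by
      rintro rfl
      rw [pow_zero] at hk
      exact hne (Subgroup.card_eq_one.1 hk)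
    rw [hk]; exact dvd_pow_self 2 h3
  obtain ⟨b, hb, hb1⟩ := hT.exists_fixed_point_of_prime_dvd_card_of_fixed_point X h1 (a := (1 : X)) (by
    intro t
    apply Subtype.ext
    show (t : MulAut V) 1 = 1
    exact map_one _)
  refine ⟨b, b.2, fun h => hb1 (Subtype.ext h.symm), fun t ht => ?_⟩
  exact congrArg Subtype.val (hb ⟨t, ht⟩)

end fix

theorem card_aut256 {V : Type*} [CommGroup V] (hV : Nat.card V = 256) (hsq : ∀ v : V, v * v = 1) :
    Nat.card (MulAut V) = 5348063769211699200 := by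
  have : Fact (Nat.Prime 2) := ⟨Nat.prime_two⟩
  obtain ⟨e⟩ := Cfsg.Agent.Lib.ElemAbGL.mulAut_equiv_GL (V := V) 2 8 (fun x => by rw [sq]; exact hsq x)
    (by rw [hV]; norm_num)
  rw [Nat.card_congr e.toEquiv, Matrix.card_GL_field]
  simp [Fin.prod_univ_succ, ZMod.card]

/-- No automorphisms of order 7. -/
theorem not_seven {K : Type*} [CommGroup K] {p m : ℕ} (hp : p.Prime) (hpow : ∀ x : K, x ^ p = 1)
    (hc : Nat.card K = p ^ m) (h : (p = 3 ∧ m ≤ 5) ∨ (p = 5 ∧ m ≤ 2) ∨ (p = 17 ∧ m ≤ 1)) :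
    ¬ 7 ∣ Nat.card (MulAut K) := by
  have : Fact p.Prime := ⟨hp⟩
  obtain ⟨e⟩ := Cfsg.Agent.Lib.ElemAbGL.mulAut_equiv_GL (V := K) p m hpow hc
  rw [Nat.card_congr e.toEquiv, Matrix.card_GL_field]
  rcases h with ⟨rfl, hm⟩ | ⟨rfl, hm⟩ | ⟨rfl, hm⟩
  · interval_cases m <;> simp [Fin.prod_univ_succ, ZMod.card]
  · interval_cases m <;> simp [Fin.prod_univ_succ, ZMod.card]
  · interval_cases m <;> simp [Fin.prod_univ_succ, ZMod.card]

/-- Sylow's theorem inside a subgroup. -/
theorem exists_conj_in {A : Type*} [Group A] [Finite A] {p : ℕ} [Fact p.Prime] {K P Q : Subgroup A}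
    (hP : ∃ T : Sylow p K, (T : Subgroup K).map K.subtype = P) (hQ : IsPGroup p Q) (hQK : Q ≤ K) :
    ∃ k ∈ K, MulAut.conj k • Q ≤ P := by
  obtain ⟨T, rfl⟩ := hP
  have hQ1 : IsPGroup p (Q.subgroupOf K) := hQ.of_equiv (subgroupOfEquivOfLe hQK).symm
  obtain ⟨R, hR⟩ := hQ1.exists_le_sylow
  obtain ⟨k, hk⟩ := MulAction.exists_smul_eq K R T
  refine ⟨k, k.2, ?_⟩
  intro x hx
  rw [mem_conj_smul] at hx
  have hxK : x ∈ K := by
    have := K.mul_mem (K.mul_mem k.2 (hQK hx)) (K.inv_mem k.2)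
    simpa [mul_assoc] using this
  have hy : (⟨(k : A)⁻¹ * x * k, hQK hx⟩ : K) ∈ (R : Subgroup K) := hR (by
    rw [mem_subgroupOf]; exact hx)
  have hz : (⟨x, hxK⟩ : K) ∈ ((k • R : Sylow p K) : Subgroup K) := by
    rw [Sylow.coe_subgroup_smul, mem_conj_smul]
    exact hy
  rw [hk] at hz
  exact ⟨⟨x, hxK⟩, hz, rfl⟩

/-- The elementary abelian subgroup `Ω₁(Z(P))`. -/
def omegaZ {A : Type*} [Group A] (P : Subgroup A) (p : ℕ) : Subgroup A where
  carrier := {x | x ∈ P ∧ (∀ y ∈ P, x * y = y * x) ∧ x ^ p = 1}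
  one_mem' := ⟨one_mem _, fun y _ => by simp, one_pow _⟩
  mul_mem' := by
    rintro x y ⟨hx, hxc, hxp⟩ ⟨hy, hyc, hyp⟩
    refine ⟨mul_mem hx hy, fun z hz => ?_, ?_⟩
    · rw [mul_assoc, hyc z hz, ← mul_assoc, hxc z hz, mul_assoc]
    · rw [(show Commute x y from hxc y hy).mul_pow, hxp, hyp, one_mul]
  inv_mem' := by
    rintro x ⟨hx, hxc, hxp⟩
    refine ⟨inv_mem hx, fun z hz => ?_, ?_⟩
    · have := (show Commute x z from hxc z hz).inv_left
      exact this
    · rw [inv_pow, hxp, inv_one]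

theorem omegaZ_ne_bot {A : Type*} [Group A] [Finite A] {P : Subgroup A} {p : ℕ} [hp : Fact p.Prime]
    (hP : IsPGroup p P) (hne : P ≠ ⊥) : omegaZ P p ≠ ⊥ := by
  intro hbot
  have hnt : Nontrivial P := (Subgroup.nontrivial_iff_ne_bot P).2 hne
  have h1 : Nontrivial (center P) := hP.center_nontrivial
  have h2 : p ∣ Nat.card (center P) := by
    obtain ⟨n, hn⟩ := IsPGroup.iff_card.1 (hP.to_subgroup (center P))
    have h3 : n ≠ 0 := by
      rintro rfl
      rw [pow_zero] at hn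
      exact absurd (Finite.one_lt_card (α := center P)) (by omega)
    rw [hn]; exact dvd_pow_self p h3
  obtain ⟨x, hx⟩ := exists_prime_orderOf_dvd_card' p h2
  have h4 : ((x : P) : A) ∈ omegaZ P p := by
    refine ⟨(x : P).2, fun y hy => ?_, ?_⟩
    · have := mem_center_iff.1 x.2 ⟨y, hy⟩
      exact (congrArg Subtype.val this).symm
    · have h5 : x ^ p = 1 := by rw [← hx]; exact pow_orderOf_eq_one x
      have h6 := congrArg (fun z : center P => ((z : P) : A)) h5
      simpa using h6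
  rw [hbot, mem_bot] at h4
  have h5 : x = 1 := Subtype.ext (Subtype.ext h4)
  rw [h5, orderOf_one] at hx
  exact hp.out.one_lt.ne hx

theorem omegaZ_conj {A : Type*} [Group A] {P : Subgroup A} {p : ℕ} {y : A}
    (hy : y ∈ normalizer (P : Set A)) {x : A} (hx : x ∈ omegaZ P p) : y * x * y⁻¹ ∈ omegaZ P p := by
  obtain ⟨h1, h2, h3⟩ := hx
  refine ⟨(mem_normalizer_iff.1 hy x).1 h1, fun z hz => ?_, ?_⟩
  · have h4 : y⁻¹ * z * y ∈ P := by
      have := (mem_normalizer_iff.1 (inv_mem hy) z).1 hz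
      rwa [inv_inv] at this
    have h5 := h2 _ h4
    calc y * x * y⁻¹ * z = y * (x * (y⁻¹ * z * y)) * y⁻¹ := by group
      _ = y * ((y⁻¹ * z * y) * x) * y⁻¹ := by rw [h5]
      _ = z * (y * x * y⁻¹) := by group
  · rw [conj_pow, h3]; simp

theorem key {V : Type*} [CommGroup V] [Finite V] (hV : Nat.card V = 256) (hsq : ∀ v : V, v * v = 1)
    (B K Tb : Subgroup (MulAut V)) (hKB : K ≤ B) (hKn : ∀ b ∈ B, ∀ k ∈ K, b * k * b⁻¹ ∈ K)
    (hKodd : ¬ 2 ∣ Nat.card K) (hTB : Tb ≤ B) (hT2 : IsPGroup 2 Tb)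
    (hfix : ∀ v v' : V, (∀ t ∈ Tb, t v = v) → (∀ t ∈ Tb, t v' = v') → v ≠ 1 → v' ≠ 1 → v = v')
    {S : Type*} [Group S] [Finite S] [IsSimpleGroup S] (ψ : B →* S) (hψ : Function.Surjective ψ)
    (hker : ∀ b : B, ψ b = 1 ↔ (b : MulAut V) ∈ K) (h7 : 7 ∣ Nat.card S) : K = ⊥ := by
  classical
  have : Fact (Nat.Prime 2) := ⟨Nat.prime_two⟩
  have : Fact (Nat.Prime 7) := ⟨by norm_num⟩
  have hcA := card_aut256 hV hsq
  have : Finite (MulAut V) := Nat.finite_of_card_ne_zero (by rw [hcA]; norm_num)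
  by_contra hK
  -- a prime divisor
  have hK1 : Nat.card K ≠ 1 := fun h => hK (Subgroup.card_eq_one.1 h)
  obtain ⟨p, hp, hpK⟩ := Nat.exists_prime_and_dvd hK1
  have : Fact p.Prime := ⟨hp⟩
  have hp2 : p ≠ 2 := by rintro rfl; exact hKodd hpK
  obtain ⟨P, hPT, hPinv⟩ := Cfsg.Agent.Lib.PGroupCoprimeAction.exists_invariant_sylow (A := Tb) (H := K)
    hT2 hKodd (fun b hb u hu => hKn b (hTB hb) u hu) p
  have hPp : IsPGroup p P := by
    obtain ⟨T, rfl⟩ := hPT
    exact T.2.map _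
  have hPK : P ≤ K := by
    obtain ⟨T, rfl⟩ := hPT
    exact map_subtype_le _
  have hPne : P ≠ ⊥ := by
    obtain ⟨T, rfl⟩ := hPT
    intro h
    rw [Subgroup.map_eq_bot_iff_of_injective _ K.subtype_injective] at h
    have h1 := T.card_eq_multiplicity
    rw [h, card_bot] at h1
    have h2 : 1 ≤ (Nat.card K).factorization p :=
      (hp.dvd_iff_one_le_factorization Nat.card_pos.ne').1 hpK
    have h3 := Nat.one_lt_pow (n := (Nat.card K).factorization p) (by omega) hp.one_lt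
    omega
  set K0 : Subgroup (MulAut V) := omegaZ P p with hK0
  have hK0ne : K0 ≠ ⊥ := omegaZ_ne_bot hPp hPne
  have hK0P : K0 ≤ P := fun x hx => hx.1
  have hK0p : IsPGroup p K0 := hPp.to_le hK0P
  obtain ⟨m, hm⟩ := IsPGroup.iff_card.1 hK0p
  have hTN : Tb ≤ normalizer (P : Set (MulAut V)) := by
    intro t ht
    rw [mem_normalizer_iff_conj]
    apply eq_of_le_of_card_le
    · rw [conj_smul_le]; exact fun x hx => hPinv t ht x hx
    · rw [card_conj_smul]
  have hNK0 : ∀ y ∈ normalizer (P : Set (MulAut V)), ∀ x ∈ K0, y * x * y⁻¹ ∈ K0 := fun y hy x hx =>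
    omegaZ_conj hy hx
  have hK0odd : Nat.Coprime 2 (Nat.card K0) := by
    rw [hm]
    exact Nat.Coprime.pow_right _ ((Nat.coprime_primes Nat.prime_two hp).2 (Ne.symm hp2))
  -- the fixed points of K0
  let C : Subgroup V :=
    { carrier := {v | ∀ a ∈ K0, a v = v}
      one_mem' := fun a _ => map_one a
      mul_mem' := fun {x y} hx hy a ha => by rw [map_mul, hx a ha, hy a ha]
      inv_mem' := fun {x} hx a ha => by rw [map_inv, hx a ha] }
  have hCinv : ∀ t ∈ Tb, ∀ x ∈ C, t x ∈ C := by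
    intro t ht x hx a ha
    have h1 : t⁻¹ * a * t⁻¹⁻¹ ∈ K0 := hNK0 _ (inv_mem (hTN ht)) a ha
    have h2 := hx _ h1
    have h3 : a (t x) = t ((t⁻¹ * a * t⁻¹⁻¹) x) := by
      simp [MulAut.mul_apply]
    rw [h3, h2]
  have hC : C = ⊥ := by
    by_contra hCne
    obtain ⟨c, hc, hc1, hct⟩ := exists_fix Tb hT2 C (n := 8) (by rw [hV]; norm_num) hCinv hCne
    letI : Fintype K0 := Fintype.ofFinite _
    let e : V →* V := Cfsg.Agent.Lib.CoprimeAbelian.norm (A := K0) K0.subtype
    have he : ∀ v, e v = ∏ a : K0, (a : MulAut V) v := fun v => rfl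
    have hEinv : ∀ t ∈ Tb, ∀ x ∈ e.ker, t x ∈ e.ker := by
      intro t ht x hx
      rw [MonoidHom.mem_ker] at hx ⊢
      have h1 : e (t x) = t (e x) := by
        rw [he, he, map_prod]
        have htN := hTN ht
        refine Fintype.prod_equiv
          { toFun := fun a : K0 => (⟨t⁻¹ * a * t⁻¹⁻¹, hNK0 _ (inv_mem htN) a a.2⟩ : K0)
            invFun := fun a : K0 => (⟨t * a * t⁻¹, hNK0 _ htN a a.2⟩ : K0)
            left_inv := fun a => Subtype.ext (by simp [mul_assoc])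
            right_inv := fun a => Subtype.ext (by simp [mul_assoc]) } _ _ ?_
        intro a
        show (a : MulAut V) (t x) = t ((t⁻¹ * (a : MulAut V) * t⁻¹⁻¹) x)
        simp [MulAut.mul_apply]
      rw [h1, hx, map_one]
    have hEne : e.ker ≠ ⊥ := by
      intro hE
      have hinj : Function.Injective e := (MonoidHom.ker_eq_bot_iff e).1 hE
      have hsurj : Function.Surjective e := Finite.injective_iff_surjective.1 hinj
      apply hK0ne
      rw [eq_bot_iff]
      intro a ha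
      rw [mem_bot]
      ext v
      obtain ⟨w, rfl⟩ := hsurj v
      exact Cfsg.Agent.Lib.CoprimeAbelian.norm_fixed (A := K0) K0.subtype w ⟨a, ha⟩
    obtain ⟨d, hd, hd1, hdt⟩ := exists_fix Tb hT2 e.ker (n := 8) (by rw [hV]; norm_num) hEinv hEne
    have hcd := hfix c d hct hdt hc1 hd1
    have h1 : e c = c ^ Fintype.card K0 :=
      Cfsg.Agent.Lib.CoprimeAbelian.norm_of_fixed (A := K0) K0.subtype c (fun a => hc a a.2)
    rw [← hcd, MonoidHom.mem_ker, h1, ← Nat.card_eq_fintype_card] at hd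
    -- c has order 2
    have h2 : orderOf c ∣ 2 := orderOf_dvd_of_pow_eq_one (by rw [sq]; exact hsq c)
    have h3 : orderOf c ∣ Nat.card K0 := orderOf_dvd_of_pow_eq_one hd
    have h4 : orderOf c ∣ 1 := by
      rw [← hK0odd]; exact Nat.dvd_gcd h2 h3
    exact hc1 (orderOf_eq_one_iff.1 (Nat.dvd_one.1 h4))
  have hCtriv : ∀ v : V, (∀ a ∈ K0, a v = v) → v = 1 := by
    intro v hv
    have : v ∈ C := hv
    rw [hC] at this
    exact mem_bot.1 this
  -- p divides 255
  have hp255 : p ∣ 255 := by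
    have h1 := hK0p.card_modEq_card_fixedPoints V
    have h2 : MulAction.fixedPoints K0 V = {1} := by
      ext v
      rw [MulAction.mem_fixedPoints, Set.mem_singleton_iff]
      constructor
      · intro hv
        exact hCtriv v (fun a ha => hv ⟨a, ha⟩)
      · rintro rfl a
        exact map_one (a : MulAut V)
    rw [h2, hV] at h1
    have h3 : Nat.card ({1} : Set V) = 1 := by simp
    rw [h3] at h1
    have h4 := (Nat.modEq_iff_dvd' (by norm_num : 1 ≤ 256)).1 h1.symm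
    simpa using h4
  have hK0dvd : p ^ m ∣ 5348063769211699200 := by
    rw [← hm, ← hcA]; exact K0.card_subgroup_dvd_card
  have hcases : (p = 3 ∧ m ≤ 5) ∨ (p = 5 ∧ m ≤ 2) ∨ (p = 17 ∧ m ≤ 1) := by
    have h1 : p ∈ ({3, 5, 17} : Finset ℕ) := by
      have h2 : p ∈ (255 : ℕ).primeFactors := Nat.mem_primeFactors.2 ⟨hp, hp255, by norm_num⟩
      have h3 : (255 : ℕ).primeFactors = {3, 5, 17} := by
        have e1 : (255 : ℕ) = 3 * (5 * 17) := by norm_num
        rw [e1, Nat.primeFactors_mul (by norm_num) (by norm_num), Nat.primeFactors_mul (by norm_num)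
          (by norm_num), Nat.Prime.primeFactors (by norm_num), Nat.Prime.primeFactors (by norm_num),
          Nat.Prime.primeFactors (by norm_num)]
        rfl
      rw [← h3]; exact h2
    simp only [Finset.mem_insert, Finset.mem_singleton] at h1
    rcases h1 with rfl | rfl | rfl
    · left
      refine ⟨rfl, ?_⟩
      by_contra hcon
      have h4 : 3 ^ 6 ∣ 5348063769211699200 := (pow_dvd_pow 3 (by omega)).trans hK0dvd
      norm_num at h4
    · right; left
      refine ⟨rfl, ?_⟩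
      by_contra hcon
      have h4 : 5 ^ 3 ∣ 5348063769211699200 := (pow_dvd_pow 5 (by omega)).trans hK0dvd
      norm_num at h4
    · right; right
      refine ⟨rfl, ?_⟩
      by_contra hcon
      have h4 : 17 ^ 2 ∣ 5348063769211699200 := (pow_dvd_pow 17 (by omega)).trans hK0dvd
      norm_num at h4
  have hn7 : ¬ 7 ∣ Nat.card (MulAut K0) := by
    letI : CommGroup K0 := { (inferInstance : Group K0) with
      mul_comm := fun a b => Subtype.ext (a.2.2.1 b (hK0P b.2)) }
    exact not_seven (K := K0) hp (fun x => Subtype.ext x.2.2.2) hm hcases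
  -- the group Y
  set Y : Subgroup (MulAut V) := B ⊓ normalizer (P : Set (MulAut V)) with hY
  have hYK0 : Y ≤ normalizer (K0 : Set (MulAut V)) := by
    intro y hy
    rw [mem_normalizer_iff_conj]
    apply eq_of_le_of_card_le
    · rw [conj_smul_le]; exact fun x hx => hNK0 y hy.2 x hx
    · rw [card_conj_smul]
  let θ : Y →* MulAut K0 := (K0.normalizerMonoidHom).comp (inclusion hYK0)
  have hθ : ∀ y : Y, θ y = 1 ↔ ∀ a ∈ K0, (y : MulAut V) * a = a * y := by
    intro y
    constructor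
    · intro h a ha
      have h1 := congrArg (fun f : MulAut K0 => ((f ⟨a, ha⟩ : K0) : MulAut V)) h
      have h2 : (y : MulAut V) * a * (y : MulAut V)⁻¹ = a := h1
      calc (y : MulAut V) * a = (y : MulAut V) * a * (y : MulAut V)⁻¹ * y := by group
        _ = a * y := by rw [h2]
    · intro h
      ext a
      show (((y : MulAut V) * a * (y : MulAut V)⁻¹ : MulAut V)) _ = _
      rw [h a a.2]
      simp
  let ψY : Y →* S := ψ.comp (inclusion inf_le_left)
  have hψY : Function.Surjective ψY := by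
    intro s
    obtain ⟨b, hb⟩ := hψ s
    obtain ⟨k, hk, hkP⟩ := exists_conj_in hPT (Q := MulAut.conj (b : MulAut V) • P)
      (isPGroup_conj_smul hPp) (by rw [conj_smul_le]; exact fun x hx => hKn b b.2 x (hPK hx))
    have h1 : MulAut.conj (k * (b : MulAut V)) • P = P := by
      rw [conj_mul_smul]
      exact eq_of_le_of_card_le hkP (by rw [card_conj_smul, card_conj_smul])
    refine ⟨⟨k * b, mem_inf.2 ⟨mul_mem (hKB hk) b.2, mem_normalizer_iff_conj.2 h1⟩⟩, ?_⟩
    have e : (inclusion (inf_le_left : Y ≤ B)) ⟨k * b, mem_inf.2 ⟨mul_mem (hKB hk) b.2,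
        mem_normalizer_iff_conj.2 h1⟩⟩ = (⟨k, hKB hk⟩ : B) * b := rfl
    show ψ _ = s
    rw [e, map_mul, (hker ⟨k, hKB hk⟩).2 hk, one_mul, hb]
  have hkerne : θ.ker.map ψY ≠ ⊥ := by
    intro hbot
    obtain ⟨s, hs⟩ := exists_prime_orderOf_dvd_card' 7 h7
    obtain ⟨y, hy⟩ := hψY s
    have hy0 : 0 < orderOf y := orderOf_pos y
    obtain ⟨a, r, hr, har⟩ := Nat.exists_eq_pow_mul_and_not_dvd hy0.ne' 7 (by norm_num)
    have h1 : (θ (y ^ r)) = 1 := by
      have h2 : orderOf (θ (y ^ r)) ∣ 7 ^ a := by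
        apply orderOf_dvd_of_pow_eq_one
        rw [← map_pow, ← pow_mul, mul_comm r, ← har, pow_orderOf_eq_one, map_one]
      obtain ⟨i, -, hi⟩ := (Nat.dvd_prime_pow (by norm_num)).1 h2
      have h3 : orderOf (θ (y ^ r)) ∣ Nat.card (MulAut K0) := orderOf_dvd_natCard _
      have h4 : i = 0 := by
        by_contra hi0
        rw [hi] at h3
        exact hn7 ((dvd_pow_self 7 hi0).trans h3)
      rw [h4, pow_zero] at hi
      exact orderOf_eq_one_iff.1 hi
    have h2 : ψY (y ^ r) ∈ θ.ker.map ψY := ⟨y ^ r, h1, rfl⟩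
    rw [hbot, mem_bot, map_pow, hy] at h2
    exact hr (by rw [← hs]; exact orderOf_dvd_of_pow_eq_one h2)
  have hkertop : θ.ker.map ψY = ⊤ := by
    have hn : (θ.ker.map ψY).Normal := Subgroup.Normal.map inferInstance ψY hψY
    exact (IsSimpleGroup.eq_bot_or_eq_top_of_normal _ hn).resolve_left hkerne
  -- Tb centralizes K0
  have hTc : ∀ t ∈ Tb, ∀ a ∈ K0, t * a = a * t := by
    intro t ht
    have htY : t ∈ Y := mem_inf.2 ⟨hTB ht, hTN ht⟩
    have h1 : ψY ⟨t, htY⟩ ∈ θ.ker.map ψY := by rw [hkertop]; trivial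
    obtain ⟨x, hx, hxt⟩ := h1
    have hx' : θ x = 1 := hx
    have h2 : ψY (x⁻¹ * ⟨t, htY⟩) = 1 := by rw [map_mul, map_inv, hxt, inv_mul_cancel]
    have h3 : ((x⁻¹ * ⟨t, htY⟩ : Y) : MulAut V) ∈ K := (hker _).1 h2
    have h4 : θ ⟨t, htY⟩ = θ (x⁻¹ * ⟨t, htY⟩) := by
      rw [map_mul, map_inv, hx', inv_one, one_mul]
    have h5 : orderOf (θ ⟨t, htY⟩) ∣ Nat.card K := by
      rw [h4]
      refine (orderOf_map_dvd θ _).trans ?_
      have h6 : orderOf (x⁻¹ * ⟨t, htY⟩ : Y) = orderOf (⟨_, h3⟩ : K) := by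
        rw [← Subgroup.orderOf_coe, ← Subgroup.orderOf_coe]
      rw [h6]; exact orderOf_dvd_natCard _
    obtain ⟨n, hn⟩ := IsPGroup.iff_card.1 hT2
    have h6 : orderOf (θ ⟨t, htY⟩) ∣ 2 ^ n := by
      refine (orderOf_map_dvd θ _).trans ?_
      have h7 : orderOf (⟨t, htY⟩ : Y) = orderOf (⟨t, ht⟩ : Tb) := by
        rw [← Subgroup.orderOf_coe, ← Subgroup.orderOf_coe]
      rw [h7, ← hn]; exact orderOf_dvd_natCard _
    have h7 : Nat.Coprime (2 ^ n) (Nat.card K) :=
      Nat.Coprime.pow_left _ ((Nat.Prime.coprime_iff_not_dvd Nat.prime_two).2 hKodd)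
    have h8 : orderOf (θ ⟨t, htY⟩) ∣ 1 := by rw [← h7]; exact Nat.dvd_gcd h6 h5
    have h9 := orderOf_eq_one_iff.1 (Nat.dvd_one.1 h8)
    exact (hθ _).1 h9
  -- the fixed element of Tb
  have hVne : (⊤ : Subgroup V) ≠ ⊥ := by
    intro h
    have h1 : Nat.card (⊤ : Subgroup V) = 256 := by rw [card_top, hV]
    rw [h, card_bot] at h1
    omega
  obtain ⟨c, -, hc1, hct⟩ := exists_fix Tb hT2 ⊤ (n := 8) (by rw [hV]; norm_num)
    (fun _ _ _ _ => trivial) hVne
  apply hc1
  apply hCtriv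
  intro a ha
  refine hfix (a c) c ?_ hct ?_ hc1
  · intro t ht
    have h1 := congrArg (fun f : MulAut V => f c) (hTc t ht a ha)
    simp only [MulAut.mul_apply] at h1
    rw [h1, hct t ht]
  · intro h
    apply hc1
    have := a.injective (h.trans (map_one a).symm)
    exact this

end Cfsg.Agent.H309.Ru
end

-- part: H309/Ru/ActV
section
/-!
# S3204: `N_C(W)` acts trivially on `W / Z` (helper309)
-/

set_option autoImplicit false

namespace Cfsg.Agent.H309.Ru

open Subgroup Pointwise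
open scoped commutatorElement

section odd

variable {G : Type*} [Group G] [Finite G]

/-- `S ∩ C` has index prime to `p` in `C` if the Sylow subgroup `S` normalizes `C`. -/
theorem exists_card_eq {p : ℕ} [Fact p.Prime] (S : Sylow p G) (C : Subgroup G)
    (hSC : (S : Subgroup G) ≤ normalizer (C : Set G)) :
    ∃ k, Nat.card C = Nat.card ((S : Subgroup G) ⊓ C : Subgroup G) * k ∧ ¬ p ∣ k := by
  have h1 := card_sup_mul hSC
  obtain ⟨k, hk⟩ := card_dvd_of_le (le_sup_left : (S : Subgroup G) ≤ (S : Subgroup G) ⊔ C)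
  have hSpos : 0 < Nat.card S := Nat.card_pos
  have h2 : Nat.card C = Nat.card ((S : Subgroup G) ⊓ C : Subgroup G) * k := by
    rw [hk] at h1
    have h3 : Nat.card S * (k * Nat.card ((S : Subgroup G) ⊓ C : Subgroup G)) = Nat.card S * Nat.card C := by
      rw [← mul_assoc]; exact h1
    rw [mul_comm, ← Nat.eq_of_mul_eq_mul_left hSpos h3]
  have h4 : k ∣ (S : Subgroup G).index := by
    have h5 := ((S : Subgroup G) ⊔ C).card_mul_index
    rw [← (S : Subgroup G).card_mul_index, hk, mul_assoc] at h5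
    exact ⟨_, (Nat.eq_of_mul_eq_mul_left hSpos h5).symm⟩
  exact ⟨k, h2, fun h => S.not_dvd_index (h.trans h4)⟩

end odd

variable {G : Type*} [Group G]

variable {T T1 T2 W Z4 Z Z2 Z1 : Subgroup G}

namespace Hyp

theorem Zn (h : Hyp T T1 T2 W Z4 Z Z2 Z1) : (Z.subgroupOf W).Normal := by
  constructor
  intro n hn w
  rw [mem_subgroupOf] at hn ⊢
  have := h.cen _ hn _ w.2
  show (w : G) * n * (w : G)⁻¹ ∈ Z
  rw [this, mul_inv_cancel_right]; exact hn

/-- Elements of `W` fixed by `T` modulo `Z` lie in `Z4`. -/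
theorem fixW [Finite G] (h : Hyp T T1 T2 W Z4 Z Z2 Z1) {w : G} (hw : w ∈ W) (hc : ∀ t ∈ T, ⁅t, w⁆ ∈ Z) :
    w ∈ Z4 := by
  by_cases hwZ : w ∈ Z
  · exact h.Z_le hwZ
  let K : Subgroup G :=
    { carrier := {x | x ∈ W ∧ (x ∈ Z ∨ w⁻¹ * x ∈ Z)}
      one_mem' := ⟨one_mem _, Or.inl (one_mem _)⟩
      mul_mem' := by
        rintro x y ⟨hx, hx'⟩ ⟨hy, hy'⟩
        refine ⟨mul_mem hx hy, ?_⟩
        rcases hx' with hx' | hx' <;> rcases hy' with hy' | hy'
        · exact Or.inl (mul_mem hx' hy')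
        · right
          have e : w⁻¹ * (x * y) = x * (w⁻¹ * y) := by
            rw [← mul_assoc, h.cen x hx' _ (inv_mem hw), mul_assoc]
          rw [e]; exact mul_mem hx' hy'
        · right
          rw [← mul_assoc]; exact mul_mem hx' hy'
        · left
          have e : x * y = w * (w⁻¹ * x) * (w * (w⁻¹ * y)) := by group
          have e2 : w * (w⁻¹ * x) * (w * (w⁻¹ * y)) = (w * w) * (w⁻¹ * x) * (w⁻¹ * y) := by
            calc w * (w⁻¹ * x) * (w * (w⁻¹ * y)) = w * ((w⁻¹ * x) * w) * (w⁻¹ * y) := by group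
              _ = w * (w * (w⁻¹ * x)) * (w⁻¹ * y) := by rw [h.cen _ hx' w hw]
              _ = _ := by group
          rw [e, e2]
          exact mul_mem (mul_mem (h.sqW w hw) hx') hy'
      inv_mem' := by
        rintro x ⟨hx, hx'⟩
        refine ⟨inv_mem hx, ?_⟩
        rcases hx' with hx' | hx'
        · exact Or.inl (inv_mem hx')
        · right
          have e : w⁻¹ * x⁻¹ = (w * w)⁻¹ * (x * (w⁻¹ * x)⁻¹ * x⁻¹) := by group
          rw [e]
          refine mul_mem (inv_mem (h.sqW w hw)) ?_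
          exact h.n3 (h.WT hx) (inv_mem hx') }
  have h4 : Z4 ≤ K := by
    apply h.norm4 K (fun x hx => hx.1)
    · rintro t ht x ⟨hx, hx'⟩
      refine ⟨h.nW t ht x hx, ?_⟩
      rcases hx' with hx' | hx'
      · exact Or.inl (h.n3 ht hx')
      · right
        have h5 : t * (w⁻¹ * x) * t⁻¹ ∈ Z := h.n3 ht hx'
        have h6 : w⁻¹ * ⁅t, w⁆ * w⁻¹⁻¹ ∈ Z := h.n3 (inv_mem (h.WT hw)) (hc t ht)
        have e : w⁻¹ * (t * x * t⁻¹) = (w⁻¹ * ⁅t, w⁆ * w⁻¹⁻¹) * (t * (w⁻¹ * x) * t⁻¹) := by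
          simp only [commutatorElement_def]; group
        rw [e]; exact mul_mem h6 h5
    · intro hle
      exact hwZ (hle (show w ∈ K from ⟨hw, Or.inr (by rw [inv_mul_cancel]; exact one_mem _)⟩))
  have h5 : ∃ y ∈ Z4, y ∉ Z := by
    by_contra hcon
    push Not at hcon
    have h6 := Nat.le_of_dvd Nat.card_pos (card_dvd_of_le (show Z4 ≤ Z from hcon))
    rw [h.cZ, h.cZ4] at h6
    omega
  obtain ⟨y, hy, hyZ⟩ := h5
  have h6 : w⁻¹ * y ∈ Z := (h4 hy).2.resolve_left hyZ
  have e : w = y * (w⁻¹ * y)⁻¹ := by group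
  rw [e]
  exact mul_mem hy (inv_mem (h.Z_le h6))

/-- An element acting trivially on `W / Z` centralizes `Z`. -/
theorem cent_of_triv (h : Hyp T T1 T2 W Z4 Z Z2 Z1) {n : G} (hn : ∀ w ∈ W, ⁅n, w⁆ ∈ Z) :
    n ∈ centralizer (Z : Set G) := by
  have h1 : Z ≤ centralizer ({n} : Set G) := by
    apply h.C W le_rfl (by omega)
    intro x hx y hy
    rw [mem_centralizer_iff]
    intro m hm
    rw [Set.mem_singleton_iff] at hm
    subst hm
    have e1 : m * ⁅x, y⁆ * m⁻¹ = ⁅⁅m, x⁆ * x, ⁅m, y⁆ * y⁆ := by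
      rw [← conj_eq m x, ← conj_eq m y]
      simp only [commutatorElement_def]; group
    have hzx := hn x hx
    have hzy := hn y hy
    have e2 : ∀ a ∈ Z, ∀ b ∈ Z, ⁅a * x, b * y⁆ = ⁅x, y⁆ := by
      intro a ha b hb
      have f1 : ⁅a * x, b * y⁆ = a * ⁅x, b * y⁆ * a⁻¹ * ⁅a, b * y⁆ := by
        simp only [commutatorElement_def]; group
      have f2 : ⁅a, b * y⁆ = 1 := comm_eq_one (h.cen a ha _ (mul_mem (h.ZW hb) hy)).symm
      have f3 : ⁅x, b * y⁆ = ⁅x, b⁆ * (b * ⁅x, y⁆ * b⁻¹) := by simp only [commutatorElement_def]; group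
      have f4 : ⁅x, b⁆ = 1 := comm_eq_one (h.cen b hb x hx)
      have hxy := h.comW x hx y hy
      have f5 : b * ⁅x, y⁆ * b⁻¹ = ⁅x, y⁆ := conj_of_mul_comm (h.commZ hb hxy)
      have f6 : a * ⁅x, y⁆ * a⁻¹ = ⁅x, y⁆ := conj_of_mul_comm (h.commZ ha hxy)
      rw [f1, f2, f3, f4, f5, one_mul, f6, mul_one]
    rw [e2 _ hzx _ hzy] at e1
    calc m * ⁅x, y⁆ = m * ⁅x, y⁆ * m⁻¹ * m := by group
      _ = ⁅x, y⁆ * m := by rw [e1]
  rw [mem_centralizer_iff]
  intro z hz
  have := mem_centralizer_iff.1 (h1 hz) n rfl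
  exact this.symm

end Hyp

/-- The action of `N(W)` on `W / Z`. -/
noncomputable def rho [(Z.subgroupOf W).Normal]
    (hNZ : normalizer (W : Set G) ≤ normalizer (Z : Set G)) :
    normalizer (W : Set G) →* MulAut (W ⧸ Z.subgroupOf W) where
  toFun n := QuotientGroup.congr (Z.subgroupOf W) (Z.subgroupOf W) (W.normalizerMonoidHom n) (by
    ext x
    constructor
    · rintro ⟨y, hy, rfl⟩
      exact (mem_normalizer_iff.1 (hNZ n.2) _).1 hy
    · intro hx
      refine ⟨(W.normalizerMonoidHom n).symm x, ?_, by simp⟩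
      have e : (((W.normalizerMonoidHom n).symm x : W) : G) = (n : G)⁻¹ * x * n := by
        have h1 : W.normalizerMonoidHom n ⟨(n : G)⁻¹ * x * n, by
            have := (mem_normalizer_iff.1 (inv_mem n.2) (x : G)).1 x.2
            rwa [inv_inv] at this⟩ = x := by
          apply Subtype.ext
          show (n : G) * ((n : G)⁻¹ * x * n) * (n : G)⁻¹ = x
          group
        rw [MulEquiv.symm_apply_eq .. |>.2 h1.symm]
      show ((W.normalizerMonoidHom n).symm x : W) ∈ Z.subgroupOf W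
      rw [mem_subgroupOf, e]
      have := (mem_normalizer_iff.1 (hNZ (inv_mem n.2)) (x : G)).1 hx
      rwa [inv_inv] at this)
  map_one' := by
    ext x
    obtain ⟨w, rfl⟩ := QuotientGroup.mk_surjective x
    show (QuotientGroup.mk _ : W ⧸ Z.subgroupOf W) = QuotientGroup.mk w
    congr 1
    apply Subtype.ext
    show (1 : G) * w * (1 : G)⁻¹ = w
    group
  map_mul' := by
    intro a b
    ext x
    obtain ⟨w, rfl⟩ := QuotientGroup.mk_surjective x
    show (QuotientGroup.mk _ : W ⧸ Z.subgroupOf W) = QuotientGroup.mk _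
    congr 1
    apply Subtype.ext
    show ((a : G) * b) * w * ((a : G) * b)⁻¹ = a * (b * w * (b : G)⁻¹) * (a : G)⁻¹
    group

end Cfsg.Agent.H309.Ru
end

-- part: H309/Ru/ActW
section
/-!
# S3204: `N_C(W)` acts trivially on `W / Z`, main step (helper309)
-/

set_option autoImplicit false

namespace Cfsg.Agent.H309.Ru

open Subgroup Pointwise
open scoped commutatorElement

variable {G : Type*} [Group G]

theorem normalizer_le_cent {Z : Subgroup G} :
    ∀ x ∈ normalizer (Z : Set G), ∀ c ∈ centralizer (Z : Set G), x * c * x⁻¹ ∈ centralizer (Z : Set G) := by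
  intro x hx c hc
  rw [mem_centralizer_iff] at hc ⊢
  intro z hz
  have h2 := hc _ (conj_of_mem_normalizer' hx hz)
  calc z * (x * c * x⁻¹) = x * ((x⁻¹ * z * x) * c) * x⁻¹ := by group
    _ = x * (c * (x⁻¹ * z * x)) * x⁻¹ := by rw [h2]
    _ = (x * c * x⁻¹) * z := by group

variable [Finite G] {T T1 T2 W Z4 Z Z2 Z1 : Subgroup G}

theorem NNC {Z : Subgroup G} : normalizer (Z : Set G) ≤ normalizer ((centralizer (Z : Set G) : Subgroup G) : Set G) :=
  fun x hx => mem_normalizer_of_conj (normalizer_le_cent x hx)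

theorem NWZ (h : Hyp T T1 T2 W Z4 Z Z2 Z1) : normalizer (W : Set G) ≤ normalizer (Z : Set G) := fun n hn =>
  mem_normalizer_iff_conj.2 (h.conjZ_of_conjW (mem_normalizer_iff_conj.1 hn))

theorem WC (h : Hyp T T1 T2 W Z4 Z Z2 Z1) : W ≤ centralizer (Z : Set G) := fun w hw =>
  mem_centralizer_iff.2 (fun z hz => (h.cen z hz w hw).symm)

theorem frattiniC (h : Hyp T T1 T2 W Z4 Z Z2 Z1) (S : Sylow 2 G) (hS : (S : Subgroup G) = T) :
    ∀ m ∈ normalizer (Z : Set G), ∃ c ∈ centralizer (Z : Set G), c * m ∈ normalizer (W : Set G) := by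
  have : Fact (Nat.Prime 2) := ⟨Nat.prime_two⟩
  intro m hm
  have hSC : (S : Subgroup G) ⊓ centralizer (Z : Set G) = W := by rw [hS]; exact cent_inf h
  obtain ⟨c, hc, e⟩ := exists_conj_eq_inf S (centralizer (Z : Set G)) (by rw [hS]; exact h.TNZ.trans NNC)
    (MulAut.conj m • W) (isPGroup_conj_smul h.pW) (by
      rw [conj_smul_le]
      exact fun w hw => normalizer_le_cent m hm w (WC h hw)) (by rw [hSC, card_conj_smul])
  refine ⟨c, hc, ?_⟩
  rw [mem_normalizer_iff_conj, conj_mul_smul, e, hSC]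

theorem rho_eq_one_iff (h : Hyp T T1 T2 W Z4 Z Z2 Z1) [(Z.subgroupOf W).Normal]
    (hNZ : normalizer (W : Set G) ≤ normalizer (Z : Set G)) (n : normalizer (W : Set G)) :
    rho hNZ n = 1 ↔ ∀ w ∈ W, ⁅(n : G), w⁆ ∈ Z := by
  have key : ∀ (w : G) (hw : w ∈ W), (rho hNZ n (QuotientGroup.mk (⟨w, hw⟩ : W)) =
      (QuotientGroup.mk (⟨w, hw⟩ : W) : W ⧸ Z.subgroupOf W)) ↔ ⁅(n : G), w⁆ ∈ Z := by
    intro w hw
    have h1 : rho hNZ n (QuotientGroup.mk (⟨w, hw⟩ : W)) =
      (QuotientGroup.mk (⟨(n : G) * w * (n : G)⁻¹, conj_of_mem_normalizer n.2 hw⟩ : W) :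
        W ⧸ Z.subgroupOf W) := rfl
    rw [h1, QuotientGroup.eq, mem_subgroupOf]
    show ((n : G) * w * (n : G)⁻¹)⁻¹ * w ∈ Z ↔ _
    have e : ((n : G) * w * (n : G)⁻¹)⁻¹ * w = w⁻¹ * ⁅(n : G), w⁆⁻¹ * w := by
      rw [commutatorElement_def]; group
    rw [e]
    constructor
    · intro h2
      have h3 := h.n3 (h.WT hw) h2
      have e2 : w * (w⁻¹ * ⁅(n : G), w⁆⁻¹ * w) * w⁻¹ = ⁅(n : G), w⁆⁻¹ := by group
      rw [e2] at h3
      exact inv_mem_iff.1 h3
    · intro h2
      have := h.n3 (inv_mem (h.WT hw)) (inv_mem h2)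
      rwa [inv_inv] at this
  constructor
  · intro h1 w hw
    rw [← key w hw, h1]; rfl
  · intro h1
    ext x
    obtain ⟨⟨w, hw⟩, rfl⟩ := QuotientGroup.mk_surjective x
    exact (key w hw).2 (h1 w hw)

theorem NC_triv (h : Hyp T T1 T2 W Z4 Z Z2 Z1) (S : Sylow 2 G) (hS : (S : Subgroup G) = T)
    (hidx : ∀ H : Subgroup G, H.index ≠ 2) :
    ∀ x ∈ normalizer (W : Set G), x ∈ centralizer (Z : Set G) → ∀ w ∈ W, ⁅x, w⁆ ∈ Z := by
  classical
  have : Fact (Nat.Prime 2) := ⟨Nat.prime_two⟩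
  have hZn := h.Zn
  have hNZ := NWZ h
  have hOct : Cfsg.Agent.StdL2.G23Aut.Oct Z := ⟨h.cZ, h.sqZ⟩
  have := hOct.finite_aut
  have hsimp := hOct.simple_aut
  let icg : CommGroup (W ⧸ Z.subgroupOf W) :=
    { (inferInstance : Group (W ⧸ Z.subgroupOf W)) with
      mul_comm := by
        intro a b
        obtain ⟨x, rfl⟩ := QuotientGroup.mk_surjective a
        obtain ⟨y, rfl⟩ := QuotientGroup.mk_surjective b
        show (QuotientGroup.mk (x * y) : W ⧸ Z.subgroupOf W) = QuotientGroup.mk (y * x)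
        rw [QuotientGroup.eq, mem_subgroupOf]
        have h1 := h.comW _ (inv_mem y.2) _ (inv_mem x.2)
        rw [commutatorElement_def, inv_inv, inv_inv] at h1
        show (((x : G) * y)⁻¹ * (y * x)) ∈ Z
        have e : ((x : G) * y)⁻¹ * ((y : G) * x) = (y : G)⁻¹ * (x : G)⁻¹ * y * x := by group
        rw [e]; exact h1 }
  let ρ : normalizer (W : Set G) →* MulAut (W ⧸ Z.subgroupOf W) := rho hNZ
  have hρ : ∀ n, ρ n = 1 ↔ ∀ w ∈ W, ⁅(n : G), w⁆ ∈ Z := fun n => rho_eq_one_iff h hNZ n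
  let g : normalizer (W : Set G) →* MulAut Z := Z.normalizerMonoidHom.comp (inclusion hNZ)
  have hg : ∀ n, g n = 1 ↔ (n : G) ∈ centralizer (Z : Set G) := by
    intro n
    rw [mem_centralizer_iff]
    constructor
    · intro h1 z hz
      have h2 := congrArg (fun f : MulAut Z => ((f ⟨z, hz⟩ : Z) : G)) h1
      have h3 : (n : G) * z * (n : G)⁻¹ = z := h2
      calc z * (n : G) = ((n : G) * z * (n : G)⁻¹) * n := by rw [h3]
        _ = n * z := by group
    · intro h1
      ext z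
      show (n : G) * z * (n : G)⁻¹ = z
      rw [← h1 z z.2]; group
  have hgsurj : Function.Surjective g := by
    intro φ
    have h1 : φ ∈ Cfsg.Agent.StdL2.G23Aut.img (normalizer (Z : Set G)) Z := by
      rw [full_aut h S hS hidx]; trivial
    rw [Cfsg.Agent.StdL2.G23Aut.mem_img] at h1
    obtain ⟨m, hm, -, e⟩ := h1
    obtain ⟨c, hc, hcm⟩ := frattiniC h S hS m hm
    refine ⟨⟨c * m, hcm⟩, ?_⟩
    ext z
    show (c * m) * z * (c * m)⁻¹ = φ z
    rw [← e z]
    have h2 := mem_centralizer_iff.1 hc _ (conj_of_mem_normalizer hm z.2)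
    calc (c * m) * z * (c * m)⁻¹ = (c * (m * z * m⁻¹)) * c⁻¹ := by group
      _ = m * z * m⁻¹ := by rw [← h2]; group
  have hkk : ∀ n, ρ n = 1 → g n = 1 := fun n hn => (hg n).2 (h.cent_of_triv ((hρ n).1 hn))
  let ψ : ρ.range →* MulAut Z := (QuotientGroup.lift ρ.ker g (fun n hn => hkk n hn)).comp
    (QuotientGroup.quotientKerEquivRange ρ).symm.toMonoidHom
  have hψv : ∀ n, ψ ⟨ρ n, ⟨n, rfl⟩⟩ = g n := by
    intro n
    have h1 : (QuotientGroup.quotientKerEquivRange ρ).symm ⟨ρ n, ⟨n, rfl⟩⟩ = QuotientGroup.mk n := by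
      rw [MulEquiv.symm_apply_eq]; rfl
    show (QuotientGroup.lift ρ.ker g (fun n hn => hkk n hn))
      ((QuotientGroup.quotientKerEquivRange ρ).symm ⟨ρ n, ⟨n, rfl⟩⟩) = g n
    rw [h1]; rfl
  have hV : Nat.card (W ⧸ Z.subgroupOf W) = 256 := by
    have h1 := (Z.subgroupOf W).card_mul_index
    rw [Nat.card_congr (subgroupOfEquivOfLe h.ZW).toEquiv, h.cZ, h.cW] at h1
    have h2 : (Z.subgroupOf W).index = Nat.card (W ⧸ Z.subgroupOf W) := rfl
    omega
  -- the odd index
  obtain ⟨k, hk, hk2⟩ := exists_card_eq S (normalizer (W : Set G) ⊓ centralizer (Z : Set G)) (by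
    rw [hS]
    intro t ht
    apply mem_normalizer_of_conj
    rintro x ⟨hx, hx'⟩
    exact mem_inf.2 ⟨mul_mem (mul_mem (h.TNW ht) hx) (inv_mem (h.TNW ht)),
      normalizer_le_cent t (h.TNZ ht) x hx'⟩)
  have hSW : (S : Subgroup G) ⊓ (normalizer (W : Set G) ⊓ centralizer (Z : Set G)) = W := by
    rw [hS]
    apply le_antisymm
    · rw [← cent_inf h]; exact le_inf inf_le_left (inf_le_right.trans inf_le_right)
    · exact le_inf h.WT (le_inf (h.WT.trans h.TNW) (WC h))
  rw [hSW] at hk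
  set K : Subgroup (MulAut (W ⧸ Z.subgroupOf W)) :=
    ((centralizer (Z : Set G)).subgroupOf (normalizer (W : Set G))).map ρ with hKdef
  have hKodd : ¬ 2 ∣ Nat.card K := by
    let f : (normalizer (W : Set G) ⊓ centralizer (Z : Set G) : Subgroup G) →*
        MulAut (W ⧸ Z.subgroupOf W) := ρ.comp (inclusion inf_le_left)
    have hf : f.range = K := by
      ext x
      constructor
      · rintro ⟨y, rfl⟩
        exact ⟨_, mem_subgroupOf.2 y.2.2, rfl⟩
      · rintro ⟨y, hy, rfl⟩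
        exact ⟨⟨y, ⟨y.2, hy⟩⟩, rfl⟩
    have h1 := f.ker.card_mul_index
    rw [index_ker, hf] at h1
    have hWN : W ≤ normalizer (W : Set G) ⊓ centralizer (Z : Set G) :=
      le_inf (h.WT.trans h.TNW) (WC h)
    have h2 : W.subgroupOf (normalizer (W : Set G) ⊓ centralizer (Z : Set G)) ≤ f.ker := by
      intro x hx
      rw [mem_subgroupOf] at hx
      show f x = 1
      exact (hρ _).2 (fun w hw => h.comW _ hx w hw)
    have h3 := card_dvd_of_le h2
    rw [Nat.card_congr (subgroupOfEquivOfLe hWN).toEquiv] at h3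
    obtain ⟨j, hj⟩ := h3
    rw [hj, hk, mul_assoc] at h1
    have h4 : j * Nat.card K = k := Nat.eq_of_mul_eq_mul_left Nat.card_pos h1
    intro h5
    exact hk2 (by rw [← h4]; exact Dvd.dvd.mul_left h5 j)
  have hbot := key (V := W ⧸ Z.subgroupOf W) hV (by
      intro v
      obtain ⟨x, rfl⟩ := QuotientGroup.mk_surjective v
      show (QuotientGroup.mk (x * x) : W ⧸ Z.subgroupOf W) = QuotientGroup.mk 1
      rw [QuotientGroup.eq, mem_subgroupOf]
      show ((x : G) * x)⁻¹ * 1 ∈ Z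
      rw [mul_one]
      exact inv_mem (h.sqW x x.2))
    ρ.range K ((T.subgroupOf (normalizer (W : Set G))).map ρ)
    (by rintro _ ⟨y, -, rfl⟩; exact ⟨y, rfl⟩)
    (by
      rintro _ ⟨b, rfl⟩ _ ⟨c, hc, rfl⟩
      refine ⟨b * c * b⁻¹, ?_, by simp⟩
      exact normalizer_le_cent (b : G) (hNZ b.2) c hc)
    hKodd
    (by rintro _ ⟨y, -, rfl⟩; exact ⟨y, rfl⟩)
    (by
      apply IsPGroup.map
      have h1 : IsPGroup 2 T := by rw [← hS]; exact S.2
      exact h1.of_equiv (subgroupOfEquivOfLe h.TNW).symm)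
    (by
      intro v v' hv hv' hv1 hv1'
      obtain ⟨x, rfl⟩ := QuotientGroup.mk_surjective v
      obtain ⟨y, rfl⟩ := QuotientGroup.mk_surjective v'
      have key2 : ∀ x : W, (∀ t ∈ (T.subgroupOf (normalizer (W : Set G))).map ρ,
          t (QuotientGroup.mk x : W ⧸ Z.subgroupOf W) = QuotientGroup.mk x) →
          (QuotientGroup.mk x : W ⧸ Z.subgroupOf W) ≠ 1 → (x : G) ∈ Z4 ∧ (x : G) ∉ Z := by
        intro x hx hx1
        constructor
        · apply h.fixW x.2
          intro t ht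
          have h1 := hx (ρ ⟨t, h.TNW ht⟩) ⟨⟨t, h.TNW ht⟩, mem_subgroupOf.2 ht, rfl⟩
          have h2 : (QuotientGroup.mk (⟨t * x * t⁻¹, h.nW t ht x x.2⟩ : W) : W ⧸ Z.subgroupOf W) =
              QuotientGroup.mk x := h1
          rw [QuotientGroup.eq, mem_subgroupOf] at h2
          have h3 : (t * x * t⁻¹)⁻¹ * (x : G) ∈ Z := h2
          have e : ⁅t, (x : G)⁆ = (x : G) * ((t * x * t⁻¹)⁻¹ * (x : G))⁻¹ * (x : G)⁻¹ := by
            rw [commutatorElement_def]; group
          rw [e]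
          exact h.n3 (h.WT x.2) (inv_mem h3)
        · intro hxZ
          apply hx1
          show (QuotientGroup.mk x : W ⧸ Z.subgroupOf W) = QuotientGroup.mk 1
          rw [QuotientGroup.eq, mem_subgroupOf]
          show (x : G)⁻¹ * 1 ∈ Z
          rw [mul_one]; exact inv_mem hxZ
      obtain ⟨hx4, hxZ⟩ := key2 x hv hv1
      obtain ⟨hy4, hyZ⟩ := key2 y hv' hv1'
      rw [QuotientGroup.eq, mem_subgroupOf]
      exact (mem_or_mem h.Z_le (by rw [h.cZ, h.cZ4]) hx4 hxZ hy4).resolve_left hyZ)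
    ψ
    (by
      intro φ
      obtain ⟨n, rfl⟩ := hgsurj φ
      exact ⟨⟨ρ n, ⟨n, rfl⟩⟩, hψv n⟩)
    (by
      rintro ⟨_, ⟨n, rfl⟩⟩
      rw [hψv n, hg]
      constructor
      · intro h1
        exact ⟨n, mem_subgroupOf.2 h1, rfl⟩
      · rintro ⟨c, hc, hcn⟩
        have h1 : ρ (c⁻¹ * n) = 1 := by rw [map_mul, map_inv, hcn, inv_mul_cancel]
        have h2 := (hg _).1 (hkk _ h1)
        have h3 := mul_mem (mem_subgroupOf.1 hc) h2
        have e : (c : G) * ((c⁻¹ * n : normalizer (W : Set G)) : G) = n := by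
          show (c : G) * ((c : G)⁻¹ * n) = n
          group
        rwa [e] at h3)
    (by rw [hOct.card_aut]; norm_num)
  intro x hx hxC
  rw [← hρ ⟨x, hx⟩]
  have h1 : ρ ⟨x, hx⟩ ∈ K := ⟨⟨x, hx⟩, mem_subgroupOf.2 hxC, rfl⟩
  rw [hbot] at h1
  exact mem_bot.1 h1

end Cfsg.Agent.H309.Ru
end

-- part: H309/Ru/Compl
section
/-!
# S3204: `C(Z)` has a normal 2-complement (helper309)
-/

set_option autoImplicit false

namespace Cfsg.Agent.H309.Ru

open Subgroup Pointwise
open scoped commutatorElement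

variable {G : Type*} [Group G] [Finite G] {T T1 T2 W Z4 Z Z2 Z1 : Subgroup G}

theorem exists_compl (h : Hyp T T1 T2 W Z4 Z Z2 Z1) (S : Sylow 2 G) (hS : (S : Subgroup G) = T)
    (hidx : ∀ H : Subgroup G, H.index ≠ 2) :
    ∃ R : Subgroup G, R ≤ centralizer (Z : Set G) ∧ (Nat.card R).Coprime 2 ∧
      (∀ m ∈ normalizer (Z : Set G), ∀ r ∈ R, m * r * m⁻¹ ∈ R) ∧
      ∀ c ∈ centralizer (Z : Set G), ∃ r ∈ R, ∃ w ∈ W, c = r * w := by
  classical
  have : Fact (Nat.Prime 2) := ⟨Nat.prime_two⟩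
  set C : Subgroup G := centralizer (Z : Set G) with hC
  have hZC : Z ≤ C := h.ZW.trans (WC h)
  have hWC : W ≤ C := WC h
  have hZc : ∀ c ∈ C, ∀ z ∈ Z, c * z = z * c := fun c hc z hz => (mem_centralizer_iff.1 hc z hz).symm
  have hZn : (Z.subgroupOf C).Normal := by
    constructor
    intro n hn c
    rw [mem_subgroupOf] at hn ⊢
    show (c : G) * n * (c : G)⁻¹ ∈ Z
    rw [hZc c c.2 _ hn, mul_inv_cancel_right]; exact hn
  have hNT := NC_triv h S hS hidx
  -- the Sylow subgroup of C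
  obtain ⟨k, hk, hk2⟩ := exists_card_eq S C (by rw [hS]; exact h.TNZ.trans NNC)
  have hSC : (S : Subgroup G) ⊓ C = W := by rw [hS]; exact cent_inf h
  rw [hSC] at hk
  have hcWC : Nat.card (W.subgroupOf C) = 2048 := by
    rw [Nat.card_congr (subgroupOfEquivOfLe hWC).toEquiv, h.cW]
  have hidxW : (W.subgroupOf C).index = k := by
    have h1 := (W.subgroupOf C).card_mul_index
    rw [hcWC, hk, h.cW] at h1
    omega
  let P : Sylow 2 C := (h.pW.of_equiv (subgroupOfEquivOfLe hWC).symm :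
    IsPGroup 2 (W.subgroupOf C)).toSylow (by rw [hidxW]; exact hk2)
  have hP : (P : Subgroup C) = W.subgroupOf C := rfl
  let π := QuotientGroup.mk' (Z.subgroupOf C)
  have hπ : Function.Surjective π := QuotientGroup.mk'_surjective _
  have hπ1 : ∀ x : C, π x = 1 ↔ (x : G) ∈ Z := by
    intro x
    show (QuotientGroup.mk x : C ⧸ Z.subgroupOf C) = 1 ↔ _
    rw [QuotientGroup.eq_one_iff, mem_subgroupOf]
  set Wb : Subgroup (C ⧸ Z.subgroupOf C) := (W.subgroupOf C).map π with hWb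
  have hcomapW : Wb.comap π = W.subgroupOf C := by
    rw [hWb, comap_map_eq_self]
    rw [QuotientGroup.ker_mk']
    intro x hx
    exact h.ZW hx
  have hidxWb : Wb.index = k := by
    rw [← hidxW, ← hcomapW, index_comap_of_surjective _ hπ]
  have hWb2 : IsPGroup 2 Wb := P.2.map π
  obtain ⟨n, hn⟩ := IsPGroup.iff_card.1 hWb2
  obtain ⟨N0, hN0n, hN0c⟩ := Cfsg.Agent.S0087.result Wb (by
      rw [hn, hidxWb]
      exact Nat.Coprime.pow_left _ ((Nat.Prime.coprime_iff_not_dvd Nat.prime_two).2 hk2)) (by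
    intro x hx
    obtain ⟨c, rfl⟩ := hπ x
    have hcN : (c : G) ∈ normalizer (W : Set G) := by
      apply mem_normalizer_of_conj
      intro w hw
      have h1 : π ⟨w, hWC hw⟩ ∈ Wb := ⟨⟨w, hWC hw⟩, hw, rfl⟩
      have h2 := (mem_normalizer_iff.1 hx _).1 h1
      have h3 : c * ⟨w, hWC hw⟩ * c⁻¹ ∈ Wb.comap π := by
        rw [mem_comap]; simpa using h2
      rw [hcomapW] at h3
      exact h3
    rw [mem_centralizer_iff]
    rintro _ ⟨w, hw, rfl⟩
    have h1 := hNT c hcN c.2 w hw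
    have h2 : π ⁅c, w⁆ = 1 := (hπ1 _).2 h1
    rw [map_commutatorElement, commutatorElement_eq_one_iff_mul_comm] at h2
    exact h2.symm)
  -- the preimage
  have hK1n : (N0.comap π).Normal := hN0n.comap π
  have hsup : N0.comap π ⊔ (P : Subgroup C) = ⊤ := by
    rw [eq_top_iff]
    intro x _
    have h1 : π x ∈ (N0 : Set (C ⧸ Z.subgroupOf C)) * (Wb : Set (C ⧸ Z.subgroupOf C)) := by
      rw [hN0c.mul_eq]; trivial
    obtain ⟨a, ha, b, hb, hab⟩ := h1
    obtain ⟨w, hw, rfl⟩ := hb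
    have h2 : x * w⁻¹ ∈ N0.comap π := by
      rw [mem_comap, map_mul, map_inv, ← hab]
      simpa using ha
    have e : x = (x * w⁻¹) * w := by group
    rw [e]
    exact mul_mem (mem_sup_left h2) (mem_sup_right hw)
  obtain ⟨K, hKn, hKle, hKc⟩ := Cfsg.Agent.Transfer.TateComplement.exists_normal_complement P
    (N0.comap π) hsup (by
      intro δ x hx
      -- x ∈ Z
      have hxZ : ((x : C) : G) ∈ Z := by
        rw [← hπ1]
        have h1 : π (x : C) ∈ N0 ⊓ Wb := ⟨hx, ⟨x, x.2, rfl⟩⟩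
        rw [hN0c.disjoint.eq_bot] at h1
        exact mem_bot.1 h1
      -- the kernel of δ
      let D : Subgroup G := (δ.ker.map (P : Subgroup C).subtype).map C.subtype
      have h1 : Z ≤ D := by
        apply h.C W le_rfl (by omega)
        intro a ha b hb
        refine ⟨⁅(⟨a, hWC ha⟩ : C), ⟨b, hWC hb⟩⁆, ⟨⁅(⟨⟨a, hWC ha⟩, ha⟩ : P), ⟨⟨b, hWC hb⟩, hb⟩⁆, ?_, rfl⟩, rfl⟩
        rw [SetLike.mem_coe, MonoidHom.mem_ker, map_commutatorElement]
        exact comm_eq_one (mul_comm _ _)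
      obtain ⟨_, ⟨y, hy, rfl⟩, hyx⟩ := h1 hxZ
      have h2 : y = x := Subtype.ext (Subtype.ext hyx)
      rw [← h2]; exact hy)
  -- orders
  have hcP : Nat.card P = 2048 := by rw [← hcWC]; rfl
  have hcK : Nat.card K = k := by
    have h1 := hKc.card_mul_card
    rw [hcP, hk, h.cW, mul_comm] at h1
    exact Nat.eq_of_mul_eq_mul_left (by norm_num) h1
  have hKidx : K.index = 2048 := by rw [hKc.symm.index_eq_card, hcP]
  have hmem : ∀ x : C, (orderOf x).Coprime 2 → x ∈ K := by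
    intro x hx
    rw [← QuotientGroup.eq_one_iff, ← orderOf_eq_one_iff]
    have h1 : orderOf (QuotientGroup.mk x : C ⧸ K) ∣ orderOf x := orderOf_map_dvd (QuotientGroup.mk' K) x
    have h2 : orderOf (QuotientGroup.mk x : C ⧸ K) ∣ 2 ^ 11 := by
      have h3 : Nat.card (C ⧸ K) = 2 ^ 11 := by
        have h4 : K.index = Nat.card (C ⧸ K) := rfl
        rw [← h4, hKidx]; norm_num
      rw [← h3]; exact orderOf_dvd_natCard _
    have h3 : (orderOf x).Coprime (2 ^ 11) := Nat.Coprime.pow_right _ hx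
    exact Nat.eq_one_of_dvd_coprimes h3 h1 h2
  refine ⟨K.map C.subtype, map_subtype_le K, ?_, ?_, ?_⟩
  · rw [card_map_of_injective C.subtype_injective, hcK]
    exact ((Nat.Prime.coprime_iff_not_dvd Nat.prime_two).2 hk2).symm
  · rintro m hm _ ⟨x, hx, rfl⟩
    have h1 : m * (x : G) * m⁻¹ ∈ C := normalizer_le_cent m hm x x.2
    refine ⟨⟨m * (x : G) * m⁻¹, h1⟩, hmem _ ?_, rfl⟩
    have h2 : orderOf (⟨m * (x : G) * m⁻¹, h1⟩ : C) = orderOf (m * (x : G) * m⁻¹) := by
      rw [← Subgroup.orderOf_coe]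
    have h3 : orderOf (m * (x : G) * m⁻¹) = orderOf (x : G) := by
      have := MulEquiv.orderOf_eq (MulAut.conj m) (x : G)
      rwa [MulAut.conj_apply] at this
    rw [h2, h3, Subgroup.orderOf_coe]
    have h4 : orderOf x ∣ Nat.card K := by
      have h5 : orderOf (⟨x, hx⟩ : K) = orderOf x := by rw [← Subgroup.orderOf_coe]
      rw [← h5]; exact orderOf_dvd_natCard _
    rw [hcK] at h4
    exact Nat.Coprime.coprime_dvd_left h4 ((Nat.Prime.coprime_iff_not_dvd Nat.prime_two).2 hk2).symm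
  · intro c hc
    have h1 : (⟨c, hc⟩ : C) ∈ (K : Set C) * ((P : Subgroup C) : Set C) := by
      rw [hKc.mul_eq]; trivial
    obtain ⟨a, ha, b, hb, hab⟩ := h1
    exact ⟨a, ⟨a, ha, rfl⟩, b, hb, (congrArg Subtype.val hab).symm⟩

end Cfsg.Agent.H309.Ru
end

-- part: H309/Ru/Final
section
/-!
# S3204: conclusion (helper309)
-/

set_option autoImplicit false

namespace Cfsg.Agent.H309.Ru

open Subgroup Pointwise
open scoped commutatorElement

variable {G : Type*} [Group G] [Finite G] {T T1 T2 W Z4 Z Z2 Z1 : Subgroup G}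

theorem final (h : Hyp T T1 T2 W Z4 Z Z2 Z1) (S : Sylow 2 G) (hS : (S : Subgroup G) = T)
    (hidx : ∀ H : Subgroup G, H.index ≠ 2) (M N : Subgroup G) (hM : M = normalizer (Z : Set G))
    (hN : N = normalizer (W : Set G)) :
    (N.subgroupOf M ⊔ Cfsg.oddCore ↥M = ⊤) ∧
      ∃ (_ : (W.subgroupOf N ⊔ Cfsg.oddCore ↥N).Normal),
        Nonempty (↥N ⧸ (W.subgroupOf N ⊔ Cfsg.oddCore ↥N) ≃* GL (Fin 3) (ZMod 2)) := by
  classical
  have : Fact (Nat.Prime 2) := ⟨Nat.prime_two⟩
  subst hM hN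
  obtain ⟨R, hRC, hRodd, hRn, hCRW⟩ := exists_compl h S hS hidx
  have hNZ := NWZ h
  have hCM : centralizer (Z : Set G) ≤ normalizer (Z : Set G) := by
    intro c hc
    apply mem_normalizer_of_conj
    intro z hz
    rw [conj_of_mul_comm (mem_centralizer_iff.1 hc z hz).symm]; exact hz
  have hRM : R ≤ normalizer (Z : Set G) := hRC.trans hCM
  have hWN : W ≤ normalizer (W : Set G) := h.WT.trans h.TNW
  constructor
  · rw [eq_top_iff]
    rintro ⟨m, hm⟩ -
    obtain ⟨c, hc, hcm⟩ := frattiniC h S hS m hm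
    obtain ⟨r, hr, w, hw, e⟩ := hCRW c⁻¹ (inv_mem hc)
    have h1 : (⟨r, hRM hr⟩ : normalizer (Z : Set G)) ∈ Cfsg.oddCore ↥(normalizer (Z : Set G)) := by
      have h2 : R.subgroupOf (normalizer (Z : Set G)) ≤ Cfsg.oddCore ↥(normalizer (Z : Set G)) := by
        apply Cfsg.Agent.Lib.Cores.le_pPrimeCore
        · constructor
          intro x hx g
          rw [mem_subgroupOf] at hx ⊢
          exact hRn g g.2 x hx
        · rw [Nat.card_congr (subgroupOfEquivOfLe hRM).toEquiv]; exact hRodd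
      exact h2 (mem_subgroupOf.2 hr)
    have h2 : w * (c * m) ∈ normalizer (W : Set G) := mul_mem (hWN hw) hcm
    have e2 : (⟨m, hm⟩ : normalizer (Z : Set G)) = ⟨r, hRM hr⟩ * ⟨w * (c * m), hNZ h2⟩ := by
      apply Subtype.ext
      show m = r * (w * (c * m))
      have : r * (w * (c * m)) = (r * w) * c * m := by group
      rw [this, ← e]; group
    rw [e2]
    exact mul_mem (mem_sup_right h1) (mem_sup_left (mem_subgroupOf.2 h2))
  · have hOct : Cfsg.Agent.StdL2.G23Aut.Oct Z := ⟨h.cZ, h.sqZ⟩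
    let g : normalizer (W : Set G) →* MulAut Z := Z.normalizerMonoidHom.comp (inclusion hNZ)
    have hg : ∀ n, g n = 1 ↔ (n : G) ∈ centralizer (Z : Set G) := by
      intro n
      rw [mem_centralizer_iff]
      constructor
      · intro h1 z hz
        have h2 := congrArg (fun f : MulAut Z => ((f ⟨z, hz⟩ : Z) : G)) h1
        have h3 : (n : G) * z * (n : G)⁻¹ = z := h2
        calc z * (n : G) = ((n : G) * z * (n : G)⁻¹) * n := by rw [h3]
          _ = n * z := by group
      · intro h1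
        ext z
        show (n : G) * z * (n : G)⁻¹ = z
        rw [← h1 z z.2]; group
    have hgsurj : Function.Surjective g := by
      intro φ
      have h1 : φ ∈ Cfsg.Agent.StdL2.G23Aut.img (normalizer (Z : Set G)) Z := by
        rw [full_aut h S hS hidx]; trivial
      rw [Cfsg.Agent.StdL2.G23Aut.mem_img] at h1
      obtain ⟨m, hm, -, e⟩ := h1
      obtain ⟨c, hc, hcm⟩ := frattiniC h S hS m hm
      refine ⟨⟨c * m, hcm⟩, ?_⟩
      ext z
      show (c * m) * z * (c * m)⁻¹ = φ z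
      rw [← e z]
      have h2 := mem_centralizer_iff.1 hc _ (conj_of_mem_normalizer hm z.2)
      calc (c * m) * z * (c * m)⁻¹ = (c * (m * z * m⁻¹)) * c⁻¹ := by group
        _ = m * z * m⁻¹ := by rw [← h2]; group
    have hker : W.subgroupOf (normalizer (W : Set G)) ⊔ Cfsg.oddCore ↥(normalizer (W : Set G)) = g.ker := by
      apply le_antisymm
      · apply sup_le
        · intro x hx
          rw [MonoidHom.mem_ker, hg]
          exact WC h (mem_subgroupOf.1 hx)
        · intro x hx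
          rw [MonoidHom.mem_ker, hg, mem_centralizer_iff]
          intro z hz
          have hzW := h.ZW hz
          -- the commutator lies in the odd core and in W
          have hn : (Cfsg.oddCore ↥(normalizer (W : Set G))).Normal :=
            Cfsg.Agent.Lib.Cores.pPrimeCore_normal 2
          have h1 : ⁅x, (⟨z, hWN hzW⟩ : normalizer (W : Set G))⁆ ∈ Cfsg.oddCore ↥(normalizer (W : Set G)) := by
            have h2 := hn.conj_mem _ (inv_mem hx) (⟨z, hWN hzW⟩ : normalizer (W : Set G))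
            have e : ⁅x, (⟨z, hWN hzW⟩ : normalizer (W : Set G))⁆ =
                x * ((⟨z, hWN hzW⟩ : normalizer (W : Set G)) * x⁻¹ * (⟨z, hWN hzW⟩)⁻¹) := by
              rw [commutatorElement_def]; group
            rw [e]; exact mul_mem hx h2
          have h3 : ⁅(x : G), z⁆ ∈ W := comm_mem_of_conj hzW (conj_of_mem_normalizer x.2 hzW)
          have h4 : orderOf ⁅x, (⟨z, hWN hzW⟩ : normalizer (W : Set G))⁆ ∣
              Nat.card (Cfsg.oddCore ↥(normalizer (W : Set G))) := by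
            have h5 : orderOf (⟨_, h1⟩ : Cfsg.oddCore ↥(normalizer (W : Set G))) =
              orderOf ⁅x, (⟨z, hWN hzW⟩ : normalizer (W : Set G))⁆ := by rw [← Subgroup.orderOf_coe]
            rw [← h5]; exact orderOf_dvd_natCard _
          have h5 : orderOf ⁅x, (⟨z, hWN hzW⟩ : normalizer (W : Set G))⁆ ∣ 2 ^ 11 := by
            have h6 : orderOf (⟨_, h3⟩ : W) = orderOf ⁅x, (⟨z, hWN hzW⟩ : normalizer (W : Set G))⁆ := by
              rw [← Subgroup.orderOf_coe, ← Subgroup.orderOf_coe]; rfl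
            rw [← h6, ← cW' h]; exact orderOf_dvd_natCard _
          have h6 : (Nat.card (Cfsg.oddCore ↥(normalizer (W : Set G)))).Coprime (2 ^ 11) :=
            Nat.Coprime.pow_right _ (Cfsg.Agent.Lib.Cores.pPrimeCore_coprime 2)
          have h7 := Nat.eq_one_of_dvd_coprimes h6 h4 h5
          rw [orderOf_eq_one_iff, commutatorElement_eq_one_iff_mul_comm] at h7
          exact (congrArg Subtype.val h7).symm
      · intro x hx
        rw [MonoidHom.mem_ker, hg] at hx
        obtain ⟨r, hr, w, hw, e⟩ := hCRW x hx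
        have hrN : r ∈ normalizer (W : Set G) := by
          have : r = x * w⁻¹ := by rw [e]; group
          rw [this]; exact mul_mem x.2 (inv_mem (hWN hw))
        have h1 : (R ⊓ normalizer (W : Set G)).subgroupOf (normalizer (W : Set G)) ≤
            Cfsg.oddCore ↥(normalizer (W : Set G)) := by
          apply Cfsg.Agent.Lib.Cores.le_pPrimeCore
          · constructor
            intro y hy g'
            rw [mem_subgroupOf] at hy ⊢
            exact mem_inf.2 ⟨hRn g' (hNZ g'.2) y hy.1, (g' * y * g'⁻¹).2⟩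
          · rw [Nat.card_congr (subgroupOfEquivOfLe inf_le_right).toEquiv]
            exact Nat.Coprime.coprime_dvd_left (card_dvd_of_le inf_le_left) hRodd
        have e2 : x = ⟨r, hrN⟩ * ⟨w, hWN hw⟩ := Subtype.ext e
        rw [e2]
        exact mul_mem (mem_sup_right (h1 (mem_subgroupOf.2 (mem_inf.2 ⟨hr, hrN⟩))))
          (mem_sup_left (mem_subgroupOf.2 hw))
    rw [hker]
    refine ⟨inferInstance, ?_⟩
    obtain ⟨e⟩ := Cfsg.Agent.StdL2.G23Aut.equiv_GL (V := Z) (fun v => Subtype.ext (h.sqZ v v.2)) h.cZ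
    exact ⟨(QuotientGroup.quotientKerEquivOfSurjective g hgsurj).trans e⟩

end Cfsg.Agent.H309.Ru
end

-- part: S3204
section
set_option autoImplicit false
open Cfsg

namespace Cfsg.Agent.S3204

/-- Let G be a finite group whose Sylow 2-subgroup T has order at least 2^14 with the fourth term of its upper central series of order 16; let W be the centralizer in T of the third term, and suppose the Frattini subgroup of W has order at most 8 and lies in every subgroup of W of index at most 16. Suppose G has no subgroup of index 2, and write W′ for the derived subgroup of W. Then the normalizer of W′ is the product of the normalizer of W with the largest normal odd-order subgroup of the normalizer of W′, and the normalizer N of W has N/(O(N)W) isomorphic to GL(3, 2). -/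
theorem result {G : Type*} [Group G] [Finite G]
    (T : Sylow 2 G) (ha : 2 ^ 14 ≤ Nat.card ↥(T : Subgroup G))
    (hb : Nat.card ↥(Subgroup.upperCentralSeries ↥(T : Subgroup G) 4) = 16)
    (W : Subgroup ↥(T : Subgroup G))
    (hW : W = Subgroup.centralizer ((Subgroup.upperCentralSeries ↥(T : Subgroup G) 3 : Subgroup ↥(T : Subgroup G)) : Set ↥(T : Subgroup G)))
    (hc : Nat.card ↥(frattini ↥W) ≤ 8)
    (hd : ∀ U : Subgroup ↥W, U.index ≤ 16 → frattini ↥W ≤ U)
    (h2 : ∀ H : Subgroup G, H.index ≠ 2)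
    (WG D N M : Subgroup G) (hWG : WG = W.map (T : Subgroup G).subtype)
    (hDW : D = ((commutator ↥W).map W.subtype).map (T : Subgroup G).subtype)
    (hN : N = Subgroup.normalizer (WG : Set G)) (hM : M = Subgroup.normalizer (D : Set G)) :
    (N.subgroupOf M ⊔ Cfsg.oddCore ↥M = ⊤) ∧
      ∃ (_ : (WG.subgroupOf N ⊔ Cfsg.oddCore ↥N).Normal),
        Nonempty (↥N ⧸ (WG.subgroupOf N ⊔ Cfsg.oddCore ↥N) ≃* GL (Fin 3) (ZMod 2)) := by
  obtain ⟨T1, T2, h, hcomm⟩ := Cfsg.Agent.H309.Ru.hyp_of (P := ↥(T : Subgroup G)) T.2 ha hb W hW hc hd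
  have h' := h.map (T : Subgroup G).subtype (T : Subgroup G).subtype_injective
  subst hWG
  rw [hcomm] at hDW
  subst hDW
  refine Cfsg.Agent.H309.Ru.final h' T ?_ h2 M N hM hN
  rw [← MonoidHom.range_eq_map, Subgroup.range_subtype]

end Cfsg.Agent.S3204
end
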