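import Cfsg.Statements.S3210
import Cfsg.Agent.H311.DuoKS
set_option linter.all false

set_option autoImplicit false
open Cfsg

namespace Cfsg.Agent.S3210

/-- Let G be a finite group with subgroups L₁ ≅ SL₂(q₁) and L₂ ≅ SL₂(q₂), q₁ and q₂ odd prime powers, which commute elementwise and meet in ⟨j⟩ for an involution j, and suppose L₁L₂ has index 2 in C_G(j). Then every element n of C_G(j) outside L₁L₂ either normalizes both L₁ and L₂, or conjugates L₁ onto L₂; in the second case q₁ = q₂ and there is an element n′ of C_G(j) outside L₁L₂ conjugating L₁ onto L₂ with n′² ∈ ⟨j⟩. -/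
theorem result {G : Type*} [Group G] [Finite G]
    {F₁ : Type*} [Field F₁] [Fintype F₁] {F₂ : Type*} [Field F₂] [Fintype F₂]
    (hF₁ : Odd (Fintype.card F₁)) (hF₂ : Odd (Fintype.card F₂)) (L₁ L₂ : Subgroup G)
    (e₁ : ↥L₁ ≃* Matrix.SpecialLinearGroup (Fin 2) F₁) (e₂ : ↥L₂ ≃* Matrix.SpecialLinearGroup (Fin 2) F₂)
    (hc : ∀ x ∈ L₁, ∀ y ∈ L₂, x * y = y * x) (j : G) (hj : orderOf j = 2) (hm : L₁ ⊓ L₂ = Subgroup.zpowers j)
    (hle : L₁ ⊔ L₂ ≤ Subgroup.centralizer ({j} : Set G)) (hi : (L₁ ⊔ L₂).relIndex (Subgroup.centralizer ({j} : Set G)) = 2) (n : G) (hn : n ∈ Subgroup.centralizer ({j} : Set G)) (hn' : n ∉ L₁ ⊔ L₂) :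
    (L₁.map (MulAut.conj n).toMonoidHom = L₁ ∧ L₂.map (MulAut.conj n).toMonoidHom = L₂) ∨
      (L₁.map (MulAut.conj n).toMonoidHom = L₂ ∧ Fintype.card F₁ = Fintype.card F₂ ∧
        ∃ n' ∈ Subgroup.centralizer ({j} : Set G), n' ∉ L₁ ⊔ L₂ ∧ L₁.map (MulAut.conj n').toMonoidHom = L₂ ∧ n' ^ 2 ∈ Subgroup.zpowers j) := by
  have h1 := Cfsg.Agent.ClassicalGeometry.SLTwoFour.two_ne_zero_of_odd (F := F₁) hF₁
  have h2 := Cfsg.Agent.ClassicalGeometry.SLTwoFour.two_ne_zero_of_odd (F := F₂) hF₂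
  set D := Cfsg.Agent.H311.mkDuo h1 h2 L₁ L₂ e₁ e₂ hc j hj hm with hD
  have hY : D.Y = L₁ ⊔ L₂ := Cfsg.Agent.H311.Y_mkDuo h1 h2 L₁ L₂ e₁ e₂ hc j hj hm
  have hr1 : D.e1.range = L₁ := Cfsg.Agent.H311.range_emb L₁ e₁
  have hr2 : D.e2.range = L₂ := Cfsg.Agent.H311.range_emb L₂ e₂
  rw [← hY] at hle hi hn'
  have hnj : n * j = j * n := Subgroup.mem_centralizer_singleton_iff.1 hn
  -- `Y` is normal in `C(j)`
  have hN : (D.Y.subgroupOf (Subgroup.centralizer ({j} : Set G))).Normal :=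
    Subgroup.normal_of_index_eq_two hi
  have hconj : ∀ c ∈ Subgroup.centralizer ({j} : Set G), ∀ y ∈ D.Y, c * y * c⁻¹ ∈ D.Y := by
    intro c hc' y hy
    exact hN.conj_mem ⟨y, hle hy⟩ hy ⟨c, hc'⟩
  have hYn : D.Y = (D.cj n hnj).Y := by
    rw [Cfsg.Agent.H311.Duo.cj_Y]
    apply le_antisymm
    · intro y hy
      refine ⟨n⁻¹ * y * n, ?_, ?_⟩
      · have := hconj n⁻¹ (inv_mem hn) y hy
        rwa [inv_inv] at this
      · change n * (n⁻¹ * y * n) * n⁻¹ = y
        group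
    · rintro _ ⟨y, hy, rfl⟩
      exact hconj n hn y hy
  have hu := D.unique (D.cj n hnj) hF₁ hF₂ hF₁ hF₂ hYn
  rw [D.cj_range1, D.cj_range2, hr1, hr2] at hu
  rcases hu with ⟨h3, h4⟩ | ⟨h3, h4⟩
  · left
    exact ⟨h3.symm, h4.symm⟩
  · right
    refine ⟨h4.symm, ?_, ?_⟩
    · -- the orders
      have c1 : Nat.card ↥L₁ = Nat.card ↥L₂ := by
        rw [h4]
        exact (Nat.card_congr (L₁.equivMapOfInjective (MulAut.conj n).toMonoidHom (MulAut.conj n).injective).toEquiv)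
      have e : Cfsg.Agent.GTwoOdd.SL2 F₁ ≃* Cfsg.Agent.GTwoOdd.SL2 F₂ := by
        refine e₁.symm.trans (MulEquiv.trans ?_ e₂)
        rw [h4]
        exact L₁.equivMapOfInjective (MulAut.conj n).toMonoidHom (MulAut.conj n).injective
      exact Cfsg.Agent.GTwoOdd.SLNormal.card_eq_of_equiv e
    · -- `n² = e1 a * e2 b`
      have hn2 : n * n ∈ D.Y := by
        have h5 := Subgroup.mul_self_mem_of_index_two hi ⟨n, hn⟩
        exact h5
      obtain ⟨a, b, hab⟩ := hn2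
      have m1 : ∀ x, ∃ y, n * D.e1 x * n⁻¹ = D.e2 y := by
        intro x
        have : n * D.e1 x * n⁻¹ ∈ L₂ := by
          rw [h4]
          exact ⟨D.e1 x, by rw [← hr1]; exact ⟨x, rfl⟩, rfl⟩
        rw [← hr2] at this
        obtain ⟨y, hy⟩ := this
        exact ⟨y, hy.symm⟩
      have m2 : ∀ x, ∃ y, n * D.e2 x * n⁻¹ = D.e1 y := by
        intro x
        have : n * D.e2 x * n⁻¹ ∈ L₁ := by
          rw [h3]
          exact ⟨D.e2 x, by rw [← hr2]; exact ⟨x, rfl⟩, rfl⟩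
        rw [← hr1] at this
        obtain ⟨y, hy⟩ := this
        exact ⟨y, hy.symm⟩
      obtain ⟨a', ha'⟩ := m1 a
      obtain ⟨b', hb'⟩ := m2 b
      have h6 : D.e1 b' * D.e2 a' = D.e1 a * D.e2 b := by
        rw [← ha', ← hb', hab]
        have : n * D.e2 b * n⁻¹ * (n * D.e1 a * n⁻¹) = n * (D.e2 b * D.e1 a) * n⁻¹ := by group
        rw [this, ← D.comm, hab]
        group
      -- `n' = n * a⁻¹`-type element
      have hz : a' = b ∨ a' = -b := by
        rcases D.mul_eq_mul h6 with ⟨-, h7⟩ | ⟨-, h7⟩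
        · exact Or.inl h7
        · exact Or.inr h7
      refine ⟨D.e1 a⁻¹ * n, ?_, ?_, ?_, ?_⟩
      · exact mul_mem (hle (D.e1_mem _)) hn
      · intro hmem
        rw [← hY] at hmem
        exact hn' ((mul_mem_cancel_left (D.e1_mem _)).1 hmem)
      · rw [map_mul, show L₁.map ((MulAut.conj (D.e1 a⁻¹) * MulAut.conj n) : MulAut G).toMonoidHom =
          (L₁.map (MulAut.conj n).toMonoidHom).map (MulAut.conj (D.e1 a⁻¹)).toMonoidHom from by
            rw [Subgroup.map_map]; rfl, ← h4]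
        apply le_antisymm
        · rintro _ ⟨y, hy, rfl⟩
          rw [← hr2]
          have hy' : y ∈ D.e2.range := by rw [hr2]; exact hy
          obtain ⟨y', rfl⟩ := hy'
          refine ⟨y', ?_⟩
          change D.e2 y' = D.e1 a⁻¹ * D.e2 y' * (D.e1 a⁻¹)⁻¹
          rw [D.comm, mul_inv_cancel_right]
        · intro y hy
          have hy' : y ∈ D.e2.range := by rw [hr2]; exact hy
          obtain ⟨y', rfl⟩ := hy'
          refine ⟨D.e2 y', hy, ?_⟩
          change D.e1 a⁻¹ * D.e2 y' * (D.e1 a⁻¹)⁻¹ = D.e2 y'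
          rw [D.comm, mul_inv_cancel_right]
      · have h8 : (D.e1 a⁻¹ * n) ^ 2 = D.e1 a⁻¹ * (n * D.e1 a⁻¹ * n⁻¹) * (n * n) := by
          rw [pow_two]; group
        have h9 : n * D.e1 a⁻¹ * n⁻¹ = D.e2 a'⁻¹ := by
          rw [map_inv, map_inv, ← ha']; group
        rw [h8, h9, ← hab, D.mul_mul, inv_mul_cancel]
        rcases hz with rfl | rfl
        · rw [inv_mul_cancel, map_one, map_one, mul_one]
          exact one_mem _
        · have : (-b)⁻¹ * b = -1 := by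
            rw [inv_mul_eq_iff_eq_mul]
            simp
          rw [this, map_one, one_mul, D.neg2]
          exact Subgroup.mem_zpowers j

end Cfsg.Agent.S3210
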