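import Cfsg.Statements.S3211
import Cfsg.Agent.H311.SwapJ
set_option linter.all false

set_option autoImplicit false
open Cfsg

namespace Cfsg.Agent.S3211

/-- Let G be a finite group with subgroups L₁ ≅ SL₂(q₁) and L₂ ≅ SL₂(q₂), q₁ and q₂ odd prime powers, which commute elementwise and meet in ⟨j⟩ for an involution j, and suppose L₁L₂ has index 2 in C_G(j). If some n ∈ C_G(j) with n² = j interchanges L₁ and L₂ under conjugation (so that C_G(j) = L₁L₂⟨n⟩), then G = C_G(j)O(G). -/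
theorem result {G : Type*} [Group G] [Finite G]
    {F₁ : Type*} [Field F₁] [Fintype F₁] {F₂ : Type*} [Field F₂] [Fintype F₂]
    (hF₁ : Odd (Fintype.card F₁)) (hF₂ : Odd (Fintype.card F₂)) (L₁ L₂ : Subgroup G)
    (e₁ : ↥L₁ ≃* Matrix.SpecialLinearGroup (Fin 2) F₁) (e₂ : ↥L₂ ≃* Matrix.SpecialLinearGroup (Fin 2) F₂)
    (hc : ∀ x ∈ L₁, ∀ y ∈ L₂, x * y = y * x) (j : G) (hj : orderOf j = 2) (hm : L₁ ⊓ L₂ = Subgroup.zpowers j)
    (hle : L₁ ⊔ L₂ ≤ Subgroup.centralizer ({j} : Set G)) (hi : (L₁ ⊔ L₂).relIndex (Subgroup.centralizer ({j} : Set G)) = 2) (n : G) (hn : n ∈ Subgroup.centralizer ({j} : Set G))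
    (hn2 : n ^ 2 = j) (hswap : L₁.map (MulAut.conj n).toMonoidHom = L₂) :
    Subgroup.centralizer ({j} : Set G) ⊔ Cfsg.oddCore G = ⊤ := by
  have h1 := Cfsg.Agent.ClassicalGeometry.SLTwoFour.two_ne_zero_of_odd (F := F₁) hF₁
  have h2 := Cfsg.Agent.ClassicalGeometry.SLTwoFour.two_ne_zero_of_odd (F := F₂) hF₂
  set D := Cfsg.Agent.H311.mkDuo h1 h2 L₁ L₂ e₁ e₂ hc j hj hm with hD
  have hY : D.Y = L₁ ⊔ L₂ := Cfsg.Agent.H311.Y_mkDuo h1 h2 L₁ L₂ e₁ e₂ hc j hj hm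
  have hr1 : D.e1.range = L₁ := Cfsg.Agent.H311.range_emb L₁ e₁
  have hr2 : D.e2.range = L₂ := Cfsg.Agent.H311.range_emb L₂ e₂
  rw [← hY] at hle hi
  have hnn : n * n = j := by rw [← pow_two]; exact hn2
  have hnj : n * j = j * n := Subgroup.mem_centralizer_singleton_iff.1 hn
  have hN : (D.Y.subgroupOf (Subgroup.centralizer ({j} : Set G))).Normal :=
    Subgroup.normal_of_index_eq_two hi
  have hconj : ∀ c, c * j = j * c → ∀ y ∈ D.Y, c * y * c⁻¹ ∈ D.Y := by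
    intro c hc' y hy
    exact hN.conj_mem ⟨y, hle hy⟩ hy ⟨c, Subgroup.mem_centralizer_singleton_iff.2 hc'⟩
  have hmul : ∀ a b, a * j = j * a → b * j = j * b → a ∉ D.Y → b ∉ D.Y → a * b ∈ D.Y := by
    intro a b ha hb haY hbY
    have h3 := Subgroup.mul_mem_iff_of_index_two hi (a := ⟨a, Subgroup.mem_centralizer_singleton_iff.2 ha⟩)
      (b := ⟨b, Subgroup.mem_centralizer_singleton_iff.2 hb⟩)
    have h4 : (⟨a, Subgroup.mem_centralizer_singleton_iff.2 ha⟩ : Subgroup.centralizer ({j} : Set G)) ∉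
        D.Y.subgroupOf (Subgroup.centralizer ({j} : Set G)) := fun h => haY h
    have h5 : (⟨b, Subgroup.mem_centralizer_singleton_iff.2 hb⟩ : Subgroup.centralizer ({j} : Set G)) ∉
        D.Y.subgroupOf (Subgroup.centralizer ({j} : Set G)) := fun h => hbY h
    exact h3.2 ⟨fun h => absurd h h4, fun h => absurd h h5⟩
  have H : D.Half := ⟨hconj, fun T _ hTj a ha b hb haY hbY => hmul a b (hTj a ha) (hTj b hb) haY hbY⟩
  have hswap2 : L₂.map (MulAut.conj n).toMonoidHom = L₁ := by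
    rw [← hswap]
    apply le_antisymm
    · rintro _ ⟨_, ⟨x, hx, rfl⟩, rfl⟩
      change n * (n * x * n⁻¹) * n⁻¹ ∈ L₁
      have e : n * (n * x * n⁻¹) * n⁻¹ = (n * n) * x * (n * n)⁻¹ := by group
      have hx' : x * j = j * x := by
        rw [← hr1] at hx
        obtain ⟨y, rfl⟩ := hx
        exact D.e1_j y
      rw [e, hnn, ← hx', mul_inv_cancel_right]
      exact hx
    · intro x hx
      refine ⟨n * x * n⁻¹, ⟨x, hx, rfl⟩, ?_⟩
      change n * (n * x * n⁻¹) * n⁻¹ = x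
      have e : n * (n * x * n⁻¹) * n⁻¹ = (n * n) * x * (n * n)⁻¹ := by group
      have hx' : x * j = j * x := by
        rw [← hr1] at hx
        obtain ⟨y, rfl⟩ := hx
        exact D.e1_j y
      rw [e, hnn, ← hx', mul_inv_cancel_right]
  have m1 : ∀ x, ∃ y, n * D.e1 x * n⁻¹ = D.e2 y := by
    intro x
    have : n * D.e1 x * n⁻¹ ∈ L₂ := by
      rw [← hswap]
      exact ⟨D.e1 x, by rw [← hr1]; exact ⟨x, rfl⟩, rfl⟩
    rw [← hr2] at this
    obtain ⟨y, hy⟩ := this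
    exact ⟨y, hy.symm⟩
  have m2 : ∀ x, ∃ y, n * D.e2 x * n⁻¹ = D.e1 y := by
    intro x
    have : n * D.e2 x * n⁻¹ ∈ L₁ := by
      rw [← hswap2]
      exact ⟨D.e2 x, by rw [← hr2]; exact ⟨x, rfl⟩, rfl⟩
    rw [← hr1] at this
    obtain ⟨y, hy⟩ := this
    exact ⟨y, hy.symm⟩
  have hnY : n ∉ D.Y := by
    rintro ⟨a, b, hab⟩
    -- `n` would normalize `L₁`
    apply D.not_le
    rintro _ ⟨x, rfl⟩
    obtain ⟨y, hy⟩ := m1 (a⁻¹ * x * a)
    refine ⟨y, ?_⟩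
    rw [← hy, ← hab]
    have e : D.e1 a * D.e2 b * D.e1 (a⁻¹ * x * a) * (D.e1 a * D.e2 b)⁻¹ =
        (D.e1 a * D.e2 b) * (D.e1 (a⁻¹ * x * a) * D.e2 1) * (D.e1 a * D.e2 b)⁻¹ := by rw [map_one, mul_one]
    rw [e, D.conj_conj]
    simp [mul_assoc]
  exact Cfsg.Agent.H311.Duo.swap_j H hF₁ hF₂ n hnn m1 m2 hnY

end Cfsg.Agent.S3211
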