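import Mathlib
import Cfsg.Agent.LFourR.Mat2
import Cfsg.Statements.S3213
set_option linter.all false

-- part: H311/SpFourThree
section
/-!
# Elements of order three of `Sp₄(3)` in a subgroup `SL₂(5)` (for S3213)
-/

set_option autoImplicit false

namespace Cfsg.Agent.H311.SpFourThree

open Module

theorem cube_eq {R : Type*} [Ring R] (h3 : (3 : R) = 0) (r : R) : (r-1)*(r-1)*(r-1) = r^3 - 1 := by
  have e : (r-1)*(r-1)*(r-1) = r^3 - (r^2+r^2+r^2) + (r+r+r) - 1 := by noncomm_ring
  have h : ∀ x : R, x + x + x = 0 := by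
    intro x
    have : x + x + x = 3 * x := by
      have : (3 : R) = 1 + 1 + 1 := by norm_num
      rw [this, add_mul, add_mul, one_mul]
    rw [this, h3, zero_mul]
  rw [e, h, h]
  abel

section Lin

variable {F V : Type*} [Field F] [AddCommGroup V] [Module F V] [FiniteDimensional F V]

/-- a unipotent isometry `1 + N` of a symplectic 4-space with `N³ = 0` has `N² = 0` -/
theorem sq_eq_zero (h2 : (2 : F) ≠ 0) (hV : finrank F V = 4) (B : V →ₗ[F] V →ₗ[F] F) (hB : ∀ v, B v v = 0)
    (hnd : ∀ v, (∀ w, B w v = 0) → v = 0) (N : V →ₗ[F] V) (hN : ∀ v, N (N (N v)) = 0)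
    (hiso : ∀ v w, B (v + N v) (w + N w) = B v w) (w : V) : N (N w) = 0 := by
  have hskew : ∀ v w, B v w = - B w v := by
    intro v w
    have h := hB (v + w)
    simp only [map_add, LinearMap.add_apply, hB] at h
    linear_combination h
  have e1 : ∀ v w, B (N v) w = - B (v + N v) (N w) := by
    intro v w
    have h := hiso v w
    simp only [map_add, LinearMap.add_apply] at h ⊢
    linear_combination h
  have e2 : ∀ v w, B (v + N v) (N (N w)) = B v (N (N w)) := by
    intro v w
    have h := hiso v (N (N w))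
    rwa [hN, add_zero] at h
  have key : ∀ w, B w (N (N w)) = 0 := by
    intro w
    have h1 := e1 (N w) w
    have h2' := e1 (w + N w) (N w)
    have h3 : N w + N (N w) = N (w + N w) := by rw [map_add]
    rw [← h3] at h2'
    have h4 : B (w + N w + (N w + N (N w))) (N (N w)) = B w (N (N w)) := by
      have := e2 (w + N w) w
      rw [h3, this, e2]
    rw [h4] at h2'
    have h5 := hskew (N (N w)) w
    have h6 : 2 * B w (N (N w)) = 0 := by linear_combination h5 - h1 + h2'
    exact (mul_eq_zero.1 h6).resolve_left h2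
  by_contra hw
  -- the range of `N²` has dimension at least two
  obtain ⟨v, hv⟩ : ∃ v, B v (N (N w)) ≠ 0 := by
    by_contra hcon
    push Not at hcon
    exact hw (hnd _ hcon)
  have hpol : B w (N (N v)) = - B v (N (N w)) := by
    have h := key (v + w)
    simp only [map_add, LinearMap.add_apply, key] at h
    linear_combination h
  have hli : LinearIndependent F ![N (N w), N (N v)] := by
    rw [LinearIndependent.pair_iff]
    intro s t hst
    have h1 : B w (s • N (N w) + t • N (N v)) = 0 := by rw [hst, map_zero]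
    simp only [map_add, map_smul, key, smul_eq_mul, mul_zero, zero_add] at h1
    have ht : t = 0 := (mul_eq_zero.1 h1).resolve_right (by rw [hpol]; exact neg_ne_zero.2 hv)
    rw [ht, zero_smul, add_zero] at hst
    exact ⟨(smul_eq_zero.1 hst).resolve_right hw, ht⟩
  set R := LinearMap.range (N ∘ₗ N) with hR
  have hle : Submodule.span F (Set.range ![N (N w), N (N v)]) ≤ R := by
    rw [Submodule.span_le]
    rintro _ ⟨i, rfl⟩
    fin_cases i
    · exact ⟨w, rfl⟩
    · exact ⟨v, rfl⟩
  have hR2 : 2 ≤ finrank F R := by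
    have h1 := finrank_span_eq_card hli
    rw [Fintype.card_fin] at h1
    have h2 : (2 : ℕ) = Nat.succ (Nat.succ 0) := rfl
    rw [h2, ← h1]
    exact Submodule.finrank_mono hle
  -- `range N²` is contained in the kernel of `N` restricted to `range N`
  let N' : LinearMap.range N →ₗ[F] V := N.domRestrict (LinearMap.range N)
  have r1 := LinearMap.finrank_range_add_finrank_ker N'
  have r2 : LinearMap.range N' = R := by
    apply le_antisymm
    · rintro _ ⟨⟨_, ⟨x, rfl⟩⟩, rfl⟩
      exact ⟨x, rfl⟩
    · rintro _ ⟨x, rfl⟩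
      exact ⟨⟨N x, ⟨x, rfl⟩⟩, rfl⟩
  have r3 : finrank F R ≤ finrank F (LinearMap.ker N') := by
    have hle' : ∀ x ∈ R, x ∈ LinearMap.range N := by
      rintro _ ⟨x, rfl⟩
      exact ⟨N x, rfl⟩
    let f : R →ₗ[F] LinearMap.ker N' :=
      { toFun := fun x => ⟨⟨x.1, hle' x.1 x.2⟩, by
          obtain ⟨x, ⟨y, rfl⟩⟩ := x
          rw [LinearMap.mem_ker]
          exact hN y⟩
        map_add' := fun x y => rfl
        map_smul' := fun c x => rfl }
    apply LinearMap.finrank_le_finrank_of_injective (f := f)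
    intro x y hxy
    apply Subtype.ext
    exact congrArg (fun z : LinearMap.ker N' => (z.1.1 : V)) hxy
  rw [r2] at r1
  have r4 := LinearMap.finrank_range_add_finrank_ker N
  have r5 : finrank F R ≤ finrank F (LinearMap.ker N) := by
    apply Submodule.finrank_mono
    rintro _ ⟨x, rfl⟩
    rw [LinearMap.mem_ker]
    exact hN x
  omega

/-- from `N² = 0` and `dim N(V) ≥ 2` -/
theorem concl (hV : finrank F V = 4) (B : V →ₗ[F] V →ₗ[F] F) (N : V →ₗ[F] V) (hN : ∀ v, N (N v) = 0)
    (hiso : ∀ v w, B (v + N v) (w + N w) = B v w) (hr : 2 ≤ finrank F (LinearMap.range N)) :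
    finrank F (LinearMap.ker N) = 2 ∧ ∀ v w, N v = 0 → N w = 0 → B v w = 0 := by
  have hle : LinearMap.range N ≤ LinearMap.ker N := by
    rintro _ ⟨x, rfl⟩
    rw [LinearMap.mem_ker]
    exact hN x
  have r1 := LinearMap.finrank_range_add_finrank_ker N
  have r2 := Submodule.finrank_mono hle
  have r3 : finrank F (LinearMap.ker N) = 2 := by omega
  refine ⟨r3, fun v w hv hw => ?_⟩
  have heq : LinearMap.range N = LinearMap.ker N := Submodule.eq_of_le_of_finrank_eq hle (by omega)
  have hw' : w ∈ LinearMap.range N := by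
    rw [heq, LinearMap.mem_ker]
    exact hw
  obtain ⟨u, rfl⟩ := hw'
  have h := hiso v u
  rw [hv, add_zero, map_add] at h
  linear_combination h

/-- over a field with three elements an element `W` of order dividing `5` with `dim (W-1)V ≤ 2` is `1` -/
theorem eq_one_of_rank [Fintype F] (hF : Fintype.card F = 3) (W : V →ₗ[F] V) (hW : W ^ 5 = 1)
    (hr : finrank F (LinearMap.range (W - 1)) ≤ 2) : W = 1 := by
  classical
  have h3 : (3 : F) = 0 := by
    have := FiniteField.cast_card_eq_zero F
    rw [hF] at this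
    exact_mod_cast this
  have : Fintype V := by
    have : Finite V := Module.finite_of_finite F
    exact Fintype.ofFinite V
  set U := LinearMap.range (W - 1) with hU
  have hmap : ∀ u ∈ U, W u ∈ U := by
    rintro _ ⟨x, rfl⟩
    refine ⟨W x, ?_⟩
    simp [LinearMap.sub_apply]
  let f : Function.End U := fun u => ⟨W u.1, hmap u.1 u.2⟩
  have hpow : ∀ n : ℕ, ∀ u : U, ((f ^ n) u : U).1 = (W ^ n) u.1 := by
    intro n
    induction n with
    | zero => intro u; rfl
    | succ n ih =>
      intro u
      rw [pow_succ, pow_succ]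
      exact ih (f u)
  have hf5 : f ^ 5 ^ 1 = 1 := by
    funext u
    apply Subtype.ext
    rw [pow_one, hpow, hW]
    rfl
  have hfact : Fact (Nat.Prime 5) := ⟨by norm_num⟩
  have hcard := Equiv.Perm.card_fixedPoints_modEq (f := f) (p := 5) (n := 1) hf5
  -- the fixed points form a submodule
  let U' : Submodule F V := U ⊓ LinearMap.ker (W - 1)
  have hcard' : Fintype.card f.fixedPoints = Fintype.card U' := by
    apply Fintype.card_congr
    refine ⟨fun u => ⟨u.1.1, u.1.2, ?_⟩, fun u => ⟨⟨u.1, u.2.1⟩, ?_⟩, fun u => rfl, fun u => rfl⟩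
    · have h1 : f u.1 = u.1 := u.2
      have h2 := congrArg Subtype.val h1
      rw [SetLike.mem_coe, LinearMap.mem_ker, LinearMap.sub_apply, sub_eq_zero]
      exact h2
    · have h1 := u.2.2
      rw [SetLike.mem_coe, LinearMap.mem_ker, LinearMap.sub_apply, sub_eq_zero] at h1
      exact Subtype.ext h1
  have hU' : U' = U := by
    apply Submodule.eq_of_le_of_finrank_eq inf_le_left
    have c1 : Fintype.card U = 3 ^ finrank F U := by rw [Module.card_eq_pow_finrank (K := F), hF]
    have c2 : Fintype.card U' = 3 ^ finrank F U' := by rw [Module.card_eq_pow_finrank (K := F), hF]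
    have c3 : finrank F U' ≤ finrank F U := Submodule.finrank_mono inf_le_left
    rw [hcard', c1, c2] at hcard
    have c4 : finrank F U ≤ 2 := hr
    generalize finrank F U = a at *
    generalize finrank F U' = b at *
    interval_cases a <;> interval_cases b <;> first | rfl | (exfalso; revert hcard; decide)
  have hsq : ∀ v, (W - 1) ((W - 1) v) = 0 := by
    intro v
    have h1 : (W - 1) v ∈ U' := by rw [hU']; exact ⟨v, rfl⟩
    exact h1.2
  have hPP : (W - 1) * (W - 1) = 0 := by
    ext v
    exact hsq v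
  have e5 : W ^ 5 - 1 - 5 * (W - 1) = ((W - 1) * (W - 1)) * (W ^ 3 + 2 * W ^ 2 + 3 * W + 4) := by noncomm_ring
  rw [hW, hPP, zero_mul, sub_self, zero_sub, neg_eq_zero] at e5
  have h5 : (5 : F) ≠ 0 := by
    intro h
    have h1 : (1 : F) = 0 := by linear_combination 2 * h3 - h
    exact one_ne_zero h1
  ext v
  have e6 : (5 : F) • (W v - v) = 0 := by
    have := congrArg (fun X : V →ₗ[F] V => X v) e5
    simp only [LinearMap.zero_apply] at this
    rw [← this]
    change (5 : F) • (W v - v) = (5 : Module.End F V) ((W - 1) v)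
    have : (5 : Module.End F V) = algebraMap F (Module.End F V) 5 := (map_ofNat (algebraMap F _) 5).symm
    rw [this]
    rfl
  have e7 := (smul_eq_zero.1 e6).resolve_left h5
  exact sub_eq_zero.1 e7

end Lin

section Grp

open Matrix

variable {F K V X : Type*} [Field F] [AddCommGroup V] [Module F V] [FiniteDimensional F V] [Group X]

theorem finrank_mul_left (A P : Module.End F V) :
    finrank F (LinearMap.range (A * P)) ≤ finrank F (LinearMap.range P) := by
  change finrank F (LinearMap.range (A.comp P)) ≤ _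
  rw [LinearMap.range_comp]
  exact Submodule.finrank_map_le A _

theorem finrank_mul_right (A P : Module.End F V) :
    finrank F (LinearMap.range (P * A)) ≤ finrank F (LinearMap.range P) := by
  apply Submodule.finrank_mono
  exact LinearMap.range_comp_le_range A P

theorem finrank_add (A P : Module.End F V) :
    finrank F (LinearMap.range (P + A)) ≤ finrank F (LinearMap.range P) + finrank F (LinearMap.range A) := by
  refine le_trans (Submodule.finrank_mono (t := LinearMap.range P ⊔ LinearMap.range A) ?_)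
    (Submodule.finrank_add_le_finrank_add_finrank _ _)
  rintro _ ⟨x, rfl⟩
  exact Submodule.add_mem_sup ⟨x, rfl⟩ ⟨x, rfl⟩

/-- if `dim (ρ x - 1)V ≤ 1` then `dim (ρ w - 1)V ≤ 2` for `w = (x s x s⁻¹)²` -/
theorem rank_le (ρ : X →* Module.End F V) (x s : X) (h : finrank F (LinearMap.range (ρ x - 1)) ≤ 1) :
    finrank F (LinearMap.range (ρ ((x * (s * x * s⁻¹)) * (x * (s * x * s⁻¹))) - 1)) ≤ 2 := by
  have h1 : finrank F (LinearMap.range (ρ (s * x * s⁻¹) - 1)) ≤ 1 := by
    have e : ρ (s * x * s⁻¹) - 1 = ρ s * ((ρ x - 1) * ρ s⁻¹) := by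
      have : ρ s * ρ s⁻¹ = 1 := by rw [← map_mul, mul_inv_cancel, map_one]
      rw [map_mul, map_mul, sub_mul, mul_sub, one_mul, this, mul_assoc]
    rw [e]
    exact (finrank_mul_left _ _).trans ((finrank_mul_right _ _).trans h)
  have h2 : finrank F (LinearMap.range (ρ (x * (s * x * s⁻¹)) - 1)) ≤ 2 := by
    have e : ρ (x * (s * x * s⁻¹)) - 1 = ρ x * (ρ (s * x * s⁻¹) - 1) + (ρ x - 1) := by
      rw [map_mul, mul_sub, mul_one]; abel
    rw [e]
    refine (finrank_add _ _).trans ?_
    have := finrank_mul_left (ρ x) (ρ (s * x * s⁻¹) - 1)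
    omega
  have e : ρ ((x * (s * x * s⁻¹)) * (x * (s * x * s⁻¹))) - 1 =
      (ρ (x * (s * x * s⁻¹)) - 1) * (ρ (x * (s * x * s⁻¹)) + 1) := by
    rw [map_mul]
    noncomm_ring
  rw [e]
  exact (finrank_mul_right _ _).trans h2

end Grp

end Cfsg.Agent.H311.SpFourThree
end

-- part: H311/SLTwoFive
section
/-!
# Elements of order three of `SL₂(5)` (for S3213)
-/

set_option autoImplicit false

namespace Cfsg.Agent.H311.SLTwoFive

open Matrix Cfsg.Agent.Lib.SL2Mat Cfsg.Agent.Lib.AutSL2 Cfsg.Agent.LFourR.Mat2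
open Cfsg.Agent.LFourR.FieldPart (val_mul val_one val_pow coe_mk)

variable {K : Type*} [Field K]

/-- the standard element of order three -/
def u (K : Type*) [Field K] : Matrix.SpecialLinearGroup (Fin 2) K := mk 0 (-1) 1 (-1) (by ring)

theorem u_calc (h5 : (5 : K) = 0) :
    (u K * (up 1 * u K * (up 1)⁻¹)) * (u K * (up 1 * u K * (up 1)⁻¹)) = up 1 := by
  rw [up_inv]
  apply ext_ent <;> simp [ent_mul, u] <;> first
    | ring1
    | linear_combination (-1 : K) * h5
    | linear_combination h5

theorem up_pow_five (h5 : (5 : K) = 0) : (up 1 : Matrix.SpecialLinearGroup (Fin 2) K) ^ 5 = 1 := by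
  rw [up_pow]
  push_cast
  rw [h5, zero_mul, up_zero]

/-- an element of order three of `SL₂(K)`, `|K| = 5` -/
theorem exists_five (h5 : (5 : K) = 0) (x : Matrix.SpecialLinearGroup (Fin 2) K) (hx : orderOf x = 3) :
    ∃ s, ((x * (s * x * s⁻¹)) * (x * (s * x * s⁻¹))) ^ 5 = 1 ∧ (x * (s * x * s⁻¹)) * (x * (s * x * s⁻¹)) ≠ 1 := by
  have h2 : (2 : K) ≠ 0 := by
    intro h
    have h1 : (1 : K) = 0 := by linear_combination h5 - 2 * h
    exact one_ne_zero h1
  have hx3 : x ^ 3 = 1 := by rw [← hx]; exact pow_orderOf_eq_one x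
  have hns : ¬ IsSc x.1 := by
    rintro ⟨c, hc⟩
    have hd := x.2
    rw [hc, det_smul, det_one, Fintype.card_fin, mul_one] at hd
    have hx2 : x ^ 2 = 1 := by
      apply Subtype.ext
      rw [val_pow, hc, smul_pow, one_pow, hd, one_smul]
      rfl
    have := orderOf_dvd_of_pow_eq_one hx2
    rw [hx] at this
    omega
  have hch : x.1 * x.1 = x.1.trace • x.1 - (1 : Matrix (Fin 2) (Fin 2) K) := by
    have hd := det_fin_two x.1
    rw [x.2] at hd
    rw [trace_fin_two]
    ext i j
    fin_cases i <;> fin_cases j <;> simp [Matrix.mul_apply, Fin.sum_univ_two] <;> first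
      | ring1
      | linear_combination -hd
      | linear_combination hd
  have ht : x.1.trace = -1 := by
    set t := x.1.trace with htdef
    have h3 : x.1 * x.1 * x.1 = 1 := by
      have h := congrArg Subtype.val hx3
      rw [val_pow, pow_succ, pow_two] at h
      exact h
    rw [hch, Matrix.sub_mul, Matrix.smul_mul, hch, Matrix.one_mul, smul_sub, smul_smul] at h3
    have h4 : (t * t - 1) • x.1 = (1 + t) • (1 : Matrix (Fin 2) (Fin 2) K) := by
      rw [sub_smul, add_smul, one_smul, one_smul]
      have h5' : (t * t) • x.1 - x.1 = ((t * t) • x.1 - t • 1 - x.1) + t • (1 : Matrix (Fin 2) (Fin 2) K) := by abel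
      rw [h5', h3]
    by_cases h0 : t * t - 1 = 0
    · rw [h0, zero_smul] at h4
      have h6 := congrArg (fun M : Matrix (Fin 2) (Fin 2) K => M 0 0) h4
      simp at h6
      linear_combination -h6
    · exfalso
      apply hns
      refine ⟨(t * t - 1)⁻¹ * (1 + t), ?_⟩
      rw [mul_smul, ← h4, smul_smul, inv_mul_cancel₀ h0, one_smul]
  obtain ⟨g, hg⟩ := exists_conj_of_same (M := x.1) (M' := (u K).1) hns (by
      rintro ⟨c, hc⟩
      have := congrArg (fun M : Matrix (Fin 2) (Fin 2) K => M 1 0) hc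
      simp [u, coe_mk] at this) (by rw [x.2, (u K).2]) (by rw [ht, u, coe_mk, trace_fin_two]; simp)
  have hxu : conjGL g (u K) = x := (conjGL_eq_iff _ _ _).2 hg.symm
  refine ⟨conjGL g (up 1), ?_⟩
  have e : (x * (conjGL g (up 1) * x * (conjGL g (up 1))⁻¹)) * (x * (conjGL g (up 1) * x * (conjGL g (up 1))⁻¹)) =
      conjGL g (up 1) := by
    rw [← hxu, ← map_inv, ← map_mul, ← map_mul, ← map_mul, ← map_mul, u_calc h5]
  rw [e, ← map_pow, up_pow_five h5, map_one]
  refine ⟨rfl, fun h => ?_⟩
  have h1 : (up 1 : Matrix.SpecialLinearGroup (Fin 2) K) = 1 := by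
    apply (conjGL g).injective
    rw [h, map_one]
  rw [← up_zero] at h1
  exact one_ne_zero (up_inj h1)

end Cfsg.Agent.H311.SLTwoFive
end

-- part: S3213
section
set_option autoImplicit false
open Cfsg

namespace Cfsg.Agent.S3213

/-- Let F be the field with 3 elements and K the field with 5 elements. For every injective homomorphism φ from SL₂(K) into the symplectic group Sp₄(F) (4 × 4 matrices g with g J gᵀ = J for the standard alternating matrix J) and every element x of order 3 of SL₂(K), the vectors of F⁴ fixed by φ(x) form a 2-dimensional subspace that is totally isotropic for the alternating form defined by J. -/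
theorem result {F : Type*} [Field F] [Fintype F] (hF : Fintype.card F = 3)
    {K : Type*} [Field K] [Fintype K] (hK : Fintype.card K = 5)
    (φ : Matrix.SpecialLinearGroup (Fin 2) K →* ↥(Matrix.symplecticGroup (Fin 2) F)) (hφ : Function.Injective φ)
    (x : Matrix.SpecialLinearGroup (Fin 2) K) (hx : orderOf x = 3) :
    Module.finrank F ↥(LinearMap.ker (Matrix.toLin' ((φ x : Matrix (Fin 2 ⊕ Fin 2) (Fin 2 ⊕ Fin 2) F)) - LinearMap.id)) = 2 ∧
      ∀ v w : Fin 2 ⊕ Fin 2 → F, (φ x : Matrix (Fin 2 ⊕ Fin 2) (Fin 2 ⊕ Fin 2) F).mulVec v = v →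
        (φ x : Matrix (Fin 2 ⊕ Fin 2) (Fin 2 ⊕ Fin 2) F).mulVec w = w →
          dotProduct v ((Matrix.J (Fin 2) F).mulVec w) = 0 := by
  classical
  have h3 : (3 : F) = 0 := by
    have := FiniteField.cast_card_eq_zero F
    rw [hF] at this
    exact_mod_cast this
  have h5 : (5 : K) = 0 := by
    have := FiniteField.cast_card_eq_zero K
    rw [hK] at this
    exact_mod_cast this
  have h2 : (2 : F) ≠ 0 := by
    intro h
    have h1 : (1 : F) = 0 := by linear_combination h3 - h
    exact one_ne_zero h1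
  -- the representation
  let ρ : Matrix.SpecialLinearGroup (Fin 2) K →* Module.End F (Fin 2 ⊕ Fin 2 → F) :=
    { toFun := fun g => Matrix.toLin' ((φ g : Matrix (Fin 2 ⊕ Fin 2) (Fin 2 ⊕ Fin 2) F))
      map_one' := by
        rw [map_one]
        exact Matrix.toLin'_one
      map_mul' := by
        intro a b
        rw [map_mul]
        exact Matrix.toLin'_mul _ _ }
  have hρ : ∀ g v, ρ g v = ((φ g : Matrix (Fin 2 ⊕ Fin 2) (Fin 2 ⊕ Fin 2) F)).mulVec v := fun g v => rfl
  have hρinj : ∀ g, ρ g = 1 → g = 1 := by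
    intro g hg
    apply hφ
    apply Subtype.ext
    rw [map_one]
    apply Matrix.toLin'.injective
    change ρ g = _
    rw [hg]
    exact Matrix.toLin'_one.symm
  -- the form
  let B : (Fin 2 ⊕ Fin 2 → F) →ₗ[F] (Fin 2 ⊕ Fin 2 → F) →ₗ[F] F := Matrix.toLinearMap₂' F (Matrix.J (Fin 2) F)
  have hBdef : ∀ v w, B v w = dotProduct v ((Matrix.J (Fin 2) F).mulVec w) := fun v w =>
    Matrix.toLinearMap₂'_apply' _ _ _
  have hB : ∀ v, B v v = 0 := by
    intro v
    rw [hBdef]
    simp [Matrix.J, Matrix.mulVec, dotProduct, Fin.sum_univ_two, Matrix.fromBlocks]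
    ring
  have hnd : ∀ v, (∀ w, B w v = 0) → v = 0 := by
    intro v hv
    have h1 : (Matrix.J (Fin 2) F).mulVec v = 0 := by
      funext i
      have := hv (Pi.single i 1)
      rw [hBdef, single_dotProduct, one_mul] at this
      exact this
    have h2' : (Matrix.J (Fin 2) F).mulVec ((Matrix.J (Fin 2) F).mulVec v) = - v := by
      rw [Matrix.mulVec_mulVec, Matrix.J_squared, Matrix.neg_mulVec, Matrix.one_mulVec]
    rw [h1, Matrix.mulVec_zero] at h2'
    exact neg_eq_zero.1 h2'.symm
  have hpres : ∀ g v w, B (ρ g v) (ρ g w) = B v w := by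
    intro g v w
    rw [hBdef, hBdef, hρ, hρ, Matrix.mulVec_mulVec]
    have h1 := (SymplecticGroup.mem_iff').1 (φ g).2
    rw [Matrix.dotProduct_mulVec, Matrix.vecMul_mulVec, ← Matrix.dotProduct_mulVec, ← Matrix.mul_assoc, h1]
  have hx3 : x ^ 3 = 1 := by rw [← hx]; exact pow_orderOf_eq_one x
  set N : Module.End F (Fin 2 ⊕ Fin 2 → F) := ρ x - 1 with hNdef
  have hV : Module.finrank F (Fin 2 ⊕ Fin 2 → F) = 4 := by
    rw [Module.finrank_pi]
    rfl
  have hiso : ∀ v w, B (v + N v) (w + N w) = B v w := by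
    intro v w
    have e : ∀ v, v + N v = ρ x v := by
      intro v
      rw [hNdef, LinearMap.sub_apply, Module.End.one_apply, add_sub_cancel]
    rw [e, e]
    exact hpres x v w
  have hN3 : ∀ v, N (N (N v)) = 0 := by
    intro v
    have h3' : (3 : Module.End F (Fin 2 ⊕ Fin 2 → F)) = 0 := by
      rw [← map_ofNat (algebraMap F (Module.End F (Fin 2 ⊕ Fin 2 → F))) 3]
      rw [show (OfNat.ofNat 3 : F) = 0 from h3, map_zero]
    have e : N * N * N = 0 := by
      rw [hNdef, Cfsg.Agent.H311.SpFourThree.cube_eq h3', ← map_pow, hx3, map_one, sub_self]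
    exact congrArg (fun X : Module.End F (Fin 2 ⊕ Fin 2 → F) => X v) e
  have hN2 : ∀ v, N (N v) = 0 :=
    Cfsg.Agent.H311.SpFourThree.sq_eq_zero h2 hV B hB hnd N hN3 hiso
  have hr : 2 ≤ Module.finrank F (LinearMap.range N) := by
    by_contra hcon
    obtain ⟨s, hs5, hs1⟩ := Cfsg.Agent.H311.SLTwoFive.exists_five h5 x hx
    have h4 := Cfsg.Agent.H311.SpFourThree.rank_le ρ x s (by
      have h6 : Module.finrank F (LinearMap.range (ρ x - 1)) = Module.finrank F (LinearMap.range N) := rfl
      rw [h6]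
      omega)
    apply hs1
    apply hρinj
    exact Cfsg.Agent.H311.SpFourThree.eq_one_of_rank hF _ (by rw [← map_pow, hs5, map_one]) h4
  obtain ⟨hfin, hiso2⟩ := Cfsg.Agent.H311.SpFourThree.concl hV B N hN2 hiso hr
  refine ⟨hfin, fun v w hv hw => ?_⟩
  rw [← hBdef]
  apply hiso2
  · rw [hNdef, LinearMap.sub_apply, Module.End.one_apply, sub_eq_zero]
    exact hv
  · rw [hNdef, LinearMap.sub_apply, Module.End.one_apply, sub_eq_zero]
    exact hw

end Cfsg.Agent.S3213
end
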