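import Cfsg.Statements.S3229
import Cfsg.Agent.CoThreeStd.Core.Main
import Cfsg.Agent.CoThreeStd.Bound.BetaFin
import Cfsg.Agent.CoThreeStd.AutFacts
import Cfsg.Agent.Transfer.NormalPComplement
set_option linter.all false

set_option autoImplicit false
open Cfsg

namespace Cfsg.Agent.S3229

open Cfsg.Agent.CoThreeStd.MTwelve Cfsg.Agent.CoThreeStd.Fusion Cfsg.Agent.CoThreeStd.InvTwo
  Cfsg.Agent.LeechPack.X552 Cfsg.Agent.CoThreeStd.Model

universe u

theorem mz_cases : ∀ b : Multiplicative (ZMod 2), b = 1 ∨ b = Multiplicative.ofAdd 1 := by decide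

/-- the centraliser `⟨e⟩ × M₁₂` -/
theorem exists_ctx {G : Type u} [Group G] (e : G) (he : orderOf e = 2)
    (f : ↥(Subgroup.centralizer ({e} : Set G)) ≃* (Multiplicative (ZMod 2) × ↥Cfsg.Spor.M12)) :
    ∃ ι : ↥Cfsg.Spor.M12 →* G, Ctx e ι := by
  have hee : e * e = 1 := by rw [← pow_two, ← he, pow_orderOf_eq_one]
  have he1 : e ≠ 1 := by
    rintro rfl
    rw [orderOf_one] at he
    exact absurd he (by decide)
  let ι : ↥Cfsg.Spor.M12 →* G := (Subgroup.subtype _).comp
    (f.symm.toMonoidHom.comp (MonoidHom.inr (Multiplicative (ZMod 2)) ↥Cfsg.Spor.M12))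
  have hι : ∀ m, ι m = (f.symm (1, m) : G) := fun m => rfl
  let e' : ↥(Subgroup.centralizer ({e} : Set G)) := ⟨e, Subgroup.mem_centralizer_singleton_iff.2 rfl⟩
  have hcen : ∀ x, x * e' = e' * x := fun x => Subtype.ext (Subgroup.mem_centralizer_singleton_iff.1 x.2)
  have hfe : f e' = (Multiplicative.ofAdd 1, 1) := by
    have h2 : (f e').2 = 1 := by
      apply Cfsg.Agent.CoThreeStd.Gamma.center_trivial
      intro m
      have h := congrArg f (hcen (f.symm (1, m)))
      rw [map_mul, map_mul, f.apply_symm_apply] at h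
      exact (congrArg Prod.snd h).symm
    have h1 : (f e').1 = Multiplicative.ofAdd 1 := by
      rcases mz_cases (f e').1 with h | h
      · exfalso
        apply he1
        have h3 : f e' = 1 := Prod.ext h h2
        exact congrArg Subtype.val (f.injective (h3.trans (map_one f).symm))
      · exact h
    exact Prod.ext h1 h2
  refine ⟨ι, ?_, hee, he1, ?_, ?_, ?_⟩
  · intro m n h
    rw [hι, hι] at h
    have h1 := f.symm.injective (Subtype.ext h)
    exact congrArg Prod.snd h1
  · intro m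
    exact Subgroup.mem_centralizer_singleton_iff.1 (f.symm (1, m)).2
  · intro m h
    have h1 : f.symm (1, m) = e' := Subtype.ext h
    have h2 : ((1, m) : Multiplicative (ZMod 2) × ↥Cfsg.Spor.M12) = (Multiplicative.ofAdd 1, 1) := by
      rw [← hfe, ← h1, f.apply_symm_apply]
    have h3 : (1 : Multiplicative (ZMod 2)) = Multiplicative.ofAdd 1 := congrArg Prod.fst h2
    exact absurd h3 (by decide)
  · intro c hc
    let c' : ↥(Subgroup.centralizer ({e} : Set G)) := ⟨c, Subgroup.mem_centralizer_singleton_iff.2 hc⟩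
    refine ⟨(f c').2, ?_⟩
    rcases mz_cases (f c').1 with h | h
    · left
      have h1 : f c' = (1, (f c').2) := Prod.ext h rfl
      have h2 : c' = f.symm (1, (f c').2) := by rw [← h1, f.symm_apply_apply]
      exact congrArg Subtype.val h2
    · right
      have h1 : f c' = f e' * (1, (f c').2) := by
        rw [hfe]
        exact Prod.ext (by rw [h]; rfl) (by simp)
      have h2 : c' = e' * f.symm (1, (f c').2) := by
        apply f.injective
        rw [map_mul, f.apply_symm_apply, ← h1]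
      exact congrArg Subtype.val h2

/-- `M₁₂` lies in `O²(G)` -/
theorem mem_residual {G : Type u} [Group G] [Finite G] (ι : ↥Cfsg.Spor.M12 →* G) (m : ↥Cfsg.Spor.M12) :
    ι m ∈ Cfsg.pResidual 2 G := by
  have hf : Fact (Nat.Prime 2) := ⟨Nat.prime_two⟩
  have hs : IsSimpleGroup ↥Cfsg.Spor.M12 := Cfsg.Agent.CoThreeStd.AutFacts.facts.simple
  have hN : (Cfsg.pResidual 2 G).Normal := Cfsg.Agent.Transfer.NormalPComplement.pResidual_normal 2 G
  have hfin : Finite ↥Cfsg.Spor.M12 := inferInstance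
  have hR : (Cfsg.pResidual 2 ↥Cfsg.Spor.M12).Normal :=
    Cfsg.Agent.Transfer.NormalPComplement.pResidual_normal 2 _
  have htop : Cfsg.pResidual 2 ↥Cfsg.Spor.M12 = ⊤ := by
    rcases hR.eq_bot_or_eq_top with h | h
    · exfalso
      have hp : IsPGroup 2 (↥Cfsg.Spor.M12 ⧸ Cfsg.pResidual 2 ↥Cfsg.Spor.M12) :=
        Cfsg.Agent.Transfer.NormalPComplement.isPGroup_quotient_pResidual
      have hp2 : IsPGroup 2 ↥Cfsg.Spor.M12 :=
        hp.of_injective (QuotientGroup.mk' _) (by
          rw [← MonoidHom.ker_eq_bot_iff, QuotientGroup.ker_mk', h])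
      have hnil : Group.IsNilpotent ↥Cfsg.Spor.M12 := hp2.isNilpotent
      have hsol : Group.IsSolvable ↥Cfsg.Spor.M12 := inferInstance
      obtain ⟨x, y, hxy⟩ := Cfsg.Agent.CoThreeStd.AutFacts.facts.nonab
      exact hxy (IsSimpleGroup.comm_iff_isSolvable.2 hsol x y)
    · exact h
  have hp : IsPGroup 2 (G ⧸ Cfsg.pResidual 2 G) :=
    Cfsg.Agent.Transfer.NormalPComplement.isPGroup_quotient_pResidual
  have h1 := Cfsg.Agent.Transfer.NormalPComplement.pResidual_le_ker hp
    ((QuotientGroup.mk' (Cfsg.pResidual 2 G)).comp ι)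
  rw [htop] at h1
  have h2 := h1 (Subgroup.mem_top m)
  rw [MonoidHom.mem_ker, MonoidHom.comp_apply] at h2
  exact (QuotientGroup.eq_one_iff (ι m)).1 h2


/-- Let G be a finite group with an involution e such that C_G(e) ≅ Z₂ × M₁₂ and e lies in O²(G) (the subgroup generated by the elements of odd order). Then G is isomorphic to the third Conway group Co₃. -/
theorem result {G : Type*} [Group G] [Finite G]
    (e : G) (he : orderOf e = 2) (hC : Nonempty (↥(Subgroup.centralizer ({e} : Set G)) ≃* (Multiplicative (ZMod 2) × ↥Cfsg.Spor.M12)))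
    (hO : e ∈ Cfsg.pResidual 2 G) : Cfsg.Spor.IsoCo3 G := by
  have hf : Fact (Nat.Prime 2) := ⟨Nat.prime_two⟩
  obtain ⟨f⟩ := hC
  obtain ⟨ι, c⟩ := exists_ctx e he f
  have hNn : (Cfsg.pResidual 2 G).Normal := Cfsg.Agent.Transfer.NormalPComplement.pResidual_normal 2 G
  have hCN : ∀ g, g * e = e * g → g ∈ Cfsg.pResidual 2 G := by
    intro g hg
    obtain ⟨m, h | h⟩ := c.cent g hg
    · rw [h]; exact mem_residual ι m
    · rw [h]; exact mul_mem hO (mem_residual ι m)
  let t : ↥(Cfsg.pResidual 2 G) := ⟨e, hO⟩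
  let ι' : ↥Cfsg.Spor.M12 →* ↥(Cfsg.pResidual 2 G) := ι.codRestrict _ (mem_residual ι)
  have c' : Ctx t ι' := by
    refine ⟨fun m n h => c.inj (congrArg Subtype.val h), Subtype.ext c.tt,
      fun h => c.t_ne (congrArg Subtype.val h), fun m => Subtype.ext (c.comm m),
      fun m h => c.nmem m (congrArg Subtype.val h), ?_⟩
    intro g hg
    obtain ⟨m, h | h⟩ := c.cent (g : G) (congrArg Subtype.val hg)
    · exact ⟨m, Or.inl (Subtype.ext h)⟩
    · exact ⟨m, Or.inr (Subtype.ext h)⟩
  have hidx : ∀ K : Subgroup ↥(Cfsg.pResidual 2 G), K.index ≠ 2 := by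
    intro K hK
    have hKn : K.Normal := Subgroup.normal_of_index_eq_two hK
    have hp : IsPGroup 2 (↥(Cfsg.pResidual 2 G) ⧸ K) := by
      apply IsPGroup.of_card (n := 1)
      rw [pow_one]
      exact hK
    have h1 : K = ⊤ := by
      rw [eq_top_iff]
      intro x _
      exact (QuotientGroup.eq_one_iff x).1
        (Cfsg.Agent.Transfer.NormalPComplement.hom_pResidual_eq_one hp (QuotientGroup.mk' K) x)
    rw [h1, Subgroup.index_top] at hK
    exact absurd hK (by decide)
  have P := Cfsg.Agent.CoThreeStd.Core.pd_of hidx c'.tt c'.t_ne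
  obtain ⟨E, hE⟩ := Cfsg.Agent.CoThreeStd.Core.exists_equiv
    Cfsg.Agent.CoThreeStd.Bound.BetaFin.betaIso P (fun _ => trivial) c'
  -- `N = G`
  have htop : Cfsg.pResidual 2 G = ⊤ := by
    rw [eq_top_iff]
    intro g _
    have hgN : g * e * g⁻¹ ∈ Cfsg.pResidual 2 G := hNn.conj_mem e hO g
    let s : ↥(Cfsg.pResidual 2 G) := ⟨g * e * g⁻¹, hgN⟩
    have hs : IsConj t s := by
      by_contra hne
      have hss : s * s = 1 := by
        apply Subtype.ext
        show g * e * g⁻¹ * (g * e * g⁻¹) = 1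
        calc g * e * g⁻¹ * (g * e * g⁻¹) = g * (e * e) * g⁻¹ := by group
          _ = 1 := by rw [c.tt]; group
      have hs1 : s ≠ 1 := by
        intro h
        have h1 : g * e * g⁻¹ = 1 := congrArg Subtype.val h
        rw [mul_inv_eq_one, mul_eq_left] at h1
        exact c.t_ne h1
      have hEt : E.symm t = Cfsg.Agent.CoThreeStd.HInst.facts.t := by
        rw [Cfsg.Agent.CoThreeStd.HInst.facts_t, ← hE, E.symm_apply_apply]
      have hnd : ∀ x : ↥(Cfsg.pResidual 2 G), x * x = 1 → x ≠ 1 → ¬ IsConj t x →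
          Cfsg.Agent.CoThreeStd.HFacts.Nd Cfsg.Agent.CoThreeStd.HInst.facts.t (E.symm x) := by
        intro x h1 h2 h3
        refine ⟨by rw [← map_mul, h1, map_one], fun h => h2 ?_, fun h => h3 ?_⟩
        · exact E.symm.injective (h.trans (map_one _).symm)
        · rw [← hEt] at h
          have := MonoidHom.map_isConj E.toMonoidHom h
          simpa using this
      have hb := hnd (ι' (p * r)) (by rw [← map_mul, pr_sq, map_one])
        (fun h => pr_ne (c'.inj (h.trans (map_one _).symm))) (not_conj_b c' inv2 isB_pr)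
      have h1 := Cfsg.Agent.CoThreeStd.Core.conj_of_nd Cfsg.Agent.CoThreeStd.HInst.facts (hnd s hss hs1 hne) hb
      have h2 := MonoidHom.map_isConj ((Subgroup.subtype _).comp E.toMonoidHom) h1
      have h3 : IsConj (g * e * g⁻¹) (ι (p * r)) := by
        simpa [s, ι'] using h2
      exact not_conj_b c inv2 isB_pr ((isConj_iff.2 ⟨g, rfl⟩ : IsConj e (g * e * g⁻¹)).trans h3)
    obtain ⟨n, hn⟩ := isConj_iff.1 hs
    have hn' : (n : G) * e * (n : G)⁻¹ = g * e * g⁻¹ := congrArg Subtype.val hn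
    have h1 : (n : G)⁻¹ * g ∈ Cfsg.pResidual 2 G := by
      apply hCN
      calc (n : G)⁻¹ * g * e = (n : G)⁻¹ * (g * e * g⁻¹) * g := by group
        _ = (n : G)⁻¹ * ((n : G) * e * (n : G)⁻¹) * g := by rw [hn']
        _ = e * ((n : G)⁻¹ * g) := by group
    have h2 := mul_mem n.2 h1
    rwa [mul_inv_cancel_left] at h2
  obtain ⟨e3⟩ := isoCo3_G3
  have e1 : G ≃* ↥(Cfsg.pResidual 2 G) :=
    Subgroup.topEquiv.symm.trans (MulEquiv.subgroupCongr htop.symm)
  exact ⟨e1.trans (E.symm.trans e3)⟩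

end Cfsg.Agent.S3229
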