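import Mathlib
import Cfsg.Prelude.Def_Local
import Cfsg.Prelude.Def_OddOrderLocal
import Cfsg.Agent.H320.PCon
import Cfsg.Agent.Involutions.NormalFour
import Cfsg.Agent.Involutions.RankThree
import Cfsg.Agent.Lib.KleinGen
import Cfsg.Agent.OddOrderLocal.ScnThree
import Cfsg.Statements.S3246
import Cfsg.Agent.EvenType.CharTwoCent
set_option linter.all false

-- part: H320/Early
section
/-!
Groups in which the centralizers of involutions have characteristic 2 and a Sylow 2-subgroup `S`
has a normal four-subgroup: `S` normalizes no nontrivial subgroup of odd order.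
-/

set_option autoImplicit false

namespace Cfsg.Agent.H320.Early

open Subgroup Cfsg.Agent.PLocal.PConstrained Cfsg.Agent.PLocal.PConstrainedLocal

variable {G : Type*} [Group G]

/-- An element of odd order acting on a 2-group and centralizing a subgroup of index at most two
centralizes it. -/
theorem commute_of_index_le_two [Finite G] {Q Q₀ : Subgroup G} (hQ : IsPGroup 2 Q)
    (hle : Q₀ ≤ Q) (hidx : Q₀.relIndex Q ≤ 2) {y : G} (hy : Odd (orderOf y))
    (hyQ : ∀ q ∈ Q, y * q * y⁻¹ ∈ Q) (hc : ∀ q ∈ Q₀, y * q = q * y) :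
    ∀ q ∈ Q, y * q = q * y := by
  intro q hq
  by_cases hq0 : q ∈ Q₀
  · exact hc q hq0
  have h2 : (Q₀.subgroupOf Q).index = 2 := by
    change Q₀.relIndex Q = 2
    have h0 : Q₀.relIndex Q ≠ 0 := Subgroup.index_ne_zero_of_finite
    have h1 : Q₀.relIndex Q ≠ 1 := by
      intro h
      exact hq0 (Subgroup.relIndex_eq_one.mp h hq)
    omega
  have hyq0 : y * q * y⁻¹ ∉ Q₀ := by
    intro h
    apply hq0
    have e1 := hc _ h
    have e2 : y * q = y * (y * q * y⁻¹) := by
      rw [e1]; group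
    have e3 : q = y * q * y⁻¹ := mul_left_cancel e2
    rw [e3]; exact h
  have hcm : q⁻¹ * (y * q * y⁻¹) ∈ Q₀ := by
    have h3 := (Subgroup.mul_mem_iff_of_index_two h2
      (a := (⟨q, hq⟩ : Q)⁻¹) (b := (⟨y * q * y⁻¹, hyQ q hq⟩ : Q))).mpr
      (by
        constructor
        · intro h
          exact absurd (Subgroup.mem_subgroupOf.mp (inv_mem_iff.mp h)) hq0
        · intro h
          exact absurd (Subgroup.mem_subgroupOf.mp h) hyq0)
    exact Subgroup.mem_subgroupOf.mp h3
  set c := q⁻¹ * (y * q * y⁻¹) with hcdef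
  have hyc : y * q * y⁻¹ = q * c := by rw [hcdef]; group
  have hyc' : y * c = c * y := hc c hcm
  have hpow : ∀ n : ℕ, y ^ n * q * (y ^ n)⁻¹ = q * c ^ n := by
    intro n
    induction n with
    | zero => simp
    | succ n ih =>
      have e : y ^ (n + 1) * q * (y ^ (n + 1))⁻¹ = y * (y ^ n * q * (y ^ n)⁻¹) * y⁻¹ := by
        rw [pow_succ']; group
      have e2 : y * c ^ n = c ^ n * y := by
        have : Commute y c := hyc'
        exact (this.pow_right n).eq
      rw [e, ih]
      calc y * (q * c ^ n) * y⁻¹ = (y * q * y⁻¹) * (y * c ^ n * y⁻¹) := by group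
        _ = (q * c) * (c ^ n) := by rw [hyc, e2]; group
        _ = q * c ^ (n + 1) := by rw [mul_assoc, ← pow_succ']
  have h4 := hpow (orderOf y)
  rw [pow_orderOf_eq_one] at h4
  have h5 : c ^ orderOf y = 1 := by
    have : q * c ^ orderOf y = q * 1 := by rw [← h4]; group
    exact mul_left_cancel this
  obtain ⟨k, hk⟩ := hQ ⟨c, hle hcm⟩
  have hk' : c ^ 2 ^ k = 1 := congrArg Subtype.val hk
  have hc1 : c = 1 := by
    have hd1 : orderOf c ∣ orderOf y := orderOf_dvd_of_pow_eq_one h5
    have hd2 : orderOf c ∣ 2 ^ k := orderOf_dvd_of_pow_eq_one hk'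
    have hcop : Nat.Coprime (orderOf y) (2 ^ k) := (Nat.coprime_two_right.mpr hy).pow_right k
    exact orderOf_eq_one_iff.mp (Nat.eq_one_of_dvd_coprimes hcop hd1 hd2)
  rw [hc1, mul_one] at hyc
  exact mul_inv_eq_iff_eq_mul.mp hyc

/-- `H` of characteristic 2, `Y ≤ H` of odd order normalized by a subgroup `R` of `H` meeting
`O₂(H)` in a subgroup of index at most two: `Y = 1`. -/
theorem eq_bot_of_char2 [Finite G] {H : Subgroup G}
    (hch : centralizer (pCore 2 ↥H : Set ↥H) ≤ pCore 2 ↥H) {Y R : Subgroup G} (hYH : Y ≤ H)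
    (hY : Odd (Nat.card Y)) (hR : ∀ r ∈ R, ∀ y ∈ Y, r * y * r⁻¹ ∈ Y)
    (hidx : R.relIndex ((pCore 2 ↥H).map H.subtype) ≤ 2) : Y = ⊥ := by
  set Q := (pCore 2 ↥H).map H.subtype with hQdef
  have hQ : IsPGroup 2 Q := (isPGroup_pCore 2 ↥H).map H.subtype
  have hYQ : ∀ y ∈ Y, ∀ q ∈ Q, y * q * y⁻¹ ∈ Q := by
    rintro y hy _ ⟨q, hq, rfl⟩
    exact ⟨⟨y, hYH hy⟩ * q * ⟨y, hYH hy⟩⁻¹, (pCore_normal 2 ↥H).conj_mem q hq _, rfl⟩
  have hQY : Q ⊓ Y = ⊥ := by
    have : Fact (Nat.Prime 2) := ⟨Nat.prime_two⟩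
    exact inf_eq_bot_of_isPGroup_of_coprime hQ (Nat.coprime_two_right.mpr hY)
  rw [Subgroup.eq_bot_iff_forall]
  intro y hy
  have hyodd : Odd (orderOf y) := by
    have h1 : orderOf (⟨y, hy⟩ : Y) ∣ Nat.card Y := orderOf_dvd_natCard _
    rw [← Subgroup.orderOf_coe] at h1
    exact hY.of_dvd_nat h1
  have hcomm : ∀ q ∈ Q, y * q = q * y := by
    refine commute_of_index_le_two (Q₀ := R ⊓ Q) hQ inf_le_right ?_ hyodd (hYQ y hy) ?_
    · rw [Subgroup.inf_relIndex_right]; exact hidx
    · rintro q ⟨hqR, hqQ⟩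
      have h1 : y * q * y⁻¹ * q⁻¹ ∈ Q := Q.mul_mem (hYQ y hy q hqQ) (Q.inv_mem hqQ)
      have h2 : y * q * y⁻¹ * q⁻¹ ∈ Y := by
        have : y * q * y⁻¹ * q⁻¹ = y * (q * y⁻¹ * q⁻¹) := by group
        rw [this]
        exact Y.mul_mem hy (hR q hqR _ (Y.inv_mem hy))
      have h3 : y * q * y⁻¹ * q⁻¹ ∈ Q ⊓ Y := ⟨h1, h2⟩
      rw [hQY, Subgroup.mem_bot] at h3
      have h4 : y * q * y⁻¹ = q := mul_inv_eq_one.mp h3
      exact mul_inv_eq_iff_eq_mul.mp h4
  have hyc : (⟨y, hYH hy⟩ : H) ∈ pCore 2 ↥H := by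
    apply hch
    rw [Subgroup.mem_centralizer_iff]
    intro q hq
    exact Subtype.ext (hcomm _ ⟨q, hq, rfl⟩).symm
  have h5 : y ∈ Q ⊓ Y := ⟨⟨_, hyc, rfl⟩, hy⟩
  rw [hQY, Subgroup.mem_bot] at h5
  exact h5

/-- If the conjugates of `t` are among two elements, its centralizer has index at most two. -/
theorem index_centralizer_le_two {P : Type*} [Group P] {t t' : P}
    (h : ∀ g : P, g * t * g⁻¹ = t ∨ g * t * g⁻¹ = t') :
    (centralizer ({t} : Set P)).index ≤ 2 := by
  by_cases htop : centralizer ({t} : Set P) = ⊤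
  · rw [htop, Subgroup.index_top]; omega
  · obtain ⟨a, ha⟩ : ∃ a : P, a ∉ centralizer ({t} : Set P) := by
      by_contra hcon
      push Not at hcon
      exact htop ((Subgroup.eq_top_iff' _).mpr hcon)
    have hmem : ∀ g : P, g ∈ centralizer ({t} : Set P) ↔ g * t * g⁻¹ = t := by
      intro g
      rw [Subgroup.mem_centralizer_singleton_iff]
      exact ⟨fun h => mul_inv_eq_iff_eq_mul.mpr h, fun h => mul_inv_eq_iff_eq_mul.mp h⟩
    have hat : a * t * a⁻¹ = t' := (h a).resolve_left (fun h1 => ha ((hmem a).mpr h1))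
    have hne : t' ≠ t := fun h1 => ha ((hmem a).mpr (hat.trans h1))
    refine le_of_eq (Subgroup.index_eq_two_iff.mpr ⟨a⁻¹, fun b => ?_⟩)
    have hkey : b * a⁻¹ ∈ centralizer ({t} : Set P) ∨ b ∈ centralizer ({t} : Set P) ∨ True := by
      tauto
    have hbt : ∀ b : P, b ∉ centralizer ({t} : Set P) → b * t * b⁻¹ = t' := fun b hb =>
      (h b).resolve_left (fun h1 => hb ((hmem b).mpr h1))
    have hainv : a⁻¹ ∉ centralizer ({t} : Set P) := fun h1 => ha (inv_mem_iff.mp h1)
    have h2 : a⁻¹ * t * a = t' := by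
      have := hbt a⁻¹ hainv
      rwa [inv_inv] at this
    by_cases hb : b ∈ centralizer ({t} : Set P)
    · right
      refine ⟨hb, fun h1 => hainv ?_⟩
      have : a⁻¹ = b⁻¹ * (b * a⁻¹) := by group
      rw [this]
      exact Subgroup.mul_mem _ (Subgroup.inv_mem _ hb) h1
    · left
      refine ⟨?_, hb⟩
      rw [hmem]
      have h3 := hbt b hb
      -- `b t b⁻¹ = t' = a⁻¹ t a`, and `a t' a⁻¹ = t`
      have h4 : a⁻¹ * t' * a = t := by
        rw [← hat]; group
      have h5 : t = b⁻¹ * t' * b := by rw [← h3]; group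
      have h6 : b * t' * b⁻¹ = t := by
        rcases h b⁻¹ with h7 | h7
        · exfalso
          apply hb
          have : b⁻¹ ∈ centralizer ({t} : Set P) := (hmem _).mpr h7
          exact inv_mem_iff.mp this
        · rw [inv_inv] at h7
          rw [← h7]; group
      calc b * a⁻¹ * t * (b * a⁻¹)⁻¹ = b * (a⁻¹ * t * a) * b⁻¹ := by group
        _ = t := by rw [h2, h6]

/-- The index of `S ∩ C(t)` in `O₂(C(t))` is at most two. -/
theorem relIndex_pCore_le [Finite G] (S : Sylow 2 G) (t : S)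
    (hidx : (centralizer ({t} : Set ↥(S : Subgroup G))).index ≤ 2) :
    ((S : Subgroup G) ⊓ centralizer ({(t : G)} : Set G)).relIndex
      ((pCore 2 ↥(centralizer ({(t : G)} : Set G))).map
        (centralizer ({(t : G)} : Set G)).subtype) ≤ 2 := by
  set H := centralizer ({(t : G)} : Set G) with hH
  set R := (S : Subgroup G) ⊓ H with hRdef
  have hRp : IsPGroup 2 (R.subgroupOf H) := by
    have : IsPGroup 2 R := S.isPGroup'.to_le inf_le_left
    exact this.comap_subtype
  obtain ⟨T, hT⟩ := hRp.exists_le_sylow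
  have hRT : R ≤ (T : Subgroup H).map H.subtype := by
    intro x hx
    exact ⟨⟨x, hx.2⟩, hT (Subgroup.mem_subgroupOf.mpr hx), rfl⟩
  have hQT : (pCore 2 ↥H).map H.subtype ≤ (T : Subgroup H).map H.subtype :=
    Subgroup.map_mono (Lib.Cores.pCore_le_sylow T)
  have h1 : R.relIndex ((pCore 2 ↥H).map H.subtype) ≤
      R.relIndex ((T : Subgroup H).map H.subtype) :=
    Subgroup.relIndex_le_of_le_right hQT Subgroup.index_ne_zero_of_finite
  refine h1.trans ?_
  have h2 := card_mul_relIndex_eq hRT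
  have h3 : Nat.card ↥((T : Subgroup H).map H.subtype) ≤ Nat.card ↥(S : Subgroup G) := by
    have hTp : IsPGroup 2 ↥((T : Subgroup H).map H.subtype) := T.isPGroup'.map _
    obtain ⟨S', hS'⟩ := hTp.exists_le_sylow
    calc Nat.card ↥((T : Subgroup H).map H.subtype) ≤ Nat.card ↥(S' : Subgroup G) :=
          Subgroup.card_le_of_le hS'
      _ = Nat.card ↥(S : Subgroup G) := by rw [S'.card_eq_multiplicity, S.card_eq_multiplicity]
  have h4 : R = (centralizer ({t} : Set ↥(S : Subgroup G))).map (S : Subgroup G).subtype := by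
    ext x
    constructor
    · rintro ⟨hxS, hxH⟩
      refine ⟨⟨x, hxS⟩, ?_, rfl⟩
      have h5 : x * (t : G) = (t : G) * x := Subgroup.mem_centralizer_singleton_iff.mp hxH
      exact Subgroup.mem_centralizer_singleton_iff.mpr (Subtype.ext h5)
    · rintro ⟨y, hy, rfl⟩
      refine ⟨y.2, ?_⟩
      have h5 := Subgroup.mem_centralizer_singleton_iff.mp hy
      exact Subgroup.mem_centralizer_singleton_iff.mpr (congrArg Subtype.val h5)
  have h5 : Nat.card R = Nat.card (centralizer ({t} : Set ↥(S : Subgroup G))) := by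
    rw [h4]
    exact Nat.card_congr (Subgroup.equivMapOfInjective _ _ (Subgroup.subtype_injective _)).toEquiv.symm
  have h6 := (centralizer ({t} : Set ↥(S : Subgroup G))).card_mul_index
  have h7 : Nat.card (S : Subgroup G) ≤ Nat.card R * 2 := by
    rw [← h6, h5]
    exact Nat.mul_le_mul_left _ hidx
  have hRpos : 0 < Nat.card R := Nat.card_pos
  by_contra hcon
  push Not at hcon
  have h8 : Nat.card R * 3 ≤ Nat.card R * R.relIndex ((T : Subgroup H).map H.subtype) :=
    Nat.mul_le_mul_left _ hcon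
  omega

/-- **Odd order subgroups normalized by a Sylow 2-subgroup.**  If centralizers of involutions have
characteristic 2 and `S` has a normal four-subgroup, then `S` normalizes no nontrivial subgroup of
odd order. -/
theorem eq_bot_of_normal_four [Finite G] (S : Sylow 2 G)
    (hch : ∀ t : G, orderOf t = 2 →
      centralizer (pCore 2 ↥(centralizer ({t} : Set G)) : Set ↥(centralizer ({t} : Set G))) ≤
        pCore 2 ↥(centralizer ({t} : Set G)))
    (U : Subgroup ↥(S : Subgroup G)) (hUn : U.Normal) (hU4 : Nat.card U = 4)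
    (hU2 : ∀ u ∈ U, u ^ 2 = 1) (X : Subgroup G) (hX : Odd (Nat.card X))
    (hSX : (S : Subgroup G) ≤ normalizer (X : Set G)) : X = ⊥ := by
  obtain ⟨z, u, hzU, huU, hzc, hz1, hu1, huz, -, hconj⟩ :=
    Involutions.RankThree.four_desc (P := ↥(S : Subgroup G)) S.isPGroup' U hU4 hU2
  have hzz : z * z = 1 := by rw [← pow_two]; exact hU2 z hzU
  have huu : u * u = 1 := by rw [← pow_two]; exact hU2 u huU
  have hzcomm : ∀ g : ↥(S : Subgroup G), g * z = z * g := Subgroup.mem_center_iff.mp hzc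
  have hS : ∀ s ∈ (S : Subgroup G), ∀ x ∈ X, s * x * s⁻¹ ∈ X := fun s hs x hx =>
    (Subgroup.mem_normalizer_iff.mp (hSX hs) x).mp hx
  have key : ∀ t : ↥(S : Subgroup G), t ≠ 1 → t * t = 1 →
      (centralizer ({t} : Set ↥(S : Subgroup G))).index ≤ 2 →
      X ⊓ centralizer ({(t : G)} : Set G) ≤ ⊥ := by
    intro t ht1 htt hidx
    have hto : orderOf (t : G) = 2 := by
      rw [Subgroup.orderOf_coe]
      exact orderOf_eq_prime (by rw [pow_two]; exact htt) ht1
    rw [le_bot_iff]
    refine eq_bot_of_char2 (H := centralizer ({(t : G)} : Set G))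
      (R := (S : Subgroup G) ⊓ centralizer ({(t : G)} : Set G)) (hch t hto) inf_le_right ?_ ?_
      (relIndex_pCore_le S t hidx)
    · exact hX.of_dvd_nat (Subgroup.card_dvd_of_le inf_le_left)
    · rintro r ⟨hrS, hrC⟩ y ⟨hyX, hyC⟩
      exact ⟨hS r hrS y hyX, Subgroup.mul_mem _ (Subgroup.mul_mem _ hrC hyC)
        (Subgroup.inv_mem _ hrC)⟩
  have hzi : (centralizer ({z} : Set ↥(S : Subgroup G))).index ≤ 2 :=
    index_centralizer_le_two (t' := z) fun g => Or.inl (by rw [hzcomm g]; group)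
  have hui : (centralizer ({u} : Set ↥(S : Subgroup G))).index ≤ 2 :=
    index_centralizer_le_two (t' := z * u) hconj
  have hzui : (centralizer ({z * u} : Set ↥(S : Subgroup G))).index ≤ 2 := by
    refine index_centralizer_le_two (t' := u) fun g => ?_
    have e : g * (z * u) * g⁻¹ = z * (g * u * g⁻¹) := by
      rw [← mul_assoc g z u, hzcomm g]; group
    rw [e]
    rcases hconj g with h | h
    · left; rw [h]
    · right; rw [h, ← mul_assoc, hzz, one_mul]
  have hzu1 : z * u ≠ 1 := by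
    intro h
    apply huz
    have : z * u = z * z := by rw [h, hzz]
    exact mul_left_cancel this
  have hzuzu : z * u * (z * u) = 1 := by
    calc z * u * (z * u) = z * (u * z) * u := by group
      _ = z * (z * u) * u := by rw [hzcomm u]
      _ = (z * z) * (u * u) := by group
      _ = 1 := by rw [hzz, huu, one_mul]
  rw [← le_bot_iff]
  refine Lib.KleinGen.le_of_klein X ⊥ hX (z : G) (u : G) ?_ ?_ ?_ ?_ ?_ ?_ ?_ ?_
  · exact congrArg Subtype.val hzz
  · exact congrArg Subtype.val huu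
  · exact (congrArg Subtype.val (hzcomm u)).symm
  · exact hS _ z.2
  · exact hS _ u.2
  · exact key z hz1 hzz hzi
  · exact key u hu1 huu hui
  · exact key (z * u) hzu1 hzuzu hzui

/-- A member of `SCN(S)` of rank at least two gives a normal four-subgroup of `S`. -/
theorem exists_normal_four_of_scn [Finite G] {S : Sylow 2 G} {A : Subgroup G}
    (hA : Cfsg.IsSCN (S : Subgroup G) A) (hA3 : ¬ Cfsg.PRankLE 2 1 ↥A) :
    ∃ U : Subgroup ↥(S : Subgroup G), U.Normal ∧ Nat.card U = 4 ∧ (∀ u ∈ U, u ^ 2 = 1) ∧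
      ∀ u ∈ U, (u : G) ∈ A := by
  have hcomm : IsMulCommutative A := OddOrderLocal.ScnThree.isSCN_isMulCommutative hA
  have hc : ∀ a ∈ A, ∀ b ∈ A, a * b = b * a := fun a ha b hb =>
    congrArg Subtype.val (hcomm.is_comm.comm ⟨a, ha⟩ ⟨b, hb⟩)
  let N : Subgroup ↥(S : Subgroup G) :=
    { carrier := {x | (x : G) ∈ A ∧ x ^ 2 = 1}
      one_mem' := ⟨A.one_mem, one_pow 2⟩
      mul_mem' := by
        rintro x y ⟨hx, hx2⟩ ⟨hy, hy2⟩
        refine ⟨A.mul_mem hx hy, ?_⟩
        have : Commute x y := Subtype.ext (hc _ hx _ hy)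
        rw [this.mul_pow, hx2, hy2, one_mul]
      inv_mem' := by
        rintro x ⟨hx, hx2⟩
        exact ⟨A.inv_mem hx, by rw [inv_pow, hx2, inv_one]⟩ }
  have hNn : N.Normal := by
    refine ⟨?_⟩
    rintro n ⟨hn, hn2⟩ g
    refine ⟨(Subgroup.mem_normalizer_iff.mp (hA.2.1 g.2) _).mp hn, ?_⟩
    rw [conj_pow, hn2]; group
  have hcard : 2 < Nat.card N := by
    unfold Cfsg.PRankLE at hA3
    push Not at hA3
    obtain ⟨E, -, hE2, hE⟩ := hA3
    refine lt_of_lt_of_le (by simpa using hE) ?_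
    let f : E → N := fun e => ⟨⟨((e : A) : G), hA.1 (e : A).2⟩, (e : A).2, by
      have h1 : ((e : A) : G) ^ 2 = 1 := congrArg Subtype.val (hE2 (e : A) e.2)
      exact Subtype.ext h1⟩
    refine Nat.card_le_card_of_injective f ?_
    intro a b hab
    have : ((a : A) : G) = ((b : A) : G) := congrArg (fun x : N => ((x : ↥(S : Subgroup G)) : G)) hab
    exact Subtype.ext (Subtype.ext this)
  obtain ⟨U, hUn, hUN, hU4, hU2⟩ := Involutions.NormalFour.exists_normal_four_of_normal
    (P := ↥(S : Subgroup G)) S.isPGroup' N (fun x hx => hx.2) hcard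
  exact ⟨U, hUn, hU4, hU2, fun u hu => (hUN hu).1⟩

end Cfsg.Agent.H320.Early
end

-- part: S3246
section
set_option autoImplicit false
open Cfsg

namespace Cfsg.Agent.S3246

open Subgroup Cfsg.Agent.PLocal.PConstrained Cfsg.Agent.PLocal.PConstrainedLocal

/-- In both cases the centralizers of involutions have characteristic 2. -/
theorem charTwo {G : Type*} [Group G] [Finite G]
    (h : (∀ M : Subgroup G, Cfsg.IsMaximalTwoLocal M → Cfsg.IsPConstrained 2 ↥M ∧ Cfsg.oddCore ↥M = ⊥) ∨
      (∀ t : G, orderOf t = 2 → Cfsg.IsPConstrained 2 ↥(Subgroup.centralizer ({t} : Set G)) ∧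
        Cfsg.oddCore ↥(Subgroup.centralizer ({t} : Set G)) = ⊥)) (t : G) (ht : orderOf t = 2) :
    centralizer (pCore 2 ↥(centralizer ({t} : Set G)) : Set ↥(centralizer ({t} : Set G))) ≤
        pCore 2 ↥(centralizer ({t} : Set G)) := by
  have hF : Fact (Nat.Prime 2) := ⟨Nat.prime_two⟩
  rcases h with h | h
  · have htt : t * t = 1 := by rw [← pow_two, ← ht, pow_orderOf_eq_one]
    have ht1 : t ≠ 1 := by
      rintro rfl
      simp at ht
    have htp : IsPGroup 2 ↥(zpowers t) :=
      IsPGroup.of_card (n := 1) (by rw [Nat.card_zpowers, ht, pow_one])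
    obtain ⟨M, hM, hmax⟩ := Set.Finite.exists_le_maximal
      (s := {M : Subgroup G | Cfsg.IsTwoLocal M}) (Set.toFinite _)
      (a := Subgroup.normalizer ((zpowers t : Subgroup G) : Set G))
      ⟨zpowers t, htp, fun h => ht1 (zpowers_eq_bot.mp h), rfl⟩
    obtain ⟨hMc, hMo⟩ := h M ⟨hmax.prop, fun N hN hMN => le_antisymm (hmax.le_of_ge hN hMN) hMN⟩
    have hch := (isPConstrained_iff_of_pPrimeCore_eq_bot hMo).mp hMc
    rw [EvenType.CharTwoCent.normalizer_zpowers_eq htt] at hM
    have htM : zpowers t ≤ M := by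
      refine le_trans ?_ hM
      rw [Subgroup.zpowers_le]
      exact Subgroup.mem_centralizer_singleton_iff.mpr rfl
    have h1 := charP_centralizer hch (P := (zpowers t).subgroupOf M) htp.comap_subtype
    rw [← H320.PCon.centralizer_subgroupOf htM] at h1
    have e : centralizer ((zpowers t : Subgroup G) : Set G) = centralizer ({t} : Set G) := by
      rw [Subgroup.zpowers_eq_closure, Subgroup.centralizer_closure]
    rw [e] at h1
    exact charP_congr (Subgroup.subgroupOfEquivOfLe hM) h1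
  · exact (isPConstrained_iff_of_pPrimeCore_eq_bot (h t ht).2).mp (h t ht).1

/-- Let G be a finite group whose Sylow 2-subgroup S has a self-centralizing normal subgroup of rank at least 3. Suppose that either every maximal 2-local subgroup of G is 2-constrained with no nontrivial normal subgroup of odd order, or the centralizer of every involution of G is 2-constrained with no nontrivial normal subgroup of odd order. Then S normalizes no nontrivial subgroup of G of odd order and every 2-local subgroup of G is 2-constrained. -/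
theorem result {G : Type*} [Group G] [Finite G]
    (S : Sylow 2 G) (A : Subgroup G) (hA : Cfsg.IsSCN (S : Subgroup G) A) (hA3 : ¬ Cfsg.PRankLE 2 2 ↥A)
    (h : (∀ M : Subgroup G, Cfsg.IsMaximalTwoLocal M → Cfsg.IsPConstrained 2 ↥M ∧ Cfsg.oddCore ↥M = ⊥) ∨
      (∀ t : G, orderOf t = 2 → Cfsg.IsPConstrained 2 ↥(Subgroup.centralizer ({t} : Set G)) ∧
        Cfsg.oddCore ↥(Subgroup.centralizer ({t} : Set G)) = ⊥)) :
    (∀ X : Subgroup G, Odd (Nat.card ↥X) → (S : Subgroup G) ≤ Subgroup.normalizer (X : Set G) → X = ⊥) ∧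
      (∀ T : Subgroup G, IsPGroup 2 ↥T → T ≠ ⊥ → Cfsg.IsPConstrained 2 ↥(Subgroup.normalizer (T : Set G))) := by
  have hF : Fact (Nat.Prime 2) := ⟨Nat.prime_two⟩
  have hch := charTwo h
  constructor
  · intro X hX hSX
    have hA1 : ¬ Cfsg.PRankLE 2 1 ↥A := fun h1 =>
      hA3 fun B hB hB2 => (h1 B hB hB2).trans (by norm_num)
    obtain ⟨U, hUn, hU4, hU2, -⟩ := H320.Early.exists_normal_four_of_scn hA hA1
    exact H320.Early.eq_bot_of_normal_four S hch U hUn hU4 hU2 X hX hSX
  · intro T hT hT1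
    obtain ⟨x, hxT, hx, hc⟩ := H320.PCon.exists_central_orderOf hT hT1
    exact H320.PCon.isPConstrained_normalizer_of_mem hT hxT hc (isPConstrained_of_charP (hch x hx))

end Cfsg.Agent.S3246
end
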