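import Cfsg.Statements.S3247
import Cfsg.Agent.H320.PCon
set_option linter.all false

set_option autoImplicit false
open Cfsg

namespace Cfsg.Agent.S3247

open Subgroup Cfsg.Agent.H320.PCon in
/-- Let G be a finite group and p a prime; here a p-local subgroup means the normalizer of a nontrivial p-subgroup, other than G itself. If every p-local subgroup of G that is maximal among p-local subgroups is p-constrained, or if the centralizer of every element of order p of G is p-constrained, then every p-local subgroup of G is p-constrained. -/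
theorem result {G : Type*} [Group G] [Finite G] (p : ℕ) [hp : Fact p.Prime]
    (h : (∀ M : Subgroup G, (∃ T : Subgroup G, IsPGroup p ↥T ∧ T ≠ ⊥ ∧ M = Subgroup.normalizer (T : Set G)) → M ≠ ⊤ →
        (∀ M' : Subgroup G, (∃ T' : Subgroup G, IsPGroup p ↥T' ∧ T' ≠ ⊥ ∧ M' = Subgroup.normalizer (T' : Set G)) → M' ≠ ⊤ → M ≤ M' → M = M') →
        Cfsg.IsPConstrained p ↥M) ∨
      (∀ x : G, orderOf x = p → Cfsg.IsPConstrained p ↥(Subgroup.centralizer ({x} : Set G))))
    (T : Subgroup G) (hT : IsPGroup p ↥T) (hT1 : T ≠ ⊥) (hTG : Subgroup.normalizer (T : Set G) ≠ ⊤) :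
    Cfsg.IsPConstrained p ↥(Subgroup.normalizer (T : Set G)) := by
  rcases h with h | h
  · -- a maximal proper `p`-local subgroup containing `N_G(T)`
    obtain ⟨M, hM, hmax⟩ := Set.Finite.exists_le_maximal
      (s := {M : Subgroup G | (∃ T : Subgroup G, IsPGroup p ↥T ∧ T ≠ ⊥ ∧
        M = Subgroup.normalizer (T : Set G)) ∧ M ≠ ⊤}) (Set.toFinite _)
      (a := Subgroup.normalizer (T : Set G)) ⟨⟨T, hT, hT1, rfl⟩, hTG⟩
    refine isPConstrained_normalizer_of_le hT (h M hmax.prop.1 hmax.prop.2 ?_) hM
    intro M' hM' hM't hle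
    exact le_antisymm hle (hmax.le_of_ge ⟨hM', hM't⟩ hle)
  · obtain ⟨x, hxT, hx, hc⟩ := exists_central_orderOf hT hT1
    exact isPConstrained_normalizer_of_mem hT hxT hc (h x hx)

end Cfsg.Agent.S3247
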