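import Mathlib
import Cfsg.Agent.Lib.DihedralRecog
import Cfsg.Statements.S3261
import Cfsg.Agent.S0848
import Cfsg.Agent.S0497
import Cfsg.Agent.S0495
import Cfsg.Agent.H903.DihSimple
set_option linter.all false

-- part: H903/CentASix
section
/-!
# The centraliser of a double transposition in the alternating group of degree six
-/

set_option autoImplicit false

namespace Cfsg.Agent.H903.CentASix

open Equiv

/-- the standard double transposition -/
def t0 : Perm (Fin 6) := swap 0 1 * swap 2 3
/-- an element of order four -/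
def r0 : Perm (Fin 6) := swap 0 2 * swap 2 1 * swap 1 3 * swap 4 5
/-- an involution -/
def s0 : Perm (Fin 6) := swap 0 1 * swap 4 5

/-- conjugation of centralisers inside a normal subgroup -/
def centCongr {G : Type*} [Group G] (A : Subgroup G) [A.Normal] (c : G) (x y : A)
    (h : c * (x : G) * c⁻¹ = y) :
    ↥(Subgroup.centralizer ({x} : Set A)) ≃* ↥(Subgroup.centralizer ({y} : Set A)) where
  toFun g := ⟨⟨c * (g : A) * c⁻¹, Subgroup.Normal.conj_mem inferInstance _ (g : A).2 c⟩, by
    rw [Subgroup.mem_centralizer_singleton_iff]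
    have hg := Subgroup.mem_centralizer_singleton_iff.1 g.2
    apply Subtype.ext
    have hg' := congrArg Subtype.val hg
    simp only [Subgroup.coe_mul] at hg' ⊢
    rw [← h]
    calc c * ((g : A) : G) * c⁻¹ * (c * (x : G) * c⁻¹) = c * (((g : A) : G) * x) * c⁻¹ := by group
      _ = c * ((x : G) * ((g : A) : G)) * c⁻¹ := by rw [hg']
      _ = _ := by group⟩
  invFun g := ⟨⟨c⁻¹ * (g : A) * c, by
      have := Subgroup.Normal.conj_mem (H := A) inferInstance _ (g : A).2 c⁻¹
      simpa using this⟩, by
    rw [Subgroup.mem_centralizer_singleton_iff]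
    have hg := Subgroup.mem_centralizer_singleton_iff.1 g.2
    apply Subtype.ext
    have hg' := congrArg Subtype.val hg
    simp only [Subgroup.coe_mul] at hg' ⊢
    rw [← h] at hg'
    calc c⁻¹ * ((g : A) : G) * c * (x : G) = c⁻¹ * (((g : A) : G) * (c * x * c⁻¹)) * c := by group
      _ = c⁻¹ * ((c * x * c⁻¹) * ((g : A) : G)) * c := by rw [hg']
      _ = _ := by group⟩
  left_inv g := by
    apply Subtype.ext; apply Subtype.ext
    change c⁻¹ * (c * ((g : A) : G) * c⁻¹) * c = _
    group
  right_inv g := by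
    apply Subtype.ext; apply Subtype.ext
    change c * (c⁻¹ * ((g : A) : G) * c) * c⁻¹ = _
    group
  map_mul' a b := by
    apply Subtype.ext; apply Subtype.ext
    change c * (((a : A) : G) * ((b : A) : G)) * c⁻¹ =
      (c * ((a : A) : G) * c⁻¹) * (c * ((b : A) : G) * c⁻¹)
    group

theorem t0_even : t0 ∈ alternatingGroup (Fin 6) := by
  rw [Perm.mem_alternatingGroup]; decide

theorem r0_even : r0 ∈ alternatingGroup (Fin 6) := by
  rw [Perm.mem_alternatingGroup]; decide

theorem s0_even : s0 ∈ alternatingGroup (Fin 6) := by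
  rw [Perm.mem_alternatingGroup]; decide

theorem isConj_t0 (t : Perm (Fin 6)) (ht : orderOf t = 2) (hs : t.support.card = 4) :
    ∃ c : Perm (Fin 6), c * t * c⁻¹ = t0 := by
  have h : IsConj t t0 := by
    rw [Perm.isConj_iff_cycleType_eq]
    have h1 : t.cycleType = Multiset.replicate (Multiset.card t.cycleType) 2 := by
      rw [Multiset.eq_replicate_card]
      intro n hn
      have h2 : 2 ≤ n := Perm.two_le_of_mem_cycleType hn
      have h3 : n ∣ 2 := by rw [← ht]; exact Perm.dvd_of_mem_cycleType hn
      exact le_antisymm (Nat.le_of_dvd (by norm_num) h3) h2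
    have h4 := t.sum_cycleType
    rw [hs, h1, Multiset.sum_replicate] at h4
    have h5 : Multiset.card t.cycleType = 2 := by
      simp at h4; omega
    rw [h1, h5]
    decide
  obtain ⟨c, hc⟩ := isConj_iff.1 h
  exact ⟨c, hc⟩

theorem cent_dec : ∀ σ : Perm (Fin 6), σ * t0 = t0 * σ → Perm.sign σ = 1 →
    ∃ i : Fin 4, σ = r0 ^ (i : ℕ) ∨ σ = r0 ^ (i : ℕ) * s0 := by
  decide +kernel

def T0 : alternatingGroup (Fin 6) := ⟨t0, t0_even⟩
def R0 : alternatingGroup (Fin 6) := ⟨r0, r0_even⟩
def S0 : alternatingGroup (Fin 6) := ⟨s0, s0_even⟩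

theorem cent_T0 : Subgroup.centralizer ({T0} : Set (alternatingGroup (Fin 6))) =
    Subgroup.closure {R0, S0} := by
  apply le_antisymm
  · intro g hg
    rw [Subgroup.mem_centralizer_singleton_iff] at hg
    have h1 : (g : Perm (Fin 6)) * t0 = t0 * g := congrArg Subtype.val hg
    obtain ⟨i, hi⟩ := cent_dec g h1 (Perm.mem_alternatingGroup.1 g.2)
    have hR : R0 ∈ Subgroup.closure ({R0, S0} : Set (alternatingGroup (Fin 6))) :=
      Subgroup.subset_closure (by simp)
    have hS : S0 ∈ Subgroup.closure ({R0, S0} : Set (alternatingGroup (Fin 6))) :=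
      Subgroup.subset_closure (by simp)
    rcases hi with hi | hi
    · have : g = R0 ^ (i : ℕ) := Subtype.ext hi
      rw [this]
      exact Subgroup.pow_mem _ hR _
    · have : g = R0 ^ (i : ℕ) * S0 := Subtype.ext hi
      rw [this]
      exact Subgroup.mul_mem _ (Subgroup.pow_mem _ hR _) hS
  · rw [Subgroup.closure_le]
    intro x hx
    rw [SetLike.mem_coe, Subgroup.mem_centralizer_singleton_iff]
    simp only [Set.mem_insert_iff, Set.mem_singleton_iff] at hx
    rcases hx with rfl | rfl
    · apply Subtype.ext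
      change r0 * t0 = t0 * r0
      decide
    · apply Subtype.ext
      change s0 * t0 = t0 * s0
      decide

theorem orderOf_R0 : orderOf R0 = 4 := by
  have h : orderOf R0 = 2 ^ (1 + 1) := by
    apply orderOf_eq_prime_pow
    · intro h
      have := congrArg Subtype.val h
      change r0 ^ (2 ^ 1) = 1 at this
      exact absurd this (by decide)
    · apply Subtype.ext
      change r0 ^ (2 ^ (1 + 1)) = 1
      decide
  rw [h]; norm_num

theorem nonempty_T0 : Nonempty (↥(Subgroup.centralizer ({T0} : Set (alternatingGroup (Fin 6)))) ≃*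
    DihedralGroup 4) := by
  rw [cent_T0]
  apply Cfsg.Agent.Lib.DihedralRecog.closure_dihedral R0 S0 orderOf_R0
  · apply Subtype.ext
    change s0 * s0 = 1
    decide
  · apply Subtype.ext
    change s0 * r0 * s0⁻¹ = r0⁻¹
    decide
  · intro h
    rw [Subgroup.mem_zpowers_iff] at h
    obtain ⟨k, hk⟩ := h
    have h1 : R0 ^ (k % 4) = S0 := by
      have := zpow_mod_orderOf R0 k
      rw [orderOf_R0] at this
      rw [← hk, ← this]; norm_num
    have h2 : k % 4 = 0 ∨ k % 4 = 1 ∨ k % 4 = 2 ∨ k % 4 = 3 := by omega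
    have h3 := congrArg Subtype.val h1
    rcases h2 with h2 | h2 | h2 | h2 <;> rw [h2] at h3
    · change r0 ^ (0 : ℤ) = s0 at h3; exact absurd h3 (by decide)
    · change r0 ^ (1 : ℤ) = s0 at h3; exact absurd h3 (by decide)
    · change r0 ^ (2 : ℤ) = s0 at h3; exact absurd h3 (by decide)
    · change r0 ^ (3 : ℤ) = s0 at h3; exact absurd h3 (by decide)

/-- The centraliser in `A₆` of a double transposition is dihedral of order `8`. -/
theorem nonempty_dihedral (αt : ↥(alternatingGroup (Fin 6))) (hαt : orderOf αt = 2)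
    (hsupp : (αt : Equiv.Perm (Fin 6)).support.card = 4) :
    Nonempty (↥(Subgroup.centralizer ({αt} : Set ↥(alternatingGroup (Fin 6)))) ≃*
      DihedralGroup 4) := by
  obtain ⟨c, hc⟩ := isConj_t0 αt (by rw [Subgroup.orderOf_coe]; exact hαt) hsupp
  obtain ⟨e⟩ := nonempty_T0
  exact ⟨(centCongr (alternatingGroup (Fin 6)) c αt T0 hc).trans e⟩

end Cfsg.Agent.H903.CentASix
end

-- part: S3261
section
set_option autoImplicit false
open Cfsg

namespace Cfsg.Agent.S3261

/-- Let α̃ be an involution of the alternating group A₆ that is a product of two disjoint transpositions (it lies in the centre of a Sylow 2-subgroup of A₆; its centralizer is dihedral of order 8). Let G be a finite group that has no subgroup of index 2 and contains an involution α, central in some Sylow 2-subgroup of G, with C_G(α) ≅ C_{A₆}(α̃). Then G is isomorphic to A₆ or to PSL₂(7). -/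
theorem result {G : Type*} [Group G] [Finite G]
    (hG : ∀ H : Subgroup G, H.index ≠ 2)
    (αt : ↥(alternatingGroup (Fin 6))) (hαt : orderOf αt = 2) (hsupp : (αt : Equiv.Perm (Fin 6)).support.card = 4)
    (α : G) (hα : orderOf α = 2) (S : Sylow 2 G) (hαS : α ∈ (S : Subgroup G)) (hαc : ∀ s ∈ (S : Subgroup G), s * α = α * s)
    (e : ↥(Subgroup.centralizer ({α} : Set G)) ≃* ↥(Subgroup.centralizer ({αt} : Set ↥(alternatingGroup (Fin 6))))) :
    Nonempty (G ≃* ↥(alternatingGroup (Fin 6))) ∨
      (∃ (F : Type) (_ : Field F) (_ : Fintype F), Fintype.card F = 7 ∧ Nonempty (G ≃* Matrix.ProjectiveSpecialLinearGroup (Fin 2) F)) := by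
  obtain ⟨e'⟩ := Cfsg.Agent.H903.CentASix.nonempty_dihedral αt hαt hsupp
  obtain ⟨hs, hnc⟩ := Cfsg.Agent.H903.DihSimple.isSimpleGroup hG α hα S hαS hαc (e.trans e')
  have hperf : commutator G = ⊤ := by
    rcases hs.eq_bot_or_eq_top_of_normal (commutator G) inferInstance with h | h
    · exfalso
      apply hnc
      rw [commutator_eq_bot_iff_center_eq_top] at h
      refine ⟨⟨fun a b => ?_⟩⟩
      have : a ∈ Subgroup.center G := by rw [h]; trivial
      exact (Subgroup.mem_center_iff.1 this b).symm
    · exact h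
  rcases Cfsg.Agent.S0848.result hperf α hα (e.trans e') with h | h
  · right
    have : Fact (Nat.Prime 7) := ⟨by norm_num⟩
    refine ⟨ZMod 7, inferInstance, inferInstance, by simp, ?_⟩
    exact Cfsg.Agent.S0495.result h (F := ZMod 7) (by simp)
  · left
    exact Cfsg.Agent.S0497.result h

end Cfsg.Agent.S3261
end
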