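import Cfsg.Statements.S3266
import Cfsg.Agent.H325.OddProductGraph
set_option linter.all false

set_option autoImplicit false
open Cfsg

namespace Cfsg.Agent.S3266

open Matrix Cfsg.Agent.H325

variable {F : Type*} [Field F]

/-- 2×2 special linear group -/
abbrev SL2 (F : Type*) [Field F] := Matrix.SpecialLinearGroup (Fin 2) F

/-- explicit matrix -/
def m2 (a b c d : F) (h : a * d - b * c = 1) : SL2 F :=
  ⟨!![a, b; c, d], by rw [Matrix.det_fin_two_of]; exact h⟩

theorem mem_center {M : SL2 F} :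
    M ∈ Subgroup.center (SL2 F) ↔ M.1 0 1 = 0 ∧ M.1 1 0 = 0 ∧ M.1 0 0 = M.1 1 1 := by
  rw [Matrix.SpecialLinearGroup.mem_center_iff]
  constructor
  · rintro ⟨r, -, hr⟩
    have h01 := congrFun (congrFun hr 0) 1
    have h10 := congrFun (congrFun hr 1) 0
    have h00 := congrFun (congrFun hr 0) 0
    have h11 := congrFun (congrFun hr 1) 1
    simp only [scalar_apply, diagonal_apply_eq] at h00 h11
    rw [scalar_apply, diagonal_apply_ne _ (by decide)] at h01 h10
    exact ⟨h01.symm, h10.symm, h00.symm.trans h11⟩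
  · rintro ⟨h1, h2, h3⟩
    have hdet : M.1.det = 1 := M.2
    rw [Matrix.det_fin_two, h1, h2, ← h3] at hdet
    refine ⟨M.1 0 0, ?_, ?_⟩
    · rw [Fintype.card_fin, sq]
      simpa using hdet
    · ext i j
      fin_cases i <;> fin_cases j <;> simp [h1, h2, h3]

theorem det_eq (M : SL2 F) : M.1 0 0 * M.1 1 1 - M.1 0 1 * M.1 1 0 = 1 := by
  have := M.2
  rwa [Matrix.det_fin_two] at this

theorem cayley (M : SL2 F) : M.1 * M.1 = (M.1 0 0 + M.1 1 1) • M.1 - 1 := by
  have h := det_eq M
  ext i j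
  fin_cases i <;> fin_cases j <;>
    simp [Matrix.mul_apply, Fin.sum_univ_two] <;> first | ring1 | linear_combination -h

theorem odd_of_pow {M : SL2 F} {n : ℕ} (hn : Odd n) (h : M ^ n ∈ Subgroup.center (SL2 F)) :
    Odd (orderOf (QuotientGroup.mk M : SL2 F ⧸ Subgroup.center (SL2 F))) := by
  apply Odd.of_dvd_nat hn
  apply orderOf_dvd_of_pow_eq_one
  rw [← QuotientGroup.mk_pow]
  exact (QuotientGroup.eq_one_iff _).2 h

theorem mem_center_of_smul {M : SL2 F} {r : F} (h : M.1 = r • 1) : M ∈ Subgroup.center (SL2 F) := by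
  rw [mem_center, h]
  simp

theorem odd_unip [Fintype F] (hF : ringChar F ≠ 2) (M : SL2 F) (e : F) (he : e * e = 1)
    (htr : M.1 0 0 + M.1 1 1 = 2 * e) :
    Odd (orderOf (QuotientGroup.mk M : SL2 F ⧸ Subgroup.center (SL2 F))) := by
  obtain ⟨p, hp⟩ : ∃ p, p = ringChar F := ⟨_, rfl⟩
  have hchar : CharP F p := ringChar.of_eq hp.symm
  have hpp : p.Prime := CharP.char_is_prime F p
  have : Fact p.Prime := ⟨hpp⟩
  have hodd : Odd p := hpp.odd_of_ne_two (by rw [hp]; exact hF)
  obtain ⟨N, hN⟩ : ∃ N : Matrix (Fin 2) (Fin 2) F, N = M.1 - e • 1 := ⟨_, rfl⟩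
  have hM : M.1 = e • 1 + N := by rw [hN]; abel
  have hNN : N * N = 0 := by
    have h := cayley M
    rw [htr] at h
    rw [hN, sub_mul, mul_sub, mul_sub, h]
    simp only [smul_mul_assoc, mul_smul_comm, one_mul, mul_one, smul_smul, he, one_smul, two_mul,
      add_smul]
    abel
  have hNp : N ^ p = 0 := by
    obtain ⟨k, hk⟩ : ∃ k, p = k + 2 := ⟨p - 2, by have := hpp.two_le; omega⟩
    rw [hk, pow_add, pow_two, hNN, mul_zero]
  refine odd_of_pow hodd (mem_center_of_smul (r := e ^ p) ?_)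
  have hcoe : (M ^ p).1 = M.1 ^ p := by simp
  rw [hcoe, hM]
  have hcomm : Commute (e • 1 : Matrix (Fin 2) (Fin 2) F) N := by
    show e • 1 * N = N * (e • 1)
    simp
  have : CharP (Matrix (Fin 2) (Fin 2) F) p := inferInstance
  have : ExpChar (Matrix (Fin 2) (Fin 2) F) p := ExpChar.prime hpp
  rw [add_pow_expChar_of_commute _ hcomm, hNp, add_zero, smul_pow, one_pow]

theorem odd_split [Fintype F] (hF : Fintype.card F % 4 = 3) (M : SL2 F) (a b : F) (hab : a * b = 1)
    (hne : a ≠ b) (htr : M.1 0 0 + M.1 1 1 = a + b) :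
    Odd (orderOf (QuotientGroup.mk M : SL2 F ⧸ Subgroup.center (SL2 F))) := by
  have hc := cayley M
  rw [htr] at hc
  have ha : a ≠ 0 := by rintro rfl; simp at hab
  have hchar : ringChar F ≠ 2 := by
    intro h
    have := FiniteField.even_card_of_char_two h
    omega
  have key : ∀ k : ℕ, (a - b) • (M.1 ^ k) = (a ^ k) • (M.1 - b • 1) - (b ^ k) • (M.1 - a • 1) := by
    intro k
    induction k with
    | zero => simp only [pow_zero, one_smul]; rw [sub_smul]; abel
    | succ k ih =>
      rw [pow_succ, ← smul_mul_assoc, ih, sub_mul, smul_mul_assoc, smul_mul_assoc, sub_mul, sub_mul,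
        hc]
      have e1 : a ^ (k + 1) = a ^ k * a := pow_succ a k
      have e2 : b ^ (k + 1) = b ^ k * b := pow_succ b k
      rw [e1, e2]
      ext i j
      simp only [Matrix.sub_apply, Matrix.smul_apply, smul_mul_assoc, one_mul, smul_eq_mul]
      linear_combination (a ^ k - b ^ k) * ((1 : Matrix (Fin 2) (Fin 2) F) i j) * hab
  have hk := key (Fintype.card F / 2)
  have hodd : Odd (Fintype.card F / 2) := by
    rw [Nat.odd_iff]; omega
  have hpow : ∀ x : F, x ≠ 0 → ∃ e : F, e * e = 1 ∧ x ^ (Fintype.card F / 2) = e := by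
    intro x hx
    rcases FiniteField.pow_dichotomy hchar hx with h | h
    · exact ⟨1, by ring, h⟩
    · exact ⟨-1, by ring, h⟩
  obtain ⟨e, he, hae⟩ := hpow a ha
  have hbe : b ^ (Fintype.card F / 2) = e := by
    have h1 : a ^ (Fintype.card F / 2) * b ^ (Fintype.card F / 2) = 1 := by
      rw [← mul_pow, hab, one_pow]
    rw [hae] at h1
    have h2 : e ≠ 0 := by rintro rfl; simp at he
    exact mul_left_cancel₀ h2 (h1.trans he.symm)
  rw [hae, hbe] at hk
  have hab' : a - b ≠ 0 := sub_ne_zero.2 hne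
  refine odd_of_pow hodd (mem_center_of_smul (r := e) ?_)
  have hcoe : (M ^ (Fintype.card F / 2)).1 = M.1 ^ (Fintype.card F / 2) := by simp
  rw [hcoe]
  have h3 : (a - b) • (M.1 ^ (Fintype.card F / 2)) = (a - b) • (e • 1) := by
    rw [hk]
    ext i j
    simp only [Matrix.sub_apply, Matrix.smul_apply, smul_eq_mul]
    ring
  exact smul_right_injective _ hab' h3

theorem exists_C {a1 a2 a3 b1 b2 b3 c x y w d : F} (h2 : (2 : F) ≠ 0) (hA : -a1 * a1 - a2 * a3 = 1)
    (hB : -b1 * b1 - b2 * b3 = 1) (hc : 2 * a1 * b1 + a2 * b3 + a3 * b2 = -2 * c)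
    (hd : d = 1 - c * c)
    (hne : d ≠ 0) (hw : w * w = 1 + 2 * x * y * c - x * x - y * y - c * c) :
    ∃ c1 c2 c3 : F, -c1 * c1 - c2 * c3 = 1 ∧ 2 * a1 * c1 + a2 * c3 + a3 * c2 = -2 * x ∧
      2 * c1 * b1 + c2 * b3 + c3 * b2 = -2 * y := by
  obtain ⟨v, hv⟩ : ∃ v, w = 2 * v := ⟨w / 2, by field_simp⟩
  subst hv
  refine ⟨((x - c * y) * a1 + (y - c * x) * b1 + v * (a2 * b3 - a3 * b2)) / d,
    ((x - c * y) * a2 + (y - c * x) * b2 + v * (2 * (a1 * b2 - a2 * b1))) / d,
    ((x - c * y) * a3 + (y - c * x) * b3 + v * (2 * (a3 * b1 - a1 * b3))) / d, ?_, ?_, ?_⟩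
  · obtain ⟨X, hX⟩ : ∃ X, X = x - c * y := ⟨_, rfl⟩
    obtain ⟨Y, hY⟩ : ∃ Y, Y = y - c * x := ⟨_, rfl⟩
    rw [← hX, ← hY]
    have e1 : -(X * a1 + Y * b1 + v * (a2 * b3 - a3 * b2)) * (X * a1 + Y * b1 + v * (a2 * b3 - a3 * b2)) -
        (X * a2 + Y * b2 + v * (2 * (a1 * b2 - a2 * b1))) * (X * a3 + Y * b3 + v * (2 * (a3 * b1 - a1 * b3)))
        = X ^ 2 * (-a1 * a1 - a2 * a3) + Y ^ 2 * (-b1 * b1 - b2 * b3) -
          X * Y * (2 * a1 * b1 + a2 * b3 + a3 * b2) +
          v ^ 2 * (4 * (-a1 * a1 - a2 * a3) * (-b1 * b1 - b2 * b3) -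
            (2 * a1 * b1 + a2 * b3 + a3 * b2) ^ 2) := by ring
    rw [hA, hB, hc] at e1
    have e2 : X ^ 2 * 1 + Y ^ 2 * 1 - X * Y * (-2 * c) + v ^ 2 * (4 * 1 * 1 - (-2 * c) ^ 2) = d * d := by
      rw [hX, hY, hd]
      linear_combination (1 - c * c) * hw
    rw [e2] at e1
    field_simp
    linear_combination e1
  · field_simp
    linear_combination (-2 * (x - c * y)) * hA + (y - c * x) * hc + 2 * x * hd
  · field_simp
    linear_combination (-2 * (y - c * x)) * hB + (x - c * y) * hc + 2 * y * hd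

/-- in odd characteristic, with `-1` a nonsquare: common neighbour parameters -/
theorem exists_params [Fintype F] (hF : Fintype.card F % 4 = 3) (hcard : 4 ≤ Fintype.card F) (c : F)
    (hc : ¬ IsSquare (c * c - 1)) :
    ∃ a b w : F, a ≠ 0 ∧ b ≠ 0 ∧ w * w = 1 + 2 * ((a + a⁻¹) / 2) * ((b + b⁻¹) / 2) * c -
      ((a + a⁻¹) / 2) * ((a + a⁻¹) / 2) - ((b + b⁻¹) / 2) * ((b + b⁻¹) / 2) - c * c := by
  classical
  have hchar : ringChar F ≠ 2 := by
    intro h
    have := FiniteField.even_card_of_char_two h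
    omega
  have h2 : (2 : F) ≠ 0 := Ring.two_ne_zero hchar
  have hneg : ¬ IsSquare (-1 : F) := by
    rw [FiniteField.isSquare_neg_one_iff]; simpa using hF
  -- x nonsquare → -x square
  have hns : ∀ x : F, ¬ IsSquare x → IsSquare (-x) := by
    intro x hx
    have hx0 : x ≠ 0 := by rintro rfl; exact hx (IsSquare.zero)
    rw [← quadraticChar_one_iff_isSquare (neg_ne_zero.2 hx0)]
    have : -x = (-1) * x := by ring
    rw [this, map_mul, quadraticChar_neg_one_iff_not_isSquare.2 hx,
      quadraticChar_neg_one_iff_not_isSquare.2 hneg]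
    norm_num
  have hk0 : (1 - c * c : F) ≠ 0 := by
    intro h
    apply hc
    rw [show c * c - 1 = -(1 - c * c) by ring, h, neg_zero]
    exact IsSquare.zero
  obtain ⟨k, hk⟩ : ∃ k, k = 1 - c * c := ⟨_, rfl⟩
  rw [← hk] at hk0
  -- g
  obtain ⟨g, hg⟩ : ∃ g : F → F, g = fun r => r * r - 2 * c * r + 1 := ⟨_, rfl⟩
  have hgr : ∀ r, g r = (r - c) * (r - c) + k := by intro r; rw [hg, hk]; ring
  have hg0 : ∀ r, g r ≠ 0 := by
    intro r h
    apply hc
    refine ⟨r - c, ?_⟩
    rw [hgr, hk] at h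
    linear_combination -h
  set U : Finset F := Finset.univ.erase 0 with hU
  have hUcard : U.card = Fintype.card F - 1 := by
    rw [hU, Finset.card_erase_of_mem (Finset.mem_univ _), Finset.card_univ]
  let φ : F → F := fun u => c + (u - k / u) / 2
  have hφ : ∀ u, u ≠ 0 → IsSquare (g (φ u)) := by
    intro u hu
    refine ⟨(u + k / u) / 2, ?_⟩
    rw [hgr]
    show (c + (u - k / u) / 2 - c) * (c + (u - k / u) / 2 - c) + k = _
    field_simp
    ring
  have hφs : ∀ r, IsSquare (g r) → ∃ u, u ≠ 0 ∧ φ u = r := by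
    rintro r ⟨w, hw⟩
    have h1 : (w + r - c) * (w - r + c) = k := by
      rw [hgr] at hw
      linear_combination -hw
    have h3 : w + r - c ≠ 0 := by
      intro h; rw [h, zero_mul] at h1; exact hk0 h1.symm
    refine ⟨w + r - c, h3, ?_⟩
    show c + ((w + r - c) - k / (w + r - c)) / 2 = r
    have h4 : k / (w + r - c) = w - r + c := by
      rw [← h1]; field_simp
    rw [h4]
    field_simp
    ring
  -- counting
  have hT : 2 * (U.image φ).card ≤ U.card := by
    apply Finset.mul_card_image_le_card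
    intro r hr
    obtain ⟨u, hu, hur⟩ := Finset.mem_image.1 hr
    have hu0 : u ≠ 0 := Finset.ne_of_mem_erase hu
    have hv0 : -k / u ≠ 0 := div_ne_zero (neg_ne_zero.2 hk0) hu0
    have hne : u ≠ -k / u := by
      intro h
      have h5 : u * u = -k := by
        field_simp at h
        linear_combination h
      exact hc ⟨u, by rw [h5, hk]; ring⟩
    have hφv : φ (-k / u) = r := by
      rw [← hur]
      show c + (-k / u - k / (-k / u)) / 2 = c + (u - k / u) / 2
      field_simp
      ring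
    have : ({u, -k / u} : Finset F) ⊆ U.filter (fun a => φ a = r) := by
      intro z hz
      rw [Finset.mem_insert, Finset.mem_singleton] at hz
      rw [Finset.mem_filter, hU, Finset.mem_erase]
      rcases hz with rfl | rfl
      · exact ⟨⟨hu0, Finset.mem_univ _⟩, hur⟩
      · exact ⟨⟨hv0, Finset.mem_univ _⟩, hφv⟩
    calc 2 = ({u, -k / u} : Finset F).card := (Finset.card_pair hne).symm
      _ ≤ _ := Finset.card_le_card this
  have hS : U.card ≤ 2 * (U.image (fun u => u * u)).card := by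
    apply Finset.card_le_mul_card_image
    intro s hs
    obtain ⟨u, hu, hus⟩ := Finset.mem_image.1 hs
    have : U.filter (fun a => a * a = s) ⊆ {u, -u} := by
      intro z hz
      rw [Finset.mem_filter] at hz
      rw [Finset.mem_insert, Finset.mem_singleton]
      have h6 : (z - u) * (z + u) = 0 := by
        linear_combination hz.2 - hus
      rcases mul_eq_zero.1 h6 with h | h
      · left; exact sub_eq_zero.1 h
      · right; exact eq_neg_of_add_eq_zero_left h
    exact (Finset.card_le_card this).trans Finset.card_le_two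
  -- T contains 0
  have h0T : (0 : F) ∈ U.image φ := by
    have : IsSquare (g 0) := ⟨1, by rw [hg]; ring⟩
    obtain ⟨u, hu, hu2⟩ := hφs 0 this
    exact Finset.mem_image.2 ⟨u, Finset.mem_erase.2 ⟨hu, Finset.mem_univ _⟩, hu2⟩
  -- a nonzero r1 with g r1 square
  obtain ⟨r1, hr1, hgr1⟩ : ∃ r1, r1 ≠ 0 ∧ IsSquare (g r1) := by
    by_contra hcon
    push Not at hcon
    have hall : ∀ u ∈ U, φ u = 0 := by
      intro u hu
      by_contra h
      exact hcon _ h (hφ u (Finset.ne_of_mem_erase hu))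
    -- quadratic with too many roots
    have hroots : ∀ u ∈ U, u * u + 2 * c * u - k = 0 := by
      intro u hu
      have h7 := hall u hu
      have hu0 : u ≠ 0 := Finset.ne_of_mem_erase hu
      change c + (u - k / u) / 2 = 0 at h7
      field_simp at h7
      linear_combination h7
    obtain ⟨u, hu⟩ : U.Nonempty := by rw [← Finset.card_pos]; omega
    have hsub : U ⊆ {u, -2 * c - u} := by
      intro z hz
      rw [Finset.mem_insert, Finset.mem_singleton]
      have h8 : (z - u) * (z + u + 2 * c) = 0 := by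
        linear_combination hroots z hz - hroots u hu
      rcases mul_eq_zero.1 h8 with h | h
      · left; exact sub_eq_zero.1 h
      · right; linear_combination h
    have := (Finset.card_le_card hsub).trans Finset.card_le_two
    omega
  -- the class of r1
  obtain ⟨r2, hr2, hgr2, hr12⟩ : ∃ r2, r2 ≠ 0 ∧ ¬ IsSquare (g r2) ∧ ∃ a, r1 * r2 = a * a := by
    by_contra hcon
    push Not at hcon
    have hsq : ∀ r2, r2 ≠ 0 → (∃ a, r1 * r2 = a * a) → IsSquare (g r2) := by
      intro r2 h1 h3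
      by_contra h4
      obtain ⟨a, ha⟩ := h3
      exact hcon r2 h1 h4 a ha
    -- the class {r1 * s : s nonzero square} is contained in T \ {0}
    have hsub : (U.image (fun u => u * u)).image (fun s => r1 * s) ⊆ (U.image φ).erase 0 := by
      intro z hz
      obtain ⟨s, hs, hsz⟩ := Finset.mem_image.1 hz
      obtain ⟨u, hu, hus⟩ := Finset.mem_image.1 hs
      have hu0 : u ≠ 0 := Finset.ne_of_mem_erase hu
      have hz0 : z ≠ 0 := by
        rw [← hsz, ← hus]
        exact mul_ne_zero hr1 (mul_ne_zero hu0 hu0)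
      have hgz := hsq z hz0 ⟨r1 * u, by rw [← hsz, ← hus]; ring⟩
      obtain ⟨v, hv, hv2⟩ := hφs z hgz
      exact Finset.mem_erase.2 ⟨hz0, Finset.mem_image.2
        ⟨v, Finset.mem_erase.2 ⟨hv, Finset.mem_univ _⟩, hv2⟩⟩
    have h1 := Finset.card_le_card hsub
    rw [Finset.card_image_of_injective _ (mul_right_injective₀ hr1),
      Finset.card_erase_of_mem h0T] at h1
    have h3 : 0 < (U.image φ).card := Finset.card_pos.2 ⟨0, h0T⟩
    omega
  obtain ⟨a, ha⟩ := hr12
  have ha0 : a ≠ 0 := by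
    rintro rfl
    rw [mul_zero] at ha
    exact mul_ne_zero hr1 hr2 ha
  obtain ⟨w1, hw1⟩ := hgr1
  obtain ⟨w2, hw2⟩ := hns _ hgr2
  refine ⟨a, a / r1, w1 * w2 / (2 * a), ha0, div_ne_zero ha0 hr1, ?_⟩
  have hr2' : r2 = a * a / r1 := by field_simp; linear_combination ha
  have e : w1 * w2 / (2 * a) * (w1 * w2 / (2 * a)) = (w1 * w1) * (w2 * w2) / (2 * 2 * (a * a)) := by
    field_simp
  rw [e, ← hw1, ← hw2, hg]
  simp only
  rw [hr2']
  field_simp
  ring

/-- the projective group -/
abbrev PSL (F : Type*) [Field F] := SL2 F ⧸ Subgroup.center (SL2 F)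

/-- projection -/
def pr (M : SL2 F) : PSL F := QuotientGroup.mk M

theorem pr_mul (M N : SL2 F) : pr (M * N) = pr M * pr N := rfl

theorem pr_eq_one {M : SL2 F} : pr M = 1 ↔ M ∈ Subgroup.center (SL2 F) := QuotientGroup.eq_one_iff _

theorem mul_entries (M N : SL2 F) (i j : Fin 2) :
    (M * N).1 i j = M.1 i 0 * N.1 0 j + M.1 i 1 * N.1 1 j := by
  show (M.1 * N.1) i j = _
  rw [Matrix.mul_apply, Fin.sum_univ_two]

/-- involutions lift to trace zero matrices -/
theorem lift_inv (x : PSL F) (hx : x * x = 1) (hx1 : x ≠ 1) :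
    ∃ M : SL2 F, pr M = x ∧ M.1 0 0 + M.1 1 1 = 0 := by
  obtain ⟨M, rfl⟩ := QuotientGroup.mk_surjective x
  refine ⟨M, rfl, ?_⟩
  have h1 : M * M ∈ Subgroup.center (SL2 F) := (QuotientGroup.eq_one_iff _).1 hx
  have h2 : M ∉ Subgroup.center (SL2 F) := fun h => hx1 ((QuotientGroup.eq_one_iff _).2 h)
  rw [mem_center] at h1 h2
  simp only [mul_entries] at h1
  by_contra htr
  apply h2
  obtain ⟨e1, e2, e3⟩ := h1
  have e1' : (M.1 0 0 + M.1 1 1) * M.1 0 1 = 0 := by linear_combination e1
  have e2' : (M.1 0 0 + M.1 1 1) * M.1 1 0 = 0 := by linear_combination e2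
  have e3' : (M.1 0 0 + M.1 1 1) * (M.1 0 0 - M.1 1 1) = 0 := by linear_combination e3
  refine ⟨(mul_eq_zero.1 e1').resolve_left htr, (mul_eq_zero.1 e2').resolve_left htr, ?_⟩
  exact sub_eq_zero.1 ((mul_eq_zero.1 e3').resolve_left htr)

theorem pr_sq_of_trace {M : SL2 F} (h : M.1 0 0 + M.1 1 1 = 0) : pr M * pr M = 1 := by
  rw [← pr_mul, pr_eq_one, mem_center]
  simp only [mul_entries]
  have h1 : M.1 1 1 = -M.1 0 0 := by linear_combination h
  rw [h1]
  refine ⟨by ring, by ring, by ring⟩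

theorem common_odd [Fintype F] (hchar : ringChar F ≠ 2) (hcard : 4 ≤ Fintype.card F) (A B : SL2 F)
    (hA : A.1 0 0 + A.1 1 1 = 0) (hB : B.1 0 0 + B.1 1 1 = 0) :
    ∃ C : SL2 F, C.1 0 0 + C.1 1 1 = 0 ∧ Odd (orderOf (pr A * pr C)) ∧
      Odd (orderOf (pr C * pr B)) := by
  have h2 : (2 : F) ≠ 0 := Ring.two_ne_zero hchar
  obtain ⟨a1, ha1⟩ : ∃ a1, a1 = A.1 0 0 := ⟨_, rfl⟩
  obtain ⟨a2, ha2⟩ : ∃ a2, a2 = A.1 0 1 := ⟨_, rfl⟩
  obtain ⟨a3, ha3⟩ : ∃ a3, a3 = A.1 1 0 := ⟨_, rfl⟩
  have ha4 : A.1 1 1 = -a1 := by rw [ha1]; linear_combination hA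
  obtain ⟨b1, hb1⟩ : ∃ b1, b1 = B.1 0 0 := ⟨_, rfl⟩
  obtain ⟨b2, hb2⟩ : ∃ b2, b2 = B.1 0 1 := ⟨_, rfl⟩
  obtain ⟨b3, hb3⟩ : ∃ b3, b3 = B.1 1 0 := ⟨_, rfl⟩
  have hb4 : B.1 1 1 = -b1 := by rw [hb1]; linear_combination hB
  have hdA : -a1 * a1 - a2 * a3 = 1 := by
    have := det_eq A
    rw [ha4, ← ha1, ← ha2, ← ha3] at this
    linear_combination this
  have hdB : -b1 * b1 - b2 * b3 = 1 := by
    have := det_eq B
    rw [hb4, ← hb1, ← hb2, ← hb3] at this
    linear_combination this
  have htrAB : (A * B).1 0 0 + (A * B).1 1 1 = 2 * a1 * b1 + a2 * b3 + a3 * b2 := by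
    rw [mul_entries, mul_entries, ha4, hb4, ← ha1, ← ha2, ← ha3, ← hb1, ← hb2, ← hb3]; ring
  obtain ⟨c, hc⟩ : ∃ c, 2 * a1 * b1 + a2 * b3 + a3 * b2 = -2 * c :=
    ⟨-(2 * a1 * b1 + a2 * b3 + a3 * b2) / 2, by field_simp⟩
  have hAA : Odd (orderOf (pr A * pr A)) := by rw [pr_sq_of_trace hA, orderOf_one]; exact odd_one
  by_cases hc1 : 1 - c * c = 0
  · refine ⟨A, hA, hAA, ?_⟩
    rw [← pr_mul]
    apply odd_unip hchar (A * B) (-c) (by linear_combination -hc1)
    rw [htrAB, hc]; ring
  -- construct C from x y w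
  have build : ∀ x y w : F, w * w = 1 + 2 * x * y * c - x * x - y * y - c * c →
      (∀ M : SL2 F, M.1 0 0 + M.1 1 1 = -2 * x → Odd (orderOf (pr M))) →
      (∀ M : SL2 F, M.1 0 0 + M.1 1 1 = -2 * y → Odd (orderOf (pr M))) →
      ∃ C : SL2 F, C.1 0 0 + C.1 1 1 = 0 ∧ Odd (orderOf (pr A * pr C)) ∧
        Odd (orderOf (pr C * pr B)) := by
    intro x y w hw hx hy
    obtain ⟨c1, c2, c3, h1, h3, h4⟩ := exists_C h2 hdA hdB hc rfl hc1 hw
    refine ⟨m2 c1 c2 c3 (-c1) (by linear_combination h1), ?_, ?_, ?_⟩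
    · simp [m2]
    · rw [← pr_mul]
      apply hx
      rw [mul_entries, mul_entries, ← h3, ← ha1, ← ha2, ← ha3, ha4]
      simp [m2]
      ring
    · rw [← pr_mul]
      apply hy
      rw [mul_entries, mul_entries, ← h4, ← hb1, ← hb2, ← hb3, hb4]
      simp [m2]
      ring
  by_cases hq : Fintype.card F % 4 = 3
  · by_cases hsq : IsSquare (c * c - 1)
    · refine ⟨A, hA, hAA, ?_⟩
      rw [← pr_mul]
      obtain ⟨v, hv⟩ := hsq
      have hv0 : v ≠ 0 := by
        rintro rfl
        apply hc1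
        linear_combination -hv
      apply odd_split hq (A * B) (-c + v) (-c - v) (by linear_combination hv)
      · intro h
        apply hv0
        have : 2 * v = 0 := by linear_combination h
        exact (mul_eq_zero.1 this).resolve_left h2
      · rw [htrAB, hc]; ring
    · obtain ⟨a, b, w, ha, hb, hw⟩ := exists_params hq hcard c hsq
      have key : ∀ a : F, a ≠ 0 → ∀ M : SL2 F, M.1 0 0 + M.1 1 1 = -2 * ((a + a⁻¹) / 2) →
          Odd (orderOf (pr M)) := by
        intro a ha M hM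
        have hM' : M.1 0 0 + M.1 1 1 = (-a) + (-a⁻¹) := by rw [hM]; field_simp; ring
        by_cases hne : -a = -a⁻¹
        · apply odd_unip hchar M (-a)
          · have : (-a) * (-a⁻¹) = 1 := by field_simp
            rwa [← hne] at this
          · rw [hM', ← hne]; ring
        · exact odd_split hq M (-a) (-a⁻¹) (by field_simp) hne hM'
      exact build _ _ w hw (key a ha) (key b hb)
  · have hi : IsSquare (-1 : F) := by rw [FiniteField.isSquare_neg_one_iff]; exact hq
    obtain ⟨i, hi⟩ := hi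
    have key : ∀ M : SL2 F, M.1 0 0 + M.1 1 1 = -2 * (1 : F) → Odd (orderOf (pr M)) := by
      intro M hM
      exact odd_unip hchar M (-1) (by ring) (by rw [hM]; ring)
    refine build 1 1 (i * (1 - c)) ?_ key key
    linear_combination -(1 - c) ^ 2 * hi

/-! ### characteristic two -/

theorem odd_char_two [Fintype F] (h2 : (2 : F) = 0) (M : SL2 F)
    (htr : M.1 0 0 + M.1 1 1 ≠ 0) : Odd (orderOf (pr M)) := by
  by_contra hcon
  rw [Nat.not_odd_iff_even] at hcon
  obtain ⟨m, hm⟩ := hcon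
  have hpos : 0 < orderOf (pr M) := by
    have : Finite (PSL F) := inferInstance
    exact orderOf_pos _
  have hu : (pr M) ^ m * (pr M) ^ m = 1 := by rw [← pow_add, ← hm]; exact pow_orderOf_eq_one _
  have hu1 : (pr M) ^ m ≠ 1 := by
    intro h
    have := orderOf_dvd_of_pow_eq_one h
    have := Nat.le_of_dvd (by omega) this
    omega
  have hpow : (pr M) ^ m = pr (M ^ m) := rfl
  rw [hpow] at hu hu1
  obtain ⟨U, hU⟩ : ∃ U, U = M ^ m := ⟨_, rfl⟩
  rw [← hU] at hu hu1
  have hcomm : U * M = M * U := by rw [hU, ← pow_succ, pow_succ']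
  have hUc : U ∉ Subgroup.center (SL2 F) := fun h => hu1 (pr_eq_one.2 h)
  -- trace zero
  have hUtr : U.1 0 0 + U.1 1 1 = 0 := by
    have h1 : U * U ∈ Subgroup.center (SL2 F) := pr_eq_one.1 hu
    rw [mem_center] at h1 hUc
    simp only [mul_entries] at h1
    by_contra htr
    apply hUc
    obtain ⟨e1, e2, e3⟩ := h1
    have e1' : (U.1 0 0 + U.1 1 1) * U.1 0 1 = 0 := by linear_combination e1
    have e2' : (U.1 0 0 + U.1 1 1) * U.1 1 0 = 0 := by linear_combination e2
    have e3' : (U.1 0 0 + U.1 1 1) * (U.1 0 0 - U.1 1 1) = 0 := by linear_combination e3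
    refine ⟨(mul_eq_zero.1 e1').resolve_left htr, (mul_eq_zero.1 e2').resolve_left htr, ?_⟩
    exact sub_eq_zero.1 ((mul_eq_zero.1 e3').resolve_left htr)
  apply hUc
  rw [mem_center]
  have c01 : (U * M).1 0 1 = (M * U).1 0 1 := by rw [hcomm]
  have c10 : (U * M).1 1 0 = (M * U).1 1 0 := by rw [hcomm]
  rw [mul_entries, mul_entries] at c01 c10
  have d1 : U.1 1 1 = U.1 0 0 := by linear_combination hUtr - U.1 0 0 * h2
  refine ⟨?_, ?_, d1.symm⟩
  · have : (M.1 0 0 + M.1 1 1) * U.1 0 1 = 0 := by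
      rw [d1] at c01
      linear_combination c01 + M.1 0 0 * U.1 0 1 * h2
    exact (mul_eq_zero.1 this).resolve_left htr
  · have : (M.1 0 0 + M.1 1 1) * U.1 1 0 = 0 := by
      rw [d1] at c10
      linear_combination -c10 + M.1 0 0 * U.1 1 0 * h2
    exact (mul_eq_zero.1 this).resolve_left htr

theorem common_even [Fintype F] (h2 : (2 : F) = 0) (A B : SL2 F)
    (hA : A.1 0 0 + A.1 1 1 = 0) (hB : B.1 0 0 + B.1 1 1 = 0)
    (hAc : A ∉ Subgroup.center (SL2 F)) (hBc : B ∉ Subgroup.center (SL2 F)) :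
    ∃ C : SL2 F, C.1 0 0 + C.1 1 1 = 0 ∧ Odd (orderOf (pr A * pr C)) ∧
      Odd (orderOf (pr C * pr B)) := by
  have hA' : A.1 0 0 = A.1 1 1 := by linear_combination -hA + A.1 0 0 * h2
  have hB' : B.1 0 0 = B.1 1 1 := by linear_combination -hB + B.1 0 0 * h2
  by_cases hAB : (A * B).1 0 0 + (A * B).1 1 1 = 0
  · rw [mul_entries, mul_entries, ← hA', ← hB'] at hAB
    have hAB' : A.1 0 1 * B.1 1 0 + A.1 1 0 * B.1 0 1 = 0 := by
      linear_combination hAB - A.1 0 0 * B.1 0 0 * h2
    rw [mem_center] at hAc hBc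
    by_cases ha : A.1 0 1 = 0
    · have ha3 : A.1 1 0 ≠ 0 := fun h => hAc ⟨ha, h, hA'⟩
      rw [ha, zero_mul, zero_add] at hAB'
      have hb2 := (mul_eq_zero.1 hAB').resolve_left ha3
      have hb3 : B.1 1 0 ≠ 0 := fun h => hBc ⟨hb2, h, hB'⟩
      refine ⟨m2 1 1 0 1 (by ring), ?_, ?_, ?_⟩
      · simp only [m2, Matrix.of_apply, Matrix.cons_val', Matrix.cons_val_zero, Matrix.cons_val_one,
          Matrix.cons_val_fin_one]
        linear_combination h2
      · rw [← pr_mul]
        apply odd_char_two h2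
        rw [mul_entries, mul_entries, ← hA', ha]
        simp only [m2, Matrix.of_apply, Matrix.cons_val', Matrix.cons_val_zero, Matrix.cons_val_one,
          Matrix.cons_val_fin_one]
        intro h
        apply ha3
        linear_combination h - A.1 0 0 * h2
      · rw [← pr_mul]
        apply odd_char_two h2
        rw [mul_entries, mul_entries, ← hB']
        simp only [m2, Matrix.of_apply, Matrix.cons_val', Matrix.cons_val_zero, Matrix.cons_val_one,
          Matrix.cons_val_fin_one]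
        intro h
        apply hb3
        linear_combination h - B.1 0 0 * h2
    · have hb2 : B.1 0 1 ≠ 0 := by
        intro h
        rw [h, mul_zero, add_zero] at hAB'
        have hb3 := (mul_eq_zero.1 hAB').resolve_left ha
        exact hBc ⟨h, hb3, hB'⟩
      refine ⟨m2 1 0 1 1 (by ring), ?_, ?_, ?_⟩
      · simp only [m2, Matrix.of_apply, Matrix.cons_val', Matrix.cons_val_zero, Matrix.cons_val_one,
          Matrix.cons_val_fin_one]
        linear_combination h2
      · rw [← pr_mul]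
        apply odd_char_two h2
        rw [mul_entries, mul_entries, ← hA']
        simp only [m2, Matrix.of_apply, Matrix.cons_val', Matrix.cons_val_zero, Matrix.cons_val_one,
          Matrix.cons_val_fin_one]
        intro h
        apply ha
        linear_combination h - A.1 0 0 * h2
      · rw [← pr_mul]
        apply odd_char_two h2
        rw [mul_entries, mul_entries, ← hB']
        simp only [m2, Matrix.of_apply, Matrix.cons_val', Matrix.cons_val_zero, Matrix.cons_val_one,
          Matrix.cons_val_fin_one]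
        intro h
        apply hb2
        linear_combination h - B.1 0 0 * h2
  · refine ⟨A, hA, ?_, ?_⟩
    · rw [pr_sq_of_trace hA, orderOf_one]; exact odd_one
    · rw [← pr_mul]; exact odd_char_two h2 _ hAB

theorem common [Fintype F] (hcard : 4 ≤ Fintype.card F) (x y : PSL F) (hx : x * x = 1) (hx1 : x ≠ 1)
    (hy : y * y = 1) (hy1 : y ≠ 1) :
    ∃ z : PSL F, z * z = 1 ∧ Odd (orderOf (x * z)) ∧ Odd (orderOf (z * y)) := by
  obtain ⟨A, rfl, hA⟩ := lift_inv x hx hx1
  obtain ⟨B, rfl, hB⟩ := lift_inv y hy hy1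
  have key : ∃ C : SL2 F, C.1 0 0 + C.1 1 1 = 0 ∧ Odd (orderOf (pr A * pr C)) ∧
      Odd (orderOf (pr C * pr B)) := by
    by_cases hchar : ringChar F = 2
    · have h2 : (2 : F) = 0 := by
        have := ringChar.spec F 2
        exact_mod_cast this.2 (by rw [hchar])
      exact common_even h2 A B hA hB (fun h => hx1 (pr_eq_one.2 h)) (fun h => hy1 (pr_eq_one.2 h))
    · exact common_odd hchar hcard A B hA hB
  obtain ⟨C, hC, h1, h2⟩ := key
  exact ⟨pr C, pr_sq_of_trace hC, h1, h2⟩

theorem not_odd_of {G : Type*} [Group G] {g : G} (h : g * g = 1) (h1 : g ≠ 1) :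
    ¬ Odd (orderOf g) := by
  intro ho
  have h2 : orderOf g ∣ 2 := orderOf_dvd_of_pow_eq_one (by rw [sq, h])
  rcases (Nat.dvd_prime Nat.prime_two).1 h2 with h4 | h4
  · exact h1 (orderOf_eq_one_iff.1 h4)
  · rw [h4] at ho
    exact absurd ho (by decide)

theorem noncommon [Fintype F] (hcard : 4 ≤ Fintype.card F) :
    ∃ x y : PSL F, x * x = 1 ∧ x ≠ 1 ∧ y * y = 1 ∧ y ≠ 1 ∧ ¬ Odd (orderOf (x * y)) := by
  by_cases hchar : ringChar F = 2
  · have h2 : (2 : F) = 0 := by
      have := ringChar.spec F 2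
      exact_mod_cast this.2 (by rw [hchar])
    classical
    obtain ⟨b, hb⟩ : ∃ b : F, b ∉ ({0, 1} : Finset F) := by
      by_contra hcon
      push Not at hcon
      have h1 : (Finset.univ : Finset F) ⊆ {0, 1} := fun w _ => hcon w
      have h3 := (Finset.card_le_card h1).trans Finset.card_le_two
      rw [Finset.card_univ] at h3
      omega
    simp only [Finset.mem_insert, Finset.mem_singleton, not_or] at hb
    have hm : ∀ c : F, c ≠ 0 → ∀ M : SL2 F, M = m2 1 c 0 1 (by ring) → pr M * pr M = 1 ∧ pr M ≠ 1 := by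
      rintro c hc M rfl
      constructor
      · apply pr_sq_of_trace
        simp only [m2, Matrix.of_apply, Matrix.cons_val', Matrix.cons_val_zero, Matrix.cons_val_one,
          Matrix.cons_val_fin_one]
        linear_combination h2
      · rw [Ne, pr_eq_one, mem_center]
        rintro ⟨h, -⟩
        simp only [m2, Matrix.of_apply, Matrix.cons_val', Matrix.cons_val_zero, Matrix.cons_val_one,
          Matrix.cons_val_fin_one] at h
        exact hc h
    obtain ⟨h11, h12⟩ := hm 1 one_ne_zero _ rfl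
    obtain ⟨h21, h22⟩ := hm b hb.1 _ rfl
    refine ⟨_, _, h11, h12, h21, h22, ?_⟩
    have hb1 : b + 1 ≠ 0 := by
      intro h
      apply hb.2
      linear_combination h - h2
    obtain ⟨h31, h32⟩ := hm (b + 1) hb1 _ rfl
    rw [← pr_mul]
    have e : m2 1 1 0 1 (by ring) * m2 1 b 0 1 (by ring) = m2 1 (b + 1) 0 1 (by ring : (1:F) * 1 - (b+1) * 0 = 1) := by
      apply Subtype.ext
      ext i j
      rw [mul_entries]
      fin_cases i <;> fin_cases j <;> simp [m2]
    rw [e]
    exact not_odd_of h31 h32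
  · have h2 : (2 : F) ≠ 0 := Ring.two_ne_zero hchar
    obtain ⟨r, s, hrs⟩ : ∃ r s : F, r * r + s * s = -1 := by
      obtain ⟨a, b, hab⟩ := FiniteField.exists_root_sum_quadratic (R := F)
        (f := Polynomial.X ^ 2) (g := Polynomial.X ^ 2 - Polynomial.C (-1))
        (Polynomial.degree_X_pow 2) (Polynomial.degree_X_pow_sub_C (by decide) _)
        (FiniteField.odd_card_of_char_ne_two hchar)
      refine ⟨a, b, ?_⟩
      simp only [Polynomial.eval_pow, Polynomial.eval_X, Polynomial.eval_sub, Polynomial.eval_C] at hab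
      linear_combination hab
    have key : ∀ M : SL2 F, M.1 0 0 + M.1 1 1 = 0 → (M.1 0 1 ≠ 0 ∨ M.1 0 0 ≠ 0) →
        pr M * pr M = 1 ∧ pr M ≠ 1 := by
      intro M hM hM2
      refine ⟨pr_sq_of_trace hM, ?_⟩
      rw [Ne, pr_eq_one, mem_center]
      rintro ⟨h3, h4, h5⟩
      rcases hM2 with h | h
      · exact h h3
      · apply h
        have : 2 * M.1 0 0 = 0 := by linear_combination hM + h5
        exact (mul_eq_zero.1 this).resolve_left h2
    have hrs0 : r ≠ 0 ∨ s ≠ 0 := by
      by_contra hcon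
      push Not at hcon
      rw [hcon.1, hcon.2] at hrs
      simp at hrs
    obtain ⟨h11, h12⟩ := key (m2 0 1 (-1) 0 (by ring)) (by simp [m2]) (by simp [m2])
    obtain ⟨h21, h22⟩ := key (m2 r s s (-r) (by linear_combination -hrs)) (by simp [m2])
      (by
        rcases hrs0 with h | h
        · right; simpa [m2] using h
        · left; simpa [m2] using h)
    refine ⟨_, _, h11, h12, h21, h22, ?_⟩
    rw [← pr_mul]
    obtain ⟨h31, h32⟩ := key (m2 0 1 (-1) 0 (by ring) * m2 r s s (-r) (by linear_combination -hrs))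
      (by rw [mul_entries, mul_entries]; simp [m2])
      (by
        rw [mul_entries, mul_entries]
        rcases hrs0 with h | h
        · left; simpa [m2] using h
        · right; simpa [m2] using h)
    exact not_odd_of h31 h32

/-- Let F be a finite field with at least 4 elements and let X be a conjugacy class of involutions of PSL(2, F). The graph on X joining two distinct involutions whose product has odd order is connected and has diameter exactly 2. -/
theorem result {F : Type*} [Field F] [Fintype F] (hF : 4 ≤ Fintype.card F)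
    (t : Matrix.ProjectiveSpecialLinearGroup (Fin 2) F) (ht : orderOf t = 2) :
    (SimpleGraph.fromRel fun x y : {x : Matrix.ProjectiveSpecialLinearGroup (Fin 2) F // IsConj t x} =>
        Odd (orderOf (x.1 * y.1))).Connected ∧
      (SimpleGraph.fromRel fun x y : {x : Matrix.ProjectiveSpecialLinearGroup (Fin 2) F // IsConj t x} =>
        Odd (orderOf (x.1 * y.1))).diam = 2 := by
  have ht2 : t * t = 1 := by
    have := pow_orderOf_eq_one t
    rwa [ht, sq] at this
  have ht1 : t ≠ 1 := by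
    rintro rfl
    rw [orderOf_one] at ht
    exact absurd ht (by decide)
  have hsq : ∀ u, IsConj t u → u * u = 1 ∧ u ≠ 1 := by
    intro u hu
    obtain ⟨c, hc⟩ := isConj_iff.1 hu
    constructor
    · rw [← hc]
      calc c * t * c⁻¹ * (c * t * c⁻¹) = c * (t * t) * c⁻¹ := by group
        _ = 1 := by rw [ht2, mul_one, mul_inv_cancel]
    · rintro rfl
      apply ht1
      have : t = c⁻¹ * (c * t * c⁻¹) * c := by group
      rw [this, hc]; group
  apply odd_product_graph t _ _ ht2
  · rintro ⟨x, hx⟩ ⟨y, hy⟩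
    obtain ⟨z, hz, h1, h2⟩ := common hF x y (hsq x hx).1 (hsq x hx).2 (hsq y hy).1 (hsq y hy).2
    exact ⟨⟨z, hx.trans (isConj_of_odd (hsq x hx).1 hz h1)⟩, h1, h2⟩
  · obtain ⟨x, y, hx, hx1, hy, hy1, hxy⟩ := noncommon (F := F) hF
    have hall : ∀ u : PSL F, u * u = 1 → u ≠ 1 → IsConj t u := by
      intro u hu hu1
      obtain ⟨z, hz, h1, h2⟩ := common hF t u ht2 ht1 hu hu1
      exact (isConj_of_odd ht2 hz h1).trans (isConj_of_odd hz hu h2)
    exact ⟨⟨x, hall x hx hx1⟩, ⟨y, hall y hy hy1⟩, hxy⟩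

end Cfsg.Agent.S3266
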