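import Mathlib
import Cfsg.Agent.Lib.ClassTwoDuality
import Cfsg.Statements.S3301
import Cfsg.Agent.Lib.HallHigman
set_option linter.all false

-- part: H334/Cocycle
section
/-!
# Cocycles on finite sets with a group action (a form of the transfer)

`N : K → Y → B` with `N (g * h) y = N g (h • y) * N h y`.  For a subgroup `H` of `G` and
`φ : H →* B` there is such a cocycle on `G ⧸ H` extending `φ`, and the product over `G ⧸ H` is the
transfer.
-/

set_option autoImplicit false

namespace Cfsg.Agent.H334.Cocycle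

open scoped Pointwise

/-- the orbit of `y` under the subgroup `E`, as a finset -/
noncomputable def orb {K Y : Type*} [Group K] [MulAction K Y] [Finite Y] (E : Subgroup K) (y : Y) :
    Finset Y := (Set.toFinite {x | ∃ e ∈ E, e • y = x}).toFinset

section

variable {K Y B : Type*} [Group K] [MulAction K Y] [Finite Y] [CommGroup B]

theorem mem_orb {E : Subgroup K} {y x : Y} : x ∈ orb E y ↔ ∃ e ∈ E, e • y = x := by
  simp [orb]

theorem self_mem_orb (E : Subgroup K) (y : Y) : y ∈ orb E y := mem_orb.2 ⟨1, one_mem _, one_smul _ _⟩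

theorem orb_smul (E : Subgroup K) {e : K} (he : e ∈ E) (y : Y) : orb E (e • y) = orb E y := by
  ext x
  rw [mem_orb, mem_orb]
  constructor
  · rintro ⟨k, hk, rfl⟩
    exact ⟨k * e, mul_mem hk he, by rw [mul_smul]⟩
  · rintro ⟨k, hk, rfl⟩
    exact ⟨k * e⁻¹, mul_mem hk (inv_mem he), by rw [mul_smul, inv_smul_smul]⟩

theorem orb_eq_of_mem {E : Subgroup K} {y x : Y} (h : x ∈ orb E y) : orb E x = orb E y := by
  obtain ⟨e, he, rfl⟩ := mem_orb.1 h
  exact orb_smul E he y

variable {N : K → Y → B} (hN : ∀ g h y, N (g * h) y = N g (h • y) * N h y)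

include hN in
omit [Finite Y] in
theorem one_eq (y : Y) : N 1 y = 1 := by
  have h := hN 1 1 y
  rw [mul_one, one_smul] at h
  exact left_eq_mul.mp h

/-- `N` is a coboundary on the orbit if it is trivial on a point stabilizer; hence the product over
the orbit is the power of a constant for every element normalising the group. -/
theorem prod_orb_eq_one (hN : ∀ g h y, N (g * h) y = N g (h • y) * N h y)
    (h2 : ∀ g y, N g y ^ 2 = 1) (E : Subgroup K) (x₀ : Y)
    (hst : ∀ e ∈ E, e • x₀ = x₀ → N e x₀ = 1) (heven : Even (orb E x₀).card) (m : K)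
    (hm : ∀ e ∈ E, m * e * m⁻¹ ∈ E) (hmx : m • x₀ ∈ orb E x₀) :
    ∏ x ∈ orb E x₀, N m x = 1 := by
  classical
  let b : Y → B := fun x => if h : ∃ e ∈ E, e • x₀ = x then N h.choose x₀ else 1
  have hb : ∀ e ∈ E, b (e • x₀) = N e x₀ := by
    intro e he
    have hex : ∃ e' ∈ E, e' • x₀ = e • x₀ := ⟨e, he, rfl⟩
    have h1 : b (e • x₀) = N hex.choose x₀ := dif_pos hex
    rw [h1]
    obtain ⟨h3, h4⟩ := hex.choose_spec
    set c := hex.choose with hc
    have h5 : (c⁻¹ * e) • x₀ = x₀ := by rw [mul_smul, ← h4, inv_smul_smul]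
    have h6 := hN c (c⁻¹ * e) x₀
    rw [h5, hst _ (mul_mem (inv_mem h3) he) h5, mul_one, mul_inv_cancel_left] at h6
    exact h6.symm
  obtain ⟨e₁, he₁, hme₁⟩ := mem_orb.1 hmx
  have key : ∀ x ∈ orb E x₀, m • x ∈ orb E x₀ ∧
      N m x = b (m • x) * (b x)⁻¹ * (N m x₀ * (N e₁ x₀)⁻¹) := by
    intro x hx
    obtain ⟨e, he, rfl⟩ := mem_orb.1 hx
    have he' := hm e he
    set e' := m * e * m⁻¹ with hdef
    have h1 : m • e • x₀ = (e' * e₁) • x₀ := by
      rw [mul_smul, hme₁, ← mul_smul, ← mul_smul, hdef]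
      congr 1
      group
    refine ⟨?_, ?_⟩
    · rw [h1]
      exact mem_orb.2 ⟨_, mul_mem he' he₁, rfl⟩
    · rw [h1, hb _ (mul_mem he' he₁), hb e he]
      have h3 : N (m * e) x₀ = N m (e • x₀) * N e x₀ := hN m e x₀
      have h4 : m * e = e' * m := by rw [hdef]; group
      have h5 : N (e' * m) x₀ = N e' (m • x₀) * N m x₀ := hN e' m x₀
      have h6 : N (e' * e₁) x₀ = N e' (e₁ • x₀) * N e₁ x₀ := hN e' e₁ x₀
      rw [h4, h5, ← hme₁] at h3
      rw [h6]
      have h7 : N m (e • x₀) = N e' (e₁ • x₀) * N m x₀ * (N e x₀)⁻¹ := by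
        rw [h3, mul_inv_cancel_right]
      rw [h7]
      have h8 : N e₁ x₀ * (N e₁ x₀)⁻¹ = 1 := mul_inv_cancel _
      calc N e' (e₁ • x₀) * N m x₀ * (N e x₀)⁻¹
          = N e' (e₁ • x₀) * N m x₀ * (N e x₀)⁻¹ * (N e₁ x₀ * (N e₁ x₀)⁻¹) := by rw [h8, mul_one]
        _ = N e' (e₁ • x₀) * N e₁ x₀ * (N e x₀)⁻¹ * (N m x₀ * (N e₁ x₀)⁻¹) := by
            simp only [mul_assoc, mul_left_comm, mul_comm]
  have himg : (orb E x₀).image (fun x => m • x) = orb E x₀ := by
    apply Finset.eq_of_subset_of_card_le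
    · intro y hy
      obtain ⟨x, hx, rfl⟩ := Finset.mem_image.1 hy
      exact (key x hx).1
    · rw [Finset.card_image_of_injective _ (MulAction.injective m)]
  have hprod : ∏ x ∈ orb E x₀, b (m • x) = ∏ x ∈ orb E x₀, b x := by
    conv_rhs => rw [← himg]
    rw [Finset.prod_image (fun x _ y _ h => MulAction.injective m h)]
  rw [Finset.prod_congr rfl (fun x hx => (key x hx).2), Finset.prod_mul_distrib,
    Finset.prod_mul_distrib, hprod, Finset.prod_inv_distrib, mul_inv_cancel, one_mul,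
    Finset.prod_const]
  obtain ⟨r, hr⟩ := heven
  rw [hr, ← two_mul, pow_mul, mul_pow, inv_pow, h2, h2, inv_one, one_mul, one_pow]

omit [Finite Y] in
/-- If `N` is trivial on the point stabilizers then the product over an invariant finite set is
trivial. -/
theorem prod_eq_one (hN : ∀ g h y, N (g * h) y = N g (h • y) * N h y) (H : Subgroup K)
    (S : Finset Y) (hS : ∀ h ∈ H, ∀ y ∈ S, h • y ∈ S)
    (hst : ∀ y ∈ S, ∀ h ∈ H, h • y = y → N h y = 1) {h : K} (hh : h ∈ H) :
    ∏ y ∈ S, N h y = 1 := by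
  classical
  let R : Setoid Y := MulAction.orbitRel H Y
  let r : Y → Y := fun y => (Quotient.mk R y).out
  have hr : ∀ y, ∃ g ∈ H, g • r y = y := by
    intro y
    have h1 : R (r y) y := Quotient.mk_out y
    have h2 : R y (r y) := Setoid.symm h1
    obtain ⟨g, hg⟩ := (MulAction.orbitRel_apply).1 h2
    exact ⟨g, g.2, hg⟩
  have hrr : ∀ g ∈ H, ∀ y, r (g • y) = r y := by
    intro g hg y
    have h1 : Quotient.mk R (g • y) = Quotient.mk R y := by
      apply Quotient.sound
      exact (MulAction.orbitRel_apply).2 ⟨⟨g, hg⟩, rfl⟩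
    change (Quotient.mk R (g • y)).out = (Quotient.mk R y).out
    rw [h1]
  choose c hcH hc using hr
  let b : Y → B := fun y => N (c y) (r y)
  have key : ∀ y ∈ S, N h y = b (h • y) * (b y)⁻¹ := by
    intro y hy
    have hrS : r y ∈ S := by
      have : r y = (c y)⁻¹ • y := by
        rw [eq_inv_smul_iff]; exact hc y
      rw [this]
      exact hS _ (inv_mem (hcH y)) y hy
    have h1 : N (h * c y) (r y) = N h (c y • r y) * N (c y) (r y) := hN _ _ _
    rw [hc y] at h1
    have hbh : b (h • y) = N (c (h • y)) (r y) := by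
      change N (c (h • y)) (r (h • y)) = _
      rw [hrr h hh]
    have hch : c (h • y) • r y = h • y := by
      have := hc (h • y)
      rwa [hrr h hh] at this
    have h3 : ((c (h • y))⁻¹ * (h * c y)) • r y = r y := by
      rw [mul_smul, mul_smul, hc y, inv_smul_eq_iff]
      exact hch.symm
    have h4 := hN (c (h • y)) ((c (h • y))⁻¹ * (h * c y)) (r y)
    rw [h3, hst (r y) hrS _ (mul_mem (inv_mem (hcH _)) (mul_mem hh (hcH _))) h3, mul_one,
      mul_inv_cancel_left] at h4
    rw [hbh, ← h4, h1]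
    change N h y = N h y * N (c y) (r y) * (N (c y) (r y))⁻¹
    rw [mul_inv_cancel_right]
  have himg : S.image (fun x => h • x) = S := by
    apply Finset.eq_of_subset_of_card_le
    · intro y hy
      obtain ⟨x, hx, rfl⟩ := Finset.mem_image.1 hy
      exact hS h hh x hx
    · rw [Finset.card_image_of_injective _ (MulAction.injective h)]
  have hprod : ∏ x ∈ S, b (h • x) = ∏ x ∈ S, b x := by
    conv_rhs => rw [← himg]
    rw [Finset.prod_image (fun x _ y _ h' => MulAction.injective h h')]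
  rw [Finset.prod_congr rfl key, Finset.prod_mul_distrib, hprod, Finset.prod_inv_distrib,
    mul_inv_cancel]

omit [Finite Y] in
/-- the pushforward of a cocycle to finsets -/
theorem prod_mul_eq [DecidableEq Y] {F : K → Y → B} (hF : ∀ g h y, F (g * h) y = F g (h • y) * F h y)
    (g h : K) (s : Finset Y) :
    ∏ y ∈ s, F (g * h) y = (∏ y ∈ h • s, F g y) * ∏ y ∈ s, F h y := by
  have h1 : ∏ y ∈ h • s, F g y = ∏ y ∈ s, F g (h • y) := by
    rw [Finset.smul_finset_def, Finset.prod_image (fun x _ y _ h' => MulAction.injective h h')]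
  rw [h1, ← Finset.prod_mul_distrib]
  exact Finset.prod_congr rfl (fun y _ => hF g h y)

theorem smul_orb [DecidableEq Y] (E : Subgroup K) (g : K) (hg : ∀ e ∈ E, g * e * g⁻¹ ∈ E)
    (hg' : ∀ e ∈ E, g⁻¹ * e * g ∈ E) (y : Y) : g • orb E y = orb E (g • y) := by
  ext x
  rw [Finset.mem_smul_finset]
  constructor
  · rintro ⟨w, hw, rfl⟩
    obtain ⟨e, he, rfl⟩ := mem_orb.1 hw
    refine mem_orb.2 ⟨g * e * g⁻¹, hg e he, ?_⟩
    rw [← mul_smul, ← mul_smul]
    congr 1
    group
  · intro hx
    obtain ⟨e, he, rfl⟩ := mem_orb.1 hx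
    refine ⟨(g⁻¹ * e * g) • y, mem_orb.2 ⟨_, hg' e he, rfl⟩, ?_⟩
    rw [← mul_smul, ← mul_smul]
    congr 1
    group

/-- the orbit of a 2-group is a point or has even length -/
theorem even_card_orb (E : Subgroup K) (hE : IsPGroup 2 E) (y : Y) {e : K} (he : e ∈ E)
    (hne : e • y ≠ y) : Even (orb E y).card := by
  have : Fact (Nat.Prime 2) := ⟨Nat.prime_two⟩
  have h1 : (orb E y : Set Y) = MulAction.orbit E y := by
    ext x
    rw [Finset.mem_coe, mem_orb, MulAction.mem_orbit_iff]
    constructor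
    · rintro ⟨k, hk, rfl⟩; exact ⟨⟨k, hk⟩, rfl⟩
    · rintro ⟨k, rfl⟩; exact ⟨k, k.2, rfl⟩
  obtain ⟨n, hn⟩ := hE.card_orbit y
  have h3 : (orb E y).card = 2 ^ n := by
    rw [← hn, ← h1]
    exact (Set.ncard_coe_finset (orb E y)).symm
  rw [h3]
  rw [Nat.even_pow]
  refine ⟨even_two, ?_⟩
  rintro rfl
  rw [pow_zero, Finset.card_eq_one] at h3
  obtain ⟨x, hx⟩ := h3
  have h4 : y ∈ orb E y := self_mem_orb E y
  have h5 : e • y ∈ orb E y := mem_orb.2 ⟨e, he, rfl⟩
  rw [hx, Finset.mem_singleton] at h4 h5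
  exact hne (h5.trans h4.symm)

end

/-- Existence of the cocycle on `G ⧸ H` extending `φ`. -/
theorem exists_cocycle {G B : Type*} [Group G] [CommGroup B] (H : Subgroup G) (φ : H →* B) :
    ∃ f : G → G ⧸ H → B, (∀ g h ω, f (g * h) ω = f g (h • ω) * f h ω) ∧
      ∀ h : H, f h ((1 : G) : G ⧸ H) = φ h := by
  classical
  let s : G ⧸ H → G := fun ω => ω.out
  have hs : ∀ ω, ((s ω : G) : G ⧸ H) = ω := fun ω => QuotientGroup.out_eq' ω
  have hmem : ∀ (g : G) (ω : G ⧸ H), (s (g • ω))⁻¹ * g * s ω ∈ H := by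
    intro g ω
    rw [mul_assoc, ← QuotientGroup.eq, hs]
    rw [← smul_eq_mul, ← MulAction.Quotient.smul_coe, hs]
  refine ⟨fun g ω => φ ⟨(s (g • ω))⁻¹ * g * s ω, hmem g ω⟩, ?_, ?_⟩
  · intro g h ω
    change φ ⟨(s ((g * h) • ω))⁻¹ * (g * h) * s ω, hmem (g * h) ω⟩ =
      φ ⟨(s (g • h • ω))⁻¹ * g * s (h • ω), hmem g (h • ω)⟩ * φ ⟨(s (h • ω))⁻¹ * h * s ω, hmem h ω⟩
    rw [← map_mul]
    congr 1
    apply Subtype.ext
    change (s ((g * h) • ω))⁻¹ * (g * h) * s ω =
      ((s (g • h • ω))⁻¹ * g * s (h • ω)) * ((s (h • ω))⁻¹ * h * s ω)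
    rw [mul_smul]
    group
  · intro h
    have h1 : (h : G) • ((1 : G) : G ⧸ H) = ((1 : G) : G ⧸ H) := by
      rw [MulAction.Quotient.smul_coe, smul_eq_mul, mul_one, QuotientGroup.eq]
      simp
    have h2 : s ((1 : G) : G ⧸ H) ∈ H := by
      have := hs ((1 : G) : G ⧸ H)
      rw [QuotientGroup.eq] at this
      simpa using this
    have h3 : (⟨(s ((h : G) • ((1 : G) : G ⧸ H)))⁻¹ * h * s ((1 : G) : G ⧸ H), hmem h _⟩ : H) =
        (⟨_, h2⟩ : H)⁻¹ * h * ⟨_, h2⟩ := by
      apply Subtype.ext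
      change (s ((h : G) • ((1 : G) : G ⧸ H)))⁻¹ * h * s ((1 : G) : G ⧸ H) = _
      rw [h1]
      rfl
    change φ ⟨(s ((h : G) • ((1 : G) : G ⧸ H)))⁻¹ * h * s ((1 : G) : G ⧸ H), hmem h _⟩ = φ h
    rw [h3, map_mul, map_mul, map_inv, mul_comm, mul_inv_cancel_left]

end Cfsg.Agent.H334.Cocycle
end

-- part: H334/LargeExtra
section
/-!
# Involutions acting on a large extraspecial 2-subgroup

`E ⊴ C_G(z)` extraspecial with centre `⟨z⟩` and `C_G(E) ≤ E`, `y ≠ z` an involution: there is a proper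
subgroup `W` of `E` containing `z` and `C_E(y)` and invariant under `C_G(z) ∩ C_G(y)` with suitable
transfer properties.
-/

set_option autoImplicit false

namespace Cfsg.Agent.H334.LargeExtra

open Subgroup

variable {G : Type*} [Group G]

/-- the hypotheses on `z` and `E` -/
structure Setup (z : G) (E : Subgroup G) : Prop where
  zE : z ∈ E
  z1 : z ≠ 1
  z2 : z * z = 1
  cz : ∀ e ∈ E, e * z = z * e
  nrm : ∀ h, h * z = z * h → ∀ e ∈ E, h * e * h⁻¹ ∈ E
  comm : ∀ a ∈ E, ∀ b ∈ E, a * b * a⁻¹ * b⁻¹ = 1 ∨ a * b * a⁻¹ * b⁻¹ = z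
  cen : ∀ x ∈ E, (∀ y ∈ E, x * y = y * x) → x = 1 ∨ x = z
  self : ∀ g, (∀ e ∈ E, g * e = e * g) → g ∈ E
  nonab : ∃ a ∈ E, ∃ b ∈ E, a * b ≠ b * a
  two : IsPGroup 2 E
  cc : commutator ↥E ≤ center ↥E
  cyc : IsCyclic (center ↥E)

variable {z : G} {E : Subgroup G}

theorem Setup.conj (h : Setup z E) {a b : G} (ha : a ∈ E) (hb : b ∈ E) :
    a * b * a⁻¹ = b ∨ a * b * a⁻¹ = z * b := by
  rcases h.comm a ha b hb with h1 | h1
  · left; exact mul_inv_eq_one.mp h1
  · right; exact mul_inv_eq_iff_eq_mul.mp h1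

theorem Setup.sq (h : Setup z E) {x : G} (hx : x ∈ E) : x * x = 1 ∨ x * x = z := by
  apply h.cen _ (mul_mem hx hx)
  intro y hy
  rcases h.conj hx hy with h1 | h1
  · have h2 : x * y = y * x := mul_inv_eq_iff_eq_mul.mp h1
    rw [mul_assoc, h2, ← mul_assoc, h2, mul_assoc]
  · have h2 : x * y = z * y * x := mul_inv_eq_iff_eq_mul.mp h1
    calc x * x * y = x * (x * y) := mul_assoc _ _ _
      _ = x * z * (y * x) := by rw [h2]; group
      _ = z * (x * y) * x := by rw [h.cz x hx]; group
      _ = (z * z) * (y * (x * x)) := by rw [h2]; group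
      _ = y * (x * x) := by rw [h.z2, one_mul]

theorem Setup.zinv (h : Setup z E) : z⁻¹ = z := inv_eq_of_mul_eq_one_right h.z2

section

variable {y : G} {B : Type*} [CommGroup B]

/-- the centralizer of `y` in `E` -/
def cE (E : Subgroup G) (y : G) : Subgroup G := E ⊓ centralizer {y}

theorem mem_cE {x : G} : x ∈ cE E y ↔ x ∈ E ∧ x * y = y * x := by
  rw [cE, mem_inf, mem_centralizer_singleton_iff]

/-- the elements of `E` centralizing `y` modulo `z` -/
def wE (h : Setup z E) (_hzy : z * y = y * z) : Subgroup G where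
  carrier := {x | x ∈ E ∧ (y * x * y⁻¹ = x ∨ y * x * y⁻¹ = x * z)}
  mul_mem' {a b} ha hb := by
    refine ⟨mul_mem ha.1 hb.1, ?_⟩
    have e : y * (a * b) * y⁻¹ = (y * a * y⁻¹) * (y * b * y⁻¹) := by group
    rw [e]
    rcases ha.2 with h1 | h1 <;> rcases hb.2 with h2 | h2 <;> rw [h1, h2]
    · exact Or.inl rfl
    · right; rw [mul_assoc]
    · right; rw [mul_assoc, ← h.cz b hb.1, mul_assoc]
    · left
      rw [mul_assoc, ← mul_assoc z, ← h.cz b hb.1, mul_assoc b, h.z2, mul_one]
  one_mem' := ⟨one_mem _, Or.inl (by group)⟩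
  inv_mem' {a} ha := by
    refine ⟨inv_mem ha.1, ?_⟩
    have e : y * a⁻¹ * y⁻¹ = (y * a * y⁻¹)⁻¹ := by group
    rw [e]
    rcases ha.2 with h1 | h1 <;> rw [h1]
    · exact Or.inl rfl
    · right
      rw [mul_inv_rev, h.zinv, h.cz _ (inv_mem ha.1)]

theorem mem_wE (h : Setup z E) (hzy : z * y = y * z) {x : G} :
    x ∈ wE h hzy ↔ x ∈ E ∧ (y * x * y⁻¹ = x ∨ y * x * y⁻¹ = x * z) := Iff.rfl

/-- the subgroup `C_E(y) ⟨z⟩` -/
def uE (h : Setup z E) (y : G) : Subgroup G where
  carrier := {x | x ∈ E ∧ (x * y = y * x ∨ (x * z) * y = y * (x * z))}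
  mul_mem' {a b} ha hb := by
    refine ⟨mul_mem ha.1 hb.1, ?_⟩
    have hbz := h.cz b hb.1
    rcases ha.2 with h1 | h1 <;> rcases hb.2 with h2 | h2
    · left; rw [mul_assoc, h2, ← mul_assoc, h1, mul_assoc]
    · right
      calc a * b * z * y = a * (b * z * y) := by group
        _ = (a * y) * (b * z) := by rw [h2]; group
        _ = y * (a * b * z) := by rw [h1]; group
    · right
      calc a * b * z * y = a * (b * z) * y := by group
        _ = (a * z) * (b * y) := by rw [hbz]; group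
        _ = (a * z * y) * b := by rw [h2]; group
        _ = y * (a * (z * b)) := by rw [h1]; group
        _ = y * (a * b * z) := by rw [← hbz]; group
    · left
      have e : a * b = (a * z) * (b * z) := by
        calc a * b = a * b * (z * z) := by rw [h.z2, mul_one]
          _ = a * (b * z) * z := by group
          _ = a * (z * b) * z := by rw [hbz]
          _ = (a * z) * (b * z) := by group
      rw [e]
      calc a * z * (b * z) * y = (a * z) * (b * z * y) := by group
        _ = (a * z * y) * (b * z) := by rw [h2]; group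
        _ = y * (a * z * (b * z)) := by rw [h1]; group
  one_mem' := ⟨one_mem _, Or.inl (by group)⟩
  inv_mem' {a} ha := by
    refine ⟨inv_mem ha.1, ?_⟩
    rcases ha.2 with h1 | h1
    · left
      have : Commute a y := h1
      exact this.inv_left
    · right
      have h2 : Commute (a * z) y := h1
      have h3 := h2.inv_left
      rw [mul_inv_rev, h.zinv, ← h.cz _ (inv_mem ha.1)] at h3
      exact h3

theorem mem_uE (h : Setup z E) {x : G} :
    x ∈ uE h y ↔ x ∈ E ∧ (x * y = y * x ∨ (x * z) * y = y * (x * z)) := Iff.rfl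

/-- the case where everything in `wE` commutes with `y` and `C_E(y)` is abelian: then `C_E(y)` has
exponent 2 -/
theorem duality [Finite G] (h : Setup z E) (hy2 : y * y = 1) (hzy : z * y = y * z)
    (hab : ∀ a ∈ cE E y, ∀ b ∈ cE E y, a * b = b * a)
    (hW : ∀ x ∈ wE h hzy, x * y = y * x) {w : G} (hw : w ∈ cE E y) : w * w = 1 := by
  have hyi : y⁻¹ = y := inv_eq_of_mul_eq_one_right hy2
  have hyE : ∀ e ∈ E, y * e * y⁻¹ ∈ E := h.nrm y hzy.symm
  let R : Subgroup ↥E :=
    { carrier := {x | (x : G) * y = y * x ∧ (x : G) * x = 1}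
      mul_mem' := by
        intro a b ha hb
        have h1 := hab a (mem_cE.2 ⟨a.2, ha.1⟩) b (mem_cE.2 ⟨b.2, hb.1⟩)
        refine ⟨?_, ?_⟩
        · change (a : G) * b * y = y * (a * b)
          rw [mul_assoc, hb.1, ← mul_assoc, ha.1, mul_assoc]
        · change (a : G) * b * (a * b) = 1
          calc (a : G) * b * (a * b) = a * (b * a) * b := by group
            _ = (a * a) * (b * b) := by rw [← h1]; group
            _ = 1 := by rw [ha.2, hb.2, one_mul]
      one_mem' := ⟨by simp, by simp⟩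
      inv_mem' := by
        intro a ha
        refine ⟨?_, ?_⟩
        · have h1 : Commute (a : G) y := ha.1
          exact h1.inv_left
        · change (a : G)⁻¹ * (a : G)⁻¹ = 1
          rw [← mul_inv_rev, ha.2, inv_one] }
  have hmemR : ∀ x : ↥E, x ∈ R ↔ (x : G) * y = y * x ∧ (x : G) * x = 1 := fun x => Iff.rfl
  have hcR : center ↥E ≤ R := by
    intro x hx
    rw [mem_center_iff] at hx
    have h1 := h.cen x x.2 (fun g hg => (congrArg Subtype.val (hx ⟨g, hg⟩)).symm)
    rw [hmemR]
    rcases h1 with h1 | h1 <;> rw [h1]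
    · simp
    · exact ⟨hzy, h.z2⟩
  -- elements `ρ(e)`
  have hρ : ∀ e (he : e ∈ E), (⟨e⁻¹ * (y * e * y⁻¹), mul_mem (inv_mem he) (hyE e he)⟩ : ↥E) ∈ R := by
    intro e he
    set r : G := e⁻¹ * (y * e * y⁻¹) with hr
    have hrE : r ∈ E := mul_mem (inv_mem he) (hyE e he)
    have h1 : y * r * y⁻¹ = r⁻¹ := by
      rw [hr, hyi]
      calc y * (e⁻¹ * (y * e * y)) * y = y * e⁻¹ * y * e * (y * y) := by group
        _ = y * e⁻¹ * y * e := by rw [hy2, mul_one]
        _ = y⁻¹ * e⁻¹ * y⁻¹ * e := by rw [hyi]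
        _ = (e⁻¹ * (y * e * y))⁻¹ := by group
    have h2 : r * r = 1 ∨ r * r = z := h.sq hrE
    have hrW : r ∈ wE h hzy := by
      rw [mem_wE]
      refine ⟨hrE, ?_⟩
      rw [h1]
      rcases h2 with h2 | h2
      · left; exact inv_eq_of_mul_eq_one_right h2
      · right
        rw [inv_eq_iff_mul_eq_one, ← mul_assoc, h2, h.z2]
    have h3 := hW r hrW
    rw [hmemR]
    refine ⟨h3, ?_⟩
    have h4 : y * r * y⁻¹ = r := by rw [← h3, mul_inv_cancel_right]
    rw [h4] at h1
    change r * r = 1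
    nth_rewrite 2 [h1]
    exact mul_inv_cancel r
  -- `C_E(R) ≤ C_E(y)`
  have hCR : ∀ x : ↥E, x ∈ Subgroup.centralizer (R : Set ↥E) → (x : G) ∈ cE E y := by
    intro x hx
    rw [mem_cE]
    refine ⟨x.2, hW x ?_⟩
    rw [mem_wE]
    refine ⟨x.2, ?_⟩
    have h5 : (x : G)⁻¹ * (y * x * y⁻¹) = 1 ∨ (x : G)⁻¹ * (y * x * y⁻¹) = z := by
      apply h.cen _ (mul_mem (inv_mem x.2) (hyE x x.2))
      intro e' he'
      -- `e' = y e y⁻¹`
      set e : G := y * e' * y⁻¹ with he
      have heE : e ∈ E := hyE e' he'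
      have hee : y * e * y⁻¹ = e' := by
        rw [he, hyi]
        calc y * (y * e' * y) * y = (y * y) * e' * (y * y) := by group
          _ = e' := by rw [hy2]; group
      have h6 := mem_centralizer_iff.mp hx _ (hρ e heE)
      have h7 : (e⁻¹ * (y * e * y⁻¹)) * (x : G) = x * (e⁻¹ * (y * e * y⁻¹)) := congrArg Subtype.val h6
      rw [hee] at h7
      -- `x e x⁻¹ = c e`, `x e' x⁻¹ = c' e'`
      have hmain : ∃ c, (c = 1 ∨ c = z) ∧ (x : G) * e' * (x : G)⁻¹ = c * e' ∧ (x : G) * e * (x : G)⁻¹ = c * e := by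
        have h8 : (x : G) * e' * (x : G)⁻¹ = ((x : G) * e * (x : G)⁻¹) * (e⁻¹ * e') := by
          have h9 : (x : G) * (e⁻¹ * e') * (x : G)⁻¹ = e⁻¹ * e' := by
            rw [← h7, mul_inv_cancel_right]
          calc (x : G) * e' * (x : G)⁻¹ = ((x : G) * e * (x : G)⁻¹) * ((x : G) * (e⁻¹ * e') * (x : G)⁻¹) := by group
            _ = _ := by rw [h9]
        rcases h.conj x.2 heE with h10 | h10
        · refine ⟨1, Or.inl rfl, ?_, ?_⟩
          · rw [h8, h10]; group
          · rw [h10, one_mul]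
        · refine ⟨z, Or.inr rfl, ?_, ?_⟩
          · rw [h8, h10]; group
          · rw [h10]
      obtain ⟨c, hc, h11, h12⟩ := hmain
      have hcy : y * c = c * y := by
        rcases hc with rfl | rfl
        · simp
        · exact hzy.symm
      have h13 : (y * (x : G) * y⁻¹) * e' * (y * (x : G) * y⁻¹)⁻¹ = c * e' := by
        calc (y * (x : G) * y⁻¹) * e' * (y * (x : G) * y⁻¹)⁻¹
            = (y * (x : G) * y⁻¹) * (y * e * y⁻¹) * (y * (x : G) * y⁻¹)⁻¹ := by rw [hee]
          _ = y * ((x : G) * e * (x : G)⁻¹) * y⁻¹ := by group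
          _ = y * c * e * y⁻¹ := by rw [h12]; group
          _ = c * (y * e * y⁻¹) := by rw [hcy]; group
          _ = c * e' := by rw [hee]
      have h14 : (x : G) * e' * (x : G)⁻¹ = (y * (x : G) * y⁻¹) * e' * (y * (x : G) * y⁻¹)⁻¹ := by
        rw [h11, h13]
      calc (x : G)⁻¹ * (y * x * y⁻¹) * e'
          = (x : G)⁻¹ * ((y * (x : G) * y⁻¹) * e' * (y * (x : G) * y⁻¹)⁻¹) * (y * x * y⁻¹) := by group
        _ = (x : G)⁻¹ * ((x : G) * e' * (x : G)⁻¹) * (y * x * y⁻¹) := by rw [h14]
        _ = e' * ((x : G)⁻¹ * (y * x * y⁻¹)) := by group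
    rcases h5 with h5 | h5
    · left; exact (inv_mul_eq_one.mp h5).symm
    · right; exact inv_mul_eq_iff_eq_mul.mp h5
  obtain ⟨hwE, hwy⟩ := mem_cE.1 hw
  have h15 : (⟨w, hwE⟩ : ↥E) ∈ R := by
    rw [← Cfsg.Agent.Lib.ClassTwoDuality.centralizer_centralizer_eq h.cc h.cyc R hcR]
    rw [mem_centralizer_iff]
    intro x hx
    apply Subtype.ext
    exact hab _ (hCR x hx) _ hw
  exact ((hmemR _).1 h15).2

theorem exists_W [Finite G] (h : Setup z E) (hy2 : y * y = 1) (hy1 : y ≠ 1) (hyz : y ≠ z)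
    (χ : G → B) (hχ : ∀ a b, b * y = y * b → χ (a * b) = χ a * χ b) :
    ∃ W : Subgroup G, W ≤ E ∧ W ≠ E ∧ z ∈ W ∧ (∀ e ∈ E, e * y = y * e → e ∈ W) ∧
      (∀ c, c * z = z * c → c * y = y * c → ∀ w ∈ W, c * w * c⁻¹ ∈ W) ∧
      ((∀ w ∈ W, w * w = 1) ∨ (∀ w ∈ W, w * y = y * w ∧ χ (w * w) = 1) ∨
        (z * y = y * z ∧ ∃ w ∈ W, w * y ≠ y * w)) := by
  have hχ1 : χ 1 = 1 := by
    have h1 := hχ 1 1 (by simp)
    rw [mul_one] at h1
    exact left_eq_mul.mp h1
  have hyE' : (∀ e ∈ E, y * e = e * y) → False := by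
    intro h1
    have h3 := h.self y h1
    rcases h.cen y h3 h1 with h4 | h4
    · exact hy1 h4
    · exact hyz h4
  by_cases hzy : z * y = y * z
  · by_cases hA : ∀ a ∈ E, a * y = y * a → χ (a * a) = 1
    · refine ⟨cE E y, inf_le_left, ?_, mem_cE.2 ⟨h.zE, hzy⟩, fun e he hey => mem_cE.2 ⟨he, hey⟩, ?_,
        Or.inr (Or.inl ?_)⟩
      · intro hE
        apply hyE'
        intro e he
        rw [← hE] at he
        exact (mem_cE.1 he).2.symm
      · intro c hcz hcy w hw
        obtain ⟨hwE, hwy⟩ := mem_cE.1 hw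
        refine mem_cE.2 ⟨h.nrm c hcz w hwE, ?_⟩
        have h1 : Commute c y := hcy
        have h3 : Commute w y := hwy
        exact ((h1.mul_left h3).mul_left h1.inv_left)
      · intro w hw
        obtain ⟨hwE, hwy⟩ := mem_cE.1 hw
        exact ⟨hwy, hA w hwE hwy⟩
    · push Not at hA
      obtain ⟨w, hwE, hwy, hwχ⟩ := hA
      have hwz : w * w = z := by
        rcases h.sq hwE with h1 | h1
        · rw [h1, hχ1] at hwχ; exact absurd rfl hwχ
        · exact h1
      have hχz : χ z ≠ 1 := by rwa [hwz] at hwχ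
      have hχinv : ∀ a, a * y = y * a → χ a⁻¹ = (χ a)⁻¹ := by
        intro a ha
        have h1 := hχ a⁻¹ a ha
        rw [inv_mul_cancel, hχ1] at h1
        exact eq_inv_of_mul_eq_one_left h1.symm
      have hab : ∀ a ∈ cE E y, ∀ b ∈ cE E y, a * b = b * a := by
        intro a ha b hb
        obtain ⟨haE, hay⟩ := mem_cE.1 ha
        obtain ⟨hbE, hby⟩ := mem_cE.1 hb
        rcases h.comm a haE b hbE with h1 | h1
        · have h3 : a * b * a⁻¹ = b := mul_inv_eq_one.mp h1
          exact mul_inv_eq_iff_eq_mul.mp h3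
        · exfalso
          apply hχz
          have hay' : a⁻¹ * y = y * a⁻¹ := (Commute.inv_left (show Commute a y from hay))
          have hby' : b⁻¹ * y = y * b⁻¹ := (Commute.inv_left (show Commute b y from hby))
          rw [← h1, hχ _ _ hby', hχ _ _ hay', hχ _ _ hby, hχinv a hay, hχinv b hby]
          rw [mul_comm (χ a), mul_assoc, mul_assoc, mul_inv_cancel_left, mul_inv_cancel]
      refine ⟨wE h hzy, fun x hx => hx.1, ?_, ?_, ?_, ?_, Or.inr (Or.inr ⟨hzy, ?_⟩)⟩
      · -- `W ≠ E`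
        intro hWE
        have hall : ∀ e ∈ E, y * e * y⁻¹ = e ∨ y * e * y⁻¹ = e * z := by
          intro e he
          rw [← hWE] at he
          exact he.2
        obtain ⟨e₁, he₁, hne₁⟩ : ∃ e ∈ E, ¬ y * e = e * y := by
          by_contra hcon
          push Not at hcon
          exact hyE' hcon
        have hne : ∀ e ∈ E, e * y = y * e ∨ y * e * y⁻¹ = e * z := by
          intro e he
          rcases hall e he with h1 | h1
          · left; exact (mul_inv_eq_iff_eq_mul.mp h1).symm
          · right; exact h1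
        have h1 : y * e₁ * y⁻¹ = e₁ * z := by
          rcases hne e₁ he₁ with h1 | h1
          · exact absurd h1.symm hne₁
          · exact h1
        -- `w` does not commute with `e₁`
        have hwe₁ : w * e₁ * w⁻¹ = z * e₁ := by
          rcases h.conj hwE he₁ with h3 | h3
          · exfalso
            have h4 : w * e₁ = e₁ * w := mul_inv_eq_iff_eq_mul.mp h3
            have h5 : w = 1 ∨ w = z := by
              apply h.cen w hwE
              intro x hx
              rcases hne x hx with h6 | h6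
              · exact hab w (mem_cE.2 ⟨hwE, hwy⟩) x (mem_cE.2 ⟨hx, h6⟩)
              · -- `e₁ x` commutes with `y`
                have h7 : (e₁ * x) * y = y * (e₁ * x) := by
                  have h8 : y * (e₁ * x) * y⁻¹ = e₁ * x := by
                    calc y * (e₁ * x) * y⁻¹ = (y * e₁ * y⁻¹) * (y * x * y⁻¹) := by group
                      _ = e₁ * (z * x) * z := by rw [h1, h6]; group
                      _ = e₁ * x * (z * z) := by rw [← h.cz x hx]; group
                      _ = e₁ * x := by rw [h.z2, mul_one]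
                  exact (mul_inv_eq_iff_eq_mul.mp h8).symm
                have h9 := hab w (mem_cE.2 ⟨hwE, hwy⟩) (e₁ * x) (mem_cE.2 ⟨mul_mem he₁ hx, h7⟩)
                -- cancel
                have h10 : e₁ * (w * x) = e₁ * (x * w) := by
                  calc e₁ * (w * x) = (e₁ * w) * x := by group
                    _ = w * (e₁ * x) := by rw [← h4]; group
                    _ = e₁ * (x * w) := by rw [h9]; group
                exact mul_left_cancel h10
            rcases h5 with h5 | h5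
            · rw [h5, mul_one] at hwz; exact h.z1 hwz.symm
            · rw [h5, h.z2] at hwz; exact h.z1 hwz.symm
          · exact h3
        -- `w⁻¹ y` centralizes `E`
        have h2 : ∀ x ∈ E, (w⁻¹ * y) * x = x * (w⁻¹ * y) := by
          -- first for `C_E(y)` and `e₁`
          have hc1 : ∀ x ∈ cE E y, Commute (w⁻¹ * y) x := by
            intro x hx
            have h3 : Commute w x := hab w (mem_cE.2 ⟨hwE, hwy⟩) x hx
            have h4 : Commute y x := (mem_cE.1 hx).2.symm
            exact h3.inv_left.mul_left h4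
          have hc2 : Commute (w⁻¹ * y) e₁ := by
            have h3 : w⁻¹ * (z * e₁) * w = e₁ := by rw [← hwe₁]; group
            have h4 : (w⁻¹ * y) * e₁ * (w⁻¹ * y)⁻¹ = e₁ := by
              calc (w⁻¹ * y) * e₁ * (w⁻¹ * y)⁻¹ = w⁻¹ * (y * e₁ * y⁻¹) * w := by group
                _ = w⁻¹ * (z * e₁) * w := by rw [h1, h.cz e₁ he₁]
                _ = e₁ := h3
            exact mul_inv_eq_iff_eq_mul.mp h4
          intro x hx
          rcases hne x hx with h6 | h6
          · exact hc1 x (mem_cE.2 ⟨hx, h6⟩)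
          · have h7 : (e₁ * x) * y = y * (e₁ * x) := by
              have h8 : y * (e₁ * x) * y⁻¹ = e₁ * x := by
                calc y * (e₁ * x) * y⁻¹ = (y * e₁ * y⁻¹) * (y * x * y⁻¹) := by group
                  _ = e₁ * (z * x) * z := by rw [h1, h6]; group
                  _ = e₁ * x * (z * z) := by rw [← h.cz x hx]; group
                  _ = e₁ * x := by rw [h.z2, mul_one]
              exact (mul_inv_eq_iff_eq_mul.mp h8).symm
            have h9 := hc1 (e₁ * x) (mem_cE.2 ⟨mul_mem he₁ hx, h7⟩)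
            have h10 := hc2.inv_right.mul_right h9
            rw [inv_mul_cancel_left] at h10
            exact h10
        have h3 := h.self _ h2
        have h4 : w⁻¹ * y = 1 ∨ w⁻¹ * y = z := h.cen _ h3 h2
        have h5 : y = w ∨ y = w * z := by
          rcases h4 with h4 | h4
          · left; exact (inv_mul_eq_one.mp h4).symm
          · right; exact inv_mul_eq_iff_eq_mul.mp h4
        rcases h5 with h5 | h5
        · rw [h5, hwz] at hy2; exact h.z1 hy2
        · rw [h5] at hy2
          have h6 : w * z * (w * z) = z := by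
            calc w * z * (w * z) = w * (z * w) * z := by group
              _ = (w * w) * (z * z) := by rw [← h.cz w hwE]; group
              _ = z := by rw [h.z2, hwz, mul_one]
          rw [h6] at hy2
          exact h.z1 hy2
      · rw [mem_wE]
        refine ⟨h.zE, Or.inl ?_⟩
        rw [← hzy, mul_inv_cancel_right]
      · intro e he hey
        rw [mem_wE]
        refine ⟨he, Or.inl ?_⟩
        rw [← hey, mul_inv_cancel_right]
      · intro c hcz hcy w' hw'
        rw [mem_wE] at hw' ⊢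
        refine ⟨h.nrm c hcz w' hw'.1, ?_⟩
        have e : y * (c * w' * c⁻¹) * y⁻¹ = c * (y * w' * y⁻¹) * c⁻¹ := by
          calc y * (c * w' * c⁻¹) * y⁻¹ = (y * c) * w' * (y * c)⁻¹ := by group
            _ = (c * y) * w' * (c * y)⁻¹ := by rw [← hcy]
            _ = c * (y * w' * y⁻¹) * c⁻¹ := by group
        rw [e]
        rcases hw'.2 with h1 | h1
        · left; rw [h1]
        · right; rw [h1]
          have hcz' : z * c⁻¹ = c⁻¹ * z := (Commute.inv_right (show Commute z c from hcz.symm))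
          calc c * (w' * z) * c⁻¹ = c * w' * (z * c⁻¹) := by group
            _ = c * w' * c⁻¹ * z := by rw [hcz']; group
      · by_contra hcon
        push Not at hcon
        have h1 := duality h hy2 hzy hab hcon (mem_cE.2 ⟨hwE, hwy⟩)
        rw [hwz] at h1
        exact h.z1 h1
  · -- `z` does not commute with `y`
    have hex : ∀ w ∈ uE h y, w * w = 1 := by
      intro w hw
      obtain ⟨hwE, h1⟩ := (mem_uE h).1 hw
      rcases h.sq hwE with h3 | h3
      · exact h3
      · exfalso
        apply hzy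
        rcases h1 with h1 | h1
        · have h4 : Commute w y := h1
          have h5 : Commute (w * w) y := h4.mul_left h4
          rw [h3] at h5
          exact h5
        · have h4 : Commute (w * z) y := h1
          have h5 : Commute ((w * z) * (w * z)) y := h4.mul_left h4
          have h6 : w * z * (w * z) = z := by
            calc w * z * (w * z) = w * (z * w) * z := by group
              _ = (w * w) * (z * z) := by rw [← h.cz w hwE]; group
              _ = z := by rw [h.z2, h3, mul_one]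
          rw [h6] at h5
          exact h5
    refine ⟨uE h y, fun x hx => hx.1, ?_, ?_, ?_, ?_, Or.inl hex⟩
    · intro hWE
      obtain ⟨a, ha, b, hb, hne⟩ := h.nonab
      apply hne
      have h1 := hex a (by rw [hWE]; exact ha)
      have h3 := hex b (by rw [hWE]; exact hb)
      have h4 := hex (a * b) (by rw [hWE]; exact mul_mem ha hb)
      calc a * b = a * (a * b * (a * b)) * b := by rw [h4, mul_one]
        _ = (a * a) * (b * a) * (b * b) := by group
        _ = b * a := by rw [h1, h3, one_mul, mul_one]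
    · rw [mem_uE]
      refine ⟨h.zE, Or.inr ?_⟩
      rw [h.z2, one_mul, mul_one]
    · intro e he hey
      rw [mem_uE]
      exact ⟨he, Or.inl hey⟩
    · intro c hcz hcy w hw
      rw [mem_uE] at hw ⊢
      refine ⟨h.nrm c hcz w hw.1, ?_⟩
      have hcy' : Commute c y := hcy
      rcases hw.2 with h1 | h1
      · left
        have h3 : Commute w y := h1
        exact (hcy'.mul_left h3).mul_left hcy'.inv_left
      · right
        have h3 : Commute (w * z) y := h1
        have h4 : c * w * c⁻¹ * z = c * (w * z) * c⁻¹ := by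
          have hcz' : z * c⁻¹ = c⁻¹ * z := (Commute.inv_right (show Commute z c from hcz.symm))
          calc c * w * c⁻¹ * z = c * w * (c⁻¹ * z) := by group
            _ = c * (w * z) * c⁻¹ := by rw [← hcz']; group
        rw [h4]
        exact (hcy'.mul_left h3).mul_left hcy'.inv_left

end

end Cfsg.Agent.H334.LargeExtra
end

-- part: H334/LargeTransfer
section
/-!
# Transfer into the centralizer of an involution with a large extraspecial subgroup

If `E ⊴ H = C_G(z)` is a large extraspecial 2-subgroup and `G` has no nontrivial homomorphism to the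
abelian group `B` of exponent dividing 4, then every homomorphism `φ : H → B` satisfies `φ ^ 2 = 1`.
-/

set_option autoImplicit false

namespace Cfsg.Agent.H334.LargeTransfer

open Subgroup Cfsg.Agent.H334.Cocycle Cfsg.Agent.H334.LargeExtra
open scoped Pointwise

variable {G : Type*} [Group G] {z : G} {E : Subgroup G}

/-- the element whose centralizer is the stabilizer of `ω` -/
noncomputable def yy (z : G) (ω : G ⧸ centralizer ({z} : Set G)) : G := ω.out * z * (ω.out)⁻¹

theorem smul_eq_iff (ω : G ⧸ centralizer ({z} : Set G)) (x : G) :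
    x • ω = ω ↔ x * yy z ω = yy z ω * x := by
  have h1 : ((ω.out : G) : G ⧸ centralizer ({z} : Set G)) = ω := QuotientGroup.out_eq' ω
  have h2 : x • ω = ω ↔ x • ((ω.out : G) : G ⧸ centralizer ({z} : Set G)) =
      ((ω.out : G) : G ⧸ centralizer ({z} : Set G)) := by rw [h1]
  rw [h2, MulAction.Quotient.smul_coe, smul_eq_mul, eq_comm, QuotientGroup.eq,
    mem_centralizer_singleton_iff, yy]
  generalize (ω.out : G) = g
  constructor
  · intro h
    calc x * (g * z * g⁻¹) = g * ((g⁻¹ * (x * g)) * z) * g⁻¹ := by group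
      _ = g * z * g⁻¹ * x := by rw [h]; group
  · intro h
    calc g⁻¹ * (x * g) * z = g⁻¹ * (x * (g * z * g⁻¹)) * g := by group
      _ = z * (g⁻¹ * (x * g)) := by rw [h]; group

theorem yy_sq (h : Setup z E) (ω : G ⧸ centralizer ({z} : Set G)) : yy z ω * yy z ω = 1 := by
  rw [yy]
  calc ω.out * z * (ω.out)⁻¹ * (ω.out * z * (ω.out)⁻¹) = ω.out * (z * z) * (ω.out)⁻¹ := by group
    _ = 1 := by rw [h.z2]; group

theorem yy_ne_one (h : Setup z E) (ω : G ⧸ centralizer ({z} : Set G)) : yy z ω ≠ 1 := by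
  rw [yy]
  intro h1
  apply h.z1
  calc z = (ω.out)⁻¹ * (ω.out * z * (ω.out)⁻¹) * ω.out := by group
    _ = 1 := by rw [h1]; group

theorem yy_ne (ω : G ⧸ centralizer ({z} : Set G))
    (hω : ω ≠ ((1 : G) : G ⧸ centralizer ({z} : Set G))) : yy z ω ≠ z := by
  intro h1
  apply hω
  have h2 : ((ω.out : G) : G ⧸ centralizer ({z} : Set G)) = ω := QuotientGroup.out_eq' ω
  rw [← h2, eq_comm, QuotientGroup.eq, mem_centralizer_singleton_iff, inv_one, one_mul]
  rw [yy] at h1
  calc ω.out * z = (ω.out * z * (ω.out)⁻¹) * ω.out := by group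
    _ = z * ω.out := by rw [h1]

/-- the local claim -/
theorem local_claim [Finite G] (h : Setup z E) {B : Type*} [CommGroup B] (hB : ∀ b : B, b ^ 4 = 1)
    (f : G → G ⧸ centralizer ({z} : Set G) → B)
    (hf : ∀ g k ω, f (g * k) ω = f g (k • ω) * f k ω)
    (ω : G ⧸ centralizer ({z} : Set G)) (hω : ω ≠ ((1 : G) : G ⧸ centralizer ({z} : Set G)))
    (u : G) (hu : u * z = z * u) (huω : u • ω ∈ orb E ω) :
    ∏ ω' ∈ orb E ω, f u ω' ^ 2 = 1 := by
  classical
  have hone : ∀ ω, f 1 ω = 1 := one_eq hf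
  obtain ⟨W, hWE, hWne, hzW, hAW, hcW, hcase⟩ := exists_W h (yy_sq h ω) (yy_ne_one h ω) (yy_ne ω hω)
    (fun a => f a ω) (fun a b hb => by
      rw [hf, (smul_eq_iff ω b).2 hb])
  have hF : ∀ g k ω, f (g * k) ω ^ 2 = f g (k • ω) ^ 2 * f k ω ^ 2 := by
    intro g k ω; rw [hf, mul_pow]
  set x₀ : Finset (G ⧸ centralizer ({z} : Set G)) := orb W ω with hx₀
  let N : G → Finset (G ⧸ centralizer ({z} : Set G)) → B := fun g s => ∏ ω ∈ s, f g ω ^ 2
  have hN : ∀ g k s, N (g * k) s = N g (k • s) * N k s := fun g k s =>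
    prod_mul_eq (F := fun g ω => f g ω ^ 2) hF g k s
  have hN2 : ∀ g s, N g s ^ 2 = 1 := by
    intro g s
    change (∏ ω ∈ s, f g ω ^ 2) ^ 2 = 1
    rw [← Finset.prod_pow]
    exact Finset.prod_eq_one (fun ω _ => by rw [← pow_mul]; exact hB _)
  -- `E` normalizes `W`
  have hEW : ∀ e ∈ E, ∀ w ∈ W, e * w * e⁻¹ ∈ W := by
    intro e he w hw
    rcases h.conj he (hWE hw) with h1 | h1
    · rw [h1]; exact hw
    · rw [h1]; exact mul_mem hzW hw
  have hEW' : ∀ e ∈ E, ∀ w ∈ W, e⁻¹ * w * e ∈ W := by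
    intro e he w hw
    have := hEW e⁻¹ (inv_mem he) w hw
    rwa [inv_inv] at this
  have hsm : ∀ e ∈ E, ∀ ω' : G ⧸ centralizer ({z} : Set G), e • orb W ω' = orb W (e • ω') := fun e he ω' =>
    smul_orb W e (hEW e he) (hEW' e he) ω'
  -- regroup
  have hreg : ∏ ω' ∈ orb E ω, f u ω' ^ 2 = ∏ s ∈ orb E x₀, N u s := by
    rw [← Finset.prod_fiberwise_of_maps_to (s := orb E ω) (t := orb E x₀) (g := fun ω' => orb W ω')]
    · apply Finset.prod_congr rfl
      intro s hs
      obtain ⟨e, he, rfl⟩ := mem_orb.1 hs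
      apply Finset.prod_congr _ (fun _ _ => rfl)
      rw [hx₀, hsm e he]
      ext ω'
      rw [Finset.mem_filter]
      constructor
      · rintro ⟨-, h1⟩
        rw [← h1]; exact self_mem_orb W ω'
      · intro h1
        refine ⟨?_, orb_eq_of_mem h1⟩
        obtain ⟨w, hw, rfl⟩ := mem_orb.1 h1
        exact mem_orb.2 ⟨w * e, mul_mem (hWE hw) he, by rw [mul_smul]⟩
    · intro ω' hω'
      obtain ⟨e, he, rfl⟩ := mem_orb.1 hω'
      rw [← hsm e he]
      exact mem_orb.2 ⟨e, he, rfl⟩
  -- stabilizer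
  have hstab : ∀ e ∈ E, e • x₀ = x₀ → e ∈ W := by
    intro e he hex
    have h1 : e • ω ∈ e • x₀ := Finset.smul_mem_smul_finset (self_mem_orb W ω)
    rw [hex] at h1
    obtain ⟨w, hw, hwe⟩ := mem_orb.1 h1
    have h2 : (w⁻¹ * e) • ω = ω := by rw [mul_smul, ← hwe, inv_smul_smul]
    have h3 := hAW _ (mul_mem (inv_mem (hWE hw)) he) ((smul_eq_iff ω _).1 h2)
    have h4 := mul_mem hw h3
    rwa [mul_inv_cancel_left] at h4
  have hWtriv : ∀ w ∈ W, N w x₀ = 1 := by
    intro w hw
    have hwx : w • x₀ = x₀ := by rw [hx₀, hsm w (hWE hw), orb_smul W hw]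
    have h1 : N w x₀ = ∏ ω' ∈ x₀, f (w * w) ω' := by
      have h2 : ∏ ω' ∈ x₀, f w ω' = ∏ ω' ∈ x₀, f w (w • ω') := by
        conv_lhs => rw [← hwx]
        rw [Finset.smul_finset_def, Finset.prod_image (fun x _ y _ h' => MulAction.injective w h')]
      change ∏ ω' ∈ x₀, f w ω' ^ 2 = _
      calc ∏ ω' ∈ x₀, f w ω' ^ 2 = (∏ ω' ∈ x₀, f w ω') * ∏ ω' ∈ x₀, f w ω' := by
            rw [← Finset.prod_mul_distrib]
            exact Finset.prod_congr rfl (fun _ _ => sq _)
        _ = (∏ ω' ∈ x₀, f w (w • ω')) * ∏ ω' ∈ x₀, f w ω' := by rw [← h2]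
        _ = ∏ ω' ∈ x₀, f (w * w) ω' := by
            rw [← Finset.prod_mul_distrib]
            exact Finset.prod_congr rfl (fun ω' _ => (hf w w ω').symm)
    rw [h1]
    rcases hcase with hc | hc | ⟨hzy, w', hw', hw'y⟩
    · rw [hc w hw]
      exact Finset.prod_eq_one (fun ω' _ => hone ω')
    · apply Finset.prod_eq_one
      intro ω' hω'
      obtain ⟨k, hk, rfl⟩ := mem_orb.1 hω'
      rw [(smul_eq_iff ω k).2 (hc k hk).1]
      exact (hc w hw).2
    · rcases h.sq (hWE hw) with h2 | h2
      · rw [h2]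
        exact Finset.prod_eq_one (fun ω' _ => hone ω')
      · rw [h2]
        have hzω : z • ω = ω := (smul_eq_iff ω z).2 hzy
        have hconst : ∀ ω' ∈ x₀, f z ω' = f z ω := by
          intro ω' hω'
          obtain ⟨k, hk, rfl⟩ := mem_orb.1 hω'
          have h3 := hf z k ω
          have h4 := hf k z ω
          rw [h.cz k (hWE hk), h3, hzω, mul_comm (f k ω)] at h4
          exact mul_right_cancel h4
        rw [Finset.prod_congr rfl hconst, Finset.prod_const]
        have heven : Even x₀.card :=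
          even_card_orb W (h.two.to_le hWE) ω hw' (fun h5 => hw'y ((smul_eq_iff ω w').1 h5))
        obtain ⟨r, hr⟩ := heven
        have hz2 : f z ω ^ 2 = 1 := by
          have h3 := hf z z ω
          rw [h.z2, hone, hzω] at h3
          rw [sq, ← h3]
        rw [hr, ← two_mul, pow_mul, hz2, one_pow]
  rw [hreg]
  obtain ⟨e₀, he₀, hne₀⟩ : ∃ e ∈ E, e ∉ W := by
    by_contra hcon
    push Not at hcon
    exact hWne (le_antisymm hWE hcon)
  apply prod_orb_eq_one hN hN2 E x₀
  · intro e he hex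
    exact hWtriv e (hstab e he hex)
  · exact even_card_orb E h.two x₀ he₀ (fun h1 => hne₀ (hstab e₀ he₀ h1))
  · exact h.nrm u hu
  · obtain ⟨e, he, heω⟩ := mem_orb.1 huω
    set c := e⁻¹ * u with hc
    have hcω : c • ω = ω := by rw [hc, mul_smul, ← heω, inv_smul_smul]
    have hcy := (smul_eq_iff ω c).1 hcω
    have hez : Commute e z := h.cz e he
    have huz : Commute u z := hu
    have hcz : Commute c z := hez.inv_left.mul_left huz
    have hcW' := hcW c hcz hcy
    have hcy2 : Commute c (yy z ω) := hcy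
    have hcW'' := hcW c⁻¹ hcz.inv_left hcy2.inv_left
    have h1 : c • x₀ = x₀ := by
      rw [hx₀, smul_orb W c hcW' (fun w hw => by
        have := hcW'' w hw
        rwa [inv_inv] at this), hcω]
    have h2 : u = e * c := by rw [hc]; group
    rw [h2, mul_smul, h1]
    exact mem_orb.2 ⟨e, he, rfl⟩

theorem main [Finite G] (h : Setup z E) {B : Type*} [CommGroup B] (hB : ∀ b : B, b ^ 4 = 1)
    (hG : ∀ T : G →* B, T = 1) (φ : centralizer ({z} : Set G) →* B)
    (x : centralizer ({z} : Set G)) : φ x ^ 2 = 1 := by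
  classical
  have : Fintype (G ⧸ centralizer ({z} : Set G)) := Fintype.ofFinite _
  obtain ⟨f, hf, hfφ⟩ := exists_cocycle (centralizer ({z} : Set G)) φ
  -- the transfer
  let T : G →* B := MonoidHom.mk' (fun g => ∏ ω, f g ω) (by
    intro g k
    have h1 : ∏ ω, f g (k • ω) = ∏ ω, f g ω :=
      Equiv.prod_comp (MulAction.toPerm k) (fun ω => f g ω)
    change ∏ ω, f (g * k) ω = (∏ ω, f g ω) * ∏ ω, f k ω
    rw [← h1, ← Finset.prod_mul_distrib]
    exact Finset.prod_congr rfl (fun ω _ => hf g k ω))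
  have hT : ∏ ω, f (x : G) ω = 1 := by
    have h1 := DFunLike.congr_fun (hG T) (x : G)
    exact h1
  have hT2 : ∏ ω, f (x : G) ω ^ 2 = 1 := by
    rw [Finset.prod_pow, hT, one_pow]
  set ω₀ : G ⧸ centralizer ({z} : Set G) := ((1 : G) : G ⧸ centralizer ({z} : Set G)) with hω₀
  have hF : ∀ g k ω, f (g * k) ω ^ 2 = f g (k • ω) ^ 2 * f k ω ^ 2 := by
    intro g k ω; rw [hf, mul_pow]
  let N : G → Finset (G ⧸ centralizer ({z} : Set G)) → B := fun g s => ∏ ω ∈ s, f g ω ^ 2
  have hN : ∀ g k s, N (g * k) s = N g (k • s) * N k s := fun g k s =>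
    prod_mul_eq (F := fun g ω => f g ω ^ 2) hF g k s
  have hHω : ∀ g ∈ centralizer ({z} : Set G), g • ω₀ = ω₀ := by
    intro g hg
    rw [hω₀, MulAction.Quotient.smul_coe, smul_eq_mul, mul_one, eq_comm, QuotientGroup.eq, inv_one,
      one_mul]
    exact hg
  let S : Finset (G ⧸ centralizer ({z} : Set G)) := Finset.univ.erase ω₀
  have hS : ∀ g ∈ centralizer ({z} : Set G), ∀ ω ∈ S, g • ω ∈ S := by
    intro g hg ω hω
    have h1 : ω ≠ ω₀ := (Finset.mem_erase.1 hω).1
    refine Finset.mem_erase.2 ⟨?_, Finset.mem_univ _⟩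
    intro h2
    apply h1
    rw [← hHω g hg] at h2
    exact MulAction.injective g h2
  have hEH : E ≤ centralizer ({z} : Set G) := by
    intro e he
    rw [mem_centralizer_singleton_iff]
    exact h.cz e he
  have hsm : ∀ g ∈ centralizer ({z} : Set G), ∀ ω : G ⧸ centralizer ({z} : Set G),
      g • orb E ω = orb E (g • ω) := by
    intro g hg ω
    apply smul_orb
    · exact h.nrm g (mem_centralizer_singleton_iff.1 hg)
    · intro e he
      have := h.nrm g⁻¹ (mem_centralizer_singleton_iff.1 (inv_mem hg)) e he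
      rwa [inv_inv] at this
  have hreg : ∏ ω ∈ S, f (x : G) ω ^ 2 = ∏ s ∈ S.image (fun ω => orb E ω), N x s := by
    rw [← Finset.prod_fiberwise_of_maps_to (s := S) (t := S.image (fun ω => orb E ω))
      (g := fun ω' => orb E ω') (fun ω hω => Finset.mem_image_of_mem _ hω)]
    apply Finset.prod_congr rfl
    intro s hs
    obtain ⟨ω, hω, rfl⟩ := Finset.mem_image.1 hs
    apply Finset.prod_congr _ (fun _ _ => rfl)
    ext ω'
    rw [Finset.mem_filter]
    constructor
    · rintro ⟨-, h1⟩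
      rw [← h1]; exact self_mem_orb E ω'
    · intro h1
      refine ⟨?_, orb_eq_of_mem h1⟩
      obtain ⟨w, hw, rfl⟩ := mem_orb.1 h1
      exact hS w (hEH hw) ω hω
  have hmain : ∏ s ∈ S.image (fun ω => orb E ω), N x s = 1 := by
    apply prod_eq_one hN (centralizer ({z} : Set G)) _ _ _ x.2
    · intro g hg s hs
      obtain ⟨ω, hω, rfl⟩ := Finset.mem_image.1 hs
      rw [hsm g hg]
      exact Finset.mem_image_of_mem _ (hS g hg ω hω)
    · intro s hs g hg hgs
      obtain ⟨ω, hω, rfl⟩ := Finset.mem_image.1 hs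
      have hω1 : ω ≠ ω₀ := (Finset.mem_erase.1 hω).1
      apply local_claim h hB f hf ω hω1 g (mem_centralizer_singleton_iff.1 hg)
      rw [← hgs]
      exact Finset.smul_mem_smul_finset (self_mem_orb E ω)
  have hsplit : ∏ ω, f (x : G) ω ^ 2 = f (x : G) ω₀ ^ 2 * ∏ ω ∈ S, f (x : G) ω ^ 2 :=
    (Finset.mul_prod_erase Finset.univ (fun ω => f (x : G) ω ^ 2) (Finset.mem_univ ω₀)).symm
  rw [hsplit, hreg, hmain, mul_one, hω₀, hfφ] at hT2
  exact hT2

end Cfsg.Agent.H334.LargeTransfer
end

-- part: S3301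
section
set_option autoImplicit false
open Cfsg

namespace Cfsg.Agent.S3301

open Subgroup
open scoped commutatorElement

theorem setup {G : Type*} [Group G] [Finite G] (z : G) (hz : orderOf z = 2)
    (E : Subgroup G) (hE : E = (Cfsg.pCore 2 ↥(Subgroup.centralizer ({z} : Set G))).map (Subgroup.centralizer ({z} : Set G)).subtype)
    (hext : Cfsg.IsExtraspecial 2 ↥E) (hcent : Subgroup.centralizer (E : Set G) ≤ E) :
    Cfsg.Agent.H334.LargeExtra.Setup z E := by
  have f2 : Fact (Nat.Prime 2) := ⟨Nat.prime_two⟩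
  have hz2 : z * z = 1 := by rw [← sq, ← hz, pow_orderOf_eq_one]
  have hz1 : z ≠ 1 := by
    intro h; rw [h, orderOf_one] at hz; norm_num at hz
  have hzz : z ∈ centralizer ({z} : Set G) := by
    rw [mem_centralizer_singleton_iff]
  have hEH : E ≤ centralizer ({z} : Set G) := by
    rw [hE]; exact map_subtype_le _
  have cz : ∀ e ∈ E, e * z = z * e := fun e he => mem_centralizer_singleton_iff.1 (hEH he)
  have zE : z ∈ E := by
    have h1 : zpowers (⟨z, hzz⟩ : centralizer ({z} : Set G)) ≤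
        Cfsg.pCore 2 ↥(Subgroup.centralizer ({z} : Set G)) := by
      apply Cfsg.Agent.Lib.HallHigman.le_pCore
      · constructor
        rintro n hn g
        obtain ⟨k, rfl⟩ := mem_zpowers_iff.1 hn
        have h2 : Commute g (⟨z, hzz⟩ : centralizer ({z} : Set G)) := by
          apply Subtype.ext
          exact mem_centralizer_singleton_iff.1 g.2
        rw [(h2.zpow_right k).eq, mul_inv_cancel_right]
        exact hn
      · apply IsPGroup.of_card (n := 1)
        rw [Nat.card_zpowers, pow_one]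
        apply orderOf_eq_prime
        · rw [sq]; exact Subtype.ext hz2
        · intro h; exact hz1 (congrArg Subtype.val h)
    rw [hE]
    exact ⟨⟨z, hzz⟩, h1 (mem_zpowers _), rfl⟩
  have hnrm : ∀ h, h * z = z * h → ∀ e ∈ E, h * e * h⁻¹ ∈ E := by
    intro h hh e he
    rw [hE] at he ⊢
    obtain ⟨e', he', rfl⟩ := he
    have hn : (Cfsg.pCore 2 ↥(Subgroup.centralizer ({z} : Set G))).Normal :=
      Cfsg.Agent.Lib.HallHigman.pCore_normal 2
    have hhm : h ∈ centralizer ({z} : Set G) := mem_centralizer_singleton_iff.2 hh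
    exact ⟨⟨h, hhm⟩ * e' * ⟨h, hhm⟩⁻¹, hn.conj_mem e' he' ⟨h, hhm⟩, rfl⟩
  obtain ⟨⟨hp, -, hcomm⟩, hcard⟩ := hext
  have hzc : (⟨z, zE⟩ : ↥E) ∈ center ↥E := by
    rw [mem_center_iff]
    intro g
    exact Subtype.ext (cz g g.2)
  have hcen : ∀ x : ↥E, x ∈ center ↥E → (x : G) = 1 ∨ (x : G) = z := by
    intro x hx
    have h1 : Nat.card (center ↥E) = 2 := hcard
    have h2 := (Nat.card_eq_two_iff' (⟨1, one_mem _⟩ : center ↥E)).1 h1
    obtain ⟨w, hw, hw'⟩ := h2
    by_cases hx1 : (x : G) = 1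
    · exact Or.inl hx1
    · right
      have e1 := hw' ⟨x, hx⟩ (fun h => hx1 (by
        have := congrArg (fun t : center ↥E => ((t : ↥E) : G)) h
        exact this))
      have e2 := hw' ⟨⟨z, zE⟩, hzc⟩ (fun h => hz1 (by
        have := congrArg (fun t : center ↥E => ((t : ↥E) : G)) h
        exact this))
      have := congrArg (fun t : center ↥E => ((t : ↥E) : G)) (e1.trans e2.symm)
      exact this
  refine
    { zE := zE
      z1 := hz1
      z2 := hz2
      cz := cz
      nrm := hnrm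
      comm := ?_
      cen := ?_
      self := ?_
      nonab := ?_
      two := hp
      cc := hcomm.le
      cyc := ?_ }
  · intro a ha b hb
    have h1 : ⁅(⟨a, ha⟩ : ↥E), ⟨b, hb⟩⁆ ∈ center ↥E := by
      rw [← hcomm]
      exact commutator_mem_commutator (mem_top _) (mem_top _)
    exact hcen _ h1
  · intro x hx hxy
    apply hcen ⟨x, hx⟩
    rw [mem_center_iff]
    intro g
    exact Subtype.ext (hxy g g.2).symm
  · intro g hg
    apply hcent
    rw [mem_centralizer_iff]
    intro e he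
    exact (hg e he).symm
  · by_contra hcon
    push Not at hcon
    have h1 : commutator ↥E = ⊥ := by
      rw [_root_.commutator_def, eq_bot_iff, Subgroup.commutator_le]
      intro a _ b _
      rw [mem_bot, commutatorElement_eq_one_iff_mul_comm]
      exact Subtype.ext (hcon a a.2 b b.2)
    rw [← hcomm, h1] at hcard
    simp at hcard
  · exact isCyclic_of_prime_card hcard

/-- a homomorphism to an abelian group of exponent 4 kills the elements of odd order -/
theorem hom_trivial {G : Type*} [Group G] [Finite G] (hres : Cfsg.pResidual 2 G = ⊤) {B : Type*}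
    [CommGroup B] (hB : ∀ b : B, b ^ 4 = 1) (T : G →* B) : T = 1 := by
  have h1 : Cfsg.pResidual 2 G ≤ T.ker := by
    rw [Cfsg.pResidual, closure_le]
    intro g hg
    rw [SetLike.mem_coe, MonoidHom.mem_ker]
    have h2 : orderOf (T g) ∣ 4 := orderOf_dvd_of_pow_eq_one (hB _)
    have h3 : orderOf (T g) ∣ orderOf g := orderOf_map_dvd T g
    have h4 : Nat.Coprime (orderOf g) 4 := by
      rw [show 4 = 2 ^ 2 by norm_num]
      exact Nat.Coprime.pow_right 2 hg
    exact orderOf_eq_one_iff.1 (Nat.eq_one_of_dvd_coprimes h4 h3 h2)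
  rw [hres] at h1
  ext g
  exact h1 (mem_top g)

/-- if every square is a fourth power then elements of 2-power order have square 1 -/
theorem sq_eq_one {A : Type*} [CommGroup A] [Finite A] (h : ∀ q : A, ∃ r : A, r ^ 4 = q ^ 2) (q : A)
    (hq : ∃ k : ℕ, orderOf q = 2 ^ k) : q ^ 2 = 1 := by
  have key : ∀ n : ℕ, ∃ r : A, r ^ (2 ^ (n + 1)) = q ^ 2 := by
    intro n
    induction n with
    | zero => exact ⟨q, by norm_num⟩
    | succ n ih =>
      obtain ⟨r, hr⟩ := ih
      obtain ⟨s, hs⟩ := h r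
      refine ⟨s, ?_⟩
      rw [← hr, show 2 ^ (n + 1 + 1) = 4 * 2 ^ n by ring, pow_mul, hs, ← pow_mul]
      congr 1
      ring
  obtain ⟨a, b, hb, hab⟩ := Nat.exists_eq_two_pow_mul_odd (Nat.card_pos (α := A)).ne'
  obtain ⟨r, hr⟩ := key a
  have h1 : (q ^ 2) ^ b = 1 := by
    rw [← hr, ← pow_mul, show 2 ^ (a + 1) * b = (2 ^ a * b) * 2 by ring, ← hab, pow_mul,
      pow_card_eq_one', one_pow]
  obtain ⟨k, hk⟩ := hq
  have h2 : orderOf (q ^ 2) ∣ b := orderOf_dvd_of_pow_eq_one h1
  have h3 : orderOf (q ^ 2) ∣ 2 ^ k := by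
    rw [← hk]; exact orderOf_pow_dvd 2
  have h4 : Nat.Coprime b (2 ^ k) := (Nat.Coprime.pow_right k (Nat.coprime_two_right.2 hb))
  exact orderOf_eq_one_iff.1 (Nat.eq_one_of_dvd_coprimes h4 h2 h3)

/-- Let G be a finite group with no nontrivial 2-group quotient (O^2(G) = G), z an involution of G with H = C_G(z), and suppose E = O_2(H) is extraspecial with C_G(E) ≤ E. Then the Sylow 2-subgroups of H/[H, H] are elementary abelian: every element of 2-power order of the abelianization of H has order at most 2. -/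
theorem result {G : Type*} [Group G] [Finite G] (hres : Cfsg.pResidual 2 G = ⊤) (z : G) (hz : orderOf z = 2)
    (E : Subgroup G) (hE : E = (Cfsg.pCore 2 ↥(Subgroup.centralizer ({z} : Set G))).map (Subgroup.centralizer ({z} : Set G)).subtype)
    (hext : Cfsg.IsExtraspecial 2 ↥E) (hcent : Subgroup.centralizer (E : Set G) ≤ E) :
    ∀ q : Abelianization ↥(Subgroup.centralizer ({z} : Set G)), (∃ k : ℕ, orderOf q = 2 ^ k) → q ^ 2 = 1 := by
  have hset := setup z hz E hE hext hcent
  let A := Abelianization ↥(Subgroup.centralizer ({z} : Set G))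
  let R : Subgroup A := (powMonoidHom 4 : A →* A).range
  have hB : ∀ b : A ⧸ R, b ^ 4 = 1 := by
    intro b
    obtain ⟨a, rfl⟩ := QuotientGroup.mk_surjective b
    rw [← QuotientGroup.mk_pow, QuotientGroup.eq_one_iff]
    exact ⟨a, rfl⟩
  let φ : ↥(Subgroup.centralizer ({z} : Set G)) →* A ⧸ R := (QuotientGroup.mk' R).comp Abelianization.of
  have hmain := Cfsg.Agent.H334.LargeTransfer.main hset hB (hom_trivial hres hB) φ
  apply sq_eq_one
  intro q
  obtain ⟨x, rfl⟩ := QuotientGroup.mk_surjective (s := commutator _) q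
  have h1 := hmain x
  have h2 : φ x ^ 2 = ((((Abelianization.of x) ^ 2 : A)) : A ⧸ R) := rfl
  rw [h2, QuotientGroup.eq_one_iff] at h1
  obtain ⟨r, hr⟩ := h1
  exact ⟨r, hr⟩

end Cfsg.Agent.S3301
end
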