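import Mathlib
import Cfsg.Prelude.Def_CaseTheorems
import Cfsg.Agent.Lib.HallHigman
import Cfsg.Agent.Lib.SylowNormalInf
import Cfsg.Statements.S3303
set_option linter.all false

-- part: H334/TwoClosed
section
/-!
# Lifting `O_2(G/O(G))` to the intersection of two Sylow 2-subgroups

If `G/O(G)` has no normal Sylow 2-subgroup, then there are distinct Sylow 2-subgroups `S`, `T` of `G`
whose intersection contains a copy of `O_2(G/O(G))`.
-/

set_option autoImplicit false

namespace Cfsg.Agent.H334.TwoClosed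

open Subgroup Cfsg.Agent.Lib.HallHigman

theorem exists_pair {G : Type*} [Group G] [Finite G]
    (hn : ¬ ∃ P : Sylow 2 (G ⧸ Cfsg.oddCore G), (P : Subgroup (G ⧸ Cfsg.oddCore G)).Normal) :
    ∃ (S T : Sylow 2 G) (D₀ : Subgroup G), S ≠ T ∧ D₀ ≤ (S : Subgroup G) ⊓ T ∧
      Nonempty (D₀ ≃* ↥(Cfsg.pCore 2 (G ⧸ Cfsg.oddCore G))) := by
  classical
  have : Fact (Nat.Prime 2) := ⟨Nat.prime_two⟩
  set K : Subgroup G := Cfsg.oddCore G with hK
  have hKn : K.Normal := Cfsg.pPrimeCore_normal 2 G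
  have hKc : (Nat.card K).Coprime 2 := pPrimeCore_coprime 2
  let π : G →* G ⧸ K := QuotientGroup.mk' K
  have hπ : Function.Surjective π := QuotientGroup.mk'_surjective K
  set D : Subgroup (G ⧸ K) := Cfsg.pCore 2 (G ⧸ K) with hD
  have hDn : D.Normal := Cfsg.pCore_normal 2 _
  have hDp : IsPGroup 2 D := pCore_isPGroup 2
  let N : Subgroup G := D.comap π
  have hNn : N.Normal := hDn.comap π
  obtain ⟨S⟩ : Nonempty (Sylow 2 G) := inferInstance
  set D₀ : Subgroup G := (S : Subgroup G) ⊓ N with hD₀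
  have hKN : K ≤ N := by
    intro x hx
    change π x ∈ D
    have : π x = 1 := (QuotientGroup.eq_one_iff x).mpr hx
    rw [this]; exact D.one_mem
  have hN : N ≤ K ⊔ D₀ := by
    apply Cfsg.Agent.Lib.SylowNormalInf.le_sup_inf S N K
    intro x hx
    obtain ⟨k, hk⟩ := hDp ⟨π x, hx⟩
    refine ⟨k, ?_⟩
    have h2 : (π x) ^ 2 ^ k = 1 := congrArg Subtype.val hk
    rw [← map_pow] at h2
    exact (QuotientGroup.eq_one_iff _).mp h2
  have hfr : Subgroup.normalizer (D₀ : Set G) ⊔ K = ⊤ := by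
    have h1 := Cfsg.Agent.Lib.SylowNormalInf.normalizer_inf_sup_eq_top S N
    rw [eq_top_iff, ← h1]
    apply sup_le le_sup_left
    refine hN.trans (sup_le le_sup_right ?_)
    exact (Subgroup.le_normalizer).trans le_sup_left
  -- the image of `S` is not normal
  have hSbar : ¬ ((S : Subgroup G).map π).Normal := by
    intro h
    apply hn
    refine ⟨S.mapSurjective hπ, ?_⟩
    rw [Sylow.coe_mapSurjective]
    exact h
  have hex : ∃ g ∈ Subgroup.normalizer (D₀ : Set G),
      ((g • S : Sylow 2 G) : Subgroup G).map π ≠ (S : Subgroup G).map π := by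
    by_contra hcon
    push Not at hcon
    apply hSbar
    rw [← Subgroup.normalizer_eq_top_iff, eq_top_iff]
    intro y _
    obtain ⟨x, rfl⟩ := hπ y
    have hx : x ∈ Subgroup.normalizer (D₀ : Set G) ⊔ K := by rw [hfr]; exact mem_top x
    obtain ⟨g, hg, k, hk, rfl⟩ := Subgroup.mem_sup_of_normal_right.mp hx
    have hk1 : π k = 1 := (QuotientGroup.eq_one_iff k).mpr hk
    rw [map_mul, hk1, mul_one]
    have h3 := hcon g hg
    rw [Subgroup.mem_normalizer_iff]
    intro z
    have key : ∀ g : G, ((g • S : Sylow 2 G) : Subgroup G).map π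
        = ((S : Subgroup G).map π).map (MulAut.conj (π g)).toMonoidHom := by
      intro g
      ext w
      constructor
      · rintro ⟨v, hv, rfl⟩
        rw [Sylow.coe_subgroup_smul, SetLike.mem_coe, Subgroup.mem_pointwise_smul_iff_inv_smul_mem] at hv
        refine ⟨π (g⁻¹ * v * g), ⟨g⁻¹ * v * g, ?_, rfl⟩, ?_⟩
        · have : (MulAut.conj g)⁻¹ • v = g⁻¹ * v * g := by
            rw [← map_inv]; simp [MulAut.smul_def]
          rw [this] at hv
          exact hv
        · simp [MulAut.conj_apply, mul_assoc]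
      · rintro ⟨_, ⟨v, hv, rfl⟩, rfl⟩
        refine ⟨g * v * g⁻¹, ?_, by simp [MulAut.conj_apply]⟩
        rw [Sylow.coe_subgroup_smul, SetLike.mem_coe, Subgroup.mem_pointwise_smul_iff_inv_smul_mem]
        have : (MulAut.conj g)⁻¹ • (g * v * g⁻¹) = v := by
          rw [← map_inv]; simp [MulAut.smul_def, mul_assoc]
        rw [this]
        exact hv
    rw [key g] at h3
    constructor
    · intro hz
      rw [← h3]
      exact ⟨z, hz, by simp [MulAut.conj_apply]⟩
    · intro hz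
      rw [← h3] at hz
      obtain ⟨w, hw, hwz⟩ := hz
      have : w = z := by
        have h4 : π g * w * (π g)⁻¹ = π g * z * (π g)⁻¹ := by
          simpa [MulAut.conj_apply] using hwz
        exact mul_left_cancel (mul_right_cancel h4)
      rw [← this]; exact hw
  obtain ⟨g, hg, hne⟩ := hex
  have hD₀p : IsPGroup 2 D₀ := S.isPGroup'.to_le inf_le_left
  refine ⟨S, g • S, D₀, ?_, ?_, ?_⟩
  · intro h
    apply hne
    rw [← h]
  · refine le_inf inf_le_left ?_
    intro x hx
    rw [Sylow.coe_subgroup_smul, Subgroup.mem_pointwise_smul_iff_inv_smul_mem]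
    have h1 : (MulAut.conj g)⁻¹ • x = g⁻¹ * x * g := by
      rw [← map_inv]; simp [MulAut.smul_def]
    rw [h1]
    have h2 : g⁻¹ * x * g ∈ D₀ := by
      have h3 := (Subgroup.mem_normalizer_iff.mp (inv_mem hg) x).mp hx
      simpa using h3
    exact h2.1
  · -- `D₀ ≃ D`
    let f : D₀ →* D := (π.comp D₀.subtype).codRestrict D (fun x => x.2.2)
    have hinj : Function.Injective f := by
      rw [injective_iff_map_eq_one]
      intro x hx
      have h1 : π x = 1 := congrArg Subtype.val hx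
      have h2 : (x : G) ∈ K := (QuotientGroup.eq_one_iff _).mp h1
      obtain ⟨k, hk⟩ := hD₀p x
      have h3 : orderOf (x : G) ∣ Nat.card K := Subgroup.orderOf_dvd_natCard K h2
      have h4 : orderOf (x : G) ∣ 2 ^ k := orderOf_dvd_of_pow_eq_one (by
        have := congrArg Subtype.val hk
        simpa using this)
      have h5 : orderOf (x : G) = 1 :=
        Nat.eq_one_of_dvd_coprimes (Nat.Coprime.pow_right k hKc) h3 h4
      exact Subtype.ext (orderOf_eq_one_iff.mp h5)
    have hsurj : Function.Surjective f := by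
      rintro ⟨y, hy⟩
      obtain ⟨x, rfl⟩ := hπ y
      have hx : x ∈ K ⊔ D₀ := hN hy
      obtain ⟨k, hk, d, hd, rfl⟩ := Subgroup.mem_sup_of_normal_left.mp hx
      refine ⟨⟨d, hd⟩, ?_⟩
      apply Subtype.ext
      change π d = π (k * d)
      have hk1 : π k = 1 := (QuotientGroup.eq_one_iff k).mpr hk
      rw [map_mul, hk1, one_mul]
    exact ⟨MulEquiv.ofBijective f ⟨hinj, hsurj⟩⟩

/-- If `D = O_2(Q)` contains its centralizer and `Aut(D)` is a 2-group then `Q` is a 2-group. -/
theorem isPGroup_of_aut {Q : Type*} [Group Q] [Finite Q]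
    (hc : Subgroup.centralizer (Cfsg.pCore 2 Q : Set Q) ≤ Cfsg.pCore 2 Q)
    (ha : IsPGroup 2 (MulAut (Cfsg.pCore 2 Q))) : IsPGroup 2 Q := by
  have : Fact (Nat.Prime 2) := ⟨Nat.prime_two⟩
  have hDn : (Cfsg.pCore 2 Q).Normal := Cfsg.pCore_normal 2 Q
  have hDp : IsPGroup 2 (Cfsg.pCore 2 Q) := pCore_isPGroup 2
  intro x
  obtain ⟨k, hk⟩ := ha (MulAut.conjNormal x)
  have h1 : x ^ 2 ^ k ∈ Cfsg.pCore 2 Q := by
    apply hc
    rw [Subgroup.mem_centralizer_iff]
    intro y hy
    rw [← map_pow] at hk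
    have h2 := congrArg (fun f : MulAut (Cfsg.pCore 2 Q) => ((f ⟨y, hy⟩ : Cfsg.pCore 2 Q) : Q)) hk
    simp only [MulAut.conjNormal_apply, MulAut.one_apply] at h2
    rw [mul_inv_eq_iff_eq_mul] at h2
    exact h2.symm
  obtain ⟨m, hm⟩ := hDp ⟨_, h1⟩
  refine ⟨k + m, ?_⟩
  have h2 : (x ^ 2 ^ k) ^ 2 ^ m = 1 := congrArg Subtype.val hm
  rw [pow_add, pow_mul, h2]

end Cfsg.Agent.H334.TwoClosed
end

-- part: S3303
section
set_option autoImplicit false
open Cfsg

namespace Cfsg.Agent.S3303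

theorem isPGroup_mulAut_of_isCyclic {D : Type*} [Group D] [Finite D] (hD : IsPGroup 2 D)
    (hc : IsCyclic D) : IsPGroup 2 (MulAut D) := by
  have : Fact (Nat.Prime 2) := ⟨Nat.prime_two⟩
  obtain ⟨n, hn⟩ := IsPGroup.iff_card.mp hD
  apply IsPGroup.of_card (n := n - 1)
  rw [IsCyclic.card_mulAut, hn]
  rcases Nat.eq_zero_or_pos n with h | h
  · subst h; simp
  · rw [Nat.totient_prime_pow Nat.prime_two h]; simp

/-- Let G be a finite solvable group in which the intersection of any two distinct Sylow 2-subgroups is cyclic. Then G/O(G) has a normal Sylow 2-subgroup, where O(G) is the largest normal subgroup of odd order. -/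
theorem result {G : Type*} [Group G] [Finite G] (hs : Group.IsSolvable G)
    (hC : ∀ S T : Sylow 2 G, S ≠ T → IsCyclic ↥((S : Subgroup G) ⊓ (T : Subgroup G))) :
    ∃ P : Sylow 2 (G ⧸ Cfsg.oddCore G), (P : Subgroup (G ⧸ Cfsg.oddCore G)).Normal := by
  have : Fact (Nat.Prime 2) := ⟨Nat.prime_two⟩
  by_contra hn
  obtain ⟨S, T, D₀, hne, hle, ⟨e⟩⟩ := Cfsg.Agent.H334.TwoClosed.exists_pair hn
  have hcyc := hC S T hne
  have h1 : IsCyclic D₀ := by
    have := isCyclic_of_injective (Subgroup.inclusion hle) (Subgroup.inclusion_injective hle)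
    exact this
  have h2 : IsCyclic ↥(Cfsg.pCore 2 (G ⧸ Cfsg.oddCore G)) := isCyclic_of_injective e.symm.toMonoidHom
    e.symm.injective
  have h3 := Cfsg.Agent.Lib.HallHigman.pCore_isPGroup (G := G ⧸ Cfsg.oddCore G) 2
  have h4 := isPGroup_mulAut_of_isCyclic h3 h2
  have h5 : Cfsg.pPrimeCore 2 (G ⧸ Cfsg.oddCore G) = ⊥ :=
    Cfsg.Agent.Lib.HallHigman.pPrimeCore_quotient_eq_bot 2 (Cfsg.oddCore G) rfl
  have h6 := Cfsg.Agent.Lib.HallHigman.centralizer_pCore_le_of_solvable 2 h5
  have h7 := Cfsg.Agent.H334.TwoClosed.isPGroup_of_aut h6 h4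
  apply hn
  obtain ⟨P⟩ : Nonempty (Sylow 2 (G ⧸ Cfsg.oddCore G)) := inferInstance
  refine ⟨P, ?_⟩
  have h8 : (P : Subgroup (G ⧸ Cfsg.oddCore G)) = ⊤ :=
    (P.is_maximal' (h7.to_subgroup ⊤) le_top).symm
  rw [h8]; infer_instance

end Cfsg.Agent.S3303
end
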