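import Cfsg.Statements.S3304
import Cfsg.Agent.S3303
import Cfsg.Agent.H334.Q8Case
import Cfsg.Agent.LFourB.ProdAut
set_option linter.all false

set_option autoImplicit false
open Cfsg

namespace Cfsg.Agent.S3304

/-- a 2-group of 2-rank at most one has the unique-involution property -/
theorem uniqueP_of_rank {D : Type*} [Group D] [Finite D] (hD : IsPGroup 2 D)
    (h : Cfsg.PRankLE 2 1 D) : Cfsg.Agent.Solvable.UniqueOrderP.UniqueP 2 D := by
  have : Fact (Nat.Prime 2) := ⟨Nat.prime_two⟩
  -- commuting involutions coincide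
  have key : ∀ x y : D, x ≠ 1 → y ≠ 1 → x ^ 2 = 1 → y ^ 2 = 1 → Commute x y → x = y := by
    intro x y hx hy hx2 hy2 hxy
    by_contra hne
    have hA : Subgroup.closure ({x, y} : Set D) ≤ Subgroup.closure ({x, y} : Set D) := le_rfl
    have hcomm : ∀ a ∈ Subgroup.closure ({x, y} : Set D), ∀ b ∈ Subgroup.closure ({x, y} : Set D),
        a * b = b * a := by
      have h1 : ∀ a ∈ ({x, y} : Set D), ∀ b ∈ ({x, y} : Set D), a * b = b * a := by
        rintro a (rfl | ha) b (rfl | hb)
        · rfl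
        · rw [Set.mem_singleton_iff] at hb; subst hb; exact hxy
        · rw [Set.mem_singleton_iff] at ha; subst ha; exact hxy.symm
        · rw [Set.mem_singleton_iff] at ha hb; subst ha; subst hb; rfl
      intro a ha b hb
      have h2 := Subgroup.isMulCommutative_closure h1
      have h3 := h2.is_comm.comm ⟨a, ha⟩ ⟨b, hb⟩
      exact congrArg Subtype.val h3
    have hsq : ∀ a ∈ Subgroup.closure ({x, y} : Set D), a ^ 2 = 1 := by
      intro a ha
      induction ha using Subgroup.closure_induction with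
      | mem z hz =>
        rcases hz with rfl | hz
        · exact hx2
        · rw [Set.mem_singleton_iff] at hz; subst hz; exact hy2
      | one => exact one_pow 2
      | mul z w hz hw ihz ihw =>
        have : Commute z w := hcomm z hz w hw
        rw [this.mul_pow, ihz, ihw, one_mul]
      | inv z hz ihz => rw [inv_pow, ihz, inv_one]
    have h1 := h (Subgroup.closure ({x, y} : Set D)) ⟨⟨fun a b => Subtype.ext (hcomm a a.2 b b.2)⟩⟩ hsq
    have hxm : x ∈ Subgroup.closure ({x, y} : Set D) := Subgroup.subset_closure (by simp)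
    have hym : y ∈ Subgroup.closure ({x, y} : Set D) := Subgroup.subset_closure (by simp)
    have h3 : ({1, x, y} : Set D) ⊆ (Subgroup.closure ({x, y} : Set D) : Set D) := by
      rintro z (rfl | rfl | hz)
      · exact one_mem _
      · exact hxm
      · rw [Set.mem_singleton_iff] at hz; subst hz; exact hym
    have h4 := Set.ncard_le_ncard h3 (Set.toFinite _)
    have h5 : Set.ncard ({1, x, y} : Set D) = 3 := by
      rw [Set.ncard_eq_three]
      exact ⟨1, x, y, hx.symm, hy.symm, hne, rfl⟩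
    rw [h5] at h4
    have h6 : Nat.card (Subgroup.closure ({x, y} : Set D)) =
      Set.ncard (Subgroup.closure ({x, y} : Set D) : Set D) := rfl
    rw [← h6] at h4
    omega
  intro x y hx hx2 hy2
  by_cases hy : y = 1
  · subst hy; exact one_mem _
  -- a central involution
  have : Nontrivial D := ⟨x, 1, hx⟩
  have hZ : Nontrivial (Subgroup.center D) := hD.center_nontrivial
  have hZp : IsPGroup 2 (Subgroup.center D) := hD.to_subgroup _
  have h2 : 2 ∣ Nat.card (Subgroup.center D) := by
    obtain ⟨n, hn'⟩ := hZp.exists_card_eq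
    have h1 := Finite.one_lt_card (α := Subgroup.center D)
    rw [hn'] at h1 ⊢
    apply dvd_pow_self 2
    rintro rfl
    norm_num at h1
  obtain ⟨z, hz⟩ := exists_prime_orderOf_dvd_card' (G := Subgroup.center D) 2 h2
  have hz2 : (z : D) ^ 2 = 1 := by
    have h1 := pow_orderOf_eq_one z
    rw [hz] at h1
    exact congrArg Subtype.val h1
  have hz1 : (z : D) ≠ 1 := by
    intro h1
    have h3 : z = 1 := Subtype.ext h1
    rw [h3, orderOf_one] at hz
    norm_num at hz
  have hxz : x = z := key x z hx hz1 hx2 hz2 ((Subgroup.mem_center_iff.mp z.2) x)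
  have hyz : y = z := key y z hy hz1 hy2 hz2 ((Subgroup.mem_center_iff.mp z.2) y)
  rw [hyz, ← hxz]
  exact Subgroup.mem_zpowers x

/-- Let G be a finite solvable group in which the intersection of any two distinct Sylow 2-subgroups has 2-rank at most 1 (contains no Klein four-group). Write Q = G/O(G), O(G) the largest normal subgroup of odd order. Then Q has a normal Sylow 2-subgroup; or Q is isomorphic to GL(2,3); or Q has order 48, centre of order 2 with central quotient isomorphic to the symmetric group of degree 4, and generalized quaternion Sylow 2-subgroups of order 16 (the binary octahedral group). The last two are the two representation groups of the symmetric group of degree 4. -/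
theorem result {G : Type*} [Group G] [Finite G] (hs : Group.IsSolvable G)
    (hI : ∀ S T : Sylow 2 G, S ≠ T → Cfsg.PRankLE 2 1 ↥((S : Subgroup G) ⊓ (T : Subgroup G))) :
    (∃ P : Sylow 2 (G ⧸ Cfsg.oddCore G), (P : Subgroup (G ⧸ Cfsg.oddCore G)).Normal) ∨
    Nonempty ((G ⧸ Cfsg.oddCore G) ≃* GL (Fin 2) (ZMod 3)) ∨
    (Nat.card (G ⧸ Cfsg.oddCore G) = 48 ∧ Nat.card ↥(Subgroup.center (G ⧸ Cfsg.oddCore G)) = 2 ∧
      Nonempty ((G ⧸ Cfsg.oddCore G) ⧸ Subgroup.center (G ⧸ Cfsg.oddCore G) ≃* Equiv.Perm (Fin 4)) ∧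
      ∀ P : Sylow 2 (G ⧸ Cfsg.oddCore G), Nonempty (↥(P : Subgroup (G ⧸ Cfsg.oddCore G)) ≃* QuaternionGroup 4)) := by
  have f2 : Fact (Nat.Prime 2) := ⟨Nat.prime_two⟩
  by_cases hn : ∃ P : Sylow 2 (G ⧸ Cfsg.oddCore G), (P : Subgroup (G ⧸ Cfsg.oddCore G)).Normal
  · exact Or.inl hn
  right
  obtain ⟨S, T, D₀, hne, hle, ⟨e⟩⟩ := Cfsg.Agent.H334.TwoClosed.exists_pair hn
  have hrk := hI S T hne
  set D : Subgroup (G ⧸ Cfsg.oddCore G) := Cfsg.pCore 2 (G ⧸ Cfsg.oddCore G) with hD
  have hDn : D.Normal := Cfsg.pCore_normal 2 _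
  have hDp : IsPGroup 2 D := Cfsg.Agent.Lib.HallHigman.pCore_isPGroup (G := G ⧸ Cfsg.oddCore G) 2
  -- the rank passes to `D`
  have hrkD : Cfsg.PRankLE 2 1 D := by
    intro A hA hA2
    let f : D →* ↥((S : Subgroup G) ⊓ T) := (Subgroup.inclusion hle).comp e.symm.toMonoidHom
    have hf : Function.Injective f := (Subgroup.inclusion_injective hle).comp e.symm.injective
    have h1 := hrk (A.map f) (by
      refine ⟨⟨?_⟩⟩
      rintro ⟨_, ⟨a, ha, rfl⟩⟩ ⟨_, ⟨b, hb, rfl⟩⟩
      apply Subtype.ext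
      change f a * f b = f b * f a
      have := congrArg Subtype.val (hA.is_comm.comm ⟨a, ha⟩ ⟨b, hb⟩)
      have h3 : a * b = b * a := this
      rw [← map_mul, h3, map_mul]) (by
      rintro _ ⟨a, ha, rfl⟩
      rw [← map_pow, hA2 a ha, map_one])
    rwa [Subgroup.card_map_of_injective hf] at h1
  have hU := uniqueP_of_rank hDp hrkD
  have h5 : Cfsg.pPrimeCore 2 (G ⧸ Cfsg.oddCore G) = ⊥ :=
    Cfsg.Agent.Lib.HallHigman.pPrimeCore_quotient_eq_bot 2 (Cfsg.oddCore G) rfl
  have h6 := Cfsg.Agent.Lib.HallHigman.centralizer_pCore_le_of_solvable 2 h5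
  have hnot : ¬ IsPGroup 2 (G ⧸ Cfsg.oddCore G) := by
    intro h7
    apply hn
    obtain ⟨P⟩ : Nonempty (Sylow 2 (G ⧸ Cfsg.oddCore G)) := inferInstance
    refine ⟨P, ?_⟩
    have h8 : (P : Subgroup (G ⧸ Cfsg.oddCore G)) = ⊤ :=
      (P.is_maximal' (h7.to_subgroup ⊤) le_top).symm
    rw [h8]; infer_instance
  rcases Cfsg.Agent.Solvable.UniqueOrderP.cyclic_or_quaternion hDp hU with hc | ⟨-, m, hm, ⟨f⟩⟩
  · exfalso
    exact hnot (Cfsg.Agent.H334.TwoClosed.isPGroup_of_aut h6
      (Cfsg.Agent.S3303.isPGroup_mulAut_of_isCyclic hDp hc))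
  · by_cases hm2 : 2 ≤ m
    · exfalso
      apply hnot
      apply Cfsg.Agent.H334.TwoClosed.isPGroup_of_aut h6
      intro φ
      have hfo : 0 < orderOf φ := orderOf_pos φ
      obtain ⟨k, b, hb, hkb⟩ := Nat.exists_eq_two_pow_mul_odd hfo.ne'
      refine ⟨k, ?_⟩
      apply Cfsg.Agent.LFourB.ProdAut.eq_one_of_odd' hm2 f _ hb
      rw [← pow_mul, ← hkb, pow_orderOf_eq_one]
    · have hm1 : m = 1 := by omega
      subst hm1
      have f' : D ≃* QuaternionGroup 2 := f
      by_cases hd : ∃ d : G ⧸ Cfsg.oddCore G, d * d = 1 ∧ d ≠ 1 ∧ d ≠ Cfsg.Agent.H334.Q8Case.zz D f'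
      · left
        obtain ⟨d, h7, h8, h9⟩ := hd
        exact Cfsg.Agent.H334.Q8Case.gl_case D f' h6 hn d h7 h8 h9
      · right
        refine ⟨(Cfsg.Agent.H334.Q8Case.card_eq D f' h6 hn).1,
          Cfsg.Agent.H334.Q8Case.card_center D f' h6,
          Cfsg.Agent.H334.Q8Case.quot_equiv D f' h6 hn, ?_⟩
        apply Cfsg.Agent.H334.Q8Case.quat_case D f' h6 hn
        intro x hx
        by_contra hcon
        push Not at hcon
        exact hd ⟨x, hx, hcon.1, hcon.2⟩

end Cfsg.Agent.S3304
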