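import Cfsg.Statements.S3324
import Cfsg.Agent.H339.Asm
set_option linter.all false

set_option autoImplicit false
open Cfsg Cfsg.Agent.H339

namespace Cfsg.Agent.S3324

/-- Let p be an odd prime and q = pⁿ with q ≡ 3 (mod 4), and let C₀ be the centralizer in PSp(4, q) of an element x of order p lying in the centre of a Sylow p-subgroup. Let G be a finite group with an element α of order p such that C_G(α) ≅ C₀, such that C_G(z) = C_G(α) for every nontrivial z in the centre of C_G(α), and in which not all elements of order p that are central in some Sylow p-subgroup are conjugate. Let P be a Sylow p-subgroup of G contained in C_G(α) (P has order q⁴) and M an elementary abelian subgroup of P of order q³. If N_G(M) does not have a normal Sylow p-subgroup, then M has a complement J in N_G(M) with J isomorphic to PGL(2, q) × C, C cyclic of order (q − 1)/2. -/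
theorem result
    {G : Type*} [Group G] [Finite G] {F : Type*} [Field F] [Fintype F] (p n : ℕ) [Fact p.Prime] (hp : p ≠ 2)
    (hn : 1 ≤ n) (hq4 : p ^ n % 4 = 3) (hF : Fintype.card F = p ^ n)
    (x : Cfsg.PSp 2 F) (hx : orderOf x = p) (Px : Sylow p (Cfsg.PSp 2 F)) (hxP : x ∈ (Px : Subgroup (Cfsg.PSp 2 F)))
    (hxc : ∀ y ∈ (Px : Subgroup (Cfsg.PSp 2 F)), y * x = x * y)
    (α : G) (hα : orderOf α = p)
    (e : ↥(Subgroup.centralizer ({α} : Set G)) ≃* ↥(Subgroup.centralizer ({x} : Set (Cfsg.PSp 2 F))))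
    (hb : ∀ z ∈ Subgroup.centralizer ({α} : Set G), z ≠ 1 → (∀ c ∈ Subgroup.centralizer ({α} : Set G), c * z = z * c) →
      Subgroup.centralizer ({z} : Set G) = Subgroup.centralizer ({α} : Set G))
    (hc : ∃ (u v : G) (Pu Pv : Sylow p G), orderOf u = p ∧ orderOf v = p ∧
      u ∈ (Pu : Subgroup G) ∧ (∀ y ∈ (Pu : Subgroup G), y * u = u * y) ∧
      v ∈ (Pv : Subgroup G) ∧ (∀ y ∈ (Pv : Subgroup G), y * v = v * y) ∧ ∀ g : G, g * u * g⁻¹ ≠ v)
    (P : Sylow p G) (hP : (P : Subgroup G) ≤ Subgroup.centralizer ({α} : Set G))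
    (M : Subgroup G) (hMP : M ≤ P) (hMc : IsMulCommutative ↥M) (hMe : ∀ m ∈ M, m ^ p = 1) (hMcard : Nat.card ↥M = p ^ (3 * n))
    (hnc : ∃ Q R : Sylow p ↥(Subgroup.normalizer (M : Set G)), Q ≠ R) :
    ∃ J : Subgroup G, J ≤ Subgroup.normalizer (M : Set G) ∧ M ⊔ J = Subgroup.normalizer (M : Set G) ∧ M ⊓ J = ⊥ ∧
      Nonempty (↥J ≃* (Matrix.ProjGenLinGroup (Fin 2) F × Multiplicative (ZMod ((p ^ n - 1) / 2)))) := by
  classical
  have hpp : p.Prime := Fact.out
  have hF' : Nat.card F = p ^ n := by rw [Nat.card_eq_fintype_card, hF]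
  have hpF : (p : F) = 0 := by
    have h1 : ((Fintype.card F : ℕ) : F) = 0 := FiniteField.cast_card_eq_zero F
    rw [hF, Nat.cast_pow] at h1
    exact eq_zero_of_pow_eq_zero h1
  have h2 : (2 : F) ≠ 0 := by
    intro h2
    have hcop : Nat.Coprime p 2 := (Nat.coprime_primes hpp Nat.prime_two).mpr hp
    have h3 := Nat.gcd_eq_gcd_ab p 2
    rw [hcop] at h3
    have h4 : ((1 : ℤ) : F) = 0 := by
      have h5 := congrArg (fun z : ℤ => (z : F)) h3
      simp only [Nat.cast_one, Int.cast_one, Nat.cast_ofNat, Int.cast_add, Int.cast_mul,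
        Int.cast_natCast, Int.cast_ofNat, hpF, h2, zero_mul, add_zero] at h5
      exact absurd h5 one_ne_zero
    rw [Int.cast_one] at h4
    exact one_ne_zero h4
  obtain ⟨e'⟩ := SpCo.nonempty_iso hp hn hF' hpF h2 x hx Px hxP hxc
  -- the embedding of `S1` into `G`
  let θ : SpCo.S1 F →* G :=
    (Subgroup.centralizer ({α} : Set G)).subtype.comp (e'.trans e.symm).toMonoidHom
  have hθ : Function.Injective θ := by
    intro a b hab
    exact (e'.trans e.symm).injective (Subtype.ext hab)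
  have hθr : ∀ y : G, y ∈ Subgroup.centralizer ({α} : Set G) → ∃ g, θ g = y := by
    intro y hy
    obtain ⟨g, hg⟩ := (e'.trans e.symm).surjective ⟨y, hy⟩
    exact ⟨g, congrArg Subtype.val hg⟩
  have hθm : ∀ g, θ g ∈ Subgroup.centralizer ({α} : Set G) := fun g => ((e'.trans e.symm) g).2
  obtain ⟨g, hg⟩ := SpCo.exists_conj_le hn hF' ((P : Subgroup G).comap θ)
    (P.isPGroup'.comap_of_injective _ hθ)
  let θ' : SpCo.S1 F →* G := θ.comp (MulAut.conj g).toMonoidHom
  have hθ' : Function.Injective θ' := hθ.comp (MulAut.conj g).injective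
  have hθ'r : ∀ y : G, y ∈ Subgroup.centralizer ({α} : Set G) → ∃ g, θ' g = y := by
    intro y hy
    obtain ⟨k, hk⟩ := hθr y hy
    obtain ⟨k', hk'⟩ := (MulAut.conj g).surjective k
    exact ⟨k', by rw [← hk, ← hk']; rfl⟩
  let K : Co G F := (SpCo.co F).map θ' hθ'
  have hKP : K.P = P := by
    apply P.is_maximal'
    · rw [Co.map_P]
      exact (SpCo.isPGroup_P hF').map _
    · intro y hy
      rw [Co.map_P]
      obtain ⟨k, rfl⟩ := hθr y (hP hy)
      have h3 := hg k hy
      refine ⟨_, h3, ?_⟩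
      change θ (g * (g⁻¹ * k * g) * g⁻¹) = θ k
      congr 1
      group
  have hKM : M = K.M := by
    apply K.eq_M h2
    · rw [hKP]; exact hMP
    · intro a ha b hb
      exact congrArg Subtype.val (hMc.is_comm.comm (⟨a, ha⟩ : M) ⟨b, hb⟩)
    · rw [hMcard, hF', ← pow_mul, mul_comm]
  have hcent : ∀ v, v ≠ 0 → Subgroup.centralizer ({K.d v} : Set G) =
      Subgroup.centralizer ({α} : Set G) := by
    intro v hv
    apply hb
    · exact hθm _
    · exact K.d_ne_one hv
    · intro c hc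
      obtain ⟨k, rfl⟩ := hθ'r c hc
      change θ' k * θ' ((SpCo.co F).d v) = θ' ((SpCo.co F).d v) * θ' k
      rw [← map_mul, ← map_mul]
      congr 1
      exact Subtype.ext (SpCo.d_comm k.2 v)
  subst hKM
  apply final hp hn hq4 hF h2 K _ hc P hKP hnc
  intro v hv k hkM hk
  have h3 : k ∈ Subgroup.centralizer ({α} : Set G) := by
    rw [← hcent v hv, Subgroup.mem_centralizer_singleton_iff]
    exact hk
  obtain ⟨k, rfl⟩ := hθ'r k h3
  obtain ⟨t, u, w, e1⟩ := hkM _ (K.m_mem 1 0 0)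
  have e2 : k * (SpCo.co F).m 1 0 0 = (SpCo.co F).m t u w * k := by
    apply hθ'
    rw [map_mul, map_mul, ← Co.map_m _ θ' hθ', ← Co.map_m _ θ' hθ']
    change θ' k * K.m 1 0 0 = K.m t u w * θ' k
    rw [← e1]; group
  have e3 : (k : SpCo.Sp F) * SpCo.m 1 0 0 = SpCo.m t u w * (k : SpCo.Sp F) := by
    rw [← SpCo.co_m, ← SpCo.co_m]
    exact congrArg Subtype.val e2
  obtain ⟨t', u', v', s, r, e4, -⟩ := SpCo.exists_of_entry k.2 (SpCo.entry_of_conj k.2 e3)
  refine ⟨t', u', v', s, r, ?_⟩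
  have e5 : k = (SpCo.co F).m t' u' v' * (SpCo.co F).a s * (SpCo.co F).h r := by
    apply Subtype.ext
    rw [e4]
    change _ = ((SpCo.co F).m t' u' v' : SpCo.Sp F) * SpCo.a s * SpCo.h r
    rw [SpCo.co_m]
  rw [e5, map_mul, map_mul, ← Co.map_m _ θ' hθ']
  rfl

end Cfsg.Agent.S3324
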