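import Cfsg.Statements.S3334
import Cfsg.Agent.McLType.Final
import Cfsg.Agent.S0215
set_option linter.all false

set_option autoImplicit false
open Cfsg

namespace Cfsg.Agent.S3334

open Subgroup

/-- an involution commuting with no other conjugate of itself is central modulo the odd core -/
theorem centralizer_sup_oddCore {G : Type*} [Group G] [Finite G] {t : G} (ht : orderOf t = 2)
    (hiso : ∀ g : G, g * t * g⁻¹ * t = t * (g * t * g⁻¹) → g * t * g⁻¹ = t) :
    centralizer ({t} : Set G) ⊔ oddCore G = ⊤ := by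
  have : Fact (Nat.Prime 2) := ⟨Nat.prime_two⟩
  have htt : t * t = 1 := by rw [← pow_two, ← ht, pow_orderOf_eq_one]
  -- a Sylow 2-subgroup containing `t`
  have hp : IsPGroup 2 (zpowers t) := IsPGroup.of_card (n := 1) (by rw [Nat.card_zpowers, ht, pow_one])
  obtain ⟨P, hP⟩ := hp.exists_le_sylow
  have htP : t ∈ P := hP (mem_zpowers t)
  -- `t` is central in `P`
  have hcen : ∀ x ∈ P, x * t = t * x := by
    by_contra hne
    set H : Subgroup ↥(P : Subgroup G) := centralizer {(⟨t, htP⟩ : ↥(P : Subgroup G))} with hH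
    have : Group.IsNilpotent ↥(P : Subgroup G) := P.isPGroup'.isNilpotent
    have hlt : H < ⊤ := by
      rw [lt_top_iff_ne_top]
      intro h
      apply hne
      intro x hx
      have h1 : (⟨x, hx⟩ : ↥(P : Subgroup G)) ∈ H := by rw [h]; trivial
      rw [hH, mem_centralizer_singleton_iff] at h1
      exact congrArg Subtype.val h1
    have h2 := Group.normalizerCondition_of_isNilpotent H hlt
    obtain ⟨x, hx1, hx2⟩ := SetLike.exists_of_lt h2
    have h3 : x * (⟨t, htP⟩ : ↥(P : Subgroup G)) * x⁻¹ ∈ H :=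
      (mem_normalizer_iff.1 hx1 _).1 (by rw [hH, mem_centralizer_singleton_iff])
    rw [hH, mem_centralizer_singleton_iff] at h3
    have h4 := congrArg Subtype.val h3
    have h5 : (x : G) * t * (x : G)⁻¹ = t := hiso x h4
    apply hx2
    rw [hH, mem_centralizer_singleton_iff]
    refine Subtype.ext ?_
    change (x : G) * t = t * x
    exact mul_inv_eq_iff_eq_mul.1 h5
  obtain ⟨N, hN, hodd, hcomm⟩ := Cfsg.Agent.S0215.result P t ht htP (fun g hg => hiso g (hcen _ hg))
  have hNle : N ≤ oddCore G := le_sSup ⟨hN, (Nat.coprime_two_right.2 hodd)⟩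
  rw [eq_top_iff]
  intro g _
  -- `n = g t g⁻¹ t` lies in `N` and is inverted by `t`
  set n : G := g * t * g⁻¹ * t with hn
  have hnN : n ∈ N := by
    have h1 := N.inv_mem (hcomm g)
    have h2 : (t * g * t⁻¹ * g⁻¹)⁻¹ = g * t * g⁻¹ * t⁻¹ := by group
    have h3 : t⁻¹ = t := inv_eq_of_mul_eq_one_left htt
    rw [h2, h3] at h1
    exact h1
  have hinv : t * n * t = n⁻¹ := by
    have h3 : t⁻¹ = t := inv_eq_of_mul_eq_one_left htt
    rw [hn, mul_inv_rev, mul_inv_rev, mul_inv_rev, inv_inv, h3]
    simp only [← mul_assoc]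
    rw [mul_assoc (t * g * t * g⁻¹), htt, mul_one]
  have hno : Odd (orderOf n) := by
    have h1 : orderOf n ∣ Nat.card N := by
      have := orderOf_dvd_natCard (⟨n, hnN⟩ : N)
      rwa [orderOf_mk] at this
    exact hodd.of_dvd_nat h1
  obtain ⟨k, hk⟩ := hno
  -- a square root
  set m : G := n ^ (k + 1) with hm
  have hmm : m * m = n := by
    rw [hm, ← pow_add]
    have : k + 1 + (k + 1) = orderOf n + 1 := by omega
    rw [this, pow_succ, pow_orderOf_eq_one, one_mul]
  have hminv : t * m * t = m⁻¹ := by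
    have h3 : t⁻¹ = t := inv_eq_of_mul_eq_one_left htt
    have h4 : t * m * t = (t * n * t⁻¹) ^ (k + 1) := by
      rw [conj_pow, h3]
    rw [h4, h3, hinv, inv_pow]
  have hmN : m ∈ N := N.pow_mem hnN _
  have h6 : m⁻¹ * g ∈ centralizer ({t} : Set G) := by
    rw [mem_centralizer_singleton_iff]
    have h7 : g * t = n * t * g := by
      rw [hn]
      have : g * t * g⁻¹ * t * t * g = g * t * g⁻¹ * (t * t) * g := by group
      rw [this, htt]; group
    have h8 : m * t = t * m⁻¹ := by
      rw [← hminv, ← mul_assoc, ← mul_assoc, htt, one_mul]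
    calc m⁻¹ * g * t = m⁻¹ * (m * m) * t * g := by rw [mul_assoc, h7, hmm]; group
      _ = (m * t) * g := by group
      _ = t * (m⁻¹ * g) := by rw [h8]; group
  have h9 : g = m * (m⁻¹ * g) := by group
  rw [h9]
  exact mul_mem (mem_sup_right (hNle hmN)) (mem_sup_left h6)

/-- Let G be a finite group with an involution t whose centralizer is a non-split double cover of the alternating group of degree 8. Then either G = C_G(t) O_{2'}(G), or G is isomorphic to the McLaughlin group. -/
theorem result {G : Type*} [Group G] [Finite G]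
    (t : G) (ht : orderOf t = 2)
    (hcov : Cfsg.IsNonsplitDoubleCover (Subgroup.centralizer ({t} : Set G)) (alternatingGroup (Fin 8))) :
    Subgroup.centralizer ({t} : Set G) ⊔ Cfsg.oddCore G = ⊤ ∨ Nonempty (G ≃* Cfsg.Spor.McL) := by
  by_cases hfus : ∃ g : G, g * t * g⁻¹ ≠ t ∧ g * t * g⁻¹ * t = t * (g * t * g⁻¹)
  · right
    obtain ⟨π, z, hπ, hc⟩ := Cfsg.Agent.SporadicRecognition.AltCover.exists_isCover hcov
    have hz : z = (⟨t, Cfsg.Agent.McLType.Local.mem_cent.2 rfl⟩ : centralizer ({t} : Set G)) := by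
      have h1 : (⟨t, Cfsg.Agent.McLType.Local.mem_cent.2 rfl⟩ : centralizer ({t} : Set G)) ∈
          center ↥(centralizer ({t} : Set G)) := by
        rw [mem_center_iff]
        intro g
        exact Subtype.ext (Cfsg.Agent.McLType.Local.mem_cent.1 g.2)
      rcases (hc _).1 h1 with h2 | h2
      · exfalso
        have h3 : t = 1 := congrArg Subtype.val h2
        rw [h3, orderOf_one] at ht
        omega
      · exact h2.symm
    rw [hz] at hπ
    exact Cfsg.Agent.McLType.Final.isoMcL hπ hfus
  · left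
    refine centralizer_sup_oddCore ht fun g hg => ?_
    by_contra h
    exact hfus ⟨g, h, hg⟩

end Cfsg.Agent.S3334
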