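import Mathlib
import Cfsg.Agent.S0848
import Cfsg.Agent.BenderW3.TIGram
import Cfsg.Agent.S0497
import Cfsg.Agent.Characters.Linear
import Cfsg.Statements.S3341
set_option linter.all false

-- part: H344/AltSixNum
section
/-!
# Numerics for the characterization of `Alt(6)` by its elements of order three

The values of the irreducible characters at elements of order three, and the consequences of the
orthogonality relations and of the class multiplication constants.
-/

set_option autoImplicit false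

namespace Cfsg.Agent.H344.AltSixNum

open Cfsg Cfsg.Agent.Characters.Core Cfsg.Agent.S0848

/-- a family of integers with square sum two. -/
theorem exists_two {ι : Type*} [Fintype ι] [DecidableEq ι] (m d : ι → ℤ)
    (hd : ∀ i, 0 < d i) (h : ∑ i, m i ^ 2 = 2) (h0 : ∑ i, m i * d i = 0) :
    ∃ p q : ι, p ≠ q ∧ m p = 1 ∧ m q = -1 ∧ d p = d q ∧ (∀ i, i ≠ p → i ≠ q → m i = 0) ∧
      ∀ F : ι → ℤ, ∑ i, m i * F i = F p - F q := by
  obtain ⟨i1, hi1, h1, e1⟩ := exists_one m Finset.univ (by omega) (by omega)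
  rw [h] at e1
  obtain ⟨i2, hi2, h2, e2⟩ := exists_one m (Finset.univ.erase i1) (by omega) (by omega)
  rw [e1] at e2
  have hz : ∀ i ∈ (Finset.univ.erase i1).erase i2, m i = 0 := by
    intro i hi
    have := (Finset.sum_eq_zero_iff_of_nonneg (fun j _ => sq_nonneg (m j))).mp
      (e2.trans (by norm_num)) i hi
    exact pow_eq_zero_iff (two_ne_zero) |>.mp this
  have h21 : i2 ≠ i1 := Finset.ne_of_mem_erase hi2
  have key : ∀ F : ι → ℤ, ∑ i, m i * F i = m i1 * F i1 + m i2 * F i2 := by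
    intro F
    rw [← Finset.add_sum_erase Finset.univ _ (Finset.mem_univ i1),
      ← Finset.add_sum_erase (Finset.univ.erase i1) _ hi2,
      Finset.sum_eq_zero (s := (Finset.univ.erase i1).erase i2)
        (fun i hi => by rw [hz i hi]; simp)]
    ring
  have hz' : ∀ i, i ≠ i1 → i ≠ i2 → m i = 0 := by
    intro i h1 h2
    exact hz i (by simp [h1, h2])
  have hs := key d
  rw [h0] at hs
  have d1 := hd i1
  have d2 := hd i2
  rcases sq_eq_one_iff_of_side_cond h1 with a | a <;>
    rcases sq_eq_one_iff_of_side_cond h2 with b | b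
  · rw [a, b] at hs; omega
  · refine ⟨i1, i2, h21.symm, a, b, by rw [a, b] at hs; omega, hz', fun F => ?_⟩
    rw [key F, a, b]; ring
  · refine ⟨i2, i1, h21, b, a, by rw [a, b] at hs; omega, fun i h1 h2 => hz' i h2 h1, fun F => ?_⟩
    rw [key F, a, b]; ring
  · rw [a, b] at hs; omega

/-- the same for sums of complex numbers. -/
theorem sum_two {ι : Type*} [Fintype ι] [DecidableEq ι] (m : ι → ℤ) {p q : ι} (hpq : p ≠ q)
    (hp : m p = 1) (hq : m q = -1) (hz : ∀ i, i ≠ p → i ≠ q → m i = 0) (F : ι → ℚ) :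
    ∑ i, (m i : ℚ) * F i = F p - F q := by
  rw [← Finset.add_sum_erase Finset.univ _ (Finset.mem_univ p),
    ← Finset.add_sum_erase (Finset.univ.erase p) _
      (show q ∈ Finset.univ.erase p by simp [hpq.symm]),
    Finset.sum_eq_zero (s := (Finset.univ.erase p).erase q) (fun i hi => by
      rw [hz i (by simp only [Finset.mem_erase] at hi; exact hi.2.1)
        (by simp only [Finset.mem_erase] at hi; exact hi.1)]; simp), hp, hq]
  push_cast
  ring

/-- The case where the elements of `S` are only conjugate to their inverses. -/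
theorem num_two {ι : Type*} [Fintype ι] [DecidableEq ι] (n : ℕ) (a b c : ι → ℤ) (d : ι → ℕ)
    (i0 : ι) (hd : ∀ i, 0 < d i) (hab : ∀ i, (3 : ℤ) ∣ b i - a i)
    (haa : ∑ i, a i * a i = 9) (hbb : ∑ i, b i * b i = 9) (hab0 : ∑ i, a i * b i = 0)
    (hac : ∑ i, a i * c i = 0) (hbc : ∑ i, b i * c i = 0)
    (had : ∑ i, a i * (d i : ℤ) = 0) (hbd : ∑ i, b i * (d i : ℤ) = 0)
    (hdd : ∑ i, d i ^ 2 = n) (ha0 : a i0 = 1) (hb0 : b i0 = 1) (hd0 : d i0 = 1)
    (T1 : (n : ℚ) * ∑ i, (a i : ℚ) * b i * c i / d i = 81)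
    (T2 : (n : ℚ) * ∑ i, (a i : ℚ) * a i * c i / d i = 0) : n ≤ 36 := by
  choose m hm using hab
  have hb : ∀ i, b i = a i + 3 * m i := fun i => by have := hm i; omega
  have am : ∑ i, m i * a i = -3 := by
    have : ∑ i, a i * b i = ∑ i, a i * a i + 3 * ∑ i, m i * a i := by
      rw [Finset.mul_sum, ← Finset.sum_add_distrib]
      exact Finset.sum_congr rfl fun i _ => by rw [hb]; ring
    rw [haa, hab0] at this
    omega
  have mm : ∑ i, m i ^ 2 = 2 := by
    have : ∑ i, b i * b i = ∑ i, a i * a i + 6 * ∑ i, m i * a i + 9 * ∑ i, m i ^ 2 := by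
      rw [Finset.mul_sum, Finset.mul_sum, ← Finset.sum_add_distrib, ← Finset.sum_add_distrib]
      exact Finset.sum_congr rfl fun i _ => by rw [hb]; ring
    rw [haa, hbb, am] at this
    omega
  have md : ∑ i, m i * (d i : ℤ) = 0 := by
    have : ∑ i, b i * (d i : ℤ) = ∑ i, a i * (d i : ℤ) + 3 * ∑ i, m i * (d i : ℤ) := by
      rw [Finset.mul_sum, ← Finset.sum_add_distrib]
      exact Finset.sum_congr rfl fun i _ => by rw [hb]; ring
    rw [had, hbd] at this
    omega
  have mc : ∑ i, m i * c i = 0 := by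
    have : ∑ i, b i * c i = ∑ i, a i * c i + 3 * ∑ i, m i * c i := by
      rw [Finset.mul_sum, ← Finset.sum_add_distrib]
      exact Finset.sum_congr rfl fun i _ => by rw [hb]; ring
    rw [hac, hbc] at this
    omega
  obtain ⟨p, q, hpq, hp, hq, hdpq, hz, hF⟩ := exists_two m (fun i => (d i : ℤ))
    (fun i => by have := hd i; omega) mm md
  rw [hF] at am mc
  have hdpq' : d p = d q := by exact_mod_cast hdpq
  have T3 : (n : ℚ) * ∑ i, (m i : ℚ) * ((a i : ℚ) * c i / d i) = 27 := by
    have : (n : ℚ) * ∑ i, (a i : ℚ) * b i * c i / d i - (n : ℚ) * ∑ i, (a i : ℚ) * a i * c i / d i =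
        3 * ((n : ℚ) * ∑ i, (m i : ℚ) * ((a i : ℚ) * c i / d i)) := by
      rw [← mul_sub, ← Finset.sum_sub_distrib, mul_left_comm, Finset.mul_sum (a := (3 : ℚ))]
      congr 1
      refine Finset.sum_congr rfl fun i _ => ?_
      rw [hb]; push_cast; ring
    rw [T1, T2] at this
    linarith
  rw [sum_two m hpq hp hq hz, hdpq'] at T3
  have hcq : c p = c q := by omega
  have haq : a p = a q - 3 := by omega
  have hdq : (d q : ℚ) ≠ 0 := by exact_mod_cast (hd q).ne'
  rw [hcq, haq] at T3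
  have T4 : (n : ℤ) * (- c q) = 9 * d q := by
    have : (n : ℚ) * (- c q) = 9 * d q := by
      push_cast at T3
      field_simp at T3
      linarith
    exact_mod_cast this
  have hdq1 := hd q
  have hn : 2 * d q ^ 2 + 1 ≤ n := by
    have hi0p : i0 ≠ p := by
      rintro rfl
      have := hb i0
      rw [ha0, hb0, hp] at this
      omega
    have hi0q : i0 ≠ q := by
      rintro rfl
      have := hb i0
      rw [ha0, hb0, hq] at this
      omega
    rw [← hdd, ← Finset.add_sum_erase Finset.univ _ (Finset.mem_univ i0),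
      ← Finset.add_sum_erase (Finset.univ.erase i0) _
        (show p ∈ Finset.univ.erase i0 by simp [hi0p.symm]),
      ← Finset.add_sum_erase ((Finset.univ.erase i0).erase p) _
        (show q ∈ (Finset.univ.erase i0).erase p by simp [hi0q.symm, hpq.symm]), hd0, hdpq']
    have : 0 ≤ ∑ i ∈ ((Finset.univ.erase i0).erase p).erase q, d i ^ 2 := Nat.zero_le _
    omega
  have hc1 : 1 ≤ - c q := by
    by_contra hcon
    push Not at hcon
    have : (n : ℤ) * (- c q) ≤ 0 := mul_nonpos_of_nonneg_of_nonpos (by positivity) (by omega)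
    omega
  have hn2 : (n : ℤ) ≤ 9 * d q := by
    rw [← T4]
    nlinarith
  have hdq4 : d q ≤ 4 := by
    by_contra hcon
    push Not at hcon
    have h1 : (n : ℤ) ≥ 2 * (d q : ℤ) ^ 2 + 1 := by exact_mod_cast hn
    have h2 : (5 : ℤ) ≤ d q := by exact_mod_cast hcon
    nlinarith
  omega

/-- Arithmetic of the second case. -/
theorem arith (n D : ℕ) (d1 d2 d3 : ℕ) (e1 e2 e3 : ℤ) (h1 : e1 = 1 ∨ e1 = -1)
    (h2 : e2 = 1 ∨ e2 = -1) (h3 : e3 = 1 ∨ e3 = -1)
    (hn : (n : ℚ) * (1 - 2 / D + e1 / d1 + e2 / d2 + e3 / d3) = 162)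
    (hs : 1 + (D : ℤ) + e1 * d1 + e2 * d2 + e3 * d3 = 0)
    (hsq : 1 + 2 * D ^ 2 + d1 ^ 2 + d2 ^ 2 + d3 ^ 2 ≤ n)
    (hD : (9 : ℤ) ∣ (D : ℤ) + 4) (m1 : (9 : ℤ) ∣ (d1 : ℤ) - e1) (m2 : (9 : ℤ) ∣ (d2 : ℤ) - e2)
    (m3 : (9 : ℤ) ∣ (d3 : ℤ) - e3) (p1 : 1 < d1) (p2 : 1 < d2) (p3 : 1 < d3) : n = 360 := by
  have hD5 : 5 ≤ D := by omega
  have b1 : 8 ≤ d1 := by rcases h1 with rfl | rfl <;> omega
  have b2 : 8 ≤ d2 := by rcases h2 with rfl | rfl <;> omega
  have b3 : 8 ≤ d3 := by rcases h3 with rfl | rfl <;> omega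
  have g : ∀ (d : ℕ) (e : ℤ), 8 ≤ d → (e = 1 ∨ e = -1) → -(1 / 8 : ℚ) ≤ e / d := by
    intro d e hd he
    have hd' : (8 : ℚ) ≤ d := by exact_mod_cast hd
    rcases he with rfl | rfl
    · have : (0 : ℚ) ≤ ((1 : ℤ) : ℚ) / d := by positivity
      linarith
    · push_cast
      rw [neg_div]
      have : (1 : ℚ) / d ≤ 1 / 8 := one_div_le_one_div_of_le (by norm_num) hd'
      linarith
  have g1 := g d1 e1 b1 h1
  have g2 := g d2 e2 b2 h2
  have g3 := g d3 e3 b3 h3
  have gD : (2 : ℚ) / D ≤ 2 / 5 := by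
    have : (5 : ℚ) ≤ D := by exact_mod_cast hD5
    rw [div_le_div_iff₀ (by linarith) (by norm_num)]
    linarith
  have hn720 : n ≤ 720 := by
    have h0 : (0 : ℚ) ≤ n := by positivity
    have : (n : ℚ) * (9 / 40) ≤ 162 := by
      rw [← hn]
      apply mul_le_mul_of_nonneg_left _ h0
      linarith
    have : (n : ℚ) ≤ 720 := by linarith
    exact_mod_cast this
  have cD : D = 5 ∨ D = 14 := by
    have : D ≤ 18 := by nlinarith
    omega
  have u1 : d1 ≤ 26 := by nlinarith
  have u2 : d2 ≤ 26 := by nlinarith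
  have u3 : d3 ≤ 26 := by nlinarith
  have hn0 : (n : ℚ) = 162 / (1 - 2 / D + e1 / d1 + e2 / d2 + e3 / d3) := by
    have : (1 - 2 / D + e1 / d1 + e2 / d2 + e3 / d3 : ℚ) ≠ 0 := by
      intro h
      rw [h] at hn
      norm_num at hn
    rw [eq_div_iff this]
    exact hn
  have c1 : (e1 = 1 ∧ (d1 = 10 ∨ d1 = 19)) ∨ (e1 = -1 ∧ (d1 = 8 ∨ d1 = 17 ∨ d1 = 26)) := by
    rcases h1 with rfl | rfl <;> omega
  have c2 : (e2 = 1 ∧ (d2 = 10 ∨ d2 = 19)) ∨ (e2 = -1 ∧ (d2 = 8 ∨ d2 = 17 ∨ d2 = 26)) := by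
    rcases h2 with rfl | rfl <;> omega
  have c3 : (e3 = 1 ∧ (d3 = 10 ∨ d3 = 19)) ∨ (e3 = -1 ∧ (d3 = 8 ∨ d3 = 17 ∨ d3 = 26)) := by
    rcases h3 with rfl | rfl <;> omega
  have hnz : ((n : ℤ) : ℚ) = n := by norm_cast
  rcases cD with rfl | rfl <;>
  rcases c1 with ⟨rfl, rfl | rfl⟩ | ⟨rfl, rfl | rfl | rfl⟩ <;>
  rcases c2 with ⟨rfl, rfl | rfl⟩ | ⟨rfl, rfl | rfl | rfl⟩ <;>
  rcases c3 with ⟨rfl, rfl | rfl⟩ | ⟨rfl, rfl | rfl | rfl⟩ <;>
  first
  | (exfalso; omega)
  | (norm_num at hn0; exact_mod_cast hn0)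

/-- three characters. -/
theorem exists_three' {ι : Type*} [Fintype ι] [DecidableEq ι] (m : ι → ℤ) (s : Finset ι)
    (h : ∑ i ∈ s, m i ^ 2 = 3) :
    ∃ i1 ∈ s, ∃ i2 ∈ s, ∃ i3 ∈ s, i2 ≠ i1 ∧ i3 ≠ i1 ∧ i3 ≠ i2 ∧ (m i1 = 1 ∨ m i1 = -1) ∧
      (m i2 = 1 ∨ m i2 = -1) ∧ (m i3 = 1 ∨ m i3 = -1) ∧
      ∀ i ∈ s, i ≠ i1 → i ≠ i2 → i ≠ i3 → m i = 0 := by
  obtain ⟨i1, hi1, h1, e1⟩ := exists_one m s (by omega) (by omega)
  rw [h] at e1
  obtain ⟨i2, hi2, h2, e2⟩ := exists_one m (s.erase i1) (by omega) (by omega)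
  rw [e1] at e2
  obtain ⟨i3, hi3, h3, e3⟩ := exists_one m ((s.erase i1).erase i2) (by omega) (by omega)
  rw [e2] at e3
  have hz : ∀ i ∈ ((s.erase i1).erase i2).erase i3, m i = 0 := by
    intro i hi
    have := (Finset.sum_eq_zero_iff_of_nonneg (fun j _ => sq_nonneg (m j))).mp
      (e3.trans (by norm_num)) i hi
    exact pow_eq_zero_iff (two_ne_zero) |>.mp this
  simp only [Finset.mem_erase] at hi2 hi3 hz
  exact ⟨i1, hi1, i2, hi2.2, i3, hi3.2.2, hi2.1, hi3.2.1, hi3.1,
    sq_eq_one_iff_of_side_cond h1, sq_eq_one_iff_of_side_cond h2, sq_eq_one_iff_of_side_cond h3,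
    fun i hi a b c => hz i ⟨c, b, a, hi⟩⟩

/-- The case of two classes of elements of order three. -/
theorem num_four {ι : Type*} [Fintype ι] [DecidableEq ι] (n : ℕ) (a b : ι → ℤ) (d : ι → ℕ)
    (i0 : ι) (hd : ∀ i, 0 < d i) (hab : ∀ i, (3 : ℤ) ∣ a i - b i)
    (haa : ∑ i, a i * a i = 9) (hbb : ∑ i, b i * b i = 9) (hab0 : ∑ i, a i * b i = 0)
    (had : ∑ i, a i * (d i : ℤ) = 0) (hbd : ∑ i, b i * (d i : ℤ) = 0)
    (hdd : ∑ i, d i ^ 2 = n) (ha0 : a i0 = 1) (hb0 : b i0 = 1) (hd0 : d i0 = 1)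
    (hd1 : ∀ i, d i = 1 → i = i0)
    (h9 : ∀ i, (9 : ℤ) ∣ (d i : ℤ) + 4 * a i + 4 * b i)
    (T1 : (n : ℚ) * ∑ i, (a i : ℚ) * a i * b i / d i = 162)
    (T2 : (81 : ℚ) ≤ (n : ℚ) * ∑ i, (a i : ℚ) * a i * a i / d i) : n ≤ 36 ∨ n = 360 := by
  choose m hm using hab
  have ha : ∀ i, a i = b i + 3 * m i := fun i => by have := hm i; omega
  have am : ∑ i, m i * a i = 3 := by
    have : ∑ i, a i * b i = ∑ i, a i * a i - 3 * ∑ i, m i * a i := by
      rw [Finset.mul_sum, ← Finset.sum_sub_distrib]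
      refine Finset.sum_congr rfl fun i _ => ?_
      have : b i = a i - 3 * m i := by rw [ha]; ring
      rw [this]; ring
    rw [haa, hab0] at this
    omega
  have mm : ∑ i, m i ^ 2 = 2 := by
    have : ∑ i, b i * b i = ∑ i, a i * a i - 6 * ∑ i, m i * a i + 9 * ∑ i, m i ^ 2 := by
      rw [Finset.mul_sum, Finset.mul_sum, ← Finset.sum_sub_distrib, ← Finset.sum_add_distrib]
      refine Finset.sum_congr rfl fun i _ => ?_
      have : b i = a i - 3 * m i := by rw [ha]; ring
      rw [this]; ring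
    rw [haa, hbb, am] at this
    omega
  have md : ∑ i, m i * (d i : ℤ) = 0 := by
    have : ∑ i, a i * (d i : ℤ) = ∑ i, b i * (d i : ℤ) + 3 * ∑ i, m i * (d i : ℤ) := by
      rw [Finset.mul_sum, ← Finset.sum_add_distrib]
      exact Finset.sum_congr rfl fun i _ => by rw [ha]; ring
    rw [had, hbd] at this
    omega
  obtain ⟨p, q, hpq, hp, hq, hdpq, hz, hF⟩ := exists_two m (fun i => (d i : ℤ))
    (fun i => by have := hd i; omega) mm md
  rw [hF] at am
  have hdpq' : d p = d q := by exact_mod_cast hdpq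
  have hbp : b p = a p - 3 := by have := ha p; rw [hp] at this; omega
  have hbq : b q = a q + 3 := by have := ha q; rw [hq] at this; omega
  have haq : a q = a p - 3 := by omega
  have hi0p : i0 ≠ p := by
    rintro rfl
    have := ha i0
    rw [ha0, hb0, hp] at this
    omega
  have hi0q : i0 ≠ q := by
    rintro rfl
    have := ha i0
    rw [ha0, hb0, hq] at this
    omega
  have hp1 : p ∈ Finset.univ.erase i0 := by simp [hi0p.symm]
  have hq1 : q ∈ (Finset.univ.erase i0).erase p := by simp [hi0q.symm, hpq.symm]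
  set s : Finset ι := ((Finset.univ.erase i0).erase p).erase q with hs
  have split : ∀ F : ι → ℤ, ∑ i, F i = F i0 + (F p + (F q + ∑ i ∈ s, F i)) := by
    intro F
    rw [← Finset.add_sum_erase Finset.univ _ (Finset.mem_univ i0),
      ← Finset.add_sum_erase (Finset.univ.erase i0) _ hp1,
      ← Finset.add_sum_erase ((Finset.univ.erase i0).erase p) _ hq1]
  have splitN : ∀ F : ι → ℕ, ∑ i, F i = F i0 + (F p + (F q + ∑ i ∈ s, F i)) := by
    intro F
    rw [← Finset.add_sum_erase Finset.univ _ (Finset.mem_univ i0),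
      ← Finset.add_sum_erase (Finset.univ.erase i0) _ hp1,
      ← Finset.add_sum_erase ((Finset.univ.erase i0).erase p) _ hq1]
  have splitQ : ∀ F : ι → ℚ, ∑ i, F i = F i0 + (F p + (F q + ∑ i ∈ s, F i)) := by
    intro F
    rw [← Finset.add_sum_erase Finset.univ _ (Finset.mem_univ i0),
      ← Finset.add_sum_erase (Finset.univ.erase i0) _ hp1,
      ← Finset.add_sum_erase ((Finset.univ.erase i0).erase p) _ hq1]
  have hbs : ∀ i ∈ s, b i = a i := by
    intro i hi
    simp only [hs, Finset.mem_erase, Finset.mem_univ, and_true] at hi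
    have := ha i
    rw [hz i hi.2.1 hi.1] at this
    omega
  have hsq := split (fun i => a i * a i)
  rw [haa] at hsq
  simp only [ha0, haq] at hsq
  have hsnn : 0 ≤ ∑ i ∈ s, a i * a i := Finset.sum_nonneg fun i _ => mul_self_nonneg _
  have hc : a p = 1 ∨ a p = 2 := by
    have h1 : 0 < a p := by nlinarith
    have h2 : a p < 3 := by nlinarith
    omega
  have hdq1 := hd q
  have hdq0 : (d q : ℚ) ≠ 0 := by exact_mod_cast hdq1.ne'
  have hnd := splitN (fun i => d i ^ 2)
  rw [hdd, hd0, hdpq'] at hnd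
  rcases hc with hc | hc
  · -- first sign
    left
    rw [hc] at haq hbp hsq
    rw [haq] at hbq
    have T3 : (n : ℚ) * ∑ i, (m i : ℚ) * ((a i : ℚ) * a i / d i) =
        ((n : ℚ) * ∑ i, (a i : ℚ) * a i * a i / d i - 162) / 3 := by
      rw [← T1, ← mul_sub, ← Finset.sum_sub_distrib, mul_div_assoc, Finset.sum_div]
      congr 1
      refine Finset.sum_congr rfl fun i _ => ?_
      have : (m i : ℚ) = (a i - b i) / 3 := by rw [ha]; push_cast; ring
      rw [this]; ring
    rw [sum_two m hpq hp hq hz, hdpq', hc, haq] at T3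
    have T4 : (n : ℚ) ≤ 9 * d q := by
      have : (n : ℚ) * (3 / d q) ≤ 27 := by
        have h1 : (n : ℚ) * (3 / d q) =
          - (n * (((1 : ℤ) : ℚ) * ((1 : ℤ) : ℚ) / d q - ((1 - 3 : ℤ) : ℚ) * ((1 - 3 : ℤ) : ℚ) / d q)) := by
          push_cast; field_simp; ring
        rw [h1, T3]
        linarith
      rw [mul_div_assoc', div_le_iff₀ (by positivity)] at this
      linarith
    have T5 : n ≤ 9 * d q := by exact_mod_cast T4
    have : d q ≤ 4 := by
      by_contra hcon
      push Not at hcon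
      have h0 : 0 ≤ ∑ i ∈ s, d i ^ 2 := Nat.zero_le _
      nlinarith
    omega
  · right
    rw [hc] at haq hbp hsq
    rw [haq] at hbq
    have h3 : ∑ i ∈ s, a i ^ 2 = 3 := by
      have : ∑ i ∈ s, a i ^ 2 = ∑ i ∈ s, a i * a i := Finset.sum_congr rfl fun i _ => sq _
      rw [this]; omega
    obtain ⟨i1, hi1, i2, hi2, i3, hi3, h21, h31, h32, s1, s2, s3, hrest⟩ := exists_three' a s h3
    have hi2' : i2 ∈ s.erase i1 := Finset.mem_erase.mpr ⟨h21, hi2⟩
    have hi3' : i3 ∈ (s.erase i1).erase i2 :=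
      Finset.mem_erase.mpr ⟨h32, Finset.mem_erase.mpr ⟨h31, hi3⟩⟩
    have hrest' : ∀ i ∈ ((s.erase i1).erase i2).erase i3, a i = 0 := by
      intro i hi
      simp only [Finset.mem_erase] at hi
      exact hrest i hi.2.2.2 hi.2.2.1 hi.2.1 hi.1
    have e1 : ∑ i ∈ s, a i * (d i : ℤ) = a i1 * d i1 + (a i2 * d i2 + a i3 * d i3) := by
      rw [← Finset.add_sum_erase s _ hi1, ← Finset.add_sum_erase (s.erase i1) _ hi2',
        ← Finset.add_sum_erase ((s.erase i1).erase i2) _ hi3',
        Finset.sum_eq_zero (fun i hi => by rw [hrest' i hi]; simp), add_zero]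
    have e2 : ∑ i ∈ s, (a i : ℚ) * a i * b i / d i =
        a i1 / d i1 + (a i2 / d i2 + a i3 / d i3) := by
      rw [← Finset.add_sum_erase s _ hi1, ← Finset.add_sum_erase (s.erase i1) _ hi2',
        ← Finset.add_sum_erase ((s.erase i1).erase i2) _ hi3',
        Finset.sum_eq_zero (fun i hi => by rw [hrest' i hi]; simp), add_zero,
        hbs i1 hi1, hbs i2 hi2, hbs i3 hi3]
      rcases s1 with h | h <;> rcases s2 with h' | h' <;> rcases s3 with h'' | h'' <;>
        (rw [h, h', h'']; norm_num)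
    have e3 : d i1 ^ 2 + (d i2 ^ 2 + d i3 ^ 2) ≤ ∑ i ∈ s, d i ^ 2 := by
      rw [← Finset.add_sum_erase s _ hi1, ← Finset.add_sum_erase (s.erase i1) _ hi2',
        ← Finset.add_sum_erase ((s.erase i1).erase i2) _ hi3']
      have : 0 ≤ ∑ i ∈ ((s.erase i1).erase i2).erase i3, d i ^ 2 := Nat.zero_le _
      omega
    have k1 := split (fun i => a i * (d i : ℤ))
    rw [had, e1] at k1
    simp only [ha0, hd0, hc, haq, hdpq'] at k1
    have k2 := T1
    rw [splitQ, e2, ha0, hb0, hd0, hc, haq, hdpq', hbp, hbq] at k2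
    have hne : ∀ i ∈ s, i ≠ i0 := by
      intro i hi
      simp only [hs, Finset.mem_erase, Finset.mem_univ, and_true] at hi
      exact hi.2.2
    have hlt : ∀ i ∈ s, 1 < d i := by
      intro i hi
      have h1 := hd i
      have h2 : d i ≠ 1 := fun h => hne i hi (hd1 i h)
      omega
    have h9' : ∀ i ∈ s, (9 : ℤ) ∣ (d i : ℤ) - a i := by
      intro i hi
      have := h9 i
      rw [hbs i hi] at this
      omega
    refine arith n (d q) (d i1) (d i2) (d i3) (a i1) (a i2) (a i3) s1 s2 s3 ?_ ?_ ?_ ?_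
      (h9' i1 hi1) (h9' i2 hi2) (h9' i3 hi3) (hlt i1 hi1) (hlt i2 hi2) (hlt i3 hi3)
    · rw [← k2]
      push_cast
      ring
    · push_cast at k1
      linarith
    · omega
    · have := h9 q
      rw [haq, hbq] at this
      omega

end Cfsg.Agent.H344.AltSixNum
end

-- part: H344/Triangle
section
/-!
# Finite quotients of the `(3,3,3)` triangle group

`tri`: let `x`, `y`, `x y` be elements of order three of a finite group in which the centralizers
of the elements of order three are elementary abelian 3-groups.  Then `x` and `y` commute, or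
`y` and `(x y)⁻¹` are conjugate to `x`.
-/

set_option autoImplicit false

namespace Cfsg.Agent.H344.Triangle

open Subgroup

variable {G : Type*} [Group G]

theorem cube (x : G) : x ^ 3 = x * x * x := by rw [pow_succ, pow_two]

theorem mul_self_of_cube {x : G} (hx : x ^ 3 = 1) : x * x = x⁻¹ := by
  rw [cube] at hx
  exact eq_inv_of_mul_eq_one_left hx

theorem inv_mul_inv_of_cube {x : G} (hx : x ^ 3 = 1) : x⁻¹ * x⁻¹ = x := by
  rw [← mul_inv_rev, mul_self_of_cube hx, inv_inv]

theorem comm12 {x y : G} (hx : x ^ 3 = 1) (hy : y ^ 3 = 1) (hxy : (x * y) ^ 3 = 1) :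
    (x * y⁻¹) * (x * (x * y⁻¹) * x⁻¹) = (x * (x * y⁻¹) * x⁻¹) * (x * y⁻¹) := by
  have hx' : x * x * x = 1 := by rw [← cube]; exact hx
  have hy' : y * y * y = 1 := by rw [← cube]; exact hy
  have hxy' : x * y * (x * y) * (x * y) = 1 := by rw [← cube]; exact hxy
  have e1 : x⁻¹ = x * x := (mul_self_of_cube hx).symm
  have e2 : y⁻¹ = y * y := (mul_self_of_cube hy).symm
  -- `y x y x y = x⁻¹`
  have e3 : y * x * y * x * y = x⁻¹ := by
    rw [eq_inv_iff_mul_eq_one]
    have : y * x * y * x * y * x = x⁻¹ * (x * y * (x * y) * (x * y)) * x := by group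
    rw [this, hxy']; group
  have e4 : y⁻¹ * x⁻¹ * y⁻¹ * x⁻¹ * y⁻¹ = x := by
    have := congrArg (fun z => z⁻¹) e3
    simp only [mul_inv_rev, inv_inv] at this
    simp only [mul_assoc] at this ⊢
    exact this
  set t1 := x * y⁻¹ with ht1
  set t2 := x * (x * y⁻¹) * x⁻¹ with ht2
  set t3 := y⁻¹ * x with ht3
  have h2 : t2 = x⁻¹ * y⁻¹ * x⁻¹ := by
    rw [ht2]
    have : x⁻¹ = x * x := e1
    calc x * (x * y⁻¹) * x⁻¹ = (x * x) * y⁻¹ * x⁻¹ := by group
      _ = _ := by rw [← e1]
  have h123 : t1 * t2 * t3 = 1 := by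
    rw [h2, ht1, ht3]
    calc x * y⁻¹ * (x⁻¹ * y⁻¹ * x⁻¹) * (y⁻¹ * x) = x * (y⁻¹ * x⁻¹ * y⁻¹ * x⁻¹ * y⁻¹) * x := by group
      _ = 1 := by rw [e4]; exact hx'
  have h321 : t3 * t2 * t1 = 1 := by
    rw [h2, ht1, ht3]
    calc y⁻¹ * x * (x⁻¹ * y⁻¹ * x⁻¹) * (x * y⁻¹) = (y * y * y)⁻¹ := by group
      _ = 1 := by rw [hy']; group
  -- `t1 t2 = t3⁻¹ = t2 t1`
  have a1 : t1 * t2 = t3⁻¹ := eq_inv_of_mul_eq_one_left h123
  have a2 : t2 * t1 = t3⁻¹ := by
    rw [mul_assoc] at h321
    exact eq_inv_of_mul_eq_one_right h321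
  rw [a1, a2]


theorem conj3 {x y : G} (hx : x ^ 3 = 1) :
    x * (x * (x * y⁻¹) * x⁻¹) * x⁻¹ = y⁻¹ * x := by
  have e : x * x = x⁻¹ := mul_self_of_cube hx
  calc x * (x * (x * y⁻¹) * x⁻¹) * x⁻¹ = (x * x) * x * y⁻¹ * (x * x)⁻¹ := by
        simp only [mul_inv_rev, mul_assoc]
    _ = _ := by rw [e]; group

variable [Finite G]

theorem tri (H : ∀ z : G, z ^ 3 = 1 → z ≠ 1 → ∀ a : G, a * z = z * a →
      a ^ 3 = 1 ∧ ∀ b : G, b * z = z * b → a * b = b * a)
    {x y : G} (hx : x ^ 3 = 1) (hy : y ^ 3 = 1) (hxy : (x * y) ^ 3 = 1) (hx1 : x ≠ 1) :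
    x * y = y * x ∨ (IsConj x y ∧ IsConj x (x * y)⁻¹) := by
  set t1 := x * y⁻¹ with ht1
  set t2 := x * (x * y⁻¹) * x⁻¹ with ht2
  have h12 : t1 * t2 = t2 * t1 := comm12 hx hy hxy
  set T : Subgroup G := closure {t1, t2} with hT
  have ht1T : t1 ∈ T := subset_closure (by simp)
  have ht2T : t2 ∈ T := subset_closure (by simp)
  have hTc : ∀ a ∈ T, ∀ b ∈ T, a * b = b * a := by
    have h : ∀ a ∈ ({t1, t2} : Set G), ∀ b ∈ ({t1, t2} : Set G), a * b = b * a := by
      intro a ha b hb
      simp only [Set.mem_insert_iff, Set.mem_singleton_iff] at ha hb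
      rcases ha with rfl | rfl <;> rcases hb with rfl | rfl
      · rfl
      · exact h12
      · exact h12.symm
      · rfl
    have h1 : ∀ a ∈ ({t1, t2} : Set G), ∀ b ∈ T, a * b = b * a := by
      intro a ha b hb
      have : b ∈ centralizer {a} := by
        refine (closure_le (K := centralizer {a})).mpr ?_ hb
        intro c hc
        rw [SetLike.mem_coe, mem_centralizer_singleton_iff]
        exact (h a ha c hc).symm
      rw [mem_centralizer_singleton_iff] at this
      exact this.symm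
    intro a ha b hb
    have : a ∈ centralizer {b} := by
      refine (closure_le (K := centralizer {b})).mpr ?_ ha
      intro c hc
      rw [SetLike.mem_coe, mem_centralizer_singleton_iff]
      exact h1 c hc b hb
    rw [mem_centralizer_singleton_iff] at this
    exact this
  have h3 : x * t2 * x⁻¹ = y⁻¹ * x := conj3 hx
  have h3' : x * t2 * x⁻¹ = (t1 * t2)⁻¹ := by
    rw [h3]
    have h4 : t2 * t1 = (y⁻¹ * x)⁻¹ := by
      rw [ht1, ht2]
      have e : x * x = x⁻¹ := mul_self_of_cube hx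
      have e2 : y⁻¹ * y⁻¹ = y := inv_mul_inv_of_cube hy
      calc x * (x * y⁻¹) * x⁻¹ * (x * y⁻¹) = (x * x) * (y⁻¹ * y⁻¹) := by group
        _ = _ := by rw [e, e2]; group
    rw [h12, h4, inv_inv]
  have hconj : ∀ a ∈ T, x * a * x⁻¹ ∈ T := by
    intro a ha
    have : T ≤ T.comap (MulAut.conj x).toMonoidHom := by
      conv_lhs => rw [hT]
      rw [closure_le]
      intro c hc
      simp only [Set.mem_insert_iff, Set.mem_singleton_iff] at hc
      rw [SetLike.mem_coe, mem_comap]
      show x * c * x⁻¹ ∈ T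
      rcases hc with rfl | rfl
      · exact ht2T
      · rw [h3']; exact inv_mem (mul_mem ht1T ht2T)
    exact this ha
  by_cases hz : ∃ z ∈ T, z ≠ 1 ∧ z ^ 3 = 1
  · left
    obtain ⟨z, hzT, hz1, hz3⟩ := hz
    have hw : ∃ w ∈ T, w ≠ 1 ∧ w ^ 3 = 1 ∧ x * w = w * x := by
      set z' := x * z * x⁻¹ with hz'
      set z'' := x * z' * x⁻¹ with hz''
      have hz'T : z' ∈ T := hconj z hzT
      have hz''T : z'' ∈ T := hconj z' hz'T
      have c1 : z * z' = z' * z := hTc z hzT z' hz'T
      have c2 : z * z'' = z'' * z := hTc z hzT z'' hz''T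
      have c3 : z' * z'' = z'' * z' := hTc z' hz'T z'' hz''T
      have hz'3 : z' ^ 3 = 1 := by rw [hz', conj_pow, hz3]; group
      have hz''3 : z'' ^ 3 = 1 := by rw [hz'', conj_pow, hz'3]; group
      have hzzz : x * z'' * x⁻¹ = z := by
        rw [hz'', hz']
        calc x * (x * (x * z * x⁻¹) * x⁻¹) * x⁻¹ = x ^ 3 * z * (x ^ 3)⁻¹ := by
              rw [cube]; simp only [mul_inv_rev, mul_assoc]
          _ = z := by rw [hx]; group
      by_cases hp : z * z' * z'' = 1
      · have e1 : z'' = (z * z')⁻¹ := (eq_inv_of_mul_eq_one_right hp)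
        by_cases hw : z⁻¹ * z' = 1
        · refine ⟨z, hzT, hz1, hz3, ?_⟩
          have : z' = z := by rw [inv_mul_eq_one] at hw; exact hw.symm
          rw [hz', mul_inv_eq_iff_eq_mul] at this
          exact this
        · refine ⟨z⁻¹ * z', mul_mem (inv_mem hzT) hz'T, hw, ?_, ?_⟩
          · have : Commute z⁻¹ z' := (Commute.inv_left c1)
            rw [this.mul_pow, inv_pow, hz3, hz'3]; simp
          · have e2 : x * (z⁻¹ * z') * x⁻¹ = z'⁻¹ * z'' := by
              rw [hz'', hz']; group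
            have e3 : z'⁻¹ * z'' = z⁻¹ * z' := by
              have h5 : z'⁻¹ * z'⁻¹ = z' := inv_mul_inv_of_cube hz'3
              calc z'⁻¹ * z'' = z'⁻¹ * (z'⁻¹ * z⁻¹) := by rw [e1, mul_inv_rev z z']
                _ = z'⁻¹ * z'⁻¹ * z⁻¹ := by rw [mul_assoc]
                _ = z' * z⁻¹ := by rw [h5]
                _ = z⁻¹ * z' := ((Commute.inv_left c1 : Commute z⁻¹ z').eq).symm
            rw [e3, mul_inv_eq_iff_eq_mul] at e2
            exact e2
      · refine ⟨z * z' * z'', mul_mem (mul_mem hzT hz'T) hz''T, hp, ?_, ?_⟩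
        · have k1 : Commute z z' := c1
          have k2 : Commute (z * z') z'' := Commute.mul_left c2 c3
          rw [k2.mul_pow, k1.mul_pow, hz3, hz'3, hz''3]; simp
        · have e2 : x * (z * z' * z'') * x⁻¹ = z * z' * z'' := by
            calc x * (z * z' * z'') * x⁻¹ = (x * z * x⁻¹) * (x * z' * x⁻¹) * (x * z'' * x⁻¹) := by group
              _ = z' * z'' * z := by rw [hzzz]
              _ = z' * (z * z'') := by rw [mul_assoc, c2]
              _ = z * z' * z'' := by rw [← mul_assoc, c1]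
          rw [mul_inv_eq_iff_eq_mul] at e2
          exact e2
    obtain ⟨w, hwT, hw1, hw3, hxw⟩ := hw
    have h5 := (H w hw3 hw1 x hxw).2 t1 (hTc t1 ht1T w hwT)
    -- `x` commutes with `x y⁻¹`
    rw [ht1, ← mul_assoc] at h5
    have h6 : x * y⁻¹ = y⁻¹ * x := by
      have : x * (x * y⁻¹) = x * (y⁻¹ * x) := by
        rw [← mul_assoc, h5]; group
      exact mul_left_cancel this
    have : Commute x y⁻¹ := h6
    exact (Commute.inv_right_iff.mp this).eq
  · right
    push Not at hz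
    have hfix : ∀ a ∈ T, a * x = x * a → a = 1 := by
      intro a ha hax
      by_contra h1
      exact hz a ha h1 (H x hx hx1 a hax).1
    let f : T → T := fun t => ⟨t * (x * t⁻¹ * x⁻¹), mul_mem t.2 (hconj _ (inv_mem t.2))⟩
    have hinj : Function.Injective f := by
      intro s t hst
      have h5 : (s : G) * (x * (s : G)⁻¹ * x⁻¹) = t * (x * (t : G)⁻¹ * x⁻¹) :=
        congrArg Subtype.val hst
      have h6 : (t : G)⁻¹ * s * x = x * ((t : G)⁻¹ * s) := by
        have k1 : (x * (t : G)⁻¹ * x⁻¹) * (x * (s : G) * x⁻¹) = (x * (s : G) * x⁻¹) * (x * (t : G)⁻¹ * x⁻¹) :=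
          hTc _ (hconj _ (inv_mem t.2)) _ (hconj _ s.2)
        have k2 : (t : G)⁻¹ * s = (x * (t : G)⁻¹ * x⁻¹) * (x * (s : G) * x⁻¹) := by
          calc (t : G)⁻¹ * s = (t : G)⁻¹ * ((s : G) * (x * (s : G)⁻¹ * x⁻¹)) * (x * (s : G) * x⁻¹) := by group
            _ = (t : G)⁻¹ * (t * (x * (t : G)⁻¹ * x⁻¹)) * (x * (s : G) * x⁻¹) := by rw [h5]
            _ = _ := by group
        have k3 : (t : G)⁻¹ * s = x * ((t : G)⁻¹ * s) * x⁻¹ := by
          conv_lhs => rw [k2]
          group
        rw [eq_mul_inv_iff_mul_eq] at k3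
        exact k3
      have h7 := hfix _ (mul_mem (inv_mem t.2) s.2) h6
      rw [inv_mul_eq_one] at h7
      exact Subtype.ext h7.symm
    have hsurj : Function.Surjective f := Finite.surjective_of_injective hinj
    have hco : ∀ τ ∈ T, IsConj x (τ * x) := by
      intro τ hτ
      obtain ⟨t, ht⟩ := hsurj ⟨τ, hτ⟩
      have h5 : (t : G) * (x * (t : G)⁻¹ * x⁻¹) = τ := congrArg Subtype.val ht
      rw [isConj_iff]
      refine ⟨t, ?_⟩
      rw [← h5]; group
    constructor
    · have h5 := hco t1⁻¹ (inv_mem ht1T)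
      have : t1⁻¹ * x = y := by rw [ht1]; group
      rwa [this] at h5
    · have h5 := hco (x * t2 * x⁻¹) (hconj _ ht2T)
      rw [h3] at h5
      have : y⁻¹ * x * x = (x * y)⁻¹ := by
        have e : x * x = x⁻¹ := mul_self_of_cube hx
        rw [mul_assoc, e]; group
      rwa [this] at h5

end Cfsg.Agent.H344.Triangle
end

-- part: H344/AltSix
section
/-!
# The characterization of `Alt(6)` by its elements of order three: group theory
-/

set_option autoImplicit false

namespace Cfsg.Agent.H344.AltSix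

open Cfsg Cfsg.Agent.Characters.Core Cfsg.Agent.S0848 Cfsg.Agent.BenderW3.TIGram
open Cfsg.Agent.H344.AltSixNum Cfsg.Agent.H344.Triangle Cfsg.Agent.Characters.ClassMul
open scoped ComplexConjugate

universe u

variable {G : Type u} [Group G] [Finite G]

omit [Finite G] in
/-- The value of an irreducible character at a real element of order three. -/
theorem value3 {χ : G → ℂ} (hχ : IsIrrCharacter G χ) (x : G) (hx : x ^ 3 = 1)
    (hinv : IsConj x x⁻¹) :
    ∃ (d : ℕ) (a : ℤ), χ 1 = d ∧ χ x = a ∧ (3 : ℤ) ∣ (d : ℤ) - a := by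
  have hreal : χ (x ^ 2) = χ x := by
    have h1 : x ^ 2 = x⁻¹ := by rw [pow_two]; exact mul_self_of_cube hx
    obtain ⟨g, hg⟩ := isConj_iff.mp hinv
    rw [h1, ← hg]
    exact isIrr_isClassFunction hχ x g
  obtain ⟨n, ρ, hρ, rfl⟩ := hχ
  have hζ := Complex.isPrimitiveRoot_exp 3 (by norm_num)
  obtain ⟨e, he⟩ := Characters.Galois.exists_nat_coeffs ρ x (n := 3) (by norm_num) hx hζ
  set ζ := Complex.exp (2 * Real.pi * Complex.I / (3 : ℕ)) with hζdef
  have h0 := he 0
  have h1 := he 1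
  have h2 := he 2
  simp only [Finset.sum_range_succ, Finset.sum_range_zero, pow_zero, mul_zero, mul_one, zero_add,
    zero_mul, pow_one, one_mul] at h0 h1 h2
  have hz3 : ζ ^ 3 = 1 := hζ.pow_eq_one
  have hz4 : ζ ^ (2 * 2) = ζ := by rw [show 2 * 2 = 3 + 1 by norm_num, pow_add, hz3]; ring
  have hne : ζ ≠ 1 := hζ.ne_one (by norm_num)
  have hz0 : ζ ≠ 0 := hζ.ne_zero (by norm_num)
  have hsum : ζ ^ 2 = -1 - ζ := by
    have : (ζ - 1) * (ζ ^ 2 + ζ + 1) = 0 := by linear_combination hz3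
    rcases mul_eq_zero.mp this with h | h
    · exact absurd (sub_eq_zero.mp h) hne
    · linear_combination h
  rw [hz4] at h2
  rw [h1, h2] at hreal
  have h12 : (e 1 : ℂ) = e 2 := by
    have : ((e 1 : ℂ) - e 2) * (ζ * (ζ - 1)) = 0 := by linear_combination hreal
    rcases mul_eq_zero.mp this with h | h
    · exact sub_eq_zero.mp h
    · rcases mul_eq_zero.mp h with h | h
      · exact absurd h hz0
      · exact absurd (sub_eq_zero.mp h) hne
  have h12' : e 1 = e 2 := by exact_mod_cast h12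
  refine ⟨e 0 + e 1 + e 2, (e 0 : ℤ) - e 1, ?_, ?_, ?_⟩
  · rw [h0]; push_cast; ring
  · rw [h1, ← h12', hsum]; push_cast; ring
  · rw [h12']; push_cast; omega

/-- The sum of the values of a character over a subgroup is a multiple of its order. -/
theorem exists_sum (S : Subgroup G) {χ : G → ℂ} (hχ : IsCharacter G χ) [Fintype S] :
    ∃ k : ℕ, ∑ s : S, χ s = (Nat.card S : ℂ) * k := by
  obtain ⟨k, hk⟩ := classInner_isNat (isCharacter_comp S.subtype hχ) (isCharacter_one (G := S))
  refine ⟨k, ?_⟩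
  rw [classInner_def] at hk
  rw [← hk]
  have hne : (Nat.card S : ℂ) ≠ 0 := by exact_mod_cast Nat.card_pos.ne'
  simp only [Pi.one_apply, map_one, mul_one]
  rw [← mul_assoc, mul_inv_cancel₀ hne, one_mul]
  rfl

/-! ### Semiregular groups of automorphisms of a group of order nine -/

section auto

variable {K : Type*} [Group K] [Finite K] (A : Subgroup (MulAut K))

theorem card_dvd (hA : ∀ s ∈ A, ∀ u : K, u ≠ 1 → s u = u → s = 1) :
    Nat.card A ∣ Nat.card K - 1 := by
  classical
  have : Fintype K := Fintype.ofFinite K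
  have : Finite (MulAut K) := inferInstance
  have : Fintype A := Fintype.ofFinite _
  let act : MulAction A {k : K // k ≠ 1} :=
    { smul := fun a k => ⟨(a : MulAut K) k, fun h => k.2 (by
        have := congrArg ((a : MulAut K)⁻¹) h
        simpa using this)⟩
      one_smul := fun k => rfl
      mul_smul := fun a b k => rfl }
  have h1 := MulAction.card_eq_sum_card_group_div_card_stabilizer A {k : K // k ≠ 1}
  have h2 : ∀ ω : MulAction.orbitRel.Quotient A {k : K // k ≠ 1},
      Fintype.card A / Fintype.card (MulAction.stabilizer A ω.out) = Fintype.card A := by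
    intro ω
    have : MulAction.stabilizer A ω.out = ⊥ := by
      rw [eq_bot_iff]
      intro a ha
      rw [MulAction.mem_stabilizer_iff] at ha
      have h3 : (a : MulAut K) (ω.out : {k : K // k ≠ 1}) = (ω.out : {k : K // k ≠ 1}) :=
        congrArg Subtype.val ha
      exact Subtype.ext (hA a a.2 _ (ω.out : {k : K // k ≠ 1}).2 h3)
    rw [← Nat.card_eq_fintype_card (α := MulAction.stabilizer A ω.out), this,
      Subgroup.card_bot, Nat.div_one]
  rw [Finset.sum_congr rfl (fun ω _ => h2 ω), Finset.sum_const, smul_eq_mul] at h1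
  have h3 : Fintype.card {k : K // k ≠ 1} = Nat.card K - 1 := by
    rw [Fintype.card_subtype_compl, Nat.card_eq_fintype_card]
    simp
  rw [← h3, h1, Nat.card_eq_fintype_card]
  exact dvd_mul_left _ _

variable {A}

omit [Finite K] in
theorem inv_of_sq (hab : ∀ x y : K, x * y = y * x)
    (hA : ∀ s ∈ A, ∀ u : K, u ≠ 1 → s u = u → s = 1)
    {s : MulAut K} (hs : s ∈ A) (h1 : s ≠ 1) (h2 : s * s = 1) (u : K) : s u = u⁻¹ := by
  have h3 : s (u * s u) = u * s u := by
    rw [map_mul, ← MulAut.mul_apply, h2, MulAut.one_apply, hab]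
  by_contra h
  have h4 : u * s u ≠ 1 := fun h5 => h (eq_inv_of_mul_eq_one_right h5)
  exact h1 (hA s hs _ h4 h3)

end auto

/-! ### The hypothesis -/

/-- `S` is elementary abelian of order nine, self-centralizing in the strong sense, and contains
conjugates of all elements of order three. -/
structure Hyp (S : Subgroup G) : Prop where
  cent : ∀ k ∈ S, k ≠ 1 → Subgroup.centralizer {k} = S
  card : Nat.card S = 9
  exp : ∀ a ∈ S, a ^ 3 = 1
  all : ∀ z : G, z ^ 3 = 1 → z ≠ 1 → ∃ g : G, g * z * g⁻¹ ∈ S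

variable {S : Subgroup G}

omit [Finite G] in
theorem Hyp.comm (h : Hyp S) {a b : G} (ha : a ∈ S) (hb : b ∈ S) : a * b = b * a :=
  congrArg Subtype.val (comm_of h.cent ⟨a, ha⟩ ⟨b, hb⟩)

omit [Finite G] in
theorem Hyp.mem_of_comm (h : Hyp S) {a z : G} (hz : z ∈ S) (hz1 : z ≠ 1) (haz : a * z = z * a) :
    a ∈ S := by
  rw [← h.cent z hz hz1, Subgroup.mem_centralizer_singleton_iff]
  exact haz

omit [Finite G] in
theorem Hyp.H (h : Hyp S) : ∀ z : G, z ^ 3 = 1 → z ≠ 1 → ∀ a : G, a * z = z * a →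
      a ^ 3 = 1 ∧ ∀ b : G, b * z = z * b → a * b = b * a := by
  intro z hz hz1 a ha
  obtain ⟨g, hg⟩ := h.all z hz hz1
  have hg1 : g * z * g⁻¹ ≠ 1 := by
    intro h1
    apply hz1
    have : z = g⁻¹ * (g * z * g⁻¹) * g := by group
    rw [this, h1]; group
  have key : ∀ c : G, c * z = z * c → g * c * g⁻¹ ∈ S := by
    intro c hc
    apply h.mem_of_comm hg hg1
    calc g * c * g⁻¹ * (g * z * g⁻¹) = g * (c * z) * g⁻¹ := by group
      _ = g * (z * c) * g⁻¹ := by rw [hc]
      _ = _ := by group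
  constructor
  · have h1 := h.exp _ (key a ha)
    rw [conj_pow, mul_inv_eq_one] at h1
    have h2 : a ^ 3 = g⁻¹ * (g * a ^ 3) := by group
    rw [h2, h1]; group
  · intro b hb
    have h1 := h.comm (key a ha) (key b hb)
    have h2 : g * (a * b) * g⁻¹ = g * (b * a) * g⁻¹ := by
      calc g * (a * b) * g⁻¹ = g * a * g⁻¹ * (g * b * g⁻¹) := by group
        _ = g * b * g⁻¹ * (g * a * g⁻¹) := h1
        _ = _ := by group
    exact mul_left_cancel (mul_right_cancel h2)

/-- Pairs of elements of order three whose product is an element of `S`. -/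
theorem Hyp.pair (h : Hyp S) {u v z : G} (hz : z ∈ S) (hz1 : z ≠ 1) (hu : u ^ 3 = 1) (hu1 : u ≠ 1)
    (hv : v ^ 3 = 1) (huv : u * v = z) : (u ∈ S ∧ v ∈ S) ∨ (IsConj u v ∧ IsConj u z⁻¹) := by
  rcases tri h.H hu hv (by rw [huv]; exact h.exp z hz) hu1 with h1 | h1
  · left
    constructor
    · apply h.mem_of_comm hz hz1
      rw [← huv, mul_assoc, ← h1]
    · apply h.mem_of_comm hz hz1
      rw [← huv, ← mul_assoc, ← h1]
  · rw [huv] at h1
    exact Or.inr h1

/-- conversion of class multiplication constants into rational sums. -/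
theorem T_eq [Fintype (IrrCharacter G)] (x y z : G) (a b c : IrrCharacter G → ℤ)
    (d : IrrCharacter G → ℕ) (hd : ∀ χ : IrrCharacter G, (χ : G → ℂ) 1 = d χ)
    (ha : ∀ χ : IrrCharacter G, (χ : G → ℂ) x = a χ)
    (hb : ∀ χ : IrrCharacter G, (χ : G → ℂ) y = b χ)
    (hc : ∀ χ : IrrCharacter G, (χ : G → ℂ) z = c χ)
    (hcx : Nat.card (Subgroup.centralizer ({x} : Set G)) = 9)
    (hcy : Nat.card (Subgroup.centralizer ({y} : Set G)) = 9) :
    (Nat.card G : ℚ) * ∑ χ, (a χ : ℚ) * b χ * c χ / d χ =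
      81 * (Nat.card {p : G × G // IsConj x p.1 ∧ IsConj y p.2 ∧ p.1 * p.2 = z} : ℚ) := by
  have h1 := card_conj_mul_conj x y z
  rw [card_conj_mul_conj_eq, hcx, hcy] at h1
  simp only [hd, ha, hb, hc, map_intCast] at h1
  have h2 : (((Nat.card G : ℚ) * ∑ χ, (a χ : ℚ) * b χ * c χ / d χ : ℚ) : ℂ) =
      ((81 * (Nat.card {p : G × G // IsConj x p.1 ∧ IsConj y p.2 ∧ p.1 * p.2 = z} : ℚ) : ℚ) : ℂ) := by
    push_cast
    rw [← h1]
    push_cast
    ring
  exact_mod_cast h2

theorem orth [Fintype (IrrCharacter G)] (x y : G) (a b : IrrCharacter G → ℤ)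
    (ha : ∀ χ : IrrCharacter G, (χ : G → ℂ) x = a χ)
    (hb : ∀ χ : IrrCharacter G, (χ : G → ℂ) y = b χ) :
    ∑ χ, a χ * b χ = Nat.card {g : G // g * x * g⁻¹ = y} := by
  have h := column_orth x y
  simp only [ha, hb, map_intCast] at h
  exact_mod_cast h.symm

omit [Finite G] in
theorem cube_of_conj {x y : G} (h : IsConj x y) (hx : x ^ 3 = 1) : y ^ 3 = 1 := by
  obtain ⟨g, rfl⟩ := isConj_iff.mp h
  rw [conj_pow, hx]; group

omit [Finite G] in
theorem ne_one_of_conj {x y : G} (h : IsConj x y) (hx : x ≠ 1) : y ≠ 1 := by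
  rintro rfl
  exact hx (isConj_one_left.mp h)

theorem sum_degree_sq [Fintype (IrrCharacter G)] (d : IrrCharacter G → ℕ)
    (hd : ∀ χ : IrrCharacter G, (χ : G → ℂ) 1 = d χ) : ∑ χ, d χ ^ 2 = Nat.card G := by
  have h := column_orth (1 : G) 1
  have h1 : Nat.card {a : G // a * 1 * a⁻¹ = 1} = Nat.card G :=
    Nat.card_congr (Equiv.subtypeUnivEquiv (by intro a; group))
  rw [h1] at h
  simp only [hd, Complex.conj_natCast] at h
  have h2 : Nat.card G = ∑ χ, d χ * d χ := by exact_mod_cast h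
  rw [h2]
  exact Finset.sum_congr rfl fun χ _ => sq _

/-- The case where elements of `S` are conjugate only to their inverses. -/
theorem Hyp.case_two (h : Hyp S) (hf : ∀ u ∈ S, ∀ v ∈ S, IsConj u v ↔ (v = u ∨ v = u⁻¹)) :
    Nat.card G ≤ 36 := by
  classical
  have hfin : Finite (IrrCharacter G) := finite_irr
  have := Fintype.ofFinite (IrrCharacter G)
  -- the elements
  have hex : ∃ e ∈ S, e ≠ 1 := by
    by_contra hcon
    push Not at hcon
    have : S = ⊥ := by rw [eq_bot_iff]; intro s hs; exact hcon s hs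
    have h9 := h.card
    rw [this, Subgroup.card_bot] at h9
    omega
  obtain ⟨e, he, he1⟩ := hex
  have hex2 : ∃ f ∈ S, f ≠ 1 ∧ f ≠ e ∧ f ≠ e⁻¹ := by
    by_contra hcon
    push Not at hcon
    have h1 : (S : Set G) ⊆ {1, e, e⁻¹} := by
      intro s hs
      simp only [Set.mem_insert_iff, Set.mem_singleton_iff]
      by_cases h1 : s = 1
      · exact Or.inl h1
      · by_cases h2 : s = e
        · exact Or.inr (Or.inl h2)
        · exact Or.inr (Or.inr (hcon s hs h1 h2))
    have h2 := Set.ncard_le_ncard h1 (Set.toFinite _)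
    have h3 : ({1, e, e⁻¹} : Set G).ncard ≤ 3 := by
      have k1 := Set.ncard_insert_le (1 : G) {e, e⁻¹}
      have k2 := Set.ncard_insert_le e {e⁻¹}
      rw [Set.ncard_singleton] at k2
      omega
    have h4 : (S : Set G).ncard = 9 := by
      rw [← Nat.card_coe_set_eq]; exact h.card
    omega
  obtain ⟨f, hfS, hf1, hfe, hfe'⟩ := hex2
  have he3 := h.exp e he
  have hf3 := h.exp f hfS
  have eff : f * f = f⁻¹ := mul_self_of_cube hf3
  have eee : e * e = e⁻¹ := mul_self_of_cube he3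
  have hcef : e * f = f * e := h.comm he hfS
  have hefS : e * f ∈ S := mul_mem he hfS
  have hef1 : e * f ≠ 1 := fun h1 => hfe' (eq_inv_of_mul_eq_one_right h1)
  have n1 : e * f ≠ e := fun h1 => hf1 (mul_eq_left.mp h1)
  have n2 : e * f ≠ f := fun h1 => he1 (mul_eq_right.mp h1)
  have n3 : e * f ≠ e⁻¹ := by
    rw [← eee]; intro h1; exact hfe (mul_left_cancel h1)
  have n4 : e * f ≠ f⁻¹ := by
    rw [← eff]; intro h1; exact hfe (mul_right_cancel h1).symm
  have nfe : ¬ IsConj e f := by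
    rw [hf e he f hfS]; push Not; exact ⟨hfe, hfe'⟩
  have nefe : ¬ IsConj e (e * f) := by
    rw [hf e he _ hefS]; push Not; exact ⟨n1, n3⟩
  have neff : ¬ IsConj f (e * f) := by
    rw [hf f hfS _ hefS]; push Not; exact ⟨n2, n4⟩
  have hval : ∀ χ : IrrCharacter G, ∃ (d : ℕ) (a b c : ℤ), 0 < d ∧ (χ : G → ℂ) 1 = d ∧
      (χ : G → ℂ) e = a ∧ (χ : G → ℂ) f = b ∧ (χ : G → ℂ) (e * f) = c ∧ (3 : ℤ) ∣ b - a := by
    intro χ
    obtain ⟨d0, hd0, hd0'⟩ := isIrr_apply_one χ.2
    obtain ⟨d, a, hd, ha, hda⟩ := value3 χ.2 e he3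
      ((hf e he _ (inv_mem he)).mpr (Or.inr rfl))
    obtain ⟨d', b, hd', hb, hdb⟩ := value3 χ.2 f hf3
      ((hf f hfS _ (inv_mem hfS)).mpr (Or.inr rfl))
    obtain ⟨d'', c, -, hc, -⟩ := value3 χ.2 (e * f) (h.exp _ hefS)
      ((hf _ hefS _ (inv_mem hefS)).mpr (Or.inr rfl))
    have h1 : d = d0 := by
      have : (d : ℂ) = d0 := by rw [← hd, ← hd0']
      exact_mod_cast this
    have h2 : d' = d0 := by
      have : (d' : ℂ) = d0 := by rw [← hd', ← hd0']
      exact_mod_cast this
    refine ⟨d0, a, b, c, hd0, hd0', ha, hb, hc, ?_⟩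
    rw [h1] at hda
    rw [h2] at hdb
    omega
  choose d a b c hd hχ1 hχe hχf hχef hdiv using hval
  have hχ1' : ∀ χ : IrrCharacter G, (χ : G → ℂ) 1 = ((d χ : ℤ) : ℂ) := fun χ => by
    rw [hχ1]; norm_cast
  set i0 : IrrCharacter G := ⟨1, isIrr_one⟩ with hi0
  have a0 : a i0 = 1 := by
    have : (1 : ℂ) = a i0 := hχe i0
    exact_mod_cast this.symm
  have b0 : b i0 = 1 := by
    have : (1 : ℂ) = b i0 := hχf i0
    exact_mod_cast this.symm
  have d0 : d i0 = 1 := by
    have : (1 : ℂ) = d i0 := hχ1 i0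
    exact_mod_cast this.symm
  have cent9 : ∀ z ∈ S, z ≠ 1 → Nat.card (Subgroup.centralizer ({z} : Set G)) = 9 := by
    intro z hz hz1
    rw [h.cent z hz hz1, h.card]
  have self9 : ∀ z ∈ S, z ≠ 1 → (Nat.card {g : G // g * z * g⁻¹ = z} : ℤ) = 9 := by
    intro z hz hz1
    rw [card_fiber_conj z z (IsConj.refl z), cent9 z hz hz1]
    norm_num
  have zero : ∀ x y : G, ¬ IsConj x y → (Nat.card {g : G // g * x * g⁻¹ = y} : ℤ) = 0 := by
    intro x y hxy
    rw [card_eq_zero_of_not_conj x y hxy]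
    norm_num
  have nc1 : ∀ z : G, z ≠ 1 → ¬ IsConj z 1 := fun z hz hc => hz (isConj_one_left.mp hc)
  -- the two counts
  have hinv : ∀ z ∈ S, ∀ w : G, IsConj z w → w ^ 3 = 1 := fun z hz w hw =>
    cube_of_conj hw (h.exp z hz)
  have N1 : Nat.card {p : G × G // IsConj e p.1 ∧ IsConj f p.2 ∧ p.1 * p.2 = e * f} = 1 := by
    rw [Nat.card_eq_one_iff_exists]
    refine ⟨⟨(e, f), IsConj.refl e, IsConj.refl f, rfl⟩, ?_⟩
    rintro ⟨⟨u, v⟩, hu, hv, huv⟩
    simp only at hu hv huv
    rcases h.pair hefS hef1 (hinv e he u hu) (ne_one_of_conj hu he1) (hinv f hfS v hv) huv with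
      ⟨huS, hvS⟩ | ⟨h1, h2⟩
    · rcases (hf e he u huS).mp hu with rfl | rfl
      · have : v = f := mul_left_cancel huv
        subst this
        rfl
      · exfalso
        have h3 : v = e⁻¹ * f := by
          have : v = e * (e * f) := by rw [← huv]; group
          rw [this, ← mul_assoc, eee]
        rcases (hf f hfS v hvS).mp hv with h4 | h4
        · rw [h4] at h3
          have : e = 1 := by
            have h5 := mul_eq_right.mp h3.symm
            exact inv_eq_one.mp h5
          exact he1 this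
        · rw [h4] at h3
          have h5 : e * f⁻¹ = f := by
            have : f⁻¹ = e⁻¹ * f := h3
            rw [this, mul_inv_cancel_left]
          have : e = f * f := mul_inv_eq_iff_eq_mul.mp h5
          rw [eff] at this
          exact hfe' (by rw [this, inv_inv])
    · exfalso
      exact nfe (hu.trans (h1.trans hv.symm))
  have N2 : Nat.card {p : G × G // IsConj e p.1 ∧ IsConj e p.2 ∧ p.1 * p.2 = e * f} = 0 := by
    have : IsEmpty {p : G × G // IsConj e p.1 ∧ IsConj e p.2 ∧ p.1 * p.2 = e * f} := by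
      constructor
      rintro ⟨⟨u, v⟩, hu, hv, huv⟩
      simp only at hu hv huv
      rcases h.pair hefS hef1 (hinv e he u hu) (ne_one_of_conj hu he1) (hinv e he v hv) huv with
        ⟨huS, hvS⟩ | ⟨h1, h2⟩
      · rcases (hf e he u huS).mp hu with hu' | hu' <;>
          rcases (hf e he v hvS).mp hv with hv' | hv' <;> rw [hu', hv'] at huv
        · exact hfe (mul_left_cancel huv).symm
        · rw [mul_inv_cancel] at huv; exact hef1 huv.symm
        · rw [inv_mul_cancel] at huv; exact hef1 huv.symm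
        · rw [inv_mul_inv_of_cube he3] at huv; exact n1 huv.symm
      · have h3 := hu.trans h2
        rw [hf e he _ (inv_mem hefS)] at h3
        rcases h3 with h3 | h3
        · exact n3 (inv_eq_iff_eq_inv.mp h3)
        · exact n1 (inv_injective h3)
    exact Nat.card_of_isEmpty
  refine num_two (Nat.card G) a b c d i0 hd hdiv ?_ ?_ ?_ ?_ ?_ ?_ ?_ (sum_degree_sq d hχ1) a0 b0 d0
    ?_ ?_
  · rw [orth e e a a hχe hχe, self9 e he he1]
  · rw [orth f f b b hχf hχf, self9 f hfS hf1]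
  · rw [orth e f a b hχe hχf, zero e f nfe]
  · rw [orth e (e * f) a c hχe hχef, zero _ _ nefe]
  · rw [orth f (e * f) b c hχf hχef, zero _ _ neff]
  · rw [orth e 1 a (fun χ => (d χ : ℤ)) hχe hχ1', zero _ _ (nc1 e he1)]
  · rw [orth f 1 b (fun χ => (d χ : ℤ)) hχf hχ1', zero _ _ (nc1 f hf1)]
  · rw [T_eq e f (e * f) a b c d hχ1 hχe hχf hχef (cent9 e he he1) (cent9 f hfS hf1), N1]
    norm_num
  · rw [T_eq e e (e * f) a a c d hχ1 hχe hχe hχef (cent9 e he he1) (cent9 e he he1), N2]
    norm_num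

omit [Finite G] in
/-- orbits of an element of order four whose square inverts `S`. -/
theorem orbit_four (h : Hyp S) (n : G) (hn2 : ∀ s ∈ S, n * (n * s * n⁻¹) * n⁻¹ = s⁻¹)
    {u : G} (hu : u ∈ S) (hu1 : u ≠ 1) :
    u ≠ u⁻¹ ∧ n * u * n⁻¹ ≠ 1 ∧ n * u * n⁻¹ ≠ u ∧ n * u * n⁻¹ ≠ u⁻¹ := by
  have h1 : u ≠ u⁻¹ := by
    intro h2
    rw [← mul_self_of_cube (h.exp u hu)] at h2
    exact hu1 (mul_eq_left.mp h2.symm)
  refine ⟨h1, ?_, ?_, ?_⟩
  · intro h2
    apply hu1
    have : u = n⁻¹ * (n * u * n⁻¹) * n := by group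
    rw [this, h2]; group
  · intro h2
    have h3 := hn2 u hu
    rw [h2, h2] at h3
    exact h1 h3
  · intro h2
    have h3 := hn2 u hu
    have h4 : n * u⁻¹ * n⁻¹ = (n * u * n⁻¹)⁻¹ := by group
    rw [h2, h4, h2, inv_inv] at h3
    exact h1 h3

/-- The case where there are two classes of elements of order three. -/
theorem Hyp.case_four (h : Hyp S) (n : G) (hnS : ∀ s ∈ S, n * s * n⁻¹ ∈ S)
    (hn2 : ∀ s ∈ S, n * (n * s * n⁻¹) * n⁻¹ = s⁻¹)
    (hf : ∀ u ∈ S, ∀ v ∈ S,
      IsConj u v ↔ (v = u ∨ v = u⁻¹ ∨ v = n * u * n⁻¹ ∨ v = (n * u * n⁻¹)⁻¹))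
    (hlin : ∀ χ : IrrCharacter G, (χ : G → ℂ) 1 = 1 → χ = ⟨1, isIrr_one⟩) :
    Nat.card G ≤ 36 ∨ Nat.card G = 360 := by
  classical
  have hfin : Finite (IrrCharacter G) := finite_irr
  have := Fintype.ofFinite (IrrCharacter G)
  have : Fintype G := Fintype.ofFinite G
  -- the elements
  have hex : ∃ e ∈ S, e ≠ 1 := by
    by_contra hcon
    push Not at hcon
    have : S = ⊥ := by rw [eq_bot_iff]; intro s hs; exact hcon s hs
    have h9 := h.card
    rw [this, Subgroup.card_bot] at h9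
    omega
  obtain ⟨e, he, he1⟩ := hex
  obtain ⟨hee', hf1, hfe, hfe'⟩ := orbit_four h n hn2 he he1
  set f : G := n * e * n⁻¹ with hfdef
  have hfS : f ∈ S := hnS e he
  obtain ⟨hff', -, -, -⟩ := orbit_four h n hn2 hfS hf1
  have he3 := h.exp e he
  have hf3 := h.exp f hfS
  have eff : f * f = f⁻¹ := mul_self_of_cube hf3
  have eee : e * e = e⁻¹ := mul_self_of_cube he3
  have hcef : e * f = f * e := h.comm he hfS
  have hefS : e * f ∈ S := mul_mem he hfS
  have hef1 : e * f ≠ 1 := fun h1 => hfe' (eq_inv_of_mul_eq_one_right h1)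
  have n1 : e * f ≠ e := fun h1 => hf1 (mul_eq_left.mp h1)
  have n2 : e * f ≠ f := fun h1 => he1 (mul_eq_right.mp h1)
  have n3 : e * f ≠ e⁻¹ := by
    rw [← eee]; intro h1; exact hfe (mul_left_cancel h1)
  have n4 : e * f ≠ f⁻¹ := by
    rw [← eff]; intro h1; exact hfe (mul_right_cancel h1).symm
  have n5 : e * f ≠ (e * f)⁻¹ := (orbit_four h n hn2 hefS hef1).1
  have cinv : ∀ z ∈ S, IsConj z z⁻¹ := fun z hz =>
    (hf z hz _ (inv_mem hz)).mpr (Or.inr (Or.inl rfl))
  have nefe : ¬ IsConj e (e * f) := by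
    rw [hf e he _ hefS]; push Not; exact ⟨n1, n3, n2, n4⟩
  have hval : ∀ χ : IrrCharacter G, ∃ (d : ℕ) (a b : ℤ), 0 < d ∧ (χ : G → ℂ) 1 = d ∧
      (χ : G → ℂ) e = a ∧ (χ : G → ℂ) (e * f) = b ∧ (3 : ℤ) ∣ a - b := by
    intro χ
    obtain ⟨d0, hd0, hd0'⟩ := isIrr_apply_one χ.2
    obtain ⟨d, a, hd, ha, hda⟩ := value3 χ.2 e he3 (cinv e he)
    obtain ⟨d', b, hd', hb, hdb⟩ := value3 χ.2 (e * f) (h.exp _ hefS) (cinv _ hefS)
    have h1 : d = d0 := by
      have : (d : ℂ) = d0 := by rw [← hd, ← hd0']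
      exact_mod_cast this
    have h2 : d' = d0 := by
      have : (d' : ℂ) = d0 := by rw [← hd', ← hd0']
      exact_mod_cast this
    refine ⟨d0, a, b, hd0, hd0', ha, hb, ?_⟩
    rw [h1] at hda
    rw [h2] at hdb
    omega
  choose d a b hd hχ1 hχe hχef hdiv using hval
  have hχ1' : ∀ χ : IrrCharacter G, (χ : G → ℂ) 1 = ((d χ : ℤ) : ℂ) := fun χ => by
    rw [hχ1]; norm_cast
  set i0 : IrrCharacter G := ⟨1, isIrr_one⟩ with hi0
  have a0 : a i0 = 1 := by
    have : (1 : ℂ) = a i0 := hχe i0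
    exact_mod_cast this.symm
  have b0 : b i0 = 1 := by
    have : (1 : ℂ) = b i0 := hχef i0
    exact_mod_cast this.symm
  have d0 : d i0 = 1 := by
    have : (1 : ℂ) = d i0 := hχ1 i0
    exact_mod_cast this.symm
  have cent9 : ∀ z ∈ S, z ≠ 1 → Nat.card (Subgroup.centralizer ({z} : Set G)) = 9 := by
    intro z hz hz1
    rw [h.cent z hz hz1, h.card]
  have self9 : ∀ z ∈ S, z ≠ 1 → (Nat.card {g : G // g * z * g⁻¹ = z} : ℤ) = 9 := by
    intro z hz hz1
    rw [card_fiber_conj z z (IsConj.refl z), cent9 z hz hz1]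
    norm_num
  have zero : ∀ x y : G, ¬ IsConj x y → (Nat.card {g : G // g * x * g⁻¹ = y} : ℤ) = 0 := by
    intro x y hxy
    rw [card_eq_zero_of_not_conj x y hxy]
    norm_num
  have nc1 : ∀ z : G, z ≠ 1 → ¬ IsConj z 1 := fun z hz hc => hz (isConj_one_left.mp hc)
  have hinv : ∀ z ∈ S, ∀ w : G, IsConj z w → w ^ 3 = 1 := fun z hz w hw =>
    cube_of_conj hw (h.exp z hz)
  -- the sum over `S`
  set O1 : Finset G := {e, e⁻¹, f, f⁻¹} with hO1
  set O2 : Finset G := {e * f, (e * f)⁻¹, n * (e * f) * n⁻¹, (n * (e * f) * n⁻¹)⁻¹} with hO2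
  have c4 : ∀ u ∈ S, u ≠ 1 →
      ({u, u⁻¹, n * u * n⁻¹, (n * u * n⁻¹)⁻¹} : Finset G).card = 4 := by
    intro u hu hu1
    obtain ⟨k1, k2, k3, k4⟩ := orbit_four h n hn2 hu hu1
    obtain ⟨k5, -, -, -⟩ := orbit_four h n hn2 (hnS u hu) k2
    have k6 : u ≠ (n * u * n⁻¹)⁻¹ := fun hh => k4 (by rw [hh, inv_inv, ← hh])
    have k7 : u⁻¹ ≠ (n * u * n⁻¹)⁻¹ := fun hh => k3 (inv_injective hh).symm
    rw [Finset.card_insert_of_notMem, Finset.card_insert_of_notMem,
      Finset.card_insert_of_notMem, Finset.card_singleton]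
    · simpa using k5
    · simp only [Finset.mem_insert, Finset.mem_singleton, not_or]
      exact ⟨k4.symm, k7⟩
    · simp only [Finset.mem_insert, Finset.mem_singleton, not_or]
      exact ⟨k1, k3.symm, k6⟩
  have oS : ∀ u ∈ S, ∀ g ∈ ({u, u⁻¹, n * u * n⁻¹, (n * u * n⁻¹)⁻¹} : Finset G), g ∈ S := by
    intro u hu g hg
    simp only [Finset.mem_insert, Finset.mem_singleton] at hg
    have hk := hnS _ hu
    rcases hg with rfl | rfl | rfl | rfl
    · exact hu
    · exact inv_mem hu
    · exact hk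
    · exact inv_mem hk
  have oc : ∀ u ∈ S, ∀ g ∈ ({u, u⁻¹, n * u * n⁻¹, (n * u * n⁻¹)⁻¹} : Finset G), IsConj u g := by
    intro u hu g hg
    have hgS := oS u hu g hg
    simp only [Finset.mem_insert, Finset.mem_singleton] at hg
    rw [hf u hu g hgS]
    exact hg
  have dj : Disjoint O1 O2 := by
    rw [Finset.disjoint_left]
    intro g hg hg'
    exact nefe ((oc e he g hg).trans (oc _ hefS g hg').symm)
  have dj1 : Disjoint ({1} : Finset G) (O1 ∪ O2) := by
    rw [Finset.disjoint_singleton_left, Finset.mem_union, not_or]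
    exact ⟨fun hg => nc1 e he1 (oc e he 1 hg), fun hg => nc1 _ hef1 (oc _ hefS 1 hg)⟩
  have cO1 : O1.card = 4 := c4 e he he1
  have cO2 : O2.card = 4 := c4 _ hefS hef1
  have hset : ({1} ∪ (O1 ∪ O2) : Finset G) = Finset.univ.filter (fun g : G => g ∈ S) := by
    apply Finset.eq_of_subset_of_card_le
    · intro g hg
      rw [Finset.mem_filter]
      refine ⟨Finset.mem_univ _, ?_⟩
      rw [Finset.mem_union, Finset.mem_union, Finset.mem_singleton] at hg
      rcases hg with rfl | hg | hg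
      · exact one_mem _
      · exact oS e he g hg
      · exact oS _ hefS g hg
    · rw [Finset.card_union_of_disjoint dj1, Finset.card_union_of_disjoint dj,
        Finset.card_singleton, cO1, cO2, ← Fintype.card_subtype, ← Nat.card_eq_fintype_card]
      exact h.card.le
  have h9 : ∀ χ : IrrCharacter G, (9 : ℤ) ∣ (d χ : ℤ) + 4 * a χ + 4 * b χ := by
    intro χ
    have : Fintype S := Fintype.ofFinite S
    obtain ⟨k, hk⟩ := exists_sum S (isIrr_isCharacter χ.2)
    have e1 : ∑ s : S, (χ : G → ℂ) s = ∑ g ∈ Finset.univ.filter (fun g : G => g ∈ S), (χ : G → ℂ) g := by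
      symm
      apply Finset.sum_subtype
      intro x
      simp
    have v1 : ∀ g ∈ O1, (χ : G → ℂ) g = a χ := by
      intro g hg
      obtain ⟨c, hc⟩ := isConj_iff.mp (oc e he g hg)
      rw [← hχe, ← hc]
      exact isIrr_isClassFunction χ.2 e c
    have v2 : ∀ g ∈ O2, (χ : G → ℂ) g = b χ := by
      intro g hg
      obtain ⟨c, hc⟩ := isConj_iff.mp (oc _ hefS g hg)
      rw [← hχef, ← hc]
      exact isIrr_isClassFunction χ.2 (e * f) c
    rw [e1, ← hset, Finset.sum_union dj1, Finset.sum_union dj, Finset.sum_singleton,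
      Finset.sum_congr rfl v1, Finset.sum_congr rfl v2, Finset.sum_const, Finset.sum_const, cO1,
      cO2, hχ1, h.card] at hk
    refine ⟨k, ?_⟩
    have : (((d χ : ℤ) + 4 * a χ + 4 * b χ : ℤ) : ℂ) = ((9 * k : ℤ) : ℂ) := by
      push_cast
      push_cast at hk
      simp only [nsmul_eq_mul] at hk
      push_cast at hk
      linear_combination hk
    exact_mod_cast this
  -- the counts
  have memO : ∀ u ∈ S, IsConj e u → u = e ∨ u = e⁻¹ ∨ u = f ∨ u = f⁻¹ := fun u hu hc =>
    (hf e he u hu).mp hc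
  have N1 : Nat.card {p : G × G // IsConj e p.1 ∧ IsConj e p.2 ∧ p.1 * p.2 = e * f} = 2 := by
    have hfc : IsConj e f := (hf e he f hfS).mpr (Or.inr (Or.inr (Or.inl rfl)))
    have hb : Function.Bijective (fun i : Bool =>
        (if i then ⟨(e, f), IsConj.refl e, hfc, rfl⟩ else ⟨(f, e), hfc, IsConj.refl e, hcef.symm⟩ :
          {p : G × G // IsConj e p.1 ∧ IsConj e p.2 ∧ p.1 * p.2 = e * f})) := by
      constructor
      · intro i j hij
        cases i <;> cases j
        · rfl
        · have := congrArg (fun p => p.1.1) hij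
          exact absurd this hfe
        · have := congrArg (fun p => p.1.1) hij
          exact absurd this hfe.symm
        · rfl
      · rintro ⟨⟨u, v⟩, hu, hv, huv⟩
        simp only at hu hv huv
        rcases h.pair hefS hef1 (hinv e he u hu) (ne_one_of_conj hu he1) (hinv e he v hv) huv with
          ⟨huS, hvS⟩ | ⟨h1, h2⟩
        · rcases memO u huS hu with hu' | hu' | hu' | hu' <;>
            rcases memO v hvS hv with hv' | hv' | hv' | hv' <;> rw [hu', hv'] at huv
          · exact absurd (mul_left_cancel huv).symm hfe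
          · rw [mul_inv_cancel] at huv; exact absurd huv.symm hef1
          · exact ⟨true, Subtype.ext (Prod.ext hu'.symm hv'.symm)⟩
          · exact absurd (mul_left_cancel huv).symm hff'
          · rw [inv_mul_cancel] at huv; exact absurd huv.symm hef1
          · rw [inv_mul_inv_of_cube he3] at huv; exact absurd huv.symm n1
          · exact absurd (mul_right_cancel huv).symm hee'
          · exfalso
            apply n5
            rw [mul_inv_rev, ← (Commute.inv_inv hcef : Commute e⁻¹ f⁻¹).eq]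
            exact huv.symm
          · exact ⟨false, Subtype.ext (Prod.ext hu'.symm hv'.symm)⟩
          · rw [hcef] at huv
            exact absurd (mul_left_cancel huv).symm hee'
          · rw [eff] at huv; exact absurd huv.symm n4
          · rw [mul_inv_cancel] at huv; exact absurd huv.symm hef1
          · rw [hcef] at huv
            exact absurd (mul_right_cancel huv).symm hff'
          · exfalso
            apply n5
            rw [mul_inv_rev]
            exact huv.symm
          · rw [inv_mul_cancel] at huv; exact absurd huv.symm hef1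
          · rw [inv_mul_inv_of_cube hf3] at huv; exact absurd huv.symm n2
        · exfalso
          exact nefe ((hu.trans h2).trans (cinv _ hefS).symm)
    rw [← Nat.card_eq_of_bijective _ hb]
    simp
  have N2 : 1 ≤ Nat.card {p : G × G // IsConj e p.1 ∧ IsConj e p.2 ∧ p.1 * p.2 = e} := by
    have : Nonempty {p : G × G // IsConj e p.1 ∧ IsConj e p.2 ∧ p.1 * p.2 = e} :=
      ⟨⟨(e⁻¹, e⁻¹), cinv e he, cinv e he, inv_mul_inv_of_cube he3⟩⟩
    exact Nat.card_pos
  refine num_four (Nat.card G) a b d i0 hd hdiv ?_ ?_ ?_ ?_ ?_ (sum_degree_sq d hχ1) a0 b0 d0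
    ?_ h9 ?_ ?_
  · rw [orth e e a a hχe hχe, self9 e he he1]
  · rw [orth _ _ b b hχef hχef, self9 _ hefS hef1]
  · rw [orth e (e * f) a b hχe hχef, zero _ _ nefe]
  · rw [orth e 1 a (fun χ => (d χ : ℤ)) hχe hχ1', zero _ _ (nc1 e he1)]
  · rw [orth _ 1 b (fun χ => (d χ : ℤ)) hχef hχ1', zero _ _ (nc1 _ hef1)]
  · intro χ hχ
    apply hlin
    rw [hχ1, hχ]
    norm_num
  · rw [T_eq e e (e * f) a a b d hχ1 hχe hχe hχef (cent9 e he he1) (cent9 e he he1), N1]
    norm_num
  · rw [T_eq e e e a a a d hχ1 hχe hχe hχe (cent9 e he he1) (cent9 e he he1)]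
    have : (1 : ℚ) ≤ (Nat.card {p : G × G // IsConj e p.1 ∧ IsConj e p.2 ∧ p.1 * p.2 = e} : ℚ) := by
      exact_mod_cast N2
    linarith

end Cfsg.Agent.H344.AltSix
end

-- part: S3341
section
set_option autoImplicit false
open Cfsg

namespace Cfsg.Agent.S3341

open Cfsg.Agent.H344.AltSix Cfsg.Agent.BenderW3.TIGram Cfsg.Agent.Characters.Core

section

variable {G : Type*} [Group G] [Finite G] [IsSimpleGroup G] {S : Subgroup G}

theorem exists_moved (P : Sylow 3 G) (hSP : S = P) (h : Hyp S) :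
    ∃ n ∈ Subgroup.normalizer (S : Set G), ∃ s ∈ S, n * s ≠ s * n := by
  by_contra hcon
  push Not at hcon
  have hN : Subgroup.normalizer (P : Set G) ≤ Subgroup.centralizer (P : Set G) := by
    intro n hn
    rw [Subgroup.mem_centralizer_iff]
    intro s hs
    have hn' : n ∈ Subgroup.normalizer (S : Set G) := by rw [hSP]; exact hn
    have hs' : s ∈ S := by rw [hSP]; exact hs
    exact (hcon n hn' s hs').symm
  have : Fact (Nat.Prime 3) := ⟨by norm_num⟩
  have hc := MonoidHom.ker_transferSylow_isComplement' P hN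
  have h9 : Nat.card (P : Subgroup G) = 9 := by rw [← hSP]; exact h.card
  rcases Subgroup.Normal.eq_bot_or_eq_top (inferInstance : (MonoidHom.transferSylow P hN).ker.Normal)
    with h1 | h1
  · rw [h1, Subgroup.isComplement'_bot_left] at hc
    -- `G` is abelian of order nine
    have hcomm : ∀ a b : G, a * b = b * a := by
      intro a b
      have : S = ⊤ := by rw [hSP, hc]
      exact h.comm (by rw [this]; trivial) (by rw [this]; trivial)
    let _ : CommGroup G := { (inferInstance : Group G) with mul_comm := hcomm }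
    have hp := IsSimpleGroup.prime_card (α := G)
    have : Nat.card G = 9 := by
      rw [← h9, hc, Subgroup.card_top]
    rw [this] at hp
    norm_num at hp
  · rw [h1, Subgroup.isComplement'_top_left] at hc
    rw [hc, Subgroup.card_bot] at h9
    omega

omit [IsSimpleGroup G] in
theorem hyp_of (P : Sylow 3 G) (hSP : S = P) (hexp : ∀ a ∈ S, a ^ 3 = 1) (hcard : Nat.card S = 9)
    (hcent : ∀ s ∈ S, s ≠ 1 → Subgroup.centralizer ({s} : Set G) = S) : Hyp S := by
  refine ⟨hcent, hcard, hexp, ?_⟩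
  intro z hz hz1
  have : Fact (Nat.Prime 3) := ⟨by norm_num⟩
  have hp : IsPGroup 3 (Subgroup.zpowers z) := by
    have : orderOf z ∣ 3 := orderOf_dvd_of_pow_eq_one hz
    rcases (Nat.dvd_prime (by norm_num)).mp this with h1 | h1
    · exact absurd (orderOf_eq_one_iff.mp h1) hz1
    · exact IsPGroup.of_card (n := 1) (by rw [Nat.card_zpowers, h1]; norm_num)
  obtain ⟨Q, hQ⟩ := hp.exists_le_sylow
  obtain ⟨g, hg⟩ := MulAction.exists_smul_eq G Q P
  refine ⟨g, ?_⟩
  rw [hSP]
  have h1 : g * z * g⁻¹ ∈ ((g • Q : Sylow 3 G) : Subgroup G) := by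
    rw [Sylow.coe_subgroup_smul, Subgroup.mem_pointwise_smul_iff_inv_smul_mem]
    have : (MulAut.conj g)⁻¹ • (g * z * g⁻¹) = z := by
      rw [← map_inv, MulAut.smul_def, MulAut.conj_apply]; group
    rw [this]
    exact hQ (Subgroup.mem_zpowers z)
  rw [hg] at h1
  exact h1

theorem card_not_le (P : Sylow 3 G) (hSP : S = P) (h : Hyp S) : ¬ Nat.card G ≤ 36 := by
  intro hle
  have : Fact (Nat.Prime 3) := ⟨by norm_num⟩
  obtain ⟨n, hn, s, hs, hns⟩ := exists_moved P hSP h
  have hnS : n ∉ S := fun h1 => hns (h.comm h1 hs)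
  set N := Subgroup.normalizer (S : Set G) with hN
  have hSN : S ≤ N := Subgroup.le_normalizer
  have h1 : Nat.card S ∣ Nat.card N := Subgroup.card_dvd_of_le hSN
  have h2 : Nat.card S ≠ Nat.card N := by
    intro h3
    have : S = N := Subgroup.eq_of_le_of_card_ge hSN h3.ge
    exact hnS (by rw [this]; exact hn)
  have h3 := N.card_mul_index
  have h4 : N.index = Nat.card (Sylow 3 G) := by
    rw [hN, hSP]
    exact (Sylow.card_eq_index_normalizer P).symm
  have h5 := card_sylow_modEq_one 3 G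
  rw [← h4] at h5
  rw [h.card] at h1 h2
  obtain ⟨k, hk⟩ := h1
  have hk2 : 2 ≤ k := by
    rcases Nat.lt_or_ge k 2 with hk2 | hk2
    · interval_cases k
      · have := Nat.card_pos (α := N); omega
      · omega
    · exact hk2
  have h6 : N.index = 1 := by
    have hpos : 0 < N.index := Nat.pos_of_ne_zero (Subgroup.index_ne_zero_of_finite)
    have h7 : N.index ≤ 2 := by
      by_contra hcon
      push Not at hcon
      have : 18 * 3 ≤ Nat.card N * N.index := Nat.mul_le_mul (by omega) hcon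
      omega
    have h8 : N.index % 3 = 1 := h5
    omega
  have hnorm : S.Normal := by
    rw [← Subgroup.normalizer_eq_top_iff]
    exact Subgroup.index_eq_one.mp h6
  rcases hnorm.eq_bot_or_eq_top with h7 | h7
  · have := h.card
    rw [h7, Subgroup.card_bot] at this
    omega
  · exact hnS (by rw [h7]; trivial)

end

/-- Let G be a finite simple group whose Sylow 3-subgroup S is elementary abelian of order 9, such that G has more than one conjugacy class of elements of order 3 and C_G(s) = S for every non-identity s in S. Then G is isomorphic to the alternating group of degree 6. -/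
theorem result {G : Type*} [Group G] [Finite G] [IsSimpleGroup G]
    (P : Sylow 3 G) (S : Subgroup G) (hSP : S = P) (hcomm : IsMulCommutative S) (hexp : ∀ a ∈ S, a ^ 3 = 1)
    (hcard : Nat.card S = 9)
    (hclasses : ∃ a b : G, orderOf a = 3 ∧ orderOf b = 3 ∧ ∀ g : G, g * a * g⁻¹ ≠ b)
    (hcent : ∀ s ∈ S, s ≠ 1 → Subgroup.centralizer ({s} : Set G) = S) :
    Nonempty (G ≃* alternatingGroup (Fin 6)) := by
  classical
  have h : Hyp S := hyp_of P hSP hexp hcard hcent
  have hnle := card_not_le P hSP h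
  obtain ⟨n0, hn0, s0, hs0, hns0⟩ := exists_moved P hSP h
  have hsr := semireg_of h.cent
  have hfus := fus_of h.cent
  have : Finite (MulAut S) := inferInstance
  have hdvd := card_dvd (autz S) hsr
  rw [h.card] at hdvd
  norm_num at hdvd
  have hab := comm_of h.cent
  -- `autz S` is not trivial
  have hne1 : Nat.card (autz S) ≠ 1 := by
    intro h1
    have h2 : autz S = ⊥ := Subgroup.card_eq_one.mp h1
    have h3 : S.normalizerMonoidHom ⟨n0, hn0⟩ ∈ autz S := ⟨_, rfl⟩
    rw [h2, Subgroup.mem_bot] at h3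
    have h4 : ((S.normalizerMonoidHom ⟨n0, hn0⟩ ⟨s0, hs0⟩ : S) : G) = s0 := by rw [h3]; rfl
    have h5 : n0 * s0 * n0⁻¹ = s0 := h4
    exact hns0 (mul_inv_eq_iff_eq_mul.mp h5)
  have h2dvd : 2 ∣ Nat.card (autz S) := by
    have h8 : Nat.card (autz S) ∣ 2 ^ 3 := hdvd
    rw [Nat.dvd_prime_pow Nat.prime_two] at h8
    obtain ⟨k, -, hk⟩ := h8
    rcases Nat.eq_zero_or_pos k with rfl | hk0
    · exact absurd (by rw [hk]; norm_num) hne1
    · rw [hk]; exact dvd_pow_self 2 hk0.ne'
  have : Fact (Nat.Prime 2) := ⟨Nat.prime_two⟩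
  obtain ⟨⟨σ, hσ⟩, hσ2⟩ := exists_prime_orderOf_dvd_card' 2 h2dvd
  have hσ1 : σ ≠ 1 := by
    rintro rfl
    have : orderOf (1 : autz S) = 2 := hσ2
    rw [orderOf_one] at this
    omega
  have hσσ : σ * σ = 1 := by
    have h1 : (⟨σ, hσ⟩ : autz S) ^ 2 = 1 := by rw [← hσ2]; exact pow_orderOf_eq_one _
    rw [pow_two] at h1
    exact congrArg Subtype.val h1
  have hσi := inv_of_sq hab hsr hσ hσ1 hσσ
  -- uniqueness of the inversion
  have huniq : ∀ τ ∈ autz S, τ ≠ 1 → τ * τ = 1 → τ = σ := by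
    intro τ hτ hτ1 hττ
    ext u
    rw [inv_of_sq hab hsr hτ hτ1 hττ, hσi]
  by_cases hA : ∀ τ ∈ autz S, τ = 1 ∨ τ = σ
  · exfalso
    apply hnle
    apply h.case_two
    intro u hu v hv
    rw [show (IsConj u v ↔ IsConj ((⟨u, hu⟩ : S) : G) ((⟨v, hv⟩ : S) : G)) from Iff.rfl]
    rw [hfus ⟨u, hu⟩ ⟨v, hv⟩]
    constructor
    · rintro ⟨τ, hτ, hτu⟩
      rcases hA τ hτ with rfl | rfl
      · left; exact (congrArg Subtype.val hτu).symm
      · right
        rw [hσi] at hτu
        exact (congrArg Subtype.val hτu).symm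
    · rintro (rfl | rfl)
      · exact ⟨1, one_mem _, rfl⟩
      · exact ⟨σ, hσ, hσi _⟩
  · push Not at hA
    obtain ⟨β, hβ, hβ1, hβσ⟩ := hA
    have hcard4 : Nat.card (autz S) = 4 := by
      have h8 : Nat.card (autz S) ∣ 2 ^ 3 := hdvd
      rw [Nat.dvd_prime_pow Nat.prime_two] at h8
      obtain ⟨k, hk3, hk⟩ := h8
      have hge : 3 ≤ Nat.card (autz S) := by
        have : Fintype (autz S) := Fintype.ofFinite _
        rw [Nat.card_eq_fintype_card]
        have h3 : ({1, ⟨σ, hσ⟩, ⟨β, hβ⟩} : Finset (autz S)).card = 3 := by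
          rw [Finset.card_insert_of_notMem, Finset.card_insert_of_notMem, Finset.card_singleton]
          · rw [Finset.mem_singleton]
            intro h1
            exact hβσ (congrArg Subtype.val h1).symm
          · simp only [Finset.mem_insert, Finset.mem_singleton, not_or]
            exact ⟨fun h1 => hσ1 (congrArg Subtype.val h1).symm,
              fun h1 => hβ1 (congrArg Subtype.val h1).symm⟩
        rw [← h3]
        exact Finset.card_le_univ _
      interval_cases k
      · omega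
      · omega
      · rw [hk]; norm_num
      · exfalso
        have hk8 : Nat.card (autz S) = 8 := by rw [hk]; norm_num
        -- transitivity
        have htrans : ∀ u v : S, u ≠ 1 → v ≠ 1 → IsConj (u : G) (v : G) := by
          intro u v hu hv
          rw [hfus]
          have : Fintype (autz S) := Fintype.ofFinite _
          have : Fintype S := Fintype.ofFinite _
          let f : autz S → {k : S // k ≠ 1} := fun τ => ⟨(τ : MulAut S) u, fun h1 => hu (by
            have := congrArg ((τ : MulAut S)⁻¹) h1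
            simpa using this)⟩
          have hinj : Function.Injective f := by
            intro τ τ' hττ
            have h1 : (τ : MulAut S) u = (τ' : MulAut S) u := congrArg Subtype.val hττ
            have h2 : ((τ' : MulAut S)⁻¹ * (τ : MulAut S)) u = u := by
              rw [MulAut.mul_apply, h1, MulAut.inv_apply_self]
            have h3 := hsr _ (mul_mem (inv_mem τ'.2) τ.2) u hu h2
            exact Subtype.ext (inv_mul_eq_one.mp h3).symm
          have hcards : Fintype.card (autz S) = Fintype.card {k : S // k ≠ 1} := by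
            rw [Fintype.card_subtype_compl, ← Nat.card_eq_fintype_card, hk8,
              ← Nat.card_eq_fintype_card, h.card]
            simp
          have hbij := (Fintype.bijective_iff_injective_and_card f).mpr ⟨hinj, hcards⟩
          obtain ⟨τ, hτ⟩ := hbij.2 ⟨v, hv⟩
          exact ⟨τ, τ.2, congrArg Subtype.val hτ⟩
        obtain ⟨a, b, ha, hb, hcon⟩ := hclasses
        have ha3 : a ^ 3 = 1 := by rw [← ha]; exact pow_orderOf_eq_one a
        have hb3 : b ^ 3 = 1 := by rw [← hb]; exact pow_orderOf_eq_one b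
        have ha1 : a ≠ 1 := by rintro rfl; rw [orderOf_one] at ha; omega
        have hb1 : b ≠ 1 := by rintro rfl; rw [orderOf_one] at hb; omega
        obtain ⟨x, hx⟩ := h.all a ha3 ha1
        obtain ⟨y, hy⟩ := h.all b hb3 hb1
        have cx : IsConj a (x * a * x⁻¹) := isConj_iff.mpr ⟨x, rfl⟩
        have cy : IsConj b (y * b * y⁻¹) := isConj_iff.mpr ⟨y, rfl⟩
        have h1 := htrans ⟨_, hx⟩ ⟨_, hy⟩
          (fun h1 => ne_one_of_conj cx ha1 (congrArg Subtype.val h1))
          (fun h1 => ne_one_of_conj cy hb1 (congrArg Subtype.val h1))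
        obtain ⟨g, hg⟩ := isConj_iff.mp ((cx.trans h1).trans cy.symm)
        exact hcon g hg
    -- `β` has order four
    have hβ4 : orderOf β = 4 := by
      have h1 : orderOf (⟨β, hβ⟩ : autz S) ∣ 4 := by rw [← hcard4]; exact orderOf_dvd_natCard _
      have h2 : orderOf (⟨β, hβ⟩ : autz S) = orderOf β :=
        (orderOf_injective (autz S).subtype Subtype.val_injective ⟨β, hβ⟩).symm
      rw [h2] at h1
      have h3 : orderOf β ∣ 2 ^ 2 := h1
      rw [Nat.dvd_prime_pow Nat.prime_two] at h3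
      obtain ⟨k, hk2, hk⟩ := h3
      interval_cases k
      · exact absurd (orderOf_eq_one_iff.mp hk) hβ1
      · exfalso
        apply hβσ
        apply huniq β hβ hβ1
        rw [← pow_two, ← pow_one 2, ← hk]
        exact pow_orderOf_eq_one β
      · rw [hk]; norm_num
    have hββ : β * β = σ := by
      apply huniq _ (mul_mem hβ hβ)
      · intro h1
        rw [← pow_two] at h1
        have := orderOf_dvd_of_pow_eq_one h1
        rw [hβ4] at this
        omega
      · have : β ^ 4 = 1 := by rw [← hβ4]; exact pow_orderOf_eq_one β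
        rw [← this]
        rfl
    have hall : ∀ τ ∈ autz S, τ = 1 ∨ τ = β ∨ τ = σ ∨ τ = β * σ := by
      intro τ hτ
      have h1 : Subgroup.zpowers β = autz S := by
        apply Subgroup.eq_of_le_of_card_ge
        · rw [Subgroup.zpowers_le]; exact hβ
        · rw [Nat.card_zpowers, hβ4, hcard4]
      rw [← h1] at hτ
      rw [mem_zpowers_iff_mem_range_orderOf, hβ4, Finset.mem_image] at hτ
      obtain ⟨k, hk, rfl⟩ := hτ
      rw [Finset.mem_range] at hk
      interval_cases k
      · left; exact pow_zero β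
      · right; left; exact pow_one β
      · right; right; left; rw [← hββ]; exact pow_two β
      · right; right; right
        rw [← hββ]
        show β ^ 3 = β * (β * β)
        rw [pow_succ, pow_two, mul_assoc]
    obtain ⟨n, hn, hnβ⟩ := (mem_autz S β).mp hβ
    have hnS : ∀ s ∈ S, n * s * n⁻¹ ∈ S := fun s hs => (Subgroup.mem_normalizer_iff.mp hn s).mp hs
    have hn2 : ∀ s ∈ S, n * (n * s * n⁻¹) * n⁻¹ = s⁻¹ := by
      intro s hs
      have h1 : β (β ⟨s, hs⟩) = (⟨s, hs⟩ : S)⁻¹ := by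
        rw [← MulAut.mul_apply, hββ, hσi]
      have h2 := congrArg Subtype.val h1
      rw [hnβ, hnβ] at h2
      exact h2
    have hlin : ∀ χ : IrrCharacter G, (χ : G → ℂ) 1 = 1 → χ = ⟨1, isIrr_one⟩ := by
      intro χ hχ
      obtain ⟨f, hf⟩ := Cfsg.Agent.Characters.Linear.exists_hom_of_isIrrCharacter χ.2 hχ
      apply Subtype.ext
      show (χ : G → ℂ) = 1
      rw [hf]
      rcases (inferInstance : f.ker.Normal).eq_bot_or_eq_top with h1 | h1
      · exfalso
        apply hns0
        rw [MonoidHom.ker_eq_bot_iff] at h1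
        apply h1
        rw [map_mul, map_mul, mul_comm]
      · funext g
        have : g ∈ f.ker := by rw [h1]; trivial
        rw [MonoidHom.mem_ker] at this
        rw [this]
        rfl
    have hfour : ∀ u ∈ S, ∀ v ∈ S,
        IsConj u v ↔ (v = u ∨ v = u⁻¹ ∨ v = n * u * n⁻¹ ∨ v = (n * u * n⁻¹)⁻¹) := by
      intro u hu v hv
      rw [show (IsConj u v ↔ IsConj ((⟨u, hu⟩ : S) : G) ((⟨v, hv⟩ : S) : G)) from Iff.rfl]
      rw [hfus ⟨u, hu⟩ ⟨v, hv⟩]
      have e1 : ((σ ⟨u, hu⟩ : S) : G) = u⁻¹ := by rw [hσi]; rfl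
      have e2 : ((β ⟨u, hu⟩ : S) : G) = n * u * n⁻¹ := hnβ _
      have e3 : (((β * σ) ⟨u, hu⟩ : S) : G) = (n * u * n⁻¹)⁻¹ := by
        rw [MulAut.mul_apply, hσi, hnβ]
        show n * u⁻¹ * n⁻¹ = _
        group
      constructor
      · rintro ⟨τ, hτ, hτu⟩
        have h5 := congrArg Subtype.val hτu
        rcases hall τ hτ with rfl | rfl | rfl | rfl
        · left; exact h5.symm
        · right; right; left; rw [← e2]; exact h5.symm
        · right; left; rw [← e1]; exact h5.symm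
        · right; right; right; rw [← e3]; exact h5.symm
      · rintro (h5 | h5 | h5 | h5)
        · exact ⟨1, one_mem _, Subtype.ext h5.symm⟩
        · exact ⟨σ, hσ, Subtype.ext (e1.trans h5.symm)⟩
        · exact ⟨β, hβ, Subtype.ext (e2.trans h5.symm)⟩
        · exact ⟨β * σ, mul_mem hβ hσ, Subtype.ext (e3.trans h5.symm)⟩
    rcases h.case_four n hnS hn2 hfour hlin with h1 | h1
    · exact absurd h1 hnle
    · exact Cfsg.Agent.S0497.result h1

end Cfsg.Agent.S3341
end
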