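import Mathlib
import Cfsg.Prelude.Def_Transfer
import Cfsg.Prelude.Def_Solvable
import Cfsg.Agent.Transfer.Extraspecial
import Cfsg.Agent.Lib.Cores
import Cfsg.Agent.StdL2.G23Coset
import Cfsg.Agent.StdL2.G23Aut
import Cfsg.Agent.GH.C2GrowL3Base
import Cfsg.Agent.HSU.Final_mg
import Cfsg.Statements.S3346
set_option linter.all false

-- part: H345/HSA
section
/-!
# S3346, part 1: the 2-core `R = 4 ∘ 2^{1+4}` of the centraliser of an involution `t`
-/

set_option autoImplicit false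

namespace Cfsg.Agent.H345.HSA

open scoped commutatorElement

variable {G : Type*} [Group G]

/-- The facts about `H = C_G(t)`, `R = O₂(H)`, used below. -/
structure Rdat (t u : G) (R : Subgroup G) : Prop where
  t_ne : t ≠ 1
  t_sq : t * t = 1
  u_mem : u ∈ R
  u_sq : u * u = t
  comm_u : ∀ x ∈ R, x * u = u * x
  conj_mem : ∀ g, g * t = t * g → ∀ x ∈ R, g * x * g⁻¹ ∈ R
  sq : ∀ x ∈ R, x * x = 1 ∨ x * x = t
  comm : ∀ x ∈ R, ∀ y ∈ R, x * y = y * x ∨ x * y = y * x * t
  cent : ∀ x ∈ R, (∀ y ∈ R, x * y = y * x) → x = 1 ∨ x = t ∨ x = u ∨ x = u * t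
  card : Nat.card R = 64
  /-- maximality of `R` -/
  max : ∀ K : Subgroup G, (∀ g ∈ K, g * t = t * g) → (∀ g, g * t = t * g → ∀ x ∈ K, g * x * g⁻¹ ∈ K) →
    IsPGroup 2 K → K ≤ R

theorem mem_sup_comm {A B : Subgroup G} (h : ∀ a ∈ A, ∀ b ∈ B, a * b = b * a) {x : G} (hx : x ∈ A ⊔ B) :
    ∃ a ∈ A, ∃ b ∈ B, x = a * b := by
  rw [Subgroup.sup_eq_closure] at hx
  induction hx using Subgroup.closure_induction with
  | mem x hx =>
    rcases hx with hx | hx
    · exact ⟨x, hx, 1, B.one_mem, (mul_one x).symm⟩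
    · exact ⟨1, A.one_mem, x, hx, (one_mul x).symm⟩
  | one => exact ⟨1, A.one_mem, 1, B.one_mem, (mul_one 1).symm⟩
  | mul x y _ _ ihx ihy =>
    obtain ⟨a, ha, b, hb, rfl⟩ := ihx
    obtain ⟨c, hc, d, hd, rfl⟩ := ihy
    refine ⟨a * c, A.mul_mem ha hc, b * d, B.mul_mem hb hd, ?_⟩
    have := h c hc b hb
    calc a * b * (c * d) = a * (b * c) * d := by group
      _ = a * (c * b) * d := by rw [this]
      _ = a * c * (b * d) := by group
  | inv x _ ihx =>
    obtain ⟨a, ha, b, hb, rfl⟩ := ihx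
    refine ⟨a⁻¹, A.inv_mem ha, b⁻¹, B.inv_mem hb, ?_⟩
    rw [h a ha b hb, mul_inv_rev]

theorem exists_rdat [Finite G] (t : G) (ht : orderOf t = 2) (H : Subgroup G)
    (hH : H = Subgroup.centralizer ({t} : Set G))
    (R : Subgroup G) (hR : R = (Cfsg.pCore 2 H).map H.subtype)
    (Cy E : Subgroup G) (hCy : IsCyclic Cy) (hCycard : Nat.card Cy = 4)
    (hCyle : Cy ≤ R ⊓ Subgroup.centralizer (R : Set G))
    (hEle : E ≤ R) (hEex : Cfsg.IsExtraspecial 2 E) (hEcard : Nat.card E = 32)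
    (hprod : Cy ⊔ E = R) (hmeet : Cy ⊓ E = E ⊓ Subgroup.centralizer (E : Set G)) :
    ∃ u, Rdat t u R := by
  classical
  have : Fact (Nat.Prime 2) := ⟨Nat.prime_two⟩
  have htt : t * t = 1 := by rw [← pow_two, ← ht]; exact pow_orderOf_eq_one t
  have ht1 : t ≠ 1 := by
    intro h; rw [h, orderOf_one] at ht; exact absurd ht (by norm_num)
  have hmemH : ∀ g : G, g ∈ H ↔ g * t = t * g := by
    intro g; rw [hH]; exact Subgroup.mem_centralizer_singleton_iff
  -- maximality
  have hmax : ∀ K : Subgroup G, (∀ g ∈ K, g * t = t * g) →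
      (∀ g, g * t = t * g → ∀ x ∈ K, g * x * g⁻¹ ∈ K) → IsPGroup 2 K → K ≤ R := by
    intro K hK1 hK2 hK3
    have hKH : K ≤ H := fun g hg => (hmemH g).2 (hK1 g hg)
    have hn : (K.subgroupOf H).Normal := by
      constructor
      intro x hx g
      exact hK2 g ((hmemH g).1 g.2) x hx
    have hp : IsPGroup 2 (K.subgroupOf H) :=
      hK3.of_equiv (Subgroup.subgroupOfEquivOfLe hKH).symm
    have hle : K.subgroupOf H ≤ Cfsg.pCore 2 H := le_sSup ⟨hn, hp⟩
    rw [hR]
    intro x hx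
    exact ⟨⟨x, hKH hx⟩, hle hx, rfl⟩
  have hRn : ∀ g, g * t = t * g → ∀ x ∈ R, g * x * g⁻¹ ∈ R := by
    intro g hg x hx
    rw [hR] at hx ⊢
    obtain ⟨y, hy, rfl⟩ := hx
    have hn : (Cfsg.pCore 2 H).Normal := Lib.Cores.pCore_normal 2
    exact ⟨⟨g, (hmemH g).2 hg⟩ * y * ⟨g, (hmemH g).2 hg⟩⁻¹, hn.conj_mem y hy _, rfl⟩
  have hRH : ∀ x ∈ R, x * t = t * x := by
    intro x hx
    rw [hR] at hx
    obtain ⟨y, hy, rfl⟩ := hx
    exact (hmemH _).1 y.2
  -- `t ∈ R`
  have htR : t ∈ R := by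
    have h1 : ∀ x ∈ Subgroup.zpowers t, x = 1 ∨ x = t := by
      intro x hx
      obtain ⟨n, rfl⟩ := Subgroup.mem_zpowers_iff.1 hx
      rcases Int.even_or_odd' n with ⟨k, hk | hk⟩
      · left
        rw [hk, zpow_mul]
        have : t ^ (2 : ℤ) = 1 := by rw [zpow_two, htt]
        rw [this, one_zpow]
      · right
        rw [hk, zpow_add, zpow_mul, zpow_one]
        have : t ^ (2 : ℤ) = 1 := by rw [zpow_two, htt]
        rw [this, one_zpow, one_mul]
    refine hmax (Subgroup.zpowers t) ?_ ?_ ?_ (Subgroup.mem_zpowers t)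
    · intro g hg
      rcases h1 g hg with rfl | rfl
      · simp
      · rfl
    · intro g hg x hx
      rcases h1 x hx with rfl | rfl
      · simp
      · rw [hg]; simp
    · refine IsPGroup.of_card (n := 1) ?_
      rw [Nat.card_zpowers, ht, pow_one]
  -- the generator of `Cy`
  obtain ⟨u0, hu0⟩ := hCy.exists_generator
  have hu4 : orderOf (u0 : G) = 4 := by
    rw [Subgroup.orderOf_coe, orderOf_eq_card_of_forall_mem_zpowers hu0, hCycard]
  obtain ⟨u, hu⟩ : ∃ u : G, u = u0 := ⟨_, rfl⟩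
  have huC : u ∈ Cy := hu ▸ u0.2
  have hu4' : orderOf u = 4 := hu ▸ hu4
  have hupow : u ^ 4 = 1 := by rw [← hu4', pow_orderOf_eq_one]
  have hgen : ∀ x ∈ Cy, ∃ k : ℕ, k < 4 ∧ x = u ^ k := by
    intro x hx
    obtain ⟨n, hn⟩ := Subgroup.mem_zpowers_iff.1 (hu0 ⟨x, hx⟩)
    have h1 : x = u ^ n := by
      have h0 := congrArg Subtype.val hn
      rw [hu]
      exact h0.symm
    have h2 : u ^ (n % (4 : ℕ)) = u ^ n := by rw [← hu4', zpow_mod_orderOf]
    have h3 : 0 ≤ n % (4 : ℕ) := Int.emod_nonneg _ (by norm_num)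
    have h4 : n % (4 : ℕ) < 4 := Int.emod_lt_of_pos _ (by norm_num)
    refine ⟨(n % (4 : ℕ)).toNat, by omega, ?_⟩
    rw [h1, ← h2, ← zpow_natCast, Int.toNat_of_nonneg h3]
  have hu2 : u * u ≠ 1 := by
    intro h
    have : orderOf u ∣ 2 := orderOf_dvd_of_pow_eq_one (by rw [pow_two]; exact h)
    rw [hu4'] at this
    norm_num at this
  have hinv2 : ∀ x ∈ Cy, x * x = 1 → x ≠ 1 → x = u * u := by
    intro x hx hxx hx1
    obtain ⟨k, hk, rfl⟩ := hgen x hx
    interval_cases k
    · simp at hx1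
    · rw [pow_one] at hxx; exact absurd hxx hu2
    · rw [pow_two]
    · exfalso
      apply hu2
      have : u ^ 3 * u ^ 3 = u ^ 4 * (u * u) := by group
      rw [this, hupow, one_mul] at hxx
      exact hxx
  have hcomR : ∀ c ∈ Cy, ∀ x ∈ R, x * c = c * x := by
    intro c hc x hx
    exact Subgroup.mem_centralizer_iff.1 (hCyle hc).2 x hx
  have hCyR : Cy ≤ R := fun c hc => (hCyle hc).1
  -- the centre of `E`
  have hZE : ∀ b ∈ E, (∀ y ∈ E, y * b = b * y) → b ∈ Cy := by
    intro b hb h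
    have h1 : b ∈ E ⊓ Subgroup.centralizer (E : Set G) :=
      ⟨hb, Subgroup.mem_centralizer_iff.2 h⟩
    rw [← hmeet] at h1
    exact h1.1
  have hCyE : ∀ c ∈ Cy, c ∈ E → ∀ y ∈ E, y * c = c * y := fun c hc _ y hy => hcomR c hc y (hEle hy)
  have hdec : ∀ x ∈ R, ∃ c ∈ Cy, ∃ b ∈ E, x = c * b := by
    intro x hx
    rw [← hprod] at hx
    exact mem_sup_comm (fun a ha b hb => (hcomR a ha b (hEle hb)).symm) hx
  -- `t = u ^ 2`
  have hcen : ∀ x ∈ R, (∀ y ∈ R, x * y = y * x) → x ∈ Cy := by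
    intro x hx h
    obtain ⟨c, hc, b, hb, rfl⟩ := hdec x hx
    refine Cy.mul_mem hc (hZE b hb ?_)
    intro y hy
    have h1 := h y (hEle hy)
    have h2 := hcomR c hc y (hEle hy)
    have h3 : c * (b * y) = c * (y * b) := by
      rw [← mul_assoc, h1, ← mul_assoc, h2, mul_assoc]
    exact (mul_left_cancel h3).symm
  have htC : t ∈ Cy := hcen t htR (fun y hy => (hRH y hy).symm)
  have hut : u * u = t := (hinv2 t htC htt ht1).symm
  -- squares and commutators in `E`
  have hZ2 : ∀ b : E, b ∈ Subgroup.center E → (b : G) = 1 ∨ (b : G) = t := by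
    intro b hb
    by_cases h1 : (b : G) = 1
    · exact Or.inl h1
    right
    have h2 : (b : G) ∈ Cy := hZE b b.2 (fun y hy => by
      have := Subgroup.mem_center_iff.1 hb ⟨y, hy⟩
      exact congrArg Subtype.val this)
    have h3 : b ^ 2 = 1 := Cfsg.Agent.Transfer.Extraspecial.pow_eq_one_of_mem_center hEex hb
    have h4 : (b : G) * b = 1 := by
      have := congrArg Subtype.val h3
      rw [← pow_two]
      exact this
    rw [hinv2 b h2 h4 h1, hut]
  have hsqE : ∀ b ∈ E, b * b = 1 ∨ b * b = t := by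
    intro b hb
    have h1 := hZ2 _ (Cfsg.Agent.Transfer.Extraspecial.pow_mem_center hEex ⟨b, hb⟩)
    have h2 : (((⟨b, hb⟩ : E) ^ 2 : E) : G) = b * b := by
      rw [pow_two]; rfl
    rwa [h2] at h1
  have hcomE : ∀ b ∈ E, ∀ d ∈ E, b * d = d * b ∨ b * d = d * b * t := by
    intro b hb d hd
    have h1 := hZ2 _ (Cfsg.Agent.Transfer.Extraspecial.comm_mem_center hEex ⟨d, hd⟩⁻¹ ⟨b, hb⟩⁻¹)
    have h2 : ((⁅(⟨d, hd⟩ : E)⁻¹, (⟨b, hb⟩ : E)⁻¹⁆ : E) : G) = d⁻¹ * b⁻¹ * d * b := by
      rw [commutatorElement_def, inv_inv, inv_inv]; rfl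
    rw [h2] at h1
    have hbt : b * t = t * b := hRH b (hEle hb)
    have hdt : d * t = t * d := hRH d (hEle hd)
    rcases h1 with h1 | h1
    · left
      have h3 : b * d = b * d * (d⁻¹ * b⁻¹ * d * b) := by rw [h1, mul_one]
      rw [h3]; group
    · right
      have h3 : b * d * t = d * b := by rw [← h1]; group
      rw [← h3, mul_assoc, htt, mul_one]
  have huR : u ∈ R := hCyR huC
  have hutc : u * t = t * u := hRH u huR
  have hcases : ∀ c ∈ Cy, c = 1 ∨ c = t ∨ c = u ∨ c = u * t := by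
    intro c hc
    obtain ⟨k, hk, rfl⟩ := hgen c hc
    interval_cases k
    · left; simp
    · right; right; left; simp
    · right; left; rw [pow_two, hut]
    · right; right; right; rw [pow_succ', pow_two, hut]
  refine ⟨u, ht1, htt, huR, hut, fun x hx => hcomR u huC x hx, hRn, ?_, ?_, ?_, ?_, hmax⟩
  · intro x hx
    obtain ⟨c, hc, b, hb, rfl⟩ := hdec x hx
    have h1 := hcomR c hc b (hEle hb)
    have h2 : c * b * (c * b) = (c * c) * (b * b) := by
      calc c * b * (c * b) = c * (b * c) * b := by group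
        _ = c * (c * b) * b := by rw [h1]
        _ = _ := by group
    have h3 : c * c = 1 ∨ c * c = t := by
      rcases hcases c hc with rfl | rfl | rfl | rfl
      · left; simp
      · left; exact htt
      · right; exact hut
      · right
        calc u * t * (u * t) = u * (t * u) * t := by group
          _ = u * (u * t) * t := by rw [hutc]
          _ = (u * u) * (t * t) := by group
          _ = t := by rw [hut, htt, mul_one]
    rw [h2]
    rcases h3 with h3 | h3 <;> rcases hsqE b hb with h4 | h4 <;> rw [h3, h4]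
    · left; simp
    · right; simp
    · right; simp
    · left; exact htt
  · intro x hx y hy
    obtain ⟨c, hc, b, hb, rfl⟩ := hdec x hx
    obtain ⟨c', hc', b', hb', rfl⟩ := hdec y hy
    have h1 := hcomR c' hc' b (hEle hb)
    have h2 := hcomR c hc b' (hEle hb')
    have h3 := hcomR c' hc' c (hCyR hc)
    have e1 : c * b * (c' * b') = c * c' * (b * b') := by
      calc c * b * (c' * b') = c * (b * c') * b' := by group
        _ = c * (c' * b) * b' := by rw [h1]
        _ = _ := by group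
    have e2 : c' * b' * (c * b) = c * c' * (b' * b) := by
      calc c' * b' * (c * b) = c' * (b' * c) * b := by group
        _ = c' * (c * b') * b := by rw [h2]
        _ = (c' * c) * (b' * b) := by group
        _ = (c * c') * (b' * b) := by rw [h3]
    rw [e1, e2]
    rcases hcomE b hb b' hb' with h | h
    · left; rw [h]
    · right; rw [h]; group
  · intro x hx h
    exact hcases x (hcen x hx h)
  · have h1 : Cy ≤ Subgroup.normalizer (E : Set G) := by
      intro c hc
      rw [Subgroup.mem_normalizer_iff]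
      intro y
      constructor
      · intro hy
        rw [← hcomR c hc y (hEle hy), mul_inv_cancel_right]; exact hy
      · intro hy
        have h2 := hcomR c hc _ (hEle hy)
        have h3 : c * y * c⁻¹ = y := by
          have h4 : c * y * c⁻¹ * c = c * (c * y * c⁻¹) := h2
          rw [inv_mul_cancel_right] at h4
          exact (mul_left_cancel h4).symm
        rwa [h3] at hy
    have h2 := Cfsg.Agent.StdL2.G23Coset.card_sup_mul_card_inf h1
    rw [hprod, hmeet, hCycard, hEcard] at h2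
    have h3 : Nat.card (E ⊓ Subgroup.centralizer (E : Set G) : Subgroup G) = 2 := by
      have h4 : E ⊓ Subgroup.centralizer (E : Set G) = (Subgroup.center E).map E.subtype := by
        ext x
        constructor
        · rintro ⟨hx, hx'⟩
          refine ⟨⟨x, hx⟩, ?_, rfl⟩
          change (⟨x, hx⟩ : E) ∈ Subgroup.center E
          rw [Subgroup.mem_center_iff]
          intro y
          exact Subtype.ext (Subgroup.mem_centralizer_iff.1 hx' y y.2)
        · rintro ⟨y, hy, rfl⟩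
          refine ⟨y.2, Subgroup.mem_centralizer_iff.2 fun w hw => ?_⟩
          exact congrArg Subtype.val (Subgroup.mem_center_iff.1 hy ⟨w, hw⟩)
      rw [h4, Subgroup.card_map_of_injective E.subtype_injective]
      exact hEex.2
    rw [h3] at h2
    omega

end Cfsg.Agent.H345.HSA
end

-- part: H345/HSB
section
/-!
# S3346, part 2: the two local subgroups `C_G(t)` and `N_G(V)`
-/

set_option autoImplicit false



namespace Cfsg.Agent.H345.HSA.Rdat

open Subgroup

variable {G : Type*} [Group G] {t u : G} {R : Subgroup G}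

theorem commt (h : Rdat t u R) : ∀ x ∈ R, x * t = t * x := by
  intro x hx
  have h1 := h.comm_u x hx
  rw [← h.u_sq, ← mul_assoc, h1, mul_assoc, h1, mul_assoc]

theorem t_mem (h : Rdat t u R) : t ∈ R := by
  rw [← h.u_sq]; exact R.mul_mem h.u_mem h.u_mem

theorem u_ne (h : Rdat t u R) : u ≠ 1 := by
  intro h1
  apply h.t_ne
  rw [← h.u_sq, h1, one_mul]

theorem u_ne_t (h : Rdat t u R) : u ≠ t := by
  intro h1
  apply h.t_ne
  have h2 := h.u_sq
  rw [h1, h.t_sq] at h2
  exact h2.symm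

theorem card_u (h : Rdat t u R) : Nat.card (zpowers u) = 4 := by
  rw [Nat.card_zpowers]
  have : orderOf u = 2 ^ 2 := by
    refine orderOf_eq_prime_pow (p := 2) (n := 1) ?_ ?_
    · rw [pow_one, pow_two, h.u_sq]; exact h.t_ne
    · rw [show (2 : ℕ) ^ (1 + 1) = 2 * 2 from rfl, pow_mul, pow_two u, h.u_sq, pow_two]; exact h.t_sq
  simpa using this

theorem mem_zpowers_iff (h : Rdat t u R) {x : G} :
    x ∈ zpowers u ↔ x = 1 ∨ x = t ∨ x = u ∨ x = u * t := by
  constructor
  · intro hx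
    have hxR : x ∈ R := (zpowers_le.2 h.u_mem) hx
    apply h.cent x hxR
    intro y hy
    obtain ⟨n, rfl⟩ := Subgroup.mem_zpowers_iff.1 hx
    have h1 : Commute y u := h.comm_u y hy
    exact ((h1.zpow_right n).eq).symm
  · rintro (rfl | rfl | rfl | rfl)
    · exact one_mem _
    · rw [← h.u_sq]; exact mul_mem (mem_zpowers u) (mem_zpowers u)
    · exact mem_zpowers _
    · exact mul_mem (mem_zpowers u) (by rw [← h.u_sq]; exact mul_mem (mem_zpowers u) (mem_zpowers u))

theorem sq_zpowers (h : Rdat t u R) {x : G} (hx : x ∈ zpowers u) (hxx : x * x = 1) :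
    x = 1 ∨ x = t := by
  have h1 := h.commt u h.u_mem
  rcases h.mem_zpowers_iff.1 hx with rfl | rfl | rfl | rfl
  · exact Or.inl rfl
  · exact Or.inr rfl
  · exact absurd (h.u_sq.symm.trans hxx) h.t_ne
  · exfalso
    apply h.t_ne
    calc t = (u * u) * (t * t) := by rw [h.u_sq, h.t_sq, mul_one]
      _ = u * (u * t) * t := by group
      _ = u * (t * u) * t := by rw [h1]
      _ = u * t * (u * t) := by group
      _ = 1 := hxx

/-- The centraliser of `r` in a subgroup `B` of `R` has index at most 2. -/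
theorem card_le_two [Finite G] (h : Rdat t u R) {B : Subgroup G} (hB : B ≤ R) {r : G} (hr : r ∈ R) :
    Nat.card B ≤ 2 * Nat.card (B ⊓ centralizer ({r} : Set G) : Subgroup G) := by
  classical
  by_cases hall : ∀ b ∈ B, b * r = r * b
  · have : B ⊓ centralizer ({r} : Set G) = B :=
      inf_eq_left.2 fun b hb => mem_centralizer_singleton_iff.2 (hall b hb)
    rw [this]; omega
  push Not at hall
  obtain ⟨b0, hb0, hb0r⟩ := hall
  set C : Subgroup G := B ⊓ centralizer ({r} : Set G) with hC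
  have hbt : b0 * r = r * b0 * t := (h.comm b0 (hB hb0) r hr).resolve_left hb0r
  have hsub : (B : Set G) ⊆ (C : Set G) ∪ (fun c => c * b0) '' (C : Set G) := by
    intro b hb
    rcases h.comm b (hB hb) r hr with h1 | h1
    · exact Or.inl ⟨hb, mem_centralizer_singleton_iff.2 h1⟩
    · right
      refine ⟨b * b0⁻¹, ⟨B.mul_mem hb (B.inv_mem hb0), mem_centralizer_singleton_iff.2 ?_⟩, by simp⟩
      have h2 : b0⁻¹ * r = r * b0⁻¹ * t := by
        have h4 : r * b0 = b0 * r * t := by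
          rw [hbt, mul_assoc, h.t_sq, mul_one]
        have h3 : b0⁻¹ * (r * b0) * b0⁻¹ = b0⁻¹ * (b0 * r * t) * b0⁻¹ := by rw [h4]
        have h5 := h.commt b0 (hB hb0)
        have h6 : t * b0⁻¹ = b0⁻¹ * t := by
          rw [eq_inv_mul_iff_mul_eq, ← mul_assoc, h5, mul_inv_cancel_right]
        calc b0⁻¹ * r = b0⁻¹ * (r * b0) * b0⁻¹ := by group
          _ = b0⁻¹ * (b0 * r * t) * b0⁻¹ := h3
          _ = r * (t * b0⁻¹) := by group
          _ = r * (b0⁻¹ * t) := by rw [h6]
          _ = r * b0⁻¹ * t := by group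
      have h7 : t * b0⁻¹ = b0⁻¹ * t := by
        rw [eq_inv_mul_iff_mul_eq, ← mul_assoc, h.commt b0 (hB hb0), mul_inv_cancel_right]
      calc b * b0⁻¹ * r = b * (b0⁻¹ * r) := by group
        _ = b * (r * b0⁻¹ * t) := by rw [h2]
        _ = (b * r) * b0⁻¹ * t := by group
        _ = (r * b * t) * b0⁻¹ * t := by rw [h1]
        _ = r * b * (t * b0⁻¹) * t := by group
        _ = r * b * (b0⁻¹ * t) * t := by rw [h7]
        _ = r * (b * b0⁻¹) * (t * t) := by group
        _ = r * (b * b0⁻¹) := by rw [h.t_sq, mul_one]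
  have h1 : (B : Set G).ncard ≤ (C : Set G).ncard + (C : Set G).ncard :=
    (Set.ncard_le_ncard hsub (Set.toFinite _)).trans ((Set.ncard_union_le _ _).trans
      (Nat.add_le_add_left (Set.ncard_image_le (Set.toFinite _)) _))
  have h2 : Nat.card B = (B : Set G).ncard := rfl
  have h3 : Nat.card C = (C : Set G).ncard := rfl
  omega

/-- An abelian subgroup of `R` has order at most 16. -/
theorem card_comm_le [Finite G] (h : Rdat t u R) {B : Subgroup G} (hB : B ≤ R)
    (hc : ∀ x ∈ B, ∀ y ∈ B, x * y = y * x) : Nat.card B ≤ 16 := by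
  classical
  by_contra hlt
  have hdvd : Nat.card B ∣ 64 := h.card ▸ Subgroup.card_dvd_of_le hB
  have h32 : Nat.card B = 32 ∨ Nat.card B = 64 := by
    obtain ⟨k, hk, hk'⟩ := (Nat.dvd_prime_pow Nat.prime_two).1 (show Nat.card B ∣ 2 ^ 6 from hdvd)
    interval_cases k <;> omega
  have hfour : ∀ Z : Subgroup G, Z ≤ zpowers u → Nat.card Z ≤ 4 := by
    intro Z hZ
    rw [← h.card_u]
    exact Nat.le_of_dvd Nat.card_pos (Subgroup.card_dvd_of_le hZ)
  rcases h32 with h32 | h64
  · -- `B` of index two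
    obtain ⟨r, hr, hrB⟩ : ∃ r ∈ R, r ∉ B := by
      by_contra hcon
      push Not at hcon
      have := Nat.le_of_dvd Nat.card_pos (Subgroup.card_dvd_of_le hcon)
      rw [h.card] at this
      omega
    have hidx : (B.subgroupOf R).index = 2 := by
      have h1 := (B.subgroupOf R).card_mul_index
      rw [Nat.card_congr (Subgroup.subgroupOfEquivOfLe hB).toEquiv, h.card, h32] at h1
      omega
    have h2 : Nat.card (B ⊓ centralizer ({r} : Set G) : Subgroup G) ≤ 4 := by
      apply hfour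
      rintro b ⟨hb, hbr⟩
      have hbr' := mem_centralizer_singleton_iff.1 hbr
      have h3 := h.cent b (hB hb) ?_
      · exact h.mem_zpowers_iff.2 h3
      · intro y hy
        by_cases hyB : y ∈ B
        · exact hc b hb y hyB
        · have h4 : (⟨y, hy⟩ : R) * (⟨r, hr⟩ : R)⁻¹ ∈ B.subgroupOf R := by
            rw [mul_mem_iff_of_index_two hidx, inv_mem_iff]
            exact ⟨fun h => absurd h hyB, fun h => absurd h hrB⟩
          have h5 : y * r⁻¹ ∈ B := h4
          have h6 := hc b hb _ h5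
          calc b * y = (b * (y * r⁻¹)) * r := by group
            _ = (y * r⁻¹) * (b * r) := by rw [h6]; group
            _ = (y * r⁻¹) * (r * b) := by rw [hbr']
            _ = y * b := by group
    have := h.card_le_two hB hr
    omega
  · have hBR : B = R := Subgroup.eq_of_le_of_card_ge hB (by rw [h64, h.card])
    have h1 : Nat.card B ≤ 4 := by
      apply hfour
      intro b hb
      exact h.mem_zpowers_iff.2 (h.cent b (hB hb) fun y hy => hc b hb y (hBR ▸ hy))
    omega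

end Cfsg.Agent.H345.HSA.Rdat

namespace Cfsg.Agent.H345.HSB

open Cfsg.Agent.H345.HSA Cfsg.Agent.StdL2.G23Aut Subgroup

variable {G : Type*} [Group G]

/-- The configuration: `H = C_G(t)`, `R = O₂(H)`, `V ≤ R`, `A = O₂(N_G(V))`. -/
structure Sit (t u : G) (R V A : Subgroup G) : Prop where
  r : Rdat t u R
  oct : Oct V
  VR : V ≤ R
  VA : V ≤ A
  Acomm : ∀ a ∈ A, ∀ b ∈ A, a * b = b * a
  Aexp : ∀ a ∈ A, a * a * (a * a) = 1
  Aom : ∀ a ∈ A, a * a = 1 → a ∈ V
  Acard : Nat.card A = 64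
  Anorm : ∀ g ∈ normalizer (V : Set G), ∀ a ∈ A, g * a * g⁻¹ ∈ A
  cardN : Nat.card (normalizer (V : Set G)) = 64 * 168
  simp : ∀ K : Subgroup G, A ≤ K → K ≤ normalizer (V : Set G) →
    (∀ g ∈ normalizer (V : Set G), ∀ x ∈ K, g * x * g⁻¹ ∈ K) → K = A ∨ K = normalizer (V : Set G)
  cardC : Nat.card (centralizer ({t} : Set G)) = 7680


namespace Sit

variable {t u : G} {R V A : Subgroup G}

theorem Vcomm (h : Sit t u R V A) : ∀ x ∈ V, ∀ y ∈ V, x * y = y * x :=
  fun _ hx _ hy => h.oct.comm hx hy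

/-- `t ∈ V` -/
theorem t_mem [Finite G] (h : Sit t u R V A) : t ∈ V := by
  by_contra htV
  have hcu : ∀ v ∈ V, ∀ c ∈ zpowers u, v * c = c * v := by
    intro v hv c hc
    obtain ⟨n, rfl⟩ := Subgroup.mem_zpowers_iff.1 hc
    exact ((show Commute v u from h.r.comm_u v (h.VR hv)).zpow_right n).eq
  have hn : V ≤ normalizer ((zpowers u : Subgroup G) : Set G) := by
    intro v hv
    rw [Subgroup.mem_normalizer_iff]
    intro y
    constructor
    · intro hy
      rw [hcu v hv y hy, mul_inv_cancel_right]; exact hy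
    · intro hy
      have h2 := hcu v hv _ hy
      have h3 : v * y * v⁻¹ = y := by
        have h4 : v * (v * y * v⁻¹) = v * y := by rw [h2]; group
        exact mul_left_cancel h4
      rwa [h3] at hy
  have h1 := Cfsg.Agent.StdL2.G23Coset.card_sup_mul_card_inf hn
  have h2 : V ⊓ zpowers u = ⊥ := by
    rw [eq_bot_iff]
    rintro x ⟨hx, hx'⟩
    rcases h.r.sq_zpowers hx' (h.oct.sq x hx) with rfl | rfl
    · exact one_mem _
    · exact absurd hx htV
  rw [h2, h.oct.card, h.r.card_u, Subgroup.card_bot] at h1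
  have h3 : Nat.card (V ⊔ zpowers u : Subgroup G) ≤ 16 := by
    refine h.r.card_comm_le (sup_le h.VR (zpowers_le.2 h.r.u_mem)) ?_
    intro x hx y hy
    obtain ⟨v, hv, c, hc, rfl⟩ := mem_sup_comm hcu hx
    obtain ⟨v', hv', c', hc', rfl⟩ := mem_sup_comm hcu hy
    have e1 := hcu v' hv' c hc
    have e2 := hcu v hv c' hc'
    have e3 := h.Vcomm v hv v' hv'
    have e4 : c * c' = c' * c := by
      obtain ⟨m, rfl⟩ := Subgroup.mem_zpowers_iff.1 hc
      obtain ⟨n, rfl⟩ := Subgroup.mem_zpowers_iff.1 hc'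
      exact zpow_mul_comm u m n
    calc v * c * (v' * c') = v * (c * v') * c' := by group
      _ = v * (v' * c) * c' := by rw [e1]
      _ = (v * v') * (c * c') := by group
      _ = (v' * v) * (c' * c) := by rw [e3, e4]
      _ = v' * (v * c') * c := by group
      _ = v' * (c' * v) * c := by rw [e2]
      _ = v' * c' * (v * c) := by group
  omega

theorem A_le (h : Sit t u R V A) : A ≤ centralizer (V : Set G) := fun a ha =>
  Subgroup.mem_centralizer_iff.2 fun v hv => h.Acomm v (h.VA hv) a ha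

/-- `C_G(V) = A` -/
theorem cent_eq [Finite G] (h : Sit t u R V A) : centralizer (V : Set G) = A := by
  have hle : centralizer (V : Set G) ≤ normalizer (V : Set G) := Subgroup.centralizer_le_normalizer _
  rcases h.simp _ h.A_le hle (by
    intro g hg x hx
    rw [Subgroup.mem_centralizer_iff]
    intro v hv
    have h1 : g⁻¹ * v * g ∈ V := by
      have := (Subgroup.mem_normalizer_iff.1 (inv_mem hg) v).1 hv
      rwa [inv_inv] at this
    have h2 := Subgroup.mem_centralizer_iff.1 hx _ h1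
    calc v * (g * x * g⁻¹) = g * ((g⁻¹ * v * g) * x) * g⁻¹ := by group
      _ = g * (x * (g⁻¹ * v * g)) * g⁻¹ := by rw [h2]
      _ = g * x * g⁻¹ * v := by group) with h1 | h1
  · exact h1
  · exfalso
    have h2 : normalizer (V : Set G) ≤ centralizer ({t} : Set G) := by
      rw [← h1]
      exact Subgroup.centralizer_le (by simpa using h.t_mem)
    have h3 := Subgroup.card_dvd_of_le h2
    rw [h.cardN, h.cardC] at h3
    norm_num at h3

theorem full [Finite G] (h : Sit t u R V A) : Full (normalizer (V : Set G)) V := by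
  rw [full_iff le_rfl]
  have h1 := card_img_mul (K := normalizer (V : Set G)) (V := V) le_rfl
  rw [inf_eq_right.2 (Subgroup.centralizer_le_normalizer _), h.cent_eq, h.Acard, h.cardN] at h1
  have : Finite (MulAut V) := h.oct.finite_aut
  apply Subgroup.eq_top_of_card_eq
  rw [h.oct.card_aut]
  omega

/-- `N_G(V)` is transitive on `V#`. -/
theorem exists_t [Finite G] (h : Sit t u R V A) {v : G} (hv : v ∈ V) (hv1 : v ≠ 1) :
    ∃ g ∈ normalizer (V : Set G), g * t * g⁻¹ = v := by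
  obtain ⟨y, w, b⟩ := h.oct.exists_bas h.t_mem h.r.t_ne
  obtain ⟨y', w', b'⟩ := h.oct.exists_bas hv hv1
  obtain ⟨k, hk, -, h1, -, -⟩ := h.full.bas h.oct b b'
  exact ⟨k, hk, h1⟩

/-- the stabiliser of `t` in `N_G(V)` is transitive on `V - ⟨t⟩`. -/
theorem exists_x [Finite G] (h : Sit t u R V A) {v w : G} (hv : v ∈ V) (hv1 : v ≠ 1) (hvt : v ≠ t)
    (hw : w ∈ V) (hw1 : w ≠ 1) (hwt : w ≠ t) :
    ∃ g ∈ normalizer (V : Set G), g * t = t * g ∧ g * v * g⁻¹ = w := by
  obtain ⟨y, b⟩ := h.oct.exists_bas' h.t_mem h.r.t_ne hv hv1 hvt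
  obtain ⟨y', b'⟩ := h.oct.exists_bas' h.t_mem h.r.t_ne hw hw1 hwt
  obtain ⟨k, hk, -, h1, h2, -⟩ := h.full.bas h.oct b b'
  exact ⟨k, hk, mul_inv_eq_iff_eq_mul.1 h1, h2⟩

/-- the order of `N_G(V) ∩ C_G(t)` -/
theorem card_L [Finite G] (h : Sit t u R V A) :
    Nat.card (normalizer (V : Set G) ⊓ centralizer ({t} : Set G) : Subgroup G) = 1536 := by
  have h1 := Cfsg.Agent.GH.C2GrowL3Base.card_orb (normalizer (V : Set G)) t
  have h2 : {w : G | ∃ g ∈ normalizer (V : Set G), g * t * g⁻¹ = w} = (V : Set G) \ {1} := by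
    ext w
    constructor
    · rintro ⟨g, hg, rfl⟩
      refine ⟨(Subgroup.mem_normalizer_iff.1 hg t).1 h.t_mem, ?_⟩
      intro h3
      exact h.r.t_ne (conj_eq_one_iff.1 h3)
    · rintro ⟨hw, hw1⟩
      exact h.exists_t hw hw1
  have h3 : Nat.card {w : G // ∃ g ∈ normalizer (V : Set G), g * t * g⁻¹ = w} = 7 := by
    have h4 : Nat.card {w : G // ∃ g ∈ normalizer (V : Set G), g * t * g⁻¹ = w} =
        {w : G | ∃ g ∈ normalizer (V : Set G), g * t * g⁻¹ = w}.ncard := rfl
    rw [h4, h2, Set.ncard_sdiff_singleton_of_mem (one_mem V)]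
    have h5 : (V : Set G).ncard = Nat.card V := rfl
    rw [h5, h.oct.card]
  rw [h3, h.cardN] at h1
  omega

end Sit

end Cfsg.Agent.H345.HSB
end

-- part: H345/HSC
section
/-!
# S3346, part 3: the lines
-/

set_option autoImplicit false

namespace Cfsg.Agent.H345.HSB

open Cfsg.Agent.H345.HSA Cfsg.Agent.StdL2.G23Aut Subgroup

variable {G : Type*} [Group G]

namespace Sit

variable {t u : G} {R V A : Subgroup G}

/-- the order of `N_G(V) ∩ C_G(t) ∩ C_G(x)`, `x ∈ V - ⟨t⟩` -/
theorem card_Lx [Finite G] (h : Sit t u R V A) {x : G} (hx : x ∈ V) (hx1 : x ≠ 1) (hxt : x ≠ t) :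
    Nat.card ((normalizer (V : Set G) ⊓ centralizer ({t} : Set G)) ⊓ centralizer ({x} : Set G) :
      Subgroup G) = 256 := by
  have h1 := Cfsg.Agent.GH.C2GrowL3Base.card_orb
    (normalizer (V : Set G) ⊓ centralizer ({t} : Set G) : Subgroup G) x
  have h2 : {w : G | ∃ g ∈ (normalizer (V : Set G) ⊓ centralizer ({t} : Set G) : Subgroup G),
      g * x * g⁻¹ = w} = ((V : Set G) \ {1}) \ {t} := by
    ext w
    constructor
    · rintro ⟨g, hg, rfl⟩
      refine ⟨⟨(Subgroup.mem_normalizer_iff.1 hg.1 x).1 hx, ?_⟩, ?_⟩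
      · intro h3
        exact hx1 (conj_eq_one_iff.1 h3)
      · intro h3
        have h4 : g * x * g⁻¹ = t := h3
        have h5 : g * t * g⁻¹ = t := mul_inv_eq_iff_eq_mul.2 (mem_centralizer_singleton_iff.1 hg.2)
        exact hxt (mul_left_cancel (mul_right_cancel (h4.trans h5.symm)))
    · rintro ⟨⟨hw, hw1⟩, hwt⟩
      obtain ⟨g, hg, hgt, hgx⟩ := h.exists_x hx hx1 hxt hw hw1 hwt
      exact ⟨g, ⟨hg, mem_centralizer_singleton_iff.2 hgt⟩, hgx⟩
  have h3 : Nat.card {w : G // ∃ g ∈ (normalizer (V : Set G) ⊓ centralizer ({t} : Set G) : Subgroup G),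
      g * x * g⁻¹ = w} = 6 := by
    have h4 : Nat.card {w : G // ∃ g ∈ (normalizer (V : Set G) ⊓ centralizer ({t} : Set G) : Subgroup G),
        g * x * g⁻¹ = w} =
        {w : G | ∃ g ∈ (normalizer (V : Set G) ⊓ centralizer ({t} : Set G) : Subgroup G),
      g * x * g⁻¹ = w}.ncard := rfl
    rw [h4, h2, Set.ncard_sdiff_singleton_of_mem (show t ∈ (V : Set G) \ {1} from ⟨h.t_mem, h.r.t_ne⟩),
      Set.ncard_sdiff_singleton_of_mem (one_mem V)]
    have h5 : (V : Set G).ncard = Nat.card V := rfl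
    rw [h5, h.oct.card]
  rw [h3, h.card_L] at h1
  omega

/-- the orbit of `x` under `C_G(t)` -/
def orb (t x : G) : Set G := {w : G | ∃ g ∈ centralizer ({t} : Set G), g * x * g⁻¹ = w}

theorem mem_R_of_orb (h : Sit t u R V A) {x w : G} (hx : x ∈ V) (hw : w ∈ orb t x) : w ∈ R := by
  obtain ⟨g, hg, rfl⟩ := hw
  exact h.r.conj_mem g (mem_centralizer_singleton_iff.1 hg) x (h.VR hx)

/-- conjugates of `V` -/
theorem V_sub_orb [Finite G] (h : Sit t u R V A) {x : G} (hx : x ∈ V) (hx1 : x ≠ 1) (hxt : x ≠ t)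
    {g : G} (hg : g * t = t * g) {v : G} (hv : v ∈ V) :
    g * v * g⁻¹ = 1 ∨ g * v * g⁻¹ = t ∨ g * v * g⁻¹ ∈ orb t x := by
  by_cases hv1 : v = 1
  · left; rw [hv1]; group
  by_cases hvt : v = t
  · right; left; rw [hvt, hg]; group
  right; right
  obtain ⟨k, -, hkt, hkx⟩ := h.exists_x hx hx1 hxt hv hv1 hvt
  refine ⟨g * k, ?_, by rw [← hkx]; group⟩
  rw [mem_centralizer_singleton_iff, mul_assoc, hkt, ← mul_assoc, hg, mul_assoc]

/-- the conjugate `g V g⁻¹` -/
def cj (V : Subgroup G) (g : G) : Subgroup G := V.map (MulAut.conj g).toMonoidHom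

theorem mem_cj {g x : G} : x ∈ cj V g ↔ ∃ v ∈ V, g * v * g⁻¹ = x := Iff.rfl

theorem card_cj (V : Subgroup G) (g : G) : Nat.card (cj V g) = Nat.card V :=
  Subgroup.card_map_of_injective (MulAut.conj g).injective

theorem conj_inj {g a b : G} (h : g * a * g⁻¹ = g * b * g⁻¹) : a = b :=
  mul_left_cancel (mul_right_cancel h)

theorem mem_norm_of_cj_le [Finite G] {V : Subgroup G} {g : G} (h : cj V g ≤ V) :
    g ∈ normalizer (V : Set G) := by
  have heq : cj V g = V := Subgroup.eq_of_le_of_card_ge h (card_cj V g).ge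
  rw [Subgroup.mem_normalizer_iff]
  intro x
  constructor
  · intro hx
    exact h (mem_cj.2 ⟨x, hx, rfl⟩)
  · intro hx
    rw [← heq] at hx
    obtain ⟨v, hv, hvx⟩ := mem_cj.1 hx
    rw [← conj_inj hvx]; exact hv

theorem mem_norm_of_cj_le_cj [Finite G] {V : Subgroup G} {g k : G} (h : cj V g ≤ cj V k) :
    k⁻¹ * g ∈ normalizer (V : Set G) := by
  apply mem_norm_of_cj_le
  intro x hx
  obtain ⟨v, hv, rfl⟩ := mem_cj.1 hx
  obtain ⟨w, hw, hwv⟩ := mem_cj.1 (h (mem_cj.2 ⟨v, hv, rfl⟩))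
  have : k⁻¹ * g * v * (k⁻¹ * g)⁻¹ = w := by
    calc k⁻¹ * g * v * (k⁻¹ * g)⁻¹ = k⁻¹ * (g * v * g⁻¹) * k := by group
      _ = w := by rw [← hwv]; group
  rw [this]; exact hw

/-- the orbit of `x` has more than ten elements -/
theorem orb_large [Finite G] (h : Sit t u R V A) {x : G} (hx : x ∈ V) (hx1 : x ≠ 1) (hxt : x ≠ t) :
    10 < (orb t x).ncard := by
  classical
  by_contra hlt
  push Not at hlt
  set H : Subgroup G := centralizer ({t} : Set G) with hH
  set L : Subgroup G := normalizer (V : Set G) ⊓ H with hL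
  have hcL : Nat.card L = 1536 := h.card_L
  have hcH : Nat.card H = 7680 := h.cardC
  -- an element of `H` outside `N(V)`
  obtain ⟨g, hg, hgN⟩ : ∃ g ∈ H, g ∉ normalizer (V : Set G) := by
    by_contra hcon
    push Not at hcon
    have h1 : H ≤ L := fun g hg => ⟨hcon g hg, hg⟩
    have := Nat.le_of_dvd Nat.card_pos (Subgroup.card_dvd_of_le h1)
    omega
  -- another one
  obtain ⟨k, hk, hkN, hkg⟩ : ∃ k ∈ H, k ∉ normalizer (V : Set G) ∧ g⁻¹ * k ∉ normalizer (V : Set G) := by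
    by_contra hcon
    push Not at hcon
    have hsub : (H : Set G) ⊆ (L : Set G) ∪ (fun l => g * l) '' (L : Set G) := by
      intro k hk
      by_cases hkN : k ∈ normalizer (V : Set G)
      · exact Or.inl ⟨hkN, hk⟩
      · right
        exact ⟨g⁻¹ * k, ⟨hcon k hk hkN, H.mul_mem (H.inv_mem hg) hk⟩, by simp⟩
    have h1 : (H : Set G).ncard ≤ (L : Set G).ncard + (L : Set G).ncard :=
      (Set.ncard_le_ncard hsub (Set.toFinite _)).trans ((Set.ncard_union_le _ _).trans
        (Nat.add_le_add_left (Set.ncard_image_le (Set.toFinite _)) _))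
    have h2 : Nat.card H = (H : Set G).ncard := rfl
    have h3 : Nat.card L = (L : Set G).ncard := rfl
    omega
  have hgt := mem_centralizer_singleton_iff.1 hg
  have hkt := mem_centralizer_singleton_iff.1 hk
  -- the union of `V` and `V^g`
  set U : Set G := insert 1 (insert t (orb t x)) with hU
  have hUc : U.ncard ≤ 12 := by
    have h1 := Set.ncard_insert_le (1 : G) (insert t (orb t x))
    have h2 := Set.ncard_insert_le t (orb t x)
    rw [hU]; omega
  have hsubU : ∀ g, g * t = t * g → (cj V g : Set G) ⊆ U := by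
    intro g hg w hw
    obtain ⟨v, hv, rfl⟩ := mem_cj.1 hw
    rcases h.V_sub_orb hx hx1 hxt hg hv with h1 | h1 | h1
    · exact Or.inl h1
    · exact Or.inr (Or.inl h1)
    · exact Or.inr (Or.inr h1)
  have hV1 : (V : Set G) ⊆ U := by
    have h1 := hsubU 1 (by simp)
    intro v hv
    exact h1 (mem_cj.2 ⟨v, hv, by simp⟩)
  have hinf : Nat.card (V ⊓ cj V g : Subgroup G) ≤ 4 := by
    by_contra hlt4
    have h1 : Nat.card (V ⊓ cj V g : Subgroup G) ∣ 8 := h.oct.card ▸ Subgroup.card_dvd_of_le inf_le_left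
    have h2 : Nat.card (V ⊓ cj V g : Subgroup G) = 8 := by
      obtain ⟨j, hj, hj'⟩ := (Nat.dvd_prime_pow Nat.prime_two).1
        (show Nat.card (V ⊓ cj V g : Subgroup G) ∣ 2 ^ 3 from h1)
      interval_cases j <;> omega
    have h3 : (V ⊓ cj V g : Subgroup G) = cj V g :=
      Subgroup.eq_of_le_of_card_ge inf_le_right (by rw [card_cj, h.oct.card, h2])
    exact hgN (mem_norm_of_cj_le (inf_eq_right.1 h3))
  have hunion : (V : Set G) ∪ (cj V g : Set G) = U := by
    apply Set.eq_of_subset_of_ncard_le (Set.union_subset hV1 (hsubU g hgt)) _ (Set.toFinite _)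
    have h1 := Set.ncard_union_add_ncard_inter (V : Set G) (cj V g : Set G)
    have h2 : (V : Set G).ncard = Nat.card V := rfl
    have h3 : (cj V g : Set G).ncard = Nat.card (cj V g) := rfl
    have h4 : ((V : Set G) ∩ (cj V g : Set G)).ncard = Nat.card (V ⊓ cj V g : Subgroup G) := rfl
    rw [card_cj] at h3
    rw [h.oct.card] at h2 h3
    omega
  -- `V^k` is contained in the union
  have hk1 : (cj V k : Set G) ⊆ (V : Set G) ∪ (cj V g : Set G) := hunion ▸ hsubU k hkt
  have hk2 : cj V k ≤ V ∨ cj V k ≤ cj V g := by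
    by_contra hcon
    push Not at hcon
    obtain ⟨h1, h2⟩ := hcon
    obtain ⟨a, ha, haV⟩ := SetLike.not_le_iff_exists.1 h1
    obtain ⟨b, hb, hbV⟩ := SetLike.not_le_iff_exists.1 h2
    have ha' : a ∈ cj V g := (hk1 ha).resolve_left haV
    have hb' : b ∈ V := (hk1 hb).resolve_right hbV
    rcases hk1 ((cj V k).mul_mem ha hb) with h3 | h3
    · exact haV ((Subgroup.mul_mem_cancel_right V hb').1 h3)
    · exact hbV ((Subgroup.mul_mem_cancel_left (cj V g) ha').1 h3)
  rcases hk2 with h1 | h1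
  · exact hkN (mem_norm_of_cj_le h1)
  · exact hkg (mem_norm_of_cj_le_cj h1)

/-- the orbit of `x` has 30 elements -/
theorem orb_card [Finite G] (h : Sit t u R V A) {x : G} (hx : x ∈ V) (hx1 : x ≠ 1) (hxt : x ≠ t) :
    (orb t x).ncard = 30 ∧
    Nat.card (centralizer ({t} : Set G) ⊓ centralizer ({x} : Set G) : Subgroup G) = 256 := by
  classical
  set H : Subgroup G := centralizer ({t} : Set G) with hH
  set C : Subgroup G := H ⊓ centralizer ({x} : Set G) with hC
  have h1 := Cfsg.Agent.GH.C2GrowL3Base.card_orb H x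
  have h2 : Nat.card {w : G // ∃ g ∈ H, g * x * g⁻¹ = w} = (orb t x).ncard := rfl
  rw [h2, h.cardC, ← hC] at h1
  have h3 : 256 ∣ Nat.card C := by
    rw [← h.card_Lx hx hx1 hxt]
    apply Subgroup.card_dvd_of_le
    rintro g ⟨⟨-, hg⟩, hg'⟩
    exact ⟨hg, hg'⟩
  obtain ⟨r, hr⟩ := h3
  have h4 := h.orb_large hx hx1 hxt
  have h5 : r * (orb t x).ncard = 30 := by
    rw [hr] at h1
    have : 256 * (r * (orb t x).ncard) = 256 * 30 := by rw [← mul_assoc]; omega
    exact Nat.eq_of_mul_eq_mul_left (by norm_num) this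
  have h6 : r ≤ 2 := by
    by_contra h7
    have : 3 * 11 ≤ r * (orb t x).ncard := Nat.mul_le_mul (by omega) (by omega)
    omega
  interval_cases r
  · omega
  · exact ⟨by omega, by omega⟩
  · exfalso
    -- `|C| = 512`, hence `R ≤ C`
    have hCn : C ≤ normalizer (R : Set G) := by
      intro c hc
      have hct := mem_centralizer_singleton_iff.1 hc.1
      have hct' : c⁻¹ * t = t * c⁻¹ := (show Commute c t from hct).inv_left.eq
      rw [Subgroup.mem_normalizer_iff]
      intro y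
      constructor
      · exact h.r.conj_mem c hct y
      · intro hy
        have := h.r.conj_mem c⁻¹ hct' _ hy
        have e : c⁻¹ * (c * y * c⁻¹) * c⁻¹⁻¹ = y := by group
        rwa [e] at this
    have h7 := Cfsg.Agent.StdL2.G23Coset.card_sup_mul_card_inf hCn
    rw [hr, h.r.card] at h7
    have h8 : Nat.card (C ⊓ R : Subgroup G) ∣ 64 := h.r.card ▸ Subgroup.card_dvd_of_le inf_le_right
    have h9 : Nat.card (C ⊔ R : Subgroup G) ∣ 7680 := by
      rw [← h.cardC]
      apply Subgroup.card_dvd_of_le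
      refine sup_le inf_le_left fun y hy => ?_
      exact mem_centralizer_singleton_iff.2 (h.r.commt y hy)
    have h10 : Nat.card (C ⊓ R : Subgroup G) ≠ 64 := by
      intro h11
      have h12 : (C ⊓ R : Subgroup G) = R :=
        Subgroup.eq_of_le_of_card_ge inf_le_right (by rw [h11, h.r.card])
      have h13 : ∀ y ∈ R, x * y = y * x := by
        intro y hy
        rw [← h12] at hy
        exact (mem_centralizer_singleton_iff.1 hy.1.2).symm
      have h14 := h.r.sq_zpowers (h.r.mem_zpowers_iff.2 (h.r.cent x (h.VR hx) h13)) (h.oct.sq x hx)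
      rcases h14 with h14 | h14
      · exact hx1 h14
      · exact hxt h14
    obtain ⟨j, hj, hj'⟩ := (Nat.dvd_prime_pow Nat.prime_two).1
      (show Nat.card (C ⊓ R : Subgroup G) ∣ 2 ^ 6 from h8)
    rw [hj'] at h7 h10
    interval_cases j
    all_goals first
      | omega
      | (have h15 : ∃ m, Nat.card (C ⊔ R : Subgroup G) = 2 ^ 10 * m := ⟨_, by
          first
          | exact (show Nat.card (C ⊔ R : Subgroup G) = 2 ^ 10 * 32 by omega)
          | exact (show Nat.card (C ⊔ R : Subgroup G) = 2 ^ 10 * 16 by omega)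
          | exact (show Nat.card (C ⊔ R : Subgroup G) = 2 ^ 10 * 8 by omega)
          | exact (show Nat.card (C ⊔ R : Subgroup G) = 2 ^ 10 * 4 by omega)
          | exact (show Nat.card (C ⊔ R : Subgroup G) = 2 ^ 10 * 2 by omega)
          | exact (show Nat.card (C ⊔ R : Subgroup G) = 2 ^ 10 * 1 by omega)⟩
         obtain ⟨m, hm⟩ := h15
         have h16 : 2 ^ 10 ∣ 7680 := (Dvd.intro m hm.symm).trans h9
         norm_num at h16)

end Sit

end Cfsg.Agent.H345.HSB
end

-- part: H345/HSD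
section
/-!
# S3346, part 4: the spread and the involution inverting `u`
-/

set_option autoImplicit false

namespace Cfsg.Agent.H345.HSB

open Cfsg.Agent.H345.HSA Cfsg.Agent.StdL2.G23Aut Subgroup

variable {G : Type*} [Group G]

namespace Sit

variable {t u : G} {R V A : Subgroup G}

theorem u_mem_A [Finite G] (h : Sit t u R V A) : u ∈ A := by
  rw [← h.cent_eq, Subgroup.mem_centralizer_iff]
  intro v hv
  exact h.r.comm_u v (h.VR hv)

theorem u_not_mem_V (h : Sit t u R V A) : u ∉ V := fun hu => h.r.t_ne (h.r.u_sq.symm.trans (h.oct.sq u hu))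

/-- conjugates of `u` under `C_G(t)` -/
theorem conj_u (h : Sit t u R V A) {g : G} (hg : g * t = t * g) :
    g * u * g⁻¹ = u ∨ g * u * g⁻¹ = u * t := by
  have h1 : g * u * g⁻¹ ∈ R := h.r.conj_mem g hg u h.r.u_mem
  have hg' : g⁻¹ * t = t * g⁻¹ := (show Commute g t from hg).inv_left.eq
  have h2 : ∀ y ∈ R, (g * u * g⁻¹) * y = y * (g * u * g⁻¹) := by
    intro y hy
    have h3 : g⁻¹ * y * g ∈ R := by
      have := h.r.conj_mem g⁻¹ hg' y hy
      rwa [inv_inv] at this
    have h4 := h.r.comm_u _ h3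
    calc (g * u * g⁻¹) * y = g * (u * (g⁻¹ * y * g)) * g⁻¹ := by group
      _ = g * ((g⁻¹ * y * g) * u) * g⁻¹ := by rw [h4]
      _ = y * (g * u * g⁻¹) := by group
  have h5 : (g * u * g⁻¹) * (g * u * g⁻¹) = t := by
    calc (g * u * g⁻¹) * (g * u * g⁻¹) = g * (u * u) * g⁻¹ := by group
      _ = t := by rw [h.r.u_sq, hg]; group
  rcases h.r.cent _ h1 h2 with h3 | h3 | h3 | h3
  · rw [h3, one_mul] at h5; exact absurd h5.symm h.r.t_ne
  · rw [h3, h.r.t_sq] at h5; exact absurd h5.symm h.r.t_ne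
  · exact Or.inl h3
  · exact Or.inr h3

/-- `R` normalises `V` -/
theorem R_le [Finite G] (h : Sit t u R V A) : R ≤ normalizer (V : Set G) := by
  have key : ∀ r ∈ R, ∀ v ∈ V, r * v * r⁻¹ ∈ V := by
    intro r hr v hv
    rcases h.r.comm r hr v (h.VR hv) with h1 | h1
    · rw [h1, mul_inv_cancel_right]; exact hv
    · have h2 := h.r.commt r hr
      have h3 : r * v * r⁻¹ = v * t := by
        rw [h1, mul_assoc v, h2, ← mul_assoc, mul_inv_cancel_right]
      rw [h3]; exact V.mul_mem hv h.t_mem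
  intro r hr
  rw [Subgroup.mem_normalizer_iff]
  intro y
  constructor
  · exact key r hr y
  · intro hy
    have := key r⁻¹ (R.inv_mem hr) _ hy
    have e : r⁻¹ * (r * y * r⁻¹) * r⁻¹⁻¹ = y := by group
    rwa [e] at this

/-- conjugation of `V` by elements of `R` -/
theorem R_act (h : Sit t u R V A) {r v : G} (hr : r ∈ R) (hv : v ∈ V) :
    r * v * r⁻¹ = v ∨ r * v * r⁻¹ = v * t := by
  rcases h.r.comm r hr v (h.VR hv) with h1 | h1
  · left; rw [h1, mul_inv_cancel_right]
  · right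
    have h2 := h.r.commt r hr
    rw [h1, mul_assoc v, h2, ← mul_assoc, mul_inv_cancel_right]

/-- the line `A ∩ R` has order 16 -/
theorem card_AR [Finite G] (h : Sit t u R V A) : Nat.card (A ⊓ R : Subgroup G) = 16 := by
  have h1 : Nat.card (A ⊓ R : Subgroup G) ≤ 16 :=
    h.r.card_comm_le inf_le_right fun x hx y hy => h.Acomm x hx.1 y hy.1
  have h2 : Nat.card (A ⊓ R : Subgroup G) ∣ 64 := h.Acard ▸ Subgroup.card_dvd_of_le inf_le_left
  have hVle : V ≤ A ⊓ R := le_inf h.VA h.VR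
  have h3 : 8 ∣ Nat.card (A ⊓ R : Subgroup G) := h.oct.card ▸ Subgroup.card_dvd_of_le hVle
  have h4 : Nat.card (A ⊓ R : Subgroup G) ≠ 8 := by
    intro h5
    have h6 : V = A ⊓ R := Subgroup.eq_of_le_of_card_ge hVle (by rw [h5, h.oct.card])
    exact h.u_not_mem_V (h6 ▸ ⟨h.u_mem_A, h.r.u_mem⟩)
  obtain ⟨j, hj, hj'⟩ := (Nat.dvd_prime_pow Nat.prime_two).1
    (show Nat.card (A ⊓ R : Subgroup G) ∣ 2 ^ 6 from h2)
  interval_cases j <;> omega

/-- `C_G(t) ∩ C_G(x) ≤ N_G(V)` -/
theorem cent_le [Finite G] (h : Sit t u R V A) {x : G} (hx : x ∈ V) (hx1 : x ≠ 1) (hxt : x ≠ t)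
    {g : G} (hg : g * t = t * g) (hgx : g * x = x * g) : g ∈ normalizer (V : Set G) := by
  have h1 : (normalizer (V : Set G) ⊓ centralizer ({t} : Set G)) ⊓ centralizer ({x} : Set G) ≤
      centralizer ({t} : Set G) ⊓ centralizer ({x} : Set G) := by
    rintro y ⟨⟨-, hy⟩, hy'⟩
    exact ⟨hy, hy'⟩
  have h2 := Subgroup.eq_of_le_of_card_ge h1 (by rw [h.card_Lx hx hx1 hxt, (h.orb_card hx hx1 hxt).2])
  have h3 : g ∈ (centralizer ({t} : Set G) ⊓ centralizer ({x} : Set G) : Subgroup G) :=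
    ⟨mem_centralizer_singleton_iff.2 hg, mem_centralizer_singleton_iff.2 hgx⟩
  rw [← h2] at h3
  exact h3.1.1

/-- every noncentral involution of `R` is in the orbit of `x` -/
theorem mem_orb [Finite G] (h : Sit t u R V A) {x : G} (hx : x ∈ V) (hx1 : x ≠ 1) (hxt : x ≠ t)
    {y : G} (hy : y ∈ R) (hyy : y * y = 1) (hy1 : y ≠ 1) (hyt : y ≠ t) : y ∈ orb t x := by
  classical
  set I : Set G := {y | y ∈ R ∧ y * y = 1} with hI
  have hdisj : Disjoint I ((fun y => y * u) '' I) := by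
    rw [Set.disjoint_left]
    rintro _ ⟨-, h1⟩ ⟨y, ⟨hyR, hyy⟩, rfl⟩
    apply h.r.t_ne
    calc t = (y * y) * (u * u) := by rw [hyy, h.r.u_sq, one_mul]
      _ = y * (y * u) * u := by group
      _ = y * (u * y) * u := by rw [h.r.comm_u y hyR]
      _ = y * u * (y * u) := by group
      _ = 1 := h1
  have hI32 : I.ncard ≤ 32 := by
    have h1 : (I ∪ (fun y => y * u) '' I) ⊆ (R : Set G) := by
      rintro w (⟨hw, -⟩ | ⟨y, ⟨hyR, -⟩, rfl⟩)
      · exact hw
      · exact R.mul_mem hyR h.r.u_mem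
    have h2 := Set.ncard_le_ncard h1 (Set.toFinite _)
    rw [Set.ncard_union_eq hdisj (Set.toFinite _) (Set.toFinite _),
      Set.ncard_image_of_injective _ (mul_left_injective u)] at h2
    have h3 : (R : Set G).ncard = Nat.card R := rfl
    rw [h3, h.r.card] at h2
    omega
  have hsub : orb t x ⊆ (I \ {1}) \ {t} := by
    intro w hw
    refine ⟨⟨⟨h.mem_R_of_orb hx hw, ?_⟩, ?_⟩, ?_⟩
    · obtain ⟨g, hg, rfl⟩ := hw
      calc g * x * g⁻¹ * (g * x * g⁻¹) = g * (x * x) * g⁻¹ := by group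
        _ = 1 := by rw [h.oct.sq x hx]; group
    · obtain ⟨g, hg, rfl⟩ := hw
      intro h3
      exact hx1 (conj_eq_one_iff.1 h3)
    · obtain ⟨g, hg, rfl⟩ := hw
      intro h3
      have h4 : g * x * g⁻¹ = t := h3
      have h5 : g * t * g⁻¹ = t := mul_inv_eq_iff_eq_mul.2 (mem_centralizer_singleton_iff.1 hg)
      exact hxt (mul_left_cancel (mul_right_cancel (h4.trans h5.symm)))
  have hcard : ((I \ {1}) \ {t}).ncard ≤ 30 := by
    have h1 : (1 : G) ∈ I := ⟨R.one_mem, one_mul 1⟩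
    have h2 : t ∈ I \ {1} := ⟨⟨h.r.t_mem, h.r.t_sq⟩, h.r.t_ne⟩
    rw [Set.ncard_sdiff_singleton_of_mem h2, Set.ncard_sdiff_singleton_of_mem h1]
    omega
  have heq := Set.eq_of_subset_of_ncard_le hsub (by rw [(h.orb_card hx hx1 hxt).1]; exact hcard)
    (Set.toFinite _)
  rw [heq]
  exact ⟨⟨⟨hy, hyy⟩, hy1⟩, hyt⟩

/-- a noncentral element of `V` -/
theorem exists_noncentral [Finite G] (h : Sit t u R V A) : ∃ x ∈ V, x ≠ 1 ∧ x ≠ t := by
  obtain ⟨y, w, b⟩ := h.oct.exists_bas h.t_mem h.r.t_ne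
  exact ⟨y, b.hy, b.y1, b.yx⟩

/-- all involutions of `R` are conjugate to `t` -/
theorem conj_t [Finite G] (h : Sit t u R V A) {y : G} (hy : y ∈ R) (hyy : y * y = 1) (hy1 : y ≠ 1) :
    ∃ g, g * t * g⁻¹ = y := by
  by_cases hyt : y = t
  · exact ⟨1, by rw [hyt]; group⟩
  obtain ⟨x, hx, hx1, hxt⟩ := h.exists_noncentral
  obtain ⟨g, -, hg⟩ := h.mem_orb hx hx1 hxt hy hyy hy1 hyt
  obtain ⟨k, -, hk⟩ := h.exists_t hx hx1
  exact ⟨g * k, by rw [← hg, ← hk]; group⟩

/-- elements of `R` up to `u` are involutions -/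
theorem sq_or (h : Sit t u R V A) {y : G} (hy : y ∈ R) : y * y = 1 ∨ y * u * (y * u) = 1 := by
  rcases h.r.sq y hy with h1 | h1
  · exact Or.inl h1
  · right
    calc y * u * (y * u) = y * (u * y) * u := by group
      _ = y * (y * u) * u := by rw [h.r.comm_u y hy]
      _ = (y * y) * (u * u) := by group
      _ = 1 := by rw [h1, h.r.u_sq, h.r.t_sq]

/-- faithfulness on `R / ⟨u⟩` -/
theorem self [Finite G] (h : Sit t u R V A) {g : G} (hg : g * t = t * g)
    (hgR : ∀ x ∈ R, g * x = x * g) : g = 1 ∨ g = t ∨ g = u ∨ g = u * t := by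
  have h1 : centralizer (R : Set G) ⊓ centralizer ({t} : Set G) ≤ R := by
    apply h.r.max
    · intro g hg; exact mem_centralizer_singleton_iff.1 hg.2
    · rintro g hg x ⟨hx, hx'⟩
      have hg' : g⁻¹ * t = t * g⁻¹ := (show Commute g t from hg).inv_left.eq
      refine ⟨?_, ?_⟩
      · change g * x * g⁻¹ ∈ centralizer (R : Set G)
        rw [Subgroup.mem_centralizer_iff]
        intro r hr
        have h1 : g⁻¹ * r * g ∈ R := by
          have := h.r.conj_mem g⁻¹ hg' r hr
          rwa [inv_inv] at this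
        have h2 := Subgroup.mem_centralizer_iff.1 hx _ h1
        calc r * (g * x * g⁻¹) = g * ((g⁻¹ * r * g) * x) * g⁻¹ := by group
          _ = g * (x * (g⁻¹ * r * g)) * g⁻¹ := by rw [h2]
          _ = g * x * g⁻¹ * r := by group
      · have h2 := mem_centralizer_singleton_iff.1 hx'
        change g * x * g⁻¹ ∈ centralizer ({t} : Set G)
        rw [mem_centralizer_singleton_iff]
        calc g * x * g⁻¹ * t = g * x * (g⁻¹ * t) := by group
          _ = g * (x * t) * g⁻¹ := by rw [hg']; group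
          _ = (g * t) * x * g⁻¹ := by rw [h2]; group
          _ = t * (g * x * g⁻¹) := by rw [hg]; group
    · have h2 : centralizer (R : Set G) ⊓ centralizer ({t} : Set G) ≤ A := by
        rw [← h.cent_eq]
        exact inf_le_left.trans (Subgroup.centralizer_le h.VR)
      have h3 : IsPGroup 2 A := IsPGroup.of_card (n := 6) (by rw [h.Acard]; norm_num)
      exact h3.to_le h2
  have h2 : g ∈ R := h1 ⟨Subgroup.mem_centralizer_iff.2 fun x hx => (hgR x hx).symm,
    mem_centralizer_singleton_iff.2 hg⟩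
  exact h.r.cent g h2 hgR

theorem faith [Finite G] (h : Sit t u R V A) {g : G} (hg : g * t = t * g)
    (hgR : ∀ x ∈ R, g * x * g⁻¹ = x ∨ g * x * g⁻¹ = x * t ∨ g * x * g⁻¹ = x * u ∨ g * x * g⁻¹ = x * (u * t)) :
    g ∈ R := by
  -- the subgroup of all such elements
  let K : Subgroup G :=
    { carrier := {g | g * t = t * g ∧ ∀ x ∈ R, x⁻¹ * (g * x * g⁻¹) ∈ zpowers u}
      one_mem' := ⟨by simp, fun x hx => by simp⟩
      mul_mem' := by
        rintro a b ⟨ha, ha'⟩ ⟨hb, hb'⟩
        refine ⟨by rw [mul_assoc, hb, ← mul_assoc, ha, mul_assoc], fun x hx => ?_⟩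
        have h1 := ha' x hx
        obtain ⟨n, hn⟩ := Subgroup.mem_zpowers_iff.1 (hb' x hx)
        have h2 : a * (x⁻¹ * (b * x * b⁻¹)) * a⁻¹ ∈ zpowers u := by
          rw [← hn]
          have h3 : a * u ^ n * a⁻¹ = (a * u * a⁻¹) ^ n := by rw [conj_zpow]
          rw [h3]
          apply Subgroup.zpow_mem
          rcases h.conj_u ha with h4 | h4 <;> rw [h4]
          · exact mem_zpowers u
          · exact h.r.mem_zpowers_iff.2 (Or.inr (Or.inr (Or.inr rfl)))
        have e : x⁻¹ * (a * b * x * (a * b)⁻¹) =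
            (x⁻¹ * (a * x * a⁻¹)) * (a * (x⁻¹ * (b * x * b⁻¹)) * a⁻¹) := by group
        rw [e]
        exact mul_mem h1 h2
      inv_mem' := by
        rintro a ⟨ha, ha'⟩
        have hai : a⁻¹ * t = t * a⁻¹ := (show Commute a t from ha).inv_left.eq
        refine ⟨hai, fun x hx => ?_⟩
        obtain ⟨n, hn⟩ := Subgroup.mem_zpowers_iff.1 (ha' x hx)
        have e : x⁻¹ * (a⁻¹ * x * a⁻¹⁻¹) = a⁻¹ * (u ^ n)⁻¹ * a⁻¹⁻¹ := by
          rw [hn]; group
        rw [e]
        have h3 : a⁻¹ * (u ^ n)⁻¹ * a⁻¹⁻¹ = (a⁻¹ * u * a⁻¹⁻¹) ^ (-n) := by rw [conj_zpow, zpow_neg]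
        rw [h3]
        apply Subgroup.zpow_mem
        rcases h.conj_u hai with h4 | h4 <;> rw [h4]
        · exact mem_zpowers u
        · exact h.r.mem_zpowers_iff.2 (Or.inr (Or.inr (Or.inr rfl))) }
  have hK : K ≤ R := by
    apply h.r.max
    · intro g hg; exact hg.1
    · rintro g hg a ⟨ha, ha'⟩
      have hg' : g⁻¹ * t = t * g⁻¹ := (show Commute g t from hg).inv_left.eq
      refine ⟨?_, ?_⟩
      · calc g * a * g⁻¹ * t = g * a * (g⁻¹ * t) := by group
          _ = g * (a * t) * g⁻¹ := by rw [hg']; group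
          _ = (g * t) * a * g⁻¹ := by rw [ha]; group
          _ = t * (g * a * g⁻¹) := by rw [hg]; group
      · intro x hx
        have h1 : g⁻¹ * x * g ∈ R := by
          have := h.r.conj_mem g⁻¹ hg' x hx
          rwa [inv_inv] at this
        obtain ⟨n, hn⟩ := Subgroup.mem_zpowers_iff.1 (ha' _ h1)
        have e : x⁻¹ * (g * a * g⁻¹ * x * (g * a * g⁻¹)⁻¹) = g * u ^ n * g⁻¹ := by
          rw [hn]; group
        rw [e, show g * u ^ n * g⁻¹ = (g * u * g⁻¹) ^ n by rw [conj_zpow]]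
        apply Subgroup.zpow_mem
        rcases h.conj_u hg with h4 | h4 <;> rw [h4]
        · exact mem_zpowers u
        · exact h.r.mem_zpowers_iff.2 (Or.inr (Or.inr (Or.inr rfl)))
    · rintro ⟨g, hg, hg'⟩
      refine ⟨3, Subtype.ext ?_⟩
      show g ^ (2 ^ 3) = 1
      have hgu : g * g * u * (g * g)⁻¹ = u := by
        have e : g * g * u * (g * g)⁻¹ = g * (g * u * g⁻¹) * g⁻¹ := by group
        rw [e]
        rcases h.conj_u hg with h4 | h4
        · rw [h4, h4]
        · rw [h4]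
          calc g * (u * t) * g⁻¹ = (g * u * g⁻¹) * (g * t * g⁻¹) := by group
            _ = u * t * t := by rw [h4, hg, mul_inv_cancel_right]
            _ = u := by rw [mul_assoc, h.r.t_sq, mul_one]
      have hinv : ∀ x ∈ R, x * x = 1 → g * g * x * (g * g)⁻¹ = x := by
        intro x hx hxx
        obtain ⟨z, hz, hzx⟩ : ∃ z ∈ zpowers u, g * x * g⁻¹ = x * z := ⟨_, hg' x hx, by group⟩
        have hzR : z ∈ R := (zpowers_le.2 h.r.u_mem) hz
        have hcz : ∀ y ∈ R, y * z = z * y := by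
          intro y hy
          obtain ⟨n, rfl⟩ := Subgroup.mem_zpowers_iff.1 hz
          exact ((show Commute y u from h.r.comm_u y hy).zpow_right n).eq
        have h1 : (x * z) * (x * z) = 1 := by
          rw [← hzx]
          calc g * x * g⁻¹ * (g * x * g⁻¹) = g * (x * x) * g⁻¹ := by group
            _ = 1 := by rw [hxx]; group
        have h2 : z * z = 1 := by
          calc z * z = (x * x) * (z * z) := by rw [hxx, one_mul]
            _ = x * (x * z) * z := by group
            _ = x * (z * x) * z := by rw [hcz x hx]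
            _ = (x * z) * (x * z) := by group
            _ = 1 := h1
        have e : g * g * x * (g * g)⁻¹ = g * (g * x * g⁻¹) * g⁻¹ := by group
        rw [e, hzx]
        rcases h.r.sq_zpowers hz h2 with rfl | rfl
        · rw [mul_one, hzx, mul_one]
        · calc g * (x * z) * g⁻¹ = (g * x * g⁻¹) * (g * z * g⁻¹) := by group
            _ = x * z * z := by rw [hzx, hg, mul_inv_cancel_right]
            _ = x := by rw [mul_assoc, h.r.t_sq, mul_one]
      have hall : ∀ x ∈ R, (g * g) * x = x * (g * g) := by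
        intro x hx
        rcases h.sq_or hx with h1 | h1
        · have := hinv x hx h1
          exact mul_inv_eq_iff_eq_mul.1 this
        · have h2 := hinv (x * u) (R.mul_mem hx h.r.u_mem) h1
          have h3 : g * g * x * (g * g)⁻¹ * (g * g * u * (g * g)⁻¹) = x * u := by
            rw [← h2]; group
          rw [hgu] at h3
          exact mul_inv_eq_iff_eq_mul.1 (mul_right_cancel h3)
      have hggt : (g * g) * t = t * (g * g) := by
        rw [mul_assoc, hg, ← mul_assoc, hg, mul_assoc]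
      have h5 := h.self hggt hall
      have h6 : (g * g) * (g * g) * ((g * g) * (g * g)) = 1 := by
        have h7 := h.r.commt u h.r.u_mem
        rcases h5 with h5 | h5 | h5 | h5 <;> rw [h5]
        · simp
        · rw [h.r.t_sq, mul_one]
        · rw [h.r.u_sq, h.r.t_sq]
        · have : u * t * (u * t) = t := by
            calc u * t * (u * t) = u * (t * u) * t := by group
              _ = u * (u * t) * t := by rw [h7]
              _ = (u * u) * (t * t) := by group
              _ = t := by rw [h.r.u_sq, h.r.t_sq, mul_one]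
          rw [this, h.r.t_sq]
      rw [← h6, show (2 : ℕ) ^ 3 = 8 by norm_num]
      simp only [pow_succ, pow_zero, one_mul, mul_assoc]
  refine hK ⟨hg, fun x hx => ?_⟩
  rw [h.r.mem_zpowers_iff]
  rcases hgR x hx with h1 | h1 | h1 | h1 <;> rw [h1]
  · left; group
  · right; left; group
  · right; right; left; group
  · right; right; right; group

end Sit

end Cfsg.Agent.H345.HSB
end

-- part: H345/HSE
section
/-!
# S3346, part 5: an involution of `N_G(V) ∩ C_G(t)` inverting `u`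
-/

set_option autoImplicit false

namespace Cfsg.Agent.H345.HSB

open Cfsg.Agent.H345.HSA Cfsg.Agent.StdL2.G23Aut Subgroup

variable {G : Type*} [Group G]

namespace Sit

variable {t u : G} {R V A : Subgroup G}

/-- Some element of `N_G(V) ∩ C_G(t)` inverts `u`. -/
theorem exists_inv [Finite G] (h : Sit t u R V A) :
    ∃ y ∈ normalizer (V : Set G), y * t = t * y ∧ y * u * y⁻¹ = u * t := by
  classical
  by_contra hcon
  push Not at hcon
  have hfix : ∀ y ∈ normalizer (V : Set G), y * t = t * y → y * u * y⁻¹ = u := fun y hy hyt =>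
    (h.conj_u hyt).resolve_right (hcon y hy hyt)
  -- the section `v ↦ u_v`
  have hU : ∃ U : G → G, ∀ g ∈ normalizer (V : Set G), U (g * t * g⁻¹) = g * u * g⁻¹ := by
    have hex : ∀ v : G, ∃ w : G, ∀ g ∈ normalizer (V : Set G), g * t * g⁻¹ = v → w = g * u * g⁻¹ := by
      intro v
      by_cases hv : ∃ g ∈ normalizer (V : Set G), g * t * g⁻¹ = v
      · obtain ⟨g, hg, hgv⟩ := hv
        refine ⟨g * u * g⁻¹, fun k hk hkv => ?_⟩
        have h1 : (k⁻¹ * g) * t = t * (k⁻¹ * g) := by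
          have h2 : g * t * g⁻¹ = k * t * k⁻¹ := hgv.trans hkv.symm
          calc k⁻¹ * g * t = k⁻¹ * (g * t * g⁻¹) * g := by group
            _ = k⁻¹ * (k * t * k⁻¹) * g := by rw [h2]
            _ = t * (k⁻¹ * g) := by group
        have h2 := hfix (k⁻¹ * g) (mul_mem (inv_mem hk) hg) h1
        calc g * u * g⁻¹ = k * ((k⁻¹ * g) * u * (k⁻¹ * g)⁻¹) * k⁻¹ := by group
          _ = k * u * k⁻¹ := by rw [h2]
      · exact ⟨1, fun g hg hgv => absurd ⟨g, hg, hgv⟩ hv⟩
    choose U hU using hex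
    exact ⟨U, fun g hg => hU _ g hg rfl⟩
  obtain ⟨U, hU⟩ := hU
  have hUk : ∀ k ∈ normalizer (V : Set G), ∀ v ∈ V, v ≠ 1 → U (k * v * k⁻¹) = k * U v * k⁻¹ := by
    intro k hk v hv hv1
    obtain ⟨g, hg, rfl⟩ := h.exists_t hv hv1
    rw [hU g hg]
    have e : k * (g * t * g⁻¹) * k⁻¹ = (k * g) * t * (k * g)⁻¹ := by group
    rw [e, hU _ (mul_mem hk hg)]
    group
  have hUsq : ∀ v ∈ V, v ≠ 1 → U v * U v = v := by
    intro v hv hv1
    obtain ⟨g, hg, rfl⟩ := h.exists_t hv hv1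
    rw [hU g hg, ← h.r.u_sq]; group
  have hUA : ∀ v ∈ V, v ≠ 1 → U v ∈ A := by
    intro v hv hv1
    obtain ⟨g, hg, rfl⟩ := h.exists_t hv hv1
    rw [hU g hg]
    exact h.Anorm g hg u h.u_mem_A
  have hVV := h.oct
  -- the product over a line
  have hE : ∀ a b c : G, Bas V a b c → U a * U b * U (a * b) = 1 := by
    intro a b c B
    have hab1 : a * b ≠ 1 := fun e => B.yx (hVV.eq_of_mul B.hy e).symm
    have habV : a * b ∈ V := V.mul_mem B.hx B.hy
    have hcab : a * b = b * a := h.Vcomm a B.hx b B.hy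
    have hUa := hUA a B.hx B.x1
    have hUb := hUA b B.hy B.y1
    have hUab := hUA (a * b) habV hab1
    have c1 := h.Acomm _ hUa _ hUb
    have c2 := h.Acomm _ hUa _ hUab
    have c3 := h.Acomm _ hUb _ hUab
    obtain ⟨E, hEdef⟩ : ∃ E, E = U a * U b * U (a * b) := ⟨_, rfl⟩
    have hEA : E ∈ A := by rw [hEdef]; exact mul_mem (mul_mem hUa hUb) hUab
    have hEE : E * E = 1 := by
      rw [hEdef]
      calc U a * U b * U (a * b) * (U a * U b * U (a * b))
          = U a * U b * (U (a * b) * U a) * U b * U (a * b) := by group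
        _ = U a * U b * (U a * U (a * b)) * U b * U (a * b) := by rw [c2]
        _ = U a * (U b * U a) * (U (a * b) * U b) * U (a * b) := by group
        _ = U a * (U a * U b) * (U b * U (a * b)) * U (a * b) := by rw [c1, c3]
        _ = (U a * U a) * (U b * U b) * (U (a * b) * U (a * b)) := by group
        _ = a * b * (a * b) := by
            rw [hUsq a B.hx B.x1, hUsq b B.hy B.y1, hUsq _ habV hab1]
        _ = 1 := h.oct.sq _ habV
    have hEV : E ∈ V := h.Aom E hEA hEE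
    -- the three-cycle
    have haba : a * b * a = b := by
      rw [hcab, mul_assoc, h.oct.sq a B.hx, mul_one]
    have hbab : b * (a * b) = a := by
      rw [hcab, ← mul_assoc, h.oct.sq b B.hy, one_mul]
    have B3 : Bas V b (a * b) c := by
      refine ⟨B.hy, habV, B.hw, B.y1, hab1, ?_, B.w1, B.wy, ?_, ?_⟩
      · intro e; exact B.x1 (mul_eq_right.1 e)
      · exact B.wxy
      · intro e; apply B.wx; rw [e, hbab]
    obtain ⟨k, hk, -, k1, k2, k3⟩ := h.full.bas h.oct B B3
    have hkE : k * E * k⁻¹ = E := by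
      have e1 : k * E * k⁻¹ = U b * U (a * b) * U a := by
        have e2 : k * (a * b) * k⁻¹ = a := by
          calc k * (a * b) * k⁻¹ = (k * a * k⁻¹) * (k * b * k⁻¹) := by group
            _ = a := by rw [k1, k2, hbab]
        have f1 := hUk k hk a B.hx B.x1
        have f2 := hUk k hk b B.hy B.y1
        have f3 := hUk k hk _ habV hab1
        rw [k1] at f1
        rw [k2] at f2
        rw [e2] at f3
        have e3 : k * E * k⁻¹ = (k * U a * k⁻¹) * (k * U b * k⁻¹) * (k * U (a * b) * k⁻¹) := by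
          rw [hEdef]; group
        rw [e3, ← f1, ← f2, ← f3]
      rw [e1, hEdef]
      calc U b * U (a * b) * U a = U b * (U (a * b) * U a) := by group
        _ = U b * (U a * U (a * b)) := by rw [c2]
        _ = (U b * U a) * U (a * b) := by group
        _ = U a * U b * U (a * b) := by rw [c1]
    -- the transvection `c ↦ c a`
    obtain ⟨m, hm, -, m1, m2, m3⟩ := h.full.bas h.oct B (B.mulx h.oct)
    have hmE : m * E * m⁻¹ = E := by
      have e2 : m * (a * b) * m⁻¹ = a * b := by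
        calc m * (a * b) * m⁻¹ = (m * a * m⁻¹) * (m * b * m⁻¹) := by group
          _ = a * b := by rw [m1, m2]
      have f1 := hUk m hm a B.hx B.x1
      have f2 := hUk m hm b B.hy B.y1
      have f3 := hUk m hm _ habV hab1
      rw [m1] at f1
      rw [m2] at f2
      rw [e2] at f3
      have e3 : m * E * m⁻¹ = (m * U a * m⁻¹) * (m * U b * m⁻¹) * (m * U (a * b) * m⁻¹) := by
        rw [hEdef]; group
      rw [e3, ← f1, ← f2, ← f3, ← hEdef]
    -- a contradiction unless `E = 1`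
    have hmul : ∀ (k x y : G), k * (x * y) * k⁻¹ = (k * x * k⁻¹) * (k * y * k⁻¹) := by
      intro k x y; group
    rw [← hEdef]
    rcases B.cases h.oct hEV with h0 | h0 | h0 | h0 | h0 | h0 | h0 | h0
    · exact h0
    · exfalso; rw [h0, k1] at hkE; exact B.yx hkE
    · exfalso; rw [h0, k2] at hkE; exact B.x1 (mul_eq_right.1 hkE)
    · exfalso; rw [h0, hmul, k1, k2, hbab] at hkE; exact B.y1 (mul_eq_left.1 hkE.symm)
    · exfalso; rw [h0, m3] at hmE; exact B.x1 (mul_eq_left.1 hmE)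
    · exfalso
      rw [h0, hmul, m1, m3] at hmE
      have : a * (c * a) = (a * c) * a := by group
      rw [this] at hmE
      exact B.x1 (mul_eq_left.1 hmE)
    · exfalso
      rw [h0, hmul, m2, m3] at hmE
      have : b * (c * a) = (b * c) * a := by group
      rw [this] at hmE
      exact B.x1 (mul_eq_left.1 hmE)
    · exfalso
      rw [h0, hmul, hmul, m1, m2, m3] at hmE
      have : a * b * (c * a) = (a * b * c) * a := by group
      rw [this] at hmE
      exact B.x1 (mul_eq_left.1 hmE)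
  -- three independent elements
  obtain ⟨b, c, B⟩ := h.oct.exists_bas h.t_mem h.r.t_ne
  obtain ⟨a, ha⟩ : ∃ a, a = t := ⟨_, rfl⟩
  rw [← ha] at B
  have hab1 : a * b ≠ 1 := fun e => B.yx (hVV.eq_of_mul B.hy e).symm
  have hbc1 : b * c ≠ 1 := fun e => B.wy (hVV.eq_of_mul B.hw e).symm
  have habV : a * b ∈ V := V.mul_mem B.hx B.hy
  have hbcV : b * c ∈ V := V.mul_mem B.hy B.hw
  have habcV : a * b * c ∈ V := V.mul_mem habV B.hw
  have habc1 : a * b * c ≠ 1 := fun e => B.wxy (hVV.eq_of_mul B.hw e).symm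
  have hcab : a * b = b * a := h.Vcomm a B.hx b B.hy
  have E1 := hE a b c B
  -- basis `(a b, c, a)`
  have E2 := hE (a * b) c a ⟨habV, B.hw, B.hx, hab1, B.w1, B.wxy, B.x1,
    (fun e => B.y1 (mul_eq_left.1 e.symm)), B.wx.symm, (fun e => by
      have h1 : b * c = 1 := by
        have h2 : a = a * (b * c) := by rw [← mul_assoc]; exact e
        exact mul_eq_left.1 h2.symm
      exact hbc1 h1)⟩
  -- basis `(b, c, a)`
  have E3 := hE b c a ⟨B.hy, B.hw, B.hx, B.y1, B.w1, B.wy, B.x1, B.yx.symm, B.wx.symm, (fun e => by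
      apply habc1
      rw [mul_assoc, ← e]
      exact h.oct.sq a B.hx)⟩
  -- basis `(a, b c, b)`
  have E4 := hE a (b * c) b ⟨B.hx, hbcV, B.hy, B.x1, hbc1, (fun e => by
      apply habc1
      rw [mul_assoc, e]
      exact h.oct.sq a B.hx), B.y1, B.yx, (fun e => B.w1 (mul_eq_left.1 e.symm)), (fun e => by
      have h1 : b = (b * a) * c := by rw [← hcab, mul_assoc]; exact e
      have h2 : a * c = 1 := by
        have h3 : b = b * (a * c) := by rw [← mul_assoc]; exact h1
        exact mul_eq_left.1 h3.symm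
      exact B.wx (hVV.eq_of_mul B.hw h2).symm)⟩
  have hUa := hUA a B.hx B.x1
  have hUb := hUA b B.hy B.y1
  have hUc := hUA c B.hw B.w1
  -- compare
  have e1 : U (a * b) = (U a * U b)⁻¹ := (inv_eq_of_mul_eq_one_right E1).symm
  have e2 : U (a * b * c) = (U (a * b) * U c)⁻¹ := (inv_eq_of_mul_eq_one_right E2).symm
  have e3 : U (b * c) = (U b * U c)⁻¹ := (inv_eq_of_mul_eq_one_right E3).symm
  have e4 : U (a * (b * c)) = (U a * U (b * c))⁻¹ := (inv_eq_of_mul_eq_one_right E4).symm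
  rw [← mul_assoc] at e4
  have e5 : U (a * b) * U c = U a * U (b * c) := by
    rw [← inv_inj, ← e2, ← e4]
  rw [e1, e3] at e5
  have c1 := h.Acomm _ hUa _ hUb
  have c2 := h.Acomm _ hUa _ hUc
  have c3 := h.Acomm _ hUb _ hUc
  -- `(U a U b)⁻¹ U c = U a (U b U c)⁻¹`
  have e6 : U c * U c = U a * U a := by
    have d1 : U c * (U b * U c) = (U a * U b) * U a := by
      calc U c * (U b * U c) = (U a * U b) * ((U a * U b)⁻¹ * U c) * (U b * U c) := by group
        _ = (U a * U b) * (U a * (U b * U c)⁻¹) * (U b * U c) := by rw [e5]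
        _ = (U a * U b) * U a := by group
    have d2 : U c * (U b * U c) = U b * (U c * U c) := by
      rw [← mul_assoc, ← c3, mul_assoc]
    have d3 : (U a * U b) * U a = U b * (U a * U a) := by
      rw [c1, mul_assoc]
    rw [d2, d3] at d1
    exact mul_left_cancel d1
  rw [hUsq c B.hw B.w1, hUsq a B.hx B.x1] at e6
  exact B.wx e6

/-- **An involution inverting `u`.** -/
theorem exists_s [Finite G] (h : Sit t u R V A) :
    ∃ s ∈ normalizer (V : Set G), s * s = 1 ∧ s * u * s⁻¹ = u * t := by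
  classical
  obtain ⟨y, hyN, hyt, hyu⟩ := h.exists_inv
  have hutne : u * t ≠ u := fun e => h.r.t_ne (mul_eq_left.1 e)
  -- `τ` swapping two basis vectors
  obtain ⟨b, c, B⟩ := h.oct.exists_bas h.t_mem h.r.t_ne
  have hVV := h.oct
  have hbc1 : b * c ≠ 1 := fun e => B.wy (hVV.eq_of_mul B.hw e).symm
  have hbcV : b * c ∈ V := V.mul_mem B.hy B.hw
  obtain ⟨τ, hτ, -, τ1, τ2, τ3⟩ := h.full.bas h.oct B (B.swap23 h.oct)
  have hτt : τ * t = t * τ := mul_inv_eq_iff_eq_mul.1 τ1
  set L : Subgroup G := normalizer (V : Set G) ⊓ centralizer ({t} : Set G) with hL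
  set K : Subgroup G := L ⊓ centralizer ({u} : Set G) with hK
  -- `|K| = 768`
  have hcK : Nat.card K = 768 := by
    have h1 := Cfsg.Agent.GH.C2GrowL3Base.card_orb L u
    have h2 : {w : G | ∃ g ∈ L, g * u * g⁻¹ = w} = {u, u * t} := by
      ext w
      constructor
      · rintro ⟨g, hg, rfl⟩
        exact h.conj_u (mem_centralizer_singleton_iff.1 hg.2)
      · rintro (rfl | rfl)
        · exact ⟨1, L.one_mem, by simp⟩
        · exact ⟨y, ⟨hyN, mem_centralizer_singleton_iff.2 hyt⟩, hyu⟩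
    have h3 : Nat.card {w : G // ∃ g ∈ L, g * u * g⁻¹ = w} = 2 := by
      have h4 : Nat.card {w : G // ∃ g ∈ L, g * u * g⁻¹ = w} =
        {w : G | ∃ g ∈ L, g * u * g⁻¹ = w}.ncard := rfl
      rw [h4, h2, Set.ncard_pair hutne.symm]
    rw [h3, ← hK] at h1
    have h5 : Nat.card L = 1536 := h.card_L
    omega
  -- `|A R| = 256`
  have hRA : R ≤ normalizer (A : Set G) := by
    intro r hr
    have hrN := h.R_le hr
    rw [Subgroup.mem_normalizer_iff]
    intro x
    constructor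
    · exact h.Anorm r hrN x
    · intro hx
      have := h.Anorm r⁻¹ (inv_mem hrN) _ hx
      have e : r⁻¹ * (r * x * r⁻¹) * r⁻¹⁻¹ = x := by group
      rwa [e] at this
  have hcN : Nat.card (R ⊔ A : Subgroup G) = 256 := by
    have h1 := Cfsg.Agent.StdL2.G23Coset.card_sup_mul_card_inf hRA
    rw [inf_comm, h.card_AR, h.r.card, h.Acard] at h1
    omega
  have hAN : A ≤ normalizer (V : Set G) := by
    rw [← h.cent_eq]; exact Subgroup.centralizer_le_normalizer _
  have hAt : ∀ a ∈ A, a * t = t * a := fun a ha => h.Acomm a ha t (h.VA h.t_mem)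
  have hAu : ∀ a ∈ A, a * u = u * a := fun a ha => h.Acomm a ha u h.u_mem_A
  have hNK : R ⊔ A ≤ K := by
    refine sup_le (fun r hr => ⟨⟨h.R_le hr, ?_⟩, ?_⟩) (fun a ha => ⟨⟨hAN ha, ?_⟩, ?_⟩)
    · exact mem_centralizer_singleton_iff.2 (h.r.commt r hr)
    · exact mem_centralizer_singleton_iff.2 (h.r.comm_u r hr)
    · exact mem_centralizer_singleton_iff.2 (hAt a ha)
    · exact mem_centralizer_singleton_iff.2 (hAu a ha)
  -- `A R` is normal in `K`
  have hNn : ((R ⊔ A).subgroupOf K).Normal := by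
    constructor
    rintro ⟨n, hnK⟩ hn ⟨k, hk⟩
    change n ∈ R ⊔ A at hn
    change k * n * k⁻¹ ∈ R ⊔ A
    have h1 : (R ⊔ A).map (MulAut.conj k).toMonoidHom ≤ R ⊔ A := by
      rw [Subgroup.map_sup]
      refine sup_le_sup ?_ ?_
      · rintro _ ⟨r, hr, rfl⟩
        exact h.r.conj_mem k (mem_centralizer_singleton_iff.1 hk.1.2) r hr
      · rintro _ ⟨a, ha, rfl⟩
        exact h.Anorm k hk.1.1 a ha
    exact h1 ⟨n, hn, rfl⟩
  have hidx : ((R ⊔ A).subgroupOf K).index = 3 := by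
    have h1 := ((R ⊔ A).subgroupOf K).card_mul_index
    rw [Nat.card_congr (Subgroup.subgroupOfEquivOfLe hNK).toEquiv, hcN, hcK] at h1
    omega
  -- action of `A R` on `V`
  have hact : ∀ n ∈ R ⊔ A, ∀ v ∈ V, n * v * n⁻¹ = v ∨ n * v * n⁻¹ = v * t := by
    have hP : ∀ n ∈ R ⊔ A, n * t = t * n ∧ ∀ v ∈ V, n * v * n⁻¹ = v ∨ n * v * n⁻¹ = v * t := by
      intro n hn
      rw [Subgroup.sup_eq_closure] at hn
      induction hn using Subgroup.closure_induction with
      | mem x hx =>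
        rcases hx with hx | hx
        · exact ⟨h.r.commt x hx, fun v hv => h.R_act hx hv⟩
        · exact ⟨hAt x hx, fun v hv => Or.inl (by
            rw [h.Acomm x hx v (h.VA hv), mul_inv_cancel_right])⟩
      | one => exact ⟨by simp, fun v _ => Or.inl (by simp)⟩
      | mul x y _ _ ihx ihy =>
        refine ⟨by rw [mul_assoc, ihy.1, ← mul_assoc, ihx.1, mul_assoc], fun v hv => ?_⟩
        have e : x * y * v * (x * y)⁻¹ = x * (y * v * y⁻¹) * x⁻¹ := by group
        have e2 : x * (v * t) * x⁻¹ = (x * v * x⁻¹) * t := by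
          calc x * (v * t) * x⁻¹ = x * v * x⁻¹ * (x * t * x⁻¹) := by group
            _ = (x * v * x⁻¹) * t := by rw [ihx.1, mul_inv_cancel_right]
        rw [e]
        rcases ihy.2 v hv with h1 | h1 <;> rcases ihx.2 v hv with h2 | h2
        · left; rw [h1, h2]
        · right; rw [h1, h2]
        · right; rw [h1, e2, h2]
        · left; rw [h1, e2, h2, mul_assoc, h.r.t_sq, mul_one]
      | inv x _ ih =>
        refine ⟨(show Commute x t from ih.1).inv_left.eq, fun v hv => ?_⟩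
        rcases ih.2 v hv with h1 | h1
        · left
          calc x⁻¹ * v * x⁻¹⁻¹ = x⁻¹ * (x * v * x⁻¹) * x := by rw [h1]; group
            _ = v := by group
        · right
          have h3 : x⁻¹ * t = t * x⁻¹ := (show Commute x t from ih.1).inv_left.eq
          have h4 : v = (x * v * x⁻¹) * t := by rw [h1, mul_assoc, h.r.t_sq, mul_one]
          calc x⁻¹ * v * x⁻¹⁻¹ = x⁻¹ * ((x * v * x⁻¹) * t) * x := by rw [← h4]; group
            _ = v * (x⁻¹ * t) * x := by group
            _ = v * t := by rw [h3]; group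
    exact fun n hn => (hP n hn).2
  -- `τ ∉ K`
  have hτK : τ ∉ K := by
    intro hτK
    have hττ : τ * τ ∈ A := by
      rw [← h.cent_eq, Subgroup.mem_centralizer_iff]
      have hg : ∀ x y : G, τ * τ * (x * y) * (τ * τ)⁻¹ = (τ * τ * x * (τ * τ)⁻¹) * (τ * τ * y * (τ * τ)⁻¹) := by
        intro x y; group
      have d1 : τ * τ * t * (τ * τ)⁻¹ = t := by
        calc τ * τ * t * (τ * τ)⁻¹ = τ * (τ * t * τ⁻¹) * τ⁻¹ := by group
          _ = t := by rw [τ1, τ1]
      have d2 : τ * τ * b * (τ * τ)⁻¹ = b := by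
        calc τ * τ * b * (τ * τ)⁻¹ = τ * (τ * b * τ⁻¹) * τ⁻¹ := by group
          _ = b := by rw [τ2, τ3]
      have d3 : τ * τ * c * (τ * τ)⁻¹ = c := by
        calc τ * τ * c * (τ * τ)⁻¹ = τ * (τ * c * τ⁻¹) * τ⁻¹ := by group
          _ = c := by rw [τ3, τ2]
      intro v hv
      symm
      rw [← mul_inv_eq_iff_eq_mul]
      rcases B.cases h.oct hv with h0 | h0 | h0 | h0 | h0 | h0 | h0 | h0 <;> rw [h0]
      · group
      · exact d1
      · exact d2
      · rw [hg, d1, d2]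
      · exact d3
      · rw [hg, d1, d3]
      · rw [hg, d2, d3]
      · rw [hg, hg, d1, d2, d3]
    have h2 : (⟨τ, hτK⟩ : K) * ⟨τ, hτK⟩ ∈ (R ⊔ A).subgroupOf K :=
      (le_sup_right : A ≤ R ⊔ A) hττ
    have h3 : (⟨τ, hτK⟩ : K) ^ 3 ∈ (R ⊔ A).subgroupOf K := by
      rw [← hidx]
      exact Subgroup.pow_index_mem _ _
    have h4 : (⟨τ, hτK⟩ : K) ∈ (R ⊔ A).subgroupOf K := by
      have e : (⟨τ, hτK⟩ : K) = (⟨τ, hτK⟩ : K) ^ 3 * ((⟨τ, hτK⟩ : K) * ⟨τ, hτK⟩)⁻¹ := by group
      rw [e]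
      exact mul_mem h3 (inv_mem h2)
    have h5 : τ ∈ R ⊔ A := h4
    rcases hact τ h5 b B.hy with h6 | h6 <;> rw [τ2] at h6
    · exact B.wy h6
    · apply B.wxy
      rw [h6, h.Vcomm b B.hy t h.t_mem]
  have hτu : τ * u * τ⁻¹ = u * t := by
    refine (h.conj_u hτt).resolve_left fun h1 => hτK ⟨⟨hτ, mem_centralizer_singleton_iff.2 hτt⟩, ?_⟩
    exact mem_centralizer_singleton_iff.2 (mul_inv_eq_iff_eq_mul.1 h1)
  -- an involution of `R` outside `A`
  obtain ⟨r, hr, hrA, hrr⟩ : ∃ r ∈ R, r ∉ A ∧ r * r = 1 := by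
    obtain ⟨r, hr, hrA⟩ : ∃ r ∈ R, r ∉ A := by
      by_contra hcon
      push Not at hcon
      have h1 : (A ⊓ R : Subgroup G) = R := inf_eq_right.2 hcon
      have h2 := h.card_AR
      rw [h1, h.r.card] at h2
      omega
    rcases h.sq_or hr with h1 | h1
    · exact ⟨r, hr, hrA, h1⟩
    · refine ⟨r * u, R.mul_mem hr h.r.u_mem, fun h2 => hrA ?_, h1⟩
      have : r = r * u * u⁻¹ := by group
      rw [this]
      exact A.mul_mem h2 (A.inv_mem h.u_mem_A)
  -- its action on `V`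
  obtain ⟨c', hc', hrc'⟩ : ∃ v ∈ V, r * v * r⁻¹ = v * t := by
    by_contra hcon
    push Not at hcon
    apply hrA
    rw [← h.cent_eq, Subgroup.mem_centralizer_iff]
    intro v hv
    exact (mul_inv_eq_iff_eq_mul.1 ((h.R_act hr hv).resolve_right (hcon v hv))).symm
  have hrt : r * t * r⁻¹ = t := mul_inv_eq_iff_eq_mul.2 (h.r.commt r hr)
  have hc'1 : c' ≠ 1 := by
    rintro rfl
    apply h.r.t_ne
    have : r * 1 * r⁻¹ = 1 := by group
    rw [this, one_mul] at hrc'
    exact hrc'.symm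
  have hc't : c' ≠ t := by
    rintro rfl
    rw [hrt, h.r.t_sq] at hrc'
    exact h.r.t_ne hrc'
  obtain ⟨b', B', hrb'⟩ : ∃ b', Bas V t b' c' ∧ r * b' * r⁻¹ = b' := by
    obtain ⟨w, Bw⟩ := h.oct.exists_bas' h.t_mem h.r.t_ne hc' hc'1 hc't
    have Bw' := Bw.swap23 h.oct
    rcases h.R_act hr Bw.hw with h1 | h1
    · exact ⟨w, Bw', h1⟩
    · refine ⟨w * c', ?_, ?_⟩
      · refine ⟨h.t_mem, V.mul_mem Bw.hw hc', hc', h.r.t_ne, ?_, ?_, hc'1, hc't, ?_, ?_⟩
        · intro e; exact Bw.wy (hVV.eq_of_mul hc' e)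
        · intro e
          apply Bw.wxy
          rw [← e, mul_assoc, h.oct.sq c' hc', mul_one]
        · intro e; exact Bw.w1 (mul_eq_right.1 e.symm)
        · intro e
          have h2 : (t * w) * c' = c' := by rw [mul_assoc]; exact e.symm
          have h3 : t * w = 1 := mul_eq_right.1 h2
          exact Bw.wx (hVV.eq_of_mul Bw.hw h3).symm
      · calc r * (w * c') * r⁻¹ = (r * w * r⁻¹) * (r * c' * r⁻¹) := by group
          _ = w * (t * c') * t := by rw [h1, hrc']; group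
          _ = w * (c' * t) * t := by rw [h.Vcomm t h.t_mem c' hc']
          _ = w * c' * (t * t) := by group
          _ = w * c' := by rw [h.r.t_sq, mul_one]
  -- move it to `τ`
  have B2 : Bas V (b * c) t b := by
    refine ⟨hbcV, h.t_mem, B.hy, hbc1, h.r.t_ne, ?_, B.y1, ?_, B.yx, ?_⟩
    · intro e
      apply B.wxy
      rw [e, h.Vcomm b B.hy c B.hw, mul_assoc, h.oct.sq b B.hy, mul_one]
    · intro e; exact B.w1 (mul_eq_left.1 e.symm)
    · intro e
      have h1 : b = b * (c * t) := by rw [← mul_assoc]; exact e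
      have h2 : c * t = 1 := mul_eq_left.1 h1.symm
      exact B.wx (hVV.eq_of_mul h.t_mem h2)
  obtain ⟨g, hg, -, g1, g2, g3⟩ := h.full.bas h.oct B' B2
  obtain ⟨s, hs⟩ : ∃ s, s = g * r * g⁻¹ := ⟨_, rfl⟩
  have hsN : s ∈ normalizer (V : Set G) := by
    rw [hs]; exact mul_mem (mul_mem hg (h.R_le hr)) (inv_mem hg)
  have s1 : s * (b * c) * s⁻¹ = b * c := by
    rw [hs, ← g1]
    calc g * r * g⁻¹ * (g * t * g⁻¹) * (g * r * g⁻¹)⁻¹ = g * (r * t * r⁻¹) * g⁻¹ := by group
      _ = g * t * g⁻¹ := by rw [hrt]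
  have s2 : s * t * s⁻¹ = t := by
    have e : s * t * s⁻¹ = s * (g * b' * g⁻¹) * s⁻¹ := by rw [g2]
    rw [e, hs]
    calc g * r * g⁻¹ * (g * b' * g⁻¹) * (g * r * g⁻¹)⁻¹ = g * (r * b' * r⁻¹) * g⁻¹ := by group
      _ = t := by rw [hrb', g2]
  have s3 : s * b * s⁻¹ = c := by
    have e : s * b * s⁻¹ = s * (g * c' * g⁻¹) * s⁻¹ := by rw [g3]
    rw [e, hs]
    calc g * r * g⁻¹ * (g * c' * g⁻¹) * (g * r * g⁻¹)⁻¹ = g * (r * c' * r⁻¹) * g⁻¹ := by group
      _ = (g * c' * g⁻¹) * (g * t * g⁻¹) := by rw [hrc']; group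
      _ = b * (b * c) := by rw [g3, g1]
      _ = c := by rw [← mul_assoc, h.oct.sq b B.hy, one_mul]
  have s4 : s * c * s⁻¹ = b := by
    have e : s * c * s⁻¹ = (s * b * s⁻¹)⁻¹ * (s * (b * c) * s⁻¹) := by group
    rw [e, s3, s1, h.oct.inv B.hw, ← mul_assoc, h.Vcomm c B.hw b B.hy, mul_assoc, h.oct.sq c B.hw, mul_one]
  have hsτ : s * τ⁻¹ ∈ A := by
    rw [← h.cent_eq, Subgroup.mem_centralizer_iff]
    have hgm : ∀ x y : G, s * τ⁻¹ * (x * y) * (s * τ⁻¹)⁻¹ =
        (s * τ⁻¹ * x * (s * τ⁻¹)⁻¹) * (s * τ⁻¹ * y * (s * τ⁻¹)⁻¹) := by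
      intro x y; group
    have i1 : τ⁻¹ * t * τ = t := by
      calc τ⁻¹ * t * τ = τ⁻¹ * (τ * t * τ⁻¹) * τ := by rw [τ1]
        _ = t := by group
    have i2 : τ⁻¹ * b * τ = c := by
      calc τ⁻¹ * b * τ = τ⁻¹ * (τ * c * τ⁻¹) * τ := by rw [τ3]
        _ = c := by group
    have i3 : τ⁻¹ * c * τ = b := by
      calc τ⁻¹ * c * τ = τ⁻¹ * (τ * b * τ⁻¹) * τ := by rw [τ2]
        _ = b := by group
    have d1 : s * τ⁻¹ * t * (s * τ⁻¹)⁻¹ = t := by
      calc s * τ⁻¹ * t * (s * τ⁻¹)⁻¹ = s * (τ⁻¹ * t * τ) * s⁻¹ := by group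
        _ = t := by rw [i1, s2]
    have d2 : s * τ⁻¹ * b * (s * τ⁻¹)⁻¹ = b := by
      calc s * τ⁻¹ * b * (s * τ⁻¹)⁻¹ = s * (τ⁻¹ * b * τ) * s⁻¹ := by group
        _ = b := by rw [i2, s4]
    have d3 : s * τ⁻¹ * c * (s * τ⁻¹)⁻¹ = c := by
      calc s * τ⁻¹ * c * (s * τ⁻¹)⁻¹ = s * (τ⁻¹ * c * τ) * s⁻¹ := by group
        _ = c := by rw [i3, s3]
    intro v hv
    symm
    rw [← mul_inv_eq_iff_eq_mul]
    rcases B.cases h.oct hv with h0 | h0 | h0 | h0 | h0 | h0 | h0 | h0 <;> rw [h0]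
    · group
    · exact d1
    · exact d2
    · rw [hgm, d1, d2]
    · exact d3
    · rw [hgm, d1, d3]
    · rw [hgm, d2, d3]
    · rw [hgm, hgm, d1, d2, d3]
  refine ⟨s, hsN, ?_, ?_⟩
  · rw [hs]
    calc g * r * g⁻¹ * (g * r * g⁻¹) = g * (r * r) * g⁻¹ := by group
      _ = 1 := by rw [hrr]; group
  · have hutA : u * t ∈ A := A.mul_mem h.u_mem_A (h.VA h.t_mem)
    have h1 := h.Acomm _ hsτ _ hutA
    calc s * u * s⁻¹ = (s * τ⁻¹) * (τ * u * τ⁻¹) * (s * τ⁻¹)⁻¹ := by group
      _ = (s * τ⁻¹) * (u * t) * (s * τ⁻¹)⁻¹ := by rw [hτu]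
      _ = u * t := by rw [h1, mul_inv_cancel_right]

end Sit

end Cfsg.Agent.H345.HSB
end

-- part: H345/HSF
section
/-!
# S3346, part 6: the gluing data and the conclusion
-/

set_option autoImplicit false

namespace Cfsg.Agent.H345.HSB

open Cfsg.Agent.H345.HSA Cfsg.Agent.StdL2.G23Aut Subgroup Cfsg.Agent.HSU.Base

variable {G : Type*} [Group G]

namespace Sit

variable {t u : G} {R V A : Subgroup G}

theorem sw [Finite G] (h : Sit t u R V A) : SW R t u where
  u_mem := h.r.u_mem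
  u_sq := h.r.u_sq
  z_ne := h.r.t_ne
  z_sq := h.r.t_sq
  comm_u := h.r.comm_u
  conj_mem := h.r.conj_mem
  sq := h.r.sq
  comm := h.r.comm
  self := fun _ hg hgR => h.self hg hgR
  faith := fun _ hg hgR => h.faith hg hgR

/-- two lines with a common noncentral involution are equal -/
theorem line_le [Finite G] (h : Sit t u R V A) {g k y : G} (hg : g * t = t * g) (hk : k * t = t * k)
    (hyg : y ∈ cj (A ⊓ R) g) (hyk : y ∈ cj (A ⊓ R) k) (hyy : y * y = 1) (hy1 : y ≠ 1) (hyt : y ≠ t) :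
    cj (A ⊓ R) g ≤ cj (A ⊓ R) k := by
  have hgi : g⁻¹ * t = t * g⁻¹ := (show Commute g t from hg).inv_left.eq
  have hki : k⁻¹ * t = t * k⁻¹ := (show Commute k t from hk).inv_left.eq
  obtain ⟨a, ⟨haA, haR⟩, rfl⟩ := mem_cj.1 hyg
  obtain ⟨b, ⟨hbA, hbR⟩, hb⟩ := mem_cj.1 hyk
  have haa : a * a = 1 := by
    have e : a * a = g⁻¹ * ((g * a * g⁻¹) * (g * a * g⁻¹)) * g := by group
    rw [e, hyy]; group
  have hbb : b * b = 1 := by
    have e : b * b = k⁻¹ * ((k * b * k⁻¹) * (k * b * k⁻¹)) * k := by group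
    rw [e, hb, hyy]; group
  have haV := h.Aom a haA haa
  have hbV := h.Aom b hbA hbb
  have hgt : g * t * g⁻¹ = t := mul_inv_eq_iff_eq_mul.2 hg
  have hkt : k * t * k⁻¹ = t := mul_inv_eq_iff_eq_mul.2 hk
  have ha1 : a ≠ 1 := fun e => hy1 (by rw [e]; group)
  have hat : a ≠ t := fun e => hyt (by rw [e, hgt])
  have hb1 : b ≠ 1 := fun e => hy1 (by rw [← hb, e]; group)
  have hbt : b ≠ t := fun e => hyt (by rw [← hb, e, hkt])
  obtain ⟨m, hm, hmt, hmab⟩ := h.exists_x haV ha1 hat hbV hb1 hbt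
  -- `(k m)⁻¹ g` commutes with `a`
  have h1 : (k * m)⁻¹ * g * a = a * ((k * m)⁻¹ * g) := by
    have e : g * a * g⁻¹ = k * (m * a * m⁻¹) * k⁻¹ := by rw [hmab, hb]
    calc (k * m)⁻¹ * g * a = (k * m)⁻¹ * (g * a * g⁻¹) * g := by group
      _ = (k * m)⁻¹ * (k * (m * a * m⁻¹) * k⁻¹) * g := by rw [e]
      _ = a * ((k * m)⁻¹ * g) := by group
  have hmi : m⁻¹ * t = t * m⁻¹ := (show Commute m t from hmt).inv_left.eq
  have h2 : (k * m)⁻¹ * g * t = t * ((k * m)⁻¹ * g) := by
    calc (k * m)⁻¹ * g * t = m⁻¹ * k⁻¹ * (g * t) := by group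
      _ = m⁻¹ * (k⁻¹ * t) * g := by rw [hg]; group
      _ = (m⁻¹ * t) * k⁻¹ * g := by rw [hki]; group
      _ = t * ((k * m)⁻¹ * g) := by rw [hmi]; group
  have h3 := h.cent_le haV ha1 hat h2 h1
  have h4 : k⁻¹ * g ∈ normalizer (V : Set G) := by
    have e : k⁻¹ * g = m * ((k * m)⁻¹ * g) := by group
    rw [e]; exact mul_mem hm h3
  have h5 : k⁻¹ * g * t = t * (k⁻¹ * g) := by
    rw [mul_assoc, hg, ← mul_assoc, hki, mul_assoc]
  intro w hw
  obtain ⟨v, ⟨hvA, hvR⟩, rfl⟩ := mem_cj.1 hw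
  refine mem_cj.2 ⟨(k⁻¹ * g) * v * (k⁻¹ * g)⁻¹, ⟨h.Anorm _ h4 v hvA, h.r.conj_mem _ h5 v hvR⟩, by group⟩

/-- **The gluing data.** -/
theorem dat [Finite G] (h : Sit t u R V A) : ∃ s, Dat R A t u s := by
  obtain ⟨s, hsN, hss, hsu⟩ := h.exists_s
  refine ⟨s, h.sw, h.r.card, h.cardC, ?_, h.Acomm, h.Aexp, h.Acard, hss, hsu, h.Anorm s hsN⟩
  have hu0 : u ∈ (A ⊓ R : Subgroup G) := ⟨h.u_mem_A, h.r.u_mem⟩
  have ht0 : t ∈ (A ⊓ R : Subgroup G) := ⟨h.VA h.t_mem, h.r.t_mem⟩
  have huB : ∀ g, g * t = t * g → u ∈ cj (A ⊓ R) g := by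
    intro g hg
    have hgi : g⁻¹ * t = t * g⁻¹ := (show Commute g t from hg).inv_left.eq
    refine mem_cj.2 ⟨g⁻¹ * u * g, ?_, by group⟩
    have h1 := h.conj_u hgi
    rw [inv_inv] at h1
    rcases h1 with h1 | h1 <;> rw [h1]
    · exact hu0
    · exact mul_mem hu0 ht0
  refine ⟨{B | ∃ g, g * t = t * g ∧ B = cj (A ⊓ R) g}, ?_, ?_, ?_, ?_, ?_⟩
  · refine ⟨1, by simp, ?_⟩
    ext x
    rw [mem_cj]
    constructor
    · intro hx; exact ⟨x, hx, by group⟩
    · rintro ⟨v, hv, rfl⟩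
      have e : 1 * v * 1⁻¹ = v := by group
      rw [e]; exact hv
  · rintro _ ⟨g, hg, rfl⟩
    refine ⟨?_, huB g hg, ?_, ?_⟩
    · intro x hx
      obtain ⟨v, hv, rfl⟩ := mem_cj.1 hx
      exact h.r.conj_mem g hg v hv.2
    · rw [card_cj, h.card_AR]
    · intro x hx y hy
      obtain ⟨v, hv, rfl⟩ := mem_cj.1 hx
      obtain ⟨w, hw, rfl⟩ := mem_cj.1 hy
      have e := h.Acomm v hv.1 w hw.1
      calc g * v * g⁻¹ * (g * w * g⁻¹) = g * (v * w) * g⁻¹ := by group
        _ = g * (w * v) * g⁻¹ := by rw [e]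
        _ = g * w * g⁻¹ * (g * v * g⁻¹) := by group
  · rintro _ ⟨g, hg, rfl⟩ _ ⟨k, hk, rfl⟩ x hxg hxk hx1 hxt hxu hxut
    obtain ⟨v, hv, hvx⟩ := mem_cj.1 hxg
    have hxR : x ∈ R := by rw [← hvx]; exact h.r.conj_mem g hg v hv.2
    have key : ∃ y, y ∈ cj (A ⊓ R) g ∧ y ∈ cj (A ⊓ R) k ∧ y * y = 1 ∧ y ≠ 1 ∧ y ≠ t := by
      rcases h.sq_or hxR with h1 | h1
      · exact ⟨x, hxg, hxk, h1, hx1, hxt⟩
      · have hui : u⁻¹ = u * t := by
          rw [inv_eq_iff_mul_eq_one, ← mul_assoc, h.r.u_sq, h.r.t_sq]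
        refine ⟨x * u, mul_mem hxg (huB g hg), mul_mem hxk (huB k hk), h1, ?_, ?_⟩
        · intro e
          apply hxut
          rw [← hui]; exact mul_eq_one_iff_eq_inv.1 e
        · intro e
          apply hxu
          have e2 : x = t * u⁻¹ := by rw [← e]; group
          rw [e2, hui, ← mul_assoc, ← h.r.commt u h.r.u_mem, mul_assoc, h.r.t_sq, mul_one]
    obtain ⟨y, hyg, hyk, hyy, hy1, hyt⟩ := key
    exact le_antisymm (h.line_le hg hk hyg hyk hyy hy1 hyt) (h.line_le hk hg hyk hyg hyy hy1 hyt)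
  · intro x hx
    obtain ⟨x0, hx0, hx01, hx0t⟩ := h.exists_noncentral
    have hinv : ∀ y ∈ R, y * y = 1 → ∃ g, g * t = t * g ∧ y ∈ cj (A ⊓ R) g := by
      intro y hy hyy
      by_cases hy1 : y = 1
      · exact ⟨1, by simp, by rw [hy1]; exact one_mem _⟩
      by_cases hyt : y = t
      · exact ⟨1, by simp, mem_cj.2 ⟨t, ht0, by rw [hyt]; group⟩⟩
      obtain ⟨g, hg, hgy⟩ := h.mem_orb hx0 hx01 hx0t hy hyy hy1 hyt
      exact ⟨g, mem_centralizer_singleton_iff.1 hg, mem_cj.2 ⟨x0, ⟨h.VA hx0, h.VR hx0⟩, hgy⟩⟩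
    rcases h.sq_or hx with h1 | h1
    · obtain ⟨g, hg, hxg⟩ := hinv x hx h1
      exact ⟨_, ⟨g, hg, rfl⟩, hxg⟩
    · obtain ⟨g, hg, hxg⟩ := hinv (x * u) (R.mul_mem hx h.r.u_mem) h1
      refine ⟨_, ⟨g, hg, rfl⟩, ?_⟩
      have e : x = (x * u) * u⁻¹ := by group
      rw [e]; exact mul_mem hxg (inv_mem (huB g hg))
  · rintro g hg _ ⟨k, hk, rfl⟩
    refine ⟨_, ⟨g * k, by rw [mul_assoc, hk, ← mul_assoc, hg, mul_assoc], rfl⟩, ?_⟩
    intro x hx
    obtain ⟨v, hv, rfl⟩ := mem_cj.1 hx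
    exact mem_cj.2 ⟨v, hv, by group⟩

/-- **The conclusion.** -/
theorem isoHS [Finite G] (h : Sit t u R V A) : Cfsg.Spor.IsoHS G := by
  obtain ⟨s, hs⟩ := h.dat
  obtain ⟨φ, hφ, hc⟩ := Cfsg.Agent.HSU.Final.ctx_of_dat hs fun x hx hxx hx1 => h.conj_t hx hxx hx1
  exact Cfsg.Agent.HSType.Final.isoHS_of_ctx hφ hc

end Sit

end Cfsg.Agent.H345.HSB
end

-- part: S3346
section
set_option autoImplicit false
open Cfsg

namespace Cfsg.Agent.S3346

/-- the configuration of `Cfsg.Agent.H345.HSB` from the hypotheses -/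
theorem exists_sit {G : Type*} [Group G] [Finite G]
    (t : G) (ht : orderOf t = 2) (H : Subgroup G) (hH : H = Subgroup.centralizer ({t} : Set G))
    (R : Subgroup G) (hR : R = (Cfsg.pCore 2 H).map H.subtype)
    (Cy E : Subgroup G) (hCy : IsCyclic Cy) (hCycard : Nat.card Cy = 4)
    (hCyle : Cy ≤ R ⊓ Subgroup.centralizer (R : Set G))
    (hEle : E ≤ R) (hEex : Cfsg.IsExtraspecial 2 E) (hEcard : Nat.card E = 32)
    (hprod : Cy ⊔ E = R) (hmeet : Cy ⊓ E = E ⊓ Subgroup.centralizer (E : Set G))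
    (eH : H ⧸ Cfsg.pCore 2 H ≃* Equiv.Perm (Fin 5))
    (V : Subgroup G) (hVcomm : IsMulCommutative V) (hVexp : ∀ v ∈ V, v ^ 2 = 1) (hVcard : Nat.card V = 8)
    (hVR : V ≤ R) (M : Subgroup G) (hM : M = Subgroup.normalizer (V : Set G))
    (eOM : Cfsg.pCore 2 M ≃* Multiplicative (ZMod 4 × ZMod 4 × ZMod 4))
    (eM : M ⧸ Cfsg.pCore 2 M ≃* GL (Fin 3) (ZMod 2)) :
    ∃ u A, Cfsg.Agent.H345.HSB.Sit t u R V A := by
  classical
  obtain ⟨u, hr⟩ := Cfsg.Agent.H345.HSA.exists_rdat t ht H hH R hR Cy E hCy hCycard hCyle hEle hEex hEcard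
    hprod hmeet
  have hn : (Cfsg.pCore 2 M).Normal := Cfsg.Agent.Lib.Cores.pCore_normal 2
  have hnH : (Cfsg.pCore 2 H).Normal := Cfsg.Agent.Lib.Cores.pCore_normal 2
  have hVsq : ∀ v ∈ V, v * v = 1 := fun v hv => by rw [← pow_two]; exact hVexp v hv
  have hVM : V ≤ M := hM ▸ Subgroup.le_normalizer
  have hAc : ∀ x y : Cfsg.pCore 2 M, x * y = y * x := fun x y => by
    apply eOM.injective
    rw [map_mul, map_mul, mul_comm]
  have hcA : Nat.card (Cfsg.pCore 2 M) = 64 := by
    rw [Nat.card_congr eOM.toEquiv]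
    simp [Nat.card_eq_fintype_card, ZMod.card]
  refine ⟨u, (Cfsg.pCore 2 M).map M.subtype, hr, ⟨hVcard, hVsq⟩, hVR, ?_, ?_, ?_, ?_, ?_, ?_, ?_, ?_, ?_⟩
  · -- `V ≤ A`
    have h1 : (V.subgroupOf M).Normal := by
      constructor
      intro x hx g
      have hg : (g : G) ∈ Subgroup.normalizer (V : Set G) := hM ▸ g.2
      exact (Subgroup.mem_normalizer_iff.1 hg x).1 hx
    have h2 : IsPGroup 2 (V.subgroupOf M) := by
      refine IsPGroup.of_card (n := 3) ?_
      rw [Nat.card_congr (Subgroup.subgroupOfEquivOfLe hVM).toEquiv, hVcard]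
      norm_num
    have h3 : V.subgroupOf M ≤ Cfsg.pCore 2 M := le_sSup ⟨h1, h2⟩
    intro v hv
    exact ⟨⟨v, hVM hv⟩, h3 hv, rfl⟩
  · rintro _ ⟨a, ha, rfl⟩ _ ⟨b, hb, rfl⟩
    have := congrArg (fun x : Cfsg.pCore 2 M => ((x : M) : G)) (hAc ⟨a, ha⟩ ⟨b, hb⟩)
    exact this
  · rintro _ ⟨a, ha, rfl⟩
    have h1 : (⟨a, ha⟩ : Cfsg.pCore 2 M) * ⟨a, ha⟩ * (⟨a, ha⟩ * ⟨a, ha⟩) = 1 := by
      apply eOM.injective
      rw [map_mul, map_mul, map_one]
      generalize eOM ⟨a, ha⟩ = w
      revert w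
      have key : ∀ w : ZMod 4 × ZMod 4 × ZMod 4, w + w + (w + w) = 0 := by
        intro w
        have h4 : ∀ x : ZMod 4, x + x + (x + x) = 0 := by decide
        exact Prod.ext (h4 _) (Prod.ext (h4 _) (h4 _))
      intro w
      exact congrArg Multiplicative.ofAdd (key w.toAdd)
    exact congrArg (fun x : Cfsg.pCore 2 M => ((x : M) : G)) h1
  · -- `Ω₁(A) ≤ V`, by counting
    have hVA : V ≤ (Cfsg.pCore 2 M).map M.subtype := by
      have h1 : (V.subgroupOf M).Normal := by
        constructor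
        intro x hx g
        have hg : (g : G) ∈ Subgroup.normalizer (V : Set G) := hM ▸ g.2
        exact (Subgroup.mem_normalizer_iff.1 hg x).1 hx
      have h2 : IsPGroup 2 (V.subgroupOf M) := by
        refine IsPGroup.of_card (n := 3) ?_
        rw [Nat.card_congr (Subgroup.subgroupOfEquivOfLe hVM).toEquiv, hVcard]
        norm_num
      have h3 : V.subgroupOf M ≤ Cfsg.pCore 2 M := le_sSup ⟨h1, h2⟩
      intro v hv
      exact ⟨⟨v, hVM hv⟩, h3 hv, rfl⟩
    set A : Subgroup G := (Cfsg.pCore 2 M).map M.subtype with hA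
    have hset : (V : Set G) = {a | a ∈ A ∧ a * a = 1} := by
      apply Set.eq_of_subset_of_ncard_le
      · intro v hv
        exact ⟨hVA hv, hVsq v hv⟩
      · have h1 : (V : Set G).ncard = 8 := hVcard
        rw [h1]
        have h2 : ({a | a ∈ A ∧ a * a = 1} : Set G) =
            (fun w : Multiplicative (ZMod 4 × ZMod 4 × ZMod 4) => (((eOM.symm w : Cfsg.pCore 2 M) : M) : G)) ''
              {w | w * w = 1} := by
          ext a
          constructor
          · rintro ⟨⟨b, hb, rfl⟩, hbb⟩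
            refine ⟨eOM ⟨b, hb⟩, ?_, by simp⟩
            have h3 : (⟨b, hb⟩ : Cfsg.pCore 2 M) * ⟨b, hb⟩ = 1 := Subtype.ext (Subtype.ext hbb)
            show eOM ⟨b, hb⟩ * eOM ⟨b, hb⟩ = 1
            rw [← map_mul, h3, map_one]
          · rintro ⟨w, hw, rfl⟩
            have hw' : w * w = 1 := hw
            refine ⟨⟨(eOM.symm w : M), (eOM.symm w).2, rfl⟩, ?_⟩
            have h3 : eOM.symm w * eOM.symm w = 1 := by rw [← map_mul, hw', map_one]
            exact congrArg (fun x : Cfsg.pCore 2 M => ((x : M) : G)) h3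
        rw [h2]
        refine (Set.ncard_image_le (Set.toFinite _)).trans ?_
        have h4 : ({w | w * w = 1} : Set (Multiplicative (ZMod 4 × ZMod 4 × ZMod 4))).ncard =
            Fintype.card {w : ZMod 4 × ZMod 4 × ZMod 4 // w + w = 0} := by
          rw [← Nat.card_eq_fintype_card, ← Nat.card_coe_set_eq]
          rfl
        rw [h4]
        decide +kernel
      · exact Set.toFinite _
    intro a ha haa
    have : a ∈ (V : Set G) := by rw [hset]; exact ⟨ha, haa⟩
    exact this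
  · rw [Subgroup.card_map_of_injective M.subtype_injective, hcA]
  · rintro g hg _ ⟨a, ha, rfl⟩
    have hgM : g ∈ M := hM ▸ hg
    exact ⟨⟨g, hgM⟩ * a * ⟨g, hgM⟩⁻¹, hn.conj_mem a ha _, rfl⟩
  · rw [← hM]
    have h1 := Subgroup.card_eq_card_quotient_mul_card_subgroup (Cfsg.pCore 2 M)
    rw [h1, Nat.card_congr eM.toEquiv, hcA, Cfsg.Agent.StdL2.G23Aut.card_GL]
  · intro K hAK hKN hK
    have hKM : K ≤ M := hM ▸ hKN
    have hKn : (K.subgroupOf M).Normal := by
      constructor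
      intro x hx g
      exact hK g (hM ▸ g.2) x hx
    have : IsSimpleGroup (GL (Fin 3) (ZMod 2)) := Cfsg.Agent.StdL2.G23Aut.simple_GL
    let f : M →* GL (Fin 3) (ZMod 2) := eM.toMonoidHom.comp (QuotientGroup.mk' (Cfsg.pCore 2 M))
    have hf : Function.Surjective f := eM.surjective.comp (QuotientGroup.mk'_surjective _)
    have hker : f.ker = Cfsg.pCore 2 M := by
      ext x
      rw [MonoidHom.mem_ker]
      change eM (QuotientGroup.mk' _ x) = 1 ↔ _
      rw [EmbeddingLike.map_eq_one_iff, QuotientGroup.mk'_apply, QuotientGroup.eq_one_iff]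
    have hle : f.ker ≤ K.subgroupOf M := by
      rw [hker]
      intro x hx
      exact hAK ⟨x, hx, rfl⟩
    rcases (hKn.map f hf).eq_bot_or_eq_top with h1 | h1
    · left
      have h2 : K.subgroupOf M ≤ f.ker := by
        intro x hx
        have : f x ∈ (K.subgroupOf M).map f := ⟨x, hx, rfl⟩
        rw [h1] at this
        exact this
      rw [hker] at h2
      apply le_antisymm _ hAK
      intro x hx
      exact ⟨⟨x, hKM hx⟩, h2 hx, rfl⟩
    · right
      rw [← hM]
      apply le_antisymm hKM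
      intro x hx
      have h2 : f ⟨x, hx⟩ ∈ (K.subgroupOf M).map f := by rw [h1]; trivial
      obtain ⟨y, hy, hyx⟩ := h2
      have h3 : y⁻¹ * ⟨x, hx⟩ ∈ f.ker := by
        rw [MonoidHom.mem_ker, map_mul, map_inv, hyx, inv_mul_cancel]
      have h4 := mul_mem hy (hle h3)
      have h5 : y * (y⁻¹ * (⟨x, hx⟩ : M)) = ⟨x, hx⟩ := by group
      rw [h5] at h4
      exact h4
  · rw [← hH]
    have h1 := Subgroup.card_eq_card_quotient_mul_card_subgroup (Cfsg.pCore 2 H)
    have h2 : Nat.card (Cfsg.pCore 2 H) = 64 := by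
      rw [← hr.card, hR, Subgroup.card_map_of_injective H.subtype_injective]
    rw [h1, Nat.card_congr eH.toEquiv, h2, Nat.card_eq_fintype_card, Fintype.card_perm, Fintype.card_fin]
    decide

/-- A characterization of the Higman–Sims group. Let G be a finite group with an involution t, H = C_G(t) and R = O₂(H). Suppose R is the central product of a cyclic group of order 4 with an extraspecial group of order 32 (R = CE with C cyclic of order 4 central in R, E extraspecial of order 32, and C ∩ E = Z(E)), and H/R is isomorphic to Sym(5). Suppose further that V ≤ R is elementary abelian of order 8 with M = N_G(V) satisfying O₂(M) ≅ C₄ × C₄ × C₄ and M/O₂(M) ≅ GL(3,2). Then G is isomorphic to the Higman–Sims group. -/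
theorem result {G : Type*} [Group G] [Finite G]
    (t : G) (ht : orderOf t = 2) (H : Subgroup G) (hH : H = Subgroup.centralizer ({t} : Set G))
    (R : Subgroup G) (hR : R = (Cfsg.pCore 2 H).map H.subtype)
    (Cy E : Subgroup G) (hCy : IsCyclic Cy) (hCycard : Nat.card Cy = 4)
    (hCyle : Cy ≤ R ⊓ Subgroup.centralizer (R : Set G))
    (hEle : E ≤ R) (hEex : Cfsg.IsExtraspecial 2 E) (hEcard : Nat.card E = 32)
    (hprod : Cy ⊔ E = R) (hmeet : Cy ⊓ E = E ⊓ Subgroup.centralizer (E : Set G))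
    (eH : H ⧸ Cfsg.pCore 2 H ≃* Equiv.Perm (Fin 5))
    (V : Subgroup G) (hVcomm : IsMulCommutative V) (hVexp : ∀ v ∈ V, v ^ 2 = 1) (hVcard : Nat.card V = 8)
    (hVR : V ≤ R) (M : Subgroup G) (hM : M = Subgroup.normalizer (V : Set G))
    (eOM : Cfsg.pCore 2 M ≃* Multiplicative (ZMod 4 × ZMod 4 × ZMod 4))
    (eM : M ⧸ Cfsg.pCore 2 M ≃* GL (Fin 3) (ZMod 2)) :
    Cfsg.Spor.IsoHS G := by
  obtain ⟨u, A, h⟩ := exists_sit t ht H hH R hR Cy E hCy hCycard hCyle hEle hEex hEcard hprod hmeet eH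
    V hVcomm hVexp hVcard hVR M hM eOM eM
  exact h.isoHS

end Cfsg.Agent.S3346
end
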