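import Cfsg.Statements.S3349
set_option linter.all false

set_option autoImplicit false
open Cfsg

namespace Cfsg.Agent.S3349

open scoped commutatorElement

/-- A maximal abelian subgroup contains its centralizer. -/
theorem mem_of_commute {Q : Type*} [Group Q] (A : Subgroup Q) (hA : IsMulCommutative A)
    (hmax : ∀ B : Subgroup Q, A ≤ B → IsMulCommutative B → B = A) {g : Q}
    (hg : ∀ a ∈ A, g * a = a * g) : g ∈ A := by
  have hAc : ∀ a ∈ A, ∀ b ∈ A, a * b = b * a := by
    intro a ha b hb
    have := hA.is_comm.comm (⟨a, ha⟩ : A) ⟨b, hb⟩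
    exact congrArg Subtype.val this
  have h1 : IsMulCommutative (Subgroup.closure ((A : Set Q) ∪ {g})) := by
    refine Subgroup.isMulCommutative_closure ?_
    rintro x (hx | hx) y (hy | hy)
    · exact hAc x hx y hy
    · rw [Set.mem_singleton_iff.1 hy]; exact (hg x hx).symm
    · rw [Set.mem_singleton_iff.1 hx]; exact hg y hy
    · rw [Set.mem_singleton_iff.1 hx, Set.mem_singleton_iff.1 hy]
  have h2 := hmax _ (fun a ha => Subgroup.subset_closure (Or.inl ha)) h1
  rw [← h2]
  exact Subgroup.subset_closure (Or.inr rfl)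

/-- Let Q be a finite extraspecial p-group and α an automorphism of Q fixing every element of some maximal abelian subgroup of Q. Then the order of α is a power of p. -/
theorem result {Q : Type*} [Group Q] [Finite Q]
    (p : ℕ) [Fact p.Prime] (hQ : Cfsg.IsExtraspecial p Q) (α : MulAut Q)
    (A : Subgroup Q) (hA : IsMulCommutative A) (hmax : ∀ B : Subgroup Q, A ≤ B → IsMulCommutative B → B = A)
    (hfix : ∀ a ∈ A, α a = a) :
    ∃ k : ℕ, orderOf α = p ^ k := by
  obtain ⟨⟨hp, -, hcomm⟩, -⟩ := hQ
  -- the centre lies in `A`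
  have hZ : Subgroup.center Q ≤ A := fun z hz =>
    mem_of_commute A hA hmax fun a _ => (Subgroup.mem_center_iff.1 hz a).symm
  -- `A` is normal
  have hnorm : ∀ g : Q, ∀ a ∈ A, g * a * g⁻¹ ∈ A := by
    intro g a ha
    have h1 : ⁅g, a⁆ ∈ commutator Q := Subgroup.commutator_mem_commutator (Subgroup.mem_top g) (Subgroup.mem_top a)
    rw [hcomm] at h1
    have h2 := mul_mem (hZ h1) ha
    rw [commutatorElement_def] at h2
    simpa [mul_assoc] using h2
  have hc : ∀ g : Q, g⁻¹ * α g ∈ A := by
    intro g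
    refine mem_of_commute A hA hmax fun a ha => ?_
    have h1 := hfix _ (hnorm g a ha)
    rw [map_mul, map_mul, map_inv, hfix a ha] at h1
    have h2 : α g * a = g * a * g⁻¹ * α g := by rw [← h1]; group
    rw [mul_assoc, h2]
    group
  have hpow : ∀ (n : ℕ) (g : Q), (α ^ n) g = g * (g⁻¹ * α g) ^ n := by
    intro n g
    induction n with
    | zero => simp
    | succ n ih =>
      rw [pow_succ', MulAut.mul_apply, ih, map_mul, map_pow, hfix _ (hc g), pow_succ', ← mul_assoc,
        mul_inv_cancel_left]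
  obtain ⟨k, hk⟩ := hp.exists_card_eq
  have h1 : α ^ p ^ k = 1 := by
    ext g
    rw [hpow, ← hk, pow_card_eq_one', mul_one, MulAut.one_apply]
  obtain ⟨j, -, hj⟩ := (Nat.dvd_prime_pow Fact.out).1 (orderOf_dvd_of_pow_eq_one h1)
  exact ⟨j, hj⟩

end Cfsg.Agent.S3349
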