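import Mathlib
import Cfsg.Prelude.Def_Transfer
import Cfsg.Prelude.Def_Solvable
import Cfsg.Agent.S0051
import Cfsg.Agent.LieClassical.SympCenter
import Cfsg.Prelude.Def_Classical
import Cfsg.Statements.S3366
import Cfsg.Agent.LieClassical.FieldTransfer
import Cfsg.Agent.SylowSp4.Recog
set_option linter.all false

-- part: H350/ShapeModel
section
/-!
The explicit group `3^{1+2}_+ : SL(2,3)` and a criterion for a group of order 648 to be isomorphic to it.
-/

set_option autoImplicit false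

namespace Cfsg.Agent.H350.Shape

open Matrix

/-- The Heisenberg group over the field with three elements, in symmetric coordinates. -/
@[ext] structure Heis where
  a : ZMod 3
  b : ZMod 3
  k : ZMod 3
deriving DecidableEq

/-- coordinates -/
def heisEquiv : Heis ≃ ZMod 3 × ZMod 3 × ZMod 3 where
  toFun h := (h.a, h.b, h.k)
  invFun p := ⟨p.1, p.2.1, p.2.2⟩
  left_inv _ := rfl
  right_inv _ := rfl

instance instFintypeHeis : Fintype Heis := Fintype.ofEquiv _ heisEquiv.symm

theorem card_heis : Nat.card Heis = 27 := by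
  rw [Nat.card_congr heisEquiv, Nat.card_prod, Nat.card_prod, Nat.card_zmod]

instance instMulHeis : Mul Heis := ⟨fun g h => ⟨g.a + h.a, g.b + h.b, g.k + h.k - (g.a * h.b - g.b * h.a)⟩⟩
instance instOneHeis : One Heis := ⟨⟨0, 0, 0⟩⟩
instance instInvHeis : Inv Heis := ⟨fun g => ⟨-g.a, -g.b, -g.k⟩⟩

theorem mul_def (g h : Heis) :
    g * h = ⟨g.a + h.a, g.b + h.b, g.k + h.k - (g.a * h.b - g.b * h.a)⟩ := rfl
theorem one_def : (1 : Heis) = ⟨0, 0, 0⟩ := rfl
theorem inv_def (g : Heis) : g⁻¹ = ⟨-g.a, -g.b, -g.k⟩ := rfl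

@[simp] theorem mul_a (g h : Heis) : (g * h).a = g.a + h.a := rfl
@[simp] theorem mul_b (g h : Heis) : (g * h).b = g.b + h.b := rfl
@[simp] theorem mul_k (g h : Heis) : (g * h).k = g.k + h.k - (g.a * h.b - g.b * h.a) := rfl
@[simp] theorem one_a : (1 : Heis).a = 0 := rfl
@[simp] theorem one_b : (1 : Heis).b = 0 := rfl
@[simp] theorem one_k : (1 : Heis).k = 0 := rfl
@[simp] theorem inv_a (g : Heis) : (g⁻¹).a = -g.a := rfl
@[simp] theorem inv_b (g : Heis) : (g⁻¹).b = -g.b := rfl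
@[simp] theorem inv_k (g : Heis) : (g⁻¹).k = -g.k := rfl

instance instGroupHeis : Group Heis :=
  Group.ofLeftAxioms (fun x y z => by ext <;> simp <;> ring)
    (fun x => by ext <;> simp) (fun x => by ext <;> simp; ring)

/-- the action of `SL(2,3)` -/
def actFun (A : SpecialLinearGroup (Fin 2) (ZMod 3)) (h : Heis) : Heis :=
  ⟨A 0 0 * h.a + A 0 1 * h.b, A 1 0 * h.a + A 1 1 * h.b, h.k⟩

theorem det_eq (s : SpecialLinearGroup (Fin 2) (ZMod 3)) : s 0 0 * s 1 1 - s 0 1 * s 1 0 = 1 := by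
  have := s.2
  rw [Matrix.det_fin_two] at this
  exact this

theorem mul_entry (s t : SpecialLinearGroup (Fin 2) (ZMod 3)) (i j : Fin 2) :
    (s * t) i j = s i 0 * t 0 j + s i 1 * t 1 j := by
  have h := congrFun (congrFun (Matrix.SpecialLinearGroup.coe_mul s t) i) j
  rw [Matrix.mul_apply, Fin.sum_univ_two] at h
  exact h

theorem ext_entry (s t : SpecialLinearGroup (Fin 2) (ZMod 3)) (h1 : s 0 0 = t 0 0)
    (h2 : s 0 1 = t 0 1) (h3 : s 1 0 = t 1 0) (h4 : s 1 1 = t 1 1) : s = t := by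
  ext a b
  fin_cases a <;> fin_cases b
  · exact h1
  · exact h2
  · exact h3
  · exact h4

theorem actFun_mul (A : SpecialLinearGroup (Fin 2) (ZMod 3)) (g h : Heis) :
    actFun A (g * h) = actFun A g * actFun A h := by
  have hd := det_eq A
  ext
  · simp [actFun]; ring
  · simp [actFun]; ring
  · simp only [actFun, mul_k, mul_a, mul_b]
    linear_combination (-(g.b * h.a - g.a * h.b)) * hd

theorem actFun_comp (A B : SpecialLinearGroup (Fin 2) (ZMod 3)) (h : Heis) :
    actFun (A * B) h = actFun A (actFun B h) := by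
  ext <;> simp only [actFun, mul_entry] <;> ring

theorem actFun_one (h : Heis) : actFun 1 h = h := by
  have e1 : (1 : SpecialLinearGroup (Fin 2) (ZMod 3)) 0 0 = 1 := rfl
  have e2 : (1 : SpecialLinearGroup (Fin 2) (ZMod 3)) 0 1 = 0 := rfl
  have e3 : (1 : SpecialLinearGroup (Fin 2) (ZMod 3)) 1 0 = 0 := rfl
  have e4 : (1 : SpecialLinearGroup (Fin 2) (ZMod 3)) 1 1 = 1 := rfl
  ext <;> simp [actFun, e1, e2, e3, e4]

/-- the action as automorphisms -/
def act : SpecialLinearGroup (Fin 2) (ZMod 3) →* MulAut Heis where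
  toFun A :=
    { toFun := actFun A
      invFun := actFun A⁻¹
      left_inv := fun h => by rw [← actFun_comp, inv_mul_cancel, actFun_one]
      right_inv := fun h => by rw [← actFun_comp, mul_inv_cancel, actFun_one]
      map_mul' := actFun_mul A }
  map_one' := by
    ext h : 1
    exact actFun_one h
  map_mul' A B := by
    ext h : 1
    exact actFun_comp A B h

@[simp] theorem act_apply (A : SpecialLinearGroup (Fin 2) (ZMod 3)) (h : Heis) :
    act A h = actFun A h := rfl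

/-- The group `3^{1+2}_+ : SL(2,3)`. -/
abbrev Model : Type := Heis ⋊[act] SpecialLinearGroup (Fin 2) (ZMod 3)

theorem card_sl : Nat.card (SpecialLinearGroup (Fin 2) (ZMod 3)) = 24 := by
  rw [Nat.card_eq_fintype_card]
  decide +kernel

theorem card_model : Nat.card Model = 648 := by
  rw [SemidirectProduct.card, card_heis, card_sl]

theorem sl_invol : ∀ g : SpecialLinearGroup (Fin 2) (ZMod 3), g ^ 2 = 1 → g = 1 ∨ g = -1 := by
  decide +kernel

/-- an element of order three -/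
def sT : SpecialLinearGroup (Fin 2) (ZMod 3) := ⟨!![1, 1; 0, 1], by decide⟩

theorem sT_cube : sT ^ 3 = 1 := by decide +kernel

theorem sl_prod : ∀ g : SpecialLinearGroup (Fin 2) (ZMod 3),
    (∃ a b : SpecialLinearGroup (Fin 2) (ZMod 3), g = a * b ∧ a ^ 3 = 1 ∧ b ^ 3 = 1) ∨
    (∃ a b : SpecialLinearGroup (Fin 2) (ZMod 3), g = a * b * sT ∧ a ^ 3 = 1 ∧ b ^ 3 = 1) := by
  decide +kernel

theorem sl_invol' (g : SpecialLinearGroup (Fin 2) (ZMod 3)) (h2 : g ^ 2 = 1) (h1 : g ≠ 1)
    (h : SpecialLinearGroup (Fin 2) (ZMod 3)) : h * g = g * h := by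
  rcases sl_invol g h2 with h3 | h3
  · exact absurd h3 h1
  · subst h3; simp

theorem mat_invol : ∀ a b c d : ZMod 3, a * d - b * c = 1 → a * a + b * c = 1 → a * b + b * d = 0 →
    c * a + d * c = 0 → c * b + d * d = 1 →
    (a = 1 ∧ b = 0 ∧ c = 0 ∧ d = 1) ∨ (a = -1 ∧ b = 0 ∧ c = 0 ∧ d = -1) := by
  decide

end Cfsg.Agent.H350.Shape
end

-- part: H350/ShapeFrame
section
/-!
The homomorphism from the Heisenberg group attached to three elements.
-/

set_option autoImplicit false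

namespace Cfsg.Agent.H350.Shape

open Matrix

variable {X : Type*} [Group X]

/-- exponents modulo three -/
theorem pw_mod {x : X} (h : x ^ 3 = 1) (n : ℕ) : x ^ (n % 3) = x ^ n := by
  conv_rhs => rw [← Nat.div_add_mod n 3, pow_add, pow_mul, h, one_pow, one_mul]

theorem pw_add {x : X} (h : x ^ 3 = 1) (a b : ZMod 3) :
    x ^ (a + b).val = x ^ a.val * x ^ b.val := by
  rw [ZMod.val_add, pw_mod h, pow_add]

theorem pw_mul {x : X} (h : x ^ 3 = 1) (a b : ZMod 3) :
    x ^ (a * b).val = x ^ (a.val * b.val) := by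
  rw [ZMod.val_mul, pw_mod h]

theorem pw_zero (x : X) : x ^ (0 : ZMod 3).val = 1 := by simp

theorem pw_one (x : X) : x ^ (1 : ZMod 3).val = x := by
  have : (1 : ZMod 3).val = 1 := rfl
  rw [this, pow_one]

theorem pw_neg {x : X} (h : x ^ 3 = 1) (a : ZMod 3) : x ^ (-a).val = (x ^ a.val)⁻¹ := by
  rw [eq_inv_iff_mul_eq_one, ← pw_add h, neg_add_cancel, pw_zero]

theorem pw_neg_one {x : X} (h : x ^ 3 = 1) : x ^ (-1 : ZMod 3).val = x⁻¹ := by
  rw [pw_neg h, pw_one]

theorem pw_sub {x : X} (h : x ^ 3 = 1) (a b : ZMod 3) :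
    x ^ (a - b).val = x ^ a.val * (x ^ b.val)⁻¹ := by
  rw [sub_eq_add_neg, pw_add h, pw_neg h]

/-- three elements generating a Heisenberg group -/
structure Frame (x y z : X) : Prop where
  x3 : x ^ 3 = 1
  y3 : y ^ 3 = 1
  z3 : z ^ 3 = 1
  yx : y * x = x * y * z⁻¹
  xz : Commute x z
  yz : Commute y z
  z1 : z ≠ 1

variable {x y z : X}

namespace Frame

theorem comm_pow (F : Frame x y z) (m n : ℕ) :
    y ^ m * x ^ n = x ^ n * y ^ m * (z ^ (m * n))⁻¹ := by
  have h1 : ∀ n : ℕ, y * x ^ n = x ^ n * y * (z ^ n)⁻¹ := by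
    intro n
    induction n with
    | zero => simp
    | succ k ih =>
      have hc : Commute x (z ^ k) := F.xz.pow_right k
      calc y * x ^ (k + 1) = (y * x ^ k) * x := by rw [pow_succ, mul_assoc]
        _ = x ^ k * y * ((z ^ k)⁻¹ * x) := by rw [ih, mul_assoc]
        _ = x ^ k * y * (x * (z ^ k)⁻¹) := by rw [(hc.inv_right).eq]
        _ = x ^ k * (y * x) * (z ^ k)⁻¹ := by simp only [mul_assoc]
        _ = x ^ k * (x * y * z⁻¹) * (z ^ k)⁻¹ := by rw [F.yx]
        _ = x ^ (k + 1) * y * (z ^ (k + 1))⁻¹ := by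
            rw [pow_succ, pow_succ, _root_.mul_inv_rev]; simp only [mul_assoc]
  induction m with
  | zero => simp
  | succ k ih =>
    have hc : Commute y (z ^ n) := F.yz.pow_right n
    calc y ^ (k + 1) * x ^ n = y ^ k * (y * x ^ n) := by rw [pow_succ, mul_assoc]
      _ = y ^ k * x ^ n * (y * (z ^ n)⁻¹) := by rw [h1]; simp only [mul_assoc]
      _ = x ^ n * y ^ k * ((z ^ (k * n))⁻¹ * y) * (z ^ n)⁻¹ := by rw [ih]; simp only [mul_assoc]
      _ = x ^ n * y ^ k * (y * (z ^ (k * n))⁻¹) * (z ^ n)⁻¹ := by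
          rw [((F.yz.pow_right (k * n)).inv_right).eq]
      _ = x ^ n * y ^ (k + 1) * (z ^ ((k + 1) * n))⁻¹ := by
          have e : z ^ ((k + 1) * n) = z ^ n * z ^ (k * n) := by
            rw [← pow_add]; congr 1; ring
          rw [e, _root_.mul_inv_rev, pow_succ]; simp only [mul_assoc]

theorem comm_pw (F : Frame x y z) (b c : ZMod 3) :
    y ^ b.val * x ^ c.val = x ^ c.val * y ^ b.val * z ^ (-(b * c)).val := by
  rw [pw_neg F.z3, pw_mul F.z3, F.comm_pow]

/-- the underlying function -/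
def fn (x y z : X) (h : Heis) : X := x ^ h.a.val * y ^ h.b.val * z ^ (h.k + h.a * h.b).val

theorem fn_mul (F : Frame x y z) (g h : Heis) : fn x y z (g * h) = fn x y z g * fn x y z h := by
  have cz : ∀ (u v : ZMod 3), z ^ u.val * x ^ v.val = x ^ v.val * z ^ u.val := fun u v =>
    ((F.xz.pow_pow v.val u.val).eq).symm
  have cy : ∀ (u v : ZMod 3), z ^ u.val * y ^ v.val = y ^ v.val * z ^ u.val := fun u v =>
    ((F.yz.pow_pow v.val u.val).eq).symm
  have hR : fn x y z g * fn x y z h = x ^ g.a.val * x ^ h.a.val * (y ^ g.b.val * y ^ h.b.val) *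
      (z ^ (-(g.b * h.a)).val * z ^ (g.k + g.a * g.b).val * z ^ (h.k + h.a * h.b).val) := by
    unfold fn
    calc x ^ g.a.val * y ^ g.b.val * z ^ (g.k + g.a * g.b).val *
          (x ^ h.a.val * y ^ h.b.val * z ^ (h.k + h.a * h.b).val)
        = x ^ g.a.val * y ^ g.b.val * (z ^ (g.k + g.a * g.b).val * x ^ h.a.val) * y ^ h.b.val *
            z ^ (h.k + h.a * h.b).val := by simp only [mul_assoc]
      _ = x ^ g.a.val * (y ^ g.b.val * x ^ h.a.val) * (z ^ (g.k + g.a * g.b).val * y ^ h.b.val) *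
            z ^ (h.k + h.a * h.b).val := by rw [cz]; simp only [mul_assoc]
      _ = x ^ g.a.val * x ^ h.a.val * y ^ g.b.val * (z ^ (-(g.b * h.a)).val * y ^ h.b.val) *
            z ^ (g.k + g.a * g.b).val * z ^ (h.k + h.a * h.b).val := by
          rw [F.comm_pw, cy]; simp only [mul_assoc]
      _ = _ := by rw [cy]; simp only [mul_assoc]
  rw [hR]
  unfold fn
  rw [mul_a, mul_b, pw_add F.x3, pw_add F.y3, ← pw_add F.z3, ← pw_add F.z3]
  congr 3
  simp only [mul_k]
  have h3 : (3 : ZMod 3) = 0 := by decide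
  linear_combination (g.b * h.a) * h3

/-- the homomorphism from the Heisenberg group -/
def hom (F : Frame x y z) : Heis →* X := MonoidHom.mk' (fn x y z) F.fn_mul

theorem hom_apply (F : Frame x y z) (h : Heis) :
    F.hom h = x ^ h.a.val * y ^ h.b.val * z ^ (h.k + h.a * h.b).val := rfl

theorem hom_x (F : Frame x y z) : F.hom ⟨1, 0, 0⟩ = x := by
  rw [hom_apply]; simp [pw_one]

theorem hom_y (F : Frame x y z) : F.hom ⟨0, 1, 0⟩ = y := by
  rw [hom_apply]; simp [pw_one]

theorem hom_z (F : Frame x y z) (k : ZMod 3) : F.hom ⟨0, 0, k⟩ = z ^ k.val := by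
  rw [hom_apply]; simp

theorem pw_eq_one {w : X} (h3 : w ^ 3 = 1) (h1 : w ≠ 1) {k : ZMod 3} (h : w ^ k.val = 1) : k = 0 := by
  have h2 : ∀ k : ZMod 3, k = 0 ∨ k = 1 ∨ k = 2 := by decide
  rcases h2 k with rfl | rfl | rfl
  · rfl
  · rw [pw_one] at h; exact absurd h h1
  · have e : (2 : ZMod 3).val = 2 := rfl
    rw [e] at h
    exfalso
    apply h1
    calc w = w ^ 3 * (w ^ 2)⁻¹ := by group
      _ = 1 := by rw [h3, h]; simp

theorem hom_injective (F : Frame x y z) : Function.Injective F.hom := by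
  rw [injective_iff_map_eq_one]
  intro h hh
  rw [hom_apply] at hh
  have hb : h.b = 0 := by
    -- commutes with x
    have h1 : y ^ h.b.val * x ^ (1 : ZMod 3).val = x ^ (1 : ZMod 3).val * y ^ h.b.val := by
      have e : y ^ h.b.val = (x ^ h.a.val)⁻¹ * (z ^ (h.k + h.a * h.b).val)⁻¹ := by
        rw [eq_mul_inv_iff_mul_eq]
        exact eq_inv_of_mul_eq_one_right (by rw [← mul_assoc]; exact hh)
      have c1 : Commute (x ^ (1 : ZMod 3).val) ((x ^ h.a.val)⁻¹) :=
        ((Commute.refl x).pow_pow _ _).inv_right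
      have c2 : Commute (x ^ (1 : ZMod 3).val) ((z ^ (h.k + h.a * h.b).val)⁻¹) :=
        (F.xz.pow_pow _ _).inv_right
      rw [e]
      exact ((c1.mul_right c2).eq).symm
    rw [F.comm_pw] at h1
    have h2 : z ^ (-(h.b * 1)).val = 1 := by
      have := mul_left_cancel (h1.trans (mul_one _).symm)
      exact this
    have h3 := pw_eq_one F.z3 F.z1 h2
    simpa using h3
  have ha : h.a = 0 := by
    have h1 : y ^ (1 : ZMod 3).val * x ^ h.a.val = x ^ h.a.val * y ^ (1 : ZMod 3).val := by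
      have e : x ^ h.a.val = (z ^ (h.k + h.a * h.b).val)⁻¹ * (y ^ h.b.val)⁻¹ := by
        rw [eq_mul_inv_iff_mul_eq, eq_inv_iff_mul_eq_one, hh]
      have c1 : Commute (y ^ (1 : ZMod 3).val) ((y ^ h.b.val)⁻¹) :=
        ((Commute.refl y).pow_pow _ _).inv_right
      have c2 : Commute (y ^ (1 : ZMod 3).val) ((z ^ (h.k + h.a * h.b).val)⁻¹) :=
        (F.yz.pow_pow _ _).inv_right
      rw [e]
      exact (c2.mul_right c1).eq
    rw [F.comm_pw] at h1
    have h2 : z ^ (-(1 * h.a)).val = 1 := by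
      have := mul_left_cancel (h1.trans (mul_one _).symm)
      exact this
    have h3 := pw_eq_one F.z3 F.z1 h2
    simpa using h3
  have hk : h.k = 0 := by
    rw [ha, hb, pw_zero, pw_zero, one_mul, one_mul, mul_zero, add_zero] at hh
    exact pw_eq_one F.z3 F.z1 hh
  ext
  · exact ha
  · exact hb
  · exact hk

end Frame

end Cfsg.Agent.H350.Shape
end

-- part: H350/ShapeX
section
/-!
A group of shape `3^{1+2}_+.SL(2,3)` with the hypotheses of S3366 is isomorphic to the model.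
-/

set_option autoImplicit false

namespace Cfsg.Agent.H350.Shape

open Matrix Subgroup

variable {X : Type*} [Group X]

theorem heis_pow (a b k : ZMod 3) (n : ℕ) : (⟨a, b, k⟩ : Heis) ^ n = ⟨n * a, n * b, n * k⟩ := by
  induction n with
  | zero => rw [pow_zero, one_def]; simp
  | succ m ih =>
    rw [pow_succ, ih, mul_def]
    ext <;> simp <;> ring

theorem heis_pw (a b k u : ZMod 3) : (⟨a, b, k⟩ : Heis) ^ u.val = ⟨u * a, u * b, u * k⟩ := by
  rw [heis_pow, ZMod.natCast_zmod_val]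

namespace Frame

variable {x y z : X}

/-- conjugation in coordinates -/
theorem conj_hom (F : Frame x y z) {g : X} (hz : Commute g z) {a c k1 b d k2 : ZMod 3}
    (hx : g * x * g⁻¹ = F.hom ⟨a, c, k1⟩) (hy : g * y * g⁻¹ = F.hom ⟨b, d, k2⟩) :
    a * d - b * c = 1 ∧ ∀ h : Heis, g * F.hom h * g⁻¹ =
      F.hom ⟨a * h.a + b * h.b, c * h.a + d * h.b, h.k + h.a * k1 + h.b * k2⟩ := by
  have hgz : ∀ n : ℕ, g * z ^ n * g⁻¹ = z ^ n := by
    intro n
    rw [(hz.pow_right n).eq, mul_inv_cancel_right]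
  have hdet : a * d - b * c = 1 := by
    have h1 : g * (y * x) * g⁻¹ = g * (x * y * z⁻¹) * g⁻¹ := by rw [F.yx]
    have h2 : g * (y * x) * g⁻¹ = F.hom (⟨b, d, k2⟩ * ⟨a, c, k1⟩) := by
      rw [map_mul, ← hx, ← hy]; group
    have hzi : g * z⁻¹ * g⁻¹ = z⁻¹ := by
      rw [(hz.inv_right).eq, mul_inv_cancel_right]
    have hz1 : F.hom ⟨0, 0, -1⟩ = z⁻¹ := by
      rw [F.hom_z, pw_neg_one F.z3]
    have h3 : g * (x * y * z⁻¹) * g⁻¹ = F.hom (⟨a, c, k1⟩ * ⟨b, d, k2⟩ * ⟨0, 0, -1⟩) := by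
      rw [map_mul, map_mul, ← hx, ← hy, hz1]
      calc g * (x * y * z⁻¹) * g⁻¹ = (g * x * g⁻¹) * (g * y * g⁻¹) * (g * z⁻¹ * g⁻¹) := by group
        _ = _ := by rw [hzi]
    rw [h2, h3] at h1
    have h4 := F.hom_injective h1
    have h5 := congrArg Heis.k h4
    simp only [mul_k, mul_a, mul_b] at h5
    have h6 : (3 : ZMod 3) = 0 := by decide
    linear_combination (-1 : ZMod 3) * h5 + (a * d - b * c) * h6
  refine ⟨hdet, fun h => ?_⟩
  have h1 : g * F.hom h * g⁻¹ = (g * x * g⁻¹) ^ h.a.val * (g * y * g⁻¹) ^ h.b.val *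
      z ^ (h.k + h.a * h.b).val := by
    rw [F.hom_apply, conj_pow, conj_pow, ← hgz (h.k + h.a * h.b).val]
    rw [hgz]
    calc g * (x ^ h.a.val * y ^ h.b.val * z ^ (h.k + h.a * h.b).val) * g⁻¹
        = g * x ^ h.a.val * g⁻¹ * (g * y ^ h.b.val * g⁻¹) *
          (g * z ^ (h.k + h.a * h.b).val * g⁻¹) := by group
      _ = _ := by rw [hgz]
  rw [h1, hx, hy, ← map_pow, ← map_pow, ← F.hom_z, ← map_mul, ← map_mul, heis_pw, heis_pw]
  congr 1
  ext
  · simp; ring
  · simp; ring
  · simp only [mul_k, mul_a, mul_b]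
    linear_combination (-(h.a * h.b)) * hdet

end Frame

theorem card_mul_rel {R N : Subgroup X} (h : R ≤ N) : Nat.card R * R.relIndex N = Nat.card N := by
  have := relIndex_mul_relIndex ⊥ R N bot_le h
  rwa [relIndex_bot_left, relIndex_bot_left] at this

/-- the hypotheses, unpacked -/
structure Hyp (X : Type*) [Group X] (R : Subgroup X) (π : X →* SpecialLinearGroup (Fin 2) (ZMod 3)) :
    Prop where
  norm : R.Normal
  card : Nat.card R = 27
  exp : ∀ r ∈ R, r ^ 3 = 1
  surj : Function.Surjective π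
  ker : ∀ g, π g = 1 ↔ g ∈ R
  core3 : ∀ N : Subgroup X, N.Normal → IsPGroup 3 N → N ≤ R
  core2 : ∀ N : Subgroup X, N.Normal → IsPGroup 2 N → N = ⊥
  cen : ∀ u ∈ R, ∀ v ∈ R, ∀ w ∈ R, Commute (u⁻¹ * v⁻¹ * u * v) w
  cen3 : ∀ u ∈ R, u ≠ 1 → (∀ w ∈ R, Commute u w) → ∀ v ∈ R, (∀ w ∈ R, Commute v w) →
    v = 1 ∨ v = u ∨ v = u⁻¹
  nab : ∃ u ∈ R, ∃ v ∈ R, u * v ≠ v * u

namespace Hyp

variable {R : Subgroup X} {π : X →* SpecialLinearGroup (Fin 2) (ZMod 3)}

theorem sq_one (H : Hyp X R π) {r : X} (hr : r ∈ R) (h : r ^ 2 = 1) : r = 1 := by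
  have h3 := H.exp r hr
  calc r = r ^ 3 * (r ^ 2)⁻¹ := by group
    _ = 1 := by rw [h3, h]; simp

/-- there is a frame in `R`, with central `z` -/
theorem exists_frame (H : Hyp X R π) : ∃ x y z : X, x ∈ R ∧ y ∈ R ∧ z ∈ R ∧ Frame x y z ∧
    (∀ w ∈ R, Commute z w) := by
  obtain ⟨x, hx, y, hy, hxy⟩ := H.nab
  have hz : x⁻¹ * y⁻¹ * x * y ∈ R :=
    R.mul_mem (R.mul_mem (R.mul_mem (R.inv_mem hx) (R.inv_mem hy)) hx) hy
  refine ⟨x, y, x⁻¹ * y⁻¹ * x * y, hx, hy, hz, ⟨H.exp x hx, H.exp y hy, H.exp _ hz, ?_, ?_, ?_, ?_⟩,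
    fun w hw => H.cen x hx y hy w hw⟩
  · group
  · exact (H.cen x hx y hy x hx).symm
  · exact (H.cen x hx y hy y hy).symm
  · intro h
    apply hxy
    have : x * y = y * x * (x⁻¹ * y⁻¹ * x * y) := by group
    rw [this, h, mul_one]

/-- the centre of `R` is central in `X` -/
theorem central (H : Hyp X R π) {z : X} (hz : z ∈ R) (hz1 : z ≠ 1) (hzc : ∀ w ∈ R, Commute z w)
    (g : X) : Commute g z := by
  have hn := H.norm
  have key : ∀ g : X, π g ^ 3 = 1 → Commute g z := by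
    intro g hg
    have h1 : g ^ 3 ∈ R := by rw [← H.ker, map_pow, hg]
    have h2 : g ^ 9 = 1 := by
      calc g ^ 9 = (g ^ 3) ^ 3 := by rw [← pow_mul]
        _ = 1 := H.exp _ h1
    have h3 : g * z * g⁻¹ = 1 ∨ g * z * g⁻¹ = z ∨ g * z * g⁻¹ = z⁻¹ := by
      refine H.cen3 z hz hz1 hzc _ (hn.conj_mem z hz g) fun w hw => ?_
      have h4 := hzc (g⁻¹ * w * g) (by simpa using hn.conj_mem w hw g⁻¹)
      have h5 : g * z * g⁻¹ * w = g * (z * (g⁻¹ * w * g)) * g⁻¹ := by group
      show g * z * g⁻¹ * w = w * (g * z * g⁻¹)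
      rw [h5, h4.eq]; group
    rcases h3 with h3 | h3 | h3
    · exfalso
      apply hz1
      have : z = g⁻¹ * (g * z * g⁻¹) * g := by group
      rw [this, h3]; group
    · exact mul_inv_eq_iff_eq_mul.mp h3
    · exfalso
      have h4 : ∀ n : ℕ, g ^ (2 * n) * z * (g ^ (2 * n))⁻¹ = z := by
        intro n
        induction n with
        | zero => simp
        | succ m ih =>
          have e : g ^ (2 * (m + 1)) * z * (g ^ (2 * (m + 1)))⁻¹ =
              g ^ (2 * m) * (g * (g * z * g⁻¹) * g⁻¹) * (g ^ (2 * m))⁻¹ := by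
            rw [show 2 * (m + 1) = 2 * m + 2 by ring, pow_add, pow_two]; group
          rw [e, h3]
          have e2 : g * z⁻¹ * g⁻¹ = z := by
            have : g * z⁻¹ * g⁻¹ = (g * z * g⁻¹)⁻¹ := by group
            rw [this, h3, inv_inv]
          rw [e2, ih]
      have h5 := h4 4
      have h6 : g ^ (2 * 4) = g⁻¹ := by
        rw [eq_inv_iff_mul_eq_one, ← pow_succ]; exact h2
      rw [h6, inv_inv] at h5
      have h7 : g * z * g⁻¹ = z := by
        have : z = g * (g⁻¹ * z * g) * g⁻¹ := by group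
        rw [h5] at this
        exact this.symm
      rw [h7] at h3
      apply hz1
      apply H.sq_one hz
      rw [pow_two]
      nth_rewrite 2 [h3]
      simp
  have hr : ∀ r ∈ R, Commute r z := fun r hr => (hzc r hr).symm
  obtain ⟨t, ht⟩ := H.surj sT
  have ht' : Commute t z := key t (by rw [ht]; exact sT_cube)
  rcases sl_prod (π g) with ⟨a, b, hab, ha, hb⟩ | ⟨a, b, hab, ha, hb⟩
  · obtain ⟨a', rfl⟩ := H.surj a
    obtain ⟨b', rfl⟩ := H.surj b
    have h1 : (a' * b')⁻¹ * g ∈ R := by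
      rw [← H.ker, map_mul, map_inv, map_mul, hab]; group
    have h2 : g = a' * b' * ((a' * b')⁻¹ * g) := by group
    rw [h2]
    exact (((key a' ha).mul_left (key b' hb)).mul_left (hr _ h1))
  · obtain ⟨a', rfl⟩ := H.surj a
    obtain ⟨b', rfl⟩ := H.surj b
    have h1 : (a' * b' * t)⁻¹ * g ∈ R := by
      rw [← H.ker, map_mul, map_inv, map_mul, map_mul, hab, ht]; group
    have h2 : g = a' * b' * t * ((a' * b' * t)⁻¹ * g) := by group
    rw [h2]
    exact ((((key a' ha).mul_left (key b' hb)).mul_left ht').mul_left (hr _ h1))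

theorem exists_t (H : Hyp X R π) : ∃ t : X, π t = -1 ∧ t ^ 2 = 1 := by
  obtain ⟨t, ht⟩ := H.surj (-1)
  refine ⟨t ^ 3, ?_, ?_⟩
  · rw [map_pow, ht]; decide +kernel
  · have h1 : t ^ 2 ∈ R := by
      rw [← H.ker, map_pow, ht]; decide +kernel
    calc (t ^ 3) ^ 2 = (t ^ 2) ^ 3 := by rw [← pow_mul, ← pow_mul]
      _ = 1 := H.exp _ h1

theorem one_ne : (-1 : SpecialLinearGroup (Fin 2) (ZMod 3)) ≠ 1 := by decide +kernel

theorem card_X [Finite X] (H : Hyp X R π) : Nat.card X = 648 := by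
  have h1 := Subgroup.card_eq_card_quotient_mul_card_subgroup R
  have h2 : Nat.card (X ⧸ R) = 24 := by
    have e : π.ker = R := by
      ext g; rw [MonoidHom.mem_ker, H.ker]
    have h3 : Nat.card (X ⧸ π.ker) = Nat.card (SpecialLinearGroup (Fin 2) (ZMod 3)) :=
      Nat.card_congr (QuotientGroup.quotientKerEquivOfSurjective π H.surj).toEquiv
    rw [e, card_sl] at h3
    exact h3
  rw [h1, h2, H.card]

/-- `C_X(R) ≤ R` -/
theorem cent_le [Finite X] (H : Hyp X R π) : centralizer (R : Set X) ≤ R := by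
  have hn := H.norm
  have hcX := H.card_X
  -- no involution
  have hinv : ∀ u ∈ centralizer (R : Set X), u ^ 2 = 1 → u = 1 := by
    intro u hu h2
    by_contra h1
    have huR : u ∉ R := fun h => h1 (H.sq_one h h2)
    have hπ : π u ≠ 1 := fun h => huR ((H.ker u).1 h)
    have hπ2 : π u ^ 2 = 1 := by rw [← map_pow, h2, map_one]
    have hcen : ∀ g : X, Commute g u := by
      intro g
      have hr : u⁻¹ * (g * u * g⁻¹) ∈ R := by
        rw [← H.ker, map_mul, map_inv, map_mul, map_mul, map_inv, sl_invol' (π u) hπ2 hπ (π g)]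
        group
      have hD : g * u * g⁻¹ ∈ centralizer (R : Set X) := by
        rw [mem_centralizer_iff]
        intro r hr
        rw [mem_centralizer_iff] at hu
        have h4 := hu (g⁻¹ * r * g) (by simpa using hn.conj_mem r hr g⁻¹)
        have h5 : r * (g * u * g⁻¹) = g * (g⁻¹ * r * g * u) * g⁻¹ := by group
        rw [h5, h4]; group
      have hrD : u⁻¹ * (g * u * g⁻¹) ∈ centralizer (R : Set X) :=
        mul_mem (inv_mem hu) hD
      set r := u⁻¹ * (g * u * g⁻¹) with hrdef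
      have hcomm : r * u = u * r := mem_centralizer_iff.mp hu r hr
      have h6 : g * u * g⁻¹ = u * r := by rw [hrdef]; group
      have h7 : (u * r) ^ 2 = 1 := by
        rw [← h6, conj_pow, h2]; group
      have h8 : r ^ 2 = 1 := by
        have : (u * r) ^ 2 = u ^ 2 * r ^ 2 := by
          rw [pow_two, pow_two, pow_two]
          calc u * r * (u * r) = u * (r * u) * r := by group
            _ = u * u * (r * r) := by rw [hcomm]; group
        rw [this, h2, one_mul] at h7
        exact h7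
      have h9 : r = 1 := H.sq_one hr h8
      rw [h9, mul_one] at h6
      exact mul_inv_eq_iff_eq_mul.mp h6
    have hN : (zpowers u).Normal := by
      constructor
      intro n hn g
      obtain ⟨k, rfl⟩ := mem_zpowers_iff.mp hn
      have : g * u ^ k * g⁻¹ = u ^ k := by
        rw [((hcen g).zpow_right k).eq, mul_inv_cancel_right]
      rw [this]
      exact hn
    have hP : IsPGroup 2 (zpowers u) := by
      rw [IsPGroup]
      rintro ⟨v, hv⟩
      obtain ⟨k, rfl⟩ := mem_zpowers_iff.mp hv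
      refine ⟨1, ?_⟩
      ext
      simp only [pow_one, SubmonoidClass.coe_pow, OneMemClass.coe_one]
      rw [← zpow_natCast, ← _root_.zpow_mul, mul_comm, _root_.zpow_mul]
      simp [h2]
    have := H.core2 _ hN hP
    rw [zpowers_eq_bot] at this
    exact h1 this
  have hodd : ¬ 2 ∣ Nat.card (centralizer (R : Set X)) := by
    intro h
    obtain ⟨⟨u, hu⟩, hu2⟩ := exists_prime_orderOf_dvd_card' 2 h
    have h3 : orderOf u = 2 := by
      rw [← hu2, ← Subgroup.orderOf_coe]
    have h4 := hinv u hu (by rw [← h3, pow_orderOf_eq_one])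
    rw [h4, orderOf_one] at h3
    omega
  have hDn : (centralizer (R : Set X)).Normal := by
    infer_instance
  set N := centralizer (R : Set X) ⊔ R with hN
  have hNn : N.Normal := by
    rw [hN]; infer_instance
  have hRN : R ≤ N := le_sup_right
  have hcN := card_mul_rel hRN
  rw [H.card, hN, relIndex_sup_right] at hcN
  have hodd2 : ¬ 2 ∣ Nat.card N := by
    intro h
    rw [hN, ← hcN] at h
    rcases (Nat.Prime.dvd_mul Nat.prime_two).1 h with h | h
    · omega
    · exact hodd (h.trans (relIndex_dvd_card R _))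
  have hdvd : Nat.card N ∣ 3 ^ 4 := by
    have h1 : Nat.card N ∣ 3 ^ 4 * 2 ^ 3 := by
      have := Subgroup.card_subgroup_dvd_card N
      rw [hcX] at this
      exact this
    refine Nat.Coprime.dvd_of_dvd_mul_right ?_ h1
    exact Nat.Coprime.pow_right 3 ((Nat.coprime_comm.1 ((Nat.Prime.coprime_iff_not_dvd Nat.prime_two).2 hodd2)))
  have hP : IsPGroup 3 N := by
    obtain ⟨k, -, hk⟩ := (Nat.dvd_prime_pow Nat.prime_three).1 hdvd
    exact IsPGroup.of_card hk
  exact le_sup_left.trans (H.core3 N hNn hP)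

theorem hom_mem {x y z : X} (F : Frame x y z) (hx : x ∈ R) (hy : y ∈ R) (hz : z ∈ R) (h : Heis) :
    F.hom h ∈ R := by
  rw [F.hom_apply]
  exact R.mul_mem (R.mul_mem (R.pow_mem hx _) (R.pow_mem hy _)) (R.pow_mem hz _)

theorem hom_surj [Finite X] (H : Hyp X R π) {x y z : X} (F : Frame x y z) (hx : x ∈ R) (hy : y ∈ R)
    (hz : z ∈ R) {r : X} (hr : r ∈ R) : ∃ h : Heis, F.hom h = r := by
  have h1 : F.hom.range ≤ R := by
    rintro _ ⟨h, rfl⟩
    exact hom_mem F hx hy hz h
  have h2 : Nat.card F.hom.range = 27 := by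
    rw [← card_heis]
    exact (Nat.card_congr (MonoidHom.ofInjective F.hom_injective).toEquiv).symm
  have h3 : F.hom.range = R := Subgroup.eq_of_le_of_card_ge h1 (by rw [h2, H.card])
  rw [← h3] at hr
  exact hr

/-- the adapted frame -/
structure Adapted (R : Subgroup X) (π : X →* SpecialLinearGroup (Fin 2) (ZMod 3)) (x y z t : X) :
    Prop extends Frame x y z where
  xR : x ∈ R
  yR : y ∈ R
  zR : z ∈ R
  zc : ∀ g : X, Commute g z
  πt : π t = -1
  t2 : t ^ 2 = 1
  tx : t * x * t⁻¹ = x⁻¹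
  ty : t * y * t⁻¹ = y⁻¹

theorem exists_adapted [Finite X] (H : Hyp X R π) : ∃ x y z t : X, Adapted R π x y z t := by
  obtain ⟨x, y, z, hx, hy, hz, F, hzc⟩ := H.exists_frame
  have hn := H.norm
  have hzX := H.central hz F.z1 hzc
  obtain ⟨t, ht, ht2⟩ := H.exists_t
  obtain ⟨⟨a, c, k1⟩, h1⟩ := H.hom_surj F hx hy hz (hn.conj_mem x hx t)
  obtain ⟨⟨b, d, k2⟩, h2⟩ := H.hom_surj F hx hy hz (hn.conj_mem y hy t)
  obtain ⟨hdet, hc⟩ := F.conj_hom (hzX t) h1.symm h2.symm
  have htt : ∀ w : X, t * (t * w * t⁻¹) * t⁻¹ = w := by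
    intro w
    have : t * (t * w * t⁻¹) * t⁻¹ = t ^ 2 * w * (t ^ 2)⁻¹ := by
      rw [pow_two]; group
    rw [this, ht2]; group
  have e1 := htt x
  rw [← h1, hc] at e1
  have e1' := F.hom_injective (e1.trans F.hom_x.symm)
  have e2 := htt y
  rw [← h2, hc] at e2
  have e2' := F.hom_injective (e2.trans F.hom_y.symm)
  have m1 := congrArg Heis.a e1'
  have m2 := congrArg Heis.b e1'
  have m3 := congrArg Heis.a e2'
  have m4 := congrArg Heis.b e2'
  simp only at m1 m2 m3 m4
  rcases mat_invol a b c d hdet m1 m3 m2 m4 with ⟨rfl, rfl, rfl, rfl⟩ | ⟨rfl, rfl, rfl, rfl⟩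
  · exfalso
    have n1 := congrArg Heis.k e1'
    have n2 := congrArg Heis.k e2'
    simp only [one_mul, zero_mul, add_zero] at n1 n2
    have hk1 : k1 = 0 := by
      have : ∀ k : ZMod 3, k + k = 0 → k = 0 := by decide
      exact this _ n1
    have hk2 : k2 = 0 := by
      have : ∀ k : ZMod 3, k + k = 0 → k = 0 := by decide
      apply this
      simpa using n2
    subst hk1 hk2
    have htD : t ∈ centralizer (R : Set X) := by
      rw [mem_centralizer_iff]
      intro r hr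
      obtain ⟨h, rfl⟩ := H.hom_surj F hx hy hz hr
      have := hc h
      simp only [one_mul, zero_mul, add_zero, zero_add, mul_zero] at this
      exact (mul_inv_eq_iff_eq_mul.mp this).symm
    have := (H.ker t).2 (H.cent_le htD)
    rw [ht] at this
    exact one_ne this
  · refine ⟨F.hom ⟨1, 0, k1⟩, F.hom ⟨0, 1, k2⟩, z, t, ⟨⟨H.exp _ (hom_mem F hx hy hz _),
      H.exp _ (hom_mem F hx hy hz _), F.z3, ?_, hzX _, hzX _, F.z1⟩, hom_mem F hx hy hz _,
      hom_mem F hx hy hz _, hz, hzX, ht, ht2, ?_, ?_⟩⟩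
    · have hz1 : F.hom ⟨0, 0, -1⟩ = z⁻¹ := by
        rw [F.hom_z, pw_neg_one F.z3]
      rw [← hz1, ← map_mul, ← map_mul, ← map_mul]
      congr 1
      ext
      · simp
      · simp
      · simp only [mul_k, mul_a, mul_b]
        have h3 : (3 : ZMod 3) = 0 := by decide
        linear_combination (1 : ZMod 3) * h3
    · rw [hc, ← map_inv]
      congr 1
      ext
      · simp
      · simp
      · simp only [inv_k]
        have h3 : (3 : ZMod 3) = 0 := by decide
        linear_combination k1 * h3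
    · rw [hc, ← map_inv]
      congr 1
      ext
      · simp
      · simp
      · simp only [inv_k]
        have h3 : (3 : ZMod 3) = 0 := by decide
        linear_combination k2 * h3

end Hyp

namespace Hyp.Adapted

open Hyp

variable {R : Subgroup X} {π : X →* SpecialLinearGroup (Fin 2) (ZMod 3)} {x y z t : X}

theorem t_hom (A : Adapted R π x y z t) (h : Heis) :
    t * A.toFrame.hom h * t⁻¹ = A.toFrame.hom ⟨-h.a, -h.b, h.k⟩ := by
  have h1 : t * x * t⁻¹ = A.toFrame.hom ⟨-1, 0, 0⟩ := by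
    rw [A.tx]
    have : (⟨-1, 0, 0⟩ : Heis) = (⟨1, 0, 0⟩ : Heis)⁻¹ := by ext <;> simp
    rw [this, map_inv, A.toFrame.hom_x]
  have h2 : t * y * t⁻¹ = A.toFrame.hom ⟨0, -1, 0⟩ := by
    rw [A.ty]
    have : (⟨0, -1, 0⟩ : Heis) = (⟨0, 1, 0⟩ : Heis)⁻¹ := by ext <;> simp
    rw [this, map_inv, A.toFrame.hom_y]
  rw [(A.toFrame.conj_hom (A.zc t) h1 h2).2]
  congr 1
  ext <;> simp

theorem t_comm (A : Adapted R π x y z t) {h : Heis} (hc : Commute t (A.toFrame.hom h)) :
    h.a = 0 ∧ h.b = 0 := by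
  have h1 := A.t_hom h
  rw [hc.eq, mul_inv_cancel_right] at h1
  have h2 := A.toFrame.hom_injective h1
  have key : ∀ a : ZMod 3, a = -a → a = 0 := by decide
  exact ⟨key _ (congrArg Heis.a h2), key _ (congrArg Heis.b h2)⟩

/-- every coset of `R` contains an element commuting with `t` -/
theorem exists_fix (H : Hyp X R π) (A : Adapted R π x y z t) (g : X) :
    ∃ r ∈ R, t * g * t⁻¹ = g * r ∧ Commute t (g * r ^ 2) := by
  have hr : g⁻¹ * (t * g * t⁻¹) ∈ R := by
    rw [← H.ker, map_mul, map_mul, map_mul, map_inv, map_inv, A.πt]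
    simp
  refine ⟨g⁻¹ * (t * g * t⁻¹), hr, by group, ?_⟩
  set r := g⁻¹ * (t * g * t⁻¹) with hrdef
  have h1 : t * g * t⁻¹ = g * r := by rw [hrdef]; group
  have h2 : t * (g * r) * t⁻¹ = g := by
    rw [← h1]
    have : t * (t * g * t⁻¹) * t⁻¹ = t ^ 2 * g * (t ^ 2)⁻¹ := by
      rw [pow_two]; group
    rw [this, A.t2]; group
  have h3 : t * r * t⁻¹ = r⁻¹ := by
    have : t * (g * r) * t⁻¹ = (t * g * t⁻¹) * (t * r * t⁻¹) := by group
    rw [this, h1] at h2
    calc t * r * t⁻¹ = (g * r)⁻¹ * (g * r * (t * r * t⁻¹)) := by group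
      _ = r⁻¹ := by rw [h2]; group
  have h4 : t * (g * r ^ 2) * t⁻¹ = g * r ^ 2 := by
    have e : t * (g * r ^ 2) * t⁻¹ = (t * g * t⁻¹) * (t * r * t⁻¹) ^ 2 := by
      rw [conj_pow]; group
    rw [e, h1, h3]
    have h5 : r ^ 3 = 1 := H.exp r hr
    calc g * r * r⁻¹ ^ 2 = g * r ^ 2 * (r ^ 3)⁻¹ := by group
      _ = g * r ^ 2 := by rw [h5]; group
  exact mul_inv_eq_iff_eq_mul.mp h4

theorem exists_s [Finite X] (H : Hyp X R π) (A : Adapted R π x y z t)
    (hE : ∃ E : Subgroup X, IsMulCommutative E ∧ (∀ a ∈ E, a ^ 3 = 1) ∧ Nat.card E = 27) :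
    ∃ s : X, s ∉ R ∧ s ^ 3 = 1 ∧ Commute t s := by
  obtain ⟨E, hEc, hE3, hE27⟩ := hE
  have hEcomm : ∀ a ∈ E, ∀ b ∈ E, a * b = b * a := by
    intro a ha b hb
    have := hEc.is_comm.comm (⟨a, ha⟩ : E) ⟨b, hb⟩
    exact congrArg Subtype.val this
  -- `E` is not inside `R`
  have hER : ¬ E ≤ R := by
    intro h
    have h1 : E = R := Subgroup.eq_of_le_of_card_ge h (by rw [hE27, H.card])
    obtain ⟨u, hu, v, hv, huv⟩ := H.nab
    rw [← h1] at hu hv
    exact huv (hEcomm u hu v hv)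
  obtain ⟨s, hsE, hsR⟩ := Set.not_subset.1 hER
  -- the intersection with `R` is large
  have hcard : 9 ≤ Nat.card ↥(E ⊓ R) := by
    have hker : (π.ker).relIndex E = Nat.card (E.map π) := relIndex_ker E π
    have hk : π.ker = R := by
      ext g; rw [MonoidHom.mem_ker, H.ker]
    have h3 := card_mul_rel (inf_le_left : E ⊓ R ≤ E)
    rw [inf_relIndex_left, ← hk, hker, hE27, hk] at h3
    have h4 : Nat.card (E.map π) ∣ 24 := by
      rw [← card_sl]; exact Subgroup.card_subgroup_dvd_card _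
    have h5 : Nat.card (E.map π) ∣ 27 := ⟨_, by rw [← h3, mul_comm]⟩
    have h6 : Nat.card (E.map π) ∣ 3 := by
      have := Nat.dvd_gcd h4 h5
      simpa using this
    have h7 := Nat.le_of_dvd (by norm_num) h6
    nlinarith
  -- a noncentral element
  have hf : ∃ h : Heis, A.toFrame.hom h ∈ E ∧ (h.a ≠ 0 ∨ h.b ≠ 0) := by
    by_contra hcon
    push Not at hcon
    have hle : E ⊓ R ≤ zpowers z := by
      intro r hr
      obtain ⟨hr1, hr2⟩ := mem_inf.1 hr
      obtain ⟨h, rfl⟩ := H.hom_surj A.toFrame A.xR A.yR A.zR hr2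
      obtain ⟨ha, hb⟩ := hcon h hr1
      have : h = ⟨0, 0, h.k⟩ := by ext; exact ha; exact hb; rfl
      rw [this, A.toFrame.hom_z]
      exact pow_mem (mem_zpowers z) _
    have h1 := Subgroup.card_le_of_le hle
    have h2 : Nat.card (zpowers z) = 3 := by
      rw [Nat.card_zpowers]
      exact orderOf_eq_prime A.z3 A.z1
    omega
  obtain ⟨⟨p, q, k⟩, hfE, hpq⟩ := hf
  simp only at hpq
  obtain ⟨r, hr, h1, h2⟩ := exists_fix H A s
  refine ⟨s * r ^ 2, ?_, ?_, h2⟩
  · intro h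
    exact hsR ((Subgroup.mul_mem_cancel_right R (R.pow_mem hr 2)).1 h)
  · -- `r` commutes with `s`
    have hsf : Commute s (A.toFrame.hom ⟨p, q, k⟩) := hEcomm s hsE _ hfE
    have hsz : Commute s z := A.zc s
    obtain ⟨h, rfl⟩ := H.hom_surj A.toFrame A.xR A.yR A.zR hr
    -- t s t⁻¹ commutes with the image of f
    have hc1 : Commute (s * A.toFrame.hom h) (A.toFrame.hom ⟨-p, -q, k⟩) := by
      have e := A.t_hom ⟨p, q, k⟩
      simp only at e
      rw [← h1, ← e]
      show t * s * t⁻¹ * (t * A.toFrame.hom ⟨p, q, k⟩ * t⁻¹) =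
        t * A.toFrame.hom ⟨p, q, k⟩ * t⁻¹ * (t * s * t⁻¹)
      calc t * s * t⁻¹ * (t * A.toFrame.hom ⟨p, q, k⟩ * t⁻¹)
          = t * (s * A.toFrame.hom ⟨p, q, k⟩) * t⁻¹ := by group
        _ = _ := by rw [hsf.eq]; group
    have hsplit : A.toFrame.hom ⟨-p, -q, k⟩ = (A.toFrame.hom ⟨p, q, k⟩)⁻¹ * z ^ (k + k).val := by
      rw [← map_inv, ← A.toFrame.hom_z, ← map_mul]
      congr 1
      ext <;> simp
    have hsf' : Commute s (A.toFrame.hom ⟨-p, -q, k⟩) := by
      rw [hsplit]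
      exact hsf.inv_right.mul_right (hsz.pow_right _)
    have hc2 : Commute (A.toFrame.hom h) (A.toFrame.hom ⟨-p, -q, k⟩) := by
      have h3 : A.toFrame.hom h = s⁻¹ * (s * A.toFrame.hom h) := by group
      rw [h3]
      exact hsf'.inv_left.mul_left hc1
    have h4 : h * ⟨-p, -q, k⟩ = ⟨-p, -q, k⟩ * h := by
      apply A.toFrame.hom_injective
      rw [map_mul, map_mul]
      exact hc2.eq
    have h5 := congrArg Heis.k h4
    simp only [mul_k] at h5
    have h6 : p * h.b = q * h.a := by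
      have h3 : (3 : ZMod 3) = 0 := by decide
      linear_combination h5 + (p * h.b - q * h.a) * h3
    have key : ∀ p q a b : ZMod 3, (p ≠ 0 ∨ q ≠ 0) → p * b = q * a → ∃ m, a = m * p ∧ b = m * q := by
      decide
    obtain ⟨m, hm1, hm2⟩ := key p q h.a h.b hpq h6
    have h7 : A.toFrame.hom h = (A.toFrame.hom ⟨p, q, k⟩) ^ m.val * z ^ (h.k - m * k).val := by
      rw [← map_pow, heis_pw, ← A.toFrame.hom_z, ← map_mul]
      congr 1
      ext
      · simp [hm1]
      · simp [hm2]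
      · simp
    have h8 : Commute s (A.toFrame.hom h) := by
      rw [h7]
      exact (hsf.pow_right _).mul_right (hsz.pow_right _)
    rw [(h8.pow_right 2).mul_pow, hE3 s hsE, one_mul, ← pow_mul, mul_comm, pow_mul, H.exp _ hr,
      one_pow]

end Hyp.Adapted

end Cfsg.Agent.H350.Shape
end

-- part: H350/ShapeIso
section
/-!
The isomorphism with the model.
-/

set_option autoImplicit false

namespace Cfsg.Agent.H350.Shape

open Matrix Subgroup Hyp

variable {X : Type*} [Group X]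

namespace Hyp.Adapted

variable {R : Subgroup X} {π : X →* SpecialLinearGroup (Fin 2) (ZMod 3)} {x y z t : X}

theorem exists_mat [Finite X] (H : Hyp X R π) (A : Adapted R π x y z t) {g : X} (hg : Commute t g) :
    ∃ S : SpecialLinearGroup (Fin 2) (ZMod 3), ∀ h : Heis,
      g * A.toFrame.hom h * g⁻¹ = A.toFrame.hom (act S h) := by
  have hn := H.norm
  obtain ⟨⟨a, c, k1⟩, h1⟩ := H.hom_surj A.toFrame A.xR A.yR A.zR (hn.conj_mem x A.xR g)
  obtain ⟨⟨b, d, k2⟩, h2⟩ := H.hom_surj A.toFrame A.xR A.yR A.zR (hn.conj_mem y A.yR g)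
  obtain ⟨hdet, hc⟩ := A.toFrame.conj_hom (A.zc g) h1.symm h2.symm
  have key : ∀ w : X, t * w * t⁻¹ = w⁻¹ → t * (g * w * g⁻¹) * t⁻¹ = (g * w * g⁻¹)⁻¹ := by
    intro w hw
    have e : t * (g * w * g⁻¹) * t⁻¹ = g * (t * w * t⁻¹) * g⁻¹ := by
      have h3 : t * g = g * t := hg
      calc t * (g * w * g⁻¹) * t⁻¹ = (t * g) * w * (t * g)⁻¹ := by group
        _ = (g * t) * w * (g * t)⁻¹ := by rw [h3]
        _ = _ := by group
    rw [e, hw]; group
  have kk : ∀ k : ZMod 3, k = -k → k = 0 := by decide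
  have hk1 : k1 = 0 := by
    have := key x A.tx
    rw [← h1, A.t_hom, ← map_inv] at this
    exact kk _ (congrArg Heis.k (A.toFrame.hom_injective this))
  have hk2 : k2 = 0 := by
    have := key y A.ty
    rw [← h2, A.t_hom, ← map_inv] at this
    exact kk _ (congrArg Heis.k (A.toFrame.hom_injective this))
  subst hk1 hk2
  refine ⟨⟨!![a, b; c, d], by rw [Matrix.det_fin_two_of]; exact hdet⟩, fun h => ?_⟩
  rw [hc]
  congr 1
  ext
  · rfl
  · rfl
  · show h.k + h.a * 0 + h.b * 0 = h.k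
    ring

theorem act_inj {S T : SpecialLinearGroup (Fin 2) (ZMod 3)} (h : ∀ g : Heis, act S g = act T g) :
    S = T := by
  have h1 := h ⟨1, 0, 0⟩
  have h2 := h ⟨0, 1, 0⟩
  simp only [act_apply, actFun] at h1 h2
  have a1 := congrArg Heis.a h1
  have a2 := congrArg Heis.b h1
  have a3 := congrArg Heis.a h2
  have a4 := congrArg Heis.b h2
  simp only [mul_one, mul_zero, add_zero, zero_add] at a1 a2 a3 a4
  exact ext_entry S T a1 a3 a2 a4

/-- the centralizer of `t` acts through `SL(2,3)` -/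
theorem exists_lam [Finite X] (H : Hyp X R π) (A : Adapted R π x y z t) :
    ∃ Λ : centralizer ({t} : Set X) →* SpecialLinearGroup (Fin 2) (ZMod 3),
      ∀ (g : centralizer ({t} : Set X)) (h : Heis),
        (g : X) * A.toFrame.hom h * (g : X)⁻¹ = A.toFrame.hom (act (Λ g) h) := by
  have hcomm : ∀ g : centralizer ({t} : Set X), Commute t (g : X) := by
    intro g
    exact mem_centralizer_singleton_iff.mp g.2 |>.symm
  choose f hf using fun g : centralizer ({t} : Set X) => A.exists_mat H (hcomm g)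
  refine ⟨MonoidHom.mk' f ?_, hf⟩
  intro g g'
  apply act_inj
  intro h
  apply A.toFrame.hom_injective
  rw [← hf, map_mul, MulAut.mul_apply, ← hf, ← hf]
  push_cast
  group

theorem lam_ker [Finite X] (H : Hyp X R π) (A : Adapted R π x y z t)
    {Λ : centralizer ({t} : Set X) →* SpecialLinearGroup (Fin 2) (ZMod 3)}
    (hΛ : ∀ (g : centralizer ({t} : Set X)) (h : Heis),
        (g : X) * A.toFrame.hom h * (g : X)⁻¹ = A.toFrame.hom (act (Λ g) h))
    {g : centralizer ({t} : Set X)} (hg : Λ g = 1) : (g : X) ∈ zpowers z := by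
  have h1 : (g : X) ∈ centralizer (R : Set X) := by
    rw [mem_centralizer_iff]
    intro r hr
    obtain ⟨h, rfl⟩ := H.hom_surj A.toFrame A.xR A.yR A.zR hr
    have := hΛ g h
    rw [hg, map_one, MulAut.one_apply] at this
    exact (mul_inv_eq_iff_eq_mul.mp this).symm
  obtain ⟨h, hh⟩ := H.hom_surj A.toFrame A.xR A.yR A.zR (H.cent_le h1)
  have hc : Commute t (g : X) := mem_centralizer_singleton_iff.mp g.2 |>.symm
  rw [← hh] at hc ⊢
  obtain ⟨ha, hb⟩ := A.t_comm hc
  have : h = ⟨0, 0, h.k⟩ := by ext; exact ha; exact hb; rfl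
  rw [this, A.toFrame.hom_z]
  exact pow_mem (mem_zpowers z) _

theorem card_cent [Finite X] (H : Hyp X R π) (A : Adapted R π x y z t) :
    Nat.card (centralizer ({t} : Set X)) = 72 := by
  set C := centralizer ({t} : Set X) with hC
  have h1 : R.relIndex C = 24 := by
    have hk : π.ker = R := by
      ext g; rw [MonoidHom.mem_ker, H.ker]
    rw [← hk, relIndex_ker]
    have h2 : C.map π = ⊤ := by
      rw [eq_top_iff]
      intro s _
      obtain ⟨g, rfl⟩ := H.surj s
      obtain ⟨r, hr, -, h3⟩ := exists_fix H A g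
      refine ⟨g * r ^ 2, ?_, ?_⟩
      · show g * r ^ 2 ∈ centralizer ({t} : Set X)
        rw [mem_centralizer_singleton_iff]
        exact h3.eq.symm
      · rw [map_mul, (H.ker _).2 (R.pow_mem hr 2), mul_one]
    rw [h2, ← card_sl]
    exact Nat.card_congr Subgroup.topEquiv.toEquiv
  have h2 : Nat.card ↥(R ⊓ C) = 3 := by
    have h3 : R ⊓ C = zpowers z := by
      apply le_antisymm
      · intro r hr
        obtain ⟨hr1, hr2⟩ := mem_inf.1 hr
        obtain ⟨h, rfl⟩ := H.hom_surj A.toFrame A.xR A.yR A.zR hr1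
        rw [hC, mem_centralizer_singleton_iff] at hr2
        obtain ⟨ha, hb⟩ := A.t_comm hr2.symm
        have : h = ⟨0, 0, h.k⟩ := by ext; exact ha; exact hb; rfl
        rw [this, A.toFrame.hom_z]
        exact pow_mem (mem_zpowers z) _
      · rw [zpowers_le, mem_inf]
        refine ⟨A.zR, ?_⟩
        rw [hC, mem_centralizer_singleton_iff]
        exact (A.zc t).eq.symm
    rw [h3, Nat.card_zpowers]
    exact orderOf_eq_prime A.z3 A.z1
  have h3 := card_mul_rel (inf_le_right : R ⊓ C ≤ C)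
  rw [inf_relIndex_right, h1, h2] at h3
  omega

/-- the complement -/
theorem exists_compl [Finite X] (H : Hyp X R π) (A : Adapted R π x y z t)
    (hE : ∃ E : Subgroup X, IsMulCommutative E ∧ (∀ a ∈ E, a ^ 3 = 1) ∧ Nat.card E = 27) :
    ∃ L : Subgroup (centralizer ({t} : Set X)),
      Nat.card L = 24 ∧ ∀ g ∈ L, (g : X) ∈ zpowers z → g = 1 := by
  obtain ⟨s, hsR, hs3, hst⟩ := A.exists_s H hE
  set C := centralizer ({t} : Set X) with hC
  have hCc := A.card_cent H
  have hzC : z ∈ C := by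
    rw [hC, mem_centralizer_singleton_iff]
    exact (A.zc t).eq.symm
  have hsC : s ∈ C := by
    rw [hC, mem_centralizer_singleton_iff]
    exact hst.eq.symm
  let z' : C := ⟨z, hzC⟩
  let s' : C := ⟨s, hsC⟩
  have hz' : ∀ g : C, Commute g z' := fun g => Subtype.ext (A.zc g).eq
  have hKn : (zpowers z').Normal := by
    constructor
    intro n hn g
    obtain ⟨k, rfl⟩ := mem_zpowers_iff.mp hn
    have : g * z' ^ k * g⁻¹ = z' ^ k := by
      rw [((hz' g).zpow_right k).eq, mul_inv_cancel_right]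
    rw [this]
    exact hn
  have hKc : Nat.card (zpowers z') = 3 := by
    rw [Nat.card_zpowers]
    apply orderOf_eq_prime
    · exact Subtype.ext A.z3
    · intro h
      exact A.z1 (congrArg Subtype.val h)
  have hs1 : s' ≠ 1 := by
    intro h
    apply hsR
    have : s = 1 := congrArg Subtype.val h
    rw [this]; exact R.one_mem
  have hAc : Nat.card (zpowers s') = 3 := by
    rw [Nat.card_zpowers]
    exact orderOf_eq_prime (Subtype.ext hs3) hs1
  have hAK : zpowers s' ⊓ zpowers z' = ⊥ := by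
    rw [eq_bot_iff]
    intro w hw
    obtain ⟨h1, h2⟩ := mem_inf.1 hw
    by_contra hw1
    rw [mem_bot] at hw1
    -- w generates both
    have h3 : zpowers w = zpowers s' := by
      have hle : zpowers w ≤ zpowers s' := by rwa [zpowers_le]
      have h4 : Nat.card (zpowers w) ∣ Nat.card (zpowers s') := Subgroup.card_dvd_of_le hle
      rw [hAc, Nat.dvd_prime Nat.prime_three, Nat.card_zpowers, orderOf_eq_one_iff] at h4
      rcases h4 with h4 | h4
      · exact absurd h4 hw1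
      · exact Subgroup.eq_of_le_of_card_ge hle (by rw [hAc, Nat.card_zpowers, h4])
    have h4 : s' ∈ zpowers z' := by
      have h5 : zpowers w ≤ zpowers z' := by rwa [zpowers_le]
      rw [h3, zpowers_le] at h5
      exact h5
    obtain ⟨k, hk⟩ := mem_zpowers_iff.mp h4
    apply hsR
    have h5 : s = z ^ k := by
      have := congrArg Subtype.val hk
      rw [SubgroupClass.coe_zpow] at this
      exact this.symm
    rw [h5]
    exact R.zpow_mem A.zR k
  have hKcomm : IsMulCommutative (zpowers z') := inferInstance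
  have hU : Nat.card ↥(zpowers z' ⊔ zpowers s') = 9 := by
    have h1 := card_mul_rel (le_sup_left : zpowers z' ≤ zpowers z' ⊔ zpowers s')
    rw [relIndex_sup_left, hKc] at h1
    have h2 := card_mul_rel (inf_le_right : zpowers z' ⊓ zpowers s' ≤ zpowers s')
    rw [inf_relIndex_right, inf_comm, hAK, hAc, Subgroup.card_bot] at h2
    omega
  have hidx : (zpowers z' ⊔ zpowers s').index = 8 := by
    have h1 := Subgroup.card_mul_index (zpowers z' ⊔ zpowers s')
    rw [hU, hCc] at h1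
    omega
  obtain ⟨L, hL⟩ := Cfsg.Agent.S0051.result (zpowers z') (zpowers z' ⊔ zpowers s') le_sup_left
    (by rw [hKc, hidx]; norm_num) (zpowers s') le_sup_right hAK rfl
  refine ⟨L, ?_, ?_⟩
  · have h1 := hL.card_mul_card
    rw [hKc, hCc] at h1
    omega
  · intro g hg hgz
    have h1 : g ∈ zpowers z' := by
      obtain ⟨k, hk⟩ := mem_zpowers_iff.mp hgz
      rw [mem_zpowers_iff]
      refine ⟨k, Subtype.ext ?_⟩
      rw [SubgroupClass.coe_zpow]
      exact hk
    have h2 := hL.disjoint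
    exact Subgroup.disjoint_def.1 h2 h1 hg

end Hyp.Adapted

/-- **The uniqueness theorem.** -/
theorem Hyp.model_iso [Finite X] {R : Subgroup X} {π : X →* SpecialLinearGroup (Fin 2) (ZMod 3)}
    (H : Hyp X R π)
    (hE : ∃ E : Subgroup X, IsMulCommutative E ∧ (∀ a ∈ E, a ^ 3 = 1) ∧ Nat.card E = 27) :
    Nonempty (Model ≃* X) := by
  obtain ⟨x, y, z, t, A⟩ := H.exists_adapted
  obtain ⟨Λ, hΛ⟩ := A.exists_lam H
  obtain ⟨L, hL24, hLz⟩ := A.exists_compl H hE
  have hinj : Function.Injective (Λ.comp L.subtype) := by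
    rw [injective_iff_map_eq_one]
    intro g hg
    have h1 := A.lam_ker H hΛ (g := (g : centralizer ({t} : Set X))) hg
    exact Subtype.ext (hLz _ g.2 h1)
  have hbij : Function.Bijective (Λ.comp L.subtype) := by
    have : Finite L := inferInstance
    rw [Nat.bijective_iff_injective_and_card]
    exact ⟨hinj, by rw [hL24, card_sl]⟩
  let e₂ : L ≃* SpecialLinearGroup (Fin 2) (ZMod 3) := MulEquiv.ofBijective _ hbij
  let f₂ : SpecialLinearGroup (Fin 2) (ZMod 3) →* X :=
    ((centralizer ({t} : Set X)).subtype.comp L.subtype).comp e₂.symm.toMonoidHom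
  have hcompat : ∀ g : SpecialLinearGroup (Fin 2) (ZMod 3),
      A.toFrame.hom.comp (act g).toMonoidHom = (MulAut.conj (f₂ g)).toMonoidHom.comp A.toFrame.hom := by
    intro g
    ext h
    show A.toFrame.hom (act g h) = f₂ g * A.toFrame.hom h * (f₂ g)⁻¹
    have h1 := hΛ (e₂.symm g : L) h
    have h2 : Λ (e₂.symm g : L) = g := e₂.apply_symm_apply g
    rw [h2] at h1
    exact h1.symm
  let Φ : Model →* X := SemidirectProduct.lift A.toFrame.hom f₂ hcompat
  have hΦinj : Function.Injective Φ := by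
    rw [injective_iff_map_eq_one]
    rintro ⟨h, g⟩ hg
    have h1 : A.toFrame.hom h * f₂ g = 1 := by
      have : Φ ⟨h, g⟩ = A.toFrame.hom h * f₂ g := by
        rw [← SemidirectProduct.inl_left_mul_inr_right ⟨h, g⟩, map_mul]
        simp [Φ]
      rw [← this]; exact hg
    have h2 : f₂ g ∈ R := by
      have : f₂ g = (A.toFrame.hom h)⁻¹ := eq_inv_of_mul_eq_one_right h1
      rw [this]
      exact R.inv_mem (hom_mem A.toFrame A.xR A.yR A.zR h)
    have h3 : f₂ g ∈ zpowers z := by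
      obtain ⟨h', hh'⟩ := H.hom_surj A.toFrame A.xR A.yR A.zR h2
      have hc : Commute t (f₂ g) :=
        (mem_centralizer_singleton_iff.mp (e₂.symm g : centralizer ({t} : Set X)).2).symm
      rw [← hh'] at hc ⊢
      obtain ⟨ha, hb⟩ := A.t_comm hc
      have : h' = ⟨0, 0, h'.k⟩ := by ext; exact ha; exact hb; rfl
      rw [this, A.toFrame.hom_z]
      exact pow_mem (mem_zpowers z) _
    have h4 : (e₂.symm g : centralizer ({t} : Set X)) = 1 := hLz _ (e₂.symm g).2 h3
    have h5 : e₂.symm g = 1 := Subtype.ext h4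
    have h6 : g = 1 := by
      have := congrArg e₂ h5
      rwa [e₂.apply_symm_apply, map_one] at this
    subst h6
    rw [map_one, mul_one] at h1
    have h7 : h = 1 := A.toFrame.hom_injective (by rw [h1, map_one])
    rw [h7]
    rfl
  have hfin : Finite Model := Nat.finite_of_card_ne_zero (by rw [card_model]; norm_num)
  have hΦ : Function.Bijective Φ := by
    rw [Nat.bijective_iff_injective_and_card]
    exact ⟨hΦinj, by rw [card_model, H.card_X]⟩
  exact ⟨MulEquiv.ofBijective Φ hΦ⟩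

/-- the hypotheses of the statement -/
theorem hyp_of [Finite X] (hR : Cfsg.IsExtraspecial 3 (Cfsg.pCore 3 X))
    (hRcard : Nat.card (Cfsg.pCore 3 X) = 27) (hRexp : ∀ r ∈ Cfsg.pCore 3 X, r ^ 3 = 1)
    (hn : (Cfsg.pCore 3 X).Normal)
    (e : X ⧸ Cfsg.pCore 3 X ≃* Matrix.SpecialLinearGroup (Fin 2) (ZMod 3))
    (hO2 : Cfsg.pCore 2 X = ⊥) :
    Hyp X (Cfsg.pCore 3 X) (e.toMonoidHom.comp (QuotientGroup.mk' _)) := by
  obtain ⟨⟨hP, hfr, hcom⟩, hcen⟩ := hR
  have hcenter : ∀ (w : Cfsg.pCore 3 X), w ∈ Subgroup.center (Cfsg.pCore 3 X) ↔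
      ∀ v ∈ Cfsg.pCore 3 X, Commute (w : X) v := by
    intro w
    rw [Subgroup.mem_center_iff]
    constructor
    · intro h v hv
      have := congrArg Subtype.val (h ⟨v, hv⟩)
      exact this.symm
    · intro h v
      exact Subtype.ext (h v v.2).eq.symm
  refine ⟨hn, hRcard, hRexp, ?_, ?_, ?_, ?_, ?_, ?_, ?_⟩
  · exact e.surjective.comp (QuotientGroup.mk'_surjective _)
  · intro g
    show e (QuotientGroup.mk g) = 1 ↔ _
    rw [map_eq_one_iff e e.injective, QuotientGroup.eq_one_iff]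
  · intro N hN hP
    exact le_sSup ⟨hN, hP⟩
  · intro N hN hP
    rw [eq_bot_iff, ← hO2]
    exact le_sSup ⟨hN, hP⟩
  · intro u hu v hv w hw
    have h1 : (⟨u, hu⟩ : Cfsg.pCore 3 X)⁻¹ * ⟨v, hv⟩⁻¹ * ⟨u, hu⟩ * ⟨v, hv⟩ ∈
        commutator (Cfsg.pCore 3 X) := by
      have := Subgroup.commutator_mem_commutator (Subgroup.mem_top
        ((⟨u, hu⟩ : Cfsg.pCore 3 X)⁻¹)) (Subgroup.mem_top ((⟨v, hv⟩ : Cfsg.pCore 3 X)⁻¹))
      rw [commutatorElement_def, inv_inv, inv_inv] at this
      exact this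
    rw [hcom, hcenter] at h1
    exact h1 w hw
  · intro u hu hu1 huc v hv hvc
    have hu' : (⟨u, hu⟩ : Cfsg.pCore 3 X) ∈ Subgroup.center (Cfsg.pCore 3 X) := (hcenter _).2 huc
    have hv' : (⟨v, hv⟩ : Cfsg.pCore 3 X) ∈ Subgroup.center (Cfsg.pCore 3 X) := (hcenter _).2 hvc
    have hou : orderOf u = 3 := orderOf_eq_prime (hRexp u hu) hu1
    have hle : zpowers (⟨u, hu⟩ : Cfsg.pCore 3 X) ≤ Subgroup.center (Cfsg.pCore 3 X) := by
      rwa [zpowers_le]
    have hcz : Nat.card (zpowers (⟨u, hu⟩ : Cfsg.pCore 3 X)) = 3 := by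
      rw [Nat.card_zpowers, Subgroup.orderOf_mk, hou]
    have heq : zpowers (⟨u, hu⟩ : Cfsg.pCore 3 X) = Subgroup.center (Cfsg.pCore 3 X) :=
      Subgroup.eq_of_le_of_card_ge hle (by rw [hcen, hcz])
    rw [← heq, mem_zpowers_iff] at hv'
    obtain ⟨k, hk⟩ := hv'
    have hk' : u ^ k = v := by
      have := congrArg Subtype.val hk
      rwa [SubgroupClass.coe_zpow] at this
    have h3 : u ^ (3 : ℤ) = 1 := by
      rw [← hRexp u hu]; exact zpow_natCast u 3
    have h4 : u ^ (k % 3) = v := by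
      rw [← hk']
      conv_rhs => rw [← Int.emod_add_mul_ediv k 3, _root_.zpow_add, _root_.zpow_mul, h3, _root_.one_zpow, mul_one]
    have h5 : k % 3 = 0 ∨ k % 3 = 1 ∨ k % 3 = 2 := by omega
    rcases h5 with h5 | h5 | h5
    · left; rw [← h4, h5, zpow_zero]
    · right; left; rw [← h4, h5, zpow_one]
    · right; right
      rw [← h4, h5]
      rw [eq_inv_iff_mul_eq_one]
      have : u ^ (2 : ℤ) * u = u ^ 3 := by
        rw [show (2 : ℤ) = ((2 : ℕ) : ℤ) from rfl, zpow_natCast, ← pow_succ]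
      rw [this, hRexp u hu]
  · by_contra hcon
    push Not at hcon
    have h1 : Subgroup.center (Cfsg.pCore 3 X) = ⊤ := by
      rw [eq_top_iff]
      intro w _
      rw [hcenter]
      intro v hv
      exact hcon w w.2 v hv
    rw [h1, Subgroup.card_top, hRcard] at hcen
    omega

end Cfsg.Agent.H350.Shape
end

-- part: H350/ShapeSp
section
/-!
The model inside `Sp(4,3)` and `PSp(4,3)`.
-/

set_option autoImplicit false
set_option linter.unusedSimpArgs false
set_option linter.unnecessarySeqFocus false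
set_option linter.unusedTactic false
set_option linter.unreachableTactic false

namespace Cfsg.Agent.H350.Shape

open Matrix Subgroup

/-- the field -/
abbrev K3 := ZMod 3

/-- the unipotent part -/
def uMat (h : Heis) : Matrix (Fin 2 ⊕ Fin 2) (Fin 2 ⊕ Fin 2) (ZMod 3) :=
  fromBlocks !![1, 0; -h.b, 1] 0 !![h.k, h.a; h.a, 0] !![1, h.b; 0, 1]

/-- the Levi part -/
def lMat (S : SpecialLinearGroup (Fin 2) (ZMod 3)) :
    Matrix (Fin 2 ⊕ Fin 2) (Fin 2 ⊕ Fin 2) (ZMod 3) :=
  fromBlocks !![1, 0; 0, S 1 1] !![0, 0; 0, -S 1 0] !![0, 0; 0, -S 0 1] !![1, 0; 0, S 0 0]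

theorem uMat_mem (h : Heis) : uMat h ∈ symplecticGroup (Fin 2) (ZMod 3) := by
  rw [uMat, SymplecticGroup.fromBlocks_mem_iff]
  refine ⟨?_, ?_, ?_⟩ <;> (ext i j; fin_cases i <;> fin_cases j <;>
    simp [Matrix.mul_apply, Fin.sum_univ_two, Matrix.transpose_apply] <;> ring)

theorem lMat_mem (S : SpecialLinearGroup (Fin 2) (ZMod 3)) :
    lMat S ∈ symplecticGroup (Fin 2) (ZMod 3) := by
  have hd := det_eq S
  rw [lMat, SymplecticGroup.fromBlocks_mem_iff]
  refine ⟨?_, ?_, ?_⟩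
  · ext i j; fin_cases i <;> fin_cases j <;>
      simp [Matrix.mul_apply, Fin.sum_univ_two, Matrix.transpose_apply] <;> ring
  · ext i j; fin_cases i <;> fin_cases j <;>
      simp [Matrix.mul_apply, Fin.sum_univ_two, Matrix.transpose_apply] <;> ring
  · ext i j; fin_cases i <;> fin_cases j <;>
      simp [Matrix.mul_apply, Fin.sum_univ_two, Matrix.transpose_apply]
    linear_combination hd

theorem uMat_mul (g h : Heis) : uMat (g * h) = uMat g * uMat h := by
  rw [uMat, uMat, uMat, fromBlocks_multiply]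
  congr 1 <;> (ext i j; fin_cases i <;> fin_cases j <;>
    simp [Matrix.mul_apply, Fin.sum_univ_two] <;> ring)

theorem lMat_mul (S T : SpecialLinearGroup (Fin 2) (ZMod 3)) : lMat (S * T) = lMat S * lMat T := by
  rw [lMat, lMat, lMat, fromBlocks_multiply]
  congr 1 <;> (ext i j; fin_cases i <;> fin_cases j <;>
    simp [Matrix.mul_apply, Fin.sum_univ_two, mul_entry] <;> ring)

/-- the unipotent homomorphism -/
def uHom : Heis →* symplecticGroup (Fin 2) (ZMod 3) :=
  MonoidHom.mk' (fun h => ⟨uMat h, uMat_mem h⟩) fun g h => Subtype.ext (uMat_mul g h)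

/-- the Levi homomorphism -/
def lHom : SpecialLinearGroup (Fin 2) (ZMod 3) →* symplecticGroup (Fin 2) (ZMod 3) :=
  MonoidHom.mk' (fun h => ⟨lMat h, lMat_mem h⟩) fun g h => Subtype.ext (lMat_mul g h)

theorem uHom_coe (h : Heis) : (uHom h : Matrix _ _ (ZMod 3)) = uMat h := rfl
theorem lHom_coe (h : SpecialLinearGroup (Fin 2) (ZMod 3)) :
    (lHom h : Matrix _ _ (ZMod 3)) = lMat h := rfl

theorem compat_mat (S : SpecialLinearGroup (Fin 2) (ZMod 3)) (h : Heis) :
    uMat (act S h) * lMat S = lMat S * uMat h := by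
  have hd := det_eq S
  rw [uMat, uMat, lMat, fromBlocks_multiply, fromBlocks_multiply]
  congr 1 <;>
  · ext i j; fin_cases i <;> fin_cases j <;>
      simp [Matrix.mul_apply, Fin.sum_univ_two, actFun] <;>
      first
        | ring1
        | linear_combination (-1 : ZMod 3) * h.b * hd
        | linear_combination h.b * hd
        | linear_combination h.a * hd

/-- the homomorphism from the model -/
def mHom : Model →* symplecticGroup (Fin 2) (ZMod 3) :=
  SemidirectProduct.lift uHom lHom (by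
    intro S
    ext h : 1
    show uHom (act S h) = lHom S * uHom h * (lHom S)⁻¹
    rw [eq_mul_inv_iff_mul_eq]
    exact Subtype.ext (compat_mat S h))

theorem mHom_apply (h : Heis) (S : SpecialLinearGroup (Fin 2) (ZMod 3)) :
    mHom ⟨h, S⟩ = uHom h * lHom S := by
  rw [← SemidirectProduct.inl_left_mul_inr_right ⟨h, S⟩, map_mul]
  simp [mHom]

/-- the product matrix -/
theorem mHom_coe (h : Heis) (S : SpecialLinearGroup (Fin 2) (ZMod 3)) :
    (mHom ⟨h, S⟩).1 = fromBlocks !![1, 0; -h.b, S 1 1] !![0, 0; 0, -S 1 0]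
      !![h.k, h.a * S 1 1 - h.b * S 0 1; h.a, -S 0 1] !![1, h.b * S 0 0 - h.a * S 1 0; 0, S 0 0] := by
  rw [mHom_apply]
  show uMat h * lMat S = _
  rw [uMat, lMat, fromBlocks_multiply]
  congr 1 <;>
  · ext i j; fin_cases i <;> fin_cases j <;>
      simp [Matrix.mul_apply, Fin.sum_univ_two] <;> ring

theorem mHom_injective_aux {h : Heis} {S : SpecialLinearGroup (Fin 2) (ZMod 3)} {c : ZMod 3}
    (hc : (mHom ⟨h, S⟩).1 = c • 1) : h = 1 ∧ S = 1 := by
  rw [mHom_coe] at hc
  have e := fun i j => congrFun (congrFun hc i) j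
  have e1 := e (Sum.inl 0) (Sum.inl 0)
  have e2 := e (Sum.inl 1) (Sum.inl 0)
  have e3 := e (Sum.inl 1) (Sum.inl 1)
  have e4 := e (Sum.inl 1) (Sum.inr 1)
  have e5 := e (Sum.inr 0) (Sum.inl 0)
  have e6 := e (Sum.inr 1) (Sum.inl 0)
  have e7 := e (Sum.inr 1) (Sum.inl 1)
  have e8 := e (Sum.inr 1) (Sum.inr 1)
  simp [Matrix.smul_apply, Matrix.one_apply] at e1 e2 e3 e4 e5 e6 e7 e8
  rw [← e1] at e3 e8
  refine ⟨?_, ?_⟩
  · ext
    · exact e6
    · exact e2
    · exact e5
  · apply ext_entry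
    · exact e8
    · exact e7
    · exact e4
    · exact e3

/-- the transvection -/
def tv : symplecticGroup (Fin 2) (ZMod 3) := mHom ⟨⟨0, 0, 1⟩, 1⟩

theorem tv_coe : tv.1 = fromBlocks 1 0 !![1, 0; 0, 0] 1 := by
  rw [tv, mHom_coe]
  congr 1 <;>
  · ext i j; fin_cases i <;> fin_cases j <;> simp

theorem cent_tv {G : Matrix (Fin 2 ⊕ Fin 2) (Fin 2 ⊕ Fin 2) (ZMod 3)}
    (hG : G ∈ symplecticGroup (Fin 2) (ZMod 3)) (hc : G * tv.1 = tv.1 * G)
    (h1 : G (Sum.inl 0) (Sum.inl 0) = 1) : ∃ m : Model, (mHom m).1 = G := by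
  obtain ⟨A, B, C, D, rfl⟩ : ∃ A B C D, G = fromBlocks A B C D :=
    ⟨_, _, _, _, (fromBlocks_toBlocks G).symm⟩
  rw [tv_coe, fromBlocks_multiply, fromBlocks_multiply, fromBlocks_inj] at hc
  obtain ⟨c1, c2, c3, c4⟩ := hc
  rw [SymplecticGroup.fromBlocks_mem_iff] at hG
  obtain ⟨s1, s2, s3⟩ := hG
  have f1 := fun i j => congrFun (congrFun c1 i) j
  have f3 := fun i j => congrFun (congrFun c3 i) j
  have f4 := fun i j => congrFun (congrFun c4 i) j
  have g1 := fun i j => congrFun (congrFun s1 i) j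
  have g3 := fun i j => congrFun (congrFun s3 i) j
  simp only [fromBlocks_apply₁₁] at h1
  have B00 := f1 0 0
  have B10 := f1 1 0
  have X1 := f3 0 0
  have X2 := f3 0 1
  have X3 := f3 1 0
  have B01 := f4 0 1
  simp [Matrix.mul_apply, Fin.sum_univ_two, Matrix.vecMul, dotProduct] at B00 B10 X1 X2 X3 B01
  rw [add_comm] at X1
  have D00 : D 0 0 = 1 := by rw [add_right_cancel X1, h1]
  have Y1 := g3 0 1
  have Y2 := g3 1 1
  have Y3 := g1 0 1
  simp [Matrix.mul_apply, Fin.sum_univ_two, B00, B10, B01, X2, X3, h1] at Y1 Y2 Y3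
  have hdet : (!![D 1 1, -C 1 1; -B 1 1, A 1 1] : Matrix (Fin 2) (Fin 2) (ZMod 3)).det = 1 := by
    rw [Matrix.det_fin_two_of]
    linear_combination Y2
  obtain ⟨S, hS⟩ : ∃ S : SpecialLinearGroup (Fin 2) (ZMod 3),
      S.1 = !![D 1 1, -C 1 1; -B 1 1, A 1 1] := ⟨⟨_, hdet⟩, rfl⟩
  have S00 : S 0 0 = D 1 1 := congrFun (congrFun hS 0) 0
  have S01 : S 0 1 = -C 1 1 := congrFun (congrFun hS 0) 1
  have S10 : S 1 0 = -B 1 1 := congrFun (congrFun hS 1) 0
  have S11 : S 1 1 = A 1 1 := congrFun (congrFun hS 1) 1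
  obtain ⟨h, ha, hb, hk⟩ : ∃ h : Heis, h.a = C 1 0 ∧ h.b = -A 1 0 ∧ h.k = C 0 0 :=
    ⟨⟨_, _, _⟩, rfl, rfl, rfl⟩
  refine ⟨⟨h, S⟩, ?_⟩
  rw [mHom_coe]
  congr 1
  · ext i j; fin_cases i <;> fin_cases j <;> simp [h1, X2, S00, S01, S10, S11, ha, hb, hk]
  · ext i j; fin_cases i <;> fin_cases j <;> simp [B00, B10, B01, S00, S01, S10, S11, ha, hb, hk]
  · ext i j; fin_cases i <;> fin_cases j <;> simp [S00, S01, S10, S11, ha, hb, hk]
    linear_combination (-1 : ZMod 3) * Y3
  · ext i j; fin_cases i <;> fin_cases j <;> simp [D00, X3, S00, S01, S10, S11, ha, hb, hk]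
    linear_combination (-1 : ZMod 3) * Y1

theorem negOne_mem : (-1 : Matrix (Fin 2 ⊕ Fin 2) (Fin 2 ⊕ Fin 2) (ZMod 3)) ∈
    symplecticGroup (Fin 2) (ZMod 3) := SymplecticGroup.neg_mem (Submonoid.one_mem _)

/-- minus one -/
def nOne : symplecticGroup (Fin 2) (ZMod 3) := ⟨-1, negOne_mem⟩

theorem nOne_cen : nOne ∈ Subgroup.center (symplecticGroup (Fin 2) (ZMod 3)) := by
  rw [LieClassical.SympCenter.mem_center_iff]
  exact ⟨-1, by simp [nOne]⟩

theorem cen_cases {g : symplecticGroup (Fin 2) (ZMod 3)}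
    (hg : g ∈ Subgroup.center (symplecticGroup (Fin 2) (ZMod 3))) :
    ∃ c : ZMod 3, g.1 = c • 1 ∧ c * c = 1 := by
  obtain ⟨c, hc⟩ := (LieClassical.SympCenter.mem_center_iff 2 g).1 hg
  refine ⟨c, hc, ?_⟩
  apply LieClassical.SympCenter.sq_eq_one_of_smul_mem (m := 2) (by norm_num)
  rw [← hc]
  exact g.2

/-- the quotient map -/
def qPSp : symplecticGroup (Fin 2) (ZMod 3) →* Cfsg.PSp 2 (ZMod 3) := QuotientGroup.mk' _

theorem qPSp_eq_one {g : symplecticGroup (Fin 2) (ZMod 3)} :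
    qPSp g = 1 ↔ g ∈ Subgroup.center (symplecticGroup (Fin 2) (ZMod 3)) := by
  rw [qPSp, QuotientGroup.mk'_apply, QuotientGroup.eq_one_iff]

theorem tv_cube : tv ^ 3 = 1 := by
  rw [tv, ← map_pow]
  have : ((⟨⟨0, 0, 1⟩, 1⟩ : Model) ^ 3) = 1 := by
    have e : (⟨⟨0, 0, 1⟩, 1⟩ : Model) = SemidirectProduct.inl ⟨0, 0, 1⟩ := rfl
    rw [e, ← map_pow]
    have : (⟨0, 0, 1⟩ : Heis) ^ 3 = 1 := by decide
    rw [this, map_one]
  rw [this, map_one]

theorem sp_cent {g : symplecticGroup (Fin 2) (ZMod 3)} (h : Commute (qPSp g) (qPSp tv)) :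
    ∃ m : Model, qPSp (mHom m) = qPSp g := by
  -- `g` commutes with the transvection
  have h1 : Commute g tv := by
    have h2 : qPSp (g * tv * g⁻¹ * tv⁻¹) = 1 := by
      rw [map_mul, map_mul, map_mul, map_inv, map_inv, h.eq]; group
    rw [qPSp_eq_one] at h2
    obtain ⟨c, hc, hcc⟩ := cen_cases h2
    have h3 : (g * tv * g⁻¹ * tv⁻¹) ^ 2 = 1 := by
      apply Subtype.ext
      rw [pow_two]
      show (g * tv * g⁻¹ * tv⁻¹).1 * (g * tv * g⁻¹ * tv⁻¹).1 = 1
      rw [hc]
      simp [smul_smul, hcc]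
    have h4 : (g * tv * g⁻¹ * tv⁻¹) ^ 3 = 1 := by
      set w := g * tv * g⁻¹ * tv⁻¹ with hw
      have hcw : Commute w tv := (Subgroup.mem_center_iff.1 h2 tv).symm
      have h5 : g * tv * g⁻¹ = w * tv := by rw [hw]; group
      have h6 : (w * tv) ^ 3 = 1 := by
        rw [← h5, conj_pow, tv_cube]; group
      rw [hcw.mul_pow, tv_cube, mul_one] at h6
      exact h6
    have h5 : g * tv * g⁻¹ * tv⁻¹ = 1 := by
      set w := g * tv * g⁻¹ * tv⁻¹ with hw
      calc w = w ^ 3 * (w ^ 2)⁻¹ := by group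
        _ = 1 := by rw [h3, h4]; group
    have h6 : g * tv = tv * g := by
      calc g * tv = (g * tv * g⁻¹ * tv⁻¹) * (tv * g) := by group
        _ = tv * g := by rw [h5, one_mul]
    exact h6
  have h2 : g.1 * tv.1 = tv.1 * g.1 := congrArg Subtype.val h1.eq
  have hG := g.2
  have hsq : g.1 (Sum.inl 0) (Sum.inl 0) = 1 ∨ g.1 (Sum.inl 0) (Sum.inl 0) = -1 := by
    generalize g.1 = G at h2 hG
    obtain ⟨A, B, C, D, rfl⟩ : ∃ A B C D, G = fromBlocks A B C D :=
      ⟨_, _, _, _, (fromBlocks_toBlocks G).symm⟩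
    rw [tv_coe, fromBlocks_multiply, fromBlocks_multiply, fromBlocks_inj] at h2
    obtain ⟨c1, c2, c3, c4⟩ := h2
    rw [SymplecticGroup.fromBlocks_mem_iff] at hG
    obtain ⟨s1, s2, s3⟩ := hG
    have B00 := congrFun (congrFun c1 0) 0
    have B10 := congrFun (congrFun c1 1) 0
    have X1 := congrFun (congrFun c3 0) 0
    have X3 := congrFun (congrFun c3 1) 0
    simp [Matrix.mul_apply, Fin.sum_univ_two, Matrix.vecMul, dotProduct] at B00 B10 X1 X3
    rw [add_comm] at X1
    have D00 : D 0 0 = A 0 0 := add_right_cancel X1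
    have Y0 := congrFun (congrFun s3 0) 0
    simp [Matrix.mul_apply, Fin.sum_univ_two, B00, B10, X3, D00] at Y0
    have key : ∀ a : ZMod 3, a * a = 1 → a = 1 ∨ a = -1 := by decide
    simpa using key _ Y0
  rcases hsq with h3 | h3
  · obtain ⟨m, hm⟩ := cent_tv hG h2 h3
    exact ⟨m, by rw [show mHom m = g from Subtype.ext hm]⟩
  · have h4 : (nOne * g).1 = -g.1 := by
      show (-1 : Matrix _ _ _) * g.1 = _
      simp
    have h5 : (nOne * g).1 * tv.1 = tv.1 * (nOne * g).1 := by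
      rw [h4]; simp [h2]
    obtain ⟨m, hm⟩ := cent_tv (nOne * g).2 h5 (by rw [h4]; simp [h3])
    refine ⟨m, ?_⟩
    rw [show mHom m = nOne * g from Subtype.ext hm, map_mul, qPSp_eq_one.2 nOne_cen, one_mul]

theorem tv_comm (m : Model) : Commute (mHom m) tv := by
  have : Commute m ⟨⟨0, 0, 1⟩, 1⟩ := by
    obtain ⟨h, S⟩ := m
    apply SemidirectProduct.ext
    · simp only [SemidirectProduct.mul_left, map_one, MulAut.one_apply]
      ext
      · simp [actFun]
      · simp [actFun]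
      · simp [actFun]; ring
    · simp
  exact this.map mHom

/-- the centralizer of the transvection in `PSp(4,3)` -/
theorem model_cent : Nonempty (Model ≃* centralizer ({qPSp tv} : Set (Cfsg.PSp 2 (ZMod 3)))) := by
  let Ψ : Model →* centralizer ({qPSp tv} : Set (Cfsg.PSp 2 (ZMod 3))) :=
    (qPSp.comp mHom).codRestrict _ fun m => by
      rw [mem_centralizer_singleton_iff]
      exact ((tv_comm m).map qPSp).eq
  refine ⟨MulEquiv.ofBijective Ψ ⟨?_, ?_⟩⟩
  · rw [injective_iff_map_eq_one]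
    rintro ⟨h, S⟩ hm
    have h1 : qPSp (mHom ⟨h, S⟩) = 1 := congrArg Subtype.val hm
    rw [qPSp_eq_one] at h1
    obtain ⟨c, hc, -⟩ := cen_cases h1
    obtain ⟨e1, e2⟩ := mHom_injective_aux hc
    rw [e1, e2]
    rfl
  · rintro ⟨g, hg⟩
    obtain ⟨g', rfl⟩ : ∃ g', qPSp g' = g := QuotientGroup.mk'_surjective _ g
    rw [mem_centralizer_singleton_iff] at hg
    obtain ⟨m, hm⟩ := sp_cent (show Commute (qPSp g') (qPSp tv) from hg)
    exact ⟨m, Subtype.ext hm⟩

end Cfsg.Agent.H350.Shape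
end

-- part: S3366
section
set_option autoImplicit false
open Cfsg

namespace Cfsg.Agent.S3366

open Cfsg.Agent.H350.Shape

theorem card_psp (F : Type*) [Field F] [Fintype F] (hF : Fintype.card F = 3) :
    Nat.card (Cfsg.PSp 2 F) = 25920 := by
  have h := Cfsg.Agent.SylowSp4.Recog.card_PSp (F := F) (by rw [hF]; decide)
  rw [hF] at h
  omega

theorem orderOf_tv : orderOf (qPSp tv) = 3 := by
  apply orderOf_eq_prime
  · rw [← map_pow, tv_cube, map_one]
  · intro h
    rw [qPSp_eq_one] at h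
    obtain ⟨c, hc, -⟩ := cen_cases h
    rw [tv] at hc
    obtain ⟨h1, -⟩ := mHom_injective_aux hc
    exact absurd h1 (by decide)

/-- Let X be a finite group with O₃(X) extraspecial of order 27 and exponent 3, X/O₃(X) isomorphic to SL(2,3), O₂(X) = 1, and a Sylow 3-subgroup of X containing an elementary abelian subgroup of order 27. Then X is isomorphic to the centralizer in PSp(4,3) of a 3-central element of order 3 (an element of order 3 in the centre of a Sylow 3-subgroup). -/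
theorem result {X : Type*} [Group X] [Finite X]
    (hR : Cfsg.IsExtraspecial 3 (Cfsg.pCore 3 X)) (hRcard : Nat.card (Cfsg.pCore 3 X) = 27)
    (hRexp : ∀ r ∈ Cfsg.pCore 3 X, r ^ 3 = 1)
    (e : X ⧸ Cfsg.pCore 3 X ≃* Matrix.SpecialLinearGroup (Fin 2) (ZMod 3))
    (hO2 : Cfsg.pCore 2 X = ⊥)
    (hE : ∃ E : Subgroup X, IsMulCommutative E ∧ (∀ a ∈ E, a ^ 3 = 1) ∧ Nat.card E = 27)
    (F : Type*) [Field F] [Fintype F] (hF : Fintype.card F = 3) :
    ∃ (c : Cfsg.PSp 2 F) (S : Sylow 3 (Cfsg.PSp 2 F)), orderOf c = 3 ∧ c ∈ (S : Subgroup (Cfsg.PSp 2 F)) ∧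
      c ∈ Subgroup.centralizer ((S : Subgroup (Cfsg.PSp 2 F)) : Set (Cfsg.PSp 2 F)) ∧
      Nonempty (X ≃* Subgroup.centralizer ({c} : Set (Cfsg.PSp 2 F))) := by
  classical
  have : Fact (Nat.Prime 3) := ⟨Nat.prime_three⟩
  obtain ⟨eX⟩ := (hyp_of hR hRcard hRexp inferInstance e hO2).model_iso hE
  obtain ⟨eC⟩ := model_cent
  have hcF : Nat.card F = Nat.card (ZMod 3) := by
    rw [Nat.card_eq_fintype_card, hF, Nat.card_zmod]
  let φ : ZMod 3 ≃+* F := FiniteField.ringEquivOfCardEq (by rw [hF, ZMod.card])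
  let ψ : Cfsg.PSp 2 (ZMod 3) ≃* Cfsg.PSp 2 F := Cfsg.Agent.LieClassical.FieldTransfer.pspCongr 2 φ
  set c : Cfsg.PSp 2 F := ψ (qPSp tv) with hc
  have hco : orderOf c = 3 := by
    rw [hc, ψ.orderOf_eq, orderOf_tv]
  have hmap : (Subgroup.centralizer ({qPSp tv} : Set (Cfsg.PSp 2 (ZMod 3)))).map ψ.toMonoidHom =
      Subgroup.centralizer ({c} : Set (Cfsg.PSp 2 F)) := by
    ext g
    rw [Subgroup.mem_map, Subgroup.mem_centralizer_singleton_iff]
    constructor
    · rintro ⟨g', hg', rfl⟩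
      rw [Subgroup.mem_centralizer_singleton_iff] at hg'
      show ψ g' * ψ (qPSp tv) = ψ (qPSp tv) * ψ g'
      rw [← map_mul, hg', map_mul]
    · intro hg
      refine ⟨ψ.symm g, ?_, ψ.apply_symm_apply g⟩
      rw [Subgroup.mem_centralizer_singleton_iff]
      apply ψ.injective
      rw [map_mul, map_mul, ψ.apply_symm_apply]
      exact hg
  have eC' : Model ≃* Subgroup.centralizer ({c} : Set (Cfsg.PSp 2 F)) :=
    eC.trans (((Subgroup.centralizer ({qPSp tv} : Set (Cfsg.PSp 2 (ZMod 3)))).equivMapOfInjective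
      ψ.toMonoidHom ψ.injective).trans (MulEquiv.subgroupCongr hmap))
  have hfinG : Finite (Cfsg.PSp 2 F) := Nat.finite_of_card_ne_zero (by rw [card_psp F hF]; norm_num)
  set C := Subgroup.centralizer ({c} : Set (Cfsg.PSp 2 F)) with hCdef
  have hCc : Nat.card C = 648 := by
    rw [← Nat.card_congr eC'.toEquiv, card_model]
  have hcC : c ∈ C := by
    rw [hCdef, Subgroup.mem_centralizer_singleton_iff]
  let c' : C := ⟨c, hcC⟩
  have hc'o : orderOf c' = 3 := by rw [← hco, ← Subgroup.orderOf_coe]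
  have hpc : IsPGroup 3 (Subgroup.zpowers c') := by
    apply IsPGroup.of_card (n := 1)
    rw [Nat.card_zpowers, hc'o, pow_one]
  obtain ⟨P, hP⟩ := hpc.exists_le_sylow
  have hPc : Nat.card P = 81 := by
    rw [Sylow.card_eq_multiplicity, hCc]
    have : (648 : ℕ).factorization 3 = 4 := by
      rw [show (648 : ℕ) = 3 ^ 4 * 8 by norm_num,
        Nat.factorization_mul (by norm_num) (by norm_num), Finsupp.add_apply,
        Nat.prime_three.factorization_pow, Finsupp.single_eq_same,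
        Nat.factorization_eq_zero_of_not_dvd (show ¬ 3 ∣ 8 by norm_num)]
    rw [this]; norm_num
  let S₀ : Subgroup (Cfsg.PSp 2 F) := (P : Subgroup C).map C.subtype
  have hS₀c : Nat.card S₀ = 81 := by
    rw [← hPc]
    exact (Nat.card_congr ((P : Subgroup C).equivMapOfInjective _ C.subtype_injective).toEquiv).symm
  have hfac : (25920 : ℕ).factorization 3 = 4 := by
    rw [show (25920 : ℕ) = 3 ^ 4 * 320 by norm_num,
      Nat.factorization_mul (by norm_num) (by norm_num), Finsupp.add_apply,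
      Nat.prime_three.factorization_pow, Finsupp.single_eq_same,
      Nat.factorization_eq_zero_of_not_dvd (show ¬ 3 ∣ 320 by norm_num)]
  let S : Sylow 3 (Cfsg.PSp 2 F) := Sylow.ofCard S₀ (by
    rw [hS₀c, card_psp F hF, hfac]; norm_num)
  have hS : (S : Subgroup (Cfsg.PSp 2 F)) = S₀ := Sylow.coe_ofCard _ _
  refine ⟨c, S, hco, ?_, ?_, ⟨eX.symm.trans eC'⟩⟩
  · rw [hS]
    exact Subgroup.mem_map.2 ⟨c', hP (Subgroup.mem_zpowers c'), rfl⟩
  · rw [hS, Subgroup.mem_centralizer_iff]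
    rintro _ ⟨g, -, rfl⟩
    exact Subgroup.mem_centralizer_singleton_iff.1 g.2

end Cfsg.Agent.S3366
end
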