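import Mathlib
import Cfsg.Agent.H352.Icos
import Cfsg.Agent.GTwoFour.Tools
import Cfsg.Statements.S3376
set_option linter.all false

-- part: H352/Wreath162
section
/-!
The wreath product `3 ≀ S₃` by generators and relations.
-/

set_option autoImplicit false

namespace Cfsg.Agent.H352.Wreath162

/-- The relations. -/
structure Rels {G : Type*} [Group G] (e s t : G) : Prop where
  e3 : e ^ 3 = 1
  s3 : s ^ 3 = 1
  t2 : t ^ 2 = 1
  st : (s * t) ^ 2 = 1
  et : e * t = t * e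
  ee : e * (s * e * s⁻¹) = s * e * s⁻¹ * e

theorem exists_fin {G : Type*} [Group G] (x : G) (n : ℕ) (hn : 0 < n) (hx : x ^ n = 1) (a : ℤ) :
    ∃ k : Fin n, x ^ a = x ^ (k : ℕ) := by
  have h0 : (0 : ℤ) < n := by exact_mod_cast hn
  refine ⟨⟨(a % n).toNat, ?_⟩, ?_⟩
  · have h1 := Int.emod_lt_of_pos a h0
    have h2 := Int.emod_nonneg a h0.ne'
    omega
  · have h2 := Int.emod_nonneg a h0.ne'
    show x ^ a = x ^ ((a % n).toNat)
    rw [← zpow_natCast, Int.toNat_of_nonneg h2]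
    conv_lhs => rw [← Int.mul_ediv_add_emod a n, zpow_add, zpow_mul, zpow_natCast, hx, one_zpow,
      one_mul]

section

variable {G : Type*} [Group G] {e0 s t : G} (h : Rels e0 s t)

include h

theorem card_le (hgen : Subgroup.closure ({e0, s, t} : Set G) = ⊤) :
    Finite G ∧ Nat.card G ≤ 162 := by
  classical
  obtain ⟨e3, s3, t2, st, et, ee⟩ := h
  obtain ⟨e1, he1⟩ : ∃ e1, e1 = s * e0 * s⁻¹ := ⟨_, rfl⟩
  obtain ⟨e2, he2⟩ : ∃ e2, e2 = s⁻¹ * e0 * s := ⟨_, rfl⟩
  rw [← he1] at ee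
  have hsinv : s⁻¹ = s * s := by
    rw [inv_eq_iff_mul_eq_one, ← s3]; simp only [pow_succ, pow_zero, one_mul]; rw [mul_assoc]
  have htinv : t⁻¹ = t := by
    rw [inv_eq_iff_mul_eq_one, ← pow_two, t2]
  have hts : t * s = s⁻¹ * t := by
    have h1 : s * t * (s * t) = 1 := by rw [← pow_two]; exact st
    have h2 : t * s = s⁻¹ * (s * t * (s * t)) * t⁻¹ := by group
    rw [h2, h1, mul_one, htinv]
  have hss : s * s * s = 1 := by
    rw [← s3]; simp only [pow_succ, pow_zero, one_mul]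
  have s0 : s * e0 = e1 * s := by rw [he1]; group
  have s1 : s * e1 = e2 * s := by
    rw [he1, he2, hsinv]
    have : s * (s * e0 * (s * s)) = s * s * e0 * (s * s) := by group
    rw [this, mul_assoc (s * s * e0) s s]
  have s2 : s * e2 = e0 * s := by rw [he2]; group
  have c01 : e0 * e1 = e1 * e0 := ee
  have c12 : e1 * e2 = e2 * e1 := by
    have h1 : e1 * e2 = s * (e0 * e1) * s⁻¹ := by
      rw [← mul_assoc s, s0, mul_assoc e1 s e1, s1, ← mul_assoc, mul_inv_cancel_right]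
    have h2 : e2 * e1 = s * (e1 * e0) * s⁻¹ := by
      rw [← mul_assoc s, s1, mul_assoc e2 s e0, s0, ← mul_assoc, mul_inv_cancel_right]
    rw [h1, h2, c01]
  have c02 : e0 * e2 = e2 * e0 := by
    have h1 : e0 * e2 = s * (e2 * e1) * s⁻¹ := by
      rw [← mul_assoc s, s2, mul_assoc e0 s e1, s1, ← mul_assoc, mul_inv_cancel_right]
    have h2 : e2 * e0 = s * (e1 * e2) * s⁻¹ := by
      rw [← mul_assoc s, s1, mul_assoc e2 s e2, s2, ← mul_assoc, mul_inv_cancel_right]
    rw [h1, h2, c12]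
  have t0 : t * e0 = e0 * t := et.symm
  have hts' : t * s⁻¹ = s * t := by
    have h1 : t * s * s⁻¹ = s⁻¹ * t * s⁻¹ := by rw [hts]
    rw [mul_inv_cancel_right] at h1
    calc t * s⁻¹ = s * (s⁻¹ * t * s⁻¹) := by group
      _ = s * t := by rw [← h1]
  have t1 : t * e1 = e2 * t := by
    rw [he1, he2]
    calc t * (s * e0 * s⁻¹) = (t * s) * e0 * s⁻¹ := by group
      _ = s⁻¹ * (t * e0) * s⁻¹ := by rw [hts]; group
      _ = s⁻¹ * e0 * (t * s⁻¹) := by rw [← et]; group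
      _ = s⁻¹ * e0 * s * t := by rw [hts']; group
  have t2' : t * e2 = e1 * t := by
    rw [he1, he2]
    calc t * (s⁻¹ * e0 * s) = (t * s⁻¹) * e0 * s := by group
      _ = s * (t * e0) * s := by rw [hts']; group
      _ = s * e0 * (t * s) := by rw [← et]; group
      _ = s * e0 * s⁻¹ * t := by rw [hts]; group
  have z01 : ∀ a b : ℤ, e0 ^ a * e1 ^ b = e1 ^ b * e0 ^ a := fun a b =>
    ((show Commute e0 e1 from c01).zpow_zpow a b).eq
  have z12 : ∀ a b : ℤ, e1 ^ a * e2 ^ b = e2 ^ b * e1 ^ a := fun a b =>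
    ((show Commute e1 e2 from c12).zpow_zpow a b).eq
  have z02 : ∀ a b : ℤ, e0 ^ a * e2 ^ b = e2 ^ b * e0 ^ a := fun a b =>
    ((show Commute e0 e2 from c02).zpow_zpow a b).eq
  have sz0 : ∀ a : ℤ, s * e0 ^ a = e1 ^ a * s := fun a => (show SemiconjBy s e0 e1 from s0).zpow_right a
  have sz1 : ∀ a : ℤ, s * e1 ^ a = e2 ^ a * s := fun a => (show SemiconjBy s e1 e2 from s1).zpow_right a
  have sz2 : ∀ a : ℤ, s * e2 ^ a = e0 ^ a * s := fun a => (show SemiconjBy s e2 e0 from s2).zpow_right a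
  have tz0 : ∀ a : ℤ, t * e0 ^ a = e0 ^ a * t := fun a => (show SemiconjBy t e0 e0 from t0).zpow_right a
  have tz1 : ∀ a : ℤ, t * e1 ^ a = e2 ^ a * t := fun a => (show SemiconjBy t e1 e2 from t1).zpow_right a
  have tz2 : ∀ a : ℤ, t * e2 ^ a = e1 ^ a * t := fun a => (show SemiconjBy t e2 e1 from t2').zpow_right a
  have tzs : ∀ a : ℤ, t * s ^ a = s ^ (-a) * t := fun a => by
    rw [zpow_neg, ← inv_zpow]
    exact (show SemiconjBy t s s⁻¹ from hts).zpow_right a
  let f : Fin 3 × Fin 3 × Fin 3 × Fin 3 × Fin 2 → G := fun p =>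
    e0 ^ (p.1 : ℕ) * e1 ^ (p.2.1 : ℕ) * e2 ^ (p.2.2.1 : ℕ) * s ^ (p.2.2.2.1 : ℕ) *
      t ^ (p.2.2.2.2 : ℕ)
  have e13 : e1 ^ 3 = 1 := by
    have : e1 ^ 3 = s * e0 ^ 3 * s⁻¹ := by rw [he1]; exact conj_pow
    rw [this, e3]; group
  have e23 : e2 ^ 3 = 1 := by
    have : e2 ^ 3 = s⁻¹ * e0 ^ 3 * s := by
      have := conj_pow (i := 3) (a := s⁻¹) (b := e0)
      rw [inv_inv] at this
      rw [he2, this]
    rw [this, e3]; group
  have hf : ∀ a b c i k : ℤ, ∃ p, f p = e0 ^ a * e1 ^ b * e2 ^ c * s ^ i * t ^ k := by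
    intro a b c i k
    obtain ⟨a', ha⟩ := exists_fin e0 3 (by norm_num) e3 a
    obtain ⟨b', hb⟩ := exists_fin e1 3 (by norm_num) e13 b
    obtain ⟨c', hc⟩ := exists_fin e2 3 (by norm_num) e23 c
    obtain ⟨i', hi⟩ := exists_fin s 3 (by norm_num) s3 i
    obtain ⟨k', hk⟩ := exists_fin t 2 (by norm_num) t2 k
    exact ⟨(a', b', c', i', k'), by rw [ha, hb, hc, hi, hk]⟩
  have hf' : ∀ p, ∃ a b c i k : ℤ, f p = e0 ^ a * e1 ^ b * e2 ^ c * s ^ i * t ^ k := by
    rintro ⟨a, b, c, i, k⟩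
    exact ⟨a, b, c, i, k, by simp only [f, zpow_natCast]⟩
  let F : Finset G := Finset.univ.image f
  have hF : ∀ g, g ∈ F ↔ ∃ p, f p = g := by
    intro g; simp [F]
  have huniv := Icos.univ_of_closed (G := G) (X := G) ({e0, s, t} : Set G) hgen F
    ⟨f (0, 0, 0, 0, 0), by rw [hF]; exact ⟨_, rfl⟩⟩ (by
      rintro g (rfl | rfl | rfl) p hp
      · rw [hF] at hp
        obtain ⟨q, rfl⟩ := hp
        obtain ⟨a, b, c, i, k, hq⟩ := hf' q
        obtain ⟨r, hr⟩ := hf (a + 1) b c i k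
        rw [hF]
        refine ⟨r, ?_⟩
        rw [hr, smul_eq_mul, hq, add_comm a 1, zpow_add, zpow_one]
        group
      · rw [hF] at hp
        obtain ⟨q, rfl⟩ := hp
        obtain ⟨a, b, c, i, k, hq⟩ := hf' q
        obtain ⟨r, hr⟩ := hf c a b (i + 1) k
        rw [hF]
        refine ⟨r, ?_⟩
        rw [hr, smul_eq_mul, hq, add_comm i 1, zpow_add, zpow_one]
        symm
        calc g * (e0 ^ a * e1 ^ b * e2 ^ c * g ^ i * t ^ k)
            = (g * e0 ^ a) * e1 ^ b * e2 ^ c * g ^ i * t ^ k := by simp only [mul_assoc]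
          _ = e1 ^ a * (g * e1 ^ b) * e2 ^ c * g ^ i * t ^ k := by rw [sz0]; simp only [mul_assoc]
          _ = e1 ^ a * e2 ^ b * (g * e2 ^ c) * g ^ i * t ^ k := by rw [sz1]; simp only [mul_assoc]
          _ = (e1 ^ a * e2 ^ b) * e0 ^ c * (g * g ^ i) * t ^ k := by
            rw [sz2]; simp only [mul_assoc]
          _ = e1 ^ a * (e2 ^ b * e0 ^ c) * (g * g ^ i) * t ^ k := by simp only [mul_assoc]
          _ = (e1 ^ a * e0 ^ c) * e2 ^ b * (g * g ^ i) * t ^ k := by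
            rw [← z02]; simp only [mul_assoc]
          _ = e0 ^ c * e1 ^ a * e2 ^ b * (g * g ^ i) * t ^ k := by rw [← z01]
      · rw [hF] at hp
        obtain ⟨q, rfl⟩ := hp
        obtain ⟨a, b, c, i, k, hq⟩ := hf' q
        obtain ⟨r, hr⟩ := hf a c b (-i) (k + 1)
        rw [hF]
        refine ⟨r, ?_⟩
        rw [hr, smul_eq_mul, hq, add_comm k 1, zpow_add, zpow_one]
        symm
        calc g * (e0 ^ a * e1 ^ b * e2 ^ c * s ^ i * g ^ k)
            = (g * e0 ^ a) * e1 ^ b * e2 ^ c * s ^ i * g ^ k := by simp only [mul_assoc]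
          _ = e0 ^ a * (g * e1 ^ b) * e2 ^ c * s ^ i * g ^ k := by rw [tz0]; simp only [mul_assoc]
          _ = e0 ^ a * e2 ^ b * (g * e2 ^ c) * s ^ i * g ^ k := by rw [tz1]; simp only [mul_assoc]
          _ = e0 ^ a * (e2 ^ b * e1 ^ c) * (g * s ^ i) * g ^ k := by
            rw [tz2]; simp only [mul_assoc]
          _ = e0 ^ a * (e1 ^ c * e2 ^ b) * (s ^ (-i) * g) * g ^ k := by rw [← z12, tzs]
          _ = e0 ^ a * e1 ^ c * e2 ^ b * s ^ (-i) * (g * g ^ k) := by simp only [mul_assoc])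
  have hfin : Finite G := by
    have : Function.Surjective f := fun g => (hF g).1 (huniv g)
    exact Finite.of_surjective f this
  refine ⟨hfin, ?_⟩
  have hs : Function.Surjective f := fun g => (hF g).1 (huniv g)
  have := Nat.card_le_card_of_surjective f hs
  simpa using this

end

/-- the relators -/
abbrev R : Set (FreeGroup (Fin 3)) :=
  {FreeGroup.of 0 ^ 3, FreeGroup.of 1 ^ 3, FreeGroup.of 2 ^ 2,
    (FreeGroup.of 1 * FreeGroup.of 2) ^ 2,
    FreeGroup.of 0 * FreeGroup.of 2 * (FreeGroup.of 2 * FreeGroup.of 0)⁻¹,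
    FreeGroup.of 0 * (FreeGroup.of 1 * FreeGroup.of 0 * (FreeGroup.of 1)⁻¹) *
      (FreeGroup.of 1 * FreeGroup.of 0 * (FreeGroup.of 1)⁻¹ * FreeGroup.of 0)⁻¹}

theorem rels_presented : Rels (G := PresentedGroup R) (PresentedGroup.of 0) (PresentedGroup.of 1)
    (PresentedGroup.of 2) where
  e3 := PresentedGroup.one_of_mem (rels := R) (by simp [R])
  s3 := PresentedGroup.one_of_mem (rels := R) (by simp [R])
  t2 := PresentedGroup.one_of_mem (rels := R) (by simp [R])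
  st := PresentedGroup.one_of_mem (rels := R) (by simp [R])
  et := mul_inv_eq_one.1 (PresentedGroup.one_of_mem (rels := R)
    (x := FreeGroup.of 0 * FreeGroup.of 2 * (FreeGroup.of 2 * FreeGroup.of 0)⁻¹) (by simp [R]))
  ee := mul_inv_eq_one.1 (PresentedGroup.one_of_mem (rels := R)
    (x := FreeGroup.of 0 * (FreeGroup.of 1 * FreeGroup.of 0 * (FreeGroup.of 1)⁻¹) *
      (FreeGroup.of 1 * FreeGroup.of 0 * (FreeGroup.of 1)⁻¹ * FreeGroup.of 0)⁻¹) (by simp [R]))

theorem card_presented : Finite (PresentedGroup R) ∧ Nat.card (PresentedGroup R) ≤ 162 := by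
  apply card_le rels_presented
  rw [eq_top_iff, ← PresentedGroup.closure_range_of R, Subgroup.closure_le]
  rintro g ⟨i, rfl⟩
  apply Subgroup.subset_closure
  fin_cases i
  · exact Or.inl rfl
  · exact Or.inr (Or.inl rfl)
  · exact Or.inr (Or.inr rfl)

theorem presented_equiv {G : Type*} [Group G] (hG : 162 ≤ Nat.card G) {e s t : G}
    (h : Rels e s t) (hgen : Subgroup.closure ({e, s, t} : Set G) = ⊤) :
    Nonempty (PresentedGroup R ≃* G) := by
  let gens : Fin 3 → G := ![e, s, t]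
  have hrel : ∀ r ∈ R, FreeGroup.lift gens r = 1 := by
    intro r hr
    rcases hr with rfl | rfl | rfl | rfl | rfl | rfl
    · simp only [map_pow, FreeGroup.lift_apply_of]; exact h.e3
    · simp only [map_pow, FreeGroup.lift_apply_of]; exact h.s3
    · simp only [map_pow, FreeGroup.lift_apply_of]; exact h.t2
    · simp only [map_pow, map_mul, FreeGroup.lift_apply_of]; exact h.st
    · simp only [map_mul, map_inv, FreeGroup.lift_apply_of]
      exact mul_inv_eq_one.2 h.et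
    · simp only [map_mul, map_inv, FreeGroup.lift_apply_of]
      exact mul_inv_eq_one.2 h.ee
  let φ : PresentedGroup R →* G := PresentedGroup.toGroup hrel
  have h0 : φ (PresentedGroup.of 0) = e := PresentedGroup.toGroup.of hrel
  have h1 : φ (PresentedGroup.of 1) = s := PresentedGroup.toGroup.of hrel
  have h2 : φ (PresentedGroup.of 2) = t := PresentedGroup.toGroup.of hrel
  have hsurj : Function.Surjective φ := by
    rw [← MonoidHom.range_eq_top, eq_top_iff, ← hgen, Subgroup.closure_le]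
    rintro g (rfl | rfl | rfl)
    · exact ⟨_, h0⟩
    · exact ⟨_, h1⟩
    · exact ⟨_, h2⟩
  obtain ⟨hf, hc⟩ := card_presented
  have hGf : Finite G := Finite.of_surjective φ hsurj
  have hcard : Nat.card (PresentedGroup R) = Nat.card G := by
    apply le_antisymm
    · exact hc.trans hG
    · exact Nat.card_le_card_of_surjective φ hsurj
  exact ⟨MulEquiv.ofBijective φ ((Nat.bijective_iff_surjective_and_card φ).2 ⟨hsurj, hcard⟩)⟩

end Cfsg.Agent.H352.Wreath162
end

-- part: H352/CentSym9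
section
/-!
The centralizer in `Sym(9)` of a product of three disjoint three-cycles.
-/

set_option autoImplicit false

namespace Cfsg.Agent.H352.CentSym9

open Equiv Cfsg.Agent.H352.Wreath162

/-- the product of three three-cycles -/
abbrev g9 : Perm (Fin 9) := Equiv.swap (0 : Fin 9) 1 * Equiv.swap 1 2 * Equiv.swap 3 4 * Equiv.swap 4 5 * Equiv.swap 6 7 * Equiv.swap 7 8

/-- the centralizer -/
abbrev C : Subgroup (Perm (Fin 9)) := Subgroup.centralizer ({g9} : Set (Perm (Fin 9)))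

theorem cycleType_g9 : g9.cycleType = {3, 3, 3} := by
  have h1 : (Equiv.swap (0 : Fin 9) 1 * Equiv.swap 1 2).IsThreeCycle := by
    have : Equiv.swap (0 : Fin 9) 1 * Equiv.swap 1 2 = Equiv.swap (1 : Fin 9) 0 * Equiv.swap 1 2 := by decide
    rw [this]; exact Equiv.Perm.isThreeCycle_swap_mul_swap_same (by decide) (by decide) (by decide)
  have h2 : (Equiv.swap (3 : Fin 9) 4 * Equiv.swap 4 5).IsThreeCycle := by
    have : Equiv.swap (3 : Fin 9) 4 * Equiv.swap 4 5 = Equiv.swap (4 : Fin 9) 3 * Equiv.swap 4 5 := by decide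
    rw [this]; exact Equiv.Perm.isThreeCycle_swap_mul_swap_same (by decide) (by decide) (by decide)
  have h3 : (Equiv.swap (6 : Fin 9) 7 * Equiv.swap 7 8).IsThreeCycle := by
    have : Equiv.swap (6 : Fin 9) 7 * Equiv.swap 7 8 = Equiv.swap (7 : Fin 9) 6 * Equiv.swap 7 8 := by decide
    rw [this]; exact Equiv.Perm.isThreeCycle_swap_mul_swap_same (by decide) (by decide) (by decide)
  have e : g9 = (Equiv.swap (0 : Fin 9) 1 * Equiv.swap 1 2) *
      ((Equiv.swap (3 : Fin 9) 4 * Equiv.swap 4 5) * (Equiv.swap (6 : Fin 9) 7 * Equiv.swap 7 8)) := by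
    simp only [g9, mul_assoc]
  have d1 : Equiv.Perm.Disjoint (Equiv.swap (3 : Fin 9) 4 * Equiv.swap 4 5)
      (Equiv.swap (6 : Fin 9) 7 * Equiv.swap 7 8) := by
    intro x; revert x; decide
  have d2 : Equiv.Perm.Disjoint (Equiv.swap (0 : Fin 9) 1 * Equiv.swap 1 2)
      ((Equiv.swap (3 : Fin 9) 4 * Equiv.swap 4 5) * (Equiv.swap (6 : Fin 9) 7 * Equiv.swap 7 8)) := by
    intro x; revert x; decide
  rw [e, d2.cycleType_mul, d1.cycleType_mul, h1.cycleType, h2.cycleType, h3.cycleType]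
  rfl

theorem card_C : Nat.card C = 162 := by
  rw [Equiv.Perm.nat_card_centralizer, cycleType_g9]
  decide

/-- first generator -/
def e9 : C := ⟨Equiv.swap 0 1 * Equiv.swap 1 2, by
  rw [Subgroup.mem_centralizer_singleton_iff]; decide⟩

/-- second generator -/
def s9 : C := ⟨finRotate 9 * finRotate 9 * finRotate 9, by
  rw [Subgroup.mem_centralizer_singleton_iff]; decide⟩

/-- third generator -/
def t9 : C := ⟨Equiv.swap 3 6 * Equiv.swap 4 7 * Equiv.swap 5 8, by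
  rw [Subgroup.mem_centralizer_singleton_iff]; decide⟩

theorem rels9 : Rels e9 s9 t9 where
  e3 := Subtype.ext (by
    show (Equiv.swap (0 : Fin 9) 1 * Equiv.swap 1 2) ^ 3 = 1
    decide)
  s3 := Subtype.ext (by
    show (finRotate 9 * finRotate 9 * finRotate 9) ^ 3 = 1
    decide)
  t2 := Subtype.ext (by
    show (Equiv.swap (3 : Fin 9) 6 * Equiv.swap 4 7 * Equiv.swap 5 8) ^ 2 = 1
    decide)
  st := Subtype.ext (by
    show ((finRotate 9 * finRotate 9 * finRotate 9) *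
      (Equiv.swap (3 : Fin 9) 6 * Equiv.swap 4 7 * Equiv.swap 5 8)) ^ 2 = 1
    decide)
  et := Subtype.ext (by
    show (Equiv.swap (0 : Fin 9) 1 * Equiv.swap 1 2) *
      (Equiv.swap (3 : Fin 9) 6 * Equiv.swap 4 7 * Equiv.swap 5 8) =
      (Equiv.swap (3 : Fin 9) 6 * Equiv.swap 4 7 * Equiv.swap 5 8) *
      (Equiv.swap (0 : Fin 9) 1 * Equiv.swap 1 2)
    decide)
  ee := Subtype.ext (by
    show (Equiv.swap (0 : Fin 9) 1 * Equiv.swap 1 2) *
      ((finRotate 9 * finRotate 9 * finRotate 9) * (Equiv.swap (0 : Fin 9) 1 * Equiv.swap 1 2) *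
        (finRotate 9 * finRotate 9 * finRotate 9)⁻¹) =
      ((finRotate 9 * finRotate 9 * finRotate 9) * (Equiv.swap (0 : Fin 9) 1 * Equiv.swap 1 2) *
        (finRotate 9 * finRotate 9 * finRotate 9)⁻¹) * (Equiv.swap (0 : Fin 9) 1 * Equiv.swap 1 2)
    decide)

/-- the elements in normal form -/
def nf (p : Fin 3 × Fin 3 × Fin 3 × Fin 3 × Fin 2) : Perm (Fin 9) :=
  (Equiv.swap (0 : Fin 9) 1 * Equiv.swap 1 2) ^ (p.1 : ℕ) *
  (Equiv.swap (3 : Fin 9) 4 * Equiv.swap 4 5) ^ (p.2.1 : ℕ) *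
  (Equiv.swap (6 : Fin 9) 7 * Equiv.swap 7 8) ^ (p.2.2.1 : ℕ) *
  (finRotate 9 * finRotate 9 * finRotate 9) ^ (p.2.2.2.1 : ℕ) *
  (Equiv.swap (3 : Fin 9) 6 * Equiv.swap 4 7 * Equiv.swap 5 8) ^ (p.2.2.2.2 : ℕ)

/-- block of a point -/
def blk (x : Fin 9) : Fin 3 := ⟨x.val / 3, by omega⟩

/-- offset of a point -/
def off (x : Fin 9) : Fin 3 := ⟨x.val % 3, by omega⟩

/-- offset of block `j` of the permutation -/
def offs (u v w : Fin 9) (j : Fin 3) : Fin 3 :=
  if blk u = j then off u else if blk v = j then off v else off w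

/-- decode from the images of `0, 3, 6` -/
def dec (u v w : Fin 9) : Fin 3 × Fin 3 × Fin 3 × Fin 3 × Fin 2 :=
  (offs u v w 0, offs u v w 1, offs u v w 2, blk u, if blk v = blk u + 1 then 0 else 1)

theorem dec_nf : ∀ p, dec (nf p 0) (nf p 3) (nf p 6) = p := by
  decide +kernel

theorem nf_injective : Function.Injective nf := by
  intro p q h
  rw [← dec_nf p, ← dec_nf q, h]

theorem closure_eq_top : Subgroup.closure ({e9, s9, t9} : Set C) = ⊤ := by
  set K := Subgroup.closure ({e9, s9, t9} : Set C) with hK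
  have he : e9 ∈ K := Subgroup.subset_closure (by simp)
  have hs : s9 ∈ K := Subgroup.subset_closure (by simp)
  have ht : t9 ∈ K := Subgroup.subset_closure (by simp)
  have h1 : ((s9 * e9 * s9⁻¹ : C) : Perm (Fin 9)) = Equiv.swap (3 : Fin 9) 4 * Equiv.swap 4 5 := by
    show (finRotate 9 * finRotate 9 * finRotate 9) * (Equiv.swap (0 : Fin 9) 1 * Equiv.swap 1 2) *
        (finRotate 9 * finRotate 9 * finRotate 9)⁻¹ = Equiv.swap (3 : Fin 9) 4 * Equiv.swap 4 5
    decide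
  have h2 : ((s9⁻¹ * e9 * s9 : C) : Perm (Fin 9)) = Equiv.swap (6 : Fin 9) 7 * Equiv.swap 7 8 := by
    show (finRotate 9 * finRotate 9 * finRotate 9)⁻¹ * (Equiv.swap (0 : Fin 9) 1 * Equiv.swap 1 2) *
        (finRotate 9 * finRotate 9 * finRotate 9) = Equiv.swap (6 : Fin 9) 7 * Equiv.swap 7 8
    decide
  have hmem : ∀ p, ∃ k : K, ((k : C) : Perm (Fin 9)) = nf p := by
    intro p
    refine ⟨⟨e9 ^ (p.1 : ℕ) * (s9 * e9 * s9⁻¹) ^ (p.2.1 : ℕ) * (s9⁻¹ * e9 * s9) ^ (p.2.2.1 : ℕ) *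
      s9 ^ (p.2.2.2.1 : ℕ) * t9 ^ (p.2.2.2.2 : ℕ), ?_⟩, ?_⟩
    · exact mul_mem (mul_mem (mul_mem (mul_mem (pow_mem he _) (pow_mem (mul_mem (mul_mem hs he)
        (inv_mem hs)) _)) (pow_mem (mul_mem (mul_mem (inv_mem hs) he) hs) _)) (pow_mem hs _))
        (pow_mem ht _)
    · show ((e9 ^ (p.1 : ℕ) * (s9 * e9 * s9⁻¹) ^ (p.2.1 : ℕ) * (s9⁻¹ * e9 * s9) ^ (p.2.2.1 : ℕ) *
        s9 ^ (p.2.2.2.1 : ℕ) * t9 ^ (p.2.2.2.2 : ℕ) : C) : Perm (Fin 9)) = nf p
      rw [Subgroup.coe_mul, Subgroup.coe_mul, Subgroup.coe_mul, Subgroup.coe_mul, Subgroup.coe_pow,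
        Subgroup.coe_pow, Subgroup.coe_pow, Subgroup.coe_pow, Subgroup.coe_pow, h1, h2]
      rfl
  choose k hk using hmem
  have hkinj : Function.Injective k := by
    intro p q h
    apply nf_injective
    rw [← hk p, ← hk q, h]
  have hle := Nat.card_le_card_of_injective k hkinj
  have h162 : Nat.card (Fin 3 × Fin 3 × Fin 3 × Fin 3 × Fin 2) = 162 := by simp
  rw [h162] at hle
  apply Subgroup.eq_top_of_card_eq
  apply le_antisymm
  · exact Subgroup.card_le_card_group K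
  · rw [card_C]; exact hle

theorem presented_C : Nonempty (PresentedGroup R ≃* C) :=
  presented_equiv (by rw [card_C]) rels9 closure_eq_top

end Cfsg.Agent.H352.CentSym9
end

-- part: H352/Order162
section
/-!
Finding the generators of `3 ≀ S₃` in a group of order 162.
-/

set_option autoImplicit false

namespace Cfsg.Agent.H352.Order162

open Cfsg.Agent.H352.Wreath162 Subgroup

variable {G : Type*} [Group G] [Finite G]

/-- Abstract core: `J` normal elementary abelian of order 27, `S` of index two. -/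
theorem exists_rels (hG : Nat.card G = 162) (S J Z : Subgroup G) [hJn : J.Normal]
    (hS : Nat.card S = 81) (hJS : J ≤ S)
    (hJcomm : ∀ a ∈ J, ∀ b ∈ J, a * b = b * a)
    (hJexp : ∀ a ∈ J, a ^ 3 = 1) (hJcard : Nat.card J = 27)
    (hZ : Z = S ⊓ centralizer (S : Set G)) (hZcard : Nat.card Z = 3)
    (t : G) (ht2 : t ^ 2 = 1) (ht1 : t ≠ 1)
    (hZt : ∀ z ∈ Z, t * z = z * t) (hSt : ∃ x ∈ S, t * x ≠ x * t) :
    ∃ e s t : G, Rels e s t ∧ closure ({e, s, t} : Set G) = ⊤ := by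
  classical
  have htt : t * t = 1 := by rw [← pow_two, ht2]
  have htinv : t⁻¹ = t := by rw [inv_eq_iff_mul_eq_one, htt]
  have hSi : S.index = 2 := by
    have := S.card_mul_index
    rw [hG, hS] at this; omega
  have hSn : S.Normal := normal_of_index_eq_two hSi
  have hSp : IsPGroup 3 S := IsPGroup.of_card (n := 4) (by rw [hS]; norm_num)
  have htS : t ∉ S := by
    intro h
    have h1 : orderOf t = 2 := orderOf_eq_prime ht2 ht1
    have h2 : orderOf t ∣ Nat.card S := Subgroup.orderOf_dvd_natCard S h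
    rw [h1, hS] at h2
    omega
  -- the centralizer of `J` in `S` is `J`
  have hcent : ∀ x ∈ S, (∀ j ∈ J, x * j = j * x) → x ∈ J := by
    intro x hx hxJ
    by_contra hxn
    let D : Subgroup G := S ⊓ centralizer (J : Set G)
    have hJD : J ≤ D := by
      intro a ha
      refine ⟨hJS ha, mem_centralizer_iff.2 ?_⟩
      intro b hb
      exact hJcomm b hb a ha
    have hxD : x ∈ D := by
      refine ⟨hx, mem_centralizer_iff.2 ?_⟩
      intro b hb
      exact (hxJ b hb).symm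
    have hlt : Nat.card J < Nat.card D := by
      apply lt_of_le_of_ne (Subgroup.card_le_of_le hJD)
      intro h
      have : J = D := Subgroup.eq_of_le_of_card_ge hJD h.ge
      exact hxn (this ▸ hxD)
    have hd1 : Nat.card J ∣ Nat.card D := Subgroup.card_dvd_of_le hJD
    have hd2 : Nat.card D ∣ Nat.card S := Subgroup.card_dvd_of_le inf_le_left
    rw [hJcard] at hd1 hlt
    rw [hS] at hd2
    have hD : Nat.card D = 81 := by
      obtain ⟨k, hk⟩ := hd1
      rw [hk] at hd2 hlt ⊢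
      have h3 : k ∣ 3 := by
        have : 27 * k ∣ 27 * 3 := by simpa using hd2
        exact (Nat.mul_dvd_mul_iff_left (by norm_num)).1 this
      have := Nat.le_of_dvd (by norm_num) h3
      interval_cases k <;> omega
    have hDS : D = S := Subgroup.eq_of_le_of_card_ge inf_le_left (by rw [hD, hS])
    have hJZ : J ≤ Z := by
      rw [hZ]
      intro a ha
      refine ⟨hJS ha, mem_centralizer_iff.2 ?_⟩
      intro b hb
      have hbD : b ∈ D := by rw [hDS]; exact hb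
      have := (mem_centralizer_iff.1 hbD.2) a ha
      exact this.symm
    have := Subgroup.card_le_of_le hJZ
    omega
  have hZJ : Z ≤ J := by
    intro z hz
    rw [hZ] at hz
    apply hcent z hz.1
    intro j hj
    exact ((mem_centralizer_iff.1 hz.2) j (hJS hj)).symm
  -- `t` does not centralize `J`
  have htJ : ∃ j ∈ J, t * j ≠ j * t := by
    by_contra hcon
    push Not at hcon
    obtain ⟨x, hx, hxt⟩ := hSt
    apply hxt
    have h1 : x⁻¹ * (t * x * t⁻¹) ∈ J := by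
      apply hcent
      · exact mul_mem (inv_mem hx) (hSn.conj_mem x hx t)
      · intro j hj
        have hc1 : t⁻¹ * j * t = j := by rw [mul_assoc, ← hcon j hj, inv_mul_cancel_left]
        have hxj : x * j * x⁻¹ ∈ J := hJn.conj_mem j hj x
        have hc2 : t * (x * j * x⁻¹) * t⁻¹ = x * j * x⁻¹ := by
          rw [hcon _ hxj, mul_inv_cancel_right]
        calc x⁻¹ * (t * x * t⁻¹) * j
            = x⁻¹ * (t * (x * (t⁻¹ * j * t) * x⁻¹) * t⁻¹) * (t * x * t⁻¹) := by group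
          _ = x⁻¹ * (x * j * x⁻¹) * (t * x * t⁻¹) := by rw [hc1, hc2]
          _ = j * (x⁻¹ * (t * x * t⁻¹)) := by group
    obtain ⟨j, hj, hjx⟩ : ∃ j ∈ J, t * x * t⁻¹ = x * j :=
      ⟨_, h1, by group⟩
    have h2 : x = x * j * j := by
      have h3 : t * (t * x * t⁻¹) * t⁻¹ = x := by
        calc t * (t * x * t⁻¹) * t⁻¹ = (t * t) * x * (t * t)⁻¹ := by group
          _ = x := by rw [htt]; group
      have h4 : t * (x * j) * t⁻¹ = x * j * j := by
        have hc3 : t * j * t⁻¹ = j := by rw [hcon j hj, mul_inv_cancel_right]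
        calc t * (x * j) * t⁻¹ = (t * x * t⁻¹) * (t * j * t⁻¹) := by group
          _ = x * j * j := by rw [hjx, hc3]
      rw [hjx, h4] at h3
      exact h3.symm
    have h5 : j * j = 1 := by
      have : x * (j * j) = x := by rw [← mul_assoc]; exact h2.symm
      exact mul_eq_left.1 this
    have h6 : j = 1 := by
      have h7 := hJexp j hj
      rw [pow_succ, pow_two, h5, one_mul] at h7
      exact h7
    rw [h6, mul_one] at hjx
    exact mul_inv_eq_iff_eq_mul.1 hjx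
  -- choose `s0`
  obtain ⟨s0, hs0S, hs0J⟩ : ∃ s0 ∈ S, s0 ∉ J := by
    by_contra hcon
    push Not at hcon
    have : S ≤ J := hcon
    have := Subgroup.card_le_of_le this
    omega
  -- the three cosets
  have himg : Nat.card (S.map (QuotientGroup.mk' J)) = 3 := by
    have h2 := Subgroup.card_mul_index (J.subgroupOf S)
    have h3 : Nat.card (J.subgroupOf S) = 27 := by
      rw [← hJcard]; exact Nat.card_congr (Subgroup.subgroupOfEquivOfLe hJS).toEquiv
    have h4 : (J.subgroupOf S).index = 3 := by rw [h3, hS] at h2; omega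
    have h6 : ((QuotientGroup.mk' J).comp S.subtype).ker = J.subgroupOf S := by
      rw [← MonoidHom.comap_ker, QuotientGroup.ker_mk']; rfl
    have h7 := Subgroup.index_ker ((QuotientGroup.mk' J).comp S.subtype)
    rw [h6, h4, MonoidHom.range_comp, Subgroup.range_subtype] at h7
    exact h7.symm
  have hcosets : ∀ x ∈ S, ∃ k : ℤ, s0 ^ k * x⁻¹ ∈ J := by
    intro x hx
    let q : G →* G ⧸ J := QuotientGroup.mk' J
    have hker : q.ker = J := QuotientGroup.ker_mk' J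
    have h1 : Nat.card (S.map q) = 3 := himg
    have hfact : Fact (Nat.Prime 3) := ⟨by norm_num⟩
    have ha : (⟨q s0, Subgroup.mem_map_of_mem q hs0S⟩ : S.map q) ≠ 1 := by
      intro h
      have h2 : q s0 = 1 := congrArg Subtype.val h
      apply hs0J
      rw [← hker]; exact h2
    have hb := mem_zpowers_of_prime_card h1 ha (g' := ⟨q x, Subgroup.mem_map_of_mem q hx⟩)
    obtain ⟨k, hk⟩ := Subgroup.mem_zpowers_iff.1 hb
    refine ⟨k, ?_⟩
    have hk' : q s0 ^ k = q x := congrArg Subtype.val hk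
    rw [← hker, MonoidHom.mem_ker, map_mul, map_zpow, hk', map_inv, mul_inv_cancel]
  -- elements of `J` commuting with an element of `S` outside `J` are in `Z`
  have hZs0 : ∀ j ∈ J, s0 * j = j * s0 → j ∈ Z := by
    intro j hj hc
    rw [hZ]
    refine ⟨hJS hj, mem_centralizer_iff.2 ?_⟩
    intro x hx
    obtain ⟨k, hk⟩ := hcosets x hx
    have h1 : Commute j (s0 ^ k) := (show Commute j s0 from hc.symm).zpow_right k
    have h2 : Commute j (s0 ^ k * x⁻¹) := hJcomm _ hj _ hk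
    have h3 : Commute j ((s0 ^ k * x⁻¹)⁻¹ * s0 ^ k) := h2.inv_right.mul_right h1
    have h4 : (s0 ^ k * x⁻¹)⁻¹ * s0 ^ k = x := by group
    rw [h4] at h3
    exact h3.symm.eq
  -- `t s0 t⁻¹ ∉ s0 J`
  have hnot : ¬ (∃ j ∈ J, t * s0 * t⁻¹ = s0 * j) := by
    rintro ⟨j0, hj0, hj0e⟩
    let D : Subgroup G :=
      { carrier := {x | x ∈ J ∧ t * x * t⁻¹ = x⁻¹}
        one_mem' := ⟨J.one_mem, by group⟩
        mul_mem' := by
          rintro a b ⟨ha, ha'⟩ ⟨hb, hb'⟩
          refine ⟨mul_mem ha hb, ?_⟩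
          calc t * (a * b) * t⁻¹ = (t * a * t⁻¹) * (t * b * t⁻¹) := by group
            _ = a⁻¹ * b⁻¹ := by rw [ha', hb']
            _ = (b * a)⁻¹ := by group
            _ = (a * b)⁻¹ := by rw [hJcomm a ha b hb]
        inv_mem' := by
          rintro a ⟨ha, ha'⟩
          refine ⟨inv_mem ha, ?_⟩
          calc t * a⁻¹ * t⁻¹ = (t * a * t⁻¹)⁻¹ := by group
            _ = a⁻¹⁻¹ := by rw [ha'] }
    have hDS : D ≤ S := fun x hx => hJS hx.1
    have hsemi : ∀ x ∈ S, ∃ j ∈ J, t * x * t⁻¹ = x * j := by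
      have hzp : ∀ k : ℤ, ∃ j ∈ J, t * s0 ^ k * t⁻¹ = s0 ^ k * j := by
        intro k
        have h1 : t * s0 ^ k * t⁻¹ = (s0 * j0) ^ k := by rw [← hj0e, conj_zpow]
        refine ⟨(s0 ^ k)⁻¹ * (s0 * j0) ^ k, ?_, by rw [h1]; group⟩
        rw [← QuotientGroup.eq_one_iff, QuotientGroup.mk_mul, QuotientGroup.mk_inv,
          QuotientGroup.mk_zpow, QuotientGroup.mk_zpow, QuotientGroup.mk_mul,
          (QuotientGroup.eq_one_iff j0).2 hj0, mul_one, inv_mul_cancel]
      intro x hx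
      obtain ⟨k, hk⟩ := hcosets x hx
      obtain ⟨j, hj, hjk⟩ := hzp k
      set m := s0 ^ k * x⁻¹ with hm
      have hx' : x = m⁻¹ * s0 ^ k := by rw [hm]; group
      refine ⟨x⁻¹ * (t * x * t⁻¹), ?_, by group⟩
      rw [← QuotientGroup.eq_one_iff]
      have e1 : ((x : G) : G ⧸ J) = ((s0 ^ k : G) : G ⧸ J) := by
        rw [hx', QuotientGroup.mk_mul, QuotientGroup.mk_inv, (QuotientGroup.eq_one_iff m).2 hk,
          inv_one, one_mul]
      have e2 : ((t * x * t⁻¹ : G) : G ⧸ J) = ((t * s0 ^ k * t⁻¹ : G) : G ⧸ J) := by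
        rw [QuotientGroup.mk_mul, QuotientGroup.mk_mul, e1]; rfl
      rw [QuotientGroup.mk_mul, e2, hjk, QuotientGroup.mk_mul, (QuotientGroup.eq_one_iff j).2 hj,
        mul_one, QuotientGroup.mk_inv, e1, inv_mul_cancel]
    have hDn : (D.subgroupOf S).Normal := by
      constructor
      rintro ⟨d, hdS⟩ hd ⟨x, hx⟩
      rw [mem_subgroupOf] at hd ⊢
      obtain ⟨hdJ, hdt⟩ := hd
      have hdJ' : d ∈ J := hdJ
      have hdt' : t * d * t⁻¹ = d⁻¹ := hdt
      obtain ⟨j, hj, hjx⟩ := hsemi x hx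
      refine ⟨hJn.conj_mem d hdJ' x, ?_⟩
      show t * (x * d * x⁻¹) * t⁻¹ = (x * d * x⁻¹)⁻¹
      have hc : j * d⁻¹ * j⁻¹ = d⁻¹ := by
        rw [hJcomm j hj d⁻¹ (inv_mem hdJ'), mul_inv_cancel_right]
      calc t * (x * d * x⁻¹) * t⁻¹ = (t * x * t⁻¹) * (t * d * t⁻¹) * (t * x * t⁻¹)⁻¹ := by group
        _ = x * (j * d⁻¹ * j⁻¹) * x⁻¹ := by rw [hjx, hdt']; group
        _ = (x * d * x⁻¹)⁻¹ := by rw [hc]; group
    have hDne : D.subgroupOf S ≠ ⊥ := by
      intro hbot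
      obtain ⟨j, hj, hjt⟩ := htJ
      have hj' : t * j * t⁻¹ ∈ J := hJn.conj_mem j hj t
      have hd : t * j * t⁻¹ * j⁻¹ ∈ D := by
        refine ⟨mul_mem hj' (inv_mem hj), ?_⟩
        calc t * (t * j * t⁻¹ * j⁻¹) * t⁻¹ = (t * t) * j * (t * t)⁻¹ * (t * j * t⁻¹)⁻¹ := by group
          _ = j * (t * j * t⁻¹)⁻¹ := by rw [htt]; group
          _ = (t * j * t⁻¹ * j⁻¹)⁻¹ := by group
      have h1 : (⟨t * j * t⁻¹ * j⁻¹, hDS hd⟩ : S) ∈ D.subgroupOf S := hd
      rw [hbot, mem_bot] at h1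
      have h2 : t * j * t⁻¹ * j⁻¹ = 1 := congrArg Subtype.val h1
      have h3 := mul_inv_eq_one.1 h2
      exact hjt (mul_inv_eq_iff_eq_mul.1 h3)
    have hfact : Fact (Nat.Prime 3) := ⟨by norm_num⟩
    obtain ⟨z, hzD, hzc, hz1⟩ := Cfsg.Agent.GTwoFour.Tools.exists_mem_center_of_normal hSp
      (D.subgroupOf S) hDne
    have hzD' : (z : G) ∈ D := hzD
    have hzZ : (z : G) ∈ Z := by
      rw [hZ]
      refine ⟨z.2, mem_centralizer_iff.2 ?_⟩
      intro x hx
      have := (mem_center_iff.1 hzc) ⟨x, hx⟩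
      exact congrArg Subtype.val this
    have h1 := hZt z hzZ
    have h2 : t * (z : G) * t⁻¹ = (z : G)⁻¹ := hzD'.2
    rw [h1, mul_inv_cancel_right] at h2
    have h3 := hJexp z (hZJ hzZ)
    have h4 : (z : G) * z = 1 := mul_eq_one_iff_eq_inv.2 h2
    rw [pow_succ, pow_two, h4, one_mul] at h3
    exact hz1 (Subtype.ext h3)
  -- so `t s0 t⁻¹ ∈ s0⁻¹ J`
  have hcube : ∀ x ∈ S, x ^ 3 ∈ J := by
    intro x hx
    have h1 : (⟨QuotientGroup.mk' J x, Subgroup.mem_map_of_mem _ hx⟩ :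
        S.map (QuotientGroup.mk' J)) ^ 3 = 1 := by
      rw [← himg]; exact pow_card_eq_one'
    have h2 : (QuotientGroup.mk' J x) ^ 3 = 1 := congrArg Subtype.val h1
    rw [← map_pow] at h2
    exact (QuotientGroup.eq_one_iff _).1 h2
  have hinv : t * s0 * t⁻¹ * s0 ∈ J := by
    obtain ⟨k, hk⟩ := hcosets _ (hSn.conj_mem s0 hs0S t)
    have hs3 : s0 ^ 3 ∈ J := hcube s0 hs0S
    have hk3 : s0 ^ k = s0 ^ (k % 3) * (s0 ^ 3) ^ (k / 3) := by
      rw [← zpow_natCast s0 3, ← zpow_mul, ← zpow_add]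
      congr 1
      have := Int.emod_add_mul_ediv k 3
      push_cast
      omega
    have hkr : s0 ^ (k % 3) * (t * s0 * t⁻¹)⁻¹ ∈ J := by
      have h1 : s0 ^ (k % 3) * (t * s0 * t⁻¹)⁻¹ =
          (s0 ^ (k % 3) * ((s0 ^ 3) ^ (k / 3))⁻¹ * (s0 ^ (k % 3))⁻¹) *
            (s0 ^ k * (t * s0 * t⁻¹)⁻¹) := by
        rw [hk3]; group
      rw [h1]
      exact mul_mem (hJn.conj_mem _ (inv_mem (zpow_mem hs3 _)) _) hk
    have hcases : k % 3 = 0 ∨ k % 3 = 1 ∨ k % 3 = 2 := by omega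
    rcases hcases with h | h | h
    · exfalso
      rw [h, zpow_zero, one_mul, inv_mem_iff] at hkr
      apply hs0J
      have := hJn.conj_mem _ hkr t⁻¹
      have e : t⁻¹ * (t * s0 * t⁻¹) * t⁻¹⁻¹ = s0 := by group
      rwa [e] at this
    · exfalso
      rw [h, zpow_one] at hkr
      apply hnot
      refine ⟨s0⁻¹ * (t * s0 * t⁻¹), ?_, by group⟩
      have h2 := hJn.conj_mem _ (inv_mem hkr) s0⁻¹
      have e : s0⁻¹ * (s0 * (t * s0 * t⁻¹)⁻¹)⁻¹ * s0⁻¹⁻¹ = s0⁻¹ * (t * s0 * t⁻¹) := by group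
      rwa [e] at h2
    · rw [h] at hkr
      have h2 : t * s0 * t⁻¹ * s0 = (s0 ^ (2 : ℤ) * (t * s0 * t⁻¹)⁻¹)⁻¹ * s0 ^ 3 := by
        rw [← zpow_natCast s0 3]; push_cast; group
      rw [h2]
      exact mul_mem (inv_mem hkr) hs3
  -- the new generator
  obtain ⟨s, hss0, hts⟩ : ∃ s : G, s0⁻¹ * s ∈ J ∧ t * s * t⁻¹ = s⁻¹ := by
    have hu2 : (t * s0) ^ 2 ∈ J := by
      have : (t * s0) ^ 2 = t * s0 * t⁻¹ * s0 := by rw [pow_two, htinv]; group
      rw [this]; exact hinv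
    have hu6 : ((t * s0) ^ 2) ^ 3 = 1 := hJexp _ hu2
    obtain ⟨u, hu⟩ : ∃ u, u = t * s0 := ⟨_, rfl⟩
    rw [← hu] at hu2 hu6
    have hu6' : u ^ 3 * u ^ 3 = 1 := by
      rw [← pow_add, show 3 + 3 = 2 * 3 by norm_num, pow_mul]; exact hu6
    refine ⟨t * u ^ 3, ?_, ?_⟩
    · have h1 : s0⁻¹ * (t * u ^ 3) = s0⁻¹ * (t * t) * s0 * (u ^ 2) := by
        rw [pow_succ' u 2]
        calc s0⁻¹ * (t * (u * u ^ 2)) = s0⁻¹ * (t * ((t * s0) * u ^ 2)) := by rw [← hu]
          _ = s0⁻¹ * (t * t) * s0 * (u ^ 2) := by group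
      rw [h1, htt, mul_one, inv_mul_cancel, one_mul]
      exact hu2
    · have h2 : (t * u ^ 3)⁻¹ = u ^ 3 * t := by
        rw [mul_inv_rev, htinv, inv_eq_of_mul_eq_one_right hu6']
      rw [h2, ← mul_assoc, htt, one_mul, htinv]
  have hsS : s ∈ S := by
    have : s = s0 * (s0⁻¹ * s) := by group
    rw [this]; exact mul_mem hs0S (hJS hss0)
  have hsJ : s ∉ J := by
    intro h
    apply hs0J
    have : s0 = s * (s0⁻¹ * s)⁻¹ := by group
    rw [this]; exact mul_mem h (inv_mem hss0)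
  have hZs : ∀ j ∈ J, s * j = j * s → j ∈ Z := by
    intro j hj hc
    apply hZs0 j hj
    have h1 : Commute (s0⁻¹ * s) j := hJcomm _ hss0 _ hj
    have h2 : Commute s j := hc
    have h3 : Commute (s * (s0⁻¹ * s)⁻¹) j := h2.mul_left h1.inv_left
    have h4 : s * (s0⁻¹ * s)⁻¹ = s0 := by group
    rw [h4] at h3
    exact h3.eq
  have hs3 : s ^ 3 = 1 := by
    have h1 : s ^ 3 ∈ J := hcube s hsS
    have h2 : s ^ 3 ∈ Z := hZs _ h1 (by rw [← pow_succ, ← pow_succ'])
    have h3 : t * s ^ 3 * t⁻¹ = (s ^ 3)⁻¹ := by rw [← conj_pow, hts, inv_pow]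
    rw [hZt _ h2, mul_inv_cancel_right] at h3
    have h4 : s ^ 3 * s ^ 3 = 1 := mul_eq_one_iff_eq_inv.2 h3
    have h5 := hJexp _ h1
    rw [pow_succ, pow_two, h4, one_mul] at h5
    exact h5
  have hsinv : s⁻¹ = s * s := by
    rw [inv_eq_iff_mul_eq_one, ← hs3]; simp only [pow_succ, pow_zero, one_mul]; rw [mul_assoc]
  have hst : (s * t) ^ 2 = 1 := by
    have : (s * t) ^ 2 = s * (t * s * t⁻¹) := by
      rw [htinv, pow_two]; group
    rw [this, hts, mul_inv_cancel]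
  have hcs : ∀ x ∈ J, s * x * s⁻¹ ∈ J := fun x hx => hJn.conj_mem x hx s
  have hcs' : ∀ x ∈ J, s⁻¹ * x * s ∈ J := fun x hx => by
    have := hJn.conj_mem x hx s⁻¹
    rwa [inv_inv] at this
  -- the map `δ`
  let δ : J →* G :=
    { toFun := fun x => s * x * s⁻¹ * (x : G)⁻¹
      map_one' := by simp
      map_mul' := by
        rintro ⟨a, ha⟩ ⟨b, hb⟩
        show s * (a * b) * s⁻¹ * (a * b)⁻¹ = s * a * s⁻¹ * a⁻¹ * (s * b * s⁻¹ * b⁻¹)
        have h1 := hJcomm _ (mul_mem (hcs b hb) (inv_mem hb)) _ (inv_mem ha)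
        calc s * (a * b) * s⁻¹ * (a * b)⁻¹ = s * a * s⁻¹ * ((s * b * s⁻¹ * b⁻¹) * a⁻¹) := by group
          _ = s * a * s⁻¹ * a⁻¹ * (s * b * s⁻¹ * b⁻¹) := by rw [h1]; group }
  have hδ : ∀ x (hx : x ∈ J), δ ⟨x, hx⟩ = s * x * s⁻¹ * x⁻¹ := fun x hx => rfl
  have hδJ : ∀ x, δ x ∈ J := fun x => mul_mem (hcs x x.2) (inv_mem x.2)
  have hδδ : ∀ x (hx : x ∈ J), δ ⟨δ ⟨x, hx⟩, hδJ _⟩ = x * (s * x * s⁻¹) * (s⁻¹ * x * s) := by
    intro x hx
    rw [hδ, hδ]
    have hx1 := hcs x hx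
    have hx2 := hcs' x hx
    have h0 : s * s * x * (s * s)⁻¹ = s⁻¹ * x * s := by rw [← hsinv, inv_inv]
    have h3 : (s * x * s⁻¹)⁻¹ * (s * x * s⁻¹)⁻¹ = s * x * s⁻¹ := by
      have := hJexp _ hx1
      rw [pow_succ, pow_two] at this
      calc (s * x * s⁻¹)⁻¹ * (s * x * s⁻¹)⁻¹
          = (s * x * s⁻¹)⁻¹ * (s * x * s⁻¹)⁻¹ * ((s * x * s⁻¹) * (s * x * s⁻¹) * (s * x * s⁻¹)) := by
            rw [this, mul_one]
        _ = s * x * s⁻¹ := by group
    calc s * (s * x * s⁻¹ * x⁻¹) * s⁻¹ * (s * x * s⁻¹ * x⁻¹)⁻¹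
        = (s * s * x * (s * s)⁻¹) * ((s * x * s⁻¹)⁻¹ * (x * (s * x * s⁻¹)⁻¹)) := by group
      _ = (s⁻¹ * x * s) * ((s * x * s⁻¹)⁻¹ * ((s * x * s⁻¹)⁻¹ * x)) := by
        rw [h0, hJcomm x hx _ (inv_mem hx1)]
      _ = (s⁻¹ * x * s) * ((s * x * s⁻¹) * x) := by rw [← mul_assoc (s * x * s⁻¹)⁻¹, h3]
      _ = (s⁻¹ * x * s) * (x * (s * x * s⁻¹)) := by rw [hJcomm x hx _ hx1]
      _ = x * (s * x * s⁻¹) * (s⁻¹ * x * s) := by rw [hJcomm _ hx2 _ (mul_mem hx hx1)]
  have hker : ∀ x (hx : x ∈ J), δ ⟨x, hx⟩ = 1 → x ∈ Z := by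
    intro x hx h
    apply hZs x hx
    rw [hδ] at h
    exact mul_inv_eq_iff_eq_mul.1 (mul_inv_eq_one.1 h)
  have hker' : ∀ x (hx : x ∈ J), x ∈ Z → δ ⟨x, hx⟩ = 1 := by
    intro x hx h
    rw [hδ, mul_inv_eq_one]
    rw [hZ] at h
    have := (mem_centralizer_iff.1 h.2) s hsS
    rw [this, mul_inv_cancel_right]
  have hkerc : Nat.card δ.ker = 3 := by
    rw [← hZcard]
    apply Nat.card_congr
    exact
      { toFun := fun x => ⟨x.1.1, hker _ x.1.2 (MonoidHom.mem_ker.1 x.2)⟩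
        invFun := fun z => ⟨⟨z.1, hZJ z.2⟩, MonoidHom.mem_ker.2 (hker' _ _ z.2)⟩
        left_inv := fun x => rfl
        right_inv := fun x => rfl }
  have hrange : Nat.card δ.range = 9 := by
    have h1 := Subgroup.card_mul_index δ.ker
    rw [Subgroup.index_ker, hkerc, hJcard] at h1
    omega
  -- element with nontrivial norm
  obtain ⟨j, hj, hNj⟩ : ∃ j ∈ J, j * (s * j * s⁻¹) * (s⁻¹ * j * s) ≠ 1 := by
    by_contra hcon
    push Not at hcon
    have h1 : δ.range ≤ Z := by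
      rintro y ⟨⟨x, hx⟩, rfl⟩
      apply hker _ (hδJ _)
      rw [hδδ]; exact hcon x hx
    have := Subgroup.card_le_of_le h1
    omega
  set e := j * (t * j * t⁻¹) with he
  have hj' : t * j * t⁻¹ ∈ J := hJn.conj_mem j hj t
  have heJ : e ∈ J := mul_mem hj hj'
  have het : e * t = t * e := by
    have h1 : t * e * t⁻¹ = e := by
      calc t * e * t⁻¹ = (t * j * t⁻¹) * ((t * t) * j * (t * t)⁻¹) := by rw [he]; group
        _ = (t * j * t⁻¹) * j := by rw [htt]; group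
        _ = e := by rw [he, hJcomm j hj _ hj']
    exact (mul_inv_eq_iff_eq_mul.1 h1).symm
  have hts1 : t * s = s⁻¹ * t := mul_inv_eq_iff_eq_mul.1 hts
  have hts2 : t * s⁻¹ = s * t := by
    have : t * s⁻¹ * t⁻¹ = s := by
      have h1 : t * s⁻¹ * t⁻¹ = (t * s * t⁻¹)⁻¹ := by group
      rw [h1, hts, inv_inv]
    exact mul_inv_eq_iff_eq_mul.1 this
  -- the norm of `e`
  have hNe : e * (s * e * s⁻¹) * (s⁻¹ * e * s) ≠ 1 := by
    obtain ⟨j1, hj1⟩ : ∃ j1, j1 = s * j * s⁻¹ := ⟨_, rfl⟩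
    obtain ⟨j2, hj2⟩ : ∃ j2, j2 = s⁻¹ * j * s := ⟨_, rfl⟩
    rw [← hj1, ← hj2] at hNj
    have hj1J : j1 ∈ J := hj1 ▸ hcs j hj
    have hj2J : j2 ∈ J := hj2 ▸ hcs' j hj
    obtain ⟨n, hn⟩ : ∃ n, n = j * j1 * j2 := ⟨_, rfl⟩
    rw [← hn] at hNj
    have hnJ : n ∈ J := hn ▸ mul_mem (mul_mem hj hj1J) hj2J
    have hsn : s * n * s⁻¹ = n := by
      have h1 : s * j1 * s⁻¹ = j2 := by
        rw [hj1, hj2]
        calc s * (s * j * s⁻¹) * s⁻¹ = (s * s) * j * (s * s)⁻¹ := by group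
          _ = s⁻¹ * j * s := by rw [← hsinv, inv_inv]
      have h2 : s * j2 * s⁻¹ = j := by rw [hj2]; group
      calc s * n * s⁻¹ = (s * j * s⁻¹) * (s * j1 * s⁻¹) * (s * j2 * s⁻¹) := by rw [hn]; group
        _ = j1 * j2 * j := by rw [h1, h2, ← hj1]
        _ = j * (j1 * j2) := by rw [hJcomm _ (mul_mem hj1J hj2J) _ hj]
        _ = n := by rw [hn, mul_assoc]
    have hnZ : n ∈ Z := hZs n hnJ (mul_inv_eq_iff_eq_mul.1 hsn)
    have htn : t * n * t⁻¹ = n := by rw [hZt n hnZ, mul_inv_cancel_right]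
    have e1 : s * (t * j * t⁻¹) * s⁻¹ = t * j2 * t⁻¹ := by
      calc s * (t * j * t⁻¹) * s⁻¹ = (s * t) * j * (s * t)⁻¹ := by group
        _ = (t * s⁻¹) * j * (t * s⁻¹)⁻¹ := by rw [hts2]
        _ = t * j2 * t⁻¹ := by rw [hj2]; group
    have e2 : s⁻¹ * (t * j * t⁻¹) * s = t * j1 * t⁻¹ := by
      calc s⁻¹ * (t * j * t⁻¹) * s = (s⁻¹ * t) * j * (s⁻¹ * t)⁻¹ := by group
        _ = (t * s) * j * (t * s)⁻¹ := by rw [hts1]
        _ = t * j1 * t⁻¹ := by rw [hj1]; group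
    have htj1 : t * j1 * t⁻¹ ∈ J := hJn.conj_mem _ hj1J t
    have htj2 : t * j2 * t⁻¹ ∈ J := hJn.conj_mem _ hj2J t
    have hprod : e * (s * e * s⁻¹) * (s⁻¹ * e * s) = n * n := by
      have h1 : s * e * s⁻¹ = j1 * (t * j2 * t⁻¹) := by
        rw [← e1, he, hj1]; group
      have h2 : s⁻¹ * e * s = j2 * (t * j1 * t⁻¹) := by
        rw [← e2, he, hj2]; group
      rw [h1, h2, he]
      have h3 : t * n * t⁻¹ = (t * j * t⁻¹) * (t * j2 * t⁻¹) * (t * j1 * t⁻¹) := by
        rw [hn, mul_assoc j, hJcomm j1 hj1J j2 hj2J]; group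
      calc j * (t * j * t⁻¹) * (j1 * (t * j2 * t⁻¹)) * (j2 * (t * j1 * t⁻¹))
          = j * ((t * j * t⁻¹) * j1) * (((t * j2 * t⁻¹) * j2) * (t * j1 * t⁻¹)) := by
            simp only [mul_assoc]
        _ = j * (j1 * (t * j * t⁻¹)) * ((j2 * (t * j2 * t⁻¹)) * (t * j1 * t⁻¹)) := by
            rw [hJcomm _ hj' _ hj1J, hJcomm _ htj2 _ hj2J]
        _ = j * j1 * ((t * j * t⁻¹) * j2) * ((t * j2 * t⁻¹) * (t * j1 * t⁻¹)) := by
            simp only [mul_assoc]
        _ = j * j1 * (j2 * (t * j * t⁻¹)) * ((t * j2 * t⁻¹) * (t * j1 * t⁻¹)) := by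
            rw [hJcomm _ hj' _ hj2J]
        _ = n * (t * n * t⁻¹) := by rw [h3, hn]; simp only [mul_assoc]
        _ = n * n := by rw [htn]
    rw [hprod]
    intro h
    have h3 := hJexp n hnJ
    rw [pow_succ, pow_two, h, one_mul] at h3
    exact hNj h3
  refine ⟨e, s, t, ⟨hJexp e heJ, hs3, ht2, hst, het, hJcomm _ heJ _ (hcs e heJ)⟩, ?_⟩
  set K := closure ({e, s, t} : Set G) with hK
  have heK : e ∈ K := subset_closure (by simp)
  have hsK : s ∈ K := subset_closure (by simp)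
  have htK : t ∈ K := subset_closure (by simp)
  -- norms are in `Z`
  have hNZ : ∀ x ∈ J, x * (s * x * s⁻¹) * (s⁻¹ * x * s) ∈ Z := by
    intro x hx
    obtain ⟨x1, hx1⟩ : ∃ x1, x1 = s * x * s⁻¹ := ⟨_, rfl⟩
    obtain ⟨x2, hx2⟩ : ∃ x2, x2 = s⁻¹ * x * s := ⟨_, rfl⟩
    rw [← hx1, ← hx2]
    have hx1J : x1 ∈ J := hx1 ▸ hcs x hx
    have hx2J : x2 ∈ J := hx2 ▸ hcs' x hx
    have hsn : s * (x * x1 * x2) * s⁻¹ = x * x1 * x2 := by
      have h1 : s * x1 * s⁻¹ = x2 := by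
        rw [hx1, hx2]
        calc s * (s * x * s⁻¹) * s⁻¹ = (s * s) * x * (s * s)⁻¹ := by group
          _ = s⁻¹ * x * s := by rw [← hsinv, inv_inv]
      have h2 : s * x2 * s⁻¹ = x := by rw [hx2]; group
      calc s * (x * x1 * x2) * s⁻¹ = (s * x * s⁻¹) * (s * x1 * s⁻¹) * (s * x2 * s⁻¹) := by group
        _ = x1 * x2 * x := by rw [h1, h2, ← hx1]
        _ = x * (x1 * x2) := by rw [hJcomm _ (mul_mem hx1J hx2J) _ hx]
        _ = x * x1 * x2 := by rw [mul_assoc]
    exact hZs _ (mul_mem (mul_mem hx hx1J) hx2J) (mul_inv_eq_iff_eq_mul.1 hsn)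
  -- `J ≤ K`
  have hJK : J ≤ K := by
    obtain ⟨n, hn⟩ : ∃ n, n = e * (s * e * s⁻¹) * (s⁻¹ * e * s) := ⟨_, rfl⟩
    have hnK : n ∈ K := hn ▸ mul_mem (mul_mem heK (mul_mem (mul_mem hsK heK) (inv_mem hsK)))
      (mul_mem (mul_mem (inv_mem hsK) heK) hsK)
    have hnZ : n ∈ Z := hn ▸ hNZ e heJ
    have hn1 : n ≠ 1 := hn ▸ hNe
    have hde : δ ⟨e, heJ⟩ ∈ K := by
      rw [hδ]; exact mul_mem (mul_mem (mul_mem hsK heK) (inv_mem hsK)) (inv_mem heK)
    have hdn : δ ⟨δ ⟨e, heJ⟩, hδJ _⟩ = n := by rw [hδδ, hn]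
    have hfact : Fact (Nat.Prime 3) := ⟨by norm_num⟩
    have hZle : ∀ B : Subgroup G, n ∈ B → Z ≤ B := by
      intro B hB z hz
      have h1 := mem_zpowers_of_prime_card hZcard (g := (⟨n, hnZ⟩ : Z)) (g' := ⟨z, hz⟩) (by
        intro h; exact hn1 (congrArg Subtype.val h))
      obtain ⟨k, hk⟩ := Subgroup.mem_zpowers_iff.1 h1
      have hk' : n ^ k = z := congrArg Subtype.val hk
      rw [← hk']; exact zpow_mem hB k
    have hZK : Z ≤ K := hZle K hnK
    let A : Subgroup J := K.subgroupOf J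
    let f : A →* G := δ.comp A.subtype
    have hfr : 9 ≤ Nat.card f.range := by
      have hnf : n ∈ f.range := by
        refine ⟨⟨⟨δ ⟨e, heJ⟩, hδJ _⟩, ?_⟩, hdn⟩
        exact hde
      have h1 : Z ≤ f.range := hZle _ hnf
      have hdf : δ ⟨e, heJ⟩ ∈ f.range := ⟨⟨⟨e, heJ⟩, heK⟩, rfl⟩
      have h2 : δ ⟨e, heJ⟩ ∉ Z := by
        intro h
        have := hker' _ (hδJ _) h
        rw [hdn] at this
        exact hn1 this
      have h3 : f.range ≤ J := by
        rintro _ ⟨x, rfl⟩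
        exact hδJ _
      have h4 : Nat.card f.range ∣ 27 := by rw [← hJcard]; exact Subgroup.card_dvd_of_le h3
      have h5 : 3 ∣ Nat.card f.range := by rw [← hZcard]; exact Subgroup.card_dvd_of_le h1
      have h6 : Nat.card f.range ≠ 3 := by
        intro h
        have : Z = f.range := Subgroup.eq_of_le_of_card_ge h1 (by rw [h, hZcard])
        exact h2 (this ▸ hdf)
      have h7 : (27 : ℕ) = 3 ^ 3 := by norm_num
      rw [h7] at h4
      obtain ⟨k, hk, hk'⟩ := (Nat.dvd_prime_pow (by norm_num)).1 h4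
      rw [hk'] at h5 h6 ⊢
      interval_cases k <;> omega
    have hfk : 3 ≤ Nat.card f.ker := by
      rw [← hZcard]
      apply Nat.card_le_card_of_injective
        (fun z : Z => (⟨⟨⟨z.1, hZJ z.2⟩, hZK z.2⟩, MonoidHom.mem_ker.2 (hker' _ _ z.2)⟩ : f.ker))
      intro a b hab
      have h1 := congrArg (fun x : f.ker => (x.1.1.1 : G)) hab
      exact Subtype.ext h1
    have h1 := Subgroup.card_mul_index f.ker
    rw [Subgroup.index_ker] at h1
    have h2 : 27 ≤ Nat.card A := by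
      rw [← h1]
      calc 27 = 3 * 9 := by norm_num
        _ ≤ _ := Nat.mul_le_mul hfk hfr
    have h3 : A = ⊤ := by
      apply Subgroup.eq_top_of_le_card
      rw [hJcard]; exact h2
    exact Subgroup.subgroupOf_eq_top.1 h3
  have h27 : 27 ∣ Nat.card (K ⊓ S : Subgroup G) := by
    rw [← hJcard]; exact Subgroup.card_dvd_of_le (le_inf hJK hJS)
  have h81 : Nat.card (K ⊓ S : Subgroup G) ∣ 81 := by
    rw [← hS]; exact Subgroup.card_dvd_of_le inf_le_right
  have hne : Nat.card (K ⊓ S : Subgroup G) ≠ 27 := by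
    intro h
    have h1 : J = K ⊓ S := Subgroup.eq_of_le_of_card_ge (le_inf hJK hJS) (by rw [h, hJcard])
    exact hsJ (h1 ▸ ⟨hsK, hsS⟩)
  have h81' : Nat.card (K ⊓ S : Subgroup G) = 81 := by
    obtain ⟨k, hk⟩ := h27
    rw [hk] at h81 hne ⊢
    have h3 : k ∣ 3 := by
      have : 27 * k ∣ 27 * 3 := by simpa using h81
      exact (Nat.mul_dvd_mul_iff_left (by norm_num)).1 this
    have := Nat.le_of_dvd (by norm_num) h3
    interval_cases k <;> omega
  have hSK : S ≤ K := by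
    have : K ⊓ S = S := Subgroup.eq_of_le_of_card_ge inf_le_right (by rw [h81', hS])
    rw [← this]; exact inf_le_left
  have h1 : 81 ∣ Nat.card K := by rw [← hS]; exact Subgroup.card_dvd_of_le hSK
  have h2 : Nat.card K ∣ 162 := by rw [← hG]; exact Subgroup.card_subgroup_dvd_card K
  have h3 : Nat.card K ≠ 81 := by
    intro h
    have : S = K := Subgroup.eq_of_le_of_card_ge hSK (by rw [h, hS])
    exact htS (this ▸ htK)
  apply Subgroup.eq_top_of_card_eq
  rw [hG]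
  obtain ⟨k, hk⟩ := h1
  rw [hk] at h2 h3 ⊢
  have h4 : k ∣ 2 := by
    have : 81 * k ∣ 81 * 2 := by simpa using h2
    exact (Nat.mul_dvd_mul_iff_left (by norm_num)).1 this
  have := Nat.le_of_dvd (by norm_num) h4
  interval_cases k <;> omega

end Cfsg.Agent.H352.Order162
end

-- part: S3376
section
set_option autoImplicit false
open Cfsg

namespace Cfsg.Agent.S3376

/-- Let G be a group of order 162 = 3⁴·2 with Sylow 3-subgroup S and Sylow 2-subgroup T, having an elementary abelian normal subgroup J of order 27, such that Z = Z(S) has order 3, Z centralizes T, and C_S(T) ≠ S. Then G is isomorphic to the centralizer in Sym(9) of a product of three disjoint 3-cycles. -/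
theorem result {G : Type*} [Group G] [Finite G] (hG : Nat.card G = 162)
    (S : Sylow 3 G) (T : Sylow 2 G) (J : Subgroup G) [hJn : J.Normal] (hJcomm : IsMulCommutative J)
    (hJexp : ∀ a ∈ J, a ^ 3 = 1) (hJcard : Nat.card J = 27)
    (Z : Subgroup G) (hZ : Z = (S : Subgroup G) ⊓ Subgroup.centralizer ((S : Subgroup G) : Set G)) (hZcard : Nat.card Z = 3)
    (hZT : Z ≤ Subgroup.centralizer ((T : Subgroup G) : Set G))
    (hST : (S : Subgroup G) ⊓ Subgroup.centralizer ((T : Subgroup G) : Set G) ≠ S) :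
    Nonempty (G ≃* Subgroup.centralizer ({Equiv.swap (0 : Fin 9) 1 * Equiv.swap 1 2 * Equiv.swap 3 4 * Equiv.swap 4 5 * Equiv.swap 6 7 * Equiv.swap 7 8} : Set (Equiv.Perm (Fin 9)))) := by
  have f3 : Fact (Nat.Prime 3) := ⟨by norm_num⟩
  have f2 : Fact (Nat.Prime 2) := ⟨by norm_num⟩
  have h162 : (162 : ℕ) = 2 * 3 ^ 4 := by norm_num
  have hS : Nat.card (S : Subgroup G) = 81 := by
    rw [Sylow.card_eq_multiplicity, hG]
    have h1 : (162 : ℕ).factorization 3 = 4 := by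
      rw [h162, Nat.factorization_mul (by norm_num) (by norm_num), Finsupp.add_apply,
        Nat.Prime.factorization_pow (by norm_num), Finsupp.single_eq_same,
        Nat.factorization_eq_zero_of_not_dvd (by norm_num)]
    rw [h1]; norm_num
  have hT : Nat.card (T : Subgroup G) = 2 := by
    rw [Sylow.card_eq_multiplicity, hG]
    have h1 : (162 : ℕ).factorization 2 = 1 := by
      rw [h162, Nat.factorization_mul (by norm_num) (by norm_num), Finsupp.add_apply,
        Nat.Prime.factorization_self (by norm_num),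
        Nat.factorization_eq_zero_of_not_dvd (by norm_num)]
    rw [h1, pow_one]
  obtain ⟨t, htT, ht1, hTall⟩ : ∃ t ∈ (T : Subgroup G), t ≠ 1 ∧ ∀ x ∈ (T : Subgroup G), x = 1 ∨ x = t := by
    obtain ⟨a, b, hab, huniv⟩ := Nat.card_eq_two_iff.1 hT
    have h1 : (1 : (T : Subgroup G)) ∈ ({a, b} : Set (T : Subgroup G)) := by rw [huniv]; trivial
    have hn : ∀ n : (T : Subgroup G), n = a ∨ n = b := by
      intro n
      have : n ∈ ({a, b} : Set (T : Subgroup G)) := by rw [huniv]; trivial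
      simpa using this
    rcases h1 with h1 | h1
    · refine ⟨b, b.2, ?_, ?_⟩
      · intro h
        apply hab
        rw [← h1]
        exact Subtype.ext h.symm
      · intro n hnN
        rcases hn ⟨n, hnN⟩ with h | h
        · left; rw [← h1] at h; exact congrArg Subtype.val h
        · right; exact congrArg Subtype.val h
    · have h1' : (1 : (T : Subgroup G)) = b := h1
      refine ⟨a, a.2, ?_, ?_⟩
      · intro h
        apply hab
        rw [← h1']
        exact Subtype.ext h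
      · intro n hnN
        rcases hn ⟨n, hnN⟩ with h | h
        · right; exact congrArg Subtype.val h
        · left; rw [← h1'] at h; exact congrArg Subtype.val h
  have ht2 : t ^ 2 = 1 := by
    rcases hTall _ (mul_mem htT htT) with h | h
    · rw [pow_two]; exact h
    · exact absurd (mul_eq_left.1 h) ht1
  have hJS : J ≤ (S : Subgroup G) :=
    (IsPGroup.of_card (p := 3) (n := 3) (by rw [hJcard]; norm_num)).le_sylow_of_normal S
  have hSt : ∃ x ∈ (S : Subgroup G), t * x ≠ x * t := by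
    by_contra hcon
    push Not at hcon
    apply hST
    rw [inf_eq_left]
    intro x hx
    rw [Subgroup.mem_centralizer_iff]
    intro y hy
    rcases hTall y hy with h | h
    · rw [h, one_mul, mul_one]
    · rw [h]; exact hcon x hx
  obtain ⟨e, s, t', hrels, hgen⟩ := Cfsg.Agent.H352.Order162.exists_rels hG (S : Subgroup G) J Z hS hJS
    (fun a ha b hb => congrArg Subtype.val (hJcomm.is_comm.comm (⟨a, ha⟩ : J) ⟨b, hb⟩))
    hJexp hJcard hZ hZcard t ht2 ht1
    (fun z hz => (Subgroup.mem_centralizer_iff.1 (hZT hz)) t htT) hSt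
  obtain ⟨e1⟩ := Cfsg.Agent.H352.Wreath162.presented_equiv (by rw [hG]) hrels hgen
  obtain ⟨e2⟩ := Cfsg.Agent.H352.CentSym9.presented_C
  exact ⟨e1.symm.trans e2⟩

end Cfsg.Agent.S3376
end
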