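import Cfsg.Statements.S3389
import Cfsg.Agent.H355.Fixity
set_option linter.all false

set_option autoImplicit false
open Cfsg

namespace Cfsg.Agent.S3389

/-- Let G be a finite group acting faithfully and transitively on a finite set Ω with fixity k ≥ 1: every non-identity element fixes at most k points and some non-identity element fixes exactly k points. Then |Z(G)| divides k; if k = 2 then |G| is even; and for every prime p > k dividing |G| and every point α, either p does not divide |G_α| or G_α contains a Sylow p-subgroup of G. -/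
theorem result {G : Type*} [Group G] [Finite G] {Ω : Type*} [Fintype Ω] [MulAction G Ω] [FaithfulSMul G Ω]
    (htr : MulAction.IsPretransitive G Ω) (k : ℕ) (hk : 1 ≤ k)
    (hfix : ∀ g : G, g ≠ 1 → Nat.card (MulAction.fixedBy Ω g) ≤ k) (hex : ∃ g : G, g ≠ 1 ∧ Nat.card (MulAction.fixedBy Ω g) = k) :
    Nat.card (Subgroup.center G) ∣ k ∧ (k = 2 → 2 ∣ Nat.card G) ∧
      ∀ (p : ℕ), p.Prime → k < p → p ∣ Nat.card G → ∀ α : Ω,
        ¬ p ∣ Nat.card (MulAction.stabilizer G α) ∨ ¬ p ∣ (MulAction.stabilizer G α).index := by
  classical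
  refine ⟨?_, ?_, ?_⟩
  · obtain ⟨g, _, hg⟩ := hex
    rw [← hg]
    exact Cfsg.Agent.H355.card_center_dvd htr g
  · rintro rfl
    exact Cfsg.Agent.H355.two_dvd_card_of_fixity_two htr hfix hex
  · intro p hp hkp _ α
    rw [or_iff_not_imp_left, not_not]
    intro h
    exact Cfsg.Agent.H355.not_dvd_index_stabilizer hfix hp hkp α h

end Cfsg.Agent.S3389
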