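import Cfsg.Statements.S3391
import Cfsg.Agent.H355.SzFix
import Cfsg.Agent.OddCyclic.ClaimC.SzIso
set_option linter.all false

set_option autoImplicit false
open Cfsg

namespace Cfsg.Agent.S3391

/-- Let q = 2^{2m+1} ≥ 8 and let G be isomorphic to the Suzuki group Sz(q). If G acts faithfully and transitively on a finite set Ω with fixity 2 (every non-identity element fixes at most two points, and some fixes exactly two), then either |Ω| = q² + 1 and the action is 2-transitive, or |Ω| = q²(q² + 1) and the point stabilizers have order q − 1. -/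
theorem result {G : Type*} [Group G] [Finite G] (F : Type) [Field F] [Fintype F] (m : ℕ) (hm : 1 ≤ m) (hF : Fintype.card F = 2 ^ (2 * m + 1))
    (e : G ≃* ↥(Cfsg.Lie.Sz F (2 ^ (m + 1)))) {Ω : Type*} [Fintype Ω] [MulAction G Ω] [FaithfulSMul G Ω] (htr : MulAction.IsPretransitive G Ω)
    (hfix : ∀ g : G, g ≠ 1 → Nat.card (MulAction.fixedBy Ω g) ≤ 2) (hex : ∃ g : G, g ≠ 1 ∧ Nat.card (MulAction.fixedBy Ω g) = 2) :
    (Fintype.card Ω = Fintype.card F ^ 2 + 1 ∧ MulAction.IsMultiplyPretransitive G Ω 2) ∨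
    (Fintype.card Ω = Fintype.card F ^ 2 * (Fintype.card F ^ 2 + 1) ∧ ∀ α : Ω, Nat.card (MulAction.stabilizer G α) = Fintype.card F - 1) := by
  classical
  obtain ⟨i⟩ := Cfsg.Agent.OddCyclic.ClaimC.SzIso.iso (F := F) hm hF
  let f : ↥(Cfsg.Sz F m) ≃* G := i.trans e.symm
  let _ : MulAction ↥(Cfsg.Sz F m) Ω := MulAction.compHom Ω (f : ↥(Cfsg.Sz F m) →* G)
  have hsm : ∀ (g : ↥(Cfsg.Sz F m)) (ω : Ω), g • ω = f g • ω := fun g ω => rfl
  have hfb : ∀ g : ↥(Cfsg.Sz F m), MulAction.fixedBy Ω g = MulAction.fixedBy Ω (f g) := by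
    intro g
    ext ω
    rw [MulAction.mem_fixedBy, MulAction.mem_fixedBy, hsm]
  have htr' : MulAction.IsPretransitive ↥(Cfsg.Sz F m) Ω := by
    constructor
    intro x y
    obtain ⟨g, hg⟩ := MulAction.exists_smul_eq G x y
    refine ⟨f.symm g, ?_⟩
    rw [hsm, MulEquiv.apply_symm_apply, hg]
  have hfa : FaithfulSMul ↥(Cfsg.Sz F m) Ω := by
    constructor
    intro g h hgh
    apply f.injective
    apply FaithfulSMul.eq_of_smul_eq_smul (α := Ω)
    intro ω
    rw [← hsm, ← hsm, hgh]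
  have hfix' : ∀ g : ↥(Cfsg.Sz F m), g ≠ 1 → Nat.card (MulAction.fixedBy Ω g) ≤ 2 := by
    intro g hg
    rw [hfb]
    exact hfix _ (fun h => hg (f.injective (by rw [h, map_one])))
  have hex' : ∃ g : ↥(Cfsg.Sz F m), g ≠ 1 ∧ Nat.card (MulAction.fixedBy Ω g) = 2 := by
    obtain ⟨g, hg1, hg2⟩ := hex
    refine ⟨f.symm g, ?_, ?_⟩
    · intro h
      apply hg1
      rw [← MulEquiv.apply_symm_apply f g, h, map_one]
    · rw [hfb, MulEquiv.apply_symm_apply, hg2]
  have hst : ∀ α : Ω, Nat.card (MulAction.stabilizer ↥(Cfsg.Sz F m) α) =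
      Nat.card (MulAction.stabilizer G α) := by
    intro α
    refine Nat.card_congr (Equiv.subtypeEquiv f.toEquiv ?_)
    intro g
    rw [MulAction.mem_stabilizer_iff, MulAction.mem_stabilizer_iff]
    exact Iff.rfl
  rcases Cfsg.Agent.H355.SzFix.main hm hF htr' hfix' hex' with ⟨h1, h2⟩ | ⟨h1, h2⟩
  · left
    rw [Nat.card_eq_fintype_card] at h1
    refine ⟨by rw [h1, hF], ?_⟩
    rw [MulAction.is_two_pretransitive_iff] at h2 ⊢
    intro a b c d hab hcd
    obtain ⟨g, hg1, hg2⟩ := h2 hab hcd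
    exact ⟨f g, hg1, hg2⟩
  · right
    rw [Nat.card_eq_fintype_card] at h1
    refine ⟨by rw [h1, hF], ?_⟩
    intro α
    rw [← hst, h2, hF]

end Cfsg.Agent.S3391
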