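-- Statement S3413 (row 3413): the theorem Cfsg.commuting_graph_determines_mathieu_eleven.
import Cfsg.Statements.S3413
import Cfsg.Agent.H361.CommGraph_mg
import Cfsg.Agent.Schreier.MEleven
import Cfsg.Agent.SporadicA.M11Sylow
import Cfsg.Agent.TwoGenCore.IsoMEleven
set_option linter.all false

set_option autoImplicit false
open Cfsg

namespace Cfsg.Agent.S3413

theorem isM11_spor : Cfsg.IsM11 ↥Cfsg.Spor.M11 := by
  obtain ⟨h1, h2⟩ := Schreier.MEleven.isM11
  refine ⟨(MulEquiv.isSimpleGroup_congr Schreier.MEleven.equiv.symm).2 h1, ?_⟩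
  rw [← h2]
  exact Nat.card_congr Schreier.MEleven.equiv.symm.toEquiv

/-- Let H be a finite group whose commuting graph (vertices the non-identity elements, two joined when they commute) is isomorphic to that of the Mathieu group M_11: there is a bijection between the non-identity elements of H and of M_11 under which two elements commute exactly when their images do. Then H ≅ M_11. -/
theorem result {H : Type*} [Group H] [Finite H]
    (f : {h : H // h ≠ 1} ≃ {g : ↥Cfsg.Spor.M11 // g ≠ 1})
    (hf : ∀ x y : {h : H // h ≠ 1}, (x : H) * y = y * x ↔ ((f x) : ↥Cfsg.Spor.M11) * (f y) = (f y) * (f x)) :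
    Nonempty (H ≃* ↥Cfsg.Spor.M11) := by
  have hM := isM11_spor
  have hfin : Finite ↥Cfsg.Spor.M11 := Nat.finite_of_card_ne_zero (by rw [hM.2]; norm_num)
  have hc : Nat.card H = 7920 := by rw [H361.CommGraph.card_eq f, hM.2]
  have : Fact (Nat.Prime 11) := ⟨by norm_num⟩
  obtain ⟨y, hy⟩ := exists_prime_orderOf_dvd_card' (G := ↥Cfsg.Spor.M11) 11 (by rw [hM.2]; norm_num)
  have hy1 : y ≠ 1 := by
    rintro rfl
    rw [orderOf_one] at hy
    norm_num at hy
  have h1 := H361.CommGraph.card_centralizer_eq f hf (f.symm ⟨y, hy1⟩)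
  rw [Equiv.apply_symm_apply] at h1
  have h2 : Nat.card (Subgroup.centralizer ({((⟨y, hy1⟩ : {g : ↥Cfsg.Spor.M11 // g ≠ 1}) : ↥Cfsg.Spor.M11)} :
      Set ↥Cfsg.Spor.M11)) = 11 := SporadicA.M11Sylow.card_centralizer_eleven hM hy
  rw [h2] at h1
  have hs := H361.OrderSimple.simple_7920 hc h1
  exact TwoGenCore.IsoMEleven.isoM11 ⟨hs, hc⟩

end Cfsg.Agent.S3413
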