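import Cfsg.Statements.S3495
import Cfsg.Agent.H386.ExtPrim
set_option linter.all false

set_option autoImplicit false
open Cfsg

namespace Cfsg.Agent.S3495

/-- Let a finite group G act faithfully and primitively on a finite set Ω with non-trivial point stabilizers, each acting primitively on every one of its orbits (an extremely primitive group), and suppose G has an elementary abelian normal p-subgroup N acting regularly on Ω (affine type). Then every non-trivial subgroup M of a point stabilizer G_α that is normal in G_α has the same orbits on Ω as G_α, and normalizes no subgroup of N other than 1 and N. -/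
theorem result {G : Type*} [Group G] [Finite G] {Ω : Type*} [Fintype Ω] [MulAction G Ω] [FaithfulSMul G Ω] (hprim : MulAction.IsPreprimitive G Ω) (hH : ∀ α : Ω, MulAction.stabilizer G α ≠ ⊥) (hep : ∀ (α : Ω) (ω : Ω), MulAction.IsPreprimitive (MulAction.stabilizer G α) (MulAction.orbit (MulAction.stabilizer G α) ω))
    (N : Subgroup G) [N.Normal] (hNc : IsMulCommutative N) (p : ℕ) (hp : p.Prime) (hNp : ∀ n ∈ N, n ^ p = 1)
    (hNtr : MulAction.IsPretransitive N Ω) (hNreg : ∀ ω : Ω, MulAction.stabilizer N ω = ⊥) (α : Ω) (M : Subgroup G) (hM : M ≠ ⊥) (hMle : M ≤ MulAction.stabilizer G α)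
    (hMn : MulAction.stabilizer G α ≤ Subgroup.normalizer (M : Set G)) :
    (∀ ω : Ω, MulAction.orbit M ω = MulAction.orbit (MulAction.stabilizer G α) ω) ∧
    (∀ L : Subgroup G, L ≤ N → M ≤ Subgroup.normalizer (L : Set G) → L = ⊥ ∨ L = N) := by
  classical
  have := hprim
  have hMn' : ∀ g ∈ MulAction.stabilizer G α, ∀ k ∈ M, g * k * g⁻¹ ∈ M := fun g hg k hk =>
    (Subgroup.mem_normalizer_iff.1 (hMn hg) k).1 hk
  have horb : ∀ ω : Ω, MulAction.orbit M ω = MulAction.orbit (MulAction.stabilizer G α) ω := by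
    intro ω
    apply Set.Subset.antisymm
    · rintro _ ⟨g, rfl⟩
      exact ⟨⟨g.1, hMle g.2⟩, rfl⟩
    · intro y hy
      by_cases hω : ω = α
      · subst hω
        obtain ⟨g, rfl⟩ := hy
        have h1 : g.1 • ω = ω := g.2
        change g.1 • ω ∈ _
        rw [h1]
        exact MulAction.mem_orbit_self _
      · -- some element of `M` moves `ω`
        obtain ⟨m, hm, hm1⟩ : ∃ m ∈ M, m ≠ 1 := by
          by_contra hcon
          push Not at hcon
          exact hM ((Subgroup.eq_bot_iff_forall M).2 hcon)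
        have hmove : ∃ x ∈ MulAction.orbit (MulAction.stabilizer G α) ω, m • x ≠ x := by
          by_contra hcon
          push Not at hcon
          exact hm1 (Cfsg.Agent.H386.ExtPrim.manning hep α ω hω m (hMle hm) hcon)
        obtain ⟨x, hx, hmx⟩ := hmove
        have hxo : MulAction.orbit (MulAction.stabilizer G α) x =
            MulAction.orbit (MulAction.stabilizer G α) ω := MulAction.orbit_eq_iff.2 hx
        have htr := Cfsg.Agent.H386.ExtPrim.transitive_on_orbit (hep α x) M hMle hMn' hm hmx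
        rw [hxo] at htr
        obtain ⟨k1, hk1, hk1x⟩ := htr ω (MulAction.mem_orbit_self ω)
        obtain ⟨k2, hk2, hk2x⟩ := htr y hy
        refine ⟨⟨k2 * k1⁻¹, M.mul_mem hk2 (M.inv_mem hk1)⟩, ?_⟩
        change (k2 * k1⁻¹) • ω = y
        rw [mul_smul, ← hk1x, inv_smul_smul, hk2x]
  refine ⟨horb, fun L hL hML => ?_⟩
  -- `L` is normalized by the stabilizer
  have hreg : ∀ n ∈ N, n • α = α → n = 1 := by
    intro n hn h
    have h1 : (⟨n, hn⟩ : N) ∈ MulAction.stabilizer N α := h
    rw [hNreg α, Subgroup.mem_bot] at h1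
    exact congrArg Subtype.val h1
  have hLs : ∀ g ∈ MulAction.stabilizer G α, ∀ l ∈ L, g * l * g⁻¹ ∈ L := by
    intro g hg l hl
    have h1 : g • (l • α) ∈ MulAction.orbit (MulAction.stabilizer G α) (l • α) :=
      ⟨⟨g, hg⟩, rfl⟩
    rw [← horb] at h1
    obtain ⟨m, hm⟩ := h1
    have h2 : (m.1 * l * m.1⁻¹) • α = (g * l * g⁻¹) • α := by
      have hmα : m.1⁻¹ • α = α := by
        rw [inv_smul_eq_iff]; exact (MulAction.mem_stabilizer_iff.1 (hMle m.2)).symm
      have hgα : g⁻¹ • α = α := by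
        rw [inv_smul_eq_iff]; exact (MulAction.mem_stabilizer_iff.1 hg).symm
      rw [mul_smul, mul_smul, mul_smul, mul_smul, hmα, hgα]
      exact hm
    have hmL : m.1 * l * m.1⁻¹ ∈ L := (Subgroup.mem_normalizer_iff.1 (hML m.2) l).1 hl
    have hn1 : (g * l * g⁻¹) ∈ N := Subgroup.Normal.conj_mem inferInstance _ (hL hl) _
    have h3 := hreg ((m.1 * l * m.1⁻¹)⁻¹ * (g * l * g⁻¹)) (N.mul_mem (N.inv_mem (hL hmL)) hn1) (by
      rw [mul_smul, ← h2, inv_smul_smul])
    rw [← inv_mul_eq_one.1 h3]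
    exact hmL
  have hnt : Nontrivial Ω := by
    by_contra hcon
    rw [not_nontrivial_iff_subsingleton] at hcon
    apply hH α
    rw [eq_bot_iff]
    intro g _
    rw [Subgroup.mem_bot]
    exact FaithfulSMul.eq_of_smul_eq_smul (α := Ω) (fun x => Subsingleton.elim _ _)
  by_cases hL1 : L = ⊥
  · exact Or.inl hL1
  right
  apply le_antisymm hL
  -- `L` is normal in `G`
  have hLn : L.Normal := by
    constructor
    intro l hl g
    obtain ⟨n, hn⟩ := hNtr.exists_smul_eq α (g • α)
    have hn' : n.1 • α = g • α := hn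
    have hs : n.1⁻¹ * g ∈ MulAction.stabilizer G α := by
      rw [MulAction.mem_stabilizer_iff, mul_smul, ← hn', inv_smul_smul]
    have h1 := hLs _ hs l hl
    have hcomm : ∀ a ∈ N, ∀ b ∈ N, a * b = b * a := by
      intro a ha b hb
      exact congrArg Subtype.val (hNc.is_comm.comm (⟨a, ha⟩ : N) ⟨b, hb⟩)
    have h2 : g * l * g⁻¹ = n.1 * (n.1⁻¹ * g * l * (n.1⁻¹ * g)⁻¹) * n.1⁻¹ := by group
    have h3 : n.1 * (n.1⁻¹ * g * l * (n.1⁻¹ * g)⁻¹) * n.1⁻¹ =
        n.1⁻¹ * g * l * (n.1⁻¹ * g)⁻¹ := by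
      rw [hcomm n.1 n.2 _ (hL h1), mul_inv_cancel_right]
    rw [h2, h3]
    exact h1
  have htr : MulAction.IsPretransitive L Ω := by
    apply MulAction.IsQuasiPreprimitive.isPretransitive_of_normal (G := G)
    intro h
    apply hL1
    rw [Subgroup.eq_bot_iff_forall]
    intro l hl
    apply FaithfulSMul.eq_of_smul_eq_smul (α := Ω)
    intro x
    have h1 : x ∈ MulAction.fixedPoints L Ω := h ▸ Set.mem_univ x
    rw [one_smul]
    exact h1 ⟨l, hl⟩
  intro n hn
  obtain ⟨l, hl⟩ := htr.exists_smul_eq α (n • α)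
  have hl' : l.1 • α = n • α := hl
  have h3 := hreg (l.1⁻¹ * n) (N.mul_mem (N.inv_mem (hL l.2)) hn) (by
    rw [mul_smul, ← hl', inv_smul_smul])
  rw [← inv_mul_eq_one.1 h3]
  exact l.2

end Cfsg.Agent.S3495
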