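import Cfsg.Statements.S3508
set_option linter.all false

set_option autoImplicit false
open Cfsg

namespace Cfsg.Agent.S3508

/-- A nilpotent endomorphism of a space of dimension `n` has `n`-th power zero. -/
theorem pow_eq_zero_of_nilpotent {K V : Type*} [Field K] [AddCommGroup V] [Module K V]
    [FiniteDimensional K V] (f : Module.End K V) (j : ℕ) (hf : f ^ j = 0) (n : ℕ)
    (hn : Module.finrank K V ≤ n) : f ^ n = 0 := by
  have h1 : f.genEigenspace 0 ((max j n : ℕ) : ℕ∞) = f.genEigenspace 0 (Module.finrank K V : ℕ∞) :=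
    Module.End.genEigenspace_eq_genEigenspace_finrank_of_le f 0 (le_trans hn (le_max_right _ _))
  have h2 : f.genEigenspace 0 ((n : ℕ) : ℕ∞) = f.genEigenspace 0 (Module.finrank K V : ℕ∞) :=
    Module.End.genEigenspace_eq_genEigenspace_finrank_of_le f 0 hn
  apply LinearMap.ext
  intro x
  have hx : x ∈ f.genEigenspace 0 ((max j n : ℕ) : ℕ∞) := by
    rw [Module.End.mem_genEigenspace_nat]
    simp only [zero_smul, sub_zero, LinearMap.mem_ker]
    rw [← Nat.sub_add_cancel (le_max_left j n), pow_add, hf, mul_zero]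
    rfl
  rw [h1, ← h2, Module.End.mem_genEigenspace_nat] at hx
  simpa using hx

/-- The core: an element acting as an affine map of a space of dimension `m` over `F_p`, of order
`p ^ r` with `r ≥ 1`, satisfies `p ^ (r - 1) ≤ m`. -/
theorem affine_core {G : Type*} [Group G] {Ω : Type*} [MulAction G Ω] [FaithfulSMul G Ω]
    (p m : ℕ) [Fact p.Prime] {V : Type*} [AddCommGroup V] [Module (ZMod p) V]
    [FiniteDimensional (ZMod p) V] (hfin : Module.finrank (ZMod p) V = m) (e : V ≃ Ω)
    (g : G) (φ : V →ₗ[ZMod p] V) (a : V) (hga : ∀ v, g • e v = e (φ v + a))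
    (r : ℕ) (hr : 1 ≤ r) (hg : orderOf g = p ^ r) : p ^ (r - 1) ≤ m := by
  classical
  have hp : p.Prime := Fact.out
  by_contra hlt
  push Not at hlt
  let T : Module.End (ZMod p) (V × ZMod p) :=
    LinearMap.prod
      (φ ∘ₗ LinearMap.fst (ZMod p) V (ZMod p) +
        (LinearMap.toSpanSingleton (ZMod p) V a) ∘ₗ LinearMap.snd (ZMod p) V (ZMod p))
      (LinearMap.snd (ZMod p) V (ZMod p))
  have hT1 : ∀ v : V, T (v, 1) = (φ v + a, 1) := by
    intro v
    simp [T]
  have hTj : ∀ (j : ℕ) (v : V), ∃ v' : V, (T ^ j) (v, 1) = (v', 1) ∧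
      e v' = g ^ j • e v := by
    intro j
    induction j with
    | zero => intro v; exact ⟨v, by simp, by simp⟩
    | succ j ih =>
      intro v
      obtain ⟨v', h1, h2⟩ := ih v
      refine ⟨φ v' + a, ?_, ?_⟩
      · rw [pow_succ', Module.End.mul_apply, h1, hT1]
      · rw [← hga, h2, pow_succ', mul_smul]
  have hTr : T ^ (p ^ r) = 1 := by
    have hfix : ∀ v : V, (T ^ (p ^ r)) (v, 1) = (v, 1) := by
      intro v
      obtain ⟨v', h1, h2⟩ := hTj (p ^ r) v
      rw [← hg, pow_orderOf_eq_one, one_smul] at h2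
      rw [h1, e.injective h2]
    apply LinearMap.ext
    rintro ⟨v, t⟩
    have e1 : ((v, t) : V × ZMod p) =
        (((v, 1) : V × ZMod p) - (0, 1)) + t • ((0, 1) : V × ZMod p) := by
      ext <;> simp
    rw [e1, map_add, map_sub, map_smul, hfix, hfix]
    rfl
  have hchar : CharP (Module.End (ZMod p) (V × ZMod p)) p :=
    charP_of_injective_algebraMap
      (FaithfulSMul.algebraMap_injective (ZMod p) (Module.End (ZMod p) (V × ZMod p))) p
  have hnil : (T - 1) ^ (p ^ r) = 0 := by
    rw [sub_pow_char_pow_of_commute p r (Commute.one_right T), hTr, one_pow, sub_self]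
  have hdim : Module.finrank (ZMod p) (V × ZMod p) = m + 1 := by
    rw [Module.finrank_prod, hfin, Module.finrank_self]
  have hz : (T - 1) ^ (p ^ (r - 1)) = 0 :=
    pow_eq_zero_of_nilpotent (T - 1) _ hnil _ (by rw [hdim]; exact hlt)
  have hT' : T ^ (p ^ (r - 1)) = 1 := by
    rw [sub_pow_char_pow_of_commute p (r - 1) (Commute.one_right T), one_pow, sub_eq_zero] at hz
    exact hz
  have hg1 : g ^ (p ^ (r - 1)) = 1 := by
    apply FaithfulSMul.eq_of_smul_eq_smul (α := Ω)
    intro ω
    obtain ⟨v, rfl⟩ := e.surjective ω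
    obtain ⟨v', h1, h2⟩ := hTj (p ^ (r - 1)) v
    rw [hT'] at h1
    have hv : v = v' := congrArg Prod.fst h1
    rw [one_smul, ← h2, hv]
  have hdvd := orderOf_dvd_of_pow_eq_one hg1
  rw [hg] at hdvd
  have := (Nat.pow_dvd_pow_iff_le_right hp.one_lt).mp hdvd
  omega

/-- Let a finite group G act faithfully on a set Ω with p ^ m points (p prime) and have an elementary abelian normal p-subgroup N acting regularly on Ω (so G is a group of affine transformations of an m-dimensional space over the field with p elements). If G contains an element of order p ^ r with r ≥ 1, then p ^ (r − 1) ≤ m. In particular an element of order p ^ m forces m ≤ 2, and m ≤ 1 when p is odd. -/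
theorem result {G : Type*} [Group G] [Finite G] {Ω : Type*} [Fintype Ω] [MulAction G Ω] [FaithfulSMul G Ω] (p m : ℕ) (hp : p.Prime) (hcard : Fintype.card Ω = p ^ m)
    (N : Subgroup G) [N.Normal] (hNc : IsMulCommutative N) (hNp : ∀ n ∈ N, n ^ p = 1)
    (hNtr : MulAction.IsPretransitive N Ω) (hNreg : ∀ ω : Ω, MulAction.stabilizer N ω = ⊥)
    (g : G) (r : ℕ) (hr : 1 ≤ r) (hg : orderOf g = p ^ r) :
    p ^ (r - 1) ≤ m ∧ (r = m → m ≤ 2 ∧ (2 < p → m ≤ 1)) := by
  classical
  have hfact : Fact p.Prime := ⟨hp⟩
  have key : p ^ (r - 1) ≤ m := by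
    have hΩ : 0 < Fintype.card Ω := by rw [hcard]; exact pow_pos hp.pos _
    obtain ⟨ω₀⟩ : Nonempty Ω := Fintype.card_pos_iff.mp hΩ
    -- the regular action
    have hinj : ∀ a b : N, a • ω₀ = b • ω₀ → a = b := by
      intro a b hab
      have h : b⁻¹ * a ∈ MulAction.stabilizer N ω₀ := by
        rw [MulAction.mem_stabilizer_iff, mul_smul, hab, inv_smul_smul]
      rw [hNreg] at h
      have := Subgroup.mem_bot.mp h
      rw [inv_mul_eq_one] at this
      exact this.symm
    obtain ⟨a, ha⟩ := hNtr.exists_smul_eq ω₀ (g • ω₀)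
    let iC : CommGroup N := { (inferInstance : Group N) with mul_comm := fun a b => mul_comm' a b }
    let V := Additive N
    let iV : AddCommGroup V := @Additive.addCommGroup N iC
    let iM : Module (ZMod p) V := AddCommGroup.zmodModule (n := p) (by
      intro x
      have : (Additive.toMul x : N) ^ p = 1 := by
        apply Subtype.ext
        have := hNp (Additive.toMul x : N) (Additive.toMul x : N).2
        simpa using this
      exact congrArg Additive.ofMul this)
    let e : V ≃ Ω := Equiv.ofBijective (fun a : V => (Additive.toMul a : N) • ω₀)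
      ⟨fun a b hab => Additive.toMul.injective (hinj _ _ hab),
         fun ω => by
            obtain ⟨n, hn⟩ := hNtr.exists_smul_eq ω₀ ω
            exact ⟨Additive.ofMul n, hn⟩⟩
    let iF : Fintype V := Fintype.ofEquiv Ω e.symm
    have hfin : Module.finrank (ZMod p) V = m := by
      have h := Module.card_eq_pow_finrank (K := ZMod p) (V := V)
      rw [Fintype.card_congr e, hcard, ZMod.card] at h
      exact (Nat.pow_right_injective hp.two_le h).symm
    let φ0 : V →+ V :=
      { toFun := fun v => Additive.ofMul (MulAut.conjNormal g (Additive.toMul v : N))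
        map_zero' := by
          show Additive.ofMul (MulAut.conjNormal g (1 : N)) = _
          rw [map_one]; rfl
        map_add' := by
          intro x y
          show Additive.ofMul (MulAut.conjNormal g ((Additive.toMul x : N) * (Additive.toMul y : N))) = _
          rw [map_mul]; rfl }
    have iFD : FiniteDimensional (ZMod p) V := Module.Finite.of_finite
    have hmain := @affine_core G _ Ω _ _ p m hfact V iV iM iFD hfin e g (φ0.toZModLinearMap p)
      (Additive.ofMul a)
    refine hmain ?_ r hr hg
    intro v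
    show g • ((Additive.toMul v : N) • ω₀) = ((MulAut.conjNormal g (Additive.toMul v : N)) * a) • ω₀
    rw [mul_smul, ha]
    change g • (((Additive.toMul v : N) : G) • ω₀) =
      ((MulAut.conjNormal g (Additive.toMul v : N) : N) : G) • (g • ω₀)
    rw [MulAut.conjNormal_apply, smul_smul, smul_smul]
    congr 1
    group
  refine ⟨key, ?_⟩
  rintro rfl
  have h2 : ∀ (q n : ℕ), 2 ≤ q → n + 1 ≤ q ^ n := by
    intro q n hq
    have : n < q ^ n := Nat.lt_pow_self hq
    omega
  have hp2 := hp.two_le
  constructor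
  · by_contra h
    push Not at h
    obtain ⟨n, rfl⟩ : ∃ n, r = n + 3 := ⟨r - 3, by omega⟩
    have h3 := h2 p n hp2
    have : p ^ (n + 3 - 1) = p ^ n * p ^ 2 := by
      rw [← pow_add]; rfl
    rw [this] at key
    have h4 : 2 ^ 2 ≤ p ^ 2 := Nat.pow_le_pow_left hp2 2
    have h5 := Nat.mul_le_mul h3 h4
    omega
  · intro hp3
    by_contra h
    push Not at h
    obtain ⟨n, rfl⟩ : ∃ n, r = n + 2 := ⟨r - 2, by omega⟩
    have h3 := h2 p n hp2
    have : p ^ (n + 2 - 1) = p ^ n * p := by
      rw [← pow_succ]; rfl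
    rw [this] at key
    have h5 := Nat.mul_le_mul h3 (show 3 ≤ p from hp3)
    omega

end Cfsg.Agent.S3508
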