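import Cfsg.Statements.S3511
set_option linter.all false

set_option autoImplicit false
open Cfsg

namespace Cfsg.Agent.S3511

theorem sqfree_rad (n : ℕ) : Squarefree (∏ p ∈ n.primeFactors, p) := by
  refine Finset.squarefree_prod_of_pairwise_isCoprime (fun p hp q hq hpq => ?_) (fun p hp => ?_)
  · exact Nat.coprime_iff_isRelPrime.mp ((Nat.coprime_primes (Nat.prime_of_mem_primeFactors hp)
      (Nat.prime_of_mem_primeFactors hq)).2 hpq)
  · exact (Nat.prime_of_mem_primeFactors hp).prime.squarefree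

/-- Let a finite group G act faithfully on a set Ω. If every element of G of square-free order has a regular cycle (an orbit of the cyclic group it generates with trivial stabilizer), then every element of G has a regular cycle. -/
theorem result {G : Type*} [Group G] [Finite G] {Ω : Type*} [MulAction G Ω] [FaithfulSMul G Ω]
    (h : ∀ g : G, Squarefree (orderOf g) → ∃ ω : Ω, MulAction.stabilizer (Subgroup.zpowers g) ω = ⊥) (g : G) :
    ∃ ω : Ω, MulAction.stabilizer (Subgroup.zpowers g) ω = ⊥ := by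
  classical
  set n := orderOf g with hn
  have hn0 : 0 < n := orderOf_pos g
  set r := ∏ p ∈ n.primeFactors, p with hr
  have hrn : r ∣ n := Nat.prod_primeFactors_dvd n
  have hr0 : 0 < r := Nat.pos_of_dvd_of_pos hrn hn0
  have hord : orderOf (g ^ (n / r)) = r := orderOf_pow_orderOf_div hn0.ne' hrn
  obtain ⟨ω, hω⟩ := h (g ^ (n / r)) (by rw [hord]; exact sqfree_rad n)
  refine ⟨ω, ?_⟩
  by_contra hne
  obtain ⟨⟨x, hx⟩, hx1'⟩ := Subgroup.ne_bot_iff_exists_ne_one.1 hne
  have hx1 : x ≠ 1 := fun h => hx1' (Subtype.ext h)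
  -- x ≠ 1
  have hox : orderOf x ≠ 1 := by
    rwa [Ne, orderOf_eq_one_iff]
  obtain ⟨p, hp, hpx⟩ := Nat.exists_prime_and_dvd hox
  have hox0 : orderOf x ≠ 0 := (orderOf_pos x).ne'
  set y := x ^ (orderOf x / p) with hy
  have hyo : orderOf y = p := orderOf_pow_orderOf_div hox0 hpx
  have hymem : y ∈ MulAction.stabilizer (Subgroup.zpowers g) ω := Subgroup.pow_mem _ hx _
  -- order of y divides n
  have hyo' : orderOf (y : G) = p := by rw [Subgroup.orderOf_coe, hyo]
  obtain ⟨k, hk⟩ := (mem_powers_iff_mem_zpowers).2 y.2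
  have hk' : g ^ k = (y : G) := hk
  have hpn : p ∣ n := by
    rw [← hyo']
    rw [← hk']
    exact orderOf_pow_dvd k
  have hpr : p ∣ r := Finset.dvd_prod_of_mem _ (Nat.mem_primeFactors.2 ⟨hp, hpn, hn0.ne'⟩)
  have hdvd : n ∣ k * p := by
    rw [hn]
    apply orderOf_dvd_of_pow_eq_one
    rw [pow_mul, hk', ← hyo', pow_orderOf_eq_one]
  -- n / p ∣ k
  have h1 : n / r ∣ k := by
    have h2 : n / p ∣ k := by
      obtain ⟨m, hm⟩ := hpn
      rw [hm, Nat.mul_div_cancel_left _ hp.pos]
      rw [hm, mul_comm p m] at hdvd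
      exact Nat.dvd_of_mul_dvd_mul_right hp.pos hdvd
    refine dvd_trans ?_ h2
    obtain ⟨a, ha⟩ := hpr
    obtain ⟨b, hb⟩ := hrn
    rw [hb, Nat.mul_div_cancel_left _ hr0, ha, mul_assoc, Nat.mul_div_cancel_left _ hp.pos]
    exact dvd_mul_left _ _
  obtain ⟨j, hj⟩ := h1
  have hyz : (y : G) ∈ Subgroup.zpowers (g ^ (n / r)) := by
    rw [← hk', hj, pow_mul]
    exact Subgroup.npow_mem_zpowers _ _
  have : (⟨(y : G), hyz⟩ : Subgroup.zpowers (g ^ (n / r))) ∈ MulAction.stabilizer (Subgroup.zpowers (g ^ (n / r))) ω := by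
    rw [MulAction.mem_stabilizer_iff] at hymem ⊢
    exact hymem
  rw [hω, Subgroup.mem_bot] at this
  have h3 : (y : G) = 1 := congrArg Subtype.val this
  rw [h3, orderOf_one] at hyo'
  exact hp.one_lt.ne hyo'

end Cfsg.Agent.S3511
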