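import Cfsg.Statements.S3515
import Cfsg.Agent.H386.AffineClosure
set_option linter.all false

set_option autoImplicit false
open Cfsg

namespace Cfsg.Agent.S3515

/-- Every primitive affine permutation group of degree p² is 3-closed. Let p be a prime and G a group of permutations of the plane V = F_p² consisting of affine maps x ↦ Ax + b, containing all translations, and acting primitively on V. Then any permutation σ of V that agrees on every triple of points with some element of G (σ preserves every G-orbit on ordered triples) already lies in G. -/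
theorem result (p : ℕ) [Fact p.Prime] (G : Subgroup (Equiv.Perm (Fin 2 → ZMod p)))
    (haff : (G : Set (Equiv.Perm (Fin 2 → ZMod p))) ⊆ {τ : Equiv.Perm (Fin 2 → ZMod p) | ∃ (A : (Fin 2 → ZMod p) ≃ₗ[ZMod p] (Fin 2 → ZMod p)) (b : Fin 2 → ZMod p), ∀ x, τ x = A x + b})
    (htrans : ∀ b : Fin 2 → ZMod p, ∃ g ∈ G, ∀ x, g x = x + b) (hprim : MulAction.IsPreprimitive G (Fin 2 → ZMod p))
    (σ : Equiv.Perm (Fin 2 → ZMod p)) (hσ : (∀ t : Fin 3 → (Fin 2 → ZMod p), ∃ g ∈ G, ∀ i, σ (t i) = g (t i))) : σ ∈ G := by
  classical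
  by_cases hp : p = 2
  · subst hp
    -- four points: agreeing on three of them is enough
    obtain ⟨g, hg, hgt⟩ := hσ ![![0, 0], ![0, 1], ![1, 0]]
    have h0 : σ ![0, 0] = g ![0, 0] := hgt 0
    have h1 : σ ![0, 1] = g ![0, 1] := hgt 1
    have h2 : σ ![1, 0] = g ![1, 0] := hgt 2
    have hall : ∀ x : Fin 2 → ZMod 2, x = ![0, 0] ∨ x = ![0, 1] ∨ x = ![1, 0] ∨ x = ![1, 1] :=
      Cfsg.Agent.H386.AffineClosure.plane_two_cases
    have h3 : σ ![1, 1] = g ![1, 1] := by
      obtain ⟨y, hy⟩ := g.surjective (σ ![1, 1])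
      rcases hall y with rfl | rfl | rfl | rfl
      · rw [← h0] at hy
        exact absurd (σ.injective hy) Cfsg.Agent.H386.AffineClosure.plane_two_ne.1
      · rw [← h1] at hy
        exact absurd (σ.injective hy) Cfsg.Agent.H386.AffineClosure.plane_two_ne.2.1
      · rw [← h2] at hy
        exact absurd (σ.injective hy) Cfsg.Agent.H386.AffineClosure.plane_two_ne.2.2
      · exact hy.symm
    have : σ = g := by
      apply Equiv.ext
      intro x
      rcases hall x with rfl | rfl | rfl | rfl
      · exact h0
      · exact h1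
      · exact h2
      · exact h3
    rw [this]
    exact hg
  · obtain ⟨A, b, hA⟩ := Cfsg.Agent.H386.AffineClosure.affine_of_triples hp σ (fun t => by
      obtain ⟨g, hg, hgt⟩ := hσ t
      obtain ⟨A, b, hA⟩ := haff hg
      exact ⟨A, b, fun i => by rw [hgt i, hA]⟩)
    obtain ⟨g, hg, hgt⟩ := hσ ![0, Pi.single 0 1, Pi.single 1 1]
    obtain ⟨B, c, hB⟩ := haff hg
    have h0 : σ 0 = g 0 := hgt 0
    have h1 : σ (Pi.single 0 1) = g (Pi.single 0 1) := hgt 1
    have h2 : σ (Pi.single 1 1) = g (Pi.single 1 1) := hgt 2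
    rw [hA, hB, map_zero, map_zero, zero_add, zero_add] at h0
    subst h0
    rw [hA, hB] at h1 h2
    have h1' := add_right_cancel h1
    have h2' := add_right_cancel h2
    have hAB : (A : (Fin 2 → ZMod p) →ₗ[ZMod p] (Fin 2 → ZMod p)) = B := by
      apply LinearMap.pi_ext'
      intro i
      apply LinearMap.ext_ring
      fin_cases i
      · simpa using h1'
      · simpa using h2'
    have : σ = g := by
      apply Equiv.ext
      intro x
      rw [hA, hB]
      congr 1
      exact LinearMap.congr_fun hAB x
    rw [this]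
    exact hg

end Cfsg.Agent.S3515
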