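import Cfsg.Statements.S3517
import Cfsg.Agent.H386.AffineClosure
set_option linter.all false

set_option autoImplicit false
open Cfsg

namespace Cfsg.Agent.S3517

/-- For d ≥ 3, the 3-closure of the affine group AGL_d(2) acting on F_2^d is the full symmetric group: every permutation of F_2^d agrees on every ordered triple of points with some affine map (AGL_d(2) is 3-transitive). -/
theorem result (d : ℕ) (hd : 3 ≤ d) (σ : Equiv.Perm (Fin d → ZMod 2)) (t : Fin 3 → (Fin d → ZMod 2)) :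
    ∃ (A : (Fin d → ZMod 2) ≃ₗ[ZMod 2] (Fin d → ZMod 2)) (b : Fin d → ZMod 2), ∀ i, σ (t i) = A (t i) + b := by
  classical
  suffices hmain : ∃ A : (Fin d → ZMod 2) ≃ₗ[ZMod 2] (Fin d → ZMod 2),
      A (t 1 - t 0) = σ (t 1) - σ (t 0) ∧ A (t 2 - t 0) = σ (t 2) - σ (t 0) by
    obtain ⟨A, h1, h2⟩ := hmain
    refine ⟨A, σ (t 0) - A (t 0), fun i => ?_⟩
    rw [map_sub] at h1 h2
    fin_cases i
    · change σ (t 0) = A (t 0) + (σ (t 0) - A (t 0))
      abel
    · change σ (t 1) = A (t 1) + (σ (t 0) - A (t 0))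
      have : σ (t 1) = (A (t 1) - A (t 0)) + σ (t 0) := by rw [h1]; abel
      rw [this]; abel
    · change σ (t 2) = A (t 2) + (σ (t 0) - A (t 0))
      have : σ (t 2) = (A (t 2) - A (t 0)) + σ (t 0) := by rw [h2]; abel
      rw [this]; abel
  have hz : ∀ x y, σ x - σ y = 0 ↔ x - y = 0 := fun x y => by
    rw [sub_eq_zero, sub_eq_zero, σ.injective.eq_iff]
  -- one vector
  have one : ∀ u v : Fin d → ZMod 2, u ≠ 0 → v ≠ 0 →
      ∃ A : (Fin d → ZMod 2) ≃ₗ[ZMod 2] (Fin d → ZMod 2), A u = v := by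
    intro u v hu hv
    obtain ⟨g, hg⟩ := Cfsg.Agent.H386.AffineClosure.exists_linearEquiv_map
      (K := ZMod 2) (v := fun _ : Fin 1 => u) (w := fun _ : Fin 1 => v)
      (LinearIndependent.of_subsingleton 0 hu) (LinearIndependent.of_subsingleton 0 hv)
    exact ⟨g, hg 0⟩
  have two : ∀ u v : Fin d → ZMod 2, u ≠ 0 → v ≠ 0 → u ≠ v →
      LinearIndependent (ZMod 2) ![u, v] := by
    intro u v hu hv huv
    rw [LinearIndependent.pair_iff' hu]
    intro a ha
    have : a = 0 ∨ a = 1 := Cfsg.Agent.H386.AffineClosure.zmod_two_cases a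
    rcases this with rfl | rfl
    · exact hv (by rw [← ha, zero_smul])
    · exact huv (by rw [← ha, one_smul])
  by_cases h1 : t 1 - t 0 = 0
  · have h1' := (hz (t 1) (t 0)).2 h1
    by_cases h2 : t 2 - t 0 = 0
    · have h2' := (hz (t 2) (t 0)).2 h2
      exact ⟨LinearEquiv.refl _ _, by rw [h1, h1', map_zero], by rw [h2, h2', map_zero]⟩
    · obtain ⟨A, hA⟩ := one _ _ h2 (fun h => h2 ((hz (t 2) (t 0)).1 h))
      exact ⟨A, by rw [h1, h1', map_zero], hA⟩
  · have h1n : σ (t 1) - σ (t 0) ≠ 0 := fun h => h1 ((hz (t 1) (t 0)).1 h)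
    by_cases h2 : t 2 - t 0 = 0
    · have h2' := (hz (t 2) (t 0)).2 h2
      obtain ⟨A, hA⟩ := one _ _ h1 h1n
      exact ⟨A, hA, by rw [h2, h2', map_zero]⟩
    · have h2n : σ (t 2) - σ (t 0) ≠ 0 := fun h => h2 ((hz (t 2) (t 0)).1 h)
      by_cases h3 : t 1 = t 2
      · obtain ⟨A, hA⟩ := one _ _ h1 h1n
        exact ⟨A, hA, by rw [← h3]; exact hA⟩
      · obtain ⟨A, hA⟩ := Cfsg.Agent.H386.AffineClosure.exists_linearEquiv_map
          (two _ _ h1 h2 (fun h => h3 (sub_left_injective h)))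
          (two _ _ h1n h2n (fun h => h3 (σ.injective (sub_left_injective h))))
        exact ⟨A, by simpa using hA 0, by simpa using hA 1⟩

end Cfsg.Agent.S3517
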