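import Mathlib
import Cfsg.Agent.S0035
import Cfsg.Agent.H382.FieldAction
import Cfsg.Agent.Lib.MinNormal
import Cfsg.Agent.S0205
import Cfsg.Statements.S3521
import Cfsg.Agent.FastGrp
import Cfsg.Agent.Prune
set_option linter.all false
prune_inst 0x7f00000000000000000000000000000000000000000000000000000000000000000000000000000000000000000000000000000000000000000000000000000000000000000000000000000000000000003fffffffffffffffffffffffffffbeffbdffffffff
open scoped Cfsg.Agent.FastGrp

-- part: H387/LinCore
section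
/-!
# Linear groups all of whose vector stabilizers are maximal subgroups

`H` acts faithfully and irreducibly on the elementary abelian 2-group `V` and the stabilizer of each
non-zero vector is a maximal subgroup of `H` (the point stabilizer of an affine extremely primitive
group).  If `M` is a minimal normal subgroup and `T` is a simple normal subgroup of `M` of even order
then `T = M`: otherwise a vector stabilizer in `T`, suitably chosen, would be a Frobenius complement.
-/

set_option autoImplicit false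

namespace Cfsg.Agent.H387.LinCore

open MulAction
open scoped Pointwise

section span

variable {H : Type*} [Group H] {V : Type*} [AddCommGroup V] [DistribMulAction H V]

/-- The additive subgroup generated by the `D`-orbit of `v`. -/
def sp (D : Subgroup H) (v : V) : AddSubgroup V :=
  AddSubgroup.closure {w | ∃ d ∈ D, w = d • v}

theorem self_mem_sp (D : Subgroup H) (v : V) : v ∈ sp D v :=
  AddSubgroup.subset_closure ⟨1, D.one_mem, (one_smul _ _).symm⟩

/-- `W` is invariant under `D`. -/
def Inv (D : Subgroup H) (W : AddSubgroup V) : Prop := ∀ d ∈ D, ∀ w ∈ W, d • w ∈ W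

theorem sp_le {D : Subgroup H} {v : V} {W : AddSubgroup V} (hW : Inv D W) (hv : v ∈ W) :
    sp D v ≤ W := by
  rw [sp, AddSubgroup.closure_le]
  rintro _ ⟨d, hd, rfl⟩
  exact hW d hd v hv

theorem sp_inv (D : Subgroup H) (v : V) : Inv D (sp D v) := by
  intro d hd w hw
  induction hw using AddSubgroup.closure_induction with
  | mem x hx =>
    obtain ⟨e, he, rfl⟩ := hx
    exact AddSubgroup.subset_closure ⟨d * e, D.mul_mem hd he, (mul_smul _ _ _).symm⟩
  | zero => rw [smul_zero]; exact (sp D v).zero_mem
  | add x y _ _ hx hy => rw [smul_add]; exact (sp D v).add_mem hx hy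
  | neg x _ hx => rw [smul_neg]; exact (sp D v).neg_mem hx

/-- An element commuting with `D` and fixing `v` fixes the span. -/
theorem fix_sp {D : Subgroup H} {v : V} {t : H} (htD : ∀ d ∈ D, d * t = t * d) (htv : t • v = v) :
    ∀ w ∈ sp D v, t • w = w := by
  intro w hw
  induction hw using AddSubgroup.closure_induction with
  | mem x hx =>
    obtain ⟨e, he, rfl⟩ := hx
    rw [smul_smul, ← htD e he, mul_smul, htv]
  | zero => rw [smul_zero]
  | add x y _ _ hx hy => rw [smul_add, hx, hy]
  | neg x _ hx => rw [smul_neg, hx]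

theorem smul_sp (h : H) (D : Subgroup H) (v : V) :
    h • sp D v = sp (MulAut.conj h • D) (h • v) := by
  apply le_antisymm
  · intro w hw
    rw [AddSubgroup.mem_pointwise_smul_iff_inv_smul_mem] at hw
    suffices ∀ x ∈ sp D v, h • x ∈ sp (MulAut.conj h • D) (h • v) by
      have := this _ hw
      rwa [smul_inv_smul] at this
    intro x hx
    induction hx using AddSubgroup.closure_induction with
    | mem x hx =>
      obtain ⟨e, he, rfl⟩ := hx
      refine AddSubgroup.subset_closure ⟨h * e * h⁻¹, ?_, ?_⟩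
      · exact Subgroup.smul_mem_pointwise_smul e (MulAut.conj h) D he
      · rw [smul_smul, smul_smul, inv_mul_cancel_right]
    | zero => rw [smul_zero]; exact AddSubgroup.zero_mem _
    | add x y _ _ hx hy => rw [smul_add]; exact AddSubgroup.add_mem _ hx hy
    | neg x _ hx => rw [smul_neg]; exact AddSubgroup.neg_mem _ hx
  · apply sp_le
    · intro d hd w hw
      rw [AddSubgroup.mem_pointwise_smul_iff_inv_smul_mem] at hw ⊢
      have hd' : h⁻¹ * d * h ∈ D := by
        have := Subgroup.mem_pointwise_smul_iff_inv_smul_mem.1 hd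
        rw [← map_inv, MulAut.smul_def, MulAut.conj_apply, inv_inv] at this
        exact this
      have := sp_inv D v _ hd' _ hw
      rw [smul_smul, mul_inv_cancel_right, mul_smul] at this
      exact this
    · rw [AddSubgroup.mem_pointwise_smul_iff_inv_smul_mem, inv_smul_smul]
      exact self_mem_sp D v

theorem smul_bot' (h : H) : h • (⊥ : AddSubgroup V) = ⊥ := AddSubgroup.map_bot _

/-- Irreducible `D`-submodules. -/
def Irr (D : Subgroup H) (B : AddSubgroup V) : Prop :=
  B ≠ ⊥ ∧ Inv D B ∧ ∀ W ≤ B, Inv D W → W = ⊥ ∨ W = B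

/-- `P` is contained in each subgroup which contains all the irreducible `D`-submodules of `P`. -/
def SS (D : Subgroup H) (P : AddSubgroup V) : Prop :=
  ∀ Q : AddSubgroup V, (∀ B, Irr D B → B ≤ P → B ≤ Q) → P ≤ Q

theorem Irr.ss {D : Subgroup H} {B : AddSubgroup V} (hB : Irr D B) : SS D B :=
  fun _ hQ => hQ B hB le_rfl

theorem SS.sup {D : Subgroup H} {P B : AddSubgroup V} (hP : SS D P) (hB : Irr D B) :
    SS D (P ⊔ B) := by
  intro Q hQ
  exact sup_le (hP Q fun B' hB' hle => hQ B' hB' (hle.trans le_sup_left)) (hQ B hB le_sup_right)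

theorem Inv.smul_of_commute {D : Subgroup H} {B : AddSubgroup V} (hB : Inv D B) {g : H}
    (hg : ∀ d ∈ D, d * g = g * d) : Inv D (g • B) := by
  intro d hd w hw
  rw [AddSubgroup.mem_pointwise_smul_iff_inv_smul_mem] at hw ⊢
  have h1 : g⁻¹ * d = d * g⁻¹ := by
    rw [inv_mul_eq_iff_eq_mul, ← mul_assoc, ← hg d hd, mul_inv_cancel_right]
  rw [smul_smul, h1, mul_smul]
  exact hB d hd _ hw

theorem Irr.smul_of_commute {D : Subgroup H} {B : AddSubgroup V} (hB : Irr D B) {g : H}
    (hg : ∀ d ∈ D, d * g = g * d) : Irr D (g • B) := by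
  obtain ⟨h1, h2, h3⟩ := hB
  have hg' : ∀ d ∈ D, d * g⁻¹ = g⁻¹ * d := by
    intro d hd
    rw [eq_inv_mul_iff_mul_eq, ← mul_assoc, ← hg d hd, mul_inv_cancel_right]
  refine ⟨?_, h2.smul_of_commute hg, ?_⟩
  · intro h
    apply h1
    have : g⁻¹ • (g • B) = g⁻¹ • (⊥ : AddSubgroup V) := by rw [h]
    rw [inv_smul_smul, smul_bot'] at this
    exact this
  · intro W hW hWD
    have h4 : g⁻¹ • W ≤ B := by
      rw [AddSubgroup.pointwise_smul_le_iff, inv_inv]
      exact hW
    rcases h3 _ h4 (hWD.smul_of_commute hg') with h5 | h5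
    · left
      rw [inv_smul_eq_iff, smul_bot'] at h5
      exact h5
    · right
      rw [inv_smul_eq_iff] at h5
      exact h5

theorem SS.smul_of_commute {D : Subgroup H} {P : AddSubgroup V} (hP : SS D P) {g : H}
    (hg : ∀ d ∈ D, d * g = g * d) : SS D (g • P) := by
  intro Q hQ
  rw [AddSubgroup.pointwise_smul_le_iff]
  apply hP
  intro B hB hBP
  rw [← AddSubgroup.pointwise_smul_le_iff]
  exact hQ _ (hB.smul_of_commute hg) (AddSubgroup.pointwise_smul_le_pointwise_smul_iff.2 hBP)

/-- A non-trivial invariant subgroup contains an irreducible one. -/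
theorem exists_irr_le [Finite V] {D : Subgroup H} {W : AddSubgroup V} (hW : W ≠ ⊥)
    (hWD : Inv D W) : ∃ B ≤ W, Irr D B := by
  have hfin : {B : AddSubgroup V | B ≤ W ∧ B ≠ ⊥ ∧ Inv D B}.Finite := Set.toFinite _
  obtain ⟨B, ⟨hBW, hB0, hBD⟩, hmin⟩ := hfin.exists_minimal ⟨W, le_rfl, hW, hWD⟩
  refine ⟨B, hBW, hB0, hBD, fun U hU hUD => ?_⟩
  by_cases hU0 : U = ⊥
  · exact Or.inl hU0
  · exact Or.inr (le_antisymm hU (hmin ⟨hU.trans hBW, hU0, hUD⟩ hU))

end span

section main

variable {H : Type*} [Group H] {V : Type*} [AddCommGroup V] [DistribMulAction H V]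

/-- The subgroup of vectors fixed by all elements of a subgroup. -/
def fixBy (D : Subgroup H) : AddSubgroup V where
  carrier := {v | ∀ d ∈ D, d • v = v}
  zero_mem' := fun _ _ => smul_zero _
  add_mem' := fun {a b} ha hb d hd => by rw [smul_add, ha d hd, hb d hd]
  neg_mem' := fun {a} ha d hd => by rw [smul_neg, ha d hd]

/-- The fixed vectors of `D` are invariant under each subgroup normalizing `D`. -/
theorem fixBy_inv {D E : Subgroup H} (hDE : ∀ e ∈ E, ∀ d ∈ D, e⁻¹ * d * e ∈ D) :
    Inv E (fixBy (V := V) D) := by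
  intro e he w hw d hd
  have h1 := hw _ (hDE e he d hd)
  have h2 : d • e • w = e • ((e⁻¹ * d * e) • w) := by
    rw [smul_smul, smul_smul]
    congr 1
    group
  rw [h2, h1]

variable (hmax : ∀ v : V, v ≠ 0 → IsCoatom (stabilizer H v))
  (hirr : ∀ W : AddSubgroup V, (∀ (h : H), ∀ w ∈ W, h • w ∈ W) → W = ⊥ ∨ W = ⊤)

include hirr in
/-- A non-trivial normal subgroup fixes no non-zero vector. -/
theorem eq_bot_of_fix [FaithfulSMul H V] (M : Subgroup H) [hM : M.Normal] {v : V} (hv : v ≠ 0)
    (hfix : M ≤ stabilizer H v) : M = ⊥ := by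
  have h1 : ∀ (h : H), ∀ w ∈ fixBy (V := V) M, h • w ∈ fixBy (V := V) M := by
    intro h w hw
    exact fixBy_inv (D := M) (E := ⊤) (fun e _ d hd => by
      have := hM.conj_mem d hd e⁻¹
      rwa [inv_inv] at this) h trivial w hw
  have hvM : v ∈ fixBy (V := V) M := fun d hd => hfix hd
  rcases hirr _ h1 with h | h
  · rw [h, AddSubgroup.mem_bot] at hvM
    exact absurd hvM hv
  · rw [eq_bot_iff]
    intro m hm
    rw [Subgroup.mem_bot]
    apply FaithfulSMul.eq_of_smul_eq_smul (α := V)
    intro w
    rw [one_smul]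
    have : w ∈ fixBy (V := V) M := h ▸ AddSubgroup.mem_top w
    exact this m hm

include hmax hirr in
/-- `H = G_v M`. -/
theorem factor [FaithfulSMul H V] (M : Subgroup H) [hM : M.Normal] (hM0 : M ≠ ⊥) {v : V}
    (hv : v ≠ 0) (h : H) : ∃ c ∈ stabilizer H v, ∃ m ∈ M, h = c * m := by
  have h1 : stabilizer H v ⊔ M = ⊤ := by
    rcases (hmax v hv).le_iff.1 (le_sup_left : stabilizer H v ≤ stabilizer H v ⊔ M) with h1 | h1
    · exact h1
    · exfalso
      apply hM0
      exact eq_bot_of_fix hirr M hv (h1 ▸ le_sup_right)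
  have h2 : h ∈ stabilizer H v ⊔ M := h1 ▸ Subgroup.mem_top h
  obtain ⟨c, hc, m, hm, rfl⟩ := Subgroup.mem_sup_of_normal_right.1 h2
  exact ⟨c, hc, m, hm, rfl⟩

include hmax hirr in
/-- A non-trivial normal subgroup is irreducible. -/
theorem irreducible_normal [FaithfulSMul H V] (M : Subgroup H) [hM : M.Normal] (hM0 : M ≠ ⊥)
    (W : AddSubgroup V) (hW : Inv M W) : W = ⊥ ∨ W = ⊤ := by
  apply hirr
  intro h w hw
  by_cases hw0 : w = 0
  · rw [hw0, smul_zero]; exact W.zero_mem
  obtain ⟨c, hc, m, hm, hcm⟩ := factor hmax hirr M hM0 hw0 h⁻¹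
  have h1 : h = m⁻¹ * c⁻¹ := by rw [← mul_inv_rev, ← hcm, inv_inv]
  have h2 : c⁻¹ • w = w := by
    rw [inv_smul_eq_iff]; exact (mem_stabilizer_iff.1 hc).symm
  rw [h1, mul_smul, h2]
  exact hW _ (M.inv_mem hm) w hw

theorem mem_conj_iff {T : Subgroup H} {h x : H} :
    x ∈ MulAut.conj h • T ↔ h⁻¹ * x * h ∈ T := by
  rw [Subgroup.mem_pointwise_smul_iff_inv_smul_mem, ← map_inv, MulAut.smul_def,
    MulAut.conj_apply, inv_inv]

theorem conj_mem_conj {T : Subgroup H} (h : H) {x : H} (hx : x ∈ T) :
    h * x * h⁻¹ ∈ MulAut.conj h • T := by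
  rw [mem_conj_iff]
  have : h⁻¹ * (h * x * h⁻¹) * h = x := by group
  rwa [this]

theorem conj_eq_of_mem_normalizer {T : Subgroup H} {m : H}
    (hm : m ∈ Subgroup.normalizer (T : Set H)) : MulAut.conj m • T = T := by
  ext x
  rw [mem_conj_iff]
  have h1 := Subgroup.mem_normalizer_iff.1 (Subgroup.inv_mem _ hm) x
  rw [inv_inv] at h1
  exact h1.symm

variable {M T : Subgroup H} (hTM : T ≤ M) (hTn : M ≤ Subgroup.normalizer (T : Set H))
  (hgen : ∀ Q : Subgroup H, (∀ h : H, MulAut.conj h • T ≤ Q) → M ≤ Q)

/-- The conjugates of `T` are normalized by `M`. -/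
theorem conj_normalized [hM : M.Normal] (hTn : M ≤ Subgroup.normalizer (T : Set H)) (h : H) {m : H}
    (hm : m ∈ M) : MulAut.conj m • (MulAut.conj h • T) = MulAut.conj h • T := by
  have h1 : h⁻¹ * m * h ∈ M := by
    have := hM.conj_mem m hm h⁻¹
    rwa [inv_inv] at this
  have h2 := conj_eq_of_mem_normalizer (hTn h1)
  rw [smul_smul, ← map_mul]
  have h3 : m * h = h * (h⁻¹ * m * h) := by group
  rw [h3, map_mul, mul_smul, h2]

include hTM in
theorem conj_le [hM : M.Normal] (h : H) : MulAut.conj h • T ≤ M := by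
  intro x hx
  rw [mem_conj_iff] at hx
  have := hM.conj_mem _ (hTM hx) h
  have h2 : h * (h⁻¹ * x * h) * h⁻¹ = x := by group
  rwa [h2] at this

include hTM hTn in
/-- Distinct conjugates of `T` commute elementwise. -/
theorem conj_commute [hM : M.Normal] [Finite H] (hTs : IsSimpleGroup T) (h : H) :
    MulAut.conj h • T = T ∨ ∀ x ∈ T, ∀ y ∈ MulAut.conj h • T, x * y = y * x := by
  by_cases hne : MulAut.conj h • T = T
  · exact Or.inl hne
  right
  -- the intersection is trivial
  have hbot : T ⊓ (MulAut.conj h • T) = ⊥ := by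
    have hn : ((MulAut.conj h • T).subgroupOf T).Normal := by
      constructor
      intro n hn g
      rw [Subgroup.mem_subgroupOf] at hn ⊢
      have h1 := conj_normalized hTn h (hTM g.2)
      have h2 := conj_mem_conj (T := MulAut.conj h • T) (g : H) hn
      rw [h1] at h2
      exact h2
    rcases hTs.eq_bot_or_eq_top_of_normal _ hn with h1 | h1
    · rw [Subgroup.subgroupOf_eq_bot] at h1
      exact (disjoint_iff.1 h1.symm)
    · exfalso
      apply hne
      rw [Subgroup.subgroupOf_eq_top] at h1
      symm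
      apply Subgroup.eq_of_le_of_card_ge h1
      exact le_of_eq (Nat.card_congr (Subgroup.equivSMul (MulAut.conj h) T).toEquiv).symm
  intro x hx y hy
  have h1 : x * y * x⁻¹ ∈ MulAut.conj h • T := by
    have h1 := conj_normalized hTn h (hTM hx)
    have h2 := conj_mem_conj (T := MulAut.conj h • T) x hy
    rwa [h1] at h2
  have h2 : y * x⁻¹ * y⁻¹ ∈ T := by
    have h3 := hTn (conj_le hTM h hy)
    exact (Subgroup.mem_normalizer_iff.1 h3 x⁻¹).1 (T.inv_mem hx)
  have h3 : x * y * x⁻¹ * y⁻¹ ∈ T ⊓ (MulAut.conj h • T) := by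
    refine Subgroup.mem_inf.2 ⟨?_, Subgroup.mul_mem _ h1 (Subgroup.inv_mem _ hy)⟩
    have h4 : x * y * x⁻¹ * y⁻¹ = x * (y * x⁻¹ * y⁻¹) := by group
    rw [h4]
    exact T.mul_mem hx h2
  rw [hbot, Subgroup.mem_bot] at h3
  have h4 : x * y = (x * y * x⁻¹ * y⁻¹) * (y * x) := by group
  rw [h4, h3, one_mul]

include hTM hTn hgen in
/-- `M ≤ T C_H(T)`. -/
theorem le_sup_centralizer [hM : M.Normal] [Finite H] (hTs : IsSimpleGroup T) :
    M ≤ T ⊔ Subgroup.centralizer (T : Set H) := by
  apply hgen
  intro h
  rcases conj_commute hTM hTn hTs h with h1 | h1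
  · rw [h1]; exact le_sup_left
  · refine le_trans ?_ le_sup_right
    intro y hy
    rw [Subgroup.mem_centralizer_iff]
    intro x hx
    exact h1 x hx y hy

include hmax hirr hTM hTn hgen in
/-- `T` fixes no non-zero vector. -/
theorem T_no_fix [hM : M.Normal] [FaithfulSMul H V] (hT0 : T ≠ ⊥) {v : V} (hv : v ≠ 0)
    (hfix : T ≤ stabilizer H v) : False := by
  have hM0 : M ≠ ⊥ := fun h => hT0 (by rw [eq_bot_iff, ← h]; exact hTM)
  apply hM0
  apply eq_bot_of_fix hirr M hv
  apply hgen
  intro h
  obtain ⟨c, hc, m, hm, rfl⟩ := factor hmax hirr M hM0 hv h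
  rw [map_mul, mul_smul, conj_eq_of_mem_normalizer (hTn hm)]
  intro x hx
  rw [mem_conj_iff] at hx
  have h1 := (stabilizer H v).mul_mem ((stabilizer H v).mul_mem hc (hfix hx))
    ((stabilizer H v).inv_mem hc)
  have h2 : c * (c⁻¹ * x * c) * c⁻¹ = x := by group
  rwa [h2] at h1

include hmax hirr hTM hTn in
/-- The stabilizers of a vector in two conjugates of `T` are conjugate. -/
theorem exists_conj_fix [hM : M.Normal] [FaithfulSMul H V] (hT0 : T ≠ ⊥) {v : V} (hv : v ≠ 0)
    {x : H} (hx : x ∈ T) (hx1 : x ≠ 1) (hxv : x • v = v) (h : H) :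
    ∃ y ∈ MulAut.conj h • T, y ≠ 1 ∧ y • v = v := by
  have hM0 : M ≠ ⊥ := fun h => hT0 (by rw [eq_bot_iff, ← h]; exact hTM)
  obtain ⟨c, hc, m, hm, rfl⟩ := factor hmax hirr M hM0 hv h
  rw [map_mul, mul_smul, conj_eq_of_mem_normalizer (hTn hm)]
  refine ⟨c * x * c⁻¹, conj_mem_conj c hx, ?_, ?_⟩
  · intro h1
    apply hx1
    have : x = c⁻¹ * (c * x * c⁻¹) * c := by group
    rw [this, h1]; group
  · have h1 : x ∈ stabilizer H v := hxv
    exact (stabilizer H v).mul_mem ((stabilizer H v).mul_mem hc h1) ((stabilizer H v).inv_mem hc)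

theorem conj_centralizer (h : H) (T : Subgroup H) :
    MulAut.conj h • Subgroup.centralizer (T : Set H) =
      Subgroup.centralizer ((MulAut.conj h • T : Subgroup H) : Set H) := by
  ext x
  rw [mem_conj_iff, Subgroup.mem_centralizer_iff, Subgroup.mem_centralizer_iff]
  constructor
  · intro h1 y hy
    have h2 := h1 _ (mem_conj_iff.1 hy)
    calc y * x = h * ((h⁻¹ * y * h) * (h⁻¹ * x * h)) * h⁻¹ := by group
      _ = h * ((h⁻¹ * x * h) * (h⁻¹ * y * h)) * h⁻¹ := by rw [h2]
      _ = x * y := by group
  · intro h1 y hy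
    have h2 := h1 _ (conj_mem_conj h hy)
    calc y * (h⁻¹ * x * h) = h⁻¹ * ((h * y * h⁻¹) * x) * h := by group
      _ = h⁻¹ * (x * (h * y * h⁻¹)) * h := by rw [h2]
      _ = h⁻¹ * x * h * y := by group

/-- The elements of `H` which preserve all the spans `sp (C_H(T ^ g)) v`. -/
def famStab (T : Subgroup H) (v : V) : Subgroup H where
  carrier := {h | ∀ g : H, sp (Subgroup.centralizer ((MulAut.conj g • T : Subgroup H) : Set H)) (h • v) =
    sp (Subgroup.centralizer ((MulAut.conj g • T : Subgroup H) : Set H)) v}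
  one_mem' := fun g => by rw [one_smul]
  mul_mem' := by
    intro a b ha hb g
    have h1 := hb (a⁻¹ * g)
    have h2 := congrArg (fun W : AddSubgroup V => a • W) h1
    simp only [smul_sp, conj_centralizer, smul_smul, ← map_mul, mul_inv_cancel_left] at h2
    rw [h2]
    exact ha g
  inv_mem' := by
    intro a ha g
    have h1 := ha (a * g)
    have h2 := congrArg (fun W : AddSubgroup V => a⁻¹ • W) h1
    simp only [smul_sp, conj_centralizer, smul_smul, ← map_mul, inv_mul_cancel_left,
      inv_mul_cancel, one_smul] at h2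
    exact h2.symm

include hmax hirr hTM hTn hgen in
/-- The key step. -/
theorem fix_of_smul_sp_eq [hM : M.Normal] [Finite H] [FaithfulSMul H V] (hTs : IsSimpleGroup T)
    (hT0 : T ≠ ⊥) {v : V} (hv : v ≠ 0)
    (hP : sp (Subgroup.centralizer (T : Set H)) v ≠ ⊤) {t : H} (ht : t ∈ T)
    (htP : t • sp (Subgroup.centralizer (T : Set H)) v = sp (Subgroup.centralizer (T : Set H)) v) :
    t • v = v := by
  have hM0 : M ≠ ⊥ := fun h => hT0 (by rw [eq_bot_iff, ← h]; exact hTM)
  have hle : stabilizer H v ≤ famStab T v := by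
    intro h hh g
    rw [mem_stabilizer_iff.1 hh]
  have hnorm : ∀ t ∈ T, MulAut.conj t • T = T := fun t ht =>
    conj_eq_of_mem_normalizer (hTn (hTM ht))
  rcases (hmax v hv).le_iff.1 hle with h | h
  · exfalso
    -- `P` is invariant under `T`
    have hPT : Inv T (sp (Subgroup.centralizer (T : Set H)) v) := by
      intro s hs w hw
      have h1 : s ∈ famStab T v := h ▸ Subgroup.mem_top s
      have h2 := h1 1
      rw [map_one, one_smul] at h2
      have h3 := smul_sp s (Subgroup.centralizer (T : Set H)) v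
      rw [conj_centralizer, hnorm s hs, h2] at h3
      rw [← h3]
      exact AddSubgroup.smul_mem_pointwise_smul _ _ _ hw
    have hPM : Inv M (sp (Subgroup.centralizer (T : Set H)) v) := by
      intro m hm w hw
      have h1 := le_sup_centralizer hTM hTn hgen hTs hm
      have h2 : T ⊔ Subgroup.centralizer (T : Set H) ≤
          { carrier := {h : H | h • sp (Subgroup.centralizer (T : Set H)) v =
              sp (Subgroup.centralizer (T : Set H)) v}
            one_mem' := one_smul _ _
            mul_mem' := fun {a b} ha hb => by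
              change (a * b) • _ = _
              rw [mul_smul, show b • _ = _ from hb, show a • _ = _ from ha]
            inv_mem' := fun {a} ha => by
              change a⁻¹ • _ = _
              rw [inv_smul_eq_iff, show a • _ = _ from ha] } := by
        refine sup_le ?_ ?_
        · intro s hs
          change s • sp (Subgroup.centralizer (T : Set H)) v = _
          apply le_antisymm
          · rw [AddSubgroup.pointwise_smul_le_iff]
            intro w hw
            rw [AddSubgroup.mem_pointwise_smul_iff_inv_smul_mem, inv_inv]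
            exact hPT s hs w hw
          · intro w hw
            rw [AddSubgroup.mem_pointwise_smul_iff_inv_smul_mem]
            exact hPT _ (T.inv_mem hs) w hw
        · intro s hs
          change s • sp (Subgroup.centralizer (T : Set H)) v = _
          apply le_antisymm
          · rw [AddSubgroup.pointwise_smul_le_iff]
            intro w hw
            rw [AddSubgroup.mem_pointwise_smul_iff_inv_smul_mem, inv_inv]
            exact sp_inv _ _ s hs w hw
          · intro w hw
            rw [AddSubgroup.mem_pointwise_smul_iff_inv_smul_mem]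
            exact sp_inv _ _ _ (Subgroup.inv_mem _ hs) w hw
      have h3 : m • sp (Subgroup.centralizer (T : Set H)) v =
          sp (Subgroup.centralizer (T : Set H)) v := h2 h1
      rw [← h3]
      exact AddSubgroup.smul_mem_pointwise_smul _ _ _ hw
    rcases irreducible_normal hmax hirr M hM0 _ hPM with h1 | h1
    · have h2 := self_mem_sp (Subgroup.centralizer (T : Set H)) v
      rw [h1, AddSubgroup.mem_bot] at h2
      exact hv h2
    · exact hP h1
  · -- `t` preserves all the spans
    have h1 : t ∈ famStab T v := by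
      intro g
      rcases conj_commute hTM hTn hTs g with h1 | h1
      · rw [h1]
        have h3 := smul_sp t (Subgroup.centralizer (T : Set H)) v
        rw [conj_centralizer, hnorm t ht, htP] at h3
        exact h3.symm
      · have htC : t ∈ Subgroup.centralizer ((MulAut.conj g • T : Subgroup H) : Set H) := by
          rw [Subgroup.mem_centralizer_iff]
          intro y hy
          exact (h1 t ht y hy).symm
        have h3 := smul_sp t (Subgroup.centralizer ((MulAut.conj g • T : Subgroup H) : Set H)) v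
        rw [conj_eq_of_mem_normalizer (Subgroup.le_normalizer htC)] at h3
        rw [← h3]
        apply le_antisymm
        · rw [AddSubgroup.pointwise_smul_le_iff]
          intro w hw
          rw [AddSubgroup.mem_pointwise_smul_iff_inv_smul_mem, inv_inv]
          exact sp_inv _ _ t htC w hw
        · intro w hw
          rw [AddSubgroup.mem_pointwise_smul_iff_inv_smul_mem]
          exact sp_inv _ _ _ (Subgroup.inv_mem _ htC) w hw
    rw [h] at h1
    exact h1

end main

end Cfsg.Agent.H387.LinCore
end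

-- part: H387/LinMain
section
/-!
# Linear groups all of whose vector stabilizers are maximal subgroups: `M` is simple
-/

set_option autoImplicit false

namespace Cfsg.Agent.H387.LinMain

open MulAction Cfsg.Agent.H387.LinCore
open scoped Pointwise

/-- A non-abelian simple group has no Frobenius complement. -/
theorem no_frobenius {T : Type*} [Group T] [Finite T] [hT : IsSimpleGroup T] (C : Subgroup T)
    (hC : Cfsg.IsFrobeniusComplement C) : False := by
  obtain ⟨N, -, hN, hc⟩ := Cfsg.Agent.S0035.result C hC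
  have := hc.card_mul_card
  rcases hT.eq_bot_or_eq_top_of_normal N hN with h | h
  · rw [h, Subgroup.card_bot, one_mul] at this
    exact hC.2.1 (Subgroup.eq_top_of_card_eq _ this)
  · rw [h, Subgroup.card_top] at this
    have hpos : 0 < Nat.card T := Nat.card_pos
    have h1 : Nat.card C = 1 := by
      have h3 : Nat.card T * Nat.card C = Nat.card T * 1 := by rw [this, mul_one]
      exact Nat.eq_of_mul_eq_mul_left hpos h3
    exact hC.1 (Subgroup.card_eq_one.1 h1)

variable {H : Type*} [Group H] [Finite H] {V : Type*} [AddCommGroup V] [Finite V] [Nontrivial V]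
  [DistribMulAction H V] [FaithfulSMul H V]

/-- An involution on an elementary abelian 2-group fixes a non-zero vector. -/
theorem exists_fixed {H : Type*} [Group H] {V : Type*} [AddCommGroup V] [Nontrivial V]
    [DistribMulAction H V] (h2 : ∀ v : V, v + v = 0) {z : H} (hz : z * z = 1) :
    ∃ v : V, v ≠ 0 ∧ z • v = v := by
  obtain ⟨w, hw⟩ := exists_ne (0 : V)
  by_cases h : z • w = w
  · exact ⟨w, hw, h⟩
  · refine ⟨w + z • w, ?_, ?_⟩
    · intro h1
      apply h
      have h3 : z • w = -w := by rw [eq_neg_iff_add_eq_zero, add_comm]; exact h1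
      rw [h3, neg_eq_iff_add_eq_zero]
      exact h2 w
    · rw [smul_add, smul_smul, hz, one_smul, add_comm]

/-- **Main step**: a simple normal subgroup of even order of the minimal normal subgroup `M`,
with conjugates generating `M`, is `M`. -/
theorem eq_of_simple (h2 : ∀ v : V, v + v = 0)
    (hmax : ∀ v : V, v ≠ 0 → IsCoatom (stabilizer H v))
    (hirr : ∀ W : AddSubgroup V, (∀ (h : H), ∀ w ∈ W, h • w ∈ W) → W = ⊥ ∨ W = ⊤)
    {M T : Subgroup H} [hM : M.Normal] (hTM : T ≤ M)
    (hTn : M ≤ Subgroup.normalizer (T : Set H))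
    (hgen : ∀ Q : Subgroup H, (∀ h : H, MulAut.conj h • T ≤ Q) → M ≤ Q)
    (hTs : IsSimpleGroup T) {z : H} (hzT : z ∈ T) (hz1 : z ≠ 1) (hz2 : z * z = 1) : T = M := by
  by_contra hne
  have hT0 : T ≠ ⊥ := by
    intro h
    rw [h, Subgroup.mem_bot] at hzT
    exact hz1 hzT
  -- another conjugate of `T`
  obtain ⟨g₀, hg₀⟩ : ∃ g : H, MulAut.conj g • T ≠ T := by
    by_contra hcon
    push Not at hcon
    exact hne (le_antisymm hTM (hgen T fun h => (hcon h).le))
  have hcomm : ∀ x ∈ T, ∀ y ∈ MulAut.conj g₀ • T, x * y = y * x := by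
    rcases conj_commute hTM hTn hTs g₀ with h | h
    · exact absurd h hg₀
    · exact h
  have hTD : ∀ t ∈ T, ∀ d ∈ Subgroup.centralizer (T : Set H), d * t = t * d := by
    intro t ht d hd
    exact ((Subgroup.mem_centralizer_iff.1 hd) t ht).symm
  -- the vectors under consideration
  have hfin : {P : AddSubgroup V | ∃ v : V, v ≠ 0 ∧ (∃ x ∈ T, x ≠ 1 ∧ x • v = v) ∧
      SS (Subgroup.centralizer (T : Set H)) (sp (Subgroup.centralizer (T : Set H)) v) ∧
      P = sp (Subgroup.centralizer (T : Set H)) v}.Finite := Set.toFinite _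
  have hnonempty : {P : AddSubgroup V | ∃ v : V, v ≠ 0 ∧ (∃ x ∈ T, x ≠ 1 ∧ x • v = v) ∧
      SS (Subgroup.centralizer (T : Set H)) (sp (Subgroup.centralizer (T : Set H)) v) ∧
      P = sp (Subgroup.centralizer (T : Set H)) v}.Nonempty := by
    obtain ⟨v₀, hv₀, hzv₀⟩ := exists_fixed (V := V) h2 hz2
    have hinv : Inv (Subgroup.centralizer (T : Set H)) (fixBy (V := V) (Subgroup.zpowers z)) := by
      apply fixBy_inv
      intro e he d hd
      obtain ⟨k, rfl⟩ := Subgroup.mem_zpowers_iff.1 hd
      have h3 : e⁻¹ * z ^ k * e = z ^ k := by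
        have h4 := hTD _ (T.zpow_mem hzT k) e he
        rw [mul_assoc, ← h4, inv_mul_cancel_left]
      rw [h3]
      exact hd
    have hmem : v₀ ∈ fixBy (V := V) (Subgroup.zpowers z) := by
      intro d hd
      have : Subgroup.zpowers z ≤ stabilizer H v₀ := by
        rw [Subgroup.zpowers_le]; exact hzv₀
      exact this hd
    have hne0 : fixBy (V := V) (Subgroup.zpowers z) ≠ ⊥ := by
      intro h
      rw [h, AddSubgroup.mem_bot] at hmem
      exact hv₀ hmem
    obtain ⟨B, hB, hirrB⟩ := exists_irr_le hne0 hinv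
    obtain ⟨v, hvB, hv0⟩ : ∃ v ∈ B, v ≠ 0 := by
      by_contra hcon
      push Not at hcon
      exact hirrB.1 ((AddSubgroup.eq_bot_iff_forall B).2 hcon)
    have hsp : sp (Subgroup.centralizer (T : Set H)) v = B := by
      rcases hirrB.2.2 _ (sp_le hirrB.2.1 hvB) (sp_inv _ _) with h | h
      · exfalso
        have := self_mem_sp (Subgroup.centralizer (T : Set H)) v
        rw [h, AddSubgroup.mem_bot] at this
        exact hv0 this
      · exact h
    exact ⟨B, v, hv0, ⟨z, hzT, hz1, hB hvB z (Subgroup.mem_zpowers z)⟩, hsp ▸ hirrB.ss, hsp.symm⟩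
  obtain ⟨P, ⟨v, hv0, ⟨x, hxT, hx1, hxv⟩, hSS, hP⟩, hPmax⟩ := hfin.exists_maximal hnonempty
  -- the span is proper
  have hPtop : sp (Subgroup.centralizer (T : Set H)) v ≠ ⊤ := by
    intro h
    apply hx1
    apply FaithfulSMul.eq_of_smul_eq_smul (α := V)
    intro w
    rw [one_smul]
    exact fix_sp (hTD x hxT) hxv w (h ▸ AddSubgroup.mem_top w)
  have hkey : ∀ t ∈ T, t • sp (Subgroup.centralizer (T : Set H)) v ≤
      sp (Subgroup.centralizer (T : Set H)) v → t • v = v := by
    intro t ht hle
    apply fix_of_smul_sp_eq hmax hirr hTM hTn hgen hTs hT0 hv0 hPtop ht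
    apply SetLike.coe_injective
    apply Set.eq_of_subset_of_ncard_le hle _ (Set.toFinite _)
    rw [AddSubgroup.coe_pointwise_smul, Set.ncard_smul_set]
  -- the Frobenius complement
  refine no_frobenius ((stabilizer H v).subgroupOf T) ⟨?_, ?_, ?_⟩
  · intro h
    rw [Subgroup.eq_bot_iff_forall] at h
    have := h ⟨x, hxT⟩ (by rw [Subgroup.mem_subgroupOf]; exact hxv)
    exact hx1 (congrArg Subtype.val this)
  · intro h
    rw [Subgroup.subgroupOf_eq_top] at h
    exact T_no_fix hmax hirr hTM hTn hgen hT0 hv0 h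
  · intro g hg
    rw [Subgroup.eq_bot_iff_forall]
    intro y hy
    by_contra hy1
    rw [Subgroup.mem_inf] at hy
    obtain ⟨hy2, hy3⟩ := hy
    rw [Subgroup.mem_subgroupOf] at hy2
    have hyv : (y : H) • v = v := hy2
    have hygv : (y : H) • ((g : H) • v) = (g : H) • v := by
      rw [mem_conj_iff, Subgroup.mem_subgroupOf] at hy3
      have h3 : ((g : H)⁻¹ * (y : H) * (g : H)) • v = v := hy3
      rw [mul_smul, mul_smul, inv_smul_eq_iff] at h3
      exact h3
    have hy1' : (y : H) ≠ 1 := fun h => hy1 (Subtype.ext h)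
    have hgv : (g : H) • v ≠ v := fun h => hg (by rw [Subgroup.mem_subgroupOf]; exact h)
    -- `g P` is not contained in `P`
    have hnle : ¬ (g : H) • sp (Subgroup.centralizer (T : Set H)) v ≤
        sp (Subgroup.centralizer (T : Set H)) v := fun h => hgv (hkey g g.2 h)
    have hSSg := hSS.smul_of_commute (g := (g : H)) (fun d hd => hTD g g.2 d hd)
    obtain ⟨B, hB, hBle, hBP⟩ : ∃ B, Irr (Subgroup.centralizer (T : Set H)) B ∧
        B ≤ (g : H) • sp (Subgroup.centralizer (T : Set H)) v ∧
        ¬ B ≤ sp (Subgroup.centralizer (T : Set H)) v := by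
      by_contra hcon
      push Not at hcon
      exact hnle (hSSg _ hcon)
    -- `y` centralizes `B`
    have hyB : ∀ b ∈ B, (y : H) • b = b := by
      intro b hb
      have h3 := hBle hb
      rw [AddSubgroup.mem_pointwise_smul_iff_inv_smul_mem] at h3
      have h4 : (g : H)⁻¹ * (y : H) * (g : H) ∈ T := T.mul_mem (T.mul_mem (T.inv_mem g.2) y.2) g.2
      have h5 : ((g : H)⁻¹ * (y : H) * (g : H)) • v = v := by
        rw [mul_smul, mul_smul, hygv, inv_smul_smul]
      have h6 := fix_sp (hTD _ h4) h5 _ h3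
      rw [smul_smul] at h6
      have h7 : (g : H)⁻¹ * (y : H) * (g : H) * (g : H)⁻¹ = (g : H)⁻¹ * (y : H) := by group
      rw [h7, mul_smul] at h6
      exact MulAction.injective _ h6
    -- an element of another conjugate of `T` fixing `v` and not centralizing `B`
    obtain ⟨c, hcT, hc1, hcv⟩ := exists_conj_fix hmax hirr hTM hTn hT0 hv0 hxT hx1 hxv g₀
    have hcD : c ∈ Subgroup.centralizer (T : Set H) := by
      rw [Subgroup.mem_centralizer_iff]
      intro t ht
      exact hcomm t ht c hcT
    have hT'D : MulAut.conj g₀ • T ≤ Subgroup.centralizer (T : Set H) := by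
      intro d hd
      rw [Subgroup.mem_centralizer_iff]
      intro t ht
      exact hcomm t ht d hd
    obtain ⟨b, hb, hcb⟩ : ∃ b ∈ B, c • b ≠ b := by
      by_contra hcon
      push Not at hcon
      obtain ⟨b₀, hb₀, hb₀0⟩ : ∃ v ∈ B, v ≠ 0 := by
        by_contra hcon
        push Not at hcon
        exact hB.1 ((AddSubgroup.eq_bot_iff_forall B).2 hcon)
      -- the kernel of `T ^ g₀` on `B`
      let K : Subgroup T :=
        { carrier := {t | ∀ b ∈ B, (g₀ * (t : H) * g₀⁻¹) • b = b}
          one_mem' := by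
            intro b _
            rw [Subgroup.coe_one, mul_one, mul_inv_cancel, one_smul]
          mul_mem' := by
            intro s t hs ht b hb
            have h3 : g₀ * ((s * t : T) : H) * g₀⁻¹ = (g₀ * (s : H) * g₀⁻¹) * (g₀ * (t : H) * g₀⁻¹) := by
              rw [Subgroup.coe_mul]; group
            rw [h3, mul_smul, ht b hb, hs b hb]
          inv_mem' := by
            intro s hs b hb
            have h3 : g₀ * ((s⁻¹ : T) : H) * g₀⁻¹ = (g₀ * (s : H) * g₀⁻¹)⁻¹ := by
              rw [Subgroup.coe_inv]; group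
            rw [h3, inv_smul_eq_iff]
            exact (hs b hb).symm }
      have hKn : K.Normal := by
        constructor
        intro n hn t b hb
        have h3 : g₀ * ((t * n * t⁻¹ : T) : H) * g₀⁻¹ = (g₀ * (t : H) * g₀⁻¹) *
            ((g₀ * (n : H) * g₀⁻¹) * (g₀ * (t : H) * g₀⁻¹)⁻¹) := by
          rw [Subgroup.coe_mul, Subgroup.coe_mul, Subgroup.coe_inv]; group
        have h4 : (g₀ * (t : H) * g₀⁻¹)⁻¹ • b ∈ B :=
          hB.2.1 _ (Subgroup.inv_mem _ (hT'D (conj_mem_conj g₀ t.2))) b hb
        rw [h3]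
        generalize g₀ * (t : H) * g₀⁻¹ = a at h4 ⊢
        have h5 := hn _ h4
        generalize g₀ * (n : H) * g₀⁻¹ = n' at h5 ⊢
        rw [mul_smul, mul_smul, h5, smul_inv_smul]
      have hcK : (⟨g₀⁻¹ * c * g₀, mem_conj_iff.1 hcT⟩ : T) ∈ K := by
        intro b hb
        have h3 : g₀ * (g₀⁻¹ * c * g₀) * g₀⁻¹ = c := by group
        change (g₀ * (g₀⁻¹ * c * g₀) * g₀⁻¹) • b = b
        rw [h3]
        exact hcon b hb
      rcases hTs.eq_bot_or_eq_top_of_normal K hKn with h3 | h3
      · rw [h3, Subgroup.mem_bot] at hcK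
        apply hc1
        have h4 : g₀⁻¹ * c * g₀ = 1 := congrArg Subtype.val hcK
        have h5 : c = g₀ * (g₀⁻¹ * c * g₀) * g₀⁻¹ := by group
        rw [h5, h4]; group
      · -- then `T` fixes `g₀⁻¹ b₀`
        refine T_no_fix hmax hirr hTM hTn hgen hT0 (v := g₀⁻¹ • b₀) ?_ ?_
        · intro h4
          apply hb₀0
          rw [inv_smul_eq_iff, smul_zero] at h4
          exact h4
        · intro t ht
          have h4 : (⟨t, ht⟩ : T) ∈ K := h3 ▸ Subgroup.mem_top _
          have h5 := h4 b₀ hb₀
          change (g₀ * t * g₀⁻¹) • b₀ = b₀ at h5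
          rw [mem_stabilizer_iff]
          rw [mul_smul, mul_smul, ← eq_inv_smul_iff] at h5
          exact h5
    -- the new vector
    have hcb' : c • b - b ≠ 0 := sub_ne_zero.2 hcb
    have hcbB : c • b - b ∈ B := B.sub_mem (hB.2.1 c hcD b hb) hb
    have h3 : c • (v + b) - (v + b) = c • b - b := by
      rw [smul_add, hcv]; abel
    have h4 : c • b - b ∈ sp (Subgroup.centralizer (T : Set H)) (v + b) := by
      rw [← h3]
      exact AddSubgroup.sub_mem _ (sp_inv _ _ c hcD _ (self_mem_sp _ _)) (self_mem_sp _ _)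
    have hBle' : B ≤ sp (Subgroup.centralizer (T : Set H)) (v + b) := by
      have h5 : Inv (Subgroup.centralizer (T : Set H))
          (B ⊓ sp (Subgroup.centralizer (T : Set H)) (v + b)) := by
        intro d hd w hw
        exact ⟨hB.2.1 d hd w hw.1, sp_inv _ _ d hd w hw.2⟩
      rcases hB.2.2 _ inf_le_left h5 with h6 | h6
      · exfalso
        have h7 : c • b - b ∈ B ⊓ sp (Subgroup.centralizer (T : Set H)) (v + b) := ⟨hcbB, h4⟩
        rw [h6, AddSubgroup.mem_bot] at h7
        exact hcb' h7
      · exact inf_eq_left.1 h6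
    have hPle : sp (Subgroup.centralizer (T : Set H)) v ≤
        sp (Subgroup.centralizer (T : Set H)) (v + b) := by
      apply sp_le (sp_inv _ _)
      have h5 := AddSubgroup.sub_mem _ (self_mem_sp (Subgroup.centralizer (T : Set H)) (v + b))
        (hBle' hb)
      rwa [add_sub_cancel_right] at h5
    have hsum : sp (Subgroup.centralizer (T : Set H)) (v + b) =
        sp (Subgroup.centralizer (T : Set H)) v ⊔ B := by
      apply le_antisymm
      · apply sp_le
        · intro d hd w hw
          obtain ⟨p, hp, q, hq, rfl⟩ := AddSubgroup.mem_sup.1 hw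
          rw [smul_add]
          exact AddSubgroup.add_mem _ (le_sup_left (α := AddSubgroup V) (sp_inv _ _ d hd p hp))
            (le_sup_right (α := AddSubgroup V) (hB.2.1 d hd q hq))
        · exact AddSubgroup.add_mem _ (le_sup_left (α := AddSubgroup V) (self_mem_sp _ v))
            (le_sup_right (α := AddSubgroup V) hb)
      · exact sup_le hPle hBle'
    have hmem : sp (Subgroup.centralizer (T : Set H)) (v + b) ∈ {P : AddSubgroup V | ∃ v : V, v ≠ 0 ∧
        (∃ x ∈ T, x ≠ 1 ∧ x • v = v) ∧
        SS (Subgroup.centralizer (T : Set H)) (sp (Subgroup.centralizer (T : Set H)) v) ∧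
        P = sp (Subgroup.centralizer (T : Set H)) v} := by
      refine ⟨v + b, ?_, ⟨y, y.2, hy1', ?_⟩, ?_, rfl⟩
      · intro h5
        rw [h5] at h4
        have h6 : sp (Subgroup.centralizer (T : Set H)) (0 : V) ≤ ⊥ := by
          apply sp_le
          · intro d _ w hw
            rw [AddSubgroup.mem_bot] at hw ⊢
            rw [hw, smul_zero]
          · exact AddSubgroup.zero_mem _
        exact hcb' ((AddSubgroup.mem_bot).1 (h6 h4))
      · rw [smul_add, hyv, hyB b hb]
      · rw [hsum]
        exact hSS.sup hB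
    have h5 := hPmax hmem (hP ▸ hPle)
    apply hBP
    rw [← hP]
    exact hBle'.trans h5

end Cfsg.Agent.H387.LinMain
end

-- part: H387/LinPrime
section
/-!
# Linear groups all of whose vector stabilizers are maximal subgroups: the insoluble case

`H` acts faithfully and irreducibly on `V`, `#V = p ^ d`, the stabilizer of each non-zero vector is a
maximal subgroup of `H`, and `H` is not solvable.  Then `p = 2` and `H` is almost simple.
-/

set_option autoImplicit false

namespace Cfsg.Agent.H387.LinPrime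

open MulAction Cfsg.Agent.H387.LinCore Cfsg.Agent.H387.LinMain
open scoped Pointwise

variable {H : Type*} [Group H] [Finite H] {V : Type*} [AddCommGroup V] [Finite V] [Nontrivial V]
  [DistribMulAction H V] [FaithfulSMul H V]

/-- A finite group acting faithfully on a group generated by one element is commutative. -/
theorem comm_of_zmultiples {H : Type*} [Group H] {V : Type*} [AddCommGroup V]
    [DistribMulAction H V] [FaithfulSMul H V] (v : V) (hv : AddSubgroup.zmultiples v = ⊤)
    (a b : H) : a * b = b * a := by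
  have key : ∀ w : V, ∃ k : ℤ, k • v = w := fun w =>
    AddSubgroup.mem_zmultiples_iff.1 (hv ▸ AddSubgroup.mem_top w)
  obtain ⟨k, hk⟩ := key (a • v)
  obtain ⟨l, hl⟩ := key (b • v)
  apply FaithfulSMul.eq_of_smul_eq_smul (α := V)
  intro w
  obtain ⟨n, rfl⟩ := key w
  have h1 : ∀ (h : H) (n : ℤ) (x : V), h • (n • x) = n • (h • x) := fun h n x =>
    map_zsmul (DistribMulAction.toAddMonoidHom V h) n x
  rw [mul_smul, mul_smul, h1, h1, h1, h1, ← hk, ← hl, h1, h1, ← hk, ← hl, smul_comm k]

theorem smul_zmultiples {H : Type*} [Group H] {V : Type*} [AddCommGroup V]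
    [DistribMulAction H V] (h : H) (v : V) :
    h • AddSubgroup.zmultiples v = AddSubgroup.zmultiples (h • v) :=
  AddMonoidHom.map_zmultiples (DistribMulAction.toAddMonoidHom V h) v

/-- If `p` is odd then `H` has odd order or is abelian. -/
theorem odd_case (hmax : ∀ v : V, v ≠ 0 → IsCoatom (stabilizer H v))
    (hirr : ∀ W : AddSubgroup V, (∀ (h : H), ∀ w ∈ W, h • w ∈ W) → W = ⊥ ∨ W = ⊤)
    (h2 : ∀ v : V, v + v = 0 → v = 0) {t : H} (ht1 : t ≠ 1) (ht2 : t * t = 1) :
    Group.IsSolvable H := by
  obtain ⟨n, hn⟩ : ∃ n : V, t • n ≠ n := by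
    by_contra hcon
    push Not at hcon
    apply ht1
    apply FaithfulSMul.eq_of_smul_eq_smul (α := V)
    intro w
    rw [one_smul, hcon]
  have hm0 : t • n - n ≠ 0 := sub_ne_zero.2 hn
  have htm : t • (t • n - n) = -(t • n - n) := by
    rw [smul_sub, smul_smul, ht2, one_smul, neg_sub]
  generalize t • n - n = m at hm0 htm
  have htm' : t ∉ stabilizer H m := by
    intro h
    rw [mem_stabilizer_iff, htm, neg_eq_iff_add_eq_zero] at h
    exact hm0 (h2 m h)
  -- the stabilizer of `⟨m⟩`
  have hle : stabilizer H m ≤ stabilizer H (AddSubgroup.zmultiples m) := by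
    intro h hh
    rw [mem_stabilizer_iff] at hh ⊢
    rw [smul_zmultiples, hh]
  have ht : t ∈ stabilizer H (AddSubgroup.zmultiples m) := by
    rw [mem_stabilizer_iff, smul_zmultiples, htm, AddSubgroup.zmultiples_neg]
  rcases (hmax m hm0).le_iff.1 hle with h | h
  · rcases hirr (AddSubgroup.zmultiples m) (by
      intro g w hw
      have h1 : g ∈ stabilizer H (AddSubgroup.zmultiples m) := h ▸ Subgroup.mem_top g
      rw [← mem_stabilizer_iff.1 h1]
      exact AddSubgroup.smul_mem_pointwise_smul _ _ _ hw) with h1 | h1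
    · rw [AddSubgroup.zmultiples_eq_bot] at h1
      exact absurd h1 hm0
    · exact Group.isSolvable_of_comm (comm_of_zmultiples m h1)
  · rw [h] at ht
    exact absurd ht htm'

/-- If `H` has a non-trivial abelian normal subgroup then `H` is solvable. -/
theorem abelian_case (hmax : ∀ v : V, v ≠ 0 → IsCoatom (stabilizer H v))
    (hirr : ∀ W : AddSubgroup V, (∀ (h : H), ∀ w ∈ W, h • w ∈ W) → W = ⊥ ∨ W = ⊤)
    {p d : ℕ} (hp : p.Prime) (hd : d ≠ 0) (hcard : Nat.card V = p ^ d)
    (A : Subgroup H) [hA : A.Normal] (hA0 : A ≠ ⊥) (hAc : ∀ a ∈ A, ∀ b ∈ A, a * b = b * a) :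
    Group.IsSolvable H := by
  have : Fact p.Prime := ⟨hp⟩
  obtain ⟨v, hv⟩ := exists_ne (0 : V)
  -- the centralizer of `A` in the stabilizer of `v` is trivial
  have hC : Subgroup.centralizer (A : Set H) ⊓ stabilizer H v = ⊥ := by
    have hn : (Subgroup.centralizer (A : Set H) ⊓ stabilizer H v).Normal := by
      constructor
      intro n hn g
      obtain ⟨c, hc, a, ha, rfl⟩ := factor hmax hirr A hA0 hv g
      obtain ⟨hn1, hn2⟩ := Subgroup.mem_inf.1 hn
      have h1 : a * n * a⁻¹ = n := by
        rw [(Subgroup.mem_centralizer_iff.1 hn1) a ha, mul_inv_cancel_right]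
      have h2 : c * a * n * (c * a)⁻¹ = c * (a * n * a⁻¹) * c⁻¹ := by group
      rw [h2, h1]
      refine Subgroup.mem_inf.2 ⟨?_, (stabilizer H v).mul_mem ((stabilizer H v).mul_mem hc hn2)
        ((stabilizer H v).inv_mem hc)⟩
      rw [Subgroup.mem_centralizer_iff]
      intro b hb
      have h3 : c⁻¹ * b * c ∈ A := by
        have := hA.conj_mem b hb c⁻¹
        rwa [inv_inv] at this
      have h4 := (Subgroup.mem_centralizer_iff.1 hn1) _ h3
      calc b * (c * n * c⁻¹) = c * ((c⁻¹ * b * c) * n) * c⁻¹ := by group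
        _ = c * (n * (c⁻¹ * b * c)) * c⁻¹ := by rw [h4]
        _ = c * n * c⁻¹ * b := by group
    exact eq_bot_of_fix hirr _ hv inf_le_right
  obtain ⟨-, -, -, h, hh⟩ := H382.FieldAction.core (V := V) (p := p) (d := d) hd hcard A hA hAc
    (fun W hW => irreducible_normal hmax hirr A hA0 W hW) (by
      intro h hh
      obtain ⟨c, hc, a, ha, hca⟩ := factor hmax hirr A hA0 hv h
      have h1 : c ∈ Subgroup.centralizer (A : Set H) ⊓ stabilizer H v := by
        refine Subgroup.mem_inf.2 ⟨?_, hc⟩
        rw [Subgroup.mem_centralizer_iff]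
        intro b hb
        have h2 : c = h * a⁻¹ := by rw [hca, mul_inv_cancel_right]
        rw [h2, ← mul_assoc, hh b hb, mul_assoc, hAc b hb _ (A.inv_mem ha), mul_assoc]
      rw [hC, Subgroup.mem_bot] at h1
      rw [hca, h1, one_mul]
      exact ha)
  have hAs : Group.IsSolvable A := Group.isSolvable_of_comm fun a b =>
    Subtype.ext (hAc a a.2 b b.2)
  have hQ : Group.IsSolvable (H ⧸ A) := by
    have hcyc : IsCyclic (H ⧸ A) := by
      refine ⟨⟨(h : H ⧸ A), ?_⟩⟩
      intro x
      obtain ⟨x, rfl⟩ := QuotientGroup.mk_surjective x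
      have h1 : x ∈ A ⊔ Subgroup.zpowers h := hh ▸ Subgroup.mem_top x
      obtain ⟨a, ha, z, hz, rfl⟩ := Subgroup.mem_sup_of_normal_left.1 h1
      obtain ⟨k, rfl⟩ := Subgroup.mem_zpowers_iff.1 hz
      refine Subgroup.mem_zpowers_iff.2 ⟨k, ?_⟩
      rw [QuotientGroup.mk_mul, (QuotientGroup.eq_one_iff a).2 ha, one_mul]
      rfl
    exact Group.isSolvable_of_comm fun a b => (IsCyclic.commGroup).mul_comm a b
  exact Group.isSolvable_of_ker_le_range A.subtype (QuotientGroup.mk' A) (by
    rw [QuotientGroup.ker_mk', Subgroup.range_subtype])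

/-- **The linear form of the theorem.** -/
theorem linear_main (hmax : ∀ v : V, v ≠ 0 → IsCoatom (stabilizer H v))
    (hirr : ∀ W : AddSubgroup V, (∀ (h : H), ∀ w ∈ W, h • w ∈ W) → W = ⊥ ∨ W = ⊤)
    {p d : ℕ} (hp : p.Prime) (hd : d ≠ 0) (hcard : Nat.card V = p ^ d)
    (hsol : ¬ Group.IsSolvable H) :
    p = 2 ∧ ∃ T : Subgroup H, T.Normal ∧ IsSimpleGroup T ∧ ¬ IsMulCommutative T ∧
      Subgroup.centralizer (T : Set H) = ⊥ := by
  -- the order of `H` is even
  have heven : ∀ K : Subgroup H, ¬ Group.IsSolvable K → ∃ z ∈ K, z ≠ 1 ∧ z * z = 1 := by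
    intro K hK
    have h1 : ¬ Odd (Nat.card K) := fun h => hK (Cfsg.Agent.S0205.result h)
    rw [Nat.not_odd_iff_even] at h1
    have : Fact (Nat.Prime 2) := ⟨Nat.prime_two⟩
    obtain ⟨z, hz⟩ := exists_prime_orderOf_dvd_card' (G := K) 2 h1.two_dvd
    refine ⟨z, z.2, ?_, ?_⟩
    · intro h
      have : z = 1 := Subtype.ext h
      rw [this, orderOf_one] at hz
      omega
    · have h2 := pow_orderOf_eq_one z
      rw [hz, pow_two] at h2
      exact congrArg Subtype.val h2
  have hp2 : p = 2 := by
    by_contra hp2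
    have hsolT : ¬ Group.IsSolvable (⊤ : Subgroup H) := by
      intro h
      exact hsol (Group.isSolvable_of_surjective (f := (Subgroup.topEquiv (G := H)).toMonoidHom)
        Subgroup.topEquiv.surjective)
    obtain ⟨t, -, ht1, ht2⟩ := heven ⊤ hsolT
    apply hsol
    refine odd_case hmax hirr ?_ ht1 ht2
    intro v hv
    have h1 : addOrderOf v ∣ 2 := by
      rw [addOrderOf_dvd_iff_nsmul_eq_zero, two_nsmul]
      exact hv
    have h2 : addOrderOf v ∣ p ^ d := hcard ▸ addOrderOf_dvd_natCard v
    have h3 : Nat.Coprime 2 (p ^ d) := by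
      apply Nat.Coprime.pow_right
      rw [Nat.coprime_primes Nat.prime_two hp]
      exact fun h => hp2 h.symm
    have h4 : addOrderOf v = 1 := Nat.eq_one_of_dvd_coprimes h3 h1 h2
    exact AddMonoid.addOrderOf_eq_one_iff.1 h4
  refine ⟨hp2, ?_⟩
  subst hp2
  -- `V` is elementary abelian
  have h2 : ∀ v : V, v + v = 0 := by
    let W : AddSubgroup V :=
      { carrier := {v | v + v = 0}
        zero_mem' := add_zero 0
        add_mem' := fun {a b} ha hb => by
          change a + b + (a + b) = 0
          rw [add_add_add_comm, show a + a = 0 from ha, show b + b = 0 from hb, add_zero]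
        neg_mem' := fun {a} ha => by
          change -a + -a = 0
          rw [← neg_add, show a + a = 0 from ha, neg_zero] }
    rcases hirr W (by
      intro h w hw
      change h • w + h • w = 0
      rw [← smul_add, show w + w = 0 from hw, smul_zero]) with h | h
    · exfalso
      have : Fact (Nat.Prime 2) := ⟨Nat.prime_two⟩
      obtain ⟨z, hz⟩ := exists_prime_addOrderOf_dvd_card' (G := V) 2 (by
        rw [hcard]; exact dvd_pow_self 2 hd)
      have h1 : z ∈ W := by
        change z + z = 0
        have := addOrderOf_nsmul_eq_zero z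
        rwa [hz, two_nsmul] at this
      rw [h, AddSubgroup.mem_bot] at h1
      rw [h1, addOrderOf_zero] at hz
      omega
    · intro v
      have : v ∈ W := h ▸ AddSubgroup.mem_top v
      exact this
  -- a minimal normal subgroup
  have hnt : Nontrivial H := by
    by_contra hcon
    rw [not_nontrivial_iff_subsingleton] at hcon
    exact hsol (Group.isSolvable_of_comm fun a b => Subsingleton.elim _ _)
  have hfin : {M : Subgroup H | M.Normal ∧ M ≠ ⊥}.Finite := Set.toFinite _
  obtain ⟨M, ⟨hMn, hM0⟩, hMmin⟩ := hfin.exists_minimal ⟨⊤, inferInstance, top_ne_bot⟩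
  have := hMn
  have hmin : ∀ K : Subgroup H, K.Normal → K ≤ M → K = ⊥ ∨ K = M := by
    intro K hK hKM
    by_cases hK0 : K = ⊥
    · exact Or.inl hK0
    · exact Or.inr (le_antisymm hKM (hMmin ⟨hK, hK0⟩ hKM))
  obtain ⟨m, T, hm, hTM, hTs, hTn, -, -, -, -, -⟩ :=
    Cfsg.Agent.Lib.MinNormal.exists_internal_decomposition M hM0 hmin
  have hT0 : T ⟨0, hm⟩ ≠ ⊥ := by
    intro h
    have := (hTs ⟨0, hm⟩).toNontrivial
    rw [h] at this
    exact not_subsingleton _ (inferInstance : Subsingleton (⊥ : Subgroup H))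
  have hgen : ∀ Q : Subgroup H, (∀ h : H, MulAut.conj h • T ⟨0, hm⟩ ≤ Q) → M ≤ Q := by
    intro Q hQ
    rw [← Cfsg.Agent.Lib.MinNormal.sSup_conjugates hmin (hTM ⟨0, hm⟩) hT0]
    apply sSup_le
    rintro _ ⟨g, rfl⟩
    exact hQ g
  have hMnc : ¬ ∀ a ∈ M, ∀ b ∈ M, a * b = b * a := fun h =>
    hsol (abelian_case hmax hirr hp hd hcard M hM0 h)
  have hTnc : ¬ ∀ a ∈ T ⟨0, hm⟩, ∀ b ∈ T ⟨0, hm⟩, a * b = b * a := by
    intro h
    apply hMnc
    -- then `M` is abelian
    have h1 : M ≤ Subgroup.centralizer (T ⟨0, hm⟩ : Set H) := by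
      refine (le_sup_centralizer (hTM _) (hTn _) hgen (hTs _)).trans (sup_le ?_ le_rfl)
      intro x hx
      rw [Subgroup.mem_centralizer_iff]
      intro y hy
      exact h y hy x hx
    have h2 : M ≤ Subgroup.centralizer (M : Set H) := by
      apply hgen
      intro g x hx
      rw [mem_conj_iff] at hx
      rw [Subgroup.mem_centralizer_iff]
      intro y hy
      have h3 : g⁻¹ * y * g ∈ M := by
        have := hMn.conj_mem y hy g⁻¹
        rwa [inv_inv] at this
      have h4 := (Subgroup.mem_centralizer_iff.1 (h1 h3)) _ hx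
      calc y * x = g * ((g⁻¹ * y * g) * (g⁻¹ * x * g)) * g⁻¹ := by group
        _ = g * ((g⁻¹ * x * g) * (g⁻¹ * y * g)) * g⁻¹ := by rw [h4]
        _ = x * y := by group
    intro a ha b hb
    exact (Subgroup.mem_centralizer_iff.1 (h2 hb)) a ha
  have hTsol : ¬ Group.IsSolvable (T ⟨0, hm⟩) := by
    intro h
    have := hTs ⟨0, hm⟩
    apply hTnc
    have h1 := (IsSimpleGroup.comm_iff_isSolvable (G := T ⟨0, hm⟩)).2 h
    intro a ha b hb
    exact congrArg Subtype.val (h1 ⟨a, ha⟩ ⟨b, hb⟩)
  obtain ⟨z, hzT, hz1, hz2⟩ := heven _ hTsol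
  have hTeq := eq_of_simple h2 hmax hirr (hTM ⟨0, hm⟩) (hTn ⟨0, hm⟩) hgen (hTs _) hzT hz1 hz2
  refine ⟨M, hMn, hTeq ▸ hTs ⟨0, hm⟩, ?_, ?_⟩
  · intro h
    apply hMnc
    intro a ha b hb
    exact congrArg Subtype.val (h.is_comm.comm ⟨a, ha⟩ ⟨b, hb⟩)
  · by_contra hC
    -- the centralizer is normal and irreducible
    have hCn : (Subgroup.centralizer (M : Set H)).Normal := by
      constructor
      intro n hn g
      rw [Subgroup.mem_centralizer_iff] at hn ⊢
      intro y hy
      have h3 : g⁻¹ * y * g ∈ M := by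
        have := hMn.conj_mem y hy g⁻¹
        rwa [inv_inv] at this
      have h4 := hn _ h3
      calc y * (g * n * g⁻¹) = g * ((g⁻¹ * y * g) * n) * g⁻¹ := by group
        _ = g * (n * (g⁻¹ * y * g)) * g⁻¹ := by rw [h4]
        _ = g * n * g⁻¹ * y := by group
    have hzM : z ∈ M := hTM _ hzT
    obtain ⟨v, hv0, hzv⟩ := exists_fixed (V := V) h2 hz2
    have hinv : Inv (Subgroup.centralizer (M : Set H)) (fixBy (V := V) (Subgroup.zpowers z)) := by
      apply fixBy_inv
      intro e he d hd
      obtain ⟨k, rfl⟩ := Subgroup.mem_zpowers_iff.1 hd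
      have h3 : e⁻¹ * z ^ k * e = z ^ k := by
        have h4 := (Subgroup.mem_centralizer_iff.1 he) _ (M.zpow_mem hzM k)
        rw [mul_assoc, h4, inv_mul_cancel_left]
      rw [h3]
      exact hd
    have hmem : v ∈ fixBy (V := V) (Subgroup.zpowers z) := by
      intro d hd
      have : Subgroup.zpowers z ≤ stabilizer H v := by
        rw [Subgroup.zpowers_le]; exact hzv
      exact this hd
    rcases irreducible_normal hmax hirr _ hC _ hinv with h | h
    · rw [h, AddSubgroup.mem_bot] at hmem
      exact hv0 hmem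
    · apply hz1
      apply FaithfulSMul.eq_of_smul_eq_smul (α := V)
      intro w
      rw [one_smul]
      have h3 : w ∈ fixBy (V := V) (Subgroup.zpowers z) := h ▸ AddSubgroup.mem_top w
      exact h3 z (Subgroup.mem_zpowers z)

end Cfsg.Agent.H387.LinPrime
end

-- part: S3521
section
set_option autoImplicit false
open Cfsg

namespace Cfsg.Agent.S3521

open MulAction in
/-- The conjugation action of a subgroup on the additive form of a commutative normal subgroup. -/
@[reducible] def act {G : Type*} [Group G] (H M : Subgroup G) [M.Normal]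
    [CommGroup M] (hM : ∀ a b : M, ((a * b : M) : G) = (a : G) * b)
    (h1 : ((1 : M) : G) = 1) : DistribMulAction H (Additive M) where
  smul h v := Additive.ofMul ⟨(h : G) * (v.toMul : G) * (h : G)⁻¹, Subgroup.Normal.conj_mem inferInstance _ v.toMul.2 _⟩
  one_smul v := by
    apply Additive.toMul.injective
    apply Subtype.ext
    change ((1 : H) : G) * (v.toMul : G) * ((1 : H) : G)⁻¹ = v.toMul
    rw [Subgroup.coe_one, one_mul, inv_one, mul_one]
  mul_smul g h v := by
    apply Additive.toMul.injective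
    apply Subtype.ext
    change ((g * h : H) : G) * (v.toMul : G) * ((g * h : H) : G)⁻¹ = g * (h * (v.toMul : G) * (h : G)⁻¹) * (g : G)⁻¹
    rw [Subgroup.coe_mul]
    group
  smul_zero h := by
    apply Additive.toMul.injective
    apply Subtype.ext
    change (h : G) * ((1 : M) : G) * (h : G)⁻¹ = ((1 : M) : G)
    rw [h1, mul_one, mul_inv_cancel]
  smul_add h v w := by
    apply Additive.toMul.injective
    apply Subtype.ext
    change (h : G) * ((v.toMul * w.toMul : M) : G) * (h : G)⁻¹ = (( (⟨(h : G) * (v.toMul : G) * (h : G)⁻¹, Subgroup.Normal.conj_mem inferInstance _ v.toMul.2 _⟩ : M) * ⟨(h : G) * (w.toMul : G) * (h : G)⁻¹, Subgroup.Normal.conj_mem inferInstance _ w.toMul.2 _⟩ : M) : G)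
    rw [hM, hM]
    group

/-- Let a finite group G that is not solvable act faithfully and primitively on a finite set with p ^ d points (p prime), with a non-trivial abelian normal subgroup acting regularly (affine type) and with non-trivial point stabilizers each acting primitively on every one of its orbits (an insoluble extremely primitive group of affine type). Then p = 2; and if moreover G is not 2-transitive, then a point stabilizer is almost simple (it has a non-abelian simple normal subgroup with trivial centralizer). -/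
theorem result {G : Type*} [Group G] [Finite G] {Ω : Type*} [Fintype Ω] [MulAction G Ω] [FaithfulSMul G Ω] (p d : ℕ) (hp : p.Prime) (hcard : Fintype.card Ω = p ^ d) (hsol : ¬ Group.IsSolvable G)
    (N : Subgroup G) [N.Normal] (hN : N ≠ ⊥) (hNc : IsMulCommutative N) (hNreg : ∀ ω : Ω, MulAction.stabilizer N ω = ⊥)
    (hprim : MulAction.IsPreprimitive G Ω) (hH : ∀ α : Ω, MulAction.stabilizer G α ≠ ⊥) (hep : ∀ (α : Ω) (ω : Ω), MulAction.IsPreprimitive (MulAction.stabilizer G α) (MulAction.orbit (MulAction.stabilizer G α) ω)) (α : Ω) :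
    p = 2 ∧ (¬ MulAction.IsMultiplyPretransitive G Ω 2 → ∃ T : Subgroup (MulAction.stabilizer G α), T.Normal ∧ IsSimpleGroup T ∧ ¬ IsMulCommutative T ∧ Subgroup.centralizer (T : Set (MulAction.stabilizer G α)) = ⊥) := by
  classical
  have hNcomm : ∀ a ∈ N, ∀ b ∈ N, a * b = b * a := fun a ha b hb =>
    congrArg Subtype.val (hNc.is_comm.comm ⟨a, ha⟩ ⟨b, hb⟩)
  have hreg : ∀ n ∈ N, ∀ ω : Ω, n • ω = ω → n = 1 := by
    intro n hn ω h
    have h1 : (⟨n, hn⟩ : N) ∈ MulAction.stabilizer N ω := h
    rw [hNreg ω, Subgroup.mem_bot] at h1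
    exact congrArg Subtype.val h1
  -- normal subgroups are transitive
  have htrans : ∀ L : Subgroup G, L.Normal → L ≠ ⊥ → MulAction.IsPretransitive L Ω := by
    intro L hL hL0
    apply MulAction.IsQuasiPreprimitive.isPretransitive_of_normal (G := G)
    intro h
    apply hL0
    rw [Subgroup.eq_bot_iff_forall]
    intro l hl
    apply FaithfulSMul.eq_of_smul_eq_smul (α := Ω)
    intro x
    have h1 : x ∈ MulAction.fixedPoints L Ω := h ▸ Set.mem_univ x
    rw [one_smul]
    exact h1 ⟨l, hl⟩
  have hNtr := htrans N inferInstance hN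
  have hNcard : Nat.card N = p ^ d := by
    rw [← hcard, ← Nat.card_eq_fintype_card]
    refine Nat.card_eq_of_bijective (fun n : N => n • α) ⟨?_, ?_⟩
    · intro a b hab
      have h1 := hreg ((b : G)⁻¹ * a) (N.mul_mem (N.inv_mem b.2) a.2) α (by
        have h2 : (a : G) • α = (b : G) • α := hab
        rw [mul_smul, h2, inv_smul_smul])
      exact Subtype.ext (inv_mul_eq_one.1 h1).symm
    · intro ω
      exact hNtr.exists_smul_eq α ω
  have hd : d ≠ 0 := by
    intro h
    rw [h, pow_zero] at hNcard
    exact hN (Subgroup.card_eq_one.1 hNcard)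
  letI cgN : CommGroup N := { (inferInstance : Group N) with
    mul_comm := fun a b => Subtype.ext (hNcomm a a.2 b b.2) }
  letI actN : DistribMulAction (MulAction.stabilizer G α) (Additive N) :=
    act (MulAction.stabilizer G α) N (fun _ _ => rfl) rfl
  have hact : ∀ (h : MulAction.stabilizer G α) (v : Additive N),
      (((h • v : Additive N).toMul : N) : G) = (h : G) * (v.toMul : G) * (h : G)⁻¹ := fun _ _ => rfl
  -- comparison with the action on `Ω`
  have hcmp : ∀ (h : MulAction.stabilizer G α) (v : Additive N),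
      (((h • v : Additive N).toMul : N) : G) • α = (h : G) • ((v.toMul : N) : G) • α := by
    intro h v
    have h1 : (h : G)⁻¹ • α = α := by
      rw [inv_smul_eq_iff]; exact (MulAction.mem_stabilizer_iff.1 h.2).symm
    rw [hact, mul_smul, mul_smul, h1]
  have hinj : ∀ v w : Additive N, ((v.toMul : N) : G) • α = ((w.toMul : N) : G) • α → v = w := by
    intro v w h
    have h1 := hreg (((w.toMul : N) : G)⁻¹ * ((v.toMul : N) : G))
      (N.mul_mem (N.inv_mem w.toMul.2) v.toMul.2) α (by rw [mul_smul, h, inv_smul_smul])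
    apply Additive.toMul.injective
    exact Subtype.ext (inv_mul_eq_one.1 h1).symm
  have hstab : ∀ (h : MulAction.stabilizer G α) (v : Additive N),
      h • v = v ↔ (h : G) • ((v.toMul : N) : G) • α = ((v.toMul : N) : G) • α := by
    intro h v
    constructor
    · intro h1
      rw [← hcmp, h1]
    · intro h1
      apply hinj
      rw [hcmp, h1]
  have hfaith : FaithfulSMul (MulAction.stabilizer G α) (Additive N) := by
    constructor
    intro g h hgh
    apply Subtype.ext
    apply FaithfulSMul.eq_of_smul_eq_smul (α := Ω)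
    intro ω
    obtain ⟨n, hn⟩ := hNtr.exists_smul_eq α ω
    have hn' : (n : G) • α = ω := hn
    have h1 := congrArg (fun v : Additive N => ((v.toMul : N) : G) • α) (hgh (Additive.ofMul n))
    simp only [hcmp] at h1
    rw [← hn']
    exact h1
  have hnt : Nontrivial (Additive N) := by
    have : Nontrivial N := (Subgroup.nontrivial_iff_ne_bot N).2 hN
    exact (Additive.ofMul (α := N)).injective.nontrivial
  -- irreducibility
  have hirr : ∀ W : AddSubgroup (Additive N), (∀ (h : MulAction.stabilizer G α), ∀ w ∈ W, h • w ∈ W) →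
      W = ⊥ ∨ W = ⊤ := by
    intro W hW
    let L0 : Subgroup N :=
      { carrier := {x | Additive.ofMul x ∈ W}
        one_mem' := W.zero_mem
        mul_mem' := fun {a b} ha hb => W.add_mem ha hb
        inv_mem' := fun {a} ha => W.neg_mem ha }
    have hL0 : ∀ x, x ∈ L0 ↔ Additive.ofMul x ∈ W := fun _ => Iff.rfl
    let L : Subgroup G := L0.map N.subtype
    have hLn : L.Normal := by
      constructor
      rintro _ ⟨y, hy, rfl⟩ g
      obtain ⟨n, hn⟩ := hNtr.exists_smul_eq α (g • α)
      have hn' : (n : G) • α = g • α := hn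
      have hs : (n : G)⁻¹ * g ∈ MulAction.stabilizer G α := by
        rw [MulAction.mem_stabilizer_iff, mul_smul, ← hn', inv_smul_smul]
      have h1 := hW ⟨_, hs⟩ (Additive.ofMul y) hy
      have h2 : g * (y : G) * g⁻¹ = ((((⟨_, hs⟩ : MulAction.stabilizer G α) • (Additive.ofMul y) : Additive N).toMul : N) : G) := by
        rw [hact]
        change g * (y : G) * g⁻¹ = ((n : G)⁻¹ * g) * (y : G) * ((n : G)⁻¹ * g)⁻¹
        have h3 : (((n : G)⁻¹ * g) * (y : G) * ((n : G)⁻¹ * g)⁻¹) = (n : G)⁻¹ * (g * (y : G) * g⁻¹) * n := by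
          group
        have h4 : g * (y : G) * g⁻¹ ∈ N := Subgroup.Normal.conj_mem inferInstance _ y.2 _
        rw [h3, hNcomm _ (N.inv_mem n.2) _ h4, inv_mul_cancel_right]
      change g * (y : G) * g⁻¹ ∈ L
      rw [h2]
      exact ⟨_, h1, rfl⟩
    by_cases hL : L = ⊥
    · left
      rw [eq_bot_iff]
      intro w hw
      have h1 : ((w.toMul : N) : G) ∈ L := ⟨w.toMul, hw, rfl⟩
      rw [hL, Subgroup.mem_bot] at h1
      rw [AddSubgroup.mem_bot]
      apply Additive.toMul.injective
      exact Subtype.ext h1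
    · right
      have hLtr := htrans L hLn hL
      rw [eq_top_iff]
      intro w _
      obtain ⟨⟨_, y, hy, rfl⟩, hl⟩ := hLtr.exists_smul_eq α (((w.toMul : N) : G) • α)
      have hl' : (y : G) • α = ((w.toMul : N) : G) • α := hl
      have h1 : Additive.ofMul y = w := hinj _ _ hl'
      rw [← h1]
      exact hy
  -- maximality of the vector stabilizers
  have hmax : ∀ v : Additive N, v ≠ 0 → IsCoatom (MulAction.stabilizer (MulAction.stabilizer G α) v) := by
    intro v hv
    have hpr := hep α (((v.toMul : N) : G) • α)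
    have hst : MulAction.stabilizer (MulAction.stabilizer G α) v =
        MulAction.stabilizer (MulAction.stabilizer G α)
          (⟨((v.toMul : N) : G) • α, MulAction.mem_orbit_self _⟩ :
            MulAction.orbit (MulAction.stabilizer G α) (((v.toMul : N) : G) • α)) := by
      ext h
      rw [MulAction.mem_stabilizer_iff, MulAction.mem_stabilizer_iff, hstab, Subtype.ext_iff]
      rfl
    rw [hst]
    have hnt' : Nontrivial (MulAction.orbit (MulAction.stabilizer G α) (((v.toMul : N) : G) • α)) := by
      by_contra hcon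
      rw [not_nontrivial_iff_subsingleton] at hcon
      -- `H` fixes `v`
      have h1 : ∀ h : MulAction.stabilizer G α, h • v = v := by
        intro h
        rw [hstab]
        have h2 := hcon.elim (⟨h • (((v.toMul : N) : G) • α), ⟨h, rfl⟩⟩ :
          MulAction.orbit (MulAction.stabilizer G α) (((v.toMul : N) : G) • α))
          ⟨((v.toMul : N) : G) • α, MulAction.mem_orbit_self _⟩
        exact congrArg Subtype.val h2
      rcases hirr (Cfsg.Agent.H387.LinCore.fixBy (⊤ : Subgroup (MulAction.stabilizer G α))) (by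
        intro h w hw
        exact Cfsg.Agent.H387.LinCore.fixBy_inv (D := ⊤) (E := ⊤) (fun _ _ _ _ => trivial) h trivial
          w hw) with h | h
      · have h2 : v ∈ Cfsg.Agent.H387.LinCore.fixBy (⊤ : Subgroup (MulAction.stabilizer G α)) :=
          fun d _ => h1 d
        rw [h, AddSubgroup.mem_bot] at h2
        exact hv h2
      · apply hH α
        rw [Subgroup.eq_bot_iff_forall]
        intro g hg
        have h2 : (⟨g, hg⟩ : MulAction.stabilizer G α) = 1 := by
          apply FaithfulSMul.eq_of_smul_eq_smul (α := Additive N)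
          intro w
          rw [one_smul]
          have h3 : w ∈ Cfsg.Agent.H387.LinCore.fixBy (⊤ : Subgroup (MulAction.stabilizer G α)) :=
            h ▸ AddSubgroup.mem_top w
          exact h3 _ trivial
        exact congrArg Subtype.val h2
    exact (MulAction.isCoatom_stabilizer_iff_preprimitive _ _).2 hpr
  -- the stabilizer is not solvable
  have hsolH : ¬ Group.IsSolvable (MulAction.stabilizer G α) := by
    intro hs
    apply hsol
    have hNs : Group.IsSolvable N := Group.isSolvable_of_comm fun a b =>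
      Subtype.ext (hNcomm a a.2 b b.2)
    have hQ : Group.IsSolvable (G ⧸ N) := by
      refine Group.isSolvable_of_surjective
        (f := (QuotientGroup.mk' N).comp (MulAction.stabilizer G α).subtype) ?_
      intro x
      obtain ⟨g, rfl⟩ := QuotientGroup.mk_surjective x
      obtain ⟨n, hn⟩ := hNtr.exists_smul_eq α (g • α)
      have hn' : (n : G) • α = g • α := hn
      have hs : (n : G)⁻¹ * g ∈ MulAction.stabilizer G α := by
        rw [MulAction.mem_stabilizer_iff, mul_smul, ← hn', inv_smul_smul]
      refine ⟨⟨_, hs⟩, ?_⟩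
      change (((n : G)⁻¹ * g : G) : G ⧸ N) = (g : G ⧸ N)
      rw [QuotientGroup.mk_mul, (QuotientGroup.eq_one_iff _).2 (N.inv_mem n.2), one_mul]
    exact Group.isSolvable_of_ker_le_range N.subtype (QuotientGroup.mk' N) (by
      rw [QuotientGroup.ker_mk', Subgroup.range_subtype])
  obtain ⟨h1, h2⟩ := Cfsg.Agent.H387.LinPrime.linear_main (V := Additive N) hmax hirr hp hd hNcard
    hsolH
  exact ⟨h1, fun _ => h2⟩

end Cfsg.Agent.S3521
end

private theorem dce_8178a439ff43 : _root_.True := by
  try have : _root_.True := by simp only [_root_.Cfsg.Agent.H387.LinCore.sp.eq_1]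
  exact _root_.True.intro
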