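import Cfsg.Statements.S3524
set_option linter.all false


set_option autoImplicit false
open Cfsg

namespace Cfsg.Agent.S3524

/-- A permutation group with a base is closed at one level above the base size. Let G be a group of permutations of a set Ω and suppose some k points α₁, …, α_k are fixed simultaneously only by the identity of G (a base of size k). Then G is (k+1)-closed: a permutation of Ω that agrees on every (k+1)-tuple of points with some element of G belongs to G. -/
theorem result {Ω : Type*} (G : Subgroup (Equiv.Perm Ω)) (k : ℕ) (α : Fin k → Ω)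
    (hbase : ∀ g ∈ G, (∀ i, g (α i) = α i) → g = 1) (σ : Equiv.Perm Ω)
    (hσ : ∀ t : Fin (k + 1) → Ω, ∃ g ∈ G, ∀ i, σ (t i) = g (t i)) : σ ∈ G := by
  classical
  -- the element of `G` agreeing with `σ` on the base and on `x`
  have h : ∀ x : Ω, ∃ g ∈ G, (∀ i, σ (α i) = g (α i)) ∧ σ x = g x := by
    intro x
    obtain ⟨g, hg, hgt⟩ := hσ (Fin.snoc α x)
    refine ⟨g, hg, fun i => ?_, ?_⟩
    · simpa using hgt i.castSucc
    · simpa using hgt (Fin.last k)
  have huniq : ∀ g ∈ G, ∀ g' ∈ G, (∀ i, σ (α i) = g (α i)) → (∀ i, σ (α i) = g' (α i)) →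
      g = g' := by
    intro g hg g' hg' h1 h2
    have h3 := hbase (g'⁻¹ * g) (G.mul_mem (G.inv_mem hg') hg) (fun i => by
      rw [Equiv.Perm.mul_apply, ← h1 i, h2 i]
      exact g'.symm_apply_apply (α i))
    exact (inv_mul_eq_one.1 h3).symm
  rcases isEmpty_or_nonempty Ω with hΩ | ⟨⟨x₀⟩⟩
  · have : σ = 1 := Equiv.ext (fun x => (hΩ.false x).elim)
    rw [this]
    exact G.one_mem
  · obtain ⟨g, hg, hg1, -⟩ := h x₀
    have : σ = g := by
      apply Equiv.ext
      intro x
      obtain ⟨g', hg', h1, h2⟩ := h x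
      rw [h2, huniq g hg g' hg' hg1 h1]
    rw [this]
    exact hg

end Cfsg.Agent.S3524
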