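import Mathlib.GroupTheory.OrderOfElement
import Mathlib.GroupTheory.Solvable
import Mathlib.GroupTheory.SemidirectProduct
import Mathlib.FieldTheory.Finite.Basic
import Mathlib.FieldTheory.Finite.GaloisField
import Mathlib.RingTheory.RootsOfUnity.Basic
import Mathlib.Tactic
import Cfsg.Statements.S3532
import Cfsg.Agent.H390.PslSpec
set_option linter.all false

-- part: H390/AffSpec
section
/-!
# Frobenius groups `K ⋊ C_m` and their element orders
-/

set_option autoImplicit false

namespace Cfsg.Agent.H390.AffSpec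

variable (K : Type) [Field K]

/-- the action of the roots of unity on the additive group -/
def act (m : ℕ) : rootsOfUnity m K →* MulAut (Multiplicative K) :=
  (MulAutMultiplicative K).symm.toMonoidHom.comp
    ((DistribMulAction.toAddAut Kˣ K).comp (rootsOfUnity m K).subtype)

/-- the group `K ⋊ μ_m` -/
abbrev Aff (m : ℕ) : Type := Multiplicative K ⋊[act K m] rootsOfUnity m K

theorem act_apply (m : ℕ) (c : rootsOfUnity m K) (v : Multiplicative K) :
    act K m c v = Multiplicative.ofAdd (((c : Kˣ) : K) * Multiplicative.toAdd v) := rfl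

instance aff_solvable (m : ℕ) : Group.IsSolvable (Aff K m) :=
  Group.isSolvable_of_ker_le_range (SemidirectProduct.inl (φ := act K m)) (SemidirectProduct.rightHom (φ := act K m))
    (by rw [SemidirectProduct.range_inl_eq_ker_rightHom])

variable {K}

theorem pow_right {m : ℕ} (x : Aff K m) (n : ℕ) : (x ^ n).right = x.right ^ n := by
  induction n with
  | zero => simp
  | succ n ih => rw [pow_succ, pow_succ, SemidirectProduct.mul_right, ih]

theorem pow_left {m : ℕ} (x : Aff K m) (n : ℕ) :
    Multiplicative.toAdd (x ^ n).left = (∑ i ∈ Finset.range n, ((x.right : Kˣ) : K) ^ i) * Multiplicative.toAdd x.left := by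
  induction n with
  | zero => simp
  | succ n ih =>
    rw [pow_succ, SemidirectProduct.mul_left, pow_right, act_apply, toAdd_mul, ih, Finset.sum_range_succ, add_mul]
    simp

theorem pow_eq_one_of_ne {m : ℕ} (x : Aff K m) (h : x.right ≠ 1) (n : ℕ) (hn : x.right ^ n = 1) : x ^ n = 1 := by
  apply SemidirectProduct.ext
  · apply Multiplicative.toAdd.injective
    rw [pow_left]
    have hc : ((x.right : Kˣ) : K) ≠ 1 := by
      intro h1
      apply h
      apply Subtype.ext
      exact Units.ext h1
    have hg := geom_sum_eq hc n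
    have hn' : ((x.right : Kˣ) : K) ^ n = 1 := by
      have := congrArg (fun z : rootsOfUnity m K => ((z : Kˣ) : K)) hn
      simpa using this
    rw [hg, hn']
    simp
  · rw [pow_right, hn]; rfl

theorem orderOf_right {m : ℕ} (x : Aff K m) (h : x.right ≠ 1) : orderOf x = orderOf x.right := by
  apply Nat.dvd_antisymm
  · exact orderOf_dvd_of_pow_eq_one (pow_eq_one_of_ne x h _ (pow_orderOf_eq_one _))
  · exact orderOf_map_dvd (SemidirectProduct.rightHom (φ := act K m)) x

theorem orderOf_dvd {m p : ℕ} [CharP K p] (x : Aff K m) : orderOf x ∣ p ∨ orderOf x ∣ m := by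
  by_cases h : x.right = 1
  · left
    apply orderOf_dvd_of_pow_eq_one
    apply SemidirectProduct.ext
    · apply Multiplicative.toAdd.injective
      rw [pow_left, h]
      simp
    · rw [pow_right, h]; simp
  · right
    rw [orderOf_right x h]
    apply orderOf_dvd_of_pow_eq_one
    apply Subtype.ext
    exact x.right.2

theorem exists_p {m p : ℕ} [hp : Fact p.Prime] [CharP K p] : ∃ x : Aff K m, orderOf x = p := by
  refine ⟨SemidirectProduct.inl (Multiplicative.ofAdd 1), ?_⟩
  rw [orderOf_injective _ SemidirectProduct.inl_injective]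
  apply orderOf_eq_prime
  · apply Multiplicative.toAdd.injective
    simp
  · intro h
    have := congrArg Multiplicative.toAdd h
    simp at this

theorem exists_m [Fintype K] {m : ℕ} (hm : m ∣ Fintype.card K - 1) : ∃ x : Aff K m, orderOf x = m := by
  classical
  obtain ⟨g, hg⟩ := IsCyclic.exists_generator (α := Kˣ)
  have hord : orderOf g = Fintype.card K - 1 := by
    rw [orderOf_eq_card_of_forall_mem_zpowers hg, Nat.card_eq_fintype_card, Fintype.card_units]
  obtain ⟨k, hk⟩ := hm
  have hpos : 0 < Fintype.card K - 1 := by have := Fintype.one_lt_card (α := K); omega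
  have hk0 : k ≠ 0 := by rintro rfl; omega
  have hgk : orderOf (g ^ k) = m := by
    rw [orderOf_pow_of_dvd hk0 (by rw [hord, hk]; exact Dvd.intro_left _ rfl), hord, hk,
      Nat.mul_div_cancel _ (Nat.pos_of_ne_zero hk0)]
  have hmem : g ^ k ∈ rootsOfUnity m K := by
    rw [mem_rootsOfUnity, ← hgk, pow_orderOf_eq_one]
  refine ⟨SemidirectProduct.inr ⟨g ^ k, hmem⟩, ?_⟩
  rw [orderOf_injective _ SemidirectProduct.inr_injective]
  exact (orderOf_injective (rootsOfUnity m K).subtype (Subgroup.subtype_injective _) ⟨g ^ k, hmem⟩).symm.trans hgk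

theorem range_orderOf [Fintype K] {m p : ℕ} [hp : Fact p.Prime] [CharP K p] (hm : m ∣ Fintype.card K - 1) :
    Set.range (orderOf : Aff K m → ℕ) = {n | n ∣ p ∨ n ∣ m} := by
  ext n
  constructor
  · rintro ⟨g, rfl⟩
    exact orderOf_dvd g
  · have key : ∀ m', (∃ g : Aff K m, orderOf g = m') → n ∣ m' → m' ≠ 0 → n ∈ Set.range (orderOf : Aff K m → ℕ) := by
      rintro m' ⟨g, hg⟩ ⟨k, rfl⟩ hm
      refine ⟨g ^ k, ?_⟩
      have hk : k ≠ 0 := by rintro rfl; simp at hm
      rw [orderOf_pow_of_dvd hk (by rw [hg]; exact Dvd.intro_left _ rfl), hg, Nat.mul_div_cancel _ (Nat.pos_of_ne_zero hk)]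
    rintro (h | h)
    · exact key _ exists_p h hp.out.ne_zero
    · refine key _ (exists_m hm) h ?_
      rintro rfl
      have := Fintype.one_lt_card (α := K)
      have := Nat.eq_zero_of_zero_dvd hm
      omega

end Cfsg.Agent.H390.AffSpec
end

-- part: S3532
section
set_option autoImplicit false
open Cfsg

namespace Cfsg.Agent.S3532

open Cfsg.Agent.H390

theorem range_prod {A B : Type*} [Group A] [Group B] (S T : Set ℕ)
    (hA : Set.range (orderOf : A → ℕ) = S) (hB : Set.range (orderOf : B → ℕ) = T) :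
    Set.range (orderOf : A × B → ℕ) = {n | ∃ a ∈ S, ∃ b ∈ T, n = Nat.lcm a b} := by
  ext n
  constructor
  · rintro ⟨⟨x, y⟩, rfl⟩
    exact ⟨orderOf x, hA ▸ ⟨x, rfl⟩, orderOf y, hB ▸ ⟨y, rfl⟩, Prod.orderOf _⟩
  · rintro ⟨a, ha, b, hb, rfl⟩
    rw [← hA] at ha
    rw [← hB] at hb
    obtain ⟨x, rfl⟩ := ha
    obtain ⟨y, rfl⟩ := hb
    exact ⟨(x, y), Prod.orderOf _⟩

/-- Let q ≥ 4 be a prime power and L = PSL(2,q). There is a finite solvable group with the same set of element orders as L × L (so L × L is not determined by its spectrum). -/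
theorem result {F : Type*} [Field F] [Fintype F] (hF : 4 ≤ Fintype.card F) :
    ∃ (H : Type) (_ : Group H) (_ : Finite H), Group.IsSolvable H ∧
      Set.range (orderOf : H → ℕ) = Set.range (orderOf : Matrix.ProjectiveSpecialLinearGroup (Fin 2) F × Matrix.ProjectiveSpecialLinearGroup (Fin 2) F → ℕ) := by
  classical
  obtain ⟨p, hp⟩ := CharP.exists F
  obtain ⟨k, hpp, hc⟩ := FiniteField.card F p
  have : Fact p.Prime := ⟨hpp⟩
  set q := Fintype.card F with hq
  have hspec := PslSpec.range_orderOf (p := p) hF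
  have : Fintype (GaloisField p k) := Fintype.ofFinite _
  have : Fintype (GaloisField p (2 * k)) := Fintype.ofFinite _
  have hk1 : Fintype.card (GaloisField p k) = q := by
    rw [← Nat.card_eq_fintype_card, GaloisField.card p k k.2.ne', hc]
  have hk2 : Fintype.card (GaloisField p (2 * k)) = q ^ 2 := by
    rw [← Nat.card_eq_fintype_card, GaloisField.card p (2 * k) (Nat.mul_ne_zero two_ne_zero k.2.ne'), hc, ← pow_mul, mul_comm]
  have hq1 : 1 ≤ q := by omega
  have hdpos : 0 < PslSpec.dd q := by rcases PslSpec.dd_cases q with h | h <;> rw [h] <;> norm_num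
  have h1 := AffSpec.range_orderOf (K := GaloisField p k) (p := p) (m := (q - 1) / PslSpec.dd q)
    (by rw [hk1]; exact Nat.div_dvd_of_dvd (PslSpec.dd_dvd_sub q))
  have h2 := AffSpec.range_orderOf (K := GaloisField p (2 * k)) (p := p) (m := (q + 1) / PslSpec.dd q)
    (by
      rw [hk2]
      refine (Nat.div_dvd_of_dvd (PslSpec.dd_dvd_add hq1)).trans ?_
      exact ⟨q - 1, by
        obtain ⟨r, hr⟩ := Nat.exists_eq_add_of_le hq1
        rw [hr, Nat.add_sub_cancel_left]
        have : (1 + r) ^ 2 = (1 + r + 1) * r + 1 := by ring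
        omega⟩)
  have f1 : Finite (AffSpec.Aff (GaloisField p k) ((q - 1) / PslSpec.dd q)) :=
    Finite.of_injective (fun x => (x.left, x.right)) (fun x y h => by
      apply SemidirectProduct.ext
      · exact congrArg Prod.fst h
      · exact congrArg Prod.snd h)
  have f2 : Finite (AffSpec.Aff (GaloisField p (2 * k)) ((q + 1) / PslSpec.dd q)) :=
    Finite.of_injective (fun x => (x.left, x.right)) (fun x y h => by
      apply SemidirectProduct.ext
      · exact congrArg Prod.fst h
      · exact congrArg Prod.snd h)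
  refine ⟨AffSpec.Aff (GaloisField p k) ((q - 1) / PslSpec.dd q) × AffSpec.Aff (GaloisField p (2 * k)) ((q + 1) / PslSpec.dd q),
    inferInstance, inferInstance, inferInstance, ?_⟩
  rw [range_prod _ _ h1 h2, range_prod _ _ hspec hspec]
  have hmem : ∀ n, n ∈ PslSpec.specSet p (Fintype.card F) ↔
      (n ∣ p ∨ n ∣ (q - 1) / PslSpec.dd q ∨ n ∣ (q + 1) / PslSpec.dd q) := fun n => Iff.rfl
  ext n
  simp only [Set.mem_setOf_eq, hmem]
  constructor
  · rintro ⟨a, ha, b, hb, rfl⟩
    refine ⟨a, ?_, b, ?_, rfl⟩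
    · rcases ha with h | h
      · exact Or.inl h
      · exact Or.inr (Or.inl h)
    · rcases hb with h | h
      · exact Or.inl h
      · exact Or.inr (Or.inr h)
  · rintro ⟨a, ha | ha | ha, b, hb | hb | hb, rfl⟩
    · exact ⟨Nat.lcm a b, Or.inl (Nat.lcm_dvd ha hb), 1, Or.inl (one_dvd _), by simp⟩
    · exact ⟨b, Or.inr hb, a, Or.inl ha, Nat.lcm_comm _ _⟩
    · exact ⟨a, Or.inl ha, b, Or.inr hb, rfl⟩
    · exact ⟨a, Or.inr ha, b, Or.inl hb, rfl⟩
    · exact ⟨Nat.lcm a b, Or.inr (Nat.lcm_dvd ha hb), 1, Or.inl (one_dvd _), by simp⟩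
    · exact ⟨a, Or.inr ha, b, Or.inr hb, rfl⟩
    · exact ⟨b, Or.inl hb, a, Or.inr ha, Nat.lcm_comm _ _⟩
    · exact ⟨b, Or.inr hb, a, Or.inr ha, Nat.lcm_comm _ _⟩
    · exact ⟨1, Or.inl (one_dvd _), Nat.lcm a b, Or.inr (Nat.lcm_dvd ha hb), by simp⟩

end Cfsg.Agent.S3532
end
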