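import Cfsg.Statements.S3547
import Cfsg.Agent.H393.Derange
set_option linter.all false

set_option autoImplicit false
open Cfsg

namespace Cfsg.Agent.S3547

/-- Let G act faithfully and transitively on a finite set Ω, let D be the subgroup generated by the derangements, and let r_G and r_D be the numbers of orbits of G and of D on ordered pairs of points (the permutation ranks). Then r_D − 1 = (r_G − 1)·[G : D]. -/
theorem result {G Ω : Type*} [Group G] [Finite G] [MulAction G Ω] [FaithfulSMul G Ω] [Finite Ω]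
    (htrans : MulAction.IsPretransitive G Ω) :
    Nat.card (MulAction.orbitRel.Quotient ↥(Subgroup.closure {g : G | ∀ ω : Ω, g • ω ≠ ω}) (Ω × Ω)) - 1 =
      (Nat.card (MulAction.orbitRel.Quotient G (Ω × Ω)) - 1) * (Subgroup.closure {g : G | ∀ ω : Ω, g • ω ≠ ω}).index := by
  classical
  rcases isEmpty_or_nonempty Ω with hE | hN
  · have : IsEmpty (Ω × Ω) := inferInstance
    have hQ : ∀ H : Subgroup G, IsEmpty (MulAction.orbitRel.Quotient H (Ω × Ω)) := fun H =>
      ⟨fun q => Quotient.inductionOn' q fun x => this.false x⟩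
    have hQ2 : IsEmpty (MulAction.orbitRel.Quotient G (Ω × Ω)) :=
      ⟨fun q => Quotient.inductionOn' q fun x => this.false x⟩
    have := hQ (Subgroup.closure {g : G | ∀ ω : Ω, g • ω ≠ ω})
    simp
  · obtain ⟨h1, h2⟩ := Cfsg.Agent.H393.derSub_key G Ω htrans
    have : Fintype G := Fintype.ofFinite G
    have hfix : ∀ g : G, Nat.card (MulAction.fixedBy (Ω × Ω) g) =
        Nat.card (MulAction.fixedBy Ω g) ^ 2 := by
      intro g
      rw [pow_two, ← Nat.card_prod]
      refine Nat.card_congr ⟨fun x => (⟨x.1.1, congrArg Prod.fst x.2⟩, ⟨x.1.2, congrArg Prod.snd x.2⟩),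
        fun x => ⟨(x.1.1, x.2.1), Prod.ext x.1.2 x.2.2⟩, fun x => rfl, fun x => rfl⟩
    set D := Subgroup.closure {g : G | ∀ ω : Ω, g • ω ≠ ω} with hD
    have e1 := Cfsg.Agent.H393.burnside_natCard G (Ω × Ω)
    have e2 := Cfsg.Agent.H393.burnside_subgroup G (Ω × Ω) D
    have h3 := Finset.sum_filter_add_sum_filter_not (Finset.univ : Finset G) (fun g => g ∈ D)
      (fun g => Nat.card (MulAction.fixedBy (Ω × Ω) g))
    have h4 := Finset.card_filter_add_card_filter_not (s := (Finset.univ : Finset G)) (fun g => g ∈ D)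
    have h5 : (Finset.univ.filter (fun g : G => g ∈ D)).card = Nat.card D := by
      rw [Nat.card_eq_fintype_card]
      exact (Fintype.card_subtype _).symm
    have h6 : (Finset.univ : Finset G).card = Nat.card G := by
      rw [Nat.card_eq_fintype_card]; rfl
    have h7 : ∑ g ∈ Finset.univ.filter (fun g : G => ¬ g ∈ D), Nat.card (MulAction.fixedBy (Ω × Ω) g) =
        (Finset.univ.filter (fun g : G => ¬ g ∈ D)).card := by
      rw [Finset.card_eq_sum_ones]
      apply Finset.sum_congr rfl
      intro g hg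
      rw [Finset.mem_filter] at hg
      rw [hfix, h2 g hg.2, one_pow]
    have hr := Cfsg.Agent.H393.card_orbits_pos D (Ω × Ω)
    have hr' := Cfsg.Agent.H393.card_orbits_pos G (Ω × Ω)
    have hidx := D.card_mul_index
    have hDpos : 0 < Nat.card D := Nat.card_pos
    apply Nat.eq_of_mul_eq_mul_right hDpos
    obtain ⟨r, hr1⟩ := Nat.exists_eq_add_of_le' hr
    obtain ⟨r', hr2⟩ := Nat.exists_eq_add_of_le' hr'
    rw [hr2] at e1
    rw [hr1] at e2
    rw [hr1, hr2]
    simp only [Nat.add_sub_cancel]
    have e3 : r' * D.index * Nat.card D = r' * Nat.card G := by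
      rw [← hidx]; ring
    rw [e3]
    nlinarith

end Cfsg.Agent.S3547
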