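import Mathlib
import Cfsg.Agent.H278.ElAlt
import Cfsg.Agent.H394.SqAlt
import Cfsg.Agent.S0713
import Cfsg.Agent.S2119
import Cfsg.Agent.H497.AltId
import Cfsg.Agent.H895.SLT.ResCard
import Cfsg.Statements.S3571
set_option linter.all false

-- part: H344/AltDerA
section
/-!
# Maximal subgroups of `A_m`, `S_m` miss a class of elements of order the largest prime divisor of the index
-/

set_option autoImplicit false

namespace Cfsg.Agent.H344.AltDer

open MulAction Equiv Equiv.Perm Cfsg.Agent.H394.SqBasic Cfsg.Agent.H394.SqAlt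
open scoped Pointwise

/-- `p ^ 2 ∤ n!` for `n < 2p` -/
theorem not_sq_dvd_fact {p n : ℕ} (hp : p.Prime) (hn : n < 2 * p) : ¬ p ^ 2 ∣ n.factorial := by
  intro h
  have hp0 := hp.pos
  have h3 := (hp.pow_dvd_factorial_iff (n := n) (r := 2) (b := n + 1)
    (Nat.lt_succ_of_le (Nat.log_le_self p n))).1 h
  have h4 : ∑ i ∈ Finset.Ico 1 (n + 1), n / p ^ i ≤ 1 := by
    rcases Nat.eq_zero_or_pos n with h0 | h0
    · subst h0
      simp
    · rw [Finset.sum_eq_sum_Ico_succ_bot (by omega)]
      have h5 : ∑ i ∈ Finset.Ico (1 + 1) (n + 1), n / p ^ i = 0 := by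
        apply Finset.sum_eq_zero
        intro i hi
        rw [Finset.mem_Ico] at hi
        apply Nat.div_eq_of_lt
        have h6 : p ^ 2 ≤ p ^ i := Nat.pow_le_pow_right hp0 (by omega)
        have h7 : 2 * p ≤ p ^ 2 := by
          rw [pow_two]
          exact Nat.mul_le_mul_right p hp.two_le
        omega
      rw [h5, add_zero, pow_one]
      have : n / p < 2 := Nat.div_lt_of_lt_mul (by rw [mul_comm]; exact hn)
      omega
  omega

/-- a transitive imprimitive group has no element of prime order `l > m / 2` -/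
theorem not_dvd_of_imprim {m : ℕ} (hm : 1 ≤ m) (S : Subgroup (Perm (Fin m))) (htr : IsPretransitive S (Fin m))
    (hpr : ¬ IsPreprimitive S (Fin m)) {l : ℕ} (hl : l.Prime) (h2l : m < 2 * l) : ¬ l ∣ Nat.card S := by
  classical
  intro hdvd
  have := Fact.mk hl
  obtain ⟨h, ho⟩ := exists_prime_orderOf_dvd_card' l hdvd
  have hhl : h ^ l = 1 := by rw [← ho, pow_orderOf_eq_one]
  have hh1 : h ≠ 1 := by
    rintro rfl
    rw [orderOf_one] at ho
    exact hl.one_lt.ne ho
  have hne : Nonempty (Fin m) := ⟨⟨0, by omega⟩⟩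
  apply hpr
  refine ⟨fun {B} hB => ?_⟩
  by_contra hnt
  rw [IsTrivialBlock, not_or] at hnt
  obtain ⟨hns, hnu⟩ := hnt
  have hBne : B.Nonempty := by
    by_contra h0
    rw [Set.not_nonempty_iff_eq_empty] at h0
    exact hns (h0 ▸ Set.subsingleton_empty)
  have hcard := hB.ncard_block_mul_ncard_orbit_eq hBne
  have hcn : Nat.card (Fin m) = m := by rw [Nat.card_eq_fintype_card, Fintype.card_fin]
  rw [hcn] at hcard
  have hB2 : 2 ≤ B.ncard := by
    rw [Nat.succ_le_iff, Set.one_lt_ncard (Set.toFinite B)]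
    rw [Set.not_subsingleton_iff] at hns
    obtain ⟨a, ha, b, hb, hab⟩ := hns
    exact ⟨a, ha, b, hb, hab⟩
  have hO2 : 2 ≤ (orbit S B).ncard := by
    by_contra hlt
    have h1 : (orbit S B).ncard = 0 ∨ (orbit S B).ncard = 1 := by omega
    rcases h1 with h1 | h1
    · rw [h1] at hcard; omega
    · rw [h1, mul_one] at hcard
      apply hnu
      apply Set.eq_of_subset_of_ncard_le (Set.subset_univ B)
      rw [Set.ncard_univ, hcn, hcard]
  have hO : (orbit S B).ncard < l := by
    by_contra hge
    push Not at hge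
    have : 2 * l ≤ B.ncard * (orbit S B).ncard := Nat.mul_le_mul hB2 hge
    omega
  have hBl : B.ncard < l := by
    by_contra hge
    push Not at hge
    have : l * 2 ≤ B.ncard * (orbit S B).ncard := Nat.mul_le_mul hge hO2
    omega
  have hfixB : ∀ C ∈ orbit S B, h • C = C := by
    intro C hC
    refine fix_of_lt hl hhl (orbit S B) (Set.toFinite _) ?_ hO C hC
    intro D hD
    exact MulAction.mem_orbit_of_mem_orbit h hD
  apply hh1
  apply Subtype.ext
  ext x : 1
  obtain ⟨b, hb⟩ := hBne
  obtain ⟨m', hm'⟩ := htr.exists_smul_eq b x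
  have hx : x ∈ m' • B := by rw [← hm']; exact Set.smul_mem_smul_set hb
  have h1 := hfixB (m' • B) ⟨m', rfl⟩
  have h2 := fix_of_lt hl hhl (m' • B) (Set.toFinite _) (fun y hy => by
    have : h • y ∈ h • (m' • B) := Set.smul_mem_smul_set hy
    rwa [h1] at this) (by rw [Set.ncard_smul_set]; exact hBl) x hx
  exact h2

section

variable {m : ℕ} (hm : 5 ≤ m) (Gp S : Subgroup (Perm (Fin m)))
  (hA : alternatingGroup (Fin m) ≤ Gp) (hS : S ≤ Gp)
  (hmax : ∀ K : Subgroup (Perm (Fin m)), S ≤ K → K ≤ Gp → K = S ∨ K = Gp)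
  {r n : ℕ} (hr : r.Prime) (hn : Nat.card Gp = n * Nat.card S) (hrn : r ∣ n)
  (hrmax : ∀ s : ℕ, s.Prime → s ∣ n → s ≤ r)

include hm hA hS hmax hr hn hrn hrmax in
/-- the intransitive case -/
theorem intrans_key (Δ : Finset (Fin m)) (hΔ1 : 1 ≤ Δ.card) (hΔ2 : 2 * Δ.card ≤ m)
    (hinv : ∀ g ∈ S, ∀ x ∈ Δ, g x ∈ Δ) :
    ∃ g ∈ alternatingGroup (Fin m), orderOf g = r ∧ ∀ x : Perm (Fin m), x * g * x⁻¹ ∉ S := by
  classical
  set k := Δ.card with hk
  let s : Set.powersetCard (Fin m) k := ⟨Δ, hk.symm⟩
  have hcn : Nat.card (Fin m) = m := by rw [Nat.card_eq_fintype_card, Fintype.card_fin]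
  have hmt : IsMultiplyPretransitive (alternatingGroup (Fin m)) (Fin m) (Nat.card (Fin m) - 2) :=
    alternatingGroup.isMultiplyPretransitive (Fin m)
  rw [hcn] at hmt
  have hmk : IsMultiplyPretransitive (alternatingGroup (Fin m)) (Fin m) k :=
    MulAction.isMultiplyPretransitive_of_le (n := m - 2) (by omega)
      (by rw [hcn]; omega)
  let inst : MulAction (alternatingGroup (Fin m)) (Set.powersetCard (Fin m) k) :=
    Set.powersetCard.instMulActionElemFinset (alternatingGroup (Fin m))
  have htr := Set.powersetCard.isPretransitive_of_isMultiplyPretransitive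
    (alternatingGroup (Fin m)) (α := Fin m) (n := k) hmk
  let instG : MulAction Gp (Set.powersetCard (Fin m) k) :=
    Set.powersetCard.instMulActionElemFinset Gp
  have htrG : IsPretransitive Gp (Set.powersetCard (Fin m) k) := by
    refine ⟨fun a b => ?_⟩
    obtain ⟨g, hg⟩ := htr.exists_smul_eq a b
    refine ⟨⟨(g : Perm (Fin m)), hA g.2⟩, ?_⟩
    rw [← hg]
    rfl
  have hidx : (stabilizer Gp s).index = m.choose k := by
    rw [index_stabilizer_of_transitive, Set.powersetCard.card, hcn]
  have hchoose : 1 < m.choose k := by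
    have h1 : 0 < m.choose k := Nat.choose_pos (by omega)
    have h2 : m.choose k ≠ 1 := by
      rw [Ne, Nat.choose_eq_one_iff]
      omega
    omega
  have hSs : ∀ g (hg : g ∈ S), (⟨g, hS hg⟩ : Gp) ∈ stabilizer Gp s := by
    intro g hg
    rw [mem_stabilizer_iff]
    apply Subtype.ext
    show (⟨g, hS hg⟩ : Gp) • Δ = Δ
    apply Finset.eq_of_subset_of_card_le
    · intro y hy
      obtain ⟨x, hx, rfl⟩ := Finset.mem_smul_finset.1 hy
      exact hinv g hg x hx
    · rw [Finset.card_smul_finset]
  have hK : (stabilizer Gp s).map Gp.subtype = S := by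
    rcases hmax ((stabilizer Gp s).map Gp.subtype) (fun g hg => ⟨⟨g, hS hg⟩, hSs g hg, rfl⟩)
      (by rintro _ ⟨g, -, rfl⟩; exact g.2) with h | h
    · exact h
    · exfalso
      have h1 : stabilizer Gp s = ⊤ := by
        rw [eq_top_iff]
        intro g _
        have h2 : (g : Perm (Fin m)) ∈ (stabilizer Gp s).map Gp.subtype := by rw [h]; exact g.2
        obtain ⟨g', hg', hgg⟩ := h2
        rwa [← Subtype.ext (p := (· ∈ Gp)) hgg]
      rw [h1, Subgroup.index_top] at hidx
      omega
  have hcS : Nat.card (stabilizer Gp s) = Nat.card S := by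
    rw [← hK]
    exact (Nat.card_congr ((stabilizer Gp s).equivMapOfInjective _ Gp.subtype_injective).toEquiv)
  have hnc : n = m.choose k := by
    have h1 := Subgroup.card_mul_index (stabilizer Gp s)
    rw [hidx, hn, hcS, mul_comm] at h1
    exact (Nat.eq_of_mul_eq_mul_right Nat.card_pos h1).symm
  -- the prime
  obtain ⟨l, hl, hl2, hkl, hln, h3⟩ := Cfsg.Agent.H278.El.Alt.exists_num hm hΔ1 hΔ2
  have hlc : l ∣ m.choose k := by
    have : Fact l.Prime := ⟨hl⟩
    have h1 := Choose.choose_modEq_choose_mod_mul_choose_div_nat (n := m) (k := k) (p := l)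
    rw [Nat.mod_eq_of_lt hkl, Nat.div_eq_of_lt hkl, Nat.choose_zero_right, mul_one,
      Nat.choose_eq_zero_of_lt h3] at h1
    exact (Nat.modEq_zero_iff_dvd).1 h1
  have hlr : l ≤ r := hrmax l hl (hnc ▸ hlc)
  have hkr : k < r := by omega
  have hrc : r ∣ m.choose k := hnc ▸ hrn
  have hmr : m % r < k := Cfsg.Agent.H394.SqNum.mod_lt_of_dvd_choose hr hkr hrc
  have hrm : r ≤ m := by
    by_contra hcon
    push Not at hcon
    rw [Nat.mod_eq_of_lt hcon] at hmr
    omega
  obtain ⟨g, hg, ho⟩ : ∃ g : alternatingGroup (Fin m),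
      (g : Perm (Fin m)).cycleType = Multiset.replicate (m / r) r ∧ orderOf g = r := by
    by_cases h2 : r = 2
    · obtain ⟨a, ha⟩ : ∃ a, m = 2 ^ a := by
        have hk1 : k = 1 := by omega
        have h4 : ∀ p : ℕ, p.Prime → p ∣ m → p = 2 := by
          intro p hp hpm
          have h5 := hrmax p hp (by rw [hnc, hk1, Nat.choose_one_right]; exact hpm)
          have := hp.two_le
          omega
        exact ⟨_, Nat.eq_prime_pow_of_unique_prime_dvd (by omega) (fun {d} hd hdm => h4 d hd hdm)⟩
      rw [h2]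
      exact Cfsg.Agent.H278.El.Alt.exists_full_two hm ha
    · exact exists_full m r hr h2 hrm
  refine ⟨g, g.2, by rw [Subgroup.orderOf_coe]; exact ho, ?_⟩
  intro x hx
  set h := x * (g : Perm (Fin m)) * x⁻¹ with hh
  have hct : h.cycleType = Multiset.replicate (m / r) r := by
    rw [hh, cycleType_conj, hg]
  have hhl : h ^ r = 1 := by
    rw [hh, conj_pow]
    have : (g : Perm (Fin m)) ^ r = 1 := by
      rw [← Subgroup.coe_pow, ← ho, pow_orderOf_eq_one]; rfl
    rw [this, mul_one, mul_inv_cancel]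
  have hfix : ∀ x ∈ Δ, h x = x := by
    intro x' hx'
    exact fix_of_lt (G := Perm (Fin m)) hr hhl (Δ : Set (Fin m)) (Finset.finite_toSet Δ)
      (fun y hy => hinv h hx y hy) (by rw [Set.ncard_coe_finset]; exact hkr) x' hx'
  have h1 : Δ ⊆ Finset.univ.filter (fun x => h x = x) := by
    intro x hx
    rw [Finset.mem_filter]
    exact ⟨Finset.mem_univ _, hfix x hx⟩
  have h2 := Finset.card_le_card h1
  rw [card_fixed_of_cycleType hct] at h2
  omega

include hm hA hS hmax hr hn hrn hrmax in
theorem key (hSA : ¬ alternatingGroup (Fin m) ≤ S) :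
    ¬ r ∣ Nat.card S ∨
      ∃ g ∈ alternatingGroup (Fin m), orderOf g = r ∧ ∀ x : Perm (Fin m), x * g * x⁻¹ ∉ S := by
  classical
  have hcn : Nat.card (Fin m) = m := by rw [Nat.card_eq_fintype_card, Fintype.card_fin]
  have hcP : Nat.card (Perm (Fin m)) = m.factorial := by rw [Nat.card_perm, hcn]
  have hGd : Nat.card Gp ∣ m.factorial := hcP ▸ Subgroup.card_subgroup_dvd_card Gp
  have hcA : Nat.card (alternatingGroup (Fin m)) * 2 = m.factorial := by
    have : Nontrivial (Fin m) := Fin.nontrivial_iff_two_le.2 (by omega)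
    have h1 := two_mul_nat_card_alternatingGroup (α := Fin m)
    rw [hcP] at h1
    omega
  have hAd : Nat.card (alternatingGroup (Fin m)) ∣ Nat.card Gp := Subgroup.card_dvd_of_le hA
  have hrS : Nat.card S ∣ Nat.card Gp := Subgroup.card_dvd_of_le hS
  have hnd : n ∣ m.factorial := (Dvd.intro _ hn.symm).trans hGd
  have hrm : r ≤ m := hr.dvd_factorial.1 (hrn.trans hnd)
  have hbig : m < 2 * r → ¬ r ∣ Nat.card S := by
    intro h1 h2
    apply not_sq_dvd_fact hr h1
    refine dvd_trans ?_ hGd
    rw [hn, pow_two]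
    exact mul_dvd_mul hrn h2
  by_cases htr : IsPretransitive S (Fin m)
  · by_cases hpr : IsPreprimitive S (Fin m)
    · by_cases hr2 : r = 2
      · -- `n` is a power of two
        exfalso
        have hG2 : Gp.index ∣ 2 := by
          have : Nontrivial (Fin m) := Fin.nontrivial_iff_two_le.2 (by omega)
          rw [← alternatingGroup.index_eq_two (α := Fin m)]
          exact Subgroup.index_dvd_of_le hA
        have h3 : ¬ 3 ∣ S.index := by
          intro h3
          have h4 := Subgroup.card_mul_index S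
          have h5 := Subgroup.card_mul_index Gp
          rw [← h5, hn, mul_comm n, mul_assoc] at h4
          rw [Nat.eq_of_mul_eq_mul_left Nat.card_pos h4] at h3
          rcases (Nat.prime_three.dvd_mul).1 h3 with h6 | h6
          · have := hrmax 3 Nat.prime_three h6
            omega
          · have := Nat.le_of_dvd (by norm_num) (h6.trans hG2)
            omega
        obtain ⟨c, hc⟩ : ∃ σ : Perm (Fin m), σ.cycleType = {3} := by
          rw [exists_with_cycleType_iff]
          simp only [Multiset.sum_singleton, Multiset.mem_singleton, forall_eq, Fintype.card_fin]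
          omega
        have hc3 : c.IsThreeCycle := hc
        have hpg : IsPGroup 3 (Subgroup.zpowers c) := by
          apply IsPGroup.of_card (n := 1)
          rw [Nat.card_zpowers, hc3.orderOf, pow_one]
        have hf3 : Fact (Nat.Prime 3) := ⟨Nat.prime_three⟩
        obtain ⟨q, hq⟩ := hpg.nonempty_fixed_point_of_prime_not_dvd_card (Perm (Fin m) ⧸ S) h3
        obtain ⟨x, rfl⟩ := QuotientGroup.mk_surjective q
        have h4 := hq ⟨c, Subgroup.mem_zpowers c⟩
        have h5 : x⁻¹ * c * x ∈ S := by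
          change ((c * x : Perm (Fin m)) : Perm (Fin m) ⧸ S) = x at h4
          rw [eq_comm, QuotientGroup.eq] at h4
          rwa [mul_assoc]
        apply hSA
        refine alternatingGroup_le_of_isPreprimitive_of_isThreeCycle_mem hpr (g := x⁻¹ * c * x) ?_ h5
        have h6 : (x⁻¹ * c * x⁻¹⁻¹).cycleType = {3} := by rw [cycleType_conj, hc]
        rwa [inv_inv] at h6
      · by_cases hr3 : r + 3 ≤ m
        · right
          obtain ⟨g, hg⟩ : ∃ σ : Perm (Fin m), σ.cycleType = {r} := by
            rw [exists_with_cycleType_iff]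
            simp only [Multiset.sum_singleton, Multiset.mem_singleton, forall_eq, Fintype.card_fin]
            exact ⟨hrm, hr.two_le⟩
          have hgc : ∀ x : Perm (Fin m), (x * g * x⁻¹).cycleType = {r} := by
            intro x; rw [cycleType_conj, hg]
          have hodd : Odd r := hr.odd_of_ne_two hr2
          refine ⟨g, ?_, ?_, ?_⟩
          · rw [mem_alternatingGroup, sign_of_cycleType, hg, Multiset.sum_singleton, Multiset.card_singleton]
            exact (hodd.add_odd odd_one).neg_one_pow
          · rw [← lcm_cycleType, hg, Multiset.lcm_singleton]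
            simp
          · intro x hx
            apply hSA
            have h1 : (x * g * x⁻¹).IsCycle := by
              rw [← card_cycleType_eq_one, hgc, Multiset.card_singleton]
            have h2 : (x * g * x⁻¹).support.card = r := by
              rw [← sum_cycleType, hgc, Multiset.sum_singleton]
            exact Cfsg.Agent.S0713.result S hpr hr (by rw [Fintype.card_fin]; exact hm)
              (by rw [Fintype.card_fin]; exact hr3) h1 h2 hx
        · left
          apply hbig
          omega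
    · -- imprimitive
      left
      obtain ⟨l, hl, hl1, hl2⟩ := Nat.exists_prime_lt_and_le_two_mul (m / 2) (by omega)
      have hS1 := not_dvd_of_imprim (by omega) S htr hpr hl (by omega)
      have h1 : l ∣ Nat.card Gp := by
        refine dvd_trans ?_ hAd
        have h2 : l ∣ Nat.card (alternatingGroup (Fin m)) * 2 := by
          rw [hcA]; exact hl.dvd_factorial.2 (by omega)
        refine (hl.dvd_mul.1 h2).resolve_right fun h3 => ?_
        have := Nat.le_of_dvd (by norm_num) h3
        omega
      rw [hn] at h1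
      have h2 : l ∣ n := (hl.dvd_mul.1 h1).resolve_right hS1
      have h3 := hrmax l hl h2
      exact not_dvd_of_imprim (by omega) S htr hpr hr (by omega)
  · -- intransitive
    right
    have hex : ∃ x y : Fin m, y ∉ orbit S x := by
      by_contra h
      push Not at h
      apply htr
      exact ⟨fun x y => h x y⟩
    obtain ⟨x, y, hy⟩ := hex
    let Δ : Finset (Fin m) := (orbit S x).toFinset
    have hinv : ∀ g ∈ S, ∀ z ∈ Δ, g z ∈ Δ := by
      intro g hg z hz
      rw [Set.mem_toFinset] at hz ⊢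
      obtain ⟨s, rfl⟩ := hz
      refine ⟨⟨g, hg⟩ * s, ?_⟩
      show ((⟨g, hg⟩ * s : S) • x : Fin m) = _
      rw [mul_smul]
      rfl
    have hinv' : ∀ g ∈ S, ∀ z ∈ Δᶜ, g z ∈ Δᶜ := by
      intro g hg z hz
      rw [Finset.mem_compl] at hz ⊢
      intro h
      apply hz
      have := hinv g⁻¹ (inv_mem hg) _ h
      rw [Equiv.Perm.inv_def, Equiv.symm_apply_apply] at this
      exact this
    have hx : x ∈ Δ := by rw [Set.mem_toFinset]; exact mem_orbit_self x
    have hy' : y ∈ Δᶜ := by rw [Finset.mem_compl, Set.mem_toFinset]; exact hy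
    have hc : Δᶜ.card = m - Δ.card := by rw [Finset.card_compl, Fintype.card_fin]
    have h1 : 1 ≤ Δ.card := Finset.card_pos.2 ⟨x, hx⟩
    have h2 : 1 ≤ Δᶜ.card := Finset.card_pos.2 ⟨y, hy'⟩
    rcases Nat.lt_or_ge m (2 * Δ.card) with h | h
    · exact intrans_key hm Gp S hA hS hmax hr hn hrn hrmax Δᶜ h2 (by omega) hinv'
    · exact intrans_key hm Gp S hA hS hmax hr hn hrn hrmax Δ h1 h hinv

end

end Cfsg.Agent.H344.AltDer
end

-- part: H344/AltDerB
section
/-!
# S3571, degree different from six
-/

set_option autoImplicit false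

namespace Cfsg.Agent.H344.AltDer

open MulAction Equiv Equiv.Perm

section

variable {G Ω : Type*} [Group G] [Finite G] [MulAction G Ω] [FaithfulSMul G Ω] [Finite Ω]

omit [Finite G] [FaithfulSMul G Ω] [Finite Ω] in
/-- an element without conjugates in a point stabiliser has no fixed points -/
theorem no_fix [IsPretransitive G Ω] (ω : Ω) (g : G) (h : ∀ x : G, x⁻¹ * g * x ∉ stabilizer G ω) (ω' : Ω) :
    g • ω' ≠ ω' := by
  intro h1
  obtain ⟨x, rfl⟩ := exists_smul_eq G ω ω'
  apply h x
  rw [mem_stabilizer_iff, mul_smul, mul_smul, h1, inv_smul_smul]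

omit [FaithfulSMul G Ω] [Finite Ω] in
/-- the coprime case -/
theorem of_not_dvd [IsPretransitive G Ω] (ω : Ω) {r : ℕ} (hr : r.Prime) (hrd : r ∣ Nat.card Ω)
    (h : ¬ r ∣ Nat.card (stabilizer G ω)) : ∃ g : G, orderOf g = r ∧ ∀ ω : Ω, g • ω ≠ ω := by
  have := Fact.mk hr
  have h1 : r ∣ Nat.card G := by
    rw [← Subgroup.card_mul_index (stabilizer G ω), index_stabilizer_of_transitive]
    exact hrd.mul_left _
  obtain ⟨g, hg⟩ := exists_prime_orderOf_dvd_card' r h1
  refine ⟨g, hg, no_fix ω g fun x hx => h ?_⟩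
  have h2 : orderOf (⟨x⁻¹ * g * x, hx⟩ : stabilizer G ω) = r := by
    rw [Subgroup.orderOf_mk, ← hg]
    have h3 := MulEquiv.orderOf_eq (MulAut.conj x⁻¹) g
    rwa [MulAut.conj_apply, inv_inv] at h3
  rw [← h2]
  exact orderOf_dvd_natCard _

omit [Finite G] [Finite Ω] in
/-- a normal subgroup contained in a point stabiliser is trivial -/
theorem eq_bot_of_le_stab [IsPretransitive G Ω] (ω : Ω) (N : Subgroup G) [N.Normal] (h : N ≤ stabilizer G ω) :
    N = ⊥ := by
  rw [eq_bot_iff]
  intro t ht
  rw [Subgroup.mem_bot]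
  apply FaithfulSMul.eq_of_smul_eq_smul (α := Ω)
  intro ω'
  obtain ⟨x, rfl⟩ := exists_smul_eq G ω ω'
  have h1 : x⁻¹ * t * x ∈ N := by
    have := ‹N.Normal›.conj_mem t ht x⁻¹
    rwa [inv_inv] at this
  have h2 := h h1
  rw [mem_stabilizer_iff, mul_smul, mul_smul, inv_smul_eq_iff] at h2
  rw [h2, one_smul]

theorem main_ne_six (T : Subgroup G) (hT : T.Normal) (hTc : Subgroup.centralizer (T : Set G) = ⊥) (m : ℕ)
    (hm : 5 ≤ m) (h6 : m ≠ 6)
    (eT : ↥T ≃* ↥(alternatingGroup (Fin m))) (hprim : MulAction.IsPreprimitive G Ω) (hΩ : 2 ≤ Nat.card Ω)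
    (r : ℕ) (hr : r.Prime) (hrd : r ∣ Nat.card Ω) (hmax : ∀ s : ℕ, s.Prime → s ∣ Nat.card Ω → s ≤ r) :
    ∃ g : G, orderOf g = r ∧ ∀ ω : Ω, g • ω ≠ ω := by
  classical
  obtain ⟨k, rfl⟩ : ∃ k, m = k + 2 := ⟨m - 2, by omega⟩
  have hnt : Nontrivial Ω := Finite.one_lt_card_iff_nontrivial.1 (by omega)
  obtain ⟨ψ, hψ, hψc⟩ := Cfsg.Agent.H497.AltId.exists_psi (X := G) (K := T) (m := k) (by omega) eT (by
    intro x
    obtain ⟨σ, hσ⟩ := (Cfsg.Agent.S2119.result (k + 2) (by omega) h6).2 (MulAut.congr eT (MulAut.conjNormal x))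
    refine ⟨σ, fun t => ?_⟩
    have h1 := congrArg Subtype.val (DFunLike.congr_fun hσ (eT t))
    rw [MulAut.conjNormal_apply] at h1
    rw [h1]
    change _ = ((eT (MulAut.conjNormal x (eT.symm (eT t))) : alternatingGroup (Fin (k + 2))) : Perm (Fin (k + 2)))
    rw [eT.symm_apply_apply])
  have hinj : Function.Injective ψ := by
    rw [injective_iff_map_eq_one]
    intro x hx
    have h3 := hψc x hx
    rwa [hTc, Subgroup.mem_bot] at h3
  obtain ⟨ω⟩ : Nonempty Ω := inferInstance
  set H := stabilizer G ω with hH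
  have hco : IsCoatom H := (isCoatom_stabilizer_iff_preprimitive G ω).2 hprim
  have hcard : Nat.card ψ.range = Nat.card Ω * Nat.card (H.map ψ) := by
    rw [← Nat.card_congr (MonoidHom.ofInjective hinj).toEquiv,
      ← Nat.card_congr (H.equivMapOfInjective ψ hinj).toEquiv, ← Subgroup.card_mul_index H,
      hH, index_stabilizer_of_transitive, mul_comm]
  have hA : alternatingGroup (Fin (k + 2)) ≤ ψ.range := by
    intro σ hσ
    exact ⟨eT.symm ⟨σ, hσ⟩, by rw [hψ, eT.apply_symm_apply]⟩
  rcases key hm ψ.range (H.map ψ) hA (Subgroup.map_le_range ψ H) (by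
      intro K hK1 hK2
      have h1 : H ≤ K.comap ψ := Subgroup.map_le_iff_le_comap.1 hK1
      have h2 : (K.comap ψ).map ψ = K := Subgroup.map_comap_eq_self hK2
      rcases hco.le_iff.1 h1 with h3 | h3
      · right
        rw [← h2, h3, MonoidHom.range_eq_map]
      · left
        rw [← h2, h3]) hr hcard hrd hmax (by
      intro h1
      have h2 : T ≤ H := by
        intro t ht
        have h3 : ψ t ∈ H.map ψ := by
          apply h1
          have := hψ ⟨t, ht⟩
          rw [this]
          exact (eT ⟨t, ht⟩).2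
        obtain ⟨h, hh, hht⟩ := h3
        rwa [← hinj hht]
      have h3 := eq_bot_of_le_stab ω T h2
      have h4 := Nat.card_congr eT.toEquiv
      rw [h3, Subgroup.card_bot, nat_card_alternatingGroup, Nat.card_eq_fintype_card, Fintype.card_fin] at h4
      have h5 : (5 : ℕ).factorial ≤ (k + 2).factorial := Nat.factorial_le (by omega)
      have h6 : (5 : ℕ).factorial = 120 := rfl
      omega) with h | ⟨g, hg, ho, hx⟩
  · apply of_not_dvd ω hr hrd
    rwa [← Nat.card_congr (H.equivMapOfInjective ψ hinj).toEquiv] at h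
  · refine ⟨(eT.symm ⟨g, hg⟩ : T), ?_, no_fix ω _ fun x hx' => hx (ψ x)⁻¹ ?_⟩
    · rw [Subgroup.orderOf_coe, MulEquiv.orderOf_eq, Subgroup.orderOf_mk, ho]
    · refine ⟨_, hx', ?_⟩
      rw [map_mul, map_mul, hψ, eT.apply_symm_apply, map_inv, inv_inv]

end

end Cfsg.Agent.H344.AltDer
end

-- part: H344/AltDerC
section
/-!
# S3571, degree six
-/

set_option autoImplicit false

namespace Cfsg.Agent.H344.AltDer

open MulAction Equiv Equiv.Perm

/-- the cycle `(0 1 2 3 4)` -/
def c0 : Perm (Fin 6) := swap 0 1 * swap 1 2 * swap 2 3 * swap 3 4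

/-- two words -/
def w1 (e d : Perm (Fin 6)) : Perm (Fin 6) := d * (e * d * e⁻¹)
/-- two words -/
def w2 (e d : Perm (Fin 6)) : Perm (Fin 6) := e * d * e⁻¹ * d

/-- they are commuting distinct involutions -/
def kl (e d : Perm (Fin 6)) : Bool :=
  decide (w1 e d * w1 e d = 1) && (decide (w2 e d * w2 e d = 1) && (decide (w1 e d ≠ 1) && (decide (w2 e d ≠ 1) &&
    (decide (w1 e d ≠ w2 e d) && decide (w1 e d * w2 e d = w2 e d * w1 e d)))))

set_option maxRecDepth 100000 in
theorem fix_of_inv : ∀ u : Perm (Fin 6), u * u = 1 → sign u = 1 → ∃ x, u x = x := by decide +kernel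

set_option maxRecDepth 100000 in
theorem klein : ∀ d : Perm (Fin 6), d 5 = 5 → d * d * d = 1 → d ≠ 1 →
    kl c0 d = true ∨ kl (c0 * c0) d = true ∨ kl (c0⁻¹) d = true ∨ kl (c0⁻¹ * c0⁻¹) d = true := by decide +kernel

theorem c0_trans : ∀ x y : Fin 6, x ≠ 5 → y ≠ 5 → ∃ j : Fin 5, (c0 ^ (j : ℕ)) x = y := by decide +kernel

theorem c0_five : c0 ^ 5 = 1 := by decide +kernel

/-- two commuting distinct involutions in a finite group -/
theorem four_dvd {X : Type*} [Group X] [Finite X] (M : Subgroup X) {a b : X} (ha : a ∈ M) (hb : b ∈ M)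
    (ha2 : a * a = 1) (hb2 : b * b = 1) (ha1 : a ≠ 1) (hb1 : b ≠ 1) (hab : a ≠ b) (hc : a * b = b * a) :
    4 ∣ Nat.card M := by
  classical
  let K : Subgroup X :=
    { carrier := {1, a, b, a * b}
      one_mem' := by simp
      mul_mem' := by
        have h1 : a * (a * b) = b := by rw [← mul_assoc, ha2, one_mul]
        have h2 : b * (a * b) = a := by rw [hc, ← mul_assoc, hb2, one_mul]
        have h3 : a * b * a = b := by rw [hc, mul_assoc, ha2, mul_one]
        have h4 : a * b * b = a := by rw [mul_assoc, hb2, mul_one]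
        have h5 : a * b * (a * b) = 1 := by rw [← mul_assoc, h3, hb2]
        rintro x y (rfl | rfl | rfl | rfl) (rfl | rfl | rfl | rfl) <;>
          simp only [Set.mem_insert_iff, Set.mem_singleton_iff, mul_one, one_mul, ha2, hb2, h1, h2, h3, h4, h5,
            true_or, or_true] <;> simp [hc]
      inv_mem' := by
        have h1 : a⁻¹ = a := inv_eq_of_mul_eq_one_left ha2
        have h2 : b⁻¹ = b := inv_eq_of_mul_eq_one_left hb2
        rintro x (rfl | rfl | rfl | rfl)
        · simp
        · rw [h1]; simp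
        · rw [h2]; simp
        · rw [mul_inv_rev, h1, h2, ← hc]; simp }
  have hK : K ≤ M := by
    rintro x (rfl | rfl | rfl | rfl)
    · exact M.one_mem
    · exact ha
    · exact hb
    · exact M.mul_mem ha hb
  have hcard : Nat.card K = 4 := by
    have h1 : (K : Set X) = (({1, a, b, a * b} : Finset X) : Set X) := by
      simp [K]
    have h2 : Nat.card K = (({1, a, b, a * b} : Finset X) : Set X).ncard := by
      rw [← h1]; rfl
    rw [h2, Set.ncard_coe_finset]
    have h3 : a ≠ a * b := fun h => hb1 (by rwa [eq_comm, mul_eq_left] at h)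
    have h4 : b ≠ a * b := fun h => ha1 (by rwa [eq_comm, mul_eq_right] at h)
    have h5 : (1 : X) ≠ a * b := fun h => hab (by
      have := eq_inv_of_mul_eq_one_left h.symm
      rw [this]
      exact (eq_inv_of_mul_eq_one_left hb2).symm)
    rw [Finset.card_insert_of_notMem, Finset.card_insert_of_notMem, Finset.card_insert_of_notMem,
      Finset.card_singleton]
    · simpa using h4
    · simp only [Finset.mem_insert, Finset.mem_singleton, not_or]; exact ⟨hab, h3⟩
    · simp only [Finset.mem_insert, Finset.mem_singleton, not_or]; exact ⟨ha1.symm, hb1.symm, h5⟩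
  rw [← hcard]
  exact Subgroup.card_dvd_of_le hK

theorem type_five {c : Perm (Fin 6)} (ho : orderOf c = 5) : c.cycleType = {5} := by
  obtain ⟨j, hj⟩ := cycleType_prime_order (σ := c) (by rw [ho]; norm_num)
  rw [ho] at hj
  have hsum : 5 * (j + 1) ≤ 6 := by
    have h := c.sum_cycleType
    have h2 : c.support.card ≤ 6 := by
      simpa using Finset.card_le_univ c.support
    rw [hj, Multiset.sum_replicate, smul_eq_mul] at h
    omega
  have hj0 : j = 0 := by omega
  rw [hj0] at hj
  exact hj

theorem order_c0 : orderOf c0 = 5 := by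
  have : Fact (Nat.Prime 5) := ⟨Nat.prime_five⟩
  apply orderOf_eq_prime c0_five
  decide

theorem six_sub_aux (M : Subgroup (Perm (Fin 6))) (hM : M ≤ alternatingGroup (Fin 6)) (hc : c0 ∈ M)
    (h3 : 3 ∣ Nat.card M) : 4 ∣ Nat.card M := by
  classical
  by_cases hfix : ∀ g ∈ M, g 5 = 5
  · have hf3 : Fact (Nat.Prime 3) := ⟨Nat.prime_three⟩
    obtain ⟨⟨d, hd⟩, hdo⟩ := exists_prime_orderOf_dvd_card' 3 h3
    rw [Subgroup.orderOf_mk] at hdo
    have hd1 : d ≠ 1 := by
      rintro rfl
      rw [orderOf_one] at hdo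
      norm_num at hdo
    have hd3 : d * d * d = 1 := by
      have h4 := pow_orderOf_eq_one d
      rw [hdo, pow_succ, pow_two] at h4
      exact h4
    have key : ∀ e ∈ M, kl e d = true → 4 ∣ Nat.card M := by
      intro e he hk
      simp only [kl, Bool.and_eq_true, decide_eq_true_eq] at hk
      obtain ⟨k1, k2, k3, k4, k5, k6⟩ := hk
      exact four_dvd M (a := w1 e d) (b := w2 e d)
        (M.mul_mem hd (M.mul_mem (M.mul_mem he hd) (M.inv_mem he)))
        (M.mul_mem (M.mul_mem (M.mul_mem he hd) (M.inv_mem he)) hd) k1 k2 k3 k4 k5 k6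
    rcases klein d (hfix d hd) hd3 hd1 with h | h | h | h
    · exact key _ hc h
    · exact key _ (M.mul_mem hc hc) h
    · exact key _ (M.inv_mem hc) h
    · exact key _ (M.mul_mem (M.inv_mem hc) (M.inv_mem hc)) h
  · push Not at hfix
    obtain ⟨g, hg, hg5⟩ := hfix
    have hall : ∀ x : Fin 6, ∃ h : M, h • (5 : Fin 6) = x := by
      intro x
      by_cases hx : x = 5
      · exact ⟨1, by rw [one_smul, hx]⟩
      · obtain ⟨j, hj⟩ := c0_trans (g 5) x hg5 hx
        exact ⟨⟨c0 ^ (j : ℕ) * g, M.mul_mem (M.pow_mem hc _) hg⟩, hj⟩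
    have htr : IsPretransitive M (Fin 6) := by
      refine ⟨fun x y => ?_⟩
      obtain ⟨a, rfl⟩ := hall x
      obtain ⟨b, rfl⟩ := hall y
      exact ⟨b * a⁻¹, by rw [mul_smul, inv_smul_smul]⟩
    have hidx : ∀ x : Fin 6, Nat.card M = 6 * Nat.card (stabilizer M x) := by
      intro x
      rw [← Subgroup.card_mul_index (stabilizer M x), index_stabilizer_of_transitive,
        Nat.card_eq_fintype_card (α := Fin 6), Fintype.card_fin, mul_comm]
    have h2 : 2 ∣ Nat.card M := by rw [hidx 0]; exact Dvd.dvd.mul_right (by norm_num) _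
    have hf2 : Fact (Nat.Prime 2) := ⟨Nat.prime_two⟩
    obtain ⟨⟨u, hu⟩, huo⟩ := exists_prime_orderOf_dvd_card' 2 h2
    have huo' := huo
    rw [Subgroup.orderOf_mk] at huo
    obtain ⟨x, hx⟩ := fix_of_inv u (by rw [← pow_two, ← huo, pow_orderOf_eq_one]) (mem_alternatingGroup.1 (hM hu))
    have h4 : 2 ∣ Nat.card (stabilizer M x) := by
      have hx' : (⟨u, hu⟩ : M) ∈ stabilizer M x := hx
      have h5 : orderOf (⟨⟨u, hu⟩, hx'⟩ : stabilizer M x) = 2 := by
        rw [Subgroup.orderOf_mk, huo']
      rw [← h5]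
      exact orderOf_dvd_natCard _
    rw [hidx x]
    obtain ⟨c, hc⟩ := h4
    rw [hc]
    exact ⟨3 * c, by ring⟩

/-- subgroups of `A₆` of order divisible by `15` have order divisible by `4` -/
theorem six_sub (M : Subgroup (Perm (Fin 6))) (hM : M ≤ alternatingGroup (Fin 6)) (h5 : 5 ∣ Nat.card M)
    (h3 : 3 ∣ Nat.card M) : 4 ∣ Nat.card M := by
  have hf5 : Fact (Nat.Prime 5) := ⟨Nat.prime_five⟩
  obtain ⟨⟨c, hc⟩, hco⟩ := exists_prime_orderOf_dvd_card' 5 h5
  rw [Subgroup.orderOf_mk] at hco
  have h1 : IsConj c c0 := by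
    rw [isConj_iff_cycleType_eq, type_five hco, type_five order_c0]
  obtain ⟨x, hx⟩ := isConj_iff.1 h1
  have hcard : Nat.card (M.map (MulAut.conj x).toMonoidHom) = Nat.card M :=
    (Nat.card_congr (M.equivMapOfInjective _ (MulAut.conj x).injective).toEquiv).symm
  rw [← hcard]
  apply six_sub_aux
  · rintro _ ⟨g, hg, rfl⟩
    exact (inferInstance : (alternatingGroup (Fin 6)).Normal).conj_mem g (hM hg) x
  · exact ⟨c, hc, hx⟩
  · rw [hcard]; exact h3

section

variable {G Ω : Type*} [Group G] [Finite G] [MulAction G Ω] [FaithfulSMul G Ω] [Finite Ω]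

omit [Finite G] in
theorem card_six (T : Subgroup G) (hT : T.Normal) (hTc : Subgroup.centralizer (T : Set G) = ⊥)
    (eT : ↥T ≃* ↥(alternatingGroup (Fin 6))) : Nat.card G ∣ 1440 := by
  have hinj : Function.Injective (MulAut.conjNormal : G →* MulAut T) := by
    rw [injective_iff_map_eq_one]
    intro x hx
    have h1 : x ∈ Subgroup.centralizer (T : Set G) := by
      rw [Subgroup.mem_centralizer_iff]
      intro t ht
      have h2 := congrArg Subtype.val (DFunLike.congr_fun hx ⟨t, ht⟩)
      rw [MulAut.conjNormal_apply] at h2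
      exact (mul_inv_eq_iff_eq_mul.1 h2).symm
    rwa [hTc, Subgroup.mem_bot] at h1
  have h1 : Nat.card (MulAut T) = 1440 := by
    rw [Nat.card_congr (MulAut.congr eT).toEquiv, Cfsg.Agent.H895.SLT.card_aut_a6]
  rw [← h1]
  exact Subgroup.card_dvd_of_injective _ hinj

theorem main_six (T : Subgroup G) (hT : T.Normal) (hTc : Subgroup.centralizer (T : Set G) = ⊥)
    (eT : ↥T ≃* ↥(alternatingGroup (Fin 6))) (hprim : MulAction.IsPreprimitive G Ω) (hΩ : 2 ≤ Nat.card Ω)
    (r : ℕ) (hr : r.Prime) (hrd : r ∣ Nat.card Ω) (hmax : ∀ s : ℕ, s.Prime → s ∣ Nat.card Ω → s ≤ r) :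
    ∃ g : G, orderOf g = r ∧ ∀ ω : Ω, g • ω ≠ ω := by
  classical
  have hnt : Nontrivial Ω := Finite.one_lt_card_iff_nontrivial.1 (by omega)
  obtain ⟨ω⟩ : Nonempty Ω := inferInstance
  have hcA : Nat.card (alternatingGroup (Fin 6)) = 360 := by
    rw [nat_card_alternatingGroup, Nat.card_eq_fintype_card, Fintype.card_fin]; rfl
  have hcT : Nat.card T = 360 := by rw [Nat.card_congr eT.toEquiv, hcA]
  have hcG := card_six T hT hTc eT
  set H := stabilizer G ω with hH
  have hGn : Nat.card G = Nat.card Ω * Nat.card H := by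
    rw [← Subgroup.card_mul_index H, hH, index_stabilizer_of_transitive, mul_comm]
  have hTb : T ≠ ⊥ := by
    rintro rfl
    rw [Subgroup.card_bot] at hcT
    norm_num at hcT
  have htrT : IsPretransitive T Ω := by
    apply IsQuasiPreprimitive.isPretransitive_of_normal
    intro h1
    apply hTb
    apply eq_bot_of_le_stab ω T
    intro t ht
    have h2 : ω ∈ fixedPoints T Ω := by rw [h1]; trivial
    exact h2 ⟨t, ht⟩
  set M := stabilizer T ω with hM
  have hTn : Nat.card Ω * Nat.card M = 360 := by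
    rw [← hcT, ← Subgroup.card_mul_index M, hM, index_stabilizer_of_transitive, mul_comm]
  have hr5 : r ≤ 5 := by
    have h1 : r ∣ 360 := hrd.trans (Dvd.intro _ hTn)
    have h2 : r ∣ 2 ^ 3 * 3 ^ 2 * 5 := by norm_num; exact h1
    rcases (hr.dvd_mul).1 h2 with h3 | h3
    · rcases (hr.dvd_mul).1 h3 with h4 | h4
      · have := Nat.le_of_dvd (by norm_num) (hr.dvd_of_dvd_pow h4); omega
      · have := Nat.le_of_dvd (by norm_num) (hr.dvd_of_dvd_pow h4); omega
    · exact Nat.le_of_dvd (by norm_num) h3
  by_cases h5 : 5 ∣ Nat.card Ω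
  · have hr5' : r = 5 := le_antisymm hr5 (hmax 5 Nat.prime_five h5)
    subst hr5'
    apply of_not_dvd ω hr hrd
    intro h
    have h1 : 5 * 5 ∣ 1440 := (mul_dvd_mul h5 h).trans (hGn ▸ hcG)
    revert h1
    decide
  · have h5M : 5 ∣ Nat.card M := by
      have h1 : 5 ∣ Nat.card Ω * Nat.card M := by rw [hTn]; norm_num
      exact (Nat.prime_five.dvd_mul.1 h1).resolve_left h5
    by_cases h3M : 3 ∣ Nat.card M
    · -- `|M| = 60`, `n = 6`
      have h4M : 4 ∣ Nat.card M := by
        have hc1 : Nat.card (((M.map eT.toMonoidHom).map (alternatingGroup (Fin 6)).subtype)) = Nat.card M := by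
          rw [← Nat.card_congr (Subgroup.equivMapOfInjective _ _ (Subgroup.subtype_injective _)).toEquiv,
            ← Nat.card_congr (Subgroup.equivMapOfInjective M eT.toMonoidHom eT.injective).toEquiv]
        rw [← hc1]
        apply six_sub
        · rintro _ ⟨g, -, rfl⟩
          exact g.2
        · rw [hc1]; exact h5M
        · rw [hc1]; exact h3M
      have h60 : 60 ∣ Nat.card M := by
        have h1 : 15 ∣ Nat.card M := Nat.Coprime.mul_dvd_of_dvd_of_dvd (by norm_num) h5M h3M
        exact Nat.Coprime.mul_dvd_of_dvd_of_dvd (m := 15) (n := 4) (by norm_num) h1 h4M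
      obtain ⟨c, hc⟩ := h60
      have hnc : Nat.card Ω * c = 6 := by
        rw [hc] at hTn
        have : 60 * (Nat.card Ω * c) = 60 * 6 := by rw [← mul_assoc, mul_comm 60, mul_assoc, hTn]
        exact Nat.eq_of_mul_eq_mul_left (by norm_num) this
      have hfact : 360 ∣ (Nat.card Ω).factorial := by
        have hinj : Function.Injective (MulAction.toPermHom T Ω) := MulAction.toPerm_injective
        rw [← hcT, ← Nat.card_perm]
        exact Subgroup.card_dvd_of_injective _ hinj
      have hn6 : Nat.card Ω = 6 := by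
        have h1 : Nat.card Ω ∣ 6 := Dvd.intro _ hnc
        have h2 := Nat.le_of_dvd (by norm_num) h1
        generalize Nat.card Ω = n at *
        interval_cases n
        · revert hfact; decide
        · revert hfact; decide
        · revert h1; decide
        · revert h1; decide
        · rfl
      have hr3 : r = 3 := by
        have h1 := hmax 3 Nat.prime_three (by rw [hn6]; norm_num)
        rw [hn6] at hrd
        interval_cases r
        · rfl
        · revert hrd; decide
        · revert hrd; decide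
      subst hr3
      have e : Ω ≃ Fin 6 := Finite.equivFinOfCardEq hn6
      let φ : T →* Perm (Fin 6) := (e.permCongrHom.toMonoidHom).comp (MulAction.toPermHom T Ω)
      have hφ : Function.Injective φ := e.permCongrHom.injective.comp MulAction.toPerm_injective
      have hrange : φ.range = alternatingGroup (Fin 6) := by
        apply Equiv.Perm.eq_alternatingGroup_of_index_eq_two
        have h1 := Subgroup.card_mul_index φ.range
        rw [← Nat.card_congr (MonoidHom.ofInjective hφ).toEquiv, hcT, Nat.card_perm, Nat.card_eq_fintype_card,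
          Fintype.card_fin] at h1
        have h2 : (6 : ℕ).factorial = 720 := rfl
        omega
      obtain ⟨g, hg, hgo⟩ := Cfsg.Agent.H394.SqAlt.exists_full 6 3 Nat.prime_three (by norm_num) (by norm_num)
      obtain ⟨t, ht⟩ : (g : Perm (Fin 6)) ∈ φ.range := by rw [hrange]; exact g.2
      refine ⟨t, ?_, fun ω' hω' => ?_⟩
      · rw [Subgroup.orderOf_coe, ← orderOf_injective φ hφ t, ht, Subgroup.orderOf_coe, hgo]
      · have h1 := Cfsg.Agent.H394.SqAlt.card_fixed_of_cycleType hg
        have h2 : e ω' ∈ Finset.univ.filter (fun x => (g : Perm (Fin 6)) x = x) := by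
          rw [Finset.mem_filter]
          refine ⟨Finset.mem_univ _, ?_⟩
          rw [← ht]
          change e ((t : G) • (e.symm (e ω'))) = e ω'
          rw [e.symm_apply_apply, hω']
        have h3 := Finset.card_pos.2 ⟨_, h2⟩
        omega
    · have h9 : 3 ∣ Nat.card Ω := by
        have h1 : 3 ∣ Nat.card Ω * Nat.card M := by rw [hTn]; norm_num
        exact (Nat.prime_three.dvd_mul.1 h1).resolve_right h3M
      have hr3 : r = 3 := by
        have h1 := hmax 3 Nat.prime_three h9
        interval_cases r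
        · rfl
        · exact absurd hr (by norm_num)
        · exact absurd hrd h5
      subst hr3
      have hf3 : Fact (Nat.Prime 3) := ⟨Nat.prime_three⟩
      obtain ⟨t, ht⟩ := exists_prime_orderOf_dvd_card' (G := T) 3 (by rw [hcT]; norm_num)
      refine ⟨t, by rw [Subgroup.orderOf_coe, ht], no_fix ω _ fun x hx => h3M ?_⟩
      have h1 : x⁻¹ * t * x ∈ T := by
        have := hT.conj_mem t t.2 x⁻¹
        rwa [inv_inv] at this
      have h2 : (⟨x⁻¹ * t * x, h1⟩ : T) ∈ M := hx
      have h3 : orderOf (⟨⟨x⁻¹ * t * x, h1⟩, h2⟩ : M) = 3 := by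
        rw [Subgroup.orderOf_mk, Subgroup.orderOf_mk]
        have h3 := MulEquiv.orderOf_eq (MulAut.conj x⁻¹) (t : G)
        rw [MulAut.conj_apply, inv_inv, Subgroup.orderOf_coe, ht] at h3
        exact h3
      rw [← h3]
      exact orderOf_dvd_natCard _

end

end Cfsg.Agent.H344.AltDer
end

-- part: S3571
section
set_option autoImplicit false
open Cfsg

namespace Cfsg.Agent.S3571

/-- Let G be an almost simple group whose socle is an alternating group of degree m ≥ 5 (G has a normal subgroup T isomorphic to that alternating group with trivial centralizer), acting faithfully and primitively on a finite set Ω with at least two points, and let r be the largest prime divisor of the number of points. Then G contains an element of order r fixing no point. -/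
theorem result {G Ω : Type*} [Group G] [Finite G] [MulAction G Ω] [FaithfulSMul G Ω] [Finite Ω]
    (T : Subgroup G) (hT : T.Normal) (hTc : Subgroup.centralizer (T : Set G) = ⊥) (m : ℕ) (hm : 5 ≤ m)
    (eT : ↥T ≃* ↥(alternatingGroup (Fin m))) (hprim : MulAction.IsPreprimitive G Ω) (hΩ : 2 ≤ Nat.card Ω)
    (r : ℕ) (hr : r.Prime) (hrd : r ∣ Nat.card Ω) (hmax : ∀ s : ℕ, s.Prime → s ∣ Nat.card Ω → s ≤ r) :
    ∃ g : G, orderOf g = r ∧ ∀ ω : Ω, g • ω ≠ ω := by
  by_cases h6 : m = 6
  · subst h6
    exact Cfsg.Agent.H344.AltDer.main_six T hT hTc eT hprim hΩ r hr hrd hmax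
  · exact Cfsg.Agent.H344.AltDer.main_ne_six T hT hTc m hm h6 eT hprim hΩ r hr hrd hmax

end Cfsg.Agent.S3571
end
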