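import Cfsg.Agent.H386.Dih.Num
import Cfsg.Agent.H386.Dih.CRing
import Cfsg.Agent.H386.Dih.OfHull
import Cfsg.Statements.S3572
import Cfsg.Agent.H391.SRing
set_option linter.all false

-- part: H386/Dih/Final
section
/-!
# Primitive Schur rings over dihedral groups are trivial (helper386, for S3572)
-/

set_option autoImplicit false
set_option linter.unusedSectionVars false

namespace Cfsg.Agent.H386.Dih

open DihedralGroup

variable {m : ℕ} [NeZero m] {s : Setoid (DihedralGroup m)}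

theorem ind01 (X : Set (DihedralGroup m)) (x : DihedralGroup m) : ind X x = 0 ∨ ind X x = 1 := by
  by_cases h : x ∈ X
  · exact Or.inr (ind_of_mem h)
  · exact Or.inl (ind_of_not_mem h)

theorem ind_congr {X : Set (DihedralGroup m)} {x y : DihedralGroup m} (h : x ∈ X ↔ y ∈ X) : ind X x = ind X y := by
  by_cases hx : x ∈ X
  · rw [ind_of_mem hx, ind_of_mem (h.1 hx)]
  · rw [ind_of_not_mem hx, ind_of_not_mem (fun hy => hx (h.2 hy))]

/-- the data of an `S`-set with `P`-invariant rotation part -/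
theorem SR.dat (h : SR s) {p : ℕ} (ht : ∀ x y : DihedralGroup m, x ≠ 1 → y ≠ 1 → Dih.gen s (cRel p) x y)
    {Y : Set (DihedralGroup m)} (hY : SS s Y) (hYP : ∀ i z : ZMod m, p • z = 0 → (r i ∈ Y ↔ r (i + z) ∈ Y)) :
    ∃ γ μ, Dat m (fun i => ind Y (r i)) (fun i => ind Y (sr i)) γ μ := by
  have hc : Fn (Dih.gen s (cRel p)) (Dih.conv (ind Y) (ind Y)) :=
    h.conv_mem hY.fn hY.fn (fun i z hz => (ind_congr (hYP i z hz)).symm) (fun i z hz => (ind_congr (hYP i z hz)).symm)
  have hsr : ∀ k : ZMod m, (sr k : DihedralGroup m) ≠ 1 := fun k hk => by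
    rw [one_def] at hk
    cases hk
  refine ⟨Dih.conv (ind Y) (ind Y) 1 - Dih.conv (ind Y) (ind Y) (sr 0), Dih.conv (ind Y) (ind Y) (sr 0),
    fun i => ind01 _ _, fun i => ind01 _ _, fun i => h.sym hY.fn i, ?_, ?_, ?_⟩
  · rw [sub_add_cancel, one_def, conv_r]
  · intro k hk
    rw [← hc _ _ (ht (r k) (sr 0) (r_ne_one hk) (hsr 0)), conv_r]
  · intro k
    rw [← hc _ _ (ht (sr k) (sr 0) (hsr k) (hsr 0)), conv_sr]

theorem sum_pos_of_mem {Y : Set (DihedralGroup m)} {i : ZMod m} (hi : r i ∈ Y) : 0 < ∑ i : ZMod m, ind Y (r i) := by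
  refine Finset.sum_pos' (fun _ _ => ind_nonneg _ _) ⟨i, Finset.mem_univ _, ?_⟩
  rw [ind_of_mem hi]
  norm_num

theorem SR.exists_not_mem (hm : 2 ≤ m) (h : SR s) {Y : Set (DihedralGroup m)} (hY : SS s Y) (hu : Y ≠ Set.univ) :
    ∃ i : ZMod m, r i ∉ Y := by
  by_contra hc
  push Not at hc
  apply hu
  ext x
  refine ⟨fun _ => trivial, fun _ => ?_⟩
  by_cases hx : x = 1
  · rw [hx, one_def]; exact hc 0
  · obtain ⟨i, -, hi⟩ := h.exists_r hm hx
    exact hY _ _ (s.symm hi) (hc i)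

theorem sum_lt_of_not_mem {Y : Set (DihedralGroup m)} {i : ZMod m} (hi : r i ∉ Y) :
    ∑ i : ZMod m, ind Y (r i) < m := by
  have h1 : ∑ i : ZMod m, ind Y (r i) < ∑ _i : ZMod m, (1 : ℤ) := by
    refine Finset.sum_lt_sum (fun j _ => ?_) ⟨i, Finset.mem_univ _, ?_⟩
    · rcases ind01 Y (r j) with h | h <;> rw [h]
      norm_num
    · rw [ind_of_not_mem hi]; norm_num
  rw [Finset.sum_const, Finset.card_univ, ZMod.card, nsmul_eq_mul, mul_one] at h1
  exact h1

theorem SR.all_of_r (hm : 2 ≤ m) (h : SR s) {c : ZMod m} (hc : ∀ i : ZMod m, i ≠ 0 → s (r c) (r i)) :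
    ∀ x y : DihedralGroup m, x ≠ 1 → y ≠ 1 → s x y := by
  have : ∀ x : DihedralGroup m, x ≠ 1 → s (r c) x := by
    intro x hx
    obtain ⟨i, hi, hxi⟩ := h.exists_r hm hx
    exact s.trans (hc i hi) (s.symm hxi)
  exact fun x y hx hy => s.trans (s.symm (this x hx)) (this y hy)

/-- the subgroup of the elements killed by `n` -/
def kerS (m n : ℕ) : AddSubgroup (ZMod m) := (nsmulAddMonoidHom n : ZMod m →+ ZMod m).ker

theorem mem_kerS {n : ℕ} {z : ZMod m} : z ∈ kerS m n ↔ n • z = 0 := by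
  rw [kerS, AddMonoidHom.mem_ker, nsmulAddMonoidHom_apply]

/-- **All `p`-singular rotations are in one class**, `p` odd. -/
theorem SR.odd_class (hm : 2 ≤ m) (h : SR s) (hr : Rat s) {p : ℕ} [hp : Fact p.Prime] (hp2 : p ≠ 2) (hpm : p ∣ m)
    {i j : ZMod m} (hi : p ∣ addOrderOf i) (hj : p ∣ addOrderOf j) : s (r i) (r j) := by
  classical
  obtain ⟨z, hz0, hz⟩ := exists_ker (m := m) hp.out.one_lt hpm
  have ht := (h.cring p).all_of_r hm (c := z) (fun i hi => (h.cring p).cring_trivial hr.gen hp2 hpm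
    (fun i z hz => gen_of ⟨i, z, hz, rfl, rfl⟩) hi hz0 hz)
  obtain ⟨Y, hY1, hY2, hY3⟩ := h.plus hr hp2 hpm (ss_class (s := s) (r z))
  have hzp : p ∣ addOrderOf z := by rw [order_of_ker hz0 hz]
  have hzY : r z ∈ Y := (hY3 z hzp).2 (s.refl _)
  by_cases hu : Y = Set.univ
  · have h1 : ∀ i : ZMod m, p ∣ addOrderOf i → s (r z) (r i) := fun i hi => (hY3 i hi).1 (by rw [hu]; trivial)
    exact s.trans (s.symm (h1 i hi)) (h1 j hj)
  exfalso
  obtain ⟨γ, μ, D⟩ := h.dat ht hY1 hY2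
  obtain ⟨k, hk⟩ := h.exists_not_mem hm hY1 hu
  have h3 := hp.out.two_le
  refine D.odd (kerS m p) (fun i z hz => ?_) ?_ (sum_pos_of_mem hzY) (sum_lt_of_not_mem hk)
  · exact (ind_congr (hY2 i z (mem_kerS.1 hz))).symm
  · have h4 : Nat.card (kerS m p) = p := by
      have h := IsAddCyclic.card_nsmulAddMonoidHom_ker (ZMod m) p
      rw [Nat.card_zmod, Nat.gcd_eq_right hpm] at h
      exact h
    rw [h4]
    omega

/-- the rotations whose order is not a power of two are in one class -/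
theorem SR.nontwo (hm : 2 ≤ m) (h : SR s) (hr : Rat s) {p : ℕ} (hp : p.Prime) (hp2 : p ≠ 2) {i : ZMod m}
    (hi : p ∣ addOrderOf i) : s (r i) (r 1) := by
  have : Fact p.Prime := ⟨hp⟩
  have hpm : p ∣ m := by
    have := addOrderOf_dvd_card (x := i)
    rw [ZMod.card] at this
    exact hi.trans this
  refine h.odd_class hm hr hp2 hpm hi ?_
  rw [ZMod.addOrderOf_one]
  exact hpm

theorem exists_odd_or_pow {n : ℕ} (hn : n ≠ 0) : (∃ p, p.Prime ∧ p ≠ 2 ∧ p ∣ n) ∨ ∃ a, n = 2 ^ a := by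
  by_cases h : ∃ p, p.Prime ∧ p ≠ 2 ∧ p ∣ n
  · exact Or.inl h
  · right
    push Not at h
    exact ⟨_, Nat.eq_prime_pow_of_unique_prime_dvd hn fun {d} hd hdn => by
      by_contra hc
      exact h d hd hc hdn⟩

/-- translation by an involution -/
theorem SR.add_two (hm : 2 ≤ m) (h : SR s) (hr : Rat s) {i z : ZMod m} (hi : i ≠ 0) (hiz : i + z ≠ 0)
    (hz : 2 • z = 0) : s (r i) (r (i + z)) := by
  by_cases hz0 : z = 0
  · rw [hz0, add_zero]
  have : Fact (Nat.Prime 2) := ⟨Nat.prime_two⟩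
  rcases exists_odd_or_pow (addOrderOf_pos i).ne' with ⟨p, hp, hp2, hpi⟩ | ⟨a, ha⟩
  · have h1 : p ∣ addOrderOf (i + z) := by
      have h2 : addOrderOf i ∣ addOrderOf (i + z) * addOrderOf (-z) := by
        have := AddCommute.addOrderOf_add_dvd_mul_addOrderOf (AddCommute.all (i + z) (-z))
        rwa [add_neg_cancel_right] at this
      rw [addOrderOf_neg, order_of_ker (p := 2) hz0 hz] at h2
      rcases hp.dvd_mul.1 (hpi.trans h2) with h3 | h3
      · exact h3
      · exact absurd ((Nat.prime_dvd_prime_iff_eq hp Nat.prime_two).1 h3) hp2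
    exact s.trans (h.nontwo hm hr hp hp2 hpi) (s.symm (h.nontwo hm hr hp hp2 h1))
  · have ha0 : a ≠ 0 := fun h0 => by
      rw [h0, pow_zero, AddMonoid.addOrderOf_eq_one_iff] at ha
      exact hi ha
    have h2i : 2 ∣ addOrderOf i := by rw [ha]; exact dvd_pow_self 2 ha0
    have h3 := order_add_ker_dvd h2i hz
    refine hr _ _ (order_add_ker_eq h2i hz ?_).symm
    rw [ha, Nat.dvd_prime_pow Nat.prime_two] at h3
    obtain ⟨b, -, hb⟩ := h3
    rw [hb]
    refine dvd_pow_self 2 fun h0 => ?_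
    rw [h0, pow_zero, AddMonoid.addOrderOf_eq_one_iff] at hb
    exact hiz hb

/-- the class of an involution, with `1` -/
def cls (s : Setoid (DihedralGroup m)) (c : ZMod m) : Set (DihedralGroup m) := {y | s (r c) y} ∪ {1}

theorem SR.ss_cls (h : SR s) (c : ZMod m) : SS s (cls s c) := (ss_class _).union h.ss_one

theorem SR.cls_add (hm : 2 ≤ m) (h : SR s) (hr : Rat s) {c : ZMod m} (hc0 : c ≠ 0) (hc : 2 • c = 0) {i z : ZMod m}
    (hz : 2 • z = 0) (hi : r i ∈ cls s c) : r (i + z) ∈ cls s c := by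
  have : Fact (Nat.Prime 2) := ⟨Nat.prime_two⟩
  by_cases hz0 : z = 0
  · rwa [hz0, add_zero]
  by_cases hi0 : i = 0
  · left
    rw [hi0, zero_add]
    exact hr _ _ (by rw [order_of_ker (p := 2) hz0 hz, order_of_ker (p := 2) hc0 hc])
  by_cases hiz : i + z = 0
  · right
    rw [hiz, Set.mem_singleton_iff, one_def]
  · exact h.ss_cls c _ _ (h.add_two hm hr hi0 hiz hz) hi

/-- **The ring `C_2` is trivial.** -/
theorem SR.ctwo_trivial (hm : 2 ≤ m) (h : SR s) (hr : Rat s) (hB : ∀ i z : ZMod m, 2 • z = 0 → s (sr i) (sr (i + z)))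
    {c : ZMod m} (hc0 : c ≠ 0) (hc : 2 • c = 0) {i : ZMod m} (hi : i ≠ 0) : s (r c) (r i) := by
  have h1 : cls s c = Set.univ := h.eq_univ (h.ss_cls c) ⟨1, Or.inr rfl⟩ hc0
    (fun a ha => h.cls_add hm hr hc0 hc hc ha) (fun a ha => h.ss_cls c _ _ (hB a c hc) ha)
  have h2 : r i ∈ cls s c := by rw [h1]; trivial
  rcases h2 with h2 | h2
  · exact h2
  · exact absurd h2 (r_ne_one hi)

theorem SR.even (hm : 2 ≤ m) (h : SR s) (hr : Rat s) (h2m : 2 ∣ m) {c : ZMod m} (hc0 : c ≠ 0) (hc : 2 • c = 0)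
    {i : ZMod m} (hi : i ≠ 0) : s (r c) (r i) := by
  classical
  by_cases hu : cls s c = Set.univ
  · have h2 : r i ∈ cls s c := by rw [hu]; trivial
    rcases h2 with h2 | h2
    · exact h2
    · exact absurd h2 (r_ne_one hi)
  exfalso
  have ht := (h.cring 2).all_of_r hm (c := c) (fun i hi => (h.cring 2).ctwo_trivial hm hr.gen
    (fun i z hz => gen_of ⟨i, z, hz, rfl, rfl⟩) hc0 hc hi)
  set Y := cls s c with hYd
  have hY : SS s Y := h.ss_cls c
  have hY2 : ∀ i z : ZMod m, 2 • z = 0 → (r i ∈ Y ↔ r (i + z) ∈ Y) := by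
    intro i z hz
    refine ⟨fun hi => h.cls_add hm hr hc0 hc hz hi, fun hi => ?_⟩
    have h1 := h.cls_add hm hr hc0 hc (z := -z) (by rw [smul_neg, hz, neg_zero]) hi
    rwa [add_neg_cancel_right] at h1
  obtain ⟨γ, μ, D⟩ := h.dat ht hY hY2
  have h0Y : r (0 : ZMod m) ∈ Y := Or.inr (by rw [Set.mem_singleton_iff, one_def])
  obtain ⟨k, hk⟩ := h.exists_not_mem hm hY hu
  have hord : ∀ i j : ZMod m, addOrderOf i = addOrderOf j → (r i ∈ Y ↔ r j ∈ Y) := fun i j hij => hY.iff (hr i j hij)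
  have hnt : ∀ i j : ZMod m, (∃ p, p.Prime ∧ p ≠ 2 ∧ p ∣ addOrderOf i) → (∃ p, p.Prime ∧ p ≠ 2 ∧ p ∣ addOrderOf j) →
      (r i ∈ Y ↔ r j ∈ Y) := by
    rintro i j ⟨p, hp, hp2, hpi⟩ ⟨q, hq, hq2, hqj⟩
    exact hY.iff (s.trans (h.nontwo hm hr hp hp2 hpi) (s.symm (h.nontwo hm hr hq hq2 hqj)))
  -- the largest radical
  by_cases hP : ∀ b : ℕ, ∀ i z : ZMod m, 2 ^ b • z = 0 → (r i ∈ Y ↔ r (i + z) ∈ Y)
  · have hin : ∀ i : ZMod m, r i ∈ Y ↔ i ∈ kerS m (2 ^ m) := by
      have hmem : ∀ i : ZMod m, i ∈ kerS m (2 ^ m) → r i ∈ Y := by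
        intro i hi
        have h1 := (hP m 0 i (mem_kerS.1 hi)).1 h0Y
        rwa [zero_add] at h1
      have hodd : ∀ i : ZMod m, i ∉ kerS m (2 ^ m) → ∃ p, p.Prime ∧ p ≠ 2 ∧ p ∣ addOrderOf i := by
        intro i hi
        rcases exists_odd_or_pow (addOrderOf_pos i).ne' with h1 | ⟨a, ha⟩
        · exact h1
        · exfalso
          apply hi
          rw [mem_kerS, ← addOrderOf_dvd_iff_nsmul_eq_zero, ha]
          apply pow_dvd_pow
          have h2 := addOrderOf_dvd_card (x := i)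
          rw [ZMod.card, ha] at h2
          have h3 := Nat.le_of_dvd (Nat.pos_of_ne_zero (NeZero.ne m)) h2
          exact (Nat.lt_two_pow_self).le.trans h3
      intro i
      refine ⟨fun hi => ?_, hmem i⟩
      by_contra hc
      exact hk ((hnt i k (hodd i hc) (hodd k fun hk' => hk (hmem k hk'))).1 hi)
    refine D.even (kerS m (2 ^ m)) (fun i z hz => (ind_congr (hP m i z (mem_kerS.1 hz))).symm) ?_ h2m
      (sum_pos_of_mem h0Y) (sum_lt_of_not_mem hk) (y := k) (fun hk' => hk ((hin k).2 hk')) ?_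
    · intro z hz
      rw [mem_kerS]
      obtain ⟨n, rfl⟩ : ∃ n, m = n + 1 := ⟨m - 1, by omega⟩
      rw [pow_succ, mul_smul, hz, smul_zero]
    · intro i
      simp only [ind, hin]
  · push Not at hP
    obtain ⟨b, hb, hmin⟩ : ∃ b, (∃ i z : ZMod m, 2 ^ b • z = 0 ∧ ¬(r i ∈ Y ↔ r (i + z) ∈ Y)) ∧
        ∀ a < b, ∀ i z : ZMod m, 2 ^ a • z = 0 → (r i ∈ Y ↔ r (i + z) ∈ Y) := by
      have hP' : ∃ b : ℕ, ∃ i z : ZMod m, 2 ^ b • z = 0 ∧ ¬(r i ∈ Y ↔ r (i + z) ∈ Y) := by
        obtain ⟨b, i, z, h1, h2⟩ := hP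
        refine ⟨b, i, z, h1, ?_⟩
        tauto
      refine ⟨Nat.find hP', Nat.find_spec hP', fun a ha i z hz => ?_⟩
      by_contra hc
      exact Nat.find_min hP' ha ⟨i, z, hz, hc⟩
    obtain ⟨i₀, y, hy, hiy⟩ := hb
    have hb2 : 2 ≤ b := by
      by_contra hc
      have hb1 : b = 0 ∨ b = 1 := by omega
      rcases hb1 with rfl | rfl
      · rw [pow_zero, one_smul] at hy
        rw [hy, add_zero] at hiy
        exact hiy Iff.rfl
      · rw [pow_one] at hy
        exact hiy (hY2 i₀ y hy)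
    obtain ⟨a, rfl⟩ : ∃ a, b = a + 1 := ⟨b - 1, by omega⟩
    have hinv : ∀ i z : ZMod m, 2 ^ a • z = 0 → (r i ∈ Y ↔ r (i + z) ∈ Y) := hmin a (by omega)
    have hya : 2 ^ a • y ≠ 0 := fun h0 => hiy (hinv i₀ y h0)
    have : Fact (Nat.Prime 2) := ⟨Nat.prime_two⟩
    have hory : addOrderOf y = 2 ^ (a + 1) := addOrderOf_eq_prime_pow hya hy
    -- outside `ker 2^(a+1)`
    have hout : ∀ i : ZMod m, 2 ^ (a + 1) • i ≠ 0 → (r i ∈ Y ↔ r (i - y) ∈ Y) := by
      intro i hi
      rcases exists_odd_or_pow (addOrderOf_pos i).ne' with ⟨p, hp, hp2, hpi⟩ | ⟨e, he⟩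
      · refine hnt _ _ ⟨p, hp, hp2, hpi⟩ ⟨p, hp, hp2, ?_⟩
        have h2 : addOrderOf i ∣ addOrderOf (i - y) * addOrderOf y := by
          have := AddCommute.addOrderOf_add_dvd_mul_addOrderOf (AddCommute.all (i - y) y)
          rwa [sub_add_cancel] at this
        rw [hory] at h2
        rcases hp.dvd_mul.1 (hpi.trans h2) with h3 | h3
        · exact h3
        · exact absurd ((Nat.prime_dvd_prime_iff_eq hp Nat.prime_two).1 (hp.dvd_of_dvd_pow h3)) hp2
      · refine hord _ _ ?_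
        have hea : a + 1 < e := by
          by_contra hc
          apply hi
          rw [← addOrderOf_dvd_iff_nsmul_eq_zero, he]
          exact pow_dvd_pow 2 (by omega)
        obtain ⟨f, rfl⟩ : ∃ f, e = f + 1 := ⟨e - 1, by omega⟩
        rw [he]
        have h1 : ∀ n, a + 1 ≤ n → 2 ^ n • y = 0 := by
          intro n hn
          rw [← addOrderOf_dvd_iff_nsmul_eq_zero, hory]
          exact pow_dvd_pow 2 hn
        symm
        apply addOrderOf_eq_prime_pow
        · rw [smul_sub, h1 f (by omega), sub_zero]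
          intro h2
          rw [← addOrderOf_dvd_iff_nsmul_eq_zero, he] at h2
          have := (Nat.pow_dvd_pow_iff_le_right (by norm_num)).1 h2
          omega
        · rw [smul_sub, h1 (f + 1) (by omega), sub_zero, ← he, addOrderOf_nsmul_eq_zero]
    -- inside
    have hin1 : ∀ i : ZMod m, 2 ^ a • i = 0 → r i ∈ Y := by
      intro i hi
      have h1 := (hinv 0 i hi).1 h0Y
      rwa [zero_add] at h1
    have hyY : ∀ i : ZMod m, 2 ^ a • i ≠ 0 → 2 ^ (a + 1) • i = 0 → (r i ∈ Y ↔ r y ∈ Y) := by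
      intro i h1 h2
      exact hord _ _ (by rw [hory, addOrderOf_eq_prime_pow h1 h2])
    have hyn : r y ∉ Y := by
      intro hyY'
      have hall : ∀ i : ZMod m, 2 ^ (a + 1) • i = 0 → r i ∈ Y := by
        intro i hi
        by_cases h1 : 2 ^ a • i = 0
        · exact hin1 i h1
        · exact (hyY i h1 hi).2 hyY'
      apply hiy
      by_cases h1 : 2 ^ (a + 1) • i₀ = 0
      · exact ⟨fun _ => hall _ (by rw [smul_add, h1, hy, add_zero]), fun _ => hall _ h1⟩
      · have h2 := hout (i₀ + y) (by rw [smul_add, hy, add_zero]; exact h1)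
        rw [add_sub_cancel_right] at h2
        exact h2.symm
    refine D.even (kerS m (2 ^ a)) (fun i z hz => (ind_congr (hinv i z (mem_kerS.1 hz))).symm) ?_ h2m
      (sum_pos_of_mem h0Y) (sum_lt_of_not_mem hk) (y := y) (fun hk' => hya (mem_kerS.1 hk')) ?_
    · intro z hz
      rw [mem_kerS]
      obtain ⟨n, rfl⟩ : ∃ n, a = n + 1 := ⟨a - 1, by omega⟩
      rw [pow_succ, mul_smul, hz, smul_zero]
    · intro i
      simp only [mem_kerS]
      by_cases h1 : 2 ^ (a + 1) • i = 0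
      · have h2 : 2 ^ (a + 1) • (i - y) = 0 := by rw [smul_sub, h1, hy, sub_zero]
        have h3 : ∀ j : ZMod m, 2 ^ (a + 1) • j = 0 → ind Y (r j) = if 2 ^ a • j = 0 then 1 else 0 := by
          intro j hj
          by_cases h4 : 2 ^ a • j = 0
          · rw [if_pos h4, ind_of_mem (hin1 j h4)]
          · rw [if_neg h4, ind_of_not_mem]
            intro h5
            exact hyn ((hyY j h4 hj).1 h5)
        rw [h3 i h1, h3 _ h2]
      · have h2 : 2 ^ (a + 1) • (i - y) ≠ 0 := by rw [smul_sub, hy, sub_zero]; exact h1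
        have h3 : ∀ j : ZMod m, 2 ^ (a + 1) • j ≠ 0 → ¬ (2 ^ a • j = 0) := by
          intro j hj h4
          apply hj
          rw [pow_succ, mul_comm, mul_smul, h4, smul_zero]
        rw [if_neg (h3 i h1), if_neg (h3 _ h2), ind_congr (hout i h1)]
        ring

/-- **Primitive Schur rings over dihedral groups are trivial.** -/
theorem SR.trivial (hm : 2 ≤ m) (h : SR s) : ∀ x y : DihedralGroup m, x ≠ 1 → y ≠ 1 → s x y := by
  have hh := h.hull hm
  have hr : Rat (Dih.gen s ordRel) := rat_gen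
  have key : ∃ c : ZMod m, c ≠ 0 ∧ ∀ i : ZMod m, i ≠ 0 → Dih.gen s ordRel (r c) (r i) := by
    by_cases h2 : 2 ∣ m
    · obtain ⟨c, hc0, hc⟩ := exists_ker (m := m) (p := 2) (by norm_num) h2
      exact ⟨c, hc0, fun i hi => hh.even hm hr h2 hc0 hc hi⟩
    · have h1 : (1 : ZMod m) ≠ 0 := by
        intro h0
        have h3 := ZMod.addOrderOf_one m
        rw [h0, addOrderOf_zero] at h3
        omega
      refine ⟨1, h1, fun i hi => ?_⟩
      rcases exists_odd_or_pow (addOrderOf_pos i).ne' with ⟨p, hp, hp2, hpi⟩ | ⟨a, ha⟩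
      · exact (Dih.gen s ordRel).symm (hh.nontwo hm hr hp hp2 hpi)
      · exfalso
        have h3 := addOrderOf_dvd_card (x := i)
        rw [ZMod.card, ha] at h3
        have ha0 : a ≠ 0 := fun h0 => by
          rw [h0, pow_zero, AddMonoid.addOrderOf_eq_one_iff] at ha
          exact hi ha
        exact h2 ((dvd_pow_self 2 ha0).trans h3)
  obtain ⟨c, hc0, hc⟩ := key
  have h1 : ∀ i j : ZMod m, i ≠ 0 → j ≠ 0 → Dih.gen s ordRel (r i) (r j) := fun i j hi hj =>
    (Dih.gen s ordRel).trans ((Dih.gen s ordRel).symm (hc i hi)) (hc j hj)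
  exact h.all_of_r hm (c := c) fun i hi => h.of_hull hm h1 hc0 hi

end Cfsg.Agent.H386.Dih
end

-- part: S3572
section
set_option autoImplicit false
open Cfsg

namespace Cfsg.Agent.S3572

open Cfsg.Agent.H391.SRing Cfsg.Agent.H386.Dih

/-- A finite primitive permutation group containing a dihedral subgroup that acts regularly (transitively with trivial point stabilizers) is doubly transitive. -/
theorem result {G Ω : Type*} [Group G] [Finite G] [MulAction G Ω] [FaithfulSMul G Ω] [Finite Ω]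
    (hprim : MulAction.IsPreprimitive G Ω) (D : Subgroup G) (m : ℕ) (hD : Nonempty (↥D ≃* DihedralGroup m))
    (hDreg : MulAction.IsPretransitive ↥D Ω ∧ ∀ a : Ω, MulAction.stabilizer ↥D a = ⊥) :
    MulAction.IsMultiplyPretransitive G Ω 2 := by
  classical
  obtain ⟨φ⟩ := hD
  have hm0 : m ≠ 0 := by
    rintro rfl
    have h1 : Finite (DihedralGroup 0) := Finite.of_equiv _ φ.toEquiv
    exact not_finite (DihedralGroup 0)
  have : NeZero m := ⟨hm0⟩
  have : Fintype ↥D := Fintype.ofFinite ↥D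
  rcases isEmpty_or_nonempty Ω with hΩ | ⟨⟨ω⟩⟩
  · exact ⟨fun x => (hΩ.false (x 0)).elim⟩
  obtain ⟨ψ, e, he, hA⟩ := exists_hom D ω hDreg.1 hDreg.2
  refine two_transitive_of_rel ψ e he hA ?_
  rcases Nat.lt_or_ge m 2 with hm | hm
  · -- degree two
    have hm1 : m = 1 := by omega
    have hc : Nat.card ↥D = 2 := by
      rw [Nat.card_congr φ.toEquiv, DihedralGroup.nat_card, hm1]
    intro x y hx hy
    obtain ⟨a, b, hab, hu⟩ := Nat.card_eq_two_iff.1 hc
    have h1 : ∀ z : ↥D, z = a ∨ z = b := fun z => by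
      have : z ∈ ({a, b} : Set ↥D) := by rw [hu]; trivial
      exact this
    have hxy : x = y := by
      rcases h1 1 with h2 | h2 <;> rcases h1 x with h3 | h3 <;> rcases h1 y with h4 | h4 <;>
        simp_all
    rw [hxy]
    exact Rel.refl y
  · let s : Setoid (DihedralGroup m) :=
      { r := fun x y => Rel ψ.range (φ.symm x) (φ.symm y)
        iseqv := ⟨fun x => Rel.refl _, fun h => Rel.symm h, fun h h' => Rel.trans h h'⟩ }
    have hFn : ∀ f : DihedralGroup m → ℤ, Fn s f → InvFun ψ.range (fun x => f (φ x)) := by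
      intro f hf σ hσ h1 x
      refine (hf (φ x) (φ (σ x)) ?_).symm
      show Rel ψ.range (φ.symm (φ x)) (φ.symm (φ (σ x)))
      rw [φ.symm_apply_apply, φ.symm_apply_apply]
      exact ⟨σ, hσ, h1, rfl⟩
    have hFn' : ∀ f : DihedralGroup m → ℤ, InvFun ψ.range (fun x => f (φ x)) → Fn s f := by
      rintro f hf x y ⟨σ, hσ, h1, h2⟩
      have h3 := hf σ hσ h1 (φ.symm x)
      rw [h2] at h3
      simpa using h3.symm
    have hSR : SR s := by
      refine ⟨?_, ?_, ?_, ?_⟩
      · intro x hx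
        have h1 : Rel ψ.range (φ.symm x) (φ.symm 1) := hx
        rw [map_one] at h1
        have h2 := rel_one h1
        exact φ.symm.map_eq_one_iff.1 h2
      · intro f g hf hg
        refine hFn' _ ?_
        have h1 := conv_inv hA (hFn f hf) (hFn g hg)
        have h2 : (fun x : ↥D => Cfsg.Agent.H386.Dih.conv f g (φ x)) =
            fun x : ↥D => ∑ u : ↥D, f (φ u) * g (φ (u⁻¹ * x)) := by
          funext x
          rw [Cfsg.Agent.H386.Dih.conv, ← Equiv.sum_comp φ.toEquiv]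
          refine Finset.sum_congr rfl fun u _ => ?_
          show f (φ u) * g ((φ u)⁻¹ * φ x) = _
          rw [map_mul, map_inv]
        rw [h2]
        exact h1
      · intro x y hxy
        have h1 : Rel ψ.range (φ.symm x) (φ.symm y) := hxy
        show Rel ψ.range (φ.symm x⁻¹) (φ.symm y⁻¹)
        rw [map_inv, map_inv]
        exact rel_inv hA h1
      · intro K hK
        have h1 := prim_of_isPreprimitive_aux hprim ψ e he hA (K.comap φ.toMonoidHom) (by
          intro σ hσ h1 x hx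
          refine hK (φ x) (φ (σ x)) ?_ hx
          show Rel ψ.range (φ.symm (φ x)) (φ.symm (φ (σ x)))
          rw [φ.symm_apply_apply, φ.symm_apply_apply]
          exact ⟨σ, hσ, h1, rfl⟩)
        rcases h1 with h1 | h1
        · left
          rw [Subgroup.eq_bot_iff_forall] at h1 ⊢
          intro x hx
          have h2 := h1 (φ.symm x) (by
            rw [Subgroup.mem_comap]
            show φ (φ.symm x) ∈ K
            rwa [φ.apply_symm_apply])
          exact φ.symm.map_eq_one_iff.1 h2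
        · right
          rw [Subgroup.eq_top_iff'] at h1 ⊢
          intro x
          have h2 := h1 (φ.symm x)
          rw [Subgroup.mem_comap] at h2
          have h3 : φ (φ.symm x) ∈ K := h2
          rwa [φ.apply_symm_apply] at h3
    intro x y hx hy
    have h1 : Rel ψ.range (φ.symm (φ x)) (φ.symm (φ y)) :=
      hSR.trivial hm (φ x) (φ y) (fun h => hx (φ.map_eq_one_iff.1 h)) (fun h => hy (φ.map_eq_one_iff.1 h))
    rwa [φ.symm_apply_apply, φ.symm_apply_apply] at h1

end Cfsg.Agent.S3572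
end
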