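import Cfsg.Statements.S3573
set_option linter.all false

set_option autoImplicit false
open Cfsg

namespace Cfsg.Agent.S3573

section
variable {α : Type*} [Fintype α] [DecidableEq α]

/-- The orbit of a moved point under a permutation of prime order, as a finset. -/
theorem exists_orbit (σ : Equiv.Perm α) {r : ℕ} (hr : r.Prime) (hσ : σ ^ r = 1) (x : α) (hx : σ x ≠ x) :
    ∃ O : Finset α, O.card = r ∧ x ∈ O ∧ (∀ y ∈ O, σ y ∈ O) ∧ (∀ y ∈ O, ∃ j : ℕ, y = (σ ^ j) x) := by
  have hper : Function.IsPeriodicPt σ r x := by
    have h1 : (σ ^ r) x = x := by rw [hσ]; rfl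
    rw [Function.IsPeriodicPt, Function.IsFixedPt]
    rw [← Equiv.Perm.coe_pow]; exact h1
  have hmin : Function.minimalPeriod σ x = r := by
    rcases (Nat.dvd_prime hr).1 hper.minimalPeriod_dvd with h | h
    · exact absurd (Function.minimalPeriod_eq_one_iff_isFixedPt.1 h) hx
    · exact h
  refine ⟨(Finset.range r).image (fun j => (σ ^ j) x), ?_, ?_, ?_, ?_⟩
  · rw [Finset.card_image_of_injOn, Finset.card_range]
    intro i hi j hj hij
    have hi' : i < r := by simpa using hi
    have hj' : j < r := by simpa using hj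
    have h2 : (σ : α → α)^[i] x = (σ : α → α)^[j] x := by
      rw [← Equiv.Perm.coe_pow, ← Equiv.Perm.coe_pow]; exact hij
    rw [Function.iterate_eq_iterate_iff_of_lt_minimalPeriod (by rw [hmin]; exact hi') (by rw [hmin]; exact hj')] at h2
    exact h2
  · exact Finset.mem_image.2 ⟨0, by simpa using hr.pos, by simp⟩
  · intro y hy
    obtain ⟨j, hj, rfl⟩ := Finset.mem_image.1 hy
    have hj' : j < r := by simpa using hj
    rcases Nat.lt_or_ge (j + 1) r with h | h
    · exact Finset.mem_image.2 ⟨j + 1, by simpa using h, by simp [pow_succ']⟩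
    · have : j + 1 = r := by omega
      refine Finset.mem_image.2 ⟨0, by simpa using hr.pos, ?_⟩
      have h3 : (σ ^ (j + 1)) x = x := by rw [this, hσ]; rfl
      rw [pow_succ'] at h3
      simpa using h3.symm
  · intro y hy
    obtain ⟨j, hj, rfl⟩ := Finset.mem_image.1 hy
    exact ⟨j, rfl⟩

/-- invariant sets of moved points of all sizes divisible by `r`. -/
theorem exists_inv (σ : Equiv.Perm α) {r : ℕ} (hr : r.Prime) (hσ : σ ^ r = 1) (i : ℕ)
    (hi : r * i ≤ σ.support.card) : ∃ T : Finset α, T ⊆ σ.support ∧ T.card = r * i ∧ ∀ y ∈ T, σ y ∈ T := by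
  induction i with
  | zero => exact ⟨∅, by simp, by simp, by simp⟩
  | succ i ih =>
    obtain ⟨T, hT, hc, hinv⟩ := ih (le_trans (Nat.mul_le_mul_left r (Nat.le_succ i)) hi)
    have hlt : T.card < σ.support.card := by
      have : r * i < r * (i + 1) := Nat.mul_lt_mul_of_pos_left (Nat.lt_succ_self i) hr.pos
      omega
    obtain ⟨x, hxs, hxT⟩ := Finset.exists_mem_notMem_of_card_lt_card hlt
    have hx : σ x ≠ x := Equiv.Perm.mem_support.1 hxs
    obtain ⟨O, hO, hxO, hOinv, hOj⟩ := exists_orbit σ hr hσ x hx
    have hTinv' : T.image σ = T := by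
      apply Finset.eq_of_subset_of_card_le
      · intro y hy
        obtain ⟨z, hz, rfl⟩ := Finset.mem_image.1 hy
        exact hinv z hz
      · rw [Finset.card_image_of_injective _ σ.injective]
    have hback : ∀ y, σ y ∈ T → y ∈ T := by
      intro y hy
      rw [← hTinv'] at hy
      obtain ⟨z, hz, hzy⟩ := Finset.mem_image.1 hy
      rwa [← σ.injective hzy]
    have hback' : ∀ j : ℕ, (σ ^ j) x ∉ T := by
      intro j
      induction j with
      | zero => simpa using hxT
      | succ j ihj =>
        intro h
        rw [pow_succ'] at h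
        exact ihj (hback _ h)
    have hdisj : Disjoint T O := by
      rw [Finset.disjoint_left]
      intro y hy hyO
      obtain ⟨j, rfl⟩ := hOj y hyO
      exact hback' j hy
    refine ⟨T ∪ O, ?_, ?_, ?_⟩
    · intro y hy
      rcases Finset.mem_union.1 hy with h | h
      · exact hT h
      · obtain ⟨j, rfl⟩ := hOj y h
        rw [Equiv.Perm.pow_apply_mem_support]
        exact hxs
    · rw [Finset.card_union_of_disjoint hdisj, hc, hO, Nat.mul_succ]
    · intro y hy
      rcases Finset.mem_union.1 hy with h | h
      · exact Finset.mem_union_left _ (hinv y h)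
      · exact Finset.mem_union_right _ (hOinv y h)

theorem exists_fixed_subset (σ : Equiv.Perm α) {r : ℕ} (hr : r.Prime) (hσ : σ ^ r = 1) (k : ℕ)
    (hk : k ≤ Fintype.card α) (hkr : k % r ≤ Fintype.card α % r) :
    ∃ s : Finset α, s.card = k ∧ s.image σ = s := by
  haveI : Fact r.Prime := ⟨hr⟩
  have hfix : Fintype.card α ≡ σ.supportᶜ.card [MOD r] := by
    have h1 := Equiv.Perm.card_compl_support_modEq (p := r) (n := 1) (σ := σ) (by simpa using hσ)
    exact h1.symm
  have hsum : σ.supportᶜ.card + σ.support.card = Fintype.card α := by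
    rw [Finset.card_compl]
    have := Finset.card_le_univ σ.support
    omega
  obtain ⟨a, ha⟩ : r ∣ σ.support.card := by
    have h2 : σ.supportᶜ.card + σ.support.card ≡ σ.supportᶜ.card + 0 [MOD r] := by
      rw [hsum]; simpa using hfix
    exact (Nat.modEq_zero_iff_dvd).1 (Nat.ModEq.add_left_cancel' _ h2)
  set n := Fintype.card α with hn
  set f := σ.supportᶜ.card with hf
  -- choose the number of cycles
  have hmod : f % r = n % r := hfix.symm
  obtain ⟨i, j, hia, hjf, hkij⟩ : ∃ i j : ℕ, i ≤ a ∧ j ≤ f ∧ k = r * i + j := by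
    rcases Nat.le_total a (k / r) with h | h
    · refine ⟨a, k - r * a, le_rfl, ?_, ?_⟩
      · omega
      · have : r * a ≤ k := le_trans (Nat.mul_le_mul_left r h) (Nat.mul_div_le k r)
        omega
    · refine ⟨k / r, k % r, h, ?_, (Nat.div_add_mod k r).symm⟩
      calc k % r ≤ n % r := hkr
        _ = f % r := hmod.symm
        _ ≤ f := Nat.mod_le _ _
  obtain ⟨T, hT, hTc, hTinv⟩ := exists_inv σ hr hσ i (by rw [ha]; exact Nat.mul_le_mul_left r hia)
  obtain ⟨U, hU, hUc⟩ := Finset.exists_subset_card_eq (s := σ.supportᶜ) (n := j) hjf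
  have hdisj : Disjoint T U := by
    rw [Finset.disjoint_left]
    intro y hy hyU
    exact (Finset.mem_compl.1 (hU hyU)) (hT hy)
  refine ⟨T ∪ U, ?_, ?_⟩
  · rw [Finset.card_union_of_disjoint hdisj, hTc, hUc, hkij]
  · apply Finset.eq_of_subset_of_card_le
    · intro y hy
      obtain ⟨z, hz, rfl⟩ := Finset.mem_image.1 hy
      rcases Finset.mem_union.1 hz with h | h
      · exact Finset.mem_union_left _ (hTinv z h)
      · have : σ z = z := by
          have := Finset.mem_compl.1 (hU h)
          rwa [Equiv.Perm.notMem_support] at this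
        rw [this]
        exact Finset.mem_union_right _ h
    · rw [Finset.card_image_of_injective _ σ.injective]

/-- the number of fixed points in an invariant subset. -/
theorem card_modEq_of_inv (σ : Equiv.Perm α) {r : ℕ} (hr : r.Prime) (hσ : σ ^ r = 1) (s : Finset α)
    (hs : s.image σ = s) : s.card ≡ (s ∩ σ.supportᶜ).card [MOD r] := by
  haveI : Fact r.Prime := ⟨hr⟩
  have hmem : ∀ x, σ x ∈ s ↔ x ∈ s := by
    intro x
    constructor
    · intro h
      rw [← hs] at h
      obtain ⟨z, hz, hzx⟩ := Finset.mem_image.1 h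
      rwa [← σ.injective hzx]
    · intro h
      rw [← hs]
      exact Finset.mem_image_of_mem _ h
  let τ : Equiv.Perm {x // x ∈ s} := σ.subtypePerm (fun x => hmem x)
  have hτ : τ ^ r = 1 := by
    have : ∀ m : ℕ, ∀ x : {x // x ∈ s}, (((τ ^ m) x : {x // x ∈ s}) : α) = (σ ^ m) x := by
      intro m
      induction m with
      | zero => intro x; rfl
      | succ m ih =>
        intro x
        rw [pow_succ', pow_succ']
        simp only [Equiv.Perm.mul_apply]
        rw [← ih x]
        rfl
    ext x
    rw [this r x, hσ]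
    rfl
  have h1 := Equiv.Perm.card_compl_support_modEq (p := r) (n := 1) (σ := τ) (by simpa using hτ)
  rw [Fintype.card_coe] at h1
  have h2 : τ.supportᶜ.card = (s ∩ σ.supportᶜ).card := by
    have h3 : (s ∩ σ.supportᶜ) = τ.supportᶜ.map (Function.Embedding.subtype _) := by
      ext x
      simp only [Finset.mem_inter, Finset.mem_compl, Equiv.Perm.mem_support, not_not, Finset.mem_map,
        Function.Embedding.subtype_apply, Subtype.exists, exists_and_right, exists_eq_right]
      constructor
      · rintro ⟨hx, hfx⟩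
        exact ⟨hx, Subtype.ext hfx⟩
      · rintro ⟨hx, hfx⟩
        exact ⟨hx, congrArg Subtype.val hfx⟩
    rw [h3, Finset.card_map]
  rw [h2] at h1
  exact h1.symm

end

theorem main (n k : ℕ) (hk : 1 ≤ k) (hkn : 2 * k < n) (r : ℕ) (hr : r.Prime) (hrd : r ∣ Nat.choose n k) :
    (∀ σ : Equiv.Perm (Fin n), orderOf σ = r → ∃ s : Finset (Fin n), s.card = k ∧ s.image σ = s) ↔
      k % r ≤ n % r := by
  classical
  have hrn : r ≤ n := by
    by_contra hlt
    have h1 : r ∣ n.factorial := dvd_trans hrd (by
      have := Nat.choose_mul_factorial_mul_factorial (n := n) (k := k) (by omega)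
      exact ⟨k.factorial * (n - k).factorial, by rw [← mul_assoc]; exact this.symm⟩)
    exact hlt ((hr.dvd_factorial).1 h1)
  constructor
  · intro h
    obtain ⟨σ, hσ⟩ : ∃ σ : Equiv.Perm (Fin n), σ.cycleType = Multiset.replicate (n / r) r := by
      rw [Equiv.Perm.exists_with_cycleType_iff]
      refine ⟨?_, ?_⟩
      · rw [Multiset.sum_replicate, smul_eq_mul, Fintype.card_fin]
        exact Nat.div_mul_le_self n r
      · intro a ha
        rw [Multiset.eq_of_mem_replicate ha]
        exact hr.two_le
    have hN : 0 < n / r := Nat.div_pos hrn hr.pos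
    have hord : orderOf σ = r := by
      rw [← Equiv.Perm.lcm_cycleType, hσ]
      obtain ⟨N, hN'⟩ : ∃ N, n / r = N + 1 := ⟨n / r - 1, by omega⟩
      rw [hN', Multiset.replicate_succ, Multiset.lcm_cons]
      apply Nat.dvd_antisymm
      · apply lcm_dvd (dvd_refl r)
        rw [Multiset.lcm_dvd]
        intro b hb
        rw [Multiset.eq_of_mem_replicate hb]
      · exact dvd_lcm_left r _
    have hsupp : σ.support.card = n / r * r := by
      rw [← Equiv.Perm.sum_cycleType, hσ, Multiset.sum_replicate, smul_eq_mul]
    obtain ⟨s, hsc, hs⟩ := h σ hord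
    have hσr : σ ^ r = 1 := by rw [← hord]; exact pow_orderOf_eq_one σ
    have h1 := card_modEq_of_inv σ hr hσr s hs
    have h2 : (s ∩ σ.supportᶜ).card ≤ n % r := by
      calc (s ∩ σ.supportᶜ).card ≤ (σ.supportᶜ).card := Finset.card_le_card Finset.inter_subset_right
        _ = n - n / r * r := by rw [Finset.card_compl, hsupp, Fintype.card_fin]
        _ = n % r := by
          have := Nat.div_add_mod n r
          rw [mul_comm] at this
          omega
    rw [hsc] at h1
    have h3 : k % r = (s ∩ σ.supportᶜ).card % r := h1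
    rw [h3]
    exact le_trans (Nat.mod_le _ _) h2
  · intro h σ hσ
    have hσr : σ ^ r = 1 := by rw [← hσ]; exact pow_orderOf_eq_one σ
    exact exists_fixed_subset σ hr hσr k (by rw [Fintype.card_fin]; omega) (by rw [Fintype.card_fin]; exact h)

/-- Let 1 ≤ k with 2k < n and consider the symmetric group of degree n acting on the k-subsets of an n-set. Let r be a prime dividing the number C(n,k) of k-subsets. If r is odd, then every permutation of order r fixes some k-subset if and only if r ≤ k and the remainder of k modulo r is at most the remainder of n modulo r. If r = 2, then every involution fixes some k-subset if and only if k is even or n is odd. -/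
theorem result (n k : ℕ) (hk : 1 ≤ k) (hkn : 2 * k < n) (r : ℕ) (hr : r.Prime) (hrd : r ∣ Nat.choose n k) :
    (r ≠ 2 → ((∀ σ : Equiv.Perm (Fin n), orderOf σ = r → ∃ s : Finset (Fin n), s.card = k ∧ s.image σ = s) ↔
      (r ≤ k ∧ k % r ≤ n % r))) ∧
    (r = 2 → ((∀ σ : Equiv.Perm (Fin n), orderOf σ = 2 → ∃ s : Finset (Fin n), s.card = k ∧ s.image σ = s) ↔
      (Even k ∨ Odd n))) := by
  have hmain := main n k hk hkn r hr hrd
  refine ⟨?_, ?_⟩
  · intro _
    rw [hmain]
    constructor
    · intro h
      refine ⟨?_, h⟩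
      by_contra hlt
      push Not at hlt
      haveI : Fact r.Prime := ⟨hr⟩
      have h1 : n.choose k ≡ (n % r).choose (k % r) * (n / r).choose (k / r) [MOD r] :=
        Choose.choose_modEq_choose_mod_mul_choose_div_nat
      rw [Nat.div_eq_of_lt hlt, Nat.choose_zero_right, mul_one, Nat.mod_eq_of_lt hlt] at h1
      rw [Nat.mod_eq_of_lt hlt] at h
      have h2 : r ∣ (n % r).choose k := (Nat.modEq_zero_iff_dvd).1
        (h1.symm.trans ((Nat.modEq_zero_iff_dvd).2 hrd))
      have h3 : r ∣ (n % r).factorial := dvd_trans h2 (by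
        have := Nat.choose_mul_factorial_mul_factorial (n := n % r) (k := k) h
        exact ⟨k.factorial * (n % r - k).factorial, by rw [← mul_assoc]; exact this.symm⟩)
      have h4 := (hr.dvd_factorial).1 h3
      have h5 := Nat.mod_lt n hr.pos
      omega
    · exact fun h => h.2
  · intro h2
    subst h2
    rw [hmain]
    constructor
    · intro h
      rcases Nat.even_or_odd k with hke | hko
      · exact Or.inl hke
      · right
        rw [Nat.odd_iff] at hko ⊢
        omega
    · rintro (h | h)
      · rw [Nat.even_iff] at h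
        omega
      · rw [Nat.odd_iff] at h
        omega

end Cfsg.Agent.S3573
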