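import Cfsg.Statements.S3592
import Cfsg.Agent.H404.Nse
import Cfsg.Agent.TwoGenCore.IsoMEleven
import Cfsg.Agent.FooteOdd.SporMEleven
import Cfsg.Agent.SporadicA.M11Sylow
set_option linter.all false

set_option autoImplicit false
open Cfsg

namespace Cfsg.Agent.S3592

open Subgroup

theorem isM11 : Cfsg.IsM11 ↥Cfsg.Spor.M11 :=
  ⟨Cfsg.Agent.FooteOdd.SporMEleven.simple, Cfsg.Agent.FooteOdd.SporMEleven.card⟩

instance factEleven : Fact (Nat.Prime 11) := ⟨by norm_num⟩
instance factFive : Fact (Nat.Prime 5) := ⟨by norm_num⟩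

/-- the arithmetic hypotheses for `7920 = 2^4 * 3^2 * 5 * 11` -/
theorem arith : Cfsg.Agent.H404.Nse.Arith 7920 11 5 where
  dvd := by norm_num
  sq := by norm_num
  lt := by norm_num
  rsq := by norm_num
  big := by norm_num
  ne := by
    intro s a hs h1 h2 ha h
    have h3 : s ∣ 7920 := (dvd_pow_self s ha.ne').trans h
    have h4 : s = 2 ∨ s = 3 := by
      have h5 : s ∣ 2 ^ 4 * 3 ^ 2 * 5 * 11 := by norm_num; exact h3
      rcases (Nat.Prime.dvd_mul hs).1 h5 with h6 | h6
      · rcases (Nat.Prime.dvd_mul hs).1 h6 with h7 | h7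
        · rcases (Nat.Prime.dvd_mul hs).1 h7 with h8 | h8
          · left; exact (Nat.prime_dvd_prime_iff_eq hs Nat.prime_two).1 (hs.dvd_of_dvd_pow h8)
          · right; exact (Nat.prime_dvd_prime_iff_eq hs Nat.prime_three).1 (hs.dvd_of_dvd_pow h8)
        · exact absurd ((Nat.prime_dvd_prime_iff_eq hs factFive.out).1 h7) h2
      · exact absurd ((Nat.prime_dvd_prime_iff_eq hs factEleven.out).1 h6) h1
    rcases h4 with rfl | rfl
    · have h5 : a < 5 := by
        by_contra h6
        push Not at h6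
        have h7 : 2 ^ 5 ∣ 7920 := (Nat.pow_dvd_pow 2 h6).trans h
        norm_num at h7
      interval_cases a <;> decide
    · have h5 : a < 3 := by
        by_contra h6
        push Not at h6
        have h7 : 3 ^ 3 ∣ 7920 := (Nat.pow_dvd_pow 3 h6).trans h
        norm_num at h7
      interval_cases a <;> decide

theorem zpowers_eq {G : Type*} [Group G] [Finite G] (hG : Nat.card G = 7920) (P : Sylow 11 G) :
    ∃ x : G, orderOf x = 11 ∧ (P : Subgroup G) = zpowers x := by
  have h1 : Nat.card P = 11 := Cfsg.Agent.H404.Nse.card_sylow_eq (by rw [hG]; norm_num) (by rw [hG]; norm_num) P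
  obtain ⟨x, hx⟩ := exists_prime_orderOf_dvd_card' (G := P) 11 (dvd_of_eq h1.symm)
  have h2 : orderOf (x : G) = 11 := by rw [Subgroup.orderOf_coe, hx]
  refine ⟨x, h2, ?_⟩
  symm
  apply Subgroup.eq_of_le_of_card_ge
  · rw [zpowers_le]; exact x.2
  · rw [Nat.card_zpowers, h2]; exact h1.le

/-- Let M be the Mathieu group M₁₁ (order 7920). If a finite group G has the same order as M and the same set of values of the function 'number of elements of order n' (taken over the element orders n that occur), then G is isomorphic to M. -/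
theorem result {G : Type*} [Group G] [Finite G]
    (hcard : Nat.card G = Nat.card ↥Cfsg.Spor.M11)
    (hnse : {c : ℕ | 0 < c ∧ ∃ n : ℕ, c = Nat.card {g : G // orderOf g = n}} =
      {c : ℕ | 0 < c ∧ ∃ n : ℕ, c = Nat.card {g : ↥Cfsg.Spor.M11 // orderOf g = n}}) :
    Nonempty (G ≃* ↥Cfsg.Spor.M11) := by
  have hM := isM11
  have hc := hM.2
  have hs : IsSimpleGroup G := by
    refine Cfsg.Agent.H404.Nse.isSimpleGroup_of_nse (p := 11) (r := 5) hcard (by rw [hc]; exact arith)
      ?_ ?_ hnse
    · intro P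
      obtain ⟨x, hx, hP⟩ := zpowers_eq hc P
      rw [hP, Cfsg.Agent.SporadicA.M11Sylow.centralizer_zpowers_eq]
      exact Cfsg.Agent.SporadicA.M11Sylow.mem_centralizer_eleven_iff hM hx
    · intro P
      obtain ⟨x, hx, hP⟩ := zpowers_eq hc P
      rw [hP]
      exact (Cfsg.Agent.SporadicA.M11Sylow.data_eleven hM hx).2.1
  exact Cfsg.Agent.TwoGenCore.IsoMEleven.isoM11 ⟨hs, hcard.trans hc⟩

end Cfsg.Agent.S3592
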