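import Cfsg.Statements.S3595
import Cfsg.Agent.S0377
import Cfsg.Agent.S1664
import Cfsg.Agent.SporadicA.MathieuRecog
import Cfsg.Agent.H405.Nse
set_option linter.all false

set_option autoImplicit false
open Cfsg

namespace Cfsg.Agent.S3595

open Cfsg.Agent.H405 Cfsg.Agent.SporadicA.MathieuRecog

/-- `M23` as a stabiliser. -/
def m23Equiv : ↥Cfsg.Spor.M23 ≃* ↥(MulAction.stabilizer Cfsg.M24 (none : Cfsg.GolayPt)) where
  toFun g := ⟨⟨g.1, ((mem_M23_iff _).1 g.2).1⟩, ((mem_M23_iff _).1 g.2).2⟩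
  invFun g := ⟨g.1.1, (mem_M23_iff _).2 ⟨g.1.2, g.2⟩⟩
  left_inv _ := rfl
  right_inv _ := rfl
  map_mul' _ _ := rfl

theorem simple_M23 : IsSimpleGroup ↥Cfsg.Spor.M23 := by
  have := Cfsg.Agent.S0377.result none
  exact (MulEquiv.isSimpleGroup_congr m23Equiv).2 this

/-- The Sylow 23- and 11-subgroups of a simple group of order 10200960. -/
theorem sylow_facts {G : Type*} [Group G] [Finite G] [IsSimpleGroup G]
    (hcard : Nat.card G = 10200960) [Fact (Nat.Prime 23)] [Fact (Nat.Prime 11)]
    (P : Sylow 23 G) (Q : Sylow 11 G) :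
    (Subgroup.centralizer (P : Set G) = (P : Subgroup G) ∧
      Nat.card (Subgroup.normalizer (P : Set G)) = 23 * 11) ∧
    (Subgroup.centralizer (Q : Set G) = (Q : Subgroup G) ∧
      Nat.card (Subgroup.normalizer (Q : Set G)) = 11 * 5) := by
  have hP : Nat.card (P : Subgroup G) = 23 :=
    Nse.card_sylow_prime (m := 443520) (by rw [hcard]) (by norm_num) P
  have hQ : Nat.card (Q : Subgroup G) = 11 :=
    Nse.card_sylow_prime (m := 927360) (by rw [hcard]) (by norm_num) Q
  have h1 := Cfsg.Agent.M23.Sylow23.centralizer_eq hcard P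
  have h2 := Cfsg.Agent.S1664.eleven hcard Q
  refine ⟨⟨h1, ?_⟩, ⟨h2.1, ?_⟩⟩
  · exact Nse.card_normalizer_of_relIndex hP h1 (Cfsg.Agent.M23.Sylow23.relIndex_eq hcard P)
  · exact Nse.card_normalizer_of_relIndex hQ h2.1 h2.2

theorem arith {n i : ℕ} (hni : n * i = 10200960) (h23 : 23 ∣ n → i ∣ 11) (h11 : 11 ∣ n → i ∣ 5)
    (h23' : ¬ 23 ∣ n → n % 23 = 1) (h11' : ¬ 11 ∣ n → n % 11 = 1) : n = 1 ∨ i = 1 := by
  by_cases a : 23 ∣ n
  · by_cases b : 11 ∣ n
    · right
      have h1 := h23 a
      have h2 := h11 b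
      have h3 := Nat.dvd_gcd h1 h2
      norm_num at h3
      exact h3
    · exfalso
      have h1 := (Nat.dvd_prime (by norm_num)).mp (h23 a)
      rcases h1 with rfl | rfl <;> omega
  · by_cases b : 11 ∣ n
    · exfalso
      have h1 := (Nat.dvd_prime (by norm_num)).mp (h11 b)
      rcases h1 with rfl | rfl <;> omega
    · left
      have h1 := h23' a
      have h2 := h11' b
      have h3 : n % 253 = 1 := by omega
      have h4 : n ∣ 40320 := by
        have h5 : n ∣ 253 * 40320 := by
          rw [show 253 * 40320 = 10200960 by norm_num, ← hni]; exact dvd_mul_right _ _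
        have h6 : Nat.Coprime n 253 := by
          rw [show 253 = 11 * 23 by norm_num]
          exact Nat.Coprime.mul_right ((Nat.Prime.coprime_iff_not_dvd (by norm_num)).mpr b).symm
            ((Nat.Prime.coprime_iff_not_dvd (by norm_num)).mpr a).symm
        exact h6.dvd_of_dvd_mul_left h5
      have h5 : n ≤ 40320 := Nat.le_of_dvd (by norm_num) h4
      obtain ⟨k, rfl⟩ : ∃ k, n = 1 + 253 * k := ⟨n / 253, by omega⟩
      have key : ∀ k < 160, 40320 % (1 + 253 * k) = 0 → k = 0 := by decide +kernel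
      have := key k (by omega) (Nat.mod_eq_zero_of_dvd h4)
      omega

/-- Let M be the Mathieu group M₂₃ (order 10200960). If a finite group G has the same order as M and the same set of values of the function 'number of elements of order n' (taken over the element orders n that occur), then G is isomorphic to M. -/
theorem result {G : Type*} [Group G] [Finite G]
    (hcard : Nat.card G = Nat.card ↥Cfsg.Spor.M23)
    (hnse : {c : ℕ | 0 < c ∧ ∃ n : ℕ, c = Nat.card {g : G // orderOf g = n}} =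
      {c : ℕ | 0 < c ∧ ∃ n : ℕ, c = Nat.card {g : ↥Cfsg.Spor.M23 // orderOf g = n}}) :
    Nonempty (G ≃* ↥Cfsg.Spor.M23) := by
  have hM : Nat.card ↥Cfsg.Spor.M23 = 10200960 := card_M23
  have hs : IsSimpleGroup ↥Cfsg.Spor.M23 := simple_M23
  have hG : Nat.card G = 10200960 := hcard.trans hM
  have f23 : Fact (Nat.Prime 23) := ⟨by norm_num⟩
  have f11 : Fact (Nat.Prime 11) := ⟨by norm_num⟩
  obtain ⟨P⟩ : Nonempty (Sylow 23 ↥Cfsg.Spor.M23) := inferInstance
  obtain ⟨Q⟩ : Nonempty (Sylow 11 ↥Cfsg.Spor.M23) := inferInstance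
  obtain ⟨P'⟩ : Nonempty (Sylow 23 G) := inferInstance
  obtain ⟨Q'⟩ : Nonempty (Sylow 11 G) := inferInstance
  have hP : Nat.card (P : Subgroup ↥Cfsg.Spor.M23) = 23 :=
    Nse.card_sylow_prime (m := 443520) (by rw [hM]) (by norm_num) P
  have hQ : Nat.card (Q : Subgroup ↥Cfsg.Spor.M23) = 11 :=
    Nse.card_sylow_prime (m := 927360) (by rw [hM]) (by norm_num) Q
  have hP' : Nat.card (P' : Subgroup G) = 23 :=
    Nse.card_sylow_prime (m := 443520) (by rw [hG]) (by norm_num) P'
  have hQ' : Nat.card (Q' : Subgroup G) = 11 :=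
    Nse.card_sylow_prime (m := 927360) (by rw [hG]) (by norm_num) Q'
  obtain ⟨⟨hCP, hNP⟩, ⟨hCQ, hNQ⟩⟩ := sylow_facts hM P Q
  have hNP' := (Nse.card_normalizer_eq (by norm_num) hcard hnse P' hP' P hP hCP).trans hNP
  have hNQ' := (Nse.card_normalizer_eq (by norm_num) hcard hnse Q' hQ' Q hQ hCQ).trans hNQ
  have hCP' : Subgroup.centralizer (P' : Set G) = (P' : Subgroup G) := by
    refine Nse.centralizer_eq_of_prime (l := 11) (by norm_num) hP' hNP' ?_
    refine Nse.not_dvd_centralizer (by norm_num) (by norm_num) (by norm_num) (by norm_num) hnse P'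
      hP' hP hCP ?_ (by norm_num)
    refine (Subgroup.card_dvd_of_le (Subgroup.centralizer_le_normalizer _)).trans ?_
    rw [hNP']; norm_num
  have hCQ' : Subgroup.centralizer (Q' : Set G) = (Q' : Subgroup G) := by
    refine Nse.centralizer_eq_of_prime (l := 5) (by norm_num) hQ' hNQ' ?_
    refine Nse.not_dvd_centralizer (by norm_num) (by norm_num) (by norm_num) (by norm_num) hnse Q'
      hQ' hQ hCQ ?_ (by norm_num)
    refine (Subgroup.card_dvd_of_le (Subgroup.centralizer_le_normalizer _)).trans ?_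
    rw [hNQ']; norm_num
  have hsG : IsSimpleGroup G := by
    apply Nse.simple_of_index (by rw [hG]; norm_num)
    intro N hN
    apply arith (N.card_mul_index.trans hG)
    · exact fun h => Nse.index_dvd P' hP' hNP' N h
    · exact fun h => Nse.index_dvd Q' hQ' hNQ' N h
    · exact fun h => Nse.card_normal_mod _ hP' hCP' N h
    · exact fun h => Nse.card_normal_mod _ hQ' hCQ' N h
  exact Cfsg.Agent.S1664.result ⟨hsG, hG⟩

end Cfsg.Agent.S3595
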