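import Cfsg.Statements.S3627
import Cfsg.Agent.H413.JOneSpec
import Cfsg.Agent.H413.SpecProd
set_option linter.all false

set_option autoImplicit false
open Cfsg

namespace Cfsg.Agent.S3627

open Cfsg.Agent.H413.SpecProd

/-- tuples of permutations of three points with equal signs -/
def KS (n : ℕ) : Subgroup (Fin n → Equiv.Perm (Fin 3)) where
  carrier := {x | ∃ ε : ℤˣ, ∀ i, Equiv.Perm.sign (x i) = ε}
  mul_mem' := by
    rintro x y ⟨e, he⟩ ⟨f, hf⟩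
    exact ⟨e * f, fun i => by rw [Pi.mul_apply, map_mul, he, hf]⟩
  one_mem' := ⟨1, fun i => by simp⟩
  inv_mem' := by
    rintro x ⟨e, he⟩
    exact ⟨e⁻¹, fun i => by rw [Pi.inv_apply, map_inv, he]⟩

theorem perm3 : ∀ x : Equiv.Perm (Fin 3), (Equiv.Perm.sign x = 1 → x ^ 3 = 1) ∧
    (Equiv.Perm.sign x = -1 → x ^ 2 = 1) := by decide

theorem KS_pow (n : ℕ) (x : KS n) : x ^ 3 = 1 ∨ x ^ 2 = 1 := by
  obtain ⟨x, e, he⟩ := x
  rcases Int.units_eq_one_or e with h | h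
  · left
    apply Subtype.ext
    funext i
    exact (perm3 (x i)).1 (by rw [he, h])
  · right
    apply Subtype.ext
    funext i
    exact (perm3 (x i)).2 (by rw [he, h])

def c3 (n : ℕ) : KS n := ⟨fun _ => Equiv.swap 0 1 * Equiv.swap 1 2, 1, fun _ => (by decide : Equiv.Perm.sign (Equiv.swap (0 : Fin 3) 1 * Equiv.swap 1 2) = 1)⟩
def c2 (n : ℕ) : KS n := ⟨fun _ => Equiv.swap 0 1, -1, fun _ => (by decide : Equiv.Perm.sign (Equiv.swap (0 : Fin 3) 1) = -1)⟩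

theorem ord_c3 (n : ℕ) (hn : 0 < n) : orderOf (c3 n) = 3 := by
  have : Fact (Nat.Prime 3) := ⟨Nat.prime_three⟩
  refine orderOf_eq_prime (Subtype.ext (funext fun i => ?_)) ?_
  · change (Equiv.swap (0 : Fin 3) 1 * Equiv.swap 1 2) ^ 3 = 1
    decide
  · intro h
    have := congrFun (congrArg Subtype.val h) ⟨0, hn⟩
    revert this
    change (Equiv.swap (0 : Fin 3) 1 * Equiv.swap 1 2) = 1 → False
    decide

theorem ord_c2 (n : ℕ) (hn : 0 < n) : orderOf (c2 n) = 2 := by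
  refine orderOf_eq_prime (Subtype.ext (funext fun i => ?_)) ?_
  · change (Equiv.swap (0 : Fin 3) 1) ^ 2 = 1
    decide
  · intro h
    have := congrFun (congrArg Subtype.val h) ⟨0, hn⟩
    revert this
    change Equiv.swap (0 : Fin 3) 1 = 1 → False
    decide

theorem card_KS (n : ℕ) : n < Nat.card (KS n) := by
  have hinj : Function.Injective (fun f : Fin n → alternatingGroup (Fin 3) =>
      (⟨fun i => (f i : Equiv.Perm (Fin 3)), 1, fun i => Equiv.Perm.mem_alternatingGroup.1 (f i).2⟩ : KS n)) := by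
    intro f g h
    funext i
    exact Subtype.ext (congrFun (congrArg Subtype.val h) i)
  have h1 := Nat.card_le_card_of_injective _ hinj
  have h2 : Nat.card (Fin n → alternatingGroup (Fin 3)) = 3 ^ n := by
    rw [Nat.card_fun, Nat.card_fin, nat_card_alternatingGroup]
    simp [Nat.factorial]
  rw [h2] at h1
  exact lt_of_lt_of_le (Nat.lt_pow_self (by norm_num)) h1

/-- the small factor -/
abbrev HS (n : ℕ) : Type := KS n × DihedralGroup 5

theorem dih_pow (y : DihedralGroup 5) : y ^ 2 = 1 ∨ y ^ 5 = 1 := by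
  revert y
  decide

theorem ord_HS_imp {n k : ℕ} (h : IsOrd (HS n) k) : k ∣ 6 ∨ k ∣ 10 ∨ k ∣ 15 := by
  rw [ord_prod] at h
  obtain ⟨a, b, ⟨x, rfl⟩, ⟨y, rfl⟩, rfl⟩ := h
  rcases KS_pow n x with h1 | h1 <;> rcases dih_pow y with h2 | h2 <;>
    have h3 := orderOf_dvd_of_pow_eq_one h1 <;> have h4 := orderOf_dvd_of_pow_eq_one h2
  · exact Or.inl (Nat.lcm_dvd (h3.trans (by norm_num)) (h4.trans (by norm_num)))
  · exact Or.inr (Or.inr (Nat.lcm_dvd (h3.trans (by norm_num)) (h4.trans (by norm_num))))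
  · exact Or.inl (Nat.lcm_dvd (h3.trans (by norm_num)) (h4.trans (by norm_num)))
  · exact Or.inr (Or.inl (Nat.lcm_dvd (h3.trans (by norm_num)) (h4.trans (by norm_num))))

theorem ord_HS {n k : ℕ} (hn : 0 < n) (h : k ∣ 6 ∨ k ∣ 10 ∨ k ∣ 15) : IsOrd (HS n) k := by
  have h5 : IsOrd (DihedralGroup 5) 5 := ⟨DihedralGroup.r 1, by rw [DihedralGroup.orderOf_r_one]⟩
  have h2 : IsOrd (DihedralGroup 5) 2 := ⟨DihedralGroup.sr 0, by rw [DihedralGroup.orderOf_sr]⟩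
  have k3 : IsOrd (KS n) 3 := ⟨_, ord_c3 n hn⟩
  have k2 : IsOrd (KS n) 2 := ⟨_, ord_c2 n hn⟩
  rcases h with h | h | h
  · exact (ord_prod.2 ⟨3, 2, k3, h2, rfl⟩ : IsOrd (HS n) 6).dvd (by norm_num) h
  · exact (ord_prod.2 ⟨2, 5, k2, h5, rfl⟩ : IsOrd (HS n) 10).dvd (by norm_num) h
  · exact (ord_prod.2 ⟨3, 5, k3, h5, rfl⟩ : IsOrd (HS n) 15).dvd (by norm_num) h

theorem fin_eq : ({1, 2, 3, 5, 6, 7, 10, 11, 15, 19} : Finset ℕ) =
    (Nat.divisors 6 ∪ (Nat.divisors 10 ∪ Nat.divisors 15)) ∪ {7, 11, 19} := by decide +kernel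

theorem ord_J1 {k : ℕ} : IsOrd Spor.J1 k ↔ (k ∣ 6 ∨ k ∣ 10 ∨ k ∣ 15) ∨ k = 7 ∨ k = 11 ∨ k = 19 := by
  rw [IsOrd, Cfsg.Agent.H413.JOneSpec.exists_orderOf_iff, fin_eq, Finset.mem_union, Finset.mem_union,
    Finset.mem_union, Nat.mem_divisors, Nat.mem_divisors, Nat.mem_divisors]
  simp only [Finset.mem_insert, Finset.mem_singleton, ne_eq, OfNat.ofNat_ne_zero, not_false_eq_true, and_true]

theorem perm_lcm {a b c d : ℕ} (ha : IsOrd Spor.J1 a) (hb : IsOrd Spor.J1 b) (hc : IsOrd Spor.J1 c)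
    (hd : IsOrd Spor.J1 d) {n : ℕ} (hn : 0 < n) : ∃ x y z w, IsOrd Spor.J1 x ∧ IsOrd Spor.J1 y ∧ IsOrd Spor.J1 z ∧
      IsOrd (HS n) w ∧ Nat.lcm x (Nat.lcm y (Nat.lcm z w)) = Nat.lcm a (Nat.lcm b (Nat.lcm c d)) := by
  have one : IsOrd (HS n) 1 := ord_HS hn (Or.inl (one_dvd _))
  rcases ord_J1.1 ha with h1 | h1
  · exact ⟨b, c, d, a, hb, hc, hd, ord_HS hn h1, by
      rw [Nat.lcm_comm a, Nat.lcm_assoc, Nat.lcm_assoc]⟩
  rcases ord_J1.1 hb with h2 | h2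
  · exact ⟨a, c, d, b, ha, hc, hd, ord_HS hn h2, by
      rw [Nat.lcm_comm b, Nat.lcm_assoc]⟩
  rcases ord_J1.1 hc with h3 | h3
  · exact ⟨a, b, d, c, ha, hb, hd, ord_HS hn h3, by rw [Nat.lcm_comm d c]⟩
  rcases ord_J1.1 hd with h4 | h4
  · exact ⟨a, b, c, d, ha, hb, hc, ord_HS hn h4, rfl⟩
  have key : a = b ∨ a = c ∨ a = d ∨ b = c ∨ b = d ∨ c = d := by
    rcases h1 with h1 | h1 | h1 <;> rcases h2 with h2 | h2 | h2 <;> rcases h3 with h3 | h3 | h3 <;>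
      rcases h4 with h4 | h4 | h4 <;> omega
  rcases key with h | h | h | h | h | h
  · exact ⟨b, c, d, 1, hb, hc, hd, one, by rw [h, Nat.lcm_one_right, ← Nat.lcm_assoc b b, Nat.lcm_self]⟩
  · exact ⟨b, c, d, 1, hb, hc, hd, one, by
      rw [h, Nat.lcm_one_right, ← Nat.lcm_assoc c b, Nat.lcm_comm c b, Nat.lcm_assoc b c, ← Nat.lcm_assoc c c,
        Nat.lcm_self]⟩
  · exact ⟨b, c, d, 1, hb, hc, hd, one, by
      rw [h, Nat.lcm_one_right, Nat.lcm_comm d, Nat.lcm_assoc b, Nat.lcm_assoc c, Nat.lcm_self]⟩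
  · exact ⟨a, c, d, 1, ha, hc, hd, one, by
      rw [h, Nat.lcm_one_right, ← Nat.lcm_assoc c c, Nat.lcm_self]⟩
  · exact ⟨a, c, d, 1, ha, hc, hd, one, by
      rw [h, Nat.lcm_one_right, Nat.lcm_comm d (Nat.lcm c d), Nat.lcm_assoc c, Nat.lcm_self]⟩
  · exact ⟨a, b, d, 1, ha, hb, hd, one, by
      rw [h, Nat.lcm_one_right, Nat.lcm_self]⟩

/-- Let J be the first Janko group. Then there are finite groups of arbitrarily large order with exactly the same set of element orders as J × J × J × J. -/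
theorem result (N : ℕ) : ∃ (H : Type) (_ : Group H) (_ : Fintype H), N < Fintype.card H ∧
      Set.range (orderOf : H → ℕ) = Set.range (orderOf : ↥Cfsg.Spor.J1 × ↥Cfsg.Spor.J1 × ↥Cfsg.Spor.J1 × ↥Cfsg.Spor.J1 → ℕ) := by
  classical
  have hfin : Finite Spor.J1 := Cfsg.Agent.H413.JOneLocal.fin_J1
  let i : Fintype (Spor.J1 × Spor.J1 × Spor.J1 × HS (N + 1)) := Fintype.ofFinite _
  refine ⟨Spor.J1 × Spor.J1 × Spor.J1 × HS (N + 1), inferInstance, i, ?_, ?_⟩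
  · rw [← Nat.card_eq_fintype_card, Nat.card_prod, Nat.card_prod, Nat.card_prod, Nat.card_prod]
    have h1 := card_KS (N + 1)
    have h2 : 0 < Nat.card Spor.J1 := Nat.card_pos
    have h3 : 0 < Nat.card (DihedralGroup 5) := Nat.card_pos
    calc N < N + 1 := Nat.lt_succ_self N
      _ < Nat.card (KS (N + 1)) := h1
      _ = 1 * (1 * (1 * (Nat.card (KS (N + 1)) * 1))) := by ring
      _ ≤ _ := Nat.mul_le_mul h2 (Nat.mul_le_mul h2 (Nat.mul_le_mul h2 (Nat.mul_le_mul le_rfl h3)))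
  · ext k
    rw [mem_range, mem_range]
    simp only [ord_prod (G := Spor.J1)]
    constructor
    · rintro ⟨a, r, ha, ⟨b, s, hb, ⟨c, d, hc, hd, rfl⟩, rfl⟩, rfl⟩
      exact ⟨a, _, ha, ⟨b, _, hb, ⟨c, d, hc, ord_J1.2 (Or.inl (ord_HS_imp hd)), rfl⟩, rfl⟩, rfl⟩
    · rintro ⟨a, r, ha, ⟨b, s, hb, ⟨c, d, hc, hd, rfl⟩, rfl⟩, rfl⟩
      obtain ⟨x, y, z, w, hx, hy, hz, hw, h⟩ := perm_lcm ha hb hc hd (Nat.succ_pos N)
      exact ⟨x, _, hx, ⟨y, _, hy, ⟨z, w, hz, hw, rfl⟩, rfl⟩, h⟩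

end Cfsg.Agent.S3627
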