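import Mathlib
import Cfsg.Agent.PermutationGroups.SharpThreeEvenMain
import Cfsg.Agent.PermutationGroups.SharplyTwoTransitive
import Cfsg.Agent.H418.Nse
import Cfsg.Statements.S3648
import Cfsg.Agent.H418.PglNse
set_option linter.all false

-- part: H418/SharpSwap
section
/-!
# Sharply 3-transitive groups in which every element swapping two points is an involution (helper418)

They are the groups `PGL(2, F)`.
-/

set_option autoImplicit false

namespace Cfsg.Agent.H418.SharpSwap

open Equiv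
open Cfsg.Agent.PermutationGroups

universe u

theorem core1 {K : Type u} [Finite K] [Nontrivial K]
    (G : Subgroup (Perm (Option K)))
    (h3 : ∀ a b c a' b' c' : Option K, a ≠ b → a ≠ c → b ≠ c → a' ≠ b' → a' ≠ c' → b' ≠ c' →
      ∃ g ∈ G, g a = a' ∧ g b = b' ∧ g c = c')
    (hs : ∀ g ∈ G, ∀ a b c : Option K, a ≠ b → a ≠ c → b ≠ c → g a = a → g b = b → g c = c → g = 1)
    (hw : ∀ g ∈ G, ∀ a b : Option K, a ≠ b → g a = b → g b = a → g * g = 1) :
    ∃ F : Field K, (∀ b : K, ∃ g ∈ G, g none = none ∧ ∀ y : K, g (some y) = some (F.add b y)) ∧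
      (∀ a : K, a ≠ F.zero → ∃ g ∈ G, g none = none ∧ ∀ y : K, g (some y) = some (F.mul a y)) ∧
      (∃ g ∈ G, g none = some F.zero ∧ g (some F.zero) = none ∧
        ∀ y : K, y ≠ F.zero → g (some y) = some (F.inv y)) := by
  classical
  obtain ⟨o, e, hoe'⟩ := exists_pair_ne K
  have he : e ≠ o := hoe'.symm
  have hno : (none : Option K) ≠ some o := by simp
  have hne : (none : Option K) ≠ some e := by simp
  have hoe : (some o : Option K) ≠ some e := fun h => he (Option.some.inj h).symm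
  -- The stabiliser as a group of permutations of `K`
  let T : Subgroup (Perm K) :=
    { carrier := {p | (Equiv.optionCongr p : Perm (Option K)) ∈ G}
      mul_mem' := by
        intro p q hp hq
        show Equiv.optionCongr (p * q) ∈ G
        rw [SharpThreeEvenMain.optionCongr_mul']
        exact G.mul_mem hp hq
      one_mem' := by
        show Equiv.optionCongr (1 : Perm K) ∈ G
        rw [Equiv.optionCongr_one]
        exact G.one_mem
      inv_mem' := by
        intro p hp
        have : (Equiv.optionCongr p⁻¹ : Perm (Option K)) = (Equiv.optionCongr p : Perm (Option K))⁻¹ := by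
          apply eq_inv_of_mul_eq_one_left
          rw [← SharpThreeEvenMain.optionCongr_mul', inv_mul_cancel, Equiv.optionCongr_one]
        show (Equiv.optionCongr p⁻¹ : Perm (Option K)) ∈ G
        rw [this]
        exact G.inv_mem hp }
  have hTmem : ∀ p : Perm K, p ∈ T ↔ (Equiv.optionCongr p : Perm (Option K)) ∈ G := fun p => Iff.rfl
  have hlift : ∀ g ∈ G, g none = none → ∃ p ∈ T, (Equiv.optionCongr p : Perm (Option K)) = g := by
    intro g hg h
    have h1 := map_equiv_removeNone g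
    rw [h, Equiv.swap_self] at h1
    have h2 : ((Equiv.refl (Option K) : Perm (Option K)) * g) = g := rfl
    rw [h2] at h1
    exact ⟨removeNone g, by rw [hTmem, h1]; exact hg, h1⟩
  have hT2 : ∀ a b a' b' : K, a ≠ b → a' ≠ b' → ∃ g ∈ T, g a = a' ∧ g b = b' := by
    intro a b a' b' hab hab'
    obtain ⟨g, hg, h1, h2, h4⟩ := h3 none (some a) (some b) none (some a') (some b') (by simp)
      (by simp) (by simpa using hab) (by simp) (by simp) (by simpa using hab')
    obtain ⟨p, hp, hpg⟩ := hlift g hg h1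
    refine ⟨p, hp, ?_, ?_⟩
    · rw [← hpg] at h2
      exact Option.some.inj h2
    · rw [← hpg] at h4
      exact Option.some.inj h4
  have hTs : ∀ g ∈ T, ∀ a b : K, a ≠ b → g a = a → g b = b → g = 1 := by
    intro g hg a b hab ha hb
    have h1 := hs _ hg none (some a) (some b) (by simp) (by simp) (by simpa using hab) rfl
      (congrArg some ha) (congrArg some hb)
    rw [← Equiv.optionCongr_one] at h1
    exact Equiv.optionCongr_injective h1
  -- the regular normal subgroup
  obtain ⟨N, hNT, hNc, hNt, hTN⟩ : ∃ N : Subgroup (Perm K), N ≤ T ∧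
      (∀ x ∈ N, ∀ y ∈ N, x * y = y * x) ∧ (∀ x, ∃ a ∈ N, a o = x) ∧
      (∀ g ∈ T, ∀ a ∈ N, g * a * g⁻¹ ∈ N) := by
    obtain ⟨N, hNn, hNmem, hNc, hNt, hNcard, hNconj⟩ :=
      SharplyTwoTransitive.exists_regular_normal (G := T) (α := K)
        (by
          intro a b c d hab hcd
          obtain ⟨g, hg, h1, h2⟩ := hT2 a b c d hab hcd
          exact ⟨⟨g, hg⟩, h1, h2⟩)
        (by
          intro g a b hab ha hb
          exact Subtype.ext (hTs g g.2 a b hab ha hb))
    refine ⟨N.map T.subtype, ?_, ?_, ?_, ?_⟩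
    · rintro _ ⟨x, _, rfl⟩
      exact x.2
    · rintro _ ⟨x, hx, rfl⟩ _ ⟨y, hy, rfl⟩
      rw [← map_mul, hNc x hx y hy, map_mul]
    · intro x
      obtain ⟨a, ha, hax⟩ := hNt o x
      exact ⟨_, ⟨a, ha, rfl⟩, hax⟩
    · rintro g hg _ ⟨a, ha, rfl⟩
      exact ⟨⟨g, hg⟩ * a * ⟨g, hg⟩⁻¹, hNn.conj_mem a ha _, rfl⟩
  -- the swapping involution
  obtain ⟨t, htG, ht1, ht2, ht3⟩ := h3 none (some o) (some e) (some o) none (some e) hno hne hoe
    hno.symm hoe hne
  have htt : t * t = 1 := hw t htG _ _ hno ht1 ht2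
  let H : Subgroup (Perm K) := T ⊓ MulAction.stabilizer (Perm K) o
  have hHT : ∀ h ∈ H, h ∈ T := fun h hh => hh.1
  have hH0 : ∀ h ∈ H, h o = o := fun h hh => hh.2
  have hHt : ∀ x, x ≠ o → ∃ h ∈ H, h e = x := by
    intro x hx
    obtain ⟨g, hg, h1, h2⟩ := hT2 o e o x he.symm (Ne.symm hx)
    exact ⟨g, ⟨hg, h1⟩, h2⟩
  -- `t` inverts `H`
  have hinvH : ∀ h ∈ H, t * (Equiv.optionCongr h : Perm (Option K)) * t =
      (Equiv.optionCongr h : Perm (Option K))⁻¹ := by
    intro h hh
    have h1 : ((Equiv.optionCongr h : Perm (Option K)) * t) * ((Equiv.optionCongr h : Perm (Option K)) * t) = 1 := by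
      refine hw _ (G.mul_mem (hHT h hh) htG) none (some o) hno ?_ ?_
      · rw [Perm.mul_apply, ht1]
        show some (h o) = some o
        rw [hH0 h hh]
      · rw [Perm.mul_apply, ht2]
        rfl
    apply eq_inv_of_mul_eq_one_right
    rw [← h1]
    group
  have hHc : ∀ a ∈ H, ∀ b ∈ H, a * b = b * a := by
    intro a ha b hb
    have h1 := hinvH (a * b) (H.mul_mem ha hb)
    have h2 : t * (Equiv.optionCongr (a * b) : Perm (Option K)) * t =
        (t * (Equiv.optionCongr a : Perm (Option K)) * t) * (t * (Equiv.optionCongr b : Perm (Option K)) * t) := by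
      rw [SharpThreeEvenMain.optionCongr_mul']
      have : t * (Equiv.optionCongr a : Perm (Option K)) * t * (t * (Equiv.optionCongr b : Perm (Option K)) * t) =
        t * (Equiv.optionCongr a : Perm (Option K)) * (t * t) * (Equiv.optionCongr b : Perm (Option K)) * t := by
        group
      rw [this, htt, mul_one]
      group
    rw [h2, hinvH a ha, hinvH b hb, ← mul_inv_rev, inv_inj, ← SharpThreeEvenMain.optionCongr_mul'] at h1
    exact (Equiv.optionCongr_injective h1).symm
  obtain ⟨F, hF1, hF2, hF0, hFe⟩ := FieldOfAffine.exists_field N H o e he.symm hNc hNt hHc hH0 hHt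
    (fun h hh a ha => hTN h (hHT h hh) a ha)
  have hinv : ∀ y : K, y ≠ o → t (some y) = some (F.inv y) := by
    intro y hy
    obtain ⟨h, hh, hhy⟩ := hHt y hy
    have h1 : t (some y) = (Equiv.optionCongr h : Perm (Option K))⁻¹ (some e) := by
      rw [← hinvH h hh, Perm.mul_apply, Perm.mul_apply, ht3]
      show t (some y) = t (some (h e))
      rw [hhy]
    have h2 : (Equiv.optionCongr h : Perm (Option K))⁻¹ (some e) = some (h⁻¹ e) := by
      rw [Perm.inv_eq_iff_eq]
      show some e = some (h (h⁻¹ e))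
      exact congrArg some (h.apply_symm_apply e).symm
    rw [h1, h2]
    congr 1
    let _ := F
    have e0 : (0 : K) = o := hF0
    have e1 : (1 : K) = e := hFe
    have h3 : h (h⁻¹ e) = h e * h⁻¹ e := hF2 h hh _
    have h5 : h (h⁻¹ e) = e := h.apply_symm_apply e
    rw [h5, hhy, ← e1] at h3
    rw [← e1]
    have hy0 : y ≠ 0 := by rw [e0]; exact hy
    exact eq_inv_of_mul_eq_one_right h3.symm
  refine ⟨F, ?_, ?_, ?_⟩
  · intro b
    obtain ⟨a, ha, hab⟩ := hNt b
    refine ⟨Equiv.optionCongr a, hNT ha, rfl, ?_⟩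
    intro y
    show some (a y) = _
    rw [hF1 a ha y, hab]
  · intro a ha0
    rw [hF0] at ha0
    obtain ⟨h, hh, hha⟩ := hHt a ha0
    refine ⟨Equiv.optionCongr h, hHT h hh, rfl, ?_⟩
    intro y
    show some (h y) = _
    rw [hF2 h hh y, hha]
  · rw [hF0]
    exact ⟨t, htG, ht1, ht2, hinv⟩

/-- A sharply 3-transitive group in which every element swapping two points is an involution is
some `PGL(2, F)`. -/
theorem main {α : Type*} [Fintype α] {n : ℕ} (hn : 2 ≤ n)
    (hα : Fintype.card α = n + 1) (G : Subgroup (Perm α))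
    (h3 : ∀ a b c a' b' c' : α, a ≠ b → a ≠ c → b ≠ c → a' ≠ b' → a' ≠ c' → b' ≠ c' →
      ∃ g ∈ G, g a = a' ∧ g b = b' ∧ g c = c')
    (hs : ∀ g ∈ G, ∀ a b c : α, a ≠ b → a ≠ c → b ≠ c → g a = a → g b = b → g c = c → g = 1)
    (hw : ∀ g ∈ G, ∀ a b : α, a ≠ b → g a = b → g b = a → g * g = 1) :
    ∃ (F : Type) (_ : Field F) (_ : Fintype F), Fintype.card F = n ∧
      Nonempty (G ≃* Matrix.ProjGenLinGroup (Fin 2) F) := by
  classical
  have hcard : Fintype.card α = Fintype.card (Option (Fin n)) := by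
    rw [hα, Fintype.card_option, Fintype.card_fin]
  let ε : α ≃ Option (Fin n) := Fintype.equivOfCardEq hcard
  let E : Perm α ≃* Perm (Option (Fin n)) := ε.permCongrHom
  have hE : ∀ (g : Perm α) (x : α), E g (ε x) = ε (g x) := by
    intro g x
    show ε (g (ε.symm (ε x))) = ε (g x)
    rw [ε.symm_apply_apply]
  let G' : Subgroup (Perm (Option (Fin n))) := G.map E.toMonoidHom
  have h3' : ∀ a b c a' b' c' : Option (Fin n), a ≠ b → a ≠ c → b ≠ c → a' ≠ b' → a' ≠ c' → b' ≠ c' →
      ∃ g ∈ G', g a = a' ∧ g b = b' ∧ g c = c' := by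
    intro a b c a' b' c' h1 h2 h3a h4 h5 h6
    obtain ⟨g, hg, hga, hgb, hgc⟩ := h3 (ε.symm a) (ε.symm b) (ε.symm c) (ε.symm a') (ε.symm b')
      (ε.symm c') (ε.symm.injective.ne h1) (ε.symm.injective.ne h2) (ε.symm.injective.ne h3a)
      (ε.symm.injective.ne h4) (ε.symm.injective.ne h5) (ε.symm.injective.ne h6)
    refine ⟨E g, ⟨g, hg, rfl⟩, ?_, ?_, ?_⟩
    · have := hE g (ε.symm a)
      rwa [hga, ε.apply_symm_apply, ε.apply_symm_apply] at this
    · have := hE g (ε.symm b)
      rwa [hgb, ε.apply_symm_apply, ε.apply_symm_apply] at this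
    · have := hE g (ε.symm c)
      rwa [hgc, ε.apply_symm_apply, ε.apply_symm_apply] at this
  have key : ∀ (g : Perm α) (x y : Option (Fin n)), E g x = y → g (ε.symm x) = ε.symm y := by
    intro g x y hx
    have h4 := hE g (ε.symm x)
    rw [ε.apply_symm_apply, hx] at h4
    exact (ε.symm_apply_eq.2 h4).symm
  have hs' : ∀ g ∈ G', ∀ a b c : Option (Fin n), a ≠ b → a ≠ c → b ≠ c →
      g a = a → g b = b → g c = c → g = 1 := by
    rintro _ ⟨g, hg, rfl⟩ a b c h1 h2 h3a ha hb hc
    have h7 := hs g hg _ _ _ (ε.symm.injective.ne h1) (ε.symm.injective.ne h2)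
      (ε.symm.injective.ne h3a) (key g a a ha) (key g b b hb) (key g c c hc)
    rw [h7, map_one]
  have hw' : ∀ g ∈ G', ∀ a b : Option (Fin n), a ≠ b → g a = b → g b = a → g * g = 1 := by
    rintro _ ⟨g, hg, rfl⟩ a b h1 ha hb
    have h7 := hw g hg _ _ (ε.symm.injective.ne h1) (key g a b ha) (key g b a hb)
    rw [← map_mul, h7, map_one]
  have : Nontrivial (Fin n) := Fin.nontrivial_iff_two_le.2 hn
  obtain ⟨F, hN, hH, ht⟩ := core1 G' h3' hs' hw'
  refine ⟨Fin n, F, inferInstance, Fintype.card_fin _, ?_⟩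
  let _ := F
  have hcore := SharpThreeEven.core2 (K := Fin n) G' h3' hs' hN hH ht
  obtain ⟨e2⟩ := hcore
  have e1 : G ≃* G' := E.subgroupMap G
  exact ⟨e1.trans e2⟩

end Cfsg.Agent.H418.SharpSwap
end

-- part: H418/PglRecog
section
/-!
# Recognising `PGL(2, q)` from element counts (helper418)

`G` of order `q (q² - 1)`, `q` a power of the odd prime `p`, every element of order divisible by `p` has order `p`,
there are `q² - 1` of them and there are `q²` involutions. Then `G ≃* PGL(2, q)`.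
-/

set_option autoImplicit false

namespace Cfsg.Agent.H418.PglRecog

open Cfsg.Agent.H418.Nse
open scoped Pointwise

universe u

/-- the hypotheses -/
structure Hyp (G : Type u) [Group G] [Finite G] (p f q : ℕ) : Prop where
  hp : p.Prime
  hp2 : p ≠ 2
  hf : f ≠ 0
  hq : q = p ^ f
  hG : Nat.card G = q * (q ^ 2 - 1)
  hord : ∀ g : G, p ∣ orderOf g → orderOf g = p
  hcp : co G p = q ^ 2 - 1
  h2 : co G 2 = q ^ 2

variable {G : Type u} [Group G] [Finite G] {p f q : ℕ}

theorem cent_pow (h : Hyp G p f q) {x y : G} (hx : orderOf x = p) (hc : Commute x y) : y ^ p = 1 := by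
  by_cases hy : p ∣ orderOf y
  · rw [← h.hord y hy]; exact pow_orderOf_eq_one y
  · have hcop : Nat.Coprime (orderOf x) (orderOf y) := by
      rw [hx]; exact (Nat.Prime.coprime_iff_not_dvd h.hp).2 hy
    have h1 := hc.orderOf_mul_eq_mul_orderOf_of_coprime hcop
    have h2 := h.hord (x * y) (by rw [h1, hx]; exact Dvd.intro _ rfl)
    rw [h1, hx] at h2
    have h3 : orderOf y = 1 := Nat.eq_of_mul_eq_mul_left h.hp.pos (h2.trans (mul_one p).symm)
    rw [orderOf_eq_one_iff.1 h3, one_pow]

theorem orderOf_of_pow (h : Hyp G p f q) {y : G} (hy : y ^ p = 1) (h1 : y ≠ 1) : orderOf y = p :=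
  have : Fact p.Prime := ⟨h.hp⟩
  orderOf_eq_prime hy h1

/-- the centraliser of an element of order `p` has order `q`; the elements of order `p` are conjugate -/
theorem card_cent (h : Hyp G p f q) {x : G} (hx : orderOf x = p) :
    Nat.card (Subgroup.centralizer {x}) = q ∧ ∀ y : G, orderOf y = p → IsConj x y := by
  classical
  have := Fintype.ofFinite G
  have hpF : Fact p.Prime := ⟨h.hp⟩
  obtain ⟨h3, hle, hq3, hpq, hnp, hcop⟩ := facts h.hp h.hp2 h.hf h.hq
  have hq9 : 9 ≤ q ^ 2 := by nlinarith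
  have hP : IsPGroup p (Subgroup.centralizer {x}) := by
    intro y
    refine ⟨1, ?_⟩
    rw [pow_one]
    have := cent_pow h hx (Subgroup.mem_centralizer_singleton_iff.1 y.2).symm
    exact Subtype.ext this
  obtain ⟨k, hk⟩ := IsPGroup.iff_card.1 hP
  have hdvd : Nat.card (Subgroup.centralizer {x}) ∣ q := by
    have h4 := Subgroup.card_subgroup_dvd_card (Subgroup.centralizer {x})
    rw [h.hG, hk] at h4
    rw [hk]
    refine Nat.Coprime.dvd_of_dvd_mul_right ?_ h4
    exact Nat.Coprime.pow_left k ((Nat.Prime.coprime_iff_not_dvd h.hp).2 hnp)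
  have hcl := Frob.card_class x
  have hsub : (Finset.univ.filter fun y : G => ConjClasses.mk y = ConjClasses.mk x) ⊆
      Finset.univ.filter fun y : G => orderOf y = p := by
    intro y hy
    rw [Finset.mem_filter] at hy ⊢
    refine ⟨hy.1, ?_⟩
    have h4 := hy.2
    rw [ConjClasses.mk_eq_mk_iff_isConj, isConj_iff] at h4
    obtain ⟨g, hg⟩ := h4
    rw [← hx, ← hg]
    exact (orderOf_injective (MulAut.conj g).toMonoidHom (MulAut.conj g).injective y).symm
  have hcard : (Finset.univ.filter fun y : G => orderOf y = p).card = q ^ 2 - 1 := by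
    have := h.hcp
    unfold co at this
    rwa [Nat.card_eq_fintype_card, Fintype.card_subtype] at this
  have hcl2 := Finset.card_le_card hsub
  rw [hcard] at hcl2
  rw [h.hG] at hcl
  have hCle : Nat.card (Subgroup.centralizer {x}) ≤ q := Nat.le_of_dvd (by omega) hdvd
  have hCeq : Nat.card (Subgroup.centralizer {x}) = q := by
    refine le_antisymm hCle ?_
    have h4 : q * (q ^ 2 - 1) ≤ Nat.card (Subgroup.centralizer {x}) * (q ^ 2 - 1) := by
      rw [← hcl, mul_comm]
      exact Nat.mul_le_mul_left _ hcl2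
    exact Nat.le_of_mul_le_mul_right h4 (by omega)
  refine ⟨hCeq, ?_⟩
  rw [hCeq, mul_comm] at hcl
  have hcl3 := Nat.eq_of_mul_eq_mul_left (by omega : 0 < q) hcl
  have heq := Finset.eq_of_subset_of_card_le hsub (by rw [hcard, hcl3])
  intro y hy
  have h5 : y ∈ Finset.univ.filter fun y : G => orderOf y = p := Finset.mem_filter.2 ⟨Finset.mem_univ _, hy⟩
  rw [← heq, Finset.mem_filter, ConjClasses.mk_eq_mk_iff_isConj] at h5
  exact h5.2.symm

/-- an involution does not commute with an element of order `p` -/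
theorem not_commute_involution (h : Hyp G p f q) {x g : G} (hx : orderOf x = p) (hg : g * g = 1)
    (hc : Commute x g) : g = 1 := by
  have h1 := cent_pow h hx hc
  have hodd : Odd p := h.hp.odd_of_ne_two h.hp2
  obtain ⟨k, hk⟩ := hodd
  rw [hk, pow_add, pow_mul, pow_two, hg, one_pow, one_mul, pow_one] at h1
  exact h1

/-- the centraliser of an element of order `p` is abelian -/
theorem cent_comm (h : Hyp G p f q) {x : G} (hx : orderOf x = p) {a b : G}
    (ha : Commute x a) (hb : Commute x b) : Commute a b := by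
  have hodd : Odd p := h.hp.odd_of_ne_two h.hp2
  obtain ⟨-, hconj⟩ := card_cent h hx
  have hxinv : orderOf x⁻¹ = p := by rw [orderOf_inv, hx]
  obtain ⟨g, hg⟩ := isConj_iff.1 (hconj _ hxinv)
  -- `g²` centralises `x`
  have hg2 : Commute x (g * g) := by
    have h1 : g * g * x * (g * g)⁻¹ = x := by
      calc g * g * x * (g * g)⁻¹ = g * (g * x * g⁻¹) * g⁻¹ := by group
        _ = g * x⁻¹ * g⁻¹ := by rw [hg]
        _ = (g * x * g⁻¹)⁻¹ := by group
        _ = x := by rw [hg, inv_inv]
    have h2 : g * g * x = x * (g * g) := by rw [mul_inv_eq_iff_eq_mul] at h1; exact h1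
    exact h2.symm
  have hgp : (g * g) ^ p = 1 := cent_pow h hx hg2
  have hxne : x ≠ x⁻¹ := by
    intro h1
    have h2 : x ^ 2 = 1 := by rw [pow_two]; nth_rewrite 2 [h1]; exact mul_inv_cancel x
    have h4 := orderOf_dvd_of_pow_eq_one h2
    rw [hx] at h4
    exact h.hp2 ((Nat.prime_dvd_prime_iff_eq h.hp Nat.prime_two).1 h4)
  have hgg : g * g = 1 := by
    by_contra hne
    -- `p` divides the order of `g`
    have h1 : orderOf (g * g) = p := orderOf_of_pow h hgp hne
    have h2 : orderOf (g * g) ∣ orderOf g := by rw [← pow_two]; exact orderOf_pow_dvd 2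
    rw [h1] at h2
    have h4 := h.hord g h2
    have h5 : g ^ p = 1 := by rw [← h4]; exact pow_orderOf_eq_one g
    obtain ⟨k, hk⟩ := hodd
    have h6 : Commute x g := by
      have h7 : g = (g * g) ^ (k + 1) := by
        rw [← pow_two, ← pow_mul, show 2 * (k + 1) = 2 * k + 1 + 1 by ring, ← hk, pow_succ, h5, one_mul]
      rw [h7]
      exact hg2.pow_right _
    apply hxne
    rw [← hg, ← h6.eq]
    group
  have hg1 : g ≠ 1 := by
    rintro rfl
    rw [one_mul, inv_one, mul_one] at hg
    exact hxne hg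
  have hginv : g⁻¹ = g := inv_eq_of_mul_eq_one_right hgg
  -- `g` normalises the centraliser
  have hnorm : ∀ y : G, Commute x y → Commute x (g * y * g⁻¹) := by
    intro y hy
    have h1 : Commute (g * x * g⁻¹) (g * y * g⁻¹) := by
      show g * x * g⁻¹ * (g * y * g⁻¹) = g * y * g⁻¹ * (g * x * g⁻¹)
      calc g * x * g⁻¹ * (g * y * g⁻¹) = g * (x * y) * g⁻¹ := by group
        _ = g * (y * x) * g⁻¹ := by rw [hy.eq]
        _ = _ := by group
    rw [hg] at h1
    exact Commute.inv_left_iff.1 h1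
  let C := Subgroup.centralizer ({x} : Set G)
  let φ : C →* C :=
    { toFun := fun y => ⟨g * y.1 * g⁻¹, Subgroup.mem_centralizer_singleton_iff.2
        (hnorm y.1 (Subgroup.mem_centralizer_singleton_iff.1 y.2).symm).symm⟩
      map_one' := Subtype.ext (by simp)
      map_mul' := fun y z => Subtype.ext (by simp) }
  have hφ : MonoidHom.FixedPointFree φ := by
    intro y hy
    have h1 : g * y.1 * g⁻¹ = y.1 := congrArg Subtype.val hy
    by_contra hne
    have hy1 : y.1 ≠ 1 := fun h2 => hne (Subtype.ext h2)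
    have hyp : orderOf y.1 = p :=
      orderOf_of_pow h (cent_pow h hx (Subgroup.mem_centralizer_singleton_iff.1 y.2).symm) hy1
    have h2 : Commute y.1 g := by
      rw [mul_inv_eq_iff_eq_mul] at h1
      exact h1.symm
    exact hg1 (not_commute_involution h hyp hgg h2)
  have hinv : Function.Involutive φ := by
    intro y
    refine Subtype.ext ?_
    show g * (g * y.1 * g⁻¹) * g⁻¹ = y.1
    calc g * (g * y.1 * g⁻¹) * g⁻¹ = (g * g) * y.1 * (g * g)⁻¹ := by group
      _ = y.1 := by rw [hgg]; group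
  have hfin := hφ.commute_all_of_involutive hinv
    ⟨a, Subgroup.mem_centralizer_singleton_iff.2 ha.symm⟩ ⟨b, Subgroup.mem_centralizer_singleton_iff.2 hb.symm⟩
  exact congrArg Subtype.val hfin

section sylow

variable [Fact p.Prime]

theorem card_sylow_eq (h : Hyp G p f q) (P : Sylow p G) : Nat.card P = q := by
  obtain ⟨h3, hle, hq3, hpq, hnp, hcop⟩ := facts h.hp h.hp2 h.hf h.hq
  have hq9 : 9 ≤ q ^ 2 := by nlinarith
  rw [Sylow.card_eq_multiplicity, h.hG, Nat.factorization_mul (by omega) (by omega), Finsupp.add_apply,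
    Nat.factorization_eq_zero_of_not_dvd hnp, add_zero, h.hq, Nat.Prime.factorization_pow h.hp,
    Finsupp.single_eq_same]

theorem exists_mem (h : Hyp G p f q) (P : Sylow p G) : ∃ x ∈ P, orderOf x = p := by
  obtain ⟨h3, hle, hq3, hpq, hnp, hcop⟩ := facts h.hp h.hp2 h.hf h.hq
  have hpP : p ∣ Nat.card P := by rw [card_sylow_eq h P]; exact hpq
  obtain ⟨x, hx⟩ := exists_prime_orderOf_dvd_card' p hpP
  exact ⟨x.1, x.2, by rw [Subgroup.orderOf_coe]; exact hx⟩

/-- a Sylow subgroup is the centraliser of each of its nonidentity elements -/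
theorem sylow_eq_cent (h : Hyp G p f q) (P : Sylow p G) {x : G} (hxP : x ∈ P) (hx : x ≠ 1) :
    orderOf x = p ∧ (P : Subgroup G) = Subgroup.centralizer {x} := by
  -- elements of `P`
  have hPp : ∀ (Q : Sylow p G), ∀ y ∈ Q, y ≠ 1 → orderOf y = p := by
    intro Q y hy hy1
    obtain ⟨k, hk⟩ := Q.isPGroup' ⟨y, hy⟩
    have hk' : y ^ p ^ k = 1 := congrArg Subtype.val hk
    obtain ⟨j, -, hj⟩ := (Nat.dvd_prime_pow h.hp).1 (orderOf_dvd_of_pow_eq_one hk')
    apply h.hord
    rw [hj]
    refine dvd_pow_self p ?_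
    rintro rfl
    rw [pow_zero, orderOf_eq_one_iff] at hj
    exact hy1 hj
  -- the centraliser of an element of order `p` is a Sylow subgroup
  have hcS : ∀ y : G, orderOf y = p → ∃ Q : Sylow p G, (Q : Subgroup G) = Subgroup.centralizer {y} := by
    intro y hy
    have hP : IsPGroup p (Subgroup.centralizer {y}) := by
      intro z
      refine ⟨1, ?_⟩
      rw [pow_one]
      exact Subtype.ext (cent_pow h hy (Subgroup.mem_centralizer_singleton_iff.1 z.2).symm)
    obtain ⟨Q, hQ⟩ := hP.exists_le_sylow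
    refine ⟨Q, ?_⟩
    symm
    apply Subgroup.eq_of_le_of_card_ge hQ
    rw [(card_cent h hy).1]
    exact (card_sylow_eq h Q).le
  have hxp := hPp P x hxP hx
  refine ⟨hxp, ?_⟩
  -- `P` is abelian
  obtain ⟨Q, hQ⟩ := hcS x hxp
  obtain ⟨g, hg⟩ := MulAction.exists_smul_eq G Q P
  have hab : ∀ a ∈ P, ∀ b ∈ P, Commute a b := by
    have hQab : ∀ a ∈ Q, ∀ b ∈ Q, Commute a b := by
      intro a ha b hb
      have ha' : a ∈ (Q : Subgroup G) := ha
      have hb' : b ∈ (Q : Subgroup G) := hb
      rw [hQ] at ha' hb'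
      exact cent_comm h hxp (Subgroup.mem_centralizer_singleton_iff.1 ha').symm
        (Subgroup.mem_centralizer_singleton_iff.1 hb').symm
    intro a ha b hb
    rw [← hg] at ha hb
    have ha' : a ∈ ((g • Q : Sylow p G) : Set G) := ha
    have hb' : b ∈ ((g • Q : Sylow p G) : Set G) := hb
    rw [Sylow.coe_smul, Set.mem_smul_set] at ha' hb'
    obtain ⟨a', ha1, rfl⟩ := ha'
    obtain ⟨b', hb1, rfl⟩ := hb'
    have h1 := hQab a' ha1 b' hb1
    show MulAut.conj g a' * MulAut.conj g b' = MulAut.conj g b' * MulAut.conj g a'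
    rw [← map_mul, h1.eq, map_mul]
  apply Subgroup.eq_of_le_of_card_ge
  · intro y hy
    exact Subgroup.mem_centralizer_singleton_iff.2 (hab y hy x hxP)
  · rw [(card_cent h hxp).1]
    exact (card_sylow_eq h P).ge

theorem sylow_unique (h : Hyp G p f q) (P Q : Sylow p G) {x : G} (hxP : x ∈ P) (hxQ : x ∈ Q) (hx : x ≠ 1) :
    P = Q := by
  apply Sylow.ext
  rw [(sylow_eq_cent h P hxP hx).2, (sylow_eq_cent h Q hxQ hx).2]

theorem card_sylows (h : Hyp G p f q) : Nat.card (Sylow p G) = q + 1 := by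
  classical
  obtain ⟨h3, hle, hq3, hpq, hnp, hcop⟩ := facts h.hp h.hp2 h.hf h.hq
  have hq9 : 9 ≤ q ^ 2 := by nlinarith
  have h1 : Nat.card {x : G // orderOf x = p} = Nat.card (Σ P : Sylow p G, {x : P // x ≠ 1}) := by
    symm
    refine Nat.card_congr (Equiv.ofBijective (fun t => ⟨t.2.1.1, ?_⟩) ⟨?_, ?_⟩)
    · exact (sylow_eq_cent h t.1 t.2.1.2 (fun h1 => t.2.2 (Subtype.ext h1))).1
    · rintro ⟨P, ⟨⟨x, hxP⟩, hx⟩⟩ ⟨Q, ⟨⟨y, hyQ⟩, hy⟩⟩ hxy
      simp only [Subtype.mk.injEq] at hxy
      subst hxy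
      have hx1 : x ≠ 1 := fun h1 => hx (Subtype.ext h1)
      have := sylow_unique h P Q hxP hyQ hx1
      subst this
      rfl
    · rintro ⟨x, hx⟩
      have hP : IsPGroup p (Subgroup.zpowers x) := by
        apply IsPGroup.of_card (n := 1)
        rw [Nat.card_zpowers, hx, pow_one]
      obtain ⟨Q, hQ⟩ := hP.exists_le_sylow
      have hx1 : x ≠ 1 := by
        rintro rfl
        rw [orderOf_one] at hx
        omega
      exact ⟨⟨Q, ⟨⟨x, hQ (Subgroup.mem_zpowers x)⟩, fun h1 => hx1 (congrArg Subtype.val h1)⟩⟩, rfl⟩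
  have h2 : ∀ P : Sylow p G, Nat.card {x : P // x ≠ 1} = q - 1 := by
    intro P
    have := Fintype.ofFinite P
    rw [Nat.card_eq_fintype_card, Fintype.card_subtype_compl, Fintype.card_subtype_eq,
      ← Nat.card_eq_fintype_card]
    exact congrArg (fun n => n - 1) (card_sylow_eq h P)
  have := Fintype.ofFinite (Sylow p G)
  have h4 := h.hcp
  unfold co at h4
  rw [h1, Nat.card_sigma] at h4
  simp only [h2, Finset.sum_const, smul_eq_mul, Finset.card_univ] at h4
  rw [← Nat.card_eq_fintype_card] at h4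
  have h5 : q ^ 2 - 1 = (q + 1) * (q - 1) := by
    obtain ⟨k, rfl⟩ : ∃ k, q = k + 1 := ⟨q - 1, by omega⟩
    rw [Nat.add_sub_cancel]
    have : (k + 1) ^ 2 = (k + 1 + 1) * k + 1 := by ring
    rw [this, Nat.add_sub_cancel]
  rw [h5] at h4
  exact Nat.eq_of_mul_eq_mul_right (by omega) h4

/-- an element of `P` normalising another Sylow subgroup is trivial -/
theorem eq_one_of_smul (h : Hyp G p f q) {P Q : Sylow p G} (hPQ : P ≠ Q) {x : G} (hx : x ∈ P)
    (hxQ : x • Q = Q) : x = 1 := by
  by_contra hne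
  rw [Sylow.smul_eq_iff_mem_normalizer] at hxQ
  have h1 : x ∈ (P : Subgroup G) ⊓ Subgroup.normalizer Q := ⟨hx, hxQ⟩
  rw [P.isPGroup'.inf_normalizer_sylow] at h1
  exact hPQ (sylow_unique h P Q hx h1.2 hne)

/-- `P` is transitive on the other Sylow subgroups -/
theorem exists_smul (h : Hyp G p f q) {P Q R : Sylow p G} (hPQ : P ≠ Q) (hPR : P ≠ R) :
    ∃ x ∈ P, x • Q = R := by
  classical
  have := Fintype.ofFinite (Sylow p G)
  have hmem : ∀ x : P, (x.1 • Q) ∈ (Finset.univ.erase P) := by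
    intro x
    rw [Finset.mem_erase]
    refine ⟨?_, Finset.mem_univ _⟩
    intro h1
    apply hPQ
    have h2 : x.1 • P = P := by
      rw [Sylow.smul_eq_iff_mem_normalizer]
      exact Subgroup.le_normalizer x.2
    have h4 : x.1 • Q = x.1 • P := h1.trans h2.symm
    exact (smul_left_cancel _ h4).symm
  have hinj : Function.Injective (fun x : P => (⟨x.1 • Q, hmem x⟩ : {R // R ∈ Finset.univ.erase P})) := by
    intro x y hxy
    simp only [Subtype.mk.injEq] at hxy
    have h1 : (y⁻¹ * x : P).1 • Q = Q := by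
      show (y.1⁻¹ * x.1) • Q = Q
      rw [mul_smul, hxy, inv_smul_smul]
    have h2 := eq_one_of_smul h hPQ (y⁻¹ * x : P).2 h1
    exact (inv_mul_eq_one.1 (Subtype.ext h2 : y⁻¹ * x = 1)).symm
  have hcard : Nat.card P = Nat.card {R // R ∈ Finset.univ.erase P} := by
    rw [card_sylow_eq h P, Nat.card_eq_fintype_card, Fintype.card_coe, Finset.card_erase_of_mem (Finset.mem_univ _),
      Finset.card_univ, ← Nat.card_eq_fintype_card, card_sylows h, Nat.add_sub_cancel]
  have hbij := (Nat.bijective_iff_injective_and_card _).2 ⟨hinj, hcard⟩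
  obtain ⟨x, hx⟩ := hbij.2 ⟨R, Finset.mem_erase.2 ⟨hPR.symm, Finset.mem_univ _⟩⟩
  exact ⟨x.1, x.2, congrArg Subtype.val hx⟩

/-- sharpness -/
theorem sharp (h : Hyp G p f q) {P Q R : Sylow p G} (hPQ : P ≠ Q) (hPR : P ≠ R) (hQR : Q ≠ R) {g : G}
    (h1 : g • P = P) (h2 : g • Q = Q) (h3 : g • R = R) : g = 1 := by
  obtain ⟨x, hx, hxR⟩ := exists_smul h hPQ hPR
  have hx1 : x ≠ 1 := by
    rintro rfl
    rw [one_smul] at hxR
    exact hQR hxR
  have hgP : g ∈ Subgroup.normalizer P := Sylow.smul_eq_iff_mem_normalizer.1 h1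
  have hgx : g * x * g⁻¹ ∈ P := (Subgroup.mem_normalizer_iff.1 hgP x).1 hx
  have h4 : (x⁻¹ * (g * x * g⁻¹)) • Q = Q := by
    have h5 : (g * x * g⁻¹) • Q = R := by
      have h6 : g⁻¹ • Q = Q := by rw [inv_smul_eq_iff, h2]
      rw [mul_smul, mul_smul, h6, hxR, h3]
    rw [mul_smul, h5, ← hxR, inv_smul_smul]
  have h5 := eq_one_of_smul h hPQ (P.mul_mem (P.inv_mem hx) hgx) h4
  have h6 : g * x * g⁻¹ = x := by
    have := inv_mul_eq_one.1 h5
    exact this.symm
  have h7 : g ∈ P := by
    show g ∈ (P : Subgroup G)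
    rw [(sylow_eq_cent h P hx hx1).2, Subgroup.mem_centralizer_singleton_iff]
    exact (mul_inv_eq_iff_eq_mul.1 h6)
  exact eq_one_of_smul h hPQ h7 h2

/-- 3-transitivity -/
theorem three_trans (h : Hyp G p f q) {P Q R P' Q' R' : Sylow p G} (hPQ : P ≠ Q) (hPR : P ≠ R) (hQR : Q ≠ R)
    (hPQ' : P' ≠ Q') (hPR' : P' ≠ R') (hQR' : Q' ≠ R') :
    ∃ g : G, g • P = P' ∧ g • Q = Q' ∧ g • R = R' := by
  classical
  have := Fintype.ofFinite (Sylow p G)
  obtain ⟨h3, hle, hq3, hpq, hnp, hcop⟩ := facts h.hp h.hp2 h.hf h.hq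
  have hcard : Fintype.card (Sylow p G) = q + 1 := by rw [← Nat.card_eq_fintype_card, card_sylows h]
  let T := {t : Sylow p G × Sylow p G × Sylow p G // t.1 ≠ t.2.1 ∧ t.1 ≠ t.2.2 ∧ t.2.1 ≠ t.2.2}
  have hTc : Nat.card T = (q + 1) * q * (q - 1) := by
    have e : T ≃ (Fin 3 ↪ Sylow p G) :=
      { toFun := fun t => ⟨![t.1.1, t.1.2.1, t.1.2.2], by
          obtain ⟨⟨a, b, c⟩, h1, h2, h3⟩ := t
          intro i j hij
          fin_cases i <;> fin_cases j <;>
            first | rfl | exact absurd hij h1 | exact absurd hij h2 | exact absurd hij h3 |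
              exact absurd hij.symm h1 | exact absurd hij.symm h2 | exact absurd hij.symm h3⟩
        invFun := fun e => ⟨(e 0, e 1, e 2), e.injective.ne (by decide), e.injective.ne (by decide),
          e.injective.ne (by decide)⟩
        left_inv := fun t => rfl
        right_inv := fun e => by
          ext i
          fin_cases i <;> rfl }
    rw [Nat.card_congr e, Nat.card_eq_fintype_card, Fintype.card_embedding_eq, hcard, Fintype.card_fin]
    simp only [Nat.descFactorial_succ, Nat.descFactorial_zero]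
    rw [show q + 1 - 2 = q - 1 by omega, show q + 1 - 1 = q by omega, Nat.sub_zero]
    ring
  have hGT : Nat.card G = Nat.card T := by
    rw [hTc, h.hG]
    obtain ⟨k, rfl⟩ : ∃ k, q = k + 1 := ⟨q - 1, by omega⟩
    rw [Nat.add_sub_cancel]
    have : (k + 1) ^ 2 = (k + 1 + 1) * k + 1 := by ring
    rw [this, Nat.add_sub_cancel]
    ring
  let F : G → T := fun g => ⟨(g • P, g • Q, g • R), fun h1 => hPQ (smul_left_cancel g h1),
    fun h1 => hPR (smul_left_cancel g h1), fun h1 => hQR (smul_left_cancel g h1)⟩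
  have hinj : Function.Injective F := by
    intro g g' hgg
    have h1 := congrArg Subtype.val hgg
    simp only [F, Prod.mk.injEq] at h1
    obtain ⟨h1, h2, h4⟩ := h1
    have := sharp h hPQ hPR hQR (g := g'⁻¹ * g) (by rw [mul_smul, h1, inv_smul_smul])
      (by rw [mul_smul, h2, inv_smul_smul]) (by rw [mul_smul, h4, inv_smul_smul])
    exact (inv_mul_eq_one.1 this).symm
  have hbij := (Nat.bijective_iff_injective_and_card F).2 ⟨hinj, hGT⟩
  obtain ⟨g, hg⟩ := hbij.2 ⟨(P', Q', R'), hPQ', hPR', hQR'⟩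
  have h1 := congrArg Subtype.val hg
  simp only [F, Prod.mk.injEq] at h1
  exact ⟨g, h1⟩

/-- at most `q` involutions normalise `P` -/
theorem card_inv_norm (h : Hyp G p f q) (P : Sylow p G) :
    Nat.card {g : G // orderOf g = 2 ∧ g • P = P} ≤ q := by
  classical
  rcases isEmpty_or_nonempty {g : G // orderOf g = 2 ∧ g • P = P} with hE | ⟨⟨t, ht, htP⟩⟩
  · rw [Nat.card_of_isEmpty]
    exact Nat.zero_le _
  obtain ⟨x0, hx0, hx0p⟩ := exists_mem h P
  have hx01 : x0 ≠ 1 := by
    rintro rfl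
    rw [orderOf_one] at hx0p
    exact h.hp.one_lt.ne hx0p
  -- an involution normalising `P` inverts it
  have hinv : ∀ g : G, orderOf g = 2 → g • P = P → ∀ x ∈ P, g * x * g⁻¹ = x⁻¹ := by
    intro g hg hgP x hx
    have hgN := Sylow.smul_eq_iff_mem_normalizer.1 hgP
    have hgg : g * g = 1 := by rw [← pow_two, ← hg]; exact pow_orderOf_eq_one g
    have hg1 : g ≠ 1 := by
      rintro rfl
      rw [orderOf_one] at hg
      omega
    have hx' : g * x * g⁻¹ ∈ P := (Subgroup.mem_normalizer_iff.1 hgN x).1 hx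
    -- `x * (g x g⁻¹)` is centralised by `g`
    have hcomm : Commute x (g * x * g⁻¹) := by
      by_cases hx1 : x = 1
      · rw [hx1]; exact Commute.one_left _
      · have h1 := (sylow_eq_cent h P hx hx1).2
        have h2 : g * x * g⁻¹ ∈ (P : Subgroup G) := hx'
        rw [h1, Subgroup.mem_centralizer_singleton_iff] at h2
        exact h2.symm
    have hfix : Commute (x * (g * x * g⁻¹)) g := by
      have hginv : g⁻¹ = g := inv_eq_of_mul_eq_one_right hgg
      have h1 : g * (x * (g * x * g⁻¹)) * g⁻¹ = x * (g * x * g⁻¹) := by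
        calc g * (x * (g * x * g⁻¹)) * g⁻¹ = (g * x * g⁻¹) * ((g * g) * x * (g * g)⁻¹) := by group
          _ = (g * x * g⁻¹) * x := by rw [hgg]; group
          _ = x * (g * x * g⁻¹) := hcomm.symm.eq
      rw [mul_inv_eq_iff_eq_mul] at h1
      exact h1.symm
    by_contra hne
    have hne' : x * (g * x * g⁻¹) ≠ 1 := by
      intro h1
      exact hne (eq_inv_of_mul_eq_one_right h1)
    have hord := (sylow_eq_cent h P (P.mul_mem hx hx') hne').1
    exact hg1 (not_commute_involution h hord hgg hfix)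
  have hmem : ∀ g : {g : G // orderOf g = 2 ∧ g • P = P}, t⁻¹ * g.1 ∈ P := by
    intro g
    show t⁻¹ * g.1 ∈ (P : Subgroup G)
    rw [(sylow_eq_cent h P hx0 hx01).2, Subgroup.mem_centralizer_singleton_iff]
    have h1 := hinv g.1 g.2.1 g.2.2 x0 hx0
    have h2 := hinv t ht htP x0 hx0
    have h4 : t * x0 * t⁻¹ = g.1 * x0 * g.1⁻¹ := h2.trans h1.symm
    have h5 : t⁻¹ * g.1 * x0 = x0 * (t⁻¹ * g.1) := by
      calc t⁻¹ * g.1 * x0 = t⁻¹ * (g.1 * x0 * g.1⁻¹) * g.1 := by group
        _ = t⁻¹ * (t * x0 * t⁻¹) * g.1 := by rw [h4]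
        _ = x0 * (t⁻¹ * g.1) := by group
    exact h5
  rw [← card_sylow_eq h P]
  exact Nat.card_le_card_of_injective (fun g => (⟨t⁻¹ * g.1, hmem g⟩ : P))
    (fun a b hab => Subtype.ext (mul_left_cancel (congrArg Subtype.val hab)))

/-- every element swapping two Sylow subgroups is an involution -/
theorem swap (h : Hyp G p f q) {P Q : Sylow p G} (hPQ : P ≠ Q) {g : G} (h1 : g • P = Q) (h2 : g • Q = P) :
    g * g = 1 := by
  classical
  have := Fintype.ofFinite (Sylow p G)
  have := Fintype.ofFinite G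
  obtain ⟨h3, hle, hq3, hpq, hnp, hcop⟩ := facts h.hp h.hp2 h.hf h.hq
  have hcard : Fintype.card (Sylow p G) = q + 1 := by rw [← Nat.card_eq_fintype_card, card_sylows h]
  -- `Y`: all elements swapping, `X`: all involutions swapping
  let Y : Finset (G × Sylow p G × Sylow p G) :=
    Finset.univ.filter fun t => t.2.1 ≠ t.2.2 ∧ t.1 • t.2.1 = t.2.2 ∧ t.1 • t.2.2 = t.2.1
  let X : Finset (G × Sylow p G × Sylow p G) :=
    Finset.univ.filter fun t => orderOf t.1 = 2 ∧ t.2.1 ≠ t.2.2 ∧ t.1 • t.2.1 = t.2.2 ∧ t.1 • t.2.2 = t.2.1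
  have hXY : X ⊆ Y := by
    intro t ht
    simp only [X, Y, Finset.mem_filter] at ht ⊢
    exact ⟨ht.1, ht.2.2⟩
  have hYle : Y.card ≤ (q + 1) * q * (q - 1) := by
    -- fibre over the pairs
    have h4 : Y.card = ∑ s ∈ (Finset.univ : Finset (Sylow p G)).offDiag, (Y.filter fun t => t.2 = s).card := by
      apply Finset.card_eq_sum_card_fiberwise
      intro t ht
      have ht' : t ∈ Y := ht
      rw [Finset.mem_coe, Finset.mem_offDiag]
      simp only [Y, Finset.mem_filter] at ht'
      exact ⟨Finset.mem_univ _, Finset.mem_univ _, ht'.2.1⟩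
    rw [h4]
    have h5 : ∀ s ∈ (Finset.univ : Finset (Sylow p G)).offDiag, (Y.filter fun t => t.2 = s).card ≤ q - 1 := by
      rintro ⟨A, B⟩ hs
      rw [Finset.mem_offDiag] at hs
      have hAB : A ≠ B := hs.2.2
      -- a third point
      obtain ⟨C, hC⟩ : ∃ C, C ∈ ((Finset.univ : Finset (Sylow p G)).erase A).erase B := by
        apply Finset.card_pos.1
        rw [Finset.card_erase_of_mem (Finset.mem_erase.2 ⟨hAB.symm, Finset.mem_univ _⟩),
          Finset.card_erase_of_mem (Finset.mem_univ _), Finset.card_univ, hcard]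
        omega
      rw [Finset.mem_erase, Finset.mem_erase] at hC
      have h6 : (((Finset.univ : Finset (Sylow p G)).erase A).erase B).card = q - 1 := by
        rw [Finset.card_erase_of_mem (Finset.mem_erase.2 ⟨hAB.symm, Finset.mem_univ _⟩),
          Finset.card_erase_of_mem (Finset.mem_univ _), Finset.card_univ, hcard]
        omega
      rw [← h6]
      apply Finset.card_le_card_of_injOn (fun t => t.1 • C)
      · rintro ⟨g', A', B'⟩ ht
        rw [Finset.mem_coe, Finset.mem_filter] at ht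
        obtain ⟨ht1, ht2⟩ := ht
        simp only [Y, Finset.mem_filter, Prod.mk.injEq] at ht1 ht2
        obtain ⟨rfl, rfl⟩ := ht2
        obtain ⟨-, -, h7, h8⟩ := ht1
        rw [Finset.mem_coe, Finset.mem_erase, Finset.mem_erase]
        refine ⟨?_, ?_, Finset.mem_univ _⟩
        · intro h9
          exact hC.2.1 (smul_left_cancel g' (h9.trans h7.symm))
        · intro h9
          exact hC.1 (smul_left_cancel g' (h9.trans h8.symm))
      · rintro ⟨g1, A1, B1⟩ ht1 ⟨g2, A2, B2⟩ ht2 hg12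
        rw [Finset.mem_coe, Finset.mem_filter] at ht1 ht2
        obtain ⟨hu1, hu2⟩ := ht1
        obtain ⟨hv1, hv2⟩ := ht2
        simp only [Y, Finset.mem_filter, Prod.mk.injEq] at hu1 hu2 hv1 hv2
        obtain ⟨rfl, rfl⟩ := hu2
        obtain ⟨rfl, rfl⟩ := hv2
        obtain ⟨-, -, h7, h8⟩ := hu1
        obtain ⟨-, -, h9, h10⟩ := hv1
        have hg12' : g1 • C = g2 • C := hg12
        have := sharp h hAB hC.2.1.symm hC.1.symm (g := g2⁻¹ * g1)
          (by rw [mul_smul, h7, ← h9, inv_smul_smul]) (by rw [mul_smul, h8, ← h10, inv_smul_smul])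
          (by rw [mul_smul, hg12', inv_smul_smul])
        rw [(inv_mul_eq_one.1 this).symm]
    refine (Finset.sum_le_card_nsmul _ _ _ h5).trans ?_
    rw [Finset.offDiag_card, Finset.card_univ, hcard, smul_eq_mul]
    have h6 : (q + 1) * (q + 1) - (q + 1) = (q + 1) * q := by
      rw [mul_add, mul_one, Nat.add_sub_cancel]
    rw [h6]
  -- the involutions
  have hinvs : (Finset.univ.filter fun g : G => orderOf g = 2).card = q ^ 2 := by
    have := h.h2
    unfold co at this
    rwa [Nat.card_eq_fintype_card, Fintype.card_subtype] at this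
  have hXge : q ^ 2 * (q + 1) ≤ X.card + q * (q + 1) := by
    -- pairs (involution, point)
    have h4 : q ^ 2 * (q + 1) = ((Finset.univ.filter fun g : G => orderOf g = 2) ×ˢ
        (Finset.univ : Finset (Sylow p G))).card := by
      rw [Finset.card_product, hinvs, Finset.card_univ, hcard]
    rw [h4, ← Finset.card_filter_add_card_filter_not (s := (Finset.univ.filter fun g : G => orderOf g = 2) ×ˢ
        (Finset.univ : Finset (Sylow p G))) (fun t => t.1 • t.2 = t.2), add_comm]
    apply Nat.add_le_add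
    · -- moved points give elements of `X`
      apply Finset.card_le_card_of_injOn (fun t => (t.1, t.2, t.1 • t.2))
      · rintro ⟨g', A⟩ ht
        rw [Finset.mem_coe, Finset.mem_filter, Finset.mem_product, Finset.mem_filter] at ht
        obtain ⟨⟨⟨-, ho⟩, -⟩, hne⟩ := ht
        have hgg : g' * g' = 1 := by rw [← pow_two, ← ho]; exact pow_orderOf_eq_one g'
        simp only [X, Finset.mem_coe, Finset.mem_filter, Finset.mem_univ, true_and]
        refine ⟨ho, fun h5 => hne h5.symm, ?_⟩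
        rw [← mul_smul, hgg, one_smul]
      · rintro ⟨g1, A1⟩ _ ⟨g2, A2⟩ _ h5
        simp only [Prod.mk.injEq] at h5
        rw [h5.1, h5.2.1]
    · -- fixed points
      rw [Finset.card_eq_sum_card_fiberwise (f := fun t => t.2) (t := Finset.univ) (fun t _ => Finset.mem_univ _)]
      have h5 : ∀ A ∈ (Finset.univ : Finset (Sylow p G)),
          ((((Finset.univ.filter fun g : G => orderOf g = 2) ×ˢ (Finset.univ : Finset (Sylow p G))).filter
            fun t => t.1 • t.2 = t.2).filter fun t => t.2 = A).card ≤ q := by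
        intro A _
        refine le_trans ?_ (card_inv_norm h A)
        rw [Nat.card_eq_fintype_card, Fintype.card_subtype]
        apply Finset.card_le_card_of_injOn (fun t => t.1)
        · rintro ⟨g', B⟩ ht
          rw [Finset.mem_coe, Finset.mem_filter, Finset.mem_filter, Finset.mem_product, Finset.mem_filter] at ht
          obtain ⟨⟨⟨⟨-, ho⟩, -⟩, hf⟩, rfl⟩ := ht
          rw [Finset.mem_coe, Finset.mem_filter]
          exact ⟨Finset.mem_univ _, ho, hf⟩
        · rintro ⟨g1, B1⟩ ht1 ⟨g2, B2⟩ ht2 h6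
          rw [Finset.mem_coe, Finset.mem_filter] at ht1 ht2
          obtain ⟨-, rfl⟩ := ht1
          obtain ⟨-, h7⟩ := ht2
          simp only at h6 h7
          rw [h6, h7]
      refine (Finset.sum_le_card_nsmul _ _ _ h5).trans ?_
      rw [Finset.card_univ, hcard, smul_eq_mul, mul_comm]
  have heq : X = Y := by
    apply Finset.eq_of_subset_of_card_le hXY
    obtain ⟨k, rfl⟩ : ∃ k, q = k + 1 := ⟨q - 1, by omega⟩
    rw [Nat.add_sub_cancel] at hYle
    nlinarith
  have h4 : (g, P, Q) ∈ Y := by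
    simp only [Y, Finset.mem_filter]
    exact ⟨Finset.mem_univ _, hPQ, h1, h2⟩
  rw [← heq] at h4
  simp only [X, Finset.mem_filter] at h4
  rw [← pow_two, ← h4.2.1]
  exact pow_orderOf_eq_one g

/-- **`G` is some `PGL(2, F)`.** -/
theorem main (h : Hyp G p f q) : ∃ (F : Type) (_ : Field F) (_ : Fintype F), Fintype.card F = q ∧
    Nonempty (G ≃* Matrix.ProjGenLinGroup (Fin 2) F) := by
  classical
  have := Fintype.ofFinite (Sylow p G)
  obtain ⟨h3, hle, hq3, hpq, hnp, hcop⟩ := facts h.hp h.hp2 h.hf h.hq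
  have hcard : Fintype.card (Sylow p G) = q + 1 := by rw [← Nat.card_eq_fintype_card, card_sylows h]
  -- three points
  obtain ⟨P, Q, R, hPQ, hPR, hQR⟩ : ∃ P Q R : Sylow p G, P ≠ Q ∧ P ≠ R ∧ Q ≠ R :=
    Fintype.two_lt_card_iff.1 (by rw [hcard]; omega)
  let ρ := MulAction.toPermHom G (Sylow p G)
  have hρ : Function.Injective ρ := by
    rw [injective_iff_map_eq_one]
    intro g hg
    have h1 : ∀ S : Sylow p G, g • S = S := fun S => congrArg (fun e : Equiv.Perm (Sylow p G) => e S) hg
    exact sharp h hPQ hPR hQR (h1 P) (h1 Q) (h1 R)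
  obtain ⟨F, iF, iF', hF, ⟨e⟩⟩ := SharpSwap.main (α := Sylow p G) (n := q) (by omega) hcard ρ.range
    (by
      intro a b c a' b' c' h1 h2 h4 h5 h6 h7
      obtain ⟨g, hg1, hg2, hg3⟩ := three_trans h h1 h2 h4 h5 h6 h7
      exact ⟨ρ g, ⟨g, rfl⟩, hg1, hg2, hg3⟩)
    (by
      rintro _ ⟨g, rfl⟩ a b c h1 h2 h4 h5 h6 h7
      rw [sharp h h1 h2 h4 h5 h6 h7, map_one])
    (by
      rintro _ ⟨g, rfl⟩ a b h1 h2 h4
      rw [← map_mul, swap h h1 h2 h4, map_one])
  exact ⟨F, iF, iF', hF, ⟨(MonoidHom.ofInjective hρ).trans e⟩⟩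

end sylow

end Cfsg.Agent.H418.PglRecog
end

-- part: S3648
section
set_option autoImplicit false
open Cfsg

namespace Cfsg.Agent.S3648

open Cfsg.Agent.H418 in
/-- For a finite group X let nse(X) be the set of values of the function 'number of elements of order k' over the element orders k that occur. Let F be a finite field of odd order q > 3 and P = PGL(2, F) = GL(2, F) modulo its centre. If G is a finite group with the same order as P and nse(G) = nse(P), then G is isomorphic to P. -/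
theorem result {F : Type*} [Field F] [Fintype F] (hodd : Odd (Fintype.card F)) (h3 : 3 < Fintype.card F)
    {G : Type*} [Group G] [Finite G] (hcard : Nat.card G = Nat.card (GL (Fin 2) F ⧸ Subgroup.center (GL (Fin 2) F)))
    (hnse : {c : ℕ | 0 < c ∧ ∃ n : ℕ, c = Nat.card {g : G // orderOf g = n}} = {c : ℕ | 0 < c ∧ ∃ n : ℕ, c = Nat.card {g : (GL (Fin 2) F ⧸ Subgroup.center (GL (Fin 2) F)) // orderOf g = n}}) :
    Nonempty (G ≃* (GL (Fin 2) F ⧸ Subgroup.center (GL (Fin 2) F))) := by
  obtain ⟨p, f, hp, hf, hq⟩ := (isPrimePow_nat_iff (Fintype.card F)).1 Fintype.isPrimePow_card_of_field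
  have hpF : Fact p.Prime := ⟨hp⟩
  have hchar : CharP F p := by
    obtain ⟨p', hp'⟩ := CharP.exists F
    have hp'p : p'.Prime := CharP.char_is_prime F p'
    obtain ⟨n, hn, hn'⟩ := FiniteField.card F p'
    have h1 : p' = p := by
      have h2 : p' ∣ p ^ f := by
        rw [hq, hn']
        exact dvd_pow_self p' n.pos.ne'
      exact (Nat.prime_dvd_prime_iff_eq hp'p hp).1 (hp'p.dvd_of_dvd_pow h2)
    rw [← h1]
    exact hp'
  have hp2 : p ≠ 2 := by
    rintro rfl
    rw [← hq] at hodd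
    exact (Nat.not_even_iff_odd.2 hodd) ((even_two).pow_of_ne_zero hf.ne')
  have h2 : (2 : F) ≠ 0 := by
    intro h
    have h4 : ((2 : ℕ) : F) = 0 := by exact_mod_cast h
    rw [CharP.cast_eq_zero_iff F p] at h4
    exact hp2 ((Nat.prime_dvd_prime_iff_eq hp Nat.prime_two).1 h4)
  have hG : Nat.card G = Fintype.card F * (Fintype.card F ^ 2 - 1) := hcard.trans (PglNse.card_pgl (F := F))
  -- the number of elements of given order
  have hmem : ∀ n, Nse.co G n ≠ 0 → ∃ m, Nse.co G n = Nse.co (Matrix.ProjGenLinGroup (Fin 2) F) m := by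
    intro n hn
    have h4 : Nse.co G n ∈ {c : ℕ | 0 < c ∧ ∃ n : ℕ, c = Nat.card {g : G // orderOf g = n}} :=
      ⟨Nat.pos_of_ne_zero hn, n, rfl⟩
    rw [hnse] at h4
    obtain ⟨-, m, hm⟩ := h4
    exact ⟨m, hm⟩
  have h1 : ∀ n, Nse.co G n ≠ 1 → Nse.co G n ≠ Fintype.card F ^ 2 - 1 → Fintype.card F ∣ Nse.co G n := by
    intro n hn1 hn2
    by_cases hn : Nse.co G n = 0
    · rw [hn]; exact dvd_zero _
    obtain ⟨m, hm⟩ := hmem n hn
    rw [hm] at hn1 hn2 ⊢
    have hm1 : m ≠ 1 := by
      rintro rfl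
      exact hn1 (Nse.co_one _)
    have hmp : m ≠ p := by
      rintro rfl
      exact hn2 (PglNse.co_p _ f hp hp2 hf.ne' hq.symm)
    exact PglNse.dvd_co p hp hm1 hmp
  have h2G : Nse.co G 2 = Fintype.card F ^ 2 := by
    have h4 : Fintype.card F ^ 2 ∈ {c : ℕ | 0 < c ∧ ∃ n : ℕ, c = Nat.card {g : (GL (Fin 2) F ⧸ Subgroup.center (GL (Fin 2) F)) // orderOf g = n}} :=
      ⟨by positivity, 2, (PglNse.co_two (F := F) h2).symm⟩
    rw [← hnse] at h4
    obtain ⟨-, n, hn⟩ := h4
    have hn' : Nse.co G n = Fintype.card F ^ 2 := hn.symm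
    rcases Nse.le_two_of_odd G (n := n) (by rw [hn']; exact hodd.pow) with h5 | h5
    · rw [h5, Nse.co_one] at hn'
      nlinarith
    · rw [h5] at hn'
      exact hn'
  obtain ⟨hord, hcp⟩ := Nse.arith (G := G) hp hp2 hf.ne' hq.symm hG h1 h2G
  have hyp : PglRecog.Hyp G p f (Fintype.card F) := ⟨hp, hp2, hf.ne', hq.symm, hG, hord, hcp, h2G⟩
  obtain ⟨K, iK, iK', hK, ⟨e⟩⟩ := PglRecog.main hyp
  obtain ⟨e2⟩ := PglNse.pgl_congr (FiniteField.ringEquivOfCardEq hK) 2
  exact ⟨e.trans e2⟩

end Cfsg.Agent.S3648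
end
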