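import Mathlib
import Cfsg.Agent.StdG24.Iso6
import Cfsg.Agent.H426.Unrec
import Cfsg.Statements.S3662
set_option linter.all false

-- part: H426/G24Fix
section
/-!
# `G₂(4)` on its natural 6-dimensional module: fixed vectors and prime graph
-/

set_option autoImplicit false

namespace Cfsg.Agent.H426.G24Fix

open Cfsg.Agent.SporRec.GF4
open Cfsg.Agent.StdG24.Mod6
open Cfsg.Agent.StdG24.Ord6

/-- the natural action of `L` on `F4 ^ 6` -/
@[reducible] noncomputable def natAct : DistribMulAction ↥L Vec where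
  smul g v := act g.1 v
  one_smul v := act_one v
  mul_smul g h v := act_mul g.1 h.1 v
  smul_zero g := act_zero g.1
  smul_add g v w := act_add g.1 v w

/-- word for an element of order 6 -/
def w6 : Wd := [(5, 0), (6, 0), (9, 0)]
/-- word for an element of order 10 -/
def w10 : Wd := [(5, 0), (6, 1), (9, 0)]

/-- the power of a word -/
def rep (w : Wd) : ℕ → Wd
  | 0 => []
  | k + 1 => w ++ rep w k

theorem ev_rep (w : Wd) (k : ℕ) : ev (rep w k) = ev w ^ k := by
  induction k with
  | zero => rfl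
  | succ k ih => rw [rep, ev_append, ih, pow_succ']

theorem w6_check : cw (rep w6 6) = idC ∧ cw (rep w6 2) ≠ idC ∧ cw (rep w6 3) ≠ idC := by
  decide +kernel

theorem w10_check : cw (rep w10 10) = idC ∧ cw (rep w10 2) ≠ idC ∧ cw (rep w10 5) ≠ idC := by
  decide +kernel

theorem pow_eq_one_iff' (w : Wd) (k : ℕ) : ev w ^ k = 1 ↔ cw (rep w k) = idC := by
  rw [← ev_rep, ← ev_nil, ev_eq_iff]
  rfl

theorem orderOf_six : orderOf (ev w6) = 6 := by
  refine orderOf_eq_of_pow_and_pow_div_prime (by norm_num) ((pow_eq_one_iff' _ _).2 w6_check.1) ?_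
  intro p hp hd
  have h1 : p ∣ 2 * 3 := hd
  rcases (Nat.Prime.dvd_mul hp).1 h1 with h | h
  · rw [(Nat.prime_dvd_prime_iff_eq hp Nat.prime_two).1 h]
    exact fun h => w6_check.2.2 ((pow_eq_one_iff' _ _).1 h)
  · rw [(Nat.prime_dvd_prime_iff_eq hp Nat.prime_three).1 h]
    exact fun h => w6_check.2.1 ((pow_eq_one_iff' _ _).1 h)

theorem orderOf_ten : orderOf (ev w10) = 10 := by
  refine orderOf_eq_of_pow_and_pow_div_prime (by norm_num) ((pow_eq_one_iff' _ _).2 w10_check.1) ?_
  intro p hp hd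
  have h1 : p ∣ 2 * 5 := hd
  rcases (Nat.Prime.dvd_mul hp).1 h1 with h | h
  · rw [(Nat.prime_dvd_prime_iff_eq hp Nat.prime_two).1 h]
    exact fun h => w10_check.2.2 ((pow_eq_one_iff' _ _).1 h)
  · rw [(Nat.prime_dvd_prime_iff_eq hp Nat.prime_five).1 h]
    exact fun h => w10_check.2.1 ((pow_eq_one_iff' _ _).1 h)

theorem mk_order {g : GL6} (hg : g ∈ L) : orderOf (⟨g, hg⟩ : ↥L) = orderOf g :=
  Subgroup.orderOf_mk g hg

/-- an element of odd prime order with a nonzero fixed vector has order 3 or 5 -/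
theorem prime_of_fixed {r : ℕ} (hr : r.Prime) (hr2 : r ≠ 2) {g : GL6} (hg : g ∈ L)
    (ho : orderOf g = r) {v : Vec} (hv : v ≠ 0) (hgv : act g v = v) : r = 3 ∨ r = 5 := by
  obtain ⟨h, hh, hhv⟩ := trans_vec hv
  have h1 : h⁻¹ * g * h ∈ S1 := by
    rw [mem_S1]
    refine ⟨L.mul_mem (L.mul_mem (L.inv_mem hh) hg) hh, ?_⟩
    rw [act_mul, act_mul, hhv, hgv, ← hhv, act_inv_act]
  have h2 : orderOf (⟨h⁻¹ * g * h, h1⟩ : ↥S1) = r := by
    rw [Subgroup.orderOf_mk]
    have h3 : h⁻¹ * g * h = MulAut.conj h⁻¹ g := by simp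
    rw [h3, MulEquiv.orderOf_eq, ho]
  have h3 : r ∣ 61440 := by
    rw [← card_S1, ← h2]
    exact orderOf_dvd_natCard _
  have h4 : r ∣ 2 ^ 12 * (3 * 5) := by
    have : (61440 : ℕ) = 2 ^ 12 * (3 * 5) := by norm_num
    rwa [this] at h3
  rcases (Nat.Prime.dvd_mul hr).1 h4 with h | h
  · exact absurd ((Nat.prime_dvd_prime_iff_eq hr Nat.prime_two).1 (hr.dvd_of_dvd_pow h)) hr2
  · rcases (Nat.Prime.dvd_mul hr).1 h with h | h
    · exact Or.inl ((Nat.prime_dvd_prime_iff_eq hr Nat.prime_three).1 h)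
    · exact Or.inr ((Nat.prime_dvd_prime_iff_eq hr Nat.prime_five).1 h)

theorem add_self' (x : Vec) : x + x = 0 := by
  have h : ∀ a : F4, a + a = 0 := by decide
  funext i; exact h _

/-- groups of unbounded order with the prime graph of the 6-dimensional `G₂(4)` -/
theorem exists_large_L (N : ℕ) :
    ∃ (K : Type) (_ : Group K) (_ : Finite K), N < Nat.card K ∧
      ((∀ q : ℕ, q.Prime → (q ∣ Nat.card ↥L ↔ q ∣ Nat.card K)) ∧
      (∀ q r : ℕ, q.Prime → r.Prime → q ≠ r →
        ((∃ g : ↥L, orderOf g = q * r) ↔ (∃ g : K, orderOf g = q * r)))) := by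
  let _ := natAct
  have : Finite ↥L := Nat.finite_of_card_ne_zero (by rw [card_L]; norm_num)
  have : Nontrivial Vec := ⟨0, dec 1, fun h => by
    have h1 := dec_inj (m := 0) (n := 1) (by norm_num) (by norm_num) (by rw [dec_zero]; exact h)
    omega⟩
  refine Cfsg.Agent.H426.exists_large_same_primeGraph (G := ↥L) (V := Vec) Nat.prime_two ?_ ?_ ?_ N
  · intro v
    rw [two_nsmul]
    exact add_self' v
  · rw [card_L]; norm_num
  · intro r hr hr2 g v hg hv hgv
    have h1 : orderOf g.1 = r := by rw [← hg]; exact Subgroup.orderOf_coe g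
    rcases prime_of_fixed hr hr2 g.2 h1 hv hgv with h | h
    · refine ⟨⟨ev w6, ev_mem _⟩, ?_⟩
      rw [mk_order, orderOf_six, h]
    · refine ⟨⟨ev w10, ev_mem _⟩, ?_⟩
      rw [mk_order, orderOf_ten, h]

end Cfsg.Agent.H426.G24Fix
end

-- part: S3662
section
set_option autoImplicit false
open Cfsg

namespace Cfsg.Agent.S3662

/-- The prime graph of a finite group has the prime divisors of its order as vertices, two distinct primes p, q being joined when the group has an element of order pq; two groups have the same prime graph when they have the same prime divisors and the same joined pairs. Let F be the field with 4 elements and L the Chevalley group of type G₂ over F. There are finite groups of arbitrarily large order with the same prime graph as L. -/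
theorem result {F : Type*} [Field F] [Fintype F] (hF : Fintype.card F = 4) (N : ℕ) :
    ∃ (H : Type) (_ : Group H) (_ : Finite H), N < Nat.card H ∧
      ((∀ p : ℕ, p.Prime → (p ∣ Nat.card ↥(Cfsg.Lie.chevG2.group F) ↔ p ∣ Nat.card H)) ∧
      (∀ p q : ℕ, p.Prime → q.Prime → p ≠ q → ((∃ g : ↥(Cfsg.Lie.chevG2.group F), orderOf g = p * q) ↔ (∃ g : H, orderOf g = p * q)))) := by
  obtain ⟨e⟩ := Cfsg.Agent.StdG24.Iso6.equiv_chev F hF
  obtain ⟨H, i1, i2, h1, h2, h3⟩ := Cfsg.Agent.H426.G24Fix.exists_large_L N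
  refine ⟨H, i1, i2, h1, ?_, ?_⟩
  · intro p hp
    rw [← Nat.card_congr e.toEquiv]
    exact h2 p hp
  · intro p q hp hq hpq
    rw [← h3 p q hp hq hpq]
    constructor
    · rintro ⟨g, hg⟩
      exact ⟨e.symm g, by rw [MulEquiv.orderOf_eq, hg]⟩
    · rintro ⟨g, hg⟩
      exact ⟨e g, by rw [MulEquiv.orderOf_eq, hg]⟩

end Cfsg.Agent.S3662
end
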