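import Mathlib
import Cfsg.Agent.LieClassical.HermBasic
import Cfsg.Agent.LieRecognition.PSUThreeSylow
import Cfsg.Agent.H426.Unrec
import Cfsg.Agent.S0280
import Cfsg.Statements.S3663
import Cfsg.Agent.LieClassical.FieldTransfer
set_option linter.all false

-- part: H426/F16
section
/-!
# A computable field with 16 elements

Elements are coded by numbers below 16 (polynomials in `α` over the field with two elements,
`α ^ 4 = α + 1`); addition is `xor`, multiplication is a table lookup.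
-/

set_option autoImplicit false

namespace Cfsg.Agent.H426

/-- the field with 16 elements -/
structure K16 where
  /-- the code -/
  v : Fin 16
deriving DecidableEq

namespace K16

/-- the multiplication table -/
def MT : ℕ := 0xa5783ce1b4692df05ba48679c23d1fe07ae36bf258c149d0843fd16a2e957bc0386d92c74f1ae5b0c6b1285f394ed7a0e7f6c5d4a3b28190192a7f4cd5e6b380bc5243ad618f9e70428ef93517dbac6063c914be8d27fa509d15ae26fb73c8402147ed8b9afc5630df9b5713eca86420fedcba98765432100000000000000000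

/-- the table of inverses -/
def IT : ℕ := 0x834a5c2f67bde910

/-- multiplication of codes -/
def mulN (a b : ℕ) : ℕ := (MT >>> (4 * (16 * a + b))) % 16

/-- inverse of codes -/
def invN (a : ℕ) : ℕ := (IT >>> (4 * a)) % 16

/-- the element with a given code (modulo 16) -/
def of (n : ℕ) : K16 := ⟨⟨n % 16, Nat.mod_lt _ (by norm_num)⟩⟩

/-- the code as a number -/
def code (a : K16) : ℕ := a.v.1

theorem code_lt (a : K16) : a.code < 16 := a.v.2

theorem code_of (n : ℕ) : (of n).code = n % 16 := rfl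

theorem of_code (a : K16) : of a.code = a := by
  rcases a with ⟨⟨a, h⟩⟩
  simp only [of, code]
  congr 2
  exact Nat.mod_eq_of_lt h

theorem ext' {a b : K16} (h : a.code = b.code) : a = b := by
  rw [← of_code a, h, of_code]

instance instFintype : Fintype K16 :=
  Fintype.ofEquiv (Fin 16) ⟨K16.mk, K16.v, fun _ => rfl, fun _ => rfl⟩

instance instZero : Zero K16 := ⟨of 0⟩
instance instOne : One K16 := ⟨of 1⟩
instance instAdd : Add K16 := ⟨fun a b => of (a.code ^^^ b.code)⟩
instance instMul : Mul K16 := ⟨fun a b => of (mulN a.code b.code)⟩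
instance instNeg : Neg K16 := ⟨fun a => a⟩
instance instInv : Inv K16 := ⟨fun a => of (invN a.code)⟩

theorem add_def (a b : K16) : a + b = of (a.code ^^^ b.code) := rfl
theorem mul_def (a b : K16) : a * b = of (mulN a.code b.code) := rfl

theorem add_comm' : ∀ a b : K16, a + b = b + a := by decide +kernel
theorem add_assoc' : ∀ a b c : K16, a + b + c = a + (b + c) := by decide +kernel
theorem zero_add' : ∀ a : K16, 0 + a = a := by decide +kernel
theorem neg_add' : ∀ a : K16, -a + a = 0 := by decide +kernel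
theorem mul_comm' : ∀ a b : K16, a * b = b * a := by decide +kernel
theorem mul_assoc' : ∀ a b c : K16, a * b * c = a * (b * c) := by decide +kernel
theorem one_mul' : ∀ a : K16, 1 * a = a := by decide +kernel
theorem mul_add' : ∀ a b c : K16, a * (b + c) = a * b + a * c := by decide +kernel
theorem zero_mul' : ∀ a : K16, 0 * a = 0 := by decide +kernel
theorem inv_zero' : (0 : K16)⁻¹ = 0 := by decide +kernel
theorem mul_inv' : ∀ a : K16, a ≠ 0 → a * a⁻¹ = 1 := by decide +kernel

instance instField : Field K16 where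
  add_assoc := add_assoc'
  zero_add := zero_add'
  add_zero a := by rw [add_comm', zero_add']
  add_comm := add_comm'
  neg_add_cancel := neg_add'
  nsmul := nsmulRec
  zsmul := zsmulRec
  left_distrib := mul_add'
  right_distrib a b c := by rw [mul_comm', mul_add', mul_comm' c a, mul_comm' c b]
  zero_mul := zero_mul'
  mul_zero a := by rw [mul_comm', zero_mul']
  mul_assoc := mul_assoc'
  one_mul := one_mul'
  mul_one a := by rw [mul_comm', one_mul']
  mul_comm := mul_comm'
  exists_pair_ne := ⟨0, 1, by decide⟩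
  mul_inv_cancel := mul_inv'
  inv_zero := inv_zero'
  nnqsmul := _
  nnqsmul_def := fun _ _ => rfl
  qsmul := _
  qsmul_def := fun _ _ => rfl

theorem card_K16 : Fintype.card K16 = 16 := rfl

theorem two_eq_zero : (2 : K16) = 0 := by decide +kernel

theorem add_self (a : K16) : a + a = 0 := by
  rw [← two_mul, two_eq_zero, zero_mul]

instance instCharP : CharP K16 2 :=
  CharTwo.of_one_ne_zero_of_two_eq_zero one_ne_zero two_eq_zero

end K16

end Cfsg.Agent.H426
end

-- part: H426/U34Code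
section
/-!
# Codes for vectors of the 3-dimensional unitary space over the field with 16 elements
-/

set_option autoImplicit false

namespace Cfsg.Agent.H426.U34

open K16

/-- vectors -/
abbrev Vec : Type := Fin 3 → K16

/-- the hermitian form -/
abbrev hf (u v : Vec) : K16 := Cfsg.hermForm 3 K16 4 u v

theorem hf_def (u v : Vec) : hf u v = u 0 * v 0 ^ 4 + u 1 * v 1 ^ 4 + u 2 * v 2 ^ 4 := by
  rw [hf, Cfsg.hermForm, Fin.sum_univ_three]

/-- the vector with a given code (modulo 4096) -/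
def vec (n : ℕ) : Vec := ![of n, of (n / 16), of (n / 256)]

/-- the code of a vector -/
def cd (x : Vec) : ℕ := (x 0).code + 16 * (x 1).code + 256 * (x 2).code

theorem of_eq_of_mod {a b : ℕ} (h : a % 16 = b % 16) : of a = of b := by
  apply ext'
  rw [code_of, code_of, h]

theorem cd_lt (x : Vec) : cd x < 4096 := by
  have h0 := (x 0).code_lt
  have h1 := (x 1).code_lt
  have h2 := (x 2).code_lt
  unfold cd
  omega

theorem vec_cd (x : Vec) : vec (cd x) = x := by
  have h0 := (x 0).code_lt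
  have h1 := (x 1).code_lt
  have h2 := (x 2).code_lt
  funext i
  fin_cases i
  · change of (cd x) = x 0
    rw [← of_code (x 0)]
    apply of_eq_of_mod
    unfold cd
    omega
  · change of (cd x / 16) = x 1
    rw [← of_code (x 1)]
    apply of_eq_of_mod
    unfold cd
    omega
  · change of (cd x / 256) = x 2
    rw [← of_code (x 2)]
    apply of_eq_of_mod
    unfold cd
    omega

theorem of_xor (a b : ℕ) : of (a ^^^ b) = of a + of b := by
  rw [add_def, code_of, code_of]
  apply of_eq_of_mod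
  have h : ∀ c : ℕ, c % 16 = c % 2 ^ 4 := fun c => by norm_num
  rw [h, h, h, h, Nat.xor_mod_two_pow, Nat.xor_mod_two_pow, Nat.mod_mod, Nat.mod_mod]

theorem of_mul (a b : ℕ) : of (mulN (a % 16) (b % 16)) = of a * of b := by
  rw [mul_def, code_of, code_of]

/-- table of fourth powers -/
def P4T : ℕ := 0x89badcef76452310

/-- the fourth power of codes -/
def p4N (a : ℕ) : ℕ := (P4T >>> (4 * a)) % 16

theorem of_p4' : ∀ x : K16, of (p4N x.code) = x * x * (x * x) := by decide +kernel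

theorem of_p4 (a : ℕ) : of (p4N (a % 16)) = of a ^ 4 := by
  rw [← code_of, of_p4']
  ring

theorem p4N_lt (a : ℕ) : p4N a < 16 := Nat.mod_lt _ (by norm_num)
theorem mulN_lt (a b : ℕ) : mulN a b < 16 := Nat.mod_lt _ (by norm_num)

/-- the form on codes -/
def hN (m n : ℕ) : ℕ :=
  (mulN (m % 16) (p4N (n % 16)) ^^^ (mulN (m / 16 % 16) (p4N (n / 16 % 16)) ^^^
    mulN (m / 256 % 16) (p4N (n / 256 % 16)))) % 16

theorem of_mod (a : ℕ) : of (a % 16) = of a := of_eq_of_mod (Nat.mod_mod _ _)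

theorem of_mul' (a b : ℕ) : of (mulN (a % 16) (p4N (b % 16))) = of a * of b ^ 4 := by
  have h : p4N (b % 16) = p4N (b % 16) % 16 := (Nat.mod_eq_of_lt (p4N_lt _)).symm
  rw [h, of_mul, of_p4]

theorem of_hN (m n : ℕ) : of (hN m n) = hf (vec m) (vec n) := by
  rw [hf_def, hN, of_mod, of_xor, of_xor, of_mul', of_mul', of_mul', ← add_assoc]
  rfl

theorem hN_lt (m n : ℕ) : hN m n < 16 := Nat.mod_lt _ (by norm_num)

theorem of_eq_zero {a : ℕ} (ha : a < 16) : of a = 0 ↔ a = 0 := by
  constructor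
  · intro h
    have h1 : (of a).code = (0 : K16).code := by rw [h]
    rw [code_of, Nat.mod_eq_of_lt ha] at h1
    exact h1
  · rintro rfl; rfl

theorem hN_eq_zero (m n : ℕ) : hN m n = 0 ↔ hf (vec m) (vec n) = 0 := by
  rw [← of_hN, of_eq_zero (hN_lt m n)]

theorem vec_xor (m n : ℕ) : vec (m ^^^ n) = vec m + vec n := by
  have h : ∀ k : ℕ, (m ^^^ n) / 2 ^ k = (m / 2 ^ k) ^^^ (n / 2 ^ k) := by
    intro k
    rw [← Nat.shiftRight_eq_div_pow, ← Nat.shiftRight_eq_div_pow, ← Nat.shiftRight_eq_div_pow,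
      Nat.shiftRight_xor_distrib]
  have h4 : (m ^^^ n) / 16 = (m / 16) ^^^ (n / 16) := h 4
  have h8 : (m ^^^ n) / 256 = (m / 256) ^^^ (n / 256) := h 8
  funext i
  fin_cases i
  · exact of_xor m n
  · change of ((m ^^^ n) / 16) = of (m / 16) + of (n / 16)
    rw [← of_xor, h4]
  · change of ((m ^^^ n) / 256) = of (m / 256) + of (n / 256)
    rw [← of_xor, h8]

/-- scalar multiplication on codes -/
def smN (c n : ℕ) : ℕ :=
  mulN c (n % 16) + 16 * mulN c (n / 16 % 16) + 256 * mulN c (n / 256 % 16)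

theorem vec_smN {c : ℕ} (hc : c < 16) (n : ℕ) : vec (smN c n) = of c • vec n := by
  have h0 := mulN_lt c (n % 16)
  have h1 := mulN_lt c (n / 16 % 16)
  have h2 := mulN_lt c (n / 256 % 16)
  have hc' : c = c % 16 := (Nat.mod_eq_of_lt hc).symm
  funext i
  fin_cases i
  · change of (smN c n) = of c * of n
    rw [← of_mul, ← hc']
    apply of_eq_of_mod
    unfold smN
    omega
  · change of (smN c n / 16) = of c * of (n / 16)
    rw [← of_mul, ← hc']
    apply of_eq_of_mod
    unfold smN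
    omega
  · change of (smN c n / 256) = of c * of (n / 256)
    rw [← of_mul, ← hc']
    apply of_eq_of_mod
    unfold smN
    omega

theorem smN_lt (c n : ℕ) : smN c n < 4096 := by
  have h0 := mulN_lt c (n % 16)
  have h1 := mulN_lt c (n / 16 % 16)
  have h2 := mulN_lt c (n / 256 % 16)
  unfold smN
  omega

theorem vec_zero : vec 0 = 0 := by
  funext i
  fin_cases i <;> rfl

theorem vec_inj {m n : ℕ} (hm : m < 4096) (hn : n < 4096) (h : vec m = vec n) : m = n := by
  have h0 : (vec m 0).code = (vec n 0).code := by rw [h]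
  have h1 : (vec m 1).code = (vec n 1).code := by rw [h]
  have h2 : (vec m 2).code = (vec n 2).code := by rw [h]
  change m % 16 = n % 16 at h0
  change m / 16 % 16 = n / 16 % 16 at h1
  change m / 256 % 16 = n / 256 % 16 at h2
  omega

/-- isotropic vectors -/
def Iso (x : Vec) : Prop := x ≠ 0 ∧ hf x x = 0

/-- isotropic codes -/
def isoN (n : ℕ) : Bool := !(n.beq 0) && (hN n n).beq 0

theorem isoN_iff {n : ℕ} (hn : n < 4096) : isoN n = true ↔ Iso (vec n) := by
  unfold isoN Iso
  rw [Bool.and_eq_true, Bool.not_eq_true', ← hN_eq_zero, Nat.beq_eq]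
  constructor
  · rintro ⟨h1, h2⟩
    refine ⟨fun h => ?_, h2⟩
    have h3 : n = 0 := vec_inj hn (by norm_num) (by rw [h, vec_zero])
    rw [h3] at h1
    exact absurd h1 (by decide)
  · rintro ⟨h1, h2⟩
    refine ⟨?_, h2⟩
    by_contra h3
    rw [Bool.not_eq_false, Nat.beq_eq] at h3
    exact h1 (by rw [h3, vec_zero])

end Cfsg.Agent.H426.U34
end

-- part: H426/U34Mod
section
/-!
# A module in characteristic 5 for the 3-dimensional unitary group over the field with 16 elements

The elements are the functions `Φ` on pairs of isotropic vectors, `Φ x y + Φ y z = Φ x z`, not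
depending on scalars, such that the sum over each hyperbolic line is zero.
-/

set_option autoImplicit false

namespace Cfsg.Agent.H426.U34

open K16 Matrix

/-- the group -/
abbrev UG : Type := ↥(Cfsg.SU 3 K16 4)

/-- the action on vectors -/
def mv (g : UG) (x : Vec) : Vec := (g.1 : Matrix (Fin 3) (Fin 3) K16) *ᵥ x

theorem mv_one (x : Vec) : mv 1 x = x := by
  unfold mv
  exact Matrix.one_mulVec x

theorem mv_mul (g h : UG) (x : Vec) : mv (g * h) x = mv g (mv h x) := by
  unfold mv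
  rw [Matrix.mulVec_mulVec]
  rfl

theorem mv_inv_mv (g : UG) (x : Vec) : mv g⁻¹ (mv g x) = x := by
  rw [← mv_mul, inv_mul_cancel, mv_one]

theorem mv_mv_inv (g : UG) (x : Vec) : mv g (mv g⁻¹ x) = x := by
  rw [← mv_mul, mul_inv_cancel, mv_one]

theorem mv_smul (g : UG) (c : K16) (x : Vec) : mv g (c • x) = c • mv g x :=
  Matrix.mulVec_smul _ _ _

theorem mv_add (g : UG) (x y : Vec) : mv g (x + y) = mv g x + mv g y :=
  Matrix.mulVec_add _ _ _

theorem mv_zero (g : UG) : mv g 0 = 0 := Matrix.mulVec_zero _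

theorem hf_mv (g : UG) (x y : Vec) : hf (mv g x) (mv g y) = hf x y := g.2 x y

theorem mv_eq_zero (g : UG) (x : Vec) : mv g x = 0 ↔ x = 0 := by
  constructor
  · intro h
    rw [← mv_inv_mv g x, h, mv_zero]
  · rintro rfl; exact mv_zero g

theorem iso_mv (g : UG) (x : Vec) : Iso (mv g x) ↔ Iso x := by
  unfold Iso
  rw [hf_mv, Ne, mv_eq_zero]

/-- the module -/
def VM : AddSubgroup (Vec → Vec → ZMod 5) where
  carrier := {Φ | (∀ x y, ¬ (Iso x ∧ Iso y) → Φ x y = 0) ∧
    (∀ x y z, Iso x → Iso y → Iso z → Φ x y + Φ y z = Φ x z) ∧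
    (∀ (c : K16) x z, c ≠ 0 → Φ (c • x) z = Φ x z) ∧
    (∀ x y z, Iso x → Iso y → Iso z → hf x y ≠ 0 → Φ x z + ∑ c : K16, Φ (y + c • x) z = 0)}
  add_mem' := by
    rintro Φ Ψ ⟨h1, h2, h3, h4⟩ ⟨k1, k2, k3, k4⟩
    refine ⟨fun x y h => ?_, fun x y z hx hy hz => ?_, fun c x z hc => ?_,
      fun x y z hx hy hz hh => ?_⟩
    · simp only [Pi.add_apply, h1 x y h, k1 x y h, add_zero]
    · simp only [Pi.add_apply, ← h2 x y z hx hy hz, ← k2 x y z hx hy hz]; abel
    · simp only [Pi.add_apply, h3 c x z hc, k3 c x z hc]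
    · simp only [Pi.add_apply, Finset.sum_add_distrib]
      have e1 := h4 x y z hx hy hz hh
      have e2 := k4 x y z hx hy hz hh
      linear_combination e1 + e2
  zero_mem' := by
    refine ⟨fun x y h => rfl, fun x y z hx hy hz => by simp, fun c x z hc => rfl,
      fun x y z hx hy hz hh => by simp⟩
  neg_mem' := by
    rintro Φ ⟨h1, h2, h3, h4⟩
    refine ⟨fun x y h => ?_, fun x y z hx hy hz => ?_, fun c x z hc => ?_,
      fun x y z hx hy hz hh => ?_⟩
    · simp only [Pi.neg_apply, h1 x y h, neg_zero]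
    · simp only [Pi.neg_apply, ← h2 x y z hx hy hz]; ring
    · simp only [Pi.neg_apply, h3 c x z hc]
    · simp only [Pi.neg_apply, Finset.sum_neg_distrib]
      have e1 := h4 x y z hx hy hz hh
      linear_combination -e1

/-- the action on functions -/
def actF (g : UG) (Φ : Vec → Vec → ZMod 5) : Vec → Vec → ZMod 5 :=
  fun x y => Φ (mv g⁻¹ x) (mv g⁻¹ y)

theorem actF_mem (g : UG) {Φ : Vec → Vec → ZMod 5} (h : Φ ∈ VM) : actF g Φ ∈ VM := by
  obtain ⟨h1, h2, h3, h4⟩ := h
  refine ⟨fun x y h => ?_, fun x y z hx hy hz => ?_, fun c x z hc => ?_,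
      fun x y z hx hy hz hh => ?_⟩
  · exact h1 _ _ (fun h' => h ⟨(iso_mv _ _).1 h'.1, (iso_mv _ _).1 h'.2⟩)
  · exact h2 _ _ _ ((iso_mv _ _).2 hx) ((iso_mv _ _).2 hy) ((iso_mv _ _).2 hz)
  · unfold actF
    rw [mv_smul]
    exact h3 _ _ _ hc
  · have e := h4 (mv g⁻¹ x) (mv g⁻¹ y) (mv g⁻¹ z) ((iso_mv _ _).2 hx) ((iso_mv _ _).2 hy)
      ((iso_mv _ _).2 hz) (by rw [hf_mv]; exact hh)
    have e2 : ∀ c : K16, actF g Φ (y + c • x) z = Φ (mv g⁻¹ y + c • mv g⁻¹ x) (mv g⁻¹ z) := by
      intro c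
      unfold actF
      rw [mv_add, mv_smul]
    rw [Finset.sum_congr rfl (fun c _ => e2 c)]
    exact e

/-- the action on the module -/
instance instAct : DistribMulAction UG ↥VM where
  smul g v := ⟨actF g v.1, actF_mem g v.2⟩
  one_smul v := by
    apply Subtype.ext
    change actF 1 v.1 = v.1
    funext x y
    unfold actF
    rw [inv_one, mv_one, mv_one]
  mul_smul g h v := by
    apply Subtype.ext
    change actF (g * h) v.1 = actF g (actF h v.1)
    funext x y
    unfold actF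
    rw [_root_.mul_inv_rev, mv_mul, mv_mul]
  smul_zero g := rfl
  smul_add g v w := rfl

theorem smul_apply (g : UG) (v : ↥VM) (x y : Vec) :
    (g • v).1 x y = v.1 (mv g⁻¹ x) (mv g⁻¹ y) := rfl

theorem five_nsmul (v : ↥VM) : 5 • v = 0 := by
  apply Subtype.ext
  funext x y
  change (5 • v.1 x y : ZMod 5) = 0
  rw [nsmul_eq_mul]
  have h : ((5 : ℕ) : ZMod 5) = 0 := by decide
  rw [h, zero_mul]

theorem ext_VM {v : ↥VM} (h : ∀ x y, Iso x → Iso y → v.1 x y = 0) : v = 0 := by
  apply Subtype.ext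
  funext x y
  by_cases hxy : Iso x ∧ Iso y
  · exact h x y hxy.1 hxy.2
  · exact v.2.1 x y hxy

end Cfsg.Agent.H426.U34
end

-- part: H426/U34Nt
section
/-!
# The module is not trivial
-/

set_option autoImplicit false

namespace Cfsg.Agent.H426.U34

open K16

/-- bounded universal quantifier -/
def allB (f : ℕ → Bool) (n : ℕ) : Bool := Nat.rec true (fun k ih => f k && ih) n

theorem allB_spec (f : ℕ → Bool) (n : ℕ) (h : allB f n = true) : ∀ i < n, f i = true := by
  induction n with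
  | zero => intro i hi; omega
  | succ k ih =>
    have h1 : (f k && allB f k) = true := h
    rw [Bool.and_eq_true] at h1
    intro i hi
    rcases Nat.lt_succ_iff_lt_or_eq.1 hi with h2 | h2
    · exact ih h1.2 i h2
    · rw [h2]; exact h1.1

/-- sums -/
def rs (f : ℕ → ℕ) (n : ℕ) : ℕ := Nat.rec 0 (fun k ih => f k + ih) n

theorem rs_eq (f : ℕ → ℕ) (n : ℕ) : rs f n = ∑ i ∈ Finset.range n, f i := by
  induction n with
  | zero => rfl
  | succ k ih =>
    rw [Finset.sum_range_succ, ← ih, Nat.add_comm (rs f k)]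
    rfl

/-- the equivalence of the field with `Fin 16` -/
def eqv : K16 ≃ Fin 16 := ⟨K16.v, K16.mk, fun _ => rfl, fun _ => rfl⟩

theorem sum_K16 {M : Type*} [AddCommMonoid M] (F : K16 → M) :
    ∑ c : K16, F c = ∑ i ∈ Finset.range 16, F (of i) := by
  rw [← Fin.sum_univ_eq_sum_range (fun i => F (of i)) 16]
  refine Fintype.sum_equiv eqv _ _ (fun c => ?_)
  change F c = F (of c.code)
  rw [of_code]

theorem cd_vec {n : ℕ} (hn : n < 4096) : cd (vec n) = n := by
  apply vec_inj (cd_lt _) hn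
  rw [vec_cd]

theorem iso_iff_code (x : Vec) : Iso x ↔ isoN (cd x) = true := by
  rw [isoN_iff (cd_lt x), vec_cd]

/-- the list of normalized isotropic codes as one number; index mod 5 is the orbit of the element
of order 13 -/
def PT : ℕ := 0xb41d410f10a10116d1b615b1eb16b16312916718017e1571b91d51241f10be19219d1c10081d612e19710c14b1521ed11019b12514313e1341e31621de1421391931a01791e715d1351741761471751261e214d1531d91361b51f01c01a10810110

/-- the entries of the list -/
def pN (i : ℕ) : ℕ := (PT >>> (12 * i)) % 4096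

/-- fifth power -/
def p5N (a : ℕ) : ℕ := mulN a (p4N a)

/-- selection -/
def sel (b : Bool) (x y : ℕ) : ℕ := Bool.rec y x b

theorem sel_true (x y : ℕ) : sel true x y = x := rfl
theorem sel_false (x y : ℕ) : sel false x y = y := rfl

/-- the function on codes -/
def f0N (n : ℕ) : ℕ :=
  sel ((n % 16).beq 0 || (n / 16 % 16).beq 0 || (n / 256 % 16).beq 0) 0
    (sel ((p5N (n / 16 % 16)).beq (mulN 6 (p5N (n % 16)))) 1
      (sel ((p5N (n / 16 % 16)).beq (mulN 7 (p5N (n % 16)))) 4 0))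

/-- the inverse of the leading coordinate -/
def ldN (n : ℕ) : ℕ :=
  invN (sel ((n % 16).beq 0) (sel ((n / 16 % 16).beq 0) (n / 256 % 16) (n / 16 % 16)) (n % 16))

/-- membership in the list -/
def inPL (n : ℕ) : Bool := Nat.rec false (fun k ih => (pN k).beq n || ih) 65

/-- first check: scaling invariance -/
def chk1 : Bool := allB (fun n => (!(isoN n)) || allB (fun c => (f0N (smN (c + 1) n)).beq (f0N n)) 15) 4096

theorem chk1_true : chk1 = true := by decide +kernel

/-- second check: normalization -/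
def chk2 : Bool := allB (fun n => (!(isoN n)) ||
  ((inPL (smN (ldN n) n)) && (!((ldN n).beq 0)) && Nat.blt (ldN n) 16)) 4096

theorem chk2_true : chk2 = true := by decide +kernel

/-- the sum and the number of isotropic points -/
def sumN (m n : ℕ) : ℕ :=
  rs (fun c => sel (isoN (n ^^^ smN c m)) (1 + 100 * f0N (n ^^^ smN c m)) 0) 16

/-- third check: sums -/
def chk3 : Bool := allB (fun i => allB (fun j =>
  (i.beq j) || (((sumN (pN i) (pN j)) % 100).beq 4 &&
    ((f0N (pN i) + sumN (pN i) (pN j) / 100) % 5).beq 0)) 65) 65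

theorem chk3_true : chk3 = true := by decide +kernel

theorem inPL_spec {n : ℕ} (h : inPL n = true) : ∃ i < 65, pN i = n := by
  have key : ∀ k : ℕ, (Nat.rec false (fun k ih => (pN k).beq n || ih) k : Bool) = true →
      ∃ i < k, pN i = n := by
    intro k
    induction k with
    | zero => intro h; exact absurd h Bool.false_ne_true
    | succ k ih =>
      intro h
      have h1 : ((pN k).beq n || (Nat.rec false (fun k ih => (pN k).beq n || ih) k : Bool)) = true := h
      rw [Bool.or_eq_true] at h1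
      rcases h1 with h1 | h1
      · exact ⟨k, by omega, Nat.eq_of_beq_eq_true h1⟩
      · obtain ⟨i, hi, hi2⟩ := ih h1
        exact ⟨i, by omega, hi2⟩
  exact key 65 h

theorem cd_smul (c : K16) (x : Vec) : cd (c • x) = smN c.code (cd x) := by
  apply vec_inj (cd_lt _) (smN_lt _ _)
  rw [vec_cd, vec_smN c.code_lt, of_code, vec_cd]

theorem hf_smul_smul (c : K16) (x : Vec) : hf (c • x) (c • x) = c * c ^ 4 * hf x x := by
  rw [hf_def, hf_def]
  simp only [Pi.smul_apply, smul_eq_mul]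
  ring

theorem iso_smul {c : K16} (hc : c ≠ 0) (x : Vec) : Iso (c • x) ↔ Iso x := by
  unfold Iso
  rw [hf_smul_smul, Ne, smul_eq_zero, mul_eq_zero]
  have h1 : ¬ (c * c ^ 4 = 0) := by
    rw [mul_eq_zero]
    rintro (h | h)
    · exact hc h
    · exact hc (pow_eq_zero_iff (by norm_num) |>.1 h)
  simp only [hc, h1, false_or]

theorem f0N_smul {c : K16} (hc : c ≠ 0) {x : Vec} (hx : Iso x) :
    f0N (cd (c • x)) = f0N (cd x) := by
  have h1 := allB_spec _ _ chk1_true (cd x) (cd_lt x)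
  rw [Bool.or_eq_true, Bool.not_eq_true', (iso_iff_code x).1 hx] at h1
  rcases h1 with h1 | h1
  · exact absurd h1 (by decide)
  · have hc0 : c.code ≠ 0 := by
      intro h
      apply hc
      rw [← of_code c, h]
      rfl
    have hc1 := c.code_lt
    have h2 := allB_spec _ _ h1 (c.code - 1) (by omega)
    have h3 : c.code - 1 + 1 = c.code := by omega
    have h4 := Nat.eq_of_beq_eq_true h2
    rw [h3] at h4
    rw [cd_smul]
    exact h4

/-- every isotropic vector is a multiple of one of the list -/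
theorem exists_PL {x : Vec} (hx : Iso x) : ∃ c : K16, c ≠ 0 ∧ ∃ i < 65, c • x = vec (pN i) := by
  have h1 := allB_spec _ _ chk2_true (cd x) (cd_lt x)
  rw [Bool.or_eq_true, Bool.not_eq_true', (iso_iff_code x).1 hx] at h1
  rcases h1 with h1 | h1
  · exact absurd h1 (by decide)
  · rw [Bool.and_eq_true, Bool.and_eq_true] at h1
    obtain ⟨⟨h2, h3⟩, h4⟩ := h1
    obtain ⟨i, hi, hi2⟩ := inPL_spec h2
    have h5 : ldN (cd x) < 16 := Nat.le_of_ble_eq_true h4
    have h7 : ldN (cd x) ≠ 0 := by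
      intro h
      rw [h] at h3
      exact absurd h3 (by decide)
    refine ⟨of (ldN (cd x)), fun h => h7 ((of_eq_zero h5).1 h), i, hi, ?_⟩
    rw [hi2, vec_smN h5, vec_cd]

theorem exists_PL' {x : Vec} (hx : Iso x) : ∃ c : K16, c ≠ 0 ∧ ∃ i < 65, x = c • vec (pN i) := by
  obtain ⟨c, hc, i, hi, h⟩ := exists_PL hx
  exact ⟨c⁻¹, inv_ne_zero hc, i, hi, by rw [← h, smul_smul, inv_mul_cancel₀ hc, one_smul]⟩

theorem pN_lt (i : ℕ) : pN i < 4096 := Nat.mod_lt _ (by norm_num)

/-- the function on isotropic vectors -/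
def f0 (x : Vec) : ZMod 5 := (f0N (cd x) : ZMod 5)

open Classical in
/-- the element -/
noncomputable def Phi0 : Vec → Vec → ZMod 5 := fun x y => if Iso x ∧ Iso y then f0 x - f0 y else 0

theorem phi0_of {x y : Vec} (hx : Iso x) (hy : Iso y) : Phi0 x y = f0 x - f0 y := if_pos ⟨hx, hy⟩

theorem phi0_zero {x y : Vec} (h : ¬ (Iso x ∧ Iso y)) : Phi0 x y = 0 := if_neg h

theorem phi0_smul {c : K16} (hc : c ≠ 0) (x z : Vec) : Phi0 (c • x) z = Phi0 x z := by
  by_cases h : Iso x ∧ Iso z
  · rw [phi0_of h.1 h.2, phi0_of ((iso_smul hc x).2 h.1) h.2]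
    unfold f0
    rw [f0N_smul hc h.1]
  · rw [phi0_zero h, phi0_zero (by rwa [iso_smul hc x])]

/-- the reduction of the sum over a line to codes -/
theorem sum_reduce (F : Vec → ZMod 5) (hF : ∀ (c : K16) x, c ≠ 0 → F (c • x) = F x)
    {a b : K16} (ha : a ≠ 0) (hb : b ≠ 0) (m n : ℕ) :
    F (a • vec m) + ∑ c : K16, F (b • vec n + c • (a • vec m)) =
      F (vec m) + ∑ i ∈ Finset.range 16, F (vec (n ^^^ smN i m)) := by
  have h1 : ∀ c : K16, F (b • vec n + c • (a • vec m)) = F (vec n + (c * (a / b)) • vec m) := by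
    intro c
    rw [← hF b (vec n + (c * (a / b)) • vec m) hb, smul_add, smul_smul, smul_smul]
    have : c * a = b * (c * (a / b)) := by field_simp
    rw [this]
  rw [hF a _ ha]
  rw [Finset.sum_congr rfl (fun c _ => h1 c)]
  have h2 : ∑ c : K16, F (vec n + (c * (a / b)) • vec m) = ∑ c : K16, F (vec n + c • vec m) :=
    Fintype.sum_equiv (Equiv.mulRight₀ (a / b) (div_ne_zero ha hb)) _ _ (fun c => rfl)
  have h3 : ∑ c : K16, F (vec n + c • vec m) =
      ∑ i ∈ Finset.range 16, F (vec (n ^^^ smN i m)) := by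
    rw [sum_K16]
    refine Finset.sum_congr rfl (fun i hi => ?_)
    rw [vec_xor, vec_smN (Finset.mem_range.1 hi)]
  rw [h2, h3]

theorem iso_vec {n : ℕ} (hn : n < 4096) : Iso (vec n) ↔ isoN n = true := (isoN_iff hn).symm

theorem xor_lt' {m n : ℕ} (hm : m < 4096) (hn : n < 4096) : m ^^^ n < 4096 :=
  Nat.xor_lt_two_pow (n := 12) hm hn

theorem phi0_sum {i j : ℕ} (hi : i < 65) (hj : j < 65) (hij : i ≠ j)
    (hI : Iso (vec (pN i))) {z : Vec} (hz : Iso z) :
    Phi0 (vec (pN i)) z + ∑ c ∈ Finset.range 16, Phi0 (vec (pN j ^^^ smN c (pN i))) z = 0 := by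
  have h1 := allB_spec _ _ (allB_spec _ _ chk3_true i hi) j hj
  rw [Bool.or_eq_true, Bool.and_eq_true] at h1
  rcases h1 with h1 | ⟨h1, h2⟩
  · exact absurd (Nat.eq_of_beq_eq_true h1) hij
  · have h3 := Nat.eq_of_beq_eq_true h1
    have h4 := Nat.eq_of_beq_eq_true h2
    set w : ℕ → ℕ := fun c => pN j ^^^ smN c (pN i) with hw
    have hwlt : ∀ c, w c < 4096 := fun c => xor_lt' (pN_lt _) (smN_lt _ _)
    have hS : sumN (pN i) (pN j) =
        (∑ c ∈ Finset.range 16, (if isoN (w c) = true then 1 else 0)) +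
        100 * ∑ c ∈ Finset.range 16, (if isoN (w c) = true then f0N (w c) else 0) := by
      unfold sumN
      rw [rs_eq, Finset.mul_sum, ← Finset.sum_add_distrib]
      refine Finset.sum_congr rfl (fun c _ => ?_)
      change sel (isoN (w c)) (1 + 100 * f0N (w c)) 0 = _
      cases h : isoN (w c) with
      | true => simp [sel]
      | false => simp [sel]
    set A := ∑ c ∈ Finset.range 16, (if isoN (w c) = true then 1 else 0) with hA
    set B := ∑ c ∈ Finset.range 16, (if isoN (w c) = true then f0N (w c) else 0) with hB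
    have hA16 : A ≤ 16 := by
      rw [hA]
      calc _ ≤ ∑ c ∈ Finset.range 16, 1 := Finset.sum_le_sum (fun c _ => by split_ifs <;> omega)
        _ = 16 := by simp
    have hA4 : A = 4 := by omega
    have hB' : (f0N (pN i) + B) % 5 = 0 := by
      have : sumN (pN i) (pN j) / 100 = B := by omega
      rw [this] at h4
      exact h4
    have e1 : ∀ c, Phi0 (vec (w c)) z =
        (if isoN (w c) = true then (f0N (w c) : ZMod 5) else 0) -
          (if isoN (w c) = true then 1 else 0) * f0 z := by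
      intro c
      by_cases h : isoN (w c) = true
      · rw [phi0_of ((iso_vec (hwlt c)).2 h) hz, if_pos h, if_pos h, one_mul]
        unfold f0
        rw [cd_vec (hwlt c)]
      · rw [phi0_zero (fun h' => h ((iso_vec (hwlt c)).1 h'.1)), if_neg h, if_neg h]
        ring
    rw [Finset.sum_congr rfl (fun c _ => e1 c), Finset.sum_sub_distrib, ← Finset.sum_mul,
      phi0_of hI hz]
    have e2 : (∑ c ∈ Finset.range 16, (if isoN (w c) = true then (f0N (w c) : ZMod 5) else 0)) =
        (B : ZMod 5) := by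
      rw [hB, Nat.cast_sum]
      refine Finset.sum_congr rfl (fun c _ => ?_)
      split_ifs <;> simp
    have e3 : (∑ c ∈ Finset.range 16, (if isoN (w c) = true then (1 : ZMod 5) else 0)) =
        (A : ZMod 5) := by
      rw [hA, Nat.cast_sum]
      refine Finset.sum_congr rfl (fun c _ => ?_)
      split_ifs <;> simp
    rw [e2, e3, hA4]
    have e4 : ((f0N (pN i) + B : ℕ) : ZMod 5) = 0 :=
      (ZMod.natCast_eq_zero_iff _ 5).2 (Nat.dvd_of_mod_eq_zero hB')
    have e5 : f0 (vec (pN i)) = (f0N (pN i) : ZMod 5) := by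
      unfold f0
      rw [cd_vec (pN_lt i)]
    rw [e5]
    push_cast at e4 ⊢
    have e6 : (5 : ZMod 5) = 0 := by decide
    linear_combination e4 - f0 z * e6

theorem hf_self_eq {x : Vec} (hx : Iso x) (a b : K16) : hf (a • x) (b • x) = 0 := by
  have h : hf (a • x) (b • x) = a * b ^ 4 * hf x x := by
    rw [hf_def, hf_def]
    simp only [Pi.smul_apply, smul_eq_mul]
    ring
  rw [h, hx.2, mul_zero]

theorem phi0_mem : Phi0 ∈ VM := by
  refine ⟨fun x y h => phi0_zero h, fun x y z hx hy hz => ?_, fun c x z hc => phi0_smul hc x z,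
    fun x y z hx hy hz hh => ?_⟩
  · rw [phi0_of hx hy, phi0_of hy hz, phi0_of hx hz]; ring
  · obtain ⟨a, ha, i, hi, rfl⟩ := exists_PL' hx
    obtain ⟨b, hb, j, hj, rfl⟩ := exists_PL' hy
    have hij : i ≠ j := by
      rintro rfl
      exact hh (hf_self_eq ((iso_smul ha _).1 hx) a b)
    rw [sum_reduce (fun x => Phi0 x z) (fun c x hc => phi0_smul hc x z) ha hb]
    exact phi0_sum hi hj hij ((iso_smul ha _).1 hx) hz

instance instNontriv : Nontrivial ↥VM := by
  refine ⟨⟨0, ⟨Phi0, phi0_mem⟩, fun h => ?_⟩⟩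
  have h1 : (0 : Vec → Vec → ZMod 5) = Phi0 := congrArg Subtype.val h
  have h2 : Phi0 (vec 865) (vec 272) = 0 := by rw [← h1]; rfl
  have i1 : Iso (vec 865) := (isoN_iff (by norm_num)).1 (by decide +kernel)
  have i2 : Iso (vec 272) := (isoN_iff (by norm_num)).1 (by decide +kernel)
  rw [phi0_of i1 i2] at h2
  unfold f0 at h2
  rw [cd_vec (by norm_num), cd_vec (by norm_num)] at h2
  revert h2
  decide +kernel

end Cfsg.Agent.H426.U34
end

-- part: H426/U34Fix
section
/-!
# An element of order 13 of the 3-dimensional unitary group has no fixed vector on the module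
-/

set_option autoImplicit false

namespace Cfsg.Agent.H426.U34

open K16

/-- the field automorphism -/
noncomputable def sig : K16 →+* K16 := iterateFrobenius K16 2 2

theorem sig_apply (x : K16) : sig x = x ^ 4 := by
  unfold sig
  rw [iterateFrobenius_def]
  norm_num

/-- matrices from nine codes -/
def mat (a b c d e f g h i : ℕ) : Matrix (Fin 3) (Fin 3) K16 :=
  !![of a, of b, of c; of d, of e, of f; of g, of h, of i]

theorem mem_SU (g : Matrix.SpecialLinearGroup (Fin 3) K16)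
    (h : ∀ i j : Fin 3, g.1 0 i * (g.1 0 j * g.1 0 j * (g.1 0 j * g.1 0 j)) +
      g.1 1 i * (g.1 1 j * g.1 1 j * (g.1 1 j * g.1 1 j)) +
      g.1 2 i * (g.1 2 j * g.1 2 j * (g.1 2 j * g.1 2 j)) = if i = j then 1 else 0) :
    g ∈ Cfsg.SU 3 K16 4 := by
  rw [Cfsg.Agent.LieRecognition.PSUThreeSylow.mem_SU_iff sig_apply]
  ext i j
  rw [Matrix.mul_apply, Fin.sum_univ_three, Matrix.one_apply, ← h i j]
  simp only [Matrix.transpose_apply, Matrix.map_apply, sig_apply]
  ring

/-- the element of order 13 -/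
def a13 : Matrix.SpecialLinearGroup (Fin 3) K16 :=
  ⟨mat 0 0 12 2 9 0 6 13 0, by rw [Matrix.det_fin_three]; decide +kernel⟩

/-- an element of order 10 -/
def a10 : Matrix.SpecialLinearGroup (Fin 3) K16 :=
  ⟨mat 0 8 0 8 0 0 0 0 10, by rw [Matrix.det_fin_three]; decide +kernel⟩

/-- an element of order 15 -/
def a15 : Matrix.SpecialLinearGroup (Fin 3) K16 :=
  ⟨mat 3 6 0 14 11 0 0 0 10, by rw [Matrix.det_fin_three]; decide +kernel⟩

/-- the element of order 13 -/
def A13 : UG := ⟨a13, mem_SU _ (by decide +kernel)⟩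
/-- an element of order 10 -/
def A10 : UG := ⟨a10, mem_SU _ (by decide +kernel)⟩
/-- an element of order 15 -/
def A15 : UG := ⟨a15, mem_SU _ (by decide +kernel)⟩

theorem UG_eq_one_iff (g : UG) : g = 1 ↔ g.1.1 = 1 := by
  constructor
  · rintro rfl; rfl
  · intro h; exact Subtype.ext (Subtype.ext h)

theorem coe_pow (g : UG) (n : ℕ) : (g ^ n).1.1 = g.1.1 ^ n := by
  rw [Subgroup.coe_pow, Matrix.SpecialLinearGroup.coe_pow]

theorem A13_pow : A13 ^ 13 = 1 := by
  rw [UG_eq_one_iff, coe_pow]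
  have h2 : A13.1.1 * A13.1.1 = mat 14 3 0 1 13 11 9 15 14 := by decide +kernel
  have h3 : mat 14 3 0 1 13 11 9 15 14 * A13.1.1 = mat 6 8 4 6 9 12 15 4 6 := by decide +kernel
  have h6 : mat 6 8 4 6 9 12 15 4 6 * mat 6 8 4 6 9 12 15 4 6 = mat 11 2 10 12 13 3 11 8 11 := by
    decide +kernel
  have h12 : mat 11 2 10 12 13 3 11 8 11 * mat 11 2 10 12 13 3 11 8 11 =
    mat 0 3 6 0 14 11 10 0 0 := by decide +kernel
  have h13 : mat 0 3 6 0 14 11 10 0 0 * A13.1.1 = 1 := by decide +kernel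
  have e : A13.1.1 ^ 13 = (((A13.1.1 * A13.1.1) * A13.1.1) * ((A13.1.1 * A13.1.1) * A13.1.1)) *
    (((A13.1.1 * A13.1.1) * A13.1.1) * ((A13.1.1 * A13.1.1) * A13.1.1)) * A13.1.1 := by
    noncomm_ring
  rw [e, h2, h3, h6, h12, h13]

theorem orderOf_A13 : orderOf A13 = 13 := by
  have : Fact (Nat.Prime 13) := ⟨by norm_num⟩
  refine orderOf_eq_prime A13_pow (fun h => ?_)
  rw [UG_eq_one_iff] at h
  revert h
  decide +kernel

theorem orderOf_A10 : orderOf A10 = 10 := by
  have h2 : A10.1.1 * A10.1.1 = mat 12 0 0 0 12 0 0 0 8 := by decide +kernel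
  have h4 : mat 12 0 0 0 12 0 0 0 8 * mat 12 0 0 0 12 0 0 0 8 * A10.1.1 =
    mat 0 1 0 1 0 0 0 0 1 := by decide +kernel
  have h10 : mat 0 1 0 1 0 0 0 0 1 * mat 0 1 0 1 0 0 0 0 1 = 1 := by decide +kernel
  have e5 : A10.1.1 ^ 5 = mat 0 1 0 1 0 0 0 0 1 := by
    rw [← h4, ← h2]
    noncomm_ring
  refine orderOf_eq_of_pow_and_pow_div_prime (by norm_num) ?_ ?_
  · rw [UG_eq_one_iff, coe_pow, ← h10, ← e5, ← pow_add]
  · intro p hp hd
    have h1 : p ∣ 2 * 5 := hd
    rcases (Nat.Prime.dvd_mul hp).1 h1 with h | h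
    · rw [(Nat.prime_dvd_prime_iff_eq hp Nat.prime_two).1 h, Ne, UG_eq_one_iff, coe_pow]
      norm_num
      rw [e5]
      decide +kernel
    · rw [(Nat.prime_dvd_prime_iff_eq hp Nat.prime_five).1 h, Ne, UG_eq_one_iff, coe_pow]
      norm_num
      rw [sq, h2]
      decide +kernel

theorem orderOf_A15 : orderOf A15 = 15 := by
  have h2 : A15.1.1 * A15.1.1 = mat 7 5 0 9 11 0 0 0 8 := by decide +kernel
  have h3 : mat 7 5 0 9 11 0 0 0 8 * A15.1.1 = mat 10 0 0 0 10 0 0 0 15 := by decide +kernel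
  have h5 : mat 10 0 0 0 10 0 0 0 15 * mat 7 5 0 9 11 0 0 0 8 =
    mat 3 4 0 5 2 0 0 0 1 := by decide +kernel
  have h15 : mat 3 4 0 5 2 0 0 0 1 * mat 3 4 0 5 2 0 0 0 1 * mat 3 4 0 5 2 0 0 0 1 = 1 := by
    decide +kernel
  have e3 : A15.1.1 ^ 3 = mat 10 0 0 0 10 0 0 0 15 := by
    rw [← h3, ← h2]
    noncomm_ring
  have e5 : A15.1.1 ^ 5 = mat 3 4 0 5 2 0 0 0 1 := by
    rw [← h5, ← e3, ← h2]
    noncomm_ring
  refine orderOf_eq_of_pow_and_pow_div_prime (by norm_num) ?_ ?_
  · rw [UG_eq_one_iff, coe_pow, ← h15, ← e5, ← pow_add, ← pow_add]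
  · intro p hp hd
    have h1 : p ∣ 3 * 5 := hd
    rcases (Nat.Prime.dvd_mul hp).1 h1 with h | h
    · rw [(Nat.prime_dvd_prime_iff_eq hp Nat.prime_three).1 h, Ne, UG_eq_one_iff, coe_pow]
      norm_num
      rw [e5]
      decide +kernel
    · rw [(Nat.prime_dvd_prime_iff_eq hp Nat.prime_five).1 h, Ne, UG_eq_one_iff, coe_pow]
      norm_num
      rw [e3]
      decide +kernel

/-- the action of the element of order 13 on codes -/
def aN (n : ℕ) : ℕ := mulN 12 (n / 256 % 16) + 16 * ((mulN 2 (n % 16) ^^^ mulN 9 (n / 16 % 16)) % 16) +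
  256 * ((mulN 6 (n % 16) ^^^ mulN 13 (n / 16 % 16)) % 16)

theorem of_mulN {c : ℕ} (hc : c < 16) (a : ℕ) : of (mulN c (a % 16)) = of c * of a := by
  rw [← of_mul, Nat.mod_eq_of_lt hc]

theorem aN_lt (n : ℕ) : aN n < 4096 := by
  have h0 := mulN_lt 12 (n / 256 % 16)
  unfold aN
  omega

theorem vec_aN (n : ℕ) : vec (aN n) = mv A13 (vec n) := by
  have h0 := mulN_lt 12 (n / 256 % 16)
  have e0 : aN n % 16 = mulN 12 (n / 256 % 16) := by unfold aN; omega
  have e1 : aN n / 16 % 16 = (mulN 2 (n % 16) ^^^ mulN 9 (n / 16 % 16)) % 16 := by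
    unfold aN; omega
  have e2 : aN n / 256 % 16 = (mulN 6 (n % 16) ^^^ mulN 13 (n / 16 % 16)) % 16 := by
    unfold aN; omega
  have k : ∀ i : Fin 3, mv A13 (vec n) i = A13.1.1 i 0 * of n + A13.1.1 i 1 * of (n / 16) +
      A13.1.1 i 2 * of (n / 256) := by
    intro i
    unfold mv
    rw [Matrix.mulVec, dotProduct, Fin.sum_univ_three]
    rfl
  funext i
  rw [k]
  fin_cases i
  · change of (aN n) = of 0 * of n + of 0 * of (n / 16) + of 12 * of (n / 256)
    rw [← of_mod, e0, of_mulN (by norm_num)]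
    change _ = 0 * of n + 0 * of (n / 16) + _
    rw [zero_mul, zero_mul, zero_add, zero_add]
  · change of (aN n / 16) = of 2 * of n + of 9 * of (n / 16) + of 0 * of (n / 256)
    rw [← of_mod, e1, of_mod, of_xor, of_mulN (by norm_num), of_mulN (by norm_num)]
    change _ = _ + 0 * of (n / 256)
    rw [zero_mul, add_zero]
  · change of (aN n / 256) = of 6 * of n + of 13 * of (n / 16) + of 0 * of (n / 256)
    rw [← of_mod, e2, of_mod, of_xor, of_mulN (by norm_num), of_mulN (by norm_num)]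
    change _ = _ + 0 * of (n / 256)
    rw [zero_mul, add_zero]

/-- normalization -/
def nrmN (n : ℕ) : ℕ := smN (ldN n) n

/-- the index in the list -/
def idxN (n : ℕ) : ℕ := Nat.rec 0 (fun k ih => sel ((pN k).beq n) k ih) 65

theorem chk4 : allB (fun i => isoN (aN (pN i)) && isoN (pN i) &&
    (nrmN (aN (pN i))).beq (pN ((i + 5) % 65))) 65 = true := by
  decide +kernel

/-- the counting of orbits on a line -/
def cntN (b j : ℕ) : ℕ :=
  rs (fun c => sel (isoN (pN b ^^^ smN c (pN 0)) &&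
    (idxN (nrmN (pN b ^^^ smN c (pN 0))) % 5).beq j) 1 0) 16

theorem chk5 : allB (fun b => allB (fun c => !(isoN (pN b ^^^ smN c (pN 0))) ||
    ((pN (idxN (nrmN (pN b ^^^ smN c (pN 0))))).beq (nrmN (pN b ^^^ smN c (pN 0))) &&
    Nat.blt (idxN (nrmN (pN b ^^^ smN c (pN 0)))) 65)) 16) 6 = true := by
  decide +kernel

theorem cnt1 : cntN 1 0 = 1 ∧ cntN 1 1 = 2 ∧ cntN 1 2 = 1 ∧ cntN 1 3 = 0 ∧ cntN 1 4 = 0 := by
  decide +kernel
theorem cnt3 : cntN 3 0 = 1 ∧ cntN 3 1 = 1 ∧ cntN 3 2 = 0 ∧ cntN 3 3 = 2 ∧ cntN 3 4 = 0 := by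
  decide +kernel
theorem cnt4 : cntN 4 0 = 1 ∧ cntN 4 1 = 0 ∧ cntN 4 2 = 1 ∧ cntN 4 3 = 0 ∧ cntN 4 4 = 2 := by
  decide +kernel
theorem cnt5 : cntN 5 0 = 1 ∧ cntN 5 1 = 0 ∧ cntN 5 2 = 2 ∧ cntN 5 3 = 0 ∧ cntN 5 4 = 1 := by
  decide +kernel
theorem hN_ne : (hN (pN 0) (pN 1)).beq 0 = false ∧ (hN (pN 0) (pN 3)).beq 0 = false ∧
    (hN (pN 0) (pN 4)).beq 0 = false ∧ (hN (pN 0) (pN 5)).beq 0 = false := by
  decide +kernel

theorem solve5 : ∀ a b c d e : ZMod 5, 2 * a + 2 * b + c = 0 → 2 * a + b + 2 * d = 0 →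
    2 * a + c + 2 * e = 0 → 2 * a + 2 * c + e = 0 → b = a ∧ c = a ∧ d = a ∧ e = a := by
  decide +kernel

theorem nrm_spec {n : ℕ} (hn : n < 4096) (h : isoN n = true) :
    ∃ c : K16, c ≠ 0 ∧ vec (nrmN n) = c • vec n := by
  have h1 := allB_spec _ _ chk2_true n hn
  rw [Bool.or_eq_true, Bool.not_eq_true', h] at h1
  rcases h1 with h1 | h1
  · exact absurd h1 (by decide)
  · rw [Bool.and_eq_true, Bool.and_eq_true] at h1
    obtain ⟨⟨h2, h3⟩, h4⟩ := h1
    have h5 : ldN n < 16 := Nat.le_of_ble_eq_true h4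
    have h7 : ldN n ≠ 0 := by
      intro h
      rw [h] at h3
      exact absurd h3 (by decide)
    exact ⟨of (ldN n), fun h => h7 ((of_eq_zero h5).1 h), vec_smN h5 n⟩

section

variable {Φ : ↥VM}

theorem fixed_apply (hΦ : A13 • Φ = Φ) (x y : Vec) : Φ.1 (mv A13 x) (mv A13 y) = Φ.1 x y := by
  have h := smul_apply A13 Φ (mv A13 x) (mv A13 y)
  rw [hΦ, mv_inv_mv, mv_inv_mv] at h
  exact h

theorem self_zero (Φ : ↥VM) {x : Vec} (hx : Iso x) : Φ.1 x x = 0 := by
  have h := Φ.2.2.1 x x x hx hx hx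
  exact add_eq_left.1 h

theorem orbit_zero (hΦ : A13 • Φ = Φ) {x : Vec} (hx : Iso x) : Φ.1 (mv A13 x) x = 0 := by
  have key : ∀ k : ℕ, Φ.1 (mv (A13 ^ k) x) x = (k : ZMod 5) * Φ.1 (mv A13 x) x := by
    intro k
    induction k with
    | zero => rw [pow_zero, mv_one, self_zero Φ hx]; simp
    | succ k ih =>
      have h1 : mv (A13 ^ (k + 1)) x = mv A13 (mv (A13 ^ k) x) := by
        rw [pow_succ', mv_mul]
      have h2 := Φ.2.2.1 (mv (A13 ^ (k + 1)) x) (mv A13 x) x ((iso_mv _ _).2 hx)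
        ((iso_mv _ _).2 hx) hx
      rw [← h2, h1, fixed_apply hΦ, ih]
      push_cast
      ring
  have h := key 13
  rw [A13_pow, mv_one, self_zero Φ hx] at h
  have h13 : ∀ c : ZMod 5, 0 = ((13 : ℕ) : ZMod 5) * c → c = 0 := by decide
  exact h13 _ h

theorem orbit_const (hΦ : A13 • Φ = Φ) {x z : Vec} (hx : Iso x) (hz : Iso z) :
    Φ.1 (mv A13 x) z = Φ.1 x z := by
  rw [← Φ.2.2.1 (mv A13 x) x z ((iso_mv _ _).2 hx) hx hz, orbit_zero hΦ hx, zero_add]

theorem iso_pN {i : ℕ} (hi : i < 65) : Iso (vec (pN i)) := by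
  have h := allB_spec _ _ chk4 i hi
  rw [Bool.and_eq_true, Bool.and_eq_true] at h
  exact (iso_vec (pN_lt i)).2 h.1.2

theorem step (hΦ : A13 • Φ = Φ) {z : Vec} (hz : Iso z) {i : ℕ} (hi : i < 65) :
    Φ.1 (vec (pN ((i + 5) % 65))) z = Φ.1 (vec (pN i)) z := by
  have h := allB_spec _ _ chk4 i hi
  rw [Bool.and_eq_true, Bool.and_eq_true] at h
  obtain ⟨⟨h1, h2⟩, h3⟩ := h
  rw [← Nat.eq_of_beq_eq_true h3]
  obtain ⟨c, hc, hc2⟩ := nrm_spec (aN_lt (pN i)) h1
  rw [hc2, Φ.2.2.2.1 c _ _ hc, vec_aN, orbit_const hΦ (iso_pN hi) hz]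

theorem mod_five (hΦ : A13 • Φ = Φ) {z : Vec} (hz : Iso z) (i : ℕ) (hi : i < 65) :
    Φ.1 (vec (pN i)) z = Φ.1 (vec (pN (i % 5))) z := by
  induction i using Nat.strong_induction_on with
  | _ i ih =>
    rcases Nat.lt_or_ge i 5 with h | h
    · rw [Nat.mod_eq_of_lt h]
    · have h1 := step hΦ hz (i := i - 5) (by omega)
      have h2 : (i - 5 + 5) % 65 = i := by omega
      rw [h2] at h1
      have h3 : (i - 5) % 5 = i % 5 := by omega
      rw [h1, ih (i - 5) (by omega) (by omega), h3]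

theorem count_sum (w : ℕ → ℕ) (p : ℕ → Bool) (t : ℕ → ℕ) (ht : ∀ n, t n < 5)
    (u : ℕ → ZMod 5) :
    ∑ j ∈ Finset.range 5, ((rs (fun c => sel (p (w c) && (t (w c)).beq j) 1 0) 16 : ℕ) : ZMod 5) *
      u j = ∑ c ∈ Finset.range 16, (if p (w c) = true then u (t (w c)) else 0) := by
  have e1 : ∀ j, ((rs (fun c => sel (p (w c) && (t (w c)).beq j) 1 0) 16 : ℕ) : ZMod 5) =
      ∑ c ∈ Finset.range 16, (if p (w c) = true ∧ t (w c) = j then (1 : ZMod 5) else 0) := by
    intro j
    rw [rs_eq, Nat.cast_sum]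
    refine Finset.sum_congr rfl (fun c _ => ?_)
    by_cases h : p (w c) = true ∧ t (w c) = j
    · rw [if_pos h, h.1, h.2, Bool.true_and, Nat.beq_refl, sel_true, Nat.cast_one]
    · rw [if_neg h]
      have : (p (w c) && (t (w c)).beq j) = false := by
        by_contra h'
        rw [Bool.not_eq_false, Bool.and_eq_true] at h'
        exact h ⟨h'.1, Nat.eq_of_beq_eq_true h'.2⟩
      rw [this, sel_false, Nat.cast_zero]
  simp only [e1, Finset.sum_mul]
  rw [Finset.sum_comm]
  refine Finset.sum_congr rfl (fun c hc => ?_)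
  by_cases h : p (w c) = true
  · rw [if_pos h, Finset.sum_eq_single (t (w c))]
    · rw [if_pos ⟨h, rfl⟩, one_mul]
    · intro j _ hj
      rw [if_neg (fun h' => hj h'.2.symm), zero_mul]
    · intro hj
      exact absurd (Finset.mem_range.2 (ht _)) hj
  · rw [if_neg h]
    refine Finset.sum_eq_zero (fun j _ => ?_)
    rw [if_neg (fun h' => h h'.1), zero_mul]

theorem term_eq (hΦ : A13 • Φ = Φ) {z : Vec} (hz : Iso z) {w : ℕ} (hw : w < 4096)
    (hc : (!(isoN w) || ((pN (idxN (nrmN w))).beq (nrmN w) && Nat.blt (idxN (nrmN w)) 65)) = true) :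
    Φ.1 (vec w) z = if isoN w = true then Φ.1 (vec (pN (idxN (nrmN w) % 5))) z else 0 := by
  by_cases h : isoN w = true
  · rw [if_pos h]
    rw [Bool.or_eq_true, Bool.not_eq_true', h, Bool.and_eq_true] at hc
    rcases hc with h5 | ⟨h5, h6⟩
    · exact absurd h5 (by decide)
    · have h7 := Nat.eq_of_beq_eq_true h5
      have h8 : idxN (nrmN w) < 65 := Nat.le_of_ble_eq_true h6
      obtain ⟨d, hd, hd2⟩ := nrm_spec hw h
      rw [← mod_five hΦ hz _ h8, h7, hd2, Φ.2.2.2.1 d _ _ hd]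
  · rw [if_neg h]
    exact Φ.2.1 _ _ (fun h' => h ((iso_vec hw).1 h'.1))

theorem line_eq (hΦ : A13 • Φ = Φ) {z : Vec} (hz : Iso z) {b : ℕ} (hb : b < 6)
    (hh : (hN (pN 0) (pN b)).beq 0 = false) :
    Φ.1 (vec (pN 0)) z + ∑ j ∈ Finset.range 5, (cntN b j : ZMod 5) * Φ.1 (vec (pN j)) z = 0 := by
  have h0 : hf (vec (pN 0)) (vec (pN b)) ≠ 0 := by
    intro h
    rw [(hN_eq_zero (pN 0) (pN b)).2 h] at hh
    exact Bool.false_ne_true hh.symm
  have h1 := Φ.2.2.2.2 (vec (pN 0)) (vec (pN b)) z (iso_pN (by norm_num)) (iso_pN (by omega)) hz h0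
  have e : ∑ c : K16, Φ.1 (vec (pN b) + c • vec (pN 0)) z =
      ∑ c ∈ Finset.range 16, Φ.1 (vec (pN b ^^^ smN c (pN 0))) z := by
    rw [sum_K16]
    refine Finset.sum_congr rfl (fun i hi => ?_)
    rw [vec_xor, vec_smN (Finset.mem_range.1 hi)]
  have e2 : ∑ c ∈ Finset.range 16, Φ.1 (vec (pN b ^^^ smN c (pN 0))) z =
      ∑ c ∈ Finset.range 16, (if isoN (pN b ^^^ smN c (pN 0)) = true then
        Φ.1 (vec (pN (idxN (nrmN (pN b ^^^ smN c (pN 0))) % 5))) z else 0) := by
    refine Finset.sum_congr rfl (fun c hc => ?_)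
    exact term_eq hΦ hz (xor_lt' (pN_lt b) (smN_lt c (pN 0)))
      (allB_spec _ _ (allB_spec _ _ chk5 b hb) c (Finset.mem_range.1 hc))
  rw [e, e2] at h1
  have e3 : ∑ j ∈ Finset.range 5, (cntN b j : ZMod 5) * Φ.1 (vec (pN j)) z =
      ∑ c ∈ Finset.range 16, (if isoN (pN b ^^^ smN c (pN 0)) = true then
        Φ.1 (vec (pN (idxN (nrmN (pN b ^^^ smN c (pN 0))) % 5))) z else 0) :=
    count_sum (fun c => pN b ^^^ smN c (pN 0)) isoN (fun n => idxN (nrmN n) % 5)
      (fun n => Nat.mod_lt _ (by norm_num)) (fun j => Φ.1 (vec (pN j)) z)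
  rw [e3, h1]

theorem fixed_zero (hΦ : A13 • Φ = Φ) : Φ = 0 := by
  apply ext_VM
  have key : ∀ z, Iso z → ∀ x, Iso x → Φ.1 x z = Φ.1 (vec (pN 0)) z := by
    intro z hz
    obtain ⟨n1, n3, n4, n5⟩ := hN_ne
    have e1 := line_eq hΦ hz (b := 1) (by norm_num) n1
    have e3 := line_eq hΦ hz (b := 3) (by norm_num) n3
    have e4 := line_eq hΦ hz (b := 4) (by norm_num) n4
    have e5 := line_eq hΦ hz (b := 5) (by norm_num) n5
    obtain ⟨a0, a1, a2, a3, a4⟩ := cnt1
    obtain ⟨b0, b1, b2, b3, b4⟩ := cnt3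
    obtain ⟨c0, c1, c2, c3, c4⟩ := cnt4
    obtain ⟨d0, d1, d2, d3, d4⟩ := cnt5
    rw [Finset.sum_range_succ, Finset.sum_range_succ, Finset.sum_range_succ,
      Finset.sum_range_succ, Finset.sum_range_one] at e1 e3 e4 e5
    rw [a0, a1, a2, a3, a4] at e1
    rw [b0, b1, b2, b3, b4] at e3
    rw [c0, c1, c2, c3, c4] at e4
    rw [d0, d1, d2, d3, d4] at e5
    push_cast at e1 e3 e4 e5
    obtain ⟨s1, s2, s3, s4⟩ := solve5 (Φ.1 (vec (pN 0)) z) (Φ.1 (vec (pN 1)) z)
      (Φ.1 (vec (pN 2)) z) (Φ.1 (vec (pN 3)) z) (Φ.1 (vec (pN 4)) z)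
      (by linear_combination e1) (by linear_combination e3) (by linear_combination e4)
      (by linear_combination e5)
    intro x hx
    obtain ⟨c, hc, i, hi, rfl⟩ := exists_PL' hx
    rw [Φ.2.2.2.1 c _ _ hc, mod_five hΦ hz i hi]
    have h5 : i % 5 < 5 := Nat.mod_lt _ (by norm_num)
    generalize i % 5 = j at h5
    interval_cases j
    · rfl
    · exact s1
    · exact s2
    · exact s3
    · exact s4
  intro x y hx hy
  rw [key y hy x hx, ← key y hy y hy, self_zero Φ hy]

end

end Cfsg.Agent.H426.U34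
end

-- part: H426/ConjPrime
section
/-!
# Conjugacy of elements of prime order when the Sylow subgroup has prime order
-/

set_option autoImplicit false

namespace Cfsg.Agent.H426

/-- If `p` exactly divides the order of the group then any element of order `p` is conjugate to a
power of any other one. -/
theorem conj_of_orderOf_eq_prime {G : Type*} [Group G] [Finite G] {p m : ℕ} (hp : p.Prime)
    (hm : ¬ p ∣ m) (hG : Nat.card G = p * m) {g h : G} (hg : orderOf g = p) (hh : orderOf h = p) :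
    ∃ b : G, ∃ k : ℕ, h = b * g ^ k * b⁻¹ := by
  have : Fact p.Prime := ⟨hp⟩
  have hfac : (Nat.card G).factorization p = 1 := by
    have hm0 : m ≠ 0 := by rintro rfl; exact hm (dvd_zero _)
    rw [hG, Nat.factorization_mul hp.ne_zero hm0, Finsupp.add_apply, hp.factorization_self,
      Nat.factorization_eq_zero_of_not_dvd hm]
  have key : ∀ x : G, orderOf x = p → Nat.card (Subgroup.zpowers x) =
      p ^ (Nat.card G).factorization p := by
    intro x hx
    rw [hfac, pow_one, Nat.card_zpowers, hx]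
  let P : Sylow p G := Sylow.ofCard (Subgroup.zpowers g) (key g hg)
  let Q : Sylow p G := Sylow.ofCard (Subgroup.zpowers h) (key h hh)
  obtain ⟨b, hb⟩ := MulAction.exists_smul_eq G P Q
  have h1 : h ∈ (Q : Subgroup G) := by
    change h ∈ Subgroup.zpowers h
    exact Subgroup.mem_zpowers h
  rw [← hb, Sylow.coe_subgroup_smul, Subgroup.mem_pointwise_smul_iff_inv_smul_mem] at h1
  have h2 : b⁻¹ * h * b ∈ Subgroup.zpowers g := by
    have e : (MulAut.conj b)⁻¹ • h = b⁻¹ * h * b := by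
      rw [← map_inv, MulAut.smul_def, MulAut.conj_apply, inv_inv]
    rw [e] at h1
    exact h1
  obtain ⟨k, hk⟩ := (mem_powers_iff_mem_zpowers (x := g)).2 h2
  refine ⟨b, k, ?_⟩
  have hk' : g ^ k = b⁻¹ * h * b := hk
  rw [hk']
  group

end Cfsg.Agent.H426
end

-- part: H426/U34Main
section
/-!
# Groups of unbounded order with the prime graph of `PSU₃(4)`
-/

set_option autoImplicit false

namespace Cfsg.Agent.H426.U34

open K16

theorem card_K16' : Fintype.card K16 = 4 ^ 2 := K16.card_K16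

theorem card_UG : Nat.card UG = 62400 := by
  have h := Cfsg.Agent.S0278.result card_K16' 3 (by norm_num)
  have h0 : Even 0 := by decide
  have h1 : ¬ Even 1 := by decide
  have h2 : Even 2 := by decide
  rw [Finset.prod_range_succ, Finset.prod_range_succ, Finset.prod_range_succ,
    Finset.prod_range_zero, if_pos h0, if_neg h1, if_pos h2] at h
  norm_num at h
  have h3 : 5 * Nat.card UG = 312000 := h
  omega

instance instFin : Finite UG := inferInstance

instance instFinVM : Finite ↥VM := inferInstance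

theorem prime_cases {r : ℕ} (hr : r.Prime) (h : r ∣ 62400) : r = 2 ∨ r = 3 ∨ r = 5 ∨ r = 13 := by
  have h1 : r ∣ 2 ^ 6 * (3 * (5 ^ 2 * 13)) := by
    have : (62400 : ℕ) = 2 ^ 6 * (3 * (5 ^ 2 * 13)) := by norm_num
    rwa [this] at h
  rcases (Nat.Prime.dvd_mul hr).1 h1 with h | h
  · exact Or.inl ((Nat.prime_dvd_prime_iff_eq hr Nat.prime_two).1 (hr.dvd_of_dvd_pow h))
  · rcases (Nat.Prime.dvd_mul hr).1 h with h | h
    · exact Or.inr (Or.inl ((Nat.prime_dvd_prime_iff_eq hr Nat.prime_three).1 h))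
    · rcases (Nat.Prime.dvd_mul hr).1 h with h | h
      · exact Or.inr (Or.inr (Or.inl
          ((Nat.prime_dvd_prime_iff_eq hr Nat.prime_five).1 (hr.dvd_of_dvd_pow h))))
      · exact Or.inr (Or.inr (Or.inr
          ((Nat.prime_dvd_prime_iff_eq hr (by norm_num)).1 h)))

theorem no_fixed {g : UG} (hg : orderOf g = 13) {Φ : ↥VM} (h : g • Φ = Φ) : Φ = 0 := by
  obtain ⟨b, k, hb⟩ := conj_of_orderOf_eq_prime (p := 13) (m := 4800) (by norm_num) (by norm_num)
    (by rw [card_UG]) hg orderOf_A13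
  have hk : ∀ k : ℕ, g ^ k • Φ = Φ := by
    intro k
    induction k with
    | zero => rw [pow_zero, one_smul]
    | succ k ih => rw [pow_succ, mul_smul, h, ih]
  have h1 : A13 • (b • Φ) = b • Φ := by
    rw [hb, mul_smul, mul_smul, inv_smul_smul, hk]
  have h2 : b • Φ = 0 := fixed_zero h1
  have h3 : b⁻¹ • (b • Φ) = 0 := by rw [h2, smul_zero]
  rwa [inv_smul_smul] at h3

theorem exists_large_UG (N : ℕ) :
    ∃ (K : Type) (_ : Group K) (_ : Finite K), N < Nat.card K ∧
      ((∀ q : ℕ, q.Prime → (q ∣ Nat.card UG ↔ q ∣ Nat.card K)) ∧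
      (∀ q r : ℕ, q.Prime → r.Prime → q ≠ r →
        ((∃ g : UG, orderOf g = q * r) ↔ (∃ g : K, orderOf g = q * r)))) := by
  refine Cfsg.Agent.H426.exists_large_same_primeGraph (G := UG) (V := ↥VM) (p := 5)
    (by norm_num) five_nsmul (by rw [card_UG]; norm_num) ?_ N
  intro r hr hr5 g v hg hv hgv
  have h1 : r ∣ 62400 := by
    rw [← card_UG, ← hg]
    exact orderOf_dvd_natCard g
  rcases prime_cases hr h1 with h | h | h | h
  · exact ⟨A10, by rw [orderOf_A10, h]⟩
  · exact ⟨A15, by rw [orderOf_A15, h]⟩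
  · exact absurd h hr5
  · exact absurd (no_fixed (hg.trans h) hgv) hv

/-- the quotient by the trivial centre -/
theorem psu_equiv : Nonempty (Cfsg.PSU 3 K16 4 ≃* UG) := by
  have h1 := Cfsg.Agent.S0280.card_center card_K16' 3 (by norm_num)
  have h2 : Subgroup.center UG = ⊥ := by
    apply Subgroup.eq_bot_of_card_eq
    rw [h1]
    norm_num
  exact ⟨(QuotientGroup.quotientMulEquivOfEq h2).trans QuotientGroup.quotientBot⟩

end Cfsg.Agent.H426.U34
end

-- part: S3663
section
set_option autoImplicit false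
open Cfsg

namespace Cfsg.Agent.S3663

/-- The prime graph of a finite group has the prime divisors of its order as vertices, two distinct primes p, q being joined when the group has an element of order pq; two groups have the same prime graph when they have the same prime divisors and the same joined pairs. Let F be the field with 16 elements and L = PSU(3,4) realised over F. There are finite groups of arbitrarily large order with the same prime graph as L. -/
theorem result {F : Type*} [Field F] [Fintype F] (hF : Fintype.card F = 16) (N : ℕ) :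
    ∃ (H : Type) (_ : Group H) (_ : Finite H), N < Nat.card H ∧
      ((∀ p : ℕ, p.Prime → (p ∣ Nat.card (Cfsg.PSU 3 F 4) ↔ p ∣ Nat.card H)) ∧
      (∀ p q : ℕ, p.Prime → q.Prime → p ≠ q → ((∃ g : (Cfsg.PSU 3 F 4), orderOf g = p * q) ↔ (∃ g : H, orderOf g = p * q)))) := by
  obtain ⟨e1⟩ := Cfsg.Agent.H426.U34.psu_equiv
  have e0 : F ≃+* Cfsg.Agent.H426.K16 :=
    FiniteField.ringEquivOfCardEq (K := F) (K' := Cfsg.Agent.H426.K16) (by rw [hF]; rfl)
  have e : Cfsg.PSU 3 F 4 ≃* Cfsg.Agent.H426.U34.UG :=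
    (Cfsg.Agent.LieClassical.FieldTransfer.psuCongr 3 4 e0).trans e1
  obtain ⟨H, i1, i2, h1, h2, h3⟩ := Cfsg.Agent.H426.U34.exists_large_UG N
  refine ⟨H, i1, i2, h1, ?_, ?_⟩
  · intro p hp
    rw [Nat.card_congr e.toEquiv]
    exact h2 p hp
  · intro p q hp hq hpq
    rw [← h3 p q hp hq hpq]
    constructor
    · rintro ⟨g, hg⟩
      exact ⟨e g, by rw [MulEquiv.orderOf_eq, hg]⟩
    · rintro ⟨g, hg⟩
      exact ⟨e.symm g, by rw [MulEquiv.orderOf_eq, hg]⟩

end Cfsg.Agent.S3663
end
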