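import Mathlib
import Cfsg.Agent.H423.SzEight
import Cfsg.Agent.H423.PSpSix
import Cfsg.Statements.S3664
set_option linter.all false

-- part: H423/SzGroup
section
/-!
The groups `M_4(F_8)^n : (Sz(8) : 3)`, and their prime graph.
-/

set_option autoImplicit false

namespace Cfsg.Agent.H423.SzGroup

open Cfsg.Agent.LieRecognition.SzMatrix Cfsg.Agent.H423.SzEight
open scoped Matrix

variable (K : Type) [Field K]

/-- the group of matrices -/
abbrev Mat : Type := Matrix (Fin 4) (Fin 4) K

/-- a ring automorphism acts on `GL_4` -/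
def glAut (τ : RingAut K) : MulAut (GL (Fin 4) K) :=
  Units.mapEquiv (RingEquiv.mapMatrix (m := Fin 4) (τ : K ≃+* K)).toMulEquiv

theorem glAut_val (τ : RingAut K) (g : GL (Fin 4) K) : (glAut K τ g).1 = g.1.map τ := rfl

/-- the action of the ring automorphisms on `GL_4` -/
def glHom : RingAut K →* MulAut (GL (Fin 4) K) where
  toFun := glAut K
  map_one' := by
    ext g i j
    rfl
  map_mul' σ τ := by
    ext g i j
    rfl

theorem glHom_val (τ : RingAut K) (g : GL (Fin 4) K) : (glHom K τ g).1 = g.1.map τ := rfl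

/-- `ΓL_4` -/
abbrev Gam : Type := GL (Fin 4) K ⋊[glHom K] RingAut K

variable {K}

theorem map_frob [CharP K 2] (τ : RingAut K) (A : Mat K) :
    (A.map τ).map (frobenius K 2) = (A.map (frobenius K 2)).map τ := by
  ext i j
  simp [frobenius_def]

/-- the action on `V ⊗ V^(2)` -/
def act [CharP K 2] (x : Gam K) (Y : Mat K) : Mat K :=
  x.left.1 * Y.map x.right * (x.left.1.map (frobenius K 2))ᵀ

theorem act_one [CharP K 2] (Y : Mat K) : act (1 : Gam K) Y = Y := by
  have h1 : (1 : Gam K).left.1 = (1 : Mat K) := rfl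
  have h2 : Y.map (1 : Gam K).right = Y := by ext i j; rfl
  rw [act, h1, h2]
  simp [Matrix.map_one]

theorem act_mul [CharP K 2] (x y : Gam K) (Y : Mat K) : act (x * y) Y = act x (act y Y) := by
  have h1 : (x * y).left.1 = x.left.1 * y.left.1.map x.right := rfl
  have h2 : Y.map (x * y).right = (Y.map y.right).map x.right := by ext i j; rfl
  rw [act, act, act, h1, h2, Matrix.map_mul, Matrix.map_mul, Matrix.map_mul, Matrix.transpose_mul, map_frob,
    Matrix.transpose_map]
  simp only [Matrix.mul_assoc]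

theorem act_add [CharP K 2] (x : Gam K) (Y Z : Mat K) : act x (Y + Z) = act x Y + act x Z := by
  rw [act, act, act, Matrix.map_add _ (by intro a b; exact map_add _ _ _), Matrix.mul_add, Matrix.add_mul]

/-- the action on `n` copies -/
def wAct [CharP K 2] (n : ℕ) (x : Gam K) : (Fin n → Mat K) ≃+ (Fin n → Mat K) where
  toFun Y i := act x (Y i)
  invFun Y i := act x⁻¹ (Y i)
  left_inv Y := by
    funext i
    change act x⁻¹ (act x (Y i)) = Y i
    rw [← act_mul, inv_mul_cancel, act_one]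
  right_inv Y := by
    funext i
    change act x (act x⁻¹ (Y i)) = Y i
    rw [← act_mul, mul_inv_cancel, act_one]
  map_add' Y Z := by
    funext i
    exact act_add _ _ _

variable (K)

/-- the action on `n` copies, as a homomorphism -/
def wHom [CharP K 2] (n : ℕ) : Gam K →* MulAut (Multiplicative (Fin n → Mat K)) where
  toFun x := AddEquiv.toMultiplicative (wAct n x)
  map_one' := by
    refine MulEquiv.ext fun Y => ?_
    refine Multiplicative.toAdd.injective ?_
    funext i
    exact act_one _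
  map_mul' x y := by
    refine MulEquiv.ext fun Y => ?_
    refine Multiplicative.toAdd.injective ?_
    funext i
    exact act_mul _ _ _

/-- the big semidirect product -/
abbrev Big [CharP K 2] (n : ℕ) : Type := Multiplicative (Fin n → Mat K) ⋊[wHom K n] Gam K

/-- the Frobenius automorphism -/
noncomputable def frobA [Finite K] [CharP K 2] : RingAut K := frobeniusEquiv K 2

variable {K}

theorem frobA_apply [Finite K] [CharP K 2] (x : K) : frobA K x = x ^ 2 := by
  change frobeniusEquiv K 2 x = x ^ 2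
  rw [frobeniusEquiv_apply, frobenius_def]

theorem map_J (τ : RingAut K) : (J K).map τ = J K := by
  ext i j
  fin_cases i <;> fin_cases j <;> simp [J]

theorem glHom_mem [CharP K 2] (h8 : ∀ x : K, x ^ 8 = x) (τ : RingAut K) {g : GL (Fin 4) K}
    (hg : g ∈ Cfsg.Lie.Sz K 4) : glHom K τ g ∈ Cfsg.Lie.Sz K 4 := by
  rw [(good h8).mem_Sz, mem_Sp4_iff] at hg ⊢
  obtain ⟨h1, h2⟩ := hg
  rw [glHom_val]
  constructor
  · have := congrArg (fun A : Mat K => A.map τ) h1
    simp only [Matrix.map_mul] at this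
    rw [map_J, Matrix.transpose_map] at this
    exact this
  · have e : Cfsg.Lie.star4 (g.1.map τ) = (Cfsg.Lie.star4 g.1).map τ := by
      ext p r
      simp [star4_apply, Matrix.map_apply]
    rw [e, h2]
    ext i j
    simp [th_apply]

/-- `Sz(8) : 3` -/
noncomputable def Gam0 (K : Type) [Field K] [Finite K] [CharP K 2] (h8 : ∀ x : K, x ^ 8 = x) : Subgroup (Gam K) where
  carrier := {x | x.left ∈ Cfsg.Lie.Sz K 4 ∧ x.right ∈ Subgroup.zpowers (frobA K)}
  mul_mem' := by
    rintro x y ⟨hx1, hx2⟩ ⟨hy1, hy2⟩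
    exact ⟨mul_mem hx1 (glHom_mem h8 _ hy1), mul_mem hx2 hy2⟩
  one_mem' := ⟨one_mem _, one_mem _⟩
  inv_mem' := by
    rintro x ⟨hx1, hx2⟩
    refine ⟨?_, inv_mem hx2⟩
    rw [SemidirectProduct.inv_left]
    exact glHom_mem h8 _ (inv_mem hx1)

/-- `M_4(F_8)^n : (Sz(8) : 3)` -/
noncomputable def HH (K : Type) [Field K] [Finite K] [CharP K 2] (h8 : ∀ x : K, x ^ 8 = x) (n : ℕ) :
    Subgroup (Big K n) :=
  (Gam0 K h8).comap SemidirectProduct.rightHom

instance finite_ringAut [Finite K] : Finite (RingAut K) :=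
  Finite.of_injective (fun τ : RingAut K => (τ : K → K)) DFunLike.coe_injective

instance finite_gam [Finite K] : Finite (Gam K) :=
  Finite.of_equiv _ SemidirectProduct.equivProd.symm

instance finite_big [Finite K] [CharP K 2] (n : ℕ) : Finite (Big K n) :=
  Finite.of_equiv _ SemidirectProduct.equivProd.symm

theorem mem_HH [Finite K] [CharP K 2] (h8 : ∀ x : K, x ^ 8 = x) (n : ℕ) (x : Big K n) :
    x ∈ HH K h8 n ↔ x.right.left ∈ Cfsg.Lie.Sz K 4 ∧ x.right.right ∈ Subgroup.zpowers (frobA K) := Iff.rfl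

theorem frobA_pow_three [Finite K] [CharP K 2] (h8 : ∀ x : K, x ^ 8 = x) : (frobA K) ^ 3 = 1 := by
  refine RingEquiv.ext fun x => ?_
  change frobA K (frobA K (frobA K x)) = x
  rw [frobA_apply, frobA_apply, frobA_apply]
  calc ((x ^ 2) ^ 2) ^ 2 = x ^ 8 := by ring
    _ = x := h8 x

theorem pow_three_of_mem [Finite K] [CharP K 2] (h8 : ∀ x : K, x ^ 8 = x) {τ : RingAut K}
    (h : τ ∈ Subgroup.zpowers (frobA K)) : τ ^ 3 = 1 := by
  obtain ⟨k, rfl⟩ := h
  change ((frobA K) ^ k) ^ 3 = 1
  rw [← zpow_natCast, ← zpow_mul, mul_comm, zpow_mul, zpow_natCast, frobA_pow_three h8, one_zpow]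

theorem cases_of_mem [Finite K] [CharP K 2] (h8 : ∀ x : K, x ^ 8 = x) {τ : RingAut K}
    (h : τ ∈ Subgroup.zpowers (frobA K)) : τ = 1 ∨ τ = frobA K ∨ τ = frobA K * frobA K := by
  obtain ⟨k, rfl⟩ := h
  have h3 : (frobA K) ^ (3 : ℤ) = 1 := by
    rw [show (3 : ℤ) = ((3 : ℕ) : ℤ) from rfl, zpow_natCast, frobA_pow_three h8]
  have hk : k = 3 * (k / 3) + k % 3 := (Int.mul_ediv_add_emod k 3).symm
  have : (frobA K) ^ k = (frobA K) ^ (k % 3) := by
    conv_lhs => rw [hk, zpow_add, zpow_mul, h3, one_zpow, one_mul]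
  change (frobA K) ^ k = 1 ∨ (frobA K) ^ k = _ ∨ (frobA K) ^ k = _
  rw [this]
  have h1 : k % 3 = 0 ∨ k % 3 = 1 ∨ k % 3 = 2 := by omega
  rcases h1 with h1 | h1 | h1
  · left; rw [h1, zpow_zero]
  · right; left; rw [h1, zpow_one]
  · right; right; rw [h1, zpow_two]

theorem fixed_of_mem [Finite K] [CharP K 2] (h8 : ∀ x : K, x ^ 8 = x) {τ : RingAut K}
    (h : τ ∈ Subgroup.zpowers (frobA K)) (h1 : τ ≠ 1) {a : K} (ha : τ a = a) : a = 0 ∨ a = 1 := by
  have key : a ^ 2 = a → a = 0 ∨ a = 1 := by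
    intro h
    have : a * (a - 1) = 0 := by linear_combination h
    rcases mul_eq_zero.1 this with h | h
    · exact Or.inl h
    · exact Or.inr (sub_eq_zero.1 h)
  rcases cases_of_mem h8 h with rfl | rfl | rfl
  · exact absurd rfl h1
  · rw [frobA_apply] at ha
    exact key ha
  · change frobA K (frobA K a) = a at ha
    rw [frobA_apply, frobA_apply] at ha
    apply key
    calc a ^ 2 = ((a ^ 2) ^ 2) ^ 2 := by rw [ha]
      _ = a ^ 8 := by ring
      _ = a := h8 a

/-! ### element orders -/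

theorem sq_of_right [Finite K] [CharP K 2] {n : ℕ} {x : Big K n} (h : x.right = 1) : x * x = 1 := by
  refine SemidirectProduct.ext ?_ ?_
  · rw [SemidirectProduct.mul_left, h, map_one]
    change x.left * x.left = 1
    refine Multiplicative.toAdd.injective ?_
    funext i
    change (Multiplicative.toAdd x.left) i + (Multiplicative.toAdd x.left) i = 0
    rw [← two_smul K, SzEight.two_eq_zero, zero_smul]
  · rw [SemidirectProduct.mul_right, h, mul_one]
    rfl

/-- powers in `Gam` of an element with trivial right part -/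
theorem left_pow {x : Gam K} (h : x.right = 1) (k : ℕ) : (x ^ k).left = x.left ^ k ∧ (x ^ k).right = 1 := by
  induction k with
  | zero => exact ⟨rfl, rfl⟩
  | succ k ih =>
    rw [pow_succ, pow_succ]
    constructor
    · rw [SemidirectProduct.mul_left, ih.2, map_one, ih.1]
      rfl
    · rw [SemidirectProduct.mul_right, ih.2, h, mul_one]

theorem pow_eq_one_iff {x : Gam K} (h : x.right = 1) (k : ℕ) : x ^ k = 1 ↔ x.left ^ k = 1 := by
  constructor
  · intro h1
    rw [← (left_pow h k).1, h1]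
    rfl
  · intro h1
    refine SemidirectProduct.ext ?_ ?_
    · rw [(left_pow h k).1, h1]; rfl
    · rw [(left_pow h k).2]; rfl

theorem gam_pow_cases [Finite K] [CharP K 2] (h8 : ∀ x : K, x ^ 8 = x) {x : Gam K} (hx : x ∈ Gam0 K h8)
    (h : x.right = 1) : x ^ 4 = 1 ∨ x ^ 5 = 1 ∨ x ^ 7 = 1 ∨ x ^ 13 = 1 := by
  simp only [pow_eq_one_iff h]
  exact pow_cases h8 hx.1

/-- no element of order `3 r`, `r = 7, 13` in `Sz(8) : 3` -/
theorem gam_no [Finite K] [CharP K 2] (h8 : ∀ x : K, x ^ 8 = x) {x : Gam K} (hx : x ∈ Gam0 K h8)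
    {r : ℕ} (hr : r = 7 ∨ r = 13) (ho : orderOf x = 3 * r) : False := by
  by_cases h1 : x.right = 1
  · have h : orderOf x ∣ 4 ∨ orderOf x ∣ 5 ∨ orderOf x ∣ 7 ∨ orderOf x ∣ 13 := by
      simp only [orderOf_dvd_iff_pow_eq_one]
      exact gam_pow_cases h8 hx h1
    rw [ho] at h
    rcases hr with rfl | rfl <;> norm_num at h
  · set y := x ^ 3 with hy
    have hy1 : y.right = 1 := by
      have : SemidirectProduct.rightHom (φ := glHom K) (x ^ 3) = SemidirectProduct.rightHom x ^ 3 := map_pow _ _ _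
      change SemidirectProduct.rightHom (φ := glHom K) (x ^ 3) = 1
      rw [this]
      exact pow_three_of_mem h8 hx.2
    have hym : y ∈ Gam0 K h8 := pow_mem hx 3
    have hoy : orderOf y = r := by
      rw [hy, orderOf_pow, ho]
      rcases hr with rfl | rfl <;> norm_num
    have hc : x * y = y * x := by rw [hy, ← pow_succ, ← pow_succ']
    have hl := congrArg SemidirectProduct.left hc
    rw [SemidirectProduct.mul_left, SemidirectProduct.mul_left, hy1, map_one] at hl
    change x.left * glHom K x.right y.left = y.left * x.left at hl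
    have ht : x.right y.left.1.trace = y.left.1.trace := by
      have e1 : glHom K x.right y.left = x.left⁻¹ * y.left * x.left := by
        rw [mul_assoc, ← hl]; group
      have e2 := congrArg (fun g : GL (Fin 4) K => g.1.trace) e1
      simp only [glHom_val] at e2
      have e3 : (y.left.1.map x.right).trace = x.right y.left.1.trace := by
        simp [Matrix.trace, map_sum]
      rw [e3] at e2
      rw [e2, Units.val_mul, Matrix.trace_mul_comm, Units.val_mul, ← Matrix.mul_assoc, ← Units.val_mul,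
        mul_inv_cancel, Units.val_one, Matrix.one_mul]
    have h4 : y ^ 4 = 1 ∨ y ^ 5 = 1 := by
      simp only [pow_eq_one_iff hy1]
      rcases fixed_of_mem h8 hx.2 h1 ht with h | h
      · exact Or.inl (pow_zero_case h8 hym.1 h)
      · exact Or.inr (pow_one_case h8 hym.1 h)
    have h5 : orderOf y ∣ 4 ∨ orderOf y ∣ 5 := by
      simp only [orderOf_dvd_iff_pow_eq_one]
      exact h4
    rw [hoy] at h5
    rcases hr with rfl | rfl <;> norm_num at h5

section
variable [Finite K] [CharP K 2] (h8 : ∀ x : K, x ^ 8 = x) {n : ℕ}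

/-- the projection -/
noncomputable def rho (n : ℕ) : HH K h8 n →* Gam0 K h8 where
  toFun x := ⟨x.1.right, x.2⟩
  map_one' := rfl
  map_mul' _ _ := rfl

theorem sq_of_rho {x : HH K h8 n} (h : rho h8 n x = 1) : x ^ 2 = 1 := by
  apply Subtype.ext
  rw [sq]
  exact sq_of_right (congrArg Subtype.val h)

theorem orderOf_dvd_two_mul {x : HH K h8 n} {k : ℕ} (h : rho h8 n x ^ k = 1) : orderOf x ∣ 2 * k := by
  rw [orderOf_dvd_iff_pow_eq_one, mul_comm, pow_mul]
  apply sq_of_rho
  rw [map_pow, h]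

/-- the part of order three -/
theorem right_of_coprime {x : HH K h8 n} (h : Nat.Coprime (orderOf x) 3) : x.1.right.right = 1 := by
  have h3 := pow_three_of_mem h8 x.2.2
  have hx : x.1.right.right ^ orderOf x = 1 := by
    have h1 : (x ^ orderOf x).1.right.right = 1 := by rw [pow_orderOf_eq_one]; rfl
    have h2 : ∀ k : ℕ, (x ^ k).1.right.right = x.1.right.right ^ k := by
      intro k
      induction k with
      | zero => rfl
      | succ k ih => rw [pow_succ, pow_succ, ← ih]; rfl
    rw [← h2, h1]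
  have h1 : orderOf x.1.right.right ∣ Nat.gcd (orderOf x) 3 :=
    Nat.dvd_gcd (orderOf_dvd_of_pow_eq_one hx) (orderOf_dvd_of_pow_eq_one h3)
  rw [Nat.Coprime] at h
  rw [h] at h1
  exact orderOf_eq_one_iff.1 (Nat.dvd_one.1 h1)

theorem dvd_of_coprime {x : HH K h8 n} (h : Nat.Coprime (orderOf x) 3) :
    orderOf x ∣ 8 ∨ orderOf x ∣ 10 ∨ orderOf x ∣ 14 ∨ orderOf x ∣ 26 := by
  have h1 := right_of_coprime h8 h
  have h2 := gam_pow_cases h8 (rho h8 n x).2 h1
  rcases h2 with h2 | h2 | h2 | h2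
  · exact Or.inl (orderOf_dvd_two_mul h8 (k := 4) (Subtype.ext h2))
  · exact Or.inr (Or.inl (orderOf_dvd_two_mul h8 (k := 5) (Subtype.ext h2)))
  · exact Or.inr (Or.inr (Or.inl (orderOf_dvd_two_mul h8 (k := 7) (Subtype.ext h2))))
  · exact Or.inr (Or.inr (Or.inr (orderOf_dvd_two_mul h8 (k := 13) (Subtype.ext h2))))

/-- no element of order 26 -/
theorem no_twentysix (x : HH K h8 n) : orderOf x ≠ 26 := by
  intro ho
  have h1 := right_of_coprime h8 (x := x) (by rw [ho]; norm_num)
  set g := x.1.right.left with hg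
  have hgm : g ∈ Cfsg.Lie.Sz K 4 := x.2.1
  have hx1 : ∀ k : ℕ, g ^ k = 1 → orderOf x ∣ 2 * k := fun k hk =>
    orderOf_dvd_two_mul h8 (k := k) (Subtype.ext ((pow_eq_one_iff (x := x.1.right) h1 k).2 hk))
  have ha : g.1.trace ^ 3 = g.1.trace ^ 2 + 1 := by
    rcases cases8 h8 g.1.trace with h | h | h | h
    · exact absurd (hx1 4 (pow_zero_case h8 hgm h)) (by rw [ho]; norm_num)
    · exact absurd (hx1 5 (pow_one_case h8 hgm h)) (by rw [ho]; norm_num)
    · exact absurd (hx1 7 (pow_seven_case h8 hgm h)) (by rw [ho]; norm_num)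
    · exact h
  have hg13 : x.1.right ^ 13 = 1 := (pow_eq_one_iff h1 13).2 (pow_thirteen_case h8 hgm ha)
  -- the element `z = x ^ 13`
  have hz : (x.1 ^ 13).right = 1 := by
    change SemidirectProduct.rightHom (x.1 ^ 13) = 1
    rw [map_pow]
    exact hg13
  have hzne : x.1 ^ 13 ≠ 1 := by
    intro h
    have h2 : x ^ 13 = 1 := Subtype.ext h
    have := orderOf_dvd_of_pow_eq_one h2
    rw [ho] at this
    norm_num at this
  have hc : x.1 * x.1 ^ 13 = x.1 ^ 13 * x.1 := by rw [← pow_succ, ← pow_succ']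
  have hl := congrArg SemidirectProduct.left hc
  rw [SemidirectProduct.mul_left, SemidirectProduct.mul_left, hz, map_one] at hl
  change x.1.left * wHom K n x.1.right (x.1 ^ 13).left = (x.1 ^ 13).left * x.1.left at hl
  rw [mul_comm (x.1 ^ 13).left] at hl
  have hfix := mul_left_cancel hl
  apply hzne
  refine SemidirectProduct.ext ?_ hz
  refine Multiplicative.toAdd.injective ?_
  funext i
  have hi : act x.1.right ((Multiplicative.toAdd (x.1 ^ 13).left) i) = (Multiplicative.toAdd (x.1 ^ 13).left) i :=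
    congrFun (congrArg Multiplicative.toAdd hfix) i
  have hone : ∀ A : Mat K, A.map x.1.right.right = A := by
    intro A
    rw [h1]
    ext i j
    rfl
  rw [act, hone] at hi
  exact no_fixed h8 hgm ha _ hi

/-- no element of order 21 or 39 -/
theorem no_three (x : HH K h8 n) {r : ℕ} (hr : r = 7 ∨ r = 13) : orderOf x ≠ 3 * r := by
  intro ho
  refine gam_no h8 (rho h8 n x).2 hr ?_
  rw [Subgroup.orderOf_coe]
  have h1 : orderOf (rho h8 n x) ∣ 3 * r := ho ▸ orderOf_map_dvd _ _
  have h2 : orderOf x ∣ 2 * orderOf (rho h8 n x) := orderOf_dvd_two_mul h8 (pow_orderOf_eq_one _)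
  rw [ho] at h2
  have h3 : Nat.Coprime (3 * r) 2 := by rcases hr with rfl | rfl <;> norm_num
  exact Nat.dvd_antisymm h1 (h3.dvd_of_dvd_mul_left h2)

/-- the possible prime orders -/
theorem prime_order {p : ℕ} (hp : p.Prime) (x : HH K h8 n) (ho : orderOf x = p) :
    p = 2 ∨ p = 3 ∨ p = 5 ∨ p = 7 ∨ p = 13 := by
  by_cases h3 : p = 3
  · exact Or.inr (Or.inl h3)
  · have hc : Nat.Coprime (orderOf x) 3 := by
      rw [ho]
      exact (Nat.coprime_primes hp Nat.prime_three).2 h3
    have hpp : ∀ q r : ℕ, q.Prime → r.Prime → p ∣ q * r → p = q ∨ p = r := by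
      intro q r hq hr h
      rcases hp.dvd_mul.1 h with h | h
      · exact Or.inl ((Nat.prime_dvd_prime_iff_eq hp hq).1 h)
      · exact Or.inr ((Nat.prime_dvd_prime_iff_eq hp hr).1 h)
    have h := dvd_of_coprime h8 hc
    rw [ho] at h
    rcases h with h | h | h | h
    · left
      exact (Nat.prime_dvd_prime_iff_eq hp Nat.prime_two).1 (hp.dvd_of_dvd_pow (show p ∣ 2 ^ 3 from h))
    · rcases hpp 2 5 Nat.prime_two (by norm_num) h with h | h <;> simp [h]
    · rcases hpp 2 7 Nat.prime_two (by norm_num) h with h | h <;> simp [h]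
    · rcases hpp 2 13 Nat.prime_two (by norm_num) h with h | h <;> simp [h]

theorem no_odd (x : HH K h8 n) {m : ℕ} (hm : m = 35 ∨ m = 65 ∨ m = 91) : orderOf x ≠ m := by
  intro ho
  have h := dvd_of_coprime h8 (x := x) (by rw [ho]; rcases hm with rfl | rfl | rfl <;> norm_num)
  rw [ho] at h
  rcases hm with rfl | rfl | rfl <;> norm_num at h

/-! ### existence -/

/-- elements of the complement -/
noncomputable def mkR (x : Gam0 K h8) : HH K h8 n := ⟨SemidirectProduct.inr x.1, x.2⟩

theorem mkR_mul (x y : Gam0 K h8) : mkR h8 (n := n) (x * y) = mkR h8 x * mkR h8 y := by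
  apply Subtype.ext
  exact map_mul (SemidirectProduct.inr (φ := wHom K n)) x.1 y.1

theorem mkR_inj {x y : Gam0 K h8} (h : mkR h8 (n := n) x = mkR h8 y) : x = y := by
  apply Subtype.ext
  exact SemidirectProduct.inr_injective (congrArg Subtype.val h)

theorem orderOf_mkR (x : Gam0 K h8) : orderOf (mkR h8 (n := n) x) = orderOf x := by
  let f : Gam0 K h8 →* HH K h8 n :=
    { toFun := mkR h8
      map_one' := Subtype.ext (map_one (SemidirectProduct.inr (φ := wHom K n)))
      map_mul' := mkR_mul h8 }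
  exact orderOf_injective f (fun _ _ h => mkR_inj h8 h) x

/-- elements of the normal subgroup, constant -/
noncomputable def mkL (Y : Mat K) : HH K h8 n :=
  ⟨SemidirectProduct.inl (Multiplicative.ofAdd (fun _ => Y)), by
    rw [mem_HH, SemidirectProduct.right_inl]
    exact ⟨one_mem _, one_mem _⟩⟩

theorem orderOf_mkL {Y : Mat K} (hY : Y ≠ 0) : orderOf (mkL h8 (n := n + 1) Y) = 2 := by
  rw [orderOf_eq_prime_iff]
  constructor
  · apply sq_of_rho
    apply Subtype.ext
    rfl
  · intro h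
    apply hY
    have h1 : (mkL h8 (n := n + 1) Y).1.left = 1 := by rw [h]; rfl
    exact congrFun (congrArg Multiplicative.toAdd h1) 0

theorem commute_mk (x : Gam0 K h8) (Y : Mat K) (h : act x.1 Y = Y) :
    Commute (mkL h8 (n := n) Y) (mkR h8 x) := by
  apply Subtype.ext
  refine SemidirectProduct.ext ?_ ?_
  · change (Multiplicative.ofAdd (fun _ => Y)) * wHom K n 1 1 = 1 * wHom K n x.1 (Multiplicative.ofAdd (fun _ => Y))
    rw [map_one, one_mul]
    change (Multiplicative.ofAdd (fun _ => Y)) * 1 = _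
    rw [mul_one]
    refine Multiplicative.toAdd.injective ?_
    funext i
    exact h.symm
  · change (1 : Gam K) * x.1 = x.1 * 1
    rw [one_mul, mul_one]

/-- the field automorphism -/
noncomputable def phi : Gam0 K h8 := ⟨⟨1, frobA K⟩, one_mem _, Subgroup.mem_zpowers _⟩

/-- elements of `Sz` -/
noncomputable def mkS (g : GL (Fin 4) K) (hg : g ∈ Cfsg.Lie.Sz K 4) : Gam0 K h8 := ⟨⟨g, 1⟩, hg, one_mem _⟩

theorem frobA_ne_one (hex : ∃ a : K, a ^ 2 ≠ a) : frobA K ≠ 1 := by
  obtain ⟨a, ha⟩ := hex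
  intro h
  apply ha
  rw [← frobA_apply, h]
  rfl

theorem orderOf_phi (hex : ∃ a : K, a ^ 2 ≠ a) : orderOf (phi h8) = 3 := by
  have : Fact (Nat.Prime 3) := ⟨Nat.prime_three⟩
  rw [orderOf_eq_prime_iff]
  constructor
  · apply Subtype.ext
    refine SemidirectProduct.ext ?_ ?_
    · have : ∀ k : ℕ, (((phi h8).1) ^ k).left = 1 := by
        intro k
        induction k with
        | zero => rfl
        | succ k ih =>
          rw [pow_succ, SemidirectProduct.mul_left, ih, one_mul]
          exact map_one (glHom K _)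
      exact this 3
    · have : ∀ k : ℕ, (((phi h8).1) ^ k).right = frobA K ^ k := by
        intro k
        induction k with
        | zero => rfl
        | succ k ih => rw [pow_succ, SemidirectProduct.mul_right, ih, pow_succ]; rfl
      exact (this 3).trans (frobA_pow_three h8)
  · intro h
    apply frobA_ne_one hex
    exact congrArg (fun x : Gam0 K h8 => x.1.right) h

theorem orderOf_mkS (g : GL (Fin 4) K) (hg : g ∈ Cfsg.Lie.Sz K 4) {p : ℕ} (hp : p.Prime) (h : g ^ p = 1)
    (h1 : g ≠ 1) : orderOf (mkS h8 g hg) = p := by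
  have : Fact p.Prime := ⟨hp⟩
  rw [orderOf_eq_prime_iff]
  constructor
  · apply Subtype.ext
    exact (pow_eq_one_iff (x := (mkS h8 g hg).1) rfl p).2 h
  · intro h2
    exact h1 (congrArg (fun x : Gam0 K h8 => x.1.left) h2)

theorem act_mkS (g : GL (Fin 4) K) (hg : g ∈ Cfsg.Lie.Sz K 4) (Y : Mat K) :
    act (mkS h8 g hg).1 Y = g.1 * Y * (g.1.map (frobenius K 2))ᵀ := by
  have : Y.map (1 : RingAut K) = Y := by ext i j; rfl
  change g.1 * Y.map (1 : RingAut K) * (g.1.map (frobenius K 2))ᵀ = _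
  rw [this]

/-- the elements `J U(0,b)` -/
noncomputable def gb (b : K) : GL (Fin 4) K := ofSp (J K) J_sp * (good h8).U 0 b

theorem gb_mem (b : K) : gb h8 b ∈ Cfsg.Lie.Sz K 4 :=
  mul_mem ((good h8).ofSp_mem _ _ (good h8).J_star) ((good h8).U_mem 0 b)

theorem gb_val (b : K) : (gb h8 b).1 = !![0, 0, 0, 1; 0, 0, 1, 0; 0, 1, 0, b; 1, 0, b, b ^ 4] := by
  change J K * Umat (th K) 0 b = _
  rw [Umat_def]
  ext i j
  fin_cases i <;> fin_cases j <;> simp [J, Matrix.mul_apply, Fin.sum_univ_four, th_apply]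

theorem gb_trace (b : K) : (gb h8 b).1.trace = b ^ 4 := by
  rw [gb_val]
  simp [Matrix.trace, Fin.sum_univ_four]

theorem gb_ne (b : K) : gb h8 b ≠ 1 := by
  intro h
  have h1 := congrArg (fun g : GL (Fin 4) K => g.1 0 0) h
  simp only [gb_val] at h1
  simp at h1

theorem map_gb_one (τ : RingAut K) : (gb h8 1).1.map τ = (gb h8 1).1 := by
  rw [gb_val]
  ext i j
  fin_cases i <;> fin_cases j <;> simp

theorem commute_phi_gb : Commute (phi h8) (mkS h8 (gb h8 1) (gb_mem h8 1)) := by
  apply Subtype.ext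
  refine SemidirectProduct.ext ?_ ?_
  · change (1 : GL (Fin 4) K) * glHom K (frobA K) (gb h8 1) = gb h8 1 * glHom K 1 1
    rw [map_one, one_mul, mul_one]
    apply Units.ext
    rw [glHom_val, map_gb_one]
  · change frobA K * 1 = 1 * frobA K
    rw [one_mul, mul_one]

theorem orderOf_gb_one : orderOf (mkS h8 (gb h8 1) (gb_mem h8 1)) = 5 := by
  refine orderOf_mkS h8 _ _ (by norm_num) (pow_one_case h8 (gb_mem h8 1) ?_) (gb_ne h8 1)
  rw [gb_trace, one_pow]

theorem ne_of {k : K} (hk : k ^ 3 = k + 1) : k ≠ 0 ∧ k ≠ 1 ∧ k ^ 2 ≠ k := by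
  have h0 : (2 : K) = 0 := SzEight.two_eq_zero
  have h1 : k ≠ 0 := by
    rintro rfl
    norm_num at hk
  have h2 : k ≠ 1 := by
    rintro rfl
    have : (1 : K) = 0 := by linear_combination hk + h0
    exact one_ne_zero this
  refine ⟨h1, h2, fun h => h2 ?_⟩
  have : k * (k - 1) = 0 := by linear_combination h
  rcases mul_eq_zero.1 this with h | h
  · exact absurd h h1
  · exact sub_eq_zero.1 h

theorem exists_fifteen {k : K} (hk : k ^ 3 = k + 1) : ∃ x : HH K h8 n, orderOf x = 15 := by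
  have hex : ∃ a : K, a ^ 2 ≠ a := ⟨k, (ne_of hk).2.2⟩
  refine ⟨mkR h8 (phi h8 * mkS h8 (gb h8 1) (gb_mem h8 1)), ?_⟩
  rw [orderOf_mkR, (commute_phi_gb h8).orderOf_mul_eq_mul_orderOf_of_coprime, orderOf_phi h8 hex, orderOf_gb_one]
  rw [orderOf_phi h8 hex, orderOf_gb_one]
  norm_num

theorem exists_six {k : K} (hk : k ^ 3 = k + 1) : ∃ x : HH K h8 (n + 1), orderOf x = 6 := by
  have hex : ∃ a : K, a ^ 2 ≠ a := ⟨k, (ne_of hk).2.2⟩
  have hc : Commute (mkL h8 (n := n + 1) 1) (mkR h8 (phi h8)) := by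
    apply commute_mk
    change act (⟨1, frobA K⟩ : Gam K) 1 = 1
    rw [act]
    change (1 : Mat K) * (1 : Mat K).map (frobA K) * ((1 : Mat K).map (frobenius K 2))ᵀ = 1
    simp [Matrix.map_one]
  refine ⟨mkL h8 (n := n + 1) 1 * mkR h8 (phi h8), ?_⟩
  have h1 : orderOf (mkL h8 (n := n + 1) (1 : Mat K)) = 2 := orderOf_mkL h8 one_ne_zero
  have h2 : orderOf (mkR h8 (n := n + 1) (phi h8)) = 3 := by rw [orderOf_mkR, orderOf_phi h8 hex]
  rw [hc.orderOf_mul_eq_mul_orderOf_of_coprime, h1, h2]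
  rw [h1, h2]
  norm_num

theorem exists_ten : ∃ x : HH K h8 (n + 1), orderOf x = 10 := by
  have hJ : J K ≠ 0 := by
    intro h
    have := congrFun (congrFun h 0) 3
    simp [J] at this
  have hm : (gb h8 1).1.map (frobenius K 2) = (gb h8 1).1 := by
    rw [gb_val]
    ext i j
    fin_cases i <;> fin_cases j <;> simp [frobenius_def]
  have hc : Commute (mkL h8 (n := n + 1) (J K)) (mkR h8 (mkS h8 (gb h8 1) (gb_mem h8 1))) := by
    apply commute_mk
    rw [act_mkS, hm]
    exact mul_J_mul_transpose ((good h8).mem_Sz.1 (gb_mem h8 1)).1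
  refine ⟨mkL h8 (n := n + 1) (J K) * mkR h8 (mkS h8 (gb h8 1) (gb_mem h8 1)), ?_⟩
  have h1 : orderOf (mkL h8 (n := n + 1) (J K)) = 2 := orderOf_mkL h8 hJ
  have h2 : orderOf (mkR h8 (n := n + 1) (mkS h8 (gb h8 1) (gb_mem h8 1))) = 5 := by
    rw [orderOf_mkR, orderOf_gb_one h8]
  rw [hc.orderOf_mul_eq_mul_orderOf_of_coprime, h1, h2]
  rw [h1, h2]
  norm_num

theorem exists_fourteen {k : K} (hk : k ^ 3 = k + 1) : ∃ x : HH K h8 (n + 1), orderOf x = 14 := by
  have h0 : (2 : K) = 0 := SzEight.two_eq_zero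
  obtain ⟨hk0, hk1, -⟩ := ne_of hk
  set u : Kˣ := Units.mk0 k hk0 with hu
  have hinv : k⁻¹ = k ^ 2 + 1 := by
    refine inv_eq_of_mul_eq_one_right ?_
    linear_combination hk + k * h0
  have hD : ((good h8).D u).1 = !![k, 0, 0, 0; 0, k ^ 4 * (k ^ 2 + 1), 0, 0; 0, 0, k * (k ^ 2 + 1) ^ 4, 0;
      0, 0, 0, k ^ 2 + 1] := by
    rw [(good h8).D_val, Dmat_def, th_apply]
    change !![k, 0, 0, 0; 0, k ^ 4 * k⁻¹, 0, 0; 0, 0, k * (k ^ 4)⁻¹, 0; 0, 0, 0, k⁻¹] = _
    rw [← inv_pow, hinv]
  have hDm := (good h8).D_mem u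
  have ht : ((good h8).D u).1.trace ^ 3 = ((good h8).D u).1.trace + 1 := by
    rw [hD]
    simp only [Matrix.trace, Fin.sum_univ_four, Matrix.diag_apply]
    simp
    grind
  have h7 : (good h8).D u ^ 7 = 1 := pow_seven_case h8 hDm ht
  have hne : (good h8).D u ≠ 1 := by
    intro h
    have := congrArg (fun g : GL (Fin 4) K => g.1 0 0) h
    simp only [hD] at this
    simp at this
    exact hk1 this
  set Y : Mat K := !![0, 1, 0, 0; 0, 0, 0, 0; 0, 0, 0, 0; 0, 0, 0, 0] with hY
  have hY0 : Y ≠ 0 := by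
    intro h
    have := congrFun (congrFun h 0) 1
    simp [hY] at this
  have hc : Commute (mkL h8 (n := n + 1) Y) (mkR h8 (mkS h8 _ hDm)) := by
    apply commute_mk
    rw [act_mkS, hD, hY]
    ext i j
    fin_cases i <;> fin_cases j <;>
      simp [Matrix.mul_apply, Fin.sum_univ_four, frobenius_def]
    grind
  refine ⟨mkL h8 (n := n + 1) Y * mkR h8 (mkS h8 _ hDm), ?_⟩
  have h1 : orderOf (mkL h8 (n := n + 1) Y) = 2 := orderOf_mkL h8 hY0
  have h2 : orderOf (mkR h8 (n := n + 1) (mkS h8 _ hDm)) = 7 := by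
    rw [orderOf_mkR, orderOf_mkS h8 _ hDm (by norm_num) h7 hne]
  rw [hc.orderOf_mul_eq_mul_orderOf_of_coprime, h1, h2]
  rw [h1, h2]
  norm_num

theorem exists_thirteen {k : K} (hk : k ^ 3 = k + 1) : ∃ x : HH K h8 n, orderOf x = 13 := by
  have h0 : (2 : K) = 0 := SzEight.two_eq_zero
  have ht : (gb h8 ((k ^ 2 + 1) ^ 2)).1.trace ^ 3 = (gb h8 ((k ^ 2 + 1) ^ 2)).1.trace ^ 2 + 1 := by
    rw [gb_trace]
    grind
  refine ⟨mkR h8 (mkS h8 (gb h8 ((k ^ 2 + 1) ^ 2)) (gb_mem h8 _)), ?_⟩
  rw [orderOf_mkR]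
  exact orderOf_mkS h8 _ _ (by norm_num) (pow_thirteen_case h8 (gb_mem h8 _) ht) (gb_ne h8 _)

theorem card_gt : n < Nat.card (HH K h8 n) := by
  have h1 : Nat.card (Fin n → Mat K) ≤ Nat.card (HH K h8 n) := by
    refine Nat.card_le_card_of_injective
      (fun Y => (⟨SemidirectProduct.inl (Multiplicative.ofAdd Y), ?_⟩ : HH K h8 n)) ?_
    · rw [mem_HH, SemidirectProduct.right_inl]
      exact ⟨one_mem _, one_mem _⟩
    · intro Y Z h
      have := congrArg Subtype.val h
      exact Multiplicative.ofAdd.injective (SemidirectProduct.inl_injective this)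
  have h2 : 2 ^ n ≤ Nat.card (Fin n → Mat K) := by
    rw [Nat.card_fun, Nat.card_eq_fintype_card (α := Fin n), Fintype.card_fin]
    exact Nat.pow_le_pow_left (Finite.one_lt_card) n
  exact lt_of_lt_of_le Nat.lt_two_pow_self (h2.trans h1)

end

end Cfsg.Agent.H423.SzGroup
end

-- part: H423/SzPat
section
set_option autoImplicit false

namespace Cfsg.Agent.H423.SzPat

open Cfsg.Agent.H423.SzGroup Cfsg.Agent.H423.SzEight Cfsg.Agent.H423.Pattern

/-- the field with eight elements -/
abbrev K8 : Type := GaloisField 2 3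

theorem card_K8 : Nat.card K8 = 8 := by
  rw [GaloisField.card 2 3 (by norm_num)]
  norm_num

theorem h8 (x : K8) : x ^ 8 = x := by
  have := Fintype.ofFinite K8
  have h := FiniteField.pow_card x
  rwa [← Nat.card_eq_fintype_card, card_K8] at h

theorem exists_gen : ∃ k : K8, k ^ 3 = k + 1 := by
  classical
  have := Fintype.ofFinite K8
  have h0 : (2 : K8) = 0 := SzEight.two_eq_zero
  obtain ⟨a, ha⟩ : ∃ a : K8, a ∉ ({0, 1} : Finset K8) := by
    by_contra h
    push Not at h
    have h1 : Fintype.card K8 ≤ ({0, 1} : Finset K8).card := by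
      rw [← Finset.card_univ]
      exact Finset.card_le_card fun x _ => h x
    rw [← Nat.card_eq_fintype_card, card_K8] at h1
    have h2 : ({0, 1} : Finset K8).card ≤ 2 := Finset.card_le_two
    omega
  simp only [Finset.mem_insert, Finset.mem_singleton, not_or] at ha
  rcases cases8 h8 a with h | h | h | h
  · exact absurd h ha.1
  · exact absurd h ha.2
  · exact ⟨a, h⟩
  · refine ⟨a⁻¹, ?_⟩
    have h1 : a⁻¹ * a = 1 := inv_mul_cancel₀ ha.1
    have e : a⁻¹ = a ^ 2 + a := by
      refine inv_eq_of_mul_eq_one_right ?_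
      linear_combination h + a ^ 2 * h0
    rw [e]
    grind

theorem exists_group (N : ℕ) : ∃ (H : Type) (_ : Group H) (_ : Finite H), N < Nat.card H ∧ Pat H := by
  obtain ⟨k, hk⟩ := exists_gen
  refine ⟨HH K8 h8 (N + 1), inferInstance, inferInstance, (Nat.lt_succ_self N).trans (card_gt h8), ?_⟩
  refine pat_of ?_ (exists_thirteen h8 hk) (exists_six h8 hk) (exists_ten h8) (exists_fourteen h8 hk)
    (exists_fifteen h8 hk) (fun g => no_three h8 g (Or.inl rfl)) (fun g => no_twentysix h8 g)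
    (fun g => no_odd h8 g (Or.inl rfl)) (fun g => no_three h8 g (Or.inr rfl))
    (fun g => no_odd h8 g (Or.inr (Or.inl rfl))) (fun g => no_odd h8 g (Or.inr (Or.inr rfl)))
  rintro p hp ⟨g, hg⟩
  exact prime_order h8 hp g hg

end Cfsg.Agent.H423.SzPat
end

-- part: S3664
section
set_option autoImplicit false
open Cfsg

namespace Cfsg.Agent.S3664

/-- The prime graph of a finite group has the prime divisors of its order as vertices, two distinct primes p, q being joined when the group has an element of order pq; two groups have the same prime graph when they have the same prime divisors and the same joined pairs. Let F be the field with 3 elements and L = PSp(6,F). There are finite groups of arbitrarily large order with the same prime graph as L (a prime graph shared by the orthogonal groups Ω₇(3) and PΩ⁺₈(3)). -/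
theorem result {F : Type*} [Field F] [Fintype F] (hF : Fintype.card F = 3) (N : ℕ) :
    ∃ (H : Type) (_ : Group H) (_ : Finite H), N < Nat.card H ∧
      ((∀ p : ℕ, p.Prime → (p ∣ Nat.card (Cfsg.PSp 3 F) ↔ p ∣ Nat.card H)) ∧
      (∀ p q : ℕ, p.Prime → q.Prime → p ≠ q → ((∃ g : (Cfsg.PSp 3 F), orderOf g = p * q) ↔ (∃ g : H, orderOf g = p * q)))) := by
  obtain ⟨H, hH1, hH2, h1, h2⟩ := Cfsg.Agent.H423.SzPat.exists_group N
  exact ⟨H, hH1, hH2, h1, (Cfsg.Agent.H423.PSpSix.pat_psp hF).iff h2⟩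

end Cfsg.Agent.S3664
end
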