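import Mathlib
import Cfsg.Agent.H424.DegTools
import Cfsg.Agent.S0193
import Cfsg.Agent.S0148
import Cfsg.Agent.Characters.Linear
import Cfsg.Statements.S3670
import Cfsg.Agent.H424.U33Degrees
set_option linter.all false

-- part: H424/Affine
section
/-!
# The group `R ⋊ Rˣ` has an irreducible character of degree `|Rˣ|`

for every finite commutative ring `R` with a primitive additive character.
-/

set_option autoImplicit false

namespace Cfsg.Agent.H424.Affine

open Cfsg Cfsg.Agent.Characters.Core Cfsg.Agent.H424.DegTools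

universe u

/-- A linear character of a normal subgroup stable only under the subgroup itself gives an
irreducible character whose degree is the index. -/
theorem index_mem {G : Type u} [Group G] [Finite G] (N : Subgroup G) [hN : N.Normal]
    (θ : N →* ℂˣ)
    (h : ∀ g : G, (∀ n : N, θ ⟨g * n * g⁻¹, hN.conj_mem n n.2 g⟩ = θ n) → g ∈ N) :
    N.index ∈ charDegrees G := by
  classical
  have := Fintype.ofFinite G
  have hθ : IsIrrCharacter N (fun n => (θ n : ℂ)) := Characters.Linear.isIrrCharacter_hom θ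
  have hNpos : (Nat.card N : ℂ) ≠ 0 := by
    exact_mod_cast Nat.card_pos.ne'
  have h1 := S0193.result N _ hθ
  have h2 : Nat.card {g : G // ∀ n : N, ((θ ⟨g * n * g⁻¹, hN.conj_mem n n.2 g⟩ : ℂˣ) : ℂ) =
      ((θ n : ℂˣ) : ℂ)} = Nat.card N := by
    apply Nat.card_congr
    refine Equiv.subtypeEquivRight fun g => ?_
    constructor
    · intro hg
      exact h g fun n => Units.ext (hg n)
    · intro hg n
      have e : (⟨g * n * g⁻¹, hN.conj_mem n n.2 g⟩ : N) = ⟨g, hg⟩ * n * ⟨g, hg⟩⁻¹ :=
        Subtype.ext rfl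
      rw [e, map_mul, map_mul, map_inv, mul_comm (θ _) (θ n), mul_assoc, mul_inv_cancel, mul_one]
  rw [h2] at h1
  have h3 : classInner (indFun N fun n => (θ n : ℂ)) (indFun N fun n => (θ n : ℂ)) = 1 :=
    mul_left_cancel₀ hNpos (by rw [h1, mul_one])
  have h4 := (isIrr_iff_classInner_self (S0148.result N _ (isIrr_isCharacter hθ))).2 h3
  refine mem_charDegrees.2 ⟨_, h4, ?_⟩
  rw [indFun]
  have h5 : ∀ x : G, extendByZero N (fun n => (θ n : ℂ)) (x⁻¹ * 1 * x) = 1 := by
    intro x
    have e : x⁻¹ * 1 * x = 1 := by group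
    rw [e, extendByZero]
    have e2 : (1 : G) = ((1 : N) : G) := rfl
    rw [e2, Subtype.val_injective.extend_apply, map_one]
    simp
  rw [Finset.sum_congr rfl fun x _ => h5 x, Finset.sum_const, nsmul_eq_mul, mul_one,
    Finset.card_univ, ← Nat.card_eq_fintype_card, ← N.card_mul_index]
  push_cast
  field_simp

variable (R : Type u) [CommRing R]

/-- The action of the units. -/
def act : Rˣ →* MulAut (Multiplicative R) :=
  (MulAutMultiplicative R).symm.toMonoidHom.comp AddAut.mulLeft

theorem act_apply (u : Rˣ) (r : R) :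
    act R u (Multiplicative.ofAdd r) = Multiplicative.ofAdd ((u : R) * r) := rfl

/-- `R ⋊ Rˣ` -/
abbrev Aff : Type u := Multiplicative R ⋊[act R] Rˣ

theorem card_aff : Nat.card (Aff R) = Nat.card R * Nat.card Rˣ := by
  rw [Nat.card_congr SemidirectProduct.equivProd, Nat.card_prod]
  rfl

theorem isSolvable_aff : Group.IsSolvable (Aff R) := by
  have h1 : Group.IsSolvable (Multiplicative R) := inferInstance
  have h2 : Group.IsSolvable Rˣ := inferInstance
  refine Group.isSolvable_of_ker_le_range (SemidirectProduct.inl (φ := act R))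
    (SemidirectProduct.rightHom (φ := act R)) ?_
  rw [SemidirectProduct.range_inl_eq_ker_rightHom]

/-- The translations. -/
def N : Subgroup (Aff R) := (SemidirectProduct.rightHom (φ := act R)).ker

instance normal_N : (N R).Normal := by rw [N]; infer_instance

theorem mem_N {g : Aff R} : g ∈ N R ↔ g.right = 1 := Iff.rfl

theorem index_N : (N R).index = Nat.card Rˣ := by
  rw [N, Subgroup.index_ker, MonoidHom.range_eq_top.2 SemidirectProduct.rightHom_surjective,
    Nat.card_congr Subgroup.topEquiv.toEquiv]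

variable {R} in
/-- The linear character of the translations. -/
noncomputable def theta (ψ : AddChar R ℂ) : N R →* ℂˣ where
  toFun n := AddChar.toMonoidHom ψ |>.toHomUnits n.1.left
  map_one' := by simp
  map_mul' a b := by
    have ha : a.1.right = 1 := a.2
    rw [← map_mul]
    congr 1
    rw [Subgroup.coe_mul, SemidirectProduct.mul_left, ha, map_one]
    rfl

theorem mem_charDegrees_aff [Finite R] {ψ : AddChar R ℂ} (hψ : ψ.IsPrimitive) :
    Nat.card Rˣ ∈ charDegrees (Aff R) := by
  have : Finite (Aff R) := Finite.of_equiv _ SemidirectProduct.equivProd.symm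
  rw [← index_N]
  refine index_mem (N R) (theta ψ) fun g hg => ?_
  have key : ∀ r : R, ψ ((g.right : R) * r) = ψ r := by
    intro r
    have hr : (SemidirectProduct.inl (Multiplicative.ofAdd r) : Aff R) ∈ N R := rfl
    have h1 := congrArg (fun z : ℂˣ => (z : ℂ)) (hg ⟨_, hr⟩)
    have h2 : (g * SemidirectProduct.inl (Multiplicative.ofAdd r) * g⁻¹ : Aff R).left =
        Multiplicative.ofAdd ((g.right : R) * r) := by
      rw [SemidirectProduct.mul_left, SemidirectProduct.mul_left, SemidirectProduct.left_inl,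
        SemidirectProduct.mul_right, SemidirectProduct.right_inl, mul_one,
        SemidirectProduct.inv_left, act_apply]
      rw [← MulAut.mul_apply, ← map_mul, mul_inv_cancel, map_one, MulAut.one_apply,
        mul_comm g.left, mul_assoc, mul_inv_cancel, mul_one]
    change ψ (Multiplicative.toAdd (g * SemidirectProduct.inl (Multiplicative.ofAdd r) * g⁻¹ :
      Aff R).left) = ψ r at h1
    rw [h2] at h1
    exact h1
  rw [mem_N]
  by_contra hne
  have hne' : (g.right : R) - 1 ≠ 0 := fun h => hne (Units.ext (sub_eq_zero.1 h))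
  apply hψ hne'
  ext r
  rw [AddChar.mulShift_apply, sub_mul, one_mul, AddChar.map_sub_eq_div, key r,
    div_self (ψ.val_isUnit r).ne_zero, AddChar.one_apply]

/-- The group `(F₈ ⋊ F₈ˣ) × (ℤ/18 ⋊ (ℤ/18)ˣ)`. -/
abbrev H6048 : Type := Aff (GaloisField 2 3) × Aff (ZMod 18)

instance finite_H : Finite H6048 := by
  have h1 : Finite (Aff (GaloisField 2 3)) := Finite.of_equiv _ SemidirectProduct.equivProd.symm
  have h2 : Finite (Aff (ZMod 18)) := Finite.of_equiv _ SemidirectProduct.equivProd.symm
  infer_instance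

theorem isSolvable_H : Group.IsSolvable H6048 := by
  have h1 := isSolvable_aff (GaloisField 2 3)
  have h2 := isSolvable_aff (ZMod 18)
  infer_instance

theorem card_units_eight : Nat.card (GaloisField 2 3)ˣ = 7 := by
  rw [Nat.card_units, GaloisField.card 2 3 (by norm_num)]
  norm_num

theorem card_units_eighteen : Nat.card (ZMod 18)ˣ = 6 := by
  rw [Nat.card_eq_fintype_card, ZMod.card_units_eq_totient]
  decide

theorem card_H : Nat.card H6048 = 6048 := by
  rw [Nat.card_prod, card_aff, card_aff, card_units_eight, card_units_eighteen,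
    GaloisField.card 2 3 (by norm_num), Nat.card_zmod]
  norm_num

theorem mem_degrees_H : 42 ∈ charDegrees H6048 := by
  obtain ⟨r, hr⟩ : ∃ r : GaloisField 2 3, r ≠ 0 := exists_ne 0
  obtain ⟨ψ, hψ⟩ := AddChar.exists_apply_ne_zero.2 hr
  have h1 := mem_charDegrees_aff (ψ := ψ) _ (AddChar.IsPrimitive.of_ne_one fun h => hψ (by rw [h]; rfl))
  have h2 := mem_charDegrees_aff _ (ZMod.isPrimitive_stdAddChar 18)
  rw [card_units_eight] at h1
  rw [card_units_eighteen] at h2
  have h3 : Finite (Aff (GaloisField 2 3)) := Finite.of_equiv _ SemidirectProduct.equivProd.symm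
  have h4 : Finite (Aff (ZMod 18)) := Finite.of_equiv _ SemidirectProduct.equivProd.symm
  exact mul_mem_prod (a := 7) (b := 6) h1 h2

end Cfsg.Agent.H424.Affine
end

-- part: S3670
section
set_option autoImplicit false
open Cfsg

namespace Cfsg.Agent.S3670

open Cfsg.Agent.H424.DegTools Cfsg.Agent.H424.U33Degrees Cfsg.Agent.H424.Affine
open Cfsg.Agent.Classification.RTwo.UThreeThree

theorem prime_cases {p : ℕ} (hp : p.Prime) (h1 : p ∣ 6048) : p = 2 ∨ p = 3 ∨ p = 7 := by
  rw [show 6048 = 2 ^ 5 * 3 ^ 3 * 7 by norm_num] at h1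
  rcases hp.dvd_mul.1 h1 with h2 | h2
  · rcases hp.dvd_mul.1 h2 with h3 | h3
    · exact Or.inl ((Nat.prime_dvd_prime_iff_eq hp Nat.prime_two).1 (hp.dvd_of_dvd_pow h3))
    · exact Or.inr (Or.inl ((Nat.prime_dvd_prime_iff_eq hp Nat.prime_three).1
        (hp.dvd_of_dvd_pow h3)))
  · exact Or.inr (Or.inr ((Nat.prime_dvd_prime_iff_eq hp (by norm_num)).1 h2))

theorem vert {C : Type*} [Group C] [Finite C] (hC : Nat.card C = 6048)
    (h6 : ∃ d ∈ charDegrees C, 2 * 3 ∣ d) (h14 : ∃ d ∈ charDegrees C, 2 * 7 ∣ d) (p : ℕ) :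
    p ∈ degreePrimes C ↔ p = 2 ∨ p = 3 ∨ p = 7 := by
  rw [mem_degreePrimes]
  constructor
  · rintro ⟨hp, d, hd, hpd⟩
    exact prime_cases hp (hC ▸ hpd.trans (H424.DegTools.dvd_card hd))
  · obtain ⟨d, hd, h⟩ := h6
    obtain ⟨d', hd', h'⟩ := h14
    rintro (rfl | rfl | rfl)
    · exact ⟨by norm_num, d, hd, (dvd_mul_right 2 3).trans h⟩
    · exact ⟨by norm_num, d, hd, (dvd_mul_left 3 2).trans h⟩
    · exact ⟨by norm_num, d', hd', (dvd_mul_left 7 2).trans h'⟩

theorem adj {C : Type*} [Group C] [Finite C] (hC : Nat.card C = 6048)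
    (h6 : ∃ d ∈ charDegrees C, 2 * 3 ∣ d) (h14 : ∃ d ∈ charDegrees C, 2 * 7 ∣ d)
    (h21 : ∃ d ∈ charDegrees C, 3 * 7 ∣ d) (p q : ℕ) : (degreeGraph C).Adj p q ↔
      p ≠ q ∧ (p = 2 ∨ p = 3 ∨ p = 7) ∧ (q = 2 ∨ q = 3 ∨ q = 7) := by
  rw [adj_iff]
  constructor
  · rintro ⟨hne, hp, hq, d, hd, hpq⟩
    have h1 := hpq.trans (H424.DegTools.dvd_card hd)
    rw [hC] at h1
    exact ⟨hne, prime_cases hp ((dvd_mul_right p q).trans h1),
      prime_cases hq ((dvd_mul_left q p).trans h1)⟩
  · rintro ⟨hne, (rfl | rfl | rfl), (rfl | rfl | rfl)⟩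
    · exact absurd rfl hne
    · exact ⟨hne, by norm_num, by norm_num, h6⟩
    · exact ⟨hne, by norm_num, by norm_num, h14⟩
    · exact ⟨hne, by norm_num, by norm_num, h6⟩
    · exact absurd rfl hne
    · exact ⟨hne, by norm_num, by norm_num, h21⟩
    · exact ⟨hne, by norm_num, by norm_num, h14⟩
    · exact ⟨hne, by norm_num, by norm_num, h21⟩
    · exact absurd rfl hne

/-- Groups of order 6048 with degrees divisible by 6, 14 and 21 have the same degree graph. -/
theorem graph_eq {A B : Type*} [Group A] [Finite A] [Group B] [Finite B]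
    (hA : Nat.card A = 6048) (hB : Nat.card B = 6048)
    (a6 : ∃ d ∈ charDegrees A, 2 * 3 ∣ d) (a14 : ∃ d ∈ charDegrees A, 2 * 7 ∣ d)
    (a21 : ∃ d ∈ charDegrees A, 3 * 7 ∣ d)
    (b6 : ∃ d ∈ charDegrees B, 2 * 3 ∣ d) (b14 : ∃ d ∈ charDegrees B, 2 * 7 ∣ d)
    (b21 : ∃ d ∈ charDegrees B, 3 * 7 ∣ d) :
    degreePrimes A = degreePrimes B ∧ degreeGraph A = degreeGraph B := by
  constructor
  · ext p
    rw [vert hA a6 a14, vert hB b6 b14]
  · ext p q
    rw [adj hA a6 a14 a21, adj hB b6 b14 b21]

/-- The character degree graph of a finite group has as vertices the primes dividing some irreducible complex character degree, two distinct primes being joined when their product divides some irreducible character degree; two groups have the same character degree graph when they have the same vertices and the same joined pairs. Let F be the field with 9 elements and L = PSU(3,3) realised over F (order 6048). There is a finite solvable group of order 6048 with the same character degree graph as L; so L is not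 determined by its order together with its character degree graph. -/
theorem result {F : Type*} [Field F] [Fintype F] (hF : Fintype.card F = 9) :
    ∃ (H : Type) (_ : Group H) (_ : Fintype H), Group.IsSolvable H ∧ Nat.card H = 6048 ∧ Cfsg.degreePrimes H = Cfsg.degreePrimes (Cfsg.PSU 3 F 3) ∧ Cfsg.degreeGraph H = Cfsg.degreeGraph (Cfsg.PSU 3 F 3) := by
  have hcard : Fintype.card F = Fintype.card K9 := by rw [hF, card_k9]
  obtain ⟨e⟩ : Nonempty (F ≃+* K9) := ⟨FiniteField.ringEquivOfCardEq hcard⟩
  have e' := (psuEquiv hF).trans (LieClassical.FieldTransfer.suCongr 3 3 e)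
  rw [degreePrimes_congr e', degreeGraph_congr e']
  have h6 : ∃ d ∈ charDegrees H6048, 2 * 3 ∣ d := ⟨42, mem_degrees_H, by norm_num⟩
  have h14 : ∃ d ∈ charDegrees H6048, 2 * 7 ∣ d := ⟨42, mem_degrees_H, by norm_num⟩
  have h21 : ∃ d ∈ charDegrees H6048, 3 * 7 ∣ d := ⟨42, mem_degrees_H, by norm_num⟩
  obtain ⟨h1, h2⟩ := graph_eq (A := H6048) (B := Cfsg.SU 3 K9 3) card_H card_SU h6 h14 h21
    six fourteen twentyone
  exact ⟨H6048, inferInstance, Fintype.ofFinite _, isSolvable_H, card_H, h1, h2⟩

end Cfsg.Agent.S3670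
end
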