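import Cfsg.Statements.S3678
import Mathlib
import Cfsg.Agent.S0243
import Cfsg.Agent.H426.SL2Unrec
set_option linter.all false

set_option autoImplicit false
open Cfsg

namespace Cfsg.Agent.S3678

/-- The prime graph of a finite group has the prime divisors of its order as vertices, two distinct primes p, q being joined when the group has an element of order pq; two groups have the same prime graph when they have the same prime divisors and the same joined pairs. Let F be the field with 7 elements. There are finite groups of arbitrarily large order with the same prime graph as PSL(2,F) (the graph on {2, 3, 7} with no edges, which is also the prime graph of PSL(2,8)). -/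
theorem result {F : Type*} [Field F] [Fintype F] (hF : Fintype.card F = 7) (N : ℕ) :
    ∃ (H : Type) (_ : Group H) (_ : Finite H), N < Nat.card H ∧
      ((∀ p : ℕ, p.Prime → (p ∣ Nat.card (Matrix.ProjectiveSpecialLinearGroup (Fin 2) F) ↔ p ∣ Nat.card H)) ∧
      (∀ p q : ℕ, p.Prime → q.Prime → p ≠ q → ((∃ g : (Matrix.ProjectiveSpecialLinearGroup (Fin 2) F), orderOf g = p * q) ↔ (∃ g : H, orderOf g = p * q)))) := by
  have hK : Nat.card (GaloisField 2 3) = 8 := by
    rw [GaloisField.card 2 3 (by norm_num)]; norm_num
  have : Finite (GaloisField 2 3) := Nat.finite_of_card_ne_zero (by rw [hK]; norm_num)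
  have i1 : Fintype (GaloisField 2 3) := Fintype.ofFinite _
  have hK' : Fintype.card (GaloisField 2 3) = 8 := by rw [← Nat.card_eq_fintype_card, hK]
  obtain ⟨H, j1, j2, h1, h2, h3⟩ := Cfsg.Agent.H426.exists_large_sl2_even (GaloisField 2 3) N
  have c7 : Nat.card (Matrix.ProjectiveSpecialLinearGroup (Fin 2) F) = 168 := by
    have h1 := Cfsg.Agent.S0243.result hF 2 le_rfl
    rw [Fin.prod_univ_two] at h1
    norm_num at h1
    omega
  have c8 : Nat.card (Matrix.SpecialLinearGroup (Fin 2) (GaloisField 2 3)) = 504 := by
    rw [← Nat.card_congr (Cfsg.Agent.H426.psl2EvenEquiv (GaloisField 2 3)).toEquiv]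
    have h1 := Cfsg.Agent.S0243.result hK' 2 le_rfl
    rw [Fin.prod_univ_two] at h1
    norm_num at h1
    omega
  refine ⟨H, j1, j2, h1, ?_, ?_⟩
  · intro p hp
    rw [← h2 p hp, c7, c8]
    have e7 : (168 : ℕ) = 2 ^ 3 * (3 * 7) := by norm_num
    have e8 : (504 : ℕ) = 2 ^ 3 * (3 ^ 2 * 7) := by norm_num
    rw [e7, e8, hp.dvd_mul, hp.dvd_mul, hp.dvd_mul, hp.dvd_mul]
    have : p ∣ 3 ↔ p ∣ 3 ^ 2 := ⟨fun h => h.trans (dvd_pow_self _ (by norm_num)),
      fun h => hp.dvd_of_dvd_pow h⟩
    tauto
  · intro p q hp hq hpq
    rw [← h3 p q hp hq hpq]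
    constructor
    · rintro ⟨g, hg⟩
      exfalso
      rcases Cfsg.Agent.H426.psl2_seven_orders hF g with h | h | h
      · exact Cfsg.Agent.H426.not_orderOf_of_pow hp hq hpq hg (s := 3) (k := 1) (by norm_num)
          (by simpa using h)
      · exact Cfsg.Agent.H426.not_orderOf_of_pow hp hq hpq hg (s := 2) (k := 2) (by norm_num)
          (by simpa using h)
      · exact Cfsg.Agent.H426.not_orderOf_of_pow hp hq hpq hg (s := 7) (k := 1) (by norm_num)
          (by simpa using h)
    · rintro ⟨g, hg⟩
      exfalso
      rcases Cfsg.Agent.H426.sl2_eight_orders hK' g with h | h | h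
      · exact Cfsg.Agent.H426.not_orderOf_of_pow hp hq hpq hg (s := 7) (k := 1) (by norm_num)
          (by simpa using h)
      · exact Cfsg.Agent.H426.not_orderOf_of_pow hp hq hpq hg (s := 3) (k := 2) (by norm_num)
          (by simpa using h)
      · exact Cfsg.Agent.H426.not_orderOf_of_pow hp hq hpq hg (s := 2) (k := 2) (by norm_num)
          (by simpa using h)

end Cfsg.Agent.S3678
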