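import Mathlib
import Cfsg.Agent.H508.AltHom
import Cfsg.Agent.H429.FittingFree
import Cfsg.Agent.H508.AltFive
import Cfsg.Statements.S3687
set_option linter.all false

-- part: H508/AltOrbit
section
/-!
# Subgroups inducing the alternating group on a set
-/

set_option autoImplicit false
set_option linter.unusedSectionVars false

namespace Cfsg.Agent.H508.AltOrbit

open Subgroup MulAction
open Cfsg.Agent.H508.AltSec Cfsg.Agent.H508.AltHom

variable {G Ω : Type*} [Group G] [MulAction G Ω]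

/-- `s` is invariant under `W`. -/
def Inv (W : Subgroup G) (s : Set Ω) : Prop := ∀ w ∈ W, ∀ c ∈ s, w • c ∈ s

/-- The permutation representation of `W` on the invariant set `s`. -/
def rho (W : Subgroup G) (s : Set Ω) (h : Inv W s) : W →* Equiv.Perm s where
  toFun w :=
    { toFun := fun c => ⟨(w : G) • (c : Ω), h w w.2 c c.2⟩
      invFun := fun c => ⟨(w : G)⁻¹ • (c : Ω), h _ (inv_mem w.2) c c.2⟩
      left_inv := fun c => Subtype.ext (inv_smul_smul _ _)
      right_inv := fun c => Subtype.ext (smul_inv_smul _ _) }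
  map_one' := by
    ext c
    exact one_smul _ _
  map_mul' x y := by
    ext c
    exact mul_smul _ _ _

theorem rho_apply {W : Subgroup G} {s : Set Ω} (h : Inv W s) (w : W) (c : s) :
    ((rho W s h w c : s) : Ω) = (w : G) • (c : Ω) := rfl

theorem ker_rho {W : Subgroup G} {s : Set Ω} (h : Inv W s) :
    (rho W s h).ker = (fixingSubgroup G s).subgroupOf W := by
  ext w
  rw [MonoidHom.mem_ker, mem_subgroupOf, mem_fixingSubgroup_iff]
  constructor
  · intro h1 c hc
    exact congrArg (fun f : Equiv.Perm s => ((f ⟨c, hc⟩ : s) : Ω)) h1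
  · intro h1
    ext c
    exact h1 c c.2

/-- `W` induces each even permutation of `s`. -/
def AltOn (W : Subgroup G) (s : Set Ω) [Fintype s] [DecidableEq s] : Prop :=
  ∀ σ : Equiv.Perm s, Equiv.Perm.sign σ = 1 → ∃ w ∈ W, ∀ c : s, w • (c : Ω) = σ c

section

variable {W : Subgroup G} {s : Set Ω} [Fintype s] [DecidableEq s]

theorem AltOn.le_range (h : AltOn W s) (hi : Inv W s) :
    alternatingGroup s ≤ (rho W s hi).range := by
  intro σ hσ
  obtain ⟨w, hw, hc⟩ := h σ (Equiv.Perm.mem_alternatingGroup.mp hσ)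
  refine ⟨⟨w, hw⟩, ?_⟩
  ext c
  exact hc c

theorem altOn_of_le_range (hi : Inv W s) (h : alternatingGroup s ≤ (rho W s hi).range) :
    AltOn W s := by
  intro σ hσ
  obtain ⟨w, rfl⟩ := h (Equiv.Perm.mem_alternatingGroup.mpr hσ)
  exact ⟨w, w.2, fun c => rfl⟩

/-- The stabiliser of a point. -/
theorem AltOn.stab (h : AltOn W s) {b : Ω} (hb : b ∈ s) [Fintype (s \ {b} : Set Ω)]
    [DecidableEq (s \ {b} : Set Ω)] : AltOn (W ⊓ stabilizer G b) (s \ {b}) := by
  classical
  intro σ hσ
  set e : (s \ {b} : Set Ω) ≃ {c : s // (c : Ω) ≠ b} :=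
    { toFun := fun c => ⟨⟨c, c.2.1⟩, c.2.2⟩
      invFun := fun c => ⟨c.1, c.1.2, c.2⟩
      left_inv := fun c => rfl
      right_inv := fun c => rfl } with he
  obtain ⟨w, hw, hc⟩ := h (σ.extendDomain e) (by rw [Equiv.Perm.sign_extendDomain, hσ])
  refine ⟨w, mem_inf.mpr ⟨hw, mem_stabilizer_iff.mpr ?_⟩, ?_⟩
  · have h1 := hc ⟨b, hb⟩
    rw [Equiv.Perm.extendDomain_apply_not_subtype _ _ (by simp)] at h1
    exact h1
  · intro c
    have h1 := hc ⟨c, c.2.1⟩
    have h2 : (⟨(c : Ω), c.2.1⟩ : s) = ((e c : {c : s // (c : Ω) ≠ b}) : s) := rfl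
    rw [h2, Equiv.Perm.extendDomain_apply_image] at h1
    exact h1

theorem AltOn.trans (h : AltOn W s) (h3 : 3 ≤ Fintype.card s) {c e : Ω} (hc : c ∈ s) (he : e ∈ s) :
    ∃ w ∈ W, w • c = e := by
  by_cases hce : c = e
  · exact ⟨1, one_mem W, by rw [one_smul, hce]⟩
  have h1 : ({⟨c, hc⟩, ⟨e, he⟩} : Finset s).card < (Finset.univ : Finset s).card := by
    rw [Finset.card_univ]
    exact lt_of_le_of_lt (Finset.card_le_two) (by omega)
  obtain ⟨f, -, hf⟩ := Finset.exists_mem_notMem_of_card_lt_card h1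
  simp only [Finset.mem_insert, Finset.mem_singleton, not_or] at hf
  have hne : (⟨c, hc⟩ : s) ≠ ⟨e, he⟩ := fun h => hce (congrArg Subtype.val h)
  obtain ⟨w, hw, hw1⟩ := h (Equiv.swap ⟨c, hc⟩ ⟨e, he⟩ * Equiv.swap ⟨e, he⟩ f) (by
    rw [Equiv.Perm.sign_mul, Equiv.Perm.sign_swap hne, Equiv.Perm.sign_swap (Ne.symm hf.2)]
    rfl)
  refine ⟨w, hw, ?_⟩
  have h2 := hw1 ⟨c, hc⟩
  rw [Equiv.Perm.mul_apply, Equiv.swap_apply_of_ne_of_ne hne (Ne.symm hf.1),
    Equiv.swap_apply_left] at h2
  exact h2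

/-- The maximality of the point stabiliser. -/
theorem AltOn.max (h : AltOn W s) (hi : Inv W s) (h4 : 4 ≤ Fintype.card s) {b : Ω} (hb : b ∈ s)
    {M : Subgroup G} (hDM : W ⊓ stabilizer G b ≤ M) (hMW : M ≤ W) :
    M = W ⊓ stabilizer G b ∨ M = W := by
  classical
  by_cases hM : M ≤ stabilizer G b
  · exact Or.inl (le_antisymm (le_inf hMW hM) hDM)
  right
  refine le_antisymm hMW ?_
  obtain ⟨m, hm, hmb⟩ := SetLike.not_le_iff_exists.mp hM
  rw [mem_stabilizer_iff] at hmb
  have hD := h.stab hb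
  have h3 : 3 ≤ Fintype.card (s \ {b} : Set Ω) := by
    have h5 := Set.ncard_sdiff_singleton_of_mem (s := s) hb
    rw [← Nat.card_eq_fintype_card, Nat.card_coe_set_eq, h5, ← Nat.card_coe_set_eq,
      Nat.card_eq_fintype_card]
    omega
  have hms : m • b ∈ (s \ {b} : Set Ω) := ⟨hi m (hMW hm) b hb, hmb⟩
  intro x hx
  by_cases hxb : x • b = b
  · exact hDM ⟨hx, hxb⟩
  · obtain ⟨y, hy, hyx⟩ := hD.trans h3 hms (show x • b ∈ (s \ {b} : Set Ω) from
      ⟨hi x hx b hb, hxb⟩)
    have h6 : x⁻¹ * (y * m) ∈ M := by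
      apply hDM
      refine mem_inf.mpr ⟨W.mul_mem (W.inv_mem hx) (W.mul_mem hy.1 (hMW hm)),
        mem_stabilizer_iff.mpr ?_⟩
      rw [mul_smul, mul_smul, hyx, inv_smul_smul]
    have h7 : x = (y * m) * (x⁻¹ * (y * m))⁻¹ := by group
    rw [h7]
    exact M.mul_mem (M.mul_mem (hDM hy) hm) (M.inv_mem h6)

/-- The alternating section. -/
theorem AltOn.exists_as (h : AltOn W s) (hi : Inv W s) (h5 : 5 ≤ Fintype.card s) {J : Subgroup G}
    (hJW : J ≤ W) (hJ : ∀ w ∈ W, w ∈ J ↔ ∀ c ∈ s, w • c = c) :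
    ∃ S : Subgroup G, AS W J S ∧ 2 * J.relIndex S = (Fintype.card s).factorial ∧
      J.relIndex W ≤ (Fintype.card s).factorial := by
  have hk : (rho W s hi).ker = J.subgroupOf W := by
    rw [ker_rho]
    ext ⟨w, hw⟩
    rw [mem_subgroupOf, mem_subgroupOf, mem_fixingSubgroup_iff, hJ w hw]
  have hr := h.le_range hi
  have hnt : Nontrivial s := Fintype.one_lt_card_iff_nontrivial.mp (by omega)
  exact ⟨sec (rho W s hi), as_sec hk hJW hr h5, relIndex_sec hk hJW hr, relIndex_W_le hk hJW hr⟩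

theorem relIndex_le (hi : Inv W s) {J : Subgroup G}
    (hJ : ∀ w ∈ W, w ∈ J ↔ ∀ c ∈ s, w • c = c) :
    J.relIndex W ≤ (Fintype.card s).factorial := by
  have hk : (rho W s hi).ker = J.subgroupOf W := by
    rw [ker_rho]
    ext ⟨w, hw⟩
    rw [mem_subgroupOf, mem_subgroupOf, mem_fixingSubgroup_iff, hJ w hw]
  have h1 : Nat.card (rho W s hi).range = J.relIndex W := by
    rw [← index_ker, hk]; rfl
  rw [← h1, ← Nat.card_eq_fintype_card, ← Nat.card_perm]
  exact Nat.le_of_dvd Nat.card_pos (card_subgroup_dvd_card _)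

/-- A group of large index over the kernel induces the alternating group. -/
theorem altOn_of_relIndex (hi : Inv W s) {J : Subgroup G}
    (hJ : ∀ w ∈ W, w ∈ J ↔ ∀ c ∈ s, w • c = c)
    (hc : (Fintype.card s).factorial ≤ 2 * J.relIndex W) : AltOn W s := by
  have hk : (rho W s hi).ker = J.subgroupOf W := by
    rw [ker_rho]
    ext ⟨w, hw⟩
    rw [mem_subgroupOf, mem_subgroupOf, mem_fixingSubgroup_iff, hJ w hw]
  refine altOn_of_le_range hi ?_
  apply Equiv.Perm.alternatingGroup_le_of_index_le_two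
  have h1 : Nat.card (rho W s hi).range = J.relIndex W := by
    rw [← index_ker, hk]; rfl
  have h2 := (rho W s hi).range.index_mul_card
  rw [h1, Nat.card_perm, Nat.card_eq_fintype_card] at h2
  rw [← h2] at hc
  have h3 : 0 < J.relIndex W := by
    rw [← h1]; exact Nat.card_pos
  exact Nat.le_of_mul_le_mul_right hc h3

end

end Cfsg.Agent.H508.AltOrbit
end

-- part: H508/AltConf
section
/-!
# Two maximal subgroups with alternating sections

`A`, `B` two conjugate subgroups, `K`, `L` the cores of `A ⊓ B` in `A` and in `B`, with alternating quotients.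
If no nontrivial subgroup of `L` is normalised by `A`, then `K ⊓ L = 1`.
-/

set_option autoImplicit false
set_option linter.unusedSectionVars false

namespace Cfsg.Agent.H508.AltConf

open Subgroup
open Cfsg.Agent.H508.AltSec
open scoped commutatorElement

variable {G : Type*} [Group G]

/-! ### Conjugates -/

/-- The conjugate `x X x⁻¹`. -/
abbrev cj (x : G) (X : Subgroup G) : Subgroup G := X.map (MulAut.conj x).toMonoidHom

theorem mem_cj {x y : G} {X : Subgroup G} : y ∈ cj x X ↔ x⁻¹ * y * x ∈ X := by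
  rw [cj, mem_map_equiv, MulAut.conj_symm_apply]

theorem card_cj (x : G) (X : Subgroup G) : Nat.card (cj x X) = Nat.card X :=
  card_map_of_injective (MulAut.conj x).injective

theorem cj_cj (x y : G) (X : Subgroup G) : cj x (cj y X) = cj (x * y) X := by
  ext z
  rw [mem_cj, mem_cj, mem_cj]
  rw [show y⁻¹ * (x⁻¹ * z * x) * y = (x * y)⁻¹ * z * (x * y) by group]

theorem cj_one (X : Subgroup G) : cj 1 X = X := by
  ext z
  rw [mem_cj]; simp

theorem cj_mono {x : G} {X Y : Subgroup G} (h : X ≤ Y) : cj x X ≤ cj x Y := map_mono h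

theorem le_cj_iff {x : G} {X Y : Subgroup G} : X ≤ cj x Y ↔ cj x⁻¹ X ≤ Y := by
  constructor
  · intro h
    have := cj_mono (x := x⁻¹) h
    rwa [cj_cj, inv_mul_cancel, cj_one] at this
  · intro h
    have := cj_mono (x := x) h
    rwa [cj_cj, mul_inv_cancel, cj_one] at this

theorem cj_inf (x : G) (X Y : Subgroup G) : cj x (X ⊓ Y) = cj x X ⊓ cj x Y := by
  ext z
  simp only [mem_inf, mem_cj]

theorem cj_sup (x : G) (X Y : Subgroup G) : cj x (X ⊔ Y) = cj x X ⊔ cj x Y := map_sup _ _ _

theorem cj_eq_of_mem {x : G} {X : Subgroup G} (h : x ∈ normalizer (X : Set G)) : cj x X = X := by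
  ext z
  rw [mem_cj]
  have := mem_normalizer_iff.mp (inv_mem h) z
  rw [inv_inv] at this
  exact this.symm

theorem mem_norm_iff {x : G} {X : Subgroup G} : x ∈ normalizer (X : Set G) ↔ cj x X = X := by
  refine ⟨cj_eq_of_mem, fun h => ?_⟩
  rw [← inv_mem_iff, mem_normalizer_iff]
  intro z
  rw [inv_inv, ← mem_cj, h]

theorem norm_cj {x : G} {X Y : Subgroup G} (h : X ≤ normalizer (Y : Set G)) :
    cj x X ≤ normalizer ((cj x Y : Subgroup G) : Set G) := by
  intro z hz
  rw [mem_cj] at hz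
  have h1 := cj_eq_of_mem (h hz)
  rw [mem_norm_iff, cj_cj]
  conv_rhs => rw [← h1]
  rw [cj_cj]
  congr 1
  group

theorem cj_centralizer (x : G) (X : Subgroup G) :
    cj x (centralizer (X : Set G)) = centralizer ((cj x X : Subgroup G) : Set G) := by
  ext z
  rw [mem_cj, mem_centralizer_iff, mem_centralizer_iff]
  constructor
  · intro h y hy
    have h1 := h _ (mem_cj.mp hy)
    have h2 := congrArg (fun w => x * w * x⁻¹) h1
    have e1 : x * (x⁻¹ * y * x * (x⁻¹ * z * x)) * x⁻¹ = y * z := by group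
    have e2 : x * (x⁻¹ * z * x * (x⁻¹ * y * x)) * x⁻¹ = z * y := by group
    rwa [e1, e2] at h2
  · intro h y hy
    have h0 : x * y * x⁻¹ ∈ cj x X := by
      rw [mem_cj]
      have e : x⁻¹ * (x * y * x⁻¹) * x = y := by group
      rwa [e]
    have h1 := h _ h0
    have h2 := congrArg (fun w => x⁻¹ * w * x) h1
    have e1 : x⁻¹ * (x * y * x⁻¹ * z) * x = y * (x⁻¹ * z * x) := by group
    have e2 : x⁻¹ * (z * (x * y * x⁻¹)) * x = x⁻¹ * z * x * y := by group
    rwa [e1, e2] at h2

theorem norm_centralizer {X Z : Subgroup G} (h : Z ≤ normalizer (X : Set G)) :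
    Z ≤ normalizer ((centralizer (X : Set G) : Subgroup G) : Set G) := by
  intro z hz
  rw [mem_norm_iff, cj_centralizer, cj_eq_of_mem (h hz)]

theorem norm_commutator {X Z : Subgroup G} (h : Z ≤ normalizer (X : Set G)) :
    Z ≤ normalizer ((⁅X, X⁆ : Subgroup G) : Set G) := by
  intro z hz
  rw [mem_norm_iff, cj, map_commutator]
  have := cj_eq_of_mem (h hz)
  rw [cj] at this
  rw [this]

/-- The core of `X` under `A`. -/
def coreIn (A X : Subgroup G) : Subgroup G := ⨅ x : A, cj (x : G) X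

theorem mem_coreIn {A X : Subgroup G} {y : G} : y ∈ coreIn A X ↔ ∀ x ∈ A, y ∈ cj x X := by
  simp only [coreIn, mem_iInf, Subtype.forall]

theorem coreIn_le (A X : Subgroup G) : coreIn A X ≤ X := by
  intro y hy
  have := mem_coreIn.mp hy 1 (one_mem A)
  rwa [cj_one] at this

theorem norm_coreIn (A X : Subgroup G) : A ≤ normalizer ((coreIn A X : Subgroup G) : Set G) := by
  intro a ha
  rw [mem_norm_iff]
  ext y
  rw [mem_cj, mem_coreIn, mem_coreIn]
  constructor
  · intro h x hx
    have h1 := h (a⁻¹ * x) (mul_mem (inv_mem ha) hx)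
    rw [mem_cj] at *
    have e : (a⁻¹ * x)⁻¹ * (a⁻¹ * y * a) * (a⁻¹ * x) = x⁻¹ * y * x := by group
    rwa [e] at h1
  · intro h x hx
    have h1 := h (a * x) (mul_mem ha hx)
    rw [mem_cj] at *
    have e : (a * x)⁻¹ * y * (a * x) = x⁻¹ * (a⁻¹ * y * a) * x := by group
    rwa [e] at h1

theorem ded {X Y Z : Subgroup G} (hX : X ≤ Z) (hn : X ≤ normalizer (Y : Set G)) :
    (X ⊔ Y) ⊓ Z ≤ X ⊔ (Y ⊓ Z) := by
  rintro w ⟨hw, hz⟩
  have h1 : w ∈ ((X ⊔ Y : Subgroup G) : Set G) := hw
  rw [coe_mul_of_left_le_normalizer_right X Y hn] at h1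
  obtain ⟨x, hx, y, hy, rfl⟩ := h1
  refine mul_mem (mem_sup_left hx) (mem_sup_right ⟨hy, ?_⟩)
  have h2 : x⁻¹ * (x * y) ∈ Z := mul_mem (inv_mem (hX hx)) hz
  rwa [inv_mul_cancel_left] at h2

theorem comm_eq_bot {X Y : Subgroup G} (h1 : X ≤ normalizer (Y : Set G))
    (h2 : Y ≤ normalizer (X : Set G)) (h : X ⊓ Y ≤ ⊥) : ⁅X, Y⁆ = ⊥ := by
  rw [eq_bot_iff]
  refine le_trans (le_inf ?_ ?_) h
  · exact le_normalizer_iff_commutator_le_left.mp h2
  · exact le_normalizer_iff_commutator_le_right.mp h1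

/-! ### The configuration -/

/-- See the header. -/
structure Conf (A B K L SA SB SD SE : Subgroup G) (s t : ℕ) : Prop where
  aA : AS A K SA
  aB : AS B L SB
  aD : AS (A ⊓ B) K SD
  aE : AS (A ⊓ B) L SE
  cA : K.relIndex SA = t
  cB : L.relIndex SB = t
  cD : K.relIndex SD = s
  cE : L.relIndex SE = s
  uA : K.relIndex A ≤ 2 * t
  uB : L.relIndex B ≤ 2 * t
  uD : K.relIndex (A ⊓ B) ≤ 2 * s
  uE : L.relIndex (A ⊓ B) ≤ 2 * s
  st : 2 * s < t
  ts : 2 * t < s * s
  s1 : 2 < s
  maxA : ∀ M, A ⊓ B ≤ M → M ≤ A → M = A ⊓ B ∨ M = A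
  maxB : ∀ M, A ⊓ B ≤ M → M ≤ B → M = A ⊓ B ∨ M = B
  conj : ∃ h : G, cj h A = B
  fit : ∀ X ≤ A ⊓ B, A ⊓ B ≤ normalizer (X : Set G) → ⁅X, X⁆ = ⊥ → X = ⊥
  cf : ∀ X ≤ A ⊓ B, A ≤ normalizer (X : Set G) → B ≤ normalizer (X : Set G) → X = ⊥
  K1 : K ≠ ⊥

namespace Conf

variable [Finite G] {A B K L SA SB SD SE : Subgroup G} {s t : ℕ}

theorem relIndex_ne (H X : Subgroup G) : H.relIndex X ≠ 0 :=
  index_ne_zero_of_finite (H := H.subgroupOf X)

theorem card_mul (H X : Subgroup G) : H.relIndex X * Nat.card (H ⊓ X : Subgroup G) = Nat.card X := by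
  have h1 := (H.subgroupOf X).index_mul_card
  rw [← relIndex] at h1
  rw [← h1, ← subgroupOf_map_subtype, card_map_of_injective (subtype_injective X)]

variable (h : Conf A B K L SA SB SD SE s t)
include h

theorem KD : K ≤ A ⊓ B := h.aD.JS.trans h.aD.SW

theorem LD : L ≤ A ⊓ B := h.aE.JS.trans h.aE.SW

theorem card_eq : Nat.card A = Nat.card B := by
  obtain ⟨x, hx⟩ := h.conj
  rw [← hx, card_cj]

theorem not_LK : ¬ L ≤ K := by
  intro hLK
  have h1 : t ≤ K.relIndex A := by
    rw [← h.cA]; exact relIndex_le_of_le_right h.aA.SW (relIndex_ne _ _)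
  have h2 := card_mul K A
  have h3 := card_mul L B
  rw [inf_eq_left.mpr (h.KD.trans inf_le_left)] at h2
  rw [inf_eq_left.mpr (h.LD.trans inf_le_right), ← h.card_eq, ← h2] at h3
  have h4 := card_mul L K
  rw [inf_eq_left.mpr hLK] at h4
  have h5 : L.relIndex K ≤ 2 := by
    by_contra hcon
    push Not at hcon
    have h6 : 3 ≤ L.relIndex K := hcon
    have h7 : L.relIndex B = K.relIndex A * L.relIndex K := by
      have : L.relIndex B * Nat.card L = (K.relIndex A * L.relIndex K) * Nat.card L := by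
        rw [h3, ← h4]; ring
      exact Nat.eq_of_mul_eq_mul_right Nat.card_pos this
    have h8 := h.uB
    rw [h7] at h8
    have h9 : t * 3 ≤ 2 * t := (Nat.mul_le_mul h1 h6).trans h8
    have := h.st
    omega
  have hn : SE ≤ normalizer (K : Set G) := (h.aE.SW.trans inf_le_left).trans h.aA.nJ
  rcases h.aE.key' h.KD hn with h6 | h6
  · have h7 : K = L := le_antisymm h6 hLK
    exact h.K1 (h.cf K h.KD h.aA.nJ (h7 ▸ h.aB.nJ))
  · rw [sup_eq_left.mpr hLK] at h6
    have h7 : L.relIndex SE ≤ L.relIndex K := relIndex_le_of_le_right h6 (relIndex_ne _ _)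
    rw [h.cE] at h7
    have := h.s1
    omega

/-- **The main step.** -/
theorem inf_eq_bot (hcore : ∀ X ≤ L, A ≤ normalizer (X : Set G) → X = ⊥) : K ⊓ L = ⊥ := by
  classical
  have hKD := h.KD
  have hLD := h.LD
  -- the minimal subgroup
  obtain ⟨N, hN⟩ := (Set.toFinite {X : Subgroup G | X ≠ ⊥ ∧ X ≤ K ∧
    A ≤ normalizer (X : Set G)}).exists_minimal ⟨K, h.K1, le_rfl, h.aA.nJ⟩
  obtain ⟨⟨hN1, hNK, hNn⟩, hmin0⟩ := hN
  have hmin : ∀ X : Subgroup G, X ≤ N → A ≤ normalizer (X : Set G) → X = ⊥ ∨ X = N := by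
    intro X hX hXn
    by_cases h1 : X = ⊥
    · exact Or.inl h1
    · exact Or.inr (le_antisymm hX (hmin0 ⟨h1, hX.trans hNK, hXn⟩ hX))
  clear hmin0
  have hND : N ≤ A ⊓ B := hNK.trans hKD
  have hDNN : A ⊓ B ≤ normalizer (N : Set G) := inf_le_left.trans hNn
  have hDL : A ⊓ B ≤ normalizer (L : Set G) := inf_le_right.trans h.aB.nJ
  have hDK : A ⊓ B ≤ normalizer (K : Set G) := inf_le_left.trans h.aA.nJ
  have hperf : ⁅N, N⁆ = N := by
    rcases hmin ⁅N, N⁆ (commutator_le_self N) (norm_commutator hNn) with h1 | h1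
    · exact absurd (h.fit N hND hDNN h1) hN1
    · exact h1
  have hNL : ¬ N ≤ L := fun h1 => hN1 (hcore N h1 hNn)
  have hSEN : SE ≤ N ⊔ L := by
    rcases h.aE.key' hND (h.aE.SW.trans hDNN) with h1 | h1
    · exact absurd h1 hNL
    · exact h1
  have hNSE : N ≤ SE := h.aE.le_of_perfect hND hperf
  have hSE : N ⊔ L = SE := le_antisymm (sup_le hNSE h.aE.JS) hSEN
  set N0 : Subgroup G := N ⊓ L with hN0
  have hcN : s * Nat.card N0 = Nat.card N := by
    have h1 := card_mul L N
    have h2 : L.relIndex N = s := by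
      rw [← relIndex_sup_of_norm (hND.trans hDL), hSE, h.cE]
    rw [h2, inf_comm] at h1
    exact h1
  have hN0N : N0 ≤ N := inf_le_left
  have hDN0 : A ⊓ B ≤ normalizer (N0 : Set G) := norm_inf hDNN hDL
  have hNN0 : N ≤ normalizer (N0 : Set G) := hND.trans hDN0
  have hsimp : ∀ Y ≤ N, N ≤ normalizer (Y : Set G) → Y ≤ N0 ∨ N ≤ Y ⊔ N0 := by
    intro Y hY hYn
    have h1 : SE ≤ normalizer ((Y ⊔ L : Subgroup G) : Set G) := by
      rw [← hSE]
      exact sup_le (norm_sup hYn (hND.trans hDL)) (le_sup_right.trans le_normalizer)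
    rcases h.aE.key Y (hY.trans hND) h1 with h2 | h2
    · exact Or.inl (le_inf hY h2)
    · right
      have h3 : N ≤ (Y ⊔ L) ⊓ N := le_inf (hNSE.trans h2) le_rfl
      refine h3.trans ((ded hY (hY.trans (hND.trans hDL))).trans ?_)
      rw [hN0, inf_comm]
  -- `C_K(N)` and more
  have hCL : ∀ C ≤ A ⊓ B, A ≤ normalizer (C : Set G) → C ≤ centralizer (N : Set G) → C = ⊥ := by
    intro C hC hCn hCN
    refine hcore C ?_ hCn
    refine h.aE.le_of_comm hC ?_
    rw [← hSE]
    refine comm_sup_right (hND.trans hDL) le_normalizer ?_ ?_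
    · rw [commutator_eq_bot_iff_le_centralizer.mpr hCN]; exact bot_le
    · exact le_normalizer_iff_commutator_le_right.mp (hC.trans hDL)
  have hM0 : A ⊓ normalizer (N0 : Set G) = A ⊓ B ∨ A ⊓ normalizer (N0 : Set G) = A :=
    h.maxA _ (le_inf inf_le_left hDN0) inf_le_left
  rcases hM0 with hM | hM
  swap
  · -- first case: `N` is simple
    have h0 : N0 = ⊥ := hcore N0 inf_le_right (inf_eq_left.mp hM)
    have h1 : K ⊓ centralizer (N : Set G) = ⊥ :=
      hCL _ (inf_le_left.trans hKD) (norm_inf h.aA.nJ (norm_centralizer hNn)) inf_le_right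
    rw [eq_bot_iff, ← h1]
    refine le_inf inf_le_left ?_
    rw [← commutator_eq_bot_iff_le_centralizer]
    refine comm_eq_bot (inf_le_left.trans (hKD.trans hDNN)) (hND.trans (norm_inf hDK hDL)) ?_
    rw [← h0]
    exact le_inf inf_le_right (inf_le_left.trans inf_le_right)
  -- second case
  exfalso
  have hAcj : ∀ x ∈ A, cj x N = N := fun x hx => cj_eq_of_mem (hNn hx)
  have hBof : ∀ x ∈ A, cj x N0 = N0 → x ∈ B := by
    intro x hx h1
    have h2 : x ∈ A ⊓ normalizer (N0 : Set G) := ⟨hx, mem_norm_iff.mpr h1⟩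
    rw [hM] at h2
    exact h2.2
  have hcjN : ∀ x ∈ A, cj x N0 ≤ N := by
    intro x hx
    rw [← hAcj x hx]; exact cj_mono hN0N
  have hcjn : ∀ x ∈ A, N ≤ normalizer ((cj x N0 : Subgroup G) : Set G) := by
    intro x hx
    have := norm_cj (x := x) hNN0
    rwa [hAcj x hx] at this
  have hsimpx : ∀ x ∈ A, ∀ Y ≤ N, N ≤ normalizer (Y : Set G) → Y ≤ cj x N0 ∨ N ≤ Y ⊔ cj x N0 := by
    intro x hx Y hY hYn
    have h1 : cj x⁻¹ Y ≤ N := by
      rw [← hAcj x⁻¹ (inv_mem hx)]; exact cj_mono hY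
    have h2 : N ≤ normalizer ((cj x⁻¹ Y : Subgroup G) : Set G) := by
      have := norm_cj (x := x⁻¹) hYn
      rwa [hAcj x⁻¹ (inv_mem hx)] at this
    rcases hsimp _ h1 h2 with h3 | h3
    · exact Or.inl (le_cj_iff.mpr h3)
    · right
      have h4 := cj_mono (x := x) h3
      rwa [hAcj x hx, cj_sup, cj_cj, mul_inv_cancel, cj_one] at h4
  have hcore0 : coreIn A N0 = ⊥ :=
    hcore _ ((coreIn_le A N0).trans inf_le_right) (norm_coreIn A N0)
  -- the complement
  have hcov : ∀ x ∈ A, x ∉ B → N ≤ cj x N0 ⊔ N0 := by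
    intro x hx hxB
    rcases hsimp _ (hcjN x hx) (hcjn x hx) with h1 | h1
    · exfalso
      exact hxB (hBof x hx (eq_of_le_of_card_ge h1 (card_cj x N0).ge))
    · exact h1
  set X0 : Subgroup G := N ⊓ ⨅ x : {x : G // x ∈ A ∧ x ∉ B}, cj (x : G) N0 with hX0
  have hNX0 : N ≤ X0 ⊔ N0 := by
    refine iInf_step (M := N) (J := N0) hNN0 (fun x : {x : G // x ∈ A ∧ x ∉ B} => cj (x : G) N0)
      (fun x => hcjN x x.2.1) (fun x => hcjn x x.2.1) ?_ le_sup_left (fun x => hcov x x.2.1 x.2.2)
    rw [hperf]; exact le_sup_left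
  have hX0N0 : X0 ⊓ N0 ≤ ⊥ := by
    rw [← hcore0]
    rintro y ⟨⟨_, hy1⟩, hy2⟩
    rw [mem_coreIn]
    intro x hx
    by_cases hxB : x ∈ B
    · rw [cj_eq_of_mem (hDN0 ⟨hx, hxB⟩)]; exact hy2
    · exact (mem_iInf.mp hy1) ⟨x, hx, hxB⟩
  have hDX0 : A ⊓ B ≤ normalizer (X0 : Set G) := by
    refine norm_inf hDNN ?_
    intro g hg
    rw [mem_norm_iff]
    ext y
    rw [mem_cj]
    simp only [mem_iInf, Subtype.forall, mem_cj]
    constructor
    · intro h1 x hx
      have h2 := h1 (g⁻¹ * x) ⟨mul_mem (inv_mem hg.1) hx.1, fun h3 => hx.2 (by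
        have := B.mul_mem hg.2 h3
        rwa [mul_inv_cancel_left] at this)⟩
      have e : (g⁻¹ * x)⁻¹ * (g⁻¹ * y * g) * (g⁻¹ * x) = x⁻¹ * y * x := by group
      rwa [e] at h2
    · intro h1 x hx
      have h2 := h1 (g * x) ⟨mul_mem hg.1 hx.1, fun h3 => hx.2 (by
        have := B.mul_mem (B.inv_mem hg.2) h3
        rwa [inv_mul_cancel_left] at this)⟩
      have e : (g * x)⁻¹ * y * (g * x) = x⁻¹ * (g⁻¹ * y * g) * x := by group
      rwa [e] at h2
  have hX0N : X0 ≤ N := inf_le_left
  have hX0L : ⁅X0, L⁆ = ⊥ := by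
    refine comm_eq_bot (hX0N.trans (hND.trans hDL)) (hLD.trans hDX0) ?_
    refine le_trans ?_ hX0N0
    exact le_inf inf_le_left (le_inf (inf_le_left.trans hX0N) inf_le_right)
  -- the centralizer of `N`
  have hAC : A ⊓ centralizer (N : Set G) = ⊥ := by
    have hCn : A ≤ normalizer ((A ⊓ centralizer (N : Set G) : Subgroup G) : Set G) :=
      norm_inf le_normalizer (norm_centralizer hNn)
    have hCB : A ⊓ centralizer (N : Set G) ≤ A ⊓ B := by
      rintro x ⟨hx, hxc⟩
      refine ⟨hx, hBof x hx ?_⟩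
      apply cj_eq_of_mem
      rw [mem_normalizer_iff]
      intro y
      have hc := mem_centralizer_iff.mp hxc
      constructor
      · intro hy
        have : x * y * x⁻¹ = y := by rw [← hc y (hN0N hy)]; group
        rwa [this]
      · intro hy
        have h1 := hc _ (hN0N hy)
        have e : x * y * x⁻¹ * x = x * y := by group
        have e2 : y = x * y * x⁻¹ := by
          have : x * y = x * (x * y * x⁻¹) := by rw [← h1]; group
          exact mul_left_cancel this
        rwa [e2]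
    exact hCL _ hCB hCn inf_le_right
  obtain ⟨g, hg⟩ := h.conj
  set N' : Subgroup G := cj g N with hN'
  have hN'n : B ≤ normalizer (N' : Set G) := by
    rw [← hg]; exact norm_cj hNn
  have hcN' : Nat.card N' = Nat.card N := card_cj g N
  have hN'B : N' ≤ B := by
    rw [← hg]; exact cj_mono (hND.trans inf_le_left)
  have hperf' : ⁅N', N'⁆ = N' := by
    rw [hN', cj, ← map_commutator, hperf]
  -- order of `N`
  have hs : s ≤ Nat.card N0 := by
    have hAB : ¬ A ≤ B := by
      intro h1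
      have h2 : t ≤ K.relIndex A := by
        rw [← h.cA]; exact relIndex_le_of_le_right h.aA.SW (relIndex_ne _ _)
      have h3 := h.uD
      rw [inf_eq_left.mpr h1] at h3
      have := h.st
      omega
    obtain ⟨x, hx, hxB⟩ := SetLike.not_le_iff_exists.mp hAB
    have h1 : (cj x N0).relIndex N = s := by
      have h2 := card_mul (cj x N0) N
      rw [inf_eq_left.mpr (hcjN x hx), card_cj, ← hcN] at h2
      exact Nat.eq_of_mul_eq_mul_right Nat.card_pos h2
    have h2 : (cj x N0).relIndex N ≤ (cj x N0).relIndex (N0 ⊔ cj x N0) :=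
      relIndex_le_of_le_right (by rw [sup_comm]; exact hcov x hx hxB) (relIndex_ne _ _)
    rw [relIndex_sup_of_norm (hN0N.trans (hcjn x hx)), h1] at h2
    exact h2.trans (Nat.le_of_dvd Nat.card_pos (relIndex_dvd_card _ _))
  have hN'L : N' ≤ L := by
    have hXn : A ≤ normalizer ((cj g⁻¹ (N' ⊓ L) : Subgroup G) : Set G) := by
      have h1 : B ≤ normalizer ((N' ⊓ L : Subgroup G) : Set G) := norm_inf hN'n h.aB.nJ
      have h2 := norm_cj (x := g⁻¹) h1
      rwa [← hg, cj_cj, inv_mul_cancel, cj_one] at h2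
    have hXN : cj g⁻¹ (N' ⊓ L) ≤ N := by
      have h1 := cj_mono (x := g⁻¹) (inf_le_left : N' ⊓ L ≤ N')
      rwa [hN', cj_cj, inv_mul_cancel, cj_one] at h1
    rcases hmin _ hXN hXn with h1 | h1
    · exfalso
      have h2 : N' ⊓ L = ⊥ := by
        have h3 := congrArg (cj g) h1
        rw [cj_cj, mul_inv_cancel, cj_one] at h3
        rw [h3]; exact map_bot _
      have h3 : L.relIndex N' = Nat.card N' := by
        have := card_mul L N'
        rw [inf_comm, h2, card_bot, mul_one] at this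
        exact this
      have h4 : L.relIndex N' ≤ L.relIndex B := relIndex_le_of_le_right hN'B (relIndex_ne _ _)
      rw [h3, hcN', ← hcN] at h4
      have h5 : s * s ≤ s * Nat.card N0 := Nat.mul_le_mul_left s hs
      have h6 := h.uB
      have h7 := h.ts
      omega
    · have h2 := congrArg (cj g) h1
      rw [cj_cj, mul_inv_cancel, cj_one] at h2
      rw [← hN'] at h2
      exact inf_eq_left.mp h2
  have hN'D : N' ≤ A ⊓ B := hN'L.trans hLD
  -- complete reducibility
  have hCR : ∀ Y ≤ N, N ≤ normalizer (Y : Set G) → N ≤ Y ⊔ (N ⊓ centralizer (Y : Set G)) := by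
    intro Y hY hYn
    set E : Subgroup G := N ⊓ ⨅ x : {x : G // x ∈ A ∧ ¬ Y ≤ cj x N0}, cj (x : G) N0 with hE
    have h1 : N ≤ E ⊔ Y := by
      refine iInf_step (M := N) (J := Y) hYn
        (fun x : {x : G // x ∈ A ∧ ¬ Y ≤ cj x N0} => cj (x : G) N0)
        (fun x => hcjN x x.2.1) (fun x => hcjn x x.2.1) ?_ le_sup_left ?_
      · rw [hperf]; exact le_sup_left
      · intro x
        rcases hsimpx x x.2.1 Y hY hYn with h2 | h2
        · exact absurd h2 x.2.2
        · rwa [sup_comm] at h2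
    have hEn : N ≤ normalizer (E : Set G) :=
      norm_inf le_normalizer (norm_iInf fun x => hcjn x x.2.1)
    have h2 : ⁅E, Y⁆ = ⊥ := by
      refine comm_eq_bot (inf_le_left.trans hYn) (hY.trans hEn) ?_
      rw [← hcore0]
      rintro y ⟨⟨_, hy1⟩, hy2⟩
      rw [mem_coreIn]
      intro x hx
      by_cases hxY : Y ≤ cj x N0
      · exact hxY hy2
      · exact (mem_iInf.mp hy1) ⟨x, hx, hxY⟩
    rw [commutator_eq_bot_iff_le_centralizer] at h2
    refine h1.trans (sup_le ?_ le_sup_left)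
    exact (le_inf inf_le_left h2).trans le_sup_right
  have hCR' : ∀ Y ≤ N', N' ≤ normalizer (Y : Set G) →
      N' ≤ Y ⊔ (N' ⊓ centralizer (Y : Set G)) := by
    intro Y hY hYn
    have h1 : cj g⁻¹ Y ≤ N := by
      have h1 := cj_mono (x := g⁻¹) hY
      rwa [hN', cj_cj, inv_mul_cancel, cj_one] at h1
    have h2 : N ≤ normalizer ((cj g⁻¹ Y : Subgroup G) : Set G) := by
      have := norm_cj (x := g⁻¹) hYn
      rwa [hN', cj_cj, inv_mul_cancel, cj_one] at this
    have h3 := cj_mono (x := g) (hCR _ h1 h2)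
    rwa [cj_sup, cj_inf, cj_centralizer, cj_cj, mul_inv_cancel, cj_one, ← hN'] at h3
  -- the intersection with `K`
  have hDN' : A ⊓ B ≤ normalizer (N' : Set G) := inf_le_right.trans hN'n
  set Q : Subgroup G := N' ⊓ K with hQ
  have hDQ : A ⊓ B ≤ normalizer (Q : Set G) := norm_inf hDN' hDK
  have hQN : Q ≤ N := by
    set Z : Subgroup G := Q ⊓ N with hZ
    have hDZ : A ⊓ B ≤ normalizer (Z : Set G) := norm_inf hDQ hDNN
    have hZN' : Z ≤ N' := inf_le_left.trans inf_le_left
    have h1 := hCR' Z hZN' (hN'D.trans hDZ)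
    set P : Subgroup G := Q ⊓ centralizer (Z : Set G) with hP
    have hDP : A ⊓ B ≤ normalizer (P : Set G) := norm_inf hDQ (norm_centralizer hDZ)
    have hPD : P ≤ A ⊓ B := inf_le_left.trans (inf_le_right.trans hKD)
    have hPN0 : P ⊓ N = ⊥ := by
      refine h.fit _ (inf_le_left.trans hPD) (norm_inf hDP hDNN) ?_
      rw [commutator_eq_bot_iff_le_centralizer]
      have h2 : P ⊓ N ≤ Z := le_inf (inf_le_left.trans inf_le_left) inf_le_right
      exact (inf_le_left.trans inf_le_right : P ⊓ N ≤ centralizer (Z : Set G)).trans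
        (centralizer_le h2)
    have hPN : P = ⊥ := by
      rw [eq_bot_iff, ← hAC]
      refine le_inf (hPD.trans inf_le_left) ?_
      rw [← commutator_eq_bot_iff_le_centralizer]
      exact comm_eq_bot (hPD.trans hDNN) (hND.trans hDP) hPN0.le
    have hZc : Z ≤ normalizer ((N' ⊓ centralizer (Z : Set G) : Subgroup G) : Set G) := by
      refine norm_inf (hZN'.trans le_normalizer) ?_
      exact (norm_centralizer le_normalizer)
    have h2 : Q ≤ Z ⊔ P := by
      have h3 : Q ≤ (Z ⊔ (N' ⊓ centralizer (Z : Set G))) ⊓ Q :=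
        le_inf ((inf_le_left : Q ≤ N').trans h1) le_rfl
      refine h3.trans ((ded inf_le_left hZc).trans ?_)
      refine sup_le le_sup_left (le_trans ?_ le_sup_right)
      exact le_inf inf_le_right (inf_le_left.trans inf_le_right)
    rw [hPN, sup_bot_eq] at h2
    exact h2.trans inf_le_right
  have hQN0 : Q ≤ N0 := le_inf hQN (inf_le_left.trans hN'L)
  have hcQ : Nat.card N0 ≤ Nat.card Q := by
    have h1 := card_mul K N'
    rw [inf_comm, ← hQ, hcN', ← hcN] at h1
    have h2 : K.relIndex N' ≤ K.relIndex SD :=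
      relIndex_le_of_le_right (h.aD.le_of_perfect hN'D hperf') (relIndex_ne _ _)
    rw [h.cD] at h2
    have h3 : s * Nat.card N0 ≤ s * Nat.card Q := by
      rw [← h1]; exact Nat.mul_le_mul_right _ h2
    exact Nat.le_of_mul_le_mul_left h3 (by have := h.s1; omega)
  have hQe : Q = N0 := eq_of_le_of_card_ge hQN0 hcQ
  have h1 := hCR' N0 (hQe ▸ inf_le_left) (hN'D.trans hDN0)
  have h2 : N' ⊓ centralizer (N0 : Set G) = ⊥ := by
    rw [eq_bot_iff, ← hAC]
    refine le_inf (inf_le_left.trans (hN'D.trans inf_le_left)) ?_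
    have h3 : N' ⊓ centralizer (N0 : Set G) ≤ centralizer ((X0 ⊔ N0 : Subgroup G) : Set G) := by
      rw [← commutator_eq_bot_iff_le_centralizer, commutator_comm,
        commutator_eq_bot_iff_le_centralizer]
      refine sup_le ?_ ?_
      · rw [← commutator_eq_bot_iff_le_centralizer, eq_bot_iff, ← hX0L]
        exact commutator_mono le_rfl (inf_le_left.trans hN'L)
      · rw [← commutator_eq_bot_iff_le_centralizer, commutator_comm,
          commutator_eq_bot_iff_le_centralizer]
        exact inf_le_right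
    exact h3.trans (centralizer_le hNX0)
  rw [h2, sup_bot_eq] at h1
  have h3 := card_le_of_le h1
  rw [hcN', ← hcN] at h3
  have h4 : 0 < Nat.card N0 := Nat.card_pos
  have h5 := h.s1
  nlinarith

end Conf

end Cfsg.Agent.H508.AltConf
end

-- part: H508/AltPair
section
/-!
# The second member of the pair
-/

set_option autoImplicit false
set_option linter.unusedSectionVars false

namespace Cfsg.Agent.H508.AltPair

open Subgroup
open Cfsg.Agent.H508.AltSec Cfsg.Agent.H508.AltConf
open scoped commutatorElement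

variable {G : Type*} [Group G]

theorem cj_commutator (x : G) (X Y : Subgroup G) : cj x ⁅X, Y⁆ = ⁅cj x X, cj x Y⁆ :=
  map_commutator _ _ _

theorem cj_le_iff {x : G} {X Y : Subgroup G} : cj x X ≤ Y ↔ X ≤ cj x⁻¹ Y := by
  rw [le_cj_iff, inv_inv]

theorem cj_inv_cj (x : G) (X : Subgroup G) : cj x⁻¹ (cj x X) = X := by
  rw [cj_cj, inv_mul_cancel, cj_one]

theorem cj_cj_inv (x : G) (X : Subgroup G) : cj x (cj x⁻¹ X) = X := by
  rw [cj_cj, mul_inv_cancel, cj_one]

theorem relIndex_cj (x : G) (X Y : Subgroup G) : (cj x X).relIndex (cj x Y) = X.relIndex Y :=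
  relIndex_map_map_of_injective _ _ (MulAut.conj x).injective

theorem as_cj {W J S : Subgroup G} (h : AS W J S) (g : G) : AS (cj g W) (cj g J) (cj g S) := by
  refine ⟨cj_mono h.JS, cj_mono h.SW, norm_cj h.nJ, ?_, ?_, ?_, ?_⟩
  · intro Y hY hn
    have h1 : cj g⁻¹ Y ≤ W := by
      have := cj_mono (x := g⁻¹) hY
      rwa [cj_inv_cj] at this
    have h2 : S ≤ normalizer ((cj g⁻¹ Y ⊔ J : Subgroup G) : Set G) := by
      have := norm_cj (x := g⁻¹) hn
      rwa [cj_sup, cj_inv_cj, cj_inv_cj] at this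
    rcases h.key _ h1 h2 with h3 | h3
    · exact Or.inl (le_cj_iff.mpr h3)
    · right
      have := cj_mono (x := g) h3
      rwa [cj_sup, cj_cj_inv] at this
  · rw [← cj_commutator, ← cj_sup]
    exact cj_mono h.perf
  · rw [← cj_commutator]
    exact cj_mono h.com
  · intro h1
    apply h.ne
    have := cj_mono (x := g⁻¹) h1
    rwa [cj_inv_cj, cj_inv_cj] at this

/-- A normal subgroup of small index covers the section. -/
theorem cover_of_small [Finite G] {W J S M Y : Subgroup G} (h : AS W J S) (hMW : M ≤ W)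
    (hSM : S ≤ M ⊔ J) (hY : Y ≤ M) (hn : M ≤ normalizer (Y : Set G))
    (hc : Y.relIndex M < J.relIndex S) : S ≤ Y ⊔ J := by
  have h2 : S ≤ normalizer ((Y ⊔ J : Subgroup G) : Set G) := by
    refine hSM.trans (sup_le ?_ (le_sup_right.trans le_normalizer))
    exact norm_sup hn (hMW.trans h.nJ)
  rcases h.key _ (hY.trans hMW) h2 with h3 | h3
  · exfalso
    have h4 : J.relIndex S ≤ J.relIndex (M ⊔ J) :=
      relIndex_le_of_le_right hSM (index_ne_zero_of_finite (H := J.subgroupOf (M ⊔ J)))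
    rw [relIndex_sup_of_norm (hMW.trans h.nJ)] at h4
    have h5 : J.relIndex M ≤ Y.relIndex M :=
      relIndex_le_of_le_left h3 (index_ne_zero_of_finite (H := Y.subgroupOf M))
    exact absurd hc (not_lt.mpr (h4.trans h5))
  · exact h3

/-- The kernel of the second group is in the conjugate of the first kernel. -/
theorem le_cj_of [Finite G] {A B K L SA : Subgroup G} {m : ℕ} (aA : AS A K SA)
    (hL : B ≤ normalizer (L : Set G)) (hKD : K ≤ A ⊓ B) (hLD : L ≤ A ⊓ B)
    (h1 : K.relIndex (A ⊓ B) ≤ m) (h2 : L.relIndex (A ⊓ B) ≤ m) (h3 : m < K.relIndex SA)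
    {g : G} (hg : cj g A = B)
    (hT : (∀ X ≤ L, A ≤ normalizer (X : Set G) → X = ⊥) ∨
      (∀ X ≤ K, B ≤ normalizer (X : Set G) → X = ⊥)) : L ≤ cj g K := by
  have aJ := as_cj aA g
  rw [hg] at aJ
  have hr : (cj g K).relIndex (cj g SA) = K.relIndex SA := relIndex_cj _ _ _
  have hLB : L ≤ B := hLD.trans inf_le_right
  by_contra hcon
  have hSL : cj g SA ≤ L ⊔ cj g K := by
    rcases aJ.key' hLB (aJ.SW.trans hL) with h4 | h4
    · exact absurd h4 hcon
    · exact h4
  have hne : ∀ X Y : Subgroup G, X.relIndex Y ≠ 0 := fun X Y =>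
    index_ne_zero_of_finite (H := X.subgroupOf Y)
  rcases hT with hT | hT
  · -- the core of `L` in `A` is trivial
    have hcov : cj g SA ≤ (K ⊓ L) ⊔ cj g K := by
      refine cover_of_small aJ hLB hSL inf_le_right ?_ ?_
      · exact norm_inf ((hLD.trans inf_le_left).trans aA.nJ) le_normalizer
      · rw [inf_relIndex_right, hr]
        exact lt_of_le_of_lt (relIndex_le_of_le_right hLD (hne _ _)) (lt_of_le_of_lt h1 h3)
    refine aJ.false_of_family (M := K ⊓ L) (inf_le_right.trans hLB) hcov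
      (fun x : A => (K ⊓ L) ⊓ cj (x : G) L) (fun x => inf_le_left) ?_ ?_ ?_
    · intro x
      refine norm_inf le_normalizer ?_
      have h4 : cj (x : G) K = K := cj_eq_of_mem (aA.nJ x.2)
      have h5 : K ≤ normalizer ((cj (x : G) L : Subgroup G) : Set G) := by
        have := norm_cj (x := (x : G)) ((hKD.trans inf_le_right).trans hL)
        rwa [h4] at this
      exact inf_le_left.trans h5
    · intro x
      rw [inf_relIndex_left, hr]
      have h4 : cj (x : G) K = K := cj_eq_of_mem (aA.nJ x.2)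
      have h5 : (cj (x : G) L).relIndex K = L.relIndex K := by
        conv_lhs => rw [← h4]
        exact relIndex_cj _ _ _
      have h6 : (cj (x : G) L).relIndex (K ⊓ L) ≤ (cj (x : G) L).relIndex K :=
        relIndex_le_of_le_right inf_le_left (hne _ _)
      have h7 : L.relIndex K ≤ L.relIndex (A ⊓ B) := relIndex_le_of_le_right hKD (hne _ _)
      rw [h5] at h6
      exact lt_of_le_of_lt (h6.trans (h7.trans h2)) h3
    · have h4 : coreIn A L = ⊥ := hT _ (coreIn_le A L) (norm_coreIn A L)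
      refine le_trans ?_ (bot_le : ⊥ ≤ cj g K)
      rw [← h4]
      refine inf_le_right.trans ?_
      exact iInf_mono fun x => inf_le_right
  · -- the core of `K` in `B` is trivial
    refine aJ.false_of_family (M := L) hLB hSL
      (fun x : B => L ⊓ cj (x : G) K) (fun x => inf_le_left) ?_ ?_ ?_
    · intro x
      refine norm_inf le_normalizer ?_
      have h4 : cj (x : G) L = L := cj_eq_of_mem (hL x.2)
      have := norm_cj (x := (x : G)) ((hLD.trans inf_le_left).trans aA.nJ)
      rwa [h4] at this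
    · intro x
      rw [inf_relIndex_left, hr]
      have h4 : cj (x : G) L = L := cj_eq_of_mem (hL x.2)
      have h5 : (cj (x : G) K).relIndex L = K.relIndex L := by
        conv_lhs => rw [← h4]
        exact relIndex_cj _ _ _
      have h7 : K.relIndex L ≤ K.relIndex (A ⊓ B) := relIndex_le_of_le_right hLD (hne _ _)
      rw [h5]
      exact lt_of_le_of_lt (h7.trans h1) h3
    · have h4 : coreIn B K = ⊥ := hT _ (coreIn_le B K) (norm_coreIn B K)
      refine le_trans ?_ (bot_le : ⊥ ≤ cj g K)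
      rw [← h4]
      refine inf_le_right.trans ?_
      exact iInf_mono fun x => inf_le_right

end Cfsg.Agent.H508.AltPair
end

-- part: H508/AltMain
section
/-!
# Primitive groups with an alternating suborbit on which the point stabiliser is unfaithful
-/

set_option autoImplicit false
set_option linter.unusedSectionVars false

namespace Cfsg.Agent.H508.AltMain

open Subgroup MulAction Cfsg
open Cfsg.Agent.H508.AltSec Cfsg.Agent.H508.AltConf Cfsg.Agent.H508.AltPair
open Cfsg.Agent.H508.AltOrbit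
open Cfsg.Agent.H429.Suborbit

variable {G Ω : Type*} [Group G] [MulAction G Ω]

/-- The suborbit. -/
abbrev Orb (G : Type*) {Ω : Type*} [Group G] [MulAction G Ω] (a b : Ω) : Set Ω :=
  orbit (stabilizer G a) b

theorem inv_orb (a b : Ω) : Inv (stabilizer G a) (Orb G a b) := by
  rintro w hw _ ⟨x, rfl⟩
  exact ⟨⟨w, hw⟩ * x, mul_smul _ _ _⟩

theorem inv_sdiff {W : Subgroup G} {s : Set Ω} (h : Inv W s) (b : Ω) :
    Inv (W ⊓ stabilizer G b) (s \ {b}) := by
  rintro w hw c ⟨hc, hcb⟩
  obtain ⟨hw1, hw2⟩ := mem_inf.mp hw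
  refine ⟨h w hw1 c hc, ?_⟩
  intro h1
  apply hcb
  have h2 : w • c = w • b := by
    rw [mem_stabilizer_iff.mp hw2]; exact h1
  exact smul_left_cancel w h2

theorem mem_K_iff {a b : Ω} {w : G} (hw : w ∈ stabilizer G a) :
    w ∈ (K a b : Subgroup G) ↔ ∀ c ∈ Orb G a b, w • c = c := by
  rw [mem_K]
  exact ⟨fun h => h.2, fun h => ⟨hw, h⟩⟩

theorem mem_K_iff' {a b : Ω} {w : G} (hw : w ∈ stabilizer G a ⊓ stabilizer G b) :
    w ∈ (K a b : Subgroup G) ↔ ∀ c ∈ Orb G a b \ {b}, w • c = c := by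
  obtain ⟨hw1, hw2⟩ := mem_inf.mp hw
  rw [mem_K_iff hw1]
  constructor
  · intro h c hc
    exact h c hc.1
  · intro h c hc
    by_cases hcb : c = b
    · rw [hcb]; exact hw2
    · exact h c ⟨hc, hcb⟩

theorem K_le_inf (a b : Ω) : (K a b : Subgroup G) ≤ stabilizer G a ⊓ stabilizer G b :=
  le_inf (K_le_left a b) (K_le_right a b)

theorem rho_eq (a b : Ω) : rho (stabilizer G a) (Orb G a b) (inv_orb a b) =
    toPermHom (stabilizer G a) (orbit (stabilizer G a) b) := by
  ext w c
  rfl

section fin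

variable [Finite Ω]

noncomputable local instance instFt (s : Set Ω) : Fintype s := Fintype.ofFinite s
noncomputable local instance instDe (s : Set Ω) : DecidableEq s := Classical.decEq s

theorem card_ft (s : Set Ω) : Fintype.card s = Nat.card s := Nat.card_eq_fintype_card.symm

theorem card_sdiff {s : Set Ω} {b : Ω} (hb : b ∈ s) :
    Fintype.card (s \ {b} : Set Ω) = Nat.card s - 1 := by
  rw [card_ft, Nat.card_coe_set_eq, Set.ncard_sdiff_singleton_of_mem hb, Nat.card_coe_set_eq]

theorem as_left {a b : Ω} (h : AltOn (stabilizer G a) (Orb G a b))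
    (h6 : 6 ≤ Nat.card (Orb G a b)) :
    ∃ S : Subgroup G, AS (stabilizer G a) (K a b) S ∧
      2 * (K a b).relIndex S = (Nat.card (Orb G a b)).factorial ∧
      (K a b).relIndex (stabilizer G a) ≤ (Nat.card (Orb G a b)).factorial := by
  have := h.exists_as (inv_orb a b) (by rw [card_ft]; omega) (K_le_left a b)
    (fun w hw => mem_K_iff hw)
  rwa [card_ft] at this

theorem as_inf {a b : Ω} (h : AltOn (stabilizer G a) (Orb G a b))
    (h6 : 6 ≤ Nat.card (Orb G a b)) :
    ∃ S : Subgroup G, AS (stabilizer G a ⊓ stabilizer G b) (K a b) S ∧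
      2 * (K a b).relIndex S = (Nat.card (Orb G a b) - 1).factorial ∧
      (K a b).relIndex (stabilizer G a ⊓ stabilizer G b) ≤
        (Nat.card (Orb G a b) - 1).factorial := by
  have hb : b ∈ Orb G a b := mem_orbit_self b
  have := (h.stab hb).exists_as (inv_sdiff (inv_orb a b) b) (by rw [card_sdiff hb]; omega)
    (K_le_inf a b) (fun w hw => mem_K_iff' hw)
  rwa [card_sdiff hb] at this

theorem relIndex_inf_le (a b : Ω) :
    (K a b).relIndex (stabilizer G a ⊓ stabilizer G b) ≤ (Nat.card (Orb G a b) - 1).factorial := by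
  have hb : b ∈ Orb G a b := mem_orbit_self b
  have := relIndex_le (inv_sdiff (inv_orb (G := G) a b) b) (fun w hw => mem_K_iff' hw)
  rwa [card_sdiff hb] at this

/-- A perfect subgroup of a solvable group is trivial. -/
theorem eq_bot_of_perfect {X : Type*} [Group X] {F P : Subgroup X} [Group.IsSolvable F] (hP : P ≤ F)
    (h : P ≤ ⁅P, P⁆) : P = ⊥ := by
  have h1 : Group.IsSolvable P :=
    Group.isSolvable_of_isSolvable_injective (inclusion_injective hP)
  by_contra hne
  have hnt : Nontrivial P := (nontrivial_iff_ne_bot P).mpr hne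
  have h2 := Group.IsSolvable.commutator_lt_top_of_nontrivial P
  apply h2.ne
  rw [eq_top_iff]
  intro x _
  have h3 : (x : X) ∈ ⁅P, P⁆ := h x.2
  rw [← map_subtype_commutator] at h3
  obtain ⟨y, hy, hyx⟩ := h3
  have : y = x := Subtype.ext hyx
  rwa [← this]

theorem fitting_ind [Finite G] {a b : Ω} (h : AltOn (stabilizer G a) (Orb G a b))
    (h6 : 6 ≤ Nat.card (Orb G a b)) : fittingSubgroup (Ind G a b) = ⊥ := by
  obtain ⟨S, hS, -, -⟩ := as_inf h h6
  set A := stabilizer G a with hA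
  set B := stabilizer G b with hB
  set φ := toPermHom A (orbit A b) with hφ
  set F := (fittingSubgroup (Ind G a b)).map (Ind G a b).subtype with hF
  have hnil := Cfsg.Agent.Lib.Cores.fittingSubgroup_isNilpotent (G := Ind G a b)
  have hsolv : Group.IsSolvable F := by
    have e := (fittingSubgroup (Ind G a b)).equivMapOfInjective (Ind G a b).subtype
      (subtype_injective _)
    exact Group.isSolvable_of_surjective (f := e.toMonoidHom) e.surjective
  have hFI : F ≤ Ind G a b := by
    rintro _ ⟨x, -, rfl⟩; exact x.2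
  have hFn : Ind G a b ≤ normalizer (F : Set (Equiv.Perm (orbit A b))) := by
    rw [← normal_subgroupOf_iff_le_normalizer hFI]
    have h1 : F.subgroupOf (Ind G a b) = fittingSubgroup (Ind G a b) := by
      rw [hF, subgroupOf, comap_map_eq_self_of_injective (subtype_injective _)]
    rw [h1]
    infer_instance
  -- the preimage
  set Y : Subgroup G := (F.comap φ ⊓ B.subgroupOf A).map A.subtype with hY
  have hYD : Y ≤ A ⊓ B := by
    rintro _ ⟨x, ⟨-, hx⟩, rfl⟩
    exact ⟨x.2, hx⟩
  have hmemY : ∀ x (hx : x ∈ A), x ∈ B → (x ∈ Y ↔ φ ⟨x, hx⟩ ∈ F) := by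
    intro x hx hxB
    constructor
    · rintro ⟨y, ⟨hy, -⟩, rfl⟩
      exact hy
    · intro hxF
      exact ⟨⟨x, hx⟩, ⟨hxF, hxB⟩, rfl⟩
  have hYn : A ⊓ B ≤ normalizer (Y : Set G) := by
    refine le_normalizer_of_conj ?_
    intro g hg x hx
    obtain ⟨hg1, hg2⟩ := mem_inf.mp hg
    obtain ⟨hx1, hx2⟩ := mem_inf.mp (hYD hx)
    have h1 := (hmemY x hx1 hx2).mp hx
    rw [hmemY _ (A.mul_mem (A.mul_mem hg1 hx1) (A.inv_mem hg1))
      (B.mul_mem (B.mul_mem hg2 hx2) (B.inv_mem hg2))]
    have h2 : φ ⟨g, hg1⟩ ∈ normalizer (F : Set (Equiv.Perm (orbit A b))) :=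
      hFn (mem_map_of_mem φ hg2)
    have h3 := (mem_normalizer_iff.mp h2 _).mp h1
    rw [← map_mul, ← map_inv, ← map_mul] at h3
    exact h3
  have hkφ : ∀ x (hx : x ∈ A), x ∈ (K a b : Subgroup G) ↔ φ ⟨x, hx⟩ = 1 := by
    intro x hx
    rw [← ker_toPermHom]
    constructor
    · rintro ⟨y, hy, rfl⟩; exact hy
    · intro h1; exact ⟨⟨x, hx⟩, h1, rfl⟩
  rcases hS.key' hYD (hS.SW.trans hYn) with h1 | h1
  · rw [eq_bot_iff]
    intro x hx
    obtain ⟨⟨y, hyA⟩, hyB, hyx⟩ := x.2
    have h2 : y ∈ Y := by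
      rw [hmemY y hyA hyB, hyx]
      exact ⟨x, hx, rfl⟩
    have h3 := (hkφ y hyA).mp (h1 h2)
    rw [mem_bot]
    apply Subtype.ext
    rw [← hyx]
    exact h3
  · exfalso
    have hKY : (K a b : Subgroup G) ≤ Y := by
      intro x hx
      rw [hmemY x (K_le_left a b hx) (K_le_right a b hx), (hkφ x _).mp hx]
      exact one_mem _
    rw [sup_eq_left.mpr hKY] at h1
    set P := (S.subgroupOf A).map φ with hP
    have hSA : S ≤ A := hS.SW.trans inf_le_left
    have hPF : P ≤ F := by
      rintro _ ⟨⟨x, hxA⟩, hxS, rfl⟩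
      have hxS' : x ∈ S := hxS
      exact (hmemY x hxA (hS.SW hxS').2).mp (h1 hxS')
    have hPP : P ≤ ⁅P, P⁆ := by
      rintro _ ⟨⟨x, hxA⟩, hxS, rfl⟩
      have hxS' : x ∈ S := hxS
      have h2 := hS.perf hxS'
      have h3 : ⁅S, S⁆ ≤ normalizer ((K a b : Subgroup G) : Set G) :=
        (commutator_le_self S).trans (hS.SW.trans hS.nJ)
      have h4 : x ∈ ((⁅S, S⁆ ⊔ K a b : Subgroup G) : Set G) := h2
      rw [coe_mul_of_left_le_normalizer_right _ _ h3] at h4
      obtain ⟨y, hy, k, hk, hyk⟩ := h4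
      have hyA : y ∈ A := hSA (commutator_le_self S hy)
      have hkA : k ∈ A := K_le_left a b hk
      have h5 : φ ⟨x, hxA⟩ = φ ⟨y, hyA⟩ := by
        have h6 : (⟨x, hxA⟩ : A) = ⟨y, hyA⟩ * ⟨k, hkA⟩ := Subtype.ext hyk.symm
        rw [h6, map_mul, (hkφ k hkA).mp hk, mul_one]
      rw [h5, hP, ← map_commutator]
      refine mem_map_of_mem φ ?_
      have h7 : ⁅S, S⁆ = ⁅S.subgroupOf A, S.subgroupOf A⁆.map A.subtype := by
        rw [map_commutator, subgroupOf_map_subtype, inf_eq_left.mpr hSA]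
      rw [h7] at hy
      obtain ⟨z, hz, hzy⟩ := hy
      have : z = ⟨y, hyA⟩ := Subtype.ext hzy
      rwa [← this]
    have h2 := eq_bot_of_perfect hPF hPP
    apply hS.ne
    intro x hx
    rw [hkφ x (hSA hx)]
    have h3 : φ ⟨x, hSA hx⟩ ∈ P := mem_map_of_mem φ (mem_subgroupOf.mpr hx)
    rwa [h2, mem_bot] at h3

/-! ### The configuration -/

theorem fact_ineq {d : ℕ} (h6 : 6 ≤ d) : 24 * 5 ≤ (d - 1).factorial ∧
    d.factorial = d * (d - 1).factorial ∧ 4 * d < (d - 1).factorial := by
  obtain ⟨n, rfl⟩ : ∃ n, d = n + 6 := ⟨d - 6, by omega⟩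
  have e : n + 6 - 1 = n + 5 := by omega
  rw [e]
  have h1 : 5 ≤ n + 5 := by omega
  have h2 : (5).factorial ≤ (n + 5).factorial := Nat.factorial_le h1
  have h3 : (5).factorial = 120 := rfl
  refine ⟨by omega, ?_, ?_⟩
  · rw [Nat.factorial_succ]
  · have h4 : (n + 5).factorial = (n + 5) * (n + 4).factorial := Nat.factorial_succ _
    have h5 : (4).factorial ≤ (n + 4).factorial := Nat.factorial_le (by omega)
    have h6 : (4).factorial = 24 := rfl
    rw [h6] at h5
    have h7 : (n + 5) * 24 ≤ (n + 5) * (n + 4).factorial := Nat.mul_le_mul_left _ h5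
    omega

variable [Finite G] [FaithfulSMul G Ω]

theorem exists_conf (hprim : IsPreprimitive G Ω) {a b : Ω} (h6 : 6 ≤ Nat.card (Orb G a b))
    (hA : AltOn (stabilizer G a) (Orb G a b)) (hB : AltOn (stabilizer G b) (Orb G b a))
    (hK : (K a b : Subgroup G) ≠ ⊥) : ∃ (SA SB SD SE : Subgroup G) (s t : ℕ),
      Conf (stabilizer G a) (stabilizer G b) (K a b) (K b a) SA SB SD SE s t ∧
      2 * s = (Nat.card (Orb G a b) - 1).factorial ∧
      2 * t = (Nat.card (Orb G a b)).factorial := by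
  have hd : Nat.card (Orb G b a) = Nat.card (Orb G a b) := card_orbit_eq a b
  have h6' : 6 ≤ Nat.card (Orb G b a) := by rw [hd]; exact h6
  have h2 : 2 ≤ Nat.card (orbit (stabilizer G a) b) := by
    have : 6 ≤ Nat.card (orbit (stabilizer G a) b) := h6
    omega
  have hF := fitting_ind hA h6
  obtain ⟨SA, aA, cA, uA⟩ := as_left hA h6
  obtain ⟨SB, aB, cB, uB⟩ := as_left hB h6'
  obtain ⟨SD, aD, cD, uD⟩ := as_inf hA h6
  obtain ⟨SE, aE, cE, uE⟩ := as_inf hB h6'
  rw [inf_comm] at aE uE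
  rw [hd] at cB uB cE uE
  obtain ⟨n1, n2, n3⟩ := fact_ineq h6
  have hfit := fitting_inf_eq_bot hprim h2 hF
  refine ⟨SA, SB, SD, SE, (K a b).relIndex SD, (K a b).relIndex SA,
    ⟨aA, aB, aD, aE, rfl, by omega, rfl, by omega, by omega, by omega, by omega, by omega, ?_, ?_,
      by omega, ?_, ?_, ?_, ?_, ?_, hK⟩, cD, cA⟩
  · -- `2 s < t`
    have h7 : 6 * (Nat.card (Orb G a b) - 1).factorial ≤ (Nat.card (Orb G a b)).factorial := by
      rw [n2]; exact Nat.mul_le_mul_right _ h6
    omega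
  · -- `2 t < s * s`
    have h7 : 4 * (Nat.card (Orb G a b)) * (Nat.card (Orb G a b) - 1).factorial <
        (Nat.card (Orb G a b) - 1).factorial * (Nat.card (Orb G a b) - 1).factorial :=
      Nat.mul_lt_mul_of_pos_right n3 (Nat.factorial_pos _)
    rw [mul_assoc, ← n2, ← cD] at h7
    rw [cA]
    have e : 2 * (K a b).relIndex SD * (2 * (K a b).relIndex SD) =
      4 * ((K a b).relIndex SD * (K a b).relIndex SD) := by ring
    rw [e] at h7
    exact Nat.lt_of_mul_lt_mul_left h7
  · intro M h1 h3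
    exact hA.max (inv_orb a b) (by rw [card_ft]; omega) (mem_orbit_self b) h1 h3
  · intro M h1 h3
    rw [inf_comm] at h1
    have := hB.max (inv_orb b a) (by rw [card_ft]; omega) (mem_orbit_self a) h1 h3
    rwa [inf_comm] at this
  · obtain ⟨g, hg⟩ := exists_smul_eq G a b
    refine ⟨g, ?_⟩
    rw [← hg, stabilizer_smul_eq_stabilizer_map_conj]
  · intro X hX hn hc
    have h1 : (X.subgroupOf (stabilizer G a ⊓ stabilizer G b)).Normal := by
      rw [normal_subgroupOf_iff_le_normalizer hX]; exact hn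
    have h3 : Group.IsNilpotent (X.subgroupOf (stabilizer G a ⊓ stabilizer G b)) := by
      have hcomm : ∀ x ∈ X, ∀ y ∈ X, x * y = y * x := by
        intro x hx y hy
        rw [commutator_eq_bot_iff_le_centralizer] at hc
        exact (mem_centralizer_iff.mp (hc hx) y hy).symm
      have : IsMulCommutative (X.subgroupOf (stabilizer G a ⊓ stabilizer G b)) :=
        ⟨⟨fun x y => Subtype.ext (Subtype.ext (hcomm _ x.2 _ y.2))⟩⟩
      let _ := IsMulCommutative.instCommGroup (G := X.subgroupOf (stabilizer G a ⊓ stabilizer G b))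
      infer_instance
    have h4 := Cfsg.Agent.Lib.Cores.le_fittingSubgroup h1 h3
    rw [hfit, le_bot_iff, subgroupOf_eq_bot] at h4
    exact h4.eq_bot_of_le hX
  · intro X hX h1 h3
    by_contra hne
    have hnt : Nontrivial Ω := ⟨a, b, ne_of_two_le h2⟩
    have h4 := normalizer_le hprim a X (hX.trans inf_le_left) hne h1
    have h5 := normalizer_le hprim b X (hX.trans inf_le_right) hne h3
    exact stabilizer_ne_of_two_le h2 (le_antisymm (h1.trans h5) (h3.trans h4))

/-! ### The paired suborbit -/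

theorem le_T {a b : Ω} {X : Subgroup G} (hX : X ≤ K b a)
    (hn : stabilizer G a ≤ normalizer (X : Set G)) : X ≤ T a b := by
  intro x hx
  rw [mem_T]
  rintro _ ⟨⟨g, hg⟩, rfl⟩
  have h1 : g⁻¹ * x * g ∈ X := by
    have := (mem_normalizer_iff.mp (hn ((stabilizer G a).inv_mem hg)) x).mp hx
    rwa [inv_inv] at this
  have h2 := conj_mem_K g (hX h1)
  rw [mem_stabilizer_iff.mp hg] at h2
  have e : g * (g⁻¹ * x * g) * g⁻¹ = x := by group
  rwa [e] at h2

theorem core_alt (hprim : IsPreprimitive G Ω) {a b : Ω} (h6 : 6 ≤ Nat.card (Orb G a b))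
    (hA : AltOn (stabilizer G a) (Orb G a b)) (hK : (K a b : Subgroup G) ≠ ⊥) :
    (∀ X ≤ (K b a : Subgroup G), stabilizer G a ≤ normalizer (X : Set G) → X = ⊥) ∨
    (∀ X ≤ (K a b : Subgroup G), stabilizer G b ≤ normalizer (X : Set G) → X = ⊥) := by
  have h2 : 2 ≤ Nat.card (orbit (stabilizer G a) b) := by
    have : 6 ≤ Nat.card (orbit (stabilizer G a) b) := h6
    omega
  have hF := fitting_ind hA h6
  have hT := T_eq_bot_or hprim h2 (fun q hq h => by
    have := Fact.mk hq
    exact hK (K_eq_bot_of_genFitting_eq hprim h2 hF q h))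
  rcases hT with hT | hT
  · left
    intro X hX hn
    rw [eq_bot_iff, ← hT]
    exact le_T hX hn
  · right
    intro X hX hn
    rw [eq_bot_iff, ← hT]
    exact le_T hX hn

theorem altOn_paired (hprim : IsPreprimitive G Ω) {a b : Ω} (h6 : 6 ≤ Nat.card (Orb G a b))
    (hA : AltOn (stabilizer G a) (Orb G a b)) (hK : (K a b : Subgroup G) ≠ ⊥) :
    AltOn (stabilizer G b) (Orb G b a) := by
  have hd : Nat.card (Orb G b a) = Nat.card (Orb G a b) := card_orbit_eq a b
  have hT := core_alt hprim h6 hA hK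
  obtain ⟨SA, aA, cA, uA⟩ := as_left hA h6
  obtain ⟨n1, n2, n3⟩ := fact_ineq h6
  obtain ⟨g, hg⟩ := exists_smul_eq G a b
  have hg' : cj g (stabilizer G a) = stabilizer G b := by
    rw [← hg, stabilizer_smul_eq_stabilizer_map_conj]
  have r1 := relIndex_inf_le (G := G) a b
  have r2 := relIndex_inf_le (G := G) b a
  rw [inf_comm, hd] at r2
  have hn : ((Nat.card (Orb G a b)) - 1).factorial < (K a b).relIndex SA := by
    have h7 : 6 * (Nat.card (Orb G a b) - 1).factorial ≤ (Nat.card (Orb G a b)).factorial := by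
      rw [n2]; exact Nat.mul_le_mul_right _ h6
    omega
  have hle := le_cj_of aA (le_normalizer_K b a) (K_le_inf a b)
    (by rw [inf_comm]; exact K_le_inf b a) r1 r2 hn hg' hT
  refine altOn_of_relIndex (inv_orb b a) (fun w hw => mem_K_iff hw) ?_
  rw [card_ft, hd, ← cA]
  refine Nat.mul_le_mul_left 2 ?_
  have h1 : (K a b).relIndex SA ≤ (K a b).relIndex (stabilizer G a) :=
    relIndex_le_of_le_right aA.SW (Conf.relIndex_ne _ _)
  have h3 : (cj g (K a b)).relIndex (stabilizer G b) ≤ (K b a).relIndex (stabilizer G b) :=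
    relIndex_le_of_le_left hle (Conf.relIndex_ne _ _)
  rw [← hg', relIndex_cj, hg'] at h3
  exact h1.trans h3

end fin

end Cfsg.Agent.H508.AltMain
end

-- part: H508/AltFinal
section
/-!
# The structure of the first group of the pair
-/

set_option autoImplicit false
set_option linter.unusedSectionVars false

namespace Cfsg.Agent.H508.AltFinal

open Subgroup
open Cfsg.Agent.H508.AltSec Cfsg.Agent.H508.AltConf Cfsg.Agent.H508.AltPair
open scoped commutatorElement

variable {G : Type*} [Group G] [Finite G] {A B K L SA SB SD SE : Subgroup G} {s t : ℕ}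

theorem conf_symm (h : Conf A B K L SA SB SD SE s t) (hL : L ≠ ⊥) :
    Conf B A L K SB SA SE SD s t where
  aA := h.aB
  aB := h.aA
  aD := by rw [inf_comm]; exact h.aE
  aE := by rw [inf_comm]; exact h.aD
  cA := h.cB
  cB := h.cA
  cD := h.cE
  cE := h.cD
  uA := h.uB
  uB := h.uA
  uD := by rw [inf_comm]; exact h.uE
  uE := by rw [inf_comm]; exact h.uD
  st := h.st
  ts := h.ts
  s1 := h.s1
  maxA := by rw [inf_comm]; exact h.maxB
  maxB := by rw [inf_comm]; exact h.maxA
  conj := by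
    obtain ⟨x, hx⟩ := h.conj
    exact ⟨x⁻¹, by rw [← hx, cj_inv_cj]⟩
  fit := by rw [inf_comm]; exact h.fit
  cf := by
    rw [inf_comm]
    exact fun X h1 h2 h3 => h.cf X h1 h3 h2
  K1 := hL

/-- Both kernels are nontrivial and disjoint. -/
theorem inf_eq_bot' (h : Conf A B K L SA SB SD SE s t)
    (hT : (∀ X ≤ L, A ≤ normalizer (X : Set G) → X = ⊥) ∨
      (∀ X ≤ K, B ≤ normalizer (X : Set G) → X = ⊥)) : K ⊓ L = ⊥ := by
  rcases hT with hT | hT
  · exact h.inf_eq_bot hT
  · have hL : L ≠ ⊥ := fun h1 => h.not_LK (h1 ▸ bot_le)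
    rw [inf_comm]
    exact (conf_symm h hL).inf_eq_bot hT

theorem C_facts (h : Conf A B K L SA SB SD SE s t) (hKL : K ⊓ L = ⊥) :
    A ≤ normalizer ((A ⊓ centralizer (K : Set G) : Subgroup G) : Set G) ∧
    (A ⊓ centralizer (K : Set G)) ⊓ K = ⊥ ∧
    SA ≤ (A ⊓ centralizer (K : Set G)) ⊔ K ∧
    (A ⊓ B) ⊓ (A ⊓ centralizer (K : Set G)) = L ∧
    (A ⊓ B) ⊔ (A ⊓ centralizer (K : Set G)) = A := by
  set C : Subgroup G := A ⊓ centralizer (K : Set G) with hC
  have hKD := h.KD
  have hLD := h.LD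
  have hDK : A ⊓ B ≤ normalizer (K : Set G) := inf_le_left.trans h.aA.nJ
  have hDL : A ⊓ B ≤ normalizer (L : Set G) := inf_le_right.trans h.aB.nJ
  have hCn : A ≤ normalizer (C : Set G) := norm_inf le_normalizer (norm_centralizer h.aA.nJ)
  have hL : L ≠ ⊥ := fun h1 => h.not_LK (h1 ▸ bot_le)
  have hLC : L ≤ C := by
    refine le_inf (hLD.trans inf_le_left) ?_
    rw [← commutator_eq_bot_iff_le_centralizer]
    refine comm_eq_bot (hLD.trans hDK) (hKD.trans hDL) ?_
    rw [inf_comm, hKL]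
  have hCK : C ⊓ K = ⊥ := by
    refine h.fit _ (inf_le_right.trans hKD) (norm_inf (inf_le_left.trans hCn) hDK) ?_
    rw [commutator_eq_bot_iff_le_centralizer]
    exact (inf_le_left.trans inf_le_right : C ⊓ K ≤ centralizer (K : Set G)).trans
      (centralizer_le (show ((C ⊓ K : Subgroup G) : Set G) ⊆ K from inf_le_right))
  have hCnotK : ¬ C ≤ K := by
    intro h1
    apply hL
    rw [eq_bot_iff, ← hCK]
    exact le_inf hLC (hLC.trans h1)
  have hSA : SA ≤ C ⊔ K := by
    rcases h.aA.key' (inf_le_left : C ≤ A) (h.aA.SW.trans hCn) with h1 | h1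
    · exact absurd h1 hCnotK
    · exact h1
  refine ⟨hCn, hCK, hSA, ?_, ?_⟩
  · apply le_antisymm
    · have hE : A ⊓ B ≤ normalizer ((A ⊓ B ⊓ C : Subgroup G) : Set G) :=
        norm_inf le_normalizer (inf_le_left.trans hCn)
      rcases h.aE.key' (inf_le_left : A ⊓ B ⊓ C ≤ A ⊓ B) (h.aE.SW.trans hE) with h1 | h1
      · exact h1
      · exfalso
        rw [sup_eq_left.mpr (le_inf hLD hLC)] at h1
        have h2 : K ≤ L := by
          refine h.aE.le_of_comm hKD ?_
          have h3 : ⁅K, SE⁆ = ⊥ := by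
            rw [commutator_comm, commutator_eq_bot_iff_le_centralizer]
            exact h1.trans (inf_le_right.trans inf_le_right)
          rw [h3]
          exact bot_le
        rw [inf_eq_left.mpr h2] at hKL
        exact h.K1 hKL
    · exact le_inf hLD hLC
  · rcases h.maxA ((A ⊓ B) ⊔ C) le_sup_left (sup_le inf_le_left inf_le_left) with h1 | h1
    · exfalso
      have h2 : C ≤ A ⊓ B := by rw [← h1]; exact le_sup_right
      have h3 : SA ≤ A ⊓ B := hSA.trans (sup_le h2 hKD)
      have h4 := relIndex_le_of_le_right (H := K) h3 (Conf.relIndex_ne _ _)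
      rw [h.cA] at h4
      have h5 := h.uD
      have h6 := h.st
      omega
    · exact h1

/-- The excluded case. -/
theorem excluded (h : Conf A B K L SA SB SD SE s t) (hKL : K ⊓ L = ⊥) {d : ℕ}
    (hAD : d * Nat.card (A ⊓ B : Subgroup G) = Nat.card A) (hts : t = d * s)
    (hα : K.relIndex A = t) (hβ : L.relIndex (A ⊓ B) = 2 * s) : False := by
  obtain ⟨hCn, hCK, hSA, hDC, hDA⟩ := C_facts h hKL
  set C : Subgroup G := A ⊓ centralizer (K : Set G) with hC
  have hKD := h.KD
  have hLD := h.LD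
  have hKA : K ≤ A := hKD.trans inf_le_left
  have hLB : L ≤ B := hLD.trans inf_le_right
  have hCA : C ≤ A := inf_le_left
  have s1 := h.s1
  have st := h.st
  -- `A = S_A`
  have hSAA : SA = A := by
    refine eq_of_le_of_card_ge h.aA.SW ?_
    have h1 := Conf.card_mul K A
    have h2 := Conf.card_mul K SA
    rw [inf_eq_left.mpr hKA, hα] at h1
    rw [inf_eq_left.mpr h.aA.JS, h.cA] at h2
    rw [← h1, ← h2]
  have hCKA : C ⊔ K = A := le_antisymm (sup_le hCA hKA) (hSAA ▸ hSA)
  have hcC : Nat.card C = t := by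
    have h1 := Conf.card_mul K C
    rw [inf_comm, hCK, card_bot, mul_one, ← relIndex_sup_of_norm (hCA.trans h.aA.nJ), hCKA, hα] at h1
    exact h1.symm
  have hcA : Nat.card A = 2 * s * t := by
    have h1 := Conf.card_mul C A
    rw [inf_eq_left.mpr hCA, hcC] at h1
    have h2 : C.relIndex A = 2 * s := by
      have h3 : C.relIndex ((A ⊓ B) ⊔ C) = C.relIndex (A ⊓ B) :=
        relIndex_sup_of_norm (inf_le_left.trans hCn)
      rw [hDA] at h3
      rw [h3, ← hβ, ← inf_relIndex_right, inf_comm, hDC]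
    rw [← h1, h2]
  have ht0 : 0 < t := by omega
  have hcK : Nat.card K = 2 * s := by
    have h1 := Conf.card_mul K A
    rw [inf_eq_left.mpr hKA, hα, hcA, mul_comm (2 * s)] at h1
    exact Nat.eq_of_mul_eq_mul_left ht0 h1
  have hcL : Nat.card L = s := by
    have h1 := Conf.card_mul L (A ⊓ B)
    rw [inf_eq_left.mpr hLD, hβ] at h1
    rw [← h1, hcA, hts] at hAD
    have hd : 0 < d := by
      rcases Nat.eq_zero_or_pos d with h0 | h0
      · rw [h0, zero_mul] at hts; omega
      · exact h0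
    have h2 : (d * (2 * s)) * Nat.card L = (d * (2 * s)) * s := by
      rw [← mul_assoc] at hAD
      rw [hAD]; ring
    exact Nat.eq_of_mul_eq_mul_left (Nat.mul_pos hd (by omega)) h2
  -- conjugates
  obtain ⟨x, hx⟩ := h.conj
  have hCn' : B ≤ normalizer ((cj x C : Subgroup G) : Set G) := by
    rw [← hx]; exact norm_cj hCn
  have hKn' : B ≤ normalizer ((cj x K : Subgroup G) : Set G) := by
    rw [← hx]; exact norm_cj h.aA.nJ
  have hCB : cj x C ≤ B := by rw [← hx]; exact cj_mono hCA
  have hKB : cj x K ≤ B := by rw [← hx]; exact cj_mono hKA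
  have hCKB : cj x C ⊔ cj x K = B := by rw [← cj_sup, hCKA, hx]
  have hCK' : cj x C ⊓ cj x K = ⊥ := by
    rw [← cj_inf, hCK]; exact map_bot _
  have hCL : cj x C ⊓ L = ⊥ := by
    have hXn : A ≤ normalizer ((cj x⁻¹ (cj x C ⊓ L) : Subgroup G) : Set G) := by
      have h1 := norm_cj (x := x⁻¹) (norm_inf hCn' h.aB.nJ)
      rwa [← hx, cj_inv_cj] at h1
    have hXC : cj x⁻¹ (cj x C ⊓ L) ≤ C := by
      have h1 := cj_mono (x := x⁻¹) (inf_le_left : cj x C ⊓ L ≤ cj x C)
      rwa [cj_inv_cj] at h1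
    rcases h.aA.key' (hXC.trans hCA) (h.aA.SW.trans hXn) with h1 | h1
    · have h2 : cj x⁻¹ (cj x C ⊓ L) = ⊥ := by
        rw [eq_bot_iff, ← hCK]
        exact le_inf hXC h1
      have h3 := congrArg (cj x) h2
      rw [cj_cj_inv] at h3
      rw [h3]; exact map_bot _
    · exfalso
      have h2 := relIndex_le_of_le_right (H := K) h1 (Conf.relIndex_ne _ _)
      rw [h.cA, relIndex_sup_of_norm ((hXC.trans hCA).trans h.aA.nJ)] at h2
      have h3 : K.relIndex (cj x⁻¹ (cj x C ⊓ L)) ≤ Nat.card (cj x⁻¹ (cj x C ⊓ L)) :=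
        Nat.le_of_dvd Nat.card_pos (relIndex_dvd_card _ _)
      rw [card_cj] at h3
      have h4 : Nat.card (cj x C ⊓ L : Subgroup G) ≤ Nat.card L := card_le_of_le inf_le_right
      omega
  have hcomm : ⁅cj x C, L⁆ = ⊥ :=
    comm_eq_bot (hCB.trans h.aB.nJ) (hLB.trans hCn') hCL.le
  have hLK : L ≤ cj x K := by
    rw [le_cj_iff]
    have hZA : cj x⁻¹ L ≤ A := by
      have h1 := cj_mono (x := x⁻¹) hLB
      rwa [← hx, cj_inv_cj] at h1
    refine h.aA.le_of_comm hZA ?_
    refine (commutator_mono le_rfl hSA).trans ?_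
    refine comm_sup_right (hCA.trans h.aA.nJ) le_normalizer ?_ ?_
    · have h1 := congrArg (cj x⁻¹) hcomm
      rw [cj_commutator, cj_inv_cj] at h1
      rw [commutator_comm, h1, cj, Subgroup.map_bot]
      exact bot_le
    · exact le_normalizer_iff_commutator_le_right.mp (hZA.trans h.aA.nJ)
  have hKK : ⁅cj x K, cj x K⁆ ≤ L := by
    have h1 : (L.subgroupOf (cj x K)).index = 2 := by
      have h2 := Conf.card_mul L (cj x K)
      rw [inf_eq_left.mpr hLK, card_cj, hcK, hcL] at h2
      have h3 : L.relIndex (cj x K) = 2 :=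
        Nat.eq_of_mul_eq_mul_right (show 0 < s by omega) h2
      exact h3
    rw [commutator_le]
    intro y hy z hz
    have h2 : (⟨y, hy⟩ : (cj x K : Subgroup G)) * ⟨z, hz⟩ * ⟨y, hy⟩⁻¹ * ⟨z, hz⟩⁻¹ ∈
        L.subgroupOf (cj x K) := by
      simp only [mul_mem_iff_of_index_two h1, inv_mem_iff]
      tauto
    exact h2
  have hfin : cj x K ≤ L := by
    refine h.aB.le_of_comm hKB ?_
    have hSB : SB ≤ cj x C ⊔ cj x K := by rw [hCKB]; exact h.aB.SW
    refine (commutator_mono le_rfl hSB).trans ?_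
    refine comm_sup_right (hCB.trans h.aB.nJ) (hKB.trans h.aB.nJ) ?_ hKK
    rw [comm_eq_bot (hKB.trans hCn') (hCB.trans hKn') (by rw [inf_comm, hCK'])]
    exact bot_le
  have h1 := card_le_of_le hfin
  rw [card_cj, hcK, hcL] at h1
  omega

end Cfsg.Agent.H508.AltFinal
end

-- part: H508/AltStab
section
/-!
# The structure of the point stabiliser
-/

set_option autoImplicit false
set_option linter.unusedSectionVars false

namespace Cfsg.Agent.H508.AltStab

open Subgroup MulAction Cfsg
open Cfsg.Agent.H508.AltSec Cfsg.Agent.H508.AltConf Cfsg.Agent.H508.AltPair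
open Cfsg.Agent.H508.AltOrbit Cfsg.Agent.H508.AltMain Cfsg.Agent.H508.AltFinal
open Cfsg.Agent.H508.AltFive
open Cfsg.Agent.H429.Suborbit

variable {G Ω : Type*} [Group G] [MulAction G Ω] [Finite Ω] [Finite G] [FaithfulSMul G Ω]

noncomputable local instance instFt (s : Set Ω) : Fintype s := Fintype.ofFinite s
noncomputable local instance instDe (s : Set Ω) : DecidableEq s := Classical.decEq s

theorem structure_thm (hprim : IsPreprimitive G Ω) (a b : Ω) (d : ℕ)
    (hd : Nat.card (orbit (stabilizer G a) b) = d) (h6 : 6 ≤ d)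
    (halt : (toPermHom (stabilizer G a) (orbit (stabilizer G a) b)).range.index ≤ 2)
    (hunf : ¬ Function.Injective (toPermHom (stabilizer G a) (orbit (stabilizer G a) b))) :
    ((toPermHom (stabilizer G a) (orbit (stabilizer G a) b)).range.index = 2 ∧
      Nonempty (stabilizer G a ≃* alternatingGroup (Fin d) × alternatingGroup (Fin (d - 1)))) ∨
    ((toPermHom (stabilizer G a) (orbit (stabilizer G a) b)).range = ⊤ ∧
      (Nonempty (stabilizer G a ≃* Equiv.Perm (Fin d) × Equiv.Perm (Fin (d - 1))) ∨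
       Nonempty (stabilizer G a ≃* Equiv.Perm (Fin d) × alternatingGroup (Fin (d - 1))) ∨
       Nonempty (stabilizer G a ≃*
        ((Equiv.Perm.sign.comp (MonoidHom.fst (Equiv.Perm (Fin d)) (Equiv.Perm (Fin (d - 1))))) *
         (Equiv.Perm.sign.comp
          (MonoidHom.snd (Equiv.Perm (Fin d)) (Equiv.Perm (Fin (d - 1)))))).ker))) := by
  have hd0 : Nat.card (Orb G a b) = d := hd
  have h6' : 6 ≤ Nat.card (Orb G a b) := by rw [hd0]; exact h6
  have hdb : Nat.card (Orb G b a) = d := by rw [← hd0]; exact card_orbit_eq a b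
  have hA : AltOn (stabilizer G a) (Orb G a b) := by
    refine altOn_of_le_range (inv_orb a b) ?_
    rw [rho_eq]
    exact Equiv.Perm.alternatingGroup_le_of_index_le_two halt
  have hK : (K a b : Subgroup G) ≠ ⊥ := by
    intro h1
    apply hunf
    rw [← MonoidHom.ker_eq_bot_iff]
    rw [← ker_toPermHom] at h1
    exact (map_eq_bot_iff_of_injective _ (subtype_injective _)).mp h1
  have hB := altOn_paired hprim h6' hA hK
  obtain ⟨SA, SB, SD, SE, s, t, h, hs, ht⟩ := exists_conf hprim h6' hA hB hK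
  have hT := core_alt hprim h6' hA hK
  have hKL := inf_eq_bot' h hT
  have hL : (K b a : Subgroup G) ≠ ⊥ := fun h1 => h.not_LK (h1 ▸ bot_le)
  obtain ⟨hCn, hCK, hSA, hDC, hDA⟩ := C_facts h hKL
  rw [hd0] at hs ht
  set A := stabilizer G a with hAdef
  set B := stabilizer G b with hBdef
  set C : Subgroup G := A ⊓ centralizer ((K a b : Subgroup G) : Set G) with hC
  have hCA : C ≤ A := inf_le_left
  -- the second homomorphism
  set D' : Subgroup A := B.subgroupOf A with hD'
  set C' : Subgroup A := C.subgroupOf A with hC'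
  have hC'n : C'.Normal := by
    rw [hC', normal_subgroupOf_iff_le_normalizer hCA]; exact hCn
  have hD'C' : D' ⊔ C' = ⊤ := by
    rw [hD', hC', ← inf_subgroupOf_left, ← subgroupOf_sup inf_le_left hCA, hDA, subgroupOf_self]
  set Γ : Set Ω := Orb G b a \ {a} with hΓ
  have hinv : Inv (B ⊓ A) Γ := inv_sdiff (inv_orb b a) a
  have hmemBA : ∀ x : D', ((x : A) : G) ∈ B ⊓ A := fun x => ⟨x.2, (x : A).2⟩
  set ι : D' →* (B ⊓ A : Subgroup G) :=
    { toFun := fun x => ⟨((x : A) : G), hmemBA x⟩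
      map_one' := rfl
      map_mul' := fun _ _ => rfl } with hι
  set ρ : D' →* Equiv.Perm Γ := (rho (B ⊓ A) Γ hinv).comp ι with hρ
  have hLmem : ∀ w ∈ B ⊓ A, w ∈ (K b a : Subgroup G) ↔ ∀ c ∈ Γ, w • c = c :=
    fun w hw => mem_K_iff' hw
  have hρk : ρ.ker = C'.subgroupOf D' := by
    ext x
    have h1 : ρ x = 1 ↔ ((x : A) : G) ∈ (K b a : Subgroup G) := by
      rw [hLmem _ (hmemBA x)]
      constructor
      · intro h2 c hc
        exact congrArg (fun f : Equiv.Perm Γ => ((f ⟨c, hc⟩ : Γ) : Ω)) h2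
      · intro h2
        ext c
        exact h2 c c.2
    rw [MonoidHom.mem_ker, h1, ← hDC, mem_subgroupOf, mem_subgroupOf, mem_inf, mem_inf]
    exact ⟨fun h2 => h2.2, fun h2 => ⟨⟨(x : A).2, x.2⟩, h2⟩⟩
  obtain ⟨g, hgk, hgr⟩ := exists_ext D' C' hD'C' ρ hρk
  have hρalt : alternatingGroup Γ ≤ ρ.range := by
    intro σ hσ
    obtain ⟨⟨w, hw⟩, hwσ⟩ := (hB.stab (mem_orbit_self a)).le_range hinv hσ
    exact ⟨⟨⟨w, hw.2⟩, hw.1⟩, hwσ⟩
  -- cardinalities
  have hcΔ : Nat.card (orbit A b) = Nat.card (Fin d) := by rw [hd, Nat.card_fin]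
  have hcΓ : Nat.card Γ = Nat.card (Fin (d - 1)) := by
    rw [Nat.card_fin, ← hdb, ← card_sdiff (mem_orbit_self a : a ∈ Orb G b a), card_ft]
  obtain ⟨e1⟩ := Finite.card_eq.mp hcΔ
  obtain ⟨e2⟩ := Finite.card_eq.mp hcΓ
  have hntX : Nontrivial (Fin d) := Fin.nontrivial_iff_two_le.mpr (by omega)
  have hntY : Nontrivial (Fin (d - 1)) := Fin.nontrivial_iff_two_le.mpr (by omega)
  have hntΓ : Nontrivial Γ := e2.nontrivial
  set φ := toPermHom A (orbit A b) with hφ
  set f : A →* Equiv.Perm (Fin d) := (e1.permCongrHom.toMonoidHom).comp φ with hf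
  set g' : A →* Equiv.Perm (Fin (d - 1)) := (e2.permCongrHom.toMonoidHom).comp g with hg'
  have hfr : f.range = φ.range.map e1.permCongrHom.toMonoidHom := by
    rw [hf, MonoidHom.range_comp]
  have hgr' : g'.range = g.range.map e2.permCongrHom.toMonoidHom := by
    rw [hg', MonoidHom.range_comp]
  have hfi : f.range.index = φ.range.index := by
    rw [hfr]; exact index_map_equiv _ e1.permCongrHom
  have hgi : g'.range.index = g.range.index := by
    rw [hgr']; exact index_map_equiv _ e2.permCongrHom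
  have hfalt : alternatingGroup (Fin d) ≤ f.range :=
    Equiv.Perm.alternatingGroup_le_of_index_le_two (by rw [hfi]; exact halt)
  have hgalt : alternatingGroup (Fin (d - 1)) ≤ g'.range := by
    apply Equiv.Perm.alternatingGroup_le_of_index_le_two
    rw [hgi, hgr]
    have h1 := index_dvd_of_le hρalt
    rw [alternatingGroup.index_eq_two] at h1
    exact Nat.le_of_dvd (by omega) h1
  have hfk : f.ker = φ.ker := by
    ext x
    rw [MonoidHom.mem_ker, MonoidHom.mem_ker]
    exact (MulEquiv.map_eq_one_iff e1.permCongrHom)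
  have hgk' : g'.ker = C' := by
    rw [← hgk]
    ext x
    rw [MonoidHom.mem_ker, MonoidHom.mem_ker]
    exact (MulEquiv.map_eq_one_iff e2.permCongrHom)
  have hφk : φ.ker = (K a b : Subgroup G).subgroupOf A := by
    rw [← ker_toPermHom, subgroupOf, comap_map_eq_self_of_injective (subtype_injective _)]
  have hKA : (K a b : Subgroup G) ≤ A := K_le_left a b
  have hKrel : (K a b : Subgroup G).relIndex A = Nat.card f.range := by
    rw [← index_ker, hfk, hφk]; rfl
  have hLrel : (K b a : Subgroup G).relIndex (A ⊓ B) = Nat.card g'.range := by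
    have h1 : Nat.card g'.range = Nat.card (rho (B ⊓ A) Γ hinv).range := by
      rw [hgr', hgr]
      rw [card_map_of_injective (show Function.Injective e2.permCongrHom.toMonoidHom from
        e2.permCongrHom.injective)]
      have h2 : ρ.range = (rho (B ⊓ A) Γ hinv).range := by
        ext σ
        constructor
        · rintro ⟨x, rfl⟩; exact ⟨ι x, rfl⟩
        · rintro ⟨⟨w, hw⟩, rfl⟩; exact ⟨⟨⟨w, hw.2⟩, hw.1⟩, rfl⟩
      rw [h2]
    rw [h1, ← index_ker, inf_comm]
    have hk : (rho (B ⊓ A) Γ hinv).ker = (K b a : Subgroup G).subgroupOf (B ⊓ A) := by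
      rw [ker_rho]
      ext ⟨w, hw⟩
      rw [mem_subgroupOf, mem_subgroupOf, mem_fixingSubgroup_iff, hLmem w hw]
    rw [hk]
    rfl
  have hres := five (by rw [Fintype.card_fin]; omega) (by rw [Fintype.card_fin]; omega) f g'
    hfalt hgalt ?_ ?_ ?_ ?_
  · rw [hfi] at hres
    rcases hres with h1 | ⟨h1, h2⟩
    · exact Or.inl h1
    · right
      refine ⟨?_, h2⟩
      rw [← index_eq_one, ← hfi, h1, index_top]
  · rw [hfk, hφk]
    intro h1
    rw [subgroupOf_eq_bot] at h1
    exact hK (h1.eq_bot_of_le hKA)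
  · rw [hgk', hC']
    intro h1
    rw [subgroupOf_eq_bot] at h1
    have h2 : C = ⊥ := h1.eq_bot_of_le hCA
    rw [h2, inf_bot_eq] at hDC
    exact hL hDC.symm
  · rw [hfk, hφk, hgk', hC', eq_bot_iff]
    rintro x ⟨h1, h2⟩
    have h3 : (x : G) ∈ C ⊓ (K a b : Subgroup G) := ⟨h2, h1⟩
    rw [hCK, mem_bot] at h3
    exact Subtype.ext h3
  · rintro ⟨h1, x, hx⟩
    have hfa : f.range = alternatingGroup (Fin d) := by
      refine le_antisymm ?_ hfalt
      rintro _ ⟨y, rfl⟩
      exact Equiv.Perm.mem_alternatingGroup.mpr (h1 y)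
    have hgt : g'.range = ⊤ := by
      rw [eq_top_iff]
      intro y _
      rcases Int.units_eq_one_or (Equiv.Perm.sign y) with hy | hy
      · exact hgalt (Equiv.Perm.mem_alternatingGroup.mpr hy)
      · have h2 : y * (g' x)⁻¹ ∈ alternatingGroup (Fin (d - 1)) := by
          rw [Equiv.Perm.mem_alternatingGroup, map_mul, map_inv, hx, hy, mul_inv_cancel]
        have h3 : y = (y * (g' x)⁻¹) * g' x := by group
        rw [h3]
        exact mul_mem (hgalt h2) ⟨x, rfl⟩
    have hα : (K a b : Subgroup G).relIndex A = t := by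
      rw [hKrel, hfa]
      have h2 := two_mul_nat_card_alternatingGroup (α := Fin d)
      rw [Nat.card_perm, Nat.card_fin, ← ht] at h2
      omega
    have hβ : (K b a : Subgroup G).relIndex (A ⊓ B) = 2 * s := by
      rw [hLrel, hgt, card_top, Nat.card_perm, Nat.card_fin, hs]
    have hAD := card_orbit_mul (G := G) a b
    rw [hd] at hAD
    refine excluded h hKL hAD ?_ hα hβ
    obtain ⟨n1, n2, n3⟩ := fact_ineq h6
    rw [← hs, ← ht] at n2
    have : 2 * t = 2 * (d * s) := by rw [n2]; ring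
    omega

end Cfsg.Agent.H508.AltStab
end

-- part: S3687
section
set_option autoImplicit false
open Cfsg

namespace Cfsg.Agent.S3687

/-- Let a finite group G act faithfully and primitively on a set Ω, let a and b be points such that the orbit Δ of b under the stabilizer H of a has d ≥ 6 elements, and suppose that the permutation group induced by H on Δ contains the alternating group of Δ (the image of H in the symmetric group of Δ has index at most 2) while H does not act faithfully on Δ. Then either H induces exactly the alternating group of Δ and H is isomorphic to the direct product of the alternating groups of degrees d and d - 1; or H induces the full symmetric group of Δ and H is isomorphic to one of: the direct product of the symmetric groups of degrees d and d - 1, the direct product of the symmetric group of degree d with the alternating group of degree d - 1, or the subgroup of the direct product of the symmetric groups of degrees d and d - 1 consisting of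 the pairs of permutations with equal signs. -/
theorem result {G Ω : Type*} [Group G] [Finite G] [MulAction G Ω] [FaithfulSMul G Ω] [Finite Ω]
    (hprim : MulAction.IsPreprimitive G Ω) (a b : Ω) (d : ℕ) (hd : Nat.card (MulAction.orbit (MulAction.stabilizer G a) b) = d) (h6 : 6 ≤ d)
    (halt : (MulAction.toPermHom (MulAction.stabilizer G a) (MulAction.orbit (MulAction.stabilizer G a) b)).range.index ≤ 2)
    (hunf : ¬ Function.Injective (MulAction.toPermHom (MulAction.stabilizer G a) (MulAction.orbit (MulAction.stabilizer G a) b))) :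
    ((MulAction.toPermHom (MulAction.stabilizer G a) (MulAction.orbit (MulAction.stabilizer G a) b)).range.index = 2 ∧
      Nonempty (MulAction.stabilizer G a ≃* alternatingGroup (Fin d) × alternatingGroup (Fin (d - 1)))) ∨
    ((MulAction.toPermHom (MulAction.stabilizer G a) (MulAction.orbit (MulAction.stabilizer G a) b)).range = ⊤ ∧
      (Nonempty (MulAction.stabilizer G a ≃* Equiv.Perm (Fin d) × Equiv.Perm (Fin (d - 1))) ∨
       Nonempty (MulAction.stabilizer G a ≃* Equiv.Perm (Fin d) × alternatingGroup (Fin (d - 1))) ∨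
       Nonempty (MulAction.stabilizer G a ≃* ((Equiv.Perm.sign.comp (MonoidHom.fst (Equiv.Perm (Fin d)) (Equiv.Perm (Fin (d - 1))))) *
         (Equiv.Perm.sign.comp (MonoidHom.snd (Equiv.Perm (Fin d)) (Equiv.Perm (Fin (d - 1)))))).ker))) := by
  exact Cfsg.Agent.H508.AltStab.structure_thm hprim a b d hd h6 halt hunf

end Cfsg.Agent.S3687
end
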