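import Mathlib
import Cfsg.Agent.H431.AltCl
import Cfsg.Agent.H431.AltChar
import Cfsg.Agent.H431.BlockFinish
import Cfsg.Agent.Lib.Cores
import Cfsg.Prelude.Def_TwoFusion
import Cfsg.Statements.S3702
set_option linter.all false

-- part: H431/AltPerm
section
/-!
# The group of the statement is the model `3^3 : S_4`
-/

set_option autoImplicit false

namespace Cfsg.Agent.H431.Alt

open Equiv Equiv.Perm

instance : MulAction Md (Fin 3 × ZMod 3) where
  smul x y := (x.M.1.p y.1, ((x.M.1.e (x.M.1.p y.1) : ℤ) : ZMod 3) * y.2 + x.u (x.M.1.p y.1))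
  one_smul y := by
    show ((1 : SP).p y.1, (((1 : SP).e ((1 : SP).p y.1) : ℤ) : ZMod 3) * y.2 + (0 : V3) _) = y
    simp [SP.one_e, SP.one_p]
  mul_smul x x' y := by
    show ((x.M.1 * x'.M.1).p y.1, (((x.M.1 * x'.M.1).e ((x.M.1 * x'.M.1).p y.1) : ℤ) : ZMod 3) * y.2 +
      (x.u + x.M.1 • x'.u) ((x.M.1 * x'.M.1).p y.1)) = (x.M.1.p (x'.M.1.p y.1),
      ((x.M.1.e (x.M.1.p (x'.M.1.p y.1)) : ℤ) : ZMod 3) *
        (((x'.M.1.e (x'.M.1.p y.1) : ℤ) : ZMod 3) * y.2 + x'.u (x'.M.1.p y.1)) +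
        x.u (x.M.1.p (x'.M.1.p y.1)))
    have h : ∀ i, (x.M.1.p)⁻¹ (x.M.1.p i) = i := fun i => by
      rw [← Perm.mul_apply, inv_mul_cancel]; rfl
    simp only [SP.mul_p, SP.mul_e, Perm.mul_apply, Pi.add_apply, SP.smul_apply, h]
    congr 1
    push_cast
    ring

theorem act_def (x : Md) (y : Fin 3 × ZMod 3) : x • y =
    (x.M.1.p y.1, ((x.M.1.e (x.M.1.p y.1) : ℤ) : ZMod 3) * y.2 + x.u (x.M.1.p y.1)) := rfl

/-- the nine points -/
def e9 : Fin 3 × ZMod 3 ≃ Fin 9 := finProdFinEquiv (m := 3) (n := 3)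

/-- the model group as a permutation group -/
def FF : Md →* Perm (Fin 9) :=
  (e9.permCongrHom.toMonoidHom).comp (MulAction.toPermHom Md (Fin 3 × ZMod 3))

theorem unit_eq_one : ∀ e : ℤˣ, ((e : ℤ) : ZMod 3) = 1 → e = 1 := by decide

theorem FF_injective : Function.Injective FF := by
  rw [injective_iff_map_eq_one]
  intro x hx
  have h1 : ∀ y : Fin 3 × ZMod 3, x • y = y := by
    intro y
    have h2 : MulAction.toPermHom Md (Fin 3 × ZMod 3) x = 1 :=
      e9.permCongrHom.injective (by rw [map_one]; exact hx)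
    exact congrArg (fun e : Perm (Fin 3 × ZMod 3) => e y) h2
  have hp : ∀ i, x.M.1.p i = i := fun i => congrArg Prod.fst (h1 (i, 0))
  have h2 : ∀ i (a : ZMod 3), ((x.M.1.e i : ℤ) : ZMod 3) * a + x.u i = a := by
    intro i a
    have := congrArg Prod.snd (h1 (i, a))
    rw [act_def] at this
    simpa only [hp] using this
  have hu : ∀ i, x.u i = 0 := by
    intro i
    have := h2 i 0
    rwa [mul_zero, zero_add] at this
  ext1
  · funext i
    exact hu i
  · apply Subtype.ext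
    ext1
    · funext i
      apply unit_eq_one
      have := h2 i 1
      rwa [hu, mul_one, add_zero] at this
    · ext i
      exact congrArg Fin.val (hp i)

/-- the group of the statement -/
def HH : Subgroup (Perm (Fin 9)) := Subgroup.closure ({Equiv.swap (0 : Fin 9) 1 * Equiv.swap 1 2,
        Equiv.swap (0 : Fin 9) 3 * Equiv.swap 3 6 * (Equiv.swap (1 : Fin 9) 4 * Equiv.swap 4 7) * (Equiv.swap (2 : Fin 9) 5 * Equiv.swap 5 8),
        Equiv.swap (0 : Fin 9) 1 * Equiv.swap 3 4, Equiv.swap (0 : Fin 9) 3 * Equiv.swap 1 4 * Equiv.swap 2 5 * Equiv.swap 6 7} : Set (Equiv.Perm (Fin 9)))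

/-- a flip -/
def v2 : Q := ⟨⟨![-1, -1, 1], 1⟩, by decide⟩

def y1 : Md := ⟨![1, 0, 0], 1⟩
def y2 : Md := ⟨0, s0⟩
def y3 : Md := ⟨![1, 1, 0], v2⟩
def y4 : Md := ⟨![0, 0, 1], t0⟩

theorem FF_y1 : FF y1 = Equiv.swap (0 : Fin 9) 1 * Equiv.swap 1 2 := by decide +kernel
theorem FF_y2 : FF y2 = Equiv.swap (0 : Fin 9) 3 * Equiv.swap 3 6 * (Equiv.swap (1 : Fin 9) 4 * Equiv.swap 4 7) * (Equiv.swap (2 : Fin 9) 5 * Equiv.swap 5 8) := by
  decide +kernel
theorem FF_y3 : FF y3 = Equiv.swap (0 : Fin 9) 1 * Equiv.swap 3 4 := by decide +kernel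
theorem FF_y4 : FF y4 = Equiv.swap (0 : Fin 9) 3 * Equiv.swap 1 4 * Equiv.swap 2 5 * Equiv.swap 6 7 := by
  decide +kernel

set_option maxRecDepth 100000 in
theorem Q_words : ∀ M : Q, ∃ i : Fin 3, ∃ j k l : Fin 2,
    M = s0 ^ (i : ℕ) * v2 ^ (j : ℕ) * (s0 * v2 * s0⁻¹) ^ (k : ℕ) * t0 ^ (l : ℕ) := by
  decide +kernel

theorem V_words : ∀ u : V3, u = (u 0).val • (![1, 0, 0] : V3) + (u 1).val • (s0 • (![1, 0, 0] : V3)) +
    (u 2).val • (s0 • s0 • (![1, 0, 0] : V3)) := by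
  decide +kernel

theorem HH_eq : HH = FF.range := by
  apply le_antisymm
  · rw [HH, Subgroup.closure_le]
    intro x hx
    simp only [Set.mem_insert_iff, Set.mem_singleton_iff] at hx
    rcases hx with rfl | rfl | rfl | rfl
    · exact ⟨y1, FF_y1⟩
    · exact ⟨y2, FF_y2⟩
    · exact ⟨y3, FF_y3⟩
    · exact ⟨y4, FF_y4⟩
  · have h1 : y1 ∈ HH.comap FF := by
      rw [Subgroup.mem_comap, FF_y1]
      exact Subgroup.subset_closure (by simp)
    have h2 : y2 ∈ HH.comap FF := by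
      rw [Subgroup.mem_comap, FF_y2]
      exact Subgroup.subset_closure (by simp)
    have h3 : y3 ∈ HH.comap FF := by
      rw [Subgroup.mem_comap, FF_y3]
      exact Subgroup.subset_closure (by simp)
    have h4 : y4 ∈ HH.comap FF := by
      rw [Subgroup.mem_comap, FF_y4]
      exact Subgroup.subset_closure (by simp)
    have key : HH.comap FF = ⊤ := by
      generalize HH.comap FF = C at h1 h2 h3 h4
      -- the elements of `V`
      have hmul : ∀ u v : V3, (⟨u, 1⟩ : Md) * ⟨v, 1⟩ = ⟨u + v, 1⟩ := by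
        intro u v; ext1
        · simp
        · simp
      have hadd : ∀ u v : V3, (⟨u, 1⟩ : Md) ∈ C → (⟨v, 1⟩ : Md) ∈ C → (⟨u + v, 1⟩ : Md) ∈ C := by
        intro u v hu hv
        rw [← hmul]
        exact C.mul_mem hu hv
      have hzero : (⟨0, 1⟩ : Md) ∈ C := C.one_mem
      have hnsmul : ∀ (n : ℕ) (u : V3), (⟨u, 1⟩ : Md) ∈ C → (⟨n • u, 1⟩ : Md) ∈ C := by
        intro n u hu
        induction n with
        | zero => rw [zero_smul]; exact hzero
        | succ n ih => rw [succ_nsmul]; exact hadd _ _ ih hu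
      have hrot : ∀ u : V3, (⟨u, 1⟩ : Md) ∈ C → (⟨s0 • u, 1⟩ : Md) ∈ C := by
        intro u hu
        have : (⟨s0 • u, 1⟩ : Md) = y2 * ⟨u, 1⟩ * y2⁻¹ := by
          ext1
          · simp [y2]
          · simp [y2]
        rw [this]
        exact C.mul_mem (C.mul_mem h2 hu) (C.inv_mem h2)
      have hV : ∀ u : V3, (⟨u, 1⟩ : Md) ∈ C := by
        intro u
        rw [V_words u]
        exact hadd _ _ (hadd _ _ (hnsmul _ _ h1) (hnsmul _ _ (hrot _ h1)))
          (hnsmul _ _ (hrot _ (hrot _ h1)))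
      -- the elements of `Q`
      have hdec : ∀ (u : V3) (M : Q), (⟨u, M⟩ : Md) = ⟨u, 1⟩ * ⟨0, M⟩ := by
        intro u M; ext1
        · simp
        · simp
      have hQ' : ∀ (u : V3) (M : Q), (⟨u, M⟩ : Md) ∈ C → (⟨0, M⟩ : Md) ∈ C := by
        intro u M h
        rw [hdec] at h
        exact (Subgroup.mul_mem_cancel_left C (hV u)).1 h
      let R : Subgroup Q :=
        { carrier := {M | (⟨0, M⟩ : Md) ∈ C}
          one_mem' := C.one_mem
          mul_mem' := by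
            intro M N hM hN
            have : (⟨0, M * N⟩ : Md) = ⟨0, M⟩ * ⟨0, N⟩ := by
              ext1
              · simp
              · simp
            show (⟨0, M * N⟩ : Md) ∈ C
            rw [this]
            exact C.mul_mem hM hN
          inv_mem' := by
            intro M hM
            have : (⟨0, M⁻¹⟩ : Md) = (⟨0, M⟩ : Md)⁻¹ := by
              ext1
              · simp
              · simp
            show (⟨0, M⁻¹⟩ : Md) ∈ C
            rw [this]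
            exact C.inv_mem hM }
      have r1 : s0 ∈ R := h2
      have r2 : v2 ∈ R := hQ' _ _ h3
      have r3 : t0 ∈ R := hQ' _ _ h4
      have hQ : ∀ M : Q, (⟨0, M⟩ : Md) ∈ C := by
        intro M
        have : M ∈ R := by
          obtain ⟨i, j, k, l, h⟩ := Q_words M
          rw [h]
          exact R.mul_mem (R.mul_mem (R.mul_mem (R.pow_mem r1 _) (R.pow_mem r2 _))
            (R.pow_mem (R.mul_mem (R.mul_mem r1 r2) (R.inv_mem r1)) _)) (R.pow_mem r3 _)
        exact this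
      rw [eq_top_iff]
      intro x _
      have : x = ⟨x.u, 1⟩ * ⟨0, x.M⟩ := hdec x.u x.M
      rw [this]
      exact C.mul_mem (hV _) (hQ _)
    rintro _ ⟨x, rfl⟩
    have : x ∈ HH.comap FF := by rw [key]; trivial
    exact this

/-- the isomorphism with the model group -/
noncomputable def equivHH : HH ≃* Md :=
  (MulEquiv.subgroupCongr HH_eq).trans (MonoidHom.ofInjective FF_injective).symm

end Cfsg.Agent.H431.Alt
end

-- part: H431/AltLocal
section
/-!
# A subgroup `3^3 : S_4` with strongly closed `3`-core is the whole group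
-/

set_option autoImplicit false

open Cfsg

namespace Cfsg.Agent.H431.Alt

open Equiv Equiv.Perm

open scoped Pointwise

/-! ### facts on the model -/

theorem pow27 (u : V3) : u + u + u = 0 := three_eq_zero u

theorem cube_V {x : Md} (hx : x.M = 1) : x ^ 3 = 1 := by
  have h : x * x * x = 1 := by
    ext1
    · simp only [Sd.mul_u, Sd.mul_M, hx, one_smul, mul_one, Sd.one_u]
      exact three_eq_zero _
    · simp [hx]
  calc x ^ 3 = x * x * x := by rw [pow_succ, pow_two]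
    _ = 1 := h

theorem pow_M (x : Md) (n : ℕ) : (x ^ n).M = x.M ^ n := map_pow (Sd.proj : Md →* Q) x n

set_option maxRecDepth 100000 in
theorem three_core : ∀ M : Q, M ≠ 1 → ∃ N : Q, (N * M * N⁻¹ * M⁻¹) * (N * M * N⁻¹ * M⁻¹) = 1 ∧
    N * M * N⁻¹ * M⁻¹ ≠ 1 ∨ M * M = 1 ∨ (M * M * (M * M) = 1 ∧ M * M ≠ 1) := by decide +kernel

set_option maxRecDepth 100000 in
theorem cen_v0 : ∀ M : Q, M * v0 = v0 * M → M * M * (M * M) = 1 := by decide +kernel

set_option maxRecDepth 100000 in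
theorem cen_t0 : ∀ M : Q, M * t0 = t0 * M → M * M = 1 := by decide +kernel

set_option maxRecDepth 100000 in
theorem not_conj : ∀ M : Q, M * v0 ≠ t0 * M := by decide +kernel

/-- the first vector -/
def e0 : V3 := ![1, 0, 0]

set_option maxRecDepth 100000 in
theorem weight : ∀ M : Q, M * M ≠ 1 ∧ M * M * (M * M) = 1 → ∀ u : V3, M • u = u →
    u = 0 ∨ ∃ N : Q, N • u = e0 := by decide +kernel

theorem w0_facts : w0 • e0 = e0 ∧ w0 * w0 ≠ 1 ∧ w0 * w0 * (w0 * w0) = 1 := by decide +kernel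

theorem v0_e0 : v0 • e0 = e0 := by decide +kernel

theorem et_facts : t0 • (![1, 1, 0] : V3) = ![1, 1, 0] ∧ (![1, 1, 0] : V3) ≠ 0 := by decide +kernel

set_option maxRecDepth 100000 in
theorem V_comm : ∀ u : V3, ∃ a b : V3, u = (a - v0 • a) + s0 • (b - v0 • b) := by decide +kernel

set_option maxRecDepth 100000 in
theorem V4_conj : ∀ M : Q, M.1.p = 1 → M ≠ 1 → ∃ N : Q, M = N * v0 * N⁻¹ := by decide +kernel

set_option maxRecDepth 100000 in
theorem s0_word : ∀ M : Q, M.1.p ≠ 1 → ∃ N v : Q, v.1.p = 1 ∧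
    (s0 = v * (M * N * M⁻¹ * N⁻¹) ∨ s0 = v * M) := by decide +kernel

theorem mk_mul (u v : V3) (M N : Q) : (⟨u, M⟩ : Md) * ⟨v, N⟩ = ⟨u + M • v, M * N⟩ := rfl

theorem mk_one : (⟨0, 1⟩ : Md) = 1 := rfl

/-! ### the situation -/

variable {G : Type*} [Group G] {H : Subgroup G}

/-- the hypotheses -/
structure Loc (E : H ≃* Md) (J : Subgroup G) : Prop where
  mem : ∀ x : Md, kk E x ∈ J ↔ x.M = 1
  le : J ≤ H
  cen : ∀ j ∈ J, j ≠ 1 → Subgroup.centralizer ({j} : Set G) ≤ H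
  sc : ∀ x ∈ J, ∀ g : G, g * x * g⁻¹ ∈ H → g * x * g⁻¹ ∈ J

theorem mem_pCore (E : H ≃* Md) (x : H) : x ∈ pCore 3 H ↔ (E x).M = 1 := by
  have h3 : Fact (Nat.Prime 3) := ⟨Nat.prime_three⟩
  constructor
  · intro hx
    have hn : (pCore 3 H).Normal := Cfsg.Agent.Lib.Cores.pCore_normal 3
    have hp : IsPGroup 3 (pCore 3 H) := Cfsg.Agent.Lib.Cores.pCore_isPGroup 3
    have key : ∀ y ∈ pCore 3 H, (E y).M * (E y).M = 1 → (E y).M = 1 := by
      intro y hy h2
      obtain ⟨k, hk⟩ := hp ⟨y, hy⟩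
      have h4 : y ^ 3 ^ k = 1 := congrArg Subtype.val hk
      have h5 : (E y).M ^ 3 ^ k = 1 := by
        rw [← pow_M, ← map_pow, h4, map_one]
        rfl
      have h6 : Odd (3 ^ k) := Odd.pow (by decide)
      obtain ⟨m, hm⟩ := h6
      rw [hm, pow_succ, pow_mul, pow_two, h2, one_pow, one_mul] at h5
      exact h5
    by_contra hcon
    obtain ⟨N, hN⟩ := three_core _ hcon
    rcases hN with ⟨h1, h2⟩ | h1 | ⟨h1, h2⟩
    · have h4 : E.symm ⟨0, N⟩ * x * (E.symm ⟨0, N⟩)⁻¹ * x⁻¹ ∈ pCore 3 H :=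
        (pCore 3 H).mul_mem (hn.conj_mem _ hx _) ((pCore 3 H).inv_mem hx)
      have h5 : (E (E.symm ⟨0, N⟩ * x * (E.symm ⟨0, N⟩)⁻¹ * x⁻¹)).M =
          N * (E x).M * N⁻¹ * (E x).M⁻¹ := by
        rw [map_mul, map_mul, map_mul, map_inv, map_inv, MulEquiv.apply_symm_apply]
        rfl
      apply h2
      rw [← h5]
      apply key _ h4
      rw [h5]
      exact h1
    · exact hcon (key x hx h1)
    · have h4 : x * x ∈ pCore 3 H := (pCore 3 H).mul_mem hx hx
      have h5 : (E (x * x)).M = (E x).M * (E x).M := by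
        rw [map_mul]; rfl
      apply h2
      rw [← h5]
      apply key _ h4
      rw [h5]
      exact h1
  · intro hx
    let V : Subgroup Md := (Sd.proj : Md →* Q).ker
    have hV : ∀ y : Md, y ∈ V ↔ y.M = 1 := fun y => Iff.rfl
    have hVn : (V.comap (E : H →* Md)).Normal := by
      have : V.Normal := MonoidHom.normal_ker _
      exact this.comap _
    have hVp : IsPGroup 3 (V.comap (E : H →* Md)) := by
      intro y
      refine ⟨1, ?_⟩
      apply Subtype.ext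
      apply E.injective
      have h4 : (E (y : H)).M = 1 := y.2
      show E ((y : H) ^ 3 ^ 1) = E 1
      rw [map_pow, map_one, pow_one]
      exact cube_V h4
    exact Cfsg.Agent.Lib.Cores.le_pCore hVn hVp hx

theorem Loc.of {E : H ≃* Md} {J : Subgroup G} (hJ : J = (pCore 3 H).map H.subtype)
    (hC : ∀ j ∈ J, j ≠ 1 → Subgroup.centralizer ({j} : Set G) ≤ H) (hsc : IsStronglyClosed J H) :
    Loc E J where
  mem x := by
    rw [hJ]
    constructor
    · rintro ⟨y, hy, h⟩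
      have h1 : y = E.symm x := Subtype.ext h
      have h2 := (mem_pCore E y).1 hy
      rwa [h1, MulEquiv.apply_symm_apply] at h2
    · intro h
      refine ⟨E.symm x, (mem_pCore E _).2 ?_, rfl⟩
      rwa [MulEquiv.apply_symm_apply]
  le := hsc.1
  cen := hC
  sc := hsc.2

namespace Loc

variable {E : H ≃* Md} {J : Subgroup G} (L : Loc E J)

include L

theorem exists_V {j : G} (hj : j ∈ J) : ∃ u : V3, kk E ⟨u, 1⟩ = j := by
  obtain ⟨x, rfl⟩ := exists_kk E (L.le hj)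
  refine ⟨x.u, ?_⟩
  have h := (L.mem x).1 hj
  congr 1
  ext1
  · rfl
  · exact h.symm

theorem mem_V (u : V3) : kk E ⟨u, 1⟩ ∈ J := (L.mem _).2 rfl

theorem comm {x y : G} (hx : x ∈ J) (hy : y ∈ J) : x * y = y * x := by
  obtain ⟨u, rfl⟩ := L.exists_V hx
  obtain ⟨v, rfl⟩ := L.exists_V hy
  rw [← kk_mul, ← kk_mul]
  congr 1
  ext1
  · simp [add_comm]
  · rfl

omit L in
theorem kk_V_ne {u : V3} (hu : u ≠ 0) : kk E ⟨u, 1⟩ ≠ 1 := by
  rw [← kk_one E]
  intro h
  exact hu (congrArg Sd.u (kk_injective E h))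

theorem normalizer_le [Finite G] {n : G} (hn : ∀ j ∈ J, n * j * n⁻¹ ∈ J) : n ∈ H := by
  obtain ⟨h1, h2, h3⟩ := w0_facts
  have he0 : e0 ≠ 0 := by decide
  have hj0 := L.mem_V e0
  obtain ⟨u, hu⟩ := L.exists_V (hn _ hj0)
  have hne : kk E ⟨e0, 1⟩ ≠ 1 := kk_V_ne he0
  have hu0 : u ≠ 0 := by
    rintro rfl
    rw [mk_one, kk_one] at hu
    apply hne
    calc kk E ⟨e0, 1⟩ = n⁻¹ * (n * kk E ⟨e0, 1⟩ * n⁻¹) * n := by group
      _ = 1 := by rw [← hu]; group
  -- an element of order four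
  have hc : kk E ⟨0, w0⟩ * kk E ⟨e0, 1⟩ = kk E ⟨e0, 1⟩ * kk E ⟨0, w0⟩ := by
    rw [← kk_mul, ← kk_mul, mk_mul, mk_mul, h1]
    simp
  have hc2 : n * kk E ⟨0, w0⟩ * n⁻¹ * kk E ⟨u, 1⟩ = kk E ⟨u, 1⟩ * (n * kk E ⟨0, w0⟩ * n⁻¹) := by
    rw [hu]
    calc n * kk E ⟨0, w0⟩ * n⁻¹ * (n * kk E ⟨e0, 1⟩ * n⁻¹) =
        n * (kk E ⟨0, w0⟩ * kk E ⟨e0, 1⟩) * n⁻¹ := by group
      _ = n * (kk E ⟨e0, 1⟩ * kk E ⟨0, w0⟩) * n⁻¹ := by rw [hc]
      _ = _ := by group
  have hH : n * kk E ⟨0, w0⟩ * n⁻¹ ∈ H := by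
    apply L.cen _ (L.mem_V u) (kk_V_ne hu0)
    rw [Subgroup.mem_centralizer_singleton_iff]
    exact hc2
  obtain ⟨y, hy⟩ := exists_kk E hH
  have hy4 : y * y * (y * y) = 1 := by
    apply kk_injective E
    rw [kk_mul, kk_mul, kk_one, hy]
    calc n * kk E ⟨0, w0⟩ * n⁻¹ * (n * kk E ⟨0, w0⟩ * n⁻¹) *
        (n * kk E ⟨0, w0⟩ * n⁻¹ * (n * kk E ⟨0, w0⟩ * n⁻¹)) =
        n * (kk E ⟨0, w0⟩ * kk E ⟨0, w0⟩ * (kk E ⟨0, w0⟩ * kk E ⟨0, w0⟩)) * n⁻¹ := by group
      _ = 1 := by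
        rw [← kk_mul, ← kk_mul, mk_mul, mk_mul, h3]
        simp only [smul_zero, add_zero, mk_one, kk_one]
        group
  have hy2 : y * y ≠ 1 := by
    intro h
    apply h2
    have h4 : kk E ⟨0, w0⟩ * kk E ⟨0, w0⟩ = 1 := by
      calc kk E ⟨0, w0⟩ * kk E ⟨0, w0⟩ = n⁻¹ * (n * kk E ⟨0, w0⟩ * n⁻¹ * (n * kk E ⟨0, w0⟩ * n⁻¹)) * n := by
            group
        _ = n⁻¹ * kk E (y * y) * n := by rw [kk_mul, hy]
        _ = 1 := by rw [h, kk_one]; group
    rw [← kk_mul, mk_mul, ← kk_one E] at h4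
    exact congrArg Sd.M (kk_injective E h4)
  have hyM : y.M * y.M ≠ 1 := by
    intro h
    apply hy2
    have h4 : (y * y).M = 1 := h
    have h5 := cube_V h4
    rw [pow_succ', pow_two, hy4, mul_one] at h5
    exact h5
  have hyM4 : y.M * y.M * (y.M * y.M) = 1 := congrArg Sd.M hy4
  have hyu : y.M • u = u := by
    rw [← hy, ← kk_mul, ← kk_mul] at hc2
    have h4 := congrArg Sd.u (kk_injective E hc2)
    simp only [Sd.mul_u, one_smul] at h4
    rw [add_comm] at h4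
    exact add_right_cancel h4
  rcases weight _ ⟨hyM, hyM4⟩ _ hyu with h4 | ⟨N, hN⟩
  · exact absurd h4 hu0
  · have h5 : kk E ⟨0, N⟩ * n ∈ H := by
      apply L.cen _ hj0 hne
      rw [Subgroup.mem_centralizer_singleton_iff]
      have h6 : kk E ⟨0, N⟩ * kk E ⟨u, 1⟩ = kk E ⟨e0, 1⟩ * kk E ⟨0, N⟩ := by
        rw [← kk_mul, ← kk_mul, mk_mul, mk_mul, hN]
        simp
      calc kk E ⟨0, N⟩ * n * kk E ⟨e0, 1⟩ = kk E ⟨0, N⟩ * (n * kk E ⟨e0, 1⟩ * n⁻¹) * n := by group
        _ = kk E ⟨0, N⟩ * kk E ⟨u, 1⟩ * n := by rw [hu]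
        _ = kk E ⟨e0, 1⟩ * (kk E ⟨0, N⟩ * n) := by rw [h6, mul_assoc]
    exact (Subgroup.mul_mem_cancel_left H (kk_mem E _)).1 h5

/-- `J` is a trivial intersection subgroup -/
theorem ti [Finite G] {g x : G} (hx : x ∈ J) (hx1 : x ≠ 1) (hg : g * x * g⁻¹ ∈ H) : g ∈ H := by
  have h0 := L.sc x hx g hg
  have h1 : g * x * g⁻¹ ≠ 1 := by
    intro h
    apply hx1
    calc x = g⁻¹ * (g * x * g⁻¹) * g := by group
      _ = 1 := by rw [h]; group
  apply L.normalizer_le
  intro t ht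
  apply L.sc t ht
  apply L.cen _ h0 h1
  rw [Subgroup.mem_centralizer_singleton_iff]
  calc g * t * g⁻¹ * (g * x * g⁻¹) = g * (t * x) * g⁻¹ := by group
    _ = g * (x * t) * g⁻¹ := by rw [L.comm ht hx]
    _ = g * x * g⁻¹ * (g * t * g⁻¹) := by group

theorem conj_mem {h j : G} (hh : h ∈ H) (hj : j ∈ J) : h * j * h⁻¹ ∈ J := by
  obtain ⟨x, rfl⟩ := exists_kk E hh
  obtain ⟨u, rfl⟩ := L.exists_V hj
  rw [← kk_inv, ← kk_mul, ← kk_mul, L.mem]
  simp

omit L in
theorem conj_pow' (g x : G) (n : ℕ) : (g * x * g⁻¹) ^ n = g * x ^ n * g⁻¹ := conj_pow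

/-- the Sylow subgroup of the centralizer of `t` -/
theorem exists_conj [Finite G] {x : G} (hx : x * kk E xt = kk E xt * x) (hx3 : x ^ 3 = 1) :
    ∃ c : G, c * kk E xt = kk E xt * c ∧ c * x * c⁻¹ ∈ J := by
  have h3 : Fact (Nat.Prime 3) := ⟨Nat.prime_three⟩
  obtain ⟨ht1, ht2⟩ := et_facts
  set C : Subgroup G := Subgroup.centralizer ({kk E xt} : Set G) with hC
  have hmC : ∀ c : G, c ∈ C ↔ c * kk E xt = kk E xt * c := fun c =>
    Subgroup.mem_centralizer_singleton_iff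
  have hJ3 : ∀ j ∈ J, j ^ 3 = 1 := by
    intro j hj
    obtain ⟨u, rfl⟩ := L.exists_V hj
    rw [← kk_pow, cube_V rfl, kk_one]
  have hS : ∃ S : Sylow 3 C, (S : Subgroup C) = J.subgroupOf C := by
    apply Classification.InvCentPL.Tri.sylow_of_pelt_normalizer
    · intro y
      exact ⟨1, Subtype.ext (Subtype.ext (by
        rw [pow_one]; exact hJ3 _ y.2))⟩
    · intro c hc k hk
      -- a nontrivial element
      have he : kk E ⟨![1, 1, 0], 1⟩ ∈ C := by
        rw [hmC, ← kk_mul, ← kk_mul]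
        congr 1
        ext1
        · simp [xt, ht1]
        · simp [xt]
      have h4 := (Subgroup.mem_normalizer_iff.1 hc ⟨_, he⟩).1
        (Subgroup.mem_subgroupOf.2 (L.mem_V ![1, 1, 0]))
      have h5 : (c : G) * kk E ⟨![1, 1, 0], 1⟩ * (c : G)⁻¹ ∈ J := h4
      have h6 : (c : G) ∈ H := L.ti (L.mem_V ![1, 1, 0]) (kk_V_ne ht2) (L.le h5)
      obtain ⟨y, hy⟩ := exists_kk E h6
      have h7 := (hmC c).1 c.2
      rw [← hy, ← kk_mul, ← kk_mul] at h7
      have h8 : y.M * t0 = t0 * y.M := congrArg Sd.M (kk_injective E h7)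
      have h9 := cen_t0 _ h8
      have h10 : y ^ 3 ^ k = 1 := by
        apply kk_injective E
        rw [kk_pow, hy, kk_one]
        exact congrArg Subtype.val hk
      have h11 : y.M ^ 3 ^ k = 1 := by
        rw [← pow_M, h10]; rfl
      have h12 : Odd (3 ^ k) := Odd.pow (by decide)
      obtain ⟨m, hm⟩ := h12
      rw [hm, pow_succ, pow_mul, pow_two, h9, one_pow, one_mul] at h11
      show (c : G) ∈ J
      rw [← hy, L.mem]
      exact h11
  obtain ⟨S, hS⟩ := hS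
  let x' : C := ⟨x, (hmC x).2 hx⟩
  have hx' : x' ^ 3 = 1 := Subtype.ext hx3
  have hP : IsPGroup 3 (Subgroup.zpowers x') := by
    rintro ⟨_, k, rfl⟩
    refine ⟨1, Subtype.ext ?_⟩
    show (x' ^ k) ^ 3 ^ 1 = 1
    rw [pow_one, ← zpow_natCast, zpow_comm, zpow_natCast, hx', one_zpow]
  obtain ⟨R, hR⟩ := hP.exists_le_sylow
  obtain ⟨a, ha⟩ := MulAction.exists_smul_eq C R S
  have h4 : x' ∈ (R : Subgroup C) := hR (Subgroup.mem_zpowers x')
  have h5 : a * x' * a⁻¹ ∈ (S : Subgroup C) := by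
    rw [← ha]
    show a * x' * a⁻¹ ∈ MulAut.conj a • (R : Subgroup C)
    rw [Subgroup.mem_pointwise_smul_iff_inv_smul_mem]
    have : (MulAut.conj a)⁻¹ • (a * x' * a⁻¹) = x' := by
      rw [← map_inv, MulAut.smul_def, MulAut.conj_apply]
      group
    rw [this]
    exact h4
  rw [hS] at h5
  exact ⟨a, (hmC a).1 a.2, h5⟩

theorem fus3 [Finite G] : Fus3 E where
  fus := by
    intro x hx g hg
    obtain ⟨n, h1, h2⟩ := hx
    have h3 : kk E (x ^ n) ∈ J := (L.mem _).2 h1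
    apply L.ti h3
    · rw [← kk_one E]
      exact fun h => h2 (kk_injective E h)
    · rw [kk_pow, ← conj_pow']
      exact H.pow_mem hg n
  vt := by
    intro g hg
    have he0 : e0 ≠ 0 := by decide
    have hc : kk E ⟨e0, 1⟩ * kk E xv = kk E xv * kk E ⟨e0, 1⟩ := by
      rw [← kk_mul, ← kk_mul]
      congr 1
      ext1
      · simp [xv, v0_e0]
      · simp [xv]
    have h1 : g * kk E ⟨e0, 1⟩ * g⁻¹ * kk E xt = kk E xt * (g * kk E ⟨e0, 1⟩ * g⁻¹) := by
      rw [← hg]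
      calc g * kk E ⟨e0, 1⟩ * g⁻¹ * (g * kk E xv * g⁻¹) =
          g * (kk E ⟨e0, 1⟩ * kk E xv) * g⁻¹ := by group
        _ = g * (kk E xv * kk E ⟨e0, 1⟩) * g⁻¹ := by rw [hc]
        _ = _ := by group
    obtain ⟨c, hc1, hc2⟩ := L.exists_conj h1 (by
      rw [conj_pow', ← kk_pow, cube_V rfl, kk_one]
      group)
    have h2 : c * g ∈ H := by
      apply L.ti (L.mem_V e0) (kk_V_ne he0)
      have : c * g * kk E ⟨e0, 1⟩ * (c * g)⁻¹ = c * (g * kk E ⟨e0, 1⟩ * g⁻¹) * c⁻¹ := by group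
      rw [this]
      exact L.le hc2
    obtain ⟨y, hy⟩ := exists_kk E h2
    have h3 : kk E y * kk E xv = kk E xt * kk E y := by
      rw [hy]
      calc c * g * kk E xv = c * (g * kk E xv * g⁻¹) * g := by group
        _ = c * kk E xt * g := by rw [hg]
        _ = kk E xt * (c * g) := by rw [hc1, mul_assoc]
    rw [← kk_mul, ← kk_mul] at h3
    have h4 : y.M * v0 = t0 * y.M := congrArg Sd.M (kk_injective E h3)
    exact not_conj _ h4

end Loc

end Cfsg.Agent.H431.Alt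
end

-- part: H431/AltFinish
section
/-!
# End of the proof: reduction to the case `3^3 : 2^2`
-/

set_option autoImplicit false

open Cfsg

namespace Cfsg.Agent.H431.Alt

open Equiv Equiv.Perm

/-! ### the subgroup `3^3 : 2^2` of the model -/

/-- the affine maps of the line -/
def aff' (e : ℤˣ) (u : ZMod 3) : Perm (ZMod 3) where
  toFun a := ((e : ℤ) : ZMod 3) * a + u
  invFun a := ((e : ℤ) : ZMod 3) * (a - u)
  left_inv := by unfold Function.LeftInverse; revert e u; decide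
  right_inv := by unfold Function.RightInverse Function.LeftInverse; revert e u; decide

/-- the affine maps of the line -/
def aff (e : ℤˣ) (u : ZMod 3) : Perm (Fin 3) := aff' e u

theorem aff_mul : ∀ (e e' : ℤˣ) (u u' : ZMod 3),
    aff (e * e') (u + ((e : ℤ) : ZMod 3) * u') = aff e u * aff e' u' := by decide

theorem sign_aff : ∀ (e : ℤˣ) (u : ZMod 3), sign (aff e u) = e := by decide

theorem aff_inj : ∀ (e e' : ℤˣ) (u u' : ZMod 3), aff e u = aff e' u' → e = e' ∧ u = u' := by decide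

theorem aff_one : aff 1 0 = 1 := by decide

/-- the permutation of the axes -/
def axes : Q →* Perm (Fin 3) where
  toFun M := M.1.p
  map_one' := rfl
  map_mul' _ _ := rfl

/-- the subgroup of index six -/
def C0 : Subgroup Md := Sd.SC axes.ker

theorem mem_C0 {x : Md} : x ∈ C0 ↔ x.M.1.p = 1 := Iff.rfl

theorem card_C0 : Nat.card C0 = 108 := by
  rw [C0, Sd.card_SC, Nat.card_eq_fintype_card]
  have h : Nat.card axes.ker = 4 := by
    have h1 : Nat.card axes.ker = Nat.card {M : Q // M.1.p = 1} := Nat.card_congr (Equiv.refl _)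
    rw [h1, Nat.card_eq_fintype_card]
    decide +kernel
  rw [h]
  simp

theorem prod_C0 {x : Md} (hx : x ∈ C0) : x.M.1.e 0 * x.M.1.e 1 * x.M.1.e 2 = 1 := by
  have h : SP.det x.M.1 = 1 := x.M.2
  have h1 : SP.det x.M.1 = (x.M.1.e 0 * x.M.1.e 1 * x.M.1.e 2) * sign x.M.1.p := rfl
  rw [h1, mem_C0.1 hx, map_one, mul_one] at h
  exact h

/-- the homomorphism onto the model of `S3701` -/
def toK : C0 →* Block.K where
  toFun x := ⟨fun i => aff (x.1.M.1.e i) (x.1.u i), by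
    rw [Block.mem_K, sign_aff, sign_aff, sign_aff]
    exact prod_C0 x.2⟩
  map_one' := by
    apply Subtype.ext
    funext i
    exact aff_one
  map_mul' x y := by
    apply Subtype.ext
    funext i
    show aff (x.1.M.1.e i * y.1.M.1.e (x.1.M.1.p⁻¹ i))
      (x.1.u i + ((x.1.M.1.e i : ℤ) : ZMod 3) * y.1.u (x.1.M.1.p⁻¹ i)) =
      aff (x.1.M.1.e i) (x.1.u i) * aff (y.1.M.1.e i) (y.1.u i)
    rw [mem_C0.1 x.2]
    exact aff_mul _ _ _ _

theorem toK_injective : Function.Injective toK := by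
  intro x y h
  have h1 : ∀ i, x.1.M.1.e i = y.1.M.1.e i ∧ x.1.u i = y.1.u i := fun i =>
    aff_inj _ _ _ _ (congrFun (congrArg Subtype.val h) i)
  apply Subtype.ext
  ext1
  · funext i
    exact (h1 i).2
  · apply Subtype.ext
    ext1
    · funext i
      exact (h1 i).1
    · rw [mem_C0.1 x.2, mem_C0.1 y.2]

theorem toK_bijective : Function.Bijective toK := by
  have : Finite Block.K := Nat.finite_of_card_ne_zero (by rw [Block.card_K]; norm_num)
  have : Finite C0 := Nat.finite_of_card_ne_zero (by rw [card_C0]; norm_num)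
  rw [Nat.bijective_iff_injective_and_card]
  exact ⟨toK_injective, by rw [card_C0, Block.card_K]⟩

/-- the isomorphism with the model of `S3701` -/
noncomputable def equivK : C0 ≃* Block.K := MulEquiv.ofBijective toK toK_bijective

namespace Loc

variable {G : Type*} [Group G] {H : Subgroup G} {E : H ≃* Md} {J : Subgroup G} (L : Loc E J)

/-- the normal subgroup meets `H` in `3^3 : 2^2` -/
theorem mem_normal_iff {N : Subgroup G} (hN : N.Normal) (hv : kk E xv ∈ N)
    (hs : kk E ⟨0, s0⟩ ∉ N) (x : Md) : kk E x ∈ N ↔ x ∈ C0 := by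
  -- the elements of `J`
  have h1 : ∀ a : V3, kk E ⟨a - v0 • a, 1⟩ ∈ N := by
    intro a
    have h2 : (⟨a - v0 • a, 1⟩ : Md) = ⟨a, 1⟩ * xv * (⟨a, 1⟩ : Md)⁻¹ * xv⁻¹ := by
      ext1
      · simp [xv, sub_eq_add_neg]
      · simp [xv]
    rw [h2, kk_mul, kk_mul, kk_mul, kk_inv, kk_inv]
    exact N.mul_mem (hN.conj_mem _ hv _) (N.inv_mem hv)
  have hV : ∀ u : V3, kk E ⟨u, 1⟩ ∈ N := by
    intro u
    obtain ⟨a, b, rfl⟩ := V_comm u
    have h2 : (⟨(a - v0 • a) + s0 • (b - v0 • b), 1⟩ : Md) =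
        ⟨a - v0 • a, 1⟩ * ((⟨0, s0⟩ : Md) * ⟨b - v0 • b, 1⟩ * (⟨0, s0⟩ : Md)⁻¹) := by
      ext1
      · simp
      · simp
    rw [h2, kk_mul, kk_mul, kk_mul, kk_inv]
    exact N.mul_mem (h1 a) (hN.conj_mem _ (h1 b) _)
  have hdec : ∀ x : Md, x = ⟨x.u, 1⟩ * ⟨0, x.M⟩ := by
    intro x
    ext1
    · simp
    · simp
  have hred : ∀ x : Md, kk E x ∈ N ↔ kk E ⟨0, x.M⟩ ∈ N := by
    intro x
    conv_lhs => rw [hdec x, kk_mul]
    exact Subgroup.mul_mem_cancel_left N (hV _)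
  have hmulM : ∀ M M' : Q, kk E ⟨0, M * M'⟩ = kk E ⟨0, M⟩ * kk E ⟨0, M'⟩ := by
    intro M M'
    rw [← kk_mul, mk_mul]
    simp
  have hinvM : ∀ M : Q, kk E ⟨0, M⁻¹⟩ = (kk E ⟨0, M⟩)⁻¹ := by
    intro M
    rw [← kk_inv]
    congr 1
    ext1
    · simp
    · simp
  have hV4 : ∀ M : Q, M.1.p = 1 → kk E ⟨0, M⟩ ∈ N := by
    intro M hM
    by_cases h : M = 1
    · rw [h, mk_one, kk_one]
      exact N.one_mem
    · obtain ⟨N', hN'⟩ := V4_conj M hM h
      rw [hN', hmulM, hmulM, hinvM]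
      exact hN.conj_mem _ hv _
  rw [hred x, mem_C0]
  constructor
  · intro h
    by_contra hcon
    obtain ⟨N', v, hv1, h2⟩ := s0_word _ hcon
    apply hs
    rcases h2 with h2 | h2
    · rw [h2, hmulM, hmulM, hmulM, hmulM, hinvM, hinvM]
      refine N.mul_mem (hV4 v hv1) ?_
      have h3 := hN.conj_mem _ (N.inv_mem h) (kk E ⟨0, N'⟩)
      have h4 : kk E ⟨0, x.M⟩ * kk E ⟨0, N'⟩ * (kk E ⟨0, x.M⟩)⁻¹ * (kk E ⟨0, N'⟩)⁻¹ =
          kk E ⟨0, x.M⟩ * (kk E ⟨0, N'⟩ * (kk E ⟨0, x.M⟩)⁻¹ * (kk E ⟨0, N'⟩)⁻¹) := by group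
      rw [h4]
      exact N.mul_mem h h3
    · rw [h2, hmulM]
      exact N.mul_mem (hV4 v hv1) h
  · intro h
    exact hV4 _ h

include L in
theorem card_J : Nat.card J = 27 := by
  have h : Nat.card J = Nat.card V3 := by
    symm
    apply Nat.card_congr
    refine Equiv.ofBijective (fun u => (⟨kk E ⟨u, 1⟩, L.mem_V u⟩ : J)) ⟨?_, ?_⟩
    · intro u v huv
      have h1 : kk E ⟨u, 1⟩ = kk E ⟨v, 1⟩ := congrArg (fun j : J => (j : G)) huv
      exact congrArg Sd.u (kk_injective E h1)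
    · rintro ⟨j, hj⟩
      obtain ⟨u, hu⟩ := L.exists_V hj
      exact ⟨u, Subtype.ext hu⟩
  rw [h, Nat.card_eq_fintype_card]
  simp

include L in
/-- **Theorem.** -/
theorem eq_top [Finite G] : H = ⊤ := by
  obtain ⟨N, hN, hv, hs⟩ := exists_normal L.fus3
  have hmem := mem_normal_iff hN hv hs
  have hJN : J ≤ N := by
    intro j hj
    obtain ⟨u, rfl⟩ := L.exists_V hj
    exact (hmem _).2 rfl
  -- the isomorphism of `N ∩ H` with the model
  have hE : ∀ n : N, (hn : (n : G) ∈ H) → E ⟨n, hn⟩ ∈ C0 := by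
    intro n hn
    rw [← hmem]
    have : kk E (E ⟨n, hn⟩) = n := by
      unfold kk
      rw [MulEquiv.symm_apply_apply]
    rw [this]
    exact n.2
  let f : (H.subgroupOf N) ≃* C0 :=
    { toFun := fun n => ⟨E ⟨(n : N), n.2⟩, hE n n.2⟩
      invFun := fun x => ⟨⟨kk E x, (hmem x).2 x.2⟩, kk_mem E x⟩
      left_inv := by
        intro n
        apply Subtype.ext
        apply Subtype.ext
        show kk E (E ⟨(n : N), n.2⟩) = ((n : N) : G)
        unfold kk
        rw [MulEquiv.symm_apply_apply]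
      right_inv := by
        intro x
        apply Subtype.ext
        exact E.apply_symm_apply _
      map_mul' := by
        intro a b
        apply Subtype.ext
        show E _ = E _ * E _
        rw [← map_mul]
        rfl }
  have he0 : e0 ≠ 0 := by decide
  have hS : Block.Sit (H.subgroupOf N) (f.trans equivK) (J.subgroupOf N) := by
    refine ⟨?_, ?_, ?_, ?_⟩
    · intro n hn
      exact L.le hn
    · rw [← L.card_J]
      exact Nat.card_congr (Subgroup.subgroupOfEquivOfLe hJN).toEquiv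
    · ext n
      constructor
      · intro hn
        have h1 := (Subgroup.mem_normalizer_iff.1 hn ⟨_, hJN (L.mem_V e0)⟩).1 (L.mem_V e0)
        exact L.ti (L.mem_V e0) (kk_V_ne he0) (L.le h1)
      · intro hn
        apply Subgroup.mem_normalizer_fintype
        intro j hj
        exact L.conj_mem hn hj
    · intro t ht ht1 c hc
      have h1 : (t : G) ≠ 1 := fun h => ht1 (Subtype.ext h)
      apply L.cen _ ht h1
      rw [Subgroup.mem_centralizer_singleton_iff] at hc ⊢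
      exact congrArg Subtype.val hc
  have htop := hS.eq_top
  have hNH : N ≤ H := by
    intro n hn
    have h1 : (⟨n, hn⟩ : N) ∈ H.subgroupOf N := by rw [htop]; trivial
    exact h1
  rw [eq_top_iff]
  intro g _
  apply L.ti (L.mem_V e0) (kk_V_ne he0)
  exact hNH (hN.conj_mem _ (hJN (L.mem_V e0)) g)

end Loc

end Cfsg.Agent.H431.Alt
end

-- part: S3702
section
set_option autoImplicit false
open Cfsg

namespace Cfsg.Agent.S3702

/-- Let K ≤ Sym(9) be generated by (1 2 3), (1 4 7)(2 5 8)(3 6 9), (1 2)(4 5) and (1 4)(2 5)(3 6)(7 8) (the normalizer in Alt(9) of the elementary abelian group generated by (1 2 3), (4 5 6), (7 8 9)). Let G be a finite group with a subgroup H ≅ K and J = O₃(H). If C_G(j) ≤ H for every j ≠ 1 in J and J is strongly closed in H with respect to G (a G-conjugate of an element of J lying in H lies in J), then G = H. -/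
theorem result {G : Type*} [Group G] [Finite G] (H : Subgroup G)
    (hH : Nonempty (↥H ≃* ↥(Subgroup.closure ({Equiv.swap (0 : Fin 9) 1 * Equiv.swap 1 2,
        Equiv.swap (0 : Fin 9) 3 * Equiv.swap 3 6 * (Equiv.swap (1 : Fin 9) 4 * Equiv.swap 4 7) * (Equiv.swap (2 : Fin 9) 5 * Equiv.swap 5 8),
        Equiv.swap (0 : Fin 9) 1 * Equiv.swap 3 4, Equiv.swap (0 : Fin 9) 3 * Equiv.swap 1 4 * Equiv.swap 2 5 * Equiv.swap 6 7} : Set (Equiv.Perm (Fin 9))))))
    (J : Subgroup G) (hJ : J = (Cfsg.pCore 3 ↥H).map H.subtype)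
    (hC : ∀ j ∈ J, j ≠ 1 → Subgroup.centralizer ({j} : Set G) ≤ H) (hsc : Cfsg.IsStronglyClosed J H) : H = ⊤ := by
  obtain ⟨e⟩ := hH
  have L : Cfsg.Agent.H431.Alt.Loc (e.trans Cfsg.Agent.H431.Alt.equivHH) J :=
    Cfsg.Agent.H431.Alt.Loc.of hJ hC hsc
  exact L.eq_top

end Cfsg.Agent.S3702
end
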