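import Mathlib
import Cfsg.Prelude.Def_Solvable
import Cfsg.Agent.Solvable.FrobeniusKernel
import Cfsg.Agent.Solvable.SZ
import Cfsg.Agent.S0029
import Cfsg.Agent.S0035
import Cfsg.Agent.S0042
import Cfsg.Agent.Lib.FrattiniBasic
import Cfsg.Statements.S3703
set_option linter.all false

-- part: H429/FrobQuot
section
/-!
# Frobenius quotients and element orders
-/

set_option autoImplicit false
set_option linter.unusedSectionVars false

namespace Cfsg.Agent.H429.FrobQuot

open Subgroup
open Cfsg.Agent.Solvable.FrobeniusKernel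
open scoped Pointwise

theorem bijective_out_mul {A : Type*} [Group A] (B : Subgroup A) :
    Function.Bijective (fun y : (A ⧸ B) × B => y.1.out * (y.2 : A)) := by
  constructor
  · rintro ⟨q, x⟩ ⟨q', x'⟩ h
    change q.out * (x : A) = q'.out * (x' : A) at h
    have h1 : q = q' := by
      have h2 := congrArg (QuotientGroup.mk (s := B)) h
      rwa [QuotientGroup.mk_mul_of_mem _ x.2, QuotientGroup.mk_mul_of_mem _ x'.2,
        QuotientGroup.out_eq', QuotientGroup.out_eq'] at h2
    subst h1
    have h3 : (x : A) = x' := mul_left_cancel h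
    rw [Subtype.ext h3]
  · intro a
    refine ⟨((a : A ⧸ B), ⟨(a : A ⧸ B).out⁻¹ * a, ?_⟩), ?_⟩
    · rw [← QuotientGroup.eq, QuotientGroup.out_eq']
    · change (a : A ⧸ B).out * ((a : A ⧸ B).out⁻¹ * a) = a
      group

/-- The partition argument, for a complement all of whose traces are trivial. -/
theorem pow_index_eq_prod {A V : Type*} [Group A] [Finite A] [Fintype A] [CommGroup V] (φ : A →* MulAut V)
    (B N : Subgroup A) (hB : Cfsg.IsFrobeniusComplement B) [Fintype B] [Fintype N]
    (hN : (N : Set A) = Cfsg.frobeniusKernel B)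
    (hB1 : ∀ w : V, ∏ x : B, φ (x : A) w = 1) (v : V) :
    v ^ B.index = ∏ n : N, φ (n : A) v := by
  classical
  have hall : ∏ a : A, φ a v = 1 := by
    have h1 : ∀ q : A ⧸ B, ∏ x : B, φ (q.out * (x : A)) v = 1 := by
      intro q
      have h2 : ∀ x : B, φ (q.out * (x : A)) v = φ q.out (φ (x : A) v) := by
        intro x
        rw [map_mul]; rfl
      rw [Finset.prod_congr rfl (fun x _ => h2 x), ← map_prod, hB1, map_one]
    rw [← (bijective_out_mul B).prod_comp (fun a : A => φ a v), Fintype.prod_prod_type,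
      Finset.prod_congr rfl (fun q _ => h1 q), Finset.prod_const_one]
  have hBprod : ∀ w : V, ∏ x : {x : A // x ∈ B ∧ x ≠ 1}, φ (x : A) w = w⁻¹ := by
    intro w
    have h1 := hB1 w
    rw [← Finset.prod_subtype (Finset.univ.filter (· ∈ B)) (by simp) (fun x : A => φ x w),
      ← Finset.prod_erase_mul _ _ (a := (1 : A)) (by simp), map_one] at h1
    rw [← Finset.prod_subtype ((Finset.univ.filter (· ∈ B)).erase 1)
      (by intro x; simp [and_comm]) (fun x : A => φ x w)]
    exact eq_inv_of_mul_eq_one_left h1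
  -- the product over the elements outside of `N`
  have hout : ∏ x : {x : A // ¬ x ∈ N}, φ (x : A) v = (v ^ B.index)⁻¹ := by
    have hset : ∀ x : A, x ∉ N ↔ x ∈ (Cfsg.frobeniusKernel B)ᶜ := by
      intro x
      rw [← hN]; rfl
    rw [← Finset.prod_subtype (Finset.univ.filter (· ∉ N)) (by simp) (fun x : A => φ x v),
      Finset.prod_subtype (p := (· ∈ (Cfsg.frobeniusKernel B)ᶜ)) (Finset.univ.filter (· ∉ N))
        (by intro x; simp only [Finset.mem_filter, Finset.mem_univ, true_and]; exact hset x)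
        (fun x : A => φ x v)]
    rw [← (bijective_out B hB).prod_comp (fun x : ((Cfsg.frobeniusKernel B)ᶜ : Set A) => φ (x : A) v)]
    rw [Fintype.prod_prod_type]
    have hq : ∀ q : A ⧸ B, ∏ x : {x : A // x ∈ B ∧ x ≠ 1}, φ (q.out * (x : A) * (q.out)⁻¹) v = v⁻¹ := by
      intro q
      have h2 : ∀ x : {x : A // x ∈ B ∧ x ≠ 1}, φ (q.out * (x : A) * (q.out)⁻¹) v =
          φ q.out (φ (x : A) (φ (q.out)⁻¹ v)) := by
        intro x
        rw [map_mul, map_mul]; rfl
      rw [Finset.prod_congr rfl (fun x _ => h2 x), ← map_prod, hBprod, map_inv, ← MulAut.mul_apply,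
        ← map_mul, mul_inv_cancel, map_one]
      rfl
    rw [Finset.prod_congr rfl (fun q _ => hq q), Finset.prod_const, Finset.card_univ,
      Subgroup.index, Nat.card_eq_fintype_card, inv_pow]
  have hsplit := Fintype.prod_subtype_mul_prod_subtype (fun x : A => x ∈ N) (fun x : A => φ x v)
  rw [hall, hout] at hsplit
  rw [mul_inv_eq_one] at hsplit
  rw [← hsplit]
  exact Finset.prod_congr (by ext; simp) fun _ _ => rfl

/-- The kernel fixes all elements if moreover its order is prime to the order of the element. -/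
theorem fixed_of_prod_eq_one {A V : Type*} [Group A] [Finite A] [CommGroup V] [Finite V]
    (φ : A →* MulAut V) (B N : Subgroup A) (hB : Cfsg.IsFrobeniusComplement B) [Fintype B]
    (hN : (N : Set A) = Cfsg.frobeniusKernel B)
    (hB1 : ∀ w : V, ∏ x : B, φ (x : A) w = 1) (hcop : (Nat.card N).Coprime (Nat.card V))
    {n : A} (hn : n ∈ N) (v : V) : φ n v = v := by
  classical
  cases nonempty_fintype A
  have hidx : B.index = Nat.card N := by
    rw [← card_kernel hB, ← hN]; rfl
  have h1 := pow_index_eq_prod φ B N hB hN hB1 v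
  have h2 : φ n (v ^ B.index) = v ^ B.index := by
    rw [h1, map_prod]
    refine Eq.trans ?_ (Equiv.prod_comp (Equiv.mulLeft (⟨n, hn⟩ : N)) (fun x : N => φ (x : A) v))
    refine Finset.prod_congr rfl fun x _ => ?_
    rw [← MulAut.mul_apply, ← map_mul]
    rfl
  rw [map_pow, hidx] at h2
  have h3 : (Nat.card V).Coprime (Nat.card N) := hcop.symm
  exact (powCoprime h3).injective h2

/-- The action on the abelianization. -/
noncomputable def abAct {A P : Type*} [Group A] [Group P] (φ : A →* MulAut P) :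
    A →* MulAut (Abelianization P) where
  toFun a := MulEquiv.abelianizationCongr (φ a)
  map_one' := by
    rw [map_one]
    ext x
    induction x using QuotientGroup.induction_on with | H x => rfl
  map_mul' a b := by
    rw [map_mul]
    ext x
    induction x using QuotientGroup.induction_on with | H x => rfl

theorem abAct_of {A P : Type*} [Group A] [Group P] (φ : A →* MulAut P) (a : A) (x : P) :
    abAct φ a (Abelianization.of x) = Abelianization.of (φ a x) := rfl

/-- The trace of a cyclic group. -/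
theorem prod_zpowers {A P : Type*} [Group A] [Finite A] [Group P] (φ : A →* MulAut P) (η : A)
    [Fintype (zpowers η)] (v : P) (w : ℕ → P) (h0 : w 0 = 1)
    (hw : ∀ k, w (k + 1) = w k * φ (η ^ k) v) :
    ∏ x : zpowers η, abAct φ (x : A) (Abelianization.of v) = Abelianization.of (w (orderOf η)) := by
  have h1 : ∀ k, Abelianization.of (w k) =
      ∏ i ∈ Finset.range k, abAct φ (η ^ i) (Abelianization.of v) := by
    intro k
    induction k with
    | zero => rw [h0, map_one, Finset.prod_range_zero]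
    | succ k ih => rw [hw, map_mul, ih, Finset.prod_range_succ, abAct_of]
  rw [h1, ← Fin.prod_univ_eq_prod_range (fun i => abAct φ (η ^ i) (Abelianization.of v)),
    ← (finEquivZPowers (isOfFinOrder_of_finite η)).prod_comp
      (fun x : zpowers η => abAct φ (x : A) (Abelianization.of v))]
  rfl

/-- A Frobenius group with cyclic complement generated by `η` acting on a `p`-group `P`, such that `(v η) ^ n = 1` for
all `v ∈ P`: the kernel centralizes `P`. -/
theorem mem_centralizer_of_pow_eq_one {G A : Type*} [Group G] [Finite G] [Group A] [Finite A]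
    (σ : A →* G) (η : A) (hB : Cfsg.IsFrobeniusComplement (zpowers η)) (K : Subgroup A)
    (hK : (K : Set A) = Cfsg.frobeniusKernel (zpowers η)) (p : ℕ) [Fact p.Prime] (P : Subgroup G)
    (hP : IsPGroup p P) (hσ : ∀ a, σ a ∈ normalizer (P : Set G)) (hcop : (Nat.card K).Coprime p)
    (hη : ∀ v ∈ P, (v * σ η) ^ orderOf η = 1) {a : A} (ha : a ∈ K) :
    σ a ∈ centralizer (P : Set G) := by
  classical
  cases nonempty_fintype A
  set φ : A →* MulAut P := P.normalizerMonoidHom.comp (σ.codRestrict _ hσ) with hφ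
  have hφa : ∀ (a : A) (x : P), ((φ a x : P) : G) = σ a * x * (σ a)⁻¹ := fun a x => rfl
  obtain ⟨m, hm⟩ := IsPGroup.iff_card.mp hP
  have hcV : Nat.card (Abelianization P) ∣ Nat.card P :=
    Subgroup.card_quotient_dvd_card _
  have hcop' : (Nat.card K).Coprime (Nat.card (Abelianization P)) := by
    refine Nat.Coprime.coprime_dvd_right hcV ?_
    rw [hm]
    exact Nat.Coprime.pow_right m hcop
  have htr : ∀ w : Abelianization P, ∏ x : zpowers η, abAct φ (x : A) w = 1 := by
    intro w
    induction w using QuotientGroup.induction_on with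
    | H v =>
    have hmem : ∀ k : ℕ, ((v : G) * σ η) ^ k * (σ η ^ k)⁻¹ ∈ P := by
      intro k
      induction k with
      | zero => simp
      | succ k ih =>
        have e : ((v : G) * σ η) ^ (k + 1) * (σ η ^ (k + 1))⁻¹ =
            (((v : G) * σ η) ^ k * (σ η ^ k)⁻¹) * (σ (η ^ k) * v * (σ (η ^ k))⁻¹) := by
          rw [map_pow]
          rw [pow_succ, pow_succ]
          group
        rw [e]
        exact P.mul_mem ih ((mem_normalizer_iff.mp (hσ (η ^ k)) _).mp v.2)
    have h1 := prod_zpowers φ η v (fun k => ⟨_, hmem k⟩) (by ext; simp) (by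
      intro k
      apply Subtype.ext
      rw [coe_mul, hφa, map_pow]
      change ((v : G) * σ η) ^ (k + 1) * (σ η ^ (k + 1))⁻¹ =
        (((v : G) * σ η) ^ k * (σ η ^ k)⁻¹) * _
      rw [pow_succ, pow_succ]
      group)
    refine h1.trans ?_
    have h2 := hη v v.2
    have h3 := hη 1 P.one_mem
    rw [one_mul] at h3
    have h4 : (⟨_, hmem (orderOf η)⟩ : P) = 1 := by
      apply Subtype.ext
      change ((v : G) * σ η) ^ (orderOf η) * (σ η ^ (orderOf η))⁻¹ = 1
      rw [h2, h3]; simp
    change Abelianization.of (⟨_, hmem (orderOf η)⟩ : P) = 1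
    rw [h4, map_one]
  have hfix : ∀ (b : A), b ∈ K → ∀ w : Abelianization P, abAct φ b w = w := fun b hb w =>
    fixed_of_prod_eq_one (abAct φ) (zpowers η) K hB hK htr hcop' hb w
  have hle : K.map σ ≤ centralizer (P : Set G) := by
    refine Cfsg.Agent.S0029.result (K.map σ) P ?_ ?_ ?_
    · rintro _ ⟨b, -, rfl⟩
      exact hσ b
    · have h1 : Nat.card (frattini P) ∣ Nat.card P := card_subgroup_dvd_card _
      refine Nat.Coprime.coprime_dvd_left (card_map_dvd K σ) (Nat.Coprime.coprime_dvd_right h1 ?_)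
      rw [hm]
      exact Nat.Coprime.pow_right m hcop
    · rintro _ ⟨b, hb, rfl⟩ x hx
      have h1 := hfix b hb (Abelianization.of ⟨x, hx⟩)
      rw [abAct_of] at h1
      have h2 : φ b ⟨x, hx⟩ * (⟨x, hx⟩ : P)⁻¹ ∈ commutator P := by
        have h3 : Abelianization.of (φ b ⟨x, hx⟩ * (⟨x, hx⟩ : P)⁻¹) = 1 := by
          rw [map_mul, map_inv, h1, mul_inv_cancel]
        exact (QuotientGroup.eq_one_iff _).mp h3
      exact ⟨_, Cfsg.Agent.Lib.FrattiniBasic.commutator_le_frattini hP h2, rfl⟩
  exact hle (mem_map_of_mem σ ha)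

end Cfsg.Agent.H429.FrobQuot
end

-- part: H429/FrobQuotMain
section
/-!
# Frobenius quotients and element orders: main theorem
-/

set_option autoImplicit false
set_option linter.unusedSectionVars false

namespace Cfsg.Agent.H429.FrobQuot

open Subgroup
open Cfsg.Agent.Solvable.FrobeniusKernel
open scoped Pointwise

section
variable {G : Type*} [Group G] [Finite G] (N : Subgroup G) [N.Normal] (Fb : Subgroup (G ⧸ N))

/-- Element orders: if the image of `x` has order `n` and `x ^ n ≠ 1`, there is an element of order `p n`. -/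
theorem exists_orderOf_eq {x : G} {n : ℕ} (hx : orderOf (QuotientGroup.mk' N x) = n)
    (h : x ^ n ≠ 1) : ∃ p : ℕ, p.Prime ∧ p ∣ Nat.card N ∧ ∃ g : G, orderOf g = p * n := by
  have hxN : x ^ n ∈ N := by
    rw [← QuotientGroup.eq_one_iff (N := N)]
    have : ((QuotientGroup.mk' N x)) ^ n = 1 := by rw [← hx]; exact pow_orderOf_eq_one _
    exact this
  have hn0 : n ≠ 0 := by rw [← hx]; exact (orderOf_pos _).ne'
  have hdvd : n ∣ orderOf x := by rw [← hx]; exact orderOf_map_dvd _ _
  obtain ⟨m, hm⟩ := hdvd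
  have hm1 : orderOf (x ^ n) = m := by
    rw [orderOf_pow_of_dvd hn0 ⟨m, hm⟩, hm, Nat.mul_div_cancel_left _ (Nat.pos_of_ne_zero hn0)]
  have hm2 : m ≠ 1 := by
    intro h1
    rw [h1, orderOf_eq_one_iff] at hm1
    exact h hm1
  have hm0 : m ≠ 0 := by
    rintro rfl
    rw [mul_zero] at hm
    exact (orderOf_pos x).ne' hm
  obtain ⟨s, hs, hsm⟩ := Nat.exists_prime_and_dvd hm2
  obtain ⟨t, ht⟩ := hsm
  have ht0 : t ≠ 0 := by
    rintro rfl
    exact hm0 (by rw [ht, mul_zero])
  refine ⟨s, hs, ?_, x ^ t, ?_⟩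
  · have h1 : m ∣ Nat.card N := by
      rw [← hm1]
      exact Subgroup.orderOf_dvd_natCard N hxN
    exact (Dvd.intro _ ht.symm).trans h1
  · rw [orderOf_pow_of_dvd ht0 ⟨s * n, by rw [hm, ht]; ring⟩, hm, ht]
    rw [show n * (s * t) = (s * n) * t by ring, Nat.mul_div_cancel _ (Nat.pos_of_ne_zero ht0)]

variable {N Fb}

theorem map_comap_inf_eq {M : Subgroup G} (hM : M ⊔ N = ⊤) :
    (Fb.comap (QuotientGroup.mk' N) ⊓ M).map (QuotientGroup.mk' N) = Fb := by
  apply le_antisymm
  · rintro _ ⟨x, hx, rfl⟩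
    exact hx.1
  · intro q hq
    obtain ⟨x, rfl⟩ := QuotientGroup.mk'_surjective N q
    have hx : x ∈ ((M ⊔ N : Subgroup G) : Set G) := by rw [hM]; trivial
    rw [mul_normal] at hx
    obtain ⟨m, hm, n, hn, rfl⟩ := hx
    have h1 : QuotientGroup.mk' N (m * n) = QuotientGroup.mk' N m := by
      rw [map_mul]
      have : QuotientGroup.mk' N n = 1 := (QuotientGroup.eq_one_iff n).mpr hn
      rw [this, mul_one]
    rw [h1] at hq
    exact ⟨m, ⟨hq, hm⟩, h1.symm⟩

theorem relIndex_eq {M : Subgroup G} (hM : M ⊔ N = ⊤) :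
    N.relIndex (Fb.comap (QuotientGroup.mk' N) ⊓ M) = Nat.card Fb := by
  have h1 := relIndex_ker (Fb.comap (QuotientGroup.mk' N) ⊓ M) (QuotientGroup.mk' N)
  rw [QuotientGroup.ker_mk', map_comap_inf_eq hM] at h1
  exact h1

/-- A complement of `N` in the preimage of `Fb`, inside a supplement `M`. -/
theorem exists_complement {M : Subgroup G} (hM : M ⊔ N = ⊤)
    (hcop : (Nat.card Fb).Coprime (Nat.card N)) :
    ∃ F₁ : Subgroup G, F₁ ≤ Fb.comap (QuotientGroup.mk' N) ⊓ M ∧ Nat.card F₁ = Nat.card Fb := by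
  set X := Fb.comap (QuotientGroup.mk' N) ⊓ M with hX
  have h1 : (N.subgroupOf X).index = Nat.card Fb := relIndex_eq hM
  have h2 : Nat.card (N.subgroupOf X) ∣ Nat.card N :=
    Subgroup.card_comap_dvd_of_injective N X.subtype X.subtype_injective
  obtain ⟨H, hH⟩ := exists_right_complement'_of_coprime (N := N.subgroupOf X) (by
    rw [h1]
    exact Nat.Coprime.coprime_dvd_left h2 hcop.symm)
  refine ⟨H.map X.subtype, map_subtype_le _, ?_⟩
  rw [card_map_of_injective X.subtype_injective, ← h1, hH.symm.index_eq_card]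

/-- The image of such a complement. -/
theorem map_complement {F₁ : Subgroup G} (h1 : F₁ ≤ Fb.comap (QuotientGroup.mk' N))
    (h2 : Nat.card F₁ = Nat.card Fb) (hcop : (Nat.card Fb).Coprime (Nat.card N)) :
    F₁ ⊓ N = ⊥ ∧ F₁.map (QuotientGroup.mk' N) = Fb := by
  have h3 : F₁ ⊓ N = ⊥ := by
    exact (disjoint_of_coprime_natCard (by rwa [h2])).eq_bot
  refine ⟨h3, ?_⟩
  refine eq_of_le_of_card_ge (map_le_iff_le_comap.mpr h1) ?_
  have h4 := relIndex_ker F₁ (QuotientGroup.mk' N)
  rw [QuotientGroup.ker_mk'] at h4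
  rw [← h4, ← h2, ← inf_relIndex_right, inf_comm, h3, relIndex_bot_left]

/-- Conjugacy of the complements. -/
theorem conj_complement {M : Subgroup G} (hM : M ⊔ N = ⊤) (hsol : Group.IsSolvable Fb)
    (hcop : (Nat.card Fb).Coprime (Nat.card N)) {F₁ F₂ : Subgroup G}
    (h1 : F₁ ≤ Fb.comap (QuotientGroup.mk' N) ⊓ M) (h2 : F₂ ≤ Fb.comap (QuotientGroup.mk' N) ⊓ M)
    (hc1 : Nat.card F₁ = Nat.card Fb) (hc2 : Nat.card F₂ = Nat.card Fb) :
    ∃ g ∈ Fb.comap (QuotientGroup.mk' N) ⊓ M, MulAut.conj g • F₁ = F₂ := by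
  set X := Fb.comap (QuotientGroup.mk' N) ⊓ M with hX
  have h3 : (N.subgroupOf X).index = Nat.card Fb := relIndex_eq hM
  have h4 : Nat.card (N.subgroupOf X) ∣ Nat.card N :=
    Subgroup.card_comap_dvd_of_injective N X.subtype X.subtype_injective
  have hF1 : Group.IsSolvable (F₁.subgroupOf X) := by
    obtain ⟨h5, h6⟩ := map_complement (h1.trans inf_le_left) hc1 hcop
    let f : (F₁.subgroupOf X) →* Fb :=
      ((QuotientGroup.mk' N).comp (X.subtype.comp (F₁.subgroupOf X).subtype)).codRestrict Fb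
        (fun x => (h1 x.2).1)
    refine Group.isSolvable_of_isSolvable_injective (f := f) ?_
    rw [injective_iff_map_eq_one]
    intro x hx
    have h7 : ((x : X) : G) ∈ N := by
      have := congrArg Subtype.val hx
      exact (QuotientGroup.eq_one_iff _).mp this
    have h8 : ((x : X) : G) ∈ F₁ ⊓ N := ⟨x.2, h7⟩
    rw [h5, mem_bot] at h8
    exact Subtype.ext (Subtype.ext h8)
  have h9 := Cfsg.Agent.Solvable.SZ.main (Nat.card X) X rfl (N.subgroupOf X)
    (by rw [h3]; exact Nat.Coprime.coprime_dvd_left h4 hcop.symm) (F₁.subgroupOf X)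
    (F₂.subgroupOf X) (Or.inr hF1)
    (by rw [h3, ← hc1]; exact Cfsg.Agent.Solvable.SZ.card_subgroupOf F₁ X h1)
    (by rw [h3, ← hc2]; exact Cfsg.Agent.Solvable.SZ.card_subgroupOf F₂ X h2)
  exact Cfsg.Agent.Solvable.SZ.conj_of_subgroupOf X F₁ F₂ h1 h2 h9

/-- Lifts normalizing the complement. -/
theorem exists_lift {M : Subgroup G} (hM : M ⊔ N = ⊤) [hFb : Fb.Normal] (hsol : Group.IsSolvable Fb)
    (hcop : (Nat.card Fb).Coprime (Nat.card N)) {F₁ : Subgroup G}
    (h1 : F₁ ≤ Fb.comap (QuotientGroup.mk' N) ⊓ M)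
    (hc1 : Nat.card F₁ = Nat.card Fb) (q : G ⧸ N) :
    ∃ g ∈ M, g ∈ normalizer (F₁ : Set G) ∧ QuotientGroup.mk' N g = q := by
  obtain ⟨x, rfl⟩ := QuotientGroup.mk'_surjective N q
  have hx : x ∈ ((M ⊔ N : Subgroup G) : Set G) := by rw [hM]; trivial
  rw [mul_normal] at hx
  obtain ⟨m, hm, n, hn, rfl⟩ := hx
  have h2 : QuotientGroup.mk' N (m * n) = QuotientGroup.mk' N m := by
    rw [map_mul]
    have : QuotientGroup.mk' N n = 1 := (QuotientGroup.eq_one_iff n).mpr hn
    rw [this, mul_one]
  change ∃ g ∈ M, g ∈ normalizer (F₁ : Set G) ∧ QuotientGroup.mk' N g = QuotientGroup.mk' N (m * n)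
  rw [h2]
  have h3 : MulAut.conj m • F₁ ≤ Fb.comap (QuotientGroup.mk' N) ⊓ M := by
    rintro _ ⟨y, hy, rfl⟩
    have hy' := h1 hy
    refine ⟨?_, ?_⟩
    · exact (inferInstance : (Fb.comap (QuotientGroup.mk' N)).Normal).conj_mem _ hy'.1 m
    · exact M.mul_mem (M.mul_mem hm hy'.2) (M.inv_mem hm)
  have h4 : Nat.card (MulAut.conj m • F₁ : Subgroup G) = Nat.card Fb := by
    rw [Cfsg.Agent.Solvable.SZ.card_conj_smul, hc1]
  obtain ⟨y, hy, hy1⟩ := conj_complement hM hsol hcop h1 h3 hc1 h4
  -- `y = x z` with `x` in `F₁`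
  obtain ⟨h5, h6⟩ := map_complement (h1.trans inf_le_left) hc1 hcop
  have h7 : QuotientGroup.mk' N y ∈ F₁.map (QuotientGroup.mk' N) := by rw [h6]; exact hy.1
  obtain ⟨z, hz, hzy⟩ := h7
  have h8 : y⁻¹ * m ∈ normalizer (F₁ : Set G) := by
    have h9 : MulAut.conj (y⁻¹ * m) • F₁ = F₁ := by
      rw [map_mul, mul_smul, ← hy1, smul_smul, ← map_mul, inv_mul_cancel, map_one, one_smul]
    rw [mem_normalizer_iff]
    intro w
    constructor
    · intro hw
      have := Subgroup.smul_mem_pointwise_smul w (MulAut.conj (y⁻¹ * m)) F₁ hw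
      rw [h9] at this
      exact this
    · intro hw
      rw [← h9] at hw
      exact (Subgroup.smul_mem_pointwise_smul_iff (a := MulAut.conj (y⁻¹ * m)) (S := F₁) (x := w)).mp hw
  refine ⟨z * (y⁻¹ * m), ?_, ?_, ?_⟩
  · exact M.mul_mem (h1 hz).2 (M.mul_mem (M.inv_mem hy.2) hm)
  · exact (normalizer (F₁ : Set G)).mul_mem (le_normalizer hz) h8
  · rw [map_mul, map_mul, map_inv, hzy]; group

/-- The main part. -/
theorem le_map_centralizer (Hb : Subgroup (G ⧸ N)) [hFb : Fb.Normal] (hHb : Cfsg.IsFrobeniusComplement Hb)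
    (hker : Cfsg.frobeniusKernel Hb = (Fb : Set (G ⧸ N))) (hcyc : IsCyclic Hb)
    (hcop : (Nat.card Fb).Coprime (Nat.card N))
    (hno : ∀ x : G, orderOf (QuotientGroup.mk' N x) = Nat.card Hb → x ^ Nat.card Hb = 1) :
    Fb ≤ (centralizer (N : Set G)).map (QuotientGroup.mk' N) := by
  obtain ⟨η, hη⟩ : ∃ η : G ⧸ N, zpowers η = Hb := by
    obtain ⟨g, hg⟩ := hcyc.exists_zpow_surjective
    refine ⟨g, ?_⟩
    apply le_antisymm
    · exact zpowers_le.mpr g.2
    · intro x hx
      obtain ⟨k, hk⟩ := hg ⟨x, hx⟩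
      exact ⟨k, congrArg Subtype.val hk⟩
  subst hη
  rw [Nat.card_zpowers] at hno
  have hsol : Group.IsSolvable Fb := by
    obtain ⟨K, hK, -, hKn⟩ := Cfsg.Agent.S0042.result _ hHb
    have : K = Fb := SetLike.coe_injective (hK.trans hker)
    subst this
    infer_instance
  have hcompl : IsComplement' Fb (zpowers η) := by
    obtain ⟨K, hK, -, hKc⟩ := Cfsg.Agent.S0035.result _ hHb
    have : K = Fb := SetLike.coe_injective (hK.trans hker)
    subst this
    exact hKc
  have htop : (⊤ : Subgroup G) ⊔ N = ⊤ := top_sup_eq _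
  obtain ⟨F₀, hF₀, hcF₀⟩ := exists_complement (N := N) (Fb := Fb) htop hcop
  have key : ∀ p k : ℕ, p.Prime → p ^ k ∣ Nat.card N →
      p ^ k ∣ Nat.card (N ⊓ centralizer (F₀ : Set G) : Subgroup G) := by
    intro p k hp hpk
    rcases Nat.eq_zero_or_pos k with rfl | hk
    · simp
    have hpf := Fact.mk hp
    have hpN : p ∣ Nat.card N := (dvd_pow_self p hk.ne').trans hpk
    obtain ⟨P⟩ : Nonempty (Sylow p N) := inferInstance
    set P' : Subgroup G := (P : Subgroup N).map N.subtype with hP'
    have hP'p : IsPGroup p P' := P.2.map _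
    have hM : normalizer (P' : Set G) ⊔ N = ⊤ := Sylow.normalizer_sup_eq_top P
    obtain ⟨F₁, hF₁, hcF₁⟩ := exists_complement (N := N) (Fb := Fb) hM hcop
    obtain ⟨h, hhM, hhF, hh⟩ := exists_lift hM hsol hcop hF₁ hcF₁ η
    obtain ⟨hF₁N, hF₁m⟩ := map_complement (hF₁.trans inf_le_left) hcF₁ hcop
    set L : Subgroup G := zpowers h ⊔ F₁ with hL
    have hLM : L ≤ normalizer (P' : Set G) := sup_le (zpowers_le.mpr hhM) (hF₁.trans inf_le_right)
    have hhn : h ^ orderOf η = 1 := hno h (by rw [hh])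
    have hcL : Nat.card L ≤ Nat.card (G ⧸ N) := by
      have h1 : ((L : Subgroup G) : Set G) = (zpowers h : Set G) * F₁ :=
        coe_mul_of_left_le_normalizer_right _ _ (zpowers_le.mpr hhF)
      have h2 : Nat.card L ≤ Nat.card (zpowers h) * Nat.card F₁ := by
        have h3 : Nat.card L = Nat.card ((zpowers h : Set G) * (F₁ : Set G) : Set G) := by
          rw [← h1]; rfl
        rw [h3]
        exact Set.natCard_mul_le
      refine h2.trans ?_
      rw [← hcompl.card_mul_card, hcF₁, mul_comm, Nat.card_zpowers, Nat.card_zpowers]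
      exact Nat.mul_le_mul_left _ (Nat.le_of_dvd (orderOf_pos η) (orderOf_dvd_of_pow_eq_one hhn))
    let fL : L →* G ⧸ N := (QuotientGroup.mk' N).comp L.subtype
    have hsurj : Function.Surjective fL := by
      rw [← MonoidHom.range_eq_top, MonoidHom.range_comp, range_subtype, hL, Subgroup.map_sup, hF₁m,
        MonoidHom.map_zpowers, hh, sup_comm]
      exact hcompl.sup_eq_top
    have hbij : Function.Bijective fL := by
      refine hsurj.bijective_of_nat_card_le ?_
      exact hcL
    let e : L ≃* G ⧸ N := MulEquiv.ofBijective fL hbij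
    let σ : G ⧸ N →* G := L.subtype.comp e.symm.toMonoidHom
    have hσ : ∀ x : G, x ∈ L → σ (QuotientGroup.mk' N x) = x := by
      intro x hx
      have : e.symm (e ⟨x, hx⟩) = ⟨x, hx⟩ := e.symm_apply_apply _
      exact congrArg Subtype.val this
    have hσL : ∀ q, σ q ∈ L := fun q => (e.symm q).2
    have hση : σ η = h := by rw [← hh]; exact hσ h (mem_sup_left (mem_zpowers h))
    have hcopp : (Nat.card Fb).Coprime p := Nat.Coprime.coprime_dvd_right hpN hcop
    have hcent : F₁ ≤ centralizer (P' : Set G) := by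
      intro x hx
      have h1 : QuotientGroup.mk' N x ∈ Fb := (hF₁ hx).1
      have h2 := mem_centralizer_of_pow_eq_one σ η hHb Fb hker.symm p P' hP'p
        (fun q => hLM (hσL q)) hcopp ?_ h1
      · rwa [hσ x (mem_sup_right hx)] at h2
      · intro v hv
        rw [hση]
        apply hno
        rw [map_mul, hh]
        have : QuotientGroup.mk' N v = 1 := (QuotientGroup.eq_one_iff v).mpr (map_subtype_le _ hv)
        rw [this, one_mul]
    -- comparison with `F₀`
    obtain ⟨g, -, hg⟩ := conj_complement htop hsol hcop (hF₁.trans (inf_le_inf_left _ le_top)) hF₀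
      hcF₁ hcF₀
    have h3 : MulAut.conj g • P' ≤ N ⊓ centralizer (F₀ : Set G) := by
      rintro _ ⟨x, hx, rfl⟩
      refine ⟨?_, ?_⟩
      · exact (inferInstance : N.Normal).conj_mem _ (map_subtype_le _ hx) g
      · rw [← hg]
        change _ ∈ centralizer _
        rw [mem_centralizer_iff]
        rintro _ ⟨y, hy, rfl⟩
        have h4 := mem_centralizer_iff.mp (hcent hy) x hx
        change g * y * g⁻¹ * (g * x * g⁻¹) = g * x * g⁻¹ * (g * y * g⁻¹)
        calc g * y * g⁻¹ * (g * x * g⁻¹) = g * (y * x) * g⁻¹ := by group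
          _ = g * (x * y) * g⁻¹ := by rw [h4]
          _ = _ := by group
    have h4 : Nat.card P' ∣ Nat.card (N ⊓ centralizer (F₀ : Set G) : Subgroup G) := by
      rw [← Cfsg.Agent.Solvable.SZ.card_conj_smul g P']
      exact card_dvd_of_le h3
    refine dvd_trans ?_ h4
    rw [hP', card_map_of_injective N.subtype_injective]
    exact P.pow_dvd_card_of_pow_dvd_card hpk
  have h1 : Nat.card N ∣ Nat.card (N ⊓ centralizer (F₀ : Set G) : Subgroup G) :=
    (Nat.dvd_iff_prime_pow_dvd_dvd _ _).mpr key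
  have h2 : N ⊓ centralizer (F₀ : Set G) = N :=
    eq_of_le_of_card_ge inf_le_left (Nat.le_of_dvd Nat.card_pos h1)
  have h3 : F₀ ≤ centralizer (N : Set G) := by
    rw [le_centralizer_iff, ← h2]
    exact inf_le_right
  rw [← (map_complement (hF₀.trans inf_le_left) hcF₀ hcop).2]
  exact map_mono h3

end

end Cfsg.Agent.H429.FrobQuot
end

-- part: S3703
section
set_option autoImplicit false
open Cfsg

namespace Cfsg.Agent.S3703

/-- Let N be a normal subgroup of the finite group G such that G/N is a Frobenius group with kernel F and cyclic complement H, where the order of F is coprime to that of N and F is not contained in the image of C_G(N) in G/N. Then G has an element of order p·#H for some prime p dividing the order of N. (A standard tool in recognising groups by their element orders.) -/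
theorem result {G : Type*} [Group G] [Finite G] (N : Subgroup G) [N.Normal]
    (Fb Hb : Subgroup (G ⧸ N)) [Fb.Normal] (hHb : Cfsg.IsFrobeniusComplement Hb) (hker : Cfsg.frobeniusKernel Hb = (Fb : Set (G ⧸ N)))
    (hcyc : IsCyclic Hb) (hcop : (Nat.card Fb).Coprime (Nat.card N))
    (hnot : ¬ Fb ≤ (Subgroup.centralizer (N : Set G)).map (QuotientGroup.mk' N)) :
    ∃ p : ℕ, p.Prime ∧ p ∣ Nat.card N ∧ ∃ g : G, orderOf g = p * Nat.card Hb := by
  by_contra hcon
  apply hnot
  refine H429.FrobQuot.le_map_centralizer Hb hHb hker hcyc hcop ?_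
  intro x hx
  by_contra h
  exact hcon (H429.FrobQuot.exists_orderOf_eq N hx h)

end Cfsg.Agent.S3703
end
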