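import Cfsg.Agent.H433.Pair
import Cfsg.Agent.OddCyclic.T1Sl2
import Cfsg.Agent.TwoFusion.SLTwoFacts
import Cfsg.Statements.S3708
set_option linter.all false

-- part: H433/SubEven
section
/-!
# Subgroups `SU 2` of `SU 3` fix a vector of norm one
-/

set_option autoImplicit false

namespace Cfsg.Agent.H433

open Matrix Cfsg
open Cfsg.Agent.LieClassical.HermBasic
open Cfsg.Agent.Phan

variable {F : Type*} [Field F] {q : ℕ} [Fintype F]

/-- two perpendicular isotropic vectors in dimension three are proportional -/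
theorem isotropic_proportional (hF : Fintype.card F = q ^ 2) {r s : Fin 3 → F} (hr0 : r ≠ 0)
    (hr : hermForm 3 F q r r = 0) (hs : hermForm 3 F q s s = 0) (hrs : hermForm 3 F q s r = 0) :
    ∃ c : F, s = c • r := by
  obtain ⟨x, hx⟩ := exists_unit_of_isotropic hF hr hr0 (one_ne_zero (α := F))
  obtain ⟨g, hg⟩ := exists_su_smul hF (e0 2 F q) x
  have hg' : mat g *ᵥ (e0 2 F q).val = x.val := congrArg Pt.val hg
  set r' := mat g⁻¹ *ᵥ r with hr'
  have hgr : mat g *ᵥ r' = r := by
    rw [hr', Matrix.mulVec_mulVec, mat_mul_inv, Matrix.one_mulVec]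
  set s' := mat g⁻¹ *ᵥ s with hs'
  have hgs : mat g *ᵥ s' = s := by
    rw [hs', Matrix.mulVec_mulVec, mat_mul_inv, Matrix.one_mulVec]
  have h0 : r' 0 = 1 := by
    have h1 := hx
    rw [← hg', ← hgr, mat_isom, herm_e0_left] at h1
    have h2 := congrArg (fun z => z ^ q) h1
    simpa [pow_q_pow_q hF] using h2
  have hrn : hermForm 3 F q r' r' = 0 := by rw [← mat_isom g, hgr, hr]
  set u := s' - s' 0 • r' with hu
  have hun : hermForm 3 F q u u = 0 := by
    have h1 : hermForm 3 F q s' s' = 0 := by rw [← mat_isom g, hgs, hs]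
    have h2 : hermForm 3 F q s' r' = 0 := by rw [← mat_isom g, hgs, hgr, hrs]
    have h3 : hermForm 3 F q r' s' = 0 := herm_eq_zero_swap hF h2
    rw [hu, herm_sub_left, herm_sub_right hF, herm_sub_right hF, herm_smul_left, herm_smul_left,
      herm_smul_right, herm_smul_right, h1, h2, h3, hrn]
    ring
  have hur : hermForm 3 F q u r' = 0 := by
    have h2 : hermForm 3 F q s' r' = 0 := by rw [← mat_isom g, hgs, hgr, hrs]
    rw [hu, herm_sub_left, herm_smul_left, h2, hrn]
    ring
  have hu0 : u 0 = 0 := by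
    rw [hu, Pi.sub_apply, Pi.smul_apply, smul_eq_mul, h0, mul_one, sub_self]
  rw [herm_def, Fin.sum_univ_three, hu0, zero_mul, zero_add] at hun hur
  rw [herm_def, Fin.sum_univ_three, h0, one_pow, mul_one] at hrn
  -- `u 1 * r1^q = - u 2 * r2^q`
  have h4 : (u 1 * u 1 ^ q) * (r' 1 * r' 1 ^ q) = (u 2 * u 2 ^ q) * (r' 2 * r' 2 ^ q) := by
    have h5 : u 1 * r' 1 ^ q = -(u 2 * r' 2 ^ q) := by linear_combination hur
    have h6 := congrArg (fun z => z * z ^ q) h5
    simp only [neg_pow_q hF, mul_pow, pow_q_pow_q hF] at h6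
    linear_combination h6
  have h7 : u 1 * u 1 ^ q = 0 := by
    have h8 : u 2 * u 2 ^ q = -(u 1 * u 1 ^ q) := by linear_combination hun
    rw [h8] at h4
    linear_combination (u 1 * u 1 ^ q) * hrn - h4
  have h1z : u 1 = 0 := (norm_eq_zero hF).1 h7
  have h2z : u 2 = 0 := by
    rw [← norm_eq_zero hF]
    linear_combination hun - h7
  have huz : u = 0 := by
    funext i
    fin_cases i
    · exact hu0
    · exact h1z
    · exact h2z
  refine ⟨s' 0, ?_⟩
  rw [← hgs, ← hgr, ← Matrix.mulVec_smul]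
  congr 1
  exact sub_eq_zero.1 huz

/-- The centre of an involution in characteristic two. -/
theorem exists_centre (hF : Fintype.card F = q ^ 2) (h2 : (2 : F) = 0) (T : SU 3 F q) (hT : T ≠ 1)
    (hTT : T * T = 1) : ∃ r : Fin 3 → F, r ≠ 0 ∧ hermForm 3 F q r r = 0 ∧
      (∀ x, mat T *ᵥ x = x ↔ hermForm 3 F q x r = 0) ∧ ∀ x, ∃ c : F, mat T *ᵥ x = x + c • r := by
  have hN : ∀ x, mat T *ᵥ (mat T *ᵥ x - x) = mat T *ᵥ x - x := by
    intro x
    rw [Matrix.mulVec_sub, Matrix.mulVec_mulVec, ← mat_mul, hTT, mat_one, Matrix.one_mulVec]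
    have : ∀ y : Fin 3 → F, -y = y := by
      intro y
      funext i
      rw [Pi.neg_apply]
      linear_combination (-y i) * h2
    rw [← this (x - mat T *ᵥ x), neg_sub]
  -- fixed vectors are perpendicular to the image
  have hperp : ∀ x y, mat T *ᵥ y = y → hermForm 3 F q (mat T *ᵥ x - x) y = 0 := by
    intro x y hy
    rw [herm_sub_left]
    nth_rw 1 [← hy]
    rw [mat_isom, sub_self]
  obtain ⟨x₀, hx₀⟩ : ∃ x, mat T *ᵥ x ≠ x := by
    by_contra hcon
    push Not at hcon
    apply hT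
    apply mat_inj
    rw [mat_one]
    apply Matrix.ext_of_mulVec_single
    intro j
    rw [hcon, Matrix.one_mulVec]
  set r := mat T *ᵥ x₀ - x₀ with hr
  have hr0 : r ≠ 0 := sub_ne_zero.2 hx₀
  have hrr : hermForm 3 F q r r = 0 := hperp x₀ r (hN x₀)
  have him : ∀ x, ∃ c : F, mat T *ᵥ x - x = c • r := by
    intro x
    exact isotropic_proportional hF hr0 hrr (hperp x _ (hN x)) (hperp x r (hN x₀))
  refine ⟨r, hr0, hrr, ?_, ?_⟩
  · intro x
    constructor
    · intro hx
      exact herm_eq_zero_swap hF (hperp x₀ x hx)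
    · intro hx
      have hrx : hermForm 3 F q r x = 0 := herm_eq_zero_swap hF hx
      obtain ⟨c, hc⟩ := him x
      have : mat T *ᵥ x - x = 0 := by
        apply herm_nondeg hF
        intro y
        obtain ⟨d, hd⟩ := him y
        have h3 : mat T *ᵥ y = y + d • r := by rw [← hd]; abel
        have h4 : mat T *ᵥ x = x + c • r := by rw [← hc]; abel
        have h5 := mat_isom T x y
        rw [h3, h4, herm_add_left, herm_add_right hF, herm_add_right hF, herm_smul_right,
          herm_smul_right, hx, herm_smul_left, herm_smul_left, hrr] at h5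
        rw [hc, herm_smul_left]
        linear_combination h5
      exact sub_eq_zero.1 this
  · intro x
    obtain ⟨c, hc⟩ := him x
    exact ⟨c, by rw [← hc]; abel⟩

/-- Commuting involutions have the same centre. -/
theorem centre_unique (hF : Fintype.card F = q ^ 2) (h2 : (2 : F) = 0) {T T' : SU 3 F q}
    {r r' : Fin 3 → F} (hr0 : r ≠ 0) (hr0' : r' ≠ 0) (hrr : hermForm 3 F q r r = 0)
    (hrr' : hermForm 3 F q r' r' = 0)
    (hT : ∀ x, mat T *ᵥ x = x ↔ hermForm 3 F q x r = 0)
    (hT1 : ∀ x, ∃ c : F, mat T *ᵥ x = x + c • r)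
    (hT' : ∀ x, mat T' *ᵥ x = x ↔ hermForm 3 F q x r' = 0)
    (hTT' : T' * T' = 1) (hcomm : T * T' = T' * T) :
    ∃ c : F, c ≠ 0 ∧ r' = c • r := by
  -- `T' r` is proportional to `r`
  obtain ⟨x, hx⟩ := exists_herm_ne_zero hF hr0
  have hx' : mat T *ᵥ x ≠ x := by
    intro h
    exact hx (herm_eq_zero_swap hF ((hT x).1 h))
  obtain ⟨c, hc⟩ := hT1 x
  have hc0 : c ≠ 0 := by
    rintro rfl
    rw [zero_smul, add_zero] at hc
    exact hx' hc
  obtain ⟨d, hd⟩ := hT1 (mat T' *ᵥ x)
  have h3 : c • (mat T' *ᵥ r) = d • r := by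
    have h4 : mat T *ᵥ (mat T' *ᵥ x) = mat T' *ᵥ (mat T *ᵥ x) := by
      rw [Matrix.mulVec_mulVec, Matrix.mulVec_mulVec, ← mat_mul, ← mat_mul, hcomm]
    rw [hd, hc, Matrix.mulVec_add, Matrix.mulVec_smul] at h4
    exact (add_left_cancel h4).symm
  have h5 : mat T' *ᵥ r = (c⁻¹ * d) • r := by
    rw [mul_smul, ← h3, smul_smul, inv_mul_cancel₀ hc0, one_smul]
  set α := c⁻¹ * d with hα
  have h6 : r = (α * α) • r := by
    have h7 : mat T' *ᵥ (mat T' *ᵥ r) = r := by
      rw [Matrix.mulVec_mulVec, ← mat_mul, hTT', mat_one, Matrix.one_mulVec]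
    rw [h5, Matrix.mulVec_smul, h5, smul_smul] at h7
    exact h7.symm
  have hα1 : α = 1 := by
    have h8 : (α * α - 1) • r = 0 := by rw [sub_smul, one_smul, ← h6, sub_self]
    have h9 : α * α - 1 = 0 := (smul_eq_zero.1 h8).resolve_right hr0
    have h10 : (α - 1) * (α - 1) = 0 := by linear_combination h9 + (1 - α) * h2
    exact sub_eq_zero.1 (mul_self_eq_zero.1 h10)
  rw [hα1, one_smul] at h5
  have h11 : hermForm 3 F q r r' = 0 := (hT' r).1 h5
  obtain ⟨e, he⟩ := isotropic_proportional hF hr0 hrr hrr' (herm_eq_zero_swap hF h11)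
  refine ⟨e, ?_, he⟩
  rintro rfl
  rw [zero_smul] at he
  exact hr0' he

theorem exists_fixed_even (hF : Fintype.card F = q ^ 2) (h2 : (2 : F) = 0) {K : Type*} [Field K]
    [Fintype K]
    (hK2 : (2 : K) = 0) (ρ : SpecialLinearGroup (Fin 2) K →* SU 3 F q)
    (hρ : Function.Injective ρ) : ∃ w : Pt 3 F q, ∀ x, ρ x • w = w := by
  have hchar : CharP K 2 := CharTwo.of_one_ne_zero_of_two_eq_zero one_ne_zero hK2
  open Cfsg.Agent.OddCyclic.T1Sl2 in
  have hupinv : ∀ t : K, ρ (up t) * ρ (up t) = 1 := by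
    intro t
    rw [← map_mul, up_mul]
    have : t + t = 0 := by linear_combination t * hK2
    rw [this, up_zero, map_one]
  have hlomul : ∀ s t : K, OddCyclic.T1Sl2.lo s * OddCyclic.T1Sl2.lo t =
      OddCyclic.T1Sl2.lo (s + t) := by
    intro s t
    apply OddCyclic.T1Sl2.ext2
    · rw [OddCyclic.T1Sl2.mul00]; simp
    · rw [OddCyclic.T1Sl2.mul01]; simp
    · rw [OddCyclic.T1Sl2.mul10]; simp
    · rw [OddCyclic.T1Sl2.mul11]; simp
  have hlozero : OddCyclic.T1Sl2.lo (0 : K) = 1 := by
    apply OddCyclic.T1Sl2.ext2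
    · simp
    · simp
    · simp
    · simp
  have hloinv : ∀ t : K, ρ (OddCyclic.T1Sl2.lo t) * ρ (OddCyclic.T1Sl2.lo t) = 1 := by
    intro t
    rw [← map_mul, hlomul]
    have : t + t = 0 := by linear_combination t * hK2
    rw [this, hlozero, map_one]
  have hup1 : ∀ t : K, t ≠ 0 → ρ (OddCyclic.T1Sl2.up t) ≠ 1 := by
    intro t ht h
    have h3 : OddCyclic.T1Sl2.up t = 1 := hρ (by rw [h, map_one])
    have h4 := congrArg (fun g : SpecialLinearGroup (Fin 2) K => g 0 1) h3
    simp at h4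
    exact ht h4
  have hlo1 : ∀ t : K, t ≠ 0 → ρ (OddCyclic.T1Sl2.lo t) ≠ 1 := by
    intro t ht h
    have h3 : OddCyclic.T1Sl2.lo t = 1 := hρ (by rw [h, map_one])
    have h4 := congrArg (fun g : SpecialLinearGroup (Fin 2) K => g 1 0) h3
    simp at h4
    exact ht h4
  obtain ⟨r, hr0, hrr, hr, hr1⟩ := exists_centre hF h2 _ (hup1 1 one_ne_zero) (hupinv 1)
  obtain ⟨s, hs0, hss, hs, hs1⟩ := exists_centre hF h2 _ (hlo1 1 one_ne_zero) (hloinv 1)
  -- all `up t` fix the vectors perpendicular to `r`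
  have hupfix : ∀ (t : K) (x : Fin 3 → F), hermForm 3 F q x r = 0 →
      mat (ρ (OddCyclic.T1Sl2.up t)) *ᵥ x = x := by
    intro t x hx
    by_cases ht : t = 0
    · rw [ht, OddCyclic.T1Sl2.up_zero, map_one, mat_one, Matrix.one_mulVec]
    obtain ⟨r', hr0', hrr', hr', hr1'⟩ := exists_centre hF h2 _ (hup1 t ht) (hupinv t)
    obtain ⟨c, hc0, hc⟩ := centre_unique hF h2 hr0 hr0' hrr hrr' hr hr1 hr' (hupinv t) (by
      rw [← map_mul, ← map_mul, OddCyclic.T1Sl2.up_mul, OddCyclic.T1Sl2.up_mul, add_comm])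
    rw [hr', hc, herm_smul_right, hx, mul_zero]
  have hlofix : ∀ (t : K) (x : Fin 3 → F), hermForm 3 F q x s = 0 →
      mat (ρ (OddCyclic.T1Sl2.lo t)) *ᵥ x = x := by
    intro t x hx
    by_cases ht : t = 0
    · rw [ht, hlozero, map_one, mat_one, Matrix.one_mulVec]
    obtain ⟨r', hr0', hrr', hr', hr1'⟩ := exists_centre hF h2 _ (hlo1 t ht) (hloinv t)
    obtain ⟨c, hc0, hc⟩ := centre_unique hF h2 hs0 hr0' hss hrr' hs hs1 hr' (hloinv t) (by
      rw [← map_mul, ← map_mul, hlomul, hlomul, add_comm])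
    rw [hr', hc, herm_smul_right, hx, mul_zero]
  -- the centres are not perpendicular
  have hrs : hermForm 3 F q s r ≠ 0 := by
    intro h
    obtain ⟨c, hc⟩ := isotropic_proportional hF hr0 hrr hss h
    have hcomm : ρ (OddCyclic.T1Sl2.up 1) * ρ (OddCyclic.T1Sl2.lo 1) =
        ρ (OddCyclic.T1Sl2.lo 1) * ρ (OddCyclic.T1Sl2.up 1) := by
      apply mat_inj
      rw [mat_mul, mat_mul]
      apply Matrix.ext_of_mulVec_single
      intro j
      rw [← Matrix.mulVec_mulVec, ← Matrix.mulVec_mulVec]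
      obtain ⟨a, ha⟩ := hr1 (Pi.single j 1)
      obtain ⟨b, hb⟩ := hs1 (Pi.single j 1)
      have e1 : mat (ρ (OddCyclic.T1Sl2.up 1)) *ᵥ s = s := (hr s).2 h
      have e2 : mat (ρ (OddCyclic.T1Sl2.lo 1)) *ᵥ r = r := (hs r).2 (herm_eq_zero_swap hF h)
      rw [ha, hb, Matrix.mulVec_add, Matrix.mulVec_add, Matrix.mulVec_smul, Matrix.mulVec_smul,
        ha, hb, e1, e2]
      abel
    rw [← map_mul, ← map_mul] at hcomm
    have h3 := congrArg (fun g : SpecialLinearGroup (Fin 2) K => g 0 0) (hρ hcomm)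
    simp only [OddCyclic.T1Sl2.mul00] at h3
    simp at h3
  -- a vector perpendicular to both
  obtain ⟨w, hw0, hwr, hws⟩ : ∃ w : Fin 3 → F, w ≠ 0 ∧ hermForm 3 F q w r = 0 ∧
      hermForm 3 F q w s = 0 := by
    let f : (Fin 3 → F) →ₗ[F] (Fin 2 → F) :=
      { toFun := fun x => ![hermForm 3 F q x r, hermForm 3 F q x s]
        map_add' := fun x y => by
          funext i
          fin_cases i
          · exact herm_add_left _ _ _
          · exact herm_add_left _ _ _
        map_smul' := fun c x => by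
          funext i
          fin_cases i
          · exact herm_smul_left _ _ _
          · exact herm_smul_left _ _ _ }
    have hlt : Module.finrank F (Fin 2 → F) < Module.finrank F (Fin 3 → F) := by simp
    have hk := LinearMap.ker_ne_bot_of_finrank_lt (f := f) hlt
    obtain ⟨w, hw, hw0⟩ := Submodule.exists_mem_ne_zero_of_ne_bot hk
    have hw' : f w = 0 := hw
    exact ⟨w, hw0, congrFun hw' 0, congrFun hw' 1⟩
  have hww : hermForm 3 F q w w ≠ 0 := by
    intro h
    obtain ⟨c, hc⟩ := isotropic_proportional hF hr0 hrr h hwr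
    rw [hc, herm_smul_left] at hws
    rcases mul_eq_zero.1 hws with h3 | h3
    · rw [h3, zero_smul] at hc
      exact hw0 hc
    · exact hrs (herm_eq_zero_swap hF h3)
  obtain ⟨μ, hμ0, hμ⟩ := exists_norm_eq_ne hF (herm_self_pow hF w) hww
  have hμq : μ ^ q ≠ 0 := pow_ne_zero _ hμ0
  refine ⟨⟨μ⁻¹ • w, ?_⟩, ?_⟩
  · rw [herm_smul_left, herm_smul_right, ← hμ, inv_pow]
    field_simp
  · -- the stabiliser is everything
    have htop : Subgroup.comap ρ (MulAction.stabilizer (SU 3 F q)
        (⟨μ⁻¹ • w, by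
          rw [herm_smul_left, herm_smul_right, ← hμ, inv_pow]
          field_simp⟩ : Pt 3 F q)) = ⊤ := by
      apply OddCyclic.T1Sl2.closure_top
      · intro t
        rw [Subgroup.mem_comap, MulAction.mem_stabilizer_iff]
        apply Pt.ext'
        rw [smul_val]
        exact hupfix t _ (by rw [herm_smul_left, hwr, mul_zero])
      · intro t
        rw [Subgroup.mem_comap, MulAction.mem_stabilizer_iff]
        apply Pt.ext'
        rw [smul_val]
        exact hlofix t _ (by rw [herm_smul_left, hws, mul_zero])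
    intro x
    have hx : x ∈ (⊤ : Subgroup (SpecialLinearGroup (Fin 2) K)) := Subgroup.mem_top x
    rw [← htop, Subgroup.mem_comap, MulAction.mem_stabilizer_iff] at hx
    exact hx

end Cfsg.Agent.H433
end

-- part: H433/SubOdd
section
/-!
# Subgroups `SU 2` of `SU 3` are stabilisers of vectors of norm one
-/

set_option autoImplicit false

namespace Cfsg.Agent.H433

open Matrix Cfsg
open Cfsg.Agent.LieClassical.HermBasic
open Cfsg.Agent.Phan

variable {F : Type*} [Field F] {q : ℕ} [Fintype F]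

/-- An involution of `SU 2` in odd characteristic is `-1`. -/
theorem su2_involution (hF : Fintype.card F = q ^ 2) (h2 : (2 : F) ≠ 0) (k : SU 2 F q)
    (hk : k * k = 1) (hk1 : k ≠ 1) : mat k = -1 := by
  have hm : mat k * mat k = 1 := by rw [← mat_mul, hk, mat_one]
  have hdet := mat_det k
  rw [Matrix.det_fin_two] at hdet
  have e00 := congrFun (congrFun hm 0) 0
  have e01 := congrFun (congrFun hm 0) 1
  have e10 := congrFun (congrFun hm 1) 0
  have e11 := congrFun (congrFun hm 1) 1
  rw [Matrix.mul_apply, Fin.sum_univ_two] at e00 e01 e10 e11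
  rw [Matrix.one_apply_eq] at e00 e11
  rw [Matrix.one_apply_ne (by decide)] at e01 e10
  set a := mat k 0 0
  set b := mat k 0 1
  set c := mat k 1 0
  set d := mat k 1 1
  have htr : a + d ≠ 0 := by
    intro h
    have hd : d = -a := by linear_combination h
    rw [hd] at hdet
    have : (2 : F) = 0 := by linear_combination -e00 - hdet
    exact h2 this
  have hb : b = 0 := by
    have : b * (a + d) = 0 := by linear_combination e01
    exact (mul_eq_zero.1 this).resolve_right htr
  have hc : c = 0 := by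
    have : c * (a + d) = 0 := by linear_combination e10
    exact (mul_eq_zero.1 this).resolve_right htr
  rw [hb, zero_mul, add_zero] at e00
  rw [hb, zero_mul, sub_zero] at hdet
  have had : d = a := by
    have ha0 : a ≠ 0 := by intro h; rw [h, zero_mul] at e00; exact zero_ne_one e00
    have : a * (d - a) = 0 := by linear_combination hdet - e00
    exact sub_eq_zero.1 ((mul_eq_zero.1 this).resolve_left ha0)
  have ha : a = -1 := by
    have h3 : (a - 1) * (a + 1) = 0 := by linear_combination e00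
    rcases mul_eq_zero.1 h3 with h | h
    · exfalso
      apply hk1
      apply mat_inj
      rw [mat_one]
      ext i j
      fin_cases i <;> fin_cases j
      · change a = _
        rw [Matrix.one_apply_eq]; exact sub_eq_zero.1 h
      · change b = _
        rw [hb]; simp
      · change c = _
        rw [hc]; simp
      · change d = _
        rw [had]
        simpa using sub_eq_zero.1 h
    · linear_combination h
  ext i j
  fin_cases i <;> fin_cases j
  · change a = _
    rw [ha]; simp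
  · change b = _
    rw [hb]; simp
  · change c = _
    rw [hc]; simp
  · change d = _
    rw [had, ha]; simp

/-- An involution of `SU 3` in odd characteristic is conjugate to `diag(1,-1,-1)`. -/
theorem su3_involution (hF : Fintype.card F = q ^ 2) (h2 : (2 : F) ≠ 0) (T : SU 3 F q)
    (hT : T * T = 1) (hT1 : T ≠ 1) : ∃ w : Pt 3 F q, T • w = w ∧ ∀ x : Fin 3 → F,
      mat T *ᵥ x = x → ∃ c : F, x = c • w.val := by
  have hTT : ∀ x, mat T *ᵥ (mat T *ᵥ x) = x := by
    intro x
    rw [Matrix.mulVec_mulVec, ← mat_mul, hT, mat_one, Matrix.one_mulVec]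
  -- a fixed vector of nonzero norm
  obtain ⟨v, hv⟩ : ∃ v, hermForm 3 F q (v + mat T *ᵥ v) (v + mat T *ᵥ v) ≠ 0 := by
    by_contra hcon
    push Not at hcon
    -- the fixed space is totally isotropic
    have h3 : ∀ x y, hermForm 3 F q (x + mat T *ᵥ x) (y + mat T *ᵥ y) = 0 := by
      intro x y
      apply eq_zero_of_forall_trace hF
      intro c
      have h4 := hcon (c • x + y)
      have h5 := hcon (c • x)
      have h6 := hcon y
      have e1 : c • x + y + mat T *ᵥ (c • x + y) = (c • x + mat T *ᵥ (c • x)) +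
          (y + mat T *ᵥ y) := by
        rw [Matrix.mulVec_add]; abel
      have key : ∀ X Y : Fin 3 → F, hermForm 3 F q (X + Y) (X + Y) = hermForm 3 F q X X +
          hermForm 3 F q X Y + hermForm 3 F q Y X + hermForm 3 F q Y Y := by
        intro X Y
        rw [herm_add_left, herm_add_right hF, herm_add_right hF]
        ring
      rw [e1, key, h5, h6] at h4
      have e2 : c • x + mat T *ᵥ (c • x) = c • (x + mat T *ᵥ x) := by
        rw [Matrix.mulVec_smul, smul_add]
      rw [e2, herm_smul_left, herm_swap hF (c • (x + mat T *ᵥ x)) (y + mat T *ᵥ y),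
        herm_smul_left] at h4
      linear_combination h4
    have h4 : ∀ x, x + mat T *ᵥ x = 0 := by
      intro x
      apply herm_nondeg hF
      intro y
      have h5 := h3 x y
      rw [herm_add_right hF] at h5
      have h6 : hermForm 3 F q (x + mat T *ᵥ x) (mat T *ᵥ y) =
          hermForm 3 F q (x + mat T *ᵥ x) y := by
        have h7 := mat_isom T (x + mat T *ᵥ x) y
        rw [Matrix.mulVec_add, hTT, add_comm] at h7
        exact h7
      rw [h6] at h5
      have h8 : (2 : F) * hermForm 3 F q (x + mat T *ᵥ x) y = 0 := by linear_combination h5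
      exact (mul_eq_zero.1 h8).resolve_left h2
    have h5 : mat T = -1 := by
      apply Matrix.ext_of_mulVec_single
      intro j
      rw [Matrix.neg_mulVec, Matrix.one_mulVec]
      have := h4 (Pi.single j 1)
      exact (neg_eq_of_add_eq_zero_right this).symm
    have h6 := mat_det T
    rw [h5, Matrix.det_neg, Matrix.det_one, Fintype.card_fin] at h6
    have : (2 : F) = 0 := by linear_combination -h6
    exact h2 this
  set u := v + mat T *ᵥ v with hu
  have hTu : mat T *ᵥ u = u := by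
    rw [hu, Matrix.mulVec_add, hTT, add_comm]
  obtain ⟨μ, hμ0, hμ⟩ := exists_norm_eq_ne hF (herm_self_pow hF u) hv
  have hμq : μ ^ q ≠ 0 := pow_ne_zero _ hμ0
  have hwn : hermForm 3 F q (μ⁻¹ • u) (μ⁻¹ • u) = 1 := by
    rw [herm_smul_left, herm_smul_right, ← hμ, inv_pow]
    field_simp
  set w : Pt 3 F q := ⟨μ⁻¹ • u, hwn⟩ with hw
  have hTw : T • w = w := by
    apply Pt.ext'
    rw [smul_val]
    change mat T *ᵥ (μ⁻¹ • u) = μ⁻¹ • u
    rw [Matrix.mulVec_smul, hTu]
  refine ⟨w, hTw, ?_⟩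
  obtain ⟨g, hg⟩ := exists_su_smul hF (e0 2 F q) w
  obtain ⟨k, hk⟩ := exists_emb_of_fix hF (g⁻¹ * T * g) (by
    rw [mul_smul, mul_smul, hg, hTw, ← hg, inv_smul_smul])
  have hk1 : k ≠ 1 := by
    rintro rfl
    rw [map_one] at hk
    apply hT1
    have : g⁻¹ * T * g = 1 := hk.symm
    calc T = g * (g⁻¹ * T * g) * g⁻¹ := by group
      _ = 1 := by rw [this]; group
  have hkk : k * k = 1 := by
    apply emb_injective hF 1 (by omega : 1 + 2 ≤ 2 + 1)
    rw [map_mul, hk, map_one]
    calc g⁻¹ * T * g * (g⁻¹ * T * g) = g⁻¹ * (T * T) * g := by group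
      _ = 1 := by rw [hT]; group
  have hkm := su2_involution hF h2 k hkk hk1
  intro x hx
  set x' := mat g⁻¹ *ᵥ x with hx'
  have hgx : mat g *ᵥ x' = x := by
    rw [hx', Matrix.mulVec_mulVec, mat_mul_inv, Matrix.one_mulVec]
  have h3 : mat (g⁻¹ * T * g) *ᵥ x' = x' := by
    rw [mat_mul, mat_mul, ← Matrix.mulVec_mulVec, ← Matrix.mulVec_mulVec, hgx, hx, hx']
  rw [← hk, emb_one_mulVec, hkm, Matrix.neg_mulVec, Matrix.one_mulVec] at h3
  have h4 : ∀ j : Fin 2, x' j.succ = 0 := by
    intro j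
    have h5 := congrFun h3 j.succ
    rw [Fin.cons_succ, Pi.neg_apply] at h5
    have h6 : (2 : F) * x' j.succ = 0 := by linear_combination -h5
    exact (mul_eq_zero.1 h6).resolve_left h2
  refine ⟨x' 0, ?_⟩
  have h5 : x' = x' 0 • (e0 2 F q).val := by
    funext i
    refine Fin.cases ?_ (fun i => ?_) i
    · rw [Pi.smul_apply, e0_val, Pi.single_eq_same, smul_eq_mul, mul_one]
    · rw [Pi.smul_apply, e0_val, Pi.single_eq_of_ne (Fin.succ_ne_zero i), smul_zero]
      exact h4 i
  rw [← hgx, ← hg, smul_val, ← Matrix.mulVec_smul, ← h5]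

theorem exists_fixed_odd (hF : Fintype.card F = q ^ 2) (h2 : (2 : F) ≠ 0)
    (ρ : SU 2 F q →* SU 3 F q) (hρ : Function.Injective ρ) (hperf : commutator (SU 2 F q) = ⊤) :
    ∃ w : Pt 3 F q, ∀ x, ρ x • w = w := by
  have hz1 : negOne hF ≠ (1 : SU 2 F q) := by
    intro h
    have h3 := congrArg mat h
    rw [mat_negOne, mat_one] at h3
    have h4 := congrFun (congrFun h3 0) 0
    simp at h4
    apply h2
    linear_combination -h4
  have hzz : negOne hF * negOne hF = (1 : SU 2 F q) := by
    apply mat_inj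
    rw [mat_mul, mat_negOne, mat_one]
    simp
  have hzc : ∀ x : SU 2 F q, negOne hF * x = x * negOne hF := by
    intro x
    apply mat_inj
    rw [mat_mul, mat_mul, mat_negOne]
    simp
  obtain ⟨w, hTw, hw⟩ := su3_involution hF h2 (ρ (negOne hF)) (by rw [← map_mul, hzz, map_one])
    (by
      intro h
      exact hz1 (hρ (by rw [h, map_one])))
  refine ⟨w, ?_⟩
  -- `w` is an eigenvector
  have hχ : ∀ x, ∃ c : F, mat (ρ x) *ᵥ w.val = c • w.val := by
    intro x
    apply hw
    rw [Matrix.mulVec_mulVec, ← mat_mul, ← map_mul, hzc, map_mul, mat_mul, ← Matrix.mulVec_mulVec]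
    have : mat (ρ (negOne hF)) *ᵥ w.val = w.val := congrArg Pt.val hTw
    rw [this]
  -- commutators fix `w`
  have hcom : ∀ x y : SU 2 F q, ρ (x * y) • w = ρ (y * x) • w := by
    intro x y
    obtain ⟨c, hc⟩ := hχ x
    obtain ⟨d, hd⟩ := hχ y
    apply Pt.ext'
    rw [smul_val, smul_val, map_mul, map_mul, mat_mul, mat_mul, ← Matrix.mulVec_mulVec,
      ← Matrix.mulVec_mulVec, hc, hd, Matrix.mulVec_smul, Matrix.mulVec_smul, hc, hd,
      smul_smul, smul_smul, mul_comm]
  have hle : commutator (SU 2 F q) ≤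
      Subgroup.comap ρ (MulAction.stabilizer (SU 3 F q) w) := by
    rw [commutator_def, Subgroup.commutator_le]
    intro x _ y _
    rw [Subgroup.mem_comap, MulAction.mem_stabilizer_iff, commutatorElement_def]
    have h3 := hcom (x * y) (x⁻¹ * y⁻¹)
    have h4 : x * y * x⁻¹ * y⁻¹ = x * y * (x⁻¹ * y⁻¹) := by group
    have h5 := hcom x⁻¹ y⁻¹
    have h6 : ρ (x⁻¹ * y⁻¹) • w = ρ ((x * y)⁻¹) • w := by
      rw [h5, _root_.mul_inv_rev]
    rw [h4, map_mul, mul_smul, h6, ← mul_smul, ← map_mul, mul_inv_cancel, map_one, one_smul]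
  intro x
  have hx : x ∈ commutator (SU 2 F q) := by rw [hperf]; trivial
  have := hle hx
  rwa [Subgroup.mem_comap, MulAction.mem_stabilizer_iff] at this

/-- `SU 2` is perfect for `q ≥ 4`. -/
theorem commutator_su2 (hF : Fintype.card F = q ^ 2) (hq : 4 ≤ q) :
    commutator (SU 2 F q) = ⊤ := by
  classical
  obtain ⟨P, Q, hPQ, hQP, θ, hθ⟩ := exists_model hF
  have : Fintype (fixedField hF) := Fintype.ofFinite _
  have hcard : 3 < Fintype.card (fixedField hF) := by
    rw [← Nat.card_eq_fintype_card, card_fixedField]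
    omega
  have h1 := TwoFusion.SLTwoFacts.commutator_eq_top hcard
  have h2 := Subgroup.map_commutator (⊤ : Subgroup (SpecialLinearGroup (Fin 2) (fixedField hF))) ⊤
    θ.toMonoidHom
  rw [← commutator_def, h1, Subgroup.map_top_of_surjective θ.toMonoidHom θ.surjective,
    ← commutator_def] at h2
  exact h2.symm

/-- **Every `SU 2` in `SU 3` fixes a vector of norm one.** -/
theorem exists_fixed (hF : Fintype.card F = q ^ 2) (hq : 4 ≤ q)
    (ρ : SU 2 F q →* SU 3 F q) (hρ : Function.Injective ρ) :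
    ∃ w : Pt 3 F q, ∀ x, ρ x • w = w := by
  classical
  by_cases h2 : (2 : F) = 0
  · obtain ⟨P, Q, hPQ, hQP, θ, hθ⟩ := exists_model hF
    have : Fintype (fixedField hF) := Fintype.ofFinite _
    have hK2 : (2 : fixedField hF) = 0 := by
      apply Subtype.ext
      exact h2
    obtain ⟨w, hw⟩ := exists_fixed_even hF h2 hK2 (ρ.comp θ.toMonoidHom)
      (hρ.comp θ.injective)
    refine ⟨w, fun x => ?_⟩
    have := hw (θ.symm x)
    rw [MonoidHom.comp_apply] at this
    change ρ (θ (θ.symm x)) • w = w at this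
    rwa [MulEquiv.apply_symm_apply] at this
  · exact exists_fixed_odd hF h2 ρ hρ (commutator_su2 hF hq)

/-- The stabiliser of a vector has the order of `SU 2`. -/
theorem card_stabilizer (hF : Fintype.card F = q ^ 2) (w : Pt 3 F q) :
    Nat.card (MulAction.stabilizer (SU 3 F q) w) = Nat.card (SU 2 F q) := by
  obtain ⟨g, rfl⟩ := exists_su_smul hF (e0 2 F q) w
  have h1 : Nat.card (MulAction.stabilizer (SU 3 F q) (g • e0 2 F q)) =
      Nat.card (MulAction.stabilizer (SU 3 F q) (e0 2 F q)) :=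
    Nat.card_congr (MulAction.stabilizerEquivStabilizer rfl).symm.toEquiv
  rw [h1]
  have h2 : MulAction.stabilizer (SU 3 F q) (e0 2 F q) =
      (emb hF 1 (by omega : 1 + 2 ≤ 2 + 1) : SU 2 F q →* SU 3 F q).range := by
    ext x
    rw [MulAction.mem_stabilizer_iff]
    constructor
    · intro hx
      obtain ⟨k, hk⟩ := exists_emb_of_fix hF x hx
      exact ⟨k, hk⟩
    · rintro ⟨k, rfl⟩
      exact emb_one_e0 hF k
  rw [h2]
  exact Nat.card_congr (MonoidHom.ofInjective (emb_injective hF _ _)).symm.toEquiv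

/-- An injective image of `SU 2` fixing `w` is the stabiliser of `w`. -/
theorem range_eq_stabilizer (hF : Fintype.card F = q ^ 2) (ρ : SU 2 F q →* SU 3 F q)
    (hρ : Function.Injective ρ) (w : Pt 3 F q) (hw : ∀ x, ρ x • w = w) :
    ρ.range = MulAction.stabilizer (SU 3 F q) w := by
  have := finite_SU (F := F) (q := q) 3
  apply Subgroup.eq_of_le_of_card_ge
  · rintro _ ⟨x, rfl⟩
    exact MulAction.mem_stabilizer_iff.2 (hw x)
  · rw [card_stabilizer hF]
    exact le_of_eq (Nat.card_congr (MonoidHom.ofInjective hρ).toEquiv)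

end Cfsg.Agent.H433
end

-- part: H433/Torus
section
/-!
# Two `SU 2` of `SU 3` with commuting tori form a standard pair
-/

set_option autoImplicit false

namespace Cfsg.Agent.H433

open Matrix Cfsg
open Cfsg.Agent.LieClassical.HermBasic
open Cfsg.Agent.Phan

variable {F : Type*} [Field F] {q : ℕ} [Fintype F]

/-- an element of `SU 2` of order dividing `q + 1` without fixed vectors -/
theorem su2_no_fixed (hF : Fintype.card F = q ^ 2) (x : SU 2 F q) (hx : x ^ (q + 1) = 1)
    (hx1 : x ≠ 1) (v : Fin 2 → F) (hv : mat x *ᵥ v = v) : v = 0 := by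
  by_contra hv0
  apply hx1
  -- `det (x - 1) = 0`
  have h1 : (mat x - 1).det = 0 := by
    rw [← Matrix.exists_mulVec_eq_zero_iff]
    exact ⟨v, hv0, by rw [Matrix.sub_mulVec, Matrix.one_mulVec, hv, sub_self]⟩
  have hdet := mat_det x
  rw [Matrix.det_fin_two] at h1 hdet
  simp only [Matrix.sub_apply, Matrix.one_apply_eq] at h1
  rw [Matrix.one_apply_ne (by decide), Matrix.one_apply_ne (by decide)] at h1
  have htr : mat x 0 0 + mat x 1 1 = 2 := by linear_combination hdet - h1
  -- `(x - 1)² = 0`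
  set N := mat x - 1 with hN
  have n00 : N 0 0 = mat x 0 0 - 1 := by rw [hN]; simp
  have n01 : N 0 1 = mat x 0 1 := by rw [hN]; simp
  have n10 : N 1 0 = mat x 1 0 := by rw [hN]; simp
  have n11 : N 1 1 = mat x 1 1 - 1 := by rw [hN]; simp
  have hNN : N * N = 0 := by
    have e : ∀ i j, (N * N) i j = N i 0 * N 0 j + N i 1 * N 1 j := by
      intro i j; rw [Matrix.mul_apply, Fin.sum_univ_two]
    have e00 : (N * N) 0 0 = 0 := by
      rw [e, n00, n01, n10]
      linear_combination (mat x 0 0) * htr - hdet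
    have e01 : (N * N) 0 1 = 0 := by
      rw [e, n00, n01, n11]
      linear_combination (mat x 0 1) * htr
    have e10 : (N * N) 1 0 = 0 := by
      rw [e, n00, n11, n10]
      linear_combination (mat x 1 0) * htr
    have e11 : (N * N) 1 1 = 0 := by
      rw [e, n11, n01, n10]
      linear_combination (mat x 1 1) * htr - hdet
    ext i j
    rw [Matrix.zero_apply]
    fin_cases i <;> fin_cases j
    · exact e00
    · exact e01
    · exact e10
    · exact e11
  have hx' : mat x = 1 + N := by rw [hN]; abel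
  have hpow : ∀ k : ℕ, mat (x ^ k) = 1 + (k : F) • N := by
    intro k
    induction k with
    | zero => rw [pow_zero, mat_one]; simp
    | succ k ih =>
      rw [pow_succ, mat_mul, ih, hx', Matrix.add_mul, Matrix.mul_add, Matrix.mul_add,
        Matrix.one_mul, Matrix.one_mul, Matrix.mul_one, Matrix.smul_mul, hNN, smul_zero, add_zero]
      push_cast
      rw [add_smul, one_smul]
      abel
  have h3 := hpow (q + 1)
  rw [hx, mat_one] at h3
  have hq0 : ((q : ℕ) : F) = 0 := by
    have : ((Fintype.card F : ℕ) : F) = 0 := FiniteField.cast_card_eq_zero F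
    rw [hF] at this
    push_cast at this
    exact pow_eq_zero_iff (two_ne_zero) |>.1 this
  push_cast at h3
  rw [hq0, zero_add, one_smul] at h3
  apply mat_inj
  rw [mat_one, hx', ← h3]

/-- an element of `SU 3` of order dividing `q + 1` fixing a unit vector has no other fixed vectors -/
theorem su3_fixed (hF : Fintype.card F = q ^ 2) (x : SU 3 F q) (hx : x ^ (q + 1) = 1)
    (hx1 : x ≠ 1) (w : Pt 3 F q) (hw : x • w = w) (v : Fin 3 → F) (hv : mat x *ᵥ v = v) :
    ∃ c : F, v = c • w.val := by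
  obtain ⟨g, hg⟩ := exists_su_smul hF (e0 2 F q) w
  obtain ⟨k, hk⟩ := exists_emb_of_fix hF (g⁻¹ * x * g) (by
    rw [mul_smul, mul_smul, hg, hw, ← hg, inv_smul_smul])
  have hkk : k ^ (q + 1) = 1 := by
    apply emb_injective hF 1 (by omega : 1 + 2 ≤ 2 + 1)
    rw [map_pow, hk, map_one]
    have : g⁻¹ * x * g = g⁻¹ * x * (g⁻¹)⁻¹ := by rw [inv_inv]
    rw [this, conj_pow, hx]
    group
  have hk1 : k ≠ 1 := by
    rintro rfl
    rw [map_one] at hk
    apply hx1
    calc x = g * (g⁻¹ * x * g) * g⁻¹ := by group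
      _ = 1 := by rw [← hk]; group
  set v' := mat g⁻¹ *ᵥ v with hv'
  have hgv : mat g *ᵥ v' = v := by
    rw [hv', Matrix.mulVec_mulVec, mat_mul_inv, Matrix.one_mulVec]
  have h3 : mat (g⁻¹ * x * g) *ᵥ v' = v' := by
    rw [mat_mul, mat_mul, ← Matrix.mulVec_mulVec, ← Matrix.mulVec_mulVec, hgv, hv, hv']
  rw [← hk, emb_one_mulVec] at h3
  have h4 : mat k *ᵥ (fun j : Fin 2 => v' j.succ) = fun j => v' j.succ := by
    funext j
    have h5 := congrFun h3 j.succ
    rwa [Fin.cons_succ] at h5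
  have h5 := su2_no_fixed hF k hkk hk1 _ h4
  refine ⟨v' 0, ?_⟩
  have h6 : v' = v' 0 • (e0 2 F q).val := by
    funext i
    refine Fin.cases ?_ (fun i => ?_) i
    · rw [Pi.smul_apply, e0_val, Pi.single_eq_same, smul_eq_mul, mul_one]
    · rw [Pi.smul_apply, e0_val, Pi.single_eq_of_ne (Fin.succ_ne_zero i), smul_zero]
      exact congrFun h5 i
  rw [← hgv, ← hg, smul_val, ← Matrix.mulVec_smul, ← h6]

/-- the stabiliser of the last basis vector -/
theorem range_emb_zero (hF : Fintype.card F = q ^ 2) :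
    (emb hF 0 (by omega : 0 + 2 ≤ 3) : SU 2 F q →* SU 3 F q).range =
      MulAction.stabilizer (SU 3 F q) (pe 3 F q 2) :=
  range_eq_stabilizer hF _ (emb_injective hF _ _) _
    (fun x => emb_smul_pe hF 0 _ x (Or.inr (by decide)))

theorem range_emb_one (hF : Fintype.card F = q ^ 2) :
    (emb hF 1 (by omega : 1 + 2 ≤ 3) : SU 2 F q →* SU 3 F q).range =
      MulAction.stabilizer (SU 3 F q) (e0 2 F q) :=
  range_eq_stabilizer hF _ (emb_injective hF _ _) _ (fun x => emb_one_e0 hF x)

/-- moving two perpendicular unit vectors to the basis -/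
theorem exists_frame_two (hF : Fintype.card F = q ^ 2) (w w' : Pt 3 F q)
    (h : hermForm 3 F q w.val w'.val = 0) :
    ∃ g : SU 3 F q, g • e0 2 F q = w ∧ g • pe 3 F q 2 = w' := by
  obtain ⟨g, hg⟩ := exists_su_smul hF (e0 2 F q) w
  set v := g⁻¹ • w' with hv
  have hgv : g • v = w' := by rw [hv, smul_inv_smul]
  have hv0 : v.val 0 = 0 := by
    have h1 : hermForm 3 F q (e0 2 F q).val v.val = 0 := by
      rw [← mat_isom g, ← smul_val, ← smul_val, hg, hgv, h]
    rw [herm_e0_left] at h1
    exact (pow_q_eq_zero hF).1 h1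
  have hvn := norm_eq_head hF v
  rw [hv0, zero_mul, zero_add] at hvn
  obtain ⟨k, hk⟩ := exists_su_map hF (n := 0) (u := Pi.single 1 1)
    (v := fun j : Fin 2 => v.val j.succ) (by
      rw [herm_single_left, Pi.single_eq_same, one_pow, mul_one]; exact hvn.symm) (by
      rw [herm_single_left, Pi.single_eq_same, one_pow, mul_one]; exact one_ne_zero)
  refine ⟨g * emb hF 1 (by omega : 1 + 2 ≤ 2 + 1) k, ?_, ?_⟩
  · rw [mul_smul, emb_one_e0, hg]
  · rw [mul_smul, ← hgv]
    congr 1
    apply Pt.ext'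
    rw [smul_val, emb_one_mulVec]
    have h1 : (fun j : Fin 2 => (pe 3 F q 2).val j.succ) = Pi.single 1 1 := by
      funext j
      change (Pi.single (2 : Fin 3) (1 : F) : Fin 3 → F) j.succ = _
      fin_cases j
      · simp
      · simp only [Fin.mk_one, Pi.single_eq_same]
        exact Pi.single_eq_same (M := fun _ => F) (2 : Fin 3) 1
    have h2 : (pe 3 F q 2).val 0 = 0 := by
      change (Pi.single (2 : Fin 3) (1 : F) : Fin 3 → F) 0 = 0
      exact Pi.single_eq_of_ne (by decide) 1
    rw [h1, hk, h2]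
    funext i
    refine Fin.cases ?_ (fun i => ?_) i
    · rw [Fin.cons_zero, hv0]
    · rw [Fin.cons_succ]

/-- **Two `SU 2` with commuting tori.** -/
theorem exists_psi (hF : Fintype.card F = q ^ 2) (hq : 4 ≤ q) {G : Type*} [Group G]
    {A B : Subgroup G} (eA : SU 2 F q ≃* A) (eB : SU 2 F q ≃* B)
    (ε : ↥(A ⊔ B) ≃* SU 3 F q) {a b : G} (ha : a ∈ A) (hb : b ∈ B) (haq : a ^ (q + 1) = 1)
    (hbq : b ^ (q + 1) = 1) (ha1 : a ≠ 1) (hb1 : b ≠ 1) (hab : a * b = b * a) :
    ∃ ψ : SU 3 F q →* G, Function.Injective ψ ∧ ψ.range = A ⊔ B ∧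
      (ψ.comp (emb hF 0 (by omega : 0 + 2 ≤ 3))).range = A ∧
      (ψ.comp (emb hF 1 (by omega : 1 + 2 ≤ 3))).range = B := by
  -- the two subgroups of `SU 3`
  set ρA : SU 2 F q →* SU 3 F q := (ε.toMonoidHom.comp (Subgroup.inclusion le_sup_left)).comp
    eA.toMonoidHom with hρA
  set ρB : SU 2 F q →* SU 3 F q := (ε.toMonoidHom.comp (Subgroup.inclusion le_sup_right)).comp
    eB.toMonoidHom with hρB
  have hAi : Function.Injective ρA :=
    (ε.injective.comp (Subgroup.inclusion_injective le_sup_left)).comp eA.injective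
  have hBi : Function.Injective ρB :=
    (ε.injective.comp (Subgroup.inclusion_injective le_sup_right)).comp eB.injective
  obtain ⟨wA, hwA⟩ := exists_fixed hF hq ρA hAi
  obtain ⟨wB, hwB⟩ := exists_fixed hF hq ρB hBi
  have hrA := range_eq_stabilizer hF ρA hAi wA hwA
  have hrB := range_eq_stabilizer hF ρB hBi wB hwB
  have haS : a ∈ A ⊔ B := Subgroup.mem_sup_left ha
  have hbS : b ∈ A ⊔ B := Subgroup.mem_sup_right hb
  -- membership
  have hmemA : ∀ x : ↥(A ⊔ B), ε x ∈ MulAction.stabilizer (SU 3 F q) wA ↔ (x : G) ∈ A := by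
    intro x
    rw [← hrA]
    constructor
    · rintro ⟨y, hy⟩
      have h1 : ε (Subgroup.inclusion le_sup_left (eA y)) = ε x := hy
      have h2 := ε.injective h1
      rw [← h2]
      exact (eA y).2
    · intro hx
      refine ⟨eA.symm ⟨x, hx⟩, ?_⟩
      change ε (Subgroup.inclusion le_sup_left (eA (eA.symm ⟨x, hx⟩))) = ε x
      rw [MulEquiv.apply_symm_apply]
      rfl
  have hmemB : ∀ x : ↥(A ⊔ B), ε x ∈ MulAction.stabilizer (SU 3 F q) wB ↔ (x : G) ∈ B := by
    intro x
    rw [← hrB]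
    constructor
    · rintro ⟨y, hy⟩
      have h1 : ε (Subgroup.inclusion le_sup_right (eB y)) = ε x := hy
      have h2 := ε.injective h1
      rw [← h2]
      exact (eB y).2
    · intro hx
      refine ⟨eB.symm ⟨x, hx⟩, ?_⟩
      change ε (Subgroup.inclusion le_sup_right (eB (eB.symm ⟨x, hx⟩))) = ε x
      rw [MulEquiv.apply_symm_apply]
      rfl
  set a' : SU 3 F q := ε ⟨a, haS⟩ with ha'
  set b' : SU 3 F q := ε ⟨b, hbS⟩ with hb'
  have haw : a' • wA = wA := MulAction.mem_stabilizer_iff.1 ((hmemA ⟨a, haS⟩).2 ha)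
  have hbw : b' • wB = wB := MulAction.mem_stabilizer_iff.1 ((hmemB ⟨b, hbS⟩).2 hb)
  have haq' : a' ^ (q + 1) = 1 := by
    rw [ha', ← map_pow]
    have : (⟨a, haS⟩ : ↥(A ⊔ B)) ^ (q + 1) = 1 := Subtype.ext haq
    rw [this, map_one]
  have hbq' : b' ^ (q + 1) = 1 := by
    rw [hb', ← map_pow]
    have : (⟨b, hbS⟩ : ↥(A ⊔ B)) ^ (q + 1) = 1 := Subtype.ext hbq
    rw [this, map_one]
  have ha1' : a' ≠ 1 := by
    intro h
    apply ha1
    have : (⟨a, haS⟩ : ↥(A ⊔ B)) = 1 := ε.injective (by rw [← ha', h, map_one])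
    exact congrArg Subtype.val this
  have hb1' : b' ≠ 1 := by
    intro h
    apply hb1
    have : (⟨b, hbS⟩ : ↥(A ⊔ B)) = 1 := ε.injective (by rw [← hb', h, map_one])
    exact congrArg Subtype.val this
  have hab' : a' * b' = b' * a' := by
    rw [ha', hb', ← map_mul, ← map_mul]
    congr 1
    exact Subtype.ext hab
  have haw' : mat a' *ᵥ wA.val = wA.val := congrArg Pt.val haw
  have hbw' : mat b' *ᵥ wB.val = wB.val := congrArg Pt.val hbw
  -- `b'` preserves the line of `wA`
  obtain ⟨lam, hlam⟩ := su3_fixed hF a' haq' ha1' wA haw (mat b' *ᵥ wA.val) (by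
    rw [Matrix.mulVec_mulVec, ← mat_mul, hab', mat_mul, ← Matrix.mulVec_mulVec, haw'])
  have hperp : hermForm 3 F q wB.val wA.val = 0 := by
    by_cases hl : lam = 1
    · exfalso
      rw [hl, one_smul] at hlam
      obtain ⟨c, hc⟩ := su3_fixed hF b' hbq' hb1' wB hbw _ hlam
      -- the stabilisers are equal
      have hc0 : c ≠ 0 := by
        rintro rfl
        have h1 := wA.norm
        rw [hc, zero_smul, herm_zero_left] at h1
        exact zero_ne_one h1
      have hst : ∀ x : SU 3 F q, x • wA = wA ↔ x • wB = wB := by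
        intro x
        constructor
        · intro hx
          have h1 : mat x *ᵥ wA.val = wA.val := congrArg Pt.val hx
          rw [hc, Matrix.mulVec_smul] at h1
          apply Pt.ext'
          rw [smul_val]
          exact smul_right_injective _ hc0 h1
        · intro hx
          have h1 : mat x *ᵥ wB.val = wB.val := congrArg Pt.val hx
          apply Pt.ext'
          rw [smul_val, hc, Matrix.mulVec_smul, h1]
      have hAB : A = B := by
        apply le_antisymm
        · intro x hx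
          have hxS : x ∈ A ⊔ B := Subgroup.mem_sup_left hx
          rw [← hmemB ⟨x, hxS⟩, MulAction.mem_stabilizer_iff, ← hst,
            ← MulAction.mem_stabilizer_iff, hmemA]
          exact hx
        · intro x hx
          have hxS : x ∈ A ⊔ B := Subgroup.mem_sup_right hx
          rw [← hmemA ⟨x, hxS⟩, MulAction.mem_stabilizer_iff, hst,
            ← MulAction.mem_stabilizer_iff, hmemB]
          exact hx
      -- then every element of `SU 3` fixes `wA`
      have hall : ∀ y : SU 3 F q, y • wA = wA := by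
        intro y
        rw [← MulAction.mem_stabilizer_iff, ← ε.apply_symm_apply y, hmemA]
        have h1 : A ⊔ B ≤ A := by rw [← hAB, sup_idem]
        exact h1 (ε.symm y).2
      obtain ⟨g, hg⟩ := exists_su_smul hF (n := 1) wA (e0 2 F q)
      obtain ⟨g', hg'⟩ := exists_su_smul hF (n := 1) wA (pe 3 F q 2)
      rw [hall] at hg hg'
      rw [hg] at hg'
      have h1 := congrFun (congrArg Pt.val hg') 0
      have h2 : (pe 3 F q 2).val 0 = 0 := by
        change (Pi.single (2 : Fin 3) (1 : F) : Fin 3 → F) 0 = 0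
        exact Pi.single_eq_of_ne (by decide) 1
      rw [h2, e0_val, Pi.single_eq_same] at h1
      exact one_ne_zero h1
    · have h1 := mat_isom b' wA.val wB.val
      rw [hlam, hbw', herm_smul_left] at h1
      apply herm_eq_zero_swap hF
      have h2 : (lam - 1) * hermForm 3 F q wA.val wB.val = 0 := by linear_combination h1
      exact (mul_eq_zero.1 h2).resolve_left (sub_ne_zero.2 hl)
  obtain ⟨g, hgB, hgA⟩ := exists_frame_two hF wB wA hperp
  set ψ : SU 3 F q →* G := ((A ⊔ B).subtype.comp ε.symm.toMonoidHom).comp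
    (MulAut.conj g).toMonoidHom with hψ
  have hψa : ∀ x, ψ x = ((ε.symm (g * x * g⁻¹) : ↥(A ⊔ B)) : G) := fun x => rfl
  have hsymm : ∀ x : SU 3 F q, ε (ε.symm x) = x := ε.apply_symm_apply
  refine ⟨ψ, ?_, ?_, ?_, ?_⟩
  · intro x y hxy
    rw [hψa, hψa] at hxy
    have h1 := ε.symm.injective (Subtype.ext hxy)
    exact mul_left_cancel (mul_right_cancel h1)
  · ext x
    constructor
    · rintro ⟨y, rfl⟩
      exact (ε.symm (g * y * g⁻¹)).2
    · intro hx
      refine ⟨g⁻¹ * ε ⟨x, hx⟩ * g, ?_⟩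
      rw [hψa]
      have : g * (g⁻¹ * ε ⟨x, hx⟩ * g) * g⁻¹ = ε ⟨x, hx⟩ := by group
      rw [this, MulEquiv.symm_apply_apply]
  · rw [MonoidHom.range_comp, range_emb_zero hF]
    ext x
    constructor
    · rintro ⟨y, hy, rfl⟩
      rw [hψa, ← hmemA, hsymm, MulAction.mem_stabilizer_iff, ← hgA, mul_smul, mul_smul,
        inv_smul_smul]
      congr 1
    · intro hx
      have hxS : x ∈ A ⊔ B := Subgroup.mem_sup_left hx
      refine ⟨g⁻¹ * ε ⟨x, hxS⟩ * g, ?_, ?_⟩
      · have h1 := (hmemA ⟨x, hxS⟩).2 hx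
        rw [MulAction.mem_stabilizer_iff] at h1
        change _ ∈ MulAction.stabilizer (SU 3 F q) (pe 3 F q 2)
        rw [MulAction.mem_stabilizer_iff, mul_smul, mul_smul, hgA, h1, ← hgA, inv_smul_smul]
      · rw [hψa]
        have : g * (g⁻¹ * ε ⟨x, hxS⟩ * g) * g⁻¹ = ε ⟨x, hxS⟩ := by group
        rw [this, MulEquiv.symm_apply_apply]
  · rw [MonoidHom.range_comp, range_emb_one hF]
    ext x
    constructor
    · rintro ⟨y, hy, rfl⟩
      rw [hψa, ← hmemB, hsymm, MulAction.mem_stabilizer_iff, ← hgB, mul_smul, mul_smul,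
        inv_smul_smul]
      congr 1
    · intro hx
      have hxS : x ∈ A ⊔ B := Subgroup.mem_sup_right hx
      refine ⟨g⁻¹ * ε ⟨x, hxS⟩ * g, ?_, ?_⟩
      · have h1 := (hmemB ⟨x, hxS⟩).2 hx
        rw [MulAction.mem_stabilizer_iff] at h1
        change _ ∈ MulAction.stabilizer (SU 3 F q) (e0 2 F q)
        rw [MulAction.mem_stabilizer_iff, mul_smul, mul_smul, hgB, h1, ← hgB, inv_smul_smul]
      · rw [hψa]
        have : g * (g⁻¹ * ε ⟨x, hxS⟩ * g) * g⁻¹ = ε ⟨x, hxS⟩ := by group
        rw [this, MulEquiv.symm_apply_apply]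

end Cfsg.Agent.H433
end

-- part: S3708
section
set_option autoImplicit false
open Cfsg

namespace Cfsg.Agent.S3708

open Cfsg.Agent.Phan Cfsg.Agent.H433

/-- Phan's recognition of unitary groups. Let F be a finite field with q² elements, q > 4, and n ≥ 2. Let G be a group generated by subgroups U_0, …, U_{n−1}, each isomorphic to the special unitary group SU(2, q²) (determinant-one isometries of the standard Hermitian form in two variables over F), and let D_i ≤ U_i be cyclic subgroups of order q + 1. Suppose that U_i and U_j commute elementwise whenever the indices differ by at least 2, that the subgroup generated by U_i and U_{i+1} is isomorphic to SU(3, q²) for each i, and that D_i and D_j commute elementwise for all i, j. Then G is a homomorphic image of SU(n+1, q²). (Generation of G by the U_i is part of the hypothesis; G is not assumed finite.) -/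
theorem result {G : Type*} [Group G] (n : ℕ) (hn : 2 ≤ n)
    (F : Type*) [Field F] [Fintype F] (q : ℕ) (hq : 4 < q) (hF : Fintype.card F = q ^ 2)
    (U : Fin n → Subgroup G) (e : ∀ i, ↥(Cfsg.SU 2 F q) ≃* ↥(U i)) (hgen : ⨆ i, U i = ⊤)
    (D : Fin n → Subgroup G) (hD : ∀ i, D i ≤ U i ∧ IsCyclic ↥(D i) ∧ Nat.card ↥(D i) = q + 1)
    (h1 : ∀ i j : Fin n, (i : ℕ) + 2 ≤ j → ∀ x ∈ U i, ∀ y ∈ U j, x * y = y * x)
    (h2 : ∀ i j : Fin n, (i : ℕ) + 1 = j → Nonempty (↥(U i ⊔ U j) ≃* ↥(Cfsg.SU 3 F q)))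
    (h3 : ∀ i j : Fin n, i ≠ j → ∀ x ∈ D i, ∀ y ∈ D j, x * y = y * x) :
    ∃ f : ↥(Cfsg.SU (n + 1) F q) →* G, Function.Surjective f := by
  obtain ⟨m, rfl⟩ : ∃ m, n = m + 2 := ⟨n - 2, by omega⟩
  -- generators of the tori
  have hgenD : ∀ i, ∃ d : G, d ∈ D i ∧ d ^ (q + 1) = 1 ∧ d ≠ 1 := by
    intro i
    obtain ⟨-, hc, hcard⟩ := hD i
    obtain ⟨d, hd⟩ := hc.exists_generator
    have ho : orderOf d = q + 1 := by
      rw [← hcard]
      exact orderOf_eq_card_of_forall_mem_zpowers hd
    refine ⟨d, d.2, ?_, ?_⟩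
    · have h := pow_orderOf_eq_one d
      rw [ho] at h
      exact congrArg Subtype.val h
    · intro h
      have h' : d = 1 := Subtype.ext h
      rw [h', orderOf_one] at ho
      omega
  have key : ∀ k : ℕ, ∃ ψ : SU 3 F q →* G, ∀ hk : k + 1 < m + 2,
      ψ.ker ≤ Subgroup.center (SU 3 F q) ∧
      (ψ.comp (emb hF 0 (by omega : 0 + 2 ≤ 3))).range = U ⟨k, by omega⟩ ∧
      (ψ.comp (emb hF 1 (by omega : 1 + 2 ≤ 3))).range = U ⟨k + 1, hk⟩ := by
    intro k
    by_cases hk : k + 1 < m + 2
    · obtain ⟨ε⟩ := h2 ⟨k, by omega⟩ ⟨k + 1, hk⟩ rfl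
      obtain ⟨a, ha, haq, ha1⟩ := hgenD ⟨k, by omega⟩
      obtain ⟨b, hb, hbq, hb1⟩ := hgenD ⟨k + 1, hk⟩
      obtain ⟨ψ, hi, -, c, d⟩ := exists_psi hF (by omega) (e ⟨k, by omega⟩) (e ⟨k + 1, hk⟩) ε
        ((hD _).1 ha) ((hD _).1 hb) haq hbq ha1 hb1
        (h3 _ _ (by intro h; have := congrArg Fin.val h; simp at this) a ha b hb)
      refine ⟨ψ, fun _ => ⟨?_, c, d⟩⟩
      rw [(MonoidHom.ker_eq_bot_iff ψ).2 hi]
      exact bot_le
    · exact ⟨1, fun h => absurd h hk⟩
  choose ψ hψ using key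
  have hU : ∀ (k a : ℕ) (hk : k + 1 < m + 2) (ha : a + 2 ≤ 3) (x : SU 2 F q),
      ψ k (emb hF a ha x) ∈ U ⟨k + a, by omega⟩ := by
    intro k a hk ha x
    obtain ⟨-, c, d⟩ := hψ k hk
    obtain rfl | rfl : a = 0 ∨ a = 1 := by omega
    · have : ψ k (emb hF 0 ha x) ∈ U ⟨k, by omega⟩ := by
        rw [← c]
        exact ⟨x, rfl⟩
      exact this
    · rw [← d]
      exact ⟨x, rfl⟩
  obtain ⟨Φ, hΦ⟩ := exists_hom_of_chain hF (by omega) (n := m) ψ
    (fun k hk => (hψ k (by omega)).1)
    (fun k hk => by rw [(hψ k (by omega)).2.2, (hψ (k + 1) (by omega)).2.1])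
    (fun i j a b hi hj ha hb hij x y => h1 ⟨i + a, by omega⟩ ⟨j + b, by omega⟩ hij _
      (hU i a (by omega) ha x) _ (hU j b (by omega) hb y))
  refine ⟨Φ, ?_⟩
  rw [← MonoidHom.range_eq_top, eq_top_iff, ← hgen, iSup_le_iff]
  intro i
  by_cases hi : (i : ℕ) + 1 < m + 2
  · refine le_trans ?_ (hΦ i (by omega))
    have : U i = ((ψ i).comp (emb hF 0 (by omega : 0 + 2 ≤ 3))).range := (hψ i hi).2.1.symm
    rw [this, MonoidHom.range_comp]
    exact Subgroup.map_le_range _ _
  · have hi' : (i : ℕ) = m + 1 := by omega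
    refine le_trans ?_ (hΦ m (by omega))
    have : U i = ((ψ m).comp (emb hF 1 (by omega : 1 + 2 ≤ 3))).range := by
      rw [(hψ m (by omega)).2.2]
      congr 1
      exact Fin.ext hi'
    rw [this, MonoidHom.range_comp]
    exact Subgroup.map_le_range _ _

end Cfsg.Agent.S3708
end
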