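import Cfsg.Statements.S3709
import Cfsg.Agent.H433.Pair
set_option linter.all false

set_option autoImplicit false
open Cfsg

namespace Cfsg.Agent.S3709

open Cfsg.Agent.Phan Cfsg.Agent.H433

/-- Recognition of unitary groups from a weak Phan system. Let F be a finite field with q² elements, q > 3, and n ≥ 3. Let G be a group with subgroups U_0, …, U_{n−1}, each isomorphic to SU(2, q²), and, for each pair of consecutive indices, a subgroup V_{i,i+1} in which U_i and U_{i+1} form a standard pair (some isomorphism from SU(3, q²), or from its central quotient PSU(3, q²), onto V_{i,i+1} carries the two block-diagonal SU(2, q²) subgroups, or their images, onto U_i and U_{i+1}). Suppose that U_i and U_j commute elementwise whenever the indices differ by at least 2, and that G is generated by the U_i together with the V_{i,i+1}. Then G is a homomorphic image of SU(n+1, q²). (G is not assumed finite.) -/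
theorem result {G : Type*} [Group G] (n : ℕ) (hn : 3 ≤ n)
    (F : Type*) [Field F] [Fintype F] (q : ℕ) (hq : 3 < q) (hF : Fintype.card F = q ^ 2)
    (U : Fin n → Subgroup G) (e : ∀ i, ↥(Cfsg.SU 2 F q) ≃* ↥(U i))
    (V : Fin n → Fin n → Subgroup G)
    (h1 : ∀ i j : Fin n, (i : ℕ) + 2 ≤ j → ∀ x ∈ U i, ∀ y ∈ U j, x * y = y * x)
    (h2 : ∀ i j : Fin n, (i : ℕ) + 1 = j → Cfsg.IsStandardUnitaryPair (V i j) (U i) (U j) F q)
    (hgen : (⨆ i, U i) ⊔ (⨆ (i : Fin n) (j : Fin n) (_ : (i : ℕ) + 1 = j), V i j) = ⊤) :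
    ∃ f : ↥(Cfsg.SU (n + 1) F q) →* G, Function.Surjective f := by
  obtain ⟨m, rfl⟩ : ∃ m, n = m + 2 := ⟨n - 2, by omega⟩
  have key : ∀ k : ℕ, ∃ ψ : SU 3 F q →* G, ∀ hk : k + 1 < m + 2,
      ψ.ker ≤ Subgroup.center (SU 3 F q) ∧ ψ.range = V ⟨k, by omega⟩ ⟨k + 1, hk⟩ ∧
      (ψ.comp (emb hF 0 (by omega : 0 + 2 ≤ 3))).range = U ⟨k, by omega⟩ ∧
      (ψ.comp (emb hF 1 (by omega : 1 + 2 ≤ 3))).range = U ⟨k + 1, hk⟩ := by
    intro k
    by_cases hk : k + 1 < m + 2
    · obtain ⟨ψ, a, b, c, d⟩ := exists_of_pair hF (h2 ⟨k, by omega⟩ ⟨k + 1, hk⟩ rfl)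
      exact ⟨ψ, fun _ => ⟨a, b, c, d⟩⟩
    · exact ⟨1, fun h => absurd h hk⟩
  choose ψ hψ using key
  have hU : ∀ (k a : ℕ) (hk : k + 1 < m + 2) (ha : a + 2 ≤ 3) (x : SU 2 F q),
      ψ k (emb hF a ha x) ∈ U ⟨k + a, by omega⟩ := by
    intro k a hk ha x
    obtain ⟨-, -, c, d⟩ := hψ k hk
    obtain rfl | rfl : a = 0 ∨ a = 1 := by omega
    · have : ψ k (emb hF 0 ha x) ∈ U ⟨k, by omega⟩ := by
        rw [← c]
        exact ⟨x, rfl⟩
      exact this
    · rw [← d]
      exact ⟨x, rfl⟩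
  obtain ⟨Φ, hΦ⟩ := exists_hom_of_chain hF hq (n := m) ψ (fun k hk => (hψ k (by omega)).1)
    (fun k hk => by rw [(hψ k (by omega)).2.2.2, (hψ (k + 1) (by omega)).2.2.1])
    (fun i j a b hi hj ha hb hij x y => h1 ⟨i + a, by omega⟩ ⟨j + b, by omega⟩ hij _
      (hU i a (by omega) ha x) _ (hU j b (by omega) hb y))
  refine ⟨Φ, ?_⟩
  rw [← MonoidHom.range_eq_top, eq_top_iff, ← hgen, sup_le_iff]
  constructor
  · rw [iSup_le_iff]
    intro i
    by_cases hi : (i : ℕ) + 1 < m + 2
    · refine le_trans ?_ (hΦ i (by omega))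
      have : U i = ((ψ i).comp (emb hF 0 (by omega : 0 + 2 ≤ 3))).range := (hψ i hi).2.2.1.symm
      rw [this, MonoidHom.range_comp]
      exact Subgroup.map_le_range _ _
    · have hi' : (i : ℕ) = m + 1 := by omega
      refine le_trans ?_ (hΦ m (by omega))
      have : U i = ((ψ m).comp (emb hF 1 (by omega : 1 + 2 ≤ 3))).range := by
        rw [(hψ m (by omega)).2.2.2]
        congr 1
        exact Fin.ext hi'
      rw [this, MonoidHom.range_comp]
      exact Subgroup.map_le_range _ _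
  · rw [iSup_le_iff]
    intro i
    rw [iSup_le_iff]
    intro j
    rw [iSup_le_iff]
    intro hij
    refine le_trans ?_ (hΦ i (by omega))
    rw [(hψ i (by omega)).2.1]
    exact le_of_eq (congrArg (V i) (Fin.ext hij.symm))

end Cfsg.Agent.S3709
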