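import Cfsg.Agent.ClassicalGeometry.SympSiegel
import Cfsg.Agent.H434.Cover2
import Cfsg.Statements.S3713
set_option linter.all false

-- part: H434/SpBase
section
/-!
# Subgroups of the symplectic group fixing some hyperbolic pairs of the standard basis

`ee j`, `ff j` : the basis, `f (ee j) (ff j) = 1`. `GJ J` : the subgroup fixing `ee j`, `ff j` for `j ∈ J`; `InJ J v` : `v` is
orthogonal to these. Transitivity on nonzero vectors and on hyperbolic pairs over any field.
-/

set_option autoImplicit false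
open Cfsg
open scoped Matrix
open Cfsg.Agent.ClassicalGeometry.SympBasic Cfsg.Agent.ClassicalGeometry.SympSiegel

namespace Cfsg.Agent.H434.Slim

variable {F : Type*} [Field F] {n : ℕ}

local notation "V" => (Fin n ⊕ Fin n → F)
local notation "G" => Matrix.symplecticGroup (Fin n) F
local notation "f" => sympForm n F

/-- first half of the basis -/
def ee (j : Fin n) : V := Pi.single (Sum.inl j) 1

/-- second half of the basis, with a sign -/
def ff (j : Fin n) : V := -(Pi.single (Sum.inr j) 1)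

theorem form_ee (v : V) (j : Fin n) : f v (ee j) = v (Sum.inr j) := sympForm_single_inl_right j v

theorem form_ff (v : V) (j : Fin n) : f v (ff j) = v (Sum.inl j) := by
  rw [ff, sympForm_neg_right, sympForm_single_inr_right, neg_neg]

theorem ee_ee (i j : Fin n) : f (ee i) (ee j) = 0 := by
  rw [form_ee, ee, Pi.single_eq_of_ne (by simp)]

theorem ff_ff (i j : Fin n) : f (ff i) (ff j) = 0 := by
  rw [form_ff, ff, Pi.neg_apply, Pi.single_eq_of_ne (by simp), neg_zero]

theorem ee_ff_self (i : Fin n) : f (ee i) (ff i) = 1 := by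
  rw [form_ff, ee, Pi.single_eq_same]

theorem ee_ff_of_ne {i j : Fin n} (h : i ≠ j) : f (ee i) (ff j) = 0 := by
  rw [form_ff, ee, Pi.single_eq_of_ne]
  intro h'
  exact h (Sum.inl_injective h').symm

theorem ff_ee_self (i : Fin n) : f (ff i) (ee i) = -1 := by
  rw [sympForm_swap, ee_ff_self]

theorem ff_ee_of_ne {i j : Fin n} (h : i ≠ j) : f (ff i) (ee j) = 0 := by
  rw [sympForm_swap, ee_ff_of_ne (Ne.symm h), neg_zero]

theorem ee_ne_zero (j : Fin n) : (ee j : V) ≠ 0 := by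
  intro h
  have := ee_ff_self (F := F) j
  rw [h, sympForm_zero_left] at this
  exact zero_ne_one this

theorem ff_ne_zero (j : Fin n) : (ff j : V) ≠ 0 := by
  intro h
  have := ee_ff_self (F := F) j
  rw [h, sympForm_zero_right] at this
  exact zero_ne_one this

/-- expansion in the basis -/
theorem expand (v : V) : v = ∑ j : Fin n, (f v (ff j) • ee j - f v (ee j) • ff j) := by
  have h : ∀ j : Fin n, f v (ff j) • ee j - f v (ee j) • (ff j : V) =
      (Pi.single (Sum.inl j) (v (Sum.inl j)) : V) + (Pi.single (Sum.inr j) (v (Sum.inr j)) : V) := by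
    intro j
    rw [form_ee, form_ff, ee, ff, smul_neg, sub_neg_eq_add, ← Pi.single_smul, ← Pi.single_smul,
      smul_eq_mul, smul_eq_mul, mul_one, mul_one]
  rw [Finset.sum_congr rfl fun j _ => h j, Finset.sum_add_distrib]
  have h2 := Fintype.sum_sum_type (fun x : Fin n ⊕ Fin n => (Pi.single x (v x) : V))
  rw [← h2]
  exact (Finset.univ_sum_single v).symm

/-- The subgroup fixing the pairs with index in `J`. -/
def GJ (J : Fin n → Prop) : Subgroup G where
  carrier := {g | ∀ j, J j → g • (ee j : V) = ee j ∧ g • (ff j : V) = ff j}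
  mul_mem' := by
    intro a b ha hb j hj
    rw [mul_smul, mul_smul, (hb j hj).1, (hb j hj).2]
    exact ha j hj
  one_mem' := fun j _ => ⟨one_smul _ _, one_smul _ _⟩
  inv_mem' := by
    intro a ha j hj
    rw [inv_smul_eq_iff, inv_smul_eq_iff]
    exact ⟨(ha j hj).1.symm, (ha j hj).2.symm⟩

theorem mem_GJ {J : Fin n → Prop} {g : G} :
    g ∈ GJ J ↔ ∀ j, J j → g • (ee j : V) = ee j ∧ g • (ff j : V) = ff j := Iff.rfl

theorem GJ_mono {J J' : Fin n → Prop} (h : ∀ j, J j → J' j) : (GJ J' : Subgroup G) ≤ GJ J :=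
  fun _ hg j hj => hg j (h j hj)

/-- orthogonal to the pairs with index in `J` -/
def InJ (J : Fin n → Prop) (v : V) : Prop := ∀ j, J j → f v (ee j) = 0 ∧ f v (ff j) = 0

theorem InJ.add {J : Fin n → Prop} {u v : V} (hu : InJ J u) (hv : InJ J v) : InJ J (u + v) := by
  intro j hj
  rw [sympForm_add_left, sympForm_add_left, (hu j hj).1, (hv j hj).1, (hu j hj).2, (hv j hj).2]
  simp

theorem InJ.smul {J : Fin n → Prop} {u : V} (a : F) (hu : InJ J u) : InJ J (a • u) := by
  intro j hj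
  rw [sympForm_smul_left, sympForm_smul_left, (hu j hj).1, (hu j hj).2]
  simp

theorem InJ.neg {J : Fin n → Prop} {u : V} (hu : InJ J u) : InJ J (-u) := by
  intro j hj
  rw [sympForm_neg_left, sympForm_neg_left, (hu j hj).1, (hu j hj).2]
  simp

theorem InJ.sub {J : Fin n → Prop} {u v : V} (hu : InJ J u) (hv : InJ J v) : InJ J (u - v) := by
  rw [sub_eq_add_neg]
  exact hu.add hv.neg

theorem InJ.zero (J : Fin n → Prop) : InJ J (0 : V) := by
  intro j _
  simp

theorem InJ.mono {J J' : Fin n → Prop} (h : ∀ j, J j → J' j) {v : V} (hv : InJ J' v) : InJ J v :=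
  fun j hj => hv j (h j hj)

theorem InJ.act {J : Fin n → Prop} {g : G} (hg : g ∈ GJ J) {v : V} (hv : InJ J v) :
    InJ J (g • v) := by
  intro j hj
  obtain ⟨h1, h2⟩ := hg j hj
  have e1 := form_smul g v (ee j)
  have e2 := form_smul g v (ff j)
  rw [h1] at e1
  rw [h2] at e2
  rw [e1, e2]
  exact hv j hj

theorem inJ_ee {J : Fin n → Prop} {j : Fin n} (h : ¬ J j) : InJ J (ee j : V) := by
  intro i hi
  have hne : j ≠ i := by rintro rfl; exact h hi
  exact ⟨ee_ee _ _, ee_ff_of_ne hne⟩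

theorem inJ_ff {J : Fin n → Prop} {j : Fin n} (h : ¬ J j) : InJ J (ff j : V) := by
  intro i hi
  have hne : j ≠ i := by rintro rfl; exact h hi
  exact ⟨ff_ee_of_ne hne, ff_ff _ _⟩

/-- an element of `GJ J` fixes the vectors supported on `J` -/
theorem smul_eq_of_support {J : Fin n → Prop} {g : G} (hg : g ∈ GJ J) {v : V}
    (hv : ∀ j, ¬ J j → f v (ee j) = 0 ∧ f v (ff j) = 0) : g • v = v := by
  have key : ∀ s : Finset (Fin n), g • (∑ j ∈ s, (f v (ff j) • ee j - f v (ee j) • ff j)) =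
      ∑ j ∈ s, (f v (ff j) • ee j - f v (ee j) • (ff j : V)) := by
    intro s
    classical
    induction s using Finset.induction_on with
    | empty => rw [Finset.sum_empty, smul_zero']
    | insert a s ha ih =>
      rw [Finset.sum_insert ha, smul_add', ih, smul_sub', smul_smul', smul_smul']
      by_cases hJ : J a
      · rw [(hg a hJ).1, (hg a hJ).2]
      · rw [(hv a hJ).1, (hv a hJ).2]
        simp
  conv_lhs => rw [expand v]
  rw [key]
  exact (expand v).symm

/-- extensionality on the basis -/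
theorem ext_basis {g h : G} (he : ∀ j, g • (ee j : V) = h • ee j) (hf : ∀ j, g • (ff j : V) = h • ff j) :
    g = h := by
  have : h⁻¹ * g ∈ GJ (n := n) (F := F) (fun _ => True) := by
    intro j _
    rw [mul_smul, mul_smul, he, hf, inv_smul_smul, inv_smul_smul]
    exact ⟨rfl, rfl⟩
  have h1 : h⁻¹ * g = 1 := by
    apply ext_smul
    intro v
    rw [smul_eq_of_support this (fun j hj => absurd trivial hj), one_smul]
  rwa [inv_mul_eq_one, eq_comm] at h1

/-- commuting subgroups -/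
theorem GJ_comm {J J' : Fin n → Prop} (h : ∀ j, J j ∨ J' j) {a b : G} (ha : a ∈ GJ J)
    (hb : b ∈ GJ J') : a * b = b * a := by
  have h1 : ∀ {J J' : Fin n → Prop} (_ : ∀ j, J j ∨ J' j) {a b : G} (_ : a ∈ GJ J)
      (_ : b ∈ GJ J') (v : V) (_ : a • v = v) (_ : InJ J' v ∨ b • v = v),
      (a * b) • v = (b * a) • v := by
    intro J J' h a b ha hb v hv hv'
    rw [mul_smul, mul_smul, hv]
    rcases hv' with hv' | hv'
    · have h2 := hv'.act hb
      exact smul_eq_of_support ha (fun j hj => h2 j ((h j).resolve_left hj))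
    · rw [hv', hv]
  apply ext_basis
  · intro j
    by_cases hj : J j
    · refine h1 h ha hb _ (ha j hj).1 ?_
      by_cases hj' : J' j
      · exact Or.inr (hb j hj').1
      · exact Or.inl (inJ_ee hj')
    · have hj' := (h j).resolve_left hj
      exact (h1 (fun j => (h j).symm) hb ha _ (hb j hj').1 (Or.inl (inJ_ee hj))).symm
  · intro j
    by_cases hj : J j
    · refine h1 h ha hb _ (ha j hj).2 ?_
      by_cases hj' : J' j
      · exact Or.inr (hb j hj').2
      · exact Or.inl (inJ_ff hj')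
    · have hj' := (h j).resolve_left hj
      exact (h1 (fun j => (h j).symm) hb ha _ (hb j hj').2 (Or.inl (inJ_ff hj))).symm

theorem transv_mem {J : Fin n → Prop} {v : V} (hv : InJ J v) (c : F) : transv v c ∈ GJ J := by
  intro j hj
  rw [transv_smul, transv_smul, sympForm_swap (ee j) v, sympForm_swap (ff j) v, (hv j hj).1,
    (hv j hj).2]
  simp

theorem siegel_mem {J : Fin n → Prop} {e w : V} (h : f e w = 0) (he : InJ J e) (hw : InJ J w)
    (c : F) : siegel e w c ∈ GJ J := by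
  intro j hj
  rw [siegel_smul h, siegel_smul h, (he j hj).1, (he j hj).2, (hw j hj).1, (hw j hj).2]
  simp

/-- a vector not orthogonal to `u` -/
theorem exists_ne {J : Fin n → Prop} {u : V} (hu : InJ J u) (h0 : u ≠ 0) :
    ∃ z : V, InJ J z ∧ f u z ≠ 0 := by
  by_contra hcon
  push Not at hcon
  apply h0
  rw [expand u]
  refine Finset.sum_eq_zero fun j _ => ?_
  by_cases hj : J j
  · rw [(hu j hj).1, (hu j hj).2]
    simp
  · rw [hcon _ (inJ_ee hj), hcon _ (inJ_ff hj)]
    simp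

theorem exists_both {J : Fin n → Prop} {x y : V} (hx : InJ J x) (hy : InJ J y) (hx0 : x ≠ 0)
    (hy0 : y ≠ 0) : ∃ z : V, InJ J z ∧ f x z ≠ 0 ∧ f y z ≠ 0 := by
  obtain ⟨a, haJ, ha⟩ := exists_ne hx hx0
  obtain ⟨b, hbJ, hb⟩ := exists_ne hy hy0
  by_cases ha' : f y a = 0
  · by_cases hb' : f x b = 0
    · refine ⟨a + b, haJ.add hbJ, ?_, ?_⟩
      · rwa [sympForm_add_right, hb', add_zero]
      · rwa [sympForm_add_right, ha', zero_add]
    · exact ⟨b, hbJ, hb', hb⟩
  · exact ⟨a, haJ, ha, ha'⟩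

theorem transv_sub_smul {x y : V} (h : f x y ≠ 0) : transv (y - x) (f x y)⁻¹ • x = y :=
  transv_sub_mulVec h

theorem transv_sub_smul_of_eq {x y u : V} (c : F) (h : f u x = f u y) :
    transv (y - x) c • u = u := transv_sub_mulVec_of_eq c h

/-- **Transitivity on nonzero vectors.** -/
theorem exists_smul_eq {J : Fin n → Prop} {x y : V} (hx : InJ J x) (hy : InJ J y) (hx0 : x ≠ 0)
    (hy0 : y ≠ 0) : ∃ g ∈ (GJ J : Subgroup G), g • x = y := by
  obtain ⟨z, hz, hxz, hyz⟩ := exists_both hx hy hx0 hy0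
  have hzy : f z y ≠ 0 := by
    rw [sympForm_swap]; exact neg_ne_zero.2 hyz
  refine ⟨transv (y - z) (f z y)⁻¹ * transv (z - x) (f x z)⁻¹,
    mul_mem (transv_mem (hy.sub hz) _) (transv_mem (hz.sub hx) _), ?_⟩
  rw [mul_smul, transv_sub_smul hxz, transv_sub_smul hzy]

/-- **Transitivity on hyperbolic pairs.** -/
theorem exists_smul_pair {J : Fin n → Prop} {x y x' y' : V} (hx : InJ J x) (hy : InJ J y)
    (hx' : InJ J x') (hy' : InJ J y') (h : f x y = 1) (h' : f x' y' = 1) :
    ∃ g ∈ (GJ J : Subgroup G), g • x = x' ∧ g • y = y' := by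
  have hx0 : x ≠ 0 := by
    rintro rfl
    rw [sympForm_zero_left] at h
    exact zero_ne_one h
  have hx'0 : x' ≠ 0 := by
    rintro rfl
    rw [sympForm_zero_left] at h'
    exact zero_ne_one h'
  obtain ⟨a, ha, hax⟩ := exists_smul_eq hx hx' hx0 hx'0
  set v := a • y with hv
  have hvJ : InJ J v := hy.act ha
  have hv1 : f x' v = 1 := by rw [← hax, form_smul, h]
  -- fix `x'` and move `v` to `y'`
  obtain ⟨b, hb, hbx, hby⟩ : ∃ b ∈ (GJ J : Subgroup G), b • x' = x' ∧ b • v = y' := by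
    by_cases hvw : f v y' = 0
    · have h1 : f v (x' + v) ≠ 0 := by
        rw [sympForm_add_right, sympForm_self, sympForm_swap, hv1, add_zero]
        exact neg_ne_zero.2 one_ne_zero
      have h2 : f (x' + v) y' ≠ 0 := by
        rw [sympForm_add_left, hvw, h', add_zero]
        exact one_ne_zero
      have h3 : f x' (x' + v) = 1 := by
        rw [sympForm_add_right, sympForm_self, hv1, zero_add]
      refine ⟨transv (y' - (x' + v)) (f (x' + v) y')⁻¹ * transv ((x' + v) - v) (f v (x' + v))⁻¹,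
        mul_mem (transv_mem (hy'.sub (hx'.add hvJ)) _) (transv_mem ((hx'.add hvJ).sub hvJ) _),
        ?_, ?_⟩
      · rw [mul_smul, transv_sub_smul_of_eq (u := x') _ (hv1.trans h3.symm),
          transv_sub_smul_of_eq (u := x') _ (h3.trans h'.symm)]
      · rw [mul_smul, transv_sub_smul h1, transv_sub_smul h2]
    · refine ⟨transv (y' - v) (f v y')⁻¹, transv_mem (hy'.sub hvJ) _, ?_, ?_⟩
      · rw [transv_sub_smul_of_eq (u := x') _ (hv1.trans h'.symm)]
      · rw [transv_sub_smul hvw]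
  exact ⟨b * a, mul_mem hb ha, by rw [mul_smul, hax, hbx], by rw [mul_smul, ← hv, hby]⟩

end Cfsg.Agent.H434.Slim
end

-- part: H434/SlimGen
section
/-!
# The subgroups of the slim amalgam and generation

`GK k` : the subgroup fixing the first `k` hyperbolic pairs. `SJ j` : the rank one group of the pair `j`. `MI i` : the
abelian group fixing all `ee j` and the `ff j`, `j ≠ i, i+1`. `RK k` contains `SJ k` and `MI k`.
-/

set_option autoImplicit false
open Cfsg
open scoped Matrix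
open Cfsg.Agent.ClassicalGeometry.SympBasic Cfsg.Agent.ClassicalGeometry.SympSiegel

namespace Cfsg.Agent.H434.Slim

variable {F : Type*} [Field F] {n : ℕ}

local notation "V" => (Fin n ⊕ Fin n → F)
local notation "G" => Matrix.symplecticGroup (Fin n) F
local notation "f" => sympForm n F

/-- the subgroup fixing the first `k` pairs -/
abbrev GK (n : ℕ) (F : Type*) [Field F] (k : ℕ) : Subgroup (Matrix.symplecticGroup (Fin n) F) :=
  GJ (fun j : Fin n => (j : ℕ) < k)

/-- orthogonal to the first `k` pairs -/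
abbrev InK (k : ℕ) (v : V) : Prop := InJ (fun j : Fin n => (j : ℕ) < k) v

/-- the rank one group of the pair `j` -/
abbrev SJ (F : Type*) [Field F] {n : ℕ} (j : Fin n) : Subgroup (Matrix.symplecticGroup (Fin n) F) :=
  GJ (fun l => l ≠ j)

/-- the abelian group of the pairs `i`, `i+1` -/
def MI (n : ℕ) (F : Type*) [Field F] (i : ℕ) : Subgroup (Matrix.symplecticGroup (Fin n) F) where
  carrier := {g | (∀ j : Fin n, g • (ee j : Fin n ⊕ Fin n → F) = ee j) ∧
    ∀ j : Fin n, (j : ℕ) ≠ i → (j : ℕ) ≠ i + 1 → g • (ff j : Fin n ⊕ Fin n → F) = ff j}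
  mul_mem' := by
    intro a b ha hb
    refine ⟨fun j => ?_, fun j h1 h2 => ?_⟩
    · rw [mul_smul, hb.1 j, ha.1 j]
    · rw [mul_smul, hb.2 j h1 h2, ha.2 j h1 h2]
  one_mem' := ⟨fun j => one_smul _ _, fun j _ _ => one_smul _ _⟩
  inv_mem' := by
    intro a ha
    refine ⟨fun j => ?_, fun j h1 h2 => ?_⟩
    · rw [inv_smul_eq_iff]; exact (ha.1 j).symm
    · rw [inv_smul_eq_iff]; exact (ha.2 j h1 h2).symm

theorem mem_MI {i : ℕ} {g : G} : g ∈ MI n F i ↔ (∀ j : Fin n, g • (ee j : V) = ee j) ∧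
    ∀ j : Fin n, (j : ℕ) ≠ i → (j : ℕ) ≠ i + 1 → g • (ff j : V) = ff j := Iff.rfl

/-- the group containing `SJ k` and `MI k` -/
def RK {n : ℕ} (F : Type*) [Field F] (k : Fin n) : Subgroup (Matrix.symplecticGroup (Fin n) F) where
  carrier := {g | (∀ j : Fin n, j ≠ k → g • (ee j : Fin n ⊕ Fin n → F) = ee j) ∧
    ∀ j : Fin n, j ≠ k → (j : ℕ) ≠ k + 1 → g • (ff j : Fin n ⊕ Fin n → F) = ff j}
  mul_mem' := by
    intro a b ha hb
    refine ⟨fun j h => ?_, fun j h1 h2 => ?_⟩
    · rw [mul_smul, hb.1 j h, ha.1 j h]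
    · rw [mul_smul, hb.2 j h1 h2, ha.2 j h1 h2]
  one_mem' := ⟨fun j _ => one_smul _ _, fun j _ _ => one_smul _ _⟩
  inv_mem' := by
    intro a ha
    refine ⟨fun j h => ?_, fun j h1 h2 => ?_⟩
    · rw [inv_smul_eq_iff]; exact (ha.1 j h).symm
    · rw [inv_smul_eq_iff]; exact (ha.2 j h1 h2).symm

theorem sup_le_RK (k : Fin n) : MI n F k ⊔ SJ F k ≤ RK F k := by
  refine sup_le (fun g hg => ⟨fun j _ => hg.1 j, fun j h1 h2 => hg.2 j ?_ h2⟩)
    (fun g hg => ⟨fun j h => (hg j h).1, fun j h _ => (hg j h).2⟩)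
  intro h
  exact h1 (Fin.ext h)

theorem mem_MI_of_RK {k : Fin n} {g : G} (hg : g ∈ RK F k) (h : g • (ee k : V) = ee k) :
    g ∈ MI n F k := by
  refine ⟨fun j => ?_, fun j h1 h2 => hg.2 j ?_ h2⟩
  · by_cases hj : j = k
    · rw [hj, h]
    · exact hg.1 j hj
  · rintro rfl
    exact h1 rfl

theorem SJ_le_GK {k : ℕ} {j : Fin n} (h : k ≤ j) : SJ F j ≤ GK n F k := by
  refine GJ_mono ?_
  rintro l hl rfl
  omega

theorem MI_le_GK {k i : ℕ} (h : k ≤ i) : MI n F i ≤ GK n F k := by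
  intro g hg j hj
  exact ⟨hg.1 j, hg.2 j (by omega) (by omega)⟩

theorem RK_le_GK (k : Fin n) : RK F k ≤ GK n F k := by
  intro g hg j hj
  have hne : j ≠ k := by rintro rfl; omega
  exact ⟨hg.1 j hne, hg.2 j hne (by omega)⟩

theorem GK_succ_le (k : ℕ) : GK n F (k + 1) ≤ GK n F k := GJ_mono (fun _ h => Nat.lt_succ_of_lt h)

theorem inK_succ {k : Fin n} {v : V} :
    InK (k + 1) v ↔ InK k v ∧ f v (ee k) = 0 ∧ f v (ff k) = 0 := by
  constructor
  · intro h
    exact ⟨h.mono (fun j hj => Nat.lt_succ_of_lt hj), h k (Nat.lt_succ_self _)⟩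
  · rintro ⟨h1, h2⟩ j hj
    rcases Nat.lt_succ_iff_lt_or_eq.1 hj with h | h
    · exact h1 j h
    · have : j = k := Fin.ext h
      subst this
      exact h2

theorem mem_GK_succ {k : Fin n} {g : G} :
    g ∈ GK n F (k + 1) ↔ g ∈ GK n F k ∧ g • (ee k : V) = ee k ∧ g • (ff k : V) = ff k := by
  constructor
  · intro h
    exact ⟨GK_succ_le _ h, h k (Nat.lt_succ_self _)⟩
  · rintro ⟨h1, h2⟩ j hj
    rcases Nat.lt_succ_iff_lt_or_eq.1 hj with h | h
    · exact h1 j h
    · have : j = k := Fin.ext h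
      subst this
      exact h2

theorem perp_ee {k : Fin n} {w : V} (hw : InK (k + 1) w) : f (ee k) w = 0 := by
  rw [sympForm_swap, (inK_succ.1 hw).2.1, neg_zero]

theorem perp_ff {k : Fin n} {w : V} (hw : InK (k + 1) w) : f (ff k) w = 0 := by
  rw [sympForm_swap, (inK_succ.1 hw).2.2, neg_zero]

theorem inK_ee (k : Fin n) : InK (k : ℕ) (ee k : V) := inJ_ee (lt_irrefl _)

theorem inK_ff (k : Fin n) : InK (k : ℕ) (ff k : V) := inJ_ff (lt_irrefl _)

/-- the element `T(w,c)` lies in `GK k` -/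
theorem siegel_mem_GK {k : Fin n} {w : V} (hw : InK (k + 1) w) (c : F) :
    siegel (ee k) w c ∈ GK n F k :=
  siegel_mem (perp_ee hw) (inK_ee k) (inK_succ.1 hw).1 c

theorem siegel_ee {k : Fin n} {w : V} (hw : InK (k + 1) w) (c : F) :
    siegel (ee k) w c • (ee k : V) = ee k := smul_siegel_self (perp_ee hw) c

theorem siegel_ff {k : Fin n} {w : V} (hw : InK (k + 1) w) (c : F) :
    siegel (ee k) w c • (ff k : V) = ff k + w + c • ee k := by
  rw [siegel_smul (perp_ee hw), (inK_succ.1 hw).2.2, ee_ff_self]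
  module

/-- the parameters of an element of the stabiliser -/
def cOf (k : Fin n) (g : G) : F := f (g • ff k) (ff k)

/-- the parameters of an element of the stabiliser -/
def wOf (k : Fin n) (g : G) : V := g • ff k - ff k - cOf k g • ee k

theorem inK_wOf {k : Fin n} {g : G} (hg : g ∈ GK n F k) (he : g • (ee k : V) = ee k) :
    InK (k + 1) (wOf k g) := by
  rw [inK_succ]
  refine ⟨(((inK_ff k).act hg).sub (inK_ff k)).sub ((inK_ee k).smul _), ?_, ?_⟩
  · have := form_smul g (ff k) (ee k)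
    rw [he] at this
    rw [wOf, sympForm_sub_left, sympForm_sub_left, this, sympForm_smul_left, ee_ee]
    simp
  · rw [wOf, sympForm_sub_left, sympForm_sub_left, sympForm_smul_left, ff_ff, ee_ff_self, cOf]
    ring

theorem smul_ff_eq (k : Fin n) (g : G) : g • (ff k : V) = ff k + wOf k g + cOf k g • ee k := by
  rw [wOf]
  abel

/-- **The stabiliser of `ee k`.** -/
theorem exists_rep {k : Fin n} {g : G} (hg : g ∈ GK n F k) (he : g • (ee k : V) = ee k) :
    ∃ (w : V) (c : F) (g' : G), InK (k + 1) w ∧ g' ∈ GK n F (k + 1) ∧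
      g = siegel (ee k) w c * g' := by
  have hw := inK_wOf hg he
  refine ⟨wOf k g, cOf k g, (siegel (ee k) (wOf k g) (cOf k g))⁻¹ * g, hw, ?_, ?_⟩
  · rw [mem_GK_succ]
    refine ⟨mul_mem (inv_mem (siegel_mem_GK hw _)) hg, ?_, ?_⟩
    · rw [mul_smul, he, inv_smul_eq_iff, siegel_ee hw]
    · rw [mul_smul, inv_smul_eq_iff, siegel_ff hw, ← smul_ff_eq]
  · rw [mul_inv_cancel_left]

theorem cOf_rep {k : Fin n} {w : V} (hw : InK (k + 1) w) (c : F) {g : G}
    (hg : g ∈ GK n F (k + 1)) : cOf k (siegel (ee k) w c * g) = c := by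
  rw [cOf, mul_smul, (mem_GK_succ.1 hg).2.2, siegel_ff hw, sympForm_add_left, sympForm_add_left,
    ff_ff, (inK_succ.1 hw).2.2, sympForm_smul_left, ee_ff_self]
  ring

theorem wOf_rep {k : Fin n} {w : V} (hw : InK (k + 1) w) (c : F) {g : G}
    (hg : g ∈ GK n F (k + 1)) : wOf k (siegel (ee k) w c * g) = w := by
  rw [wOf, cOf_rep hw c hg, mul_smul, (mem_GK_succ.1 hg).2.2, siegel_ff hw]
  module

theorem rep_mul {k : Fin n} {w w' : V} (hw : InK (k + 1) w) (hw' : InK (k + 1) w') (c c' : F)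
    {g : G} (hg : g ∈ GK n F (k + 1)) (g' : G) :
    siegel (ee k) w c * g * (siegel (ee k) w' c' * g') =
      siegel (ee k) (w + g • w') (c + c' + f w (g • w')) * (g * g') := by
  rw [← siegel_mul (perp_ee hw) (perp_ee (hw'.act hg))]
  have := conj_siegel g (perp_ee hw') c'
  rw [(mem_GK_succ.1 hg).2.1] at this
  rw [← this]
  group

theorem siegel_split {k : Fin n} {w : V} (hw : InK (k + 1) w) (c : F) :
    siegel (ee k) w c = siegel (ee k) w 0 * siegel (ee k) 0 c := by
  rw [siegel_mul (perp_ee hw) (sympForm_zero_right _), add_zero, sympForm_zero_right, add_zero,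
    zero_add]

theorem inK_zero (k : ℕ) : InK k (0 : V) := InJ.zero _

/-- a nonzero vector orthogonal to the first `k` pairs -/
theorem exists_index {k : ℕ} {w : V} (hw : InK k w) (h0 : w ≠ 0) : ∃ j : Fin n, (j : ℕ) = k := by
  by_contra hcon
  push Not at hcon
  apply h0
  have hnk : n ≤ k := by
    by_contra h
    exact hcon ⟨k, by omega⟩ rfl
  rw [expand w]
  refine Finset.sum_eq_zero fun j _ => ?_
  obtain ⟨h1, h2⟩ := hw j (by omega)
  rw [h1, h2]
  simp

theorem siegel_mem_of {k : Fin n} {X : Subgroup G} (hX : GK n F (k + 1) ≤ X)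
    (h1 : ∀ k1 : Fin n, (k1 : ℕ) = k + 1 → siegel (ee k) (ee k1 : V) 0 ∈ X) {w : V}
    (hw : InK (k + 1) w) : siegel (ee k) w 0 ∈ X := by
  by_cases h0 : w = 0
  · rw [h0, siegel_zero_zero]
    exact one_mem _
  · obtain ⟨k1, hk1⟩ := exists_index hw h0
    have he1 : InK (k + 1) (ee k1 : V) := by rw [← hk1]; exact inK_ee k1
    obtain ⟨g, hg, hgw⟩ := exists_smul_eq he1 hw (ee_ne_zero k1) h0
    have := conj_siegel g (perp_ee he1) 0
    rw [(mem_GK_succ.1 hg).2.1, hgw] at this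
    rw [← this]
    exact mul_mem (mul_mem (hX hg) (h1 k1 hk1)) (inv_mem (hX hg))

/-- the stabiliser of `ee k` is generated by root elements and `GK (k+1)` -/
theorem gen_stab {k : Fin n} {X : Subgroup G} (hX : GK n F (k + 1) ≤ X)
    (h0 : ∀ c, siegel (ee k) (0 : V) c ∈ X)
    (h1 : ∀ k1 : Fin n, (k1 : ℕ) = k + 1 → siegel (ee k) (ee k1 : V) 0 ∈ X) {g : G}
    (hg : g ∈ GK n F k) (he : g • (ee k : V) = ee k) : g ∈ X := by
  obtain ⟨w, c, g', hw, hg', rfl⟩ := exists_rep hg he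
  rw [siegel_split hw]
  exact mul_mem (mul_mem (siegel_mem_of hX h1 hw) (h0 c)) (hX hg')

/-- moving `b • ff k` to an arbitrary vector not orthogonal to `ee k` -/
theorem siegel_move {k : Fin n} {w : V} (hw : InK (k + 1) w) (a : F) {b : F} (hb : b ≠ 0) :
    siegel (ee k) (b⁻¹ • w) (b⁻¹ * a) • (b • ff k) = a • ee k + b • ff k + w := by
  rw [smul_smul', siegel_ff (hw.smul _), smul_add, smul_add, smul_smul, smul_smul,
    mul_inv_cancel_left₀ hb, mul_inv_cancel₀ hb, one_smul]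
  abel

/-- the components of a vector -/
theorem decomp {k : Fin n} {v : V} (hv : InK k v) :
    ∃ w, InK (k + 1) w ∧ v = f v (ff k) • ee k + f (ee k) v • ff k + w := by
  refine ⟨v - f v (ff k) • ee k - f (ee k) v • ff k, ?_, by abel⟩
  rw [inK_succ]
  refine ⟨(hv.sub ((inK_ee k).smul _)).sub ((inK_ff k).smul _), ?_, ?_⟩
  · rw [sympForm_sub_left, sympForm_sub_left, sympForm_smul_left, sympForm_smul_left, ee_ee,
      ff_ee_self, sympForm_swap v]
    ring
  · rw [sympForm_sub_left, sympForm_sub_left, sympForm_smul_left, sympForm_smul_left, ff_ff,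
      ee_ff_self]
    ring

theorem inJ_plane {k : Fin n} (a b : F) : InJ (fun l => l ≠ k) (a • ee k + b • ff k : V) :=
  ((inJ_ee (by simp)).smul _).add ((inJ_ff (by simp)).smul _)

theorem plane_ne_zero {k : Fin n} {a b : F} (h : a ≠ 0 ∨ b ≠ 0) :
    (a • ee k + b • ff k : V) ≠ 0 := by
  intro h0
  have h1 := congrArg (fun x => f x (ff k)) h0
  have h2 := congrArg (fun x => f x (ee k)) h0
  simp only [sympForm_add_left, sympForm_smul_left, sympForm_zero_left, ee_ff_self, ff_ff, ee_ee,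
    ff_ee_self] at h1 h2
  rcases h with h | h
  · apply h; linear_combination h1
  · apply h; linear_combination -h2

/-- `SJ k` is transitive on the nonzero vectors of its plane -/
theorem exists_SJ {k : Fin n} {a b : F} (h : a ≠ 0 ∨ b ≠ 0) :
    ∃ s ∈ SJ F k, s • (ee k : V) = a • ee k + b • ff k :=
  exists_smul_eq (inJ_ee (by simp)) (inJ_plane a b) (ee_ne_zero k) (plane_ne_zero h)

theorem SJ_fix {k : Fin n} {s : G} (hs : s ∈ SJ F k) {w : V} (h1 : f w (ee k) = 0)
    (h2 : f w (ff k) = 0) : s • w = w := by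
  refine smul_eq_of_support hs (fun j hj => ?_)
  rw [not_not.1 hj]
  exact ⟨h1, h2⟩

/-- **Generation.** -/
theorem gen_step {k k1 : Fin n} (hk : (k1 : ℕ) = k + 1) {X : Subgroup G}
    (hX : GK n F (k + 1) ≤ X) (hS : SJ F k ≤ X) (h1 : siegel (ee k) (ee k1 : V) 0 ∈ X) :
    GK n F k ≤ X := by
  have h1' : ∀ k1 : Fin n, (k1 : ℕ) = k + 1 → siegel (ee k) (ee k1 : V) 0 ∈ X := by
    intro l hl
    have : l = k1 := Fin.ext (hl.trans hk.symm)
    rwa [this]
  have h0 : ∀ c, siegel (ee k) (0 : V) c ∈ X := fun c =>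
    hS (siegel_mem (sympForm_zero_right _) (inJ_ee (by simp)) (InJ.zero _) c)
  have hT : ∀ w : V, InK (k + 1) w → ∀ c, siegel (ee k) w c ∈ X := by
    intro w hw c
    rw [siegel_split hw]
    exact mul_mem (siegel_mem_of hX h1' hw) (h0 c)
  have he1 : InK (k + 1) (ee k1 : V) := by rw [← hk]; exact inK_ee k1
  have hf1 : InK (k + 1) (ff k1 : V) := by rw [← hk]; exact inK_ff k1
  -- case (a)
  have ca : ∀ (a b : F) (w : V), InK (k + 1) w → b ≠ 0 →
      ∃ x ∈ X, x ∈ GK n F k ∧ x • (ee k : V) = a • ee k + b • ff k + w := by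
    intro a b w hw hb
    obtain ⟨s, hs, hse⟩ := exists_SJ (F := F) (k := k) (a := 0) (b := b) (Or.inr hb)
    rw [zero_smul, zero_add] at hse
    refine ⟨siegel (ee k) (b⁻¹ • w) (b⁻¹ * a) * s, mul_mem (hT _ (hw.smul _) _) (hS hs),
      mul_mem (siegel_mem_GK (hw.smul _) _) (SJ_le_GK le_rfl hs), ?_⟩
    rw [mul_smul, hse, siegel_move hw a hb]
  -- case (b)
  have cb : ∀ (a : F) (w : V), InK (k + 1) w → a ≠ 0 →
      ∃ x ∈ X, x ∈ GK n F k ∧ x • (ee k : V) = a • ee k + w := by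
    intro a w hw ha
    obtain ⟨s, hs, hse⟩ := exists_smul_eq (J := fun l => l ≠ k) (x := a • (ee k : V))
      (y := (ff k : V)) ((inJ_ee (by simp)).smul _) (inJ_ff (by simp))
      (smul_ne_zero ha (ee_ne_zero k)) (ff_ne_zero k)
    obtain ⟨x, hx, hxG, hxe⟩ := ca 0 1 w hw one_ne_zero
    refine ⟨s⁻¹ * x, mul_mem (inv_mem (hS hs)) hx,
      mul_mem (inv_mem (SJ_le_GK le_rfl hs)) hxG, ?_⟩
    rw [mul_smul, hxe, inv_smul_eq_iff, smul_add', hse,
      SJ_fix hs (inK_succ.1 hw).2.1 (inK_succ.1 hw).2.2, zero_smul, zero_add, one_smul]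
  -- case (c)
  have cc : ∀ (w : V), InK (k + 1) w → w ≠ 0 → ∃ x ∈ X, x ∈ GK n F k ∧ x • (ee k : V) = w := by
    intro w hw h0
    obtain ⟨g, hg, hgw⟩ := exists_smul_eq he1 hw (ee_ne_zero k1) h0
    obtain ⟨x, hx, hxG, hxe⟩ := cb (-1) (ee k1) he1 (neg_ne_zero.2 one_ne_zero)
    refine ⟨g * (siegel (ee k) (ff k1) 0)⁻¹ * x,
      mul_mem (mul_mem (hX hg) (inv_mem (hT _ hf1 _))) hx,
      mul_mem (mul_mem (GK_succ_le _ hg) (inv_mem (siegel_mem_GK hf1 _))) hxG, ?_⟩
    rw [mul_smul, hxe, mul_smul, ← hgw]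
    congr 1
    rw [inv_smul_eq_iff, siegel_smul (perp_ee hf1), ff_ee_self, perp_ee he1]
    module
  intro g hg
  have hv : InK k (g • (ee k : V)) := (inK_ee k).act hg
  have hv0 : g • (ee k : V) ≠ 0 := smul_ne_zero' g (ee_ne_zero k)
  obtain ⟨x, hx, hxG, hxe⟩ : ∃ x ∈ X, x ∈ GK n F k ∧ x • (ee k : V) = g • ee k := by
    generalize g • (ee k : V) = v at hv hv0
    obtain ⟨w, hw, hvw⟩ := decomp hv
    rw [hvw]
    by_cases hb : f (ee k) v = 0
    · by_cases ha : f v (ff k) = 0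
      · rw [ha, hb, zero_smul, zero_smul, zero_add, zero_add]
        refine cc w hw ?_
        rintro rfl
        rw [ha, hb] at hvw
        apply hv0
        rw [hvw]
        simp
      · rw [hb, zero_smul, add_zero]
        exact cb _ w hw ha
    · exact ca _ _ w hw hb
  have h3 : x⁻¹ * g ∈ X := gen_stab hX h0 h1' (mul_mem (inv_mem hxG) hg)
    (by rw [mul_smul, ← hxe, inv_smul_smul])
  have : g = x * (x⁻¹ * g) := by group
  rw [this]
  exact mul_mem hx h3

end Cfsg.Agent.H434.Slim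
end

-- part: H434/SlimBeta
section
/-!
# Extending a homomorphism to the stabiliser of `ee k`

`StepData` : the data of the inductive step. `exists_beta` : the homomorphism of the stabiliser of `ee k` in `GK k`.
-/

set_option autoImplicit false
open Cfsg
open scoped Matrix
open Cfsg.Agent.ClassicalGeometry.SympBasic Cfsg.Agent.ClassicalGeometry.SympSiegel

namespace Cfsg.Agent.H434.Slim

section IsHomOn

variable {A B : Type*} [Group A] [Group B]

/-- multiplicative on a subgroup -/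
def IsHomOn (K : Subgroup A) (φ : A → B) : Prop := ∀ a ∈ K, ∀ b ∈ K, φ (a * b) = φ a * φ b

variable {K K' : Subgroup A} {φ ψ : A → B}

theorem IsHomOn.one (h : IsHomOn K φ) : φ 1 = 1 := by
  have h1 := h 1 (one_mem _) 1 (one_mem _)
  rw [mul_one] at h1
  exact (mul_eq_left.1 h1.symm)

theorem IsHomOn.inv (h : IsHomOn K φ) {a : A} (ha : a ∈ K) : φ a⁻¹ = (φ a)⁻¹ := by
  have h1 := h a⁻¹ (inv_mem ha) a ha
  rw [inv_mul_cancel, h.one] at h1
  exact eq_inv_of_mul_eq_one_left h1.symm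

theorem IsHomOn.mono (h : IsHomOn K φ) (hle : K' ≤ K) : IsHomOn K' φ :=
  fun a ha b hb => h a (hle ha) b (hle hb)

theorem IsHomOn.congr (h : IsHomOn K φ) (he : ∀ a ∈ K, ψ a = φ a) : IsHomOn K ψ := by
  intro a ha b hb
  rw [he _ (mul_mem ha hb), he a ha, he b hb, h a ha b hb]

theorem IsHomOn.conj (h : IsHomOn K φ) {a b : A} (ha : a ∈ K) (hb : b ∈ K) :
    φ (a * b * a⁻¹) = φ a * φ b * (φ a)⁻¹ := by
  rw [h _ (mul_mem ha hb) _ (inv_mem ha), h a ha b hb, h.inv ha]

/-- the homomorphism -/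
def IsHomOn.toHom (h : IsHomOn K φ) : ↥K →* B :=
  MonoidHom.mk' (fun a => φ a) (fun a b => h _ a.2 _ b.2)

theorem IsHomOn.toHom_apply (h : IsHomOn K φ) (a : ↥K) : h.toHom a = φ a := rfl

open Classical in
/-- the function of a homomorphism -/
noncomputable def extF (φ : ↥K →* B) : A → B := fun a => if h : a ∈ K then φ ⟨a, h⟩ else 1

theorem extF_apply (φ : ↥K →* B) {a : A} (h : a ∈ K) : extF φ a = φ ⟨a, h⟩ := dif_pos h

theorem isHomOn_extF (φ : ↥K →* B) : IsHomOn K (extF φ) := by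
  intro a ha b hb
  rw [extF_apply φ ha, extF_apply φ hb, extF_apply φ (mul_mem ha hb), ← map_mul]
  rfl

/-- the elements whose image commutes with `t` -/
def IsHomOn.comm (h : IsHomOn K φ) (t : B) : Subgroup A where
  carrier := {a | a ∈ K ∧ φ a * t = t * φ a}
  mul_mem' := by
    rintro a b ⟨ha, ha'⟩ ⟨hb, hb'⟩
    refine ⟨mul_mem ha hb, ?_⟩
    rw [h a ha b hb, mul_assoc, hb', ← mul_assoc, ha', mul_assoc]
  one_mem' := ⟨one_mem _, by rw [h.one, one_mul, mul_one]⟩
  inv_mem' := by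
    rintro a ⟨ha, ha'⟩
    refine ⟨inv_mem ha, ?_⟩
    rw [h.inv ha, inv_mul_eq_iff_eq_mul, ← mul_assoc, ha', mul_inv_cancel_right]

/-- the equalizer -/
def IsHomOn.eq (h : IsHomOn K φ) (h' : IsHomOn K ψ) : Subgroup A where
  carrier := {a | a ∈ K ∧ φ a = ψ a}
  mul_mem' := by
    rintro a b ⟨ha, ha'⟩ ⟨hb, hb'⟩
    refine ⟨mul_mem ha hb, ?_⟩
    rw [h a ha b hb, h' a ha b hb, ha', hb']
  one_mem' := ⟨one_mem _, by rw [h.one, h'.one]⟩
  inv_mem' := by
    rintro a ⟨ha, ha'⟩
    exact ⟨inv_mem ha, by rw [h.inv ha, h'.inv ha, ha']⟩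

end IsHomOn

variable {F : Type*} [Field F] {n : ℕ} {H : Type*} [Group H]

local notation "V" => (Fin n ⊕ Fin n → F)
local notation "G" => Matrix.symplecticGroup (Fin n) F
local notation "f" => sympForm n F

/-- elements fixing all `ee j` fix the vectors orthogonal to these -/
theorem fix_of_perp_ee {g : G} (hg : ∀ j, g • (ee j : V) = ee j) {x : V}
    (hx : ∀ j, f x (ee j) = 0) : g • x = x := by
  have key : ∀ s : Finset (Fin n), g • (∑ j ∈ s, f x (ff j) • (ee j : V)) =
      ∑ j ∈ s, f x (ff j) • (ee j : V) := by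
    intro s
    classical
    induction s using Finset.induction_on with
    | empty => rw [Finset.sum_empty, smul_zero']
    | insert a s ha ih => rw [Finset.sum_insert ha, smul_add', ih, smul_smul', hg]
  have h1 : x = ∑ j : Fin n, f x (ff j) • (ee j : V) := by
    conv_lhs => rw [expand x]
    refine Finset.sum_congr rfl fun j _ => ?_
    rw [hx, zero_smul, sub_zero]
  rw [h1]
  exact key _

/-- the elements fixing all `ee j` commute -/
theorem comm_of_fix {g h : G} (hg : ∀ j, g • (ee j : V) = ee j) (hh : ∀ j, h • (ee j : V) = ee j) :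
    g * h = h * g := by
  have key : ∀ (g : G) (_ : ∀ j, g • (ee j : V) = ee j) (j l : Fin n),
      f (g • ff j - ff j) (ee l) = 0 := by
    intro g hg j l
    have := form_smul g (ff j) (ee l)
    rw [hg] at this
    rw [sympForm_sub_left, this, sub_self]
  apply ext_basis
  · intro j
    rw [mul_smul, mul_smul, hg, hh, hg]
  · intro j
    have h1 := fix_of_perp_ee hg (key h hh j)
    have h2 := fix_of_perp_ee hh (key g hg j)
    rw [smul_sub', ← mul_smul] at h1 h2
    have h3 : (g * h) • (ff j : V) = g • ff j + (h • ff j - ff j) := by rw [← h1]; abel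
    have h4 : (h * g) • (ff j : V) = h • ff j + (g • ff j - ff j) := by rw [← h2]; abel
    rw [h3, h4]
    abel

theorem MI_comm {i i' : ℕ} {g h : G} (hg : g ∈ MI n F i) (hh : h ∈ MI n F i') : g * h = h * g :=
  comm_of_fix hg.1 hh.1

/-- `T(0,c)` -/
theorem siegel_zero_mem_SJ (k : Fin n) (c : F) : siegel (ee k) (0 : V) c ∈ SJ F k :=
  siegel_mem (sympForm_zero_right _) (inJ_ee (by simp)) (InJ.zero _) c

theorem siegel_zero_mem_MI {i : ℕ} {k : Fin n} (h : (k : ℕ) = i ∨ (k : ℕ) = i + 1) (c : F) :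
    siegel (ee k) (0 : V) c ∈ MI n F i := by
  constructor
  · intro j
    rw [siegel_smul (sympForm_zero_right _), ee_ee, sympForm_zero_left]
    simp
  · intro j h1 h2
    rw [siegel_smul (sympForm_zero_right _), ee_ff_of_ne, sympForm_zero_left]
    · simp
    · rintro rfl
      rcases h with h | h
      · exact h1 h
      · exact h2 h

theorem siegel_smul_mem_MI {k k1 : Fin n} (hk : (k1 : ℕ) = k + 1) (s c : F) :
    siegel (ee k) (s • ee k1 : V) c ∈ MI n F k := by
  have hp : f (ee k) (s • ee k1 : V) = 0 := by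
    rw [sympForm_smul_right, ee_ee, mul_zero]
  constructor
  · intro j
    rw [siegel_smul hp, ee_ee, sympForm_smul_left, ee_ee]
    simp
  · intro j h1 h2
    rw [siegel_smul hp, ee_ff_of_ne, sympForm_smul_left, ee_ff_of_ne]
    · simp
    · rintro rfl
      exact h2 hk
    · rintro rfl
      exact h1 rfl

/-- a vector with only one nonzero coordinate -/
theorem eq_smul_ee {k : Fin n} {w : V} (h1 : ∀ j, f w (ee j) = 0)
    (h2 : ∀ j, j ≠ k → f w (ff j) = 0) : w = f w (ff k) • ee k := by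
  conv_lhs => rw [expand w]
  rw [Finset.sum_eq_single k]
  · rw [h1, zero_smul, sub_zero]
  · intro j _ hj
    rw [h1, h2 j hj]
    simp
  · intro h
    exact absurd (Finset.mem_univ _) h

/-- The data of the inductive step. -/
structure StepData (k k1 : Fin n) (α σ μ : Matrix.symplecticGroup (Fin n) F → H) : Prop where
  hk : (k1 : ℕ) = k + 1
  homα : IsHomOn (GK n F (k + 1)) α
  ext0 : ∃ Ψ : Matrix.symplecticGroup (Fin n) F → H, IsHomOn (MI n F k ⊔ SJ F k) Ψ ∧
    (∀ a ∈ MI n F k, Ψ a = μ a) ∧ ∀ a ∈ SJ F k, Ψ a = σ a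
  ext1 : ∃ Ψ : Matrix.symplecticGroup (Fin n) F → H, IsHomOn (MI n F k ⊔ SJ F k1) Ψ ∧
    (∀ a ∈ MI n F k, Ψ a = μ a) ∧ ∀ a ∈ SJ F k1, Ψ a = α a
  commS : ∀ a ∈ SJ F k, ∀ g ∈ GK n F (k + 1), σ a * α g = α g * σ a
  commM : ∀ m ∈ MI n F k, ∀ h ∈ GK n F (k + 1),
    h • (ee k1 : Fin n ⊕ Fin n → F) = ee k1 → α h * μ m = μ m * α h

namespace StepData

variable {k k1 : Fin n} {α σ μ : Matrix.symplecticGroup (Fin n) F → H}
  (D : StepData k k1 α σ μ)

include D

theorem homσ : IsHomOn (SJ F k) σ := by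
  obtain ⟨Ψ, h1, -, h3⟩ := D.ext0
  exact (h1.mono le_sup_right).congr (fun a ha => (h3 a ha).symm)

theorem homμ : IsHomOn (MI n F k) μ := by
  obtain ⟨Ψ, h1, h2, -⟩ := D.ext0
  exact (h1.mono le_sup_left).congr (fun a ha => (h2 a ha).symm)

theorem agree {a : G} (ha : a ∈ MI n F k) (ha' : a ∈ SJ F k) : μ a = σ a := by
  obtain ⟨Ψ, -, h2, h3⟩ := D.ext0
  rw [← h2 a ha, h3 a ha']

theorem agree1 {a : G} (ha : a ∈ MI n F k) (ha' : a ∈ SJ F k1) : μ a = α a := by
  obtain ⟨Ψ, -, h2, h3⟩ := D.ext1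
  rw [← h2 a ha, h3 a ha']

theorem μ_comm {a b : G} (ha : a ∈ MI n F k) (hb : b ∈ MI n F k) : μ a * μ b = μ b * μ a := by
  rw [← D.homμ a ha b hb, ← D.homμ b hb a ha, MI_comm ha hb]

theorem inK_e1 : InK (k + 1) (ee k1 : V) := by rw [← D.hk]; exact inK_ee k1

theorem inK_f1 : InK (k + 1) (ff k1 : V) := by rw [← D.hk]; exact inK_ff k1

theorem exists_q0 : ∃ q : V → H, q 0 = 1 ∧ ∀ g ∈ GK n F (k + 1),
    q (g • ee k1) = α g * μ (siegel (ee k) (ee k1) 0) * (α g)⁻¹ := by
  classical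
  set t := μ (siegel (ee k) (ee k1 : V) 0) with ht
  refine ⟨fun w => if h : ∃ g, g ∈ GK n F (k + 1) ∧ g • (ee k1 : V) = w then
    α h.choose * t * (α h.choose)⁻¹ else 1, ?_, ?_⟩
  · change (if h : ∃ g, g ∈ GK n F (k + 1) ∧ g • (ee k1 : V) = 0 then
      α h.choose * t * (α h.choose)⁻¹ else 1) = 1
    rw [dif_neg]
    rintro ⟨g, -, hg⟩
    exact smul_ne_zero' g (ee_ne_zero k1) hg
  · intro g hg
    have hex : ∃ g', g' ∈ GK n F (k + 1) ∧ g' • (ee k1 : V) = g • ee k1 := ⟨g, hg, rfl⟩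
    change (if h : ∃ g', g' ∈ GK n F (k + 1) ∧ g' • (ee k1 : V) = g • ee k1 then
      α h.choose * t * (α h.choose)⁻¹ else 1) = _
    rw [dif_pos hex]
    obtain ⟨h1, h2⟩ := hex.choose_spec
    generalize hex.choose = g' at h1 h2 ⊢
    have hm : siegel (ee k) (ee k1 : V) 0 ∈ MI n F k := by
      have := siegel_smul_mem_MI (F := F) D.hk 1 0
      rwa [one_smul] at this
    have h3 := D.commM _ hm (g⁻¹ * g') (mul_mem (inv_mem hg) h1)
      (by rw [mul_smul, h2, inv_smul_smul])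
    rw [D.homα _ (inv_mem hg) _ h1, D.homα.inv hg, ← ht] at h3
    have h4 : α g' * t = α g * (t * ((α g)⁻¹ * α g')) := by
      rw [← h3]; group
    rw [h4]; group

/-- the image of the long root elements -/
theorem z_facts : (∀ c c' : F, σ (siegel (ee k) 0 (c + c')) =
      σ (siegel (ee k) 0 c) * σ (siegel (ee k) 0 c')) ∧
    (∀ c, σ (siegel (ee k) 0 c) = μ (siegel (ee k) 0 c)) ∧
    (∀ c, ∀ g ∈ GK n F (k + 1), σ (siegel (ee k) 0 c) * α g = α g * σ (siegel (ee k) 0 c)) := by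
  refine ⟨fun c c' => ?_, fun c => ?_, fun c g hg => ?_⟩
  · rw [← D.homσ _ (siegel_zero_mem_SJ k c) _ (siegel_zero_mem_SJ k c'),
      siegel_mul (sympForm_zero_right _) (sympForm_zero_right _), sympForm_zero_right, add_zero,
      add_zero]
  · exact (D.agree (siegel_zero_mem_MI (Or.inl rfl) c) (siegel_zero_mem_SJ k c)).symm
  · exact D.commS _ (siegel_zero_mem_SJ k c) g hg

end StepData

/-- dual vectors -/
theorem exists_dual {J : Fin n → Prop} {w w' : V} (hw : InJ J w) (hw' : InJ J w') (h0 : w' ≠ 0)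
    (h : ∀ s : F, w ≠ s • w') : ∃ v, InJ J v ∧ f w v = 1 ∧ f w' v = 0 := by
  obtain ⟨z, hz, hwz⟩ := exists_ne hw' h0
  set s := (f w' z)⁻¹ * f w z with hs
  have h1 : w - s • w' ≠ 0 := fun h' => h s (sub_eq_zero.1 h')
  obtain ⟨x, hx, hwx⟩ := exists_ne (hw.sub (hw'.smul s)) h1
  -- `x - (f w' x / f w' z) z`
  set v := x - ((f w' z)⁻¹ * f w' x) • z with hv
  have hvJ : InJ J v := hx.sub (hz.smul _)
  have h2 : f w' v = 0 := by
    rw [hv, sympForm_sub_right, sympForm_smul_right]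
    field_simp
    ring
  have h3 : f w v ≠ 0 := by
    intro h'
    apply hwx
    rw [hv, sympForm_sub_right, sympForm_smul_right] at h'
    rw [sympForm_sub_left, sympForm_smul_left, hs]
    linear_combination h'
  refine ⟨(f w v)⁻¹ • v, hvJ.smul _, ?_, ?_⟩
  · rw [sympForm_smul_right, inv_mul_cancel₀ h3]
  · rw [sympForm_smul_right, h2, mul_zero]

namespace StepData

variable {k k1 : Fin n} {α σ μ : Matrix.symplecticGroup (Fin n) F → H}
  (D : StepData k k1 α σ μ)

include D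

/-- the homomorphism on the unipotent radical of the stabiliser -/
theorem exists_q (hF : ∃ a : F, a ≠ 0 ∧ a ≠ 1) : ∃ q : V → H, q 0 = 1 ∧
    (∀ g ∈ GK n F (k + 1), ∀ w, InK (k + 1) w → q (g • w) = α g * q w * (α g)⁻¹) ∧
    (∀ w, InK (k + 1) w → ∀ c, σ (siegel (ee k) 0 c) * q w = q w * σ (siegel (ee k) 0 c)) ∧
    (∀ s : F, q (s • ee k1) = μ (siegel (ee k) (s • ee k1) 0)) ∧
    ∀ w w', InK (k + 1) w → InK (k + 1) w' →
      q w * q w' = q (w + w') * σ (siegel (ee k) 0 (f w w')) := by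
  obtain ⟨q, q0, q1⟩ := D.exists_q0
  obtain ⟨z1, z2, z3⟩ := D.z_facts
  set z : F → H := fun c => σ (siegel (ee k) 0 c) with hz
  have hzz : ∀ c, σ (siegel (ee k) 0 c) = z c := fun c => rfl
  have z0 : z 0 = 1 := by rw [← hzz, siegel_zero_zero, D.homσ.one]
  simp only [hzz] at z1 z2 z3 ⊢
  have hm : siegel (ee k) (ee k1 : V) 0 ∈ MI n F k := by
    have := siegel_smul_mem_MI (F := F) D.hk 1 0
    rwa [one_smul] at this
  -- conjugation
  have hconj : ∀ g ∈ GK n F (k + 1), ∀ w, InK (k + 1) w →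
      q (g • w) = α g * q w * (α g)⁻¹ := by
    intro g hg w hw
    by_cases h0 : w = 0
    · rw [h0, smul_zero', q0]
      group
    · obtain ⟨x, hx, hxw⟩ := exists_smul_eq D.inK_e1 hw (ee_ne_zero k1) h0
      rw [← hxw, ← mul_smul, q1 _ (mul_mem hg hx), q1 _ hx, D.homα _ hg _ hx]
      group
  -- the centre
  have hcen : ∀ w, InK (k + 1) w → ∀ c, z c * q w = q w * z c := by
    intro w hw c
    by_cases h0 : w = 0
    · rw [h0, q0, one_mul, mul_one]
    · obtain ⟨x, hx, hxw⟩ := exists_smul_eq D.inK_e1 hw (ee_ne_zero k1) h0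
      rw [← hxw, q1 _ hx]
      have h1 := z3 c x hx
      have h2 : z c * μ (siegel (ee k) (ee k1) 0) = μ (siegel (ee k) (ee k1) 0) * z c := by
        rw [z2]
        exact D.μ_comm (siegel_zero_mem_MI (Or.inl rfl) c) hm
      have h3 : z c * (α x)⁻¹ = (α x)⁻¹ * z c := by
        rw [eq_inv_mul_iff_mul_eq, ← mul_assoc, ← h1, mul_inv_cancel_right]
      calc z c * (α x * μ (siegel (ee k) (ee k1) 0) * (α x)⁻¹)
          = (z c * α x) * μ (siegel (ee k) (ee k1) 0) * (α x)⁻¹ := by group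
        _ = α x * (z c * μ (siegel (ee k) (ee k1) 0)) * (α x)⁻¹ := by rw [h1]; group
        _ = α x * μ (siegel (ee k) (ee k1) 0) * (z c * (α x)⁻¹) := by rw [h2]; group
        _ = _ := by rw [h3]; group
  -- the plane
  obtain ⟨Ψ, hΨ, hΨμ, hΨα⟩ := D.ext1
  have hplane : ∀ a b : F, q (a • ee k1 + b • ff k1) =
      Ψ (siegel (ee k) (a • ee k1 + b • ff k1) 0) := by
    intro a b
    by_cases h : a ≠ 0 ∨ b ≠ 0
    · obtain ⟨s, hs, hse⟩ := exists_SJ (F := F) (k := k1) h
      have hsG : s ∈ GK n F (k + 1) := by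
        rw [← D.hk]
        exact SJ_le_GK le_rfl hs
      have hsk : s • (ee k : V) = ee k := (mem_GK_succ.1 hsG).2.1
      have h1 := conj_siegel s (perp_ee D.inK_e1) 0
      rw [hsk] at h1
      rw [← hse, q1 s hsG, ← h1, hΨ.conj (Subgroup.mem_sup_right hs) (Subgroup.mem_sup_left hm),
        hΨμ _ hm, hΨα s hs]
    · push Not at h
      rw [h.1, h.2, zero_smul, zero_smul, add_zero, q0, siegel_zero_zero, hΨ.one]
  have hinp : ∀ a b : F, InK (k + 1) (a • ee k1 + b • ff k1 : V) := fun a b =>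
    (D.inK_e1.smul a).add (D.inK_f1.smul b)
  have hmem : ∀ a b : F, siegel (ee k) (a • ee k1 + b • ff k1 : V) 0 ∈ MI n F k ⊔ SJ F k1 := by
    intro a b
    by_cases h : a ≠ 0 ∨ b ≠ 0
    · obtain ⟨s, hs, hse⟩ := exists_SJ (F := F) (k := k1) h
      have hsG : s ∈ GK n F (k + 1) := by
        rw [← D.hk]
        exact SJ_le_GK le_rfl hs
      have h1 := conj_siegel s (perp_ee D.inK_e1) 0
      rw [(mem_GK_succ.1 hsG).2.1] at h1
      rw [← hse, ← h1]
      exact mul_mem (mul_mem (Subgroup.mem_sup_right hs) (Subgroup.mem_sup_left hm))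
        (inv_mem (Subgroup.mem_sup_right hs))
    · push Not at h
      rw [h.1, h.2, zero_smul, zero_smul, add_zero, siegel_zero_zero]
      exact one_mem _
  have hrel : ∀ a b a' b' : F, q (a • ee k1 + b • ff k1) * q (a' • ee k1 + b' • ff k1) =
      q ((a • ee k1 + b • ff k1) + (a' • ee k1 + b' • ff k1)) *
        z (f (a • ee k1 + b • ff k1) (a' • ee k1 + b' • ff k1)) := by
    intro a b a' b'
    have e1 : (a • ee k1 + b • ff k1 : V) + (a' • ee k1 + b' • ff k1) =
        (a + a') • ee k1 + (b + b') • ff k1 := by module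
    rw [hplane, hplane, ← hΨ _ (hmem a b) _ (hmem a' b'), e1, hplane, z2, ← hΨμ _
      (siegel_zero_mem_MI (Or.inl rfl) _), ← hΨ _ (hmem _ _) _
      (Subgroup.mem_sup_left (siegel_zero_mem_MI (Or.inl rfl) _)),
      siegel_mul (perp_ee (hinp a b)) (perp_ee (hinp a' b')), e1,
      siegel_mul (perp_ee (hinp _ _)) (sympForm_zero_right _), sympForm_zero_right]
    congr 2
    · rw [add_zero]
    · ring
  -- moving the relation
  have hmove : ∀ g ∈ GK n F (k + 1), ∀ w w', InK (k + 1) w → InK (k + 1) w' →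
      q w * q w' = q (w + w') * z (f w w') →
      q (g • w) * q (g • w') = q (g • w + g • w') * z (f (g • w) (g • w')) := by
    intro g hg w w' hw hw' h
    rw [form_smul, ← smul_add', hconj g hg w hw, hconj g hg w' hw', hconj g hg _ (hw.add hw')]
    have h1 := z3 (f w w') g hg
    have h3 : z (f w w') * (α g)⁻¹ = (α g)⁻¹ * z (f w w') := by
      rw [eq_inv_mul_iff_mul_eq, ← mul_assoc, ← h1, mul_inv_cancel_right]
    calc α g * q w * (α g)⁻¹ * (α g * q w' * (α g)⁻¹)
        = α g * (q w * q w') * (α g)⁻¹ := by group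
      _ = α g * q (w + w') * (z (f w w') * (α g)⁻¹) := by rw [h]; group
      _ = _ := by rw [h3]; group
  -- non-orthogonal pairs
  have hne : ∀ w w', InK (k + 1) w → InK (k + 1) w' → f w w' ≠ 0 →
      q w * q w' = q (w + w') * z (f w w') := by
    intro w w' hw hw' h
    obtain ⟨g, hg, hg1, hg2⟩ := exists_smul_pair D.inK_e1 D.inK_f1 hw
      (hw'.smul (f w w')⁻¹) (ee_ff_self k1) (by rw [sympForm_smul_right, inv_mul_cancel₀ h])
    have e1 : g • ((1 : F) • ee k1 + (0 : F) • ff k1 : V) = w := by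
      rw [one_smul, zero_smul, add_zero, hg1]
    have e2 : g • ((0 : F) • ee k1 + (f w w') • ff k1 : V) = w' := by
      rw [zero_smul, zero_add, smul_smul', hg2, smul_smul, mul_inv_cancel₀ h, one_smul]
    have := hmove g hg _ _ (hinp _ _) (hinp _ _) (hrel 1 0 0 (f w w'))
    rwa [e1, e2] at this
  have hpar : ∀ (w : V) (s : F), InK (k + 1) w →
      q w * q (s • w) = q (w + s • w) * z (f w (s • w)) := by
    intro w s hw
    by_cases h0 : w = 0
    · rw [h0, smul_zero, add_zero, q0, sympForm_zero_left, z0]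
    · obtain ⟨g, hg, hg1⟩ := exists_smul_eq D.inK_e1 hw (ee_ne_zero k1) h0
      have e1 : g • ((1 : F) • ee k1 + (0 : F) • ff k1 : V) = w := by
        rw [one_smul, zero_smul, add_zero, hg1]
      have e2 : g • (s • ee k1 + (0 : F) • ff k1 : V) = s • w := by
        rw [zero_smul, add_zero, smul_smul', hg1]
      have := hmove g hg _ _ (hinp _ _) (hinp _ _) (hrel 1 0 s 0)
      rwa [e1, e2] at this
  refine ⟨q, q0, hconj, hcen, ?_, ?_⟩
  · intro s
    have h1 := hplane s 0
    rw [zero_smul, add_zero] at h1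
    rw [h1, hΨμ _ (siegel_smul_mem_MI D.hk s 0)]
  · intro w w' hw hw'
    by_cases hww : f w w' = 0
    swap
    · exact hne w w' hw hw' hww
    by_cases h0 : w = 0
    · rw [h0, q0, one_mul, zero_add, sympForm_zero_left, z0, mul_one]
    by_cases h0' : w' = 0
    · rw [h0', q0, mul_one, add_zero, sympForm_zero_right, z0, mul_one]
    by_cases hp : ∃ s : F, w' = s • w
    · obtain ⟨s, rfl⟩ := hp
      exact hpar w s hw
    push Not at hp
    have hp' : ∀ s : F, w ≠ s • w' := by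
      intro s hs
      have hs0 : s ≠ 0 := by
        rintro rfl
        rw [zero_smul] at hs
        exact h0 hs
      exact hp s⁻¹ (by rw [hs, smul_smul, inv_mul_cancel₀ hs0, one_smul])
    obtain ⟨v1, hv1, a1, a2⟩ := exists_dual hw hw' h0' hp'
    obtain ⟨v2, hv2, b1, b2⟩ := exists_dual hw' hw h0 hp
    obtain ⟨b, hb0, hb1⟩ := hF
    -- the auxiliary decomposition `w' = w1 + w2`
    obtain ⟨w1, hw1J, hw1, hw1'⟩ : ∃ w1, InK (k + 1) w1 ∧ f w w1 = 1 ∧ f w1 w' = b := by
      refine ⟨v1 - b • v2, hv1.sub (hv2.smul _), ?_, ?_⟩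
      · rw [sympForm_sub_right, sympForm_smul_right, a1, b2]; ring
      · rw [sympForm_swap, sympForm_sub_right, sympForm_smul_right, a2, b1]; ring
    have r1 := hne w w1 hw hw1J (by rw [hw1]; exact one_ne_zero)
    have f2 : f w1 (w' - w1) = b := by rw [sympForm_sub_right, hw1', sympForm_self, sub_zero]
    have f3 : f (w + w1) (w' - w1) = b - 1 := by
      rw [sympForm_add_left, f2, sympForm_sub_right, hww, hw1]; ring
    have r2 := hne w1 (w' - w1) hw1J (hw'.sub hw1J) (by rw [f2]; exact hb0)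
    have r3 := hne (w + w1) (w' - w1) (hw.add hw1J) (hw'.sub hw1J)
      (by rw [f3]; exact sub_ne_zero.2 hb1)
    rw [hw1] at r1
    rw [f2, add_sub_cancel] at r2
    rw [f3, show w + w1 + (w' - w1) = w + w' by abel] at r3
    rw [hww, z0, mul_one]
    have hzb : z b = z (b - 1) * z 1 := by rw [← z1, sub_add_cancel]
    have c1 := hcen (w' - w1) (hw'.sub hw1J) 1
    have : q w * (q w' * z b) = q (w + w') * z b := by
      rw [← r2, ← mul_assoc, r1, mul_assoc, c1, ← mul_assoc, r3, hzb]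
      group
    rw [← mul_assoc] at this
    exact mul_right_cancel this

end StepData

/-- the stabiliser of `ee k` in `GK k` -/
def PK {n : ℕ} (F : Type*) [Field F] (k : Fin n) : Subgroup (Matrix.symplecticGroup (Fin n) F) where
  carrier := {g | g ∈ GK n F k ∧ g • (ee k : Fin n ⊕ Fin n → F) = ee k}
  mul_mem' := by
    rintro a b ⟨ha, ha'⟩ ⟨hb, hb'⟩
    exact ⟨mul_mem ha hb, by rw [mul_smul, hb', ha']⟩
  one_mem' := ⟨one_mem _, one_smul _ _⟩
  inv_mem' := by
    rintro a ⟨ha, ha'⟩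
    exact ⟨inv_mem ha, by rw [inv_smul_eq_iff]; exact ha'.symm⟩

theorem mem_PK {k : Fin n} {g : G} : g ∈ PK F k ↔ g ∈ GK n F k ∧ g • (ee k : V) = ee k := Iff.rfl

namespace StepData

variable {k k1 : Fin n} {α σ μ : Matrix.symplecticGroup (Fin n) F → H}
  (D : StepData k k1 α σ μ)

include D

/-- **The homomorphism on the stabiliser.** -/
theorem exists_beta (hF : ∃ a : F, a ≠ 0 ∧ a ≠ 1) : ∃ β : G → H, IsHomOn (PK F k) β ∧
    (∀ g ∈ GK n F (k + 1), β g = α g) ∧ (∀ m ∈ MI n F k, β m = μ m) ∧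
    ∀ a ∈ SJ F k, a • (ee k : V) = ee k → β a = σ a := by
  obtain ⟨q, q0, hconj, hcen, qμ, hmul⟩ := D.exists_q hF
  obtain ⟨z1, z2, z3⟩ := D.z_facts
  set z : F → H := fun c => σ (siegel (ee k) 0 c) with hz
  have hzz : ∀ c, σ (siegel (ee k) 0 c) = z c := fun c => rfl
  have z0 : z 0 = 1 := by rw [← hzz, siegel_zero_zero, D.homσ.one]
  simp only [hzz] at z1 z2 z3 hcen hmul
  set β : G → H := fun g => q (wOf k g) * z (cOf k g) *
    α ((siegel (ee k) (wOf k g) (cOf k g))⁻¹ * g) with hβ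
  have hrep : ∀ (w : V) (c : F) (g : G), InK (k + 1) w → g ∈ GK n F (k + 1) →
      β (siegel (ee k) w c * g) = q w * z c * α g := by
    intro w c g hw hg
    change q (wOf k _) * z (cOf k _) * α ((siegel (ee k) (wOf k _) (cOf k _))⁻¹ * _) = _
    rw [wOf_rep hw c hg, cOf_rep hw c hg, inv_mul_cancel_left]
  have hα : ∀ g ∈ GK n F (k + 1), β g = α g := by
    intro g hg
    have := hrep 0 0 g (inK_zero _) hg
    rwa [siegel_zero_zero, one_mul, q0, z0, one_mul, one_mul] at this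
  refine ⟨β, ?_, hα, ?_, ?_⟩
  · intro a ha b hb
    obtain ⟨w, c, g, hw, hg, rfl⟩ := exists_rep ha.1 ha.2
    obtain ⟨w', c', g', hw', hg', rfl⟩ := exists_rep hb.1 hb.2
    rw [rep_mul hw hw' c c' hg, hrep _ _ _ (hw.add (hw'.act hg)) (mul_mem hg hg'),
      hrep w c g hw hg, hrep w' c' g' hw' hg', D.homα g hg g' hg', z1, z1]
    have h1 := hmul w (g • w') hw (hw'.act hg)
    have h2 := z3 c g hg
    have h3 := hconj g hg w' hw'
    have h4 : z (f w (g • w')) * (z c * z c') = z c * z c' * z (f w (g • w')) := by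
      rw [← z1, ← z1, ← z1, add_comm]
    have h5 := z3 c' g hg
    have h6 := hcen w' hw' c
    have h7 := hcen w' hw' c'
    have h8 : (α g)⁻¹ * z c = z c * (α g)⁻¹ := by
      rw [inv_mul_eq_iff_eq_mul, ← mul_assoc, ← h2, mul_inv_cancel_right]
    calc q (w + g • w') * (z c * z c' * z (f w (g • w'))) * (α g * α g')
        = (q (w + g • w') * z (f w (g • w'))) * (z c * z c') * (α g * α g') := by
          rw [← h4]; group
      _ = q w * (α g * q w' * (α g)⁻¹) * (z c * z c') * (α g * α g') := by rw [← h1, h3]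
      _ = q w * α g * q w' * ((α g)⁻¹ * z c) * z c' * α g * α g' := by group
      _ = q w * α g * (q w' * z c) * (α g)⁻¹ * (z c' * α g) * α g' := by rw [h8]; group
      _ = q w * (α g * z c) * q w' * z c' * α g' := by rw [← h6, h5]; group
      _ = _ := by rw [← h2]; group
  · intro m hm
    have hmG : m ∈ GK n F k := MI_le_GK le_rfl hm
    have hme : m • (ee k : V) = ee k := hm.1 k
    -- the parameter is a multiple of `ee k1`
    have hkk : k1 ≠ k := by
      intro h
      have := D.hk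
      rw [h] at this
      omega
    have hw1 : ∀ j, f (wOf k m) (ee j) = 0 := by
      intro j
      have h1 := form_smul m (ff k) (ee j)
      rw [hm.1 j] at h1
      rw [wOf, sympForm_sub_left, sympForm_sub_left, sympForm_smul_left, ee_ee, h1]
      ring
    have hw2 : ∀ j, j ≠ k1 → f (wOf k m) (ff j) = 0 := by
      intro j hj
      by_cases hjk : j = k
      · rw [hjk]
        exact (inK_succ.1 (inK_wOf hmG hme)).2.2
      · have h1 := form_smul m (ff k) (ff j)
        rw [hm.2 j (fun h => hjk (Fin.ext h)) (fun h => hj (Fin.ext (h.trans D.hk.symm)))] at h1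
        rw [wOf, sympForm_sub_left, sympForm_sub_left, sympForm_smul_left,
          ee_ff_of_ne (Ne.symm hjk), ff_ff, h1, ff_ff]
        ring
    have hw3 := eq_smul_ee hw1 hw2
    set s := f (wOf k m) (ff k1)
    obtain ⟨w, c, g, hw, hg, hrepm⟩ := exists_rep hmG hme
    have hws : w = s • ee k1 := by
      rw [← hw3, hrepm, wOf_rep hw c hg]
    subst hws
    have hT : siegel (ee k) (s • ee k1 : V) c ∈ MI n F k := siegel_smul_mem_MI D.hk s c
    have hgM : g ∈ MI n F k := by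
      have : g = (siegel (ee k) (s • ee k1 : V) c)⁻¹ * m := by rw [hrepm, inv_mul_cancel_left]
      rw [this]
      exact mul_mem (inv_mem hT) hm
    have hgS : g ∈ SJ F k1 := by
      intro j hj
      refine ⟨hgM.1 j, ?_⟩
      by_cases hjk : j = k
      · rw [hjk]
        exact (mem_GK_succ.1 hg).2.2
      · exact hgM.2 j (fun h => hjk (Fin.ext h)) (fun h => hj (Fin.ext (h.trans D.hk.symm)))
    rw [hrepm, hrep _ c g hw hg, qμ, z2, ← D.agree1 hgM hgS, D.homμ _ hT _ hgM,
      siegel_split hw c, D.homμ _ (siegel_smul_mem_MI D.hk s 0) _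
      (siegel_zero_mem_MI (Or.inl rfl) c)]
  · intro a ha hae
    have haG : a ∈ GK n F k := SJ_le_GK le_rfl ha
    obtain ⟨w, c, g, hw, hg, hrepm⟩ := exists_rep haG hae
    have hw0 : w = 0 := by
      have h1 : w = wOf k a := by rw [hrepm, wOf_rep hw c hg]
      rw [expand w]
      refine Finset.sum_eq_zero fun j _ => ?_
      by_cases hj : j = k
      · rw [hj, (inK_succ.1 hw).2.1, (inK_succ.1 hw).2.2]
        simp
      · have e1 := form_smul a (ff k) (ee j)
        have e2 := form_smul a (ff k) (ff j)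
        rw [(ha j hj).1, ff_ee_of_ne (Ne.symm hj)] at e1
        rw [(ha j hj).2, ff_ff] at e2
        have e3 : f w (ee j) = 0 := by
          rw [h1, wOf, sympForm_sub_left, sympForm_sub_left, sympForm_smul_left, e1, ee_ee,
            ff_ee_of_ne (Ne.symm hj)]
          ring
        have e4 : f w (ff j) = 0 := by
          rw [h1, wOf, sympForm_sub_left, sympForm_sub_left, sympForm_smul_left, e2,
            ee_ff_of_ne (Ne.symm hj), ff_ff]
          ring
        rw [e3, e4]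
        simp
    subst hw0
    have hT := siegel_zero_mem_SJ (F := F) k c
    have hgS : g ∈ SJ F k := by
      have : g = (siegel (ee k) (0 : V) c)⁻¹ * a := by rw [hrepm, inv_mul_cancel_left]
      rw [this]
      exact mul_mem (inv_mem hT) ha
    have hg1 : g = 1 := by
      apply ext_basis
      · intro j
        rw [one_smul]
        by_cases hj : j = k
        · rw [hj]; exact (mem_GK_succ.1 hg).2.1
        · exact (hgS j hj).1
      · intro j
        rw [one_smul]
        by_cases hj : j = k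
        · rw [hj]; exact (mem_GK_succ.1 hg).2.2
        · exact (hgS j hj).2
    rw [hrepm, hrep 0 c g (inK_zero _) hg, q0, hg1, D.homα.one, mul_one, mul_one, one_mul]

end StepData

end Cfsg.Agent.H434.Slim
end

-- part: H434/SlimStep
section
/-!
# The inductive step for the slim amalgam

`StepData.exists_hom` : the homomorphism of `GK k`.
-/

set_option autoImplicit false
open Cfsg
open scoped Matrix
open Cfsg.Agent.ClassicalGeometry.SympBasic Cfsg.Agent.ClassicalGeometry.SympSiegel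
open Cfsg.Agent.Phan.Cover

namespace Cfsg.Agent.H434.Slim

variable {F : Type*} [Field F] {n : ℕ} {H : Type*} [Group H]

local notation "V" => (Fin n ⊕ Fin n → F)
local notation "G" => Matrix.symplecticGroup (Fin n) F
local notation "f" => sympForm n F

/-- nonzero vectors orthogonal to the first `k` pairs -/
def Om (n : ℕ) (F : Type*) [Field F] (k : ℕ) : Type _ :=
  {v : Fin n ⊕ Fin n → F // InK k v ∧ v ≠ 0}

instance instMulActionOmSlim (k : ℕ) : MulAction ↥(GK n F k) (Om n F k) where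
  smul g v := ⟨(g : Matrix.symplecticGroup (Fin n) F) • v.1, v.2.1.act g.2,
    smul_ne_zero' _ v.2.2⟩
  one_smul _ := Subtype.ext (one_smul _ _)
  mul_smul _ _ _ := Subtype.ext (mul_smul _ _ _)

theorem Om.smul_val {k : ℕ} (g : ↥(GK n F k)) (v : Om n F k) :
    (g • v).1 = (g : Matrix.symplecticGroup (Fin n) F) • v.1 := rfl

theorem PK_le_GK (k : Fin n) : PK F k ≤ GK n F k := fun _ h => h.1

theorem GK_succ_le_PK (k : Fin n) : GK n F (k + 1) ≤ PK F k :=
  fun _ h => ⟨GK_succ_le _ h, (mem_GK_succ.1 h).2.1⟩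

theorem MI_le_PK (k : Fin n) : MI n F k ≤ PK F k := fun _ h => ⟨MI_le_GK le_rfl h, h.1 k⟩

theorem SJ_le_GK_self (k : Fin n) : SJ F k ≤ GK n F k := SJ_le_GK le_rfl

/-- the data -/
def sctx (k : Fin n) {β σ : Matrix.symplecticGroup (Fin n) F → H} (hβ : IsHomOn (PK F k) β)
    (hσ : IsHomOn (SJ F k) σ) : Ctx ↥(GK n F k) H (Om n F k) ↥(PK F k) ↥(SJ F k) where
  p := ⟨ee k, inK_ee k, ee_ne_zero k⟩
  adj u v := sympForm n F u.1 v.1 ≠ 0
  ι := Subgroup.inclusion (PK_le_GK k)
  α := hβ.toHom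
  κ := Subgroup.inclusion (SJ_le_GK_self k)
  φ := hσ.toHom

/-- avoiding two values -/
theorem exists_avoid (hF : ∃ a : F, a ≠ 0 ∧ a ≠ 1) {a b c d : F} (hb : b ≠ 0) (hd : d ≠ 0) :
    ∃ s : F, a + s * b ≠ 0 ∧ c + s * d ≠ 0 := by
  obtain ⟨t, ht0, ht1⟩ := hF
  by_contra hcon
  push Not at hcon
  -- at each of `0, 1, t` one of the two vanishes
  have key : ∀ x y : F, x ≠ y → a + x * b = 0 → a + y * b ≠ 0 := by
    intro x y hxy h1 h2
    have : (x - y) * b = 0 := by linear_combination h1 - h2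
    rcases mul_eq_zero.1 this with h | h
    · exact hxy (sub_eq_zero.1 h)
    · exact hb h
  have key' : ∀ x y : F, x ≠ y → c + x * d = 0 → c + y * d ≠ 0 := by
    intro x y hxy h1 h2
    have : (x - y) * d = 0 := by linear_combination h1 - h2
    rcases mul_eq_zero.1 this with h | h
    · exact hxy (sub_eq_zero.1 h)
    · exact hd h
  by_cases h0 : a + 0 * b = 0
  · have h1 := hcon 1 (key 0 1 zero_ne_one h0)
    exact key' 1 t (Ne.symm ht1) h1 (hcon t (key 0 t (Ne.symm ht0) h0))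
  · have h0' := hcon 0 h0
    have h1 : a + 1 * b = 0 := by
      by_contra h1
      exact key' 0 1 zero_ne_one h0' (hcon 1 h1)
    exact key' 0 t (Ne.symm ht0) h0' (hcon t (key 1 t (Ne.symm ht1) h1))

theorem eq_zero_of_inJ {k : Fin n} {w : V} (h1 : InK (k + 1) w) (h2 : InJ (fun l => l ≠ k) w) :
    w = 0 := by
  rw [expand w]
  refine Finset.sum_eq_zero fun j _ => ?_
  by_cases hj : j = k
  · rw [hj, (inK_succ.1 h1).2.1, (inK_succ.1 h1).2.2]
    simp
  · rw [(h2 j hj).1, (h2 j hj).2]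
    simp

theorem PK_SJ_comm {k : Fin n} {a g : G} (ha : a ∈ SJ F k) (hg : g ∈ GK n F (k + 1)) :
    a * g = g * a := by
  refine GJ_comm (J := fun j => j ≠ k) (J' := fun j : Fin n => (j : ℕ) < k + 1) ?_ ha hg
  intro j
  by_cases h : j = k
  · right; rw [h]; exact Nat.lt_succ_self _
  · exact Or.inl h

namespace StepData

variable {k k1 : Fin n} {α σ μ : Matrix.symplecticGroup (Fin n) F → H}
  (D : StepData k k1 α σ μ)

include D

theorem sctx_hyp {β : Matrix.symplecticGroup (Fin n) F → H} (hβ : IsHomOn (PK F k) β)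
    (hβα : ∀ g ∈ GK n F (k + 1), β g = α g)
    (hβσ : ∀ a ∈ SJ F k, a • (ee k : V) = ee k → β a = σ a) :
    (sctx k hβ D.homσ).Hyp where
  inj := Subgroup.inclusion_injective (PK_le_GK k)
  stab m hm := ⟨⟨m.1, m.2, congrArg Subtype.val hm⟩, rfl⟩
  fix k := Subtype.ext k.2.2
  symm := by
    intro u v h h'
    apply h
    rw [sympForm_swap, h', neg_zero]
  inv := by
    intro m u v h
    change f (m.1 • u.1) (m.1 • v.1) ≠ 0
    rw [form_smul]
    exact h
  nbr := by
    intro w hw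
    obtain ⟨w0, hw0, hwe⟩ := decomp w.2.1
    have hb : f (ee k) w.1 ≠ 0 := hw
    obtain ⟨s, hs, hse⟩ := exists_SJ (F := F) (k := k) (a := 0) (b := f (ee k) w.1) (Or.inr hb)
    rw [zero_smul, zero_add] at hse
    refine ⟨⟨siegel (ee k) ((f (ee k) w.1)⁻¹ • w0) ((f (ee k) w.1)⁻¹ * f w.1 (ff k)),
      siegel_mem_GK (hw0.smul _) _, siegel_ee (hw0.smul _) _⟩, ⟨s, hs⟩, ?_⟩
    apply Subtype.ext
    change siegel (ee k) ((f (ee k) w.1)⁻¹ • w0) ((f (ee k) w.1)⁻¹ * f w.1 (ff k)) •
      s • (ee k : V) = w.1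
    rw [hse, siegel_move hw0 _ hb, ← hwe]
  uniq := by
    rintro ⟨x, hxG, hxe⟩ ⟨a, ha⟩ ⟨b, hb⟩ hadj heq
    have hadj' : f (ee k) (a • ee k) ≠ 0 := hadj
    have heq' : x • a • (ee k : V) = b • ee k := congrArg Subtype.val heq
    obtain ⟨w, c, g, hw, hg, rfl⟩ := exists_rep hxG hxe
    have haJ : InJ (fun l => l ≠ k) (a • ee k : V) := (inJ_ee (by simp)).act ha
    have hbJ : InJ (fun l => l ≠ k) (b • ee k : V) := (inJ_ee (by simp)).act hb
    -- `w = 0`
    have hw0 : w = 0 := by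
      have h1 : g • a • (ee k : V) = a • ee k := by
        rw [← mul_smul, ← PK_SJ_comm ha hg, mul_smul, (mem_GK_succ.1 hg).2.1]
      rw [mul_smul, h1, siegel_smul (perp_ee hw)] at heq'
      have h2 : f w (a • ee k) = 0 := by
        obtain ⟨w0, hw0, hwe⟩ := decomp (SJ_le_GK_self k ha |> (inK_ee k).act)
        have h3 : w0 = 0 := by
          refine eq_zero_of_inJ hw0 ?_
          have : w0 = a • (ee k : V) - (f (a • ee k) (ff k) • ee k + f (ee k) (a • ee k) • ff k) := by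
            rw [eq_sub_iff_add_eq, add_comm]
            exact hwe.symm
          rw [this]
          exact haJ.sub (inJ_plane _ _)
        rw [hwe, h3, add_zero, sympForm_add_right, sympForm_smul_right, sympForm_smul_right,
          (inK_succ.1 hw).2.1, (inK_succ.1 hw).2.2]
        ring
      rw [h2, zero_smul, add_zero] at heq'
      have h4 : f (ee k) (a • ee k) • w =
          b • (ee k : V) - a • ee k - (f (ee k) (a • ee k) * c) • ee k := by
        rw [← heq', smul_add, smul_smul]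
        abel
      have h5 : InJ (fun l => l ≠ k) (f (ee k) (a • ee k) • w) := by
        rw [h4]
        exact (hbJ.sub haJ).sub ((inJ_ee (by simp)).smul _)
      have h6 := eq_zero_of_inJ (hw.smul _) h5
      exact (smul_eq_zero.1 h6).resolve_left hadj'
    subst hw0
    set y := siegel (ee k) (0 : V) c with hy
    have hyS : y ∈ SJ F k := siegel_zero_mem_SJ k c
    have hye : y • (ee k : V) = ee k := siegel_ee (inK_zero _) c
    have hx' : b⁻¹ * y * a ∈ SJ F k := mul_mem (mul_mem (inv_mem hb) hyS) ha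
    have hge : g • (ee k : V) = ee k := (mem_GK_succ.1 hg).2.1
    have hx'e : (b⁻¹ * y * a) • (ee k : V) = ee k := by
      rw [mul_smul, mul_smul, inv_smul_eq_iff, ← heq', mul_smul, ← mul_smul g a,
        ← PK_SJ_comm ha hg, mul_smul, hge]
    have hx'P : b⁻¹ * y * a ∈ PK F k := ⟨SJ_le_GK_self k hx', hx'e⟩
    have hgP : g ∈ PK F k := GK_succ_le_PK k hg
    have hyP : y ∈ PK F k := ⟨SJ_le_GK_self k hyS, hye⟩
    refine ⟨⟨b⁻¹ * y * a * g, mul_mem hx'P hgP⟩, ?_, ?_⟩
    · apply Subtype.ext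
      change y * g * a = b * (b⁻¹ * y * a * g)
      rw [mul_assoc y g a, ← PK_SJ_comm ha hg]
      group
    · change β (y * g) * σ a = σ b * β (b⁻¹ * y * a * g)
      rw [hβ _ hyP _ hgP, hβ _ hx'P _ hgP, hβα g hg, hβσ _ hx' hx'e, hβσ y hyS hye, mul_assoc,
        ← D.commS a ha g hg, D.homσ _ (mul_mem (inv_mem hb) hyS) _ ha,
        D.homσ _ (inv_mem hb) _ hyS, D.homσ.inv hb]
      group

/-- **The inductive step.** -/
theorem exists_hom (hF : ∃ a : F, a ≠ 0 ∧ a ≠ 1) : ∃ Φ : G → H, IsHomOn (GK n F k) Φ ∧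
    (∀ g ∈ GK n F (k + 1), Φ g = α g) ∧ (∀ m ∈ MI n F k, Φ m = μ m) ∧
    ∀ a ∈ SJ F k, Φ a = σ a := by
  obtain ⟨β, hβ, hβα, hβμ, hβσ⟩ := D.exists_beta hF
  obtain ⟨Ψ, hΨ, hΨμ, hΨσ⟩ := D.ext0
  have hyp := D.sctx_hyp hβ hβα hβσ
  have hle : MI n F k ⊔ SJ F k ≤ GK n F k := (sup_le_RK k).trans (RK_le_GK k)
  -- the third subgroup
  have hB : ∀ b : ↥(MI n F k ⊔ SJ F k),
      (sctx k hβ D.homσ).adj (sctx k hβ D.homσ).p
        ((Subgroup.inclusion hle) b • (sctx k hβ D.homσ).p) →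
      (sctx k hβ D.homσ).E ((Subgroup.inclusion hle) b, hΨ.toHom b) := by
    rintro ⟨b, hb⟩ hadj
    have hb0 : f (ee k) (b • ee k) ≠ 0 := hadj
    have hbR := sup_le_RK k hb
    obtain ⟨w0, hw0, hbe⟩ := decomp ((inK_ee k).act (hle hb))
    set a0 := f (b • ee k) (ff k) with ha0
    set b0 := f (ee k) (b • ee k) with hb0'
    have h1 : ∀ j, f w0 (ee j) = 0 := by
      intro j
      by_cases hj : j = k
      · rw [hj]; exact (inK_succ.1 hw0).2.1
      · have e1 := form_smul b (ee k) (ee j)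
        rw [hbR.1 j hj, hbe, sympForm_add_left, sympForm_add_left, sympForm_smul_left,
          sympForm_smul_left, ee_ee, ff_ee_of_ne (Ne.symm hj)] at e1
        linear_combination e1
    have h2 : ∀ j, j ≠ k1 → f w0 (ff j) = 0 := by
      intro j hj1
      by_cases hj : j = k
      · rw [hj]; exact (inK_succ.1 hw0).2.2
      · have e1 := form_smul b (ee k) (ff j)
        rw [hbR.2 j hj (fun h => hj1 (Fin.ext (h.trans D.hk.symm))), hbe, sympForm_add_left,
          sympForm_add_left, sympForm_smul_left, sympForm_smul_left, ff_ff,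
          ee_ff_of_ne (Ne.symm hj)] at e1
        linear_combination e1
    have h3 := eq_smul_ee h1 h2
    have hT : siegel (ee k) (b0⁻¹ • w0) (b0⁻¹ * a0) ∈ MI n F k := by
      rw [h3, smul_smul]
      exact siegel_smul_mem_MI D.hk _ _
    set T := siegel (ee k) (b0⁻¹ • w0) (b0⁻¹ * a0) with hT'
    obtain ⟨s, hs, hse⟩ := exists_SJ (F := F) (k := k) (a := 0) (b := b0) (Or.inr hb0)
    rw [zero_smul, zero_add] at hse
    have hTs : T • s • (ee k : V) = b • ee k := by
      rw [hse, hT', siegel_move hw0 a0 hb0, ← hbe]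
    have hl : (T * s)⁻¹ * b ∈ MI n F k := by
      refine mem_MI_of_RK (mul_mem (inv_mem (mul_mem ?_ ?_)) hbR) ?_
      · exact sup_le_RK k (Subgroup.mem_sup_left hT)
      · exact sup_le_RK k (Subgroup.mem_sup_right hs)
      · rw [mul_smul, inv_smul_eq_iff, mul_smul, hTs]
    refine ⟨⟨T, MI_le_PK k hT⟩, ⟨s, hs⟩, ⟨(T * s)⁻¹ * b, MI_le_PK k hl⟩, ?_, Prod.ext ?_ ?_⟩
    · change f (ee k) (s • ee k) ≠ 0
      rw [hse, sympForm_smul_right, ee_ff_self, mul_one]
      exact hb0
    · apply Subtype.ext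
      change b = T * s * ((T * s)⁻¹ * b)
      group
    · change Ψ b = β T * σ s * β ((T * s)⁻¹ * b)
      have m1 := Subgroup.mem_sup_left (T := SJ F k) hT
      have m2 := Subgroup.mem_sup_right (S := MI n F k) hs
      rw [hβμ _ hT, hβμ _ hl, ← hΨμ _ hT, ← hΨμ _ hl, ← hΨσ s hs, ← hΨ _ m1 _ m2,
        ← hΨ _ (mul_mem m1 m2) _ (Subgroup.mem_sup_left hl), mul_inv_cancel_left]
  -- triangles
  have htri : ∀ u v w : Om n F k, (sctx k hβ D.homσ).adj u v → (sctx k hβ D.homσ).adj u w →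
      (sctx k hβ D.homσ).adj v w → (sctx k hβ D.homσ).Tri u v w := by
    intro u v w huv huw hvw
    have huv' : f u.1 v.1 ≠ 0 := huv
    have huw' : f u.1 w.1 ≠ 0 := huw
    obtain ⟨g0, hg0, hg0e, hg0f⟩ := exists_smul_pair (inK_ee k) (inK_ff k) u.2.1
      (v.2.1.smul (f u.1 v.1)⁻¹) (ee_ff_self k)
      (by rw [sympForm_smul_right, inv_mul_cancel₀ huv'])
    obtain ⟨w0, hw0, hwe⟩ := decomp (w.2.1.act (inv_mem hg0))
    obtain ⟨g1, hg1, t, ht⟩ : ∃ g1 ∈ GK n F (k + 1), ∃ t : F, g1 • (t • ee k1 : V) = w0 := by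
      by_cases h0 : w0 = 0
      · exact ⟨1, one_mem _, 0, by rw [zero_smul, smul_zero', h0]⟩
      · obtain ⟨g1, hg1, h⟩ := exists_smul_eq D.inK_e1 hw0 (ee_ne_zero k1) h0
        exact ⟨g1, hg1, 1, by rw [one_smul, h]⟩
    set a0 := f (g0⁻¹ • w.1) (ff k) with ha0
    set b0 := f (ee k) (g0⁻¹ • w.1) with hb0
    have hb0' : b0 ≠ 0 := by
      have := form_smul g0 (ee k) (g0⁻¹ • w.1)
      rw [smul_inv_smul, hg0e] at this
      rw [hb0, ← this]
      exact huw'
    obtain ⟨h1e, h1f⟩ := (mem_GK_succ.1 hg1).2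
    obtain ⟨s, hs, hse⟩ := exists_SJ (F := F) (k := k) (a := 0) (b := f u.1 v.1) (Or.inr huv')
    obtain ⟨s', hs', hse'⟩ := exists_SJ (F := F) (k := k) (a := 0) (b := b0) (Or.inr hb0')
    rw [zero_smul, zero_add] at hse hse'
    have hT : siegel (ee k) (b0⁻¹ • (t • ee k1 : V)) (b0⁻¹ * a0) ∈ MI n F k := by
      rw [smul_smul]
      exact siegel_smul_mem_MI D.hk _ _
    have hTm := siegel_move (k := k) (D.inK_e1.smul t) a0 hb0'
    set T := siegel (ee k) (b0⁻¹ • (t • ee k1 : V)) (b0⁻¹ * a0) with hT'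
    set g : ↥(GK n F k) := ⟨g0 * g1, mul_mem hg0 (GK_succ_le _ hg1)⟩ with hg
    set x1 : ↥(MI n F k ⊔ SJ F k) := 1
    set x2 : ↥(MI n F k ⊔ SJ F k) := ⟨s, Subgroup.mem_sup_right hs⟩ with hx2
    set x3 : ↥(MI n F k ⊔ SJ F k) :=
      ⟨T * s', mul_mem (Subgroup.mem_sup_left hT) (Subgroup.mem_sup_right hs')⟩ with hx3
    have e1 : g • (Subgroup.inclusion hle) x1 • (sctx k hβ D.homσ).p = u := by
      rw [map_one, one_smul]
      apply Subtype.ext
      change (g0 * g1) • (ee k : V) = u.1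
      rw [mul_smul, h1e, hg0e]
    have e2 : g • (Subgroup.inclusion hle) x2 • (sctx k hβ D.homσ).p = v := by
      apply Subtype.ext
      change (g0 * g1) • s • (ee k : V) = v.1
      rw [mul_smul, hse, smul_smul', h1f, smul_smul', hg0f, smul_smul, mul_inv_cancel₀ huv',
        one_smul]
    have e3 : g • (Subgroup.inclusion hle) x3 • (sctx k hβ D.homσ).p = w := by
      apply Subtype.ext
      change (g0 * g1) • (T * s') • (ee k : V) = w.1
      have h4 : g1 • (a0 • ee k + b0 • ff k + t • ee k1 : V) = a0 • ee k + b0 • ff k + w0 := by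
        rw [smul_add', smul_add', smul_smul' g1 a0, h1e, smul_smul' g1 b0, h1f, ht]
      rw [mul_smul T, hse', hTm, mul_smul, h4, ← hwe, smul_inv_smul]
    rw [← e1, ← e2, ← e3]
    apply hyp.tri_smul
    have hinv : ∀ x y : Om n F k, (sctx k hβ D.homσ).adj (g • x) (g • y) →
        (sctx k hβ D.homσ).adj x y := by
      intro x y h
      have := hyp.inv g⁻¹ h
      rwa [inv_smul_smul, inv_smul_smul] at this
    refine hyp.tri_of_hom (Subgroup.inclusion hle) hΨ.toHom hB x1 x2 x3 ?_ ?_ ?_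
    · apply hinv; rw [e1, e2]; exact huv
    · apply hinv; rw [e1, e3]; exact huw
    · apply hinv; rw [e2, e3]; exact hvw
  -- neighbours
  have hswap : ∀ {x y : V}, f x y ≠ 0 → f y x ≠ 0 := by
    intro x y h h'
    apply h
    rw [sympForm_swap, h', neg_zero]
  have hnz : ∀ {x y : V}, f x y ≠ 0 → y ≠ 0 := by
    rintro x y h rfl
    exact h (sympForm_zero_right _)
  have hD : ∀ w : Om n F k, ∃ u, (sctx k hβ D.homσ).adj (sctx k hβ D.homσ).p u ∧
      (sctx k hβ D.homσ).adj u w := by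
    intro w
    obtain ⟨z, hz, h1, h2⟩ := exists_both (inK_ee k) w.2.1 (ee_ne_zero k) w.2.2
    exact ⟨⟨z, hz, hnz h1⟩, h1, hswap h2⟩
  have hP : ∀ w w' : Om n F k, (sctx k hβ D.homσ).adj w w' →
      ∃ u, (sctx k hβ D.homσ).adj (sctx k hβ D.homσ).p u ∧ (sctx k hβ D.homσ).adj u w ∧
        (sctx k hβ D.homσ).adj u w' := by
    intro w w' hww
    have hww' : f w.1 w'.1 ≠ 0 := hww
    obtain ⟨z, hz, h1, h2⟩ := exists_both (inK_ee k) w.2.1 (ee_ne_zero k) w.2.2
    by_cases h3 : f w'.1 z = 0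
    · -- `u = z + s w`, `s ≠ 0`
      obtain ⟨s, hs0, hs1⟩ : ∃ s : F, s ≠ 0 ∧ f (ee k) z + s * f (ee k) w.1 ≠ 0 := by
        by_cases h4 : f (ee k) w.1 = 0
        · exact ⟨1, one_ne_zero, by rw [h4, mul_zero, add_zero]; exact h1⟩
        · obtain ⟨s, hs1, hs2⟩ := exists_avoid hF (a := f (ee k) z) (b := f (ee k) w.1)
            (c := (0 : F)) (d := 1) h4 one_ne_zero
          refine ⟨s, ?_, hs1⟩
          rintro rfl
          exact hs2 (by ring)
      have u1 : f (ee k) (z + s • w.1) ≠ 0 := by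
        rw [sympForm_add_right, sympForm_smul_right]
        exact hs1
      have u2 : f w.1 (z + s • w.1) ≠ 0 := by
        rw [sympForm_add_right, sympForm_smul_right, sympForm_self, mul_zero, add_zero]
        exact h2
      have u3 : f w'.1 (z + s • w.1) ≠ 0 := by
        rw [sympForm_add_right, sympForm_smul_right, h3, zero_add]
        exact mul_ne_zero hs0 (hswap hww')
      exact ⟨⟨z + s • w.1, hz.add (w.2.1.smul s), hnz u1⟩, u1, hswap u2, hswap u3⟩
    · exact ⟨⟨z, hz, hnz h1⟩, h1, hswap h2, hswap h3⟩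
  have hQ : ∀ w u u' : Om n F k, (sctx k hβ D.homσ).adj (sctx k hβ D.homσ).p u →
      (sctx k hβ D.homσ).adj u w → (sctx k hβ D.homσ).adj (sctx k hβ D.homσ).p u' →
      (sctx k hβ D.homσ).adj u' w → Cover2.Same (sctx k hβ D.homσ) w u u' := by
    intro w u u' hu huw hu' hu'w
    refine (Cover2.same_of_path hyp htri hu huw ?_).1
    by_cases huu : f u.1 u'.1 = 0
    · obtain ⟨x, hx, h1, h2⟩ := exists_both u.2.1 u'.2.1 u.2.2 u'.2.2
      have hpu : f (ee k) u.1 ≠ 0 := hu
      have hwu : f w.1 u.1 ≠ 0 := hswap huw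
      obtain ⟨s, hs1, hs2⟩ := exists_avoid hF (a := f (ee k) x) (b := f (ee k) u.1)
        (c := f w.1 x) (d := f w.1 u.1) hpu hwu
      have v1 : f (ee k) (x + s • u.1) ≠ 0 := by
        rw [sympForm_add_right, sympForm_smul_right]
        exact hs1
      have v2 : f w.1 (x + s • u.1) ≠ 0 := by
        rw [sympForm_add_right, sympForm_smul_right]
        exact hs2
      have v3 : f u.1 (x + s • u.1) ≠ 0 := by
        rw [sympForm_add_right, sympForm_smul_right, sympForm_self, mul_zero, add_zero]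
        exact h1
      have v4 : f u'.1 (x + s • u.1) ≠ 0 := by
        rw [sympForm_add_right, sympForm_smul_right, sympForm_swap u'.1 u.1, huu, neg_zero,
          mul_zero, add_zero]
        exact h2
      exact (Relation.ReflTransGen.single (b := (⟨x + s • u.1, hx.add (u.2.1.smul s), hnz v1⟩ :
        Om n F k)) ⟨v3, v1, hswap v2⟩).tail ⟨hswap v4, hu', hu'w⟩
    · exact Relation.ReflTransGen.single ⟨huu, hu', hu'w⟩
  obtain ⟨Φ, hΦ1, hΦ2⟩ := Cover2.exists_hom_of_same hyp htri hD hP hQ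
  have hΦβ : ∀ g (hg : g ∈ PK F k), Φ ⟨g, PK_le_GK k hg⟩ = β g := fun g hg => hΦ1 ⟨g, hg⟩
  have hΦσ : ∀ a (ha : a ∈ SJ F k), f (ee k) (a • ee k) ≠ 0 →
      Φ ⟨a, SJ_le_GK_self k ha⟩ = σ a := fun a ha h => hΦ2 ⟨a, ha⟩ h
  refine ⟨extF Φ, isHomOn_extF Φ, ?_, ?_, ?_⟩
  · intro g hg
    rw [extF_apply Φ (GK_succ_le _ hg), hΦβ g (GK_succ_le_PK k hg), hβα g hg]
  · intro m hm
    rw [extF_apply Φ (MI_le_GK le_rfl hm), hΦβ m (MI_le_PK k hm), hβμ m hm]
  · intro a ha
    rw [extF_apply Φ (SJ_le_GK_self k ha)]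
    by_cases h : f (ee k) (a • ee k) = 0
    · obtain ⟨s, hs, hse⟩ := exists_SJ (F := F) (k := k) (a := 0) (b := 1) (Or.inr one_ne_zero)
      rw [zero_smul, zero_add, one_smul] at hse
      have h1 : f (ee k) (s • ee k) ≠ 0 := by
        rw [hse, ee_ff_self]; exact one_ne_zero
      have h2 : f (ee k) ((a * s) • ee k) ≠ 0 := by
        rw [mul_smul, hse]
        intro h'
        obtain ⟨w0, hw0, hae⟩ := decomp ((inK_ee k).act (SJ_le_GK_self k ha))
        have haJ : InJ (fun l => l ≠ k) (a • ee k : V) := (inJ_ee (by simp)).act ha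
        have h3 : w0 = 0 := by
          refine eq_zero_of_inJ hw0 ?_
          have : w0 = a • (ee k : V) - (f (a • ee k) (ff k) • ee k + f (ee k) (a • ee k) • ff k) := by
            rw [eq_sub_iff_add_eq, add_comm]
            exact hae.symm
          rw [this]
          exact haJ.sub (inJ_plane _ _)
        have h4 := form_smul a (ee k) (ff k)
        rw [hae, h, h3, zero_smul, add_zero, add_zero, sympForm_smul_left, h', mul_zero,
          ee_ff_self] at h4
        exact zero_ne_one h4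
      have h3 := hΦσ s hs h1
      have h4 := hΦσ (a * s) (mul_mem ha hs) h2
      have h5 : Φ ⟨a * s, SJ_le_GK_self k (mul_mem ha hs)⟩ =
          Φ ⟨a, SJ_le_GK_self k ha⟩ * Φ ⟨s, SJ_le_GK_self k hs⟩ := by
        rw [← map_mul]
        rfl
      rw [h4, h3, D.homσ a ha s hs] at h5
      exact (mul_right_cancel h5).symm
    · exact hΦσ a ha h

end StepData

end Cfsg.Agent.H434.Slim
end

-- part: H434/SlimMain
section
/-!
# The slim amalgam of the symplectic group

`gen_all` : generation of `GK k` by the `SJ j` and `MI i`. `exists_ext` : the homomorphism.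
-/

set_option autoImplicit false
open Cfsg
open scoped Matrix
open Cfsg.Agent.ClassicalGeometry.SympBasic Cfsg.Agent.ClassicalGeometry.SympSiegel

namespace Cfsg.Agent.H434.Slim

variable {F : Type*} [Field F] {n : ℕ} {H : Type*} [Group H]

local notation "V" => (Fin n ⊕ Fin n → F)
local notation "G" => Matrix.symplecticGroup (Fin n) F
local notation "f" => sympForm n F

theorem GK_last_le {k : Fin n} (h : (k : ℕ) + 1 = n) : GK n F k ≤ SJ F k := by
  refine GJ_mono (fun j hj => ?_)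
  have : (j : ℕ) ≠ k := fun h' => hj (Fin.ext h')
  omega

theorem GK_top : GK n F 0 = ⊤ := by
  rw [eq_top_iff]
  intro g _ j hj
  omega

theorem MI_le_GJ (i : ℕ) : MI n F i ≤ GJ (fun j : Fin n => (j : ℕ) ≠ i ∧ (j : ℕ) ≠ i + 1) :=
  fun _ hg j hj => ⟨hg.1 j, hg.2 j hj.1 hj.2⟩

theorem MI_SJ_comm {i : ℕ} {j : Fin n} (h1 : (j : ℕ) ≠ i) (h2 : (j : ℕ) ≠ i + 1) {m a : G}
    (hm : m ∈ MI n F i) (ha : a ∈ SJ F j) : m * a = a * m := by
  refine GJ_comm (J := fun j : Fin n => (j : ℕ) ≠ i ∧ (j : ℕ) ≠ i + 1) (J' := fun l => l ≠ j) ?_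
    (MI_le_GJ i hm) ha
  intro l
  by_cases h : l = j
  · left; rw [h]; exact ⟨h1, h2⟩
  · exact Or.inr h

/-- **Generation.** -/
theorem gen_all (X : Subgroup G) : ∀ d k : ℕ, k + d = n →
    (∀ j : Fin n, k ≤ j → SJ F j ≤ X) → (∀ i : Fin n, k ≤ i → (i : ℕ) + 1 < n → MI n F i ≤ X) →
    GK n F k ≤ X := by
  intro d
  induction d with
  | zero =>
    intro k hk _ _ g hg
    have : g = 1 := by
      apply ext_basis
      · intro j; rw [one_smul]; exact (hg j (by omega)).1
      · intro j; rw [one_smul]; exact (hg j (by omega)).2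
    rw [this]
    exact one_mem _
  | succ d ih =>
    intro k hk hS hM
    have hkn : k < n := by omega
    by_cases hk1 : k + 1 < n
    · have h1 := ih (k + 1) (by omega) (fun j hj => hS j (by omega))
        (fun i hi => hM i (by omega))
      have hm := siegel_smul_mem_MI (F := F) (k := ⟨k, hkn⟩) (k1 := ⟨k + 1, hk1⟩) rfl 1 0
      rw [one_smul] at hm
      exact gen_step (k := ⟨k, hkn⟩) (k1 := ⟨k + 1, hk1⟩) rfl h1 (hS ⟨k, hkn⟩ le_rfl)
        (hM ⟨k, hkn⟩ le_rfl hk1 hm)
    · exact (GK_last_le (k := ⟨k, hkn⟩) (by change k + 1 = n; omega)).trans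
        (hS ⟨k, hkn⟩ le_rfl)

/-- **The homomorphism on `GK k`.** -/
theorem exists_ext (hF : ∃ a : F, a ≠ 0 ∧ a ≠ 1) {σ μ : Fin n → G → H}
    (commS : ∀ j l : Fin n, j ≠ l → ∀ a ∈ SJ F j, ∀ b ∈ SJ F l, σ j a * σ l b = σ l b * σ j a)
    (commM : ∀ i i' : Fin n, (i : ℕ) + 1 < n → (i' : ℕ) + 1 < n → ∀ a ∈ MI n F i,
      ∀ b ∈ MI n F i', μ i a * μ i' b = μ i' b * μ i a)
    (homS : ∀ j : Fin n, IsHomOn (SJ F j) (σ j))
    (ext : ∀ i j : Fin n, (i : ℕ) + 1 < n → ∃ Ψ : G → H, IsHomOn (MI n F i ⊔ SJ F j) Ψ ∧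
      (∀ a ∈ MI n F i, Ψ a = μ i a) ∧ ∀ a ∈ SJ F j, Ψ a = σ j a) :
    ∀ d k : ℕ, k + d + 1 = n → ∃ Φ : G → H, IsHomOn (GK n F k) Φ ∧
      (∀ j : Fin n, k ≤ j → ∀ a ∈ SJ F j, Φ a = σ j a) ∧
      ∀ i : Fin n, k ≤ i → (i : ℕ) + 1 < n → ∀ m ∈ MI n F i, Φ m = μ i m := by
  have hMS : ∀ i j : Fin n, (i : ℕ) + 1 < n → (j : ℕ) ≠ i → (j : ℕ) ≠ i + 1 →
      ∀ m ∈ MI n F i, ∀ a ∈ SJ F j, μ i m * σ j a = σ j a * μ i m := by
    intro i j hi h1 h2 m hm a ha
    obtain ⟨Ψ, hΨ, hΨμ, hΨσ⟩ := ext i j hi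
    rw [← hΨμ m hm, ← hΨσ a ha, ← hΨ _ (Subgroup.mem_sup_left hm) _ (Subgroup.mem_sup_right ha),
      ← hΨ _ (Subgroup.mem_sup_right ha) _ (Subgroup.mem_sup_left hm), MI_SJ_comm h1 h2 hm ha]
  intro d
  induction d with
  | zero =>
    intro k hk
    have hkn : k < n := by omega
    refine ⟨σ ⟨k, hkn⟩, (homS ⟨k, hkn⟩).mono (GK_last_le (k := ⟨k, hkn⟩)
      (by change k + 1 = n; omega)), ?_, ?_⟩
    · intro j hj a _
      have : j = ⟨k, hkn⟩ := Fin.ext (by change (j : ℕ) = k; omega)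
      rw [this]
    · intro i hi hi'
      omega
  | succ d ih =>
    intro k hk
    have hkn : k < n := by omega
    have hk1 : k + 1 < n := by omega
    obtain ⟨α, hα, hασ, hαμ⟩ := ih (k + 1) (by omega)
    set k0 : Fin n := ⟨k, hkn⟩ with hk0
    set k1 : Fin n := ⟨k + 1, hk1⟩ with hk1'
    have hk0v : (k0 : ℕ) = k := rfl
    have hk1v : (k1 : ℕ) = k + 1 := rfl
    have D : StepData k0 k1 α (σ k0) (μ k0) := by
      refine ⟨rfl, hα, ext k0 k0 hk1, ?_, ?_, ?_⟩
      · obtain ⟨Ψ, hΨ, hΨμ, hΨσ⟩ := ext k0 k1 hk1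
        exact ⟨Ψ, hΨ, hΨμ, fun a ha => (hΨσ a ha).trans (hασ k1 le_rfl a ha).symm⟩
      · intro a ha
        have hX : GK n F (k + 1) ≤ hα.comm (σ k0 a) := by
          refine gen_all _ (d + 1) (k + 1) (by omega) ?_ ?_
          · intro j hj b hb
            refine ⟨SJ_le_GK hj hb, ?_⟩
            rw [hασ j hj b hb]
            exact commS j k0 (by rintro rfl; omega) b hb a ha
          · intro i hi hi' m hm
            refine ⟨MI_le_GK hi hm, ?_⟩
            rw [hαμ i hi hi' m hm]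
            exact hMS i k0 hi' (by omega) (by omega) m hm a ha
        intro g hg
        exact (hX hg).2.symm
      · intro m hm h hh hhe
        have hX : GK n F ((k1 : ℕ) + 1) ≤ hα.comm (μ k0 m) := by
          refine gen_all _ d (k1 + 1) (by omega) ?_ ?_
          · intro j hj b hb
            refine ⟨SJ_le_GK (by omega) hb, ?_⟩
            rw [hασ j (by omega) b hb]
            exact (hMS k0 j hk1 (by omega) (by omega) m hm b hb).symm
          · intro i hi hi' b hb
            refine ⟨MI_le_GK (by omega) hb, ?_⟩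
            rw [hαμ i (by omega) hi' b hb]
            exact commM i k0 hi' hk1 b hb m hm
        refine (gen_stab (k := k1) hX ?_ ?_ hh hhe).2
        · intro c
          have h1 := siegel_zero_mem_SJ (F := F) k1 c
          have h2 : siegel (ee k1) (0 : V) c ∈ MI n F k0 :=
            siegel_zero_mem_MI (Or.inr rfl) c
          refine ⟨SJ_le_GK le_rfl h1, ?_⟩
          obtain ⟨Ψ, hΨ, hΨμ, hΨσ⟩ := ext k0 k1 hk1
          rw [hασ k1 le_rfl _ h1, ← hΨσ _ h1, hΨμ _ h2]
          exact commM k0 k0 hk1 hk1 _ h2 m hm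
        · intro k2 hk2
          have hlt : (k1 : ℕ) + 1 < n := by rw [← hk2]; exact k2.2
          have h1 := siegel_smul_mem_MI (F := F) (k := k1) (k1 := k2) hk2 1 0
          rw [one_smul] at h1
          refine ⟨MI_le_GK le_rfl h1, ?_⟩
          rw [hαμ k1 le_rfl hlt _ h1]
          exact commM k1 k0 hlt hk1 _ h1 m hm
    obtain ⟨Φ, hΦ, hΦα, hΦμ, hΦσ⟩ := D.exists_hom hF
    refine ⟨Φ, hΦ, ?_, ?_⟩
    · intro j hj a ha
      by_cases hjk : (j : ℕ) = k
      · have : j = k0 := Fin.ext hjk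
        subst this
        exact hΦσ a ha
      · rw [hΦα a (SJ_le_GK (by omega) ha)]
        exact hασ j (by omega) a ha
    · intro i hi hi' m hm
      by_cases hik : (i : ℕ) = k
      · have : i = k0 := Fin.ext hik
        subst this
        exact hΦμ m hm
      · rw [hΦα m (MI_le_GK (by omega) hm)]
        exact hαμ i (by omega) hi' m hm

end Cfsg.Agent.H434.Slim
end

-- part: S3713
section
set_option autoImplicit false
open Cfsg

namespace Cfsg.Agent.S3713

open Cfsg.Agent.H434.Slim Cfsg.Agent.ClassicalGeometry.SympSiegel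

theorem fix_ff_iff {F : Type*} [Field F] {n : ℕ} (A : ↥(Matrix.symplecticGroup (Fin n) F)) (k : Fin n) :
    ((A : ↥(Matrix.symplecticGroup (Fin n) F)) : Matrix (Fin n ⊕ Fin n) (Fin n ⊕ Fin n) F).mulVec
      (Pi.single (Sum.inr k) (1 : F)) = (Pi.single (Sum.inr k) (1 : F)) ↔
    A • (ff k : Fin n ⊕ Fin n → F) = ff k := by
  rw [ff, smul_neg', neg_inj]
  rfl

theorem fix_ee_iff {F : Type*} [Field F] {n : ℕ} (A : ↥(Matrix.symplecticGroup (Fin n) F)) (k : Fin n) :
    ((A : ↥(Matrix.symplecticGroup (Fin n) F)) : Matrix (Fin n ⊕ Fin n) (Fin n ⊕ Fin n) F).mulVec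
      (Pi.single (Sum.inl k) (1 : F)) = (Pi.single (Sum.inl k) (1 : F)) ↔
    A • (ee k : Fin n ⊕ Fin n → F) = ee k := Iff.rfl

/-- A presentation of the symplectic group as the universal completion of an amalgam of small subgroups. Let F be a field with more than two elements, n ≥ 2, and Sp the group of 2n × 2n matrices over F preserving the standard alternating form, acting on column vectors; write e_k, f_k for the standard basis vectors of the two halves (a hyperbolic basis). For each k let S_k be the subgroup of Sp fixing e_l and f_l for all l ≠ k (a copy of SL(2, F) on the plane of e_k, f_k), and for each i with i + 1 < n let M_i be the subgroup fixing every e_l and fixing f_l for all l other than i, i+1 (an abelian group isomorphic to the additive group of F³). Then Sp is the universal completion of the amalgam formed by the S_k, the M_i and the subgroups generated by two of them: for every group H and homomorphisms σ_k : S_k → H, μ_i : M_i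 → H such that for each pair of these subgroups some homomorphism on the subgroup they generate restricts to the given ones, there is exactly one homomorphism Sp → H restricting to every σ_k and μ_i. -/
theorem result
    (F : Type*) [Field F] (hF : ∃ a : F, a ≠ 0 ∧ a ≠ 1) (n : ℕ) (hn : 2 ≤ n)
    (S M : Fin n → Subgroup ↥(Matrix.symplecticGroup (Fin n) F))
    (hS : ∀ j : Fin n, S j = Subgroup.closure {A : ↥(Matrix.symplecticGroup (Fin n) F) | ∀ k : Fin n, k ≠ j →
      ((A : ↥(Matrix.symplecticGroup (Fin n) F)) : Matrix (Fin n ⊕ Fin n) (Fin n ⊕ Fin n) F).mulVec (Pi.single (Sum.inl k) (1 : F)) = (Pi.single (Sum.inl k) (1 : F)) ∧ ((A : ↥(Matrix.symplecticGroup (Fin n) F)) : Matrix (Fin n ⊕ Fin n) (Fin n ⊕ Fin n) F).mulVec (Pi.single (Sum.inr k) (1 : F)) = (Pi.single (Sum.inr k) (1 : F))})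
    (hM : ∀ i : Fin n, (i : ℕ) + 1 < n → M i = Subgroup.closure {A : ↥(Matrix.symplecticGroup (Fin n) F) |
      (∀ k : Fin n, ((A : ↥(Matrix.symplecticGroup (Fin n) F)) : Matrix (Fin n ⊕ Fin n) (Fin n ⊕ Fin n) F).mulVec (Pi.single (Sum.inl k) (1 : F)) = (Pi.single (Sum.inl k) (1 : F))) ∧
        ∀ k : Fin n, (k : ℕ) ≠ i → (k : ℕ) ≠ (i : ℕ) + 1 → ((A : ↥(Matrix.symplecticGroup (Fin n) F)) : Matrix (Fin n ⊕ Fin n) (Fin n ⊕ Fin n) F).mulVec (Pi.single (Sum.inr k) (1 : F)) = (Pi.single (Sum.inr k) (1 : F))})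
    {H : Type*} [Group H] (σ : ∀ j : Fin n, ↥(S j) →* H) (μ : ∀ i : Fin n, ↥(M i) →* H)
    (hSS : ∀ j l : Fin n, j ≠ l → ∃ Ψ : ↥(S j ⊔ S l) →* H,
      (∀ (g : ↥(Matrix.symplecticGroup (Fin n) F)) (hg : g ∈ S j), Ψ ⟨g, Subgroup.mem_sup_left hg⟩ = σ j ⟨g, hg⟩) ∧
        (∀ (g : ↥(Matrix.symplecticGroup (Fin n) F)) (hg : g ∈ S l), Ψ ⟨g, Subgroup.mem_sup_right hg⟩ = σ l ⟨g, hg⟩))
    (hMM : ∀ i i' : Fin n, i ≠ i' → (i : ℕ) + 1 < n → (i' : ℕ) + 1 < n → ∃ Ψ : ↥(M i ⊔ M i') →* H,
      (∀ (g : ↥(Matrix.symplecticGroup (Fin n) F)) (hg : g ∈ M i), Ψ ⟨g, Subgroup.mem_sup_left hg⟩ = μ i ⟨g, hg⟩) ∧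
        (∀ (g : ↥(Matrix.symplecticGroup (Fin n) F)) (hg : g ∈ M i'), Ψ ⟨g, Subgroup.mem_sup_right hg⟩ = μ i' ⟨g, hg⟩))
    (hMS : ∀ i j : Fin n, (i : ℕ) + 1 < n → ∃ Ψ : ↥(M i ⊔ S j) →* H,
      (∀ (g : ↥(Matrix.symplecticGroup (Fin n) F)) (hg : g ∈ M i), Ψ ⟨g, Subgroup.mem_sup_left hg⟩ = μ i ⟨g, hg⟩) ∧
        (∀ (g : ↥(Matrix.symplecticGroup (Fin n) F)) (hg : g ∈ S j), Ψ ⟨g, Subgroup.mem_sup_right hg⟩ = σ j ⟨g, hg⟩)) :
    ∃! Φ : ↥(Matrix.symplecticGroup (Fin n) F) →* H,
      (∀ (j : Fin n) (g : ↥(Matrix.symplecticGroup (Fin n) F)) (hg : g ∈ S j), Φ g = σ j ⟨g, hg⟩) ∧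
        (∀ (i : Fin n), (i : ℕ) + 1 < n → ∀ (g : ↥(Matrix.symplecticGroup (Fin n) F)) (hg : g ∈ M i), Φ g = μ i ⟨g, hg⟩) := by
  have hS' : ∀ j, S j = SJ F j := by
    intro j
    rw [hS j]
    conv_rhs => rw [← Subgroup.closure_eq (SJ F j)]
    congr 1
    ext A
    simp only [Set.mem_ofPred_eq, SetLike.mem_coe, mem_GJ, fix_ff_iff, fix_ee_iff]
  have hM' : ∀ i : Fin n, (i : ℕ) + 1 < n → M i = MI n F i := by
    intro i hi
    rw [hM i hi]
    conv_rhs => rw [← Subgroup.closure_eq (MI n F i)]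
    congr 1
    ext A
    simp only [Set.mem_ofPred_eq, SetLike.mem_coe, mem_MI, fix_ff_iff, fix_ee_iff]
  have homS : ∀ j : Fin n, IsHomOn (SJ F j) (extF (σ j)) := by
    intro j
    rw [← hS' j]
    exact isHomOn_extF (σ j)
  have commS : ∀ j l : Fin n, j ≠ l → ∀ a ∈ SJ F j, ∀ b ∈ SJ F l,
      extF (σ j) a * extF (σ l) b = extF (σ l) b * extF (σ j) a := by
    intro j l hjl a ha b hb
    obtain ⟨Ψ, h1, h2⟩ := hSS j l hjl
    have hc : a * b = b * a := by
      refine GJ_comm (J := fun i => i ≠ j) (J' := fun i => i ≠ l) ?_ ha hb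
      intro i
      by_cases h : i = j
      · right; rw [h]; exact hjl
      · exact Or.inl h
    rw [← hS' j] at ha
    rw [← hS' l] at hb
    rw [extF_apply _ ha, extF_apply _ hb, ← h1 a ha, ← h2 b hb, ← map_mul, ← map_mul]
    congr 1
    exact Subtype.ext hc
  have commM : ∀ i i' : Fin n, (i : ℕ) + 1 < n → (i' : ℕ) + 1 < n → ∀ a ∈ MI n F i,
      ∀ b ∈ MI n F i', extF (μ i) a * extF (μ i') b = extF (μ i') b * extF (μ i) a := by
    intro i i' hi hi' a ha b hb
    have hc : a * b = b * a := MI_comm ha hb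
    rw [← hM' i hi] at ha
    rw [← hM' i' hi'] at hb
    by_cases hii : i = i'
    · subst hii
      rw [extF_apply _ ha, extF_apply _ hb, ← map_mul, ← map_mul]
      congr 1
      exact Subtype.ext hc
    · obtain ⟨Ψ, h1, h2⟩ := hMM i i' hii hi hi'
      rw [extF_apply _ ha, extF_apply _ hb, ← h1 a ha, ← h2 b hb, ← map_mul, ← map_mul]
      congr 1
      exact Subtype.ext hc
  have hext : ∀ i j : Fin n, (i : ℕ) + 1 < n → ∃ Ψ : ↥(Matrix.symplecticGroup (Fin n) F) → H,
      IsHomOn (MI n F i ⊔ SJ F j) Ψ ∧ (∀ a ∈ MI n F i, Ψ a = extF (μ i) a) ∧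
      ∀ a ∈ SJ F j, Ψ a = extF (σ j) a := by
    intro i j hi
    obtain ⟨Ψ, h1, h2⟩ := hMS i j hi
    rw [← hM' i hi, ← hS' j]
    refine ⟨extF Ψ, isHomOn_extF Ψ, ?_, ?_⟩
    · intro a ha
      rw [extF_apply _ (Subgroup.mem_sup_left ha), h1 a ha, extF_apply _ ha]
    · intro a ha
      rw [extF_apply _ (Subgroup.mem_sup_right ha), h2 a ha, extF_apply _ ha]
  obtain ⟨Φ, hΦ, hΦσ, hΦμ⟩ := exists_ext hF commS commM homS hext (n - 1) 0 (by omega)
  rw [GK_top] at hΦ
  refine ⟨MonoidHom.mk' Φ (fun a b => hΦ a trivial b trivial), ⟨?_, ?_⟩, ?_⟩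
  · intro j g hg
    change Φ g = _
    rw [hΦσ j (Nat.zero_le _) g (by rw [← hS' j]; exact hg), extF_apply _ hg]
  · intro i hi g hg
    change Φ g = _
    rw [hΦμ i (Nat.zero_le _) hi g (by rw [← hM' i hi]; exact hg), extF_apply _ hg]
  · rintro Φ' ⟨h1, h2⟩
    have hle : GK n F 0 ≤ (MonoidHom.mk' Φ (fun a b => hΦ a trivial b trivial)).eqLocus Φ' := by
      refine gen_all _ n 0 (by omega) ?_ ?_
      · intro j hj a ha
        change Φ a = Φ' a
        have ha' := ha
        rw [← hS' j] at ha'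
        rw [hΦσ j hj a ha, h1 j a ha', extF_apply _ ha']
      · intro i hi hi' a ha
        change Φ a = Φ' a
        have ha' := ha
        rw [← hM' i hi'] at ha'
        rw [hΦμ i hi hi' a ha, h2 i hi' a ha', extF_apply _ ha']
    rw [GK_top] at hle
    ext a
    exact (hle (Subgroup.mem_top a)).symm

end Cfsg.Agent.S3713
end
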