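import Mathlib
import Cfsg.Agent.H438.SLThreeAD
import Cfsg.Statements.S3727
set_option linter.all false

-- part: H438/SLThreeAE
section
/-!
# The affine case, V: the regular normal subgroup (helper438, S3727)
-/

set_option autoImplicit false
set_option linter.unusedSectionVars false
set_option linter.unusedSimpArgs false

namespace Cfsg.Agent.H438.SLThree

open Matrix MulAction
open scoped Pointwise

variable {F : Type*} [Field F] {G Ω : Type*} [Group G] [MulAction G Ω]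

variable {ρ : Ω → (S F →* G)}

/-- the translations -/
def TT (G : Type*) [Group G] [MulAction G Ω] (β : (Fin 3 → F) ≃ Ω) : Subgroup G where
  carrier := {x | ∃ w, ∀ v, x • β v = β (v + w)}
  one_mem' := ⟨0, fun v => by rw [one_smul, add_zero]⟩
  mul_mem' := by
    rintro x y ⟨w, hw⟩ ⟨w', hw'⟩
    exact ⟨w' + w, fun v => by rw [mul_smul, hw', hw, add_assoc]⟩
  inv_mem' := by
    rintro x ⟨w, hw⟩
    exact ⟨-w, fun v => by rw [inv_smul_eq_iff, hw, neg_add_cancel_right]⟩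

theorem mem_TT {β : (Fin 3 → F) ≃ Ω} {x : G} : x ∈ TT G β ↔ ∃ w, ∀ v, x • β v = β (v + w) := Iff.rfl

namespace Cfg

variable [Finite F] [CharP F 2] [Finite (S F)] [Finite G] [Finite Ω]

theorem exists_trans (c : Cfg ρ) (hP : TypePt ρ) (hΩ : Nat.card Ω = Nat.card F ^ 3) {n : ℕ} (hn : 1 ≤ n)
    (hF : Nat.card F = 2 ^ n) {a : Ω} {β : (Fin 3 → F) ≃ Ω} (h : Crd ρ a β) (w : Fin 3 → F) :
    ∃ x : G, ∀ v, x • β v = β (v + w) := by
  by_cases hw : w = 0
  · exact ⟨1, fun v => by rw [one_smul, hw, add_zero]⟩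
  obtain ⟨x, hx⟩ := c.exists_trans_plane hP hΩ hn hF h (w := e1) (by rw [dot_e1]; rfl)
  obtain ⟨g, hg⟩ := exists_smul hw
  refine ⟨ρ a g * x * (ρ a g)⁻¹, fun v => ?_⟩
  rw [mul_smul, mul_smul, ← map_inv, h.act, hx, h.act, smul_add, smul_inv_smul, hg]

theorem exists_lin (c : Cfg ρ) (hP : TypePt ρ) {a : Ω} {β : (Fin 3 → F) ≃ Ω} (h : Crd ρ a β) {y : G} (hy : y • a = a) :
    ∃ (k : F) (C : GL (Fin 3) F) (σ : F ≃+* F), ∀ v, y • β v = β (k • cv C σ v) := by
  have : Fact (Nat.Prime 2) := ⟨Nat.prime_two⟩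
  have hb : β e1 ≠ a := by
    rw [← h.zero]
    intro he
    exact e1_ne (β.injective he)
  have hyb : y • β e1 ≠ a := by
    intro he
    apply hb
    rw [← hy] at he
    exact smul_left_cancel y he
  have hp := h.pt e1 e1_ne
  have key : ∃ C σ, Tr (ρ a) (ρ a) y C σ := by
    have htr := c.tr 2 y a
    rw [hy] at htr
    rcases htr with hT | ⟨C, σ, hT⟩
    · exact hT
    · exfalso
      have h1 := hT.ln (b := β e1) hp.toDual
      obtain ⟨v, hv⟩ := hP a _ hyb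
      exact hv.not_ln h1
  obtain ⟨C, σ, hT⟩ := key
  have hw0 : β.symm (y • β e1) ≠ 0 := by
    intro h0
    apply hyb
    rw [← h.zero, ← h0, Equiv.apply_symm_apply]
  have h1 := h.pt _ hw0
  rw [Equiv.apply_symm_apply] at h1
  obtain ⟨k, hk, h2⟩ := (hT.pt hp).par h1
  refine ⟨k, C, σ, fun v => ?_⟩
  by_cases hv : v = 0
  · rw [hv, cv_zero, smul_zero, h.zero, hy]
  obtain ⟨g, rfl⟩ := exists_smul hv
  have h3 : y * ρ a g = ρ a (th C σ g) * y := by rw [← hT g]; group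
  rw [← h.act, ← mul_smul, h3, mul_smul]
  have h4 : y • β e1 = β (k • cv C σ e1) := by rw [← h2, Equiv.apply_symm_apply]
  rw [h4, h.act, smul_smul_comm', th_smul]

theorem TT_normal (c : Cfg ρ) (hP : TypePt ρ) (hΩ : Nat.card Ω = Nat.card F ^ 3) {n : ℕ} (hn : 1 ≤ n)
    (hF : Nat.card F = 2 ^ n) {a : Ω} {β : (Fin 3 → F) ≃ Ω} (h : Crd ρ a β) : (TT G β).Normal := by
  refine ⟨fun x hx y => ?_⟩
  obtain ⟨w, hw⟩ := hx
  obtain ⟨τ, hτ⟩ := c.exists_trans hP hΩ hn hF h (β.symm (y • a))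
  have hτT : τ ∈ TT G β := ⟨_, hτ⟩
  have h1 : (τ⁻¹ * y) • a = a := by
    rw [mul_smul, inv_smul_eq_iff]
    have h2 := hτ 0
    rw [zero_add, Equiv.apply_symm_apply, h.zero] at h2
    exact h2.symm
  obtain ⟨k, C, σ, h2⟩ := c.exists_lin hP h h1
  have h3 : (τ⁻¹ * y) * x * (τ⁻¹ * y)⁻¹ ∈ TT G β := by
    refine ⟨k • cv C σ w, fun v => ?_⟩
    obtain ⟨v', hv'⟩ : ∃ v', β v' = (τ⁻¹ * y)⁻¹ • β v := β.surjective _
    have h4 : k • cv C σ v' = v := by
      apply β.injective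
      rw [← h2, hv', smul_inv_smul]
    rw [mul_smul, mul_smul _ x, ← hv', hw, h2, cv_add, smul_add, h4]
  have h4 : y * x * y⁻¹ = τ * ((τ⁻¹ * y) * x * (τ⁻¹ * y)⁻¹) * τ⁻¹ := by group
  rw [h4]
  exact (TT G β).mul_mem ((TT G β).mul_mem hτT h3) ((TT G β).inv_mem hτT)

/-- **The regular normal subgroup.** -/
theorem exists_regular (c : Cfg ρ) (hP : TypePt ρ) (hΩ : Nat.card Ω = Nat.card F ^ 3) {n : ℕ} (hn : 1 ≤ n)
    (hF : Nat.card F = 2 ^ n) (a : Ω) :
    ∃ E : Subgroup G, E.Normal ∧ Nat.card E = Nat.card F ^ 3 ∧ (∀ x y : Ω, ∃ r ∈ E, r • x = y) ∧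
      ∀ x : Ω, ∀ r ∈ E, r • x = x → r = 1 := by
  obtain ⟨β, h⟩ := c.exists_crd hP hΩ a
  have hsem : ∀ x : Ω, ∀ r ∈ TT G β, r • x = x → r = 1 := by
    rintro x r ⟨w, hw⟩ hrx
    obtain ⟨v, rfl⟩ := β.surjective x
    rw [hw] at hrx
    have h1 : w = 0 := by
      have := β.injective hrx
      exact add_eq_left.1 this
    apply c.faith
    intro d
    obtain ⟨u, rfl⟩ := β.surjective d
    rw [hw, h1, add_zero]
  have htr : ∀ x y : Ω, ∃ r ∈ TT G β, r • x = y := by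
    intro x y
    obtain ⟨u, rfl⟩ := β.surjective x
    obtain ⟨v, rfl⟩ := β.surjective y
    obtain ⟨r, hr⟩ := c.exists_trans hP hΩ hn hF h (v - u)
    exact ⟨r, ⟨_, hr⟩, by rw [hr, add_sub_cancel]⟩
  refine ⟨TT G β, c.TT_normal hP hΩ hn hF h, ?_, htr, hsem⟩
  rw [← hΩ]
  refine Nat.card_congr (Equiv.ofBijective (fun r : TT G β => r.1 • a) ⟨?_, ?_⟩)
  · intro r s he
    have h1 : r.1 • a = s.1 • a := he
    apply Subtype.ext
    have h2 : s.1⁻¹ * r.1 = 1 := hsem a _ ((TT G β).mul_mem ((TT G β).inv_mem s.2) r.2) (by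
      rw [mul_smul, h1, inv_smul_smul])
    exact (inv_mul_eq_one.1 h2).symm
  · intro y
    obtain ⟨r, hr, hr'⟩ := htr a y
    exact ⟨⟨r, hr⟩, hr'⟩

end Cfg

end Cfsg.Agent.H438.SLThree
end

-- part: S3727
section
set_option autoImplicit false
open Cfsg

namespace Cfsg.Agent.S3727

open MulAction Cfsg.Agent.H438.SLThree

/-- Let a finite group G act faithfully and 2-transitively on a finite set Ω of even size, and suppose the stabilizer of a point a has a normal subgroup N isomorphic to PSL₃(q) with q = 2ⁿ, n ≥ 1. Then N is transitive on the remaining points, and either G has a normal subgroup of order q³ acting regularly on Ω and n is odd, or Ω has 22 points, q = 4, and G is isomorphic to the Mathieu group M₂₂ or has a subgroup of index 2 isomorphic to M₂₂. -/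
theorem result {G Ω : Type*} [Group G] [Finite G] [Fintype Ω] [MulAction G Ω] [FaithfulSMul G Ω]
    (h2 : MulAction.IsMultiplyPretransitive G Ω 2) (hev : Even (Fintype.card Ω)) (a : Ω) (N : Subgroup G)
    (hNle : N ≤ MulAction.stabilizer G a) (hNnormal : ∀ g ∈ MulAction.stabilizer G a, ∀ x ∈ N, g * x * g⁻¹ ∈ N)
    (n : ℕ) (hn : 1 ≤ n)
    (hN : ∃ (F : Type) (_ : Field F) (_ : Fintype F), Fintype.card F = 2 ^ n ∧
      Nonempty (↥N ≃* Matrix.ProjectiveSpecialLinearGroup (Fin 3) F)) :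
    (∀ x y : Ω, x ≠ a → y ≠ a → ∃ g ∈ N, g • x = y) ∧
    ((Odd n ∧ ∃ E : Subgroup G, E.Normal ∧ Nat.card E = (2 ^ n) ^ 3 ∧ (∀ x y : Ω, ∃ r ∈ E, r • x = y) ∧
        ∀ x : Ω, ∀ r ∈ E, r • x = x → r = 1) ∨
     (Fintype.card Ω = 22 ∧ n = 2 ∧ (Cfsg.Spor.IsoM22 G ∨ ∃ H : Subgroup G, H.index = 2 ∧ Cfsg.Spor.IsoM22 ↥H))) := by
  classical
  obtain ⟨F, hFf, hFt, hF, ⟨e⟩⟩ := hN
  have : Fact (Nat.Prime 2) := ⟨Nat.prime_two⟩
  have hchar : CharP F 2 := charP_of_card_eq_prime_pow hF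
  have hfinS : Finite (Matrix.SpecialLinearGroup (Fin 3) F) := inferInstance
  -- the second point
  have hb0 : ∃ b0 : Ω, b0 ≠ a := by
    by_contra hcon
    push Not at hcon
    have h1 : Fintype.card Ω = 1 := by
      rw [Fintype.card_eq_one_iff]
      exact ⟨a, hcon⟩
    rw [h1] at hev
    exact absurd hev (by decide)
  obtain ⟨b0, hb0⟩ := hb0
  have hnt : Nontrivial Ω := ⟨⟨b0, a, hb0⟩⟩
  have htwo : ∀ a b a' b' : Ω, a ≠ b → a' ≠ b' → ∃ g : G, g • a = a' ∧ g • b = b' :=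
    fun a b a' b' hab hab' => MulAction.is_two_pretransitive_iff.mp h2 hab hab'
  have htr : ∀ b : Ω, ∃ y : G, y • a = b := by
    intro b
    obtain ⟨b', hb'⟩ := exists_ne b
    obtain ⟨g, hg, -⟩ := htwo a b0 b b' hb0.symm hb'.symm
    exact ⟨g, hg⟩
  choose y hy using htr
  -- the representation
  let ρ0 : Matrix.SpecialLinearGroup (Fin 3) F →* G :=
    N.subtype.comp (e.symm.toMonoidHom.comp (QuotientGroup.mk' (Subgroup.center (Matrix.SpecialLinearGroup (Fin 3) F))))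
  have hρ0 : ∀ g, ρ0 g ∈ N := fun g => (e.symm _).2
  have hρ0' : ∀ x ∈ N, ∃ g, ρ0 g = x := by
    intro x hx
    obtain ⟨g, hg⟩ := QuotientGroup.mk'_surjective _ (e ⟨x, hx⟩)
    refine ⟨g, ?_⟩
    change ((e.symm (QuotientGroup.mk' _ g) : N) : G) = x
    rw [hg, MulEquiv.symm_apply_apply]
  have hrep0 : ∀ g, ρ0 g = 1 ↔ g ∈ Subgroup.center (Matrix.SpecialLinearGroup (Fin 3) F) := by
    intro g
    rw [← QuotientGroup.eq_one_iff]
    change ((e.symm (QuotientGroup.mk' _ g) : N) : G) = 1 ↔ _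
    rw [OneMemClass.coe_eq_one, map_eq_one_iff e.symm e.symm.injective]
    rfl
  let ρ : Ω → (Matrix.SpecialLinearGroup (Fin 3) F →* G) := fun b => (MulAut.conj (y b)).toMonoidHom.comp ρ0
  have hρ : ∀ b g, ρ b g = y b * ρ0 g * (y b)⁻¹ := fun b g => rfl
  have hc : Cfg ρ := by
    refine ⟨htwo, ?_, ?_, ?_, ?_, ?_⟩
    · intro g hg
      apply FaithfulSMul.eq_of_smul_eq_smul (α := Ω)
      intro x
      rw [hg, one_smul]
    · rwa [Nat.card_eq_fintype_card]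
    · intro b g
      rw [← hrep0, hρ, mul_inv_eq_one, mul_eq_left]
    · intro b g
      rw [hρ, mul_smul, mul_smul]
      have h1 : (y b)⁻¹ • b = a := by rw [inv_smul_eq_iff, hy]
      rw [h1, (hNle (hρ0 g) : ρ0 g • a = a), hy]
    · intro z b g
      have h1 : ((y (z • b))⁻¹ * z * y b) ∈ stabilizer G a := by
        rw [mem_stabilizer_iff, mul_smul, mul_smul, hy, inv_smul_eq_iff, hy]
      obtain ⟨g', hg'⟩ := hρ0' _ (hNnormal _ h1 _ (hρ0 g))
      refine ⟨g', ?_⟩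
      rw [hρ, hρ, hg']
      group
  have hNa : ∀ x, x ∈ Cfsg.Agent.H438.SLThree.N ρ a → x ∈ N := by
    rintro _ ⟨g, rfl⟩
    exact hNnormal _ (hy a) _ (hρ0 g)
  rcases hc.types with hFl | ⟨ρ', hc', hN', hP'⟩
  · exact (hc.not_typeFl hFl hb0).elim
  · have hFc : Nat.card F = 2 ^ n := by rw [Nat.card_eq_fintype_card, hF]
    obtain ⟨h1, h3⟩ := hc'.pt_main hP' a hn hFc
    refine ⟨?_, ?_⟩
    · intro x x' hx hx'
      obtain ⟨g, hg⟩ := h1 x x' hx hx'
      exact ⟨ρ' a g, hNa _ (by rw [← hN']; exact rho_mem a g), hg⟩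
    · rcases h3 with ⟨h3, h4⟩ | ⟨h3, h4⟩
      · left
        refine ⟨h3, ?_⟩
        rw [← hFc]
        exact hc'.exists_regular hP' h4 hn hFc a
      · right
        obtain ⟨h5, h6⟩ := hc'.m22 hP' a (by rw [hFc, h3]; norm_num) h4
        exact ⟨h5, h3, h6⟩

end Cfsg.Agent.S3727
end
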