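import Mathlib
import Cfsg.Prelude.Def_Local
import Cfsg.Agent.H552.Crit2
import Cfsg.Agent.H552.Bilin_mg
import Cfsg.Agent.H552.Series
import Cfsg.Agent.H979.TwoLenRA_mg
import Cfsg.Agent.H557.E1
import Cfsg.Agent.S0056
import Cfsg.Statements.S4258
set_option linter.all false

-- part: H979/TwoLenF
section
/-!
# The final contradiction (part F of helper552's plan for S4258)
-/

set_option autoImplicit false

universe u

namespace Cfsg.Agent.H979.TwoLenF

open Cfsg Cfsg.Agent.H552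

section Sign

variable {X : Type*} [Group X]

/-- `g` acts trivially on `L / κ` -/
def Pos (L κ : Subgroup X) (g : X) : Prop := ∀ a ∈ L, g * a * g⁻¹ * a⁻¹ ∈ κ

/-- `g` inverts `L / κ` -/
def Neg (L κ : Subgroup X) (g : X) : Prop := ∀ a ∈ L, g * a * g⁻¹ * a ∈ κ

variable {L κ : Subgroup X} (hL : L.Normal) (hab : ∀ a ∈ L, ∀ b ∈ L, a * b = b * a) (hκ : κ ≤ L)
include hL hab hκ

theorem Pos.conj_mem {g : X} (h : Pos L κ g) {c : X} (hc : c ∈ κ) : g * c * g⁻¹ ∈ κ := by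
  have := mul_mem (h c (hκ hc)) hc
  simpa [mul_assoc] using this

theorem Neg.conj_mem {g : X} (h : Neg L κ g) {c : X} (hc : c ∈ κ) : g * c * g⁻¹ ∈ κ := by
  have := mul_mem (h c (hκ hc)) (inv_mem hc)
  simpa [mul_assoc] using this

theorem Pos.mul {g h : X} (hg : Pos L κ g) (hh : Pos L κ h) : Pos L κ (g * h) := by
  intro a ha
  have h1 := hh a ha
  have h2 := Pos.conj_mem hL hab hκ hg h1
  have h3 := mul_mem h2 (hg a ha)
  have e : g * (h * a * h⁻¹ * a⁻¹) * g⁻¹ * (g * a * g⁻¹ * a⁻¹) = g * h * a * (g * h)⁻¹ * a⁻¹ := by group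
  rwa [e] at h3

theorem Pos.mul_neg {g h : X} (hg : Pos L κ g) (hh : Neg L κ h) : Neg L κ (g * h) := by
  intro a ha
  have h1 := hh a ha
  have h2 := Pos.conj_mem hL hab hκ hg h1
  have h3 := mul_mem h2 (inv_mem (hg a ha))
  have ha' : g * a * g⁻¹ ∈ L := hL.conj_mem a ha g
  have e : g * (h * a * h⁻¹ * a) * g⁻¹ * (g * a * g⁻¹ * a⁻¹)⁻¹ =
      g * h * a * (g * h)⁻¹ * ((g * a * g⁻¹) * a * (g * a * g⁻¹)⁻¹) := by group
  rw [e, hab _ ha' a ha, mul_assoc a, mul_inv_cancel, mul_one] at h3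
  exact h3

theorem Neg.mul_pos {g h : X} (hg : Neg L κ g) (hh : Pos L κ h) : Neg L κ (g * h) := by
  intro a ha
  have h1 := hh a ha
  have h2 := Neg.conj_mem hL hab hκ hg h1
  have h3 := mul_mem h2 (hg a ha)
  have e : g * (h * a * h⁻¹ * a⁻¹) * g⁻¹ * (g * a * g⁻¹ * a) = g * h * a * (g * h)⁻¹ * a := by group
  rwa [e] at h3

theorem Neg.mul {g h : X} (hg : Neg L κ g) (hh : Neg L κ h) : Pos L κ (g * h) := by
  intro a ha
  have h1 := hh a ha
  have h2 := Neg.conj_mem hL hab hκ hg h1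
  have h3 := mul_mem h2 (inv_mem (hg a ha))
  have ha' : g * a * g⁻¹ ∈ L := hL.conj_mem a ha g
  have e : g * (h * a * h⁻¹ * a) * g⁻¹ * (g * a * g⁻¹ * a)⁻¹ =
      g * h * a * (g * h)⁻¹ * ((g * a * g⁻¹) * a⁻¹ * (g * a * g⁻¹)⁻¹) := by group
  rw [e, hab _ ha' a⁻¹ (inv_mem ha), mul_assoc a⁻¹, mul_inv_cancel, mul_one] at h3
  exact h3

theorem Pos.inv {g : X} (hg : Pos L κ g) : Pos L κ g⁻¹ := by
  intro a ha
  have hb : g⁻¹ * a * g ∈ L := by simpa using hL.conj_mem a ha g⁻¹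
  have h1 := inv_mem (hg _ hb)
  have e : (g * (g⁻¹ * a * g) * g⁻¹ * (g⁻¹ * a * g)⁻¹)⁻¹ = g⁻¹ * a * g⁻¹⁻¹ * a⁻¹ := by group
  rwa [e] at h1

theorem Neg.inv {g : X} (hg : Neg L κ g) : Neg L κ g⁻¹ := by
  intro a ha
  have hb : g⁻¹ * a * g ∈ L := by simpa using hL.conj_mem a ha g⁻¹
  have h1 := hg _ hb
  have e : g * (g⁻¹ * a * g) * g⁻¹ * (g⁻¹ * a * g) = a * (g⁻¹ * a * g) := by group
  rw [e, hab a ha _ hb] at h1
  simpa [mul_assoc] using h1

/-- conjugation by an element normalizing `κ` -/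
theorem Pos.conj {g u : X} (hg : Pos L κ g) (hu : u ∈ Subgroup.normalizer (κ : Set X)) :
    Pos L κ (u * g * u⁻¹) := by
  intro a ha
  have hb : u⁻¹ * a * u ∈ L := by simpa using hL.conj_mem a ha u⁻¹
  have h1 := (Subgroup.mem_normalizer_iff.1 hu _).1 (hg _ hb)
  have e : u * (g * (u⁻¹ * a * u) * g⁻¹ * (u⁻¹ * a * u)⁻¹) * u⁻¹ = u * g * u⁻¹ * a * (u * g * u⁻¹)⁻¹ * a⁻¹ := by
    group
  rwa [e] at h1

theorem Neg.conj {g u : X} (hg : Neg L κ g) (hu : u ∈ Subgroup.normalizer (κ : Set X)) :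
    Neg L κ (u * g * u⁻¹) := by
  intro a ha
  have hb : u⁻¹ * a * u ∈ L := by simpa using hL.conj_mem a ha u⁻¹
  have h1 := (Subgroup.mem_normalizer_iff.1 hu _).1 (hg _ hb)
  have e : u * (g * (u⁻¹ * a * u) * g⁻¹ * (u⁻¹ * a * u)) * u⁻¹ = u * g * u⁻¹ * a * (u * g * u⁻¹)⁻¹ * a := by
    group
  rwa [e] at h1

theorem Pos.mem_normalizer {g : X} (hg : Pos L κ g) : g ∈ Subgroup.normalizer (κ : Set X) := by
  rw [Subgroup.mem_normalizer_iff]
  intro c
  refine ⟨fun hc => Pos.conj_mem hL hab hκ hg hc, fun hc => ?_⟩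
  have := Pos.conj_mem hL hab hκ (Pos.inv hL hab hκ hg) hc
  simpa [mul_assoc] using this

theorem Neg.mem_normalizer {g : X} (hg : Neg L κ g) : g ∈ Subgroup.normalizer (κ : Set X) := by
  rw [Subgroup.mem_normalizer_iff]
  intro c
  refine ⟨fun hc => Neg.conj_mem hL hab hκ hg hc, fun hc => ?_⟩
  have := Neg.conj_mem hL hab hκ (Neg.inv hL hab hκ hg) hc
  simpa [mul_assoc] using this

omit hκ in
/-- an involution normalizing `κ` of prime index acts as `±1` -/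
theorem pos_or_neg (hi : (κ.relIndex L).Prime) {t : X} (ht : t ∈ Subgroup.normalizer (κ : Set X))
    (ht2 : t * t = 1) (hκ : κ ≤ L) : Pos L κ t ∨ Neg L κ t := by
  let P : Subgroup X :=
    { carrier := {a | a ∈ L ∧ t * a * t⁻¹ * a⁻¹ ∈ κ}
      one_mem' := ⟨one_mem _, by simp⟩
      mul_mem' := by
        rintro a b ⟨ha, ha'⟩ ⟨hb, hb'⟩
        refine ⟨mul_mem ha hb, ?_⟩
        have e : t * (a * b) * t⁻¹ * (a * b)⁻¹ = (t * a * t⁻¹) * (t * b * t⁻¹ * b⁻¹) * a⁻¹ := by group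
        have h1 : t * b * t⁻¹ * b⁻¹ ∈ L := mul_mem (hL.conj_mem b hb t) (inv_mem hb)
        rw [e, hab _ (hL.conj_mem a ha t) _ h1, mul_assoc]
        exact mul_mem hb' ha'
      inv_mem' := by
        rintro a ⟨ha, ha'⟩
        refine ⟨inv_mem ha, ?_⟩
        have e : t * a⁻¹ * t⁻¹ * a⁻¹⁻¹ = (a⁻¹ * (t * a * t⁻¹))⁻¹ := by group
        rw [e, ← hab _ (hL.conj_mem a ha t) _ (inv_mem ha)]
        exact inv_mem ha' }
  have hPL : P ≤ L := fun a ha => ha.1
  have hκP : κ ≤ P := fun a ha =>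
    ⟨hκ ha, mul_mem ((Subgroup.mem_normalizer_iff.1 ht a).1 ha) (inv_mem ha)⟩
  have hmul := Subgroup.relIndex_mul_relIndex κ P L hκP hPL
  rw [← hmul] at hi
  rcases Nat.prime_mul_iff.1 hi with ⟨-, h⟩ | ⟨-, h⟩
  · left
    intro a ha
    exact ((Subgroup.relIndex_eq_one.1 h) ha).2
  · right
    intro a ha
    have hta : t⁻¹ = t := inv_eq_of_mul_eq_one_left ht2
    have h1 : t * a * t⁻¹ ∈ L := hL.conj_mem a ha t
    have h2 : t * a * t⁻¹ * a ∈ P := by
      refine ⟨mul_mem h1 ha, ?_⟩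
      have e : t * (t * a * t⁻¹ * a) * t⁻¹ = a * (t * a * t⁻¹) := by
        calc t * (t * a * t⁻¹ * a) * t⁻¹ = (t * t) * a * (t⁻¹ * a * t⁻¹) := by group
          _ = a * (t * a * t⁻¹) := by rw [ht2, one_mul, hta]
      rw [e, hab a ha _ h1, mul_inv_cancel]
      exact one_mem _
    exact (Subgroup.relIndex_eq_one.1 h) h2

omit hκ hL in
theorem not_pos_of_neg (hi : κ.relIndex L = 5) {t : X} (h : Neg L κ t) : ¬ Pos L κ t := by
  intro h'
  have h2 : ∀ a ∈ L, a ^ 2 ∈ κ := by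
    intro a ha
    have := mul_mem (inv_mem (h' a ha)) (h a ha)
    have e : (t * a * t⁻¹ * a⁻¹)⁻¹ * (t * a * t⁻¹ * a) = a ^ 2 := by rw [pow_two]; group
    rwa [e] at this
  have h5 : ∀ a ∈ L, a ^ 5 ∈ κ := by
    intro a ha
    have hn : (κ.subgroupOf L).Normal := by
      refine ⟨fun n hn g => ?_⟩
      have : g * n * g⁻¹ = n := by
        apply Subtype.ext
        push_cast
        rw [hab g g.2 n n.2, mul_assoc, mul_inv_cancel, mul_one]
      rwa [this]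
    have := Subgroup.pow_index_mem (κ.subgroupOf L) ⟨a, ha⟩
    have hi' : (κ.subgroupOf L).index = 5 := hi
    rw [hi', Subgroup.mem_subgroupOf] at this
    exact this
  have h1 : L ≤ κ := by
    intro a ha
    have := mul_mem (h5 a ha) (inv_mem (mul_mem (h2 a ha) (h2 a ha)))
    have e : a ^ 5 * (a ^ 2 * a ^ 2)⁻¹ = a := by group
    rwa [e] at this
  rw [Subgroup.relIndex_eq_one.2 h1] at hi
  omega

end Sign

/-- a finite group generated by elements of odd order with a central `2`-subgroup of odd index has odd order -/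
theorem odd_of_central {S : Type*} [Group S] [Finite S] (F : Subgroup S) (hF : F ≤ Subgroup.center S)
    (hF2 : ∀ f ∈ F, IsTwo f) (hodd : Odd F.index) (hgen : oddGen (⊤ : Subgroup S) = ⊤) : Odd (Nat.card S) := by
  have hn : Odd (Subgroup.center S).index := Odd.of_dvd_nat hodd (Subgroup.index_dvd_of_le hF)
  have hall : ∀ x : S, Odd (orderOf (MonoidHom.transferCenterPow S x)) := by
    intro x
    have hx : x ∈ oddGen (⊤ : Subgroup S) := by rw [hgen]; trivial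
    refine Subgroup.closure_induction (p := fun y _ => Odd (orderOf (MonoidHom.transferCenterPow S y))) ?_ ?_ ?_ ?_ hx
    · intro y hy
      exact Odd.of_dvd_nat hy.2 (orderOf_map_dvd _ y)
    · rw [map_one, orderOf_one]; exact odd_one
    · intro y z _ _ hy hz
      rw [map_mul]
      have hc : Commute (MonoidHom.transferCenterPow S y) (MonoidHom.transferCenterPow S z) :=
        Subtype.ext (((Subgroup.mem_center_iff.1 (MonoidHom.transferCenterPow S y).2) _).symm)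
      exact Odd.of_dvd_nat (hy.mul hz) (hc.orderOf_mul_dvd_mul_orderOf)
    · intro y _ hy
      rw [map_inv, orderOf_inv]; exact hy
  have hbot : F = ⊥ := by
    rw [eq_bot_iff]
    intro f hf
    have h1 := hall f
    rw [← Subgroup.orderOf_coe, MonoidHom.transferCenterPow_apply] at h1
    obtain ⟨j, hj⟩ := isTwo_iff_orderOf.1 (hF2 f hf)
    have h2 : orderOf (f ^ (Subgroup.center S).index) = orderOf f := by
      apply Nat.Coprime.orderOf_pow
      rw [hj]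
      exact Nat.Coprime.pow_left _ (Nat.coprime_two_left.2 hn)
    rw [h2] at h1
    exact Subgroup.mem_bot.2 (eq_one_of_isTwo_of_odd (hF2 f hf) h1)
  rw [hbot, Subgroup.index_bot] at hodd
  exact hodd

/-- the elements of `L`-sign `±1` for all `κ ∈ 𝒦` -/
def signGroup {X : Type*} [Group X] {L : Subgroup X} (hL : L.Normal) (hab : ∀ a ∈ L, ∀ b ∈ L, a * b = b * a)
    (𝒦 : Set (Subgroup X)) (hκ : ∀ κ ∈ 𝒦, κ ≤ L) : Subgroup X where
  carrier := {g | ∀ κ ∈ 𝒦, Pos L κ g ∨ Neg L κ g}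
  one_mem' := fun κ _ => Or.inl fun a _ => by simp
  mul_mem' := by
    intro g h hg hh κ hκ'
    rcases hg κ hκ' with h1 | h1 <;> rcases hh κ hκ' with h2 | h2
    · exact Or.inl (Pos.mul hL hab (hκ κ hκ') h1 h2)
    · exact Or.inr (Pos.mul_neg hL hab (hκ κ hκ') h1 h2)
    · exact Or.inr (Neg.mul_pos hL hab (hκ κ hκ') h1 h2)
    · exact Or.inl (Neg.mul hL hab (hκ κ hκ') h1 h2)
  inv_mem' := by
    intro g hg κ hκ'
    rcases hg κ hκ' with h1 | h1
    · exact Or.inl (Pos.inv hL hab (hκ κ hκ') h1)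
    · exact Or.inr (Neg.inv hL hab (hκ κ hκ') h1)

/-- **Part F of the plan for S4258.** -/
theorem final {k : ℕ} (hk : 1 ≤ k) (X : Type u) [Group X] [Finite X] (hX : IsPSolvable 2 X)
    (hC : Crit.{u} k X)
    (hP : ∀ x : X, IsTwo x → (∀ a ∈ T k (⊤ : Subgroup X), x * a = a * x) → x = 1)
    (hE : 2 ≤ k → ∀ (Y : Type u) [Group Y] [Finite Y], IsPSolvable 2 Y → EAt.{u} (k - 1) Y)
    (hM : 2 ≤ k → ∀ (Y : Type u) [Group Y] [Finite Y], IsPSolvable 2 Y →
      (∀ y : Y, IsTwo y → y ^ 2 ^ (k - 1) = 1) → Odd (Nat.card (T (k - 1) (⊤ : Subgroup Y))))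
    (hab : ∀ a ∈ T k (⊤ : Subgroup X), ∀ b ∈ T k (⊤ : Subgroup X), a * b = b * a)
    (hexp : ∀ x : X, IsTwo x → x ^ 2 ^ k = 1)
    (𝒦 : Set (Subgroup X))
    (hκ : ∀ κ ∈ 𝒦, κ ≤ T k (⊤ : Subgroup X) ∧ κ.relIndex (T k (⊤ : Subgroup X)) = 5)
    (hκ0 : ∀ a ∈ T k (⊤ : Subgroup X), (∀ κ ∈ 𝒦, a ∈ κ) → a = 1)
    (hstar : ∀ x : X, IsTwo x → ∀ κ ∈ 𝒦, x ^ 2 ^ (k - 1) ∈ Subgroup.normalizer (κ : Set X) ∧
      ((∃ a ∈ T k (⊤ : Subgroup X), x ^ 2 ^ (k - 1) * a * (x ^ 2 ^ (k - 1))⁻¹ * a⁻¹ ∉ κ) →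
        2 ≤ k ∧ x ^ 2 ^ (k - 2) ∈ Subgroup.normalizer (κ : Set X))) : False := by
  have hL : (T k (⊤ : Subgroup X)).Normal := T_normal k inferInstance
  have hκ' : ∀ κ ∈ 𝒦, κ ≤ T k (⊤ : Subgroup X) := fun κ h => (hκ κ h).1
  -- it is enough to kill the 2-elements of `T (k - 1) X`
  have hfin : (∀ x ∈ T (k - 1) (⊤ : Subgroup X), IsTwo x → x = 1) → False := by
    intro h
    apply hC.ne
    obtain ⟨j, rfl⟩ : ∃ j, k = j + 1 := ⟨k - 1, by omega⟩
    rw [eq_bot_iff, T_succ]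
    refine (oddGen_le _).trans ?_
    refine (Subgroup.closure_le _).2 ?_
    rintro x ⟨hx, hx2⟩
    exact h x hx hx2
  have hCpos : ∀ κ : Subgroup X, ∀ c ∈ Subgroup.centralizer ((T k (⊤ : Subgroup X) : Subgroup X) : Set X),
      Pos (T k (⊤ : Subgroup X)) κ c := by
    intro κ c hc a ha
    have h1 : a * c = c * a := Subgroup.mem_centralizer_iff.1 hc a ha
    rw [← h1, mul_assoc a, mul_inv_cancel, mul_one, mul_inv_cancel]
    exact one_mem _
  have hCof : ∀ g : X, (∀ κ ∈ 𝒦, Pos (T k (⊤ : Subgroup X)) κ g) →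
      g ∈ Subgroup.centralizer ((T k (⊤ : Subgroup X) : Subgroup X) : Set X) := by
    intro g hg
    rw [Subgroup.mem_centralizer_iff]
    intro a ha
    have h1 : g * a * g⁻¹ * a⁻¹ = 1 :=
      hκ0 _ (mul_mem (hL.conj_mem a ha g) (inv_mem ha)) fun κ h => hg κ h a ha
    rw [mul_inv_eq_one, mul_inv_eq_iff_eq_mul] at h1
    exact h1.symm
  have hsq : ∀ x : X, IsTwo x → x ^ 2 ^ (k - 1) * x ^ 2 ^ (k - 1) = 1 := by
    intro x hx
    rw [← pow_add, ← two_mul, ← pow_succ', Nat.sub_add_cancel hk]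
    exact hexp x hx
  have hsign : ∀ x : X, IsTwo x → ∀ κ ∈ 𝒦, Pos (T k (⊤ : Subgroup X)) κ (x ^ 2 ^ (k - 1)) ∨
      Neg (T k (⊤ : Subgroup X)) κ (x ^ 2 ^ (k - 1)) := by
    intro x hx κ h
    refine pos_or_neg hL hab ?_ (hstar x hx κ h).1 (hsq x hx) (hκ' κ h)
    rw [(hκ κ h).2]
    norm_num
  rcases Nat.lt_or_ge k 2 with hk2 | hk2
  · -- k = 1
    obtain rfl : k = 1 := by omega
    apply hfin
    intro x _ hx
    apply hP x hx
    have h1 : x ∈ Subgroup.centralizer ((T 1 (⊤ : Subgroup X) : Subgroup X) : Set X) := by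
      apply hCof
      intro κ h a ha
      by_contra hn
      have := (hstar x hx κ h).2 ⟨a, ha, by simpa using hn⟩
      omega
    intro a ha
    exact (Subgroup.mem_centralizer_iff.1 h1 a ha).symm
  -- k ≥ 2
  have hCn : (Subgroup.centralizer ((T k (⊤ : Subgroup X) : Subgroup X) : Set X)).Normal := inferInstance
  set C := Subgroup.centralizer ((T k (⊤ : Subgroup X) : Subgroup X) : Set X) with hCdef
  let E : Subgroup X := Subgroup.normalClosure ({g | ∃ x, IsTwo x ∧ g = x ^ 2 ^ (k - 1)} ∪ (C : Set X))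
  have hEn : E.Normal := Subgroup.normalClosure_normal
  have hCE : C ≤ E := fun c hc => Subgroup.subset_normalClosure (Or.inr hc)
  have hEA : E ≤ signGroup hL hab 𝒦 hκ' := by
    refine (Subgroup.closure_le _).2 ?_
    intro g hg
    obtain ⟨y, hy, hyg⟩ := Group.mem_conjugatesOfSet_iff.1 hg
    obtain ⟨c, rfl⟩ := isConj_iff.1 hyg
    intro κ h
    rcases hy with ⟨x, hx, rfl⟩ | hy
    · have := hsign (c * x * c⁻¹) (hx.conj c) κ h
      rwa [conj_pow] at this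
    · exact Or.inl (hCpos κ _ (hCn.conj_mem y hy c))
  have hE2 : ∀ g ∈ E, g * g ∈ C := by
    intro g hg
    apply hCof
    intro κ h
    rcases hEA hg κ h with h1 | h1
    · exact Pos.mul hL hab (hκ' κ h) h1 h1
    · exact Neg.mul hL hab (hκ' κ h) h1 h1
  have hEc : ∀ g ∈ E, ∀ h ∈ E, g * h * g⁻¹ * h⁻¹ ∈ C := by
    intro g hg h hh
    have h1 := hE2 (g * h) (mul_mem hg hh)
    have h2 := hE2 g hg
    have h3 := hE2 h hh
    -- g h g⁻¹ h⁻¹ = (g h g h) * (h⁻¹ g⁻² h) * h⁻²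
    have e : g * h * g⁻¹ * h⁻¹ = (g * h * (g * h)) * (h⁻¹ * (g * g)⁻¹ * h⁻¹⁻¹) * (h * h)⁻¹ := by group
    rw [e]
    exact mul_mem (mul_mem h1 (hCn.conj_mem _ (inv_mem h2) h⁻¹)) (inv_mem h3)
  -- the 2-elements of `T (k - 1) X` lie in `E`
  have hTE : ∀ x ∈ T (k - 1) (⊤ : Subgroup X), IsTwo x → x ∈ E := by
    intro x hx hx2
    have h1 : Odd (Nat.card (T (k - 1) (⊤ : Subgroup (X ⧸ E)))) := by
      apply hM hk2
      · exact Lib.PSolvable.IsPSolvable_of_surjective 2 hX (QuotientGroup.mk' E) (QuotientGroup.mk'_surjective _)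
      · intro y hy
        obtain ⟨z, rfl⟩ := QuotientGroup.mk'_surjective _ y
        obtain ⟨n, hn, hzn⟩ := exists_two_lift (QuotientGroup.mk' E) z hy
        rw [← hzn, ← map_pow]
        exact (QuotientGroup.eq_one_iff _).2 (Subgroup.subset_normalClosure (Or.inl ⟨_, hn, rfl⟩))
    have h2 : QuotientGroup.mk' E x ∈ T (k - 1) (⊤ : Subgroup (X ⧸ E)) := by
      rw [← T_map_top _ (QuotientGroup.mk'_surjective _)]
      exact ⟨x, hx, rfl⟩
    have h3 : Odd (orderOf (QuotientGroup.mk' E x)) :=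
      Odd.of_dvd_nat h1 (Subgroup.orderOf_dvd_natCard _ h2)
    exact (QuotientGroup.eq_one_iff _).1 (eq_one_of_isTwo_of_odd (hx2.map (QuotientGroup.mk' E)) h3)
  -- the module `E / C`
  obtain ⟨V, i1, i2, π, hsurj, hadd, hker, -⟩ :=
    OddOrderCharacters.PF9.SectionModule.exists_module 2 E C
      (fun h _ c hc => hCn.conj_mem c hc h) (fun a ha b hb => hEc a ha b hb)
      (fun a ha => by rw [pow_two]; exact hE2 a ha)
  obtain ⟨ρ, hρ⟩ := OddOrderCharacters.PF9.SectionModule.exists_rep_normal (p := 2) hsurj hadd hker hEn hCn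
  have hπ1 : π 1 = 0 := OddOrderCharacters.PF9.SectionModule.pi_one hadd
  have hVfin : Finite V := Finite.of_surjective _ hsurj
  by_cases hall : ∀ y : X, IsTwo y → (ρ y - 1) ^ (2 ^ (k - 1) - 1) = 0
  · -- `T (k - 1) X` centralizes `E / C`
    have htriv := hE hk2 X hX V ρ hall
    apply hfin
    -- the group `S = T (k - 1) (X / C)`
    obtain ⟨j, hj⟩ : ∃ j, k - 1 = j + 1 := ⟨k - 2, by omega⟩
    have hSmem : ∀ s : X ⧸ C, s ∈ T (k - 1) (⊤ : Subgroup (X ⧸ C)) →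
        ∃ h ∈ T (k - 1) (⊤ : Subgroup X), QuotientGroup.mk' C h = s := by
      intro s hs
      rw [← T_map_top _ (QuotientGroup.mk'_surjective C)] at hs
      exact hs
    have hodd : Odd (Nat.card (T (k - 1) (⊤ : Subgroup (X ⧸ C)))) := by
      set S := T (k - 1) (⊤ : Subgroup (X ⧸ C)) with hS
      set F : Subgroup S := (E.map (QuotientGroup.mk' C)).subgroupOf S with hF
      have hFc : F ≤ Subgroup.center S := by
        intro f hf
        obtain ⟨g, hg, hgf⟩ := hf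
        rw [Subgroup.mem_center_iff]
        intro s
        obtain ⟨h, hh, hhs⟩ := hSmem s s.2
        apply Subtype.ext
        push_cast
        change QuotientGroup.mk' C g = (f : X ⧸ C) at hgf
        rw [← hgf, ← hhs, ← map_mul, ← map_mul]
        have h1 := congrArg (fun φ => φ (π ⟨g, hg⟩)) (htriv h hh)
        simp only [Module.End.one_apply] at h1
        rw [hρ] at h1
        have h2 := (OddOrderCharacters.PF9.SectionModule.pi_eq_iff hadd hker _ _).1 h1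
        change (h * g * h⁻¹)⁻¹ * g ∈ C at h2
        -- h g = g h modulo C
        have h3 : QuotientGroup.mk' C (h * g * h⁻¹) = QuotientGroup.mk' C g :=
          QuotientGroup.eq.2 h2
        have h4 : h * g = h * g * h⁻¹ * h := by group
        rw [h4, map_mul, h3, ← map_mul]
      have hFn : F.Normal := by
        refine ⟨fun n hn g => ?_⟩
        have := (Subgroup.mem_center_iff.1 (hFc hn) g)
        rw [this, mul_assoc, mul_inv_cancel, mul_one]
        exact hn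
      refine odd_of_central F hFc ?_ ?_ ?_
      · intro f hf
        obtain ⟨g, hg, hgf⟩ := hf
        refine ⟨1, Subtype.ext ?_⟩
        change QuotientGroup.mk' C g = (f : X ⧸ C) at hgf
        push_cast
        rw [← hgf, ← map_pow, pow_two]
        exact (QuotientGroup.eq_one_iff _).2 (hE2 g hg)
      · rw [Subgroup.index]
        apply TwoLenA.odd_card_of_odd_orderOf
        intro q
        obtain ⟨s, rfl⟩ := QuotientGroup.mk'_surjective _ q
        obtain ⟨h, hh, hhs⟩ := hSmem s s.2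
        -- `h` has an odd power in `E`
        obtain ⟨m, n, hm, hn, hmn⟩ := exists_odd_mul_two h
        have h1 : h ^ n ∈ E := hTE _ (pow_mem hh n) hn
        have h2 : h ^ (orderOf (h ^ m)) ∈ E := by
          have h3 : h ^ orderOf (h ^ m) = (h ^ m) ^ orderOf (h ^ m) * (h ^ n) ^ orderOf (h ^ m) := by
            rw [← (Commute.refl h).pow_pow m n |>.mul_pow]
            rw [← hmn]
          rw [h3, pow_orderOf_eq_one, one_mul]
          exact pow_mem h1 _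
        have h3 : (QuotientGroup.mk' F s) ^ (orderOf (h ^ m)) = 1 := by
          rw [← map_pow]
          refine (QuotientGroup.eq_one_iff _).2 ?_
          refine Subgroup.mem_subgroupOf.2 ⟨_, h2, ?_⟩
          rw [map_pow, hhs]
          rfl
        exact Odd.of_dvd_nat hm (orderOf_dvd_of_pow_eq_one h3)
      · have h1 : (oddGen (⊤ : Subgroup S)).map S.subtype = (⊤ : Subgroup S).map S.subtype := by
          rw [oddGen_map, ← MonoidHom.range_eq_map, Subgroup.range_subtype, hS, hj, oddGen_T_succ]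
        exact Subgroup.map_injective S.subtype_injective h1
    intro x hx hx2
    apply hP x hx2
    have h2 : QuotientGroup.mk' C x ∈ T (k - 1) (⊤ : Subgroup (X ⧸ C)) := by
      rw [← T_map_top _ (QuotientGroup.mk'_surjective _)]
      exact ⟨x, hx, rfl⟩
    have h3 : Odd (orderOf (QuotientGroup.mk' C x)) :=
      Odd.of_dvd_nat hodd (Subgroup.orderOf_dvd_natCard _ h2)
    have h4 : x ∈ C := (QuotientGroup.eq_one_iff _).1 (eq_one_of_isTwo_of_odd (hx2.map (QuotientGroup.mk' C)) h3)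
    intro a ha
    exact (Subgroup.mem_centralizer_iff.1 h4 a ha).symm
  · -- a bad 2-element
    push Not at hall
    obtain ⟨x, hx, hne⟩ := hall
    rw [TwoLenA.sub_one_pow] at hne
    obtain ⟨v, hv⟩ : ∃ v, (∑ i ∈ Finset.range (2 ^ (k - 1)), (ρ x) ^ i) v ≠ 0 := by
      by_contra hcon
      push Not at hcon
      exact hne (LinearMap.ext hcon)
    obtain ⟨d, rfl⟩ := hsurj v
    obtain ⟨w, hw, hπw⟩ := TwoLenA.exists_mul_pow E π hadd hπ1 ρ hρ x d (2 ^ (k - 1))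
    obtain ⟨w', hw', -⟩ := TwoLenA.exists_mul_pow E π hadd hπ1 ρ hρ x d (2 ^ (k - 2))
    have hpow : 2 ^ (k - 1) = 2 ^ (k - 2) + 2 ^ (k - 2) := by
      rw [← two_mul, ← pow_succ']
      congr 1
      omega
    have hwC : (w : X) ∉ C := by
      intro h
      exact hv (by rw [← hπw]; exact (hker w).2 h)
    -- `w = w' (u w' u⁻¹)`
    have hww : (w : X) = w' * (x ^ 2 ^ (k - 2) * w' * (x ^ 2 ^ (k - 2))⁻¹) := by
      have h1 : ((d : X) * x) ^ 2 ^ (k - 1) = ((d : X) * x) ^ 2 ^ (k - 2) * ((d : X) * x) ^ 2 ^ (k - 2) := by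
        rw [hpow, pow_add]
      rw [hw, hw', hpow, pow_add] at h1
      have h2 : (w : X) = (w' * x ^ 2 ^ (k - 2) * (w' * x ^ 2 ^ (k - 2))) * (x ^ 2 ^ (k - 2) * x ^ 2 ^ (k - 2))⁻¹ := by
        rw [← h1]; group
      rw [h2]; group
    obtain ⟨κ, hκm, hnp⟩ : ∃ κ ∈ 𝒦, ¬ Pos (T k (⊤ : Subgroup X)) κ w := by
      by_contra hcon
      push Not at hcon
      exact hwC (hCof _ hcon)
    have hneg : Neg (T k (⊤ : Subgroup X)) κ w := (hEA w.2 κ hκm).resolve_left hnp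
    have hκL := hκ' κ hκm
    have hi := (hκ κ hκm).2
    -- the 2-element `x'` congruent to `d x` modulo `C`
    have htwo : IsTwo (QuotientGroup.mk' C ((d : X) * x)) := by
      obtain ⟨j, hj⟩ := hx
      obtain ⟨w₁, hw₁, -⟩ := TwoLenA.exists_mul_pow E π hadd hπ1 ρ hρ x d (2 ^ j)
      rw [hj, mul_one] at hw₁
      refine ⟨j + 1, ?_⟩
      rw [pow_succ, pow_mul, ← map_pow, hw₁, ← map_pow, pow_two]
      exact (QuotientGroup.eq_one_iff _).2 (hE2 _ w₁.2)
    obtain ⟨n, hn, hxn⟩ := exists_two_lift (QuotientGroup.mk' C) ((d : X) * x) htwo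
    set x' := ((d : X) * x) ^ n with hx'
    have hmod : ∀ m, ∃ c ∈ C, x' ^ m = c * ((d : X) * x) ^ m := by
      intro m
      have h1 : QuotientGroup.mk' C (((d : X) * x) ^ m) = QuotientGroup.mk' C (x' ^ m) := by
        rw [map_pow, map_pow, hxn]
      have h2 : x' ^ m * (((d : X) * x) ^ m)⁻¹ ∈ C := by
        refine (QuotientGroup.eq_one_iff _).1 ?_
        change QuotientGroup.mk' C (x' ^ m * (((d : X) * x) ^ m)⁻¹) = 1
        rw [map_mul, map_inv, ← h1, mul_inv_cancel]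
      exact ⟨_, h2, by group⟩
    have hunorm : x ^ 2 ^ (k - 2) ∈ Subgroup.normalizer (κ : Set X) := by
      rcases hsign x hx κ hκm with hp | hp
      · -- positive sign: use `x'`
        obtain ⟨c, hc, hcx⟩ := hmod (2 ^ (k - 1))
        rw [hw] at hcx
        have h1 : Neg (T k (⊤ : Subgroup X)) κ (x' ^ 2 ^ (k - 1)) := by
          rw [hcx]
          exact Pos.mul_neg hL hab hκL (hCpos κ c hc) (Neg.mul_pos hL hab hκL hneg hp)
        have h2 : ∃ a ∈ T k (⊤ : Subgroup X), x' ^ 2 ^ (k - 1) * a * (x' ^ 2 ^ (k - 1))⁻¹ * a⁻¹ ∉ κ := by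
          by_contra hcon
          push Not at hcon
          exact not_pos_of_neg hab hi h1 hcon
        have h3 := ((hstar x' hn κ hκm).2 h2).2
        obtain ⟨c', hc', hcx'⟩ := hmod (2 ^ (k - 2))
        rw [hw'] at hcx'
        have h4 : x ^ 2 ^ (k - 2) = (w' : X)⁻¹ * (c'⁻¹ * x' ^ 2 ^ (k - 2)) := by
          rw [hcx']; group
        rw [h4]
        have h5 : (w' : X) ∈ Subgroup.normalizer (κ : Set X) := by
          rcases hEA w'.2 κ hκm with h6 | h6
          · exact Pos.mem_normalizer hL hab hκL h6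
          · exact Neg.mem_normalizer hL hab hκL h6
        exact mul_mem (inv_mem h5) (mul_mem (inv_mem (Pos.mem_normalizer hL hab hκL (hCpos κ c' hc'))) h3)
      · have h2 : ∃ a ∈ T k (⊤ : Subgroup X), x ^ 2 ^ (k - 1) * a * (x ^ 2 ^ (k - 1))⁻¹ * a⁻¹ ∉ κ := by
          by_contra hcon
          push Not at hcon
          exact not_pos_of_neg hab hi hp hcon
        exact ((hstar x hx κ hκm).2 h2).2
    apply hnp
    rw [hww]
    rcases hEA w'.2 κ hκm with h6 | h6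
    · exact Pos.mul hL hab hκL h6 (Pos.conj hL hab hκL h6 hunorm)
    · exact Neg.mul hL hab hκL h6 (Neg.conj hL hab hκL h6 hunorm)

end Cfsg.Agent.H979.TwoLenF
end

-- part: H979/TwoLenStar
section
/-!
# Part STAR of helper552's plan for S4258
-/

set_option autoImplicit false
set_option linter.unusedSectionVars false

namespace Cfsg.Agent.H979.TwoLenStar

open Cfsg.Agent.H552 Cfsg.Agent.H979.TwoLenF

theorem mem_of_odd_pow {G : Type*} [Group G] {S : Subgroup G} {y : G} (hy : IsTwo y) {o : ℕ} (ho : Odd o)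
    (h : y ^ o ∈ S) : y ∈ S := by
  obtain ⟨j, hj⟩ := isTwo_iff_orderOf.1 hy
  have hc : o.Coprime (orderOf y) := by
    rw [hj]
    exact (Nat.Coprime.pow_left _ (Nat.coprime_two_left.2 ho)).symm
  obtain ⟨n, hn⟩ := exists_pow_eq_self_of_coprime hc
  rw [← hn]
  exact pow_mem h n

section

variable {X : Type*} [Group X] [Finite X] {M : Type*} [AddCommGroup M] [Module (ZMod 2) M]
  (τ : X →* Module.End (ZMod 2) M) {L κ : Subgroup X} {P : Submodule (ZMod 2) M}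

/-- the elements of `L` fixing `v` modulo `P` -/
def fixer (P : Submodule (ZMod 2) M) (hP : ∀ l ∈ L, ∀ m ∈ P, τ l m ∈ P) (v : M) : Subgroup X where
  carrier := {l | l ∈ L ∧ τ l v - v ∈ P}
  one_mem' := ⟨one_mem _, by simp⟩
  mul_mem' := by
    rintro a b ⟨ha, ha'⟩ ⟨hb, hb'⟩
    refine ⟨mul_mem ha hb, ?_⟩
    have e : τ (a * b) v - v = τ a (τ b v - v) + (τ a v - v) := by
      rw [map_mul, Module.End.mul_apply, map_sub]; abel
    rw [e]
    exact add_mem (hP a ha _ hb') ha'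
  inv_mem' := by
    rintro a ⟨ha, ha'⟩
    refine ⟨inv_mem ha, ?_⟩
    have h1 : τ a⁻¹ (τ a v) = v := by
      rw [← Module.End.mul_apply, ← map_mul, inv_mul_cancel, map_one, Module.End.one_apply]
    have e : τ a⁻¹ v - v = -(τ a⁻¹ (τ a v - v)) := by
      rw [map_sub, h1]; abel
    rw [e]
    exact neg_mem (hP _ (inv_mem ha) _ ha')

/-- a vector fixed modulo `P` by an element of `L` outside `κ` is in `P` -/
theorem mem_of_fixed (hκ : κ ≤ L) (hκ5 : κ.relIndex L = 5) (hP : ∀ l ∈ L, ∀ m ∈ P, τ l m ∈ P)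
    (hκP : ∀ l ∈ κ, ∀ m, τ l m - m ∈ P) (hfix : ∀ m, (∀ l ∈ L, τ l m - m ∈ P) → m ∈ P) {v : M} {l : X}
    (hl : l ∈ L) (hlκ : l ∉ κ) (h : τ l v - v ∈ P) : v ∈ P := by
  have hκS : κ ≤ fixer τ P hP v := fun c hc => ⟨hκ hc, hκP c hc v⟩
  have hSL : fixer τ P hP v ≤ L := fun c hc => hc.1
  have hmul := Subgroup.relIndex_mul_relIndex κ (fixer τ P hP v) L hκS hSL
  have hi : (κ.relIndex L).Prime := by rw [hκ5]; norm_num
  rw [← hmul] at hi
  rcases Nat.prime_mul_iff.1 hi with ⟨-, h1⟩ | ⟨-, h1⟩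
  · exact hfix v fun c hc => ((Subgroup.relIndex_eq_one.1 h1) hc).2
  · exact absurd ((Subgroup.relIndex_eq_one.1 h1) ⟨hl, h⟩) hlκ

/-- translates of `κ`-fixed vectors by elements not normalizing `κ` are in `P` -/
theorem translate_mem (hLn : L.Normal) (hκ : κ ≤ L) (hκ5 : κ.relIndex L = 5)
    (hP : ∀ l ∈ L, ∀ m ∈ P, τ l m ∈ P) (hκP : ∀ l ∈ κ, ∀ m, τ l m - m ∈ P)
    (hfix : ∀ m, (∀ l ∈ L, τ l m - m ∈ P) → m ∈ P) {m : M} (hm : ∀ c ∈ κ, τ c m = m) {g : X}
    (hg : g ∉ Subgroup.normalizer (κ : Set X)) : τ g m ∈ P := by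
  have h1 : ∃ c ∈ κ, g * c * g⁻¹ ∉ κ := by
    by_contra hcon
    push Not at hcon
    apply hg
    have : Finite (κ : Set X) := inferInstance
    exact Subgroup.mem_normalizer_fintype hcon
  obtain ⟨c, hc, hgc⟩ := h1
  refine mem_of_fixed τ hκ hκ5 hP hκP hfix (hLn.conj_mem c (hκ hc) g) hgc ?_
  have h2 : τ (g * c * g⁻¹) (τ g m) = τ g m := by
    rw [← Module.End.mul_apply, ← map_mul, inv_mul_cancel_right, map_mul, Module.End.mul_apply, hm c hc]
  rw [h2, sub_self]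
  exact zero_mem _

end

/-- **Part STAR of the plan for S4258.** -/
theorem star {X : Type*} [Group X] [Finite X] {M : Type*} [AddCommGroup M] [Module (ZMod 2) M] [Finite M]
    (τ : X →* Module.End (ZMod 2) M) (L : Subgroup X) (hLn : L.Normal)
    (hLab : ∀ a ∈ L, ∀ b ∈ L, a * b = b * a) (hLodd : Odd (Nat.card L)) (κ : Subgroup X) (hκ : κ ≤ L)
    (hκ5 : κ.relIndex L = 5) (P : Submodule (ZMod 2) M) (hP : ∀ l ∈ L, ∀ m ∈ P, τ l m ∈ P)
    (hκP : ∀ l ∈ κ, ∀ m, τ l m - m ∈ P) (hfix : ∀ m, (∀ l ∈ L, τ l m - m ∈ P) → m ∈ P)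
    (hcard : Nat.card (M ⧸ P) = 16) {k : ℕ} (hk : 1 ≤ k) {x : X} (hxk : x ^ 2 ^ k = 1)
    (hN : ∀ m m', (∑ i ∈ Finset.range (2 ^ k), τ (x ^ i) m) ∈ P ∨
      (∑ i ∈ Finset.range (2 ^ k), τ (x ^ i) m') ∈ P ∨
      (∑ i ∈ Finset.range (2 ^ k), τ (x ^ i) (m - m')) ∈ P) :
    x ^ 2 ^ (k - 1) ∈ Subgroup.normalizer (κ : Set X) ∧
      ((∃ a ∈ L, x ^ 2 ^ (k - 1) * a * (x ^ 2 ^ (k - 1))⁻¹ * a⁻¹ ∉ κ) →
        2 ≤ k ∧ x ^ 2 ^ (k - 2) ∈ Subgroup.normalizer (κ : Set X)) := by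
  classical
  have hx : IsTwo x := ⟨k, hxk⟩
  have hκodd : Odd (Nat.card κ) := Odd.of_dvd_nat hLodd (Subgroup.card_dvd_of_le hκ)
  have hchar : ∀ w : M, w + w = 0 := by
    intro w
    rw [← two_smul (ZMod 2)]
    have : (2 : ZMod 2) = 0 := by decide
    rw [this, zero_smul]
  have hneg : ∀ w : M, -w = w := fun w => neg_eq_of_add_eq_zero_left (hchar w)
  -- representatives fixed by `κ`
  have hrep : ∀ c : M ⧸ P, ∃ m : M, (∀ l ∈ κ, τ l m = m) ∧ P.mkQ m = c := by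
    intro c
    obtain ⟨m, rfl⟩ := Submodule.mkQ_surjective P c
    have : Fintype κ := Fintype.ofFinite κ
    refine ⟨∑ l : κ, τ l m, ?_, ?_⟩
    · intro l hl
      rw [map_sum]
      refine Fintype.sum_equiv (Equiv.mulLeft (⟨l, hl⟩ : κ)) _ _ ?_
      intro c
      rw [← Module.End.mul_apply, ← map_mul]
      rfl
    · rw [map_sum]
      have h1 : ∀ l : κ, P.mkQ (τ l m) = P.mkQ m := by
        intro l
        rw [← sub_eq_zero, ← map_sub]
        exact (Submodule.Quotient.mk_eq_zero P).2 (hκP l l.2 m)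
      rw [Finset.sum_congr rfl fun l _ => h1 l, Finset.sum_const, Finset.card_univ, ← Nat.card_eq_fintype_card]
      obtain ⟨j, hj⟩ := hκodd
      rw [hj, add_smul, one_smul, mul_comm, mul_smul]
      have h2 : (2 : ℕ) • P.mkQ m = 0 := by
        rw [two_smul, ← map_add, hchar, map_zero]
      rw [h2, smul_zero, zero_add]
  choose s hs hsc using hrep
  -- pigeonhole
  have hpig : ∀ l ∈ L, ∃ m : M, (∀ c ∈ κ, τ c m = m) ∧ m ∉ P ∧
      (∑ i ∈ Finset.range (2 ^ k), τ (x ^ i) m) ∈ P ∧ (∑ i ∈ Finset.range (2 ^ k), τ (x ^ i) (τ l m)) ∈ P := by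
    intro l _
    have hfinQ : Finite (M ⧸ P) := Nat.finite_of_card_ne_zero (by rw [hcard]; norm_num)
    have : Fintype (M ⧸ P) := Fintype.ofFinite _
    let f : M ⧸ P → Bool × Bool := fun c =>
      (decide ((∑ i ∈ Finset.range (2 ^ k), τ (x ^ i) (s c)) ∈ P),
        decide ((∑ i ∈ Finset.range (2 ^ k), τ (x ^ i) (τ l (s c))) ∈ P))
    obtain ⟨c, c', hne, hf⟩ := Fintype.exists_ne_map_eq_of_card_lt f (by
      rw [← Nat.card_eq_fintype_card (α := M ⧸ P), hcard, Fintype.card_prod, Fintype.card_bool]; norm_num)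
    have hf1 : (∑ i ∈ Finset.range (2 ^ k), τ (x ^ i) (s c)) ∈ P ↔
        (∑ i ∈ Finset.range (2 ^ k), τ (x ^ i) (s c')) ∈ P := by
      have := congrArg Prod.fst hf
      simpa [f] using this
    have hf2 : (∑ i ∈ Finset.range (2 ^ k), τ (x ^ i) (τ l (s c))) ∈ P ↔
        (∑ i ∈ Finset.range (2 ^ k), τ (x ^ i) (τ l (s c'))) ∈ P := by
      have := congrArg Prod.snd hf
      simpa [f] using this
    have hsub : ∀ a b : M, ((∑ i ∈ Finset.range (2 ^ k), τ (x ^ i) a) ∈ P ↔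
        (∑ i ∈ Finset.range (2 ^ k), τ (x ^ i) b) ∈ P) →
        (∑ i ∈ Finset.range (2 ^ k), τ (x ^ i) (a - b)) ∈ P := by
      intro a b hab
      rcases hN a b with h1 | h1 | h1
      · have h2 := sub_mem h1 (hab.1 h1)
        rw [← Finset.sum_sub_distrib] at h2
        simpa only [map_sub] using h2
      · have h2 := sub_mem (hab.2 h1) h1
        rw [← Finset.sum_sub_distrib] at h2
        simpa only [map_sub] using h2
      · exact h1
    refine ⟨s c - s c', ?_, ?_, hsub _ _ hf1, ?_⟩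
    · intro d hd
      rw [map_sub, hs c d hd, hs c' d hd]
    · intro h1
      apply hne
      rw [← hsc c, ← hsc c', ← sub_eq_zero, ← map_sub]
      exact (Submodule.Quotient.mk_eq_zero P).2 h1
    · have h1 := hsub _ _ hf2
      rwa [← map_sub] at h1
  -- positions
  have hpos : ∀ i, i ≠ 0 → i < 2 ^ k → x ^ i ∈ Subgroup.normalizer (κ : Set X) →
      x ^ 2 ^ (k - 1) ∈ Subgroup.normalizer (κ : Set X) ∧
      (i ≠ 2 ^ (k - 1) → 2 ≤ k ∧ x ^ 2 ^ (k - 2) ∈ Subgroup.normalizer (κ : Set X)) := by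
    intro i hi0 hik hi
    obtain ⟨j, o, ho, hjo⟩ := Nat.exists_eq_two_pow_mul_odd hi0
    rw [hjo, pow_mul] at hi
    have h1 := mem_of_odd_pow (hx.pow _) ho hi
    have h2 : 2 ^ j < 2 ^ k := lt_of_le_of_lt (by rw [hjo]; exact Nat.le_mul_of_pos_right _ ho.pos) hik
    have h3 : j < k := (Nat.pow_lt_pow_iff_right (by norm_num)).1 h2
    constructor
    · obtain ⟨l, hl⟩ : ∃ l, k - 1 = j + l := ⟨k - 1 - j, by omega⟩
      rw [hl, pow_add, pow_mul]
      exact pow_mem h1 _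
    · intro hne
      have h4 : j ≠ k - 1 := by
        rintro rfl
        apply hne
        have h5 : 2 ^ k = 2 ^ (k - 1) * 2 := by rw [← pow_succ, Nat.sub_add_cancel hk]
        rw [hjo, h5] at hik
        have h6 : o < 2 := lt_of_mul_lt_mul_left hik (Nat.zero_le _)
        have h7 : o = 1 := by
          have := ho.pos
          omega
        rw [hjo, h7, mul_one]
      have h5 : 2 ≤ k := by omega
      refine ⟨h5, ?_⟩
      obtain ⟨l, hl⟩ : ∃ l, k - 2 = j + l := ⟨k - 2 - j, by omega⟩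
      rw [hl, pow_add, pow_mul]
      exact pow_mem h1 _
  have h0mem : 0 ∈ Finset.range (2 ^ k) := Finset.mem_range.2 (by positivity)
  have ht : x ^ 2 ^ (k - 1) ∈ Subgroup.normalizer (κ : Set X) := by
    by_contra htn
    obtain ⟨m, hm, hmP, hNm, -⟩ := hpig 1 (one_mem _)
    apply hmP
    rw [← Finset.add_sum_erase _ _ h0mem] at hNm
    have h1 : (∑ i ∈ (Finset.range (2 ^ k)).erase 0, τ (x ^ i) m) ∈ P := by
      refine Submodule.sum_mem _ fun i hi => ?_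
      rw [Finset.mem_erase, Finset.mem_range] at hi
      exact translate_mem τ hLn hκ hκ5 hP hκP hfix hm fun h2 => htn (hpos i hi.1 hi.2 h2).1
    have h2 := sub_mem hNm h1
    simpa using h2
  refine ⟨ht, ?_⟩
  rintro ⟨a, ha, hat⟩
  by_contra hcon
  set t := x ^ 2 ^ (k - 1) with htdef
  have htt : t * t = 1 := by
    rw [htdef, ← pow_add, ← two_mul, ← pow_succ', Nat.sub_add_cancel hk]
    exact hxk
  have haκ : a ∉ κ := by
    intro h1
    exact hat (mul_mem ((Subgroup.mem_normalizer_iff.1 ht a).1 h1) (inv_mem h1))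
  have hnegt : Neg L κ t := by
    have hi : (κ.relIndex L).Prime := by rw [hκ5]; norm_num
    rcases pos_or_neg hLn hLab hi ht htt hκ with h1 | h1
    · exact absurd (h1 a ha) hat
    · exact h1
  -- the norm of a `κ`-fixed vector
  have hnorm : ∀ m : M, (∀ c ∈ κ, τ c m = m) → (∑ i ∈ Finset.range (2 ^ k), τ (x ^ i) m) ∈ P → m + τ t m ∈ P := by
    intro m hm hNm
    have hlt : 2 ^ (k - 1) < 2 ^ k := Nat.pow_lt_pow_right (by norm_num) (by omega)
    have h1mem : 2 ^ (k - 1) ∈ (Finset.range (2 ^ k)).erase 0 :=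
      Finset.mem_erase.2 ⟨by positivity, Finset.mem_range.2 hlt⟩
    rw [← Finset.add_sum_erase _ _ h0mem, ← Finset.add_sum_erase _ _ h1mem] at hNm
    have h1 : (∑ i ∈ ((Finset.range (2 ^ k)).erase 0).erase (2 ^ (k - 1)), τ (x ^ i) m) ∈ P := by
      refine Submodule.sum_mem _ fun i hi => ?_
      rw [Finset.mem_erase, Finset.mem_erase, Finset.mem_range] at hi
      exact translate_mem τ hLn hκ hκ5 hP hκP hfix hm fun h2 => hcon ((hpos i hi.2.1 hi.2.2 h2).2 hi.1)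
    have h2 := sub_mem hNm h1
    rw [pow_zero, map_one, Module.End.one_apply] at h2
    have e : m + (τ (x ^ 2 ^ (k - 1)) m + ∑ i ∈ ((Finset.range (2 ^ k)).erase 0).erase (2 ^ (k - 1)), τ (x ^ i) m) -
        ∑ i ∈ ((Finset.range (2 ^ k)).erase 0).erase (2 ^ (k - 1)), τ (x ^ i) m = m + τ t m := by
      rw [htdef]; abel
    rwa [e] at h2
  obtain ⟨m, hm, hmP, hN1, hN2⟩ := hpig a ha
  have hm1 := hnorm m hm hN1
  have hm2 := hnorm (τ a m) (fun c hc => by
    rw [← Module.End.mul_apply, ← map_mul, hLab c (hκ hc) a ha, map_mul, Module.End.mul_apply, hm c hc]) hN2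
  -- apply `a⁻¹`
  have hm3 := hP a⁻¹ (inv_mem ha) _ hm2
  rw [map_add] at hm3
  have e1 : τ a⁻¹ (τ a m) = m := by
    rw [← Module.End.mul_apply, ← map_mul, inv_mul_cancel, map_one, Module.End.one_apply]
  have hc : t * a * t⁻¹ * a ∈ κ := hnegt a ha
  have hc' : t * a * t⁻¹ ∈ L := hLn.conj_mem a ha t
  have e2 : τ a⁻¹ (τ t (τ a m)) = τ (t * a * t⁻¹ * a) (τ (a⁻¹ * a⁻¹) (τ t m)) := by
    have h0 : a⁻¹ * (t * a) = t * a * t⁻¹ * a * (a⁻¹ * a⁻¹ * t) := by
      have h1 : t * a * t⁻¹ * a * (a⁻¹ * a⁻¹ * t) = (t * a * t⁻¹) * a⁻¹ * t := by group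
      have h2 : a⁻¹ * (t * a) = a⁻¹ * (t * a * t⁻¹) * t := by group
      rw [h1, hLab _ hc' _ (inv_mem ha), h2]
    have h3 : τ a⁻¹ (τ t (τ a m)) = τ (a⁻¹ * (t * a)) m := by
      rw [map_mul, map_mul, Module.End.mul_apply, Module.End.mul_apply]
    have h4 : τ (t * a * t⁻¹ * a) (τ (a⁻¹ * a⁻¹) (τ t m)) = τ (t * a * t⁻¹ * a * (a⁻¹ * a⁻¹ * t)) m := by
      rw [map_mul τ (t * a * t⁻¹ * a), map_mul τ (a⁻¹ * a⁻¹), Module.End.mul_apply, Module.End.mul_apply]
    rw [h3, h4, h0]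
  rw [e1, e2] at hm3
  have hm4 := sub_mem hm3 (hκP _ hc (τ (a⁻¹ * a⁻¹) (τ t m)))
  have e3 : m + τ (t * a * t⁻¹ * a) (τ (a⁻¹ * a⁻¹) (τ t m)) -
      (τ (t * a * t⁻¹ * a) (τ (a⁻¹ * a⁻¹) (τ t m)) - τ (a⁻¹ * a⁻¹) (τ t m)) = m + τ (a⁻¹ * a⁻¹) (τ t m) := by
    abel
  rw [e3] at hm4
  have hm5 : τ (a⁻¹ * a⁻¹) (τ t m) - τ t m ∈ P := by
    have := sub_mem hm4 hm1
    have e4 : m + τ (a⁻¹ * a⁻¹) (τ t m) - (m + τ t m) = τ (a⁻¹ * a⁻¹) (τ t m) - τ t m := by abel
    rwa [e4] at this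
  have haa : a⁻¹ * a⁻¹ ∉ κ := by
    intro h1
    apply haκ
    have h2 : a * a ∈ κ := by
      have := inv_mem h1
      rwa [mul_inv_rev, inv_inv] at this
    have hn : (κ.subgroupOf L).Normal := by
      refine ⟨fun n hn g => ?_⟩
      have : g * n * g⁻¹ = n := by
        apply Subtype.ext
        push_cast
        rw [hLab g g.2 n n.2, mul_assoc, mul_inv_cancel, mul_one]
      rwa [this]
    have h3 := Subgroup.pow_index_mem (κ.subgroupOf L) ⟨a, ha⟩
    have hi' : (κ.subgroupOf L).index = 5 := hκ5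
    rw [hi', Subgroup.mem_subgroupOf] at h3
    have h4 : a ^ 5 ∈ κ := h3
    have h5 := mul_mem h4 (inv_mem (mul_mem h2 h2))
    have e6 : a ^ 5 * (a * a * (a * a))⁻¹ = a := by group
    rwa [e6] at h5
  have hw := mem_of_fixed τ hκ hκ5 hP hκP hfix (mul_mem (inv_mem ha) (inv_mem ha)) haa hm5
  apply hmP
  have := sub_mem hm1 hw
  simpa using this

end Cfsg.Agent.H979.TwoLenStar
end

-- part: H552/FiveB
section
/-!
# Case 5b of S4258 (helper552)
-/

set_option autoImplicit false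
set_option linter.unusedSectionVars false
set_option linter.unusedVariables false
set_option linter.style.haveILetI false

universe u

namespace Cfsg.Agent.H552

open scoped commutatorElement
open Cfsg.Agent.OddOrderCharacters.PF9

/-- the additive sign -/
def lg (u : ℤˣ) : ZMod 2 := if u = 1 then 0 else 1

theorem lg_mul (u v : ℤˣ) : lg (u * v) = lg u + lg v := by revert u v; decide

theorem lg_eq_zero {u : ℤˣ} : lg u = 0 ↔ u = 1 := by revert u; decide

section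

variable {G : Type u} [Group G] [Finite G] {k : ℕ} {Q R L N₁ : Subgroup G}
  {q : ℕ} [Fact q.Prime] {W : Type u} [AddCommGroup W] [Module (ZMod q) W] [Finite W]
  {σ : G →* Module.End (ZMod q) W} {ι : Type u} {b : ι → W →ₗ[ZMod q] W →ₗ[ZMod q] ZMod q}
  {M : Type u} [AddCommGroup M] [Module (ZMod 2) M] [Finite M] {π : ↥R → M}
  {ρ : ↥N₁ →* Module.End (ZMod 2) M}

theorem alpha_mul (w : WD k q Q R σ b) {A : Subgroup G} {α : G → ℤˣ} (hα : wt σ A α ≠ ⊥) {c d : G}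
    (hc : c ∈ A) (hd : d ∈ A) : α (c * d) = α c * α d := by
  obtain ⟨v, hv, hv0⟩ := Submodule.exists_mem_ne_zero_of_ne_bot hα
  by_contra hne
  apply hv0
  refine H979.TwoLenRA.eq_zero_of_sign_ne w.q2 hne ?_
  rw [← hv (c * d) (A.mul_mem hc hd), map_mul, Module.End.mul_apply, hv d hd, map_zsmul, hv c hc,
    ← mul_smul, mul_comm]
  push_cast
  rfl

theorem alpha_one (w : WD k q Q R σ b) {A : Subgroup G} {α : G → ℤˣ} (hα : wt σ A α ≠ ⊥) :
    α 1 = 1 := by
  have h := alpha_mul w hα A.one_mem A.one_mem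
  rw [mul_one] at h
  exact left_eq_mul.1 h

/-- a nontrivial element of `Z₀` is detected by a weight -/
theorem exists_alpha (h : D2 k Q R L N₁) (w : WD k q Q R σ b) {g : G} (hg : g ∈ Z0 R L)
    (hne : g ≠ 1) : ∃ α : G → ℤˣ, wt σ (Z0 R L) α ≠ ⊥ ∧ α g ≠ 1 := by
  have hσ : σ g ≠ 1 := fun h1 => hne (w.faithR g hg.1 h1)
  have hab : ∀ r ∈ Z0 R L, ∀ s ∈ Z0 R L, r * s = s * r := fun r hr s hs => h.Z0_central hr hs.1
  have hU : ∀ r ∈ Z0 R L, ∀ v ∈ LinearMap.range (σ g - 1), σ r v ∈ LinearMap.range (σ g - 1) := by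
    rintro r hr _ ⟨v, rfl⟩
    refine ⟨σ r v, ?_⟩
    rw [LinearMap.sub_apply, LinearMap.sub_apply, map_sub, Module.End.one_apply, Module.End.one_apply,
      ← Module.End.mul_apply, ← Module.End.mul_apply, ← map_mul, ← map_mul, hab g hg r hr]
  have hne' : LinearMap.range (σ g - 1) ≠ ⊥ := by
    intro h1
    rw [LinearMap.range_eq_bot, sub_eq_zero] at h1
    exact hσ h1
  obtain ⟨α, v, hvU, hv0, hvα⟩ := H979.TwoLenRA.exists_weight w.q2 hab (fun r hr => h.Z0_sq hr) σ _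
    hU hne'
  refine ⟨α, fun hbot => hv0 ?_, fun h1 => hv0 ?_⟩
  · have : v ∈ wt σ (Z0 R L) α := hvα
    rw [hbot] at this
    exact (Submodule.mem_bot _).1 this
  · obtain ⟨u, rfl⟩ := hvU
    have h2 := hvα g hg
    rw [h1] at h2
    have h3 : σ g ((σ g - 1) u) = -((σ g - 1) u) := by
      rw [LinearMap.sub_apply, Module.End.one_apply, map_sub, ← Module.End.mul_apply, ← map_mul, ← pow_two,
        h.Z0_sq hg, map_one, Module.End.one_apply]
      abel
    rw [h3] at h2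
    refine H979.TwoLenRA.eq_zero_of_neg_eq w.q2 ?_
    simpa using h2

/-- the quadratic form of a weight -/
structure AB (π : ↥R → M) (α : G → ℤˣ) (B : M →ₗ[ZMod 2] M →ₗ[ZMod 2] ZMod 2) (qf : M → ZMod 2) : Prop where
  hB : ∀ a b : ↥R, B (π a) (π b) = lg (α ⁅(a : G), (b : G)⁆)
  hq : ∀ a : ↥R, qf (π a) = lg (α ((a : G) ^ 2))
  hadd : ∀ m m', qf (m + m') = qf m + qf m' + B m m'

theorem exists_AB (h : D2 k Q R L N₁) (w : WD k q Q R σ b) (d : MD R L N₁ π ρ) {α : G → ℤˣ}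
    (hα : wt σ (Z0 R L) α ≠ ⊥) : ∃ B qf, AB π α B qf := by
  have hcz : ∀ a b : ↥R, ⁅(a : G), (b : G)⁆ ∈ Z0 R L := fun a b =>
    h.comm_RR (Subgroup.commutator_mem_commutator a.2 b.2)
  have hα1 := alpha_one w hα
  obtain ⟨B, hB⟩ := exists_bilin π d.surj d.add (fun a b => lg (α ⁅(a : G), (b : G)⁆))
    (fun a b e => by
      rw [← lg_mul, ← alpha_mul w hα (hcz a e) (hcz b e)]
      congr 2
      exact h.comm_mul_left a.2 b.2 e.2)
    (fun a b e => by
      rw [← lg_mul, ← alpha_mul w hα (hcz a b) (hcz a e)]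
      congr 2
      exact h.comm_mul_right a.2 b.2 e.2)
    (fun a b ha => by
      rw [commutatorElement_eq_one_iff_mul_comm.2 (h.Z0_central ((d.ker a).1 ha) b.2), hα1]
      rfl)
    (fun a b hb => by
      rw [commutatorElement_eq_one_iff_mul_comm.2 (h.Z0_central ((d.ker b).1 hb) a.2).symm, hα1]
      rfl)
  let s : M → ↥R := Function.surjInv d.surj
  have hs : ∀ m, π (s m) = m := Function.surjInv_eq d.surj
  -- the square map
  have hsq : ∀ a a' : ↥R, π a = π a' → (a : G) ^ 2 = (a' : G) ^ 2 := by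
    intro a a' haa
    have h1 : (a : G)⁻¹ * a' ∈ Z0 R L := by
      have : π (a⁻¹ * a') = 0 := by rw [d.add, d.inv, haa, neg_add_cancel]
      exact (d.ker _).1 this
    have h2 := h.Z0_sq h1
    have h3 := h.Z0_central h1 a.2
    have h4 : (a' : G) = a * ((a : G)⁻¹ * a') := by group
    rw [h4, Commute.mul_pow h3.symm, h2, mul_one]
  have hqf : ∀ a : ↥R, lg (α ((s (π a) : G) ^ 2)) = lg (α ((a : G) ^ 2)) := fun a => by
    rw [hsq (s (π a)) a (hs _)]
  refine ⟨B, fun m => lg (α ((s m : G) ^ 2)), hB, hqf, fun m m' => ?_⟩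
  obtain ⟨a, rfl⟩ := d.surj m
  obtain ⟨a', rfl⟩ := d.surj m'
  rw [← d.add, hqf, hqf, hqf, hB]
  have h1 : ((a * a' : ↥R) : G) ^ 2 = (a : G) ^ 2 * (⁅(a : G), (a' : G)⁆ * (a' : G) ^ 2) := by
    have h2 : ⁅(a : G), (a' : G)⁆ = ⁅(a' : G), (a : G)⁆ := by
      have h3 := h.comm_sq a.2 a'.2
      have h4 : ⁅(a' : G), (a : G)⁆ = (⁅(a : G), (a' : G)⁆)⁻¹ := by
        rw [commutatorElement_inv]
      rw [h4]
      exact eq_inv_of_mul_eq_one_left (by rw [← pow_two]; exact h3)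
    have h5 : ⁅(a' : G), (a : G)⁆ * a = a * ⁅(a' : G), (a : G)⁆ := h.Z0_central (hcz a' a) a.2
    rw [h2]
    have h6 : ((a * a' : ↥R) : G) ^ 2 = (a : G) ^ 2 * (((a : G)⁻¹ * ⁅(a' : G), (a : G)⁆ * a) * (a' : G) ^ 2) := by
      rw [Subgroup.coe_mul]
      simp only [commutatorElement_def, pow_two]; group
    rw [h6, mul_assoc ((a : G)⁻¹), h5]; group
  rw [h1, alpha_mul w hα (h.sq_mem a.2) ((Z0 R L).mul_mem (hcz a a') (h.sq_mem a'.2)),
    alpha_mul w hα (hcz a a') (h.sq_mem a'.2), lg_mul, lg_mul]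
  ring

/-- translation of a weight by an element of `N₁` -/
theorem AB.conj {α : G → ℤˣ} {B : M →ₗ[ZMod 2] M →ₗ[ZMod 2] ZMod 2} {qf : M → ZMod 2}
    (ab : AB π α B qf) (d : MD R L N₁ π ρ) (n : ↥N₁) :
    AB π (fun c => α ((n : G) * c * (n : G)⁻¹)) (B.compl₁₂ (ρ n) (ρ n)) (fun m => qf (ρ n m)) := by
  constructor
  · intro a b
    rw [LinearMap.compl₁₂_apply, d.act, d.act, ab.hB]
    congr 2
    show ⁅(n : G) * a * (n : G)⁻¹, (n : G) * b * (n : G)⁻¹⁆ = _
    simp only [commutatorElement_def]; group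
  · intro a
    show qf (ρ n (π a)) = _
    rw [d.act, ab.hq]
    congr 2
    show ((n : G) * a * (n : G)⁻¹) ^ 2 = _
    rw [conj_pow]
  · intro m m'
    show qf (ρ n (m + m')) = _
    rw [map_add, ab.hadd, LinearMap.compl₁₂_apply]

theorem wt_conj (h : D2 k Q R L N₁) {α : G → ℤˣ} (hα : wt σ (Z0 R L) α ≠ ⊥) (n : ↥N₁) :
    wt σ (Z0 R L) (fun c => α ((n : G) * c * (n : G)⁻¹)) ≠ ⊥ := by
  obtain ⟨v, hv, hv0⟩ := Submodule.exists_mem_ne_zero_of_ne_bot hα
  have h1 : σ (n : G)⁻¹ v ∈ wt σ (Z0 R L) (fun c => α ((n : G) * c * (n : G)⁻¹)) := by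
    intro c hc
    have h2 : (n : G) * c * (n : G)⁻¹ ∈ Z0 R L :=
      (Subgroup.mem_normalizer_iff.1 (h.norm_Z0 n.2) c).1 hc
    have h3 := hv _ h2
    rw [← map_zsmul, ← h3, ← Module.End.mul_apply, ← Module.End.mul_apply, ← map_mul, ← map_mul]
    congr 2
    group
  intro hbot
  rw [hbot, Submodule.mem_bot] at h1
  apply hv0
  have h2 : v = σ (n : G) (σ (n : G)⁻¹ v) := by
    rw [← Module.End.mul_apply, ← map_mul, mul_inv_cancel, map_one, Module.End.one_apply]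
  rw [h2, h1, map_zero]

/-- invariance under `L` -/
theorem AB.inv_L (h : D2 k Q R L N₁) {α : G → ℤˣ} {B : M →ₗ[ZMod 2] M →ₗ[ZMod 2] ZMod 2} {qf : M → ZMod 2}
    (ab : AB π α B qf) (d : MD R L N₁ π ρ) {l : G} (hl : l ∈ L) (m : M) :
    qf (ρ ⟨l, h.LN₁ hl⟩ m) = qf m := by
  obtain ⟨a, rfl⟩ := d.surj m
  rw [d.act, ab.hq, ab.hq]
  congr 2
  show (l * a * l⁻¹) ^ 2 = _
  rw [conj_pow]
  have h1 : l * (a : G) ^ 2 = (a : G) ^ 2 * l := (h.sq_mem a.2).2 l hl
  rw [h1]; group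

/-- `2`-elements -/
theorem isTwo_mul {x m : G} (hR : IsPGroup 2 R) (hx : IsTwo x) (hxR : x ∈ Subgroup.normalizer (R : Set G))
    (hm : m ∈ R) : IsTwo (m * x) := by
  have : Fact (Nat.Prime 2) := ⟨Nat.prime_two⟩
  have h1 : IsPGroup 2 (Subgroup.zpowers x) := by
    obtain ⟨k, hk⟩ := hx
    rintro ⟨_, n, rfl⟩
    refine ⟨k, Subtype.ext ?_⟩
    show (x ^ n) ^ 2 ^ k = 1
    rw [← zpow_natCast, ← zpow_mul, mul_comm, zpow_mul, zpow_natCast, hk, one_zpow]
  have h2 : IsPGroup 2 (Subgroup.zpowers x ⊔ R : Subgroup G) :=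
    h1.to_sup_of_normal_right' hR (by rwa [Subgroup.zpowers_le])
  exact isTwo_of_isPGroup h2 (Subgroup.mul_mem _ (Subgroup.mem_sup_right hm)
    (Subgroup.mem_sup_left (Subgroup.mem_zpowers x)))

end

end Cfsg.Agent.H552
end

-- part: H552/FiveB2
section
/-!
# Case 5b of S4258 (helper552), conclusion
-/

set_option autoImplicit false
set_option linter.unusedSectionVars false
set_option linter.unusedVariables false
set_option linter.style.haveILetI false

universe u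

namespace Cfsg.Agent.H552

open scoped commutatorElement
open Cfsg.Agent.OddOrderCharacters.PF9

/-- the subgroup of `Lb` acting trivially modulo `P` -/
def kap {X : Type*} [Group X] [Finite X] {M : Type*} [AddCommGroup M] [Module (ZMod 2) M]
    (τ : X →* Module.End (ZMod 2) M) (Lb : Subgroup X) (P : Submodule (ZMod 2) M) : Subgroup X where
  carrier := {y | y ∈ Lb ∧ ∀ m, τ y m - m ∈ P}
  one_mem' := ⟨Lb.one_mem, fun m => by rw [map_one, Module.End.one_apply, sub_self]; exact P.zero_mem⟩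
  mul_mem' := by
    rintro a b ⟨ha, ha'⟩ ⟨hb, hb'⟩
    refine ⟨Lb.mul_mem ha hb, fun m => ?_⟩
    have h1 : τ (a * b) m - m = (τ a (τ b m) - τ b m) + (τ b m - m) := by
      rw [map_mul, Module.End.mul_apply]; abel
    rw [h1]
    exact P.add_mem (ha' _) (hb' m)
  inv_mem' := by
    rintro a ⟨ha, ha'⟩
    refine ⟨Lb.inv_mem ha, ?_⟩
    have key : ∀ n : ℕ, ∀ m, τ (a ^ n) m - m ∈ P := by
      intro n
      induction n with
      | zero => intro m; rw [pow_zero, map_one, Module.End.one_apply, sub_self]; exact P.zero_mem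
      | succ n ih =>
        intro m
        have h1 : τ (a ^ (n + 1)) m - m = (τ (a ^ n) (τ a m) - τ a m) + (τ a m - m) := by
          rw [pow_succ, map_mul, Module.End.mul_apply]; abel
        rw [h1]
        exact P.add_mem (ih _) (ha' m)
    have h2 : a⁻¹ = a ^ (orderOf a - 1) := by
      rw [inv_eq_iff_mul_eq_one, ← pow_succ', Nat.sub_add_cancel (orderOf_pos a), pow_orderOf_eq_one]
    rw [h2]
    exact key _

theorem mem_kap {X : Type*} [Group X] [Finite X] {M : Type*} [AddCommGroup M] [Module (ZMod 2) M]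
    {τ : X →* Module.End (ZMod 2) M} {Lb : Subgroup X} {P : Submodule (ZMod 2) M} {y : X} :
    y ∈ kap τ Lb P ↔ y ∈ Lb ∧ ∀ m, τ y m - m ∈ P := Iff.rfl

/-- E1 for an abelian normal subgroup of odd order -/
theorem E1_abelian {X : Type*} [Group X] [Finite X] {M : Type*} [AddCommGroup M] [Module (ZMod 2) M] [Finite M]
    (τ : X →* Module.End (ZMod 2) M) (hτ : ∀ y, τ y = 1 → y = 1) {A : Subgroup X} (hn : A.Normal)
    (hodd : Odd (Nat.card A)) (hab : ∀ a ∈ A, ∀ c ∈ A, a * c = c * a) {x : X} (hx : IsTwo x) {e : ℕ}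
    (he : 1 ≤ e) (hN : (τ x - 1) ^ (2 ^ e - 1) = 0) : ∀ a ∈ A, x ^ 2 ^ (e - 1) * a = a * x ^ 2 ^ (e - 1) := by
  have hcomm : IsMulCommutative A := ⟨⟨fun a c => Subtype.ext (hab a a.2 c c.2)⟩⟩
  set z := x ^ 2 ^ (e - 1) with hz
  have hz2 : IsTwo z := hx.pow _
  have hzp : IsPGroup 2 (Subgroup.zpowers z) := by
    obtain ⟨k, hk⟩ := hz2
    rintro ⟨_, n, rfl⟩
    refine ⟨k, Subtype.ext ?_⟩
    show (z ^ n) ^ 2 ^ k = 1
    rw [← zpow_natCast, ← zpow_mul, mul_comm, zpow_mul, zpow_natCast, hk, one_zpow]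
  have h1 := S0056.result (Subgroup.zpowers z) A
    (by rw [Subgroup.normalizer_eq_top_iff.2 hn]; exact le_top)
    (coprime_two_odd hzp hodd) (fun v hv hp => by
      set r := orderOf v with hr
      have : Fact r.Prime := ⟨hp⟩
      have hr2 : r ≠ 2 := by
        intro h2
        have h3 := odd_orderOf_of_mem hodd hv
        rw [← hr, h2] at h3
        exact absurd h3 (by decide)
      -- the elements of order dividing `r`
      let A' : Subgroup X :=
        { carrier := {a | a ∈ A ∧ a ^ r = 1}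
          one_mem' := ⟨A.one_mem, one_pow _⟩
          mul_mem' := fun {a c} ha hc => ⟨A.mul_mem ha.1 hc.1, by
            have h2 : Commute a c := hab a ha.1 c hc.1
            rw [h2.mul_pow, ha.2, hc.2, one_mul]⟩
          inv_mem' := fun {a} ha => ⟨A.inv_mem ha.1, by rw [inv_pow, ha.2, inv_one]⟩ }
      have hA' : IsPGroup r A' := by
        rintro ⟨a, ha⟩
        exact ⟨1, Subtype.ext (by rw [pow_one]; exact ha.2)⟩
      have hA'n : A'.Normal := ⟨fun a ha g => ⟨hn.conj_mem a ha.1 g, by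
        rw [conj_pow, ha.2, mul_one, mul_inv_cancel]⟩⟩
      have h3 := H557.PartC.E1Z τ hr2 he hN hA'
        (by rw [Subgroup.normalizer_eq_top_iff.2 hA'n]; exact Subgroup.mem_top x)
        (fun a ha c hc => hab a ha.1 c hc.1) (fun a _ h4 => hτ a h4) v
        ⟨hv, by rw [hr]; exact pow_orderOf_eq_one v⟩
      intro a ha
      obtain ⟨n, rfl⟩ := ha
      exact (Commute.zpow_left h3 n))
  intro a ha
  have h2 := h1 (Subgroup.mem_zpowers z) a ha
  exact h2.symm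

section

variable {G : Type u} [Group G] [Finite G] {k : ℕ} {Q R L N₁ : Subgroup G}
  {q : ℕ} [Fact q.Prime] {W : Type u} [AddCommGroup W] [Module (ZMod q) W] [Finite W]
  {σ : G →* Module.End (ZMod q) W} {ι : Type u} {b : ι → W →ₗ[ZMod q] W →ₗ[ZMod q] ZMod q}
  {M : Type u} [AddCommGroup M] [Module (ZMod 2) M] [Finite M] {π : ↥R → M}
  {ρ : ↥N₁ →* Module.End (ZMod 2) M}

/-- the action of `X = N₁ / C_{N₁}(R)` on `M` -/
theorem MD.exists_tau (d : MD R L N₁ π ρ) [hn : (KX R N₁).Normal] :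
    ∃ τ : (↥N₁ ⧸ KX R N₁) →* Module.End (ZMod 2) M,
      ∀ n : ↥N₁, τ (QuotientGroup.mk' (KX R N₁) n) = ρ n := by
  refine ⟨QuotientGroup.lift (KX R N₁) ρ fun n hn' => ?_, fun n => rfl⟩
  rw [Subgroup.mem_subgroupOf] at hn'
  rw [MonoidHom.mem_ker, d.act_eq_one_iff]
  intro r hr
  have h1 : r * (n : G) = (n : G) * r := hn' r hr
  rw [← h1, mul_inv_cancel_right, mul_inv_cancel]
  exact Subgroup.one_mem _

/-- case 5b -/
theorem five_b (hIH : ∀ j ≤ k, ∀ (Y : Type u) [Group Y] [Finite Y], IsPSolvable 2 Y → EAt.{u} j Y)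
    (hG : IsPSolvable 2 G)
    (h : D2 k Q R L N₁) (w : WD k q Q R σ b) (hna : ¬ R ≤ Subgroup.centralizer (R : Set G))
    (hsing : ∀ α : G → ℤˣ, wt σ (Z0 R L) α ≠ ⊥ → ∀ c ∈ R, ∀ e ∈ R, α (c ^ 2) = 1 → α (e ^ 2) = 1 →
      α ⁅c, e⁆ = 1 → (∀ r ∈ R, α ⁅c, r⁆ = 1) ∨ (∀ r ∈ R, α ⁅e, r⁆ = 1) ∨ (∀ r ∈ R, α ⁅c * e, r⁆ = 1)) :
    False := by
  classical
  have hk := h.hk
  obtain ⟨M, i1, i2, i3, π, ρ, d⟩ := h.exists_MD
  have hKn : (KX R N₁).Normal := h.KX_normal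
  obtain ⟨τ, hτ⟩ := d.exists_tau
  set X := ↥N₁ ⧸ KX R N₁ with hX
  set f : ↥N₁ →* X := QuotientGroup.mk' (KX R N₁) with hf
  have hfs : Function.Surjective f := QuotientGroup.mk'_surjective _
  have hC : Crit.{u} k X := h.crit_X
  have hXsol : IsPSolvable 2 X :=
    Lib.PSolvable.IsPSolvable_of_surjective 2 (Lib.PSolvable.IsPSolvable_of_injective 2 hG N₁.subtype N₁.subtype_injective) f hfs
  set Lb : Subgroup X := T k (⊤ : Subgroup X) with hLb
  have hLbn : Lb.Normal := T_normal k inferInstance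
  have hLbodd : Odd (Nat.card Lb) := hC.odd
  -- elements of `Lb`
  have hLb1 : ∀ y ∈ Lb, ∃ l, ∃ hl : l ∈ L, y = f ⟨l, h.LN₁ hl⟩ := by
    intro y hy
    rw [hLb, ← T_map_top f hfs] at hy
    obtain ⟨n, hn, rfl⟩ := hy
    have h1 : (n : G) ∈ T k N₁ := by rw [← T_subtype]; exact ⟨n, hn, rfl⟩
    exact ⟨n, h.L₀L h1, rfl⟩
  have hLb2 : ∀ l, (hl : l ∈ L) → f ⟨l, h.LN₁ hl⟩ ∈ Lb := by
    intro l hl
    obtain ⟨l₀, hl₀, c, hc, hlc⟩ := h.L_eq hl
    have hcN : c ∈ N₁ := h.CN₁ hc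
    have hl₀' := hl₀
    rw [← T_subtype] at hl₀
    obtain ⟨n, hn, hnl⟩ := hl₀
    have h1 : f ⟨l, h.LN₁ hl⟩ = f n := by
      have h2 : (⟨l, h.LN₁ hl⟩ : ↥N₁) = n * ⟨c, hcN⟩ := Subtype.ext (by
        show l = N₁.subtype n * c
        rw [hlc, ← hnl])
      rw [h2, map_mul]
      have h3 : f ⟨c, hcN⟩ = 1 := (QuotientGroup.eq_one_iff _).2 (by
        rw [Subgroup.mem_subgroupOf]; exact hc.2)
      rw [h3, mul_one]
    rw [h1, hLb, ← T_map_top f hfs]
    exact ⟨n, hn, rfl⟩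
  -- faithfulness
  have hfaith : ∀ y, τ y = 1 → y = 1 := by
    intro y hy
    obtain ⟨n, rfl⟩ := hfs y
    rw [hτ, d.act_eq_one_iff] at hy
    refine (QuotientGroup.eq_one_iff _).2 ?_
    rw [Subgroup.mem_subgroupOf]
    exact h.cent_of n.2 hy
  have hfixL : ∀ m, (∀ y ∈ Lb, τ y m = m) → m = 0 := by
    intro m hm
    refine d.fixL h m fun l hl => ?_
    rw [← hτ]
    exact hm _ (hLb2 l hl)
  -- the restriction to `Lb`
  let τL : ↥Lb →* Module.End (ZMod 2) M := τ.comp Lb.subtype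
  have hqinv : ∀ {α : G → ℤˣ} {B : M →ₗ[ZMod 2] M →ₗ[ZMod 2] ZMod 2} {qf : M → ZMod 2},
      AB π α B qf → ∀ y ∈ Lb, ∀ m, qf (τ y m) = qf m := by
    intro α B qf ab y hy m
    obtain ⟨l, hl, rfl⟩ := hLb1 y hy
    rw [hτ]
    exact ab.inv_L h d hl m
  have hsing' : ∀ {α : G → ℤˣ} {B : M →ₗ[ZMod 2] M →ₗ[ZMod 2] ZMod 2} {qf : M → ZMod 2},
      wt σ (Z0 R L) α ≠ ⊥ → AB π α B qf → ∀ m m', qf m = 0 → qf m' = 0 → B m m' = 0 →
      m ∈ LinearMap.ker B ∨ m' ∈ LinearMap.ker B ∨ m + m' ∈ LinearMap.ker B := by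
    intro α B qf hα ab m m' hm hm' hmm
    obtain ⟨c, rfl⟩ := d.surj m
    obtain ⟨e, rfl⟩ := d.surj m'
    rw [ab.hq, lg_eq_zero] at hm hm'
    rw [ab.hB, lg_eq_zero] at hmm
    have key : ∀ c : ↥R, (∀ r ∈ R, α ⁅(c : G), r⁆ = 1) → π c ∈ LinearMap.ker B := by
      intro c hc
      rw [LinearMap.mem_ker]
      ext v
      obtain ⟨r, rfl⟩ := d.surj v
      rw [ab.hB, LinearMap.zero_apply, lg_eq_zero]
      exact hc r r.2
    rcases hsing α hα c c.2 e e.2 hm hm' hmm with h1 | h1 | h1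
    · exact Or.inl (key c h1)
    · exact Or.inr (Or.inl (key e h1))
    · right; right
      rw [← d.add]
      exact key _ h1
  have hquad : ∀ {α : G → ℤˣ} {B : M →ₗ[ZMod 2] M →ₗ[ZMod 2] ZMod 2} {qf : M → ZMod 2},
      wt σ (Z0 R L) α ≠ ⊥ → AB π α B qf → _ := fun {α B qf} hα ab =>
    quad' hLbodd τL qf B ab.hadd (fun l m => hqinv ab l l.2 m)
      (fun m hm => hfixL m fun y hy => hm ⟨y, hy⟩) (hsing' hα ab)
  -- the radicals intersect trivially
  have hrad : ∀ m, (∀ α B qf, wt σ (Z0 R L) α ≠ ⊥ → AB π α B qf → m ∈ LinearMap.ker B) → m = 0 := by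
    intro m hm
    obtain ⟨a, rfl⟩ := d.surj m
    rw [d.ker]
    refine h.center_le hna ⟨a.2, fun r hr => ?_⟩
    rw [eq_comm, ← commutatorElement_eq_one_iff_mul_comm]
    by_contra hne
    have h1 : ⁅(a : G), r⁆ ∈ Z0 R L := h.comm_RR (Subgroup.commutator_mem_commutator a.2 hr)
    obtain ⟨α, hα, hα1⟩ := exists_alpha h w h1 hne
    obtain ⟨B, qf, ab⟩ := exists_AB h w d hα
    have h2 := hm α B qf hα ab
    rw [LinearMap.mem_ker] at h2
    have h3 := ab.hB a ⟨r, hr⟩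
    rw [h2, LinearMap.zero_apply] at h3
    exact hα1 (lg_eq_zero.1 h3.symm)
  -- `Lb` is abelian
  have hab : ∀ y ∈ Lb, ∀ y' ∈ Lb, y * y' = y' * y := by
    intro y hy y' hy'
    have h1 : ∀ m, τ y (τ y' m) = τ y' (τ y m) := by
      intro m
      rw [← sub_eq_zero]
      refine hrad _ fun α B qf hα ab => ?_
      exact (hquad hα ab).1 ⟨y, hy⟩ ⟨y', hy'⟩ m
    have h2 : τ (y' * y)⁻¹ * τ (y * y') = 1 := by
      have h3 : τ (y * y') = τ (y' * y) := by
        ext m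
        rw [map_mul, map_mul, Module.End.mul_apply, Module.End.mul_apply, h1]
      rw [h3, ← map_mul, inv_mul_cancel, map_one]
    rw [← map_mul] at h2
    have h4 := hfaith _ h2
    rw [inv_mul_eq_one] at h4
    exact h4.symm
  -- propP for `X`
  obtain ⟨j, hj⟩ : ∃ j, k = j + 1 := ⟨k - 1, by omega⟩
  have hPX : ∀ x : X, IsTwo x → (∀ a ∈ Lb, x * a = a * x) → x = 1 := by
    have hC' := hC
    rw [hj] at hC'
    obtain ⟨RX, hD1⟩ := D1.exists hC'
    intro x hx hxa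
    refine hD1.propP hx fun a ha => hxa a ?_
    rw [hLb, hj]; exact ha
  -- exponents
  have hNR : ∀ n : ℕ, ∀ x : ↥N₁, IsTwo x → ∀ m : ↥R, IsTwo ((m : G) * x) := by
    intro n x hx m
    exact isTwo_mul h.hR (hx.map N₁.subtype) (h.N₁R x.2) m.2
  have hz : ∀ x : ↥N₁, IsTwo x → (x : G) ^ 2 ^ k ∈ Subgroup.centralizer (R : Set G) := by
    intro x hx
    have h1 : (τ (f x) - 1) ^ (2 ^ (k + 1) - 1) = 0 := by
      rw [H979.TwoLenA.sub_one_pow, hτ]
      ext v
      obtain ⟨m, rfl⟩ := d.surj v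
      rw [← d.pi_eq x m (2 ^ (k + 1)) (d.mem_R x m _), LinearMap.zero_apply, d.ker]
      show ((m : G) * x) ^ 2 ^ (k + 1) * ((x : G) ^ 2 ^ (k + 1))⁻¹ ∈ _
      rw [w.expo _ (hNR 0 x hx m), w.expo (x : G) (hx.map N₁.subtype), inv_one, mul_one]
      exact Subgroup.one_mem _
    have h2 := E1_abelian τ hfaith hLbn hLbodd hab (hx.map f) (Nat.le_add_left 1 k) h1
    rw [Nat.add_sub_cancel] at h2
    have h3 := hPX _ ((hx.map f).pow _) h2
    rw [← map_pow] at h3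
    have h4 := (QuotientGroup.eq_one_iff _).1 h3
    rw [Subgroup.mem_subgroupOf] at h4
    exact h4
  have hexpX : ∀ x : X, IsTwo x → x ^ 2 ^ k = 1 := by
    intro x hx
    obtain ⟨n, rfl⟩ := hfs x
    obtain ⟨t, ht, hft⟩ := exists_two_lift f n hx
    rw [← hft, ← map_pow]
    refine (QuotientGroup.eq_one_iff _).2 ?_
    rw [Subgroup.mem_subgroupOf]
    exact hz _ ht
  -- norms are singular
  have hnorm : ∀ x : ↥N₁, IsTwo x → ∀ {α : G → ℤˣ} {B : M →ₗ[ZMod 2] M →ₗ[ZMod 2] ZMod 2} {qf : M → ZMod 2},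
      wt σ (Z0 R L) α ≠ ⊥ → AB π α B qf → ∀ m, qf ((∑ i ∈ Finset.range (2 ^ k), (ρ x) ^ i) m) = 0 := by
    intro x hx α B qf hα ab m
    obtain ⟨a, rfl⟩ := d.surj m
    rw [← d.pi_eq x a (2 ^ k) (d.mem_R x a _), ab.hq, lg_eq_zero]
    set r' : G := ((a : G) * x) ^ 2 ^ k * ((x : G) ^ 2 ^ k)⁻¹ with hr'
    have hr'R : r' ∈ R := d.mem_R x a _
    have h1 : r' * (x : G) ^ 2 ^ k = (x : G) ^ 2 ^ k * r' := hz x hx r' hr'R
    have h2 : r' ^ 2 = 1 := by
      have h3 : (r' * (x : G) ^ 2 ^ k) ^ 2 = 1 := by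
        have h4 : r' * (x : G) ^ 2 ^ k = ((a : G) * x) ^ 2 ^ k := by rw [hr']; group
        rw [h4, ← pow_mul, ← pow_succ]
        exact w.expo _ (hNR 0 x hx a)
      rw [Commute.mul_pow h1, ← pow_mul (x : G), ← pow_succ, w.expo (x : G) (hx.map N₁.subtype),
        mul_one] at h3
      exact h3
    show α (r' ^ 2) = 1
    rw [h2]
    exact alpha_one w hα
  -- the family of kernels
  let 𝒦 : Set (Subgroup X) := {κ | ∃ (α : G → ℤˣ) (B : M →ₗ[ZMod 2] M →ₗ[ZMod 2] ZMod 2) (qf : M → ZMod 2),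
    wt σ (Z0 R L) α ≠ ⊥ ∧ AB π α B qf ∧ ¬ (∀ m, m ∉ LinearMap.ker B → qf m ≠ 0) ∧
      κ = kap τ Lb (LinearMap.ker B)}
  have h𝒦 : ∀ {α : G → ℤˣ} {B : M →ₗ[ZMod 2] M →ₗ[ZMod 2] ZMod 2} {qf : M → ZMod 2},
      wt σ (Z0 R L) α ≠ ⊥ → AB π α B qf → ¬ (∀ m, m ∉ LinearMap.ker B → qf m ≠ 0) →
      Nat.card (M ⧸ LinearMap.ker B) = 16 ∧ (kap τ Lb (LinearMap.ker B)).relIndex Lb = 5 := by
    intro α B qf hα ab hna'
    rcases (hquad hα ab).2.2 with h1 | ⟨h1, h2⟩
    · exact absurd h1 hna'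
    refine ⟨h1, h2 ((kap τ Lb (LinearMap.ker B)).subgroupOf Lb) fun l => ?_⟩
    rw [Subgroup.mem_subgroupOf, mem_kap]
    exact ⟨fun h3 => h3.2, fun h3 => ⟨l.2, h3⟩⟩
  -- invariance of the radical under `Lb`
  have hPinv : ∀ {α : G → ℤˣ} {B : M →ₗ[ZMod 2] M →ₗ[ZMod 2] ZMod 2} {qf : M → ZMod 2},
      AB π α B qf → ∀ y ∈ Lb, ∀ m ∈ LinearMap.ker B, τ y m ∈ LinearMap.ker B := by
    intro α B qf ab y hy m hm
    rw [LinearMap.mem_ker] at hm ⊢
    ext v
    have hBB : ∀ a b, B a b = qf (a + b) - qf a - qf b := fun a b => by rw [ab.hadd]; ring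
    have h1 : v = τ y (τ y⁻¹ v) := by
      rw [← Module.End.mul_apply, ← map_mul, mul_inv_cancel, map_one, Module.End.one_apply]
    have h2 : B (τ y m) (τ y (τ y⁻¹ v)) = B m (τ y⁻¹ v) := by
      rw [hBB, hBB, ← map_add, hqinv ab y hy, hqinv ab y hy, hqinv ab y hy]
    rw [h1, h2, hm, LinearMap.zero_apply, LinearMap.zero_apply]
  -- `𝒦` is not empty
  have h𝒦ne : 𝒦.Nonempty := by
    by_contra hemp
    rw [Set.not_nonempty_iff_eq_empty] at hemp
    obtain ⟨x, hx, hx2, m, hm, hmx⟩ := h.exists_x (hIH k le_rfl ↥N₁ (Lib.PSolvable.IsPSolvable_of_injective 2 hG N₁.subtype N₁.subtype_injective))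
    apply hmx
    have hx2' : IsTwo (⟨x, hx⟩ : ↥N₁) := by
      obtain ⟨n, hn⟩ := hx2
      exact ⟨n, Subtype.ext hn⟩
    have h1 := d.pi_eq ⟨x, hx⟩ ⟨m, hm⟩ (2 ^ k) (d.mem_R _ _ _)
    have h2 : (∑ i ∈ Finset.range (2 ^ k), (ρ ⟨x, hx⟩) ^ i) (π ⟨m, hm⟩) = 0 := by
      refine hrad _ fun α B qf hα ab => ?_
      by_contra hnot
      have h3 : ∀ m, m ∉ LinearMap.ker B → qf m ≠ 0 := by
        by_contra h4
        have h5 : kap τ Lb (LinearMap.ker B) ∈ 𝒦 := ⟨α, B, qf, hα, ab, h4, rfl⟩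
        rw [hemp] at h5
        exact h5
      exact h3 _ hnot (hnorm ⟨x, hx⟩ hx2' hα ab _)
    rw [h2, d.ker] at h1
    exact h1
  -- the intersection
  have hconj : ∀ κ ∈ 𝒦, ∀ g : X, ∃ κ' ∈ 𝒦, ∀ y, y ∈ κ' → g * y * g⁻¹ ∈ κ := by
    rintro κ ⟨α, B, qf, hα, ab, hna', rfl⟩ g
    obtain ⟨n, rfl⟩ := hfs g
    have ab' := ab.conj d n
    have hker : ∀ m, m ∈ LinearMap.ker (B.compl₁₂ (ρ n) (ρ n)) ↔ ρ n m ∈ LinearMap.ker B := by
      intro m
      rw [LinearMap.mem_ker, LinearMap.mem_ker]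
      constructor
      · intro h1
        ext v
        have h2 : v = ρ n (ρ n⁻¹ v) := by
          rw [← Module.End.mul_apply, ← map_mul, mul_inv_cancel, map_one, Module.End.one_apply]
        rw [h2, ← LinearMap.compl₁₂_apply, h1]; rfl
      · intro h1
        ext v
        rw [LinearMap.compl₁₂_apply, h1]; rfl
    refine ⟨kap τ Lb (LinearMap.ker (B.compl₁₂ (ρ n) (ρ n))),
      ⟨_, _, _, wt_conj h hα n, ab', ?_, rfl⟩, ?_⟩
    · intro h1
      apply hna'
      intro m hm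
      have h2 : m = ρ n (ρ n⁻¹ m) := by
        rw [← Module.End.mul_apply, ← map_mul, mul_inv_cancel, map_one, Module.End.one_apply]
      have h3 := h1 (ρ n⁻¹ m) (fun h4 => hm (by rw [h2]; exact (hker _).1 h4))
      rw [h2]; exact h3
    · rintro y ⟨hy, hy'⟩
      refine ⟨hLbn.conj_mem y hy _, fun m => ?_⟩
      have h2 := (hker _).1 (hy' (ρ n⁻¹ m))
      have e1 : ρ n (τ y (ρ n⁻¹ m)) = τ (f n * y * (f n)⁻¹) m := by
        rw [← hτ, ← hτ, ← Module.End.mul_apply, ← Module.End.mul_apply, ← map_mul τ, ← map_mul τ, map_inv]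
      have e2 : ρ n (ρ n⁻¹ m) = m := by
        rw [← Module.End.mul_apply, ← map_mul, mul_inv_cancel, map_one, Module.End.one_apply]
      rw [map_sub, e1, e2] at h2
      exact h2
  have h𝒦0 : ∀ a ∈ Lb, (∀ κ ∈ 𝒦, a ∈ κ) → a = 1 := by
    let Dd : Subgroup X := ⨅ κ ∈ 𝒦, κ
    have hDd : ∀ a, a ∈ Dd ↔ ∀ κ ∈ 𝒦, a ∈ κ := fun a => by
      show a ∈ (⨅ κ ∈ 𝒦, κ) ↔ _
      simp only [Subgroup.mem_iInf]
    obtain ⟨κ₀, hκ₀⟩ := h𝒦ne
    have hDn : Dd.Normal := ⟨fun a ha g => by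
      rw [hDd] at ha ⊢
      intro κ hκ
      obtain ⟨κ', hκ', hc⟩ := hconj κ hκ g
      exact hc a (ha κ' hκ')⟩
    have hDL : Dd ≤ Lb := by
      intro a ha
      rw [hDd] at ha
      obtain ⟨α, B, qf, hα, ab, hna', hκe⟩ := hκ₀
      have := ha κ₀ ⟨α, B, qf, hα, ab, hna', hκe⟩
      rw [hκe] at this
      exact this.1
    have hDne : Dd ≠ Lb := by
      intro he
      obtain ⟨α, B, qf, hα, ab, hna', hκe⟩ := hκ₀
      have h1 := (h𝒦 hα ab hna').2
      have h2 : Lb ≤ kap τ Lb (LinearMap.ker B) := by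
        intro a ha
        rw [← he, hDd] at ha
        exact ha _ ⟨α, B, qf, hα, ab, hna', rfl⟩
      rw [Subgroup.relIndex_eq_one.2 h2] at h1
      exact absurd h1 (by decide)
    have hC' := hC
    rw [hj] at hC'
    obtain ⟨RX, hD1⟩ := D1.exists hC'
    have hLbj : Lb = T (j + 1) (⊤ : Subgroup X) := by rw [hLb, hj]
    rw [← hLbj] at hD1
    have h1 := hD1.centralizes hDn hDL hDne
    have h2 : Lb ≤ Subgroup.centralizer (Lb : Set X) := fun a ha c hc => hab c hc a ha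
    have h3 := hD1.CQR_eq_bot h2
    intro a ha ha'
    have h4 : a ∈ Lb ⊓ Subgroup.centralizer (RX : Set X) := by
      refine ⟨ha, fun r hr => ?_⟩
      have h5 := h1 (hD1.hRU hr) a ((hDd a).2 ha')
      exact h5.symm
    rw [h3, Subgroup.mem_bot] at h4
    exact h4
  -- final
  have hM : 2 ≤ k → ∀ (Y : Type u) [Group Y] [Finite Y], IsPSolvable 2 Y →
      (∀ y : Y, IsTwo y → y ^ 2 ^ (k - 1) = 1) → Odd (Nat.card (T (k - 1) (⊤ : Subgroup Y))) := by
    intro hk2 Y _ _ hY hexpY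
    exact H979.TwoLenA.odd_of_EAt (k - 1) (by omega) Y hY hexpY
      (fun Z _ _ hZ _ => hIH (k - 1) (by omega) Z hZ)
  refine H979.TwoLenF.final hk X hXsol hC hPX (fun hk2 Y _ _ hY => hIH (k - 1) (by omega) Y hY) hM hab hexpX
    𝒦 ?_ h𝒦0 ?_
  · rintro κ ⟨α, B, qf, hα, ab, hna', rfl⟩
    exact ⟨fun a ha => ha.1, (h𝒦 hα ab hna').2⟩
  · rintro x hx κ ⟨α, B, qf, hα, ab, hna', rfl⟩
    obtain ⟨h16, h5⟩ := h𝒦 hα ab hna'
    refine H979.TwoLenStar.star τ Lb hLbn hab hLbodd _ (fun a ha => (mem_kap.1 ha).1) h5 (LinearMap.ker B)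
      (fun y hy m hm => hPinv ab y hy m hm) (fun y hy m => (mem_kap.1 hy).2 m) (fun m hm => ?_) h16 hk (hexpX x hx) ?_
    · exact (hquad hα ab).2.1 m fun l => hm l l.2
    · -- at most two values
      obtain ⟨n, rfl⟩ := hfs x
      obtain ⟨t, ht, hft⟩ := exists_two_lift f n hx
      rw [← hft]
      have hsum : ∀ m, (∑ i ∈ Finset.range (2 ^ k), τ (f (n ^ t) ^ i) m) =
          (∑ i ∈ Finset.range (2 ^ k), (ρ (n ^ t)) ^ i) m := by
        intro m
        rw [LinearMap.sum_apply]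
        refine Finset.sum_congr rfl fun i _ => ?_
        rw [← map_pow f, hτ, map_pow ρ (n ^ t)]
      intro m m'
      rw [hsum, hsum, hsum, map_sub, sub_eq_add_neg, zmod2_neg]
      have h1 := hnorm _ ht hα ab m
      have h2 := hnorm _ ht hα ab m'
      have h3 := hnorm _ ht hα ab (m + m')
      rw [map_add, ab.hadd, h1, h2, zero_add, zero_add] at h3
      exact hsing' hα ab _ _ h1 h2 h3

end

end Cfsg.Agent.H552
end

-- part: H979/TwoLenTR
section
/-!
# Part TR of helper552's plan for S4258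
-/

set_option autoImplicit false
set_option linter.unusedSectionVars false
set_option linter.unusedVariables false

universe u

namespace Cfsg.Agent.H979.TwoLenTR

open Cfsg.Agent.H552 Cfsg.Agent.H979.TwoLenRA Module

variable {k q : ℕ} [Fact q.Prime] {G : Type u} [Group G] [Finite G] {Q R : Subgroup G} {W : Type u}
  [AddCommGroup W] [Module (ZMod q) W] [Finite W] {σ : G →* Module.End (ZMod q) W} {ι : Type u}
  {b : ι → W →ₗ[ZMod q] W →ₗ[ZMod q] ZMod q}

theorem inv_apply (σ : G →* Module.End (ZMod q) W) (g : G) (w : W) : σ g (σ g⁻¹ w) = w := by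
  rw [← Module.End.mul_apply, ← map_mul, mul_inv_cancel, map_one, Module.End.one_apply]

theorem conj_apply (σ : G →* Module.End (ZMod q) W) (c g : G) (w : W) :
    σ c (σ g w) = σ g (σ (g⁻¹ * c * g) w) := by
  rw [← Module.End.mul_apply, ← map_mul, ← Module.End.mul_apply, ← map_mul]
  congr 2
  group

/-- **Part TR of the plan for S4258.** -/
theorem transfer (h : WD k q Q R σ b) (Z₀ : Subgroup G) (hZ₀R : Z₀ ≤ R)
    (hZ₀c : ∀ c ∈ Z₀, ∀ r ∈ R, c * r = r * c) (hZ₀2 : ∀ c ∈ Z₀, c ^ 2 = 1)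
    (hG : ∀ g : G, ∃ a ∈ Q, ∃ n ∈ Subgroup.normalizer (Z₀ : Set G), g = a * n) {α₀ : G → ℤˣ}
    (hα₀ : wt σ Z₀ α₀ ≠ ⊥) (hs : ∀ i, wdim σ Z₀ α₀ (b i) ≤ 4) :
    ∀ α : G → ℤˣ, wt σ Z₀ α ≠ ⊥ → ∀ i, wdim σ Z₀ α (b i) ≤ 4 := by
  intro α hα i
  have hσ : ∀ g : G, ∃ n ∈ Subgroup.normalizer (Z₀ : Set G), σ g = σ n := by
    intro g
    obtain ⟨a, ha, n, hn, rfl⟩ := hG g
    exact ⟨n, hn, by rw [map_mul, h.trivQ a ha, one_mul]⟩
  have hconj : ∀ n ∈ Subgroup.normalizer (Z₀ : Set G), ∀ c ∈ Z₀, n⁻¹ * c * n ∈ Z₀ := by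
    intro n hn c hc
    have h1 := (Subgroup.mem_normalizer_iff.1 (inv_mem hn) c).1 hc
    rwa [inv_inv] at h1
  -- some conjugate of `α₀` is `α`
  obtain ⟨n, hn, hnα⟩ : ∃ n ∈ Subgroup.normalizer (Z₀ : Set G), ∀ c ∈ Z₀, α c = α₀ (n⁻¹ * c * n) := by
    by_contra hcon
    push Not at hcon
    apply hα
    rw [eq_bot_iff]
    intro w hw
    rw [Submodule.mem_bot]
    let A : Submodule (ZMod q) W := Submodule.span (ZMod q) {x | ∃ g : G, ∃ v ∈ wt σ Z₀ α₀, x = σ g v}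
    have hAinv : ∀ g, ∀ x ∈ A, σ g x ∈ A := by
      intro g x hx
      refine Submodule.span_induction (p := fun x _ => σ g x ∈ A) ?_ ?_ ?_ ?_ hx
      · rintro _ ⟨g', v, hv, rfl⟩
        refine Submodule.subset_span ⟨g * g', v, hv, ?_⟩
        rw [map_mul, Module.End.mul_apply]
      · rw [map_zero]; exact zero_mem _
      · intro a c _ _ ha hc
        rw [map_add]; exact add_mem ha hc
      · intro s a _ ha
        rw [map_smul]; exact A.smul_mem s ha
    have hA : A = ⊤ := by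
      rcases h.irr A hAinv with hA | hA
      · exfalso
        apply hα₀
        rw [eq_bot_iff, ← hA]
        intro v hv
        exact Submodule.subset_span ⟨1, v, hv, by rw [map_one, Module.End.one_apply]⟩
      · exact hA
    apply h.nondeg
    intro t w'
    have hw' : w' ∈ A := by rw [hA]; trivial
    refine Submodule.span_induction (p := fun x _ => b t w x = 0) ?_ ?_ ?_ ?_ hw'
    · rintro _ ⟨g, v, hv, rfl⟩
      obtain ⟨n, hn, hgn⟩ := hσ g
      rw [hgn]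
      obtain ⟨c, hc, hne⟩ := hcon n hn
      refine orth_of_ne h (α := α) (β := fun c => α₀ (n⁻¹ * c * n)) (hZ₀R hc) hne (mem_wt.1 hw c hc) ?_ t
      rw [conj_apply σ c n v, mem_wt.1 hv _ (hconj n hn c hc), map_zsmul]
    · rw [map_zero]
    · intro a c _ _ ha hc
      rw [map_add, ha, hc, add_zero]
    · intro s a _ ha
      rw [map_smul, ha, smul_zero]
  -- transport
  obtain ⟨j, hj⟩ := h.perm n i
  have hker : LinearMap.ker (b j) ≤ (LinearMap.ker (b i)).comap (σ n) := by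
    intro w hw
    rw [LinearMap.mem_ker] at hw
    rw [Submodule.mem_comap, LinearMap.mem_ker]
    ext w'
    rw [← inv_apply σ n w', hj, hw, LinearMap.zero_apply, LinearMap.zero_apply]
  have hle : (wt σ Z₀ α).map (LinearMap.ker (b i)).mkQ ≤
      ((wt σ Z₀ α₀).map (LinearMap.ker (b j)).mkQ).map (Submodule.mapQ _ _ (σ n) hker) := by
    rintro _ ⟨w, hw, rfl⟩
    refine ⟨(LinearMap.ker (b j)).mkQ (σ n⁻¹ w), ⟨σ n⁻¹ w, ?_, rfl⟩, ?_⟩
    · intro c hc
      have h1 : n * c * n⁻¹ ∈ Z₀ := (Subgroup.mem_normalizer_iff.1 hn c).1 hc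
      rw [conj_apply σ c n⁻¹ w, inv_inv, mem_wt.1 hw _ h1, hnα _ h1, map_zsmul]
      congr 3
      group
    · rw [Submodule.mkQ_apply, Submodule.mapQ_apply, inv_apply, Submodule.mkQ_apply]
  have h1 := Submodule.finrank_mono hle
  have h2 := Submodule.finrank_map_le (Submodule.mapQ _ _ (σ n) hker) ((wt σ Z₀ α₀).map (LinearMap.ker (b j)).mkQ)
  exact h1.trans (h2.trans (hs j))

end Cfsg.Agent.H979.TwoLenTR
end

-- part: H979/TwoLen5N
section
/-!
# Part 5N of helper552's plan for S4258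
-/

set_option autoImplicit false
set_option linter.unusedSectionVars false
set_option linter.unusedVariables false

universe u

namespace Cfsg.Agent.H979.TwoLen5N

open Cfsg.Agent.H552 Cfsg.Agent.H979.TwoLenRA Cfsg.Agent.H979.TwoLenTR Module
open scoped commutatorElement

section Half

variable {q : ℕ} [Fact q.Prime] {W : Type*} [AddCommGroup W] [Module (ZMod q) W] [Finite W]

/-- an involution `C` on `U` inverted by `ρ` has equal eigenspaces -/
theorem half (hq : q ≠ 2) (U K : Submodule (ZMod q) W) (C ρ : Module.End (ZMod q) W)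
    (hCK : ∀ w ∈ K, C w ∈ K) (hρU : ∀ w ∈ U, ρ w ∈ U) (hρK : ∀ w, ρ w ∈ K → w ∈ K) (hρK' : ∀ w ∈ K, ρ w ∈ K)
    (hanti : ∀ w ∈ U, C (ρ w) = -ρ (C w)) {n : ℕ} (hn : finrank (ZMod q) (U.map K.mkQ) ≤ 2 * n) :
    finrank (ZMod q) ((U ⊓ LinearMap.ker (C - 1)).map K.mkQ) ≤ n := by
  set P := (U ⊓ LinearMap.ker (C - 1)).map K.mkQ with hP
  set N := (U ⊓ LinearMap.ker (C + 1)).map K.mkQ with hN
  have hkm : ∀ w, w ∈ LinearMap.ker (C - 1) ↔ C w = w := by
    intro w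
    rw [LinearMap.mem_ker, LinearMap.sub_apply, Module.End.one_apply, sub_eq_zero]
  have hkp : ∀ w, w ∈ LinearMap.ker (C + 1) ↔ C w = -w := by
    intro w
    rw [LinearMap.mem_ker, LinearMap.add_apply, Module.End.one_apply, add_eq_zero_iff_eq_neg]
  have hdisj : P ⊓ N = ⊥ := by
    rw [eq_bot_iff]
    rintro x ⟨⟨w, ⟨hw, hw'⟩, rfl⟩, ⟨v, ⟨hv, hv'⟩, hvw⟩⟩
    rw [SetLike.mem_coe, hkm] at hw'
    rw [SetLike.mem_coe, hkp] at hv'
    rw [Submodule.mem_bot, Submodule.mkQ_apply, Submodule.Quotient.mk_eq_zero]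
    rw [Submodule.mkQ_apply, Submodule.mkQ_apply, Submodule.Quotient.eq] at hvw
    have h1 := hCK _ hvw
    rw [map_sub, hv', hw'] at h1
    have h2 := add_mem hvw h1
    have e : v - w + (-v - w) = -((2 : ZMod q) • w) := by rw [two_smul]; abel
    rw [e, neg_mem_iff] at h2
    exact (K.smul_mem_iff (two_ne hq)).1 h2
  have hsup : P ⊔ N ≤ U.map K.mkQ :=
    sup_le (Submodule.map_mono inf_le_left) (Submodule.map_mono inf_le_left)
  have h1 := Submodule.finrank_sup_add_finrank_inf_eq P N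
  rw [hdisj, finrank_bot, add_zero] at h1
  have h2 := Submodule.finrank_mono hsup
  let f : (W ⧸ K) →ₗ[ZMod q] (W ⧸ K) := Submodule.mapQ K K ρ (fun w hw => hρK' w hw)
  have hf : Function.Injective f := by
    rw [← LinearMap.ker_eq_bot, eq_bot_iff]
    intro x hx
    obtain ⟨w, rfl⟩ := Submodule.mkQ_surjective K x
    rw [LinearMap.mem_ker, Submodule.mkQ_apply, Submodule.mapQ_apply, Submodule.Quotient.mk_eq_zero] at hx
    rw [Submodule.mem_bot, Submodule.mkQ_apply, Submodule.Quotient.mk_eq_zero]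
    exact hρK w hx
  have h3 : finrank (ZMod q) (P.map f) = finrank (ZMod q) P :=
    (Submodule.equivMapOfInjective f hf P).symm.finrank_eq
  have h4 : P.map f ≤ N := by
    rintro _ ⟨_, ⟨w, ⟨hw, hw'⟩, rfl⟩, rfl⟩
    rw [SetLike.mem_coe, hkm] at hw'
    refine ⟨ρ w, ⟨hρU w hw, ?_⟩, ?_⟩
    · rw [SetLike.mem_coe, hkp, hanti w hw, hw']
    · rw [Submodule.mkQ_apply, Submodule.mkQ_apply, Submodule.mapQ_apply]
  have h5 := Submodule.finrank_mono h4
  omega

end Half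

variable {k q : ℕ} [Fact q.Prime] {G : Type u} [Group G] [Finite G] {Q R : Subgroup G} {W : Type u}
  [AddCommGroup W] [Module (ZMod q) W] [Finite W] {σ : G →* Module.End (ZMod q) W} {ι : Type u}
  {b : ι → W →ₗ[ZMod q] W →ₗ[ZMod q] ZMod q}

theorem ker_inv (h : WD k q Q R σ b) {r : G} (hr : r ∈ R) {i : ι} {w : W} (hw : w ∈ LinearMap.ker (b i)) :
    σ r w ∈ LinearMap.ker (b i) := by
  rw [LinearMap.mem_ker] at hw ⊢
  ext w'
  rw [← inv_apply σ r w', h.invR r hr, hw, LinearMap.zero_apply, LinearMap.zero_apply]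

theorem ker_inv' (h : WD k q Q R σ b) {r : G} (hr : r ∈ R) {i : ι} {w : W}
    (hw : σ r w ∈ LinearMap.ker (b i)) : w ∈ LinearMap.ker (b i) := by
  have h1 := ker_inv h (inv_mem hr) hw
  have h2 : σ r⁻¹ (σ r w) = w := by
    have := inv_apply σ r⁻¹ w
    rwa [inv_inv] at this
  rwa [h2] at h1

/-- **Part 5N of the plan for S4258.** -/
theorem no_sing (h : WD k q Q R σ b) (Z₀ : Subgroup G) (hZ₀R : Z₀ ≤ R)
    (hZ₀c : ∀ c ∈ Z₀, ∀ r ∈ R, c * r = r * c) (hZ₀2 : ∀ c ∈ Z₀, c ^ 2 = 1)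
    (hRZ : ∀ r ∈ R, ∀ s ∈ R, ⁅r, s⁆ ∈ Z₀) (hR2 : ∀ r ∈ R, r ^ 2 ∈ Z₀) (α : G → ℤˣ) (i : ι)
    (hi : ∃ w ∈ wt σ Z₀ α, w ∉ LinearMap.ker (b i)) (hsmall : wdim σ Z₀ α (b i) ≤ 4) {c d : G} (hc : c ∈ R)
    (hd : d ∈ R) (hc2 : α (c ^ 2) = 1) (hd2 : α (d ^ 2) = 1) (hcd : α ⁅c, d⁆ = 1) :
    (∀ r ∈ R, α ⁅c, r⁆ = 1) ∨ (∀ r ∈ R, α ⁅d, r⁆ = 1) ∨ (∀ r ∈ R, α ⁅c * d, r⁆ = 1) := by
  classical
  obtain ⟨w₀, hw₀, hw₀K⟩ := hi
  have hw₀0 : w₀ ≠ 0 := by
    rintro rfl
    exact hw₀K (zero_mem _)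
  -- `α` is multiplicative on `Z₀`
  have hmul : ∀ a ∈ Z₀, ∀ e ∈ Z₀, α (a * e) = α a * α e := by
    intro a ha e he
    by_contra hne
    refine hw₀0 (eq_zero_of_sign_ne (q := q) h.q2 hne ?_)
    rw [← mem_wt.1 hw₀ _ (mul_mem ha he), map_mul, Module.End.mul_apply, mem_wt.1 hw₀ e he, map_zsmul,
      mem_wt.1 hw₀ a ha, smul_smul, mul_comm (α a), Units.val_mul]
  have hα1 : α 1 = 1 := by
    have h1 := hmul 1 (one_mem _) 1 (one_mem _)
    rw [mul_one] at h1
    exact left_eq_mul.1 h1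
  -- action of `R` on the weight space
  have hUR : ∀ r ∈ R, ∀ w ∈ wt σ Z₀ α, σ r w ∈ wt σ Z₀ α := by
    intro r hr w hw a ha
    rw [conj_apply σ a r w]
    have h1 : r⁻¹ * a * r = a := by rw [mul_assoc, hZ₀c a ha r hr, inv_mul_cancel_left]
    rw [h1, mem_wt.1 hw a ha, map_zsmul]
  -- commutation
  have hcomm : ∀ r ∈ R, ∀ s ∈ R, ∀ w ∈ wt σ Z₀ α, σ r (σ s w) = ((α ⁅r, s⁆ : ℤˣ) : ℤ) • σ s (σ r w) := by
    intro r hr s hs w hw
    have h1 : σ r (σ s w) = σ ⁅r, s⁆ (σ s (σ r w)) := by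
      rw [← Module.End.mul_apply, ← map_mul, ← Module.End.mul_apply, ← map_mul, ← Module.End.mul_apply,
        ← map_mul]
      congr 2
      rw [commutatorElement_def]
      group
    rw [h1, mem_wt.1 (hUR s hs _ (hUR r hr w hw)) _ (hRZ r hr s hs)]
  have hsq : ∀ r ∈ R, α (r ^ 2) = 1 → ∀ w ∈ wt σ Z₀ α, σ r (σ r w) = w := by
    intro r hr hr2 w hw
    rw [← Module.End.mul_apply, ← map_mul, ← pow_two, mem_wt.1 hw _ (hR2 r hr), hr2]
    simp
  by_contra hcon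
  push Not at hcon
  obtain ⟨⟨r₁, hr₁, hr₁'⟩, ⟨r₂, hr₂, hr₂'⟩, ⟨r₃, hr₃, hr₃'⟩⟩ := hcon
  -- multiplicativity of commutators
  have hcm : ∀ a ∈ R, ∀ r ∈ R, ∀ s ∈ R, α ⁅a, r * s⁆ = α ⁅a, r⁆ * α ⁅a, s⁆ := by
    intro a ha r hr s hs
    rw [← hmul _ (hRZ a ha r hr) _ (hRZ a ha s hs)]
    congr 1
    have h1 : ⁅a, r * s⁆ = ⁅a, r⁆ * (r * ⁅a, s⁆ * r⁻¹) := by
      simp only [commutatorElement_def]; group
    rw [h1, ← hZ₀c _ (hRZ a ha s hs) r hr, mul_inv_cancel_right]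
  have hmc : ∀ r ∈ R, α ⁅c * d, r⁆ = α ⁅c, r⁆ * α ⁅d, r⁆ := by
    intro r hr
    rw [← hmul _ (hRZ c hc r hr) _ (hRZ d hd r hr)]
    congr 1
    have h1 : ⁅c * d, r⁆ = (c * ⁅d, r⁆ * c⁻¹) * ⁅c, r⁆ := by
      simp only [commutatorElement_def]; group
    rw [h1, ← hZ₀c _ (hRZ d hd r hr) c hc, mul_inv_cancel_right,
      hZ₀c _ (hRZ d hd r hr) _ (hZ₀R (hRZ c hc r hr))]
  have hur : ∀ e : ℤˣ, e ≠ 1 → e = -1 := fun e he => (Int.units_eq_one_or e).resolve_left he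
  -- an element with prescribed signs
  have hA : ∃ r ∈ R, α ⁅c, r⁆ = -1 ∧ α ⁅d, r⁆ = 1 := by
    rw [hmc r₃ hr₃] at hr₃'
    rcases Int.units_eq_one_or (α ⁅c, r₃⁆) with h3 | h3 <;> rcases Int.units_eq_one_or (α ⁅d, r₃⁆) with h4 | h4
    · rw [h3, h4] at hr₃'; exact absurd (by decide) hr₃'
    · rcases Int.units_eq_one_or (α ⁅d, r₁⁆) with h5 | h5
      · exact ⟨r₁, hr₁, hur _ hr₁', h5⟩
      · refine ⟨r₁ * r₃, mul_mem hr₁ hr₃, ?_, ?_⟩
        · rw [hcm c hc r₁ hr₁ r₃ hr₃, hur _ hr₁', h3]; decide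
        · rw [hcm d hd r₁ hr₁ r₃ hr₃, h5, h4]; decide
    · exact ⟨r₃, hr₃, h3, h4⟩
    · rw [h3, h4] at hr₃'; exact absurd (by decide) hr₃'
  obtain ⟨s₁, hs₁, hs₁c, hs₁d⟩ := hA
  have hB : ∃ r ∈ R, α ⁅c, r⁆ = 1 ∧ α ⁅d, r⁆ = -1 := by
    rcases Int.units_eq_one_or (α ⁅c, r₂⁆) with h5 | h5
    · exact ⟨r₂, hr₂, h5, hur _ hr₂'⟩
    · refine ⟨r₂ * s₁, mul_mem hr₂ hs₁, ?_, ?_⟩
      · rw [hcm c hc r₂ hr₂ s₁ hs₁, h5, hs₁c]; decide
      · rw [hcm d hd r₂ hr₂ s₁ hs₁, hur _ hr₂', hs₁d]; decide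
  obtain ⟨s₂, hs₂, hs₂c, hs₂d⟩ := hB
  -- the two halvings
  set K := LinearMap.ker (b i) with hK
  set U := wt σ Z₀ α with hU
  have hhalf1 : finrank (ZMod q) ((U ⊓ LinearMap.ker (σ c - 1)).map K.mkQ) ≤ 2 := by
    refine half (q := q) h.q2 U K (σ c) (σ s₁) (fun w hw => ker_inv h hc hw) (fun w hw => hUR s₁ hs₁ w hw)
      (fun w hw => ker_inv' h hs₁ hw) (fun w hw => ker_inv h hs₁ hw) ?_ (n := 2) hsmall
    intro w hw
    rw [hcomm c hc s₁ hs₁ w hw, hs₁c]
    simp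
  have hkc : ∀ w, w ∈ LinearMap.ker (σ c - 1) ↔ σ c w = w := by
    intro w
    rw [LinearMap.mem_ker, LinearMap.sub_apply, Module.End.one_apply, sub_eq_zero]
  have hkd : ∀ w, w ∈ LinearMap.ker (σ d - 1) ↔ σ d w = w := by
    intro w
    rw [LinearMap.mem_ker, LinearMap.sub_apply, Module.End.one_apply, sub_eq_zero]
  have hhalf2 : finrank (ZMod q) ((U ⊓ LinearMap.ker (σ c - 1) ⊓ LinearMap.ker (σ d - 1)).map K.mkQ) ≤ 1 := by
    refine half (q := q) h.q2 (U ⊓ LinearMap.ker (σ c - 1)) K (σ d) (σ s₂) (fun w hw => ker_inv h hd hw) ?_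
      (fun w hw => ker_inv' h hs₂ hw) (fun w hw => ker_inv h hs₂ hw) ?_ (n := 1) hhalf1
    · rintro w ⟨hw, hw'⟩
      refine ⟨hUR s₂ hs₂ w hw, ?_⟩
      rw [SetLike.mem_coe, hkc] at hw' ⊢
      rw [hcomm c hc s₂ hs₂ w hw, hs₂c, hw']
      simp
    · rintro w ⟨hw, hw'⟩
      rw [hcomm d hd s₂ hs₂ w hw, hs₂d]
      simp
  -- a vector of the joint eigenspace outside the kernel
  have hstep : ∀ a ∈ R, α (a ^ 2) = 1 → ∀ s ∈ R, α ⁅a, s⁆ = -1 → ∀ w ∈ U, w ∉ K →
      ∃ v ∈ U, v ∉ K ∧ σ a v = v ∧ (v = w + σ a w ∨ v = σ s (w - σ a w)) := by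
    intro a ha ha2 s hs has w hw hwK
    by_cases h1 : w + σ a w ∈ K
    · refine ⟨σ s (w - σ a w), hUR s hs _ (sub_mem hw (hUR a ha w hw)), ?_, ?_, Or.inr rfl⟩
      · intro h2
        have h3 := ker_inv' h hs h2
        have h4 := add_mem h1 h3
        have e : w + σ a w + (w - σ a w) = (2 : ZMod q) • w := by rw [two_smul]; abel
        rw [e] at h4
        exact hwK ((K.smul_mem_iff (two_ne h.q2)).1 h4)
      · rw [hcomm a ha s hs _ (sub_mem hw (hUR a ha w hw)), has, map_sub, hsq a ha ha2 w hw, ← map_zsmul]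
        congr 1
        simp
    · exact ⟨w + σ a w, add_mem hw (hUR a ha w hw), h1, by rw [map_add, hsq a ha ha2 w hw, add_comm], Or.inl rfl⟩
  obtain ⟨v₁, hv₁, hv₁K, hv₁c, -⟩ := hstep c hc hc2 s₁ hs₁ hs₁c w₀ hw₀ hw₀K
  obtain ⟨u, hu, huK, hud, hu'⟩ := hstep d hd hd2 s₂ hs₂ hs₂d v₁ hv₁ hv₁K
  have hcdw : ∀ w ∈ U, σ c (σ d w) = σ d (σ c w) := by
    intro w hw
    rw [hcomm c hc d hd w hw, hcd]
    simp
  have huc : σ c u = u := by
    rcases hu' with rfl | rfl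
    · rw [map_add, hcdw v₁ hv₁, hv₁c]
    · rw [hcomm c hc s₂ hs₂ _ (sub_mem hv₁ (hUR d hd v₁ hv₁)), hs₂c, map_sub, hcdw v₁ hv₁, hv₁c]
      simp
  -- orthogonality
  apply huK
  rw [hK, LinearMap.mem_ker]
  have hE : ∀ w ∈ U, σ c w = w → σ d w = w → b i u w = 0 := by
    intro w hw hwc hwd
    have h1 : ∃ v : (U ⊓ LinearMap.ker (σ c - 1) ⊓ LinearMap.ker (σ d - 1)).map K.mkQ,
        ∀ x : (U ⊓ LinearMap.ker (σ c - 1) ⊓ LinearMap.ker (σ d - 1)).map K.mkQ, ∃ t : ZMod q, t • v = x :=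
      finrank_le_one_iff.1 hhalf2
    obtain ⟨⟨v, hv⟩, hv'⟩ := h1
    obtain ⟨v₀, hv₀, rfl⟩ := hv
    have hin : ∀ w ∈ U, σ c w = w → σ d w = w → ∃ t : ZMod q, w - t • v₀ ∈ K := by
      intro w hw hwc hwd
      obtain ⟨t, ht⟩ := hv' ⟨K.mkQ w, w, ⟨⟨hw, (hkc w).2 hwc⟩, (hkd w).2 hwd⟩, rfl⟩
      have h2 : t • K.mkQ v₀ = K.mkQ w := congrArg Subtype.val ht
      refine ⟨t, ?_⟩
      rw [← Submodule.Quotient.mk_eq_zero, Submodule.Quotient.mk_sub, sub_eq_zero]
      rw [← map_smul] at h2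
      exact h2.symm
    obtain ⟨t, ht⟩ := hin w hw hwc hwd
    obtain ⟨s, hs⟩ := hin u hu huc hud
    rw [hK, LinearMap.mem_ker] at ht hs
    have e1 : b i u = s • b i v₀ := by
      rw [map_sub, map_smul, sub_eq_zero] at hs
      exact hs
    have e2 : b i w = t • b i v₀ := by
      rw [map_sub, map_smul, sub_eq_zero] at ht
      exact ht
    rw [e1, LinearMap.smul_apply, skew h i v₀ w, e2, LinearMap.smul_apply, h.alt i v₀]
    simp
  have hE' : ∀ w ∈ U, b i u w = 0 := by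
    intro w hw
    -- average over `c`, `d`
    have h1 : ∀ x, b i u (σ c x) = b i u x := by
      intro x
      have := h.invR c hc i u x
      rwa [huc] at this
    have h2 : ∀ x, b i u (σ d x) = b i u x := by
      intro x
      have := h.invR d hd i u x
      rwa [hud] at this
    have h3 : σ c w + w ∈ U := add_mem (hUR c hc w hw) hw
    have h4 := hE (σ d (σ c w + w) + (σ c w + w)) (add_mem (hUR d hd _ h3) h3) (by
      rw [map_add, hcdw _ h3, map_add, hsq c hc hc2 w hw, add_comm w]) (by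
      rw [map_add, hsq d hd hd2 _ h3, add_comm])
    rw [map_add, h2, map_add, h1] at h4
    exact eq_zero_of_add_self (q := q) h.q2 (eq_zero_of_add_self (q := q) h.q2 h4)
  -- the projection onto the weight space
  ext w
  rw [LinearMap.zero_apply]
  have : Fintype Z₀ := Fintype.ofFinite Z₀
  have hproj : ∑ a : Z₀, ((α a : ℤˣ) : ℤ) • σ a w ∈ U := by
    intro a ha
    rw [map_sum, Finset.smul_sum]
    refine Fintype.sum_equiv (Equiv.mulLeft (⟨a, ha⟩ : Z₀)) _ _ ?_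
    intro x
    show σ a (((α x : ℤˣ) : ℤ) • σ x w) = ((α a : ℤˣ) : ℤ) • ((α (a * x) : ℤˣ) : ℤ) • σ (a * x) w
    rw [map_zsmul, map_mul, Module.End.mul_apply, smul_smul, hmul a ha x x.2, Units.val_mul, ← mul_assoc]
    have : ((α a : ℤˣ) : ℤ) * ((α a : ℤˣ) : ℤ) = 1 := Int.units_coe_mul_self (α a)
    rw [this, one_mul]
  have h5 := hE' _ hproj
  have h6 : ∀ a : Z₀, b i u (((α a : ℤˣ) : ℤ) • σ a w) = b i u w := by
    intro a
    have h7 := h.invR a (hZ₀R a.2) i u w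
    rw [mem_wt.1 hu a a.2] at h7
    rw [map_zsmul, ← LinearMap.smul_apply, ← map_zsmul]
    exact h7
  rw [map_sum, Finset.sum_congr rfl fun a _ => h6 a, Finset.sum_const, Finset.card_univ,
    ← Nat.card_eq_fintype_card, nsmul_eq_mul] at h5
  refine (mul_eq_zero.1 h5).resolve_left ?_
  have hp : IsPGroup 2 Z₀ := by
    rintro ⟨a, ha⟩
    exact ⟨1, by rw [pow_one]; exact Subtype.ext (hZ₀2 a ha)⟩
  obtain ⟨n, hn⟩ := IsPGroup.iff_card.1 hp
  rw [hn]
  push_cast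
  exact pow_ne_zero n (two_ne h.q2)

end Cfsg.Agent.H979.TwoLen5N
end

-- part: H979/TwoLen5A
section
/-!
# Part 5A of helper552's plan for S4258
-/

set_option autoImplicit false
set_option linter.unusedSectionVars false
set_option linter.unusedVariables false

universe u

namespace Cfsg.Agent.H979.TwoLen5A

open Cfsg.Agent.H552 Cfsg.Agent.H979.TwoLenRA Cfsg.Agent.H979.TwoLenTR Cfsg.Agent.H979.TwoLen5N Module
open scoped commutatorElement

section Half

variable {q : ℕ} [Fact q.Prime] {W : Type*} [AddCommGroup W] [Module (ZMod q) W] [Finite W]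

/-- an involution `C` on `U` anticommuting with `ρ`: the dimension is at most twice the rank of `C - 1` -/
theorem half' (hq : q ≠ 2) (U K : Submodule (ZMod q) W) (C ρ : Module.End (ZMod q) W)
    (hCU : ∀ w ∈ U, C w ∈ U) (hCC : ∀ w ∈ U, C (C w) = w) (hρU : ∀ w ∈ U, ρ w ∈ U)
    (hρK : ∀ w, ρ w ∈ K → w ∈ K) (hρK' : ∀ w ∈ K, ρ w ∈ K)
    (hanti : ∀ w ∈ U, C (ρ w) = -ρ (C w)) {n : ℕ}
    (hn : finrank (ZMod q) ((LinearMap.range (C - 1)).map K.mkQ) ≤ n) :
    finrank (ZMod q) (U.map K.mkQ) ≤ 2 * n := by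
  set P := (U ⊓ LinearMap.ker (C - 1)).map K.mkQ with hP
  set N := (U ⊓ LinearMap.ker (C + 1)).map K.mkQ with hN
  have hkm : ∀ w, w ∈ LinearMap.ker (C - 1) ↔ C w = w := by
    intro w
    rw [LinearMap.mem_ker, LinearMap.sub_apply, Module.End.one_apply, sub_eq_zero]
  have hkp : ∀ w, w ∈ LinearMap.ker (C + 1) ↔ C w = -w := by
    intro w
    rw [LinearMap.mem_ker, LinearMap.add_apply, Module.End.one_apply, add_eq_zero_iff_eq_neg]
  have h2 : (2 : ZMod q) ≠ 0 := two_ne hq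
  have hle : U.map K.mkQ ≤ P ⊔ N := by
    rintro _ ⟨w, hw, rfl⟩
    have hp : w + C w ∈ U ⊓ LinearMap.ker (C - 1) := by
      refine ⟨add_mem hw (hCU w hw), ?_⟩
      rw [SetLike.mem_coe, hkm, map_add, hCC w hw, add_comm]
    have hm : w - C w ∈ U ⊓ LinearMap.ker (C + 1) := by
      refine ⟨sub_mem hw (hCU w hw), ?_⟩
      rw [SetLike.mem_coe, hkp, map_sub, hCC w hw, neg_sub]
    have e : w = (2 : ZMod q)⁻¹ • (w + C w) + (2 : ZMod q)⁻¹ • (w - C w) := by
      rw [← smul_add]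
      have : w + C w + (w - C w) = (2 : ZMod q) • w := by rw [two_smul]; abel
      rw [this, smul_smul, inv_mul_cancel₀ h2, one_smul]
    rw [e, map_add]
    exact Submodule.add_mem_sup ⟨_, Submodule.smul_mem _ _ hp, rfl⟩ ⟨_, Submodule.smul_mem _ _ hm, rfl⟩
  have h3 := Submodule.finrank_mono hle
  have h4 : finrank (ZMod q) ↥(P ⊔ N) ≤ finrank (ZMod q) P + finrank (ZMod q) N :=
    Submodule.finrank_add_le_finrank_add_finrank P N
  let f : (W ⧸ K) →ₗ[ZMod q] (W ⧸ K) := Submodule.mapQ K K ρ (fun w hw => hρK' w hw)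
  have hf : Function.Injective f := by
    rw [← LinearMap.ker_eq_bot, eq_bot_iff]
    intro x hx
    obtain ⟨w, rfl⟩ := Submodule.mkQ_surjective K x
    rw [LinearMap.mem_ker, Submodule.mkQ_apply, Submodule.mapQ_apply, Submodule.Quotient.mk_eq_zero] at hx
    rw [Submodule.mem_bot, Submodule.mkQ_apply, Submodule.Quotient.mk_eq_zero]
    exact hρK w hx
  have h5 : finrank (ZMod q) (P.map f) = finrank (ZMod q) P :=
    (Submodule.equivMapOfInjective f hf P).symm.finrank_eq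
  have h6 : P.map f ≤ N := by
    rintro _ ⟨_, ⟨w, ⟨hw, hw'⟩, rfl⟩, rfl⟩
    rw [SetLike.mem_coe, hkm] at hw'
    refine ⟨ρ w, ⟨hρU w hw, ?_⟩, ?_⟩
    · rw [SetLike.mem_coe, hkp, hanti w hw, hw']
    · rw [Submodule.mkQ_apply, Submodule.mkQ_apply, Submodule.mapQ_apply]
  have h7 := Submodule.finrank_mono h6
  have h8 : N ≤ (LinearMap.range (C - 1)).map K.mkQ := by
    rintro _ ⟨w, ⟨hw, hw'⟩, rfl⟩
    rw [SetLike.mem_coe, hkp] at hw'
    refine ⟨w, ⟨-((2 : ZMod q)⁻¹ • w), ?_⟩, rfl⟩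
    rw [LinearMap.sub_apply, Module.End.one_apply, map_neg, map_smul, hw', smul_neg, neg_neg, sub_neg_eq_add,
      ← add_smul, ← two_mul, mul_inv_cancel₀ h2, one_smul]
  have h9 := Submodule.finrank_mono h8
  omega

end Half

variable {k q : ℕ} [Fact q.Prime] {G : Type u} [Group G] [Finite G] {Q R : Subgroup G} {W : Type u}
  [AddCommGroup W] [Module (ZMod q) W] [Finite W] {σ : G →* Module.End (ZMod q) W} {ι : Type u}
  {b : ι → W →ₗ[ZMod q] W →ₗ[ZMod q] ZMod q}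

theorem ker_invz (h : WD k q Q R σ b) {y : G} (hy : IsTwo y) {i : ι} {w : W} (hw : w ∈ LinearMap.ker (b i)) :
    σ (y ^ 2 ^ k) w ∈ LinearMap.ker (b i) := by
  rw [LinearMap.mem_ker] at hw ⊢
  ext w'
  rw [← inv_apply σ (y ^ 2 ^ k) w', h.invz y hy, hw, LinearMap.zero_apply, LinearMap.zero_apply]

/-- multiplicativity of a weight -/
theorem wt_mul (h : WD k q Q R σ b) {Z₀ : Subgroup G} {α : G → ℤˣ} {w : W} (hw : w ∈ wt σ Z₀ α) (hw0 : w ≠ 0)
    {a e : G} (ha : a ∈ Z₀) (he : e ∈ Z₀) : α (a * e) = α a * α e := by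
  by_contra hne
  refine hw0 (eq_zero_of_sign_ne (q := q) h.q2 hne ?_)
  rw [← mem_wt.1 hw _ (mul_mem ha he), map_mul, Module.End.mul_apply, mem_wt.1 hw e he, map_zsmul,
    mem_wt.1 hw a ha, smul_smul, mul_comm (α a), Units.val_mul]

/-- a weight detecting a nontrivial element -/
theorem exists_neg (h : WD k q Q R σ b) {Z₀ : Subgroup G} (hZ₀R : Z₀ ≤ R)
    (hZ₀c : ∀ c ∈ Z₀, ∀ r ∈ R, c * r = r * c) (hZ₀2 : ∀ c ∈ Z₀, c ^ 2 = 1) {e : G} (he : e ∈ Z₀) (hne : e ≠ 1) :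
    ∃ α : G → ℤˣ, wt σ Z₀ α ≠ ⊥ ∧ α e = -1 := by
  have hσ : σ e ≠ 1 := fun h1 => hne (h.faithR e (hZ₀R he) h1)
  have hcomm : ∀ c ∈ Z₀, ∀ d ∈ Z₀, c * d = d * c := fun c hc d hd => hZ₀c c hc d (hZ₀R hd)
  have hee : ∀ w, σ e (σ e w) = w := by
    intro w
    rw [← Module.End.mul_apply, ← map_mul, ← pow_two, hZ₀2 e he, map_one, Module.End.one_apply]
  have hU0 : LinearMap.range (σ e - 1) ≠ ⊥ := by
    intro h1
    rw [LinearMap.range_eq_bot, sub_eq_zero] at h1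
    exact hσ h1
  obtain ⟨α, w, hwU, hw0, hw⟩ := exists_weight (q := q) h.q2 (R := Z₀) hcomm hZ₀2 σ (LinearMap.range (σ e - 1)) (by
    rintro r hr _ ⟨v, rfl⟩
    refine ⟨σ r v, ?_⟩
    rw [LinearMap.sub_apply, LinearMap.sub_apply, Module.End.one_apply, Module.End.one_apply, map_sub,
      ← Module.End.mul_apply, ← map_mul, hcomm e he r hr, map_mul, Module.End.mul_apply]) hU0
  refine ⟨α, ?_, ?_⟩
  · intro h1
    rw [h1, Submodule.mem_bot] at hw
    exact hw0 hw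
  · rcases Int.units_eq_one_or (α e) with h1 | h1
    · exfalso
      apply hw0
      have h2 := mem_wt.1 hw e he
      rw [h1] at h2
      obtain ⟨v, rfl⟩ := hwU
      apply eq_zero_of_neg_eq (q := q) h.q2
      have h3 : σ e ((σ e - 1) v) = -((σ e - 1) v) := by
        rw [LinearMap.sub_apply, Module.End.one_apply, map_sub, hee, neg_sub]
      rw [← h3, h2]
      simp
    · exact h1

/-- `y ^ 2 ^ k` centralizes `Z₀` -/
theorem lemA (h : WD k q Q R σ b) {Z₀ : Subgroup G} (hZ₀R : Z₀ ≤ R)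
    (hZ₀c : ∀ c ∈ Z₀, ∀ r ∈ R, c * r = r * c) (hZ₀2 : ∀ c ∈ Z₀, c ^ 2 = 1)
    (hbig : ∀ α : G → ℤˣ, wt σ Z₀ α ≠ ⊥ → ∃ i, 4 < wdim σ Z₀ α (b i)) {y : G} (hy : IsTwo y)
    (hyZ : y ∈ Subgroup.normalizer (Z₀ : Set G)) : ∀ c ∈ Z₀, y ^ 2 ^ k * c = c * y ^ 2 ^ k := by
  set z := y ^ 2 ^ k with hz
  have hzZ : z ∈ Subgroup.normalizer (Z₀ : Set G) := pow_mem hyZ _
  have hconj : ∀ c ∈ Z₀, z⁻¹ * c * z ∈ Z₀ := by
    intro c hc
    have h1 := (Subgroup.mem_normalizer_iff.1 (inv_mem hzZ) c).1 hc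
    rwa [inv_inv] at h1
  -- `z` fixes the weights
  have hfix : ∀ α : G → ℤˣ, wt σ Z₀ α ≠ ⊥ → ∀ c ∈ Z₀, α (z⁻¹ * c * z) = α c := by
    intro α hα c hc
    by_contra hne
    obtain ⟨i, hi⟩ := hbig α hα
    set K := LinearMap.ker (b i) with hK
    have hzK : ∀ w ∈ K, (σ z - 1) w ∈ K := by
      intro w hw
      rw [LinearMap.sub_apply, Module.End.one_apply]
      exact sub_mem (ker_invz h hy hw) hw
    let f : (W ⧸ K) →ₗ[ZMod q] (W ⧸ K) := Submodule.mapQ K K (σ z - 1) (fun w hw => hzK w hw)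
    let g : ((wt σ Z₀ α).map K.mkQ) →ₗ[ZMod q] (W ⧸ K) := f.domRestrict _
    have hg : Function.Injective g := by
      rw [← LinearMap.ker_eq_bot, eq_bot_iff]
      rintro ⟨_, w, hw, rfl⟩ hx
      have h1 : f (K.mkQ w) = 0 := hx
      rw [Submodule.mkQ_apply, Submodule.mapQ_apply, Submodule.Quotient.mk_eq_zero, LinearMap.sub_apply,
        Module.End.one_apply] at h1
      rw [Submodule.mem_bot]
      apply Subtype.ext
      change K.mkQ w = 0
      rw [Submodule.mkQ_apply, Submodule.Quotient.mk_eq_zero]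
      -- apply `c`
      have h2 := ker_inv h (hZ₀R hc) h1
      rw [map_sub, conj_apply σ c z w, mem_wt.1 hw _ (hconj c hc), mem_wt.1 hw c hc, map_zsmul] at h2
      have h3 := sub_mem h2 (K.smul_of_tower_mem ((α (z⁻¹ * c * z) : ℤˣ) : ℤ) h1)
      have e : ((α (z⁻¹ * c * z) : ℤˣ) : ℤ) • σ z w - ((α c : ℤˣ) : ℤ) • w -
          ((α (z⁻¹ * c * z) : ℤˣ) : ℤ) • (σ z w - w) =
          ((α (z⁻¹ * c * z) : ℤˣ) : ℤ) • w - ((α c : ℤˣ) : ℤ) • w := by
        rw [smul_sub]; abel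
      rw [e] at h3
      have h22 : w + w ∈ K → w ∈ K := by
        intro h4
        rw [← two_smul (ZMod q)] at h4
        exact (K.smul_mem_iff (two_ne h.q2)).1 h4
      apply h22
      rcases Int.units_eq_one_or (α (z⁻¹ * c * z)) with h5 | h5 <;> rcases Int.units_eq_one_or (α c) with h6 | h6
      · exact absurd (h5.trans h6.symm) hne
      · rw [h5, h6] at h3
        have e2 : ((1 : ℤˣ) : ℤ) • w - ((-1 : ℤˣ) : ℤ) • w = w + w := by
          simp
        rwa [e2] at h3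
      · rw [h5, h6] at h3
        have h7 := neg_mem h3
        have e2 : -(((-1 : ℤˣ) : ℤ) • w - ((1 : ℤˣ) : ℤ) • w) = w + w := by
          simp
        rwa [e2] at h7
      · exact absurd (h5.trans h6.symm) hne
    have h1 : finrank (ZMod q) ((wt σ Z₀ α).map K.mkQ) = finrank (ZMod q) (LinearMap.range g) :=
      (LinearMap.finrank_range_of_inj hg).symm
    have h2 : LinearMap.range g ≤ (LinearMap.range (σ z - 1)).map K.mkQ := by
      rintro _ ⟨⟨_, w, hw, rfl⟩, rfl⟩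
      refine ⟨(σ z - 1) w, ⟨w, rfl⟩, ?_⟩
      change K.mkQ ((σ z - 1) w) = f (K.mkQ w)
      rw [Submodule.mkQ_apply, Submodule.mkQ_apply, Submodule.mapQ_apply]
    have h3 := Submodule.finrank_mono h2
    have h4 := h.E2 y hy i
    have h5 : 4 < finrank (ZMod q) ((wt σ Z₀ α).map K.mkQ) := hi
    rw [← hz, ← hK] at h4
    omega
  intro c hc
  by_contra hne
  have he : z⁻¹ * c * z * c⁻¹ ∈ Z₀ := mul_mem (hconj c hc) (inv_mem hc)
  have hne' : z⁻¹ * c * z * c⁻¹ ≠ 1 := by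
    intro h1
    apply hne
    rw [mul_inv_eq_one] at h1
    have h2 : z * (z⁻¹ * c * z) = c * z := by group
    rw [← h2, h1]
  obtain ⟨α, hα, hαe⟩ := exists_neg h hZ₀R hZ₀c hZ₀2 he hne'
  obtain ⟨w, hw, hw0⟩ := Submodule.exists_mem_ne_zero_of_ne_bot hα
  have h1 := wt_mul h hw hw0 he hc
  rw [inv_mul_cancel_right, hfix α hα c hc, hαe] at h1
  rcases Int.units_eq_one_or (α c) with h2 | h2 <;> rw [h2] at h1 <;> exact absurd h1 (by decide)

/-- an element of `R` commuting with `y ^ 2 ^ k` modulo `Z₀` commutes with it -/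
theorem lemB (h : WD k q Q R σ b) {Z₀ : Subgroup G} (hZ₀R : Z₀ ≤ R)
    (hZ₀c : ∀ c ∈ Z₀, ∀ r ∈ R, c * r = r * c) (hZ₀2 : ∀ c ∈ Z₀, c ^ 2 = 1)
    (hbig : ∀ α : G → ℤˣ, wt σ Z₀ α ≠ ⊥ → ∃ i, 4 < wdim σ Z₀ α (b i)) {y : G} (hy : IsTwo y)
    (hyZ : y ∈ Subgroup.normalizer (Z₀ : Set G)) {c : G} (hc : c ∈ R) (hcz : ⁅c, y ^ 2 ^ k⁆ ∈ Z₀) :
    ⁅c, y ^ 2 ^ k⁆ = 1 := by
  have hzc := lemA h hZ₀R hZ₀c hZ₀2 hbig hy hyZ
  set z := y ^ 2 ^ k with hz
  by_contra hne
  obtain ⟨α, hα, hαe⟩ := exists_neg h hZ₀R hZ₀c hZ₀2 hcz hne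
  obtain ⟨i, hi⟩ := hbig α hα
  have hUz : ∀ w ∈ wt σ Z₀ α, σ z w ∈ wt σ Z₀ α := by
    intro w hw a ha
    rw [conj_apply σ a z w]
    have h1 : z⁻¹ * a * z = a := by rw [mul_assoc, ← hzc a ha, inv_mul_cancel_left]
    rw [h1, mem_wt.1 hw a ha, map_zsmul]
  have hUc : ∀ w ∈ wt σ Z₀ α, σ c w ∈ wt σ Z₀ α := by
    intro w hw a ha
    rw [conj_apply σ a c w]
    have h1 : c⁻¹ * a * c = a := by rw [mul_assoc, hZ₀c a ha c hc, inv_mul_cancel_left]
    rw [h1, mem_wt.1 hw a ha, map_zsmul]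
  have hzz : ∀ w, σ z (σ z w) = w := by
    intro w
    have h1 : z * z = 1 := by
      rw [hz, ← pow_add, ← two_mul, ← pow_succ']
      exact h.expo y hy
    rw [← Module.End.mul_apply, ← map_mul, h1, map_one, Module.End.one_apply]
  have h1 : wdim σ Z₀ α (b i) ≤ 2 * 2 := by
    refine half' (q := q) h.q2 (wt σ Z₀ α) (LinearMap.ker (b i)) (σ z) (σ c) hUz (fun w _ => hzz w) hUc
      (fun w hw => ker_inv' h hc hw) (fun w hw => ker_inv h hc hw) ?_ (h.E2 y hy i)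
    intro w hw
    have h2 : σ c (σ z w) = σ ⁅c, z⁆ (σ z (σ c w)) := by
      rw [← Module.End.mul_apply, ← map_mul, ← Module.End.mul_apply, ← map_mul, ← Module.End.mul_apply,
        ← map_mul]
      congr 2
      rw [commutatorElement_def]
      group
    rw [mem_wt.1 (hUz _ (hUc w hw)) _ hcz, hαe] at h2
    rw [h2]
    simp
  omega

/-- **Part 5A of the plan for S4258.** -/
theorem five_a (h : WD k q Q R σ b) (Z₀ : Subgroup G) (hZ₀R : Z₀ ≤ R)
    (hZ₀c : ∀ c ∈ Z₀, ∀ r ∈ R, c * r = r * c) (hZ₀2 : ∀ c ∈ Z₀, c ^ 2 = 1)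
    (hRZ : ∀ r ∈ R, ∀ s ∈ R, ⁅r, s⁆ ∈ Z₀)
    (hbig : ∀ α : G → ℤˣ, wt σ Z₀ α ≠ ⊥ → ∃ i, 4 < wdim σ Z₀ α (b i)) {x : G} (hx : IsTwo x)
    (hxR : x ∈ Subgroup.normalizer (R : Set G)) (hxZ : x ∈ Subgroup.normalizer (Z₀ : Set G)) :
    (∀ c ∈ Z₀, x ^ 2 ^ k * c = c * x ^ 2 ^ k) ∧ ∀ m ∈ R, IsTwo (m * x) → ∀ c ∈ R, ⁅c, x ^ 2 ^ k⁆ ∈ Z₀ →
      ((m * x) ^ 2 ^ k * (x ^ 2 ^ k)⁻¹) * c = c * ((m * x) ^ 2 ^ k * (x ^ 2 ^ k)⁻¹) := by
  refine ⟨lemA h hZ₀R hZ₀c hZ₀2 hbig hx hxZ, ?_⟩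
  intro m hm hmx c hc hcx
  have hmZ : m ∈ Subgroup.normalizer (Z₀ : Set G) := by
    rw [Subgroup.mem_normalizer_iff]
    intro a
    constructor
    · intro ha
      rwa [← hZ₀c a ha m hm, mul_inv_cancel_right]
    · intro ha
      have h1 := hZ₀c _ ha m hm
      have h2 : m⁻¹ * (m * a * m⁻¹ * m) = a := by group
      rw [← h2, h1, inv_mul_cancel_left]
      exact ha
  have hyZ : m * x ∈ Subgroup.normalizer (Z₀ : Set G) := mul_mem hmZ hxZ
  have hr : ∀ n : ℕ, (m * x) ^ n * (x ^ n)⁻¹ ∈ R := by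
    intro n
    induction n with
    | zero => simp [one_mem]
    | succ n ih =>
      have e : (m * x) ^ (n + 1) * (x ^ (n + 1))⁻¹ = m * (x * ((m * x) ^ n * (x ^ n)⁻¹) * x⁻¹) := by
        rw [pow_succ', pow_succ, mul_inv_rev]
        have : x ^ n * x = x * x ^ n := (pow_succ x n).symm.trans (pow_succ' x n)
        have h2 : x⁻¹ * (x ^ n)⁻¹ = (x ^ n)⁻¹ * x⁻¹ := by rw [← mul_inv_rev, ← mul_inv_rev, this]
        rw [h2]
        group
      rw [e]
      exact mul_mem hm ((Subgroup.mem_normalizer_iff.1 hxR _).1 ih)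
  set r := (m * x) ^ 2 ^ k * (x ^ 2 ^ k)⁻¹ with hrdef
  have hrR : r ∈ R := hr _
  have h1 : ⁅c, x ^ 2 ^ k⁆ = 1 := lemB h hZ₀R hZ₀c hZ₀2 hbig hx hxZ hc hcx
  have hyx : (m * x) ^ 2 ^ k = r * x ^ 2 ^ k := by rw [hrdef, inv_mul_cancel_right]
  have h2 : ⁅c, (m * x) ^ 2 ^ k⁆ = ⁅c, r⁆ := by
    have e : ⁅c, r * x ^ 2 ^ k⁆ = ⁅c, r⁆ * (r * ⁅c, x ^ 2 ^ k⁆ * r⁻¹) := by
      simp only [commutatorElement_def]; group
    rw [hyx, e, h1, mul_one, mul_inv_cancel, mul_one]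
  have h3 : ⁅c, (m * x) ^ 2 ^ k⁆ = 1 :=
    lemB h hZ₀R hZ₀c hZ₀2 hbig hmx hyZ hc (by rw [h2]; exact hRZ c hc r hrR)
  rw [h2, commutatorElement_eq_one_iff_mul_comm] at h3
  exact h3.symm

end Cfsg.Agent.H979.TwoLen5A
end

-- part: H552/Main
section
/-!
# Theorem E and the `2`-length (helper552; for S4258)
-/

set_option autoImplicit false
set_option linter.unusedSectionVars false
set_option linter.unusedVariables false
set_option linter.style.haveILetI false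

universe u

namespace Cfsg.Agent.H552

open scoped commutatorElement

section

variable {G : Type u} [Group G] [Finite G]

/-- the case of nonabelian `Q` -/
theorem contra_nonabelian {k : ℕ} {Q R L N₁ : Subgroup G}
    (hIH : ∀ j ≤ k, ∀ (Y : Type u) [Group Y] [Finite Y], IsPSolvable 2 Y → EAt.{u} j Y)
    (hG : IsPSolvable 2 G) (h : D2 k Q R L N₁) {q : ℕ} [Fact q.Prime] {W : Type u} [AddCommGroup W]
    [Module (ZMod q) W] [Finite W] {σ : G →* Module.End (ZMod q) W} {ι : Type u}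
    {b : ι → W →ₗ[ZMod q] W →ₗ[ZMod q] ZMod q} (w : WD k q Q R σ b) : False := by
  have hQn := h.normalQ
  obtain ⟨x, hx, hx2, m, hm, hmx⟩ := h.exists_x (hIH k le_rfl ↥N₁
    (Lib.PSolvable.IsPSolvable_of_injective 2 hG N₁.subtype N₁.subtype_injective))
  have hxR := h.N₁R hx
  by_cases hRab : R ≤ Subgroup.centralizer (R : Set G)
  · -- `R` is abelian
    have hRab' : ∀ r ∈ R, ∀ s ∈ R, r * s = s * r := fun r hr s hs => (hRab hr s hs).symm
    have hR0 : ⁅R, R⁆ = ⊥ := by rwa [Subgroup.commutator_eq_bot_iff_le_centralizer]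
    have hZ0 : ∀ c ∈ Z0 R L, c = 1 := fun c hc => by
      have := h.Z0_le hc
      rw [hR0, Subgroup.mem_bot] at this
      exact this
    have hR2 : ∀ r ∈ R, r ^ 2 = 1 := fun r hr => hZ0 _ (h.sq_mem hr)
    have h1 := H979.TwoLenRA.caseRA w h.hk hRab' hR2 hx2 hxR hm (isTwo_mul h.hR hx2 hxR hm)
    apply hmx
    rw [h1, mul_inv_cancel]
    exact Subgroup.one_mem _
  -- `R` is nonabelian
  have hc : ∀ c ∈ Z0 R L, ∀ r ∈ R, c * r = r * c := fun c hc r hr => h.Z0_central hc hr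
  have h2 : ∀ c ∈ Z0 R L, c ^ 2 = 1 := fun c hc => h.Z0_sq hc
  have hRZ : ∀ r ∈ R, ∀ s ∈ R, ⁅r, s⁆ ∈ Z0 R L := fun r hr s hs =>
    h.comm_RR (Subgroup.commutator_mem_commutator hr hs)
  by_cases hbig : ∀ α : G → ℤˣ, wt σ (Z0 R L) α ≠ ⊥ → ∃ i, 4 < wdim σ (Z0 R L) α (b i)
  · apply hmx
    refine h.contra_of_comm hx hx2 ?_ ?_ hRab m hm
    · intro g hg c hc'
      have h3 := (H979.TwoLen5A.five_a w (Z0 R L) inf_le_left hc h2 hRZ hbig hx2 hxR (h.norm_Z0 hx)).1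
      have h4 : g⁻¹ * c * g ∈ Z0 R L := by
        have := (Subgroup.mem_normalizer_iff.1 (h.norm_Z0 (N₁.inv_mem hg)) c).1 hc'
        simpa using this
      have h5 := h3 _ h4
      calc g * x ^ 2 ^ k * g⁻¹ * c = g * (x ^ 2 ^ k * (g⁻¹ * c * g)) * g⁻¹ := by group
        _ = g * ((g⁻¹ * c * g) * x ^ 2 ^ k) * g⁻¹ := by rw [h5]
        _ = _ := by group
    · intro m' hm' c hc' hcx
      exact (H979.TwoLen5A.five_a w (Z0 R L) inf_le_left hc h2 hRZ hbig hx2 hxR (h.norm_Z0 hx)).2 m' hm'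
        (isTwo_mul h.hR hx2 hxR hm') c hc' hcx
  · push Not at hbig
    obtain ⟨α₀, hα₀, hs⟩ := hbig
    have hN : ∀ g : G, ∃ a ∈ Q, ∃ n ∈ Subgroup.normalizer ((Z0 R L : Subgroup G) : Set G), g = a * n := by
      intro g
      obtain ⟨a, ha, r, hr, n, hn, rfl⟩ := h.G_eq g
      refine ⟨a, ha, r * n, ?_, by group⟩
      refine Subgroup.mul_mem _ ?_ (h.norm_Z0 hn)
      refine Subgroup.centralizer_le_normalizer _ fun c hc' => ?_
      exact hc c hc' r hr
    have hs' := H979.TwoLenTR.transfer w (Z0 R L) inf_le_left hc h2 hN hα₀ hs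
    refine five_b hIH hG h w hRab ?_
    intro α hα c hc' e he h3 h4 h5
    obtain ⟨v, hv, hv0⟩ := Submodule.exists_mem_ne_zero_of_ne_bot hα
    obtain ⟨i, hi⟩ : ∃ i, v ∉ LinearMap.ker (b i) := by
      by_contra hcon
      push Not at hcon
      apply hv0
      refine w.nondeg v fun i w' => ?_
      have h6 := hcon i
      rw [LinearMap.mem_ker] at h6
      rw [h6, LinearMap.zero_apply]
    exact H979.TwoLen5N.no_sing w (Z0 R L) inf_le_left hc h2 hRZ (fun r hr => h.sq_mem hr) α i ⟨v, hv, hi⟩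
      (hs' α hα i) hc' he h3 h4 h5

end

/-- the main contradiction -/
theorem main_contra {k : ℕ} (hk : 1 ≤ k)
    (hIH : ∀ j ≤ k, ∀ (Y : Type u) [Group Y] [Finite Y], IsPSolvable 2 Y → EAt.{u} j Y)
    (G : Type u) [Group G] [Finite G] (hG : IsPSolvable 2 G) (hC : Crit.{u} (k + 1) G)
    {V : Type u} [AddCommGroup V] [Module (ZMod 2) V] [Finite V] (ρ : G →* Module.End (ZMod 2) V)
    (hρ : ∀ g, ρ g = 1 → g = 1) (hN : ∀ y : G, IsTwo y → (ρ y - 1) ^ (2 ^ (k + 1) - 1) = 0) : False := by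
  obtain ⟨R, h1⟩ := D1.exists hC
  obtain ⟨L, N₁, h⟩ := h1.exists_D2 hk
  set Q := T (k + 1) (⊤ : Subgroup G) with hQ
  by_cases hab : Q ≤ Subgroup.centralizer (Q : Set G)
  · -- `Q` abelian
    obtain ⟨x, hx, hx2, m, hm, hmx⟩ := h.exists_x (hIH k le_rfl ↥N₁
      (Lib.PSolvable.IsPSolvable_of_injective 2 hG N₁.subtype N₁.subtype_injective))
    have key : ∀ y : G, IsTwo y → y ^ 2 ^ k = 1 := by
      intro y hy
      refine h.propP (hy.pow _) ?_
      have := E1_abelian ρ hρ h.normalQ h.oddQ (fun a ha c hc => hab hc a ha) hy (Nat.le_add_left 1 k)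
        (hN y hy)
      rwa [Nat.add_sub_cancel] at this
    apply hmx
    rw [key _ (isTwo_mul h.hR hx2 (h.N₁R hx) hm), key _ hx2, inv_one, mul_one]
    exact Subgroup.one_mem _
  · obtain ⟨q, i1, W, i2, i3, i4, σ, ι, b, w⟩ := H557.PartW.exists_WD h1 hab ρ hρ hN
    exact contra_nonabelian hIH hG h w

/-- Theorem E for irreducible faithful representations, given the smaller groups -/
theorem EAt_faithful_irr {k : ℕ} (hk : 1 ≤ k)
    (hIH : ∀ j ≤ k, ∀ (Y : Type u) [Group Y] [Finite Y], IsPSolvable 2 Y → EAt.{u} j Y)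
    (G : Type u) [Group G] [Finite G] (hG : IsPSolvable 2 G)
    (hsm : ∀ (Y : Type u) [Group Y] [Finite Y], IsPSolvable 2 Y → Nat.card Y < Nat.card G →
      EAt.{u} (k + 1) Y)
    {V : Type u} [AddCommGroup V] [Module (ZMod 2) V] [Finite V] (ρ : G →* Module.End (ZMod 2) V)
    (hρ : ∀ g, ρ g = 1 → g = 1)
    (hirr : ∀ S : Submodule (ZMod 2) V, (∀ g, ∀ m ∈ S, ρ g m ∈ S) → S = ⊥ ∨ S = ⊤)
    (hN : ∀ y : G, IsTwo y → (ρ y - 1) ^ (2 ^ (k + 1) - 1) = 0) :
    ∀ g ∈ T (k + 1) (⊤ : Subgroup G), ρ g = 1 := by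
  have hF2 : Fact (Nat.Prime 2) := ⟨Nat.prime_two⟩
  by_contra hcon
  push Not at hcon
  obtain ⟨g₀, hg₀, hg₀'⟩ := hcon
  have hexp : ∀ y : G, IsTwo y → y ^ 2 ^ (k + 1) = 1 := by
    intro y hy
    apply hρ
    rw [map_pow]
    have h1 := hN y hy
    rw [H979.TwoLenA.sub_one_pow] at h1
    have h2 := mul_neg_geom_sum (ρ y) (2 ^ (k + 1))
    rw [h1, mul_zero] at h2
    exact (sub_eq_zero.1 h2.symm).symm
  refine main_contra hk hIH G hG ?_ ρ hρ hN
  constructor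
  · -- core
    intro N hn hN2
    -- fixed points of `N` on `V`
    let S : Submodule (ZMod 2) V :=
      { carrier := {v | ∀ n ∈ N, ρ n v = v}
        zero_mem' := fun n _ => map_zero _
        add_mem' := fun {a c} ha hc n hn' => by rw [map_add, ha n hn', hc n hn']
        smul_mem' := fun t v hv n hn' => by rw [map_smul, hv n hn'] }
    have hS : ∀ g, ∀ m ∈ S, ρ g m ∈ S := by
      intro g m hm n hn'
      have h1 := hm _ (hn.conj_mem n hn' g⁻¹)
      rw [inv_inv] at h1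
      have h2 : ρ n (ρ g m) = ρ g (ρ (g⁻¹ * n * g) m) := by
        rw [← Module.End.mul_apply, ← Module.End.mul_apply, ← map_mul, ← map_mul]
        congr 2
        group
      rw [h2, h1]
    rcases hirr S hS with h1 | h1
    · -- a 2-group has a nonzero fixed vector
      exfalso
      have hV : Nontrivial V := by
        by_contra hnt
        rw [not_nontrivial_iff_subsingleton] at hnt
        exact hg₀' (Subsingleton.elim _ _)
      let act : MulAction ↥N V :=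
        { smul := fun n v => ρ n v
          one_smul := fun v => by
            show ρ ((1 : ↥N) : G) v = v
            rw [Subgroup.coe_one, map_one, Module.End.one_apply]
          mul_smul := fun a c v => by
            show ρ ((a * c : ↥N) : G) v = ρ a (ρ c v)
            rw [Subgroup.coe_mul, map_mul, Module.End.mul_apply] }
      have h2 := hN2.card_modEq_card_fixedPoints V
      have h3 : 2 ∣ Nat.card V := by
        obtain ⟨v, hv⟩ := exists_ne (0 : V)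
        have h4 : addOrderOf v = 2 := by
          refine addOrderOf_eq_prime ?_ hv
          rw [two_smul]; exact zmod2_double v
        rw [← h4]
        exact addOrderOf_dvd_natCard v
      have h4 : 2 ∣ Nat.card (MulAction.fixedPoints ↥N V) :=
        (Nat.modEq_zero_iff_dvd.1 (h2.symm.trans (Nat.modEq_zero_iff_dvd.2 h3)))
      have h5 : (0 : V) ∈ MulAction.fixedPoints ↥N V := fun n => map_zero (ρ n)
      have h6 : Nat.card (MulAction.fixedPoints ↥N V) = 1 := by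
        have : Subsingleton (MulAction.fixedPoints ↥N V) := by
          refine ⟨fun a c => ?_⟩
          have key : ∀ v : MulAction.fixedPoints ↥N V, (v : V) = 0 := by
            intro v
            have h7 : (v : V) ∈ S := fun n hn' => v.2 ⟨n, hn'⟩
            rw [h1, Submodule.mem_bot] at h7
            exact h7
          exact Subtype.ext ((key a).trans (key c).symm)
        have hne : Nonempty (MulAction.fixedPoints ↥N V) := ⟨⟨0, h5⟩⟩
        exact Nat.card_eq_one_iff_unique.2 ⟨this, hne⟩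
      rw [h6] at h4
      exact absurd h4 (by decide)
    · rw [eq_bot_iff]
      intro n hn'
      rw [Subgroup.mem_bot]
      apply hρ
      ext v
      have h7 : v ∈ S := by rw [h1]; exact Submodule.mem_top
      exact h7 n hn'
  · intro hbot
    rw [hbot, Subgroup.mem_bot] at hg₀
    apply hg₀'
    rw [hg₀, map_one]
  · exact H979.TwoLenA.odd_of_EAt (k + 1) (Nat.le_add_left 1 k) G hG hexp hsm
  · intro H hH
    have hlt : Nat.card H < Nat.card G := by
      refine lt_of_le_of_ne (Subgroup.card_le_card_group H) fun he => hH ?_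
      exact Subgroup.eq_top_of_card_eq H he
    have h1 := hsm ↥H (Lib.PSolvable.IsPSolvable_of_injective 2 hG H.subtype H.subtype_injective) hlt
      V (ρ.comp H.subtype) (fun y hy => hN y (hy.map H.subtype))
    rw [← T_subtype, eq_bot_iff]
    rintro _ ⟨y, hy, rfl⟩
    rw [Subgroup.mem_bot]
    exact hρ _ (h1 y hy)

/-- reduction to faithful representations -/
theorem EAt_irr {k : ℕ} (hk : 1 ≤ k)
    (hIH : ∀ j ≤ k, ∀ (Y : Type u) [Group Y] [Finite Y], IsPSolvable 2 Y → EAt.{u} j Y)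
    (G : Type u) [Group G] [Finite G] (hG : IsPSolvable 2 G)
    (hsm : ∀ (Y : Type u) [Group Y] [Finite Y], IsPSolvable 2 Y → Nat.card Y < Nat.card G →
      EAt.{u} (k + 1) Y)
    {V : Type u} [AddCommGroup V] [Module (ZMod 2) V] [Finite V] (ρ : G →* Module.End (ZMod 2) V)
    (hirr : ∀ S : Submodule (ZMod 2) V, (∀ g, ∀ m ∈ S, ρ g m ∈ S) → S = ⊥ ∨ S = ⊤)
    (hN : ∀ y : G, IsTwo y → (ρ y - 1) ^ (2 ^ (k + 1) - 1) = 0) :
    ∀ g ∈ T (k + 1) (⊤ : Subgroup G), ρ g = 1 := by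
  have hF2 : Fact (Nat.Prime 2) := ⟨Nat.prime_two⟩
  by_cases hker : ρ.ker = ⊥
  · refine EAt_faithful_irr hk hIH G hG hsm ρ (fun g hg => ?_) hirr hN
    have : g ∈ ρ.ker := hg
    rw [hker] at this
    exact Subgroup.mem_bot.1 this
  let f : G →* G ⧸ ρ.ker := QuotientGroup.mk' ρ.ker
  have hfs : Function.Surjective f := QuotientGroup.mk'_surjective _
  let ρ' : G ⧸ ρ.ker →* Module.End (ZMod 2) V := QuotientGroup.lift ρ.ker ρ (fun g hg => hg)
  have hρ' : ∀ g, ρ' (f g) = ρ g := fun g => rfl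
  have hlt : Nat.card (G ⧸ ρ.ker) < Nat.card G := by
    have h1 : Nat.card G = Nat.card (G ⧸ ρ.ker) * Nat.card ρ.ker :=
      Subgroup.card_eq_card_quotient_mul_card_subgroup _
    have h2 : 1 < Nat.card ρ.ker := by
      have h3 : Nat.card ρ.ker ≠ 1 := fun h4 => hker (Subgroup.eq_bot_of_card_eq _ h4)
      have h4 : 0 < Nat.card ρ.ker := Nat.card_pos
      omega
    have h3 : 0 < Nat.card (G ⧸ ρ.ker) := Nat.card_pos
    rw [h1]
    exact lt_mul_of_one_lt_right h3 h2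
  have h1 := hsm (G ⧸ ρ.ker) (Lib.PSolvable.IsPSolvable_of_surjective 2 hG f hfs) hlt V ρ' (by
    intro y hy
    obtain ⟨g, rfl⟩ := hfs y
    obtain ⟨n, hn, hgn⟩ := exists_two_lift f g hy
    rw [← hgn, hρ']
    exact hN _ hn)
  intro g hg
  rw [← hρ']
  apply h1
  rw [← T_map_top f hfs]
  exact ⟨g, hg, rfl⟩

/-- reduction to irreducible representations -/
theorem EAt_of_irr {e : ℕ} (he : 1 ≤ e) (G : Type u) [Group G] [Finite G]
    (hirr : ∀ (V : Type u) [AddCommGroup V] [Module (ZMod 2) V] [Finite V]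
      (ρ : G →* Module.End (ZMod 2) V),
      (∀ S : Submodule (ZMod 2) V, (∀ g, ∀ m ∈ S, ρ g m ∈ S) → S = ⊥ ∨ S = ⊤) →
      (∀ y : G, IsTwo y → (ρ y - 1) ^ (2 ^ e - 1) = 0) → ∀ g ∈ T e (⊤ : Subgroup G), ρ g = 1) :
    EAt.{u} e G := by
  suffices H : ∀ n : ℕ, ∀ (V : Type u) [AddCommGroup V] [Module (ZMod 2) V] [Finite V]
      (ρ : G →* Module.End (ZMod 2) V), Nat.card V ≤ n →
      (∀ y : G, IsTwo y → (ρ y - 1) ^ (2 ^ e - 1) = 0) → ∀ g ∈ T e (⊤ : Subgroup G), ρ g = 1 by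
    intro V _ _ _ ρ hN
    exact H (Nat.card V) V ρ le_rfl hN
  intro n
  induction n with
  | zero =>
    intro V _ _ _ ρ hV
    have : 0 < Nat.card V := Nat.card_pos
    omega
  | succ n ih =>
    intro V _ _ _ ρ hV hN
    by_cases hI : ∀ S : Submodule (ZMod 2) V, (∀ g, ∀ m ∈ S, ρ g m ∈ S) → S = ⊥ ∨ S = ⊤
    · exact hirr V ρ hI hN
    push Not at hI
    obtain ⟨S, hS, hS1, hS2⟩ := hI
    -- restriction and quotient
    let ρS : G →* Module.End (ZMod 2) S :=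
      { toFun := fun g => (ρ g).restrict (hS g)
        map_one' := by ext m; simp
        map_mul' := fun a c => by ext m; simp }
    have hρS : ∀ g (m : S), ((ρS g m : S) : V) = ρ g m := fun g m => rfl
    obtain ⟨ρQ, hρQ⟩ := exists_quot_rep ρ S hS
    have hcS : Nat.card S ≤ n := by
      have : Nat.card S < Nat.card V := by
        refine lt_of_le_of_ne (Nat.card_le_card_of_injective _ S.subtype_injective) fun he' => hS2 ?_
        have h1 : Function.Bijective S.subtype :=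
          (Nat.bijective_iff_injective_and_card _).2 ⟨S.subtype_injective, he'⟩
        rw [eq_top_iff]
        intro v _
        obtain ⟨s, rfl⟩ := h1.2 v
        exact s.2
      omega
    have hQfin : Finite (V ⧸ S) := Finite.of_surjective _ S.mkQ_surjective
    have hcQ : Nat.card (V ⧸ S) ≤ n := by
      have h1 : Nat.card V = Nat.card S * Nat.card (V ⧸ S) := Submodule.card_eq_card_quotient_mul_card S
      have h2 : 1 < Nat.card S := by
        have : Nontrivial S := (Submodule.nontrivial_iff_ne_bot).2 hS1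
        exact Finite.one_lt_card
      have h3 : 0 < Nat.card (V ⧸ S) := Nat.card_pos
      have h4 : Nat.card (V ⧸ S) < Nat.card V := by
        rw [h1]; exact lt_mul_of_one_lt_left h3 h2
      omega
    have hNS : ∀ y : G, IsTwo y → (ρS y - 1) ^ (2 ^ e - 1) = 0 := by
      intro y hy
      have key : ∀ j : ℕ, ∀ m : S, (((ρS y - 1) ^ j) m : V) = ((ρ y - 1) ^ j) (m : V) := by
        intro j
        induction j with
        | zero => intro m; rfl
        | succ j ihj =>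
          intro m
          rw [pow_succ, pow_succ, Module.End.mul_apply, Module.End.mul_apply, ihj]
          rfl
      ext m
      rw [key, hN y hy]
      rfl
    have hNQ : ∀ y : G, IsTwo y → (ρQ y - 1) ^ (2 ^ e - 1) = 0 := by
      intro y hy
      have key : ∀ j : ℕ, ∀ m : V, ((ρQ y - 1) ^ j) (S.mkQ m) = S.mkQ (((ρ y - 1) ^ j) m) := by
        intro j
        induction j with
        | zero => intro m; rfl
        | succ j ihj =>
          intro m
          rw [pow_succ, pow_succ, Module.End.mul_apply, Module.End.mul_apply, ← ihj]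
          congr 1
          rw [LinearMap.sub_apply, LinearMap.sub_apply, Module.End.one_apply, Module.End.one_apply,
            map_sub, hρQ]
      apply LinearMap.ext
      intro v
      obtain ⟨m, rfl⟩ := S.mkQ_surjective v
      rw [key, hN y hy, LinearMap.zero_apply, map_zero, LinearMap.zero_apply]
    have h1 := ih S ρS hcS hNS
    have h2 := ih (V ⧸ S) ρQ hcQ hNQ
    -- elements of odd order of `T e ⊤` act trivially
    obtain ⟨j, rfl⟩ : ∃ j, e = j + 1 := ⟨e - 1, by omega⟩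
    have hle : T (j + 1) (⊤ : Subgroup G) ≤ ρ.ker := by
      rw [← oddGen_T_succ]
      refine (Subgroup.closure_le _).2 ?_
      rintro g ⟨hg, hgo⟩
      show ρ g = 1
      have h3 : ∀ v, ρ g v - v ∈ S := by
        intro v
        have h4 := h2 g hg
        have h5 : ρQ g (S.mkQ v) = S.mkQ v := by rw [h4, Module.End.one_apply]
        rw [hρQ, ← sub_eq_zero, ← map_sub, Submodule.mkQ_apply, Submodule.Quotient.mk_eq_zero] at h5
        exact h5
      have h4 : ∀ v ∈ S, ρ g v = v := by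
        intro v hv
        have h5 := congrArg (fun F : Module.End (ZMod 2) S => ((F ⟨v, hv⟩ : S) : V)) (h1 g hg)
        exact h5
      have h5 : ρ g * ρ g = 1 := by
        ext v
        rw [Module.End.mul_apply, Module.End.one_apply]
        have h6 := h4 _ (h3 v)
        rw [map_sub, sub_eq_iff_eq_add] at h6
        rw [h6]
        have h7 := zmod2_double (ρ g v)
        have h8 : ρ g v - v + ρ g v = (ρ g v + ρ g v) - v := by abel
        rw [h8, h7, zero_sub, zmod2_neg]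
      obtain ⟨n', hn'⟩ := hgo
      have h6 : ρ g ^ orderOf g = 1 := by rw [← map_pow, pow_orderOf_eq_one, map_one]
      rw [hn', pow_succ, pow_mul, pow_two, h5, one_pow, one_mul] at h6
      exact h6
    intro g hg
    exact hle hg

/-- **Theorem E** -/
theorem EAt_all : ∀ e : ℕ, ∀ (X : Type u) [Group X] [Finite X], IsPSolvable 2 X → EAt.{u} e X := by
  intro e
  induction e using Nat.strong_induction_on with
  | _ e ihe =>
    rcases e with _ | _ | k
    · -- e = 0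
      intro X _ _ _ M _ _ _ ρ hN g _
      have h1 := hN 1 isTwo_one
      rw [pow_zero, Nat.sub_self, pow_zero] at h1
      have h2 : ∀ F : Module.End (ZMod 2) M, F = 0 := fun F => by rw [← mul_one F, h1, mul_zero]
      rw [h2 (ρ g), h2 1]
    · -- e = 1
      intro X _ _ _ M _ _ _ ρ hN g hg
      have h1 : T 1 (⊤ : Subgroup X) ≤ ρ.ker := by
        refine (oddGen_le _).trans ?_
        refine (Subgroup.closure_le _).2 ?_
        rintro y ⟨_, hy⟩
        have h2 := hN y hy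
        have h3 : (2 : ℕ) ^ (0 + 1) - 1 = 1 := by norm_num
        rw [h3, pow_one, sub_eq_zero] at h2
        exact h2
      exact h1 hg
    · -- e = k + 2
      have hIH : ∀ j ≤ k + 1, ∀ (Y : Type u) [Group Y] [Finite Y], IsPSolvable 2 Y → EAt.{u} j Y :=
        fun j hj => ihe j (by omega)
      suffices H : ∀ n : ℕ, ∀ (X : Type u) [Group X] [Finite X], IsPSolvable 2 X → Nat.card X ≤ n →
          EAt.{u} (k + 1 + 1) X by
        intro X _ _ hX
        exact H (Nat.card X) X hX le_rfl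
      intro n
      induction n with
      | zero =>
        intro X _ _ _ hc
        have : 0 < Nat.card X := Nat.card_pos
        omega
      | succ n ihn =>
        intro X _ _ hX hc
        refine EAt_of_irr (Nat.le_add_left 1 (k + 1)) X ?_
        intro V _ _ _ ρ hirr hN
        refine EAt_irr (Nat.le_add_left 1 k) hIH X hX ?_ ρ hirr hN
        intro Y _ _ hY hlt
        exact ihn Y hY (by omega)

end Cfsg.Agent.H552
end

-- part: S4258
section
set_option autoImplicit false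
open Cfsg

namespace Cfsg.Agent.S4258

/-- Let G be a finite 2-soluble group whose Sylow 2-subgroups have exponent dividing 2^e. Then the 2-length of G is at most e. -/
theorem result {G : Type*} [Group G] [Finite G] (hG : Cfsg.IsPSolvable 2 G) (e : ℕ)
    (hexp : ∀ (P : Sylow 2 G), ∀ x ∈ (P : Subgroup G), x ^ 2 ^ e = 1) : Cfsg.PLengthLE 2 e G := by
  have hF2 : Fact (Nat.Prime 2) := ⟨Nat.prime_two⟩
  have hexp' : ∀ x : G, H552.IsTwo x → x ^ 2 ^ e = 1 := by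
    intro x hx
    have h1 : IsPGroup 2 (Subgroup.zpowers x) := by
      obtain ⟨k, hk⟩ := hx
      rintro ⟨_, n, rfl⟩
      refine ⟨k, Subtype.ext ?_⟩
      show (x ^ n) ^ 2 ^ k = 1
      rw [← zpow_natCast, ← zpow_mul, mul_comm, zpow_mul, zpow_natCast, hk, one_zpow]
    obtain ⟨P, hP⟩ := h1.exists_le_sylow
    exact hexp P x (hP (Subgroup.mem_zpowers x))
  apply H979.TwoLenA.pLengthLE_of_odd
  rcases Nat.eq_zero_or_pos e with rfl | he
  · refine H979.TwoLenA.odd_card_of_odd_orderOf fun x => ?_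
    rw [← Subgroup.orderOf_coe]
    obtain ⟨m, n, hm, hn, hx⟩ := H552.exists_odd_mul_two (x : G)
    have h1 := hexp' _ hn
    rw [pow_zero, pow_one] at h1
    rw [h1, mul_one] at hx
    rw [hx]
    exact hm
  · exact H979.TwoLenA.odd_of_EAt e he G hG hexp' fun X _ _ hX _ => H552.EAt_all e X hX

end Cfsg.Agent.S4258
end
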