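import Mathlib
import Cfsg.Agent.Transfer.OmegaFaithful
import Cfsg.Statements.S3803
import Cfsg.Agent.S0029
set_option linter.all false

-- part: H454/OmegaFour
section
/-!
# Coprime automorphisms of 2-groups fixing the elements of order at most 4

* `map_eq_self_of_four`: an endomorphism `f` of the finite 2-group `G` with `f^[n] = id`, `n` odd,
  which fixes every `x` with `x ^ 4 = 1` is the identity;
* `le_centralizer_of_four`: a group `A` of odd order normalizing the 2-group `P` and centralizing
  every `x ∈ P` with `x ^ 4 = 1` centralizes `P`.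
-/

open Subgroup
open scoped commutatorElement

namespace Cfsg.Agent.H454.OmegaFour

universe u

open Cfsg.Agent.Transfer.OmegaFaithful in
/-- An endomorphism `f` of the finite `2`-group `G` with `f^[n] = id`, `n` odd, which fixes every
element of order dividing `4`, is the identity. -/
theorem map_eq_self_of_four {n : ℕ}
    (hn : n.Coprime 2) (G : Type u) [Group G] [Finite G] (hG : IsPGroup 2 G) (f : G →* G)
    (hf : ∀ x, f^[n] x = x) (h : ∀ x, x ^ 4 = 1 → f x = x) (x : G) : f x = x := by
  have hpf : Fact (Nat.Prime 2) := ⟨Nat.prime_two⟩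
  -- strong induction on the order
  suffices H : ∀ (N : ℕ) (G : Type u) [Group G] [Finite G] (_ : Nat.card G ≤ N)
      (_ : IsPGroup 2 G) (f : G →* G) (_ : ∀ x, f^[n] x = x) (_ : ∀ x, x ^ 4 = 1 → f x = x)
      (x : G), f x = x from H _ G le_rfl hG f hf h x
  intro N
  induction N with
  | zero =>
    intro G _ _ hN
    exact absurd (Nat.card_pos (α := G)) (by omega)
  | succ N ih =>
    intro G _ _ hN hG f hf h
    -- `f` is the identity on proper invariant subgroups
    have key : ∀ H : Subgroup G, (∀ x ∈ H, f x ∈ H) → H ≠ ⊤ → ∀ x ∈ H, f x = x := by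
      intro H hH hne x hx
      obtain ⟨g, hg, hgn⟩ := restrict_data f H hH
      have hlt : Nat.card H < Nat.card G := by
        refine lt_of_le_of_ne (Subgroup.card_le_card_group H) ?_
        intro he
        exact hne (Subgroup.eq_top_of_card_eq H he)
      have := ih H (by omega) (hG.to_subgroup H) g
        (fun x => Subtype.ext (by rw [hgn, hf]))
        (fun x hx => Subtype.ext (by
          rw [hg]; exact h x (by rw [← Subgroup.coe_pow, hx]; rfl)))
        ⟨x, hx⟩
      rw [← hg ⟨x, hx⟩, this]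
    set K : Subgroup G := Subgroup.closure {c | ∃ x, x⁻¹ * f x = c} with hK
    have hKmem : ∀ x, x⁻¹ * f x ∈ K := fun x => Subgroup.subset_closure ⟨x, rfl⟩
    have hKinv : ∀ x ∈ K, f x ∈ K := by
      intro x hx
      have h1 := hKmem x
      have h2 := K.mul_mem hx h1
      rwa [mul_inv_cancel_left] at h2
    by_cases hKtop : K = ⊤
    swap
    · intro x
      exact map_eq_self_of_fixed hG hn f x (hf x) (key K hKinv hKtop _ (hKmem x))
    -- so `K = ⊤`
    by_cases htriv : Subsingleton G
    · intro x; exact Subsingleton.elim _ _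
    rw [not_subsingleton_iff_nontrivial] at htriv
    have := hG.isNilpotent
    -- the Frattini subgroup is fixed pointwise
    have hΦtop : frattini G ≠ ⊤ := by
      intro htop
      obtain ⟨M, hM, -⟩ := (eq_top_or_exists_le_coatom (⊥ : Subgroup G)).resolve_left bot_ne_top
      exact hM.1 (top_le_iff.mp (htop ▸ frattini_le_coatom hM))
    have hinj : Function.Injective f := by
      rcases Nat.eq_zero_or_pos n with h0 | h0
      · subst h0
        exact absurd (Nat.coprime_zero_left 2 |>.mp hn) hpf.out.one_lt.ne'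
      · intro x y hxy
        rw [← hf x, ← hf y]
        obtain ⟨m, rfl⟩ : ∃ m, n = m + 1 := ⟨n - 1, by omega⟩
        rw [Function.iterate_succ_apply, Function.iterate_succ_apply, hxy]
    have hsurj : Function.Surjective f := Finite.surjective_of_injective hinj
    have hΦinv : ∀ x ∈ frattini G, f x ∈ frattini G := by
      intro x hx
      exact frattini_le_comap_frattini_of_surjective hsurj hx
    have hΦfix : ∀ x ∈ frattini G, f x = x := key _ hΦinv hΦtop
    have : (frattini G).Normal := inferInstance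
    -- the Frattini subgroup is central
    have hcent : ∀ z ∈ frattini G, ∀ x : G, Commute x z := by
      intro z hz x
      have hx : x ∈ K := by rw [hKtop]; trivial
      rw [hK] at hx
      induction hx using Subgroup.closure_induction with
      | mem c hc =>
        obtain ⟨y, rfl⟩ := hc
        exact commute_of_fixed f (frattini G) hΦfix y z hz
      | one => exact Commute.one_left z
      | mul a b _ _ ha hb => exact ha.mul_left hb
      | inv a _ ha => exact ha.inv_left
    have hcomm : ∀ x y : G, ⁅x, y⁆ ∈ frattini G := by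
      intro x y
      exact Cfsg.Agent.Lib.FrattiniPGroup.commutator_le_frattini hG
        (Subgroup.commutator_mem_commutator (Subgroup.mem_top x) (Subgroup.mem_top y))
    have hpow : ∀ x : G, x ^ 2 ∈ frattini G :=
      fun x => Cfsg.Agent.Lib.FrattiniPGroup.pow_mem_frattini hG x
    -- commutators have order dividing `2`
    have hcp : ∀ x y : G, ⁅y, x⁆ ^ 2 = 1 := by
      intro x y
      have h1 : y ^ 2 * x = x * y ^ 2 * ⁅y, x⁆ ^ 2 :=
        Cfsg.Agent.Transfer.ClassTwo.pow_mul_eq (hcent _ (hcomm y x) x) (hcent _ (hcomm y x) y) 2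
      rw [(hcent _ (hpow y) x).eq] at h1
      exact (mul_eq_left.mp h1.symm)
    have hfix : ∀ x : G, f (x⁻¹ * f x) = x⁻¹ * f x := by
      intro x
      apply h
      have h2 : (x⁻¹ * f x) ^ 2 = x⁻¹ ^ 2 * f x ^ 2 * ⁅f x, x⁻¹⁆ ^ (Nat.choose 2 2) :=
        Cfsg.Agent.Transfer.ClassTwo.mul_pow_eq (hcent _ (hcomm _ _) _) (hcent _ (hcomm _ _) _) 2
      rw [← map_pow, hΦfix _ (hpow x), inv_pow, inv_mul_cancel, one_mul, Nat.choose_self,
        pow_one] at h2
      rw [show (4 : ℕ) = 2 * 2 from rfl, pow_mul, h2, hcp]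
    intro x
    exact map_eq_self_of_fixed hG hn f x (hf x) (hfix x)

/-- A group of odd order normalizing a `2`-group `P` and centralizing all elements of `P` of order
at most 4 centralizes `P`. -/
theorem le_centralizer_of_four {X : Type u} [Group X] [Finite X] (P A : Subgroup X)
    (hP : IsPGroup 2 P) (hA : Odd (Nat.card A)) (hAP : A ≤ normalizer (P : Set X))
    (h : ∀ x ∈ P, x ^ 4 = 1 → ∀ a ∈ A, a * x = x * a) : A ≤ centralizer (P : Set X) := by
  intro a ha
  rw [mem_centralizer_iff]
  intro y hy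
  let f : P →* P := ((MulAut.conj a).toMonoidHom.comp P.subtype).codRestrict P (fun x => by
    have := (mem_normalizer_iff.mp (hAP ha) x).mp x.2
    simpa using this)
  have hfa : ∀ x : P, ((f x : P) : X) = a * x * a⁻¹ := fun x => rfl
  have hit : ∀ (k : ℕ) (x : P), ((f^[k] x : P) : X) = a ^ k * x * (a ^ k)⁻¹ := by
    intro k
    induction k with
    | zero => intro x; simp
    | succ k ih =>
      intro x
      rw [Function.iterate_succ_apply, ih, hfa, pow_succ]
      group
  have hodd : (orderOf a).Coprime 2 := by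
    rw [Nat.coprime_comm, Nat.coprime_two_left]
    have : orderOf a ∣ Nat.card A := by
      rw [← Subgroup.orderOf_mk a ha]
      exact orderOf_dvd_natCard _
    exact Odd.of_dvd_nat hA this
  have := map_eq_self_of_four hodd P hP f
    (fun x => Subtype.ext (by rw [hit, pow_orderOf_eq_one]; simp))
    (fun x hx => Subtype.ext (by
      rw [hfa]
      have h1 := h x x.2 (by rw [← Subgroup.coe_pow, hx]; rfl) a ha
      rw [h1]; group)) ⟨y, hy⟩
  have h2 := congrArg (Subtype.val) this
  rw [hfa] at h2
  simp only at h2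
  rw [mul_inv_eq_iff_eq_mul] at h2
  exact h2.symm

end Cfsg.Agent.H454.OmegaFour
end

-- part: S3803
section
set_option autoImplicit false
open Cfsg

namespace Cfsg.Agent.S3803

/-- A group of odd order normalizing a cyclic 2-group centralizes it. -/
theorem comm_of_cyclic {X : Type*} [Group X] [Finite X] (E A : Subgroup X) (hE : IsCyclic E)
    {n : ℕ} (hc : Nat.card E = 2 ^ n) (hA : Odd (Nat.card A))
    (hAE : A ≤ Subgroup.normalizer (E : Set X)) : ∀ a ∈ A, ∀ x ∈ E, a * x = x * a := by
  intro a ha x hx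
  let φ : MulAut E := Subgroup.normalizerMonoidHom E ⟨a, hAE ha⟩
  have h1 : φ ^ (Nat.card A) = 1 := by
    have h0 : (⟨a, hAE ha⟩ : Subgroup.normalizer (E : Set X)) ^ (Nat.card A) = 1 := by
      have h00 : (⟨a, ha⟩ : A) ^ (Nat.card A) = 1 := pow_card_eq_one'
      apply Subtype.ext
      have h01 : a ^ (Nat.card A) = 1 := congrArg (Subtype.val) h00
      exact h01
    change (Subgroup.normalizerMonoidHom E ⟨a, hAE ha⟩) ^ (Nat.card A) = 1
    rw [← map_pow, h0, map_one]
  have h2 : φ ^ (Nat.card (MulAut E)) = 1 := pow_card_eq_one'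
  have h3 : (Nat.card A).Coprime (Nat.card (MulAut E)) := by
    rw [IsCyclic.card_mulAut, hc]
    rcases Nat.eq_zero_or_pos n with h0 | h0
    · subst h0; simp
    · rw [Nat.totient_prime_pow Nat.prime_two h0]
      simp only [Nat.add_one_sub_one, mul_one]
      apply Nat.Coprime.pow_right
      exact (Nat.coprime_two_right).mpr hA
  have h4 : φ = 1 := by
    have := pow_gcd_eq_one.mpr ⟨h1, h2⟩
    rwa [h3.gcd_eq_one, pow_one] at this
  have h5 : ((φ ⟨x, hx⟩ : E) : X) = a * x * a⁻¹ := rfl
  rw [h4] at h5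
  change x = a * x * a⁻¹ at h5
  rw [eq_mul_inv_iff_mul_eq] at h5
  exact h5.symm

/-- Intermediate orders. -/
theorem exists_between {X : Type*} [Group X] [Finite X] (P H : Subgroup X) {m n k : ℕ}
    (hP : Nat.card P = 2 ^ m) (hHP : H ≤ P) (hH : Nat.card H = 2 ^ n) (hnk : n ≤ k) (hkm : k ≤ m) :
    ∃ K : Subgroup X, H ≤ K ∧ K ≤ P ∧ Nat.card K = 2 ^ k := by
  have : Fact (Nat.Prime 2) := ⟨Nat.prime_two⟩
  have h1 : Nat.card (H.subgroupOf P) = 2 ^ n := by
    rw [← hH]
    exact Nat.card_congr (Subgroup.subgroupOfEquivOfLe hHP).toEquiv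
  obtain ⟨K, hK, hHK⟩ := Sylow.exists_subgroup_card_pow_prime_le 2
    (show 2 ^ k ∣ Nat.card P by rw [hP]; exact pow_dvd_pow 2 hkm) (H.subgroupOf P) h1 hnk
  refine ⟨K.map P.subtype, ?_, Subgroup.map_subtype_le K, ?_⟩
  · intro x hx
    exact ⟨⟨x, hHP hx⟩, hHK hx, rfl⟩
  · rw [← hK]
    exact Nat.card_congr (K.equivMapOfInjective P.subtype P.subtype_injective).symm.toEquiv

/-- Let `F` be noncyclic of order `2 ^ (d + 1)` such that all subgroups of order `2 ^ d` are
normalized by `A`.  Then `A` centralizes `F`. -/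
theorem centralizes_of_noncyclic {X : Type*} [Group X] [Finite X] (F A : Subgroup X) {d : ℕ}
    (hF : Nat.card F = 2 ^ (d + 1)) (hnc : ¬ IsCyclic F) (hA : Odd (Nat.card A))
    (hinv : ∀ E : Subgroup X, E ≤ F → Nat.card E = 2 ^ d → A ≤ Subgroup.normalizer (E : Set X)) :
    A ≤ Subgroup.centralizer (F : Set X) := by
  have hF2 : IsPGroup 2 F := IsPGroup.of_card hF
  have : Fact (Nat.Prime 2) := ⟨Nat.prime_two⟩
  have hmax : ∀ M : Subgroup F, IsCoatom M → Nat.card (M.map F.subtype) = 2 ^ d ∧ M.index = 2 := by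
    intro M hM
    have hi : M.index = 2 := Lib.FrattiniPGroup.index_of_coatom hF2 hM
    have hc := M.card_mul_index
    rw [hF, hi, pow_succ] at hc
    have hc' : Nat.card M = 2 ^ d := by omega
    refine ⟨?_, hi⟩
    rw [← hc']
    exact Nat.card_congr (M.equivMapOfInjective F.subtype F.subtype_injective).symm.toEquiv
  have hAF : A ≤ Subgroup.normalizer (F : Set X) := by
    have key : ∀ a ∈ A, ∀ x ∈ F, a * x * a⁻¹ ∈ F := by
      intro a ha x hx
      have hne : Subgroup.zpowers (⟨x, hx⟩ : F) ≠ ⊤ := by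
        intro h
        exact hnc ⟨⟨⟨x, hx⟩, fun y => by
          have : y ∈ Subgroup.zpowers (⟨x, hx⟩ : F) := by rw [h]; trivial
          exact this⟩⟩
      obtain ⟨M, hM, hxM⟩ := (eq_top_or_exists_le_coatom _).resolve_left hne
      have h1 := hinv (M.map F.subtype) (Subgroup.map_subtype_le M) (hmax M hM).1 ha
      rw [Subgroup.mem_normalizer_iff] at h1
      have h2 : x ∈ M.map F.subtype := ⟨⟨x, hx⟩, hxM (Subgroup.mem_zpowers _), rfl⟩
      exact Subgroup.map_subtype_le M ((h1 x).mp h2)
    intro a ha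
    rw [Subgroup.mem_normalizer_iff]
    intro x
    refine ⟨key a ha x, fun h => ?_⟩
    have := key a⁻¹ (A.inv_mem ha) _ h
    simpa [mul_assoc] using this
  refine S0029.result A F hAF ?_ ?_
  · have h1 : Nat.card (frattini F) ∣ 2 ^ (d + 1) := by
      rw [← hF]; exact Subgroup.card_subgroup_dvd_card _
    exact Nat.Coprime.coprime_dvd_right h1 (Nat.Coprime.pow_right _ (Nat.coprime_two_right.mpr hA))
  · intro a ha k hk
    have hk' : a * k * a⁻¹ ∈ F := (Subgroup.mem_normalizer_iff.mp (hAF ha) k).mp hk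
    refine ⟨⟨a * k * a⁻¹ * k⁻¹, F.mul_mem hk' (F.inv_mem hk)⟩, ?_, rfl⟩
    change _ ∈ frattini F
    rw [frattini, Order.radical, Subgroup.mem_iInf]
    intro M
    rw [Subgroup.mem_iInf]
    intro hM
    have hM' : IsCoatom M := hM
    obtain ⟨h1, h2⟩ := hmax M hM'
    have h3 := hinv (M.map F.subtype) (Subgroup.map_subtype_le M) h1 ha
    rw [Subgroup.mem_normalizer_iff] at h3
    have h4 : ((⟨a * k * a⁻¹, hk'⟩ : F) ∈ M ↔ (⟨k, hk⟩ : F) ∈ M) := by
      have h5 := h3 k
      constructor
      · intro h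
        have : a * k * a⁻¹ ∈ M.map F.subtype := ⟨_, h, rfl⟩
        obtain ⟨y, hy, hyk⟩ := h5.mpr this
        have : y = ⟨k, hk⟩ := Subtype.ext hyk
        rwa [← this]
      · intro h
        have : k ∈ M.map F.subtype := ⟨_, h, rfl⟩
        obtain ⟨y, hy, hyk⟩ := h5.mp this
        have : y = ⟨a * k * a⁻¹, hk'⟩ := Subtype.ext hyk
        rwa [← this]
    have h5 : (⟨a * k * a⁻¹ * k⁻¹, F.mul_mem hk' (F.inv_mem hk)⟩ : F)
        = (⟨a * k * a⁻¹, hk'⟩ : F) * (⟨k, hk⟩ : F)⁻¹ := rfl
    rw [h5, Subgroup.mul_mem_iff_of_index_two h2, h4, inv_mem_iff]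

/-- Let P be a 2-subgroup and A a subgroup of odd order of a finite group, with A normalizing P. Let D ≤ P with 1 < |D| < |P|. If every subgroup of P of order |D|, and also every subgroup of P of order 4 in case |D| = 2, is normalized by A, then A centralizes P. -/
theorem result {X : Type*} [Group X] [Finite X] (P A D : Subgroup X) (hP : IsPGroup 2 P) (hA : Odd (Nat.card A))
    (hAP : A ≤ Subgroup.normalizer (P : Set X)) (hDP : D ≤ P) (hD1 : 1 < Nat.card D) (hD2 : Nat.card D < Nat.card P)
    (hinv : ∀ E : Subgroup X, E ≤ P → (Nat.card E = Nat.card D ∨ (Nat.card D = 2 ∧ Nat.card E = 4)) → A ≤ Subgroup.normalizer (E : Set X)) :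
    A ≤ Subgroup.centralizer (P : Set X) := by
  have : Fact (Nat.Prime 2) := ⟨Nat.prime_two⟩
  obtain ⟨m, hm⟩ := IsPGroup.iff_card.mp hP
  obtain ⟨d, hd⟩ := IsPGroup.iff_card.mp (hP.to_le hDP)
  have hd0 : d ≠ 0 := by rintro rfl; rw [hd] at hD1; simp at hD1
  have hdm : d < m := by
    rw [hd, hm] at hD2
    exact (Nat.pow_lt_pow_iff_right (by norm_num)).mp hD2
  refine H454.OmegaFour.le_centralizer_of_four P A hP hA hAP ?_
  intro x hx hx4 a ha
  have hzP : Subgroup.zpowers x ≤ P := by rwa [Subgroup.zpowers_le]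
  obtain ⟨j, hj2, hj⟩ : ∃ j ≤ 2, orderOf x = 2 ^ j := by
    have : orderOf x ∣ 2 ^ 2 := orderOf_dvd_of_pow_eq_one (by simpa using hx4)
    exact (Nat.dvd_prime_pow Nat.prime_two).mp this
  have hcz : Nat.card (Subgroup.zpowers x) = 2 ^ j := by rw [Nat.card_zpowers, hj]
  by_cases hd1 : d = 1
  · -- all subgroups of order 2 and 4
    subst hd1
    have hn : A ≤ Subgroup.normalizer ((Subgroup.zpowers x : Subgroup X) : Set X) := by
      rcases Nat.eq_zero_or_pos j with h0 | h0
      · have h1 : x = 1 := by rw [h0, pow_zero, orderOf_eq_one_iff] at hj; exact hj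
        subst h1
        rw [Subgroup.zpowers_one_eq_bot]
        have : (⊥ : Subgroup X).Normal := inferInstance
        rw [Subgroup.normalizer_eq_top]
        exact le_top
      · apply hinv _ hzP
        rw [hcz, hd]
        have : j = 1 ∨ j = 2 := by omega
        rcases this with rfl | rfl
        · left; rfl
        · right; norm_num
    exact comm_of_cyclic (Subgroup.zpowers x) A inferInstance hcz hA hn a ha x
      (Subgroup.mem_zpowers x)
  · have hd2 : 2 ≤ d := by omega
    obtain ⟨F, hxF, hFP, hF⟩ := exists_between P (Subgroup.zpowers x) hm hzP hcz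
      (show j ≤ d + 1 by omega) (by omega)
    have hinvF : ∀ E : Subgroup X, E ≤ F → Nat.card E = 2 ^ d →
        A ≤ Subgroup.normalizer (E : Set X) :=
      fun E hE hcE => hinv E (hE.trans hFP) (Or.inl (by rw [hcE, hd]))
    by_cases hc : IsCyclic F
    · obtain ⟨E, hxE, hEF, hE⟩ := exists_between F (Subgroup.zpowers x) hF hxF hcz
        (show j ≤ d by omega) (by omega)
      have hcE : IsCyclic E := by
        exact isCyclic_of_injective (Subgroup.inclusion hEF) (Subgroup.inclusion_injective hEF)
      exact comm_of_cyclic E A hcE hE hA (hinvF E hEF hE) a ha x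
        (hxE (Subgroup.mem_zpowers x))
    · have := centralizes_of_noncyclic F A hF hc hA hinvF ha
      rw [Subgroup.mem_centralizer_iff] at this
      exact (this x (hxF (Subgroup.mem_zpowers x))).symm

end Cfsg.Agent.S3803
end
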