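import Mathlib
import Cfsg.Prelude.Def_Characters
import Cfsg.Agent.Characters.Core
import Cfsg.Agent.Characters.ClassMul
import Cfsg.Agent.CharactersDeep.LinearExt
import Cfsg.Agent.J3Type.CharTools
import Cfsg.Agent.H686.CharKit
import Cfsg.Agent.S0154
import Cfsg.Prelude.Def_Transfer
import Cfsg.Agent.S0058
import Cfsg.Statements.S3805
set_option linter.all false

-- part: H454/KleinComb
section
/-!
# Integral columns of norm 3 and 9: the combinatorial core of S3805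

`core`: integral vectors `x, y, m, n` of norm 3 and `r` of norm 9 indexed by the irreducible characters,
with prescribed inner products, orthogonal to the degrees and to the values at three involutions, and
with the class algebra relations `e1, e2, e3`; then a character not orthogonal to `x` and `y` has an
involution in its kernel, or there are four characters of degree 1.
-/

set_option autoImplicit false

namespace Cfsg.Agent.H454.KleinComb

variable {ι : Type*} [Fintype ι] [DecidableEq ι]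

/-- An integral vector of norm 3. -/
theorem supp3 (f : ι → ℤ) (h : ∑ i, f i * f i = 3) :
    ∃ a b c : ι, a ≠ b ∧ a ≠ c ∧ b ≠ c ∧ (f a = 1 ∨ f a = -1) ∧ (f b = 1 ∨ f b = -1) ∧
      (f c = 1 ∨ f c = -1) ∧ ∀ i, i ≠ a → i ≠ b → i ≠ c → f i = 0 := by
  classical
  set S := Finset.univ.filter fun i => f i ≠ 0 with hS
  have h1 : ∑ i ∈ S, f i * f i = 3 := by
    rw [← h, hS, Finset.sum_filter]
    refine Finset.sum_congr rfl fun i _ => ?_
    by_cases hi : f i = 0
    · simp [hi]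
    · simp [hi]
  have h2 : ∀ i, i ∈ S → f i = 1 ∨ f i = -1 := by
    intro i hi
    have h3 : f i * f i ≤ ∑ i ∈ S, f i * f i :=
      Finset.single_le_sum (f := fun i => f i * f i) (fun j _ => mul_self_nonneg _) hi
    have h4 : f i ≠ 0 := (Finset.mem_filter.1 hi).2
    rw [h1] at h3
    have h5 : f i < 2 := by nlinarith
    have h6 : -2 < f i := by nlinarith
    omega
  have h3 : S.card = 3 := by
    have : ∑ i ∈ S, f i * f i = S.card := by
      rw [Finset.card_eq_sum_ones, Nat.cast_sum]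
      refine Finset.sum_congr rfl fun i hi => ?_
      rcases h2 i hi with h | h <;> rw [h] <;> norm_num
    rw [h1] at this
    exact_mod_cast this.symm
  obtain ⟨a, b, c, hab, hac, hbc, hS'⟩ := Finset.card_eq_three.1 h3
  refine ⟨a, b, c, hab, hac, hbc, h2 a (by rw [hS']; simp), h2 b (by rw [hS']; simp),
    h2 c (by rw [hS']; simp), fun i ha hb hc => ?_⟩
  by_contra hi
  have : i ∈ S := Finset.mem_filter.2 ⟨Finset.mem_univ _, hi⟩
  rw [hS'] at this
  simp only [Finset.mem_insert, Finset.mem_singleton] at this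
  tauto

/-- Summing over a three element support. -/
theorem sum3 {R : Type*} [CommRing R] (f g : ι → R) {a b c : ι} (hab : a ≠ b) (hac : a ≠ c)
    (hbc : b ≠ c) (h : ∀ i, i ≠ a → i ≠ b → i ≠ c → f i = 0) :
    ∑ i, f i * g i = f a * g a + f b * g b + f c * g c := by
  classical
  have h1 : ∑ i, f i * g i = ∑ i ∈ ({a, b, c} : Finset ι), f i * g i := by
    refine (Finset.sum_subset (Finset.subset_univ _) fun i _ hi => ?_).symm
    simp only [Finset.mem_insert, Finset.mem_singleton, not_or] at hi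
    rw [h i hi.1 hi.2.1 hi.2.2, zero_mul]
  rw [h1, Finset.sum_insert (by simp [hab, hac]), Finset.sum_insert (by simp [hbc]),
    Finset.sum_singleton]
  ring

/-- A norm 3 vector with a known element of the support. -/
theorem supp3' (f : ι → ℤ) (h : ∑ i, f i * f i = 3) (a : ι) (ha : f a ≠ 0) :
    ∃ b c : ι, a ≠ b ∧ a ≠ c ∧ b ≠ c ∧ (f a = 1 ∨ f a = -1) ∧ (f b = 1 ∨ f b = -1) ∧
      (f c = 1 ∨ f c = -1) ∧ ∀ i, i ≠ a → i ≠ b → i ≠ c → f i = 0 := by
  obtain ⟨a', b, c, h1, h2, h3, h4, h5, h6, h7⟩ := supp3 f h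
  have h8 : a = a' ∨ a = b ∨ a = c := by
    by_contra hc
    push Not at hc
    exact ha (h7 a hc.1 hc.2.1 hc.2.2)
  rcases h8 with rfl | rfl | rfl
  · exact ⟨b, c, h1, h2, h3, h4, h5, h6, h7⟩
  · exact ⟨a', c, h1.symm, h3, h2, h5, h4, h6, fun i a b c => h7 i b a c⟩
  · exact ⟨a', b, h2.symm, h3.symm, h1, h6, h4, h5, fun i a b c => h7 i b c a⟩

theorem tri {x y : ℤ} (hx : x = 1 ∨ x = -1) (hy : y = 0 ∨ y = 1 ∨ y = -1) :
    (y = 0 ∧ x * y = 0) ∨ (y = x ∧ x * y = 1) ∨ (y = -x ∧ x * y = -1) := by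
  rcases hx with rfl | rfl <;> rcases hy with rfl | rfl | rfl <;> simp

/-- The common element of two norm 3 vectors with product 1, orthogonal to a positive vector. -/
theorem common (x y D : ι → ℤ) (hD : ∀ i, 0 < D i) (hxx : ∑ i, x i * x i = 3)
    (hyy : ∑ i, y i * y i = 3) (hxy : ∑ i, x i * y i = 1) (hxD : ∑ i, x i * D i = 0)
    (hyD : ∑ i, y i * D i = 0) :
    ∃ p a b : ι, p ≠ a ∧ p ≠ b ∧ a ≠ b ∧ (x p = 1 ∨ x p = -1) ∧ (x a = 1 ∨ x a = -1) ∧
      (x b = 1 ∨ x b = -1) ∧ (∀ i, i ≠ p → i ≠ a → i ≠ b → x i = 0) ∧ y p = x p ∧ y a = 0 ∧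
      y b = 0 := by
  obtain ⟨a, b, c, hab, hac, hbc, ha, hb, hc, h0⟩ := supp3 x hxx
  have e1 := hxy
  rw [sum3 x y hab hac hbc h0] at e1
  have e2 := hxD
  rw [sum3 x D hab hac hbc h0] at e2
  have hy2 : ∀ i, y i = 0 ∨ y i = 1 ∨ y i = -1 := by
    intro i
    have h3 : y i * y i ≤ ∑ i, y i * y i :=
      Finset.single_le_sum (f := fun i => y i * y i) (fun j _ => mul_self_nonneg _) (Finset.mem_univ i)
    rw [hyy] at h3
    have h5 : y i < 2 := by nlinarith
    have h6 : -2 < y i := by nlinarith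
    omega
  have hDa := hD a
  have hDb := hD b
  have hDc := hD c
  have hpa : x a * D a ≠ 0 := mul_ne_zero (by omega) hDa.ne'
  have hpb : x b * D b ≠ 0 := mul_ne_zero (by omega) hDb.ne'
  have hpc : x c * D c ≠ 0 := mul_ne_zero (by omega) hDc.ne'
  -- all three nonzero is impossible
  have hno : ¬ (y a ≠ 0 ∧ y b ≠ 0 ∧ y c ≠ 0) := by
    rintro ⟨ka, kb, kc⟩
    have h4 : ∀ i, i ≠ a → i ≠ b → i ≠ c → y i = 0 := by
      intro i ia ib ic
      have h2 : ∑ j ∈ ({i, a, b, c} : Finset ι), y j * y j ≤ ∑ i, y i * y i :=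
        Finset.sum_le_sum_of_subset_of_nonneg (Finset.subset_univ _) fun i _ _ => mul_self_nonneg _
      rw [Finset.sum_insert (by simp [ia, ib, ic]), Finset.sum_insert (by simp [hab, hac]),
        Finset.sum_insert (by simp [hbc]), Finset.sum_singleton, hyy] at h2
      have k1 : 0 < y a * y a := mul_self_pos.2 ka
      have k2 : 0 < y b * y b := mul_self_pos.2 kb
      have k3 : 0 < y c * y c := mul_self_pos.2 kc
      by_contra hi
      have k4 : 0 < y i * y i := mul_self_pos.2 hi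
      omega
    have e3 := hyD
    rw [sum3 y D hab hac hbc h4] at e3
    rcases tri ha (hy2 a) with h | ⟨h1, h2⟩ | ⟨h1, h2⟩
    · exact ka h.1
    all_goals rcases tri hb (hy2 b) with h | ⟨h3, h4⟩ | ⟨h3, h4⟩
    all_goals try exact kb h.1
    all_goals rcases tri hc (hy2 c) with h | ⟨h5, h6⟩ | ⟨h5, h6⟩
    all_goals try exact kc h.1
    all_goals rw [h2, h4, h6] at e1
    all_goals first
      | omega
      | (rw [h1, h3, h5] at e3
         first
           | exact hpa (by linarith)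
           | exact hpb (by linarith)
           | exact hpc (by linarith))
  have hcase : (y a = x a ∧ y b = 0 ∧ y c = 0) ∨ (y b = x b ∧ y a = 0 ∧ y c = 0) ∨
      (y c = x c ∧ y a = 0 ∧ y b = 0) := by
    rcases tri ha (hy2 a) with ⟨h1, h2⟩ | ⟨h1, h2⟩ | ⟨h1, h2⟩ <;>
      rcases tri hb (hy2 b) with ⟨h3, h4⟩ | ⟨h3, h4⟩ | ⟨h3, h4⟩ <;>
      rcases tri hc (hy2 c) with ⟨h5, h6⟩ | ⟨h5, h6⟩ | ⟨h5, h6⟩ <;>
      rw [h2, h4, h6] at e1 <;> omega
  rcases hcase with ⟨h1, h2, h3⟩ | ⟨h1, h2, h3⟩ | ⟨h1, h2, h3⟩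
  · exact ⟨a, b, c, hab, hac, hbc, ha, hb, hc, h0, h1, h2, h3⟩
  · exact ⟨b, a, c, hab.symm, hbc, hac, hb, ha, hc, fun i a b c => h0 i b a c, h1, h2, h3⟩
  · exact ⟨c, a, b, hac.symm, hbc.symm, hab, hc, ha, hb, fun i a b c => h0 i b c a, h1, h2, h3⟩

/-- Summing over a two element support. -/
theorem sum2 {R : Type*} [AddCommMonoid R] (f : ι → R) {a b : ι} (hab : a ≠ b)
    (h : ∀ i, i ≠ a → i ≠ b → f i = 0) : ∑ i, f i = f a + f b := by
  classical
  have h1 : ∑ i, f i = ∑ i ∈ ({a, b} : Finset ι), f i := by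
    refine (Finset.sum_subset (Finset.subset_univ _) fun i _ hi => ?_).symm
    simp only [Finset.mem_insert, Finset.mem_singleton, not_or] at hi
    exact h i hi.1 hi.2
  rw [h1, Finset.sum_insert (by simp [hab]), Finset.sum_singleton]

/-- The relations for one involution. -/
structure Inv (D x y r : ι → ℤ) (o : ι) (Z : ι → ℤ) : Prop where
  zo : Z o = 1
  xZ : ∑ i, x i * Z i = 0
  yZ : ∑ i, y i * Z i = 0
  rZ : ∑ i, r i * Z i = 0
  e1 : ∑ i, ((x i : ℚ) * r i) * ((Z i : ℚ) / D i) = 3 * ∑ i, ((x i : ℚ) * y i) * ((Z i : ℚ) / D i)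
  e2 : ∑ i, ((y i : ℚ) * r i) * ((Z i : ℚ) / D i) = 3 * ∑ i, ((x i : ℚ) * y i) * ((Z i : ℚ) / D i)
  e3 : ∑ i, ((r i : ℚ) * r i) * ((Z i : ℚ) / D i) = 9 * ∑ i, ((x i : ℚ) * y i) * ((Z i : ℚ) / D i)

theorem sum3q (f g : ι → ℤ) (l : ι → ℚ) {a b c : ι} (hab : a ≠ b) (hac : a ≠ c)
    (hbc : b ≠ c) (h : ∀ i, i ≠ a → i ≠ b → i ≠ c → f i = 0) :
    ∑ i, ((f i : ℚ) * g i) * l i =
      ((f a : ℚ) * g a) * l a + ((f b : ℚ) * g b) * l b + ((f c : ℚ) * g c) * l c := by
  rw [sum3 (fun i => (f i : ℚ) * g i) l hab hac hbc]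
  intro i h1 h2 h3
  rw [h i h1 h2 h3]
  simp

/-- The proportionality of `r` and `D` on the two other elements. -/
theorem stepA (D x r Z : ι → ℤ) (hD : ∀ i, 0 < D i) {p a b : ι} (hpa : p ≠ a) (hpb : p ≠ b)
    (hab : a ≠ b) (xa : x a = 1 ∨ x a = -1) (xb : x b = 1 ∨ x b = -1)
    (h0 : ∀ i, i ≠ p → i ≠ a → i ≠ b → x i = 0)
    (hxr : ∑ i, x i * r i = 3) (hxD : ∑ i, x i * D i = 0) (hxZ : ∑ i, x i * Z i = 0)
    (e1 : ∑ i, ((x i : ℚ) * r i) * ((Z i : ℚ) / D i) = 3 * ((Z p : ℚ) / D p))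
    (hq : ∑ i, ((x i : ℚ) * Z i) * ((Z i : ℚ) / D i) ≠ 0) :
    r a * D b = r b * D a := by
  rw [sum3 x _ hpa hpb hab h0] at hxr hxD hxZ
  rw [sum3q x _ _ hpa hpb hab h0] at e1 hq
  have hDp : (D p : ℚ) ≠ 0 := by exact_mod_cast (hD p).ne'
  have hDa : (D a : ℚ) ≠ 0 := by exact_mod_cast (hD a).ne'
  have hDb : (D b : ℚ) ≠ 0 := by exact_mod_cast (hD b).ne'
  set lp : ℚ := (Z p : ℚ) / D p with hlp
  set la : ℚ := (Z a : ℚ) / D a with hla
  set lb : ℚ := (Z b : ℚ) / D b with hlb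
  have zp : (Z p : ℚ) = lp * D p := by rw [hlp]; field_simp
  have za : (Z a : ℚ) = la * D a := by rw [hla]; field_simp
  have zb : (Z b : ℚ) = lb * D b := by rw [hlb]; field_simp
  have hxr' : (x p : ℚ) * r p + x a * r a + x b * r b = 3 := by exact_mod_cast hxr
  have hxD' : (x p : ℚ) * D p + x a * D a + x b * D b = 0 := by exact_mod_cast hxD
  have hxZ' : (x p : ℚ) * Z p + x a * Z a + x b * Z b = 0 := by exact_mod_cast hxZ
  rw [zp, za, zb] at hxZ'
  have f1 : (la - lp) * (x a * D a) + (lb - lp) * (x b * D b) = 0 := by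
    linear_combination hxZ' - lp * hxD'
  have f2 : (la - lp) * (x a * r a) + (lb - lp) * (x b * r b) = 0 := by
    linear_combination e1 - lp * hxr'
  have f3 : (x a : ℚ) * x a = 1 := by rcases xa with h | h <;> rw [h] <;> norm_num
  have f4 : (x b : ℚ) * x b = 1 := by rcases xb with h | h <;> rw [h] <;> norm_num
  have key : ((r a : ℚ) * D b - r b * D a) = 0 := by
    by_contra hne
    -- then both differences vanish
    have g1 : (la - lp) * ((x a * x b : ℚ) * (r a * D b - r b * D a)) = 0 := by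
      linear_combination (x b * D b : ℚ) * f2 - (x b * r b : ℚ) * f1
    have g2 : (lb - lp) * ((x a * x b : ℚ) * (r a * D b - r b * D a)) = 0 := by
      linear_combination (x a * r a : ℚ) * f1 - (x a * D a : ℚ) * f2
    have hab' : ((x a * x b : ℚ) * (r a * D b - r b * D a)) ≠ 0 := by
      refine mul_ne_zero (mul_ne_zero ?_ ?_) hne
      · intro h; rw [h] at f3; norm_num at f3
      · intro h; rw [h] at f4; norm_num at f4
    have g3 : la = lp := sub_eq_zero.1 ((mul_eq_zero.1 g1).resolve_right hab')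
    have g4 : lb = lp := sub_eq_zero.1 ((mul_eq_zero.1 g2).resolve_right hab')
    apply hq
    rw [zp, za, zb, g3, g4]
    linear_combination (lp * lp) * hxD'
  have : ((r a * D b : ℤ) : ℚ) = ((r b * D a : ℤ) : ℚ) := by
    push_cast
    linear_combination key
  exact_mod_cast this

/-- The integral points. -/
theorem stepB {A B1 B2 C1 C2 : ℤ} (h1 : A + B1 + B2 = 3) (h2 : A + C1 + C2 = 3)
    (h3 : 1 + A * A + B1 * B1 + B2 * B2 + C1 * C1 + C2 * C2 ≤ 9) (hB : B1 = 0 ↔ B2 = 0)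
    (hC : C1 = 0 ↔ C2 = 0) : A = 1 ∧ B1 = 1 ∧ B2 = 1 ∧ C1 = 1 ∧ C2 = 1 := by
  have a1 : A < 3 := by nlinarith [mul_self_nonneg B1, mul_self_nonneg B2, mul_self_nonneg C1, mul_self_nonneg C2]
  have a2 : -3 < A := by nlinarith [mul_self_nonneg B1, mul_self_nonneg B2, mul_self_nonneg C1, mul_self_nonneg C2]
  have b1 : B1 < 3 := by nlinarith [mul_self_nonneg A, mul_self_nonneg B2, mul_self_nonneg C1, mul_self_nonneg C2]
  have b2 : -3 < B1 := by nlinarith [mul_self_nonneg A, mul_self_nonneg B2, mul_self_nonneg C1, mul_self_nonneg C2]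
  have c1 : C1 < 3 := by nlinarith [mul_self_nonneg A, mul_self_nonneg B2, mul_self_nonneg B1, mul_self_nonneg C2]
  have c2 : -3 < C1 := by nlinarith [mul_self_nonneg A, mul_self_nonneg B2, mul_self_nonneg B1, mul_self_nonneg C2]
  obtain rfl : B2 = 3 - A - B1 := by linarith
  obtain rfl : C2 = 3 - A - C1 := by linarith
  interval_cases A <;> interval_cases B1 <;> interval_cases C1 <;> simp_all

theorem stepC {xp xa xb rp ra rb Dp Da Db : ℤ} (hp : xp = 1 ∨ xp = -1) (ha : xa = 1 ∨ xa = -1)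
    (hb : xb = 1 ∨ xb = -1) (kp : xp * rp = 1) (ka : xa * ra = 1) (kb : xb * rb = 1)
    (dp : 0 < Dp) (da : 0 < Da) (db : 0 < Db) (e : ra * Db = rb * Da)
    (f : xp * Dp + xa * Da + xb * Db = 0) :
    rp = xp ∧ xa = -xp ∧ xb = -xp ∧ ra = -xp ∧ rb = -xp ∧ Dp = 2 * Da ∧ Db = Da := by
  obtain rfl : rp = xp := by rcases hp with rfl | rfl <;> omega
  obtain rfl : ra = xa := by rcases ha with rfl | rfl <;> omega
  obtain rfl : rb = xb := by rcases hb with rfl | rfl <;> omega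
  rcases hp with rfl | rfl <;> rcases ha with rfl | rfl <;> rcases hb with rfl | rfl <;> omega

theorem arithD {s mp ma mb mc md : ℤ} (hs : s = 1 ∨ s = -1) (ex : s * mp + -s * ma + -s * mb = 0)
    (ey : s * mp + -s * mc + -s * md = -1)
    (h : mp * mp + ma * ma + mb * mb + mc * mc + md * md ≤ 2) :
    (mp = 0 ∧ ma = 0 ∧ mb = 0 ∧ mc = s ∧ md = 0) ∨ (mp = 0 ∧ ma = 0 ∧ mb = 0 ∧ mc = 0 ∧ md = s) ∨
      (mp = -s ∧ ma = -s ∧ mb = 0) ∨ (mp = -s ∧ ma = 0 ∧ mb = -s) := by
  have hss : s * s = 1 := by rcases hs with rfl | rfl <;> norm_num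
  obtain rfl : mp = ma + mb := by linear_combination s * ex - (mp - ma - mb) * hss
  obtain rfl : md = ma + mb + s - mc := by
    linear_combination (-s) * ey + (ma + mb - mc - md) * hss
  have a1 : ma < 2 := by nlinarith [mul_self_nonneg (ma + mb), mul_self_nonneg mb, mul_self_nonneg mc, mul_self_nonneg (ma + mb + s - mc)]
  have a2 : -2 < ma := by nlinarith [mul_self_nonneg (ma + mb), mul_self_nonneg mb, mul_self_nonneg mc, mul_self_nonneg (ma + mb + s - mc)]
  have b1 : mb < 2 := by nlinarith [mul_self_nonneg (ma + mb), mul_self_nonneg ma, mul_self_nonneg mc, mul_self_nonneg (ma + mb + s - mc)]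
  have b2 : -2 < mb := by nlinarith [mul_self_nonneg (ma + mb), mul_self_nonneg ma, mul_self_nonneg mc, mul_self_nonneg (ma + mb + s - mc)]
  have c1 : mc < 2 := by nlinarith [mul_self_nonneg (ma + mb), mul_self_nonneg ma, mul_self_nonneg mb, mul_self_nonneg (ma + mb + s - mc)]
  have c2 : -2 < mc := by nlinarith [mul_self_nonneg (ma + mb), mul_self_nonneg ma, mul_self_nonneg mb, mul_self_nonneg (ma + mb + s - mc)]
  rcases hs with rfl | rfl <;> interval_cases ma <;> interval_cases mb <;> interval_cases mc <;>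
    simp_all

/-- The support of `m`. -/
theorem stepD (D x y r m : ι → ℤ) (o p a b c d : ι) (Do : D o = 1)
    (op : o ≠ p) (oa : o ≠ a) (ob : o ≠ b) (oc : o ≠ c) (od : o ≠ d) (pa : p ≠ a) (pb : p ≠ b)
    (ab : a ≠ b) (pc : p ≠ c) (pd : p ≠ d) (cd : c ≠ d) (ac : a ≠ c) (ad : a ≠ d) (bc : b ≠ c)
    (bd : b ≠ d) (s K : ℤ) (hs : s = 1 ∨ s = -1) (xp : x p = s) (xa : x a = -s) (xb : x b = -s)
    (x0 : ∀ i, i ≠ p → i ≠ a → i ≠ b → x i = 0) (yp : y p = s) (yc : y c = -s) (yd : y d = -s)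
    (y0 : ∀ i, i ≠ p → i ≠ c → i ≠ d → y i = 0) (ro : r o = 1) (rp : r p = s) (ra : r a = -s)
    (rb : r b = -s) (rc : r c = -s) (rd : r d = -s) (Dc : D c = K) (Dd : D d = K)
    (mo : m o = -1) (hmm : ∑ i, m i * m i = 3) (hmx : ∑ i, m i * x i = 0)
    (hmy : ∑ i, m i * y i = -1) (hmr : ∑ i, m i * r i = -3) (hmD : ∑ i, m i * D i = 0) :
    ∃ v : ι, v ≠ o ∧ v ≠ p ∧ v ≠ a ∧ v ≠ b ∧ v ≠ c ∧ v ≠ d ∧ (r v = 1 ∨ r v = -1) ∧
      r v * D v = s * K - 1 ∧ m v = - r v ∧ m p = 0 ∧ m a = 0 ∧ m b = 0 ∧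
      (∀ i, i ≠ o → i ≠ c → i ≠ d → i ≠ v → m i = 0) := by
  classical
  have ex : x p * m p + x a * m a + x b * m b = 0 := by
    rw [← sum3 x m pa pb ab x0, ← hmx]
    exact Finset.sum_congr rfl fun i _ => mul_comm _ _
  have ey : y p * m p + y c * m c + y d * m d = -1 := by
    rw [← sum3 y m pc pd cd y0, ← hmy]
    exact Finset.sum_congr rfl fun i _ => mul_comm _ _
  rw [xp, xa, xb] at ex
  rw [yp, yc, yd] at ey
  obtain ⟨u, v, ou, ov, uv, -, hu, hv, m0⟩ := supp3' m hmm o (by rw [mo]; norm_num)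
  have er := hmr
  rw [sum3 m r ou ov uv m0, mo, ro] at er
  have eD := hmD
  rw [sum3 m D ou ov uv m0, mo, Do] at eD
  -- the two cases for the element of the support among `c, d`
  have fin : ∀ e v : ι, (e = c ∨ e = d) → o ≠ e → o ≠ v → e ≠ v → (m e = 1 ∨ m e = -1) →
      (m v = 1 ∨ m v = -1) → (∀ i, i ≠ o → i ≠ e → i ≠ v → m i = 0) →
      (-1 * 1 + m e * r e + m v * r v = -3) → (-1 * 1 + m e * D e + m v * D v = 0) →
      v ≠ p → v ≠ a → v ≠ b → v ≠ c → v ≠ d →
      ∃ v : ι, v ≠ o ∧ v ≠ p ∧ v ≠ a ∧ v ≠ b ∧ v ≠ c ∧ v ≠ d ∧ (r v = 1 ∨ r v = -1) ∧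
      r v * D v = s * K - 1 ∧ m v = - r v ∧ m p = 0 ∧ m a = 0 ∧ m b = 0 ∧
      (∀ i, i ≠ o → i ≠ c → i ≠ d → i ≠ v → m i = 0) := by
    intro e v he oe ov ev me mv m0 er eD vp va vb vc vd
    have hep : e ≠ p := by rcases he with rfl | rfl <;> [exact pc.symm; exact pd.symm]
    have hea : e ≠ a := by rcases he with rfl | rfl <;> [exact ac.symm; exact ad.symm]
    have heb : e ≠ b := by rcases he with rfl | rfl <;> [exact bc.symm; exact bd.symm]
    have mp := m0 p op.symm hep.symm vp.symm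
    have ma := m0 a oa.symm hea.symm va.symm
    have mb := m0 b ob.symm heb.symm vb.symm
    have hre : r e = -s := by rcases he with rfl | rfl <;> assumption
    have hDe : D e = K := by rcases he with rfl | rfl <;> assumption
    have hme : m e = s := by
      rcases he with rfl | rfl
      · have h1 := m0 d od.symm cd.symm vd.symm
        rw [mp, h1] at ey
        rcases hs with rfl | rfl <;> omega
      · have h1 := m0 c oc.symm cd vc.symm
        rw [mp, h1] at ey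
        rcases hs with rfl | rfl <;> omega
    rw [hme, hre] at er
    rw [hme, hDe] at eD
    have hss : s * -s = -1 := by rcases hs with rfl | rfl <;> norm_num
    rw [hss] at er
    have hrv : m v = - r v ∧ (r v = 1 ∨ r v = -1) := by
      rcases mv with h | h <;> rw [h] at er ⊢ <;> omega
    refine ⟨v, ov.symm, vp, va, vb, vc, vd, hrv.2, ?_, hrv.1, mp, ma, mb, ?_⟩
    · rw [hrv.1] at eD
      linarith
    · intro i h1 h2 h3 h4
      refine m0 i h1 ?_ h4
      rcases he with rfl | rfl <;> assumption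
  have hsq : m p * m p + m a * m a + m b * m b + m c * m c + m d * m d ≤ 2 := by
    have h2 : ∑ j ∈ ({o, p, a, b, c, d} : Finset ι), m j * m j ≤ ∑ i, m i * m i :=
      Finset.sum_le_sum_of_subset_of_nonneg (Finset.subset_univ _) fun i _ _ => mul_self_nonneg _
    rw [Finset.sum_insert (by simp [op, oa, ob, oc, od]), Finset.sum_insert (by simp [pa, pb, pc, pd]),
      Finset.sum_insert (by simp [ab, ac, ad]), Finset.sum_insert (by simp [bc, bd]),
      Finset.sum_insert (by simp [cd]), Finset.sum_singleton, hmm, mo] at h2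
    linarith
  have hs0 : s ≠ 0 := by rcases hs with rfl | rfl <;> norm_num
  have mem : ∀ i, m i ≠ 0 → i ≠ o → i = u ∨ i = v := by
    intro i h1 h2
    by_contra hc
    push Not at hc
    exact h1 (m0 i h2 hc.1 hc.2)
  have hu0 : m u ≠ 0 := by rcases hu with h | h <;> rw [h] <;> norm_num
  have hv0 : m v ≠ 0 := by rcases hv with h | h <;> rw [h] <;> norm_num
  have hss : s * s = 1 := by rcases hs with rfl | rfl <;> norm_num
  have swap : ∀ e f : ι, e ≠ f → (e = u ∨ e = v) → (f = u ∨ f = v) →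
      m e * r e + m f * r f = m u * r u + m v * r v := by
    intro e f hef he hf
    rcases he with rfl | rfl <;> rcases hf with rfl | rfl
    · exact absurd rfl hef
    · rfl
    · exact add_comm _ _
    · exact absurd rfl hef
  rcases arithD hs ex ey hsq with ⟨mp, ma, mb, mc, md⟩ | ⟨mp, ma, mb, mc, md⟩ | ⟨mp, ma, mb⟩ |
    ⟨mp, ma, mb⟩
  · rcases mem c (by rw [mc]; exact hs0) oc.symm with rfl | rfl
    · exact fin c v (Or.inl rfl) oc ov uv hu hv m0 er eD (by rintro rfl; exact hv0 mp)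
        (by rintro rfl; exact hv0 ma) (by rintro rfl; exact hv0 mb) uv.symm
        (by rintro rfl; exact hv0 md)
    · exact fin c u (Or.inl rfl) oc ou uv.symm hv hu (fun i h1 h2 h3 => m0 i h1 h3 h2)
        (by linarith) (by linarith) (by rintro rfl; exact hu0 mp)
        (by rintro rfl; exact hu0 ma) (by rintro rfl; exact hu0 mb) uv
        (by rintro rfl; exact hu0 md)
  · rcases mem d (by rw [md]; exact hs0) od.symm with rfl | rfl
    · exact fin d v (Or.inr rfl) od ov uv hu hv m0 er eD (by rintro rfl; exact hv0 mp)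
        (by rintro rfl; exact hv0 ma) (by rintro rfl; exact hv0 mb)
        (by rintro rfl; exact hv0 mc) uv.symm
    · exact fin d u (Or.inr rfl) od ou uv.symm hv hu (fun i h1 h2 h3 => m0 i h1 h3 h2)
        (by linarith) (by linarith) (by rintro rfl; exact hu0 mp)
        (by rintro rfl; exact hu0 ma) (by rintro rfl; exact hu0 mb)
        (by rintro rfl; exact hu0 mc) uv
  · have h1 := swap p a pa (mem p (by rw [mp]; simpa using hs0) op.symm)
      (mem a (by rw [ma]; simpa using hs0) oa.symm)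
    rw [mp, ma, rp, ra] at h1
    exfalso
    nlinarith
  · have h1 := swap p b pb (mem p (by rw [mp]; simpa using hs0) op.symm)
      (mem b (by rw [mb]; simpa using hs0) ob.symm)
    rw [mp, mb, rp, rb] at h1
    exfalso
    nlinarith

/-- The final computation for one involution. -/
theorem stepF (D x y r Z : ι → ℤ) (hD : ∀ i, 0 < D i) (o p a b c d v w e : ι) (Do : D o = 1)
    (hS : ∀ f : ι → ℚ, (∀ i, r i = 0 → f i = 0) →
      ∑ i, f i = f o + f p + f a + f b + f c + f d + f v + f w + f e)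
    (pa : p ≠ a) (pb : p ≠ b) (ab : a ≠ b) (pc : p ≠ c) (pd : p ≠ d) (cd : c ≠ d)
    (s K : ℤ) (hs : s = 1 ∨ s = -1) (xp : x p = s) (xa : x a = -s) (xb : x b = -s)
    (x0 : ∀ i, i ≠ p → i ≠ a → i ≠ b → x i = 0) (yp : y p = s) (yc : y c = -s) (yd : y d = -s)
    (y0 : ∀ i, i ≠ p → i ≠ c → i ≠ d → y i = 0) (ro : r o = 1) (rp : r p = s) (ra : r a = -s)
    (rb : r b = -s) (rc : r c = -s) (rd : r d = -s) (Dp : D p = 2 * K) (Da : D a = K)
    (Db : D b = K) (Dc : D c = K) (Dd : D d = K) (rv : r v = 1 ∨ r v = -1)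
    (rDv : r v * D v = s * K - 1) (rw' : r w = 1 ∨ r w = -1) (rDw : r w * D w = s * K - 1)
    (re : r e = 1) (De : D e = 1) (I : Inv D x y r o Z) (hZe : Z e = 1) (ya : y a = 0)
    (yb : y b = 0) :
    s * K = 2 ∨ Z p = D p := by
  have hK : (K : ℚ) ≠ 0 := by
    have := hD a
    rw [Da] at this
    exact_mod_cast this.ne'
  have hss : (s : ℚ) * s = 1 := by rcases hs with rfl | rfl <;> norm_num
  set l : ι → ℚ := fun i => (Z i : ℚ) / D i with hl
  have hZ : ∀ i, (Z i : ℚ) = l i * D i := by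
    intro i
    have : (D i : ℚ) ≠ 0 := by exact_mod_cast (hD i).ne'
    simp only [hl]
    field_simp
  have hm : ∑ i, ((x i : ℚ) * y i) * l i = l p := by
    rw [sum3q x y l pa pb ab x0, xp, xa, xb, yp, ya, yb]
    push_cast
    linear_combination l p * hss
  have e1 := I.e1
  have e2 := I.e2
  have e3 := I.e3
  change ∑ i, ((x i : ℚ) * r i) * l i = 3 * ∑ i, ((x i : ℚ) * y i) * l i at e1
  change ∑ i, ((y i : ℚ) * r i) * l i = 3 * ∑ i, ((x i : ℚ) * y i) * l i at e2
  change ∑ i, ((r i : ℚ) * r i) * l i = 9 * ∑ i, ((x i : ℚ) * y i) * l i at e3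
  rw [hm] at e1 e2 e3
  rw [sum3q x r l pa pb ab x0, xp, xa, xb, rp, ra, rb] at e1
  rw [sum3q y r l pc pd cd y0, yp, yc, yd, rp, rc, rd] at e2
  rw [hS (fun i => ((r i : ℚ) * r i) * l i) (fun i hi => by simp [hi])] at e3
  rw [ro, rp, ra, rb, rc, rd, re] at e3
  have hv2 : (r v : ℚ) * r v = 1 := by rcases rv with h | h <;> rw [h] <;> norm_num
  have hw2 : (r w : ℚ) * r w = 1 := by rcases rw' with h | h <;> rw [h] <;> norm_num
  rw [hv2, hw2] at e3
  push_cast at e1 e2 e3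
  have lo : l o = 1 := by simp [hl, I.zo, Do]
  have le : l e = 1 := by simp [hl, hZe, De]
  have g1 : l a + l b = 2 * l p := by
    linear_combination e1 - (l p + l a + l b) * hss
  have g2 : l c + l d = 2 * l p := by
    linear_combination e2 - (l p + l c + l d) * hss
  have g3 : l v + l w = 4 * l p - 2 := by
    rw [lo, le] at e3
    linear_combination e3 - g1 - g2 - (l p + l a + l b + l c + l d) * hss
  have e4 : ∑ i, (r i : ℚ) * Z i = 0 := by exact_mod_cast I.rZ
  rw [hS (fun i => (r i : ℚ) * Z i) (fun i hi => by simp [hi])] at e4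
  rw [ro, rp, ra, rb, rc, rd, re, hZ o, hZ p, hZ a, hZ b, hZ c, hZ d, hZ v, hZ w, hZ e, Do, Dp, Da,
    Db, Dc, Dd, De, lo, le] at e4
  have hDv : (r v : ℚ) * D v = s * K - 1 := by exact_mod_cast rDv
  have hDw : (r w : ℚ) * D w = s * K - 1 := by exact_mod_cast rDw
  push_cast at e4
  have key : ((s : ℚ) * K - 2) * (l p - 1) = 0 := by
    linear_combination e4 / 2 - l v / 2 * hDv - l w / 2 * hDw + (s * K / 2) * g1 + (s * K / 2) * g2 -
      (s * K - 1) / 2 * g3
  rcases mul_eq_zero.1 key with h | h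
  · left
    have h1 : ((s * K : ℤ) : ℚ) = (2 : ℤ) := by
      push_cast
      linarith
    exact_mod_cast h1
  · right
    have h1 : (Z p : ℚ) = D p := by
      rw [hZ p]
      linear_combination (D p : ℚ) * h
    exact_mod_cast h1

/-- **The combinatorial core of S3805.** -/
theorem core (D x y r m n Z1 Z2 Z3 : ι → ℤ) (o : ι) (hD : ∀ i, 0 < D i) (Do : D o = 1)
    (xo : x o = 0) (yo : y o = 0) (ro : r o = 1) (mo : m o = -1) (no : n o = -1)
    (hxx : ∑ i, x i * x i = 3) (hyy : ∑ i, y i * y i = 3) (hmm : ∑ i, m i * m i = 3)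
    (hnn : ∑ i, n i * n i = 3) (hrr : ∑ i, r i * r i = 9) (hxy : ∑ i, x i * y i = 1)
    (hxr : ∑ i, x i * r i = 3) (hyr : ∑ i, y i * r i = 3) (hmx : ∑ i, m i * x i = 0)
    (hmy : ∑ i, m i * y i = -1) (hmr : ∑ i, m i * r i = -3) (hnx : ∑ i, n i * x i = -1)
    (hny : ∑ i, n i * y i = 0) (hnr : ∑ i, n i * r i = -3) (hmn : ∑ i, m i * n i = 1)
    (hxD : ∑ i, x i * D i = 0) (hyD : ∑ i, y i * D i = 0) (hrD : ∑ i, r i * D i = 0)
    (hmD : ∑ i, m i * D i = 0) (hnD : ∑ i, n i * D i = 0)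
    (I1 : Inv D x y r o Z1) (I2 : Inv D x y r o Z2) (I3 : Inv D x y r o Z3)
    (q1 : ∑ i, ((x i : ℚ) * Z1 i) * ((Z1 i : ℚ) / D i) ≠ 0)
    (q2 : ∑ i, ((y i : ℚ) * Z2 i) * ((Z2 i : ℚ) / D i) ≠ 0)
    (lin : ∀ i, D i = 1 → Z1 i = 1 ∨ Z2 i = 1 ∨ Z3 i = 1) :
    (∃ i, x i ≠ 0 ∧ y i ≠ 0 ∧ (Z1 i = D i ∨ Z2 i = D i ∨ Z3 i = D i)) ∨
    (∃ a b c d : ι, a ≠ b ∧ a ≠ c ∧ a ≠ d ∧ b ≠ c ∧ b ≠ d ∧ c ≠ d ∧ D a = 1 ∧ D b = 1 ∧ D c = 1 ∧
      D d = 1) := by
  classical
  obtain ⟨p, a, b, pa, pb, ab, xp, xa, xb, x0, yp, ya, yb⟩ := common x y D hD hxx hyy hxy hxD hyD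
  have xp0 : x p ≠ 0 := by rcases xp with h | h <;> rw [h] <;> norm_num
  have xa0 : x a ≠ 0 := by rcases xa with h | h <;> rw [h] <;> norm_num
  have xb0 : x b ≠ 0 := by rcases xb with h | h <;> rw [h] <;> norm_num
  have yp0 : y p ≠ 0 := by rw [yp]; exact xp0
  obtain ⟨c, d, pc, pd, cd, yp', yc, yd, y0⟩ := supp3' y hyy p yp0
  have yc0 : y c ≠ 0 := by rcases yc with h | h <;> rw [h] <;> norm_num
  have yd0 : y d ≠ 0 := by rcases yd with h | h <;> rw [h] <;> norm_num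
  have ac : a ≠ c := by rintro rfl; exact yc0 ya
  have ad : a ≠ d := by rintro rfl; exact yd0 ya
  have bc : b ≠ c := by rintro rfl; exact yc0 yb
  have bd : b ≠ d := by rintro rfl; exact yd0 yb
  have op : o ≠ p := by rintro rfl; exact xp0 xo
  have oa : o ≠ a := by rintro rfl; exact xa0 xo
  have ob : o ≠ b := by rintro rfl; exact xb0 xo
  have oc : o ≠ c := by rintro rfl; exact yc0 yo
  have od : o ≠ d := by rintro rfl; exact yd0 yo
  -- the value at `p` of the central character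
  have hm : ∀ Z : ι → ℤ, ∑ i, ((x i : ℚ) * y i) * ((Z i : ℚ) / D i) = (Z p : ℚ) / D p := by
    intro Z
    rw [sum3q x y _ pa pb ab x0, ya, yb, yp]
    have : (x p : ℚ) * x p = 1 := by rcases xp with h | h <;> rw [h] <;> norm_num
    push_cast
    linear_combination ((Z p : ℚ) / D p) * this
  have A1 : r a * D b = r b * D a := stepA D x r Z1 hD pa pb ab xa xb x0 hxr hxD I1.xZ
    (by rw [I1.e1, hm]) q1
  have A2 : r c * D d = r d * D c := stepA D y r Z2 hD pc pd cd yc yd y0 hyr hyD I2.yZ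
    (by rw [I2.e2, hm]) q2
  have B1 := hxr
  rw [sum3 x r pa pb ab x0] at B1
  have B2 := hyr
  rw [sum3 y r pc pd cd y0, yp] at B2
  have hsq : r p * r p + r a * r a + r b * r b + r c * r c + r d * r d ≤ 8 := by
    have h2 : ∑ j ∈ ({o, p, a, b, c, d} : Finset ι), r j * r j ≤ ∑ i, r i * r i :=
      Finset.sum_le_sum_of_subset_of_nonneg (Finset.subset_univ _) fun i _ _ => mul_self_nonneg _
    rw [Finset.sum_insert (by simp [op, oa, ob, oc, od]), Finset.sum_insert (by simp [pa, pb, pc, pd]),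
      Finset.sum_insert (by simp [ab, ac, ad]), Finset.sum_insert (by simp [bc, bd]),
      Finset.sum_insert (by simp [cd]), Finset.sum_singleton, hrr, ro] at h2
    linarith
  have sq : ∀ {u t : ℤ}, (u = 1 ∨ u = -1) → (u * t) * (u * t) = t * t := by
    intro u t hu
    rcases hu with rfl | rfl <;> ring
  obtain ⟨k1, k2, k3, k4, k5⟩ := stepB B1 B2 (by
      rw [sq xp, sq xa, sq xb, sq yc, sq yd]; linarith) (by
      have hDa := hD a; have hDb := hD b
      constructor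
      · intro h
        rcases mul_eq_zero.1 h with h | h
        · exact absurd h xa0
        · rw [h, zero_mul] at A1
          rcases mul_eq_zero.1 A1.symm with h | h
          · rw [h, mul_zero]
          · omega
      · intro h
        rcases mul_eq_zero.1 h with h | h
        · exact absurd h xb0
        · rw [h, zero_mul] at A1
          rcases mul_eq_zero.1 A1 with h | h
          · rw [h, mul_zero]
          · omega) (by
      have hDc := hD c; have hDd := hD d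
      constructor
      · intro h
        rcases mul_eq_zero.1 h with h | h
        · exact absurd h yc0
        · rw [h, zero_mul] at A2
          rcases mul_eq_zero.1 A2.symm with h | h
          · rw [h, mul_zero]
          · omega
      · intro h
        rcases mul_eq_zero.1 h with h | h
        · exact absurd h yd0
        · rw [h, zero_mul] at A2
          rcases mul_eq_zero.1 A2 with h | h
          · rw [h, mul_zero]
          · omega)
  have C1 := hxD
  rw [sum3 x D pa pb ab x0] at C1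
  have C2 := hyD
  rw [sum3 y D pc pd cd y0] at C2
  obtain ⟨rp, xa', xb', ra, rb, Dp, Db⟩ := stepC xp xa xb k1 k2 k3 (hD p) (hD a) (hD b) A1 C1
  obtain ⟨-, yc', yd', rc, rd, Dp', Dd⟩ := stepC yp' yc yd (by rw [yp]; exact k1) k4 k5 (hD p)
    (hD c) (hD d) A2 C2
  rw [yp] at yc' yd' rc rd
  have Dc : D c = D a := by omega
  rw [Dc] at Dd
  obtain ⟨v, vo, vp, va, vb, vc, vd, rv, rDv, mv, mp, ma, mb, m0⟩ :=
    stepD D x y r m o p a b c d Do op oa ob oc od pa pb ab pc pd cd ac ad bc bd (x p) (D a) xp rfl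
      xa' xb' x0 yp yc' yd' y0 ro rp ra rb rc rd Dc Dd mo hmm hmx hmy hmr hmD
  obtain ⟨w, wo, wp, wc, wd, wa, wb, rw', rDw, nw, np, nc, nd, n0⟩ :=
    stepD D y x r n o p c d a b Do op oc od oa ob pc pd cd pa pb ab ac.symm bc.symm ad.symm bd.symm
      (x p) (D a) xp yp yc' yd' y0 rfl xa' xb' x0 ro rp rc rd ra rb rfl Db no hnn hny hnx hnr hnD
  have vw : v ≠ w := by
    rintro rfl
    have h1 : ∑ i, m i * n i = m o * n o + m v * n v := by
      refine sum2 (fun i => m i * n i) vo.symm fun i h1 h2 => ?_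
      by_cases h3 : i = c
      · rw [h3, nc, mul_zero]
      by_cases h4 : i = d
      · rw [h4, nd, mul_zero]
      rw [m0 i h1 h3 h4 h2, zero_mul]
    rw [hmn, mo, no, mv, nw] at h1
    rcases rv with h | h <;> rw [h] at h1 <;> norm_num at h1
  -- the remaining element of the support of `r`
  set S : Finset ι := {o, p, a, b, c, d, v, w} with hS
  have expand : ∀ {M : Type} [AddCommMonoid M] (f : ι → M), ∑ i ∈ S, f i =
      f o + (f p + (f a + (f b + (f c + (f d + (f v + f w)))))) := by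
    intro M _ f
    rw [hS, Finset.sum_insert (by simp [op, oa, ob, oc, od, vo.symm, wo.symm]),
      Finset.sum_insert (by simp [pa, pb, pc, pd, vp.symm, wp.symm]),
      Finset.sum_insert (by simp [ab, ac, ad, va.symm, wa.symm]),
      Finset.sum_insert (by simp [bc, bd, vb.symm, wb.symm]),
      Finset.sum_insert (by simp [cd, vc.symm, wc.symm]),
      Finset.sum_insert (by simp [vd.symm, wd.symm]),
      Finset.sum_insert (by simp [vw]), Finset.sum_singleton]
  have hrest : ∑ i ∈ Sᶜ, r i * r i = 1 := by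
    have h1 := Finset.sum_add_sum_compl S (fun i => r i * r i)
    rw [expand, hrr] at h1
    have e1 : r p * r p = 1 := by rw [rp]; rcases xp with h | h <;> rw [h] <;> norm_num
    have e2 : r a * r a = 1 := by rw [ra]; rcases xp with h | h <;> rw [h] <;> norm_num
    have e3 : r b * r b = 1 := by rw [rb]; rcases xp with h | h <;> rw [h] <;> norm_num
    have e4 : r c * r c = 1 := by rw [rc]; rcases xp with h | h <;> rw [h] <;> norm_num
    have e5 : r d * r d = 1 := by rw [rd]; rcases xp with h | h <;> rw [h] <;> norm_num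
    have e6 : r v * r v = 1 := by rcases rv with h | h <;> rw [h] <;> norm_num
    have e7 : r w * r w = 1 := by rcases rw' with h | h <;> rw [h] <;> norm_num
    rw [ro, e1, e2, e3, e4, e5, e6, e7] at h1
    linarith
  obtain ⟨e, heS, hre⟩ : ∃ e ∈ Sᶜ, r e ≠ 0 := by
    by_contra hc
    push Not at hc
    rw [Finset.sum_eq_zero (fun i hi => by rw [hc i hi, mul_zero])] at hrest
    norm_num at hrest
  have hother : ∀ i ∈ Sᶜ, i ≠ e → r i = 0 := by
    intro i hi hie
    by_contra hc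
    have h1 : ∑ j ∈ ({e, i} : Finset ι), r j * r j ≤ ∑ j ∈ Sᶜ, r j * r j :=
      Finset.sum_le_sum_of_subset_of_nonneg (by
        intro j hj
        rcases Finset.mem_insert.1 hj with rfl | hj
        · exact heS
        · rw [Finset.mem_singleton.1 hj]; exact hi) fun i _ _ => mul_self_nonneg _
    rw [Finset.sum_insert (by simpa using hie.symm), Finset.sum_singleton, hrest] at h1
    have h2 := mul_self_pos.2 hc
    have h3 := mul_self_pos.2 hre
    omega
  have hsumr : ∀ {M : Type} [AddCommMonoid M] (f : ι → M), (∀ i, r i = 0 → f i = 0) →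
      ∑ i, f i = (f o + (f p + (f a + (f b + (f c + (f d + (f v + f w))))))) + f e := by
    intro M _ f hf
    rw [← Finset.sum_add_sum_compl S f, expand, Finset.sum_eq_single_of_mem e heS
      (fun i hi hie => hf i (hother i hi hie))]
  have hree : r e = 1 ∨ r e = -1 := by
    have h1 : r e * r e = 1 := by
      rw [← hrest, Finset.sum_eq_single_of_mem e heS
        (fun i hi hie => by rw [hother i hi hie, mul_zero])]
    have h2 : (r e - 1) * (r e + 1) = 0 := by linarith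
    rcases mul_eq_zero.1 h2 with h | h
    · left; linarith
    · right; linarith
  have hDe : r e * D e = 1 := by
    have h1 := hrD
    rw [hsumr (fun i => r i * D i) (fun i hi => by simp [hi])] at h1
    rw [ro, Do, rp, ra, rb, rc, rd, rDv, rDw, Dp, Db, Dc, Dd] at h1
    linear_combination h1
  have hDe1 := hD e
  have re : r e = 1 := by
    rcases hree with h | h
    · exact h
    · rw [h] at hDe; omega
  have De : D e = 1 := by
    rw [re] at hDe; omega
  have eS : e ≠ o ∧ e ≠ p ∧ e ≠ a ∧ e ≠ b ∧ e ≠ c ∧ e ≠ d ∧ e ≠ v ∧ e ≠ w := by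
    have := Finset.mem_compl.1 heS
    rw [hS] at this
    simp only [Finset.mem_insert, Finset.mem_singleton, not_or] at this
    exact this
  have hfin : ∀ Z : ι → ℤ, Inv D x y r o Z → Z e = 1 → x p * D a = 2 ∨ Z p = D p := by
    intro Z I hZe
    refine stepF D x y r Z hD o p a b c d v w e Do (fun f hf => ?_) pa pb ab pc pd cd (x p) (D a) xp
      rfl xa' xb' x0 yp yc' yd' y0 ro rp ra rb rc rd Dp rfl Db Dc Dd rv rDv rw' rDw re De I hZe ya yb
    rw [hsumr f hf]
    ring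
  have h4 : x p * D a = 2 → (∃ a b c d : ι, a ≠ b ∧ a ≠ c ∧ a ≠ d ∧ b ≠ c ∧ b ≠ d ∧ c ≠ d ∧
      D a = 1 ∧ D b = 1 ∧ D c = 1 ∧ D d = 1) := by
    intro h
    rw [h] at rDv rDw
    refine ⟨o, v, w, e, vo.symm, wo.symm, eS.1.symm, vw, eS.2.2.2.2.2.2.1.symm,
      eS.2.2.2.2.2.2.2.symm, Do, ?_, ?_, De⟩
    · have := hD v
      rcases rv with h | h <;> rw [h] at rDv <;> omega
    · have := hD w
      rcases rw' with h | h <;> rw [h] at rDw <;> omega
  rcases lin e De with h | h | h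
  · rcases hfin Z1 I1 h with h1 | h1
    · exact Or.inr (h4 h1)
    · exact Or.inl ⟨p, xp0, yp0, Or.inl h1⟩
  · rcases hfin Z2 I2 h with h1 | h1
    · exact Or.inr (h4 h1)
    · exact Or.inl ⟨p, xp0, yp0, Or.inr (Or.inl h1)⟩
  · rcases hfin Z3 I3 h with h1 | h1
    · exact Or.inr (h4 h1)
    · exact Or.inl ⟨p, xp0, yp0, Or.inr (Or.inr h1)⟩

end Cfsg.Agent.H454.KleinComb
end

-- part: H454/KleinChar
section
/-!
# Character theory of a group with a Sylow 3-subgroup of order 9 and a Klein four automizer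

* `isConj_inv_of_mul`: `a³ = b³ = (ab)² = 1` implies `a ~ b⁻¹`;
* `Setup.main`: the conclusion of the combinatorial core `KleinComb.core`.
-/

set_option autoImplicit false
set_option linter.unusedSectionVars false

open scoped ComplexConjugate
open Cfsg Cfsg.Agent.Characters

namespace Cfsg.Agent.H454.KleinChar

universe u

variable {G : Type u} [Group G]

/-- Two elements of order 3 whose product is an involution generate `A₄`: the first is conjugate to the
inverse of the second. -/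
theorem isConj_inv_of_mul {a b : G} (ha : a ^ 3 = 1) (hb : b ^ 3 = 1) (hab : (a * b) ^ 2 = 1) :
    IsConj a b⁻¹ := by
  set z := a * b with hz
  have hz2 : z * z = 1 := by rw [← pow_two, hab]
  have hbz : b = a⁻¹ * z := by rw [hz]; group
  have hzi : z⁻¹ = z := inv_eq_of_mul_eq_one_left hz2
  have hbi : b⁻¹ = z * a := by rw [hbz, mul_inv_rev, hzi, inv_inv]
  have hbb : b * b = z * a := by
    rw [← hbi]
    refine eq_inv_of_mul_eq_one_left ?_
    rw [← hb]; simp only [pow_succ, pow_zero, one_mul]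
  have haa : a * a = a⁻¹ := by
    refine eq_inv_of_mul_eq_one_left ?_
    rw [← ha]; simp only [pow_succ, pow_zero, one_mul]
  rw [isConj_comm, isConj_iff]
  refine ⟨a * z * a⁻¹, ?_⟩
  rw [hbi, mul_inv_rev, mul_inv_rev, inv_inv, hzi]
  calc a * z * a⁻¹ * (z * a) * (a * (z * a⁻¹)) = a * z * a⁻¹ * z * (a * a) * (z * a⁻¹) := by group
    _ = a * z * ((a⁻¹ * z) * (a⁻¹ * z)) * a⁻¹ := by rw [haa]; group
    _ = a * (z * z) := by rw [← hbz, hbb]; group
    _ = a := by rw [hz2, mul_one]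

/-- The integral part of a character value. -/
noncomputable def val (g : G) (χ : IrrCharacter G) : ℤ := ⌊((χ : G → ℂ) g).re⌋

/-- Real elements of order dividing 6 are rational. -/
theorem val_coe [Finite G] {g : G} (h6 : g ^ 6 = 1) (hr : IsConj g g⁻¹) (χ : IrrCharacter G) :
    ((val g χ : ℤ) : ℂ) = (χ : G → ℂ) g := by
  obtain ⟨k, hk⟩ := J3Type.CharTools.int_of_conj (Core.isIrr_isCharacter χ.2) g (fun m hm => by
    have hd : orderOf g ∣ 6 := orderOf_dvd_of_pow_eq_one h6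
    have hg : g ^ m = g ^ (m % orderOf g) := (pow_mod_orderOf g m).symm
    have h2 : g ^ m = g ∨ g ^ m = g⁻¹ := by
      have h3 : orderOf g = 1 ∨ orderOf g = 2 ∨ orderOf g = 3 ∨ orderOf g = 6 := by
        have : orderOf g ∈ Nat.divisors 6 := Nat.mem_divisors.2 ⟨hd, by norm_num⟩
        have h4 : Nat.divisors 6 = {1, 2, 3, 6} := by decide
        rw [h4] at this
        simpa using this
      have hm' : Nat.Coprime (m % orderOf g) (orderOf g) :=
        ((Nat.gcd_rec (orderOf g) m).symm.trans (Nat.gcd_comm _ m)).trans hm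
      have hp : 0 < orderOf g := orderOf_pos g
      have hlt : m % orderOf g < orderOf g := Nat.mod_lt _ hp
      have hone : g ^ orderOf g = 1 := pow_orderOf_eq_one g
      rw [hg]
      rcases h3 with h | h | h | h <;> rw [h] at hm' hlt hone ⊢
      · left
        rw [pow_one] at hone
        rw [hone, one_pow]
      · generalize m % 2 = t at hm' hlt ⊢
        interval_cases t
        · exact absurd hm' (by decide)
        · left; rw [pow_one]
      · generalize m % 3 = t at hm' hlt ⊢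
        interval_cases t
        · exact absurd hm' (by decide)
        · left; rw [pow_one]
        · right
          refine eq_inv_of_mul_eq_one_left ?_
          rw [← hone]; simp only [pow_succ, pow_zero, one_mul]
      · generalize m % 6 = t at hm' hlt ⊢
        interval_cases t <;> first | exact absurd hm' (by decide) | skip
        · left; rw [pow_one]
        · right
          refine eq_inv_of_mul_eq_one_left ?_
          rw [← hone]; simp only [pow_succ, pow_zero, one_mul]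
    rcases h2 with h2 | h2
    · rw [h2]
    · rw [h2]; exact hr)
  rw [val, hk]
  simp

theorem val_congr {g h : G} (hc : IsConj g h) : val g = val h := by
  funext χ
  rw [val, val, J3Type.CharTools.class_eq (Core.isIrr_isCharacter χ.2) hc]

/-- Column orthogonality for integral columns. -/
theorem orth_self [Finite G] [Fintype (IrrCharacter G)] {g : G} (h6 : g ^ 6 = 1)
    (hr : IsConj g g⁻¹) {k : ℤ} (hk : (Nat.card (Subgroup.centralizer ({g} : Set G)) : ℤ) = k) :
    val g ⬝ᵥ val g = k := by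
  classical
  have h := H686.CharKit.col_orth g g
  rw [if_pos (IsConj.refl g)] at h
  have h1 : ((∑ χ, val g χ * val g χ : ℤ) : ℂ) = (k : ℂ) := by
    rw [← hk]
    push_cast
    rw [← h]
    refine Finset.sum_congr rfl fun χ _ => ?_
    rw [← val_coe h6 hr]
    simp
  exact_mod_cast h1

theorem orth_ne [Finite G] [Fintype (IrrCharacter G)] {g h : G} (g6 : g ^ 6 = 1)
    (hg : IsConj g g⁻¹) (h6 : h ^ 6 = 1) (hh : IsConj h h⁻¹) (hn : ¬ IsConj g h) :
    val g ⬝ᵥ val h = 0 := by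
  classical
  have hc := H686.CharKit.col_orth g h
  rw [if_neg hn] at hc
  have h1 : ((∑ χ, val g χ * val h χ : ℤ) : ℂ) = ((0 : ℤ) : ℂ) := by
    push_cast
    rw [← hc]
    refine Finset.sum_congr rfl fun χ _ => ?_
    rw [← val_coe g6 hg, ← val_coe h6 hh]
    simp
  exact_mod_cast h1

/-- Class algebra constants vanish for non-conjugate real elements of order 3 and an involution. -/
theorem class_zero [Finite G] [Fintype (IrrCharacter G)] {g h z : G} (g3 : g ^ 3 = 1)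
    (hg : IsConj g g⁻¹) (h3 : h ^ 3 = 1) (hh : IsConj h h⁻¹) (z2 : z ^ 2 = 1)
    (hn : ¬ IsConj g h) :
    ∑ i : IrrCharacter G, ((val g i : ℚ) * val h i) * ((val z i : ℚ) / val 1 i) = 0 := by
  have hc := ClassMul.card_conj_mul_conj g h z
  have h0 : Nat.card {p : G × G // p.1 * g * p.1⁻¹ * (p.2 * h * p.2⁻¹) = z} = 0 := by
    rw [Nat.card_eq_zero]
    left
    refine ⟨fun p => hn ?_⟩
    obtain ⟨⟨c, d⟩, hp⟩ := p
    simp only at hp
    have e1 : IsConj g (c * g * c⁻¹) := isConj_iff.2 ⟨c, rfl⟩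
    have e2 : IsConj h (d * h * d⁻¹) := isConj_iff.2 ⟨d, rfl⟩
    have e3 : IsConj (c * g * c⁻¹) (d * h * d⁻¹)⁻¹ := isConj_inv_of_mul
      (by rw [conj_pow, g3]; group) (by rw [conj_pow, h3]; group) (by rw [hp, z2])
    have e4 : IsConj h⁻¹ (d * h * d⁻¹)⁻¹ := by
      rw [isConj_iff]; exact ⟨d, by group⟩
    exact (e1.trans e3).trans (e4.symm.trans hh.symm)
  rw [h0] at hc
  have hG : (Nat.card G : ℂ) ≠ 0 := Core.card_ne_zero_complex
  have h1 : ∑ χ : IrrCharacter G, (χ : G → ℂ) g * (χ : G → ℂ) h * conj ((χ : G → ℂ) z) /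
      (χ : G → ℂ) 1 = 0 := by
    rw [Nat.cast_zero] at hc
    exact (mul_eq_zero.1 hc.symm).resolve_left hG
  have z6 : z ^ 6 = 1 := by
    rw [show 6 = 2 * 3 by norm_num, pow_mul, z2, one_pow]
  have hz : IsConj z z⁻¹ := by
    have : z⁻¹ = z := inv_eq_of_mul_eq_one_left (by rw [← pow_two, z2])
    rw [this]
  have g6 : g ^ 6 = 1 := by rw [show 6 = 3 * 2 by norm_num, pow_mul, g3, one_pow]
  have h6 : h ^ 6 = 1 := by rw [show 6 = 3 * 2 by norm_num, pow_mul, h3, one_pow]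
  have h2 : ((∑ i : IrrCharacter G, ((val g i : ℚ) * val h i) * ((val z i : ℚ) / val 1 i) : ℚ) : ℂ)
      = ((0 : ℚ) : ℂ) := by
    rw [Rat.cast_zero, ← h1, Rat.cast_sum]
    refine Finset.sum_congr rfl fun χ _ => ?_
    rw [← val_coe g6 hg, ← val_coe h6 hh, ← val_coe z6 hz, ← val_coe (g := (1 : G)) (by simp) (by simp)]
    push_cast
    rw [map_intCast]
    ring
  exact_mod_cast h2

/-- The count of elements inverting `g` in the class of `z`. -/
theorem class_inv [Finite G] [Fintype (IrrCharacter G)] {z : G} (z2 : z ^ 2 = 1) :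
    ∃ c : ℚ, 0 < c ∧ ∀ g : G, g ^ 3 = 1 → IsConj g g⁻¹ →
      (Nat.card {u : G // IsConj z u ∧ u * g * u⁻¹ = g⁻¹} : ℚ) =
        c * ∑ i : IrrCharacter G, ((val g i : ℚ) * val z i) * ((val z i : ℚ) / val 1 i) := by
  refine ⟨((Subgroup.centralizer ({z} : Set G)).index : ℚ) *
      ((Subgroup.centralizer ({z} : Set G)).index : ℚ) / (Nat.card G : ℚ), ?_, ?_⟩
  · have h1 : 0 < (Subgroup.centralizer ({z} : Set G)).index :=
      Nat.pos_of_ne_zero Subgroup.index_ne_zero_of_finite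
    have h2 : 0 < Nat.card G := Nat.card_pos
    positivity
  intro g g3 hg
  have hc := ClassMul.card_class_mul z z g
  have he : Nat.card {p : G × G // IsConj z p.1 ∧ IsConj z p.2 ∧ p.1 * p.2 = g} =
      Nat.card {u : G // IsConj z u ∧ u * g * u⁻¹ = g⁻¹} := by
    have hinv : ∀ u : G, IsConj z u → u * u = 1 := by
      intro u hu
      obtain ⟨c, rfl⟩ := isConj_iff.1 hu
      rw [← pow_two, conj_pow, z2]; group
    have hgg : g * g = g⁻¹ := by
      refine eq_inv_of_mul_eq_one_left ?_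
      rw [← g3]; simp only [pow_succ, pow_zero, one_mul]
    refine Nat.card_congr ⟨fun p => ⟨p.1.1, p.2.1, ?_⟩, fun u => ⟨(u.1, u.1 * g), u.2.1, ?_, ?_⟩,
      fun p => ?_, fun u => ?_⟩
    · obtain ⟨⟨u, v⟩, hu, hv, huv⟩ := p
      simp only at hu hv huv ⊢
      have h1 := hinv u hu
      have h2 := hinv v hv
      have hui : u⁻¹ = u := inv_eq_of_mul_eq_one_left h1
      have hvi : v⁻¹ = v := inv_eq_of_mul_eq_one_left h2
      rw [← huv, mul_inv_rev, hui, hvi]
      calc u * (u * v) * u = (u * u) * v * u := by group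
        _ = v * u := by rw [h1, one_mul]
    · obtain ⟨u, hu, hug⟩ := u
      simp only
      have h1 := hinv u hu
      have hui : u⁻¹ = u := inv_eq_of_mul_eq_one_left h1
      refine hu.trans (isConj_iff.2 ⟨g, ?_⟩)
      have h2 : u * g = g⁻¹ * u := by rw [← hug]; group
      have h3 : g⁻¹ * u = g * g * u := by rw [hgg]
      -- g u g⁻¹ = u g
      have h4 : g * (u * g) = u := by rw [h2]; group
      calc g * u * g⁻¹ = g * (g * (u * g)) * g⁻¹ := by rw [h4]
        _ = g * g * u := by group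
        _ = u * g := by rw [← h3, h2]
    · obtain ⟨u, hu, hug⟩ := u
      simp only
      have h1 := hinv u hu
      calc u * (u * g) = (u * u) * g := by group
        _ = g := by rw [h1, one_mul]
    · obtain ⟨⟨u, v⟩, hu, hv, huv⟩ := p
      simp only at hu hv huv ⊢
      have h1 := hinv u hu
      congr 1
      rw [← huv]
      congr 1
      calc u * (u * v) = (u * u) * v := by group
        _ = v := by rw [h1, one_mul]
    · rfl
  rw [he] at hc
  have z6 : z ^ 6 = 1 := by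
    rw [show 6 = 2 * 3 by norm_num, pow_mul, z2, one_pow]
  have hz : IsConj z z⁻¹ := by
    have : z⁻¹ = z := inv_eq_of_mul_eq_one_left (by rw [← pow_two, z2])
    rw [this]
  have g6 : g ^ 6 = 1 := by rw [show 6 = 3 * 2 by norm_num, pow_mul, g3, one_pow]
  have h2 : (((Nat.card {u : G // IsConj z u ∧ u * g * u⁻¹ = g⁻¹} : ℚ)) : ℂ) =
      ((((Subgroup.centralizer ({z} : Set G)).index : ℚ) *
      ((Subgroup.centralizer ({z} : Set G)).index : ℚ) / (Nat.card G : ℚ) *
      ∑ i : IrrCharacter G, ((val g i : ℚ) * val z i) * ((val z i : ℚ) / val 1 i) : ℚ) : ℂ) := by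
    push_cast
    rw [hc]
    congr 1
    refine Finset.sum_congr rfl fun χ _ => ?_
    rw [← val_coe g6 hg, ← val_coe z6 hz, ← val_coe (g := (1 : G)) (by simp) (by simp)]
    rw [map_intCast]
    ring
  exact_mod_cast h2

theorem four_of_distinct {ι : Type*} [Finite ι] {P : ι → Prop} {a b c d : ι} (ab : a ≠ b)
    (ac : a ≠ c) (ad : a ≠ d) (bc : b ≠ c) (bd : b ≠ d) (cd : c ≠ d) (ha : P a) (hb : P b)
    (hc : P c) (hd : P d) : 4 ≤ Nat.card {i // P i} := by
  classical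
  have := Fintype.ofFinite ι
  rw [Nat.card_eq_fintype_card, Fintype.card_subtype]
  have h1 : ({a, b, c, d} : Finset ι) ⊆ Finset.univ.filter P := by
    intro i hi
    simp only [Finset.mem_insert, Finset.mem_singleton] at hi
    rw [Finset.mem_filter]
    refine ⟨Finset.mem_univ _, ?_⟩
    rcases hi with rfl | rfl | rfl | rfl <;> assumption
  have h2 : ({a, b, c, d} : Finset ι).card = 4 := by
    rw [Finset.card_insert_of_notMem (by simp [ab, ac, ad]),
      Finset.card_insert_of_notMem (by simp [bc, bd]),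
      Finset.card_insert_of_notMem (by simp [cd]), Finset.card_singleton]
  rw [← h2]
  exact Finset.card_le_card h1

/-- The configuration: `⟨e1, e2⟩` elementary of order 9, `z1` and `z2` commuting involutions inverting
one factor and centralizing the other. -/
structure Setup (e1 e2 z1 z2 : G) : Prop where
  e1_3 : e1 ^ 3 = 1
  e2_3 : e2 ^ 3 = 1
  e1_ne : e1 ≠ 1
  e2_ne : e2 ≠ 1
  comm : e1 * e2 = e2 * e1
  z1_2 : z1 ^ 2 = 1
  z2_2 : z2 ^ 2 = 1
  zcomm : z1 * z2 = z2 * z1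
  a11 : z1 * e1 * z1⁻¹ = e1⁻¹
  a12 : z1 * e2 * z1⁻¹ = e2
  a21 : z2 * e1 * z2⁻¹ = e1
  a22 : z2 * e2 * z2⁻¹ = e2⁻¹
  c1 : Nat.card (Subgroup.centralizer ({e1} : Set G)) = 18
  c2 : Nat.card (Subgroup.centralizer ({e2} : Set G)) = 18
  c12 : Nat.card (Subgroup.centralizer ({e1 * e2} : Set G)) = 9
  cw1 : Nat.card (Subgroup.centralizer ({e1 * z2} : Set G)) = 6
  cw2 : Nat.card (Subgroup.centralizer ({z1 * e2} : Set G)) = 6
  n12 : ¬ IsConj e1 e2
  n13 : ¬ IsConj e1 (e1 * e2)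
  n23 : ¬ IsConj e2 (e1 * e2)
  inv : ∀ g : G, g * (e1 * e2) * g⁻¹ = (e1 * e2)⁻¹ → g * e1 * g⁻¹ = e1⁻¹ ∧ g * e2 * g⁻¹ = e2⁻¹

theorem mul_self_of_three {g : G} (h : g ^ 3 = 1) : g * g = g⁻¹ := by
  refine eq_inv_of_mul_eq_one_left ?_
  rw [← h]; simp only [pow_succ, pow_zero, one_mul]

theorem inv_of_two {g : G} (h : g ^ 2 = 1) : g⁻¹ = g :=
  inv_eq_of_mul_eq_one_left (by rw [← pow_two, h])

theorem isConj_pow_eq_one {g h : G} (hc : IsConj g h) (k : ℕ) : g ^ k = 1 → h ^ k = 1 := by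
  intro hg
  obtain ⟨c, rfl⟩ := isConj_iff.1 hc
  rw [conj_pow, hg]; group

theorem isConj_inv {g h : G} (hc : IsConj g h) : IsConj g⁻¹ h⁻¹ := by
  obtain ⟨c, rfl⟩ := isConj_iff.1 hc
  exact isConj_iff.2 ⟨c, by group⟩

theorem isConj_sq {g h : G} (hc : IsConj g h) : IsConj (g ^ 2) (h ^ 2) := by
  obtain ⟨c, rfl⟩ := isConj_iff.1 hc
  exact isConj_iff.2 ⟨c, by rw [conj_pow]⟩

namespace Setup

variable {e1 e2 z1 z2 : G} (S : Setup e1 e2 z1 z2)
include S

theorem r1 : IsConj e1 e1⁻¹ := isConj_iff.2 ⟨z1, S.a11⟩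
theorem r2 : IsConj e2 e2⁻¹ := isConj_iff.2 ⟨z2, S.a22⟩

theorem conj3 (e : G) : z1 * z2 * e * (z1 * z2)⁻¹ = z1 * (z2 * e * z2⁻¹) * z1⁻¹ := by group

theorem a31 : z1 * z2 * e1 * (z1 * z2)⁻¹ = e1⁻¹ := by rw [S.conj3, S.a21, S.a11]
theorem a32 : z1 * z2 * e2 * (z1 * z2)⁻¹ = e2⁻¹ := by
  have h := congrArg (fun g => g⁻¹) S.a12
  simp only [mul_inv_rev, inv_inv] at h
  rw [S.conj3, S.a22, mul_assoc]
  exact h

theorem inv12 : (e1 * e2)⁻¹ = e1⁻¹ * e2⁻¹ := by rw [S.comm, mul_inv_rev]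

theorem r12 : IsConj (e1 * e2) (e1 * e2)⁻¹ := by
  refine isConj_iff.2 ⟨z1 * z2, ?_⟩
  calc z1 * z2 * (e1 * e2) * (z1 * z2)⁻¹ =
      (z1 * z2 * e1 * (z1 * z2)⁻¹) * (z1 * z2 * e2 * (z1 * z2)⁻¹) := by group
    _ = (e1 * e2)⁻¹ := by rw [S.a31, S.a32, S.inv12]

theorem e12_3 : (e1 * e2) ^ 3 = 1 := by
  have : Commute e1 e2 := S.comm
  rw [this.mul_pow, S.e1_3, S.e2_3, one_mul]

theorem e12_ne : e1 * e2 ≠ 1 := by
  intro h
  have h1 : e2 = e1⁻¹ := eq_inv_of_mul_eq_one_right h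
  have h2 := S.a12
  rw [h1] at h2
  have h3 : z1 * e1⁻¹ * z1⁻¹ = e1 := by
    have := congrArg (fun g => g⁻¹) S.a11
    simp only [mul_inv_rev, inv_inv] at this
    rw [mul_assoc]
    exact this
  have h4 : e1 * e1 = 1 := by
    rw [h3] at h2
    nth_rewrite 1 [h2]
    group
  have h5 := mul_self_of_three S.e1_3
  rw [h4] at h5
  exact S.e1_ne (inv_eq_one.1 h5.symm)

theorem cz1 : z2 * e1 = e1 * z2 := by
  have := S.a21
  rw [mul_inv_eq_iff_eq_mul] at this
  exact this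

theorem cz2 : z1 * e2 = e2 * z1 := by
  have := S.a12
  rw [mul_inv_eq_iff_eq_mul] at this
  exact this

theorem w1_sq : (e1 * z2) ^ 2 = e1⁻¹ := by
  have : Commute e1 z2 := S.cz1.symm
  rw [this.mul_pow, S.z2_2, mul_one, pow_two, mul_self_of_three S.e1_3]

theorem w2_sq : (z1 * e2) ^ 2 = e2⁻¹ := by
  have : Commute z1 e2 := S.cz2
  rw [this.mul_pow, S.z1_2, one_mul, pow_two, mul_self_of_three S.e2_3]

theorem w1_6 : (e1 * z2) ^ 6 = 1 := by
  rw [show 6 = 2 * 3 by norm_num, pow_mul, S.w1_sq, inv_pow, S.e1_3, inv_one]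

theorem w2_6 : (z1 * e2) ^ 6 = 1 := by
  rw [show 6 = 2 * 3 by norm_num, pow_mul, S.w2_sq, inv_pow, S.e2_3, inv_one]

theorem z1z2 : z1 * z2 * z1⁻¹ = z2 := by rw [S.zcomm]; group
theorem z2z1 : z2 * z1 * z2⁻¹ = z1 := by rw [← S.zcomm]; group

theorem rw1 : IsConj (e1 * z2) (e1 * z2)⁻¹ := by
  refine isConj_iff.2 ⟨z1, ?_⟩
  calc z1 * (e1 * z2) * z1⁻¹ = (z1 * e1 * z1⁻¹) * (z1 * z2 * z1⁻¹) := by group
    _ = e1⁻¹ * z2⁻¹ := by rw [S.a11, S.z1z2, inv_of_two S.z2_2]
    _ = (e1 * z2)⁻¹ := by rw [← S.cz1, mul_inv_rev]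

theorem rw2 : IsConj (z1 * e2) (z1 * e2)⁻¹ := by
  refine isConj_iff.2 ⟨z2, ?_⟩
  calc z2 * (z1 * e2) * z2⁻¹ = (z2 * z1 * z2⁻¹) * (z2 * e2 * z2⁻¹) := by group
    _ = z1⁻¹ * e2⁻¹ := by rw [S.a22, S.z2z1, inv_of_two S.z1_2]
    _ = (z1 * e2)⁻¹ := by rw [S.cz2, mul_inv_rev]

theorem z12_2 : (z1 * z2) ^ 2 = 1 := by
  have : Commute z1 z2 := S.zcomm
  rw [this.mul_pow, S.z1_2, S.z2_2, one_mul]

theorem z1_ne : z1 ≠ 1 := by
  intro h
  have h1 := S.a11
  rw [h] at h1
  have h2 : e1 * e1 = 1 := by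
    nth_rewrite 2 [show e1 = e1⁻¹ from by simpa using h1]
    group
  rw [mul_self_of_three S.e1_3] at h2
  exact S.e1_ne (inv_eq_one.1 h2)

theorem z2_ne : z2 ≠ 1 := by
  intro h
  have h1 := S.a22
  rw [h] at h1
  have h2 : e2 * e2 = 1 := by
    nth_rewrite 2 [show e2 = e2⁻¹ from by simpa using h1]
    group
  rw [mul_self_of_three S.e2_3] at h2
  exact S.e2_ne (inv_eq_one.1 h2)

omit S in
/-- an element of order 3 is not conjugate to an involution -/
theorem not32 {e z : G} (e3 : e ^ 3 = 1) (he : e ≠ 1) (hz : z ^ 2 = 1) : ¬ IsConj e z := by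
  intro h
  have h1 := isConj_pow_eq_one h.symm 2 hz
  rw [pow_two, mul_self_of_three e3] at h1
  exact he (inv_eq_one.1 h1)

theorem w1_3 : (e1 * z2) ^ 3 ≠ 1 := by
  intro h
  have h1 : e1 * z2 = (e1 * z2) ^ 3 * ((e1 * z2) ^ 2)⁻¹ := by group
  rw [h, S.w1_sq, inv_inv, one_mul] at h1
  exact S.z2_ne (mul_eq_left.1 h1)

theorem w2_3 : (z1 * e2) ^ 3 ≠ 1 := by
  intro h
  have h1 : z1 * e2 = (z1 * e2) ^ 3 * ((z1 * e2) ^ 2)⁻¹ := by group
  rw [h, S.w2_sq, inv_inv, one_mul] at h1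
  exact S.z1_ne (mul_eq_right.1 h1)

theorem nw {e : G} (he : e ^ 3 = 1) : ¬ IsConj (e1 * z2) e := fun h =>
  S.w1_3 (isConj_pow_eq_one h.symm 3 he)

theorem nw' {e : G} (he : e ^ 3 = 1) : ¬ IsConj (z1 * e2) e := fun h =>
  S.w2_3 (isConj_pow_eq_one h.symm 3 he)

theorem nww : ¬ IsConj (e1 * z2) (z1 * e2) := by
  intro h
  have h1 := isConj_sq h
  rw [S.w1_sq, S.w2_sq] at h1
  exact S.n12 (S.r1.trans (h1.trans S.r2.symm))

variable [Finite G]

/-- At least four linear characters. -/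
theorem four_le : 4 ≤ (commutator G).index := by
  classical
  have := Core.finite_irr (G := G)
  have : Fintype (IrrCharacter G) := Fintype.ofFinite _
  have six3 : ∀ {g : G}, g ^ 3 = 1 → g ^ 6 = 1 := by
    intro g h
    rw [show 6 = 3 * 2 by norm_num, pow_mul, h, one_pow]
  have six2 : ∀ {g : G}, g ^ 2 = 1 → g ^ 6 = 1 := by
    intro g h
    rw [show 6 = 2 * 3 by norm_num, pow_mul, h, one_pow]
  have two : ∀ {g : G}, g ^ 2 = 1 → IsConj g g⁻¹ := by
    intro g h
    rw [inv_of_two h]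
  have one6 : (1 : G) ^ 6 = 1 := one_pow _
  have one3 : (1 : G) ^ 3 = 1 := one_pow _
  have oner : IsConj (1 : G) (1 : G)⁻¹ := by rw [inv_one]
  set V1 := val (G := G) e1 with hV1
  set V2 := val (G := G) e2 with hV2
  set R := val (G := G) (e1 * e2) with hR
  set S1 := val (G := G) (e1 * z2) with hS1
  set S2 := val (G := G) (z1 * e2) with hS2
  set D := val (G := G) 1 with hD
  have cV1 : ∀ χ : IrrCharacter G, ((V1 χ : ℤ) : ℂ) = (χ : G → ℂ) e1 := val_coe (six3 S.e1_3) S.r1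
  have cV2 : ∀ χ : IrrCharacter G, ((V2 χ : ℤ) : ℂ) = (χ : G → ℂ) e2 := val_coe (six3 S.e2_3) S.r2
  have cR : ∀ χ : IrrCharacter G, ((R χ : ℤ) : ℂ) = (χ : G → ℂ) (e1 * e2) :=
    val_coe (six3 S.e12_3) S.r12
  have cS1 : ∀ χ : IrrCharacter G, ((S1 χ : ℤ) : ℂ) = (χ : G → ℂ) (e1 * z2) := val_coe S.w1_6 S.rw1
  have cS2 : ∀ χ : IrrCharacter G, ((S2 χ : ℤ) : ℂ) = (χ : G → ℂ) (z1 * e2) := val_coe S.w2_6 S.rw2
  have cD : ∀ χ : IrrCharacter G, ((D χ : ℤ) : ℂ) = (χ : G → ℂ) 1 := val_coe one6 oner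
  have cZ : ∀ {z : G}, z ^ 2 = 1 → ∀ χ : IrrCharacter G, ((val z χ : ℤ) : ℂ) = (χ : G → ℂ) z :=
    fun hz => val_coe (six2 hz) (two hz)
  -- congruences
  have kV1 : ∀ χ : IrrCharacter G, (3 : ℤ) ∣ V1 χ - D χ := fun χ =>
    J3Type.CharTools.int_congr (Core.isIrr_isCharacter χ.2) e1 Nat.prime_three (cV1 χ).symm
      (by rw [S.e1_3]; exact (cD χ).symm)
  have kV2 : ∀ χ : IrrCharacter G, (3 : ℤ) ∣ V2 χ - D χ := fun χ =>
    J3Type.CharTools.int_congr (Core.isIrr_isCharacter χ.2) e2 Nat.prime_three (cV2 χ).symm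
      (by rw [S.e2_3]; exact (cD χ).symm)
  have kR : ∀ χ : IrrCharacter G, (3 : ℤ) ∣ R χ - D χ := fun χ =>
    J3Type.CharTools.int_congr (Core.isIrr_isCharacter χ.2) (e1 * e2) Nat.prime_three (cR χ).symm
      (by rw [S.e12_3]; exact (cD χ).symm)
  have kS1 : ∀ χ : IrrCharacter G, (2 : ℤ) ∣ S1 χ - V1 χ := fun χ =>
    J3Type.CharTools.int_congr (Core.isIrr_isCharacter χ.2) (e1 * z2) Nat.prime_two (cS1 χ).symm
      (by
        rw [S.w1_sq, cV1]
        exact (J3Type.CharTools.class_eq (Core.isIrr_isCharacter χ.2) S.r1).symm)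
  have kS2 : ∀ χ : IrrCharacter G, (2 : ℤ) ∣ S2 χ - V2 χ := fun χ =>
    J3Type.CharTools.int_congr (Core.isIrr_isCharacter χ.2) (z1 * e2) Nat.prime_two (cS2 χ).symm
      (by
        rw [S.w2_sq, cV2]
        exact (J3Type.CharTools.class_eq (Core.isIrr_isCharacter χ.2) S.r2).symm)
  -- orthogonality
  have o11 : V1 ⬝ᵥ V1 = 18 := orth_self (six3 S.e1_3) S.r1 (by exact_mod_cast S.c1)
  have o22 : V2 ⬝ᵥ V2 = 18 := orth_self (six3 S.e2_3) S.r2 (by exact_mod_cast S.c2)
  have oRR : R ⬝ᵥ R = 9 := orth_self (six3 S.e12_3) S.r12 (by exact_mod_cast S.c12)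
  have oS1 : S1 ⬝ᵥ S1 = 6 := orth_self S.w1_6 S.rw1 (by exact_mod_cast S.cw1)
  have oS2 : S2 ⬝ᵥ S2 = 6 := orth_self S.w2_6 S.rw2 (by exact_mod_cast S.cw2)
  have o12 : V1 ⬝ᵥ V2 = 0 := orth_ne (six3 S.e1_3) S.r1 (six3 S.e2_3) S.r2 S.n12
  have o1R : V1 ⬝ᵥ R = 0 := orth_ne (six3 S.e1_3) S.r1 (six3 S.e12_3) S.r12 S.n13
  have o2R : V2 ⬝ᵥ R = 0 := orth_ne (six3 S.e2_3) S.r2 (six3 S.e12_3) S.r12 S.n23
  have oSS : S1 ⬝ᵥ S2 = 0 := orth_ne S.w1_6 S.rw1 S.w2_6 S.rw2 S.nww
  have p11 : S1 ⬝ᵥ V1 = 0 := orth_ne S.w1_6 S.rw1 (six3 S.e1_3) S.r1 (S.nw S.e1_3)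
  have p12 : S1 ⬝ᵥ V2 = 0 := orth_ne S.w1_6 S.rw1 (six3 S.e2_3) S.r2 (S.nw S.e2_3)
  have p1R : S1 ⬝ᵥ R = 0 := orth_ne S.w1_6 S.rw1 (six3 S.e12_3) S.r12 (S.nw S.e12_3)
  have p21 : S2 ⬝ᵥ V1 = 0 := orth_ne S.w2_6 S.rw2 (six3 S.e1_3) S.r1 (S.nw' S.e1_3)
  have p22 : S2 ⬝ᵥ V2 = 0 := orth_ne S.w2_6 S.rw2 (six3 S.e2_3) S.r2 (S.nw' S.e2_3)
  have p2R : S2 ⬝ᵥ R = 0 := orth_ne S.w2_6 S.rw2 (six3 S.e12_3) S.r12 (S.nw' S.e12_3)
  have d1 : V1 ⬝ᵥ D = 0 := orth_ne (six3 S.e1_3) S.r1 one6 oner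
    (fun h => S.e1_ne (isConj_one_left.1 h))
  have d2 : V2 ⬝ᵥ D = 0 := orth_ne (six3 S.e2_3) S.r2 one6 oner
    (fun h => S.e2_ne (isConj_one_left.1 h))
  have dR : R ⬝ᵥ D = 0 := orth_ne (six3 S.e12_3) S.r12 one6 oner
    (fun h => S.e12_ne (isConj_one_left.1 h))
  have dS1 : S1 ⬝ᵥ D = 0 := orth_ne S.w1_6 S.rw1 one6 oner (S.nw one3)
  have dS2 : S2 ⬝ᵥ D = 0 := orth_ne S.w2_6 S.rw2 one6 oner (S.nw' one3)
  have zz1 : ∀ {z : G}, z ^ 2 = 1 → V1 ⬝ᵥ val z = 0 := fun hz =>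
    orth_ne (six3 S.e1_3) S.r1 (six2 hz) (two hz) (not32 S.e1_3 S.e1_ne hz)
  have zz2 : ∀ {z : G}, z ^ 2 = 1 → V2 ⬝ᵥ val z = 0 := fun hz =>
    orth_ne (six3 S.e2_3) S.r2 (six2 hz) (two hz) (not32 S.e2_3 S.e2_ne hz)
  have zzR : ∀ {z : G}, z ^ 2 = 1 → R ⬝ᵥ val z = 0 := fun hz =>
    orth_ne (six3 S.e12_3) S.r12 (six2 hz) (two hz) (not32 S.e12_3 S.e12_ne hz)
  -- the vectors of norm 3
  obtain ⟨x, hx⟩ : ∃ x : IrrCharacter G → ℤ, (3 : ℤ) • x = R - V1 := by
    choose x hx using fun χ : IrrCharacter G => (show (3 : ℤ) ∣ R χ - V1 χ from by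
      have h1 := kV1 χ; have h2 := kR χ; omega)
    exact ⟨x, funext fun χ => by simpa using (hx χ).symm⟩
  obtain ⟨y, hy⟩ : ∃ y : IrrCharacter G → ℤ, (3 : ℤ) • y = R - V2 := by
    choose y hy using fun χ : IrrCharacter G => (show (3 : ℤ) ∣ R χ - V2 χ from by
      have h1 := kV2 χ; have h2 := kR χ; omega)
    exact ⟨y, funext fun χ => by simpa using (hy χ).symm⟩
  obtain ⟨m, hm⟩ : ∃ m : IrrCharacter G → ℤ, (-6 : ℤ) • m = V1 + (3 : ℤ) • S1 + (2 : ℤ) • R := by
    choose m hm using fun χ : IrrCharacter G => (show (-6 : ℤ) ∣ V1 χ + 3 * S1 χ + 2 * R χ from by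
      have h1 := kV1 χ; have h2 := kR χ; have h3 := kS1 χ; exact neg_dvd.2 (by omega))
    exact ⟨m, funext fun χ => by simpa using (hm χ).symm⟩
  obtain ⟨n, hn⟩ : ∃ n : IrrCharacter G → ℤ, (-6 : ℤ) • n = V2 + (3 : ℤ) • S2 + (2 : ℤ) • R := by
    choose n hn using fun χ : IrrCharacter G => (show (-6 : ℤ) ∣ V2 χ + 3 * S2 χ + 2 * R χ from by
      have h1 := kV2 χ; have h2 := kR χ; have h3 := kS2 χ; exact neg_dvd.2 (by omega))
    exact ⟨n, funext fun χ => by simpa using (hn χ).symm⟩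
  have bil : ∀ (a b : ℤ) (f g : IrrCharacter G → ℤ), (a • f) ⬝ᵥ (b • g) = a * b * (f ⬝ᵥ g) := by
    intro a b f g
    rw [smul_dotProduct, dotProduct_smul, smul_eq_mul, smul_eq_mul, mul_assoc]
  have bil' : ∀ (a : ℤ) (f g : IrrCharacter G → ℤ), (a • f) ⬝ᵥ g = a * (f ⬝ᵥ g) := by
    intro a f g
    rw [smul_dotProduct, smul_eq_mul]
  have hxx : x ⬝ᵥ x = 3 := by
    have h := bil 3 3 x x
    rw [hx] at h
    simp only [sub_dotProduct, dotProduct_sub, dotProduct_comm R V1, oRR, o1R, o11] at h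
    omega
  have hyy : y ⬝ᵥ y = 3 := by
    have h := bil 3 3 y y
    rw [hy] at h
    simp only [sub_dotProduct, dotProduct_sub, dotProduct_comm R V2, oRR, o2R, o22] at h
    omega
  have hxy : x ⬝ᵥ y = 1 := by
    have h := bil 3 3 x y
    rw [hx, hy] at h
    simp only [sub_dotProduct, dotProduct_sub, dotProduct_comm R V2, oRR, o2R, o1R, o12] at h
    omega
  have hxr : x ⬝ᵥ R = 3 := by
    have h := bil' 3 x R
    rw [hx] at h
    simp only [sub_dotProduct, oRR, o1R] at h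
    omega
  have hyr : y ⬝ᵥ R = 3 := by
    have h := bil' 3 y R
    rw [hy] at h
    simp only [sub_dotProduct, oRR, o2R] at h
    omega
  have hmm : m ⬝ᵥ m = 3 := by
    have h := bil (-6) (-6) m m
    rw [hm] at h
    simp only [add_dotProduct, dotProduct_add, smul_dotProduct, dotProduct_smul, smul_eq_mul,
      dotProduct_comm R V1, dotProduct_comm R S1, dotProduct_comm V1 S1, oRR, o1R, o11, p11, p1R,
      oS1] at h
    omega
  have hnn : n ⬝ᵥ n = 3 := by
    have h := bil (-6) (-6) n n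
    rw [hn] at h
    simp only [add_dotProduct, dotProduct_add, smul_dotProduct, dotProduct_smul, smul_eq_mul,
      dotProduct_comm R V2, dotProduct_comm R S2, dotProduct_comm V2 S2, oRR, o2R, o22, p22, p2R,
      oS2] at h
    omega
  have hmn : m ⬝ᵥ n = 1 := by
    have h := bil (-6) (-6) m n
    rw [hm, hn] at h
    simp only [add_dotProduct, dotProduct_add, smul_dotProduct, dotProduct_smul, smul_eq_mul,
      dotProduct_comm R V2, dotProduct_comm R S2, dotProduct_comm V1 S2, oRR, o2R, o12, p12, p1R,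
      o1R, p2R, p21, oSS] at h
    omega
  have hmx : m ⬝ᵥ x = 0 := by
    have h := bil (-6) 3 m x
    rw [hm, hx] at h
    simp only [add_dotProduct, dotProduct_sub, smul_dotProduct, smul_eq_mul,
      dotProduct_comm R V1, oRR, o1R, o11, p11, p1R] at h
    omega
  have hmy : m ⬝ᵥ y = -1 := by
    have h := bil (-6) 3 m y
    rw [hm, hy] at h
    simp only [add_dotProduct, dotProduct_sub, smul_dotProduct, smul_eq_mul,
      dotProduct_comm R V2, oRR, o1R, o2R, o12, p12, p1R] at h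
    omega
  have hmr : m ⬝ᵥ R = -3 := by
    have h := bil' (-6) m R
    rw [hm] at h
    simp only [add_dotProduct, smul_dotProduct, smul_eq_mul, oRR, o1R, p1R] at h
    omega
  have hnx : n ⬝ᵥ x = -1 := by
    have h := bil (-6) 3 n x
    rw [hn, hx] at h
    simp only [add_dotProduct, dotProduct_sub, smul_dotProduct, smul_eq_mul,
      dotProduct_comm R V1, dotProduct_comm V2 V1, oRR, o1R, o2R, o12, p21, p2R] at h
    omega
  have hny : n ⬝ᵥ y = 0 := by
    have h := bil (-6) 3 n y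
    rw [hn, hy] at h
    simp only [add_dotProduct, dotProduct_sub, smul_dotProduct, smul_eq_mul,
      dotProduct_comm R V2, oRR, o2R, o22, p22, p2R] at h
    omega
  have hnr : n ⬝ᵥ R = -3 := by
    have h := bil' (-6) n R
    rw [hn] at h
    simp only [add_dotProduct, smul_dotProduct, smul_eq_mul, oRR, o2R, p2R] at h
    omega
  have hxD : x ⬝ᵥ D = 0 := by
    have h := bil' 3 x D
    rw [hx] at h
    simp only [sub_dotProduct, dR, d1] at h
    omega
  have hyD : y ⬝ᵥ D = 0 := by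
    have h := bil' 3 y D
    rw [hy] at h
    simp only [sub_dotProduct, dR, d2] at h
    omega
  have hmD : m ⬝ᵥ D = 0 := by
    have h := bil' (-6) m D
    rw [hm] at h
    simp only [add_dotProduct, smul_dotProduct, smul_eq_mul, dR, d1, dS1] at h
    omega
  have hnD : n ⬝ᵥ D = 0 := by
    have h := bil' (-6) n D
    rw [hn] at h
    simp only [add_dotProduct, smul_dotProduct, smul_eq_mul, dR, d2, dS2] at h
    omega
  have hxZ : ∀ {z : G}, z ^ 2 = 1 → x ⬝ᵥ val z = 0 := by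
    intro z hz
    have h := bil' 3 x (val z)
    rw [hx] at h
    simp only [sub_dotProduct, zzR hz, zz1 hz] at h
    omega
  have hyZ : ∀ {z : G}, z ^ 2 = 1 → y ⬝ᵥ val z = 0 := by
    intro z hz
    have h := bil' 3 y (val z)
    rw [hy] at h
    simp only [sub_dotProduct, zzR hz, zz2 hz] at h
    omega
  -- the trivial character
  set o : IrrCharacter G := ⟨1, Core.isIrr_one⟩ with ho
  have vo : ∀ g : G, val g o = 1 := by
    intro g
    simp [val, ho]
  have Do : D o = 1 := vo 1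
  have hxo : x o = 0 := by
    have h := congrFun hx o
    simp only [Pi.smul_apply, Pi.sub_apply, smul_eq_mul] at h
    rw [hR, hV1, vo, vo] at h
    omega
  have hyo : y o = 0 := by
    have h := congrFun hy o
    simp only [Pi.smul_apply, Pi.sub_apply, smul_eq_mul] at h
    rw [hR, hV2, vo, vo] at h
    omega
  have hmo : m o = -1 := by
    have h := congrFun hm o
    simp only [Pi.smul_apply, Pi.add_apply, smul_eq_mul] at h
    rw [hR, hV1, hS1, vo, vo, vo] at h
    omega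
  have hno : n o = -1 := by
    have h := congrFun hn o
    simp only [Pi.smul_apply, Pi.add_apply, smul_eq_mul] at h
    rw [hR, hV2, hS2, vo, vo, vo] at h
    omega
  have Dpos : ∀ χ, 0 < D χ := by
    intro χ
    obtain ⟨k, hk, hk'⟩ := Core.isIrr_apply_one χ.2
    have h := cD χ
    rw [hk'] at h
    have h1 : D χ = k := by exact_mod_cast h
    omega
  have hxq : ∀ χ, (x χ : ℚ) = (R χ - V1 χ) / 3 := by
    intro χ
    have h := congrFun hx χ
    simp only [Pi.smul_apply, Pi.sub_apply, smul_eq_mul] at h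
    have h' : (3 : ℚ) * x χ = R χ - V1 χ := by exact_mod_cast h
    rw [← h']; ring
  have hyq : ∀ χ, (y χ : ℚ) = (R χ - V2 χ) / 3 := by
    intro χ
    have h := congrFun hy χ
    simp only [Pi.smul_apply, Pi.sub_apply, smul_eq_mul] at h
    have h' : (3 : ℚ) * y χ = R χ - V2 χ := by exact_mod_cast h
    rw [← h']; ring
  -- the class algebra relations
  have hInv : ∀ {z : G}, z ^ 2 = 1 → KleinComb.Inv D x y R o (val z) := by
    intro z hz
    have c12 := class_zero S.e1_3 S.r1 S.e2_3 S.r2 hz S.n12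
    have c1R := class_zero S.e1_3 S.r1 S.e12_3 S.r12 hz S.n13
    have c2R := class_zero S.e2_3 S.r2 S.e12_3 S.r12 hz S.n23
    rw [← hV1, ← hV2, ← hD] at c12
    rw [← hV1, ← hR, ← hD] at c1R
    rw [← hV2, ← hR, ← hD] at c2R
    refine ⟨vo z, hxZ hz, hyZ hz, zzR hz, ?_, ?_, ?_⟩
    · rw [Finset.mul_sum, ← sub_eq_zero, ← Finset.sum_sub_distrib]
      have : ∀ i, ((x i : ℚ) * R i) * ((val z i : ℚ) / D i) -
          3 * (((x i : ℚ) * y i) * ((val z i : ℚ) / D i)) =
          (1 / 3) * (((V2 i : ℚ) * R i) * ((val z i : ℚ) / D i)) -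
          (1 / 3) * (((V1 i : ℚ) * V2 i) * ((val z i : ℚ) / D i)) := by
        intro i
        rw [hxq, hyq]; ring
      rw [Finset.sum_congr rfl fun i _ => this i, Finset.sum_sub_distrib, ← Finset.mul_sum,
        ← Finset.mul_sum, c2R, c12]
      norm_num
    · rw [Finset.mul_sum, ← sub_eq_zero, ← Finset.sum_sub_distrib]
      have : ∀ i, ((y i : ℚ) * R i) * ((val z i : ℚ) / D i) -
          3 * (((x i : ℚ) * y i) * ((val z i : ℚ) / D i)) =
          (1 / 3) * (((V1 i : ℚ) * R i) * ((val z i : ℚ) / D i)) -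
          (1 / 3) * (((V1 i : ℚ) * V2 i) * ((val z i : ℚ) / D i)) := by
        intro i
        rw [hxq, hyq]; ring
      rw [Finset.sum_congr rfl fun i _ => this i, Finset.sum_sub_distrib, ← Finset.mul_sum,
        ← Finset.mul_sum, c1R, c12]
      norm_num
    · rw [Finset.mul_sum, ← sub_eq_zero, ← Finset.sum_sub_distrib]
      have : ∀ i, ((R i : ℚ) * R i) * ((val z i : ℚ) / D i) -
          9 * (((x i : ℚ) * y i) * ((val z i : ℚ) / D i)) =
          (((V1 i : ℚ) * R i) * ((val z i : ℚ) / D i)) +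
          (((V2 i : ℚ) * R i) * ((val z i : ℚ) / D i)) -
          (((V1 i : ℚ) * V2 i) * ((val z i : ℚ) / D i)) := by
        intro i
        rw [hxq, hyq]; ring
      rw [Finset.sum_congr rfl fun i _ => this i, Finset.sum_sub_distrib, Finset.sum_add_distrib,
        c1R, c2R, c12]
      norm_num
  -- the counts of elements inverting
  have hcount : ∀ {z e : G}, z ^ 2 = 1 → e ^ 3 = 1 → IsConj e e⁻¹ →
      (∀ g : G, g * (e1 * e2) * g⁻¹ = (e1 * e2)⁻¹ → g * e * g⁻¹ = e⁻¹) →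
      z * e * z⁻¹ = e⁻¹ → z * (e1 * e2) * z⁻¹ ≠ (e1 * e2)⁻¹ →
      ∑ i, ((R i : ℚ) * val z i) * ((val z i : ℚ) / D i) ≠
        ∑ i, ((val e i : ℚ) * val z i) * ((val z i : ℚ) / D i) := by
    intro z e hz he her hsub hze hz12 heq
    obtain ⟨c, hc, hcs⟩ := class_inv hz
    have h1 := hcs (e1 * e2) S.e12_3 S.r12
    have h2 := hcs e he her
    rw [← hR, ← hD, heq] at h1
    rw [← hD] at h2
    rw [← h2] at h1
    have h3 : Nat.card {u : G // IsConj z u ∧ u * (e1 * e2) * u⁻¹ = (e1 * e2)⁻¹} =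
        Nat.card {u : G // IsConj z u ∧ u * e * u⁻¹ = e⁻¹} := by exact_mod_cast h1
    have h4 : ({u : G | IsConj z u ∧ u * (e1 * e2) * u⁻¹ = (e1 * e2)⁻¹} : Set G) ⊂
        {u : G | IsConj z u ∧ u * e * u⁻¹ = e⁻¹} := by
      refine ⟨fun u hu => ⟨hu.1, hsub u hu.2⟩, fun h => hz12 ?_⟩
      exact (h (a := z) ⟨IsConj.refl z, hze⟩).2
    have h5 := Set.ncard_lt_ncard h4 (Set.toFinite _)
    rw [← Nat.card_coe_set_eq, ← Nat.card_coe_set_eq] at h5
    exact absurd h3 h5.ne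
  have q1 : ∑ i, ((x i : ℚ) * val z1 i) * ((val z1 i : ℚ) / D i) ≠ 0 := by
    have h1 := hcount S.z1_2 S.e1_3 S.r1 (fun g hg => (S.inv g hg).1) S.a11 (by
      intro h
      have h2 : z1 * (e1 * e2) * z1⁻¹ = (z1 * e1 * z1⁻¹) * (z1 * e2 * z1⁻¹) := by group
      rw [h, S.a11, S.a12, S.inv12] at h2
      have h3 : e2⁻¹ = e2 := mul_left_cancel h2
      have h4 := mul_self_of_three S.e2_3
      rw [h3] at h4
      exact S.e2_ne (mul_eq_left.1 h4))
    intro h
    apply h1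
    rw [← hV1]
    have h2 : ∀ i, ((x i : ℚ) * val z1 i) * ((val z1 i : ℚ) / D i) =
        (1 / 3) * (((R i : ℚ) * val z1 i) * ((val z1 i : ℚ) / D i)) -
        (1 / 3) * (((V1 i : ℚ) * val z1 i) * ((val z1 i : ℚ) / D i)) := by
      intro i
      rw [hxq]; ring
    rw [Finset.sum_congr rfl fun i _ => h2 i, Finset.sum_sub_distrib, ← Finset.mul_sum,
      ← Finset.mul_sum] at h
    linarith
  have q2 : ∑ i, ((y i : ℚ) * val z2 i) * ((val z2 i : ℚ) / D i) ≠ 0 := by
    have h1 := hcount S.z2_2 S.e2_3 S.r2 (fun g hg => (S.inv g hg).2) S.a22 (by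
      intro h
      have h2 : z2 * (e1 * e2) * z2⁻¹ = (z2 * e1 * z2⁻¹) * (z2 * e2 * z2⁻¹) := by group
      rw [h, S.a21, S.a22, S.inv12] at h2
      have h3 : e1⁻¹ = e1 := mul_right_cancel h2
      have h4 := mul_self_of_three S.e1_3
      rw [h3] at h4
      exact S.e1_ne (mul_eq_left.1 h4))
    intro h
    apply h1
    rw [← hV2]
    have h2 : ∀ i, ((y i : ℚ) * val z2 i) * ((val z2 i : ℚ) / D i) =
        (1 / 3) * (((R i : ℚ) * val z2 i) * ((val z2 i : ℚ) / D i)) -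
        (1 / 3) * (((V2 i : ℚ) * val z2 i) * ((val z2 i : ℚ) / D i)) := by
      intro i
      rw [hyq]; ring
    rw [Finset.sum_congr rfl fun i _ => h2 i, Finset.sum_sub_distrib, ← Finset.mul_sum,
      ← Finset.mul_sum] at h
    linarith
  -- linear characters
  have lin : ∀ i, D i = 1 → val z1 i = 1 ∨ val z2 i = 1 ∨ val (z1 * z2) i = 1 := by
    intro χ hχ
    have h1 : (χ : G → ℂ) 1 = 1 := by rw [← cD, hχ, Int.cast_one]
    obtain ⟨φ, hφ⟩ := CharactersDeep.LinearExt.exists_hom_of_isCharacter (Core.isIrr_isCharacter χ.2) h1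
    have k1 : (val z1 χ : ℂ) = φ z1 := by rw [cZ S.z1_2, hφ]
    have k2 : (val z2 χ : ℂ) = φ z2 := by rw [cZ S.z2_2, hφ]
    have k3 : (val (z1 * z2) χ : ℂ) = φ z1 * φ z2 := by
      rw [cZ S.z12_2, ← hφ, map_mul, Units.val_mul]
    have k4 : val (z1 * z2) χ = val z1 χ * val z2 χ := by
      have : ((val (z1 * z2) χ : ℤ) : ℂ) = ((val z1 χ * val z2 χ : ℤ) : ℂ) := by
        rw [k3, Int.cast_mul, k1, k2]
      exact_mod_cast this
    have k5 : val z1 χ * val z1 χ = 1 := by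
      have : ((val z1 χ * val z1 χ : ℤ) : ℂ) = ((1 : ℤ) : ℂ) := by
        rw [Int.cast_mul, k1, ← Units.val_mul, ← map_mul, ← pow_two, S.z1_2, map_one]
        simp
      exact_mod_cast this
    have k6 : val z2 χ * val z2 χ = 1 := by
      have : ((val z2 χ * val z2 χ : ℤ) : ℂ) = ((1 : ℤ) : ℂ) := by
        rw [Int.cast_mul, k2, ← Units.val_mul, ← map_mul, ← pow_two, S.z2_2, map_one]
        simp
      exact_mod_cast this
    rcases Int.eq_one_or_neg_one_of_mul_eq_one k5 with h | h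
    · exact Or.inl h
    · rcases Int.eq_one_or_neg_one_of_mul_eq_one k6 with h' | h'
      · exact Or.inr (Or.inl h')
      · right; right
        rw [k4, h, h']; norm_num
  rcases KleinComb.core D x y R m n (val z1) (val z2) (val (z1 * z2)) o Dpos Do hxo hyo (vo _) hmo
    hno hxx hyy hmm hnn oRR hxy hxr hyr hmx hmy hmr hnx hny hnr hmn hxD hyD dR hmD hnD
    (hInv S.z1_2) (hInv S.z2_2) (hInv S.z12_2) q1 q2 lin with h | h
  · exfalso
    obtain ⟨χ, hxχ, hyχ, hz⟩ := h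
    have hχ := Core.isIrr_isCharacter χ.2
    -- if `e1` is in the kernel then `y χ = 0`
    have hy0 : e1 ∈ H686.CharKit.chKer χ → y χ = 0 := by
      intro hk
      have h1 : (χ : G → ℂ) (e1 * e2) = (χ : G → ℂ) e2 := H686.CharKit.apply_mul_of_eq hχ hk e2
      rw [← cR, ← cV2] at h1
      have h2 : R χ = V2 χ := by exact_mod_cast h1
      have h := congrFun hy χ
      simp only [Pi.smul_apply, Pi.sub_apply, smul_eq_mul] at h
      omega
    have hx0 : e2 ∈ H686.CharKit.chKer χ → x χ = 0 := by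
      intro hk
      have h1 : (χ : G → ℂ) (e1 * e2) = (χ : G → ℂ) e1 := H686.CharKit.apply_mul_of_eq' hχ hk e1
      rw [← cR, ← cV1] at h1
      have h2 : R χ = V1 χ := by exact_mod_cast h1
      have h := congrFun hx χ
      simp only [Pi.smul_apply, Pi.sub_apply, smul_eq_mul] at h
      omega
    have hker : ∀ z e : G, e ^ 3 = 1 → z ∈ H686.CharKit.chKer χ → z * e * z⁻¹ = e⁻¹ →
        e ∈ H686.CharKit.chKer χ := by
      intro z e he hz hze
      have h1 : z * (e * z⁻¹ * e⁻¹) ∈ H686.CharKit.chKer χ :=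
        mul_mem hz ((H686.CharKit.chKer_normal χ).conj_mem _ (inv_mem hz) e)
      have h2 : z * (e * z⁻¹ * e⁻¹) = e⁻¹ * e⁻¹ := by rw [← hze]; group
      rw [h2, ← mul_inv_rev, mul_self_of_three he, inv_inv] at h1
      exact h1
    have hmem : ∀ {z : G}, z ^ 2 = 1 → val z χ = D χ → z ∈ H686.CharKit.chKer χ := by
      intro z hz h
      rw [H686.CharKit.mem_chKer, ← cZ hz, ← cD, h]
    rcases hz with h | h | h
    · exact hyχ (hy0 (hker z1 e1 S.e1_3 (hmem S.z1_2 h) S.a11))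
    · exact hxχ (hx0 (hker z2 e2 S.e2_3 (hmem S.z2_2 h) S.a22))
    · exact hyχ (hy0 (hker (z1 * z2) e1 S.e1_3 (hmem S.z12_2 h) S.a31))
  · obtain ⟨a, b, c, d, ab, ac, ad, bc, bd, cd, Da, Db, Dc, Dd⟩ := h
    rw [← S0154.result]
    have hone : ∀ {χ : IrrCharacter G}, D χ = 1 → (χ : G → ℂ) 1 = 1 := by
      intro χ h
      rw [← cD, h, Int.cast_one]
    exact four_of_distinct ab ac ad bc bd cd (hone Da) (hone Db) (hone Dc) (hone Dd)

end Setup

end Cfsg.Agent.H454.KleinChar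
end

-- part: H454/KleinGroup
section
/-!
# The configuration of S3805: Sylow 3-subgroup of order 9, Klein four automizer
-/

set_option autoImplicit false

open Cfsg Cfsg.Agent.H454.KleinChar

namespace Cfsg.Agent.H454.KleinGroup

variable {G : Type*} [Group G]

/-- A complement of `T` in its normalizer. -/
theorem exists_complement [Finite G] (T : Sylow 3 G) (hcard : Nat.card T = 9)
    [hn : ((T : Subgroup G).subgroupOf (Subgroup.normalizer ((T : Subgroup G) : Set G))).Normal]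
    (hK : IsKleinFour (↥(Subgroup.normalizer ((T : Subgroup G) : Set G)) ⧸
      (T : Subgroup G).subgroupOf (Subgroup.normalizer ((T : Subgroup G) : Set G)))) :
    ∃ V : Subgroup G, V ≤ Subgroup.normalizer ((T : Subgroup G) : Set G) ∧ Nat.card V = 4 ∧
      (∀ v ∈ V, v * v = 1) ∧ V ⊓ (T : Subgroup G) = ⊥ ∧
      ∀ n ∈ Subgroup.normalizer ((T : Subgroup G) : Set G), ∃ t ∈ (T : Subgroup G), ∃ v ∈ V,
        n = t * v := by
  set N := Subgroup.normalizer ((T : Subgroup G) : Set G) with hN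
  set T0 := (T : Subgroup G).subgroupOf N with hT0
  have hTN : (T : Subgroup G) ≤ N := Subgroup.le_normalizer
  have c1 : Nat.card T0 = 9 := by
    rw [← hcard]
    exact Nat.card_congr (Subgroup.subgroupOfEquivOfLe hTN).toEquiv
  have c2 : T0.index = 4 := by
    rw [Subgroup.index_eq_card]
    exact hK.card_four
  obtain ⟨V0, hV0⟩ := Subgroup.exists_right_complement'_of_coprime (N := T0) (by
    rw [c1, c2]; decide)
  have e : (N ⧸ T0) ≃* V0 := hV0.symm.QuotientMulEquiv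
  refine ⟨V0.map N.subtype, ?_, ?_, ?_, ?_, ?_⟩
  · rw [Subgroup.map_le_iff_le_comap]
    intro x _
    exact x.2
  · rw [Subgroup.card_map_of_injective N.subtype_injective, ← Nat.card_congr e.toEquiv]
    exact hK.card_four
  · rintro _ ⟨v, hv, rfl⟩
    have h1 : (⟨v, hv⟩ : V0) * ⟨v, hv⟩ = 1 := by
      apply e.symm.injective
      rw [map_mul, map_one, hK.mul_self]
    have h2 : v * v = 1 := congrArg Subtype.val h1
    rw [← map_mul, h2, map_one]
  · rw [eq_bot_iff]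
    rintro _ ⟨⟨v, hv, rfl⟩, hT⟩
    have h1 : v ∈ T0 := by
      rw [hT0, Subgroup.mem_subgroupOf]; exact hT
    have h2 : v ∈ T0 ⊓ V0 := ⟨h1, hv⟩
    rw [hV0.disjoint.eq_bot] at h2
    rw [Subgroup.mem_bot] at h2 ⊢
    rw [h2, map_one]
  · intro n hn'
    obtain ⟨⟨t, v⟩, htv⟩ := hV0.2 ⟨n, hn'⟩
    refine ⟨t.1.1, ?_, v.1.1, ⟨v.1, v.2, rfl⟩, ?_⟩
    · have := t.2
      exact Subgroup.mem_subgroupOf.1 this
    · have := congrArg Subtype.val htv
      exact this.symm

/-- A proper subgroup of a group of order 9 containing a nonidentity element is generated by it. -/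
theorem eq_zpowers [Finite G] {T A : Subgroup G} (hcard : Nat.card T = 9) (hA : A ≤ T)
    (hne : A ≠ T) {x : G} (hx : x ∈ A) (hx1 : x ≠ 1) (h3 : x ^ 3 = 1) : A = Subgroup.zpowers x := by
  have h1 : Nat.card A ∣ 9 := hcard ▸ Subgroup.card_dvd_of_le hA
  have h2 : Subgroup.zpowers x ≤ A := by rw [Subgroup.zpowers_le]; exact hx
  have h3 : Nat.card (Subgroup.zpowers x) = 3 := by
    rw [Nat.card_zpowers]
    exact orderOf_eq_prime h3 hx1
  have h4 : Nat.card A = 1 ∨ Nat.card A = 3 ∨ Nat.card A = 9 := by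
    have : Nat.card A ∈ Nat.divisors 9 := Nat.mem_divisors.2 ⟨h1, by norm_num⟩
    have h5 : Nat.divisors 9 = {1, 3, 9} := by decide
    rw [h5] at this
    simpa using this
  have h5 : Nat.card A ≤ 3 := by
    rcases h4 with h | h | h
    · omega
    · omega
    · exact absurd (Subgroup.eq_of_le_of_card_ge hA (by rw [h, hcard])) hne
  exact (Subgroup.eq_of_le_of_card_ge h2 (by rw [h3]; exact h5)).symm

theorem mem_zpowers_three {x y : G} (h3 : x ^ 3 = 1) (hy : y ∈ Subgroup.zpowers x) :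
    y = 1 ∨ y = x ∨ y = x⁻¹ := by
  obtain ⟨k, rfl⟩ := Subgroup.mem_zpowers_iff.1 hy
  have h1 : x ^ k = x ^ (k % 3) := by
    have h2 : x ^ (3 : ℤ) = 1 := by exact_mod_cast h3
    conv_lhs => rw [← Int.emod_add_mul_ediv k 3, zpow_add, zpow_mul, h2, one_zpow, mul_one]
  rw [h1]
  have h4 := Int.emod_nonneg k (by norm_num : (3 : ℤ) ≠ 0)
  have h5 := Int.emod_lt_of_pos k (by norm_num : (0 : ℤ) < 3)
  generalize k % 3 = j at h4 h5
  interval_cases j
  · left; simp
  · right; left; simp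
  · right; right
    refine eq_inv_of_mul_eq_one_left ?_
    rw [← h3]
    show x ^ (2 : ℤ) * x = _
    rw [← zpow_add_one]
    norm_cast

theorem mul_pow_of_inv (x : G) : x ^ 2 * x⁻¹ ^ 2 = 1 := by
  rw [inv_pow, mul_inv_cancel]

/-- The elements `e1, e2, z1, z2`. -/
structure Loc (T V : Subgroup G) (e1 e2 z1 z2 : G) : Prop where
  m1 : e1 ∈ T
  m2 : e2 ∈ T
  v1 : z1 ∈ V
  v2 : z2 ∈ V
  n1 : e1 ≠ 1
  n2 : e2 ≠ 1
  a11 : z1 * e1 * z1⁻¹ = e1⁻¹
  a12 : z1 * e2 * z1⁻¹ = e2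
  a21 : z2 * e1 * z2⁻¹ = e1
  a22 : z2 * e2 * z2⁻¹ = e2⁻¹
  dec : ∀ t ∈ T, ∃ c ∈ Subgroup.zpowers e1, ∃ d ∈ Subgroup.zpowers e2, t = c * d
  act : ∀ v ∈ V, (v * e1 * v⁻¹ = e1 ∨ v * e1 * v⁻¹ = e1⁻¹) ∧ (v * e2 * v⁻¹ = e2 ∨ v * e2 * v⁻¹ = e2⁻¹)

theorem exists_loc [Finite G] {T V : Subgroup G} (hT : Cfsg.IsElementaryAbelian 3 T)
    (hcard : Nat.card T = 9) (hVN : V ≤ Subgroup.normalizer (T : Set G)) (hV4 : Nat.card V = 4)
    (hV2 : ∀ v ∈ V, v * v = 1) (hfaith : ∀ v ∈ V, (∀ t ∈ T, v * t * v⁻¹ = t) → v = 1) :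
    ∃ e1 e2 z1 z2 : G, Loc T V e1 e2 z1 z2 := by
  have hab : ∀ a ∈ T, ∀ b ∈ T, a * b = b * a := by
    intro a ha b hb
    have := hT.1
    exact congrArg Subtype.val (this.is_comm.comm (⟨a, ha⟩ : T) ⟨b, hb⟩)
  have h3 : ∀ a ∈ T, a ^ 3 = 1 := hT.2
  have hconj : ∀ v ∈ V, ∀ t ∈ T, v * t * v⁻¹ ∈ T := by
    intro v hv t ht
    exact (Subgroup.mem_normalizer_iff.1 (hVN hv) t).1 ht
  have hVi : ∀ v ∈ V, v⁻¹ = v := fun v hv => inv_eq_of_mul_eq_one_left (hV2 v hv)
  have hVc : ∀ v ∈ V, ∀ w ∈ V, v * w = w * v := by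
    intro v hv w hw
    have h1 := hVi (v * w) (mul_mem hv hw)
    rw [mul_inv_rev, hVi v hv, hVi w hw] at h1
    exact h1.symm
  -- choose z2
  have hz2 : ∃ z2 ∈ V, z2 ≠ 1 ∧ ∃ e1 ∈ T, e1 ≠ 1 ∧ z2 * e1 * z2⁻¹ = e1 := by
    by_contra hc
    push Not at hc
    have hinv : ∀ v ∈ V, v ≠ 1 → ∀ t ∈ T, v * t * v⁻¹ = t⁻¹ := by
      intro v hv hv1 t ht
      by_contra hne
      have hvt := hconj v hv t ht
      have h1 : t * (v * t * v⁻¹) ≠ 1 := by
        intro h
        exact hne (eq_inv_of_mul_eq_one_right h)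
      refine hc v hv hv1 _ (mul_mem ht hvt) h1 ?_
      have h2 : v * (t * (v * t * v⁻¹)) * v⁻¹ = (v * t * v⁻¹) * ((v * v) * t * (v * v)⁻¹) := by group
      rw [h2, hV2 v hv, hab t ht _ hvt]
      group
    -- two distinct involutions
    obtain ⟨v, hv, hv1⟩ : ∃ v ∈ V, v ≠ 1 := by
      by_contra h
      push Not at h
      have : V = ⊥ := by rw [eq_bot_iff]; intro x hx; exact Subgroup.mem_bot.2 (h x hx)
      rw [this, Subgroup.card_bot] at hV4
      omega
    obtain ⟨w, hw, hw1, hwv⟩ : ∃ w ∈ V, w ≠ 1 ∧ w ≠ v := by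
      by_contra h
      push Not at h
      have h1 : V ≤ Subgroup.zpowers v := by
        intro x hx
        by_cases hx1 : x = 1
        · rw [hx1]; exact one_mem _
        · rw [h x hx hx1]; exact Subgroup.mem_zpowers v
      have h2 := Subgroup.card_le_of_le h1
      rw [Nat.card_zpowers, hV4] at h2
      have h4 : orderOf v ≤ 2 := orderOf_le_of_pow_eq_one (by norm_num) (by rw [pow_two, hV2 v hv])
      omega
    have h5 : v * w = 1 := by
      refine hfaith _ (mul_mem hv hw) fun t ht => ?_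
      have h6 : v * w * t * (v * w)⁻¹ = v * (w * t * w⁻¹) * v⁻¹ := by group
      rw [h6, hinv w hw hw1 t ht, hinv v hv hv1 _ (inv_mem ht), inv_inv]
    apply hwv
    have := eq_inv_of_mul_eq_one_right h5
    rw [this, hVi v hv]
  obtain ⟨z2, hz2V, hz21, e1, he1, he11, hze⟩ := hz2
  -- choose e2
  obtain ⟨t, ht, htne⟩ : ∃ t ∈ T, z2 * t * z2⁻¹ ≠ t := by
    by_contra h
    push Not at h
    exact hz21 (hfaith z2 hz2V h)
  have hzt := hconj z2 hz2V t ht
  set e2 := t⁻¹ * (z2 * t * z2⁻¹) with he2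
  have he2T : e2 ∈ T := mul_mem (inv_mem ht) hzt
  have he21 : e2 ≠ 1 := by
    intro h
    exact htne (inv_mul_eq_one.1 h).symm
  have hze2 : z2 * e2 * z2⁻¹ = e2⁻¹ := by
    have h1 : z2 * e2 * z2⁻¹ = (z2 * t * z2⁻¹)⁻¹ * ((z2 * z2) * t * (z2 * z2)⁻¹) := by
      rw [he2]; group
    rw [h1, hV2 z2 hz2V, he2]
    group
  -- the centralizer and the inverted subgroup
  set A : Subgroup G := T ⊓ Subgroup.centralizer {z2} with hA
  have hmemA : ∀ x, x ∈ A ↔ x ∈ T ∧ z2 * x * z2⁻¹ = x := by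
    intro x
    rw [hA, Subgroup.mem_inf, Subgroup.mem_centralizer_singleton_iff, mul_inv_eq_iff_eq_mul]
    exact ⟨fun h => ⟨h.1, h.2.symm⟩, fun h => ⟨h.1, h.2.symm⟩⟩
  have hAz : A = Subgroup.zpowers e1 := by
    refine eq_zpowers hcard inf_le_left ?_ ((hmemA e1).2 ⟨he1, hze⟩) he11 (h3 e1 he1)
    intro h
    exact htne ((hmemA t).1 (by rw [hA, h]; exact ht)).2
  let B : Subgroup G :=
    { carrier := {x | x ∈ T ∧ z2 * x * z2⁻¹ = x⁻¹}
      one_mem' := ⟨one_mem _, by group⟩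
      mul_mem' := by
        rintro a b ⟨ha, ha'⟩ ⟨hb, hb'⟩
        refine ⟨mul_mem ha hb, ?_⟩
        have h1 : z2 * (a * b) * z2⁻¹ = (z2 * a * z2⁻¹) * (z2 * b * z2⁻¹) := by group
        rw [h1, ha', hb', hab a ha b hb, mul_inv_rev]
      inv_mem' := by
        rintro a ⟨ha, ha'⟩
        refine ⟨inv_mem ha, ?_⟩
        have h1 : z2 * a⁻¹ * z2⁻¹ = (z2 * a * z2⁻¹)⁻¹ := by group
        rw [h1, ha'] }
  have hmemB : ∀ x, x ∈ B ↔ x ∈ T ∧ z2 * x * z2⁻¹ = x⁻¹ := fun x => Iff.rfl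
  have hBz : B = Subgroup.zpowers e2 := by
    refine eq_zpowers hcard (fun x hx => ((hmemB x).1 hx).1) ?_ ((hmemB e2).2 ⟨he2T, hze2⟩) he21
      (h3 e2 he2T)
    intro h
    have h1 := ((hmemB e1).1 (by rw [h]; exact he1)).2
    rw [hze] at h1
    have h2 := mul_self_of_three (h3 e1 he1)
    rw [← h1] at h2
    exact he11 (mul_eq_left.1 h2)
  have hdec : ∀ t ∈ T, ∃ c ∈ Subgroup.zpowers e1, ∃ d ∈ Subgroup.zpowers e2, t = c * d := by
    intro t ht
    have hzt := hconj z2 hz2V t ht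
    have hc : t * (z2 * t * z2⁻¹) ∈ A := by
      refine (hmemA _).2 ⟨mul_mem ht hzt, ?_⟩
      have h1 : z2 * (t * (z2 * t * z2⁻¹)) * z2⁻¹ = (z2 * t * z2⁻¹) * ((z2 * z2) * t * (z2 * z2)⁻¹) := by
        group
      rw [h1, hV2 z2 hz2V, hab t ht _ hzt]
      group
    have hd : t * (z2 * t * z2⁻¹)⁻¹ ∈ B := by
      refine (hmemB _).2 ⟨mul_mem ht (inv_mem hzt), ?_⟩
      have h1 : z2 * (t * (z2 * t * z2⁻¹)⁻¹) * z2⁻¹ =
          (z2 * t * z2⁻¹) * ((z2 * z2) * t * (z2 * z2)⁻¹)⁻¹ := by group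
      rw [h1, hV2 z2 hz2V]
      group
    rw [hAz] at hc
    rw [hBz] at hd
    refine ⟨_, pow_mem hc 2, _, pow_mem hd 2, ?_⟩
    have c1 : Commute t (z2 * t * z2⁻¹) := hab t ht _ hzt
    have c2 : Commute t (z2 * t * z2⁻¹)⁻¹ := c1.inv_right
    rw [c1.mul_pow, c2.mul_pow]
    have e4 : t ^ 2 * t ^ 2 = t := by
      rw [← pow_add, show 2 + 2 = 3 + 1 by norm_num, pow_succ, h3 t ht, one_mul]
    calc t = t ^ 2 * t ^ 2 := e4.symm
      _ = t ^ 2 * ((z2 * t * z2⁻¹) ^ 2 * (z2 * t * z2⁻¹)⁻¹ ^ 2) * t ^ 2 := by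
          rw [mul_pow_of_inv, mul_one]
      _ = _ := by
          have c3 : Commute ((z2 * t * z2⁻¹)⁻¹ ^ 2) (t ^ 2) := (c2.symm.pow_left 2).pow_right 2
          rw [mul_assoc, mul_assoc, c3.eq, ← mul_assoc, ← mul_assoc]
  -- the action of `V`
  have hact : ∀ v ∈ V, (v * e1 * v⁻¹ = e1 ∨ v * e1 * v⁻¹ = e1⁻¹) ∧
      (v * e2 * v⁻¹ = e2 ∨ v * e2 * v⁻¹ = e2⁻¹) := by
    intro v hv
    have hvz := hVc v hv z2 hz2V
    have k : ∀ x : G, z2 * (v * x * v⁻¹) * z2⁻¹ = v * (z2 * x * z2⁻¹) * v⁻¹ := by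
      intro x
      calc z2 * (v * x * v⁻¹) * z2⁻¹ = (z2 * v) * x * (z2 * v)⁻¹ := by group
        _ = (v * z2) * x * (v * z2)⁻¹ := by rw [hvz]
        _ = _ := by group
    constructor
    · have h1 : v * e1 * v⁻¹ ∈ A := (hmemA _).2 ⟨hconj v hv e1 he1, by rw [k, hze]⟩
      rw [hAz] at h1
      rcases mem_zpowers_three (h3 e1 he1) h1 with h | h | h
      · exact absurd (conj_eq_one_iff.1 h) he11
      · exact Or.inl h
      · exact Or.inr h
    · have h1 : v * e2 * v⁻¹ ∈ B := (hmemB _).2 ⟨hconj v hv e2 he2T, by rw [k, hze2]; group⟩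
      rw [hBz] at h1
      rcases mem_zpowers_three (h3 e2 he2T) h1 with h | h | h
      · exact absurd (conj_eq_one_iff.1 h) he21
      · exact Or.inl h
      · exact Or.inr h
  have htriv : ∀ v ∈ V, v * e1 * v⁻¹ = e1 → v * e2 * v⁻¹ = e2 → v = 1 := by
    intro v hv h1 h2
    refine hfaith v hv fun t ht => ?_
    obtain ⟨c, hc, d, hd, rfl⟩ := hdec t ht
    obtain ⟨i, rfl⟩ := Subgroup.mem_zpowers_iff.1 hc
    obtain ⟨j, rfl⟩ := Subgroup.mem_zpowers_iff.1 hd
    have h3 : v * (e1 ^ i * e2 ^ j) * v⁻¹ = (v * e1 * v⁻¹) ^ i * (v * e2 * v⁻¹) ^ j := by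
      rw [conj_zpow, conj_zpow]; group
    rw [h3, h1, h2]
  obtain ⟨w, hw, hw1, hwz⟩ : ∃ w ∈ V, w ≠ 1 ∧ w ≠ z2 := by
    by_contra h
    push Not at h
    have h1 : V ≤ Subgroup.zpowers z2 := by
      intro x hx
      by_cases hx1 : x = 1
      · rw [hx1]; exact one_mem _
      · rw [h x hx hx1]; exact Subgroup.mem_zpowers z2
    have h2 := Subgroup.card_le_of_le h1
    rw [Nat.card_zpowers, hV4] at h2
    have h4 : orderOf z2 ≤ 2 := orderOf_le_of_pow_eq_one (by norm_num) (by rw [pow_two, hV2 z2 hz2V])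
    omega
  have hwz2 : ∀ x : G, w * z2 * x * (w * z2)⁻¹ = w * (z2 * x * z2⁻¹) * w⁻¹ := fun x => by group
  have hinvw : ∀ x : G, w * x⁻¹ * w⁻¹ = (w * x * w⁻¹)⁻¹ := fun x => by group
  obtain ⟨h1, h2⟩ := hact w hw
  rcases h2 with h2 | h2
  · rcases h1 with h1 | h1
    · exact absurd (htriv w hw h1 h2) hw1
    · exact ⟨e1, e2, w, z2, ⟨he1, he2T, hw, hz2V, he11, he21, h1, h2, hze, hze2, hdec, hact⟩⟩
  · rcases h1 with h1 | h1
    · exfalso
      have h5 := htriv (w * z2) (mul_mem hw hz2V) (by rw [hwz2, hze, h1])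
        (by rw [hwz2, hze2, hinvw, h2, inv_inv])
      exact hwz (by rw [eq_inv_of_mul_eq_one_left h5, hVi z2 hz2V])
    · exact ⟨e1, e2, w * z2, z2, ⟨he1, he2T, mul_mem hw hz2V, hz2V, he11, he21,
        by rw [hwz2, hze, h1], by rw [hwz2, hze2, hinvw, h2, inv_inv], hze, hze2, hdec, hact⟩⟩

theorem card_two_mul [Finite G] {H C : Subgroup G} (hHC : H ≤ C) {a : G} (ha : a ∈ C) (haH : a ∉ H)
    (h : ∀ b ∈ C, b ∈ H ∨ b * a ∈ H) : Nat.card C = 2 * Nat.card H := by
  have h1 : (H.subgroupOf C).index = 2 := by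
    rw [Subgroup.index_eq_two_iff]
    refine ⟨⟨a, ha⟩, fun b => ?_⟩
    have hb := h b b.2
    simp only [Subgroup.mem_subgroupOf, Subgroup.coe_mul]
    rcases hb with hb | hb
    · right
      refine ⟨hb, fun hba => haH ?_⟩
      have := mul_mem (inv_mem hb) hba
      rwa [inv_mul_cancel_left] at this
    · left
      refine ⟨hb, fun hb' => haH ?_⟩
      have := mul_mem (inv_mem hb') hb
      rwa [inv_mul_cancel_left] at this
  have h2 := (H.subgroupOf C).card_mul_index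
  rw [h1, Nat.card_congr (Subgroup.subgroupOfEquivOfLe hHC).toEquiv] at h2
  omega

/-- The ambient hypotheses on `T` and a complement `V` of `T` in its normalizer. -/
structure Amb (T V : Subgroup G) : Prop where
  elem : Cfsg.IsElementaryAbelian 3 T
  card : Nat.card T = 9
  cent : Subgroup.centralizer (T : Set G) = T
  loc : ∀ t ∈ T, t ≠ 1 → Subgroup.centralizer ({t} : Set G) ≤ Subgroup.normalizer (T : Set G)
  le : V ≤ Subgroup.normalizer (T : Set G)
  card' : Nat.card V = 4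
  two : ∀ v ∈ V, v * v = 1
  disj : V ⊓ T = ⊥
  prod : ∀ n ∈ Subgroup.normalizer (T : Set G), ∃ t ∈ T, ∃ v ∈ V, n = t * v

namespace Amb

variable {T V : Subgroup G} (A : Amb T V)
include A

theorem comm {a b : G} (ha : a ∈ T) (hb : b ∈ T) : a * b = b * a := by
  have := A.elem.1
  exact congrArg Subtype.val (this.is_comm.comm (⟨a, ha⟩ : T) ⟨b, hb⟩)

theorem three {a : G} (ha : a ∈ T) : a ^ 3 = 1 := A.elem.2 a ha

omit A in
theorem conj_mem {n t : G} (hn : n ∈ Subgroup.normalizer (T : Set G)) (ht : t ∈ T) :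
    n * t * n⁻¹ ∈ T := (Subgroup.mem_normalizer_iff.1 hn t).1 ht

theorem sq_mem {n : G} (hn : n ∈ Subgroup.normalizer (T : Set G)) : n * n ∈ T := by
  obtain ⟨t, ht, v, hv, rfl⟩ := A.prod n hn
  have h1 : t * v * (t * v) = t * (v * t * v⁻¹) * (v * v) := by group
  rw [h1, A.two v hv, mul_one]
  exact mul_mem ht (Amb.conj_mem (A.le hv) ht)

/-- `N(T)` controls fusion of the nonidentity elements of `T`. -/
theorem fusion [Finite G] {e g : G} (he : e ∈ T) (he1 : e ≠ 1) (hg : g * e * g⁻¹ ∈ T) :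
    g ∈ Subgroup.normalizer (T : Set G) := by
  refine Subgroup.mem_normalizer_fintype fun t ht => ?_
  have h1 : g * t * g⁻¹ ∈ Subgroup.centralizer ({g * e * g⁻¹} : Set G) := by
    rw [Subgroup.mem_centralizer_singleton_iff]
    have h2 := A.comm (show t ∈ T from ht) he
    calc g * t * g⁻¹ * (g * e * g⁻¹) = g * (t * e) * g⁻¹ := by group
      _ = g * (e * t) * g⁻¹ := by rw [h2]
      _ = _ := by group
  have h2 := A.loc _ hg (fun h => he1 (conj_eq_one_iff.1 h)) h1
  have h3 := A.sq_mem h2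
  have h4 : (g * t * g⁻¹) ^ 3 = 1 := by rw [conj_pow, A.three ht]; group
  rw [mul_self_of_three h4] at h3
  exact inv_mem_iff.1 h3

end Amb

namespace Loc

variable {T V : Subgroup G} {e1 e2 z1 z2 : G}

theorem swap (A : Amb T V) (L : Loc T V e1 e2 z1 z2) : Loc T V e2 e1 z2 z1 :=
  ⟨L.m2, L.m1, L.v2, L.v1, L.n2, L.n1, L.a22, L.a21, L.a12, L.a11, fun t ht => by
    obtain ⟨c, hc, d, hd, h⟩ := L.dec t ht
    refine ⟨d, hd, c, hc, ?_⟩
    rw [h]
    exact A.comm ((Subgroup.zpowers_le.2 L.m1) hc) ((Subgroup.zpowers_le.2 L.m2) hd),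
    fun v hv => ⟨(L.act v hv).2, (L.act v hv).1⟩⟩

/-- an element inverted is not centralized -/
theorem ne_inv {e : G} (h3 : e ^ 3 = 1) (h1 : e ≠ 1) : e ≠ e⁻¹ := by
  intro h
  have h2 := mul_self_of_three h3
  rw [← h] at h2
  exact h1 (mul_eq_left.1 h2)

theorem actN (A : Amb T V) (L : Loc T V e1 e2 z1 z2) {n : G}
    (hn : n ∈ Subgroup.normalizer (T : Set G)) :
    (n * e1 * n⁻¹ = e1 ∨ n * e1 * n⁻¹ = e1⁻¹) ∧ (n * e2 * n⁻¹ = e2 ∨ n * e2 * n⁻¹ = e2⁻¹) := by
  obtain ⟨t, ht, v, hv, rfl⟩ := A.prod n hn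
  have h1 : ∀ e ∈ T, t * v * e * (t * v)⁻¹ = v * e * v⁻¹ := by
    intro e he
    have h2 := A.comm ht (Amb.conj_mem (A.le hv) he)
    calc t * v * e * (t * v)⁻¹ = t * (v * e * v⁻¹) * t⁻¹ := by group
      _ = v * e * v⁻¹ := by rw [h2]; group
  rw [h1 e1 L.m1, h1 e2 L.m2]
  exact L.act v hv

theorem memT (A : Amb T V) (L : Loc T V e1 e2 z1 z2) {n : G} (h1 : n * e1 * n⁻¹ = e1)
    (h2 : n * e2 * n⁻¹ = e2) : n ∈ T := by
  rw [← A.cent]
  rw [Subgroup.mem_centralizer_iff]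
  intro t ht
  obtain ⟨c, hc, d, hd, rfl⟩ := L.dec t ht
  obtain ⟨i, rfl⟩ := Subgroup.mem_zpowers_iff.1 hc
  obtain ⟨j, rfl⟩ := Subgroup.mem_zpowers_iff.1 hd
  have c1 : Commute n e1 := mul_inv_eq_iff_eq_mul.1 h1
  have c2 : Commute n e2 := mul_inv_eq_iff_eq_mul.1 h2
  exact ((c1.zpow_right i).mul_right (c2.zpow_right j)).eq.symm

theorem z_ne (L : Loc T V e1 e2 z1 z2) (A : Amb T V) : z2 ≠ 1 := by
  intro h
  have h1 := L.a22
  rw [h] at h1
  exact ne_inv (A.three L.m2) L.n2 (by simpa using h1)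

theorem z_notMem (A : Amb T V) (L : Loc T V e1 e2 z1 z2) : z2 ∉ T := by
  intro h
  have h1 : z2 ∈ V ⊓ T := ⟨L.v2, h⟩
  rw [A.disj, Subgroup.mem_bot] at h1
  exact L.z_ne A h1

theorem cent1 [Finite G] (A : Amb T V) (L : Loc T V e1 e2 z1 z2) {b : G} (hb : b * e1 * b⁻¹ = e1) :
    b ∈ T ∨ b * z2 ∈ T := by
  have hbN : b ∈ Subgroup.normalizer (T : Set G) := A.fusion L.m1 L.n1 (by rw [hb]; exact L.m1)
  rcases (L.actN A hbN).2 with h | h
  · exact Or.inl (L.memT A hb h)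
  · right
    have h1 : ∀ x : G, b * z2 * x * (b * z2)⁻¹ = b * (z2 * x * z2⁻¹) * b⁻¹ := fun x => by group
    refine L.memT A (by rw [h1, L.a21, hb]) ?_
    rw [h1, L.a22]
    have h2 : b * e2⁻¹ * b⁻¹ = (b * e2 * b⁻¹)⁻¹ := by group
    rw [h2, h, inv_inv]

theorem mem_cent {e b : G} : b ∈ Subgroup.centralizer ({e} : Set G) ↔ b * e * b⁻¹ = e := by
  rw [Subgroup.mem_centralizer_singleton_iff, mul_inv_eq_iff_eq_mul]

theorem card1 [Finite G] (A : Amb T V) (L : Loc T V e1 e2 z1 z2) :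
    Nat.card (Subgroup.centralizer ({e1} : Set G)) = 18 := by
  rw [card_two_mul (H := T) (a := z2) (fun t ht => ?_) (mem_cent.2 L.a21) (L.z_notMem A)
    (fun b hb => L.cent1 A (mem_cent.1 hb)), A.card]
  exact mem_cent.2 (by rw [A.comm ht L.m1]; group)

theorem mem_zpowers_of (A : Amb T V) (L : Loc T V e1 e2 z1 z2) {b : G} (hb : b ∈ T)
    (hz : b * z2 * b⁻¹ = z2) : b ∈ Subgroup.zpowers e1 := by
  obtain ⟨c, hc, d, hd, rfl⟩ := L.dec b hb
  have hcT : c ∈ T := (Subgroup.zpowers_le.2 L.m1) hc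
  have hdT : d ∈ T := (Subgroup.zpowers_le.2 L.m2) hd
  have h1 : z2 * c * z2⁻¹ = c := by
    obtain ⟨i, rfl⟩ := Subgroup.mem_zpowers_iff.1 hc
    rw [← conj_zpow, L.a21]
  have h2 : z2 * d * z2⁻¹ = d⁻¹ := by
    obtain ⟨i, rfl⟩ := Subgroup.mem_zpowers_iff.1 hd
    rw [← conj_zpow, L.a22, inv_zpow]
  have h3 : z2 * (c * d) * z2⁻¹ = c * d := by
    have h4 : c * d * z2 = z2 * (c * d) := mul_inv_eq_iff_eq_mul.1 hz
    rw [← h4]; group
  have h4 : z2 * (c * d) * z2⁻¹ = (z2 * c * z2⁻¹) * (z2 * d * z2⁻¹) := by group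
  rw [h3, h1, h2] at h4
  have h5 : d = d⁻¹ := mul_left_cancel h4
  by_cases hd1 : d = 1
  · rw [hd1, mul_one]; exact hc
  · exact absurd h5 (ne_inv (A.three hdT) hd1)

theorem cardw [Finite G] (A : Amb T V) (L : Loc T V e1 e2 z1 z2) :
    Nat.card (Subgroup.centralizer ({e1 * z2} : Set G)) = 6 := by
  have hz : z2 * z2 = 1 := A.two z2 L.v2
  have c1 : Commute e1 z2 := by
    have := L.a21
    rw [mul_inv_eq_iff_eq_mul] at this
    exact this.symm
  have sq : (e1 * z2) ^ 2 = e1⁻¹ := by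
    rw [c1.mul_pow, pow_two z2, hz, mul_one, pow_two, mul_self_of_three (A.three L.m1)]
  have cu : (e1 * z2) ^ 3 = z2 := by
    rw [c1.mul_pow, A.three L.m1, one_mul, pow_succ, pow_two, hz, one_mul]
  have hcar : Nat.card (Subgroup.zpowers e1) = 3 := by
    rw [Nat.card_zpowers]
    exact orderOf_eq_prime (A.three L.m1) L.n1
  have hT : Subgroup.zpowers e1 ≤ T := Subgroup.zpowers_le.2 L.m1
  rw [card_two_mul (H := Subgroup.zpowers e1) (a := z2) ?_ ?_ ?_ ?_, hcar]
  · rw [Subgroup.zpowers_le, Subgroup.mem_centralizer_singleton_iff]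
    exact ((Commute.refl e1).mul_right c1).eq
  · rw [Subgroup.mem_centralizer_singleton_iff]
    exact (c1.symm.mul_right (Commute.refl z2)).eq
  · intro h
    exact L.z_notMem A (hT h)
  · intro b hb
    rw [Subgroup.mem_centralizer_singleton_iff] at hb
    have hb' : Commute b (e1 * z2) := hb
    have h1 : Commute b e1⁻¹ := sq ▸ hb'.pow_right 2
    have h2 : Commute b z2 := cu ▸ hb'.pow_right 3
    have h3 : b * e1 * b⁻¹ = e1 := by
      rw [mul_inv_eq_iff_eq_mul]
      exact Commute.inv_right_iff.1 h1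
    have h4 : b * z2 * b⁻¹ = z2 := mul_inv_eq_iff_eq_mul.2 h2
    rcases L.cent1 A h3 with h | h
    · exact Or.inl (L.mem_zpowers_of A h h4)
    · refine Or.inr (L.mem_zpowers_of A h ?_)
      have h5 : b * z2 * z2 * (b * z2)⁻¹ = b * z2 * b⁻¹ := by group
      rw [h5, h4]

theorem ne12 (A : Amb T V) (L : Loc T V e1 e2 z1 z2) : e1 ≠ e2 := by
  intro h
  have h1 := L.a12
  rw [← h, L.a11] at h1
  exact ne_inv (A.three L.m1) L.n1 h1.symm

theorem ne12' (A : Amb T V) (L : Loc T V e1 e2 z1 z2) : e1⁻¹ ≠ e2 := by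
  intro h
  have h1 := L.a12
  rw [← h] at h1
  have h2 : z1 * e1⁻¹ * z1⁻¹ = (z1 * e1 * z1⁻¹)⁻¹ := by group
  rw [h2, L.a11, inv_inv] at h1
  exact ne_inv (A.three L.m1) L.n1 h1

theorem card12 [Finite G] (A : Amb T V) (L : Loc T V e1 e2 z1 z2) (h12 : e1 * e2 ≠ 1) :
    Nat.card (Subgroup.centralizer ({e1 * e2} : Set G)) = 9 := by
  rw [← A.card]
  congr 2
  have hm := mul_mem L.m1 L.m2
  have h3 := A.three hm
  refine le_antisymm (fun b hb => ?_) (fun t ht => mem_cent.2 (by rw [A.comm ht hm]; group))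
  have hb' := mem_cent.1 hb
  have hbN : b ∈ Subgroup.normalizer (T : Set G) := A.fusion hm h12 (by rw [hb']; exact hm)
  have h1 : b * (e1 * e2) * b⁻¹ = (b * e1 * b⁻¹) * (b * e2 * b⁻¹) := by group
  rw [hb'] at h1
  obtain ⟨k1, k2⟩ := L.actN A hbN
  rcases k1 with k1 | k1 <;> rcases k2 with k2 | k2
  · exact L.memT A k1 k2
  · rw [k1, k2] at h1
    exact absurd (mul_left_cancel h1) (ne_inv (A.three L.m2) L.n2)
  · rw [k1, k2] at h1
    exact absurd (mul_right_cancel h1) (ne_inv (A.three L.m1) L.n1)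
  · rw [k1, k2, A.comm (inv_mem L.m1) (inv_mem L.m2), ← mul_inv_rev] at h1
    exact absurd h1 (ne_inv h3 h12)

theorem setup [Finite G] (A : Amb T V) (L : Loc T V e1 e2 z1 z2) : Setup e1 e2 z1 z2 := by
  have hm := mul_mem L.m1 L.m2
  have h12 : e1 * e2 ≠ 1 := fun h => L.ne12' A (eq_inv_of_mul_eq_one_right h).symm
  have zc : z1 * z2 = z2 * z1 := by
    have h1 := A.two _ (mul_mem L.v1 L.v2)
    have h2 : z1⁻¹ = z1 := inv_eq_of_mul_eq_one_left (A.two z1 L.v1)
    have h3 : z2⁻¹ = z2 := inv_eq_of_mul_eq_one_left (A.two z2 L.v2)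
    have h4 : (z1 * z2)⁻¹ = z1 * z2 := inv_eq_of_mul_eq_one_left h1
    rw [← h4, mul_inv_rev, h2, h3]
  have conj' : ∀ g : G, g * (e1 * e2) * g⁻¹ = (g * e1 * g⁻¹) * (g * e2 * g⁻¹) := fun g => by group
  refine ⟨A.three L.m1, A.three L.m2, L.n1, L.n2, A.comm L.m1 L.m2, ?_, ?_, zc, L.a11, L.a12,
    L.a21, L.a22, L.card1 A, (L.swap A).card1 A, L.card12 A h12, L.cardw A, ?_, ?_, ?_, ?_, ?_⟩
  · rw [pow_two, A.two z1 L.v1]
  · rw [pow_two, A.two z2 L.v2]
  · have := (L.swap A).cardw A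
    have c : e2 * z1 = z1 * e2 := by
      have := L.a12
      rw [mul_inv_eq_iff_eq_mul] at this
      exact this.symm
    rw [← c]; exact this
  · intro h
    obtain ⟨g, hg⟩ := isConj_iff.1 h
    have hgN := A.fusion L.m1 L.n1 (g := g) (by rw [hg]; exact L.m2)
    rcases (L.actN A hgN).1 with h | h
    · exact L.ne12 A (h.symm.trans hg)
    · exact L.ne12' A (h.symm.trans hg)
  · intro h
    obtain ⟨g, hg⟩ := isConj_iff.1 h
    have hgN := A.fusion L.m1 L.n1 (g := g) (by rw [hg]; exact hm)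
    rcases (L.actN A hgN).1 with h | h
    · rw [hg] at h
      exact L.n2 (mul_eq_left.1 h)
    · rw [hg] at h
      have h1 : e2 = e1⁻¹ * e1⁻¹ := by
        calc e2 = e1⁻¹ * (e1 * e2) := by group
          _ = _ := by rw [h]
      rw [← mul_inv_rev, mul_self_of_three (A.three L.m1), inv_inv] at h1
      exact L.ne12 A h1.symm
  · intro h
    obtain ⟨g, hg⟩ := isConj_iff.1 h
    have hgN := A.fusion L.m2 L.n2 (g := g) (by rw [hg]; exact hm)
    rcases (L.actN A hgN).2 with h | h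
    · rw [hg] at h
      exact L.n1 (mul_eq_right.1 h)
    · rw [hg] at h
      have h1 : e1 = e2⁻¹ * e2⁻¹ := by
        calc e1 = (e1 * e2) * e2⁻¹ := by group
          _ = _ := by rw [h]
      rw [← mul_inv_rev, mul_self_of_three (A.three L.m2), inv_inv] at h1
      exact L.ne12 A h1
  · intro g hg
    have hgN := A.fusion hm h12 (g := g) (by rw [hg]; exact inv_mem hm)
    have h1 := conj' g
    rw [hg, A.comm L.m1 L.m2, mul_inv_rev] at h1
    obtain ⟨k1, k2⟩ := L.actN A hgN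
    rcases k1 with k1 | k1 <;> rcases k2 with k2 | k2
    · exfalso
      rw [k1, k2] at h1
      have h2 : (e1 * e2)⁻¹ = e1 * e2 := by rw [A.comm L.m1 L.m2, mul_inv_rev, h1, A.comm L.m1 L.m2]
      exact ne_inv (A.three hm) h12 h2.symm
    · exfalso
      rw [k1, k2] at h1
      exact ne_inv (A.three L.m1) L.n1 (mul_right_cancel h1).symm
    · exfalso
      rw [k1, k2] at h1
      exact ne_inv (A.three L.m2) L.n2 (mul_left_cancel h1).symm
    · exact ⟨k1, k2⟩

end Loc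

end Cfsg.Agent.H454.KleinGroup
end

-- part: S3805
section
set_option autoImplicit false
open Cfsg

namespace Cfsg.Agent.S3805

open Cfsg.Agent.H454.KleinGroup Cfsg.Agent.H454.KleinChar

/-- A normal subgroup `K` containing `T` with `N_K(T) = T` gives `T` normal. -/
theorem final {G : Type*} [Group G] [Finite G] (T : Sylow 3 G) {V : Subgroup G}
    (A : Amb (T : Subgroup G) V) (hcyc : ¬ IsCyclic (T : Subgroup G)) (K : Subgroup G) [K.Normal]
    (hTK : (T : Subgroup G) ≤ K)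
    (hN : Subgroup.normalizer ((T : Subgroup G) : Set G) ⊓ K = T) :
    Subgroup.normalizer ((T : Subgroup G) : Set G) = ⊤ := by
  let P : Sylow 3 K := T.subtype hTK
  have hP : (P : Subgroup K) = (T : Subgroup G).subgroupOf K := T.coe_subtype hTK
  have memP : ∀ x : K, x ∈ (P : Subgroup K) ↔ (x : G) ∈ (T : Subgroup G) := by
    intro x; rw [hP, Subgroup.mem_subgroupOf]
  have hle : Subgroup.normalizer ((P : Subgroup K) : Set K) ≤
      Subgroup.centralizer ((P : Subgroup K) : Set K) := by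
    intro x hx
    have hxN : (x : G) ∈ Subgroup.normalizer ((T : Subgroup G) : Set G) := by
      refine Subgroup.mem_normalizer_fintype fun t ht => ?_
      have h1 := (Subgroup.mem_normalizer_iff.1 hx ⟨t, hTK ht⟩).1 ((memP _).2 ht)
      exact (memP _).1 h1
    have hxT : (x : G) ∈ (T : Subgroup G) := by
      rw [← hN]; exact ⟨hxN, x.2⟩
    rw [Subgroup.mem_centralizer_iff]
    intro y hy
    exact Subtype.ext (A.comm ((memP y).1 hy) hxT)
  set M0 := (MonoidHom.transferSylow P hle).ker with hM0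
  have hcompl : Subgroup.IsComplement' M0 (P : Subgroup K) :=
    MonoidHom.ker_transferSylow_isComplement' P hle
  have hnd : ¬ 3 ∣ Nat.card M0 := MonoidHom.not_dvd_card_ker_transferSylow P hle
  set M := M0.map K.subtype with hM
  have hMcard : Nat.card M = Nat.card M0 := Subgroup.card_map_of_injective K.subtype_injective
  -- `T` normalizes `M`
  have hTM : (T : Subgroup G) ≤ Subgroup.normalizer (M : Set G) := by
    intro t ht
    refine Subgroup.mem_normalizer_fintype fun m hm => ?_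
    obtain ⟨m0, hm0, rfl⟩ := hm
    have h1 : (⟨t, hTK ht⟩ : K) * m0 * (⟨t, hTK ht⟩ : K)⁻¹ ∈ M0 :=
      (MonoidHom.normal_ker _).conj_mem m0 hm0 _
    exact ⟨_, h1, rfl⟩
  have hcop : (Nat.card (T : Subgroup G)).Coprime (Nat.card M) := by
    rw [A.card, hMcard]
    exact Nat.Coprime.pow_left 2 ((Nat.Prime.coprime_iff_not_dvd Nat.prime_three).2 hnd)
  have hMT : ∀ x ∈ M, x ∈ (T : Subgroup G) → x = 1 := by
    rintro _ ⟨m0, hm0, rfl⟩ hx
    have h1 : m0 ∈ M0 ⊓ (P : Subgroup K) := ⟨hm0, (memP m0).2 hx⟩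
    rw [hcompl.disjoint.eq_bot, Subgroup.mem_bot] at h1
    rw [h1, map_one]
  have hMK : M ≤ K := by
    rintro _ ⟨m0, _, rfl⟩
    exact m0.2
  have hcomm : IsMulCommutative (T : Subgroup G) := A.elem.1
  have hM1 : M = ⊥ := by
    rw [← Cfsg.Agent.S0058.result (T : Subgroup G) M hcyc hTM hcop, eq_bot_iff]
    refine iSup₂_le fun a ha => ?_
    intro x hx
    have hx2 : x ∈ Subgroup.normalizer ((T : Subgroup G) : Set G) := A.loc a ha.1 ha.2 hx.2
    have hx3 : x ∈ (T : Subgroup G) := by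
      rw [← hN]; exact ⟨hx2, hMK hx.1⟩
    exact Subgroup.mem_bot.2 (hMT x hx.1 hx3)
  have hM01 : M0 = ⊥ := by
    rw [eq_bot_iff]
    intro x hx
    have h1 : (x : G) ∈ M := ⟨x, hx, rfl⟩
    rw [hM1, Subgroup.mem_bot] at h1
    exact Subgroup.mem_bot.2 (Subtype.ext h1)
  have hPtop : (P : Subgroup K) = ⊤ := by
    rw [hM01] at hcompl
    exact Subgroup.isComplement'_bot_left.1 hcompl
  have hKT : K ≤ T := by
    intro x hx
    have : (⟨x, hx⟩ : K) ∈ (P : Subgroup K) := by rw [hPtop]; trivial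
    exact (memP _).1 this
  have hKeq : K = (T : Subgroup G) := le_antisymm hKT hTK
  have : (T : Subgroup G).Normal := by rw [← hKeq]; infer_instance
  exact Subgroup.normalizer_eq_top_iff.2 this

/-- Let G be a finite group whose Sylow 3-subgroup T is elementary abelian of order 9 and self-centralizing, with N_G(T)/T a Klein four-group, and suppose that the centralizer of every nonidentity element of T lies in N_G(T). Then T is normal in G. -/
theorem result {G : Type*} [Group G] [Finite G]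
    (T : Sylow 3 G) (hT : Cfsg.IsElementaryAbelian 3 (T : Subgroup G)) (hcard : Nat.card T = 9)
    (hC : Subgroup.centralizer ((T : Subgroup G) : Set G) = T)
    [hn : ((T : Subgroup G).subgroupOf (Subgroup.normalizer ((T : Subgroup G) : Set G))).Normal]
    (hK : IsKleinFour (↥(Subgroup.normalizer ((T : Subgroup G) : Set G)) ⧸
      (T : Subgroup G).subgroupOf (Subgroup.normalizer ((T : Subgroup G) : Set G))))
    (hloc : ∀ t ∈ (T : Subgroup G), t ≠ 1 →
      Subgroup.centralizer ({t} : Set G) ≤ Subgroup.normalizer ((T : Subgroup G) : Set G)) :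
    Subgroup.normalizer ((T : Subgroup G) : Set G) = ⊤ := by
  obtain ⟨V, hVN, hV4, hV2, hVT, hprod⟩ := exists_complement T hcard hK
  have A : Amb (T : Subgroup G) V := ⟨hT, hcard, hC, hloc, hVN, hV4, hV2, hVT, hprod⟩
  obtain ⟨e1, e2, z1, z2, L⟩ := exists_loc hT hcard hVN hV4 hV2 (fun v hv h => by
    have h1 : v ∈ Subgroup.centralizer ((T : Subgroup G) : Set G) := by
      rw [Subgroup.mem_centralizer_iff]
      intro t ht
      exact (mul_inv_eq_iff_eq_mul.1 (h t ht)).symm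
    rw [hC] at h1
    have h2 : v ∈ V ⊓ (T : Subgroup G) := ⟨hv, h1⟩
    rw [hVT] at h2
    exact Subgroup.mem_bot.1 h2)
  have S := L.setup A
  have h4 := S.four_le
  -- `T ≤ G'`
  have hmem : ∀ z e : G, e ^ 3 = 1 → z * e * z⁻¹ = e⁻¹ → e ∈ commutator G := by
    intro z e he hz
    have h1 : z * e * z⁻¹ * e⁻¹ ∈ commutator G := Subgroup.commutator_mem_commutator
      (Subgroup.mem_top z) (Subgroup.mem_top e)
    rw [hz, ← mul_inv_rev, mul_self_of_three he, inv_inv] at h1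
    exact h1
  have hTK : (T : Subgroup G) ≤ commutator G := by
    intro t ht
    obtain ⟨c, hc, d, hd, rfl⟩ := L.dec t ht
    exact mul_mem ((Subgroup.zpowers_le.2 (hmem z1 e1 S.e1_3 S.a11)) hc)
      ((Subgroup.zpowers_le.2 (hmem z2 e2 S.e2_3 S.a22)) hd)
  have hcyc : ¬ IsCyclic (T : Subgroup G) := by
    intro h
    obtain ⟨g, hg⟩ := h.exists_generator
    have h1 : orderOf g = Nat.card (T : Subgroup G) := orderOf_eq_card_of_forall_mem_zpowers hg
    have h2 : orderOf g ∣ 3 := orderOf_dvd_of_pow_eq_one (Subtype.ext (hT.2 g g.2))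
    rw [h1, hcard] at h2
    exact absurd (Nat.le_of_dvd (by norm_num) h2) (by norm_num)
  refine final T A hcyc (commutator G) hTK ?_
  -- the intersection of the normalizer with `G'`
  set N := Subgroup.normalizer ((T : Subgroup G) : Set G) with hN
  have hle : (T : Subgroup G) ≤ N ⊓ commutator G := le_inf Subgroup.le_normalizer hTK
  symm
  refine Subgroup.eq_of_le_of_card_ge hle ?_
  have hsup : N ⊔ commutator G = ⊤ := T.normalizer_sup_eq_top' hTK
  have hidx : (commutator G).relIndex N = (commutator G).index := by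
    rw [← Subgroup.relIndex_sup_right, hsup, Subgroup.relIndex_top_right]
  have hcN : Nat.card N = 36 := by
    have h1 := ((T : Subgroup G).subgroupOf N).card_mul_index
    have h2 : ((T : Subgroup G).subgroupOf N).index = 4 := by
      rw [Subgroup.index_eq_card]
      exact hK.card_four
    rw [h2, Nat.card_congr (Subgroup.subgroupOfEquivOfLe Subgroup.le_normalizer).toEquiv,
      hcard] at h1
    exact h1.symm
  have h5 : Nat.card (N ⊓ commutator G : Subgroup G) * (commutator G).index = 36 := by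
    have h1 := ((commutator G).subgroupOf N).card_mul_index
    rw [hcN] at h1
    have h2 : Nat.card ((commutator G).subgroupOf N) = Nat.card (N ⊓ commutator G : Subgroup G) := by
      rw [← Subgroup.inf_subgroupOf_left]
      exact Nat.card_congr (Subgroup.subgroupOfEquivOfLe inf_le_left).toEquiv
    rw [h2] at h1
    rw [← hidx]
    exact h1
  rw [hcard]
  nlinarith

end Cfsg.Agent.S3805
end
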