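import Cfsg.Statements.S3815
set_option linter.all false

set_option autoImplicit false
open Cfsg

namespace Cfsg.Agent.S3815

/-- Let G be a finite group, p a prime and d ∈ G an element of order prime to p. If dg has order prime to p for every element g ∈ G of order prime to p, then d ∈ O_{p'}(G). -/
theorem result {G : Type*} [Group G] [Finite G] {p : ℕ} [Fact p.Prime]
    (d : G) (hd : (orderOf d).Coprime p)
    (h : ∀ g : G, (orderOf g).Coprime p → (orderOf (d * g)).Coprime p) :
    d ∈ Cfsg.pPrimeCore p G := by
  classical
  -- the set of all such elements is a normal subgroup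
  let D : Subgroup G :=
    { carrier := {e : G | ∀ g : G, (orderOf g).Coprime p → (orderOf (e * g)).Coprime p}
      mul_mem' := by
        intro a b ha hb g hg
        have := ha (b * g) (hb g hg)
        simpa [mul_assoc] using this
      one_mem' := by
        intro g hg
        simpa using hg
      inv_mem' := by
        intro a ha
        have key : ∀ n : ℕ, ∀ g : G, (orderOf g).Coprime p → (orderOf (a ^ n * g)).Coprime p := by
          intro n
          induction n with
          | zero => intro g hg; simpa using hg
          | succ n ih =>
            intro g hg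
            have := ih (a * g) (ha g hg)
            rwa [← mul_assoc, ← pow_succ] at this
        intro g hg
        have h1 : a⁻¹ = a ^ (orderOf a - 1) := by
          have hpos : 0 < orderOf a := orderOf_pos a
          rw [inv_eq_iff_mul_eq_one, ← pow_succ']
          rw [Nat.sub_add_cancel hpos]
          exact pow_orderOf_eq_one a
        rw [h1]
        exact key _ g hg }
  have hDn : D.Normal := by
    constructor
    intro a ha x g hg
    have hconj : ∀ y : G, orderOf (x * y * x⁻¹) = orderOf y := by
      intro y
      have := MulEquiv.orderOf_eq (MulAut.conj x) y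
      simpa [MulAut.conj_apply] using this
    have hg' : (orderOf (x⁻¹ * g * x)).Coprime p := by
      have h2 := hconj (x⁻¹ * g * x)
      have h3 : x * (x⁻¹ * g * x) * x⁻¹ = g := by group
      rw [h3] at h2
      rw [← h2]; exact hg
    have h4 := ha _ hg'
    have h5 := hconj (a * (x⁻¹ * g * x))
    have h6 : x * (a * (x⁻¹ * g * x)) * x⁻¹ = x * a * x⁻¹ * g := by group
    rw [h6] at h5
    rw [h5]; exact h4
  have hDc : (Nat.card D).Coprime p := by
    rw [Nat.coprime_comm, Nat.Prime.coprime_iff_not_dvd (Fact.out)]
    intro hdvd
    obtain ⟨y, hy⟩ := exists_prime_orderOf_dvd_card' (G := D) p hdvd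
    have h1 : (orderOf ((y : G) * 1)).Coprime p := y.2 1 (by simp)
    rw [mul_one, Subgroup.orderOf_coe, hy] at h1
    have := (Nat.coprime_self p).1 h1
    exact (Fact.out : p.Prime).one_lt.ne' this
  have hle : D ≤ Cfsg.pPrimeCore p G := le_sSup ⟨hDn, hDc⟩
  exact hle h

end Cfsg.Agent.S3815
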