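import Mathlib
import Cfsg.Agent.Transfer.PGroupNormal
import Cfsg.Statements.S3816
set_option linter.all false

-- part: H456/CoprimeEnd
section
/-!
# Coprime action of one automorphism, given as an endomorphism `x` with `x ^ p = 1`

`DD x K = [K, x]`, `cl x h = [h, x]`, `Fx x = C_H(x)`.
-/

set_option autoImplicit false

namespace Cfsg.Agent.H456

open Subgroup

variable {H : Type*} [Group H]

/-- `K` is invariant under the endomorphism `x`. -/
def Inv (x : Monoid.End H) (K : Subgroup H) : Prop := ∀ k ∈ K, x k ∈ K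

/-- `[h, x]`, the subgroup generated by the elements `h⁻¹ xⁱ(h)`. -/
def cl (x : Monoid.End H) (h : H) : Subgroup H :=
  closure {c : H | ∃ i : ℕ, c = h⁻¹ * (x ^ i) h}

/-- `[K, x]`, the subgroup generated by the elements `h⁻¹ xⁱ(h)`, `h ∈ K`. -/
def DD (x : Monoid.End H) (K : Subgroup H) : Subgroup H :=
  closure {c : H | ∃ h ∈ K, ∃ i : ℕ, c = h⁻¹ * (x ^ i) h}

/-- The fixed points of `x`. -/
def Fx (x : Monoid.End H) : Subgroup H := MonoidHom.eqLocus (x : H →* H) (MonoidHom.id H)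

/-- The subgroup generated by the fixed points of `x` in the `[h, x]`, `h ∈ K`. -/
def WW (x : Monoid.End H) (K : Subgroup H) : Subgroup H := ⨆ h : K, cl x (h : H) ⊓ Fx x

theorem mem_Fx {x : Monoid.End H} {h : H} : h ∈ Fx x ↔ x h = h := Iff.rfl

theorem pow_succ_apply (x : Monoid.End H) (i : ℕ) (h : H) : (x ^ (i + 1)) h = x ((x ^ i) h) := by
  rw [pow_succ']; rfl

theorem pow_add_apply (x : Monoid.End H) (i j : ℕ) (h : H) :
    (x ^ (i + j)) h = (x ^ i) ((x ^ j) h) := by
  rw [pow_add]; rfl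

theorem pow_zero_apply (x : Monoid.End H) (h : H) : (x ^ 0) h = h := by
  rw [pow_zero]; rfl

theorem pow_one_apply (x : Monoid.End H) (h : H) : (x ^ 1) h = x h := by
  rw [pow_one]

theorem Inv.pow {x : Monoid.End H} {K : Subgroup H} (hK : Inv x K) (i : ℕ) {k : H} (hk : k ∈ K) :
    (x ^ i) k ∈ K := by
  induction i with
  | zero => rwa [pow_zero_apply]
  | succ n ih => rw [pow_succ_apply]; exact hK _ ih

theorem pow_apply_of_fixed {x : Monoid.End H} {h : H} (hh : x h = h) (i : ℕ) : (x ^ i) h = h := by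
  induction i with
  | zero => rw [pow_zero_apply]
  | succ n ih => rw [pow_succ_apply, ih, hh]

theorem inv_top (x : Monoid.End H) : Inv x (⊤ : Subgroup H) := fun _ _ => mem_top _

theorem Inv.inf {x : Monoid.End H} {K L : Subgroup H} (hK : Inv x K) (hL : Inv x L) :
    Inv x (K ⊓ L) := fun k hk => ⟨hK k hk.1, hL k hk.2⟩

theorem inv_iff_le_comap {x : Monoid.End H} {K : Subgroup H} :
    Inv x K ↔ K ≤ K.comap (x : H →* H) := Iff.rfl

theorem Inv.sup {x : Monoid.End H} {K L : Subgroup H} (hK : Inv x K) (hL : Inv x L) :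
    Inv x (K ⊔ L) := by
  rw [inv_iff_le_comap]
  refine sup_le (fun k hk => ?_) (fun k hk => ?_)
  · exact (le_sup_left : K ≤ K ⊔ L) (hK k hk)
  · exact (le_sup_right : L ≤ K ⊔ L) (hL k hk)

theorem Inv.iSup {x : Monoid.End H} {ι : Sort*} {K : ι → Subgroup H} (hK : ∀ i, Inv x (K i)) :
    Inv x (⨆ i, K i) := by
  rw [inv_iff_le_comap]
  refine iSup_le (fun i k hk => ?_)
  exact (le_iSup K i) (hK i k hk)

theorem inv_Fx (x : Monoid.End H) : Inv x (Fx x) := by
  intro k hk
  rw [mem_Fx] at hk ⊢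
  rw [hk, hk]

theorem Inv.closure {x : Monoid.End H} {S : Set H} (hS : ∀ s ∈ S, x s ∈ closure S) :
    Inv x (closure S) := by
  rw [inv_iff_le_comap, closure_le]
  exact hS

theorem mem_cl (x : Monoid.End H) (h : H) (i : ℕ) : h⁻¹ * (x ^ i) h ∈ cl x h :=
  subset_closure ⟨i, rfl⟩

theorem mem_cl_one (x : Monoid.End H) (h : H) : h⁻¹ * x h ∈ cl x h := by
  have := mem_cl x h 1
  rwa [pow_one_apply] at this

theorem mem_DD (x : Monoid.End H) {K : Subgroup H} {h : H} (hh : h ∈ K) (i : ℕ) :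
    h⁻¹ * (x ^ i) h ∈ DD x K :=
  subset_closure ⟨h, hh, i, rfl⟩

theorem mem_DD_one (x : Monoid.End H) {K : Subgroup H} {h : H} (hh : h ∈ K) :
    h⁻¹ * x h ∈ DD x K := by
  have := mem_DD x hh 1
  rwa [pow_one_apply] at this

theorem cl_le_DD (x : Monoid.End H) {K : Subgroup H} {h : H} (hh : h ∈ K) : cl x h ≤ DD x K := by
  refine (closure_le _).2 ?_
  rintro c ⟨i, rfl⟩
  exact mem_DD x hh i

theorem DD_le {x : Monoid.End H} {K L : Subgroup H} (h : ∀ k ∈ K, cl x k ≤ L) : DD x K ≤ L := by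
  refine (closure_le _).2 ?_
  rintro c ⟨k, hk, i, rfl⟩
  exact h k hk (mem_cl x k i)

theorem DD_mono {x : Monoid.End H} {K L : Subgroup H} (h : K ≤ L) : DD x K ≤ DD x L :=
  DD_le fun _ hk => cl_le_DD x (h hk)

/-- It suffices to have the commutators with `x` itself, if `L` is invariant. -/
theorem cl_le_of_inv {x : Monoid.End H} {L : Subgroup H} (hL : Inv x L) {k : H}
    (hk : k⁻¹ * x k ∈ L) : cl x k ≤ L := by
  refine (closure_le _).2 ?_
  rintro c ⟨i, rfl⟩
  induction i with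
  | zero => rw [pow_zero_apply, inv_mul_cancel]; exact one_mem _
  | succ n ih =>
    have h1 : x (k⁻¹ * (x ^ n) k) ∈ L := hL _ ih
    have h2 : k⁻¹ * (x ^ (n + 1)) k = (k⁻¹ * x k) * x (k⁻¹ * (x ^ n) k) := by
      rw [pow_succ_apply, map_mul, map_inv]; group
    show k⁻¹ * (x ^ (n + 1)) k ∈ L
    rw [h2]; exact mul_mem hk h1

theorem DD_le_self {x : Monoid.End H} {K : Subgroup H} (hK : Inv x K) : DD x K ≤ K := by
  refine DD_le fun k hk => cl_le_of_inv hK ?_
  exact mul_mem (inv_mem hk) (hK k hk)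

theorem cl_le_self {x : Monoid.End H} {K : Subgroup H} (hK : Inv x K) {k : H} (hk : k ∈ K) :
    cl x k ≤ K := (cl_le_DD x hk).trans (DD_le_self hK)

theorem inv_cl (x : Monoid.End H) (h : H) : Inv x (cl x h) := by
  refine Inv.closure ?_
  rintro s ⟨i, rfl⟩
  have h2 : x (h⁻¹ * (x ^ i) h) = (h⁻¹ * (x ^ 1) h)⁻¹ * (h⁻¹ * (x ^ (i + 1)) h) := by
    rw [pow_succ_apply x i h, map_mul, map_inv, pow_one_apply]; group
  rw [h2]
  exact mul_mem (inv_mem (mem_cl x h 1)) (mem_cl x h (i + 1))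

theorem inv_DD (x : Monoid.End H) (K : Subgroup H) : Inv x (DD x K) := by
  refine Inv.closure ?_
  rintro s ⟨h, hh, i, rfl⟩
  have h2 : x (h⁻¹ * (x ^ i) h) = (h⁻¹ * (x ^ 1) h)⁻¹ * (h⁻¹ * (x ^ (i + 1)) h) := by
    rw [pow_succ_apply x i h, map_mul, map_inv, pow_one_apply]; group
  rw [h2]
  exact mul_mem (inv_mem (mem_DD x hh 1)) (mem_DD x hh (i + 1))

/-- `K` normalizes `[K, x]`. -/
theorem conj_mem_DD {x : Monoid.End H} {K : Subgroup H} {g : H} (hg : g ∈ K) {d : H}
    (hd : d ∈ DD x K) : g⁻¹ * d * g ∈ DD x K := by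
  have : DD x K ≤ (DD x K).comap (MulAut.conj g⁻¹).toMonoidHom := by
    refine (closure_le _).2 ?_
    rintro c ⟨h, hh, i, rfl⟩
    show (MulAut.conj g⁻¹).toMonoidHom (h⁻¹ * (x ^ i) h) ∈ DD x K
    have h2 : (MulAut.conj g⁻¹).toMonoidHom (h⁻¹ * (x ^ i) h)
        = ((h * g)⁻¹ * (x ^ i) (h * g)) * (g⁻¹ * (x ^ i) g)⁻¹ := by
      simp only [MulEquiv.toMonoidHom_eq_coe, MonoidHom.coe_coe, MulAut.conj_apply, map_mul]
      group
    rw [h2]
    exact mul_mem (mem_DD x (mul_mem hh hg) i) (inv_mem (mem_DD x hg i))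
  have h3 := this hd
  simpa [MulAut.conj_apply] using h3

theorem conj_mem_DD' {x : Monoid.End H} {K : Subgroup H} {g : H} (hg : g ∈ K) {d : H}
    (hd : d ∈ DD x K) : g * d * g⁻¹ ∈ DD x K := by
  have := conj_mem_DD (inv_mem hg) hd
  rwa [inv_inv] at this

/-- A fixed point normalizing `K` normalizes `[K, x]`. -/
theorem conj_mem_DD_of_fixed {x : Monoid.End H} {K : Subgroup H} {c : H} (hc : x c = c)
    (hcK : ∀ k ∈ K, c * k * c⁻¹ ∈ K) {d : H} (hd : d ∈ DD x K) : c * d * c⁻¹ ∈ DD x K := by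
  have : DD x K ≤ (DD x K).comap (MulAut.conj c).toMonoidHom := by
    refine (closure_le _).2 ?_
    rintro e ⟨h, hh, i, rfl⟩
    show (MulAut.conj c).toMonoidHom (h⁻¹ * (x ^ i) h) ∈ DD x K
    have h2 : (MulAut.conj c).toMonoidHom (h⁻¹ * (x ^ i) h)
        = (c * h * c⁻¹)⁻¹ * (x ^ i) (c * h * c⁻¹) := by
      simp only [MulEquiv.toMonoidHom_eq_coe, MonoidHom.coe_coe, MulAut.conj_apply, map_mul, map_inv,
        pow_apply_of_fixed hc, mul_inv_rev, inv_inv]
    rw [h2]
    exact mem_DD x (hcK h hh) i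
  have h3 := this hd
  simpa [MulAut.conj_apply] using h3

theorem map_conj_cl {x : Monoid.End H} {c : H} (hc : x c = c) (h : H) {d : H} (hd : d ∈ cl x h) :
    c * d * c⁻¹ ∈ cl x (c * h * c⁻¹) := by
  have : cl x h ≤ (cl x (c * h * c⁻¹)).comap (MulAut.conj c).toMonoidHom := by
    refine (closure_le _).2 ?_
    rintro e ⟨i, rfl⟩
    show (MulAut.conj c).toMonoidHom (h⁻¹ * (x ^ i) h) ∈ cl x (c * h * c⁻¹)
    have h2 : (MulAut.conj c).toMonoidHom (h⁻¹ * (x ^ i) h)
        = (c * h * c⁻¹)⁻¹ * (x ^ i) (c * h * c⁻¹) := by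
      simp only [MulEquiv.toMonoidHom_eq_coe, MonoidHom.coe_coe, MulAut.conj_apply, map_mul, map_inv,
        pow_apply_of_fixed hc, mul_inv_rev, inv_inv]
    rw [h2]
    exact mem_cl x _ i
  have h3 := this hd
  simpa [MulAut.conj_apply] using h3

/-! ### `W` -/

theorem inf_le_WW (x : Monoid.End H) {K : Subgroup H} {h : H} (hh : h ∈ K) :
    cl x h ⊓ Fx x ≤ WW x K := le_iSup (fun h : K => cl x (h : H) ⊓ Fx x) ⟨h, hh⟩

theorem WW_le_Fx (x : Monoid.End H) (K : Subgroup H) : WW x K ≤ Fx x :=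
  iSup_le fun _ => inf_le_right

theorem WW_le_DD (x : Monoid.End H) (K : Subgroup H) : WW x K ≤ DD x K :=
  iSup_le fun h => inf_le_left.trans (cl_le_DD x h.2)

theorem WW_mono {x : Monoid.End H} {K L : Subgroup H} (h : K ≤ L) : WW x K ≤ WW x L :=
  iSup_le fun k => inf_le_WW x (h k.2)

/-- `C_H(x)` normalizes `W`. -/
theorem conj_mem_WW {x : Monoid.End H} {c : H} (hc : x c = c) {w : H} (hw : w ∈ WW x ⊤) :
    c * w * c⁻¹ ∈ WW x (⊤ : Subgroup H) := by
  have : WW x ⊤ ≤ (WW x ⊤).comap (MulAut.conj c).toMonoidHom := by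
    refine iSup_le fun h => ?_
    rintro d ⟨hd1, hd2⟩
    show (MulAut.conj c).toMonoidHom d ∈ WW x ⊤
    refine inf_le_WW x (mem_top (c * h * c⁻¹)) ⟨?_, ?_⟩
    · have := map_conj_cl hc _ hd1
      simpa [MulAut.conj_apply] using this
    · have hd3 : x d = d := hd2
      show x _ = _
      simp [MulAut.conj_apply, hc, hd3]
  have h3 := this hw
  simpa [MulAut.conj_apply] using h3

/-! ### fixed points -/

section Fixed

variable [Finite H] {p : ℕ} [hp : Fact p.Prime]

/-- Fixed points in invariant cosets. -/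
theorem exists_fixed_coset {x : Monoid.End H} (hx : x ^ p = 1) {N : Subgroup H} (hN : Inv x N)
    (hpN : ¬ p ∣ Nat.card N) {h : H} (hh : h⁻¹ * x h ∈ N) :
    ∃ c : H, x c = c ∧ h⁻¹ * c ∈ N := by
  classical
  let α := {g : H // h⁻¹ * g ∈ N}
  have hstep : ∀ g : α, h⁻¹ * x g.1 ∈ N := by
    intro g
    have h1 : x (h⁻¹ * g.1) ∈ N := hN _ g.2
    have h2 : h⁻¹ * x g.1 = (h⁻¹ * x h) * x (h⁻¹ * g.1) := by
      rw [map_mul, map_inv]; group
    rw [h2]; exact mul_mem hh h1
  let f : Function.End α := fun g => ⟨x g.1, hstep g⟩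
  have hf : ∀ n : ℕ, ∀ g : α, ((f ^ n) g).1 = (x ^ n) g.1 := by
    intro n
    induction n with
    | zero => intro g; rw [pow_zero_apply]; rfl
    | succ n ih =>
      intro g
      rw [pow_succ_apply, ← ih, pow_succ']
      rfl
  have hfp : f ^ p ^ 1 = 1 := by
    funext g
    apply Subtype.ext
    rw [hf, pow_one, hx]
    rfl
  have hcard : Nat.card α = Nat.card N := by
    refine Nat.card_congr ⟨fun g => ⟨h⁻¹ * g.1, g.2⟩, fun n => ⟨h * n.1, by simp⟩, ?_, ?_⟩
    · intro g; simp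
    · intro n; simp
  have : Fintype α := Fintype.ofFinite α
  have h1 := Equiv.Perm.card_fixedPoints_modEq hfp
  rw [← Nat.card_eq_fintype_card, hcard] at h1
  have h2 : Nonempty (Function.fixedPoints f) := by
    by_contra hne
    rw [not_nonempty_iff] at hne
    rw [Fintype.card_eq_zero] at h1
    exact hpN ((Nat.modEq_zero_iff_dvd).1 h1)
  obtain ⟨g, hg⟩ := h2
  refine ⟨g.1, ?_, g.2⟩
  exact congrArg Subtype.val hg

omit [Finite H] hp in
theorem not_dvd_of_le {K : Subgroup H} (h : ¬ p ∣ Nat.card H) : ¬ p ∣ Nat.card K :=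
  fun hd => h (hd.trans (Subgroup.card_subgroup_dvd_card K))

variable (hpH : ¬ p ∣ Nat.card H)
include hpH

/-- `K = C_K(x) [K, x]`. -/
theorem exists_fixed_mul {x : Monoid.End H} (hx : x ^ p = 1) {K : Subgroup H} (hK : Inv x K) {k : H}
    (hk : k ∈ K) : ∃ c ∈ K ⊓ Fx x, ∃ d ∈ DD x K, k = c * d := by
  obtain ⟨c, hc, hc2⟩ := exists_fixed_coset hx (inv_DD x K) (not_dvd_of_le hpH) (mem_DD_one x hk)
  have h3 : c ∈ K := by
    have : k * (k⁻¹ * c) ∈ K := mul_mem hk (DD_le_self hK hc2)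
    simpa using this
  exact ⟨c, ⟨h3, hc⟩, c⁻¹ * k, by simpa using inv_mem hc2, by group⟩

/-- `h ∈ C_H(x) [h, x]`. -/
theorem exists_fixed_cl {x : Monoid.End H} (hx : x ^ p = 1) (h : H) :
    ∃ c, x c = c ∧ ∃ d ∈ cl x h, h = c * d := by
  obtain ⟨c, hc, hc2⟩ := exists_fixed_coset hx (inv_cl x h) (not_dvd_of_le hpH) (mem_cl_one x h)
  exact ⟨c, hc, c⁻¹ * h, by simpa using inv_mem hc2, by group⟩

/-- `[K, x, x] = [K, x]`. -/
theorem DD_DD {x : Monoid.End H} (hx : x ^ p = 1) {K : Subgroup H} (hK : Inv x K) :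
    DD x (DD x K) = DD x K := by
  refine le_antisymm (DD_le_self (inv_DD x K)) ?_
  refine (closure_le _).2 ?_
  rintro e ⟨k, hk, i, rfl⟩
  obtain ⟨c, hc, d, hd, rfl⟩ := exists_fixed_mul hpH hx hK hk
  have h2 : (c * d)⁻¹ * (x ^ i) (c * d) = d⁻¹ * (x ^ i) d := by
    rw [map_mul, pow_apply_of_fixed hc.2]; group
  show (c * d)⁻¹ * (x ^ i) (c * d) ∈ _
  rw [h2]
  exact mem_DD x hd i

end Fixed

end Cfsg.Agent.H456
end

-- part: H456/CoprimeEnd2
section
/-!
# Coprime action of one automorphism: abelian groups, restriction, quotients, Sylow subgroups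
-/

set_option autoImplicit false

namespace Cfsg.Agent.H456

open Subgroup

variable {H : Type*} [Group H]

/-! ### abelian invariant subgroups -/

theorem exists_of_mem_DD_comm {x : Monoid.End H} {K : Subgroup H} (hK : Inv x K)
    (hcomm : ∀ a ∈ K, ∀ b ∈ K, a * b = b * a) {d : H} (hd : d ∈ DD x K) :
    ∃ k ∈ K, d = k⁻¹ * x k := by
  have key : ∀ d ∈ DD x K, d ∈ K ∧ ∃ k ∈ K, d = k⁻¹ * x k := by
    intro d hd
    refine Subgroup.closure_induction (p := fun d _ => d ∈ K ∧ ∃ k ∈ K, d = k⁻¹ * x k)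
      ?_ ?_ ?_ ?_ hd
    · rintro c ⟨h, hh, i, rfl⟩
      refine ⟨mul_mem (inv_mem hh) (hK.pow i hh), ?_⟩
      induction i with
      | zero => exact ⟨1, one_mem _, by rw [pow_zero_apply, map_one]; group⟩
      | succ n ih =>
        obtain ⟨k, hk, hk2⟩ := ih
        refine ⟨h * x k, mul_mem hh (hK _ hk), ?_⟩
        have h1 : h⁻¹ * (x ^ (n + 1)) h = (h⁻¹ * x h) * x (h⁻¹ * (x ^ n) h) := by
          rw [pow_succ_apply, map_mul, map_inv]; group
        rw [h1, hk2, map_mul, map_mul, map_inv, mul_inv_rev]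
        have e1 := hK _ hh
        have e2 := hK _ hk
        have e3 := hK _ e2
        have c1 : (h⁻¹ * x h) * (x k)⁻¹ = (x k)⁻¹ * (h⁻¹ * x h) :=
          hcomm _ (mul_mem (inv_mem hh) e1) _ (inv_mem e2)
        calc (h⁻¹ * x h) * ((x k)⁻¹ * x (x k)) = ((h⁻¹ * x h) * (x k)⁻¹) * x (x k) := by group
          _ = ((x k)⁻¹ * (h⁻¹ * x h)) * x (x k) := by rw [c1]
          _ = (x k)⁻¹ * h⁻¹ * (x h * x (x k)) := by group
    · exact ⟨one_mem _, 1, one_mem _, by rw [map_one]; group⟩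
    · rintro a b - - ⟨ha, k, hk, rfl⟩ ⟨hb, l, hl, rfl⟩
      refine ⟨mul_mem ha hb, k * l, mul_mem hk hl, ?_⟩
      have c1 : (k⁻¹ * x k) * l⁻¹ = l⁻¹ * (k⁻¹ * x k) := hcomm _ ha _ (inv_mem hl)
      calc k⁻¹ * x k * (l⁻¹ * x l) = ((k⁻¹ * x k) * l⁻¹) * x l := by group
        _ = (l⁻¹ * (k⁻¹ * x k)) * x l := by rw [c1]
        _ = (k * l)⁻¹ * x (k * l) := by rw [map_mul]; group
    · rintro a - ⟨ha, k, hk, rfl⟩
      refine ⟨inv_mem ha, k⁻¹, inv_mem hk, ?_⟩
      have c1 : (x k)⁻¹ * k = k * (x k)⁻¹ := hcomm _ (inv_mem (hK _ hk)) _ hk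
      rw [mul_inv_rev, inv_inv, c1, map_inv]
  exact (key d hd).2

/-- For an abelian invariant `K` of order prime to `p`: `[K, x] ∩ C_K(x) = 1`. -/
theorem DD_inf_Fx_of_comm [Finite H] {p : ℕ} [hp : Fact p.Prime] {x : Monoid.End H}
    (hx : x ^ p = 1) {K : Subgroup H} (hpK : ¬ p ∣ Nat.card K) (hK : Inv x K)
    (hcomm : ∀ a ∈ K, ∀ b ∈ K, a * b = b * a) {c : H} (hc : c ∈ DD x K) (hcx : x c = c) :
    c = 1 := by
  obtain ⟨k, hk, hk2⟩ := exists_of_mem_DD_comm hK hcomm hc
  have h1 : x k = k * c := by rw [hk2]; group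
  have h2 : ∀ i : ℕ, (x ^ i) k = k * c ^ i := by
    intro i
    induction i with
    | zero => rw [pow_zero_apply]; simp
    | succ n ih => rw [pow_succ_apply, ih, map_mul, map_pow, hcx, h1, pow_succ']; group
  have h3 := h2 p
  rw [hx] at h3
  have h4 : c ^ p = 1 := by
    have : k = k * c ^ p := h3
    exact (mul_eq_left (a := k)).1 this.symm
  have h5 : c ∈ K := DD_le_self hK hc
  have h6 : orderOf c ∣ p := orderOf_dvd_of_pow_eq_one h4
  have h7 : orderOf c ∣ Nat.card K := by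
    have := orderOf_dvd_natCard (⟨c, h5⟩ : K)
    rwa [Subgroup.orderOf_mk] at this
  rcases (Nat.dvd_prime hp.out).1 h6 with h8 | h8
  · exact orderOf_eq_one_iff.1 h8
  · rw [h8] at h7; exact absurd h7 hpK

/-- Projection to the fixed points in an abelian group. -/
theorem inf_Fx_le_of_le_sup [Finite H] {p : ℕ} [hp : Fact p.Prime] {x : Monoid.End H}
    (hx : x ^ p = 1) {V C : Subgroup H} (hpV : ¬ p ∣ Nat.card V) (hV : Inv x V)
    (hcomm : ∀ a ∈ V, ∀ b ∈ V, a * b = b * a) (hC : C ≤ Fx x) (hCV : C ≤ V)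
    (hle : V ≤ C ⊔ DD x V) : V ⊓ Fx x ≤ C := by
  rintro v ⟨hv, hvx⟩
  have hvx' : x v = v := hvx
  have h1 : ∃ c ∈ C, ∃ d ∈ DD x V, v = c * d := by
    let S : Subgroup H :=
      { carrier := {g | ∃ c ∈ C, ∃ d ∈ DD x V, g = c * d}
        mul_mem' := by
          rintro a b ⟨c, hc, d, hd, rfl⟩ ⟨c', hc', d', hd', rfl⟩
          refine ⟨c * c', mul_mem hc hc', d * d', mul_mem hd hd', ?_⟩
          have := hcomm d (DD_le_self hV hd) c' (hCV hc')
          calc c * d * (c' * d') = c * (d * c') * d' := by group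
            _ = c * (c' * d) * d' := by rw [this]
            _ = c * c' * (d * d') := by group
        one_mem' := ⟨1, one_mem _, 1, one_mem _, by simp⟩
        inv_mem' := by
          rintro a ⟨c, hc, d, hd, rfl⟩
          refine ⟨c⁻¹, inv_mem hc, d⁻¹, inv_mem hd, ?_⟩
          have := hcomm (d⁻¹) (inv_mem (DD_le_self hV hd)) (c⁻¹) (inv_mem (hCV hc))
          rw [mul_inv_rev, this] }
    have hS : C ⊔ DD x V ≤ S := by
      refine sup_le ?_ ?_
      · intro c hc; exact ⟨c, hc, 1, one_mem _, by simp⟩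
      · intro d hd; exact ⟨1, one_mem _, d, hd, by simp⟩
    exact hS (hle hv)
  obtain ⟨c, hc, d, hd, rfl⟩ := h1
  have h2 : x c = c := hC hc
  have h3 : x d = d := by
    rw [map_mul, h2] at hvx'
    exact mul_left_cancel hvx'
  have h4 := DD_inf_Fx_of_comm hx hpV hV hcomm hd h3
  rw [h4, mul_one]; exact hc

/-! ### restriction to an invariant subgroup -/

/-- The restriction of `x` to an invariant subgroup. -/
def res (x : Monoid.End H) (K : Subgroup H) (hK : Inv x K) : Monoid.End K :=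
  MonoidHom.codRestrict ((x : H →* H).comp K.subtype) K (fun k => hK k k.2)

theorem res_pow_apply (x : Monoid.End H) (K : Subgroup H) (hK : Inv x K) (i : ℕ) (k : K) :
    (((res x K hK) ^ i) k : H) = (x ^ i) (k : H) := by
  induction i with
  | zero => rw [pow_zero_apply, pow_zero_apply]
  | succ n ih => rw [pow_succ_apply, pow_succ_apply, ← ih]; rfl

theorem res_pow_eq_one {x : Monoid.End H} {K : Subgroup H} (hK : Inv x K) {p : ℕ}
    (hx : x ^ p = 1) : (res x K hK) ^ p = 1 := by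
  ext k
  rw [res_pow_apply, hx]
  rfl

theorem map_cl_res (x : Monoid.End H) (K : Subgroup H) (hK : Inv x K) (k : K) :
    (cl (res x K hK) k).map K.subtype = cl x (k : H) := by
  rw [cl, MonoidHom.map_closure, cl]
  congr 1
  ext c
  constructor
  · rintro ⟨_, ⟨i, rfl⟩, rfl⟩
    refine ⟨i, ?_⟩
    rw [← res_pow_apply x K hK]; rfl
  · rintro ⟨i, rfl⟩
    refine ⟨_, ⟨i, rfl⟩, ?_⟩
    rw [← res_pow_apply x K hK]; rfl

theorem map_DD_res (x : Monoid.End H) (K : Subgroup H) (hK : Inv x K) :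
    (DD (res x K hK) ⊤).map K.subtype = DD x K := by
  rw [DD, MonoidHom.map_closure, DD]
  congr 1
  ext c
  constructor
  · rintro ⟨_, ⟨k, -, i, rfl⟩, rfl⟩
    refine ⟨k, k.2, i, ?_⟩
    rw [← res_pow_apply x K hK]; rfl
  · rintro ⟨k, hk, i, rfl⟩
    refine ⟨_, ⟨⟨k, hk⟩, mem_top _, i, rfl⟩, ?_⟩
    show k⁻¹ * ((((res x K hK) ^ i) ⟨k, hk⟩ : K) : H) = _
    rw [res_pow_apply]

theorem map_WW_res_le (x : Monoid.End H) (K : Subgroup H) (hK : Inv x K) :
    (WW (res x K hK) ⊤).map K.subtype ≤ WW x K := by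
  rw [WW, Subgroup.map_iSup]
  refine iSup_le fun k => ?_
  rintro _ ⟨c, ⟨hc1, hc2⟩, rfl⟩
  refine inf_le_WW x k.1.2 ⟨?_, ?_⟩
  · rw [← map_cl_res x K hK]
    exact ⟨c, hc1, rfl⟩
  · have h1 : (res x K hK) c = c := hc2
    show x (K.subtype c) = K.subtype c
    have := congrArg Subtype.val h1
    exact this

/-- Transfer of the statement from the type `K` to the subgroup `K`. -/
theorem inf_le_of_res {x : Monoid.End H} {K : Subgroup H} (hK : Inv x K)
    (h : DD (res x K hK) ⊤ ⊓ Fx (res x K hK) ≤ WW (res x K hK) ⊤) : DD x K ⊓ Fx x ≤ WW x K := by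
  rintro c ⟨hc1, hc2⟩
  have hcK : c ∈ K := DD_le_self hK hc1
  rw [← map_DD_res x K hK] at hc1
  obtain ⟨c', hc', rfl⟩ := hc1
  refine map_WW_res_le x K hK ⟨c', h ⟨hc', ?_⟩, rfl⟩
  show (res x K hK) c' = c'
  exact Subtype.ext hc2

/-! ### quotients -/

section Quot

variable (x : Monoid.End H) (V : Subgroup H) [V.Normal] (hV : Inv x V)

/-- The endomorphism induced on the quotient. -/
def quo : Monoid.End (H ⧸ V) := QuotientGroup.map V V (x : H →* H) hV

theorem quo_mk (h : H) : quo x V hV (h : H ⧸ V) = ((x h : H) : H ⧸ V) := rfl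

theorem quo_pow_mk (i : ℕ) (h : H) : ((quo x V hV) ^ i) (h : H ⧸ V) = (((x ^ i) h : H) : H ⧸ V) := by
  induction i with
  | zero => rw [pow_zero_apply, pow_zero_apply]
  | succ n ih => rw [pow_succ_apply, pow_succ_apply, ih, quo_mk]

theorem quo_pow_eq_one {p : ℕ} (hx : x ^ p = 1) : (quo x V hV) ^ p = 1 := by
  ext q
  obtain ⟨h, rfl⟩ := QuotientGroup.mk_surjective q
  rw [quo_pow_mk, hx]
  rfl

theorem map_cl_quo (h : H) :
    (cl x h).map (QuotientGroup.mk' V) = cl (quo x V hV) (h : H ⧸ V) := by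
  rw [cl, MonoidHom.map_closure, cl]
  congr 1
  ext c
  constructor
  · rintro ⟨_, ⟨i, rfl⟩, rfl⟩
    exact ⟨i, by rw [quo_pow_mk]; rfl⟩
  · rintro ⟨i, rfl⟩
    exact ⟨_, ⟨i, rfl⟩, by rw [quo_pow_mk]; rfl⟩

theorem map_DD_quo : (DD x ⊤).map (QuotientGroup.mk' V) = DD (quo x V hV) ⊤ := by
  rw [DD, MonoidHom.map_closure, DD]
  congr 1
  ext c
  constructor
  · rintro ⟨_, ⟨h, -, i, rfl⟩, rfl⟩
    exact ⟨(h : H ⧸ V), mem_top _, i, by rw [quo_pow_mk]; rfl⟩
  · rintro ⟨q, -, i, rfl⟩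
    obtain ⟨h, rfl⟩ := QuotientGroup.mk_surjective q
    exact ⟨_, ⟨h, mem_top _, i, rfl⟩, by rw [quo_pow_mk]; rfl⟩

theorem WW_quo_le [Finite H] {p : ℕ} [Fact p.Prime] (hpH : ¬ p ∣ Nat.card H) (hx : x ^ p = 1) :
    WW (quo x V hV) ⊤ ≤ (WW x ⊤).map (QuotientGroup.mk' V) := by
  refine iSup_le fun q => ?_
  obtain ⟨h, hh⟩ := QuotientGroup.mk_surjective (q : H ⧸ V)
  rw [← hh]
  rintro q' ⟨hq1, hq2⟩
  rw [← map_cl_quo x V hV] at hq1
  obtain ⟨d, hd, rfl⟩ := hq1
  have hd : d ∈ cl x h := hd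
  have h1 : ((x d : H) : H ⧸ V) = (d : H ⧸ V) := hq2
  have h2 : d⁻¹ * x d ∈ V := QuotientGroup.eq.1 h1.symm
  have h3 : d⁻¹ * x d ∈ cl x h ⊓ V :=
    Subgroup.mem_inf.2 ⟨mul_mem (inv_mem hd) (inv_cl x h d hd), h2⟩
  obtain ⟨c, hc, hc2⟩ := exists_fixed_coset hx ((inv_cl x h).inf hV)
    (not_dvd_of_le hpH) h3
  have h4 : c ∈ cl x h := by
    have := mul_mem hd hc2.1
    simpa using this
  refine ⟨c, inf_le_WW x (mem_top h) ⟨h4, hc⟩, ?_⟩
  exact (QuotientGroup.eq.2 hc2.2).symm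

/-- If `[H, x] = H` and the statement holds for `H / V` then `C_H(x) ≤ W V`. -/
theorem Fx_le_of_quo [Finite H] {p : ℕ} [Fact p.Prime] (hpH : ¬ p ∣ Nat.card H) (hx : x ^ p = 1)
    (htop : DD x ⊤ = ⊤)
    (h : DD (quo x V hV) ⊤ ⊓ Fx (quo x V hV) ≤ WW (quo x V hV) ⊤) : Fx x ≤ WW x ⊤ ⊔ V := by
  intro c hc
  have hc' : x c = c := hc
  have h1 : (c : H ⧸ V) ∈ DD (quo x V hV) ⊤ ⊓ Fx (quo x V hV) := by
    refine ⟨?_, ?_⟩
    · rw [← map_DD_quo x V hV, htop]
      exact ⟨c, mem_top _, rfl⟩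
    · show quo x V hV (c : H ⧸ V) = (c : H ⧸ V)
      rw [quo_mk, hc']
  obtain ⟨w, hw, hw2⟩ := WW_quo_le x V hV hpH hx (h h1)
  have h3 : w⁻¹ * c ∈ V := QuotientGroup.eq.1 hw2
  have h4 : c = w * (w⁻¹ * c) := by group
  rw [h4]
  exact mul_mem ((le_sup_left : WW x ⊤ ≤ _) hw) ((le_sup_right : V ≤ _) h3)

end Quot

/-! ### invariant Sylow subgroups -/

theorem exists_inv_sylow [Finite H] {p : ℕ} [hp : Fact p.Prime] (hpH : ¬ p ∣ Nat.card H)
    {x : Monoid.End H} (hx : x ^ p = 1) (t : ℕ) [Fact t.Prime] :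
    ∃ S : Sylow t H, Inv x (S : Subgroup H) := by
  classical
  have hbij : Function.Bijective x := by
    have hpos := hp.out.pos
    have h1 : ∀ h : H, (x ^ (p - 1)) (x h) = h := by
      intro h
      have := pow_add_apply x (p - 1) 1 h
      rw [pow_one_apply] at this
      rw [← this, Nat.sub_add_cancel hpos, hx]; rfl
    have h2 : ∀ h : H, x ((x ^ (p - 1)) h) = h := by
      intro h
      rw [← pow_succ_apply, Nat.sub_add_cancel hpos, hx]; rfl
    exact ⟨fun a b hab => by rw [← h1 a, hab, h1 b], fun b => ⟨_, h2 b⟩⟩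
  let e : H ≃* H := MulEquiv.ofBijective (x : H →* H) hbij
  let f : Function.End (Sylow t H) := fun S => (e : MulAut H) • S
  have hf : ∀ n : ℕ, ∀ S : Sylow t H, (f ^ n) S = ((e : MulAut H) ^ n) • S := by
    intro n
    induction n with
    | zero => intro S; rw [pow_zero, pow_zero, one_smul]; rfl
    | succ n ih =>
      intro S
      rw [pow_succ', pow_succ', mul_smul, ← ih]
      rfl
  have hep : (e : MulAut H) ^ p = 1 := by
    have h3 : ∀ n : ℕ, ∀ h : H, ((e : MulAut H) ^ n) h = (x ^ n) h := by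
      intro n
      induction n with
      | zero => intro h; rw [pow_zero, pow_zero_apply]; rfl
      | succ n ih => intro h; rw [pow_succ', pow_succ_apply, MulAut.mul_apply, ih]; rfl
    ext h
    rw [h3, hx]; rfl
  have hfp : f ^ p ^ 1 = 1 := by
    funext S
    rw [pow_one, hf, hep, one_smul]
    rfl
  have : Fintype (Sylow t H) := Fintype.ofFinite _
  have h1 := Equiv.Perm.card_fixedPoints_modEq hfp
  have h2 : Nonempty (Function.fixedPoints f) := by
    by_contra hne
    rw [not_nonempty_iff] at hne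
    have h0 : Fintype.card (Function.fixedPoints f) = 0 := Fintype.card_eq_zero
    rw [h0] at h1
    have h3 := (Nat.modEq_zero_iff_dvd).1 h1
    rw [← Nat.card_eq_fintype_card] at h3
    obtain ⟨S⟩ : Nonempty (Sylow t H) := inferInstance
    exact hpH (h3.trans ((Sylow.card_dvd_index S).trans (Subgroup.index_dvd_card _)))
  obtain ⟨S, hS⟩ := h2
  refine ⟨S, fun s hs => ?_⟩
  have h4 : (e : MulAut H) • S = S := hS
  have h5 : s ∈ S := hs
  have h6 : (e : MulAut H) s ∈ (e : MulAut H) • S := ⟨s, h5, rfl⟩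
  rw [h4] at h6
  exact h6

end Cfsg.Agent.H456
end

-- part: H456/CoprimeEnd3
section
/-!
# `C_{[H, x]}(x)` is generated by the `C_{[h, x]}(x)`: the case of a `t`-group
-/

set_option autoImplicit false

namespace Cfsg.Agent.H456

open Subgroup

variable {H : Type*} [Group H]

/-- The situation in a minimal counterexample. -/
structure Ctx (p : ℕ) (x : Monoid.End H) : Prop where
  hx : x ^ p = 1
  hpH : ¬ p ∣ Nat.card H
  htop : DD x ⊤ = ⊤
  ih1 : ∀ K : Subgroup H, Inv x K → K ≠ ⊤ → DD x K ⊓ Fx x ≤ WW x ⊤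
  ih2 : ∀ V : Subgroup H, V.Normal → Inv x V → V ≠ ⊥ → Fx x ≤ WW x ⊤ ⊔ V

theorem surj_of_pow {p : ℕ} (hp : 0 < p) {x : Monoid.End H} (hx : x ^ p = 1) (h : H) :
    ∃ g, x g = h := by
  refine ⟨(x ^ (p - 1)) h, ?_⟩
  rw [← pow_succ_apply, Nat.sub_add_cancel hp, hx]; rfl

theorem inj_of_pow {p : ℕ} (hp : 0 < p) {x : Monoid.End H} (hx : x ^ p = 1) {a b : H}
    (h : x a = x b) : a = b := by
  have h1 : ∀ h : H, (x ^ (p - 1)) (x h) = h := by
    intro h
    have := pow_add_apply x (p - 1) 1 h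
    rw [pow_one_apply] at this
    rw [← this, Nat.sub_add_cancel hp, hx]; rfl
  rw [← h1 a, h, h1 b]

/-- An element all of whose commutators with `h` are fixed and central ... : the basic step:
if `b h b⁻¹ = z h` and `b x(h) b⁻¹ = z x(h)` then `b` commutes with `h⁻¹ x(h)`. -/
theorem commute_of_eq {b h k z : H} (hz : ∀ g : H, z * g = g * z) (h1 : b * h * b⁻¹ = z * h)
    (h2 : b * k * b⁻¹ = z * k) : b * (h⁻¹ * k) = (h⁻¹ * k) * b := by
  have h3 : b * (h⁻¹ * k) * b⁻¹ = (b * h * b⁻¹)⁻¹ * (b * k * b⁻¹) := by group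
  rw [h1, h2] at h3
  have h4 : (z * h)⁻¹ * (z * k) = h⁻¹ * k := by group
  rw [h4] at h3
  calc b * (h⁻¹ * k) = (b * (h⁻¹ * k) * b⁻¹) * b := by group
    _ = (h⁻¹ * k) * b := by rw [h3]

namespace Ctx

variable {p : ℕ} {x : Monoid.End H} (C : Ctx p x)
include C

/-- A normal subgroup of `H` contained in `C_H(x)` is central. -/
theorem central_of_le_Fx {V : Subgroup H} [hV : V.Normal] (hVx : V ≤ Fx x) {v : H} (hv : v ∈ V)
    (h : H) : v * h = h * v := by
  have hle : DD x ⊤ ≤ centralizer {v} := by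
    refine (closure_le _).2 ?_
    rintro c ⟨h, -, i, rfl⟩
    show h⁻¹ * (x ^ i) h ∈ centralizer {v}
    rw [mem_centralizer_singleton_iff]
    have h1 : h * v * h⁻¹ ∈ V := hV.conj_mem v hv h
    have h2 : (x ^ i) (h * v * h⁻¹) = h * v * h⁻¹ := pow_apply_of_fixed (hVx h1) i
    rw [map_mul, map_mul, map_inv, pow_apply_of_fixed (hVx hv)] at h2
    calc h⁻¹ * (x ^ i) h * v = h⁻¹ * ((x ^ i) h * v * ((x ^ i) h)⁻¹) * (x ^ i) h := by group
      _ = h⁻¹ * (h * v * h⁻¹) * (x ^ i) h := by rw [h2]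
      _ = v * (h⁻¹ * (x ^ i) h) := by group
  rw [C.htop] at hle
  have := hle (mem_top h)
  rw [mem_centralizer_singleton_iff] at this
  exact this.symm

theorem exists_decomp {V : Subgroup H} (hV : V.Normal) (hVi : Inv x V) (hV1 : V ≠ ⊥) {c : H}
    (hc : c ∈ Fx x) : ∃ w ∈ WW x ⊤, ∃ v ∈ V ⊓ Fx x, c = w * v := by
  have h1 := C.ih2 V hV hVi hV1 hc
  rw [← SetLike.mem_coe, Subgroup.mul_normal] at h1
  obtain ⟨w, hw, v, hv, rfl⟩ := h1
  refine ⟨w, hw, v, ⟨hv, ?_⟩, rfl⟩
  have := mul_mem (inv_mem (WW_le_Fx x ⊤ hw)) hc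
  simpa using this

theorem Fx_le_of_inf_le {V : Subgroup H} (hV : V.Normal) (hVi : Inv x V) (hV1 : V ≠ ⊥)
    (h : V ⊓ Fx x ≤ WW x ⊤) : Fx x ≤ WW x ⊤ := by
  intro c hc
  obtain ⟨w, hw, v, hv, rfl⟩ := C.exists_decomp hV hVi hV1 hc
  exact mul_mem hw (h hv)

variable [Finite H] [hp : Fact p.Prime]

theorem inv_center : Inv x (center H) := by
  intro z hz
  rw [mem_center_iff] at hz ⊢
  intro g
  obtain ⟨g, rfl⟩ := surj_of_pow hp.out.pos C.hx g
  rw [← map_mul, ← map_mul, hz g]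

/-- The case of a group of prime power order. -/
theorem pgroup_case (hodd : p ≠ 2) {t : ℕ} [ht : Fact t.Prime] (hH : IsPGroup t H) :
    Fx x ≤ WW x ⊤ := by
  classical
  by_contra hne
  have hx := C.hx
  have hpH := C.hpH
  have hntr : Nontrivial H := by
    by_contra hnt
    rw [not_nontrivial_iff_subsingleton] at hnt
    exact hne (fun c _ => by rw [Subsingleton.elim c 1]; exact one_mem _)
  -- every invariant normal subgroup `≠ 1` has nontrivial fixed points
  have hfix : ∀ V : Subgroup H, V.Normal → Inv x V → V ≠ ⊥ → V ⊓ Fx x ≠ ⊥ := by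
    intro V hV hVi hV1 h0
    exact hne (C.Fx_le_of_inf_le hV hVi hV1 (by rw [h0]; exact bot_le))
  set Z : Subgroup H := center H with hZdef
  have hZi : Inv x Z := C.inv_center
  have hZc : ∀ z ∈ Z, ∀ g : H, z * g = g * z := fun z hz g => (mem_center_iff.1 hz g).symm
  have hZF : Z ≤ Fx x := by
    have h1 : DD x Z = ⊥ := by
      by_contra h2
      have hn : (DD x Z).Normal := by
        constructor
        intro n hn g
        have : n ∈ Z := DD_le_self hZi hn
        rw [← hZc n this g]; simpa using hn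
      have h3 := hfix _ hn (inv_DD x Z) h2
      apply h3
      rw [eq_bot_iff]
      rintro c ⟨hc1, hc2⟩
      exact DD_inf_Fx_of_comm hx (not_dvd_of_le hpH) hZi (fun a ha b _ => hZc a ha b) hc1 hc2
    intro z hz
    have h2 : z⁻¹ * x z ∈ DD x Z := mem_DD_one x hz
    rw [h1, mem_bot, inv_mul_eq_one] at h2
    exact h2.symm
  have hWZ : WW x ⊤ ⊓ Z = ⊥ := by
    by_contra h2
    have hn : (WW x ⊤ ⊓ Z).Normal := by
      constructor
      intro n hn g
      rw [← hZc n hn.2 g]; simpa using hn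
    have hi : Inv x (WW x ⊤ ⊓ Z) := by
      intro k hk
      have : x k = k := hZF hk.2
      rw [this]; exact hk
    have := C.ih2 _ hn hi h2
    apply hne
    refine this.trans (sup_le le_rfl inf_le_left)
  have hWZ' : ∀ g, g ∈ WW x ⊤ → g ∈ Z → g = 1 := by
    intro g h1 h2
    have : g ∈ WW x ⊤ ⊓ Z := ⟨h1, h2⟩
    rwa [hWZ, mem_bot] at this
  have hZtop : Z ≠ ⊤ := by
    intro h1
    apply hne
    intro c hc
    have h2 : c ∈ DD x (⊤ : Subgroup H) := by rw [C.htop]; exact mem_top c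
    rw [DD_inf_Fx_of_comm hx (not_dvd_of_le hpH) (inv_top x)
      (fun a _ b _ => hZc a (h1 ▸ mem_top a) b) h2 hc]
    exact one_mem _
  -- the second centre
  let B : Subgroup H := (center (H ⧸ Z)).comap (QuotientGroup.mk' Z)
  have hB : ∀ b, b ∈ B ↔ ∀ h : H, b * h * b⁻¹ * h⁻¹ ∈ Z := by
    intro b
    show ((b : H ⧸ Z) ∈ center (H ⧸ Z)) ↔ _
    rw [mem_center_iff]
    constructor
    · intro h1 h
      have h2 := h1 (h : H ⧸ Z)
      rw [← QuotientGroup.mk_mul, ← QuotientGroup.mk_mul, QuotientGroup.eq] at h2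
      have h3 : (h * b)⁻¹ * (b * h) ∈ Z := h2
      have h4 := (inferInstance : Z.Normal).conj_mem _ h3 (h * b)
      have h5 : (h * b) * ((h * b)⁻¹ * (b * h)) * (h * b)⁻¹ = b * h * b⁻¹ * h⁻¹ := by group
      rwa [h5] at h4
    · intro h1 q
      obtain ⟨h, rfl⟩ := QuotientGroup.mk_surjective q
      rw [← QuotientGroup.mk_mul, ← QuotientGroup.mk_mul, QuotientGroup.eq]
      have h4 := (inferInstance : Z.Normal).conj_mem _ (h1 h) (h * b)⁻¹
      have h5 : (h * b)⁻¹ * (b * h * b⁻¹ * h⁻¹) * (h * b)⁻¹⁻¹ = (h * b)⁻¹ * (b * h) := by group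
      rwa [h5] at h4
  have hBn : B.Normal := inferInstance
  have hZB : Z ≤ B := by
    intro z hz
    rw [hB]
    intro h
    have : z * h * z⁻¹ * h⁻¹ = 1 := by rw [hZc z hz h]; group
    rw [this]; exact one_mem _
  have hBi : Inv x B := by
    intro b hb
    rw [hB] at hb ⊢
    intro h
    obtain ⟨h, rfl⟩ := surj_of_pow hp.out.pos hx h
    have := hZi _ (hb h)
    rwa [map_mul, map_mul, map_mul, map_inv, map_inv] at this
  -- the commutator is fixed by `x`
  have hcomm : ∀ b ∈ B, ∀ h : H, ∀ i : ℕ, (x ^ i) b * (x ^ i) h * ((x ^ i) b)⁻¹ * ((x ^ i) h)⁻¹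
      = b * h * b⁻¹ * h⁻¹ := by
    intro b hb h i
    have h1 := pow_apply_of_fixed (hZF ((hB b).1 hb h)) i
    rwa [map_mul, map_mul, map_mul, map_inv, map_inv] at h1
  -- fixed points centralize `[B, x]`
  have hFB : ∀ c, x c = c → ∀ a ∈ DD x B, c * a = a * c := by
    intro c hc a ha
    have hle : DD x B ≤ centralizer {c} := by
      refine (closure_le _).2 ?_
      rintro _ ⟨b, hb, i, rfl⟩
      show b⁻¹ * (x ^ i) b ∈ centralizer {c}
      rw [mem_centralizer_singleton_iff]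
      have h1 := hcomm b hb c i
      rw [pow_apply_of_fixed hc] at h1
      set z := b * c * b⁻¹ * c⁻¹ with hz
      have hzZ : z ∈ Z := (hB b).1 hb c
      have h2 : b * c * b⁻¹ = z * c := by rw [hz]; group
      have h3 : (x ^ i) b * c * ((x ^ i) b)⁻¹ = z * c := by rw [← h1]; group
      have h4 : c = z * (b⁻¹ * c * b) := by
        have : z * (b⁻¹ * c * b) = b⁻¹ * (z * c) * b := by
          rw [← mul_assoc, ← mul_assoc, hZc z hzZ b⁻¹]; group
        rw [this, ← h2]; group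
      calc b⁻¹ * (x ^ i) b * c = b⁻¹ * ((x ^ i) b * c * ((x ^ i) b)⁻¹) * (x ^ i) b := by group
        _ = b⁻¹ * (z * c) * (x ^ i) b := by rw [h3]
        _ = (z * (b⁻¹ * c * b)) * (b⁻¹ * (x ^ i) b) := by
          rw [← mul_assoc b⁻¹ z c, ← hZc z hzZ b⁻¹]; group
        _ = c * (b⁻¹ * (x ^ i) b) := by rw [← h4]
    have := hle ha
    rw [mem_centralizer_singleton_iff] at this
    exact this.symm
  -- fixed points in `B` are central
  have hBF : ∀ b ∈ B, x b = b → b ∈ Z := by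
    intro b hb hbx
    have hle : DD x ⊤ ≤ centralizer {b} := by
      refine (closure_le _).2 ?_
      rintro _ ⟨h, -, i, rfl⟩
      show h⁻¹ * (x ^ i) h ∈ centralizer {b}
      rw [mem_centralizer_singleton_iff]
      have h1 := hcomm b hb h i
      rw [pow_apply_of_fixed hbx] at h1
      refine (commute_of_eq (z := b * h * b⁻¹ * h⁻¹) (hZc _ ((hB b).1 hb h)) ?_ ?_).symm
      · group
      · rw [← h1]; group
    rw [C.htop] at hle
    rw [hZdef, mem_center_iff]
    intro g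
    have := hle (mem_top g)
    rwa [mem_centralizer_singleton_iff] at this
  by_cases hBtop : B = ⊤
  · -- class two
    have hBt : ∀ a b : H, a * b * a⁻¹ * b⁻¹ ∈ Z := fun a b => (hB a).1 (hBtop ▸ mem_top a) b
    -- `[h, x]` is abelian
    have hab : ∀ h : H, ∀ i j : ℕ, (h⁻¹ * (x ^ i) h) * (h⁻¹ * (x ^ j) h)
        = (h⁻¹ * (x ^ j) h) * (h⁻¹ * (x ^ i) h) := by
      intro h i j
      have h1 := mem_cl x h i
      have h2 := mem_cl x h j
      have h3 := hBt (h⁻¹ * (x ^ i) h) (h⁻¹ * (x ^ j) h)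
      have h4 : (h⁻¹ * (x ^ i) h) * (h⁻¹ * (x ^ j) h) * (h⁻¹ * (x ^ i) h)⁻¹
          * (h⁻¹ * (x ^ j) h)⁻¹ ∈ cl x h :=
        mul_mem (mul_mem (mul_mem h1 h2) (inv_mem h1)) (inv_mem h2)
      have h5 := hWZ' _ (inf_le_WW x (mem_top h) ⟨h4, hZF h3⟩) h3
      rwa [mul_inv_eq_one, mul_inv_eq_iff_eq_mul] at h5
    -- the bilinear form
    let β : H → H → H := fun a b => a * b * a⁻¹ * b⁻¹
    have hβZ : ∀ a b, β a b ∈ Z := hBt
    have hβc : ∀ a b g, β a b * g = g * β a b := fun a b g => hZc _ (hβZ a b) g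
    have β_mul_left : ∀ a b c, β (a * b) c = β a c * β b c := by
      intro a b c
      have h1 : β (a * b) c = a * β b c * (c * a⁻¹ * c⁻¹) := by simp only [β]; group
      rw [h1, ← hβc b c a, mul_assoc, hβc b c]
      congr 1
      simp only [β]; group
    have β_mul_right : ∀ a b c, β a (b * c) = β a b * β a c := by
      intro a b c
      have h1 : β a (b * c) = β a b * (b * β a c * b⁻¹) := by simp only [β]; group
      rw [h1, ← hβc a c b]; group
    have β_inv : ∀ a b, β b a = (β a b)⁻¹ := by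
      intro a b; simp only [β]; group
    have β_one_left : ∀ b, β 1 b = 1 := by intro b; simp only [β]; group
    have β_one_right : ∀ b, β b 1 = 1 := by intro b; simp only [β]; group
    have β_inv_left : ∀ a b, β a⁻¹ b = (β a b)⁻¹ := by
      intro a b
      have := β_mul_left a⁻¹ a b
      rw [inv_mul_cancel, β_one_left] at this
      rw [eq_inv_iff_mul_eq_one]; exact this.symm
    have β_inv_right : ∀ a b, β a b⁻¹ = (β a b)⁻¹ := by
      intro a b
      have := β_mul_right a b⁻¹ b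
      rw [inv_mul_cancel, β_one_right] at this
      rw [eq_inv_iff_mul_eq_one]; exact this.symm
    have β_x : ∀ a b (i : ℕ), β ((x ^ i) a) ((x ^ i) b) = β a b := by
      intro a b i
      exact hcomm a (hBtop ▸ mem_top a) b i
    have β_self : ∀ a, β a a = 1 := by intro a; simp only [β]; group
    -- additivity
    have hadd : ∀ h : H, ∀ i j : ℕ, β h ((x ^ (i + j)) h) = β h ((x ^ i) h) * β h ((x ^ j) h) := by
      intro h i j
      have h1 := hab h i (i + j)
      have h2 : β (h⁻¹ * (x ^ i) h) (h⁻¹ * (x ^ (i + j)) h) = 1 := by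
        simp only [β]; rw [h1]; group
      rw [β_mul_left, β_mul_right, β_mul_right, β_inv_left, β_inv_right, β_self, β_inv_left,
        β_inv_right, pow_add_apply, β_x, β_inv h ((x ^ i) h)] at h2
      simp only [inv_one, one_mul, inv_inv] at h2
      rw [inv_mul_eq_one] at h2
      rw [pow_add_apply]; exact h2
    have hzero : ∀ h : H, ∀ i : ℕ, β h ((x ^ i) h) = 1 := by
      intro h i
      have h1 : ∀ n : ℕ, β h ((x ^ (n * i)) h) = (β h ((x ^ i) h)) ^ n := by
        intro n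
        induction n with
        | zero => rw [zero_mul, pow_zero_apply, β_self, pow_zero]
        | succ n ih => rw [Nat.succ_mul, hadd, ih, pow_succ]
      have h2 := h1 p
      rw [pow_mul, hx, one_pow] at h2
      have h3 : (β h ((x ^ i) h)) ^ p = 1 := by
        rw [← h2]; exact β_self h
      have h6 : orderOf (β h ((x ^ i) h)) ∣ p := orderOf_dvd_of_pow_eq_one h3
      have h7 : orderOf (β h ((x ^ i) h)) ∣ Nat.card H := orderOf_dvd_natCard _
      rcases (Nat.dvd_prime hp.out).1 h6 with h8 | h8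
      · exact orderOf_eq_one_iff.1 h8
      · rw [h8] at h7; exact absurd h7 hpH
    -- polarisation
    have hpol : ∀ g h : H, ∀ i : ℕ, β h ((x ^ i) g) * β g ((x ^ i) h) = 1 := by
      intro g h i
      have h1 := hzero (h * g) i
      rw [map_mul, β_mul_left, β_mul_right, β_mul_right, hzero, hzero] at h1
      simpa using h1
    -- `x²` acts trivially modulo `Z`
    have hsq : ∀ g : H, g⁻¹ * (x ^ 2) g ∈ Z := by
      intro g
      rw [hZdef, mem_center_iff]
      intro h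
      obtain ⟨h, rfl⟩ := surj_of_pow hp.out.pos hx h
      have key : β (x h) (g⁻¹ * (x ^ 2) g) = 1 := by
        have e1 : β (x h) ((x ^ 2) g) = β h (x g) := by
          have := β_x h (x g) 1
          rw [pow_one_apply, pow_one_apply] at this
          have e : (x ^ 2) g = x (x g) := by rw [pow_succ_apply, pow_one_apply]
          rw [e]; exact this
        have e2 : β h (x g) * β g (x h) = 1 := by
          have := hpol g h 1
          rwa [pow_one_apply, pow_one_apply] at this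
        rw [β_mul_right, β_inv_right, e1]
        have e3 : β (x h) g = (β g (x h))⁻¹ := β_inv _ _
        rw [e3, inv_inv, hβc]; exact e2
      have key2 : x h * (g⁻¹ * (x ^ 2) g) * (x h)⁻¹ * (g⁻¹ * (x ^ 2) g)⁻¹ = 1 := key
      rwa [mul_inv_eq_one, mul_inv_eq_iff_eq_mul] at key2
    have hsqn : ∀ (n : ℕ) (g : H), g⁻¹ * (x ^ (2 * n)) g ∈ Z := by
      intro n g
      induction n with
      | zero => rw [mul_zero, pow_zero_apply, inv_mul_cancel]; exact one_mem _
      | succ n ih =>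
        have e1 : g⁻¹ * (x ^ (2 * (n + 1))) g
            = (g⁻¹ * (x ^ 2) g) * (x ^ 2) (g⁻¹ * (x ^ (2 * n)) g) := by
          rw [show 2 * (n + 1) = 2 + 2 * n by ring, pow_add_apply, map_mul, map_inv]; group
        rw [e1]
        exact mul_mem (hsq g) (hZi.pow 2 ih)
    have hx1 : ∀ g : H, g⁻¹ * x g ∈ Z := by
      intro g
      have hpodd : Odd p := hp.out.odd_of_ne_two hodd
      obtain ⟨m, hm⟩ := hpodd
      have h1 := hsqn (m + 1) g
      rw [show 2 * (m + 1) = 1 + p by omega, pow_add_apply, hx, pow_one_apply] at h1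
      exact h1
    apply hZtop
    rw [eq_top_iff, ← C.htop]
    exact DD_le fun k _ => cl_le_of_inv hZi (hx1 k)
  · -- `B = Z₂(H)` is proper
    set A : Subgroup H := DD x B with hAdef
    have hAi : Inv x A := inv_DD x B
    have hAB : A ≤ B := DD_le_self hBi
    have hAF : ∀ a ∈ A, x a = a → a = 1 := by
      intro a ha hax
      exact hWZ' a (C.ih1 B hBi hBtop ⟨ha, hax⟩) (hBF a (hAB ha) hax)
    have hAab : ∀ a ∈ A, ∀ b ∈ A, a * b = b * a := by
      intro a ha b hb
      have h1 : a * b * a⁻¹ * b⁻¹ ∈ Z := (hB a).1 (hAB ha) b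
      have h2 : a * b * a⁻¹ * b⁻¹ ∈ A :=
        mul_mem (mul_mem (mul_mem ha hb) (inv_mem ha)) (inv_mem hb)
      have h3 := hAF _ h2 (hZF h1)
      rwa [mul_inv_eq_one, mul_inv_eq_iff_eq_mul] at h3
    have hAne : A ≠ ⊥ := by
      intro h0
      have h1 : B ≤ Z := by
        intro b hb
        refine hBF b hb ?_
        have h2 : b⁻¹ * x b ∈ A := mem_DD_one x hb
        rw [h0, mem_bot, inv_mul_eq_one] at h2
        exact h2.symm
      -- then the centre of `H / Z` is trivial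
      have h2 : center (H ⧸ Z) = ⊥ := by
        rw [eq_bot_iff]
        intro q hq
        obtain ⟨h, rfl⟩ := QuotientGroup.mk_surjective q
        have : h ∈ Z := h1 hq
        rw [mem_bot]
        exact (QuotientGroup.eq_one_iff h).2 this
      have h3 : Nontrivial (H ⧸ Z) := by
        rw [← not_subsingleton_iff_nontrivial, QuotientGroup.subsingleton_iff]
        exact hZtop
      have h4 : IsPGroup t (H ⧸ Z) := hH.to_quotient Z
      have h5 := h4.center_nontrivial
      rw [h2] at h5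
      exact (not_nontrivial_iff_subsingleton.2 inferInstance) h5
    have hADD : DD x A = A := DD_DD hpH hx hBi
    -- a minimal invariant subgroup not centralizing `A`
    have hex : ∃ Y : Subgroup H, (Inv x Y ∧ ¬ Y ≤ centralizer (A : Set H)) ∧
        ∀ Y' : Subgroup H, (Inv x Y' ∧ ¬ Y' ≤ centralizer (A : Set H)) →
          Nat.card Y ≤ Nat.card Y' := by
      have hne' : {Y : Subgroup H | Inv x Y ∧ ¬ Y ≤ centralizer (A : Set H)}.Nonempty := by
        refine ⟨⊤, inv_top x, ?_⟩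
        intro h1
        apply hAne
        rw [eq_bot_iff]
        intro a ha
        have h2 : a ∈ Z := by
          rw [hZdef, mem_center_iff]
          intro g
          exact (mem_centralizer_iff.1 (h1 (mem_top g)) a ha).symm
        rw [mem_bot]
        exact hAF a ha (hZF h2)
      obtain ⟨Y, hY, hYmin⟩ := Set.exists_min_image _ (fun Y : Subgroup H => Nat.card Y)
        (Set.toFinite _) hne'
      exact ⟨Y, hY, hYmin⟩
    obtain ⟨Y, ⟨hYi, hYA⟩, hYmin⟩ := hex
    have hYmin' : ∀ Y' : Subgroup H, Inv x Y' → Y' ≤ Y → Y' ≠ Y → Y' ≤ centralizer (A : Set H) := by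
      intro Y' h1 h2 h3
      by_contra h4
      have h5 := hYmin Y' ⟨h1, h4⟩
      exact h3 (Subgroup.eq_of_le_of_card_ge h2 h5)
    have hFA : Fx x ≤ centralizer (A : Set H) := by
      intro c hc
      rw [mem_centralizer_iff]
      intro a ha
      exact (hFB c hc a ha).symm
    have hYDD : DD x Y = Y := by
      by_contra h1
      have h2 := hYmin' _ (inv_DD x Y) (DD_le_self hYi) h1
      apply hYA
      intro y hy
      obtain ⟨c, hc, d, hd, rfl⟩ := exists_fixed_mul hpH hx hYi hy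
      exact mul_mem (hFA hc.2) (h2 hd)
    have hYtop : Y ≠ ⊤ := by
      intro h0
      subst h0
      obtain ⟨h, -, hh⟩ := SetLike.not_le_iff_exists.1 hYA
      by_cases h1 : cl x h = ⊤
      · apply hne
        intro c hc
        exact inf_le_WW x (mem_top h) ⟨h1 ▸ mem_top c, hc⟩
      · have h2 := hYmin' _ (inv_cl x h) le_top h1
        obtain ⟨c, hc, d, hd, h3⟩ := exists_fixed_cl hpH hx h
        apply hh
        rw [h3]
        exact mul_mem (hFA hc) (h2 hd)
    -- `[Y, A]` is not trivial, in `Z`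
    have hcen : ∀ a ∈ A, ∀ h : H, a * h * a⁻¹ * h⁻¹ ∈ Z := fun a ha => (hB a).1 (hAB ha)
    by_cases hG1 : Y ⊔ A = ⊤
    · -- `C_Y(A)` is normal in `H`
      set N : Subgroup H := Y ⊓ centralizer (A : Set H) with hN
      have hNn : N.Normal := by
        rw [← Subgroup.normalizer_eq_top_iff, eq_top_iff, ← hG1]
        refine sup_le ?_ ?_
        · intro y hy
          rw [Subgroup.mem_normalizer_iff]
          have key : ∀ y ∈ Y, ∀ n ∈ N, y * n * y⁻¹ ∈ N := by
            intro y hy n hn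
            refine Subgroup.mem_inf.2 ⟨mul_mem (mul_mem hy hn.1) (inv_mem hy), ?_⟩
            rw [mem_centralizer_iff]
            intro a ha
            -- `y⁻¹ a y = a z`
            have h1 := hcen a ha y⁻¹
            have h2 := mem_centralizer_iff.1 hn.2 a ha
            have h3 : y⁻¹ * a * y = (a * y⁻¹ * a⁻¹ * y⁻¹⁻¹)⁻¹ * a := by group
            set z := (a * y⁻¹ * a⁻¹ * y⁻¹⁻¹)⁻¹ with hz
            have hzZ : z ∈ Z := inv_mem h1
            calc a * (y * n * y⁻¹) = y * ((y⁻¹ * a * y) * n) * y⁻¹ := by group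
              _ = y * (z * a * n) * y⁻¹ := by rw [h3]
              _ = y * (z * (a * n)) * y⁻¹ := by group
              _ = y * (z * (n * a)) * y⁻¹ := by rw [h2]
              _ = y * ((z * n) * a) * y⁻¹ := by group
              _ = y * ((n * z) * a) * y⁻¹ := by rw [hZc z hzZ n]
              _ = y * (n * (z * a)) * y⁻¹ := by group
              _ = y * (n * (y⁻¹ * a * y)) * y⁻¹ := by rw [h3]
              _ = y * n * y⁻¹ * a := by group
          intro n
          constructor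
          · exact key y hy n
          · intro h1
            have := key y⁻¹ (inv_mem hy) _ h1
            have e : y⁻¹ * (y * n * y⁻¹) * y⁻¹⁻¹ = n := by group
            rwa [e] at this
        · intro a ha
          rw [Subgroup.mem_normalizer_iff]
          intro n
          constructor
          · intro hn
            have h2 := mem_centralizer_iff.1 hn.2 a ha
            rw [h2]; simpa using hn
          · intro hn
            have h2 := mem_centralizer_iff.1 hn.2 a ha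
            have h3 : a * n * a⁻¹ = n := by
              have : a * (a * n * a⁻¹) * a⁻¹ = a * n * a⁻¹ := by rw [h2]; group
              have h4 : a⁻¹ * (a * (a * n * a⁻¹) * a⁻¹) * a = a⁻¹ * (a * n * a⁻¹) * a := by rw [this]
              have h5 : a⁻¹ * (a * (a * n * a⁻¹) * a⁻¹) * a = a * n * a⁻¹ := by group
              have h6 : a⁻¹ * (a * n * a⁻¹) * a = n := by group
              rw [h5, h6] at h4; exact h4
            rwa [h3] at hn
      have hN1 : N = ⊥ := by
        by_contra h0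
        obtain ⟨z, hzN, hzZ, hzo⟩ :=
          Cfsg.Agent.Transfer.PGroupNormal.exists_mem_inf_center_orderOf hH N h0
        have hz3 : z ∈ DD x Y ⊓ Fx x := Subgroup.mem_inf.2 ⟨by rw [hYDD]; exact hzN.1, hZF hzZ⟩
        have hz4 := hWZ' z (C.ih1 Y hYi hYtop hz3) hzZ
        rw [hz4, orderOf_one] at hzo
        exact ht.out.one_lt.ne hzo
      -- hence `Y` is abelian and `H` has class two
      have hYab : ∀ a ∈ Y, ∀ b ∈ Y, a * b = b * a := by
        intro y1 h1 y2 h2
        have h3 : y1 * y2 * y1⁻¹ * y2⁻¹ ∈ N := by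
          refine Subgroup.mem_inf.2
            ⟨mul_mem (mul_mem (mul_mem h1 h2) (inv_mem h1)) (inv_mem h2), ?_⟩
          rw [mem_centralizer_iff]
          intro a ha
          -- `y a y⁻¹ = z_y a`
          have hyz : ∀ y : H, ∃ z ∈ Z, y * a * y⁻¹ = z * a := by
            intro y
            refine ⟨(a * y * a⁻¹ * y⁻¹)⁻¹, inv_mem (hcen a ha y), by group⟩
          obtain ⟨z1, hz1, e1⟩ := hyz y1
          obtain ⟨z2, hz2, e2⟩ := hyz y2
          obtain ⟨z3, hz3, e3⟩ := hyz y1⁻¹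
          obtain ⟨z4, hz4, e4⟩ := hyz y2⁻¹
          have f1 : z3 * z1 = 1 := by
            have : y1⁻¹ * (y1 * a * y1⁻¹) * y1⁻¹⁻¹ = a := by group
            rw [e1, ← mul_assoc, ← hZc z1 hz1 y1⁻¹, mul_assoc, mul_assoc, ← mul_assoc y1⁻¹, e3,
              ← mul_assoc, hZc z1 hz1 z3] at this
            exact mul_eq_right.1 this
          have f2 : z4 * z2 = 1 := by
            have : y2⁻¹ * (y2 * a * y2⁻¹) * y2⁻¹⁻¹ = a := by group
            rw [e2, ← mul_assoc, ← hZc z2 hz2 y2⁻¹, mul_assoc, mul_assoc, ← mul_assoc y2⁻¹, e4,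
              ← mul_assoc, hZc z2 hz2 z4] at this
            exact mul_eq_right.1 this
          have f3 : (y1 * y2 * y1⁻¹ * y2⁻¹) * a * (y1 * y2 * y1⁻¹ * y2⁻¹)⁻¹ = a := by
            calc (y1 * y2 * y1⁻¹ * y2⁻¹) * a * (y1 * y2 * y1⁻¹ * y2⁻¹)⁻¹
                = y1 * (y2 * (y1⁻¹ * (y2⁻¹ * a * y2⁻¹⁻¹) * y1⁻¹⁻¹) * y2⁻¹) * y1⁻¹ := by group
              _ = y1 * (y2 * (y1⁻¹ * (z4 * a) * y1⁻¹⁻¹) * y2⁻¹) * y1⁻¹ := by rw [e4]
              _ = y1 * (y2 * (z4 * (y1⁻¹ * a * y1⁻¹⁻¹)) * y2⁻¹) * y1⁻¹ := by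
                rw [← mul_assoc y1⁻¹ z4 a, ← hZc z4 hz4 y1⁻¹]; group
              _ = y1 * (y2 * (z4 * (z3 * a)) * y2⁻¹) * y1⁻¹ := by rw [e3]
              _ = y1 * ((z4 * z3) * (y2 * a * y2⁻¹)) * y1⁻¹ := by
                rw [← mul_assoc z4 z3 a, ← mul_assoc y2, ← hZc (z4 * z3) (mul_mem hz4 hz3) y2]
                group
              _ = y1 * ((z4 * z3) * (z2 * a)) * y1⁻¹ := by rw [e2]
              _ = (z4 * z3 * z2) * (y1 * a * y1⁻¹) := by
                rw [← mul_assoc (z4 * z3) z2 a, ← mul_assoc y1,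
                  ← hZc (z4 * z3 * z2) (mul_mem (mul_mem hz4 hz3) hz2) y1]
                group
              _ = (z4 * z3 * z2) * (z1 * a) := by rw [e1]
              _ = (z4 * z2) * (z3 * z1) * a := by
                rw [mul_assoc z4 z3 z2, hZc z3 hz3 z2]; group
              _ = a := by rw [f1, f2]; group
          exact (mul_inv_eq_iff_eq_mul.1 f3).symm
        rw [hN1, mem_bot, mul_inv_eq_one, mul_inv_eq_iff_eq_mul] at h3
        exact h3
      apply hBtop
      rw [eq_top_iff]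
      -- the quotient by `Z` is abelian
      have hle : (⊤ : Subgroup H) ≤ B := by
        rw [← hG1]
        refine sup_le ?_ hAB
        intro y hy
        rw [hB]
        -- `[y, h] ∈ Z` for all `h`
        let S : Subgroup H :=
          { carrier := {h | y * h * y⁻¹ * h⁻¹ ∈ Z}
            mul_mem' := by
              intro a b ha hb
              have ha' : y * a * y⁻¹ * a⁻¹ ∈ Z := ha
              have hb' : y * b * y⁻¹ * b⁻¹ ∈ Z := hb
              show y * (a * b) * y⁻¹ * (a * b)⁻¹ ∈ Z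
              have e : y * (a * b) * y⁻¹ * (a * b)⁻¹
                  = (y * a * y⁻¹ * a⁻¹) * (a * (y * b * y⁻¹ * b⁻¹) * a⁻¹) := by group
              rw [e]
              exact mul_mem ha' ((inferInstance : Z.Normal).conj_mem _ hb' a)
            one_mem' := by
              show y * 1 * y⁻¹ * 1⁻¹ ∈ Z
              have e : y * 1 * y⁻¹ * 1⁻¹ = 1 := by group
              rw [e]; exact one_mem _
            inv_mem' := by
              intro a ha
              have ha' : y * a * y⁻¹ * a⁻¹ ∈ Z := ha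
              show y * a⁻¹ * y⁻¹ * a⁻¹⁻¹ ∈ Z
              have e : y * a⁻¹ * y⁻¹ * a⁻¹⁻¹ = a⁻¹ * (y * a * y⁻¹ * a⁻¹)⁻¹ * a⁻¹⁻¹ := by group
              rw [e]
              exact (inferInstance : Z.Normal).conj_mem _ (inv_mem ha') a⁻¹ }
        have hS : (⊤ : Subgroup H) ≤ S := by
          rw [← hG1]
          refine sup_le ?_ ?_
          · intro b hb
            show y * b * y⁻¹ * b⁻¹ ∈ Z
            rw [hYab y hy b hb]
            have e : b * y * y⁻¹ * b⁻¹ = 1 := by group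
            rw [e]; exact one_mem _
          · intro a ha
            show y * a * y⁻¹ * a⁻¹ ∈ Z
            have e : y * a * y⁻¹ * a⁻¹ = (a * y * a⁻¹ * y⁻¹)⁻¹ := by group
            rw [e]; exact inv_mem (hcen a ha y)
        intro h
        exact hS (mem_top h)
      exact hle
    · -- induction applies to `Y A`
      apply hYA
      intro y hy
      rw [mem_centralizer_iff]
      intro a ha
      set K : Subgroup H := Y ⊔ A with hK
      have hKi : Inv x K := hYi.sup hAi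
      have h1 : y ∈ DD x K := DD_mono le_sup_left (by rw [hYDD]; exact hy)
      have h2 : a ∈ DD x K := DD_mono (le_sup_right : A ≤ K) (by rw [hADD]; exact ha)
      have h3 : a * y * a⁻¹ * y⁻¹ ∈ DD x K :=
        mul_mem (mul_mem (mul_mem h2 h1) (inv_mem h2)) (inv_mem h1)
      have h4 := hcen a ha y
      have h5 := hWZ' _ (C.ih1 K hKi hG1 ⟨h3, hZF h4⟩) h4
      rwa [mul_inv_eq_one, mul_inv_eq_iff_eq_mul] at h5

end Ctx

end Cfsg.Agent.H456
end

-- part: H456/CoprimeEnd4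
section
/-!
# `C_{[H, x]}(x)` is generated by the `C_{[h, x]}(x)`: an invariant normal subgroup in `C_H(x)`
-/

set_option autoImplicit false

namespace Cfsg.Agent.H456

open Subgroup

open scoped commutatorElement

variable {H : Type*} [Group H]

/-- Elements of `N ⊔ K` when `K` normalizes `N`. -/
theorem mem_sup_of_normalizes {N K : Subgroup H} (h : ∀ k ∈ K, ∀ n ∈ N, k * n * k⁻¹ ∈ N) {g : H}
    (hg : g ∈ N ⊔ K) : ∃ n ∈ N, ∃ k ∈ K, g = n * k := by
  let S : Subgroup H :=
    { carrier := {g | ∃ n ∈ N, ∃ k ∈ K, g = n * k}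
      mul_mem' := by
        rintro a b ⟨n, hn, k, hk, rfl⟩ ⟨n', hn', k', hk', rfl⟩
        exact ⟨n * (k * n' * k⁻¹), mul_mem hn (h k hk n' hn'), k * k', mul_mem hk hk', by group⟩
      one_mem' := ⟨1, one_mem _, 1, one_mem _, by simp⟩
      inv_mem' := by
        rintro a ⟨n, hn, k, hk, rfl⟩
        refine ⟨k⁻¹ * n⁻¹ * k⁻¹⁻¹, h _ (inv_mem hk) _ (inv_mem hn), k⁻¹, inv_mem hk, by group⟩ }
  have hS : N ⊔ K ≤ S := by
    refine sup_le ?_ ?_
    · intro n hn; exact ⟨n, hn, 1, one_mem _, by simp⟩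
    · intro k hk; exact ⟨1, one_mem _, k, hk, by simp⟩
  exact hS hg

/-- A normal `t`-subgroup is contained in every Sylow `t`-subgroup. -/
theorem le_sylow_of_normal [Finite H] {t : ℕ} [Fact t.Prime] {V : Subgroup H} (hV : V.Normal)
    (hVt : IsPGroup t V) (T : Sylow t H) : V ≤ (T : Subgroup H) := by
  obtain ⟨S, hS⟩ := hVt.exists_le_sylow
  obtain ⟨g, hg⟩ := MulAction.exists_smul_eq H S T
  intro v hv
  have h1 : g⁻¹ * v * g⁻¹⁻¹ ∈ V := hV.conj_mem v hv g⁻¹
  have h2 : g⁻¹ * v * g⁻¹⁻¹ ∈ (S : Subgroup H) := hS h1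
  have h3 : (MulAut.conj g) (g⁻¹ * v * g⁻¹⁻¹) ∈ (g • S : Sylow t H) := ⟨_, h2, rfl⟩
  rw [hg] at h3
  have h4 : (MulAut.conj g) (g⁻¹ * v * g⁻¹⁻¹) = v := by rw [MulAut.conj_apply]; group
  rw [h4] at h3
  exact h3

namespace Ctx

variable {p : ℕ} {x : Monoid.End H} (C : Ctx p x) [Finite H] [hp : Fact p.Prime]
include C

/-- `H / H'` has no fixed points, so central fixed elements lie in `H'`. -/
theorem mem_commutator_of_fixed {v : H} (hv : x v = v) : v ∈ _root_.commutator H := by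
  set N : Subgroup H := _root_.commutator H with hN
  have hNi : Inv x N := by
    have : N ≤ N.comap (x : H →* H) := by
      rw [hN, _root_.commutator_def, Subgroup.commutator_le]
      intro a _ b _
      show x ⁅a, b⁆ ∈ ⁅(⊤ : Subgroup H), (⊤ : Subgroup H)⁆
      rw [map_commutatorElement]
      exact Subgroup.commutator_mem_commutator (H₁ := (⊤ : Subgroup H)) (H₂ := (⊤ : Subgroup H))
        (mem_top _) (mem_top _)
    exact this
  have h1 : DD (quo x N hNi) ⊤ = ⊤ := by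
    rw [← map_DD_quo x N hNi, C.htop, ← MonoidHom.range_eq_map, QuotientGroup.range_mk']
  have hcomm : ∀ a ∈ (⊤ : Subgroup (H ⧸ N)), ∀ b ∈ (⊤ : Subgroup (H ⧸ N)), a * b = b * a := by
    intro a _ b _
    obtain ⟨a, rfl⟩ := QuotientGroup.mk_surjective a
    obtain ⟨b, rfl⟩ := QuotientGroup.mk_surjective b
    rw [← QuotientGroup.mk_mul, ← QuotientGroup.mk_mul, QuotientGroup.eq]
    have e : (a * b)⁻¹ * (b * a) = ⁅b⁻¹, a⁻¹⁆ := by rw [commutatorElement_def]; group
    rw [e, hN, _root_.commutator_def]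
    exact Subgroup.commutator_mem_commutator (mem_top _) (mem_top _)
  have hpq : ¬ p ∣ Nat.card (⊤ : Subgroup (H ⧸ N)) := by
    intro h2
    exact C.hpH ((h2.trans (Subgroup.card_subgroup_dvd_card _)).trans
      (Subgroup.card_quotient_dvd_card N))
  have h2 : (v : H ⧸ N) = 1 := by
    refine DD_inf_Fx_of_comm (x := quo x N hNi) (quo_pow_eq_one x N hNi C.hx) hpq (inv_top _)
      hcomm (by rw [h1]; exact mem_top _) ?_
    rw [quo_mk, hv]
  exact (QuotientGroup.eq_one_iff v).1 h2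

/-- The case of an invariant normal subgroup contained in `C_H(x)`. -/
theorem central_case (hodd : p ≠ 2) {V : Subgroup H} (hV : V.Normal) (hV1 : V ≠ ⊥)
    (hVF : V ≤ Fx x) : Fx x ≤ WW x ⊤ := by
  classical
  by_contra hne
  have hx := C.hx
  have hpH := C.hpH
  -- an element of prime order
  obtain ⟨t, ht, v, hv, hvo⟩ : ∃ t : ℕ, t.Prime ∧ ∃ v ∈ V, orderOf v = t := by
    have h1 : Nat.card V ≠ 1 := by
      intro h2; exact hV1 (Subgroup.card_eq_one.1 h2)
    obtain ⟨t, ht, htd⟩ := Nat.exists_prime_and_dvd h1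
    have := Fact.mk ht
    obtain ⟨v, hv⟩ := exists_prime_orderOf_dvd_card' (G := V) t htd
    exact ⟨t, ht, v, v.2, by rw [Subgroup.orderOf_coe, hv]⟩
  have : Fact t.Prime := ⟨ht⟩
  have hvc : ∀ g : H, v * g = g * v := fun g => C.central_of_le_Fx hVF hv g
  have hvx : x v = v := hVF hv
  have hv1 : v ≠ 1 := by
    intro h; rw [h, orderOf_one] at hvo; exact ht.one_lt.ne hvo
  have hZn : (zpowers v).Normal := by
    constructor
    rintro _ ⟨k, rfl⟩ g
    refine ⟨k, ?_⟩
    have h1 : Commute g v := (hvc g).symm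
    have h2 := (h1.zpow_right k).eq
    show v ^ k = g * v ^ k * g⁻¹
    rw [h2]; group
  have hZi : Inv x (zpowers v) := by
    rintro _ ⟨k, rfl⟩
    exact ⟨k, by show v ^ k = x (v ^ k); rw [map_zpow, hvx]⟩
  have hZ1 : zpowers v ≠ ⊥ := by
    intro h; exact hv1 (zpowers_eq_bot.1 h)
  have hFle := C.ih2 _ hZn hZi hZ1
  have hvW : v ∉ WW x ⊤ := by
    intro h
    apply hne
    refine hFle.trans (sup_le le_rfl ?_)
    rwa [zpowers_le]
  obtain ⟨T, hTi⟩ := exists_inv_sylow hpH hx t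
  by_cases hTtop : (T : Subgroup H) = ⊤
  · have hH : IsPGroup t H := by
      have h1 := T.2
      have h2 : IsPGroup t (⊤ : Subgroup H) := by rw [← hTtop]; exact h1
      exact h2.of_equiv Subgroup.topEquiv
    exact hne (C.pgroup_case hodd hH)
  · have hvt : v ^ t = 1 := by rw [← hvo]; exact pow_orderOf_eq_one v
    have hZt : IsPGroup t (zpowers v) := by
      rw [IsPGroup.iff_card]
      exact ⟨1, by rw [Nat.card_zpowers, hvo, pow_one]⟩
    have hvT : v ∈ (T : Subgroup H) := le_sylow_of_normal hZn hZt T (mem_zpowers v)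
    set T0 : Subgroup H := DD x T ⊔ (WW x ⊤ ⊓ T) with hT0
    have hvT0 : v ∉ T0 := by
      intro h
      obtain ⟨d, hd, w, hw, e⟩ := mem_sup_of_normalizes
        (fun k hk n hn => conj_mem_DD' (Subgroup.mem_inf.1 hk).2 hn) h
      have h1 : d ∈ Fx x := by
        have : d = v * w⁻¹ := by rw [e]; group
        rw [this]
        exact mul_mem hvx (inv_mem (WW_le_Fx x ⊤ hw.1))
      have h2 := C.ih1 _ hTi hTtop ⟨hd, h1⟩
      apply hvW
      rw [e]; exact mul_mem h2 hw.1
    have hTdec : ∀ τ ∈ (T : Subgroup H), ∃ s ∈ T0, ∃ k : ℤ, τ = s * v ^ k := by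
      intro τ hτ
      obtain ⟨c, hc, d, hd, rfl⟩ := exists_fixed_mul hpH hx hTi hτ
      have h1 := hFle hc.2
      rw [← SetLike.mem_coe, Subgroup.mul_normal] at h1
      obtain ⟨w, hw, _, ⟨k, rfl⟩, rfl⟩ := h1
      have hwT : w ∈ (T : Subgroup H) := by
        have h2 : w * v ^ k * (v ^ k)⁻¹ ∈ (T : Subgroup H) :=
          mul_mem hc.1 (inv_mem (zpow_mem hvT k))
        simpa using h2
      refine ⟨w * d, mul_mem ((le_sup_right : _ ≤ T0) ⟨hw, hwT⟩) ((le_sup_left : _ ≤ T0) hd), k, ?_⟩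
      have h1 : Commute d v := (hvc d).symm
      have h2 := (h1.zpow_right k).eq
      show w * v ^ k * d = w * d * v ^ k
      rw [mul_assoc, ← h2, mul_assoc]
    have hcomT : ⁅(T : Subgroup H), (T : Subgroup H)⁆ ≤ T0 := by
      rw [Subgroup.commutator_le]
      intro a ha b hb
      obtain ⟨s, hs, k, rfl⟩ := hTdec a ha
      obtain ⟨s', hs', l, rfl⟩ := hTdec b hb
      have c1 : ∀ g, ∀ m : ℤ, g * v ^ m = v ^ m * g := by
        intro g m
        have h1 : Commute g v := (hvc g).symm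
        exact (h1.zpow_right m).eq
      have e : ⁅s * v ^ k, s' * v ^ l⁆ = ⁅s, s'⁆ := by
        rw [commutatorElement_def, commutatorElement_def]
        calc s * v ^ k * (s' * v ^ l) * (s * v ^ k)⁻¹ * (s' * v ^ l)⁻¹
            = s * v ^ k * (s' * v ^ l) * (v ^ k)⁻¹ * s⁻¹ * (v ^ l)⁻¹ * s'⁻¹ := by group
          _ = s * s' * s⁻¹ * s'⁻¹ := by
              have e1 : (v ^ k)⁻¹ = v ^ (-k) := (zpow_neg v k).symm
              have e2 : (v ^ l)⁻¹ = v ^ (-l) := (zpow_neg v l).symm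
              rw [e1, e2, c1 s' l, c1 s k]
              calc v ^ k * s * (v ^ l * s') * v ^ (-k) * s⁻¹ * v ^ (-l) * s'⁻¹
                  = v ^ k * (s * v ^ l) * (s' * v ^ (-k)) * (s⁻¹ * v ^ (-l)) * s'⁻¹ := by group
                _ = v ^ k * (v ^ l * s) * (v ^ (-k) * s') * (v ^ (-l) * s⁻¹) * s'⁻¹ := by
                    rw [c1 s l, c1 s' (-k), c1 s⁻¹ (-l)]
                _ = v ^ k * v ^ l * (s * v ^ (-k)) * (s' * v ^ (-l)) * s⁻¹ * s'⁻¹ := by group
                _ = v ^ k * v ^ l * (v ^ (-k) * s) * (v ^ (-l) * s') * s⁻¹ * s'⁻¹ := by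
                    rw [c1 s (-k), c1 s' (-l)]
                _ = v ^ k * v ^ l * v ^ (-k) * (s * v ^ (-l)) * s' * s⁻¹ * s'⁻¹ := by group
                _ = v ^ k * v ^ l * v ^ (-k) * (v ^ (-l) * s) * s' * s⁻¹ * s'⁻¹ := by
                    rw [c1 s (-l)]
                _ = s * s' * s⁻¹ * s'⁻¹ := by group
      rw [e, commutatorElement_def]
      exact mul_mem (mul_mem (mul_mem hs hs') (inv_mem hs)) (inv_mem hs')
    -- transfer
    have h1 : v ∈ _root_.commutator H := C.mem_commutator_of_fixed hvx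
    let ϕ : (T : Subgroup H) →* Abelianization (T : Subgroup H) := Abelianization.of
    have h2 : MonoidHom.transfer ϕ v = 1 := Abelianization.commutator_subset_ker _ h1
    have key : ∀ (k : ℕ) (g₀ : H), g₀⁻¹ * v ^ k * g₀ ∈ (T : Subgroup H) →
        g₀⁻¹ * v ^ k * g₀ = v ^ k := by
      intro k g₀ _
      have h1 : Commute g₀ v := (hvc g₀).symm
      have h3 := (h1.pow_right k).eq
      rw [mul_assoc, ← h3]; group
    rw [MonoidHom.transfer_eq_pow ϕ v key] at h2
    have h3 : (⟨v ^ (T : Subgroup H).index, MonoidHom.transfer_eq_pow_aux v key⟩ : (T : Subgroup H))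
        ∈ _root_.commutator (T : Subgroup H) := by
      rw [← Abelianization.ker_of]
      exact h2
    have h4 : v ^ (T : Subgroup H).index ∈ ⁅(T : Subgroup H), (T : Subgroup H)⁆ := by
      rw [← Subgroup.map_subtype_commutator]
      exact ⟨_, h3, rfl⟩
    have h5 : v ^ (T : Subgroup H).index ∈ T0 := hcomT h4
    -- the index is prime to `t`
    have h6 : ¬ t ∣ (T : Subgroup H).index := Sylow.not_dvd_index T
    have h7 : (orderOf v).Coprime (T : Subgroup H).index := by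
      rw [hvo]; exact (Nat.Prime.coprime_iff_not_dvd ht).2 h6
    apply hvT0
    have h8 : v ∈ zpowers (v ^ (T : Subgroup H).index) := by
      obtain ⟨m, hm⟩ := exists_pow_eq_self_of_coprime h7.symm
      exact ⟨m, by show (v ^ (T : Subgroup H).index) ^ (m : ℤ) = v; rw [zpow_natCast]; exact hm⟩
    exact (zpowers_le.2 h5) h8

end Ctx

end Cfsg.Agent.H456
end

-- part: H456/CoprimeEnd5
section
/-!
# `C_{[H, x]}(x)` is generated by the `C_{[h, x]}(x)`: the main case
-/

set_option autoImplicit false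

namespace Cfsg.Agent.H456

open Subgroup

open scoped commutatorElement

variable {H : Type*} [Group H]

/-- If a Sylow subgroup for each prime lies in `K` then `K = H`. -/
theorem eq_top_of_sylow_le [Finite H] {K : Subgroup H}
    (h : ∀ u : ℕ, ∀ _ : Fact u.Prime, ∃ S : Sylow u H, (S : Subgroup H) ≤ K) : K = ⊤ := by
  rw [← Subgroup.index_eq_one]
  by_contra h1
  obtain ⟨u, hu, hud⟩ := Nat.exists_prime_and_dvd h1
  have hu' : Fact u.Prime := ⟨hu⟩
  obtain ⟨S, hS⟩ := h u hu'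
  have h2 : K.index ∣ (S : Subgroup H).index := Subgroup.index_dvd_of_le hS
  exact Sylow.not_dvd_index S (hud.trans h2)

theorem sq_fixed {p : ℕ} [hp : Fact p.Prime] (hodd : p ≠ 2) {x : Monoid.End H} (hx : x ^ p = 1)
    {h : H} (hh : (x ^ 2) h = h) : x h = h := by
  obtain ⟨m, hm⟩ := hp.out.odd_of_ne_two hodd
  have h1 : ∀ n : ℕ, (x ^ (2 * n)) h = h := by
    intro n
    induction n with
    | zero => rw [mul_zero, pow_zero_apply]
    | succ n ih => rw [show 2 * (n + 1) = 2 + 2 * n by ring, pow_add_apply, ih, hh]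
  have h2 := h1 (m + 1)
  rw [show 2 * (m + 1) = 1 + p by omega, pow_add_apply, hx, pow_one_apply] at h2
  exact h2

theorem comm_identity {a1 a2 b1 b2 : H} (h2 : a1 * b1 * (a2 * b2) = a2 * b2 * (a1 * b1))
    (h3 : b1 * b2 = b2 * b1) : a1 * (b1 * a2 * b1⁻¹) = a2 * (b2 * a1 * b2⁻¹) := by
  have e : b1 * (b2⁻¹ * b1⁻¹) = b2⁻¹ := by rw [← mul_inv_rev, h3]; group
  calc a1 * (b1 * a2 * b1⁻¹) = (a1 * b1 * (a2 * b2)) * (b2⁻¹ * b1⁻¹) := by group
    _ = (a2 * b2 * (a1 * b1)) * (b2⁻¹ * b1⁻¹) := by rw [h2]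
    _ = a2 * (b2 * a1 * (b1 * (b2⁻¹ * b1⁻¹))) := by group
    _ = a2 * (b2 * a1 * b2⁻¹) := by rw [e]

/-- The invariance of commutator subgroups. -/
theorem Inv.commutator {x : Monoid.End H} {K L : Subgroup H} (hK : Inv x K) (hL : Inv x L) :
    Inv x ⁅K, L⁆ := by
  rw [inv_iff_le_comap, Subgroup.commutator_le]
  intro a ha b hb
  show x ⁅a, b⁆ ∈ ⁅K, L⁆
  rw [map_commutatorElement]
  exact Subgroup.commutator_mem_commutator (hK a ha) (hL b hb)

namespace Ctx

variable {p : ℕ} {x : Monoid.End H} (C : Ctx p x) [Finite H] [hp : Fact p.Prime]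
include C

theorem main_case (hodd : p ≠ 2) {V : Subgroup H} (hVn : V.Normal) (hVi : Inv x V) (hV1 : V ≠ ⊥)
    (hmin : ∀ N : Subgroup H, N.Normal → Inv x N → N ≤ V → N = ⊥ ∨ N = V)
    (hcomm : ∀ a ∈ V, ∀ b ∈ V, a * b = b * a) {t : ℕ} [ht : Fact t.Prime]
    (hexp : ∀ v ∈ V, v ^ t = 1) : Fx x ≤ WW x ⊤ := by
  classical
  by_contra hne
  have hx := C.hx
  have hpH := C.hpH
  have hppos := hp.out.pos
  -- `V` is not in `C_H(x)`, and not central
  have hVF : ¬ V ≤ Fx x := fun h => hne (C.central_case hodd hVn hV1 h)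
  have hVZ : ¬ ∀ v ∈ V, ∀ g : H, v * g = g * v := by
    intro hc
    have hn : (V ⊓ Fx x).Normal := by
      constructor
      intro n hn g
      rw [← hc n hn.1 g]; simpa using hn
    rcases hmin _ hn (hVi.inf (inv_Fx x)) inf_le_left with h | h
    · exact hne (C.Fx_le_of_inf_le hVn hVi hV1 (by rw [h]; exact bot_le))
    · exact hVF (inf_eq_left.1 h)
  have hnot : ¬ V ⊓ Fx x ≤ WW x ⊤ := fun h => hne (C.Fx_le_of_inf_le hVn hVi hV1 h)
  -- surjectivity on invariant subgroups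
  have hsurj : ∀ K : Subgroup H, Inv x K → ∀ k ∈ K, ∃ k' ∈ K, x k' = k := by
    intro K hK k hk
    refine ⟨(x ^ (p - 1)) k, hK.pow _ hk, ?_⟩
    rw [← pow_succ_apply, Nat.sub_add_cancel hppos, hx]; rfl
  set E : Subgroup H := (WW x ⊤ ⊓ V) ⊔ DD x V with hE
  have hEV : E ≤ V := sup_le inf_le_right (DD_le_self hVi)
  have hVE : ¬ V ≤ E := by
    intro h
    apply hnot
    refine (inf_Fx_le_of_le_sup hx (not_dvd_of_le hpH) hVi hcomm
      (inf_le_left.trans (WW_le_Fx x ⊤)) inf_le_right h).trans inf_le_left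
  -- the subgroup acting trivially on `V / E`
  let GG : Subgroup H :=
    { carrier := {h | (∀ v ∈ V, v * h * v⁻¹ * h⁻¹ ∈ E) ∧ (∀ v ∈ V, v * h⁻¹ * v⁻¹ * h ∈ E)}
      mul_mem' := by
        rintro a b ⟨ha1, ha2⟩ ⟨hb1, hb2⟩
        refine ⟨fun v hv => ?_, fun v hv => ?_⟩
        · have e : v * (a * b) * v⁻¹ * (a * b)⁻¹
              = (v * a * v⁻¹ * a⁻¹) * (a * (v * b * v⁻¹ * b⁻¹) * a⁻¹) := by group
          rw [e]
          refine mul_mem (ha1 v hv) ?_
          have h1 := hb1 v hv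
          have h2 := ha1 _ (inv_mem (hEV h1))
          have e2 : a * (v * b * v⁻¹ * b⁻¹) * a⁻¹
              = (v * b * v⁻¹ * b⁻¹) * ((v * b * v⁻¹ * b⁻¹)⁻¹ * a * (v * b * v⁻¹ * b⁻¹)⁻¹⁻¹ * a⁻¹) := by
            group
          rw [e2]
          exact mul_mem h1 h2
        · have e : v * (a * b)⁻¹ * v⁻¹ * (a * b)
              = (v * b⁻¹ * v⁻¹ * b) * (b⁻¹ * (v * a⁻¹ * v⁻¹ * a) * b) := by group
          rw [e]
          refine mul_mem (hb2 v hv) ?_
          have h1 := ha2 v hv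
          have h2 := hb2 _ (inv_mem (hEV h1))
          have e2 : b⁻¹ * (v * a⁻¹ * v⁻¹ * a) * b
              = (v * a⁻¹ * v⁻¹ * a) * ((v * a⁻¹ * v⁻¹ * a)⁻¹ * b⁻¹ * (v * a⁻¹ * v⁻¹ * a)⁻¹⁻¹ * b) := by
            group
          rw [e2]
          exact mul_mem h1 h2
      one_mem' := by
        refine ⟨fun v _ => ?_, fun v _ => ?_⟩
        · have e : v * 1 * v⁻¹ * 1⁻¹ = 1 := by group
          rw [e]; exact one_mem _
        · have e : v * 1⁻¹ * v⁻¹ * 1 = 1 := by group
          rw [e]; exact one_mem _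
      inv_mem' := by
        rintro a ⟨ha1, ha2⟩
        refine ⟨fun v hv => ?_, fun v hv => ?_⟩
        · have := ha2 v hv
          rwa [inv_inv]
        · have := ha1 v hv
          rwa [inv_inv] }
  have hleGG : ∀ R : Subgroup H, (∀ r ∈ R, ∀ v ∈ V, v * r * v⁻¹ * r⁻¹ ∈ E) → R ≤ GG := by
    intro R hR r hr
    refine ⟨fun v hv => hR r hr v hv, fun v hv => ?_⟩
    have := hR r⁻¹ (inv_mem hr) v hv
    rwa [inv_inv] at this
  have hVGG : V ≤ GG := by
    refine hleGG V fun r hr v hv => ?_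
    rw [hcomm v hv r hr]
    have e : r * v * v⁻¹ * r⁻¹ = 1 := by group
    rw [e]; exact one_mem _
  have hWGG : WW x ⊤ ≤ GG := by
    refine hleGG _ fun w hw v hv => ?_
    obtain ⟨c, hc, d, hd, rfl⟩ := exists_fixed_mul hpH hx hVi hv
    have hwx : x w = w := WW_le_Fx x ⊤ hw
    have hcx : x c = c := hc.2
    have h1 : w * d⁻¹ * w⁻¹ ∈ DD x V :=
      conj_mem_DD_of_fixed hwx (fun k hk => hVn.conj_mem k hk w) (inv_mem hd)
    have h2 : c * w * c⁻¹ * w⁻¹ ∈ WW x ⊤ ⊓ V := by
      refine Subgroup.mem_inf.2 ⟨mul_mem (conj_mem_WW hcx hw) (inv_mem hw), ?_⟩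
      have e : c * w * c⁻¹ * w⁻¹ = c * (w * c⁻¹ * w⁻¹) := by group
      rw [e]
      exact mul_mem hc.1 (hVn.conj_mem _ (inv_mem hc.1) w)
    have h3 : d * (w * d⁻¹ * w⁻¹) ∈ DD x V := mul_mem hd h1
    have h4 : c * (d * (w * d⁻¹ * w⁻¹)) = (d * (w * d⁻¹ * w⁻¹)) * c :=
      hcomm c hc.1 _ (DD_le_self hVi h3)
    have e : c * d * w * (c * d)⁻¹ * w⁻¹
        = c * (d * (w * d⁻¹ * w⁻¹)) * c⁻¹ * (c * w * c⁻¹ * w⁻¹) := by group
    have e2 : c * (d * (w * d⁻¹ * w⁻¹)) * c⁻¹ = d * (w * d⁻¹ * w⁻¹) := by rw [h4]; group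
    rw [e, e2]
    exact mul_mem ((le_sup_right : _ ≤ E) h3) ((le_sup_left : _ ≤ E) h2)
  have hFGG : Fx x ≤ GG := (C.ih2 V hVn hVi hV1).trans (sup_le hWGG hVGG)
  have hGGtop : GG ≠ ⊤ := by
    intro htop
    apply hVE
    have h1 : ⁅V, (⊤ : Subgroup H)⁆ ≤ E := by
      rw [Subgroup.commutator_le]
      intro v hv g _
      have : g ∈ GG := by rw [htop]; exact mem_top g
      have := this.1 v hv
      rwa [← commutatorElement_def] at this
    have h2 : ⁅V, (⊤ : Subgroup H)⁆.Normal := inferInstance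
    have h3 : Inv x ⁅V, (⊤ : Subgroup H)⁆ := hVi.commutator (inv_top x)
    have h4 : ⁅V, (⊤ : Subgroup H)⁆ ≤ V := h1.trans hEV
    rcases hmin _ h2 h3 h4 with h5 | h5
    · exfalso
      apply hVZ
      intro v hv g
      have h6 : ⁅v, g⁆ ∈ ⁅V, (⊤ : Subgroup H)⁆ :=
        Subgroup.commutator_mem_commutator hv (mem_top g)
      rw [h5, mem_bot, commutatorElement_eq_one_iff_mul_comm] at h6
      exact h6
    · rw [← h5]; exact h1
  -- good subgroups
  have hgood : ∀ R : Subgroup H, Inv x R → V ⊔ R ≠ ⊤ → DD x R ≤ GG := by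
    intro R hR hVR
    set K : Subgroup H := V ⊔ R with hK
    have hKi : Inv x K := hVi.sup hR
    have hRK : DD x R ≤ DD x K := DD_mono le_sup_right
    refine hleGG _ fun r hr v hv => ?_
    have h1 : v * r * v⁻¹ * r⁻¹ ∈ DD x K :=
      mul_mem (conj_mem_DD' ((le_sup_left : V ≤ K) hv) (hRK hr)) (inv_mem (hRK hr))
    have h2 : v * r * v⁻¹ * r⁻¹ ∈ V := by
      have e : v * r * v⁻¹ * r⁻¹ = v * (r * v⁻¹ * r⁻¹) := by group
      rw [e]; exact mul_mem hv (hVn.conj_mem _ (inv_mem hv) r)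
    have hUi : Inv x (DD x K ⊓ V) := (inv_DD x K).inf hVi
    obtain ⟨c, hc, d, hd, e⟩ := exists_fixed_mul hpH hx hUi (Subgroup.mem_inf.2 ⟨h1, h2⟩)
    rw [e]
    have hc1 := (Subgroup.mem_inf.1 hc.1)
    have h3 : c ∈ WW x ⊤ ⊓ V := Subgroup.mem_inf.2 ⟨C.ih1 K hKi hVR ⟨hc1.1, hc.2⟩, hc1.2⟩
    have h4 : d ∈ DD x V := DD_mono inf_le_right hd
    exact mul_mem ((le_sup_left : _ ≤ E) h3) ((le_sup_right : _ ≤ E) h4)
  have hgood' : ∀ R : Subgroup H, Inv x R → V ⊔ R ≠ ⊤ → R ≤ GG := by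
    intro R hR hVR r hr
    obtain ⟨c, hc, d, hd, rfl⟩ := exists_fixed_mul hpH hx hR hr
    exact mul_mem (hFGG hc.2) (hgood R hR hVR hd)
  -- the exceptional Sylow subgroup
  obtain ⟨u, hu, Q', hQi', hVQ'⟩ : ∃ u : ℕ, ∃ _ : Fact u.Prime, ∃ Q : Sylow u H,
      Inv x (Q : Subgroup H) ∧ V ⊔ (Q : Subgroup H) = ⊤ := by
    by_contra hno
    push Not at hno
    apply hGGtop
    apply eq_top_of_sylow_le
    intro u hu
    obtain ⟨S, hS⟩ := exists_inv_sylow hpH hx u
    exact ⟨S, hgood' _ hS (hno u hu S hS)⟩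
  have hVt : IsPGroup t V := by
    intro v
    exact ⟨1, by rw [pow_one]; exact Subtype.ext (hexp v v.2)⟩
  have hut : u ≠ t := by
    rintro rfl
    have h1 : V ≤ (Q' : Subgroup H) := le_sylow_of_normal hVn hVt Q'
    rw [sup_eq_right.2 h1] at hVQ'
    have hH : IsPGroup u H := by
      have h1 := Q'.2
      have h2 : IsPGroup u (⊤ : Subgroup H) := by rw [← hVQ']; exact h1
      exact h2.of_equiv Subgroup.topEquiv
    exact hne (C.pgroup_case hodd hH)
  have hQu : IsPGroup u (Q' : Subgroup H) := Q'.2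
  generalize (Q' : Subgroup H) = Q at hQi' hVQ' hQu
  have hQi := hQi'
  have hVQ := hVQ'
  have hcop : ∀ q ∈ Q, (orderOf q).Coprime t := by
    intro q hq
    obtain ⟨k, hk⟩ := (IsPGroup.iff_orderOf.1 hQu) ⟨q, hq⟩
    rw [Subgroup.orderOf_mk] at hk
    rw [hk]
    exact Nat.Coprime.pow_left k ((Nat.coprime_primes hu.out ht.out).2 hut)
  have hVinfQ : ∀ g, g ∈ V → g ∈ Q → g = 1 := by
    intro g hg hq
    have h1 := orderOf_dvd_of_pow_eq_one (hexp g hg)
    have h2 := hcop g hq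
    exact orderOf_eq_one_iff.1 (Nat.Coprime.eq_one_of_dvd h2 h1)
  have hdec : ∀ g : H, ∃ v ∈ V, ∃ q ∈ Q, g = v * q := by
    intro g
    have : g ∈ V ⊔ Q := by rw [hVQ]; exact mem_top g
    exact mem_sup_of_normalizes (fun k _ n hn => hVn.conj_mem n hn k) this
  -- normality criterion
  have hnormal : ∀ N : Subgroup H, (∀ v ∈ V, ∀ n ∈ N, v * n * v⁻¹ ∈ N) →
      (∀ q ∈ Q, ∀ n ∈ N, q * n * q⁻¹ ∈ N) → N.Normal := by
    intro N h1 h2
    constructor
    intro n hn g
    obtain ⟨v, hv, q, hq, rfl⟩ := hdec g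
    have e : v * q * n * (v * q)⁻¹ = v * (q * n * q⁻¹) * v⁻¹ := by group
    rw [e]
    exact h1 v hv _ (h2 q hq n hn)
  -- `Q` acts faithfully on `V`
  have hfaith : Q ⊓ centralizer (V : Set H) = ⊥ := by
    by_contra h0
    have hci : Inv x (Q ⊓ centralizer (V : Set H)) := by
      refine hQi.inf ?_
      intro c hc
      rw [mem_centralizer_iff] at hc ⊢
      intro v hv
      obtain ⟨v', hv', rfl⟩ := hsurj V hVi v hv
      rw [← map_mul, hc v' hv', map_mul]
    have hcn : (Q ⊓ centralizer (V : Set H)).Normal := by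
      refine hnormal _ ?_ ?_
      · intro v hv n hn
        have h1 := mem_centralizer_iff.1 (Subgroup.mem_inf.1 hn).2 v hv
        rw [h1]; simpa using hn
      · intro q hq n hn
        have hn' := Subgroup.mem_inf.1 hn
        refine Subgroup.mem_inf.2 ⟨mul_mem (mul_mem hq hn'.1) (inv_mem hq), ?_⟩
        rw [mem_centralizer_iff]
        intro v hv
        have h1 := mem_centralizer_iff.1 hn'.2 (q⁻¹ * v * q) (by
          have := hVn.conj_mem v hv q⁻¹
          rwa [inv_inv] at this)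
        calc v * (q * n * q⁻¹) = q * ((q⁻¹ * v * q) * n) * q⁻¹ := by group
          _ = q * (n * (q⁻¹ * v * q)) * q⁻¹ := by rw [h1]
          _ = q * n * q⁻¹ * v := by group
    apply hnot
    rintro v ⟨hv, hvx⟩
    obtain ⟨w, hw, q, hq, e⟩ := C.exists_decomp hcn hci h0 hvx
    have hq' := Subgroup.mem_inf.1 hq
    have hq'' := Subgroup.mem_inf.1 hq'.1
    have h1 : v * q = q * v := mem_centralizer_iff.1 hq''.2 v hv
    have h2 : w = v * q⁻¹ := by rw [e]; group
    obtain ⟨n, hn1, hn2⟩ := Nat.chineseRemainder (hcop q hq''.1).symm 1 0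
    have h3 : w ^ n = v := by
      have hc : Commute v q⁻¹ := (show Commute v q from h1).inv_right
      rw [h2, hc.mul_pow]
      have h4 : v ^ n = v := by
        have h5 : n ≡ 1 [MOD orderOf v] := hn1.of_dvd (orderOf_dvd_of_pow_eq_one (hexp v hv))
        have := (pow_eq_pow_iff_modEq (x := v)).2 h5
        rwa [pow_one] at this
      have h6 : q⁻¹ ^ n = 1 := by
        rw [inv_pow, inv_eq_one]
        exact orderOf_dvd_iff_pow_eq_one.1 ((Nat.modEq_zero_iff_dvd).1 hn2)
      rw [h4, h6, mul_one]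
    rw [← h3]
    exact pow_mem hw n
  -- an invariant subgroup of `GG ∩ Q` normal in `Q` is trivial
  have hQtriv : ∀ M : Subgroup H, Inv x M → M ≤ Q → M ≤ GG → (∀ q ∈ Q, ∀ n ∈ M, q * n * q⁻¹ ∈ M) →
      M = ⊥ := by
    intro M hMi hMQ hMG hMn
    by_contra h0
    have h1 : ⁅V, M⁆ ≤ E := by
      rw [Subgroup.commutator_le]
      intro v hv g hg
      have := (hMG hg).1 v hv
      rwa [← commutatorElement_def] at this
    have hn : ⁅V, M⁆.Normal := by
      refine hnormal _ ?_ ?_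
      · intro v hv n hn
        have h2 : n ∈ V := hEV (h1 hn)
        rw [hcomm v hv n h2]; simpa using hn
      · intro q hq n hn
        have : ⁅V, M⁆ ≤ ⁅V, M⁆.comap (MulAut.conj q).toMonoidHom := by
          rw [Subgroup.commutator_le]
          intro v hv m hm
          show (MulAut.conj q).toMonoidHom ⁅v, m⁆ ∈ ⁅V, M⁆
          rw [map_commutatorElement]
          refine Subgroup.commutator_mem_commutator ?_ ?_
          · simpa [MulAut.conj_apply] using hVn.conj_mem v hv q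
          · simpa [MulAut.conj_apply] using hMn q hq m hm
        have := this hn
        simpa [MulAut.conj_apply] using this
    rcases hmin _ hn (hVi.commutator hMi) (h1.trans hEV) with h5 | h5
    · apply h0
      rw [eq_bot_iff, ← hfaith]
      intro m hm
      refine Subgroup.mem_inf.2 ⟨hMQ hm, ?_⟩
      rw [mem_centralizer_iff]
      intro v hv
      have h6 : ⁅v, m⁆ ∈ ⁅V, M⁆ := Subgroup.commutator_mem_commutator hv hm
      rw [h5, mem_bot, commutatorElement_eq_one_iff_mul_comm] at h6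
      exact h6
    · exact hVE (by rw [← h5]; exact h1)
  have hprop : ∀ R : Subgroup H, Inv x R → R ≤ Q → R ≠ Q → R ≤ GG := by
    intro R hR hRQ hne'
    refine hgood' R hR ?_
    intro h1
    apply hne'
    refine le_antisymm hRQ ?_
    intro q hq
    have h2 : q ∈ V ⊔ R := by rw [h1]; exact mem_top q
    obtain ⟨v, hv, r, hr, e⟩ := mem_sup_of_normalizes (fun k _ n hn => hVn.conj_mem n hn k) h2
    have h3 : v = 1 := by
      refine hVinfQ v hv ?_
      have : v = q * r⁻¹ := by rw [e]; group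
      rw [this]; exact mul_mem hq (inv_mem (hRQ hr))
    rw [e, h3, one_mul]; exact hr
  have hQ1 : Q ≠ ⊥ := by
    intro h0
    apply hVZ
    intro v hv g
    obtain ⟨v', hv', q, hq, rfl⟩ := hdec g
    rw [h0, mem_bot] at hq
    rw [hq, mul_one]
    exact hcomm v hv v' hv'
  -- `Q` is abelian
  have hQab : ∀ a ∈ Q, ∀ b ∈ Q, a * b = b * a := by
    have h1 : ⁅Q, Q⁆ ≤ Q := Subgroup.commutator_le_self Q
    have h2 : ⁅Q, Q⁆ ≠ Q := by
      intro h3
      have h4 : Nontrivial Q := (Subgroup.nontrivial_iff_ne_bot Q).2 hQ1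
      have h5 : Group.IsNilpotent Q := hQu.isNilpotent
      have h6 : _root_.commutator Q < ⊤ := Group.IsSolvable.commutator_lt_top_of_nontrivial Q
      apply h6.ne
      have h7 := Subgroup.map_subtype_commutator Q
      rw [h3] at h7
      apply Subgroup.map_injective Q.subtype_injective
      rw [h7, ← MonoidHom.range_eq_map, Subgroup.range_subtype]
    have h3 : ⁅Q, Q⁆ = ⊥ := by
      refine hQtriv _ (hQi.commutator hQi) h1 (hprop _ (hQi.commutator hQi) h1 h2) ?_
      intro q hq n hn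
      have : q * n * q⁻¹ = (q * n * q⁻¹ * n⁻¹) * n := by group
      rw [this, ← commutatorElement_def]
      exact mul_mem (Subgroup.commutator_mem_commutator hq (h1 hn)) hn
    intro a ha b hb
    have h6 : ⁅a, b⁆ ∈ ⁅Q, Q⁆ := Subgroup.commutator_mem_commutator ha hb
    rw [h3, mem_bot, commutatorElement_eq_one_iff_mul_comm] at h6
    exact h6
  have hQirr : ∀ R : Subgroup H, Inv x R → R ≤ Q → R ≠ Q → R = ⊥ := by
    intro R hR hRQ hne'
    refine hQtriv R hR hRQ (hprop R hR hRQ hne') ?_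
    intro q hq n hn
    rw [hQab q hq n (hRQ hn)]; simpa using hn
  have hQF : ∀ q ∈ Q, x q = q → q = 1 := by
    have h1 : Q ⊓ Fx x ≠ Q := by
      intro h2
      have h3 : Q ≤ Fx x := inf_eq_left.1 h2
      apply hVZ
      have h4 : DD x ⊤ ≤ V := by
        refine DD_le fun k _ => cl_le_of_inv hVi ?_
        obtain ⟨v, hv, q, hq, rfl⟩ := hdec k
        have h5 : x q = q := h3 hq
        have e : (v * q)⁻¹ * x (v * q) = q⁻¹ * (v⁻¹ * x v) * q⁻¹⁻¹ := by
          rw [map_mul, h5]; group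
        rw [e]
        exact hVn.conj_mem _ (mul_mem (inv_mem hv) (hVi v hv)) q⁻¹
      rw [C.htop] at h4
      intro v hv g
      exact hcomm v hv g (h4 (mem_top g))
    have h2 := hQirr _ (hQi.inf (inv_Fx x)) inf_le_left h1
    intro q hq hqx
    have h3 : q ∈ Q ⊓ Fx x := Subgroup.mem_inf.2 ⟨hq, hqx⟩
    rwa [h2, mem_bot] at h3
  -- the key commutation
  have hkey : ∀ v ∈ V, ∀ h ∈ Q, ((v * h)⁻¹ * (x ^ 1) (v * h)) * ((v * h)⁻¹ * (x ^ 2) (v * h))
      = ((v * h)⁻¹ * (x ^ 2) (v * h)) * ((v * h)⁻¹ * (x ^ 1) (v * h)) := by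
    intro v hv h hh
    by_cases hh1 : h = 1
    · subst hh1
      simp only [mul_one]
      exact hcomm _ (mul_mem (inv_mem hv) (hVi.pow 1 hv)) _ (mul_mem (inv_mem hv) (hVi.pow 2 hv))
    · set Y : Subgroup H := cl x (v * h) with hY
      have hYi : Inv x Y := inv_cl x _
      have hYtop : Y ≠ ⊤ := by
        intro h1
        apply hne
        intro c hc
        exact inf_le_WW x (mem_top (v * h)) ⟨by rw [← hY, h1]; exact mem_top c, hc⟩
      have hclh : cl x h ≤ Y ⊔ V := by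
        refine cl_le_of_inv (hYi.sup hVi) ?_
        have e : h⁻¹ * x h = (h⁻¹ * (v⁻¹ * x v) * h⁻¹⁻¹)⁻¹ * ((v * h)⁻¹ * x (v * h)) := by
          rw [map_mul]; group
        rw [e]
        exact mul_mem ((le_sup_right : V ≤ Y ⊔ V) (inv_mem
          (hVn.conj_mem _ (mul_mem (inv_mem hv) (hVi v hv)) h⁻¹)))
          ((le_sup_left : Y ≤ Y ⊔ V) (mem_cl_one x (v * h)))
      have hclQ : cl x h = Q := by
        by_contra h2
        have h3 := hQirr _ (inv_cl x h) (cl_le_self hQi hh) h2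
        have h4 := mem_cl_one x h
        rw [h3, mem_bot, inv_mul_eq_one] at h4
        exact hh1 (hQF h hh h4.symm)
      have hYV : Y ⊔ V = ⊤ := by
        rw [eq_top_iff, ← hVQ]
        exact sup_le le_sup_right (hclQ ▸ hclh)
      have hYVn : (Y ⊓ V).Normal := by
        constructor
        intro n hn g
        have hg : g ∈ V ⊔ Y := by rw [sup_comm, hYV]; exact mem_top g
        obtain ⟨v', hv', y, hy, rfl⟩ :=
          mem_sup_of_normalizes (fun k _ n hn => hVn.conj_mem n hn k) hg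
        have hn' := Subgroup.mem_inf.1 hn
        have h1 : y * n * y⁻¹ ∈ Y ⊓ V :=
          Subgroup.mem_inf.2 ⟨mul_mem (mul_mem hy hn'.1) (inv_mem hy), hVn.conj_mem n hn'.2 y⟩
        have e : v' * y * n * (v' * y)⁻¹ = v' * (y * n * y⁻¹) * v'⁻¹ := by group
        rw [e, hcomm v' hv' _ (Subgroup.mem_inf.1 h1).2]
        simpa using h1
      have hYV1 : Y ⊓ V = ⊥ := by
        rcases hmin _ hYVn (hYi.inf hVi) inf_le_right with h1 | h1
        · exact h1
        · exfalso
          apply hYtop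
          have h2 : V ≤ Y := inf_eq_right.1 h1
          rw [← hYV, sup_eq_left.2 h2]
      set g1 := (v * h)⁻¹ * (x ^ 1) (v * h) with hg1
      set g2 := (v * h)⁻¹ * (x ^ 2) (v * h) with hg2
      have m1 : g1 ∈ Y := mem_cl x (v * h) 1
      have m2 : g2 ∈ Y := mem_cl x (v * h) 2
      have hmk : ∀ i : ℕ, (((v * h)⁻¹ * (x ^ i) (v * h) : H) : H ⧸ V)
          = ((h⁻¹ * (x ^ i) h : H) : H ⧸ V) := by
        intro i
        rw [QuotientGroup.eq]
        have e : ((v * h)⁻¹ * (x ^ i) (v * h))⁻¹ * (h⁻¹ * (x ^ i) h)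
            = ((x ^ i) h)⁻¹ * (v⁻¹ * (x ^ i) v)⁻¹ * ((x ^ i) h)⁻¹⁻¹ := by
          rw [map_mul]; group
        rw [e]
        exact hVn.conj_mem _ (inv_mem (mul_mem (inv_mem hv) (hVi.pow i hv))) _
      have h3 : g1 * g2 * g1⁻¹ * g2⁻¹ ∈ V := by
        rw [← QuotientGroup.eq_one_iff]
        rw [QuotientGroup.mk_mul, QuotientGroup.mk_mul, QuotientGroup.mk_mul,
          QuotientGroup.mk_inv, QuotientGroup.mk_inv, hg1, hg2, hmk 1, hmk 2]
        rw [← QuotientGroup.mk_inv, ← QuotientGroup.mk_inv, ← QuotientGroup.mk_mul,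
          ← QuotientGroup.mk_mul, ← QuotientGroup.mk_mul]
        have h4 := hQab (h⁻¹ * (x ^ 1) h) (mul_mem (inv_mem hh) (hQi.pow 1 hh))
          (h⁻¹ * (x ^ 2) h) (mul_mem (inv_mem hh) (hQi.pow 2 hh))
        rw [h4]
        have e : h⁻¹ * (x ^ 2) h * (h⁻¹ * (x ^ 1) h) * (h⁻¹ * (x ^ 1) h)⁻¹ * (h⁻¹ * (x ^ 2) h)⁻¹
            = 1 := by group
        rw [e]; rfl
      have h4 : g1 * g2 * g1⁻¹ * g2⁻¹ ∈ Y ⊓ V := Subgroup.mem_inf.2
        ⟨mul_mem (mul_mem (mul_mem m1 m2) (inv_mem m1)) (inv_mem m2), h3⟩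
      rw [hYV1, mem_bot, mul_inv_eq_one, mul_inv_eq_iff_eq_mul] at h4
      exact h4
  -- the identity in `V`
  have hid : ∀ v ∈ V, ∀ h ∈ Q,
      (v⁻¹ * x v) * ((h⁻¹ * (x ^ 1) h) * (v⁻¹ * (x ^ 2) v) * (h⁻¹ * (x ^ 1) h)⁻¹)
      = (v⁻¹ * (x ^ 2) v) * ((h⁻¹ * (x ^ 2) h) * (v⁻¹ * x v) * (h⁻¹ * (x ^ 2) h)⁻¹) := by
    intro v hv h hh
    have h1 := hkey v hv h hh
    have q1 : h⁻¹ * (x ^ 1) h ∈ Q := mul_mem (inv_mem hh) (hQi.pow 1 hh)
    have q2 : h⁻¹ * (x ^ 2) h ∈ Q := mul_mem (inv_mem hh) (hQi.pow 2 hh)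
    have e1 : ∀ i : ℕ, (x ^ i) h * h⁻¹ = h⁻¹ * (x ^ i) h := fun i =>
      hQab _ (hQi.pow i hh) _ (inv_mem hh)
    have e2 : ∀ i : ℕ, h * ((v * h)⁻¹ * (x ^ i) (v * h)) * h⁻¹
        = (v⁻¹ * (x ^ i) v) * (h⁻¹ * (x ^ i) h) := by
      intro i
      rw [map_mul, ← e1 i]; group
    have h2 : (h * ((v * h)⁻¹ * (x ^ 1) (v * h)) * h⁻¹) * (h * ((v * h)⁻¹ * (x ^ 2) (v * h)) * h⁻¹)
        = (h * ((v * h)⁻¹ * (x ^ 2) (v * h)) * h⁻¹) * (h * ((v * h)⁻¹ * (x ^ 1) (v * h)) * h⁻¹) := by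
      calc _ = h * (((v * h)⁻¹ * (x ^ 1) (v * h)) * ((v * h)⁻¹ * (x ^ 2) (v * h))) * h⁻¹ := by group
        _ = h * (((v * h)⁻¹ * (x ^ 2) (v * h)) * ((v * h)⁻¹ * (x ^ 1) (v * h))) * h⁻¹ := by rw [h1]
        _ = _ := by group
    rw [e2 1, e2 2] at h2
    have h3 := hQab _ q1 _ q2
    have h4 := comm_identity h2 h3
    rw [pow_one_apply x v] at h4
    exact h4
  -- sum over `Q`
  let hVcg : CommGroup V := { (inferInstance : Group V) with
    mul_comm := fun a b => Subtype.ext (hcomm a a.2 b b.2) }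
  have : Fintype Q := Fintype.ofFinite Q
  let cj : Q → V → V := fun q w => ⟨q * w * (q : H)⁻¹, hVn.conj_mem w w.2 q⟩
  let Nm : V → V := fun w => ∏ q : Q, cj q w
  have hcjmul : ∀ q : Q, ∀ a b : V, cj q (a * b) = cj q a * cj q b := by
    intro q a b
    apply Subtype.ext
    show (q : H) * (a * b) * (q : H)⁻¹ = (q * a * (q : H)⁻¹) * (q * b * (q : H)⁻¹)
    group
  have hcjprod : ∀ q : Q, ∀ f : Q → V, cj q (∏ r : Q, f r) = ∏ r : Q, cj q (f r) := by
    intro q f
    let φ : V →* V := MonoidHom.mk' (cj q) (hcjmul q)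
    exact map_prod φ f Finset.univ
  have hNm : ∀ w : V, Nm w = 1 := by
    intro w
    have h1 : ∀ q : Q, cj q (Nm w) = Nm w := by
      intro q
      show cj q (∏ r : Q, cj r w) = ∏ r : Q, cj r w
      rw [hcjprod]
      refine Fintype.prod_equiv (Equiv.mulLeft q) _ _ (fun r => ?_)
      apply Subtype.ext
      show (q : H) * (r * w * (r : H)⁻¹) * (q : H)⁻¹ = ((q : H) * r) * w * ((q : H) * r)⁻¹
      group
    -- fixed points of `Q` on `V` are trivial
    have hci : Inv x (V ⊓ centralizer (Q : Set H)) := by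
      refine hVi.inf ?_
      intro c hc
      rw [mem_centralizer_iff] at hc ⊢
      intro v hv
      obtain ⟨v', hv', rfl⟩ := hsurj Q hQi v hv
      rw [← map_mul, hc v' hv', map_mul]
    have hcn : (V ⊓ centralizer (Q : Set H)).Normal := by
      refine hnormal _ ?_ ?_
      · intro v hv n hn
        rw [hcomm v hv n (Subgroup.mem_inf.1 hn).1]; simpa using hn
      · intro q hq n hn
        have h1 := mem_centralizer_iff.1 (Subgroup.mem_inf.1 hn).2 q hq
        rw [h1]; simpa using hn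
    have hc1 : V ⊓ centralizer (Q : Set H) = ⊥ := by
      rcases hmin _ hcn hci inf_le_left with h2 | h2
      · exact h2
      · exfalso
        apply hQ1
        rw [eq_bot_iff, ← hfaith]
        intro q hq
        refine Subgroup.mem_inf.2 ⟨hq, ?_⟩
        rw [mem_centralizer_iff]
        intro v hv
        have h3 : v ∈ V ⊓ centralizer (Q : Set H) := by rw [h2]; exact hv
        exact (mem_centralizer_iff.1 (Subgroup.mem_inf.1 h3).2 q hq).symm
    have h2 : ((Nm w : V) : H) ∈ V ⊓ centralizer (Q : Set H) := by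
      refine Subgroup.mem_inf.2 ⟨(Nm w).2, ?_⟩
      rw [mem_centralizer_iff]
      intro q hq
      have h3 := congrArg Subtype.val (h1 ⟨q, hq⟩)
      have h4 : q * (Nm w : V) * q⁻¹ = (Nm w : V) := h3
      exact mul_inv_eq_iff_eq_mul.1 h4
    rw [hc1, mem_bot] at h2
    exact Subtype.ext h2
  apply hVF
  intro v hv
  -- bijections of `Q`
  have hinj : ∀ i : ℕ, (∀ q ∈ Q, (x ^ i) q = q → q = 1) → Function.Bijective
      (fun q : Q => (⟨(q : H)⁻¹ * (x ^ i) q, mul_mem (inv_mem q.2) (hQi.pow i q.2)⟩ : Q)) := by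
    intro i hi
    rw [← Finite.injective_iff_bijective]
    intro a b hab
    have h1 : (a : H)⁻¹ * (x ^ i) a = (b : H)⁻¹ * (x ^ i) b := congrArg Subtype.val hab
    have h2 : (x ^ i) ((a : H) * (b : H)⁻¹) = (a : H) * (b : H)⁻¹ := by
      rw [map_mul, map_inv]
      have h3 : (x ^ i) (a : H) = a * ((b : H)⁻¹ * (x ^ i) b) := by rw [← h1]; group
      rw [h3]; group
    have h4 := hi _ (mul_mem a.2 (inv_mem b.2)) h2
    exact Subtype.ext (mul_inv_eq_one.1 h4)
  have hb1 := hinj 1 (fun q hq h => hQF q hq (by rwa [pow_one_apply] at h))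
  have hb2 := hinj 2 (fun q hq h => hQF q hq (sq_fixed hodd hx h))
  let w1 : V := ⟨v⁻¹ * x v, mul_mem (inv_mem hv) (hVi v hv)⟩
  let w2 : V := ⟨v⁻¹ * (x ^ 2) v, mul_mem (inv_mem hv) (hVi.pow 2 hv)⟩
  have hprod1 : ∏ q : Q, (w1 * cj ⟨(q : H)⁻¹ * (x ^ 1) q,
      mul_mem (inv_mem q.2) (hQi.pow 1 q.2)⟩ w2) = w1 ^ Fintype.card Q := by
    rw [Finset.prod_mul_distrib]
    have h1 : ∏ q : Q, cj ⟨(q : H)⁻¹ * (x ^ 1) q, mul_mem (inv_mem q.2) (hQi.pow 1 q.2)⟩ w2
        = Nm w2 := by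
      refine Fintype.prod_bijective _ hb1 _ _ (fun q => rfl)
    rw [h1, hNm, mul_one, Finset.prod_const, Finset.card_univ]
  have hprod2 : ∏ q : Q, (w2 * cj ⟨(q : H)⁻¹ * (x ^ 2) q,
      mul_mem (inv_mem q.2) (hQi.pow 2 q.2)⟩ w1) = w2 ^ Fintype.card Q := by
    rw [Finset.prod_mul_distrib]
    have h1 : ∏ q : Q, cj ⟨(q : H)⁻¹ * (x ^ 2) q, mul_mem (inv_mem q.2) (hQi.pow 2 q.2)⟩ w1
        = Nm w1 := by
      refine Fintype.prod_bijective _ hb2 _ _ (fun q => rfl)
    rw [h1, hNm, mul_one, Finset.prod_const, Finset.card_univ]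
  have heq : w1 ^ Fintype.card Q = w2 ^ Fintype.card Q := by
    rw [← hprod1, ← hprod2]
    refine Finset.prod_congr rfl (fun q _ => ?_)
    apply Subtype.ext
    exact hid v hv q q.2
  have hw : w1 = w2 := by
    have h1 : (w1 * w2⁻¹) ^ Fintype.card Q = 1 := by
      rw [mul_pow, inv_pow, heq, mul_inv_cancel]
    have h2 : (w1 * w2⁻¹) ^ t = 1 := Subtype.ext (hexp _ (w1 * w2⁻¹).2)
    have h3 : (Fintype.card Q).Coprime t := by
      obtain ⟨n, hn⟩ := (IsPGroup.iff_card (p := u) (G := Q)).1 hQu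
      rw [← Nat.card_eq_fintype_card, hn]
      exact Nat.Coprime.pow_left n ((Nat.coprime_primes hu.out ht.out).2 hut)
    have h4 := pow_gcd_eq_one.2 ⟨h1, h2⟩
    rw [h3, pow_one] at h4
    exact mul_inv_eq_one.1 h4
  have hw' : v⁻¹ * x v = v⁻¹ * (x ^ 2) v := congrArg Subtype.val hw
  have h5 : x v = x (x v) := by
    have := mul_left_cancel hw'
    rwa [pow_succ_apply, pow_one_apply] at this
  exact (inj_of_pow hppos hx h5).symm

end Ctx

end Cfsg.Agent.H456
end

-- part: H456/CoprimeEnd6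
section
/-!
# `C_{[H, x]}(x)` is generated by the `C_{[h, x]}(x)`, `x` of odd prime order acting coprimely on a
solvable group
-/

set_option autoImplicit false

namespace Cfsg.Agent.H456

open Subgroup

open scoped commutatorElement

universe u

/-- A minimal invariant normal subgroup of a solvable group is elementary abelian. -/
theorem exists_minimal {H : Type u} [Group H] [Finite H] [Group.IsSolvable H] [Nontrivial H]
    (x : Monoid.End H) :
    ∃ V : Subgroup H, V.Normal ∧ Inv x V ∧ V ≠ ⊥ ∧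
      (∀ N : Subgroup H, N.Normal → Inv x N → N ≤ V → N = ⊥ ∨ N = V) ∧
      (∀ a ∈ V, ∀ b ∈ V, a * b = b * a) ∧ ∃ t : ℕ, t.Prime ∧ ∀ v ∈ V, v ^ t = 1 := by
  classical
  have hne : {V : Subgroup H | V.Normal ∧ Inv x V ∧ V ≠ ⊥}.Nonempty :=
    ⟨⊤, inferInstance, inv_top x, top_ne_bot⟩
  obtain ⟨V, ⟨hVn, hVi, hV1⟩, hVmin⟩ := Set.exists_min_image _ (fun Y : Subgroup H => Nat.card Y)
    (Set.toFinite _) hne
  have hmin : ∀ N : Subgroup H, N.Normal → Inv x N → N ≤ V → N = ⊥ ∨ N = V := by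
    intro N hn hi hle
    by_cases h : N = ⊥
    · exact Or.inl h
    · exact Or.inr (Subgroup.eq_of_le_of_card_ge hle (hVmin N ⟨hn, hi, h⟩))
  have hcomm : ∀ a ∈ V, ∀ b ∈ V, a * b = b * a := by
    have h1 : ⁅V, V⁆ ≤ V := Subgroup.commutator_le_self V
    have h2 : ⁅V, V⁆ ≠ V := by
      intro h3
      have h4 : Nontrivial V := (Subgroup.nontrivial_iff_ne_bot V).2 hV1
      have h6 : _root_.commutator V < ⊤ := Group.IsSolvable.commutator_lt_top_of_nontrivial V
      apply h6.ne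
      have h7 := Subgroup.map_subtype_commutator V
      rw [h3] at h7
      apply Subgroup.map_injective V.subtype_injective
      rw [h7, ← MonoidHom.range_eq_map, Subgroup.range_subtype]
    rcases hmin _ inferInstance (hVi.commutator hVi) h1 with h3 | h3
    · intro a ha b hb
      have h6 : ⁅a, b⁆ ∈ ⁅V, V⁆ := Subgroup.commutator_mem_commutator ha hb
      rw [h3, mem_bot, commutatorElement_eq_one_iff_mul_comm] at h6
      exact h6
    · exact absurd h3 h2
  obtain ⟨t, ht, v, hv, hvo⟩ : ∃ t : ℕ, t.Prime ∧ ∃ v ∈ V, orderOf v = t := by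
    have h1 : Nat.card V ≠ 1 := by
      intro h2; exact hV1 (Subgroup.card_eq_one.1 h2)
    obtain ⟨t, ht, htd⟩ := Nat.exists_prime_and_dvd h1
    have := Fact.mk ht
    obtain ⟨v, hv⟩ := exists_prime_orderOf_dvd_card' (G := V) t htd
    exact ⟨t, ht, v, v.2, by rw [Subgroup.orderOf_coe, hv]⟩
  refine ⟨V, hVn, hVi, hV1, hmin, hcomm, t, ht, ?_⟩
  let O : Subgroup H :=
    { carrier := {g | g ∈ V ∧ g ^ t = 1}
      mul_mem' := by
        rintro a b ⟨ha, ha'⟩ ⟨hb, hb'⟩
        refine ⟨mul_mem ha hb, ?_⟩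
        have : Commute a b := hcomm a ha b hb
        rw [this.mul_pow, ha', hb', mul_one]
      one_mem' := ⟨one_mem _, one_pow _⟩
      inv_mem' := by
        rintro a ⟨ha, ha'⟩
        exact ⟨inv_mem ha, by rw [inv_pow, ha', inv_one]⟩ }
  have hOn : O.Normal := by
    constructor
    rintro n ⟨hn, hn'⟩ g
    refine ⟨hVn.conj_mem n hn g, ?_⟩
    rw [conj_pow, hn']; group
  have hOi : Inv x O := by
    rintro n ⟨hn, hn'⟩
    exact ⟨hVi n hn, by rw [← map_pow, hn', map_one]⟩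
  have hOV : O ≤ V := fun g hg => hg.1
  rcases hmin O hOn hOi hOV with h | h
  · exfalso
    have h1 : v ∈ O := ⟨hv, by rw [← hvo]; exact pow_orderOf_eq_one v⟩
    rw [h, mem_bot] at h1
    rw [h1, orderOf_one] at hvo
    exact ht.one_lt.ne hvo
  · intro w hw
    rw [← h] at hw
    exact hw.2

theorem main_aux (p : ℕ) [hp : Fact p.Prime] (hodd : p ≠ 2) (n : ℕ) :
    ∀ (H : Type u) [Group H] [Finite H] [Group.IsSolvable H] (x : Monoid.End H),
      Nat.card H = n → x ^ p = 1 → ¬ p ∣ Nat.card H → DD x ⊤ ⊓ Fx x ≤ WW x ⊤ := by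
  induction n using Nat.strong_induction_on with
  | _ n IH =>
    intro H _ _ _ x hn hx hpH
    have ih1 : ∀ K : Subgroup H, Inv x K → K ≠ ⊤ → DD x K ⊓ Fx x ≤ WW x K := by
      intro K hK hKtop
      refine inf_le_of_res hK ?_
      refine IH (Nat.card K) ?_ K (res x K hK) rfl (res_pow_eq_one hK hx)
        (not_dvd_of_le hpH)
      rw [← hn]
      refine lt_of_le_of_ne (Subgroup.card_le_card_group K) ?_
      intro h
      exact hKtop (Subgroup.eq_top_of_card_eq K h)
    by_cases htop : DD x ⊤ = ⊤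
    · have C : Ctx p x :=
        { hx := hx
          hpH := hpH
          htop := htop
          ih1 := fun K hK hKt => (ih1 K hK hKt).trans (WW_mono le_top)
          ih2 := by
            intro V hVn hVi hV1
            refine Fx_le_of_quo x V hVi hpH hx htop ?_
            refine IH (Nat.card (H ⧸ V)) ?_ (H ⧸ V) (quo x V hVi) rfl
              (quo_pow_eq_one x V hVi hx) ?_
            · rw [← hn]
              have h1 := Subgroup.card_eq_card_quotient_mul_card_subgroup V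
              have h2 : 1 < Nat.card V := by
                have : Nontrivial V := (Subgroup.nontrivial_iff_ne_bot V).2 hV1
                exact Finite.one_lt_card
              have h3 : 0 < Nat.card (H ⧸ V) := Nat.card_pos
              rw [h1]
              nlinarith
            · intro h
              exact hpH (h.trans (Subgroup.card_quotient_dvd_card V)) }
      refine inf_le_right.trans ?_
      by_cases hnt : Nontrivial H
      · obtain ⟨V, hVn, hVi, hV1, hmin, hcomm, t, ht, hexp⟩ := exists_minimal x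
        have := Fact.mk ht
        exact C.main_case hodd hVn hVi hV1 hmin hcomm hexp
      · rw [not_nontrivial_iff_subsingleton] at hnt
        intro c _
        rw [Subsingleton.elim c 1]; exact one_mem _
    · have h1 := ih1 (DD x ⊤) (inv_DD x ⊤) htop
      rw [DD_DD hpH hx (inv_top x)] at h1
      exact h1.trans (WW_mono le_top)

/-- **Main result**: for `x` an automorphism with `x ^ p = 1`, `p` odd prime, of a solvable
`p'`-group `H`, the fixed points of `x` in `[H, x]` are generated by the fixed points in the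
`[h, x]`. -/
theorem main {H : Type u} [Group H] [Finite H] [Group.IsSolvable H] {p : ℕ} [hp : Fact p.Prime]
    (hodd : p ≠ 2) (hpH : ¬ p ∣ Nat.card H) (x : Monoid.End H) (hx : x ^ p = 1) :
    DD x ⊤ ⊓ Fx x = ⨆ h : H, cl x h ⊓ Fx x := by
  apply le_antisymm
  · refine (main_aux p hodd (Nat.card H) H x rfl hx hpH).trans ?_
    exact iSup_le fun h => le_iSup (fun h : H => cl x h ⊓ Fx x) (h : H)
  · refine iSup_le fun h => ?_
    exact inf_le_inf_right _ (cl_le_DD x (mem_top h))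

end Cfsg.Agent.H456
end

-- part: S3816
section
set_option autoImplicit false
open Cfsg

namespace Cfsg.Agent.S3816

/-- Let p be an odd prime, H a finite solvable group of order prime to p, and x an automorphism of H of order p (so P = ⟨x⟩ has prime order p > 2 and acts coprimely on H). For h ∈ H let [h, P] be the subgroup generated by the commutators h⁻¹·xⁱ(h), and let [H, P] be the subgroup generated by all of these. Then the fixed points of x in [H, P] are generated by the fixed points of x in the subgroups [h, P], h ∈ H. -/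
theorem result {H : Type*} [Group H] [Finite H]
    [Group.IsSolvable H] {p : ℕ} [Fact p.Prime] (hp : p ≠ 2) (hcop : (Nat.card H).Coprime p)
    (x : MulAut H) (hx : orderOf x = p) :
    Subgroup.closure {c : H | ∃ h : H, ∃ i : ℕ, c = h⁻¹ * (x ^ i) h} ⊓ (x : H →* H).eqLocus (MonoidHom.id H) =
      ⨆ h : H, Subgroup.closure {c : H | ∃ i : ℕ, c = h⁻¹ * (x ^ i) h} ⊓ (x : H →* H).eqLocus (MonoidHom.id H) := by
  let y : Monoid.End H := (x : H →* H)
  have hpow : ∀ (i : ℕ) (h : H), (y ^ i) h = (x ^ i) h := by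
    intro i
    induction i with
    | zero => intro h; rw [pow_zero, pow_zero]; rfl
    | succ n ih =>
      intro h
      rw [H456.pow_succ_apply, ih, pow_succ', MulAut.mul_apply]
      rfl
  have hy : y ^ p = 1 := by
    ext h
    rw [hpow, ← hx, pow_orderOf_eq_one]
    rfl
  have hpH : ¬ p ∣ Nat.card H := by
    rw [← Nat.Prime.coprime_iff_not_dvd Fact.out]
    exact hcop.symm
  have h1 := H456.main hp hpH y hy
  have h2 : H456.DD y ⊤ = Subgroup.closure {c : H | ∃ h : H, ∃ i : ℕ, c = h⁻¹ * (x ^ i) h} := by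
    unfold H456.DD
    congr 1
    ext c
    constructor
    · rintro ⟨h, -, i, rfl⟩
      exact ⟨h, i, by rw [hpow]⟩
    · rintro ⟨h, i, rfl⟩
      exact ⟨h, Subgroup.mem_top h, i, by rw [hpow]⟩
  have h3 : ∀ h : H, H456.cl y h = Subgroup.closure {c : H | ∃ i : ℕ, c = h⁻¹ * (x ^ i) h} := by
    intro h
    unfold H456.cl
    congr 1
    ext c
    constructor
    · rintro ⟨i, rfl⟩
      exact ⟨i, by rw [hpow]⟩
    · rintro ⟨i, rfl⟩
      exact ⟨i, by rw [hpow]⟩
  rw [h2] at h1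
  simp only [h3] at h1
  exact h1

end Cfsg.Agent.S3816
end
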