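import Mathlib
import Cfsg.Agent.H457.Half.FixRatio
import Cfsg.Agent.Lib.ClassTwoDuality
import Cfsg.Agent.OddOrderLocal.FrobAct
import Cfsg.Statements.S3818
set_option linter.all false

-- part: H457/Half/Orbits
section
/-!
# Fixed vectors and orbits on an index set (helper457)

`finrank_fixed_le` : a group `P` permutes a family of projections `π i` with sum `1`; the space of fixed vectors has
dimension at most `d` times the number of orbits of `P` on the index set.
-/

set_option autoImplicit false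

namespace Cfsg.Agent.H457.Half

open Module

/-- the fixed vectors are determined by their components at representatives of the orbits -/
theorem finrank_fixed_le {k M ι P : Type*} [Field k] [AddCommGroup M] [Module k M] [FiniteDimensional k M]
    [Fintype ι] [Group P] [MulAction P ι] (π : ι → M →ₗ[k] M) (hsum : ∀ m, ∑ i, π i m = m)
    (φ : P → M →ₗ[k] M) (hφ : ∀ y i m, φ y (π i m) = π (y • i) (φ y m))
    (F : Submodule k M) (hF : ∀ m ∈ F, ∀ y, φ y m = m) {d : ℕ} (hd : ∀ i, finrank k (LinearMap.range (π i)) ≤ d) :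
    finrank k F ≤ Nat.card (Quotient (MulAction.orbitRel P ι)) * d := by
  classical
  have hfin : Fintype (Quotient (MulAction.orbitRel P ι)) := Fintype.ofFinite _
  let L : F →ₗ[k] (∀ q : Quotient (MulAction.orbitRel P ι), LinearMap.range (π q.out)) :=
    LinearMap.pi fun q => (π q.out).rangeRestrict.comp F.subtype
  have hL : Function.Injective L := by
    rw [← LinearMap.ker_eq_bot, LinearMap.ker_eq_bot']
    intro m hm
    have h0 : ∀ q : Quotient (MulAction.orbitRel P ι), π q.out (m : M) = 0 := fun q =>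
      congrArg Subtype.val (congrFun hm q)
    have h1 : ∀ i, π i (m : M) = 0 := by
      intro i
      have h2 : i ∈ MulAction.orbit P (Quotient.out (Quotient.mk'' i : Quotient (MulAction.orbitRel P ι))) := by
        have h3 : (Quotient.mk'' i : Quotient (MulAction.orbitRel P ι)) =
            Quotient.mk'' (Quotient.out (Quotient.mk'' i : Quotient (MulAction.orbitRel P ι))) :=
          (Quotient.out_eq' _).symm
        exact (MulAction.orbitRel_apply).1 (Quotient.exact h3)
      obtain ⟨y, hy⟩ := h2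
      have h4 : y • (Quotient.out (Quotient.mk'' i : Quotient (MulAction.orbitRel P ι))) = i := hy
      have h5 := hφ y (Quotient.out (Quotient.mk'' i : Quotient (MulAction.orbitRel P ι))) (m : M)
      rw [h0, map_zero, h4, hF m m.2 y] at h5
      exact h5.symm
    apply Subtype.ext
    rw [← hsum (m : M), Finset.sum_eq_zero (fun i _ => h1 i)]
    rfl
  have h1 := LinearMap.finrank_le_finrank_of_injective hL
  refine h1.trans ?_
  rw [Module.finrank_pi_fintype]
  calc ∑ q : Quotient (MulAction.orbitRel P ι), finrank k (LinearMap.range (π q.out))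
      ≤ ∑ _q : Quotient (MulAction.orbitRel P ι), d := Finset.sum_le_sum fun q _ => hd q.out
    _ = Nat.card (Quotient (MulAction.orbitRel P ι)) * d := by
        rw [Finset.sum_const, Finset.card_univ, smul_eq_mul, Nat.card_eq_fintype_card]

/-- counting orbits -/
theorem card_orbits_mul_le {ι P : Type*} [Finite ι] [Group P] [MulAction P ι] {p f : ℕ}
    (hP : Nat.card P = p) (hp0 : 0 < p) (hf : ∀ y : P, y ≠ 1 → Nat.card (MulAction.fixedBy ι y) ≤ f) :
    Nat.card (Quotient (MulAction.orbitRel P ι)) * p ≤ Nat.card ι + (p - 1) * f := by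
  classical
  have hPf : Finite P := Nat.finite_of_card_ne_zero (by omega)
  have h1 : Fintype P := Fintype.ofFinite P
  have h2 : ∀ a : P, Fintype (MulAction.fixedBy ι a) := fun a => Fintype.ofFinite _
  have h3 : Fintype (Quotient (MulAction.orbitRel P ι)) := Fintype.ofFinite _
  have h4 := MulAction.sum_card_fixedBy_eq_card_orbits_mul_card_group P ι
  rw [Nat.card_eq_fintype_card, ← hP, Nat.card_eq_fintype_card (α := P), ← h4,
    ← Finset.add_sum_erase _ _ (Finset.mem_univ (1 : P))]
  apply Nat.add_le_add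
  · rw [← Nat.card_eq_fintype_card]
    exact Nat.card_le_card_of_injective _ Subtype.val_injective
  · calc ∑ a ∈ Finset.univ.erase (1 : P), Fintype.card (MulAction.fixedBy ι a)
        ≤ ∑ _a ∈ Finset.univ.erase (1 : P), f := Finset.sum_le_sum fun a ha => by
          rw [← Nat.card_eq_fintype_card]
          exact hf a (Finset.ne_of_mem_erase ha)
      _ = (Fintype.card P - 1) * f := by
          rw [Finset.sum_const, Finset.card_erase_of_mem (Finset.mem_univ _), Finset.card_univ, smul_eq_mul]

/-- **the bound** -/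
theorem finrank_fixed_mul_le {k M ι P : Type*} [Field k] [AddCommGroup M] [Module k M] [FiniteDimensional k M]
    [Fintype ι] [Group P] [MulAction P ι] (π : ι → M →ₗ[k] M) (hsum : ∀ m, ∑ i, π i m = m)
    (φ : P → M →ₗ[k] M) (hφ : ∀ y i m, φ y (π i m) = π (y • i) (φ y m))
    (F : Submodule k M) (hF : ∀ m ∈ F, ∀ y, φ y m = m) {d : ℕ} (hd : ∀ i, finrank k (LinearMap.range (π i)) ≤ d)
    {p f : ℕ} (hP : Nat.card P = p) (hp0 : 0 < p) (hf : ∀ y : P, y ≠ 1 → Nat.card (MulAction.fixedBy ι y) ≤ f) :
    finrank k F * p ≤ (Nat.card ι + (p - 1) * f) * d := by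
  have h1 := finrank_fixed_le π hsum φ hφ F hF hd
  have h2 := card_orbits_mul_le (ι := ι) hP hp0 hf
  calc finrank k F * p ≤ (Nat.card (Quotient (MulAction.orbitRel P ι)) * d) * p := Nat.mul_le_mul_right p h1
    _ = (Nat.card (Quotient (MulAction.orbitRel P ι)) * p) * d := by ring
    _ ≤ _ := Nat.mul_le_mul_right d h2

/-- orthogonal projections: the dimensions of the ranges add up to at most the dimension -/
theorem sum_finrank_range_le {k M ι : Type*} [Field k] [AddCommGroup M] [Module k M] [FiniteDimensional k M]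
    [Fintype ι] (π : ι → M →ₗ[k] M) (horth : ∀ i j m, i ≠ j → π i (π j m) = 0)
    (hidem : ∀ i m, π i (π i m) = π i m) : ∑ i, finrank k (LinearMap.range (π i)) ≤ finrank k M := by
  classical
  let L : (∀ i : ι, LinearMap.range (π i)) →ₗ[k] M :=
    ∑ i, (LinearMap.range (π i)).subtype.comp (LinearMap.proj i)
  have happ : ∀ v, L v = ∑ i, (v i : M) := by
    intro v
    simp [L, LinearMap.sum_apply]
  have hL : Function.Injective L := by
    rw [← LinearMap.ker_eq_bot, LinearMap.ker_eq_bot']
    intro v hv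
    rw [happ] at hv
    funext j
    apply Subtype.ext
    have h1 := congrArg (π j) hv
    rw [map_sum, map_zero, Finset.sum_eq_single j] at h1
    · obtain ⟨m, hm⟩ := (v j).2
      rw [← hm, hidem, hm] at h1
      exact h1
    · intro i _ hij
      obtain ⟨m, hm⟩ := (v i).2
      rw [← hm]
      exact horth j i m (Ne.symm hij)
    · intro h
      exact absurd (Finset.mem_univ j) h
  have h1 := LinearMap.finrank_le_finrank_of_injective hL
  rwa [Module.finrank_pi_fintype] at h1

/-- the projections of a direct sum decomposition -/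
theorem exists_proj {k M ι : Type*} [Field k] [AddCommGroup M] [Module k M] [Fintype ι] [DecidableEq ι]
    (W : ι → Submodule k M) (h : DirectSum.IsInternal W) :
    ∃ π : ι → M →ₗ[k] M, (∀ m, ∑ i, π i m = m) ∧ (∀ i m, π i m ∈ W i) ∧ (∀ i, ∀ m ∈ W i, π i m = m) ∧
      ∀ i j, i ≠ j → ∀ m ∈ W j, π i m = 0 := by
  let e : (DirectSum ι fun i => W i) ≃ₗ[k] M := LinearEquiv.ofBijective (DirectSum.coeLinearMap W) h
  have he : ∀ x, e x = DirectSum.coeLinearMap W x := fun x => rfl
  have hesymm : ∀ i (m : W i), e.symm m = DirectSum.lof k ι (fun i => W i) i m := by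
    intro i m
    rw [LinearEquiv.symm_apply_eq, he, DirectSum.coeLinearMap_lof]
  refine ⟨fun i => (W i).subtype.comp ((DirectSum.component k ι (fun i => W i) i).comp e.symm.toLinearMap),
    ?_, ?_, ?_, ?_⟩
  · intro m
    obtain ⟨x, rfl⟩ := e.surjective m
    simp only [LinearMap.comp_apply, LinearEquiv.coe_coe, LinearEquiv.symm_apply_apply, Submodule.subtype_apply]
    rw [he]
    induction x using DirectSum.induction_on with
    | zero => simp
    | of i w =>
      rw [show (DirectSum.of (fun i => W i) i) w = DirectSum.lof k ι (fun i => W i) i w from rfl,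
        DirectSum.coeLinearMap_lof, Finset.sum_eq_single i]
      · rw [DirectSum.component.lof_self]
      · intro j _ hj
        rw [DirectSum.component.of, dif_neg (Ne.symm hj)]
        rfl
      · intro h
        exact absurd (Finset.mem_univ i) h
    | add x y hx hy =>
      rw [map_add, ← hx, ← hy, ← Finset.sum_add_distrib]
      refine Finset.sum_congr rfl fun i _ => ?_
      rw [map_add]
      rfl
  · intro i m
    exact ((DirectSum.component k ι (fun i => W i) i) (e.symm m)).2
  · intro i m hm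
    simp only [LinearMap.comp_apply, LinearEquiv.coe_coe, Submodule.subtype_apply]
    rw [show m = ((⟨m, hm⟩ : W i) : M) from rfl, hesymm, DirectSum.component.lof_self]
  · intro i j hij m hm
    simp only [LinearMap.comp_apply, LinearEquiv.coe_coe, Submodule.subtype_apply]
    rw [show m = ((⟨m, hm⟩ : W j) : M) from rfl, hesymm, DirectSum.component.of, dif_neg (Ne.symm hij)]
    rfl

/-- **The bound for a direct sum decomposition.** -/
theorem finrank_fixed_mul_le' {k M ι P : Type*} [Field k] [AddCommGroup M] [Module k M] [FiniteDimensional k M]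
    [Fintype ι] [Group P] [MulAction P ι] (W : ι → Submodule k M) (hind : iSupIndep W) (htop : ⨆ i, W i = ⊤)
    (φ : P → M →ₗ[k] M) (hφ : ∀ y i, ∀ m ∈ W i, φ y m ∈ W (y • i))
    (F : Submodule k M) (hF : ∀ m ∈ F, ∀ y, φ y m = m) {d : ℕ} (hd : ∀ i, finrank k (W i) = d)
    {p f : ℕ} (hP : Nat.card P = p) (hp0 : 0 < p) (hf : ∀ y : P, y ≠ 1 → Nat.card (MulAction.fixedBy ι y) ≤ f) :
    finrank k F * p ≤ (Nat.card ι + (p - 1) * f) * d ∧ Nat.card ι * d ≤ finrank k M := by
  classical
  have hint : DirectSum.IsInternal W :=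
    (DirectSum.isInternal_submodule_iff_iSupIndep_and_iSup_eq_top W).2 ⟨hind, htop⟩
  obtain ⟨π, h1, h2, h3, h4⟩ := exists_proj W hint
  have hr : ∀ i, LinearMap.range (π i) = W i := by
    intro i
    apply le_antisymm
    · rintro _ ⟨m, rfl⟩
      exact h2 i m
    · intro m hm
      exact ⟨m, h3 i m hm⟩
  refine ⟨finrank_fixed_mul_le π h1 φ ?_ F hF (fun i => by rw [hr, hd]) hP hp0 hf, ?_⟩
  · intro y i m
    have h5 : π (y • i) (φ y m) = ∑ j, π (y • i) (φ y (π j m)) := by
      rw [← map_sum, ← map_sum, h1]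
    rw [h5, Finset.sum_eq_single i]
    · exact (h3 _ _ (hφ y i _ (h2 i m))).symm
    · intro j _ hj
      exact h4 _ _ (fun h => hj (smul_left_cancel y h).symm) _ (hφ y j _ (h2 j m))
    · intro h
      exact absurd (Finset.mem_univ i) h
  · have h5 := sum_finrank_range_le π (fun i j m hij => h4 i j hij _ (h2 j m)) (fun i m => h3 i _ (h2 i m))
    have h6 : ∑ i, finrank k (LinearMap.range (π i)) = Nat.card ι * d := by
      rw [Finset.sum_congr rfl (fun i _ => by rw [hr i, hd i]), Finset.sum_const, Finset.card_univ, smul_eq_mul,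
        Nat.card_eq_fintype_card]
    rwa [h6] at h5

end Cfsg.Agent.H457.Half
end

-- part: H457/Half/Imprim
section
/-!
# Fixed spaces: the imprimitive case (helper457)

`imprimitive` : `ρ` faithful irreducible over an algebraically closed field, `A` an abelian normal subgroup not contained
in the centre: `2 dim C_V(P) < dim V`.
-/

set_option autoImplicit false

namespace Cfsg.Agent.H457.Half

open Module Subgroup

section

variable {k G V : Type*} [Field k] [Group G] [AddCommGroup V] [Module k V]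

/-- no invariant subspaces -/
def Irr (ρ : Representation k G V) : Prop :=
  ∀ U : Submodule k V, (∀ g : G, ∀ u ∈ U, ρ g u ∈ U) → U = ⊥ ∨ U = ⊤

/-- the vectors fixed by a subgroup -/
def fix (ρ : Representation k G V) (P : Subgroup G) : Submodule k V where
  carrier := {v | ∀ y ∈ P, ρ y v = v}
  add_mem' := by
    intro a b ha hb y hy
    rw [map_add, ha y hy, hb y hy]
  zero_mem' := fun y _ => map_zero _
  smul_mem' := by
    intro c v hv y hy
    rw [map_smul, hv y hy]

theorem mem_fix {ρ : Representation k G V} {P : Subgroup G} {v : V} : v ∈ fix ρ P ↔ ∀ y ∈ P, ρ y v = v := Iff.rfl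

/-- commuting endomorphisms have a common eigenvector -/
theorem exists_common_eigenvector [IsAlgClosed k] [FiniteDimensional k V] [Nontrivial V] {A : Type*}
    (σ : A → V →ₗ[k] V) (hcomm : ∀ a b v, σ a (σ b v) = σ b (σ a v)) :
    ∃ (χ : A → k) (v : V), v ≠ 0 ∧ ∀ a, σ a v = χ a • v := by
  classical
  let S : Set (Submodule k V) := {U | U ≠ ⊥ ∧ ∀ a, ∀ u ∈ U, σ a u ∈ U}
  have hS : S.Nonempty := ⟨⊤, top_ne_bot, fun _ _ _ => trivial⟩
  have hwf : WellFounded ((· < ·) : Submodule k V → Submodule k V → Prop) := wellFounded_lt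
  set U := hwf.min S hS with hU
  have hUS : U ∈ S := hwf.min_mem S hS
  have hmin : ∀ U' ∈ S, ¬ U' < U := fun U' hU' => hwf.not_lt_min S hU'
  have hsc : ∀ a, ∃ μ : k, ∀ u ∈ U, σ a u = μ • u := by
    intro a
    have hnt : Nontrivial U := Submodule.nontrivial_iff_ne_bot.2 hUS.1
    let T : U →ₗ[k] U := (σ a).restrict (p := U) (q := U) (hUS.2 a)
    obtain ⟨μ, hμ⟩ := Module.End.exists_eigenvalue T
    obtain ⟨u, hu⟩ := hμ.exists_hasEigenvector
    have hTu : σ a (u : V) = μ • (u : V) := congrArg Subtype.val hu.apply_eq_smul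
    let U' : Submodule k V := U ⊓ LinearMap.ker (σ a - μ • LinearMap.id)
    have hmem : ∀ v, v ∈ U' ↔ v ∈ U ∧ σ a v = μ • v := by
      intro v
      rw [Submodule.mem_inf, LinearMap.mem_ker, LinearMap.sub_apply, LinearMap.smul_apply, LinearMap.id_apply,
        sub_eq_zero]
    have hU'S : U' ∈ S := by
      refine ⟨?_, ?_⟩
      · intro h
        have h1 : (u : V) ∈ U' := (hmem _).2 ⟨u.2, hTu⟩
        rw [h, Submodule.mem_bot] at h1
        exact hu.2 (Subtype.ext h1)
      · intro b v hv
        rw [hmem] at hv ⊢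
        exact ⟨hUS.2 b v hv.1, by rw [hcomm, hv.2, map_smul]⟩
    have hle : U' ≤ U := inf_le_left
    have heq : U' = U := by
      by_contra hne
      exact hmin U' hU'S (lt_of_le_of_ne hle hne)
    refine ⟨μ, fun v hv => ?_⟩
    rw [← heq] at hv
    exact ((hmem v).1 hv).2
  choose χ hχ using hsc
  obtain ⟨v, hv, hv0⟩ := (Submodule.ne_bot_iff U).1 hUS.1
  exact ⟨χ, v, hv0, fun a => hχ a v hv⟩

end

section

variable {k G : Type*} [Field k] [Group G]

/-- weights of the normal subgroup `A` -/
def Wt (A : Subgroup G) (k : Type*) : Type _ := A → k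

instance (A : Subgroup G) [A.Normal] : MulAction G (Wt A k) where
  smul g χ := fun a => χ (MulAut.conjNormal g⁻¹ a)
  one_smul χ := by
    funext a
    change χ (MulAut.conjNormal (1 : G)⁻¹ a) = χ a
    rw [inv_one, map_one]
    rfl
  mul_smul g h χ := by
    funext a
    change χ (MulAut.conjNormal (g * h)⁻¹ a) = χ (MulAut.conjNormal h⁻¹ (MulAut.conjNormal g⁻¹ a))
    rw [mul_inv_rev, map_mul]
    rfl

theorem wt_smul (A : Subgroup G) [A.Normal] (g : G) (χ : Wt A k) (a : A) :
    (g • χ) a = χ (MulAut.conjNormal g⁻¹ a) := rfl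

variable {V : Type*} [AddCommGroup V] [Module k V]

/-- weight spaces -/
def wsp (ρ : Representation k G V) (A : Subgroup G) (χ : Wt A k) : Submodule k V where
  carrier := {v | ∀ a : A, ρ a v = χ a • v}
  add_mem' := by
    intro u v hu hv a
    rw [map_add, hu a, hv a, smul_add]
  zero_mem' := fun a => by rw [map_zero, smul_zero]
  smul_mem' := by
    intro c v hv a
    rw [map_smul, hv a, smul_comm]

theorem mem_wsp {ρ : Representation k G V} {A : Subgroup G} {χ : Wt A k} {v : V} :
    v ∈ wsp ρ A χ ↔ ∀ a : A, ρ a v = χ a • v := Iff.rfl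

theorem smul_mem_wsp (ρ : Representation k G V) (A : Subgroup G) [A.Normal] (g : G) {χ : Wt A k} {v : V}
    (hv : v ∈ wsp ρ A χ) : ρ g v ∈ wsp ρ A (g • χ) := by
  intro a
  have h1 : (a : G) * g = g * (MulAut.conjNormal g⁻¹ a : A) := by
    rw [MulAut.conjNormal_apply]; group
  rw [← Module.End.mul_apply, ← map_mul, h1, map_mul, Module.End.mul_apply, hv, map_smul, wt_smul]

theorem iSupIndep_wsp' (ρ : Representation k G V) (A : Subgroup G) (hab : ∀ a ∈ A, ∀ b ∈ A, ρ a * ρ b = ρ b * ρ a) :
    iSupIndep (wsp ρ A) := by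
  have h := Module.End.independent_iInf_maxGenEigenspace_of_forall_mapsTo (fun a : A => (ρ a : Module.End k V))
    (by
      intro a b φ
      refine Module.End.mapsTo_maxGenEigenspace_of_comm ?_ φ
      exact hab b b.2 a a.2)
  refine h.mono fun χ => ?_
  intro v hv
  rw [Submodule.mem_iInf]
  intro a
  refine (Module.End.eigenspace_le_maxGenEigenspace (f := (ρ a : Module.End k V))) ?_
  rw [Module.End.mem_eigenspace_iff]
  exact hv a

theorem iSupIndep_wsp (ρ : Representation k G V) (A : Subgroup G) (hab : ∀ a ∈ A, ∀ b ∈ A, a * b = b * a) :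
    iSupIndep (wsp ρ A) :=
  iSupIndep_wsp' ρ A fun a ha b hb => by rw [← map_mul, ← map_mul, hab a ha b hb]

end

/-- nontrivial elements of a subgroup of prime order -/
theorem orderOf_of_card {G : Type*} [Group G] {p : ℕ} [hp : Fact p.Prime] {P : Subgroup G} (hP : Nat.card P = p)
    (hgen : normalClosure (P : Set G) = ⊤) {y : G} (hyP : y ∈ P) (hy : y ≠ 1) :
    orderOf y = p ∧ (∀ x ∈ P, x ∈ zpowers y) ∧ normalClosure ({y} : Set G) = ⊤ := by
  have hPf : Finite P := Nat.finite_of_card_ne_zero (by rw [hP]; exact hp.out.ne_zero)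
  have h1 : orderOf (⟨y, hyP⟩ : P) = p := by
    have h2 : orderOf (⟨y, hyP⟩ : P) ∣ p := hP ▸ orderOf_dvd_natCard _
    exact ((Nat.dvd_prime hp.out).1 h2).resolve_left
      (fun h => hy (congrArg Subtype.val (orderOf_eq_one_iff.1 h)))
  have h2 : zpowers (⟨y, hyP⟩ : P) = ⊤ := by
    rw [← Subgroup.card_eq_iff_eq_top, Nat.card_zpowers, h1, hP]
  have h3 : ∀ x ∈ P, x ∈ zpowers y := by
    intro x hx
    have h4 : (⟨x, hx⟩ : P) ∈ zpowers (⟨y, hyP⟩ : P) := by rw [h2]; trivial
    obtain ⟨n, hn⟩ := mem_zpowers_iff.1 h4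
    rw [mem_zpowers_iff]
    exact ⟨n, congrArg Subtype.val hn⟩
  rw [Subgroup.orderOf_mk] at h1
  refine ⟨h1, h3, ?_⟩
  rw [eq_top_iff, ← hgen]
  have h5 : zpowers y ≤ normalClosure ({y} : Set G) := by
    rw [Subgroup.zpowers_le]
    exact Subgroup.subset_normalClosure (Set.mem_singleton y)
  exact Subgroup.normalClosure_le_normal (fun x hx => h5 (h3 x hx))

/-- **The imprimitive case.** -/
theorem imprimitive {k G V : Type*} [Field k] [IsAlgClosed k] [Group G] [Finite G] [Group.IsSolvable G]
    [AddCommGroup V] [Module k V] [FiniteDimensional k V] [Nontrivial V] {p : ℕ} [hp : Fact p.Prime] (hp3 : 3 < p)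
    (P : Subgroup G) (hP : Nat.card P = p) (hgen : normalClosure (P : Set G) = ⊤)
    (ρ : Representation k G V) (hirr : Irr ρ) (hfaith : Function.Injective ρ)
    (A : Subgroup G) [A.Normal] (hab : ∀ a ∈ A, ∀ b ∈ A, a * b = b * a) (hnc : ¬ A ≤ center G) :
    2 * finrank k (fix ρ P) < finrank k V := by
  classical
  obtain ⟨χ₀, v₀, hv₀, hχ₀⟩ := exists_common_eigenvector (fun a : A => ρ a) (by
    intro a b v
    rw [← Module.End.mul_apply, ← Module.End.mul_apply, ← map_mul, ← map_mul, hab a a.2 b b.2])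
  let χ : Wt A k := χ₀
  let Ω := MulAction.orbit G χ
  have hΩf : Finite Ω := (Set.finite_range (fun g : G => g • χ)).to_subtype
  have hΩF : Fintype Ω := Fintype.ofFinite _
  let W : Ω → Submodule k V := fun i => wsp ρ A i
  have hind : iSupIndep W := (iSupIndep_wsp ρ A hab).comp Subtype.val_injective
  have hinv : ∀ (g : G) (i : Ω), ∀ v ∈ W i, ρ g v ∈ W (g • i) := fun g i v hv => smul_mem_wsp ρ A g hv
  have htop : ⨆ i, W i = ⊤ := by
    rcases hirr (⨆ i, W i) (by
      intro g u hu
      have h1 : (⨆ i, W i) ≤ (⨆ i, W i).comap (ρ g) := by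
        refine iSup_le fun i v hv => ?_
        exact (le_iSup W (g • i)) (hinv g i v hv)
      exact h1 hu) with h | h
    · exfalso
      have h1 : v₀ ∈ ⨆ i, W i := (le_iSup W ⟨χ, MulAction.mem_orbit_self χ⟩) hχ₀
      rw [h, Submodule.mem_bot] at h1
      exact hv₀ h1
    · exact h
  -- equal dimensions
  have hdim : ∀ (g : G) (i : Ω), finrank k (W i) ≤ finrank k (W (g • i)) := by
    intro g i
    let L : W i →ₗ[k] W (g • i) := (ρ g).restrict (p := W i) (q := W (g • i)) (hinv g i)
    refine LinearMap.finrank_le_finrank_of_injective (f := L) ?_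
    intro u v huv
    apply Subtype.ext
    have h1 : ρ g u = ρ g v := congrArg Subtype.val huv
    have h2 := congrArg (ρ g⁻¹) h1
    rw [← Module.End.mul_apply, ← Module.End.mul_apply, ← map_mul, inv_mul_cancel, map_one] at h2
    exact h2
  have hd : ∀ i : Ω, finrank k (W i) = finrank k (W ⟨χ, MulAction.mem_orbit_self χ⟩) := by
    intro i
    obtain ⟨g, hg⟩ := MulAction.exists_smul_eq G (⟨χ, MulAction.mem_orbit_self χ⟩ : Ω) i
    apply le_antisymm
    · have h1 := hdim g⁻¹ i
      rw [← hg, inv_smul_smul] at h1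
      rwa [← hg]
    · have h1 := hdim g ⟨χ, MulAction.mem_orbit_self χ⟩
      rwa [hg] at h1
  set d := finrank k (W ⟨χ, MulAction.mem_orbit_self χ⟩) with hd'
  -- more than one weight
  have hΩ1 : 1 < Nat.card Ω := by
    by_contra hc
    have h1 : Nat.card Ω = 1 := by
      have : 0 < Nat.card Ω := Nat.card_pos_iff.2 ⟨⟨⟨χ, MulAction.mem_orbit_self χ⟩⟩, hΩf⟩
      omega
    have hss : Subsingleton Ω := (Nat.card_eq_one_iff_unique.1 h1).1
    have h2 : W ⟨χ, MulAction.mem_orbit_self χ⟩ = ⊤ := by
      rw [eq_top_iff, ← htop]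
      exact iSup_le fun i => (by rw [Subsingleton.elim i ⟨χ, MulAction.mem_orbit_self χ⟩])
    apply hnc
    intro a ha
    rw [mem_center_iff]
    intro g
    apply hfaith
    rw [map_mul, map_mul]
    apply LinearMap.ext
    intro v
    have h3 : ∀ v : V, ρ a v = χ ⟨a, ha⟩ • v := by
      intro v
      have h4 : v ∈ W ⟨χ, MulAction.mem_orbit_self χ⟩ := by rw [h2]; trivial
      exact h4 ⟨a, ha⟩
    rw [Module.End.mul_apply, Module.End.mul_apply, h3, h3, map_smul]
  -- fixed points
  have hf : ∀ y : P, y ≠ 1 → Nat.card (MulAction.fixedBy Ω y) ≤ Nat.card Ω / p := by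
    intro y hy
    obtain ⟨h1, -, h2⟩ := orderOf_of_card hP hgen y.2 (fun h => hy (Subtype.ext h))
    have h3 := card_fixedBy_mul_le (Ω := Ω) hΩ1 h1 h2
    rw [Nat.le_div_iff_mul_le hp.out.pos, mul_comm]
    exact h3
  obtain ⟨h1, h2⟩ := finrank_fixed_mul_le' (P := P) W hind htop (fun y => ρ y) (fun y i m hm => hinv y i m hm)
    (fix ρ P) (fun m hm y => hm y y.2) hd hP hp.out.pos hf
  have hn : 0 < finrank k V := finrank_pos
  have h3 : p * (Nat.card Ω / p) ≤ Nat.card Ω := Nat.mul_div_le _ _
  -- arithmetic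
  set b := finrank k (fix ρ P)
  set n := finrank k V
  set N := Nat.card Ω
  set f := N / p
  by_contra hcon
  have h4 : n ≤ 2 * b := by omega
  have hp5 : 5 ≤ p := by
    by_contra hc
    have : p = 4 := by omega
    subst this
    exact absurd hp.out (by norm_num)
  obtain ⟨e, rfl⟩ : ∃ e, p = e + 1 := ⟨p - 1, by omega⟩
  have h5 : (N + e * f) * d * (e + 1) ≤ (N * (e + 1) + e * N) * d := by
    calc (N + e * f) * d * (e + 1) = (N * (e + 1) + e * ((e + 1) * f)) * d := by ring
      _ ≤ _ := Nat.mul_le_mul_right _ (Nat.add_le_add_left (Nat.mul_le_mul_left _ h3) _)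
  have h6 : b * (e + 1) * (e + 1) ≤ (2 * e + 1) * n := by
    calc b * (e + 1) * (e + 1) ≤ (N + (e + 1 - 1) * f) * d * (e + 1) := Nat.mul_le_mul_right _ h1
      _ = (N + e * f) * d * (e + 1) := by rw [Nat.add_sub_cancel]
      _ ≤ (N * (e + 1) + e * N) * d := h5
      _ = (2 * e + 1) * (N * d) := by ring
      _ ≤ _ := Nat.mul_le_mul_left _ h2
  have hb : 0 < b := by omega
  have h7 : b * ((e + 1) * (e + 1)) ≤ b * (2 * (2 * e + 1)) := by
    calc b * ((e + 1) * (e + 1)) = b * (e + 1) * (e + 1) := by ring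
      _ ≤ (2 * e + 1) * n := h6
      _ ≤ (2 * e + 1) * (2 * b) := Nat.mul_le_mul_left _ h4
      _ = _ := by ring
  have h8 := Nat.le_of_mul_le_mul_left h7 hb
  have h9 : 4 ≤ e := by omega
  nlinarith

end Cfsg.Agent.H457.Half
end

-- part: H457/Half/Section
section
/-!
# The class two section of a solvable group with central abelian normal subgroups (helper457)
-/

set_option autoImplicit false

namespace Cfsg.Agent.H457.Half

open Subgroup

/-- `E / Z(G)` is an elementary abelian `r`-group, a minimal normal subgroup of `G / Z(G)`; `Z(E) = Z(G)` -/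
structure ESec {G : Type*} [Group G] (E : Subgroup G) (r : ℕ) : Prop where
  normal : E.Normal
  center_le : center G ≤ E
  not_le : ¬ E ≤ center G
  comm : ∀ u ∈ E, ∀ w ∈ E, u * w * u⁻¹ * w⁻¹ ∈ center G
  pow : ∀ u ∈ E, u ^ r ∈ center G
  cent : ∀ w ∈ E, (∀ u ∈ E, u * w = w * u) → w ∈ center G
  min : ∀ N : Subgroup G, N.Normal → center G ≤ N → N ≤ E → N = center G ∨ N = E

variable {G : Type*} [Group G]

theorem pow_mul_eq {a b z : G} (hz : ∀ g, z * g = g * z) (h : a * b = z * b * a) (n : ℕ) :
    a ^ n * b = z ^ n * b * a ^ n := by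
  have hzn : ∀ (n : ℕ) g, z ^ n * g = g * z ^ n := fun n g => (Commute.pow_left (hz g : Commute z g) n).eq
  induction n with
  | zero => simp
  | succ n ih =>
    calc a ^ (n + 1) * b = a ^ n * (a * b) := by rw [pow_succ]; group
      _ = a ^ n * (z * b * a) := by rw [h]
      _ = a ^ n * z * b * a := by group
      _ = z * a ^ n * b * a := by rw [hz]
      _ = z * (a ^ n * b) * a := by group
      _ = z * (z ^ n * b * a ^ n) * a := by rw [ih]
      _ = z ^ (n + 1) * b * a ^ (n + 1) := by rw [pow_succ', pow_succ]; group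

/-- existence -/
theorem exists_eSec [Finite G] [Group.IsSolvable G] (hab : ∀ A : Subgroup G, A.Normal →
    (∀ a ∈ A, ∀ b ∈ A, a * b = b * a) → A ≤ center G) (hna : center G ≠ ⊤) :
    ∃ (E : Subgroup G) (r : ℕ), r.Prime ∧ ESec E r := by
  classical
  let S : Set (Subgroup G) := {N | N.Normal ∧ center G < N}
  have hS : S.Nonempty := ⟨⊤, inferInstance, lt_top_iff_ne_top.2 hna⟩
  have hwf : WellFounded ((· < ·) : Subgroup G → Subgroup G → Prop) := wellFounded_lt
  set E := hwf.min S hS with hE
  have hES : E ∈ S := hwf.min_mem S hS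
  have hmin' : ∀ N ∈ S, ¬ N < E := fun N hN => hwf.not_lt_min S hN
  have hEn : E.Normal := hES.1
  have hZE : center G ≤ E := hES.2.le
  have hmin : ∀ N : Subgroup G, N.Normal → center G ≤ N → N ≤ E → N = center G ∨ N = E := by
    intro N hN h1 h2
    by_cases h3 : N = center G
    · exact Or.inl h3
    · right
      by_contra h4
      exact hmin' N ⟨hN, lt_of_le_of_ne h1 (Ne.symm h3)⟩ (lt_of_le_of_ne h2 h4)
  have hnle : ¬ E ≤ center G := fun h => absurd (lt_of_lt_of_le hES.2 h) (lt_irrefl _)
  -- commutators are central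
  let π := QuotientGroup.mk' (center G)
  have hπ : Function.Surjective π := QuotientGroup.mk'_surjective _
  have hker : π.ker = center G := QuotientGroup.ker_mk' _
  have hEb : E.map π ≠ ⊥ := by
    rw [Ne, Subgroup.map_eq_bot_iff, hker]
    exact hnle
  have hcl : ⁅E.map π, E.map π⁆ < E.map π := Group.IsSolvable.commutator_lt_of_ne_bot hEb
  have hEmn : (E.map π).Normal := hEn.map π hπ
  have hEcomap : (E.map π).comap π = E := by
    rw [Subgroup.comap_map_eq, hker, sup_eq_left.2 hZE]
  have hcb : ⁅E.map π, E.map π⁆ = ⊥ := by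
    have h1 : (⁅E.map π, E.map π⁆).comap π ≤ E :=
      (Subgroup.comap_mono hcl.le).trans hEcomap.le
    have h2 : center G ≤ (⁅E.map π, E.map π⁆).comap π :=
      hker.symm.le.trans (Subgroup.ker_le_comap _ _)
    rcases hmin _ inferInstance h2 h1 with h | h
    · rw [← Subgroup.map_comap_eq_self_of_surjective hπ ⁅E.map π, E.map π⁆, h, Subgroup.map_eq_bot_iff, hker]
    · exfalso
      apply hcl.ne
      rw [← Subgroup.map_comap_eq_self_of_surjective hπ ⁅E.map π, E.map π⁆, h]
  have hcomm : ∀ u ∈ E, ∀ w ∈ E, u * w * u⁻¹ * w⁻¹ ∈ center G := by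
    intro u hu w hw
    have h1 : π (u * w * u⁻¹ * w⁻¹) ∈ ⁅E.map π, E.map π⁆ := by
      rw [map_mul, map_mul, map_mul, map_inv, map_inv, ← commutatorElement_def]
      exact Subgroup.commutator_mem_commutator ⟨u, hu, rfl⟩ ⟨w, hw, rfl⟩
    rw [hcb, mem_bot, ← MonoidHom.mem_ker, hker] at h1
    exact h1
  have hcent : ∀ w ∈ E, (∀ u ∈ E, u * w = w * u) → w ∈ center G := by
    intro w hw h
    refine hab (E ⊓ centralizer (E : Set G)) ?_ ?_ (mem_inf.2 ⟨hw, mem_centralizer_iff.2 h⟩)
    · infer_instance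
    · intro a ha b hb
      exact mem_centralizer_iff.1 (mem_inf.1 hb).2 a (mem_inf.1 ha).1
  -- a prime divisor of `|E / Z|`
  have hcard : Nat.card (E.map π) ≠ 1 := fun h => hEb (Subgroup.card_eq_one.1 h)
  obtain ⟨r, hr, hrd⟩ := Nat.exists_prime_and_dvd hcard
  have hfr : Fact r.Prime := ⟨hr⟩
  obtain ⟨e, he⟩ := exists_prime_orderOf_dvd_card' r hrd
  have hmulpow : ∀ a ∈ E, ∀ b ∈ E, (π a * π b) ^ r = π a ^ r * π b ^ r := by
    intro a ha b hb
    have h1 : Commute (π a) (π b) := by
      have h2 : π (a * b * a⁻¹ * b⁻¹) = 1 := by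
        rw [← MonoidHom.mem_ker, hker]
        exact hcomm a ha b hb
      rw [commute_iff_eq, ← map_mul, ← map_mul]
      have h3 : a * b = (a * b * a⁻¹ * b⁻¹) * (b * a) := by group
      rw [h3, map_mul, h2, one_mul]
    exact h1.mul_pow r
  have hmem : ∀ g : G, g ∈ center G ↔ π g = 1 := fun g => by rw [← MonoidHom.mem_ker, hker]
  let N : Subgroup G :=
    { carrier := {g | g ∈ E ∧ g ^ r ∈ center G}
      one_mem' := ⟨E.one_mem, by rw [one_pow]; exact one_mem _⟩
      mul_mem' := by
        rintro a b ⟨ha, ha'⟩ ⟨hb, hb'⟩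
        refine ⟨mul_mem ha hb, ?_⟩
        rw [hmem, map_pow] at ha' hb' ⊢
        rw [map_mul, hmulpow a ha b hb, ha', hb', one_mul]
      inv_mem' := by
        rintro a ⟨ha, ha'⟩
        exact ⟨inv_mem ha, by rw [inv_pow]; exact inv_mem ha'⟩ }
  have hNn : N.Normal := by
    refine ⟨?_⟩
    rintro n ⟨hn, hn'⟩ g
    refine ⟨hEn.conj_mem n hn g, ?_⟩
    rw [conj_pow]
    exact (inferInstance : (center G).Normal).conj_mem _ hn' g
  have hpow : ∀ u ∈ E, u ^ r ∈ center G := by
    rcases hmin N hNn (fun z hz => ⟨hZE hz, pow_mem hz r⟩) (fun g hg => hg.1) with h | h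
    · exfalso
      obtain ⟨g, hg, hge⟩ := e.2
      have h1 : g ∈ N := by
        refine ⟨hg, ?_⟩
        rw [hmem, map_pow, hge]
        have h2 : e ^ r = 1 := by rw [← he, pow_orderOf_eq_one]
        exact congrArg Subtype.val h2
      rw [h, hmem, hge] at h1
      have h2 : e = 1 := Subtype.ext h1
      rw [h2, orderOf_one] at he
      exact hr.one_lt.ne he
    · intro u hu
      rw [← h] at hu
      exact hu.2
  exact ⟨E, r, hr, hEn, hZE, hnle, hcomm, hpow, hcent, hmin⟩

end Cfsg.Agent.H457.Half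
end

-- part: H457/Half/Index
section
/-!
# The action of an element of prime order on the class two section (helper457)

* `exists_sq` : `|P / Z(P)|` is a square if `P` has class two and cyclic centre;
* `index_le` : `(p - 1)² |D| ≤ |E|`, `D / Z = C_{E / Z}(y)`, `y` of order `p ≠ r`.
-/

set_option autoImplicit false

namespace Cfsg.Agent.H457.Half

open Subgroup

/-- `|P : Z(P)|` is a square -/
theorem exists_sq {P : Type*} [Group P] [Finite P] (hc : commutator P ≤ center P) (hcyc : IsCyclic (center P)) :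
    ∃ s : ℕ, Nat.card P = s ^ 2 * Nat.card (center P) := by
  classical
  -- a maximal abelian subgroup
  let S : Set (Subgroup P) := {H | center P ≤ H ∧ ∀ a ∈ H, ∀ b ∈ H, a * b = b * a}
  have hS : S.Nonempty := ⟨center P, le_rfl, fun z _ w hw => mem_center_iff.1 hw z⟩
  obtain ⟨H, hH, hmax⟩ := Set.exists_max_image S (fun H => Nat.card H) (Set.toFinite S) hS
  have hcH : centralizer (H : Set P) = H := by
    apply le_antisymm
    · intro c hc'
      let H' : Subgroup P := closure ((H : Set P) ∪ {c})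
      have hcomm : ∀ a ∈ (H : Set P) ∪ {c}, ∀ b ∈ (H : Set P) ∪ {c}, a * b = b * a := by
        rintro a (ha | ha) b (hb | hb)
        · exact hH.2 a ha b hb
        · rw [Set.mem_singleton_iff.1 hb]
          exact mem_centralizer_iff.1 hc' a ha
        · rw [Set.mem_singleton_iff.1 ha]
          exact (mem_centralizer_iff.1 hc' b hb).symm
        · rw [Set.mem_singleton_iff.1 ha, Set.mem_singleton_iff.1 hb]
      have hH'c : ∀ a ∈ H', ∀ b ∈ H', a * b = b * a := by
        have h1 := Subgroup.isMulCommutative_closure hcomm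
        intro a ha b hb
        exact congrArg Subtype.val (h1.is_comm.comm ⟨a, ha⟩ ⟨b, hb⟩)
      have hle : H ≤ H' := fun x hx => subset_closure (Or.inl hx)
      have h2 := hmax H' ⟨hH.1.trans hle, hH'c⟩
      have h3 : H = H' := Subgroup.eq_of_le_of_card_ge hle h2
      rw [h3]
      exact subset_closure (Or.inr rfl)
    · intro x hx
      exact mem_centralizer_iff.2 fun y hy => hH.2 y hy x hx
  have h1 := Lib.ClassTwoDuality.card_centralizer_mul_card hc hcyc H hH.1
  rw [hcH] at h1
  obtain ⟨s, hs⟩ := Subgroup.card_dvd_of_le hH.1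
  refine ⟨s, ?_⟩
  rw [hs] at h1
  have h2 : 0 < Nat.card (center P) := Nat.card_pos
  have h3 : Nat.card P * Nat.card (center P) = s ^ 2 * Nat.card (center P) * Nat.card (center P) := by
    rw [← h1]; ring
  exact Nat.eq_of_mul_eq_mul_right h2 h3

variable {G : Type*} [Group G] [Finite G]

/-- `|D : Z|` is a square for a subgroup `D` of class two with centre `Z` -/
theorem exists_sq_sub (hcyc : IsCyclic (center G)) (D : Subgroup G) (hZ : center G ≤ D)
    (hcomm : ∀ u ∈ D, ∀ w ∈ D, u * w * u⁻¹ * w⁻¹ ∈ center G)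
    (hcent : ∀ w ∈ D, (∀ u ∈ D, u * w = w * u) → w ∈ center G) :
    ∃ s : ℕ, Nat.card D = s ^ 2 * Nat.card (center G) := by
  have hce : center D = (center G).subgroupOf D := by
    ext z
    rw [mem_center_iff, mem_subgroupOf]
    constructor
    · intro h
      exact hcent z z.2 fun u hu => congrArg Subtype.val (h ⟨u, hu⟩)
    · intro h g
      exact Subtype.ext (mem_center_iff.1 h g)
  have e : center D ≃* center G := (MulEquiv.subgroupCongr hce).trans (subgroupOfEquivOfLe hZ)
  have hcyc' : IsCyclic (center D) := isCyclic_of_surjective e.symm.toMonoidHom e.symm.surjective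
  have hc : commutator D ≤ center D := by
    rw [commutator_def, Subgroup.commutator_le]
    intro a _ b _
    rw [hce, mem_subgroupOf, commutatorElement_def]
    exact hcomm a a.2 b b.2
  obtain ⟨s, hs⟩ := exists_sq hc hcyc'
  exact ⟨s, by rw [hs, Nat.card_congr e.toEquiv]⟩

/-- the elements of `E` commuting with `y` modulo the centre -/
def cen (E : Subgroup G) (y : G) : Subgroup G :=
  E ⊓ (centralizer ({QuotientGroup.mk' (center G) y} : Set (G ⧸ center G))).comap (QuotientGroup.mk' (center G))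

omit [Finite G] in
theorem mem_cen {E : Subgroup G} {y w : G} : w ∈ cen E y ↔ w ∈ E ∧ y * w * y⁻¹ * w⁻¹ ∈ center G := by
  rw [cen, mem_inf, mem_comap, mem_centralizer_singleton_iff]
  refine and_congr_right fun _ => ?_
  rw [← map_mul, ← map_mul, eq_comm, QuotientGroup.mk'_eq_mk']
  constructor
  · rintro ⟨z, hz, h⟩
    have e : y * w * y⁻¹ * w⁻¹ = z⁻¹ := by
      have h1 : w * y = y * w * z := h.symm
      have h2 : y * w = w * y * z⁻¹ := by rw [h1]; group
      have hz' : z⁻¹ * (y⁻¹ * w⁻¹) = (y⁻¹ * w⁻¹) * z⁻¹ := (mem_center_iff.1 (inv_mem hz) _).symm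
      calc y * w * y⁻¹ * w⁻¹ = w * y * (z⁻¹ * (y⁻¹ * w⁻¹)) := by rw [h2]; group
        _ = w * y * ((y⁻¹ * w⁻¹) * z⁻¹) := by rw [hz']
        _ = z⁻¹ := by group
    rw [e]
    exact inv_mem hz
  · intro h
    refine ⟨(y * w * y⁻¹ * w⁻¹)⁻¹, inv_mem h, ?_⟩
    have hz := mem_center_iff.1 (inv_mem h) (y * w)
    rw [hz]
    group

theorem card_map_mk (D : Subgroup G) (hD : center G ≤ D) :
    Nat.card D = Nat.card (center G) * Nat.card (D.map (QuotientGroup.mk' (center G))) := by
  have h1 := Subgroup.relIndex_mul_relIndex (⊥ : Subgroup G) (center G) D bot_le hD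
  rw [Subgroup.relIndex_bot_left, Subgroup.relIndex_bot_left] at h1
  have h2 := Subgroup.relIndex_ker (K := D) (QuotientGroup.mk' (center G))
  rw [QuotientGroup.ker_mk'] at h2
  rw [← h1, h2]

/-- `C_{E / Z}(y) ≠ E / Z` -/
theorem ESec.not_le_centralizer {E : Subgroup G} {r : ℕ} (h : ESec E r) {y : G}
    (hgen : normalClosure ({y} : Set G) = ⊤) :
    ¬ E.map (QuotientGroup.mk' (center G)) ≤ centralizer ({QuotientGroup.mk' (center G) y} : Set (G ⧸ center G)) := by
  intro hle
  -- `E / Z` is central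
  have hEn := h.normal
  have hcen : ∀ e ∈ E, ∀ g : G, g * e * g⁻¹ * e⁻¹ ∈ center G := by
    intro e he g
    have h1 : (⊤ : Subgroup G) ≤ (centralizer (E.map (QuotientGroup.mk' (center G)) : Set (G ⧸ center G))).comap
        (QuotientGroup.mk' (center G)) := by
      rw [← hgen]
      have hEm : (E.map (QuotientGroup.mk' (center G))).Normal := hEn.map _ (QuotientGroup.mk'_surjective _)
      refine Subgroup.normalClosure_le_normal ?_
      rw [Set.singleton_subset_iff]
      change QuotientGroup.mk' (center G) y ∈ centralizer _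
      rw [mem_centralizer_iff]
      intro x hx
      exact mem_centralizer_singleton_iff.1 (hle hx)
    have h2 := mem_centralizer_iff.1 (h1 (mem_top g)) (QuotientGroup.mk' (center G) e) ⟨e, he, rfl⟩
    have h3 : e ∈ cen E g := by
      rw [cen, mem_inf, mem_comap, mem_centralizer_singleton_iff]
      exact ⟨he, h2⟩
    exact (mem_cen.1 h3).2
  -- `⟨e⟩ Z` is normal
  obtain ⟨e, he, hez⟩ := SetLike.not_le_iff_exists.1 h.not_le
  let N : Subgroup G := zpowers e ⊔ center G
  have hmemN : ∀ x, x ∈ N ↔ ∃ n : ℤ, ∃ z ∈ center G, x = e ^ n * z := by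
    intro x
    constructor
    · intro hx
      obtain ⟨a, ha, z, hz, h⟩ := (Subgroup.mem_sup_of_normal_right).1 hx
      obtain ⟨n, hn⟩ := mem_zpowers_iff.1 ha
      exact ⟨n, z, hz, by rw [hn, h]⟩
    · rintro ⟨n, z, hz, rfl⟩
      exact mul_mem (mem_sup_left (zpow_mem (mem_zpowers e) n)) (mem_sup_right hz)
  have hNn : N.Normal := by
    refine ⟨?_⟩
    intro x hx g
    obtain ⟨n, z, hz, rfl⟩ := (hmemN x).1 hx
    have h1 : g * (e ^ n * z) * g⁻¹ = (g * e ^ n * g⁻¹ * (e ^ n)⁻¹) * (e ^ n * z) := by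
      have hz' := mem_center_iff.1 hz g⁻¹
      calc g * (e ^ n * z) * g⁻¹ = g * e ^ n * (z * g⁻¹) := by group
        _ = g * e ^ n * (g⁻¹ * z) := by rw [hz']
        _ = (g * e ^ n * g⁻¹ * (e ^ n)⁻¹) * (e ^ n * z) := by group
    rw [h1]
    exact mul_mem (mem_sup_right (hcen _ (zpow_mem he n) g)) hx
  rcases h.min N hNn le_sup_right (sup_le (zpowers_le.2 he) h.center_le) with h1 | h1
  · apply hez
    rw [← h1]
    exact mem_sup_left (mem_zpowers e)
  · apply h.not_le
    intro w hw
    refine h.cent w hw fun u hu => ?_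
    rw [← h1] at hw hu
    obtain ⟨n, z, hz, rfl⟩ := (hmemN w).1 hw
    obtain ⟨m, t, ht, rfl⟩ := (hmemN u).1 hu
    have c1 : Commute (e ^ m) (e ^ n) := (Commute.refl e).zpow_zpow m n
    have c2 : ∀ g, Commute g z := fun g => mem_center_iff.1 hz g
    have c3 : ∀ g, Commute g t := fun g => mem_center_iff.1 ht g
    exact ((c1.mul_right (c2 _)).mul_left ((c3 (e ^ n * z)).symm)).eq

/-- `y` centralizes `cen E y` (`p ≠ r`) -/
theorem ESec.commute_cen {E : Subgroup G} {r : ℕ} (h : ESec E r) {p : ℕ} (hcop : p.Coprime r)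
    {y : G} (hy : y ^ p = 1) {w : G} (hw : w ∈ cen E y) : y * w = w * y := by
  obtain ⟨hwE, hz⟩ := mem_cen.1 hw
  set z := y * w * y⁻¹ * w⁻¹ with hzd
  have hzc : ∀ g, z * g = g * z := fun g => (mem_center_iff.1 hz g).symm
  have h1 : y * w = z * w * y := by rw [hzd]; group
  have h2 : z ^ p = 1 := by
    have h3 := pow_mul_eq hzc h1 p
    rw [hy, one_mul, mul_one] at h3
    exact (mul_eq_right.1 h3.symm)
  have h4 : z ^ r = 1 := by
    have h5 : w * y = z⁻¹ * y * w := by
      have : y * w = z * (w * y) := by rw [← mul_assoc]; exact h1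
      rw [mul_assoc, this, inv_mul_cancel_left]
    have hzc' : ∀ g, z⁻¹ * g = g * z⁻¹ := fun g => (mem_center_iff.1 (inv_mem hz) g).symm
    have h6 := pow_mul_eq hzc' h5 r
    have h7 : w ^ r * y = y * w ^ r := (mem_center_iff.1 (h.pow w hwE) y).symm
    rw [h7, mul_assoc] at h6
    have h8 := (mul_eq_right.1 h6.symm)
    rw [inv_pow, inv_eq_one] at h8
    exact h8
  have h5 : z = 1 := by
    rw [← orderOf_eq_one_iff]
    exact Nat.eq_one_of_dvd_coprimes hcop (orderOf_dvd_of_pow_eq_one h2) (orderOf_dvd_of_pow_eq_one h4)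
  rw [h1, h5, one_mul]

/-- the centre of `cen E y` is the centre of `G` (`p ≠ r`) -/
theorem ESec.cent_cen {E : Subgroup G} {r : ℕ} (h : ESec E r) {p : ℕ} (hcop : p.Coprime r)
    {y : G} (hy : y ^ p = 1) {z : G} (hz : z ∈ cen E y) (hzc : ∀ u ∈ cen E y, u * z = z * u) : z ∈ center G := by
  have hzE := (mem_cen.1 hz).1
  have hzy : y * z = z * y := h.commute_cen hcop hy hz
  have hEn := h.normal
  refine h.cent z hzE fun e he => ?_
  -- `(e y) ^ p ∈ cen E y`
  have hN : (e * y) ^ p ∈ cen E y := by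
    rw [mem_cen]
    have hNE : (e * y) ^ p ∈ E := by
      rw [← QuotientGroup.eq_one_iff, QuotientGroup.mk_pow, QuotientGroup.mk_mul, (QuotientGroup.eq_one_iff e).2 he,
        one_mul, ← QuotientGroup.mk_pow, hy, QuotientGroup.mk_one]
    refine ⟨hNE, ?_⟩
    have h1 : y * (e * y) ^ p * y⁻¹ * ((e * y) ^ p)⁻¹ = e⁻¹ * (e * y) ^ p * e⁻¹⁻¹ * ((e * y) ^ p)⁻¹ := by
      have h2 : y * (e * y) ^ p * y⁻¹ = e⁻¹ * (e * y) ^ p * e⁻¹⁻¹ := by
        rw [← conj_pow, ← conj_pow]
        congr 1
        group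
      rw [h2]
    rw [h1]
    exact h.comm _ (inv_mem he) _ hNE
  have h1 := hzc _ hN
  -- `z e z⁻¹ = c e`
  have hc := h.comm z hzE e he
  set c := z * e * z⁻¹ * e⁻¹ with hcd
  have hcc : ∀ g, c * g = g * c := fun g => (mem_center_iff.1 hc g).symm
  have h2 : z * e = c * e * z := by rw [hcd]; group
  have hcp : c ^ p = 1 := by
    -- `(e y) z = c⁻¹ z (e y)`
    have h3 : e * y * z = c⁻¹ * z * (e * y) := by
      have hci := mem_center_iff.1 (inv_mem hc) z
      calc e * y * z = e * (y * z) := by group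
        _ = e * (z * y) := by rw [hzy]
        _ = c⁻¹ * (c * e * z) * y := by group
        _ = c⁻¹ * (z * e) * y := by rw [h2]
        _ = c⁻¹ * z * (e * y) := by group
    have hcc' : ∀ g, c⁻¹ * g = g * c⁻¹ := fun g => (mem_center_iff.1 (inv_mem hc) g).symm
    have h4 := pow_mul_eq hcc' h3 p
    rw [h1, mul_assoc] at h4
    have h5 := mul_eq_right.1 h4.symm
    rw [inv_pow, inv_eq_one] at h5
    exact h5
  have hcr : c ^ r = 1 := by
    have h3 : e * z = c⁻¹ * z * e := by
      rw [mul_assoc, h2, mul_assoc, inv_mul_cancel_left]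
    have hcc' : ∀ g, c⁻¹ * g = g * c⁻¹ := fun g => (mem_center_iff.1 (inv_mem hc) g).symm
    have h4 := pow_mul_eq hcc' h3 r
    have h5 : e ^ r * z = z * e ^ r := (mem_center_iff.1 (h.pow e he) z).symm
    rw [h5, mul_assoc] at h4
    have h6 := mul_eq_right.1 h4.symm
    rw [inv_pow, inv_eq_one] at h6
    exact h6
  have hc1 : c = 1 := by
    rw [← orderOf_eq_one_iff]
    exact Nat.eq_one_of_dvd_coprimes hcop (orderOf_dvd_of_pow_eq_one hcp) (orderOf_dvd_of_pow_eq_one hcr)
  rw [h2, hc1, one_mul]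

/-- **the index**, `p ≠ r` -/
theorem ESec.index_le {E : Subgroup G} {r : ℕ} (hr : r.Prime) (h : ESec E r) (hcyc : IsCyclic (center G))
    {p : ℕ} [hp : Fact p.Prime] (hpr : p ≠ r) {y : G} (hy : orderOf y = p)
    (hgen : normalClosure ({y} : Set G) = ⊤) : (p - 1) ^ 2 * Nat.card (cen E y) ≤ Nat.card E := by
  have hcop : p.Coprime r := (Nat.coprime_primes hp.out hr).2 hpr
  have hyp : y ^ p = 1 := by rw [← hy, pow_orderOf_eq_one]
  have hEn := h.normal
  have hZE := h.center_le
  have hZD : center G ≤ cen E y := by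
    intro z hz
    rw [mem_cen]
    refine ⟨hZE hz, ?_⟩
    have e : y * z * y⁻¹ * z⁻¹ = 1 := by
      rw [mem_center_iff.1 hz y]; group
    rw [e]
    exact one_mem _
  obtain ⟨s, hs⟩ := exists_sq_sub hcyc E hZE h.comm h.cent
  obtain ⟨t, ht⟩ := exists_sq_sub hcyc (cen E y) hZD
    (fun u hu w hw => h.comm u (mem_cen.1 hu).1 w (mem_cen.1 hw).1) (fun w hw hc => h.cent_cen hcop hyp hw hc)
  have hZpos : 0 < Nat.card (center G) := Nat.card_pos
  have hle : cen E y ≤ E := inf_le_left
  -- `t ∣ s`
  have hts : t ∣ s := by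
    have h1 : t ^ 2 * Nat.card (center G) ∣ s ^ 2 * Nat.card (center G) := by
      rw [← hs, ← ht]
      exact Subgroup.card_dvd_of_le hle
    exact (Nat.pow_dvd_pow_iff two_ne_zero).1 (Nat.dvd_of_mul_dvd_mul_right hZpos h1)
  obtain ⟨a, ha⟩ := hts
  have htpos : 0 < t := by
    rcases Nat.eq_zero_or_pos t with h1 | h1
    · rw [h1, zero_pow two_ne_zero, zero_mul] at ht
      exact absurd ht Nat.card_pos.ne'
    · exact h1
  -- orders modulo `Z`
  have hEm : Nat.card (E.map (QuotientGroup.mk' (center G))) = s ^ 2 := by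
    have h1 := card_map_mk E hZE
    rw [hs, mul_comm] at h1
    exact (Nat.eq_of_mul_eq_mul_left hZpos h1).symm
  have hDm : Nat.card ((cen E y).map (QuotientGroup.mk' (center G))) = t ^ 2 := by
    have h1 := card_map_mk (cen E y) hZD
    rw [ht, mul_comm] at h1
    exact (Nat.eq_of_mul_eq_mul_left hZpos h1).symm
  have hDeq : (cen E y).map (QuotientGroup.mk' (center G)) = E.map (QuotientGroup.mk' (center G)) ⊓
      centralizer ({QuotientGroup.mk' (center G) y} : Set (G ⧸ center G)) := by
    apply le_antisymm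
    · rintro _ ⟨w, hw, rfl⟩
      rw [cen] at hw
      obtain ⟨h1, h2⟩ := mem_inf.1 hw
      exact mem_inf.2 ⟨⟨w, h1, rfl⟩, h2⟩
    · rintro _ hw
      obtain ⟨⟨w, h1, rfl⟩, h2⟩ := mem_inf.1 hw
      exact ⟨w, mem_inf.2 ⟨h1, h2⟩, rfl⟩
  have hEmn : (E.map (QuotientGroup.mk' (center G))).Normal := hEn.map _ (QuotientGroup.mk'_surjective _)
  -- the order of the image of `y`
  have hnc := h.not_le_centralizer hgen
  have hy' : orderOf (QuotientGroup.mk' (center G) y) = p := by
    have h1 : orderOf (QuotientGroup.mk' (center G) y) ∣ p := hy ▸ orderOf_map_dvd _ y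
    rcases (Nat.dvd_prime hp.out).1 h1 with h2 | h2
    · exfalso
      apply hnc
      rw [orderOf_eq_one_iff] at h2
      rw [h2]
      intro x _
      rw [mem_centralizer_singleton_iff, mul_one, one_mul]
    · exact h2
  have hmod := card_modEq_centralizer (A := E.map (QuotientGroup.mk' (center G))) hy'
  rw [← hDeq, hEm, hDm] at hmod
  -- `p ∤ t`
  have hpt : ¬ p ∣ t := by
    intro hpt
    have h1 : p ∣ Nat.card (E.map (QuotientGroup.mk' (center G))) := by
      rw [hEm, ha]
      exact (hpt.trans (dvd_mul_right t a)).trans (dvd_pow_self _ two_ne_zero)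
    obtain ⟨x, hx⟩ := exists_prime_orderOf_dvd_card' p h1
    obtain ⟨e, he, hex⟩ := x.2
    have h2 : x ^ r = 1 := by
      apply Subtype.ext
      change (x : G ⧸ center G) ^ r = 1
      rw [← hex, ← map_pow]
      exact (QuotientGroup.eq_one_iff _).2 (h.pow e he)
    have h3 := orderOf_dvd_of_pow_eq_one h2
    rw [hx] at h3
    exact hpr ((Nat.prime_dvd_prime_iff_eq hp.out hr).1 h3)
  have ha1 : a ≠ 1 := by
    rintro rfl
    apply hnc
    have h1 : (cen E y).map (QuotientGroup.mk' (center G)) = E.map (QuotientGroup.mk' (center G)) := by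
      refine Subgroup.eq_of_le_of_card_ge (Subgroup.map_mono hle) ?_
      rw [hEm, hDm, ha, mul_one]
    rw [← h1, hDeq]
    exact inf_le_right
  have ha0 : a ≠ 0 := by
    rintro rfl
    rw [mul_zero] at ha
    rw [ha, zero_pow two_ne_zero, zero_mul] at hs
    exact absurd hs Nat.card_pos.ne'
  have hmod2 : a ^ 2 ≡ 1 [MOD p] := by
    have h1 : Nat.gcd p (t ^ 2) = 1 := ((Nat.Prime.coprime_iff_not_dvd hp.out).2 hpt).pow_right 2
    refine Nat.ModEq.cancel_left_of_coprime h1 ?_
    rw [mul_one, ← mul_pow, ← ha]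
    exact hmod
  have hdvd : p ∣ (a - 1) * (a + 1) := by
    have h1 : p ∣ a ^ 2 - 1 := (Nat.modEq_iff_dvd' (Nat.one_le_pow _ _ (Nat.pos_of_ne_zero ha0))).1 hmod2.symm
    have h2 : a ^ 2 - 1 = (a - 1) * (a + 1) := by
      rw [mul_comm, ← one_pow 2]
      simpa using Nat.sq_sub_sq a 1
    rwa [h2] at h1
  have hpa : p - 1 ≤ a := by
    rcases hp.out.dvd_mul.1 hdvd with h1 | h1
    · have := Nat.le_of_dvd (by omega) h1
      omega
    · have := Nat.le_of_dvd (by omega) h1
      omega
  calc (p - 1) ^ 2 * Nat.card (cen E y) ≤ a ^ 2 * Nat.card (cen E y) :=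
        Nat.mul_le_mul_right _ (Nat.pow_le_pow_left hpa 2)
    _ = Nat.card E := by rw [hs, ht, ha]; ring

end Cfsg.Agent.H457.Half
end

-- part: H457/Half/Commutant
section
/-!
# The dimension of the commutant of a linear map (helper457)

`comm T` : the space of linear maps commuting with `T`.

* `sq_add_finrank_comm_le` : `b² + dim comm (T | range (T - λ)) ≤ dim comm T`, `b = dim ker (T - λ)`;
* `sq_finrank_le` : `n² ≤ q dim comm T` if `f(T) = 0` with `f` of degree `q`, over an algebraically closed field;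
* `main` : if `T ^ p = 1`, then `(n - b)² ≤ (p - 1) (dim comm T - b²)`, `b = dim ker (T - 1)`.
-/

set_option autoImplicit false

namespace Cfsg.Agent.H457.Half

open Module Polynomial

/-- the maps commuting with `T` -/
def comm {k V : Type*} [Field k] [AddCommGroup V] [Module k V] (T : V →ₗ[k] V) : Submodule k (V →ₗ[k] V) where
  carrier := {S | ∀ v, S (T v) = T (S v)}
  add_mem' := by
    intro a b ha hb v
    rw [LinearMap.add_apply, LinearMap.add_apply, ha v, hb v, map_add]
  zero_mem' := fun v => by simp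
  smul_mem' := by
    intro c a ha v
    rw [LinearMap.smul_apply, LinearMap.smul_apply, ha v, map_smul]

theorem mem_comm {k V : Type*} [Field k] [AddCommGroup V] [Module k V] {T S : V →ₗ[k] V} :
    S ∈ comm T ↔ ∀ v, S (T v) = T (S v) := Iff.rfl

variable {k : Type*} [Field k]

section step

variable {V : Type*} [AddCommGroup V] [Module k V]

/-- the restriction of `T` to the range of `T - c` -/
def restr (T : V →ₗ[k] V) (c : k) :
    LinearMap.range (T - c • LinearMap.id) →ₗ[k] LinearMap.range (T - c • LinearMap.id) :=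
  T.restrict (p := LinearMap.range (T - c • LinearMap.id)) (q := LinearMap.range (T - c • LinearMap.id)) (by
    rintro _ ⟨v, rfl⟩
    refine ⟨T v, ?_⟩
    simp)

theorem restr_apply (T : V →ₗ[k] V) (c : k) (v : LinearMap.range (T - c • LinearMap.id)) :
    ((restr T c v : LinearMap.range (T - c • LinearMap.id)) : V) = T v := rfl

/-- restriction of the commutant -/
def resComm (T : V →ₗ[k] V) (c : k) : comm T →ₗ[k] comm (restr T c) where
  toFun S := ⟨(S : V →ₗ[k] V).restrict (p := LinearMap.range (T - c • LinearMap.id))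
      (q := LinearMap.range (T - c • LinearMap.id)) (by
        rintro _ ⟨v, rfl⟩
        refine ⟨(S : V →ₗ[k] V) v, ?_⟩
        have h := S.2 v
        simp only [LinearMap.sub_apply, LinearMap.smul_apply, LinearMap.id_apply, map_sub, map_smul]
        rw [h]), by
    intro v
    apply Subtype.ext
    exact S.2 v⟩
  map_add' a b := by
    apply Subtype.ext
    ext v
    rfl
  map_smul' a b := by
    apply Subtype.ext
    ext v
    rfl

theorem resComm_surjective (T : V →ₗ[k] V) (c : k) : Function.Surjective (resComm T c) := by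
  intro S₁
  set N : V →ₗ[k] V := T - c • LinearMap.id with hN
  set R : Submodule k V := LinearMap.range N with hR
  -- `S₁` commutes with `N`
  have hS₁ : ∀ w : R, N ((S₁ : R →ₗ[k] R) w : V) = ((S₁ : R →ₗ[k] R) ⟨N w, ⟨w, rfl⟩⟩ : V) := by
    intro w
    have h1 : (⟨N w, ⟨w, rfl⟩⟩ : R) = restr T c w - c • w := by
      apply Subtype.ext
      change N w = T w - c • (w : V)
      rw [hN]; simp
    have h2 := S₁.2 w
    rw [h1, map_sub, map_smul, h2]
    change N _ = T _ - c • _
    rw [hN]; simp
  -- a section of `N`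
  obtain ⟨s, hs⟩ := (LinearMap.exists_rightInverse_of_surjective N.rangeRestrict (LinearMap.range_rangeRestrict N))
  have hs' : ∀ w : R, N (s w) = w := fun w => congrArg Subtype.val (LinearMap.congr_fun hs w)
  -- `S₀`
  let S₀ : V →ₗ[k] V := s.comp ((S₁ : R →ₗ[k] R).comp N.rangeRestrict)
  have hS₀ : ∀ v, N (S₀ v) = ((S₁ : R →ₗ[k] R) (N.rangeRestrict v) : V) := fun v => hs' _
  -- the defect
  let δ : R →ₗ[k] LinearMap.ker N :=
    { toFun := fun w => ⟨S₀ w - ((S₁ : R →ₗ[k] R) w : V), by
        rw [LinearMap.mem_ker, map_sub, hS₀, hS₁ w, sub_eq_zero]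
        rfl⟩
      map_add' := by
        intro a b
        apply Subtype.ext
        change S₀ ((a : V) + b) - (((S₁ : R →ₗ[k] R) (a + b) : R) : V) = (S₀ a - _) + (S₀ b - _)
        rw [map_add, map_add]
        push_cast
        abel
      map_smul' := by
        intro r a
        apply Subtype.ext
        change S₀ (r • (a : V)) - (((S₁ : R →ₗ[k] R) (r • a) : R) : V) = r • (S₀ a - _)
        rw [map_smul, map_smul]
        push_cast
        rw [smul_sub] }
  obtain ⟨δ', hδ'⟩ := LinearMap.exists_extend δ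
  have hδ'' : ∀ w : R, ((δ' w : LinearMap.ker N) : V) = S₀ w - ((S₁ : R →ₗ[k] R) w : V) := fun w =>
    congrArg Subtype.val (LinearMap.congr_fun hδ' w)
  let S : V →ₗ[k] V := S₀ - (LinearMap.ker N).subtype.comp δ'
  have hSR : ∀ w : R, S w = ((S₁ : R →ₗ[k] R) w : V) := by
    intro w
    change S₀ w - ((δ' w : LinearMap.ker N) : V) = _
    rw [hδ'']
    abel
  have hNS : ∀ v, N (S v) = ((S₁ : R →ₗ[k] R) (N.rangeRestrict v) : V) := by
    intro v
    change N (S₀ v - ((δ' v : LinearMap.ker N) : V)) = _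
    rw [map_sub, LinearMap.mem_ker.1 (δ' v).2, sub_zero, hS₀]
  have hST : S ∈ comm T := by
    intro v
    have h1 : S (N v) = N (S v) := by
      rw [hNS v]
      exact hSR (N.rangeRestrict v)
    have h2 : ∀ u, T u = N u + c • u := by
      intro u
      rw [hN]; simp
    rw [h2 v, h2 (S v), map_add, map_smul, h1]
  refine ⟨⟨S, hST⟩, ?_⟩
  apply Subtype.ext
  ext w
  exact hSR w

theorem sq_finrank_ker_le [FiniteDimensional k V] (T : V →ₗ[k] V) (c : k) :
    finrank k (LinearMap.ker (T - c • LinearMap.id)) ^ 2 ≤ finrank k (LinearMap.ker (resComm T c)) := by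
  set N : V →ₗ[k] V := T - c • LinearMap.id with hN
  have hdim : finrank k (V ⧸ LinearMap.range N) = finrank k (LinearMap.ker N) := by
    have h1 := Submodule.finrank_quotient_add_finrank (LinearMap.range N)
    have h2 := LinearMap.finrank_range_add_finrank_ker N
    omega
  let Φ : ((V ⧸ LinearMap.range N) →ₗ[k] LinearMap.ker N) →ₗ[k] LinearMap.ker (resComm T c) :=
    { toFun := fun f => ⟨⟨(LinearMap.ker N).subtype.comp (f.comp (LinearMap.range N).mkQ), by
        intro v
        have h2 : ∀ u, T u = N u + c • u := by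
          intro u
          rw [hN]; simp
        change ((f ((LinearMap.range N).mkQ (T v)) : LinearMap.ker N) : V) =
          T ((f ((LinearMap.range N).mkQ v) : LinearMap.ker N) : V)
        rw [h2 v, map_add, h2 (f _ : V), LinearMap.mem_ker.1 (f _).2, zero_add, map_smul]
        have h3 : (LinearMap.range N).mkQ (N v) = 0 := by
          rw [Submodule.mkQ_apply, Submodule.Quotient.mk_eq_zero]
          exact ⟨v, rfl⟩
        rw [h3, zero_add, map_smul]
        rfl⟩, by
        rw [LinearMap.mem_ker]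
        apply Subtype.ext
        ext w
        change ((f ((LinearMap.range N).mkQ w) : LinearMap.ker N) : V) = 0
        have h3 : (LinearMap.range N).mkQ (w : V) = 0 := by
          rw [Submodule.mkQ_apply, Submodule.Quotient.mk_eq_zero]
          exact w.2
        rw [h3, map_zero]
        rfl⟩
      map_add' := by
        intro a b
        apply Subtype.ext
        apply Subtype.ext
        ext v
        rfl
      map_smul' := by
        intro a b
        apply Subtype.ext
        apply Subtype.ext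
        ext v
        rfl }
  have hΦ : Function.Injective Φ := by
    intro f g hfg
    apply LinearMap.ext
    intro q
    obtain ⟨v, rfl⟩ := (LinearMap.range N).mkQ_surjective q
    apply Subtype.ext
    have h1 := congrArg (fun z : LinearMap.ker (resComm T c) => ((z : comm T) : V →ₗ[k] V) v) hfg
    exact h1
  have h1 := LinearMap.finrank_le_finrank_of_injective hΦ
  rw [Module.finrank_linearMap, hdim] at h1
  rw [pow_two]
  exact h1

/-- **the inductive step** -/
theorem sq_add_finrank_comm_le [FiniteDimensional k V] (T : V →ₗ[k] V) (c : k) :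
    finrank k (LinearMap.ker (T - c • LinearMap.id)) ^ 2 + finrank k (comm (restr T c)) ≤ finrank k (comm T) := by
  have h1 := LinearMap.finrank_range_add_finrank_ker (K := k) (V := comm T) (V₂ := comm (restr T c)) (resComm T c)
  have h2 : finrank k (LinearMap.range (resComm T c)) = finrank k (comm (restr T c)) := by
    rw [LinearMap.range_eq_top.2 (resComm_surjective T c), finrank_top]
  have h3 := sq_finrank_ker_le T c
  omega

end step

theorem arith {q c c₁ b m : ℕ} (h1 : b ^ 2 + c₁ ≤ c) (h2 : m ^ 2 ≤ q * c₁) : (b + m) ^ 2 ≤ (q + 1) * c := by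
  rcases Nat.eq_zero_or_pos q with rfl | hq
  · have hm : m = 0 := by
      have : m ^ 2 ≤ 0 := by simpa using h2
      exact pow_eq_zero_iff (two_ne_zero) |>.1 (Nat.le_zero.1 this)
    subst hm
    simp only [add_zero, zero_add, one_mul]
    omega
  · zify at *
    have hq' : (0 : ℤ) < q := by exact_mod_cast hq
    have h3 : (2 * b * m : ℤ) ≤ q * b ^ 2 + c₁ := by
      have h4 : (q : ℤ) * (2 * b * m) ≤ q * (q * b ^ 2 + c₁) := by nlinarith [sq_nonneg ((q : ℤ) * b - m)]
      exact le_of_mul_le_mul_left h4 hq'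
    nlinarith

/-- the factor `g` of `X ^ p - 1 = (X - 1) g` kills the restriction -/
theorem aeval_restr_eq_zero {V : Type*} [AddCommGroup V] [Module k V] (T : V →ₗ[k] V) (a : k) (g : k[X])
    (hT : aeval T ((X - C a) * g) = 0) : aeval (restr T a) g = 0 := by
  ext w
  obtain ⟨v, hv⟩ := w.2
  have h1 : ∀ h : k[X], ((aeval (restr T a) h w : LinearMap.range (T - a • LinearMap.id)) : V) = aeval T h w := by
    intro h
    induction h using Polynomial.induction_on' with
    | add p q hp hq =>
      rw [map_add, map_add, LinearMap.add_apply, LinearMap.add_apply, ← hp, ← hq]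
      rfl
    | monomial n r =>
      rw [aeval_monomial, aeval_monomial, Module.End.mul_apply, Module.End.mul_apply,
        Module.algebraMap_end_apply, Module.algebraMap_end_apply]
      push_cast
      congr 1
      clear hv hT
      induction n with
      | zero => simp
      | succ n ihn =>
        rw [pow_succ', pow_succ', Module.End.mul_apply, Module.End.mul_apply, restr_apply, ihn]
  rw [h1, LinearMap.zero_apply]
  have h2 := LinearMap.congr_fun hT v
  rw [mul_comm, map_mul, Module.End.mul_apply, LinearMap.zero_apply] at h2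
  have h3 : aeval T (X - C a) v = w := by
    rw [← hv, map_sub, aeval_X, aeval_C]
    rfl
  rw [h3] at h2
  rw [h2]
  rfl

/-- `n² ≤ q dim comm T` if `f(T) = 0`, `deg f = q` -/
theorem sq_finrank_le [IsAlgClosed k] (q : ℕ) : ∀ (V : Type*) [AddCommGroup V] [Module k V] [FiniteDimensional k V]
    (T : V →ₗ[k] V) (f : k[X]), f ≠ 0 → f.natDegree = q → aeval T f = 0 →
      finrank k V ^ 2 ≤ q * finrank k (comm T) := by
  induction q with
  | zero =>
    intro V _ _ _ T f hf hd hT
    rw [Polynomial.natDegree_eq_zero] at hd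
    obtain ⟨a, rfl⟩ := hd
    have ha : a ≠ 0 := by
      rintro rfl
      exact hf (by simp)
    rw [aeval_C] at hT
    have h1 : Subsingleton V := by
      refine subsingleton_of_forall_eq 0 fun v => ?_
      have h2 := LinearMap.congr_fun hT v
      rw [Module.algebraMap_end_apply, LinearMap.zero_apply, smul_eq_zero] at h2
      exact h2.resolve_left ha
    rw [finrank_zero_of_subsingleton]
    simp
  | succ q ih =>
    intro V _ _ _ T f hf hd hT
    obtain ⟨a, ha⟩ := IsAlgClosed.exists_root f (by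
      intro h
      rw [Polynomial.degree_eq_natDegree hf, hd] at h
      exact absurd h (by exact_mod_cast Nat.succ_ne_zero q))
    obtain ⟨g, rfl⟩ := Polynomial.dvd_iff_isRoot.2 ha
    have hg : g ≠ 0 := right_ne_zero_of_mul hf
    have hgd : g.natDegree = q := by
      rw [Polynomial.natDegree_mul (X_sub_C_ne_zero a) hg, natDegree_X_sub_C] at hd
      omega
    have h1 := ih (LinearMap.range (T - a • LinearMap.id)) (restr T a) g hg hgd (aeval_restr_eq_zero T a g hT)
    have h2 := sq_add_finrank_comm_le T a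
    have h3 := LinearMap.finrank_range_add_finrank_ker (T - a • LinearMap.id)
    have h4 := arith h2 h1
    rw [← h3, add_comm]
    exact h4

/-- **The commutant of a linear map of order `p`.** -/
theorem main [IsAlgClosed k] {V : Type*} [AddCommGroup V] [Module k V] [FiniteDimensional k V] (T : V →ₗ[k] V)
    {p : ℕ} (hp : 0 < p) (hT : T ^ p = 1) {b : ℕ} (hb : finrank k (LinearMap.ker (T - LinearMap.id)) = b) :
    b ≤ finrank k V ∧ b ^ 2 * (p - 1) + (finrank k V - b) ^ 2 ≤ (p - 1) * finrank k (comm T) := by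
  have hone : (1 : k) • (LinearMap.id : V →ₗ[k] V) = LinearMap.id := one_smul _ _
  have hb' : finrank k (LinearMap.ker (T - (1 : k) • LinearMap.id)) = b := by rw [hone, hb]
  have h2 := sq_add_finrank_comm_le T 1
  have h3 := LinearMap.finrank_range_add_finrank_ker (T - (1 : k) • LinearMap.id)
  -- the cofactor
  have hroot : (X ^ p - 1 : k[X]).IsRoot 1 := by simp
  obtain ⟨g, hg⟩ := Polynomial.dvd_iff_isRoot.2 hroot
  have hne : (X ^ p - 1 : k[X]) ≠ 0 := by
    rw [← C_1]
    exact X_pow_sub_C_ne_zero hp 1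
  have hdeg : (X ^ p - 1 : k[X]).natDegree = p := by
    rw [← C_1]
    exact natDegree_X_pow_sub_C
  have hg0 : g ≠ 0 := by
    rintro rfl
    rw [mul_zero] at hg
    exact hne hg
  have hgd : g.natDegree = p - 1 := by
    have h := hdeg
    rw [hg, Polynomial.natDegree_mul (X_sub_C_ne_zero 1) hg0, natDegree_X_sub_C] at h
    omega
  have h1 : finrank k (LinearMap.range (T - (1 : k) • LinearMap.id)) ^ 2 ≤ (p - 1) * finrank k (comm (restr T 1)) := by
    refine sq_finrank_le (p - 1) _ (restr T 1) g hg0 hgd (aeval_restr_eq_zero T 1 g ?_)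
    rw [← hg, map_sub, map_pow, aeval_X, map_one, hT, sub_self]
  rw [hb'] at h2 h3
  refine ⟨by omega, ?_⟩
  have h4 : finrank k V - b = finrank k (LinearMap.range (T - (1 : k) • LinearMap.id)) := by omega
  rw [h4]
  calc b ^ 2 * (p - 1) + finrank k (LinearMap.range (T - (1 : k) • LinearMap.id)) ^ 2
      ≤ b ^ 2 * (p - 1) + (p - 1) * finrank k (comm (restr T 1)) := Nat.add_le_add_left h1 _
    _ = (p - 1) * (b ^ 2 + finrank k (comm (restr T 1))) := by ring
    _ ≤ _ := Nat.mul_le_mul_left _ h2

end Cfsg.Agent.H457.Half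
end

-- part: H457/Half/Primitive
section
/-!
# Fixed spaces: the primitive case (helper457)

`E / Z(G)` a chief factor as in `ESec`; `End V` is the direct sum of the weight spaces of `E`, permuted by `P`.
-/

set_option autoImplicit false

namespace Cfsg.Agent.H457.Half

open Module Subgroup

section

variable {k G V : Type*} [Field k] [Group G] [AddCommGroup V] [Module k V]

theorem rho_injective (ρ : Representation k G V) (g : G) : Function.Injective (ρ g) := by
  intro u v huv
  have h := congrArg (ρ g⁻¹) huv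
  have h1 : ∀ u, ρ g⁻¹ (ρ g u) = u := by
    intro u
    rw [← Module.End.mul_apply, ← map_mul, inv_mul_cancel, map_one, Module.End.one_apply]
  rwa [h1, h1] at h

/-- central elements act as scalars -/
theorem exists_scalar [IsAlgClosed k] [FiniteDimensional k V] [Nontrivial V] {ρ : Representation k G V}
    (hirr : Irr ρ) {z : G} (hz : z ∈ center G) : ∃ c : k, ∀ v, ρ z v = c • v := by
  obtain ⟨μ, hμ⟩ := Module.End.exists_eigenvalue (ρ z : Module.End k V)
  refine ⟨μ, ?_⟩
  rcases hirr (Module.End.eigenspace (ρ z : Module.End k V) μ) (by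
    intro g u hu
    rw [Module.End.mem_eigenspace_iff] at hu ⊢
    have h1 : ρ z (ρ g u) = ρ g (ρ z u) := by
      rw [← Module.End.mul_apply, ← Module.End.mul_apply, ← map_mul, ← map_mul, mem_center_iff.1 hz g]
    rw [h1, hu, map_smul]) with h | h
  · exact absurd h hμ
  · intro v
    have h1 : v ∈ Module.End.eigenspace (ρ z : Module.End k V) μ := by rw [h]; trivial
    exact Module.End.mem_eigenspace_iff.1 h1

/-- the central character -/
theorem exists_centralChar [IsAlgClosed k] [FiniteDimensional k V] [Nontrivial V] {ρ : Representation k G V}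
    (hirr : Irr ρ) : ∃ ζ : center G →* k, ∀ (z : center G) v, ρ z v = ζ z • v := by
  have h := fun z : center G => exists_scalar hirr z.2
  choose c hc using h
  obtain ⟨v, hv⟩ := exists_ne (0 : V)
  refine ⟨{ toFun := c, map_one' := ?_, map_mul' := ?_ }, hc⟩
  · have h1 := hc 1 v
    rw [Subgroup.coe_one, map_one, Module.End.one_apply] at h1
    have h2 : (1 - c 1) • v = 0 := by rw [sub_smul, one_smul, ← h1, sub_self]
    rw [smul_eq_zero, sub_eq_zero] at h2
    exact (h2.resolve_right hv).symm
  · intro a b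
    have h1 := hc (a * b) v
    rw [Subgroup.coe_mul, map_mul, Module.End.mul_apply, hc b, map_smul, hc a, smul_smul] at h1
    have h2 : (c b * c a - c (a * b)) • v = 0 := by rw [sub_smul, h1, sub_self]
    rw [smul_eq_zero, sub_eq_zero] at h2
    rw [← h2.resolve_right hv, mul_comm]

end

/-- the data of the primitive case -/
structure Prim {k G V : Type*} [Field k] [Group G] [AddCommGroup V] [Module k V] (ρ : Representation k G V)
    (E : Subgroup G) (r : ℕ) (ζ : center G →* k) : Prop where
  sec : ESec E r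
  scal : ∀ (z : center G) v, ρ z v = ζ z • v
  inj : Function.Injective ζ

namespace Prim

variable {k G V : Type*} [Field k] [Group G] [AddCommGroup V] [Module k V] {ρ : Representation k G V}
  {E : Subgroup G} {r : ℕ} {ζ : center G →* k}

/-- the weight of `w` -/
def chi (h : Prim ρ E r ζ) (w : E) : Wt E k := fun u => ζ ⟨u * w * (u : G)⁻¹ * (w : G)⁻¹, h.sec.comm u u.2 w w.2⟩

variable (h : Prim ρ E r ζ)

include h

theorem ne_zero (z : center G) : ζ z ≠ 0 := by
  intro h0
  have h1 : ζ (z * z⁻¹) = 0 := by rw [map_mul, h0, zero_mul]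
  rw [mul_inv_cancel, map_one] at h1
  exact one_ne_zero h1

theorem chi_apply (w u : E) : h.chi w u = ζ ⟨u * w * (u : G)⁻¹ * (w : G)⁻¹, h.sec.comm u u.2 w w.2⟩ := rfl

theorem chi_ne_zero (w u : E) : h.chi w u ≠ 0 := h.ne_zero _

theorem chi_mul_left (w u u' : E) : h.chi w (u * u') = h.chi w u * h.chi w u' := by
  rw [chi_apply, chi_apply, chi_apply, ← map_mul]
  congr 1
  apply Subtype.ext
  change (u : G) * u' * w * ((u : G) * u')⁻¹ * (w : G)⁻¹ =
    (u * w * (u : G)⁻¹ * (w : G)⁻¹) * (u' * w * (u' : G)⁻¹ * (w : G)⁻¹)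
  have hc := mem_center_iff.1 (h.sec.comm u' u'.2 w w.2) (u : G)
  calc (u : G) * u' * w * ((u : G) * u')⁻¹ * (w : G)⁻¹
      = (u * (u' * w * (u' : G)⁻¹ * (w : G)⁻¹)) * w * (u : G)⁻¹ * (w : G)⁻¹ := by group
    _ = ((u' * w * (u' : G)⁻¹ * (w : G)⁻¹) * u) * w * (u : G)⁻¹ * (w : G)⁻¹ := by rw [hc]
    _ = (u' * w * (u' : G)⁻¹ * (w : G)⁻¹) * (u * w * (u : G)⁻¹ * (w : G)⁻¹) := by group
    _ = _ := (mem_center_iff.1 (h.sec.comm u' u'.2 w w.2) _).symm

theorem chi_mul_right (w w' u : E) : h.chi (w * w') u = h.chi w u * h.chi w' u := by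
  rw [chi_apply, chi_apply, chi_apply, ← map_mul]
  congr 1
  apply Subtype.ext
  change (u : G) * (w * w') * (u : G)⁻¹ * ((w : G) * w')⁻¹ =
    (u * w * (u : G)⁻¹ * (w : G)⁻¹) * (u * w' * (u : G)⁻¹ * (w' : G)⁻¹)
  have hc := mem_center_iff.1 (h.sec.comm u u.2 w' w'.2) (w : G)
  calc (u : G) * (w * w') * (u : G)⁻¹ * ((w : G) * w')⁻¹
      = u * w * (u : G)⁻¹ * (u * w' * (u : G)⁻¹ * (w' : G)⁻¹) * (w : G)⁻¹ := by group
    _ = u * w * (u : G)⁻¹ * ((u * w' * (u : G)⁻¹ * (w' : G)⁻¹) * (w : G)⁻¹) := by group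
    _ = u * w * (u : G)⁻¹ * ((w : G)⁻¹ * (u * w' * (u : G)⁻¹ * (w' : G)⁻¹)) := by
        rw [(mem_center_iff.1 (h.sec.comm u u.2 w' w'.2) (w : G)⁻¹)]
    _ = _ := by group

theorem chi_inv_mul (w u : E) : h.chi w⁻¹ u * h.chi w u = 1 := by
  rw [← chi_mul_right, inv_mul_cancel, chi_apply, ← map_one ζ]
  congr 1
  apply Subtype.ext
  change (u : G) * 1 * (u : G)⁻¹ * (1 : G)⁻¹ = 1
  group

theorem chi_one (u : E) : h.chi 1 u = 1 := by
  rw [chi_apply, ← map_one ζ]
  congr 1
  apply Subtype.ext
  change (u : G) * 1 * (u : G)⁻¹ * (1 : G)⁻¹ = 1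
  group

/-- `χ_w (u)` is `1` iff `u`, `w` commute -/
theorem chi_eq_one_iff (w u : E) : h.chi w u = 1 ↔ (u : G) * w = w * u := by
  rw [chi_apply, ← map_one ζ, h.inj.eq_iff, Subtype.ext_iff]
  change (u : G) * w * (u : G)⁻¹ * (w : G)⁻¹ = 1 ↔ _
  rw [mul_inv_eq_one, mul_inv_eq_iff_eq_mul]

theorem chi_eq_iff (w w' : E) : h.chi w = h.chi w' ↔ (w : G)⁻¹ * w' ∈ center G := by
  have h1 : ∀ u, h.chi w u = h.chi w' u ↔ h.chi (w⁻¹ * w') u = 1 := by
    intro u
    rw [chi_mul_right]
    have h2 := h.chi_inv_mul w u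
    have h3 := h.chi_ne_zero w u
    constructor
    · intro h4
      rw [← h4, h2]
    · intro h4
      have h5 : h.chi w⁻¹ u * h.chi w' u = h.chi w⁻¹ u * h.chi w u := by rw [h4, h2]
      exact (mul_left_cancel₀ (h.chi_ne_zero _ _) h5).symm
  constructor
  · intro h2
    refine h.sec.cent _ (mul_mem (inv_mem w.2) w'.2) fun u hu => ?_
    have h3 := (h1 ⟨u, hu⟩).1 (by rw [h2])
    exact (h.chi_eq_one_iff _ _).1 h3
  · intro h2
    funext u
    rw [h1, chi_eq_one_iff]
    exact mem_center_iff.1 h2 u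

/-- the action on weights -/
theorem smul_chi [E.Normal] (g : G) (w : E) : g • h.chi w = h.chi (MulAut.conjNormal g w) := by
  funext u
  rw [wt_smul, chi_apply, chi_apply]
  congr 1
  apply Subtype.ext
  change ((MulAut.conjNormal g⁻¹ u : E) : G) * w * ((MulAut.conjNormal g⁻¹ u : E) : G)⁻¹ * (w : G)⁻¹ =
    u * (MulAut.conjNormal g w : E) * (u : G)⁻¹ * ((MulAut.conjNormal g w : E) : G)⁻¹
  have hc := h.sec.comm (MulAut.conjNormal g⁻¹ u : E) (MulAut.conjNormal g⁻¹ u : E).2 w w.2
  have h1 := mem_center_iff.1 hc g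
  rw [MulAut.conjNormal_apply, MulAut.conjNormal_apply] at *
  calc g⁻¹ * u * g⁻¹⁻¹ * w * (g⁻¹ * u * g⁻¹⁻¹)⁻¹ * (w : G)⁻¹
      = g⁻¹ * (g * (g⁻¹ * u * g⁻¹⁻¹ * w * (g⁻¹ * u * g⁻¹⁻¹)⁻¹ * (w : G)⁻¹)) := by group
    _ = g⁻¹ * (g⁻¹ * u * g⁻¹⁻¹ * w * (g⁻¹ * u * g⁻¹⁻¹)⁻¹ * (w : G)⁻¹ * g) := by rw [h1]
    _ = (g⁻¹ * (g⁻¹ * u * g⁻¹⁻¹ * w * (g⁻¹ * u * g⁻¹⁻¹)⁻¹ * (w : G)⁻¹)) * g := by group
    _ = ((g⁻¹ * u * g⁻¹⁻¹ * w * (g⁻¹ * u * g⁻¹⁻¹)⁻¹ * (w : G)⁻¹) * g⁻¹) * g := by
        rw [mem_center_iff.1 hc g⁻¹]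
    _ = g * (g⁻¹ * u * g⁻¹⁻¹ * w * (g⁻¹ * u * g⁻¹⁻¹)⁻¹ * (w : G)⁻¹) * g⁻¹ := by rw [h1]; group
    _ = _ := by group

/-- the order of `E` is not divisible by the characteristic -/
theorem card_ne_zero [Finite G] : (Nat.card E : k) ≠ 0 := by
  intro h0
  obtain ⟨ℓ, hℓ⟩ := CharP.exists k
  have hd : ℓ ∣ Nat.card E := (CharP.cast_eq_zero_iff k ℓ _).1 h0
  have hℓ0 : ℓ ≠ 0 := by
    rintro rfl
    exact Nat.card_pos.ne' (zero_dvd_iff.1 hd)
  have hℓp : ℓ.Prime := (CharP.char_is_prime_or_zero k ℓ).resolve_right hℓ0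
  have hf : Fact ℓ.Prime := ⟨hℓp⟩
  obtain ⟨e, he⟩ := exists_prime_orderOf_dvd_card' ℓ hd
  have hroot : ∀ x : k, x ^ ℓ = 1 → x = 1 := by
    intro x hx
    have h1 : (x - 1) ^ ℓ = 0 := by rw [sub_pow_char, hx, one_pow, sub_self]
    exact sub_eq_zero.1 (pow_eq_zero_iff hℓ0 |>.1 h1)
  have hpow : ∀ (n : ℕ) (u : E), h.chi u (e ^ n) = h.chi u e ^ n := by
    intro n u
    induction n with
    | zero =>
      rw [pow_zero, pow_zero, chi_eq_one_iff]
      simp
    | succ n ih => rw [pow_succ, chi_mul_left, ih, pow_succ]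
  have he1 : e ^ ℓ = 1 := by rw [← he, pow_orderOf_eq_one]
  have hcomm : ∀ u : E, h.chi u e = 1 := by
    intro u
    apply hroot
    rw [← hpow, he1, chi_eq_one_iff]
    simp
  have hec : (e : G) ∈ center G := by
    refine h.sec.cent e e.2 fun u hu => ?_
    have h1 := (h.chi_eq_one_iff ⟨u, hu⟩ e).1 (hcomm ⟨u, hu⟩)
    exact h1.symm
  have h2 : ζ ⟨e, hec⟩ = 1 := by
    apply hroot
    rw [← map_pow, ← map_one ζ]
    congr 1
    apply Subtype.ext
    change (e : G) ^ ℓ = 1
    exact congrArg (fun x : E => (x : G)) he1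
  have h3 : (⟨e, hec⟩ : center G) = 1 := h.inj (by rw [h2, map_one])
  have h4 : e = 1 := Subtype.ext (congrArg (fun x : center G => (x : G)) h3)
  rw [h4, orderOf_one] at he
  exact hℓp.one_lt.ne he

/-! ### the action on `End V` -/

theorem mem_wsp_linHom {χ : Wt E k} {T : V →ₗ[k] V} :
    T ∈ wsp (ρ.linHom ρ) E χ ↔ ∀ (u : E) v, ρ u (T v) = χ u • T (ρ u v) := by
  rw [mem_wsp]
  refine forall_congr' fun u => ?_
  rw [Representation.linHom_apply]
  constructor
  · intro h1 v
    have h2 := LinearMap.congr_fun h1 (ρ u v)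
    rw [LinearMap.comp_apply, LinearMap.comp_apply, LinearMap.smul_apply] at h2
    rw [← h2, ← Module.End.mul_apply (ρ (u : G)⁻¹), ← map_mul, inv_mul_cancel, map_one, Module.End.one_apply]
  · intro h1
    apply LinearMap.ext
    intro v
    rw [LinearMap.comp_apply, LinearMap.comp_apply, LinearMap.smul_apply, h1, ← Module.End.mul_apply (ρ (u : G)),
      ← map_mul, mul_inv_cancel, map_one, Module.End.one_apply]

/-- the commutation rule -/
theorem rho_comm (u w : E) (v : V) : ρ u (ρ w v) = h.chi w u • ρ w (ρ u v) := by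
  have h1 := h.scal ⟨u * w * (u : G)⁻¹ * (w : G)⁻¹, h.sec.comm u u.2 w w.2⟩ (ρ w (ρ u v))
  rw [chi_apply, ← h1]
  rw [← Module.End.mul_apply, ← Module.End.mul_apply, ← Module.End.mul_apply, ← map_mul, ← map_mul, ← map_mul]
  congr 2
  group

theorem linHom_center {z : G} (hz : z ∈ center G) : ρ.linHom ρ z = 1 := by
  apply LinearMap.ext
  intro T
  apply LinearMap.ext
  intro v
  rw [Representation.linHom_apply, LinearMap.comp_apply, LinearMap.comp_apply, Module.End.one_apply]
  have h1 := h.scal ⟨z, hz⟩ (T (ρ z⁻¹ v))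
  have h2 := h.scal ⟨z, hz⟩ (ρ z⁻¹ v)
  change ρ z (T (ρ z⁻¹ v)) = _ at h1
  change ρ z (ρ z⁻¹ v) = _ at h2
  rw [h1, ← map_smul, ← h2]
  congr 1
  rw [← Module.End.mul_apply, ← map_mul, mul_inv_cancel, map_one, Module.End.one_apply]

theorem iSupIndep_weights : iSupIndep (wsp (ρ.linHom ρ) E) := by
  apply iSupIndep_wsp'
  intro a ha b hb
  have h1 : a * b = (a * b * a⁻¹ * b⁻¹) * (b * a) := by group
  rw [← map_mul, ← map_mul, h1, map_mul, h.linHom_center (h.sec.comm a ha b hb), one_mul]

/-- the component of weight `w` -/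
def proj [Fintype E] (w : E) (T : V →ₗ[k] V) : V →ₗ[k] V :=
  ∑ u : E, h.chi w⁻¹ u • ρ.linHom ρ (u : G) T

theorem proj_mem [Fintype E] (w : E) (T : V →ₗ[k] V) : h.proj w T ∈ wsp (ρ.linHom ρ) E (h.chi w) := by
  intro a
  unfold proj
  rw [map_sum, Finset.smul_sum]
  rw [← Equiv.sum_comp (Equiv.mulLeft a) (fun u : E => h.chi w a • (h.chi w⁻¹ u • ρ.linHom ρ (u : G) T))]
  refine Finset.sum_congr rfl fun u _ => ?_
  rw [map_smul, ← Module.End.mul_apply, ← map_mul, Equiv.coe_mulLeft, chi_mul_left, smul_smul, ← mul_assoc,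
    mul_comm (h.chi w a), h.chi_inv_mul, one_mul]
  rfl

theorem sum_proj [Fintype E] (T : V →ₗ[k] V) :
    ∑ w : E, h.proj w T = ((Nat.card E : k) * (Nat.card (center G) : k)) • T := by
  classical
  unfold proj
  rw [Finset.sum_comm]
  have h1 : ∀ u : E, ∑ w : E, h.chi w⁻¹ u • ρ.linHom ρ (u : G) T =
      if (u : G) ∈ center G then (Nat.card E : k) • T else 0 := by
    intro u
    rw [← Finset.sum_smul]
    let f : E →* k :=
      { toFun := fun w => h.chi w⁻¹ u
        map_one' := by rw [inv_one, chi_one]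
        map_mul' := by
          intro a b
          rw [mul_inv_rev, chi_mul_right, mul_comm] }
    split_ifs with hu
    · have h2 : ∀ w : E, h.chi w⁻¹ u = 1 := by
        intro w
        rw [chi_eq_one_iff]
        exact (mem_center_iff.1 hu _).symm
      rw [Finset.sum_congr rfl (fun w _ => h2 w), Finset.sum_const, Finset.card_univ, nsmul_eq_mul, mul_one,
        h.linHom_center hu, Module.End.one_apply, Nat.card_eq_fintype_card]
    · have h2 : f ≠ 1 := by
        intro hf
        apply hu
        refine h.sec.cent u u.2 fun w hw => ?_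
        have h3 : h.chi (⟨w, hw⟩ : E)⁻¹⁻¹ u = 1 := by
          have := DFunLike.congr_fun hf (⟨w, hw⟩ : E)⁻¹
          exact this
        rw [inv_inv, chi_eq_one_iff] at h3
        exact h3.symm
      have h3 := sum_hom_units_eq_zero f h2
      have h4 : ∑ w : E, h.chi w⁻¹ u = 0 := h3
      rw [h4, zero_smul]
  have hcard : (Finset.univ.filter (fun x : E => (x : G) ∈ center G)).card = Nat.card (center G) := by
    rw [← Fintype.card_subtype, ← Nat.card_eq_fintype_card]
    exact Nat.card_congr
      { toFun := fun x => ⟨x.1, x.2⟩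
        invFun := fun z => ⟨⟨z, h.sec.center_le z.2⟩, z.2⟩
        left_inv := fun x => rfl
        right_inv := fun z => rfl }
  rw [Finset.sum_congr rfl (fun u _ => h1 u), Finset.sum_ite, Finset.sum_const_zero, add_zero, Finset.sum_const,
    hcard, ← Nat.cast_smul_eq_nsmul k, smul_smul, mul_comm]

theorem iSup_weights [Finite G] : ⨆ w : E, wsp (ρ.linHom ρ) E (h.chi w) = ⊤ := by
  classical
  have hf : Fintype E := Fintype.ofFinite E
  rw [eq_top_iff]
  intro T _
  have h1 := h.sum_proj T
  have hE := h.card_ne_zero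
  have hZ : (Nat.card (center G) : k) ≠ 0 := by
    obtain ⟨c, hc⟩ := Subgroup.card_dvd_of_le h.sec.center_le
    intro h0
    apply hE
    rw [hc, Nat.cast_mul, h0, zero_mul]
  have h2 : T = ((Nat.card E : k) * (Nat.card (center G) : k))⁻¹ • ∑ w : E, h.proj w T := by
    rw [h1, smul_smul, inv_mul_cancel₀ (mul_ne_zero hE hZ), one_smul]
  rw [h2]
  refine Submodule.smul_mem _ _ (Submodule.sum_mem _ fun w _ => ?_)
  exact (le_iSup (fun w : E => wsp (ρ.linHom ρ) E (h.chi w)) w) (h.proj_mem w T)

/-- all weight spaces have the same dimension -/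
theorem finrank_weight [FiniteDimensional k V] (w : E) :
    finrank k (wsp (ρ.linHom ρ) E (h.chi w)) = finrank k (wsp (ρ.linHom ρ) E (h.chi 1)) := by
  have hcomp : ∀ (a : E) (χ χ' : Wt E k) (T : V →ₗ[k] V), (∀ u, χ' u = h.chi a u * χ u) →
      T ∈ wsp (ρ.linHom ρ) E χ → (ρ a).comp T ∈ wsp (ρ.linHom ρ) E χ' := by
    intro a χ χ' T hχ hT
    rw [h.mem_wsp_linHom] at hT ⊢
    intro u v
    rw [LinearMap.comp_apply, LinearMap.comp_apply, h.rho_comm u a, hT u v, map_smul, smul_smul, hχ]
  have hle : ∀ (a : E) (χ χ' : Wt E k), (∀ u, χ' u = h.chi a u * χ u) →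
      finrank k (wsp (ρ.linHom ρ) E χ) ≤ finrank k (wsp (ρ.linHom ρ) E χ') := by
    intro a χ χ' hχ
    let L : wsp (ρ.linHom ρ) E χ →ₗ[k] wsp (ρ.linHom ρ) E χ' :=
      { toFun := fun T => ⟨(ρ a).comp (T : V →ₗ[k] V), hcomp a χ χ' T hχ T.2⟩
        map_add' := by
          intro S T
          apply Subtype.ext
          exact LinearMap.comp_add _ _ _
        map_smul' := by
          intro c T
          apply Subtype.ext
          exact LinearMap.comp_smul _ _ _ }
    refine LinearMap.finrank_le_finrank_of_injective (f := L) ?_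
    intro S T hST
    apply Subtype.ext
    apply LinearMap.ext
    intro v
    have h1 : ρ a ((S : V →ₗ[k] V) v) = ρ a ((T : V →ₗ[k] V) v) :=
      LinearMap.congr_fun (congrArg (fun z : wsp (ρ.linHom ρ) E χ' => (z : V →ₗ[k] V)) hST) v
    exact rho_injective ρ a h1
  apply le_antisymm
  · exact hle w⁻¹ _ _ fun u => by rw [h.chi_inv_mul, h.chi_one]
  · exact hle w _ _ fun u => by rw [h.chi_one, mul_one]

/-- the set of weights -/
def Om [E.Normal] : SubMulAction G (Wt E k) where
  carrier := Set.range h.chi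
  smul_mem' := by
    rintro g _ ⟨w, rfl⟩
    exact ⟨MulAut.conjNormal g w, (h.smul_chi g w).symm⟩

theorem mem_Om [E.Normal] {χ : Wt E k} : χ ∈ h.Om ↔ ∃ w, h.chi w = χ := Iff.rfl

theorem finite_Om [Finite G] [E.Normal] : Finite h.Om := by
  have h1 : (Set.range h.chi).Finite := Set.finite_range _
  exact h1.to_subtype

/-- `|E| ≤ |Ω| |Z|` -/
theorem card_le_Om [Finite G] [E.Normal] : Nat.card E ≤ Nat.card h.Om * Nat.card (center G) := by
  have hfin := h.finite_Om
  rw [← Nat.card_prod]
  have hs : ∀ i : h.Om, ∃ w : E, h.chi w = i := fun i => i.2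
  choose s hs using hs
  have hmem : ∀ w : E, ((s ⟨h.chi w, w, rfl⟩ : E) : G)⁻¹ * w ∈ center G := by
    intro w
    rw [← h.chi_eq_iff, hs]
  refine Nat.card_le_card_of_injective
    (fun w : E => ((⟨h.chi w, w, rfl⟩ : h.Om), (⟨_, hmem w⟩ : center G))) ?_
  intro w w' hw
  rw [Prod.mk.injEq] at hw
  obtain ⟨h1, h2⟩ := hw
  have h3 : ((s ⟨h.chi w, w, rfl⟩ : E) : G)⁻¹ * w = ((s ⟨h.chi w', w', rfl⟩ : E) : G)⁻¹ * w' :=
    congrArg (fun x : center G => (x : G)) h2
  rw [h1] at h3
  exact Subtype.ext (mul_left_cancel h3)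

/-- `|Fix| |Z| ≤ |D|` -/
theorem card_fixed_le [Finite G] [E.Normal] (y : G) :
    Nat.card (MulAction.fixedBy h.Om y) * Nat.card (center G) ≤ Nat.card (cen E y) := by
  have hfin := h.finite_Om
  rw [← Nat.card_prod]
  have hs : ∀ i : h.Om, ∃ w : E, h.chi w = i := fun i => i.2
  choose s hs using hs
  refine Nat.card_le_card_of_injective
    (fun q : MulAction.fixedBy h.Om y × center G => (⟨(s q.1 : G) * q.2, ?_⟩ : cen E y)) ?_
  · rw [mem_cen]
    refine ⟨mul_mem (s q.1).2 (h.sec.center_le q.2.2), ?_⟩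
    have h1 : h.chi (MulAut.conjNormal y (s q.1)) = h.chi (s q.1) := by
      rw [← h.smul_chi, hs]
      exact congrArg Subtype.val q.1.2
    have h2 := (h.chi_eq_iff _ _).1 h1.symm
    rw [MulAut.conjNormal_apply] at h2
    -- `s⁻¹ (y s y⁻¹) ∈ Z`
    have hz := q.2.2
    have h3 : y * ((s q.1 : G) * (q.2 : G)) * y⁻¹ * ((s q.1 : G) * (q.2 : G))⁻¹ =
        (s q.1 : G) * ((s q.1 : G)⁻¹ * (y * (s q.1 : G) * y⁻¹)) * (s q.1 : G)⁻¹ := by
      have hz1 := mem_center_iff.1 hz y⁻¹
      calc y * ((s q.1 : G) * (q.2 : G)) * y⁻¹ * ((s q.1 : G) * (q.2 : G))⁻¹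
          = y * (s q.1 : G) * ((q.2 : G) * y⁻¹) * (q.2 : G)⁻¹ * (s q.1 : G)⁻¹ := by group
        _ = y * (s q.1 : G) * (y⁻¹ * (q.2 : G)) * (q.2 : G)⁻¹ * (s q.1 : G)⁻¹ := by rw [hz1]
        _ = _ := by group
    rw [h3]
    exact (inferInstance : (center G).Normal).conj_mem _ h2 _
  · rintro ⟨i, z⟩ ⟨j, t⟩ hij
    have h1 : (s i : G) * z = (s j : G) * t := congrArg (fun x : cen E y => (x : G)) hij
    have h2 : (i : h.Om) = j := by
      apply Subtype.ext
      rw [← hs i, ← hs j, h.chi_eq_iff]
      have h3 : (s i : G)⁻¹ * (s j : G) = z * (t : G)⁻¹ := by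
        calc (s i : G)⁻¹ * (s j : G) = (s i : G)⁻¹ * ((s j : G) * t) * (t : G)⁻¹ := by group
          _ = (s i : G)⁻¹ * ((s i : G) * z) * (t : G)⁻¹ := by rw [h1]
          _ = z * (t : G)⁻¹ := by group
      rw [h3]
      exact mul_mem z.2 (inv_mem t.2)
    have h3 : i = j := Subtype.ext h2
    subst h3
    rw [Prod.mk.injEq]
    exact ⟨rfl, Subtype.ext (mul_left_cancel h1)⟩

end Prim

/-- the arithmetic -/
theorem arith_final {p N f d c n b : ℕ} (hp : 5 ≤ p) (hf : (p - 1) ^ 2 * f ≤ N) (hc : c * p ≤ (N + (p - 1) * f) * d)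
    (hd : N * d ≤ n ^ 2) (hbn : b ≤ n) (hb : b ^ 2 * (p - 1) + (n - b) ^ 2 ≤ (p - 1) * c) (hn : 0 < n) :
    2 * b < n := by
  obtain ⟨e, rfl⟩ : ∃ e, p = e + 1 := ⟨p - 1, by omega⟩
  obtain ⟨m, rfl⟩ : ∃ m, n = b + m := ⟨n - b, by omega⟩
  rw [Nat.add_sub_cancel] at hf hc hb
  rw [Nat.add_sub_cancel_left] at hb
  have h1 : (e + 1) * (e * c) ≤ (e + 1) * (b + m) ^ 2 := by
    calc (e + 1) * (e * c) = e * (c * (e + 1)) := by ring
      _ ≤ e * ((N + e * f) * d) := Nat.mul_le_mul_left _ hc
      _ = (e * N + e ^ 2 * f) * d := by ring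
      _ ≤ (e * N + N) * d := Nat.mul_le_mul_right _ (Nat.add_le_add_left hf _)
      _ = (e + 1) * (N * d) := by ring
      _ ≤ _ := Nat.mul_le_mul_left _ hd
  have h2 : e * c ≤ (b + m) ^ 2 := Nat.le_of_mul_le_mul_left h1 (by omega)
  have h3 : b ^ 2 * e + m ^ 2 ≤ (b + m) ^ 2 := hb.trans h2
  by_contra hcon
  have h4 : m ≤ b := by omega
  have hb0 : 0 < b := by omega
  have h5 : b ^ 2 * 4 ≤ b ^ 2 * e := Nat.mul_le_mul_left _ (by omega)
  nlinarith

/-- **The primitive case.** -/
theorem primitive {k G V : Type*} [Field k] [IsAlgClosed k] [Group G] [Finite G]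
    [AddCommGroup V] [Module k V] [FiniteDimensional k V] [Nontrivial V] {p : ℕ} [hp : Fact p.Prime] (hp3 : 3 < p)
    (P : Subgroup G) (hP : Nat.card P = p) (hgen : normalClosure (P : Set G) = ⊤)
    (ρ : Representation k G V) {E : Subgroup G} {r : ℕ} {ζ : center G →* k} (h : Prim ρ E r ζ)
    (hidx : ∀ y ∈ P, y ≠ 1 → (p - 1) ^ 2 * Nat.card (cen E y) ≤ Nat.card E) :
    2 * finrank k (fix ρ P) < finrank k V := by
  classical
  have hEn := h.sec.normal
  have hp5 : 5 ≤ p := by
    by_contra hc
    have : p = 4 := by omega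
    subst this
    exact absurd hp.out (by norm_num)
  -- a generator
  have hnt : ∃ x ∈ P, x ≠ 1 := by
    by_contra hc
    push Not at hc
    have : P = ⊥ := (Subgroup.eq_bot_iff_forall P).2 hc
    rw [this, Subgroup.card_bot] at hP
    exact hp.out.one_lt.ne hP
  obtain ⟨x, hxP, hx1⟩ := hnt
  obtain ⟨hxo, hxg, -⟩ := orderOf_of_card hP hgen hxP hx1
  have hfin := h.finite_Om
  have hft : Fintype h.Om := Fintype.ofFinite _
  let W : h.Om → Submodule k (V →ₗ[k] V) := fun i => wsp (ρ.linHom ρ) E i
  have hind : iSupIndep W := h.iSupIndep_weights.comp Subtype.val_injective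
  have htop : ⨆ i, W i = ⊤ := by
    rw [eq_top_iff, ← h.iSup_weights]
    exact iSup_le fun w => le_iSup W ⟨h.chi w, w, rfl⟩
  have hd : ∀ i : h.Om, finrank k (W i) = finrank k (wsp (ρ.linHom ρ) E (h.chi 1)) := by
    rintro ⟨_, w, rfl⟩
    exact h.finrank_weight w
  have hf : ∀ y : P, y ≠ 1 → Nat.card (MulAction.fixedBy h.Om y) ≤ Nat.card h.Om / (p - 1) ^ 2 := by
    intro y hy
    have hpos : 0 < (p - 1) ^ 2 := by
      have : 0 < p - 1 := by omega
      positivity
    rw [Nat.le_div_iff_mul_le hpos]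
    have h1 := hidx y y.2 (fun hc => hy (Subtype.ext hc))
    have h2 := h.card_fixed_le (y : G)
    have h3 := h.card_le_Om
    have hZ : 0 < Nat.card (center G) := Nat.card_pos
    refine Nat.le_of_mul_le_mul_right ?_ hZ
    calc Nat.card (MulAction.fixedBy h.Om (y : G)) * (p - 1) ^ 2 * Nat.card (center G)
        = (p - 1) ^ 2 * (Nat.card (MulAction.fixedBy h.Om (y : G)) * Nat.card (center G)) := by ring
      _ ≤ (p - 1) ^ 2 * Nat.card (cen E y) := Nat.mul_le_mul_left _ h2
      _ ≤ _ := h1
      _ ≤ _ := h3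
  obtain ⟨h1, h2⟩ := finrank_fixed_mul_le' (P := P) W hind htop (fun y => ρ.linHom ρ y)
    (fun y i m hm => smul_mem_wsp (ρ.linHom ρ) E (y : G) hm)
    (fix (ρ.linHom ρ) P) (fun m hm y => hm y y.2) hd hP hp.out.pos hf
  -- the commutant
  have hcomm : comm (ρ x : V →ₗ[k] V) ≤ fix (ρ.linHom ρ) P := by
    intro T hT y hy
    have hTx : ∀ v, T (ρ x v) = ρ x (T v) := hT
    let N : Subgroup G :=
      { carrier := {g | ρ.linHom ρ g T = T}
        one_mem' := by rw [Set.mem_ofPred_eq, map_one]; rfl
        mul_mem' := by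
          intro a b ha hb
          rw [Set.mem_ofPred_eq] at ha hb ⊢
          rw [map_mul, Module.End.mul_apply, hb, ha]
        inv_mem' := by
          intro a ha
          rw [Set.mem_ofPred_eq] at ha ⊢
          nth_rw 1 [← ha]
          rw [← Module.End.mul_apply, ← map_mul, inv_mul_cancel, map_one]
          rfl }
    have hxN : x ∈ N := by
      change ρ.linHom ρ x T = T
      apply LinearMap.ext
      intro v
      rw [Representation.linHom_apply, LinearMap.comp_apply, LinearMap.comp_apply, ← hTx,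
        ← Module.End.mul_apply (ρ x), ← map_mul, mul_inv_cancel, map_one, Module.End.one_apply]
    exact (zpowers_le.2 hxN) (hxg y hy)
  have hc : finrank k (comm (ρ x : V →ₗ[k] V)) ≤ finrank k (fix (ρ.linHom ρ) P) := Submodule.finrank_mono hcomm
  have hker : finrank k (LinearMap.ker ((ρ x : V →ₗ[k] V) - LinearMap.id)) = finrank k (fix ρ P) := by
    have : LinearMap.ker ((ρ x : V →ₗ[k] V) - LinearMap.id) = fix ρ P := by
      ext v
      rw [LinearMap.mem_ker, LinearMap.sub_apply, LinearMap.id_apply, sub_eq_zero, mem_fix]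
      constructor
      · intro hv y hy
        let N : Subgroup G :=
          { carrier := {g | ρ g v = v}
            one_mem' := by rw [Set.mem_ofPred_eq, map_one]; rfl
            mul_mem' := by
              intro a b ha hb
              rw [Set.mem_ofPred_eq] at ha hb ⊢
              rw [map_mul, Module.End.mul_apply, hb, ha]
            inv_mem' := by
              intro a ha
              rw [Set.mem_ofPred_eq] at ha ⊢
              nth_rw 1 [← ha]
              rw [← Module.End.mul_apply, ← map_mul, inv_mul_cancel, map_one]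
              rfl }
        have hxN : x ∈ N := hv
        exact (zpowers_le.2 hxN) (hxg y hy)
      · intro hv
        exact hv x hxP
    rw [this]
  have hxp : (ρ x : V →ₗ[k] V) ^ p = 1 := by
    rw [← map_pow, ← hxo, pow_orderOf_eq_one, map_one]
  obtain ⟨h3, h4⟩ := main (ρ x : V →ₗ[k] V) hp.out.pos hxp hker
  have h5 : (p - 1) ^ 2 * (Nat.card h.Om / (p - 1) ^ 2) ≤ Nat.card h.Om := Nat.mul_div_le _ _
  have h6 : finrank k (V →ₗ[k] V) = finrank k V ^ 2 := by
    rw [Module.finrank_linearMap, pow_two]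
  rw [h6] at h2
  exact arith_final hp5 h5 h1 h2 h3 (h4.trans (Nat.mul_le_mul_left _ hc)) finrank_pos

end Cfsg.Agent.H457.Half
end

-- part: H457/Half/Closed
section
/-!
# Fixed spaces over algebraically closed fields (helper457)

* `closed_irr` : the irreducible faithful case;
* `closed` : modules without fixed vectors of normal subgroups of order prime to the characteristic;
* `half` : faithful irreducible representations over any field of positive characteristic.
-/

set_option autoImplicit false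

namespace Cfsg.Agent.H457.Half

open Module Subgroup

/-- the bound for `p`-sections -/
def HypP {G : Type*} [Group G] (P : Subgroup G) (p : ℕ) : Prop :=
  ∀ E : Subgroup G, ESec E p → ∀ y ∈ P, y ≠ 1 → (p - 1) ^ 2 * Nat.card (cen E y) ≤ Nat.card E

section

variable {k G V : Type*} [Field k] [Group G] [AddCommGroup V] [Module k V]

/-- the fixed space of a normal subgroup is invariant -/
theorem fix_invariant (ρ : Representation k G V) (N : Subgroup G) (hN : N.Normal) (g : G) {v : V}
    (hv : v ∈ fix ρ N) : ρ g v ∈ fix ρ N := by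
  intro n hn
  have h1 : n * g = g * (g⁻¹ * n * g⁻¹⁻¹) := by group
  rw [← Module.End.mul_apply, ← map_mul, h1, map_mul, Module.End.mul_apply, hv _ (hN.conj_mem n hn g⁻¹)]

/-- a faithful irreducible module has no vectors fixed by a nontrivial normal subgroup -/
theorem fix_normal_eq_bot {ρ : Representation k G V} (hirr : Irr ρ) (hfaith : Function.Injective ρ)
    {N : Subgroup G} (hN : N.Normal) (hne : N ≠ ⊥) : fix ρ N = ⊥ := by
  rcases hirr (fix ρ N) (fun g u hu => fix_invariant ρ N hN g hu) with h | h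
  · exact h
  · exfalso
    apply hne
    rw [eq_bot_iff]
    intro n hn
    rw [mem_bot]
    apply hfaith
    rw [map_one]
    apply LinearMap.ext
    intro v
    have h1 : v ∈ fix ρ N := by rw [h]; trivial
    exact h1 n hn

end

/-- **The irreducible case.** -/
theorem closed_irr {k G V : Type*} [Field k] [IsAlgClosed k] [Group G] [Finite G] [Group.IsSolvable G]
    [AddCommGroup V] [Module k V] [FiniteDimensional k V] [Nontrivial V] {p : ℕ} [hp : Fact p.Prime] (hp3 : 3 < p)
    (P : Subgroup G) (hP : Nat.card P = p) (hgen : normalClosure (P : Set G) = ⊤) (hyp : HypP P p)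
    (ρ : Representation k G V) (hirr : Irr ρ) (hfaith : Function.Injective ρ) :
    2 * finrank k (fix ρ P) < finrank k V := by
  by_cases h1 : ∃ A : Subgroup G, A.Normal ∧ (∀ a ∈ A, ∀ b ∈ A, a * b = b * a) ∧ ¬ A ≤ center G
  · obtain ⟨A, hAn, hab, hnc⟩ := h1
    exact imprimitive hp3 P hP hgen ρ hirr hfaith A hab hnc
  · push Not at h1
    by_cases h2 : center G = ⊤
    · -- `P` is normal
      have hPn : P.Normal := by
        refine ⟨fun x hx g => ?_⟩
        have h3 : x ∈ center G := by rw [h2]; trivial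
        rw [mem_center_iff.1 h3 g, mul_inv_cancel_right]
        exact hx
      have hPb : P ≠ ⊥ := by
        rintro rfl
        rw [Subgroup.card_bot] at hP
        exact hp.out.one_lt.ne hP
      rw [fix_normal_eq_bot hirr hfaith hPn hPb, finrank_bot, mul_zero]
      exact finrank_pos
    · obtain ⟨E, r, hr, hE⟩ := exists_eSec (fun A hA hab => h1 A hA hab) h2
      obtain ⟨ζ, hζ⟩ := exists_centralChar (ρ := ρ) hirr
      have hinj : Function.Injective ζ := by
        intro a b hab
        apply Subtype.ext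
        apply hfaith
        apply LinearMap.ext
        intro v
        rw [hζ, hζ, hab]
      have hcyc : IsCyclic (center G) := isCyclic_of_injective_ringHom ζ hinj
      refine primitive hp3 P hP hgen ρ (ζ := ζ) ⟨hE, hζ, hinj⟩ fun y hy hy1 => ?_
      by_cases hpr : p = r
      · subst hpr
        exact hyp E hE y hy hy1
      · obtain ⟨h3, -, h4⟩ := orderOf_of_card hP hgen hy hy1
        exact hE.index_le hr hcyc hpr h3 h4

section

variable {k G V : Type*} [Field k] [Group G] [AddCommGroup V] [Module k V]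

/-- no vectors fixed by normal subgroups of order prime to the characteristic -/
def NoFix (ρ : Representation k G V) : Prop :=
  ∀ N : Subgroup G, N.Normal → N ≠ ⊥ → (Nat.card N : k) ≠ 0 → ∀ v : V, (∀ n ∈ N, ρ n v = v) → v = 0

/-- the subrepresentation -/
def subRep (ρ : Representation k G V) (U : Submodule k V) (hU : ∀ g : G, ∀ u ∈ U, ρ g u ∈ U) :
    Representation k G U where
  toFun g := (ρ g).restrict (p := U) (q := U) (hU g)
  map_one' := by
    apply LinearMap.ext
    intro u
    apply Subtype.ext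
    change ρ 1 (u : V) = u
    rw [map_one]
    rfl
  map_mul' a b := by
    apply LinearMap.ext
    intro u
    apply Subtype.ext
    change ρ (a * b) (u : V) = ρ a (ρ b u)
    rw [map_mul]
    rfl

theorem subRep_apply (ρ : Representation k G V) (U : Submodule k V) (hU : ∀ g : G, ∀ u ∈ U, ρ g u ∈ U) (g : G)
    (u : U) : ((subRep ρ U hU g u : U) : V) = ρ g u := rfl

/-- the quotient representation -/
def quoRep (ρ : Representation k G V) (U : Submodule k V) (hU : ∀ g : G, ∀ u ∈ U, ρ g u ∈ U) :
    Representation k G (V ⧸ U) where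
  toFun g := U.mapQ U (ρ g) (fun u hu => hU g u hu)
  map_one' := by
    apply LinearMap.ext
    intro u
    obtain ⟨v, rfl⟩ := U.mkQ_surjective u
    rw [Submodule.mkQ_apply, Submodule.mapQ_apply, map_one]
    rfl
  map_mul' a b := by
    apply LinearMap.ext
    intro u
    obtain ⟨v, rfl⟩ := U.mkQ_surjective u
    rw [Submodule.mkQ_apply, Submodule.mapQ_apply, map_mul]
    rfl

theorem quoRep_apply (ρ : Representation k G V) (U : Submodule k V) (hU : ∀ g : G, ∀ u ∈ U, ρ g u ∈ U) (g : G)
    (v : V) : quoRep ρ U hU g (U.mkQ v) = U.mkQ (ρ g v) := rfl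

theorem NoFix.sub {ρ : Representation k G V} (h : NoFix ρ) (U : Submodule k V) (hU : ∀ g : G, ∀ u ∈ U, ρ g u ∈ U) :
    NoFix (subRep ρ U hU) := by
  intro N hN hne hc v hv
  apply Subtype.ext
  exact h N hN hne hc v fun n hn => congrArg Subtype.val (hv n hn)

/-- the averaging operator vanishes -/
theorem NoFix.sum_eq_zero {ρ : Representation k G V} (h : NoFix ρ) {N : Subgroup G} [Fintype N] (hN : N.Normal)
    (hne : N ≠ ⊥) (hc : (Nat.card N : k) ≠ 0) (v : V) : ∑ n : N, ρ n v = 0 := by
  apply h N hN hne hc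
  intro m hm
  rw [map_sum, ← Equiv.sum_comp (Equiv.mulLeft (⟨m, hm⟩ : N)) (fun n : N => ρ n v)]
  refine Finset.sum_congr rfl fun n _ => ?_
  rw [← Module.End.mul_apply, ← map_mul]
  rfl

theorem NoFix.quo [Finite G] {ρ : Representation k G V} (h : NoFix ρ) (U : Submodule k V)
    (hU : ∀ g : G, ∀ u ∈ U, ρ g u ∈ U) : NoFix (quoRep ρ U hU) := by
  intro N hN hne hc v hv
  have hf : Fintype N := Fintype.ofFinite N
  obtain ⟨w, rfl⟩ := U.mkQ_surjective v
  have h1 := h.sum_eq_zero hN hne hc w
  have h2 : ∑ n : N, quoRep ρ U hU n (U.mkQ w) = (Nat.card N : k) • U.mkQ w := by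
    rw [Finset.sum_congr rfl (fun (n : N) _ => hv n n.2), Finset.sum_const, Finset.card_univ, Nat.card_eq_fintype_card,
      Nat.cast_smul_eq_nsmul]
  have h3 : ∑ n : N, quoRep ρ U hU n (U.mkQ w) = U.mkQ (∑ n : N, ρ n w) := by
    rw [map_sum]
    rfl
  rw [h3, h1, map_zero] at h2
  exact (smul_eq_zero.1 h2.symm).resolve_left hc

/-- subadditivity of the dimension of the fixed space -/
theorem finrank_fix_le [FiniteDimensional k V] (ρ : Representation k G V) (P : Subgroup G) (U : Submodule k V)
    (hU : ∀ g : G, ∀ u ∈ U, ρ g u ∈ U) :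
    finrank k (fix ρ P) ≤ finrank k (fix (subRep ρ U hU) P) + finrank k (fix (quoRep ρ U hU) P) := by
  let L : fix ρ P →ₗ[k] fix (quoRep ρ U hU) P :=
    U.mkQ.restrict (p := fix ρ P) (q := fix (quoRep ρ U hU) P) (by
      intro v hv y hy
      rw [quoRep_apply, hv y hy])
  have h1 := LinearMap.finrank_range_add_finrank_ker (K := k) (V := fix ρ P) (V₂ := fix (quoRep ρ U hU) P) L
  have h2 : finrank k (LinearMap.range L) ≤ finrank k (fix (quoRep ρ U hU) P) := Submodule.finrank_le _
  let M : LinearMap.ker L →ₗ[k] fix (subRep ρ U hU) P :=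
    { toFun := fun v => ⟨⟨(v : fix ρ P), by
          have h3 : L (v : fix ρ P) = 0 := v.2
          have h4 : U.mkQ ((v : fix ρ P) : V) = 0 := congrArg Subtype.val h3
          rwa [Submodule.mkQ_apply, Submodule.Quotient.mk_eq_zero] at h4⟩, fun y hy => by
          apply Subtype.ext
          exact (v : fix ρ P).2 y hy⟩
      map_add' := fun a b => rfl
      map_smul' := fun c a => rfl }
  have hM : Function.Injective M := by
    intro a b hab
    apply Subtype.ext
    apply Subtype.ext
    exact congrArg (fun z : fix (subRep ρ U hU) P => ((z : U) : V)) hab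
  have h3 := LinearMap.finrank_le_finrank_of_injective hM
  omega

end

/-- no nontrivial normal subgroups of characteristic order -/
def NoL (k G : Type*) [Field k] [Group G] : Prop :=
  ∀ (N : Subgroup G) (r : ℕ), N.Normal → N ≠ ⊥ → r.Prime → IsPGroup r N → (r : k) ≠ 0

/-- **Modules without fixed vectors of normal subgroups of order prime to the characteristic.** -/
theorem closed {k G : Type*} [Field k] [IsAlgClosed k] [Group G] [Finite G] [Group.IsSolvable G]
    {p : ℕ} [hp : Fact p.Prime] (hp3 : 3 < p)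
    (P : Subgroup G) (hP : Nat.card P = p) (hgen : normalClosure (P : Set G) = ⊤) (hyp : HypP P p) (hL : NoL k G)
    (n : ℕ) : ∀ (V : Type*) [AddCommGroup V] [Module k V] [FiniteDimensional k V] [Nontrivial V]
    (ρ : Representation k G V), NoFix ρ → finrank k V = n → 2 * finrank k (fix ρ P) < finrank k V := by
  induction n using Nat.strong_induction_on with
  | _ n ih =>
  intro V _ _ _ _ ρ hρ hn
  by_cases hirr : Irr ρ
  · -- `ρ` is faithful
    have hfaith : Function.Injective ρ := by
      rw [injective_iff_map_eq_one]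
      by_contra hc
      push Not at hc
      obtain ⟨g, hg, hg1⟩ := hc
      let N : Subgroup G := MonoidHom.ker (ρ : G →* (V →ₗ[k] V))
      have hgN : g ∈ N := hg
      have hNb : N ≠ ⊥ := by
        intro h
        rw [h, mem_bot] at hgN
        exact hg1 hgN
      have hNt : Nontrivial N := (Subgroup.nontrivial_iff_ne_bot _).2 hNb
      obtain ⟨r, hr, A, hA, -, hAr, hAb⟩ := Lib.SolvableMinNormal.exists_characteristic_pgroup (G := N)
      have hAn : (A.map N.subtype).Normal := ConjAct.normal_of_characteristic_of_normal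
      have hAb' : A.map N.subtype ≠ ⊥ := by
        rw [Ne, Subgroup.map_eq_bot_iff_of_injective _ N.subtype_injective]
        exact hAb
      have h1 := hL _ r hAn hAb' hr (hAr.map _)
      have hfr : Fact r.Prime := ⟨hr⟩
      have h2 : (Nat.card (A.map N.subtype) : k) ≠ 0 := by
        obtain ⟨m, hm⟩ := IsPGroup.iff_card.mp (hAr.map N.subtype)
        rw [hm, Nat.cast_pow]
        exact pow_ne_zero _ h1
      obtain ⟨v, hv⟩ := exists_ne (0 : V)
      apply hv
      refine hρ _ hAn hAb' h2 v ?_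
      rintro _ ⟨a, -, rfl⟩
      have h3 : ρ (a : G) = 1 := a.2
      change ρ (a : G) v = v
      rw [h3]
      rfl
    exact closed_irr hp3 P hP hgen hyp ρ hirr hfaith
  · unfold Irr at hirr
    push Not at hirr
    obtain ⟨U, hU, hUb, hUt⟩ := hirr
    have h1 : 0 < finrank k U := by
      have : Nontrivial U := Submodule.nontrivial_iff_ne_bot.2 hUb
      exact finrank_pos
    have h2 := Submodule.finrank_quotient_add_finrank U
    have h3 : finrank k U < finrank k V := Submodule.finrank_lt hUt
    have hUnt : Nontrivial U := Submodule.nontrivial_iff_ne_bot.2 hUb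
    have hQnt : Nontrivial (V ⧸ U) := by
      apply Module.nontrivial_of_finrank_pos (R := k)
      omega
    have h4 := ih (finrank k U) (by omega) U (subRep ρ U hU) (hρ.sub U hU) rfl
    have h5 := ih (finrank k (V ⧸ U)) (by omega) (V ⧸ U) (quoRep ρ U hU) (hρ.quo U hU) rfl
    have h6 := finrank_fix_le ρ P U hU
    omega

end Cfsg.Agent.H457.Half
end

-- part: H457/Half/Base
section
/-!
# Fixed spaces over fields of positive characteristic (helper457)
-/

set_option autoImplicit false

namespace Cfsg.Agent.H457.Half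

open Module Subgroup TensorProduct

section

variable {k G V : Type*} [Field k] [Group G] [AddCommGroup V] [Module k V]

/-- extension of scalars -/
noncomputable def bcRep (K : Type*) [Field K] [Algebra k K] (ρ : Representation k G V) :
    Representation K G (K ⊗[k] V) where
  toFun g := (ρ g).baseChange K
  map_one' := by rw [map_one]; exact LinearMap.baseChange_id
  map_mul' a b := by rw [map_mul]; exact LinearMap.baseChange_comp _ _

theorem bcRep_apply (K : Type*) [Field K] [Algebra k K] (ρ : Representation k G V) (g : G) :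
    bcRep K ρ g = (ρ g).baseChange K := rfl

/-- the fixed space does not get smaller -/
theorem finrank_fix_le_bc [FiniteDimensional k V] (K : Type*) [Field K] [Algebra k K] (ρ : Representation k G V)
    (P : Subgroup G) : finrank k (fix ρ P) ≤ finrank K (fix (bcRep K ρ) P) := by
  let U := fix ρ P
  let L : (K ⊗[k] U) →ₗ[K] (K ⊗[k] V) := U.subtype.baseChange K
  have hL : Function.Injective L := by
    have := Module.Flat.lTensor_preserves_injective_linearMap (M := K) U.subtype U.injective_subtype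
    exact this
  have hmem : ∀ w, L w ∈ fix (bcRep K ρ) P := by
    intro w y hy
    have h1 : (ρ y).comp U.subtype = U.subtype := by
      apply LinearMap.ext
      intro u
      exact u.2 y hy
    rw [bcRep_apply]
    have h2 : ((ρ y).baseChange K) (L w) = (((ρ y).comp U.subtype).baseChange K) w := by
      rw [LinearMap.baseChange_comp]
      rfl
    rw [h2, h1]
  let L' : (K ⊗[k] U) →ₗ[K] fix (bcRep K ρ) P := LinearMap.codRestrict _ L hmem
  have hL' : Function.Injective L' := fun a b hab => hL (congrArg Subtype.val hab)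
  have h3 := LinearMap.finrank_le_finrank_of_injective hL'
  rwa [Module.finrank_baseChange] at h3

theorem NoFix.bc [Finite G] {ρ : Representation k G V} (h : NoFix ρ) (K : Type*) [Field K] [Algebra k K] :
    NoFix (bcRep K ρ) := by
  intro N hN hne hc w hw
  have hf : Fintype N := Fintype.ofFinite N
  have hc' : (Nat.card N : k) ≠ 0 := by
    intro h0
    apply hc
    have := congrArg (algebraMap k K) h0
    rwa [map_natCast, map_zero] at this
  have h1 : ∑ n : N, (ρ n : V →ₗ[k] V) = 0 := by
    apply LinearMap.ext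
    intro v
    rw [LinearMap.sum_apply]
    exact h.sum_eq_zero hN hne hc' v
  have h2 : ∑ n : N, bcRep K ρ n w = 0 := by
    have h3 := congrArg (LinearMap.baseChangeHom k K V V) h1
    rw [map_sum, map_zero] at h3
    have h4 := LinearMap.congr_fun h3 w
    rw [LinearMap.sum_apply] at h4
    exact h4
  rw [Finset.sum_congr rfl (fun (n : N) _ => hw n n.2), Finset.sum_const, Finset.card_univ,
    ← Nat.card_eq_fintype_card, ← Nat.cast_smul_eq_nsmul K] at h2
  exact (smul_eq_zero.1 h2).resolve_left hc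

/-- commuting unipotent endomorphisms have a common fixed vector -/
theorem exists_common_fixed [FiniteDimensional k V] [Nontrivial V] {A : Type*}
    (σ : A → V →ₗ[k] V) (hcomm : ∀ a b v, σ a (σ b v) = σ b (σ a v))
    (hun : ∀ a, ∃ n : ℕ, (σ a - 1) ^ n = 0) :
    ∃ v : V, v ≠ 0 ∧ ∀ a, σ a v = v := by
  classical
  let S : Set (Submodule k V) := {U | U ≠ ⊥ ∧ ∀ a, ∀ u ∈ U, σ a u ∈ U}
  have hS : S.Nonempty := ⟨⊤, top_ne_bot, fun _ _ _ => trivial⟩
  have hwf : WellFounded ((· < ·) : Submodule k V → Submodule k V → Prop) := wellFounded_lt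
  set U := hwf.min S hS with hU
  have hUS : U ∈ S := hwf.min_mem S hS
  have hmin : ∀ U' ∈ S, ¬ U' < U := fun U' hU' => hwf.not_lt_min S hU'
  have hsc : ∀ a, ∀ u ∈ U, σ a u = u := by
    intro a
    obtain ⟨n, hn⟩ := hun a
    obtain ⟨u₀, hu₀, hu₀'⟩ := (Submodule.ne_bot_iff U).1 hUS.1
    -- a nonzero fixed vector in `U`
    have hpow : ∀ m : ℕ, ((σ a - 1) ^ m) u₀ ∈ U := by
      intro m
      induction m with
      | zero => exact hu₀
      | succ m ih =>
        rw [pow_succ', Module.End.mul_apply, LinearMap.sub_apply, Module.End.one_apply]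
        exact U.sub_mem (hUS.2 a _ ih) ih
    have hex : ∃ m : ℕ, ((σ a - 1) ^ m) u₀ = 0 := ⟨n, by rw [hn]; rfl⟩
    have hm0 : Nat.find hex ≠ 0 := by
      intro h0
      have := Nat.find_spec hex
      rw [h0, pow_zero, Module.End.one_apply] at this
      exact hu₀' this
    obtain ⟨m, hm⟩ := Nat.exists_eq_succ_of_ne_zero hm0
    have h1 : ((σ a - 1) ^ m) u₀ ≠ 0 := Nat.find_min hex (by omega)
    have h2 : σ a (((σ a - 1) ^ m) u₀) = ((σ a - 1) ^ m) u₀ := by
      have h3 := Nat.find_spec hex
      rw [hm, Nat.succ_eq_add_one, pow_succ', Module.End.mul_apply, LinearMap.sub_apply, Module.End.one_apply,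
        sub_eq_zero] at h3
      exact h3
    let U' : Submodule k V := U ⊓ LinearMap.ker (σ a - LinearMap.id)
    have hmem : ∀ v, v ∈ U' ↔ v ∈ U ∧ σ a v = v := by
      intro v
      rw [Submodule.mem_inf, LinearMap.mem_ker, LinearMap.sub_apply, LinearMap.id_apply, sub_eq_zero]
    have hU'S : U' ∈ S := by
      refine ⟨?_, ?_⟩
      · intro h
        have h3 : ((σ a - 1) ^ m) u₀ ∈ U' := (hmem _).2 ⟨hpow m, h2⟩
        rw [h, Submodule.mem_bot] at h3
        exact h1 h3
      · intro b v hv
        rw [hmem] at hv ⊢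
        exact ⟨hUS.2 b v hv.1, by rw [hcomm, hv.2]⟩
    have hle : U' ≤ U := inf_le_left
    have heq : U' = U := by
      by_contra hne
      exact hmin U' hU'S (lt_of_le_of_ne hle hne)
    intro v hv
    rw [← heq] at hv
    exact ((hmem v).1 hv).2
  obtain ⟨v, hv, hv0⟩ := (Submodule.ne_bot_iff U).1 hUS.1
  exact ⟨v, hv0, fun a => hsc a v hv⟩

/-- `O_ℓ(G) = 1` for a faithful irreducible module in characteristic `ℓ` -/
theorem noL [Finite G] [Group.IsSolvable G] [FiniteDimensional k V] [Nontrivial V] {ρ : Representation k G V}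
    (hirr : Irr ρ) (hfaith : Function.Injective ρ) : NoL k G := by
  intro N r hN hne hr hNr h0
  have hfr : Fact r.Prime := ⟨hr⟩
  have hchar : CharP k r := by
    obtain ⟨ℓ, hℓ⟩ := CharP.exists k
    have h1 : ℓ ∣ r := (CharP.cast_eq_zero_iff k ℓ r).1 h0
    have h2 : ℓ ≠ 1 := CharP.char_ne_one k ℓ
    have h3 : ℓ = r := ((Nat.dvd_prime hr).1 h1).resolve_left h2
    rw [← h3]; exact hℓ
  have hNt : Nontrivial N := (Subgroup.nontrivial_iff_ne_bot _).2 hne
  obtain ⟨r', hr', A, hA, hAab, hAr, hAb⟩ := Lib.SolvableMinNormal.exists_characteristic_pgroup (G := N)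
  have hAn : (A.map N.subtype).Normal := ConjAct.normal_of_characteristic_of_normal
  have hAb' : A.map N.subtype ≠ ⊥ := by
    rw [Ne, Subgroup.map_eq_bot_iff_of_injective _ N.subtype_injective]
    exact hAb
  have hAp : IsPGroup r (A.map N.subtype) := (hNr.to_subgroup A).map _
  have hchE : CharP (Module.End k V) r := charP_of_injective_algebraMap
    (FaithfulSMul.algebraMap_injective k (Module.End k V)) r
  obtain ⟨v, hv0, hv⟩ := exists_common_fixed (fun a : A.map N.subtype => (ρ a : V →ₗ[k] V)) (by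
    rintro ⟨_, a, ha, rfl⟩ ⟨_, b, hb, rfl⟩ v
    have h1 : a * b = b * a := congrArg Subtype.val (hAab.is_comm.comm ⟨a, ha⟩ ⟨b, hb⟩)
    change ρ (a : G) (ρ (b : G) v) = ρ (b : G) (ρ (a : G) v)
    rw [← Module.End.mul_apply, ← Module.End.mul_apply, ← map_mul, ← map_mul, ← Subgroup.coe_mul, h1,
      Subgroup.coe_mul]) (by
    intro a
    obtain ⟨n, hn⟩ := hAp a
    refine ⟨r ^ n, ?_⟩
    have h1 : ((ρ (a : G) : Module.End k V) - 1) ^ r ^ n = (ρ (a : G) : Module.End k V) ^ r ^ n - 1 ^ r ^ n :=
      sub_pow_char_pow_of_commute r n (Commute.one_right _)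
    have h2 : (a : G) ^ r ^ n = 1 := congrArg Subtype.val hn
    rw [h1, ← map_pow, h2, map_one, one_pow, sub_self])
  have h1 := fix_normal_eq_bot hirr hfaith hAn hAb'
  have h2 : v ∈ fix ρ (A.map N.subtype) := fun y hy => hv ⟨y, hy⟩
  rw [h1, Submodule.mem_bot] at h2
  exact hv0 h2

end

/-- **Faithful irreducible representations over an arbitrary field.** -/
theorem half {k G V : Type*} [Field k] [Group G] [Finite G] [Group.IsSolvable G]
    [AddCommGroup V] [Module k V] [FiniteDimensional k V] [Nontrivial V] {p : ℕ} [hp : Fact p.Prime] (hp3 : 3 < p)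
    (P : Subgroup G) (hP : Nat.card P = p) (hgen : normalClosure (P : Set G) = ⊤) (hyp : HypP P p)
    (ρ : Representation k G V) (hirr : Irr ρ) (hfaith : Function.Injective ρ) :
    2 * finrank k (fix ρ P) < finrank k V := by
  let K := AlgebraicClosure k
  have hNF : NoFix ρ := by
    intro N hN hne _ v hv
    have h1 := fix_normal_eq_bot hirr hfaith hN hne
    have h2 : v ∈ fix ρ N := hv
    rwa [h1, Submodule.mem_bot] at h2
  have hL : NoL K G := by
    intro N r hN hne hr hNr h0
    refine noL hirr hfaith N r hN hne hr hNr ?_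
    apply (algebraMap k K).injective
    rw [map_natCast, map_zero]
    exact h0
  have hnt : Nontrivial (K ⊗[k] V) := by
    apply Module.nontrivial_of_finrank_pos (R := K)
    rw [Module.finrank_baseChange]
    exact finrank_pos
  have h1 := closed hp3 P hP hgen hyp hL _ (K ⊗[k] V) (bcRep K ρ) (hNF.bc K) rfl
  rw [Module.finrank_baseChange] at h1
  have h2 := finrank_fix_le_bc K ρ P
  omega

end Cfsg.Agent.H457.Half
end

-- part: H457/Half/Core
section
/-!
# The sections of order a power of `p` (helper457)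

Induction on the order of the group for the hypothesis `HypP`.
-/

set_option autoImplicit false

namespace Cfsg.Agent.H457.Half

open Module Subgroup Cfsg.Agent

universe u

/-- the claim for faithful actions of groups of order `n` on elementary abelian `p`-groups -/
def Small (p n : ℕ) : Prop :=
  ∀ (A : Type u) [Group A] [Finite A] [Group.IsSolvable A] (V : Type u) [CommGroup V] [Finite V] [Nontrivial V]
    (P : Subgroup A) (γ : A →* MulAut V), Nat.card A = n → Nat.card P = p → normalClosure (P : Set A) = ⊤ →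
    (∀ v : V, v ^ p = 1) → Function.Injective γ →
    (∀ W : Subgroup V, (∀ a, ∀ w ∈ W, γ a w ∈ W) → W = ⊥ ∨ W = ⊤) →
    Nat.card {v : V // ∀ x ∈ P, γ x v = v} ^ 2 < Nat.card V

theorem irr_toRep {A V : Type*} [Group A] [CommGroup V] (q : ℕ) [Fact q.Prime]
    [Module (ZMod q) (Additive V)]
    (γ : A →* MulAut V) (hirr : ∀ W : Subgroup V, (∀ a, ∀ w ∈ W, γ a w ∈ W) → W = ⊥ ∨ W = ⊤) :
    Irr (OddOrderLocal.FrobAct.toRep q γ) := by
  intro U hU
  let W : Subgroup V := AddSubgroup.toSubgroup' U.toAddSubgroup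
  have hmem : ∀ v : V, v ∈ W ↔ Additive.ofMul v ∈ U := fun v => Iff.rfl
  rcases hirr W (fun a w hw => hU a _ ((hmem w).1 hw)) with h | h
  · left
    rw [eq_bot_iff]
    intro v hv
    have h1 : Additive.toMul v ∈ W := hv
    rw [h, Subgroup.mem_bot] at h1
    exact congrArg Additive.ofMul h1
  · right
    rw [eq_top_iff]
    intro v _
    have h1 : Additive.toMul v ∈ W := by rw [h]; exact Subgroup.mem_top _
    exact h1

theorem small_of_hypP {A V : Type*} [Group A] [Finite A] [Group.IsSolvable A] [CommGroup V] [Finite V]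
    [Nontrivial V] {p : ℕ} [hp : Fact p.Prime] (hp3 : 3 < p) (P : Subgroup A) (γ : A →* MulAut V)
    (hP : Nat.card P = p) (hgen : normalClosure (P : Set A) = ⊤) (hexp : ∀ v : V, v ^ p = 1)
    (hγ : Function.Injective γ)
    (hirr : ∀ W : Subgroup V, (∀ a, ∀ w ∈ W, γ a w ∈ W) → W = ⊥ ∨ W = ⊤) (hyp : HypP P p) :
    Nat.card {v : V // ∀ x ∈ P, γ x v = v} ^ 2 < Nat.card V := by
  have instM : Module (ZMod p) (Additive V) := AddCommGroup.zmodModule (n := p) (by
    intro x
    exact congrArg Additive.ofMul (hexp x.toMul))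
  have hfin : FiniteDimensional (ZMod p) (Additive V) := inferInstance
  have hinj : Function.Injective (OddOrderLocal.FrobAct.toRep p γ) := by
    intro a b hab
    apply hγ
    ext v
    exact congrArg Additive.toMul (LinearMap.congr_fun hab (Additive.ofMul v))
  have key := half hp3 P hP hgen hyp (OddOrderLocal.FrobAct.toRep p γ) (irr_toRep p γ hirr) hinj
  have hcardV : Nat.card V = p ^ finrank (ZMod p) (Additive V) := by
    have := Module.natCard_eq_pow_finrank (K := ZMod p) (V := Additive V)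
    rw [Nat.card_zmod] at this
    exact this
  set F : Submodule (ZMod p) (Additive V) := fix (OddOrderLocal.FrobAct.toRep p γ) P with hF
  have hcardF : Nat.card {v : V // ∀ x ∈ P, γ x v = v} = p ^ finrank (ZMod p) F := by
    have := Module.natCard_eq_pow_finrank (K := ZMod p) (V := F)
    rw [Nat.card_zmod] at this
    rw [← this]
    exact Nat.card_congr
      { toFun := fun x => ⟨Additive.ofMul x.1, fun g hg => congrArg Additive.ofMul (x.2 g hg)⟩
        invFun := fun x => ⟨Additive.toMul x.1, fun g hg => congrArg Additive.toMul (x.2 g hg)⟩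
        left_inv := fun x => rfl
        right_inv := fun x => rfl }
  rw [hcardV, hcardF, ← pow_mul, mul_comm]
  exact Nat.pow_lt_pow_right hp.out.one_lt key

/-- the case of a nonfaithful action -/
theorem card_lt_of_small {A V : Type u} [Group A] [Finite A] [Group.IsSolvable A] [CommGroup V] [Finite V]
    [Nontrivial V] {p : ℕ} [hpp : Fact p.Prime] (hexp : ∀ v : V, v ^ p = 1) (γ : A →* MulAut V)
    (hirr : ∀ W : Subgroup V, (∀ a, ∀ w ∈ W, γ a w ∈ W) → W = ⊥ ∨ W = ⊤)
    (P : Subgroup A) (hP : Nat.card P = p)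
    (hgen : normalClosure (P : Set A) = ⊤) (hnt : ∃ x ∈ P, γ x ≠ 1) (hs : Small.{u} p (Nat.card γ.range)) :
    Nat.card {v : V // ∀ x ∈ P, γ x v = v} ^ 2 < Nat.card V := by
  let f : A →* γ.range := γ.rangeRestrict
  have hf : Function.Surjective f := γ.rangeRestrict_surjective
  have hsol : Group.IsSolvable γ.range := Group.isSolvable_of_surjective hf
  have hker : ∀ x ∈ P, f x = 1 → x = 1 := by
    -- `P` has prime order and acts nontrivially
    have h1 : P ⊓ f.ker = ⊥ := by
      obtain ⟨y, hy, hy1⟩ := hnt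
      by_contra hne
      have h2 : Nat.card ↥(P ⊓ f.ker) ∣ Nat.card P := card_dvd_of_le inf_le_left
      rw [hP] at h2
      rcases (Nat.dvd_prime hpp.out).1 h2 with h3 | h3
      · exact hne (Subgroup.card_eq_one.1 h3)
      · have h4 : P ⊓ f.ker = P := by
          apply Subgroup.eq_of_le_of_card_ge inf_le_left
          rw [h3, hP]
        have h5 : y ∈ f.ker := (Subgroup.mem_inf.1 (by rw [h4]; exact hy : y ∈ P ⊓ f.ker)).2
        rw [MonoidHom.mem_ker] at h5
        exact hy1 (congrArg Subtype.val h5)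
    intro x hx hx1
    have : x ∈ P ⊓ f.ker := ⟨hx, hx1⟩
    rw [h1] at this
    exact Subgroup.mem_bot.1 this
  have hPc : Nat.card (P.map f) = p := by
    rw [← hP]
    refine (Nat.card_congr (Equiv.ofBijective (f.subgroupMap P) ⟨?_, f.subgroupMap_surjective P⟩)).symm
    rw [injective_iff_map_eq_one]
    intro x hx
    apply Subtype.ext
    exact hker x x.2 (congrArg Subtype.val hx)
  have hgen' : normalClosure ((P.map f : Subgroup γ.range) : Set γ.range) = ⊤ := by
    rw [Subgroup.coe_map, ← Subgroup.map_normalClosure _ f hf, hgen, ← MonoidHom.range_eq_map]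
    exact MonoidHom.range_eq_top.2 hf
  have key := hs γ.range V (P.map f) γ.range.subtype rfl hPc hgen' hexp γ.range.subtype_injective
    (fun W hW => hirr W (fun a w hw => hW (f a) w hw))
  have e : Nat.card {v : V // ∀ x ∈ P.map f, γ.range.subtype x v = v} = Nat.card {v : V // ∀ x ∈ P, γ x v = v} := by
    refine Nat.card_congr (Equiv.subtypeEquivRight ?_)
    intro v
    constructor
    · intro h x hx
      exact h (f x) ⟨x, hx, rfl⟩
    · rintro h _ ⟨x, hx, rfl⟩
      exact h x hx
  rw [← e]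
  exact key

/-- **the bound for `p`-sections**, from the claim for smaller groups -/
theorem hypP_of_small {G : Type u} [Group G] [Finite G] [Group.IsSolvable G] {p : ℕ} [hp : Fact p.Prime]
    (P : Subgroup G) (hP : Nat.card P = p) (hgen : normalClosure (P : Set G) = ⊤)
    (hs : ∀ n < Nat.card G, Small.{u} p n) : HypP P p := by
  intro E hE y hyP hy
  obtain ⟨hyo, hyz, hgy⟩ := orderOf_of_card hP hgen hyP hy
  have hEn := hE.normal
  have hZE := hE.center_le
  set π : G →* G ⧸ center G := QuotientGroup.mk' (center G) with hπd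
  have hπ : Function.Surjective π := QuotientGroup.mk'_surjective _
  have hker : π.ker = center G := QuotientGroup.ker_mk' _
  have hmemker : ∀ g, g ∈ center G ↔ π g = 1 := fun g => by rw [← MonoidHom.mem_ker, hker]
  have hVn : (E.map π).Normal := hEn.map _ hπ
  have hcomm : ∀ a ∈ E.map π, ∀ b ∈ E.map π, a * b = b * a := by
    rintro _ ⟨a, ha, rfl⟩ _ ⟨b, hb, rfl⟩
    have h1 := (hmemker _).1 (hE.comm a ha b hb)
    rw [map_mul, map_mul, map_mul, map_inv, map_inv, mul_inv_eq_one, mul_inv_eq_iff_eq_mul] at h1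
    exact h1
  let instC : CommGroup (E.map π) :=
    { (inferInstance : Group (E.map π)) with
      mul_comm := fun a b => Subtype.ext (hcomm a a.2 b b.2) }
  have hexp : ∀ v : E.map π, v ^ p = 1 := by
    rintro ⟨_, v, hv, rfl⟩
    apply Subtype.ext
    change (π v) ^ p = 1
    rw [← map_pow]
    exact (hmemker _).1 (hE.pow v hv)
  have hEb : E.map π ≠ ⊥ := by
    rw [Ne, Subgroup.map_eq_bot_iff, hker]
    exact hE.not_le
  have hVnt : Nontrivial (E.map π) := (Subgroup.nontrivial_iff_ne_bot _).2 hEb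
  let γ : G →* MulAut (E.map π) := (MulAut.conjNormal : (G ⧸ center G) →* MulAut (E.map π)).comp π
  have hγ : ∀ (g : G) (v : E.map π), ((γ g v : E.map π) : G ⧸ center G) = π g * v * (π g)⁻¹ := fun g v =>
    MulAut.conjNormal_apply (π g) v
  -- irreducibility
  have hirr : ∀ W : Subgroup (E.map π), (∀ a, ∀ w ∈ W, γ a w ∈ W) → W = ⊥ ∨ W = ⊤ := by
    intro W hW
    have hWn : (W.map (E.map π).subtype).Normal := by
      refine ⟨?_⟩
      rintro _ ⟨w, hw, rfl⟩ g
      obtain ⟨g, rfl⟩ := hπ g
      exact ⟨γ g w, hW g w hw, hγ g w⟩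
    have hNn : ((W.map (E.map π).subtype).comap π).Normal := hWn.comap π
    have h1 : center G ≤ (W.map (E.map π).subtype).comap π := hker.symm.le.trans (Subgroup.ker_le_comap _ _)
    have h2 : (W.map (E.map π).subtype).comap π ≤ E := by
      intro g hg
      obtain ⟨w, _, hw⟩ := hg
      obtain ⟨e, he, hee⟩ := w.2
      have h3 : π g = π e := by rw [hee]; exact hw.symm
      have h4 : g * e⁻¹ ∈ center G := by
        rw [hmemker, map_mul, map_inv, h3, mul_inv_cancel]
      have h5 : g = (g * e⁻¹) * e := by group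
      rw [h5]
      exact mul_mem (hZE h4) he
    rcases hE.min _ hNn h1 h2 with h | h
    · left
      rw [eq_bot_iff]
      intro w hw
      obtain ⟨e, he, hee⟩ := w.2
      have h3 : e ∈ (W.map (E.map π).subtype).comap π := ⟨w, hw, hee.symm⟩
      rw [h, hmemker, hee] at h3
      exact Subgroup.mem_bot.2 (Subtype.ext h3)
    · right
      rw [eq_top_iff]
      intro w _
      obtain ⟨e, he, hee⟩ := w.2
      have h3 : e ∈ (W.map (E.map π).subtype).comap π := by rw [h]; exact he
      obtain ⟨w', hw', hw''⟩ := h3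
      have h4 : w' = w := Subtype.ext (by rw [← hee]; exact hw'')
      rw [← h4]
      exact hw'
  -- `P` acts nontrivially
  have hnc := hE.not_le_centralizer hgy
  have hnt : ∃ x ∈ P, γ x ≠ 1 := by
    refine ⟨y, hyP, fun h1 => hnc ?_⟩
    intro x hx
    rw [mem_centralizer_singleton_iff]
    have h2 := hγ y ⟨x, hx⟩
    rw [h1] at h2
    change x = π y * x * (π y)⁻¹ at h2
    rw [eq_mul_inv_iff_mul_eq] at h2
    exact h2
  -- the image is smaller
  have hlt : Nat.card γ.range < Nat.card G := by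
    rw [← Subgroup.index_ker, ← Subgroup.card_mul_index γ.ker]
    have h1 : 1 < Nat.card γ.ker := by
      rw [Subgroup.one_lt_card_iff_ne_bot]
      intro h2
      apply hE.not_le
      have h3 : E ≤ γ.ker := by
        intro e he
        rw [MonoidHom.mem_ker]
        ext v
        rw [hγ e v, MulAut.one_apply, hcomm (π e) ⟨e, he, rfl⟩ v v.2, mul_inv_cancel_right]
      rw [h2] at h3
      exact h3.trans bot_le
    have h4 : 0 < γ.ker.index := Nat.pos_of_ne_zero Subgroup.index_ne_zero_of_finite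
    exact lt_mul_of_one_lt_left h4 h1
  have key := card_lt_of_small hexp γ hirr P hP hgen hnt (hs _ hlt)
  -- the fixed points
  have hDeq : (cen E y).map π = E.map π ⊓ centralizer ({π y} : Set (G ⧸ center G)) := by
    apply le_antisymm
    · rintro _ ⟨w, hw, rfl⟩
      rw [cen] at hw
      obtain ⟨h1, h2⟩ := mem_inf.1 hw
      exact mem_inf.2 ⟨⟨w, h1, rfl⟩, h2⟩
    · rintro _ hw
      obtain ⟨⟨w, h1, rfl⟩, h2⟩ := mem_inf.1 hw
      exact ⟨w, mem_inf.2 ⟨h1, h2⟩, rfl⟩
  have hfix : Nat.card {v : E.map π // ∀ x ∈ P, γ x v = v} = Nat.card ((cen E y).map π) := by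
    rw [hDeq]
    have hmem : ∀ v : E.map π, (∀ x ∈ P, γ x v = v) ↔ (v : G ⧸ center G) ∈ centralizer ({π y} : Set (G ⧸ center G)) := by
      intro v
      rw [mem_centralizer_singleton_iff]
      constructor
      · intro h
        have h1 := hγ y v
        rw [h y hyP, eq_mul_inv_iff_mul_eq] at h1
        exact h1
      · intro h x hx
        obtain ⟨n, rfl⟩ := mem_zpowers_iff.1 (hyz x hx)
        apply Subtype.ext
        rw [hγ, map_zpow]
        have h2 : Commute (π y) (v : G ⧸ center G) := h.symm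
        rw [(h2.zpow_left n).eq, mul_inv_cancel_right]
    refine Nat.card_congr
      { toFun := fun v => ⟨v.1, mem_inf.2 ⟨v.1.2, (hmem v.1).1 v.2⟩⟩
        invFun := fun v => ⟨⟨v.1, (mem_inf.1 v.2).1⟩, (hmem _).2 (mem_inf.1 v.2).2⟩
        left_inv := fun v => rfl
        right_inv := fun v => rfl }
  rw [hfix] at key
  -- the order of the image of `y`
  have hy' : orderOf (π y) = p := by
    have h1 : orderOf (π y) ∣ p := hyo ▸ orderOf_map_dvd _ y
    rcases (Nat.dvd_prime hp.out).1 h1 with h2 | h2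
    · exfalso
      apply hnc
      rw [orderOf_eq_one_iff] at h2
      change E.map π ≤ centralizer ({π y} : Set (G ⧸ center G))
      rw [h2]
      intro x _
      rw [mem_centralizer_singleton_iff, mul_one, one_mul]
    · exact h2
  have hmod := card_modEq_centralizer (A := E.map π) hy'
  rw [← hDeq] at hmod
  have hpg : IsPGroup p (E.map π) := fun v => ⟨1, by rw [pow_one]; exact hexp v⟩
  obtain ⟨n, hn⟩ := IsPGroup.iff_card.1 hpg
  have hle : (cen E y).map π ≤ E.map π := Subgroup.map_mono inf_le_left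
  obtain ⟨m, hmn, hm⟩ := (Nat.dvd_prime_pow hp.out).1 (hn ▸ Subgroup.card_dvd_of_le hle)
  have hn0 : n ≠ 0 := by
    rintro rfl
    rw [pow_zero] at hn
    exact hEb (Subgroup.card_eq_one.1 hn)
  have hm0 : m ≠ 0 := by
    rintro rfl
    rw [hm, hn, pow_zero] at hmod
    have h1 : p ^ n ≡ 0 [MOD p] := (Nat.modEq_zero_iff_dvd).2 (dvd_pow_self p hn0)
    have h2 : p ∣ 1 := (Nat.modEq_zero_iff_dvd).1 (hmod.symm.trans h1)
    exact hp.out.one_lt.ne' (Nat.dvd_one.1 h2)
  rw [hm, hn, ← pow_mul] at key
  have h2m : m * 2 < n := (Nat.pow_lt_pow_iff_right hp.out.one_lt).1 key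
  have h3 : (p - 1) ^ 2 * p ^ m ≤ p ^ n := by
    calc (p - 1) ^ 2 * p ^ m ≤ p ^ 2 * p ^ m := Nat.mul_le_mul_right _ (Nat.pow_le_pow_left (Nat.sub_le _ _) 2)
      _ = p ^ (2 + m) := (pow_add _ _ _).symm
      _ ≤ p ^ n := Nat.pow_le_pow_right hp.out.pos (by omega)
  have hZD : center G ≤ cen E y := by
    intro z hz
    rw [mem_cen]
    refine ⟨hZE hz, ?_⟩
    have e : y * z * y⁻¹ * z⁻¹ = 1 := by
      rw [mem_center_iff.1 hz y]; group
    rw [e]
    exact one_mem _
  rw [card_map_mk E hZE, card_map_mk (cen E y) hZD]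
  change (p - 1) ^ 2 * (Nat.card (center G) * Nat.card ((cen E y).map π)) ≤ Nat.card (center G) * Nat.card (E.map π)
  rw [hm, hn]
  calc (p - 1) ^ 2 * (Nat.card (center G) * p ^ m) = Nat.card (center G) * ((p - 1) ^ 2 * p ^ m) := by ring
    _ ≤ Nat.card (center G) * p ^ n := Nat.mul_le_mul_left _ h3

theorem small {p : ℕ} [hp : Fact p.Prime] (hp3 : 3 < p) : ∀ n, Small.{u} p n := by
  intro n
  induction n using Nat.strong_induction_on with
  | _ n ih =>
    intro A _ _ _ V _ _ _ P γ hA hP hgen hexp hγ hirr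
    exact small_of_hypP hp3 P γ hP hgen hexp hγ hirr (hypP_of_small P hP hgen (fun m hm => ih m (hA ▸ hm)))

theorem hypP {G : Type*} [Group G] [Finite G] [Group.IsSolvable G] {p : ℕ} [hp : Fact p.Prime] (hp3 : 3 < p)
    (P : Subgroup G) (hP : Nat.card P = p) (hgen : normalClosure (P : Set G) = ⊤) : HypP P p :=
  hypP_of_small P hP hgen (fun n _ => small hp3 n)

/-- **S3818**, with `Irr` and `fix`. -/
theorem main' {k G V : Type*} [Field k] [Group G] [Finite G] [Group.IsSolvable G]
    [AddCommGroup V] [Module k V] [FiniteDimensional k V] [Nontrivial V] {p : ℕ} [hp : Fact p.Prime] (hp3 : 3 < p)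
    (P : Subgroup G) (hP : Nat.card P = p) (hgen : normalClosure (P : Set G) = ⊤)
    (ρ : Representation k G V) (hirr : Irr ρ) (hfaith : Function.Injective ρ) :
    2 * finrank k (fix ρ P) < finrank k V :=
  half hp3 P hP hgen (hypP hp3 P hP hgen) ρ hirr hfaith

end Cfsg.Agent.H457.Half
end

-- part: S3818
section
set_option autoImplicit false
open Cfsg

namespace Cfsg.Agent.S3818

/-- Let G be a finite solvable group and P a subgroup of G of prime order p > 3 whose conjugates generate G. Let V be a faithful irreducible representation of G over a field of positive characteristic, finite-dimensional. Then the subspace of V fixed by P has dimension less than half the dimension of V. -/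
theorem result {G : Type*} [Group G] [Finite G] [Group.IsSolvable G]
    {p : ℕ} [Fact p.Prime] (hp : 3 < p) (P : Subgroup G) (hP : Nat.card P = p) (hgen : Subgroup.normalClosure (P : Set G) = ⊤)
    {k : Type*} [Field k] (ℓ : ℕ) [Fact ℓ.Prime] [CharP k ℓ]
    {V : Type*} [AddCommGroup V] [Module k V] [FiniteDimensional k V]
    (ρ : Representation k G V) [ρ.IsIrreducible] (hfaith : Function.Injective ρ) :
    2 * Module.finrank k ↥(⨅ g : ↥P, LinearMap.ker (ρ (g : G) - LinearMap.id)) < Module.finrank k V := by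
  have hI : ρ.IsIrreducible := inferInstance
  have hnt : Nontrivial V := by
    by_contra h
    have hs : Subsingleton V := not_nontrivial_iff_subsingleton.1 h
    obtain ⟨σ, τ, hne⟩ := hI.exists_pair_ne
    apply hne
    apply Subrepresentation.toSubmodule_injective
    exact Subsingleton.elim _ _
  have hirr : Agent.H457.Half.Irr ρ := by
    intro U hU
    let σ : Subrepresentation ρ := ⟨U, fun g u hu => hU g u hu⟩
    rcases hI.eq_bot_or_eq_top σ with h | h
    · left
      exact congrArg Subrepresentation.toSubmodule h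
    · right
      exact congrArg Subrepresentation.toSubmodule h
  have key := Agent.H457.Half.main' hp P hP hgen ρ hirr hfaith
  have heq : (⨅ g : ↥P, LinearMap.ker (ρ (g : G) - LinearMap.id)) = Agent.H457.Half.fix ρ P := by
    ext v
    rw [Submodule.mem_iInf, Agent.H457.Half.mem_fix]
    constructor
    · intro h y hy
      have h1 := h ⟨y, hy⟩
      rw [LinearMap.mem_ker, LinearMap.sub_apply, LinearMap.id_apply, sub_eq_zero] at h1
      exact h1
    · intro h g
      rw [LinearMap.mem_ker, LinearMap.sub_apply, LinearMap.id_apply, sub_eq_zero]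
      exact h g g.2
  rw [heq]
  exact key

end Cfsg.Agent.S3818
end
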