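import Cfsg.Statements.S3820
import Cfsg.Agent.H457.Basic
set_option linter.all false

set_option autoImplicit false
open Cfsg

namespace Cfsg.Agent.S3820

/-- Call a subgroup H of G pronormal if H and gHg⁻¹ are conjugate inside ⟨H, gHg⁻¹⟩ for every g ∈ G. Let S ≤ H ≤ G be subgroups of a finite group with S pronormal in G (for instance S a Sylow subgroup). Then H is pronormal in G if and only if H and gHg⁻¹ are conjugate inside ⟨H, gHg⁻¹⟩ for every g ∈ N_G(S). In particular H is pronormal whenever N_G(S) ≤ H. -/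
theorem result {G : Type*} [Group G] [Finite G] (S H : Subgroup G) (hSH : S ≤ H)
    (hS : Cfsg.IsPronormal S) :
    Cfsg.IsPronormal H ↔
      ∀ g ∈ Subgroup.normalizer (S : Set G), ∃ w ∈ H ⊔ H.map (MulAut.conj g).toMonoidHom,
        H.map (MulAut.conj g).toMonoidHom = H.map (MulAut.conj w).toMonoidHom := by
  constructor
  · intro h g _
    exact h g
  · intro h g
    obtain ⟨x, hx, hxe⟩ := hS g
    have hmono : S ⊔ S.map (MulAut.conj g).toMonoidHom ≤ H ⊔ H.map (MulAut.conj g).toMonoidHom :=
      sup_le_sup hSH (Subgroup.map_mono hSH)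
    have hxK := hmono hx
    have hn : x⁻¹ * g ∈ Subgroup.normalizer (S : Set G) := by
      apply H457.mem_normalizer_of_map_conj_eq
      rw [H94.Pronormal.map_conj_mul, hxe, ← H94.Pronormal.map_conj_mul, inv_mul_cancel,
        H94.Pronormal.map_conj_one]
    obtain ⟨w, hw, hwe⟩ := h _ hn
    have hwK : w ∈ H ⊔ H.map (MulAut.conj g).toMonoidHom := by
      refine (sup_le le_sup_left ?_ : H ⊔ H.map (MulAut.conj (x⁻¹ * g)).toMonoidHom ≤ _) hw
      rw [H94.Pronormal.map_conj_mul]
      exact H94.Pronormal.map_conj_le (inv_mem hxK) le_sup_right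
    refine ⟨x * w, mul_mem hxK hwK, ?_⟩
    rw [H94.Pronormal.map_conj_mul H x w, ← hwe, ← H94.Pronormal.map_conj_mul, mul_inv_cancel_left]

end Cfsg.Agent.S3820
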