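import Cfsg.Statements.S3821
import Cfsg.Agent.H457.Basic
set_option linter.all false

set_option autoImplicit false
open Cfsg

namespace Cfsg.Agent.S3821

theorem map_conj_subgroupOf {G : Type*} [Group G] {A H : Subgroup G} (hHA : H ≤ A) (a : A) :
    ((H.subgroupOf A).map (MulAut.conj a).toMonoidHom).map A.subtype =
      H.map (MulAut.conj (a : G)).toMonoidHom := by
  ext x
  simp only [Subgroup.mem_map, Subgroup.mem_subgroupOf]
  constructor
  · rintro ⟨_, ⟨y, hy, rfl⟩, rfl⟩
    exact ⟨y, hy, by simp⟩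
  · rintro ⟨y, hy, rfl⟩
    exact ⟨_, ⟨⟨y, hHA hy⟩, hy, rfl⟩, by simp⟩

/-- Let A be a normal subgroup of the finite group G and H a subgroup of A. Then H is pronormal in G (H and gHg⁻¹ conjugate inside ⟨H, gHg⁻¹⟩ for every g ∈ G) if and only if H is pronormal in A and G = A · N_G(H). -/
theorem result {G : Type*} [Group G] [Finite G] (A H : Subgroup G) [A.Normal] (hHA : H ≤ A) :
    Cfsg.IsPronormal H ↔ (Cfsg.IsPronormal (H.subgroupOf A) ∧ A ⊔ Subgroup.normalizer (H : Set G) = ⊤) := by
  have hsub : (H.subgroupOf A).map A.subtype = H := by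
    rw [Subgroup.subgroupOf_map_subtype, inf_eq_left.2 hHA]
  have hKA : ∀ g : G, H ⊔ H.map (MulAut.conj g).toMonoidHom ≤ A := by
    intro g
    refine sup_le hHA ?_
    rintro _ ⟨y, hy, rfl⟩
    exact Subgroup.Normal.conj_mem inferInstance _ (hHA hy) g
  constructor
  · intro h
    refine ⟨?_, ?_⟩
    · intro a
      obtain ⟨x, hx, hxe⟩ := h (a : G)
      have hxA : x ∈ A := hKA _ hx
      refine ⟨⟨x, hxA⟩, ?_, ?_⟩
      · have : (⟨x, hxA⟩ : A) ∈ (H.subgroupOf A ⊔ (H.subgroupOf A).map (MulAut.conj a).toMonoidHom) := by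
          have h1 : (A.subtype ⟨x, hxA⟩ : G) ∈ (H.subgroupOf A ⊔ (H.subgroupOf A).map (MulAut.conj a).toMonoidHom).map A.subtype := by
            rw [Subgroup.map_sup, map_conj_subgroupOf hHA, hsub]
            exact hx
          obtain ⟨y, hy, hye⟩ := h1
          exact (Subtype.ext hye : y = ⟨x, hxA⟩) ▸ hy
        exact this
      · apply Subgroup.map_injective A.subtype_injective
        rw [map_conj_subgroupOf hHA, map_conj_subgroupOf hHA]
        exact hxe
    · rw [eq_top_iff]
      intro g _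
      obtain ⟨x, hx, hxe⟩ := h g
      have hn : x⁻¹ * g ∈ Subgroup.normalizer (H : Set G) := by
        apply H457.mem_normalizer_of_map_conj_eq
        rw [H94.Pronormal.map_conj_mul, hxe, ← H94.Pronormal.map_conj_mul, inv_mul_cancel,
          H94.Pronormal.map_conj_one]
      have e : g = x * (x⁻¹ * g) := by group
      rw [e]
      exact mul_mem ((le_sup_left : A ≤ _) (hKA g hx)) ((le_sup_right : _ ≤ A ⊔ _) hn)
  · rintro ⟨h, htop⟩ g
    have hg : g ∈ A ⊔ Subgroup.normalizer (H : Set G) := htop ▸ Subgroup.mem_top g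
    rw [Subgroup.mem_sup_of_normal_left] at hg
    obtain ⟨a, ha, n, hn, rfl⟩ := hg
    have e1 : H.map (MulAut.conj (a * n)).toMonoidHom = H.map (MulAut.conj a).toMonoidHom := by
      rw [H94.Pronormal.map_conj_mul, H94.Pronormal.map_conj_of_mem_normalizer hn]
    rw [e1]
    obtain ⟨x, hx, hxe⟩ := h ⟨a, ha⟩
    refine ⟨x, ?_, ?_⟩
    · have h1 := Subgroup.mem_map_of_mem A.subtype hx
      rw [Subgroup.map_sup, map_conj_subgroupOf hHA, hsub] at h1
      exact h1
    · have h2 := congrArg (Subgroup.map A.subtype) hxe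
      rw [map_conj_subgroupOf hHA, map_conj_subgroupOf hHA] at h2
      exact h2

end Cfsg.Agent.S3821
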