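import Cfsg.Prelude.Def_Solvable
import Cfsg.Agent.Lib.Cores
import Cfsg.Agent.Lib.LocalCore
import Cfsg.Agent.H457.Basic
import Cfsg.Agent.SignalizersComponents.CoprimeBasic
import Cfsg.Agent.Lib.CoprimeAbelian
import Cfsg.Agent.Lib.CoprimeCommutator
import Cfsg.Agent.SolvableStructure.AbelianSocle
import Cfsg.Agent.S3818
import Cfsg.Agent.OddOrderLocal.FrobAct
import Cfsg.Agent.SignalizersComponents.ClassTwo
import Cfsg.Statements.S3822
import Cfsg.Agent.S1288
set_option linter.all false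

-- part: H457/CrossAct
section
/-!
# Generation of `A U` by `P` and a conjugate of `P` (helper457)

`X = A U`, `U` an abelian minimal normal `q`-subgroup with complement `A = ⟨P, P^a⟩`, `R` a normal `r`-subgroup of `A`
without fixed points on `U`, `|C_U(P)|² < |U|`: then `X = ⟨P, P^{wa}⟩` for some `w ∈ U`.
-/

set_option autoImplicit false

namespace Cfsg.Agent.H457.CrossAct

open Subgroup Cfsg Cfsg.Agent
open scoped commutatorElement

variable {X : Type*} [Group X] [Finite X]

theorem mem_map_conj {A : Subgroup X} {g x : X} :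
    x ∈ A.map (MulAut.conj g).toMonoidHom ↔ g⁻¹ * x * g ∈ A := by
  constructor
  · rintro ⟨y, hy, rfl⟩
    have e : g⁻¹ * ((MulAut.conj g).toMonoidHom y) * g = y := by
      simp [mul_assoc]
    rw [e]; exact hy
  · intro h
    refine ⟨_, h, ?_⟩
    simp [mul_assoc]

/-- Sylow: a subgroup `C` of `S = R U`, of the same order as the `r`-group `R`, `U` normal of order prime to `r`, is
`U`-conjugate to `R`. -/
theorem exists_conj {r : ℕ} [Fact r.Prime] (R U C : Subgroup X) (hU : U.Normal) (hR : IsPGroup r R)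
    (hrU : ¬ r ∣ Nat.card U) (hC : C ≤ R ⊔ U) (hcard : Nat.card C = Nat.card R) :
    ∃ u ∈ U, C = R.map (MulAut.conj u).toMonoidHom := by
  classical
  set S : Subgroup X := R ⊔ U with hS
  have hRS : R ≤ S := le_sup_left
  have hUS : U ≤ S := le_sup_right
  have hRU : R ⊓ U = ⊥ := by
    obtain ⟨n, hn⟩ := IsPGroup.iff_card.mp hR
    apply Disjoint.eq_bot
    apply Subgroup.disjoint_of_coprime_natCard
    rw [hn]
    exact Nat.Coprime.pow_left n ((Fact.out : r.Prime).coprime_iff_not_dvd.2 hrU)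
  -- index of `R` in `S`
  have hcardS : Nat.card S = Nat.card R * Nat.card U := by
    have h1 : (Nat.card R).Coprime (Nat.card U) := by
      obtain ⟨n, hn⟩ := IsPGroup.iff_card.mp hR
      rw [hn]
      exact Nat.Coprime.pow_left n ((Fact.out : r.Prime).coprime_iff_not_dvd.2 hrU)
    have h2 := Lib.LocalCore.card_sup_of_coprime R U h1
    exact h2
  have hindex : ∀ D : Subgroup X, D ≤ S → Nat.card D = Nat.card R → ¬ r ∣ (D.subgroupOf S).index := by
    intro D hD hDc
    have h1 := Subgroup.card_mul_index (D.subgroupOf S)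
    rw [Nat.card_congr (subgroupOfEquivOfLe hD).toEquiv, hDc, hcardS] at h1
    have h2 : (D.subgroupOf S).index = Nat.card U := Nat.eq_of_mul_eq_mul_left Nat.card_pos h1
    rw [h2]; exact hrU
  have hpg : ∀ D : Subgroup X, D ≤ S → Nat.card D = Nat.card R → IsPGroup r (D.subgroupOf S) := by
    intro D hD hDc
    obtain ⟨n, hn⟩ := IsPGroup.iff_card.mp hR
    apply IsPGroup.of_card (n := n)
    rw [Nat.card_congr (subgroupOfEquivOfLe hD).toEquiv, hDc, hn]
  let PR : Sylow r S := (hpg R hRS rfl).toSylow (hindex R hRS rfl)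
  let PC : Sylow r S := (hpg C hC hcard).toSylow (hindex C hC hcard)
  obtain ⟨s, hs⟩ := MulAction.exists_smul_eq S PR PC
  have h3 : (PC : Subgroup S) = (PR : Subgroup S).map (MulAut.conj s).toMonoidHom := by
    rw [← hs]; rfl
  have hPR : (PR : Subgroup S) = R.subgroupOf S := IsPGroup.toSylow_coe _ _
  have hPC : (PC : Subgroup S) = C.subgroupOf S := IsPGroup.toSylow_coe _ _
  rw [hPR, hPC] at h3
  have h4 : C = R.map (MulAut.conj (s : X)).toMonoidHom := by
    have h5 := congrArg (Subgroup.map S.subtype) h3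
    rw [subgroupOf_map_subtype, inf_eq_left.2 hC] at h5
    rw [h5]
    ext x
    simp only [Subgroup.mem_map, Subgroup.mem_subgroupOf]
    constructor
    · rintro ⟨_, ⟨y, hy, rfl⟩, rfl⟩
      exact ⟨y, hy, by simp⟩
    · rintro ⟨y, hy, rfl⟩
      exact ⟨_, ⟨⟨y, hRS hy⟩, hy, rfl⟩, by simp⟩
  -- `s = u * ρ`
  have h5 : (s : X) ∈ U ⊔ R := by rw [sup_comm]; exact s.2
  rw [Subgroup.mem_sup_of_normal_left] at h5
  obtain ⟨u, hu, ρ, hρ, hs'⟩ := h5
  refine ⟨u, hu, ?_⟩
  rw [h4, ← hs', H94.Pronormal.map_conj_mul, H94.Pronormal.map_conj_of_mem_normalizer (le_normalizer hρ)]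

/-- The complement counting lemma. -/
theorem exists_generate {q r : ℕ} [Fact q.Prime] [Fact r.Prime] (hqr : r ≠ q) (U A R P : Subgroup X)
    (hU : U.Normal) (hUc : ∀ x ∈ U, ∀ y ∈ U, x * y = y * x) (hUq : IsPGroup q U)
    (hmin : ∀ N : Subgroup X, N ≤ U → N.Normal → N = ⊥ ∨ N = U)
    (hAU : A ⊔ U = ⊤) (hAU' : A ⊓ U = ⊥) (hRA : R ≤ A) (hAR : A ≤ normalizer (R : Set X)) (hR : IsPGroup r R)
    (hfix : U ⊓ centralizer (R : Set X) = ⊥) (a : X) (ha : a ∈ A)
    (hA : A = P ⊔ P.map (MulAut.conj a).toMonoidHom)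
    (hcount : Nat.card ↥(U ⊓ centralizer (P : Set X)) ^ 2 < Nat.card U) :
    ∃ w ∈ U, P ⊔ P.map (MulAut.conj (w * a)).toMonoidHom = ⊤ := by
  classical
  by_contra hcon
  push Not at hcon
  have hPA : P ≤ A := by rw [hA]; exact le_sup_left
  have hrU : ¬ r ∣ Nat.card U := by
    intro h
    obtain ⟨n, hn⟩ := IsPGroup.iff_card.mp hUq
    rw [hn] at h
    have := (Fact.out : r.Prime).dvd_of_dvd_pow h
    exact hqr ((Nat.prime_dvd_prime_iff_eq Fact.out Fact.out).1 this)
  -- `B w`
  let B : X → Subgroup X := fun w => P ⊔ P.map (MulAut.conj (w * a)).toMonoidHom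
  have hBU : ∀ w ∈ U, B w ⊔ U = ⊤ := by
    intro w hw
    rw [eq_top_iff, ← hAU]
    refine sup_le ?_ le_sup_right
    rw [hA]
    refine sup_le (le_sup_left.trans le_sup_left) ?_
    intro x hx
    rw [mem_map_conj] at hx
    have h1 : (w * x * w⁻¹) ∈ B w := by
      refine (le_sup_right : _ ≤ B w) ?_
      rw [mem_map_conj]
      have e : (w * a)⁻¹ * (w * x * w⁻¹) * (w * a) = a⁻¹ * x * a := by group
      rw [e]; exact hx
    have e : x = w⁻¹ * (w * x * w⁻¹) * w := by group
    rw [e]
    exact mul_mem (mul_mem ((le_sup_right : U ≤ B w ⊔ U) (inv_mem hw)) ((le_sup_left : B w ≤ B w ⊔ U) h1))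
      ((le_sup_right : U ≤ B w ⊔ U) hw)
  have hBI : ∀ w ∈ U, B w ⊓ U = ⊥ := by
    intro w hw
    have hn : (B w ⊓ U).Normal := by
      rw [← Subgroup.normalizer_eq_top_iff, eq_top_iff, ← hBU w hw]
      refine sup_le ?_ ?_
      · intro x hx
        exact inf_normalizer_le_normalizer_inf ⟨le_normalizer hx, le_normalizer_of_normal (mem_top x)⟩
      · intro x hx
        rw [mem_normalizer_iff]
        intro y
        have key : ∀ y ∈ U, x * y * x⁻¹ = y := by
          intro y hy
          rw [hUc x hx y hy]; group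
        constructor
        · intro hy
          rw [key y hy.2]; exact hy
        · intro hy
          have h1 : y ∈ U := by
            have := hU.conj_mem _ hy.2 x⁻¹
            have e : x⁻¹ * (x * y * x⁻¹) * x⁻¹⁻¹ = y := by group
            rwa [e] at this
          rwa [key y h1] at hy
    rcases hmin _ inf_le_right hn with h | h
    · exact h
    · exfalso
      have h1 : U ≤ B w := by rw [← h]; exact inf_le_left
      have h2 : B w = ⊤ := by
        rw [← hBU w hw]; exact (sup_eq_left.2 h1).symm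
      exact hcon w hw h2
  -- `R ⊔ U` is normal
  have hRUn : (R ⊔ U).Normal := by
    rw [← Subgroup.normalizer_eq_top_iff, eq_top_iff, ← hAU]
    refine sup_le ?_ ?_
    · intro x hx
      have h1 : x ∈ normalizer (R : Set X) := hAR hx
      have h2 : x ∈ normalizer (U : Set X) := le_normalizer_of_normal (mem_top x)
      exact Subgroup.normalizer_inf_normalizer_le_normalizer_sup R U (Subgroup.mem_inf.2 ⟨h1, h2⟩)
    · exact le_sup_right.trans le_normalizer
  -- the normalizer of `R` is `A`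
  have hNR : ∀ x ∈ normalizer (R : Set X), x ∈ A := by
    intro x hx
    have h1 : x ∈ U ⊔ A := by rw [sup_comm, hAU]; exact mem_top x
    rw [Subgroup.mem_sup_of_normal_left] at h1
    obtain ⟨v, hv, b, hb, rfl⟩ := h1
    have h2 : v ∈ normalizer (R : Set X) := by
      have := mul_mem hx (inv_mem (hAR hb))
      rwa [mul_inv_cancel_right] at this
    have h3 : v ∈ U ⊓ centralizer (R : Set X) := by
      refine ⟨hv, mem_centralizer_iff.2 ?_⟩
      intro ρ hρ
      have h4 : v * ρ * v⁻¹ ∈ R := (mem_normalizer_iff.1 h2 ρ).1 hρ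
      have h5 : (v * ρ * v⁻¹) * ρ⁻¹ ∈ A ⊓ U := by
        refine Subgroup.mem_inf.2 ⟨mul_mem (hRA h4) (inv_mem (hRA hρ)), ?_⟩
        have e : v * ρ * v⁻¹ * ρ⁻¹ = v * (ρ * v⁻¹ * ρ⁻¹) := by group
        rw [e]
        exact mul_mem hv (hU.conj_mem _ (inv_mem hv) ρ)
      rw [hAU', mem_bot] at h5
      have h6 : v * ρ * v⁻¹ = ρ := mul_inv_eq_one.1 h5
      calc ρ * v = (v * ρ * v⁻¹) * v := by rw [h6]
        _ = v * ρ := by group
    rw [hfix, mem_bot] at h3
    rw [h3, one_mul]; exact hb
  have hcardRU : Nat.card ↥(R ⊔ U) = Nat.card R * Nat.card U := by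
    have h1 : (Nat.card R).Coprime (Nat.card U) := by
      obtain ⟨n, hn⟩ := IsPGroup.iff_card.mp hR
      rw [hn]
      exact Nat.Coprime.pow_left n ((Fact.out : r.Prime).coprime_iff_not_dvd.2 hrU)
    exact Lib.LocalCore.card_sup_of_coprime R U h1
  -- each `B w` is contained in a conjugate of `A`
  have hBA : ∀ w ∈ U, ∃ u ∈ U, B w ≤ A.map (MulAut.conj u).toMonoidHom := by
    intro w hw
    set C : Subgroup X := B w ⊓ (R ⊔ U) with hC
    have hCU : C ⊔ U = R ⊔ U := by
      apply le_antisymm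
      · exact sup_le inf_le_right le_sup_right
      · intro x hx
        have h1 : x ∈ U ⊔ B w := by rw [sup_comm, hBU w hw]; exact mem_top x
        rw [Subgroup.mem_sup_of_normal_left] at h1
        obtain ⟨v, hv, b, hb, rfl⟩ := h1
        have h2 : b ∈ R ⊔ U := by
          have := mul_mem (inv_mem ((le_sup_right : U ≤ R ⊔ U) hv)) hx
          rwa [inv_mul_cancel_left] at this
        exact mul_mem ((le_sup_right : U ≤ C ⊔ U) hv) ((le_sup_left : C ≤ C ⊔ U) ⟨hb, h2⟩)
    have hCI : C ⊓ U = ⊥ := by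
      rw [eq_bot_iff, ← hBI w hw]
      exact inf_le_inf inf_le_left le_rfl
    have hCcard : Nat.card C = Nat.card R := by
      have h1 := Subgroup.card_mul_index (U.subgroupOf (R ⊔ U))
      rw [Nat.card_congr (subgroupOfEquivOfLe (le_sup_right : U ≤ R ⊔ U)).toEquiv, hcardRU] at h1
      have h2 : (U.subgroupOf (R ⊔ U)).index = Nat.card R := by
        rw [mul_comm] at h1
        exact Nat.eq_of_mul_eq_mul_right Nat.card_pos h1
      have h3 : U.relIndex C = U.relIndex (C ⊔ U) := by
        rw [Subgroup.relIndex_sup_right]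
      have h4 : U.relIndex C = Nat.card C := by
        rw [← Subgroup.relIndex_bot_left, ← hCI, inf_comm, Subgroup.inf_relIndex_right]
      rw [← h4, h3, hCU, Subgroup.relIndex, h2]
    obtain ⟨u, hu, hCR⟩ := exists_conj R U C hU hR hrU inf_le_right hCcard
    refine ⟨u, hu, ?_⟩
    intro b hb
    rw [mem_map_conj]
    apply hNR
    apply H457.mem_normalizer_of_map_conj_eq
    -- `b` normalizes `C = R^u`
    have h1 : C.map (MulAut.conj b).toMonoidHom = C := by
      apply H94.Pronormal.map_conj_of_mem_normalizer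
      exact inf_normalizer_le_normalizer_inf ⟨le_normalizer hb, le_normalizer_of_normal (mem_top b)⟩
    rw [hCR] at h1
    rw [← H94.Pronormal.map_conj_mul] at h1
    have h2 := congrArg (Subgroup.map (MulAut.conj u⁻¹).toMonoidHom) h1
    rw [← H94.Pronormal.map_conj_mul, ← H94.Pronormal.map_conj_mul, inv_mul_cancel,
      H94.Pronormal.map_conj_one, ← mul_assoc] at h2
    exact h2
  -- counting
  set F : Subgroup X := U ⊓ centralizer (P : Set X) with hF
  let φ : F × F → U := fun z => ⟨(z.1 : X) * (a * z.2 * a⁻¹), mul_mem z.1.2.1 (hU.conj_mem _ z.2.2.1 a)⟩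
  have hφ : Function.Surjective φ := by
    rintro ⟨w, hw⟩
    obtain ⟨u, hu, hBu⟩ := hBA w hw
    have hu1 : u ∈ F := by
      refine ⟨hu, mem_centralizer_iff.2 ?_⟩
      intro x hx
      have h1 : x ∈ A.map (MulAut.conj u).toMonoidHom := hBu ((le_sup_left : P ≤ B w) hx)
      rw [mem_map_conj] at h1
      have h2 : x⁻¹ * (u⁻¹ * x * u) ∈ A ⊓ U := by
        refine Subgroup.mem_inf.2 ⟨mul_mem (inv_mem (hPA hx)) h1, ?_⟩
        have e : x⁻¹ * (u⁻¹ * x * u) = (x⁻¹ * u⁻¹ * x⁻¹⁻¹) * u := by group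
        rw [e]
        exact mul_mem (hU.conj_mem _ (inv_mem hu) x⁻¹) hu
      rw [hAU', mem_bot] at h2
      have h3 : u⁻¹ * x * u = x := (inv_mul_eq_one.1 h2).symm
      calc x * u = u * (u⁻¹ * x * u) := by group
        _ = u * x := by rw [h3]
    have hv : u⁻¹ * w ∈ U := mul_mem (inv_mem hu) hw
    have hv1 : a⁻¹ * (u⁻¹ * w) * a ∈ F := by
      refine ⟨by simpa using hU.conj_mem _ hv a⁻¹, mem_centralizer_iff.2 ?_⟩
      intro x hx
      have hy : a * x * a⁻¹ ∈ A := mul_mem (mul_mem ha (hPA hx)) (inv_mem ha)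
      have h1 : (w * a) * x * (w * a)⁻¹ ∈ A.map (MulAut.conj u).toMonoidHom := by
        apply hBu
        apply (le_sup_right : _ ≤ B w)
        rw [mem_map_conj]
        have e : (w * a)⁻¹ * ((w * a) * x * (w * a)⁻¹) * (w * a) = x := by group
        rw [e]; exact hx
      rw [mem_map_conj] at h1
      have h2 : (a * x * a⁻¹)⁻¹ * (u⁻¹ * ((w * a) * x * (w * a)⁻¹) * u) ∈ A ⊓ U := by
        refine Subgroup.mem_inf.2 ⟨mul_mem (inv_mem hy) h1, ?_⟩
        have e : (a * x * a⁻¹)⁻¹ * (u⁻¹ * ((w * a) * x * (w * a)⁻¹) * u) =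
            ((a * x * a⁻¹)⁻¹ * (u⁻¹ * w) * ((a * x * a⁻¹)⁻¹)⁻¹) * (w⁻¹ * u) := by group
        rw [e]
        exact mul_mem (hU.conj_mem _ hv _) (mul_mem (inv_mem hw) hu)
      rw [hAU', mem_bot] at h2
      have h3 : u⁻¹ * ((w * a) * x * (w * a)⁻¹) * u = a * x * a⁻¹ := (inv_mul_eq_one.1 h2).symm
      have hcomm : w⁻¹ * u = u * w⁻¹ := hUc _ (inv_mem hw) _ hu
      have h4 : (u⁻¹ * w) * (a * x * a⁻¹) * (u⁻¹ * w)⁻¹ = a * x * a⁻¹ := by
        rw [← h3]
        have e : (u⁻¹ * w)⁻¹ = w⁻¹ * u := by group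
        rw [e]
        have e2 : u⁻¹ * (w * a * x * (w * a)⁻¹) * u = (u⁻¹ * w) * (a * x * a⁻¹) * (w⁻¹ * u) := by group
        have e3 : u⁻¹ * w = w * u⁻¹ := hUc _ (inv_mem hu) _ hw
        rw [e2]
        rw [e2] at h3
        rw [h3]
        exact h3
      calc x * (a⁻¹ * (u⁻¹ * w) * a) = a⁻¹ * ((a * x * a⁻¹) * (u⁻¹ * w)) * a := by group
        _ = a⁻¹ * (((u⁻¹ * w) * (a * x * a⁻¹) * (u⁻¹ * w)⁻¹) * (u⁻¹ * w)) * a := by rw [h4]
        _ = a⁻¹ * (u⁻¹ * w) * a * x := by group
    refine ⟨(⟨u, hu1⟩, ⟨_, hv1⟩), ?_⟩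
    apply Subtype.ext
    change u * (a * (a⁻¹ * (u⁻¹ * w) * a) * a⁻¹) = w
    group
  have h1 := Nat.card_le_card_of_surjective φ hφ
  rw [Nat.card_prod, ← pow_two] at h1
  exact absurd hcount (not_lt.2 h1)

end Cfsg.Agent.H457.CrossAct
end

-- part: H457/HalfFix
section
/-!
# The fixed space of an element of prime order `p > 3` (helper457)

Group-theoretic form of S3818: `|C_V(P)|² < |V|`.
-/

set_option autoImplicit false

namespace Cfsg.Agent.H457.HalfFix

open Subgroup Cfsg Cfsg.Agent Module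

theorem toRep_apply {A V : Type*} [Group A] [CommGroup V] (q : ℕ) [Module (ZMod q) (Additive V)]
    (γ : A →* MulAut V) (a : A) (v : V) :
    OddOrderLocal.FrobAct.toRep q γ a (Additive.ofMul v) = Additive.ofMul (γ a v) := rfl

/-- An irreducible action on an elementary abelian group is an irreducible representation. -/
theorem isIrreducible {A V : Type*} [Group A] [CommGroup V] [Nontrivial V] (q : ℕ) [Fact q.Prime]
    [Module (ZMod q) (Additive V)]
    (γ : A →* MulAut V) (hirr : ∀ W : Subgroup V, (∀ a, ∀ w ∈ W, γ a w ∈ W) → W = ⊥ ∨ W = ⊤) :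
    (OddOrderLocal.FrobAct.toRep q γ).IsIrreducible := by
  have hnt : Nontrivial (Subrepresentation (OddOrderLocal.FrobAct.toRep q γ)) := by
    refine ⟨⊥, ⊤, ?_⟩
    intro h
    have h1 : (⊥ : Submodule (ZMod q) (Additive V)) = ⊤ := congrArg Subrepresentation.toSubmodule h
    have h2 : Nontrivial (Additive V) := inferInstance
    exact bot_ne_top h1
  refine { exists_pair_ne := hnt.exists_pair_ne, eq_bot_or_eq_top := ?_ }
  intro σ
  let W : Subgroup V := AddSubgroup.toSubgroup' σ.toSubmodule.toAddSubgroup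
  have hmem : ∀ v : V, v ∈ W ↔ Additive.ofMul v ∈ σ.toSubmodule := fun v => Iff.rfl
  rcases hirr W (fun a w hw => σ.apply_mem_toSubmodule a ((hmem w).1 hw)) with h | h
  · left
    apply Subrepresentation.toSubmodule_injective
    change σ.toSubmodule = (⊥ : Submodule (ZMod q) (Additive V))
    rw [eq_bot_iff]
    intro v hv
    have h1 : Additive.toMul v ∈ W := hv
    rw [h, Subgroup.mem_bot] at h1
    exact congrArg Additive.ofMul h1
  · right
    apply Subrepresentation.toSubmodule_injective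
    change σ.toSubmodule = (⊤ : Submodule (ZMod q) (Additive V))
    rw [eq_top_iff]
    intro v _
    have h1 : Additive.toMul v ∈ W := by rw [h]; exact Subgroup.mem_top _
    exact h1

/-- the case of a faithful action -/
theorem card_lt_of_injective {A V : Type*} [Group A] [Finite A] [Group.IsSolvable A] [CommGroup V] [Finite V]
    [Nontrivial V] {q : ℕ} [hq : Fact q.Prime] (hexp : ∀ v : V, v ^ q = 1) (γ : A →* MulAut V)
    (hγ : Function.Injective γ)
    (hirr : ∀ W : Subgroup V, (∀ a, ∀ w ∈ W, γ a w ∈ W) → W = ⊥ ∨ W = ⊤)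
    {p : ℕ} [Fact p.Prime] (hp : 3 < p) (P : Subgroup A) (hP : Nat.card P = p)
    (hgen : normalClosure (P : Set A) = ⊤) :
    Nat.card {v : V // ∀ x ∈ P, γ x v = v} ^ 2 < Nat.card V := by
  have instM : Module (ZMod q) (Additive V) := AddCommGroup.zmodModule (n := q) (by
    intro x
    exact congrArg Additive.ofMul (hexp x.toMul))
  have hfin : FiniteDimensional (ZMod q) (Additive V) := inferInstance
  have hirr' := isIrreducible q γ hirr
  have hinj : Function.Injective (OddOrderLocal.FrobAct.toRep q γ) := by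
    intro a b hab
    apply hγ
    ext v
    exact congrArg Additive.toMul (LinearMap.congr_fun hab (Additive.ofMul v))
  have key := S3818.result hp P hP hgen q (OddOrderLocal.FrobAct.toRep q γ) hinj
  have hcardV : Nat.card V = q ^ finrank (ZMod q) (Additive V) := by
    have := Module.natCard_eq_pow_finrank (K := ZMod q) (V := Additive V)
    rw [Nat.card_zmod] at this
    exact this
  set F : Submodule (ZMod q) (Additive V) :=
    ⨅ g : ↥P, LinearMap.ker ((OddOrderLocal.FrobAct.toRep q γ) (g : A) - LinearMap.id) with hF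
  have hcardF : Nat.card {v : V // ∀ x ∈ P, γ x v = v} = q ^ finrank (ZMod q) F := by
    have := Module.natCard_eq_pow_finrank (K := ZMod q) (V := F)
    rw [Nat.card_zmod] at this
    rw [← this]
    refine Nat.card_congr
      { toFun := fun x => ⟨Additive.ofMul x.1, ?_⟩
        invFun := fun x => ⟨Additive.toMul x.1, ?_⟩
        left_inv := fun x => rfl
        right_inv := fun x => rfl }
    · rw [hF, Submodule.mem_iInf]
      intro g
      rw [LinearMap.mem_ker, LinearMap.sub_apply, LinearMap.id_apply, sub_eq_zero]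
      exact congrArg Additive.ofMul (x.2 g g.2)
    · intro g hg
      have h2 := (Submodule.mem_iInf _).1 x.2 ⟨g, hg⟩
      rw [LinearMap.mem_ker, LinearMap.sub_apply, LinearMap.id_apply, sub_eq_zero] at h2
      exact congrArg Additive.toMul h2
  rw [hcardV, hcardF, ← pow_mul, mul_comm]
  exact Nat.pow_lt_pow_right hq.out.one_lt key

/-- **Group-theoretic form of S3818.** -/
theorem card_lt {A V : Type*} [Group A] [Finite A] [Group.IsSolvable A] [CommGroup V] [Finite V]
    [Nontrivial V] {q : ℕ} [hq : Fact q.Prime] (hexp : ∀ v : V, v ^ q = 1) (γ : A →* MulAut V)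
    (hirr : ∀ W : Subgroup V, (∀ a, ∀ w ∈ W, γ a w ∈ W) → W = ⊥ ∨ W = ⊤)
    {p : ℕ} [hpp : Fact p.Prime] (hp : 3 < p) (P : Subgroup A) (hP : Nat.card P = p)
    (hgen : normalClosure (P : Set A) = ⊤) (hnt : ∃ x ∈ P, γ x ≠ 1) :
    Nat.card {v : V // ∀ x ∈ P, γ x v = v} ^ 2 < Nat.card V := by
  let f : A →* γ.range := γ.rangeRestrict
  have hf : Function.Surjective f := γ.rangeRestrict_surjective
  have hsol : Group.IsSolvable γ.range := Group.isSolvable_of_surjective hf
  have hker : ∀ x ∈ P, f x = 1 → x = 1 := by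
    -- `P` has prime order and acts nontrivially
    have h1 : P ⊓ f.ker = ⊥ := by
      obtain ⟨y, hy, hy1⟩ := hnt
      by_contra hne
      have h2 : Nat.card ↥(P ⊓ f.ker) ∣ Nat.card P := card_dvd_of_le inf_le_left
      rw [hP] at h2
      rcases (Nat.dvd_prime hpp.out).1 h2 with h3 | h3
      · exact hne (Subgroup.card_eq_one.1 h3)
      · have h4 : P ⊓ f.ker = P := by
          apply Subgroup.eq_of_le_of_card_ge inf_le_left
          rw [h3, hP]
        have h5 : y ∈ f.ker := (Subgroup.mem_inf.1 (by rw [h4]; exact hy : y ∈ P ⊓ f.ker)).2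
        rw [MonoidHom.mem_ker] at h5
        exact hy1 (congrArg Subtype.val h5)
    intro x hx hx1
    have : x ∈ P ⊓ f.ker := ⟨hx, hx1⟩
    rw [h1] at this
    exact Subgroup.mem_bot.1 this
  have hPc : Nat.card (P.map f) = p := by
    rw [← hP]
    refine (Nat.card_congr (Equiv.ofBijective (f.subgroupMap P) ⟨?_, f.subgroupMap_surjective P⟩)).symm
    rw [injective_iff_map_eq_one]
    intro x hx
    apply Subtype.ext
    exact hker x x.2 (congrArg Subtype.val hx)
  have hgen' : normalClosure ((P.map f : Subgroup γ.range) : Set γ.range) = ⊤ := by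
    rw [Subgroup.coe_map, ← Subgroup.map_normalClosure _ f hf, hgen, ← MonoidHom.range_eq_map]
    exact MonoidHom.range_eq_top.2 hf
  have key := card_lt_of_injective hexp γ.range.subtype γ.range.subtype_injective
    (fun W hW => hirr W (fun a w hw => hW (f a) w hw)) hp (P.map f) hPc hgen'
  have e : Nat.card {v : V // ∀ x ∈ P.map f, γ.range.subtype x v = v} = Nat.card {v : V // ∀ x ∈ P, γ x v = v} := by
    refine Nat.card_congr (Equiv.subtypeEquivRight ?_)
    intro v
    constructor
    · intro h x hx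
      exact h (f x) ⟨x, hx, rfl⟩
    · rintro h _ ⟨x, hx, rfl⟩
      exact h x hx
  rw [← e]
  exact key

end Cfsg.Agent.H457.HalfFix
end

-- part: H457/CrossMain
section
/-!
# Generation of `A W` by `P` and a conjugate of `P` (helper457)

`G = A W`, `W` a normal `q`-group, `A = ⟨P, P^a⟩` solvable, `|P| = p > 3`, `R` a normal `r`-subgroup of `A` (`r ≠ q`)
which acts nontrivially on `W` but trivially on the proper `G`-invariant subgroups of `W`: then `G = ⟨P, P^{wa}⟩` for some
`w ∈ W`.
-/

set_option autoImplicit false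

namespace Cfsg.Agent.H457.CrossMain

open Subgroup Cfsg Cfsg.Agent
open scoped commutatorElement

/-- The count `|C_U(P)|² < |U|` for an abelian minimal normal subgroup `U` of `X = A U`. -/
theorem card_sq_lt {X : Type*} [Group X] [Finite X] {q : ℕ} [hq : Fact q.Prime] (U A P : Subgroup X)
    (hU : U.Normal) (hUc : ∀ x ∈ U, ∀ y ∈ U, x * y = y * x) (hUq : IsPGroup q U) (hU1 : U ≠ ⊥)
    (hmin : ∀ N : Subgroup X, N ≤ U → N.Normal → N = ⊥ ∨ N = U)
    (hAU : A ⊔ U = ⊤) (hsol : Group.IsSolvable A) {p : ℕ} [hpp : Fact p.Prime] (hp : 3 < p) (hPA : P ≤ A)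
    (hP : Nat.card P = p) (hgen : ∀ N : Subgroup X, P ≤ N → A ≤ normalizer (N : Set X) → A ≤ N)
    (hnt : ¬ A ≤ centralizer (U : Set X)) :
    Nat.card ↥(U ⊓ centralizer (P : Set X)) ^ 2 < Nat.card U := by
  classical
  letI instC : CommGroup U := { (inferInstance : Group U) with
    mul_comm := fun x y => Subtype.ext (hUc x x.2 y y.2) }
  have hnon : Nontrivial U := (Subgroup.nontrivial_iff_ne_bot U).2 hU1
  -- exponent `q`
  have hexp : ∀ u ∈ U, u ^ q = 1 := by
    let N : Subgroup X :=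
      { carrier := {u | u ∈ U ∧ u ^ q = 1}
        one_mem' := ⟨one_mem _, one_pow _⟩
        mul_mem' := by
          rintro x y ⟨hx, hx1⟩ ⟨hy, hy1⟩
          refine ⟨mul_mem hx hy, ?_⟩
          have : Commute x y := hUc x hx y hy
          rw [this.mul_pow, hx1, hy1, one_mul]
        inv_mem' := by
          rintro x ⟨hx, hx1⟩
          exact ⟨inv_mem hx, by rw [inv_pow, hx1, inv_one]⟩ }
    have hNn : N.Normal := by
      refine ⟨?_⟩
      rintro x ⟨hx, hx1⟩ g
      exact ⟨hU.conj_mem x hx g, by rw [conj_pow, hx1, mul_one, mul_inv_cancel]⟩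
    rcases hmin N (fun x hx => hx.1) hNn with h | h
    · exfalso
      -- an element of order `q`
      have hdvd : q ∣ Nat.card U := by
        obtain ⟨n, hn⟩ := IsPGroup.iff_card.mp hUq
        have hn0 : n ≠ 0 := by
          rintro rfl
          rw [pow_zero] at hn
          exact hU1 (Subgroup.card_eq_one.1 hn)
        rw [hn]; exact dvd_pow_self q hn0
      obtain ⟨u, hu⟩ := exists_prime_orderOf_dvd_card' q hdvd
      have h1 : (u : X) ∈ N := by
        refine ⟨u.2, ?_⟩
        rw [← Subgroup.coe_pow, ← hu, pow_orderOf_eq_one, Subgroup.coe_one]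
      rw [h, Subgroup.mem_bot] at h1
      have h2 : u = 1 := Subtype.ext h1
      rw [h2, orderOf_one] at hu
      exact hq.out.one_lt.ne hu
    · intro u hu
      rw [← h] at hu
      exact hu.2
  let γ : A →* MulAut U := (MulAut.conjNormal (H := U)).comp A.subtype
  have hγ : ∀ (a : A) (u : U), ((γ a u : U) : X) = a * u * (a : X)⁻¹ := fun a u => MulAut.conjNormal_apply _ _
  have hirr : ∀ W : Subgroup U, (∀ a, ∀ w ∈ W, γ a w ∈ W) → W = ⊥ ∨ W = ⊤ := by
    intro W hW
    have hWn : (W.map U.subtype).Normal := by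
      rw [← Subgroup.normalizer_eq_top_iff, eq_top_iff, ← hAU]
      have hA : ∀ a ∈ A, ∀ x ∈ W.map U.subtype, a * x * a⁻¹ ∈ W.map U.subtype := by
        rintro a ha _ ⟨w, hw, rfl⟩
        exact ⟨γ ⟨a, ha⟩ w, hW _ _ hw, hγ _ _⟩
      have hU' : ∀ a ∈ U, ∀ x ∈ W.map U.subtype, a * x * a⁻¹ ∈ W.map U.subtype := by
        rintro a ha _ ⟨w, hw, rfl⟩
        have : a * (U.subtype w) * a⁻¹ = U.subtype w := by
          have h1 : a * (w : X) = w * a := hUc a ha w w.2
          change a * (w : X) * a⁻¹ = w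
          rw [h1]; group
        rw [this]; exact ⟨w, hw, rfl⟩
      have hgen : ∀ B : Subgroup X, (∀ a ∈ B, ∀ x ∈ W.map U.subtype, a * x * a⁻¹ ∈ W.map U.subtype) →
          B ≤ normalizer ((W.map U.subtype : Subgroup X) : Set X) := by
        intro B hB a ha
        rw [mem_normalizer_iff]
        intro x
        constructor
        · exact hB a ha x
        · intro hx
          have := hB a⁻¹ (inv_mem ha) _ hx
          have e : a⁻¹ * (a * x * a⁻¹) * a⁻¹⁻¹ = x := by group
          rwa [e] at this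
      exact sup_le (hgen A hA) (hgen U hU')
    rcases hmin _ (map_subtype_le W) hWn with h | h
    · left
      exact (Subgroup.map_eq_bot_iff_of_injective _ U.subtype_injective).1 h
    · right
      rw [eq_top_iff]
      intro u _
      have h1 : (u : X) ∈ W.map U.subtype := by rw [h]; exact u.2
      obtain ⟨w, hw, hwu⟩ := h1
      exact (Subtype.ext hwu : w = u) ▸ hw
  have hPc : Nat.card (P.subgroupOf A) = p := by
    rw [Nat.card_congr (subgroupOfEquivOfLe hPA).toEquiv, hP]
  have hgen' : normalClosure ((P.subgroupOf A : Subgroup A) : Set A) = ⊤ := by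
    set M : Subgroup A := normalClosure ((P.subgroupOf A : Subgroup A) : Set A) with hM
    have hMn : M.Normal := normalClosure_normal
    have h1 : A ≤ M.map A.subtype := by
      apply hgen
      · intro x hx
        exact ⟨⟨x, hPA hx⟩, subset_normalClosure hx, rfl⟩
      · exact Lib.LocalCore.le_normalizer_map_subtype A M hMn
    rw [eq_top_iff]
    intro x _
    obtain ⟨y, hy, hyx⟩ := h1 x.2
    exact (Subtype.ext hyx : y = x) ▸ hy
  have hnt' : ∃ x ∈ P.subgroupOf A, γ x ≠ 1 := by
    by_contra hcon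
    push Not at hcon
    apply hnt
    -- `P` centralizes `U`
    have hPU : P ≤ centralizer (U : Set X) := by
      intro x hx
      rw [mem_centralizer_iff]
      intro u hu
      have h1 := hcon ⟨x, hPA hx⟩ hx
      have h2 := hγ ⟨x, hPA hx⟩ ⟨u, hu⟩
      rw [h1] at h2
      have h3 : u = x * u * x⁻¹ := h2
      calc u * x = (x * u * x⁻¹) * x := by rw [← h3]
        _ = x * u := by group
    apply hgen _ hPU
    have : (centralizer (U : Set X)).Normal := by
      have := hU
      infer_instance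
    exact le_normalizer_of_normal
  have key := HalfFix.card_lt (A := A) (V := U) (q := q)
    (fun v => Subtype.ext (by rw [Subgroup.coe_pow]; exact hexp v v.2)) γ hirr hp (P.subgroupOf A) hPc hgen' hnt'
  have e : Nat.card {v : U // ∀ x ∈ P.subgroupOf A, γ x v = v} = Nat.card ↥(U ⊓ centralizer (P : Set X)) := by
    refine Nat.card_congr
      { toFun := fun v => ⟨(v.1 : X), mem_inf.2 ⟨v.1.2, ?_⟩⟩
        invFun := fun v => ⟨⟨v.1, (mem_inf.1 v.2).1⟩, ?_⟩
        left_inv := fun v => rfl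
        right_inv := fun v => rfl }
    · rw [mem_centralizer_iff]
      intro x hx
      have h1 := congrArg Subtype.val (v.2 ⟨x, hPA hx⟩ hx)
      rw [hγ] at h1
      have h3 : x * (v.1 : X) * x⁻¹ = v.1 := h1
      calc x * (v.1 : X) = (x * (v.1 : X) * x⁻¹) * x := by group
        _ = v.1 * x := by rw [h3]
    · intro x hx
      apply Subtype.ext
      rw [hγ]
      have h1 : (x : X) * v.1 = v.1 * x := mem_centralizer_iff.1 (mem_inf.1 v.2).2 x hx
      change (x : X) * v.1 * (x : X)⁻¹ = v.1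
      rw [h1]; group
  rw [← e]
  exact key

theorem exists_generate {G : Type*} [Group G] [Finite G] {q r : ℕ} [hq : Fact q.Prime] [hr : Fact r.Prime]
    (hrq : r ≠ q) (W A R P : Subgroup G) (hW : W.Normal) (hWq : IsPGroup q W) (hAW : A ⊔ W = ⊤)
    (hsol : Group.IsSolvable A) (hRA : R ≤ A) (hAR : A ≤ normalizer (R : Set G)) (hR : IsPGroup r R)
    (hRW : ¬ R ≤ centralizer (W : Set G))
    (hmin : ∀ W' : Subgroup G, W' < W → W'.Normal → R ≤ centralizer (W' : Set G))
    {p : ℕ} [hpp : Fact p.Prime] (hp : 3 < p) (hP : Nat.card P = p) (a : G) (ha : a ∈ A)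
    (hA : A = P ⊔ P.map (MulAut.conj a).toMonoidHom) :
    ∃ w ∈ W, P ⊔ P.map (MulAut.conj (w * a)).toMonoidHom = ⊤ := by
  classical
  have hPA : P ≤ A := by rw [hA]; exact le_sup_left
  have hcop : (Nat.card R).Coprime (Nat.card W) := by
    obtain ⟨n, hn⟩ := IsPGroup.iff_card.mp hR
    obtain ⟨m, hm⟩ := IsPGroup.iff_card.mp hWq
    rw [hn, hm]
    exact Nat.Coprime.pow _ _ ((Nat.coprime_primes hr.out hq.out).2 hrq)
  have hRWbot : R ⊓ W = ⊥ := Disjoint.eq_bot (Subgroup.disjoint_of_coprime_natCard hcop)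
  have hRnW : R ≤ normalizer (W : Set G) := le_normalizer_of_normal
  have hWne : W ≠ ⊥ := by
    rintro rfl
    apply hRW
    intro x _
    rw [mem_centralizer_iff]
    rintro _ (h : _ = 1)
    rw [h, one_mul, mul_one]
  -- `T = [W, W]`
  set T : Subgroup G := ⁅W, W⁆ with hT
  have hTn : T.Normal := by
    have := hW
    infer_instance
  have hTW : T ≤ W := commutator_le_left _ _
  have hWnil : Group.IsNilpotent W := hWq.isNilpotent
  have hTsub : T.subgroupOf W = commutator W := by
    rw [hT, commutator_def]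
    apply Subgroup.map_injective W.subtype_injective
    rw [subgroupOf_map_subtype, map_commutator, ← MonoidHom.range_eq_map, Subgroup.range_subtype,
      inf_eq_left.2 (commutator_le_left _ _)]
  have hTlt : T < W := by
    refine lt_of_le_of_ne hTW ?_
    intro h
    have h1 : (⊥ : Subgroup W) ⊔ commutator W = ⊤ := by
      rw [← hTsub, h, bot_sup_eq, subgroupOf_self]
    have h2 := SolvableStructure.AbelianSocle.eq_top_of_sup_commutator h1
    have h3 : Nontrivial W := (Subgroup.nontrivial_iff_ne_bot W).2 hWne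
    exact bot_ne_top h2
  -- `[W, R] = W`
  have hWR : ⁅W, R⁆ = W := by
    have hle : ⁅W, R⁆ ≤ W := Lib.CoprimeCommutator.commutator_le_left hRnW
    by_contra hne
    have hn : (⁅W, R⁆).Normal := by
      rw [← Subgroup.normalizer_eq_top_iff, eq_top_iff, ← hAW]
      refine sup_le ?_ (normalizer_commutator_ge_left _ _)
      exact SignalizersComponents.ClassTwo.le_normalizer_commutator le_normalizer_of_normal hAR
    have h1 := hmin _ (lt_of_le_of_ne hle hne) hn
    exact hRW (Lib.CoprimeCommutator.le_centralizer_of_commutator R W hRnW hcop h1)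
  -- the quotient
  let f : G →* G ⧸ T := QuotientGroup.mk' T
  have hf : Function.Surjective f := QuotientGroup.mk'_surjective T
  have hker : f.ker = T := QuotientGroup.ker_mk' T
  have hUn : (W.map f).Normal := hW.map f hf
  have hUc : ∀ x ∈ W.map f, ∀ y ∈ W.map f, x * y = y * x := by
    rintro _ ⟨x, hx, rfl⟩ _ ⟨y, hy, rfl⟩
    have h1 : ⁅x, y⁆ ∈ T := commutator_mem_commutator hx hy
    rw [← hker, MonoidHom.mem_ker, map_commutatorElement, commutatorElement_eq_one_iff_mul_comm] at h1
    exact h1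
  have hUq : IsPGroup q (W.map f) := hWq.map f
  have hcop' : (Nat.card (R.map f)).Coprime (Nat.card (W.map f)) := by
    refine (hcop.coprime_dvd_left ?_).coprime_dvd_right ?_
    · exact card_dvd_of_surjective (f.subgroupMap R) (f.subgroupMap_surjective R)
    · exact card_dvd_of_surjective (f.subgroupMap W) (f.subgroupMap_surjective W)
  have hfix : W.map f ⊓ centralizer ((R.map f : Subgroup (G ⧸ T)) : Set (G ⧸ T)) = ⊥ := by
    have h1 := Lib.CoprimeAbelian.inf_commutator_eq_bot (R.map f) (W.map f) hUc le_normalizer_of_normal hcop'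
    rw [← map_commutator, hWR] at h1
    rw [eq_bot_iff, ← h1]
    exact le_inf le_rfl inf_le_left
  have hcomapU : (W.map f).comap f = W := by
    rw [Subgroup.comap_map_eq, hker, sup_eq_left.2 hTW]
  have hminU : ∀ N : Subgroup (G ⧸ T), N ≤ W.map f → N.Normal → N = ⊥ ∨ N = W.map f := by
    intro N hN hNn
    have h1 : N.comap f ≤ W := by
      rw [← hcomapU]; exact Subgroup.comap_mono hN
    have h2 : (N.comap f).map f = N := Subgroup.map_comap_eq_self_of_surjective hf N
    rcases eq_or_ne (N.comap f) W with h | h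
    · right; rw [← h2, h]
    · left
      have h3 := hmin _ (lt_of_le_of_ne h1 h) (hNn.comap f)
      rw [eq_bot_iff, ← hfix]
      refine le_inf hN ?_
      rw [← h2]
      rintro _ ⟨x, hx, rfl⟩
      rw [mem_centralizer_iff]
      rintro _ ⟨ρ, hρ, rfl⟩
      rw [← map_mul, ← map_mul]
      exact congrArg f (mem_centralizer_iff.1 (h3 hρ) x hx).symm
  have hAU : A.map f ⊔ W.map f = ⊤ := by
    rw [← Subgroup.map_sup, hAW, ← MonoidHom.range_eq_map]
    exact MonoidHom.range_eq_top.2 hf
  have hAWR : ∀ x ∈ A, x ∈ W → ∀ ρ ∈ R, ρ * x = x * ρ := by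
    intro x hxA hxW ρ hρ
    have h1 : ρ * x * ρ⁻¹ * x⁻¹ ∈ R ⊓ W := by
      refine mem_inf.2 ⟨?_, ?_⟩
      · have h2 : x * ρ⁻¹ * x⁻¹ ∈ R := (mem_normalizer_iff.1 (hAR hxA) _).1 (inv_mem hρ)
        have e : ρ * x * ρ⁻¹ * x⁻¹ = ρ * (x * ρ⁻¹ * x⁻¹) := by group
        rw [e]; exact mul_mem hρ h2
      · exact mul_mem (hW.conj_mem x hxW ρ) (inv_mem hxW)
    rw [hRWbot, mem_bot] at h1
    have h3 : ρ * x * ρ⁻¹ = x := mul_inv_eq_one.1 h1
    calc ρ * x = (ρ * x * ρ⁻¹) * ρ := by group
      _ = x * ρ := by rw [h3]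
  have hAU' : A.map f ⊓ W.map f = ⊥ := by
    rw [eq_bot_iff, ← hfix]
    rintro _ ⟨⟨x, hx, rfl⟩, hxU⟩
    have hxW : x ∈ W := by rw [← hcomapU]; exact hxU
    refine mem_inf.2 ⟨hxU, mem_centralizer_iff.2 ?_⟩
    rintro _ ⟨ρ, hρ, rfl⟩
    rw [← map_mul, ← map_mul, hAWR x hx hxW ρ hρ]
  have hPmap : Nat.card (P.map f) = p := by
    -- `P` meets `T` trivially: `P ∩ T ≤ A ∩ W`, whose elements are fixed by `R`
    have h1 : P ⊓ T = ⊥ := by
      by_contra hne
      have h2 : Nat.card ↥(P ⊓ T) ∣ Nat.card P := card_dvd_of_le inf_le_left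
      rw [hP] at h2
      rcases (Nat.dvd_prime hpp.out).1 h2 with h3 | h3
      · exact hne (Subgroup.card_eq_one.1 h3)
      · have h4 : P ⊓ T = P := by
          apply Subgroup.eq_of_le_of_card_ge inf_le_left
          rw [h3, hP]
        have hPT : P ≤ T := by rw [← h4]; exact inf_le_right
        -- then `A ≤ T`, so `R ≤ W`
        have hAT : A ≤ T := by
          rw [hA]
          refine sup_le hPT ?_
          rintro _ ⟨x, hx, rfl⟩
          exact hTn.conj_mem x (hPT hx) a
        have hR1 : R = ⊥ := by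
          rw [eq_bot_iff, ← hRWbot]
          exact le_inf le_rfl (hRA.trans (hAT.trans hTW))
        apply hRW
        rw [hR1]
        exact bot_le
    rw [← hP]
    refine (Nat.card_congr (Equiv.ofBijective (f.subgroupMap P) ⟨?_, f.subgroupMap_surjective P⟩)).symm
    rw [injective_iff_map_eq_one]
    intro x hx
    have h2 : f (x : G) = 1 := congrArg Subtype.val hx
    rw [← MonoidHom.mem_ker, hker] at h2
    have h3 : (x : G) ∈ P ⊓ T := mem_inf.2 ⟨x.2, h2⟩
    rw [h1, mem_bot] at h3
    exact Subtype.ext h3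
  have hUne : W.map f ≠ ⊥ := by
    intro h
    rw [Subgroup.map_eq_bot_iff, hker] at h
    exact hTlt.not_ge h
  have hAmap : A.map f = P.map f ⊔ (P.map f).map (MulAut.conj (f a)).toMonoidHom := by
    have e : (P.map (MulAut.conj a).toMonoidHom).map f = (P.map f).map (MulAut.conj (f a)).toMonoidHom := by
      rw [Subgroup.map_map, Subgroup.map_map]
      congr 1
    rw [← e, ← Subgroup.map_sup, ← hA]
  have hcount : Nat.card ↥(W.map f ⊓ centralizer ((P.map f : Subgroup (G ⧸ T)) : Set (G ⧸ T))) ^ 2 <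
      Nat.card (W.map f) := by
    refine card_sq_lt (q := q) (W.map f) (A.map f) (P.map f) hUn hUc hUq hUne hminU hAU
      (Group.isSolvable_of_surjective (f.subgroupMap_surjective A)) hp (Subgroup.map_mono hPA) hPmap ?_ ?_
    · intro N hPN hN
      rw [hAmap]
      refine sup_le hPN ?_
      rintro _ ⟨x, hx, rfl⟩
      exact (mem_normalizer_iff.1 (hN ⟨a, ha, rfl⟩) x).1 (hPN hx)
    · intro h
      apply hUne
      rw [eq_bot_iff, ← hfix]
      refine le_inf le_rfl ?_
      rintro _ ⟨w, hw, rfl⟩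
      rw [mem_centralizer_iff]
      rintro _ ⟨ρ, hρ, rfl⟩
      exact (mem_centralizer_iff.1 (h ⟨ρ, hRA hρ, rfl⟩) (f w) ⟨w, hw, rfl⟩).symm
  obtain ⟨w', hw', hgen⟩ := CrossAct.exists_generate (X := G ⧸ T) hrq (W.map f) (A.map f) (R.map f) (P.map f)
    hUn hUc hUq hminU hAU hAU' (Subgroup.map_mono hRA)
    (by
      rintro _ ⟨x, hx, rfl⟩
      exact Subgroup.le_normalizer_map f ⟨x, hAR hx, rfl⟩)
    (hR.map f) hfix (f a) ⟨a, ha, rfl⟩ hAmap hcount
  obtain ⟨w, hw, rfl⟩ := hw'
  refine ⟨w, hw, ?_⟩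
  set B : Subgroup G := P ⊔ P.map (MulAut.conj (w * a)).toMonoidHom with hB
  have hBmap : B.map f = ⊤ := by
    rw [← hgen, hB, Subgroup.map_sup]
    congr 1
    rw [Subgroup.map_map, Subgroup.map_map]
    congr 1
  have hBT : B ⊔ T = ⊤ := by
    have := congrArg (Subgroup.comap f) hBmap
    rwa [Subgroup.comap_map_eq, hker, Subgroup.comap_top] at this
  -- `(B ∩ W) T = W`
  have hD : (B ⊓ W) ⊔ T = W := by
    apply le_antisymm (sup_le inf_le_right hTW)
    intro x hx
    have h1 : x ∈ B ⊔ T := by rw [hBT]; exact mem_top x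
    rw [Subgroup.mem_sup_of_normal_right] at h1
    obtain ⟨b, hb, t, ht, rfl⟩ := h1
    have h2 : b ∈ W := by
      have := mul_mem hx (inv_mem (hTW ht))
      rwa [mul_inv_cancel_right] at this
    exact mul_mem ((le_sup_left : B ⊓ W ≤ _) (mem_inf.2 ⟨hb, h2⟩)) ((le_sup_right : T ≤ _) ht)
  have hD' : ((B ⊓ W).subgroupOf W) ⊔ commutator W = ⊤ := by
    apply Subgroup.map_injective W.subtype_injective
    rw [Subgroup.map_sup, subgroupOf_map_subtype, ← hTsub, subgroupOf_map_subtype, inf_eq_left.2 hTW,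
      inf_eq_left.2 (inf_le_right : B ⊓ W ≤ W), hD, ← MonoidHom.range_eq_map, Subgroup.range_subtype]
  have hD2 := SolvableStructure.AbelianSocle.eq_top_of_sup_commutator hD'
  have hWB : W ≤ B := by
    intro x hx
    have h1 : (⟨x, hx⟩ : W) ∈ (B ⊓ W).subgroupOf W := by rw [hD2]; exact mem_top _
    exact (mem_inf.1 (mem_subgroupOf.1 h1)).1
  rw [eq_top_iff, ← hBT]
  exact sup_le le_rfl (hTW.trans hWB)

end Cfsg.Agent.H457.CrossMain
end

-- part: S3822
section
set_option autoImplicit false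
open Cfsg

namespace Cfsg.Agent.S3822

open Subgroup
open scoped commutatorElement

/-- `O_r(A)` centralizes the `q`-group `W`, `r ≠ q`. -/
theorem centralizes {G : Type*} [Group G] [Finite G]
    {p : ℕ} [Fact p.Prime] (hp : 3 < p) (P : Subgroup G) (hP : Nat.card P = p) (A : Subgroup G)
    (hA : Group.IsSolvable ↥A ∧ ∃ a ∈ A, A = P ⊔ P.map (MulAut.conj a).toMonoidHom)
    (hmax : ∀ B : Subgroup G, A ≤ B → Group.IsSolvable ↥B →
      (∃ b ∈ B, B = P ⊔ P.map (MulAut.conj b).toMonoidHom) → B = A)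
    {q r : ℕ} [hq : Fact q.Prime] [hr : Fact r.Prime] (hrq : r ≠ q) (R W₀ : Subgroup G) (hRA : R ≤ A)
    (hAR : A ≤ normalizer (R : Set G)) (hR : IsPGroup r R) (hAW₀ : A ≤ normalizer (W₀ : Set G))
    (hW₀q : IsPGroup q W₀) : R ≤ centralizer (W₀ : Set G) := by
  classical
  by_contra hcon
  -- a minimal bad subgroup
  have hwf : WellFounded ((· < ·) : Subgroup G → Subgroup G → Prop) := wellFounded_lt
  obtain ⟨W, ⟨hWW₀, hAW, hRW⟩, hWmin⟩ := hwf.has_min
    {W : Subgroup G | W ≤ W₀ ∧ A ≤ normalizer (W : Set G) ∧ ¬ R ≤ centralizer (W : Set G)}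
    ⟨W₀, le_rfl, hAW₀, hcon⟩
  have hWq : IsPGroup q W := hW₀q.to_le hWW₀
  have hWnil : Group.IsNilpotent W := hWq.isNilpotent
  obtain ⟨hAs, a, ha, hAP⟩ := hA
  have hPA : P ≤ A := by rw [hAP]; exact le_sup_left
  -- the group `A W`
  set G₁ : Subgroup G := A ⊔ W with hG₁
  have hAG : A ≤ G₁ := le_sup_left
  have hWG : W ≤ G₁ := le_sup_right
  have hPG : P ≤ G₁ := hPA.trans hAG
  have hRG : R ≤ G₁ := hRA.trans hAG
  have hG₁W : G₁ ≤ normalizer (W : Set G) := sup_le hAW le_normalizer
  have hWn : (W.subgroupOf G₁).Normal := normal_subgroupOf_of_le_normalizer hG₁W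
  have hmapc : ∀ {B : Subgroup G} (_ : B ≤ G₁) (g : G₁),
      ((B.subgroupOf G₁).map (MulAut.conj g).toMonoidHom).map G₁.subtype =
        B.map (MulAut.conj (g : G)).toMonoidHom := by
    intro B hB g
    ext x
    simp only [Subgroup.mem_map, Subgroup.mem_subgroupOf]
    constructor
    · rintro ⟨_, ⟨y, hy, rfl⟩, rfl⟩
      exact ⟨y, hy, by simp⟩
    · rintro ⟨y, hy, rfl⟩
      exact ⟨_, ⟨⟨y, hB hy⟩, hy, rfl⟩, by simp⟩
  have hsub : ∀ {B : Subgroup G}, B ≤ G₁ → (B.subgroupOf G₁).map G₁.subtype = B := by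
    intro B hB
    rw [subgroupOf_map_subtype, inf_eq_left.2 hB]
  have hA' : A.subgroupOf G₁ = P.subgroupOf G₁ ⊔ (P.subgroupOf G₁).map (MulAut.conj ⟨a, hAG ha⟩).toMonoidHom := by
    apply Subgroup.map_injective G₁.subtype_injective
    rw [Subgroup.map_sup, hmapc hPG, hsub hPG, hsub hAG]
    exact hAP
  obtain ⟨w, hw, hgen⟩ := H457.CrossMain.exists_generate (G := G₁) hrq (W.subgroupOf G₁) (A.subgroupOf G₁)
    (R.subgroupOf G₁) (P.subgroupOf G₁) hWn
    (hWq.of_equiv (subgroupOfEquivOfLe hWG).symm)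
    (by
      apply Subgroup.map_injective G₁.subtype_injective
      rw [Subgroup.map_sup, hsub hAG, hsub hWG, ← MonoidHom.range_eq_map, Subgroup.range_subtype])
    (Group.isSolvable_of_surjective (f := (subgroupOfEquivOfLe hAG).symm.toMonoidHom)
      (subgroupOfEquivOfLe hAG).symm.surjective)
    (fun x hx => hRA hx)
    (by
      rw [← subgroupOf_normalizer_eq hRG]
      exact fun x hx => hAR hx)
    (hR.of_equiv (subgroupOfEquivOfLe hRG).symm)
    (by
      intro h
      apply hRW
      intro x hx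
      rw [mem_centralizer_iff]
      intro y hy
      have h1 := mem_centralizer_iff.1 (@h ⟨x, hRG hx⟩ hx) ⟨y, hWG hy⟩ hy
      exact congrArg Subtype.val h1)
    (by
      intro W' hW' hW'n
      have h1 : W'.map G₁.subtype ≤ W := by
        rintro _ ⟨x, hx, rfl⟩
        exact hW'.le hx
      have h2 : W'.map G₁.subtype < W := by
        refine lt_of_le_of_ne h1 ?_
        intro h
        apply hW'.ne
        apply Subgroup.map_injective G₁.subtype_injective
        rw [h, hsub hWG]
      have h3 : A ≤ normalizer ((W'.map G₁.subtype : Subgroup G) : Set G) :=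
        hAG.trans (Lib.LocalCore.le_normalizer_map_subtype G₁ W' hW'n)
      by_contra hcon2
      refine hWmin (W'.map G₁.subtype) ⟨h1.trans hWW₀, h3, ?_⟩ h2
      intro h4
      apply hcon2
      intro x hx
      rw [mem_centralizer_iff]
      intro y hy
      apply Subtype.ext
      exact mem_centralizer_iff.1 (h4 hx) (y : G) ⟨y, hy, rfl⟩)
    hp (by rw [Nat.card_congr (subgroupOfEquivOfLe hPG).toEquiv, hP])
    ⟨a, hAG ha⟩ ha hA'
  -- back to `G`
  have hgen' : G₁ = P ⊔ P.map (MulAut.conj ((w : G) * a)).toMonoidHom := by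
    have h1 := congrArg (Subgroup.map G₁.subtype) hgen
    rw [Subgroup.map_sup, hmapc hPG, hsub hPG, ← MonoidHom.range_eq_map, Subgroup.range_subtype] at h1
    exact h1.symm
  have hG₁s : Group.IsSolvable G₁ := by
    rw [hG₁, sup_comm]
    exact SignalizersComponents.CoprimeBasic.isSolvable_sup hAW inferInstance hAs
  have hG₁A : G₁ = A := hmax G₁ hAG hG₁s ⟨(w : G) * a, mul_mem w.2 (hAG ha), hgen'⟩
  have hWA : W ≤ A := by rw [← hG₁A]; exact hWG
  apply hRW
  -- `[R, W] ≤ R ∩ W = 1`
  have hcop : (Nat.card R).Coprime (Nat.card W) := by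
    obtain ⟨n, hn⟩ := IsPGroup.iff_card.mp hR
    obtain ⟨m, hm⟩ := IsPGroup.iff_card.mp hWq
    rw [hn, hm]
    exact Nat.Coprime.pow _ _ ((Nat.coprime_primes hr.out hq.out).2 hrq)
  have hRWbot : R ⊓ W = ⊥ := Disjoint.eq_bot (Subgroup.disjoint_of_coprime_natCard hcop)
  intro ρ hρ
  rw [mem_centralizer_iff]
  intro x hx
  have h1 : ρ * x * ρ⁻¹ * x⁻¹ ∈ R ⊓ W := by
    refine mem_inf.2 ⟨?_, ?_⟩
    · have h2 : x * ρ⁻¹ * x⁻¹ ∈ R := (mem_normalizer_iff.1 (hAR (hWA hx)) _).1 (inv_mem hρ)
      have e : ρ * x * ρ⁻¹ * x⁻¹ = ρ * (x * ρ⁻¹ * x⁻¹) := by group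
      rw [e]; exact mul_mem hρ h2
    · exact mul_mem ((mem_normalizer_iff.1 (hAW (hRA hρ)) x).1 hx) (inv_mem hx)
  rw [hRWbot, mem_bot] at h1
  have h3 : ρ * x * ρ⁻¹ = x := mul_inv_eq_one.1 h1
  calc x * ρ = (ρ * x * ρ⁻¹) * ρ := by rw [h3]
    _ = ρ * x := by group

/-- Let G be a finite group and P a subgroup of prime order p > 3. Consider the solvable subgroups A of G of the form A = ⟨P, aPa⁻¹⟩ for some a ∈ A, and let A be maximal under inclusion among them. Then for every nilpotent subgroup V of G normalized by A, the subgroup F(A)V generated by the Fitting subgroup of A and V is nilpotent. -/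
theorem result {G : Type*} [Group G] [Finite G]
    {p : ℕ} [Fact p.Prime] (hp : 3 < p) (P : Subgroup G) (hP : Nat.card P = p) (A : Subgroup G)
    (hA : Group.IsSolvable ↥A ∧ ∃ a ∈ A, A = P ⊔ P.map (MulAut.conj a).toMonoidHom)
    (hmax : ∀ B : Subgroup G, A ≤ B → Group.IsSolvable ↥B → (∃ b ∈ B, B = P ⊔ P.map (MulAut.conj b).toMonoidHom) → B = A)
    (V : Subgroup G) (hV : Group.IsNilpotent ↥V) (hAV : A ≤ Subgroup.normalizer (V : Set G)) :
    Group.IsNilpotent ↥((Cfsg.fittingSubgroup ↥A).map A.subtype ⊔ V) := by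
  classical
  set F : Subgroup G := (Cfsg.fittingSubgroup ↥A).map A.subtype with hF
  set N : Subgroup G := F ⊔ V with hN
  -- the primary components
  let R : ℕ → Subgroup G := fun s => (pCore s A).map A.subtype
  let W : ℕ → Subgroup G := fun s => (pCore s V).map V.subtype
  have hRA : ∀ s, R s ≤ A := fun s => map_subtype_le _
  have hWV : ∀ s, W s ≤ V := fun s => map_subtype_le _
  have hAR : ∀ s, A ≤ normalizer ((R s : Subgroup G) : Set G) := fun s => Lib.LocalCore.le_normalizer_map_pCore s A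
  have hVW : ∀ s, V ≤ normalizer ((W s : Subgroup G) : Set G) := fun s => Lib.LocalCore.le_normalizer_map_pCore s V
  have hAW : ∀ s, A ≤ normalizer ((W s : Subgroup G) : Set G) := by
    intro s
    have := Lib.Cores.pCore_characteristic (G := V) s
    exact S1288.le_normalizer_map_of_characteristic hAV _
  have hRp : ∀ s, IsPGroup s (R s) := fun s => Lib.LocalCore.isPGroup_map_pCore s A
  have hWp : ∀ s, IsPGroup s (W s) := fun s => Lib.LocalCore.isPGroup_map_pCore s V
  have hFR : F = ⨆ s : Nat.Primes, R s := by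
    rw [hF, Lib.Cores.fittingSubgroup_eq_iSup_pCore, Subgroup.map_iSup]
  have hVW' : V = ⨆ s : Nat.Primes, W s := by
    have h1 : fittingSubgroup V = ⊤ := Lib.Cores.fittingSubgroup_eq_top_iff.2 hV
    have h2 := congrArg (Subgroup.map V.subtype) h1
    rw [Lib.Cores.fittingSubgroup_eq_iSup_pCore, Subgroup.map_iSup, ← MonoidHom.range_eq_map,
      Subgroup.range_subtype] at h2
    exact h2.symm
  -- the commuting relations
  have hcRW : ∀ r q : ℕ, r.Prime → q.Prime → r ≠ q → R r ≤ centralizer ((W q : Subgroup G) : Set G) := by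
    intro r q hr hq hrq
    haveI := Fact.mk hr
    haveI := Fact.mk hq
    exact centralizes hp P hP A hA hmax hrq (R r) (W q) (hRA r) (hAR r) (hRp r) (hAW q) (hWp q)
  -- `N_q = R_q W_q`
  have hNq : ∀ s : ℕ, s.Prime → IsPGroup s ↥(R s ⊔ W s) := by
    intro s hs
    haveI := Fact.mk hs
    exact IsPGroup.to_sup_of_normal_right' (hRp s) (hWp s) ((hRA s).trans (hAW s))
  have hRR : ∀ r s : ℕ, r.Prime → s.Prime → r ≠ s → R r ≤ centralizer ((R s : Subgroup G) : Set G) := by
    intro r s hr hs hrs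
    haveI := Fact.mk hr
    haveI := Fact.mk hs
    intro x hx
    rw [mem_centralizer_iff]
    intro y hy
    have hcop : (Nat.card (R r)).Coprime (Nat.card (R s)) := by
      obtain ⟨n, hn⟩ := IsPGroup.iff_card.mp (hRp r)
      obtain ⟨m, hm⟩ := IsPGroup.iff_card.mp (hRp s)
      rw [hn, hm]
      exact Nat.Coprime.pow _ _ ((Nat.coprime_primes hr hs).2 hrs)
    have hbot : R r ⊓ R s = ⊥ := Disjoint.eq_bot (Subgroup.disjoint_of_coprime_natCard hcop)
    have h1 : y * x * y⁻¹ * x⁻¹ ∈ R r ⊓ R s := by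
      refine mem_inf.2 ⟨mul_mem ((mem_normalizer_iff.1 (hAR r (hRA s hy)) x).1 hx) (inv_mem hx), ?_⟩
      have e : y * x * y⁻¹ * x⁻¹ = y * (x * y⁻¹ * x⁻¹) := by group
      rw [e]
      exact mul_mem hy ((mem_normalizer_iff.1 (hAR s (hRA r hx)) _).1 (inv_mem hy))
    rw [hbot, mem_bot] at h1
    have h3 : y * x * y⁻¹ = x := mul_inv_eq_one.1 h1
    calc y * x = (y * x * y⁻¹) * y := by group
      _ = x * y := by rw [h3]
  have hWW : ∀ r s : ℕ, r.Prime → s.Prime → r ≠ s → W r ≤ centralizer ((W s : Subgroup G) : Set G) := by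
    intro r s hr hs hrs
    haveI := Fact.mk hr
    haveI := Fact.mk hs
    intro x hx
    rw [mem_centralizer_iff]
    intro y hy
    have hcop : (Nat.card (W r)).Coprime (Nat.card (W s)) := by
      obtain ⟨n, hn⟩ := IsPGroup.iff_card.mp (hWp r)
      obtain ⟨m, hm⟩ := IsPGroup.iff_card.mp (hWp s)
      rw [hn, hm]
      exact Nat.Coprime.pow _ _ ((Nat.coprime_primes hr hs).2 hrs)
    have hbot : W r ⊓ W s = ⊥ := Disjoint.eq_bot (Subgroup.disjoint_of_coprime_natCard hcop)
    have h1 : y * x * y⁻¹ * x⁻¹ ∈ W r ⊓ W s := by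
      refine mem_inf.2 ⟨mul_mem ((mem_normalizer_iff.1 (hVW r (hWV s hy)) x).1 hx) (inv_mem hx), ?_⟩
      have e : y * x * y⁻¹ * x⁻¹ = y * (x * y⁻¹ * x⁻¹) := by group
      rw [e]
      exact mul_mem hy ((mem_normalizer_iff.1 (hVW s (hWV r hx)) _).1 (inv_mem hy))
    rw [hbot, mem_bot] at h1
    have h3 : y * x * y⁻¹ = x := mul_inv_eq_one.1 h1
    calc y * x = (y * x * y⁻¹) * y := by group
      _ = x * y := by rw [h3]
  have hsymm : ∀ {B C : Subgroup G}, B ≤ centralizer (C : Set G) → C ≤ centralizer (B : Set G) := by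
    intro B C h x hx
    rw [mem_centralizer_iff]
    intro y hy
    exact (mem_centralizer_iff.1 (h hy) x hx).symm
  -- each `N_q` is normalized by `N`
  have hNN : ∀ s : ℕ, s.Prime → N ≤ normalizer ((R s ⊔ W s : Subgroup G) : Set G) := by
    intro s hs
    rw [hN]
    have hcent : ∀ {B : Subgroup G}, B ≤ centralizer ((R s ⊔ W s : Subgroup G) : Set G) →
        B ≤ normalizer ((R s ⊔ W s : Subgroup G) : Set G) := fun h => h.trans (centralizer_le_normalizer _)
    have hcent2 : ∀ {B : Subgroup G}, B ≤ centralizer ((R s : Subgroup G) : Set G) →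
        B ≤ centralizer ((W s : Subgroup G) : Set G) →
        B ≤ centralizer ((R s ⊔ W s : Subgroup G) : Set G) := by
      intro B h1 h2
      exact hsymm (sup_le (hsymm h1) (hsymm h2))
    refine sup_le ?_ ?_
    · rw [hFR]
      refine iSup_le ?_
      rintro ⟨r, hr⟩
      rcases eq_or_ne r s with rfl | hrs
      · exact le_sup_left.trans le_normalizer
      · exact hcent (hcent2 (hRR r s hr hs hrs) (hcRW r s hr hs hrs))
    · rw [hVW']
      refine iSup_le ?_
      rintro ⟨r, hr⟩
      rcases eq_or_ne r s with rfl | hrs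
      · exact le_sup_right.trans le_normalizer
      · exact hcent (hcent2 (hsymm (hcRW s r hs hr hrs.symm)) (hWW r s hr hs hrs))
  -- conclusion
  have hle : N ≤ (fittingSubgroup N).map N.subtype := by
    have key : ∀ s : ℕ, s.Prime → R s ⊔ W s ≤ (fittingSubgroup N).map N.subtype := by
      intro s hs
      haveI := Fact.mk hs
      refine Lib.LocalCore.le_map_fittingSubgroup ?_ (hNq s hs).isNilpotent (hNN s hs)
      refine sup_le_sup ?_ (hWV s)
      rw [hFR]
      exact le_iSup (fun s : Nat.Primes => R s) ⟨s, hs⟩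
    generalize (fittingSubgroup N).map N.subtype = M at key
    have h1 : F ≤ M := by
      rw [hFR]
      exact iSup_le fun s => le_sup_left.trans (key s s.2)
    have h2 : V ≤ M := by
      rw [hVW']
      exact iSup_le fun s => le_sup_right.trans (key s s.2)
    exact sup_le h1 h2
  rw [← Lib.Cores.fittingSubgroup_eq_top_iff, eq_top_iff]
  intro x _
  obtain ⟨y, hy, hyx⟩ := hle x.2
  exact (Subtype.ext hyx : y = x) ▸ hy

end Cfsg.Agent.S3822
end
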