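import Cfsg.Statements.S3825
import Mathlib
set_option linter.all false

set_option autoImplicit false
open Cfsg

namespace Cfsg.Agent.S3825

/-- Let U be a subgroup of a finite group H and w an involution of H normalizing U and commuting with exactly two elements of U, the identity and y. If V is a non-cyclic elementary abelian 2-subgroup of U containing y which is normal in U and invariant under w, then V is a Sylow 2-subgroup of U, V has order 4, and U/V is abelian. -/
theorem result {H : Type*} [Group H] [Finite H] (U : Subgroup H) (w : H) (hw : orderOf w = 2)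
    (hwU : w ∈ Subgroup.normalizer (U : Set H)) (y : H) (hy : y ≠ 1) (hyU : y ∈ U)
    (hfix : ∀ u ∈ U, w * u * w⁻¹ = u ↔ (u = 1 ∨ u = y))
    (V : Subgroup H) (hVU : V ≤ U) (hVn : (V.subgroupOf U).Normal) (hVw : ∀ v ∈ V, w * v * w⁻¹ ∈ V)
    (hVe : Cfsg.IsElementaryAbelian 2 V) (hVc : ¬ IsCyclic ↥V) (hyV : y ∈ V) :
    ¬ 2 ∣ V.relIndex U ∧ Nat.card ↥V = 4 ∧ ⁅U, U⁆ ≤ V := by
  obtain ⟨hVab, hV2⟩ := hVe
  have hw2 : w * w = 1 := by
    have := pow_orderOf_eq_one w
    rwa [hw, pow_two] at this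
  have hwi : w⁻¹ = w := inv_eq_of_mul_eq_one_left hw2
  have hcomm : ∀ a ∈ V, ∀ b ∈ V, a * b = b * a := fun a ha b hb =>
    congrArg Subtype.val (hVab.is_comm.comm (⟨a, ha⟩ : V) ⟨b, hb⟩)
  have hinv : ∀ a ∈ V, a⁻¹ = a := fun a ha => by
    have := hV2 a ha
    rw [pow_two] at this
    exact inv_eq_of_mul_eq_one_left this
  have hsq : ∀ a ∈ V, a * a = 1 := fun a ha => by
    have := hV2 a ha
    rwa [pow_two] at this
  have hww : ∀ x : H, w * (w * x * w⁻¹) * w⁻¹ = x := fun x => by
    rw [hwi]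
    calc w * (w * x * w) * w = (w * w) * x * (w * w) := by group
      _ = x := by rw [hw2]; group
  -- the commutator map
  let f : V →* V :=
    { toFun := fun v => ⟨v * (w * v * w⁻¹), V.mul_mem v.2 (hVw v v.2)⟩
      map_one' := by ext; simp
      map_mul' := fun a b => by
        ext
        have h1 := hcomm (w * a * w⁻¹) (hVw a a.2) b b.2
        show (a * b : H) * (w * (a * b) * w⁻¹) = (a * (w * a * w⁻¹)) * (b * (w * b * w⁻¹))
        calc (a * b : H) * (w * (a * b) * w⁻¹) = a * (b * (w * a * w⁻¹)) * (w * b * w⁻¹) := by group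
          _ = a * ((w * a * w⁻¹) * b) * (w * b * w⁻¹) := by rw [h1]
          _ = _ := by group }
  have hfval : ∀ v : V, (f v : H) = v * (w * v * w⁻¹) := fun v => rfl
  have hker : ∀ v : V, v ∈ f.ker ↔ (v = 1 ∨ v = ⟨y, hyV⟩) := by
    intro v
    rw [MonoidHom.mem_ker]
    constructor
    · intro h
      have h1 : (v : H) * (w * v * w⁻¹) = 1 := by rw [← hfval, h]; rfl
      have h2 : w * (v : H) * w⁻¹ = v := by
        rw [← hinv v v.2]
        rw [hinv v v.2]
        exact (eq_inv_of_mul_eq_one_right h1).trans (hinv v v.2)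
      rcases (hfix v (hVU v.2)).mp h2 with h3 | h3
      · left; ext; exact h3
      · right; ext; exact h3
    · intro h
      have h1 : (v : H) = 1 ∨ (v : H) = y := by
        rcases h with h | h
        · left; rw [h]; rfl
        · right; rw [h]
      have h2 := (hfix v (hVU v.2)).mpr h1
      ext
      rw [hfval, h2, hsq v v.2]
      rfl
  have hrange : ∀ v : V, f v = 1 ∨ f v = ⟨y, hyV⟩ := by
    intro v
    have h1 : w * (f v : H) * w⁻¹ = f v := by
      rw [hfval]
      have h1 := hcomm (w * v * w⁻¹) (hVw v v.2) v v.2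
      calc w * (v * (w * v * w⁻¹)) * w⁻¹ = (w * v * w⁻¹) * (w * (w * v * w⁻¹) * w⁻¹) := by group
        _ = (w * v * w⁻¹) * v := by rw [hww]
        _ = _ := h1
    rcases (hfix _ (hVU (f v).2)).mp h1 with h3 | h3
    · left; ext; exact h3
    · right; ext; exact h3
  have hyV1 : (⟨y, hyV⟩ : V) ≠ 1 := fun h => hy (congrArg Subtype.val h)
  have hcardker : Nat.card f.ker = 2 := by
    have : (f.ker : Set V) = {1, ⟨y, hyV⟩} := by
      ext v; simpa using hker v
    calc Nat.card f.ker = Nat.card ((f.ker : Set V)) := rfl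
      _ = Set.ncard (f.ker : Set V) := rfl
      _ = 2 := by rw [this]; exact Set.ncard_pair hyV1.symm
  have hcardrange : Nat.card f.range ≤ 2 := by
    calc Nat.card f.range = Set.ncard (f.range : Set V) := rfl
      _ ≤ Set.ncard ({1, ⟨y, hyV⟩} : Set V) := by
        refine Set.ncard_le_ncard ?_ (Set.toFinite _)
        rintro _ ⟨v, rfl⟩
        simpa using hrange v
      _ ≤ 2 := by rw [Set.ncard_pair hyV1.symm]
  have hcardmul : Nat.card f.ker * Nat.card f.range = Nat.card V := by
    rw [← Subgroup.index_ker, Subgroup.card_mul_index]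
  have hcard1 : Nat.card f.range ≠ 1 := by
    intro h
    rw [h, hcardker] at hcardmul
    have : Fact (Nat.Prime 2) := ⟨Nat.prime_two⟩
    exact hVc (isCyclic_of_prime_card (p := 2) hcardmul.symm)
  have hcard0 : Nat.card f.range ≠ 0 := Nat.card_pos.ne'
  have hcard2 : Nat.card f.range = 2 := by omega
  have hV4 : Nat.card V = 4 := by rw [← hcardmul, hcardker, hcard2]
  -- the element `t`
  obtain ⟨t, ht⟩ : ∃ t : V, f t = ⟨y, hyV⟩ := by
    by_contra hcon
    push Not at hcon
    apply hcard1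
    rw [Subgroup.card_eq_one, eq_bot_iff]
    rintro _ ⟨v, rfl⟩
    rcases hrange v with h | h
    · rw [h]; exact Subgroup.one_mem _
    · exact absurd h (hcon v)
  have ht' : w * (t : H) * w⁻¹ = t * y := by
    have h1 : (t : H) * (w * t * w⁻¹) = y := by rw [← hfval, ht]
    calc w * (t : H) * w⁻¹ = (t : H)⁻¹ * ((t : H) * (w * t * w⁻¹)) := by group
      _ = t * y := by rw [h1, hinv t t.2]
  -- key
  have key : ∀ u ∈ U, u⁻¹ * (w * u * w⁻¹) ∈ V → u ∈ V := by
    intro u hu hv
    have h1 : w * (u⁻¹ * (w * u * w⁻¹)) * w⁻¹ = u⁻¹ * (w * u * w⁻¹) := by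
      calc w * (u⁻¹ * (w * u * w⁻¹)) * w⁻¹ = (w * u * w⁻¹)⁻¹ * (w * (w * u * w⁻¹) * w⁻¹) := by group
        _ = (u⁻¹ * (w * u * w⁻¹))⁻¹ := by rw [hww]; group
        _ = _ := hinv _ hv
    rcases (hfix _ (hVU hv)).mp h1 with h2 | h2
    · have h3 : w * u * w⁻¹ = u := by
        have := mul_eq_one_iff_inv_eq.mp h2
        rw [inv_inv] at this
        exact this.symm
      rcases (hfix u hu).mp h3 with h4 | h4
      · rw [h4]; exact V.one_mem
      · rw [h4]; exact hyV
    · have h3 : w * u * w⁻¹ = u * y := by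
        rw [← h2]; group
      have h4 : w * (u * t) * w⁻¹ = u * t := by
        calc w * (u * t) * w⁻¹ = (w * u * w⁻¹) * (w * t * w⁻¹) := by group
          _ = u * (y * t) * y := by rw [h3, ht']; group
          _ = u * (t * y) * y := by rw [hcomm y hyV t t.2]
          _ = u * t * (y * y) := by group
          _ = u * t := by rw [hsq y hyV, mul_one]
      have h5 : u = (u * t) * (t : H)⁻¹ := by group
      rw [h5]
      refine V.mul_mem ?_ (V.inv_mem t.2)
      rcases (hfix _ (U.mul_mem hu (hVU t.2))).mp h4 with h6 | h6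
      · rw [h6]; exact V.one_mem
      · rw [h6]; exact hyV
  -- quotient
  have hwn : ∀ u ∈ U, w * u * w⁻¹ ∈ U := fun u hu => (Subgroup.mem_normalizer_iff.mp hwU u).mp hu
  let c : U →* U :=
    { toFun := fun u => ⟨w * u * w⁻¹, hwn u u.2⟩
      map_one' := by ext; simp
      map_mul' := fun a b => by ext; simp }
  let φ : (U ⧸ V.subgroupOf U) →* (U ⧸ V.subgroupOf U) :=
    QuotientGroup.map (V.subgroupOf U) (V.subgroupOf U) c (by
      intro v hv
      rw [Subgroup.mem_comap, Subgroup.mem_subgroupOf]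
      exact hVw _ (Subgroup.mem_subgroupOf.mp hv))
  have hφ : MonoidHom.FixedPointFree φ := by
    rintro ⟨u⟩ hu
    have h1 : ((c u : U) : U ⧸ V.subgroupOf U) = (u : U ⧸ V.subgroupOf U) := hu
    have h2 := QuotientGroup.eq.mp h1.symm
    refine (QuotientGroup.eq_one_iff u).mpr ?_
    rw [Subgroup.mem_subgroupOf] at h2 ⊢
    exact key u u.2 h2
  have hφ2 : Function.Involutive φ := by
    rintro ⟨u⟩
    show (((c (c u)) : U) : U ⧸ V.subgroupOf U) = (u : U ⧸ V.subgroupOf U)
    congr 1
    ext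
    exact hww u
  refine ⟨?_, hV4, ?_⟩
  · have := hφ.odd_card_of_involutive hφ2
    intro h
    exact (Nat.not_even_iff_odd.mpr this) (even_iff_two_dvd.mpr h)
  · rw [Subgroup.commutator_le]
    intro a ha b hb
    have h1 : ((⟨a, ha⟩ : U) : U ⧸ V.subgroupOf U) * ((⟨b, hb⟩ : U) : U ⧸ V.subgroupOf U)
        = ((⟨b, hb⟩ : U) : U ⧸ V.subgroupOf U) * ((⟨a, ha⟩ : U) : U ⧸ V.subgroupOf U) :=
      hφ.commute_all_of_involutive hφ2 _ _
    have h2 : (((⟨a, ha⟩ : U) * ⟨b, hb⟩ * (⟨a, ha⟩ : U)⁻¹ * (⟨b, hb⟩ : U)⁻¹ : U) : U ⧸ V.subgroupOf U) = 1 := by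
      rw [QuotientGroup.mk_mul, QuotientGroup.mk_mul, QuotientGroup.mk_mul, QuotientGroup.mk_inv,
        QuotientGroup.mk_inv, h1]
      group
    have h3 := (QuotientGroup.eq_one_iff _).mp h2
    exact Subgroup.mem_subgroupOf.mp h3

end Cfsg.Agent.S3825
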