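import Cfsg.Statements.S3835
import Cfsg.Agent.H460.QdAlt
set_option linter.all false

set_option autoImplicit false
open Cfsg

namespace Cfsg.Agent.S3835

/-- Let p be an odd prime and n a natural number. The alternating group of degree n has a subgroup isomorphic to Qd(p) (the natural semidirect product of an elementary abelian group of order p² by SL₂(p)) if and only if n ≥ p²; and if n < p² then Qd(p) is not even involved in it. -/
theorem result {p : ℕ} [Fact p.Prime] (hp : p ≠ 2) (n : ℕ) : ((∃ H : Subgroup (alternatingGroup (Fin n)), Nonempty (↥H ≃* ↥(Cfsg.qd p))) ↔ p ^ 2 ≤ n) ∧ (n < p ^ 2 → ¬ Cfsg.Involves ↥(Cfsg.qd p) ↥(alternatingGroup (Fin n))) := by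
  have hneg : n < p ^ 2 → ¬ Cfsg.Involves ↥(Cfsg.qd p) ↥(alternatingGroup (Fin n)) := by
    intro hn h
    exact Cfsg.Agent.H460.QdAlt.not_involves_alt hn (Cfsg.Agent.Lib.Involves.involves_iff.2 h)
  refine ⟨⟨?_, fun h => Cfsg.Agent.H460.QdAlt.exists_alt_subgroup hp h⟩, hneg⟩
  rintro ⟨H, ⟨e⟩⟩
  by_contra hn
  rw [not_le] at hn
  exact Cfsg.Agent.H460.QdAlt.not_involves_alt hn ⟨H, e.toMonoidHom, e.surjective⟩

end Cfsg.Agent.S3835
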