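import Cfsg.Statements.S3836
import Cfsg.Agent.Lib.Cores
set_option linter.all false

set_option autoImplicit false
open Cfsg

namespace Cfsg.Agent.S3836

/-- Let G be a finite group that is p-stable in the normalizer form: for every p-subgroup Q and every x ∈ N_G(Q) with [Q, x, x] = 1, the image of x in N_G(Q)/C_G(Q) lies in O_p(N_G(Q)/C_G(Q)). Then every subgroup of G is p-stable in the same sense. -/
theorem result {G : Type*} [Group G] [Finite G] {p : ℕ} [Fact p.Prime] (hst : Cfsg.IsNormalizerPStable p G) (H : Subgroup G) : Cfsg.IsNormalizerPStable p ↥H := by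
  intro P hP g hg hcomm
  set P' : Subgroup G := P.map H.subtype with hP'
  have hmem : ∀ x : ↥H, (x : G) ∈ P' ↔ x ∈ P := by
    intro x
    constructor
    · rintro ⟨y, hy, hxy⟩
      have : y = x := Subtype.ext hxy
      rwa [this] at hy
    · intro hx
      exact ⟨x, hx, rfl⟩
  have hP'p : IsPGroup p P' := hP.map H.subtype
  have hnorm : ∀ x : ↥H, x ∈ Subgroup.normalizer (P : Set ↥H) → (x : G) ∈ Subgroup.normalizer (P' : Set G) := by
    intro x hx
    rw [Subgroup.mem_normalizer_iff] at hx ⊢
    intro h
    constructor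
    · rintro ⟨y, hy, rfl⟩
      have := (hx y).1 hy
      exact ⟨x * y * x⁻¹, this, rfl⟩
    · rintro ⟨y, hy, hxy⟩
      have hh : h = ((x⁻¹ * y * x : ↥H) : G) := by
        have : (y : G) = x * h * (x : G)⁻¹ := hxy
        push_cast
        rw [this]
        group
      rw [hh]
      refine ⟨x⁻¹ * y * x, ?_, rfl⟩
      apply (hx _).2
      have : x * (x⁻¹ * y * x) * x⁻¹ = y := by group
      rw [this]
      exact hy
  have hcent : ∀ x : ↥H, (x : G) ∈ Subgroup.centralizer (P' : Set G) ↔ x ∈ Subgroup.centralizer (P : Set ↥H) := by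
    intro x
    rw [Subgroup.mem_centralizer_iff, Subgroup.mem_centralizer_iff]
    constructor
    · intro h y hy
      apply Subtype.ext
      exact h (y : G) ⟨y, hy, rfl⟩
    · rintro h _ ⟨y, hy, rfl⟩
      exact congrArg Subtype.val (h y hy)
  have hg' : (g : G) ∈ Subgroup.normalizer (P' : Set G) := hnorm g hg
  have hz : Subgroup.zpowers (g : G) = (Subgroup.zpowers g).map H.subtype := by
    rw [MonoidHom.map_zpowers]; rfl
  have hcomm' : ⁅⁅P', Subgroup.zpowers (g : G)⁆, Subgroup.zpowers (g : G)⁆ = ⊥ := by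
    rw [hz, hP', ← Subgroup.map_commutator, ← Subgroup.map_commutator, hcomm, Subgroup.map_bot]
  have key := hst P' hP'p (g : G) hg' hcomm'
  -- the induced homomorphism
  let φ : ↥(Subgroup.normalizer (P : Set ↥H)) →* ↥(Subgroup.normalizer (P' : Set G)) :=
    { toFun := fun x => ⟨((x : ↥H) : G), hnorm x.1 x.2⟩
      map_one' := rfl
      map_mul' := fun x y => rfl }
  let ψ : (↥(Subgroup.normalizer (P : Set ↥H)) ⧸ (Subgroup.centralizer (P : Set ↥H)).subgroupOf (Subgroup.normalizer (P : Set ↥H))) →*
      (↥(Subgroup.normalizer (P' : Set G)) ⧸ (Subgroup.centralizer (P' : Set G)).subgroupOf (Subgroup.normalizer (P' : Set G))) :=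
    QuotientGroup.map _ _ φ (by
      intro x hx
      rw [Subgroup.mem_comap, Subgroup.mem_subgroupOf]
      rw [Subgroup.mem_subgroupOf] at hx
      exact (hcent _).2 hx)
  have hψinj : Function.Injective ψ := by
    rw [injective_iff_map_eq_one]
    intro x
    induction x using QuotientGroup.induction_on with
    | H x =>
      intro hx
      have hx' : QuotientGroup.mk (s := (Subgroup.centralizer (P' : Set G)).subgroupOf (Subgroup.normalizer (P' : Set G))) (φ x) = 1 := hx
      rw [QuotientGroup.eq_one_iff] at hx' ⊢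
      rw [Subgroup.mem_subgroupOf] at hx' ⊢
      exact (hcent _).1 hx'
  have hle := Cfsg.Agent.Lib.Cores.le_pCore (p := p)
    (N := (Cfsg.pCore p (↥(Subgroup.normalizer (P' : Set G)) ⧸ (Subgroup.centralizer (P' : Set G)).subgroupOf (Subgroup.normalizer (P' : Set G)))).comap ψ)
    (by
      have := Cfsg.Agent.Lib.Cores.pCore_normal (G := (↥(Subgroup.normalizer (P' : Set G)) ⧸ (Subgroup.centralizer (P' : Set G)).subgroupOf (Subgroup.normalizer (P' : Set G)))) p
      infer_instance)
    ((Cfsg.Agent.Lib.Cores.pCore_isPGroup p).comap_of_injective ψ hψinj)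
  apply hle
  rw [Subgroup.mem_comap]
  exact key

end Cfsg.Agent.S3836
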