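import Cfsg.Statements.S3839
import Cfsg.Agent.Transfer.FrobeniusFusion
import Cfsg.Agent.Transfer.FusionBasic
set_option linter.all false

set_option autoImplicit false
open Cfsg

namespace Cfsg.Agent.S3839

open Cfsg.Agent.Transfer.NormalPComplement Cfsg.Agent.Transfer.FusionBasic
  Cfsg.Agent.Transfer.FrobeniusFusion Subgroup

variable {G : Type*} [Group G]

/-- `p'`-elements of `N(Q)` centralize `Q`. -/
def PA (p : ℕ) (Q : Subgroup G) : Prop :=
  ∀ g ∈ normalizer (Q : Set G), (orderOf g).Coprime p → g ∈ centralizer (Q : Set G)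

theorem pa_of_hnc [Finite G] {p : ℕ} [Fact p.Prime] {D : Subgroup G} (hD : IsPGroup p D)
    {L : Subgroup G} (hDL : D ≤ L) (hL : normalizer (D : Set G) ≤ L)
    (hN : Cfsg.HasNormalPComplement p ↥L) : PA p D := by
  intro g hg hgp
  obtain ⟨N, hNn, h1, h2⟩ := hasNormalPComplement_iff.mp hN
  rw [mem_centralizer_iff]
  intro d hd
  set g' : ↥L := ⟨g, hL hg⟩ with hg'
  set d' : ↥L := ⟨d, hDL hd⟩ with hd'
  have hgN : g' ∈ N := by
    rw [mem_iff_coprime_orderOf' N h1 h2 g', hg', Subgroup.orderOf_mk]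
    exact hgp
  have h3 : d' * g' * d'⁻¹ * g'⁻¹ ∈ N := mul_mem (hNn.conj_mem g' hgN d') (inv_mem hgN)
  have h4 : d * g * d⁻¹ * g⁻¹ ∈ D := by
    have h5 : g * d⁻¹ * g⁻¹ ∈ D := (Subgroup.mem_normalizer_iff.mp hg d⁻¹).mp (inv_mem hd)
    have h6 : d * g * d⁻¹ * g⁻¹ = d * (g * d⁻¹ * g⁻¹) := by group
    rw [h6]
    exact mul_mem hd h5
  have h5 : d * g * d⁻¹ * g⁻¹ = 1 := by
    obtain ⟨k, hk⟩ := IsPGroup.iff_card.mp hD
    have h6 : orderOf (d * g * d⁻¹ * g⁻¹) ∣ Nat.card N := by
      have := Subgroup.orderOf_dvd_natCard N h3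
      rwa [← Subgroup.orderOf_coe] at this
    have h7 : orderOf (d * g * d⁻¹ * g⁻¹) ∣ Nat.card D := Subgroup.orderOf_dvd_natCard D h4
    rw [hk] at h7
    rw [← orderOf_eq_one_iff]
    exact Nat.eq_one_of_dvd_coprimes (h1.pow_right k) h6 h7
  rw [mul_inv_eq_one, mul_inv_eq_iff_eq_mul] at h5
  exact h5

theorem pow_mem_of_pow_ppow {G : Type*} [Group G] [Finite G] {p : ℕ}
    [hp : Fact p.Prime] {A : Subgroup G} {g : G} (hg : (orderOf g).Coprime p) {k : ℕ}
    (h : g ^ p ^ k ∈ A) : g ∈ A := by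
  have hc : (orderOf g).Coprime (p ^ k) := Nat.Coprime.pow_right k hg
  obtain ⟨m, hm⟩ := exists_pow_eq_self_of_coprime hc.symm
  rw [← hm]
  exact pow_mem h m

/-- The conjugate of a subgroup. -/
theorem pa_of_conj {p : ℕ} {Q : Subgroup G} {a : G}
    (h : PA p (Q.map (MulAut.conj a).toMonoidHom)) : PA p Q := by
  intro g hg hgp
  have h1 := h (a * g * a⁻¹) ?_ ?_
  · rw [Subgroup.mem_centralizer_iff] at h1 ⊢
    intro d hd
    have h2 := h1 (a * d * a⁻¹) ⟨d, hd, rfl⟩
    have h3 : a * (d * g) * a⁻¹ = a * (g * d) * a⁻¹ := by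
      have h4 : a * (d * g) * a⁻¹ = (a * d * a⁻¹) * (a * g * a⁻¹) := by group
      rw [h4, h2]
      group
    exact mul_left_cancel (mul_right_cancel h3)
  · rw [normalizer_map_conj]
    exact ⟨g, hg, rfl⟩
  · have : orderOf (a * g * a⁻¹) = orderOf g :=
      orderOf_injective (MulAut.conj a).toMonoidHom (MulAut.conj a).injective g
    rw [this]
    exact hgp

/-- Every `p`-subgroup has a conjugate inside `S` that is fully normalized. -/
theorem exists_conj [Finite G] {p : ℕ} [Fact p.Prime] (S : Sylow p G) {Q : Subgroup G}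
    (hQ : IsPGroup p Q) : ∃ a : G, Q.map (MulAut.conj a).toMonoidHom ≤ (S : Subgroup G) ∧
      SylIn p ((S : Subgroup G) ⊓ normalizer ((Q.map (MulAut.conj a).toMonoidHom : Subgroup G) : Set G))
        (normalizer ((Q.map (MulAut.conj a).toMonoidHom : Subgroup G) : Set G)) := by
  obtain ⟨T₀, hQT, hT⟩ := exists_sylIn_ge hQ (le_normalizer (H := Q))
  obtain ⟨a, -, ha⟩ := (sylIn_top S).conj_le le_top hT.isPGroup
  refine ⟨a, ?_, ?_⟩
  · rw [map_conj_le_iff]
    exact fun x hx => ha x (hQT hx)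
  · have h1 := hT.map_conj a
    rw [← normalizer_map_conj] at h1
    have h2 : T₀.map (MulAut.conj a).toMonoidHom ≤ (S : Subgroup G) := map_conj_le_iff.mpr ha
    have h3 := h1.2.2 ((S : Subgroup G) ⊓
      normalizer ((Q.map (MulAut.conj a).toMonoidHom : Subgroup G) : Set G)) (le_inf h2 h1.le)
      inf_le_right (S.2.to_le inf_le_left)
    rw [h3]
    exact h1

/-- The common Frattini argument. -/
theorem pa_of_frattini [Finite G] {p : ℕ} [hp : Fact p.Prime] (S : Sylow p G) {Q Y R : Subgroup G}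
    (hS : SylIn p ((S : Subgroup G) ⊓ normalizer (Q : Set G)) (normalizer (Q : Set G)))
    (hY : Y ≤ normalizer (Q : Set G)) (hYn : normalizer (Q : Set G) ≤ normalizer (Y : Set G))
    (hYp : ∀ y ∈ Y, (orderOf y).Coprime p → y ∈ centralizer (Q : Set G))
    (hCY : centralizer (Q : Set G) ≤ Y)
    (hQR : Q ≤ R)
    (hR : ∀ n ∈ normalizer (Q : Set G), n ∈ normalizer (((S : Subgroup G) ⊓ Y : Subgroup G) : Set G) →
      n ∈ normalizer (R : Set G)) (hPA : PA p R) : PA p Q := by
  intro g hg hgp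
  have h1 : SylIn p ((S : Subgroup G) ⊓ Y) Y := by
    have := hS.inf hY hYn
    rwa [inf_assoc, inf_eq_right.mpr hY] at this
  obtain ⟨y, hy, hyg⟩ := h1.frattini hYn hg
  have hn : y * g ∈ normalizer (Q : Set G) := mul_mem (hY hy) hg
  have hnR := hR _ hn hyg
  -- a `p`-power power of `y g` centralizes `R`
  set n := y * g with hndef
  have h2 := coprime_orderOf_pow_ordProj (p := p) (isOfFinOrder_of_finite n)
  set k := (orderOf n).factorization p with hk
  have h3 : n ^ p ^ k ∈ centralizer (Q : Set G) :=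
    centralizer_le hQR (hPA _ (pow_mem hnR _) h2)
  have h4 : ∀ m : ℕ, (n ^ m)⁻¹ * g ^ m ∈ Y := by
    intro m
    induction m with
    | zero => simp
    | succ m ih =>
      have h5 : (n ^ (m + 1))⁻¹ * g ^ (m + 1) =
          (n⁻¹ * ((n ^ m)⁻¹ * g ^ m) * n⁻¹⁻¹) * (n⁻¹ * g) := by
        rw [pow_succ, pow_succ]; group
      rw [h5]
      refine mul_mem ?_ ?_
      · exact (Subgroup.mem_normalizer_iff.mp (hYn (inv_mem hn)) _).mp ih
      · have h6 : n⁻¹ * g = g⁻¹ * y⁻¹ * g⁻¹⁻¹ := by rw [hndef]; group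
        rw [h6]
        exact (Subgroup.mem_normalizer_iff.mp (hYn (inv_mem hg)) _).mp (inv_mem hy)
  have h5 : g ^ p ^ k ∈ Y := by
    have h6 := mul_mem (hCY h3) (h4 (p ^ k))
    rwa [mul_inv_cancel_left] at h6
  have h6 : g ^ p ^ k ∈ centralizer (Q : Set G) :=
    hYp _ h5 (Nat.Coprime.coprime_dvd_left (orderOf_pow_dvd _) hgp)
  exact pow_mem_of_pow_ppow hgp h6

section Main

variable [Finite G] {p : ℕ} [hp : Fact p.Prime] (S : Sylow p G) (D : Subgroup G)

theorem strong (hD : Cfsg.IsStronglyClosed D (S : Subgroup G)) {Q : Subgroup G}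
    (hQ : Q ≤ (S : Subgroup G)) {g : G} (hg : g ∈ normalizer (Q : Set G)) {x : G}
    (hxQ : x ∈ Q) (hxD : x ∈ D) : g * x * g⁻¹ ∈ D :=
  hD.2 x hxD g (hQ ((mem_normalizer_iff.mp hg x).mp hxQ))

theorem strong_normalizer (hD : Cfsg.IsStronglyClosed D (S : Subgroup G)) {Q : Subgroup G}
    (hQ : Q ≤ (S : Subgroup G)) {g : G} (hg : g ∈ normalizer (Q : Set G)) :
    g ∈ normalizer ((Q ⊓ D : Subgroup G) : Set G) := by
  refine mem_normalizer_of_conj_mem ?_
  rintro a ⟨ha, haD⟩
  exact ⟨(mem_normalizer_iff.mp hg a).mp ha, strong S D hD hQ hg ha haD⟩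

/-- Step 1. -/
theorem step_one (hD : Cfsg.IsStronglyClosed D (S : Subgroup G))
    (h : ∀ U : Subgroup G, U ≤ D → D ⊓ centralizer (U : Set G) ≤ U →
      Cfsg.HasNormalPComplement p ↥(normalizer (U : Set G)))
    (U : Subgroup G) (hU : U ≤ D) : PA p U := by
  have hUp : IsPGroup p U := S.2.to_le (hU.trans hD.1)
  obtain ⟨a, ha1, ha2⟩ := exists_conj S hUp
  refine pa_of_conj (a := a) ?_
  have haD : U.map (MulAut.conj a).toMonoidHom ≤ D := by
    rw [map_conj_le_iff] at ha1 ⊢
    exact fun x hx => hD.2 x (hU hx) a (ha1 x hx)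
  generalize U.map (MulAut.conj a).toMonoidHom = V at *
  have hYn : (centralizer (V : Set G)) ≤ normalizer (V : Set G) := by
    intro x hx
    rw [mem_normalizer_iff]
    intro y
    have h0 := fun z (hz : z ∈ V) => mem_centralizer_iff.mp hx z hz
    constructor
    · intro hy
      rw [← h0 y hy, mul_inv_cancel_right]
      exact hy
    · intro hy
      have h1 := h0 _ hy
      have h2 : y = x * y * x⁻¹ := by
        have h3 : x * y * x⁻¹ * x = x * (x * y * x⁻¹) := h1
        rw [inv_mul_cancel_right] at h3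
        exact mul_left_cancel h3
      rw [h2]
      exact hy
  have hnC : normalizer (V : Set G) ≤ normalizer ((centralizer (V : Set G) : Subgroup G) : Set G) := by
    intro g hg
    refine mem_normalizer_of_conj_mem ?_
    intro c hc
    rw [mem_centralizer_iff] at hc ⊢
    intro v hv
    have h1 := hc (g⁻¹ * v * g) (by
      have := (mem_normalizer_iff.mp (inv_mem hg) v).mp hv
      rwa [inv_inv] at this)
    have h2 : v * (g * c * g⁻¹) = g * (g⁻¹ * v * g * c) * g⁻¹ := by group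
    rw [h2, h1]
    group
  refine pa_of_frattini S (Y := centralizer (V : Set G)) (R := V ⊔ (D ⊓ centralizer (V : Set G)))
    ha2 hYn hnC (fun y hy _ => hy) le_rfl le_sup_left ?_ ?_
  · intro n hn hnS
    have h1 : n ∈ normalizer ((D ⊓ centralizer (V : Set G) : Subgroup G) : Set G) := by
      have h2 := strong_normalizer S D hD (inf_le_left) hnS
      have h3 : (S : Subgroup G) ⊓ centralizer (V : Set G) ⊓ D = D ⊓ centralizer (V : Set G) := by
        apply le_antisymm
        · exact le_inf inf_le_right (inf_le_left.trans inf_le_right)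
        · exact le_inf (le_inf (inf_le_left.trans hD.1) inf_le_right) inf_le_left
      rwa [h3] at h2
    rw [mem_normalizer_iff_map_conj_eq] at hn h1 ⊢
    rw [Subgroup.map_sup, hn, h1]
  · have hRD : V ⊔ (D ⊓ centralizer (V : Set G)) ≤ D := sup_le haD inf_le_left
    refine pa_of_hnc (S.2.to_le (hRD.trans hD.1)) le_normalizer le_rfl (h _ hRD ?_)
    refine le_sup_of_le_right (inf_le_inf_left _ (centralizer_le ?_))
    exact SetLike.coe_subset_coe.mpr le_sup_left

/-- The subgroup of elements of `N(Q)` acting trivially on `Q / (Q ∩ D)`. -/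
def ySub (hD : Cfsg.IsStronglyClosed D (S : Subgroup G)) (Q : Subgroup G)
    (hQ : Q ≤ (S : Subgroup G)) : Subgroup G where
  carrier := {y | y ∈ normalizer (Q : Set G) ∧ ∀ q ∈ Q, y * q * y⁻¹ * q⁻¹ ∈ D}
  one_mem' := ⟨one_mem _, fun q _ => by simp⟩
  mul_mem' := by
    rintro a b ⟨ha, ha'⟩ ⟨hb, hb'⟩
    refine ⟨mul_mem ha hb, fun q hq => ?_⟩
    have h1 : b * q * b⁻¹ * q⁻¹ ∈ Q :=
      mul_mem ((mem_normalizer_iff.mp hb q).mp hq) (inv_mem hq)
    have h2 : a * b * q * (a * b)⁻¹ * q⁻¹ =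
        (a * (b * q * b⁻¹ * q⁻¹) * a⁻¹) * (a * q * a⁻¹ * q⁻¹) := by group
    rw [h2]
    exact mul_mem (strong S D hD hQ ha h1 (hb' q hq)) (ha' q hq)
  inv_mem' := by
    rintro y ⟨hy, hy'⟩
    refine ⟨inv_mem hy, fun q hq => ?_⟩
    have h1 : y⁻¹ * q * y ∈ Q := by
      have := (mem_normalizer_iff.mp (inv_mem hy) q).mp hq
      rwa [inv_inv] at this
    have h2 := inv_mem (hy' _ h1)
    have h3 : (y * (y⁻¹ * q * y) * y⁻¹ * (y⁻¹ * q * y)⁻¹)⁻¹ = y⁻¹ * q * y⁻¹⁻¹ * q⁻¹ := by group
    rwa [h3] at h2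

/-- Step 2. -/
theorem step_two (hD : Cfsg.IsStronglyClosed D (S : Subgroup G))
    (h : ∀ U : Subgroup G, U ≤ D → D ⊓ centralizer (U : Set G) ≤ U →
      Cfsg.HasNormalPComplement p ↥(normalizer (U : Set G))) :
    ∀ (n : ℕ) (Q : Subgroup G), IsPGroup p Q → Nat.card G - Nat.card Q = n → PA p Q := by
  intro n
  induction n using Nat.strong_induction_on with
  | _ n ih =>
  intro Q₀ hQ₀ hn
  obtain ⟨a, ha1, ha2⟩ := exists_conj S hQ₀
  refine pa_of_conj (a := a) ?_
  have hcard : Nat.card (Q₀.map (MulAut.conj a).toMonoidHom) = Nat.card Q₀ := card_map_conj _ _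
  generalize Q₀.map (MulAut.conj a).toMonoidHom = Q at *
  set Y := ySub S D hD Q ha1 with hY
  have hYN : Y ≤ normalizer (Q : Set G) := fun y hy => hy.1
  have hYn : normalizer (Q : Set G) ≤ normalizer (Y : Set G) := by
    intro g hg
    refine mem_normalizer_of_conj_mem ?_
    rintro y ⟨hy, hy'⟩
    refine ⟨mul_mem (mul_mem hg hy) (inv_mem hg), fun q hq => ?_⟩
    have h1 : g⁻¹ * q * g ∈ Q := by
      have := (mem_normalizer_iff.mp (inv_mem hg) q).mp hq
      rwa [inv_inv] at this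
    have h2 := hy' _ h1
    have h3 : y * (g⁻¹ * q * g) * y⁻¹ * (g⁻¹ * q * g)⁻¹ ∈ Q :=
      mul_mem ((mem_normalizer_iff.mp hy _).mp h1) (inv_mem h1)
    have h4 := strong S D hD ha1 hg h3 h2
    have h5 : g * (y * (g⁻¹ * q * g) * y⁻¹ * (g⁻¹ * q * g)⁻¹) * g⁻¹ =
        g * y * g⁻¹ * q * (g * y * g⁻¹)⁻¹ * q⁻¹ := by group
    rwa [h5] at h4
  have hPAD : PA p (Q ⊓ D) := step_one S D hD h _ inf_le_right
  have hYp : ∀ y ∈ Y, (orderOf y).Coprime p → y ∈ centralizer (Q : Set G) := by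
    rintro y ⟨hy, hy'⟩ hyp
    have h1 := hPAD y (strong_normalizer S D hD ha1 hy) hyp
    rw [mem_centralizer_iff] at h1 ⊢
    intro q hq
    set d := y * q * y⁻¹ * q⁻¹ with hd
    have hdQ : d ∈ Q := mul_mem ((mem_normalizer_iff.mp hy q).mp hq) (inv_mem hq)
    have hdy : d * y = y * d := h1 d ⟨hdQ, hy' q hq⟩
    have h2 : ∀ m : ℕ, y ^ m * q * (y ^ m)⁻¹ = d ^ m * q := by
      intro m
      induction m with
      | zero => simp
      | succ m ihm =>
        have h3 : y ^ (m + 1) * q * (y ^ (m + 1))⁻¹ = y * (y ^ m * q * (y ^ m)⁻¹) * y⁻¹ := by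
          rw [pow_succ']; group
        have h4 : y * d ^ m = d ^ m * y := (Commute.pow_right (show Commute y d from hdy.symm) m).eq
        have h5 : y * (d ^ m * q) * y⁻¹ = (y * d ^ m) * q * y⁻¹ := by group
        rw [h3, ihm, h5, h4, pow_succ]
        have h6 : y * q * y⁻¹ = d * q := by rw [hd]; group
        have h7 : d ^ m * y * q * y⁻¹ = d ^ m * (y * q * y⁻¹) := by group
        rw [h7, h6, ← mul_assoc]
    have h3 := h2 (orderOf y)
    rw [pow_orderOf_eq_one, one_mul, inv_one, mul_one] at h3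
    have h4 : d ^ orderOf y = 1 := by
      have := h3.symm
      rwa [mul_eq_right] at this
    have h5 : d = 1 := by
      obtain ⟨k, hk⟩ := S.2 ⟨d, ha1 hdQ⟩
      have h6 : d ^ p ^ k = 1 := congrArg Subtype.val hk
      rw [← orderOf_eq_one_iff]
      exact Nat.eq_one_of_dvd_coprimes (hyp.pow_right k) (orderOf_dvd_of_pow_eq_one h4)
        (orderOf_dvd_of_pow_eq_one h6)
    have h6 : y * q * y⁻¹ = d * q := by rw [hd]; group
    rw [h5, one_mul, mul_inv_eq_iff_eq_mul] at h6
    exact h6.symm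
  have hCY : centralizer (Q : Set G) ≤ Y := by
    intro x hx
    have h0 := fun z (hz : z ∈ Q) => mem_centralizer_iff.mp hx z hz
    refine ⟨mem_normalizer_of_conj_mem fun q hq => ?_, fun q hq => ?_⟩
    · rw [← h0 q hq, mul_inv_cancel_right]
      exact hq
    · rw [← h0 q hq, mul_inv_cancel_right, mul_inv_cancel]
      exact one_mem _
  by_cases hR : (S : Subgroup G) ⊓ Y ≤ Q
  · -- then `D ≤ Q`
    have hQp : IsPGroup p Q := S.2.to_le ha1
    have hDQ : D ≤ Q := by
      by_contra hcon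
      have hSD : (S : Subgroup G) ≤ normalizer (D : Set G) := by
        intro s hs
        refine mem_normalizer_of_conj_mem fun d hd => ?_
        exact hD.2 d hd s (mul_mem (mul_mem hs (hD.1 hd)) (inv_mem hs))
      have hlt : Q < Q ⊔ D := by
        refine lt_of_le_of_ne le_sup_left fun h1 => hcon ?_
        rw [h1]
        exact le_sup_right
      have hQDS : Q ⊔ D ≤ (S : Subgroup G) := sup_le ha1 hD.1
      have hnil : Group.IsNilpotent ↥(Q ⊔ D) := (S.2.to_le hQDS).isNilpotent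
      obtain ⟨x, hx, hxQ, hxN⟩ := exists_mem_normalizer_notMem hlt
      have h1 : x ∈ ((Q ⊔ D : Subgroup G) : Set G) := hx
      rw [Subgroup.coe_mul_of_left_le_normalizer_right _ _ (ha1.trans hSD)] at h1
      obtain ⟨q, hq, d, hd, rfl⟩ := h1
      have hdN : d ∈ normalizer (Q : Set G) := by
        have h2 := mul_mem (inv_mem (le_normalizer (H := Q) hq)) hxN
        rwa [inv_mul_cancel_left] at h2
      have hdY : d ∈ Y := by
        refine ⟨hdN, fun r hr => ?_⟩
        have h2 : d * r * d⁻¹ * r⁻¹ = d * (r * d⁻¹ * r⁻¹) := by group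
        rw [h2]
        exact mul_mem hd ((mem_normalizer_iff.mp (hSD (ha1 hr)) _).mp (inv_mem hd))
      exact hxQ (mul_mem hq (hR ⟨hD.1 hd, hdY⟩))
    have hle : normalizer (Q : Set G) ≤ normalizer (D : Set G) := by
      intro g hg
      have := strong_normalizer S D hD ha1 hg
      rwa [inf_eq_right.mpr hDQ] at this
    have hQD : Q ≤ normalizer (D : Set G) := le_normalizer.trans hle
    exact pa_of_hnc hQp hQD hle (h D le_rfl inf_le_left)
  · have hRS : Q ⊔ ((S : Subgroup G) ⊓ Y) ≤ (S : Subgroup G) := sup_le ha1 inf_le_left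
    have hRp : IsPGroup p ↥(Q ⊔ ((S : Subgroup G) ⊓ Y)) := S.2.to_le hRS
    have hlt : Q < Q ⊔ ((S : Subgroup G) ⊓ Y) := by
      refine lt_of_le_of_ne le_sup_left fun h1 => hR ?_
      conv_rhs => rw [h1]
      exact le_sup_right
    have hPA : PA p (Q ⊔ ((S : Subgroup G) ⊓ Y)) := by
      refine ih _ ?_ _ hRp rfl
      have h1 : Nat.card Q < Nat.card ↥(Q ⊔ ((S : Subgroup G) ⊓ Y)) := by
        apply Set.ncard_lt_ncard (s := (Q : Set G)) (t := ((Q ⊔ ((S : Subgroup G) ⊓ Y) : Subgroup G) : Set G))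
        exact hlt
      have h2 := Subgroup.card_le_card_group (Q ⊔ ((S : Subgroup G) ⊓ Y))
      omega
    refine pa_of_frattini S ha2 hYN hYn hYp hCY le_sup_left ?_ hPA
    intro n hn hnS
    rw [mem_normalizer_iff_map_conj_eq] at hn hnS ⊢
    rw [Subgroup.map_sup, hn, hnS]

end Main

/-- A Frobenius normal p-complement criterion relative to a strongly closed subgroup. Let G be a finite group, S a Sylow p-subgroup and D a subgroup of S strongly closed in S with respect to G. Then G has a normal p-complement if and only if N_G(U) has a normal p-complement for every subgroup U of D with C_D(U) ≤ U. -/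
theorem result {G : Type*} [Group G] [Finite G] {p : ℕ} [Fact p.Prime] (S : Sylow p G) (D : Subgroup G) (hD : Cfsg.IsStronglyClosed D (S : Subgroup G)) : Cfsg.HasNormalPComplement p G ↔ ∀ U : Subgroup G, U ≤ D → D ⊓ Subgroup.centralizer (U : Set G) ≤ U → Cfsg.HasNormalPComplement p ↥(Subgroup.normalizer (U : Set G)) := by
  constructor
  · intro h U _ _
    exact Cfsg.Agent.Transfer.NormalPComplement.subgroup h _
  · intro h
    rw [hasNormalPComplement_iff_localCondition]
    intro Q hQ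
    exact step_two S D hD h _ Q hQ rfl

end Cfsg.Agent.S3839
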