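import Cfsg.Statements.S3858
import Cfsg.Agent.H466.SylowMax
set_option linter.all false

set_option autoImplicit false
open Cfsg

namespace Cfsg.Agent.S3858

/-- Let G be a finite group with a normal non-abelian simple subgroup T whose centralizer is trivial (G almost simple with socle T), r a prime and R a Sylow r-subgroup of G meeting T nontrivially. Then R lies in exactly one maximal subgroup of G if and only if G has exactly one conjugacy class of maximal subgroups whose index is prime to r. -/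
theorem result {G : Type*} [Group G] [Finite G] (T : Subgroup G) [T.Normal] (hT : IsSimpleGroup T) (hna : ¬ IsMulCommutative T)
    (hC : Subgroup.centralizer (T : Set G) = ⊥) {r : ℕ} [Fact r.Prime] (R : Sylow r G) (hR0 : (R : Subgroup G) ⊓ T ≠ ⊥) :
    (∃! M : Subgroup G, IsCoatom M ∧ (R : Subgroup G) ≤ M) ↔
      ((∃ M : Subgroup G, IsCoatom M ∧ ¬ r ∣ M.index) ∧
        ∀ M₁ M₂ : Subgroup G, IsCoatom M₁ → ¬ r ∣ M₁.index → IsCoatom M₂ → ¬ r ∣ M₂.index → ∃ g : G, M₂ = M₁.map (MulAut.conj g).toMonoidHom) := by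
  have hcop : ∀ M : Subgroup G, (R : Subgroup G) ≤ M → ¬ r ∣ M.index := by
    intro M hRM h
    exact R.not_dvd_index (h.trans (Subgroup.index_dvd_of_le hRM))
  constructor
  · rintro ⟨M, ⟨hM, hRM⟩, huniq⟩
    refine ⟨⟨M, hM, hcop M hRM⟩, ?_⟩
    have key : ∀ M' : Subgroup G, IsCoatom M' → ¬ r ∣ M'.index → ∃ g : G, M = M'.map (MulAut.conj g).toMonoidHom := by
      intro M' hM' hr
      -- a Sylow subgroup of `M'` is Sylow in `G`
      obtain ⟨Q⟩ := (inferInstance : Nonempty (Sylow r M'))
      have hQ : ∃ S : Sylow r G, (S : Subgroup G) = (Q : Subgroup M').map M'.subtype := by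
        have hp : IsPGroup r ((Q : Subgroup M').map M'.subtype) := Q.isPGroup'.map _
        refine ⟨hp.toSylow ?_, rfl⟩
        intro h
        have h1 := Subgroup.relIndex_mul_index (H := (Q : Subgroup M').map M'.subtype) (K := M') (Subgroup.map_subtype_le _)
        have h2 : ((Q : Subgroup M').map M'.subtype).relIndex M' = (Q : Subgroup M').index := by
          rw [Subgroup.relIndex, Subgroup.subgroupOf, Subgroup.comap_map_eq_self_of_injective M'.subtype_injective]
        rw [← h1, h2] at h
        rcases (Nat.Prime.dvd_mul (Fact.out : r.Prime)).1 h with h | h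
        · exact Q.not_dvd_index h
        · exact hr h
      obtain ⟨S, hS⟩ := hQ
      obtain ⟨g, hg⟩ := MulAction.exists_smul_eq G S R
      refine ⟨g, ?_⟩
      symm
      apply huniq
      refine ⟨?_, ?_⟩
      · have := (OrderIso.isCoatom_iff (MulEquiv.mapSubgroup (MulAut.conj g)) M').2 hM'
        exact this
      · rw [← hg, Sylow.coe_subgroup_smul]
        intro x hx
        rw [Subgroup.mem_pointwise_smul_iff_inv_smul_mem] at hx
        have hx' : g⁻¹ * x * g ∈ (S : Subgroup G) := by simpa using hx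
        rw [hS] at hx'
        refine ⟨g⁻¹ * x * g, Subgroup.map_subtype_le _ hx', ?_⟩
        simp [mul_assoc]
    intro M₁ M₂ h1 h1' h2 h2'
    obtain ⟨g₁, hg₁⟩ := key M₁ h1 h1'
    obtain ⟨g₂, hg₂⟩ := key M₂ h2 h2'
    refine ⟨g₂⁻¹ * g₁, ?_⟩
    have h3 : M₂ = M.map (MulAut.conj g₂⁻¹).toMonoidHom := by
      rw [hg₂, Subgroup.map_map]
      have : ((MulAut.conj g₂⁻¹).toMonoidHom.comp (MulAut.conj g₂).toMonoidHom) = MonoidHom.id G := by
        ext x
        simp [mul_assoc]
      rw [this, Subgroup.map_id]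
    rw [h3, hg₁, Subgroup.map_map]
    congr 1
    ext x
    simp [mul_assoc]
  · rintro ⟨-, hcls⟩
    have hRn : ¬ (R : Subgroup G).Normal :=
      Cfsg.Agent.H466.SylowMax.not_normal T hT hna R R.isPGroup' hR0
    have hN : Subgroup.normalizer ((R : Subgroup G) : Set G) ≠ ⊤ := by
      intro h
      exact hRn (Subgroup.normalizer_eq_top_iff.1 h)
    obtain ⟨M, hM, hNM⟩ := (eq_top_or_exists_le_coatom (Subgroup.normalizer ((R : Subgroup G) : Set G))).resolve_left hN
    refine ⟨M, ⟨hM, Subgroup.le_normalizer.trans hNM⟩, ?_⟩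
    rintro M' ⟨hM', hRM'⟩
    obtain ⟨g, hg⟩ := hcls M M' hM (hcop M (Subgroup.le_normalizer.trans hNM)) hM' (hcop M' hRM')
    exact Cfsg.Agent.H466.SylowMax.conj_eq R M M' hNM hRM' g hg

end Cfsg.Agent.S3858
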