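import Cfsg.Statements.S3865
import Cfsg.Agent.H467.MaxClassUniform
import Cfsg.Agent.H467.UnifFusion
import Cfsg.Agent.Transfer.NormalPComplement
import Cfsg.Agent.S0081
import Cfsg.Agent.Lib.CoprimeStab
set_option linter.all false

set_option autoImplicit false
open Cfsg

namespace Cfsg.Agent.S3865

open Subgroup
open scoped commutatorElement Pointwise
open Cfsg.Agent.H467 Cfsg.Agent.H467.MaxClass

/-- Two proper subgroups do not cover a group. -/
theorem exists_notMem_two {H : Type*} [Group H] (A B : Subgroup H) (hA : A ≠ ⊤) (hB : B ≠ ⊤) :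
    ∃ x, x ∉ A ∧ x ∉ B := by
  by_contra hcon
  push Not at hcon
  obtain ⟨a, ha⟩ : ∃ a, a ∉ A := by
    by_contra h; push Not at h; exact hA (eq_top_iff.mpr fun x _ => h x)
  obtain ⟨b, hb⟩ : ∃ b, b ∉ B := by
    by_contra h; push Not at h; exact hB (eq_top_iff.mpr fun x _ => h x)
  have haB := hcon a ha
  have hbA : b ∈ A := by
    by_contra h; exact hb (hcon b h)
  have h1 : a * b ∉ A := fun h => ha (by
    have := mul_mem h (inv_mem hbA); rwa [mul_inv_cancel_right] at this)
  have h2 := hcon _ h1
  apply hb
  have := mul_mem (inv_mem haB) h2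
  rwa [inv_mul_cancel_left] at this

section

variable {G : Type*} [Group G] [Finite G] {p : ℕ} [hp : Fact p.Prime] (P : Sylow p G) {n : ℕ}

/-- Normal subgroups of `G`. -/
theorem normal_cases (hP : Nat.card P = p ^ n) (hn : 3 ≤ n)
    (hmax : Group.nilpotencyClass ↥(P : Subgroup G) = n - 1) (hcore : Cfsg.pPrimeCore p G = ⊥)
    (hres : ∀ N : Subgroup G, N.Normal → (N.index).Coprime p → N = ⊤) (N : Subgroup G)
    (hN : N.Normal) : N = ⊤ ∨ N.relIndex P = p ∨
      (IsPGroup p N ∧ N ≤ P ∧ N.subgroupOf P ≤ commutator (P : Subgroup G)) := by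
  have hPG : IsPGroup p (P : Subgroup G) := P.isPGroup'
  obtain ⟨r, hr⟩ := hPG.index (N.subgroupOf (P : Subgroup G))
  have hr' : N.relIndex P = p ^ r := hr
  rcases Nat.lt_or_ge r 2 with h2 | h2
  · rcases Nat.eq_zero_or_pos r with rfl | h0
    · left
      rw [pow_zero, relIndex_eq_one] at hr'
      apply hres N hN
      have h3 : N.index ∣ (P : Subgroup G).index := index_dvd_of_le hr'
      have h4 : ¬ p ∣ N.index := fun h => P.not_dvd_index (h.trans h3)
      exact ((Nat.Prime.coprime_iff_not_dvd hp.out).mpr h4).symm
    · right; left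
      have : r = 1 := by omega
      rw [hr', this, pow_one]
  · right; right
    have h3 : N.subgroupOf (P : Subgroup G) ≤ commutator (P : Subgroup G) := by
      rw [(Cfsg.Agent.S0662.result n hP hmax hn).1 (N.subgroupOf (P : Subgroup G)) r h2 hr,
        ← Subgroup.top_lowerCentralSeries_one]
      exact Subgroup.lowerCentralSeries_antitone _ (by omega)
    have h4 : N ⊓ (P : Subgroup G) ≤ (frattini P).map (P : Subgroup G).subtype := by
      rintro x ⟨hx1, hx2⟩
      exact ⟨⟨x, hx2⟩, Cfsg.Agent.Lib.FrattiniPGroup.commutator_le_frattini hPG (h3 hx1), rfl⟩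
    obtain ⟨K, hK, hK1, hK2⟩ := Cfsg.Agent.Transfer.NormalPComplement.hasNormalPComplement_iff.mp
      (Cfsg.Agent.S0081.result P N h4)
    have hKmem := Cfsg.Agent.Transfer.NormalPComplement.mem_iff_coprime_orderOf' K hK1 hK2
    have hKn : (K.map N.subtype).Normal := by
      constructor
      rintro _ ⟨y, hy, rfl⟩ g
      have h1 : g * (y : G) * g⁻¹ ∈ N := hN.conj_mem _ y.2 g
      refine ⟨⟨g * (y : G) * g⁻¹, h1⟩, ?_, rfl⟩
      rw [SetLike.mem_coe, hKmem]
      have hy' := (hKmem y).mp hy
      have e : orderOf (⟨g * (y : G) * g⁻¹, h1⟩ : N) = orderOf y := by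
        rw [← Subgroup.orderOf_coe, ← Subgroup.orderOf_coe y]
        have := MulEquiv.orderOf_eq (MulAut.conj g) (y : G)
        rw [MulAut.conj_apply] at this
        exact this
      rw [e]
      exact hy'
    have hKcard : Nat.card (K.map N.subtype) = Nat.card K :=
      Nat.card_congr (K.equivMapOfInjective N.subtype N.subtype_injective).toEquiv.symm
    have h5 : K.map N.subtype ≤ Cfsg.pPrimeCore p G :=
      le_sSup ⟨hKn, by rw [hKcard]; exact hK1⟩
    rw [hcore, le_bot_iff, Subgroup.map_eq_bot_iff_of_injective _ N.subtype_injective] at h5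
    have h6 : IsPGroup p N := by
      intro x
      obtain ⟨k, hk⟩ := hK2 (QuotientGroup.mk' K x)
      refine ⟨k, ?_⟩
      rw [← map_pow, QuotientGroup.mk'_apply, QuotientGroup.eq_one_iff, h5, mem_bot] at hk
      exact hk
    exact ⟨h6, h6.le_sylow_of_normal P, h3⟩

theorem card_eq_pow_factorization (hP : Nat.card P = p ^ n) : (Nat.card G).factorization p = n := by
  have h1 := P.card_eq_multiplicity
  rw [hP] at h1
  exact (Nat.pow_right_injective hp.out.two_le h1).symm

/-- centralizers in `P` and in `G` -/
theorem card_inf_centralizer (x : (P : Subgroup G)) :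
    Nat.card ((P : Subgroup G) ⊓ centralizer ({(x : G)} : Set G) : Subgroup G) =
      Nat.card (centralizer ({x} : Set (P : Subgroup G))) := by
  have h1 : (P : Subgroup G) ⊓ centralizer ({(x : G)} : Set G) =
      (centralizer ({x} : Set (P : Subgroup G))).map (P : Subgroup G).subtype := by
    ext y
    constructor
    · rintro ⟨hy1, hy2⟩
      refine ⟨⟨y, hy1⟩, ?_, rfl⟩
      have hy2' : y ∈ centralizer ({(x : G)} : Set G) := hy2
      show (⟨y, hy1⟩ : (P : Subgroup G)) ∈ centralizer ({x} : Set (P : Subgroup G))
      rw [mem_centralizer_singleton_iff] at hy2' ⊢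
      exact Subtype.ext hy2'
    · rintro ⟨z, hz, rfl⟩
      have hz' : z ∈ centralizer ({x} : Set (P : Subgroup G)) := hz
      refine ⟨z.2, ?_⟩
      show (z : G) ∈ centralizer ({(x : G)} : Set G)
      rw [mem_centralizer_singleton_iff] at hz' ⊢
      exact congrArg Subtype.val hz'
  rw [h1]
  exact Nat.card_congr ((centralizer ({x} : Set (P : Subgroup G))).equivMapOfInjective _
    (P : Subgroup G).subtype_injective).symm.toEquiv

theorem two_le_factorization {x : (P : Subgroup G)}
    (hx : Nat.card (centralizer ({x} : Set (P : Subgroup G))) = p ^ 2) :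
    2 ≤ (Nat.card (centralizer ({(x : G)} : Set G))).factorization p := by
  have h1 : p ^ 2 ∣ Nat.card (centralizer ({(x : G)} : Set G)) := by
    rw [← hx, ← card_inf_centralizer P x]
    exact Subgroup.card_dvd_of_le inf_le_right
  exact (hp.out.pow_dvd_iff_le_factorization Nat.card_pos.ne').mp h1

end

/-- A normal subgroup `M` of order at most `p ^ 2` of a group `Q` of maximal class, contained in
the derived subgroup, does not contain its centralizer. -/
theorem not_centralizer_le {Q : Type*} [Group Q] [Finite Q] {p n : ℕ} [hp : Fact p.Prime]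
    (hQ : Nat.card Q = p ^ n) (hn : 3 ≤ n) (hmax : Group.nilpotencyClass Q = n - 1)
    (M : Subgroup Q) (hM : M.Normal) (hMD : M ≤ commutator Q) (hcard : Nat.card M ≤ p ^ 2) :
    ¬ centralizer (M : Set Q) ≤ M := by
  intro hle
  have hQG : IsPGroup p Q := IsPGroup.of_card hQ
  have hZ : Nat.card (center Q) = p :=
    Cfsg.Agent.Transfer.MaximalClass.card_center_of_maxClass hn hQ hmax
  have hD : (commutator Q).index = p ^ 2 := by
    have := (lcs_card hQ hmax hn (i := 1) le_rfl (by omega)).2
    rwa [Subgroup.top_lowerCentralSeries_one] at this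
  have hZM : center Q ≤ M := (Subgroup.center_le_centralizer _).trans hle
  have hMne : M ≠ center Q := by
    intro h
    have h1 : centralizer (M : Set Q) = ⊤ := by
      rw [h, centralizer_center]
    rw [h1, top_le_iff] at hle
    rw [hle] at hMD
    have h2 : commutator Q = ⊤ := top_le_iff.mp hMD
    rw [h2, index_top] at hD
    have h3 : 1 < p ^ 2 := Nat.one_lt_pow (by norm_num) hp.out.one_lt
    omega
  obtain ⟨r, hr, hr'⟩ : ∃ r ∈ M, r ∉ center Q := by
    by_contra hcon
    push Not at hcon
    exact hMne (le_antisymm hcon hZM)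
  -- `[M, Q] ≤ Z(Q)`
  have hpow : ∀ X : Subgroup Q, X ≤ M → p < Nat.card X → X = M := by
    intro X hX hlt
    obtain ⟨k, -, hk⟩ := (Nat.dvd_prime_pow hp.out).mp
      (by rw [← hQ]; exact Subgroup.card_subgroup_dvd_card X : Nat.card X ∣ p ^ n)
    rw [hk] at hlt
    have h1 : 1 < k := by
      rw [← Nat.pow_lt_pow_iff_right hp.out.one_lt, pow_one]; exact hlt
    have h2 : p ^ 2 ≤ Nat.card X := by
      rw [hk]; exact Nat.pow_le_pow_right hp.out.pos (by omega)
    exact Subgroup.eq_of_le_of_card_ge hX (hcard.trans h2)
  have hcomm : ∀ w ∈ M, ∀ x : Q, ⁅w, x⁆ ∈ center Q := by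
    have h1 : (center Q).relIndex M ∣ p ^ 1 := by
      have h2 := Cfsg.Agent.PLocal.Uniserial.card_mul_relIndex hZM
      rw [hZ] at h2
      have h3 : (center Q).relIndex M ≤ p := by
        rw [← h2, pow_two] at hcard
        exact Nat.le_of_mul_le_mul_left hcard hp.out.pos
      obtain ⟨k, hk⟩ := (hQG.to_subgroup M).index ((center Q).subgroupOf M)
      have hk' : (center Q).relIndex M = p ^ k := hk
      rw [hk'] at h3 ⊢
      apply pow_dvd_pow
      rw [← Nat.pow_le_pow_iff_right hp.out.one_lt, pow_one]; exact h3
    have h2 := Cfsg.Agent.PLocal.Uniserial.iterCommutator_le_of_relIndex (⊤ : Subgroup Q) M ⊤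
      (hQG.to_subgroup ⊤) le_top le_top (by rw [Subgroup.normalizer_eq_top_iff.mpr hM])
      (center Q) hZM (by rw [Subgroup.normalizer_eq_top_iff.mpr inferInstance]) 1 h1
    intro w hw x
    exact h2 (commutator_mem_commutator hw (mem_top x))
  let ψ : Q →* Q :=
    { toFun := fun x => ⁅r, x⁆
      map_one' := commutatorElement_one_right r
      map_mul' := by
        intro a b
        have e : ⁅r, a * b⁆ = ⁅r, a⁆ * (a * ⁅r, b⁆ * a⁻¹) := by
          simp only [commutatorElement_def]; group
        rw [e, Subgroup.mem_center_iff.mp (hcomm r hr b) a, mul_inv_cancel_right] }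
  have hψ : ∀ x, ψ x = ⁅r, x⁆ := fun x => rfl
  have h1 : ψ.ker.index ≤ p := by
    rw [Subgroup.index_ker, ← hZ]
    apply Subgroup.card_le_of_le
    rintro _ ⟨x, rfl⟩
    exact hcomm r hr x
  have h2 : ψ.ker ≤ centralizer (M : Set Q) := by
    intro y hy
    rw [MonoidHom.mem_ker, hψ, commutatorElement_eq_one_iff_mul_comm] at hy
    have h3 : M ⊓ centralizer ({y} : Set Q) = M := by
      apply hpow _ inf_le_left
      rw [← hZ]
      apply lt_of_le_of_ne
      · apply Subgroup.card_le_of_le
        exact le_inf hZM (Subgroup.center_le_centralizer _)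
      · intro h4
        have h5 := Subgroup.eq_of_le_of_card_ge
          (le_inf hZM (Subgroup.center_le_centralizer ({y} : Set Q))) h4.ge
        apply hr'
        rw [h5]
        refine ⟨hr, ?_⟩
        show r ∈ centralizer ({y} : Set Q)
        rw [mem_centralizer_singleton_iff]
        exact hy
    rw [mem_centralizer_iff]
    intro w hw
    have h4 : w ∈ M ⊓ centralizer ({y} : Set Q) := by rw [h3]; exact hw
    exact mem_centralizer_singleton_iff.mp h4.2
  have h3 : (commutator Q).index ∣ ψ.ker.index := index_dvd_of_le ((h2.trans hle).trans hMD)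
  have h4 := Nat.le_of_dvd (Nat.pos_of_ne_zero index_ne_zero_of_finite) h3
  rw [hD] at h4
  have h5 : p ^ 1 < p ^ 2 := Nat.pow_lt_pow_right hp.out.one_lt (by norm_num)
  rw [pow_one] at h5
  omega

/-- Let G be a finite group whose Sylow p-subgroup P has order p ^ n with n ≥ 2 and nilpotency class n - 1 (maximal class), whose largest normal subgroup of order prime to p is trivial, and which has no proper normal subgroup of index prime to p. Then either some x ∈ P has a centralizer in G whose order has p-part p ^ 2, or G is quasisimple with centre of order at most p. -/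
theorem result {G : Type*} [Group G] [Finite G] (p : ℕ) [Fact p.Prime] (P : Sylow p G) (n : ℕ) (hP : Nat.card P = p ^ n) (hn : 2 ≤ n) (hmax : Group.nilpotencyClass ↥(P : Subgroup G) = n - 1) (hcore : Cfsg.pPrimeCore p G = ⊥) (hres : ∀ N : Subgroup G, N.Normal → (N.index).Coprime p → N = ⊤) : (∃ x ∈ (P : Subgroup G), (Nat.card (Subgroup.centralizer ({x} : Set G))).factorization p = 2) ∨ (Cfsg.IsQuasisimple G ∧ Nat.card (Subgroup.center G) ≤ p) := by
  have hp : p.Prime := Fact.out
  rcases Nat.eq_or_lt_of_le hn with hn2 | hn3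
  · left
    refine ⟨1, one_mem _, ?_⟩
    have h1 : centralizer ({1} : Set G) = ⊤ := by
      rw [eq_top_iff]
      intro x _
      rw [mem_centralizer_singleton_iff, mul_one, one_mul]
    rw [h1, Subgroup.card_top, card_eq_pow_factorization P hP, ← hn2]
  have hn3' : 3 ≤ n := hn3
  have hPG : IsPGroup p (P : Subgroup G) := P.isPGroup'
  have hcases := normal_cases P hP hn3' hmax hcore hres
  obtain ⟨C1, C2, hC1, hC2, hC12, hDC, hunif, hnon⟩ := exists_uniform hP hmax hn3'
  have hcover : ∀ M : Subgroup (P : Subgroup G), M ≠ ⊤ → ∃ x, x ∉ C1 ∧ x ∉ C2 ∧ x ∉ M := by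
    intro M hM
    rcases Nat.lt_or_ge p 3 with h2 | h3
    · have h2' : p = 2 := by have := hp.two_le; omega
      obtain ⟨x, hx1, hx2⟩ := exists_notMem_two C1 M hC1 hM
      exact ⟨x, hx1, by rw [← hC12 h2']; exact hx1, hx2⟩
    · exact exists_notMem_three h3 hP C1 C2 M hC1 hC2 hM
  by_cases hA : ∃ N : Subgroup G, N.Normal ∧ N.relIndex P = p
  · -- a normal subgroup with quotient of order divisible by `p` exactly once
    left
    obtain ⟨N, hN, hNp⟩ := hA
    have hM : N.subgroupOf (P : Subgroup G) ≠ ⊤ := by
      intro h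
      have h1 : (N.subgroupOf (P : Subgroup G)).index = p := hNp
      rw [h, index_top] at h1
      exact hp.one_lt.ne h1
    obtain ⟨x, hx1, hx2, hx3⟩ := hcover _ hM
    have hx := hunif x hx1 hx2
    refine ⟨x, x.2, le_antisymm ?_ (two_le_factorization P hx)⟩
    apply UnifFusion.factorization_centralizer N (x : G) hx3 _ P x.2
    · rw [card_inf_centralizer P x, hx]
    · intro S
      rw [UnifFusion.relIndex_sylow N S P, hNp]
  · push Not at hA
    have hcases' : ∀ N : Subgroup G, N.Normal → N ≠ ⊤ →
        IsPGroup p N ∧ N ≤ P ∧ N.subgroupOf P ≤ commutator (P : Subgroup G) := by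
      intro N hN hNt
      rcases hcases N hN with h | h | h
      · exact absurd h hNt
      · exact absurd h (hA N hN)
      · exact h
    have hntP : Nontrivial (P : Subgroup G) := by
      rw [← Finite.one_lt_card_iff_nontrivial, hP]
      exact Nat.one_lt_pow (by omega) hp.one_lt
    have hPtop : (P : Subgroup G) ≠ ⊤ := by
      intro htop
      obtain ⟨M, hMn, hMi, -, hMc⟩ := Cfsg.Agent.Lib.CoprimeStab.exists_normal_index_prime
        (P : Subgroup G) hPG
      have hn1 : (M.map (P : Subgroup G).subtype).Normal := by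
        constructor
        rintro _ ⟨y, hy, rfl⟩ g
        have hg : g ∈ (P : Subgroup G) := by rw [htop]; trivial
        exact ⟨(⟨g, hg⟩ : (P : Subgroup G)) * y * (⟨g, hg⟩ : (P : Subgroup G))⁻¹,
          hMn.conj_mem y hy _, rfl⟩
      apply hA _ hn1
      have h5 := Subgroup.relIndex_map_map_of_injective M ⊤ (P : Subgroup G).subtype_injective
      rw [← MonoidHom.range_eq_map, range_subtype, relIndex_top_right, hMi] at h5
      exact h5
    have hperf : commutator G = ⊤ := by
      by_contra hne
      obtain ⟨-, h1, -⟩ := hcases' _ inferInstance hne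
      have hPn : (P : Subgroup G).Normal := Subgroup.Normal.of_commutator_le G h1
      apply hPtop
      apply hres _ hPn
      exact ((Nat.Prime.coprime_iff_not_dvd hp).mpr P.not_dvd_index).symm
    have hntG : Nontrivial G := by
      obtain ⟨a, b, hab⟩ := hntP
      exact ⟨a, b, fun h => hab (Subtype.ext h)⟩
    have hZt : center G ≠ ⊤ := by
      intro h
      have h1 : commutator G = ⊥ := (_root_.commutator_eq_bot_iff_center_eq_top (G := G)).mpr h
      rw [h1] at hperf
      exact bot_ne_top hperf
    set R : Subgroup G := Cfsg.pCore p G with hR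
    have hRn : R.Normal := Subgroup.sSup_normal _ (fun _ h => h.1)
    have hRp : IsPGroup p R := Sylow.sSup_of_normal _ (fun H hH => hH.2) (fun H hH => hH.1)
    have hleR : ∀ N : Subgroup G, N.Normal → N ≠ ⊤ → N ≤ R := by
      intro N hN hNt
      exact le_sSup ⟨hN, (hcases' N hN hNt).1⟩
    have hRt : R ≠ ⊤ := by
      intro h
      apply hPtop
      rw [eq_top_iff, ← h]
      exact hRp.le_sylow_of_normal P
    obtain ⟨-, hRP, hRD⟩ := hcases' R hRn hRt
    by_cases hc : R ≤ center G
    · -- quasisimple
      right
      have hZR : center G = R := le_antisymm (hleR _ inferInstance hZt) hc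
      refine ⟨⟨⟨hperf⟩, ?_⟩, ?_⟩
      · have hnt : Nontrivial (G ⧸ center G) := by
          rw [← Finite.one_lt_card_iff_nontrivial]
          have h1 : (center G).index ≠ 1 := fun h => hZt (index_eq_one.mp h)
          have h2 : (center G).index ≠ 0 := index_ne_zero_of_finite
          have h3 : Nat.card (G ⧸ center G) = (center G).index := rfl
          omega
        refine { hnt with eq_bot_or_eq_top_of_normal := ?_ }
        intro H hH
        have h1 : (H.comap (QuotientGroup.mk' (center G))).Normal := inferInstance
        by_cases h2 : H.comap (QuotientGroup.mk' (center G)) = ⊤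
        · right
          rw [← Subgroup.map_comap_eq_self_of_surjective (QuotientGroup.mk'_surjective _) H, h2]
          exact Subgroup.map_top_of_surjective _ (QuotientGroup.mk'_surjective _)
        · left
          have h3 := hleR _ h1 h2
          rw [← hZR] at h3
          rw [← Subgroup.map_comap_eq_self_of_surjective (QuotientGroup.mk'_surjective _) H,
            Subgroup.map_eq_bot_iff, QuotientGroup.ker_mk']
          exact h3
      · have h1 : center G ≤ P := by rw [hZR]; exact hRP
        have h2 : (center G).subgroupOf (P : Subgroup G) ≤ center (P : Subgroup G) := by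
          intro x hx
          rw [mem_subgroupOf] at hx
          rw [Subgroup.mem_center_iff] at hx ⊢
          intro g
          exact Subtype.ext (hx g)
        have h3 : Nat.card (center (P : Subgroup G)) = p :=
          Cfsg.Agent.Transfer.MaximalClass.card_center_of_maxClass hn3' hP hmax
        rw [← h3]
        refine le_trans (le_of_eq ?_) (Subgroup.card_le_of_le h2)
        exact (Nat.card_congr (Subgroup.subgroupOfEquivOfLe h1).toEquiv).symm
    · -- `C_G(R) ≤ R`
      left
      have hCR : centralizer (R : Set G) ≤ R := by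
        apply hleR _ (Subgroup.normal_centralizer (H := R))
        intro h
        apply hc
        intro x hx
        rw [Subgroup.mem_center_iff]
        intro g
        have hg : g ∈ centralizer (R : Set G) := by rw [h]; trivial
        exact (mem_centralizer_iff.mp hg x hx).symm
      set RQ : Subgroup (P : Subgroup G) := R.subgroupOf P with hRQ
      have hRQn : RQ.Normal := inferInstance
      have hRQcard : Nat.card RQ = Nat.card R := Nat.card_congr (subgroupOfEquivOfLe hRP).toEquiv
      have h3 : p ^ 3 ≤ Nat.card RQ := by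
        by_contra hlt
        push Not at hlt
        obtain ⟨k, -, hk⟩ := (Nat.dvd_prime_pow hp).mp
          (by rw [← hP]; exact Subgroup.card_subgroup_dvd_card RQ : Nat.card RQ ∣ p ^ n)
        rw [hk] at hlt
        have h4 : k < 3 := (Nat.pow_lt_pow_iff_right hp.one_lt).mp hlt
        have h5 : Nat.card RQ ≤ p ^ 2 := by
          rw [hk]; exact Nat.pow_le_pow_right hp.pos (by omega)
        apply not_centralizer_le hP hn3' hmax RQ hRQn hRD h5
        intro x hx
        apply hCR
        rw [mem_centralizer_iff] at hx ⊢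
        intro y hy
        exact congrArg Subtype.val (hx ⟨y, hRP hy⟩ hy)
      obtain ⟨x, hx1, hx2, -⟩ := hcover ⊥ (bot_ne_top)
      have hx := hunif x hx1 hx2
      refine ⟨x, x.2, le_antisymm ?_ (two_le_factorization P hx)⟩
      apply UnifFusion.factorization_le_of_forall (x : G) P x.2
      intro T hxT
      obtain ⟨g, rfl⟩ := MulAction.exists_smul_eq G P T
      have hsmul : ∀ y : G, y ∈ ((g • P : Sylow p G) : Subgroup G) ↔
          ∃ z ∈ (P : Subgroup G), g * z * g⁻¹ = y := by
        intro y
        rw [Sylow.coe_subgroup_smul, Subgroup.mem_smul_pointwise_iff_exists]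
        rfl
      obtain ⟨z, hz, hzx⟩ := (hsmul _).mp hxT
      have hconjC : ∀ y : G, g * y * g⁻¹ ∈ centralizer ({(x : G)} : Set G) ↔
          y ∈ centralizer ({z} : Set G) := by
        intro y
        rw [mem_centralizer_singleton_iff, mem_centralizer_singleton_iff, ← hzx]
        constructor
        · intro h
          have e1 : g * y * g⁻¹ * (g * z * g⁻¹) = g * (y * z) * g⁻¹ := by group
          have e2 : g * z * g⁻¹ * (g * y * g⁻¹) = g * (z * y) * g⁻¹ := by group
          rw [e1, e2] at h
          exact mul_left_cancel (mul_right_cancel h)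
        · intro h
          have e1 : g * y * g⁻¹ * (g * z * g⁻¹) = g * (y * z) * g⁻¹ := by group
          have e2 : g * z * g⁻¹ * (g * y * g⁻¹) = g * (z * y) * g⁻¹ := by group
          rw [e1, e2, h]
      -- transport
      have hcard1 : Nat.card (((g • P : Sylow p G) : Subgroup G) ⊓
          centralizer ({(x : G)} : Set G) : Subgroup G) =
          Nat.card ((P : Subgroup G) ⊓ centralizer ({z} : Set G) : Subgroup G) := by
        have e : ((g • P : Sylow p G) : Subgroup G) ⊓ centralizer ({(x : G)} : Set G) =
            ((P : Subgroup G) ⊓ centralizer ({z} : Set G)).map (MulAut.conj g).toMonoidHom := by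
          ext y
          constructor
          · rintro ⟨hy1, hy2⟩
            obtain ⟨w, hw, rfl⟩ := (hsmul y).mp hy1
            exact ⟨w, ⟨hw, (hconjC w).mp hy2⟩, rfl⟩
          · rintro ⟨w, ⟨hw1, hw2⟩, rfl⟩
            exact ⟨(hsmul _).mpr ⟨w, hw1, rfl⟩, (hconjC w).mpr hw2⟩
        rw [e]
        exact Nat.card_congr (((P : Subgroup G) ⊓ centralizer ({z} : Set G)).equivMapOfInjective _
          (MulAut.conj g).injective).symm.toEquiv
      have hcard2 : Nat.card (R ⊓ centralizer ({(x : G)} : Set G) : Subgroup G) =
          Nat.card (R ⊓ centralizer ({z} : Set G) : Subgroup G) := by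
        have e : R ⊓ centralizer ({(x : G)} : Set G) =
            (R ⊓ centralizer ({z} : Set G)).map (MulAut.conj g).toMonoidHom := by
          ext y
          constructor
          · rintro ⟨hy1, hy2⟩
            refine ⟨g⁻¹ * y * g, ⟨?_, ?_⟩, ?_⟩
            · have := hRn.conj_mem y hy1 g⁻¹
              rwa [inv_inv] at this
            · apply (hconjC _).mp
              have : g * (g⁻¹ * y * g) * g⁻¹ = y := by group
              rw [this]; exact hy2
            · show g * (g⁻¹ * y * g) * g⁻¹ = y
              group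
          · rintro ⟨w, ⟨hw1, hw2⟩, rfl⟩
            exact ⟨hRn.conj_mem w hw1 g, (hconjC w).mpr hw2⟩
        rw [e]
        exact Nat.card_congr ((R ⊓ centralizer ({z} : Set G)).equivMapOfInjective _
          (MulAut.conj g).injective).symm.toEquiv
      -- `|C_R(x)| < p ^ 2`
      have hlt : Nat.card (R ⊓ centralizer ({(x : G)} : Set G) : Subgroup G) < p ^ 2 := by
        rw [← hx, ← card_inf_centralizer P x]
        have hle : R ⊓ centralizer ({(x : G)} : Set G) ≤
            (P : Subgroup G) ⊓ centralizer ({(x : G)} : Set G) := inf_le_inf_right _ hRP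
        apply lt_of_le_of_ne (Subgroup.card_le_of_le hle)
        intro heq
        have h4 := Subgroup.eq_of_le_of_card_ge hle heq.ge
        have h5 : (x : G) ∈ (P : Subgroup G) ⊓ centralizer ({(x : G)} : Set G) :=
          ⟨x.2, by
            show (x : G) ∈ centralizer ({(x : G)} : Set G)
            rw [mem_centralizer_singleton_iff]⟩
        rw [← h4] at h5
        exact hx1 (hDC (hRD h5.1))
      -- `z` is uniform
      have hz12 : ¬ ((⟨z, hz⟩ : (P : Subgroup G)) ∈ C1 ∨ (⟨z, hz⟩ : (P : Subgroup G)) ∈ C2) := by
        intro h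
        have h4 := hnon ⟨z, hz⟩ h RQ hRQn hRD h3
        have h5 : Nat.card (RQ ⊓ centralizer ({(⟨z, hz⟩ : (P : Subgroup G))} :
            Set (P : Subgroup G)) : Subgroup (P : Subgroup G)) ≤
            Nat.card (R ⊓ centralizer ({z} : Set G) : Subgroup G) := by
          have e : (RQ ⊓ centralizer ({(⟨z, hz⟩ : (P : Subgroup G))} :
            Set (P : Subgroup G)) : Subgroup (P : Subgroup G)).map (P : Subgroup G).subtype ≤
              R ⊓ centralizer ({z} : Set G) := by
            rintro _ ⟨w, ⟨hw1, hw2⟩, rfl⟩
            refine ⟨hw1, ?_⟩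
            have hw2' : w ∈ centralizer ({(⟨z, hz⟩ : (P : Subgroup G))} :
              Set (P : Subgroup G)) := hw2
            show (w : G) ∈ centralizer ({z} : Set G)
            rw [mem_centralizer_singleton_iff] at hw2' ⊢
            exact congrArg Subtype.val hw2'
          refine le_trans (le_of_eq ?_) (Subgroup.card_le_of_le e)
          exact Nat.card_congr ((RQ ⊓ centralizer ({(⟨z, hz⟩ : (P : Subgroup G))} :
            Set (P : Subgroup G))).equivMapOfInjective _ (P : Subgroup G).subtype_injective).toEquiv
        rw [← hcard2] at h5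
        omega
      push Not at hz12
      rw [hcard1]
      have h6 := card_inf_centralizer P ⟨z, hz⟩
      rw [hunif _ hz12.1 hz12.2] at h6
      exact h6.le

end Cfsg.Agent.S3865
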