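import Cfsg.Statements.S3866
import Mathlib.GroupTheory.Abelianization.Defs
import Mathlib.GroupTheory.QuotientGroup.Basic
import Mathlib.GroupTheory.Coset.Card
import Mathlib.Tactic
set_option linter.all false

set_option autoImplicit false
open Cfsg
open scoped commutatorElement

namespace Cfsg.Agent.S3866

/-- Let A be a commutative normal subgroup of the finite group G with G generated by A and an element x. Then a ↦ x a x⁻¹ a⁻¹ is a surjective homomorphism from A onto the commutator subgroup of G whose kernel is the centralizer of x in A; in particular the commutator subgroup has order equal to the index in A of that centralizer. -/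
theorem result {G : Type*} [Group G] [Finite G] (A : Subgroup G) [A.Normal] (hA : IsMulCommutative A) (x : G) (hgen : A ⊔ Subgroup.zpowers x = ⊤) : (∀ a ∈ A, x * a * x⁻¹ * a⁻¹ ∈ commutator G) ∧ (∀ c ∈ commutator G, ∃ a ∈ A, x * a * x⁻¹ * a⁻¹ = c) ∧ (∀ a ∈ A, ∀ b ∈ A, x * (a * b) * x⁻¹ * (a * b)⁻¹ = (x * a * x⁻¹ * a⁻¹) * (x * b * x⁻¹ * b⁻¹)) ∧ Nat.card (commutator G) * Nat.card ↥(A ⊓ Subgroup.centralizer ({x} : Set G)) = Nat.card A := by
  have hcomm : ∀ a ∈ A, ∀ b ∈ A, a * b = b * a := by
    intro a ha b hb
    have := hA.is_comm.comm (⟨a, ha⟩ : A) ⟨b, hb⟩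
    exact congrArg Subtype.val this
  have hconj : ∀ a ∈ A, ∀ g : G, g * a * g⁻¹ ∈ A := fun a ha g =>
    Subgroup.Normal.conj_mem inferInstance a ha g
  have hmul : ∀ a ∈ A, ∀ b ∈ A, x * (a * b) * x⁻¹ * (a * b)⁻¹ =
      (x * a * x⁻¹ * a⁻¹) * (x * b * x⁻¹ * b⁻¹) := by
    intro a ha b hb
    have h1 : a⁻¹ * (x * b * x⁻¹ * b⁻¹) = (x * b * x⁻¹ * b⁻¹) * a⁻¹ :=
      hcomm _ (A.inv_mem ha) _ (A.mul_mem (hconj b hb x) (A.inv_mem hb))
    calc x * (a * b) * x⁻¹ * (a * b)⁻¹ = x * a * x⁻¹ * ((x * b * x⁻¹ * b⁻¹) * a⁻¹) := by group
      _ = x * a * x⁻¹ * (a⁻¹ * (x * b * x⁻¹ * b⁻¹)) := by rw [h1]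
      _ = _ := by group
  let f : A →* G :=
    { toFun := fun a => x * a * x⁻¹ * (a : G)⁻¹
      map_one' := by simp
      map_mul' := fun a b => by
        simpa using hmul a a.2 b b.2 }
  have hf : ∀ a : A, f a = x * a * x⁻¹ * (a : G)⁻¹ := fun a => rfl
  have hrangeA : f.range ≤ A := by
    rintro _ ⟨a, rfl⟩
    exact A.mul_mem (hconj a a.2 x) (A.inv_mem a.2)
  have hrange1 : f.range ≤ commutator G := by
    rintro _ ⟨a, rfl⟩
    rw [hf]
    exact Subgroup.commutator_mem_commutator (Subgroup.mem_top x) (Subgroup.mem_top (a : G))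
  -- the range is normal
  have hnormalizer : Subgroup.normalizer (f.range : Set G) = ⊤ := by
    rw [eq_top_iff, ← hgen, sup_le_iff]
    constructor
    · intro a ha
      rw [Subgroup.mem_normalizer_iff]
      intro h
      constructor
      · intro hh
        have : a * h * a⁻¹ = h := by
          rw [hcomm a ha h (hrangeA hh)]; group
        rw [this]; exact hh
      · intro hh
        have h1 : h ∈ A := by
          have := hconj _ (hrangeA hh) a⁻¹
          have h2 : a⁻¹ * (a * h * a⁻¹) * a⁻¹⁻¹ = h := by group
          rwa [h2] at this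
        have : a * h * a⁻¹ = h := by
          rw [hcomm a ha h h1]; group
        rwa [this] at hh
    · rw [Subgroup.zpowers_le]
      refine Subgroup.mem_normalizer_fintype ?_
      rintro _ ⟨a, rfl⟩
      refine ⟨⟨x * a * x⁻¹, hconj a a.2 x⟩, ?_⟩
      simp only [hf]
      group
  have hnorm : f.range.Normal := Subgroup.normalizer_eq_top_iff.mp hnormalizer
  -- quotient is commutative
  have hrange2 : commutator G ≤ f.range := by
    have key : ∀ u v : G ⧸ f.range, u * v = v * u := by
      have hx : ∀ a ∈ A, (QuotientGroup.mk (s := f.range) x) * QuotientGroup.mk a =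
          QuotientGroup.mk a * QuotientGroup.mk x := by
        intro a ha
        rw [← QuotientGroup.mk_mul, ← QuotientGroup.mk_mul, eq_comm, QuotientGroup.eq]
        have h1 : (a * x)⁻¹ * (x * a) ∈ f.range := by
          have h2 : x * a * x⁻¹ * a⁻¹ ∈ f.range := ⟨⟨a, ha⟩, rfl⟩
          have h3 := hnorm.conj_mem _ h2 (a * x)⁻¹
          have h4 : (a * x)⁻¹ * (x * a * x⁻¹ * a⁻¹) * (a * x)⁻¹⁻¹ = (a * x)⁻¹ * (x * a) := by group
          rwa [h4] at h3
        exact h1
      -- center contains images
      have htop : Subgroup.center (G ⧸ f.range) = ⊤ := by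
        have hAc : A.map (QuotientGroup.mk' f.range) ≤ Subgroup.center (G ⧸ f.range) := by
          rintro _ ⟨a, ha, rfl⟩
          rw [Subgroup.mem_center_iff]
          intro g
          obtain ⟨g, rfl⟩ := QuotientGroup.mk'_surjective f.range g
          have : (⊤ : Subgroup G) ≤ Subgroup.comap (QuotientGroup.mk' f.range)
              (Subgroup.centralizer {QuotientGroup.mk' f.range a}) := by
            rw [← hgen, sup_le_iff]
            constructor
            · intro b hb
              rw [Subgroup.mem_comap, Subgroup.mem_centralizer_singleton_iff, ← map_mul, ← map_mul,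
                hcomm a ha b hb]
            · rw [Subgroup.zpowers_le, Subgroup.mem_comap, Subgroup.mem_centralizer_singleton_iff]
              exact hx a ha
          have h2 := this (Subgroup.mem_top g)
          rw [Subgroup.mem_comap, Subgroup.mem_centralizer_singleton_iff] at h2
          exact h2
        have hxc2 : QuotientGroup.mk' f.range x ∈ Subgroup.center (G ⧸ f.range) := by
          rw [Subgroup.mem_center_iff]
          intro g
          obtain ⟨g, rfl⟩ := QuotientGroup.mk'_surjective f.range g
          have : (⊤ : Subgroup G) ≤ Subgroup.comap (QuotientGroup.mk' f.range)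
              (Subgroup.centralizer {QuotientGroup.mk' f.range x}) := by
            rw [← hgen, sup_le_iff]
            constructor
            · intro b hb
              rw [Subgroup.mem_comap, Subgroup.mem_centralizer_singleton_iff]
              exact (hx b hb).symm
            · rw [Subgroup.zpowers_le, Subgroup.mem_comap, Subgroup.mem_centralizer_singleton_iff]
          have h2 := this (Subgroup.mem_top g)
          rw [Subgroup.mem_comap, Subgroup.mem_centralizer_singleton_iff] at h2
          exact h2
        rw [eq_top_iff]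
        intro g _
        obtain ⟨g, rfl⟩ := QuotientGroup.mk'_surjective f.range g
        have : (⊤ : Subgroup G) ≤ Subgroup.comap (QuotientGroup.mk' f.range)
            (Subgroup.center (G ⧸ f.range)) := by
          rw [← hgen, sup_le_iff]
          refine ⟨fun a ha => hAc ⟨a, ha, rfl⟩, ?_⟩
          rw [Subgroup.zpowers_le]
          exact hxc2
        exact this (Subgroup.mem_top g)
      intro u v
      have := htop ▸ Subgroup.mem_top v
      exact Subgroup.mem_center_iff.mp this u
    rw [commutator_def, Subgroup.commutator_le]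
    intro g _ h _
    rw [← QuotientGroup.eq_one_iff]
    have := key (QuotientGroup.mk g) (QuotientGroup.mk h)
    rw [show ((⁅g, h⁆ : G) : G ⧸ f.range) = (QuotientGroup.mk g) * (QuotientGroup.mk h) *
      (QuotientGroup.mk g)⁻¹ * (QuotientGroup.mk h)⁻¹ from rfl, this]
    group
  have heq : f.range = commutator G := le_antisymm hrange1 hrange2
  refine ⟨fun a ha => hrange1 ⟨⟨a, ha⟩, rfl⟩, ?_, hmul, ?_⟩
  · intro c hc
    rw [← heq] at hc
    obtain ⟨a, rfl⟩ := hc
    exact ⟨a, a.2, rfl⟩
  · have hker : (f.ker).map A.subtype = A ⊓ Subgroup.centralizer ({x} : Set G) := by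
      ext a
      constructor
      · rintro ⟨a, ha, rfl⟩
        refine ⟨a.2, ?_⟩
        have : f a = 1 := ha
        rw [hf] at this
        change A.subtype a ∈ Subgroup.centralizer ({x} : Set G)
        rw [Subgroup.mem_centralizer_singleton_iff]
        have h2 : x * (a : G) * x⁻¹ = a := by
          have := mul_eq_one_iff_eq_inv.mp this
          simpa using this
        have h3 : x * (a : G) = a * x := by
          rw [mul_inv_eq_iff_eq_mul] at h2; exact h2
        simp [h3]
      · rintro ⟨ha, hc⟩
        change a ∈ Subgroup.centralizer ({x} : Set G) at hc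
        rw [Subgroup.mem_centralizer_singleton_iff] at hc
        refine ⟨⟨a, ha⟩, ?_, rfl⟩
        show f _ = 1
        rw [hf]
        simp only
        rw [← hc]
        group
    rw [← hker, ← heq]
    have h1 : Nat.card ((f.ker).map A.subtype) = Nat.card f.ker :=
      Nat.card_congr ((f.ker).equivMapOfInjective A.subtype A.subtype_injective).symm.toEquiv
    rw [h1]
    have h2 := Subgroup.card_eq_card_quotient_mul_card_subgroup f.ker
    rw [h2]
    congr 1
    exact Nat.card_congr (QuotientGroup.quotientKerEquivRange f).symm.toEquiv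

end Cfsg.Agent.S3866
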