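import Cfsg.Statements.S3867
import Cfsg.Agent.Lib.ProductSet
set_option linter.all false

set_option autoImplicit false
open Cfsg

namespace Cfsg.Agent.S3867

open Subgroup

open scoped Pointwise

/-- The number of Sylow subgroups of a quotient as an index upstairs. -/
theorem card_sylow_quotient {G : Type*} [Group G] [Finite G] (p : ℕ) [Fact p.Prime]
    (P : Sylow p G) (N : Subgroup G) [N.Normal] :
    Nat.card (Sylow p (G ⧸ N)) = (normalizer (((P : Subgroup G) ⊔ N : Subgroup G) : Set G)).index := by
  have hs : Function.Surjective (QuotientGroup.mk' N) := QuotientGroup.mk'_surjective N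
  rw [Sylow.card_eq_index_normalizer (P.mapSurjective hs)]
  change (normalizer (((P.mapSurjective hs : Sylow p (G ⧸ N)) : Subgroup (G ⧸ N)) :
    Set (G ⧸ N))).index = _
  rw [Sylow.coe_mapSurjective,
    ← index_comap_of_surjective _ hs, comap_normalizer_eq_of_surjective _ hs, comap_map_eq,
    QuotientGroup.ker_mk']

/-- If `M ∩ N = 1` then `M ∩ PN` is a `p`-group, so that `PM ∩ PN = P`. -/
theorem sup_inf_sup {G : Type*} [Group G] [Finite G] (p : ℕ) [Fact p.Prime]
    (P : Sylow p G) (M N : Subgroup G) [M.Normal] [N.Normal] (hMN : M ⊓ N = ⊥) :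
    ((P : Subgroup G) ⊔ M) ⊓ ((P : Subgroup G) ⊔ N) = P := by
  have h1 : IsPGroup p (((P : Subgroup G) ⊔ N) ⊓ M : Subgroup G) := by
    -- it embeds in `PN/N`
    have h2 : IsPGroup p ((((P : Subgroup G) ⊔ N) ⊓ M : Subgroup G).map (QuotientGroup.mk' N)) := by
      refine IsPGroup.to_le (P.isPGroup'.map (QuotientGroup.mk' N)) ?_
      rw [map_le_iff_le_comap, comap_map_eq, QuotientGroup.ker_mk']
      exact inf_le_left
    have hinj : Function.Injective ((QuotientGroup.mk' N).comp
        ((((P : Subgroup G) ⊔ N) ⊓ M : Subgroup G).subtype)) := by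
      rw [injective_iff_map_eq_one]
      rintro ⟨x, hx⟩ h
      have h3 : x ∈ N := (QuotientGroup.eq_one_iff _).mp h
      have h4 : x ∈ M ⊓ N := ⟨hx.2, h3⟩
      rw [hMN, mem_bot] at h4
      exact Subtype.ext h4
    intro x
    obtain ⟨k, hk⟩ := h2 ⟨QuotientGroup.mk' N x, ⟨x, x.2, rfl⟩⟩
    refine ⟨k, hinj ?_⟩
    rw [map_pow, map_one]
    exact congrArg Subtype.val hk
  have h2 : IsPGroup p ((P : Subgroup G) ⊔ (((P : Subgroup G) ⊔ N) ⊓ M) : Subgroup G) := by
    refine IsPGroup.to_sup_of_normal_right' P.isPGroup' h1 ?_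
    intro x hx
    rw [mem_normalizer_iff]
    have hx' : x ∈ (P : Subgroup G) ⊔ N := mem_sup_left hx
    intro y
    constructor
    · rintro ⟨ha, hb⟩
      exact ⟨mul_mem (mul_mem hx' ha) (Subgroup.inv_mem _ hx'), ‹M.Normal›.conj_mem y hb x⟩
    · rintro ⟨ha, hb⟩
      constructor
      · have := mul_mem (mul_mem (inv_mem hx') ha) hx'
        group at this
        exact this
      · have := ‹M.Normal›.conj_mem _ hb x⁻¹
        group at this
        exact this
  have h3 : (P : Subgroup G) ⊔ (((P : Subgroup G) ⊔ N) ⊓ M) = P := P.is_maximal' h2 le_sup_left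
  refine le_antisymm ?_ (le_inf le_sup_left le_sup_left)
  rintro x ⟨hx1, hx2⟩
  obtain ⟨y, hy, m, hm, rfl⟩ := (mem_sup_of_normal_right).mp hx1
  have h4 : m ∈ (P : Subgroup G) ⊔ N := by
    have := mul_mem (inv_mem (mem_sup_left (T := N) hy)) hx2
    group at this
    exact this
  rw [← h3]
  exact mul_mem (mem_sup_left hy) (mem_sup_right ⟨h4, hm⟩)

/-- Let M and N be nontrivial normal subgroups of the finite group G with M ⊓ N trivial, and let p be a prime. Writing n(X) for the number of Sylow p-subgroups of a group X, one has n(G) · n(G/MN) = n(G/M) · n(G/N). -/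
theorem result {G : Type*} [Group G] [Finite G] (p : ℕ) [Fact p.Prime] (M N : Subgroup G) [M.Normal] [N.Normal] (hM : M ≠ ⊥) (hN : N ≠ ⊥) (hMN : M ⊓ N = ⊥) : Nat.card (Sylow p G) * Nat.card (Sylow p (G ⧸ (M ⊔ N))) = Nat.card (Sylow p (G ⧸ M)) * Nat.card (Sylow p (G ⧸ N)) := by
  obtain ⟨P⟩ : Nonempty (Sylow p G) := inferInstance
  rw [Sylow.card_eq_index_normalizer P, card_sylow_quotient p P, card_sylow_quotient p P M,
    card_sylow_quotient p P N]
  change (normalizer ((P : Subgroup G) : Set G)).index * _ = _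
  have hle : ∀ K : Subgroup G, K.Normal → normalizer ((P : Subgroup G) : Set G) ≤
      normalizer (((P : Subgroup G) ⊔ K : Subgroup G) : Set G) := by
    intro K hK g hg
    have h1 := hg
    rw [mem_normalizer_iff_map_conj_eq] at h1 ⊢
    have h2 : g ∈ normalizer (K : Set G) := by
      rw [normalizer_eq_top_iff.mpr hK]; exact mem_top g
    rw [mem_normalizer_iff_map_conj_eq] at h2
    rw [Subgroup.map_sup, h1, h2]
  have hinf : normalizer (((P : Subgroup G) ⊔ M : Subgroup G) : Set G) ⊓
      normalizer (((P : Subgroup G) ⊔ N : Subgroup G) : Set G) = normalizer ((P : Subgroup G) : Set G) := by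
    refine le_antisymm ?_ (le_inf (hle M ‹_›) (hle N ‹_›))
    rintro g ⟨h1, h2⟩
    have h1' := mem_normalizer_iff.mp h1
    have h2' := mem_normalizer_iff.mp h2
    rw [mem_normalizer_iff]
    intro x
    rw [← sup_inf_sup p P M N hMN]
    exact and_congr (h1' x) (h2' x)
  have hprod : ((normalizer (((P : Subgroup G) ⊔ M : Subgroup G) : Set G) : Subgroup G) : Set G) *
      ((normalizer (((P : Subgroup G) ⊔ N : Subgroup G) : Set G) : Subgroup G) : Set G) =
      ((normalizer (((P : Subgroup G) ⊔ (M ⊔ N) : Subgroup G) : Set G) : Subgroup G) : Set G) := by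
    have hmono : ∀ A B : Subgroup G, B.Normal → normalizer (A : Set G) ≤
        normalizer ((A ⊔ B : Subgroup G) : Set G) := by
      intro A B hB g hg
      have h1 := hg
      rw [mem_normalizer_iff_map_conj_eq] at h1 ⊢
      have h2 : g ∈ normalizer (B : Set G) := by
        rw [normalizer_eq_top_iff.mpr hB]; exact mem_top g
      rw [mem_normalizer_iff_map_conj_eq] at h2
      rw [Subgroup.map_sup, h1, h2]
    apply Set.Subset.antisymm
    · rintro _ ⟨a, ha, b, hb, rfl⟩
      refine mul_mem ?_ ?_
      · have := hmono _ N ‹_› ha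
        rwa [sup_assoc] at this
      · have := hmono _ M ‹_› hb
        rwa [sup_assoc, sup_comm N M] at this
    · intro g hg
      have hg' : g ∈ normalizer (((P : Subgroup G) ⊔ (M ⊔ N) : Subgroup G) : Set G) := hg
      have hP1 : (P : Subgroup G) ≤ (P : Subgroup G) ⊔ (M ⊔ N) := le_sup_left
      have hP2 : ((g • P : Sylow p G) : Subgroup G) ≤ (P : Subgroup G) ⊔ (M ⊔ N) := by
        rw [Sylow.coe_subgroup_smul]
        intro x hx
        rw [Subgroup.mem_pointwise_smul_iff_inv_smul_mem] at hx
        have h3 : (MulAut.conj g)⁻¹ • x = g⁻¹ * x * g⁻¹⁻¹ := by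
          rw [← map_inv]
          rfl
        rw [h3] at hx
        exact (mem_normalizer_iff.mp (inv_mem hg') x).mpr (hP1 hx)
      obtain ⟨k, hk⟩ := MulAction.exists_smul_eq ((P : Subgroup G) ⊔ (M ⊔ N) : Subgroup G)
        ((g • P).subtype hP2) (P.subtype hP1)
      rw [Sylow.smul_subtype] at hk
      have hk' := Sylow.subtype_injective hk
      have hn : (k : G) * g ∈ normalizer ((P : Subgroup G) : Set G) := by
        refine (Sylow.smul_eq_iff_mem_normalizer).mp ?_
        rw [mul_smul]
        exact hk'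
      have hkinv : ((k : G))⁻¹ ∈ (P : Subgroup G) ⊔ (M ⊔ N) := inv_mem k.2
      obtain ⟨x, hx, y, hy, hxy⟩ := (mem_sup_of_normal_right).mp hkinv
      obtain ⟨m, hm, n, hn', hmn⟩ := (mem_sup_of_normal_right).mp hy
      refine ⟨x * m, ?_, n * ((k : G) * g), ?_, ?_⟩
      · exact le_normalizer (mul_mem (mem_sup_left hx) (mem_sup_right hm))
      · exact mul_mem (le_normalizer (mem_sup_right hn')) (hle N ‹_› hn)
      · change x * m * (n * ((k : G) * g)) = g
        have : x * m * (n * ((k : G) * g)) = (x * (m * n)) * k * g := by group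
        rw [this, hmn, hxy]
        group
  have hcard := Lib.ProductSet.card_mul_card_inf
    (normalizer (((P : Subgroup G) ⊔ M : Subgroup G) : Set G))
    (normalizer (((P : Subgroup G) ⊔ N : Subgroup G) : Set G))
  rw [hprod, hinf] at hcard
  have e1 := (normalizer ((P : Subgroup G) : Set G)).card_mul_index
  have e2 := (normalizer (((P : Subgroup G) ⊔ (M ⊔ N) : Subgroup G) : Set G)).card_mul_index
  have e3 := (normalizer (((P : Subgroup G) ⊔ M : Subgroup G) : Set G)).card_mul_index
  have e4 := (normalizer (((P : Subgroup G) ⊔ N : Subgroup G) : Set G)).card_mul_index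
  have hpos : 0 < Nat.card (normalizer (((P : Subgroup G) ⊔ (M ⊔ N) : Subgroup G) : Set G)) *
      Nat.card (normalizer ((P : Subgroup G) : Set G)) := Nat.mul_pos Nat.card_pos Nat.card_pos
  have hcard' : Nat.card (normalizer (((P : Subgroup G) ⊔ (M ⊔ N) : Subgroup G) : Set G)) *
      Nat.card (normalizer ((P : Subgroup G) : Set G)) =
      Nat.card (normalizer (((P : Subgroup G) ⊔ M : Subgroup G) : Set G)) *
      Nat.card (normalizer (((P : Subgroup G) ⊔ N : Subgroup G) : Set G)) := hcard
  apply Nat.eq_of_mul_eq_mul_left hpos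
  calc _ = (Nat.card (normalizer ((P : Subgroup G) : Set G)) *
        (normalizer ((P : Subgroup G) : Set G)).index) *
        (Nat.card (normalizer (((P : Subgroup G) ⊔ (M ⊔ N) : Subgroup G) : Set G)) *
        (normalizer (((P : Subgroup G) ⊔ (M ⊔ N) : Subgroup G) : Set G)).index) := by
          ring
    _ = (Nat.card (normalizer (((P : Subgroup G) ⊔ M : Subgroup G) : Set G)) *
        (normalizer (((P : Subgroup G) ⊔ M : Subgroup G) : Set G)).index) *
        (Nat.card (normalizer (((P : Subgroup G) ⊔ N : Subgroup G) : Set G)) *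
        (normalizer (((P : Subgroup G) ⊔ N : Subgroup G) : Set G)).index) := by
          rw [e1, e2, e3, e4]
    _ = _ := by rw [hcard']; ring

end Cfsg.Agent.S3867
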