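import Cfsg.Statements.S3878
import Cfsg.Agent.S0713
import Mathlib
set_option linter.all false

set_option autoImplicit false
open Cfsg

namespace Cfsg.Agent.S3878

open scoped Pointwise

theorem conj_mem_of_isPiHall {G : Type*} [Group G] [Finite G] {π : Set ℕ} {H : Subgroup G}
    (hH : IsPiHall π H) {p : ℕ} [hpf : Fact p.Prime] (hp : p ∈ π) (K : Subgroup G)
    (hK : IsPGroup p K) : ∃ g : G, ∀ k ∈ K, g⁻¹ * k * g ∈ H := by
  have h1 : ¬ p ∣ Nat.card (G ⧸ H) := hH.2 p Fact.out hp
  obtain ⟨x, hx⟩ := hK.nonempty_fixed_point_of_prime_not_dvd_card (G ⧸ H) h1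
  obtain ⟨g, rfl⟩ := QuotientGroup.mk_surjective x
  refine ⟨g, fun k hk => ?_⟩
  have h2 : ((k * g : G) : G ⧸ H) = (g : G ⧸ H) := hx ⟨k, hk⟩
  rw [eq_comm, QuotientGroup.eq] at h2
  simpa [mul_assoc] using h2

theorem isPiHall_conj {G : Type*} [Group G] [Finite G] {π : Set ℕ} {H : Subgroup G}
    (hH : IsPiHall π H) (g : G) : IsPiHall π (H.map (MulAut.conj g).toMonoidHom) := by
  have hc : Nat.card (H.map (MulAut.conj g).toMonoidHom) = Nat.card H :=
    Subgroup.card_map_of_injective (MulAut.conj g).injective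
  have hi : (H.map (MulAut.conj g).toMonoidHom).index = H.index := by
    have h1 := H.card_mul_index
    have h2 := (H.map (MulAut.conj g).toMonoidHom).card_mul_index
    rw [hc, ← h1] at h2
    exact Nat.eq_of_mul_eq_mul_left Nat.card_pos h2
  refine ⟨?_, ?_⟩
  · rw [hc]; exact hH.1
  · rw [hi]; exact hH.2

section perm

variable {m q s : ℕ}

/-- rotations of the rows -/
def rot (f : Fin m → Multiplicative (ZMod q)) : Equiv.Perm ((Fin m × ZMod q) ⊕ Fin s) :=
  Equiv.sumCongr
    { toFun := fun x => (x.1, x.2 + (f x.1).toAdd)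
      invFun := fun x => (x.1, x.2 - (f x.1).toAdd)
      left_inv := fun x => by simp
      right_inv := fun x => by simp } (Equiv.refl _)

theorem rot_inl (f : Fin m → Multiplicative (ZMod q)) (k : Fin m) (x : ZMod q) :
    rot (s := s) f (Sum.inl (k, x)) = Sum.inl (k, x + (f k).toAdd) := rfl

theorem rot_inr (f : Fin m → Multiplicative (ZMod q)) (j : Fin s) :
    rot (m := m) f (Sum.inr j) = Sum.inr j := rfl

def rotHom : (Fin m → Multiplicative (ZMod q)) →* Equiv.Perm ((Fin m × ZMod q) ⊕ Fin s) :=
  MonoidHom.mk' rot (by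
    intro f g
    ext x
    rcases x with ⟨k, x⟩ | j
    · rw [Equiv.Perm.mul_apply, rot_inl, rot_inl, rot_inl]
      simp only [Pi.mul_apply, toAdd_mul]
      congr 2
      ring
    · rfl)

theorem isPGroup_rot [hqf : Fact q.Prime] :
    IsPGroup q (rotHom (m := m) (q := q) (s := s)).range := by
  have hq := hqf.out
  have : NeZero q := ⟨hq.ne_zero⟩
  apply IsPGroup.of_surjective (G := Fin m → Multiplicative (ZMod q)) _
    (rotHom (m := m) (q := q) (s := s)).rangeRestrict (MonoidHom.rangeRestrict_surjective _)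
  apply IsPGroup.of_card (n := m)
  rw [Nat.card_pi, Finset.prod_const, Finset.card_univ, Fintype.card_fin]
  congr 1
  exact Nat.card_zmod q

end perm

theorem no_hall {p q r : ℕ} (hp : p.Prime) (hq : q.Prime) (hr : r.Prime) (hqp : q < p)
    (π : Set ℕ) (hpπ : p ∈ π) (hqπ : q ∈ π) (hrπ : r ∉ π) :
    ∃ (G : Type) (_ : Group G) (_ : Finite G), ¬ IsEPiGroup π G := by
  classical
  have hpf : Fact p.Prime := ⟨hp⟩
  have hqf : Fact q.Prime := ⟨hq⟩
  have hq0 : NeZero q := ⟨hq.ne_zero⟩
  obtain ⟨a, ha2, hra⟩ : ∃ a : ℕ, 2 ≤ a ∧ 2 * r ≤ p ^ a := by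
    refine ⟨2 * r, by have := hr.two_le; omega, ?_⟩
    exact (Nat.lt_pow_self hp.one_lt).le
  set n := p ^ a with hn
  have hn0 : n ≠ 0 := pow_ne_zero _ hp.ne_zero
  have hnz : NeZero n := ⟨hn0⟩
  set m := n / q with hm
  set s := n % q with hs
  have hsq : s < q := Nat.mod_lt _ hq.pos
  have hcard : Nat.card ((Fin m × ZMod q) ⊕ Fin s) = n := by
    rw [Nat.card_sum, Nat.card_prod, Nat.card_zmod, Nat.card_fin, Nat.card_fin, mul_comm]
    exact Nat.div_add_mod n q
  refine ⟨Equiv.Perm ((Fin m × ZMod q) ⊕ Fin s), inferInstance, inferInstance, ?_⟩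
  rintro ⟨H0, hH0⟩
  -- conjugate so that the rotations lie in H
  obtain ⟨g0, hg0⟩ := conj_mem_of_isPiHall hH0 hqπ _ (isPGroup_rot (m := m) (q := q) (s := s))
  set H := H0.map (MulAut.conj g0).toMonoidHom with hHdef
  have hH : IsPiHall π H := isPiHall_conj hH0 g0
  have hrot : ∀ f : Fin m → Multiplicative (ZMod q), rot (s := s) f ∈ H := by
    intro f
    have h1 := hg0 (rot f) ⟨f, rfl⟩
    refine ⟨_, h1, ?_⟩
    simp [MulAut.conj_apply, mul_assoc]
  clear_value H
  clear hHdef hg0 hH0
  -- transitivity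
  obtain ⟨e⟩ : Nonempty (((Fin m × ZMod q) ⊕ Fin s) ≃ ZMod n) := by
    apply Finite.card_eq.mp
    rw [hcard, Nat.card_zmod]
  let tr : Multiplicative (ZMod n) →* Equiv.Perm ((Fin m × ZMod q) ⊕ Fin s) :=
    MonoidHom.mk' (fun t => (e.trans (Equiv.addRight t.toAdd)).trans e.symm) (by
      intro x y
      ext z
      simp only [Equiv.Perm.mul_apply, Equiv.trans_apply, Equiv.coe_addRight, toAdd_mul,
        Equiv.apply_symm_apply]
      congr 1
      ring)
  have htr : IsPGroup p tr.range := by
    apply IsPGroup.of_surjective (G := Multiplicative (ZMod n)) _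
      tr.rangeRestrict (MonoidHom.rangeRestrict_surjective _)
    apply IsPGroup.of_card (n := a)
    exact Nat.card_zmod n
  obtain ⟨g, hg⟩ := conj_mem_of_isPiHall hH hpπ _ htr
  have htrans : MulAction.IsPretransitive H ((Fin m × ZMod q) ⊕ Fin s) := by
    constructor
    intro x y
    have h1 := hg (tr (Multiplicative.ofAdd (e (g y) - e (g x)))) ⟨_, rfl⟩
    refine ⟨⟨_, h1⟩, ?_⟩
    change (g⁻¹ * tr (Multiplicative.ofAdd (e (g y) - e (g x))) * g) x = y
    rw [Equiv.Perm.mul_apply, Equiv.Perm.mul_apply]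
    simp [tr]
  have hprim : MulAction.IsPreprimitive H ((Fin m × ZMod q) ⊕ Fin s) := by
    refine { toIsPretransitive := htrans, isTrivialBlock_of_isBlock := ?_ }
    intro B hB
    by_cases hsub : B.Subsingleton
    · exact Or.inl hsub
    right
    rw [Set.not_subsingleton_iff] at hsub
    have hBne : B.Nonempty := hsub.nonempty
    have h1B : 1 < B.ncard := Set.one_lt_ncard_iff_nontrivial.2 hsub
    have hdvd : B.ncard ∣ p ^ a := by
      have := hB.ncard_dvd_card hBne
      rwa [hcard] at this
    obtain ⟨b, hba, hb⟩ := (Nat.dvd_prime_pow hp).1 hdvd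
    have hb1 : b ≠ 0 := by
      rintro rfl
      rw [pow_zero] at hb
      omega
    have hpb : p ≤ p ^ b := Nat.le_self_pow hb1 p
    rcases eq_or_lt_of_le hba with rfl | hlt
    · apply hB.eq_univ_of_card_lt
      rw [hcard, hb]
      have : 0 < n := Nat.pos_of_ne_zero hn0
      omega
    exfalso
    have hnc : ∀ h : H, (h • B).ncard = p ^ b := by
      intro h; rw [Set.ncard_smul_set, hb]
    have hblk : ∀ (h h' : H) (x), x ∈ h • B → x ∈ h' • B → h • B = h' • B := by
      intro h h' x hx hx'
      by_contra hne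
      exact Set.disjoint_left.1 (hB hne) hx hx'
    -- rows stay in blocks
    have hrow : ∀ (h : H) (k : Fin m) (c x : ZMod q), Sum.inl (k, x) ∈ h • B →
        Sum.inl (k, x + c) ∈ h • B := by
      intro h k c x hx
      let f : Fin m → Multiplicative (ZMod q) := Pi.mulSingle k (Multiplicative.ofAdd c)
      let τ : H := ⟨rot f, hrot f⟩
      have hτ : (τ * h) • B = h • B := by
        by_contra hne
        have hdis := Set.disjoint_left.1 (hB hne)
        have hsubset : h • B ⊆ Set.range (fun x : ZMod q => (Sum.inl (k, x) :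
            (Fin m × ZMod q) ⊕ Fin s)) := by
          intro y hy
          have hmem : τ • y ∈ (τ * h) • B := by
            rw [mul_smul]; exact Set.smul_mem_smul_set hy
          rcases y with ⟨k', y⟩ | j
          · by_cases hk : k' = k
            · subst hk; exact ⟨y, rfl⟩
            · exfalso
              have h2 : τ • (Sum.inl (k', y) : (Fin m × ZMod q) ⊕ Fin s) = Sum.inl (k', y) := by
                change rot f (Sum.inl (k', y)) = Sum.inl (k', y)
                rw [rot_inl]
                simp [f, Pi.mulSingle_eq_of_ne hk]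
              rw [h2] at hmem
              exact hdis hmem hy
          · exfalso
            have h2 : τ • (Sum.inr j : (Fin m × ZMod q) ⊕ Fin s) = Sum.inr j := rfl
            rw [h2] at hmem
            exact hdis hmem hy
        have h3 := Set.ncard_le_ncard hsubset (Set.toFinite _)
        rw [hnc, ← Set.image_univ, Set.ncard_image_of_injective, Set.ncard_univ,
          Nat.card_zmod] at h3
        · omega
        · intro x y hxy
          simpa using hxy
      have h4 : τ • (Sum.inl (k, x) : (Fin m × ZMod q) ⊕ Fin s) = Sum.inl (k, x + c) := by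
        change rot f (Sum.inl (k, x)) = Sum.inl (k, x + c)
        rw [rot_inl]
        simp [f]
      rw [← h4, ← hτ, mul_smul]
      exact Set.smul_mem_smul_set hx
    have hinr : ∀ h : H, ∃ j : Fin s, (Sum.inr j : (Fin m × ZMod q) ⊕ Fin s) ∈ h • B := by
      intro h
      by_contra hcon
      rw [not_exists] at hcon
      have h5 : h • B = (fun x : Fin m × ZMod q => (Sum.inl x : (Fin m × ZMod q) ⊕ Fin s)) ''
          ({k : Fin m | Sum.inl (k, 0) ∈ h • B} ×ˢ (Set.univ : Set (ZMod q))) := by
        ext x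
        rcases x with ⟨k, x⟩ | j
        · constructor
          · intro hx
            refine ⟨(k, x), ⟨?_, Set.mem_univ _⟩, rfl⟩
            have := hrow h k (-x) x hx
            rwa [add_neg_cancel] at this
          · rintro ⟨⟨k', x'⟩, ⟨hk', -⟩, heq⟩
            simp only [Sum.inl.injEq, Prod.mk.injEq] at heq
            obtain ⟨rfl, rfl⟩ := heq
            have := hrow h k' x' 0 hk'
            rwa [zero_add] at this
        · constructor
          · intro hx; exact absurd hx (hcon j)
          · rintro ⟨⟨k', x'⟩, -, heq⟩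
            cases heq
      have h6 := hnc h
      rw [h5, Set.ncard_image_of_injective _ (fun x y hxy => by simpa using hxy), Set.ncard_prod,
        Set.ncard_univ, Nat.card_zmod] at h6
      have h7 : q ∣ p ^ b := ⟨_, by rw [← h6, mul_comm]⟩
      have h8 := (Nat.prime_dvd_prime_iff_eq hq hp).1 (hq.dvd_of_dvd_pow h7)
      omega
    -- counting
    have hex : ∀ x : (Fin m × ZMod q) ⊕ Fin s, ∃ h : H, x ∈ h • B := by
      intro x
      obtain ⟨y, hy⟩ := hBne
      obtain ⟨h, hh⟩ := htrans.exists_smul_eq y x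
      exact ⟨h, by rw [← hh]; exact Set.smul_mem_smul_set hy⟩
    choose hj hhj using fun j : Fin s => hex (Sum.inr j)
    have hcov : (Set.univ : Set ((Fin m × ZMod q) ⊕ Fin s)) ⊆ ⋃ j : Fin s, (hj j) • B := by
      intro x _
      obtain ⟨h, hh⟩ := hex x
      obtain ⟨j, hj'⟩ := hinr h
      rw [Set.mem_iUnion]
      refine ⟨j, ?_⟩
      rw [hblk (hj j) h _ (hhj j) hj']
      exact hh
    have h9 := (Set.ncard_le_ncard hcov (Set.toFinite _)).trans
      (Set.ncard_iUnion_le_of_fintype _)
    simp only [hnc, Finset.sum_const, Finset.card_univ, Fintype.card_fin, Set.ncard_univ,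
      hcard, smul_eq_mul] at h9
    have h10 : s * p ^ b < p * p ^ b := Nat.mul_lt_mul_of_pos_right (by omega) (pow_pos hp.pos b)
    have h11 : p * p ^ b ≤ p ^ a := by
      rw [← pow_succ']
      exact Nat.pow_le_pow_right hp.pos hlt
    omega
  -- Jordan
  have hFc : Fintype.card ((Fin m × ZMod q) ⊕ Fin s) = n := by
    rw [← Nat.card_eq_fintype_card, hcard]
  have hq2 := hq.two_le
  have hpp : p * p ≤ n := by
    rw [hn, ← sq]; exact Nat.pow_le_pow_right hp.pos ha2
  have h3p : 3 * p ≤ p * p := Nat.mul_le_mul_right _ (by omega)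
  have hqm : q ≤ n := by omega
  have hm0 : 0 < m := Nat.div_pos hqm hq.pos
  have hA : alternatingGroup ((Fin m × ZMod q) ⊕ Fin s) ≤ H := by
    let k : Fin m := ⟨0, hm0⟩
    let f : Fin m → Multiplicative (ZMod q) := Pi.mulSingle k (Multiplicative.ofAdd 1)
    have hfix : ∀ x, rot (s := s) f x = x ↔ ∀ y : ZMod q, x ≠ Sum.inl (k, y) := by
      rintro (⟨k', y⟩ | j)
      · rw [rot_inl]
        by_cases hk : k' = k
        · rw [hk]
          constructor
          · intro h
            exfalso
            have h1 : Multiplicative.toAdd (f k) = 0 := by simpa using h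
            have h2 : Multiplicative.toAdd (f k) = 1 := by simp [f]
            rw [h2] at h1
            exact one_ne_zero h1
          · intro h
            exact absurd rfl (h y)
        · constructor
          · intro _ z hz
            apply hk
            have : k' = k ∧ y = z := by simpa using hz
            exact this.1
          · intro _
            simp [f, Pi.mulSingle_eq_of_ne hk]
      · constructor
        · intro _ y h; cases h
        · intro _; rfl
    have hsupp : (rot (s := s) f).support = Finset.univ.map ⟨fun y : ZMod q =>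
        (Sum.inl (k, y) : (Fin m × ZMod q) ⊕ Fin s), fun x y hxy => by simpa using hxy⟩ := by
      ext x
      rw [Equiv.Perm.mem_support, ne_eq, hfix]
      simp only [ne_eq, not_forall, not_not, Finset.mem_map, Finset.mem_univ, true_and]
      constructor
      · rintro ⟨y, rfl⟩; exact ⟨y, rfl⟩
      · rintro ⟨y, rfl⟩; exact ⟨y, rfl⟩
    apply Cfsg.Agent.S0713.result H hprim hq (by rw [hFc]; omega) (by rw [hFc]; omega)
      (g := rot f) _ _ (hrot f)
    · refine ⟨Sum.inl (k, 0), ?_, ?_⟩
      · rw [ne_eq, hfix]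
        exact fun h => h 0 rfl
      · intro y hy
        rw [ne_eq, hfix, not_forall] at hy
        obtain ⟨c, hc⟩ := hy
        rw [not_not] at hc
        subst hc
        refine ⟨(c.val : ℤ), ?_⟩
        rw [zpow_natCast]
        have h1 : rot (s := s) f ^ c.val = rot (f ^ c.val) := by
          change rotHom f ^ c.val = rotHom (f ^ c.val)
          rw [map_pow]
        rw [h1, rot_inl]
        simp [f]
    · rw [hsupp, Finset.card_map, Finset.card_univ, ZMod.card]
  apply hrπ
  apply hH.1 r hr
  refine dvd_trans ?_ (Subgroup.card_dvd_of_le hA)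
  have hnt : Nontrivial ((Fin m × ZMod q) ⊕ Fin s) := by
    rw [← Finite.one_lt_card_iff_nontrivial, hcard]
    omega
  have hcA := two_mul_nat_card_alternatingGroup (α := (Fin m × ZMod q) ⊕ Fin s)
  rw [Nat.card_perm, hcard] at hcA
  have hrr : r * r ∣ n.factorial := by
    have h1 : r ∣ r.factorial := Nat.dvd_factorial hr.pos le_rfl
    have h2 : r.factorial * r.factorial ∣ (r + r).factorial := Nat.factorial_mul_factorial_dvd_factorial_add r r
    have h3 : (r + r).factorial ∣ n.factorial := Nat.factorial_dvd_factorial (by omega)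
    exact (mul_dvd_mul h1 h1).trans (h2.trans h3)
  rw [← hcA] at hrr
  rcases eq_or_ne r 2 with rfl | hr2
  · exact Nat.dvd_of_mul_dvd_mul_left (by norm_num) hrr
  · have hc : Nat.Coprime r 2 := (Nat.coprime_primes hr Nat.prime_two).2 hr2
    exact hc.dvd_of_dvd_mul_left (dvd_trans (Dvd.intro _ rfl) hrr)


theorem isPiSubgroup_bot {G : Type*} [Group G] (π : Set ℕ) : IsPiSubgroup π (⊥ : Subgroup G) := by
  intro p hp hdvd
  rw [Subgroup.card_bot] at hdvd
  exact absurd (Nat.dvd_one.1 hdvd) hp.one_lt.ne'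

theorem exists_maximal_ge {G : Type*} [Group G] [Finite G] {π : Set ℕ} (P : Subgroup G)
    (hP : IsPiSubgroup π P) : ∃ K, P ≤ K ∧ Maximal (IsPiSubgroup π) K :=
  (Set.toFinite {K : Subgroup G | IsPiSubgroup π K}).exists_le_maximal hP

theorem isEPi_of_isDPi {G : Type*} [Group G] [Finite G] {π : Set ℕ} (h : IsDPiGroup π G) :
    IsEPiGroup π G := by
  obtain ⟨H, -, hH⟩ := exists_maximal_ge (π := π) (⊥ : Subgroup G) (isPiSubgroup_bot π)
  refine ⟨H, hH.1, ?_⟩
  intro p hp hpπ hdvd
  have hpf : Fact p.Prime := ⟨hp⟩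
  obtain ⟨P⟩ : Nonempty (Sylow p G) := inferInstance
  have hP : IsPiSubgroup π (P : Subgroup G) := by
    intro r hr hrd
    obtain ⟨t, ht⟩ := IsPGroup.iff_card.1 P.isPGroup'
    rw [ht] at hrd
    have := (Nat.prime_dvd_prime_iff_eq hr hp).1 (hr.dvd_of_dvd_pow hrd)
    rw [this]; exact hpπ
  obtain ⟨K, hPK, hK⟩ := exists_maximal_ge (P : Subgroup G) hP
  obtain ⟨g, hg⟩ := h H K hH hK
  have hc : Nat.card K = Nat.card H := by
    rw [hg]; exact Subgroup.card_map_of_injective (MulAut.conj g).injective
  have hi : K.index = H.index := by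
    have h1 := H.card_mul_index
    have h2 := K.card_mul_index
    rw [hc, ← h1] at h2
    exact Nat.eq_of_mul_eq_mul_left Nat.card_pos h2
  rw [← hi] at hdvd
  exact P.not_dvd_index (hdvd.trans (Subgroup.index_dvd_of_le hPK))

theorem isDPi_of_cond {G : Type*} [Group G] [Finite G] {π : Set ℕ}
    (h : (∀ p q : ℕ, p.Prime → q.Prime → p ∈ π → q ∈ π → p = q) ∨ ∀ p : ℕ, p.Prime → p ∈ π) :
    IsDPiGroup π G := by
  intro H K hH hK
  rcases h with h | h
  · by_cases hex : ∃ p : ℕ, p.Prime ∧ p ∈ π
    · obtain ⟨p, hp, hpπ⟩ := hex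
      have hpf : Fact p.Prime := ⟨hp⟩
      have key : ∀ K : Subgroup G, IsPiSubgroup π K ↔ IsPGroup p K := by
        intro K
        constructor
        · intro hK
          apply IsPGroup.of_card (n := (Nat.card K).primeFactorsList.length)
          apply Nat.eq_prime_pow_of_unique_prime_dvd Nat.card_pos.ne'
          intro r hr hrd
          exact h r p hr hp (hK r hr hrd) hpπ
        · intro hK r hr hrd
          obtain ⟨t, ht⟩ := IsPGroup.iff_card.1 hK
          rw [ht] at hrd
          have := (Nat.prime_dvd_prime_iff_eq hr hp).1 (hr.dvd_of_dvd_pow hrd)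
          rw [this]; exact hpπ
      let toSyl : ∀ K : Subgroup G, Maximal (IsPiSubgroup π) K → Sylow p G := fun K hK =>
        { toSubgroup := K
          isPGroup' := (key K).1 hK.1
          is_maximal' := fun {Q} hQ hKQ => le_antisymm (hK.2 ((key Q).2 hQ) hKQ) hKQ }
      obtain ⟨g, hg⟩ := MulAction.exists_smul_eq G (toSyl H hH) (toSyl K hK)
      refine ⟨g, ?_⟩
      have := congrArg (fun P : Sylow p G => (P : Subgroup G)) hg
      exact this.symm
    · have hbot : ∀ K : Subgroup G, IsPiSubgroup π K → K = ⊥ := by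
        intro K hK
        rw [← Subgroup.card_eq_one]
        by_contra hne
        obtain ⟨r, hr, hrd⟩ := Nat.exists_prime_and_dvd hne
        exact hex ⟨r, hr, hK r hr hrd⟩
      refine ⟨1, ?_⟩
      rw [hbot H hH.1, hbot K hK.1, Subgroup.map_bot]
  · have htop : ∀ K : Subgroup G, Maximal (IsPiSubgroup π) K → K = ⊤ := by
      intro K hK
      exact top_le_iff.1 (hK.2 (fun r hr _ => h r hr) le_top)
    refine ⟨1, ?_⟩
    rw [htop H hH, htop K hK]
    ext x
    simp

/-- For a set of primes π the following are equivalent: every finite group has a Hall π-subgroup; in every finite group the maximal π-subgroups are pairwise conjugate; π contains at most one prime or contains every prime. -/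
theorem result (π : Set ℕ) :
    ((∀ (G : Type) [Group G] [Finite G], Cfsg.IsEPiGroup π G) ↔
      ((∀ p q : ℕ, p.Prime → q.Prime → p ∈ π → q ∈ π → p = q) ∨ ∀ p : ℕ, p.Prime → p ∈ π)) ∧
    ((∀ (G : Type) [Group G] [Finite G], Cfsg.IsDPiGroup π G) ↔
      ((∀ p q : ℕ, p.Prime → q.Prime → p ∈ π → q ∈ π → p = q) ∨ ∀ p : ℕ, p.Prime → p ∈ π)) := by
  have key : (∀ (G : Type) [Group G] [Finite G], Cfsg.IsEPiGroup π G) →
      ((∀ p q : ℕ, p.Prime → q.Prime → p ∈ π → q ∈ π → p = q) ∨ ∀ p : ℕ, p.Prime → p ∈ π) := by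
    intro hE
    by_contra hcon
    rw [not_or] at hcon
    obtain ⟨h1, h2⟩ := hcon
    apply h1
    intro p q hp hq hpπ hqπ
    by_contra hpq
    apply h2
    intro r hr
    by_contra hrπ
    rcases lt_or_gt_of_ne hpq with hlt | hlt
    · obtain ⟨G, _, _, hG⟩ := no_hall hq hp hr hlt π hqπ hpπ hrπ
      exact hG (hE G)
    · obtain ⟨G, _, _, hG⟩ := no_hall hp hq hr hlt π hpπ hqπ hrπ
      exact hG (hE G)
  refine ⟨⟨key, ?_⟩, ⟨?_, ?_⟩⟩
  · intro h G _ _
    exact isEPi_of_isDPi (isDPi_of_cond h)
  · intro h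
    exact key (fun G _ _ => isEPi_of_isDPi (h G))
  · intro h G _ _
    exact isDPi_of_cond h

end Cfsg.Agent.S3878
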