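import Cfsg.Statements.S3882
import Cfsg.Agent.H471.MetaClass
set_option linter.all false

set_option autoImplicit false
open Cfsg

namespace Cfsg.Agent.S3882

/-- Let p be an odd prime and G a finite metacyclic p-group (G has a cyclic normal subgroup with cyclic quotient). Suppose |G'| = p^n and 0 ≤ s ≤ n. Then an element g lies in the subgroup generated by the p^s-th powers if and only if its conjugacy class has at most p^(n−s) elements; in particular the subgroup generated by the p^n-th powers is the center of G. -/
theorem result {G : Type*} [Group G] [Finite G] {p : ℕ} [Fact p.Prime] (hp : p ≠ 2) (hG : IsPGroup p G) (hmc : Cfsg.IsMetacyclic G) (n : ℕ) (hGn : Nat.card ↥(commutator G) = p ^ n) (s : ℕ) (hs : s ≤ n) (g : G) :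
    (g ∈ Subgroup.closure {x : G | ∃ y : G, y ^ p ^ s = x} ↔ (Subgroup.centralizer ({g} : Set G)).index ≤ p ^ (n - s)) ∧
      Subgroup.closure {x : G | ∃ y : G, y ^ p ^ n = x} = Subgroup.center G := by
  have hpp : p.Prime := Fact.out
  obtain ⟨c⟩ := Cfsg.Agent.H470.exists_coord hG hmc
  rw [c.card_commutator] at hGn
  have h : c.n = n := Nat.pow_right_injective hpp.two_le hGn
  subst h
  constructor
  · rw [Cfsg.Agent.H471.mem_closure_pow_iff c hp hs,
      Cfsg.Agent.H471.index_centralizer_singleton c hp, Cfsg.Agent.H471.addOrderOf_le_iff,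
      Cfsg.Agent.H471.pair_mul_eq_zero_iff (Nat.sub_le _ _), show c.n - (c.n - s) = s by omega]
  · ext x
    rw [Cfsg.Agent.H471.mem_closure_pow_iff c hp le_rfl, ← c.D_eq_zero_iff, ZMod.natCast_self]
    constructor
    · rintro ⟨w, hw⟩
      rw [hw, zero_smul]
    · intro h
      exact ⟨0, by rw [h, smul_zero]⟩

end Cfsg.Agent.S3882
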