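import Cfsg.Statements.S3885
import Cfsg.Agent.H470.MetaMain
set_option linter.all false

set_option autoImplicit false
open Cfsg

namespace Cfsg.Agent.S3885

/-- Let p be an odd prime and G a finite metacyclic p-group (G has a cyclic normal subgroup with cyclic quotient). Then every abelian subgroup K of G containing the center of G is the center of its own centralizer: K = Z(C_G(K)). -/
theorem result {G : Type*} [Group G] [Finite G] {p : ℕ} [Fact p.Prime] (hp : p ≠ 2) (hG : IsPGroup p G) (hmc : Cfsg.IsMetacyclic G) (K : Subgroup G) (hK : IsMulCommutative ↥K) (hZ : Subgroup.center G ≤ K) :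
    K = Subgroup.centralizer (K : Set G) ⊓ Subgroup.centralizer (Subgroup.centralizer (K : Set G) : Set G) := by
  obtain ⟨c⟩ := Cfsg.Agent.H470.exists_coord hG hmc
  have h1 := c.card_R_mul_centralizer hp K
  have h2 := c.card_R_mul_centralizer hp (Subgroup.centralizer (K : Set G))
  have hZ2 : Subgroup.center G ≤ Subgroup.centralizer (K : Set G) := Subgroup.center_le_centralizer _
  rw [inf_eq_right.2 hZ] at h1
  rw [inf_eq_right.2 hZ2, ← h1, mul_comm] at h2
  have h3 := Nat.eq_of_mul_eq_mul_right Nat.card_pos h2
  have hle : K ≤ Subgroup.centralizer (Subgroup.centralizer (K : Set G) : Set G) := by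
    intro x hx
    rw [Subgroup.mem_centralizer_iff]
    intro y hy
    exact (hy x hx).symm
  have hKC : K ≤ Subgroup.centralizer (K : Set G) := by
    intro x hx
    rw [Subgroup.mem_centralizer_iff]
    intro y hy
    exact congrArg Subtype.val (hK.is_comm.comm (⟨y, hy⟩ : K) ⟨x, hx⟩)
  have heq := Subgroup.eq_of_le_of_card_ge hle h3.le
  rw [← heq]
  exact (inf_eq_right.2 hKC).symm

end Cfsg.Agent.S3885
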