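import Cfsg.Statements.S3886
import Cfsg.Agent.H470.MetaMain
import Cfsg.Agent.S3879
import Cfsg.Agent.S3880
import Cfsg.Agent.OddOrderLocal.Metacyclic
set_option linter.all false

set_option autoImplicit false
open Cfsg

namespace Cfsg.Agent.S3886

/-- Let p be an odd prime and G a finite metacyclic p-group (G has a cyclic normal subgroup with cyclic quotient). Then the largest value of |R| · |Z(R)| over subgroups R of G is |G : G'|², and the subgroups attaining it (the centrally large subgroups) are exactly the non-abelian subgroups together with the maximal abelian subgroups of G. -/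
theorem result {G : Type*} [Group G] [Finite G] {p : ℕ} [Fact p.Prime] (hp : p ≠ 2) (hG : IsPGroup p G) (hmc : Cfsg.IsMetacyclic G) : Cfsg.maxCentralProduct G = (commutator G).index ^ 2 ∧
    ∀ R : Subgroup G, Cfsg.IsCentrallyLarge R ↔ (¬ IsMulCommutative ↥R ∨ Maximal (fun K : Subgroup G => IsMulCommutative ↥K) R) := by
  obtain ⟨c⟩ := Cfsg.Agent.H470.exists_coord hG hmc
  -- abelian subgroups
  have hab : ∀ R : Subgroup G, IsMulCommutative ↥R →
      Nat.card ↥R * Nat.card ↥(Subgroup.center ↥R) = Nat.card ↥R ^ 2 := by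
    intro R hR
    have : Subgroup.center ↥R = ⊤ := by
      rw [Subgroup.eq_top_iff']
      intro x
      rw [Subgroup.mem_center_iff]
      intro y
      exact hR.is_comm.comm y x
    rw [this, Subgroup.card_top, sq]
  -- nonabelian subgroups
  have hnab : ∀ R : Subgroup G, ¬ IsMulCommutative ↥R →
      Nat.card ↥R * Nat.card ↥(Subgroup.center ↥R) = (commutator G).index ^ 2 := by
    intro R hR
    have h1 := Cfsg.Agent.S3879.result (G := ↥R) hp (hG.to_subgroup R)
      (Cfsg.Agent.OddOrderLocal.Metacyclic.isMetacyclic_of_injective R.subtype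
        R.subtype_injective hmc)
    have h2 := c.index_commutator_subgroup hG hp hR
    have h3 := (Subgroup.center ↥R).card_mul_index
    have h4 := (commutator ↥R).card_mul_index
    rw [h1] at h3
    rw [← h2]
    have hpos : 0 < Nat.card ↥(commutator ↥R) ^ 2 := pow_pos Nat.card_pos 2
    apply Nat.eq_of_mul_eq_mul_right hpos
    calc Nat.card ↥R * Nat.card ↥(Subgroup.center ↥R) * Nat.card ↥(commutator ↥R) ^ 2
        = Nat.card ↥R * (Nat.card ↥(Subgroup.center ↥R) * Nat.card ↥(commutator ↥R) ^ 2) := by ring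
      _ = Nat.card ↥R * Nat.card ↥R := by rw [h3]
      _ = (Nat.card ↥(commutator ↥R) * (commutator ↥R).index) *
            (Nat.card ↥(commutator ↥R) * (commutator ↥R).index) := by rw [h4]
      _ = (commutator ↥R).index ^ 2 * Nat.card ↥(commutator ↥R) ^ 2 := by ring
  have hle : ∀ R : Subgroup G, Nat.card ↥R * Nat.card ↥(Subgroup.center ↥R) ≤
      (commutator G).index ^ 2 := by
    intro R
    by_cases hR : IsMulCommutative ↥R
    · rw [hab R hR]
      exact Nat.pow_le_pow_left ((Cfsg.Agent.S3880.result hp hG hmc R).1.1 hR) 2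
    · exact (hnab R hR).le
  have hex : ∃ R : Subgroup G, Nat.card ↥R * Nat.card ↥(Subgroup.center ↥R) =
      (commutator G).index ^ 2 := by
    by_cases hR : IsMulCommutative ↥(⊤ : Subgroup G)
    · refine ⟨⊤, ?_⟩
      rw [hab ⊤ hR]
      have h1 := (Cfsg.Agent.S3880.result hp hG hmc ⊤).1.1 hR
      have h2 : (commutator G).index ≤ Nat.card ↥(⊤ : Subgroup G) := by
        rw [Subgroup.card_top]
        exact Nat.le_of_dvd Nat.card_pos (Subgroup.index_dvd_card _)
      rw [le_antisymm h1 h2]
    · exact ⟨⊤, hnab ⊤ hR⟩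
  have hmax : Cfsg.maxCentralProduct G = (commutator G).index ^ 2 := by
    unfold Cfsg.maxCentralProduct
    apply le_antisymm
    · refine csSup_le ⟨_, ⊥, rfl⟩ ?_
      rintro k ⟨R, rfl⟩
      exact hle R
    · refine le_csSup ⟨(commutator G).index ^ 2, ?_⟩ hex
      rintro k ⟨R, rfl⟩
      exact hle R
  refine ⟨hmax, fun R => ?_⟩
  unfold Cfsg.IsCentrallyLarge
  rw [hmax]
  by_cases hR : IsMulCommutative ↥R
  · rw [hab R hR, (Cfsg.Agent.S3880.result hp hG hmc R).2]
    constructor
    · intro h
      exact Or.inr (Nat.pow_left_injective (n := 2) (by norm_num) h)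
    · rintro (h | h)
      · exact absurd hR h
      · rw [h]
  · exact ⟨fun _ => Or.inl hR, fun _ => hnab R hR⟩

end Cfsg.Agent.S3886
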