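import Cfsg.Statements.S3887
import Cfsg.Agent.H470.MetaMain
set_option linter.all false

set_option autoImplicit false
open Cfsg

namespace Cfsg.Agent.S3887

/-- Let p be an odd prime and G a finite metacyclic p-group (G has a cyclic normal subgroup with cyclic quotient). Then a subgroup R of G maximizes |R| · |C_G(R)| over all subgroups of G if and only if R contains the center of G. -/
theorem result {G : Type*} [Group G] [Finite G] {p : ℕ} [Fact p.Prime] (hp : p ≠ 2) (hG : IsPGroup p G) (hmc : Cfsg.IsMetacyclic G) (R : Subgroup G) : Cfsg.IsCentralizerLarge R ↔ Subgroup.center G ≤ R := by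
  obtain ⟨c⟩ := Cfsg.Agent.H470.exists_coord hG hmc
  have key := fun R : Subgroup G => c.card_R_mul_centralizer hp R
  have hle : ∀ R : Subgroup G, Nat.card ↥R * Nat.card ↥(Subgroup.centralizer (R : Set G)) ≤
      Nat.card G * Nat.card ↥(Subgroup.center G) := by
    intro R
    rw [key R]
    exact Nat.mul_le_mul le_rfl (Subgroup.card_le_of_le inf_le_right)
  have hmax : Cfsg.maxCentralizerProduct G = Nat.card G * Nat.card ↥(Subgroup.center G) := by
    unfold Cfsg.maxCentralizerProduct
    apply le_antisymm
    · refine csSup_le ⟨_, ⊥, rfl⟩ ?_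
      rintro k ⟨R, rfl⟩
      exact hle R
    · refine le_csSup ⟨Nat.card G * Nat.card ↥(Subgroup.center G), ?_⟩ ⟨⊤, ?_⟩
      · rintro k ⟨R, rfl⟩
        exact hle R
      · rw [key ⊤, top_inf_eq]
  unfold Cfsg.IsCentralizerLarge
  rw [hmax, key R]
  have hpos : 0 < Nat.card G := Nat.card_pos
  constructor
  · intro h
    have h1 : Nat.card ↥(R ⊓ Subgroup.center G) = Nat.card ↥(Subgroup.center G) :=
      Nat.eq_of_mul_eq_mul_left hpos h
    have h2 : R ⊓ Subgroup.center G = Subgroup.center G :=
      Subgroup.eq_of_le_of_card_ge inf_le_right h1.ge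
    rw [← h2]
    exact inf_le_left
  · intro h
    rw [inf_eq_right.2 h]

end Cfsg.Agent.S3887
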