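import Cfsg.Statements.S3897
import Cfsg.Agent.H471.KPiCrit
set_option linter.all false

set_option autoImplicit false
open Cfsg

namespace Cfsg.Agent.S3897

open Cfsg.Agent.H471.KPi in
/-- Let p be an odd prime and G a finite group with Sylow p-subgroup P, and write k_p(G) for the number of conjugacy classes of G consisting of p-elements (elements of p-power order, the identity included). Then k_p(G) > (p + 1)|P|/(2p) if and only if G has a normal p-complement and P is abelian. -/
theorem result {G : Type*} [Group G] [Finite G] {p : ℕ} [Fact p.Prime] (hp : p ≠ 2) (P : Sylow p G) :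
    (p + 1) * Nat.card ↥(P : Subgroup G) < 2 * p * Nat.card {c : ConjClasses G // ∀ x ∈ c.carrier, ∃ k : ℕ, orderOf x = p ^ k} ↔
      Cfsg.HasNormalPComplement p G ∧ IsMulCommutative ↥(P : Subgroup G) := by
  have hpp : p.Prime := Fact.out
  rw [card_classes_eq_kPi' hpp, Cfsg.Agent.Transfer.NormalPComplement.hasNormalPComplement_iff_sylow P]
  constructor
  · intro h
    exact complement_of_large hp P h
  · rintro ⟨⟨N, hN, hc⟩, hab⟩
    have h1 := card_le_kPi_of_complement P N hN hc hab
    have hp1 := hpp.two_le
    have hpos : 0 < Nat.card ↥(P : Subgroup G) := Nat.card_pos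
    calc (p + 1) * Nat.card ↥(P : Subgroup G) < 2 * p * Nat.card ↥(P : Subgroup G) :=
          Nat.mul_lt_mul_of_pos_right (by omega) hpos
      _ ≤ _ := Nat.mul_le_mul_left _ h1

end Cfsg.Agent.S3897
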