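import Cfsg.Agent.H471.KPiAssemble
import Cfsg.Statements.S3898
import Cfsg.Agent.S3895
set_option linter.all false

-- part: H471/KPiTwo
section
/-!
The case of two primes `{2, q}`: if `G` has a normal `2`-complement and
`k_{2,q}(G) > |G|_{2,q} / 2` then `G` has a normal `q`-complement and abelian Sylow `q`-subgroups.
-/

set_option autoImplicit false

open scoped Pointwise

namespace Cfsg.Agent.H471.KPi

open Cfsg.Agent.H529.PiElem

variable {G : Type*} [Group G]

/-- a Sylow `2`-subgroup normalizing the Sylow `q`-subgroup `Q` -/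
theorem exists_sylow_two_normalizing [Finite G] {q : ℕ} [hq : Fact q.Prime] (hq2 : q ≠ 2)
    (K : Subgroup G) (hK : K.Normal) (hK2 : ¬ 2 ∣ Nat.card K) {k : ℕ} (hKi : K.index = 2 ^ k)
    (Q : Sylow q G) :
    ∃ P : Sylow 2 G, (P : Subgroup G) ≤ Subgroup.normalizer ((Q : Subgroup G) : Set G) := by
  have hf2 : Fact (Nat.Prime 2) := ⟨Nat.prime_two⟩
  have hQK : (Q : Subgroup G) ≤ K := by
    intro x hx
    obtain ⟨j, hj⟩ := IsPGroup.iff_orderOf.1 Q.isPGroup' ⟨x, hx⟩
    rw [Subgroup.orderOf_mk] at hj
    rw [← QuotientGroup.eq_one_iff, ← orderOf_eq_one_iff]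
    have h1 : orderOf (x : G ⧸ K) ∣ q ^ j := by
      rw [← hj]; exact orderOf_map_dvd (QuotientGroup.mk' K) x
    have h2 : orderOf (x : G ⧸ K) ∣ 2 ^ k := by
      rw [← hKi, Subgroup.index_eq_card]; exact orderOf_dvd_natCard _
    have hcop : Nat.Coprime (q ^ j) (2 ^ k) :=
      Nat.Coprime.pow _ _ ((Nat.coprime_primes hq.out Nat.prime_two).2 hq2)
    have h3 := Nat.dvd_gcd h1 h2
    rw [Nat.coprime_iff_gcd_eq_one.1 hcop] at h3
    exact Nat.dvd_one.1 h3
  have htop := Sylow.normalizer_sup_eq_top' Q hQK
  have hdvd : 2 ^ k ∣ Nat.card (Subgroup.normalizer ((Q : Subgroup G) : Set G)) := by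
    rw [← hKi, ← Subgroup.relIndex_top_right K, ← htop, Subgroup.relIndex_sup_right]
    exact Subgroup.relIndex_dvd_card _ _
  obtain ⟨P0, hP0⟩ := Sylow.exists_subgroup_card_pow_prime 2 hdvd
  have hcard : Nat.card (P0.map (Subgroup.normalizer ((Q : Subgroup G) : Set G)).subtype) =
      2 ^ (Nat.card G).factorization 2 := by
    rw [← Nat.card_congr (P0.equivMapOfInjective _ (Subgroup.subtype_injective _)).toEquiv, hP0]
    congr 1
    rw [← K.card_mul_index, hKi, Nat.factorization_mul Nat.card_pos.ne' (by positivity),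
      Finsupp.add_apply, Nat.factorization_eq_zero_of_not_dvd hK2, zero_add,
      Nat.Prime.factorization_pow Nat.prime_two, Finsupp.single_eq_same]
  exact ⟨Sylow.ofCard _ hcard, Subgroup.map_subtype_le _⟩

theorem sylow_pow_le [Finite G] {q : ℕ} [hq : Fact q.Prime] (H : Subgroup G) :
    q ^ (Nat.card H).factorization q ≤ q ^ (Nat.card G).factorization q :=
  Nat.pow_le_pow_right hq.out.pos ((Nat.factorization_le_iff_dvd Nat.card_pos.ne' Nat.card_pos.ne').2
    (Subgroup.card_subgroup_dvd_card _) q)

/-- the main estimate when the Sylow `2`-subgroup normalizes but does not centralize `Q` -/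
theorem two_estimate [Finite G] {q : ℕ} [hq : Fact q.Prime] (hq2 : q ≠ 2) (Q : Sylow q G)
    (P : Sylow 2 G) (hPQ : (P : Subgroup G) ≤ Subgroup.normalizer ((Q : Subgroup G) : Set G))
    (hne : ¬ (P : Subgroup G) ≤ Subgroup.centralizer ((Q : Subgroup G) : Set G)) :
    2 * kPi (insert q {2}) G ≤ Nat.card ↥(P : Subgroup G) * Nat.card ↥(Q : Subgroup G) := by
  classical
  have hf2 : Fact (Nat.Prime 2) := ⟨Nat.prime_two⟩
  have : Fintype G := Fintype.ofFinite G
  have hq3 : 3 ≤ q := by have := hq.out.two_le; omega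
  set C : Subgroup G := Subgroup.centralizer ((Q : Subgroup G) : Set G) with hC
  set N : Subgroup G := Subgroup.normalizer ((Q : Subgroup G) : Set G) with hN
  set P1 : Subgroup G := (P : Subgroup G) ⊓ C with hP1
  set cQ := Nat.card ↥(Q : Subgroup G) with hcQ
  set cP := Nat.card ↥(P : Subgroup G) with hcP
  have hcQe : cQ = q ^ (Nat.card G).factorization q := Q.card_eq_multiplicity
  have hCconj : ∀ n ∈ N, ∀ x ∈ C, n * x * n⁻¹ ∈ C := by
    intro n hn x hx
    rw [hC, Subgroup.mem_centralizer_iff] at hx ⊢
    intro y hy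
    have h1 : n⁻¹ * y * n ∈ (Q : Subgroup G) := by
      have := (Subgroup.mem_normalizer_iff.1 (N.inv_mem hn) y).1 hy
      simpa using this
    have h2 := hx _ h1
    calc y * (n * x * n⁻¹) = n * ((n⁻¹ * y * n) * x) * n⁻¹ := by group
      _ = n * (x * (n⁻¹ * y * n)) * n⁻¹ := by rw [h2]
      _ = n * x * n⁻¹ * y := by group
  have h2P1 : 2 * Nat.card P1 ≤ cP := by
    apply mul_card_le_of_lt P.isPGroup' inf_le_left
    intro h
    exact hne (h.trans inf_le_right)
  have hF : ∀ v : G, kPi {q} (Subgroup.centralizer ({v} : Set G)) ≤ cQ := fun v =>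
    kPi_singleton_le.trans ((sylow_pow_le _).trans hcQe.symm.le)
  have key := weight_bound (G := G) {2} (P : Subgroup G)
    (fun x => if x ∈ C then 4 * cQ else 2 * cQ)
    (fun v => kPi {q} (Subgroup.centralizer ({v} : Set G))) 6 (by
      intro v hv
      -- lower bounds for the weight sum
      have hone : ∀ u ∈ (P : Subgroup G), IsConj u v → (if u ∈ C then 4 * cQ else 2 * cQ) ≤
          ∑ x : G, if x ∈ (P : Subgroup G) ∧ IsConj x v then (if x ∈ C then 4 * cQ else 2 * cQ) else 0 := by
        intro u hu huv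
        have h2 := Finset.single_le_sum (f := fun x : G => if x ∈ (P : Subgroup G) ∧ IsConj x v then
          (if x ∈ C then 4 * cQ else 2 * cQ) else 0) (s := Finset.univ) (fun _ _ => Nat.zero_le _)
          (Finset.mem_univ u)
        rw [if_pos (show u ∈ (P : Subgroup G) ∧ IsConj u v from ⟨hu, huv⟩)] at h2
        exact h2
      by_cases hex : ∃ u ∈ P1, IsConj u v
      · obtain ⟨u, huP1, huv⟩ := hex
        have huP : u ∈ (P : Subgroup G) := huP1.1
        have huC : u ∈ C := huP1.2
        rw [← kPi_centralizer_conj {q} huv]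
        by_cases hy : ∃ y ∈ (P : Subgroup G), y ∉ C ∧ y * u = u * y
        · obtain ⟨y, hyP, hyC, hyu⟩ := hy
          set H : Subgroup G := Subgroup.centralizer ({u} : Set G) with hH
          have hQH : (Q : Subgroup G) ≤ H := by
            intro x hx
            rw [hH, Subgroup.mem_centralizer_singleton_iff]
            exact Subgroup.mem_centralizer_iff.1 huC x hx
          have hyH : y ∈ H := by
            rw [hH, Subgroup.mem_centralizer_singleton_iff]; exact hyu
          have h3 := kPi_action_two (G := H) (p := q) {q} ((Q.subtype hQH : Sylow q H) : Subgroup H)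
            (Q.subtype hQH).isPGroup' (exists_conj_mem (Q.subtype hQH)) (n := ⟨y, hyH⟩) (by
              rw [Subgroup.mem_normalizer_iff]
              intro h
              rw [Sylow.coe_subtype, Subgroup.mem_subgroupOf, Subgroup.mem_subgroupOf]
              exact Subgroup.mem_normalizer_iff.1 (hPQ hyP) (h : G)) (by
              intro hcon
              apply hyC
              rw [hC, Subgroup.mem_centralizer_iff]
              intro x hx
              exact congrArg Subtype.val (Subgroup.mem_centralizer_iff.1 hcon ⟨x, hQH hx⟩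
                (by rw [SetLike.mem_coe, Sylow.coe_subtype, Subgroup.mem_subgroupOf]; exact hx)))
          have h4 : Nat.card ↥((Q.subtype hQH : Sylow q H) : Subgroup H) = cQ := by
            rw [Sylow.coe_subtype]
            exact Nat.card_congr (Subgroup.subgroupOfEquivOfLe hQH).toEquiv
          rw [h4] at h3
          refine le_trans ?_ (hone u huP huv)
          rw [if_pos huC]
          -- 6 F ≤ 4 cQ from 2 q F ≤ (q+1) cQ
          have h5 : q * (6 * kPi {q} H) ≤ q * (4 * cQ) := by
            calc q * (6 * kPi {q} H) = 3 * (2 * q * kPi {q} H) := by ring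
              _ ≤ 3 * ((q + 1) * cQ) := Nat.mul_le_mul_left _ h3
              _ = (3 * (q + 1)) * cQ := by ring
              _ ≤ (q * 4) * cQ := Nat.mul_le_mul_right _ (by omega)
              _ = q * (4 * cQ) := by ring
          exact Nat.le_of_mul_le_mul_left h5 hq.out.pos
        · push Not at hy
          obtain ⟨y, hyP, hyC⟩ := SetLike.not_le_iff_exists.1 hne
          have hyu := hy y hyP hyC
          set u' := y * u * y⁻¹ with hu'
          have hne' : u' ≠ u := by
            intro h
            apply hyu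
            calc y * u = u' * y := by rw [hu']; group
              _ = u * y := by rw [h]
          have hu'P : u' ∈ (P : Subgroup G) :=
            (P : Subgroup G).mul_mem ((P : Subgroup G).mul_mem hyP huP) ((P : Subgroup G).inv_mem hyP)
          have hu'C : u' ∈ C := hCconj y (hPQ hyP) u huC
          have hu'v : IsConj u' v := (isConj_iff.2 ⟨y, rfl⟩ : IsConj u u').symm.trans huv
          have h2 := Finset.sum_le_sum_of_subset (f := fun x : G => if x ∈ (P : Subgroup G) ∧ IsConj x v then
            (if x ∈ C then 4 * cQ else 2 * cQ) else 0) (Finset.subset_univ ({u', u} : Finset G))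
          rw [Finset.sum_pair hne', if_pos (show u' ∈ (P : Subgroup G) ∧ IsConj u' v from ⟨hu'P, hu'v⟩),
            if_pos hu'C, if_pos (show u ∈ (P : Subgroup G) ∧ IsConj u v from ⟨huP, huv⟩), if_pos huC] at h2
          refine le_trans ?_ h2
          have := hF u
          omega
      · obtain ⟨x, hxP, hxv⟩ := exists_conj_mem P v hv
        have hxC : x ∉ C := fun h => hex ⟨x, ⟨hxP, h⟩, hxv⟩
        refine le_trans ?_ (hone x hxP hxv)
        rw [if_neg hxC, ← kPi_centralizer_conj {q} hxv]
        -- the Sylow `q`-subgroup of `C(x)` is smaller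
        set H : Subgroup G := Subgroup.centralizer ({x} : Set G) with hH
        have hlt : (Nat.card H).factorization q < (Nat.card G).factorization q := by
          by_contra hcon
          push Not at hcon
          obtain ⟨R⟩ : Nonempty (Sylow q H) := inferInstance
          have hcardR : Nat.card ((R : Subgroup H).map H.subtype) = q ^ (Nat.card G).factorization q := by
            rw [← Nat.card_congr ((R : Subgroup H).equivMapOfInjective _ H.subtype_injective).toEquiv,
              R.card_eq_multiplicity]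
            congr 1
            exact le_antisymm ((Nat.factorization_le_iff_dvd Nat.card_pos.ne' Nat.card_pos.ne').2
              (Subgroup.card_subgroup_dvd_card _) q) hcon
          obtain ⟨t, ht⟩ := MulAction.exists_smul_eq G (Sylow.ofCard _ hcardR) Q
          -- t x t⁻¹ centralizes Q
          have hx'C : t * x * t⁻¹ ∈ C := by
            rw [hC, Subgroup.mem_centralizer_iff]
            intro y hy
            rw [← ht] at hy
            obtain ⟨z, hz, hzy⟩ := hy
            obtain ⟨z', hz', rfl⟩ := hz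
            have hzy' : t * (z' : G) * t⁻¹ = y := hzy
            have hcomm := Subgroup.mem_centralizer_singleton_iff.1 z'.2
            rw [← hzy']
            calc t * (z' : G) * t⁻¹ * (t * x * t⁻¹) = t * ((z' : G) * x) * t⁻¹ := by group
              _ = t * (x * (z' : G)) * t⁻¹ := by rw [hcomm]
              _ = t * x * t⁻¹ * (t * (z' : G) * t⁻¹) := by group
          have hCN : C ≤ N := Subgroup.centralizer_le_normalizer _
          have hx'N : t * x * t⁻¹ ∈ N := hCN hx'C
          have hx2 : IsPiEl {2} (⟨t * x * t⁻¹, hx'N⟩ : N) := by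
            rw [← isPiEl_coe]
            simp only
            have h6 : IsPiEl {2} x := by
              obtain ⟨c, hc⟩ := isConj_iff.1 hxv.symm
              rw [← hc]; exact isPiEl_conj {2} hv
            exact isPiEl_conj {2} h6
          obtain ⟨z, hz, hzc⟩ := exists_conj_mem (G := N) (P.subtype hPQ) _ hx2
          rw [Sylow.coe_subtype, Subgroup.mem_subgroupOf] at hz
          obtain ⟨c, hc⟩ := isConj_iff.1 hzc.symm
          have hc' : (c : G) * (t * x * t⁻¹) * (c : G)⁻¹ = (z : G) := congrArg Subtype.val hc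
          apply hex
          refine ⟨(z : G), ⟨hz, ?_⟩, ?_⟩
          · rw [← hc']
            exact hCconj c c.2 _ hx'C
          · refine IsConj.trans ?_ hxv
            refine (isConj_iff.2 ⟨(c : G) * t, ?_⟩ : IsConj x (z : G)).symm
            rw [← hc']; group
        have h7 : q * kPi {q} H ≤ cQ := by
          calc q * kPi {q} H ≤ q * q ^ (Nat.card H).factorization q :=
                Nat.mul_le_mul_left _ kPi_singleton_le
            _ = q ^ ((Nat.card H).factorization q + 1) := by rw [pow_succ, mul_comm]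
            _ ≤ q ^ (Nat.card G).factorization q := Nat.pow_le_pow_right hq.out.pos hlt
            _ = cQ := hcQe.symm
        calc 6 * kPi {q} H = 2 * (3 * kPi {q} H) := by ring
          _ ≤ 2 * (q * kPi {q} H) := Nat.mul_le_mul_left _ (Nat.mul_le_mul_right _ hq3)
          _ ≤ 2 * cQ := Nat.mul_le_mul_left _ h7)
  rw [← card_piPairs_insert (G := G) {2} q (by simpa using hq2), card_piPairs_eq] at key
  have hsum : (∑ x : G, if x ∈ (P : Subgroup G) then (if x ∈ C then 4 * cQ else 2 * cQ) else 0) =
      2 * cQ * cP + 2 * cQ * Nat.card P1 := by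
    have e1 : cP = ∑ x : G, if x ∈ (P : Subgroup G) then 1 else 0 := by
      rw [← Finset.card_filter, hcP, Nat.card_eq_fintype_card, Fintype.card_subtype]
    have e2 : Nat.card P1 = ∑ x : G, if x ∈ P1 then 1 else 0 := by
      rw [← Finset.card_filter, Nat.card_eq_fintype_card, Fintype.card_subtype]
    rw [e1, e2, Finset.mul_sum, Finset.mul_sum, ← Finset.sum_add_distrib]
    apply Finset.sum_congr rfl
    intro x _
    have h8 : x ∈ P1 ↔ x ∈ (P : Subgroup G) ∧ x ∈ C := Subgroup.mem_inf
    by_cases hx : x ∈ (P : Subgroup G) <;> by_cases hx' : x ∈ C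
    · simp only [h8, hx, hx', and_self, if_true]; ring
    · simp only [h8, hx, hx', and_false, if_true, if_false]; ring
    · simp only [h8, hx, hx', false_and, if_false]; ring
    · simp only [h8, hx, hx', false_and, if_false]; ring
  rw [hsum] at key
  have h9 : 2 * cQ * cP + 2 * cQ * Nat.card P1 ≤ 3 * (cP * cQ) := by
    calc 2 * cQ * cP + 2 * cQ * Nat.card P1 = 2 * cQ * cP + cQ * (2 * Nat.card P1) := by ring
      _ ≤ 2 * cQ * cP + cQ * cP := Nat.add_le_add_left (Nat.mul_le_mul_left _ h2P1) _
      _ = 3 * (cP * cQ) := by ring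
  have h10 : (3 * Nat.card G) * (2 * kPi (insert q {2}) G) ≤ (3 * Nat.card G) * (cP * cQ) := by
    calc (3 * Nat.card G) * (2 * kPi (insert q {2}) G) = 6 * (kPi (insert q {2}) G * Nat.card G) := by ring
      _ ≤ Nat.card G * (2 * cQ * cP + 2 * cQ * Nat.card P1) := key
      _ ≤ Nat.card G * (3 * (cP * cQ)) := Nat.mul_le_mul_left _ h9
      _ = _ := by ring
  exact Nat.le_of_mul_le_mul_left h10 (by have : 0 < Nat.card G := Nat.card_pos; omega)

/-- **the `{2, q}` case** -/
theorem complement_data_two [Finite G] {q : ℕ} [hq : Fact q.Prime] (hq2 : q ≠ 2)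
    (K : Subgroup G) (hK : K.Normal) (hK2 : ¬ 2 ∣ Nat.card K) {k : ℕ} (hKi : K.index = 2 ^ k)
    (h : 2 ^ (Nat.card G).factorization 2 * q ^ (Nat.card G).factorization q <
      2 * kPi (insert q {2}) G) :
    ∃ N : Subgroup G, (N.Normal ∧ ¬ q ∣ Nat.card N ∧ ∃ k, N.index = q ^ k) ∧ commutator G ≤ N := by
  have hf2 : Fact (Nat.Prime 2) := ⟨Nat.prime_two⟩
  have hq3 : 3 ≤ q := by have := hq.out.two_le; omega
  obtain ⟨Q⟩ : Nonempty (Sylow q G) := inferInstance
  obtain ⟨P, hPN⟩ := exists_sylow_two_normalizing hq2 K hK hK2 hKi Q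
  set cQ := Nat.card ↥(Q : Subgroup G) with hcQ
  set cP := Nat.card ↥(P : Subgroup G) with hcP
  have hcQe : cQ = q ^ (Nat.card G).factorization q := Q.card_eq_multiplicity
  have hcPe : cP = 2 ^ (Nat.card G).factorization 2 := P.card_eq_multiplicity
  have hcPpos : 0 < cP := Nat.card_pos
  have hcQpos : 0 < cQ := Nat.card_pos
  rw [← hcQe, ← hcPe] at h
  -- `k_q(G) > |Q| / 2`
  have hkq : cQ < 2 * kPi {q} G := by
    have h1 := kPi_insert_le (G := G) (μ := {q}) (r := 2) (by simpa using fun h => hq2 h.symm)
    rw [← hcPe, Set.pair_comm] at h1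
    have h2 : cP * cQ < cP * (2 * kPi {q} G) := by
      calc cP * cQ < 2 * kPi (insert q {2}) G := h
        _ ≤ 2 * (cP * kPi {q} G) := Nat.mul_le_mul_left _ h1
        _ = _ := by ring
    exact lt_of_mul_lt_mul_left h2 (Nat.zero_le _)
  have hab : IsMulCommutative ↥(Q : Subgroup G) := by
    by_contra hna
    have h1 := kPi_nonabelian {q} (Q : Subgroup G) Q.isPGroup' (exists_conj_mem Q) hna
    rw [← hcQ] at h1
    obtain ⟨t, rfl⟩ : ∃ t, q = t + 3 := ⟨q - 3, by omega⟩
    have e1 : (t + 3) ^ 2 + (t + 3) - 1 = t ^ 2 + 7 * t + 11 := by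
      have : (t + 3) ^ 2 + (t + 3) = t ^ 2 + 7 * t + 11 + 1 := by ring
      omega
    rw [e1] at h1
    have h2 : (t + 3) ^ 3 * cQ < 2 * ((t ^ 2 + 7 * t + 11) * cQ) := by
      calc (t + 3) ^ 3 * cQ < (t + 3) ^ 3 * (2 * kPi {t + 3} G) :=
            Nat.mul_lt_mul_of_pos_left hkq (by positivity)
        _ = 2 * ((t + 3) ^ 3 * kPi {t + 3} G) := by ring
        _ ≤ _ := Nat.mul_le_mul_left _ h1
    have h3 : 2 * ((t ^ 2 + 7 * t + 11) * cQ) ≤ (t + 3) ^ 3 * cQ := by
      rw [← mul_assoc]
      apply Nat.mul_le_mul_right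
      nlinarith [Nat.zero_le (t ^ 3), Nat.zero_le (t ^ 2), Nat.zero_le t]
    omega
  have hle : Subgroup.normalizer ((Q : Subgroup G) : Set G) ≤
      Subgroup.centralizer ((Q : Subgroup G) : Set G) := by
    by_cases hPC : (P : Subgroup G) ≤ Subgroup.centralizer ((Q : Subgroup G) : Set G)
    · intro n hn
      by_contra hnc
      -- the action of `n` on `Q`
      set N : Subgroup G := Subgroup.normalizer ((Q : Subgroup G) : Set G) with hN
      set C : Subgroup G := Subgroup.centralizer ((Q : Subgroup G) : Set G) with hC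
      set φ := (Q : Subgroup G).normalizerMonoidHom with hφ
      have hker : φ.ker = C.subgroupOf N := (Q : Subgroup G).normalizerMonoidHom_ker
      have hmemker : ∀ m : N, φ m = 1 ↔ (m : G) ∈ C := by
        intro m
        rw [← MonoidHom.mem_ker, hker, Subgroup.mem_subgroupOf]
      have hCN : C ≤ N := Subgroup.centralizer_le_normalizer _
      have ho : orderOf (φ ⟨n, hn⟩) ≠ 1 := by
        rw [ne_eq, orderOf_eq_one_iff, hmemker]
        exact hnc
      obtain ⟨r, hr, hrd⟩ := Nat.exists_prime_and_dvd ho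
      have hrC : r ∣ C.index := by
        have h1 : orderOf (φ ⟨n, hn⟩) ∣ C.relIndex N := by
          have h2 : orderOf (φ ⟨n, hn⟩) = orderOf (⟨φ ⟨n, hn⟩, ⟨_, rfl⟩⟩ : φ.range) := by
            rw [← Subgroup.orderOf_coe]
          rw [h2]
          refine (orderOf_dvd_natCard _).trans ?_
          rw [← Subgroup.index_ker, hker]
          exact dvd_rfl
        exact (hrd.trans h1).trans (Dvd.intro _ (Subgroup.relIndex_mul_index hCN))
      have hr2 : r ≠ 2 := by
        rintro rfl
        exact P.not_dvd_index (hrC.trans (Subgroup.index_dvd_of_le hPC))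
      have hrq : r ≠ q := by
        rintro rfl
        have hQC : (Q : Subgroup G) ≤ C := by
          intro x hx
          rw [hC, Subgroup.mem_centralizer_iff]
          intro y hy
          exact congrArg Subtype.val (hab.is_comm.comm (⟨y, hy⟩ : (Q : Subgroup G)) ⟨x, hx⟩)
        exact Q.not_dvd_index (hrC.trans (Subgroup.index_dvd_of_le hQC))
      obtain ⟨m, hm⟩ := hrd
      have hm0 : m ≠ 0 := by
        rintro rfl
        have := orderOf_pos (φ ⟨n, hn⟩)
        omega
      have hnm : n ^ m ∉ C := by
        intro hcon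
        have h3 : φ (⟨n, hn⟩ ^ m) = 1 := (hmemker _).2 (by simpa using hcon)
        rw [map_pow] at h3
        have h4 := orderOf_dvd_of_pow_eq_one h3
        rw [hm] at h4
        have h5 := Nat.le_of_dvd (Nat.pos_of_ne_zero hm0) h4
        have := hr.two_le
        nlinarith [Nat.pos_of_ne_zero hm0]
      have hnmr : (n ^ m) ^ r ∈ C := by
        have h3 : φ (⟨n, hn⟩ ^ (r * m)) = 1 := by rw [map_pow, ← hm, pow_orderOf_eq_one]
        have h4 := (hmemker _).1 h3
        rw [← pow_mul, mul_comm]
        simpa using h4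
      have h6 := kPi_action_prime {q} (Q : Subgroup G) Q.isPGroup' (exists_conj_mem Q)
        (n := n ^ m) (pow_mem hn m) hnm hr hnmr
      rw [← hcQ] at h6
      have hr3 : 3 ≤ r := by have := hr.two_le; omega
      have h7 : r * q * cQ < (2 * (q + (r - 1))) * cQ := by
        calc r * q * cQ < r * q * (2 * kPi {q} G) :=
              Nat.mul_lt_mul_of_pos_left hkq (Nat.mul_pos hr.pos hq.out.pos)
          _ = 2 * (r * q * kPi {q} G) := by ring
          _ ≤ 2 * ((q + (r - 1)) * cQ) := Nat.mul_le_mul_left _ h6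
          _ = _ := by ring
      have h8 : r * q < 2 * (q + (r - 1)) := lt_of_mul_lt_mul_right h7 (Nat.zero_le _)
      obtain ⟨a, rfl⟩ : ∃ a, r = a + 3 := ⟨r - 3, by omega⟩
      obtain ⟨b, rfl⟩ : ∃ b, q = b + 3 := ⟨q - 3, by omega⟩
      have hab0 : a ≠ b := fun h => hrq (by rw [h])
      have h9 : (a + 3) * (b + 3) = a * b + 3 * a + 3 * b + 9 := by ring
      rw [h9] at h8
      omega
    · exfalso
      have h1 := two_estimate hq2 Q P hPN hPC
      rw [← hcP, ← hcQ] at h1
      omega
  refine ⟨(MonoidHom.transferSylow Q hle).ker, ⟨inferInstance, ?_, ?_⟩, ?_⟩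
  · exact MonoidHom.not_dvd_card_ker_transferSylow Q hle
  · rw [(MonoidHom.ker_transferSylow_isComplement' Q hle).symm.index_eq_card, ← hcQ, hcQe]
    exact ⟨_, rfl⟩
  · exact commutator_le_of_complement inferInstance
      (MonoidHom.ker_transferSylow_isComplement' Q hle) hab

end Cfsg.Agent.H471.KPi
end

-- part: S3898
section
set_option autoImplicit false
open Cfsg

namespace Cfsg.Agent.S3898

open Cfsg.Agent.H471.KPi in
/-- Let π be a finite set of primes containing 2 and G a finite group. Write k_π(G) for the number of conjugacy classes of G consisting of π-elements (elements all of whose order's prime divisors lie in π) and |G|_π for the π-part of the order of G. If k_π(G) > |G|_π/2, then G has a normal π-complement (a normal subgroup of order prime to π whose index is a π-number) and an abelian Hall subgroup for the set of odd primes in π. -/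
theorem result {G : Type*} [Group G] [Finite G] (π : Finset ℕ) (hπ : ∀ r ∈ π, r.Prime) (h2 : 2 ∈ π)
    (hk : π.prod (fun r => r ^ (Nat.card G).factorization r) < 2 * Nat.card {c : ConjClasses G // ∀ x ∈ c.carrier, ∀ r : ℕ, r.Prime → r ∣ orderOf x → r ∈ π}) :
    (∃ N : Subgroup G, N.Normal ∧ (∀ r : ℕ, r.Prime → r ∣ Nat.card ↥N → r ∉ π) ∧ ∀ r : ℕ, r.Prime → r ∣ N.index → r ∈ π) ∧ ∃ H : Subgroup G, Cfsg.IsPiHall ((↑π : Set ℕ) \ {2}) H ∧ IsMulCommutative ↥H := by
  classical
  have hf2 : Fact (Nat.Prime 2) := ⟨Nat.prime_two⟩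
  have hk' : π.prod (fun r => r ^ (Nat.card G).factorization r) < 2 * kPi (↑π : Set ℕ) G := by
    rw [← card_classes_eq_kPi]
    exact hk
  have hTpos : 0 < π.prod (fun r => r ^ (Nat.card G).factorization r) :=
    Finset.prod_pos (fun r hr => pow_pos (hπ r hr).pos _)
  -- subsets of the primes
  have hsub : ∀ σ : Finset ℕ, σ ⊆ π → σ.prod (fun r => r ^ (Nat.card G).factorization r) <
      2 * kPi (↑σ : Set ℕ) G := by
    intro σ hσ
    have h3 := kPi_subset_le (G := G) hσ hπ
    have hSpos : 0 < σ.prod (fun r => r ^ (Nat.card G).factorization r) :=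
      Finset.prod_pos (fun r hr => pow_pos (hπ r (hσ hr)).pos _)
    set T := π.prod (fun r => r ^ (Nat.card G).factorization r) with hT
    set S := σ.prod (fun r => r ^ (Nat.card G).factorization r) with hS
    have h4 : T * S < T * (2 * kPi (↑σ : Set ℕ) G) := by
      calc T * S < (2 * kPi (↑π : Set ℕ) G) * S := Nat.mul_lt_mul_of_pos_right hk' hSpos
        _ = 2 * (kPi (↑π : Set ℕ) G * S) := by ring
        _ ≤ 2 * (kPi (↑σ : Set ℕ) G * T) := Nat.mul_le_mul_left _ h3
        _ = _ := by ring
    exact lt_of_mul_lt_mul_left h4 (Nat.zero_le _)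
  -- the prime two
  have htwo : ∃ N : Subgroup G, N.Normal ∧ ¬ 2 ∣ Nat.card N ∧ ∃ k, N.index = 2 ^ k := by
    have h3 := hsub {2} (Finset.singleton_subset_iff.2 h2)
    rw [Finset.prod_singleton, Finset.coe_singleton, ← card_classes_eq_kPi' Nat.prime_two] at h3
    obtain ⟨P⟩ : Nonempty (Sylow 2 G) := inferInstance
    rw [← P.card_eq_multiplicity] at h3
    obtain ⟨h4, -⟩ := (Cfsg.Agent.S3895.result P).1 h3
    obtain ⟨P', N, hN, hc⟩ := h4
    refine ⟨N, hN, ?_, ?_⟩
    · rw [← hc.index_eq_card]
      exact P'.not_dvd_index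
    · rw [hc.symm.index_eq_card, P'.card_eq_multiplicity]
      exact ⟨_, rfl⟩
  obtain ⟨K, hK, hK2, k, hKi⟩ := htwo
  have hodd : ∀ q ∈ π.erase 2, ∃ N : Subgroup G, (N.Normal ∧ ¬ q ∣ Nat.card N ∧ ∃ k, N.index = q ^ k) ∧
      commutator G ≤ N := by
    intro q hq
    obtain ⟨hq2, hqπ⟩ := Finset.mem_erase.1 hq
    have hqp : Fact q.Prime := ⟨hπ q hqπ⟩
    apply complement_data_two hq2 K hK hK2 hKi
    have h3 := hsub {q, 2} (by
      intro x hx
      rw [Finset.mem_insert, Finset.mem_singleton] at hx
      rcases hx with rfl | rfl <;> assumption)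
    rw [Finset.prod_pair hq2, Finset.coe_pair, mul_comm] at h3
    exact h3
  choose! N hN hab using hodd
  constructor
  · refine ⟨_, exists_normal_piComplement π hπ (fun q => if q = 2 then K else N q) ?_⟩
    intro q hq
    by_cases hq2 : q = 2
    · subst hq2
      simp only [if_true]
      exact ⟨hK, hK2, k, hKi⟩
    · simp only [hq2, if_false]
      exact hN q (Finset.mem_erase.2 ⟨hq2, hq⟩)
  · have h5 := exists_abelian_hall (π.erase 2) (fun r hr => hπ r (Finset.mem_of_mem_erase hr)) N hN hab
    rw [Finset.coe_erase] at h5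
    exact h5

end Cfsg.Agent.S3898
end
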