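import Cfsg.Agent.OddOrderLocal.SylIn
import Cfsg.Agent.OddOrderLocal.FpfSolvable
import Cfsg.Agent.OddOrderLocal.CNBasic
import Cfsg.Agent.Lib.CoprimeCommutator
import Cfsg.Agent.GH.C2SevenTop
import Cfsg.Statements.S3901
import Cfsg.Agent.S0071
import Cfsg.Agent.S0205
import Cfsg.Agent.FastGrp
import Cfsg.Agent.Prune
set_option linter.all false
open scoped Cfsg.Agent.FastGrp

-- part: H35/PPOut
section
/-!
Finite groups `G` with a normal subgroup `N` such that all elements outside `N` have prime power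
order.  If `G/N` contains a nontrivial 2-subgroup normalised by an element of odd prime order `s`,
then `N` is a `{2,s}`-group.
-/

set_option autoImplicit false
open Cfsg Subgroup

namespace Cfsg.Agent.H35.PPOut

open Cfsg.Agent.OddOrderLocal.SylIn

variable {G : Type*} [Group G] [Finite G]

/-- elements of coprime orders, both nontrivial, commuting: the product is not of prime power
order -/
theorem not_isPrimePow_orderOf {x y : G} (hc : Commute x y) (hxy : (orderOf x).Coprime (orderOf y))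
    (hx : x ≠ 1) (hy : y ≠ 1) : ¬ IsPrimePow (orderOf (x * y)) := by
  rw [hc.orderOf_mul_eq_mul_orderOf_of_coprime hxy]
  intro h
  obtain ⟨r, k, hr, hk, hrk⟩ := h
  have h1 : orderOf x ≠ 1 := fun h => hx (orderOf_eq_one_iff.mp h)
  have h2 : orderOf y ≠ 1 := fun h => hy (orderOf_eq_one_iff.mp h)
  obtain ⟨p, hp, hpx⟩ := Nat.exists_prime_and_dvd h1
  obtain ⟨q, hq, hqy⟩ := Nat.exists_prime_and_dvd h2
  have hr' : r.Prime := hr.nat_prime
  have h3 : p ∣ r ^ k := hrk ▸ hpx.mul_right _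
  have h4 : q ∣ r ^ k := hrk ▸ hqy.mul_left _
  have h5 := (Nat.prime_dvd_prime_iff_eq hp hr').mp (hp.dvd_of_dvd_pow h3)
  have h6 := (Nat.prime_dvd_prime_iff_eq hq hr').mp (hq.dvd_of_dvd_pow h4)
  subst h5
  subst h6
  have h7 : q ∣ Nat.gcd (orderOf x) (orderOf y) := Nat.dvd_gcd hpx hqy
  rw [hxy] at h7
  exact hp.one_lt.ne' (Nat.dvd_one.mp h7)

/-- Frattini argument, elementwise and in ambient form. -/
theorem frattini_elem {p : ℕ} [Fact p.Prime] {P N : Subgroup G} {x : G}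
    (hx : x ∈ normalizer (N : Set G)) (hP : IsSyl p P N) :
    ∃ n ∈ N, n * x ∈ normalizer (P : Set G) := by
  have h1 : IsSyl p (P.map (MulAut.conj x).toMonoidHom) N := by
    have hN : N.map (MulAut.conj x).toMonoidHom = N :=
      OddOrderLocal.PiCoreOf.mem_normalizer_iff_conj.mp hx
    refine ⟨?_, hP.isPGroup.map _, ?_⟩
    · rw [← hN]; exact Subgroup.map_mono hP.le
    · have : (P.map (MulAut.conj x).toMonoidHom).relIndex N = P.relIndex N := by
        have h2 := card_mul_relIndex hP.le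
        have h3 : P.map (MulAut.conj x).toMonoidHom ≤ N := by
          rw [← hN]; exact Subgroup.map_mono hP.le
        have h4 := card_mul_relIndex h3
        rw [Subgroup.card_map_of_injective (MulAut.conj x).injective, ← h2] at h4
        exact Nat.eq_of_mul_eq_mul_left Nat.card_pos h4
      rw [this]
      exact hP.not_dvd
  obtain ⟨n, hn', hn2⟩ := h1.exists_conj hP
  refine ⟨n, hn', ?_⟩
  rw [OddOrderLocal.PiCoreOf.mem_normalizer_iff_conj]
  rw [Subgroup.map_map] at hn2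
  have h5 : (MulAut.conj (n * x)).toMonoidHom =
      (MulAut.conj n).toMonoidHom.comp (MulAut.conj x).toMonoidHom := by
    ext y; simp [mul_assoc]
  rw [h5, hn2]

/-- `(e * x) ^ k ∈ E * x ^ k` if `x` normalises `E ∋ e`. -/
theorem exists_mul_pow {E : Subgroup G} {x e : G} (hx : x ∈ normalizer (E : Set G))
    (he : e ∈ E) (k : ℕ) : ∃ f ∈ E, (e * x) ^ k = f * x ^ k := by
  induction k with
  | zero => exact ⟨1, E.one_mem, by simp⟩
  | succ k ih =>
    obtain ⟨f, hf, hfe⟩ := ih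
    have hxk : x ^ k ∈ normalizer (E : Set G) := Subgroup.pow_mem _ hx k
    refine ⟨f * (x ^ k * e * (x ^ k)⁻¹), E.mul_mem hf ((mem_normalizer_iff.mp hxk e).mp he), ?_⟩
    rw [pow_succ, hfe, pow_succ]
    group

variable {N : Subgroup G} [N.Normal]

/-- if `x ∉ K ≥ N`, `x ^ m ∈ K` for a prime power `m = q ^ k`, then the order of `x` is a power
of `q` -/
theorem orderOf_eq_pow (h : ∀ x : G, x ∉ N → IsPrimePow (orderOf x)) {x : G} {K : Subgroup G}
    (hx : x ∉ K) (hNK : N ≤ K) {q k : ℕ} (hq : q.Prime) (hxk : x ^ (q ^ k) ∈ K) :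
    ∃ m : ℕ, orderOf x = q ^ m := by
  obtain ⟨r, n, hr, hn, hrn⟩ := h x (fun hN => hx (hNK hN))
  have hr' : r.Prime := hr.nat_prime
  by_cases hrq : r = q
  · subst hrq
    exact ⟨n, hrn.symm⟩
  · exfalso
    apply hx
    have hcop : (q ^ k).Coprime (orderOf x) := by
      rw [← hrn]
      exact Nat.Coprime.pow k n ((Nat.coprime_primes hq hr').mpr (Ne.symm hrq))
    obtain ⟨m, hm⟩ := exists_pow_eq_self_of_coprime hcop
    rw [← hm]
    exact K.pow_mem hxk m

/-- **Key lemma.** -/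
theorem card_not_dvd (h : ∀ x : G, x ∉ N → IsPrimePow (orderOf x)) {E : Subgroup G} (hNE : N ≤ E)
    (hEN : ¬ E ≤ N) (hE2 : ∀ e ∈ E, ∃ k : ℕ, e ^ (2 ^ k) ∈ N) {s : ℕ} (hs : s.Prime) (hs2 : s ≠ 2)
    {x : G} (hxE : x ∈ normalizer (E : Set G)) (hxN : x ∉ N) (hxs : x ^ s ∈ N) {r : ℕ}
    (hr : r.Prime) (hr2 : r ≠ 2) (hrs : r ≠ s) : ¬ r ∣ Nat.card N := by
  intro hd
  haveI : Fact r.Prime := ⟨hr⟩
  haveI : Fact s.Prime := ⟨hs⟩
  haveI : Fact (Nat.Prime 2) := ⟨Nat.prime_two⟩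
  have hNnorm : ∀ g : G, g ∈ normalizer (N : Set G) := fun g => by
    rw [Subgroup.normalizer_eq_top]; trivial
  -- `x ∉ E`
  have hxE' : x ∉ E := by
    intro hx
    obtain ⟨k, hk⟩ := hE2 x hx
    obtain ⟨m, hm⟩ := orderOf_eq_pow h hxN le_rfl (k := 1) hs (by rwa [pow_one])
    obtain ⟨m', hm'⟩ := orderOf_eq_pow h hxN le_rfl Nat.prime_two hk
    have hne : orderOf x ≠ 1 := fun h1 => hxN (by rw [orderOf_eq_one_iff.mp h1]; exact N.one_mem)
    have hm0 : m ≠ 0 := by
      rintro rfl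
      exact hne (by simpa using hm)
    have h1 : s ∣ 2 ^ m' := by
      rw [← hm', hm]
      exact dvd_pow_self s hm0
    exact hs2 ((Nat.prime_dvd_prime_iff_eq hs Nat.prime_two).mp (hs.dvd_of_dvd_pow h1))
  obtain ⟨R, hR⟩ := exists_isSyl r N
  -- a nontrivial element of `R`
  have hRne : ∃ ρ ∈ R, ρ ≠ 1 := by
    by_contra hcon
    push_neg at hcon
    have hRb : R = ⊥ := by
      rw [eq_bot_iff]
      intro y hy
      exact Subgroup.mem_bot.mpr (hcon y hy)
    apply hR.not_dvd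
    rw [hRb, Subgroup.relIndex_bot_left]
    exact hd
  obtain ⟨ρ, hρR, hρ1⟩ := hRne
  obtain ⟨n, hn, hnx⟩ := frattini_elem (hNnorm x) hR
  set E1 : Subgroup G := E ⊓ normalizer (R : Set G) with hE1
  -- the element `x1 = n x`
  have hx1E : n * x ∈ normalizer (E : Set G) :=
    Subgroup.mul_mem _ (le_normalizer (hNE hn)) hxE
  have hx1E1 : n * x ∈ normalizer (E1 : Set G) := by
    rw [mem_normalizer_iff]
    intro y
    have h1 := mem_normalizer_iff.mp hx1E y
    constructor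
    · rintro ⟨hy1, hy2⟩
      refine ⟨h1.mp hy1, ?_⟩
      exact Subgroup.mul_mem _ (Subgroup.mul_mem _ hnx hy2) (Subgroup.inv_mem _ hnx)
    · rintro ⟨hy1, hy2⟩
      refine ⟨h1.mpr hy1, ?_⟩
      have h2 := Subgroup.mul_mem _ (Subgroup.mul_mem _ (Subgroup.inv_mem _ hnx) hy2) hnx
      have h3 : (n * x)⁻¹ * (n * x * y * (n * x)⁻¹) * (n * x) = y := by group
      rwa [h3] at h2
  obtain ⟨U, hU⟩ := exists_isSyl 2 E1
  -- an element of `U` outside `N`
  have hUne : ∃ u ∈ U, u ∉ N := by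
    obtain ⟨e, heE, heN⟩ := SetLike.not_le_iff_exists.mp hEN
    obtain ⟨n1, hn1, hne1⟩ := frattini_elem (hNnorm e) hR
    have he1 : n1 * e ∈ E1 := ⟨E.mul_mem (hNE hn1) heE, hne1⟩
    have he1N : n1 * e ∉ N := by
      intro h1
      apply heN
      have h2 := N.mul_mem (N.inv_mem hn1) h1
      rwa [inv_mul_cancel_left] at h2
    obtain ⟨k, hk⟩ := hE2 _ he1.1
    obtain ⟨m, hm⟩ := orderOf_eq_pow h he1N le_rfl Nat.prime_two hk
    have h2g : IsPGroup 2 (zpowers (n1 * e)) := by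
      rw [IsPGroup.iff_card, Nat.card_zpowers]
      exact ⟨m, hm⟩
    obtain ⟨g, hg, hgU⟩ := hU.exists_conj_le ((zpowers_le (H := E1)).mpr he1) h2g
    refine ⟨g * (n1 * e) * g⁻¹, hgU ⟨n1 * e, mem_zpowers _, rfl⟩, ?_⟩
    intro h1
    apply he1N
    have h2 := (inferInstance : N.Normal).conj_mem _ h1 g⁻¹
    have h3 : g⁻¹ * (g * (n1 * e) * g⁻¹) * g⁻¹⁻¹ = n1 * e := by group
    rwa [h3] at h2
  obtain ⟨u, huU, huN⟩ := hUne
  obtain ⟨e, he, hex⟩ := frattini_elem hx1E1 hU
  set z : G := e * (n * x) with hz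
  have hzR : z ∈ normalizer (R : Set G) := Subgroup.mul_mem _ he.2 hnx
  have hzE : z ∉ E := by
    intro h1
    apply hxE'
    have h2 := E.mul_mem (E.inv_mem (E.mul_mem he.1 (hNE hn))) h1
    have h3 : (e * n)⁻¹ * z = x := by rw [hz]; group
    rwa [h3] at h2
  have hzN : z ∉ N := fun h1 => hzE (hNE h1)
  have hzs : z ^ s ∈ E := by
    have h1 : z = (e * n) * x := by rw [hz]; group
    obtain ⟨f, hf, hfe⟩ := exists_mul_pow hxE (E.mul_mem he.1 (hNE hn)) s
    rw [h1, hfe]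
    exact E.mul_mem hf (hNE hxs)
  obtain ⟨m, hm⟩ := orderOf_eq_pow h hzE hNE (k := 1) hs (by rwa [pow_one])
  set w : G := z ^ s with hw
  have hwdvd : orderOf w ∣ s ^ m := by
    rw [← hm]
    exact orderOf_pow_dvd s
  have hwN : w ∈ N := by
    obtain ⟨k, hk⟩ := hE2 w hzs
    have hcop : (2 ^ k).Coprime (orderOf w) := by
      apply Nat.Coprime.coprime_dvd_right hwdvd
      exact Nat.Coprime.pow k m ((Nat.coprime_primes Nat.prime_two hs).mpr (Ne.symm hs2))
    obtain ⟨j, hj⟩ := exists_pow_eq_self_of_coprime hcop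
    rw [← hj]
    exact N.pow_mem hk j
  have hwU : w ∈ normalizer (U : Set G) := Subgroup.pow_mem _ hex s
  have hwP : IsPGroup s (zpowers w) := by
    rw [IsPGroup.iff_card, Nat.card_zpowers]
    obtain ⟨j, -, hj⟩ := (Nat.dvd_prime_pow hs).mp hwdvd
    exact ⟨j, hj⟩
  -- an element `y ∈ U \ N` commuting with `w`
  obtain ⟨y, hyU, hyN, hyw⟩ : ∃ y ∈ U, y ∉ N ∧ y * w = w * y := by
    have hUN2 : ¬ s ∣ Nat.card (U ⊓ N : Subgroup G) := by
      intro h1
      have h2 : IsPGroup 2 (U ⊓ N : Subgroup G) := hU.isPGroup.to_le inf_le_left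
      obtain ⟨k, hk⟩ := IsPGroup.iff_card.mp h2
      rw [hk] at h1
      exact hs2 ((Nat.prime_dvd_prime_iff_eq hs Nat.prime_two).mp (hs.dvd_of_dvd_pow h1))
    have hnorm : zpowers w ≤ normalizer ((U ⊓ N : Subgroup G) : Set G) := by
      rw [zpowers_le, mem_normalizer_iff]
      intro y
      have h1 := mem_normalizer_iff.mp hwU y
      have h2 := mem_normalizer_iff.mp (hNnorm w) y
      exact ⟨fun hy => ⟨h1.mp hy.1, h2.mp hy.2⟩, fun hy => ⟨h1.mpr hy.1, h2.mpr hy.2⟩⟩
    obtain ⟨c, hc1, hc2⟩ := Lib.CoprimeCommutator.exists_fixed_in_coset s (zpowers w) (U ⊓ N) hwP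
      hnorm hUN2 u (by
        intro a ha
        have haU : a ∈ normalizer (U : Set G) := (zpowers_le (H := normalizer (U : Set G))).mpr hwU ha
        have haN : a ∈ N := (zpowers_le (H := N)).mpr hwN ha
        refine ⟨U.mul_mem (U.inv_mem huU) ((mem_normalizer_iff.mp haU u).mp huU), ?_⟩
        have h1 : u⁻¹ * (a * u * a⁻¹) = (u⁻¹ * a * u⁻¹⁻¹) * a⁻¹ := by group
        rw [h1]
        exact N.mul_mem ((inferInstance : N.Normal).conj_mem a haN u⁻¹) (N.inv_mem haN))
    refine ⟨c, ?_, ?_, ?_⟩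
    · have h1 := U.mul_mem huU hc2.1
      rwa [mul_inv_cancel_left] at h1
    · intro h1
      apply huN
      have h2 := N.mul_mem h1 (N.inv_mem hc2.2)
      have h3 : c * (u⁻¹ * c)⁻¹ = u := by group
      rwa [h3] at h2
    · exact ((mem_centralizer_iff.mp hc1) w (mem_zpowers w)).symm
  have hU2 : ∀ y ∈ U, ∃ k : ℕ, orderOf y = 2 ^ k := by
    intro y hy
    have h1 := hU.isPGroup.exists_card_eq (p := 2)
    obtain ⟨k, hk⟩ := h1
    have h2 : orderOf y ∣ 2 ^ k := by
      rw [← hk]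
      exact Subgroup.orderOf_dvd_natCard U hy
    obtain ⟨j, -, hj⟩ := (Nat.dvd_prime_pow Nat.prime_two).mp h2
    exact ⟨j, hj⟩
  have hy1 : y ≠ 1 := fun h1 => hyN (h1 ▸ N.one_mem)
  obtain ⟨k, hk⟩ := hU2 y hyU
  -- hence `w = 1`
  have hw1 : w = 1 := by
    by_contra hw1
    have hcop : (orderOf y).Coprime (orderOf w) := by
      rw [hk]
      apply Nat.Coprime.coprime_dvd_right hwdvd
      exact Nat.Coprime.pow k m ((Nat.coprime_primes Nat.prime_two hs).mpr (Ne.symm hs2))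
    refine not_isPrimePow_orderOf hyw hcop hy1 hw1 (h _ ?_)
    intro h1
    apply hyN
    have h2 := N.mul_mem h1 (N.inv_mem hwN)
    rwa [mul_inv_cancel_right] at h2
  -- `R U` is a group
  have hUR : U ≤ normalizer (R : Set G) := hU.le.trans inf_le_right
  obtain ⟨a, ha⟩ := IsPGroup.iff_card.mp hR.isPGroup
  obtain ⟨b, hb⟩ := IsPGroup.iff_card.mp hU.isPGroup
  have hcard : Nat.card (U ⊔ R : Subgroup G) ∣ 2 ^ b * r ^ a := by
    rw [← ha, ← hb]
    exact OddOrderLocal.PiCoreOf.card_sup_dvd_of_le_normalizer hUR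
  have hsolv : Group.IsSolvable (U ⊔ R : Subgroup G) :=
    GH.C2SevenTop.solvable_of_dvd Nat.prime_two hr hcard
  have hzUR : z ∈ normalizer ((U ⊔ R : Subgroup G) : Set G) :=
    Subgroup.normalizer_inf_normalizer_le_normalizer_sup U R ⟨hex, hzR⟩
  have hcopc : ∀ c ∈ U ⊔ R, (orderOf z).Coprime (orderOf c) := by
    intro c hc
    rw [hm]
    apply Nat.Coprime.coprime_dvd_right ((Subgroup.orderOf_dvd_natCard _ hc).trans hcard)
    apply Nat.Coprime.mul_right
    · exact Nat.Coprime.pow m b ((Nat.coprime_primes hs Nat.prime_two).mpr hs2)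
    · exact Nat.Coprime.pow m a ((Nat.coprime_primes hs hr).mpr (Ne.symm hrs))
  have hURE : U ⊔ R ≤ E := sup_le (hU.le.trans inf_le_left) (hR.le.trans hNE)
  have hz1 : z ≠ 1 := fun h1 => hzN (h1 ▸ N.one_mem)
  have hnil : Group.IsNilpotent (U ⊔ R : Subgroup G) := by
    refine OddOrderLocal.FpfSolvable.isNilpotent_of_fpf_elem (U ⊔ R) hsolv z hzUR hs hw1 ?_
    intro c hc hzc
    by_contra hc1
    refine not_isPrimePow_orderOf hzc (hcopc c hc) hz1 hc1 (h _ ?_)
    intro h1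
    apply hzE
    have h2 := E.mul_mem (hNE h1) (E.inv_mem (hURE hc))
    rwa [mul_inv_cancel_right] at h2
  -- contradiction
  have hρord : ∃ j : ℕ, orderOf ρ = r ^ j := by
    have h2 : orderOf ρ ∣ r ^ a := by
      rw [← ha]
      exact Subgroup.orderOf_dvd_natCard R hρR
    obtain ⟨j, -, hj⟩ := (Nat.dvd_prime_pow hr).mp h2
    exact ⟨j, hj⟩
  obtain ⟨j, hj⟩ := hρord
  have hcop : (orderOf y).Coprime (orderOf ρ) := by
    rw [hk, hj]
    exact Nat.Coprime.pow k j ((Nat.coprime_primes Nat.prime_two hr).mpr (Ne.symm hr2))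
  have hcomm : Commute y ρ :=
    OddOrderLocal.CNBasic.commute_of_mem_of_coprime hnil (Subgroup.mem_sup_left hyU)
      (Subgroup.mem_sup_right hρR) hcop
  refine not_isPrimePow_orderOf hcomm hcop hy1 hρ1 (h _ ?_)
  intro h1
  apply hyN
  have h2 := N.mul_mem h1 (N.inv_mem (hR.le hρR))
  rwa [mul_inv_cancel_right] at h2

end Cfsg.Agent.H35.PPOut
end

-- part: S3901
section
set_option autoImplicit false
open Cfsg

namespace Cfsg.Agent.S3901

/-- Let N be a non-trivial normal subgroup of the finite group G such that every element of G outside N has prime power order. If N is not solvable, then G/N is solvable. -/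
theorem result {G : Type*} [Group G] [Finite G] (N : Subgroup G) [N.Normal] (hN : N ≠ ⊥) (hns : ¬ Group.IsSolvable ↥N)
    (h : ∀ x : G, x ∉ N → IsPrimePow (orderOf x)) : Group.IsSolvable (G ⧸ N) := by
  classical
  by_contra hQ
  haveI : Fact (Nat.Prime 2) := ⟨Nat.prime_two⟩
  -- `G ⧸ N` has no normal 2-complement
  have hno : ∃ D : Subgroup (G ⧸ N), IsPGroup 2 D ∧ ∃ g ∈ Subgroup.normalizer (D : Set (G ⧸ N)),
      Nat.Coprime (orderOf g) 2 ∧ g ∉ Subgroup.centralizer (D : Set (G ⧸ N)) := by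
    by_contra hcon
    push Not at hcon
    apply hQ
    let P : Sylow 2 (G ⧸ N) := default
    obtain ⟨M, hM, hMP⟩ := (S0071.result P).mpr (fun D hD g hg hg2 =>
      hcon D (P.isPGroup'.to_le hD) g hg hg2)
    rw [Group.isSolvable_iff_subgroup_quotient M]
    constructor
    · apply S0205.result
      rw [← Nat.not_even_iff_odd, even_iff_two_dvd]
      intro h2
      apply P.not_dvd_index
      rwa [hMP.index_eq_card]
    · have h1 : IsPGroup 2 ((G ⧸ N) ⧸ M) :=
        P.isPGroup'.of_equiv (hMP.symm.QuotientMulEquiv).symm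
      have h2 : Group.IsNilpotent ((G ⧸ N) ⧸ M) := h1.isNilpotent
      infer_instance
  obtain ⟨D, hD, g, hg, hg2, hgD⟩ := hno
  have hg1 : g ≠ 1 := fun h1 => hgD (h1 ▸ Subgroup.one_mem _)
  obtain ⟨x0, rfl⟩ := QuotientGroup.mk'_surjective N g
  have hx0 : x0 ∉ N := by
    intro h1
    apply hg1
    rwa [QuotientGroup.mk'_apply, QuotientGroup.eq_one_iff]
  obtain ⟨s, n, hs, hn, hsn⟩ := h x0 hx0
  have hs' : s.Prime := hs.nat_prime
  have hdvd : orderOf (QuotientGroup.mk' N x0) ∣ s ^ n := by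
    rw [hsn]
    exact orderOf_map_dvd _ _
  obtain ⟨j, -, hj⟩ := (Nat.dvd_prime_pow hs').mp hdvd
  have hj0 : j ≠ 0 := by
    rintro rfl
    exact hg1 (orderOf_eq_one_iff.mp (by simpa using hj))
  have hs2 : s ≠ 2 := by
    rintro rfl
    rw [hj] at hg2
    have h1 : 2 ∣ Nat.gcd (2 ^ j) 2 := Nat.dvd_gcd (dvd_pow_self 2 hj0) dvd_rfl
    rw [hg2] at h1
    omega
  obtain ⟨i, rfl⟩ := Nat.exists_eq_succ_of_ne_zero hj0
  set E : Subgroup G := D.comap (QuotientGroup.mk' N) with hE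
  have hNE : N ≤ E := by
    intro y hy
    rw [hE, Subgroup.mem_comap, QuotientGroup.mk'_apply, (QuotientGroup.eq_one_iff y).mpr hy]
    exact D.one_mem
  have hEN : ¬ E ≤ N := by
    intro h1
    apply hgD
    have hDb : ∀ d ∈ D, d = 1 := by
      intro d hd
      obtain ⟨e, rfl⟩ := QuotientGroup.mk'_surjective N d
      have he : e ∈ N := h1 (Subgroup.mem_comap.mpr hd)
      rwa [QuotientGroup.mk'_apply, QuotientGroup.eq_one_iff]
    rw [Subgroup.mem_centralizer_iff]
    intro d hd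
    rw [hDb d hd, one_mul, mul_one]
  have hE2 : ∀ e ∈ E, ∃ k : ℕ, e ^ (2 ^ k) ∈ N := by
    intro e he
    obtain ⟨k, hk⟩ := hD ⟨_, he⟩
    refine ⟨k, ?_⟩
    have h1 : (QuotientGroup.mk' N e) ^ (2 ^ k) = 1 := congrArg Subtype.val hk
    rwa [← map_pow, QuotientGroup.mk'_apply, QuotientGroup.eq_one_iff] at h1
  have hx0E : x0 ∈ Subgroup.normalizer (E : Set G) := by
    rw [Subgroup.mem_normalizer_iff] at hg ⊢
    intro y
    have h1 := hg (QuotientGroup.mk' N y)
    rw [← map_mul, ← map_inv, ← map_mul] at h1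
    exact h1
  have hxE : x0 ^ (s ^ i) ∈ Subgroup.normalizer (E : Set G) := Subgroup.pow_mem _ hx0E _
  have hxN : x0 ^ (s ^ i) ∉ N := by
    intro h1
    rw [← QuotientGroup.eq_one_iff, ← QuotientGroup.mk'_apply, map_pow] at h1
    have h2 := orderOf_dvd_of_pow_eq_one h1
    rw [hj] at h2
    exact absurd (Nat.le_of_dvd (pow_pos hs'.pos i) h2)
      (not_le.mpr (Nat.pow_lt_pow_right hs'.one_lt (Nat.lt_succ_self i)))
  have hxs : (x0 ^ (s ^ i)) ^ s ∈ N := by
    rw [← QuotientGroup.eq_one_iff, ← QuotientGroup.mk'_apply, map_pow, map_pow, ← pow_mul,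
      ← pow_succ, ← hj, pow_orderOf_eq_one]
  have key : ∀ r : ℕ, r.Prime → r ≠ 2 → r ≠ s → ¬ r ∣ Nat.card N := fun r hr hr2 hrs =>
    H35.PPOut.card_not_dvd h hNE hEN hE2 hs' hs2 hxE hxN hxs hr hr2 hrs
  apply hns
  have hpos : Nat.card N ≠ 0 := Nat.card_pos.ne'
  have h1 : Nat.card N = 2 ^ (Nat.card N).factorization 2 *
      (Nat.card N / 2 ^ (Nat.card N).factorization 2) :=
    (Nat.ordProj_mul_ordCompl_eq_self _ _).symm
  have h3 : Nat.card N / 2 ^ (Nat.card N).factorization 2 ≠ 0 :=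
    (Nat.ordCompl_pos 2 hpos).ne'
  have h2 := Nat.eq_prime_pow_of_unique_prime_dvd (p := s) h3 (by
    intro d hd hdd
    by_contra hds
    have hd2 : d ≠ 2 := by
      rintro rfl
      exact Nat.not_dvd_ordCompl Nat.prime_two hpos hdd
    exact key d hd hd2 hds (hdd.trans (Nat.ordCompl_dvd _ _)))
  refine GH.C2SevenTop.solvable_of_dvd Nat.prime_two hs'
    (a := (Nat.card N).factorization 2)
    (b := (Nat.card N / 2 ^ (Nat.card N).factorization 2).primeFactorsList.length) ?_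
  rw [← h2, ← h1]

end Cfsg.Agent.S3901
end
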