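import Mathlib
import Cfsg.Agent.H477.QuotAll
import Cfsg.Agent.H477.FieldLemma
import Cfsg.Agent.S0001
import Cfsg.Agent.S0003
import Cfsg.Statements.S3913
set_option linter.all false

-- part: H477/SylowStruct
section
/-!
Sylow subgroups of solvable B-groups are cyclic, elementary abelian, or quaternion of order 8.
-/

set_option autoImplicit false

namespace Cfsg.Agent.H477

open Subgroup

/-- The properties of the quaternion group of order 8 that we use. -/
structure IsQ8 (S : Type*) [Group S] : Prop where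
  card : Nat.card S = 8
  noncomm : ¬ ∀ x y : S, x * y = y * x
  sq : ∀ x y : S, x ^ 2 = 1 → x * y = y * x
  four : ∀ x : S, x ^ 4 = 1
  inv : ∀ x y : S, x ^ 2 = 1 → y ^ 2 = 1 → x = 1 ∨ y = 1 ∨ x = y

theorem IsQ8.of_mulEquiv {S T : Type*} [Group S] [Group T] (e : S ≃* T) (h : IsQ8 S) : IsQ8 T := by
  refine ⟨by rw [← Nat.card_congr e.toEquiv, h.card], ?_, ?_, ?_, ?_⟩
  · intro hT
    apply h.noncomm
    intro x y
    apply e.injective
    rw [map_mul, map_mul]
    exact hT _ _
  · intro x y hx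
    apply e.symm.injective
    rw [map_mul, map_mul]
    apply h.sq
    rw [← map_pow, hx, map_one]
  · intro x
    apply e.symm.injective
    rw [map_pow, map_one]
    exact h.four _
  · intro x y hx hy
    have hx' : (e.symm x) ^ 2 = 1 := by rw [← map_pow, hx, map_one]
    have hy' : (e.symm y) ^ 2 = 1 := by rw [← map_pow, hy, map_one]
    rcases h.inv _ _ hx' hy' with h1 | h1 | h1
    · left; exact e.symm.injective (by rw [h1, map_one])
    · right; left; exact e.symm.injective (by rw [h1, map_one])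
    · right; right; exact e.symm.injective h1

theorem isQ8_quaternionGroup_two : IsQ8 (QuaternionGroup 2) := by
  refine ⟨?_, ?_, ?_, ?_, ?_⟩
  · rw [Nat.card_eq_fintype_card, QuaternionGroup.card]
  · decide
  · decide
  · decide
  · decide

variable {G : Type*} [Group G] [Finite G]

/-- The three possibilities for a Sylow subgroup. -/
def SylowCases (p : ℕ) (S : Type*) [Group S] : Prop :=
  IsCyclic S ∨ ((∀ x y : S, x * y = y * x) ∧ ∀ x : S, x ^ p = 1) ∨ (p = 2 ∧ IsQ8 S)

theorem SylowCases.of_mulEquiv {p : ℕ} {S T : Type*} [Group S] [Group T] (e : S ≃* T)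
    (h : SylowCases p S) : SylowCases p T := by
  rcases h with h | ⟨h1, h2⟩ | ⟨h1, h2⟩
  · exact Or.inl (isCyclic_of_surjective e e.surjective)
  · refine Or.inr (Or.inl ⟨fun x y => ?_, fun x => ?_⟩)
    · apply e.symm.injective
      rw [map_mul, map_mul]
      exact h1 _ _
    · apply e.symm.injective
      rw [map_pow, map_one]
      exact h2 _
  · exact Or.inr (Or.inr ⟨h1, h2.of_mulEquiv e⟩)

theorem IsB.sylow_cases_aux (n : ℕ) : ∀ (G : Type*) [Group G] [Finite G], Nat.card G = n →
    Group.IsSolvable G → IsB G → ∀ (p : ℕ) [Fact p.Prime] (P : Sylow p G),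
      SylowCases p ↥(P : Subgroup G) := by
  induction n using Nat.strong_induction_on with
  | _ n ih =>
  intro G _ _ hn hs hB p hp P
  by_cases htop : (⊤ : Subgroup G) = ⊥
  · left
    have h1 : Subsingleton G := Subgroup.subsingleton_iff.mp (subsingleton_of_bot_eq_top htop.symm)
    exact isCyclic_of_subsingleton
  obtain ⟨M, q, hMn, -, hne, hq, hMc, hMq⟩ := exists_elem_normal (⊤ : Subgroup G) htop
  obtain ⟨t, ht⟩ := card_eq_pow_of_exponent hq hMq
  have : Fact q.Prime := ⟨hq⟩
  by_cases hqp : q = p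
  · subst hqp
    rcases Nat.lt_or_ge t 2 with h | h
    · interval_cases t
      · exfalso
        rw [pow_zero] at ht
        exact hne (Subgroup.card_eq_one.mp ht)
      · rw [pow_one] at ht
        rcases pgroup_cases P.isPGroup' (hB.unique_in ht (P : Subgroup G)) with h1 | ⟨h1, m, hm, ⟨e⟩⟩
        · exact Or.inl h1
        · subst h1
          have hm1 := hB.quaternion_sylow P hm e
          subst hm1
          refine Or.inr (Or.inr ⟨rfl, ?_⟩)
          exact IsQ8.of_mulEquiv e.symm isQ8_quaternionGroup_two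
    · right; left
      have hPM := hB.eq_sylow h ht hMc hMq P
      rw [hPM]
      refine ⟨fun x y => ?_, fun x => ?_⟩
      · exact Subtype.ext (isMulCommutative_iff.mp hMc x x.2 y y.2)
      · exact Subtype.ext (hMq x x.2)
  · have hlt : Nat.card (G ⧸ M) < n := by
      rw [← hn, ← Subgroup.index_eq_card, ← M.index_mul_card]
      apply lt_mul_of_one_lt_right
      · exact Nat.pos_of_ne_zero Subgroup.index_ne_zero_of_finite
      · exact (Subgroup.one_lt_card_iff_ne_bot _).mpr hne
    have hIH := ih _ hlt (G ⧸ M) rfl inferInstance (hB.quot_of_solvable M hs) p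
      (P.mapSurjective (QuotientGroup.mk'_surjective M))
    have hdisj : Disjoint (P : Subgroup G) M := by
      apply Subgroup.disjoint_of_coprime_natCard
      rw [ht]
      apply Nat.Coprime.pow_right
      obtain ⟨k, hk⟩ := IsPGroup.iff_card.mp P.isPGroup'
      rw [hk]
      apply Nat.Coprime.pow_left
      exact (Nat.coprime_primes hp.out hq).mpr (Ne.symm hqp)
    let f : ↥(P : Subgroup G) →* G ⧸ M := (QuotientGroup.mk' M).comp (P : Subgroup G).subtype
    have hf : Function.Injective f := by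
      rw [injective_iff_map_eq_one]
      intro x hx
      have h1 : (x : G) ∈ M := by
        rw [← QuotientGroup.ker_mk' M, MonoidHom.mem_ker]
        exact hx
      exact Subtype.ext (Subgroup.disjoint_def.mp hdisj x.2 h1)
    have hrange : f.range = ((P.mapSurjective (QuotientGroup.mk'_surjective M) :
        Sylow p (G ⧸ M)) : Subgroup (G ⧸ M)) := by
      rw [MonoidHom.range_comp, Subgroup.range_subtype]
      rfl
    have e : ↥(P : Subgroup G) ≃* ↥f.range := MonoidHom.ofInjective hf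
    rw [← hrange] at hIH
    exact hIH.of_mulEquiv e.symm

theorem IsB.sylow_cases [hs : Group.IsSolvable G] (hB : IsB G) (p : ℕ) [Fact p.Prime]
    (P : Sylow p G) : SylowCases p ↥(P : Subgroup G) :=
  IsB.sylow_cases_aux _ G rfl hs hB p P

end Cfsg.Agent.H477
end

-- part: H477/ActB
section
/-!
A solvable B-group acting faithfully and line-transitively has cyclic Sylow subgroups, or a normal
quaternion Sylow 2-subgroup.
-/

set_option autoImplicit false

namespace Cfsg.Agent.H477

open Subgroup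

section Q8
variable {Γ : Type*} [Group Γ] [Finite Γ]

omit [Finite Γ] in
theorem isMulCommutative_of_subtype {S : Subgroup Γ} (h : ∀ x y : ↥S, x * y = y * x) :
    IsMulCommutative ↥S := ⟨⟨h⟩⟩

/-- A noncommutative subgroup of a quaternion group of order 8 is the whole group. -/
theorem IsQ8.eq_of_noncomm {R S : Subgroup Γ} (hR : IsQ8 ↥R) (hSR : S ≤ R)
    (hS : ¬ IsMulCommutative ↥S) : S = R := by
  apply Subgroup.eq_of_le_of_card_ge hSR
  rw [hR.card]
  have h1 := Subgroup.card_dvd_of_le hSR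
  rw [hR.card] at h1
  have h2 : Nat.card ↥S ∈ Nat.divisors 8 := Nat.mem_divisors.mpr ⟨h1, by norm_num⟩
  have h3 : Nat.divisors 8 = {1, 2, 4, 8} := by decide
  rw [h3] at h2
  simp only [Finset.mem_insert, Finset.mem_singleton] at h2
  rcases h2 with h | h | h | h
  · exfalso
    apply hS
    rw [Subgroup.card_eq_one] at h
    rw [h]
    infer_instance
  · exfalso
    have : Fact (Nat.Prime 2) := ⟨Nat.prime_two⟩
    exact hS (isMulCommutative_of_card_prime h)
  · exfalso
    have : Fact (Nat.Prime 2) := ⟨Nat.prime_two⟩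
    have h4 : Nat.card ↥S = 2 ^ 2 := by rw [h]; norm_num
    exact hS ⟨⟨(IsPGroup.isMulCommutative_of_card_eq_prime_sq h4).is_comm.comm⟩⟩
  · rw [h]

omit [Finite Γ] in
/-- A quaternion group of order 8 has an element of order 4. -/
theorem IsQ8.exists_four {S : Subgroup Γ} (hS : IsQ8 ↥S) : ∃ u ∈ S, orderOf u = 4 := by
  by_contra hcon
  push Not at hcon
  apply hS.noncomm
  intro x y
  apply hS.sq
  have h4 := hS.four x
  have h5 : orderOf x ∣ 4 := orderOf_dvd_of_pow_eq_one h4
  have h6 : orderOf x ≠ 4 := by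
    have := hcon x x.2
    rwa [Subgroup.orderOf_coe] at this
  have h7 : orderOf x ∣ 2 := by
    have h8 : orderOf x ∈ Nat.divisors 4 := Nat.mem_divisors.mpr ⟨h5, by norm_num⟩
    have h9 : Nat.divisors 4 = {1, 2, 4} := by decide
    rw [h9] at h8
    simp only [Finset.mem_insert, Finset.mem_singleton] at h8
    rcases h8 with h | h | h
    · rw [h]; norm_num
    · rw [h]
    · exact absurd h h6
  exact orderOf_dvd_iff_pow_eq_one.mp h7

omit [Finite Γ] in
/-- An element of odd order normalising a quaternion group of order 8 and centralising an element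
of order 4 centralises the group. -/
theorem IsQ8.centralizes {S : Subgroup Γ} [hSn : S.Normal] (hS : IsQ8 ↥S) {u w : Γ} (hu : u ∈ S)
    (hu4 : orderOf u = 4) (hw : w * u = u * w) {r : ℕ} (hr : Nat.Coprime r 4) (hwr : w ^ r = 1) :
    ∀ s ∈ S, w * s = s * w := by
  have hfinS : Finite ↥S := Nat.finite_of_card_ne_zero (by rw [hS.card]; norm_num)
  let U : Subgroup ↥S := Subgroup.zpowers ⟨u, hu⟩
  have hUcard : Nat.card ↥U = 4 := by
    rw [Nat.card_zpowers, Subgroup.orderOf_mk, hu4]
  have hUi : U.index = 2 := by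
    have h1 := U.card_mul_index
    rw [hUcard, hS.card] at h1
    omega
  have hUw : ∀ x : ↥S, x ∈ U → w * x = x * w := by
    intro x hx
    obtain ⟨k, hk⟩ := Subgroup.mem_zpowers_iff.mp hx
    rw [← hk]
    have : Commute w u := hw
    have h2 := this.zpow_right k
    rw [Subgroup.coe_zpow]
    exact h2.eq
  intro s hs
  have hφ : w * s * w⁻¹ ∈ S := hSn.conj_mem s hs w
  set c := s⁻¹ * (w * s * w⁻¹) with hc
  have hcS : c ∈ S := S.mul_mem (S.inv_mem hs) hφ
  have hcU : (⟨c, hcS⟩ : ↥S) ∈ U := by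
    have h1 : (⟨c, hcS⟩ : ↥S) = (⟨s, hs⟩ : ↥S)⁻¹ * ⟨w * s * w⁻¹, hφ⟩ := rfl
    rw [h1, Subgroup.mul_mem_iff_of_index_two hUi, inv_mem_iff]
    constructor
    · intro h2
      have h3 := hUw _ h2
      have h4 : w * s * w⁻¹ = s := by
        rw [mul_inv_eq_iff_eq_mul]; exact h3
      simp only [h4]
      exact h2
    · intro h2
      have h3 := hUw _ h2
      simp only at h3
      -- w * (w s w⁻¹) = (w s w⁻¹) * w = w s
      have h4 : w * s * w⁻¹ * w = w * s := by group
      rw [h4] at h3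
      have h5 : w * s * w⁻¹ = s := mul_left_cancel h3
      simp only [h5] at h2
      exact h2
  have hcw : w * c = c * w := hUw _ hcU
  have hc4 : c ^ 4 = 1 := by
    have := hS.four ⟨c, hcS⟩
    exact congrArg Subtype.val this
  have hpow : ∀ n : ℕ, w ^ n * s * (w ^ n)⁻¹ = s * c ^ n := by
    intro n
    induction n with
    | zero => simp
    | succ n ih =>
      have hcn : w * c ^ n * w⁻¹ = c ^ n := by
        rw [mul_inv_eq_iff_eq_mul]
        exact ((show Commute w c from hcw).pow_right n).eq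
      calc w ^ (n + 1) * s * (w ^ (n + 1))⁻¹ = w * (w ^ n * s * (w ^ n)⁻¹) * w⁻¹ := by
            rw [pow_succ' w n, mul_inv_rev]; simp only [mul_assoc]
        _ = w * (s * c ^ n) * w⁻¹ := by rw [ih]
        _ = (w * s * w⁻¹) * (w * c ^ n * w⁻¹) := by group
        _ = (s * c) * c ^ n := by rw [hcn, hc]; group
        _ = s * c ^ (n + 1) := by rw [pow_succ' c n, mul_assoc]
  have h1 := hpow r
  rw [hwr, inv_one, one_mul, mul_one] at h1
  have hcr : c ^ r = 1 := by
    have := mul_left_cancel ((mul_one s).trans h1)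
    exact this.symm
  have hc1 := eq_one_of_pow_coprime hr hcr hc4
  rw [hc1] at hc
  have : w * s * w⁻¹ = s := by
    have h2 := congrArg (fun x => s * x) hc
    simp only [mul_one, mul_inv_cancel_left] at h2
    exact h2.symm
  rwa [mul_inv_eq_iff_eq_mul] at this

end Q8

section Lemmas
variable {Γ : Type*} [Group Γ] [Finite Γ]

/-- Lemma X: above a maximal normal abelian subgroup there is a normal nonabelian `q`-subgroup. -/
theorem exists_normal_noncomm [Group.IsSolvable Γ] {A E : Subgroup Γ} [hAn : A.Normal] [hEn : E.Normal]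
    (hAc : IsMulCommutative ↥A)
    (hmax : ∀ B : Subgroup Γ, B.Normal → IsMulCommutative ↥B → A ≤ B → B = A)
    (hAE : A < E) (hE : E ≤ centralizer (A : Set Γ)) :
    ∃ (S : Subgroup Γ) (q : ℕ), S ≤ E ∧ S.Normal ∧ q.Prime ∧ IsPGroup q ↥S ∧ ¬ IsMulCommutative ↥S := by
  set π := QuotientGroup.mk' A with hπ
  have hπs : Function.Surjective π := QuotientGroup.mk'_surjective A
  have hker : π.ker = A := QuotientGroup.ker_mk' A
  have hEmn : (E.map π).Normal := hEn.map π hπs
  have hEne : E.map π ≠ ⊥ := by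
    intro h
    rw [Subgroup.map_eq_bot_iff, hker] at h
    exact hAE.not_ge h
  obtain ⟨Bb, q, hBn, hBE, hBne, hq, hBc, hBq⟩ := exists_elem_normal (E.map π) hEne
  have : Fact q.Prime := ⟨hq⟩
  set B := Bb.comap π with hB
  have hBnorm : B.Normal := inferInstance
  have hAB : A ≤ B := by
    have := MonoidHom.ker_le_comap π Bb
    rwa [hker] at this
  have hBE' : B ≤ E := by
    have h1 := Subgroup.comap_mono (f := π) hBE
    rwa [Subgroup.comap_map_eq, hker, sup_of_le_left hAE.le] at h1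
  have hABlt : A ≠ B := by
    intro h
    apply hBne
    rw [← Subgroup.map_comap_eq_self_of_surjective hπs Bb, ← hB, ← h]
    exact (Subgroup.map_eq_bot_iff _).mpr hker.ge
  -- every element of `B` has a `q`-th power in `A`
  have hBA : ∀ b ∈ B, b ^ q ∈ A := by
    intro b hb
    have h1 := hBq _ hb
    rw [← map_pow, ← MonoidHom.mem_ker, hker] at h1
    exact h1
  have hBcent : ∀ b ∈ B, ∀ a ∈ A, b * a = a * b := by
    intro b hb a ha
    exact (mem_centralizer_iff.mp (hE (hBE' hb)) a ha).symm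
  obtain ⟨P⟩ : Nonempty (Sylow q ↥B) := inferInstance
  set S := (P : Subgroup ↥B).map B.subtype with hS
  have hSB : S ≤ B := Subgroup.map_subtype_le _
  -- `B = A ⊔ S`
  have hsup : A ⊔ S = B := by
    apply le_antisymm (sup_le hAB hSB)
    have h1 : (A.subgroupOf B ⊔ (P : Subgroup ↥B)).index = 1 := by
      have h2 : (A.subgroupOf B ⊔ (P : Subgroup ↥B)).index ∣ (A.subgroupOf B).index :=
        Subgroup.index_dvd_of_le le_sup_left
      have h3 : (A.subgroupOf B ⊔ (P : Subgroup ↥B)).index ∣ (P : Subgroup ↥B).index :=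
        Subgroup.index_dvd_of_le le_sup_right
      have h4 : IsPGroup q (↥B ⧸ A.subgroupOf B) := by
        intro x
        obtain ⟨b, rfl⟩ := QuotientGroup.mk_surjective x
        refine ⟨1, ?_⟩
        rw [pow_one, ← QuotientGroup.mk_pow, QuotientGroup.eq_one_iff]
        exact hBA b b.2
      obtain ⟨k, hk⟩ := IsPGroup.iff_card.mp h4
      rw [← Subgroup.index_eq_card] at hk
      rw [hk] at h2
      have h5 : Nat.Coprime (q ^ k) (P : Subgroup ↥B).index :=
        Nat.Coprime.pow_left k (hq.coprime_iff_not_dvd.mpr P.not_dvd_index)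
      exact Nat.eq_one_of_dvd_coprimes h5 h2 h3
    rw [Subgroup.index_eq_one] at h1
    have h6 := congrArg (Subgroup.map B.subtype) h1
    rw [Subgroup.map_sup, Subgroup.map_subgroupOf_eq_of_le hAB, ← MonoidHom.range_eq_map,
      Subgroup.range_subtype] at h6
    exact h6.ge
  have hSnc : ¬ IsMulCommutative ↥S := by
    intro h
    apply hABlt
    refine (hmax B hBnorm ?_ hAB).symm
    rw [← hsup, sup_comm]
    exact isMulCommutative_sup h hAc (fun x hx y hy => (hBcent y (hSB hy) x hx).symm)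
  refine ⟨S, q, hSB.trans hBE', ?_, hq, P.isPGroup'.map _, hSnc⟩
  -- normality
  have hPn : (P : Subgroup ↥B).Normal := by
    rw [← Subgroup.normalizer_eq_top_iff]
    have h1 : A.subgroupOf B ⊔ (P : Subgroup ↥B) = ⊤ := by
      apply Subgroup.map_injective B.subtype_injective
      rw [Subgroup.map_sup, Subgroup.map_subgroupOf_eq_of_le hAB, ← MonoidHom.range_eq_map,
        Subgroup.range_subtype]
      exact hsup
    rw [eq_top_iff, ← h1]
    apply sup_le _ Subgroup.le_normalizer
    intro a ha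
    rw [Subgroup.mem_normalizer_iff]
    intro x
    have h2 : a * x * a⁻¹ = x := by
      rw [mul_inv_eq_iff_eq_mul]
      exact Subtype.ext (hBcent x x.2 a ha).symm
    rw [h2]
  have hPc : (P : Subgroup ↥B).Characteristic := P.characteristic_of_normal hPn
  exact inferInstance

/-- In a solvable B-group, a nonabelian normal `q`-subgroup is the quaternion Sylow 2-subgroup. -/
theorem IsB.eq_sylow_of_noncomm [Group.IsSolvable Γ] (hB : IsB Γ) {S : Subgroup Γ} [S.Normal] {q : ℕ}
    (hq : q.Prime) (hS : IsPGroup q ↥S) (hSnc : ¬ IsMulCommutative ↥S) :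
    q = 2 ∧ IsQ8 ↥S ∧ ∀ R : Sylow 2 Γ, (R : Subgroup Γ) = S := by
  have : Fact q.Prime := ⟨hq⟩
  have key : ∀ R : Sylow q Γ, q = 2 ∧ IsQ8 ↥(R : Subgroup Γ) ∧ S = R := by
    intro R
    have hSR : S ≤ R := hS.le_sylow_of_normal R
    rcases hB.sylow_cases q R with h | ⟨h, -⟩ | ⟨h1, h2⟩
    · exact absurd (isMulCommutative_mono hSR inferInstance) hSnc
    · exact absurd (isMulCommutative_mono hSR ⟨⟨h⟩⟩) hSnc
    · exact ⟨h1, h2, h2.eq_of_noncomm hSR hSnc⟩
  obtain ⟨R₀⟩ : Nonempty (Sylow q Γ) := inferInstance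
  obtain ⟨h1, h2, h3⟩ := key R₀
  subst h1
  refine ⟨rfl, ?_, fun R => (key R).2.2.symm⟩
  rw [h3]
  exact h2

omit [Finite Γ] in
/-- A normal subgroup meeting an elementary abelian Sylow subgroup nontrivially contains it. -/
theorem IsB.le_of_inf_ne_bot (hB : IsB Γ) {r : ℕ} [hr : Fact r.Prime] {R N : Subgroup Γ} [N.Normal]
    (hRr : ∀ x : ↥R, x ^ r = 1) (h : R ⊓ N ≠ ⊥) : R ≤ N := by
  obtain ⟨⟨x, hxR, hxN⟩, hx1⟩ := Subgroup.ne_bot_iff_exists_ne_one.mp h
  have hx1 : x ≠ 1 := fun h => hx1 (Subtype.ext h)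
  have hxo : orderOf x = r := orderOf_eq_prime (congrArg Subtype.val (hRr ⟨x, hxR⟩)) hx1
  intro y hy
  by_cases hy1 : y = 1
  · rw [hy1]; exact N.one_mem
  · have hyo : orderOf y = r := orderOf_eq_prime (congrArg Subtype.val (hRr ⟨y, hy⟩)) hy1
    exact hB.mem_of_orderOf hxN (by rw [hxo, hyo])

omit [Finite Γ] in
/-- A normal subgroup not containing the quaternion subgroup `R` meets it in a central subgroup. -/
theorem IsB.sq_eq_one_of_mem (hB : IsB Γ) {R N : Subgroup Γ} [N.Normal] (hR : IsQ8 ↥R)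
    (h : ¬ R ≤ N) : ∀ x ∈ R, x ∈ N → x ^ 2 = 1 := by
  intro x hxR hxN
  by_contra hx2
  apply h
  have hord : ∀ y ∈ R, y ^ 2 ≠ 1 → orderOf y = 4 := by
    intro y hy hy2
    have h4 : orderOf y ∣ 4 := orderOf_dvd_of_pow_eq_one (congrArg Subtype.val (hR.four ⟨y, hy⟩))
    have h8 : orderOf y ∈ Nat.divisors 4 := Nat.mem_divisors.mpr ⟨h4, by norm_num⟩
    have h9 : Nat.divisors 4 = {1, 2, 4} := by decide
    rw [h9] at h8
    simp only [Finset.mem_insert, Finset.mem_singleton] at h8
    rcases h8 with h | h | h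
    · exact absurd (orderOf_dvd_iff_pow_eq_one.mp (by rw [h]; norm_num)) hy2
    · exact absurd (orderOf_dvd_iff_pow_eq_one.mp (by rw [h])) hy2
    · exact h
  have hmem : ∀ y ∈ R, y ^ 2 ≠ 1 → y ∈ N := fun y hy hy2 =>
    hB.mem_of_orderOf hxN (by rw [hord x hxR hx2, hord y hy hy2])
  intro y hy
  by_cases hy2 : y ^ 2 = 1
  · have hc : y * x = x * y :=
      congrArg Subtype.val (hR.sq ⟨y, hy⟩ ⟨x, hxR⟩ (Subtype.ext hy2))
    have h1 : (y * x) ^ 2 ≠ 1 := by
      rw [(show Commute y x from hc).mul_pow, hy2, one_mul]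
      exact hx2
    have h2 : y * x ∈ N := hmem _ (R.mul_mem hy hxR) h1
    exact (N.mul_mem_cancel_right hxN).mp h2
  · exact hmem y hy hy2

/-- The cyclic-by-cyclic case. -/
theorem IsB.isCyclic_of_ker (hB : IsB Γ) {A : Subgroup Γ} [A.Normal] (hA : IsCyclic ↥A)
    {C : Type*} [Group C] [IsCyclic C] (θ : Γ →* C) (hθ : θ.ker = A) {r : ℕ} [hr : Fact r.Prime]
    {R : Subgroup Γ} (hR : SylowCases r ↥R) : IsCyclic ↥R := by
  rcases hR with h | ⟨hc, hr1⟩ | ⟨hr2, hQ⟩
  · exact h
  · by_cases h : R ⊓ A = ⊥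
    · apply isCyclic_of_injective (θ.comp R.subtype)
      rw [injective_iff_map_eq_one]
      intro x hx
      have h1 : (x : Γ) ∈ A := by rw [← hθ, MonoidHom.mem_ker]; exact hx
      have h2 : (x : Γ) ∈ R ⊓ A := ⟨x.2, h1⟩
      rw [h, Subgroup.mem_bot] at h2
      exact Subtype.ext h2
    · have h1 := hB.le_of_inf_ne_bot hr1 h
      exact isCyclic_of_injective (Subgroup.inclusion h1) (Subgroup.inclusion_injective h1)
  · exfalso
    have hnle : ¬ R ≤ A := by
      intro h
      exact hQ.noncomm (fun x y => Subtype.ext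
        (isMulCommutative_iff.mp (isMulCommutative_mono h inferInstance) x x.2 y y.2))
    have hsq := hB.sq_eq_one_of_mem hQ hnle
    apply hQ.noncomm
    have h1 : IsMulCommutative ↥R := by
      apply MonoidHom.isMulCommutative_of_isCyclic_of_ker_le_center (θ.comp R.subtype)
      intro x hx
      rw [Subgroup.mem_center_iff]
      intro y
      have h1 : (x : Γ) ∈ A := by rw [← hθ, MonoidHom.mem_ker]; exact hx
      exact (hQ.sq x y (Subtype.ext (hsq x x.2 h1))).symm
    exact h1.is_comm.comm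

end Lemmas

universe u

/-- **Sylow subgroups of a solvable B-group acting faithfully and line-transitively.** -/
theorem IsB.sylow_of_lineTrans {V : Type u} [AddCommGroup V] [Finite V] [Nontrivial V]
    {Γ : Type*} [Group Γ] [Finite Γ] [Group.IsSolvable Γ] (ρ : Γ →* AddMonoid.End V)
    (hρ : Function.Injective ρ) (hT : LineTrans ρ) (hB : IsB Γ) (r : ℕ) [hr : Fact r.Prime]
    (R : Sylow r Γ) :
    IsCyclic ↥(R : Subgroup Γ) ∨ (r = 2 ∧ IsQ8 ↥(R : Subgroup Γ) ∧ (R : Subgroup Γ).Normal) := by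
  classical
  obtain ⟨A, hAmax⟩ := Set.Finite.exists_maximal
    (Set.toFinite {A : Subgroup Γ | A.Normal ∧ IsMulCommutative ↥A})
    ⟨⊥, ⟨inferInstance, inferInstance⟩⟩
  obtain ⟨hAn, hAc⟩ := hAmax.1
  have hmax : ∀ B : Subgroup Γ, B.Normal → IsMulCommutative ↥B → A ≤ B → B = A := by
    intro B hBn hBc hAB
    exact le_antisymm (hAmax.2 ⟨hBn, hBc⟩ hAB) hAB
  obtain ⟨hAcyc, C, hCg, hCc, θ, hθ⟩ :=
    normal_abelian_of_lineTrans ρ hρ hT A (isMulCommutative_iff.mp hAc)
  have hAC : A ≤ centralizer (A : Set Γ) := by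
    intro x hx
    rw [mem_centralizer_iff]
    intro y hy
    exact isMulCommutative_iff.mp hAc y hy x hx
  have hcases := hB.sylow_cases r R
  by_cases hCA : centralizer (A : Set Γ) = A
  · left
    exact hB.isCyclic_of_ker hAcyc θ (hθ.trans hCA) hcases
  have hlt : A < centralizer (A : Set Γ) := lt_of_le_of_ne hAC (Ne.symm hCA)
  obtain ⟨S, q, hSE, hSn, hq, hSp, hSnc⟩ := exists_normal_noncomm hAc hmax hlt le_rfl
  obtain ⟨hq2, hSQ, hSyl⟩ := hB.eq_sylow_of_noncomm hq hSp hSnc
  by_cases hr2 : r = 2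
  · subst hr2
    right
    rw [hSyl R]
    exact ⟨rfl, hSQ, hSn⟩
  left
  rcases hcases with h | ⟨hRc, hRr⟩ | ⟨h, -⟩
  · exact h
  swap
  · exact absurd h hr2
  by_contra hRcyc
  have hRA : (R : Subgroup Γ) ⊓ A = ⊥ := by
    by_contra h
    have h1 := hB.le_of_inf_ne_bot hRr h
    exact hRcyc (isCyclic_of_injective (Subgroup.inclusion h1) (Subgroup.inclusion_injective h1))
  have hRC : (R : Subgroup Γ) ≤ centralizer (A : Set Γ) := by
    apply hB.le_of_inf_ne_bot hRr
    intro h
    apply hRcyc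
    apply isCyclic_of_injective (θ.comp (R : Subgroup Γ).subtype)
    rw [injective_iff_map_eq_one]
    intro x hx
    have h1 : (x : Γ) ∈ centralizer (A : Set Γ) := by
      rw [← hθ, MonoidHom.mem_ker]; exact hx
    have h2 : (x : Γ) ∈ (R : Subgroup Γ) ⊓ centralizer (A : Set Γ) := ⟨x.2, h1⟩
    rw [h, Subgroup.mem_bot] at h2
    exact Subtype.ext h2
  -- the centraliser of `A` and `S` is `A`
  have hE : centralizer (A : Set Γ) ⊓ centralizer (S : Set Γ) = A := by
    by_contra hne
    have hAE : A < centralizer (A : Set Γ) ⊓ centralizer (S : Set Γ) := by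
      apply lt_of_le_of_ne _ (Ne.symm hne)
      apply le_inf hAC
      rw [le_centralizer_iff]
      exact hSE
    obtain ⟨S', q', hSE', hSn', hq', hSp', hSnc'⟩ := exists_normal_noncomm hAc hmax hAE inf_le_left
    obtain ⟨hq2', hSQ', hSyl'⟩ := hB.eq_sylow_of_noncomm hq' hSp' hSnc'
    have : Fact (Nat.Prime 2) := ⟨Nat.prime_two⟩
    obtain ⟨R₂⟩ : Nonempty (Sylow 2 Γ) := inferInstance
    have hSS : S' = S := (hSyl' R₂).symm.trans (hSyl R₂)
    rw [hSS] at hSE'
    apply hSnc
    rw [isMulCommutative_iff]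
    intro x hx y hy
    exact (mem_centralizer_iff.mp (hSE' hx).2 y hy).symm
  obtain ⟨u, huS, hu4⟩ := hSQ.exists_four
  have hrodd : Nat.Coprime r 4 := by
    have h1 : Nat.Coprime r 2 := (Nat.coprime_primes hr.out Nat.prime_two).mpr hr2
    exact Nat.Coprime.pow_right 2 h1
  -- `R` embeds into `S`
  let f : ↥(R : Subgroup Γ) → ↥S := fun x => ⟨x * u * (x : Γ)⁻¹, hSn.conj_mem u huS x⟩
  have hf : Function.Injective f := by
    intro x y hxy
    have h1 : (x : Γ) * u * (x : Γ)⁻¹ = y * u * (y : Γ)⁻¹ := congrArg Subtype.val hxy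
    set w : Γ := (y : Γ)⁻¹ * x with hw
    have hwR : w ∈ (R : Subgroup Γ) := (R : Subgroup Γ).mul_mem ((R : Subgroup Γ).inv_mem y.2) x.2
    have hwu : w * u = u * w := by
      have h2 : (y : Γ)⁻¹ * (x * u * (x : Γ)⁻¹) * x = (y : Γ)⁻¹ * (y * u * (y : Γ)⁻¹) * x := by
        rw [h1]
      have h3 : (y : Γ)⁻¹ * (x * u * (x : Γ)⁻¹) * x = w * u := by rw [hw]; group
      have h4 : (y : Γ)⁻¹ * (y * u * (y : Γ)⁻¹) * x = u * w := by rw [hw]; group
      rw [← h3, h2, h4]
    have hwr : w ^ r = 1 := congrArg Subtype.val (hRr ⟨w, hwR⟩)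
    have h5 := hSQ.centralizes huS hu4 hwu hrodd hwr
    have h6 : w ∈ centralizer (A : Set Γ) ⊓ centralizer (S : Set Γ) := by
      refine ⟨hRC hwR, ?_⟩
      change w ∈ centralizer (S : Set Γ)
      rw [mem_centralizer_iff]
      intro s hs
      exact (h5 s hs).symm
    rw [hE] at h6
    have h7 : w ∈ (R : Subgroup Γ) ⊓ A := ⟨hwR, h6⟩
    rw [hRA, Subgroup.mem_bot, hw, inv_mul_eq_one] at h7
    exact Subtype.ext h7.symm
  have hfinS : Finite ↥S := inferInstance
  have hle : Nat.card ↥(R : Subgroup Γ) ≤ 8 := by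
    rw [← hSQ.card]
    exact Nat.card_le_card_of_injective f hf
  obtain ⟨k, hk⟩ := IsPGroup.iff_card.mp R.isPGroup'
  have hk2 : 2 ≤ k := by
    by_contra hlt2
    apply hRcyc
    have hk01 : k = 0 ∨ k = 1 := by omega
    rcases hk01 with rfl | rfl
    · rw [pow_zero, Subgroup.card_eq_one] at hk
      rw [hk]
      exact isCyclic_of_subsingleton
    · rw [pow_one] at hk
      exact isCyclic_of_prime_card hk
  have hr3 : 3 ≤ r := by
    have := hr.out.two_le
    omega
  have h9 : 3 ^ 2 ≤ r ^ k := (Nat.pow_le_pow_left hr3 2).trans (Nat.pow_le_pow_right (by omega) hk2)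
  rw [hk] at hle
  omega

end Cfsg.Agent.H477
end

-- part: H477/PiCyclic
section
/-!
Let `M` be a normal elementary abelian subgroup of a solvable B-group and `1 < D < M`.
The Sylow `r`-subgroups of `N_G(D)` are cyclic for the primes `r` dividing `|N_G(D) : C_G(D)|`.
-/

set_option autoImplicit false

namespace Cfsg.Agent.H477

open Subgroup
open scoped IsMulCommutative

section Lin
variable {V : Type*} [CommGroup V] [Finite V]

omit [Finite V] in
theorem card_sup_zpowers_le (E : Subgroup V) {p : ℕ} (hp : p.Prime) (x : V) (hx : x ^ p = 1) :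
    Nat.card ↥(E ⊔ Subgroup.zpowers x) ≤ Nat.card ↥E * p := by
  have h1 := relIndex_mul_relIndex (⊥ : Subgroup V) E (E ⊔ Subgroup.zpowers x) bot_le le_sup_left
  rw [relIndex_bot_left, relIndex_bot_left, relIndex_sup_left] at h1
  rw [← h1]
  apply Nat.mul_le_mul_left
  have h2 : E.relIndex (Subgroup.zpowers x) ∣ p := by
    refine (relIndex_dvd_card E (Subgroup.zpowers x)).trans ?_
    rw [Nat.card_zpowers]
    exact orderOf_dvd_of_pow_eq_one hx
  exact Nat.le_of_dvd hp.pos h2

/-- In an elementary abelian group, a cyclic subgroup is an intersection of subgroups of any given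
order between `p` and the order of a maximal subgroup. -/
theorem exists_card_eq_not_mem {p : ℕ} [hp : Fact p.Prime] (hV : ∀ x : V, x ^ p = 1)
    (D : Subgroup V) (hD1 : D ≠ ⊥) (hD2 : D ≠ ⊤) (v w : V) (hw : w ∉ Subgroup.zpowers v) :
    ∃ E : Subgroup V, Nat.card ↥E = Nat.card ↥D ∧ v ∈ E ∧ w ∉ E := by
  classical
  have hpow : ∀ E : Subgroup V, ∃ k, Nat.card ↥E = p ^ k := fun E =>
    card_eq_pow_of_exponent hp.out (fun x _ => hV x)
  obtain ⟨d, hd⟩ := hpow D
  have hd1 : d ≠ 0 := by
    rintro rfl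
    rw [pow_zero, Subgroup.card_eq_one] at hd
    exact hD1 hd
  have hVcard : Nat.card ↥D < Nat.card V := by
    refine lt_of_le_of_ne (Subgroup.card_le_card_group D) ?_
    intro h
    exact hD2 (Subgroup.eq_top_of_card_eq D h)
  obtain ⟨E, hEmax⟩ := Set.Finite.exists_maximal
    (Set.toFinite {E : Subgroup V | v ∈ E ∧ w ∉ E ∧ Nat.card ↥E ≤ Nat.card ↥D})
    ⟨Subgroup.zpowers v, ⟨Subgroup.mem_zpowers v, hw, by
      rw [Nat.card_zpowers, hd]
      refine (Nat.le_of_dvd hp.out.pos (orderOf_dvd_of_pow_eq_one (hV v))).trans ?_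
      exact Nat.le_self_pow hd1 p⟩⟩
  obtain ⟨hvE, hwE, hEc⟩ := hEmax.1
  refine ⟨E, ?_, hvE, hwE⟩
  by_contra hne
  have hlt : Nat.card ↥E < Nat.card ↥D := lt_of_le_of_ne hEc hne
  obtain ⟨e, he⟩ := hpow E
  have hep : Nat.card ↥E * p ≤ Nat.card ↥D := by
    rw [he, hd] at hlt ⊢
    have h1 : e < d := (Nat.pow_lt_pow_iff_right hp.out.one_lt).mp hlt
    rw [← pow_succ]
    exact Nat.pow_le_pow_right hp.out.pos h1
  obtain ⟨x, hx⟩ : ∃ x, x ∉ E ⊔ Subgroup.zpowers w := by
    by_contra h
    push Not at h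
    have h1 : E ⊔ Subgroup.zpowers w = ⊤ := by
      rw [eq_top_iff]; intro x _; exact h x
    have h2 := card_sup_zpowers_le E hp.out w (hV w)
    rw [h1, Subgroup.card_top] at h2
    omega
  have hE' : E ⊔ Subgroup.zpowers x ∈
      {E : Subgroup V | v ∈ E ∧ w ∉ E ∧ Nat.card ↥E ≤ Nat.card ↥D} := by
    refine ⟨(le_sup_left : E ≤ E ⊔ Subgroup.zpowers x) hvE, ?_,
      (card_sup_zpowers_le E hp.out x (hV x)).trans hep⟩
    intro hwm
    obtain ⟨y, hy, z, hz, hyz⟩ := Subgroup.mem_sup.mp hwm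
    by_cases hz1 : z = 1
    · rw [hz1, mul_one] at hyz
      exact hwE (hyz ▸ hy)
    · have h1 : Subgroup.zpowers z = Subgroup.zpowers x := by
        apply Subgroup.eq_of_le_of_card_ge (Subgroup.zpowers_le.mpr hz)
        rw [Nat.card_zpowers, Nat.card_zpowers, orderOf_eq_prime (hV z) hz1]
        exact Nat.le_of_dvd hp.out.pos (orderOf_dvd_of_pow_eq_one (hV x))
      apply hx
      have h2 : z ∈ E ⊔ Subgroup.zpowers w := by
        have h3 : z = y⁻¹ * w := by rw [← hyz, inv_mul_cancel_left]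
        rw [h3]
        exact Subgroup.mul_mem _ ((le_sup_left : E ≤ E ⊔ Subgroup.zpowers w) (E.inv_mem hy))
          ((le_sup_right : Subgroup.zpowers w ≤ E ⊔ Subgroup.zpowers w) (Subgroup.mem_zpowers w))
      have h3 : Subgroup.zpowers x ≤ E ⊔ Subgroup.zpowers w := by
        rw [← h1]; exact Subgroup.zpowers_le.mpr h2
      exact h3 (Subgroup.mem_zpowers x)
  have h4 := hEmax.2 hE' le_sup_left
  have h5 : x ∈ E := h4 ((le_sup_right : Subgroup.zpowers x ≤ _) (Subgroup.mem_zpowers x))
  exact hx ((le_sup_left : E ≤ E ⊔ Subgroup.zpowers w) h5)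

end Lin

section Act
variable {G : Type*} [Group G] [Finite G] (M : Subgroup G) [M.Normal] [IsMulCommutative ↥M]

/-- Conjugation action on a normal abelian subgroup, in the endomorphism ring. -/
def actEnd : G →* AddMonoid.End (Additive ↥M) where
  toFun g := MonoidHom.toAdditive (MulAut.conjNormal g : MulAut ↥M).toMonoidHom
  map_one' := by
    apply AddMonoidHom.ext
    intro x
    change Additive.ofMul ((MulAut.conjNormal (1 : G) : MulAut ↥M) x.toMul) = x
    rw [map_one]
    rfl
  map_mul' g h := by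
    apply AddMonoidHom.ext
    intro x
    change Additive.ofMul ((MulAut.conjNormal (g * h) : MulAut ↥M) x.toMul) =
      Additive.ofMul ((MulAut.conjNormal g : MulAut ↥M) ((MulAut.conjNormal h : MulAut ↥M) x.toMul))
    rw [map_mul]
    rfl

omit [Finite G] in
theorem actEnd_apply (g : G) (x : Additive ↥M) :
    ((actEnd M g x).toMul : G) = g * ((x.toMul : ↥M) : G) * g⁻¹ := rfl

omit [Finite G] in
theorem mem_actEnd_ker (g : G) : g ∈ (actEnd M).ker ↔ ∀ m ∈ M, g * m = m * g := by
  rw [MonoidHom.mem_ker]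
  constructor
  · intro h m hm
    have h1 := congrArg (fun f : AddMonoid.End (Additive ↥M) => ((f (Additive.ofMul ⟨m, hm⟩)).toMul : G)) h
    simp only [actEnd_apply] at h1
    change g * m * g⁻¹ = m at h1
    rwa [mul_inv_eq_iff_eq_mul] at h1
  · intro h
    apply AddMonoidHom.ext
    intro x
    have h1 : ((actEnd M g x).toMul : G) = ((x.toMul : ↥M) : G) := by
      rw [actEnd_apply, mul_inv_eq_iff_eq_mul]
      exact h _ x.toMul.2
    exact congrArg Additive.ofMul (Subtype.ext h1)

/-- The action of `G / C_G(M)` on `M`. -/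
def actQuot : G ⧸ (actEnd M).ker →* AddMonoid.End (Additive ↥M) :=
  QuotientGroup.lift (actEnd M).ker (actEnd M) (fun _ h => h)

omit [Finite G] in
theorem actQuot_mk (g : G) : actQuot M (QuotientGroup.mk g) = actEnd M g := rfl

omit [Finite G] in
theorem actQuot_injective : Function.Injective (actQuot M) := by
  rw [injective_iff_map_eq_one]
  intro x hx
  obtain ⟨g, rfl⟩ := QuotientGroup.mk_surjective x
  rw [actQuot_mk] at hx
  exact (QuotientGroup.eq_one_iff g).mpr hx

omit [Finite G] in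
theorem IsB.lineTrans_actEnd (hB : IsB G) {p : ℕ} [hp : Fact p.Prime] (hMp : ∀ x ∈ M, x ^ p = 1) :
    LineTrans (actQuot M) := by
  intro v w hv hw
  have hord : ∀ x : Additive ↥M, x ≠ 0 → orderOf ((x.toMul : ↥M) : G) = p := by
    intro x hx
    apply orderOf_eq_prime (hMp _ x.toMul.2)
    intro h
    exact hx (congrArg Additive.ofMul (Subtype.ext h))
  obtain ⟨g, hg⟩ := hB (Subgroup.zpowers ((w.toMul : ↥M) : G)) (Subgroup.zpowers ((v.toMul : ↥M) : G))
    inferInstance inferInstance (by rw [Nat.card_zpowers, Nat.card_zpowers, hord v hv, hord w hw])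
  have h1 : ((v.toMul : ↥M) : G) ∈
      (Subgroup.zpowers ((w.toMul : ↥M) : G)).map (MulAut.conj g).toMonoidHom := by
    rw [← hg]; exact Subgroup.mem_zpowers _
  obtain ⟨y, hy, hyv⟩ := h1
  obtain ⟨k, hk⟩ := Subgroup.mem_zpowers_iff.mp hy
  refine ⟨(QuotientGroup.mk g⁻¹ : G ⧸ (actEnd M).ker), k, ?_⟩
  rw [actQuot_mk]
  have h2 : ((actEnd M g⁻¹ v).toMul : G) = (((k • w : Additive ↥M).toMul : ↥M) : G) := by
    rw [actEnd_apply, inv_inv]
    have h3 : (((k • w : Additive ↥M).toMul : ↥M) : G) = ((w.toMul : ↥M) : G) ^ k := rfl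
    rw [h3, hk, ← hyv]
    simp [mul_assoc]
  exact congrArg Additive.ofMul (Subtype.ext h2)

theorem isCyclic_of_lt_q8 {R₂ R : Subgroup G} (hQ : IsQ8 ↥R₂) (hle : R ≤ R₂) (hne : R ≠ R₂) :
    IsCyclic ↥R := by
  have h1 := Subgroup.card_dvd_of_le hle
  rw [hQ.card] at h1
  have h2 : Nat.card ↥R ∈ Nat.divisors 8 := Nat.mem_divisors.mpr ⟨h1, by norm_num⟩
  have h3 : Nat.divisors 8 = {1, 2, 4, 8} := by decide
  rw [h3] at h2
  simp only [Finset.mem_insert, Finset.mem_singleton] at h2
  rcases h2 with h | h | h | h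
  · rw [Subgroup.card_eq_one] at h
    rw [h]
    exact isCyclic_of_subsingleton
  · have : Fact (Nat.Prime 2) := ⟨Nat.prime_two⟩
    exact isCyclic_of_prime_card h
  · -- order four
    by_cases hx : ∀ x : ↥R, x ^ 2 = 1
    · exfalso
      have hx' : ∀ x ∈ R, x ^ 2 = 1 := fun x hxR => congrArg Subtype.val (hx ⟨x, hxR⟩)
      have hnt : R ≠ ⊥ := by
        rintro rfl
        rw [Subgroup.card_bot] at h
        omega
      obtain ⟨⟨x, hxR⟩, hx1⟩ := Subgroup.ne_bot_iff_exists_ne_one.mp hnt
      have hx1 : x ≠ 1 := fun h => hx1 (Subtype.ext h)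
      have hle2 : R ≤ Subgroup.zpowers x := by
        intro y hy
        have h4 := hQ.inv ⟨x, hle hxR⟩ ⟨y, hle hy⟩ (Subtype.ext (hx' x hxR))
          (Subtype.ext (hx' y hy))
        rcases h4 with h5 | h5 | h5
        · exact absurd (congrArg Subtype.val h5) hx1
        · have : y = 1 := congrArg Subtype.val h5
          rw [this]; exact Subgroup.one_mem _
        · have : x = y := congrArg Subtype.val h5
          rw [← this]; exact Subgroup.mem_zpowers _
      have h6 := Subgroup.card_le_of_le hle2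
      rw [h, Nat.card_zpowers] at h6
      have h7 : orderOf x ≤ 2 :=
        Nat.le_of_dvd (by norm_num) (orderOf_dvd_of_pow_eq_one (hx' x hxR))
      omega
    · push Not at hx
      obtain ⟨x, hx⟩ := hx
      apply isCyclic_of_orderOf_eq_card x
      have h4 : orderOf x ∣ 4 := by rw [← h]; exact orderOf_dvd_natCard x
      have h8 : orderOf x ∈ Nat.divisors 4 := Nat.mem_divisors.mpr ⟨h4, by norm_num⟩
      have h9 : Nat.divisors 4 = {1, 2, 4} := by decide
      rw [h9] at h8
      simp only [Finset.mem_insert, Finset.mem_singleton] at h8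
      rw [h]
      rcases h8 with h5 | h5 | h5
      · exact absurd (orderOf_dvd_iff_pow_eq_one.mp (by rw [h5]; norm_num)) hx
      · exact absurd (orderOf_dvd_iff_pow_eq_one.mp (by rw [h5])) hx
      · exact h5
  · exact absurd (Subgroup.eq_of_le_of_card_ge hle (by rw [hQ.card, h])) hne

/-- A normal subgroup normalising a proper nontrivial subgroup `D` of `M` acts on `M` by power
maps, if all subgroups of order `|D|` are conjugate. -/
theorem IsB.conj_mem_zpowers (hB : IsB G) {p : ℕ} [hp : Fact p.Prime] (hMp : ∀ x ∈ M, x ^ p = 1)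
    {D : Subgroup G} (hDM : D ≤ M) (hD1 : D ≠ ⊥) (hD2 : D ≠ M) {L : Subgroup G} [hL : L.Normal]
    (hLD : L ≤ normalizer (D : Set G)) : ∀ l ∈ L, ∀ v ∈ M, l * v * l⁻¹ ∈ Subgroup.zpowers v := by
  have hMc : IsMulCommutative ↥M := inferInstance
  -- `L` normalises all subgroups of `M` of order `|D|`
  have hnorm : ∀ E : Subgroup G, E ≤ M → Nat.card ↥E = Nat.card ↥D →
      ∀ l ∈ L, ∀ v ∈ E, l * v * l⁻¹ ∈ E := by
    intro E hEM hE l hl v hv
    obtain ⟨g, hg⟩ := hB D E (isMulCommutative_mono hDM hMc) (isMulCommutative_mono hEM hMc) hE.symm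
    rw [hg] at hv ⊢
    obtain ⟨d, hd, rfl⟩ := hv
    have hl' : g⁻¹ * l * g ∈ L := by
      have := hL.conj_mem l hl g⁻¹
      rwa [inv_inv] at this
    have h1 := (Subgroup.mem_normalizer_iff.mp (hLD hl') d).mp hd
    refine ⟨_, h1, ?_⟩
    simp [mul_assoc]
  intro l hl v hv
  by_contra hcon
  have hw : l * v * l⁻¹ ∈ M := (inferInstance : M.Normal).conj_mem v hv l
  have hD1' : D.subgroupOf M ≠ ⊥ := by
    intro h
    apply hD1
    rw [← Subgroup.map_subgroupOf_eq_of_le hDM, h, Subgroup.map_bot]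
  have hD2' : D.subgroupOf M ≠ ⊤ := by
    intro h
    apply hD2
    rw [← Subgroup.map_subgroupOf_eq_of_le hDM, h, ← MonoidHom.range_eq_map, Subgroup.range_subtype]
  obtain ⟨E, hE, hvE, hwE⟩ := exists_card_eq_not_mem (V := ↥M) (p := p)
    (fun x => Subtype.ext (hMp x x.2)) (D.subgroupOf M) hD1' hD2' ⟨v, hv⟩ ⟨l * v * l⁻¹, hw⟩ (by
      intro h
      apply hcon
      obtain ⟨k, hk⟩ := Subgroup.mem_zpowers_iff.mp h
      exact Subgroup.mem_zpowers_iff.mpr ⟨k, congrArg Subtype.val hk⟩)
  have hcE : Nat.card ↥(E.map M.subtype) = Nat.card ↥D := by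
    rw [Subgroup.card_map_of_injective M.subtype_injective, hE]
    exact Nat.card_congr (subgroupOfEquivOfLe hDM).toEquiv
  have h1 := hnorm (E.map M.subtype) (Subgroup.map_subtype_le E) hcE l hl v ⟨⟨v, hv⟩, hvE, rfl⟩
  obtain ⟨⟨y, hy⟩, hyE, hyw⟩ := h1
  apply hwE
  have : (⟨y, hy⟩ : ↥M) = ⟨l * v * l⁻¹, hw⟩ := Subtype.ext hyw
  rwa [← this]

/-- **The `r`-subgroups of `N_G(D)` are cyclic for the primes `r` dividing `|N_G(D) : C_G(D)|`.** -/
theorem IsB.isCyclic_of_dvd [hs : Group.IsSolvable G] (hB : IsB G) {p : ℕ} [hp : Fact p.Prime]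
    (hMp : ∀ x ∈ M, x ^ p = 1) {D : Subgroup G} (hDM : D ≤ M) (hD1 : D ≠ ⊥) (hD2 : D ≠ M)
    {r : ℕ} [hr : Fact r.Prime]
    (hrd : r ∣ (centralizer (D : Set G)).relIndex (normalizer (D : Set G)))
    {R : Subgroup G} (hR : R ≤ normalizer (D : Set G)) (hRr : IsPGroup r ↥R) : IsCyclic ↥R := by
  classical
  set K := (actEnd M).ker with hK
  have hKmem : ∀ g, g ∈ K ↔ ∀ m ∈ M, g * m = m * g := mem_actEnd_ker M
  have hKD : K ≤ centralizer (D : Set G) := by
    intro g hg
    rw [mem_centralizer_iff]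
    intro d hd
    exact ((hKmem g).mp hg d (hDM hd)).symm
  have hrK : r ∣ K.index :=
    (hrd.trans (relIndex_dvd_of_le_left _ hKD)).trans (relIndex_dvd_index_of_normal _ _)
  obtain ⟨R₂, hR₂⟩ := hRr.exists_le_sylow
  have hnle : ¬ (R₂ : Subgroup G) ≤ K := by
    intro h
    exact R₂.not_dvd_index (hrK.trans (Subgroup.index_dvd_of_le h))
  have hnt : Nontrivial (Additive ↥M) := by
    have h1 : M ≠ ⊥ := by
      rintro rfl
      exact hD1 (le_bot_iff.mp hDM)
    have h2 : Nontrivial ↥M := (Subgroup.nontrivial_iff_ne_bot M).mpr h1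
    exact h2
  have hBΓ : IsB (G ⧸ K) := hB.quot_of_solvable K hs
  have hK1 := hBΓ.sylow_of_lineTrans (actQuot M) (actQuot_injective M)
    (hB.lineTrans_actEnd M hMp) r (R₂.mapSurjective (QuotientGroup.mk'_surjective K))
  set π := QuotientGroup.mk' K with hπ
  have hcoe : ((R₂.mapSurjective (QuotientGroup.mk'_surjective K) : Sylow r (G ⧸ K)) :
      Subgroup (G ⧸ K)) = (R₂ : Subgroup G).map π := rfl
  rw [hcoe] at hK1
  have hmemK : ∀ x : G, π x = 1 → x ∈ K := fun x hx => (QuotientGroup.eq_one_iff x).mp hx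
  -- the homomorphism onto the Sylow subgroup of the quotient
  let f : ↥(R₂ : Subgroup G) →* ↥((R₂ : Subgroup G).map π) := π.subgroupMap (R₂ : Subgroup G)
  have hfs : Function.Surjective f := π.subgroupMap_surjective _
  have hfker : ∀ x, f x = 1 → (x : G) ∈ K := by
    intro x hx
    apply hmemK
    exact congrArg Subtype.val hx
  have hinj : (R₂ : Subgroup G) ⊓ K = ⊥ → Function.Injective f := by
    intro h
    rw [injective_iff_map_eq_one]
    intro x hx
    have h1 : (x : G) ∈ (R₂ : Subgroup G) ⊓ K := ⟨x.2, hfker x hx⟩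
    rw [h, Subgroup.mem_bot] at h1
    exact Subtype.ext h1
  rcases hB.sylow_cases r R₂ with h | ⟨hc, hr1⟩ | ⟨hr2, hQ⟩
  · exact isCyclic_of_injective (Subgroup.inclusion hR₂) (Subgroup.inclusion_injective hR₂)
  · have hbot : (R₂ : Subgroup G) ⊓ K = ⊥ := by
      by_contra h
      exact hnle (hB.le_of_inf_ne_bot hr1 h)
    rcases hK1 with h | ⟨-, hQ, -⟩
    · have : IsCyclic ↥(R₂ : Subgroup G) := isCyclic_of_injective f (hinj hbot)
      exact isCyclic_of_injective (Subgroup.inclusion hR₂) (Subgroup.inclusion_injective hR₂)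
    · exfalso
      apply hQ.noncomm
      intro x y
      obtain ⟨x, rfl⟩ := hfs x
      obtain ⟨y, rfl⟩ := hfs y
      rw [← map_mul, ← map_mul, hc]
  · subst hr2
    have hsq := hB.sq_eq_one_of_mem hQ hnle
    have hcent : f.ker ≤ Subgroup.center ↥(R₂ : Subgroup G) := by
      intro x hx
      rw [Subgroup.mem_center_iff]
      intro y
      exact (hQ.sq x y (Subtype.ext (hsq x x.2 (hfker x hx)))).symm
    rcases hK1 with h | ⟨-, hQ', hnorm⟩
    · exfalso
      apply hQ.noncomm
      have h1 : IsMulCommutative ↥(R₂ : Subgroup G) :=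
        MonoidHom.isMulCommutative_of_isCyclic_of_ker_le_center f hcent
      exact h1.is_comm.comm
    · apply isCyclic_of_lt_q8 hQ hR₂
      intro hRR
      -- `R₂` normalises `D`
      rw [hRR] at hR
      have hfinj : Function.Injective f := by
        have h1 : Function.Bijective f := by
          rw [Nat.bijective_iff_surjective_and_card]
          exact ⟨hfs, by rw [hQ.card, hQ'.card]⟩
        exact h1.1
      set L := ((R₂ : Subgroup G).map π).comap π with hL
      have hLn : L.Normal := inferInstance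
      have hLD : L ≤ normalizer (D : Set G) := by
        rw [hL, Subgroup.comap_map_eq]
        apply sup_le hR
        rw [hπ, QuotientGroup.ker_mk']
        exact hKD.trans (Subgroup.centralizer_le_normalizer _)
      have hpow := hB.conj_mem_zpowers M hMp hDM hD1 hD2 hLD
      have hRL : (R₂ : Subgroup G) ≤ L := Subgroup.le_comap_map _ _
      apply hQ.noncomm
      intro x y
      -- the commutator acts trivially on `M`
      have hcommM : ∀ l ∈ L, ∀ l' ∈ L, ∀ m ∈ M, (l * l') * m * (l * l')⁻¹ = (l' * l) * m * (l' * l)⁻¹ := by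
        intro l hl l' hl' m hm
        obtain ⟨k, hk⟩ := Subgroup.mem_zpowers_iff.mp (hpow l hl m hm)
        obtain ⟨k', hk'⟩ := Subgroup.mem_zpowers_iff.mp (hpow l' hl' m hm)
        have h1 : (l * l') * m * (l * l')⁻¹ = l * (l' * m * l'⁻¹) * l⁻¹ := by group
        have h2 : (l' * l) * m * (l' * l)⁻¹ = l' * (l * m * l⁻¹) * l'⁻¹ := by group
        rw [h1, h2, ← hk, ← hk', ← conj_zpow, ← conj_zpow, ← hk, ← hk', ← zpow_mul, ← zpow_mul,
          mul_comm]
      have hcK : (x : G)⁻¹ * (y : G)⁻¹ * (x * y) ∈ K := by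
        rw [hKmem]
        intro m hm
        have h1 := hcommM x (hRL x.2) y (hRL y.2) m hm
        have h2 : (y * x : G)⁻¹ * ((x * y) * m * (x * y : G)⁻¹) * (y * x) = m := by
          rw [h1]; group
        calc (x : G)⁻¹ * (y : G)⁻¹ * (x * y) * m
            = ((y * x : G)⁻¹ * ((x * y) * m * (x * y : G)⁻¹) * (y * x)) *
                ((x : G)⁻¹ * (y : G)⁻¹ * (x * y)) := by group
          _ = m * ((x : G)⁻¹ * (y : G)⁻¹ * (x * y)) := by rw [h2]
      have h3 : f (x⁻¹ * y⁻¹ * (x * y)) = 1 := by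
        apply Subtype.ext
        exact (QuotientGroup.eq_one_iff _).mpr hcK
      have h4 : x⁻¹ * y⁻¹ * (x * y) = 1 := hfinj (by rw [h3, map_one])
      calc x * y = y * x * (x⁻¹ * y⁻¹ * (x * y)) := by group
        _ = y * x := by rw [h4, mul_one]

end Act

end Cfsg.Agent.H477
end

-- part: H477/Lift
section
/-!
Lifting conjugacy from quotients; groups whose relevant Sylow subgroups are cyclic.
-/

set_option autoImplicit false

namespace Cfsg.Agent.H477

open Subgroup

section
variable {G : Type*} [Group G]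

/-- Conjugacy inside a subgroup. -/
theorem conj_mem_of_subgroupOf {X Y T : Subgroup G} (hX : X ≤ T) (hY : Y ≤ T)
    (h : ∃ t : ↥T, Y.subgroupOf T = (X.subgroupOf T).map (MulAut.conj t).toMonoidHom) :
    ∃ t ∈ T, Y = X.map (MulAut.conj t).toMonoidHom := by
  obtain ⟨t, ht⟩ := h
  refine ⟨t, t.2, ?_⟩
  have h1 := congrArg (Subgroup.map T.subtype) ht
  rw [Subgroup.map_subgroupOf_eq_of_le hY, Subgroup.map_map] at h1
  have h3 : T.subtype.comp (MulAut.conj t).toMonoidHom =
      (MulAut.conj (t : G)).toMonoidHom.comp T.subtype := by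
    ext x; simp
  rw [h3, ← Subgroup.map_map, Subgroup.map_subgroupOf_eq_of_le hX] at h1
  exact h1

theorem card_map_conj (g : G) (X : Subgroup G) :
    Nat.card ↥(X.map (MulAut.conj g).toMonoidHom) = Nat.card ↥X :=
  Subgroup.card_map_of_injective (MulAut.conj g).injective

variable [Finite G]

/-- Two subgroups with the same product with a normal solvable Hall subgroup of it are conjugate. -/
theorem conj_of_sup_eq {M X Y : Subgroup G} [M.Normal] (hMs : Group.IsSolvable ↥M)
    (hcard : Nat.card ↥X = Nat.card ↥Y) (hcop : (Nat.card ↥M).Coprime (Nat.card ↥X))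
    (h : M ⊔ X = M ⊔ Y) : ∃ t ∈ M ⊔ X, Y = X.map (MulAut.conj t).toMonoidHom := by
  set L := M ⊔ X with hL
  have hML : M ≤ L := le_sup_left
  have hXL : X ≤ L := le_sup_right
  have hYL : Y ≤ L := by rw [h]; exact le_sup_right
  have hcL : Nat.card ↥M * Nat.card ↥X = Nat.card ↥L := by
    have h1 : Nat.card ↥L = Nat.card ↥M * M.relIndex L := by
      have := relIndex_mul_relIndex (⊥ : Subgroup G) M L bot_le hML
      rw [relIndex_bot_left, relIndex_bot_left] at this
      exact this.symm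
    rw [h1, hL, relIndex_sup_left]
    congr 1
    have h2 := relIndex_mul_relIndex (⊥ : Subgroup G) (M ⊓ X) X bot_le inf_le_right
    rw [relIndex_bot_left, relIndex_bot_left, inf_relIndex_right,
      (Subgroup.disjoint_of_coprime_natCard hcop).eq_bot, Subgroup.card_bot, one_mul] at h2
    exact h2.symm
  apply conj_mem_of_subgroupOf hXL hYL
  have hcM : Nat.card ↥(M.subgroupOf L) = Nat.card ↥M := Nat.card_congr (subgroupOfEquivOfLe hML).toEquiv
  have hcX : Nat.card ↥(X.subgroupOf L) = Nat.card ↥X := Nat.card_congr (subgroupOfEquivOfLe hXL).toEquiv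
  have hcY : Nat.card ↥(Y.subgroupOf L) = Nat.card ↥Y := Nat.card_congr (subgroupOfEquivOfLe hYL).toEquiv
  have hcomX : (M.subgroupOf L).IsComplement' (X.subgroupOf L) :=
    isComplement'_of_coprime (by rw [hcM, hcX, hcL]) (by rw [hcM, hcX]; exact hcop)
  have hcomY : (M.subgroupOf L).IsComplement' (Y.subgroupOf L) :=
    isComplement'_of_coprime (by rw [hcM, hcY, ← hcard, hcL]) (by rw [hcM, hcY, ← hcard]; exact hcop)
  have hidx : (M.subgroupOf L).index = Nat.card ↥X := by
    have h1 := (M.subgroupOf L).card_mul_index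
    rw [hcM, ← hcL] at h1
    exact Nat.eq_of_mul_eq_mul_left Nat.card_pos h1
  have hsol : Group.IsSolvable ↥(M.subgroupOf L) :=
    Group.isSolvable_of_isSolvable_injective (f := (subgroupOfEquivOfLe hML).toMonoidHom)
      (subgroupOfEquivOfLe hML).injective
  obtain ⟨g, hg⟩ := Cfsg.Agent.S0001.result (M.subgroupOf L)
    (by rw [hcM, hidx]; exact hcop) (Or.inl hsol) (X.subgroupOf L) (Y.subgroupOf L) hcomX hcomY
  exact ⟨g, hg.symm⟩

/-- Lift of conjugacy: `M` coprime to the subgroups. -/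
theorem conj_of_map_coprime {M X Y : Subgroup G} [hMn : M.Normal] (hMs : Group.IsSolvable ↥M)
    (hcard : Nat.card ↥X = Nat.card ↥Y) (hcop : (Nat.card ↥M).Coprime (Nat.card ↥X))
    (h : ∃ g : G ⧸ M, Y.map (QuotientGroup.mk' M) =
      (X.map (QuotientGroup.mk' M)).map (MulAut.conj g).toMonoidHom) :
    ∃ g : G, Y = X.map (MulAut.conj g).toMonoidHom := by
  obtain ⟨gb, hg⟩ := h
  obtain ⟨g, rfl⟩ := QuotientGroup.mk'_surjective M gb
  rw [← map_conj_map] at hg
  set X' := X.map (MulAut.conj g).toMonoidHom with hX'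
  have h1 := congrArg (Subgroup.comap (QuotientGroup.mk' M)) hg
  rw [Subgroup.comap_map_eq, Subgroup.comap_map_eq, QuotientGroup.ker_mk'] at h1
  have h2 : M ⊔ X' = M ⊔ Y := by rw [sup_comm M X', sup_comm M Y, h1]
  obtain ⟨t, -, ht⟩ := conj_of_sup_eq hMs (X := X') (Y := Y)
    (by rw [hX', card_map_conj, hcard]) (by rw [hX', card_map_conj]; exact hcop) h2
  exact ⟨t * g, conj_trans_of hX' ht⟩

omit [Finite G] in
theorem card_map_mk_of_coprime {M X : Subgroup G} [M.Normal]
    (hcop : (Nat.card ↥M).Coprime (Nat.card ↥X)) :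
    Nat.card ↥(X.map (QuotientGroup.mk' M)) = Nat.card ↥X := by
  have h1 := card_eq_inf_ker_mul (QuotientGroup.mk' M) X
  rw [QuotientGroup.ker_mk', (Subgroup.disjoint_of_coprime_natCard hcop).eq_bot, Subgroup.card_bot,
    one_mul] at h1
  exact h1.symm

omit [Finite G] in
theorem card_map_mk_of_le {M X : Subgroup G} [M.Normal] (h : M ≤ X) :
    Nat.card ↥M * Nat.card ↥(X.map (QuotientGroup.mk' M)) = Nat.card ↥X := by
  have h1 := card_eq_ker_mul (QuotientGroup.mk' M) X (by rw [QuotientGroup.ker_mk']; exact h)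
  rw [QuotientGroup.ker_mk'] at h1
  exact h1.symm

/-- A `p`-subgroup of the image is the image of a `p`-subgroup. -/
theorem exists_pgroup_map {G' : Type*} [Group G'] (f : G →* G') (hf : Function.Surjective f)
    {p : ℕ} [hp : Fact p.Prime] {R : Subgroup G'} (hR : IsPGroup p ↥R) :
    ∃ P : Subgroup G, IsPGroup p ↥P ∧ P.map f = R := by
  have : Finite G' := Finite.of_surjective f hf
  let φ : ↥(R.comap f) →* ↥R := f.subgroupComap R
  have hφ : Function.Surjective φ := f.subgroupComap_surjective_of_surjective R hf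
  obtain ⟨P⟩ : Nonempty (Sylow p ↥(R.comap f)) := inferInstance
  refine ⟨(P : Subgroup ↥(R.comap f)).map (R.comap f).subtype, P.isPGroup'.map _, ?_⟩
  have h1 : (P : Subgroup ↥(R.comap f)).map φ = ⊤ := by
    have h2 := (P.mapSurjective hφ).is_maximal' (Q := ⊤) (hR.of_equiv Subgroup.topEquiv.symm) le_top
    rw [← Sylow.coe_mapSurjective hφ P]
    exact h2.symm
  have h3 : (R.subtype).comp φ = f.comp (R.comap f).subtype := by ext x; rfl
  rw [Subgroup.map_map, ← h3, ← Subgroup.map_map, h1, ← MonoidHom.range_eq_map, Subgroup.range_subtype]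

end

theorem zpowers_eq_of_isCyclic {H : Type*} [Group H] [Finite H] [IsCyclic H] {q : ℕ}
    (hq : q.Prime) {x m : H} (hx : orderOf x = q) (hm : orderOf m = q) :
    Subgroup.zpowers x = Subgroup.zpowers m := by
  classical
  have : Fintype H := Fintype.ofFinite H
  have h1 := IsCyclic.card_pow_eq_one_le (α := H) (n := q) hq.pos
  have h2 : ((Subgroup.zpowers m : Set H).toFinset) ⊆ Finset.univ.filter (fun a : H => a ^ q = 1) := by
    intro y hy
    rw [Set.mem_toFinset] at hy
    rw [Finset.mem_filter]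
    refine ⟨Finset.mem_univ _, ?_⟩
    obtain ⟨k, rfl⟩ := Subgroup.mem_zpowers_iff.mp hy
    rw [← zpow_natCast, ← zpow_mul, mul_comm, zpow_mul, zpow_natCast, ← hm, pow_orderOf_eq_one,
      one_zpow]
  have h3 : ((Subgroup.zpowers m : Set H).toFinset).card = q := by
    rw [Set.toFinset_card, ← hm, ← Nat.card_zpowers, Nat.card_eq_fintype_card]
    rfl
  have h4 := Finset.eq_of_subset_of_card_le h2 (by rw [h3]; exact h1)
  have h5 : x ∈ ((Subgroup.zpowers m : Set H).toFinset) := by
    rw [h4, Finset.mem_filter]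
    exact ⟨Finset.mem_univ _, by rw [← hx, pow_orderOf_eq_one]⟩
  rw [Set.mem_toFinset] at h5
  apply Subgroup.eq_of_le_of_card_ge (Subgroup.zpowers_le.mpr h5)
  rw [Nat.card_zpowers, Nat.card_zpowers, hx, hm]

end Cfsg.Agent.H477
end

-- part: H477/ZConj
section
/-!
In a finite solvable group, two subgroups `X`, `Y` of the same order are conjugate if the
`r`-subgroups of the group are cyclic for all primes `r` dividing `|X|`.
-/

set_option autoImplicit false

namespace Cfsg.Agent.H477

open Subgroup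

/-- A normal elementary abelian `q`-subgroup is contained in every subgroup of order divisible by
`q`, if `q`-subgroups are cyclic. -/
theorem le_of_cyclic_pgroups {G : Type*} [Group G] [Finite G] {q : ℕ} [hq : Fact q.Prime]
    {M X : Subgroup G} [M.Normal] (hM : M ≠ ⊥) (hMq : ∀ x ∈ M, x ^ q = 1)
    (hcyc : ∀ R : Subgroup G, IsPGroup q ↥R → IsCyclic ↥R) (hX : q ∣ Nat.card ↥X) : M ≤ X := by
  have hMp : IsPGroup q ↥M := by
    intro x
    exact ⟨1, by rw [pow_one]; exact Subtype.ext (hMq x x.2)⟩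
  have hMc : IsCyclic ↥M := hcyc M hMp
  obtain ⟨m, hm⟩ := IsCyclic.exists_ofOrder_eq_natCard (α := ↥M)
  have hm1 : m ≠ 1 := by
    rintro rfl
    rw [orderOf_one] at hm
    exact hM (Subgroup.card_eq_one.mp hm.symm)
  have hmq : orderOf m = q := orderOf_eq_prime (Subtype.ext (hMq m m.2)) hm1
  have hMz : Subgroup.zpowers (m : G) = M := by
    apply Subgroup.eq_of_le_of_card_ge (Subgroup.zpowers_le.mpr m.2)
    rw [Nat.card_zpowers, Subgroup.orderOf_coe, hm]
  obtain ⟨x, hx⟩ := exists_prime_orderOf_dvd_card' (G := ↥X) q hX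
  have hxo : orderOf (x : G) = q := by rw [Subgroup.orderOf_coe, hx]
  have hzp : IsPGroup q ↥(Subgroup.zpowers (x : G)) := by
    apply IsPGroup.of_card (n := 1)
    rw [Nat.card_zpowers, hxo, pow_one]
  set H := M ⊔ Subgroup.zpowers (x : G) with hH
  have hHp : IsPGroup q ↥H := IsPGroup.to_sup_of_normal_left hMp hzp
  have hHc : IsCyclic ↥H := hcyc H hHp
  have hmH : (m : G) ∈ H := (le_sup_left : M ≤ H) m.2
  have hxH : (x : G) ∈ H := (le_sup_right : Subgroup.zpowers (x : G) ≤ H) (Subgroup.mem_zpowers _)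
  have h1 := zpowers_eq_of_isCyclic hq.out (x := (⟨x, hxH⟩ : ↥H)) (m := ⟨m, hmH⟩)
    (by rw [Subgroup.orderOf_mk, hxo]) (by rw [Subgroup.orderOf_mk, Subgroup.orderOf_coe, hmq])
  have h2 := congrArg (Subgroup.map H.subtype) h1
  rw [MonoidHom.map_zpowers, MonoidHom.map_zpowers] at h2
  change Subgroup.zpowers (x : G) = Subgroup.zpowers (m : G) at h2
  rw [← hMz, ← h2]
  exact Subgroup.zpowers_le.mpr x.2

theorem conj_of_cyclic_aux (n : ℕ) : ∀ (G : Type*) [Group G] [Finite G], Nat.card G = n →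
    Group.IsSolvable G → ∀ X Y : Subgroup G, Nat.card ↥X = Nat.card ↥Y →
    (∀ (r : ℕ), r.Prime → r ∣ Nat.card ↥X → ∀ R : Subgroup G, IsPGroup r ↥R → IsCyclic ↥R) →
    ∃ g : G, Y = X.map (MulAut.conj g).toMonoidHom := by
  induction n using Nat.strong_induction_on with
  | _ n ih =>
  intro G _ _ hn hs X Y hcard hcyc
  by_cases htop : (⊤ : Subgroup G) = ⊥
  · have h1 : Subsingleton (Subgroup G) := subsingleton_of_bot_eq_top htop.symm
    exact ⟨1, Subsingleton.elim _ _⟩
  obtain ⟨M, q, hMn, -, hne, hq, hMc, hMq⟩ := exists_elem_normal (⊤ : Subgroup G) htop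
  obtain ⟨t, ht⟩ := card_eq_pow_of_exponent hq hMq
  have : Fact q.Prime := ⟨hq⟩
  have hlt : Nat.card (G ⧸ M) < n := by
    rw [← hn, ← Subgroup.index_eq_card, ← M.index_mul_card]
    apply lt_mul_of_one_lt_right
    · exact Nat.pos_of_ne_zero Subgroup.index_ne_zero_of_finite
    · exact (Subgroup.one_lt_card_iff_ne_bot _).mpr hne
  set π := QuotientGroup.mk' M with hπ
  have hπs : Function.Surjective π := QuotientGroup.mk'_surjective M
  have hIH : Nat.card ↥(X.map π) = Nat.card ↥(Y.map π) →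
      ∃ g : G ⧸ M, Y.map π = (X.map π).map (MulAut.conj g).toMonoidHom := by
    intro h
    apply ih _ hlt (G ⧸ M) rfl inferInstance (X.map π) (Y.map π) h
    intro r hr hrd R hR
    have : Fact r.Prime := ⟨hr⟩
    obtain ⟨P, hP, hPR⟩ := exists_pgroup_map π hπs hR
    have hPc := hcyc r hr (hrd.trans (Subgroup.card_map_dvd (H := X) π)) P hP
    rw [← hPR]
    exact isCyclic_of_surjective (π.subgroupMap P) (π.subgroupMap_surjective P)
  by_cases hqX : q ∣ Nat.card ↥X
  · have hMX : M ≤ X := le_of_cyclic_pgroups hne hMq (hcyc q hq hqX) hqX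
    have hMY : M ≤ Y := le_of_cyclic_pgroups hne hMq (hcyc q hq hqX) (hcard ▸ hqX)
    have hc : Nat.card ↥(X.map π) = Nat.card ↥(Y.map π) := by
      have h1 := card_map_mk_of_le hMX
      have h2 := card_map_mk_of_le hMY
      apply Nat.eq_of_mul_eq_mul_left (Nat.card_pos (α := ↥M))
      rw [h1, h2, hcard]
    have hker : π.ker = M := QuotientGroup.ker_mk' M
    exact conj_of_map π hπs (by rw [hker]; exact hMX) (by rw [hker]; exact hMY) (hIH hc)
  · have hcop : (Nat.card ↥M).Coprime (Nat.card ↥X) := by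
      rw [ht]
      exact Nat.Coprime.pow_left t (hq.coprime_iff_not_dvd.mpr hqX)
    have hMs : Group.IsSolvable ↥M := inferInstance
    apply conj_of_map_coprime hMs hcard hcop
    apply hIH
    rw [card_map_mk_of_coprime hcop, card_map_mk_of_coprime (hcard ▸ hcop), hcard]

/-- **Conjugacy of subgroups whose primes have cyclic Sylow subgroups.** -/
theorem conj_of_cyclic {G : Type*} [Group G] [Finite G] [hs : Group.IsSolvable G] {X Y : Subgroup G}
    (hcard : Nat.card ↥X = Nat.card ↥Y)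
    (hcyc : ∀ (r : ℕ), r.Prime → r ∣ Nat.card ↥X → ∀ R : Subgroup G, IsPGroup r ↥R → IsCyclic ↥R) :
    ∃ g : G, Y = X.map (MulAut.conj g).toMonoidHom :=
  conj_of_cyclic_aux _ G rfl hs X Y hcard hcyc

end Cfsg.Agent.H477
end

-- part: H477/NormB
section
/-!
`N_G(D) / M` is a B-group, for `1 < D < M`, `M` the normal elementary abelian Sylow subgroup of a
solvable B-group.
-/

set_option autoImplicit false

namespace Cfsg.Agent.H477

open Subgroup

section General
variable {G : Type*} [Group G] [Finite G]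

omit [Finite G] in
theorem card_sup_of_normal {M X : Subgroup G} [M.Normal]
    (hcop : (Nat.card ↥M).Coprime (Nat.card ↥X)) :
    Nat.card ↥(M ⊔ X) = Nat.card ↥M * Nat.card ↥X := by
  have h1 := relIndex_mul_relIndex (⊥ : Subgroup G) M (M ⊔ X) bot_le le_sup_left
  rw [relIndex_bot_left, relIndex_bot_left, relIndex_sup_left] at h1
  rw [← h1]
  congr 1
  have h2 := relIndex_mul_relIndex (⊥ : Subgroup G) (M ⊓ X) X bot_le inf_le_right
  rw [relIndex_bot_left, relIndex_bot_left, inf_relIndex_right,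
    (Subgroup.disjoint_of_coprime_natCard hcop).eq_bot, Subgroup.card_bot, one_mul] at h2
  exact h2

omit [Finite G] in
theorem card_sup_of_le_normalizer {D X : Subgroup G} (hX : X ≤ normalizer (D : Set G))
    (hcop : (Nat.card ↥D).Coprime (Nat.card ↥X)) :
    Nat.card ↥(D ⊔ X) = Nat.card ↥D * Nat.card ↥X := by
  set N := normalizer (D : Set G) with hN
  have hDN : D ≤ N := le_normalizer
  have : (D.subgroupOf N).Normal := normal_in_normalizer
  have hcD : Nat.card ↥(D.subgroupOf N) = Nat.card ↥D := Nat.card_congr (subgroupOfEquivOfLe hDN).toEquiv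
  have hcX : Nat.card ↥(X.subgroupOf N) = Nat.card ↥X := Nat.card_congr (subgroupOfEquivOfLe hX).toEquiv
  have h1 := card_sup_of_normal (M := D.subgroupOf N) (X := X.subgroupOf N) (by rw [hcD, hcX]; exact hcop)
  rw [hcD, hcX] at h1
  rw [← h1, ← Subgroup.card_map_of_injective N.subtype_injective, Subgroup.map_sup,
    Subgroup.map_subgroupOf_eq_of_le hDN, Subgroup.map_subgroupOf_eq_of_le hX]

omit [Finite G] in
/-- Elements of the join of two commuting subgroups are products. -/
theorem exists_mul_of_mem_sup {D Y : Subgroup G} (hc : ∀ y ∈ Y, ∀ d ∈ D, y * d = d * y) {z : G}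
    (hz : z ∈ D ⊔ Y) : ∃ d ∈ D, ∃ y ∈ Y, z = d * y ∧ Commute d y := by
  have h1 : D ≤ normalizer (Y : Set G) := by
    intro d hd
    rw [mem_normalizer_iff]
    intro y
    constructor
    · intro hy
      rw [← hc y hy d hd, mul_inv_cancel_right]
      exact hy
    · intro hy
      have h2 := hc _ hy d hd
      have h3 : d * y = d * (d * y * d⁻¹) := by rw [← h2]; group
      have h4 : y = d * y * d⁻¹ := mul_left_cancel h3
      rw [h4]; exact hy
  have h2 : z ∈ ((D ⊔ Y : Subgroup G) : Set G) := hz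
  rw [coe_mul_of_left_le_normalizer_right _ _ h1] at h2
  obtain ⟨d, hd, y, hy, rfl⟩ := h2
  exact ⟨d, hd, y, hy, rfl, (hc y hy d hd).symm⟩

omit [Finite G] in
theorem pow_card_mem_eq_one {X : Subgroup G} {x : G} (hx : x ∈ X) : x ^ Nat.card ↥X = 1 := by
  have : (⟨x, hx⟩ : ↥X) ^ Nat.card ↥X = 1 := pow_card_eq_one'
  exact congrArg Subtype.val this

/-- Fusion of abelian subgroups of `C_G(D)`. -/
theorem IsB.conj_in_normalizer (hB : IsB G) {p : ℕ} [hp : Fact p.Prime] {D : Subgroup G}
    (hDc : IsMulCommutative ↥D) (hDp : ∀ x ∈ D, x ^ p = 1) {X Y : Subgroup G}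
    (hX : X ≤ centralizer (D : Set G)) (hY : Y ≤ centralizer (D : Set G))
    (hXc : IsMulCommutative ↥X) (hYc : IsMulCommutative ↥Y) (hcard : Nat.card ↥X = Nat.card ↥Y)
    (hcop : p.Coprime (Nat.card ↥X)) :
    ∃ g ∈ normalizer (D : Set G), Y = X.map (MulAut.conj g).toMonoidHom := by
  obtain ⟨t, ht⟩ := card_eq_pow_of_exponent hp.out hDp
  have hcX : ∀ x ∈ X, ∀ d ∈ D, x * d = d * x := fun x hx d hd =>
    (mem_centralizer_iff.mp (hX hx) d hd).symm
  have hcY : ∀ x ∈ Y, ∀ d ∈ D, x * d = d * x := fun x hx d hd =>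
    (mem_centralizer_iff.mp (hY hx) d hd).symm
  have hcopX : (Nat.card ↥D).Coprime (Nat.card ↥X) := by rw [ht]; exact Nat.Coprime.pow_left t hcop
  have hcopY : (Nat.card ↥D).Coprime (Nat.card ↥Y) := hcard ▸ hcopX
  have hcardX := card_sup_of_le_normalizer (hX.trans (centralizer_le_normalizer _)) hcopX
  have hcardY := card_sup_of_le_normalizer (hY.trans (centralizer_le_normalizer _)) hcopY
  obtain ⟨g, hg⟩ := hB (D ⊔ X) (D ⊔ Y) (isMulCommutative_sup hDc hXc hcX)
    (isMulCommutative_sup hDc hYc hcY) (by rw [hcardX, hcardY, hcard])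
  have hDg : D.map (MulAut.conj g).toMonoidHom = D := by
    apply Subgroup.eq_of_le_of_card_ge
    · rintro _ ⟨d, hd, rfl⟩
      have h1 : (MulAut.conj g).toMonoidHom d ∈ D ⊔ Y := by
        rw [hg]; exact ⟨d, (le_sup_left : D ≤ D ⊔ X) hd, rfl⟩
      obtain ⟨d', hd', y, hy, h2, h3⟩ := exists_mul_of_mem_sup hcY h1
      have h4 : (d' * y) ^ p = 1 := by rw [← h2, ← map_pow, hDp d hd, map_one]
      rw [h3.mul_pow, hDp d' hd', one_mul] at h4
      have h5 : y = 1 := eq_one_of_pow_coprime (hcard ▸ hcop) h4 (pow_card_mem_eq_one hy)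
      rw [h2, h5, mul_one]
      exact hd'
    · rw [card_map_conj]
  refine ⟨g, mem_normalizer_iff_map_conj_eq.mpr hDg, ?_⟩
  symm
  apply Subgroup.eq_of_le_of_card_ge
  · rintro _ ⟨x, hx, rfl⟩
    have h1 : (MulAut.conj g).toMonoidHom x ∈ D ⊔ Y := by
      rw [hg]; exact ⟨x, (le_sup_right : X ≤ D ⊔ X) hx, rfl⟩
    obtain ⟨d', hd', y, hy, h2, h3⟩ := exists_mul_of_mem_sup hcY h1
    have h4 : (d' * y) ^ Nat.card ↥X = 1 := by
      rw [← h2, ← map_pow, pow_card_mem_eq_one hx, map_one]
    rw [h3.mul_pow, hcard, pow_card_mem_eq_one hy, mul_one, ← hcard] at h4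
    have h5 : d' = 1 := eq_one_of_pow_coprime hcop (hDp d' hd') h4
    rw [h2, h5, one_mul]
    exact hy
  · rw [card_map_conj, hcard]

/-- Splitting of an order into the part composed of primes of `c` and the rest. -/
theorem exists_split (n c : ℕ) (hn : n ≠ 0) :
    ∃ a b : ℕ, n = a * b ∧ b.Coprime c ∧ ∀ r : ℕ, r.Prime → r ∣ a → r ∣ c := by
  classical
  obtain ⟨b, hb, hbmax⟩ := Finset.exists_max_image (n.divisors.filter (fun b => b.Coprime c)) id
    ⟨1, by rw [Finset.mem_filter]; exact ⟨Nat.one_mem_divisors.mpr hn, Nat.coprime_one_left c⟩⟩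
  rw [Finset.mem_filter, Nat.mem_divisors] at hb
  obtain ⟨⟨⟨a, ha⟩, -⟩, hbc⟩ := hb
  refine ⟨a, b, by rw [ha, mul_comm], hbc, ?_⟩
  intro r hr hra
  by_contra hrc
  obtain ⟨a', rfl⟩ := hra
  have h1 : b * r ∈ n.divisors.filter (fun b => b.Coprime c) := by
    rw [Finset.mem_filter, Nat.mem_divisors]
    refine ⟨⟨⟨a', by rw [ha]; ring⟩, hn⟩, ?_⟩
    exact Nat.Coprime.mul_left hbc (hr.coprime_iff_not_dvd.mpr hrc)
  have h2 := hbmax _ h1
  simp only [id] at h2
  have h3 : 0 < b := by
    rcases Nat.eq_zero_or_pos b with h | h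
    · rw [h, zero_mul] at ha; exact absurd ha hn
    · exact h
  have h4 := hr.two_le
  nlinarith

/-- An abelian subgroup of order `a * b`, `a`, `b` coprime, splits. -/
theorem exists_split_subgroup {X : Subgroup G} (hXc : IsMulCommutative ↥X) {a b : ℕ}
    (hab : Nat.card ↥X = a * b) (hcop : a.Coprime b) :
    ∃ X₁ X₂ : Subgroup G, Nat.card ↥X₁ = a ∧ Nat.card ↥X₂ = b ∧ X₁ ⊔ X₂ = X := by
  have : Group.IsSolvable ↥X := Group.isSolvable_of_comm hXc.is_comm.comm
  obtain ⟨H₁, h1⟩ := Cfsg.Agent.S0003.result (G := ↥X) a b hab hcop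
  obtain ⟨H₂, h2⟩ := Cfsg.Agent.S0003.result (G := ↥X) b a (by rw [hab, mul_comm]) hcop.symm
  have h3 : H₁.IsComplement' H₂ :=
    isComplement'_of_coprime (by rw [h1, h2, hab]) (by rw [h1, h2]; exact hcop)
  refine ⟨H₁.map X.subtype, H₂.map X.subtype, ?_, ?_, ?_⟩
  · rw [Subgroup.card_map_of_injective X.subtype_injective, h1]
  · rw [Subgroup.card_map_of_injective X.subtype_injective, h2]
  · rw [← Subgroup.map_sup, h3.sup_eq_top, ← MonoidHom.range_eq_map, Subgroup.range_subtype]

/-- A quotient by a normal Hall subgroup is a B-group if abelian complements are conjugate. -/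
theorem isB_quot_of_coprime {M : Subgroup G} [hM : M.Normal] (hcop : (Nat.card ↥M).Coprime M.index)
    (H : ∀ X Y : Subgroup G, IsMulCommutative ↥X → IsMulCommutative ↥Y →
      Nat.card ↥X = Nat.card ↥Y → (Nat.card ↥M).Coprime (Nat.card ↥X) →
      ∃ g : G, Y = X.map (MulAut.conj g).toMonoidHom) : IsB (G ⧸ M) := by
  intro A B hAc hBc hcard
  apply conj_of_comap (QuotientGroup.mk' M) (QuotientGroup.mk'_surjective M)
  have hker : (QuotientGroup.mk' M).ker = M := QuotientGroup.ker_mk' M
  set A' := A.comap (QuotientGroup.mk' M) with hA'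
  set B' := B.comap (QuotientGroup.mk' M) with hB'
  have hMA : M ≤ A' := by
    have := MonoidHom.ker_le_comap (QuotientGroup.mk' M) A
    rwa [hker] at this
  have hMB : M ≤ B' := by
    have := MonoidHom.ker_le_comap (QuotientGroup.mk' M) B
    rwa [hker] at this
  have hcard' : Nat.card ↥A' = Nat.card ↥B' := by
    rw [hA', hB', card_comap_of_surjective _ (QuotientGroup.mk'_surjective M),
      card_comap_of_surjective _ (QuotientGroup.mk'_surjective M), hcard]
  have hab : ∀ C : Subgroup (G ⧸ M), IsMulCommutative ↥C →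
      ∀ a ∈ C.comap (QuotientGroup.mk' M), ∀ b ∈ C.comap (QuotientGroup.mk' M),
        a * b * a⁻¹ * b⁻¹ ∈ M := by
    intro C hC a ha b hb
    have h1 := isMulCommutative_iff.mp hC _ ha _ hb
    rw [← hker, MonoidHom.mem_ker, map_mul, map_mul, map_mul, map_inv, map_inv, h1]
    group
  have hcopA : (Nat.card ↥M).Coprime (M.relIndex A') :=
    hcop.coprime_dvd_right (relIndex_dvd_index_of_le hMA)
  have hcopB : (Nat.card ↥M).Coprime (M.relIndex B') :=
    hcop.coprime_dvd_right (relIndex_dvd_index_of_le hMB)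
  obtain ⟨K, hKA, hKs, hKc, hKab⟩ := exists_compl_in hMA hcopA (hab A hAc)
  obtain ⟨L, hLB, hLs, hLc, hLab⟩ := exists_compl_in hMB hcopB (hab B hBc)
  obtain ⟨g, hg⟩ := H K L hKab hLab (by rw [hKc, hLc, relIndex_eq_of_card_eq hMA hMB hcard'])
    (by rw [hKc]; exact hcopA)
  refine ⟨g, ?_⟩
  rw [← hLs, ← hKs, Subgroup.map_sup, ← hg]
  congr 1
  exact (hM.conjAct g).symm

end General

section Main
variable {G : Type*} [Group G] [Finite G]

/-- Abelian `p'`-subgroups of `N_G(D)` of the same order are conjugate in `N_G(D)`. -/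
theorem IsB.conj_in_normalizer' [hs : Group.IsSolvable G] (hB : IsB G) {p : ℕ} [hp : Fact p.Prime]
    {M : Subgroup G} [M.Normal] (hMc : IsMulCommutative ↥M)
    (hMp : ∀ x ∈ M, x ^ p = 1) {D : Subgroup G} (hDM : D ≤ M) (hD1 : D ≠ ⊥) (hD2 : D ≠ M)
    {X Y : Subgroup G} (hX : X ≤ normalizer (D : Set G)) (hY : Y ≤ normalizer (D : Set G))
    (hXc : IsMulCommutative ↥X) (hYc : IsMulCommutative ↥Y) (hcard : Nat.card ↥X = Nat.card ↥Y)
    (hcop : p.Coprime (Nat.card ↥X)) :
    ∃ g ∈ normalizer (D : Set G), Y = X.map (MulAut.conj g).toMonoidHom := by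
  set N := normalizer (D : Set G) with hN
  set C := centralizer (D : Set G) with hC
  set c := C.relIndex N with hc
  obtain ⟨a, b, hab, hbc, hac⟩ := exists_split (Nat.card ↥X) c (Nat.card_pos).ne'
  have hacop : a.Coprime b := by
    apply Nat.Coprime.symm
    rw [Nat.coprime_iff_gcd_eq_one]
    by_contra hne
    obtain ⟨r, hr, hrd⟩ := Nat.exists_prime_and_dvd hne
    have h1 : r ∣ b := hrd.trans (Nat.gcd_dvd_left _ _)
    have h2 : r ∣ a := hrd.trans (Nat.gcd_dvd_right _ _)
    have h3 := Nat.dvd_gcd h1 (hac r hr h2)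
    rw [hbc] at h3
    exact hr.one_lt.ne' (Nat.dvd_one.mp h3)
  obtain ⟨X₁, X₂, hX₁, hX₂, hXs⟩ := exists_split_subgroup hXc hab hacop
  obtain ⟨Y₁, Y₂, hY₁, hY₂, hYs⟩ := exists_split_subgroup hYc (hcard ▸ hab) hacop
  have hDc : IsMulCommutative ↥D := isMulCommutative_mono hDM hMc
  have hDp : ∀ x ∈ D, x ^ p = 1 := fun x hx => hMp x (hDM hx)
  -- the `b`-parts centralise `D`
  have hcent : ∀ Z : Subgroup G, Z ≤ N → Nat.card ↥Z = b → Z ≤ C := by
    intro Z hZN hZb z hz
    have hCn : (C.subgroupOf N).Normal := inferInstance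
    have h1 : ((⟨z, hZN hz⟩ : ↥N) : ↥N) ^ c ∈ C.subgroupOf N := Subgroup.pow_index_mem (C.subgroupOf N) _
    have h2 : z ^ b = 1 := by rw [← hZb]; exact pow_card_mem_eq_one hz
    have h3 : (QuotientGroup.mk' (C.subgroupOf N) ⟨z, hZN hz⟩) ^ c = 1 := by
      rw [← map_pow]
      exact (QuotientGroup.eq_one_iff _).mpr h1
    have h4 : (QuotientGroup.mk' (C.subgroupOf N) ⟨z, hZN hz⟩) ^ b = 1 := by
      rw [← map_pow]
      have : (⟨z, hZN hz⟩ : ↥N) ^ b = 1 := Subtype.ext h2
      rw [this, map_one]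
    have h5 := eq_one_of_pow_coprime hbc h4 h3
    have h6 : (⟨z, hZN hz⟩ : ↥N) ∈ C.subgroupOf N := (QuotientGroup.eq_one_iff _).mp h5
    exact h6
  have hX₁X : X₁ ≤ X := by rw [← hXs]; exact le_sup_left
  have hX₂X : X₂ ≤ X := by rw [← hXs]; exact le_sup_right
  have hY₁Y : Y₁ ≤ Y := by rw [← hYs]; exact le_sup_left
  have hY₂Y : Y₂ ≤ Y := by rw [← hYs]; exact le_sup_right
  obtain ⟨g, hgN, hg⟩ := hB.conj_in_normalizer hDc hDp (hcent X₂ (hX₂X.trans hX) hX₂)
    (hcent Y₂ (hY₂Y.trans hY) hY₂) (isMulCommutative_mono hX₂X hXc) (isMulCommutative_mono hY₂Y hYc)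
    (by rw [hX₂, hY₂]) (by
      rw [hX₂]
      exact hcop.coprime_dvd_right (by rw [hab]; exact dvd_mul_left b a))
  -- replace `X` by its conjugate
  set X' := X.map (MulAut.conj g).toMonoidHom with hX'
  set X₁' := X₁.map (MulAut.conj g).toMonoidHom with hX₁'
  have hX's : X₁' ⊔ Y₂ = X' := by
    rw [hX₁', hg, ← Subgroup.map_sup, hXs]
  have hX'c : IsMulCommutative ↥X' := by
    rw [isMulCommutative_iff]
    rintro _ ⟨x, hx, rfl⟩ _ ⟨y, hy, rfl⟩
    rw [← map_mul, ← map_mul, isMulCommutative_iff.mp hXc x hx y hy]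
  have hX'N : X' ≤ N := by
    rintro _ ⟨x, hx, rfl⟩
    exact N.mul_mem (N.mul_mem hgN (hX hx)) (N.inv_mem hgN)
  set T := N ⊓ centralizer (Y₂ : Set G) with hT
  have hX₁'T : X₁' ≤ T := by
    apply le_inf
    · exact (le_sup_left : X₁' ≤ X₁' ⊔ Y₂).trans (hX's.le.trans hX'N)
    · intro x hx
      rw [mem_centralizer_iff]
      intro y hy
      have hx' : x ∈ X' := by rw [← hX's]; exact (le_sup_left : X₁' ≤ X₁' ⊔ Y₂) hx
      have hy' : y ∈ X' := by rw [← hX's]; exact (le_sup_right : Y₂ ≤ X₁' ⊔ Y₂) hy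
      exact isMulCommutative_iff.mp hX'c y hy' x hx'
  have hY₁T : Y₁ ≤ T := by
    apply le_inf (hY₁Y.trans hY)
    intro x hx
    rw [mem_centralizer_iff]
    intro y hy
    exact isMulCommutative_iff.mp hYc y (hY₂Y hy) x (hY₁Y hx)
  have hcX₁ : Nat.card ↥(X₁'.subgroupOf T) = a := by
    rw [Nat.card_congr (subgroupOfEquivOfLe hX₁'T).toEquiv, hX₁', card_map_conj, hX₁]
  have hcY₁ : Nat.card ↥(Y₁.subgroupOf T) = a := by
    rw [Nat.card_congr (subgroupOfEquivOfLe hY₁T).toEquiv, hY₁]
  obtain ⟨t, htT, ht⟩ := conj_mem_of_subgroupOf hX₁'T hY₁T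
    (conj_of_cyclic (G := ↥T) (X := X₁'.subgroupOf T) (Y := Y₁.subgroupOf T) (by rw [hcX₁, hcY₁]) (by
      intro r hr hrd R hR
      rw [hcX₁] at hrd
      have : Fact r.Prime := ⟨hr⟩
      have : IsMulCommutative ↥M := hMc
      have h1 : IsCyclic ↥(R.map T.subtype) := hB.isCyclic_of_dvd M hMp hDM hD1 hD2 (hac r hr hrd)
        ((Subgroup.map_subtype_le R).trans inf_le_left) (hR.map T.subtype)
      exact isCyclic_of_injective ((R.equivMapOfInjective T.subtype T.subtype_injective).toMonoidHom)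
        (R.equivMapOfInjective T.subtype T.subtype_injective).injective))
  have hY₂t : Y₂.map (MulAut.conj t).toMonoidHom = Y₂ := by
    ext x
    constructor
    · rintro ⟨y, hy, rfl⟩
      have := mem_centralizer_iff.mp htT.2 y hy
      have h3 : (MulAut.conj t).toMonoidHom y = y := by simp [← this]
      rw [h3]; exact hy
    · intro hx
      refine ⟨x, hx, ?_⟩
      have := mem_centralizer_iff.mp htT.2 x hx
      simp [← this]
  refine ⟨t * g, N.mul_mem htT.1 hgN, ?_⟩
  apply conj_trans_of hX'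
  rw [← hYs, ← hX's, Subgroup.map_sup, ← ht, hY₂t]

/-- **`N_G(D) / M` is a B-group.** -/
theorem IsB.isB_normalizer_quot [hs : Group.IsSolvable G] (hB : IsB G) {p : ℕ} [hp : Fact p.Prime]
    {M : Subgroup G} [M.Normal] (hMc : IsMulCommutative ↥M)
    (hMp : ∀ x ∈ M, x ^ p = 1) (hMi : (Nat.card ↥M).Coprime M.index)
    {D : Subgroup G} (hDM : D ≤ M) (hD1 : D ≠ ⊥) (hD2 : D ≠ M)
    (hMN : M ≤ normalizer (D : Set G)) :
    IsB (↥(normalizer (D : Set G)) ⧸ M.subgroupOf (normalizer (D : Set G))) := by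
  set N := normalizer (D : Set G) with hN
  have hcM : Nat.card ↥(M.subgroupOf N) = Nat.card ↥M := Nat.card_congr (subgroupOfEquivOfLe hMN).toEquiv
  have hMne : M ≠ ⊥ := by
    rintro rfl
    exact hD1 (le_bot_iff.mp hDM)
  have hpM : p ∣ Nat.card ↥M := by
    obtain ⟨m, hm, hmo⟩ := exists_orderOf_eq_prime hp.out hMne hMp
    rw [← hmo, ← Subgroup.orderOf_mk m hm]
    exact orderOf_dvd_natCard _
  apply isB_quot_of_coprime
  · rw [hcM]
    exact hMi.coprime_dvd_right (relIndex_dvd_index_of_le hMN)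
  · intro X Y hXc hYc hcard hcop
    rw [hcM] at hcop
    have hcop' : p.Coprime (Nat.card ↥X) := hcop.coprime_dvd_left hpM
    have hXN : X.map N.subtype ≤ N := Subgroup.map_subtype_le X
    have hYN : Y.map N.subtype ≤ N := Subgroup.map_subtype_le Y
    have hmc : ∀ Z : Subgroup ↥N, IsMulCommutative ↥Z → IsMulCommutative ↥(Z.map N.subtype) := by
      intro Z hZ
      rw [isMulCommutative_iff]
      rintro _ ⟨x, hx, rfl⟩ _ ⟨y, hy, rfl⟩
      exact congrArg Subtype.val (isMulCommutative_iff.mp hZ x hx y hy)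
    have hcm : ∀ Z : Subgroup ↥N, Nat.card ↥(Z.map N.subtype) = Nat.card ↥Z := fun Z =>
      Subgroup.card_map_of_injective N.subtype_injective
    obtain ⟨g, hgN, hg⟩ := hB.conj_in_normalizer' hMc hMp hDM hD1 hD2 hXN hYN (hmc X hXc) (hmc Y hYc)
      (by rw [hcm, hcm, hcard]) (by rw [hcm]; exact hcop')
    refine ⟨⟨g, hgN⟩, ?_⟩
    apply Subgroup.map_injective N.subtype_injective
    rw [hg, Subgroup.map_map, Subgroup.map_map]
    congr 1

end Main

end Cfsg.Agent.H477
end

-- part: H477/SolvB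
section
/-!
In a finite solvable B-group all subgroups of the same order are conjugate.
-/

set_option autoImplicit false

namespace Cfsg.Agent.H477

open Subgroup

theorem IsB.isC_aux (n : ℕ) : ∀ (G : Type*) [Group G] [Finite G], Nat.card G = n →
    Group.IsSolvable G → IsB G → IsC G := by
  induction n using Nat.strong_induction_on with
  | _ n ih =>
  intro G _ _ hn hs hB A B hcard
  by_cases htop : (⊤ : Subgroup G) = ⊥
  · have h1 : Subsingleton (Subgroup G) := subsingleton_of_bot_eq_top htop.symm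
    exact ⟨1, Subsingleton.elim _ _⟩
  obtain ⟨M, p, hMn, -, hne, hp, hMc, hMp⟩ := exists_elem_normal (⊤ : Subgroup G) htop
  obtain ⟨t, ht⟩ := card_eq_pow_of_exponent hp hMp
  have hpf : Fact p.Prime := ⟨hp⟩
  have hlt : Nat.card (G ⧸ M) < n := by
    rw [← hn, ← Subgroup.index_eq_card, ← M.index_mul_card]
    apply lt_mul_of_one_lt_right
    · exact Nat.pos_of_ne_zero Subgroup.index_ne_zero_of_finite
    · exact (Subgroup.one_lt_card_iff_ne_bot _).mpr hne
  have hMs : Group.IsSolvable ↥M := inferInstance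
  have hIC : IsC (G ⧸ M) := ih _ hlt (G ⧸ M) rfl inferInstance (hB.quot_of_solvable M hs)
  have hker : (QuotientGroup.mk' M).ker = M := QuotientGroup.ker_mk' M
  -- the two easy cases
  have hle : ∀ X Y : Subgroup G, Nat.card ↥X = Nat.card ↥Y → M ≤ X → M ≤ Y →
      ∃ g : G, Y = X.map (MulAut.conj g).toMonoidHom := by
    intro X Y h hX hY
    have hc : Nat.card ↥(X.map (QuotientGroup.mk' M)) = Nat.card ↥(Y.map (QuotientGroup.mk' M)) := by
      have h1 := card_map_mk_of_le hX
      have h2 := card_map_mk_of_le hY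
      apply Nat.eq_of_mul_eq_mul_left (Nat.card_pos (α := ↥M))
      rw [h1, h2, h]
    exact conj_of_map _ (QuotientGroup.mk'_surjective M) (by rw [hker]; exact hX)
      (by rw [hker]; exact hY) (hIC _ _ hc)
  have hcopr : ∀ X Y : Subgroup G, Nat.card ↥X = Nat.card ↥Y →
      (Nat.card ↥M).Coprime (Nat.card ↥X) →
      ∃ g : G, Y = X.map (MulAut.conj g).toMonoidHom := by
    intro X Y h hcop
    apply conj_of_map_coprime hMs h hcop
    apply hIC
    rw [card_map_mk_of_coprime hcop, card_map_mk_of_coprime (h ▸ hcop), h]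
  rcases Nat.lt_or_ge t 2 with h2 | h2
  · interval_cases t
    · exfalso
      rw [pow_zero] at ht
      exact hne (Subgroup.card_eq_one.mp ht)
    · rw [pow_one] at ht
      by_cases hpA : p ∣ Nat.card ↥A
      · have hMle : ∀ X : Subgroup G, p ∣ Nat.card ↥X → M ≤ X := by
          intro X hX
          obtain ⟨x, hx⟩ := exists_prime_orderOf_dvd_card' (G := ↥X) p hX
          have h1 : Subgroup.zpowers (x : G) = M := by
            apply hB.eq_of_normal (isMulCommutative_of_card_prime ht) inferInstance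
            rw [Nat.card_zpowers, Subgroup.orderOf_coe, hx, ht]
          rw [← h1]
          exact Subgroup.zpowers_le.mpr x.2
        exact hle A B hcard (hMle A hpA) (hMle B (hcard ▸ hpA))
      · apply hcopr A B hcard
        rw [ht]
        exact hp.coprime_iff_not_dvd.mpr hpA
  · -- `M` is the Sylow `p`-subgroup
    have hMi : (Nat.card ↥M).Coprime M.index := by
      obtain ⟨P⟩ : Nonempty (Sylow p G) := inferInstance
      have hPM := hB.eq_sylow h2 ht hMc hMp P
      have h3 := P.card_coprime_index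
      rwa [hPM] at h3
    have hpM : p ∣ Nat.card ↥M := by
      rw [ht]; exact dvd_pow_self p (by omega)
    have hMip : p.Coprime M.index := hMi.coprime_dvd_left hpM
    -- orders of the intersections with `M`
    have hcint : ∀ X : Subgroup G, Nat.card ↥(M ⊓ X) * M.relIndex X = Nat.card ↥X := by
      intro X
      have h3 := relIndex_mul_relIndex (⊥ : Subgroup G) (M ⊓ X) X bot_le inf_le_right
      rwa [relIndex_bot_left, relIndex_bot_left, inf_relIndex_right] at h3
    have hrel : ∀ X : Subgroup G, p.Coprime (M.relIndex X) := fun X =>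
      hMip.coprime_dvd_right (relIndex_dvd_index_of_normal M X)
    have hpow : ∀ X : Subgroup G, ∃ k, Nat.card ↥(M ⊓ X) = p ^ k := fun X =>
      card_eq_pow_of_exponent hp (fun x hx => hMp x hx.1)
    have hdv : ∀ X Y : Subgroup G, Nat.card ↥X = Nat.card ↥Y →
        Nat.card ↥(M ⊓ X) ∣ Nat.card ↥(M ⊓ Y) := by
      intro X Y h
      obtain ⟨k, hk⟩ := hpow X
      have h3 : Nat.card ↥(M ⊓ X) ∣ Nat.card ↥(M ⊓ Y) * M.relIndex Y := by
        rw [hcint Y, ← h, ← hcint X]; exact dvd_mul_right _ _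
      rw [hk] at h3 ⊢
      exact (Nat.Coprime.pow_left k (hrel Y)).dvd_of_dvd_mul_right h3
    obtain ⟨g, hg⟩ := hB (M ⊓ A) (M ⊓ B) (isMulCommutative_mono inf_le_left hMc)
      (isMulCommutative_mono inf_le_left hMc) (Nat.dvd_antisymm (hdv A B hcard) (hdv B A hcard.symm))
    set A' := A.map (MulAut.conj g).toMonoidHom with hA'
    have hcard' : Nat.card ↥A' = Nat.card ↥B := by rw [hA', card_map_conj, hcard]
    have hMg : M.map (MulAut.conj g).toMonoidHom = M := hMn.conjAct g
    have hMA' : M ⊓ A' = M ⊓ B := by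
      rw [hg, Subgroup.map_inf _ _ _ (MulAut.conj g).injective, hMg]
    -- it suffices to conjugate `A'` to `B`
    suffices h : ∃ g : G, B = A'.map (MulAut.conj g).toMonoidHom by
      obtain ⟨g', hg'⟩ := h
      exact ⟨g' * g, conj_trans_of hA' hg'⟩
    set D := M ⊓ B with hD
    have hDM : D ≤ M := inf_le_left
    have hDB : D ≤ B := inf_le_right
    have hDA' : D ≤ A' := by rw [← hMA']; exact inf_le_right
    by_cases hD1 : D = ⊥
    · apply hcopr A' B hcard'
      rw [ht]
      apply Nat.Coprime.pow_left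
      have h3 := hcint A'
      rw [hMA', hD1, Subgroup.card_bot, one_mul] at h3
      rw [← h3]
      exact hrel A'
    by_cases hD2 : D = M
    · exact hle A' B hcard' (hD2 ▸ hDA') (hD2 ▸ hDB)
    -- the main case
    set N := normalizer (D : Set G) with hN
    have hAN : A' ≤ N := by
      intro x hx
      rw [hN, mem_normalizer_iff_map_conj_eq, ← hMA', Subgroup.map_inf _ _ _ (MulAut.conj x).injective]
      congr 1
      · exact hMn.conjAct x
      · exact Subgroup.conj_smul_eq_self_of_mem hx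
    have hBN : B ≤ N := by
      intro x hx
      rw [hN, mem_normalizer_iff_map_conj_eq, hD, Subgroup.map_inf _ _ _ (MulAut.conj x).injective]
      congr 1
      · exact hMn.conjAct x
      · exact Subgroup.conj_smul_eq_self_of_mem hx
    have hMN : M ≤ N := by
      refine le_trans ?_ (centralizer_le_normalizer (D : Set G))
      intro x hx
      rw [mem_centralizer_iff]
      intro d hd
      exact isMulCommutative_iff.mp hMc d (hDM hd) x hx
    have hDN : D ≤ N := hDM.trans hMN
    have hBQ := hB.isB_normalizer_quot hMc hMp hMi hDM hD1 hD2 hMN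
    have hcM : Nat.card ↥(M.subgroupOf N) = Nat.card ↥M :=
      Nat.card_congr (subgroupOfEquivOfLe hMN).toEquiv
    have hltN : Nat.card (↥N ⧸ M.subgroupOf N) < n := by
      rw [← Subgroup.index_eq_card]
      have h3 : (M.subgroupOf N).index ∣ M.index := relIndex_dvd_index_of_normal M N
      refine lt_of_le_of_lt (Nat.le_of_dvd (Nat.pos_of_ne_zero Subgroup.index_ne_zero_of_finite) h3) ?_
      rw [Subgroup.index_eq_card]; exact hlt
    have hICN : IsC (↥N ⧸ M.subgroupOf N) :=
      ih _ hltN (↥N ⧸ M.subgroupOf N) rfl inferInstance hBQ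
    -- complements of `D`
    have hcomp : ∀ X : Subgroup G, D ≤ X → X ≤ N → M ⊓ X = D →
        ∃ K : Subgroup G, K ≤ X ∧ D ⊔ K = X ∧ Nat.card ↥K = M.relIndex X := by
      intro X hDX hXN hMX
      have hDn : (D.subgroupOf X).Normal := normal_subgroupOf_iff_le_normalizer hDX |>.mpr hXN
      have hcD : Nat.card ↥(D.subgroupOf X) = Nat.card ↥D :=
        Nat.card_congr (subgroupOfEquivOfLe hDX).toEquiv
      have hi : (D.subgroupOf X).index = M.relIndex X := by
        change D.relIndex X = M.relIndex X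
        rw [← hMX, inf_relIndex_right]
      obtain ⟨k, hk⟩ := hpow B
      obtain ⟨K, hK⟩ := Subgroup.exists_right_complement'_of_coprime (N := D.subgroupOf X) (by
        rw [hcD, hi, hD, hk]
        exact Nat.Coprime.pow_left k (hrel X))
      refine ⟨K.map X.subtype, Subgroup.map_subtype_le K, ?_, ?_⟩
      · have h3 := congrArg (Subgroup.map X.subtype) hK.sup_eq_top
        rwa [Subgroup.map_sup, Subgroup.map_subgroupOf_eq_of_le hDX, ← MonoidHom.range_eq_map,
          Subgroup.range_subtype] at h3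
      · rw [Subgroup.card_map_of_injective X.subtype_injective, ← hi]
        have h3 := hK.card_mul_card
        have h4 := (D.subgroupOf X).card_mul_index
        exact Nat.eq_of_mul_eq_mul_left Nat.card_pos (h3.trans h4.symm)
    obtain ⟨A₀, hA₀, hA₀s, hA₀c⟩ := hcomp A' hDA' hAN hMA'
    obtain ⟨B₀, hB₀, hB₀s, hB₀c⟩ := hcomp B hDB hBN rfl
    have hA₀N : A₀ ≤ N := hA₀.trans hAN
    have hB₀N : B₀ ≤ N := hB₀.trans hBN
    have hcA : Nat.card ↥(A₀.subgroupOf N) = Nat.card ↥A₀ :=
      Nat.card_congr (subgroupOfEquivOfLe hA₀N).toEquiv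
    have hcB : Nat.card ↥(B₀.subgroupOf N) = Nat.card ↥B₀ :=
      Nat.card_congr (subgroupOfEquivOfLe hB₀N).toEquiv
    have hc0 : Nat.card ↥A₀ = Nat.card ↥B₀ := by
      rw [hA₀c, hB₀c]
      have h3 := hcint A'
      have h4 := hcint B
      rw [hMA'] at h3
      exact Nat.eq_of_mul_eq_mul_left Nat.card_pos (h3.trans (hcard'.trans h4.symm))
    have hcopA : (Nat.card ↥(M.subgroupOf N)).Coprime (Nat.card ↥(A₀.subgroupOf N)) := by
      rw [hcM, hcA, hA₀c, ht]
      exact Nat.Coprime.pow_left t (hrel A')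
    have hcopB : (Nat.card ↥(M.subgroupOf N)).Coprime (Nat.card ↥(B₀.subgroupOf N)) := by
      rw [hcM, hcB, ← hc0, hA₀c, ht]
      exact Nat.Coprime.pow_left t (hrel A')
    have hMNs : Group.IsSolvable ↥(M.subgroupOf N) := inferInstance
    obtain ⟨y, hyN, hy⟩ := conj_mem_of_subgroupOf hA₀N hB₀N
      (conj_of_map_coprime (M := M.subgroupOf N) hMNs (X := A₀.subgroupOf N) (Y := B₀.subgroupOf N)
        (by rw [hcA, hcB, hc0]) hcopA
        (hICN _ _ (by rw [card_map_mk_of_coprime hcopA, card_map_mk_of_coprime hcopB, hcA, hcB, hc0])))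
    refine ⟨y, ?_⟩
    have hDy : D.map (MulAut.conj y).toMonoidHom = D := mem_normalizer_iff_map_conj_eq.mp hyN
    rw [← hA₀s, ← hB₀s, Subgroup.map_sup, ← hy, hDy]

/-- **In a finite solvable B-group all subgroups of the same order are conjugate.** -/
theorem IsB.isC {G : Type*} [Group G] [Finite G] [hs : Group.IsSolvable G] (hB : IsB G) : IsC G :=
  IsB.isC_aux _ G rfl hs hB

end Cfsg.Agent.H477
end

-- part: S3913
section
set_option autoImplicit false
open Cfsg

namespace Cfsg.Agent.S3913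

/-- If G is a finite solvable group in which any two abelian subgroups of the same order are conjugate, then any two subgroups of G of the same order are conjugate. -/
theorem result {G : Type*} [Group G] [Finite G] (hB : ∀ A B : Subgroup G, IsMulCommutative ↥A → IsMulCommutative ↥B → Nat.card ↥A = Nat.card ↥B → ∃ g : G, B = A.map (MulAut.conj g).toMonoidHom) (hsol : Group.IsSolvable G) (A B : Subgroup G)
    (h : Nat.card ↥A = Nat.card ↥B) : ∃ g : G, B = A.map (MulAut.conj g).toMonoidHom := by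
  have hB' : Cfsg.Agent.H477.IsB G := hB
  exact hB'.isC A B h

end Cfsg.Agent.S3913
end
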