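import Cfsg.Statements.S3920
set_option linter.all false

set_option autoImplicit false
open Cfsg

namespace Cfsg.Agent.S3920

open DihedralGroup

/-- elements of a subgroup of a dihedral group without reflections form a cyclic group -/
theorem isCyclic_of_rot {n : ℕ} (H : Subgroup (DihedralGroup n)) (h : ∀ i : ZMod n, sr i ∉ H) :
    IsCyclic ↥H := by
  have hle : H ≤ Subgroup.zpowers (r 1 : DihedralGroup n) := by
    intro x hx
    rcases x with i | i
    · rw [Subgroup.mem_zpowers_iff]
      refine ⟨(i.cast : ℤ), ?_⟩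
      rw [r_one_zpow]
      simp
    · exact absurd hx (h i)
  have e : (H.subgroupOf (Subgroup.zpowers (r 1 : DihedralGroup n))) ≃* H :=
    Subgroup.subgroupOfEquivOfLe hle
  exact isCyclic_of_surjective e e.surjective

/-- a non-cyclic subgroup contains a reflection and a nontrivial rotation -/
theorem exists_of_not_isCyclic {n : ℕ} (H : Subgroup (DihedralGroup n)) (h : ¬ IsCyclic ↥H) :
    (∃ i : ZMod n, sr i ∈ H) ∧ ∃ j : ZMod n, j ≠ 0 ∧ r j ∈ H := by
  have h1 : ∃ i : ZMod n, sr i ∈ H := by
    by_contra hcon
    push Not at hcon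
    exact h (isCyclic_of_rot H hcon)
  refine ⟨h1, ?_⟩
  obtain ⟨i, hi⟩ := h1
  by_contra hcon
  push Not at hcon
  apply h
  refine ⟨⟨⟨sr i, hi⟩, ?_⟩⟩
  rintro ⟨x, hx⟩
  rcases x with j | j
  · have : j = 0 := by
      by_contra hj
      exact hcon j hj hx
    subst this
    refine ⟨0, ?_⟩
    rfl
  · have h2 : r (j - i) ∈ H := by
      have := H.mul_mem hi hx
      rwa [sr_mul_sr] at this
    have : j - i = 0 := by
      by_contra hj
      exact hcon _ hj h2
    rw [sub_eq_zero] at this
    subst this
    refine ⟨1, ?_⟩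
    ext
    simp

theorem result (n : ℕ) (hn : 3 ≤ n) : (∀ H : Subgroup (DihedralGroup n), ¬ IsCyclic ↥H → Subgroup.centralizer (H : Set (DihedralGroup n)) ≤ H) ↔ (Odd n ∨ ∃ k : ℕ, n = 2 ^ k) := by
  haveI : NeZero n := ⟨by omega⟩
  constructor
  · intro h
    by_contra hcon
    push Not at hcon
    obtain ⟨hodd, hpow⟩ := hcon
    obtain ⟨a, m, hm, hnm⟩ := Nat.exists_eq_two_pow_mul_odd (n := n) (by omega)
    have ha : a ≠ 0 := by
      rintro rfl
      rw [pow_zero, one_mul] at hnm
      exact hodd (hnm ▸ hm)
    have hm1 : m ≠ 1 := by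
      rintro rfl
      exact hpow a (by omega)
    have hm3 : 3 ≤ m := by
      rcases hm with ⟨t, ht⟩
      omega
    -- the subgroup of the elements `r i`, `sr i` with `i` a multiple of `2 ^ a`
    have hdvd : 2 ^ a ∣ n := ⟨m, hnm⟩
    let f : ZMod n →+* ZMod (2 ^ a) := ZMod.castHom hdvd _
    let H : Subgroup (DihedralGroup n) :=
      { carrier := {x | match x with
          | r i => f i = 0
          | sr i => f i = 0}
        mul_mem' := by
          rintro (i | i) (j | j) hi hj <;> simp only [Set.mem_ofPred_eq] at hi hj ⊢ <;>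
            simp [hi, hj]
        one_mem' := by
          change f 0 = 0
          simp
        inv_mem' := by
          rintro (i | i) hi
          · change f (-i) = 0
            have : f i = 0 := hi
            simp [this]
          · exact hi }
    have hmemr : ∀ i : ZMod n, r i ∈ H ↔ f i = 0 := fun i => Iff.rfl
    have hmemsr : ∀ i : ZMod n, sr i ∈ H ↔ f i = 0 := fun i => Iff.rfl
    have hfn : ∀ t : ℕ, f (t : ZMod n) = 0 ↔ 2 ^ a ∣ t := by
      intro t
      rw [map_natCast]
      exact ZMod.natCast_eq_zero_iff t (2 ^ a)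
    have h2m : ((2 ^ a : ℕ) : ZMod n) + ((2 ^ a : ℕ) : ZMod n) ≠ 0 := by
      intro h0
      rw [← Nat.cast_add, ZMod.natCast_eq_zero_iff, hnm] at h0
      have h1 : 2 ^ a * m ≤ 2 ^ a + 2 ^ a := Nat.le_of_dvd (by positivity) h0
      have h2 : 2 ^ a * 3 ≤ 2 ^ a * m := Nat.mul_le_mul_left _ hm3
      have h3 : 0 < 2 ^ a := by positivity
      omega
    have hnc : ¬ IsCyclic ↥H := by
      intro hcyc
      have h1 : (sr 0 : DihedralGroup n) ∈ H := by
        rw [hmemsr]; simp
      have h2 : (r ((2 ^ a : ℕ) : ZMod n) : DihedralGroup n) ∈ H := by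
        rw [hmemr, hfn]
      let _ := IsCyclic.commGroup (α := ↥H)
      have h3 : (⟨sr 0, h1⟩ : H) * ⟨r ((2 ^ a : ℕ) : ZMod n), h2⟩ =
        ⟨r ((2 ^ a : ℕ) : ZMod n), h2⟩ * ⟨sr 0, h1⟩ := mul_comm _ _
      have h4 : (sr 0 : DihedralGroup n) * r ((2 ^ a : ℕ) : ZMod n) =
          r ((2 ^ a : ℕ) : ZMod n) * sr 0 := congrArg Subtype.val h3
      rw [sr_mul_r, r_mul_sr] at h4
      have h5 : (0 : ZMod n) + ((2 ^ a : ℕ) : ZMod n) = 0 - ((2 ^ a : ℕ) : ZMod n) := by
        injection h4
      apply h2m
      linear_combination h5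
    obtain ⟨b, rfl⟩ : ∃ b, a = b + 1 := Nat.exists_eq_succ_of_ne_zero ha
    have hz : (r ((2 ^ b * m : ℕ) : ZMod n) : DihedralGroup n) ∈ H := by
      apply h H hnc
      have h0 : ((2 ^ b * m : ℕ) : ZMod n) + ((2 ^ b * m : ℕ) : ZMod n) = 0 := by
        rw [← Nat.cast_add, ZMod.natCast_eq_zero_iff, hnm]
        exact ⟨1, by ring⟩
      rw [Subgroup.mem_centralizer_iff]
      rintro (i | i) -
      · rw [r_mul_r, r_mul_r, add_comm]
      · rw [sr_mul_r, r_mul_sr]
        congr 1
        linear_combination h0
    rw [hmemr, hfn] at hz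
    rw [pow_succ] at hz
    have h1 : 2 ∣ m := Nat.dvd_of_mul_dvd_mul_left (by positivity) hz
    rcases hm with ⟨t, ht⟩
    omega
  · intro hcase H hH
    obtain ⟨⟨i, hi⟩, j, hj, hjH⟩ := exists_of_not_isCyclic H hH
    -- the rotations `r k` with `2 k = 0` lie in `H`
    have key : ∀ k : ZMod n, k + k = 0 → r k ∈ H := by
      intro k hk
      rcases hcase with hodd | ⟨e, he⟩
      · have : k = 0 := by
          have h1 : (2 : ZMod n) * k = 0 := by rw [two_mul]; exact hk
          have h2 : IsUnit (2 : ZMod n) := by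
            have := (ZMod.isUnit_iff_coprime 2 n).2 (Nat.coprime_two_left.2 hodd)
            exact_mod_cast this
          exact (h2.mul_right_eq_zero).1 h1
        rw [this]
        exact H.one_mem
      · -- `n = 2 ^ e`
        by_cases hk0 : k = 0
        · rw [hk0]; exact H.one_mem
        -- k = 2 ^ (e-1); a multiple of j
        have hkv : k.val + k.val = n := by
          have h1 : n ∣ k.val + k.val := by
            rw [← ZMod.natCast_eq_zero_iff]
            push_cast
            rw [ZMod.natCast_zmod_val]
            exact hk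
          have h2 : k.val < n := ZMod.val_lt k
          have h3 : 0 < k.val := by
            rw [Nat.pos_iff_ne_zero]
            intro h
            exact hk0 ((ZMod.val_eq_zero k).1 h)
          obtain ⟨c, hc⟩ := h1
          have hc1 : c = 1 := by
            rcases Nat.lt_or_ge c 1 with h4 | h4
            · interval_cases c
              omega
            · rcases Nat.lt_or_ge c 2 with h5 | h5
              · omega
              · have : n * 2 ≤ n * c := Nat.mul_le_mul_left _ h5
                omega
          rw [hc1, mul_one] at hc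
          exact hc
        have he0 : e ≠ 0 := by
          rintro rfl
          omega
        obtain ⟨e', rfl⟩ : ∃ e', e = e' + 1 := Nat.exists_eq_succ_of_ne_zero he0
        have hkv' : k.val = 2 ^ e' := by
          rw [pow_succ] at he
          omega
        -- j = 2 ^ t * odd with t ≤ e'
        have hjv : 0 < j.val := by
          rw [Nat.pos_iff_ne_zero]
          intro h
          exact hj ((ZMod.val_eq_zero j).1 h)
        obtain ⟨t, u, hu, hju⟩ := Nat.exists_eq_two_pow_mul_odd (n := j.val) (by omega)
        have hjn : j.val < n := ZMod.val_lt j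
        have ht : t ≤ e' := by
          by_contra hlt
          push Not at hlt
          have h1 : 2 ^ (e' + 1) ≤ 2 ^ t := Nat.pow_le_pow_right (by norm_num) hlt
          have h2 : 2 ^ t * 1 ≤ 2 ^ t * u := Nat.mul_le_mul_left _ (by rcases hu with ⟨v, hv⟩; omega)
          omega
        -- `(2 ^ (e' - t)) • j = k`
        have h1 : (r j : DihedralGroup n) ^ (2 ^ (e' - t)) ∈ H := H.pow_mem hjH _
        rw [r_pow] at h1
        convert h1 using 2
        have h2 : j = ((2 ^ t * u : ℕ) : ZMod n) := by
          rw [← hju, ZMod.natCast_zmod_val]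
        have h3 : k = ((2 ^ e' : ℕ) : ZMod n) := by
          rw [← hkv', ZMod.natCast_zmod_val]
        rw [h2, h3]
        rcases hu with ⟨v, hv⟩
        have h4 : 2 ^ (e' - t) * (2 ^ t * u) = 2 ^ e' + n * v := by
          rw [← mul_assoc, ← pow_add, Nat.sub_add_cancel ht, hv, he]
          ring
        have h5 : ((2 ^ t * u : ℕ) : ZMod n) * ((2 ^ (e' - t) : ℕ) : ZMod n) =
            ((2 ^ e' : ℕ) : ZMod n) := by
          rw [mul_comm, ← Nat.cast_mul, h4]
          simp
        rw [← h5]
    intro x hx
    rw [Subgroup.mem_centralizer_iff] at hx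
    have hc := hx (sr i) hi
    rcases x with k | k
    · rw [sr_mul_r, r_mul_sr] at hc
      have h1 : i + k = i - k := by injection hc
      apply key
      linear_combination h1
    · rw [sr_mul_sr, sr_mul_sr] at hc
      have h1 : k - i = i - k := by injection hc
      have h2 : r (k - i) ∈ H := by
        apply key
        linear_combination h1
      have h3 := H.mul_mem hi h2
      rw [sr_mul_r] at h3
      convert h3 using 2
      ring

end Cfsg.Agent.S3920
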