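import Mathlib
import Cfsg.Prelude.Def_Solvable
import Cfsg.Agent.Lib.Cores
import Cfsg.Agent.Lib.GenFitting
import Cfsg.Agent.Lib.NormalAbelian
import Cfsg.Agent.Lib.NilpotentCoprime
import Cfsg.Agent.H483.Engel
import Cfsg.Statements.S3939
set_option linter.all false

-- part: H483/Hyper
section
/-!
# The hypercenter as the set of elements nilpotent with everything
-/

set_option autoImplicit false

namespace Cfsg.Agent.H483.Hyper

open Subgroup Cfsg Cfsg.Agent.Lib.Cores Cfsg.Agent.H483.Engel
open scoped commutatorElement

universe u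

variable {G : Type u} [Group G]

/-- In a finite group the upper central series becomes stationary at the hypercenter. -/
theorem exists_stable (G : Type u) [Group G] [Finite G] :
    ∃ n : ℕ, (⨆ n : ℕ, Subgroup.upperCentralSeries G n) = Subgroup.upperCentralSeries G n ∧
      Subgroup.upperCentralSeries G (n + 1) = Subgroup.upperCentralSeries G n := by
  obtain ⟨n, hn⟩ := WellFoundedGT.monotone_chain_condition
    (⟨Subgroup.upperCentralSeries G, Subgroup.upperCentralSeries_mono G⟩ : ℕ →o Subgroup G)
  refine ⟨n, ?_, (hn (n + 1) (Nat.le_succ n)).symm⟩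
  apply le_antisymm
  · refine iSup_le fun m => ?_
    rcases le_total m n with h | h
    · exact Subgroup.upperCentralSeries_mono G h
    · exact (hn m h).ge
  · exact le_iSup (fun n => Subgroup.upperCentralSeries G n) n

/-- A term of the upper central series together with one more element generates a nilpotent
subgroup. -/
theorem nilpotent_closure {n : ℕ} {g : G} (hg : g ∈ Subgroup.upperCentralSeries G n) (x : G) :
    Group.IsNilpotent (closure ({x, g} : Set G) : Subgroup G) := by
  set H : Subgroup G := closure ({x, g} : Set G) with hH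
  set Z : Subgroup G := Subgroup.upperCentralSeries G n with hZ
  have hcomm : ∀ a ∈ H, ∀ b ∈ H, ⁅a, b⁆ ∈ Z := by
    have hz : ∀ a ∈ H, (QuotientGroup.mk' Z) a ∈ zpowers ((QuotientGroup.mk' Z) x) := by
      have hle : H ≤ (zpowers ((QuotientGroup.mk' Z) x)).comap (QuotientGroup.mk' Z) := by
        rw [hH, closure_le]
        rintro y (rfl | rfl)
        · exact mem_zpowers _
        · have : (QuotientGroup.mk' Z) y = 1 := (QuotientGroup.eq_one_iff y).2 hg
          rw [SetLike.mem_coe, mem_comap, this]
          exact one_mem _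
      exact fun a ha => hle ha
    intro a ha b hb
    obtain ⟨i, hi⟩ := hz a ha
    obtain ⟨j, hj⟩ := hz b hb
    have hi : ((QuotientGroup.mk' Z) x) ^ i = (QuotientGroup.mk' Z) a := hi
    have hj : ((QuotientGroup.mk' Z) x) ^ j = (QuotientGroup.mk' Z) b := hj
    have : (QuotientGroup.mk' Z) ⁅a, b⁆ = 1 := by
      rw [map_commutatorElement, ← hi, ← hj, commutatorElement_eq_one_iff_commute]
      exact Commute.zpow_zpow (Commute.refl _) i j
    exact (QuotientGroup.eq_one_iff _).1 this
  rw [Subgroup.nilpotent_iff_finite_ascending_central_series]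
  refine ⟨n + 1, fun i => if i ≤ n then (Subgroup.upperCentralSeries G i).subgroupOf H else ⊤, ⟨?_, ?_⟩, ?_⟩
  · simp
  · intro a i ha b
    by_cases h1 : i + 1 ≤ n
    · have h2 : i ≤ n := by omega
      simp only [h1, h2, if_true] at ha ⊢
      rw [mem_subgroupOf] at ha ⊢
      exact Subgroup.mem_upperCentralSeries_succ_iff.1 ha b
    · by_cases h2 : i ≤ n
      · have h3 : i = n := by omega
        subst h3
        simp only [le_refl, if_true]
        rw [mem_subgroupOf]
        exact hcomm a a.2 b b.2
      · simp only [h2, if_false]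
        exact mem_top _
  · simp

/-- A `p`-element generating a nilpotent subgroup with every element lies in the hypercenter. -/
theorem mem_of_pElement [Finite G] {p : ℕ} [hp : Fact p.Prime] {h : G} {k : ℕ} (hk : h ^ p ^ k = 1)
    (hnil : ∀ x : G, Group.IsNilpotent (closure ({x, h} : Set G) : Subgroup G)) :
    h ∈ ⨆ n : ℕ, Subgroup.upperCentralSeries G n := by
  obtain ⟨n, hn, hn1⟩ := exists_stable G
  rw [hn]
  -- `h` is left Engel, so in the `p`-core
  have hE : LeftEngel h := by
    intro x
    have hN : Group.IsNilpotent (closure ({x, h} : Set G) : Subgroup G) := hnil x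
    have hx : x ∈ closure ({x, h} : Set G) := subset_closure (by simp)
    have hh : h ∈ closure ({x, h} : Set G) := subset_closure (by simp)
    have htop : Group.IsNilpotent (⊤ : Subgroup (closure ({x, h} : Set G) : Subgroup G)) :=
      Group.isNilpotent_top.2 hN
    obtain ⟨m, hm⟩ := leftEngel_of_mem_nilpotent_normal (N := ⊤) inferInstance htop
      (mem_top (⟨h, hh⟩ : (closure ({x, h} : Set G) : Subgroup G))) ⟨x, hx⟩
    refine ⟨m, ?_⟩
    have := eng_map (closure ({x, h} : Set G)).subtype ⟨h, hh⟩ ⟨x, hx⟩ m
    rw [hm, map_one] at this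
    exact this.symm
  have hF : h ∈ fittingSubgroup G := mem_fitting_of_leftEngel hE
  have hpc : h ∈ pCore p G := Cfsg.Agent.Lib.GenFitting.mem_pCore_of_mem_fitting hF hk
  -- elements of order prime to `p` centralize `h`
  have hcent : ∀ x : G, (orderOf x).Coprime p → Commute x h := by
    intro x hx
    have hN : Group.IsNilpotent (closure ({x, h} : Set G) : Subgroup G) := hnil x
    have hx1 : x ∈ closure ({x, h} : Set G) := subset_closure (by simp)
    have hh : h ∈ closure ({x, h} : Set G) := subset_closure (by simp)
    have hc : Commute (⟨x, hx1⟩ : (closure ({x, h} : Set G) : Subgroup G)) ⟨h, hh⟩ := by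
      apply Cfsg.Agent.Lib.NilpotentCoprime.commute_of_pow_eq_one
        (Nat.Coprime.pow_right k hx)
      · apply Subtype.ext
        exact pow_orderOf_eq_one x
      · apply Subtype.ext
        exact hk
    have := congrArg Subtype.val hc.eq
    exact this
  -- the normal closure
  set N : Subgroup G := normalClosure ({h} : Set G) with hNdef
  have hNp : N ≤ pCore p G := by
    have := pCore_normal (G := G) p
    exact normalClosure_le_normal (by simpa using hpc)
  have hNP : IsPGroup p N := (pCore_isPGroup (G := G) p).to_le hNp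
  have hNcent : ∀ x : G, (orderOf x).Coprime p → ∀ y ∈ N, Commute x y := by
    intro x hx y hy
    have hle : N ≤ centralizer ({x | (orderOf x).Coprime p} : Set G) := by
      rw [hNdef, normalClosure, closure_le]
      intro y hy
      rw [Group.mem_conjugatesOfSet_iff] at hy
      obtain ⟨h', hh', hc⟩ := hy
      rw [Set.mem_singleton_iff] at hh'
      subst hh'
      rw [isConj_iff] at hc
      obtain ⟨c, rfl⟩ := hc
      rw [SetLike.mem_coe, mem_centralizer_iff]
      intro z hz
      have hz' : (orderOf (c⁻¹ * z * c)).Coprime p := by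
        have : orderOf (c⁻¹ * z * c) = orderOf z := by
          have h3 := orderOf_injective (MulAut.conj c⁻¹).toMonoidHom (MulAut.conj c⁻¹).injective z
          have h4 : (MulAut.conj c⁻¹).toMonoidHom z = c⁻¹ * z * c := by
            simp
          rwa [h4] at h3
        rw [this]; exact hz
      have h5 := (hcent _ hz').eq
      calc z * (c * h' * c⁻¹) = c * ((c⁻¹ * z * c) * h') * c⁻¹ := by group
        _ = c * (h' * (c⁻¹ * z * c)) * c⁻¹ := by rw [h5]
        _ = c * h' * c⁻¹ * z := by group
    exact mem_centralizer_iff.1 (hle hy) x hx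
  -- pass to the quotient
  set Z : Subgroup G := Subgroup.upperCentralSeries G n with hZ
  by_contra hhZ
  set π := QuotientGroup.mk' Z with hπ
  have hπs : Function.Surjective π := QuotientGroup.mk'_surjective Z
  obtain ⟨P⟩ := (inferInstance : Nonempty (Sylow p G))
  have hNP' : N.map π ≤ (P.mapSurjective hπs : Subgroup (G ⧸ Z)) := by
    rw [Sylow.coe_mapSurjective]
    exact Subgroup.map_mono (hNp.trans (pCore_le_sylow P))
  set Pb : Subgroup (G ⧸ Z) := (P.mapSurjective hπs : Subgroup (G ⧸ Z)) with hPb
  have hNn : (N.map π).Normal := Subgroup.Normal.map inferInstance π hπs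
  have hne : (N.map π).subgroupOf Pb ≠ ⊥ := by
    intro h0
    rw [subgroupOf_eq_bot, disjoint_iff, inf_eq_left.2 hNP'] at h0
    rw [Subgroup.map_eq_bot_iff, QuotientGroup.ker_mk'] at h0
    exact hhZ (h0 (subset_normalClosure rfl))
  have : Group.IsNilpotent Pb := (P.mapSurjective hπs).isPGroup'.isNilpotent
  have hcen := Cfsg.Agent.Lib.NormalAbelian.normal_inf_center_ne_bot ((N.map π).subgroupOf Pb) hne
  obtain ⟨⟨z, hz⟩, hz1⟩ := ne_bot_iff_exists_ne_one.1 hcen
  obtain ⟨hzN, hzC⟩ := mem_inf.1 hz
  rw [mem_subgroupOf] at hzN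
  -- the centralizer of `z` is everything
  have htop : centralizer ({(z : G ⧸ Z)} : Set (G ⧸ Z)) = ⊤ := by
    apply eq_top_of_sylow_le
    intro q hq
    by_cases hqp : q = p
    · subst hqp
      refine ⟨P.mapSurjective hπs, ?_⟩
      intro a ha
      rw [mem_centralizer_singleton_iff]
      exact congrArg Subtype.val ((mem_center_iff.1 hzC) ⟨a, ha⟩)
    · obtain ⟨Q⟩ := (inferInstance : Nonempty (Sylow q G))
      refine ⟨Q.mapSurjective hπs, ?_⟩
      intro a ha
      rw [Sylow.coe_mapSurjective] at ha
      obtain ⟨b, hb, rfl⟩ := ha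
      obtain ⟨y, hy, hyz⟩ := hzN
      rw [mem_centralizer_singleton_iff, ← hyz, ← map_mul, ← map_mul]
      have hbo : (orderOf b).Coprime p := by
        obtain ⟨m, hm⟩ := Q.isPGroup' ⟨b, hb⟩
        have hm' : b ^ q ^ m = 1 := congrArg Subtype.val hm
        have h6 : orderOf b ∣ q ^ m := orderOf_dvd_of_pow_eq_one hm'
        exact Nat.Coprime.coprime_dvd_left h6
          (Nat.Coprime.pow_left m ((Nat.coprime_primes hq.out hp.out).2 hqp))
      rw [(hNcent b hbo y hy).eq]
  apply hz1
  obtain ⟨w, hw⟩ := hπs (z : G ⧸ Z)
  have hwZ : w ∈ Z := by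
    rw [← hn1, Subgroup.mem_upperCentralSeries_succ_iff]
    intro y
    have h7 : π ⁅w, y⁆ = 1 := by
      rw [map_commutatorElement, commutatorElement_eq_one_iff_mul_comm, hw]
      have h8 : π y ∈ centralizer ({(z : G ⧸ Z)} : Set (G ⧸ Z)) := htop ▸ mem_top _
      rw [mem_centralizer_singleton_iff] at h8
      exact h8.symm
    exact (QuotientGroup.eq_one_iff _).1 h7
  apply Subtype.ext
  apply Subtype.ext
  change (z : G ⧸ Z) = 1
  rw [← hw]
  exact (QuotientGroup.eq_one_iff _).2 hwZ

end Cfsg.Agent.H483.Hyper
end

-- part: S3939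
section
set_option autoImplicit false
open Cfsg

namespace Cfsg.Agent.S3939

/-- In a finite group G the set of elements g such that the subgroup generated by g and x is nilpotent for every x ∈ G is exactly the hypercenter of G (the last term of the upper central series). -/
theorem result {G : Type*} [Group G] [Finite G] (g : G) :
    (∀ x : G, Group.IsNilpotent ↥(Subgroup.closure ({x, g} : Set G))) ↔ g ∈ ⨆ n : ℕ, Subgroup.upperCentralSeries G n := by
  obtain ⟨n, hn, -⟩ := Cfsg.Agent.H483.Hyper.exists_stable G
  constructor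
  · intro h
    by_contra hg
    set Z : Subgroup G := Subgroup.upperCentralSeries G n with hZ
    have hgZ : g ∉ Z := by rwa [hn] at hg
    have hne : orderOf (QuotientGroup.mk' Z g) ≠ 1 := by
      rw [Ne, orderOf_eq_one_iff]
      intro h1
      exact hgZ ((QuotientGroup.eq_one_iff g).1 h1)
    obtain ⟨p, hp, hpd⟩ := Nat.exists_prime_and_dvd hne
    have : Fact p.Prime := ⟨hp⟩
    have hN0 : orderOf g ≠ 0 := (orderOf_pos g).ne'
    set r : ℕ := orderOf g / p ^ (orderOf g).factorization p with hr
    have hprod : p ^ (orderOf g).factorization p * r = orderOf g :=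
      Nat.ordProj_mul_ordCompl_eq_self (orderOf g) p
    have hk : (g ^ r) ^ p ^ (orderOf g).factorization p = 1 := by
      rw [← pow_mul, mul_comm, hprod, pow_orderOf_eq_one]
    have hmem : g ^ r ∈ ⨆ n : ℕ, Subgroup.upperCentralSeries G n := by
      refine Cfsg.Agent.H483.Hyper.mem_of_pElement (p := p) hk fun x => ?_
      have hnil := h x
      have hle : Subgroup.closure ({x, g ^ r} : Set G) ≤ Subgroup.closure ({x, g} : Set G) := by
        rw [Subgroup.closure_le]
        rintro y (rfl | rfl)
        · exact Subgroup.subset_closure (by simp)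
        · exact pow_mem (Subgroup.subset_closure (by simp)) r
      exact Group.isNilpotent_congr (Subgroup.subgroupOfEquivOfLe hle) |>.mp inferInstance
    rw [hn] at hmem
    have h2 : (QuotientGroup.mk' Z g) ^ r = 1 := by
      rw [← map_pow]
      exact (QuotientGroup.eq_one_iff _).2 hmem
    have h3 : p ∣ r := hpd.trans (orderOf_dvd_of_pow_eq_one h2)
    exact Nat.not_dvd_ordCompl hp hN0 h3
  · intro h x
    rw [hn] at h
    exact Cfsg.Agent.H483.Hyper.nilpotent_closure h x

end Cfsg.Agent.S3939
end
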