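import Mathlib
import Cfsg.Agent.H550.Kegel
import Cfsg.Statements.S3946
set_option linter.all false

-- part: H550/KegelAut
section
/-!
# Kegel's theorem for splitting automorphisms of prime order
-/

set_option autoImplicit false

namespace Cfsg.Agent.H550.KegelAut

open Subgroup

universe u

theorem inl_mul_inr_pow {G : Type u} [Group G] (α : MulAut G) (x : G) (n : ℕ) :
    ((SemidirectProduct.inl x : G ⋊[MonoidHom.id (MulAut G)] MulAut G) *
      SemidirectProduct.inr α) ^ n =
    SemidirectProduct.inl (((List.range n).map (fun i : ℕ => (α ^ i) x)).prod) *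
      SemidirectProduct.inr (α ^ n) := by
  induction n with
  | zero => simp
  | succ n ih =>
    rw [pow_succ, ih, List.range_succ, List.map_append, List.prod_append, map_mul]
    simp only [List.map_cons, List.map_nil, List.prod_cons, List.prod_nil, mul_one]
    have h := SemidirectProduct.inl_aut (φ := MonoidHom.id (MulAut G)) (α ^ n) x
    change SemidirectProduct.inl ((α ^ n) x) = _ at h
    rw [h, map_inv, pow_succ, map_mul]
    group

/-- **Kegel.** A finite group with a splitting automorphism whose order divides a prime (that is,
`α ^ p = 1` and `x · α x ⋯ α^(p-1) x = 1` for all `x`) is nilpotent. -/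
theorem isNilpotent_of_splitting {G : Type u} [Group G] [Finite G] {p : ℕ} (hp : p.Prime)
    (α : MulAut G) (hα : α ^ p = 1)
    (hsplit : ∀ x : G, ((List.range p).map (fun i : ℕ => (α ^ i) x)).prod = 1) :
    Group.IsNilpotent G := by
  have : Finite (G ⋊[MonoidHom.id (MulAut G)] MulAut G) :=
    Finite.of_equiv _ SemidirectProduct.equivProd.symm
  set H : Subgroup (G ⋊[MonoidHom.id (MulAut G)] MulAut G) :=
    (SemidirectProduct.inl : G →* _).range with hH
  have hHn : H.Normal := by
    rw [hH, SemidirectProduct.range_inl_eq_ker_rightHom]
    infer_instance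
  have h1 : Group.IsNilpotent H := by
    refine Kegel.isNilpotent_of_coset hp _ _ H (SemidirectProduct.inr α) rfl
      (by rw [normalizer_eq_top]; exact mem_top _) ?_
    rintro _ ⟨x, rfl⟩
    rw [inl_mul_inr_pow, hsplit, hα, map_one, map_one, one_mul]
  exact (Group.isNilpotent_congr (MonoidHom.ofInjective SemidirectProduct.inl_injective)).2 h1

end Cfsg.Agent.H550.KegelAut
end

-- part: S3946
section
set_option autoImplicit false
open Cfsg

namespace Cfsg.Agent.S3946

/-- Call an automorphism α of order n of a group G splitting when x · α(x) · α²(x) ⋯ α^(n−1)(x) = 1 for every x ∈ G. A finite group admitting a splitting automorphism of prime order is nilpotent (this contains the case of a fixed-point-free automorphism of prime order). -/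
theorem result {G : Type*} [Group G] [Finite G] (α : MulAut G) (hp : (orderOf α).Prime)
    (hsplit : ∀ x : G, (((List.range (orderOf α)).map (fun i : ℕ => (α ^ i) x)).prod = 1)) : Group.IsNilpotent G :=
  Cfsg.Agent.H550.KegelAut.isNilpotent_of_splitting hp α (pow_orderOf_eq_one α) hsplit

end Cfsg.Agent.S3946
end
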