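import Cfsg.Statements.S3947
import Cfsg.Agent.H486.UniqueMax
set_option linter.all false

set_option autoImplicit false
open Cfsg

namespace Cfsg.Agent.S3947

open Cfsg.Agent.H486.Sn Cfsg.Agent.H486.UniqueMax

/-- Let G be a finite group and A a proper subgroup of G whose normal closure is G. Let Y be the join of all proper subgroups H of G that contain A and are generated by their own conjugates of A (the normal closure of A in H is H). Then either Y = G, or A is contained in exactly one maximal subgroup of G. -/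
theorem result {G : Type*} [Group G] [Finite G] (A : Subgroup G) (hA : Subgroup.normalClosure (A : Set G) = ⊤) (hAG : A ≠ ⊤) :
    sSup {H : Subgroup G | A ≤ H ∧ H ≠ ⊤ ∧ Subgroup.normalClosure ((A.subgroupOf H : Subgroup ↥H) : Set ↥H) = ⊤} = ⊤ ∨
      ∃! M : Subgroup G, IsCoatom M ∧ A ≤ M := by
  have hset : {H : Subgroup G | A ≤ H ∧ H ≠ ⊤ ∧
      Subgroup.normalClosure ((A.subgroupOf H : Subgroup ↥H) : Set ↥H) = ⊤} = Fam A := by
    ext H
    constructor
    · rintro ⟨h1, h2, h3⟩
      exact ⟨(nc_iff h1).2 h3, h2⟩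
    · rintro ⟨h1, h2⟩
      exact ⟨h1.1, h2, (nc_iff h1.1).1 h1⟩
  rw [hset]
  by_cases hY : sSup (Fam A) = ⊤
  · exact Or.inl hY
  · right
    have hnc : NC A ⊤ := by
      refine ⟨le_top, fun N h1 _ h3 => ?_⟩
      have h4 : N.Normal := Subgroup.normalizer_eq_top_iff.1 (top_le_iff.1 h3)
      have h5 : Subgroup.normalClosure (A : Set G) ≤ N := Subgroup.normalClosure_le_normal h1
      rw [hA, top_le_iff] at h5
      exact h5
    obtain ⟨M, h1, h2, h3⟩ := main hnc hAG hY
    exact ⟨M, ⟨h1, h2⟩, fun K hK => h3 K hK.1 hK.2⟩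

end Cfsg.Agent.S3947
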