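import Cfsg.Statements.S3989
import Cfsg.Agent.Lib.PSolvable
import Cfsg.Agent.Transfer.FrobeniusFusion
import Cfsg.Agent.H493.PrimePow
set_option linter.all false

set_option autoImplicit false
open Cfsg

namespace Cfsg.Agent.S3989

universe u

/-- The hypothesis on products of conjugacy classes. -/
def Hyp (p : ℕ) (G : Type u) [Group G] : Prop :=
  ∀ x y : G, (∃ a : ℕ, orderOf x = p ^ a) → (∃ q b : ℕ, q.Prime ∧ q ≠ p ∧ orderOf y = q ^ b) →
    ∀ z : G, IsConj (x * y) z ↔ ∃ a b : G, z = a * x * a⁻¹ * (b * y * b⁻¹)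

theorem exists_minNormal {G : Type u} [Group G] [Finite G] [Nontrivial G] :
    ∃ N : Subgroup G, N.Normal ∧ N ≠ ⊥ ∧ ∀ M : Subgroup G, M.Normal → M ≤ N → M ≠ ⊥ → M = N := by
  have hwf : WellFounded ((· < ·) : Subgroup G → Subgroup G → Prop) := wellFounded_lt
  obtain ⟨N, ⟨hN1, hN2⟩, hmin⟩ := hwf.has_min {N : Subgroup G | N.Normal ∧ N ≠ ⊥}
    ⟨⊤, inferInstance, top_ne_bot⟩
  refine ⟨N, hN1, hN2, fun M hM hle hne => ?_⟩
  by_contra h
  exact hmin M ⟨hM, hne⟩ (lt_of_le_of_ne hle h)

/-- An element of prime power order in a quotient lifts to an element of prime power order. -/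
theorem exists_lift {G Q : Type u} [Group G] [Finite G] [Group Q] (f : G →* Q)
    (hf : Function.Surjective f) (p : ℕ) [hp : Fact p.Prime] (x : Q) (a : ℕ) (hx : orderOf x = p ^ a) :
    ∃ g : G, f g = x ∧ ∃ c : ℕ, orderOf g = p ^ c := by
  obtain ⟨g, hg⟩ := hf x
  have hpos : orderOf g ≠ 0 := (orderOf_pos g).ne'
  obtain ⟨c, m, hm, hgm⟩ := Nat.exists_eq_pow_mul_and_not_dvd hpos p hp.out.ne_one
  -- choose an exponent divisible by `m` and congruent to one modulo `p ^ a`
  have hcop : Nat.Coprime m (p ^ a) :=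
    (Nat.Coprime.pow_right a ((Nat.Prime.coprime_iff_not_dvd hp.out).mpr hm).symm)
  obtain ⟨k, hk1, hk2⟩ := Nat.chineseRemainder hcop 0 1
  refine ⟨g ^ k, ?_, ?_⟩
  · rw [map_pow, hg]
    have : x ^ k = x ^ 1 := pow_eq_pow_iff_modEq.mpr (by rw [hx]; exact hk2)
    rw [this, pow_one]
  · have hmk : m ∣ k := (Nat.modEq_zero_iff_dvd).mp hk1
    have h1 : (g ^ k) ^ (p ^ c) = 1 := by
      rw [← pow_mul]
      apply orderOf_dvd_iff_pow_eq_one.mp
      rw [hgm, mul_comm]
      exact mul_dvd_mul_right hmk _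
    obtain ⟨j, -, hj⟩ := (Nat.dvd_prime_pow hp.out).mp (orderOf_dvd_of_pow_eq_one h1)
    exact ⟨j, hj⟩

theorem Hyp.of_surjective {G Q : Type u} [Group G] [Finite G] [Group Q] {p : ℕ} [hp : Fact p.Prime]
    (f : G →* Q) (hf : Function.Surjective f) (h : Hyp p G) : Hyp p Q := by
  rintro x y ⟨a, ha⟩ ⟨q, b, hq, hqp, hb⟩ z
  haveI : Fact q.Prime := ⟨hq⟩
  obtain ⟨x', hx', c, hc⟩ := exists_lift f hf p x a ha
  obtain ⟨y', hy', d, hd⟩ := exists_lift f hf q y b hb
  constructor
  · intro hz
    obtain ⟨g, hg⟩ := isConj_iff.mp hz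
    exact ⟨g, g, by rw [← hg]; group⟩
  · rintro ⟨u, v, rfl⟩
    obtain ⟨u', rfl⟩ := hf u
    obtain ⟨v', rfl⟩ := hf v
    obtain ⟨g, hg⟩ := isConj_iff.mp ((h x' y' ⟨c, hc⟩ ⟨q, d, hq, hqp, hd⟩ _).mpr ⟨u', v', rfl⟩)
    refine isConj_iff.mpr ⟨f g, ?_⟩
    rw [← hx', ← hy', ← map_mul, ← map_inv, ← map_mul, ← map_mul, hg]
    simp only [map_mul, map_inv]

/-- In a minimal normal subgroup the local condition of Frobenius holds. -/
theorem localCondition {G : Type u} [Group G] [Finite G] {p : ℕ} [hp : Fact p.Prime] (h : Hyp p G)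
    (N : Subgroup G) (hN : N.Normal)
    (hmin : ∀ M : Subgroup G, M.Normal → M ≤ N → M ≠ ⊥ → M = N) :
    Transfer.FrobeniusFusion.LocalCondition p N := by
  intro D hD g hg hcop
  refine H493.mem_of_primePow _ (orderOf g) g rfl (orderOf_pos g) ?_
  intro k q b hq hb
  by_cases hy1 : g ^ k = 1
  · rw [hy1]; exact Subgroup.one_mem _
  have hqp : q ≠ p := by
    rintro rfl
    have hb0 : b ≠ 0 := by
      rintro rfl
      exact hy1 (orderOf_eq_one_iff.mp (by rw [hb, pow_zero]))
    have h1 : q ∣ orderOf g := (dvd_pow_self q hb0).trans (hb ▸ orderOf_pow_dvd k)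
    exact (Nat.Prime.coprime_iff_not_dvd hq).mp hcop.symm h1
  have hyN : g ^ k ∈ Subgroup.normalizer (D : Set N) := Subgroup.pow_mem _ hg k
  generalize g ^ k = y at hb hy1 hyN
  rw [Subgroup.mem_centralizer_iff]
  intro u hu
  by_contra hne
  -- the element `x = u⁻¹ (y u y⁻¹)`
  set x : N := u⁻¹ * (y * u * y⁻¹) with hx
  have hxD : x ∈ D := D.mul_mem (D.inv_mem hu) ((Subgroup.mem_normalizer_iff.mp hyN u).mp hu)
  have hx1 : x ≠ 1 := by
    intro h1
    apply hne
    have h2 : u = y * u * y⁻¹ := by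
      have := congrArg (u * ·) h1
      simpa [hx] using this.symm
    calc u * y = y * u * y⁻¹ * y := by rw [← h2]
      _ = y * u := by group
  obtain ⟨a, ha⟩ := (IsPGroup.iff_orderOf.mp hD) ⟨x, hxD⟩
  have ha' : orderOf (x : G) = p ^ a := by
    rw [← ha, Subgroup.orderOf_mk, Subgroup.orderOf_coe]
  have hb' : orderOf (y : G) = q ^ b := by rw [Subgroup.orderOf_coe, hb]
  have hxy : (x : G) * y = (u : G)⁻¹ * y * u := by
    rw [hx]; push_cast; group
  have hcl := h x y ⟨a, ha'⟩ ⟨q, b, hq, hqp, hb'⟩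
  have hconj : IsConj ((x : G) * y) y := by
    rw [hxy]; exact isConj_iff.mpr ⟨u, by group⟩
  -- the subgroup of elements multiplying the class of `y` into itself
  let S : Set G := {z | IsConj (y : G) z}
  have hstep : ∀ a z : G, z ∈ S → a * (x : G) * a⁻¹ * z ∈ S := by
    intro a z hz
    obtain ⟨b, hb⟩ := isConj_iff.mp hz
    exact hconj.symm.trans ((hcl _).mpr ⟨a, b, by rw [hb]⟩)
  let M : Submonoid G :=
    { carrier := {n | ∀ z ∈ S, n * z ∈ S}
      one_mem' := fun z hz => by rwa [one_mul]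
      mul_mem' := fun {m n} hm hn z hz => by rw [mul_assoc]; exact hm _ (hn _ hz) }
  have hle : (Subgroup.normalClosure {(x : G)} : Set G) ⊆ M := by
    have h1 : (Subgroup.normalClosure {(x : G)}).toSubmonoid ≤ M := by
      rw [Subgroup.normalClosure, Subgroup.closure_toSubmonoid_of_finite]
      rw [Submonoid.closure_le]
      intro w hw
      obtain ⟨v, hv, hvw⟩ := Group.mem_conjugatesOfSet_iff.mp hw
      rw [Set.mem_singleton_iff] at hv
      subst hv
      obtain ⟨c, hc⟩ := isConj_iff.mp hvw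
      intro z hz
      rw [← hc]
      exact hstep c z hz
    exact h1
  have hxN : (x : G) ∈ N := x.2
  have hM := hmin (Subgroup.normalClosure {(x : G)}) inferInstance
    (Subgroup.normalClosure_le_normal (by simpa using hxN)) (by
      intro h0
      have : (x : G) ∈ Subgroup.normalClosure {(x : G)} :=
        Subgroup.subset_normalClosure (Set.mem_singleton _)
      rw [h0, Subgroup.mem_bot] at this
      exact hx1 (Subtype.ext this))
  have h1 : ((y : G)⁻¹) ∈ Subgroup.normalClosure {(x : G)} := by rw [hM]; exact N.inv_mem y.2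
  have h2 : (y : G)⁻¹ * y ∈ S := hle h1 _ (IsConj.refl _)
  rw [inv_mul_cancel] at h2
  have h3 : (y : G) = 1 := isConj_one_left.mp h2
  exact hy1 (Subtype.ext h3)

theorem main (p : ℕ) [hp : Fact p.Prime] (n : ℕ) :
    ∀ (G : Type u) [Group G] [Finite G], Nat.card G = n → Hyp p G → Cfsg.IsPSolvable p G := by
  induction n using Nat.strong_induction_on with
  | _ n ih =>
    intro G _ _ hn h
    by_cases hnt : Nontrivial G
    · obtain ⟨N, hN, hNb, hmin⟩ := exists_minNormal (G := G)
      haveI := hN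
      have hNs : Cfsg.IsPSolvable p N := by
        have hloc := localCondition h N hN hmin
        obtain ⟨K, hK, hK1, hK2⟩ := Transfer.NormalPComplement.hasNormalPComplement_iff.mp
          (Transfer.FrobeniusFusion.hasNormalPComplement_iff_localCondition.mpr hloc)
        have : Group.IsNilpotent (↥N ⧸ K) := hK2.isNilpotent
        exact Lib.PSolvable.IsPSolvable_of_quotient p K (Or.inr hK1)
          (Lib.PSolvable.IsPSolvable_of_solvable p)
      refine Lib.PSolvable.IsPSolvable_of_extension p N hNs (ih _ ?_ (G ⧸ N) rfl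
        (h.of_surjective (QuotientGroup.mk' N) (QuotientGroup.mk'_surjective N)))
      rw [← hn]
      rw [← Subgroup.card_mul_index N, ← Subgroup.index_eq_card]
      have := (Subgroup.one_lt_card_iff_ne_bot N).mpr hNb
      have h0 : 0 < N.index := Nat.pos_of_ne_zero Subgroup.FiniteIndex.index_ne_zero
      nlinarith
    · rw [not_nontrivial_iff_subsingleton] at hnt
      exact Lib.PSolvable.IsPSolvable_of_solvable p

/-- Let p be a prime and G a finite group such that for every element x of p-power order and every element y whose order is a power of a prime other than p, the conjugacy class of x y is the set of all products of a conjugate of x with a conjugate of y. Then G is p-solvable. -/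
theorem result {G : Type*} [Group G] [Finite G] (p : ℕ) [Fact p.Prime] (h : ∀ x y : G, (∃ a : ℕ, orderOf x = p ^ a) → (∃ q b : ℕ, q.Prime ∧ q ≠ p ∧ orderOf y = q ^ b) → ∀ z : G, IsConj (x * y) z ↔ ∃ a b : G, z = a * x * a⁻¹ * (b * y * b⁻¹)) : Cfsg.IsPSolvable p G := by
  exact main p (Nat.card G) G rfl h

end Cfsg.Agent.S3989
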