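import Cfsg.Statements.S4014
import Cfsg.Agent.H499.WreathDl
set_option linter.all false

set_option autoImplicit false
open Cfsg

namespace Cfsg.Agent.S4014

open Cfsg.Agent.H499.WreathDl

/-- Let p be a prime, n ≥ 1, and P a Sylow p-subgroup of the symmetric group on n letters. Then the derived length of P is exactly k = ⌊log_p n⌋ (the largest k with p^k ≤ n): the k-th derived subgroup of P is trivial and, when k ≥ 1, the (k−1)-st is not. -/
theorem result (p : ℕ) [Fact p.Prime] (n : ℕ) (hn : 1 ≤ n) (P : Sylow p (Equiv.Perm (Fin n))) : derivedSeries ↥(P : Subgroup (Equiv.Perm (Fin n))) (Nat.log p n) = ⊥ ∧ (1 ≤ Nat.log p n → derivedSeries ↥(P : Subgroup (Equiv.Perm (Fin n))) (Nat.log p n - 1) ≠ ⊥) := by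
  rename_i hp
  constructor
  · refine perm_upper ?_ _ P.2
    rw [Nat.card_fin]
    exact Nat.lt_pow_succ_log_self hp.out.one_lt n
  · intro h1 h2
    obtain ⟨k, hk⟩ : ∃ k, Nat.log p n = k + 1 := ⟨Nat.log p n - 1, by omega⟩
    obtain ⟨f, hf⟩ := exists_sylow_hom (k := k + 1)
      (by rw [← hk]; exact Nat.pow_log_le_self p (by omega)) P
    rw [hk, Nat.add_sub_cancel] at h2
    exact iwp_lower k (derivedSeries_eq_bot_of_injective f hf h2)

end Cfsg.Agent.S4014
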