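import Cfsg.Agent.H500.ExtraCube
import Cfsg.Agent.H500.SocleSimple
import Cfsg.Agent.S0201
import Cfsg.Agent.Lib.PSolvable
import Cfsg.Statements.S4020
set_option linter.all false

-- part: H500/NoCube
section
/-!
# No Sylow subgroup is non-abelian of order `p ^ 3` when `q`-subgroups of the same order are conjugate for all `q`
-/

set_option autoImplicit false

namespace Cfsg.Agent.H500

open Subgroup Cfsg.Agent.H501

/-- The Sylow 2-subgroups of a non-abelian simple subgroup are abelian if all 2-subgroups of the same order are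
conjugate. -/
theorem comm_sylow_two {G : Type*} [Group G] [Finite G] (hC2 : EqConj 2 G) (N : Subgroup G)
    [hs : IsSimpleGroup N] (hna : ¬ ∀ x ∈ N, ∀ y ∈ N, Commute x y) (T : Sylow 2 N) :
    IsMulCommutative T := by
  have hT : IsPGroup 2 ((T : Subgroup N).map N.subtype) := T.isPGroup'.map _
  let e : (T : Subgroup N) ≃* ((T : Subgroup N).map N.subtype) :=
    (T : Subgroup N).equivMapOfInjective _ N.subtype_injective
  have hback : IsMulCommutative ((T : Subgroup N).map N.subtype) → IsMulCommutative T := by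
    intro h
    constructor; constructor
    intro a b
    apply e.injective
    rw [map_mul, map_mul, h.is_comm.comm]
  rcases hC2.types _ hT with h | h | ⟨-, ⟨f⟩⟩ | ⟨h, -⟩
  · exact hback (@IsCyclic.isMulCommutative _ _ h)
  · exact hback h.1
  · exfalso
    have h1 : Nat.card (center N) = 2 := by
      apply S0201.result T 0 (e.trans f)
      intro M hM hodd
      rcases hM.eq_bot_or_eq_top with h | h
      · exact h
      · exfalso
        subst h
        have h2 : Nat.card (T : Subgroup N) = 8 := by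
          rw [Nat.card_congr (e.trans f).toEquiv, Nat.card_eq_fintype_card, QuaternionGroup.card]
        have h3 : Nat.card (T : Subgroup N) ∣ Nat.card (⊤ : Subgroup N) := Subgroup.card_dvd_of_le le_top
        rw [h2] at h3
        have h4 : 2 ∣ Nat.card (⊤ : Subgroup N) := (by norm_num : 2 ∣ 8).trans h3
        exact (Nat.not_even_iff_odd.mpr hodd) (even_iff_two_dvd.mpr h4)
    rcases (inferInstance : (center N).Normal).eq_bot_or_eq_top with h | h
    · rw [h, Subgroup.card_bot] at h1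
      exact absurd h1 (by norm_num)
    · apply hna
      intro x hx y hy
      have h2 : (⟨y, hy⟩ : N) ∈ center N := h ▸ mem_top _
      exact congrArg (fun w : N => (w : G)) (mem_center_iff.mp h2 ⟨x, hx⟩)
  · exact absurd rfl h

/-- The simple case. -/
theorem no_cube_simple {G : Type*} [Group G] [Finite G] {p : ℕ} [hpf : Fact p.Prime] (hp2 : p ≠ 2)
    (hC : EqConj p G) (hC2 : EqConj 2 G) (P : Sylow p G)
    (hc : Nat.card (P : Subgroup G) = p ^ 3) (hexp : ∀ a ∈ (P : Subgroup G), a ^ p = 1)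
    (hnc : ¬ ∀ a ∈ (P : Subgroup G), ∀ b ∈ (P : Subgroup G), a * b = b * a)
    (N : Subgroup G) [hN : N.Normal] (hs : IsSimpleGroup N)
    (hna : ¬ ∀ x ∈ N, ∀ y ∈ N, Commute x y) (hPN : (P : Subgroup G) ≤ N) : False := by
  have hp := hpf.out
  have hab := comm_sylow_two hC2 N hna
  -- a central element and a non-central one
  have hnt : Nontrivial (P : Subgroup G) := by
    rw [← Finite.one_lt_card_iff_nontrivial, hc]
    exact Nat.one_lt_pow (by norm_num) hp.one_lt
  obtain ⟨⟨z, hzP⟩, hz1, -, hzc⟩ := exists_central P.isPGroup' hnt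
  have hz1' : z ≠ 1 := fun h => hz1 (Subtype.ext h)
  have hzc' : ∀ y ∈ (P : Subgroup G), z * y = y * z := fun y hy =>
    congrArg (fun w : (P : Subgroup G) => (w : G)) (hzc ⟨y, hy⟩)
  obtain ⟨x, hxP, hx⟩ : ∃ x ∈ (P : Subgroup G), ¬ ∀ y ∈ (P : Subgroup G), x * y = y * x := by
    by_contra hall
    push Not at hall
    exact hnc fun a ha b hb => hall a ha b hb
  have hx1 : x ≠ 1 := by
    rintro rfl
    exact hx fun y _ => by rw [one_mul, mul_one]
  have hxo : orderOf x = p := orderOf_eq_prime (hexp x hxP) hx1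
  have hzo : orderOf z = p := orderOf_eq_prime (hexp z hzP) hz1'
  obtain ⟨g, hg⟩ := hC (zpowers z) (zpowers x)
    (IsPGroup.of_card (n := 1) (by rw [Nat.card_zpowers, hzo, pow_one]))
    (IsPGroup.of_card (n := 1) (by rw [Nat.card_zpowers, hxo, pow_one]))
    (by rw [Nat.card_zpowers, Nat.card_zpowers, hzo, hxo])
  -- Frattini
  have hfr : normalizer ((P : Subgroup G) : Set G) ⊔ N = ⊤ := by
    have := Sylow.normalizer_sup_eq_top (P.subtype hPN)
    have h2 : ((P.subtype hPN : Sylow p N) : Subgroup N).map N.subtype = (P : Subgroup G) := by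
      rw [Sylow.coe_subtype, Subgroup.map_subgroupOf_eq_of_le hPN]
    rw [h2] at this
    exact this
  have hNN : normalizer ((P : Subgroup G) : Set G) ≤ normalizer (N : Set G) := by
    rw [Subgroup.normalizer_eq_top N]; exact le_top
  obtain ⟨n, hn, h, hh, hgnh⟩ := Solvable.Glauberman.exists_mul_of_mem_sup _ _ hNN
    (show g ∈ normalizer ((P : Subgroup G) : Set G) ⊔ N from hfr ▸ mem_top g)
  set z' := h * z * h⁻¹ with hz'
  have hz'P : z' ∈ (P : Subgroup G) := (mem_normalizer_iff.mp hh z).mp hzP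
  have hz'1 : z' ≠ 1 := by
    intro h1
    apply hz1'
    have h2 : z = h⁻¹ * z' * h := by rw [hz']; group
    rw [h2, h1]; group
  have hz'c : ∀ y ∈ (P : Subgroup G), z' * y = y * z' := by
    intro y hy
    have h1 : h⁻¹ * y * h⁻¹⁻¹ ∈ (P : Subgroup G) := (mem_normalizer_iff.mp (inv_mem hh) y).mp hy
    have h2 := hzc' _ h1
    calc z' * y = h * (z * (h⁻¹ * y * h⁻¹⁻¹)) * h⁻¹ := by rw [hz']; group
      _ = h * ((h⁻¹ * y * h⁻¹⁻¹) * z) * h⁻¹ := by rw [h2]
      _ = y * z' := by rw [hz']; group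
  have hg' : zpowers x = (zpowers z').map (MulAut.conj n).toMonoidHom := by
    rw [hg, MonoidHom.map_zpowers, MonoidHom.map_zpowers]
    congr 1
    change g * z * g⁻¹ = n * z' * n⁻¹
    rw [hgnh, hz']; group
  -- transfer to `N`
  have key : ∀ a : N, (zpowers a).map N.subtype = zpowers (a : G) := fun a => MonoidHom.map_zpowers _ _
  refine no_cube hp2 hab (P.subtype hPN) ?_ ?_ ⟨x, hPN hxP⟩ hxP ?_ ⟨z', hPN hz'P⟩ hz'P ?_ ?_ ⟨n, hn⟩ ?_
  · rw [Sylow.coe_subtype, Nat.card_congr (Subgroup.subgroupOfEquivOfLe hPN).toEquiv, hc]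
  · intro a ha
    exact Subtype.ext (hexp a ha)
  · intro hall
    apply hx
    intro y hy
    exact congrArg (fun w : N => (w : G)) (hall ⟨y, hPN hy⟩ hy)
  · intro h1
    exact hz'1 (congrArg (fun w : N => (w : G)) h1)
  · intro y hy
    exact Subtype.ext (hz'c y hy)
  · apply Subgroup.map_injective N.subtype_injective
    rw [key, MonoidHom.map_zpowers, key]
    change zpowers x = zpowers (n * z' * n⁻¹)
    rw [hg', MonoidHom.map_zpowers]
    rfl

/-- The reduction to the simple case. -/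
theorem no_cube_main {G : Type*} [Group G] [Finite G] {p : ℕ} [hpf : Fact p.Prime] (hp2 : p ≠ 2)
    (hC : EqConj p G) (hC2 : EqConj 2 G) (P : Sylow p G)
    (hc : Nat.card (P : Subgroup G) = p ^ 3) (hexp : ∀ a ∈ (P : Subgroup G), a ^ p = 1)
    (hnc : ¬ ∀ a ∈ (P : Subgroup G), ∀ b ∈ (P : Subgroup G), a * b = b * a) : False := by
  have hp := hpf.out
  obtain ⟨Z, ⟨hZn, hZc⟩, hZmax⟩ := Set.exists_max_image
    {Z : Subgroup G | Z.Normal ∧ (Nat.card Z).Coprime p} (fun Z => Nat.card Z) (Set.toFinite _)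
    ⟨⊥, inferInstance, by rw [Subgroup.card_bot]; exact Nat.coprime_one_left p⟩
  set f := QuotientGroup.mk' Z with hf
  have hfs : Function.Surjective f := QuotientGroup.mk'_surjective Z
  have hfk : f.ker = Z := QuotientGroup.ker_mk' Z
  have hPZ : (P : Subgroup G) ⊓ Z = ⊥ := by
    rw [← disjoint_iff]
    apply Subgroup.disjoint_of_coprime_natCard
    rw [hc]
    exact (hZc.pow_right 3).symm
  set Pb : Sylow p (G ⧸ Z) := P.mapSurjective hfs with hPb
  have hPbc : (Pb : Subgroup (G ⧸ Z)) = (P : Subgroup G).map f := rfl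
  have hcb : Nat.card (Pb : Subgroup (G ⧸ Z)) = p ^ 3 := by
    obtain ⟨k, hk⟩ : ∃ k, Nat.card (Pb : Subgroup (G ⧸ Z)) = k := ⟨_, rfl⟩
    have h1 : ((P : Subgroup G) ⊓ Z).relIndex (P : Subgroup G) = Nat.card (Pb : Subgroup (G ⧸ Z)) := by
      rw [Subgroup.inf_relIndex_left, hPbc]
      have := Subgroup.relIndex_ker (P : Subgroup G) f
      rwa [hfk] at this
    rw [← h1, hPZ, Subgroup.relIndex_bot_left, hc]
  have hexpb : ∀ a ∈ (Pb : Subgroup (G ⧸ Z)), a ^ p = 1 := by
    rintro _ ⟨a, ha, rfl⟩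
    rw [← map_pow, hexp a ha, map_one]
  have hncb : ¬ ∀ a ∈ (Pb : Subgroup (G ⧸ Z)), ∀ b ∈ (Pb : Subgroup (G ⧸ Z)), a * b = b * a := by
    intro h
    apply hnc
    intro a ha b hb
    have h1 := h (f a) ⟨a, ha, rfl⟩ (f b) ⟨b, hb, rfl⟩
    have h2 : (a * b)⁻¹ * (b * a) ∈ (P : Subgroup G) ⊓ Z := by
      refine ⟨(P : Subgroup G).mul_mem ((P : Subgroup G).inv_mem ((P : Subgroup G).mul_mem ha hb))
        ((P : Subgroup G).mul_mem hb ha), ?_⟩
      change (a * b)⁻¹ * (b * a) ∈ Z
      rw [← hfk, MonoidHom.mem_ker, map_mul, map_inv, map_mul, map_mul, h1, inv_mul_cancel]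
    rw [hPZ, mem_bot, inv_mul_eq_one] at h2
    exact h2
  have hCb : EqConj p (G ⧸ Z) := EqConj.of_surjective hC f hfs
  have hCb2 : EqConj 2 (G ⧸ Z) := EqConj.of_surjective hC2 f hfs
  have hnt : (⊤ : Subgroup (G ⧸ Z)) ≠ ⊥ := by
    intro h
    have h1 : Nat.card (Pb : Subgroup (G ⧸ Z)) ∣ Nat.card (⊤ : Subgroup (G ⧸ Z)) := Subgroup.card_dvd_of_le le_top
    rw [h, Subgroup.card_bot, hcb, Nat.dvd_one] at h1
    exact (Nat.one_lt_pow (by norm_num) hp.one_lt : 1 < p ^ 3).ne' h1
  obtain ⟨N, hN, hN1, -, hmin⟩ := exists_minimal_normal (⊤ : Subgroup (G ⧸ Z)) inferInstance hnt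
  have hd : p ∣ Nat.card N := by
    by_contra hnd
    have h1 : Nat.card (N.comap f) = Nat.card N * Nat.card Z := by
      rw [card_comap f hfs, hfk]
    have h2 := hZmax (N.comap f) ⟨inferInstance, by
      rw [h1]
      exact Nat.Coprime.mul_left ((Nat.Prime.coprime_iff_not_dvd hp).mpr hnd).symm hZc⟩
    change Nat.card (N.comap f) ≤ Nat.card Z at h2
    rw [h1] at h2
    have h3 : 1 < Nat.card N := Subgroup.one_lt_card_iff_ne_bot _ |>.mpr hN1
    have h4 : 0 < Nat.card Z := Nat.card_pos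
    nlinarith
  have hna : ¬ ∀ x ∈ N, ∀ y ∈ N, Commute x y := by
    intro h
    have : IsMulCommutative N := ⟨⟨fun a b => Subtype.ext (h a a.2 b b.2)⟩⟩
    have hs : Group.IsSolvable N := by
      let _ : CommGroup N := { (inferInstance : Group N) with mul_comm := this.is_comm.comm }
      infer_instance
    exact hncb (hCb.comm_of_pSolvable Pb N (Lib.PSolvable.IsPSolvable_of_solvable p) hd hexpb)
  have hPN : (Pb : Subgroup (G ⧸ Z)) ≤ N := fun a ha => hCb.mem_of_normal N hd a (hexpb a ha)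
  exact no_cube_simple hp2 hCb hCb2 Pb hcb hexpb hncb N (isSimpleGroup_of_minimal hCb N hmin hna hd) hna hPN

end Cfsg.Agent.H500
end

-- part: S4020
section
set_option autoImplicit false
open Cfsg

namespace Cfsg.Agent.S4020

/-- Let G be a finite group in which, for every prime p, any two p-subgroups of the same order are conjugate. Then every Sylow subgroup of G is cyclic, elementary abelian, or a quaternion group of order 8. -/
theorem result {G : Type*} [Group G] [Finite G]
    (hD : ∀ p : ℕ, p.Prime → ∀ H K : Subgroup G, IsPGroup p H → IsPGroup p K → Nat.card H = Nat.card K →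
      ∃ g : G, K = H.map (MulAut.conj g).toMonoidHom) {p : ℕ} [Fact p.Prime] (P : Sylow p G) :
    IsCyclic P ∨ Cfsg.IsElementaryAbelian p (P : Subgroup G) ∨ Nonempty ((P : Subgroup G) ≃* QuaternionGroup 2) := by
  rcases H501.EqConj.types (hD p Fact.out) (P : Subgroup G) P.isPGroup' with h | h | ⟨-, h⟩ | ⟨h1, h2, h3, h4⟩
  · exact Or.inl h
  · exact Or.inr (Or.inl h)
  · exact Or.inr (Or.inr h)
  · exfalso
    refine H500.no_cube_main h1 (hD p Fact.out) (hD 2 Nat.prime_two) P h3 ?_ ?_
    · intro a ha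
      have := Monoid.pow_exponent_eq_one (⟨a, ha⟩ : (P : Subgroup G))
      rw [h4] at this
      exact congrArg Subtype.val this
    · intro h
      exact h2 ⟨⟨fun a b => Subtype.ext (h a a.2 b b.2)⟩⟩

end Cfsg.Agent.S4020
end
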