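import Cfsg.Statements.S4028
set_option linter.all false

set_option autoImplicit false
open Cfsg
open scoped Pointwise

namespace Cfsg.Agent.S4028

open Subgroup

/-- The property of a subgroup `Q`: whenever an element `z` of `Q` normalises `⟨y⟩`, `y ∈ Q`, it centralises `y`. -/
theorem transfer {G : Type*} [Group G] [Finite G] (P Q : Sylow 2 G)
    (h : ∀ y : ↥(P : Subgroup G), Subgroup.normalizer ((Subgroup.zpowers y : Subgroup ↥(P : Subgroup G)) : Set ↥(P : Subgroup G)) ≤
        Subgroup.centralizer {y}) (y z : G) (hy : y ∈ Q) (hz : z ∈ Q)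
    (hyz : z ∈ normalizer ((zpowers y : Subgroup G) : Set G)) : z * y = y * z := by
  obtain ⟨g, rfl⟩ := MulAction.exists_smul_eq G P Q
  have key : ∀ w : G, w ∈ (g • P : Sylow 2 G) → g⁻¹ * w * g ∈ (P : Subgroup G) := by
    intro w hw
    have : w ∈ (MulAut.conj g • (P : Subgroup G) : Subgroup G) := hw
    rw [Subgroup.mem_pointwise_smul_iff_inv_smul_mem] at this
    simpa [MulAut.smul_def, mul_assoc] using this
  have hy' := key y hy
  have hz' := key z hz
  have h1 := h ⟨_, hy'⟩ (x := ⟨_, hz'⟩) (by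
    rw [mem_normalizer_iff] at hyz ⊢
    have conj_mem : ∀ a b : G, a ∈ zpowers b ↔ g⁻¹ * a * g ∈ zpowers (g⁻¹ * b * g) := by
      intro a b
      simp only [mem_zpowers_iff]
      have e : ∀ k : ℤ, (g⁻¹ * b * g) ^ k = g⁻¹ * b ^ k * g := by
        intro k
        have := conj_zpow (i := k) (a := g⁻¹) (b := b)
        simpa using this
      constructor
      · rintro ⟨k, rfl⟩
        exact ⟨k, e k⟩
      · rintro ⟨k, hk⟩
        refine ⟨k, ?_⟩
        rw [e] at hk
        simpa using hk
    have sub_mem : ∀ a b : ↥(P : Subgroup G), a ∈ zpowers b ↔ (a : G) ∈ zpowers (b : G) := by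
      intro a b
      simp only [mem_zpowers_iff]
      constructor
      · rintro ⟨k, rfl⟩
        exact ⟨k, by simp⟩
      · rintro ⟨k, hk⟩
        exact ⟨k, Subtype.ext (by simpa using hk)⟩
    rintro ⟨w, hw⟩
    rw [sub_mem, sub_mem]
    have hh := hyz (g * w * g⁻¹)
    rw [conj_mem, conj_mem (z * (g * w * g⁻¹) * z⁻¹)] at hh
    have e1 : g⁻¹ * (g * w * g⁻¹) * g = w := by group
    have e2 : g⁻¹ * (z * (g * w * g⁻¹) * z⁻¹) * g = (g⁻¹ * z * g) * w * (g⁻¹ * z * g)⁻¹ := by group
    rw [e1, e2] at hh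
    exact hh)
  rw [mem_centralizer_singleton_iff] at h1
  have h2 := congrArg Subtype.val h1
  simp only [Subgroup.coe_mul] at h2
  have h3 : g⁻¹ * (z * y) * g = g⁻¹ * (y * z) * g := by
    have e1 : g⁻¹ * (z * y) * g = (g⁻¹ * z * g) * (g⁻¹ * y * g) := by group
    have e2 : g⁻¹ * (y * z) * g = (g⁻¹ * y * g) * (g⁻¹ * z * g) := by group
    rw [e1, e2]; exact h2
  simpa using h3

/-- Let G be a finite group with Sylow 2-subgroup P. Then N_G(⟨x⟩) = C_G(x) holds for every 2-element x of G if and only if N_P(⟨y⟩) = C_P(y) holds for every y ∈ P (computed inside P). -/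
theorem result {G : Type*} [Group G] [Finite G] (P : Sylow 2 G) :
    (∀ x : G, (∀ r : ℕ, r.Prime → r ∣ orderOf x → r = 2) →
      Subgroup.normalizer ((Subgroup.zpowers x : Subgroup G) : Set G) ≤ Subgroup.centralizer {x}) ↔
    (∀ y : ↥(P : Subgroup G), Subgroup.normalizer ((Subgroup.zpowers y : Subgroup ↥(P : Subgroup G)) : Set ↥(P : Subgroup G)) ≤
        Subgroup.centralizer {y}) := by
  have : Fact (Nat.Prime 2) := ⟨Nat.prime_two⟩
  constructor
  · intro h y z hz
    have h2 : ∀ r : ℕ, r.Prime → r ∣ orderOf (y : G) → r = 2 := by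
      intro r hr hry
      obtain ⟨k, hk⟩ := IsPGroup.iff_orderOf.mp P.isPGroup' y
      rw [Subgroup.orderOf_coe, hk] at hry
      exact (Nat.prime_dvd_prime_iff_eq hr Nat.prime_two).mp (hr.dvd_of_dvd_pow hry)
    have h3 : (z : G) ∈ centralizer ({(y : G)} : Set G) := h (y : G) h2 (by
      rw [mem_normalizer_iff] at hz ⊢
      intro w
      have sub_mem : ∀ a b : ↥(P : Subgroup G), a ∈ zpowers b ↔ (a : G) ∈ zpowers (b : G) := by
        intro a b
        simp only [mem_zpowers_iff]
        constructor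
        · rintro ⟨k, rfl⟩
          exact ⟨k, by simp⟩
        · rintro ⟨k, hk⟩
          exact ⟨k, Subtype.ext (by simpa using hk)⟩
      have hle : zpowers (y : G) ≤ (P : Subgroup G) := by
        rw [zpowers_le]; exact y.2
      constructor
      · intro hw
        have hwP := hle hw
        have := (hz ⟨w, hwP⟩).mp ((sub_mem _ _).mpr hw)
        exact (sub_mem _ _).mp this
      · intro hw
        have hwP := hle hw
        have hwP' : w ∈ (P : Subgroup G) := by
          have e : w = (z : G)⁻¹ * ((z : G) * w * (z : G)⁻¹) * z := by group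
          rw [e]
          exact mul_mem (mul_mem (inv_mem z.2) hwP) z.2
        have := (hz ⟨w, hwP'⟩).mpr ((sub_mem _ _).mpr hw)
        exact (sub_mem _ _).mp this)
    rw [mem_centralizer_singleton_iff] at h3 ⊢
    exact Subtype.ext (by simpa using h3)
  · intro h x hx n hn
    have hxp : IsPGroup 2 (zpowers x) := by
      rw [IsPGroup.iff_orderOf]
      intro w
      have h1 : orderOf w ∣ orderOf x := by
        rw [← Subgroup.orderOf_coe]
        exact orderOf_dvd_of_mem_zpowers w.2
      refine ⟨_, Nat.eq_prime_pow_of_unique_prime_dvd (orderOf_pos w).ne' ?_⟩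
      intro r hr hrw
      exact hx r hr (hrw.trans h1)
    have hcent : ∀ a : G, a ∈ centralizer ({x} : Set G) ↔ a * x = x * a := fun a => by
      rw [mem_centralizer_singleton_iff]
    -- split the order of `n`
    obtain ⟨a, m, hm, hnm⟩ := Nat.exists_eq_pow_mul_and_not_dvd (orderOf_pos n).ne' 2 (by norm_num)
    have hcop : Nat.Coprime (2 ^ a) m :=
      Nat.Coprime.pow_left a ((Nat.Prime.coprime_iff_not_dvd Nat.prime_two).mpr hm)
    -- the odd part
    have hodd : n ^ (2 ^ a) ∈ centralizer ({x} : Set G) := by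
      have hN : n ^ (2 ^ a) ∈ normalizer ((zpowers x : Subgroup G) : Set G) := pow_mem hn _
      set f := (zpowers x).normalizerMonoidHom with hf
      have h1 : orderOf (f ⟨_, hN⟩) ∣ m := by
        refine (orderOf_map_dvd f _).trans ?_
        rw [← Subgroup.orderOf_coe]
        rw [orderOf_pow_of_dvd (by positivity) (by rw [hnm]; exact Dvd.intro _ rfl), hnm,
          Nat.mul_div_cancel_left _ (by positivity)]
      have h2 : orderOf (f ⟨_, hN⟩) ∣ 2 ^ (Nat.card (zpowers x)) := by
        have h3 : orderOf (f ⟨_, hN⟩) ∣ Nat.card (MulAut (zpowers x)) := orderOf_dvd_natCard _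
        rw [IsCyclic.card_mulAut] at h3
        obtain ⟨k, hk⟩ := hxp.exists_card_eq
        rcases Nat.eq_zero_or_pos k with h0 | h0
        · rw [hk, h0, pow_zero, Nat.totient_one] at h3
          exact h3.trans (one_dvd _)
        · rw [hk, Nat.totient_prime_pow Nat.prime_two h0] at h3
          simp only [Nat.add_one_sub_one, mul_one] at h3
          refine h3.trans (pow_dvd_pow _ ?_)
          rw [hk]
          exact (Nat.sub_le _ _).trans (Nat.lt_pow_self (by norm_num)).le
      have h4 : orderOf (f ⟨_, hN⟩) = 1 := by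
        have h5 : Nat.Coprime m (2 ^ (Nat.card (zpowers x))) :=
          (Nat.Coprime.pow_left _ ((Nat.Prime.coprime_iff_not_dvd Nat.prime_two).mpr hm)).symm
        exact Nat.eq_one_of_dvd_coprimes h5 h1 h2
      have h6 : (⟨_, hN⟩ : normalizer ((zpowers x : Subgroup G) : Set G)) ∈ f.ker := by
        rw [MonoidHom.mem_ker]; exact orderOf_eq_one_iff.mp h4
      rw [hf, Subgroup.normalizerMonoidHom_ker] at h6
      have h7 : n ^ (2 ^ a) ∈ centralizer ((zpowers x : Subgroup G) : Set G) := h6
      rw [hcent]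
      exact ((mem_centralizer_iff.mp h7) x (mem_zpowers x)).symm
    -- the even part
    have heven : n ^ m ∈ centralizer ({x} : Set G) := by
      have hN : n ^ m ∈ normalizer ((zpowers x : Subgroup G) : Set G) := pow_mem hn _
      have htp : IsPGroup 2 (zpowers (n ^ m)) := by
        have h1 : orderOf (n ^ m) ∣ 2 ^ a := by
          refine orderOf_dvd_of_pow_eq_one ?_
          rw [← pow_mul, mul_comm, ← hnm, pow_orderOf_eq_one]
        obtain ⟨k, -, hk⟩ := (Nat.dvd_prime_pow Nat.prime_two).mp h1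
        exact IsPGroup.of_card (n := k) (by rw [Nat.card_zpowers, hk])
      have hsup : IsPGroup 2 (zpowers (n ^ m) ⊔ zpowers x : Subgroup G) :=
        htp.to_sup_of_normal_right' hxp (by rw [zpowers_le]; exact hN)
      obtain ⟨Q, hQ⟩ := hsup.exists_le_sylow
      rw [hcent]
      exact transfer P Q h x (n ^ m) (hQ (mem_sup_right (mem_zpowers x)))
        (hQ (mem_sup_left (mem_zpowers _))) hN
    -- conclude
    have h8 : n ∈ zpowers (n ^ (2 ^ a)) ⊔ zpowers (n ^ m) := by
      have h9 := Nat.gcd_eq_gcd_ab (2 ^ a) m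
      have h10 : Nat.gcd (2 ^ a) m = 1 := hcop
      rw [h10] at h9
      have e : n = (n ^ (2 ^ a)) ^ (Nat.gcdA (2 ^ a) m) * (n ^ m) ^ (Nat.gcdB (2 ^ a) m) := by
        rw [← zpow_natCast n (2 ^ a), ← zpow_natCast n m, ← zpow_mul, ← zpow_mul, ← zpow_add, ← h9]
        simp
      have e2 := mul_mem_sup (zpow_mem (mem_zpowers (n ^ (2 ^ a))) (Nat.gcdA (2 ^ a) m))
        (zpow_mem (mem_zpowers (n ^ m)) (Nat.gcdB (2 ^ a) m))
      rwa [← e] at e2
    have h11 : zpowers (n ^ (2 ^ a)) ⊔ zpowers (n ^ m) ≤ centralizer ({x} : Set G) :=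
      sup_le (by rw [zpowers_le]; exact hodd) (by rw [zpowers_le]; exact heven)
    exact h11 h8

end Cfsg.Agent.S4028
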