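import Cfsg.Statements.S4032
import Cfsg.Agent.H501.NormCent
set_option linter.all false

set_option autoImplicit false
open Cfsg

namespace Cfsg.Agent.S4032

/-- Let π be a set of primes and G a finite group in which N_G(⟨x⟩) = C_G(x) for every π-element x. If N is a normal subgroup of G whose order is divisible by no prime of π, then G/N has the same property: N_{G/N}(⟨y⟩) = C_{G/N}(y) for every π-element y of G/N. -/
theorem result {G : Type*} [Group G] [Finite G] (π : Set ℕ)
    (hirr : ∀ x : G, (∀ r : ℕ, r.Prime → r ∣ orderOf x → r ∈ π) →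
      Subgroup.normalizer ((Subgroup.zpowers x : Subgroup G) : Set G) ≤ Subgroup.centralizer {x})
    (N : Subgroup G) [N.Normal] (hN : ∀ r : ℕ, r.Prime → r ∣ Nat.card N → r ∉ π) :
    ∀ y : G ⧸ N, (∀ r : ℕ, r.Prime → r ∣ orderOf y → r ∈ π) →
      Subgroup.normalizer ((Subgroup.zpowers y : Subgroup (G ⧸ N)) : Set (G ⧸ N)) ≤ Subgroup.centralizer {y} := by
  intro xb hx
  obtain ⟨g, hg⟩ := QuotientGroup.mk'_surjective N xb
  obtain ⟨x, hxx, hxo⟩ := H501.exists_lift (QuotientGroup.mk' N) xb _ g rfl hg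
  have hx2 : ∀ r : ℕ, r.Prime → r ∣ orderOf x → r ∈ π := fun r hr hrx => hx r hr (hxo r hr hrx)
  have hcop : (orderOf x).Coprime (Nat.card N) := by
    refine Nat.Coprime.symm ?_
    refine Nat.coprime_of_dvd fun k hk h1 h2 => ?_
    exact hN k hk h1 (hx2 k hk h2)
  intro yb hyb
  obtain ⟨y, rfl⟩ := QuotientGroup.mk'_surjective N yb
  subst hxx
  obtain ⟨n, hn, hny⟩ := H501.exists_mul_mem_normalizer N x y hcop hyb
  have h1 := hirr x hx2 hny
  rw [Subgroup.mem_centralizer_singleton_iff] at h1 ⊢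
  have h2 := congrArg (QuotientGroup.mk' N) h1
  have h3 : QuotientGroup.mk' N n = 1 := (QuotientGroup.eq_one_iff n).mpr hn
  simp only [map_mul, h3, one_mul] at h2
  exact h2

end Cfsg.Agent.S4032
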