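import Cfsg.Statements.S4049
import Cfsg.Agent.H506.PiReal
set_option linter.all false

set_option autoImplicit false
open Cfsg

namespace Cfsg.Agent.S4049

open Cfsg.Agent.H506 in
/-- Groups homogeneous for the set of all odd primes. -/
theorem closed {G : Type*} [Group G] [Finite G] (hG : PiHomog.Homog {2}ᶜ G) :
    PiHomog.ClosedPr {2}ᶜ G := by
  have hcc : (({2} : Set ℕ)ᶜ)ᶜ = {2} := compl_compl _
  have h2grp : ∀ (K : Type _) [Group K] [Finite K], PiHomog.PiNum (({2} : Set ℕ)ᶜ)ᶜ (Nat.card K) →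
      IsPGroup 2 K := by
    intro K _ _ hK
    rw [hcc] at hK
    rw [IsPGroup.iff_card]
    exact ⟨_, Nat.eq_prime_pow_of_unique_prime_dvd Nat.card_pos.ne' (fun {d} hd h => hK d hd h)⟩
  refine PiHomog.main_reduction {2}ᶜ (fun _ _ => True) (fun _ _ _ _ _ => trivial)
    (fun _ _ _ _ _ _ _ => trivial) (fun _ _ _ _ _ _ _ _ => trivial) ?_ ?_ G trivial hG
  · intro G _ _ _ K _ hK _
    left
    have : Fact (Nat.Prime 2) := ⟨Nat.prime_two⟩
    have hK2 : IsPGroup 2 K := h2grp K hK
    have hnil : Group.IsNilpotent K := hK2.isNilpotent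
    infer_instance
  · intro G _ _ _ _ _ hh _ h1 h2
    have hd : 2 ∣ Nat.card G := by
      by_contra hd
      apply h1
      intro p hp hpd hp2
      rw [Set.mem_singleton_iff] at hp2
      rw [hp2] at hpd
      exact hd hpd
    have hp := PiReal.isPGroup_two_of_simple hh hd
    apply h2
    obtain ⟨k, hk⟩ := (IsPGroup.iff_card (p := 2) (G := G)).1 hp
    rw [hk, hcc]
    intro p hp hpd
    exact (Nat.prime_dvd_prime_iff_eq hp Nat.prime_two).1 (hp.dvd_of_dvd_pow hpd)

open Cfsg.Agent.H506 in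
/-- Let G be a finite group such that N_G(H)/C_G(H) has odd order for every nontrivial subgroup H of odd order. Then the Sylow 2-subgroups of G are normal. -/
theorem result {G : Type*} [Group G] [Finite G]
    (hhom : ∀ H : Subgroup G, H ≠ ⊥ → ¬ 2 ∣ Nat.card ↥H →
        ¬ 2 ∣ (Subgroup.centralizer (H : Set G)).relIndex (Subgroup.normalizer (H : Set G))) (P : Sylow 2 G) :
    (P : Subgroup G).Normal := by
  have hpi : ∀ n : ℕ, PiHomog.PiNum {2}ᶜ n ↔ ¬ 2 ∣ n := by
    intro n
    constructor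
    · intro h h2
      exact h 2 Nat.prime_two h2 rfl
    · intro h p hp hpd hp2
      rw [Set.mem_singleton_iff] at hp2
      rw [hp2] at hpd
      exact h hpd
  have hG : PiHomog.Homog {2}ᶜ G := by
    apply PiHomog.homog_of_relIndex
    intro H hH1 hH2
    rw [hpi] at hH2 ⊢
    exact hhom H hH1 hH2
  obtain ⟨K, hKc, hK1, hK2, hK3⟩ := PiHomog.exists_normal_of_closedPr (closed hG)
  have hKn : K.Normal := Subgroup.normal_of_characteristic K
  have hcc : (({2} : Set ℕ)ᶜ)ᶜ = {2} := compl_compl _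
  rw [hcc] at hK1
  have : Fact (Nat.Prime 2) := ⟨Nat.prime_two⟩
  have hKp : IsPGroup 2 K := by
    rw [IsPGroup.iff_card]
    exact ⟨_, Nat.eq_prime_pow_of_unique_prime_dvd Nat.card_pos.ne' (fun {d} hd h => hK1 d hd h)⟩
  have hPK : (P : Subgroup G) ≤ K := by
    intro x hx
    rw [hK3, hcc]
    obtain ⟨k, hk⟩ := (IsPGroup.iff_orderOf (p := 2) (G := P)).1 P.2 ⟨x, hx⟩
    rw [← Subgroup.orderOf_coe] at hk
    change orderOf x = 2 ^ k at hk
    rw [hk]
    intro p hp hpd
    exact (Nat.prime_dvd_prime_iff_eq hp Nat.prime_two).1 (hp.dvd_of_dvd_pow hpd)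
  have := P.3 hKp hPK
  rw [← this]
  exact hKn

end Cfsg.Agent.S4049
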