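import Cfsg.Statements.S4050
import Cfsg.Agent.H507.PiExt
set_option linter.all false

set_option autoImplicit false
open Cfsg

namespace Cfsg.Agent.S4050

open Cfsg.Agent.H506.PiHomog Cfsg.Agent.H507.PiExt

theorem closedPr_of_chain {G : Type*} [Group G] [Finite G] {σ : Set ℕ} (hG : PHomog σ G) {n : ℕ}
    (H : Fin (n + 1) → Subgroup G) (h0 : H 0 = ⊥) (hm : Monotone H) (hn : ∀ i, (H i).Normal)
    (hs : ∀ i : Fin n, PiNum σ ((H i.castSucc).relIndex (H i.succ)) ∨
      PiNum σᶜ ((H i.castSucc).relIndex (H i.succ))) (i : Fin (n + 1)) : ClosedPr σ (H i) := by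
  induction i using Fin.induction with
  | zero =>
    rw [h0]
    apply closedPr_of_piNum
    rw [Subgroup.card_bot]
    exact PiNum.one _
  | succ i ih =>
    have hle : H i.castSucc ≤ H i.succ := hm (Fin.castSucc_le_succ i)
    have hnn : ((H i.castSucc).subgroupOf (H i.succ)).Normal := (hn i.castSucc).subgroupOf _
    refine closedPr_of_extension (hG.subgroup (H i.succ)) ((H i.castSucc).subgroupOf (H i.succ)) ?_ ?_
    · exact ClosedPr.of_mulEquiv (Subgroup.subgroupOfEquivOfLe hle).symm ih
    · rcases hs i with h | h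
      · exact closedPr_of_piNum h
      · exact closedPr_of_piNum' h

/-- Let π be a set of primes and G a finite group. The π-elements of G (elements whose order is divisible only by primes of π) form a subgroup if and only if G is π-separable (it has a chain of normal subgroups from 1 to G with each successive index divisible only by primes in π or only by primes outside π) and N_G(H)/C_G(H) is a π'-group for every nontrivial π'-subgroup H of G. -/
theorem result {G : Type*} [Group G] [Finite G] (π : Set ℕ)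
    (hπ : ∀ p ∈ π, p.Prime) :
    (∃ K : Subgroup G, ∀ x : G, x ∈ K ↔ ∀ p : ℕ, p.Prime → p ∣ orderOf x → p ∈ π) ↔
    ((∃ (n : ℕ) (H : Fin (n + 1) → Subgroup G), H 0 = ⊥ ∧ H (Fin.last n) = ⊤ ∧ Monotone H ∧ (∀ i, (H i).Normal) ∧
      ∀ i : Fin n, (∀ q : ℕ, q.Prime → q ∣ (H i.castSucc).relIndex (H i.succ) → q ∈ π) ∨
        (∀ q : ℕ, q.Prime → q ∣ (H i.castSucc).relIndex (H i.succ) → q ∉ π)) ∧
     (∀ H : Subgroup G, H ≠ ⊥ → (∀ p : ℕ, p.Prime → p ∣ Nat.card ↥H → p ∉ π) →
        ∀ p : ℕ, p.Prime → p ∣ (Subgroup.centralizer (H : Set G)).relIndex (Subgroup.normalizer (H : Set G)) → p ∉ π)) := by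
  have hcl : Cfsg.Agent.H506.PiHomog.ClosedPr πᶜ G ↔
      ∃ K : Subgroup G, ∀ x : G, x ∈ K ↔ ∀ p : ℕ, p.Prime → p ∣ orderOf x → p ∈ π := by
    unfold Cfsg.Agent.H506.PiHomog.ClosedPr
    rw [compl_compl]
    rfl
  rw [← hcl]
  constructor
  · intro h
    refine ⟨?_, fun H _ hH => relIndex_of_homog h.homog H hH⟩
    obtain ⟨K, hKc, hK1, hK2, -⟩ := exists_normal_of_closedPr h
    rw [compl_compl] at hK1
    have hKn : K.Normal := Subgroup.normal_of_characteristic K
    refine ⟨2, ![⊥, K, ⊤], rfl, rfl, ?_, ?_, ?_⟩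
    · rw [Fin.monotone_iff_le_succ]
      intro i
      fin_cases i
      · exact bot_le
      · exact le_top
    · intro i
      fin_cases i
      · exact (inferInstance : (⊥ : Subgroup G).Normal)
      · exact hKn
      · exact (inferInstance : (⊤ : Subgroup G).Normal)
    · intro i
      fin_cases i
      · left
        show PiNum π ((⊥ : Subgroup G).relIndex K)
        rwa [Subgroup.relIndex_bot_left]
      · right
        show PiNum πᶜ (K.relIndex ⊤)
        rwa [Subgroup.relIndex_top_right]
  · rintro ⟨⟨n, H, h0, hl, hm, hn, hs⟩, hhom⟩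
    have h1 := closedPr_of_chain (σ := πᶜ) (PHomog.of_homog (homog_of_relIndex hhom)) H h0 hm hn
      (fun i => by
        rw [compl_compl]
        exact (hs i).symm) (Fin.last n)
    rw [hl] at h1
    exact ClosedPr.of_mulEquiv Subgroup.topEquiv h1

end Cfsg.Agent.S4050
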