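import Mathlib
import Cfsg.Agent.SylowL.UT
import Cfsg.Agent.Lib.FrattiniPGroup
import Cfsg.Agent.SylowL.Lower
import Cfsg.Agent.S0263
import Cfsg.Agent.Lib.ElemAbGL
import Cfsg.Statements.S4057
import Cfsg.Agent.H508.ThompsonGen
set_option linter.all false

-- part: H508/Patterson
section
/-!
# Generators of groups of unitriangular matrices over a prime field

Every subgroup of the group of upper unitriangular `n × n` matrices over the integers modulo `p` is generated by
at most `n² / 4` elements.  The proof takes leading positions of elements (last nonzero row, then first nonzero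
column) and applies Mantel's theorem to the graph of those positions that are not leading positions of commutators.
-/

set_option autoImplicit false
set_option linter.style.haveILetI false

namespace Cfsg.Agent.H508.Patterson

open Cfsg.Agent.SylowL.UT Cfsg.Agent.SylowL.Lev
open scoped commutatorElement

variable {n : ℕ}

/-- The place of a position in the order "last row first, then first column first". -/
def pos (i j : Fin n) : ℕ := n * (n - 1 - i) + j

theorem pos_lt_of_row {i i' : Fin n} (h : i' < i) (j j' : Fin n) : pos i j < pos i' j' := by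
  unfold pos
  have h1 : (n - 1 - (i : ℕ)) + 1 ≤ n - 1 - (i' : ℕ) := by
    have := i.2
    have : (i' : ℕ) < i := h
    omega
  have h2 : n * ((n - 1 - (i : ℕ)) + 1) ≤ n * (n - 1 - (i' : ℕ)) := Nat.mul_le_mul_left n h1
  have h3 := j.2
  rw [mul_add, mul_one] at h2
  omega

theorem pos_lt_of_col (i : Fin n) {j j' : Fin n} (h : j < j') : pos i j < pos i j' := by
  unfold pos
  have : (j : ℕ) < j' := h
  omega

theorem pos_lt_bound (i j : Fin n) : pos i j < n * n := by
  unfold pos
  have h1 : n - 1 - (i : ℕ) + 1 ≤ n := by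
    have := i.2
    omega
  have h2 := Nat.mul_le_mul_left n h1
  rw [mul_add, mul_one] at h2
  have := j.2
  omega

theorem pos_injective {i j i' j' : Fin n} (h : pos i j = pos i' j') : i = i' ∧ j = j' := by
  rcases lt_trichotomy i i' with h1 | h1 | h1
  · exact absurd h (pos_lt_of_row h1 j' j).ne'
  · subst h1
    refine ⟨rfl, ?_⟩
    rcases lt_trichotomy j j' with h2 | h2 | h2
    · exact absurd h (pos_lt_of_col i h2).ne
    · exact h2
    · exact absurd h (pos_lt_of_col i h2).ne'
  · exact absurd h (pos_lt_of_row h1 j j').ne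

section

variable {p : ℕ} [hp : Fact p.Prime] {X : Type*} [Group X] (f : X →* UT n (ZMod p))

/-- The matrix entries of `f x - 1`. -/
def ent (x : X) (i j : Fin n) : ZMod p := N (f x) i j

/-- All entries before `t` vanish. -/
def Van (t : ℕ) (x : X) : Prop := ∀ i j : Fin n, pos i j < t → ent f x i j = 0

theorem ent_eq_zero_of_le (x : X) {i j : Fin n} (h : j ≤ i) : ent f x i j = 0 := by
  have : (j : ℕ) ≤ i := h
  exact apply_eq_zero (N_mem (f x)) (by omega)

theorem ent_mul (x y : X) (i j : Fin n) :
    ent f (x * y) i j = ent f x i j + ent f y i j + ∑ c, ent f x i c * ent f y c j := by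
  unfold ent
  rw [map_mul, N_mul, Matrix.add_apply, Matrix.add_apply, Matrix.mul_apply]

/-- The product term vanishes up to the level of the right factor. -/
theorem sum_eq_zero (x : X) {y : X} {t : ℕ} (hy : Van f t y) {i j : Fin n} (hij : pos i j ≤ t) :
    ∑ c, ent f x i c * ent f y c j = 0 := by
  refine Finset.sum_eq_zero fun c _ => ?_
  by_cases hc : c ≤ i
  · rw [ent_eq_zero_of_le f x hc, zero_mul]
  · rw [hy c j (lt_of_lt_of_le (pos_lt_of_row (not_le.1 hc) j j) hij), mul_zero]

theorem ent_mul_of_van (x : X) {y : X} {t : ℕ} (hy : Van f t y) {i j : Fin n} (hij : pos i j ≤ t) :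
    ent f (x * y) i j = ent f x i j + ent f y i j := by
  rw [ent_mul, sum_eq_zero f x hy hij, add_zero]

theorem van_one (t : ℕ) : Van f t 1 := by
  intro i j _
  simp [ent]

theorem van_mul {t : ℕ} {x y : X} (hx : Van f t x) (hy : Van f t y) : Van f t (x * y) := by
  intro i j hij
  rw [ent_mul_of_van f x hy hij.le, hx i j hij, hy i j hij, add_zero]

theorem van_pow {t : ℕ} {x : X} (hx : Van f t x) (k : ℕ) : Van f t (x ^ k) := by
  induction k with
  | zero => rw [pow_zero]; exact van_one f t
  | succ k ih => rw [pow_succ]; exact van_mul f ih hx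

theorem ent_pow_of_van {t : ℕ} {x : X} (hx : Van f t x) {i j : Fin n} (hij : pos i j ≤ t) (k : ℕ) :
    ent f (x ^ k) i j = k * ent f x i j := by
  induction k with
  | zero => simp [ent]
  | succ k ih =>
    rw [pow_succ, ent_mul_of_van f _ hx hij, ih]
    push_cast
    ring

theorem eq_one_of_van (hf : Function.Injective f) {x : X} (hx : Van f (n * n) x) : x = 1 := by
  apply hf
  rw [map_one, ← N_eq_zero_iff]
  ext i j
  exact hx i j (pos_lt_bound i j)

/-- `t` is the leading place of `x`. -/
def Lead (t : ℕ) (x : X) : Prop := Van f t x ∧ ¬ Van f (t + 1) x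

theorem lead_iff {t : ℕ} {x : X} : Lead f t x ↔
    Van f t x ∧ ∃ i j : Fin n, pos i j = t ∧ ent f x i j ≠ 0 := by
  constructor
  · rintro ⟨h1, h2⟩
    refine ⟨h1, ?_⟩
    unfold Van at h2
    push Not at h2
    obtain ⟨i, j, hij, hne⟩ := h2
    refine ⟨i, j, ?_, hne⟩
    by_contra hcon
    exact hne (h1 i j (by omega))
  · rintro ⟨h1, i, j, hij, hne⟩
    exact ⟨h1, fun h2 => hne (h2 i j (by omega))⟩

/-- Leading places of commutators. -/
theorem lead_commutator {x y : X} {i m j : Fin n} (hx : Lead f (pos i m) x) (hy : Lead f (pos m j) y) :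
    Lead f (pos i j) ⁅x, y⁆ := by
  rw [lead_iff] at hx hy ⊢
  obtain ⟨hx1, i1, m1, h1, hx2⟩ := hx
  obtain ⟨rfl, rfl⟩ := pos_injective h1
  obtain ⟨hy1, m2, j1, h2, hy2⟩ := hy
  obtain ⟨rfl, rfl⟩ := pos_injective h2
  have him : i1 < m2 := by
    by_contra hcon
    exact hx2 (ent_eq_zero_of_le f x (not_lt.1 hcon))
  have hmj : m2 < j1 := by
    by_contra hcon
    exact hy2 (ent_eq_zero_of_le f y (not_lt.1 hcon))
  -- the difference of products
  let D : Fin n → Fin n → ZMod p := fun a b => ent f (x * y) a b - ent f (y * x) a b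
  have hD : ∀ a b, D a b = (∑ c, ent f x a c * ent f y c b) - ∑ c, ent f y a c * ent f x c b := by
    intro a b
    change ent f (x * y) a b - ent f (y * x) a b = _
    rw [ent_mul, ent_mul]
    ring
  have hxrow : ∀ a b, i1 < a → ent f x a b = 0 := fun a b h => hx1 a b (pos_lt_of_row h b m2)
  have hyrow : ∀ a b, m2 < a → ent f y a b = 0 := fun a b h => hy1 a b (pos_lt_of_row h b j1)
  have hxcol : ∀ b, b < m2 → ent f x i1 b = 0 := fun b h => hx1 i1 b (pos_lt_of_col i1 h)
  have hycol : ∀ b, b < j1 → ent f y m2 b = 0 := fun b h => hy1 m2 b (pos_lt_of_col m2 h)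
  have hsum2 : ∀ a b, i1 ≤ a → ∑ c, ent f y a c * ent f x c b = 0 := by
    intro a b hab
    refine Finset.sum_eq_zero fun c _ => ?_
    by_cases hc : c ≤ a
    · rw [ent_eq_zero_of_le f y hc, zero_mul]
    · rw [hxrow c b (lt_of_le_of_lt hab (not_le.1 hc)), mul_zero]
  have hsum1 : ∀ a b, i1 < a → ∑ c, ent f x a c * ent f y c b = 0 := by
    intro a b hab
    refine Finset.sum_eq_zero fun c _ => ?_
    rw [hxrow a c hab, zero_mul]
  have hsum3 : ∀ b, ∑ c, ent f x i1 c * ent f y c b = ent f x i1 m2 * ent f y m2 b := by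
    intro b
    rw [Finset.sum_eq_single m2]
    · intro c _ hc
      rcases lt_or_gt_of_ne hc with h | h
      · rw [hxcol c h, zero_mul]
      · rw [hyrow c b h, mul_zero]
    · intro h
      exact absurd (Finset.mem_univ _) h
  have hDrow : ∀ a b, i1 < a → D a b = 0 := by
    intro a b hab
    rw [hD, hsum1 a b hab, hsum2 a b hab.le, sub_zero]
  have hDi : ∀ b, D i1 b = ent f x i1 m2 * ent f y m2 b := by
    intro b
    rw [hD, hsum2 i1 b le_rfl, sub_zero, hsum3]
  -- relation with the commutator
  have hcomm : ∀ a b, ent f ⁅x, y⁆ a b = D a b + ∑ c, D a c * ent f (y * x)⁻¹ c b := by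
    intro a b
    have h1 : ⁅x, y⁆ = (x * y) * (y * x)⁻¹ := by rw [commutatorElement_def]; group
    have h3 : ent f ((y * x) * (y * x)⁻¹) a b = 0 := by
      rw [mul_inv_cancel]; simp [ent]
    rw [ent_mul] at h3
    rw [h1, ent_mul]
    have h4 : ∑ c, D a c * ent f (y * x)⁻¹ c b =
        (∑ c, ent f (x * y) a c * ent f (y * x)⁻¹ c b) - ∑ c, ent f (y * x) a c * ent f (y * x)⁻¹ c b := by
      rw [← Finset.sum_sub_distrib]
      refine Finset.sum_congr rfl fun c _ => ?_
      change (ent f (x * y) a c - ent f (y * x) a c) * _ = _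
      ring
    rw [h4]
    change _ = (ent f (x * y) a b - ent f (y * x) a b) + _
    have h5 : ent f (y * x)⁻¹ a b = - ent f (y * x) a b - ∑ c, ent f (y * x) a c * ent f (y * x)⁻¹ c b := by
      linear_combination h3
    rw [h5]
    ring
  have hcommrow : ∀ a b, i1 < a → ent f ⁅x, y⁆ a b = 0 := by
    intro a b hab
    rw [hcomm, hDrow a b hab, zero_add]
    exact Finset.sum_eq_zero fun c _ => by rw [hDrow a c hab, zero_mul]
  have hcommi : ∀ b, b ≤ j1 → ent f ⁅x, y⁆ i1 b = D i1 b := by
    intro b hb
    rw [hcomm]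
    convert add_zero _
    refine Finset.sum_eq_zero fun c _ => ?_
    by_cases hc : c < j1
    · rw [hDi, hycol c hc, mul_zero, zero_mul]
    · rw [ent_eq_zero_of_le f _ (hb.trans (not_lt.1 hc)), mul_zero]
  refine ⟨?_, i1, j1, rfl, ?_⟩
  · intro a b hab
    rcases lt_trichotomy a i1 with h | h | h
    · exact absurd hab (not_lt.2 (pos_lt_of_row h j1 b).le)
    · subst h
      have hb : b < j1 := by
        by_contra hcon
        rcases (not_lt.1 hcon).lt_or_eq with h | h
        · exact absurd hab (not_lt.2 (pos_lt_of_col a h).le)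
        · subst h; exact absurd hab (lt_irrefl _)
      rw [hcommi b hb.le, hDi, hycol b hb, mul_zero]
    · exact hcommrow a b h
  · rw [hcommi j1 le_rfl, hDi]
    exact mul_ne_zero hx2 hy2

/-- **Generators of unitriangular groups.** A finite `p`-group that embeds into the group of upper unitriangular
`n × n` matrices over the integers modulo `p` is generated by at most `n² / 4` elements. -/
theorem exists_gen [Finite X] (hX : IsPGroup p X) (hf : Function.Injective f) :
    ∃ T : Finset X, 4 * T.card ≤ n ^ 2 ∧ Subgroup.closure (T : Set X) = ⊤ := by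
  classical
  let Y : Subgroup X := commutator X
  -- places which are leading places of elements but not of elements of the derived subgroup
  let B : Finset ℕ := (Finset.range (n * n)).filter
    (fun t => (∃ x, Lead f t x) ∧ ¬ ∃ y ∈ Y, Lead f t y)
  let z : ℕ → X := fun t => if h : ∃ x, Lead f t x then h.choose else 1
  have hz : ∀ t, (∃ x, Lead f t x) → Lead f t (z t) := by
    intro t ht
    simp only [z, dif_pos ht]
    exact ht.choose_spec
  let T : Finset X := B.image z
  let K : Subgroup X := Subgroup.closure (T : Set X) ⊔ Y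
  have hKlead : ∀ t, (∃ x, Lead f t x) → ∃ w ∈ K, Lead f t w := by
    intro t ht
    by_cases h : ∃ y ∈ Y, Lead f t y
    · obtain ⟨y, hy, hl⟩ := h
      exact ⟨y, (le_sup_right : Y ≤ K) hy, hl⟩
    · refine ⟨z t, (le_sup_left : Subgroup.closure (T : Set X) ≤ K) (Subgroup.subset_closure ?_), hz t ht⟩
      have htB : t ∈ B := by
        refine Finset.mem_filter.2 ⟨?_, ht, h⟩
        obtain ⟨x, hx⟩ := ht
        obtain ⟨-, i, j, hij, -⟩ := (lead_iff f).1 hx
        rw [Finset.mem_range, ← hij]
        exact pos_lt_bound i j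
      exact Finset.mem_coe.2 (Finset.mem_image_of_mem z htB)
  have hKtop : ∀ s t : ℕ, s + t = n * n → ∀ x, Van f t x → x ∈ K := by
    intro s
    induction s with
    | zero =>
      intro t ht x hx
      rw [zero_add] at ht
      subst ht
      rw [eq_one_of_van f hf hx]
      exact one_mem _
    | succ s ih =>
      intro t ht x hx
      by_cases h : Van f (t + 1) x
      · exact ih (t + 1) (by omega) x h
      · have hlx : Lead f t x := ⟨hx, h⟩
        obtain ⟨w, hwK, hw⟩ := hKlead t ⟨x, hlx⟩
        obtain ⟨-, i, j, hij, hne⟩ := (lead_iff f).1 hw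
        -- choose the exponent
        let c : ZMod p := - (ent f x i j) / ent f w i j
        have hc : ((c.val : ℕ) : ZMod p) * ent f w i j = - ent f x i j := by
          rw [ZMod.natCast_zmod_val]
          exact div_mul_cancel₀ _ hne
        have hvan : Van f (t + 1) (x * w ^ c.val) := by
          intro a b hab
          have hab' : pos a b ≤ t := by omega
          rw [ent_mul_of_van f x (van_pow f hw.1 _) hab', ent_pow_of_van f hw.1 hab']
          rcases hab'.lt_or_eq with h1 | h1
          · rw [hx a b h1, hw.1 a b h1, mul_zero, add_zero]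
          · obtain ⟨rfl, rfl⟩ := pos_injective (h1.trans hij.symm)
            rw [hc]
            ring
        have h1 := ih (t + 1) (by omega) _ hvan
        have h2 : x = (x * w ^ c.val) * (w ^ c.val)⁻¹ := by group
        rw [h2]
        exact mul_mem h1 (inv_mem (pow_mem hwK _))
  have hK : K = ⊤ := by
    rw [eq_top_iff]
    intro x _
    exact hKtop (n * n) 0 (by omega) x (fun i j h => absurd h (Nat.not_lt_zero _))
  have hTtop : Subgroup.closure (T : Set X) = ⊤ := by
    apply frattini_nongenerating
    rw [eq_top_iff, ← hK]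
    exact sup_le_sup_left (Cfsg.Agent.Lib.FrattiniPGroup.commutator_le_frattini hX) _
  refine ⟨T, ?_, hTtop⟩
  -- Mantel
  have hTB : T.card ≤ B.card := Finset.card_image_le
  let G : SimpleGraph (Fin n) := SimpleGraph.fromRel (fun i j => i < j ∧ pos i j ∈ B)
  have hGadj : ∀ i j, i < j → (G.Adj i j ↔ pos i j ∈ B) := by
    intro i j hij
    rw [SimpleGraph.fromRel_adj]
    constructor
    · rintro ⟨-, h | h⟩
      · exact h.2
      · exact absurd hij (not_lt.2 h.1.le)
    · intro h
      exact ⟨hij.ne, Or.inl ⟨hij, h⟩⟩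
  have hfree3 : ∀ i m j : Fin n, i < m → m < j → G.Adj i m → G.Adj m j → ¬ G.Adj i j := by
    intro i m j him hmj h1 h2 h3
    rw [hGadj i m him] at h1
    rw [hGadj m j hmj] at h2
    rw [hGadj i j (him.trans hmj)] at h3
    obtain ⟨x, hx⟩ := (Finset.mem_filter.1 h1).2.1
    obtain ⟨y, hy⟩ := (Finset.mem_filter.1 h2).2.1
    exact (Finset.mem_filter.1 h3).2.2
      ⟨⁅x, y⁆, Subgroup.commutator_mem_commutator (Subgroup.mem_top x) (Subgroup.mem_top y),
        lead_commutator f hx hy⟩
  have hfree : G.CliqueFree 3 := by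
    intro s hs
    rw [SimpleGraph.is3Clique_iff] at hs
    obtain ⟨a, b, c, hab, hac, hbc, -⟩ := hs
    rcases lt_or_gt_of_ne hab.ne with h1 | h1
    · rcases lt_or_gt_of_ne hbc.ne with h2 | h2
      · exact hfree3 a b c h1 h2 hab hbc hac
      · rcases lt_or_gt_of_ne hac.ne with h3 | h3
        · exact hfree3 a c b h3 h2 hac hbc.symm hab
        · exact hfree3 c a b h3 h1 hac.symm hab hbc.symm
    · rcases lt_or_gt_of_ne hbc.ne with h2 | h2
      · rcases lt_or_gt_of_ne hac.ne with h3 | h3
        · exact hfree3 b a c h1 h3 hab.symm hac hbc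
        · exact hfree3 b c a h2 h3 hbc hac.symm hab.symm
      · exact hfree3 c b a h2 h1 hbc.symm hab.symm hac.symm
  have hedge : B.card ≤ G.edgeFinset.card := by
    have hpl : ∀ t ∈ B, ∃ e : Fin n × Fin n, pos e.1 e.2 = t ∧ e.1 < e.2 := by
      intro t ht
      obtain ⟨x, hx⟩ := (Finset.mem_filter.1 ht).2.1
      obtain ⟨-, i, j, hij, hne⟩ := (lead_iff f).1 hx
      refine ⟨(i, j), hij, ?_⟩
      by_contra hcon
      exact hne (ent_eq_zero_of_le f x (not_lt.1 hcon))
    choose e he1 he2 using hpl
    rw [← Finset.card_attach]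
    refine Finset.card_le_card_of_injOn (fun t => s((e t.1 t.2).1, (e t.1 t.2).2)) ?_ ?_
    · rintro ⟨t, ht⟩ -
      rw [Finset.mem_coe, SimpleGraph.mem_edgeFinset, SimpleGraph.mem_edgeSet, hGadj _ _ (he2 t ht), he1 t ht]
      exact ht
    · rintro ⟨t, ht⟩ - ⟨t', ht'⟩ - h
      have h' : s((e t ht).1, (e t ht).2) = s((e t' ht').1, (e t' ht').2) := h
      rw [Sym2.eq_iff] at h'
      rcases h' with ⟨h1, h2⟩ | ⟨h1, h2⟩
      · apply Subtype.ext
        change t = t'
        rw [← he1 t ht, ← he1 t' ht', h1, h2]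
      · exfalso
        have h3 := he2 t ht
        have h4 := he2 t' ht'
        rw [h1, h2] at h3
        exact lt_asymm h3 h4
  have hturan := hfree.card_edgeFinset_le (r := 2)
  simp only [Fintype.card_fin] at hturan
  have hmod : n % 2 < 2 := Nat.mod_lt _ (by norm_num)
  have hch : (n % 2).choose 2 = 0 := Nat.choose_eq_zero_of_lt hmod
  rw [hch] at hturan
  have h4 : G.edgeFinset.card * 4 ≤ n ^ 2 := by
    have h5 : G.edgeFinset.card ≤ n ^ 2 / 4 := by
      refine hturan.trans ?_
      rw [add_zero]
      norm_num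
      exact Nat.div_le_div_right (Nat.sub_le _ _)
    calc _ ≤ (n ^ 2 / 4) * 4 := Nat.mul_le_mul_right 4 h5
      _ ≤ n ^ 2 := Nat.div_mul_le_self _ _
  omega

end

end Cfsg.Agent.H508.Patterson
end

-- part: H508/GLGen
section
/-!
# Generators of `p`-subgroups of `GL(n, p)`

Every `p`-subgroup of `GL(n, p)` is generated by at most `n² / 4` elements.
-/

set_option autoImplicit false
set_option linter.style.haveILetI false

namespace Cfsg.Agent.H508.GLGen

open Cfsg.Agent.SylowL.UT

variable {p n : ℕ} [hp : Fact p.Prime]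

/-- The group of unitriangular matrices as a Sylow subgroup. -/
theorem exists_sylow_UT : ∃ S : Sylow p (GL (Fin n) (ZMod p)), (S : Subgroup _) = UT n (ZMod p) := by
  have h1 : Nat.card (UT n (ZMod p)) = p ^ (Nat.card (GL (Fin n) (ZMod p))).factorization p := by
    obtain ⟨S⟩ : Nonempty (Sylow p (GL (Fin n) (ZMod p))) := inferInstance
    rw [← Sylow.card_eq_multiplicity S, Cfsg.Agent.S0263.result (F := ZMod p) (q := p) (ZMod.card p) p n S,
      Cfsg.Agent.SylowL.Lower.card_UT, Nat.card_zmod]
  exact ⟨Sylow.ofCard (UT n (ZMod p)) h1, rfl⟩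

/-- A finite `p`-group inside `GL(n, p)` embeds into the unitriangular group. -/
theorem exists_hom_UT {X : Type*} [Group X] [Finite X] (hX : IsPGroup p X) (f : X →* GL (Fin n) (ZMod p))
    (hf : Function.Injective f) : ∃ g : X →* UT n (ZMod p), Function.Injective g := by
  classical
  obtain ⟨S, hS⟩ := exists_sylow_UT (p := p) (n := n)
  have hr : IsPGroup p f.range := hX.of_surjective f.rangeRestrict f.rangeRestrict_surjective
  obtain ⟨Q, hQ⟩ := hr.exists_le_sylow
  obtain ⟨g, hg⟩ := MulAction.exists_smul_eq (GL (Fin n) (ZMod p)) Q S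
  let f' : X →* GL (Fin n) (ZMod p) := (MulAut.conj g).toMonoidHom.comp f
  have hf' : ∀ x, f' x ∈ UT n (ZMod p) := by
    intro x
    rw [← hS, ← hg]
    have h1 : f x ∈ (Q : Subgroup _) := hQ ⟨x, rfl⟩
    exact Subgroup.smul_mem_pointwise_smul (f x) (MulAut.conj g) (Q : Subgroup _) h1
  refine ⟨f'.codRestrict (UT n (ZMod p)) hf', ?_⟩
  intro a b hab
  have h2 : f' a = f' b := congrArg Subtype.val hab
  exact hf ((MulAut.conj g).injective h2)

/-- Every finite `p`-group that embeds into `GL(n, p)` is generated by at most `n² / 4` elements. -/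
theorem exists_gen_GL {X : Type*} [Group X] [Finite X] (hX : IsPGroup p X) (f : X →* GL (Fin n) (ZMod p))
    (hf : Function.Injective f) : ∃ T : Finset X, 4 * T.card ≤ n ^ 2 ∧ Subgroup.closure (T : Set X) = ⊤ := by
  obtain ⟨g, hg⟩ := exists_hom_UT hX f hf
  exact Cfsg.Agent.H508.Patterson.exists_gen g hX hg

/-- A `p`-group acting faithfully on an elementary abelian group of order `p ^ n` is generated by at most
`n² / 4` elements. -/
theorem exists_gen_mulAut {X V : Type*} [Group X] [Finite X] [Group V] (hX : IsPGroup p X)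
    (hcomm : ∀ a b : V, a * b = b * a) (hpow : ∀ a : V, a ^ p = 1) (hV : Nat.card V = p ^ n)
    (f : X →* MulAut V) (hf : Function.Injective f) :
    ∃ T : Finset X, 4 * T.card ≤ n ^ 2 ∧ Subgroup.closure (T : Set X) = ⊤ := by
  letI : CommGroup V := { ‹Group V› with mul_comm := hcomm }
  obtain ⟨e⟩ := Cfsg.Agent.Lib.ElemAbGL.mulAut_equiv_GL (V := V) p n hpow hV
  exact exists_gen_GL hX (e.toMonoidHom.comp f) (e.injective.comp hf)

end Cfsg.Agent.H508.GLGen
end

-- part: S4057
section
set_option autoImplicit false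
set_option linter.style.haveILetI false
open Cfsg

namespace Cfsg.Agent.S4057

open Subgroup Cfsg.Agent.H508

/-- Let p be an odd prime and P a finite p-group in which every normal abelian subgroup can be generated by k elements. Then every subgroup of P can be generated by at most ⌊k(k+4)/4⌋ elements. -/
theorem result {P : Type*} [Group P] [Finite P] {p : ℕ} [Fact p.Prime]
    (hp : p ≠ 2) (hP : IsPGroup p P) (k : ℕ)
    (hab : ∀ A : Subgroup P, A.Normal → IsMulCommutative A → ∃ S : Finset P, S.card ≤ k ∧ Subgroup.closure (S : Set P) = A) :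
    ∀ H : Subgroup P, ∃ S : Finset P, S.card ≤ k * (k + 4) / 4 ∧ Subgroup.closure (S : Set P) = H := by
  classical
  have hpp : p.Prime := Fact.out
  -- a maximal normal elementary abelian subgroup
  obtain ⟨A, -, hAn, hA, hmax⟩ := Cfsg.Agent.Lib.NormalElementary.exists_maximal_ge p (⊥ : Subgroup P)
    inferInstance (by
      refine ⟨⟨⟨?_⟩⟩, ?_⟩
      · rintro ⟨a, ha⟩ ⟨b, hb⟩
        exact Subsingleton.elim _ _
      · intro a ha
        rw [mem_bot] at ha
        rw [ha, one_pow])
  haveI := hAn
  have halp : ∀ x : P, x ∈ centralizer (A : Set P) → x ^ p = 1 → x ∈ A := fun x hx hxp =>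
    Cfsg.Agent.Lib.NormalElementary.mem_of_maximal hp hP A hA hmax hx hxp
  obtain ⟨a, ha⟩ := (hP.to_subgroup A).exists_card_eq
  have hAcomm : ∀ x y : A, x * y = y * x := fun x y => hA.1.is_comm.comm x y
  have hApow : ∀ x : A, x ^ p = 1 := fun x => Subtype.ext (hA.2 x x.2)
  -- the rank of `A` is at most `k`
  have hak : a ≤ k := by
    obtain ⟨S, hS, hcl⟩ := hab A hAn hA.1
    have hSA : ∀ s ∈ S, s ∈ A := fun s hs => by rw [← hcl]; exact subset_closure hs
    let T : Finset A := S.attach.image (fun s => ⟨s.1, hSA s.1 s.2⟩)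
    have hT : T.card ≤ S.card := by
      refine Finset.card_image_le.trans ?_
      rw [Finset.card_attach]
    have hTcl : closure (T : Set A) = ⊤ := by
      rw [eq_top_iff]
      rintro ⟨x, hx⟩ -
      have h1 : x ∈ (closure (T : Set A)).map A.subtype := by
        rw [MonoidHom.map_closure]
        rw [← hcl] at hx
        refine closure_mono ?_ hx
        intro s hs
        refine ⟨⟨s, hSA s hs⟩, ?_, rfl⟩
        rw [Finset.coe_image]
        exact ⟨⟨s, hs⟩, Finset.mem_coe.2 (Finset.mem_attach _ _), rfl⟩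
      obtain ⟨y, hy, hyx⟩ := h1
      have : y = ⟨x, hx⟩ := Subtype.ext hyx
      rwa [← this]
    have hfr : (frattini A).index = p ^ a := by
      have h1 : frattini A = ⊥ := by
        rw [eq_bot_iff]
        apply Cfsg.Agent.Lib.FrattiniPGroup.frattini_le (p := p)
        · intro x y
          rw [mem_bot, commutatorElement_eq_one_iff_mul_comm]
          exact hAcomm x y
        · intro x
          rw [mem_bot]
          exact hApow x
      rw [h1, Subgroup.index_bot, ha]
    have h2 := (Cfsg.Agent.S0014.result p a (hP.to_subgroup A) hfr).2 T hTcl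
    omega
  intro H
  -- the action on `A`
  let f : H →* MulAut A := (MulAut.conjNormal (H := A)).comp H.subtype
  have hker : ∀ x : H, x ∈ f.ker → (x : P) ∈ centralizer (A : Set P) := by
    intro x hx
    rw [MonoidHom.mem_ker] at hx
    rw [mem_centralizer_iff]
    intro y hy
    have h1 := congrArg (fun φ : MulAut A => ((φ ⟨y, hy⟩ : A) : P)) hx
    have h2 : (x : P) * y * (x : P)⁻¹ = y := by
      simpa [f, MulAut.conjNormal_apply] using h1
    calc y * (x : P) = ((x : P) * y * (x : P)⁻¹) * x := by rw [h2]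
      _ = x * y := by group
  -- the kernel
  have hPH : IsPGroup p H := hP.to_subgroup H
  have hPK : IsPGroup p f.ker := hPH.to_subgroup f.ker
  obtain ⟨T₂, hT₂, hcl₂⟩ : ∃ T : Finset f.ker, T.card ≤ a ∧ closure (T : Set f.ker) = ⊤ := by
    apply ThompsonGen.exists_gen hp hPK
    · intro x hx
      rw [mem_center_iff]
      intro g
      have hx' : ((x : H) : P) ∈ A := halp _ (hker x x.2) (by
        have := congrArg (fun z : f.ker => ((z : H) : P)) hx
        simpa using this)
      have h1 := mem_centralizer_iff.1 (hker g g.2) _ hx'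
      exact Subtype.ext (Subtype.ext h1.symm)
    · rw [← ha]
      refine Nat.card_le_card_of_injective (fun x : {x : f.ker // x ^ p = 1} =>
        (⟨((x.1 : H) : P), halp _ (hker x.1 x.1.2) (by
          have := congrArg (fun z : f.ker => ((z : H) : P)) x.2
          simpa using this)⟩ : A)) ?_
      intro x y hxy
      have h1 : ((x.1 : H) : P) = ((y.1 : H) : P) := by
        simpa using congrArg (fun z : A => (z : P)) hxy
      exact Subtype.ext (Subtype.ext (Subtype.ext h1))
  -- the quotient
  obtain ⟨T₁, hT₁, hcl₁⟩ := GLGen.exists_gen_mulAut (X := H ⧸ f.ker) (V := A) (hPH.to_quotient f.ker)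
    hAcomm hApow ha (QuotientGroup.kerLift f) (QuotientGroup.kerLift_injective f)
  obtain ⟨T, hT, hcl⟩ := ThompsonGen.exists_gen_extension f.ker T₁ T₂ hcl₁ hcl₂
  refine ⟨T.image (Subtype.val : H → P), ?_, ?_⟩
  · refine Finset.card_image_le.trans ?_
    rw [Nat.le_div_iff_mul_le (by norm_num)]
    have h1 : a ^ 2 ≤ k ^ 2 := Nat.pow_le_pow_left hak 2
    have h2 : k * (k + 4) = k ^ 2 + 4 * k := by ring
    omega
  · rw [Finset.coe_image]
    have h1 := MonoidHom.map_closure H.subtype (T : Set H)
    rw [hcl] at h1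
    have h2 : (⊤ : Subgroup H).map H.subtype = H := by rw [← MonoidHom.range_eq_map, Subgroup.range_subtype]
    rw [h2] at h1
    exact h1.symm

end Cfsg.Agent.S4057
end
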