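import Cfsg.Statements.S4065
set_option linter.all false

set_option autoImplicit false
open Cfsg

namespace Cfsg.Agent.S4065

open Matrix

/-- The centralizer of a nonscalar 2×2 matrix over a field is commutative. -/
theorem comm_of_comm {F : Type*} [Field F] (A B C : Matrix (Fin 2) (Fin 2) F)
    (hA : ¬ ∃ c : F, A = c • (1 : Matrix (Fin 2) (Fin 2) F))
    (hB : A * B = B * A) (hC : A * C = C * A) : B * C = C * B := by
  have e00 := congrFun (congrFun hB 0) 0
  have e01 := congrFun (congrFun hB 0) 1
  have e10 := congrFun (congrFun hB 1) 0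
  have f00 := congrFun (congrFun hC 0) 0
  have f01 := congrFun (congrFun hC 0) 1
  have f10 := congrFun (congrFun hC 1) 0
  simp only [Matrix.mul_apply, Fin.sum_univ_two] at e00 e01 e10 f00 f01 f10
  have e1 : A 0 1 * B 1 0 = B 0 1 * A 1 0 := by linear_combination e00
  have e2 : (A 0 0 - A 1 1) * B 0 1 = A 0 1 * (B 0 0 - B 1 1) := by linear_combination e01
  have e3 : A 1 0 * (B 0 0 - B 1 1) = B 1 0 * (A 0 0 - A 1 1) := by linear_combination e10
  have f1 : A 0 1 * C 1 0 = C 0 1 * A 1 0 := by linear_combination f00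
  have f2 : (A 0 0 - A 1 1) * C 0 1 = A 0 1 * (C 0 0 - C 1 1) := by linear_combination f01
  have f3 : A 1 0 * (C 0 0 - C 1 1) = C 1 0 * (A 0 0 - A 1 1) := by linear_combination f10
  have key : B 0 1 * C 1 0 = C 0 1 * B 1 0 ∧ (B 0 0 - B 1 1) * C 0 1 = B 0 1 * (C 0 0 - C 1 1) ∧
      B 1 0 * (C 0 0 - C 1 1) = C 1 0 * (B 0 0 - B 1 1) := by
    by_cases hb : A 0 1 = 0
    · by_cases hc : A 1 0 = 0
      · have had : A 0 0 - A 1 1 ≠ 0 := by
          intro h
          apply hA
          refine ⟨A 0 0, ?_⟩
          ext i j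
          fin_cases i <;> fin_cases j <;> simp [hb, hc]
          exact (sub_eq_zero.1 h).symm
        have hB01 : B 0 1 = 0 := by
          apply mul_left_cancel₀ had
          rw [e2, hb]; ring
        have hB10 : B 1 0 = 0 := by
          apply mul_right_cancel₀ had
          rw [← e3, hc]; ring
        have hC01 : C 0 1 = 0 := by
          apply mul_left_cancel₀ had
          rw [f2, hb]; ring
        have hC10 : C 1 0 = 0 := by
          apply mul_right_cancel₀ had
          rw [← f3, hc]; ring
        rw [hB01, hB10, hC01, hC10]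
        refine ⟨by ring, by ring, by ring⟩
      · have c1 : B 0 1 * C 1 0 = C 0 1 * B 1 0 := by
          apply mul_left_cancel₀ hc
          linear_combination B 1 0 * f1 - C 1 0 * e1
        have c3 : B 1 0 * (C 0 0 - C 1 1) = C 1 0 * (B 0 0 - B 1 1) := by
          apply mul_left_cancel₀ hc
          linear_combination B 1 0 * f3 - C 1 0 * e3
        refine ⟨c1, ?_, c3⟩
        apply mul_left_cancel₀ hc
        linear_combination C 0 1 * e3 - B 0 1 * f3 - (A 0 0 - A 1 1) * c1
    · have c1 : B 0 1 * C 1 0 = C 0 1 * B 1 0 := by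
        apply mul_left_cancel₀ hb
        linear_combination B 0 1 * f1 - C 0 1 * e1
      have c2 : (B 0 0 - B 1 1) * C 0 1 = B 0 1 * (C 0 0 - C 1 1) := by
        apply mul_left_cancel₀ hb
        linear_combination B 0 1 * f2 - C 0 1 * e2
      refine ⟨c1, c2, ?_⟩
      apply mul_left_cancel₀ hb
      linear_combination C 1 0 * e2 - B 1 0 * f2 - (A 0 0 - A 1 1) * c1
  obtain ⟨c1, c2, c3⟩ := key
  ext i j
  fin_cases i <;> fin_cases j <;> simp only [Matrix.mul_apply, Fin.sum_univ_two, Fin.zero_eta,
      Fin.mk_one, Fin.isValue]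
  · linear_combination c1
  · linear_combination c2
  · linear_combination c3
  · linear_combination -c1

/-- If centralizers of nonidentity elements are commutative then all centralizers are TI. -/
theorem ti_of_comm {G : Type*} [Group G] (h : ∀ x y z : G, x ≠ 1 → x * y = y * x → x * z = z * x →
    y * z = z * y) (x : G) : Cfsg.IsTISubset (Subgroup.centralizer ({x} : Set G) : Set G) := by
  intro g hg y hy hgy
  by_contra hy1
  apply hg
  by_cases hx : x = 1
  · subst hx
    rw [Subgroup.mem_normalizer_iff]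
    intro a
    simp [Subgroup.mem_centralizer_singleton_iff]
  rw [SetLike.mem_coe, Subgroup.mem_centralizer_singleton_iff] at hy hgy
  -- C(x) = C(y) and C(x) = C(g y g⁻¹)
  have key : ∀ u v : G, u ≠ 1 → v ≠ 1 → u * v = v * u → ∀ a, (a * u = u * a ↔ a * v = v * a) := by
    intro u v hu hv huv a
    constructor
    · intro ha
      exact h u a v hu ha.symm huv
    · intro ha
      exact h v a u hv ha.symm huv.symm
  have hgy1 : g * y * g⁻¹ ≠ 1 := by
    intro he
    apply hy1
    have : y = g⁻¹ * (g * y * g⁻¹) * g := by group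
    rw [this, he]; group
  have k1 := key x y hx hy1 hy.symm
  have k2 := key x (g * y * g⁻¹) hx hgy1 hgy.symm
  rw [Subgroup.mem_normalizer_iff]
  intro a
  rw [Subgroup.mem_centralizer_singleton_iff, Subgroup.mem_centralizer_singleton_iff, k1, k2]
  constructor
  · intro ha
    calc g * a * g⁻¹ * (g * y * g⁻¹) = g * (a * y) * g⁻¹ := by group
      _ = g * (y * a) * g⁻¹ := by rw [ha]
      _ = g * y * g⁻¹ * (g * a * g⁻¹) := by group
  · intro ha
    calc a * y = g⁻¹ * (g * a * g⁻¹ * (g * y * g⁻¹)) * g := by group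
      _ = g⁻¹ * (g * y * g⁻¹ * (g * a * g⁻¹)) * g := by rw [ha]
      _ = y * a := by group

/-- Let F be a finite field with 2ⁿ elements, n ≥ 2. In PSL₂(F) the centralizer of every element meets each of its conjugates by elements outside its normalizer trivially. -/
theorem result (n : ℕ) (hn : 2 ≤ n)
    (x : Matrix.ProjectiveSpecialLinearGroup (Fin 2) (GaloisField 2 n)) :
    Cfsg.IsTISubset (Subgroup.centralizer ({x} : Set (Matrix.ProjectiveSpecialLinearGroup (Fin 2) (GaloisField 2 n))) :
      Set (Matrix.ProjectiveSpecialLinearGroup (Fin 2) (GaloisField 2 n))) := by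
  apply ti_of_comm
  clear x
  intro x y z hx hxy hxz
  have hcen : ∀ c : SpecialLinearGroup (Fin 2) (GaloisField 2 n), c ∈ Subgroup.center _ → c = 1 := by
    intro c hc
    obtain ⟨r, hr, hrc⟩ := (Matrix.SpecialLinearGroup.mem_center_iff).1 hc
    have hr1 : r = 1 := by
      have h2 : (r - 1) ^ 2 = 0 := by
        rw [sub_sq, show (Fintype.card (Fin 2)) = 2 from rfl] at *
        rw [hr]
        have : (2 : GaloisField 2 n) = 0 := by
          exact_mod_cast CharP.cast_eq_zero (GaloisField 2 n) 2
        linear_combination (1 - r) * this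
      exact sub_eq_zero.1 (pow_eq_zero_iff (two_ne_zero)|>.1 h2)
    apply Subtype.ext
    rw [← hrc, hr1]
    simp
  have hinj : Function.Injective (QuotientGroup.mk' (Subgroup.center (SpecialLinearGroup (Fin 2) (GaloisField 2 n)))) := by
    rw [injective_iff_map_eq_one]
    intro a ha
    apply hcen
    exact (QuotientGroup.eq_one_iff a).1 ha
  obtain ⟨X, rfl⟩ := QuotientGroup.mk'_surjective _ x
  obtain ⟨Y, rfl⟩ := QuotientGroup.mk'_surjective _ y
  obtain ⟨Z, rfl⟩ := QuotientGroup.mk'_surjective _ z
  rw [← map_mul, ← map_mul] at hxy hxz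
  have hXY := hinj hxy
  have hXZ := hinj hxz
  rw [← map_mul, ← map_mul]
  congr 1
  apply Subtype.ext
  have hXY' := congrArg Subtype.val hXY
  have hXZ' := congrArg Subtype.val hXZ
  refine comm_of_comm (X : Matrix (Fin 2) (Fin 2) (GaloisField 2 n)) _ _ ?_ hXY' hXZ'
  rintro ⟨c, hc⟩
  apply hx
  have : X ∈ Subgroup.center (SpecialLinearGroup (Fin 2) (GaloisField 2 n)) := by
    rw [Matrix.SpecialLinearGroup.mem_center_iff]
    refine ⟨c, ?_, ?_⟩
    · have hd := X.2
      rw [hc] at hd
      simpa using hd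
    · rw [hc]
      simp [Matrix.smul_one_eq_diagonal]
  rw [hcen X this, map_one]

end Cfsg.Agent.S4065
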