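import Mathlib
import Cfsg.Statements.S4067
set_option linter.all false

-- part: H510/OrbCount
section
/-!
# Counting orbits

Bounds for the number of orbits of a finite group acting on a finite set, and for the number of
conjugacy classes.
-/

set_option autoImplicit false
set_option linter.style.haveILetI false

namespace Cfsg.Agent.H510.OrbCount

open MulAction

/-- the orbit counting lemma, summed over points -/
theorem sum_card_stabilizer (A X : Type*) [Group A] [MulAction A X] [Finite A] [Fintype X] :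
    ∑ x : X, Nat.card (stabilizer A x) = Nat.card (orbitRel.Quotient A X) * Nat.card A := by
  classical
  haveI : Fintype A := Fintype.ofFinite A
  have e1 : (Σ x : X, stabilizer A x) ≃ {q : A × X // q.1 • q.2 = q.2} :=
    { toFun := fun s => ⟨(s.2.1, s.1), s.2.2⟩
      invFun := fun q => ⟨q.1.2, ⟨q.1.1, q.2⟩⟩
      left_inv := fun s => rfl
      right_inv := fun q => rfl }
  have e2 : (Σ a : A, fixedBy X a) ≃ {q : A × X // q.1 • q.2 = q.2} :=
    { toFun := fun s => ⟨(s.1, s.2.1), s.2.2⟩
      invFun := fun q => ⟨q.1.1, ⟨q.1.2, q.2⟩⟩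
      left_inv := fun s => rfl
      right_inv := fun q => rfl }
  have h1 : ∑ x : X, Nat.card (stabilizer A x) = Nat.card (Σ x : X, stabilizer A x) := by
    rw [Nat.card_sigma]
  rw [h1, Nat.card_congr (e1.trans e2.symm), Nat.card_congr (sigmaFixedByEquivOrbitsProdGroup A X),
    Nat.card_prod]

/-- If all orbits outside `Z` have length at least `p` and those in `S` have length at least `p²`, where
`p * |Z| ≤ |S|`, then there are at most `|X| / p` orbits. -/
theorem orbits_bound {A X : Type*} [Group A] [MulAction A X] [Finite A] [Finite X] (p : ℕ) (hp : 1 ≤ p)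
    (Z S : Set X) (hZS : Disjoint Z S)
    (h1 : ∀ x ∉ Z, p ≤ (orbit A x).ncard) (h2 : ∀ x ∈ S, p * p ≤ (orbit A x).ncard)
    (hcard : p * Z.ncard ≤ S.ncard) :
    p * Nat.card (orbitRel.Quotient A X) ≤ Nat.card X := by
  classical
  haveI : Fintype X := Fintype.ofFinite X
  have hA : 0 < Nat.card A := Nat.card_pos
  have hst : ∀ x : X, Nat.card (stabilizer A x) * (orbit A x).ncard = Nat.card A := by
    intro x
    rw [← index_stabilizer, Subgroup.card_mul_index]
  have hx : ∀ x : X, (p * p) * Nat.card (stabilizer A x) ≤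
      ((if x ∈ Z then p * p else 0) + (if x ∈ S then 1 else 0) + (if x ∉ Z ∧ x ∉ S then p else 0)) *
        Nat.card A := by
    intro x
    have h := hst x
    have hpos : 0 < (orbit A x).ncard := by
      by_contra h0
      have : (orbit A x).ncard = 0 := by omega
      rw [this, mul_zero] at h
      omega
    by_cases hz : x ∈ Z
    · have hs : x ∉ S := fun hs => (Set.disjoint_left.1 hZS) hz hs
      simp only [hz, hs, if_true, if_false, not_true, not_false_eq_true, false_and, add_zero]
      apply Nat.mul_le_mul_left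
      rw [← h]
      exact Nat.le_mul_of_pos_right _ hpos
    · by_cases hs : x ∈ S
      · simp only [hz, hs, if_true, if_false, not_true, not_false_eq_true, and_false, add_zero, zero_add]
        rw [one_mul, ← h, mul_comm]
        exact Nat.mul_le_mul_left _ (h2 x hs)
      · simp only [hz, hs, if_true, if_false, not_false_eq_true, and_self, zero_add]
        rw [← h, mul_assoc]
        apply Nat.mul_le_mul_left
        rw [mul_comm]
        exact Nat.mul_le_mul_left _ (h1 x hz)
  have hsum := Finset.sum_le_sum (fun x (_ : x ∈ (Finset.univ : Finset X)) => hx x)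
  rw [← Finset.mul_sum, sum_card_stabilizer, ← Finset.sum_mul, ← mul_assoc] at hsum
  have hle := Nat.le_of_mul_le_mul_right hsum hA
  rw [Finset.sum_add_distrib, Finset.sum_add_distrib] at hle
  have hZc : ∑ x : X, (if x ∈ Z then p * p else 0) = Z.ncard * (p * p) := by
    rw [← Finset.sum_filter, Finset.sum_const, smul_eq_mul]
    congr 1
    rw [Set.ncard_eq_toFinset_card' Z]
    congr 1
    ext; simp
  have hSc : ∑ x : X, (if x ∈ S then 1 else 0) = S.ncard := by
    rw [← Finset.sum_filter, Finset.sum_const, smul_eq_mul, mul_one]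
    rw [Set.ncard_eq_toFinset_card' S]
    congr 1
    ext; simp
  have hRc : ∑ x : X, (if x ∉ Z ∧ x ∉ S then p else 0) = (Set.ncard ((Z ∪ S)ᶜ)) * p := by
    rw [← Finset.sum_filter, Finset.sum_const, smul_eq_mul]
    congr 1
    rw [Set.ncard_eq_toFinset_card' _]
    congr 1
    ext; simp
  rw [hZc, hSc, hRc] at hle
  have htot : Z.ncard + S.ncard + ((Z ∪ S)ᶜ).ncard = Nat.card X := by
    rw [← Set.ncard_union_eq hZS, Set.ncard_add_ncard_compl]
  set z := Z.ncard
  set s := S.ncard
  set t := ((Z ∪ S)ᶜ).ncard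
  set k := Nat.card (orbitRel.Quotient A X)
  rw [← htot]
  -- p * p * k ≤ z * (p * p) + s + t * p; goal: p * k ≤ z + s + t ; p * z ≤ s
  obtain ⟨p', rfl⟩ : ∃ p', p = p' + 1 := ⟨p - 1, by omega⟩
  have hz' : (p' + 1) * z * p' ≤ s * p' := Nat.mul_le_mul_right _ hcard
  apply Nat.le_of_mul_le_mul_left _ (show 0 < p' + 1 by omega)
  nlinarith

end Cfsg.Agent.H510.OrbCount
end

-- part: H510/ClassCount
section
/-!
# Counting conjugacy classes

* `card_conjClasses_le_mul` : `k(G) ≤ |N| k(G/N)`
* `card_conjClasses_centerless` : `p k(G) ≤ |G|` for a nontrivial group with trivial centre, `p` the least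
  prime divisor of `|G|`.
-/

set_option autoImplicit false
set_option linter.style.haveILetI false

namespace Cfsg.Agent.H510.ClassCount

open MulAction

variable {G : Type*} [Group G]

/-- `k(G) ≤ |N| k(G/N)` -/
theorem card_conjClasses_le_mul [Finite G] (N : Subgroup G) [N.Normal] :
    Nat.card (ConjClasses G) ≤ Nat.card N * Nat.card (ConjClasses (G ⧸ N)) := by
  classical
  have hsurj1 : ∀ κ : ConjClasses (G ⧸ N), ∃ x : G, ConjClasses.mk (x : G ⧸ N) = κ := by
    intro κ
    obtain ⟨y, rfl⟩ := ConjClasses.mk_surjective κ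
    obtain ⟨x, rfl⟩ := QuotientGroup.mk_surjective y
    exact ⟨x, rfl⟩
  choose rep hrep using hsurj1
  let f : N × ConjClasses (G ⧸ N) → ConjClasses G := fun q => ConjClasses.mk (rep q.2 * q.1)
  have hf : Function.Surjective f := by
    intro c
    obtain ⟨g, rfl⟩ := ConjClasses.mk_surjective c
    have h := hrep (ConjClasses.mk (g : G ⧸ N))
    rw [ConjClasses.mk_eq_mk_iff_isConj, isConj_comm, isConj_iff] at h
    obtain ⟨t, ht⟩ := h
    obtain ⟨t, rfl⟩ := QuotientGroup.mk_surjective t
    rw [← QuotientGroup.mk_mul, ← QuotientGroup.mk_inv, ← QuotientGroup.mk_mul] at ht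
    have h2 := QuotientGroup.eq.1 ht.symm
    refine ⟨(⟨_, h2⟩, ConjClasses.mk (g : G ⧸ N)), ?_⟩
    show ConjClasses.mk (rep (ConjClasses.mk (g : G ⧸ N)) *
      ((rep (ConjClasses.mk (g : G ⧸ N)))⁻¹ * (t * g * t⁻¹))) = _
    rw [mul_inv_cancel_left, ConjClasses.mk_eq_mk_iff_isConj, isConj_comm, isConj_iff]
    exact ⟨t, rfl⟩
  have := Nat.card_le_card_of_surjective f hf
  rwa [Nat.card_prod] at this

theorem sum_card_centralizer [Fintype G] :
    ∑ x : G, Nat.card (Subgroup.centralizer ({x} : Set G)) = Nat.card (ConjClasses G) * Nat.card G := by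
  classical
  rw [← card_comm_eq_card_conjClasses_mul_card]
  have e : (Σ x : G, Subgroup.centralizer ({x} : Set G)) ≃ {p : G × G // Commute p.1 p.2} :=
    { toFun := fun s => ⟨(s.1, s.2.1), (Subgroup.mem_centralizer_singleton_iff.1 s.2.2).symm⟩
      invFun := fun q => ⟨q.1.1, ⟨q.1.2, Subgroup.mem_centralizer_singleton_iff.2 q.2.eq.symm⟩⟩
      left_inv := fun s => rfl
      right_inv := fun q => rfl }
  rw [← Nat.card_congr e, Nat.card_sigma]

/-- the least prime divisor bounds the relative index of a proper subgroup -/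
theorem minFac_le_relIndex [Finite G] {H K : Subgroup G} (h : H < K) :
    (Nat.card G).minFac ≤ H.relIndex K := by
  apply Nat.minFac_le_of_dvd
  · have h0 : H.relIndex K ≠ 0 := by
      intro h0
      have := Subgroup.relIndex_dvd_card (H := H) (K := K)
      rw [h0, zero_dvd_iff] at this
      exact Nat.card_pos.ne' this
    have h1 : H.relIndex K ≠ 1 := by
      rw [Ne, Subgroup.relIndex_eq_one]
      exact not_le_of_gt h
    omega
  · exact (Subgroup.relIndex_dvd_card (H := H) (K := K)).trans (Subgroup.card_subgroup_dvd_card K)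

/-- `p k(G) ≤ |G|` for a nontrivial group with trivial centre -/
theorem card_conjClasses_centerless [Finite G] [Nontrivial G] (hZ : Subgroup.center G = ⊥) :
    (Nat.card G).minFac * Nat.card (ConjClasses G) ≤ Nat.card G := by
  classical
  haveI : Fintype G := Fintype.ofFinite G
  set n := Nat.card G with hn
  set p := n.minFac with hp
  have hn1 : n ≠ 1 := by
    have := Finite.one_lt_card (α := G)
    omega
  have hpp : p.Prime := Nat.minFac_prime hn1
  have hC : ∀ x : G, x ≠ 1 → p * Nat.card (Subgroup.centralizer ({x} : Set G)) ≤ n := by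
    intro x hx
    have hlt : Subgroup.centralizer ({x} : Set G) < ⊤ := by
      rw [lt_top_iff_ne_top]
      intro htop
      apply hx
      rw [← Subgroup.mem_bot, ← hZ, Subgroup.mem_center_iff]
      intro g
      have : g ∈ Subgroup.centralizer ({x} : Set G) := by rw [htop]; trivial
      exact Subgroup.mem_centralizer_singleton_iff.1 this
    have h1 := minFac_le_relIndex hlt
    rw [Subgroup.relIndex_top_right] at h1
    rw [hn, ← Subgroup.card_mul_index (Subgroup.centralizer ({x} : Set G)), mul_comm]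
    exact Nat.mul_le_mul_left _ h1
  have hle : ∀ x : G, p * Nat.card (Subgroup.centralizer ({x} : Set G)) ≤
      (if x = 1 then p * n else n) := by
    intro x
    split_ifs with h
    · apply Nat.mul_le_mul_left
      exact Subgroup.card_le_card_group _
    · exact hC x h
  have hsum := Finset.sum_le_sum (fun x (_ : x ∈ (Finset.univ : Finset G)) => hle x)
  rw [← Finset.mul_sum, sum_card_centralizer, ← Finset.add_sum_erase _ _ (Finset.mem_univ (1 : G)),
    if_pos rfl] at hsum
  have h2 : ∑ x ∈ Finset.univ.erase (1 : G), (if x = 1 then p * n else n) = (n - 1) * n := by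
    rw [Finset.sum_congr rfl (g := fun _ => n)]
    · rw [Finset.sum_const, Finset.card_erase_of_mem (Finset.mem_univ _), Finset.card_univ, smul_eq_mul,
        ← Nat.card_eq_fintype_card]
    · intro x hx
      rw [if_neg (Finset.ne_of_mem_erase hx)]
  rw [h2, ← add_mul, ← hn, ← mul_assoc] at hsum
  have hpos : 0 < n := Nat.card_pos
  have h3 : p * Nat.card (ConjClasses G) ≤ p + (n - 1) := Nat.le_of_mul_le_mul_right hsum hpos
  obtain ⟨m, hm⟩ : p ∣ n := Nat.minFac_dvd n
  set k := Nat.card (ConjClasses G)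
  have hp2 := hpp.two_le
  rw [hm] at h3 ⊢
  by_contra hlt
  have hmk : m < k := by
    by_contra hc
    exact hlt (Nat.mul_le_mul_left _ (by omega))
  have : p * (m + 1) ≤ p * k := Nat.mul_le_mul_left _ hmk
  have hm0 : 0 < p * m := by rw [← hm]; exact hpos
  have h5 : p * (m + 1) = p * m + p := by ring
  omega

/-- the number of orbits of the automorphism group is at most the class number -/
theorem card_orbits_le [Finite G] :
    Nat.card (orbitRel.Quotient (MulAut G) G) ≤ Nat.card (ConjClasses G) := by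
  let f : ConjClasses G → orbitRel.Quotient (MulAut G) G :=
    Quotient.map' id (by
      intro a b hab
      rw [id, id, orbitRel_apply, mem_orbit_iff]
      obtain ⟨c, hc⟩ := isConj_iff.1 (IsConj.symm hab)
      exact ⟨MulAut.conj c, by rw [MulAut.smul_def, MulAut.conj_apply, hc]⟩)
  have hf : Function.Surjective f := by
    intro x
    obtain ⟨y, rfl⟩ := Quotient.mk_surjective x
    exact ⟨ConjClasses.mk y, rfl⟩
  exact Nat.card_le_card_of_surjective f hf

/-- the length of the `Aut(G)`-orbit is at least the length of the conjugacy class -/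
theorem index_centralizer_le [Finite G] (x : G) :
    (Subgroup.centralizer ({x} : Set G)).index ≤ (orbit (MulAut G) x).ncard := by
  rw [← index_stabilizer]
  have h : Subgroup.centralizer ({x} : Set G) = (stabilizer (MulAut G) x).comap MulAut.conj := by
    ext g
    rw [Subgroup.mem_centralizer_singleton_iff, Subgroup.mem_comap, mem_stabilizer_iff,
      MulAut.smul_def, MulAut.conj_apply, mul_inv_eq_iff_eq_mul]
  rw [h, Subgroup.index_comap]
  have : (stabilizer (MulAut G) x).relIndex ⊤ ≠ 0 := by
    rw [Subgroup.relIndex_top_right]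
    exact Subgroup.index_ne_zero_of_finite
  have h2 := Subgroup.relIndex_le_of_le_right (K := (MulAut.conj : G →* MulAut G).range) le_top this
  rwa [Subgroup.relIndex_top_right] at h2

end Cfsg.Agent.H510.ClassCount
end

-- part: H510/AutBound
section
/-!
# The number of automorphism orbits of a nonabelian finite group

**`p * #(orbits of Aut(G) on G) ≤ |G|` for a nonabelian finite group `G`, `p` the least prime divisor of
`|G|`.**
-/

set_option autoImplicit false
set_option linter.style.haveILetI false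

namespace Cfsg.Agent.H510.AutBound

open MulAction Cfsg.Agent.H510.ClassCount

variable {G : Type*} [Group G] [Finite G]

theorem sq_le_index {H K : Subgroup G} (h1 : H < K) (h2 : K < ⊤) :
    (Nat.card G).minFac * (Nat.card G).minFac ≤ H.index := by
  rw [← Subgroup.relIndex_mul_index h1.le, ← Subgroup.relIndex_top_right K]
  exact Nat.mul_le_mul (minFac_le_relIndex h1) (minFac_le_relIndex h2)

theorem sq_le_card {H K : Subgroup G} (h1 : ⊥ < H) (h2 : H < K) :
    (Nat.card G).minFac * (Nat.card G).minFac ≤ Nat.card K := by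
  rw [← Subgroup.relIndex_bot_left, ← Subgroup.relIndex_mul_relIndex ⊥ H K bot_le h2.le]
  exact Nat.mul_le_mul (minFac_le_relIndex h1) (minFac_le_relIndex h2)

/-- **The final criterion.** -/
theorem criterion {y : G} (hy : y ∉ Subgroup.center G)
    (h : ∀ g : G, g * y ≠ y * g → (Nat.card G).minFac * (Nat.card G).minFac ≤ (orbit (MulAut G) g).ncard) :
    (Nat.card G).minFac * Nat.card (orbitRel.Quotient (MulAut G) G) ≤ Nat.card G := by
  classical
  have hn1 : Nat.card G ≠ 1 := by
    intro h1
    haveI := (Nat.card_eq_one_iff_unique.1 h1).1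
    apply hy
    rw [Subsingleton.elim y 1]
    exact one_mem _
  have hpp := Nat.minFac_prime hn1
  set p := (Nat.card G).minFac with hp
  have hCtop : Subgroup.centralizer ({y} : Set G) < ⊤ := by
    rw [lt_top_iff_ne_top]
    intro htop
    apply hy
    rw [Subgroup.mem_center_iff]
    intro g
    have : g ∈ Subgroup.centralizer ({y} : Set G) := by rw [htop]; trivial
    exact Subgroup.mem_centralizer_singleton_iff.1 this
  have hZC : Subgroup.center G < Subgroup.centralizer ({y} : Set G) := by
    refine lt_of_le_of_ne (Subgroup.center_le_centralizer _) ?_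
    intro he
    apply hy
    rw [he, Subgroup.mem_centralizer_singleton_iff]
  refine OrbCount.orbits_bound p hpp.one_lt.le (Subgroup.center G : Set G) {g | g * y ≠ y * g}
    ?_ ?_ (fun g hg => h g hg) ?_
  · rw [Set.disjoint_left]
    intro g hg hg'
    exact hg' ((Subgroup.mem_center_iff.1 hg y).symm)
  · intro x hx
    have h1 : Subgroup.centralizer ({x} : Set G) < ⊤ := by
      rw [lt_top_iff_ne_top]
      intro htop
      apply hx
      rw [SetLike.mem_coe, Subgroup.mem_center_iff]
      intro g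
      have : g ∈ Subgroup.centralizer ({x} : Set G) := by rw [htop]; trivial
      exact Subgroup.mem_centralizer_singleton_iff.1 this
    have h2 := minFac_le_relIndex h1
    rw [Subgroup.relIndex_top_right] at h2
    exact h2.trans (index_centralizer_le x)
  · have e1 : {g : G | g * y ≠ y * g} = (Subgroup.centralizer ({y} : Set G) : Set G)ᶜ := by
      ext g
      simp [Subgroup.mem_centralizer_singleton_iff]
    have h1 := minFac_le_relIndex hZC
    have h2 := minFac_le_relIndex hCtop
    rw [Subgroup.relIndex_top_right] at h2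
    have h3 := Subgroup.card_mul_index (Subgroup.centralizer ({y} : Set G))
    have h4 : Nat.card (Subgroup.center G) * (Subgroup.center G).relIndex (Subgroup.centralizer ({y} : Set G)) =
        Nat.card (Subgroup.centralizer ({y} : Set G)) := by
      rw [← Subgroup.relIndex_bot_left, ← Subgroup.relIndex_bot_left,
        Subgroup.relIndex_mul_relIndex _ _ _ bot_le hZC.le]
    have h5 := Set.ncard_add_ncard_compl (Subgroup.centralizer ({y} : Set G) : Set G)
    rw [e1]
    have h6 : (Subgroup.center G : Set G).ncard = Nat.card (Subgroup.center G) :=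
      (Nat.card_coe_set_eq _).symm
    have h7 : (Subgroup.centralizer ({y} : Set G) : Set G).ncard =
      Nat.card (Subgroup.centralizer ({y} : Set G)) := (Nat.card_coe_set_eq _).symm
    rw [h6]
    rw [h7] at h5
    set z := Nat.card (Subgroup.center G)
    set cy := Nat.card (Subgroup.centralizer ({y} : Set G))
    set s := ((Subgroup.centralizer ({y} : Set G) : Set G)ᶜ).ncard
    have h8 : p * z ≤ cy := by
      rw [← h4, mul_comm]
      exact Nat.mul_le_mul_left _ h1
    have h9 : cy * 2 ≤ Nat.card G := by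
      rw [← h3]
      exact Nat.mul_le_mul_left _ (hpp.two_le.trans h2)
    omega

theorem zpowers_eq {c w : G} (hc : (orderOf c).Prime) (hw : w ∈ Subgroup.zpowers c) (hw1 : w ≠ 1) :
    Subgroup.zpowers w = Subgroup.zpowers c := by
  have hle : Subgroup.zpowers w ≤ Subgroup.zpowers c := Subgroup.zpowers_le.2 hw
  apply Subgroup.eq_of_le_of_card_ge hle
  rw [Nat.card_zpowers, Nat.card_zpowers]
  have hd : orderOf w ∣ orderOf c := by
    have := Subgroup.card_dvd_of_le hle
    rwa [Nat.card_zpowers, Nat.card_zpowers] at this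
  rcases (Nat.dvd_prime hc).1 hd with h | h
  · exact absurd (orderOf_eq_one_iff.1 h) hw1
  · exact h.ge

/-- first dichotomy -/
theorem dichotomy_prime {x y c : G} (hc : c ∈ Subgroup.center G) (hcp : (orderOf c).Prime)
    (hxy : y * x * y⁻¹ = c * x) :
    (Nat.card G).minFac * (Nat.card G).minFac ≤ (Subgroup.centralizer ({x} : Set G)).index ∨
      ∀ g : G, ∃ a : ℤ, g * x * g⁻¹ = c ^ a * x := by
  have hcc : ∀ (a : ℤ) (g : G), g * c ^ a = c ^ a * g := fun a g =>
    Subgroup.mem_center_iff.1 (zpow_mem hc a) g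
  let N : Subgroup G :=
    { carrier := {g | ∃ a : ℤ, g * x * g⁻¹ = c ^ a * x}
      one_mem' := ⟨0, by simp⟩
      mul_mem' := by
        rintro g h ⟨a, ha⟩ ⟨b, hb⟩
        refine ⟨b + a, ?_⟩
        calc g * h * x * (g * h)⁻¹ = g * (h * x * h⁻¹) * g⁻¹ := by group
          _ = g * (c ^ b * x) * g⁻¹ := by rw [hb]
          _ = (g * c ^ b) * x * g⁻¹ := by group
          _ = c ^ b * (g * x * g⁻¹) := by rw [hcc]; group
          _ = c ^ (b + a) * x := by rw [ha, zpow_add, mul_assoc]
      inv_mem' := by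
        rintro g ⟨a, ha⟩
        refine ⟨-a, ?_⟩
        have : x = g⁻¹ * (c ^ a * x) * g := by rw [← ha]; group
        calc g⁻¹ * x * g⁻¹⁻¹ = c ^ (-a) * (c ^ a * (g⁻¹ * x * g)) := by group
          _ = c ^ (-a) * (g⁻¹ * (c ^ a * x) * g) := by
            congr 1
            rw [← mul_assoc, ← mul_assoc, ← hcc a g⁻¹]; group
          _ = c ^ (-a) * x := by rw [← this] }
  have hN : ∀ g, g ∈ N ↔ ∃ a : ℤ, g * x * g⁻¹ = c ^ a * x := fun g => Iff.rfl
  have h1 : Subgroup.centralizer ({x} : Set G) < N := by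
    refine lt_of_le_of_ne ?_ ?_
    · intro g hg
      rw [Subgroup.mem_centralizer_singleton_iff] at hg
      refine (hN g).2 ⟨0, ?_⟩
      rw [hg]; group
    · intro he
      have : y ∈ N := (hN y).2 ⟨1, by rw [zpow_one, hxy]⟩
      rw [← he, Subgroup.mem_centralizer_singleton_iff] at this
      rw [this, mul_inv_cancel_right, eq_comm, mul_eq_right] at hxy
      rw [hxy, orderOf_one] at hcp
      exact Nat.not_prime_one hcp
  by_cases htop : N = ⊤
  · right
    intro g
    rw [← hN, htop]; trivial
  · left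
    exact sq_le_index h1 (lt_top_iff_ne_top.2 htop)

/-- second dichotomy -/
theorem dichotomy {x y : G} (hy : ∀ g : G, ∃ z ∈ Subgroup.center G, g * y * g⁻¹ = z * y)
    (hxy : x * y ≠ y * x) :
    (Nat.card G).minFac * (Nat.card G).minFac ≤ (Subgroup.centralizer ({x} : Set G)).index ∨
      ∃ c ∈ Subgroup.center G, (orderOf c).Prime ∧ ∀ g : G, ∃ a : ℤ, g * x * g⁻¹ = c ^ a * x := by
  obtain ⟨z, hz, hzy⟩ := hy x
  -- y⁻¹ acts on x as multiplication by z ... use y x y⁻¹ = z⁻¹ x
  have hyx : y * x * y⁻¹ = z⁻¹ * x := by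
    have : x * y = z * y * x := by rw [← hzy]; group
    have h2 : y * x = z⁻¹ * (x * y) := by rw [this]; group
    rw [h2]; group
  have hz1 : z ≠ 1 := by
    rintro rfl
    apply hxy
    rw [one_mul] at hzy
    rw [← mul_inv_eq_iff_eq_mul, hzy]
  set w := z⁻¹ with hw
  have hw1 : w ≠ 1 := by rw [hw]; simpa using hz1
  have hwc : w ∈ Subgroup.center G := inv_mem hz
  -- choose a prime divisor
  have ho1 : orderOf w ≠ 1 := fun h => hw1 (orderOf_eq_one_iff.1 h)
  set q := (orderOf w).minFac with hq
  have hqp : q.Prime := Nat.minFac_prime ho1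
  obtain ⟨m, hm⟩ : q ∣ orderOf w := Nat.minFac_dvd _
  have hm0 : m ≠ 0 := by
    rintro rfl
    rw [mul_zero] at hm
    exact (orderOf_pos w).ne' hm
  have hord : orderOf (w ^ m) = q := by
    rw [orderOf_pow_of_dvd hm0 ⟨q, by rw [hm, mul_comm]⟩, hm, Nat.mul_div_cancel _ (Nat.pos_of_ne_zero hm0)]
  have hconj : ∀ k : ℕ, y ^ k * x * (y ^ k)⁻¹ = w ^ k * x := by
    intro k
    induction k with
    | zero => simp
    | succ k ih =>
      have hk : y * w ^ k = w ^ k * y := Subgroup.mem_center_iff.1 (pow_mem hwc k) y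
      calc y ^ (k + 1) * x * (y ^ (k + 1))⁻¹ = y * (y ^ k * x * (y ^ k)⁻¹) * y⁻¹ := by
            rw [pow_succ']; group
        _ = y * (w ^ k * x) * y⁻¹ := by rw [ih]
        _ = (y * w ^ k) * x * y⁻¹ := by group
        _ = w ^ k * (y * x * y⁻¹) := by rw [hk]; group
        _ = w ^ (k + 1) * x := by rw [hyx, pow_succ, mul_assoc]
  rcases dichotomy_prime (x := x) (y := y ^ m) (c := w ^ m) (pow_mem hwc m) (by rw [hord]; exact hqp)
    (hconj m) with h | h
  · exact Or.inl h
  · exact Or.inr ⟨w ^ m, pow_mem hwc m, by rw [hord]; exact hqp, h⟩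

end Cfsg.Agent.H510.AutBound
end

-- part: H510/AutBound2
section
/-!
# The number of automorphism orbits of a nonabelian finite group, part 2: the automorphisms
-/

set_option autoImplicit false
set_option linter.style.haveILetI false

namespace Cfsg.Agent.H510.AutBound

open MulAction Cfsg.Agent.H510.ClassCount

variable {G : Type*} [Group G] [Finite G]

/-- The automorphism `g ↦ f(a(g)) g`, where `[g, y] = c ^ a(g)`, gives long orbits outside `C(y)`. -/
theorem long_orbits {y c : G} (hc : c ∈ Subgroup.center G) (hcp : (orderOf c).Prime)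
    (hV : ∀ g : G, ∃ a : ℤ, g * y * g⁻¹ = c ^ a * y) (ε : ℤ) (f : ℤ → G)
    (f1 : ∀ a b : ℤ, f (a + b) = f a * f b * c ^ (ε * (a * b)))
    (f2 : ∀ (g : G) (a b : ℤ), g * y * g⁻¹ = c ^ a * y → g * f b * g⁻¹ = c ^ (ε * (a * b)) * f b)
    (f3 : f (orderOf c) = 1) (f4 : ∀ b : ℤ, f b * y = y * f b)
    (f5 : ∀ b : ℤ, f b ∈ Subgroup.zpowers c → ((orderOf c : ℤ)) ∣ b)
    (g : G) (hg : g * y ≠ y * g) :
    (Nat.card G).minFac * (Nat.card G).minFac ≤ (orbit (MulAut G) g).ncard := by
  classical
  have hcc : ∀ (a : ℤ) (g : G), g * c ^ a = c ^ a * g := fun a g =>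
    Subgroup.mem_center_iff.1 (zpow_mem hc a) g
  have hcr : ∀ k : ℤ, c ^ ((orderOf c : ℤ) * k) = 1 := fun k => by
    rw [zpow_mul, zpow_natCast, pow_orderOf_eq_one, one_zpow]
  have f0 : f 0 = 1 := by
    have := f1 0 0
    simp only [add_zero, mul_zero, zpow_zero, mul_one] at this
    exact (mul_eq_left.1 this.symm)
  have fr : ∀ k : ℤ, f ((orderOf c : ℤ) * k) = 1 := by
    have hnat : ∀ k : ℕ, f ((orderOf c : ℤ) * k) = 1 := by
      intro k
      induction k with
      | zero => simpa using f0
      | succ k ih =>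
        rw [Nat.cast_succ, mul_add, mul_one, f1, ih, f3, one_mul, one_mul]
        have : ε * ((orderOf c : ℤ) * k * (orderOf c : ℤ)) = (orderOf c : ℤ) * (ε * k * orderOf c) := by ring
        rw [this, hcr]
    intro k
    rcases Int.eq_nat_or_neg k with ⟨n, rfl | rfl⟩
    · exact hnat n
    · have h := f1 ((orderOf c : ℤ) * n) ((orderOf c : ℤ) * -n)
      have e1 : (orderOf c : ℤ) * n + (orderOf c : ℤ) * -n = 0 := by ring
      have e2 : ε * ((orderOf c : ℤ) * n * ((orderOf c : ℤ) * -n)) =
        (orderOf c : ℤ) * (ε * n * ((orderOf c : ℤ) * -n)) := by ring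
      rw [e1, f0, hnat, e2, hcr, one_mul, mul_one] at h
      exact h.symm
  have fper : ∀ a b : ℤ, c ^ a = c ^ b → f a = f b := by
    intro a b hab
    have : (orderOf c : ℤ) ∣ a - b := by
      rw [orderOf_dvd_iff_zpow_eq_one, zpow_sub, hab, mul_inv_cancel]
    obtain ⟨k, hk⟩ := this
    have ha : a = b + (orderOf c : ℤ) * k := by linarith
    rw [ha, f1, fr, mul_one]
    have : ε * (b * ((orderOf c : ℤ) * k)) = (orderOf c : ℤ) * (ε * b * k) := by ring
    rw [this, hcr, mul_one]
  choose a ha using hV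
  have hmul : ∀ g h : G, c ^ a (g * h) = c ^ (a g + a h) := by
    intro g h
    have h1 : g * h * y * (g * h)⁻¹ = c ^ (a g + a h) * y := by
      calc g * h * y * (g * h)⁻¹ = g * (h * y * h⁻¹) * g⁻¹ := by group
        _ = g * (c ^ a h * y) * g⁻¹ := by rw [ha h]
        _ = (g * c ^ a h) * y * g⁻¹ := by group
        _ = c ^ a h * (g * y * g⁻¹) := by rw [hcc]; group
        _ = c ^ (a g + a h) * y := by rw [ha g, add_comm, zpow_add, mul_assoc]
    rw [ha (g * h)] at h1
    exact mul_right_cancel h1
  have hcomm : ∀ g : G, g * y = y * g → f (a g) = 1 := by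
    intro g hg
    have h1 := ha g
    rw [hg, mul_inv_cancel_right] at h1
    have h2 : c ^ a g = c ^ (0 : ℤ) := by
      rw [zpow_zero]
      exact mul_eq_right.1 h1.symm
    rw [fper _ _ h2, f0]
  let α₀ : G →* G :=
    MonoidHom.mk' (fun g => f (a g) * g) (by
      intro g h
      show f (a (g * h)) * (g * h) = f (a g) * g * (f (a h) * h)
      rw [fper _ _ (hmul g h), f1]
      have h2 := f2 g (a g) (a h) (ha g)
      calc f (a g) * f (a h) * c ^ (ε * (a g * a h)) * (g * h)
          = f (a g) * (f (a h) * c ^ (ε * (a g * a h))) * (g * h) := by group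
        _ = f (a g) * (c ^ (ε * (a g * a h)) * f (a h)) * (g * h) := by rw [hcc]
        _ = f (a g) * (g * f (a h) * g⁻¹) * (g * h) := by rw [h2]
        _ = f (a g) * g * (f (a h) * h) := by group)
  have hα₀ : ∀ g, α₀ g = f (a g) * g := fun g => rfl
  have hinj : Function.Injective α₀ := by
    rw [injective_iff_map_eq_one]
    intro g hg1
    rw [hα₀] at hg1
    have hginv : g = (f (a g))⁻¹ := mul_eq_one_iff_eq_inv'.1 hg1
    have hgy : g * y = y * g := by
      rw [hginv, inv_mul_eq_iff_eq_mul, ← mul_assoc, f4, mul_inv_cancel_right]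
    rw [hcomm g hgy, one_mul] at hg1
    exact hg1
  let α : MulAut G := MulEquiv.ofBijective α₀ (Finite.injective_iff_bijective.1 hinj)
  have hα : ∀ g, α g = f (a g) * g := fun g => rfl
  -- powers of α on g
  set u := f (a g) with hu
  have huy : u * y = y * u := f4 _
  have hαu : α u = u := by rw [hα, hcomm u huy, one_mul]
  have hαk : ∀ k : ℕ, u ^ k * g ∈ orbit (MulAut G) g := by
    intro k
    induction k with
    | zero => simp
    | succ k ih =>
      have h1 : α • (u ^ k * g) ∈ orbit (MulAut G) g := by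
        obtain ⟨β, hβ⟩ := ih
        exact ⟨α * β, by rw [← hβ]; exact mul_smul α β g⟩
      have h2 : α • (u ^ k * g) = u ^ (k + 1) * g := by
        rw [MulAut.smul_def, map_mul, map_pow, hαu, hα, ← hu, pow_succ, mul_assoc]
      rwa [h2] at h1
  have hyk : ∀ (k : ℕ) (v : G), v * y = y * v → v * g ∈ orbit (MulAut G) g →
      (c ^ (-a g)) ^ k * v * g ∈ orbit (MulAut G) g := by
    intro k v hv hvg
    have h3 : y ^ k * g * (y ^ k)⁻¹ = (c ^ (-a g)) ^ k * g := by
      induction k with
      | zero => simp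
      | succ k ih =>
        have h4 : y * g * y⁻¹ = c ^ (-a g) * g := by
          have h5 : g * y = c ^ a g * y * g := by rw [← ha g]; group
          have h6 : y * g = c ^ (-a g) * (g * y) := by rw [h5]; group
          rw [h6]; group
        calc y ^ (k + 1) * g * (y ^ (k + 1))⁻¹ = y * (y ^ k * g * (y ^ k)⁻¹) * y⁻¹ := by
              rw [pow_succ']; group
          _ = y * ((c ^ (-a g)) ^ k * g) * y⁻¹ := by rw [ih]
          _ = (c ^ (-a g)) ^ k * (y * g * y⁻¹) := by
            have : y * (c ^ (-a g)) ^ k = (c ^ (-a g)) ^ k * y :=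
              Subgroup.mem_center_iff.1 (pow_mem (zpow_mem hc _) k) y
            rw [← mul_assoc, this]; group
          _ = (c ^ (-a g)) ^ (k + 1) * g := by rw [h4, pow_succ, mul_assoc]
    obtain ⟨β, hβ⟩ := hvg
    refine ⟨MulAut.conj (y ^ k) * β, ?_⟩
    have hβ' : β • g = v * g := hβ
    show (MulAut.conj (y ^ k) * β) • g = _
    rw [mul_smul, hβ', MulAut.smul_def, MulAut.conj_apply]
    have h7 : y ^ k * v = v * y ^ k := ((show Commute v y from hv).pow_right k).eq.symm
    have h8 : (c ^ (-a g)) ^ k * v = v * (c ^ (-a g)) ^ k :=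
      (Subgroup.mem_center_iff.1 (pow_mem (zpow_mem hc _) k) v).symm
    rw [h8, mul_assoc v, ← h3, ← mul_assoc (y ^ k), h7]
    group
  -- the subgroup
  have hca : ¬ c ^ a g = 1 := by
    intro h
    apply hg
    have := ha g
    rw [h, one_mul] at this
    rw [← this]
    nth_rewrite 2 [← this]
    group
  have hc1 : c ≠ 1 := by
    rintro rfl
    rw [orderOf_one] at hcp
    exact Nat.not_prime_one hcp
  have hU1 : (⊥ : Subgroup G) < Subgroup.zpowers c := by
    rw [bot_lt_iff_ne_bot, Ne, Subgroup.zpowers_eq_bot]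
    exact hc1
  have hU2 : Subgroup.zpowers c < Subgroup.zpowers u ⊔ Subgroup.zpowers c := by
    refine lt_of_le_of_ne le_sup_right ?_
    intro he
    have hmem : u ∈ Subgroup.zpowers c := by
      rw [he]
      exact Subgroup.mem_sup_left (Subgroup.mem_zpowers u)
    apply hca
    obtain ⟨k, hk⟩ := f5 _ hmem
    rw [hk, hcr]
  refine (sq_le_card hU1 hU2).trans ?_
  haveI hnorm : (Subgroup.zpowers c).Normal := by
    refine ⟨fun n hn g => ?_⟩
    obtain ⟨k, rfl⟩ := Subgroup.mem_zpowers_iff.1 hn
    rw [hcc, mul_inv_cancel_right]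
    exact hn
  have hmem : ∀ v ∈ Subgroup.zpowers u ⊔ Subgroup.zpowers c, v * g ∈ orbit (MulAut G) g := by
    intro v hv
    obtain ⟨s, hs, t, ht, rfl⟩ := Subgroup.mem_sup_of_normal_right.1 hv
    rw [← mem_powers_iff_mem_zpowers] at hs
    obtain ⟨k, rfl⟩ := hs
    have ht' : t ∈ Subgroup.zpowers (c ^ (-a g)) := by
      rw [zpowers_eq hcp (Subgroup.zpow_mem_zpowers c _)]
      · exact ht
      · rw [zpow_neg, Ne, inv_eq_one]
        exact hca
    rw [← mem_powers_iff_mem_zpowers] at ht'
    obtain ⟨l, rfl⟩ := ht'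
    have h9 := hyk l (u ^ k) ((show Commute u y from huy).pow_left k).eq (hαk k)
    have h10 : (c ^ (-a g)) ^ l * u ^ k = u ^ k * (c ^ (-a g)) ^ l :=
      (Subgroup.mem_center_iff.1 (pow_mem (zpow_mem hc _) l) _).symm
    rw [h10] at h9
    exact h9
  have e : Nat.card ↥(Subgroup.zpowers u ⊔ Subgroup.zpowers c) =
      ((fun v => v * g) '' ((Subgroup.zpowers u ⊔ Subgroup.zpowers c : Subgroup G) : Set G)).ncard := by
    rw [Set.ncard_image_of_injective _ (mul_left_injective g)]
    exact Nat.card_coe_set_eq _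
  rw [e]
  apply Set.ncard_le_ncard _ (Set.toFinite _)
  rintro _ ⟨v, hv, rfl⟩
  exact hmem v hv

/-- special pairs: the case of a second central element of order `r` -/
theorem long_orbits_of_central {y c w : G} (hc : c ∈ Subgroup.center G) (hcp : (orderOf c).Prime)
    (hV : ∀ g : G, ∃ a : ℤ, g * y * g⁻¹ = c ^ a * y) (hw : w ∈ Subgroup.center G)
    (hwr : w ^ orderOf c = 1) (hwc : w ∉ Subgroup.zpowers c) (g : G) (hg : g * y ≠ y * g) :
    (Nat.card G).minFac * (Nat.card G).minFac ≤ (orbit (MulAut G) g).ncard := by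
  have hcw : ∀ (a : ℤ) (g : G), g * w ^ a = w ^ a * g := fun a g =>
    Subgroup.mem_center_iff.1 (zpow_mem hw a) g
  refine long_orbits hc hcp hV 0 (fun b => w ^ b) ?_ ?_ ?_ ?_ ?_ g hg
  · intro a b
    simp [zpow_add]
  · intro g a b _
    simp [hcw b g]
  · simpa using hwr
  · intro b
    exact (hcw b y).symm
  · intro b hb
    by_contra hnd
    have h1 : IsCoprime (orderOf c : ℤ) b := by
      rw [Prime.coprime_iff_not_dvd (Nat.prime_iff_prime_int.1 hcp)]
      exact hnd
    obtain ⟨s, t, hst⟩ := h1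
    apply hwc
    have : w = (w ^ b) ^ t := by
      calc w = w ^ (s * (orderOf c : ℤ) + t * b) := by rw [hst, zpow_one]
        _ = (w ^ b) ^ t := by
          rw [zpow_add, mul_comm s, zpow_mul, zpow_natCast, hwr, one_zpow, one_mul, mul_comm t, zpow_mul]
    rw [this]
    exact zpow_mem hb t

/-- special pairs: the transvection -/
theorem long_orbits_of_pow {y c : G} (hc : c ∈ Subgroup.center G) (hcp : (orderOf c).Prime)
    (hV : ∀ g : G, ∃ a : ℤ, g * y * g⁻¹ = c ^ a * y) (hyZ : y ∉ Subgroup.center G)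
    (hy : y ^ orderOf c * c ^ (orderOf c * (orderOf c - 1) / 2) = 1) (g : G) (hg : g * y ≠ y * g) :
    (Nat.card G).minFac * (Nat.card G).minFac ≤ (orbit (MulAut G) g).ncard := by
  have hcc : ∀ (a : ℤ) (g : G), g * c ^ a = c ^ a * g := fun a g =>
    Subgroup.mem_center_iff.1 (zpow_mem hc a) g
  have hev : ∀ b : ℤ, b * (b - 1) / 2 * 2 = b * (b - 1) := fun b =>
    Int.ediv_mul_cancel (Int.even_mul_pred_self b).two_dvd
  refine long_orbits hc hcp hV 1 (fun b => y ^ b * c ^ (b * (b - 1) / 2)) ?_ ?_ ?_ ?_ ?_ g hg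
  · intro a b
    have h1 : (a + b) * (a + b - 1) / 2 = a * (a - 1) / 2 + b * (b - 1) / 2 + a * b := by
      have h2 := hev a
      have h3 := hev b
      have h4 := hev (a + b)
      nlinarith
    show y ^ (a + b) * c ^ ((a + b) * (a + b - 1) / 2) = y ^ a * c ^ (a * (a - 1) / 2) *
      (y ^ b * c ^ (b * (b - 1) / 2)) * c ^ (1 * (a * b))
    rw [h1, zpow_add, zpow_add, zpow_add, one_mul]
    calc y ^ a * y ^ b * (c ^ (a * (a - 1) / 2) * c ^ (b * (b - 1) / 2) * c ^ (a * b))
        = y ^ a * (y ^ b * c ^ (a * (a - 1) / 2)) * c ^ (b * (b - 1) / 2) * c ^ (a * b) := by group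
      _ = y ^ a * (c ^ (a * (a - 1) / 2) * y ^ b) * c ^ (b * (b - 1) / 2) * c ^ (a * b) := by
        rw [hcc (a * (a - 1) / 2) (y ^ b)]
      _ = _ := by group
  · intro g a b hab
    show g * (y ^ b * c ^ (b * (b - 1) / 2)) * g⁻¹ = c ^ (1 * (a * b)) * (y ^ b * c ^ (b * (b - 1) / 2))
    have h1 : g * y ^ b * g⁻¹ = c ^ (a * b) * y ^ b := by
      rw [← conj_zpow, hab, (show Commute (c ^ a) y from (hcc a y).symm).mul_zpow, ← zpow_mul]
    calc g * (y ^ b * c ^ (b * (b - 1) / 2)) * g⁻¹ = g * y ^ b * (c ^ (b * (b - 1) / 2) * g⁻¹) := by group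
      _ = g * y ^ b * (g⁻¹ * c ^ (b * (b - 1) / 2)) := by rw [hcc]
      _ = (g * y ^ b * g⁻¹) * c ^ (b * (b - 1) / 2) := by group
      _ = _ := by rw [h1, one_mul, mul_assoc]
  · have h1 : ((orderOf c : ℤ)) * ((orderOf c : ℤ) - 1) / 2 = ((orderOf c * (orderOf c - 1) / 2 : ℕ) : ℤ) := by
      have : 1 ≤ orderOf c := hcp.one_lt.le
      push_cast [Nat.cast_sub this]
      rfl
    show y ^ (orderOf c : ℤ) * c ^ ((orderOf c : ℤ) * ((orderOf c : ℤ) - 1) / 2) = 1
    rw [h1, zpow_natCast, zpow_natCast]
    exact hy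
  · intro b
    show y ^ b * c ^ (b * (b - 1) / 2) * y = y * (y ^ b * c ^ (b * (b - 1) / 2))
    rw [mul_assoc, ← hcc, ← mul_assoc, ← mul_assoc, ← zpow_add_one, ← zpow_one_add, add_comm]
  · intro b hb
    by_contra hnd
    have h1 : IsCoprime (orderOf c : ℤ) b := by
      rw [Prime.coprime_iff_not_dvd (Nat.prime_iff_prime_int.1 hcp)]
      exact hnd
    obtain ⟨s, t, hst⟩ := h1
    have hyb : y ^ b ∈ Subgroup.center G := by
      have h2 : y ^ b = (y ^ b * c ^ (b * (b - 1) / 2)) * (c ^ (b * (b - 1) / 2))⁻¹ := by group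
      rw [h2]
      refine mul_mem ?_ (inv_mem (zpow_mem hc _))
      exact (Subgroup.zpowers_le.2 hc) hb
    have hyr : y ^ orderOf c ∈ Subgroup.center G := by
      rw [mul_eq_one_iff_eq_inv.1 hy]
      exact inv_mem (pow_mem hc _)
    apply hyZ
    have : y = (y ^ orderOf c) ^ s * (y ^ b) ^ t := by
      calc y = y ^ (s * (orderOf c : ℤ) + t * b) := by rw [hst, zpow_one]
        _ = _ := by
          rw [zpow_add, mul_comm s, zpow_mul, zpow_natCast, mul_comm t, zpow_mul]
    rw [this]
    exact mul_mem (zpow_mem hyr _) (zpow_mem hyb _)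

end Cfsg.Agent.H510.AutBound
end

-- part: H510/AutBound3
section
/-!
# The number of automorphism orbits of a nonabelian finite group, part 3

**`p * #(orbits of Aut(G) on G) ≤ |G|` for a nonabelian finite group `G`, `p` the least prime divisor of
`|G|`.**
-/

set_option autoImplicit false
set_option linter.style.haveILetI false

namespace Cfsg.Agent.H510.AutBound

open MulAction Cfsg.Agent.H510.ClassCount

variable {G : Type*} [Group G] [Finite G]

theorem tri_succ (n : ℕ) : (n + 1) * (n + 1 - 1) / 2 = n * (n - 1) / 2 + n := by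
  have h1 : 2 ∣ n * (n - 1) := (Nat.even_mul_pred_self n).two_dvd
  have h2 : 2 ∣ (n + 1) * (n + 1 - 1) := (Nat.even_mul_pred_self (n + 1)).two_dvd
  obtain ⟨a, ha⟩ := h1
  obtain ⟨b, hb⟩ := h2
  rw [ha, hb, Nat.mul_div_cancel_left _ (by norm_num), Nat.mul_div_cancel_left _ (by norm_num)]
  have h3 : (n + 1) * (n + 1 - 1) = n * (n - 1) + 2 * n := by
    cases n with
    | zero => simp
    | succ m => simp only [Nat.add_sub_cancel]; ring
  omega

omit [Finite G] in
/-- the power formula of class two -/
theorem mul_pow_class_two {v w z : G} (hz : z ∈ Subgroup.center G) (h : w * v = z * (v * w)) (n : ℕ) :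
    (v * w) ^ n = v ^ n * w ^ n * z ^ (n * (n - 1) / 2) := by
  have hcc : ∀ (a : ℕ) (g : G), g * z ^ a = z ^ a * g := fun a g =>
    Subgroup.mem_center_iff.1 (pow_mem hz a) g
  have h1 : ∀ n : ℕ, w ^ n * v = z ^ n * (v * w ^ n) := by
    intro n
    induction n with
    | zero => simp
    | succ n ih =>
      calc w ^ (n + 1) * v = w * (w ^ n * v) := by rw [pow_succ']; group
        _ = w * (z ^ n * (v * w ^ n)) := by rw [ih]
        _ = (w * z ^ n) * (v * w ^ n) := by group
        _ = z ^ n * (w * v) * w ^ n := by rw [hcc]; group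
        _ = z ^ n * (z * (v * w)) * w ^ n := by rw [h]
        _ = z ^ (n + 1) * (v * w ^ (n + 1)) := by rw [pow_succ z, pow_succ' w]; group
  induction n with
  | zero => simp
  | succ n ih =>
    rw [tri_succ, pow_add z]
    calc (v * w) ^ (n + 1) = (v * w) ^ n * (v * w) := pow_succ _ _
      _ = v ^ n * w ^ n * z ^ (n * (n - 1) / 2) * (v * w) := by rw [ih]
      _ = v ^ n * w ^ n * (z ^ (n * (n - 1) / 2) * (v * w)) := by group
      _ = v ^ n * w ^ n * ((v * w) * z ^ (n * (n - 1) / 2)) := by rw [hcc]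
      _ = v ^ n * (w ^ n * v) * w * z ^ (n * (n - 1) / 2) := by group
      _ = v ^ n * (z ^ n * (v * w ^ n)) * w * z ^ (n * (n - 1) / 2) := by rw [h1]
      _ = (v ^ n * z ^ n) * (v * w ^ n * w) * z ^ (n * (n - 1) / 2) := by group
      _ = (z ^ n * v ^ n) * (v * w ^ n * w) * z ^ (n * (n - 1) / 2) := by rw [hcc n (v ^ n)]
      _ = z ^ n * (v ^ (n + 1) * w ^ (n + 1) * z ^ (n * (n - 1) / 2)) := by
        rw [pow_succ v, pow_succ w]; group
      _ = (v ^ (n + 1) * w ^ (n + 1) * z ^ (n * (n - 1) / 2)) * z ^ n := by rw [← hcc n (_ * _)]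
      _ = _ := by rw [mul_assoc (v ^ (n + 1) * w ^ (n + 1))]

omit [Finite G] in
theorem conj_mul_pow {u x c : G} (hc : c ∈ Subgroup.center G) (h : u * x * u⁻¹ = c * x) (k : ℕ) :
    u * x ^ k * u⁻¹ = c ^ k * x ^ k := by
  have h1 : Commute c x := (Subgroup.mem_center_iff.1 hc x).symm
  rw [← conj_pow, h, h1.mul_pow]

/-- **Existence of a good noncentral element.** -/
theorem exists_good {u x c : G} (hc : c ∈ Subgroup.center G) (hcp : (orderOf c).Prime)
    (hux : u * x * u⁻¹ = c * x)
    (hu : ∀ g : G, ∃ a : ℤ, g * u * g⁻¹ = c ^ a * u) (hx : ∀ g : G, ∃ a : ℤ, g * x * g⁻¹ = c ^ a * x)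
    (hw : ∀ w ∈ Subgroup.center G, w ^ orderOf c = 1 → w ∈ Subgroup.zpowers c) :
    ∃ y : G, y ∉ Subgroup.center G ∧ (∀ g : G, ∃ a : ℤ, g * y * g⁻¹ = c ^ a * y) ∧
      y ^ orderOf c * c ^ (orderOf c * (orderOf c - 1) / 2) = 1 := by
  classical
  set r := orderOf c with hr
  set t := r * (r - 1) / 2 with ht
  have hcc : ∀ (a : ℤ) (g : G), g * c ^ a = c ^ a * g := fun a g =>
    Subgroup.mem_center_iff.1 (zpow_mem hc a) g
  -- the elements V
  let V : Subgroup G :=
    { carrier := {v | ∀ g : G, ∃ a : ℤ, g * v * g⁻¹ = c ^ a * v}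
      one_mem' := fun g => ⟨0, by simp⟩
      mul_mem' := by
        intro v w hv hw g
        obtain ⟨a, ha⟩ := hv g
        obtain ⟨b, hb⟩ := hw g
        refine ⟨a + b, ?_⟩
        calc g * (v * w) * g⁻¹ = (g * v * g⁻¹) * (g * w * g⁻¹) := by group
          _ = c ^ a * (v * c ^ b) * w := by rw [ha, hb]; group
          _ = c ^ (a + b) * (v * w) := by rw [hcc, zpow_add]; group
      inv_mem' := by
        intro v hv g
        obtain ⟨a, ha⟩ := hv g
        refine ⟨-a, ?_⟩
        calc g * v⁻¹ * g⁻¹ = (g * v * g⁻¹)⁻¹ := by group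
          _ = v⁻¹ * c ^ (-a) := by rw [ha]; group
          _ = c ^ (-a) * v⁻¹ := by rw [hcc] }
  have hV : ∀ v, v ∈ V ↔ ∀ g : G, ∃ a : ℤ, g * v * g⁻¹ = c ^ a * v := fun v => Iff.rfl
  have huV : u ∈ V := hu
  have hxV : x ∈ V := hx
  have hT : ∀ v ∈ V, v ^ r * c ^ t ∈ Subgroup.center G := by
    intro v hv
    refine mul_mem ?_ (pow_mem hc _)
    rw [Subgroup.mem_center_iff]
    intro g
    obtain ⟨a, ha⟩ := hv g
    have h1 : g * v ^ r * g⁻¹ = v ^ r := by
      rw [← conj_pow, ha, (show Commute (c ^ a) v from (hcc a v).symm).mul_pow, ← zpow_natCast,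
        ← zpow_mul, mul_comm a, zpow_mul, zpow_natCast, hr, pow_orderOf_eq_one, one_zpow, one_mul]
    rw [mul_inv_eq_iff_eq_mul] at h1
    exact h1
  let T : V → Subgroup.center G := fun v => ⟨(v : G) ^ r * c ^ t, hT v v.2⟩
  have hZcomm : ∀ a b : Subgroup.center G, a * b = b * a := fun a b =>
    Subtype.ext (Subgroup.mem_center_iff.1 b.2 a)
  let φ : Subgroup.center G →* Subgroup.center G :=
    MonoidHom.mk' (fun w => w ^ r) (fun a b => (show Commute a b from hZcomm a b).mul_pow r)
  haveI hφn : φ.range.Normal := ⟨fun n hn g => by rw [hZcomm g n, mul_inv_cancel_right]; exact hn⟩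
  have hker : Nat.card φ.ker ≤ r := by
    have h1 : Nat.card (Subgroup.zpowers c) = r := Nat.card_zpowers c
    rw [← h1]
    refine Nat.card_le_card_of_injective (fun w : φ.ker => (⟨((w : Subgroup.center G) : G), ?_⟩ :
      Subgroup.zpowers c)) ?_
    · apply hw _ (w : Subgroup.center G).2
      have := w.2
      rw [MonoidHom.mem_ker] at this
      simpa [φ] using congrArg Subtype.val this
    · intro a b hab
      apply Subtype.ext
      apply Subtype.ext
      simpa using hab
  have hidx : Nat.card (Subgroup.center G ⧸ φ.range) ≤ r := by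
    rw [← Subgroup.index_eq_card, Subgroup.index_range]
    exact hker
  -- reduction to `T v ∈ range φ`
  suffices h : ∃ v : V, (v : G) ∉ Subgroup.center G ∧ T v ∈ φ.range by
    obtain ⟨v, hvZ, w, hwv⟩ := h
    have hwc : (w : G) ∈ Subgroup.center G := w.2
    have hwv' : (w : G) ^ r = (v : G) ^ r * c ^ t := by
      simpa [φ, T] using congrArg Subtype.val hwv
    refine ⟨(v : G) * (w : G)⁻¹, ?_, ?_, ?_⟩
    · intro h
      apply hvZ
      have := mul_mem h hwc
      simpa using this
    · refine mul_mem (S := Subgroup G) (s := V) v.2 ?_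
      refine inv_mem ?_
      intro g
      refine ⟨0, ?_⟩
      rw [Subgroup.mem_center_iff.1 hwc g]; group
    · have hcomm : Commute (v : G) (w : G)⁻¹ := by
        exact (Subgroup.mem_center_iff.1 (inv_mem hwc) v)
      have h1 : (v : G) ^ r * c ^ t = c ^ t * (v : G) ^ r :=
        Subgroup.mem_center_iff.1 (pow_mem hc t) _
      rw [hcomm.mul_pow, inv_pow, hwv', h1, mul_inv_rev, ← mul_assoc, mul_inv_cancel, one_mul,
        inv_mul_cancel]
  have hr0 : 0 < r := hcp.pos
  have hc1 : c ≠ 1 := by
    rintro rfl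
    rw [hr, orderOf_one] at hcp
    exact Nat.not_prime_one hcp
  let xV : V := ⟨x, hxV⟩
  let uV : V := ⟨u, huV⟩
  let F : Fin (r + 1) → Subgroup.center G ⧸ φ.range := fun i =>
    if (i : ℕ) = 0 then 1 else QuotientGroup.mk (T (uV * xV ^ (i : ℕ)))
  have hnoninj : ¬ Function.Injective F := by
    intro hinj
    have := Nat.card_le_card_of_injective F hinj
    rw [Nat.card_eq_fintype_card, Fintype.card_fin] at this
    omega
  -- noncentrality
  have hnc : ∀ k : ℕ, u * x ^ k ∉ Subgroup.center G := by
    intro k hk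
    have h1 := Subgroup.mem_center_iff.1 hk x
    -- x (u x^k) = (u x^k) x
    have h2 : x * u = u * x := by
      have h3 : x * u * x ^ k = u * x * x ^ k := by
        rw [mul_assoc, h1, mul_assoc, mul_assoc, ← pow_succ, ← pow_succ']
      exact mul_right_cancel h3
    rw [← h2, mul_inv_cancel_right, eq_comm, mul_eq_right] at hux
    exact hc1 hux
  obtain ⟨i, j, hij, hne⟩ : ∃ i j : Fin (r + 1), F i = F j ∧ (i : ℕ) < (j : ℕ) := by
    rw [Function.Injective] at hnoninj
    push Not at hnoninj
    obtain ⟨i, j, h1, h2⟩ := hnoninj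
    rcases lt_trichotomy (i : ℕ) (j : ℕ) with h | h | h
    · exact ⟨i, j, h1, h⟩
    · exact absurd (Fin.ext h) h2
    · exact ⟨j, i, h1.symm, h⟩
  have hj0 : (j : ℕ) ≠ 0 := by omega
  by_cases hi0 : (i : ℕ) = 0
  · refine ⟨uV * xV ^ (j : ℕ), hnc j, ?_⟩
    simp only [F, hi0, hj0, if_true, if_false] at hij
    rw [← QuotientGroup.eq_one_iff]
    exact hij.symm
  · simp only [F, hi0, hj0, if_false] at hij
    set k := (j : ℕ) - (i : ℕ) with hk
    have hk0 : 0 < k := by omega
    have hkr : k < r := by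
      have := j.2
      omega
    have hckne : c ^ k ≠ 1 := by
      intro h
      have := Nat.le_of_dvd hk0 (orderOf_dvd_of_pow_eq_one h)
      omega
    refine ⟨xV ^ k, ?_, ?_⟩
    · intro h
      have h1 := Subgroup.mem_center_iff.1 h u
      have h2 := conj_mul_pow hc hux k
      have h3 : u * x ^ k = x ^ k * u := h1
      rw [h3, mul_inv_cancel_right, eq_comm, mul_eq_right] at h2
      exact hckne h2
    · -- T (u x^j) = T (u x^i) * T (x^k)
      have hkey : T (uV * xV ^ (j : ℕ)) = T (uV * xV ^ (i : ℕ)) * T (xV ^ k) := by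
        apply Subtype.ext
        show (u * x ^ (j : ℕ)) ^ r * c ^ t = ((u * x ^ (i : ℕ)) ^ r * c ^ t) * ((x ^ k) ^ r * c ^ t)
        have hjk : x ^ (j : ℕ) = x ^ (i : ℕ) * x ^ k := by
          rw [← pow_add]; congr 1; omega
        have hz : x ^ k * (u * x ^ (i : ℕ)) = (c ^ k)⁻¹ * ((u * x ^ (i : ℕ)) * x ^ k) := by
          have h2 := conj_mul_pow hc hux k
          have h3 : u * x ^ k = c ^ k * x ^ k * u := by rw [← h2]; group
          calc x ^ k * (u * x ^ (i : ℕ)) = (c ^ k)⁻¹ * (c ^ k * x ^ k * u) * x ^ (i : ℕ) := by group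
            _ = (c ^ k)⁻¹ * (u * x ^ k) * x ^ (i : ℕ) := by rw [h3]
            _ = (c ^ k)⁻¹ * (u * (x ^ k * x ^ (i : ℕ))) := by group
            _ = (c ^ k)⁻¹ * (u * (x ^ (i : ℕ) * x ^ k)) := by rw [← pow_add, ← pow_add, add_comm]
            _ = _ := by group
        have hzc : (c ^ k)⁻¹ ∈ Subgroup.center G := inv_mem (pow_mem hc k)
        have hpow := mul_pow_class_two hzc hz r
        have hzt : ((c ^ k)⁻¹) ^ t = c ^ t := by
          rcases hcp.eq_two_or_odd' with h2 | hodd
          · have hk1 : k = 1 := by omega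
            have ht1 : t = 1 := by rw [ht, h2]
            have hcc2 : c * c = 1 := by
              rw [← pow_two, ← h2, hr, pow_orderOf_eq_one]
            rw [hk1, ht1, pow_one, pow_one]
            exact inv_eq_of_mul_eq_one_left hcc2
          · have hrt : r ∣ t := by
              obtain ⟨m, hm⟩ := hodd
              refine ⟨m, ?_⟩
              rw [ht]
              have : r * (r - 1) = (r * m) * 2 := by
                have : r - 1 = 2 * m := by omega
                rw [this]; ring
              rw [this, Nat.mul_div_cancel _ (by norm_num)]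
            obtain ⟨m, hm⟩ := hrt
            have hct : c ^ t = 1 := by rw [hm, pow_mul, hr, pow_orderOf_eq_one, one_pow]
            rw [inv_pow, ← pow_mul, mul_comm k t, pow_mul, hct, one_pow, inv_one]
        have hc1' : (x ^ k) ^ r * c ^ t = c ^ t * (x ^ k) ^ r :=
          Subgroup.mem_center_iff.1 (pow_mem hc t) _
        rw [hjk, ← mul_assoc u, hpow, ← ht, hzt, mul_assoc, mul_assoc, mul_assoc, hc1',
          ← mul_assoc (c ^ t) (c ^ t), ← mul_assoc _ (c ^ t) (c ^ t), hc1', mul_assoc, hc1', ← mul_assoc]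
        simp only [mul_assoc]
      rw [hkey, QuotientGroup.mk_mul] at hij
      rw [← QuotientGroup.eq_one_iff]
      exact (mul_eq_left.1 hij.symm)

/-- **Main theorem.** -/
theorem main (hna : ¬ IsMulCommutative G) :
    (Nat.card G).minFac * Nat.card (orbitRel.Quotient (MulAut G) G) ≤ Nat.card G := by
  classical
  have hZtop : Subgroup.center G ≠ ⊤ := by
    intro h
    apply hna
    refine ⟨⟨fun a b => ?_⟩⟩
    have : b ∈ Subgroup.center G := by rw [h]; trivial
    exact Subgroup.mem_center_iff.1 this a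
  by_cases hZ2 : Subgroup.center (G ⧸ Subgroup.center G) = ⊥
  · -- the quotient by the centre has trivial centre
    haveI : Nontrivial (G ⧸ Subgroup.center G) := by
      rw [QuotientGroup.nontrivial_iff]
      exact hZtop
    have h1 := card_conjClasses_centerless hZ2
    have h2 := card_conjClasses_le_mul (Subgroup.center G)
    have h3 := card_orbits_le (G := G)
    have h4 : (Nat.card G).minFac ≤ (Nat.card (G ⧸ Subgroup.center G)).minFac := by
      apply Nat.minFac_le_of_dvd
      · have := Finite.one_lt_card (α := G ⧸ Subgroup.center G)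
        exact (Nat.minFac_prime (by omega)).two_le
      · refine (Nat.minFac_dvd _).trans ?_
        rw [← Subgroup.index_eq_card]
        exact Subgroup.index_dvd_card _
    calc (Nat.card G).minFac * Nat.card (orbitRel.Quotient (MulAut G) G)
        ≤ (Nat.card (G ⧸ Subgroup.center G)).minFac *
          (Nat.card (Subgroup.center G) * Nat.card (ConjClasses (G ⧸ Subgroup.center G))) :=
          Nat.mul_le_mul h4 (h3.trans h2)
      _ = Nat.card (Subgroup.center G) * ((Nat.card (G ⧸ Subgroup.center G)).minFac *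
          Nat.card (ConjClasses (G ⧸ Subgroup.center G))) := by ring
      _ ≤ Nat.card (Subgroup.center G) * Nat.card (G ⧸ Subgroup.center G) := Nat.mul_le_mul_left _ h1
      _ = Nat.card G := by rw [← Subgroup.index_eq_card, Subgroup.card_mul_index]
  · -- an element of the second centre
    obtain ⟨⟨ybar, hybar⟩, hy1⟩ := Subgroup.ne_bot_iff_exists_ne_one.1 hZ2
    obtain ⟨y, rfl⟩ := QuotientGroup.mk_surjective ybar
    have hyZ : y ∉ Subgroup.center G := by
      intro h
      apply hy1
      apply Subtype.ext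
      exact (QuotientGroup.eq_one_iff y).2 h
    have hy : ∀ g : G, ∃ z ∈ Subgroup.center G, g * y * g⁻¹ = z * y := by
      intro g
      have h := Subgroup.mem_center_iff.1 hybar (g : G ⧸ Subgroup.center G)
      rw [← QuotientGroup.mk_mul, ← QuotientGroup.mk_mul] at h
      have h2 := QuotientGroup.eq.1 h.symm
      -- (y g)⁻¹ (g y) ∈ Z
      refine ⟨(y * g)⁻¹ * (g * y), h2, ?_⟩
      have h3 := Subgroup.mem_center_iff.1 h2 (y * g)
      have h4 : (y * g)⁻¹ * (g * y) * (y * g) = g * y := by rw [← h3]; group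
      calc g * y * g⁻¹ = (y * g)⁻¹ * (g * y) * (y * g) * g⁻¹ := by rw [h4]
        _ = (y * g)⁻¹ * (g * y) * y := by group
    by_cases hlong : ∀ g : G, g * y ≠ y * g →
        (Nat.card G).minFac * (Nat.card G).minFac ≤ (orbit (MulAut G) g).ncard
    · exact criterion hyZ hlong
    push Not at hlong
    obtain ⟨x, hxy, hx⟩ := hlong
    obtain ⟨c, hc, hcp, hcx⟩ := (dichotomy hy hxy).resolve_left (by
      intro h
      exact absurd (h.trans (index_centralizer_le x)) (not_le.2 hx))
    have hxZ : x ∉ Subgroup.center G := fun h => hxy ((Subgroup.mem_center_iff.1 h y).symm)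
    by_cases hlong2 : ∀ g : G, g * x ≠ x * g →
        (Nat.card G).minFac * (Nat.card G).minFac ≤ (orbit (MulAut G) g).ncard
    · exact criterion hxZ hlong2
    push Not at hlong2
    obtain ⟨u, hux, hu⟩ := hlong2
    obtain ⟨d, hd, hdp, hdu⟩ := (dichotomy (x := u) (y := x) (fun g => by
        obtain ⟨a, ha⟩ := hcx g
        exact ⟨c ^ a, zpow_mem hc a, ha⟩) hux).resolve_left (by
      intro h
      exact absurd (h.trans (index_centralizer_le u)) (not_le.2 hu))
    -- the common commutator
    obtain ⟨a, ha⟩ := hcx u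
    obtain ⟨b, hb⟩ := hdu x
    set e := c ^ a with he
    have he1 : e ≠ 1 := by
      intro h
      rw [h, one_mul] at ha
      exact hux (by rw [← mul_inv_eq_iff_eq_mul, ha])
    have hed : e⁻¹ = d ^ b := by
      have h1 : u * x = e * x * u := by rw [← ha]; group
      have h2 : x * u = d ^ b * u * x := by rw [← hb]; group
      have h3 : x * u = e⁻¹ * (u * x) := by rw [h1]; group
      rw [h3, mul_assoc] at h2
      exact mul_right_cancel h2
    have hecz : Subgroup.zpowers e = Subgroup.zpowers c :=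
      zpowers_eq hcp (Subgroup.zpow_mem_zpowers c a) he1
    have hedz : Subgroup.zpowers e = Subgroup.zpowers d := by
      rw [← Subgroup.zpowers_inv, hed]
      apply zpowers_eq hdp (Subgroup.zpow_mem_zpowers d b)
      rw [← hed]
      simpa using he1
    have heZ : e ∈ Subgroup.center G := zpow_mem hc a
    have hep : (orderOf e).Prime := by
      rw [← Nat.card_zpowers, hecz, Nat.card_zpowers]
      exact hcp
    have hxe : ∀ g : G, ∃ m : ℤ, g * x * g⁻¹ = e ^ m * x := by
      intro g
      obtain ⟨m, hm⟩ := hcx g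
      have : c ^ m ∈ Subgroup.zpowers e := by rw [hecz]; exact Subgroup.zpow_mem_zpowers c m
      obtain ⟨l, hl⟩ := Subgroup.mem_zpowers_iff.1 this
      exact ⟨l, by rw [hm, hl]⟩
    have hue : ∀ g : G, ∃ m : ℤ, g * u * g⁻¹ = e ^ m * u := by
      intro g
      obtain ⟨m, hm⟩ := hdu g
      have : d ^ m ∈ Subgroup.zpowers e := by rw [hedz]; exact Subgroup.zpow_mem_zpowers d m
      obtain ⟨l, hl⟩ := Subgroup.mem_zpowers_iff.1 this
      exact ⟨l, by rw [hm, hl]⟩
    by_cases hw : ∀ w ∈ Subgroup.center G, w ^ orderOf e = 1 → w ∈ Subgroup.zpowers e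
    · obtain ⟨v, hvZ, hvV, hvT⟩ := exists_good heZ hep ha hue hxe hw
      exact criterion hvZ (fun g hg => long_orbits_of_pow heZ hep hvV hvZ hvT g hg)
    · push Not at hw
      obtain ⟨w, hwZ, hwr, hwe⟩ := hw
      exact criterion hxZ (fun g hg => long_orbits_of_central heZ hep hxe hwZ hwr hwe g hg)

end Cfsg.Agent.H510.AutBound
end

-- part: S4067
section
set_option autoImplicit false
open Cfsg

namespace Cfsg.Agent.S4067

/-- Let G be a finite non-abelian group and p the least prime dividing its order. Then the automorphism group of G has at most #G/p orbits on G. -/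
theorem result {G : Type*} [Group G] [Finite G] (hna : ¬ IsMulCommutative G) :
    Nat.card (MulAction.orbitRel.Quotient (MulAut G) G) ≤ Nat.card G / (Nat.card G).minFac := by
  have h := Cfsg.Agent.H510.AutBound.main hna
  rw [Nat.le_div_iff_mul_le (Nat.minFac_pos _), mul_comm]
  exact h

end Cfsg.Agent.S4067
end
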