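import Cfsg.Agent.S0183
import Cfsg.Agent.S0252
import Cfsg.Agent.S1230
import Cfsg.Agent.H390.PslSpec
import Cfsg.Statements.S4068
import Cfsg.Agent.S0144
set_option linter.all false

-- part: H510/AllPrime
section
/-!
# Groups all of whose nonidentity elements have prime order

**A nonsolvable finite group all of whose nonidentity elements have prime order is isomorphic to `A₅`.**
-/

set_option autoImplicit false
set_option linter.style.haveILetI false
set_option linter.dupNamespace false

namespace Cfsg.Agent.H510.AllPrime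

universe u

/-- every nonidentity element has prime order -/
def AllPrime (G : Type u) [Group G] : Prop := ∀ x : G, x ≠ 1 → (orderOf x).Prime

theorem AllPrime.subgroup {G : Type u} [Group G] (h : AllPrime G) (H : Subgroup G) : AllPrime H := by
  intro x hx
  rw [← Subgroup.orderOf_coe]
  exact h x (fun h => hx (Subtype.ext h))

theorem AllPrime.of_surjective {G : Type u} {H : Type*} [Group G] [Group H] (h : AllPrime G)
    (f : G →* H) (hf : Function.Surjective f) : ∀ x : H, x ≠ 1 → (orderOf x).Prime := by
  intro y hy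
  obtain ⟨x, rfl⟩ := hf y
  have hx : x ≠ 1 := by rintro rfl; exact hy (map_one f)
  have hp := h x hx
  have hd : orderOf (f x) ∣ orderOf x := orderOf_map_dvd f x
  rcases (Nat.dvd_prime hp).1 hd with h1 | h1
  · exact absurd (orderOf_eq_one_iff.1 h1) hy
  · rw [h1]; exact hp

theorem pow_orderOf_of_commute {G : Type u} [Group G] (h : AllPrime G) {g y : G}
    (hg : g ≠ 1) (hy : Commute g y) : y ^ orderOf g = 1 := by
  by_cases hy1 : y = 1
  · rw [hy1, one_pow]
  have hpg := h g hg
  have hpy := h y hy1
  by_contra hne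
  have hcop : Nat.Coprime (orderOf g) (orderOf y) := by
    rw [Nat.coprime_primes hpg hpy]
    intro he
    apply hne
    rw [he]
    exact pow_orderOf_eq_one y
  have hmul := hy.orderOf_mul_eq_mul_orderOf_of_coprime hcop
  have hgy : g * y ≠ 1 := by
    intro he
    rw [he, orderOf_one] at hmul
    have := Nat.eq_one_of_mul_eq_one_right hmul.symm
    exact hpg.ne_one this
  have hp := h _ hgy
  rw [hmul] at hp
  exact Nat.not_prime_mul hpg.ne_one hpy.ne_one hp

theorem isCN {G : Type u} [Group G] [Finite G] (h : AllPrime G) : Cfsg.IsCNGroup G := by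
  intro g hg
  have hp := h g hg
  haveI : Fact (orderOf g).Prime := ⟨hp⟩
  have : IsPGroup (orderOf g) (Subgroup.centralizer ({g} : Set G)) := by
    intro y
    refine ⟨1, ?_⟩
    apply Subtype.ext
    rw [pow_one]
    push_cast
    refine pow_orderOf_of_commute h hg ?_
    exact (Subgroup.mem_centralizer_singleton_iff.1 y.2).symm
  exact this.isNilpotent

theorem solvable_of_odd {G : Type u} [Group G] [Finite G] (h : AllPrime G)
    (hodd : Odd (Nat.card G)) : Group.IsSolvable G :=
  Cfsg.Agent.S0183.result hodd (isCN h)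

/-- **A nonsolvable finite group all of whose nonidentity elements have prime order is `A₅`.** -/
theorem main {G : Type u} [Group G] [Finite G] (hns : ¬ Group.IsSolvable G) (h : AllPrime G) :
    Nonempty (G ≃* alternatingGroup (Fin 5)) := by
  classical
  haveI : Fact (Nat.Prime 2) := ⟨Nat.prime_two⟩
  obtain ⟨T⟩ : Nonempty (Sylow 2 G) := inferInstance
  haveI hTsol : Group.IsSolvable (T : Subgroup G) := by
    haveI := T.isPGroup'.isNilpotent
    infer_instance
  have heven : 2 ∣ Nat.card G := by
    by_contra hc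
    exact hns (solvable_of_odd h (Nat.odd_iff.2 (by omega)))
  have hT2 : ∀ x ∈ (T : Subgroup G), x * x = 1 := by
    intro x hx
    by_cases hx1 : x = 1
    · rw [hx1, one_mul]
    obtain ⟨k, hk⟩ := T.isPGroup' ⟨x, hx⟩
    have hk' : x ^ 2 ^ k = 1 := by simpa using congrArg Subtype.val hk
    have hd := orderOf_dvd_of_pow_eq_one hk'
    have hp := h x hx1
    have h2 : orderOf x = 2 := (Nat.prime_dvd_prime_iff_eq hp Nat.prime_two).1 (hp.dvd_of_dvd_pow hd)
    rw [← pow_two, ← h2, pow_orderOf_eq_one]
  have hnn : ¬ (T : Subgroup G).Normal := by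
    intro hn
    haveI := hn
    have hodd : Odd (Nat.card (G ⧸ (T : Subgroup G))) := by
      rw [← Subgroup.index_eq_card]
      have := T.not_dvd_index
      exact Nat.odd_iff.2 (by omega)
    have hsol := solvable_of_odd (h.of_surjective (QuotientGroup.mk' (T : Subgroup G))
      (QuotientGroup.mk'_surjective _)) hodd
    exact hns ((Group.isSolvable_iff_subgroup_quotient (T : Subgroup G)).2 ⟨hTsol, hsol⟩)
  have hnc : ¬ IsCyclic (T : Subgroup G) := by
    intro hcyc
    have hmin : (Nat.card G).minFac = 2 := (Nat.minFac_eq_two_iff _).2 heven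
    have hcomp := IsCyclic.isComplement' hmin hcyc
    set K := (MonoidHom.transferSylow T (hcyc.normalizer_le_centralizer hmin)).ker with hK
    have hKodd : Odd (Nat.card K) := by
      have h1 := MonoidHom.not_dvd_card_ker_transferSylow T (hcyc.normalizer_le_centralizer hmin)
      rw [← hK] at h1
      exact Nat.odd_iff.2 (by omega)
    have hKsol := solvable_of_odd (h.subgroup K) hKodd
    have hGK : Group.IsSolvable (G ⧸ K) := by
      have e : (T : Subgroup G) ≃* G ⧸ K := by
        exact hcomp.symm.QuotientMulEquiv.symm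
      exact Group.isSolvable_of_surjective (f := e.toMonoidHom) e.surjective
    exact hns ((Group.isSolvable_iff_subgroup_quotient K).2 ⟨hKsol, hGK⟩)
  have hC : ∀ t : G, orderOf t = 2 → IsMulCommutative (Subgroup.centralizer ({t} : Set G)) ∧
      ∀ c ∈ Subgroup.centralizer ({t} : Set G), c ^ 2 = 1 := by
    intro t ht
    have ht1 : t ≠ 1 := by
      rintro rfl
      rw [orderOf_one] at ht
      omega
    have hsq : ∀ c ∈ Subgroup.centralizer ({t} : Set G), c ^ 2 = 1 := by
      intro c hc
      rw [← ht]
      exact pow_orderOf_of_commute h ht1 (Subgroup.mem_centralizer_singleton_iff.1 hc).symm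
    refine ⟨⟨⟨fun a b => ?_⟩⟩, hsq⟩
    have ha : a * a = 1 := Subtype.ext (by have := hsq a a.2; rw [pow_two] at this; exact this)
    have hb : b * b = 1 := Subtype.ext (by have := hsq b b.2; rw [pow_two] at this; exact this)
    have hab : (a * b) * (a * b) = 1 :=
      Subtype.ext (by have := hsq (a * b : _) (a * b).2; rw [pow_two] at this; exact this)
    calc a * b = a * ((a * b) * (a * b)) * b := by rw [hab, mul_one]
      _ = (a * a) * (b * a) * (b * b) := by group
      _ = b * a := by rw [ha, hb, one_mul, mul_one]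
  obtain ⟨F, _, _, hF, ⟨e⟩⟩ := Cfsg.Agent.S1230.result T hnc hnn hC
  -- the order of F
  obtain ⟨n, hn⟩ := T.isPGroup'.exists_card_eq
  have hn2 : 2 ≤ n := by
    by_contra hlt
    have : n = 0 ∨ n = 1 := by omega
    apply hnc
    rcases this with rfl | rfl
    · rw [pow_zero] at hn
      haveI := (Nat.card_eq_one_iff_unique.1 hn).1
      exact isCyclic_of_subsingleton
    · rw [pow_one] at hn
      exact isCyclic_of_prime_card hn
  have hFn : Fintype.card F = 2 ^ n := by rw [hF, hn]
  have h4 : 4 ≤ Fintype.card F := by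
    rw [hFn]
    calc 4 = 2 ^ 2 := by norm_num
      _ ≤ 2 ^ n := Nat.pow_le_pow_right (by norm_num) hn2
  have heF : Even (Fintype.card F) := by
    rw [hFn]
    exact (Nat.even_pow.2 ⟨even_two, by omega⟩)
  haveI hchar : CharP F 2 := by
    obtain ⟨p, hp⟩ := CharP.exists F
    haveI := hp
    obtain ⟨m, hpp, hm⟩ := FiniteField.card F p
    have hp2 : p = 2 := by
      have : p ∣ 2 ^ n := by
        rw [← hFn, hm]
        exact dvd_pow_self p m.2.ne'
      exact (Nat.prime_dvd_prime_iff_eq hpp Nat.prime_two).1 (hpp.dvd_of_dvd_pow this)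
    rw [← hp2]; exact hp
  have hdd := H390.PslSpec.dd_even heF (by omega)
  have key : ∀ m : ℕ, m ≠ 1 → (∃ g : Matrix.ProjectiveSpecialLinearGroup (Fin 2) F, orderOf g = m) → m.Prime := by
    rintro m hm ⟨g, rfl⟩
    have : orderOf (e.symm g) = orderOf g := orderOf_injective e.symm.toMonoidHom e.symm.injective g
    rw [← this]
    apply h
    intro h1
    apply hm
    rw [← this, h1, orderOf_one]
  have hq1 : (Fintype.card F - 1).Prime := by
    refine key _ (by omega) ?_
    obtain ⟨g, hg⟩ := H390.PslSpec.exists_sub (F := F) (p := 2) h4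
    rw [hdd, Nat.div_one] at hg
    exact ⟨g, hg⟩
  have hq2 : (Fintype.card F + 1).Prime := by
    refine key _ (by omega) ?_
    obtain ⟨g, hg⟩ := H390.PslSpec.exists_add (F := F) (p := 2) h4
    rw [hdd, Nat.div_one] at hg
    exact ⟨g, hg⟩
  have h3 : Fintype.card F = 4 := by
    have h3q : ¬ 3 ∣ Fintype.card F := by
      rw [hFn]
      intro h
      have := Nat.prime_three.dvd_of_dvd_pow h
      omega
    have : 3 ∣ Fintype.card F - 1 ∨ 3 ∣ Fintype.card F + 1 := by omega
    rcases this with h | h
    · have := (Nat.prime_dvd_prime_iff_eq Nat.prime_three hq1).1 h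
      omega
    · have := (Nat.prime_dvd_prime_iff_eq Nat.prime_three hq2).1 h
      omega
  obtain ⟨e2⟩ := Cfsg.Agent.S0252.result h3
  exact ⟨e.trans e2⟩

end Cfsg.Agent.H510.AllPrime
end

-- part: S4068
section
set_option autoImplicit false
open Cfsg

namespace Cfsg.Agent.S4068

theorem eq_pow_mul_pow {n p q : ℕ} (hn : n ≠ 0) (hpq : p ≠ q)
    (h : n.primeFactors ⊆ {p, q}) : n = p ^ n.factorization p * q ^ n.factorization q := by
  conv_lhs => rw [← Nat.prod_factorization_pow_eq_self hn]
  rw [Finsupp.prod_of_support_subset _ (s := {p, q}) (by simpa using h) _ (by simp),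
    Finset.prod_pair hpq]

theorem exists_prime {G : Type*} [Group G] [Finite G] (hns : ¬ Group.IsSolvable G) {p q : ℕ}
    (hp : p.Prime) (hq : q.Prime) (hpq : p ≠ q) :
    ∃ r : ℕ, r.Prime ∧ r ∣ Nat.card G ∧ r ≠ p ∧ r ≠ q := by
  by_contra hcon
  push Not at hcon
  apply hns
  refine Cfsg.Agent.S0144.result p q _ _ hp hq (eq_pow_mul_pow Nat.card_pos.ne' hpq ?_)
  intro r hr
  have hrp := Nat.prime_of_mem_primeFactors hr
  have hrd := Nat.dvd_of_mem_primeFactors hr
  by_cases h : r = p
  · simp [h]
  · simp [hcon r hrp hrd h]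

theorem orderOf_rel {G : Type*} [Group G] (x y : G) (h : MulAction.orbitRel (MulAut G) G x y) :
    orderOf x = orderOf y := by
  rw [MulAction.orbitRel_apply, MulAction.mem_orbit_iff] at h
  obtain ⟨a, rfl⟩ := h
  exact orderOf_injective (a : G ≃* G).toMonoidHom a.injective y

/-- A finite non-solvable group on which its automorphism group has exactly four orbits is isomorphic to the alternating group of degree 5. -/
theorem result {G : Type*} [Group G] [Finite G] (hns : ¬ Group.IsSolvable G)
    (h4 : Nat.card (MulAction.orbitRel.Quotient (MulAut G) G) = 4) : Nonempty (G ≃* alternatingGroup (Fin 5)) := by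
  classical
  apply Cfsg.Agent.H510.AllPrime.main hns
  obtain ⟨p, hp, hpd, hp2, hp3⟩ := exists_prime hns Nat.prime_two Nat.prime_three (by norm_num)
  obtain ⟨q, hq, hqd, hqp, hq2⟩ := exists_prime hns hp Nat.prime_two hp2
  obtain ⟨r, hr, hrd, hrp, hrq⟩ := exists_prime hns hp hq (Ne.symm hqp)
  have : Fact p.Prime := ⟨hp⟩
  have : Fact q.Prime := ⟨hq⟩
  have : Fact r.Prime := ⟨hr⟩
  obtain ⟨xp, hxp⟩ := exists_prime_orderOf_dvd_card' p hpd
  obtain ⟨xq, hxq⟩ := exists_prime_orderOf_dvd_card' q hqd
  obtain ⟨xr, hxr⟩ := exists_prime_orderOf_dvd_card' r hrd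
  haveI : Fintype (MulAction.orbitRel.Quotient (MulAut G) G) := Fintype.ofFinite _
  let f : MulAction.orbitRel.Quotient (MulAut G) G → ℕ :=
    Quotient.lift (fun x : G => orderOf x) orderOf_rel
  have hf : ∀ x : G, f (Quotient.mk _ x) = orderOf x := fun x => rfl
  intro x hx
  by_contra hnp
  have hsub : ({1, p, q, r, orderOf x} : Finset ℕ) ⊆ Finset.univ.image f := by
    intro m hm
    simp only [Finset.mem_insert, Finset.mem_singleton] at hm
    rw [Finset.mem_image]
    rcases hm with rfl | rfl | rfl | rfl | rfl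
    · exact ⟨Quotient.mk _ 1, Finset.mem_univ _, by rw [hf, orderOf_one]⟩
    · exact ⟨Quotient.mk _ xp, Finset.mem_univ _, by rw [hf, hxp]⟩
    · exact ⟨Quotient.mk _ xq, Finset.mem_univ _, by rw [hf, hxq]⟩
    · exact ⟨Quotient.mk _ xr, Finset.mem_univ _, by rw [hf, hxr]⟩
    · exact ⟨Quotient.mk _ x, Finset.mem_univ _, by rw [hf]⟩
  have hcard : ({1, p, q, r, orderOf x} : Finset ℕ).card = 5 := by
    have h1 : (1 : ℕ) ∉ ({p, q, r, orderOf x} : Finset ℕ) := by
      simp only [Finset.mem_insert, Finset.mem_singleton, not_or]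
      refine ⟨hp.ne_one.symm, hq.ne_one.symm, hr.ne_one.symm, fun h => hx (orderOf_eq_one_iff.1 h.symm)⟩
    have h2 : p ∉ ({q, r, orderOf x} : Finset ℕ) := by
      simp only [Finset.mem_insert, Finset.mem_singleton, not_or]
      exact ⟨hqp.symm, hrp.symm, fun h => hnp (h ▸ hp)⟩
    have h3 : q ∉ ({r, orderOf x} : Finset ℕ) := by
      simp only [Finset.mem_insert, Finset.mem_singleton, not_or]
      exact ⟨hrq.symm, fun h => hnp (h ▸ hq)⟩
    have h4 : r ∉ ({orderOf x} : Finset ℕ) := by
      simp only [Finset.mem_singleton]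
      exact fun h => hnp (h ▸ hr)
    rw [Finset.card_insert_of_notMem h1, Finset.card_insert_of_notMem h2,
      Finset.card_insert_of_notMem h3, Finset.card_insert_of_notMem h4, Finset.card_singleton]
  have h5 := Finset.card_le_card hsub
  have h6 : (Finset.univ.image f).card ≤ 4 := by
    rw [← h4, Nat.card_eq_fintype_card]
    exact Finset.card_image_le
  omega

end Cfsg.Agent.S4068
end
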