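import Mathlib
import Cfsg.Agent.H511.Wt.Affine
import Cfsg.Agent.H578.PermCol
import Cfsg.Agent.H511.Wt.OddFx
import Cfsg.Agent.S3360
import Cfsg.Agent.H511.Wt.MinMod
import Cfsg.Agent.H583.ColBig
import Cfsg.Statements.S4070
set_option linter.all false

-- part: H511/Wt/ColR
section
/-!
# Rigid colourings with four colours
-/

set_option autoImplicit false
set_option linter.style.haveILetI false
set_option linter.unusedSectionVars false

namespace Cfsg.Agent.H511.Wt

open Subgroup
open scoped Pointwise commutatorElement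

universe u

/-- two sets which are not preserved by any nontrivial element -/
def Rig (G X : Type*) [Group G] [AddCommGroup X] [Finite X] [DistribMulAction G X] : Prop :=
  ∃ B C : Finset X, (0 : X) ∉ B ∧ (0 : X) ∉ C ∧ Disjoint B C ∧ B.card ≠ 1 ∧
    1 + B.card + C.card + 1 < Nat.card X ∧ 1 + B.card + C.card + B.card < Nat.card X ∧
    1 + B.card + C.card + C.card < Nat.card X ∧
    ∀ g : G, (∀ x ∈ B, g • x ∈ B) → (∀ x ∈ C, g • x ∈ C) → ∀ x : X, g • x = x

section col

variable {X : Type*} [AddCommGroup X] [Finite X] [DecidableEq X]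

/-- the colouring attached to two sets -/
def kap (B C : Finset X) (x : X) : Fin 4 := if x = 0 then 0 else if x ∈ B then 1 else if x ∈ C then 2 else 3

theorem kap_zero {B C : Finset X} {x : X} : kap B C x = 0 ↔ x = 0 := by
  unfold kap
  split_ifs with h1 h2 h3
  · simp [h1]
  · simp [h1]
  · simp only [h1, iff_false]; decide
  · simp only [h1, iff_false]; decide

theorem kap_one {B C : Finset X} (hB : (0 : X) ∉ B) {x : X} : kap B C x = 1 ↔ x ∈ B := by
  unfold kap
  split_ifs with h1 h2 h3
  · subst h1; simp [hB]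
  · simp [h2]
  · simp only [h2, iff_false]; decide
  · simp only [h2, iff_false]; decide

theorem kap_two {B C : Finset X} (hC : (0 : X) ∉ C) (hBC : Disjoint B C) {x : X} : kap B C x = 2 ↔ x ∈ C := by
  unfold kap
  split_ifs with h1 h2 h3
  · subst h1; simp only [hC, iff_false]; decide
  · have : x ∉ C := Finset.disjoint_left.1 hBC h2
    simp only [this, iff_false]; decide
  · simp [h3]
  · simp only [h3, iff_false]; decide

theorem ncard_kap (B C : Finset X) (hB : (0 : X) ∉ B) (hC : (0 : X) ∉ C) (hBC : Disjoint B C) :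
    {x | kap B C x = 0}.ncard = 1 ∧ {x | kap B C x = 1}.ncard = B.card ∧ {x | kap B C x = 2}.ncard = C.card ∧
      {x | kap B C x = 3}.ncard + (1 + B.card + C.card) = Nat.card X := by
  have h0 : {x | kap B C x = 0} = {(0 : X)} := by
    ext x; exact kap_zero
  have h1 : {x | kap B C x = 1} = (B : Set X) := by
    ext x; exact kap_one hB
  have h2 : {x | kap B C x = 2} = (C : Set X) := by
    ext x; exact kap_two hC hBC
  have h3 : {x | kap B C x = 3} = (({0} ∪ B ∪ C : Finset X) : Set X)ᶜ := by
    ext x
    simp only [Set.mem_ofPred_eq, Set.mem_compl_iff, Finset.mem_coe, Finset.mem_union, Finset.mem_singleton]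
    rw [← kap_zero (B := B) (C := C), ← kap_one (C := C) hB, ← kap_two hC hBC]
    generalize kap B C x = k
    revert k
    decide
  refine ⟨?_, ?_, ?_, ?_⟩
  · rw [h0, Set.ncard_singleton]
  · rw [h1, Set.ncard_coe_finset]
  · rw [h2, Set.ncard_coe_finset]
  · have h4 : ({0} ∪ B ∪ C : Finset X).card = 1 + B.card + C.card := by
      rw [Finset.card_union_of_disjoint, Finset.card_union_of_disjoint, Finset.card_singleton]
      · rwa [Finset.disjoint_singleton_left]
      · rw [Finset.disjoint_union_left]
        exact ⟨by rwa [Finset.disjoint_singleton_left], hBC⟩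
    rw [h3, ← h4, ← Set.ncard_coe_finset, add_comm]
    exact Set.ncard_add_ncard_compl _

end col

/-- **From rigid sets to colourings.** -/
theorem col_of_rig {G : Type u} [Group G] [Finite G] {M : Subgroup G}
    {X : Type u} [AddCommGroup X] [Finite X] [DistribMulAction G X] (φ : X ≃ G ⧸ M) (δ : G → X)
    (hφ : ∀ g x, g • φ x = φ (g • x + δ g)) (hM : ∀ g : G, (∀ x : X, g • x = x) → δ g = 0 → g ∈ M.normalCore)
    (h : Rig G X) : Col M 4 0 := by
  classical
  obtain ⟨B, C, hB, hC, hBC, hB1, hn1, hn2, hn3, hrig⟩ := h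
  obtain ⟨s0, s1, s2, s3⟩ := ncard_kap B C hB hC hBC
  -- the five permutations of the colours
  let π : Fin 5 → Equiv.Perm (Fin 4) :=
    ![Equiv.refl _, Equiv.swap 0 3, Equiv.swap 1 3, Equiv.swap 2 3, Equiv.swap 0 1]
  let κ : G ⧸ M → Fin 4 := fun q => kap B C (φ.symm q)
  -- class sizes
  have hsize : ∀ (a : Fin 5) (j : Fin 4), {q : G ⧸ M | π a (κ q) = j}.ncard = {x : X | kap B C x = (π a).symm j}.ncard := by
    intro a j
    have h1 : {q : G ⧸ M | π a (κ q) = j} = φ '' {x : X | kap B C x = (π a).symm j} := by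
      ext q
      constructor
      · intro hq
        refine ⟨φ.symm q, ?_, φ.apply_symm_apply q⟩
        change kap B C (φ.symm q) = _
        rw [Equiv.eq_symm_apply]
        exact hq
      · rintro ⟨x, hx, rfl⟩
        change π a (kap B C (φ.symm (φ x))) = j
        rw [Equiv.symm_apply_apply, show kap B C x = (π a).symm j from hx, Equiv.apply_symm_apply]
    rw [h1, Set.ncard_image_of_injective _ φ.injective]
  refine ⟨fun a q => π a (κ q), ?_, ?_⟩
  · intro a b hab g hg
    have h1 : ∀ j, {x : X | kap B C x = (π a).symm j}.ncard = {x : X | kap B C x = (π b).symm j}.ncard := by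
      intro j
      rw [← hsize, ← hsize]
      have h2 : {q : G ⧸ M | π b (κ q) = j} = (fun q => g • q) '' {q : G ⧸ M | π a (κ q) = j} := by
        ext q
        constructor
        · intro hq
          refine ⟨g⁻¹ • q, ?_, smul_inv_smul g q⟩
          change π a (κ (g⁻¹ • q)) = j
          have h3 : π b (κ (g • g⁻¹ • q)) = π a (κ (g⁻¹ • q)) := hg _
          rw [smul_inv_smul] at h3
          rw [← h3]
          exact hq
        · rintro ⟨q, hq, rfl⟩
          change π b (κ (g • q)) = j
          have h3 : π b (κ (g • q)) = π a (κ q) := hg q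
          rw [h3]
          exact hq
      rw [h2, Set.ncard_image_of_injective _ (MulAction.injective g)]
    have key : ∀ s : Fin 4 → ℕ, s 0 < s 3 → s 1 < s 3 → s 2 < s 3 → s 0 ≠ s 1 →
        (∀ j, s ((π a).symm j) = s ((π b).symm j)) → a = b := by
      intro s k0 k1 k2 k3 hs
      have e0 := hs 0
      have e1 := hs 1
      have e2 := hs 2
      have e3 := hs 3
      by_contra hne
      fin_cases a <;> fin_cases b <;> first
        | exact absurd rfl hne
        | (simp only [π] at e0 e1 e2 e3
           revert e0 e1 e2 e3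
           simp (decide := true) [Equiv.swap_apply_def]
           try omega)
    refine hab (key (fun j => {x : X | kap B C x = j}.ncard) ?_ ?_ ?_ ?_ h1)
    · change {x | kap B C x = 0}.ncard < {x | kap B C x = 3}.ncard
      omega
    · change {x | kap B C x = 1}.ncard < {x | kap B C x = 3}.ncard
      omega
    · change {x | kap B C x = 2}.ncard < {x | kap B C x = 3}.ncard
      omega
    · change {x | kap B C x = 0}.ncard ≠ {x | kap B C x = 1}.ncard
      omega
  · intro a S hS g hg i
    have h0 : ∀ x, kap B C (g • x + δ g) = kap B C x := by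
      intro x
      have h1 := (π a).injective (hS g hg (φ x))
      change kap B C (φ.symm (g • φ x)) = kap B C (φ.symm (φ x)) at h1
      rwa [hφ, Equiv.symm_apply_apply, Equiv.symm_apply_apply] at h1
    have hδ : δ g = 0 := by
      have h1 := h0 0
      rw [smul_zero, zero_add, kap_zero.2 rfl, kap_zero] at h1
      exact h1
    simp only [hδ, add_zero] at h0
    have h1 : ∀ x : X, g • x = x := by
      refine hrig g (fun x hx => ?_) (fun x hx => ?_)
      · rw [← kap_one (C := C) hB, h0, kap_one hB]
        exact hx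
      · rw [← kap_two hC hBC, h0, kap_two hC hBC]
        exact hx
    exact smul_of_mem_core (hM g h1 hδ) i

end Cfsg.Agent.H511.Wt
end

-- part: H511/Wt/ColRig
section
/-!
# Rigid sets in irreducible modules
-/

set_option autoImplicit false
set_option linter.style.haveILetI false
set_option linter.unusedSectionVars false

namespace Cfsg.Agent.H511.Wt

open Subgroup
open scoped Pointwise commutatorElement

universe u

section basis

variable {G X : Type*} [Group G] [AddCommGroup X] [Finite X] [DistribMulAction G X]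
variable {r k : ℕ} [Fact r.Prime] [Module (ZMod r) X]

theorem zsmul_comm' (g : G) (c : ZMod r) (x : X) : g • (c • x) = c • (g • x) :=
  ZMod.map_smul (DistribSMul.toAddMonoidHom X g) c x

theorem fix_of_basis (b : Module.Basis (Fin k) (ZMod r) X) (g : G) (h : ∀ i, g • b i = b i) (x : X) : g • x = x := by
  have h1 : (DistribSMul.toAddMonoidHom X g).toZModLinearMap r = LinearMap.id := by
    refine b.ext fun i => ?_
    exact h i
  exact congrArg (fun f : X →ₗ[ZMod r] X => f x) h1

/-- coordinates -/
noncomputable def co (b : Module.Basis (Fin k) (ZMod r) X) (i : Fin k) (x : X) : ZMod r := b.repr x i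

@[simp] theorem co_add (b : Module.Basis (Fin k) (ZMod r) X) (i : Fin k) (x y : X) :
    co b i (x + y) = co b i x + co b i y := by
  unfold co
  rw [map_add, Finsupp.add_apply]

@[simp] theorem co_zero (b : Module.Basis (Fin k) (ZMod r) X) (i : Fin k) : co b i 0 = 0 := by
  unfold co
  rw [map_zero, Finsupp.zero_apply]

@[simp] theorem co_b (b : Module.Basis (Fin k) (ZMod r) X) (i j : Fin k) : co b i (b j) = if j = i then 1 else 0 := by
  unfold co
  rw [b.repr_self, Finsupp.single_apply]

theorem co_sum (b : Module.Basis (Fin k) (ZMod r) X) (i : Fin k) (I : Finset (Fin k)) :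
    co b i (∑ j ∈ I, b j) = if i ∈ I then 1 else 0 := by
  unfold co
  rw [map_sum, Finsupp.finsetSum_apply]
  have h : ∀ j ∈ I, (b.repr (b j)) i = if i = j then 1 else 0 := by
    intro j _
    rw [b.repr_self, Finsupp.single_apply]
    simp only [eq_comm]
  rw [Finset.sum_congr rfl h, Finset.sum_ite_eq]

theorem sg_inj (b : Module.Basis (Fin k) (ZMod r) X) {I J : Finset (Fin k)} (h : ∑ j ∈ I, b j = ∑ j ∈ J, b j) :
    I = J := by
  ext i
  have h1 := congrArg (co b i) h
  rw [co_sum, co_sum] at h1
  by_cases hI : i ∈ I <;> by_cases hJ : i ∈ J <;> simp_all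

theorem b_ne (b : Module.Basis (Fin k) (ZMod r) X) {i j : Fin k} (h : i ≠ j) : b i ≠ b j := fun h' => by
  have h1 := congrArg (co b i) h'
  simp [Ne.symm h] at h1

theorem b_ne_zero (b : Module.Basis (Fin k) (ZMod r) X) (i : Fin k) : b i ≠ 0 := fun h' => by
  have h1 := congrArg (co b i) h'
  simp at h1

theorem card_X (b : Module.Basis (Fin k) (ZMod r) X) : Nat.card X = r ^ k := by
  have h1 := Module.natCard_eq_pow_finrank (K := ZMod r) (V := X)
  rw [h1, Nat.card_zmod, Module.finrank_eq_card_basis b, Fintype.card_fin]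

theorem two_ne_zero' (hr : r ≠ 2) : (1 + 1 : ZMod r) ≠ 0 := by
  intro h
  have h1 : ((2 : ℕ) : ZMod r) = 0 := by
    push_cast
    rw [← h]
    norm_num
  rw [ZMod.natCast_eq_zero_iff] at h1
  exact hr ((Nat.prime_dvd_prime_iff_eq Fact.out Nat.prime_two).1 h1)

variable (G)

theorem rig_one (b : Module.Basis (Fin 1) (ZMod r) X) (h5 : 5 ≤ Nat.card X) : Rig G X := by
  classical
  refine ⟨∅, {b 0}, by simp, ?_, by simp, by simp, ?_, ?_, ?_, ?_⟩
  · rw [Finset.mem_singleton]
    exact (b_ne_zero b 0).symm
  · simp; omega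
  · simp; omega
  · simp; omega
  · intro g _ hC x
    refine fix_of_basis b g (fun i => ?_) x
    have h1 := hC (b 0) (Finset.mem_singleton_self _)
    rw [Finset.mem_singleton] at h1
    fin_cases i
    exact h1

theorem rig_two (hr : r ≠ 2) (b : Module.Basis (Fin 2) (ZMod r) X) : Rig G X := by
  classical
  have h2 := two_ne_zero' (r := r) hr
  have hr3 : 3 ≤ r := by
    have := (Fact.out : r.Prime).two_le
    omega
  have hcard : 9 ≤ Nat.card X := by
    rw [card_X b]
    calc 9 = 3 ^ 2 := by norm_num
      _ ≤ r ^ 2 := Nat.pow_le_pow_left hr3 2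
  have e1 : b 1 ≠ b 0 + b 1 := fun h => by
    have := congrArg (co b 0) h
    simp at this
  have hB : ({b 1, b 0 + b 1} : Finset X).card = 2 := Finset.card_pair e1
  refine ⟨{b 1, b 0 + b 1}, {b 0}, ?_, ?_, ?_, by rw [hB]; norm_num, ?_, ?_, ?_, ?_⟩
  · rw [Finset.mem_insert, Finset.mem_singleton]
    rintro (h | h)
    · exact b_ne_zero b 1 h.symm
    · have := congrArg (co b 0) h
      simp at this
  · rw [Finset.mem_singleton]
    exact (b_ne_zero b 0).symm
  · rw [Finset.disjoint_singleton_right, Finset.mem_insert, Finset.mem_singleton]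
    rintro (h | h)
    · exact b_ne b (by decide) h
    · have := congrArg (co b 1) h
      simp at this
  · rw [hB, Finset.card_singleton]; omega
  · rw [hB, Finset.card_singleton]; omega
  · rw [hB, Finset.card_singleton]; omega
  · intro g hB hC x
    have h0 : g • b 0 = b 0 := by simpa using hC (b 0) (Finset.mem_singleton_self _)
    have h1 : g • b 1 = b 1 := by
      have h3 := hB (b 1) (by simp)
      rw [Finset.mem_insert, Finset.mem_singleton] at h3
      rcases h3 with h3 | h3
      · exact h3
      · exfalso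
        have h4 := hB (b 0 + b 1) (by simp)
        rw [Finset.mem_insert, Finset.mem_singleton, smul_add, h0, h3] at h4
        rcases h4 with h4 | h4
        · have := congrArg (co b 0) h4
          simp at this
          exact h2 this
        · have := congrArg (co b 0) h4
          simp at this
    refine fix_of_basis b g (fun i => ?_) x
    fin_cases i
    · exact h0
    · exact h1

theorem rig_three (hr : r ≠ 2) (b : Module.Basis (Fin 3) (ZMod r) X) : Rig G X := by
  classical
  have h2 := two_ne_zero' (r := r) hr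
  have hr3 : 3 ≤ r := by
    have := (Fact.out : r.Prime).two_le
    omega
  have hcard : 27 ≤ Nat.card X := by
    rw [card_X b]
    calc 27 = 3 ^ 3 := by norm_num
      _ ≤ r ^ 3 := Nat.pow_le_pow_left hr3 3
  have hB : ({b 1, b 2} : Finset X).card = 2 := Finset.card_pair (b_ne b (by decide))
  have hC : ({b 0, b 0 + b 1, b 1 + b 2} : Finset X).card ≤ 3 := Finset.card_le_three
  refine ⟨{b 1, b 2}, {b 0, b 0 + b 1, b 1 + b 2}, ?_, ?_, ?_, by rw [hB]; norm_num, by omega, by omega, by omega, ?_⟩
  · simp only [Finset.mem_insert, Finset.mem_singleton]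
    rintro (h | h)
    · exact b_ne_zero b 1 h.symm
    · exact b_ne_zero b 2 h.symm
  · simp only [Finset.mem_insert, Finset.mem_singleton]
    rintro (h | h | h)
    · exact b_ne_zero b 0 h.symm
    · have := congrArg (co b 0) h
      simp at this
    · have := congrArg (co b 1) h
      simp at this
  · rw [Finset.disjoint_left]
    simp only [Finset.mem_insert, Finset.mem_singleton]
    rintro x (rfl | rfl) (h | h | h)
    · exact b_ne b (by decide) h
    · have := congrArg (co b 0) h
      simp at this
    · have := congrArg (co b 2) h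
      simp at this
    · exact b_ne b (by decide) h
    · have := congrArg (co b 0) h
      simp at this
    · have := congrArg (co b 1) h
      simp at this
  · intro g hB hC x
    have hinj : ∀ x y : X, g • x = g • y → x = y := fun x y h => MulAction.injective g h
    have h1 : g • b 1 = b 1 ∨ g • b 1 = b 2 := by simpa using hB (b 1) (by simp)
    have h2' : g • b 2 = b 1 ∨ g • b 2 = b 2 := by simpa using hB (b 2) (by simp)
    have h0 : g • b 0 = b 0 ∨ g • b 0 = b 0 + b 1 ∨ g • b 0 = b 1 + b 2 := by simpa using hC (b 0) (by simp)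
    have h01 : g • b 0 + g • b 1 = b 0 ∨ g • b 0 + g • b 1 = b 0 + b 1 ∨ g • b 0 + g • b 1 = b 1 + b 2 := by
      have := hC (b 0 + b 1) (by simp)
      rw [smul_add] at this
      simpa only [Finset.mem_insert, Finset.mem_singleton] using this
    have h12 : b 1 ≠ b 2 := b_ne b (by decide)
    have hsum : g • (b 1 + b 2) = b 1 + b 2 := by
      rw [smul_add]
      rcases h1 with h | h <;> rcases h2' with h' | h'
      · exact absurd (hinj _ _ (h.trans h'.symm)) h12
      · rw [h, h']
      · rw [h, h', add_comm]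
      · exact absurd (hinj _ _ (h.trans h'.symm)) h12
    have g0 : g • b 0 = b 0 := by
      rcases h0 with h | h | h
      · exact h
      · exfalso
        rw [h] at h01
        rcases h1 with h3 | h3 <;> rw [h3] at h01
        · rcases h01 with h4 | h4 | h4
          · have := congrArg (co b 1) h4
            simp at this
            exact h2 this
          · have := congrArg (co b 1) h4
            simp at this
          · have := congrArg (co b 0) h4
            simp at this
        · rcases h01 with h4 | h4 | h4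
          · have := congrArg (co b 1) h4
            simp at this
          · have := congrArg (co b 2) h4
            simp at this
          · have := congrArg (co b 0) h4
            simp at this
      · exfalso
        have h4 := hinj _ _ (h.trans hsum.symm)
        have := congrArg (co b 0) h4
        simp at this
    have g1 : g • b 1 = b 1 := by
      rcases h1 with h3 | h3
      · exact h3
      · exfalso
        rw [g0, h3] at h01
        rcases h01 with h4 | h4 | h4
        · have := congrArg (co b 2) h4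
          simp at this
        · have := congrArg (co b 2) h4
          simp at this
        · have := congrArg (co b 0) h4
          simp at this
    have g2 : g • b 2 = b 2 := by
      rcases h2' with h' | h'
      · exact absurd (hinj _ _ (g1.trans h'.symm)) h12
      · exact h'
    refine fix_of_basis b g (fun i => ?_) x
    fin_cases i
    · exact g0
    · exact g1
    · exact g2

theorem rig_eight [Fact (Nat.Prime 2)] [Module (ZMod 2) X] (b : Module.Basis (Fin 3) (ZMod 2) X)
    (hodd : Odd (Nat.card (Im G X))) : Rig G X := by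
  classical
  have hcard : Nat.card X = 8 := by rw [card_X b]; norm_num
  have hB : ({b 1, b 2} : Finset X).card = 2 := Finset.card_pair (b_ne b (by decide))
  refine ⟨{b 1, b 2}, {b 0}, ?_, ?_, ?_, by rw [hB]; norm_num, ?_, ?_, ?_, ?_⟩
  · simp only [Finset.mem_insert, Finset.mem_singleton]
    rintro (h | h)
    · exact b_ne_zero b 1 h.symm
    · exact b_ne_zero b 2 h.symm
  · rw [Finset.mem_singleton]
    exact (b_ne_zero b 0).symm
  · rw [Finset.disjoint_singleton_right, Finset.mem_insert, Finset.mem_singleton]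
    rintro (h | h)
    · exact b_ne b (by decide) h
    · exact b_ne b (by decide) h
  · rw [hB, Finset.card_singleton]; omega
  · rw [hB, Finset.card_singleton]; omega
  · rw [hB, Finset.card_singleton]; omega
  · intro g hB hC x
    have hinj : ∀ x y : X, g • x = g • y → x = y := fun x y h => MulAction.injective g h
    have h0 : g • b 0 = b 0 := by simpa using hC (b 0) (Finset.mem_singleton_self _)
    have h1 : g • b 1 = b 1 ∨ g • b 1 = b 2 := by simpa using hB (b 1) (by simp)
    have h2' : g • b 2 = b 1 ∨ g • b 2 = b 2 := by simpa using hB (b 2) (by simp)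
    have h12 : b 1 ≠ b 2 := b_ne b (by decide)
    -- the square acts trivially
    have hsq : ∀ x : X, (g ^ 2) • x = x := by
      refine fix_of_basis b (g ^ 2) fun i => ?_
      rw [pow_two, mul_smul]
      fin_cases i
      · change g • g • b 0 = b 0
        rw [h0, h0]
      · change g • g • b 1 = b 1
        rcases h1 with h | h
        · rw [h, h]
        · rcases h2' with h' | h'
          · rw [h, h']
          · exact absurd (hinj _ _ (h.trans h'.symm)) h12
      · change g • g • b 2 = b 2
        rcases h2' with h | h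
        · rcases h1 with h' | h'
          · exact absurd (hinj _ _ (h'.trans h.symm)) h12
          · rw [h, h']
        · rw [h, h]
    have h3 : (toIm G X g) ^ 2 = 1 := by
      apply range_faithful
      intro x
      rw [← map_pow, toIm_smul]
      exact hsq x
    have h4 : toIm G X g = 1 := by
      have h5 : orderOf (toIm G X g) ∣ 2 := orderOf_dvd_of_pow_eq_one h3
      have h6 : Odd (orderOf (toIm G X g)) := Odd.of_dvd_nat hodd (_root_.orderOf_dvd_natCard _)
      rcases (Nat.dvd_prime Nat.prime_two).1 h5 with h7 | h7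
      · exact orderOf_eq_one_iff.1 h7
      · rw [h7] at h6
        exact absurd h6 (by decide)
    rw [← toIm_smul, h4, one_smul]

theorem val_two (n : ℕ) : ((2 : Fin (n + 4)) : ℕ) = 2 := by
  change 2 % (n + 4) = 2
  exact Nat.mod_eq_of_lt (by omega)

theorem val_one (n : ℕ) : ((1 : Fin (n + 4)) : ℕ) = 1 := by
  change 1 % (n + 4) = 1
  exact Nat.mod_eq_of_lt (by omega)

theorem val_zero (n : ℕ) : ((0 : Fin (n + 4)) : ℕ) = 0 := rfl

/-- the set system of the colour `2` in large dimension -/
def path (n : ℕ) : Finset (Finset (Fin (n + 4))) :=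
  insert {0, 1, 2} ((Finset.univ : Finset (Fin (n + 3))).image fun i => {i.castSucc, i.succ})

theorem rig_large {n : ℕ} (b : Module.Basis (Fin (n + 4)) (ZMod r) X) : Rig G X := by
  classical
  let B : Finset X := Finset.univ.image b
  let C : Finset X := (path n).image fun I => ∑ j ∈ I, b j
  have hbinj : Function.Injective b := b.injective
  have hBc : B.card = n + 4 := by
    rw [Finset.card_image_of_injective _ hbinj, Finset.card_univ, Fintype.card_fin]
  have hCc : C.card ≤ n + 4 := by
    refine Finset.card_image_le.trans ?_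
    refine (Finset.card_insert_le _ _).trans ?_
    have := Finset.card_image_le (s := (Finset.univ : Finset (Fin (n + 3)))) (f := fun i => ({i.castSucc, i.succ} : Finset (Fin (n + 4))))
    rw [Finset.card_univ, Fintype.card_fin] at this
    omega
  have hcard : 3 * (n + 4) + 1 < Nat.card X := by
    rw [card_X b]
    have h1 : 2 ^ (n + 4) ≤ r ^ (n + 4) := Nat.pow_le_pow_left (Fact.out : r.Prime).two_le _
    refine lt_of_lt_of_le ?_ h1
    clear * -
    induction n with
    | zero => norm_num
    | succ n ih =>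
      rw [pow_succ]
      omega
  have hcardI : ∀ I ∈ path n, 2 ≤ I.card := by
    intro I hI
    rw [path, Finset.mem_insert, Finset.mem_image] at hI
    rcases hI with rfl | ⟨i, _, rfl⟩
    · have h1 : ({1, 2} : Finset (Fin (n + 4))).card = 2 := Finset.card_pair (by
        intro h
        have := congrArg Fin.val h
        rw [val_one, val_two] at this
        omega)
      rw [← h1]
      exact Finset.card_le_card (by intro x hx; simp only [Finset.mem_insert, Finset.mem_singleton] at hx ⊢; tauto)
    · rw [Finset.card_pair]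
      exact Fin.castSucc_lt_succ.ne
  have hB0 : (0 : X) ∉ B := by
    intro h
    obtain ⟨i, _, hi⟩ := Finset.mem_image.1 h
    exact b_ne_zero b i hi
  have hC0 : (0 : X) ∉ C := by
    intro h
    obtain ⟨I, hI, hI0⟩ := Finset.mem_image.1 h
    have h1 : I = ∅ := sg_inj b (by rw [hI0, Finset.sum_empty])
    have h2 := hcardI I hI
    rw [h1, Finset.card_empty] at h2
    omega
  have hBC : Disjoint B C := by
    rw [Finset.disjoint_left]
    intro x hx hx'
    obtain ⟨i, _, rfl⟩ := Finset.mem_image.1 hx
    obtain ⟨I, hI, hI0⟩ := Finset.mem_image.1 hx'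
    have h1 : I = {i} := sg_inj b (by rw [Finset.sum_singleton]; exact hI0)
    have h2 := hcardI I hI
    rw [h1, Finset.card_singleton] at h2
    omega
  refine ⟨B, C, hB0, hC0, hBC, by omega, by omega, by omega, by omega, ?_⟩
  intro g hB hC
  -- the permutation of the basis
  have hπ : ∀ i, ∃ j, b j = g • b i := by
    intro i
    obtain ⟨j, _, hj⟩ := Finset.mem_image.1 (hB (b i) (Finset.mem_image_of_mem _ (Finset.mem_univ i)))
    exact ⟨j, hj⟩
  choose π hπ using hπ
  have hπi : Function.Injective π := by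
    intro i j h
    apply hbinj
    apply MulAction.injective g
    change g • b i = g • b j
    rw [← hπ, ← hπ, h]
  have hI : ∀ I ∈ path n, I.image π ∈ path n := by
    intro I hI
    obtain ⟨J, hJ, hJI⟩ := Finset.mem_image.1 (hC _ (Finset.mem_image_of_mem _ hI))
    have h1 : J = I.image π := by
      apply sg_inj b
      rw [Finset.sum_image (fun x _ y _ h => hπi h)]
      have h2 : (∑ j ∈ J, b j) = g • ∑ j ∈ I, b j := hJI
      rw [h2, Finset.smul_sum]
      exact Finset.sum_congr rfl fun j _ => (hπ j).symm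
    rw [← h1]
    exact hJ
  have h012 : ({0, 1, 2} : Finset (Fin (n + 4))).card = 3 := by
    rw [Finset.card_eq_three]
    refine ⟨0, 1, 2, ?_, ?_, ?_, rfl⟩ <;>
    · intro h
      have h' := congrArg Fin.val h
      simp only [val_zero, val_one, val_two] at h'
      omega
  -- steps
  have hstep : ∀ i : Fin (n + 3), ((π i.succ : ℕ) : ℤ) = (π i.castSucc : ℕ) + 1 ∨
      ((π i.succ : ℕ) : ℤ) = (π i.castSucc : ℕ) - 1 := by
    intro i
    have h1 := hI {i.castSucc, i.succ} (Finset.mem_insert_of_mem (Finset.mem_image_of_mem _ (Finset.mem_univ i)))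
    rw [Finset.image_insert, Finset.image_singleton] at h1
    have h2 : π i.castSucc ≠ π i.succ := fun h => Fin.castSucc_lt_succ.ne (hπi h)
    rw [path, Finset.mem_insert, Finset.mem_image] at h1
    rcases h1 with h1 | ⟨j, _, hj⟩
    · exfalso
      have h3 := congrArg Finset.card h1
      rw [h012, Finset.card_pair h2] at h3
      omega
    · have h3 : π i.castSucc ∈ ({j.castSucc, j.succ} : Finset (Fin (n + 4))) := by rw [hj]; simp
      have h4 : π i.succ ∈ ({j.castSucc, j.succ} : Finset (Fin (n + 4))) := by rw [hj]; simp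
      rw [Finset.mem_insert, Finset.mem_singleton] at h3 h4
      rcases h3 with h3 | h3 <;> rcases h4 with h4 | h4
      · exact absurd (h3.trans h4.symm) h2
      · left
        rw [h3, h4]
        simp
      · right
        rw [h3, h4]
        simp
      · exact absurd (h3.trans h4.symm) h2
  have h0 : (π 0 : ℕ) ≤ 2 := by
    have h1 := hI {0, 1, 2} (Finset.mem_insert_self _ _)
    rw [path, Finset.mem_insert, Finset.mem_image] at h1
    rcases h1 with h1 | ⟨j, _, hj⟩
    · have h2 : π 0 ∈ ({0, 1, 2} : Finset (Fin (n + 4))) := by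
        rw [← h1]
        exact Finset.mem_image_of_mem _ (by simp)
      simp only [Finset.mem_insert, Finset.mem_singleton] at h2
      rcases h2 with h2 | h2 | h2 <;> rw [h2] <;> simp only [val_zero, val_one, val_two] <;> omega
    · exfalso
      have h3 := congrArg Finset.card hj
      rw [Finset.card_image_of_injective _ hπi, h012, Finset.card_pair Fin.castSucc_lt_succ.ne] at h3
      omega
  -- the walk
  let f : ℕ → ℤ := fun i => if h : i < n + 4 then ((π ⟨i, h⟩ : ℕ) : ℤ) else 0
  have hf : ∀ i (h : i < n + 4), f i = ((π ⟨i, h⟩ : ℕ) : ℤ) := fun i h => dif_pos h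
  have hw := Cfsg.Agent.H578.Comb.walk (n + 4) f (by
    intro i hi
    rw [hf i (by omega), hf (i + 1) hi]
    exact hstep ⟨i, by omega⟩) (by
    intro i j hi hj hij
    rw [hf i hi, hf j hj] at hij
    have h1 : (⟨i, hi⟩ : Fin (n + 4)) = ⟨j, hj⟩ := hπi (Fin.ext (by exact_mod_cast hij))
    exact congrArg Fin.val h1)
  have hf0 : f 0 = ((π 0 : ℕ) : ℤ) := hf 0 (by omega)
  have hlast := hf (n + 3) (by omega)
  have hlt := (π ⟨n + 3, by omega⟩).2
  have hid : ∀ i, π i = i := by
    rcases hw with hw | hw
    · have h1 := hw (n + 3) (by omega)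
      have h2 : f 0 = 0 := by
        rw [hlast, hf0] at h1
        rw [hf0]
        push_cast at h1
        omega
      intro i
      apply Fin.ext
      have h3 := hw i i.2
      rw [hf i i.2, h2, zero_add] at h3
      exact_mod_cast h3
    · exfalso
      have h1 := hw (n + 3) (by omega)
      rw [hlast, hf0] at h1
      push_cast at h1
      omega
  exact fix_of_basis b g fun i => by rw [← hπ, hid]

end basis

/-- solvable irreducible groups on eight vectors have odd order -/
theorem odd_of_eight {G X : Type u} [Group G] [Finite G] [Group.IsSolvable G] [AddCommGroup X] [Finite X]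
    [DistribMulAction G X] (hirr : Irr G X) (hcard : Nat.card X = 8) : Odd (Nat.card (Im G X)) := by
  have hnt := hirr.nt
  have hsol : Group.IsSolvable (Im G X) := range_solvable
  rcases exists_qp (Im G X) X hirr.range range_faithful with h | ⟨K, i1, i2, i3, ⟨S⟩⟩
  · exfalso
    obtain ⟨M, W, hM, h1, h2, h3⟩ := h
    have D : Imp M W := ⟨h1, h2, h3⟩
    letI := resAct M (W ((1 : Im G X) : _ ⧸ M)) D.res_mem
    have hirr0 := D.irr_res hirr.range
    have h6 : M.index ≠ 0 := index_ne_zero_of_finite
    have h7 : M.index ≠ 1 := by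
      rw [Ne, index_eq_one]
      exact hM.1
    have hV : Nat.card (W ((1 : Im G X) : _ ⧸ M)) ^ M.index = 2 ^ 3 := by
      rw [← D.card_V, hcard]
      norm_num
    obtain ⟨i, hi, hi2⟩ := pow_eq_prime_pow Nat.prime_two h6 hV
    have hi1 : i = 1 := by
      have h8 : i ∣ 3 := Dvd.intro _ hi2
      rcases (Nat.dvd_prime Nat.prime_three).1 h8 with h9 | h9
      · exact h9
      · exfalso
        apply h7
        rw [h9] at hi2
        omega
    rw [hi1, pow_one] at hi
    -- the unique nonzero vector of each component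
    classical
    letI : Fintype (Im G X ⧸ M) := Fintype.ofFinite _
    have huniq : ∀ q, ∃ w ∈ W q, w ≠ 0 ∧ ∀ y ∈ W q, y ≠ 0 → y = w := by
      intro q
      have h8 : Nat.card (W q) = 2 := by rw [D.card_W, hi]
      obtain ⟨a, c, hac, huni⟩ := Nat.card_eq_two_iff.1 h8
      have h9 : ∀ y : W q, y = a ∨ y = c := by
        intro y
        have : y ∈ ({a, c} : Set (W q)) := by rw [huni]; exact Set.mem_univ y
        exact this
      rcases h9 0 with h0 | h0
      · refine ⟨c, c.2, fun h => hac ?_, fun y hy hy0 => ?_⟩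
        · rw [← h0]; exact Subtype.ext h.symm
        · rcases h9 ⟨y, hy⟩ with h | h
          · exfalso
            rw [← h0] at h
            exact hy0 (congrArg Subtype.val h)
          · exact congrArg Subtype.val h
      · refine ⟨a, a.2, fun h => hac ?_, fun y hy hy0 => ?_⟩
        · rw [← h0]; exact Subtype.ext h
        · rcases h9 ⟨y, hy⟩ with h | h
          · exact congrArg Subtype.val h
          · exfalso
            rw [← h0] at h
            exact hy0 (congrArg Subtype.val h)
    choose w hw hw0 hwu using huniq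
    have hgw : ∀ (g : Im G X) q, g • w q = w (g • q) := by
      intro g q
      refine hwu _ _ (D.smul_mem g (hw q)) ?_
      rw [Ne, smul_eq_zero_iff_eq]
      exact hw0 q
    set v : X := ∑ q, w q with hv
    have hgv : ∀ g : Im G X, g • v = v := by
      intro g
      rw [hv, Finset.smul_sum]
      refine Fintype.sum_equiv (MulAction.toPerm g) _ _ fun q => ?_
      exact hgw g q
    have hv0 : v ≠ 0 := by
      intro h
      exact hw0 _ (sum_unique D.ind hw h ((1 : Im G X) : _ ⧸ M))
    have hzm : ∀ (g : Im G X), ∀ x ∈ AddSubgroup.zmultiples v, g • x ∈ AddSubgroup.zmultiples v := by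
      rintro g _ ⟨z, rfl⟩
      change g • (z • v) ∈ _
      rw [smul_comm g z v, hgv]
      exact ⟨z, rfl⟩
    rcases hirr.range.irr _ hzm with h | h
    · exact hv0 (AddSubgroup.zmultiples_eq_bot.1 h)
    · obtain ⟨p, hp, hpx⟩ := hirr.exists_prime
      have h8 : addOrderOf v = 8 := by
        rw [← Nat.card_zmultiples, h, AddSubgroup.card_top, hcard]
      have h9 : addOrderOf v ∣ p := addOrderOf_dvd_of_nsmul_eq_zero (hpx v)
      rw [h8] at h9
      rcases (Nat.dvd_prime hp).1 h9 with h10 | h10
      · norm_num at h10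
      · rw [← h10] at hp
        norm_num at hp
  · have hq : Nat.card K ^ Module.finrank K X = 2 ^ 3 := by rw [← QP.card_V_eq, hcard]; norm_num
    have hm0 : Module.finrank K X ≠ 0 := (Module.finrank_pos (R := K) (M := X)).ne'
    obtain ⟨i, hi, hi2⟩ := pow_eq_prime_pow Nat.prime_two hm0 hq
    have hi13 : i = 1 ∨ i = 3 := (Nat.dvd_prime Nat.prime_three).1 (Dvd.intro _ hi2)
    have hs : S.s = 1 := by
      by_contra hne
      obtain ⟨p, hp, hps⟩ := Nat.exists_prime_and_dvd hne
      obtain ⟨h1, h2⟩ := S.prime_dvd hp hps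
      have h3 : p ∣ 3 := h2.trans (Dvd.intro_left i hi2)
      have h4 := (Nat.prime_dvd_prime_iff_eq hp Nat.prime_three).1 h3
      subst h4
      have h5 := h1.trans S.card_U_dvd
      rw [hi] at h5
      rcases hi13 with rfl | rfl <;> norm_num at h5
    have hE : S.E.relIndex S.A = 1 := by
      have h1 : S.E = S.A := le_antisymm S.E_le_A (by rw [S.eq_of_s_one hs]; exact S.U_le_E)
      rw [h1, relIndex_self]
    rw [S.card_G_eq, hs, hE, mul_one, mul_one]
    refine Odd.mul ?_ ?_
    · refine Odd.of_dvd_nat ?_ S.card_U_dvd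
      rw [hi]
      rcases hi13 with rfl | rfl <;> decide
    · refine Odd.of_dvd_nat ?_ (S.index_A_dvd Nat.prime_two hi)
      rcases hi13 with rfl | rfl <;> decide

/-- **Rigid sets in irreducible modules of solvable groups.** -/
theorem rig_of_irr {G X : Type u} [Group G] [Finite G] [Group.IsSolvable G] [AddCommGroup X] [Finite X]
    [DistribMulAction G X] (hirr : Irr G X) (h5 : 5 ≤ Nat.card X) : Rig G X := by
  obtain ⟨r, hr, hrx⟩ := hirr.exists_prime
  haveI : Fact r.Prime := ⟨hr⟩
  have hnt := hirr.nt
  obtain ⟨inst⟩ : Nonempty (Module (ZMod r) X) := ⟨AddCommGroup.zmodModule hrx⟩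
  obtain ⟨k, hk⟩ : ∃ k, Module.finrank (ZMod r) X = k := ⟨_, rfl⟩
  have b : Module.Basis (Fin k) (ZMod r) X := Module.finBasisOfFinrankEq (ZMod r) X hk
  have hcard := card_X b
  by_cases h4 : 4 ≤ k
  · obtain ⟨n, rfl⟩ : ∃ n, k = n + 4 := ⟨k - 4, by omega⟩
    exact rig_large G b
  have hk0 : k ≠ 0 := by
    rintro rfl
    rw [hcard, pow_zero] at h5
    omega
  obtain rfl | rfl | rfl : k = 1 ∨ k = 2 ∨ k = 3 := by omega
  · exact rig_one G b h5
  · refine rig_two G ?_ b
    rintro rfl
    rw [hcard] at h5
    norm_num at h5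
  · by_cases hr2 : r = 2
    · subst hr2
      exact rig_eight G b (odd_of_eight hirr (by rw [hcard]; norm_num))
    · exact rig_three G hr2 b

end Cfsg.Agent.H511.Wt
end

-- part: H511/Wt/OddBase
section
/-!
# Quasi-primitive groups of odd order
-/

set_option autoImplicit false
set_option linter.style.haveILetI false
set_option linter.unusedSectionVars false
set_option exponentiation.threshold 2000

namespace Cfsg.Agent.H511.Wt

open Subgroup
open scoped Pointwise commutatorElement

universe u

theorem odd_im {G V : Type*} [Group G] [Finite G] [AddCommGroup V] [DistribMulAction G V]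
    (hodd : Odd (Nat.card G)) : Odd (Nat.card (Im G V)) := by
  refine Odd.of_dvd_nat hodd ?_
  have : Nat.card (Im G V) = (MulAction.toPermHom G V).ker.index := by rw [index_ker]
  rw [this]
  exact index_dvd_card _

theorem odd_sub {G : Type*} [Group G] [Finite G] (hodd : Odd (Nat.card G)) (H : Subgroup G) : Odd (Nat.card H) :=
  Odd.of_dvd_nat hodd (card_subgroup_dvd_card H)

namespace QP

variable {K V G : Type*} [Field K] [Finite K] [AddCommGroup V] [Module K V] [Finite V] [Nontrivial V]
    [Group G] [Finite G] [DistribMulAction G V] (S : QP K V G)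

theorem odd_prime (hodd : Odd (Nat.card G)) {r : ℕ} (hr : r.Prime) (hd : r ∣ Nat.card S.U) : r ≠ 2 := by
  rintro rfl
  have h1 := odd_sub hodd S.U
  rw [← Nat.not_even_iff_odd, even_iff_two_dvd] at h1
  exact h1 hd

end QP

/-- irreducible groups of odd order of small two-power dimension are abelian -/
theorem odd_dl {G V : Type u} [Group G] [Finite G] [Group.IsSolvable G] [AddCommGroup V] [Finite V]
    [DistribMulAction G V] (hodd : Odd (Nat.card G)) (hirr : Irr G V) {r j : ℕ} (hr : r.Prime)
    (hcard : Nat.card V = r ^ j) (hj : j ∣ 4) : DL G V 1 := by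
  have hnt := hirr.nt
  have hsol : Group.IsSolvable (Im G V) := range_solvable
  have hodd' : Odd (Nat.card (Im G V)) := odd_im hodd
  have hodd4 : ∀ k, k ∣ 4 → Odd k → k = 1 := by
    intro k hk hk2
    have h1 : k ≤ 4 := Nat.le_of_dvd (by norm_num) hk
    interval_cases k
    · norm_num at hk
    · rfl
    · exact absurd hk2 (by decide)
    · norm_num at hk
    · exact absurd hk2 (by decide)
  have hj0 : j ≠ 0 := by
    rintro rfl
    norm_num at hj
  rcases exists_qp (Im G V) V hirr.range range_faithful with h | ⟨K, i1, i2, i3, ⟨S⟩⟩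
  · exfalso
    obtain ⟨M, W, hM, h1, h2, h3⟩ := h
    have D : Imp M W := ⟨h1, h2, h3⟩
    have h6 : M.index ≠ 0 := index_ne_zero_of_finite
    obtain ⟨i, _, hi2⟩ := pow_eq_prime_pow (w := Nat.card (W ((1 : Im G V) : _ ⧸ M))) (k := M.index) (a := j)
      hr h6 (by rw [← hcard, D.card_V])
    have h7 : M.index ∣ 4 := (Dvd.intro_left i hi2).trans hj
    have h8 := hodd4 _ h7 (Odd.of_dvd_nat hodd' (index_dvd_card _))
    rw [index_eq_one] at h8
    exact hM.1 h8
  · have hq : Nat.card K ^ Module.finrank K V = r ^ j := by rw [← hcard]; exact QP.card_V_eq.symm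
    have hm0 : Module.finrank K V ≠ 0 := (Module.finrank_pos (R := K) (M := V)).ne'
    obtain ⟨i, hi, hi2⟩ := pow_eq_prime_pow hr hm0 hq
    have hi0 : i ≠ 0 := by
      rintro rfl
      rw [zero_mul] at hi2
      exact hj0 hi2.symm
    have hs : S.s = 1 := by
      by_contra hne
      obtain ⟨p, hp, hps⟩ := Nat.exists_prime_and_dvd hne
      obtain ⟨h1, h2⟩ := S.prime_dvd hp hps
      have h3 : p ∣ 2 ^ 2 := h2.trans ((Dvd.intro_left i hi2).trans hj)
      have h4 := (Nat.prime_dvd_prime_iff_eq hp Nat.prime_two).1 (hp.dvd_of_dvd_pow h3)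
      exact S.odd_prime hodd' hp h1 h4
    have hA : S.A.index = 1 := by
      refine hodd4 _ ?_ (Odd.of_dvd_nat hodd' (index_dvd_card _))
      exact (S.index_A_dvd hr hi).trans ((Dvd.intro _ hi2).trans hj)
    rw [index_eq_one] at hA
    have hAU := S.eq_of_s_one hs
    apply DL.of_range
    have h1 : dser (⊤ : Subgroup (Im G V)) 1 = ⊥ := dser_one_of_comm fun a _ b _ => by
      refine S.U_comm ?_ ?_
      · rw [← hAU, hA]; exact mem_top a
      · rw [← hAU, hA]; exact mem_top b
    intro g hg x
    rw [h1, mem_bot] at hg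
    rw [hg, one_smul]

/-- there are no irreducible groups of odd order on nine vectors -/
theorem odd_nine {G V : Type u} [Group G] [Finite G] [Group.IsSolvable G] [AddCommGroup V] [Finite V]
    [DistribMulAction G V] (hodd : Odd (Nat.card G)) (hirr : Irr G V) (hcard : Nat.card V = 9) : False := by
  have hnt := hirr.nt
  have hsol : Group.IsSolvable (Im G V) := range_solvable
  have hodd' : Odd (Nat.card (Im G V)) := odd_im hodd
  rcases exists_qp (Im G V) V hirr.range range_faithful with h | ⟨K, i1, i2, i3, ⟨S⟩⟩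
  · obtain ⟨M, W, hM, h1, h2, h3⟩ := h
    have D : Imp M W := ⟨h1, h2, h3⟩
    have h6 : M.index ≠ 0 := index_ne_zero_of_finite
    obtain ⟨i, _, hi2⟩ := pow_eq_prime_pow (w := Nat.card (W ((1 : Im G V) : _ ⧸ M))) (k := M.index) (a := 2)
      Nat.prime_three h6 (by rw [← D.card_V, hcard]; norm_num)
    have h7 : M.index ∣ 2 := Dvd.intro_left i hi2
    have h8 : Odd M.index := Odd.of_dvd_nat hodd' (index_dvd_card _)
    rcases (Nat.dvd_prime Nat.prime_two).1 h7 with h9 | h9
    · rw [index_eq_one] at h9
      exact hM.1 h9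
    · rw [h9] at h8
      exact absurd h8 (by decide)
  · have hq : Nat.card K ^ Module.finrank K V = 3 ^ 2 := by rw [← QP.card_V_eq, hcard]; norm_num
    have hm0 : Module.finrank K V ≠ 0 := (Module.finrank_pos (R := K) (M := V)).ne'
    obtain ⟨i, hi, hi2⟩ := pow_eq_prime_pow Nat.prime_three hm0 hq
    have hs : S.s = 1 := by
      by_contra hne
      obtain ⟨p, hp, hps⟩ := Nat.exists_prime_and_dvd hne
      obtain ⟨h1, h2⟩ := S.prime_dvd hp hps
      have h3 : p ∣ 2 := h2.trans (Dvd.intro_left i hi2)
      have h4 := (Nat.prime_dvd_prime_iff_eq hp Nat.prime_two).1 h3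
      exact S.odd_prime hodd' hp h1 h4
    have hi12 : i = 1 ∨ i = 2 := (Nat.dvd_prime Nat.prime_two).1 (Dvd.intro _ hi2)
    have hA : S.A.index = 1 := by
      have h1 := S.index_A_dvd Nat.prime_three hi
      have h2 : Odd S.A.index := Odd.of_dvd_nat hodd' (index_dvd_card _)
      rcases hi12 with rfl | rfl
      · exact Nat.dvd_one.1 h1
      · rcases (Nat.dvd_prime Nat.prime_two).1 h1 with h9 | h9
        · exact h9
        · rw [h9] at h2
          exact absurd h2 (by decide)
    rw [index_eq_one] at hA
    have hAU := S.eq_of_s_one hs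
    have hU : Nat.card S.U = 1 := by
      have h1 := S.card_U_dvd
      have h2 : Nat.card S.U ∣ 2 ^ 3 := by
        rcases hi12 with rfl | rfl
        · rw [hi] at h1
          exact h1.trans (by norm_num)
        · rw [hi] at h1
          exact h1.trans (by norm_num)
      obtain ⟨k, _, hk⟩ := (Nat.dvd_prime_pow Nat.prime_two).1 h2
      have h3 := odd_sub hodd' S.U
      rw [hk] at h3 ⊢
      rcases Nat.eq_zero_or_pos k with h4 | h4
      · rw [h4, pow_zero]
      · exfalso
        rw [← Nat.not_even_iff_odd] at h3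
        exact h3 (Nat.even_pow.2 ⟨even_two, h4.ne'⟩)
    have htriv : ∀ (g : Im G V) (x : V), g • x = x := by
      intro g x
      have h1 : g ∈ S.U := by rw [← hAU, hA]; exact mem_top g
      rw [card_eq_one] at hU
      rw [hU, mem_bot] at h1
      rw [h1, one_smul]
    obtain ⟨x, hx⟩ := exists_ne (0 : V)
    rcases hirr.range.irr (AddSubgroup.zmultiples x) (fun g y hy => by rwa [htriv]) with h | h
    · exact hx (AddSubgroup.zmultiples_eq_bot.1 h)
    · obtain ⟨p, hp, hpx⟩ := hirr.exists_prime
      have h1 : addOrderOf x = 9 := by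
        rw [← Nat.card_zmultiples, h, AddSubgroup.card_top, hcard]
      have h2 : addOrderOf x ∣ p := addOrderOf_dvd_of_nsmul_eq_zero (hpx x)
      rw [h1] at h2
      have h3 := (Nat.dvd_prime hp).1 h2
      rcases h3 with h3 | h3
      · norm_num at h3
      · rw [← h3] at hp
        norm_num at hp

/-- irreducible groups of odd order on `3^6` vectors -/
theorem odd_729 {G V : Type u} [Group G] [Finite G] [Group.IsSolvable G] [AddCommGroup V] [Finite V]
    [DistribMulAction G V] (hodd : Odd (Nat.card G)) (hirr : Irr G V) (hcard : Nat.card V = 3 ^ 6) :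
    Nat.card (Im G V) ≤ 6552 := by
  have hnt := hirr.nt
  have hsol : Group.IsSolvable (Im G V) := range_solvable
  have hodd' : Odd (Nat.card (Im G V)) := odd_im hodd
  rcases exists_qp (Im G V) V hirr.range range_faithful with h | ⟨K, i1, i2, i3, ⟨S⟩⟩
  · exfalso
    obtain ⟨M, W, hM, h1, h2, h3⟩ := h
    have D : Imp M W := ⟨h1, h2, h3⟩
    letI := resAct M (W ((1 : Im G V) : _ ⧸ M)) D.res_mem
    have h6 : M.index ≠ 0 := index_ne_zero_of_finite
    obtain ⟨i, hi, hi2⟩ := pow_eq_prime_pow (w := Nat.card (W ((1 : Im G V) : _ ⧸ M))) (k := M.index) (a := 6)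
      Nat.prime_three h6 (by rw [← hcard, D.card_V])
    have h7 : M.index ≤ 6 := Nat.le_of_dvd (by norm_num) (Dvd.intro_left i hi2)
    have h8 : Odd M.index := Odd.of_dvd_nat hodd' (index_dvd_card _)
    have h9 : M.index ≠ 1 := by
      rw [Ne, index_eq_one]
      exact hM.1
    have h10 : i = 2 := by
      generalize M.index = k at *
      interval_cases k
      · exact absurd rfl h6
      · exact absurd rfl h9
      · exact absurd h8 (by decide)
      · omega
      · exact absurd h8 (by decide)
      · omega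
      · exact absurd h8 (by decide)
    rw [h10] at hi
    exact odd_nine (odd_sub hodd' M) (D.irr_res hirr.range) (by rw [hi]; norm_num)
  · have hq : Nat.card K ^ Module.finrank K V = 3 ^ 6 := by rw [← QP.card_V_eq, hcard]
    have hm0 : Module.finrank K V ≠ 0 := (Module.finrank_pos (R := K) (M := V)).ne'
    obtain ⟨i, hi, hi2⟩ := pow_eq_prime_pow Nat.prime_three hm0 hq
    have hs : S.s = 1 := by
      by_contra hne
      obtain ⟨p, hp, hps⟩ := Nat.exists_prime_and_dvd hne
      obtain ⟨h1, h2⟩ := S.prime_dvd hp hps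
      have h3 : p ∣ 2 * 3 := h2.trans (Dvd.intro_left i hi2)
      have h5 := S.odd_prime hodd' hp h1
      rcases (Nat.Prime.dvd_mul hp).1 h3 with h4 | h4
      · exact h5 ((Nat.prime_dvd_prime_iff_eq hp Nat.prime_two).1 h4)
      · have h6 := (Nat.prime_dvd_prime_iff_eq hp Nat.prime_three).1 h4
        subst h6
        have h7 := h1.trans S.card_U_dvd
        have h8 : i ≠ 0 := by
          rintro rfl
          omega
        have h9 : 3 ∣ Nat.card K := by rw [hi]; exact dvd_pow_self 3 h8
        have h10 : 1 < Nat.card K := Finite.one_lt_card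
        omega
    have hE : S.E.relIndex S.A ≤ 1 := by
      have h1 : S.E = S.A := le_antisymm S.E_le_A (by rw [S.eq_of_s_one hs]; exact S.U_le_E)
      rw [h1, relIndex_self]
    have h1 := S.card_G_le hE
    rw [hs, mul_one, mul_one] at h1
    have h2 : Nat.card K ≤ 729 := by
      calc Nat.card K = Nat.card K ^ 1 := (pow_one _).symm
        _ ≤ Nat.card K ^ Module.finrank K V := Nat.pow_le_pow_right Nat.card_pos (by omega)
        _ = 729 := by rw [hq]; norm_num
    have h3 : Nat.log 2 (Nat.card K) ≤ 9 := by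
      have : Nat.log 2 (Nat.card K) < 10 := Nat.log_lt_of_lt_pow Nat.card_pos.ne' (by omega)
      omega
    calc Nat.card (Im G V) ≤ (Nat.card K - 1) * Nat.log 2 (Nat.card K) := h1
      _ ≤ 728 * 9 := Nat.mul_le_mul (by omega) h3
      _ = 6552 := by norm_num

/-- the numerical estimate for large `e` -/
theorem odd_num {e : ℕ} (he : 81 ≤ e) (h2 : ¬ 2 ∣ e) : e ^ (6 * om e + 9) ≤ 7 ^ (e - 6) := by
  have ho := odd_om (show e ≠ 0 by omega) h2
  by_cases h : om e ≤ 4
  · calc e ^ (6 * om e + 9) ≤ e ^ 33 := Nat.pow_le_pow_right (by omega) (by omega)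
      _ = 1 * e ^ 33 := (one_mul _).symm
      _ ≤ 7 ^ (e - 6) := growth (e₀ := 81) (by norm_num) (by norm_num) (by norm_num) (by norm_num) he
  · have key : ∀ a, 5 ≤ a → a * (6 * a + 9) ≤ 3 ^ a - 6 ∧ 6 * a + 9 ≤ 3 ^ a ∧ 6 ≤ 3 ^ a := by
      intro a ha
      induction ha with
      | refl => norm_num
      | @step a ha ih =>
        have ha' : 5 ≤ a := ha
        obtain ⟨h1, h3, h4⟩ := ih
        have h5 : 3 ^ (a + 1) = 3 * 3 ^ a := by ring
        refine ⟨?_, ?_, ?_⟩
        · have h7 : (a + 1) * (6 * (a + 1) + 9) + 6 ≤ 3 * (a * (6 * a + 9) + 6) := by nlinarith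
          change (a + 1) * (6 * (a + 1) + 9) ≤ 3 ^ (a + 1) - 6
          omega
        · omega
        · omega
    obtain ⟨h1, h3, h4⟩ := key (om e) (by omega)
    have h5 : 1 * e ^ (6 * om e + 9) ≤ 7 ^ (e - 6) := by
      refine growth (e₀ := 3 ^ om e) (by norm_num) h3 h4 ?_ ho
      rw [one_mul, ← pow_mul]
      calc 3 ^ (om e * (6 * om e + 9)) ≤ 7 ^ (om e * (6 * om e + 9)) := Nat.pow_le_pow_left (by norm_num) _
        _ ≤ 7 ^ (3 ^ om e - 6) := Nat.pow_le_pow_right (by norm_num) h1
    rwa [one_mul] at h5

namespace QP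

variable {K V G : Type u} [Field K] [Finite K] [AddCommGroup V] [Module K V] [Finite V] [Nontrivial V]
    [Group G] [Finite G] [DistribMulAction G V] (S : QP K V G)

include S in
/-- **Quasi-primitive groups of odd order.** -/
theorem odd_base [Group.IsSolvable G] (hodd : Odd (Nat.card G)) (hV2 : Odd (Nat.card V)) :
    ∃ v : V, Wtv G v 1 := by
  obtain ⟨e, he⟩ := S.exists_sq
  have hs0 := S.s_pos
  have he0 : 0 < e := by
    rcases Nat.eq_zero_or_pos e with h | h
    · rw [h] at he
      norm_num at he
      omega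
    · exact h
  set q := Nat.card K with hq
  set m := Module.finrank K V with hm
  have hq2 : 2 ≤ q := Finite.one_lt_card
  have hm0 : m ≠ 0 := (Module.finrank_pos (R := K) (M := V)).ne'
  have hV : Nat.card V = q ^ m := QP.card_V_eq
  have hqodd : Odd q := by
    rw [hV, Nat.odd_pow_iff hm0] at hV2
    exact hV2
  have hem : e ≤ m := by
    have h1 := S.s_le'
    rw [he] at h1
    exact (Nat.pow_le_pow_iff_left (by norm_num)).1 h1
  have hUodd := odd_sub hodd S.U
  have h2q : 2 ∣ q - 1 := by
    obtain ⟨k, hk⟩ := hqodd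
    exact ⟨k, by omega⟩
  have hprimes : ∀ r, r.Prime → r ∣ e → r ≠ 2 ∧ r ∣ q - 1 ∧ r ∣ m := by
    intro r hr hrs
    obtain ⟨h1, h2⟩ := S.prime_dvd hr (by rw [he, sq]; exact hrs.mul_left e)
    exact ⟨S.odd_prime hodd hr h1, h1.trans S.card_U_dvd, h2⟩
  have he2 : ¬ 2 ∣ e := fun h => (hprimes 2 Nat.prime_two h).1 rfl
  -- `|U| ≤ (q-1)/2`
  have hU2 : 2 * Nat.card S.U ≤ q - 1 := by
    have h1 : 2 * Nat.card S.U ∣ q - 1 := by
      refine Nat.Coprime.mul_dvd_of_dvd_of_dvd ?_ h2q S.card_U_dvd
      exact (Nat.coprime_two_left).2 hUodd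
    exact Nat.le_of_dvd (by omega) h1
  have hq7 : e ≠ 1 → 7 ≤ q := by
    intro he1
    obtain ⟨r, hr, hre⟩ := Nat.exists_prime_and_dvd he1
    obtain ⟨h1, h2, h3⟩ := hprimes r hr hre
    have h4 : 2 * r ∣ q - 1 := by
      refine Nat.Coprime.mul_dvd_of_dvd_of_dvd ?_ h2q h2
      exact (Nat.coprime_primes Nat.prime_two hr).2 (Ne.symm h1)
    have h5 := Nat.le_of_dvd (by omega) h4
    have h6 := hr.two_le
    omega
  by_cases hE1 : dser (⊤ : Subgroup G) 1 ≤ S.E
  · -- a vector with trivial stabiliser in `E`
    have key : ∃ v : V, ∀ x ∈ S.E, x • v = v → x = 1 := by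
      by_cases he1 : e = 1
      · have h1 : S.s = 1 := by rw [he, he1, one_pow]
        have h2 : S.E = S.U := by
          refine le_antisymm ?_ S.U_le_E
          rw [← S.eq_of_s_one h1]
          exact S.E_le_A
        obtain ⟨v, hv⟩ := exists_ne (0 : V)
        refine ⟨v, fun x hx hxv => ?_⟩
        by_contra hx1
        rw [h2] at hx
        exact hv (S.U_free hx hx1 hxv)
      · have hq7' := hq7 he1
        have he3 : 3 ≤ e := by
          by_contra hlt
          have : e = 2 := by omega
          exact he2 (this ▸ dvd_rfl)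
        have hcE : Nat.card S.E = Nat.card S.U * e ^ 2 := by
          rw [← he]
          have h2 := card_mul_index (S.U.subgroupOf S.E)
          rw [Nat.card_congr (subgroupOfEquivOfLe S.U_le_E).toEquiv] at h2
          exact h2.symm
        -- `|E|^3 ≤ |V|^2`
        have hbig : Nat.card S.E ^ 3 ≤ Nat.card V ^ 2 := by
          have h1 : (2 * Nat.card S.U) ^ 3 ≤ q ^ 3 := Nat.pow_le_pow_left (by omega) 3
          have h2 : e ^ 6 ≤ 8 * 7 ^ (2 * e - 3) := by
            clear * - he3
            induction e, he3 using Nat.le_induction with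
            | base => norm_num
            | succ e he ih =>
              have h3 : (e + 1) ^ 6 ≤ 49 * e ^ 6 := by
                have h4 : 3 * (e + 1) ≤ 4 * e := by omega
                have h5 : (3 * (e + 1)) ^ 6 ≤ (4 * e) ^ 6 := Nat.pow_le_pow_left h4 6
                rw [mul_pow, mul_pow] at h5
                norm_num at h5
                omega
              have h4 : 2 * (e + 1) - 3 = (2 * e - 3) + 2 := by omega
              rw [h4, pow_add]
              calc (e + 1) ^ 6 ≤ 49 * e ^ 6 := h3
                _ ≤ 49 * (8 * 7 ^ (2 * e - 3)) := Nat.mul_le_mul_left _ ih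
                _ = 8 * (7 ^ (2 * e - 3) * 7 ^ 2) := by ring
          have h3 : e ^ 6 ≤ 8 * q ^ (2 * e - 3) :=
            h2.trans (Nat.mul_le_mul_left _ (Nat.pow_le_pow_left hq7' _))
          have h4 : 8 * Nat.card S.E ^ 3 ≤ 8 * Nat.card V ^ 2 := by
            calc 8 * Nat.card S.E ^ 3 = (2 * Nat.card S.U) ^ 3 * e ^ 6 := by rw [hcE]; ring
              _ ≤ q ^ 3 * (8 * q ^ (2 * e - 3)) := Nat.mul_le_mul h1 h3
              _ = 8 * q ^ (2 * e) := by
                have h5 : 2 * e = 3 + (2 * e - 3) := by omega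
                rw [h5, pow_add, ← h5]
                ring
              _ ≤ 8 * q ^ (2 * m) := Nat.mul_le_mul_left _ (Nat.pow_le_pow_right (by omega) (by omega))
              _ = 8 * Nat.card V ^ 2 := by rw [hV, ← pow_mul, mul_comm m 2]
          omega
        refine exists_free S.E fun x hx hx1 => ?_
        have h1 : Nat.card (fx V x) ^ 3 ≤ Nat.card V := by
          by_cases hxU : x ∈ S.U
          · rw [S.fx_U hxU hx1, one_pow]
            exact Nat.card_pos
          · exact S.fx_E_odd hodd hx hxU
        have h2 : (Nat.card (fx V x) * Nat.card S.E) ^ 3 ≤ Nat.card V ^ 3 := by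
          calc (Nat.card (fx V x) * Nat.card S.E) ^ 3 = Nat.card (fx V x) ^ 3 * Nat.card S.E ^ 3 := mul_pow _ _ _
            _ ≤ Nat.card V * Nat.card V ^ 2 := Nat.mul_le_mul h1 hbig
            _ = Nat.card V ^ 3 := by ring
        exact (Nat.pow_le_pow_iff_left (by norm_num)).1 h2
    obtain ⟨v, hv⟩ := key
    refine ⟨v, fun g hg x => ?_⟩
    have h1 : g ∈ S.E := hE1 (dser_mono le_top 1 hg)
    have h2 : g • v = v := dser_le _ 1 hg
    rw [hv g h1 h2, one_smul]
  · -- a chief factor with a nonabelian action
    obtain ⟨N, hN, hN1⟩ : ∃ N ∈ S.Mn, ¬ dser (⊤ : Subgroup G) 1 ≤ cenMod S.U N := by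
      by_contra hcon
      push Not at hcon
      exact hE1 (S.dser_le_E le_rfl hcon)
    obtain ⟨X, i1, i2, i3, hXirr, hXc, hX⟩ := S.mn_mod hN
    have hXDL : ¬ DL G X 1 := by rwa [DL.iff_le hX]
    obtain ⟨hns, hn1⟩ := S.relIndex_mn hN
    rw [he] at hns
    obtain ⟨f, hf⟩ := S.mn_sq hN
    rw [hf] at hns hXc hn1
    have hfe : f ∣ e := (Nat.pow_dvd_pow_iff (by norm_num)).1 hns
    have hf1 : f ≠ 1 := by
      rintro rfl
      norm_num at hn1
    have he1 : e ≠ 1 := by
      rintro rfl
      exact hf1 (Nat.dvd_one.1 hfe)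
    have hq7' := hq7 he1
    -- `f` is a prime power
    obtain ⟨r, j, hr', hj0, hrj⟩ := hXirr.isPrimePow
    have hr := hr'.nat_prime
    rw [hXc] at hrj
    have hfr : ∃ k, f = r ^ k ∧ k * 2 = j := pow_eq_prime_pow hr (by norm_num) hrj.symm
    obtain ⟨k, hfk, hkj⟩ := hfr
    have hj4 : ¬ j ∣ 4 := fun h => hXDL (odd_dl hodd hXirr hr (by rw [hXc, hrj]) h)
    have hk3 : 3 ≤ k := by
      by_contra hlt
      push Not at hlt
      have : k = 1 ∨ k = 2 := by omega
      rcases this with h | h
      · exact hj4 (by rw [← hkj, h]; norm_num)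
      · exact hj4 (by rw [← hkj, h])
    have hre : r ∣ e := (by rw [hfk]; exact dvd_pow_self r (by omega) : r ∣ f).trans hfe
    have hr3 : 3 ≤ r := by
      have h1 := hr.two_le
      have h2 := (hprimes r hr hre).1
      omega
    have hcases : (e = 27 ∧ f = 27) ∨ 81 ≤ e := by
      by_cases h81 : 81 ≤ e
      · exact Or.inr h81
      left
      have hfle : f ≤ e := Nat.le_of_dvd he0 hfe
      have hr4 : r = 3 := by
        by_contra hne
        have h4 : r ≠ 4 := by
          rintro rfl
          norm_num at hr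
        have h5 : 5 ^ 3 ≤ r ^ k :=
          (Nat.pow_le_pow_left (by omega) 3).trans (Nat.pow_le_pow_right (by omega) hk3)
        rw [← hfk] at h5
        omega
      subst hr4
      have hk : k = 3 := by
        by_contra hne
        have h5 : 3 ^ 4 ≤ 3 ^ k := Nat.pow_le_pow_right (by norm_num) (by omega)
        rw [← hfk] at h5
        omega
      rw [hk] at hfk
      norm_num at hfk
      rw [hfk] at hfe
      obtain ⟨c, hc⟩ := hfe
      refine ⟨?_, hfk⟩
      have : c ≠ 2 := by
        rintro rfl
        apply he2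
        rw [hc]
        norm_num
      have : c ≠ 0 := by
        rintro rfl
        omega
      omega
    -- it is enough that `|G|^3 ≤ |V|`
    have fin : Nat.card G ^ 3 ≤ Nat.card V → ∃ v : V, Wtv G v 1 := by
      intro hG
      obtain ⟨v, hv⟩ := exists_free (V := V) (⊤ : Subgroup G) fun x _ hx1 => by
        have h1 := S.fx_le_odd hodd hx1
        have h2 : (Nat.card (fx V x) * Nat.card (⊤ : Subgroup G)) ^ 3 ≤ Nat.card V ^ 3 := by
          rw [Subgroup.card_top]
          calc (Nat.card (fx V x) * Nat.card G) ^ 3 = Nat.card (fx V x) ^ 3 * Nat.card G ^ 3 := mul_pow _ _ _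
            _ ≤ Nat.card V ^ 2 * Nat.card V := Nat.mul_le_mul h1 hG
            _ = Nat.card V ^ 3 := by ring
        exact (Nat.pow_le_pow_iff_left (by norm_num)).1 h2
      refine ⟨v, fun g hg x => ?_⟩
      rw [hv g (mem_top g) (dser_le _ 1 hg), one_smul]
    apply fin
    rcases hcases with ⟨h27, hf27⟩ | h81
    · -- `e = 27`
      have h729 : Nat.card (Im G X) ≤ 6552 := odd_729 hodd hXirr (by rw [hXc, hf27]; norm_num)
      rw [card_im hX] at h729
      have hNE : N = S.E := by
        have h1 : S.U.relIndex N * N.relIndex S.E = S.s := relIndex_mul_relIndex _ _ _ hN.2.1.le (S.Mn_le_E hN)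
        rw [hf, he, h27, hf27] at h1
        have h2 : N.relIndex S.E = 1 := by omega
        rw [relIndex_eq_one] at h2
        exact le_antisymm (S.Mn_le_E hN) h2
      have hEA : S.E.relIndex S.A ≤ 6552 := by
        have h1 : S.E.relIndex S.A = (cenMod S.U N).relIndex S.A := by
          conv_lhs => rw [← S.cenMod_E_inf_A]
          rw [inf_relIndex_right, hNE]
        have hNn := hN.1
        have : (cenMod S.U N).Normal := by
          rw [cenMod]
          have : (N.map (QuotientGroup.mk' S.U)).Normal :=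
            Normal.map inferInstance _ (QuotientGroup.mk'_surjective S.U)
          infer_instance
        rw [h1]
        refine (Nat.le_of_dvd ?_ (relIndex_dvd_index_of_normal _ _)).trans h729
        exact Nat.pos_of_ne_zero index_ne_zero_of_finite
      have hG : 2 * Nat.card G ≤ (q - 1) * 27 ^ 2 * 6552 * Nat.log 2 q := by
        rw [S.card_G_eq, he, h27]
        calc 2 * (Nat.card S.U * 27 ^ 2 * S.E.relIndex S.A * S.A.index)
            = (2 * Nat.card S.U) * 27 ^ 2 * S.E.relIndex S.A * S.A.index := by ring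
          _ ≤ (q - 1) * 27 ^ 2 * 6552 * Nat.log 2 q :=
            Nat.mul_le_mul (Nat.mul_le_mul (Nat.mul_le_mul_right _ hU2) hEA) S.index_A_le
      have hG9 : Nat.card G ≤ q ^ 9 := by
        by_cases h7 : q = 7
        · have h5 : Nat.log 2 7 = 2 := by rw [Nat.log_eq_iff] <;> norm_num
          rw [h7, h5] at hG
          rw [h7]
          norm_num at hG ⊢
          omega
        · have h9 : 9 ≤ q := by
            obtain ⟨k, hk⟩ := hqodd
            omega
          have h1 : 9 ^ 7 ≤ q ^ 7 := Nat.pow_le_pow_left h9 7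
          have h2 : 2 * Nat.card G ≤ 2 * q ^ 9 := by
            calc 2 * Nat.card G ≤ (q - 1) * 27 ^ 2 * 6552 * Nat.log 2 q := hG
              _ ≤ q * 27 ^ 2 * 6552 * q := Nat.mul_le_mul (Nat.mul_le_mul_right _ (Nat.mul_le_mul_right _ (Nat.sub_le _ _)))
                  (Nat.log_le_self 2 q)
              _ = q ^ 2 * (27 ^ 2 * 6552) := by ring
              _ ≤ q ^ 2 * (2 * q ^ 7) := Nat.mul_le_mul_left _ (by norm_num at h1 ⊢; omega)
              _ = 2 * q ^ 9 := by ring
          omega
      rw [hV]
      calc Nat.card G ^ 3 ≤ (q ^ 9) ^ 3 := Nat.pow_le_pow_left hG9 3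
        _ = q ^ 27 := by ring
        _ ≤ q ^ m := Nat.pow_le_pow_right (by omega) (by omega)
    · -- large `e`
      have hrel : S.E.relIndex S.A ≤ e ^ (2 * om e + 1) := by
        have h1 := S.relIndex_E_A
        rw [he, om_sq he0.ne'] at h1
        have h2 : (e ^ 2) ^ (2 * om e + 1) = (e ^ (2 * om e + 1)) ^ 2 := by ring
        rw [h2] at h1
        exact (Nat.pow_le_pow_iff_left (by norm_num)).1 h1
      have hG := S.card_G_le hrel
      rw [he, ← hq] at hG
      have h1 := odd_num h81 he2
      rw [hV]
      calc Nat.card G ^ 3 ≤ ((q - 1) * e ^ 2 * e ^ (2 * om e + 1) * Nat.log 2 q) ^ 3 := Nat.pow_le_pow_left hG 3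
        _ ≤ (q * e ^ 2 * e ^ (2 * om e + 1) * q) ^ 3 := Nat.pow_le_pow_left (Nat.mul_le_mul (Nat.mul_le_mul_right _
            (Nat.mul_le_mul_right _ (Nat.sub_le _ _))) (Nat.log_le_self 2 q)) 3
        _ = q ^ 6 * e ^ (6 * om e + 9) := by ring
        _ ≤ q ^ 6 * q ^ (e - 6) := Nat.mul_le_mul_left _ (h1.trans (Nat.pow_le_pow_left hq7' _))
        _ = q ^ e := by
            rw [← pow_add]
            congr 1
            omega
        _ ≤ q ^ m := Nat.pow_le_pow_right (by omega) hem

end QP

end Cfsg.Agent.H511.Wt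
end

-- part: H511/Wt/Semi
section
/-!
# Transitive solvable linear groups have derived length at most five
-/

set_option autoImplicit false
set_option linter.style.haveILetI false
set_option linter.unusedSectionVars false

namespace Cfsg.Agent.H511.Wt

open Subgroup
open scoped Pointwise commutatorElement

universe u

theorem ringAut_comm {F : Type*} [Field F] [Finite F] (σ τ : F ≃+* F) (x : F) : σ (τ x) = τ (σ x) := by
  by_cases hx : x = 0
  · simp [hx]
  obtain ⟨ζ, hζ⟩ := IsCyclic.exists_generator (α := Fˣ)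
  have key : ∀ y : F, y ≠ 0 → ∃ k : ℤ, y = (ζ : F) ^ k := by
    intro y hy
    obtain ⟨k, hk⟩ := mem_zpowers_iff.1 (hζ (Units.mk0 y hy))
    refine ⟨k, ?_⟩
    have := congrArg (fun u : Fˣ => (u : F)) hk
    simp only [Units.val_mk0] at this
    rw [← this, Units.val_zpow_eq_zpow_val]
  have hζ0 : (ζ : F) ≠ 0 := ζ.ne_zero
  obtain ⟨i, hi⟩ := key (σ ζ) (by rwa [Ne, map_eq_zero_iff σ σ.injective])
  obtain ⟨j, hj⟩ := key (τ ζ) (by rwa [Ne, map_eq_zero_iff τ τ.injective])
  obtain ⟨k, rfl⟩ := key x hx
  rw [map_zpow₀, map_zpow₀, map_zpow₀, map_zpow₀]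
  congr 1
  rw [hj, hi, map_zpow₀, map_zpow₀, hi, hj, ← zpow_mul, ← zpow_mul, mul_comm]

theorem dser_semi {G V F : Type*} [Group G] [AddCommGroup V] [DistribMulAction G V] [Field F] [Finite F]
    (e : V ≃+ F) (h : ∀ g : G, ∃ (a : F) (σ : F ≃+* F), ∀ v : V, e (g • v) = a * σ (e v)) : DL G V 2 := by
  let Mu : Subgroup G :=
    { carrier := {g | ∃ a : F, ∀ v : V, e (g • v) = a * e v}
      mul_mem' := by
        rintro g k ⟨a, ha⟩ ⟨b, hb⟩
        refine ⟨a * b, fun v => ?_⟩
        rw [mul_smul, ha, hb, mul_assoc]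
      one_mem' := ⟨1, fun v => by rw [one_smul, one_mul]⟩
      inv_mem' := by
        rintro g ⟨a, ha⟩
        refine ⟨a⁻¹, fun v => ?_⟩
        have h1 := ha (g⁻¹ • v)
        rw [smul_inv_smul] at h1
        by_cases ha0 : a = 0
        · have hv : ∀ v : V, e v = 0 := by
            intro v
            have := ha (g⁻¹ • v)
            rwa [smul_inv_smul, ha0, zero_mul] at this
          rw [hv, hv, mul_zero]
        · rw [h1, inv_mul_cancel_left₀ ha0] }
  have h1 : dser (⊤ : Subgroup G) 1 ≤ Mu := by
    change ⁅(⊤ : Subgroup G), ⊤⁆ ≤ _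
    rw [commutator_le]
    intro g _ k _
    obtain ⟨a, σ, hg⟩ := h g
    obtain ⟨b, τ, hk⟩ := h k
    -- `k g` is never zero
    refine ⟨a * σ b / (b * τ a), fun w => ?_⟩
    have h2 : ⁅g, k⁆ = (g * k) * (k * g)⁻¹ := by rw [commutatorElement_def]; group
    obtain ⟨v, rfl⟩ : ∃ v, w = (k * g) • v := ⟨(k * g)⁻¹ • w, (smul_inv_smul _ _).symm⟩
    rw [h2, mul_smul, inv_smul_smul, mul_smul, mul_smul, hg, hk, hk, hg, map_mul, map_mul, ringAut_comm σ τ]
    by_cases hb : b = 0
    · rw [hb, map_zero]
      ring
    by_cases ha : a = 0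
    · rw [ha, map_zero]
      ring
    have ha' : τ a ≠ 0 := by rwa [Ne, map_eq_zero_iff τ τ.injective]
    field_simp
  intro g hg x
  have h2 : ∀ g ∈ dser Mu 1, ∀ x : V, g • x = x := by
    have h3 : dser Mu 1 ≤ (MulAction.toPermHom G V).ker := by
      change ⁅Mu, Mu⁆ ≤ _
      rw [commutator_le]
      rintro g ⟨a, ha⟩ k ⟨b, hb⟩
      rw [MonoidHom.mem_ker, map_commutatorElement, commutatorElement_eq_one_iff_mul_comm]
      apply Equiv.ext
      intro v
      change g • k • v = k • g • v
      apply e.injective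
      rw [ha, hb, hb, ha]
      ring
    intro g hg x
    exact congrArg (fun f : Equiv.Perm V => f x) (h3 hg)
  have h3 : g ∈ dser (dser (⊤ : Subgroup G) 1) 1 := by rw [dser_dser]; exact hg
  exact h2 g (dser_mono h1 1 h3) x

/-- **Transitive solvable linear groups.** -/
theorem dl_transitive {G V : Type u} [Group G] [Finite G] [Group.IsSolvable G] [AddCommGroup V] [Finite V]
    [DistribMulAction G V] (hirr : Irr G V) (hf : ∀ g : G, (∀ v : V, g • v = v) → g = 1)
    (ht : ∀ v w : V, v ≠ 0 → w ≠ 0 → ∃ g : G, g • v = w) : DL G V 5 := by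
  obtain ⟨p, hp, hpx⟩ := hirr.exists_prime
  haveI : Fact p.Prime := ⟨hp⟩
  have hnt := hirr.nt
  obtain ⟨inst⟩ : Nonempty (Module (ZMod p) V) := ⟨AddCommGroup.zmodModule hpx⟩
  -- the linear action
  let ρ : G →* (V ≃ₗ[ZMod p] V) :=
    { toFun := fun g =>
        { (DistribMulAction.toAddEquiv V g) with
          map_smul' := fun c x => by
            change g • (c • x) = c • (g • x)
            exact ZMod.map_smul (DistribSMul.toAddMonoidHom V g) c x }
      map_one' := by
        apply LinearEquiv.ext
        intro x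
        exact one_smul G x
      map_mul' := fun a b => by
        apply LinearEquiv.ext
        intro x
        exact mul_smul a b x }
  have hρ : ∀ g x, ρ g x = g • x := fun g x => rfl
  rcases Cfsg.Agent.S3360.result p (V := V) (G := G) inferInstance ρ (by
    rw [injective_iff_map_eq_one]
    intro g hg
    apply hf
    intro v
    rw [← hρ, hg]
    rfl) ht with ⟨F, i1, i2, e, he⟩ | h
  · exact (dser_semi e fun g => he g).mono (by norm_num)
  · have key : DLn.{u} (Nat.card V) 5 := by
      rcases h with h | h | h | h | h | h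
      · rw [h]; exact (dln 9 (by norm_num)).mono (by decide)
      · rw [h]; exact (dln 25 (by norm_num)).mono (by decide)
      · rw [h]; exact (dln 49 (by norm_num)).mono (by decide)
      · rw [h]; exact (dln_prime_sq (p := 11) (by norm_num)).mono (by norm_num)
      · rw [h]; exact (dln_prime_sq (p := 23) (by norm_num)).mono (by norm_num)
      · rw [h]; exact dln_81
    exact key G V hirr rfl

end Cfsg.Agent.H511.Wt
end

-- part: H511/Wt/Base
section
/-!
# The types of the quasi-primitive groups
-/

set_option autoImplicit false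
set_option linter.style.haveILetI false
set_option linter.unusedSectionVars false
set_option exponentiation.threshold 2000

namespace Cfsg.Agent.H511.Wt

open Subgroup
open scoped Pointwise commutatorElement

universe u

section smooth

/-- all prime divisors are at most `3` -/
def Sm (n : ℕ) : Prop := ∀ r, r.Prime → r ∣ n → r ≤ 3

theorem Sm.eq {n : ℕ} (h : Sm n) (hn : n ≠ 0) : ∃ a b, n = 2 ^ a * 3 ^ b := by
  obtain ⟨a, n', h1, h2⟩ := Nat.exists_eq_pow_mul_and_not_dvd hn 2 (by norm_num)
  have hn' : n' ≠ 0 := by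
    rintro rfl
    exact h1 (dvd_zero 2)
  obtain ⟨b, n'', h3, h4⟩ := Nat.exists_eq_pow_mul_and_not_dvd hn' 3 (by norm_num)
  refine ⟨a, b, ?_⟩
  have h5 : n'' = 1 := by
    by_contra hne
    obtain ⟨r, hr, hrd⟩ := Nat.exists_prime_and_dvd hne
    have h6 : r ∣ n' := by rw [h4]; exact hrd.mul_left _
    have h7 : r ∣ n := by rw [h2]; exact h6.mul_left _
    have h8 := h r hr h7
    have h9 := hr.two_le
    obtain rfl | rfl : r = 2 ∨ r = 3 := by omega
    · exact h1 h6
    · exact h3 hrd
  rw [h2, h4, h5, mul_one]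

theorem Sm.dvd {n : ℕ} (h : Sm n) (hn : n ≠ 0) (hb : n < 2 ^ 19) : n ∣ 2 ^ 18 * 3 ^ 11 := by
  obtain ⟨a, b, rfl⟩ := h.eq hn
  have h1 : 0 < 3 ^ b := by positivity
  have h2 : 0 < 2 ^ a := by positivity
  have ha : a ≤ 18 := by
    by_contra hlt
    push Not at hlt
    have h3 : 2 ^ 19 ≤ 2 ^ a := Nat.pow_le_pow_right (by norm_num) hlt
    have h4 : 2 ^ a * 1 ≤ 2 ^ a * 3 ^ b := Nat.mul_le_mul_left _ h1
    omega
  have hb' : b ≤ 11 := by
    by_contra hlt
    push Not at hlt
    have h3 : 3 ^ 12 ≤ 3 ^ b := Nat.pow_le_pow_right (by norm_num) hlt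
    have h4 : 1 * 3 ^ b ≤ 2 ^ a * 3 ^ b := Nat.mul_le_mul_right _ h2
    omega
  exact Nat.mul_dvd_mul (Nat.pow_dvd_pow 2 ha) (Nat.pow_dvd_pow 3 hb')

theorem smooth_sum {N : ℕ} (hN : N < 2 ^ 19)
    (hdec : ∀ a < 19, ∀ b < 12, 2 ^ a * 3 ^ b < N → ¬ (N - 2 ^ a * 3 ^ b) ∣ 2 ^ 18 * 3 ^ 11) {x y : ℕ}
    (hx : Sm x) (hy : Sm y) (hx0 : x ≠ 0) (hy0 : y ≠ 0) : x + y ≠ N := by
  intro h
  have hx1 : x < N := by omega
  have h1 := hy.dvd hy0 (by omega)
  obtain ⟨a, b, hab⟩ := hx.eq hx0
  have hpa : 0 < 2 ^ a := by positivity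
  have hpb : 0 < 3 ^ b := by positivity
  have ha : a < 19 := by
    by_contra hlt
    push Not at hlt
    have h3 : 2 ^ 19 ≤ 2 ^ a := Nat.pow_le_pow_right (by norm_num) hlt
    have h4 : 2 ^ a * 1 ≤ 2 ^ a * 3 ^ b := Nat.mul_le_mul_left _ hpb
    omega
  have hb : b < 12 := by
    by_contra hlt
    push Not at hlt
    have h3 : 3 ^ 12 ≤ 3 ^ b := Nat.pow_le_pow_right (by norm_num) hlt
    have h4 : 1 * 3 ^ b ≤ 2 ^ a * 3 ^ b := Nat.mul_le_mul_right _ hpa
    omega
  have h2 := hdec a ha b hb (by omega)
  rw [← hab] at h2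
  have h3 : N - x = y := by omega
  rw [h3] at h2
  exact h2 h1

end smooth

section orbits

variable {G V : Type*} [Group G] [Finite G] [AddCommGroup V] [Finite V] [DistribMulAction G V]

theorem card_orbit_dvd (v : V) : Nat.card (MulAction.orbit G v) ∣ Nat.card G := by
  have := MulAction.index_stabilizer G v
  rw [Nat.card_coe_set_eq, ← this]
  exact index_dvd_card _

/-- if there are no three inequivalent nonzero vectors then `|V| - 1` is the sum of at most two orbit lengths -/
theorem three_orbits (hG : Sm (Nat.card G)) (h1 : ¬ Sm (Nat.card V - 1))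
    (h2 : ∀ x y, Sm x → Sm y → x ≠ 0 → y ≠ 0 → x + y ≠ Nat.card V - 1) (hnt : 1 < Nat.card V) :
    ∃ v : Fin 3 → V, (∀ i, v i ≠ 0) ∧ ∀ i j, i ≠ j → ∀ g : G, g • v i ≠ v j := by
  classical
  have hsm : ∀ v : V, Sm (MulAction.orbit G v).ncard := by
    intro v r hr hd
    exact hG r hr (hd.trans (by rw [← Nat.card_coe_set_eq]; exact card_orbit_dvd v))
  have hpos : ∀ v : V, (MulAction.orbit G v).ncard ≠ 0 := by
    intro v
    rw [← Nat.pos_iff_ne_zero, Set.ncard_pos]
    exact MulAction.nonempty_orbit v
  set T : Set V := {v | v ≠ 0} with hT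
  have hTc : T.ncard = Nat.card V - 1 := by
    have h3 : T = {(0 : V)}ᶜ := rfl
    rw [h3, Set.ncard_compl, Set.ncard_singleton]
  have hsub : ∀ v : V, v ≠ 0 → MulAction.orbit G v ⊆ T := by
    rintro v hv _ ⟨g, rfl⟩
    change g • v ≠ 0
    rwa [Ne, smul_eq_zero_iff_eq]
  obtain ⟨a, ha⟩ : T.Nonempty := by
    rw [← Set.ncard_pos, hTc]
    omega
  obtain ⟨b, hbT, hb⟩ : ∃ b ∈ T, b ∉ MulAction.orbit G a := by
    by_contra hcon
    push Not at hcon
    have h3 : T = MulAction.orbit G a := Set.Subset.antisymm hcon (hsub a ha)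
    apply h1
    rw [← hTc, h3]
    exact hsm a
  obtain ⟨c, hcT, hc⟩ : ∃ c ∈ T, c ∉ MulAction.orbit G a ∪ MulAction.orbit G b := by
    by_contra hcon
    push Not at hcon
    have h3 : T = MulAction.orbit G a ∪ MulAction.orbit G b :=
      Set.Subset.antisymm hcon (Set.union_subset (hsub a ha) (hsub b hbT))
    have h4 : Disjoint (MulAction.orbit G a) (MulAction.orbit G b) := by
      rw [Set.disjoint_left]
      rintro _ ⟨g, rfl⟩ ⟨k, hk⟩
      apply hb
      refine ⟨k⁻¹ * g, ?_⟩
      change (k⁻¹ * g) • a = b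
      rw [mul_smul, inv_smul_eq_iff]
      exact hk.symm
    refine h2 _ _ (hsm a) (hsm b) (hpos a) (hpos b) ?_
    rw [← hTc, h3, Set.ncard_union_eq h4]
  have key : ∀ x y : V, y ∉ MulAction.orbit G x → ∀ g : G, g • x ≠ y ∧ g • y ≠ x := by
    intro x y hxy g
    refine ⟨fun h => hxy ⟨g, h⟩, fun h => hxy ⟨g⁻¹, ?_⟩⟩
    change g⁻¹ • x = y
    rw [inv_smul_eq_iff, h]
  have hca : c ∉ MulAction.orbit G a := fun h => hc (Or.inl h)
  have hcb : c ∉ MulAction.orbit G b := fun h => hc (Or.inr h)
  refine ⟨![a, b, c], ?_, ?_⟩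
  · intro i
    fin_cases i
    · exact ha
    · exact hbT
    · exact hcT
  · intro i j hij g
    fin_cases i <;> fin_cases j
    · exact absurd rfl hij
    · exact (key a b hb g).1
    · exact (key a c hca g).1
    · exact (key a b hb g).2
    · exact absurd rfl hij
    · exact (key b c hcb g).1
    · exact (key a c hca g).2
    · exact (key b c hcb g).2
    · exact absurd rfl hij

theorem nonzero_ncard : ({v : V | v ≠ 0} : Set V).ncard = Nat.card V - 1 := by
  classical
  have h3 : ({v : V | v ≠ 0} : Set V) = {(0 : V)}ᶜ := rfl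
  rw [h3, Set.ncard_compl, Set.ncard_singleton]

/-- the zero vector together with nonzero ones -/
theorem orb_cons {n d : ℕ} (h0 : Wtv G (0 : V) d)
    (h : ∃ v : Fin n → V, (∀ i, v i ≠ 0 ∧ Wtv G (v i) d) ∧ ∀ i j, i ≠ j → ∀ g : G, g • v i ≠ v j) :
    Orb G V (n + 1) d := by
  obtain ⟨v, hv, hvv⟩ := h
  refine ⟨Fin.cons 0 v, ?_, ?_⟩
  · intro i j
    refine Fin.cases ?_ (fun i => ?_) i
    · refine Fin.cases ?_ (fun j => ?_) j
      · intro h
        exact absurd rfl h
      · intro _ g hg
        simp only [Fin.cons_zero, Fin.cons_succ, smul_zero] at hg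
        exact (hv j).1 hg.symm
    · refine Fin.cases ?_ (fun j => ?_) j
      · intro _ g hg
        simp only [Fin.cons_zero, Fin.cons_succ, smul_eq_zero_iff_eq] at hg
        exact (hv i).1 hg
      · intro hij g hg
        simp only [Fin.cons_succ] at hg
        exact hvv i j (fun h => hij (by rw [h])) g hg
  · intro i
    refine Fin.cases ?_ (fun i => ?_) i
    · exact h0
    · exact (hv i).2

end orbits

/-- the sizes of the chief factors below `E` for small `e` -/
theorem dln5 {e n : ℕ} (he : e ≤ 16 ∨ e = 32) (he0 : 0 < e) (hn : n ∣ e ^ 2) (h64 : n ≠ 64) (hpp : IsPrimePow n) :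
    DLn.{u} n 5 := by
  by_cases h63 : n ≤ 63
  · refine (dln n (by omega)).mono ?_
    have h1 := gB_mono h63
    have h2 : gB 63 = 4 := by decide
    omega
  have key : n = 81 ∨ n = 121 ∨ n = 128 ∨ n = 169 ∨ n = 256 ∨ n = 512 ∨ n = 1024 ∨
      (2 ∣ n ∧ 3 ∣ n) ∨ (2 ∣ n ∧ 5 ∣ n) ∨ (2 ∣ n ∧ 7 ∣ n) ∨ (3 ∣ n ∧ 5 ∣ n) := by
    obtain ⟨k, hk⟩ := hn
    rcases he with he | rfl
    · interval_cases e
      all_goals
        have hk' : k ≤ 4 := by
          by_contra hlt
          push Not at hlt
          have : 64 * 5 ≤ n * k := Nat.mul_le_mul (by omega) hlt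
          omega
        interval_cases k <;> omega
    · have hk' : k ≤ 15 := by
        by_contra hlt
        push Not at hlt
        have : 65 * 16 ≤ n * k := Nat.mul_le_mul (by omega) hlt
        omega
      interval_cases k <;> omega
  have notpp : ∀ p q : ℕ, p.Prime → q.Prime → p ≠ q → p ∣ n → q ∣ n → False := by
    intro p q hp hq hpq h1 h2
    obtain ⟨r, k, hr, hk, rfl⟩ := hpp
    have h3 := (Nat.prime_dvd_prime_iff_eq hp hr.nat_prime).1 (hp.dvd_of_dvd_pow h1)
    have h4 := (Nat.prime_dvd_prime_iff_eq hq hr.nat_prime).1 (hq.dvd_of_dvd_pow h2)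
    exact hpq (h3.trans h4.symm)
  rcases key with h | h | h | h | h | h | h | h | h | h | h
  · rw [h]; exact dln_81
  · rw [h]; exact (dln_prime_sq (p := 11) (by norm_num)).mono (by norm_num)
  · rw [h]; exact dln_128
  · rw [h]; exact (dln_prime_sq (p := 13) (by norm_num)).mono (by norm_num)
  · rw [h]; exact dln_256
  · rw [h]; exact dln_512
  · rw [h]; exact dln_1024
  · exact (notpp 2 3 (by norm_num) (by norm_num) (by norm_num) h.1 h.2).elim
  · exact (notpp 2 5 (by norm_num) (by norm_num) (by norm_num) h.1 h.2).elim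
  · exact (notpp 2 7 (by norm_num) (by norm_num) (by norm_num) h.1 h.2).elim
  · exact (notpp 3 5 (by norm_num) (by norm_num) (by norm_num) h.1 h.2).elim

end Cfsg.Agent.H511.Wt
end

-- part: H511/Wt/BaseTy
section
/-!
# The types of the quasi-primitive groups
-/

set_option autoImplicit false
set_option linter.style.haveILetI false
set_option linter.unusedSectionVars false
set_option exponentiation.threshold 2000

namespace Cfsg.Agent.H511.Wt

open Subgroup
open scoped Pointwise commutatorElement

universe u

namespace QP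

variable {K V G : Type u} [Field K] [Finite K] [AddCommGroup V] [Module K V] [Finite V] [Nontrivial V]
    [Group G] [Finite G] [DistribMulAction G V] (S : QP K V G)

theorem wt_zero [Group.IsSolvable G] {k : ℕ} (hk : dser (⊤ : Subgroup G) k ≤ S.E) : Wtv G (0 : V) (k + 2) := by
  intro g hg x
  have h1 := dser_mono (le_top (a := MulAction.stabilizer G (0 : V))) (k + 2) hg
  rw [S.dser_top_eq_bot hk, mem_bot] at h1
  rw [h1, one_smul]

/-- many inequivalent nonzero vectors -/
theorem orb_nonzero [Group.IsSolvable G] {k n : ℕ} (hk : dser (⊤ : Subgroup G) k ≤ S.E)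
    (hn : n * Nat.card G < Nat.card V - 1) : Orb G V (n + 1) (k + 1) := by
  rw [← nonzero_ncard] at hn
  obtain ⟨v, hv, hvv⟩ := exists_ineq (G := G) _ n hn
  exact ⟨v, hvv, fun i => S.wt_of_dser hk (hv i)⟩

include S in
/-- the quasi-primitive groups are of one of the four types -/
theorem ty [Group.IsSolvable G] (hirr : Irr G V) : Ty G V := by
  obtain ⟨e, he⟩ := S.exists_sq
  have hs0 := S.s_pos
  have he0 : 0 < e := by
    rcases Nat.eq_zero_or_pos e with h | h
    · rw [h] at he
      norm_num at he
      omega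
    · exact h
  set q := Nat.card K with hq
  set m := Module.finrank K V with hm
  have hq2 : 2 ≤ q := Finite.one_lt_card
  have hV : Nat.card V = q ^ m := QP.card_V_eq
  have hem : e ≤ m := by
    have h1 := S.s_le'
    rw [he] at h1
    exact (Nat.pow_le_pow_iff_left (by norm_num)).1 h1
  have hprimes : ∀ r, r.Prime → r ∣ e → r ∣ q - 1 ∧ r ∣ m := by
    intro r hr hrs
    obtain ⟨h1, h2⟩ := S.prime_dvd hr (by rw [he, sq]; exact hrs.mul_left e)
    exact ⟨h1.trans S.card_U_dvd, h2⟩
  have hrel : S.E.relIndex S.A ≤ e ^ (2 * om e + 1) := by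
    have h1 := S.relIndex_E_A
    rw [he, om_sq he0.ne'] at h1
    have h2 : (e ^ 2) ^ (2 * om e + 1) = (e ^ (2 * om e + 1)) ^ 2 := by ring
    rw [h2] at h1
    exact (Nat.pow_le_pow_iff_left (by norm_num)).1 h1
  have hG : Nat.card G ≤ (q - 1) * e ^ 2 * e ^ (2 * om e + 1) * Nat.log 2 q := by
    have h1 := S.card_G_le hrel
    rwa [he] at h1
  by_cases h513 : 513 ≤ e
  · -- regular orbits
    have hq3 : 3 ≤ q := by
      obtain ⟨r, hr, hre⟩ := Nat.exists_prime_and_dvd (show e ≠ 1 by omega)
      have h1 := Nat.le_of_dvd (by omega) (hprimes r hr hre).1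
      have h2 := hr.two_le
      omega
    have h1 : (2 * Nat.card G) ^ 4 ≤ Nat.card V := by
      rw [hV]
      exact (Nat.pow_le_pow_left (Nat.mul_le_mul_left _ hG) 4).trans (numA hq3 h513 hem)
    exact Or.inr (Or.inr (Or.inr ((orb_regular (fun x hx => S.fx_le hx) h1).mono le_rfl (by norm_num))))
  have hE8 : dser (⊤ : Subgroup G) 8 ≤ S.E := by
    refine S.dser_le_E_of (by norm_num) fun n hn hn1 => ?_
    rw [he] at hn
    have h1 : n ≤ 512 ^ 2 := (Nat.le_of_dvd (by positivity) hn).trans (Nat.pow_le_pow_left (by omega) 2)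
    norm_num at h1
    refine (dln n h1).mono ?_
    exact (gB_mono h1).trans (by decide)
  by_cases hmid : 17 ≤ e ∧ e ≠ 32
  · refine Or.inr (Or.inr (Or.inr (S.orb_nonzero hE8 ?_)))
    rw [hV]
    exact lt_of_le_of_lt (Nat.mul_le_mul_left _ hG)
      (numB (fun r hr hre => (hprimes r hr hre).1) hq2 hmid.1 (by omega) hmid.2 hem)
  have hsmall : e ≤ 16 ∨ e = 32 := by omega
  by_cases hE5 : dser (⊤ : Subgroup G) 5 ≤ S.E
  · -- derived length at most seven
    by_cases htr : ∀ v w : V, v ≠ 0 → w ≠ 0 → ∃ g : G, g • v = w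
    · have h1 := dl_transitive hirr S.faithful htr
      refine Or.inl (orb_cons ?_ ?_)
      · intro g hg x
        exact h1 g (dser_mono le_top _ hg) x
      · obtain ⟨a, ha⟩ := exists_ne (0 : V)
        refine ⟨fun _ => a, fun _ => ⟨ha, fun g hg x => h1 g (dser_mono le_top _ hg) x⟩, ?_⟩
        intro i j hij
        exact absurd (Subsingleton.elim i j) hij
    · push Not at htr
      obtain ⟨a, b, ha, hb, hab⟩ := htr
      have hv : ∃ v : Fin 2 → V, (∀ i, v i ≠ 0 ∧ Wtv G (v i) 6) ∧ ∀ i j, i ≠ j → ∀ g : G, g • v i ≠ v j := by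
        refine ⟨![a, b], ?_, ?_⟩
        · intro i
          fin_cases i
          · exact ⟨ha, S.wt_of_dser hE5 ha⟩
          · exact ⟨hb, S.wt_of_dser hE5 hb⟩
        · intro i j hij g
          fin_cases i <;> fin_cases j
          · exact absurd rfl hij
          · exact hab g
          · intro h
            apply hab g⁻¹
            have h1 : g • b = a := h
            rw [← h1, inv_smul_smul]
          · exact absurd rfl hij
      refine Or.inr (Or.inl ⟨?_, ?_⟩)
      · obtain ⟨v, h1, h2⟩ := hv
        exact orb_cons (S.wt_zero hE5) ⟨v, fun i => ⟨(h1 i).1, (h1 i).2.mono (by norm_num)⟩, h2⟩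
      · obtain ⟨v, h1, h2⟩ := hv
        exact ⟨v, h2, fun i => (h1 i).2⟩
  · -- a chief factor of order 64
    obtain ⟨N, hN, hN5⟩ : ∃ N ∈ S.Mn, ¬ dser (⊤ : Subgroup G) 5 ≤ cenMod S.U N := by
      by_contra hcon
      push Not at hcon
      exact hE5 (S.dser_le_E (by norm_num) hcon)
    obtain ⟨X, i1, i2, i3, hXirr, hXc, hX⟩ := S.mn_mod hN
    have hXDL : ¬ DL G X 5 := by rwa [DL.iff_le hX]
    obtain ⟨hns, hn1⟩ := S.relIndex_mn hN
    rw [he] at hns
    have h64 : S.U.relIndex N = 64 := by
      by_contra hne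
      exact hXDL (dln5 hsmall he0 hns hne (by rw [← hXc]; exact hXirr.isPrimePow) G X hXirr hXc)
    rw [h64] at hXc hns
    obtain ⟨him1, him2⟩ := im64 hXirr hXc hXDL
    rw [card_im hX] at him1 him2
    have h8e : 8 ∣ e := by
      have h1 : 8 ^ 2 ∣ e ^ 2 := hns
      exact (Nat.pow_dvd_pow_iff (by norm_num)).1 h1
    have he3 : e = 8 ∨ e = 16 ∨ e = 32 := by
      obtain ⟨k, hk⟩ := h8e
      omega
    have hNn := hN.1
    have hAN : (S.AX N).relIndex S.A ∣ (cenMod S.U N).index := by
      have h1 : (S.AX N).relIndex S.A = (cenMod S.U N).relIndex S.A := by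
        rw [AX, inf_relIndex_right]
      rw [h1]
      have : (cenMod S.U N).Normal := by
        rw [cenMod]
        have : (N.map (QuotientGroup.mk' S.U)).Normal := Normal.map inferInstance _ (QuotientGroup.mk'_surjective S.U)
        infer_instance
      exact relIndex_dvd_index_of_normal _ _
    have hANle : (S.AX N).relIndex S.A ≤ 1458 := by
      refine (Nat.le_of_dvd ?_ hAN).trans him1
      exact Nat.pos_of_ne_zero index_ne_zero_of_finite
    have hmul : S.E.relIndex (S.AX N) * (S.AX N).relIndex S.A = S.E.relIndex S.A :=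
      relIndex_mul_relIndex _ _ _ (S.E_le_AX (S.Mn_le_E hN)) inf_le_right
    have hNE : 64 * N.relIndex S.E = e ^ 2 := by
      rw [← he, ← h64, s]
      exact relIndex_mul_relIndex _ _ _ hN.2.1.le (S.Mn_le_E hN)
    have hch := S.chain _ N hN.2.1.le (S.Mn_le_E hN) rfl
    have hq3 : 3 ≤ q ∧ 2 ∣ q - 1 ∧ 2 ∣ m := by
      have h2e : 2 ∣ e := (by norm_num : 2 ∣ 8).trans h8e
      obtain ⟨h1, h2⟩ := hprimes 2 Nat.prime_two h2e
      exact ⟨by omega, h1, h2⟩
    rcases he3 with rfl | rfl | rfl
    · -- `e = 8`
      have hN1 : N.relIndex S.E = 1 := by omega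
      rw [hN1] at hch
      have hE1 : S.E.relIndex (S.AX N) = 1 := by
        have h1 : S.E.relIndex (S.AX N) ≠ 0 := relIndex_ne_zero' _ _
        have h3 : S.E.relIndex (S.AX N) ^ 2 ≤ 1 := by simpa using hch
        have h4 : S.E.relIndex (S.AX N) ≤ 1 := by
          by_contra hlt
          push Not at hlt
          have : 2 ^ 2 ≤ (S.E.relIndex (S.AX N)) ^ 2 := Nat.pow_le_pow_left hlt 2
          omega
        omega
      rw [hE1, one_mul] at hmul
      have hEA : S.E.relIndex S.A ≤ 1458 := by rw [← hmul]; exact hANle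
      have hG2 := S.card_G_le hEA
      rw [he, ← hq] at hG2
      have hE6 : dser (⊤ : Subgroup G) 6 ≤ S.E := by
        refine S.dser_le_E_of (by norm_num) fun n hn hn1 => ?_
        rw [he] at hn
        have h1 : n ≤ 64 := Nat.le_of_dvd (by positivity) hn
        refine (dln n (by omega)).mono ?_
        exact (gB_mono h1).trans (by decide)
      have hv : ∃ v : Fin 3 → V, (∀ i, v i ≠ 0) ∧ ∀ i j, i ≠ j → ∀ g : G, g • v i ≠ v j := by
        by_cases hlt : 2 * Nat.card G < Nat.card V - 1
        · rw [← nonzero_ncard] at hlt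
          exact exists_ineq (G := G) _ 2 hlt
        · -- the small cases
          have hlt' : q ^ m - 1 ≤ 2 * ((q - 1) * 8 ^ 2 * 1458 * Nat.log 2 q) := by
            rw [hV] at hlt
            omega
          have hcases : (q = 3 ∧ (m = 8 ∨ m = 10)) ∨ (q = 5 ∧ m = 8) := by
            have hq8 : q ≤ 8 := by
              by_contra h9
              push Not at h9
              have h1 := Nat.log_le_self 2 q
              have h2 : q ^ 8 ≤ q ^ m := Nat.pow_le_pow_right (by omega) hem
              have h3 : 9 ^ 6 ≤ q ^ 6 := Nat.pow_le_pow_left h9 6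
              have h4 : 2 * ((q - 1) * 8 ^ 2 * 1458 * Nat.log 2 q) ≤ (q - 1) * (186624 * q) := by
                calc 2 * ((q - 1) * 8 ^ 2 * 1458 * Nat.log 2 q) = (q - 1) * (186624 * Nat.log 2 q) := by ring
                  _ ≤ _ := Nat.mul_le_mul_left _ (Nat.mul_le_mul_left _ h1)
              have h5 : (q - 1) * (186624 * q) ≤ (q - 1) * (q ^ 6 * q) :=
                Nat.mul_le_mul_left _ (Nat.mul_le_mul_right _ (le_trans (by norm_num) h3))
              have h6 : (q - 1) * (q ^ 6 * q) + q ^ 7 = q ^ 8 := by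
                obtain ⟨r, hr⟩ : ∃ r, q = r + 1 := ⟨q - 1, by omega⟩
                rw [hr, Nat.add_sub_cancel]
                ring
              have h7 : 2 ≤ q ^ 7 := by
                calc 2 ≤ 2 ^ 7 := by norm_num
                  _ ≤ q ^ 7 := Nat.pow_le_pow_left hq2 7
              omega
            have hm12 : m < 12 := by
              by_contra h12
              push Not at h12
              have h2 : q ^ 12 ≤ q ^ m := Nat.pow_le_pow_right (by omega) h12
              have h3 : Nat.log 2 q ≤ 3 := by
                have : Nat.log 2 q < 4 := Nat.log_lt_of_lt_pow (by omega) (by omega)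
                omega
              have h4 : 2 * ((q - 1) * 8 ^ 2 * 1458 * Nat.log 2 q) ≤ 2 * ((q - 1) * 8 ^ 2 * 1458 * 3) :=
                Nat.mul_le_mul_left _ (Nat.mul_le_mul_left _ h3)
              by_cases h3q : q = 3
              · have h5 : Nat.log 2 3 = 1 := by rw [Nat.log_eq_iff] <;> norm_num
                rw [h3q, h5] at hlt'
                rw [h3q] at h2
                norm_num at hlt' h2
                omega
              · have h6 : 4 ^ 12 ≤ q ^ 12 := Nat.pow_le_pow_left (by omega) 12
                norm_num at h6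
                omega
            obtain ⟨hq3', hq1, hm1⟩ := hq3
            have hmm : m = 8 ∨ m = 10 := by omega
            have hqq : q = 3 ∨ q = 5 ∨ q = 7 := by omega
            rcases hqq with h | h | h
            · exact Or.inl ⟨h, hmm⟩
            · rcases hmm with h' | h'
              · exact Or.inr ⟨h, h'⟩
              · exfalso
                have h5 : Nat.log 2 5 = 2 := by rw [Nat.log_eq_iff] <;> norm_num
                rw [h, h', h5] at hlt'
                norm_num at hlt'
            · exfalso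
              have h5 : Nat.log 2 7 = 2 := by rw [Nat.log_eq_iff] <;> norm_num
              have h6 : 7 ^ 8 ≤ 7 ^ m := Nat.pow_le_pow_right (by norm_num) hem
              rw [h, h5] at hlt'
              norm_num at hlt' h6
              omega
          -- the order of `G`
          have hSm : Sm (Nat.card G) := by
            intro r hr hd
            rw [S.card_G_eq, he, ← hmul] at hd
            have hle4 : Nat.card S.U ∣ q - 1 := S.card_U_dvd
            have hAi := S.index_A_le
            rw [← hq] at hAi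
            rcases (Nat.Prime.dvd_mul hr).1 hd with h | h
            · rcases (Nat.Prime.dvd_mul hr).1 h with h | h
              · rcases (Nat.Prime.dvd_mul hr).1 h with h | h
                · have h1 := h.trans hle4
                  have h2 : q - 1 = 2 ∨ q - 1 = 2 ^ 2 := by omega
                  rcases h2 with h2 | h2
                  · rw [h2] at h1
                    exact (Nat.le_of_dvd (by norm_num) h1).trans (by norm_num)
                  · rw [h2] at h1
                    exact (Nat.le_of_dvd (by norm_num) (hr.dvd_of_dvd_pow h1)).trans (by norm_num)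
                · have h1 : r ∣ 2 ^ 6 := by simpa using h
                  exact (Nat.le_of_dvd (by norm_num) (hr.dvd_of_dvd_pow h1)).trans (by norm_num)
              · exact him2 r hr (h.trans hAN)
            · have h1 : Nat.log 2 q ≤ 3 := by
                have : Nat.log 2 q < 4 := Nat.log_lt_of_lt_pow (by omega) (by omega)
                omega
              exact (Nat.le_of_dvd (Nat.pos_of_ne_zero index_ne_zero_of_finite) h).trans (hAi.trans h1)
          have hN0 : ∃ N0, Nat.card V - 1 = N0 ∧ N0 < 2 ^ 19 ∧ N0 ≠ 0 ∧ ¬ N0 ∣ 2 ^ 18 * 3 ^ 11 ∧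
              ∀ a < 19, ∀ b < 12, 2 ^ a * 3 ^ b < N0 → ¬ (N0 - 2 ^ a * 3 ^ b) ∣ 2 ^ 18 * 3 ^ 11 := by
            rcases hcases with ⟨h1, h2 | h2⟩ | ⟨h1, h2⟩
            · refine ⟨6560, ?_, by norm_num, by norm_num, by norm_num, by decide⟩
              rw [hV, h1, h2]
              norm_num
            · refine ⟨59048, ?_, by norm_num, by norm_num, by norm_num, by decide⟩
              rw [hV, h1, h2]
              norm_num
            · refine ⟨390624, ?_, by norm_num, by norm_num, by norm_num, by decide⟩
              rw [hV, h1, h2]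
              norm_num
          obtain ⟨N0, hN0, hlt0, hne0, hnd, hdec⟩ := hN0
          refine three_orbits hSm ?_ ?_ Finite.one_lt_card
          · rw [hN0]
            intro h
            exact hnd (h.dvd hne0 hlt0)
          · intro x y hx hy hx0 hy0
            rw [hN0]
            exact smooth_sum hlt0 hdec hx hy hx0 hy0
      obtain ⟨v, hv0, hvv⟩ := hv
      exact Or.inr (Or.inr (Or.inl (orb_cons (S.wt_zero hE6)
        ⟨v, fun i => ⟨hv0 i, (S.wt_of_dser hE6 (hv0 i)).mono (by norm_num)⟩, hvv⟩)))
    · -- `e = 16`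
      have hN4 : N.relIndex S.E = 4 := by omega
      rw [hN4, show om 4 = 2 from om_pow (a := 2) Nat.prime_two] at hch
      have hE1 : S.E.relIndex (S.AX N) ≤ 8 := by
        by_contra hlt
        push Not at hlt
        have : 9 ^ 2 ≤ (S.E.relIndex (S.AX N)) ^ 2 := Nat.pow_le_pow_left hlt 2
        omega
      have hEA : S.E.relIndex S.A ≤ 8 * 1458 := by rw [← hmul]; exact Nat.mul_le_mul hE1 hANle
      have hG2 := S.card_G_le hEA
      rw [he, ← hq] at hG2
      refine Or.inr (Or.inr (Or.inr (S.orb_nonzero hE8 ?_)))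
      rw [hV]
      refine lt_of_le_of_lt (Nat.mul_le_mul_left 4 hG2) ?_
      by_cases h3q : q = 3
      · have h5 : Nat.log 2 3 = 1 := by rw [Nat.log_eq_iff] <;> norm_num
        have h6 : 3 ^ 16 ≤ 3 ^ m := Nat.pow_le_pow_right (by norm_num) hem
        rw [h3q, h5]
        norm_num at h6 ⊢
        omega
      · have h6 : 4 * (16 ^ 2 * (8 * 1458)) ≤ q ^ (16 - 2) := by
          calc 4 * (16 ^ 2 * (8 * 1458)) ≤ 4 ^ 14 := by norm_num
            _ ≤ q ^ 14 := Nat.pow_le_pow_left (by omega) 14
        have h7 := numB_of (q := q) (e := 16) (m := m) hq3.1 (by norm_num) h6 hem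
        calc 4 * ((q - 1) * 16 ^ 2 * (8 * 1458) * Nat.log 2 q) =
            4 * ((q - 1) * (16 ^ 2 * (8 * 1458)) * Nat.log 2 q) := by ring
          _ < _ := h7
    · -- `e = 32`
      have hN4 : N.relIndex S.E = 16 := by omega
      rw [hN4, show om 16 = 4 from om_pow (a := 4) Nat.prime_two] at hch
      have hE1 : S.E.relIndex (S.AX N) ≤ 1024 := by
        by_contra hlt
        push Not at hlt
        have : 1025 ^ 2 ≤ (S.E.relIndex (S.AX N)) ^ 2 := Nat.pow_le_pow_left hlt 2
        omega
      have hEA : S.E.relIndex S.A ≤ 1024 * 1458 := by rw [← hmul]; exact Nat.mul_le_mul hE1 hANle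
      have hG2 := S.card_G_le hEA
      rw [he, ← hq] at hG2
      refine Or.inr (Or.inr (Or.inr (S.orb_nonzero hE8 ?_)))
      rw [hV]
      refine lt_of_le_of_lt (Nat.mul_le_mul_left 4 hG2) ?_
      have h6 : 4 * (32 ^ 2 * (1024 * 1458)) ≤ q ^ (32 - 2) := by
        calc 4 * (32 ^ 2 * (1024 * 1458)) ≤ 3 ^ 30 := by norm_num
          _ ≤ q ^ 30 := Nat.pow_le_pow_left hq3.1 30
      have h7 := numB_of (q := q) (e := 32) (m := m) hq3.1 (by norm_num) h6 hem
      calc 4 * ((q - 1) * 32 ^ 2 * (1024 * 1458) * Nat.log 2 q) =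
          4 * ((q - 1) * (32 ^ 2 * (1024 * 1458)) * Nat.log 2 q) := by ring
        _ < _ := h7

end QP

end Cfsg.Agent.H511.Wt
end

-- part: H511/Wt/MainA
section
/-!
# From the quasi-primitive case to completely reducible groups
-/

set_option autoImplicit false
set_option linter.style.haveILetI false
set_option linter.unusedSectionVars false

namespace Cfsg.Agent.H511.Wt

open Subgroup
open scoped Pointwise commutatorElement

universe u v

theorem Ty.of_surjective {G G' V : Type*} [Group G] [Group G'] [AddCommGroup V] [DistribMulAction G V]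
    [DistribMulAction G' V] {f : G →* G'} (hc : ∀ (g : G) (x : V), f g • x = g • x) (h : Ty G' V) : Ty G V := by
  rcases h with h | ⟨h, h'⟩ | h | h
  · exact Or.inl (h.of_surjective hc)
  · exact Or.inr (Or.inl ⟨h.of_surjective hc, h'.of_surjective hc⟩)
  · exact Or.inr (Or.inr (Or.inl (h.of_surjective hc)))
  · exact Or.inr (Or.inr (Or.inr (h.of_surjective hc)))

theorem Ty.exists_wt {G V : Type*} [Group G] [AddCommGroup V] [DistribMulAction G V] (h : Ty G V) :
    ∃ x : V, Wtv G x 9 := by
  rcases h with ⟨v, _, h⟩ | ⟨⟨v, _, h⟩, _⟩ | ⟨v, _, h⟩ | ⟨v, _, h⟩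
  all_goals exact ⟨v 0, (h 0).mono (by norm_num)⟩

/-- the component of a system of imprimitivity is smaller -/
theorem Imp.card_lt {G V : Type*} [Group G] [Finite G] [AddCommGroup V] [Finite V] [DistribMulAction G V]
    {M : Subgroup G} (hM : IsCoatom M) {W : G ⧸ M → AddSubgroup V} (D : Imp M W) (hirr : Irr G V) :
    Nat.card (W ((1 : G) : G ⧸ M)) < Nat.card V := by
  letI := resAct M (W ((1 : G) : G ⧸ M)) D.res_mem
  have h1 := (D.irr_res hirr).nt
  have h2 : 1 < Nat.card (W ((1 : G) : G ⧸ M)) := Finite.one_lt_card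
  have h3 : M.index ≠ 0 := index_ne_zero_of_finite
  have h4 : M.index ≠ 1 := by
    rw [Ne, index_eq_one]
    exact hM.1
  rw [D.card_V]
  calc Nat.card (W ((1 : G) : G ⧸ M)) = Nat.card (W ((1 : G) : G ⧸ M)) ^ 1 := (pow_one _).symm
    _ < Nat.card (W ((1 : G) : G ⧸ M)) ^ M.index := Nat.pow_lt_pow_right h2 (by omega)

theorem ty_all (hcol : ColH.{u}) : ∀ (n : ℕ) (G V : Type u) [Group G] [Finite G] [Group.IsSolvable G]
    [AddCommGroup V] [Finite V] [DistribMulAction G V], Irr G V → Nat.card V = n → Ty G V := by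
  intro n
  induction n using Nat.strong_induction_on with
  | _ n ih =>
    intro G V _ _ _ _ _ _ hirr hn
    have hnt := hirr.nt
    have hsol : Group.IsSolvable (Im G V) := range_solvable
    have key : Ty (Im G V) V := by
      rcases exists_qp (Im G V) V hirr.range range_faithful with h | ⟨K, i1, i2, i3, ⟨S⟩⟩
      · obtain ⟨M, W, hM, h1, h2, h3⟩ := h
        have D : Imp M W := ⟨h1, h2, h3⟩
        letI := resAct M (W ((1 : Im G V) : _ ⧸ M)) D.res_mem
        refine ty_step hcol hM D ?_
        refine ih _ ?_ M _ (D.irr_res hirr.range) rfl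
        rw [← hn]
        exact D.card_lt hM hirr.range
      · exact S.ty hirr.range
    exact key.of_surjective (f := toIm G V) fun g x => rfl

/-- irreducible groups have a vector of weight at most nine -/
theorem irr_exists_wt (hcol : ColH.{v}) {G : Type u} {V : Type v} [Group G] [Finite G] [Group.IsSolvable G]
    [AddCommGroup V] [Finite V] [DistribMulAction G V] (hirr : Irr G V) : ∃ x : V, Wtv G x 9 := by
  have hsol : Group.IsSolvable (Im G V) := range_solvable
  obtain ⟨x, hx⟩ := (ty_all hcol _ (Im G V) V hirr.range rfl).exists_wt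
  exact ⟨x, hx.of_surjective (f := toIm G V) fun g x => rfl⟩

/-- the restricted action of the whole group -/
@[reducible] def resG {G V : Type*} [Group G] [AddCommGroup V] [DistribMulAction G V] (U : AddSubgroup V)
    (h : ∀ g : G, ∀ x ∈ U, g • x ∈ U) : DistribMulAction G U where
  smul m x := ⟨m • (x : V), h m x x.2⟩
  one_smul x := Subtype.ext (one_smul G (x : V))
  mul_smul a b x := Subtype.ext (mul_smul a b (x : V))
  smul_zero a := Subtype.ext (smul_zero a)
  smul_add a x y := Subtype.ext (smul_add a (x : V) (y : V))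

/-- **From irreducible to completely reducible.** -/
theorem cr_exists_wt {G : Type u} {V : Type v} [Group G] [AddCommGroup V] [Finite V] [DistribMulAction G V] {d : ℕ}
    (hirr : ∀ (U : AddSubgroup V) (hU : ∀ g : G, ∀ x ∈ U, g • x ∈ U),
      letI := resG U hU
      Irr G U → ∃ x : U, Wtv G x d)
    (hcr : ∀ U : AddSubgroup V, (∀ g : G, ∀ x ∈ U, g • x ∈ U) →
      ∃ U' : AddSubgroup V, (∀ g : G, ∀ x ∈ U', g • x ∈ U') ∧ U ⊓ U' = ⊥ ∧ U ⊔ U' = ⊤) :
    ∃ x : V, Wtv G x d := by
  have key : ∀ n, ∀ U : AddSubgroup V, (∀ g : G, ∀ x ∈ U, g • x ∈ U) → Nat.card U = n →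
      ∃ x ∈ U, ∀ g ∈ dser (MulAction.stabilizer G x) d, ∀ y ∈ U, g • y = y := by
    intro n
    induction n using Nat.strong_induction_on with
    | _ n ih =>
      intro U hU hn
      by_cases hbot : U = ⊥
      · refine ⟨0, U.zero_mem, fun g _ y hy => ?_⟩
        rw [hbot, AddSubgroup.mem_bot] at hy
        rw [hy, smul_zero]
      · -- a minimal invariant subgroup
        have hfinA : Finite (AddSubgroup V) := inferInstance
        obtain ⟨U₁, hU₁⟩ := (Set.toFinite {U₁ : AddSubgroup V | (∀ g : G, ∀ x ∈ U₁, g • x ∈ U₁) ∧ U₁ ≠ ⊥ ∧ U₁ ≤ U}).exists_minimal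
          ⟨U, hU, hbot, le_rfl⟩
        obtain ⟨⟨h1, h2, h3⟩, hmin⟩ := hU₁
        letI := resG U₁ h1
        have hI : Irr G U₁ := by
          refine ⟨(AddSubgroup.nontrivial_iff_ne_bot U₁).2 h2, ?_⟩
          intro Y hY
          by_cases hY0 : Y = ⊥
          · exact Or.inl hY0
          right
          have h4 : U₁ ≤ Y.map U₁.subtype := by
            refine hmin ⟨?_, ?_, ?_⟩ ?_
            · rintro g _ ⟨y, hy, rfl⟩
              exact ⟨_, hY g y hy, rfl⟩
            · rwa [Ne, AddSubgroup.map_eq_bot_iff_of_injective _ U₁.subtype_injective]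
            · rintro _ ⟨y, hy, rfl⟩
              exact h3 y.2
            · rintro _ ⟨y, hy, rfl⟩
              exact y.2
          rw [eq_top_iff]
          intro x _
          obtain ⟨y, hy, hyx⟩ := h4 x.2
          have : y = x := Subtype.ext hyx
          rwa [this] at hy
        obtain ⟨a, ha⟩ := hirr U₁ h1 hI
        obtain ⟨W, hW, hW1, hW2⟩ := hcr U₁ h1
        -- the complement in `U`
        have hUW : ∀ g : G, ∀ x ∈ U ⊓ W, g • x ∈ U ⊓ W := fun g x hx => ⟨hU g x hx.1, hW g x hx.2⟩
        have hlt : Nat.card (U ⊓ W : AddSubgroup V) < n := by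
          rw [← hn]
          have h5 : (U ⊓ W : AddSubgroup V) < U := by
            refine lt_of_le_of_ne inf_le_left fun h => ?_
            have h6 : U₁ ≤ W := h3.trans (by rw [← h]; exact inf_le_right)
            apply h2
            rw [eq_bot_iff, ← hW1]
            exact le_inf le_rfl h6
          exact Set.ncard_lt_ncard (s := ((U ⊓ W : AddSubgroup V) : Set V)) (t := (U : Set V)) h5 (Set.toFinite _)
        obtain ⟨b, hb, hb2⟩ := ih _ hlt (U ⊓ W) hUW rfl
        -- uniqueness of the decomposition
        have huniq : ∀ y z : V, y ∈ U₁ → z ∈ W → y + z = 0 → y = 0 ∧ z = 0 := by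
          intro y z hy hz h
          have h5 : y ∈ U₁ ⊓ W := by
            refine ⟨hy, ?_⟩
            have : y = -z := eq_neg_of_add_eq_zero_left h
            rw [this]
            exact W.neg_mem hz
          rw [hW1, AddSubgroup.mem_bot] at h5
          rw [h5, zero_add] at h
          exact ⟨h5, h⟩
        have hstab : ∀ g : G, g • ((a : V) + b) = (a : V) + b → g • (a : V) = a ∧ g • b = b := by
          intro g hg
          rw [smul_add] at hg
          have h5 := huniq (g • (a : V) - a) (g • b - b) (U₁.sub_mem (h1 g a a.2) a.2)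
            (W.sub_mem (hW g b hb.2) hb.2) (by
              calc g • (a : V) - a + (g • b - b) = (g • (a : V) + g • b) - (a + b) := by abel
                _ = 0 := by rw [hg, sub_self])
          exact ⟨sub_eq_zero.1 h5.1, sub_eq_zero.1 h5.2⟩
        refine ⟨(a : V) + b, U.add_mem (h3 a.2) hb.1, ?_⟩
        intro g hg y hy
        have hga : g ∈ dser (MulAction.stabilizer G a) d := by
          refine dser_mono ?_ d hg
          intro k hk
          exact Subtype.ext (hstab k hk).1
        have hgb : g ∈ dser (MulAction.stabilizer G b) d := by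
          refine dser_mono ?_ d hg
          intro k hk
          exact (hstab k hk).2
        have hyT : y ∈ U₁ ⊔ W := by rw [hW2]; exact AddSubgroup.mem_top y
        obtain ⟨y1, hy1, y2, hy2, rfl⟩ := AddSubgroup.mem_sup.1 hyT
        have hy2U : y2 ∈ U := by
          have : y2 = (y1 + y2) - y1 := by abel
          rw [this]
          exact U.sub_mem hy (h3 hy1)
        have e1 : g • y1 = y1 := congrArg Subtype.val (ha g hga ⟨y1, hy1⟩)
        have e2 : g • y2 = y2 := hb2 g hgb y2 ⟨hy2U, hy2⟩
        rw [smul_add, e1, e2]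
  obtain ⟨x, _, hx⟩ := key _ ⊤ (fun g x _ => AddSubgroup.mem_top _) rfl
  exact ⟨x, fun g hg y => hx g hg y (AddSubgroup.mem_top y)⟩

end Cfsg.Agent.H511.Wt
end

-- part: H511/Wt/OddMain
section
/-!
# Groups of odd order
-/

set_option autoImplicit false
set_option linter.style.haveILetI false
set_option linter.unusedSectionVars false

namespace Cfsg.Agent.H511.Wt

open Subgroup
open scoped Pointwise commutatorElement

universe u v

theorem preprimitive_of_coatom {G : Type*} [Group G] {M : Subgroup G} (hM : IsCoatom M) :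
    MulAction.IsPreprimitive G (G ⧸ M) := by
  have h1 : MulAction.stabilizer G ((1 : G) : G ⧸ M) = M := by
    ext g
    rw [MulAction.mem_stabilizer_iff, MulAction.Quotient.smul_coe, smul_eq_mul, mul_one, eq_comm, QuotientGroup.eq]
    simp
  haveI : Nontrivial (G ⧸ M) := by
    rw [QuotientGroup.nontrivial_iff]
    exact hM.1
  refine (MulAction.isCoatom_stabilizer_iff_preprimitive G ((1 : G) : G ⧸ M)).1 ?_
  rw [h1]
  exact hM

theorem exists_ne_wt {G V : Type*} [Group G] [AddCommGroup V] [DistribMulAction G V] [Nontrivial V]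
    (h : ∃ v : V, Wtv G v 1) : ∃ v : V, v ≠ 0 ∧ Wtv G v 1 := by
  obtain ⟨v, hv⟩ := h
  by_cases h0 : v = 0
  · obtain ⟨w, hw⟩ := exists_ne (0 : V)
    refine ⟨w, hw, fun g hg x => hv g (dser_mono ?_ 1 hg) x⟩
    rw [h0]
    intro k _
    exact smul_zero k
  · exact ⟨v, h0, hv⟩

/-- `v` and `-v` are inequivalent under groups of odd order -/
theorem odd_neg {G V : Type*} [Group G] [Finite G] [AddCommGroup V] [Finite V] [DistribMulAction G V]
    (hodd : Odd (Nat.card G)) (hV : Odd (Nat.card V)) {v : V} (hv : v ≠ 0) (g : G) : g • v ≠ -v := by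
  intro h
  have h2 : (g ^ 2) • v = v := by rw [pow_two, mul_smul, h, smul_neg, h, neg_neg]
  have h3 : ∀ k : ℕ, (g ^ (2 * k)) • v = v := by
    intro k
    rw [pow_mul]
    have h4 : g ^ 2 ∈ MulAction.stabilizer G v := h2
    exact (MulAction.stabilizer G v).pow_mem h4 k
  obtain ⟨k, hk⟩ := hodd
  have h4 : g ^ (2 * k + 1) = 1 := by rw [← hk]; exact pow_card_eq_one'
  have h5 : g • v = v := by
    have h6 := h3 k
    calc g • v = g • (g ^ (2 * k)) • v := by rw [h6]
      _ = (g ^ (2 * k + 1)) • v := by rw [smul_smul, ← pow_succ']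
      _ = v := by rw [h4, one_smul]
  rw [h5] at h
  -- `2 v = 0`
  have h6 : 2 • v = 0 := by
    rw [two_nsmul]
    nth_rewrite 1 [h]
    exact neg_add_cancel v
  have h7 : addOrderOf v ∣ 2 := addOrderOf_dvd_of_nsmul_eq_zero h6
  have h8 : Odd (addOrderOf v) := Odd.of_dvd_nat hV (addOrderOf_dvd_natCard v)
  rcases (Nat.dvd_prime Nat.prime_two).1 h7 with h9 | h9
  · exact hv (AddMonoid.addOrderOf_eq_one_iff.1 h9)
  · rw [h9] at h8
    exact absurd h8 (by decide)

theorem odd_all : ∀ (n : ℕ) (G V : Type u) [Group G] [Finite G] [Group.IsSolvable G]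
    [AddCommGroup V] [Finite V] [DistribMulAction G V], Odd (Nat.card G) → Odd (Nat.card V) → Irr G V →
    Nat.card V = n → ∃ v : V, Wtv G v 1 := by
  intro n
  induction n using Nat.strong_induction_on with
  | _ n ih =>
    intro G V _ _ _ _ _ _ hodd hV hirr hn
    have hnt := hirr.nt
    have hsol : Group.IsSolvable (Im G V) := range_solvable
    have hodd' : Odd (Nat.card (Im G V)) := odd_im hodd
    have key : ∃ v : V, Wtv (Im G V) v 1 := by
      rcases exists_qp (Im G V) V hirr.range range_faithful with h | ⟨K, i1, i2, i3, ⟨S⟩⟩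
      · obtain ⟨M, W, hM, h1, h2, h3⟩ := h
        have D : Imp M W := ⟨h1, h2, h3⟩
        letI := resAct M (W ((1 : Im G V) : _ ⧸ M)) D.res_mem
        have hirr0 := D.irr_res hirr.range
        have hnt0 := hirr0.nt
        have hW : Odd (Nat.card (W ((1 : Im G V) : _ ⧸ M))) :=
          Odd.of_dvd_nat hV (AddSubgroup.card_addSubgroup_dvd_card _)
        have hlt : Nat.card (W ((1 : Im G V) : _ ⧸ M)) < n := by
          rw [← hn]
          exact D.card_lt hM hirr.range
        obtain ⟨w, hw0, hw⟩ := exists_ne_wt (ih _ hlt M _ (odd_sub hodd' M) hW hirr0 rfl)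
        -- a rigid colouring
        obtain ⟨κ, hκ⟩ := Cfsg.Agent.H578.PermCol.prim_odd hodd' (preprimitive_of_coatom hM)
        have hneg : Wtv M (-w) 1 := by
          intro g hg x
          refine hw g (dser_mono ?_ 1 hg) x
          intro k hk
          have h4 : k • (-w) = -w := hk
          rw [smul_neg, neg_inj] at h4
          exact h4
        have hlift : Orb (Im G V) V 1 1 := by
          refine D.lift (k := 2) (t := 1) (Dg := 1) ![w, -w] (fun _ => 1) ?_ ?_ (fun _ => κ) ?_ ?_
          · intro i j hij g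
            fin_cases i <;> fin_cases j
            · exact absurd rfl hij
            · exact odd_neg (odd_sub hodd' M) hW hw0 g
            · intro h
              have h4 : g • (-w) = w := h
              refine odd_neg (odd_sub hodd' M) hW hw0 g ?_
              rw [smul_neg] at h4
              exact neg_eq_iff_eq_neg.1 h4
            · exact absurd rfl hij
          · intro i
            fin_cases i
            · exact hw
            · exact hneg
          · intro a b hab
            exact absurd (Subsingleton.elim a b) hab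
          · intro a i
            refine ⟨0, le_rfl, fun S hS g hg => ?_⟩
            exact hκ g (fun ω => hS g hg ω) i
        obtain ⟨v, _, hv⟩ := hlift
        exact ⟨v 0, hv 0⟩
      · exact S.odd_base hodd' hV
    obtain ⟨v, hv⟩ := key
    exact ⟨v, hv.of_surjective (f := toIm G V) fun g x => rfl⟩

/-- irreducible groups of odd order have a vector with abelian stabiliser -/
theorem odd_exists_wt {G : Type u} {V : Type v} [Group G] [Finite G] [Group.IsSolvable G]
    [AddCommGroup V] [Finite V] [DistribMulAction G V] (hodd : Odd (Nat.card G)) (hV : Odd (Nat.card V))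
    (hirr : Irr G V) : ∃ x : V, Wtv G x 1 := by
  have hsol : Group.IsSolvable (Im G V) := range_solvable
  obtain ⟨x, hx⟩ := odd_all _ (Im G V) V (odd_im hodd) hV hirr.range rfl
  exact ⟨x, hx.of_surjective (f := toIm G V) fun g x => rfl⟩

end Cfsg.Agent.H511.Wt
end

-- part: H511/Wt/Final
section
/-!
# Vector centralisers in completely reducible solvable linear groups
-/

set_option autoImplicit false
set_option linter.style.haveILetI false
set_option linter.unusedSectionVars false

namespace Cfsg.Agent.H511.Wt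

open Subgroup
open scoped Pointwise commutatorElement

universe u v

theorem dser_eq_bot_of_wt {G V : Type*} [Group G] [AddCommGroup V] [DistribMulAction G V] [FaithfulSMul G V]
    {v : V} {d : ℕ} (h : Wtv G v d) : derivedSeries (MulAction.stabilizer G v) d = ⊥ := by
  rw [← dser_eq_bot_iff, eq_bot_iff]
  intro g hg
  rw [mem_bot]
  apply FaithfulSMul.eq_of_smul_eq_smul (α := V)
  intro x
  rw [h g hg, one_smul]

theorem final (hcol : ColH.{v}) {G : Type u} {V : Type v} [Group G] [Finite G] [Group.IsSolvable G]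
    {p : ℕ} [Fact p.Prime] [AddCommGroup V] [Module (ZMod p) V] [Finite V] [DistribMulAction G V] [FaithfulSMul G V]
    (hcr : ∀ W : Submodule (ZMod p) V, (∀ (g : G) (w : V), w ∈ W → g • w ∈ W) →
      ∃ W' : Submodule (ZMod p) V, (∀ (g : G) (w : V), w ∈ W' → g • w ∈ W') ∧ IsCompl W W') :
    (∃ v : V, derivedSeries ↥(MulAction.stabilizer G v) 9 = ⊥) ∧
    (Odd (Nat.card G) → p ≠ 2 → ∃ v : V, IsMulCommutative ↥(MulAction.stabilizer G v)) := by
  have hcr' : ∀ U : AddSubgroup V, (∀ g : G, ∀ x ∈ U, g • x ∈ U) →
      ∃ U' : AddSubgroup V, (∀ g : G, ∀ x ∈ U', g • x ∈ U') ∧ U ⊓ U' = ⊥ ∧ U ⊔ U' = ⊤ := by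
    intro U hU
    obtain ⟨W', h1, h2⟩ := hcr (AddSubgroup.toZModSubmodule p U) (fun g w hw => hU g w hw)
    refine ⟨W'.toAddSubgroup, fun g x hx => h1 g x hx, ?_, ?_⟩
    · rw [eq_bot_iff]
      rintro x ⟨hx1, hx2⟩
      have h3 := (Submodule.disjoint_def.1 h2.disjoint) x hx1 hx2
      rw [h3]
      exact AddSubgroup.zero_mem _
    · rw [eq_top_iff]
      intro x _
      have h3 : x ∈ AddSubgroup.toZModSubmodule p U ⊔ W' := by
        rw [h2.sup_eq_top]
        exact Submodule.mem_top
      obtain ⟨a, ha, b, hb, rfl⟩ := Submodule.mem_sup.1 h3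
      exact AddSubgroup.add_mem_sup ha hb
  constructor
  · obtain ⟨v, hv⟩ := cr_exists_wt (G := G) (V := V) (d := 9) (fun U hU => by
      letI := resG U hU
      intro hirr
      exact irr_exists_wt hcol hirr) hcr'
    exact ⟨v, dser_eq_bot_of_wt hv⟩
  · intro hodd hp
    have hpp : p.Prime := Fact.out
    have hV : Odd (Nat.card V) := by
      have h1 := Module.natCard_eq_pow_finrank (K := ZMod p) (V := V)
      rw [h1, Nat.card_zmod]
      exact (hpp.odd_of_ne_two hp).pow
    obtain ⟨v, hv⟩ := cr_exists_wt (G := G) (V := V) (d := 1) (fun U hU => by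
      letI := resG U hU
      intro hirr
      exact odd_exists_wt hodd (Odd.of_dvd_nat hV (AddSubgroup.card_addSubgroup_dvd_card U)) hirr) hcr'
    refine ⟨v, ⟨⟨fun a b => ?_⟩⟩⟩
    have h1 := dser_eq_bot_of_wt hv
    have h2 : ⁅a, b⁆ ∈ derivedSeries (MulAction.stabilizer G v) 1 := by
      rw [derivedSeries_succ]
      exact commutator_mem_commutator (mem_top a) (mem_top b)
    rw [h1, mem_bot, commutatorElement_eq_one_iff_mul_comm] at h2
    exact h2

end Cfsg.Agent.H511.Wt
end

-- part: H511/Wt/ColHyp
section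
/-!
# The colouring hypothesis holds
-/

set_option autoImplicit false
set_option linter.style.haveILetI false
set_option linter.unusedSectionVars false

namespace Cfsg.Agent.H511.Wt

open Subgroup
open scoped Pointwise commutatorElement

universe u

theorem col_two_three {G : Type u} [Group G] [Finite G] [Group.IsSolvable G] {M : Subgroup G} (hM : IsCoatom M)
    (h5 : 5 ≤ M.index) : Col M 2 3 := by
  haveI hprim := preprimitive_of_coatom hM
  -- the image in the symmetric group
  let f : G →* (MulAction.toPermHom G (G ⧸ M)).range := (MulAction.toPermHom G (G ⧸ M)).rangeRestrict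
  have hf : Function.Surjective f := (MulAction.toPermHom G (G ⧸ M)).rangeRestrict_surjective
  haveI : Group.IsSolvable (MulAction.toPermHom G (G ⧸ M)).range := Group.isSolvable_of_surjective hf
  haveI : Finite (MulAction.toPermHom G (G ⧸ M)).range := Finite.of_surjective _ hf
  have hsm : ∀ (g : G) (q : G ⧸ M), f g • q = g • q := fun g q => rfl
  haveI : MulAction.IsPreprimitive (MulAction.toPermHom G (G ⧸ M)).range (G ⧸ M) := by
    let φ : (G ⧸ M) →ₑ[f] (G ⧸ M) :=
      { toFun := id
        map_smul' := fun g q => rfl }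
    exact MulAction.IsPreprimitive.of_surjective (f := φ) (fun q => ⟨q, rfl⟩)
  obtain ⟨c, hc, hS⟩ := Cfsg.Agent.H583.Col.f2 (G := (MulAction.toPermHom G (G ⧸ M)).range) (Ω := G ⧸ M) h5
  refine ⟨c, ?_, ?_⟩
  · intro a b hab g h
    exact hc b a (Ne.symm hab) (f g) h
  · intro a S hSc g hg q
    have h1 : derivedSeries (S.map f) 3 = ⊥ := by
      refine hS a (S.map f) ?_
      rintro _ ⟨s, hs, rfl⟩ q
      exact hSc s hs q
    rw [← dser_eq_bot_iff] at h1
    have h2 : f g ∈ dser (S.map f) 3 := by
      rw [← map_dser]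
      exact ⟨g, hg, rfl⟩
    rw [h1, mem_bot] at h2
    rw [← hsm, h2, one_smul]

theorem colH : ColH.{u} := by
  intro G _ _ _ M hM h5
  refine ⟨col_two_three hM h5, ?_⟩
  obtain ⟨X, i1, i2, i3, φ, δ, hirr, h1, h2⟩ := exists_aff hM
  have hcard : Nat.card X = M.index := Nat.card_congr φ
  exact col_of_rig φ δ h1 h2 (rig_of_irr hirr (by omega))

end Cfsg.Agent.H511.Wt
end

-- part: S4070
section
set_option autoImplicit false
open Cfsg

namespace Cfsg.Agent.S4070

/-- Let G be a finite solvable group acting faithfully by additive automorphisms on a finite vector space V over the field with p elements, completely reducibly (every G-invariant subspace has a G-invariant complement). Then some vector v ∈ V has stabilizer C_G(v) of derived length at most 9; and if both #G and p are odd, some vector has abelian stabilizer. -/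
theorem result {G V : Type*} [Group G] [Finite G] [Group.IsSolvable G]
    {p : ℕ} [Fact p.Prime] [AddCommGroup V] [Module (ZMod p) V] [Finite V] [DistribMulAction G V] [FaithfulSMul G V]
    (hcr : ∀ W : Submodule (ZMod p) V, (∀ (g : G) (w : V), w ∈ W → g • w ∈ W) →
      ∃ W' : Submodule (ZMod p) V, (∀ (g : G) (w : V), w ∈ W' → g • w ∈ W') ∧ IsCompl W W') :
    (∃ v : V, derivedSeries ↥(MulAction.stabilizer G v) 9 = ⊥) ∧
    (Odd (Nat.card G) → p ≠ 2 → ∃ v : V, IsMulCommutative ↥(MulAction.stabilizer G v)) :=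
  Cfsg.Agent.H511.Wt.final Cfsg.Agent.H511.Wt.colH hcr

end Cfsg.Agent.S4070
end
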