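import Cfsg.Statements.S4074
import Mathlib
set_option linter.all false

set_option autoImplicit false
open Cfsg

namespace Cfsg.Agent.S4074

open DihedralGroup

/-- parity on the dihedral group -/
def par {n : ℕ} (h : 2 ∣ n) : DihedralGroup n →* Multiplicative (ZMod 2) where
  toFun g := match g with
    | r i => Multiplicative.ofAdd (ZMod.castHom h (ZMod 2) i)
    | sr i => Multiplicative.ofAdd (ZMod.castHom h (ZMod 2) i)
  map_one' := by
    change Multiplicative.ofAdd (ZMod.castHom h (ZMod 2) 0) = 1
    rw [map_zero]; rfl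
  map_mul' := by
    have key : ∀ a b : ZMod 2, b - a = a + b := by decide
    rintro (i | i) (j | j)
    · change Multiplicative.ofAdd (ZMod.castHom h (ZMod 2) (i + j)) = _
      rw [map_add]; rfl
    · change Multiplicative.ofAdd (ZMod.castHom h (ZMod 2) (j - i)) = _
      rw [map_sub, key]; rfl
    · change Multiplicative.ofAdd (ZMod.castHom h (ZMod 2) (i + j)) = _
      rw [map_add]; rfl
    · change Multiplicative.ofAdd (ZMod.castHom h (ZMod 2) (j - i)) = _
      rw [map_sub, key]; rfl

theorem even_case {n : ℕ} (hn : 5 ≤ n) (h2 : 2 ∣ n) :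
    ¬ ∀ H : Subgroup (DihedralGroup n), ¬ IsMulCommutative H →
      Subgroup.normalizer (H : Set (DihedralGroup n)) = H := by
  intro hall
  have hn0 : NeZero n := ⟨by omega⟩
  have h1 : ¬ IsMulCommutative (par h2).ker := by
    intro hc
    have hr : (r 2 : DihedralGroup n) ∈ (par h2).ker := by
      rw [MonoidHom.mem_ker]
      change Multiplicative.ofAdd (ZMod.castHom h2 (ZMod 2) 2) = 1
      rw [map_ofNat]; rfl
    have hs : (sr 0 : DihedralGroup n) ∈ (par h2).ker := by
      rw [MonoidHom.mem_ker]
      change Multiplicative.ofAdd (ZMod.castHom h2 (ZMod 2) 0) = 1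
      rw [map_zero]; rfl
    have h3 := congrArg Subtype.val (hc.is_comm.comm ⟨_, hr⟩ ⟨_, hs⟩)
    change (r 2 : DihedralGroup n) * sr 0 = sr 0 * r 2 at h3
    rw [r_mul_sr, sr_mul_r] at h3
    have h4 : (0 : ZMod n) - 2 = 0 + 2 := by injection h3
    have h5 : ((4 : ℕ) : ZMod n) = 0 := by push_cast; linear_combination -h4
    rw [ZMod.natCast_eq_zero_iff] at h5
    have := Nat.le_of_dvd (by norm_num) h5
    omega
  have h2' := hall _ h1
  rw [Subgroup.normalizer_eq_top] at h2'
  have h3 : (r 1 : DihedralGroup n) ∈ (par h2).ker := by rw [← h2']; trivial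
  rw [MonoidHom.mem_ker] at h3
  change Multiplicative.ofAdd (ZMod.castHom h2 (ZMod 2) 1) = 1 at h3
  rw [map_one] at h3
  revert h3
  decide

theorem odd_case {n : ℕ} (hn : Odd n) (H : Subgroup (DihedralGroup n)) (hH : ¬ IsMulCommutative H) :
    Subgroup.normalizer (H : Set (DihedralGroup n)) = H := by
  have hn0 : NeZero n := ⟨by rintro rfl; exact absurd hn (by decide)⟩
  obtain ⟨i, hi⟩ : ∃ i : ZMod n, sr i ∈ H := by
    by_contra hcon
    push Not at hcon
    apply hH
    refine ⟨⟨?_⟩⟩
    rintro ⟨(a | a), ha⟩ ⟨(b | b), hb⟩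
    · apply Subtype.ext
      change r a * r b = r b * r a
      rw [r_mul_r, r_mul_r, add_comm]
    · exact absurd hb (hcon b)
    · exact absurd ha (hcon a)
    · exact absurd ha (hcon a)
  obtain ⟨m, hm⟩ : ∃ m : ℕ, (2 : ZMod n) * m = 1 := by
    obtain ⟨k, hk⟩ := hn
    refine ⟨k + 1, ?_⟩
    have h1 : ((2 * (k + 1) : ℕ) : ZMod n) = ((n + 1 : ℕ) : ZMod n) := by
      congr 1; omega
    push_cast at h1 ⊢
    rw [h1, ZMod.natCast_self, zero_add]
  have hrot : ∀ k : ZMod n, r k ∈ Subgroup.normalizer (H : Set (DihedralGroup n)) → r k ∈ H := by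
    intro k hk
    have h1 : r k * sr i * (r k)⁻¹ ∈ H := (Subgroup.mem_normalizer_iff.1 hk (sr i)).1 hi
    rw [r_mul_sr, inv_r, sr_mul_r] at h1
    have h2 := H.mul_mem h1 hi
    rw [sr_mul_sr] at h2
    have h3 := H.pow_mem h2 m
    rw [r_pow] at h3
    have h4 : (i - (i - k + -k)) * (m : ZMod n) = k := by
      have : (i - (i - k + -k)) * (m : ZMod n) = k * (2 * m) := by ring
      rw [this, hm, mul_one]
    rwa [h4] at h3
  apply le_antisymm _ Subgroup.le_normalizer
  rintro (k | k) hk
  · exact hrot k hk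
  · have h1 := Subgroup.mul_mem _ hk (Subgroup.le_normalizer hi)
    rw [sr_mul_sr] at h1
    have h2 := H.mul_mem (hrot _ h1) hi
    rw [r_mul_sr] at h2
    have : i - (i - k) = k := by ring
    rwa [this] at h2

theorem four_case (H : Subgroup (DihedralGroup 4)) (hH : ¬ IsMulCommutative H) :
    Subgroup.normalizer (H : Set (DihedralGroup 4)) = H := by
  have hc : Nat.card (DihedralGroup 4) = 8 := by rw [nat_card]
  have htop : H = ⊤ := by
    by_contra htop
    apply hH
    have h1 : Nat.card H ∣ 2 ^ 3 := by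
      have := Subgroup.card_subgroup_dvd_card H
      rwa [hc] at this
    obtain ⟨k, hk, hk2⟩ := (Nat.dvd_prime_pow Nat.prime_two).1 h1
    have hk3 : k ≠ 3 := by
      rintro rfl
      apply htop
      exact Subgroup.eq_top_of_card_eq H (by rw [hc, hk2]; norm_num)
    have h2 : Fact (Nat.Prime 2) := ⟨Nat.prime_two⟩
    interval_cases k
    · have hs : Subsingleton H := (Nat.card_eq_one_iff_unique.1 (by rw [hk2, pow_zero])).1
      exact ⟨⟨fun a b => Subsingleton.elim _ _⟩⟩
    · have := isCyclic_of_prime_card (α := H) (p := 2) (by rw [hk2, pow_one])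
      exact IsCyclic.isMulCommutative
    · exact IsPGroup.isMulCommutative_of_card_eq_prime_sq (p := 2) hk2
    · exact absurd rfl hk3
  rw [htop]
  exact Subgroup.normalizer_eq_top _

/-- For n > 2, every non-abelian subgroup of the dihedral group of order 2n is self-normalizing if and only if n = 4 or n is odd. -/
theorem result (n : ℕ) (hn : 2 < n) :
    (∀ H : Subgroup (DihedralGroup n), ¬ IsMulCommutative H → Subgroup.normalizer (H : Set (DihedralGroup n)) = H) ↔
    (n = 4 ∨ Odd n) := by
  constructor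
  · intro h
    by_contra hcon
    push Not at hcon
    obtain ⟨h4, hodd⟩ := hcon
    rw [Nat.not_odd_iff_even] at hodd
    have := hodd.two_dvd
    exact even_case (by omega) this h
  · rintro (rfl | h)
    · exact four_case
    · exact odd_case h

end Cfsg.Agent.S4074
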