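import Cfsg.Statements.S4078
import Cfsg.Agent.S0205
import Cfsg.Agent.S0489
import Cfsg.Agent.H993.MinRed
import Cfsg.Agent.Prune
set_option linter.all false
open scoped Cfsg.Agent.FastGrp

set_option autoImplicit false
open Cfsg

namespace Cfsg.Agent.S4078

open Cfsg.Agent.H993.MinRed

universe u

/-- `Sol(x)` is a subgroup for every `x`. -/
def SolSub (G : Type u) [Group G] : Prop :=
  ∀ x : G, ∃ H : Subgroup G, (H : Set G) = {y : G | Group.IsSolvable ↥(Subgroup.closure ({x, y} : Set G))}

theorem solSub_subgroup (G : Type u) [Group G] (K : Subgroup G) (h : SolSub G) : SolSub K := by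
  intro x
  obtain ⟨H, hH⟩ := h x
  refine ⟨H.subgroupOf K, ?_⟩
  ext y
  have h1 : (y : G) ∈ (H : Set G) ↔ Group.IsSolvable ↥(Subgroup.closure ({(x : G), (y : G)} : Set G)) := by
    rw [hH]; rfl
  have e : Subgroup.closure ({x, y} : Set K) ≃* Subgroup.closure ({(x : G), (y : G)} : Set G) := by
    refine ((Subgroup.closure ({x, y} : Set K)).equivMapOfInjective K.subtype K.subtype_injective).trans
      (MulEquiv.subgroupCongr ?_)
    rw [MonoidHom.map_closure]
    congr 1
    ext z
    simp [Set.image_pair]
  simp only [Set.mem_ofPred_eq, SetLike.mem_coe, Subgroup.mem_subgroupOf]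
  rw [SetLike.mem_coe] at h1
  rw [h1]
  exact ⟨fun h => isSolvable_congr e.symm h, fun h => isSolvable_congr e h⟩

theorem solSub_quotient (G : Type u) [Group G] (N : Subgroup G) [N.Normal]
    (hN : Group.IsSolvable N) (h : SolSub G) : SolSub (G ⧸ N) := by
  intro x
  obtain ⟨x, rfl⟩ := QuotientGroup.mk'_surjective N x
  obtain ⟨H, hH⟩ := h x
  have key : ∀ y : G, y ∈ H ↔
      Group.IsSolvable ↥(Subgroup.closure ({QuotientGroup.mk' N x, QuotientGroup.mk' N y} : Set (G ⧸ N))) := by
    intro y
    have h1 : y ∈ H ↔ Group.IsSolvable ↥(Subgroup.closure ({x, y} : Set G)) := by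
      rw [← SetLike.mem_coe, hH]; rfl
    rw [h1]
    set L := Subgroup.closure ({x, y} : Set G) with hL
    have h2 : Subgroup.closure ({QuotientGroup.mk' N x, QuotientGroup.mk' N y} : Set (G ⧸ N))
        = L.map (QuotientGroup.mk' N) := by
      rw [hL, MonoidHom.map_closure, Set.image_pair]
    rw [h2]
    constructor
    · intro h
      exact Group.isSolvable_of_surjective (f := (QuotientGroup.mk' N).subgroupMap L)
        ((QuotientGroup.mk' N).subgroupMap_surjective L)
    · intro h
      let f : N.subgroupOf L →* N :=
        { toFun := fun z => ⟨((z : L) : G), z.2⟩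
          map_one' := rfl
          map_mul' := fun _ _ => rfl }
      have hf : Function.Injective f := by
        intro a b hab
        have h1 : ((f a : N) : G) = f b := by rw [hab]
        exact Subtype.ext (Subtype.ext h1)
      have : Group.IsSolvable (N.subgroupOf L) := Group.isSolvable_of_isSolvable_injective hf
      refine Group.isSolvable_of_ker_le_range (N.subgroupOf L).subtype
        ((QuotientGroup.mk' N).subgroupMap L) ?_
      rw [Subgroup.range_subtype]
      intro z hz
      rw [MonoidHom.mem_ker] at hz
      have := congrArg Subtype.val hz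
      rw [Subgroup.mem_subgroupOf]
      exact (QuotientGroup.eq_one_iff _).mp this
  refine ⟨H.map (QuotientGroup.mk' N), ?_⟩
  ext y
  obtain ⟨y, rfl⟩ := QuotientGroup.mk'_surjective N y
  simp only [Set.mem_ofPred_eq, SetLike.mem_coe]
  rw [← key y]
  constructor
  · rintro ⟨z, hz, hzy⟩
    rw [SetLike.mem_coe, key] at hz
    rw [key, ← hzy]
    exact hz
  · intro h
    exact ⟨y, h, rfl⟩

theorem not_solSub_simple (G : Type u) [Group G] [Finite G] (hG : IsMinimalSimple G) : ¬ SolSub G := by
  intro h
  obtain ⟨hs, hc, hm⟩ := hG
  have hns : ¬ Group.IsSolvable G := by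
    intro hsol
    exact hc ⟨⟨fun a b => by
      have := IsSimpleGroup.comm_iff_isSolvable.mpr hsol
      exact this a b⟩⟩
  -- an involution
  have heven : ¬ Odd (Nat.card G) := fun ho => hns (Cfsg.Agent.S0205.result ho)
  obtain ⟨t, ht⟩ : ∃ t : G, orderOf t = 2 := by
    have := Fact.mk Nat.prime_two
    exact exists_prime_orderOf_dvd_card' 2 (by
      rw [Nat.not_odd_iff_even] at heven
      exact heven.two_dvd)
  have hgen : ∀ H : Subgroup G, (∀ s : G, orderOf s = 2 → s ∈ H) → H = ⊤ := by
    intro H hH
    have h1 : Subgroup.normalClosure ({t} : Set G) ≤ H := by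
      unfold Subgroup.normalClosure
      rw [Subgroup.closure_le]
      intro s hs
      rw [Group.mem_conjugatesOfSet_iff] at hs
      obtain ⟨a, ha, hconj⟩ := hs
      rw [Set.mem_singleton_iff] at ha
      subst ha
      obtain ⟨c, hc⟩ := isConj_iff.mp hconj
      apply hH
      rw [← hc, ← ht]
      exact (MulAut.conj c).orderOf_eq a
    have h2 : Subgroup.normalClosure ({t} : Set G) = ⊤ := by
      rcases hs.eq_bot_or_eq_top_of_normal _ (Subgroup.normalClosure_normal (s := {t})) with h | h
      · exfalso
        have : t ∈ Subgroup.normalClosure ({t} : Set G) := Subgroup.subset_normalClosure rfl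
        rw [h, Subgroup.mem_bot] at this
        rw [this, orderOf_one] at ht
        exact absurd ht (by norm_num)
      · exact h
    rw [h2] at h1
    exact top_le_iff.mp h1
  have sq : ∀ s : G, orderOf s = 2 → s * s = 1 := by
    intro s hs
    rw [← pow_two, ← hs, pow_orderOf_eq_one]
  -- every element generates with every involution a solvable group
  have h1 : ∀ s : G, orderOf s = 2 → ∀ y : G, Group.IsSolvable ↥(Subgroup.closure ({s, y} : Set G)) := by
    intro s hs y
    obtain ⟨H, hH⟩ := h s
    have : H = ⊤ := by
      apply hgen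
      intro r hr
      rw [← SetLike.mem_coe, hH]
      exact isSolvable_closure_pair (sq s hs) (sq r hr)
    have hy : y ∈ (H : Set G) := by rw [this]; trivial
    rw [hH] at hy
    exact hy
  apply hns
  apply Cfsg.Agent.S0489.result
  intro a b
  obtain ⟨H, hH⟩ := h a
  have : H = ⊤ := by
    apply hgen
    intro r hr
    rw [← SetLike.mem_coe, hH]
    have := h1 r hr a
    rw [Set.pair_comm] at this
    exact this
  have hy : b ∈ (H : Set G) := by rw [this]; trivial
  rw [hH] at hy
  exact hy

/-- For an element x of a finite group G let Sol(x) be the set of y ∈ G such that x and y generate a solvable subgroup. Then G is solvable if and only if Sol(x) is (the carrier of) a subgroup of G for every x ∈ G. -/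
theorem result {G : Type*} [Group G] [Finite G] :
    Group.IsSolvable G ↔ ∀ x : G, ∃ H : Subgroup G, (H : Set G) = {y : G | Group.IsSolvable ↥(Subgroup.closure ({x, y} : Set G))} := by
  constructor
  · intro h x
    refine ⟨⊤, ?_⟩
    ext y
    simp only [Subgroup.coe_top, Set.mem_univ, Set.mem_ofPred_eq, true_iff]
    infer_instance
  · intro h
    exact isSolvable_of_inherited SolSub (fun G _ _ K hK => solSub_subgroup G K hK)
      (fun G _ _ N _ hN hG => solSub_quotient G N hN hG)
      (fun G _ _ hG => not_solSub_simple G hG) G h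

end Cfsg.Agent.S4078
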