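-- S4081: groups of non-prime-power order with three automorphism orbits
import Mathlib
import Cfsg.Agent.S0144
import Cfsg.Agent.S0058
import Cfsg.Prelude.Def_Transfer
import Cfsg.Agent.H513.ThreeOrbBwdLA
import Cfsg.Statements.S4081
set_option linter.all false

-- part: H513/ThreeOrbLA
section
/-!
# Linear algebra for groups with three automorphism orbits (S4081)

Let `T` be an operator of prime order `q` on a nonzero space over `ZMod p`.  If the semilinear-like
operators `B` (`B ∘ T = T ^ i ∘ B`) are transitive on the nonzero vectors and realize all `i` prime to `q`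
then `p` is a primitive root modulo `q`.
-/

set_option autoImplicit false

namespace Cfsg.Agent.H513.ThreeOrb

open Polynomial

variable {F V : Type*} [Field F] [AddCommGroup V] [Module F V]

theorem aeval_conj (T : Module.End F V) (i : ℕ) (B : V ≃ₗ[F] V)
    (hB : ∀ v, B (T v) = (T ^ i) (B v)) (g : F[X]) (v : V) :
    B (aeval T g v) = aeval (T ^ i) g (B v) := by
  induction g using Polynomial.induction_on' generalizing v with
  | add g h hg hh => simp [hg, hh]
  | monomial n a =>
    simp only [aeval_monomial]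
    have h1 : ∀ (n : ℕ) (v : V), B ((T ^ n) v) = ((T ^ i) ^ n) (B v) := by
      intro n
      induction n with
      | zero => intro v; simp
      | succ n ih => intro v; rw [pow_succ, Module.End.mul_apply, ih, hB, pow_succ, Module.End.mul_apply]
    rw [Module.algebraMap_end_eq_smul_id]
    simp [h1]

/-- The annihilator of a vector. -/
def ann (T : Module.End F V) (v : V) : Ideal F[X] where
  carrier := {g | aeval T g v = 0}
  add_mem' := fun {a b} ha hb => by
    simp only [Set.mem_ofPred_eq] at ha hb ⊢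
    rw [map_add, LinearMap.add_apply, ha, hb, add_zero]
  zero_mem' := by simp
  smul_mem' := fun c x hx => by
    simp only [Set.mem_ofPred_eq, smul_eq_mul] at hx ⊢
    rw [map_mul, Module.End.mul_apply, hx, map_zero]

theorem mem_ann {T : Module.End F V} {v : V} {g : F[X]} : g ∈ ann T v ↔ aeval T g v = 0 := Iff.rfl

theorem ann_ne_top {T : Module.End F V} {v : V} (hv : v ≠ 0) : ann T v ≠ ⊤ := by
  rw [Ne, Ideal.eq_top_iff_one, mem_ann]
  simpa using hv

theorem aeval_pow_expand (T : Module.End F V) (i : ℕ) (g : F[X]) :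
    aeval (T ^ i) g = aeval T (expand F i g) := by
  rw [expand_aeval]

/-- If one annihilator is prime then all are. -/
theorem ann_prime {q : ℕ} (hq : q.Prime) (T : Module.End F V) (hTq : T ^ q = 1)
    (i : ℕ) (hi : ¬ q ∣ i) (B : V ≃ₗ[F] V)
    (hB : ∀ v, B (T v) = (T ^ i) (B v)) (v : V) (hv : (ann T v).IsPrime) :
    (ann T (B v)).IsPrime := by
  have hBv : B v ≠ 0 := by
    intro h
    have : v = 0 := by simpa using h
    subst this
    apply hv.ne_top
    rw [Ideal.eq_top_iff_one, mem_ann]
    simp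
  obtain ⟨j, hj⟩ : ∃ j, i * j ≡ 1 [MOD q] := by
    obtain ⟨j, -, hj⟩ := Nat.exists_mul_mod_eq_one_of_coprime
      ((Nat.Prime.coprime_iff_not_dvd hq).mpr hi).symm hq.one_lt
    exact ⟨j, by rw [Nat.ModEq, hj, Nat.mod_eq_of_lt hq.one_lt]⟩
  have hTj : (T ^ i) ^ j = T := by
    rw [← pow_mul]
    have h1 : T ^ (i * j) = T ^ 1 := by
      rw [← Nat.div_add_mod (i * j) q, hj, Nat.mod_eq_of_lt hq.one_lt, pow_add, pow_mul, hTq, one_pow, one_mul]
    rw [h1, pow_one]
  -- transfer
  have key : ∀ g : F[X], g ∈ ann T (B v) ↔ expand F j g ∈ ann T v := by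
    intro g
    rw [mem_ann, mem_ann]
    have h1 : B (aeval T (expand F j g) v) = aeval T g (B v) := by
      rw [aeval_conj T i B hB, ← aeval_pow_expand, hTj]
    rw [← h1]
    simp
  refine ⟨ann_ne_top hBv, fun {x y} hxy => ?_⟩
  rw [key, map_mul] at hxy
  rw [key, key]
  exact hv.mem_or_mem hxy

/-- The main step: some irreducible polynomial annihilates `T`. -/
theorem exists_irreducible {q : ℕ} (hq : q.Prime) [Nontrivial V] [Module.Finite F V]
    (T : Module.End F V) (hTq : T ^ q = 1)
    (htr : ∀ v w : V, v ≠ 0 → w ≠ 0 → ∃ (i : ℕ) (B : V ≃ₗ[F] V), ¬ q ∣ i ∧ B v = w ∧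
      ∀ u, B (T u) = (T ^ i) (B u)) :
    ∃ f : F[X], Irreducible f ∧ aeval T f = 0 := by
  -- the minimal polynomial
  have hint : IsIntegral F T := Algebra.IsIntegral.isIntegral T
  have hm0 : minpoly F T ≠ 0 := minpoly.ne_zero hint
  have hmu : ¬ IsUnit (minpoly F T) := minpoly.not_isUnit F T
  obtain ⟨f, hf, hfm⟩ := WfDvdMonoid.exists_irreducible_factor hmu hm0
  obtain ⟨g, hg⟩ := hfm
  refine ⟨f, hf, ?_⟩
  -- a vector with annihilator `(f)`
  have hg0 : g ≠ 0 := by rintro rfl; rw [mul_zero] at hg; exact hm0 hg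
  have hgT : aeval T g ≠ 0 := by
    intro h
    have h1 : minpoly F T ∣ g := minpoly.dvd F T h
    have h2 := Polynomial.degree_le_of_dvd h1 hg0
    rw [hg, Polynomial.degree_mul] at h2
    have h3 : 0 < f.degree := Polynomial.degree_pos_of_irreducible hf
    have h4 : g.degree ≠ ⊥ := by rwa [Ne, Polynomial.degree_eq_bot]
    revert h2 h3 h4
    rw [Polynomial.degree_eq_natDegree hf.ne_zero, Polynomial.degree_eq_natDegree hg0]
    intro h2 h3 h4
    norm_cast at h2 h3
    omega
  obtain ⟨u, hu⟩ : ∃ u, aeval T g u ≠ 0 := by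
    by_contra hcon
    push Not at hcon
    exact hgT (LinearMap.ext hcon)
  set v := aeval T g u with hv
  have hfv : f ∈ ann T v := by
    rw [mem_ann, hv, ← Module.End.mul_apply, ← map_mul, ← hg, minpoly.aeval]
    rfl
  have hmax : (Ideal.span {f} : Ideal F[X]).IsMaximal :=
    PrincipalIdealRing.isMaximal_of_irreducible hf
  have hannv : ann T v = Ideal.span {f} := by
    refine (hmax.eq_of_le (ann_ne_top hu) ?_).symm
    rw [Ideal.span_singleton_le_iff_mem]
    exact hfv
  have hvprime : (ann T v).IsPrime := by rw [hannv]; exact hmax.isPrime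
  have hprime : ∀ w : V, w ≠ 0 → (ann T w).IsPrime := by
    intro w hw
    obtain ⟨i, B, hi, rfl, hB⟩ := htr v w hu hw
    exact ann_prime hq T hTq i hi B hB v hvprime
  have hmaxl : ∀ w : V, w ≠ 0 → (ann T w).IsMaximal := by
    intro w hw
    have := hprime w hw
    refine IsPrime.to_maximal_ideal (S := ann T w) ?_
    intro hb
    have h1 : minpoly F T ∈ ann T w := by rw [mem_ann, minpoly.aeval]; rfl
    rw [hb, Ideal.mem_bot] at h1
    exact hm0 h1
  -- all the annihilators are equal
  have hall : ∀ w : V, w ≠ 0 → ann T w = ann T v := by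
    intro w hw
    by_contra hne
    have hvw : v + w ≠ 0 := by
      intro h
      apply hne
      have : w = -v := (neg_eq_of_add_eq_zero_right h).symm
      ext g
      rw [mem_ann, mem_ann, this, map_neg, neg_eq_zero]
    have hp := hprime _ hvw
    have hle : ann T v * ann T w ≤ ann T (v + w) := by
      rw [Ideal.mul_le]
      intro a ha b hb
      rw [mem_ann] at ha hb ⊢
      rw [map_add, map_mul, Module.End.mul_apply, Module.End.mul_apply, hb, map_zero, add_zero,
        ← Module.End.mul_apply, ← map_mul, mul_comm, map_mul, Module.End.mul_apply, ha, map_zero]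
    rcases (hp.mul_le).mp hle with h | h
    · -- `ann v = ann (v + w)`
      apply hne
      symm
      refine (hmaxl v hu).eq_of_le (ann_ne_top hw) fun g hg => ?_
      have h1 := h hg
      rw [mem_ann] at h1 hg ⊢
      rwa [map_add, hg, zero_add] at h1
    · apply hne
      refine (hmaxl w hw).eq_of_le (ann_ne_top hu) fun g hg => ?_
      have h1 := h hg
      rw [mem_ann] at h1 hg ⊢
      rwa [map_add, hg, add_zero] at h1
  refine LinearMap.ext fun w => ?_
  by_cases hw : w = 0
  · rw [hw]; simp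
  · have : f ∈ ann T w := by rw [hall w hw]; exact hfv
    exact this

/-- The exponents realized by semilinear operators are powers of `p`. -/
theorem exists_pow {p q : ℕ} [Fact p.Prime] (hq : q.Prime)
    {V : Type*} [AddCommGroup V] [Module (ZMod p) V]
    (T : Module.End (ZMod p) V) (hTq : T ^ q = 1) (hT1 : T ≠ 1)
    (f : (ZMod p)[X]) (hf : Irreducible f) (hfT : aeval T f = 0)
    (i : ℕ) (B : V ≃ₗ[ZMod p] V) (hB : ∀ u, B (T u) = (T ^ i) (B u)) :
    ∃ j, i ≡ p ^ j [MOD q] := by
  have : Fact (Irreducible f) := ⟨hf⟩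
  let L := AdjoinRoot f
  have hfin : Module.Finite (ZMod p) L := (AdjoinRoot.powerBasis hf.ne_zero).finite
  have : Finite L := Module.finite_of_finite (ZMod p)
  set ζ : L := AdjoinRoot.root f with hζ
  -- a polynomial killing `T` is a multiple of `f`
  have hdvd : ∀ g : (ZMod p)[X], aeval T g = 0 ↔ f ∣ g := by
    intro g
    constructor
    · intro h
      have hint : IsIntegral (ZMod p) T := ⟨_, Polynomial.monic_X_pow_sub_C 1 hq.ne_zero, by
        rw [← aeval_def, map_sub, map_pow, aeval_X, hTq]; simp⟩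
      have h1 : minpoly (ZMod p) T ∣ f := minpoly.dvd _ _ hfT
      have h2 : minpoly (ZMod p) T ∣ g := minpoly.dvd _ _ h
      have h3 : ¬ IsUnit (minpoly (ZMod p) T) := by
        intro hu
        have h4 := minpoly.aeval (ZMod p) T
        have h5 : IsUnit (aeval T (minpoly (ZMod p) T)) := hu.map _
        rw [h4, isUnit_zero_iff] at h5
        apply hT1
        rw [← one_mul T, ← h5, zero_mul, h5]
      exact ((hf.dvd_iff.mp h1).resolve_left h3).dvd.trans h2
    · rintro ⟨c, rfl⟩
      rw [map_mul, hfT, zero_mul]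
  have hζd : ∀ g : (ZMod p)[X], aeval ζ g = 0 ↔ f ∣ g := by
    intro g
    rw [hζ, AdjoinRoot.aeval_eq, AdjoinRoot.mk_eq_zero]
  -- `ζ ^ i` is a root of `f`
  have h1 : aeval (T ^ i) f = 0 := by
    refine LinearMap.ext fun v => ?_
    have h2 := aeval_conj T i B hB f (B.symm v)
    rw [hfT, B.apply_symm_apply] at h2
    rw [← h2]; simp
  have h2 : aeval (ζ ^ i) f = 0 := by
    have h3 : aeval (ζ ^ i) f = aeval ζ (expand (ZMod p) i f) := by rw [expand_aeval]
    rw [h3, hζd, ← hdvd, expand_aeval]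
    exact h1
  have hζq : ζ ^ q = 1 := by
    have h3 : aeval ζ (X ^ q - 1 : (ZMod p)[X]) = 0 := by
      rw [hζd, ← hdvd]
      simp [hTq]
    simpa [sub_eq_zero] using h3
  have hζ1 : ζ ≠ 1 := by
    intro h
    have h3 : aeval ζ (X - 1 : (ZMod p)[X]) = 0 := by simp [h]
    rw [hζd, ← hdvd] at h3
    apply hT1
    simpa [sub_eq_zero] using h3
  have hord : orderOf ζ = q := by
    have : Fact q.Prime := ⟨hq⟩
    exact orderOf_eq_prime hζq hζ1
  -- the automorphism of `L`
  let φ : L →ₐ[ZMod p] L := AdjoinRoot.liftAlgHom f (Algebra.ofId (ZMod p) L) (ζ ^ i) h2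
  have hφ : φ ζ = ζ ^ i := AdjoinRoot.liftAlgHom_root ..
  have hφb : Function.Bijective φ := ⟨φ.toRingHom.injective, by
    have : Function.Injective φ := φ.toRingHom.injective
    exact Finite.surjective_of_injective this⟩
  let ψ : L ≃ₐ[ZMod p] L := AlgEquiv.ofBijective φ hφb
  obtain ⟨j, hj⟩ := (FiniteField.bijective_frobeniusAlgEquivOfAlgebraic_pow (ZMod p) L).2 ψ
  refine ⟨j, ?_⟩
  have h3 : ψ ζ = ζ ^ (p ^ (j : ℕ)) := by
    rw [← hj, AlgEquiv.coe_pow, FiniteField.coe_frobeniusAlgEquivOfAlgebraic_iterate, ZMod.card]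
  have h4 : ψ ζ = ζ ^ i := hφ
  rw [h4] at h3
  have hζ0 : ζ ≠ 0 := by
    intro h
    rw [h, zero_pow hq.ne_zero] at hζq
    exact zero_ne_one hζq
  have h5 : (Units.mk0 ζ hζ0) ^ i = (Units.mk0 ζ hζ0) ^ (p ^ (j : ℕ)) := Units.ext (by simpa using h3)
  have h6 : orderOf (Units.mk0 ζ hζ0) = q := by rw [← orderOf_units, Units.val_mk0, hord]
  rw [← h6]
  exact pow_eq_pow_iff_modEq.mp h5

/-- **The arithmetical conclusion.** -/
theorem orderOf_eq {p q : ℕ} [Fact p.Prime] [hq : Fact q.Prime]
    (hall : ∀ i : ℕ, ¬ q ∣ i → ∃ j, i ≡ p ^ j [MOD q]) (hpq : p ≠ q) :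
    orderOf (p : ZMod q) = q - 1 := by
  have hcop : Nat.Coprime p q := (Nat.coprime_primes Fact.out hq.out).mpr hpq
  have h1 : orderOf (ZMod.unitOfCoprime p hcop) = Nat.card (ZMod q)ˣ := by
    apply orderOf_eq_card_of_forall_mem_zpowers
    intro u
    obtain ⟨j, hj⟩ := hall (u : ZMod q).val (by
      intro h
      have h2 : (u : ZMod q) = 0 := by
        rw [← ZMod.natCast_zmod_val (u : ZMod q)]
        exact (ZMod.natCast_eq_zero_iff _ _).mpr h
      exact u.ne_zero h2)
    rw [Subgroup.mem_zpowers_iff]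
    refine ⟨j, Units.ext ?_⟩
    rw [zpow_natCast, Units.val_pow_eq_pow_val, ZMod.coe_unitOfCoprime]
    have h2 : ((p ^ j : ℕ) : ZMod q) = ((u : ZMod q).val : ZMod q) :=
      ((ZMod.natCast_eq_natCast_iff _ _ _).mpr hj).symm
    rw [ZMod.natCast_zmod_val] at h2
    rw [← h2]; push_cast; rfl
  have h2 : orderOf (p : ZMod q) = orderOf (ZMod.unitOfCoprime p hcop) := by
    rw [← orderOf_units, ZMod.coe_unitOfCoprime]
  rw [h2, h1, Nat.card_eq_fintype_card, ZMod.card_units]

/-- The linear operator of an endomorphism of an elementary abelian group. -/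
def toLin (p : ℕ) {N : Type*} [CommGroup N] [Module (ZMod p) (Additive N)] (β : N →* N) :
    Module.End (ZMod p) (Additive N) :=
  (MonoidHom.toAdditive β).toZModLinearMap p

theorem toLin_apply (p : ℕ) {N : Type*} [CommGroup N] [Module (ZMod p) (Additive N)] (β : N →* N)
    (v : Additive N) : toLin p β v = Additive.ofMul (β v.toMul) := rfl

theorem toLin_pow_apply (p : ℕ) {N : Type*} [CommGroup N] [Module (ZMod p) (Additive N)] (β : MulAut N)
    (k : ℕ) (v : Additive N) :
    ((toLin p β.toMonoidHom) ^ k) v = Additive.ofMul ((β ^ k) v.toMul) := by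
  induction k generalizing v with
  | zero => simp
  | succ k ih =>
    rw [pow_succ, Module.End.mul_apply, ih, toLin_apply, pow_succ]
    rfl

/-- The linear automorphism of an automorphism of an elementary abelian group. -/
noncomputable def toLinE (p : ℕ) {N : Type*} [CommGroup N] [Module (ZMod p) (Additive N)] (β : MulAut N) :
    Additive N ≃ₗ[ZMod p] Additive N :=
  LinearEquiv.ofBijective (toLin p β.toMonoidHom) β.bijective

theorem toLinE_apply (p : ℕ) {N : Type*} [CommGroup N] [Module (ZMod p) (Additive N)] (β : MulAut N)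
    (v : Additive N) : toLinE p β v = Additive.ofMul (β v.toMul) := rfl

/-- **`p` is a primitive root modulo `q`.** -/
theorem primitive_root {N : Type*} [CommGroup N] [Finite N] [Nontrivial N] {p q : ℕ} [Fact p.Prime]
    [hq : Fact q.Prime] (hpq : p ≠ q)
    (hNp : ∀ v : N, v ^ p = 1) (T : MulAut N) (hTq : T ^ q = 1) (hT1 : T ≠ 1)
    (htr : ∀ v w : N, v ≠ 1 → w ≠ 1 → ∃ (i : ℕ) (B : MulAut N), ¬ q ∣ i ∧ B v = w ∧
      ∀ u, B (T u) = (T ^ i) (B u))
    (hall : ∀ i : ℕ, ¬ q ∣ i → ∃ B : MulAut N, ∀ u, B (T u) = (T ^ i) (B u)) :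
    orderOf (p : ZMod q) = q - 1 := by
  let mN : Module (ZMod p) (Additive N) := AddCommGroup.zmodModule (n := p) (fun v => hNp v.toMul)
  have hfin : Module.Finite (ZMod p) (Additive N) := Module.Finite.of_finite
  have hTq' : (toLin p T.toMonoidHom) ^ q = 1 := by
    refine LinearMap.ext fun v => ?_
    rw [toLin_pow_apply, hTq]; rfl
  have hT1' : toLin p T.toMonoidHom ≠ 1 := by
    intro h
    apply hT1
    refine MulEquiv.ext fun v => ?_
    have h1 := toLin_apply p T.toMonoidHom (Additive.ofMul v)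
    rw [h] at h1
    exact h1.symm
  have hB : ∀ (i : ℕ) (B : MulAut N), (∀ u, B (T u) = (T ^ i) (B u)) →
      ∀ u, toLinE p B (toLin p T.toMonoidHom u) = ((toLin p T.toMonoidHom) ^ i) (toLinE p B u) := by
    intro i B hB u
    rw [toLin_apply, toLinE_apply, toLinE_apply, toLin_pow_apply]
    exact congrArg Additive.ofMul (hB u.toMul)
  obtain ⟨f, hf, hfT⟩ := exists_irreducible hq.out (toLin p T.toMonoidHom) hTq' (by
    intro v w hv hw
    obtain ⟨i, B, hi, h1, h2⟩ := htr v.toMul w.toMul hv hw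
    exact ⟨i, toLinE p B, hi, congrArg Additive.ofMul h1, hB i B h2⟩)
  refine orderOf_eq (fun i hi => ?_) hpq
  obtain ⟨B, hB'⟩ := hall i hi
  exact exists_pow hq.out (toLin p T.toMonoidHom) hTq' hT1' f hf hfT i (toLinE p B) (hB i B hB')

end Cfsg.Agent.H513.ThreeOrb
end

-- part: H513/ThreeOrbFwd
section
/-!
# Groups with three automorphism orbits: the structure (S4081, forward direction)
-/

set_option autoImplicit false

namespace Cfsg.Agent.H513.ThreeOrb

section Orbits

variable {G : Type*} [Group G]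

theorem orbit_eq_iff (a b : G) :
    (Quotient.mk'' a : MulAction.orbitRel.Quotient (MulAut G) G) = Quotient.mk'' b ↔
      ∃ α : MulAut G, α b = a := by
  rw [Quotient.eq'', MulAction.orbitRel_apply, MulAction.mem_orbit_iff]
  rfl

theorem three_orbits (h : Nat.card (MulAction.orbitRel.Quotient (MulAut G) G) = 3) (x₁ x₂ : G)
    (h₁ : x₁ ≠ 1) (h₂ : x₂ ≠ 1) (hne : orderOf x₁ ≠ orderOf x₂) (g : G) :
    g = 1 ∨ (∃ α : MulAut G, α x₁ = g) ∨ (∃ α : MulAut G, α x₂ = g) := by
  classical
  have hfin : Finite (MulAction.orbitRel.Quotient (MulAut G) G) :=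
    Nat.finite_of_card_ne_zero (by rw [h]; decide)
  have := Fintype.ofFinite (MulAction.orbitRel.Quotient (MulAut G) G)
  let π : G → MulAction.orbitRel.Quotient (MulAut G) G := Quotient.mk''
  have h12 : π x₁ ≠ π x₂ := by
    intro hcon
    rw [orbit_eq_iff] at hcon
    obtain ⟨α, hα⟩ := hcon
    apply hne
    rw [← hα]
    exact MulEquiv.orderOf_eq α x₂
  have h01 : ∀ x : G, x ≠ 1 → π 1 ≠ π x := by
    intro x hx hcon
    rw [orbit_eq_iff] at hcon
    obtain ⟨α, hα⟩ := hcon
    apply hx
    exact (MulEquiv.map_eq_one_iff α).mp hα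
  have hcard : ({π 1, π x₁, π x₂} : Finset _).card = 3 := by
    rw [Finset.card_insert_of_notMem, Finset.card_insert_of_notMem, Finset.card_singleton]
    · simpa using h12
    · simp only [Finset.mem_insert, Finset.mem_singleton, not_or]
      exact ⟨h01 _ h₁, h01 _ h₂⟩
  have huniv : ({π 1, π x₁, π x₂} : Finset _) = Finset.univ := by
    rw [← Finset.card_eq_iff_eq_univ, hcard, ← Nat.card_eq_fintype_card, h]
  have hg : π g ∈ ({π 1, π x₁, π x₂} : Finset _) := by rw [huniv]; exact Finset.mem_univ _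
  simp only [Finset.mem_insert, Finset.mem_singleton] at hg
  rcases hg with hg | hg | hg
  · left
    by_contra hcon
    exact h01 g hcon hg.symm
  · right; left
    exact (orbit_eq_iff g x₁).mp hg
  · right; right
    exact (orbit_eq_iff g x₂).mp hg

end Orbits

section Core

variable {G : Type*} [Group G] [Finite G] {p q : ℕ}

/-- The order of a group without elements of order outside `{1, p, q}`. -/
theorem card_eq (h1 : ∀ g : G, g ≠ 1 → orderOf g = p ∨ orderOf g = q) (hpq : p ≠ q) :
    ∃ a b, Nat.card G = p ^ a * q ^ b := by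
  have hsub : (Nat.card G).primeFactors ⊆ {p, q} := by
    intro r hr
    have hr' := Nat.prime_of_mem_primeFactors hr
    have hrd := Nat.dvd_of_mem_primeFactors hr
    have : Fact r.Prime := ⟨hr'⟩
    obtain ⟨x, hx⟩ := exists_prime_orderOf_dvd_card' r hrd
    have hx1 : x ≠ 1 := by
      rintro rfl
      rw [orderOf_one] at hx
      exact hr'.one_lt.ne hx
    have := h1 x hx1
    rw [hx] at this
    simpa using this
  refine ⟨(Nat.card G).factorization p, (Nat.card G).factorization q, ?_⟩
  have h2 := Nat.prod_factorization_pow_eq_self (n := Nat.card G) Nat.card_pos.ne'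
  rw [Finsupp.prod_of_support_subset _ hsub _ (by simp)] at h2
  rw [Finset.prod_pair hpq] at h2
  exact h2.symm

/-- **The structure theorem.** -/
theorem forward_core [hp : Fact p.Prime] [hq : Fact q.Prime] (hpq : p ≠ q)
    (h1 : ∀ g : G, g ≠ 1 → orderOf g = p ∨ orderOf g = q)
    (h2 : ∀ g h : G, orderOf g = p → orderOf h = p → ∃ α : MulAut G, α g = h)
    (h3 : ∀ g h : G, orderOf g = q → orderOf h = q → ∃ α : MulAut G, α g = h)
    (xp : G) (hxp : orderOf xp = p) (xq : G) (hxq : orderOf xq = q)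
    (A : Subgroup G) (hAc : A.Characteristic) (hAab : ∀ a ∈ A, ∀ b ∈ A, a * b = b * a) (hxA : xp ∈ A) :
    ∃ (n : ℕ), 1 ≤ n ∧ Nat.card G = p ^ n * q ∧
      (∀ P : Sylow p G, (P : Subgroup G).Normal ∧ Cfsg.IsElementaryAbelian p (P : Subgroup G)) ∧
      orderOf (p : ZMod q) = q - 1 ∧
      ∀ x y : G, orderOf x = q → orderOf y = p → x * y * x⁻¹ ≠ y := by
  have hpp : p.Prime := hp.out
  have hqq : q.Prime := hq.out
  -- all elements of order `p` lie in `A`
  have hpA : ∀ g : G, g ^ p = 1 → g ∈ A := by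
    intro g hg
    by_cases hg1 : g = 1
    · rw [hg1]; exact A.one_mem
    · obtain ⟨α, hα⟩ := h2 xp g hxp (orderOf_eq_prime hg hg1)
      rw [← hα]
      have := hAc.fixed α
      rw [← this] at hxA
      exact hxA
  -- no elements of order `p q`
  have hfree : ∀ x y : G, orderOf x = q → orderOf y = p → x * y * x⁻¹ ≠ y := by
    intro x y hx hy hcon
    have hc : Commute x y := by
      have : x * y = y * x := by
        calc x * y = x * y * x⁻¹ * x := by group
          _ = y * x := by rw [hcon]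
      exact this
    have hcop : Nat.Coprime (orderOf x) (orderOf y) := by
      rw [hx, hy]; exact (Nat.coprime_primes hqq hpp).mpr hpq.symm
    have ho := hc.orderOf_mul_eq_mul_orderOf_of_coprime hcop
    have hne : x * y ≠ 1 := by
      intro h
      rw [h, orderOf_one, hx, hy] at ho
      have h4 := hqq.one_lt
      have h5 := hpp.one_lt
      nlinarith
    rcases h1 _ hne with h | h
    · rw [ho, hx, hy] at h
      have h4 := hqq.one_lt
      have h5 := hpp.pos
      nlinarith
    · rw [ho, hx, hy] at h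
      have h4 := hpp.one_lt
      have h5 := hqq.pos
      nlinarith
  -- the subgroup of elements with `p`-th power one
  let N : Subgroup G :=
    { carrier := {g | g ^ p = 1}
      one_mem' := one_pow p
      mul_mem' := fun {a b} ha hb => by
        have hc : Commute a b := hAab a (hpA a ha) b (hpA b hb)
        change (a * b) ^ p = 1
        rw [hc.mul_pow]
        rw [show a ^ p = 1 from ha, show b ^ p = 1 from hb, one_mul]
      inv_mem' := fun {a} ha => by
        change a⁻¹ ^ p = 1
        rw [inv_pow, show a ^ p = 1 from ha, inv_one] }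
  have hN : ∀ g, g ∈ N ↔ g ^ p = 1 := fun g => Iff.rfl
  have hNn : N.Normal := ⟨fun n hn g => by
    rw [hN] at hn ⊢
    rw [conj_pow, hn]; group⟩
  have hNp : IsPGroup p N := fun g => ⟨1, Subtype.ext (by rw [pow_one]; exact g.2)⟩
  have hNab : ∀ a ∈ N, ∀ b ∈ N, a * b = b * a := fun a ha b hb => hAab a (hpA a ha) b (hpA b hb)
  have hSyl : ∀ P : Sylow p G, (P : Subgroup G) = N := by
    intro P
    refine le_antisymm ?_ (IsPGroup.le_sylow_of_normal hNp P)
    intro s hs
    rw [hN]
    by_cases hs1 : s = 1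
    · rw [hs1, one_pow]
    · rcases h1 s hs1 with h | h
      · rw [← h, pow_orderOf_eq_one]
      · exfalso
        obtain ⟨k, hk⟩ := P.2 ⟨s, hs⟩
        have hk' : s ^ (p ^ k) = 1 := by simpa using congrArg Subtype.val hk
        have h4 : q ∣ p ^ k := by rw [← h]; exact orderOf_dvd_of_pow_eq_one hk'
        have h5 := hqq.dvd_of_dvd_pow h4
        exact hpq ((Nat.prime_dvd_prime_iff_eq hqq hpp).mp h5).symm
  obtain ⟨P⟩ : Nonempty (Sylow p G) := inferInstance
  obtain ⟨a, b, hab⟩ := card_eq h1 hpq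
  -- orders
  have hNcard : Nat.card N = p ^ a := by
    rw [← hSyl P, Sylow.card_eq_multiplicity, hab]
    congr 1
    rw [Nat.factorization_mul (pow_ne_zero _ hpp.ne_zero) (pow_ne_zero _ hqq.ne_zero),
      hpp.factorization_pow, hqq.factorization_pow]
    simp [hpq.symm]
  have hqd : q ∣ Nat.card G := by rw [← hxq]; exact orderOf_dvd_natCard xq
  have hpd : p ∣ Nat.card G := by rw [← hxp]; exact orderOf_dvd_natCard xp
  have ha1 : 1 ≤ a := by
    rcases Nat.eq_zero_or_pos a with h | h
    · exfalso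
      rw [h, pow_zero, one_mul] at hab
      rw [hab] at hpd
      exact hpq ((Nat.prime_dvd_prime_iff_eq hpp hqq).mp (hpp.dvd_of_dvd_pow hpd))
    · exact h
  have hb1 : 1 ≤ b := by
    rcases Nat.eq_zero_or_pos b with h | h
    · exfalso
      rw [h, pow_zero, mul_one] at hab
      rw [hab] at hqd
      exact hpq ((Nat.prime_dvd_prime_iff_eq hqq hpp).mp (hqq.dvd_of_dvd_pow hqd)).symm
    · exact h
  have hxpN : xp ∈ N := by rw [hN, ← hxp, pow_orderOf_eq_one]
  have hb : b = 1 := by
    by_contra hb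
    have hb2 : 2 ≤ b := by omega
    have hd : q ^ 2 ∣ Nat.card G := by
      rw [hab]
      exact (pow_dvd_pow q hb2).trans (dvd_mul_left _ _)
    obtain ⟨E, hE⟩ := Sylow.exists_subgroup_card_pow_prime q hd
    have hEcomm : IsMulCommutative E := by
      refine ⟨⟨fun x y => ?_⟩⟩
      exact (IsPGroup.isMulCommutative_of_card_eq_prime_sq hE).is_comm.comm x y
    have hEnc : ¬ IsCyclic E := by
      intro hc
      obtain ⟨g, hg⟩ := hc.exists_ofOrder_eq_natCard
      rw [hE, ← Subgroup.orderOf_coe] at hg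
      have hg1 : (g : G) ≠ 1 := by
        intro h
        rw [h, orderOf_one] at hg
        have := Nat.one_lt_pow (n := 2) (by norm_num) hqq.one_lt
        omega
      rcases h1 g hg1 with h | h
      · rw [hg] at h
        have h4 : q ∣ p := by rw [← h]; exact dvd_pow_self q two_ne_zero
        exact hpq ((Nat.prime_dvd_prime_iff_eq hqq hpp).mp h4).symm
      · rw [hg] at h
        have h4 := hqq.one_lt
        nlinarith
    have hcopr : (Nat.card E).Coprime (Nat.card N) := by
      rw [hE, hNcard]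
      exact Nat.Coprime.pow _ _ ((Nat.coprime_primes hqq hpp).mpr hpq.symm)
    have h4 := S0058.result E N hEnc (by rw [Subgroup.normalizer_eq_top_iff.mpr hNn]; exact le_top) hcopr
    have h5 : (⨆ a ∈ {a : G | a ∈ E ∧ a ≠ 1}, N ⊓ Subgroup.centralizer {a}) = ⊥ := by
      rw [eq_bot_iff]
      refine iSup₂_le fun e he y hy => ?_
      rw [Subgroup.mem_bot]
      by_contra hy1
      have hyo : orderOf y = p := orderOf_eq_prime ((hN y).mp hy.1) hy1
      have heo : orderOf e = q := by
        rcases h1 e he.2 with h | h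
        · exfalso
          have h6 : orderOf e ∣ q ^ 2 := by
            rw [← hE, ← Subgroup.orderOf_mk e he.1]
            exact orderOf_dvd_natCard _
          rw [h] at h6
          exact hpq ((Nat.prime_dvd_prime_iff_eq hpp hqq).mp (hpp.dvd_of_dvd_pow h6))
        · exact h
      apply hfree e y heo hyo
      have h6 := (Subgroup.mem_centralizer_iff.mp hy.2) e rfl
      rw [h6]; group
    rw [h5] at h4
    rw [← h4, Subgroup.mem_bot] at hxpN
    rw [hxpN, orderOf_one] at hxp
    exact hpp.one_lt.ne hxp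
  subst hb
  rw [pow_one] at hab
  refine ⟨a, ha1, hab, fun P => ?_, ?_, hfree⟩
  · rw [hSyl P]
    exact ⟨hNn, ⟨⟨fun x y => Subtype.ext (hNab x x.2 y y.2)⟩⟩, fun x hx => hx⟩
  -- the primitive root
  have hidx : N.index = q := by
    have h4 := N.card_mul_index
    rw [hNcard, hab] at h4
    exact Nat.eq_of_mul_eq_mul_left (pow_pos hpp.pos a) h4
  have hxqN : xq ∉ N := by
    intro h
    rw [hN] at h
    have h4 : orderOf xq ∣ p := orderOf_dvd_of_pow_eq_one h
    rw [hxq] at h4
    exact hpq ((Nat.prime_dvd_prime_iff_eq hqq hpp).mp h4).symm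
  have hdec : ∀ g : G, ∃ i : ℕ, g * (xq ^ i)⁻¹ ∈ N := by
    intro g
    have hc : Nat.card (G ⧸ N) = q := hidx
    have hne : (xq : G ⧸ N) ≠ 1 := by
      rw [Ne, QuotientGroup.eq_one_iff]; exact hxqN
    have h4 : (g : G ⧸ N) ∈ Submonoid.powers (xq : G ⧸ N) := mem_powers_of_prime_card hc hne
    obtain ⟨i, hi⟩ := h4
    refine ⟨i, ?_⟩
    rw [← QuotientGroup.eq_one_iff, QuotientGroup.mk_mul, QuotientGroup.mk_inv, QuotientGroup.mk_pow, ← hi]
    exact mul_inv_cancel _
  let cN : CommGroup N := { (inferInstance : Group N) with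
    mul_comm := fun x y => Subtype.ext (hNab x x.2 y y.2) }
  have hntN : Nontrivial N := by
    refine ⟨⟨⟨xp, hxpN⟩, 1, ?_⟩⟩
    intro h
    have h5 : xp = 1 := congrArg Subtype.val h
    rw [h5, orderOf_one] at hxp
    exact hpp.one_lt.ne hxp
  let T : MulAut N := MulAut.conjNormal xq
  have hTk : ∀ (k : ℕ) (v : N), (((T ^ k) v : N) : G) = xq ^ k * v * (xq ^ k)⁻¹ := by
    intro k v
    have h4 : T ^ k = MulAut.conjNormal (xq ^ k) := (map_pow _ _ _).symm
    rw [h4, MulAut.conjNormal_apply]
  have hT : ∀ (v : N), ((T v : N) : G) = xq * v * xq⁻¹ := fun v => MulAut.conjNormal_apply _ _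
  have hTq : T ^ q = 1 := by
    have h5 : xq ^ q = 1 := by rw [← hxq]; exact pow_orderOf_eq_one xq
    have h4 : T ^ q = MulAut.conjNormal (xq ^ q) := (map_pow _ _ _).symm
    rw [h4, h5, map_one]
  have hT1 : T ≠ 1 := by
    intro h
    have h4 := hT ⟨xp, hxpN⟩
    rw [h] at h4
    exact hfree xq xp hxq hxp h4.symm
  -- the operator of an automorphism
  have hαN : ∀ (α : MulAut G) (x : G), x ∈ N → α x ∈ N := by
    intro α x hx
    rw [hN] at hx ⊢
    rw [← map_pow, hx, map_one]
  let B : MulAut G → MulAut N := fun α =>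
    MulEquiv.ofBijective ((α.toMonoidHom.comp N.subtype).codRestrict N (fun x => hαN α x x.2))
      ⟨fun v w hvw => Subtype.ext (α.injective (congrArg Subtype.val hvw)),
       Finite.surjective_of_injective fun v w hvw => Subtype.ext (α.injective (congrArg Subtype.val hvw))⟩
  have hB : ∀ (α : MulAut G) (v : N), ((B α v : N) : G) = α v := fun α v => rfl
  have hBT : ∀ (α : MulAut G) (i : ℕ) (u : G), u ∈ N → α xq = u * xq ^ i →
      ∀ v, B α (T v) = (T ^ i) (B α v) := by
    intro α i u hu hα v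
    apply Subtype.ext
    rw [hB, hT, hTk, hB, map_mul, map_mul, map_inv, hα]
    have h6 : xq ^ i * α (v : G) * (xq ^ i)⁻¹ ∈ N :=
      hNn.conj_mem _ (hαN α _ v.2) _
    have h7 := hNab u hu _ h6
    calc u * xq ^ i * α (v : G) * (u * xq ^ i)⁻¹
        = u * (xq ^ i * α (v : G) * (xq ^ i)⁻¹) * u⁻¹ := by group
      _ = xq ^ i * α (v : G) * (xq ^ i)⁻¹ := by rw [h7]; group
  refine primitive_root (N := N) hpq (fun v => Subtype.ext v.2) T hTq hT1 ?_ ?_
  · intro v w hv hw
    have h4 : ∀ v : N, v ≠ 1 → orderOf (v : G) = p := fun v hv =>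
      orderOf_eq_prime v.2 fun h => hv (Subtype.ext h)
    obtain ⟨α, hα⟩ := h2 _ _ (h4 v hv) (h4 w hw)
    obtain ⟨i, hi⟩ := hdec (α xq)
    refine ⟨i, B α, ?_, ?_, ?_⟩
    · rintro ⟨k, rfl⟩
      have h5 : xq ^ (q * k) = 1 := by
        rw [pow_mul, ← hxq, pow_orderOf_eq_one, one_pow]
      rw [h5, inv_one, mul_one, hN] at hi
      have h6 : orderOf (α xq) ∣ p := orderOf_dvd_of_pow_eq_one hi
      rw [MulEquiv.orderOf_eq, hxq] at h6
      exact hpq ((Nat.prime_dvd_prime_iff_eq hqq hpp).mp h6).symm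
    · exact Subtype.ext hα
    · exact hBT α i _ hi (by group)
  · intro i hi
    have hxi : orderOf (xq ^ i) = q := by
      rw [orderOf_pow, hxq]
      have : Nat.gcd q i = 1 := (Nat.Prime.coprime_iff_not_dvd hqq).mpr hi
      rw [this, Nat.div_one]
    obtain ⟨α, hα⟩ := h3 _ _ hxq hxi
    exact ⟨B α, hBT α i 1 N.one_mem (by rw [hα, one_mul])⟩

/-- **The forward direction.** -/
theorem forward (hnpp : ¬ IsPrimePow (Nat.card G)) (hnt : Nat.card G ≠ 1)
    (h : Nat.card (MulAction.orbitRel.Quotient (MulAut G) G) = 3) :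
    ∃ (p q n : ℕ) (_ : Fact p.Prime) (_ : Fact q.Prime), p ≠ q ∧ 1 ≤ n ∧ Nat.card G = p ^ n * q ∧
      (∀ P : Sylow p G, (P : Subgroup G).Normal ∧ Cfsg.IsElementaryAbelian p (P : Subgroup G)) ∧
      orderOf (p : ZMod q) = q - 1 ∧
      ∀ x y : G, orderOf x = q → orderOf y = p → x * y * x⁻¹ ≠ y := by
  -- two primes
  obtain ⟨p₁, hp₁, hp₁d⟩ := Nat.exists_prime_and_dvd hnt
  obtain ⟨p₂, hp₂, hp₂d, hne⟩ : ∃ p₂, p₂.Prime ∧ p₂ ∣ Nat.card G ∧ p₁ ≠ p₂ := by
    by_contra hcon
    push Not at hcon
    apply hnpp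
    have h1 : (Nat.card G).primeFactors = {p₁} := by
      ext r
      rw [Finset.mem_singleton, Nat.mem_primeFactors]
      constructor
      · rintro ⟨h1, h2, -⟩
        exact (hcon r h1 h2).symm
      · rintro rfl
        exact ⟨hp₁, hp₁d, Nat.card_pos.ne'⟩
    rw [isPrimePow_iff_card_primeFactors_eq_one, h1, Finset.card_singleton]
  have f₁ : Fact p₁.Prime := ⟨hp₁⟩
  have f₂ : Fact p₂.Prime := ⟨hp₂⟩
  obtain ⟨x₁, hx₁⟩ := exists_prime_orderOf_dvd_card' p₁ hp₁d
  obtain ⟨x₂, hx₂⟩ := exists_prime_orderOf_dvd_card' p₂ hp₂d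
  have hx₁1 : x₁ ≠ 1 := by
    rintro rfl; rw [orderOf_one] at hx₁; exact hp₁.one_lt.ne hx₁
  have hx₂1 : x₂ ≠ 1 := by
    rintro rfl; rw [orderOf_one] at hx₂; exact hp₂.one_lt.ne hx₂
  have h3 := three_orbits h x₁ x₂ hx₁1 hx₂1 (by rw [hx₁, hx₂]; exact hne)
  have hord : ∀ g : G, g ≠ 1 → orderOf g = p₁ ∨ orderOf g = p₂ := by
    intro g hg
    rcases h3 g with h | ⟨α, rfl⟩ | ⟨α, rfl⟩
    · exact absurd h hg
    · left; rw [MulEquiv.orderOf_eq, hx₁]
    · right; rw [MulEquiv.orderOf_eq, hx₂]
  have ht₁ : ∀ g : G, orderOf g = p₁ → ∃ α : MulAut G, α x₁ = g := by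
    intro g hg
    rcases h3 g with h | h | ⟨α, rfl⟩
    · rw [h, orderOf_one] at hg; exact absurd hg hp₁.one_lt.ne
    · exact h
    · rw [MulEquiv.orderOf_eq, hx₂] at hg; exact absurd hg.symm hne
  have ht₂ : ∀ g : G, orderOf g = p₂ → ∃ α : MulAut G, α x₂ = g := by
    intro g hg
    rcases h3 g with h | ⟨α, rfl⟩ | h
    · rw [h, orderOf_one] at hg; exact absurd hg hp₂.one_lt.ne
    · rw [MulEquiv.orderOf_eq, hx₁] at hg; exact absurd hg hne
    · exact h
  have ht : ∀ (p : ℕ) (x : G), (∀ g : G, orderOf g = p → ∃ α : MulAut G, α x = g) →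
      ∀ g h : G, orderOf g = p → orderOf h = p → ∃ α : MulAut G, α g = h := by
    intro p x hx g h hg hh
    obtain ⟨α, rfl⟩ := hx g hg
    obtain ⟨β, rfl⟩ := hx h hh
    exact ⟨β * α⁻¹, by simp⟩
  -- solvability
  obtain ⟨a, b, hab⟩ := card_eq hord hne
  have hsol : Group.IsSolvable G := S0144.result p₁ p₂ a b hp₁ hp₂ hab
  -- a characteristic abelian subgroup
  obtain ⟨A, hAc, hAab, hA1⟩ : ∃ A : Subgroup G, A.Characteristic ∧ (∀ a ∈ A, ∀ b ∈ A, a * b = b * a) ∧
      A ≠ ⊥ := by
    classical
    have hex := hsol.solvable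
    set n := Nat.find hex with hn
    have hnbot : derivedSeries G n = ⊥ := Nat.find_spec hex
    have hn0 : n ≠ 0 := by
      intro h0
      rw [h0, derivedSeries_zero] at hnbot
      apply hx₁1
      have : x₁ ∈ (⊥ : Subgroup G) := by rw [← hnbot]; exact Subgroup.mem_top _
      exact Subgroup.mem_bot.mp this
    obtain ⟨m, hm⟩ := Nat.exists_eq_succ_of_ne_zero hn0
    refine ⟨derivedSeries G m, inferInstance, ?_, ?_⟩
    · intro a ha b hb
      rw [hm, Nat.succ_eq_add_one, derivedSeries_succ, eq_bot_iff, Subgroup.commutator_le] at hnbot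
      have h4 := hnbot a ha b hb
      rw [Subgroup.mem_bot] at h4
      exact commutatorElement_eq_one_iff_mul_comm.mp h4
    · exact Nat.find_min hex (by omega)
  obtain ⟨y, hy1⟩ := (Subgroup.ne_bot_iff_exists_ne_one.mp hA1)
  rcases hord y (fun h => hy1 (Subtype.ext h)) with hy | hy
  · obtain ⟨n, h5⟩ := forward_core hne hord (ht p₁ x₁ ht₁) (ht p₂ x₂ ht₂) y hy x₂ hx₂ A hAc hAab y.2
    exact ⟨p₁, p₂, n, f₁, f₂, hne, h5⟩
  · obtain ⟨n, h5⟩ := forward_core hne.symm (fun g hg => (hord g hg).symm) (ht p₂ x₂ ht₂) (ht p₁ x₁ ht₁)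
      y hy x₁ hx₁ A hAc hAab y.2
    exact ⟨p₂, p₁, n, f₂, f₁, hne.symm, h5⟩

end Core

end Cfsg.Agent.H513.ThreeOrb
end

-- part: H513/ThreeOrbBwd
section
/-!
# Groups with three automorphism orbits: the converse (S4081)
-/

set_option autoImplicit false

namespace Cfsg.Agent.H513.ThreeOrb

/-- **The converse, for an elementary abelian group.** -/
theorem backward_mul {p q : ℕ} [hp : Fact p.Prime] [hq : Fact q.Prime] (hpq : p ≠ q)
    (hord : orderOf (p : ZMod q) = q - 1) {N : Type*} [CommGroup N] (hNp : ∀ v : N, v ^ p = 1)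
    (T : MulAut N) (hTq : T ^ q = 1) (hfix : ∀ v, T v = v → v = 1) :
    (∀ v w : N, v ≠ 1 → w ≠ 1 → ∃ e : MulAut N, e v = w ∧ ∀ u, e (T u) = T (e u)) ∧
    (∀ i : ℕ, ¬ q ∣ i → ∃ e : MulAut N, ∀ u, e (T u) = (T ^ i) (e u)) := by
  let mN : Module (ZMod p) (Additive N) := AddCommGroup.zmodModule (n := p) (fun v => hNp v.toMul)
  have hTq' : (toLin p T.toMonoidHom) ^ q = 1 := by
    refine LinearMap.ext fun v => ?_
    rw [toLin_pow_apply, hTq]; rfl
  obtain ⟨h1, h2⟩ := backward_LA hpq hord (toLin p T.toMonoidHom) hTq' (fun v hv =>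
    hfix v.toMul hv)
  constructor
  · intro v w hv hw
    obtain ⟨e, he, he'⟩ := h1 (Additive.ofMul v) (Additive.ofMul w) hv hw
    exact ⟨MulEquiv.toAdditive.symm e, he, fun u => he' (Additive.ofMul u)⟩
  · intro i hi
    obtain ⟨e, he⟩ := h2 i hi
    refine ⟨MulEquiv.toAdditive.symm e, fun u => ?_⟩
    have h3 := he (Additive.ofMul u)
    rw [toLin_pow_apply] at h3
    exact h3

section Group

variable {G : Type*} [Group G] [Finite G]

/-- Extending a pair of compatible automorphisms to a semidirect product. -/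
theorem exists_aut {q : ℕ} [hq : Fact q.Prime] (N : Subgroup G) [N.Normal] (x : G) (hx : orderOf x = q)
    (hc : N.IsComplement' (Subgroup.zpowers x)) (i : ℕ) (hi : ¬ q ∣ i) (e : MulAut N)
    (he : ∀ u : N, e (MulAut.conjNormal x u) = ((MulAut.conjNormal x) ^ i) (e u)) :
    ∃ α : MulAut G, (∀ n : N, α n = e n) ∧ α x = x ^ i := by
  let K := Subgroup.zpowers x
  have hKcard : Nat.card K = q := by rw [Nat.card_zpowers, hx]
  have hcop : (Nat.card K).Coprime i := by
    rw [hKcard]; exact (Nat.Prime.coprime_iff_not_dvd hq.out).mpr hi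
  let fg : K ≃* K :=
    { powCoprime hcop with
      map_mul' := fun a b => (show Commute a b from by
        have : IsMulCommutative K := inferInstance
        exact this.is_comm.comm a b).mul_pow i }
  have hfg : ∀ k : K, fg k = k ^ i := fun k => rfl
  let E := SemidirectProduct.mulEquivSubgroup hc
  have hE : ∀ (n : N) (k : K), E ⟨n, k⟩ = n * k := fun n k => rfl
  let ψ : K →* MulAut N := N.normalizerMonoidHom.comp
      (Subgroup.inclusion (by rw [Subgroup.normalizer_eq_top_iff.mpr ‹N.Normal›]; exact le_top :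
        K ≤ Subgroup.normalizer (N : Set G)))
  have hψ : ∀ (k : K) (n : N), ((ψ k n : N) : G) = k * n * (k : G)⁻¹ := fun k n => rfl
  have he2 : ∀ (m : ℕ) (u : N), e (((MulAut.conjNormal x) ^ m) u) =
      (((MulAut.conjNormal x) ^ i) ^ m) (e u) := by
    intro m
    induction m with
    | zero => intro u; simp
    | succ m ih =>
      intro u
      rw [pow_succ, MulAut.mul_apply, ih, he, pow_succ, MulAut.mul_apply]
  have hcompat : ∀ k : K, (ψ k).trans e = e.trans (ψ (fg k)) := by
    intro k
    obtain ⟨m, hm⟩ : ∃ m : ℕ, x ^ m = (k : G) := by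
      have := (mem_powers_iff_mem_zpowers (x := x)).mpr k.2
      exact this
    refine MulEquiv.ext fun u => ?_
    have h1 : ψ k u = ((MulAut.conjNormal x) ^ m) u := by
      apply Subtype.ext
      rw [hψ, ← map_pow, MulAut.conjNormal_apply, hm]
    have h2 : ψ (fg k) (e u) = (((MulAut.conjNormal x) ^ i) ^ m) (e u) := by
      apply Subtype.ext
      rw [hψ, ← map_pow, ← map_pow, MulAut.conjNormal_apply, hfg, Subgroup.coe_pow, ← hm, ← pow_mul,
        ← pow_mul, mul_comm m i]
    change e (ψ k u) = ψ (fg k) (e u)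
    rw [h1, h2, he2]
  let α : MulAut G := E.symm.trans ((SemidirectProduct.congr e fg hcompat).trans E)
  have hα : ∀ (n : N) (k : K), α (n * k) = e n * ((k ^ i : K) : G) := by
    intro n k
    change E ((SemidirectProduct.congr e fg hcompat) (E.symm (n * k))) = _
    have h1 : E.symm (n * k) = ⟨n, k⟩ := by rw [MulEquiv.symm_apply_eq]; rfl
    rw [h1]
    rfl
  refine ⟨α, fun n => ?_, ?_⟩
  · have := hα n 1
    simpa using this
  · have := hα 1 ⟨x, Subgroup.mem_zpowers x⟩
    simpa using this

/-- **The converse.** -/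
theorem backward {p q n : ℕ} [hp : Fact p.Prime] [hq : Fact q.Prime] (hpq : p ≠ q) (hn : 1 ≤ n)
    (hcard : Nat.card G = p ^ n * q)
    (hS : ∀ P : Sylow p G, (P : Subgroup G).Normal ∧ Cfsg.IsElementaryAbelian p (P : Subgroup G))
    (hord : orderOf (p : ZMod q) = q - 1)
    (hfree : ∀ x y : G, orderOf x = q → orderOf y = p → x * y * x⁻¹ ≠ y) :
    Nat.card (MulAction.orbitRel.Quotient (MulAut G) G) = 3 := by
  classical
  have hpp : p.Prime := hp.out
  have hqq : q.Prime := hq.out
  obtain ⟨P⟩ : Nonempty (Sylow p G) := inferInstance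
  set N : Subgroup G := (P : Subgroup G) with hN
  obtain ⟨hNn, hNab, hNp⟩ := hS P
  have hNcard : Nat.card N = p ^ n := by
    rw [hN, Sylow.card_eq_multiplicity, hcard]
    congr 1
    rw [Nat.factorization_mul (pow_ne_zero _ hpp.ne_zero) hqq.ne_zero,
      hpp.factorization_pow, hqq.factorization]
    simp [hpq.symm]
  have hidx : N.index = q := by
    have h4 := N.card_mul_index
    rw [hNcard, hcard] at h4
    exact Nat.eq_of_mul_eq_mul_left (pow_pos hpp.pos n) h4
  -- elements of order `p` lie in `N`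
  have hpN : ∀ g : G, orderOf g = p → g ∈ N := by
    intro g hg
    have h1 : IsPGroup p (Subgroup.zpowers g) := IsPGroup.of_card (n := 1) (by
      rw [Nat.card_zpowers, hg, pow_one])
    obtain ⟨R, hR⟩ := h1.exists_le_sylow
    have h2 : (P : Subgroup G) ≤ R := IsPGroup.le_sylow_of_normal P.2 R
    have h3 : P = R := by
      have hRn := (hS R).1
      refine (Sylow.ext (le_antisymm h2 ?_))
      exact IsPGroup.le_sylow_of_normal R.2 P
    rw [hN, h3]
    exact hR (Subgroup.mem_zpowers g)
  have hNord : ∀ g ∈ N, g ≠ 1 → orderOf g = p := fun g hg hg1 => orderOf_eq_prime (hNp g hg) hg1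
  -- the other elements have order `q`
  have hqord : ∀ g : G, g ∉ N → orderOf g = q := by
    intro g hg
    have h1 : g ^ q ∈ N := by
      rw [← QuotientGroup.eq_one_iff, QuotientGroup.mk_pow, ← hidx, Subgroup.index]
      exact pow_card_eq_one'
    by_contra hne
    have hgq : g ^ q ≠ 1 := by
      intro h
      apply hne
      refine orderOf_eq_prime h ?_
      rintro rfl
      exact hg N.one_mem
    have h2 : orderOf (g ^ q) = p := hNord _ h1 hgq
    have hqd : q ∣ orderOf g := by
      by_contra hcon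
      have h3 : (orderOf g).Coprime q := ((Nat.Prime.coprime_iff_not_dvd hqq).mpr hcon).symm
      have h4 : orderOf (g ^ q) = orderOf g := h3.orderOf_pow
      rw [h2] at h4
      exact hg (hpN g h4.symm)
    have h3 : orderOf (g ^ q) = orderOf g / q := by
      rw [orderOf_pow, Nat.gcd_eq_right hqd]
    have h4 : orderOf g = p * q := by
      rw [h2] at h3
      rw [h3, Nat.div_mul_cancel hqd]
    have h5 : orderOf (g ^ p) = q := by
      rw [orderOf_pow, h4, Nat.gcd_eq_right (dvd_mul_right p q), Nat.mul_div_cancel_left _ hpp.pos]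
    apply hfree _ _ h5 h2
    group
  -- elements of order `q`
  obtain ⟨x, hx⟩ := exists_prime_orderOf_dvd_card' (G := G) q (by rw [hcard]; exact dvd_mul_left _ _)
  have hxN : x ∉ N := by
    intro h
    have h1 : orderOf x ∣ p := orderOf_dvd_of_pow_eq_one (hNp x h)
    rw [hx] at h1
    exact hpq ((Nat.prime_dvd_prime_iff_eq hqq hpp).mp h1).symm
  obtain ⟨y, hy⟩ := exists_prime_orderOf_dvd_card' (G := G) p (by
    rw [hcard]; exact (dvd_pow_self p (by omega)).trans (dvd_mul_right _ _))
  have hx1 : x ≠ 1 := by rintro rfl; exact hxN N.one_mem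
  have hy1 : y ≠ 1 := by rintro rfl; rw [orderOf_one] at hy; exact hpp.one_lt.ne hy
  have hc : N.IsComplement' (Subgroup.zpowers x) := by
    refine Subgroup.isComplement'_of_coprime ?_ ?_
    · rw [hNcard, Nat.card_zpowers, hx, hcard]
    · rw [hNcard, Nat.card_zpowers, hx]
      exact Nat.Coprime.pow_left _ ((Nat.coprime_primes hpp hqq).mpr hpq)
  -- the action of `x`
  let cN : CommGroup N := { (inferInstance : Group N) with mul_comm := hNab.is_comm.comm }
  have hTq : (MulAut.conjNormal x : MulAut N) ^ q = 1 := by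
    rw [← map_pow, ← hx, pow_orderOf_eq_one, map_one]
  have hfix : ∀ v : N, MulAut.conjNormal x v = v → v = 1 := by
    intro v hv
    by_contra hv1
    have h1 : orderOf (v : G) = p := hNord v v.2 (fun h => hv1 (Subtype.ext h))
    apply hfree x v hx h1
    have h2 := congrArg Subtype.val hv
    rw [MulAut.conjNormal_apply] at h2
    exact h2
  obtain ⟨ha, hb⟩ := backward_mul hpq hord (N := N) (fun v => Subtype.ext (hNp v v.2))
    (MulAut.conjNormal x) hTq hfix
  -- transitivity on elements of order `p`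
  have htp : ∀ g : G, orderOf g = p → ∃ α : MulAut G, α y = g := by
    intro g hg
    have hgN := hpN g hg
    have hyN := hpN y hy
    obtain ⟨e, he1, he2⟩ := ha ⟨y, hyN⟩ ⟨g, hgN⟩ (fun h => hy1 (congrArg Subtype.val h)) (by
      intro h
      have : g = 1 := congrArg Subtype.val h
      rw [this, orderOf_one] at hg
      exact hpp.one_lt.ne hg)
    obtain ⟨α, hα, -⟩ := exists_aut N x hx hc 1 (by
      intro h; exact hqq.one_lt.ne' (Nat.dvd_one.mp h)) e (fun u => by rw [pow_one]; exact he2 u)
    refine ⟨α, ?_⟩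
    have := hα ⟨y, hyN⟩
    rw [he1] at this
    exact this
  -- transitivity on elements of order `q`
  have htq : ∀ g : G, orderOf g = q → ∃ α : MulAut G, α x = g := by
    intro g hg
    have hqcard : Nat.card G = q ^ 1 * p ^ n := by rw [hcard]; ring
    have hsyl : ∀ z : G, orderOf z = q → ∃ R : Sylow q G, (R : Subgroup G) = Subgroup.zpowers z := by
      intro z hz
      have h1 : IsPGroup q (Subgroup.zpowers z) := IsPGroup.of_card (n := 1) (by
        rw [Nat.card_zpowers, hz, pow_one])
      obtain ⟨R, hR⟩ := h1.exists_le_sylow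
      refine ⟨R, (Subgroup.eq_of_le_of_card_ge hR ?_).symm⟩
      rw [Nat.card_zpowers, hz, Sylow.card_eq_multiplicity, hcard,
        Nat.factorization_mul (pow_ne_zero _ hpp.ne_zero) hqq.ne_zero,
        hpp.factorization_pow, hqq.factorization]
      simp [hpq]
    obtain ⟨R, hR⟩ := hsyl x hx
    obtain ⟨R', hR'⟩ := hsyl g hg
    obtain ⟨c, hcR⟩ := MulAction.exists_smul_eq G R R'
    have h1 : g ∈ (R' : Subgroup G) := by rw [hR']; exact Subgroup.mem_zpowers g
    rw [← hcR, Sylow.coe_subgroup_smul, Subgroup.mem_pointwise_smul_iff_inv_smul_mem, hR] at h1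
    have h2 : c⁻¹ * g * c ∈ Subgroup.zpowers x := by
      simpa [MulAut.smul_def, mul_assoc] using h1
    obtain ⟨i, hi⟩ : ∃ i : ℕ, x ^ i = c⁻¹ * g * c := (mem_powers_iff_mem_zpowers (x := x)).mpr h2
    have hiq : ¬ q ∣ i := by
      rintro ⟨k, rfl⟩
      rw [pow_mul, ← hx, pow_orderOf_eq_one, one_pow] at hi
      have h3 : g = 1 := by
        calc g = c * (c⁻¹ * g * c) * c⁻¹ := by group
          _ = 1 := by rw [← hi]; group
      rw [h3, orderOf_one] at hg
      exact hqq.one_lt.ne hg
    obtain ⟨e, he⟩ := hb i hiq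
    obtain ⟨α, -, hα⟩ := exists_aut N x hx hc i hiq e he
    refine ⟨MulAut.conj c * α, ?_⟩
    rw [MulAut.mul_apply, hα, hi, MulAut.conj_apply]
    group
  -- counting the orbits
  let π : G → MulAction.orbitRel.Quotient (MulAut G) G := Quotient.mk''
  have := Fintype.ofFinite (MulAction.orbitRel.Quotient (MulAut G) G)
  have hne1 : ∀ z : G, z ≠ 1 → π 1 ≠ π z := by
    intro z hz hcon
    rw [orbit_eq_iff] at hcon
    obtain ⟨α, hα⟩ := hcon
    exact hz ((MulEquiv.map_eq_one_iff α).mp hα)
  have hxy : π x ≠ π y := by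
    intro hcon
    rw [orbit_eq_iff] at hcon
    obtain ⟨α, hα⟩ := hcon
    have h1 := MulEquiv.orderOf_eq α y
    rw [hα, hx, hy] at h1
    exact hpq h1.symm
  have huniv : (Finset.univ : Finset (MulAction.orbitRel.Quotient (MulAut G) G)) = {π 1, π x, π y} := by
    refine (Finset.eq_univ_iff_forall.mpr fun ω => ?_).symm
    induction ω using Quotient.inductionOn' with
    | h g =>
      simp only [Finset.mem_insert, Finset.mem_singleton]
      by_cases hg1 : g = 1
      · left; rw [hg1]
      · right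
        by_cases hgN : g ∈ N
        · right
          exact (orbit_eq_iff g y).mpr (htp g (hNord g hgN hg1))
        · left
          exact (orbit_eq_iff g x).mpr (htq g (hqord g hgN))
  rw [Nat.card_eq_fintype_card, ← Finset.card_univ, huniv, Finset.card_insert_of_notMem,
    Finset.card_insert_of_notMem, Finset.card_singleton]
  · simpa using hxy
  · simp only [Finset.mem_insert, Finset.mem_singleton, not_or]
    exact ⟨hne1 x hx1, hne1 y hy1⟩

end Group

end Cfsg.Agent.H513.ThreeOrb
end

-- part: S4081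
section
set_option autoImplicit false
open Cfsg

namespace Cfsg.Agent.S4081

/-- Let G be a finite group whose order is not a prime power. Then the automorphism group of G has exactly three orbits on G if and only if there are distinct primes p, q with #G = pⁿ·q (n ≥ 1) such that G has a normal elementary abelian Sylow p-subgroup P, p is a primitive root modulo q (the multiplicative order of p mod q is q − 1), and every element of order q of G acts on P without non-identity fixed points. -/
theorem result {G : Type*} [Group G] [Finite G] (hnpp : ¬ IsPrimePow (Nat.card G)) (hnt : Nat.card G ≠ 1) :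
    Nat.card (MulAction.orbitRel.Quotient (MulAut G) G) = 3 ↔
    ∃ (p q n : ℕ) (_ : Fact p.Prime) (_ : Fact q.Prime), p ≠ q ∧ 1 ≤ n ∧ Nat.card G = p ^ n * q ∧
      (∀ P : Sylow p G, (P : Subgroup G).Normal ∧ Cfsg.IsElementaryAbelian p (P : Subgroup G)) ∧
      orderOf (p : ZMod q) = q - 1 ∧
      ∀ x y : G, orderOf x = q → orderOf y = p → x * y * x⁻¹ ≠ y := by
  constructor
  · exact H513.ThreeOrb.forward hnpp hnt
  · rintro ⟨p, q, n, hp, hq, hpq, hn, hcard, hS, hord, hfree⟩
    exact H513.ThreeOrb.backward hpq hn hcard hS hord hfree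

end Cfsg.Agent.S4081
end
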