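-- S4082: groups whose p-by-cyclic subgroups are cyclic or dihedral, p odd
import Cfsg.Statements.S4082
import Cfsg.Agent.Lib.DihedralRecog
set_option linter.all false

set_option autoImplicit false
open Cfsg

namespace Cfsg.Agent.S4082

/-- If `N` is a normal `p`-subgroup with cyclic quotient then the Sylow `p`-subgroups are normal with
cyclic quotient. -/
theorem sylow_of_normal {K : Type*} [Group K] [Finite K] {p : ℕ} [Fact p.Prime] (N : Subgroup K)
    [N.Normal] (hN : IsPGroup p N) (hc : IsCyclic (K ⧸ N)) :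
    (∀ S : Sylow p K, (S : Subgroup K).Normal) ∧
    (∀ (S : Sylow p K) [(S : Subgroup K).Normal], IsCyclic (K ⧸ (S : Subgroup K))) := by
  have h1 : ∀ S : Sylow p K, N ≤ (S : Subgroup K) := fun S => IsPGroup.le_sylow_of_normal hN S
  have h2 : ∀ a b : K, a * b * a⁻¹ * b⁻¹ ∈ N := by
    intro a b
    rw [← QuotientGroup.eq_one_iff]
    let _ : CommGroup (K ⧸ N) := IsCyclic.commGroup
    simp only [QuotientGroup.mk_mul, QuotientGroup.mk_inv]
    rw [mul_comm (a : K ⧸ N) (b : K ⧸ N)]
    group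
  refine ⟨fun S => ⟨fun n hn g => ?_⟩, fun S hS => ?_⟩
  · have h3 : g * n * g⁻¹ = (g * n * g⁻¹ * n⁻¹) * n := by group
    rw [h3]
    exact Subgroup.mul_mem _ (h1 S (h2 g n)) hn
  · refine isCyclic_of_surjective (QuotientGroup.map N (S : Subgroup K) (MonoidHom.id K) (h1 S)) ?_
    intro y
    obtain ⟨x, rfl⟩ := QuotientGroup.mk_surjective y
    exact ⟨(x : K ⧸ N), rfl⟩

/-- The subgroup generated by a `p`-subgroup and an element normalizing it is `p`-by-cyclic. -/
theorem sylow_of_sup {G : Type*} [Group G] [Finite G] {p : ℕ} [Fact p.Prime] (Q : Subgroup G)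
    (hQ : IsPGroup p Q) (x : G) (hx : x ∈ Subgroup.normalizer (Q : Set G)) :
    (∀ S : Sylow p ↥(Q ⊔ Subgroup.zpowers x), (S : Subgroup ↥(Q ⊔ Subgroup.zpowers x)).Normal) ∧
    (∀ (S : Sylow p ↥(Q ⊔ Subgroup.zpowers x)) [(S : Subgroup ↥(Q ⊔ Subgroup.zpowers x)).Normal],
      IsCyclic (↥(Q ⊔ Subgroup.zpowers x) ⧸ (S : Subgroup ↥(Q ⊔ Subgroup.zpowers x)))) := by
  set H := Q ⊔ Subgroup.zpowers x with hH
  have hHn : H ≤ Subgroup.normalizer (Q : Set G) := by
    rw [hH, sup_le_iff, Subgroup.zpowers_le]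
    exact ⟨Subgroup.le_normalizer, hx⟩
  have hQH : Q ≤ H := le_sup_left
  have hxH : x ∈ H := by
    rw [hH]; exact Subgroup.mem_sup_right (Subgroup.mem_zpowers x)
  have hn : (Q.subgroupOf H).Normal := Subgroup.normal_subgroupOf_of_le_normalizer hHn
  have hp : IsPGroup p (Q.subgroupOf H) :=
    hQ.of_injective (Subgroup.subgroupOfEquivOfLe hQH).toMonoidHom
      (Subgroup.subgroupOfEquivOfLe hQH).injective
  refine sylow_of_normal (Q.subgroupOf H) hp ?_
  -- the quotient is generated by the image of `x`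
  let x' : H := ⟨x, hxH⟩
  let T : Subgroup H := (Subgroup.zpowers (QuotientGroup.mk' (Q.subgroupOf H) x')).comap
    (QuotientGroup.mk' (Q.subgroupOf H))
  have hT : ∀ h : H, h ∈ T := by
    have h1 : H ≤ T.map H.subtype := by
      conv_lhs => rw [hH]
      rw [sup_le_iff, Subgroup.zpowers_le]
      constructor
      · intro y hy
        refine ⟨⟨y, hQH hy⟩, ?_, rfl⟩
        rw [SetLike.mem_coe, Subgroup.mem_comap]
        have : QuotientGroup.mk' (Q.subgroupOf H) ⟨y, hQH hy⟩ = 1 := by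
          rw [QuotientGroup.mk'_apply, QuotientGroup.eq_one_iff]
          exact hy
        rw [this]
        exact Subgroup.one_mem _
      · exact ⟨x', Subgroup.mem_zpowers _, rfl⟩
    intro h
    obtain ⟨y, hy, hyh⟩ := h1 h.2
    have : y = h := Subtype.ext hyh
    rwa [← this]
  refine ⟨⟨QuotientGroup.mk' (Q.subgroupOf H) x', fun y => ?_⟩⟩
  obtain ⟨h, rfl⟩ := QuotientGroup.mk_surjective y
  exact hT h

/-- In a dihedral group the elements of odd order are rotations. -/
theorem rotation_of_odd {m : ℕ} (y : DihedralGroup m) (n : ℕ) (hn : Odd n) (hy : y ^ n = 1) :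
    ∃ j, y = DihedralGroup.r j := by
  rcases y with j | j
  · exact ⟨j, rfl⟩
  · exfalso
    obtain ⟨t, ht⟩ := hn
    rw [ht, pow_add, pow_mul] at hy
    simp only [pow_two, DihedralGroup.sr_mul_self, one_pow, pow_one, one_mul] at hy
    exact absurd hy (by rintro ⟨⟩)

theorem dihedral_sub {G : Type*} [Group G] {m p : ℕ} (hp2 : Odd p) (H Q : Subgroup G)
    (e : H ≃* DihedralGroup m) (hQH : Q ≤ H) (hQ : IsPGroup p Q) (x : G) (hx : x ∈ H)
    (hxQ : x ∉ Subgroup.centralizer (Q : Set G)) :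
    x * x = 1 ∧ x ≠ 1 ∧ ∀ y ∈ Q, x * y * x⁻¹ = y⁻¹ := by
  have hr : ∀ z (hz : z ∈ Q), ∃ j, e ⟨z, hQH hz⟩ = DihedralGroup.r j := by
    intro z hz
    obtain ⟨k, hk⟩ := hQ ⟨z, hz⟩
    have hk' : z ^ (p ^ k) = 1 := by simpa using congrArg Subtype.val hk
    refine rotation_of_odd _ (p ^ k) hp2.pow ?_
    rw [← map_pow]
    have : (⟨z, hQH hz⟩ : H) ^ (p ^ k) = 1 := Subtype.ext (by simpa using hk')
    rw [this, map_one]
  rcases hex : e ⟨x, hx⟩ with i | i
  · exfalso
    apply hxQ
    rw [Subgroup.mem_centralizer_iff]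
    intro y hy
    obtain ⟨j, hj⟩ := hr y hy
    have h8 : e ⟨y, hQH hy⟩ * e ⟨x, hx⟩ = e ⟨x, hx⟩ * e ⟨y, hQH hy⟩ := by
      rw [hj, hex]; simp [add_comm]
    rw [← map_mul, ← map_mul] at h8
    simpa using congrArg Subtype.val (e.injective h8)
  · refine ⟨?_, ?_, fun y hy => ?_⟩
    · have h1 : e ⟨x, hx⟩ * e ⟨x, hx⟩ = 1 := by rw [hex]; simp
      rw [← map_mul, ← map_one e] at h1
      simpa using congrArg Subtype.val (e.injective h1)
    · intro h
      have : (⟨x, hx⟩ : H) = 1 := Subtype.ext h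
      rw [this, map_one] at hex
      exact absurd hex (by rintro ⟨⟩)
    · obtain ⟨j, hj⟩ := hr y hy
      have h3 : e ⟨x, hx⟩ * e ⟨y, hQH hy⟩ * (e ⟨x, hx⟩)⁻¹ = (e ⟨y, hQH hy⟩)⁻¹ := by
        rw [hj, hex]; simp
      rw [← map_mul, ← map_inv, ← map_mul, ← map_inv] at h3
      simpa using congrArg Subtype.val (e.injective h3)

/-- A group with a normal Sylow `p`-subgroup with cyclic quotient and a homomorphism to a cyclic `p`-group that
is injective on the Sylow subgroup is cyclic. -/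
theorem cyclic_of_hom {H C : Type*} [Group H] [Finite H] [Group C] [Finite C] {p : ℕ} [Fact p.Prime]
    (S : Sylow p H) [(S : Subgroup H).Normal] (hS : IsCyclic (H ⧸ (S : Subgroup H)))
    (hC : IsCyclic C) (hCp : IsPGroup p C) (f : H →* C)
    (hf : ∀ s ∈ (S : Subgroup H), f s = 1 → s = 1) : IsCyclic H := by
  have h1 : IsCyclic (C × (H ⧸ (S : Subgroup H))) := by
    rw [Group.isCyclic_prod_iff]
    refine ⟨hC, hS, ?_⟩
    obtain ⟨n, hn⟩ := IsPGroup.iff_card.mp hCp
    rw [hn]
    apply Nat.Coprime.pow_left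
    have h2 : ¬ p ∣ (S : Subgroup H).index := S.not_dvd_index
    exact (Nat.Prime.coprime_iff_not_dvd Fact.out).mpr h2
  refine isCyclic_of_injective (f.prod (QuotientGroup.mk' (S : Subgroup H))) ?_
  rw [injective_iff_map_eq_one]
  intro a ha
  rw [MonoidHom.prod_apply, Prod.mk_eq_one, QuotientGroup.mk'_apply, QuotientGroup.eq_one_iff] at ha
  exact hf a ha.2 ha.1

/-- Elements of order `p` of a cyclic group generate the same subgroup. -/
theorem mem_zpowers_of_cyclic {C : Type*} [Group C] [Finite C] [IsCyclic C] {p : ℕ} [Fact p.Prime]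
    (z w : C) (hz : orderOf z = p) (hw : orderOf w = p) : w ∈ Subgroup.zpowers z := by
  classical
  have := Fintype.ofFinite C
  have hp : p.Prime := Fact.out
  have h1 := IsCyclic.card_pow_eq_one_le (α := C) hp.pos
  have h2 : (Subgroup.zpowers z : Set C).toFinset = Finset.univ.filter (fun a : C => a ^ p = 1) := by
    apply Finset.eq_of_subset_of_card_le
    · intro a ha
      rw [Set.mem_toFinset, SetLike.mem_coe, Subgroup.mem_zpowers_iff] at ha
      obtain ⟨k, rfl⟩ := ha
      rw [Finset.mem_filter]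
      refine ⟨Finset.mem_univ _, ?_⟩
      rw [← zpow_natCast, ← zpow_mul, mul_comm, zpow_mul, zpow_natCast, ← hz, pow_orderOf_eq_one, one_zpow]
    · have h3 : (Subgroup.zpowers z : Set C).toFinset.card = p := by
        rw [Set.toFinset_card, ← hz, ← Nat.card_zpowers z, Nat.card_eq_fintype_card]
        rfl
      rw [h3]
      exact h1
  have h4 : w ∈ Finset.univ.filter (fun a : C => a ^ p = 1) := by
    rw [Finset.mem_filter]
    exact ⟨Finset.mem_univ _, by rw [← hw]; exact pow_orderOf_eq_one w⟩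
  rw [← h2, Set.mem_toFinset] at h4
  exact h4

section Forward

variable {G : Type*} [Group G] [Finite G] {p : ℕ} [Fact p.Prime]

/-- The hypothesis of the forward direction. -/
def Res (p : ℕ) (G : Type*) [Group G] : Prop :=
  ∀ H : Subgroup G, (∀ S : Sylow p ↥H, (S : Subgroup ↥H).Normal) →
        (∀ (S : Sylow p ↥H) [(S : Subgroup ↥H).Normal], IsCyclic (↥H ⧸ (S : Subgroup ↥H))) →
        IsCyclic H ∨ (∃ n : ℕ, Nonempty (H ≃* DihedralGroup (p ^ n)))

theorem inv_of_not_cent (hp : p ≠ 2) (h : Res p G) (Q : Subgroup G) (hQ : IsPGroup p Q) (x : G)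
    (hx : x ∈ Subgroup.normalizer (Q : Set G)) (hxQ : x ∉ Subgroup.centralizer (Q : Set G)) :
    x * x = 1 ∧ x ≠ 1 ∧ ∀ y ∈ Q, x * y * x⁻¹ = y⁻¹ := by
  have hp2 : Odd p := (Fact.out : p.Prime).odd_of_ne_two hp
  obtain ⟨h1, h2⟩ := sylow_of_sup Q hQ x hx
  have hxH : x ∈ Q ⊔ Subgroup.zpowers x := Subgroup.mem_sup_right (Subgroup.mem_zpowers x)
  rcases h _ h1 h2 with h3 | ⟨n, ⟨e⟩⟩
  · exfalso
    apply hxQ
    rw [Subgroup.mem_centralizer_iff]
    intro y hy
    have hc : IsMulCommutative ↥(Q ⊔ Subgroup.zpowers x) := by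
      let _ : CommGroup ↥(Q ⊔ Subgroup.zpowers x) := IsCyclic.commGroup
      exact ⟨⟨mul_comm⟩⟩
    have h4 := hc.is_comm.comm ⟨y, Subgroup.mem_sup_left hy⟩ ⟨x, hxH⟩
    simpa using congrArg Subtype.val h4
  · exact dihedral_sub hp2 _ Q e le_sup_left hQ x hxH hxQ

theorem forward (hp : p ≠ 2) (P : Sylow p G) (h : Res p G) :
    (IsCyclic P ∧
      (Subgroup.normalizer ((P : Subgroup G) : Set G) = Subgroup.centralizer ((P : Subgroup G) : Set G) ∨
       ((Subgroup.centralizer ((P : Subgroup G) : Set G)).relIndex (Subgroup.normalizer ((P : Subgroup G) : Set G)) = 2 ∧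
        ∀ Q : Subgroup G, Q ≤ P → Nat.card Q = p →
          IsMulCommutative ↥(Subgroup.centralizer (Q : Set G)) ∧
          ∀ x : G, x ∈ Subgroup.normalizer (Q : Set G) → x ∉ Subgroup.centralizer (Q : Set G) →
            orderOf x = 2 ∧ ∀ c : G, c ∈ Subgroup.centralizer (Q : Set G) → x * c * x⁻¹ = c⁻¹))) := by
  have hpp : p.Prime := Fact.out
  have hp2 : Odd p := hpp.odd_of_ne_two hp
  have hPp : IsPGroup p (P : Subgroup G) := P.2
  -- `P` is cyclic
  have hcyc : IsCyclic P := by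
    have hs : Subsingleton (↥(P : Subgroup G) ⧸ (⊤ : Subgroup ↥(P : Subgroup G))) :=
      QuotientGroup.subsingleton_quotient_top
    obtain ⟨h1, h2⟩ := sylow_of_normal (⊤ : Subgroup ↥(P : Subgroup G))
      (hPp.of_injective (Subgroup.subtype _) (Subgroup.subtype_injective _))
      (isCyclic_of_subsingleton)
    rcases h _ h1 h2 with h3 | ⟨n, ⟨e⟩⟩
    · exact h3
    · exfalso
      obtain ⟨k, hk⟩ := IsPGroup.iff_card.mp hPp
      have h4 : Nat.card ↥(P : Subgroup G) = 2 * p ^ n := by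
        rw [Nat.card_congr e.toEquiv, DihedralGroup.nat_card]
      rw [hk] at h4
      have h5 : Odd (p ^ k) := hp2.pow
      rw [h4] at h5
      exact (Nat.not_odd_iff_even.mpr (even_two_mul _)) h5
  refine ⟨hcyc, ?_⟩
  by_cases hNC : Subgroup.normalizer ((P : Subgroup G) : Set G) =
      Subgroup.centralizer ((P : Subgroup G) : Set G)
  · exact Or.inl hNC
  right
  have hCN : Subgroup.centralizer ((P : Subgroup G) : Set G) ≤
      Subgroup.normalizer ((P : Subgroup G) : Set G) := Subgroup.centralizer_le_normalizer _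
  obtain ⟨t, htN, htC⟩ : ∃ t ∈ Subgroup.normalizer ((P : Subgroup G) : Set G),
      t ∉ Subgroup.centralizer ((P : Subgroup G) : Set G) := by
    by_contra hcon
    push Not at hcon
    exact hNC (le_antisymm hcon hCN)
  have hinv := fun x hx hx' => inv_of_not_cent hp h (P : Subgroup G) hPp x hx hx'
  have ht := hinv t htN htC
  constructor
  · rw [Subgroup.relIndex_eq_two_iff]
    refine ⟨t, htN, fun b hb => ?_⟩
    by_cases hbC : b ∈ Subgroup.centralizer ((P : Subgroup G) : Set G)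
    · right
      refine ⟨hbC, fun hbt => htC ?_⟩
      have : t = b⁻¹ * (b * t) := by group
      rw [this]
      exact Subgroup.mul_mem _ (Subgroup.inv_mem _ hbC) hbt
    · left
      refine ⟨?_, hbC⟩
      rw [Subgroup.mem_centralizer_iff]
      intro y hy
      have h1 := (hinv b hb hbC).2.2
      have h2 : b * t * y * (b * t)⁻¹ = y := by
        have h3 : b * t * y * (b * t)⁻¹ = b * (t * y * t⁻¹) * b⁻¹ := by group
        rw [h3, ht.2.2 y hy, h1 y⁻¹ (Subgroup.inv_mem _ hy), inv_inv]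
      calc y * (b * t) = b * t * y * (b * t)⁻¹ * (b * t) := by rw [h2]
        _ = b * t * y := by group
  · intro Q hQP hQ
    have hQp : IsPGroup p Q := hPp.to_le hQP
    have hx1 : ∀ x ∈ Subgroup.normalizer (Q : Set G), x ∉ Subgroup.centralizer (Q : Set G) →
        x * x = 1 ∧ x ≠ 1 ∧ ∀ y ∈ Q, x * y * x⁻¹ = y⁻¹ :=
      fun x hx hx' => inv_of_not_cent hp h Q hQp x hx hx'
    have hCQN : Subgroup.centralizer (Q : Set G) ≤ Subgroup.normalizer (Q : Set G) :=
      Subgroup.centralizer_le_normalizer _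
    have hx2 : ∀ x ∈ Subgroup.normalizer (Q : Set G), x ∉ Subgroup.centralizer (Q : Set G) →
        ∀ c ∈ Subgroup.centralizer (Q : Set G), x * c * x⁻¹ = c⁻¹ := by
      intro x hx hx' c hc
      have h1 : x * c ∈ Subgroup.normalizer (Q : Set G) := Subgroup.mul_mem _ hx (hCQN hc)
      have h2 : x * c ∉ Subgroup.centralizer (Q : Set G) := by
        intro h3
        apply hx'
        have : x = (x * c) * c⁻¹ := by group
        rw [this]
        exact Subgroup.mul_mem _ h3 (Subgroup.inv_mem _ hc)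
      have h3 := (hx1 _ h1 h2).1
      have h4 := (hx1 _ hx hx').1
      have h5 : x⁻¹ = x := inv_eq_of_mul_eq_one_left h4
      rw [h5]
      rw [← mul_assoc] at h3
      exact eq_inv_of_mul_eq_one_left h3
    -- `t` inverts `Q`
    have htQN : t ∈ Subgroup.normalizer (Q : Set G) := by
      rw [Subgroup.mem_normalizer_iff]
      intro y
      constructor
      · intro hy
        rw [ht.2.2 y (hQP hy)]
        exact Subgroup.inv_mem _ hy
      · intro hy
        have h1 : t * (t * y * t⁻¹) * t⁻¹ = (t * y * t⁻¹)⁻¹ := ht.2.2 _ (hQP hy)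
        have h2 : t * (t * y * t⁻¹) * t⁻¹ = y := by
          have h3 : t * (t * y * t⁻¹) * t⁻¹ = (t * t) * y * (t * t)⁻¹ := by group
          rw [h3, ht.1]; group
        rw [← h2, h1]
        exact Subgroup.inv_mem _ hy
    have htQC : t ∉ Subgroup.centralizer (Q : Set G) := by
      intro hcon
      have hne : (Q : Subgroup G) ≠ ⊥ := by
        intro hb
        rw [hb, Subgroup.card_bot] at hQ
        exact hpp.one_lt.ne hQ
      obtain ⟨y, hy1⟩ := Subgroup.ne_bot_iff_exists_ne_one.mp hne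
      have hy : (y : G) ∈ Q := y.2
      have h1 := ht.2.2 y (hQP hy)
      rw [Subgroup.mem_centralizer_iff] at hcon
      have h2 := hcon y hy
      rw [← h2, mul_assoc, mul_inv_cancel, mul_one] at h1
      have h3 : (y : G) ^ 2 = 1 := by
        rw [pow_two]
        nth_rewrite 1 [h1]
        exact inv_mul_cancel _
      have h4 : orderOf (y : G) ∣ p := by
        have := orderOf_dvd_natCard y
        rw [hQ] at this
        rwa [← Subgroup.orderOf_coe] at this
      have h5 : orderOf (y : G) ∣ 2 := orderOf_dvd_of_pow_eq_one h3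
      have h6 : orderOf (y : G) ∣ 1 := by
        have : Nat.Coprime p 2 := (Nat.coprime_primes hpp Nat.prime_two).mpr hp
        rw [← this]
        exact Nat.dvd_gcd h4 h5
      rw [Nat.dvd_one, orderOf_eq_one_iff] at h6
      exact hy1 (Subtype.ext h6)
    refine ⟨?_, fun x hx hx' => ⟨?_, fun c hc => hx2 x hx hx' c hc⟩⟩
    · refine ⟨⟨fun a b => Subtype.ext ?_⟩⟩
      have h1 := hx2 t htQN htQC a a.2
      have h2 := hx2 t htQN htQC b b.2
      have h3 := hx2 t htQN htQC _ (Subgroup.mul_mem _ a.2 b.2)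
      have h4 : t * ((a : G) * b) * t⁻¹ = (t * a * t⁻¹) * (t * b * t⁻¹) := by group
      rw [h4, h1, h2, mul_inv_rev] at h3
      have h5 : ((b : G) * a)⁻¹ = ((a : G) * b)⁻¹ := by
        rw [mul_inv_rev, mul_inv_rev]; exact h3
      exact (inv_injective h5).symm
    · have h1 := hx1 x hx hx'
      exact orderOf_eq_prime (by rw [pow_two]; exact h1.1) h1.2.1

end Forward

section Backward

variable {G : Type*} [Group G] [Finite G] {p : ℕ} [Fact p.Prime]

/-- The condition on a subgroup `Q` of order `p`. -/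
def Phi (Q : Subgroup G) : Prop :=
  IsMulCommutative ↥(Subgroup.centralizer (Q : Set G)) ∧
          ∀ x : G, x ∈ Subgroup.normalizer (Q : Set G) → x ∉ Subgroup.centralizer (Q : Set G) →
            orderOf x = 2 ∧ ∀ c : G, c ∈ Subgroup.centralizer (Q : Set G) → x * c * x⁻¹ = c⁻¹

omit [Finite G] in
theorem mem_conj_cent (Q R : Subgroup G) (g : G) (hQR : ∀ y, y ∈ Q ↔ g * y * g⁻¹ ∈ R) (x : G) :
    x ∈ Subgroup.centralizer (R : Set G) ↔ g⁻¹ * x * g ∈ Subgroup.centralizer (Q : Set G) := by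
  rw [Subgroup.mem_centralizer_iff, Subgroup.mem_centralizer_iff]
  constructor
  · intro h y hy
    have h1 := h (g * y * g⁻¹) ((hQR y).mp hy)
    calc y * (g⁻¹ * x * g) = g⁻¹ * ((g * y * g⁻¹) * x) * g := by group
      _ = g⁻¹ * (x * (g * y * g⁻¹)) * g := by rw [h1]
      _ = g⁻¹ * x * g * y := by group
  · intro h y hy
    have hy' : g⁻¹ * y * g ∈ Q := by
      rw [hQR]
      have : g * (g⁻¹ * y * g) * g⁻¹ = y := by group
      rw [this]; exact hy
    have h1 := h _ hy'
    calc y * x = g * ((g⁻¹ * y * g) * (g⁻¹ * x * g)) * g⁻¹ := by group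
      _ = g * ((g⁻¹ * x * g) * (g⁻¹ * y * g)) * g⁻¹ := by rw [h1]
      _ = x * y := by group

omit [Finite G] in
theorem mem_conj_norm (Q R : Subgroup G) (g : G) (hQR : ∀ y, y ∈ Q ↔ g * y * g⁻¹ ∈ R) (x : G) :
    x ∈ Subgroup.normalizer (R : Set G) ↔ g⁻¹ * x * g ∈ Subgroup.normalizer (Q : Set G) := by
  rw [Subgroup.mem_normalizer_iff, Subgroup.mem_normalizer_iff]
  constructor
  · intro h y
    rw [hQR, hQR, h]
    have : x * (g * y * g⁻¹) * x⁻¹ = g * (g⁻¹ * x * g * y * (g⁻¹ * x * g)⁻¹) * g⁻¹ := by group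
    rw [this]
  · intro h y
    have h1 := h (g⁻¹ * y * g)
    rw [hQR, hQR] at h1
    have h2 : g * (g⁻¹ * y * g) * g⁻¹ = y := by group
    have h3 : g * (g⁻¹ * x * g * (g⁻¹ * y * g) * (g⁻¹ * x * g)⁻¹) * g⁻¹ = x * y * x⁻¹ := by group
    rw [h2, h3] at h1
    exact h1

omit [Finite G] in
theorem Phi.conj {Q R : Subgroup G} (hQ : Phi Q) (g : G) (hQR : ∀ y, y ∈ Q ↔ g * y * g⁻¹ ∈ R) :
    Phi R := by
  obtain ⟨h1, h2⟩ := hQ
  refine ⟨⟨⟨fun a b => Subtype.ext ?_⟩⟩, fun x hx hx' => ?_⟩
  · have ha := (mem_conj_cent Q R g hQR a).mp a.2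
    have hb := (mem_conj_cent Q R g hQR b).mp b.2
    have h3 := congrArg Subtype.val (h1.is_comm.comm ⟨_, ha⟩ ⟨_, hb⟩)
    have h3' : g⁻¹ * (a : G) * g * (g⁻¹ * (b : G) * g) = g⁻¹ * (b : G) * g * (g⁻¹ * (a : G) * g) := h3
    calc (a : G) * b = g * (g⁻¹ * (a : G) * g * (g⁻¹ * (b : G) * g)) * g⁻¹ := by group
      _ = g * (g⁻¹ * (b : G) * g * (g⁻¹ * (a : G) * g)) * g⁻¹ := by rw [h3']
      _ = b * a := by group
  · rw [mem_conj_norm Q R g hQR] at hx
    rw [mem_conj_cent Q R g hQR] at hx'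
    obtain ⟨h3, h4⟩ := h2 _ hx hx'
    constructor
    · have h5 : g⁻¹ * x * g = MulAut.conj g⁻¹ x := by simp
      rw [h5] at h3
      rw [← h3]
      exact (MulEquiv.orderOf_eq (MulAut.conj g⁻¹) x).symm
    · intro c hc
      rw [mem_conj_cent Q R g hQR] at hc
      have h5 := h4 _ hc
      have h6 : g⁻¹ * x * g * (g⁻¹ * c * g) * (g⁻¹ * x * g)⁻¹ = g⁻¹ * (x * c * x⁻¹) * g := by group
      have h7 : (g⁻¹ * c * g)⁻¹ = g⁻¹ * c⁻¹ * g := by group
      rw [h6, h7] at h5
      have h8 : g⁻¹ * (x * c * x⁻¹) = g⁻¹ * c⁻¹ := mul_right_cancel h5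
      exact mul_left_cancel h8

/-- A `p`-subgroup of a group with cyclic Sylow subgroup `P` is cyclic. -/
theorem cyclic_of_sylow (P : Sylow p G) (hP : IsCyclic P) (S : Subgroup G) (hS : IsPGroup p S) :
    IsCyclic S := by
  obtain ⟨R, hR⟩ := hS.exists_le_sylow
  have e : R ≃* P := Sylow.equiv R P
  have h1 : IsCyclic R := isCyclic_of_injective e.toMonoidHom e.injective
  exact isCyclic_of_injective (Subgroup.inclusion hR) (Subgroup.inclusion_injective hR)

theorem backward_one (P : Sylow p G) (hP : IsCyclic P)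
    (hNC : Subgroup.normalizer ((P : Subgroup G) : Set G) ≤ Subgroup.centralizer ((P : Subgroup G) : Set G))
    (H : Subgroup G) (hS : ∀ S : Sylow p ↥H, (S : Subgroup ↥H).Normal)
    (hSc : ∀ (S : Sylow p ↥H) [(S : Subgroup ↥H).Normal], IsCyclic (↥H ⧸ (S : Subgroup ↥H))) :
    IsCyclic H := by
  obtain ⟨S⟩ : Nonempty (Sylow p H) := inferInstance
  have := hS S
  refine cyclic_of_hom S (hSc S) hP P.2 ((MonoidHom.transferSylow P hNC).comp H.subtype) ?_
  intro s hs hs1
  have h1 : (s : G) ∈ (MonoidHom.transferSylow P hNC).ker := hs1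
  have h2 := MonoidHom.ker_transferSylow_disjoint P hNC ((S : Subgroup H).map H.subtype)
    (S.2.map H.subtype)
  have h3 : (s : G) ∈ (⊥ : Subgroup G) := by
    rw [← h2.eq_bot]
    exact ⟨h1, ⟨s, hs, rfl⟩⟩
  rw [Subgroup.mem_bot] at h3
  exact Subtype.ext h3

theorem backward_two (P : Sylow p G) (hP : IsCyclic P)
    (hPhi : ∀ Q : Subgroup G, Q ≤ P → Nat.card Q = p → Phi Q)
    (H : Subgroup G) (hS : ∀ S : Sylow p ↥H, (S : Subgroup ↥H).Normal)
    (hSc : ∀ (S : Sylow p ↥H) [(S : Subgroup ↥H).Normal], IsCyclic (↥H ⧸ (S : Subgroup ↥H))) :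
    IsCyclic H ∨ (∃ n : ℕ, Nonempty (H ≃* DihedralGroup (p ^ n))) := by
  have hpp : p.Prime := Fact.out
  obtain ⟨S⟩ : Nonempty (Sylow p H) := inferInstance
  have hSn := hS S
  have hSq := hSc S
  set S' : Subgroup G := (S : Subgroup H).map H.subtype with hS'
  have hS'p : IsPGroup p S' := S.2.map H.subtype
  have hS'c : IsCyclic S' := cyclic_of_sylow P hP S' hS'p
  by_cases hbot : (S : Subgroup H) = ⊥
  · left
    have h1 : IsCyclic PUnit.{1} := isCyclic_of_subsingleton
    refine cyclic_of_hom S hSq h1 (IsPGroup.of_card (n := 0) (by simp)) 1 ?_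
    intro s hs _
    rw [hbot, Subgroup.mem_bot] at hs
    exact hs
  -- an element of order `p` of `S`
  obtain ⟨z, hz⟩ : ∃ z : (S : Subgroup H), orderOf z = p := by
    apply exists_prime_orderOf_dvd_card' p
    obtain ⟨k, hk⟩ := IsPGroup.iff_card.mp S.2
    rw [hk]
    refine dvd_pow_self p ?_
    rintro rfl
    rw [pow_zero, Subgroup.card_eq_one] at hk
    exact hbot hk
  set w : G := ((z : H) : G) with hw
  have hwo : orderOf w = p := by
    rw [hw, Subgroup.orderOf_coe, Subgroup.orderOf_coe, hz]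
  have hwH : w ∈ H := (z : H).2
  have hwS : w ∈ S' := ⟨z, z.2, rfl⟩
  set Q : Subgroup G := Subgroup.zpowers w with hQ
  have hQcard : Nat.card Q = p := by rw [hQ, Nat.card_zpowers, hwo]
  have hQp : IsPGroup p Q := IsPGroup.of_card (n := 1) (by rw [hQcard, pow_one])
  -- `Phi Q`
  have hPhiQ : Phi Q := by
    obtain ⟨R, hR⟩ := hQp.exists_le_sylow
    obtain ⟨g, hg⟩ := MulAction.exists_smul_eq G P R
    let Q0 : Subgroup G := Q.map (MulAut.conj g⁻¹).toMonoidHom
    have hQ0 : ∀ y, y ∈ Q0 ↔ g * y * g⁻¹ ∈ Q := by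
      intro y
      constructor
      · rintro ⟨v, hv, rfl⟩
        have : g * ((MulAut.conj g⁻¹).toMonoidHom v) * g⁻¹ = v := by simp; group
        rw [this]; exact hv
      · intro hy
        exact ⟨_, hy, by simp; group⟩
    refine Phi.conj (Q := Q0) (hPhi Q0 ?_ ?_) g hQ0
    · intro y hy
      rw [hQ0] at hy
      have h1 : g * y * g⁻¹ ∈ (R : Subgroup G) := hR hy
      rw [← hg, Sylow.coe_subgroup_smul, Subgroup.mem_pointwise_smul_iff_inv_smul_mem] at h1
      simpa [MulAut.smul_def, mul_assoc] using h1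
    · rw [← hQcard]
      exact Nat.card_congr (Subgroup.equivMapOfInjective Q _ (MulAut.conj g⁻¹).injective).toEquiv.symm
  -- `H` normalizes `Q`
  have hHN : ∀ h ∈ H, ∀ y ∈ Q, h * y * h⁻¹ ∈ Q := by
    intro h hh y hy
    have h1 : h * w * h⁻¹ ∈ Q := by
      have h2 : h * w * h⁻¹ ∈ S' := by
        refine ⟨⟨h, hh⟩ * (z : H) * ⟨h, hh⟩⁻¹, hSn.conj_mem _ z.2 _, rfl⟩
      have h3 : orderOf (⟨h * w * h⁻¹, h2⟩ : S') = p := by
        rw [← Subgroup.orderOf_coe]
        change orderOf (h * w * h⁻¹) = p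
        rw [← hwo]
        exact MulEquiv.orderOf_eq (MulAut.conj h) w
      have h4 : orderOf (⟨w, hwS⟩ : S') = p := by
        rw [← Subgroup.orderOf_coe]; exact hwo
      have h5 := mem_zpowers_of_cyclic (⟨w, hwS⟩ : S') ⟨h * w * h⁻¹, h2⟩ h4 h3
      rw [Subgroup.mem_zpowers_iff] at h5 ⊢
      obtain ⟨k, hk⟩ := h5
      exact ⟨k, by simpa using congrArg Subtype.val hk⟩
    rw [hQ, Subgroup.mem_zpowers_iff] at hy
    obtain ⟨k, rfl⟩ := hy
    have h2 : h * w ^ k * h⁻¹ = (h * w * h⁻¹) ^ k := by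
      rw [conj_zpow]
    rw [h2]
    exact Subgroup.zpow_mem _ h1 k
  have hHN' : H ≤ Subgroup.normalizer (Q : Set G) := by
    intro h hh
    rw [Subgroup.mem_normalizer_iff]
    intro y
    refine ⟨hHN h hh y, fun hy => ?_⟩
    have h1 := hHN h⁻¹ (H.inv_mem hh) _ hy
    have h2 : h⁻¹ * (h * y * h⁻¹) * h⁻¹⁻¹ = y := by group
    rwa [h2] at h1
  -- `S' ≤ C(Q)`
  have hS'C : S' ≤ Subgroup.centralizer (Q : Set G) := by
    intro s hs
    rw [Subgroup.mem_centralizer_iff]
    intro y hy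
    have hyS : y ∈ S' := by
      have : Q ≤ S' := by rw [hQ, Subgroup.zpowers_le]; exact hwS
      exact this hy
    let _ : CommGroup S' := IsCyclic.commGroup
    have h1 := mul_comm (⟨y, hyS⟩ : S') ⟨s, hs⟩
    simpa using congrArg Subtype.val h1
  by_cases hHC : H ≤ Subgroup.centralizer (Q : Set G)
  · -- `H` is abelian
    left
    have hcomm : ∀ a b : H, a * b = b * a := by
      intro a b
      have h1 := hPhiQ.1.is_comm.comm ⟨a, hHC a.2⟩ ⟨b, hHC b.2⟩
      exact Subtype.ext (by simpa using congrArg Subtype.val h1)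
    set m := (S : Subgroup H).index with hm
    have hmp : ¬ p ∣ m := S.not_dvd_index
    let f : H →* (S : Subgroup H) :=
      { toFun := fun h => ⟨h ^ m, by
          rw [← QuotientGroup.eq_one_iff, QuotientGroup.mk_pow, hm, Subgroup.index]
          exact pow_card_eq_one'⟩
        map_one' := Subtype.ext (one_pow m)
        map_mul' := fun a b => Subtype.ext ((show Commute a b from hcomm a b).mul_pow m) }
    have hScyc : IsCyclic (S : Subgroup H) :=
      isCyclic_of_injective (Subgroup.equivMapOfInjective (S : Subgroup H) H.subtype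
        H.subtype_injective).toMonoidHom (MulEquiv.injective _)
    refine cyclic_of_hom S hSq hScyc S.2 f ?_
    intro s hs hs1
    have h1 : s ^ m = 1 := congrArg Subtype.val hs1
    have h2 : orderOf s ∣ m := orderOf_dvd_of_pow_eq_one h1
    obtain ⟨k, hk⟩ := S.2 ⟨s, hs⟩
    have h3 : s ^ (p ^ k) = 1 := by simpa using congrArg Subtype.val hk
    have h4 : orderOf s ∣ p ^ k := orderOf_dvd_of_pow_eq_one h3
    have h5 : Nat.Coprime (p ^ k) m := Nat.Coprime.pow_left k ((Nat.Prime.coprime_iff_not_dvd hpp).mpr hmp)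
    have h6 := Nat.eq_one_of_dvd_coprimes h5 h4 h2
    exact orderOf_eq_one_iff.mp h6
  · right
    -- a generator of `H / S`
    obtain ⟨q, hq⟩ := hSq
    obtain ⟨h, rfl⟩ := QuotientGroup.mk_surjective q
    have hgen : ∀ y : H, ∃ k : ℤ, (h ^ k)⁻¹ * y ∈ (S : Subgroup H) := by
      intro y
      obtain ⟨k, hk⟩ := hq (y : H ⧸ (S : Subgroup H))
      refine ⟨k, ?_⟩
      rw [← QuotientGroup.eq]
      rw [← hk]
      rfl
    have hhC : (h : G) ∉ Subgroup.centralizer (Q : Set G) := by
      intro hcon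
      apply hHC
      intro y hy
      obtain ⟨k, hk⟩ := hgen ⟨y, hy⟩
      have h1 : (((h ^ k)⁻¹ * (⟨y, hy⟩ : H) : H) : G) ∈ Subgroup.centralizer (Q : Set G) :=
        hS'C ⟨_, hk, rfl⟩
      have h2 : y = ((h : G) ^ k) * (((h ^ k)⁻¹ * (⟨y, hy⟩ : H) : H) : G) := by
        simp
      rw [h2]
      exact Subgroup.mul_mem _ (Subgroup.zpow_mem _ hcon k) h1
    obtain ⟨ho, hinv⟩ := hPhiQ.2 h (hHN' h.2) hhC
    have hh2 : (h : G) * h = 1 := by
      rw [← pow_two, ← ho]; exact pow_orderOf_eq_one _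
    have hhS : h ∉ (S : Subgroup H) := fun hcon => hhC (hS'C ⟨h, hcon, rfl⟩)
    have hindex : (S : Subgroup H).index = 2 := by
      rw [Subgroup.index_eq_two_iff]
      refine ⟨h, fun b => ?_⟩
      have hhh : h * h = 1 := Subtype.ext hh2
      obtain ⟨k, hk⟩ := hgen b
      have hk' : h ^ k = 1 ∨ h ^ k = h := by
        rcases Int.even_or_odd k with ⟨t, ht⟩ | ⟨t, ht⟩
        · left; rw [ht, ← two_mul, zpow_mul, zpow_two, hhh, one_zpow]
        · right; rw [ht, zpow_add, zpow_mul, zpow_two, hhh, one_zpow, one_mul, zpow_one]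
      rcases hk' with hk' | hk'
      · rw [hk', inv_one, one_mul] at hk
        right
        refine ⟨hk, fun hcon => hhS ?_⟩
        have : h = b⁻¹ * (b * h) := by group
        rw [this]
        exact Subgroup.mul_mem _ (Subgroup.inv_mem _ hk) hcon
      · rw [hk'] at hk
        left
        constructor
        · have : b * h = h * (h⁻¹ * b) * h⁻¹ * (h * h) := by group
          rw [this, hhh, mul_one]
          exact hSn.conj_mem _ hk h
        · intro hcon
          apply hhS
          have : h = b * (h⁻¹ * b)⁻¹ := by group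
          rw [this]
          exact Subgroup.mul_mem _ hcon (Subgroup.inv_mem _ hk)
    obtain ⟨r, hr⟩ := hS'c.exists_ofOrder_eq_natCard
    obtain ⟨n, hn⟩ := IsPGroup.iff_card.mp hS'p
    refine ⟨n, Cfsg.Agent.Lib.DihedralRecog.subgroup_dihedral_of_generators (m := p ^ n)
      (pow_pos hpp.pos n).ne' H (r : G) (h : G) ?_ h.2 ?_ hh2 ?_ ?_ ?_⟩
    · exact (Subgroup.map_subtype_le _) r.2
    · rw [Subgroup.orderOf_coe, hr, hn]
    · exact hinv r (hS'C r.2)
    · intro hcon
      have : Subgroup.zpowers (r : G) ≤ S' := by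
        rw [Subgroup.zpowers_le]; exact r.2
      exact hhC (hS'C (this hcon))
    · have h1 : Nat.card (S : Subgroup H) = p ^ n := by
        rw [← hn]
        exact Nat.card_congr (Subgroup.equivMapOfInjective (S : Subgroup H) H.subtype
          H.subtype_injective).toEquiv
      rw [← (S : Subgroup H).card_mul_index, hindex, h1, mul_comm]

end Backward

/-- Let p be an odd prime and G a finite group with Sylow p-subgroup P. Say that G has restricted p-by-cyclic subgroups when every subgroup H of G whose Sylow p-subgroup is normal in H with cyclic quotient is itself cyclic or dihedral of order 2pⁿ for some n. Then G has restricted p-by-cyclic subgroups if and only if P is cyclic and one of the following holds: (1) N_G(P) = C_G(P); or (2) N_G(P)/C_G(P) has order 2 and, for the subgroup Q of order p of P, the centralizer C_G(Q) is abelian and every element of N_G(Q) outside C_G(Q) is an involution inverting every element of C_G(Q). -/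
theorem result {G : Type*} [Group G] [Finite G] {p : ℕ}
    [Fact p.Prime] (hp : p ≠ 2) (P : Sylow p G) :
    (∀ H : Subgroup G, (∀ S : Sylow p ↥H, (S : Subgroup ↥H).Normal) →
        (∀ (S : Sylow p ↥H) [(S : Subgroup ↥H).Normal], IsCyclic (↥H ⧸ (S : Subgroup ↥H))) →
        IsCyclic H ∨ (∃ n : ℕ, Nonempty (H ≃* DihedralGroup (p ^ n)))) ↔
    (IsCyclic P ∧
      (Subgroup.normalizer ((P : Subgroup G) : Set G) = Subgroup.centralizer ((P : Subgroup G) : Set G) ∨
       ((Subgroup.centralizer ((P : Subgroup G) : Set G)).relIndex (Subgroup.normalizer ((P : Subgroup G) : Set G)) = 2 ∧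
        ∀ Q : Subgroup G, Q ≤ P → Nat.card Q = p →
          IsMulCommutative ↥(Subgroup.centralizer (Q : Set G)) ∧
          ∀ x : G, x ∈ Subgroup.normalizer (Q : Set G) → x ∉ Subgroup.centralizer (Q : Set G) →
            orderOf x = 2 ∧ ∀ c : G, c ∈ Subgroup.centralizer (Q : Set G) → x * c * x⁻¹ = c⁻¹))) := by
  constructor
  · intro h
    exact forward hp P h
  · rintro ⟨hP, h | ⟨-, h⟩⟩ H hS hSc
    · exact Or.inl (backward_one P hP h.le H hS hSc)
    · exact backward_two P hP h H hS hSc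

end Cfsg.Agent.S4082
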