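import Cfsg.Statements.S4086
set_option linter.all false

set_option autoImplicit false
open Cfsg

namespace Cfsg.Agent.S4086

/-- in a cyclic group generated by an element of prime power order, any two elements are
comparable -/
theorem comparable_of_zpowers {G : Type*} [Group G] [Finite G] (g : G) (hg : IsPrimePow (orderOf g))
    (x y : G) (hx : x ∈ Subgroup.zpowers g) (hy : y ∈ Subgroup.zpowers g) :
    x ∈ Subgroup.zpowers y ∨ y ∈ Subgroup.zpowers x := by
  obtain ⟨p, k, hp, hk, hpk⟩ := hg
  have hpp : p.Prime := hp.nat_prime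
  have hgen : ∀ z : G, z ∈ Subgroup.zpowers g → ∃ i : ℕ, i ≤ k ∧ Subgroup.zpowers z = Subgroup.zpowers (g ^ (p ^ i)) := by
    intro z hz
    obtain ⟨n, rfl⟩ := (mem_powers_iff_mem_zpowers.mpr hz)
    simp only
    have hz' : orderOf (g ^ n) = orderOf g / Nat.gcd (orderOf g) n := orderOf_pow g
    have hd : Nat.gcd (orderOf g) n ∣ p ^ k := by
      rw [hpk]; exact Nat.gcd_dvd_left _ _
    obtain ⟨i, hi, hgi⟩ := (Nat.dvd_prime_pow hpp).mp hd
    refine ⟨i, hi, ?_⟩
    have h1 : Subgroup.zpowers (g ^ n) ≤ Subgroup.zpowers (g ^ (p ^ i)) := by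
      rw [Subgroup.zpowers_le]
      have : p ^ i ∣ n := hgi ▸ Nat.gcd_dvd_right _ _
      obtain ⟨m, rfl⟩ := this
      rw [pow_mul]
      exact Subgroup.npow_mem_zpowers _ _
    refine Subgroup.eq_of_le_of_card_ge h1 ?_
    rw [Nat.card_zpowers, Nat.card_zpowers, hz', orderOf_pow, hgi]
    rw [← hpk, Nat.gcd_eq_right (pow_dvd_pow p hi)]
  obtain ⟨i, -, hi⟩ := hgen x hx
  obtain ⟨j, -, hj⟩ := hgen y hy
  rcases le_total i j with hij | hij
  · right
    rw [← Subgroup.zpowers_le, hi, hj, Subgroup.zpowers_le]
    obtain ⟨d, rfl⟩ := Nat.exists_eq_add_of_le hij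
    rw [pow_add, pow_mul]
    exact Subgroup.npow_mem_zpowers _ _
  · left
    rw [← Subgroup.zpowers_le, hi, hj, Subgroup.zpowers_le]
    obtain ⟨d, rfl⟩ := Nat.exists_eq_add_of_le hij
    rw [pow_add, pow_mul]
    exact Subgroup.npow_mem_zpowers _ _

/-- For a finite group G the following are equivalent: every non-identity element has prime-power order; whenever two elements generate a cyclic subgroup, one of them is a power of the other (the enhanced power graph of G coincides with its power graph). -/
theorem result {G : Type*} [Group G] [Finite G] :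
    (∀ g : G, g ≠ 1 → IsPrimePow (orderOf g)) ↔
    (∀ x y : G, IsCyclic ↥(Subgroup.closure ({x, y} : Set G)) → (x ∈ Subgroup.zpowers y ∨ y ∈ Subgroup.zpowers x)) := by
  constructor
  · intro h x y hc
    obtain ⟨g, hg⟩ := hc.exists_generator
    have hle : Subgroup.closure ({x, y} : Set G) ≤ Subgroup.zpowers (g : G) := by
      intro z hz
      obtain ⟨n, hn⟩ := hg ⟨z, hz⟩
      refine ⟨n, ?_⟩
      have := congrArg Subtype.val hn
      simpa using this
    have hx : x ∈ Subgroup.zpowers (g : G) := hle (Subgroup.subset_closure (by simp))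
    have hy : y ∈ Subgroup.zpowers (g : G) := hle (Subgroup.subset_closure (by simp))
    by_cases hg1 : (g : G) = 1
    · rw [hg1] at hx
      simp only [Subgroup.zpowers_one_eq_bot, Subgroup.mem_bot] at hx
      left
      rw [hx]
      exact Subgroup.one_mem _
    · exact comparable_of_zpowers (g : G) (h _ hg1) x y hx hy
  · intro h g hg
    have hn : orderOf g ≠ 1 := by simpa [orderOf_eq_one_iff] using hg
    have hn0 : orderOf g ≠ 0 := (orderOf_pos g).ne'
    by_contra hpp
    -- take a prime `p` dividing the order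
    obtain ⟨p, hp, hpn⟩ := Nat.exists_prime_and_dvd hn
    set a := p ^ (orderOf g).factorization p with ha
    set b := orderOf g / a with hb
    have hab : a * b = orderOf g := Nat.ordProj_mul_ordCompl_eq_self _ _
    have ha1 : a ≠ 1 := by
      rw [ha]
      have : 0 < (orderOf g).factorization p := hp.factorization_pos_of_dvd hn0 hpn
      exact (Nat.one_lt_pow this.ne' hp.one_lt).ne'
    have hb1 : b ≠ 1 := by
      intro hb1
      rw [hb1, mul_one] at hab
      apply hpp
      rw [← hab, ha]
      exact hp.isPrimePow.pow (by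
        have : 0 < (orderOf g).factorization p := hp.factorization_pos_of_dvd hn0 hpn
        exact this.ne')
    have hcop : Nat.Coprime a b := Nat.Coprime.pow_left _ (Nat.coprime_ordCompl hp hn0)
    have ha0 : a ≠ 0 := by rintro h0; rw [h0, zero_mul] at hab; exact hn0 hab.symm
    have hb0 : b ≠ 0 := by rintro h0; rw [h0, mul_zero] at hab; exact hn0 hab.symm
    have hoa : orderOf (g ^ a) = b := by
      rw [orderOf_pow, ← hab, Nat.gcd_eq_right (dvd_mul_right a b), Nat.mul_div_cancel_left _ (Nat.pos_of_ne_zero ha0)]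
    have hob : orderOf (g ^ b) = a := by
      rw [orderOf_pow, ← hab, Nat.gcd_eq_right (dvd_mul_left b a), Nat.mul_div_cancel _ (Nat.pos_of_ne_zero hb0)]
    have hcl : Subgroup.closure ({g ^ a, g ^ b} : Set G) ≤ Subgroup.zpowers g := by
      rw [Subgroup.closure_le]
      rintro z (rfl | rfl)
      · exact Subgroup.npow_mem_zpowers _ _
      · exact Subgroup.npow_mem_zpowers _ _
    have hcyc : IsCyclic ↥(Subgroup.closure ({g ^ a, g ^ b} : Set G)) :=
      isCyclic_of_injective (Subgroup.inclusion hcl) (Subgroup.inclusion_injective hcl)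
    rcases h _ _ hcyc with h1 | h1
    · have : orderOf (g ^ a) ∣ orderOf (g ^ b) := orderOf_dvd_of_mem_zpowers h1
      rw [hoa, hob] at this
      exact hb1 (Nat.Coprime.eq_one_of_dvd hcop.symm this)
    · have : orderOf (g ^ b) ∣ orderOf (g ^ a) := orderOf_dvd_of_mem_zpowers h1
      rw [hoa, hob] at this
      exact ha1 (Nat.Coprime.eq_one_of_dvd hcop this)

end Cfsg.Agent.S4086
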