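import Cfsg.Statements.S4088
import Cfsg.Agent.PLocal.ConjFunctor
import Cfsg.Agent.PLocal.SubnormalCore
import Cfsg.Agent.Solvable.Zipper
set_option linter.all false

set_option autoImplicit false
open Cfsg

namespace Cfsg.Agent.S4088

section Moebius

open scoped Classical in
/-- `μ` is the Möbius function from `a` -/
structure IsMu {α : Type*} [PartialOrder α] [Fintype α] (a : α) (μ : α → ℤ) : Prop where
  self : μ a = 1
  sum : ∀ b, a < b → ∑ x, (if a ≤ x ∧ x ≤ b then μ x else 0) = 0

open scoped Classical in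
theorem exists_mu {α : Type*} [PartialOrder α] [Fintype α] (a : α) : ∃ μ : α → ℤ, IsMu a μ := by
  letI : LocallyFiniteOrder α := Fintype.toLocallyFiniteOrder
  refine ⟨fun x => IncidenceAlgebra.mu ℤ a x, IncidenceAlgebra.mu_self a, fun b hb => ?_⟩
  have h := IncidenceAlgebra.sum_Icc_mu_right (𝕜 := ℤ) a b
  rw [if_neg hb.ne] at h
  rw [← Finset.sum_filter, ← h]
  refine Finset.sum_congr ?_ (fun _ _ => rfl)
  ext x
  simp

open scoped Classical in
theorem weisner {α : Type*} [SemilatticeSup α] [Fintype α] {a k : α} {μ : α → ℤ} (hμ : IsMu a μ)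
    (hk : a < k) (m : α) : ∑ x, (if a ≤ x ∧ x ⊔ k = m then μ x else 0) = 0 := by
  induction m using WellFoundedLT.induction with
  | ind m ih =>
    by_cases hm : k ≤ m
    swap
    · refine Finset.sum_eq_zero fun x _ => if_neg ?_
      rintro ⟨-, rfl⟩
      exact hm le_sup_right
    have h0 := hμ.sum m (lt_of_lt_of_le hk hm)
    have h1 : ∑ x, (if a ≤ x ∧ x ≤ m then μ x else 0) =
        ∑ y, ∑ x, (if a ≤ x ∧ x ≤ m ∧ x ⊔ k = y then μ x else 0) := by
      rw [Finset.sum_comm]
      refine Finset.sum_congr rfl fun x _ => ?_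
      rw [Finset.sum_eq_single (x ⊔ k)]
      · by_cases h : a ≤ x ∧ x ≤ m
        · rw [if_pos h, if_pos ⟨h.1, h.2, rfl⟩]
        · rw [if_neg h, if_neg (fun h' => h ⟨h'.1, h'.2.1⟩)]
      · intro y _ hy
        exact if_neg (fun h' => hy h'.2.2.symm)
      · intro h; exact absurd (Finset.mem_univ _) h
    rw [h1, Finset.sum_eq_single m] at h0
    · refine Eq.trans ?_ h0
      refine Finset.sum_congr rfl fun x _ => ?_
      by_cases h : a ≤ x ∧ x ⊔ k = m
      · rw [if_pos h, if_pos ⟨h.1, h.2 ▸ le_sup_left, h.2⟩]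
      · rw [if_neg h, if_neg (fun h' => h ⟨h'.1, h'.2.2⟩)]
    · intro y _ hy
      by_cases hym : y ≤ m
      · refine Eq.trans ?_ (ih y (lt_of_le_of_ne hym hy))
        refine Finset.sum_congr rfl fun x _ => ?_
        by_cases h : a ≤ x ∧ x ⊔ k = y
        · rw [if_pos h, if_pos ⟨h.1, (le_trans (h.2 ▸ le_sup_left) hym), h.2⟩]
        · rw [if_neg h, if_neg (fun h' => h ⟨h'.1, h'.2.2⟩)]
      · refine Finset.sum_eq_zero fun x _ => if_neg ?_
        rintro ⟨-, h2, h3⟩
        exact hym (h3 ▸ sup_le h2 hm)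
    · intro h; exact absurd (Finset.mem_univ _) h

open scoped Classical in
theorem sum_ideal {α : Type*} [SemilatticeSup α] [Fintype α] {a k : α} {μ : α → ℤ} (hμ : IsMu a μ)
    (hk : a < k) (P : α → Prop) (hsup : ∀ x, a ≤ x → P x → P (x ⊔ k))
    (hdown : ∀ x y, a ≤ x → x ≤ y → P y → P x) :
    ∑ x, (if a ≤ x ∧ P x then μ x else 0) = 0 := by
  have h1 : ∑ x, (if a ≤ x ∧ P x then μ x else 0) =
      ∑ y, ∑ x, (if a ≤ x ∧ P x ∧ x ⊔ k = y then μ x else 0) := by
    rw [Finset.sum_comm]
    refine Finset.sum_congr rfl fun x _ => ?_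
    rw [Finset.sum_eq_single (x ⊔ k)]
    · by_cases h : a ≤ x ∧ P x
      · rw [if_pos h, if_pos ⟨h.1, h.2, rfl⟩]
      · rw [if_neg h, if_neg (fun h' => h ⟨h'.1, h'.2.1⟩)]
    · intro y _ hy
      exact if_neg (fun h' => hy h'.2.2.symm)
    · intro h; exact absurd (Finset.mem_univ _) h
  rw [h1]
  refine Finset.sum_eq_zero fun y _ => ?_
  by_cases hy : P y
  · refine Eq.trans ?_ (weisner hμ hk y)
    refine Finset.sum_congr rfl fun x _ => ?_
    by_cases h : a ≤ x ∧ x ⊔ k = y
    · rw [if_pos h, if_pos ⟨h.1, hdown x y h.1 (h.2 ▸ le_sup_left) hy, h.2⟩]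
    · rw [if_neg h, if_neg (fun h' => h ⟨h'.1, h'.2.2⟩)]
  · refine Finset.sum_eq_zero fun x _ => if_neg ?_
    rintro ⟨h1, h2, h3⟩
    exact hy (h3 ▸ hsup x h1 h2)

open scoped Classical in
/-- removing the bottom term -/
theorem sum_lt_add {α : Type*} [PartialOrder α] [Fintype α] {a : α} {μ : α → ℤ} (hμ : IsMu a μ)
    (P : α → Prop) (hP : P a) :
    ∑ x, (if a ≤ x ∧ P x then μ x else 0) = (∑ x, (if a < x ∧ P x then μ x else 0)) + 1 := by
  have h1 : (1 : ℤ) = ∑ x, (if x = a then μ x else 0) := by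
    rw [Finset.sum_eq_single a]
    · rw [if_pos rfl, hμ.self]
    · intro b _ hb; exact if_neg hb
    · intro h; exact absurd (Finset.mem_univ _) h
  rw [h1, ← Finset.sum_add_distrib]
  refine Finset.sum_congr rfl fun x _ => ?_
  by_cases hx : x = a
  · subst hx
    simp [hP]
  · rw [if_neg hx, add_zero]
    by_cases h : a ≤ x ∧ P x
    · rw [if_pos h, if_pos ⟨lt_of_le_of_ne h.1 (Ne.symm hx), h.2⟩]
    · rw [if_neg h, if_neg (fun h' => h ⟨h'.1.le, h'.2⟩)]

open scoped Classical in
theorem sum_Ioc {α : Type*} [PartialOrder α] [Fintype α] {a b : α} {μ : α → ℤ} (hμ : IsMu a μ)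
    (hb : a < b) : ∑ x, (if a < x ∧ x ≤ b then μ x else 0) = -1 := by
  have h1 := sum_lt_add hμ (fun x => x ≤ b) hb.le
  rw [hμ.sum b hb] at h1
  linarith

end Moebius

section Groups

variable {G : Type*} [Group G]

/-- relative version of membership in the subnormalizer -/
def Good (p : ℕ) (N H : Subgroup G) (g : G) : Prop :=
  ∃ K : Subgroup G, K ≤ N ∧ IsPGroup p K ∧ H ≤ K ∧ g ∈ Subgroup.normalizer (K : Set G)

/-- Sylow subgroups of `N` -/
def IsSyl (p : ℕ) (N Q : Subgroup G) : Prop :=
  Q ≤ N ∧ IsPGroup p Q ∧ ∀ R, R ≤ N → IsPGroup p R → Q ≤ R → R = Q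

theorem Good.mono {p : ℕ} {N H H' : Subgroup G} {g : G} (h : H ≤ H') (hg : Good p N H' g) :
    Good p N H g := by
  obtain ⟨K, h1, h2, h3, h4⟩ := hg
  exact ⟨K, h1, h2, h.trans h3, h4⟩

theorem inf_mem_normalizer {K L : Subgroup G} {g : G} (hK : g ∈ Subgroup.normalizer (K : Set G))
    (hL : g ∈ Subgroup.normalizer (L : Set G)) :
    g ∈ Subgroup.normalizer ((K ⊓ L : Subgroup G) : Set G) := by
  rw [Subgroup.mem_normalizer_iff] at hK hL ⊢
  intro h
  have h1 := hK h
  have h2 := hL h
  rw [Subgroup.mem_inf, Subgroup.mem_inf, h1, h2]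

variable [Finite G]

/-- the minimal witness -/
theorem exists_min_witness {p : ℕ} {N H : Subgroup G} {g : G} (hg : Good p N H g) :
    ∃ K : Subgroup G, K ≤ N ∧ IsPGroup p K ∧ H ≤ K ∧ g ∈ Subgroup.normalizer (K : Set G) ∧
      ∀ R : Subgroup G, R ≤ N → IsPGroup p R → H ≤ R → g ∈ Subgroup.normalizer (R : Set G) →
        K ≤ R := by
  obtain ⟨K, ⟨h1, h2, h3, h4⟩, hmin⟩ := Set.exists_min_image
    {K : Subgroup G | K ≤ N ∧ IsPGroup p K ∧ H ≤ K ∧ g ∈ Subgroup.normalizer (K : Set G)}
    (fun K => Nat.card K) (Set.toFinite _) hg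
  refine ⟨K, h1, h2, h3, h4, fun R r1 r2 r3 r4 => ?_⟩
  have h5 := hmin (K ⊓ R) ⟨inf_le_left.trans h1, h2.to_le inf_le_left, le_inf h3 r3,
    inf_mem_normalizer h4 r4⟩
  have h6 : K ⊓ R = K := Subgroup.eq_of_le_of_card_ge inf_le_left h5
  rw [← h6]; exact inf_le_right

open scoped Classical in
/-- the Möbius function vanishes at `L` if `H` is not normal in `L` -/
theorem mu_eq_zero {p : ℕ} [Fact p.Prime] [Fintype (Subgroup G)] {H : Subgroup G}
    {μ : Subgroup G → ℤ} (hμ : IsMu H μ) (L : Subgroup G) (hL : IsPGroup p L) (hHL : H ≤ L)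
    (hn : ¬ L ≤ Subgroup.normalizer (H : Set G)) : μ L = 0 := by
  induction L using WellFoundedLT.induction with
  | ind L ih =>
    have hlt : H < L := by
      refine lt_of_le_of_ne hHL ?_
      rintro rfl
      exact hn Subgroup.le_normalizer
    have hgrow := Cfsg.Agent.PLocal.ConjFunctor.lt_inf_normalizer hL hlt
    have h1 := hμ.sum L hlt
    have h2 := hμ.sum _ hgrow
    have h3 : ∑ x, (if H ≤ x ∧ x ≤ L then μ x else 0) =
        ∑ x, ((if H ≤ x ∧ x ≤ L ⊓ Subgroup.normalizer (H : Set G) then μ x else 0) +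
          (if x = L then μ x else 0)) := by
      refine Finset.sum_congr rfl fun x _ => ?_
      by_cases hx : x = L
      · subst hx
        rw [if_pos ⟨hHL, le_rfl⟩, if_pos rfl, if_neg, zero_add]
        rintro ⟨-, h⟩
        exact hn (h.trans inf_le_right)
      · rw [if_neg hx, add_zero]
        by_cases hxN : x ≤ Subgroup.normalizer (H : Set G)
        · by_cases h : H ≤ x ∧ x ≤ L
          · rw [if_pos h, if_pos ⟨h.1, le_inf h.2 hxN⟩]
          · rw [if_neg h, if_neg (fun h' => h ⟨h'.1, h'.2.trans inf_le_left⟩)]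
        · have hz : ∀ (c : Prop) [Decidable c], c → H ≤ x ∧ x ≤ L → μ x = 0 := by
            intro _ _ _ h
            exact ih x (lt_of_le_of_ne h.2 hx) (hL.to_le h.2) h.1 hxN
          by_cases h : H ≤ x ∧ x ≤ L
          · rw [if_pos h, hz True trivial h]
            simp
          · rw [if_neg h, if_neg (fun h' => h ⟨h'.1, h'.2.trans inf_le_left⟩)]
    rw [h3, Finset.sum_add_distrib, h2, zero_add, Finset.sum_eq_single L] at h1
    · rwa [if_pos rfl] at h1
    · intro b _ hb; exact if_neg hb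
    · intro h; exact absurd (Finset.mem_univ _) h

open scoped Classical in
/-- the left side -/
noncomputable def cc (p : ℕ) [Fintype G] (N H : Subgroup G) : ℤ :=
  ∑ g : G, (if g ∈ N ∧ Good p N H g then 1 else 0)

open scoped Classical in
/-- the right side -/
noncomputable def rr (p : ℕ) [Fintype (Subgroup G)] (N H : Subgroup G) : ℤ :=
  ∑ Q : Subgroup G, (if IsSyl p N Q ∧ H ≤ Q then
    (Nat.card (N ⊓ Subgroup.normalizer (Q : Set G) : Subgroup G) : ℤ) else 0)

open scoped Classical in
theorem rr_eq {p : ℕ} [Fintype (Subgroup G)] {N H : Subgroup G}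
    {μ : Subgroup G → ℤ} (hμ : IsMu H μ) (hlt : ∀ Q, IsSyl p N Q → H ≤ Q → H < Q) :
    rr p N H = -∑ L : Subgroup G, (if H < L then μ L * rr p N L else 0) := by
  have h1 : ∑ L : Subgroup G, (if H < L then μ L * rr p N L else 0) =
      ∑ Q : Subgroup G, ∑ L : Subgroup G, (if IsSyl p N Q ∧ H < L ∧ L ≤ Q then
        μ L * (Nat.card (N ⊓ Subgroup.normalizer (Q : Set G) : Subgroup G) : ℤ) else 0) := by
    rw [Finset.sum_comm]
    refine Finset.sum_congr rfl fun L _ => ?_
    by_cases hL : H < L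
    · rw [if_pos hL, rr, Finset.mul_sum]
      refine Finset.sum_congr rfl fun Q _ => ?_
      by_cases h : IsSyl p N Q ∧ L ≤ Q
      · rw [if_pos h, if_pos ⟨h.1, hL, h.2⟩]
      · rw [if_neg h, if_neg (fun h' => h ⟨h'.1, h'.2.2⟩), mul_zero]
    · rw [if_neg hL]
      symm
      exact Finset.sum_eq_zero fun Q _ => if_neg (fun h' => hL h'.2.1)
  rw [h1, rr, ← Finset.sum_neg_distrib]
  refine Finset.sum_congr rfl fun Q _ => ?_
  by_cases hQ : IsSyl p N Q ∧ H ≤ Q
  · rw [if_pos hQ]
    have h2 := sum_Ioc hμ (hlt Q hQ.1 hQ.2)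
    have h3 : ∑ L : Subgroup G, (if IsSyl p N Q ∧ H < L ∧ L ≤ Q then
        μ L * (Nat.card (N ⊓ Subgroup.normalizer (Q : Set G) : Subgroup G) : ℤ) else 0) =
        (∑ L : Subgroup G, (if H < L ∧ L ≤ Q then μ L else 0)) *
          (Nat.card (N ⊓ Subgroup.normalizer (Q : Set G) : Subgroup G) : ℤ) := by
      rw [Finset.sum_mul]
      refine Finset.sum_congr rfl fun L _ => ?_
      by_cases h : H < L ∧ L ≤ Q
      · rw [if_pos h, if_pos ⟨hQ.1, h.1, h.2⟩]
      · rw [if_neg h, if_neg (fun h' => h ⟨h'.2.1, h'.2.2⟩), zero_mul]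
    rw [h3, h2]
    ring
  · rw [if_neg hQ]
    symm
    rw [neg_eq_zero]
    refine Finset.sum_eq_zero fun L _ => if_neg ?_
    rintro ⟨h1, h2, h3⟩
    exact hQ ⟨h1, h2.le.trans h3⟩

/-- Sylow subgroups of `N` as subgroups of `G` -/
noncomputable def sylEquiv (p : ℕ) (N : Subgroup G) :
    Sylow p N ≃ {Q : Subgroup G // IsSyl p N Q} where
  toFun Q' := ⟨(Q' : Subgroup N).map N.subtype, Subgroup.map_subtype_le _, Q'.isPGroup'.map _, by
    intro R hR hRp hle
    have h1 : (Q' : Subgroup N) ≤ R.subgroupOf N := by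
      rw [← Subgroup.map_subtype_le_map_subtype, Subgroup.subgroupOf_map_subtype, inf_eq_left.mpr hR]
      exact hle
    have h2 := Q'.is_maximal' (hRp.comap_of_injective N.subtype N.subtype_injective) h1
    have h3 : (R.subgroupOf N).map N.subtype = R := by
      rw [Subgroup.subgroupOf_map_subtype, inf_eq_left.mpr hR]
    rw [← h3]
    exact congrArg (Subgroup.map N.subtype) h2⟩
  invFun Q := ⟨(Q : Subgroup G).subgroupOf N, Q.2.2.1.comap_of_injective N.subtype N.subtype_injective, by
    intro R hR hle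
    have h1 := Q.2.2.2 (R.map N.subtype) (Subgroup.map_subtype_le _) (hR.map _) (by
      have := Subgroup.map_mono (f := N.subtype) hle
      rwa [Subgroup.subgroupOf_map_subtype, inf_eq_left.mpr Q.2.1] at this)
    have h2 : (R.map N.subtype).subgroupOf N = R := Subgroup.comap_map_eq_self_of_injective
      N.subtype_injective R
    rw [← h2, h1]⟩
  left_inv Q' := by
    apply Sylow.ext
    exact Subgroup.comap_map_eq_self_of_injective N.subtype_injective _
  right_inv Q := by
    apply Subtype.ext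
    change ((Q : Subgroup G).subgroupOf N).map N.subtype = _
    rw [Subgroup.subgroupOf_map_subtype, inf_eq_left.mpr Q.2.1]

theorem card_normalizer_sylEquiv (p : ℕ) (N : Subgroup G) (Q' : Sylow p N) :
    Nat.card (Subgroup.normalizer ((Q' : Subgroup N) : Set N)) =
      Nat.card (N ⊓ Subgroup.normalizer (((sylEquiv p N Q' : Subgroup G)) : Set G) : Subgroup G) := by
  have h1 : (Q' : Subgroup N) = (sylEquiv p N Q' : Subgroup G).subgroupOf N :=
    (Subgroup.comap_map_eq_self_of_injective N.subtype_injective _).symm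
  rw [h1, ← Subgroup.subgroupOf_normalizer_eq (sylEquiv p N Q').2.1, inf_comm]
  have h2 := Subgroup.subgroupOf_map_subtype
    (Subgroup.normalizer (((sylEquiv p N Q' : Subgroup G)) : Set G)) N
  rw [← h2]
  exact (Nat.card_congr ((Subgroup.equivMapOfInjective _ N.subtype N.subtype_injective).toEquiv))


open scoped Classical in
theorem sum_normalizer {p : ℕ} [Fact p.Prime] [Fintype (Subgroup G)] (N : Subgroup G) :
    ∑ Q : Subgroup G, (if IsSyl p N Q then
      (Nat.card (N ⊓ Subgroup.normalizer (Q : Set G) : Subgroup G) : ℤ) else 0) =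
      (Nat.card N : ℤ) := by
  letI : Fintype (Sylow p N) := Fintype.ofFinite _
  have h1 : ∑ Q : Subgroup G, (if IsSyl p N Q then
      (Nat.card (N ⊓ Subgroup.normalizer (Q : Set G) : Subgroup G) : ℤ) else 0) =
      ∑ Q' : Sylow p N, (Nat.card (Subgroup.normalizer ((Q' : Subgroup N) : Set N)) : ℤ) := by
    rw [← Finset.sum_filter]
    have h2 : ∑ Q ∈ Finset.univ.filter (fun Q : Subgroup G => IsSyl p N Q),
        (Nat.card (N ⊓ Subgroup.normalizer (Q : Set G) : Subgroup G) : ℤ) =
        ∑ Q : {Q : Subgroup G // IsSyl p N Q},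
        (Nat.card (N ⊓ Subgroup.normalizer ((Q : Subgroup G) : Set G) : Subgroup G) : ℤ) := by
      rw [← Finset.sum_subtype_eq_sum_filter]
      refine Finset.sum_congr ?_ (fun _ _ => rfl)
      ext x
      simp
    rw [h2, ← Equiv.sum_comp (sylEquiv p N)]
    refine Finset.sum_congr rfl fun Q' _ => ?_
    rw [card_normalizer_sylEquiv]
  rw [h1]
  have h3 : ∀ Q' : Sylow p N, (Nat.card (Sylow p N) : ℤ) *
      (Nat.card (Subgroup.normalizer ((Q' : Subgroup N) : Set N)) : ℤ) = (Nat.card N : ℤ) := by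
    intro Q'
    rw [Sylow.card_eq_index_normalizer Q']
    have := Subgroup.index_mul_card (Subgroup.normalizer ((Q' : Subgroup N) : Set N))
    exact_mod_cast this
  have h4 : (Nat.card (Sylow p N) : ℤ) *
      ∑ Q' : Sylow p N, (Nat.card (Subgroup.normalizer ((Q' : Subgroup N) : Set N)) : ℤ) =
      (Nat.card (Sylow p N) : ℤ) * (Nat.card N : ℤ) := by
    rw [Finset.mul_sum, Finset.sum_congr rfl (fun Q' _ => h3 Q'), Finset.sum_const,
      Finset.card_univ, ← Nat.card_eq_fintype_card, nsmul_eq_mul]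
  have h5 : (Nat.card (Sylow p N) : ℤ) ≠ 0 := by
    have : Nat.card (Sylow p N) ≠ 0 := Nat.card_pos.ne'
    exact_mod_cast this
  exact mul_left_cancel₀ h5 h4

theorem le_of_isSyl {p : ℕ} {N H Q : Subgroup G} (hHN : H ≤ N) (hHp : IsPGroup p H)
    (hn : N ≤ Subgroup.normalizer (H : Set G)) (hQ : IsSyl p N Q) : H ≤ Q := by
  have h1 : IsPGroup p (H ⊔ Q : Subgroup G) :=
    hHp.to_sup_of_normal_left' hQ.2.1 (hQ.1.trans hn)
  have h2 := hQ.2.2 (H ⊔ Q) (sup_le hHN hQ.1) h1 le_sup_right
  rw [← h2]; exact le_sup_left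

open scoped Classical in
theorem rr_of_normal {p : ℕ} [Fact p.Prime] [Fintype (Subgroup G)] {N H : Subgroup G}
    (hHN : H ≤ N) (hHp : IsPGroup p H) (hn : N ≤ Subgroup.normalizer (H : Set G)) :
    rr p N H = (Nat.card N : ℤ) := by
  rw [← sum_normalizer (p := p) N, rr]
  refine Finset.sum_congr rfl fun Q _ => ?_
  by_cases h : IsSyl p N Q
  · rw [if_pos h, if_pos ⟨h, le_of_isSyl hHN hHp hn h⟩]
  · rw [if_neg h, if_neg (fun h' => h h'.1)]

open scoped Classical in
theorem cc_of_normal {p : ℕ} [Fintype G] {N H : Subgroup G}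
    (hHN : H ≤ N) (hHp : IsPGroup p H) (hn : N ≤ Subgroup.normalizer (H : Set G)) :
    cc p N H = (Nat.card N : ℤ) := by
  rw [cc]
  have h1 : ∀ g : G, (g ∈ N ∧ Good p N H g) ↔ g ∈ N :=
    fun g => ⟨fun h => h.1, fun h => ⟨h, H, hHN, hHp, le_rfl, hn h⟩⟩
  simp only [h1]
  rw [Finset.sum_boole, Nat.card_eq_fintype_card, Fintype.card_subtype]

open scoped Classical in
theorem main {p : ℕ} [Fact p.Prime] [Fintype G] [Fintype (Subgroup G)] :
    ∀ n : ℕ, ∀ N : Subgroup G, Nat.card N = n → ∀ H : Subgroup G, H ≤ N → IsPGroup p H →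
      cc p N H = rr p N H := by
  intro n
  induction n using Nat.strong_induction_on with
  | _ n ihn =>
  intro N hN H
  induction H using WellFoundedGT.induction with
  | ind H ihH =>
  intro hHN hHp
  by_cases hn : N ≤ Subgroup.normalizer (H : Set G)
  · rw [cc_of_normal hHN hHp hn, rr_of_normal hHN hHp hn]
  by_cases hsyl : IsSyl p N H
  · -- `H` is a Sylow subgroup
    have h1 : rr p N H = (Nat.card (N ⊓ Subgroup.normalizer (H : Set G) : Subgroup G) : ℤ) := by
      rw [rr, Finset.sum_eq_single H]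
      · rw [if_pos ⟨hsyl, le_rfl⟩]
      · intro Q _ hQ
        refine if_neg ?_
        rintro ⟨h1, h2⟩
        exact hQ (hsyl.2.2 Q h1.1 h1.2.1 h2)
      · intro h; exact absurd (Finset.mem_univ _) h
    rw [h1, cc]
    have h2 : ∀ g : G, (g ∈ N ∧ Good p N H g) ↔
        g ∈ (N ⊓ Subgroup.normalizer (H : Set G) : Subgroup G) := by
      intro g
      rw [Subgroup.mem_inf]
      constructor
      · rintro ⟨h3, K, k1, k2, k3, k4⟩
        have := hsyl.2.2 K k1 k2 k3
        rw [this] at k4
        exact ⟨h3, k4⟩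
      · rintro ⟨h3, h4⟩
        exact ⟨h3, H, hHN, hHp, le_rfl, h4⟩
    simp only [h2]
    rw [Finset.sum_boole, Nat.card_eq_fintype_card, Fintype.card_subtype]
  -- the main case
  obtain ⟨μ, hμ⟩ := exists_mu H
  set M := N ⊓ Subgroup.normalizer (H : Set G) with hM
  have hMN : M < N := lt_of_le_of_ne inf_le_left (fun h => hn (by rw [← h]; exact inf_le_right))
  have hMcard : Nat.card M < n := by
    rw [← hN]
    refine lt_of_le_of_ne (Subgroup.card_le_of_le hMN.le) (fun h => hMN.ne ?_)
    exact Subgroup.eq_of_le_of_card_ge hMN.le h.ge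
  have hHM : H ≤ M := le_inf hHN Subgroup.le_normalizer
  -- `H` is not Sylow in `M`
  have hMsyl : ¬ IsSyl p M H := by
    intro h
    apply hsyl
    refine ⟨hHN, hHp, fun R hR hRp hle => ?_⟩
    by_contra hne
    have hlt : H < R := lt_of_le_of_ne hle (Ne.symm hne)
    have h1 := Cfsg.Agent.PLocal.ConjFunctor.lt_inf_normalizer hRp hlt
    have h2 := h.2.2 (R ⊓ Subgroup.normalizer (H : Set G)) (inf_le_inf_right _ hR)
      (hRp.to_le inf_le_left) h1.le
    exact h1.ne h2.symm
  have hltN : ∀ Q, IsSyl p N Q → H ≤ Q → H < Q := by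
    intro Q hQ hle
    refine lt_of_le_of_ne hle ?_
    rintro rfl
    exact hsyl hQ
  have hltM : ∀ Q, IsSyl p M Q → H ≤ Q → H < Q := by
    intro Q hQ hle
    refine lt_of_le_of_ne hle ?_
    rintro rfl
    exact hMsyl hQ
  -- the induction hypotheses
  have hzero : ∀ N' L : Subgroup G, ¬ (L ≤ N' ∧ IsPGroup p L) → cc p N' L = rr p N' L := by
    intro N' L h
    have h1 : cc p N' L = 0 := by
      refine Finset.sum_eq_zero fun g _ => if_neg ?_
      rintro ⟨-, K, k1, k2, k3, -⟩
      exact h ⟨k3.trans k1, k2.to_le k3⟩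
    have h2 : rr p N' L = 0 := by
      refine Finset.sum_eq_zero fun Q _ => if_neg ?_
      rintro ⟨hQ, hLQ⟩
      exact h ⟨hLQ.trans hQ.1, hQ.2.1.to_le hLQ⟩
    rw [h1, h2]
  have hIN : ∀ L : Subgroup G, H < L → cc p N L = rr p N L := by
    intro L hL
    by_cases h : L ≤ N ∧ IsPGroup p L
    · exact ihH L hL h.1 h.2
    · exact hzero N L h
  have hIM : ∀ L : Subgroup G, H < L → cc p M L = rr p M L := by
    intro L hL
    by_cases h : L ≤ M ∧ IsPGroup p L
    · exact ihn _ hMcard M rfl L h.1 h.2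
    · exact hzero M L h
  -- exchanging the sums
  have hswap : ∀ N' : Subgroup G, (∀ L : Subgroup G, H < L → cc p N' L = rr p N' L) →
      (∀ Q, IsSyl p N' Q → H ≤ Q → H < Q) →
      rr p N' H = ∑ g : G, (if g ∈ N' then
        -∑ L : Subgroup G, (if H < L ∧ Good p N' L g then μ L else 0) else 0) := by
    intro N' h1 h2
    rw [rr_eq hμ h2]
    have h3 : ∑ L : Subgroup G, (if H < L then μ L * rr p N' L else 0) =
        ∑ L : Subgroup G, ∑ g : G, (if g ∈ N' ∧ H < L ∧ Good p N' L g then μ L else 0) := by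
      refine Finset.sum_congr rfl fun L _ => ?_
      by_cases hL : H < L
      · rw [if_pos hL, ← h1 L hL, cc, Finset.mul_sum]
        refine Finset.sum_congr rfl fun g _ => ?_
        by_cases h : g ∈ N' ∧ Good p N' L g
        · rw [if_pos h, if_pos ⟨h.1, hL, h.2⟩, mul_one]
        · rw [if_neg h, if_neg (fun h' => h ⟨h'.1, h'.2.2⟩), mul_zero]
      · rw [if_neg hL]
        symm
        exact Finset.sum_eq_zero fun g _ => if_neg (fun h' => hL h'.2.1)
    rw [h3, Finset.sum_comm, ← Finset.sum_neg_distrib]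
    refine Finset.sum_congr rfl fun g _ => ?_
    by_cases hg : g ∈ N'
    · rw [if_pos hg]
      congr 1
      refine Finset.sum_congr rfl fun L _ => ?_
      by_cases h : H < L ∧ Good p N' L g
      · rw [if_pos h, if_pos ⟨hg, h⟩]
      · rw [if_neg h, if_neg (fun h' => h h'.2)]
    · rw [if_neg hg, neg_eq_zero]
      exact Finset.sum_eq_zero fun L _ => if_neg (fun h' => hg h'.1)
  have hrN := hswap N hIN hltN
  have hrM := hswap M hIM hltM
  rw [rr_of_normal hHM hHp inf_le_right, ← cc_of_normal hHM hHp inf_le_right, cc] at hrM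
  rw [hrN, cc]
  -- compare
  have hsplit : ∀ g : G, (if g ∈ N then
        -∑ L : Subgroup G, (if H < L ∧ Good p N L g then μ L else 0) else 0) =
      (if g ∈ N ∧ Good p N H g then (1 : ℤ) else 0) - (if g ∈ M ∧ Good p M H g then 1 else 0) +
      (if g ∈ M then
        -∑ L : Subgroup G, (if H < L ∧ Good p M L g then μ L else 0) else 0) := by
    intro g
    by_cases hgN : g ∈ N
    swap
    · have hgM : g ∉ M := fun h => hgN (hMN.le h)
      rw [if_neg hgN, if_neg (fun h => hgN h.1), if_neg (fun h => hgM h.1), if_neg hgM]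
      simp
    rw [if_pos hgN]
    by_cases hgM : g ∈ M
    · -- `g` normalizes `H`
      have hg1 : g ∈ N ∧ Good p N H g := ⟨hgN, H, hHN, hHp, le_rfl, (Subgroup.mem_inf.mp hgM).2⟩
      have hg2 : g ∈ M ∧ Good p M H g := ⟨hgM, H, hHM, hHp, le_rfl, (Subgroup.mem_inf.mp hgM).2⟩
      rw [if_pos hg1, if_pos hg2, if_pos hgM, sub_self, zero_add]
      congr 1
      refine Finset.sum_congr rfl fun L _ => ?_
      by_cases hL : H < L
      swap
      · rw [if_neg (fun h => hL h.1), if_neg (fun h => hL h.1)]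
      by_cases hLn : L ≤ Subgroup.normalizer (H : Set G)
      · have hiff : Good p N L g ↔ Good p M L g := by
          constructor
          · rintro ⟨K, k1, k2, k3, k4⟩
            refine ⟨K ⊓ M, inf_le_right, k2.to_le inf_le_left, le_inf k3 (le_inf (k3.trans k1) hLn),
              inf_mem_normalizer k4 (Subgroup.le_normalizer hgM)⟩
          · rintro ⟨K, k1, k2, k3, k4⟩
            exact ⟨K, k1.trans hMN.le, k2, k3, k4⟩
        by_cases h : Good p N L g
        · rw [if_pos ⟨hL, h⟩, if_pos ⟨hL, hiff.mp h⟩]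
        · rw [if_neg (fun h' => h h'.2), if_neg (fun h' => h (hiff.mpr h'.2))]
      · have h2 : ¬ Good p M L g := by
          rintro ⟨K, k1, k2, k3, k4⟩
          exact hLn (k3.trans (k1.trans inf_le_right))
        rw [if_neg (fun h' : H < L ∧ Good p M L g => h2 h'.2)]
        by_cases h : Good p N L g
        · rw [if_pos ⟨hL, h⟩]
          obtain ⟨K, k1, k2, k3, k4⟩ := h
          exact mu_eq_zero hμ L (k2.to_le k3) hL.le hLn
        · rw [if_neg (fun h' => h h'.2)]
    · rw [if_neg (fun h : g ∈ M ∧ Good p M H g => hgM h.1), if_neg hgM]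
      simp only [sub_zero, add_zero]
      by_cases hg : Good p N H g
      · rw [if_pos ⟨hgN, hg⟩]
        obtain ⟨K, k1, k2, k3, k4, k5⟩ := exists_min_witness hg
        have hHK : H < K := by
          refine lt_of_le_of_ne k3 ?_
          rintro rfl
          exact hgM (Subgroup.mem_inf.mpr ⟨hgN, k4⟩)
        have h1 := sum_ideal hμ hHK (fun L => Good p N L g) (by
          rintro L hL ⟨R, r1, r2, r3, r4⟩
          exact ⟨R, r1, r2, sup_le r3 (k5 R r1 r2 (hL.trans r3) r4), r4⟩) (by
          intro x y _ hxy hy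
          exact hy.mono hxy)
        rw [sum_lt_add hμ (fun L => Good p N L g) hg] at h1
        linarith
      · rw [if_neg (fun h => hg h.2), neg_eq_zero]
        refine Finset.sum_eq_zero fun L _ => if_neg ?_
        rintro ⟨h1, h2⟩
        exact hg (h2.mono h1.le)
  rw [Finset.sum_congr rfl (fun g _ => hsplit g), Finset.sum_add_distrib, Finset.sum_sub_distrib,
    ← hrM]
  ring

theorem good_iff {p : ℕ} [Fact p.Prime] {H : Subgroup G} (hH : IsPGroup p H) (g : G) :
    ((H).subgroupOf (H ⊔ Subgroup.zpowers g)).IsSubnormal ↔ Good p ⊤ H g := by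
  set X := H ⊔ Subgroup.zpowers g with hX
  have hHX : H ≤ X := le_sup_left
  have hgX : g ∈ X := (le_sup_right : Subgroup.zpowers g ≤ X) (Subgroup.mem_zpowers g)
  constructor
  · intro h
    have h1 : H.subgroupOf X ≤ pCore p X :=
      Cfsg.Agent.PLocal.SubnormalCore.le_pCore_of_isSubnormal h
        (hH.comap_of_injective X.subtype X.subtype_injective)
    refine ⟨(pCore p X).map X.subtype, le_top,
      (Cfsg.Agent.Lib.Cores.pCore_isPGroup p).map _, ?_, ?_⟩
    · have h2 := Subgroup.map_mono (f := X.subtype) h1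
      rwa [Subgroup.subgroupOf_map_subtype, inf_eq_left.mpr hHX] at h2
    · have hn : (pCore p X).Normal := Cfsg.Agent.Lib.Cores.pCore_normal p
      have h2 := Subgroup.le_normalizer_map (H := pCore p X) X.subtype
      apply h2
      refine ⟨⟨g, hgX⟩, ?_, rfl⟩
      rw [SetLike.mem_coe, Subgroup.normalizer_eq_top_iff.mpr hn]
      exact Subgroup.mem_top _
  · rintro ⟨K, -, hKp, hHK, hgK⟩
    have hXK : X ≤ Subgroup.normalizer (K : Set G) := by
      rw [hX, sup_le_iff, Subgroup.zpowers_le]
      exact ⟨hHK.trans Subgroup.le_normalizer, hgK⟩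
    have hKn : (K.subgroupOf X).Normal := Subgroup.normal_subgroupOf_of_le_normalizer hXK
    refine Subgroup.IsSubnormal.trans (K := K.subgroupOf X) ?_ ?_ hKn.isSubnormal
    · exact Subgroup.comap_mono hHK
    · have hp' : IsPGroup p (K.subgroupOf X) := hKp.comap_of_injective X.subtype X.subtype_injective
      exact Cfsg.Agent.Solvable.Zipper.isSubnormal_of_isNilpotent hp'.isNilpotent _

end Groups

theorem map_conj_eq_iff {G : Type*} [Group G] (R : Subgroup G) (a x : G) :
    R.map (MulAut.conj a).toMonoidHom = R.map (MulAut.conj x).toMonoidHom ↔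
      x⁻¹ * a ∈ Subgroup.normalizer (R : Set G) := by
  rw [Subgroup.mem_normalizer_iff_map_conj_eq]
  have h1 : ∀ a b : G, R.map (MulAut.conj (a * b)).toMonoidHom =
      (R.map (MulAut.conj b).toMonoidHom).map (MulAut.conj a).toMonoidHom := by
    intro a b
    rw [Subgroup.map_map, map_mul]
    rfl
  have h2 : ∀ L : Subgroup G, ∀ a : G,
      (L.map (MulAut.conj a).toMonoidHom).map (MulAut.conj a⁻¹).toMonoidHom = L := by
    intro L a
    rw [Subgroup.map_map]
    convert Subgroup.map_id L
    ext y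
    simp [mul_assoc]
  constructor
  · intro h
    have h3 := h1 x⁻¹ a
    rw [h, h2] at h3
    exact h3
  · intro h
    have h3 := h1 x (x⁻¹ * a)
    rw [mul_inv_cancel_left] at h3
    rw [h3]
    congr 1

open scoped Classical in
/-- counting the elements `g` with a property of `g R g⁻¹` by `g R g⁻¹` -/
theorem count_conj {G : Type*} [Group G] [Fintype G] (R : Subgroup G) (pred : Subgroup G → Prop) :
    (Finset.univ.filter (fun g : G => pred (R.map (MulAut.conj g).toMonoidHom))).card =
      Nat.card {K : Subgroup G // pred K ∧ ∃ g : G, K = R.map (MulAut.conj g).toMonoidHom} *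
        Nat.card (Subgroup.normalizer (R : Set G)) := by
  letI : Fintype (Subgroup G) := Fintype.ofFinite _
  have h1 := Finset.card_eq_sum_card_fiberwise
    (s := Finset.univ.filter (fun g : G => pred (R.map (MulAut.conj g).toMonoidHom)))
    (t := Finset.univ.filter (fun K : Subgroup G => pred K ∧
      ∃ g : G, K = R.map (MulAut.conj g).toMonoidHom))
    (f := fun g : G => R.map (MulAut.conj g).toMonoidHom) (by
      intro g hg
      simp only [Finset.coe_filter, Finset.mem_univ, true_and, Set.mem_ofPred_eq] at hg ⊢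
      exact ⟨hg, g, rfl⟩)
  rw [h1, Finset.sum_const_nat (m := Nat.card (Subgroup.normalizer (R : Set G)))]
  · congr 1
    rw [Nat.card_eq_fintype_card, Fintype.card_subtype]
  · intro K hK
    simp only [Finset.mem_filter, Finset.mem_univ, true_and] at hK
    obtain ⟨hKP, x, hx⟩ := hK
    rw [Nat.card_eq_fintype_card, ← Finset.card_univ]
    symm
    refine Finset.card_bij (fun n _ => x * n.1) ?_ ?_ ?_
    · intro n _
      have h2 : R.map (MulAut.conj (x * n.1)).toMonoidHom = R.map (MulAut.conj x).toMonoidHom := by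
        rw [map_conj_eq_iff, inv_mul_cancel_left]
        exact n.2
      simp only [Finset.mem_filter, Finset.mem_univ, true_and]
      rw [h2, ← hx]
      exact ⟨hKP, rfl⟩
    · intro a _ b _ h
      exact Subtype.ext (mul_left_cancel h)
    · intro b hb
      simp only [Finset.mem_filter, Finset.mem_univ, true_and] at hb
      have h2 := hb.2
      rw [hx, map_conj_eq_iff] at h2
      exact ⟨⟨x⁻¹ * b, h2⟩, Finset.mem_univ _, mul_inv_cancel_left x b⟩

theorem map_conj_le_iff {G : Type*} [Group G] (H P : Subgroup G) (g : G) :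
    H.map (MulAut.conj g).toMonoidHom ≤ P ↔ H ≤ P.map (MulAut.conj g⁻¹).toMonoidHom := by
  constructor
  · intro h x hx
    refine ⟨g * x * g⁻¹, h ⟨x, hx, by simp⟩, by simp [mul_assoc]⟩
  · rintro h _ ⟨x, hx, rfl⟩
    obtain ⟨y, hy, hxy⟩ := h hx
    have : g * x * g⁻¹ = y := by
      rw [← hxy]; simp [mul_assoc]
    have h2 : (MulAut.conj g).toMonoidHom x = y := by simpa using this
    rw [h2]; exact hy

theorem card_normalizer_eq {G : Type*} [Group G] [Finite G] {p : ℕ} [Fact p.Prime] (P Q : Sylow p G) :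
    Nat.card (Subgroup.normalizer ((P : Subgroup G) : Set G)) =
      Nat.card (Subgroup.normalizer ((Q : Subgroup G) : Set G)) := by
  have h1 := Subgroup.index_mul_card (Subgroup.normalizer ((P : Subgroup G) : Set G))
  have h2 := Subgroup.index_mul_card (Subgroup.normalizer ((Q : Subgroup G) : Set G))
  have h3 : (Subgroup.normalizer ((P : Subgroup G) : Set G)).index = Nat.card (Sylow p G) :=
    (Sylow.card_eq_index_normalizer P).symm
  have h4 : (Subgroup.normalizer ((Q : Subgroup G) : Set G)).index = Nat.card (Sylow p G) :=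
    (Sylow.card_eq_index_normalizer Q).symm
  rw [h3] at h1
  rw [h4] at h2
  have h5 : 0 < Nat.card (Sylow p G) := Nat.card_pos
  exact Nat.eq_of_mul_eq_mul_left h5 (h1.trans h2.symm)

open scoped Classical in
/-- the equality of the second and the third number -/
theorem second {G : Type*} [Group G] [Finite G] (p : ℕ) [Fact p.Prime]
    (H : Subgroup G) (P : Sylow p G) :
    Nat.card {Q : Sylow p G // H ≤ (Q : Subgroup G)} *
        Nat.card (Subgroup.normalizer ((P : Subgroup G) : Set G)) =
    Nat.card {K : Subgroup G // K ≤ (P : Subgroup G) ∧ ∃ g : G, K = H.map (MulAut.conj g).toMonoidHom} *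
          Nat.card (Subgroup.normalizer (H : Set G)) := by
  letI : Fintype G := Fintype.ofFinite _
  have h1 := count_conj H (fun K => K ≤ (P : Subgroup G))
  have h2 := count_conj (P : Subgroup G) (fun K => H ≤ K)
  have h3 : (Finset.univ.filter (fun g : G => H.map (MulAut.conj g).toMonoidHom ≤ (P : Subgroup G))).card =
      (Finset.univ.filter (fun g : G => H ≤ (P : Subgroup G).map (MulAut.conj g).toMonoidHom)).card := by
    refine Finset.card_bij (fun g _ => g⁻¹) ?_ ?_ ?_
    · intro g hg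
      simp only [Finset.mem_filter, Finset.mem_univ, true_and] at hg ⊢
      exact (map_conj_le_iff H P g).mp hg
    · intro a _ b _ h
      exact inv_injective h
    · intro b hb
      simp only [Finset.mem_filter, Finset.mem_univ, true_and] at hb
      refine ⟨b⁻¹, ?_, inv_inv b⟩
      simp only [Finset.mem_filter, Finset.mem_univ, true_and]
      rw [map_conj_le_iff, inv_inv]
      exact hb
  have h4 : Nat.card {Q : Sylow p G // H ≤ (Q : Subgroup G)} =
      Nat.card {K : Subgroup G // H ≤ K ∧ ∃ g : G, K = (P : Subgroup G).map (MulAut.conj g).toMonoidHom} := by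
    refine Nat.card_congr (Equiv.ofBijective (fun Q => ⟨(Q.1 : Subgroup G), Q.2, ?_⟩) ⟨?_, ?_⟩)
    · obtain ⟨g, hg⟩ := MulAction.exists_smul_eq G P Q.1
      refine ⟨g, ?_⟩
      rw [← hg]
      rfl
    · intro Q R h
      apply Subtype.ext
      apply Sylow.ext
      exact congrArg Subtype.val h
    · rintro ⟨K, hK, g, hg⟩
      refine ⟨⟨g • P, ?_⟩, ?_⟩
      · have : ((g • P : Sylow p G) : Subgroup G) = K := by rw [hg]; rfl
        rw [this]; exact hK
      · apply Subtype.ext
        change ((g • P : Sylow p G) : Subgroup G) = K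
        rw [hg]; rfl
  rw [h4, ← h2, ← h3, h1]

open scoped Classical in
/-- the equality of the first and the second number -/
theorem first {G : Type*} [Group G] [Finite G] (p : ℕ) [Fact p.Prime]
    (H : Subgroup G) (hH : IsPGroup p H) (P : Sylow p G) :
    Nat.card {g : G // ((H).subgroupOf (H ⊔ Subgroup.zpowers g)).IsSubnormal} =
        Nat.card {Q : Sylow p G // H ≤ (Q : Subgroup G)} *
          Nat.card (Subgroup.normalizer ((P : Subgroup G) : Set G)) := by
  letI : Fintype G := Fintype.ofFinite _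
  letI : Fintype (Subgroup G) := Fintype.ofFinite _
  have h1 := main (p := p) (G := G) _ ⊤ rfl H le_top hH
  have h2 : cc p ⊤ H = (Nat.card {g : G // ((H).subgroupOf (H ⊔ Subgroup.zpowers g)).IsSubnormal} : ℤ) := by
    rw [cc, Finset.sum_boole, Nat.card_eq_fintype_card, Fintype.card_subtype]
    congr 2
    ext g
    simp only [Finset.mem_filter, Finset.mem_univ, true_and, Subgroup.mem_top]
    exact (good_iff hH g).symm
  have h3 : rr p ⊤ H = ((Nat.card {Q : Sylow p G // H ≤ (Q : Subgroup G)} *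
          Nat.card (Subgroup.normalizer ((P : Subgroup G) : Set G)) : ℕ) : ℤ) := by
    have h4 : rr p ⊤ H = ∑ Q : {Q : Subgroup G // IsSyl p ⊤ Q ∧ H ≤ Q},
        (Nat.card (Subgroup.normalizer ((P : Subgroup G) : Set G)) : ℤ) := by
      rw [rr, ← Finset.sum_filter]
      have h5 : ∑ Q ∈ Finset.univ.filter (fun Q : Subgroup G => IsSyl p ⊤ Q ∧ H ≤ Q),
          (Nat.card (⊤ ⊓ Subgroup.normalizer (Q : Set G) : Subgroup G) : ℤ) =
          ∑ Q ∈ Finset.univ.filter (fun Q : Subgroup G => IsSyl p ⊤ Q ∧ H ≤ Q),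
          (Nat.card (Subgroup.normalizer ((P : Subgroup G) : Set G)) : ℤ) := by
        refine Finset.sum_congr rfl fun Q hQ => ?_
        simp only [Finset.mem_filter, Finset.mem_univ, true_and] at hQ
        rw [top_inf_eq]
        let Q' : Sylow p G := ⟨Q, hQ.1.2.1, fun {R} hR hle => hQ.1.2.2 R le_top hR hle⟩
        have := card_normalizer_eq Q' P
        exact_mod_cast this
      rw [h5, Finset.sum_const, Finset.sum_const, Finset.card_univ, Fintype.card_subtype]
    rw [h4, Finset.sum_const, Finset.card_univ, ← Nat.card_eq_fintype_card, nsmul_eq_mul, Nat.cast_mul]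
    congr 2
    refine Nat.card_congr (Equiv.ofBijective (fun Q => ⟨⟨Q.1, Q.2.1.2.1,
      fun {R} hR hle => Q.2.1.2.2 R le_top hR hle⟩, Q.2.2⟩) ⟨?_, ?_⟩)
    · intro Q R h
      apply Subtype.ext
      exact congrArg (fun (x : {Q : Sylow p G // H ≤ (Q : Subgroup G)}) => ((x.1 : Sylow p G) : Subgroup G)) h
    · rintro ⟨Q, hQ⟩
      exact ⟨⟨(Q : Subgroup G), ⟨le_top, Q.isPGroup', fun R _ hR hle => Q.is_maximal' hR hle⟩, hQ⟩, rfl⟩
  rw [h2, h3] at h1
  exact_mod_cast h1

/-- Let G be a finite group, p a prime dividing the order of G, H a p-subgroup of G and P a Sylow p-subgroup of G. Call the subnormalizer of H the set of elements g of G such that H is subnormal in the subgroup generated by H and g. Then the number of elements of the subnormalizer of H equals the number of Sylow p-subgroups of G containing H times the order of N_G(P), and also equals the number of conjugates of H contained in P times the order of N_G(H). -/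
theorem result {G : Type*} [Group G] [Finite G] (p : ℕ) [Fact p.Prime]
    (hp : p ∣ Nat.card G) (H : Subgroup G) (hH : IsPGroup p H) (P : Sylow p G) :
    Nat.card {g : G // ((H).subgroupOf (H ⊔ Subgroup.zpowers g)).IsSubnormal} =
        Nat.card {Q : Sylow p G // H ≤ (Q : Subgroup G)} * Nat.card (Subgroup.normalizer ((P : Subgroup G) : Set G)) ∧
    Nat.card {g : G // ((H).subgroupOf (H ⊔ Subgroup.zpowers g)).IsSubnormal} =
        Nat.card {K : Subgroup G // K ≤ (P : Subgroup G) ∧ ∃ g : G, K = H.map (MulAut.conj g).toMonoidHom} *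
          Nat.card (Subgroup.normalizer (H : Set G)) :=
  ⟨first p H hH P, (first p H hH P).trans (second p H P)⟩

end Cfsg.Agent.S4088
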