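import Cfsg.Statements.S4090
import Cfsg.Agent.H515.Count
set_option linter.all false

set_option autoImplicit false
open scoped BigOperators
open Cfsg

namespace Cfsg.Agent.S4090

open Cfsg.Agent.H515.Subn Cfsg.Agent.H515.Count

theorem prod_of_chain (n : ℕ) (a : Fin (n + 1) → ℕ) (c : Fin n → ℕ)
    (h : ∀ i : Fin n, a i.castSucc = c i * a i.succ) : a 0 = (∏ i, c i) * a (Fin.last n) := by
  induction n with
  | zero => simp
  | succ n ih =>
    rw [Fin.prod_univ_succ, ← Fin.castSucc_zero, h 0]
    have h1 := ih (fun i => a i.succ) (fun i => c i.succ) (fun i => by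
      have := h i.succ
      rw [← Fin.succ_castSucc] at this
      exact this)
    have h2 : a (Fin.succ 0) = (∏ i : Fin n, c i.succ) * a (Fin.last (n + 1)) := h1
    rw [h2, mul_assoc]

section
variable {G : Type*} [Group G] [Finite G] {p : ℕ} [Fact p.Prime] {A B : Subgroup G} [A.Normal] [B.Normal]

/-- the projection `G/A → G/B` -/
noncomputable abbrev proj (A B : Subgroup G) [A.Normal] [B.Normal] (h : A ≤ B) : G ⧸ A →* G ⧸ B :=
  QuotientGroup.map A B (MonoidHom.id G) h

omit [Finite G] in
theorem proj_surjective (h : A ≤ B) : Function.Surjective (proj A B h) := by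
  intro y
  obtain ⟨x, rfl⟩ := QuotientGroup.mk'_surjective B y
  exact ⟨QuotientGroup.mk' A x, rfl⟩

theorem card_ker_proj (h : A ≤ B) : Nat.card (proj A B h).ker = A.relIndex B := by
  have h1 := card_comap (proj A B h) ⊤ (by rw [MonoidHom.range_eq_top.mpr (proj_surjective h)])
  rw [Subgroup.comap_top, Subgroup.card_top, Subgroup.card_top] at h1
  have h2 : Nat.card (G ⧸ A) = A.index := rfl
  have h3 : Nat.card (G ⧸ B) = B.index := rfl
  have h4 := Subgroup.relIndex_mul_index h
  rw [h2, h3, ← h4] at h1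
  exact (Nat.eq_of_mul_eq_mul_right (Nat.pos_of_ne_zero Subgroup.FiniteIndex.index_ne_zero) h1).symm

theorem card_CK_proj (h : A ≤ B) (H : Subgroup G) :
    Nat.card {u : G // u ∈ B ∧ ∀ h ∈ H, h * u * h⁻¹ * u⁻¹ ∈ A} / Nat.card A =
      Nat.card (CK (proj A B h) (H.map (QuotientGroup.mk' A))) := by
  let f : {u : G // u ∈ B ∧ ∀ h ∈ H, h * u * h⁻¹ * u⁻¹ ∈ A} →
      CK (proj A B h) (H.map (QuotientGroup.mk' A)) := fun u => ⟨QuotientGroup.mk' A u.1, by
    refine ⟨(QuotientGroup.eq_one_iff u.1).mpr u.2.1, ?_⟩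
    rintro _ ⟨x, hx, rfl⟩
    have h1 := (QuotientGroup.eq_one_iff _).mpr (u.2.2 x hx)
    have h2 : QuotientGroup.mk' A (x * u.1 * x⁻¹ * (u.1)⁻¹) = 1 := h1
    rw [map_mul, map_mul, map_mul, map_inv, map_inv] at h2
    have h3 := mul_inv_eq_one.mp h2
    exact (mul_inv_eq_iff_eq_mul.mp h3).symm⟩
  have h1 : Nat.card {u : G // u ∈ B ∧ ∀ h ∈ H, h * u * h⁻¹ * u⁻¹ ∈ A} = Nat.card A *
      Nat.card (CK (proj A B h) (H.map (QuotientGroup.mk' A))) := by
    refine card_eq_mul_of_fiber f _ ?_
    rintro ⟨y, hy1, hy2⟩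
    obtain ⟨u0, rfl⟩ := QuotientGroup.mk'_surjective A y
    have hu0 : u0 ∈ B := (QuotientGroup.eq_one_iff u0).mp hy1
    have hcomm : ∀ x ∈ H, ∀ u : G, QuotientGroup.mk' A u = QuotientGroup.mk' A u0 →
        x * u * x⁻¹ * u⁻¹ ∈ A := by
      intro x hx u hu
      have h2 := hy2 _ ⟨x, hx, rfl⟩
      rw [← hu] at h2
      have h3 : QuotientGroup.mk' A (x * u * x⁻¹ * u⁻¹) = 1 := by
        rw [map_mul, map_mul, map_mul, map_inv, map_inv, ← h2]; group
      exact (QuotientGroup.eq_one_iff _).mp h3
    refine Nat.card_congr ⟨fun u => ⟨u0⁻¹ * u.1.1, ?_⟩, fun a => ⟨⟨u0 * a.1, ?_, ?_⟩, ?_⟩, ?_, ?_⟩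
    · have h2 : QuotientGroup.mk' A u.1.1 = QuotientGroup.mk' A u0 := congrArg Subtype.val u.2
      exact QuotientGroup.eq.mp h2.symm
    · exact B.mul_mem hu0 (h a.2)
    · intro x hx
      refine hcomm x hx _ ?_
      rw [map_mul]
      have : QuotientGroup.mk' A (a.1) = 1 := (QuotientGroup.eq_one_iff _).mpr a.2
      rw [this, mul_one]
    · apply Subtype.ext
      change QuotientGroup.mk' A (u0 * a.1) = QuotientGroup.mk' A u0
      rw [map_mul]
      have : QuotientGroup.mk' A (a.1) = 1 := (QuotientGroup.eq_one_iff _).mpr a.2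
      rw [this, mul_one]
    · intro u
      apply Subtype.ext
      apply Subtype.ext
      simp
    · intro a
      apply Subtype.ext
      simp
  rw [h1, Nat.mul_div_cancel_left _ Nat.card_pos]

theorem isPGroup_ker_proj (h : A ≤ B) {m : ℕ} (hm : A.relIndex B = p ^ m) :
    IsPGroup p (proj A B h).ker := IsPGroup.of_card (by rw [card_ker_proj, hm])

end

/-- Let G be a finite p-solvable group, H a p-subgroup of G and P a Sylow p-subgroup, and fix a chain of normal subgroups 1 = M₀ ≤ M₁ ≤ ⋯ ≤ Mₙ = G of G each of whose factors is a p-group or a p'-group. Then the number of elements g of G such that H is subnormal in the subgroup generated by H and g equals the order of P times the product, over the factors Mᵢ₊₁/Mᵢ of order prime to p, of the order of the centralizer of H in Mᵢ₊₁/Mᵢ (counted as the number of u ∈ Mᵢ₊₁ with [h, u] ∈ Mᵢ for all h ∈ H, divided by the order of Mᵢ). -/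
theorem result {G : Type*} [Group G] [Finite G] (p : ℕ) [Fact p.Prime]
    (hG : Cfsg.IsPSolvable p G) (H : Subgroup G) (hH : IsPGroup p H) (P : Sylow p G)
    (n : ℕ) (M : Fin (n + 1) → Subgroup G) (h0 : M 0 = ⊥) (hn : M (Fin.last n) = ⊤) (hmono : Monotone M)
    (hnormal : ∀ i, (M i).Normal)
    (hfac : ∀ i : Fin n, (∃ m : ℕ, (M i.castSucc).relIndex (M i.succ) = p ^ m) ∨ ((M i.castSucc).relIndex (M i.succ)).Coprime p) :
    Nat.card {g : G // ((H).subgroupOf (H ⊔ Subgroup.zpowers g)).IsSubnormal} =
      Nat.card (P : Subgroup G) *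
        ∏ i : Fin n, (if ((M i.castSucc).relIndex (M i.succ)).Coprime p then
          Nat.card {u : G // u ∈ M i.succ ∧ ∀ h ∈ H, h * u * h⁻¹ * u⁻¹ ∈ M i.castSucc} / Nat.card (M i.castSucc)
          else 1) := by
  classical
  have hp : p.Prime := Fact.out
  have e0 : Nat.card {g : G // ((H).subgroupOf (H ⊔ Subgroup.zpowers g)).IsSubnormal} =
      Nat.card (SS p H) := Nat.card_congr (Equiv.subtypeEquivRight fun g => isSubnormal_iff_mem hH g)
  rw [e0]
  -- the numbers
  let a : Fin (n + 1) → ℕ := fun i => Nat.card (SS p (H.map (@QuotientGroup.mk' G _ (M i) (hnormal i))))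
  let b : Fin (n + 1) → ℕ := fun i => p ^ ((M i).index.factorization p)
  let c : Fin n → ℕ := fun i => if ((M i.castSucc).relIndex (M i.succ)).Coprime p then
          Nat.card {u : G // u ∈ M i.succ ∧ ∀ h ∈ H, h * u * h⁻¹ * u⁻¹ ∈ M i.castSucc} / Nat.card (M i.castSucc)
          else 1
  let d : Fin n → ℕ := fun i => if ((M i.castSucc).relIndex (M i.succ)).Coprime p then 1 else
    (M i.castSucc).relIndex (M i.succ)
  have hle : ∀ i : Fin n, M i.castSucc ≤ M i.succ := fun i => hmono (Fin.castSucc_lt_succ).le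
  have ha : ∀ i : Fin n, a i.castSucc = (c i * d i) * a i.succ := by
    intro i
    have hA := hnormal i.castSucc
    have hB := hnormal i.succ
    have hmap : (H.map (QuotientGroup.mk' (M i.castSucc))).map (proj _ _ (hle i)) =
        H.map (QuotientGroup.mk' (M i.succ)) := by
      rw [Subgroup.map_map]; rfl
    have hHp : IsPGroup p (H.map (QuotientGroup.mk' (M i.castSucc))) := hH.map _
    by_cases hcop : ((M i.castSucc).relIndex (M i.succ)).Coprime p
    · have h1 := card_SS_of_coprime (p := p) (proj _ _ (hle i)) (proj_surjective (hle i))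
        (by rw [card_ker_proj]; exact hcop) hHp
      rw [hmap] at h1
      have h2 := card_CK_proj (hle i) H
      rw [← h2] at h1
      change Nat.card (SS p (H.map (QuotientGroup.mk' (M i.castSucc)))) = _
      rw [h1]
      simp only [c, d, if_pos hcop, mul_one]
      rfl
    · obtain ⟨m, hm⟩ := (hfac i).resolve_right hcop
      have h1 := card_SS_of_isPGroup (p := p) (proj _ _ (hle i)) (proj_surjective (hle i))
        (isPGroup_ker_proj (hle i) hm) hHp
      rw [hmap, card_ker_proj] at h1
      change Nat.card (SS p (H.map (QuotientGroup.mk' (M i.castSucc)))) = _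
      rw [h1]
      simp only [c, d, if_neg hcop, one_mul]
      rfl
  have hb : ∀ i : Fin n, b i.castSucc = d i * b i.succ := by
    intro i
    have h1 := Subgroup.relIndex_mul_index (hle i)
    have hne1 : (M i.castSucc).relIndex (M i.succ) ≠ 0 := by
      intro h
      rw [h, zero_mul] at h1
      exact Subgroup.FiniteIndex.index_ne_zero h1.symm
    have hne2 : (M i.succ).index ≠ 0 := Subgroup.FiniteIndex.index_ne_zero
    change p ^ ((M i.castSucc).index.factorization p) = d i * p ^ ((M i.succ).index.factorization p)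
    rw [← h1, Nat.factorization_mul hne1 hne2, Finsupp.add_apply, pow_add]
    congr 1
    by_cases hcop : ((M i.castSucc).relIndex (M i.succ)).Coprime p
    · simp only [d, if_pos hcop]
      have : ((M i.castSucc).relIndex (M i.succ)).factorization p = 0 := by
        apply Nat.factorization_eq_zero_of_not_dvd
        intro hd
        have h2 := Nat.dvd_gcd hd (dvd_refl p)
        rw [hcop] at h2
        exact hp.one_lt.ne' (Nat.dvd_one.mp h2)
      rw [this, pow_zero]
    · simp only [d, if_neg hcop]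
      obtain ⟨m, hm⟩ := (hfac i).resolve_right hcop
      rw [hm, hp.factorization_pow, Finsupp.single_eq_same]
  have h1 := prod_of_chain n a _ ha
  have h2 := prod_of_chain n b _ hb
  have hblast : b (Fin.last n) = 1 := by
    change p ^ ((M (Fin.last n)).index.factorization p) = 1
    rw [hn]; simp
  have hb0 : b 0 = Nat.card (P : Subgroup G) := by
    change p ^ ((M 0).index.factorization p) = _
    rw [h0, Subgroup.index_bot, Sylow.card_eq_multiplicity]
  have halast : a (Fin.last n) = 1 := by
    have hN := hnormal (Fin.last n)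
    have hsub : Subsingleton (G ⧸ M (Fin.last n)) := by
      rw [hn]; exact QuotientGroup.subsingleton_quotient_top
    change Nat.card (SS p (H.map (QuotientGroup.mk' (M (Fin.last n))))) = 1
    rw [Nat.card_eq_one_iff_unique]
    refine ⟨⟨fun x y => Subtype.ext (Subsingleton.elim _ _)⟩, ⟨⟨1, ?_⟩⟩⟩
    exact ⟨_, hH.map _, le_rfl, Subgroup.one_mem _⟩
  have ha0 : a 0 = Nat.card (SS p H) := by
    have hN := hnormal 0
    have hker : (QuotientGroup.mk' (M 0)).ker = ⊥ := by rw [QuotientGroup.ker_mk', h0]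
    have h3 := card_SS_of_isPGroup (p := p) (QuotientGroup.mk' (M 0)) (QuotientGroup.mk'_surjective _)
      (by rw [hker]; exact IsPGroup.of_bot) hH
    rw [hker, Subgroup.card_bot, one_mul] at h3
    exact h3.symm
  rw [halast, mul_one, ha0, Finset.prod_mul_distrib] at h1
  rw [hblast, mul_one, hb0] at h2
  rw [h1, h2, mul_comm]

end Cfsg.Agent.S4090
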