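import Mathlib
import Cfsg.Agent.H580.Cop
import Cfsg.Agent.H515.Count
import Cfsg.Statements.S4091
import Cfsg.Agent.S4090
set_option linter.all false

-- part: H515/KeyIneq
section
/-!
# A product inequality for fixed points of a `p`-group acting on a `p'`-group

For a finite `p`-group `P` acting by automorphisms on a finite group `V` of order prime to `p`,
`(∏ x : P, |C_V(x)|) ^ p ≤ |C_V(P)| ^ (|P| (p - 1)) * |V| ^ |P|`.
-/

set_option autoImplicit false
set_option linter.unusedSectionVars false
set_option linter.style.haveILetI false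
open scoped BigOperators Pointwise

namespace Cfsg.Agent.H515.KeyIneq

universe u v

/-- the inequality for a function on subgroups -/
def KIF (p : ℕ) (P : Type u) [Group P] [Fintype P] (F : Subgroup P → ℕ) : Prop :=
  (∏ x : P, F (Subgroup.zpowers x)) ^ p ≤ F ⊤ ^ (Nat.card P * (p - 1)) * F ⊥ ^ Nat.card P

section KIF
variable {p : ℕ} {P : Type u} [Group P] [Fintype P]

theorem KIF.one : KIF p P (fun _ => 1) := by simp [KIF]

theorem KIF.mul {F F' : Subgroup P → ℕ} (h : KIF p P F) (h' : KIF p P F') :
    KIF p P (fun X => F X * F' X) := by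
  unfold KIF at *
  rw [Finset.prod_mul_distrib, mul_pow, mul_pow, mul_pow]
  calc _ ≤ (F ⊤ ^ (Nat.card P * (p - 1)) * F ⊥ ^ Nat.card P) *
      (F' ⊤ ^ (Nat.card P * (p - 1)) * F' ⊥ ^ Nat.card P) := Nat.mul_le_mul h h'
    _ = _ := by ring

theorem KIF.prod {ι : Type*} (s : Finset ι) (F : ι → Subgroup P → ℕ) (h : ∀ i ∈ s, KIF p P (F i)) :
    KIF p P (fun X => ∏ i ∈ s, F i X) := by
  classical
  induction s using Finset.induction_on with
  | empty => simpa using KIF.one
  | insert a s ha ih =>
    have h1 := h a (Finset.mem_insert_self a s)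
    have h2 := ih (fun i hi => h i (Finset.mem_insert_of_mem hi))
    have h3 := h1.mul h2
    have e : (fun X => ∏ i ∈ insert a s, F i X) = fun X => F a X * ∏ i ∈ s, F i X := by
      funext X
      rw [Finset.prod_insert ha]
    rw [e]; exact h3

end KIF

/-- number of fixed points -/
noncomputable def fx {P : Type u} (V : Type v) [Group P] [Group V] [MulDistribMulAction P V] (X : Subgroup P) : ℕ :=
  Nat.card {w : V // ∀ x ∈ X, x • w = w}

/-- the restricted action on an invariant subgroup -/
@[reducible] def subAct {P : Type u} {V : Type v} [Group P] [Group V] [MulDistribMulAction P V] (H : Subgroup V)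
    (hH : ∀ (x : P), ∀ w ∈ H, x • w ∈ H) : MulDistribMulAction P H where
  smul x w := ⟨x • (w : V), hH x w w.2⟩
  one_smul w := Subtype.ext (one_smul P (w : V))
  mul_smul a b w := Subtype.ext (mul_smul a b (w : V))
  smul_mul a x y := Subtype.ext (smul_mul' a (x : V) (y : V))
  smul_one a := Subtype.ext (smul_one a)

/-- The induced action on the quotient by an invariant normal subgroup. -/
@[reducible] def quotAct {P : Type u} {V : Type v} [Group P] [Group V] [MulDistribMulAction P V] {N : Subgroup V}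
    [N.Normal] (hN : ∀ (x : P), ∀ w ∈ N, x • w ∈ N) : MulDistribMulAction P (V ⧸ N) where
  smul a := QuotientGroup.map N N (MulDistribMulAction.toMonoidHom V a) (fun x hx => hN a x hx)
  one_smul x := by
    induction x using QuotientGroup.induction_on with | H x =>
    change (((1 : P) • x : V) : V ⧸ N) = _
    rw [one_smul]
  mul_smul a b x := by
    induction x using QuotientGroup.induction_on with | H x =>
    change (((a * b) • x : V) : V ⧸ N) = ((a • b • x : V) : V ⧸ N)
    rw [mul_smul]
  smul_mul a x y := map_mul (QuotientGroup.map N N (MulDistribMulAction.toMonoidHom V a) (fun x hx => hN a x hx)) x y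
  smul_one a := map_one (QuotientGroup.map N N (MulDistribMulAction.toMonoidHom V a) (fun x hx => hN a x hx))

section comm
variable {p : ℕ} {P : Type u} {V : Type v} [Group P] [Fintype P] [CommGroup V] [Finite V]
  [MulDistribMulAction P V]

/-- independence of the fixed points of the `x z^i` on a group on which a power of `z` fixes nothing -/
theorem indep {z x : P} (hxz : x * z = z * x) (hz : z ^ p = 1) (hp : p.Prime)
    (hfree : ∀ w : V, z • w = w → w = 1) (S : Finset ℕ) (hS : ∀ i ∈ S, i < p) :
    ∀ w : ℕ → V, (∀ i ∈ S, (x * z ^ i) • w i = w i) → ∏ i ∈ S, w i = 1 → ∀ i ∈ S, w i = 1 := by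
  classical
  induction S using Finset.induction_on with
  | empty => intro w _ _ i hi; simp at hi
  | insert a S ha ih =>
    intro w hw hprod
    have hcomm : ∀ i j : ℕ, (x * z ^ i) * (x * z ^ j) = (x * z ^ j) * (x * z ^ i) := by
      intro i j
      have h0 : Commute x z := hxz
      have h1 : Commute x (z ^ i) := h0.pow_right i
      have h2 : Commute x (z ^ j) := h0.pow_right j
      have h3 : Commute (z ^ i) (z ^ j) := (Commute.refl z).pow_pow i j
      have c1 : Commute (x * z ^ i) x := (Commute.refl x).mul_left h1.symm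
      have c2 : Commute (x * z ^ i) (z ^ j) := h2.mul_left h3
      exact c1.mul_right c2
    -- the new family
    have key : ∀ i ∈ S, ((x * z ^ a) • w i) * (w i)⁻¹ = 1 := by
      refine ih (fun i hi => hS i (Finset.mem_insert_of_mem hi)) (fun i => ((x * z ^ a) • w i) * (w i)⁻¹) ?_ ?_
      · intro i hi
        have h1 := hw i (Finset.mem_insert_of_mem hi)
        rw [smul_mul', smul_inv', h1, ← mul_smul, hcomm i a, mul_smul, h1]
      · have h1 : (x * z ^ a) • (∏ i ∈ insert a S, w i) = 1 := by rw [hprod, smul_one]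
        rw [Finset.smul_prod', Finset.prod_insert ha, hw a (Finset.mem_insert_self a S)] at h1
        rw [Finset.prod_insert ha] at hprod
        rw [Finset.prod_mul_distrib, Finset.prod_inv_distrib]
        have h2 : (∏ i ∈ S, (x * z ^ a) • w i) = ∏ i ∈ S, w i := by
          have := h1.trans hprod.symm
          exact mul_left_cancel this
        rw [h2, mul_inv_cancel]
    have hone : ∀ i ∈ S, w i = 1 := by
      intro i hi
      have h1 := mul_inv_eq_one.mp (key i hi)
      have h2 := hw i (Finset.mem_insert_of_mem hi)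
      -- z^a • w = z^i • w
      have h3 : z ^ a • w i = z ^ i • w i := by
        have h4 : x • (z ^ a • w i) = x • (z ^ i • w i) := by
          rw [← mul_smul, ← mul_smul, h1, h2]
        exact smul_left_cancel x h4
      have hne : i ≠ a := fun h => ha (h ▸ hi)
      -- z^d fixes w, d prime to p
      obtain ⟨d, hd1, hd2, hd3⟩ : ∃ d : ℕ, 0 < d ∧ d < p ∧ z ^ d • w i = w i := by
        have hap := hS a (Finset.mem_insert_self a S)
        have hip := hS i (Finset.mem_insert_of_mem hi)
        rcases lt_or_gt_of_ne hne with h | h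
        · refine ⟨a - i, by omega, by omega, ?_⟩
          have e : z ^ a = z ^ i * z ^ (a - i) := by rw [← pow_add]; congr 1; omega
          rw [e, mul_smul] at h3
          exact smul_left_cancel _ h3
        · refine ⟨i - a, by omega, by omega, ?_⟩
          have e : z ^ i = z ^ a * z ^ (i - a) := by rw [← pow_add]; congr 1; omega
          rw [e, mul_smul] at h3
          exact (smul_left_cancel _ h3).symm
      apply hfree
      have hcop : d.Coprime p := by
        rw [Nat.coprime_comm]
        exact (Nat.Prime.coprime_iff_not_dvd hp).mpr (fun h => absurd (Nat.le_of_dvd hd1 h) (by omega))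
      obtain ⟨m, hm⟩ := Nat.exists_mul_mod_eq_one_of_coprime hcop hp.one_lt
      have h5 : ∀ m : ℕ, (z ^ d) ^ m • w i = w i := by
        intro m
        induction m with
        | zero => simp
        | succ m ihm => rw [pow_succ, mul_smul, hd3, ihm]
      have h6 := h5 m
      rw [← pow_mul] at h6
      have h7 : z ^ (d * m) = z := by
        have h8 := Nat.div_add_mod (d * m) p
        rw [hm.2] at h8
        rw [← h8, pow_add, pow_mul, hz, one_pow, one_mul, pow_one]
      rwa [h7] at h6
    intro i hi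
    rcases Finset.mem_insert.mp hi with rfl | hi
    · rw [Finset.prod_insert ha, Finset.prod_eq_one hone, mul_one] at hprod
      exact hprod
    · exact hone i hi

theorem prod_le_of_free {z x : P} (hxz : x * z = z * x) (hz : z ^ p = 1) (hp : p.Prime)
    (hfree : ∀ w : V, z • w = w → w = 1) :
    ∏ i ∈ Finset.range p, fx V (Subgroup.zpowers (x * z ^ i)) ≤ Nat.card V := by
  classical
  have e1 : ∀ y : P, fx V (Subgroup.zpowers y) = Nat.card {w : V // y • w = w} := by
    intro y
    refine Nat.card_congr (Equiv.subtypeEquivRight fun w => ⟨fun h => h y (Subgroup.mem_zpowers y), ?_⟩)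
    rintro h _ ⟨k, rfl⟩
    have : y ∈ MulAction.stabilizer P w := h
    exact (MulAction.stabilizer P w).zpow_mem this k
  simp only [e1]
  rw [Finset.prod_range (fun i => Nat.card {w : V // (x * z ^ i) • w = w}), ← Nat.card_pi]
  refine Nat.card_le_card_of_injective
    (fun w : ((i : Fin p) → {w : V // (x * z ^ (i : ℕ)) • w = w}) => ∏ i, (w i : V)) ?_
  intro w w' h
  have h0 : ∏ i : Fin p, ((w i : V) * (w' i : V)⁻¹) = 1 := by
    rw [Finset.prod_mul_distrib, Finset.prod_inv_distrib]
    exact mul_inv_eq_one.mpr h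
  have h1 := indep (V := V) (x := x) (z := z) hxz hz hp hfree (Finset.range p) (fun i hi => Finset.mem_range.mp hi)
    (fun i => if hi : i < p then ((w ⟨i, hi⟩ : V) * (w' ⟨i, hi⟩ : V)⁻¹) else 1) (by
      intro i hi
      have hi' := Finset.mem_range.mp hi
      simp only [hi', dif_pos]
      rw [smul_mul', smul_inv', (w ⟨i, hi'⟩).2, (w' ⟨i, hi'⟩).2])
    (by
      rw [Finset.prod_range]
      rw [← h0]
      refine Finset.prod_congr rfl fun i _ => ?_
      simp)
  funext i
  apply Subtype.ext
  have h2 := h1 i (Finset.mem_range.mpr i.2)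
  simp only [i.2, dif_pos] at h2
  exact mul_inv_eq_one.mp h2

theorem fx_bot : fx V (⊥ : Subgroup P) = Nat.card V := by
  refine Nat.card_congr ⟨fun w => w.1, fun w => ⟨w, ?_⟩, fun _ => rfl, fun _ => rfl⟩
  intro x hx
  rw [Subgroup.mem_bot.mp hx, one_smul]

theorem fx_pos (X : Subgroup P) : 0 < fx V X := by
  have : Nonempty {w : V // ∀ x ∈ X, x • w = w} := ⟨⟨1, fun x _ => smul_one x⟩⟩
  exact Nat.card_pos

/-- the inequality when a central element of order `p` acts freely -/
theorem kif_free {z : P} (hzc : ∀ x : P, x * z = z * x) (hz : z ^ p = 1) (hp : p.Prime)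
    (hfree : ∀ w : V, z • w = w → w = 1) : KIF p P (fx V) := by
  classical
  unfold KIF
  have h1 : (∏ x : P, fx V (Subgroup.zpowers x)) ^ p =
      ∏ x : P, ∏ i ∈ Finset.range p, fx V (Subgroup.zpowers (x * z ^ i)) := by
    rw [Finset.prod_comm]
    have h2 : ∀ i ∈ Finset.range p, ∏ x : P, fx V (Subgroup.zpowers (x * z ^ i)) =
        ∏ x : P, fx V (Subgroup.zpowers x) := by
      intro i _
      exact Fintype.prod_equiv (Equiv.mulRight (z ^ i)) _ _ (fun x => rfl)
    rw [Finset.prod_congr rfl h2, Finset.prod_const, Finset.card_range]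
  rw [h1]
  calc _ ≤ ∏ _x : P, Nat.card V := Finset.prod_le_prod' fun x _ => prod_le_of_free (hzc x) hz hp hfree
    _ = Nat.card V ^ Nat.card P := by rw [Finset.prod_const, Finset.card_univ, Nat.card_eq_fintype_card (α := P)]
    _ ≤ _ := by
      rw [fx_bot]
      exact Nat.le_mul_of_pos_left _ (pow_pos (fx_pos ⊤) _)

end comm

theorem prod_fiber {X Y : Type*} [Fintype X] [Fintype Y] [DecidableEq Y] (f : X → Y) (c : ℕ)
    (hf : ∀ y, (Finset.univ.filter (fun x => f x = y)).card = c) (g : Y → ℕ) :
    ∏ x : X, g (f x) = (∏ y : Y, g y) ^ c := by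
  rw [← Finset.prod_fiberwise Finset.univ f (fun x => g (f x)), ← Finset.prod_pow]
  refine Finset.prod_congr rfl fun y _ => ?_
  rw [← hf y, ← Finset.prod_const]
  refine Finset.prod_congr rfl fun x hx => ?_
  rw [(Finset.mem_filter.mp hx).2]

theorem card_fiber_mk {P : Type*} [Group P] [Fintype P] (Z : Subgroup P) [Z.Normal] [DecidableEq (P ⧸ Z)] (y : P ⧸ Z) :
    (Finset.univ.filter (fun x => QuotientGroup.mk' Z x = y)).card = Nat.card Z := by
  obtain ⟨x0, rfl⟩ := QuotientGroup.mk'_surjective Z y
  rw [← Nat.subtype_card (Finset.univ.filter (fun x => QuotientGroup.mk' Z x = QuotientGroup.mk' Z x0))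
    (p := fun x => QuotientGroup.mk' Z x = QuotientGroup.mk' Z x0) (by intro x; rw [Finset.mem_filter]; exact and_iff_right (Finset.mem_univ x))]
  refine Nat.card_congr ⟨fun x => ⟨x0⁻¹ * x.1, QuotientGroup.eq.mp x.2.symm⟩,
    fun z => ⟨x0 * z.1, (QuotientGroup.eq.mpr (by simp [z.2]) : (QuotientGroup.mk' Z x0) = _).symm⟩, ?_, ?_⟩
  · intro x; apply Subtype.ext; simp
  · intro x; apply Subtype.ext; simp

section quot
variable {p : ℕ} {P : Type u} {V : Type v} [Group P] [Fintype P] [Group V] [Finite V]
  [MulDistribMulAction P V]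

/-- the action of `P/Z` when `Z` acts trivially -/
@[reducible] def actQuot (Z : Subgroup P) [Z.Normal] (hZ : ∀ z ∈ Z, ∀ w : V, z • w = w) :
    MulDistribMulAction (P ⧸ Z) V :=
  MulDistribMulAction.compHom V (QuotientGroup.lift Z (MulDistribMulAction.toMulAut P V) (fun z hz => by
    apply MulEquiv.ext
    intro w
    exact hZ z hz w))

theorem kif_of_quot (Z : Subgroup P) [Z.Normal] (hZ : ∀ z ∈ Z, ∀ w : V, z • w = w) (hcZ : Nat.card Z = p)
    [Fintype (P ⧸ Z)]
    (h : letI := actQuot Z hZ; KIF p (P ⧸ Z) (fx V)) : KIF p P (fx V) := by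
  classical
  let act := actQuot Z hZ
  have hsm : ∀ (x : P) (w : V), (QuotientGroup.mk' Z x) • w = x • w := fun x w => rfl
  have hfx : ∀ X : Subgroup P, fx V X = fx V (X.map (QuotientGroup.mk' Z)) := by
    intro X
    refine Nat.card_congr (Equiv.subtypeEquivRight fun w => ⟨?_, ?_⟩)
    · rintro hw _ ⟨x, hx, rfl⟩
      rw [hsm]; exact hw x hx
    · intro hw x hx
      rw [← hsm]; exact hw _ ⟨x, hx, rfl⟩
  have hz : ∀ x : P, (Subgroup.zpowers x).map (QuotientGroup.mk' Z) = Subgroup.zpowers (QuotientGroup.mk' Z x) :=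
    fun x => MonoidHom.map_zpowers _ _
  have h1 : ∏ x : P, fx V (Subgroup.zpowers x) = (∏ y : P ⧸ Z, fx V (Subgroup.zpowers y)) ^ p := by
    have h2 : ∏ x : P, fx V (Subgroup.zpowers x) =
        ∏ x : P, (fun y : P ⧸ Z => fx V (Subgroup.zpowers y)) (QuotientGroup.mk' Z x) := by
      refine Finset.prod_congr rfl fun x _ => ?_
      rw [hfx, hz]
    rw [h2]
    exact prod_fiber (QuotientGroup.mk' Z) p (fun y => by rw [card_fiber_mk, hcZ])
      (fun y : P ⧸ Z => fx V (Subgroup.zpowers y))
  have hcard : Nat.card (P ⧸ Z) * p = Nat.card P := by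
    rw [← hcZ, mul_comm]; exact (Z.card_eq_card_quotient_mul_card_subgroup.trans (mul_comm _ _)).symm
  have htop : fx V (⊤ : Subgroup P) = fx V (⊤ : Subgroup (P ⧸ Z)) := by
    rw [hfx, Subgroup.map_top_of_surjective _ (QuotientGroup.mk'_surjective Z)]
  have hbot : fx V (⊥ : Subgroup P) = fx V (⊥ : Subgroup (P ⧸ Z)) := by
    rw [hfx, Subgroup.map_bot]
  unfold KIF at *
  rw [h1, htop, hbot, ← hcard]
  calc _ ≤ ((fx V (⊤ : Subgroup (P ⧸ Z))) ^ (Nat.card (P ⧸ Z) * (p - 1)) *
      (fx V (⊥ : Subgroup (P ⧸ Z))) ^ (Nat.card (P ⧸ Z))) ^ p := Nat.pow_le_pow_left h p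
    _ = _ := by
      rw [mul_pow, ← pow_mul, ← pow_mul]
      congr 2
      ring

end quot

section decomp
variable {p : ℕ} {P : Type u} {V : Type v} [Group P] [Fintype P] [CommGroup V] [Finite V]
  [MulDistribMulAction P V]

/-- the norm `v ↦ ∏ z^i v` -/
def norm (p : ℕ) (z : P) : V →* V where
  toFun w := ∏ i ∈ Finset.range p, z ^ i • w
  map_one' := by simp
  map_mul' a b := by simp only [smul_mul', Finset.prod_mul_distrib]

theorem norm_apply (z : P) (w : V) : norm p z w = ∏ i ∈ Finset.range p, z ^ i • w := rfl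

theorem smul_norm {z : P} (hz : z ^ p = 1) (w : V) : z • norm p z w = norm p z w := by
  rw [norm_apply, Finset.smul_prod']
  have h1 : ∏ i ∈ Finset.range p, z • z ^ i • w = ∏ i ∈ Finset.range p, z ^ (i + 1) • w := by
    refine Finset.prod_congr rfl fun i _ => ?_
    rw [← mul_smul, ← pow_succ']
  rw [h1]
  have h2 := Finset.prod_range_succ (fun i => z ^ i • w) p
  have h3 := Finset.prod_range_succ' (fun i => z ^ i • w) p
  rw [h2] at h3
  rw [hz, pow_zero] at h3
  exact (mul_right_cancel h3).symm

theorem norm_of_fixed {z : P} {w : V} (h : z • w = w) : norm p z w = w ^ p := by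
  rw [norm_apply]
  have h1 : ∀ i : ℕ, z ^ i • w = w := by
    intro i
    induction i with
    | zero => simp
    | succ i ih => rw [pow_succ, mul_smul, h, ih]
  rw [Finset.prod_congr rfl (fun i _ => h1 i), Finset.prod_const, Finset.card_range]

theorem smul_norm_comm {z : P} (hzc : ∀ x : P, x * z = z * x) (x : P) (w : V) :
    x • norm p z w = norm p z (x • w) := by
  rw [norm_apply, norm_apply, Finset.smul_prod']
  refine Finset.prod_congr rfl fun i _ => ?_
  rw [← mul_smul, ← mul_smul]
  congr 1
  exact (Commute.pow_right (hzc x : Commute x z) i)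

/-- the fixed points of `z` -/
def fixz (V : Type v) [CommGroup V] [MulDistribMulAction P V] (z : P) : Subgroup V where
  carrier := {w | z • w = w}
  one_mem' := smul_one z
  mul_mem' {a b} ha hb := by
    change z • (a * b) = a * b
    rw [smul_mul', (show z • a = a from ha), (show z • b = b from hb)]
  inv_mem' {a} ha := by
    change z • a⁻¹ = a⁻¹
    rw [smul_inv', (show z • a = a from ha)]

theorem fixz_inv {z : P} (hzc : ∀ x : P, x * z = z * x) (x : P) (w : V) (hw : w ∈ fixz V z) : x • w ∈ fixz V z := by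
  change z • x • w = x • w
  rw [← mul_smul, ← hzc, mul_smul, (show z • w = w from hw)]

theorem ker_inv {z : P} (hzc : ∀ x : P, x * z = z * x) (x : P) (w : V) (hw : w ∈ (norm p z : V →* V).ker) :
    x • w ∈ (norm p z : V →* V).ker := by
  rw [MonoidHom.mem_ker] at hw ⊢
  rw [← smul_norm_comm hzc, hw, smul_one]

theorem fx_decomp (hcop : (Nat.card V).Coprime p) {z : P} (hzc : ∀ x : P, x * z = z * x) (hz : z ^ p = 1)
    (X : Subgroup P) :
    fx V X = (letI := subAct (fixz V z) (fixz_inv hzc); fx (fixz V z) X) *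
      (letI := subAct (norm p z : V →* V).ker (ker_inv hzc); fx (norm p z : V →* V).ker X) := by
  classical
  let C := fixz V z
  let W := (norm p z : V →* V).ker
  let act1 := subAct (fixz V z) (fixz_inv hzc)
  let act2 := subAct (norm p z : V →* V).ker (ker_inv hzc)
  change Nat.card {w : V // ∀ x ∈ X, x • w = w} = Nat.card {w : C // ∀ x ∈ X, x • w = w} *
    Nat.card {w : W // ∀ x ∈ X, x • w = w}
  rw [← Nat.card_prod]
  have hinj : ∀ a b : V, a ^ p = b ^ p → a = b := fun a b h => (powCoprime hcop).injective h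
  let r : V → V := fun w => (powCoprime hcop).symm (norm p z w)
  have hr : ∀ w, (r w) ^ p = norm p z w := fun w => (powCoprime hcop).apply_symm_apply (norm p z w)
  have hrC : ∀ w, z • r w = r w := by
    intro w
    apply hinj
    rw [← smul_pow', hr, smul_norm hz]
  have hrX : ∀ w : V, ∀ x : P, x • w = w → x • r w = r w := by
    intro w x hx
    apply hinj
    rw [← smul_pow', hr, smul_norm_comm hzc, hx]
  have hW : ∀ w, norm p z (w * (r w)⁻¹) = 1 := by
    intro w
    rw [map_mul, map_inv, norm_of_fixed (hrC w), hr, mul_inv_cancel]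
  refine Nat.card_congr ⟨fun w => (⟨⟨r w.1, hrC w.1⟩, fun x hx => Subtype.ext (hrX _ x (w.2 x hx))⟩,
      ⟨⟨w.1 * (r w.1)⁻¹, hW w.1⟩, fun x hx => Subtype.ext (by
        change x • (w.1 * (r w.1)⁻¹) = w.1 * (r w.1)⁻¹
        rw [smul_mul', smul_inv', w.2 x hx, hrX _ x (w.2 x hx)])⟩),
    fun cw => ⟨(cw.1.1 : V) * (cw.2.1 : V), fun x hx => by
      have h1 : x • (cw.1.1 : V) = cw.1.1 := congrArg Subtype.val (cw.1.2 x hx)
      have h2 : x • (cw.2.1 : V) = cw.2.1 := congrArg Subtype.val (cw.2.2 x hx)
      rw [smul_mul', h1, h2]⟩, ?_, ?_⟩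
  · intro w
    apply Subtype.ext
    change r w.1 * (w.1 * (r w.1)⁻¹) = w.1
    rw [mul_comm, inv_mul_cancel_right]
  · rintro ⟨⟨⟨c, hc⟩, hcX⟩, ⟨⟨w, hw⟩, hwX⟩⟩
    have hw' : norm p z w = 1 := hw
    have hrc : r (c * w) = c := by
      apply hinj
      rw [hr, map_mul, hw', mul_one, norm_of_fixed hc]
    refine Prod.ext ?_ ?_
    · apply Subtype.ext; apply Subtype.ext
      exact hrc
    · apply Subtype.ext; apply Subtype.ext
      change c * w * (r (c * w))⁻¹ = w
      rw [hrc, mul_comm c w, mul_inv_cancel_right]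

end decomp

/-- **The abelian case.** -/
theorem kif_comm {p : ℕ} (hp : p.Prime) : ∀ (n : ℕ) (P : Type u) (V : Type v) [Group P] [Fintype P] [CommGroup V]
    [Finite V] [MulDistribMulAction P V], Nat.card P = n → IsPGroup p P → (Nat.card V).Coprime p →
    KIF p P (fx V) := by
  classical
  intro n
  have := Fact.mk hp
  induction n using Nat.strong_induction_on with
  | _ n ih =>
    intro P V _ _ _ _ _ hn hP hcop
    rcases subsingleton_or_nontrivial P with hsub | hnt
    · have hX : ∀ X : Subgroup P, fx V X = Nat.card V := by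
        intro X
        rw [← fx_bot (P := P) (V := V)]
        congr 1
        exact Subsingleton.elim _ _
      unfold KIF
      simp only [hX]
      have h1 : Nat.card P = 1 := Nat.card_eq_one_iff_unique.mpr ⟨hsub, ⟨1⟩⟩
      rw [Finset.prod_const, Finset.card_univ, ← Nat.card_eq_fintype_card, h1]
      simp only [pow_one, one_mul]
      rw [← pow_succ, Nat.sub_add_cancel hp.one_lt.le]
    · -- a central element of order p
      have hcn : Nontrivial (Subgroup.center P) := hP.center_nontrivial
      have hpd : p ∣ Nat.card (Subgroup.center P) := by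
        obtain ⟨k, hk⟩ := IsPGroup.iff_card.mp (hP.to_subgroup (Subgroup.center P))
        rw [hk]
        refine dvd_pow_self p ?_
        rintro rfl
        have := Finite.one_lt_card (α := Subgroup.center P)
        rw [hk] at this
        simp at this
      obtain ⟨z', hz'⟩ := exists_prime_orderOf_dvd_card' p hpd
      set z : P := (z' : P) with hzdef
      have hzo : orderOf z = p := by rw [hzdef, Subgroup.orderOf_coe, hz']
      have hz : z ^ p = 1 := by rw [← hzo]; exact pow_orderOf_eq_one z
      have hzc : ∀ x : P, x * z = z * x := fun x => (Subgroup.mem_center_iff.mp z'.2 x)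
      let Z : Subgroup P := Subgroup.zpowers z
      have hZn : Z.Normal := by
        refine ⟨fun y hy g => ?_⟩
        have h1 : Z ≤ Subgroup.center P := by
          rw [Subgroup.zpowers_le]; exact z'.2
        have h2 := Subgroup.mem_center_iff.mp (h1 hy) g
        rw [h2, mul_inv_cancel_right]; exact hy
      have hcZ : Nat.card Z = p := by rw [Nat.card_zpowers, hzo]
      -- the two factors
      have hC : (letI := subAct (fixz V z) (fixz_inv hzc); KIF p P (fx (fixz V z))) := by
        letI act1 := subAct (fixz V z) (fixz_inv hzc)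
        have hZtriv : ∀ y ∈ Z, ∀ w : fixz V z, y • w = w := by
          rintro y ⟨k, rfl⟩ w
          have h1 : z ∈ MulAction.stabilizer P w := Subtype.ext w.2
          exact (MulAction.stabilizer P w).zpow_mem h1 k
        letI := Fintype.ofFinite (P ⧸ Z)
        refine kif_of_quot Z hZtriv hcZ ?_
        letI act3 := actQuot Z hZtriv
        refine ih (Nat.card (P ⧸ Z)) ?_ (P ⧸ Z) (fixz V z) rfl ?_ ?_
        · rw [← hn, Z.card_eq_card_quotient_mul_card_subgroup, hcZ]
          exact (Nat.lt_mul_iff_one_lt_right Nat.card_pos).mpr hp.one_lt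
        · exact hP.to_quotient Z
        · exact Nat.Coprime.coprime_dvd_left (Subgroup.card_subgroup_dvd_card _) hcop
      have hW : (letI := subAct (norm p z : V →* V).ker (ker_inv hzc); KIF p P (fx (norm p z : V →* V).ker)) := by
        letI act2 := subAct (norm p z : V →* V).ker (ker_inv hzc)
        refine kif_free hzc hz hp ?_
        rintro ⟨w, hw⟩ hfix
        have h1 : z • w = w := congrArg Subtype.val hfix
        have h2 : norm p z w = 1 := hw
        rw [norm_of_fixed h1] at h2
        apply Subtype.ext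
        have h3 : (powCoprime hcop) w = (powCoprime hcop) 1 := by
          change w ^ p = 1 ^ p
          rw [h2, one_pow]
        exact (powCoprime hcop).injective h3
      have e : (fx V : Subgroup P → ℕ) = fun X =>
          (letI := subAct (fixz V z) (fixz_inv hzc); fx (fixz V z) X) *
          (letI := subAct (norm p z : V →* V).ker (ker_inv hzc); fx (norm p z : V →* V).ker X) := by
        funext X
        exact fx_decomp hcop hzc hz X
      rw [e]
      exact KIF.mul hC hW

section general
variable {p : ℕ} {P : Type u} {V : Type v} [Group P] [Fintype P] [Group V] [Finite V]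
  [MulDistribMulAction P V]

/-- the fixed points of a subgroup -/
def fixX (V : Type v) [Group V] [MulDistribMulAction P V] (X : Subgroup P) : Subgroup V where
  carrier := {w | ∀ x ∈ X, x • w = w}
  one_mem' x _ := smul_one x
  mul_mem' {a b} ha hb := by
    intro x hx
    rw [smul_mul', ha x hx, hb x hx]
  inv_mem' {a} ha := by
    intro x hx
    rw [smul_inv', ha x hx]

theorem fx_eq (X : Subgroup P) : fx V X = Nat.card (fixX V X) := rfl

theorem fx_dvd (X : Subgroup P) : fx V X ∣ Nat.card V := Subgroup.card_subgroup_dvd_card (fixX V X)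

theorem fx_pos' (X : Subgroup P) : 0 < fx V X := by
  rw [fx_eq]; exact Nat.card_pos

theorem coprime_sub (hp : p.Prime) (hP : IsPGroup p P) (hcop : (Nat.card V).Coprime p) (X : Subgroup P) :
    (Nat.card X).Coprime (Nat.card V) := by
  have := Fact.mk hp
  obtain ⟨k, hk⟩ := IsPGroup.iff_card.mp (hP.to_subgroup X)
  rw [hk]
  exact Nat.Coprime.pow_left k hcop.symm

theorem solvable_sub (hp : p.Prime) (hP : IsPGroup p P) (X : Subgroup P) : Group.IsSolvable X := by
  have := Fact.mk hp
  have : Group.IsNilpotent X := (hP.to_subgroup X).isNilpotent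
  infer_instance

/-- multiplicativity along a normal subgroup -/
theorem fx_normal (hp : p.Prime) (hP : IsPGroup p P) (hcop : (Nat.card V).Coprime p) (N : Subgroup V) [N.Normal]
    (hN : ∀ (x : P), ∀ w ∈ N, x • w ∈ N) (X : Subgroup P) :
    fx V X = (letI := subAct N hN; fx N X) * (letI := quotAct hN; fx (V ⧸ N) X) := by
  let act1 := subAct N hN
  let act2 := quotAct hN
  change Nat.card {w : V // ∀ x ∈ X, x • w = w} = Nat.card {w : N // ∀ x ∈ X, x • w = w} *
    Nat.card {w : V ⧸ N // ∀ x ∈ X, x • w = w}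
  have hsm : ∀ (x : P) (w : V), x • (QuotientGroup.mk' N w) = QuotientGroup.mk' N (x • w) := fun x w => rfl
  refine Cfsg.Agent.H515.Count.card_eq_mul_of_fiber
    (fun w : {w : V // ∀ x ∈ X, x • w = w} => (⟨QuotientGroup.mk' N w.1, fun x hx => by
      rw [hsm, w.2 x hx]⟩ : {w : V ⧸ N // ∀ x ∈ X, x • w = w})) _ ?_
  rintro ⟨y, hy⟩
  obtain ⟨k, rfl⟩ := QuotientGroup.mk'_surjective N y
  obtain ⟨c, hc, hkc⟩ := Cfsg.Agent.H580.Cop.exists_fixed_of_mod (A := X) (G := V)
    (coprime_sub hp hP hcop X) (Or.inl (solvable_sub hp hP X)) N inferInstance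
    (fun a x hx => hN a x hx) k (fun a => by
      have h1 := hy a a.2
      rw [hsm] at h1
      have h2 : QuotientGroup.mk' N ((a • k) * k⁻¹) = 1 := by
        rw [map_mul, map_inv]
        change QuotientGroup.mk' N ((a : P) • k) * _ = _
        rw [h1, mul_inv_cancel]
      exact (QuotientGroup.eq_one_iff _).mp h2)
  have hck : QuotientGroup.mk' N c = QuotientGroup.mk' N k := (QuotientGroup.eq.mpr hkc).symm
  have hcX : ∀ x ∈ X, x • c = c := fun x hx => hc ⟨x, hx⟩
  refine Nat.card_congr ⟨fun w => ⟨⟨c⁻¹ * w.1.1, ?_⟩, ?_⟩, fun n => ⟨⟨c * n.1.1, ?_⟩, ?_⟩, ?_, ?_⟩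
  · have h1 : QuotientGroup.mk' N w.1.1 = QuotientGroup.mk' N k := congrArg Subtype.val w.2
    exact QuotientGroup.eq.mp (hck.trans h1.symm)
  · intro x hx
    apply Subtype.ext
    change x • (c⁻¹ * w.1.1) = c⁻¹ * w.1.1
    rw [smul_mul', smul_inv', hcX x hx, w.1.2 x hx]
  · intro x hx
    have h1 : x • (n.1.1 : V) = n.1.1 := congrArg Subtype.val (n.2 x hx)
    rw [smul_mul', hcX x hx, h1]
  · apply Subtype.ext
    change QuotientGroup.mk' N (c * n.1.1) = QuotientGroup.mk' N k
    rw [map_mul, hck]
    have : QuotientGroup.mk' N (n.1.1 : V) = 1 := (QuotientGroup.eq_one_iff _).mpr n.1.2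
    rw [this, mul_one]
  · intro w
    apply Subtype.ext; apply Subtype.ext; simp
  · intro w
    apply Subtype.ext; apply Subtype.ext; simp

/-- fixed points in an invariant Sylow subgroup -/
theorem fx_sylow (hp : p.Prime) (hP : IsPGroup p P) (hcop : (Nat.card V).Coprime p) {q : ℕ} (hq : q.Prime)
    (Q : Sylow q V) (hQ : ∀ (x : P), ∀ w ∈ (Q : Subgroup V), x • w ∈ (Q : Subgroup V)) (X : Subgroup P) :
    (letI := subAct (Q : Subgroup V) hQ; fx (Q : Subgroup V) X) = q ^ ((fx V X).factorization q) := by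
  have := Fact.mk hq
  let act1 := subAct (Q : Subgroup V) hQ
  let C := fixX V X
  have e1 : (letI := subAct (Q : Subgroup V) hQ; fx (Q : Subgroup V) X) = Nat.card ((Q : Subgroup V) ⊓ C : Subgroup V) := by
    refine Nat.card_congr ⟨fun w => ⟨w.1.1, w.1.2, fun x hx => congrArg Subtype.val (w.2 x hx)⟩,
      fun w => ⟨⟨w.1, w.2.1⟩, fun x hx => Subtype.ext (w.2.2 x hx)⟩, fun _ => rfl, fun _ => rfl⟩
  rw [e1, fx_eq]
  obtain ⟨R⟩ : Nonempty (Sylow q C) := inferInstance
  rw [← Sylow.card_eq_multiplicity R]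
  apply le_antisymm
  · -- `Q ⊓ C` is a q-subgroup of C
    have h1 : IsPGroup q (((Q : Subgroup V) ⊓ C).subgroupOf C) :=
      (Q.2.to_le inf_le_left).comap_of_injective C.subtype (Subgroup.subtype_injective C)
    obtain ⟨R', hR'⟩ := h1.exists_le_sylow
    have h2 : Nat.card (((Q : Subgroup V) ⊓ C).subgroupOf C) = Nat.card ((Q : Subgroup V) ⊓ C : Subgroup V) :=
      Nat.card_congr (Subgroup.subgroupOfEquivOfLe inf_le_right).toEquiv
    rw [← h2, Sylow.card_eq_multiplicity R, ← Sylow.card_eq_multiplicity R']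
    exact Subgroup.card_le_of_le hR'
  · have hRq : IsPGroup q ((R : Subgroup C).map C.subtype) := R.2.map _
    obtain ⟨Q', hRQ', hQ'⟩ := Cfsg.Agent.H580.Cop.exists_invariant_sylow_ge (A := X) (G := V)
      (coprime_sub hp hP hcop X) (Or.inl (solvable_sub hp hP X)) q ((R : Subgroup C).map C.subtype) hRq
      (by
        rintro a _ ⟨w, hw, rfl⟩
        have : a • (C.subtype w) = C.subtype w := w.2 a a.2
        rw [this]; exact ⟨w, hw, rfl⟩)
    obtain ⟨c, hc, hcQ⟩ := Cfsg.Agent.H580.Cop.invariant_sylow_conj (A := X) (G := V)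
      (coprime_sub hp hP hcop X) (Or.inl (solvable_sub hp hP X)) Q' Q hQ' (fun a w hw => hQ a w hw)
    have h3 : Nat.card (R : Subgroup C) = Nat.card ((R : Subgroup C).map C.subtype) :=
      Nat.card_congr ((R : Subgroup C).equivMapOfInjective _ (Subgroup.subtype_injective C)).toEquiv
    have h4 : Nat.card ((R : Subgroup C).map C.subtype) =
        Nat.card (MulAut.conj c • ((R : Subgroup C).map C.subtype) : Subgroup V) :=
      Nat.card_congr (Subgroup.equivSMul (MulAut.conj c) _).toEquiv
    rw [h3, h4]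
    refine Subgroup.card_le_of_le ?_
    intro w hw
    rw [Subgroup.mem_smul_pointwise_iff_exists] at hw
    obtain ⟨_, ⟨t, ht, rfl⟩, rfl⟩ := hw
    refine ⟨?_, ?_⟩
    · change _ ∈ (Q : Subgroup V)
      rw [hcQ]
      exact Subgroup.smul_mem_pointwise_smul _ _ _ (hRQ' ⟨t, ht, rfl⟩)
    · intro x hx
      have h5 : x • (t : V) = t := t.2 x hx
      have h6 : x • c = c := hc ⟨x, hx⟩
      change x • (c * t * c⁻¹) = c * t * c⁻¹
      rw [smul_mul', smul_mul', smul_inv', h5, h6]

end general

/-- **The product inequality.** -/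
theorem kif {p : ℕ} (hp : p.Prime) (P : Type u) [Group P] [Fintype P] (hP : IsPGroup p P) : ∀ (n : ℕ) (V : Type v)
    [Group V] [Finite V] [MulDistribMulAction P V], Nat.card V = n → (Nat.card V).Coprime p →
    KIF p P (fx V) := by
  classical
  intro n
  induction n using Nat.strong_induction_on with
  | _ n ih =>
    intro V _ _ _ hn hcop
    by_cases hcomm : ∀ a b : V, a * b = b * a
    · letI : CommGroup V := { (inferInstance : Group V) with mul_comm := hcomm }
      exact kif_comm hp _ P V rfl hP hcop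
    by_cases hpp : ∃ q : ℕ, q.Prime ∧ IsPGroup q V
    · obtain ⟨q, hq, hV⟩ := hpp
      have := Fact.mk hq
      have hnt : Nontrivial V := by
        by_contra h
        rw [not_nontrivial_iff_subsingleton] at h
        exact hcomm (fun a b => Subsingleton.elim _ _)
      let N := Subgroup.center V
      have hN : ∀ (x : P), ∀ w ∈ N, x • w ∈ N := by
        intro x w hw
        rw [Subgroup.mem_center_iff] at hw ⊢
        intro g
        have h1 := hw (x⁻¹ • g)
        have h2 := congrArg (fun y => x • y) h1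
        simpa using h2
      have hNnt : Nontrivial N := hV.center_nontrivial
      have hNtop : N ≠ ⊤ := by
        intro h
        apply hcomm
        intro a b
        have : b ∈ N := by rw [h]; exact Subgroup.mem_top b
        exact Subgroup.mem_center_iff.mp this a
      have hcard := N.card_eq_card_quotient_mul_card_subgroup
      have h1 : 1 < Nat.card N := Finite.one_lt_card
      have h2 : 1 < Nat.card (V ⧸ N) := by
        change 1 < N.index
        exact Subgroup.one_lt_index_of_ne_top hNtop
      have hlt1 : Nat.card N < n := by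
        rw [← hn, hcard]
        exact (Nat.lt_mul_iff_one_lt_left (by omega)).mpr h2
      have hlt2 : Nat.card (V ⧸ N) < n := by
        rw [← hn, hcard]
        exact (Nat.lt_mul_iff_one_lt_right (by omega)).mpr h1
      have k1 : (letI := subAct N hN; KIF p P (fx N)) := by
        letI := subAct N hN
        exact ih _ hlt1 N rfl (Nat.Coprime.coprime_dvd_left (Subgroup.card_subgroup_dvd_card _) hcop)
      have k2 : (letI := quotAct hN; KIF p P (fx (V ⧸ N))) := by
        letI := quotAct hN
        exact ih _ hlt2 (V ⧸ N) rfl (Nat.Coprime.coprime_dvd_left (Subgroup.card_quotient_dvd_card _) hcop)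
      have e : (fx V : Subgroup P → ℕ) = fun X =>
          (letI := subAct N hN; fx N X) * (letI := quotAct hN; fx (V ⧸ N) X) := by
        funext X
        exact fx_normal hp hP hcop N hN X
      rw [e]
      exact KIF.mul k1 k2
    · -- not of prime power order
      have hex : ∀ q : ℕ, q.Prime → ∃ Q : Subgroup V, ∃ hQ : ∀ (x : P), ∀ w ∈ Q, x • w ∈ Q,
          (Nat.card Q < n) ∧ ∀ X : Subgroup P, (letI := subAct Q hQ; fx Q X) = q ^ ((fx V X).factorization q) := by
        intro q hq
        have := Fact.mk hq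
        obtain ⟨Q, hQ⟩ := Cfsg.Agent.H580.Cop.exists_invariant_sylow (A := P) (G := V)
          (by
            have := coprime_sub hp hP hcop (⊤ : Subgroup P)
            rwa [Subgroup.card_top] at this)
          (Or.inl (by
            have := Fact.mk hp
            have : Group.IsNilpotent P := hP.isNilpotent
            infer_instance)) q
        refine ⟨Q, hQ, ?_, fx_sylow hp hP hcop hq Q hQ⟩
        rw [← hn]
        refine lt_of_le_of_ne (Subgroup.card_le_card_group _) ?_
        intro h
        apply hpp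
        refine ⟨q, hq, ?_⟩
        have h1 := Subgroup.eq_top_of_card_eq _ h
        have h2 := Q.2
        rw [h1] at h2
        exact h2.of_equiv Subgroup.topEquiv
      choose! Q hQ using hex
      have e : (fx V : Subgroup P → ℕ) = fun X => ∏ q ∈ (Nat.card V).primeFactors,
          q ^ ((fx V X).factorization q) := by
        funext X
        have h1 := Nat.prod_factorization_pow_eq_self (fx_pos' (V := V) X).ne'
        have h2 : (fx V X).factorization.prod (fun x1 x2 => x1 ^ x2) = ∏ q ∈ (Nat.card V).primeFactors,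
            q ^ ((fx V X).factorization q) := by
          refine Finsupp.prod_of_support_subset _ ?_ _ (fun i _ => pow_zero _)
          rw [Nat.support_factorization]
          exact Nat.primeFactors_mono (fx_dvd X) Nat.card_pos.ne'
        rw [← h2]; exact h1.symm
      rw [e]
      refine KIF.prod _ _ ?_
      intro q hq
      have hqp := Nat.prime_of_mem_primeFactors hq
      obtain ⟨hQ1, hQ2, hQ3⟩ := hQ q hqp
      have e2 : (fun X : Subgroup P => q ^ ((fx V X).factorization q)) = fun X =>
          (letI := subAct (Q q) hQ1; fx (Q q) X) := by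
        funext X
        exact (hQ3 X).symm
      rw [e2]
      letI := subAct (Q q) hQ1
      exact ih _ hQ2 (Q q) rfl (Nat.Coprime.coprime_dvd_left (Subgroup.card_subgroup_dvd_card _) hcop)

end Cfsg.Agent.H515.KeyIneq
end

-- part: H515/Lam
section
/-!
# The number of Sylow subgroups containing an element of a `p`-solvable group
-/

set_option autoImplicit false
set_option linter.unusedSectionVars false
set_option linter.style.haveILetI false
open scoped BigOperators Pointwise

namespace Cfsg.Agent.H515.Lam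

open Cfsg Cfsg.Agent.H515.Count Cfsg.Agent.H515.KeyIneq

section ker
variable {p : ℕ} {G G' : Type*} [Group G] [Group G'] [Finite G] [Fact p.Prime] (φ : G →* G')

/-- `|C_K(S)|` is the same for all Sylow subgroups -/
theorem card_CK_sylow (S T : Sylow p G) : Nat.card (CK φ (S : Subgroup G)) = Nat.card (CK φ (T : Subgroup G)) := by
  obtain ⟨g, rfl⟩ := MulAction.exists_smul_eq G S T
  refine Nat.card_congr ⟨fun k => ⟨g * k.1 * g⁻¹, ?_, ?_⟩, fun k => ⟨g⁻¹ * k.1 * g, ?_, ?_⟩, ?_, ?_⟩
  · rw [map_mul, map_mul, map_inv, k.2.1]; simp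
  · intro h hh
    rw [Sylow.coe_subgroup_smul, Subgroup.mem_smul_pointwise_iff_exists] at hh
    obtain ⟨s, hs, rfl⟩ := hh
    have h1 := k.2.2 s hs
    change g * k.1 * g⁻¹ * (g * s * g⁻¹) = (g * s * g⁻¹) * (g * k.1 * g⁻¹)
    have e1 : g * k.1 * g⁻¹ * (g * s * g⁻¹) = g * (k.1 * s) * g⁻¹ := by group
    have e2 : (g * s * g⁻¹) * (g * k.1 * g⁻¹) = g * (s * k.1) * g⁻¹ := by group
    rw [e1, e2, h1]
  · rw [map_mul, map_mul, map_inv, k.2.1]; simp
  · intro s hs
    have h1 := k.2.2 (g * s * g⁻¹) (by
      rw [Sylow.coe_subgroup_smul, Subgroup.mem_smul_pointwise_iff_exists]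
      exact ⟨s, hs, rfl⟩)
    have e1 : g⁻¹ * k.1 * g * s = g⁻¹ * (k.1 * (g * s * g⁻¹)) * g := by group
    have e2 : s * (g⁻¹ * k.1 * g) = g⁻¹ * ((g * s * g⁻¹) * k.1) * g := by group
    rw [e1, e2, h1]
  · intro k; apply Subtype.ext; change g⁻¹ * (g * k.1 * g⁻¹) * g = k.1; group
  · intro k; apply Subtype.ext; change g * (g⁻¹ * k.1 * g) * g⁻¹ = k.1; group

theorem card_factorization (hφ : Function.Surjective φ) (hK : (Nat.card φ.ker).Coprime p) :
    (Nat.card G).factorization p = (Nat.card G').factorization p := by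
  have hp : p.Prime := Fact.out
  have h1 := card_comap φ ⊤ (by rw [MonoidHom.range_eq_top.mpr hφ])
  rw [Subgroup.comap_top, Subgroup.card_top, Subgroup.card_top] at h1
  have : Finite G' := Finite.of_surjective φ hφ
  rw [h1, Nat.factorization_mul Nat.card_pos.ne' Nat.card_pos.ne', Finsupp.add_apply]
  have h2 : (Nat.card φ.ker).factorization p = 0 := by
    apply Nat.factorization_eq_zero_of_not_dvd
    intro hd
    have h2 := Nat.dvd_gcd hd (dvd_refl p)
    rw [hK] at h2
    exact hp.one_lt.ne' (Nat.dvd_one.mp h2)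
  rw [h2, zero_add]

theorem lam_of_coprime (hφ : Function.Surjective φ) (hK : (Nat.card φ.ker).Coprime p)
    {H : Subgroup G} (hH : IsPGroup p H) (P : Sylow p G) :
    lam p H * Nat.card (CK φ (P : Subgroup G)) = Nat.card (CK φ H) * lam p (H.map φ) := by
  have : Finite G' := Finite.of_surjective φ hφ
  let f : {S : Sylow p G // H ≤ (S : Subgroup G)} → {S : Sylow p G' // H.map φ ≤ (S : Subgroup G')} :=
    fun S => ⟨S.1.mapSurjective hφ, by
      rw [Sylow.coe_mapSurjective]; exact Subgroup.map_mono S.2⟩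
  have hfib : ∀ y, Nat.card {S // f S = y} * Nat.card (CK φ (P : Subgroup G)) = Nat.card (CK φ H) := by
    rintro ⟨S', hS'⟩
    obtain ⟨T0, hT0, hHT0, hT0M⟩ := exists_lift φ hφ hK hH S'.2 hS'
    have hcard : ∀ T : Subgroup G, IsPGroup p T → T.map φ = (S' : Subgroup G') →
        Nat.card T = p ^ ((Nat.card G).factorization p) := by
      intro T hT hTS
      rw [← card_map_of_coprime φ hK hT, hTS, Sylow.card_eq_multiplicity, card_factorization φ hφ hK]
    have h1 := card_CK_eq φ hK hT0 hHT0
    have h0 : Nat.card (CK φ T0) = Nat.card (CK φ (P : Subgroup G)) :=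
      card_CK_sylow φ (Sylow.ofCard T0 (hcard T0 hT0 hT0M)) P
    rw [← h0, h1, mul_comm]
    congr 1
    refine Nat.card_congr ⟨fun S => ⟨S.1.1, S.1.1.2, S.1.2, ?_⟩,
      fun T => ⟨⟨Sylow.ofCard T.1 (hcard T.1 T.2.1 (by rw [T.2.2.2, hT0M])), T.2.2.1⟩, ?_⟩, ?_, ?_⟩
    · have h2 : (S.1.1.mapSurjective hφ : Subgroup G') = S' := by
        have := congrArg (fun z => ((z.1 : Sylow p G') : Subgroup G')) S.2
        exact this
      rw [Sylow.coe_mapSurjective] at h2
      rw [h2, hT0M]
    · apply Subtype.ext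
      apply Sylow.ext
      exact T.2.2.2.trans hT0M
    · intro S
      apply Subtype.ext; apply Subtype.ext; apply Sylow.ext; rfl
    · intro T
      apply Subtype.ext; rfl
  -- sum
  classical
  have := Fintype.ofFinite {S : Sylow p G' // H.map φ ≤ (S : Subgroup G')}
  unfold lam
  rw [Nat.card_congr (Equiv.sigmaFiberEquiv f).symm, Nat.card_sigma, Finset.sum_mul,
    Finset.sum_congr rfl (fun y _ => hfib y), Finset.sum_const, Finset.card_univ, smul_eq_mul,
    Nat.card_eq_fintype_card (α := {S : Sylow p G' // H.map φ ≤ (S : Subgroup G')}), mul_comm]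

theorem lam_of_isPGroup (hφ : Function.Surjective φ) (hK : IsPGroup p φ.ker) (H : Subgroup G) :
    lam p H = lam p (H.map φ) := by
  have : Finite G' := Finite.of_surjective φ hφ
  refine Nat.card_congr (Equiv.ofBijective
    (fun S : {S : Sylow p G // H ≤ (S : Subgroup G)} =>
      (⟨S.1.mapSurjective hφ, by rw [Sylow.coe_mapSurjective]; exact Subgroup.map_mono S.2⟩ :
        {S : Sylow p G' // H.map φ ≤ (S : Subgroup G')})) ⟨?_, ?_⟩)
  · intro S T h
    have h1 : (S.1 : Subgroup G).map φ = (T.1 : Subgroup G).map φ := by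
      have := congrArg (fun z => ((z.1 : Sylow p G') : Subgroup G')) h
      simpa using this
    have h2 : φ.ker ≤ (S.1 : Subgroup G) := hK.le_sylow_of_normal S.1
    have h3 : φ.ker ≤ (T.1 : Subgroup G) := hK.le_sylow_of_normal T.1
    apply Subtype.ext; apply Sylow.ext
    rw [← Subgroup.comap_map_eq_self h2, ← Subgroup.comap_map_eq_self h3, h1]
  · rintro ⟨S', hS'⟩
    have h1 : IsPGroup p ((S' : Subgroup G').comap φ) := S'.2.comap_of_ker_isPGroup φ hK
    obtain ⟨S, hS⟩ := h1.exists_le_sylow
    refine ⟨⟨S, (Subgroup.map_le_iff_le_comap.mp hS').trans hS⟩, ?_⟩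
    apply Subtype.ext; apply Sylow.ext
    change (S : Subgroup G).map φ = S'
    have h2 : (S' : Subgroup G') ≤ (S : Subgroup G).map φ := by
      rw [← Subgroup.map_comap_eq_self_of_surjective hφ (S' : Subgroup G')]
      exact Subgroup.map_mono hS
    exact S'.3 (S.2.map φ) h2

end ker

/-- the step of the induction -/
theorem step_coprime {p : ℕ} [Fact p.Prime] {P G G' : Type*} [Group P] [Fintype P] [Group G] [Group G'] [Finite G]
    (φ : G →* G') (hφ : Function.Surjective φ) (hK : (Nat.card φ.ker).Coprime p) (ψ : P →* G)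
    (hP : IsPGroup p P) (S : Sylow p G) (hS : (S : Subgroup G) = (⊤ : Subgroup P).map ψ)
    (h : (∏ x : P, lam p (((Subgroup.zpowers x).map ψ).map φ)) ^ p ≤ (lam p (⊥ : Subgroup G')) ^ Nat.card P) :
    (∏ x : P, lam p ((Subgroup.zpowers x).map ψ)) ^ p ≤ (lam p (⊥ : Subgroup G)) ^ Nat.card P := by
  classical
  have hp : p.Prime := Fact.out
  -- action of `P` on the kernel by conjugation
  let V := φ.ker
  let act : MulDistribMulAction P V :=
    MulDistribMulAction.compHom V ((MulAut.conjNormal (H := V)).comp ψ)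
  have hsm : ∀ (x : P) (w : V), ((x • w : V) : G) = ψ x * w * (ψ x)⁻¹ := fun x w => rfl
  have hfx : ∀ X : Subgroup P, fx V X = Nat.card (CK φ (X.map ψ)) := by
    intro X
    refine Nat.card_congr ⟨fun w => ⟨w.1.1, w.1.2, ?_⟩, fun k => ⟨⟨k.1, k.2.1⟩, ?_⟩, fun _ => rfl, fun _ => rfl⟩
    · rintro _ ⟨x, hx, rfl⟩
      have h1 := congrArg Subtype.val (w.2 x hx)
      rw [hsm] at h1
      exact (mul_inv_eq_iff_eq_mul.mp h1).symm
    · intro x hx
      apply Subtype.ext
      rw [hsm]
      exact mul_inv_eq_iff_eq_mul.mpr (k.2.2 _ ⟨x, hx, rfl⟩).symm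
  have hkif := kif hp P hP (Nat.card V) V rfl hK
  unfold KIF at hkif
  simp only [hfx] at hkif
  -- the relations
  have hrel : ∀ X : Subgroup P, lam p (X.map ψ) * Nat.card (CK φ ((⊤ : Subgroup P).map ψ)) =
      Nat.card (CK φ (X.map ψ)) * lam p ((X.map ψ).map φ) := by
    intro X
    rw [← hS]
    exact lam_of_coprime φ hφ hK ((hP.to_subgroup X).map ψ) S
  set c := Nat.card (CK φ ((⊤ : Subgroup P).map ψ)) with hc
  have hcpos : 0 < c := by
    have : Nonempty (CK φ ((⊤ : Subgroup P).map ψ)) := ⟨⟨1, map_one φ, fun h _ => by rw [one_mul, mul_one]⟩⟩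
    exact Nat.card_pos
  set N := Nat.card P with hN
  have h1 : (∏ x : P, lam p ((Subgroup.zpowers x).map ψ)) * c ^ N =
      (∏ x : P, Nat.card (CK φ ((Subgroup.zpowers x).map ψ))) * ∏ x : P, lam p (((Subgroup.zpowers x).map ψ).map φ) := by
    rw [← Finset.prod_mul_distrib]
    rw [← Finset.prod_congr rfl (fun x _ => hrel (Subgroup.zpowers x)), Finset.prod_mul_distrib]
    rw [Finset.prod_const, Finset.card_univ, hN, Nat.card_eq_fintype_card]
  have hbot : lam p (⊥ : Subgroup G) * c = Nat.card (CK φ ((⊥ : Subgroup P).map ψ)) * lam p (⊥ : Subgroup G') := by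
    have := hrel ⊥
    rw [Subgroup.map_bot, Subgroup.map_bot] at this
    rw [Subgroup.map_bot]
    exact this
  set A := ∏ x : P, lam p ((Subgroup.zpowers x).map ψ) with hA
  set B := ∏ x : P, Nat.card (CK φ ((Subgroup.zpowers x).map ψ)) with hB
  set D := ∏ x : P, lam p (((Subgroup.zpowers x).map ψ).map φ) with hD
  set n := lam p (⊥ : Subgroup G) with hn
  set n' := lam p (⊥ : Subgroup G') with hn'
  set k := Nat.card (CK φ ((⊥ : Subgroup P).map ψ)) with hk
  -- `A c^N = B D`, `D^p ≤ n'^N`, `B^p ≤ c^(N(p-1)) k^N`, `n c = k n'`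
  have h2 : A ^ p * c ^ (N * p) ≤ n ^ N * c ^ (N * p) := by
    calc A ^ p * c ^ (N * p) = (A * c ^ N) ^ p := by rw [mul_pow, ← pow_mul]
      _ = (B * D) ^ p := by rw [h1]
      _ = B ^ p * D ^ p := by rw [mul_pow]
      _ ≤ (c ^ (N * (p - 1)) * k ^ N) * n' ^ N := Nat.mul_le_mul hkif h
      _ = c ^ (N * (p - 1)) * (k * n') ^ N := by rw [mul_pow]; ring
      _ = c ^ (N * (p - 1)) * (n * c) ^ N := by rw [hbot]
      _ = n ^ N * (c ^ (N * (p - 1)) * c ^ N) := by rw [mul_pow]; ring
      _ = n ^ N * c ^ (N * p) := by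
        rw [← pow_add]
        congr 2
        have := hp.one_lt
        have e : N * p = N * (p - 1) + N * 1 := by rw [← mul_add]; congr 1; omega
        rw [e, mul_one]
  exact Nat.le_of_mul_le_mul_right h2 (pow_pos hcpos _)

theorem step_pgroup {p : ℕ} [Fact p.Prime] {P G G' : Type*} [Group P] [Fintype P] [Group G] [Group G'] [Finite G]
    (φ : G →* G') (hφ : Function.Surjective φ) (hK : IsPGroup p φ.ker) (ψ : P →* G)
    (h : (∏ x : P, lam p (((Subgroup.zpowers x).map ψ).map φ)) ^ p ≤ (lam p (⊥ : Subgroup G')) ^ Nat.card P) :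
    (∏ x : P, lam p ((Subgroup.zpowers x).map ψ)) ^ p ≤ (lam p (⊥ : Subgroup G)) ^ Nat.card P := by
  have h1 : lam p (⊥ : Subgroup G) = lam p (⊥ : Subgroup G') := by
    rw [lam_of_isPGroup φ hφ hK, Subgroup.map_bot]
  have h2 : ∀ x : P, lam p ((Subgroup.zpowers x).map ψ) = lam p (((Subgroup.zpowers x).map ψ).map φ) :=
    fun x => lam_of_isPGroup φ hφ hK _
  rw [h1, Finset.prod_congr rfl (fun x _ => h2 x)]
  exact h

end Cfsg.Agent.H515.Lam
end

-- part: S4091
section
set_option autoImplicit false
open Cfsg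
open scoped BigOperators Pointwise

namespace Cfsg.Agent.S4091

open Cfsg.Agent.H515.Count Cfsg.Agent.H515.Lam Cfsg.Agent.S4090

theorem lam_subsingleton {p : ℕ} [Fact p.Prime] {G : Type*} [Group G] [Finite G] [Subsingleton G] (H : Subgroup G) :
    lam p H = 1 := by
  unfold lam
  rw [Nat.card_eq_one_iff_unique]
  refine ⟨⟨fun S T => Subtype.ext (Sylow.ext (Subsingleton.elim _ _))⟩, ⟨⟨default, ?_⟩⟩⟩
  intro x _
  rw [Subsingleton.elim x 1]
  exact Subgroup.one_mem _

/-- **the product of the `lam`'s over a Sylow subgroup of a `p`-solvable group** -/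
theorem prod_lam_le {G : Type*} [Group G] [Finite G] (p : ℕ) [Fact p.Prime]
    (hG : Cfsg.IsPSolvable p G) (P : Sylow p G) [Fintype (P : Subgroup G)] :
    (∏ x : (P : Subgroup G), lam p (Subgroup.zpowers (x : G))) ^ p ≤
      (Nat.card (Sylow p G)) ^ Nat.card (P : Subgroup G) := by
  classical
  obtain ⟨n, M, h0, hn, hmono, hnormal, hfac⟩ := hG
  let ψ : ∀ i : Fin (n + 1), (P : Subgroup G) →* G ⧸ M i := fun i =>
    (@QuotientGroup.mk' G _ (M i) (hnormal i)).comp (P : Subgroup G).subtype
  have hle : ∀ i : Fin n, M i.castSucc ≤ M i.succ := fun i => hmono (Fin.castSucc_lt_succ).le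
  have key : ∀ i : Fin (n + 1),
      (∏ x : (P : Subgroup G), lam p ((Subgroup.zpowers x).map (ψ i))) ^ p ≤
        (lam p (⊥ : Subgroup (G ⧸ M i))) ^ Nat.card (P : Subgroup G) := by
    intro i
    induction i using Fin.reverseInduction with
    | last =>
      have hN := hnormal (Fin.last n)
      have hsub : Subsingleton (G ⧸ M (Fin.last n)) := by
        rw [hn]; exact QuotientGroup.subsingleton_quotient_top
      simp only [lam_subsingleton, Finset.prod_const_one, one_pow, le_refl]
    | cast i ih =>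
      have hA := hnormal i.castSucc
      have hB := hnormal i.succ
      have hmap : ∀ X : Subgroup (P : Subgroup G), (X.map (ψ i.castSucc)).map (proj _ _ (hle i)) = X.map (ψ i.succ) := by
        intro X
        rw [Subgroup.map_map]; rfl
      simp only [← hmap] at ih
      by_cases hcop : ((M i.castSucc).relIndex (M i.succ)).Coprime p
      · let S : Sylow p (G ⧸ M i.castSucc) := P.mapSurjective (QuotientGroup.mk'_surjective (M i.castSucc))
        refine step_coprime (proj _ _ (hle i)) (proj_surjective (hle i)) (by rw [card_ker_proj]; exact hcop)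
          (ψ i.castSucc) P.2 S ?_ ih
        change (P : Subgroup G).map (QuotientGroup.mk' (M i.castSucc)) = _
        rw [← Subgroup.map_map, ← MonoidHom.range_eq_map, Subgroup.range_subtype]
      · obtain ⟨m, hm⟩ := (hfac i).resolve_right hcop
        exact step_pgroup (proj _ _ (hle i)) (proj_surjective (hle i))
          (isPGroup_ker_proj (hle i) hm) (ψ i.castSucc) ih
  have h1 := key 0
  have hN := hnormal 0
  have hker : (QuotientGroup.mk' (M 0)).ker = ⊥ := by rw [QuotientGroup.ker_mk', h0]
  have hkp : IsPGroup p (QuotientGroup.mk' (M 0)).ker := by rw [hker]; exact IsPGroup.of_bot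
  have h2 := step_pgroup (QuotientGroup.mk' (M 0)) (QuotientGroup.mk'_surjective _) hkp
    (P : Subgroup G).subtype (by
      have e : ∀ X : Subgroup (P : Subgroup G), (X.map (P : Subgroup G).subtype).map (QuotientGroup.mk' (M 0)) =
          X.map (ψ 0) := by
        intro X
        rw [Subgroup.map_map]
      simp only [e]
      exact h1)
  have h3 : lam p (⊥ : Subgroup G) = Nat.card (Sylow p G) :=
    Nat.card_congr ⟨fun S => S.1, fun S => ⟨S, bot_le⟩, fun _ => rfl, fun _ => rfl⟩
  have h4 : ∀ x : (P : Subgroup G), (Subgroup.zpowers x).map (P : Subgroup G).subtype = Subgroup.zpowers (x : G) :=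
    fun x => MonoidHom.map_zpowers _ _
  simp only [h3, h4] at h2
  exact h2

theorem lam_pos {G : Type*} [Group G] [Finite G] {p : ℕ} [Fact p.Prime] (S : Sylow p G) {g : G} (hg : g ∈ (S : Subgroup G)) :
    0 < lam p (Subgroup.zpowers g) := by
  have : Nonempty {S : Sylow p G // Subgroup.zpowers g ≤ (S : Subgroup G)} := ⟨⟨S, by rwa [Subgroup.zpowers_le]⟩⟩
  exact Nat.card_pos

theorem lam_conj {G : Type*} [Group G] [Finite G] {p : ℕ} [Fact p.Prime] (h g : G) :
    lam p (Subgroup.zpowers (h * g * h⁻¹)) = lam p (Subgroup.zpowers g) := by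
  have hmem : ∀ (S : Sylow p G), g ∈ (S : Subgroup G) ↔ h * g * h⁻¹ ∈ ((h • S : Sylow p G) : Subgroup G) := by
    intro S
    rw [Sylow.coe_subgroup_smul]
    constructor
    · intro hg
      rw [Subgroup.mem_smul_pointwise_iff_exists]
      exact ⟨g, hg, rfl⟩
    · intro hg
      rw [Subgroup.mem_smul_pointwise_iff_exists] at hg
      obtain ⟨s, hs, hsg⟩ := hg
      have h1 : h * s * h⁻¹ = h * g * h⁻¹ := hsg
      have h2 : s = g := by
        have := congrArg (fun z => h⁻¹ * z * h) h1
        have e : ∀ z : G, h⁻¹ * (h * z * h⁻¹) * h = z := by intro z; group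
        simpa only [e] using this
      rwa [← h2]
  refine (Nat.card_congr (Equiv.subtypeEquiv (MulAction.toPerm h : Equiv.Perm (Sylow p G)) fun S => ?_)).symm
  rw [Subgroup.zpowers_le, Subgroup.zpowers_le]
  exact hmem S

open Classical in
/-- double counting -/
theorem card_pelements {G : Type*} [Group G] [Finite G] (p : ℕ) [Fact p.Prime] (P : Sylow p G)
    [Fintype (P : Subgroup G)] :
    (Nat.card {g : G // ∃ k : ℕ, orderOf g = p ^ k} : ℝ) =
      Nat.card (Sylow p G) * ∑ x : (P : Subgroup G), ((lam p (Subgroup.zpowers (x : G)) : ℝ))⁻¹ := by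
  have : Fintype G := Fintype.ofFinite G
  have : Fintype (Sylow p G) := Fintype.ofFinite _
  have hp : p.Prime := Fact.out
  let L : G → ℝ := fun g => (lam p (Subgroup.zpowers g) : ℝ)
  -- rows
  have hrow : ∀ g : G, ∑ S : Sylow p G, (if g ∈ (S : Subgroup G) then (L g)⁻¹ else 0) =
      if (∃ k : ℕ, orderOf g = p ^ k) then 1 else 0 := by
    intro g
    rw [← Finset.sum_filter, Finset.sum_const, nsmul_eq_mul]
    have h1 : (Finset.univ.filter (fun S : Sylow p G => g ∈ (S : Subgroup G))).card = lam p (Subgroup.zpowers g) := by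
      unfold lam
      rw [← Nat.subtype_card (Finset.univ.filter (fun S : Sylow p G => g ∈ (S : Subgroup G)))
        (p := fun S : Sylow p G => Subgroup.zpowers g ≤ (S : Subgroup G))
        (by intro S; rw [Finset.mem_filter, Subgroup.zpowers_le]; exact and_iff_right (Finset.mem_univ S))]
    rw [h1]
    split_ifs with h
    · obtain ⟨k, hk⟩ := h
      have h2 : IsPGroup p (Subgroup.zpowers g) := IsPGroup.of_card (n := k) (by rw [Nat.card_zpowers, hk])
      obtain ⟨S, hS⟩ := h2.exists_le_sylow
      have h3 := lam_pos (p := p) S (hS (Subgroup.mem_zpowers g))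
      exact mul_inv_cancel₀ (by exact_mod_cast h3.ne')
    · have h2 : lam p (Subgroup.zpowers g) = 0 := by
        unfold lam
        rw [Nat.card_eq_zero]
        left
        refine ⟨fun S => h ?_⟩
        obtain ⟨k, hk⟩ := S.1.2 ⟨g, S.2 (Subgroup.mem_zpowers g)⟩
        have h1 : g ^ p ^ k = 1 := by simpa using congrArg Subtype.val hk
        obtain ⟨m, _, hm⟩ := (Nat.dvd_prime_pow hp).1 (orderOf_dvd_of_pow_eq_one h1)
        exact ⟨m, hm⟩
      rw [h2]; simp
  -- columns
  have hcol : ∀ S : Sylow p G, ∑ g : G, (if g ∈ (S : Subgroup G) then (L g)⁻¹ else 0) =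
      ∑ x : (P : Subgroup G), (L x)⁻¹ := by
    have hP : ∑ g : G, (if g ∈ (P : Subgroup G) then (L g)⁻¹ else 0) = ∑ x : (P : Subgroup G), (L x)⁻¹ := by
      rw [← Finset.sum_filter]
      refine (Finset.sum_subtype _ (fun g => ?_) (fun g => (L g)⁻¹))
      rw [Finset.mem_filter]; exact and_iff_right (Finset.mem_univ g)
    intro S
    rw [← hP]
    obtain ⟨h, rfl⟩ := MulAction.exists_smul_eq G P S
    symm
    refine Fintype.sum_equiv (MulAut.conj h).toEquiv _ _ (fun g => ?_)
    have e1 : (MulAut.conj h).toEquiv g = h * g * h⁻¹ := rfl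
    rw [e1]
    have e2 : L (h * g * h⁻¹) = L g := by
      change (lam p (Subgroup.zpowers (h * g * h⁻¹)) : ℝ) = lam p (Subgroup.zpowers g)
      rw [lam_conj]
    rw [e2]
    have e3 : h * g * h⁻¹ ∈ ((h • P : Sylow p G) : Subgroup G) ↔ g ∈ (P : Subgroup G) := by
      rw [Sylow.coe_subgroup_smul]
      constructor
      · intro hg
        rw [Subgroup.mem_smul_pointwise_iff_exists] at hg
        obtain ⟨s, hs, hsg⟩ := hg
        have h1 : h * s * h⁻¹ = h * g * h⁻¹ := hsg
        have h2 : s = g := by
          have := congrArg (fun z => h⁻¹ * z * h) h1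
          have e : ∀ z : G, h⁻¹ * (h * z * h⁻¹) * h = z := by intro z; group
          simpa only [e] using this
        rwa [← h2]
      · intro hg
        rw [Subgroup.mem_smul_pointwise_iff_exists]
        exact ⟨g, hg, rfl⟩
    simp only [e3]
  have h1 : ∑ g : G, ∑ S : Sylow p G, (if g ∈ (S : Subgroup G) then (L g)⁻¹ else 0) =
      (Nat.card {g : G // ∃ k : ℕ, orderOf g = p ^ k} : ℝ) := by
    rw [Finset.sum_congr rfl (fun g _ => hrow g), ← Finset.sum_filter, Finset.sum_const, nsmul_eq_mul, mul_one]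
    congr 1
    rw [← Nat.subtype_card (Finset.univ.filter (fun g : G => ∃ k : ℕ, orderOf g = p ^ k))
        (p := fun g : G => ∃ k : ℕ, orderOf g = p ^ k)
        (by intro S; rw [Finset.mem_filter]; exact and_iff_right (Finset.mem_univ S))]
  rw [← h1, Finset.sum_comm, Finset.sum_congr rfl (fun S _ => hcol S), Finset.sum_const, Finset.card_univ,
    nsmul_eq_mul, Nat.card_eq_fintype_card]

/-- AM-GM -/
theorem prod_le_pow {ι : Type*} [Fintype ι] (z : ι → ℝ) (hz : ∀ i, 0 ≤ z i) (hN : 0 < Fintype.card ι) :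
    ∏ i, z i ≤ ((∑ i, z i) / Fintype.card ι) ^ Fintype.card ι := by
  set N := Fintype.card ι with hNdef
  have hN' : (0 : ℝ) < N := by exact_mod_cast hN
  have h1 := Real.geom_mean_le_arith_mean_weighted Finset.univ (fun _ : ι => (1 / (N : ℝ))) z
    (fun i _ => by positivity) (by
      rw [Finset.sum_const, Finset.card_univ, nsmul_eq_mul, ← hNdef]
      field_simp) (fun i _ => hz i)
  have h2 : ∏ i, z i = (∏ i, z i ^ (1 / (N : ℝ))) ^ N := by
    rw [← Finset.prod_pow]
    refine Finset.prod_congr rfl fun i _ => ?_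
    rw [← Real.rpow_natCast, ← Real.rpow_mul (hz i)]
    rw [one_div, inv_mul_cancel₀ hN'.ne', Real.rpow_one]
  rw [h2]
  refine pow_le_pow_left₀ (Finset.prod_nonneg fun i _ => Real.rpow_nonneg (hz i) _) (h1.trans ?_) N
  rw [← Finset.mul_sum]
  rw [one_div, inv_mul_eq_div]

/-- Let G be a finite p-solvable group, P a Sylow p-subgroup of G, u the number of p-elements of G (elements of p-power order, the identity included) and n the number of Sylow p-subgroups of G. Then u/#P ≥ n^((p−1)/p), stated as u^p ≥ #P^p · n^(p−1). -/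
theorem result {G : Type*} [Group G] [Finite G] (p : ℕ) [Fact p.Prime]
    (hG : Cfsg.IsPSolvable p G) (P : Sylow p G) :
    Nat.card (P : Subgroup G) ^ p * Nat.card (Sylow p G) ^ (p - 1) ≤ Nat.card {g : G // ∃ k : ℕ, orderOf g = p ^ k} ^ p := by
  classical
  have hp : p.Prime := Fact.out
  have : Fintype (P : Subgroup G) := Fintype.ofFinite _
  have h1 := prod_lam_le p hG P
  have h2 := card_pelements p P
  set N := Nat.card (P : Subgroup G) with hN
  set n := Nat.card (Sylow p G) with hn
  set u := Nat.card {g : G // ∃ k : ℕ, orderOf g = p ^ k} with hu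
  have hNpos : 0 < N := Nat.card_pos
  have hnpos : 0 < n := Nat.card_pos
  have hNcard : Fintype.card (P : Subgroup G) = N := by rw [hN, Nat.card_eq_fintype_card]
  set A : ℕ := ∏ x : (P : Subgroup G), lam p (Subgroup.zpowers (x : G)) with hA
  have hApos : 0 < A := Finset.prod_pos fun x _ => lam_pos P x.2
  set s : ℝ := ∑ x : (P : Subgroup G), ((lam p (Subgroup.zpowers (x : G)) : ℝ))⁻¹ with hs
  have hspos : 0 ≤ s := Finset.sum_nonneg fun x _ => by positivity
  have h3 := prod_le_pow (fun x : (P : Subgroup G) => ((lam p (Subgroup.zpowers (x : G)) : ℝ))⁻¹)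
    (fun x => by positivity) (by rw [hNcard]; exact hNpos)
  rw [hNcard, Finset.prod_inv_distrib, ← hs] at h3
  have hAr : (∏ x : (P : Subgroup G), (lam p (Subgroup.zpowers (x : G)) : ℝ)) = (A : ℝ) := by
    rw [hA]; push_cast; rfl
  rw [hAr] at h3
  -- `1 / A ≤ (s / N)^N`
  have hAr' : (A : ℝ) ^ p ≤ (n : ℝ) ^ N := by exact_mod_cast h1
  have hAp : (0 : ℝ) < A := by exact_mod_cast hApos
  have hNr : (0 : ℝ) < N := by exact_mod_cast hNpos
  have hnr : (0 : ℝ) < n := by exact_mod_cast hnpos
  have h4 : ((n : ℝ)⁻¹) ^ N ≤ ((s / N) ^ p) ^ N := by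
    calc ((n : ℝ)⁻¹) ^ N = ((n : ℝ) ^ N)⁻¹ := by rw [inv_pow]
      _ ≤ ((A : ℝ) ^ p)⁻¹ := inv_anti₀ (by positivity) hAr'
      _ = ((A : ℝ)⁻¹) ^ p := by rw [inv_pow]
      _ ≤ ((s / N) ^ N) ^ p := pow_le_pow_left₀ (by positivity) h3 p
      _ = ((s / N) ^ p) ^ N := by rw [← pow_mul, ← pow_mul, mul_comm]
  have h5 : (n : ℝ)⁻¹ ≤ (s / N) ^ p := le_of_pow_le_pow_left₀ hNpos.ne' (by positivity) h4
  have h6 : (N : ℝ) ^ p * (n : ℝ) ^ (p - 1) ≤ (u : ℝ) ^ p := by
    rw [h2, mul_pow]
    have h7 : (s / N) ^ p = s ^ p / (N : ℝ) ^ p := div_pow _ _ _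
    rw [h7, le_div_iff₀ (by positivity)] at h5
    have e : (n : ℝ) ^ p = n ^ (p - 1) * n := by
      rw [← pow_succ, Nat.sub_add_cancel hp.one_lt.le]
    calc (N : ℝ) ^ p * (n : ℝ) ^ (p - 1) = (n : ℝ) ^ (p - 1) * n * ((n : ℝ)⁻¹ * (N : ℝ) ^ p) := by
          field_simp
      _ ≤ (n : ℝ) ^ (p - 1) * n * s ^ p := mul_le_mul_of_nonneg_left h5 (by positivity)
      _ = _ := by rw [e]
  exact_mod_cast h6

end Cfsg.Agent.S4091
end
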