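import Cfsg.Statements.S4092
set_option linter.all false

set_option autoImplicit false
open Cfsg

namespace Cfsg.Agent.S4092

section
variable {G : Type*} [Group G] [Finite G] (p : ℕ) [Fact p.Prime]

omit [Finite G] in
/-- elements of Sylow subgroups have `p`-power order. -/
theorem isPElt_of_mem (S : Sylow p G) {x : G} (hx : x ∈ (S : Subgroup G)) :
    ∃ k : ℕ, orderOf x = p ^ k := by
  obtain ⟨k, hk⟩ := S.2 ⟨x, hx⟩
  have h1 : x ^ p ^ k = 1 := by simpa using congrArg Subtype.val hk
  obtain ⟨m, _, hm⟩ := (Nat.dvd_prime_pow (Fact.out : p.Prime)).1 (orderOf_dvd_of_pow_eq_one h1)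
  exact ⟨m, hm⟩

/-- number of Sylow subgroups above a p-subgroup is 1 mod p -/
theorem card_above_modEq (D : Subgroup G) (hD : IsPGroup p D) :
    Nat.card {S : Sylow p G // D ≤ (S : Subgroup G)} ≡ 1 [MOD p] := by
  have h1 := hD.card_modEq_card_fixedPoints (Sylow p G)
  have h2 := card_sylow_modEq_one p G
  have h3 : Nat.card (MulAction.fixedPoints D (Sylow p G)) =
      Nat.card {S : Sylow p G // D ≤ (S : Subgroup G)} := by
    refine Nat.card_congr (Equiv.subtypeEquivRight fun S => ?_)
    exact hD.sylow_mem_fixedPoints_iff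
  rw [h3] at h1
  exact h1.symm.trans h2

end

/-- Let G be a finite group, p a prime and P a Sylow p-subgroup of G that is not normal in G. Then G has at least p·#P elements of p-power order (the identity included). -/
theorem result {G : Type*} [Group G] [Finite G] (p : ℕ) [Fact p.Prime]
    (P : Sylow p G) (hP : ¬ (P : Subgroup G).Normal) :
    p * Nat.card (P : Subgroup G) ≤ Nat.card {g : G // ∃ k : ℕ, orderOf g = p ^ k} := by
  classical
  have hp : p.Prime := Fact.out
  -- two distinct Sylows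
  have hne : ∃ Q : Sylow p G, P ≠ Q := by
    by_contra hcon
    push Not at hcon
    have : Subsingleton (Sylow p G) := ⟨fun a b => (hcon a).symm.trans (hcon b)⟩
    exact hP (Sylow.normal_of_subsingleton P)
  obtain ⟨Q0, hQ0⟩ := hne
  have hnon : Nonempty {ST : Sylow p G × Sylow p G // ST.1 ≠ ST.2} := ⟨⟨(P, Q0), hQ0⟩⟩
  obtain ⟨⟨⟨S, T⟩, hST⟩, hmax⟩ := Finite.exists_max
    (fun ST : {ST : Sylow p G × Sylow p G // ST.1 ≠ ST.2} =>
      Nat.card ((ST.1.1 : Subgroup G) ⊓ (ST.1.2 : Subgroup G) : Subgroup G))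
  simp only at hST
  set D : Subgroup G := (S : Subgroup G) ⊓ (T : Subgroup G) with hDdef
  have hDp : IsPGroup p D := S.2.to_le inf_le_left
  have hcardS : ∀ R : Sylow p G, Nat.card (R : Subgroup G) = Nat.card (P : Subgroup G) := by
    intro R
    rw [Sylow.card_eq_multiplicity, Sylow.card_eq_multiplicity]
  -- pairwise intersections
  have hint : ∀ A B : Sylow p G, A ≠ B → D ≤ A → D ≤ B → (A : Subgroup G) ⊓ (B : Subgroup G) = D := by
    intro A B hAB hA hB
    have h1 : Nat.card ((A : Subgroup G) ⊓ (B : Subgroup G) : Subgroup G) ≤ Nat.card D :=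
      hmax ⟨(A, B), hAB⟩
    exact (Subgroup.eq_of_le_of_card_ge (le_inf hA hB) h1).symm
  -- number k
  set k : ℕ := Nat.card {R : Sylow p G // D ≤ (R : Subgroup G)} with hk
  have hkmod : k ≡ 1 [MOD p] := card_above_modEq p D hDp
  have hk2 : 2 ≤ k := by
    have : Nontrivial {R : Sylow p G // D ≤ (R : Subgroup G)} :=
      ⟨⟨S, inf_le_left⟩, ⟨T, inf_le_right⟩, fun h => hST (congrArg Subtype.val h)⟩
    exact Finite.one_lt_card
  have hkp : p + 1 ≤ k := by
    have h1 : p ∣ k - 1 := (Nat.modEq_iff_dvd' (by omega)).1 hkmod.symm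
    have h2 := Nat.le_of_dvd (by omega) h1
    omega
  -- |D| * p ≤ |P|
  have hDlt : D < (S : Subgroup G) := by
    refine lt_of_le_of_ne inf_le_left fun h => hST ?_
    have h1 : (S : Subgroup G) ≤ T := h ▸ inf_le_right
    exact Sylow.ext (S.3 T.2 h1).symm
  have hDP : Nat.card D * p ≤ Nat.card (P : Subgroup G) := by
    rw [← hcardS S]
    have h1 : Nat.card D ∣ Nat.card (S : Subgroup G) := Subgroup.card_dvd_of_le hDlt.le
    obtain ⟨c, hc⟩ := h1
    have hc1 : c ≠ 1 := by
      rintro rfl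
      rw [mul_one] at hc
      exact hDlt.ne (Subgroup.eq_of_le_of_card_ge hDlt.le hc.le)
    have hcp : p ∣ c := by
      obtain ⟨a, ha⟩ := IsPGroup.iff_card.1 S.2
      have : c ∣ p ^ a := ⟨Nat.card D, by rw [← ha, hc, mul_comm]⟩
      obtain ⟨b, _, hb⟩ := (Nat.dvd_prime_pow hp).1 this
      rw [hb]
      refine dvd_pow_self p ?_
      rintro rfl
      exact hc1 (by simpa using hb)
    have hcpos : 0 < c := by
      rcases Nat.eq_zero_or_pos c with rfl | h
      · rw [mul_zero] at hc
        exact absurd hc Nat.card_pos.ne'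
      · exact h
    rw [hc]
    exact Nat.mul_le_mul_left _ (Nat.le_of_dvd hcpos hcp)
  -- injection
  let f : (Σ R : {R : Sylow p G // D ≤ (R : Subgroup G)}, {x : G // x ∈ (R.1 : Subgroup G) ∧ x ∉ D}) ⊕ D →
      {g : G // ∃ k : ℕ, orderOf g = p ^ k} := fun z => match z with
    | Sum.inl y => ⟨y.2.1, isPElt_of_mem p y.1.1 y.2.2.1⟩
    | Sum.inr y => ⟨y.1, isPElt_of_mem p S (hDlt.le y.2)⟩
  have hf : Function.Injective f := by
    rintro (⟨⟨A, hA⟩, x, hxA, hxD⟩ | ⟨x, hx⟩) (⟨⟨B, hB⟩, y, hyB, hyD⟩ | ⟨y, hy⟩) hxy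
    · have hxy' : x = y := congrArg Subtype.val hxy
      subst hxy'
      have hAB : A = B := by
        by_contra hAB
        exact hxD ((hint A B hAB hA hB) ▸ ⟨hxA, hyB⟩)
      subst hAB
      rfl
    · have hxy' : x = y := congrArg Subtype.val hxy
      subst hxy'
      exact absurd hy hxD
    · have hxy' : x = y := congrArg Subtype.val hxy
      subst hxy'
      exact absurd hx hyD
    · have hxy' : x = y := congrArg Subtype.val hxy
      subst hxy'
      rfl
  have hcount := Nat.card_le_card_of_injective f hf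
  have : Fintype {R : Sylow p G // D ≤ (R : Subgroup G)} := Fintype.ofFinite _
  rw [Nat.card_sum, Nat.card_sigma] at hcount
  have hfib : ∀ R : {R : Sylow p G // D ≤ (R : Subgroup G)},
      Nat.card {x : G // x ∈ (R.1 : Subgroup G) ∧ x ∉ D} = Nat.card (P : Subgroup G) - Nat.card D := by
    intro R
    have h1 : Nat.card (R.1 : Subgroup G) = Nat.card D + Nat.card {x : G // x ∈ (R.1 : Subgroup G) ∧ x ∉ D} := by
      rw [← Nat.card_sum]
      refine Nat.card_congr ?_
      refine ⟨fun x => if h : (x : G) ∈ D then Sum.inl ⟨x, h⟩ else Sum.inr ⟨x, x.2, h⟩,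
        fun y => match y with
          | Sum.inl z => ⟨z.1, R.2 z.2⟩
          | Sum.inr z => ⟨z.1, z.2.1⟩, ?_, ?_⟩
      · intro x
        by_cases h : (x : G) ∈ D
        · simp [h]
        · simp [h]
      · rintro (⟨z, hz⟩ | ⟨z, hz1, hz2⟩)
        · simp [hz]
        · simp [hz2]
    rw [← hcardS R.1, h1]
    omega
  have hsum : Nat.card (P : Subgroup G) * p ≤
      k * (Nat.card (P : Subgroup G) - Nat.card D) + Nat.card D := by
    have h1 : Nat.card D ≤ Nat.card (P : Subgroup G) :=
      le_trans (Nat.le_mul_of_pos_right _ hp.pos) hDP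
    obtain ⟨m, hm⟩ := Nat.exists_eq_add_of_le h1
    have h2 : (p + 1) * m ≤ k * m := Nat.mul_le_mul_right _ hkp
    rw [hm] at hDP ⊢
    rw [Nat.add_sub_cancel_left]
    nlinarith
  have hkk : ∑ R : {R : Sylow p G // D ≤ (R : Subgroup G)},
      Nat.card {x : G // x ∈ (R.1 : Subgroup G) ∧ x ∉ D} =
      k * (Nat.card (P : Subgroup G) - Nat.card D) := by
    rw [Finset.sum_congr rfl (fun R _ => hfib R), Finset.sum_const, hk,
      Nat.card_eq_fintype_card (α := {R : Sylow p G // D ≤ (R : Subgroup G)}),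
      Finset.card_univ, smul_eq_mul]
  rw [hkk] at hcount
  rw [mul_comm]
  exact hsum.trans hcount

end Cfsg.Agent.S4092
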