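import Cfsg.Statements.S4093
import Cfsg.Agent.H515.Count
set_option linter.all false

set_option autoImplicit false
open scoped BigOperators
open Cfsg

namespace Cfsg.Agent.S4093

open Cfsg.Agent.H515.Count

theorem isPGroup_zpowers {G : Type*} [Group G] {p : ℕ} {g : G} (h : ∃ k : ℕ, orderOf g = p ^ k) :
    IsPGroup p (Subgroup.zpowers g) := by
  obtain ⟨k, hk⟩ := h
  exact IsPGroup.of_card (n := k) (by rw [Nat.card_zpowers, hk])

theorem isPElt_of_mem {G : Type*} [Group G] {p : ℕ} [Fact p.Prime] {T : Subgroup G} (hT : IsPGroup p T) {x : G}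
    (hx : x ∈ T) : ∃ k : ℕ, orderOf x = p ^ k := by
  obtain ⟨k, hk⟩ := hT ⟨x, hx⟩
  have h1 : x ^ p ^ k = 1 := by simpa using congrArg Subtype.val hk
  obtain ⟨m, _, hm⟩ := (Nat.dvd_prime_pow (Fact.out : p.Prime)).1 (orderOf_dvd_of_pow_eq_one h1)
  exact ⟨m, hm⟩

/-- Let G be a finite group with a normal subgroup N complementing a Sylow p-subgroup P (a normal p-complement). Then the number of elements of G of p-power order equals the sum over x ∈ P of the index of C_N(x) in N. -/
theorem result {G : Type*} [Group G] [Finite G] (p : ℕ) [Fact p.Prime]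
    (P : Sylow p G) (N : Subgroup G) [N.Normal] (hNP : N.IsComplement' (P : Subgroup G)) :
    Nat.card {g : G // ∃ k : ℕ, orderOf g = p ^ k} =
      ∑ᶠ x : (P : Subgroup G), Nat.card N / Nat.card ↥(N ⊓ Subgroup.centralizer ({(x : G)} : Set G)) := by
  classical
  have hp : p.Prime := Fact.out
  let φ : G →* G ⧸ N := QuotientGroup.mk' N
  have hker : φ.ker = N := QuotientGroup.ker_mk' N
  have hφ1 : ∀ x, φ x = 1 ↔ x ∈ N := fun x => QuotientGroup.eq_one_iff x
  have hK : (Nat.card φ.ker).Coprime p := by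
    rw [hker]
    have h1 : N.index = Nat.card (P : Subgroup G) := hNP.symm.index_eq_card
    have h2 : (P : Subgroup G).index = Nat.card N := hNP.index_eq_card
    rw [← h2, Nat.coprime_comm]
    exact (Nat.Prime.coprime_iff_not_dvd hp).mpr P.not_dvd_index
  -- every coset meets `P`
  have hex : ∀ g : G, ∃ x : (P : Subgroup G), φ x = φ g := by
    intro g
    obtain ⟨⟨k, x⟩, hkx, -⟩ := Function.Bijective.existsUnique hNP g
    refine ⟨x, ?_⟩
    have : (k : G) * x = g := hkx
    rw [← this, map_mul, (hφ1 _).2 k.2, one_mul]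
  choose r hr using hex
  have hrinj : ∀ x y : (P : Subgroup G), φ x = φ y → x = y := by
    intro x y hxy
    have h1 : φ ((x : G) * (y : G)⁻¹) = 1 := by rw [map_mul, map_inv, hxy, mul_inv_cancel]
    have h2 := inf_ker_eq_bot φ hK P.2 _ ((P : Subgroup G).mul_mem x.2 ((P : Subgroup G).inv_mem y.2)) h1
    exact Subtype.ext (mul_inv_eq_one.mp h2)
  have : Fintype (P : Subgroup G) := Fintype.ofFinite _
  rw [finsum_eq_sum_of_fintype]
  rw [Nat.card_congr (Equiv.sigmaFiberEquiv (fun g : {g : G // ∃ k : ℕ, orderOf g = p ^ k} => r g.1)).symm,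
    Nat.card_sigma]
  refine Finset.sum_congr rfl fun x _ => ?_
  -- the fibre
  let f : N → {g : {g : G // ∃ k : ℕ, orderOf g = p ^ k} // r g.1 = x} := fun k =>
    ⟨⟨(k : G) * x * (k : G)⁻¹, by
      have : IsPGroup p (((P : Subgroup G)).map (MulAut.conj (k : G)).toMonoidHom) := P.2.map _
      exact isPElt_of_mem this ⟨x, x.2, rfl⟩⟩, by
      apply hrinj
      rw [hr, map_mul, map_mul, map_inv, (hφ1 _).2 k.2]; simp⟩
  have h1 : Nat.card N = Nat.card ↥(N ⊓ Subgroup.centralizer ({(x : G)} : Set G)) *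
      Nat.card {g : {g : G // ∃ k : ℕ, orderOf g = p ^ k} // r g.1 = x} := by
    refine card_eq_mul_of_fiber f _ ?_
    rintro ⟨⟨g, hg⟩, hgx⟩
    have hgx' : φ g = φ x := by rw [← hr g]; exact congrArg (fun z : (P : Subgroup G) => φ z) hgx
    have hx := isPElt_of_mem P.2 x.2
    have hTT : (Subgroup.zpowers g).map φ = (Subgroup.zpowers (x : G)).map φ := by
      rw [MonoidHom.map_zpowers, MonoidHom.map_zpowers, hgx']
    obtain ⟨k, hk, hkT⟩ := exists_conj_of_map_eq φ hK (isPGroup_zpowers hg) (isPGroup_zpowers hx) hTT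
    have hkN : k ∈ N := (hφ1 k).1 hk
    have h3 : k * x * k⁻¹ ∈ Subgroup.zpowers g := by
      rw [hkT]; exact ⟨x, Subgroup.mem_zpowers _, rfl⟩
    have h4 : g = k * x * k⁻¹ := by
      have h5 : φ (g * (k * x * k⁻¹)⁻¹) = 1 := by
        rw [map_mul, map_inv, map_mul, map_mul, map_inv, hk, hgx']; simp
      have h6 := inf_ker_eq_bot φ hK (isPGroup_zpowers hg) _
        (Subgroup.mul_mem _ (Subgroup.mem_zpowers g) (Subgroup.inv_mem _ h3)) h5
      exact mul_inv_eq_one.mp h6
    refine Nat.card_congr ⟨fun m => ⟨k⁻¹ * m.1.1, ?_, ?_⟩, fun c => ⟨⟨k * c.1, ?_⟩, ?_⟩, ?_, ?_⟩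
    · exact N.mul_mem (N.inv_mem hkN) m.1.2
    · have h5 : (m.1.1 : G) * x * (m.1.1)⁻¹ = g := congrArg (fun z => z.1.1) m.2
      change k⁻¹ * m.1.1 ∈ Subgroup.centralizer ({(x : G)} : Set G)
      rw [Subgroup.mem_centralizer_singleton_iff]
      have h5' : (m.1.1 : G) * x * (m.1.1)⁻¹ = k * x * k⁻¹ := h5.trans h4
      have h6 : m.1.1 * (x : G) = k * x * k⁻¹ * m.1.1 := by rw [← h5']; group
      rw [mul_assoc, h6]; group
    · exact N.mul_mem hkN c.2.1
    · have h5 := Subgroup.mem_centralizer_singleton_iff.mp c.2.2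
      apply Subtype.ext
      apply Subtype.ext
      change (k * c.1) * x * (k * c.1)⁻¹ = g
      rw [h4]
      have h6 : (k * c.1) * x * (k * c.1)⁻¹ = k * (c.1 * x) * (c : G)⁻¹ * k⁻¹ := by group
      rw [h6, h5]; group
    · intro m
      apply Subtype.ext
      apply Subtype.ext
      simp
    · intro c
      apply Subtype.ext
      simp
  rw [h1, Nat.mul_div_cancel_left _ Nat.card_pos]

end Cfsg.Agent.S4093
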