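import Cfsg.Agent.H196.NF
import Cfsg.Agent.S0026
import Cfsg.Agent.Lib.NormalAbelian
import Cfsg.Agent.H191.AltElts
import Cfsg.Statements.S4100
set_option linter.all false

-- part: H196/AltInd
section
/-!
# From modules of an alternating section to modules of the symmetric group

`Cfsg.Agent.H196.AltInd.exists_fixed`: if every module of characteristic `p` of the symmetric group of degree `m`
without vectors fixed by nonsolvable subgroups vanishes, then a nonzero module of characteristic `p` for the alternating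
group of degree `m` has a nonzero vector fixed by a nonsolvable subgroup.
-/

set_option autoImplicit false

universe u

namespace Cfsg.Agent.H196.AltInd

open Subgroup Equiv Cfsg.Agent.H196.GA

section

variable {m : ℕ} {H : Type*} [Group H] {A : Type u} [AddCommGroup A] (φ : H →* alternatingGroup (Fin m))
  (ρ : H →* AddMonoid.End A)

/-- the induced module -/
def Ind : AddSubgroup (Perm (Fin m) → A) where
  carrier := {f | ∀ (h : H) (g : Perm (Fin m)), f ((φ h : Perm (Fin m)) * g) = ρ h (f g)}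
  add_mem' := fun {a b} ha hb h g => by
    simp only [Pi.add_apply, map_add, ha h g, hb h g]
  zero_mem' := fun h g => by simp
  neg_mem' := fun {a} ha h g => by simp only [Pi.neg_apply, map_neg, ha h g]

/-- right translations -/
instance : DistribMulAction (Perm (Fin m)) (Ind φ ρ) where
  smul s f := ⟨fun g => f.1 (g * s), fun h g => by
    show f.1 ((φ h : Perm (Fin m)) * g * s) = _
    rw [mul_assoc]
    exact f.2 h (g * s)⟩
  one_smul f := Subtype.ext (funext fun g => by
    show f.1 (g * 1) = f.1 g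
    rw [mul_one])
  mul_smul s t f := Subtype.ext (funext fun g => by
    show f.1 (g * (s * t)) = f.1 (g * s * t)
    rw [mul_assoc])
  smul_zero s := rfl
  smul_add s f f' := rfl

theorem smul_apply (s : Perm (Fin m)) (f : Ind φ ρ) (g : Perm (Fin m)) : (s • f).1 g = f.1 (g * s) := rfl

/-- The intersection of a nonsolvable group of permutations with the alternating group is not solvable. -/
theorem not_solvable_alt (X : Subgroup (Perm (Fin m))) (hX : ¬ Group.IsSolvable X) :
    ¬ Group.IsSolvable (X.comap (alternatingGroup (Fin m)).subtype) := by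
  intro hs
  apply hX
  let f : X.comap (alternatingGroup (Fin m)).subtype →* X :=
    ((alternatingGroup (Fin m)).subtype.comp (X.comap (alternatingGroup (Fin m)).subtype).subtype).codRestrict X
      fun x => x.2
  refine Group.isSolvable_of_ker_le_range f ((Perm.sign).comp X.subtype) ?_
  rintro ⟨x, hx⟩ hx'
  have h1 : Perm.sign x = 1 := hx'
  exact ⟨⟨⟨x, Perm.mem_alternatingGroup.2 h1⟩, hx⟩, rfl⟩

theorem exists_fixed {p : ℕ} (hker : ∀ h ∈ φ.ker, ∀ a, ρ h a = a)
    (hp : ∀ a : A, p • a = 0)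
    (hmod : ∀ (V : Type u) [AddCommGroup V] [DistribMulAction (Perm (Fin m)) V], (∀ v : V, p • v = 0) →
      NF m V → ∀ v : V, v = 0) {a₀ : A} (ha₀ : a₀ ≠ 0) :
    ∃ a : A, a ≠ 0 ∧ ∃ Y : Subgroup (alternatingGroup (Fin m)), ¬ Group.IsSolvable Y ∧
      ∀ h, φ h ∈ Y → ρ h a = a := by
  classical
  by_contra hcon
  push Not at hcon
  have hNF : NF m (Ind φ ρ) := by
    intro s t hst f hs ht
    by_contra hf
    have hX : ∀ x ∈ closure ({s, t} : Set (Perm (Fin m))), x • f = f := by
      intro x hx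
      induction hx using closure_induction with
      | mem z hz =>
        rcases hz with rfl | rfl
        · exact hs
        · exact ht
      | one => exact one_smul _ _
      | mul z z' _ _ h1 h2 => rw [mul_smul, h2, h1]
      | inv z _ h1 => rw [inv_smul_eq_iff, h1]
    obtain ⟨g, hg⟩ : ∃ g, f.1 g ≠ 0 := by
      by_contra h
      push Not at h
      exact hf (Subtype.ext (funext h))
    let X' := (closure ({s, t} : Set (Perm (Fin m)))).map (MulAut.conj g).toMonoidHom
    have hX' : ¬ Group.IsSolvable X' := fun h => hst (by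
      exact Group.isSolvable_of_isSolvable_injective
        (f := ((closure ({s, t} : Set (Perm (Fin m)))).equivMapOfInjective (MulAut.conj g).toMonoidHom
          (MulAut.conj g).injective).toMonoidHom) (MulEquiv.injective _))
    obtain ⟨h, hh, hne⟩ := hcon (f.1 g) hg _ (not_solvable_alt X' hX')
    apply hne
    obtain ⟨x, hx, hx'⟩ := hh
    have h1 : ((φ h : Perm (Fin m))) = g * x * g⁻¹ := hx'.symm
    have h2 := f.2 h g
    rw [← h2, h1]
    have h3 : g * x * g⁻¹ * g = g * x := by group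
    rw [h3]
    have h4 := congrArg (fun q : Ind φ ρ => q.1 g) (hX x hx)
    exact h4
  have hpF : ∀ f : Ind φ ρ, p • f = 0 := fun f => Subtype.ext (funext fun g => hp (f.1 g))
  -- a nonzero element
  have hindep : ∀ x y : H, φ x = φ y → ρ x a₀ = ρ y a₀ := by
    intro x y hxy
    have h1 : x * y⁻¹ ∈ φ.ker := by rw [MonoidHom.mem_ker, map_mul, map_inv, hxy, mul_inv_cancel]
    have h2 := hker _ h1 (ρ y a₀)
    rw [← h2]
    show ρ x a₀ = (ρ (x * y⁻¹) * ρ y) a₀
    rw [← map_mul, inv_mul_cancel_right]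
  let f₀ : Perm (Fin m) → A := fun g => if h : ∃ x : H, (φ x : Perm (Fin m)) = g then ρ (Classical.choose h) a₀ else 0
  have hf₀ : ∀ x : H, f₀ (φ x : Perm (Fin m)) = ρ x a₀ := by
    intro x
    have h : ∃ y : H, (φ y : Perm (Fin m)) = φ x := ⟨x, rfl⟩
    show (if h : ∃ y : H, (φ y : Perm (Fin m)) = φ x then ρ (Classical.choose h) a₀ else 0) = _
    rw [dif_pos h]
    exact hindep _ _ (Subtype.ext (Classical.choose_spec h))
  have hmem : f₀ ∈ Ind φ ρ := by
    intro h g
    by_cases hg : ∃ x : H, (φ x : Perm (Fin m)) = g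
    · obtain ⟨x, rfl⟩ := hg
      have e : (φ h : Perm (Fin m)) * (φ x : Perm (Fin m)) = (φ (h * x) : Perm (Fin m)) := by
        rw [map_mul]
        rfl
      rw [e, hf₀, hf₀, map_mul]
      rfl
    · have hg' : ¬ ∃ x : H, (φ x : Perm (Fin m)) = (φ h : Perm (Fin m)) * g := by
        rintro ⟨x, hx⟩
        apply hg
        refine ⟨h⁻¹ * x, ?_⟩
        rw [map_mul, map_inv]
        show (φ h : Perm (Fin m))⁻¹ * (φ x : Perm (Fin m)) = g
        rw [hx, inv_mul_cancel_left]
      show (if h : _ then _ else _) = ρ h (if h : _ then _ else _)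
      rw [dif_neg hg, dif_neg hg', map_zero]
  have h0 := hmod (Ind φ ρ) hpF hNF ⟨f₀, hmem⟩
  apply ha₀
  have h1 : f₀ 1 = 0 := congrArg (fun q : Ind φ ρ => q.1 1) h0
  have h2 := hf₀ 1
  rw [map_one, map_one] at h2
  have h3 : ((1 : alternatingGroup (Fin m)) : Perm (Fin m)) = 1 := rfl
  rw [h3, h1] at h2
  exact h2.symm

end

end Cfsg.Agent.H196.AltInd
end

-- part: H196/AltLift
section
/-!
# Lifting elements of prime power order together with nonsolvable centralizers
-/

set_option autoImplicit false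

namespace Cfsg.Agent.H196.AltLift

open Subgroup

open scoped commutatorElement

/-- If `v` commutes modulo the center with the elements of a nonsolvable subgroup, its centralizer is not solvable. -/
theorem not_solvable_of_central {H : Type*} [Group H] (D : Subgroup H) (hD : ¬ Group.IsSolvable D) (v : H)
    (hc : ∀ d ∈ D, v * d * v⁻¹ * d⁻¹ ∈ center H) : ¬ Group.IsSolvable (centralizer ({v} : Set H)) := by
  intro hs
  apply hD
  let ψ : D →* center H :=
    { toFun := fun d => ⟨v * d * v⁻¹ * (d : H)⁻¹, hc d d.2⟩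
      map_one' := by
        apply Subtype.ext
        simp
      map_mul' := fun c d => by
        apply Subtype.ext
        have hd := mem_center_iff.1 (hc d d.2)
        show v * ((c : H) * d) * v⁻¹ * ((c : H) * d)⁻¹ = v * c * v⁻¹ * (c : H)⁻¹ * (v * d * v⁻¹ * (d : H)⁻¹)
        have e1 : v * ((c : H) * d) * v⁻¹ * ((c : H) * d)⁻¹ =
            (v * c * v⁻¹) * ((v * d * v⁻¹ * (d : H)⁻¹) * (c : H)⁻¹) := by group
        rw [e1, ← hd (c : H)⁻¹]
        group }
  have h1 : Group.IsSolvable ψ.ker := by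
    refine Group.isSolvable_of_isSolvable_injective
      (f := ((D.subtype.comp ψ.ker.subtype).codRestrict (centralizer ({v} : Set H)) fun k => ?_)) ?_
    · rw [mem_centralizer_singleton_iff]
      have hk : ψ k = 1 := k.2
      have hk' : v * (k : D) * v⁻¹ * ((k : D) : H)⁻¹ = 1 := congrArg Subtype.val hk
      show ((k : D) : H) * v = v * ((k : D) : H)
      rw [mul_inv_eq_one, mul_inv_eq_iff_eq_mul] at hk'
      exact hk'.symm
    · intro a b hab
      have := congrArg Subtype.val hab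
      exact Subtype.ext (Subtype.ext this)
  have h2 : Group.IsSolvable (center H) :=
    Group.isSolvable_of_comm fun a b => Subtype.ext (mem_center_iff.1 a.2 b).symm
  exact Group.isSolvable_of_ker_le_range (ψ.ker.subtype) ψ (by rw [range_subtype])

/-- A group with a solvable subgroup containing a normal solvable subgroup … : `N` is solvable if `N = P L` with `P`
normal and solvable and `L` solvable. -/
theorem solvable_of_sup {N : Type*} [Group N] (P L : Subgroup N) [P.Normal] (hP : Group.IsSolvable P)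
    (hL : Group.IsSolvable L) (h : P ⊔ L = ⊤) : Group.IsSolvable N := by
  rw [Group.isSolvable_iff_subgroup_quotient P]
  refine ⟨hP, ?_⟩
  have : Function.Surjective ((QuotientGroup.mk' P).comp L.subtype) := by
    intro q
    obtain ⟨g, rfl⟩ := QuotientGroup.mk'_surjective P q
    have hg : g ∈ P ⊔ L := h ▸ mem_top g
    obtain ⟨a, ha, b, hb, rfl⟩ := (mem_sup_of_normal_left).1 hg
    refine ⟨⟨b, hb⟩, ?_⟩
    show (QuotientGroup.mk' P) b = _
    rw [map_mul]
    have : (QuotientGroup.mk' P) a = 1 := (QuotientGroup.eq_one_iff a).2 ha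
    rw [this, one_mul]
  exact Group.isSolvable_of_surjective this

/-- Frattini argument above a central element of prime power order. -/
theorem frattini_arg {H S : Type*} [Group H] [Finite H] [Group S] (φ : H →* S) (hφ : Function.Surjective φ) {p : ℕ}
    [Fact p.Prime] (c : S) (hcp : ∃ k, orderOf c = p ^ k) (hcc : c ∈ center S) (hS : ¬ Group.IsSolvable S) :
    ∃ P : Subgroup H, IsPGroup p P ∧ P ≤ (zpowers c).comap φ ∧ ¬ p ∣ P.relIndex ((zpowers c).comap φ) ∧
      normalizer (P : Set H) ⊔ (zpowers c).comap φ = ⊤ ∧ (∃ x ∈ P, φ x = c) ∧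
      ¬ Group.IsSolvable (normalizer (P : Set H)) := by
  have hzc : zpowers c ≤ center S := zpowers_le.2 hcc
  have hn : (zpowers c).Normal := ⟨fun n hn g => by
    have := mem_center_iff.1 (hzc hn) g
    rw [this, mul_inv_cancel_right]
    exact hn⟩
  have : Finite S := Finite.of_surjective φ hφ
  set H1 := (zpowers c).comap φ with hH1
  have hn1 : H1.Normal := hn.comap φ
  obtain ⟨P⟩ : Nonempty (Sylow p H1) := inferInstance
  have hfr := Sylow.normalizer_sup_eq_top P
  have hle : (P : Subgroup H1).map H1.subtype ≤ H1 := map_subtype_le _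
  have hx : ∃ x ∈ (P : Subgroup H1).map H1.subtype, φ x = c := by
    let f : H1 →* zpowers c := (φ.comp H1.subtype).codRestrict (zpowers c) fun x => x.2
    have hf : Function.Surjective f := by
      rintro ⟨s, hs⟩
      obtain ⟨h, rfl⟩ := hφ s
      exact ⟨⟨h, hs⟩, rfl⟩
    have htop : ((P.mapSurjective hf : Sylow p (zpowers c)) : Subgroup (zpowers c)) = ⊤ := by
      have hpg : IsPGroup p (zpowers c) := by
        obtain ⟨k, hk⟩ := hcp
        exact IsPGroup.of_card (by rw [Nat.card_zpowers, hk])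
      have : IsPGroup p (⊤ : Subgroup (zpowers c)) := hpg.to_subgroup ⊤
      exact ((P.mapSurjective hf).is_maximal' this le_top).symm
    have hc : (⟨c, mem_zpowers c⟩ : zpowers c) ∈ ((P.mapSurjective hf : Sylow p (zpowers c)) :
        Subgroup (zpowers c)) := htop ▸ mem_top _
    rw [Sylow.coe_mapSurjective] at hc
    obtain ⟨y, hy, hy'⟩ := hc
    exact ⟨y, ⟨y, hy, rfl⟩, congrArg Subtype.val hy'⟩
  refine ⟨(P : Subgroup H1).map H1.subtype, P.2.map _, hle, ?_, hfr, hx, ?_⟩
  · have e : ((P : Subgroup H1).map H1.subtype).relIndex H1 = (P : Subgroup H1).index := by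
      rw [relIndex, subgroupOf, comap_map_eq_self_of_injective H1.subtype_injective]
    rw [e]
    exact P.not_dvd_index
  · intro hs
    apply hS
    rw [Group.isSolvable_iff_subgroup_quotient (zpowers c)]
    refine ⟨Group.isSolvable_of_comm fun a b => ?_, ?_⟩
    · exact Subtype.ext (mem_center_iff.1 (hzc a.2) b).symm
    · have hsur : Function.Surjective (((QuotientGroup.mk' (zpowers c)).comp φ).comp
          (normalizer (((P : Subgroup H1).map H1.subtype : Subgroup H) : Set H)).subtype) := by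
        intro q
        obtain ⟨s, rfl⟩ := QuotientGroup.mk'_surjective _ q
        obtain ⟨h, rfl⟩ := hφ s
        have hh : h ∈ normalizer (((P : Subgroup H1).map H1.subtype : Subgroup H) : Set H) ⊔ H1 := hfr ▸ mem_top h
        obtain ⟨a, ha, b, hb, rfl⟩ := (mem_sup_of_normal_right).1 hh
        refine ⟨⟨a, ha⟩, ?_⟩
        show QuotientGroup.mk' (zpowers c) (φ a) = _
        rw [map_mul φ, map_mul]
        have : QuotientGroup.mk' (zpowers c) (φ b) = 1 := (QuotientGroup.eq_one_iff _).2 hb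
        rw [this, mul_one]
      exact Group.isSolvable_of_surjective hsur

/-- Lifting when the elements of `p`-power order of the kernel are central. -/
theorem lift_central_aux {H S : Type*} [Group H] [Finite H] [Group S] (φ : H →* S) (hφ : Function.Surjective φ)
    {p : ℕ} [Fact p.Prime] (hker : ∀ x ∈ φ.ker, (∃ k, orderOf x = p ^ k) → x ∈ center H) (c : S)
    (hcp : ∃ k, orderOf c = p ^ k) (hcc : c ∈ center S) (hS : ¬ Group.IsSolvable S) :
    ∃ y : H, φ y = c ∧ (∃ k, orderOf y = p ^ k) ∧ ¬ Group.IsSolvable (centralizer ({y} : Set H)) := by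
  obtain ⟨P, hP, -, -, -, ⟨x, hx, hxc⟩, hns⟩ := frattini_arg φ hφ c hcp hcc hS
  have hpe : ∀ z ∈ P, ∃ k, orderOf z = p ^ k := by
    intro z hz
    obtain ⟨k, hk⟩ := IsPGroup.iff_orderOf.1 hP ⟨z, hz⟩
    exact ⟨k, by rw [← hk, orderOf_mk]⟩
  refine ⟨x, hxc, hpe x hx, not_solvable_of_central _ hns x fun n hn => ?_⟩
  have h1 : x * n * x⁻¹ * n⁻¹ ∈ P := by
    have : x * n * x⁻¹ * n⁻¹ = x * (n * x⁻¹ * n⁻¹) := by group
    rw [this]
    exact P.mul_mem hx ((mem_normalizer_iff.1 hn _).1 (P.inv_mem hx))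
  refine hker _ ?_ (hpe _ h1)
  rw [MonoidHom.mem_ker, map_mul, map_mul, map_mul, hxc, map_inv, map_inv, hxc]
  rw [← mem_center_iff.1 hcc (φ n)]
  group

/-- Lifting when the nonsolvable group has order prime to `p`. -/
theorem lift_coprime_aux {H S : Type*} [Group H] [Finite H] [Group S] (φ : H →* S) (hφ : Function.Surjective φ)
    {p : ℕ} [hp : Fact p.Prime] (c : S) (hcp : ∃ k, orderOf c = p ^ k) (hcc : c ∈ center S)
    (hS : ¬ Group.IsSolvable S) (hSp : ¬ p ∣ (zpowers c).index) :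
    ∃ y : H, φ y = c ∧ (∃ k, orderOf y = p ^ k) ∧ ¬ Group.IsSolvable (centralizer ({y} : Set H)) := by
  obtain ⟨P, hP, hPH, hPi, hfr, ⟨x, hx, hxc⟩, hns⟩ := frattini_arg φ hφ c hcp hcc hS
  have hzc : zpowers c ≤ center S := zpowers_le.2 hcc
  have hn : (zpowers c).Normal := ⟨fun n hn g => by
    have := mem_center_iff.1 (hzc hn) g
    rw [this, mul_inv_cancel_right]
    exact hn⟩
  have hn1 : ((zpowers c).comap φ).Normal := hn.comap φ
  have hpe : ∀ z ∈ P, ∃ k, orderOf z = p ^ k := by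
    intro z hz
    obtain ⟨k, hk⟩ := IsPGroup.iff_orderOf.1 hP ⟨z, hz⟩
    exact ⟨k, by rw [← hk, orderOf_mk]⟩
  set N := normalizer (P : Set H) with hN
  have hPN : P ≤ N := le_normalizer
  -- the index of `P` in `N` is prime to `p`
  have hidx : ¬ p ∣ P.relIndex N := by
    have h1 : P.relIndex N ∣ P.relIndex ((zpowers c).comap φ) * ((zpowers c).comap φ).relIndex N := by
      have h2 := relIndex_inf_mul_relIndex P ((zpowers c).comap φ) N
      rw [inf_of_le_left hPH] at h2
      rw [← h2]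
      apply Nat.mul_dvd_mul_right
      have h3 : P.relIndex ((zpowers c).comap φ ⊓ N) ∣ P.relIndex ((zpowers c).comap φ) := by
        have h4 := relIndex_mul_relIndex P ((zpowers c).comap φ ⊓ N) ((zpowers c).comap φ) (le_inf hPH hPN) inf_le_left
        exact ⟨_, h4.symm⟩
      exact h3
    intro h2
    rcases (hp.out.dvd_mul).1 (h2.trans h1) with h3 | h3
    · exact hPi h3
    · apply hSp
      have h4 : ((zpowers c).comap φ).relIndex N ∣ ((zpowers c).comap φ).index :=
        relIndex_dvd_index_of_normal _ _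
      rw [index_comap_of_surjective _ hφ] at h4
      exact h3.trans h4
  have hnP : (P.subgroupOf N).Normal := normal_in_normalizer
  have hcop : Nat.Coprime (Nat.card (P.subgroupOf N)) (P.subgroupOf N).index := by
    have hPs : IsPGroup p (P.subgroupOf N) := hP.comap_of_injective N.subtype N.subtype_injective
    obtain ⟨k, hk⟩ := IsPGroup.iff_card.1 hPs
    rw [hk]
    exact Nat.Coprime.pow_left _ ((Nat.Prime.coprime_iff_not_dvd hp.out).2 hidx)
  obtain ⟨L, hL⟩ := exists_right_complement'_of_coprime hcop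
  have hPsol : Group.IsSolvable (P.subgroupOf N) := by
    have hPs : IsPGroup p (P.subgroupOf N) := hP.comap_of_injective N.subtype N.subtype_injective
    have := hPs.isNilpotent
    infer_instance
  have hLns : ¬ Group.IsSolvable L := fun hs => hns (solvable_of_sup _ L hPsol hs hL.sup_eq_top)
  set L' := L.map N.subtype with hL'
  have hLns' : ¬ Group.IsSolvable L' := fun hs => hLns (by
    have e := L.equivMapOfInjective N.subtype N.subtype_injective
    exact Group.isSolvable_of_isSolvable_injective (f := e.toMonoidHom) e.injective)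
  have hLN : L' ≤ N := map_subtype_le _
  have hcop' : (Nat.card L').Coprime (Nat.card P) := by
    have e : Nat.card L' = Nat.card L := Nat.card_congr (L.equivMapOfInjective N.subtype N.subtype_injective).symm.toEquiv
    have e2 : Nat.card P = Nat.card (P.subgroupOf N) := Nat.card_congr (subgroupOfEquivOfLe hPN).symm.toEquiv
    rw [e, e2]
    have e3 : (P.subgroupOf N).index = Nat.card L := hL.symm.index_eq_card
    rw [← e3]
    exact hcop.symm
  have hPsol' : Group.IsSolvable P := by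
    have := hP.isNilpotent
    infer_instance
  have key := Cfsg.Agent.S0026.result L' P hLN hcop' (Or.inr hPsol')
  have hmem : c ∈ (⁅P, L'⁆ ⊔ (P ⊓ centralizer (L' : Set H))).map φ := by
    rw [key]
    exact ⟨x, hx, hxc⟩
  have hbot : (⁅P, L'⁆).map φ = ⊥ := by
    rw [map_commutator, commutator_eq_bot_iff_le_centralizer]
    have : P.map φ ≤ center S := (map_le_iff_le_comap.2 hPH).trans hzc
    exact this.trans (center_le_centralizer _)
  rw [Subgroup.map_sup, hbot, bot_sup_eq] at hmem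
  obtain ⟨y, ⟨hyP, hyC⟩, hyc⟩ := hmem
  refine ⟨y, hyc, hpe y hyP, fun hs => hLns' ?_⟩
  have hle : L' ≤ centralizer ({y} : Set H) := by
    intro l hl
    rw [mem_centralizer_singleton_iff]
    exact (mem_centralizer_iff.1 hyC l hl)
  exact Group.isSolvable_of_isSolvable_injective (f := inclusion hle) (inclusion_injective hle)

section

variable {H S : Type*} [Group H] [Group S] (φ : H →* S) (c : S) (D : Subgroup S)

/-- the preimage of `⟨c⟩ D` -/
def preJ : Subgroup H := (zpowers c ⊔ D).comap φ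

/-- the restriction of `φ` -/
def preφ : preJ φ c D →* (zpowers c ⊔ D : Subgroup S) :=
  (φ.comp (preJ φ c D).subtype).codRestrict _ fun x => x.2

theorem preφ_surjective (hφ : Function.Surjective φ) : Function.Surjective (preφ φ c D) := by
  rintro ⟨s, hs⟩
  obtain ⟨h, rfl⟩ := hφ s
  exact ⟨⟨h, hs⟩, rfl⟩

theorem mem_center_sup (hD : ∀ d ∈ D, d * c = c * d) :
    (⟨c, mem_sup_left (mem_zpowers c)⟩ : (zpowers c ⊔ D : Subgroup S)) ∈ center (zpowers c ⊔ D : Subgroup S) := by
  rw [mem_center_iff]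
  rintro ⟨s, hs⟩
  apply Subtype.ext
  show s * c = c * s
  have : zpowers c ⊔ D ≤ centralizer ({c} : Set S) := by
    rw [sup_le_iff, zpowers_le]
    exact ⟨mem_centralizer_singleton_iff.2 rfl, fun d hd => mem_centralizer_singleton_iff.2 (hD d hd)⟩
  exact mem_centralizer_singleton_iff.1 (this hs)

theorem not_solvable_sup (hDs : ¬ Group.IsSolvable D) : ¬ Group.IsSolvable (zpowers c ⊔ D : Subgroup S) :=
  fun _ => hDs (Group.isSolvable_of_isSolvable_injective (f := inclusion (le_sup_right : D ≤ zpowers c ⊔ D))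
    (inclusion_injective _))

variable {φ c D}

theorem transfer {p : ℕ} (h : ∃ y : preJ φ c D, preφ φ c D y = ⟨c, mem_sup_left (mem_zpowers c)⟩ ∧
      (∃ k, orderOf y = p ^ k) ∧ ¬ Group.IsSolvable (centralizer ({y} : Set (preJ φ c D)))) :
    ∃ y : H, φ y = c ∧ (∃ k, orderOf y = p ^ k) ∧ ¬ Group.IsSolvable (centralizer ({y} : Set H)) := by
  obtain ⟨y, h1, ⟨k, h2⟩, h3⟩ := h
  refine ⟨y, congrArg Subtype.val h1, ⟨k, by rw [← h2, orderOf_coe]⟩, fun hs => h3 ?_⟩
  refine Group.isSolvable_of_isSolvable_injective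
    (f := (((preJ φ c D).subtype.comp (centralizer ({y} : Set (preJ φ c D))).subtype).codRestrict
      (centralizer ({(y : H)} : Set H)) fun z => ?_)) ?_
  · rw [mem_centralizer_singleton_iff]
    exact congrArg Subtype.val (mem_centralizer_singleton_iff.1 z.2)
  · intro a b hab
    have hab' := congrArg Subtype.val hab
    exact Subtype.ext (Subtype.ext hab')

/-- **Lifting, central case.** -/
theorem lift_central [Finite H] {p : ℕ} [Fact p.Prime] (hφ : Function.Surjective φ)
    (hker : ∀ x ∈ φ.ker, (∃ k, orderOf x = p ^ k) → x ∈ center H) (hcp : ∃ k, orderOf c = p ^ k)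
    (hD : ∀ d ∈ D, d * c = c * d) (hDs : ¬ Group.IsSolvable D) :
    ∃ y : H, φ y = c ∧ (∃ k, orderOf y = p ^ k) ∧ ¬ Group.IsSolvable (centralizer ({y} : Set H)) := by
  refine transfer (D := D) (lift_central_aux (preφ φ c D) (preφ_surjective φ c D hφ) ?_ _ ?_
    (mem_center_sup c D hD) (not_solvable_sup c D hDs))
  · rintro x hx ⟨k, hk⟩
    have h1 : (x : H) ∈ center H := hker x (by
      rw [MonoidHom.mem_ker] at hx ⊢
      exact congrArg Subtype.val hx) ⟨k, by rw [← hk, orderOf_coe]⟩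
    rw [mem_center_iff] at h1 ⊢
    exact fun g => Subtype.ext (h1 g)
  · obtain ⟨k, hk⟩ := hcp
    exact ⟨k, by rw [← hk, orderOf_mk]⟩

/-- **Lifting, coprime case.** -/
theorem lift_coprime [Finite H] {p : ℕ} [hp : Fact p.Prime] (hφ : Function.Surjective φ) (hcp : ∃ k, orderOf c = p ^ k)
    (hD : ∀ d ∈ D, d * c = c * d) (hDs : ¬ Group.IsSolvable D) (hDp : ¬ p ∣ Nat.card D) :
    ∃ y : H, φ y = c ∧ (∃ k, orderOf y = p ^ k) ∧ ¬ Group.IsSolvable (centralizer ({y} : Set H)) := by
  refine transfer (D := D) (lift_coprime_aux (preφ φ c D) (preφ_surjective φ c D hφ) _ ?_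
    (mem_center_sup c D hD) (not_solvable_sup c D hDs) ?_)
  · obtain ⟨k, hk⟩ := hcp
    exact ⟨k, by rw [← hk, orderOf_mk]⟩
  · intro h
    apply hDp
    -- `zpowers c` is normal in `⟨c⟩ D`; the map `D → (⟨c⟩ D) / ⟨c⟩` is surjective
    have hz : (zpowers (⟨c, mem_sup_left (mem_zpowers c)⟩ : (zpowers c ⊔ D : Subgroup S))).Normal := by
      refine ⟨fun n hn g => ?_⟩
      have h1 : n ∈ center (zpowers c ⊔ D : Subgroup S) := (zpowers_le.2 (mem_center_sup c D hD)) hn
      rw [mem_center_iff.1 h1 g, mul_inv_cancel_right]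
      exact hn
    have htop : zpowers (⟨c, mem_sup_left (mem_zpowers c)⟩ : (zpowers c ⊔ D : Subgroup S)) ⊔
        D.subgroupOf (zpowers c ⊔ D) = ⊤ := by
      apply map_injective (zpowers c ⊔ D : Subgroup S).subtype_injective
      rw [Subgroup.map_sup, MonoidHom.map_zpowers, subgroupOf_map_subtype, inf_of_le_left le_sup_right,
        ← MonoidHom.range_eq_map, range_subtype]
      rfl
    have h1 := relIndex_sup_left (D.subgroupOf (zpowers c ⊔ D))
      (zpowers (⟨c, mem_sup_left (mem_zpowers c)⟩ : (zpowers c ⊔ D : Subgroup S)))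
    rw [htop, relIndex_top_right] at h1
    rw [h1] at h
    have h2 := h.trans (relIndex_dvd_card _ _)
    rwa [Nat.card_congr (subgroupOfEquivOfLe (le_sup_right : D ≤ zpowers c ⊔ D)).toEquiv] at h2

end

end Cfsg.Agent.H196.AltLift
end

-- part: H196/AltMain
section
/-!
# Alternating sections of groups whose non-central elements of `p`-power order have solvable centralizers
-/

set_option autoImplicit false

universe u

namespace Cfsg.Agent.H196.AltMain

open Subgroup Equiv Cfsg.Agent.H196.GA Cfsg.Agent.H196.AltLift Cfsg.Agent.H196.AltInd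

section

variable {Q : Type u} [Group Q] (K : Subgroup Q)

/-- the elements of `Z(K)` of order dividing `p` -/
def Om (p : ℕ) : Subgroup Q where
  carrier := {w | w ∈ K ∧ (∀ k ∈ K, k * w = w * k) ∧ w ^ p = 1}
  mul_mem' := fun {a b} ha hb => ⟨K.mul_mem ha.1 hb.1, fun k hk => by
    rw [← mul_assoc, ha.2.1 k hk, mul_assoc, hb.2.1 k hk, mul_assoc], by
    rw [(show Commute a b from hb.2.1 a ha.1).mul_pow, ha.2.2, hb.2.2, one_mul]⟩
  one_mem' := ⟨K.one_mem, fun k _ => by simp, one_pow _⟩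
  inv_mem' := fun {a} ha => ⟨K.inv_mem ha.1, fun k hk => by
    rw [eq_inv_mul_iff_mul_eq, ← mul_assoc, ← ha.2.1 k hk, mul_inv_cancel_right], by
    rw [inv_pow, ha.2.2, inv_one]⟩

theorem om_normal [K.Normal] (p : ℕ) : (Om K p).Normal := by
  refine ⟨fun w hw g => ⟨Normal.conj_mem inferInstance w hw.1 g, fun k hk => ?_, ?_⟩⟩
  · have h1 := hw.2.1 (g⁻¹ * k * g) (by
      have := Normal.conj_mem (inferInstance : K.Normal) k hk g⁻¹
      rwa [inv_inv] at this)
    calc k * (g * w * g⁻¹) = g * ((g⁻¹ * k * g) * w) * g⁻¹ := by group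
      _ = g * (w * (g⁻¹ * k * g)) * g⁻¹ := by rw [h1]
      _ = g * w * g⁻¹ * k := by group
  · rw [conj_pow, hw.2.2, mul_one, mul_inv_cancel]

/-- `Om` is commutative -/
@[instance_reducible] def omComm (p : ℕ) : CommGroup (Om K p) :=
  { (inferInstance : Group (Om K p)) with
    mul_comm := fun a b => Subtype.ext (b.2.2.1 a a.2.1) }

end

/-- The `p`-part of a lift of an element of order `p`. -/
theorem exists_pow_lift {H Q : Type*} [Group H] [Finite H] [Group Q] (π : H →* Q) {p : ℕ} (hp : p.Prime) (v : H)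
    (hv : (π v) ^ p = 1) : ∃ j : ℕ, π (v ^ j) = π v ∧ ∃ k, orderOf (v ^ j) = p ^ k := by
  have hn : orderOf v ≠ 0 := (orderOf_pos v).ne'
  obtain ⟨a, m', hm', hnm⟩ := Nat.exists_eq_pow_mul_and_not_dvd hn p hp.one_lt.ne'
  have hcop : m'.Coprime p := ((Nat.Prime.coprime_iff_not_dvd hp).2 hm').symm
  obtain ⟨j, hj1, hj2⟩ := Nat.chineseRemainder hcop 0 1
  refine ⟨j, ?_, ?_⟩
  · rw [map_pow]
    have h1 : orderOf (π v) ∣ p := orderOf_dvd_of_pow_eq_one hv
    have h2 : j ≡ 1 [MOD orderOf (π v)] := hj2.of_dvd h1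
    have := (pow_eq_pow_iff_modEq (x := π v)).2 h2
    rw [this, pow_one]
  · have h1 : m' ∣ j := (Nat.modEq_zero_iff_dvd).1 hj1
    have h2 : (v ^ j) ^ p ^ a = 1 := by
      rw [← pow_mul]
      apply orderOf_dvd_iff_pow_eq_one.1
      rw [hnm, mul_comm]
      exact Nat.mul_dvd_mul h1 dvd_rfl
    obtain ⟨k, -, hk⟩ := (Nat.dvd_prime_pow hp).1 (orderOf_dvd_of_pow_eq_one h2)
    exact ⟨k, hk⟩

/-- A nilpotent normal subgroup with a nontrivial element of `p`-power order has central elements of order `p`. -/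
theorem exists_om {Q : Type u} [Group Q] [Finite Q] (K : Subgroup Q) (hK : Group.IsNilpotent K) {p : ℕ}
    [hp : Fact p.Prime] {k : Q} (hk : k ∈ K) (hk1 : k ≠ 1) (hkp : ∃ j, orderOf k = p ^ j) :
    ∃ w ∈ Om K p, w ≠ 1 := by
  obtain ⟨P⟩ : Nonempty (Sylow p K) := inferInstance
  have hPn : (P : Subgroup K).Normal :=
    (((Group.isNilpotent_of_finite_tfae (G := K)).out 0 3 :
      Group.IsNilpotent K ↔ ∀ (p : ℕ) (_hp : Fact p.Prime) (P : Sylow p K), (P : Subgroup K).Normal)).1 hK p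
      inferInstance P
  have hPne : (P : Subgroup K) ≠ ⊥ := by
    intro h
    obtain ⟨j, hj⟩ := hkp
    have h1 : IsPGroup p (zpowers (⟨k, hk⟩ : K)) := IsPGroup.of_card (n := j) (by
      rw [Nat.card_zpowers, orderOf_mk, hj])
    obtain ⟨P', hP'⟩ := h1.exists_le_sylow
    have h2 : Nat.card P' = Nat.card P := Sylow.card_eq_multiplicity P' |>.trans (Sylow.card_eq_multiplicity P).symm
    have h3 : Nat.card (P : Subgroup K) = 1 := by rw [h, card_bot]
    have h4 : (P' : Subgroup K) = ⊥ := card_eq_one.1 (h2.trans h3)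
    have h5 : (⟨k, hk⟩ : K) ∈ (P' : Subgroup K) := hP' (mem_zpowers _)
    rw [h4, mem_bot] at h5
    exact hk1 (congrArg Subtype.val h5)
  have hne := Cfsg.Agent.Lib.NormalAbelian.normal_inf_center_ne_bot (P : Subgroup K) hPne
  obtain ⟨⟨z, hz⟩, hz0⟩ := ne_bot_iff_exists_ne_one.1 hne
  have hz1 : z ≠ 1 := fun h => hz0 (Subtype.ext h)
  obtain ⟨j, hj⟩ := IsPGroup.iff_orderOf.1 P.2 ⟨z, hz.1⟩
  rw [orderOf_mk] at hj
  have hj0 : j ≠ 0 := by
    rintro rfl
    rw [pow_zero, orderOf_eq_one_iff] at hj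
    exact hz1 hj
  obtain ⟨i, rfl⟩ := Nat.exists_eq_succ_of_ne_zero hj0
  have ho : orderOf (z ^ p ^ i) = p := by
    rw [orderOf_pow_of_dvd (pow_ne_zero _ hp.out.ne_zero) (by rw [hj]; exact pow_dvd_pow _ (Nat.le_succ i)), hj,
      Nat.succ_eq_add_one, pow_succ, Nat.mul_div_cancel_left _ (pow_pos hp.out.pos i)]
  have hzc : z ^ p ^ i ∈ center K := (center K).pow_mem hz.2 _
  refine ⟨((z ^ p ^ i : K) : Q), ⟨(z ^ p ^ i : K).2, fun x hx => ?_, ?_⟩, fun h => ?_⟩
  · have := mem_center_iff.1 hzc ⟨x, hx⟩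
    exact congrArg Subtype.val this
  · have h1 : (z ^ p ^ i) ^ p = 1 := by
      nth_rw 2 [← ho]
      exact pow_orderOf_eq_one _
    exact congrArg Subtype.val h1
  · have h1 : z ^ p ^ i = 1 := Subtype.ext h
    rw [h1, orderOf_one] at ho
    exact hp.out.one_lt.ne ho

/-- The inductive statement. -/
theorem main {m p : ℕ} [hp : Fact p.Prime]
    (hmod : ∀ (V : Type u) [AddCommGroup V] [DistribMulAction (Perm (Fin m)) V], (∀ v : V, p • v = 0) →
      NF m V → ∀ v : V, v = 0)
    (c : alternatingGroup (Fin m)) (hc : c ∉ center (alternatingGroup (Fin m))) (hcp : ∃ k, orderOf c = p ^ k)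
    (D : Subgroup (alternatingGroup (Fin m))) (hD : ∀ d ∈ D, d * c = c * d) (hDs : ¬ Group.IsSolvable D) :
    ∀ (n : ℕ) (H : Type u) [Group H] [Finite H] (_ : Nat.card H = n) (Z₀ : Subgroup H) (_ : Z₀ ≤ center H)
      (_ : ∀ x : H, (∃ k, orderOf x = p ^ k) → x ∉ Z₀ → Group.IsSolvable (centralizer ({x} : Set H)))
      (φ : H →* alternatingGroup (Fin m)) (_ : Function.Surjective φ), False := by
  intro n
  induction n using Nat.strong_induction_on with
  | _ n ih =>
  intro H _ _ hn Z₀ hZ₀ h φ hφ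
  by_cases hcase : ∀ x ∈ φ.ker, (∃ k, orderOf x = p ^ k) → x ∈ center H
  · obtain ⟨y, hy, hyp, hys⟩ := lift_central (c := c) (D := D) hφ hcase hcp hD hDs
    refine hys (h y hyp fun hyZ => hc ?_)
    rw [← hy, mem_center_iff]
    intro g
    obtain ⟨x, rfl⟩ := hφ g
    rw [← map_mul, ← map_mul, mem_center_iff.1 (hZ₀ hyZ) x]
  · push Not at hcase
    obtain ⟨k₀, hk₀, hk₀p, hk₀c⟩ := hcase
    have hk₀Z : k₀ ∉ Z₀ := fun h' => hk₀c (hZ₀ h')
    -- the kernel is contained in the Frattini subgroup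
    have hfr : φ.ker ≤ frattini H := by
      unfold frattini Order.radical
      refine le_iInf₂ fun M hM => ?_
      by_contra hKM
      have htop : M ⊔ φ.ker = ⊤ := hM.2 _ (left_lt_sup.2 hKM)
      have hlt : Nat.card M < n := by
        rw [← hn]
        exact lt_of_le_of_ne (Subgroup.card_le_card_group M) fun h' => hM.1 (Subgroup.card_eq_iff_eq_top M |>.1 h')
      refine ih _ hlt M rfl (Z₀.subgroupOf M) ?_ ?_ (φ.comp M.subtype) ?_
      · intro z hz
        rw [mem_center_iff]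
        exact fun g => Subtype.ext (mem_center_iff.1 (hZ₀ hz) g)
      · rintro x ⟨k, hk⟩ hx
        have h1 := h x ⟨k, by rw [← hk, orderOf_coe]⟩ hx
        refine Group.isSolvable_of_isSolvable_injective
          (f := (M.subtype.comp (centralizer ({x} : Set M)).subtype).codRestrict
            (centralizer ({(x : H)} : Set H)) fun z => ?_) ?_
        · rw [mem_centralizer_singleton_iff]
          exact congrArg Subtype.val (mem_centralizer_singleton_iff.1 z.2)
        · intro a b hab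
          have hab' := congrArg Subtype.val hab
          exact Subtype.ext (Subtype.ext hab')
      · intro s
        obtain ⟨x, rfl⟩ := hφ s
        have hx : x ∈ M ⊔ φ.ker := htop ▸ mem_top x
        obtain ⟨a, ha, b, hb, rfl⟩ := (mem_sup_of_normal_right).1 hx
        refine ⟨⟨a, ha⟩, ?_⟩
        show φ a = φ (a * b)
        rw [map_mul, (MonoidHom.mem_ker).1 hb, mul_one]
    have hKnil : Group.IsNilpotent φ.ker := by
      have h1 : Group.IsNilpotent (frattini H) := frattini_nilpotent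
      exact Group.nilpotent_of_mulEquiv (subgroupOfEquivOfLe hfr)
    -- the quotient by the central subgroup `Z₀ ⊓ ker φ`
    set Z₁ : Subgroup H := Z₀ ⊓ φ.ker with hZ₁
    have hZ₁c : Z₁ ≤ center H := inf_le_left.trans hZ₀
    have hZ₁n : Z₁.Normal := ⟨fun z hz g => by
      rw [mem_center_iff.1 (hZ₁c hz) g, mul_inv_cancel_right]
      exact hz⟩
    set π := QuotientGroup.mk' Z₁ with hπ
    have hπs : Function.Surjective π := QuotientGroup.mk'_surjective Z₁
    set K' : Subgroup (H ⧸ Z₁) := φ.ker.map π with hK'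
    have hK'n : K'.Normal := Normal.map inferInstance π hπs
    have hK'nil : Group.IsNilpotent K' := by
      refine Group.nilpotent_of_surjective ((π.comp φ.ker.subtype).codRestrict K' fun x => ⟨x, x.2, rfl⟩) ?_
      rintro ⟨q, x, hx, rfl⟩
      exact ⟨⟨x, hx⟩, rfl⟩
    have hπk₀ : π k₀ ≠ 1 := fun h' => hk₀Z ((QuotientGroup.eq_one_iff k₀).1 h').1
    obtain ⟨w₀, hw₀, hw₀1⟩ := exists_om K' hK'nil (p := p) (mem_map_of_mem π hk₀) hπk₀ (by
      obtain ⟨k, hk⟩ := hk₀p
      obtain ⟨j, -, hj⟩ := (Nat.dvd_prime_pow hp.out).1 (hk ▸ orderOf_map_dvd π k₀)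
      exact ⟨j, hj⟩)
    -- the module
    have hVn : (Om K' p).Normal := om_normal K' p
    let : CommGroup (Om K' p) := omComm K' p
    let ρ : H →* AddMonoid.End (Additive (Om K' p)) :=
      { toFun := fun x => MonoidHom.toAdditive ((MulAut.conjNormal (π x) : MulAut (Om K' p)).toMonoidHom)
        map_one' := by
          refine AddMonoidHom.ext fun a => ?_
          show Additive.ofMul ((MulAut.conjNormal (π 1) : MulAut (Om K' p)) a.toMul) = a
          rw [map_one, map_one]
          rfl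
        map_mul' := fun x y => by
          refine AddMonoidHom.ext fun a => ?_
          show Additive.ofMul ((MulAut.conjNormal (π (x * y)) : MulAut (Om K' p)) a.toMul) =
            Additive.ofMul ((MulAut.conjNormal (π x) : MulAut (Om K' p))
              ((MulAut.conjNormal (π y) : MulAut (Om K' p)) a.toMul))
          rw [map_mul, map_mul]
          rfl }
    have hρ : ∀ x a, ((ρ x a).toMul : H ⧸ Z₁) = π x * (a.toMul : H ⧸ Z₁) * (π x)⁻¹ := fun x a => rfl
    obtain ⟨a, ha, Y, hY, hfix⟩ := exists_fixed φ ρ (p := p) (A := Additive (Om K' p)) (fun x hx a => by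
      apply Additive.toMul.injective
      apply Subtype.ext
      rw [hρ, a.toMul.2.2.1 _ (mem_map_of_mem π hx), mul_inv_cancel_right]) (fun a => by
      apply Additive.toMul.injective
      apply Subtype.ext
      exact a.toMul.2.2.2) hmod (a₀ := Additive.ofMul ⟨w₀, hw₀⟩) (fun h' => hw₀1 (by
      have := congrArg (fun q : Additive (Om K' p) => (q.toMul : H ⧸ Z₁)) h'
      exact this))
    -- a lift of `p`-power order
    obtain ⟨v₀, hv₀⟩ := hπs (a.toMul : H ⧸ Z₁)
    have ha1 : (a.toMul : H ⧸ Z₁) ≠ 1 := fun h' => ha (by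
      apply Additive.toMul.injective
      exact Subtype.ext h')
    obtain ⟨j, hj1, hj2⟩ := exists_pow_lift π hp.out v₀ (by rw [hv₀]; exact a.toMul.2.2.2)
    rw [hv₀] at hj1
    have hker : v₀ ^ j ∈ φ.ker := by
      obtain ⟨x, hx, hx'⟩ := a.toMul.2.1
      have h1 : π (x⁻¹ * v₀ ^ j) = 1 := by rw [map_mul, map_inv, hj1, hx', inv_mul_cancel]
      have h2 : x⁻¹ * v₀ ^ j ∈ Z₁ := (QuotientGroup.eq_one_iff _).1 h1
      have h3 := φ.ker.mul_mem hx h2.2
      rwa [mul_inv_cancel_left] at h3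
    have hvZ : v₀ ^ j ∉ Z₀ := fun h' => ha1 (by
      rw [← hj1]
      exact (QuotientGroup.eq_one_iff _).2 ⟨h', hker⟩)
    refine not_solvable_of_central (Y.comap φ) (fun hs => hY ?_) (v₀ ^ j) (fun d hd => ?_) (h _ hj2 hvZ)
    · refine Group.isSolvable_of_surjective (f := (φ.comp (Y.comap φ).subtype).codRestrict Y fun x => x.2) ?_
      rintro ⟨y, hy⟩
      obtain ⟨x, rfl⟩ := hφ y
      exact ⟨⟨x, hy⟩, rfl⟩
    · apply hZ₁c
      apply (QuotientGroup.eq_one_iff _).1
      show π (v₀ ^ j * d * (v₀ ^ j)⁻¹ * d⁻¹) = 1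
      have h1 := congrArg (fun q : Additive (Om K' p) => (q.toMul : H ⧸ Z₁)) (hfix d hd)
      simp only [hρ] at h1
      rw [map_mul, map_mul, map_mul, map_inv, map_inv, hj1]
      rw [mul_inv_eq_iff_eq_mul] at h1
      rw [← h1]
      group

end Cfsg.Agent.H196.AltMain
end

-- part: H196/AltElt
section
/-!
# Elements and sections of alternating groups
-/

set_option autoImplicit false

namespace Cfsg.Agent.H196.AltElt

open Subgroup Equiv Cfsg.Agent.H196.AltInd

/-- An element of order dividing `p` of the alternating group of degree `q + 5` commuting with a nonsolvable group. -/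
theorem exists_elt (q p : ℕ) (hq : 3 ≤ q) (hqp : q ∣ 2 * p) :
    ∃ (c : alternatingGroup (Fin (q + 5))) (D : Subgroup (alternatingGroup (Fin (q + 5)))), c ≠ 1 ∧ c ^ p = 1 ∧
      (∀ d ∈ D, d * c = c * d) ∧ ¬ Group.IsSolvable D ∧ Nat.card D ∣ 120 := by
  let e : Fin q ⊕ Fin 5 ≃ Fin (q + 5) := finSumFinEquiv
  let F : Perm (Fin q) × Perm (Fin 5) →* Perm (Fin (q + 5)) :=
    (e.permCongrHom.toMonoidHom).comp (Perm.sumCongrHom (Fin q) (Fin 5))
  have hF : Function.Injective F := by
    intro a b hab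
    exact Perm.sumCongrHom_injective (e.permCongrHom.injective hab)
  have hord : orderOf (finRotate q) = q := by
    rw [(_root_.isCycle_finRotate_of_le (by omega)).orderOf, support_finRotate_of_le (by omega)]
    simp
  let r : Perm (Fin (q + 5)) := F (finRotate q, 1)
  have hr : r ^ q = 1 := by
    show F (finRotate q, 1) ^ q = 1
    have h1 : (finRotate q) ^ q = 1 := orderOf_dvd_iff_pow_eq_one.1 (by rw [hord])
    rw [← map_pow, Prod.pow_mk, one_pow, h1]
    exact map_one F
  have hr2 : r ^ 2 ≠ 1 := by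
    intro h
    have h1 : F ((finRotate q) ^ 2, 1) = 1 := by
      rw [← h]
      show _ = F (finRotate q, 1) ^ 2
      rw [← map_pow, Prod.pow_mk, one_pow]
    have h2 := hF (h1.trans (map_one F).symm)
    have h3 : (finRotate q) ^ 2 = 1 := congrArg Prod.fst h2
    have h4 := orderOf_dvd_of_pow_eq_one h3
    rw [hord] at h4
    have := Nat.le_of_dvd (by norm_num) h4
    omega
  have hsign : r ^ 2 ∈ alternatingGroup (Fin (q + 5)) := by
    rw [Perm.mem_alternatingGroup, map_pow]
    rcases Int.units_eq_one_or (Perm.sign r) with h | h <;> rw [h] <;> rfl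
  let G5 : Perm (Fin 5) →* Perm (Fin (q + 5)) := F.comp (MonoidHom.inr _ _)
  have hG5 : Function.Injective G5 := by
    intro a b hab
    exact congrArg Prod.snd (hF hab)
  have hX : ¬ Group.IsSolvable G5.range := fun h => Perm.not_isSolvable_fin_5
    (Group.isSolvable_of_isSolvable_injective (f := (MonoidHom.ofInjective hG5).toMonoidHom)
      (MonoidHom.ofInjective hG5).injective)
  refine ⟨⟨r ^ 2, hsign⟩, G5.range.comap (alternatingGroup (Fin (q + 5))).subtype, ?_, ?_, ?_, ?_, ?_⟩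
  · exact fun h => hr2 (congrArg Subtype.val h)
  · apply Subtype.ext
    show (r ^ 2) ^ p = 1
    rw [← pow_mul]
    obtain ⟨k, hk⟩ := hqp
    rw [hk, pow_mul, hr, one_pow]
  · rintro ⟨d, hd⟩ ⟨σ, hσ⟩
    apply Subtype.ext
    show d * r ^ 2 = r ^ 2 * d
    have h1 : d = F (1, σ) := hσ.symm
    have h2 : r ^ 2 = F (finRotate q ^ 2, 1) := by
      show F (finRotate q, 1) ^ 2 = _
      rw [← map_pow, Prod.pow_mk, one_pow]
    rw [h1, h2, ← map_mul, ← map_mul, Prod.mk_mul_mk, Prod.mk_mul_mk]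
    simp
  · exact not_solvable_alt _ hX
  · have h1 : Nat.card G5.range = 120 := by
      rw [← Nat.card_congr (MonoidHom.ofInjective hG5).toEquiv, Nat.card_eq_fintype_card, Fintype.card_perm,
        Fintype.card_fin]
      rfl
    rw [← h1]
    let g : (G5.range.comap (alternatingGroup (Fin (q + 5))).subtype) →* G5.range :=
      ((alternatingGroup (Fin (q + 5))).subtype.comp
        (G5.range.comap (alternatingGroup (Fin (q + 5))).subtype).subtype).codRestrict G5.range fun x => x.2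
    refine Subgroup.card_dvd_of_injective g fun a b hab => ?_
    have hab' := congrArg Subtype.val hab
    exact Subtype.ext (Subtype.ext hab')

/-- Sections: smaller alternating groups. -/
theorem exists_section {L : Type*} [Group L] {d m : ℕ} (φ : L →* alternatingGroup (Fin d))
    (hφ : Function.Surjective φ) (hm : m ≤ d) :
    ∃ (H : Subgroup L) (ψ : H →* alternatingGroup (Fin m)), Function.Surjective ψ := by
  let f := Cfsg.Agent.H191.AltElts.embAlt hm
  have hf : Function.Injective f := Cfsg.Agent.H191.AltElts.embAlt_injective hm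
  let g : (f.range.comap φ) →* f.range := (φ.comp (f.range.comap φ).subtype).codRestrict f.range fun x => x.2
  have hg : Function.Surjective g := by
    rintro ⟨s, hs⟩
    obtain ⟨x, rfl⟩ := hφ s
    exact ⟨⟨x, hs⟩, rfl⟩
  refine ⟨f.range.comap φ, ((MonoidHom.ofInjective hf).symm.toMonoidHom).comp g, ?_⟩
  exact (MonoidHom.ofInjective hf).symm.surjective.comp hg

end Cfsg.Agent.H196.AltElt
end

-- part: H196/Key2
section
/-!
# A complete invariant for the cosets of a Sylow 2-subgroup of the symmetric group of degree 9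
-/

set_option autoImplicit false

namespace Cfsg.Agent.H196.Two

open Cfsg.Agent.H196.GA

/-- an injective code of unordered pairs -/
def sp (m a b : ℕ) : ℕ := Nat.add (Nat.mul m (Nat.add a b)) (Nat.mul a b)

theorem sp_inj {m a b a' b' : ℕ} (h1 : a * b < m) (h2 : a' * b' < m) (h : sp m a b = sp m a' b') :
    (a = a' ∧ b = b') ∨ (a = b' ∧ b = a') := by
  have h : m * (a + b) + a * b = m * (a' + b') + a' * b' := h
  have hm : 0 < m := by omega
  have h3 : a * b = a' * b' := by
    have := congrArg (· % m) h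
    simpa [Nat.mul_add_mod, Nat.mod_eq_of_lt h1, Nat.mod_eq_of_lt h2] using this
  have h4 : a + b = a' + b' := by
    rw [h3] at h
    exact Nat.eq_of_mul_eq_mul_left hm (Nat.add_right_cancel h)
  have h5 : ((a : ℤ) - a') * ((a : ℤ) - b') = 0 := by
    have h3' : (a : ℤ) * b = a' * b' := by exact_mod_cast h3
    have h4' : (a : ℤ) + b = a' + b' := by exact_mod_cast h4
    linear_combination (a : ℤ) * h4' - h3'
  rcases mul_eq_zero.1 h5 with h6 | h6
  · left
    omega
  · right
    omega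

theorem sp_lt {m a b k : ℕ} (hk : a < k) (hk' : b < k) (h : k * k ≤ m) : sp m a b < m * (2 * k) := by
  have h0 : sp m a b = m * (a + b) + a * b := rfl
  have h1 : a * b < k * k := Nat.mul_lt_mul'' hk hk'
  have h2 : m * (a + b) + m ≤ m * (2 * k) := by
    rw [← Nat.mul_succ]
    exact Nat.mul_le_mul_left _ (by omega)
  omega

/-- the digit of the product of `h` and `x` (`p = 16 ^ i`) -/
def D (h x p : ℕ) : ℕ := Nat.mod (Nat.div h (Nat.pow 16 (Nat.mod (Nat.div x p) 16))) 16

/-- the key of the product of `h` and `x` -/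
def key (h x : ℕ) : ℕ :=
  sp 0x1000000000000000000000
    (sp 0x4000000 (sp 256 (D h x 1) (D h x 16)) (sp 256 (D h x 256) (D h x 4096)))
    (sp 0x4000000 (sp 256 (D h x 65536) (D h x 0x100000)) (sp 256 (D h x 0x1000000) (D h x 0x10000000)))

/-- pairs -/
def kA (c i : ℕ) : ℕ := sp 256 (dig c i) (dig c (i + 1))

/-- pairs of pairs -/
def kB (c i : ℕ) : ℕ := sp 0x4000000 (kA c i) (kA c (i + 2))

/-- the key of a code -/
def kC (c : ℕ) : ℕ := sp 0x1000000000000000000000 (kB c 0) (kB c 4)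

theorem key_eq (h x : ℕ) : key h x = kC (comp h x) := by
  have h0 : ∀ i < 10, ∀ p, p = 16 ^ i → D h x p = dig (comp h x) i := by
    rintro i hi p rfl
    rw [dig_comp h x hi]
    rfl
  simp only [key, kC, kB, kA]
  rw [h0 0 (by norm_num) _ (by norm_num), h0 1 (by norm_num) _ (by norm_num), h0 2 (by norm_num) _ (by norm_num),
    h0 3 (by norm_num) _ (by norm_num), h0 4 (by norm_num) _ (by norm_num), h0 5 (by norm_num) _ (by norm_num),
    h0 6 (by norm_num) _ (by norm_num), h0 7 (by norm_num) _ (by norm_num)]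

theorem kA_lt (c i : ℕ) : kA c i < 8192 := by
  have h := sp_lt (m := 256) (dig_lt c i) (dig_lt c (i + 1)) (by norm_num)
  unfold kA
  omega

theorem kB_lt (c i : ℕ) : kB c i < 0x4000000 * 16384 := by
  have h := sp_lt (m := 0x4000000) (kA_lt c i) (kA_lt c (i + 2)) (by norm_num)
  unfold kB
  omega

/-- generators of the 2-group of order 128 -/
def T : List ℕ := [0x9876543201, 0x9876542310, 0x9876453210, 0x9867543210, 0x9876541032, 0x9854763210, 0x9832107654]

variable {V : Type*} [AddCommGroup V] [DistribMulAction (Equiv.Perm (Fin 9)) V]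

/-- modify a code by a generator -/
theorem exists_comp {v : V} (h : ∀ x ∈ T, Fx 9 x v) {c : ℕ} (t : ℕ) (hc : okc 9 c = true) (ht : t ∈ T) :
    ∃ c₁, okc 9 c₁ = true ∧ toPerm 9 c₁ • v = toPerm 9 c • v ∧ ∀ i < 9, dig c₁ i = dig c (dig t i) := by
  have ht' : okc 9 t = true := by
    revert t
    decide
  obtain ⟨h1, h2⟩ := comp_ok (by norm_num) hc ht'
  refine ⟨comp c t, h1, ?_, fun i hi => dig_comp c t (by omega)⟩
  rw [h2, mul_smul]
  exact congrArg _ (h t ht)

theorem swapC {v : V} (h : ∀ x ∈ T, Fx 9 x v) {c c' : ℕ} (hc' : okc 9 c' = true) (hk : kC c = kC c') :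
    ∃ c₁, okc 9 c₁ = true ∧ toPerm 9 c₁ • v = toPerm 9 c' • v ∧ kB c 0 = kB c₁ 0 ∧ kB c 4 = kB c₁ 4 := by
  have hb : ∀ c, kB c 0 * kB c 4 < 0x1000000000000000000000 := fun c =>
    (Nat.mul_lt_mul'' (kB_lt c 0) (kB_lt c 4)).trans_le (by norm_num)
  rcases sp_inj (hb c) (hb c') hk with ⟨h1, h2⟩ | ⟨h1, h2⟩
  · exact ⟨c', hc', rfl, h1, h2⟩
  · obtain ⟨c₁, h3, h4, h5⟩ := exists_comp h 0x9832107654 hc' (by decide)
    have e0 : dig c₁ 0 = dig c' 4 := h5 0 (by norm_num)
    have e1 : dig c₁ 1 = dig c' 5 := h5 1 (by norm_num)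
    have e2 : dig c₁ 2 = dig c' 6 := h5 2 (by norm_num)
    have e3 : dig c₁ 3 = dig c' 7 := h5 3 (by norm_num)
    have e4 : dig c₁ 4 = dig c' 0 := h5 4 (by norm_num)
    have e5 : dig c₁ 5 = dig c' 1 := h5 5 (by norm_num)
    have e6 : dig c₁ 6 = dig c' 2 := h5 6 (by norm_num)
    have e7 : dig c₁ 7 = dig c' 3 := h5 7 (by norm_num)
    refine ⟨c₁, h3, h4, ?_, ?_⟩
    · rw [h1]
      simp only [kB, kA, Nat.reduceAdd, e0, e1, e2, e3]
    · rw [h2]
      simp only [kB, kA, Nat.reduceAdd, e4, e5, e6, e7]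

theorem swapB {v : V} (h : ∀ x ∈ T, Fx 9 x v) (i t : ℕ) (ht : t ∈ T) (hi : i + 3 < 9) (t0 : dig t i = i + 2)
    (t1 : dig t (i + 1) = i + 3) (t2 : dig t (i + 2) = i) (t3 : dig t (i + 3) = i + 1)
    (tj : ∀ j < 9, (j < i ∨ i + 4 ≤ j) → dig t j = j) {c c' : ℕ} (hc' : okc 9 c' = true)
    (hk : kB c i = kB c' i) :
    ∃ c₁, okc 9 c₁ = true ∧ toPerm 9 c₁ • v = toPerm 9 c' • v ∧ kA c i = kA c₁ i ∧ kA c (i + 2) = kA c₁ (i + 2) ∧
      ∀ j < 9, (j < i ∨ i + 4 ≤ j) → dig c₁ j = dig c' j := by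
  have hb : ∀ c, kA c i * kA c (i + 2) < 0x4000000 := fun c =>
    (Nat.mul_lt_mul'' (kA_lt c i) (kA_lt c (i + 2))).trans_le (by norm_num)
  rcases sp_inj (hb c) (hb c') hk with ⟨h1, h2⟩ | ⟨h1, h2⟩
  · exact ⟨c', hc', rfl, h1, h2, fun _ _ _ => rfl⟩
  · obtain ⟨c₁, h3, h4, h5⟩ := exists_comp h t hc' ht
    have e0 := h5 i (by omega)
    have e1 := h5 (i + 1) (by omega)
    have e2 := h5 (i + 2) (by omega)
    have e3 := h5 (i + 3) (by omega)
    rw [t0] at e0
    rw [t1] at e1
    rw [t2] at e2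
    rw [t3] at e3
    refine ⟨c₁, h3, h4, ?_, ?_, fun j hj hj' => by rw [h5 j hj, tj j hj hj']⟩
    · rw [h1]
      simp only [kA, e0, e1, add_assoc, Nat.reduceAdd]
    · rw [h2]
      simp only [kA, e2, e3, add_assoc, Nat.reduceAdd]

theorem swapA {v : V} (h : ∀ x ∈ T, Fx 9 x v) (i t : ℕ) (ht : t ∈ T) (hi : i + 1 < 9) (t0 : dig t i = i + 1)
    (t1 : dig t (i + 1) = i) (tj : ∀ j < 9, (j < i ∨ i + 2 ≤ j) → dig t j = j) {c c' : ℕ}
    (hc' : okc 9 c' = true) (hk : kA c i = kA c' i) :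
    ∃ c₁, okc 9 c₁ = true ∧ toPerm 9 c₁ • v = toPerm 9 c' • v ∧ dig c i = dig c₁ i ∧
      dig c (i + 1) = dig c₁ (i + 1) ∧ ∀ j < 9, (j < i ∨ i + 2 ≤ j) → dig c₁ j = dig c' j := by
  have hb : ∀ c, dig c i * dig c (i + 1) < 256 := fun c =>
    (Nat.mul_lt_mul'' (dig_lt c i) (dig_lt c (i + 1))).trans_le (by norm_num)
  rcases sp_inj (hb c) (hb c') hk with ⟨h1, h2⟩ | ⟨h1, h2⟩
  · exact ⟨c', hc', rfl, h1, h2, fun _ _ _ => rfl⟩
  · obtain ⟨c₁, h3, h4, h5⟩ := exists_comp h t hc' ht
    have e0 := h5 i (by omega)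
    have e1 := h5 (i + 1) (by omega)
    rw [t0] at e0
    rw [t1] at e1
    exact ⟨c₁, h3, h4, by rw [h1, e0], by rw [h2, e1], fun j hj hj' => by rw [h5 j hj, tj j hj hj']⟩

theorem smul_eq_of_kC {v : V} (h : ∀ x ∈ T, Fx 9 x v) {c c' : ℕ} (hc : okc 9 c = true) (hc' : okc 9 c' = true)
    (hk : kC c = kC c') : toPerm 9 c • v = toPerm 9 c' • v := by
  obtain ⟨c1, o1, s1, b0, b4⟩ := swapC h hc' hk
  obtain ⟨c2, o2, s2, a0, a2, r2⟩ := swapB h 0 0x9876541032 (by decide) (by norm_num) (by decide) (by decide)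
    (by decide) (by decide) (by decide) o1 b0
  have b4' : kB c 4 = kB c2 4 := by
    rw [b4]
    simp only [kB, kA, Nat.reduceAdd]
    rw [r2 4 (by norm_num) (by norm_num), r2 5 (by norm_num) (by norm_num), r2 6 (by norm_num) (by norm_num),
      r2 7 (by norm_num) (by norm_num)]
  obtain ⟨c3, o3, s3, a4, a6, r3⟩ := swapB h 4 0x9854763210 (by decide) (by norm_num) (by decide) (by decide)
    (by decide) (by decide) (by decide) o2 b4'
  have a0' : kA c 0 = kA c3 0 := by
    rw [a0]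
    simp only [kA, Nat.reduceAdd]
    rw [r3 0 (by norm_num) (by norm_num), r3 1 (by norm_num) (by norm_num)]
  have a2' : kA c 2 = kA c3 2 := by
    have := a2
    simp only [Nat.reduceAdd] at this
    rw [this]
    simp only [kA, Nat.reduceAdd]
    rw [r3 2 (by norm_num) (by norm_num), r3 3 (by norm_num) (by norm_num)]
  have a6' : kA c 6 = kA c3 6 := a6
  obtain ⟨c4, o4, s4, d0, d1, r4⟩ := swapA h 0 0x9876543201 (by decide) (by norm_num) (by decide) (by decide)
    (by decide) o3 a0'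
  have a2'' : kA c 2 = kA c4 2 := by
    rw [a2']
    simp only [kA, Nat.reduceAdd]
    rw [r4 2 (by norm_num) (by norm_num), r4 3 (by norm_num) (by norm_num)]
  obtain ⟨c5, o5, s5, d2, d3, r5⟩ := swapA h 2 0x9876542310 (by decide) (by norm_num) (by decide) (by decide)
    (by decide) o4 a2''
  have a4'' : kA c 4 = kA c5 4 := by
    rw [a4]
    simp only [kA, Nat.reduceAdd]
    rw [r5 4 (by norm_num) (by norm_num), r5 5 (by norm_num) (by norm_num), r4 4 (by norm_num) (by norm_num),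
      r4 5 (by norm_num) (by norm_num)]
  obtain ⟨c6, o6, s6, d4, d5, r6⟩ := swapA h 4 0x9876453210 (by decide) (by norm_num) (by decide) (by decide)
    (by decide) o5 a4''
  have a6'' : kA c 6 = kA c6 6 := by
    rw [a6']
    simp only [kA, Nat.reduceAdd]
    rw [r6 6 (by norm_num) (by norm_num), r6 7 (by norm_num) (by norm_num), r5 6 (by norm_num) (by norm_num),
      r5 7 (by norm_num) (by norm_num), r4 6 (by norm_num) (by norm_num), r4 7 (by norm_num) (by norm_num)]
  obtain ⟨c7, o7, s7, d6, d7, r7⟩ := swapA h 6 0x9867543210 (by decide) (by norm_num) (by decide) (by decide)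
    (by decide) o6 a6''
  have hd : ∀ i < 8, dig c i = dig c7 i := by
    intro i hi
    interval_cases i
    · rw [d0, r7 0 (by norm_num) (by norm_num), r6 0 (by norm_num) (by norm_num), r5 0 (by norm_num) (by norm_num)]
    · rw [show dig c 1 = dig c4 1 from d1, r7 1 (by norm_num) (by norm_num), r6 1 (by norm_num) (by norm_num),
        r5 1 (by norm_num) (by norm_num)]
    · rw [d2, r7 2 (by norm_num) (by norm_num), r6 2 (by norm_num) (by norm_num)]
    · rw [show dig c 3 = dig c5 3 from d3, r7 3 (by norm_num) (by norm_num), r6 3 (by norm_num) (by norm_num)]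
    · rw [d4, r7 4 (by norm_num) (by norm_num)]
    · rw [show dig c 5 = dig c6 5 from d5, r7 5 (by norm_num) (by norm_num)]
    · exact d6
    · exact d7
  have h8 : dig c 8 = dig c7 8 := by
    obtain ⟨i, hi, hi'⟩ := ((okc_iff 9 c7).1 o7).2 (dig c 8) (((okc_iff 9 c).1 hc).1 8 (by norm_num))
    rcases Nat.lt_succ_iff_lt_or_eq.1 hi with h1 | h1
    · rw [← hd i h1] at hi'
      have := (bij_of_ok hc).1 (a₁ := ⟨i, by omega⟩) (a₂ := ⟨8, by omega⟩) (Fin.ext hi')
      rw [Fin.mk.injEq] at this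
      omega
    · rw [← hi', h1]
  have hperm : toPerm 9 c = toPerm 9 c7 := by
    ext i
    rw [toPerm_apply hc, toPerm_apply o7]
    rcases Nat.lt_succ_iff_lt_or_eq.1 i.2 with h1 | h1
    · exact hd i h1
    · rw [h1]
      exact h8
  rw [hperm, s7, s6, s5, s4, s3, s2, s1]

/-- **The key is a complete invariant of the translates of a vector fixed by `T`.** -/
theorem keyOK {v : V} (h : ∀ x ∈ T, Fx 9 x v) : KeyOK 9 v key := by
  classical
  refine ⟨fun k => if hk : ∃ c, okc 9 c = true ∧ kC c = k then toPerm 9 (Classical.choose hk) • v else 0,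
    fun c x hc hx => ?_⟩
  obtain ⟨h1, h2⟩ := comp_ok (by norm_num) hc hx
  have h3 : ∃ c', okc 9 c' = true ∧ kC c' = key c x := ⟨_, h1, (key_eq c x).symm⟩
  simp only
  rw [dif_pos h3, ← mul_smul, ← h2]
  obtain ⟨h4, h5⟩ := Classical.choose_spec h3
  exact smul_eq_of_kC h h4 h1 (h5.trans (key_eq c x))

end Cfsg.Agent.H196.Two
end

-- part: H196/TwoData
section
/-!
# Certificate for the prime 2 (degree 9)

`rels` are orbit sums of nonsolvable subgroups on the cosets of a 2-subgroup of order 128 of the symmetric group of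
degree 9, and `terms` expresses the trivial coset as a sum of translates of them.
-/

set_option autoImplicit false

namespace Cfsg.Agent.H196.Two

open Cfsg.Agent.H196.GA


/-- relation 0 -/
def r0 : FS :=
  [(1, 0x9876543210), (1, 0x9805764321), (1, 0x9876543021), (1, 0x9876513204), (1, 0x9876514320), (1, 0x9876503214),
  (1, 0x9876543120), (1, 0x9876524310), (1, 0x9876523014), (1, 0x9876523104), (1, 0x9815764230), (1, 0x9805764231),
  (1, 0x9876532104), (1, 0x9876534120), (1, 0x9876534210)]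

/-- relation 1 -/
def r1 : FS :=
  [(1, 0x9087654321), (1, 0x9187654032), (1, 0x9187654320), (1, 0x9243108765), (1, 0x9287654130), (1, 0x9287654031),
  (1, 0x9340218765), (1, 0x9341208765), (1, 0x9087654231), (1, 0x9342108765), (1, 0x9087654132), (1, 0x9432108765),
  (1, 0x9431208765), (1, 0x9187654230), (1, 0x9430218765)]

/-- relation 2 -/
def r2 : FS :=
  [(1, 0x9653421087), (1, 0x9654302187), (1, 0x9687543021), (1, 0x9650413287), (1, 0x9653108742), (1, 0x9641320587),
  (1, 0x9651208743), (1, 0x9654213087), (1, 0x9687514320), (1, 0x9652310487), (1, 0x9652403187), (1, 0x9650328741),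
  (1, 0x9687534210), (1, 0x9640318752), (1, 0x9651432087)]

/-- relation 3 -/
def r3 : FS :=
  [(1, 0x9865423107), (1, 0x9806534217), (1, 0x9853412607), (1, 0x9872531064), (1, 0x9864523017), (1, 0x9873642105),
  (1, 0x9815764230), (1, 0x9872413605), (1, 0x9851432706), (1, 0x9874503216), (1, 0x9874632015), (1, 0x9873524016),
  (1, 0x9821746530), (1, 0x9862541073), (1, 0x9816754320), (1, 0x9875403126), (1, 0x9875324106), (1, 0x9820765431),
  (1, 0x9876435210), (1, 0x9817654032), (1, 0x9807546321)]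

/-- relation 4 -/
def r4 : FS :=
  [(1, 0x9865423017), (1, 0x9806534127), (1, 0x9853412706), (1, 0x9873521064), (1, 0x9865304217), (1, 0x9864521073),
  (1, 0x9874632105), (1, 0x9876514320), (1, 0x9872534106), (1, 0x9863502174), (1, 0x9820765143), (1, 0x9875403216),
  (1, 0x9807625431), (1, 0x9873645210), (1, 0x9817654230), (1, 0x9875321604), (1, 0x9862543107), (1, 0x9805746321),
  (1, 0x9876432015), (1, 0x9816754032), (1, 0x9807543126)]

/-- relation 5 -/
def r5 : FS :=
  [(1, 0x9210876543), (1, 0x9321876540), (1, 0x9021876543), (1, 0x9432876510), (1, 0x9320876541), (1, 0x9132876540),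
  (1, 0x9120876543), (1, 0x9087432165), (1, 0x9430876521), (1, 0x9431876520), (1, 0x9310876542), (1, 0x9210654387),
  (1, 0x9230876541), (1, 0x9231876540), (1, 0x9104876532), (1, 0x9187432065), (1, 0x9014876532), (1, 0x9024876531),
  (1, 0x9465302187), (1, 0x9304876521), (1, 0x9314876520), (1, 0x9031876542), (1, 0x9324876510), (1, 0x9032876541),
  (1, 0x9214876530), (1, 0x9204876531), (1, 0x9124876530), (1, 0x9130876542), (1, 0x9465312087), (1, 0x9465321087)]

/-- relation 6 -/
def r6 : FS :=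
  [(1, 0x9087654321), (1, 0x9187654032), (1, 0x9542310687), (1, 0x9243108765), (1, 0x9432158760), (1, 0x9542308761),
  (1, 0x9340218765), (1, 0x9206875431), (1, 0x9087614325), (1, 0x9541308762), (1, 0x9087645321), (1, 0x9432108765),
  (1, 0x9306875142), (1, 0x9316875042), (1, 0x9126875340), (1, 0x9531208764), (1, 0x9541208763), (1, 0x9026875341),
  (1, 0x9106875432), (1, 0x9452308761), (1, 0x9430158762), (1, 0x9321058764), (1, 0x9287635410), (1, 0x9087634125),
  (1, 0x9187635420), (1, 0x9216875043), (1, 0x9187645320), (1, 0x9287645031), (1, 0x9452108763), (1, 0x9326875140)]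

/-- relation 7 -/
def r7 : FS :=
  [(1, 0x9187654320), (1, 0x9287654031), (1, 0x9452310687), (1, 0x9342108765), (1, 0x9206875143), (1, 0x9016875342),
  (1, 0x9430218765), (1, 0x9306875421), (1, 0x9316875240), (1, 0x9187625430), (1, 0x9530218764), (1, 0x9087654132),
  (1, 0x9106875342), (1, 0x9432058761), (1, 0x9453108762), (1, 0x9351208764), (1, 0x9241058763), (1, 0x9541320687),
  (1, 0x9216875430), (1, 0x9087624315), (1, 0x9187643205), (1, 0x9087635421), (1, 0x9543208761), (1, 0x9326875041),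
  (1, 0x9287645310), (1, 0x9187634025), (1, 0x9540318762), (1, 0x9542108763), (1, 0x9087645231), (1, 0x9451208763)]

/-- relation 8 -/
def r8 : FS :=
  [(1, 0x9310876542), (1, 0x9465302187), (1, 0x9321068754), (1, 0x9032876541), (1, 0x9106534287), (1, 0x9432168750),
  (1, 0x9187432065), (1, 0x9541068732), (1, 0x9230876154), (1, 0x9087514326), (1, 0x9105876432), (1, 0x9204876531),
  (1, 0x9431876052), (1, 0x9520168743), (1, 0x9341876250), (1, 0x9246108753), (1, 0x9125876340), (1, 0x9531268740),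
  (1, 0x9215876043), (1, 0x9087425316), (1, 0x9031876452), (1, 0x9420876351), (1, 0x9563421087), (1, 0x9325876140),
  (1, 0x9130876254), (1, 0x9564302187), (1, 0x9036218754), (1, 0x9426108753), (1, 0x9320876451), (1, 0x9205634187)]

/-- relation 9 -/
def r9 : FS :=
  [(1, 0x9643210875), (1, 0x9640321875), (1, 0x9642310785), (1, 0x9643102875), (1, 0x9651320784), (1, 0x9642301785),
  (1, 0x9640218375), (1, 0x9654312807), (1, 0x9652431708), (1, 0x9641308572), (1, 0x9653210874), (1, 0x9632108475),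
  (1, 0x9651420783), (1, 0x9650421783), (1, 0x9653401872), (1, 0x9631208574), (1, 0x9641208573), (1, 0x9653410872),
  (1, 0x9654321870), (1, 0x9652301784), (1, 0x9651302784), (1, 0x9650218374), (1, 0x9654102873), (1, 0x9652410873),
  (1, 0x9654201873), (1, 0x9650432817), (1, 0x9653201874), (1, 0x9650312874), (1, 0x9652108473), (1, 0x9651402783)]

/-- relation 10 -/
def r10 : FS :=
  [(1, 0x9643201875), (1, 0x9640312875), (1, 0x9652310784), (1, 0x9642108375), (1, 0x9651432807), (1, 0x9653421708),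
  (1, 0x9630218475), (1, 0x9654210783), (1, 0x9652401783), (1, 0x9654301872), (1, 0x9630218574), (1, 0x9641320875),
  (1, 0x9653421807), (1, 0x9650321784), (1, 0x9653108472), (1, 0x9651208374), (1, 0x9650412873), (1, 0x9641320785),
  (1, 0x9654302817), (1, 0x9643150872), (1, 0x9650321874), (1, 0x9654210873), (1, 0x9643201785), (1, 0x9650412783),
  (1, 0x9653102874), (1, 0x9652401873), (1, 0x9640318572), (1, 0x9642108573), (1, 0x9652310874), (1, 0x9651208473)]

/-- relation 11 -/
def r11 : FS :=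
  [(1, 0x9765432018), (1, 0x9765403128), (1, 0x9784523106), (1, 0x9742381065), (1, 0x9706514328), (1, 0x9761420853),
  (1, 0x9765213084), (1, 0x9706543821), (1, 0x9761523804), (1, 0x9762301854), (1, 0x9764213085), (1, 0x9765324108),
  (1, 0x9760421853), (1, 0x9761503284), (1, 0x9762531084), (1, 0x9764201583), (1, 0x9763412805), (1, 0x9785413206),
  (1, 0x9761302854), (1, 0x9762514308), (1, 0x9764503218), (1, 0x9763542108), (1, 0x9761432085), (1, 0x9762413805),
  (1, 0x9764532810), (1, 0x9763521804), (1, 0x9762403185), (1, 0x9758421063), (1, 0x9764310852), (1, 0x9763201584)]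

/-- relation 12 -/
def r12 : FS :=
  [(1, 0x9876543210), (1, 0x9875312064), (1, 0x9018654327), (1, 0x9873402615), (1, 0x9085734216), (1, 0x9108745236),
  (1, 0x9028176354), (1, 0x9821746530), (1, 0x9087645321), (1, 0x9107534826), (1, 0x9214765308), (1, 0x9138067254),
  (1, 0x9084523176), (1, 0x9872634105), (1, 0x9853421706), (1, 0x9032867451), (1, 0x9186754230), (1, 0x9216057438),
  (1, 0x9342187650), (1, 0x9416087532), (1, 0x9543170862), (1, 0x9207865431), (1, 0x9185432076), (1, 0x9075624138),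
  (1, 0x9807524316), (1, 0x9132876540), (1, 0x9215876043), (1, 0x9341078265), (1, 0x9427108653), (1, 0x9531280674),
  (1, 0x9643281075), (1, 0x9564321807), (1, 0x9327086451), (1, 0x9765423108), (1, 0x9437186052), (1, 0x9316875420),
  (1, 0x9431268750), (1, 0x9548301672), (1, 0x9236187540), (1, 0x9173642805), (1, 0x9230178564), (1, 0x9304865217),
  (1, 0x9458210763), (1, 0x9540218376), (1, 0x9650321784), (1, 0x9536108742), (1, 0x9762301854), (1, 0x9438201765),
  (1, 0x9752381064), (1, 0x9763482015), (1, 0x9210846537), (1, 0x9637210854), (1, 0x9674532018), (1, 0x9640318572),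
  (1, 0x9537208641), (1, 0x9310856247), (1, 0x9761532804), (1, 0x9451302876), (1, 0x9321067548), (1, 0x9652413087),
  (1, 0x9741320685), (1, 0x9651380742), (1, 0x9750432186)]

/-- the relations -/
def rels : List FS := [r0, r1, r2, r3, r4, r5, r6, r7, r8, r9, r10, r11, r12]

/-- terms, part 0 -/
def t0 : List (ℕ × ℕ × ℕ) :=
  [(1, 0x9018427536, 0), (1, 0x9213768450, 0), (1, 0x9817432056, 0), (1, 0x9250487136, 0), (1, 0x9475031682, 0),
  (1, 0x9087514263, 1), (1, 0x9307256148, 0), (1, 0x9736185024, 0), (1, 0x9361745820, 0), (1, 0x9675341280, 1),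
  (1, 0x9140638257, 1), (1, 0x9806314572, 0), (1, 0x9681407532, 1), (1, 0x9384706521, 0), (1, 0x9784102635, 0),
  (1, 0x9856730241, 0), (1, 0x9347081652, 1), (1, 0x9623751048, 0), (1, 0x9712645380, 0), (1, 0x9761485320, 0),
  (1, 0x9427506318, 0), (1, 0x9653470182, 0), (1, 0x9548762130, 0), (1, 0x9381460725, 0), (1, 0x9420137685, 1),
  (1, 0x9213064875, 0), (1, 0x9045813726, 0), (1, 0x9436821507, 0), (1, 0x9048521673, 0), (1, 0x9031487256, 1),
  (1, 0x9217645038, 0), (1, 0x9583470261, 0), (1, 0x9527401386, 0), (1, 0x9083162745, 0), (1, 0x9186405372, 0),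
  (1, 0x9136250478, 1), (1, 0x9634572801, 0), (1, 0x9571206843, 0), (1, 0x9725046831, 0), (1, 0x9823416570, 0),
  (1, 0x9321864057, 0), (1, 0x9346528017, 1), (1, 0x9362145870, 1), (1, 0x9723061548, 0), (1, 0x9730816524, 0),
  (1, 0x9586073142, 0), (1, 0x9620148753, 1), (1, 0x9817524630, 0), (1, 0x9240713586, 0), (1, 0x9321460758, 1),
  (1, 0x9187023645, 0), (1, 0x9276408531, 1), (1, 0x9306815274, 0), (1, 0x9543261087, 0), (1, 0x9641832750, 0),
  (1, 0x9056437218, 1), (1, 0x9810362745, 0), (1, 0x9267450813, 0), (1, 0x9850614723, 0), (1, 0x9678325014, 1),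
  (1, 0x9875046123, 1), (1, 0x9230847156, 0), (1, 0x9162483750, 0), (1, 0x9857632104, 0), (1, 0x9678210543, 1),
  (1, 0x9853702146, 0), (1, 0x9413086257, 0), (1, 0x9820153674, 0), (1, 0x9176238504, 0), (1, 0x9580621734, 1),
  (1, 0x9652438071, 0), (1, 0x9872650134, 1), (1, 0x9246837015, 0), (1, 0x9275416038, 1), (1, 0x9687324501, 0),
  (1, 0x9164730258, 0), (1, 0x9258046713, 0), (1, 0x9583270416, 0), (1, 0x9204371856, 0), (1, 0x9106584273, 0),
  (1, 0x9542078316, 0), (1, 0x9572048136, 0), (1, 0x9617345280, 1), (1, 0x9350641728, 0), (1, 0x9058721364, 0),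
  (1, 0x9780153462, 0), (1, 0x9763418520, 0), (1, 0x9460185372, 0), (1, 0x9821370654, 0), (1, 0x9486023517, 0),
  (1, 0x9716280345, 0), (1, 0x9463521078, 1), (1, 0x9351640827, 0), (1, 0x9367180452, 0), (1, 0x9205764381, 0),
  (1, 0x9586174320, 0), (1, 0x9578164032, 0), (1, 0x9284607153, 0), (1, 0x9430517268, 0), (1, 0x9503462187, 0),
  (1, 0x9870156432, 0), (1, 0x9643018275, 0), (1, 0x9043512876, 0), (1, 0x9543082761, 0), (1, 0x9745018263, 0),
  (1, 0x9356201784, 0), (1, 0x9154826730, 0), (1, 0x9485071263, 0), (1, 0x9418203675, 0), (1, 0x9160482573, 0),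
  (1, 0x9845073126, 0), (1, 0x9348650712, 0), (1, 0x9546870231, 0), (1, 0x9051248673, 0), (1, 0x9780214356, 1),
  (1, 0x9750183462, 0), (1, 0x9846572031, 0), (1, 0x9854602137, 0), (1, 0x9517428063, 0), (1, 0x9347286510, 1),
  (1, 0x9637524018, 0), (1, 0x9507321486, 1), (1, 0x9874105326, 0), (1, 0x9876415203, 0), (1, 0x9846305712, 0),
  (1, 0x9427018536, 0), (1, 0x9768043251, 0), (1, 0x9372085416, 1), (1, 0x9250864317, 0), (1, 0x9652803417, 0),
  (1, 0x9861530274, 0), (1, 0x9146275083, 0), (1, 0x9578064132, 0), (1, 0x9143827650, 0), (1, 0x9803456127, 1),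
  (1, 0x9682410753, 0), (1, 0x9361074528, 0), (1, 0x9052814736, 0), (1, 0x9315027486, 0), (1, 0x9502671843, 0),
  (1, 0x9532476810, 0), (1, 0x9320784561, 0), (1, 0x9583617024, 0), (1, 0x9304587261, 0), (1, 0x9286037415, 0),
  (1, 0x9213478065, 0), (1, 0x9738062145, 0), (1, 0x9245083167, 0), (1, 0x9247581603, 1), (1, 0x9630852741, 0),
  (1, 0x9573186402, 0), (1, 0x9513628740, 0), (1, 0x9574120683, 0), (1, 0x9628731450, 0), (1, 0x9523681407, 0),
  (1, 0x9514627308, 0), (1, 0x9802543761, 0), (1, 0x9865247013, 0), (1, 0x9834271605, 0), (1, 0x9301452867, 0),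
  (1, 0x9462730185, 0), (1, 0x9562840317, 0), (1, 0x9854261073, 0), (1, 0x9782453016, 0), (1, 0x9451873260, 0),
  (1, 0x9275084361, 1), (1, 0x9145063827, 0), (1, 0x9704582136, 0), (1, 0x9105473628, 0), (1, 0x9827165034, 0),
  (1, 0x9170345628, 0), (1, 0x9254378106, 0), (1, 0x9876340152, 0), (1, 0x9028164753, 0), (1, 0x9607538214, 1),
  (1, 0x9214756803, 0), (1, 0x9708451623, 0), (1, 0x9718436520, 0), (1, 0x9675240183, 1), (1, 0x9138407652, 0),
  (1, 0x9103768245, 0), (1, 0x9403852167, 0), (1, 0x9654832107, 0), (1, 0x9504127368, 0), (1, 0x9326051487, 0),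
  (1, 0x9714056283, 1), (1, 0x9318726504, 0), (1, 0x9083671542, 0), (1, 0x9485723610, 0), (1, 0x9201543867, 0),
  (1, 0x9854732106, 0), (1, 0x9306248715, 0), (1, 0x9427136508, 1), (1, 0x9810672435, 0), (1, 0x9061743825, 0),
  (1, 0x9538061724, 0), (1, 0x9260184573, 0), (1, 0x9178436250, 0), (1, 0x9831576042, 1), (1, 0x9502864173, 0),
  (1, 0x9753264081, 0), (1, 0x9014327685, 1), (1, 0x9351876402, 0), (1, 0x9734106825, 0), (1, 0x9650421738, 0),
  (1, 0x9821435067, 0), (1, 0x9632845701, 0), (1, 0x9351042768, 1), (1, 0x9516247038, 0), (1, 0x9823746105, 0),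
  (1, 0x9204318765, 1), (1, 0x9102854673, 0), (1, 0x9412678035, 1), (1, 0x9824730615, 0), (1, 0x9347501682, 0),
  (1, 0x9461280573, 1), (1, 0x9135826704, 0), (1, 0x9208614735, 0), (1, 0x9013265748, 0), (1, 0x9762310458, 0),
  (1, 0x9815243607, 1), (1, 0x9720436815, 0), (1, 0x9408157326, 0), (1, 0x9526718430, 0), (1, 0x9673214850, 1),
  (1, 0x9235478160, 0), (1, 0x9612745308, 1), (1, 0x9564107283, 0), (1, 0x9214650837, 0), (1, 0x9762504318, 0),
  (1, 0x9213584760, 0), (1, 0x9324785016, 1), (1, 0x9865432017, 0), (1, 0x9528713604, 0), (1, 0x9543107862, 0),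
  (1, 0x9062438157, 0), (1, 0x9183067524, 0), (1, 0x9438125607, 0), (1, 0x9384175620, 1), (1, 0x9108567423, 0),
  (1, 0x9710486325, 0), (1, 0x9840625731, 0), (1, 0x9280145376, 0), (1, 0x9215760843, 0), (1, 0x9748236015, 0),
  (1, 0x9412780536, 0), (1, 0x9563182704, 1), (1, 0x9042381756, 0), (1, 0x9827013564, 0), (1, 0x9257601438, 0),
  (1, 0x9024785136, 0), (1, 0x9638107245, 0), (1, 0x9857261430, 0), (1, 0x9374605128, 0), (1, 0x9054736821, 0),
  (1, 0x9032786451, 0), (1, 0x9120638574, 1), (1, 0x9536047128, 0), (1, 0x9657021384, 1), (1, 0x9487516302, 0),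
  (1, 0x9237681045, 0), (1, 0x9036481257, 0), (1, 0x9865304217, 1), (1, 0x9168027453, 0), (1, 0x9527831046, 0),
  (1, 0x9508236714, 1), (1, 0x9738105462, 0), (1, 0x9742058163, 0), (1, 0x9615238704, 0), (1, 0x9624130785, 0),
  (1, 0x9360571428, 0), (1, 0x9534687102, 0), (1, 0x9376408215, 0), (1, 0x9053416872, 1), (1, 0x9581024367, 0),
  (1, 0x9748506123, 1), (1, 0x9302814576, 0), (1, 0x9678523014, 1), (1, 0x9732658014, 0), (1, 0x9167580342, 0),
  (1, 0x9186502734, 0), (1, 0x9547283610, 0), (1, 0x9752468310, 0), (1, 0x9365180274, 0), (1, 0x9507418326, 0),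
  (1, 0x9018524367, 1), (1, 0x9780532641, 0), (1, 0x9746208351, 1), (1, 0x9165408237, 1), (1, 0x9782654301, 0),
  (1, 0x9347086251, 0), (1, 0x9162837405, 0), (1, 0x9815234706, 0), (1, 0x9130824567, 0), (1, 0x9370625184, 1),
  (1, 0x9124308765, 0), (1, 0x9648120357, 1), (1, 0x9731084562, 0), (1, 0x9731460285, 0), (1, 0x9035241678, 0),
  (1, 0x9506718342, 0), (1, 0x9362710548, 0), (1, 0x9274810356, 0), (1, 0x9275361480, 0), (1, 0x9750381642, 0),
  (1, 0x9641078253, 0), (1, 0x9435728016, 0), (1, 0x9453820617, 0), (1, 0x9764805321, 0), (1, 0x9670352148, 0),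
  (1, 0x9537024186, 0), (1, 0x9154203867, 0), (1, 0x9837504612, 0), (1, 0x9856013427, 0), (1, 0x9678253140, 0),
  (1, 0x9047852631, 1), (1, 0x9145763208, 1), (1, 0x9214507836, 0), (1, 0x9304615782, 0), (1, 0x9140723658, 0),
  (1, 0x9540187263, 1), (1, 0x9305128674, 1), (1, 0x9603521748, 0), (1, 0x9718354026, 0), (1, 0x9487152306, 0),
  (1, 0x9342605718, 1), (1, 0x9356784021, 0), (1, 0x9230758146, 0), (1, 0x9614385270, 0), (1, 0x9523708416, 0),
  (1, 0x9024613578, 0), (1, 0x9187340652, 0), (1, 0x9275834160, 0), (1, 0x9647510823, 1), (1, 0x9624583017, 0),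
  (1, 0x9068247513, 0), (1, 0x9281453760, 1), (1, 0x9162758304, 0), (1, 0x9352760148, 0), (1, 0x9214087635, 0),
  (1, 0x9471325806, 0), (1, 0x9521478603, 0), (1, 0x9520431867, 0), (1, 0x9032658741, 1), (1, 0x9801256437, 0),
  (1, 0x9125847036, 0), (1, 0x9568703412, 0), (1, 0x9325048617, 0), (1, 0x9704165328, 0), (1, 0x9817054362, 0)]

/-- terms, part 1 -/
def t1 : List (ℕ × ℕ × ℕ) :=
  [(1, 0x9257461380, 0), (1, 0x9601243857, 0), (1, 0x9731256084, 0), (1, 0x9318520674, 0), (1, 0x9160783542, 0),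
  (1, 0x9370614285, 0), (1, 0x9432165078, 0), (1, 0x9715243086, 0), (1, 0x9143708652, 0), (1, 0x9476831205, 0),
  (1, 0x9638520417, 0), (1, 0x9208341567, 1), (1, 0x9371250648, 0), (1, 0x9124706853, 0), (1, 0x9075216483, 1),
  (1, 0x9150872643, 1), (1, 0x9875230641, 1), (1, 0x9375812640, 0), (1, 0x9710843562, 0), (1, 0x9074631258, 0),
  (1, 0x9172634850, 0), (1, 0x9160328475, 0), (1, 0x9032567814, 1), (1, 0x9827603415, 0), (1, 0x9706825413, 1),
  (1, 0x9674015328, 1), (1, 0x9425630187, 0), (1, 0x9576238410, 0), (1, 0x9281530746, 0), (1, 0x9782315406, 1),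
  (1, 0x9317586402, 0), (1, 0x9785012463, 0), (1, 0x9470621835, 0), (1, 0x9837652401, 0), (1, 0x9102465387, 0),
  (1, 0x9071358426, 0), (1, 0x9462831570, 1), (1, 0x9071842536, 0), (1, 0x9581403276, 1), (1, 0x9358012467, 0),
  (1, 0x9582076134, 1), (1, 0x9530286714, 0), (1, 0x9207863415, 0), (1, 0x9514028376, 0), (1, 0x9804751362, 0),
  (1, 0x9273584601, 0), (1, 0x9014652837, 1), (1, 0x9385120476, 0), (1, 0x9841276053, 0), (1, 0x9263540781, 0),
  (1, 0x9615824037, 1), (1, 0x9638247150, 0), (1, 0x9364107852, 0), (1, 0x9270538641, 0), (1, 0x9372140685, 0),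
  (1, 0x9751243806, 1), (1, 0x9528301746, 0), (1, 0x9451372680, 0), (1, 0x9146803257, 0), (1, 0x9153768240, 1),
  (1, 0x9234805176, 0), (1, 0x9368725041, 1), (1, 0x9038714256, 1), (1, 0x9061542783, 1), (1, 0x9843765102, 0),
  (1, 0x9324710685, 0), (1, 0x9045238617, 0), (1, 0x9637051428, 0), (1, 0x9387102645, 1), (1, 0x9863751420, 0),
  (1, 0x9758604132, 0), (1, 0x9378026415, 1), (1, 0x9170264835, 0), (1, 0x9548261730, 1), (1, 0x9581704236, 0),
  (1, 0x9521036874, 0), (1, 0x9861035742, 0), (1, 0x9574068321, 1), (1, 0x9473580162, 1), (1, 0x9521063478, 1),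
  (1, 0x9651328470, 0), (1, 0x9473562018, 0), (1, 0x9251460783, 0), (1, 0x9253146078, 0), (1, 0x9345708126, 0),
  (1, 0x9648317520, 0), (1, 0x9270836145, 1), (1, 0x9354127086, 0), (1, 0x9230146857, 0), (1, 0x9821045763, 0),
  (1, 0x9286507134, 0), (1, 0x9516372840, 0), (1, 0x9371650842, 0), (1, 0x9386210475, 0), (1, 0x9382041765, 0),
  (1, 0x9471083256, 0), (1, 0x9865142037, 0), (1, 0x9704683521, 1), (1, 0x9053471682, 0), (1, 0x9015634728, 0),
  (1, 0x9487051632, 0), (1, 0x9365482071, 0), (1, 0x9413702865, 0), (1, 0x9473215608, 0), (1, 0x9807516324, 0),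
  (1, 0x9378560214, 0), (1, 0x9401852763, 1), (1, 0x9157642803, 0), (1, 0x9256401783, 0), (1, 0x9084567321, 1),
  (1, 0x9763082145, 0), (1, 0x9352617408, 0), (1, 0x9604518732, 0), (1, 0x9157604832, 1), (1, 0x9543167802, 1),
  (1, 0x9432587601, 0), (1, 0x9618745320, 0), (1, 0x9273450618, 0), (1, 0x9657041823, 0), (1, 0x9730156482, 0),
  (1, 0x9478261530, 0), (1, 0x9045621738, 1), (1, 0x9872316045, 0), (1, 0x9450283716, 1), (1, 0x9756801234, 0),
  (1, 0x9732156084, 0), (1, 0x9614702583, 0), (1, 0x9024873156, 1), (1, 0x9016354827, 0), (1, 0x9024653781, 1),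
  (1, 0x9023617485, 0), (1, 0x9358712604, 0), (1, 0x9874531260, 0), (1, 0x9628541703, 1), (1, 0x9418507362, 0),
  (1, 0x9671534820, 0), (1, 0x9321560847, 0), (1, 0x9470583261, 0), (1, 0x9746103825, 1), (1, 0x9203586741, 1),
  (1, 0x9025681743, 0), (1, 0x9405132786, 0), (1, 0x9758306421, 0), (1, 0x9025318674, 0), (1, 0x9245716803, 0),
  (1, 0x9571024638, 0), (1, 0x9024876531, 0), (1, 0x9037215684, 1), (1, 0x9568324071, 0), (1, 0x9583146072, 1),
  (1, 0x9574812630, 0), (1, 0x9842063715, 0), (1, 0x9285346017, 0), (1, 0x9240635871, 1), (1, 0x9602173548, 0),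
  (1, 0x9326874501, 0), (1, 0x9380725416, 0), (1, 0x9321074685, 1), (1, 0x9354621870, 0), (1, 0x9462058731, 0),
  (1, 0x9832076415, 0), (1, 0x9153684207, 0), (1, 0x9718046532, 0), (1, 0x9647851203, 1), (1, 0x9185064237, 1),
  (1, 0x9850314627, 1), (1, 0x9460731285, 0), (1, 0x9064518723, 0), (1, 0x9281376405, 0), (1, 0x9182765340, 0),
  (1, 0x9368572410, 0), (1, 0x9730481265, 0), (1, 0x9280537146, 0), (1, 0x9416830725, 0), (1, 0x9657130824, 0),
  (1, 0x9430271685, 0), (1, 0x9650723184, 0), (1, 0x9348560721, 1), (1, 0x9421375608, 0), (1, 0x9063581724, 1),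
  (1, 0x9756230418, 0), (1, 0x9241803765, 2), (1, 0x9268057143, 2), (1, 0x9024861357, 2), (1, 0x9068531742, 2),
  (1, 0x9246078531, 2), (1, 0x9157402863, 2), (1, 0x9841756302, 2), (1, 0x9156342708, 2), (1, 0x9348572106, 2),
  (1, 0x9570431862, 2), (1, 0x9876153402, 2), (1, 0x9387540612, 2), (1, 0x9578406312, 2), (1, 0x9716240835, 2),
  (1, 0x9073651428, 2), (1, 0x9127385046, 2), (1, 0x9084651327, 2), (1, 0x9615204387, 2), (1, 0x9475168230, 2),
  (1, 0x9452630781, 2), (1, 0x9627134850, 2), (1, 0x9325740186, 2), (1, 0x9703481526, 2), (1, 0x9352807641, 2),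
  (1, 0x9318756402, 2), (1, 0x9742358610, 2), (1, 0x9872345106, 2), (1, 0x9017864523, 2), (1, 0x9520341768, 2),
  (1, 0x9732416085, 2), (1, 0x9057318264, 2), (1, 0x9785163204, 2), (1, 0x9417623058, 2), (1, 0x9543218706, 2),
  (1, 0x9805136472, 2), (1, 0x9650742831, 2), (1, 0x9085416732, 2), (1, 0x9148752630, 2), (1, 0x9820764531, 2),
  (1, 0x9324056871, 2), (1, 0x9547863210, 2), (1, 0x9478125603, 2), (1, 0x9736014825, 2), (1, 0x9587341026, 2),
  (1, 0x9521480367, 2), (1, 0x9732451086, 2), (1, 0x9183627045, 2), (1, 0x9403268571, 2), (1, 0x9621753084, 2),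
  (1, 0x9345268710, 2), (1, 0x9724061853, 2), (1, 0x9135846270, 2), (1, 0x9014652837, 2), (1, 0x9235471680, 2),
  (1, 0x9601534287, 2), (1, 0x9763850241, 2), (1, 0x9815703624, 2), (1, 0x9781502436, 2), (1, 0x9715468023, 2),
  (1, 0x9856031742, 2), (1, 0x9817360542, 2), (1, 0x9462813507, 2), (1, 0x9104627583, 2), (1, 0x9130654278, 2),
  (1, 0x9683124750, 2), (1, 0x9137046582, 2), (1, 0x9358647120, 2), (1, 0x9380175624, 2), (1, 0x9401567823, 2),
  (1, 0x9054123876, 2), (1, 0x9725486031, 2), (1, 0x9074512836, 2), (1, 0x9062318457, 2), (1, 0x9134087256, 2),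
  (1, 0x9053682714, 2), (1, 0x9870234615, 2), (1, 0x9184506237, 2), (1, 0x9687021453, 2), (1, 0x9657280134, 2),
  (1, 0x9173562048, 2), (1, 0x9860473125, 2), (1, 0x9702456813, 2), (1, 0x9417280635, 2), (1, 0x9741852630, 2),
  (1, 0x9056238471, 2), (1, 0x9312075846, 2), (1, 0x9470312658, 2), (1, 0x9458021673, 2), (1, 0x9607321485, 2),
  (1, 0x9301427685, 2), (1, 0x9082516473, 2), (1, 0x9054726381, 2), (1, 0x9817635402, 2), (1, 0x9310257864, 2),
  (1, 0x9013265847, 2), (1, 0x9518746302, 2), (1, 0x9513724806, 2), (1, 0x9530786412, 2), (1, 0x9842305671, 2),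
  (1, 0x9124038765, 2), (1, 0x9637502841, 2), (1, 0x9026385471, 2), (1, 0x9352176840, 2), (1, 0x9246308751, 2),
  (1, 0x9027146835, 2), (1, 0x9786045312, 2), (1, 0x9327164085, 2), (1, 0x9514278360, 2), (1, 0x9316802745, 2),
  (1, 0x9340726518, 2), (1, 0x9158462730, 2), (1, 0x9521786304, 2), (1, 0x9873254601, 2), (1, 0x9146720835, 2),
  (1, 0x9486517230, 2), (1, 0x9760384215, 2), (1, 0x9603814725, 2), (1, 0x9678041523, 2), (1, 0x9746280153, 2),
  (1, 0x9086321574, 2), (1, 0x9541378620, 2), (1, 0x9351027648, 2), (1, 0x9860245317, 2), (1, 0x9352167804, 2),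
  (1, 0x9674821503, 2), (1, 0x9410875623, 2), (1, 0x9724015638, 2), (1, 0x9375164082, 2), (1, 0x9376548012, 2),
  (1, 0x9708316425, 2), (1, 0x9058371462, 2), (1, 0x9028453716, 2), (1, 0x9365187240, 2), (1, 0x9467158032, 2),
  (1, 0x9520186743, 2), (1, 0x9701652384, 2), (1, 0x9652871043, 2), (1, 0x9861230547, 2), (1, 0x9507241863, 2),
  (1, 0x9815763402, 2), (1, 0x9465038217, 2), (1, 0x9473865120, 2), (1, 0x9287043561, 2), (1, 0x9634021578, 2),
  (1, 0x9471825360, 2), (1, 0x9165340287, 2), (1, 0x9678015342, 2), (1, 0x9438270516, 2), (1, 0x9732568140, 2),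
  (1, 0x9354718026, 2), (1, 0x9421763805, 2), (1, 0x9461705823, 2), (1, 0x9430716258, 2), (1, 0x9205341876, 2),
  (1, 0x9752813460, 2), (1, 0x9803472156, 2), (1, 0x9820176453, 2), (1, 0x9742135680, 2), (1, 0x9658230741, 2),
  (1, 0x9361502478, 2), (1, 0x9836174025, 2), (1, 0x9534028671, 2), (1, 0x9845231076, 2), (1, 0x9837405612, 2),
  (1, 0x9214870356, 2), (1, 0x9832647015, 2), (1, 0x9180652743, 2), (1, 0x9876403215, 2), (1, 0x9603527184, 2)]

/-- terms, part 2 -/
def t2 : List (ℕ × ℕ × ℕ) :=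
  [(1, 0x9042158763, 2), (1, 0x9482731650, 2), (1, 0x9641257083, 2), (1, 0x9183524670, 2), (1, 0x9510867423, 2),
  (1, 0x9125037468, 2), (1, 0x9047231865, 2), (1, 0x9280564731, 2), (1, 0x9841536027, 2), (1, 0x9204168753, 2),
  (1, 0x9730148652, 2), (1, 0x9810243675, 2), (1, 0x9671058342, 2), (1, 0x9607253418, 2), (1, 0x9405321876, 2),
  (1, 0x9654017283, 2), (1, 0x9847326105, 2), (1, 0x9274165038, 2), (1, 0x9475018362, 2), (1, 0x9817346205, 2),
  (1, 0x9704386251, 2), (1, 0x9645203781, 2), (1, 0x9301564287, 2), (1, 0x9823167405, 2), (1, 0x9034671285, 2),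
  (1, 0x9106547382, 2), (1, 0x9571346208, 2), (1, 0x9563214870, 2), (1, 0x9243761058, 2), (1, 0x9587134206, 2),
  (1, 0x9834716520, 2), (1, 0x9634287510, 2), (1, 0x9814736052, 2), (1, 0x9704153682, 2), (1, 0x9213764850, 2),
  (1, 0x9046135278, 2), (1, 0x9465108327, 2), (1, 0x9320168754, 2), (1, 0x9258763104, 2), (1, 0x9346082715, 2),
  (1, 0x9520184367, 2), (1, 0x9045123876, 2), (1, 0x9420387156, 2), (1, 0x9768241053, 2), (1, 0x9420587316, 10),
  (1, 0x9305268741, 6), (1, 0x9514738620, 10), (1, 0x9231056478, 9), (1, 0x9172648530, 8), (1, 0x9762038451, 8),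
  (1, 0x9823746105, 10), (1, 0x9087345261, 9), (1, 0x9074612385, 11), (1, 0x9064178325, 11), (1, 0x9207134586, 6),
  (1, 0x9530721684, 9), (1, 0x9527041638, 8), (1, 0x9780426531, 6), (1, 0x9610734852, 7), (1, 0x9825670341, 8),
  (1, 0x9642137805, 10), (1, 0x9342851760, 10), (1, 0x9624107853, 10), (1, 0x9427035186, 10), (1, 0x9382054176, 10),
  (1, 0x9842015637, 8), (1, 0x9435802617, 7), (1, 0x9415823706, 7), (1, 0x9237401586, 11), (1, 0x9634152870, 8),
  (1, 0x9680457312, 11), (1, 0x9876504231, 8), (1, 0x9834016572, 8), (1, 0x9074538216, 11), (1, 0x9452618703, 9),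
  (1, 0x9720154836, 9), (1, 0x9478520163, 11), (1, 0x9456871023, 8), (1, 0x9416708352, 11), (1, 0x9870465231, 10),
  (1, 0x9736024815, 10), (1, 0x9420685713, 7), (1, 0x9410573286, 7), (1, 0x9705286413, 10), (1, 0x9501427386, 8),
  (1, 0x9742153086, 8), (1, 0x9310428576, 6), (1, 0x9608234571, 9), (1, 0x9135064782, 8), (1, 0x9362540781, 6),
  (1, 0x9465021783, 6), (1, 0x9743051628, 6), (1, 0x9106237548, 10), (1, 0x9721456830, 11), (1, 0x9832507164, 6),
  (1, 0x9874012635, 6), (1, 0x9281637450, 6), (1, 0x9527640381, 9), (1, 0x9063547812, 11), (1, 0x9817206345, 6),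
  (1, 0x9462107538, 6), (1, 0x9610372458, 8), (1, 0x9640852137, 10), (1, 0x9528416037, 8), (1, 0x9278410356, 8),
  (1, 0x9065412378, 6), (1, 0x9817420653, 9), (1, 0x9425013876, 6), (1, 0x9213740856, 7), (1, 0x9074386152, 8),
  (1, 0x9162784503, 10), (1, 0x9243608751, 9), (1, 0x9604183275, 8), (1, 0x9157683024, 6), (1, 0x9137652084, 9),
  (1, 0x9517063248, 6), (1, 0x9813652740, 11), (1, 0x9210847536, 9), (1, 0x9648571203, 7), (1, 0x9765412083, 10),
  (1, 0x9273805146, 7), (1, 0x9564872103, 6), (1, 0x9347018526, 6), (1, 0x9243810675, 9), (1, 0x9461802357, 6),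
  (1, 0x9053462817, 6), (1, 0x9203486175, 9), (1, 0x9286147350, 9), (1, 0x9705863214, 11), (1, 0x9084532671, 6),
  (1, 0x9836712405, 6), (1, 0x9245130876, 11), (1, 0x9578201463, 11), (1, 0x9471563028, 6), (1, 0x9350472681, 9),
  (1, 0x9745861302, 11), (1, 0x9567328104, 11), (1, 0x9032861754, 6), (1, 0x9480157623, 11), (1, 0x9386752104, 11),
  (1, 0x9736142058, 9), (1, 0x9015467283, 9), (1, 0x9407235186, 9), (1, 0x9273540186, 6), (1, 0x9804176325, 10),
  (1, 0x9431608275, 9), (1, 0x9175362084, 9), (1, 0x9437051286, 9), (1, 0x9038514726, 8), (1, 0x9138045672, 11),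
  (1, 0x9137520648, 11), (1, 0x9521863047, 9), (1, 0x9062475318, 6), (1, 0x9273064185, 7), (1, 0x9372804165, 6),
  (1, 0x9057183426, 11), (1, 0x9743120865, 11), (1, 0x9256087341, 11), (1, 0x9124835760, 8), (1, 0x9487061523, 9),
  (1, 0x9673280145, 9), (1, 0x9281546370, 11), (1, 0x9058162437, 11), (1, 0x9340267158, 11), (1, 0x9482653170, 9),
  (1, 0x9253104876, 7), (1, 0x9803672145, 8), (1, 0x9452768301, 11), (1, 0x9403687521, 11), (1, 0x9863172054, 8),
  (1, 0x9841720635, 6), (1, 0x9361807524, 11), (1, 0x9354802671, 9), (1, 0x9865037124, 9), (1, 0x9678251043, 9),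
  (1, 0x9367584201, 6), (1, 0x9064287531, 10), (1, 0x9671325408, 9), (1, 0x9317805462, 9), (1, 0x9165208437, 10),
  (1, 0x9413752068, 6), (1, 0x9312470685, 8), (1, 0x9217568043, 9), (1, 0x9704631582, 6), (1, 0x9420367518, 11),
  (1, 0x9063871254, 7), (1, 0x9274031586, 6), (1, 0x9604781523, 8), (1, 0x9167048325, 11), (1, 0x9457306218, 8),
  (1, 0x9273568410, 11), (1, 0x9587462013, 11), (1, 0x9816503742, 7), (1, 0x9362508417, 6), (1, 0x9625810347, 6),
  (1, 0x9768302514, 8), (1, 0x9834126075, 11), (1, 0x9017243658, 9), (1, 0x9803526741, 8), (1, 0x9870521364, 8),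
  (1, 0x9054378612, 7), (1, 0x9237615804, 11), (1, 0x9243561807, 7), (1, 0x9081564372, 8), (1, 0x9436825071, 9),
  (1, 0x9865217340, 7), (1, 0x9561847203, 8), (1, 0x9743610582, 11), (1, 0x9810372564, 11), (1, 0x9541827306, 11),
  (1, 0x9142750863, 8), (1, 0x9862501374, 9), (1, 0x9326571408, 10), (1, 0x9634815072, 9), (1, 0x9620543178, 7),
  (1, 0x9734812560, 11), (1, 0x9630145287, 11), (1, 0x9503876241, 9), (1, 0x9047213685, 11), (1, 0x9431680725, 9),
  (1, 0x9143578260, 11), (1, 0x9402675138, 7), (1, 0x9731865240, 8), (1, 0x9680523741, 11), (1, 0x9427836510, 11),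
  (1, 0x9217438560, 11), (1, 0x9614370258, 11), (1, 0x9352417860, 6), (1, 0x9715368420, 10), (1, 0x9852413760, 9),
  (1, 0x9864037215, 6), (1, 0x9427163850, 9), (1, 0x9341258706, 6), (1, 0x9017265438, 6), (1, 0x9087216345, 10),
  (1, 0x9620547813, 8), (1, 0x9307251846, 6), (1, 0x9843726105, 8), (1, 0x9458173206, 10), (1, 0x9827031564, 11),
  (1, 0x9760318245, 9), (1, 0x9680451327, 8), (1, 0x9815603274, 11), (1, 0x9480321765, 10), (1, 0x9843761502, 6),
  (1, 0x9682431705, 11), (1, 0x9357426810, 8), (1, 0x9640178325, 10), (1, 0x9780263514, 7), (1, 0x9318076452, 9),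
  (1, 0x9148706253, 6), (1, 0x9438021567, 11), (1, 0x9108453267, 11), (1, 0x9087631524, 11), (1, 0x9340672581, 11),
  (1, 0x9230851467, 8), (1, 0x9863417502, 8), (1, 0x9102386574, 6), (1, 0x9316078524, 10), (1, 0x9276041853, 8),
  (1, 0x9635821047, 9), (1, 0x9417602853, 6), (1, 0x9402387165, 9), (1, 0x9421536087, 11), (1, 0x9562810473, 8),
  (1, 0x9052168374, 11), (1, 0x9561378420, 10), (1, 0x9217845306, 9), (1, 0x9305684721, 7), (1, 0x9741832056, 9),
  (1, 0x9683107245, 7), (1, 0x9036427581, 9), (1, 0x9574283610, 11), (1, 0x9376285041, 8), (1, 0x9517830264, 6),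
  (1, 0x9431756082, 7), (1, 0x9082674153, 7), (1, 0x9130786425, 11), (1, 0x9870613245, 8), (1, 0x9470568123, 8),
  (1, 0x9748612503, 6), (1, 0x9576384210, 9), (1, 0x9642735081, 6), (1, 0x9756103482, 8), (1, 0x9165780324, 11),
  (1, 0x9605281473, 11), (1, 0x9703528614, 11), (1, 0x9716830254, 9), (1, 0x9376810452, 11), (1, 0x9645817203, 10),
  (1, 0x9740831652, 9), (1, 0x9734681205, 8), (1, 0x9207416385, 9), (1, 0x9851764203, 10), (1, 0x9356721408, 9),
  (1, 0x9813547206, 9), (1, 0x9218563704, 11), (1, 0x9578613024, 9), (1, 0x9870452631, 10), (1, 0x9714305682, 6),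
  (1, 0x9267580413, 7), (1, 0x9768312054, 8), (1, 0x9062583417, 8), (1, 0x9523164780, 11), (1, 0x9386752140, 6),
  (1, 0x9576143280, 8), (1, 0x9754803621, 8), (1, 0x9016328574, 11), (1, 0x9340671285, 8), (1, 0x9702643185, 11),
  (1, 0x9467238150, 6), (1, 0x9146850723, 9), (1, 0x9845730162, 8), (1, 0x9873214056, 8), (1, 0x9263805714, 7),
  (1, 0x9243085617, 11), (1, 0x9802175643, 11), (1, 0x9178054632, 8), (1, 0x9461583207, 11), (1, 0x9574016238, 9),
  (1, 0x9746381502, 6), (1, 0x9840531276, 6), (1, 0x9860143752, 7), (1, 0x9841372605, 11), (1, 0x9261574038, 6),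
  (1, 0x9574832610, 6), (1, 0x9502761843, 9), (1, 0x9251384607, 9), (1, 0x9406238571, 6), (1, 0x9630247815, 7),
  (1, 0x9720145368, 8), (1, 0x9827401365, 11), (1, 0x9213064785, 10), (1, 0x9847625130, 8), (1, 0x9240167385, 7),
  (1, 0x9120386574, 8), (1, 0x9126087534, 9), (1, 0x9106784325, 6), (1, 0x9437856012, 9), (1, 0x9521374860, 11),
  (1, 0x9176528034, 11), (1, 0x9804632517, 6), (1, 0x9167284503, 11), (1, 0x9053618274, 11), (1, 0x9243617085, 11),
  (1, 0x9632154078, 9), (1, 0x9087563142, 7), (1, 0x9380267451, 9), (1, 0x9526741308, 6), (1, 0x9806273451, 10)]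

/-- terms, part 3 -/
def t3 : List (ℕ × ℕ × ℕ) :=
  [(1, 0x9041358267, 8), (1, 0x9405721683, 6), (1, 0x9846735012, 6), (1, 0x9582167340, 6), (1, 0x9214630578, 6),
  (1, 0x9380762451, 9), (1, 0x9471623805, 11), (1, 0x9238641705, 8), (1, 0x9685043721, 9), (1, 0x9057246138, 11),
  (1, 0x9430165278, 9), (1, 0x9078234516, 8), (1, 0x9673104285, 6), (1, 0x9201348765, 8), (1, 0x9645180723, 7),
  (1, 0x9431765280, 8), (1, 0x9430816572, 10), (1, 0x9085326741, 7), (1, 0x9520673184, 8), (1, 0x9405876312, 9),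
  (1, 0x9075814263, 6), (1, 0x9052437861, 11), (1, 0x9806724135, 7), (1, 0x9270681345, 10), (1, 0x9146853207, 9),
  (1, 0x9023187564, 8), (1, 0x9526837401, 6), (1, 0x9384207651, 9), (1, 0x9856170423, 10), (1, 0x9275180643, 11),
  (1, 0x9230154678, 11), (1, 0x9476820315, 11), (1, 0x9130247685, 10), (1, 0x9514602873, 6), (1, 0x9618253074, 9),
  (1, 0x9764102358, 6), (1, 0x9207561438, 11), (1, 0x9304762581, 6), (1, 0x9154068372, 6), (1, 0x9603258147, 6),
  (1, 0x9643712580, 10), (1, 0x9241753806, 8), (1, 0x9182403765, 9), (1, 0x9875216430, 8), (1, 0x9867153024, 6),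
  (1, 0x9601385247, 9), (1, 0x9734650128, 7), (1, 0x9025874613, 9), (1, 0x9508243716, 6), (1, 0x9043815726, 11),
  (1, 0x9134502786, 8), (1, 0x9238704156, 6), (1, 0x9387412065, 9), (1, 0x9610483275, 6), (1, 0x9087652341, 10),
  (1, 0x9254031687, 8), (1, 0x9831702654, 10), (1, 0x9453216780, 8), (1, 0x9364280157, 11), (1, 0x9638052147, 8),
  (1, 0x9234150687, 11), (1, 0x9156287340, 8), (1, 0x9345216807, 11), (1, 0x9812054637, 7), (1, 0x9671520348, 10),
  (1, 0x9127560438, 6), (1, 0x9210486753, 9), (1, 0x9465078123, 8), (1, 0x9876321504, 10), (1, 0x9320154786, 8),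
  (1, 0x9764018235, 11), (1, 0x9820361745, 11), (1, 0x9604581723, 9), (1, 0x9520476381, 11), (1, 0x9136054287, 8),
  (1, 0x9024781653, 10), (1, 0x9385712064, 11), (1, 0x9276084531, 6), (1, 0x9635124807, 8), (1, 0x9482156370, 6),
  (1, 0x9572384106, 7), (1, 0x9820573461, 7), (1, 0x9782154063, 11), (1, 0x9762153084, 11), (1, 0x9584176032, 11),
  (1, 0x9068251743, 8), (1, 0x9378651420, 9), (1, 0x9517834620, 11), (1, 0x9236087415, 9), (1, 0x9310674825, 6),
  (1, 0x9810635247, 11), (1, 0x9687302541, 7), (1, 0x9308254761, 9), (1, 0x9601732485, 8), (1, 0x9243076185, 6),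
  (1, 0x9504216738, 11), (1, 0x9417852063, 11), (1, 0x9407263185, 11), (1, 0x9524837610, 8), (1, 0x9082356471, 8),
  (1, 0x9240786531, 6), (1, 0x9038157246, 8), (1, 0x9206583174, 7), (1, 0x9854230761, 8), (1, 0x9852467130, 8),
  (1, 0x9014382765, 9), (1, 0x9630715428, 10), (1, 0x9603548217, 6), (1, 0x9175034682, 6), (1, 0x9630712854, 6),
  (1, 0x9207583614, 8), (1, 0x9270681543, 11), (1, 0x9154726308, 11), (1, 0x9270138654, 8), (1, 0x9175368240, 9),
  (1, 0x9754128360, 9), (1, 0x9438016257, 9), (1, 0x9084326571, 11), (1, 0x9861475320, 11), (1, 0x9520671843, 6),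
  (1, 0x9518024736, 11), (1, 0x9056428317, 8), (1, 0x9214568073, 8), (1, 0x9375821460, 11), (1, 0x9156382740, 7),
  (1, 0x9703416285, 11), (1, 0x9178526034, 10), (1, 0x9735120468, 9), (1, 0x9057421836, 11), (1, 0x9735402618, 9),
  (1, 0x9607183542, 7), (1, 0x9843076152, 11), (1, 0x9263518470, 7), (1, 0x9845603217, 10), (1, 0x9845763210, 9),
  (1, 0x9126743508, 7), (1, 0x9267504318, 6), (1, 0x9680745123, 8), (1, 0x9015624378, 11), (1, 0x9328614750, 9),
  (1, 0x9301864527, 8), (1, 0x9835120746, 7), (1, 0x9850713462, 6), (1, 0x9514603728, 9), (1, 0x9145326087, 7),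
  (1, 0x9567431028, 9), (1, 0x9380452176, 10), (1, 0x9817245036, 10), (1, 0x9741028365, 8), (1, 0x9075312468, 9),
  (1, 0x9721504368, 9), (1, 0x9016875234, 9), (1, 0x9105247683, 8), (1, 0x9368752401, 8), (1, 0x9817250436, 6),
  (1, 0x9357086412, 6), (1, 0x9014637582, 10), (1, 0x9028643517, 11), (1, 0x9802416537, 11), (1, 0x9250147863, 7),
  (1, 0x9347218650, 6), (1, 0x9052438167, 10), (1, 0x9187620354, 8), (1, 0x9852701346, 11), (1, 0x9861372405, 6),
  (1, 0x9623704185, 6), (1, 0x9715480632, 5), (1, 0x9504136278, 5), (1, 0x9645273081, 5), (1, 0x9687012345, 5),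
  (1, 0x9162758403, 5), (1, 0x9042578361, 5), (1, 0x9574832106, 5), (1, 0x9340215786, 5), (1, 0x9328450716, 5),
  (1, 0x9501324876, 5), (1, 0x9216530748, 5), (1, 0x9538261470, 5), (1, 0x9015247863, 5), (1, 0x9743108562, 5),
  (1, 0x9803216754, 5), (1, 0x9136708542, 5), (1, 0x9708154362, 5), (1, 0x9204531786, 5), (1, 0x9134826507, 5),
  (1, 0x9613502748, 5), (1, 0x9385027641, 5), (1, 0x9108456372, 5), (1, 0x9235108647, 5), (1, 0x9457302168, 5),
  (1, 0x9081725364, 5), (1, 0x9682534017, 5), (1, 0x9782643015, 5), (1, 0x9328514670, 5), (1, 0x9583462701, 5),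
  (1, 0x9360721854, 5), (1, 0x9170438625, 5), (1, 0x9621387504, 5), (1, 0x9604813572, 5), (1, 0x9706234158, 5),
  (1, 0x9437681502, 5), (1, 0x9612435870, 5), (1, 0x9748523601, 5), (1, 0x9754368120, 12), (1, 0x9471083652, 12),
  (1, 0x9052641378, 12), (1, 0x9830256147, 12), (1, 0x9023574618, 12), (1, 0x9785023641, 12), (1, 0x9826701534, 12),
  (1, 0x9643250817, 12), (1, 0x9573280164, 12), (1, 0x9075312648, 12), (1, 0x9574862130, 12), (1, 0x9207318564, 12),
  (1, 0x9527108643, 12), (1, 0x9265037148, 12), (1, 0x9126458730, 12), (1, 0x9508423167, 12), (1, 0x9037516842, 12),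
  (1, 0x9260785314, 12), (1, 0x9082315674, 12), (1, 0x9163072485, 12), (1, 0x9610538724, 12), (1, 0x9572641083, 12),
  (1, 0x9283705641, 12), (1, 0x9480537126, 12), (1, 0x9810537264, 12), (1, 0x9328065471, 12), (1, 0x9283165740, 12),
  (1, 0x9463201578, 12), (1, 0x9762013845, 12), (1, 0x9168407523, 12), (1, 0x9065872134, 12), (1, 0x9168273450, 12),
  (1, 0x9051623748, 12), (1, 0x9025386147, 12), (1, 0x9182457630, 12), (1, 0x9321548607, 12), (1, 0x9027351468, 12),
  (1, 0x9726031458, 12), (1, 0x9107284365, 12), (1, 0x9876032451, 12), (1, 0x9071653842, 12), (1, 0x9641802735, 12),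
  (1, 0x9780516324, 12), (1, 0x9861034275, 12), (1, 0x9546731082, 12), (1, 0x9430576821, 12), (1, 0x9162450783, 12),
  (1, 0x9527134608, 12), (1, 0x9024675138, 12), (1, 0x9130472865, 12), (1, 0x9867140532, 12), (1, 0x9627480513, 12),
  (1, 0x9847132650, 12), (1, 0x9712546830, 12), (1, 0x9834576021, 12), (1, 0x9745216380, 12), (1, 0x9481625307, 12),
  (1, 0x9852067341, 12), (1, 0x9432506781, 12), (1, 0x9736841520, 12), (1, 0x9523617048, 12), (1, 0x9146280357, 12),
  (1, 0x9403257816, 12), (1, 0x9285614073, 12), (1, 0x9320748615, 12), (1, 0x9803265147, 4), (1, 0x9103857246, 4),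
  (1, 0x9432605187, 3), (1, 0x9213580476, 3), (1, 0x9437610852, 4), (1, 0x9308452671, 4), (1, 0x9238674051, 4),
  (1, 0x9045216738, 3), (1, 0x9730516482, 3), (1, 0x9471205368, 4), (1, 0x9713820645, 4), (1, 0x9123705468, 3),
  (1, 0x9028657314, 3), (1, 0x9618430725, 3), (1, 0x9583674120, 3), (1, 0x9108234765, 3), (1, 0x9048732516, 3),
  (1, 0x9583420167, 4), (1, 0x9061875423, 4), (1, 0x9310647528, 3), (1, 0x9276084315, 4), (1, 0x9301785624, 3),
  (1, 0x9573164820, 4), (1, 0x9641053287, 4), (1, 0x9327465108, 3), (1, 0x9845761320, 4), (1, 0x9518607423, 4),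
  (1, 0x9245860317, 4)]

/-- all terms -/
def terms : List (ℕ × ℕ × ℕ) := t0 ++ t1 ++ t2 ++ t3

set_option maxRecDepth 100000 in
theorem main : check 9 2 key rels terms [(1, idc)] = true := by decide +kernel

end Cfsg.Agent.H196.Two
end

-- part: H196/Two
section
/-!
# The prime 2: modules of the symmetric group of degree 9

Every module of characteristic 2 for `Equiv.Perm (Fin 9)` without nonzero vectors fixed by nonsolvable subgroups is
zero (`Cfsg.Agent.H196.Two.two`).
-/

set_option autoImplicit false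

namespace Cfsg.Agent.H196.GA

/-- the condition on a new generator `g` for `exists_fx_cons` -/
def stepB (n : ℕ) (L : List ℕ) (g : ℕ) : Bool :=
  and (and (okc n g) (Nat.beq (comp g g) idc))
    (L.all fun x => and (okc n x) (L.any fun y => Nat.beq (comp x g) (comp g y)))

theorem exists_fx_cons {n : ℕ} {V : Type*} [AddCommGroup V] [DistribMulAction (Equiv.Perm (Fin n)) V] (hn : n ≤ 10)
    (hp : ∀ v : V, 2 • v = 0) (L : List ℕ) (g : ℕ) (h : stepB n L g = true) {v : V} (hv : v ≠ 0)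
    (hfix : ∀ x ∈ L, Fx n x v) : ∃ w : V, w ≠ 0 ∧ ∀ x ∈ g :: L, Fx n x w := by
  simp only [stepB, Bool.and_eq_true, List.all_eq_true, List.any_eq_true] at h
  obtain ⟨⟨hg, hgg⟩, hL⟩ := h
  have hgg' := (comp_ok hn hg hg).2
  rw [Nat.eq_of_beq_eq_true hgg, toPerm_idc hn] at hgg'
  have hneg : ∀ u : V, u + u = 0 := fun u => by rw [← two_smul ℕ]; exact hp u
  have h2 : toPerm n g • (toPerm n g • v) = v := by rw [← mul_smul, ← hgg', one_smul]
  by_cases h0 : v + toPerm n g • v = 0
  · refine ⟨v, hv, fun x hx => ?_⟩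
    rcases List.mem_cons.1 hx with rfl | hx
    · unfold Fx
      rw [← sub_eq_zero, sub_eq_add_neg, ← eq_neg_of_add_eq_zero_left (hneg v), add_comm]
      exact h0
    · exact hfix x hx
  · refine ⟨_, h0, fun x hx => ?_⟩
    rcases List.mem_cons.1 hx with rfl | hx
    · unfold Fx
      rw [smul_add, h2, add_comm]
    · obtain ⟨hx1, y, hy, hxy⟩ := hL x hx
      have hy1 := (hL y hy).1
      have h3 := (comp_ok hn hx1 hg).2
      rw [Nat.eq_of_beq_eq_true hxy, (comp_ok hn hg hy1).2] at h3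
      have h4 : toPerm n y • v = v := hfix y hy
      have h5 : toPerm n x • v = v := hfix x hx
      unfold Fx
      rw [smul_add, h5, ← mul_smul, ← h3, mul_smul, h4]

end Cfsg.Agent.H196.GA

namespace Cfsg.Agent.H196.Two

open Cfsg.Agent.H196.GA

variable {V : Type*} [AddCommGroup V] [DistribMulAction (Equiv.Perm (Fin 9)) V]

theorem exists_fx (hp : ∀ v : V, 2 • v = 0) {v : V} (hv : v ≠ 0) : ∃ w : V, w ≠ 0 ∧ ∀ x ∈ T, Fx 9 x w := by
  obtain ⟨w0, h0, f0⟩ := exists_fx_cons (n := 9) (by norm_num) hp [] 0x9876543201 (by decide) hv (by simp)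
  obtain ⟨w1, h1, f1⟩ := exists_fx_cons (n := 9) (by norm_num) hp _ 0x9876542310 (by decide) h0 f0
  obtain ⟨w2, h2, f2⟩ := exists_fx_cons (n := 9) (by norm_num) hp _ 0x9876453210 (by decide) h1 f1
  obtain ⟨w3, h3, f3⟩ := exists_fx_cons (n := 9) (by norm_num) hp _ 0x9867543210 (by decide) h2 f2
  obtain ⟨w4, h4, f4⟩ := exists_fx_cons (n := 9) (by norm_num) hp _ 0x9876541032 (by decide) h3 f3
  obtain ⟨w5, h5, f5⟩ := exists_fx_cons (n := 9) (by norm_num) hp _ 0x9854763210 (by decide) h4 f4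
  obtain ⟨w6, h6, f6⟩ := exists_fx_cons (n := 9) (by norm_num) hp _ 0x9832107654 (by decide) h5 f5
  refine ⟨w6, h6, fun x hx => f6 x ?_⟩
  simp only [T, List.mem_cons, List.not_mem_nil, or_false] at hx ⊢
  tauto

/-- The conditions on a relation: it is an orbit sum of the nonsolvable group generated by `a` and `b`. -/
theorem kill (hp : ∀ v : V, 2 • v = 0) (hNF : NF 9 V) {v : V} (h : ∀ x ∈ T, Fx 9 x v) {a b i : ℕ}
    {w₁ w₂ w₃ w₄ : List Bool} (hw : nsB 9 a b i w₁ w₂ w₃ w₄ = true) {l : FS} (hl : okFS 9 l = true)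
    (ca : check 9 2 key [] [] (lm a l ++ sc 1 l) = true)
    (cb : check 9 2 key [] [] (lm b l ++ sc 1 l) = true) : ev 9 v l = 0 :=
  hNF.kill (by norm_num) hp (by norm_num) (keyOK h) (by simp) hw hl (ta := []) (tb := []) ca cb

theorem z0 (hp : ∀ v : V, 2 • v = 0) (hNF : NF 9 V) {v : V} (h : ∀ x ∈ T, Fx 9 x v) : ev 9 v r0 = 0 :=
  kill hp hNF h (a := 0x9876501423) (b := 0x9876504321) (i := 0) (w₁ := [false, true]) (w₂ := [false])
    (w₃ := [true, false]) (w₄ := [true]) (by decide +kernel) (by decide +kernel) (by decide +kernel) (by decide +kernel)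

theorem z1 (hp : ∀ v : V, 2 • v = 0) (hNF : NF 9 V) {v : V} (h : ∀ x ∈ T, Fx 9 x v) : ev 9 v r1 = 0 :=
  kill hp hNF h (a := 0x9876501423) (b := 0x9876504321) (i := 0) (w₁ := [false, true]) (w₂ := [false])
    (w₃ := [true, false]) (w₄ := [true]) (by decide +kernel) (by decide +kernel) (by decide +kernel) (by decide +kernel)

theorem z2 (hp : ∀ v : V, 2 • v = 0) (hNF : NF 9 V) {v : V} (h : ∀ x ∈ T, Fx 9 x v) : ev 9 v r2 = 0 :=
  kill hp hNF h (a := 0x9876105243) (b := 0x9876532104) (i := 0) (w₁ := [false, true]) (w₂ := [false])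
    (w₃ := [true, false]) (w₄ := [true]) (by decide +kernel) (by decide +kernel) (by decide +kernel) (by decide +kernel)

theorem z3 (hp : ∀ v : V, 2 • v = 0) (hNF : NF 9 V) {v : V} (h : ∀ x ∈ T, Fx 9 x v) : ev 9 v r3 = 0 :=
  kill hp hNF h (a := 0x9847512603) (b := 0x9861257034) (i := 0) (w₁ := [false, false, true, false, true, false]) (w₂ := [true])
    (w₃ := [true, false]) (w₄ := [true]) (by decide +kernel) (by decide +kernel) (by decide +kernel) (by decide +kernel)

theorem z4 (hp : ∀ v : V, 2 • v = 0) (hNF : NF 9 V) {v : V} (h : ∀ x ∈ T, Fx 9 x v) : ev 9 v r4 = 0 :=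
  kill hp hNF h (a := 0x9847512603) (b := 0x9861257034) (i := 0) (w₁ := [false, false, true, false, true, false]) (w₂ := [true])
    (w₃ := [true, false]) (w₄ := [true]) (by decide +kernel) (by decide +kernel) (by decide +kernel) (by decide +kernel)

theorem z5 (hp : ∀ v : V, 2 • v = 0) (hNF : NF 9 V) {v : V} (h : ∀ x ∈ T, Fx 9 x v) : ev 9 v r5 = 0 :=
  kill hp hNF h (a := 0x9876501423) (b := 0x9876504321) (i := 0) (w₁ := [false, true]) (w₂ := [false])
    (w₃ := [true, false]) (w₄ := [true]) (by decide +kernel) (by decide +kernel) (by decide +kernel) (by decide +kernel)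

theorem z6 (hp : ∀ v : V, 2 • v = 0) (hNF : NF 9 V) {v : V} (h : ∀ x ∈ T, Fx 9 x v) : ev 9 v r6 = 0 :=
  kill hp hNF h (a := 0x9876105243) (b := 0x9876532104) (i := 0) (w₁ := [false, true]) (w₂ := [false])
    (w₃ := [true, false]) (w₄ := [true]) (by decide +kernel) (by decide +kernel) (by decide +kernel) (by decide +kernel)

theorem z7 (hp : ∀ v : V, 2 • v = 0) (hNF : NF 9 V) {v : V} (h : ∀ x ∈ T, Fx 9 x v) : ev 9 v r7 = 0 :=
  kill hp hNF h (a := 0x9876105243) (b := 0x9876532104) (i := 0) (w₁ := [false, true]) (w₂ := [false])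
    (w₃ := [true, false]) (w₄ := [true]) (by decide +kernel) (by decide +kernel) (by decide +kernel) (by decide +kernel)

theorem z8 (hp : ∀ v : V, 2 • v = 0) (hNF : NF 9 V) {v : V} (h : ∀ x ∈ T, Fx 9 x v) : ev 9 v r8 = 0 :=
  kill hp hNF h (a := 0x9876105243) (b := 0x9876532104) (i := 0) (w₁ := [false, true]) (w₂ := [false])
    (w₃ := [true, false]) (w₄ := [true]) (by decide +kernel) (by decide +kernel) (by decide +kernel) (by decide +kernel)

theorem z9 (hp : ∀ v : V, 2 • v = 0) (hNF : NF 9 V) {v : V} (h : ∀ x ∈ T, Fx 9 x v) : ev 9 v r9 = 0 :=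
  kill hp hNF h (a := 0x9876105243) (b := 0x9876532104) (i := 0) (w₁ := [false, true]) (w₂ := [false])
    (w₃ := [true, false]) (w₄ := [true]) (by decide +kernel) (by decide +kernel) (by decide +kernel) (by decide +kernel)

theorem z10 (hp : ∀ v : V, 2 • v = 0) (hNF : NF 9 V) {v : V} (h : ∀ x ∈ T, Fx 9 x v) : ev 9 v r10 = 0 :=
  kill hp hNF h (a := 0x9876105243) (b := 0x9876532104) (i := 0) (w₁ := [false, true]) (w₂ := [false])
    (w₃ := [true, false]) (w₄ := [true]) (by decide +kernel) (by decide +kernel) (by decide +kernel) (by decide +kernel)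

theorem z11 (hp : ∀ v : V, 2 • v = 0) (hNF : NF 9 V) {v : V} (h : ∀ x ∈ T, Fx 9 x v) : ev 9 v r11 = 0 :=
  kill hp hNF h (a := 0x9876105243) (b := 0x9876532104) (i := 0) (w₁ := [false, true]) (w₂ := [false])
    (w₃ := [true, false]) (w₄ := [true]) (by decide +kernel) (by decide +kernel) (by decide +kernel) (by decide +kernel)

theorem z12 (hp : ∀ v : V, 2 • v = 0) (hNF : NF 9 V) {v : V} (h : ∀ x ∈ T, Fx 9 x v) : ev 9 v r12 = 0 :=
  kill hp hNF h (a := 0x9712683450) (b := 0x9610754382) (i := 1) (w₁ := [false, false, false]) (w₂ := [false, true, true])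
    (w₃ := [true, true, false]) (w₄ := [true, true]) (by decide +kernel) (by decide +kernel) (by decide +kernel) (by decide +kernel)

/-- **The prime 2.** -/
theorem two (hp : ∀ v : V, 2 • v = 0) (hNF : NF 9 V) (v : V) : v = 0 := by
  by_contra hv
  obtain ⟨w, hw, hf⟩ := exists_fx hp hv
  have hz : ∀ r ∈ rels, ev 9 w r = 0 := by
    intro r hr
    simp only [rels, List.mem_cons, List.not_mem_nil, or_false] at hr
    rcases hr with rfl | rfl | rfl | rfl | rfl | rfl | rfl | rfl | rfl | rfl | rfl | rfl | rfl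
    · exact z0 hp hNF hf
    · exact z1 hp hNF hf
    · exact z2 hp hNF hf
    · exact z3 hp hNF hf
    · exact z4 hp hNF hf
    · exact z5 hp hNF hf
    · exact z6 hp hNF hf
    · exact z7 hp hNF hf
    · exact z8 hp hNF hf
    · exact z9 hp hNF hf
    · exact z10 hp hNF hf
    · exact z11 hp hNF hf
    · exact z12 hp hNF hf
  have h := sound (by norm_num) hp (keyOK hf) hz main
  rw [ev_cons, ev_nil, toPerm_idc (by norm_num), one_smul, one_smul, add_zero] at h
  exact hw h

end Cfsg.Agent.H196.Two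
end

-- part: H196/GC
section
/-!
# More tools for the certificates: products of formal sums, commuting generators, the prime 5
-/

set_option autoImplicit false

namespace Cfsg.Agent.H196.GA

attribute [local irreducible] comp toPerm dig okc idc

section

variable {n p : ℕ} {V : Type*} [AddCommGroup V] [DistribMulAction (Equiv.Perm (Fin n)) V]

/-- product of formal sums -/
def fmul (l m : FS) : FS := l.flatMap fun x => sc x.1 (lm x.2 m)

theorem ev_fmul (hn : n ≤ 10) (v : V) {m : FS} (hm : okFS n m = true) : ∀ (l : FS) (_ : okFS n l = true),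
    ev n v (fmul l m) = ev n (ev n v m) l
  | [], _ => by simp [fmul]
  | x :: l, hl => by
    rw [okFS, List.all_cons, Bool.and_eq_true] at hl
    have := ev_fmul hn v hm l hl.2
    simp only [fmul] at this
    simp only [fmul, List.flatMap_cons, ev_append, ev_cons, this, ev_sc, ev_lm hn v hl.1 m hm]

theorem ev_one (hn : n ≤ 10) (v : V) : ev n v [(1, idc)] = v := by
  simp [toPerm_idc hn]

/-- `a` commutes with all codes of `l` -/
def commB (a : ℕ) (l : FS) : Bool := l.all fun x => Nat.beq (comp a x.2) (comp x.2 a)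

theorem smul_ev_comm (hn : n ≤ 10) {a : ℕ} (ha : okc n a = true) (v : V) : ∀ (l : FS) (_ : okFS n l = true)
    (_ : commB a l = true), toPerm n a • ev n v l = ev n (toPerm n a • v) l
  | [], _, _ => by simp
  | x :: l, hl, hc => by
    rw [okFS, List.all_cons, Bool.and_eq_true] at hl
    rw [commB, List.all_cons, Bool.and_eq_true] at hc
    have h1 := smul_ev_comm hn ha v l hl.2 hc.2
    have h2 := (comp_ok hn ha hl.1).2
    rw [Nat.eq_of_beq_eq_true hc.1, (comp_ok hn hl.1 ha).2] at h2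
    rw [ev_cons, ev_cons, smul_add, h1, smul_comm (toPerm n a) x.1, ← mul_smul, ← h2, mul_smul]

theorem ev_neg (v : V) : ∀ l : FS, ev n (-v) l = -ev n v l
  | [] => by simp
  | x :: l => by rw [ev_cons, ev_cons, ev_neg v l, smul_neg, smul_neg]; abel

theorem fx_comm (hn : n ≤ 10) {a : ℕ} (ha : okc n a = true) {v : V} {l : FS} (hl : okFS n l = true)
    (hc : commB a l = true) (h : Fx n a v) : Fx n a (ev n v l) := by
  unfold Fx at *
  rw [smul_ev_comm hn ha v l hl hc, h]

theorem an_comm (hn : n ≤ 10) {a : ℕ} (ha : okc n a = true) {v : V} {l : FS} (hl : okFS n l = true)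
    (hc : commB a l = true) (h : An n a v) : An n a (ev n v l) := by
  unfold An at *
  rw [smul_ev_comm hn ha v l hl hc, h, ev_neg]

theorem ev_zero : ∀ l : FS, ev n (0 : V) l = 0
  | [] => rfl
  | x :: l => by rw [ev_cons, ev_zero l, smul_zero, smul_zero, add_zero]

end

section five

variable {V : Type*} [AddCommGroup V] [DistribMulAction (Equiv.Perm (Fin 10)) V]

theorem ckZ (hp : ∀ v : V, 5 • v = 0) {v : V} (rels : List FS) (hz : ∀ r ∈ rels, ev 10 v r = 0)
    (target : FS) (terms : List (ℕ × ℕ × ℕ)) (h : check 10 5 comp rels terms target = true) :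
    ev 10 v target = 0 :=
  sound (by norm_num) hp (keyOK_comp (by norm_num) v) hz h

theorem ckFx (hp : ∀ v : V, 5 • v = 0) {v : V} (rels : List FS) (hz : ∀ r ∈ rels, ev 10 v r = 0) (a : ℕ) (l : FS)
    (ta : List (ℕ × ℕ × ℕ)) (ha : okc 10 a = true) (hl : okFS 10 l = true)
    (ca : check 10 5 comp rels ta (lm a l ++ sc 4 l) = true) : Fx 10 a (ev 10 v l) :=
  fx_of_check (by norm_num) hp (by norm_num) (keyOK_comp (by norm_num) v) hz ha hl ca

theorem ckAn (hp : ∀ v : V, 5 • v = 0) {v : V} (rels : List FS) (hz : ∀ r ∈ rels, ev 10 v r = 0) (a : ℕ) (l : FS)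
    (ta : List (ℕ × ℕ × ℕ)) (ha : okc 10 a = true) (hl : okFS 10 l = true)
    (ca : check 10 5 comp rels ta (lm a l ++ l) = true) : An 10 a (ev 10 v l) :=
  an_of_check (by norm_num) hp (keyOK_comp (by norm_num) v) hz ha hl ca

theorem ckKill (hp : ∀ v : V, 5 • v = 0) (hNF : NF 10 V) {v : V} (rels : List FS)
    (hz : ∀ r ∈ rels, ev 10 v r = 0) (a b i : ℕ) (w₁ w₂ w₃ w₄ : List Bool) (l : FS) (ta tb : List (ℕ × ℕ × ℕ))
    (h : nsB 10 a b i w₁ w₂ w₃ w₄ = true) (hl : okFS 10 l = true)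
    (ca : check 10 5 comp rels ta (lm a l ++ sc 4 l) = true)
    (cb : check 10 5 comp rels tb (lm b l ++ sc 4 l) = true) : ev 10 v l = 0 :=
  hNF.kill (by norm_num) hp (by norm_num) (keyOK_comp (by norm_num) v) hz h hl ca cb

theorem rfz (hp : ∀ v : V, 5 • v = 0) {a : ℕ} {v : V} (h : Fx 10 a v) : ev 10 v (rf 5 a) = 0 :=
  (ev_rf (by norm_num) hp (by norm_num)).2 h

theorem fxz (hp : ∀ v : V, 5 • v = 0) {a : ℕ} {v : V} (h : ev 10 v (rf 5 a) = 0) : Fx 10 a v :=
  (ev_rf (by norm_num) hp (by norm_num)).1 h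

theorem raz {a : ℕ} {v : V} (h : An 10 a v) : ev 10 v (ra a) = 0 :=
  (ev_ra (by norm_num)).2 h

/-- The fifth power of `y - 1` kills everything if `y ^ 5 = 1`; so there are nonzero fixed vectors. -/
theorem exists_fx_five (hp : ∀ v : V, 5 • v = 0) (L : List ℕ) (y : ℕ) (hy : okc 10 y = true)
    (hy5 : check 10 5 comp [] [] (fmul (rf 5 y) (fmul (rf 5 y) (fmul (rf 5 y) (fmul (rf 5 y) (rf 5 y))))) = true)
    (hL : (L.all fun x => and (okc 10 x) (commB x (rf 5 y))) = true) {v : V} (hv : v ≠ 0)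
    (hfix : ∀ x ∈ L, Fx 10 x v) : ∃ w : V, w ≠ 0 ∧ Fx 10 y w ∧ ∀ x ∈ L, Fx 10 x w := by
  have hr : okFS 10 (rf 5 y) = true := by
    simp only [okFS, rf, List.all_cons, List.all_nil, Bool.and_true, Bool.and_eq_true]
    exact ⟨hy, okc_idc (by norm_num)⟩
  have hr' : ∀ l : FS, okFS 10 l = true → okFS 10 (fmul (rf 5 y) l) = true := by
    intro l hl
    simp only [okFS, List.all_eq_true] at hl ⊢
    intro x hx
    simp only [fmul, List.mem_flatMap, sc, lm, List.map_map, List.mem_map] at hx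
    obtain ⟨z, hz, u, hu, rfl⟩ := hx
    refine (comp_ok (by norm_num) ?_ (hl u hu)).1
    simp only [rf, List.mem_cons, List.not_mem_nil, or_false] at hz
    rcases hz with rfl | rfl
    · exact hy
    · exact okc_idc (by norm_num)
  have h5 : ∀ u : V, ev 10 (ev 10 (ev 10 (ev 10 (ev 10 u (rf 5 y)) (rf 5 y)) (rf 5 y)) (rf 5 y)) (rf 5 y) = 0 := by
    intro u
    have := ckZ hp (v := u) [] (by simp) _ [] hy5
    rwa [ev_fmul (by norm_num) _ (hr' _ (hr' _ (hr' _ hr))) _ hr, ev_fmul (by norm_num) _ (hr' _ (hr' _ hr)) _ hr,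
      ev_fmul (by norm_num) _ (hr' _ hr) _ hr, ev_fmul (by norm_num) _ hr _ hr] at this
  have step : ∀ u : V, (∀ x ∈ L, Fx 10 x u) → ∀ x ∈ L, Fx 10 x (ev 10 u (rf 5 y)) := by
    intro u hu x hx
    rw [List.all_eq_true] at hL
    have := hL x hx
    rw [Bool.and_eq_true] at this
    exact fx_comm (by norm_num) this.1 hr this.2 (hu x hx)
  have fin : ∀ u : V, ev 10 u (rf 5 y) = 0 → Fx 10 y u := fun u hu => fxz hp hu
  by_cases h0 : ev 10 v (rf 5 y) = 0
  · exact ⟨v, hv, fin _ h0, hfix⟩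
  by_cases h1 : ev 10 (ev 10 v (rf 5 y)) (rf 5 y) = 0
  · exact ⟨_, h0, fin _ h1, step _ hfix⟩
  by_cases h2 : ev 10 (ev 10 (ev 10 v (rf 5 y)) (rf 5 y)) (rf 5 y) = 0
  · exact ⟨_, h1, fin _ h2, step _ (step _ hfix)⟩
  by_cases h3 : ev 10 (ev 10 (ev 10 (ev 10 v (rf 5 y)) (rf 5 y)) (rf 5 y)) (rf 5 y) = 0
  · exact ⟨_, h2, fin _ h3, step _ (step _ (step _ hfix))⟩
  · exact ⟨_, h3, fin _ (h5 v), step _ (step _ (step _ (step _ hfix)))⟩

end five

end Cfsg.Agent.H196.GA
end

-- part: H196/FiveA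
section
/-!
# The prime 5: modules of the symmetric group of degree 10

Every module of characteristic 5 for `Equiv.Perm (Fin 10)` without nonzero vectors fixed by nonsolvable subgroups is
zero (`Cfsg.Agent.H196.Five.five`).
-/

set_option autoImplicit false

namespace Cfsg.Agent.H196.Five

open Cfsg.Agent.H196.GA

attribute [local irreducible] comp toPerm dig okc idc

variable {V : Type*} [AddCommGroup V] [DistribMulAction (Equiv.Perm (Fin 10)) V]

theorem fc {v : V} {r : FS} {l : List FS} (h : ev 10 v r = 0) (hl : ∀ x ∈ l, ev 10 v x = 0) :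
    ∀ x ∈ r :: l, ev 10 v x = 0 := List.forall_mem_cons.2 ⟨h, hl⟩

theorem fe {v : V} : ∀ x ∈ ([] : List FS), ev 10 v x = 0 := by simp

/-- a permutation -/
abbrev a3 : ℕ := 0x9876541320

/-- a permutation -/
abbrev v1 : ℕ := 0x9876534120

/-- a permutation -/
abbrev v2 : ℕ := 0x9876521430

/-- a permutation -/
abbrev b3 : ℕ := 0x9687543210

/-- a permutation -/
abbrev w1 : ℕ := 0x8967543210

/-- a permutation -/
abbrev w2 : ℕ := 0x7698543210

/-- a permutation -/
abbrev cx : ℕ := 0x9876504321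

/-- a permutation -/
abbrev cy : ℕ := 0x5987643210

/-- a permutation -/
abbrev ct : ℕ := 0x9876512340

/-- a permutation -/
abbrev cu : ℕ := 0x6789543210

/-- sum of the powers of the first 5-cycle -/
def SX : FS :=
  [(1, 0x9876504321), (1, 0x9876510432), (1, 0x9876521043), (1, 0x9876532104), (1, 0x9876543210)]

/-- sum of the powers of the second 5-cycle -/
def SY : FS :=
  [(1, 0x5987643210), (1, 0x6598743210), (1, 0x7659843210), (1, 0x8765943210), (1, 0x9876543210)]

/-- sum of the powers of the diagonal element -/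
def D0 : FS :=
  [(1, 0x5987604321), (1, 0x6598710432), (1, 0x7659821043), (1, 0x8765932104), (1, 0x9876543210)]

/-- Vectors fixed by both alternating groups of degree 4. -/
theorem Z1 (hp : ∀ v : V, 5 • v = 0) (hNF : NF 10 V) {v : V} (h1 : Fx 10 a3 v) (h2 : Fx 10 v1 v)
    (h3 : Fx 10 b3 v) (h4 : Fx 10 w1 v) : v = 0 := by
  have zSX := ckKill hp hNF [rf 5 a3, rf 5 v1, rf 5 b3, rf 5 w1] (fc (rfz hp h1) (fc (rfz hp h2) (fc (rfz hp h3) (fc (rfz hp h4) fe)))) 0x9876504321 0x9876541320 0 [false] [false, true, false, true]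
    [true, true] [true, false, true, false] SX
    []
    [(4, 0x9876543210, 0), (4, 0x9876501342, 0), (4, 0x9876510432, 1), (4, 0x9876524103, 0), (4, 0x9876521043, 0),
  (4, 0x9876530421, 0), (4, 0x9876503241, 1), (4, 0x9876502431, 0), (4, 0x9876504321, 0), (4, 0x9876531024, 1),
  (4, 0x9876530214, 0), (4, 0x9876532104, 0)]
    (by decide +kernel) (by decide +kernel) (by decide +kernel) (by decide +kernel)
  have zSY := ckKill hp hNF [rf 5 a3, rf 5 v1, rf 5 b3, rf 5 w1] (fc (rfz hp h1) (fc (rfz hp h2) (fc (rfz hp h3) (fc (rfz hp h4) fe)))) 0x5987643210 0x9687543210 5 [false] [false, true, false, true]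
    [true, true] [true, false, true, false] SY
    []
    [(4, 0x9876543210, 2), (4, 0x5689743210, 2), (4, 0x6598743210, 3), (4, 0x7965843210, 2), (4, 0x7659843210, 2),
  (4, 0x8597643210, 2), (4, 0x5879643210, 3), (4, 0x5798643210, 2), (4, 0x5987643210, 2), (4, 0x8657943210, 3),
  (4, 0x8576943210, 2), (4, 0x8765943210, 2)]
    (by decide +kernel) (by decide +kernel) (by decide +kernel) (by decide +kernel)
  have zD0 := ckKill hp hNF [rf 5 a3, rf 5 v1, rf 5 b3, rf 5 w1] (fc (rfz hp h1) (fc (rfz hp h2) (fc (rfz hp h3) (fc (rfz hp h4) fe)))) 0x5987604321 0x9687541320 0 [false] [false, true, false, true]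
    [true, true] [true, false, true, false] D0
    []
    [(4, 0x9876541320, 2), (4, 0x9876543210, 0), (4, 0x5689704132, 2), (4, 0x6598704132, 3), (4, 0x6598701342, 0),
  (4, 0x6598710432, 1), (4, 0x7965820413, 2), (4, 0x7659820413, 2), (4, 0x7659824103, 0), (4, 0x7659821043, 0),
  (4, 0x8597632041, 2), (4, 0x5879632041, 3), (4, 0x5798632041, 2), (4, 0x5987632041, 2), (4, 0x5987630421, 0),
  (4, 0x5987603241, 1), (4, 0x5987602431, 0), (4, 0x5987604321, 0), (4, 0x8657913204, 3), (4, 0x8576913204, 2),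
  (4, 0x8765913204, 2), (4, 0x8765931024, 1), (4, 0x8765930214, 0), (4, 0x8765932104, 0)]
    (by decide +kernel) (by decide +kernel) (by decide +kernel) (by decide +kernel)
  have zL := ckKill hp hNF [SX, SY, D0, rf 5 a3, rf 5 v1, rf 5 b3, rf 5 w1] (fc zSX (fc zSY (fc zD0 (fc (rfz hp h1) (fc (rfz hp h2) (fc (rfz hp h3) (fc (rfz hp h4) fe))))))) 0x9876504321 0x9876541320 0 [false] [false, true, false, true]
    [true, true] [true, false, true, false] (rf 5 cy)
    [(2, 0x9876543210, 2), (3, 0x5968743210, 2), (3, 0x6598743210, 2), (2, 0x9876543210, 0), (1, 0x5987643210, 0),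
  (3, 0x9876510432, 1), (4, 0x7698543210, 2), (1, 0x6985743210, 2), (1, 0x7986543210, 2), (3, 0x9865743210, 2),
  (2, 0x5689743210, 5), (2, 0x6598743210, 6), (3, 0x7965804321, 5), (3, 0x7659804321, 5), (2, 0x8597610432, 5),
  (2, 0x5879610432, 6), (2, 0x5798610432, 5), (4, 0x5987610432, 5), (2, 0x8657921043, 6), (1, 0x8576921043, 5),
  (2, 0x9876532104, 5), (1, 0x7986543210, 5), (1, 0x7596804321, 6), (1, 0x8765910432, 5), (1, 0x9578621043, 5),
  (1, 0x5987621043, 6), (1, 0x6859743210, 5), (1, 0x6598743210, 5), (4, 0x7986504321, 5), (1, 0x9768504321, 6),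
  (1, 0x9687504321, 5), (1, 0x9876504321, 5), (4, 0x7596810432, 6), (4, 0x7965810432, 5), (4, 0x7659810432, 5),
  (4, 0x9578632104, 5), (4, 0x5987632104, 6), (4, 0x5987604321, 5), (4, 0x6795810432, 5), (4, 0x7659810432, 6),
  (4, 0x9658732104, 5), (4, 0x6985732104, 6), (2, 0x9658743210, 5), (2, 0x6985743210, 6), (2, 0x6795821043, 5),
  (2, 0x7659821043, 6), (2, 0x8576932104, 5), (2, 0x8765932104, 5)]
    [(4, 0x5987643210, 3), (1, 0x9876543210, 3)]
    (by decide +kernel) (by decide +kernel) (by decide +kernel) (by decide +kernel)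
  exact hNF.zero (by norm_num) (a := 0x5987643210) (b := 0x9687543210) (i := 5) (w₁ := [false]) (w₂ := [false, true, false, true])
    (w₃ := [true, true]) (w₄ := [true, false, true, false]) (by decide +kernel) (fxz hp zL) h3

/-- nilpotent element -/
def TX : FS :=
  [(1, 0x9876501342), (1, 0x9876512403), (1, 0x9876523014), (1, 0x9876534120), (1, 0x9876540231)]

/-- nilpotent element -/
def TY : FS :=
  [(1, 0x5689743210), (1, 0x6795843210), (1, 0x7856943210), (1, 0x8967543210), (1, 0x9578643210)]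

/-- diagonal element -/
def LI : FS :=
  [(1, 0x5976804213), (4, 0x5976814230), (1, 0x5976843102), (4, 0x6978504213), (1, 0x6978514230), (1, 0x6978543102),
  (1, 0x9865704213), (1, 0x9865714230), (1, 0x9865743102)]

/-- a certificate -/
def tI1 : List (ℕ × ℕ × ℕ) :=
  [(3, 0x9857643210, 0), (2, 0x9857604132, 0), (4, 0x9857643021, 0), (2, 0x9876543210, 1), (3, 0x5968743210, 1),
  (2, 0x9857643210, 1), (2, 0x6978543210, 0), (2, 0x5976843210, 0), (3, 0x9876504132, 1), (3, 0x6978504132, 0),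
  (3, 0x5976804132, 0), (4, 0x9865743021, 0), (2, 0x5968704132, 1), (3, 0x9857604132, 1), (4, 0x9857604213, 5),
  (4, 0x5879604213, 3), (4, 0x8796504213, 3), (4, 0x6978504213, 5), (4, 0x5976843021, 4), (4, 0x9857620341, 5),
  (1, 0x9857643021, 4), (1, 0x5879620341, 3), (1, 0x8796520341, 3), (1, 0x6978520341, 5), (4, 0x6978543021, 4),
  (4, 0x5976803241, 2), (4, 0x5976832410, 2), (4, 0x5976814230, 4), (1, 0x9857610324, 5), (4, 0x9857603241, 2),
  (4, 0x9857632410, 2), (4, 0x9857614230, 4), (4, 0x5879610324, 3), (4, 0x8796510324, 3), (4, 0x6978510324, 5),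
  (1, 0x6978503241, 2), (1, 0x6978532410, 2), (1, 0x6978514230, 4), (2, 0x9857621430, 4), (1, 0x9857614302, 2),
  (1, 0x9857643021, 2), (2, 0x9857632041, 4), (3, 0x9857620413, 2), (4, 0x9857604132, 2), (4, 0x9857643102, 4),
  (3, 0x9857604213, 4), (2, 0x9857630142, 2), (1, 0x9857601423, 2), (1, 0x9857614230, 2), (3, 0x9857613042, 4),
  (2, 0x9857630421, 2), (2, 0x9857604213, 2), (3, 0x9857621430, 2), (3, 0x9857604321, 4), (2, 0x9857643210, 2),
  (3, 0x9857620134, 4), (2, 0x9857601342, 2), (1, 0x9857602431, 4), (4, 0x9857624310, 2), (4, 0x9857643102, 2),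
  (1, 0x9857630142, 4), (1, 0x9857643210, 4), (1, 0x9857631240, 2), (1, 0x9857612403, 2), (3, 0x7698543210, 5),
  (4, 0x6985743210, 3), (4, 0x9857643210, 3), (3, 0x8759643210, 5), (2, 0x7596843210, 3), (1, 0x9865743210, 5),
  (1, 0x5976843210, 5), (3, 0x8569743210, 3), (2, 0x6859743210, 5), (3, 0x8597643210, 3), (3, 0x5976843210, 3),
  (2, 0x7698543210, 3), (2, 0x5987643210, 5), (3, 0x9876543210, 3), (2, 0x7568943210, 5), (3, 0x5689743210, 3),
  (3, 0x5798643210, 5), (2, 0x7986543210, 3), (2, 0x9865743210, 3), (3, 0x8569743210, 5), (3, 0x9876543210, 5),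
  (3, 0x8679543210, 3), (3, 0x6795843210, 3), (3, 0x6978521430, 4), (4, 0x6978514302, 2), (4, 0x6978543021, 2),
  (3, 0x6978532041, 4), (2, 0x6978520413, 2), (2, 0x6978504132, 2), (1, 0x6978543102, 4), (3, 0x6978504213, 4),
  (3, 0x6978530142, 2), (3, 0x6978501423, 2), (3, 0x6978514230, 2), (3, 0x5976821430, 4), (4, 0x5976814302, 2),
  (4, 0x5976843021, 2), (3, 0x5976832041, 4), (2, 0x5976820413, 2), (2, 0x5976804132, 2), (1, 0x5976843102, 4),
  (3, 0x5976804213, 4), (3, 0x5976830142, 2), (3, 0x5976801423, 2), (3, 0x5976814230, 2), (2, 0x7698504132, 5),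
  (1, 0x6985704132, 3), (1, 0x9857604132, 3), (2, 0x8759604132, 5), (3, 0x7596804132, 3), (4, 0x9865704132, 5),
  (4, 0x5976804132, 5), (2, 0x8569704132, 3), (2, 0x6978513042, 4), (3, 0x6978530421, 2), (3, 0x6978504213, 2),
  (2, 0x6978521430, 2), (2, 0x6978504321, 4), (3, 0x6978543210, 2), (2, 0x6978520134, 4), (3, 0x6978501342, 2),
  (2, 0x5976813042, 4), (3, 0x5976830421, 2), (3, 0x5976804213, 2), (2, 0x5976821430, 2), (2, 0x5976804321, 4),
  (3, 0x5976843210, 2), (2, 0x5976820134, 4), (3, 0x5976801342, 2), (1, 0x9865702431, 4), (4, 0x9865724310, 2),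
  (4, 0x9865743102, 2), (1, 0x9865730142, 4), (4, 0x9865701423, 2), (4, 0x9865714230, 2), (1, 0x9865743210, 4),
  (1, 0x9865704132, 2), (1, 0x9865731240, 2), (1, 0x9865712403, 2), (1, 0x9865704213, 4), (3, 0x6859704132, 5),
  (2, 0x8597604132, 3), (2, 0x5976804132, 3), (3, 0x7698504132, 3), (3, 0x5987604132, 5), (2, 0x9876504132, 3),
  (3, 0x7568904132, 5), (2, 0x5689704132, 3), (2, 0x5798604132, 5), (3, 0x7986504132, 3), (3, 0x9865704132, 3),
  (2, 0x8569704132, 5), (2, 0x9876504132, 5), (2, 0x8679504132, 3), (2, 0x6795804132, 3)]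

/-- a certificate -/
def tI2 : List (ℕ × ℕ × ℕ) :=
  [(4, 0x5976843210, 0), (1, 0x9857643210, 1), (2, 0x9876504132, 0), (2, 0x5968704132, 0), (1, 0x6978504132, 0),
  (2, 0x9876543021, 0), (2, 0x5968743021, 0), (4, 0x9857604132, 1), (3, 0x5976804132, 0), (4, 0x9865743021, 0),
  (3, 0x5976843021, 0), (2, 0x5968704132, 1), (1, 0x5968743210, 1), (2, 0x5968743021, 1), (2, 0x9876504132, 1),
  (1, 0x9876543210, 1), (2, 0x9876543021, 1), (4, 0x8597643210, 5), (2, 0x5976843210, 3), (4, 0x7596843210, 5),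
  (1, 0x5968743210, 3), (4, 0x9876530421, 4), (3, 0x9876504213, 2), (4, 0x8597624031, 5), (1, 0x8597630421, 4),
  (4, 0x5976830421, 3), (2, 0x5976804213, 2), (1, 0x7596824031, 5), (4, 0x7596830421, 4), (1, 0x5968730421, 3),
  (3, 0x5968704213, 2), (4, 0x9876520413, 4), (4, 0x9876504132, 2), (1, 0x8597614023, 5), (4, 0x8597620413, 4),
  (1, 0x5976820413, 3), (2, 0x5976804132, 2), (4, 0x7596814023, 5), (1, 0x7596820413, 4), (4, 0x5968720413, 3),
  (2, 0x5968704132, 2), (1, 0x5976821430, 4), (1, 0x5976814302, 2), (1, 0x5976843021, 2), (1, 0x5976832041, 4),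
  (4, 0x5976820413, 2), (4, 0x5976843102, 4), (3, 0x5976804213, 4), (1, 0x5976830142, 2), (4, 0x5976801423, 2),
  (4, 0x5976814230, 2), (4, 0x5798643210, 5), (1, 0x7986543210, 3), (1, 0x9865743210, 3), (4, 0x8569743210, 5),
  (4, 0x9876543210, 5), (4, 0x8679543210, 3), (4, 0x6795843210, 3), (3, 0x5976843210, 5), (3, 0x9876513042, 4),
  (2, 0x9876530421, 2), (3, 0x9876521430, 2), (3, 0x9876514302, 2), (3, 0x9876543021, 2), (3, 0x9876504321, 4),
  (2, 0x9876543210, 2), (3, 0x9876520134, 4), (2, 0x9876501342, 2), (2, 0x9876543102, 4), (3, 0x5968713042, 4),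
  (2, 0x5968730421, 2), (3, 0x5968721430, 2), (3, 0x5968714302, 2), (3, 0x5968743021, 2), (3, 0x5968704321, 4),
  (2, 0x5968743210, 2), (3, 0x5968720134, 4), (2, 0x5968701342, 2), (2, 0x5968743102, 4), (4, 0x6978513042, 4),
  (1, 0x6978530421, 2), (1, 0x6978504213, 2), (4, 0x6978521430, 2), (4, 0x6978514302, 2), (4, 0x6978543021, 2),
  (4, 0x6978504321, 4), (1, 0x6978543210, 2), (4, 0x6978520134, 4), (1, 0x6978501342, 2), (1, 0x6978543102, 4),
  (3, 0x9876502431, 4), (2, 0x9876524310, 2), (2, 0x9876543102, 2), (3, 0x9876530142, 4), (2, 0x9876501423, 2),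
  (2, 0x9876514230, 2), (3, 0x9876543210, 4), (3, 0x9876531240, 2), (3, 0x9876512403, 2), (3, 0x9876504213, 4),
  (3, 0x5968702431, 4), (2, 0x5968724310, 2), (2, 0x5968743102, 2), (3, 0x5968730142, 4), (2, 0x5968701423, 2),
  (2, 0x5968714230, 2), (3, 0x5968743210, 4), (3, 0x5968731240, 2), (3, 0x5968712403, 2), (3, 0x5968704213, 4),
  (1, 0x5798604132, 5), (4, 0x7986504132, 3), (4, 0x9865704132, 3), (1, 0x8569704132, 5), (2, 0x5697804132, 3),
  (2, 0x6978504132, 3), (1, 0x9876504132, 5), (3, 0x5968704132, 3), (1, 0x8679504132, 3), (1, 0x6795804132, 3),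
  (4, 0x5976804132, 5), (2, 0x5976813042, 4), (3, 0x5976830421, 2), (2, 0x5976821430, 2), (2, 0x5976804321, 4),
  (3, 0x5976843210, 2), (2, 0x5976820134, 4), (3, 0x5976801342, 2), (1, 0x9865702431, 4), (4, 0x9865724310, 2),
  (4, 0x9865743102, 2), (1, 0x9865730142, 4), (4, 0x9865701423, 2), (4, 0x9865714230, 2), (1, 0x9865743210, 4),
  (1, 0x9865704132, 2), (1, 0x9865731240, 2), (1, 0x9865712403, 2), (1, 0x9865704213, 4), (2, 0x5976802431, 4),
  (3, 0x5976824310, 2), (3, 0x5976843102, 2), (2, 0x5976830142, 4), (2, 0x5976843210, 4), (2, 0x5976831240, 2),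
  (2, 0x5976812403, 2), (3, 0x6859704132, 5), (2, 0x8597604132, 3), (2, 0x5976804132, 3), (3, 0x7698504132, 3),
  (3, 0x5987604132, 5), (2, 0x9876504132, 3), (3, 0x7568904132, 5), (2, 0x5689704132, 3), (4, 0x6859743210, 5),
  (1, 0x8597643210, 3), (4, 0x7698543210, 3), (4, 0x5987643210, 5), (1, 0x9876543210, 3), (4, 0x7568943210, 5),
  (1, 0x5689743210, 3), (3, 0x6859743021, 5), (2, 0x8597643021, 3), (2, 0x5976843021, 3), (3, 0x7698543021, 3),
  (3, 0x5987643021, 5), (2, 0x9876543021, 3), (3, 0x7568943021, 5), (2, 0x5689743021, 3), (3, 0x7698504132, 5),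
  (3, 0x8759604132, 5), (2, 0x7596804132, 3), (3, 0x8569704132, 3), (4, 0x7698543210, 5), (4, 0x8759643210, 5),
  (1, 0x7596843210, 3), (4, 0x8569743210, 3), (3, 0x7698543021, 5), (3, 0x8759643021, 5), (2, 0x7596843021, 3),
  (2, 0x5968743021, 3), (3, 0x5976843021, 5), (3, 0x8569743021, 3), (3, 0x5697843021, 3), (3, 0x6978543021, 3)]

/-- a certificate -/
def tIf : List (ℕ × ℕ × ℕ) :=
  [(3, 0x7986543021, 0), (2, 0x9857643021, 0), (1, 0x6579843021, 0), (4, 0x5987643021, 0), (3, 0x7596843021, 0),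
  (4, 0x9876543021, 0), (3, 0x7698543021, 0), (4, 0x5968743021, 0), (3, 0x7986543210, 0), (4, 0x7698543210, 0),
  (3, 0x5968743210, 0), (3, 0x6579843210, 0), (1, 0x9857643210, 0), (3, 0x5987643210, 0), (4, 0x8765943210, 0),
  (3, 0x6985743210, 0), (1, 0x5976843210, 0), (4, 0x9865743210, 0), (4, 0x6598743210, 0), (4, 0x7659843210, 0),
  (4, 0x5769843210, 0), (2, 0x5798643210, 0), (4, 0x9876543210, 0), (2, 0x6978543210, 0), (1, 0x8759643210, 0),
  (2, 0x7596843210, 0), (2, 0x5697843210, 6), (4, 0x6978543210, 4), (2, 0x9876543210, 6), (2, 0x7869543210, 4),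
  (2, 0x8695743210, 4), (2, 0x5968743210, 6), (2, 0x5697824031, 6), (3, 0x5697830421, 5), (1, 0x6978530421, 4),
  (4, 0x6978504213, 3), (2, 0x9876524031, 6), (1, 0x9876530421, 5), (4, 0x9876504213, 3), (3, 0x7869524031, 4),
  (3, 0x8695724031, 4), (3, 0x5968724031, 6), (2, 0x5968730421, 5), (2, 0x5697814023, 6), (3, 0x5697820413, 5),
  (3, 0x6978520413, 4), (3, 0x9876514023, 6), (2, 0x7869514023, 4), (2, 0x8695714023, 4), (2, 0x5968714023, 6),
  (3, 0x5968720413, 5), (3, 0x8597643210, 6), (4, 0x5976843210, 4), (3, 0x7596843210, 6), (2, 0x5968743210, 4),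
  (3, 0x8597624031, 6), (2, 0x8597630421, 5), (1, 0x5976830421, 4), (4, 0x5976804213, 3), (2, 0x7596824031, 6),
  (3, 0x7596830421, 5), (2, 0x5968730421, 4), (2, 0x8597614023, 6), (3, 0x8597620413, 5), (3, 0x7596814023, 6),
  (2, 0x7596820413, 5), (3, 0x5968720413, 4), (4, 0x5987643210, 4), (4, 0x6758943210, 4), (4, 0x7589643210, 4),
  (4, 0x6795843210, 4), (1, 0x5976843210, 6), (4, 0x6598730421, 5), (1, 0x5987630421, 4), (4, 0x6758924031, 4),
  (4, 0x7589624031, 4), (1, 0x6795824031, 4), (3, 0x5976824031, 6), (2, 0x5976830421, 5), (4, 0x6598720413, 5),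
  (1, 0x5987620413, 4), (1, 0x6758914023, 4), (1, 0x7589614023, 4), (4, 0x6795814023, 4), (2, 0x5976814023, 6),
  (1, 0x5879643210, 4), (1, 0x8796543210, 4), (4, 0x5879624031, 4), (4, 0x8796524031, 4), (4, 0x6978524031, 6),
  (2, 0x6978530421, 5), (1, 0x5879614023, 4), (1, 0x8796514023, 4), (1, 0x6978514023, 6), (3, 0x6978520413, 5),
  (3, 0x5689743210, 4), (3, 0x9865743210, 6), (1, 0x5689724031, 4), (1, 0x9865724031, 6), (2, 0x9865704213, 3),
  (3, 0x5689714023, 4), (3, 0x9865714023, 6), (3, 0x9865720413, 5), (2, 0x6859743210, 4), (2, 0x8597643210, 4),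
  (2, 0x7986543210, 4), (2, 0x9865743210, 4), (2, 0x7685930421, 5), (3, 0x6859730421, 4), (3, 0x8597630421, 4),
  (3, 0x5798630421, 5), (2, 0x7986530421, 4), (2, 0x9865730421, 4), (2, 0x7685920413, 5), (3, 0x6859720413, 4),
  (3, 0x8597620413, 4), (2, 0x5798620413, 5), (3, 0x7986520413, 4), (3, 0x9865720413, 4), (1, 0x5697843210, 4),
  (1, 0x5987630421, 5), (1, 0x8569730421, 5), (4, 0x5697830421, 4), (1, 0x5987620413, 5), (4, 0x8569720413, 5),
  (1, 0x5697820413, 4), (3, 0x5697843102, 6), (1, 0x9876543102, 6), (1, 0x5697814230, 6), (1, 0x7869514230, 4),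
  (1, 0x8695714230, 4), (2, 0x5968714230, 6), (3, 0x5697804213, 6), (1, 0x6978504213, 4), (3, 0x6859743102, 4),
  (2, 0x8597643102, 4), (1, 0x5976843102, 4), (1, 0x7986543102, 4), (1, 0x9865743102, 4), (4, 0x6859714230, 4),
  (4, 0x5976814230, 4), (3, 0x6859704213, 4), (2, 0x8597604213, 4), (3, 0x5976804213, 4), (4, 0x6978504213, 6),
  (3, 0x7986504213, 4), (3, 0x9865704213, 4), (2, 0x9876543102, 4), (3, 0x5697843102, 4), (1, 0x9876514230, 4),
  (1, 0x5697814230, 4), (2, 0x5689714230, 4), (4, 0x9865714230, 6), (2, 0x9876504213, 4), (4, 0x5697804213, 4),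
  (2, 0x6758943102, 4), (3, 0x7589643102, 4), (4, 0x5987614230, 4), (2, 0x6758914230, 4), (1, 0x7589614230, 4),
  (3, 0x9857614230, 6), (2, 0x6795814230, 4), (3, 0x6758904213, 4), (4, 0x7589604213, 4), (2, 0x9857604213, 6),
  (3, 0x6795804213, 4), (4, 0x8597643102, 6), (1, 0x7596843102, 6), (1, 0x5968743102, 4), (4, 0x8597614230, 6),
  (3, 0x7596814230, 6), (2, 0x5968714230, 4), (1, 0x8597604213, 6), (1, 0x7596804213, 6), (1, 0x5968704213, 4),
  (3, 0x5879643102, 4), (3, 0x8796543102, 4), (1, 0x6978543102, 6), (4, 0x5879614230, 4), (4, 0x8796514230, 4),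
  (1, 0x6978514230, 6), (3, 0x5879604213, 4), (3, 0x8796504213, 4), (2, 0x7596843102, 4), (1, 0x8679543102, 4),
  (1, 0x6795843102, 4), (4, 0x5976843102, 6), (1, 0x8679514230, 4), (2, 0x7596804213, 4), (4, 0x8679504213, 4),
  (3, 0x9865743102, 6), (2, 0x9865704213, 6), (4, 0x5798643102, 4), (4, 0x6758943102, 6), (4, 0x5798614230, 4),
  (4, 0x7986514230, 4), (4, 0x9865714230, 4), (1, 0x6758914230, 6), (1, 0x5798604213, 4), (4, 0x6758904213, 6),
  (1, 0x5968743102, 6), (2, 0x6985743102, 4), (4, 0x5968704213, 6), (2, 0x6985704213, 4), (1, 0x7568943102, 4),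
  (1, 0x5689743102, 4), (1, 0x7568914230, 4), (4, 0x7568904213, 4), (4, 0x5689704213, 4), (1, 0x5678943102, 4),
  (4, 0x6789543102, 4), (1, 0x5678914230, 4), (3, 0x6789514230, 4), (4, 0x5678904213, 4), (2, 0x6789504213, 4),
  (3, 0x9857614230, 4)]

/-- a type of vectors -/
def C2 (v : V) : Prop := Fx 10 cx v ∧ Fx 10 cy v ∧ An 10 ct v ∧ An 10 cu v

theorem C2_TX (hp : ∀ v : V, 5 • v = 0) {v : V} (h : C2 v) : C2 (ev 10 v TX) :=
  ⟨ckFx hp [rf 5 cx, rf 5 cy, ra ct, ra cu] (fc (rfz hp h.1) (fc (rfz hp h.2.1) (fc (raz h.2.2.1) (fc (raz h.2.2.2) fe)))) cx TX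
    []
    (by decide +kernel) (by decide +kernel) (by decide +kernel),
  ckFx hp [rf 5 cx, rf 5 cy, ra ct, ra cu] (fc (rfz hp h.1) (fc (rfz hp h.2.1) (fc (raz h.2.2.1) (fc (raz h.2.2.2) fe)))) cy TX
    [(4, 0x5987621430, 2), (1, 0x9876521430, 1), (4, 0x5987632041, 2), (1, 0x9876532041, 1), (4, 0x5987643102, 2),
  (1, 0x9876543102, 1), (4, 0x5987604213, 2), (1, 0x9876504213, 1), (4, 0x9876523014, 1), (1, 0x9876521430, 2),
  (1, 0x9876532041, 2), (1, 0x9876543102, 2), (1, 0x9876504213, 2)]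
    (by decide +kernel) (by decide +kernel) (by decide +kernel),
  ckAn hp [rf 5 cx, rf 5 cy, ra ct, ra cu] (fc (rfz hp h.1) (fc (rfz hp h.2.1) (fc (raz h.2.2.1) (fc (raz h.2.2.2) fe)))) ct TX
    [(4, 0x9876503241, 0), (4, 0x9876532410, 0), (4, 0x9876514230, 2), (4, 0x9876521430, 2), (4, 0x9876532041, 2),
  (4, 0x9876543102, 2), (4, 0x9876504213, 2), (4, 0x9876530142, 0), (4, 0x9876501423, 0), (4, 0x9876514230, 0)]
    (by decide +kernel) (by decide +kernel) (by decide +kernel),
  ckAn hp [rf 5 cx, rf 5 cy, ra ct, ra cu] (fc (rfz hp h.1) (fc (rfz hp h.2.1) (fc (raz h.2.2.1) (fc (raz h.2.2.2) fe)))) cu TX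
    [(4, 0x9876534120, 3), (4, 0x9876540231, 3), (4, 0x9876501342, 3), (4, 0x9876512403, 3), (4, 0x9876523014, 3)]
    (by decide +kernel) (by decide +kernel) (by decide +kernel)⟩

theorem sq_TX (hp : ∀ v : V, 5 • v = 0) {v : V} (h : C2 v) : ev 10 (ev 10 v TX) TX = 0 := by
  rw [← ev_fmul (by norm_num) v (m := TX) (by decide +kernel) TX (by decide +kernel)]
  exact ckZ hp [rf 5 cx, rf 5 cy, ra ct, ra cu] (fc (rfz hp h.1) (fc (rfz hp h.2.1) (fc (raz h.2.2.1) (fc (raz h.2.2.2) fe)))) _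
    [(4, 0x9876501423, 0), (3, 0x9876524310, 0), (4, 0x9876543102, 0), (4, 0x9876513042, 0), (3, 0x9876530421, 0),
  (4, 0x9876504213, 0), (4, 0x9876520413, 2), (1, 0x9876504132, 0), (2, 0x9876543210, 0), (4, 0x9876512034, 0),
  (4, 0x9876501342, 0), (4, 0x9876543102, 2), (3, 0x9876504321, 0), (4, 0x9876523140, 0), (4, 0x9876501423, 2),
  (4, 0x9876512403, 0), (4, 0x9876504213, 2), (4, 0x9876510432, 0), (4, 0x9876524310, 2), (4, 0x9876512034, 2),
  (4, 0x9876503241, 2), (1, 0x9876532410, 0), (4, 0x9876501234, 2), (1, 0x9876512340, 0), (1, 0x9876543210, 2),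
  (4, 0x9876530421, 2), (4, 0x9876523140, 2), (4, 0x9876502431, 0), (4, 0x9876514302, 2), (1, 0x9876543021, 0)] (by decide +kernel)

theorem C2_TY (hp : ∀ v : V, 5 • v = 0) {v : V} (h : C2 v) : C2 (ev 10 v TY) :=
  ⟨ckFx hp [rf 5 cx, rf 5 cy, ra ct, ra cu] (fc (rfz hp h.1) (fc (rfz hp h.2.1) (fc (raz h.2.2.1) (fc (raz h.2.2.2) fe)))) cx TY
    [(4, 0x7698504321, 3), (1, 0x6985704321, 1), (1, 0x9857604321, 1), (1, 0x9857643210, 0), (4, 0x8759604321, 3),
  (1, 0x7596804321, 1), (1, 0x5968704321, 1), (1, 0x5968743210, 0), (4, 0x9865704321, 3), (1, 0x9865743210, 0),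
  (4, 0x5976804321, 3), (1, 0x5976843210, 0), (4, 0x8569704321, 1), (4, 0x5697804321, 1), (4, 0x6978504321, 1),
  (4, 0x6978543210, 0), (1, 0x7698543210, 3), (4, 0x6985743210, 1), (4, 0x9857643210, 1), (1, 0x8759643210, 3),
  (4, 0x7596843210, 1), (4, 0x5968743210, 1), (1, 0x9865743210, 3), (1, 0x5976843210, 3), (1, 0x8569743210, 1),
  (1, 0x5697843210, 1), (1, 0x6978543210, 1)]
    (by decide +kernel) (by decide +kernel) (by decide +kernel),
  ckFx hp [rf 5 cx, rf 5 cy, ra ct, ra cu] (fc (rfz hp h.1) (fc (rfz hp h.2.1) (fc (raz h.2.2.1) (fc (raz h.2.2.2) fe)))) cy TY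
    []
    (by decide +kernel) (by decide +kernel) (by decide +kernel),
  ckAn hp [rf 5 cx, rf 5 cy, ra ct, ra cu] (fc (rfz hp h.1) (fc (rfz hp h.2.1) (fc (raz h.2.2.1) (fc (raz h.2.2.2) fe)))) ct TY
    [(4, 0x7698512340, 3), (1, 0x7698543210, 2), (4, 0x8759612340, 3), (1, 0x8759643210, 2), (4, 0x9865712340, 3),
  (1, 0x9865743210, 2), (4, 0x5976812340, 3), (1, 0x5976843210, 2), (4, 0x7856943210, 2), (4, 0x7698543210, 3),
  (4, 0x8759643210, 3), (4, 0x9865743210, 3), (4, 0x5976843210, 3)]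
    (by decide +kernel) (by decide +kernel) (by decide +kernel),
  ckAn hp [rf 5 cx, rf 5 cy, ra ct, ra cu] (fc (rfz hp h.1) (fc (rfz hp h.2.1) (fc (raz h.2.2.1) (fc (raz h.2.2.2) fe)))) cu TY
    [(4, 0x5879643210, 1), (4, 0x8796543210, 1), (4, 0x6978543210, 3), (4, 0x7698543210, 3), (4, 0x8759643210, 3),
  (4, 0x9865743210, 3), (4, 0x5976843210, 3), (4, 0x8569743210, 1), (4, 0x5697843210, 1), (4, 0x6978543210, 1)]
    (by decide +kernel) (by decide +kernel) (by decide +kernel)⟩

theorem sq_TY (hp : ∀ v : V, 5 • v = 0) {v : V} (h : C2 v) : ev 10 (ev 10 v TY) TY = 0 := by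
  rw [← ev_fmul (by norm_num) v (m := TY) (by decide +kernel) TY (by decide +kernel)]
  exact ckZ hp [rf 5 cx, rf 5 cy, ra ct, ra cu] (fc (rfz hp h.1) (fc (rfz hp h.2.1) (fc (raz h.2.2.1) (fc (raz h.2.2.2) fe)))) _
    [(4, 0x5697843210, 1), (3, 0x7986543210, 1), (4, 0x9865743210, 1), (4, 0x6859743210, 1), (3, 0x8597643210, 1),
  (4, 0x5976843210, 1), (4, 0x7596843210, 3), (1, 0x5968743210, 1), (2, 0x9876543210, 1), (4, 0x6758943210, 1),
  (4, 0x5689743210, 1), (4, 0x9865743210, 3), (3, 0x5987643210, 1), (4, 0x7869543210, 1), (4, 0x5697843210, 3),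
  (4, 0x6795843210, 1), (4, 0x5976843210, 3), (4, 0x6598743210, 1), (4, 0x7986543210, 3), (4, 0x6758943210, 3),
  (4, 0x5879643210, 3), (1, 0x8796543210, 1), (4, 0x5678943210, 3), (1, 0x6789543210, 1), (1, 0x9876543210, 3),
  (4, 0x8597643210, 3), (4, 0x7869543210, 3), (4, 0x5798643210, 1), (4, 0x6985743210, 3), (1, 0x9857643210, 1)] (by decide +kernel)

theorem comm_TX_TY (hp : ∀ v : V, 5 • v = 0) (v : V) : ev 10 (ev 10 v TX) TY = ev 10 (ev 10 v TY) TX := by
  rw [← ev_fmul (by norm_num) v (m := TX) (by decide +kernel) TY (by decide +kernel),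
    ← ev_fmul (by norm_num) v (m := TY) (by decide +kernel) TX (by decide +kernel)]
  have h := ckZ hp (v := v) [] fe (fmul TY TX ++ sc 4 (fmul TX TY)) [] (by decide +kernel)
  rw [ev_append, ev_sc, show (4 : ℕ) = 5 - 1 from rfl, pred_smul hp (by norm_num)] at h
  exact add_neg_eq_zero.1 h

theorem C2_A (hp : ∀ v : V, 5 • v = 0) (hNF : NF 10 V) {v : V} (h : C2 v) (hX : ev 10 v TX = 0)
    (hY : ev 10 v TY = 0) : v = 0 := by
  have zI := ckKill hp hNF [TX, TY, rf 5 cx, rf 5 cy, ra ct, ra cu] (fc hX (fc hY (fc (rfz hp h.1) (fc (rfz hp h.2.1) (fc (raz h.2.2.1) (fc (raz h.2.2.2) fe)))))) 0x5987604321 0x9857643021 0 [false] [false, true, false, true]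
    [true, true] [true, false, true, false] LI
    tI1
    tI2
    (by decide +kernel) (by decide +kernel) (by decide +kernel) (by decide +kernel)
  have h0 := ckZ hp [LI, TX, TY, rf 5 cx, rf 5 cy, ra ct, ra cu]
    (fc zI (fc hX (fc hY (fc (rfz hp h.1) (fc (rfz hp h.2.1) (fc (raz h.2.2.1) (fc (raz h.2.2.2) fe))))))) [(1, idc)] tIf (by decide +kernel)
  rwa [ev_one (by norm_num)] at h0

theorem C2_zero (hp : ∀ v : V, 5 • v = 0) (hNF : NF 10 V) {v : V} (h : C2 v) : v = 0 := by
  have hX := C2_TX hp h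
  have hY := C2_TY hp h
  have hXY : ev 10 (ev 10 v TX) TY = 0 := by
    apply C2_A hp hNF (C2_TY hp hX)
    · rw [← comm_TX_TY hp, sq_TX hp h, ev_zero]
    · exact sq_TY hp hX
  have hX0 : ev 10 v TX = 0 := C2_A hp hNF hX (sq_TX hp h) hXY
  have hY0 : ev 10 v TY = 0 := C2_A hp hNF hY (by rw [← comm_TX_TY hp, hXY]) (sq_TY hp h)
  exact C2_A hp hNF h hX0 hY0

/-- weighted sum -/
def M0 : FS :=
  [(1, 0x9876504321), (2, 0x9876510432), (3, 0x9876521043), (4, 0x9876532104)]

theorem C3 (hp : ∀ v : V, 5 • v = 0) (hNF : NF 10 V) {v : V} (h1 : Fx 10 a3 v) (h2 : Fx 10 v1 v)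
    (h3 : Fx 10 cy v) (h4 : An 10 cu v) : v = 0 := by
  have zS := ckKill hp hNF [rf 5 a3, rf 5 v1] (fc (rfz hp h1) (fc (rfz hp h2) fe)) 0x9876504321 0x9876541320 0 [false] [false, true, false, true]
    [true, true] [true, false, true, false] SX
    []
    [(4, 0x9876543210, 0), (4, 0x9876501342, 0), (4, 0x9876510432, 1), (4, 0x9876524103, 0), (4, 0x9876521043, 0),
  (4, 0x9876530421, 0), (4, 0x9876503241, 1), (4, 0x9876502431, 0), (4, 0x9876504321, 0), (4, 0x9876531024, 1),
  (4, 0x9876530214, 0), (4, 0x9876532104, 0)]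
    (by decide +kernel) (by decide +kernel) (by decide +kernel) (by decide +kernel)
  have zM := C2_zero hp hNF (v := ev 10 v M0)
    ⟨ckFx hp [SX, rf 5 a3, rf 5 v1] (fc zS (fc (rfz hp h1) (fc (rfz hp h2) fe))) cx M0
    [(1, 0x9876543210, 0)]
    (by decide +kernel) (by decide +kernel) (by decide +kernel),
    fx_comm (by norm_num) (by decide +kernel) (by decide +kernel) (by decide +kernel) h3,
    ckAn hp [rf 5 a3, rf 5 v1] (fc (rfz hp h1) (fc (rfz hp h2) fe)) ct M0
    [(4, 0x9876502314, 0), (4, 0x9876503124, 0), (4, 0x9876530214, 1), (4, 0x9876532104, 0), (3, 0x9876541203, 0),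
  (3, 0x9876542013, 0), (3, 0x9876524103, 1), (3, 0x9876521043, 0), (2, 0x9876530142, 0), (2, 0x9876531402, 0),
  (2, 0x9876513042, 1), (2, 0x9876510432, 0), (1, 0x9876524031, 0), (1, 0x9876520341, 0), (1, 0x9876502431, 1),
  (1, 0x9876504321, 0)]
    (by decide +kernel) (by decide +kernel) (by decide +kernel),
    an_comm (by norm_num) (by decide +kernel) (by decide +kernel) (by decide +kernel) h4⟩
  have hx := ckZ hp [M0, SX, rf 5 a3, rf 5 v1]
    (fc zM (fc zS (fc (rfz hp h1) (fc (rfz hp h2) fe)))) (rf 5 cx)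
    [(2, 0x9876543210, 0), (1, 0x9876543021, 0), (1, 0x9876504132, 0), (4, 0x9876513042, 2), (4, 0x9876510432, 2),
  (3, 0x9876524310, 2), (3, 0x9876542130, 3), (3, 0x9876541320, 2), (4, 0x9876543210, 2), (2, 0x9876520413, 3),
  (1, 0x9876524103, 2), (1, 0x9876521043, 2), (3, 0x9876532104, 2), (3, 0x9876530421, 2), (3, 0x9876503241, 3),
  (3, 0x9876502431, 2), (3, 0x9876504321, 2), (2, 0x9876531024, 3), (2, 0x9876530214, 2)] (by decide +kernel)
  exact hNF.zero (by norm_num) (a := 0x9876504321) (b := 0x9876541320) (i := 0) (w₁ := [false]) (w₂ := [false, true, false, true])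
    (w₃ := [true, true]) (w₄ := [true, false, true, false]) (by decide +kernel) (fxz hp hx) h1


/-- sum over the second alternating group of degree 4 -/
def NB : FS :=
  [(1, 0x6789543210), (1, 0x6897543210), (1, 0x6978543210), (1, 0x7698543210), (1, 0x7869543210), (1, 0x7986543210),
  (1, 0x8679543210), (1, 0x8796543210), (1, 0x8967543210), (1, 0x9687543210), (1, 0x9768543210), (1, 0x9876543210)]

/-- sum of the powers of the second 5-cycle minus its translate -/
def RK : FS :=
  [(4, 0x5678943210), (1, 0x5987643210), (1, 0x6598743210), (4, 0x6789543210), (1, 0x7659843210), (4, 0x7895643210),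
  (1, 0x8765943210), (4, 0x8956743210), (4, 0x9567843210), (1, 0x9876543210)]

/-- orbit sum -/
def S1 : FS :=
  [(1, 0x5968743210), (1, 0x5976843210), (1, 0x6978543210), (1, 0x9857643210), (1, 0x9865743210), (1, 0x9876543210)]

/-- orbit sum -/
def S2 : FS :=
  [(1, 0x695843217), (1, 0x756943218), (1, 0x7508643219), (1, 0x7985043216), (1, 0x8609743215), (1, 0x9876543210)]

/-- second step -/
def L2 : FS :=
  [(2, 0x978643215), (2, 0x5697843210), (1, 0x7068543219), (1, 0x9708643215)]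

/-- second step -/
def R2 : FS :=
  [(3, 0x687943215), (2, 0x978643215), (2, 0x5697843210), (3, 0x5968743210), (4, 0x6807943215), (1, 0x7068543219),
  (4, 0x8097543216), (1, 0x9708643215)]

theorem C4a (hp : ∀ v : V, 5 • v = 0) (hNF : NF 10 V) {v : V} (h1 : Fx 10 a3 v) (h2 : Fx 10 v1 v)
    (h3 : Fx 10 cy v) : Fx 10 cu v := by
  have h := C3 hp hNF (v := ev 10 v (rf 5 cu))
    (fx_comm (by norm_num) (by decide +kernel) (by decide +kernel) (by decide +kernel) h1)
    (fx_comm (by norm_num) (by decide +kernel) (by decide +kernel) (by decide +kernel) h2)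
    (ckFx hp [rf 5 cy] (fc (rfz hp h3) fe) cy (rf 5 cu)
      [(4, 0x8956743210, 0), (4, 0x9567843210, 0), (4, 0x5678943210, 0), (4, 0x6789543210, 0), (1, 0x9876543210, 0)] (by decide +kernel) (by decide +kernel) (by decide +kernel))
    (ckAn hp [] fe cu (rf 5 cu) [] (by decide +kernel) (by decide +kernel) (by decide +kernel))
  exact fxz hp h

theorem C4R (hp : ∀ v : V, 5 • v = 0) (hNF : NF 10 V) {v : V} (h1 : Fx 10 a3 v) (h2 : Fx 10 v1 v) :
    ev 10 v RK = 0 := by
  have h := C4a hp hNF (v := ev 10 v SY)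
    (fx_comm (by norm_num) (by decide +kernel) (by decide +kernel) (by decide +kernel) h1)
    (fx_comm (by norm_num) (by decide +kernel) (by decide +kernel) (by decide +kernel) h2)
    (ckFx hp [] fe cy SY [] (by decide +kernel) (by decide +kernel) (by decide +kernel))
  have h' := rfz hp h
  rw [← ev_fmul (by norm_num) v (m := SY) (by decide +kernel) _ (by decide +kernel)] at h'
  have h2 := ckZ hp (v := v) [fmul (rf 5 cu) SY] (fc h' fe) RK [(1, idc, 0)] (by decide +kernel)
  exact h2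

theorem zNB (hp : ∀ v : V, 5 • v = 0) (hNF : NF 10 V) {v : V} (h1 : Fx 10 a3 v) (h2 : Fx 10 v1 v) :
    ev 10 v NB = 0 :=
  Z1 hp hNF (fx_comm (by norm_num) (by decide +kernel) (by decide +kernel) (by decide +kernel) h1)
    (fx_comm (by norm_num) (by decide +kernel) (by decide +kernel) (by decide +kernel) h2)
    (ckFx hp [] fe b3 NB [] (by decide +kernel) (by decide +kernel) (by decide +kernel))
    (ckFx hp [] fe w1 NB [] (by decide +kernel) (by decide +kernel) (by decide +kernel))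

theorem fx_smul {a k : ℕ} (ha : okc 10 a = true) (hk : okc 10 k = true) (hc : Nat.beq (comp a k) (comp k a) = true)
    {v : V} (h : Fx 10 a v) : Fx 10 a (toPerm 10 k • v) := by
  have h2 := (comp_ok (by norm_num) ha hk).2
  rw [Nat.eq_of_beq_eq_true hc, (comp_ok (by norm_num) hk ha).2] at h2
  have h3 : toPerm 10 a • v = v := h
  unfold Fx
  rw [← mul_smul, ← h2, mul_smul, h3]

/-- a certificate -/
def tL2 : List (ℕ × ℕ × ℕ) :=
  [(3, 0x5706843219, 1), (1, 0x986743215, 0), (3, 0x5706843219, 2), (2, 0x5097643218, 0), (4, 0x5807643219, 0),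
  (4, 0x8759643210, 1), (4, 0x5096843217, 0), (4, 0x6978543210, 2), (3, 0x8759643210, 2), (3, 0x8759643210, 3),
  (4, 0x856743219, 2), (2, 0x6750843219, 3), (2, 0x8759643210, 0), (3, 0x5097643218, 1), (3, 0x6795843210, 2),
  (4, 0x5097643218, 2), (3, 0x7589643210, 4), (1, 0x5896743210, 4), (1, 0x6985743210, 5), (2, 0x9708643215, 5),
  (3, 0x9850743216, 5), (1, 0x7068543219, 4), (2, 0x8569743210, 5), (4, 0x5697843210, 4), (2, 0x865943217, 4),
  (4, 0x8659043217, 4), (2, 0x6590843217, 4), (2, 0x7980643215, 5), (4, 0x8067943215, 4), (3, 0x5789043216, 4),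
  (2, 0x698743215, 4), (2, 0x6987043215, 4), (4, 0x9870643215, 4), (2, 0x7690843215, 5), (4, 0x9806743215, 5),
  (1, 0x6807943215, 5), (3, 0x8079643215, 4), (2, 0x6879043215, 4), (4, 0x8790643215, 4), (4, 0x978643215, 5),
  (2, 0x5806943217, 5), (2, 0x8069543217, 4), (2, 0x695843217, 4), (2, 0x876943215, 5), (1, 0x8769043215, 4),
  (3, 0x7690843215, 4), (2, 0x865943217, 5), (4, 0x5870943216, 5), (2, 0x8709543216, 4), (4, 0x7095843216, 4),
  (2, 0x6850943217, 5), (4, 0x8509643217, 4), (4, 0x5096843217, 4), (2, 0x7805943216, 5), (2, 0x8059743216, 4),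
  (2, 0x5867943210, 5), (2, 0x8679543210, 4), (2, 0x9768543210, 5), (2, 0x7856943210, 5), (2, 0x8569743210, 4),
  (3, 0x5809743216, 4), (2, 0x6875943210, 5), (3, 0x8759643210, 4), (2, 0x7596843210, 4), (2, 0x756943218, 5),
  (4, 0x769543218, 4), (4, 0x7695043218, 4), (1, 0x8076543219, 4), (1, 0x765843219, 4), (2, 0x7658043219, 4),
  (3, 0x8607543219, 4), (3, 0x7068543219, 5), (2, 0x8756043219, 5), (4, 0x8760543219, 4), (1, 0x5086743219, 4),
  (3, 0x867543219, 4), (1, 0x5078643219, 4), (1, 0x8705643219, 5), (2, 0x5698043217, 4), (4, 0x6980543217, 4),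
  (1, 0x7065943218, 5), (1, 0x659743218, 4), (1, 0x6597043218, 4), (3, 0x9085743216, 4), (3, 0x5809743216, 5),
  (1, 0x896543217, 4), (1, 0x6980543217, 5), (1, 0x5609843217, 4), (2, 0x6098543217, 4), (2, 0x985643217, 4),
  (4, 0x689543217, 4), (4, 0x6895043217, 4), (4, 0x5986043217, 5), (2, 0x5960843217, 4), (3, 0x695843217, 5),
  (1, 0x8590743216, 4), (1, 0x5907843216, 4), (1, 0x7095843216, 5), (1, 0x7580943216, 4), (4, 0x7598043216, 5),
  (1, 0x8570643219, 4), (1, 0x5706843219, 4), (1, 0x6597043218, 5), (2, 0x7590643218, 4), (1, 0x6589043217, 5),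
  (3, 0x5890643217, 4), (3, 0x985643217, 5), (3, 0x6570943218, 4), (1, 0x8596043217, 5), (4, 0x7695043218, 5),
  (2, 0x9657043218, 5), (2, 0x8659043217, 5), (2, 0x5698043217, 5), (2, 0x7680543219, 4), (2, 0x867543219, 5),
  (2, 0x8690543217, 4), (2, 0x6905843217, 4), (2, 0x7658043219, 5), (2, 0x8697043215, 5), (2, 0x6970843215, 4),
  (2, 0x9708643215, 4), (2, 0x7689043215, 5), (4, 0x6890743215, 4), (4, 0x986743215, 5), (2, 0x5687043219, 5),
  (4, 0x6870543219, 4), (4, 0x8705643219, 4), (2, 0x956843217, 4), (2, 0x6590843217, 5), (2, 0x7506943218, 5),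
  (2, 0x5069743218, 4), (2, 0x8709543216, 5), (3, 0x6907543218, 5), (3, 0x9075643218, 4), (3, 0x756943218, 4),
  (3, 0x876943215, 4), (3, 0x5706843219, 5), (1, 0x5769843210, 4), (2, 0x7698543210, 4), (4, 0x6985743210, 4),
  (1, 0x6759043218, 4), (1, 0x6709843215, 4), (1, 0x7098643215, 4), (1, 0x986743215, 4), (1, 0x789643215, 4),
  (1, 0x9870643215, 5), (1, 0x759843216, 4), (1, 0x7598043216, 4), (3, 0x8695743210, 5), (3, 0x6957843210, 4),
  (3, 0x7596843210, 5), (3, 0x9765043218, 4), (2, 0x9756843210, 4), (2, 0x7568943210, 4), (2, 0x8657943210, 5),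
  (2, 0x596743218, 5), (2, 0x5967043218, 4), (3, 0x5678943210, 5), (3, 0x7986543210, 5), (3, 0x9865743210, 4),
  (3, 0x8657943210, 4), (3, 0x7965843210, 4), (4, 0x5697843210, 5), (3, 0x7589643210, 5), (3, 0x8597643210, 4),
  (3, 0x5976843210, 4), (3, 0x9768543210, 4), (2, 0x7698543210, 5), (2, 0x6807943215, 4), (2, 0x6059843217, 5),
  (2, 0x598643217, 4), (2, 0x5986043217, 4), (2, 0x5870943216, 4), (2, 0x9850743216, 4), (2, 0x6879043215, 5),
  (2, 0x6850943217, 4), (2, 0x5860743219, 4), (2, 0x5876043219, 5), (1, 0x7608943215, 4), (1, 0x8067943215, 5),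
  (1, 0x5609843217, 5), (1, 0x5678943210, 4), (1, 0x657843219, 5), (1, 0x6578043219, 4), (1, 0x678543219, 4),
  (1, 0x8760543219, 5)]

/-- a certificate -/
def tw : List (ℕ × ℕ × ℕ) :=
  [(2, 0x9785643210, 2), (2, 0x7056843219, 2), (4, 0x9075643218, 1), (3, 0x5076943218, 2), (1, 0x869743215, 2),
  (3, 0x897643215, 2), (4, 0x8096743215, 2), (2, 0x8067943215, 2), (4, 0x7650943218, 2), (3, 0x7508643219, 4),
  (3, 0x5086743219, 3), (3, 0x867543219, 3), (3, 0x7089543216, 4), (4, 0x7596843210, 4), (3, 0x986743215, 3),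
  (4, 0x5789043216, 3), (2, 0x7089543216, 3), (1, 0x5768043219, 4), (1, 0x7680543219, 3), (2, 0x867543219, 4),
  (4, 0x695843217, 4), (1, 0x7506943218, 3), (1, 0x5069743218, 3), (2, 0x9758043216, 3), (2, 0x7580943216, 3),
  (4, 0x5069743218, 4), (2, 0x957643218, 3), (2, 0x7590643218, 4), (3, 0x756943218, 3), (1, 0x5960843217, 3),
  (1, 0x5678943210, 4), (1, 0x6789543210, 3), (1, 0x9876543210, 4), (4, 0x6097843215, 4), (4, 0x978643215, 3),
  (4, 0x6570943218, 3), (2, 0x756943218, 4), (4, 0x5706843219, 3), (3, 0x7068543219, 3), (2, 0x875643219, 4),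
  (2, 0x659743218, 4), (3, 0x7580943216, 4), (2, 0x7068543219, 4), (3, 0x875643219, 3), (3, 0x689543217, 3),
  (3, 0x6895043217, 3), (3, 0x5986043217, 4), (4, 0x6589043217, 3), (2, 0x985643217, 4), (1, 0x5067843219, 3),
  (1, 0x678543219, 3), (1, 0x8760543219, 4), (1, 0x6589043217, 4), (4, 0x7098643215, 3), (2, 0x8759643210, 4),
  (1, 0x7596843210, 3), (4, 0x987543216, 3), (2, 0x8590743216, 4), (1, 0x789643215, 3), (1, 0x9870643215, 4),
  (3, 0x8590743216, 3), (2, 0x6890743215, 3), (2, 0x986743215, 4), (1, 0x598643217, 4), (3, 0x6098543217, 3),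
  (3, 0x985643217, 3), (4, 0x598643217, 3), (1, 0x6879043215, 4), (1, 0x8790643215, 3), (1, 0x978643215, 4),
  (1, 0x8607543219, 3), (3, 0x6507843219, 3), (2, 0x6850943217, 4), (2, 0x8509643217, 3), (2, 0x6507843219, 4),
  (1, 0x8069543217, 3), (1, 0x695843217, 3), (1, 0x5860743219, 3), (3, 0x7065943218, 3), (3, 0x659743218, 3),
  (4, 0x8759643210, 3), (3, 0x657843219, 3), (3, 0x6578043219, 3), (3, 0x8756043219, 4), (4, 0x5860743219, 4)]

theorem C4b (hp : ∀ v : V, 5 • v = 0) (hNF : NF 10 V) {v : V} (h1 : Fx 10 a3 v) (h2 : Fx 10 v1 v)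
    (h3 : Fx 10 cy v) : v = 0 := by
  have h4 := C4a hp hNF h1 h2 h3
  have zS1 := ckKill hp hNF [rf 5 cy, rf 5 cu] (fc (rfz hp h3) (fc (rfz hp h4) fe)) 0x5987643210 0x9687543210 5 [false] [false, true, false, true]
    [true, true] [true, false, true, false] S1
    [(4, 0x9876543210, 0), (4, 0x9756843210, 1), (4, 0x7568943210, 0), (4, 0x8657943210, 1), (4, 0x7856943210, 1),
  (4, 0x8569743210, 0), (4, 0x5697843210, 0), (1, 0x7589643210, 1), (1, 0x8657943210, 0), (1, 0x8796543210, 1),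
  (1, 0x7965843210, 0), (1, 0x5697843210, 1)]
    [(4, 0x6875943210, 0), (4, 0x8759643210, 0), (4, 0x7596843210, 0), (4, 0x8569743210, 1), (4, 0x5697843210, 0),
  (4, 0x5769843210, 1), (4, 0x7698543210, 0), (4, 0x6985743210, 0), (4, 0x9865743210, 0), (4, 0x9876543210, 0),
  (1, 0x7589643210, 1), (1, 0x5896743210, 0), (1, 0x6985743210, 1), (1, 0x8695743210, 1), (1, 0x6957843210, 0),
  (1, 0x7596843210, 1), (1, 0x8796543210, 1), (1, 0x7965843210, 0), (1, 0x5697843210, 1)]
    (by decide +kernel) (by decide +kernel) (by decide +kernel) (by decide +kernel)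
  have zS2 := ckKill hp hNF [rf 5 cy, rf 5 cu] (fc (rfz hp h3) (fc (rfz hp h4) fe)) 0x5987643210 0x695843217 5 [false] [false, true, false, true]
    [true, true] [true, false, true, false] S2
    [(4, 0x9876543210, 0), (4, 0x5960843217, 0), (4, 0x695843217, 1), (4, 0x7058943216, 0), (4, 0x8507943216, 1),
  (1, 0x5086743219, 0), (1, 0x867543219, 0), (1, 0x9850743216, 0), (1, 0x8507943216, 0)]
    [(4, 0x8609743215, 1), (4, 0x756943218, 1)]
    (by decide +kernel) (by decide +kernel) (by decide +kernel) (by decide +kernel)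
  have q0 : ev 10 v (rm NB 0x7658043219) = 0 := by
    rw [ev_rm (by norm_num) v (by decide +kernel) _ (by decide +kernel)]
    exact zNB hp hNF (fx_smul (by decide +kernel) (by decide +kernel) (by decide +kernel) h1)
      (fx_smul (by decide +kernel) (by decide +kernel) (by decide +kernel) h2)
  have q1 : ev 10 v (rm RK 0x7095843216) = 0 := by
    rw [ev_rm (by norm_num) v (by decide +kernel) _ (by decide +kernel)]
    exact C4R hp hNF (fx_smul (by decide +kernel) (by decide +kernel) (by decide +kernel) h1)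
      (fx_smul (by decide +kernel) (by decide +kernel) (by decide +kernel) h2)
  have h5 := C4a hp hNF (v := ev 10 v L2)
    (fx_comm (by norm_num) (by decide +kernel) (by decide +kernel) (by decide +kernel) h1)
    (fx_comm (by norm_num) (by decide +kernel) (by decide +kernel) (by decide +kernel) h2)
    (ckFx hp [S1, S2, rm NB 0x7658043219, rm RK 0x7095843216, rf 5 cy, rf 5 cu] (fc zS1 (fc zS2 (fc q0 (fc q1 (fc (rfz hp h3) (fc (rfz hp h4) fe)))))) cy L2
    tL2
    (by decide +kernel) (by decide +kernel) (by decide +kernel))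
  have h6 := rfz hp h5
  rw [← ev_fmul (by norm_num) v (m := L2) (by decide +kernel) _ (by decide +kernel)] at h6
  have zR2 := ckZ hp (v := v) [fmul (rf 5 cu) L2] (fc h6 fe) R2 [(1, idc, 0)] (by decide +kernel)
  have h0 := ckZ hp [S1, S2, R2, rf 5 cy, rf 5 cu]
    (fc zS1 (fc zS2 (fc zR2 (fc (rfz hp h3) (fc (rfz hp h4) fe))))) [(1, idc)] tw (by decide +kernel)
  rwa [ev_one (by norm_num)] at h0

/-- **No vectors fixed by the alternating group of degree 4.** -/
theorem C4 (hp : ∀ v : V, 5 • v = 0) (hNF : NF 10 V) {v : V} (h1 : Fx 10 a3 v) (h2 : Fx 10 v1 v) : v = 0 := by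
  by_contra hv
  obtain ⟨w, hw, hy, hL⟩ := exists_fx_five hp [a3, v1] cy (by decide +kernel) (by decide +kernel)
    (by decide +kernel) hv (by
      intro x hx
      simp only [List.mem_cons, List.not_mem_nil, or_false] at hx
      rcases hx with rfl | rfl
      · exact h1
      · exact h2)
  exact hw (C4b hp hNF (hL a3 (by simp)) (hL v1 (by simp)) hy)

end Cfsg.Agent.H196.Five
end

-- part: H196/FiveB
section
/-!
# The prime 5: modules of the symmetric group of degree 10, end of the proof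
-/

set_option autoImplicit false

namespace Cfsg.Agent.H196.Five

open Cfsg.Agent.H196.GA

attribute [local irreducible] comp toPerm dig okc idc

variable {V : Type*} [AddCommGroup V] [DistribMulAction (Equiv.Perm (Fin 10)) V]

/-- sum over the first alternating group of degree 4 -/
def NA : FS :=
  [(1, 0x9876512340), (1, 0x9876513420), (1, 0x9876514230), (1, 0x9876521430), (1, 0x9876523140), (1, 0x9876524310),
  (1, 0x9876531240), (1, 0x9876532410), (1, 0x9876534120), (1, 0x9876541320), (1, 0x9876542130), (1, 0x9876543210)]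

/-- sum over the diagonal alternating group of degree 5 -/
def ND : FS :=
  [(1, 0x5678901234), (1, 0x5689701342), (1, 0x5697801423), (1, 0x5769802143), (1, 0x5786902314), (1, 0x5798602431),
  (1, 0x5867903124), (1, 0x5879603241), (1, 0x5896703412), (1, 0x5968704132), (1, 0x5976804213), (1, 0x5987604321),
  (1, 0x6579810243), (1, 0x6587910324), (1, 0x6598710432), (1, 0x6758912034), (1, 0x6789512340), (1, 0x6795812403),
  (1, 0x6859713042), (1, 0x6875913204), (1, 0x6897513420), (1, 0x6957814023), (1, 0x6978514230), (1, 0x6985714302),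
  (1, 0x7568920134), (1, 0x7589620341), (1, 0x7596820413), (1, 0x7659821043), (1, 0x7685921304), (1, 0x7698521430),
  (1, 0x7856923014), (1, 0x7869523140), (1, 0x7895623401), (1, 0x7958624031), (1, 0x7965824103), (1, 0x7986524310),
  (1, 0x8569730142), (1, 0x8576930214), (1, 0x8597630421), (1, 0x8657931024), (1, 0x8679531240), (1, 0x8695731402),
  (1, 0x8759632041), (1, 0x8765932104), (1, 0x8796532410), (1, 0x8956734012), (1, 0x8967534120), (1, 0x8975634201),
  (1, 0x9567840123), (1, 0x9578640231), (1, 0x9586740312), (1, 0x9658741032), (1, 0x9675841203), (1, 0x9687541320),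
  (1, 0x9756842013), (1, 0x9768542130), (1, 0x9785642301), (1, 0x9857643021), (1, 0x9865743102), (1, 0x9876543210)]

/-- exchange of the two halves -/
abbrev cs : ℕ := 0x4321098765

theorem C4' (hp : ∀ v : V, 5 • v = 0) (hNF : NF 10 V) {v : V} (h1 : Fx 10 b3 v) (h2 : Fx 10 w1 v) : v = 0 := by
  have key : ∀ a b : ℕ, okc 10 a = true → okc 10 b = true → Nat.beq (comp a cs) (comp cs b) = true →
      Fx 10 b v → Fx 10 a (toPerm 10 cs • v) := by
    intro a b ha hb hab h
    have hs : okc 10 cs = true := by decide +kernel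
    have h3 := (comp_ok (by norm_num) ha hs).2
    rw [Nat.eq_of_beq_eq_true hab, (comp_ok (by norm_num) hs hb).2] at h3
    have h4 : toPerm 10 b • v = v := h
    unfold Fx
    rw [← mul_smul, ← h3, mul_smul, h4]
  have h := C4 hp hNF (key a3 b3 (by decide +kernel) (by decide +kernel) (by decide +kernel) h1)
    (key v1 w1 (by decide +kernel) (by decide +kernel) (by decide +kernel) h2)
  exact (smul_eq_zero_iff_eq _).1 h

theorem zNA (hp : ∀ v : V, 5 • v = 0) (hNF : NF 10 V) (v : V) : ev 10 v NA = 0 :=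
  C4 hp hNF (ckFx hp [] fe a3 NA [] (by decide +kernel) (by decide +kernel) (by decide +kernel))
    (ckFx hp [] fe v1 NA [] (by decide +kernel) (by decide +kernel) (by decide +kernel))

theorem zNB' (hp : ∀ v : V, 5 • v = 0) (hNF : NF 10 V) (v : V) : ev 10 v NB = 0 :=
  C4' hp hNF (ckFx hp [] fe b3 NB [] (by decide +kernel) (by decide +kernel) (by decide +kernel))
    (ckFx hp [] fe w1 NB [] (by decide +kernel) (by decide +kernel) (by decide +kernel))

theorem zND (hp : ∀ v : V, 5 • v = 0) (hNF : NF 10 V) (v : V) : ev 10 v ND = 0 :=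
  ckKill hp hNF [] fe 0x5987604321 0x9687541320 0 [false] [false, true, false, true]
    [true, true] [true, false, true, false] ND
    []
    []
    (by decide +kernel) (by decide +kernel) (by decide +kernel) (by decide +kernel)

/-- right factors -/
def kA : List ℕ :=
  [0x7986543210, 0x6978543210, 0x7596843210, 0x7659843210, 0x6579843210, 0x8765943210, 0x9876504321, 0x7986504321,
  0x6978504321, 0x9857604321, 0x5987604321, 0x8597604321, 0x7596804321, 0x7659804321, 0x6579804321, 0x8765904321,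
  0x7685904321, 0x8657904321]

/-- right factors -/
def kB : List ℕ :=
  [0x9876543210, 0x5987643210, 0x9876524310, 0x5987624310, 0x9876514230, 0x5987614230, 0x9876543021, 0x9876504321,
  0x5987604321, 0x9876530421, 0x9876514302, 0x5987614302, 0x9876504132, 0x5987604132, 0x9876510432, 0x5987610432,
  0x9876520413, 0x5987620413, 0x9876521043, 0x9876510243, 0x5987610243, 0x9876532104, 0x5987632104, 0x9876521304,
  0x5987621304, 0x9876531024, 0x5987631024]

/-- right factors -/
def kD : List ℕ :=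
  [0x9876543210, 0x7986543210, 0x6978543210, 0x9857643210, 0x5987643210, 0x5968743210]

/-- the relations for `C5` -/
def rels5 : List FS := kA.map (rm NA) ++ (kB.map (rm NB) ++ kD.map (rm ND))

/-- a certificate -/
def t5 : List (ℕ × ℕ × ℕ) :=
  [(4, 0x9876504321, 4), (3, 0x9876502314, 49), (4, 0x9876523140, 48), (2, 0x8765943210, 18), (2, 0x9876543210, 23),
  (2, 0x5987643210, 19), (3, 0x7659843210, 20), (3, 0x9876501234, 50), (1, 0x9876541320, 45), (4, 0x6598743210, 27),
  (2, 0x9876530142, 45), (2, 0x7659843210, 23), (2, 0x9876543021, 48), (2, 0x9876502431, 50), (4, 0x9876504321, 14),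
  (1, 0x9876530214, 47), (4, 0x9876523014, 48), (2, 0x9876531402, 48), (4, 0x9876534012, 45), (2, 0x8765943210, 43),
  (3, 0x9876510243, 46), (1, 0x9876510432, 48), (2, 0x9876541203, 46), (2, 0x9876534201, 50), (3, 0x9876541032, 48),
  (3, 0x9876543210, 8), (2, 0x9876541032, 47), (3, 0x9876504321, 0), (2, 0x9876502431, 48), (2, 0x7659843210, 39),
  (1, 0x9876510432, 47), (2, 0x9876542013, 47), (4, 0x9876514302, 46), (4, 0x9876543210, 40), (4, 0x5987643210, 39),
  (3, 0x9876513204, 50), (1, 0x9876520413, 47), (3, 0x9876532104, 16), (4, 0x9876531024, 49), (1, 0x9876543210, 31),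
  (1, 0x6598743210, 29), (1, 0x9876543210, 0), (3, 0x9876532104, 17), (2, 0x9876543210, 5), (2, 0x9876512340, 45),
  (3, 0x6598743210, 43), (4, 0x9876513204, 45), (4, 0x9876504321, 6), (3, 0x9876512034, 45), (2, 0x6598743210, 22),
  (3, 0x5987643210, 20), (3, 0x8765943210, 20), (1, 0x9876532104, 6), (1, 0x9876521043, 8), (4, 0x9876521043, 7),
  (1, 0x9876510432, 6), (2, 0x9876510243, 45), (1, 0x9876504132, 46), (4, 0x7659843210, 25), (4, 0x9876504213, 45),
  (1, 0x7659843210, 26), (4, 0x6598743210, 24), (2, 0x9876521430, 48), (4, 0x9876521430, 46), (2, 0x9876521430, 45),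
  (2, 0x9876543210, 15), (4, 0x9876523014, 47), (3, 0x9876532104, 5), (2, 0x9876532104, 8), (2, 0x7659843210, 21),
  (1, 0x6598743210, 37), (2, 0x9876520341, 50), (2, 0x9876510432, 13), (2, 0x9876543210, 13), (4, 0x9876504321, 12),
  (2, 0x9876521043, 13), (4, 0x9876504321, 2), (2, 0x9876543021, 45), (3, 0x9876502314, 50), (2, 0x9876532104, 3),
  (4, 0x9876501423, 49), (1, 0x9876543210, 18), (3, 0x9876543210, 46), (3, 0x7659843210, 44), (4, 0x6598743210, 18),
  (1, 0x9876510432, 49), (2, 0x9876540231, 50), (3, 0x9876514023, 50), (2, 0x6598743210, 40), (3, 0x9876520413, 48),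
  (1, 0x8765943210, 40), (3, 0x9876520341, 45), (2, 0x9876531402, 49), (1, 0x9876530214, 45), (1, 0x9876520413, 45),
  (2, 0x9876513420, 48), (4, 0x9876543210, 42), (2, 0x5987643210, 42), (1, 0x9876501234, 46), (4, 0x9876543210, 17),
  (4, 0x9876543210, 16), (4, 0x9876512034, 46), (4, 0x9876521304, 48), (1, 0x9876523401, 48), (1, 0x9876540312, 48),
  (3, 0x9876512034, 48), (4, 0x6598743210, 26), (2, 0x9876541320, 49), (4, 0x8765943210, 42), (4, 0x9876530142, 46),
  (4, 0x6598743210, 28), (4, 0x7659843210, 19), (4, 0x9876532104, 9), (4, 0x9876532104, 11), (4, 0x9876532104, 10),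
  (1, 0x9876503124, 47), (4, 0x9876513204, 47), (4, 0x9876521304, 45), (2, 0x9876510432, 1), (3, 0x9876532104, 50),
  (2, 0x9876523140, 50), (2, 0x9876521043, 50), (4, 0x9876502143, 48), (4, 0x9876530142, 48), (3, 0x9876543210, 41),
  (4, 0x9876543210, 6), (4, 0x6598743210, 34), (1, 0x9876524310, 46), (3, 0x9876543102, 47), (1, 0x7659843210, 38),
  (4, 0x9876543210, 35), (4, 0x6598743210, 38), (4, 0x9876531024, 47), (3, 0x9876504213, 47), (4, 0x7659843210, 32),
  (1, 0x7659843210, 33), (4, 0x9876543210, 30), (3, 0x9876532410, 46), (1, 0x7659843210, 36), (4, 0x8765943210, 34),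
  (1, 0x9876512403, 47), (4, 0x5987643210, 34)]

/-- canonical forms for `C5` -/
def st5 : List (ℕ × ℕ × ℕ × ℕ × ℕ) := [(1, 2, 3, 4, v2), (1, 1, 2, 2, v1), (6, 7, 8, 9, w2), (6, 6, 7, 7, w1)]

set_option maxRecDepth 100000 in
theorem main5 : check 10 5 (fun h x => cnS st5 (comp h x)) rels5 t5 [(1, idc)] = true := by decide +kernel

theorem map_rm_zero {v : V} {N : FS} {ks : List ℕ} (hN : okFS 10 N = true) (hk : ks.all (okc 10) = true)
    (h : ∀ k ∈ ks, ev 10 (toPerm 10 k • v) N = 0) : ∀ r ∈ ks.map (rm N), ev 10 v r = 0 := by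
  intro r hr
  obtain ⟨k, hk', rfl⟩ := List.mem_map.1 hr
  rw [ev_rm (by norm_num) v (List.all_eq_true.1 hk k hk') N hN]
  exact h k hk'

/-- **No vectors fixed by two four-groups.** -/
theorem C5 (hp : ∀ v : V, 5 • v = 0) (hNF : NF 10 V) {v : V} (h1 : Fx 10 v1 v) (h2 : Fx 10 v2 v)
    (h3 : Fx 10 w1 v) (h4 : Fx 10 w2 v) : v = 0 := by
  have hc : Canon 10 v (cnS st5) := by
    apply canon_cnS (by norm_num)
    intro x hx
    simp only [st5, List.mem_cons, List.not_mem_nil, or_false] at hx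
    rcases hx with rfl | rfl | rfl | rfl
    · exact ⟨by decide +kernel, h2⟩
    · exact ⟨by decide +kernel, h1⟩
    · exact ⟨by decide +kernel, h4⟩
    · exact ⟨by decide +kernel, h3⟩
  have hz : ∀ r ∈ rels5, ev 10 v r = 0 := by
    intro r hr
    rw [rels5, List.mem_append, List.mem_append] at hr
    rcases hr with hr | hr | hr
    · exact map_rm_zero (by decide +kernel) (by decide +kernel) (fun k _ => zNA hp hNF _) r hr
    · exact map_rm_zero (by decide +kernel) (by decide +kernel) (fun k _ => zNB' hp hNF _) r hr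
    · exact map_rm_zero (by decide +kernel) (by decide +kernel) (fun k _ => zND hp hNF _) r hr
  have h := sound (by norm_num) hp (hc.keyOK (by norm_num)) hz main5
  rwa [ev_one (by norm_num)] at h

/-- sum over a four-group -/
def NV : FS :=
  [(1, 0x9876512340), (1, 0x9876521430), (1, 0x9876534120), (1, 0x9876543210)]

/-- sum over a four-group -/
def NW : FS :=
  [(1, 0x6789543210), (1, 0x7698543210), (1, 0x8967543210), (1, 0x9876543210)]

/-- right factors -/
def k6 : List ℕ :=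
  [0x9876543210, 0x9876154320, 0x9876543021, 0x9876215430, 0x9876254301, 0x9876154032, 0x9876543102, 0x9876321540,
  0x9876025431, 0x9876315402, 0x9876054312, 0x9876215043, 0x9876432150, 0x9876105432, 0x9876421503]

/-- right factors -/
def k6b : List ℕ :=
  [0x9876543210, 0x5987643210, 0x9807543216, 0x6598743210, 0x5980743216, 0x5908643217, 0x9860543217, 0x7659843210,
  0x7598043216, 0x6590843217, 0x5986043217, 0x6509743218, 0x8765943210, 0x598643217, 0x7650943218]

/-- a certificate -/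
def t6 : List (ℕ × ℕ × ℕ) :=
  [(1, 0x9876542013, 4), (3, 0x9876253041, 0), (4, 0x9876431052, 8), (3, 0x9876125403, 13), (4, 0x9876543021, 12),
  (4, 0x9876540312, 4), (1, 0x9876015423, 2), (2, 0x9876154032, 0), (2, 0x9876054231, 6), (4, 0x9876431052, 5),
  (1, 0x9876532104, 9), (4, 0x9876054312, 14), (2, 0x9876432150, 3), (3, 0x9876530214, 13), (1, 0x9876031254, 2),
  (3, 0x9876432501, 5), (2, 0x9876105243, 14), (4, 0x9876143205, 2), (3, 0x9876130245, 13), (2, 0x9876254130, 6),
  (1, 0x9876125034, 12), (3, 0x9876214350, 12), (4, 0x9876153402, 10), (2, 0x9876215043, 5), (1, 0x9876025143, 7),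
  (2, 0x9876530421, 9), (4, 0x9876504213, 14), (2, 0x9876015342, 12), (1, 0x9876253041, 4), (3, 0x9876054312, 7),
  (3, 0x9876540231, 8), (1, 0x9876014532, 5), (4, 0x9876542130, 2), (4, 0x9876543102, 7), (4, 0x9876130245, 0),
  (2, 0x9876432501, 9), (2, 0x9876321054, 4), (4, 0x9876325041, 7), (2, 0x9876021534, 3), (4, 0x9876014532, 12),
  (3, 0x9876310254, 6), (3, 0x9876310542, 13), (3, 0x9876402513, 0), (3, 0x9876421350, 0), (2, 0x9876543021, 6),
  (1, 0x9876253041, 12), (4, 0x9876410523, 5), (1, 0x9876410523, 14), (4, 0x9876205413, 13), (1, 0x9876543102, 5),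
  (4, 0x9876053421, 13), (4, 0x9876305421, 3), (1, 0x9876125340, 13), (1, 0x9876432150, 13), (1, 0x9876153402, 11),
  (4, 0x9876130245, 6), (4, 0x9876105243, 3), (3, 0x9876125403, 4), (2, 0x9876143205, 11), (3, 0x9876531024, 13),
  (4, 0x9876321405, 4), (1, 0x9876021534, 7), (4, 0x9876321054, 0), (1, 0x9876130245, 3), (1, 0x9876542013, 5),
  (4, 0x9876214350, 7), (2, 0x9876125034, 6), (3, 0x9876025431, 7), (2, 0x9876153402, 0), (2, 0x9876231504, 11),
  (1, 0x9876205413, 10), (2, 0x9876154203, 3), (3, 0x9876102534, 11), (4, 0x9876132054, 11), (3, 0x9876154032, 11),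
  (4, 0x9876342105, 2), (1, 0x9876215043, 13), (2, 0x9876214350, 8), (3, 0x9876201354, 3), (3, 0x9876410523, 4),
  (4, 0x9876421503, 11), (1, 0x9876543210, 12), (4, 0x9876125034, 3), (2, 0x9876125034, 5), (3, 0x9876015423, 0),
  (2, 0x9876215043, 1), (2, 0x9876021534, 8), (4, 0x9876310254, 0), (1, 0x9876031254, 3), (1, 0x9876531024, 9),
  (4, 0x9876143205, 0), (1, 0x9876302154, 14), (1, 0x9876402351, 4), (4, 0x9876431205, 9), (3, 0x9876125403, 10),
  (1, 0x9876205341, 4), (1, 0x9876342105, 12), (4, 0x9876421503, 0), (2, 0x9876143205, 10), (1, 0x9876130245, 1),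
  (3, 0x9876042315, 9), (3, 0x9876125403, 6), (4, 0x9876021345, 0), (1, 0x9876403152, 11), (4, 0x9876514023, 7),
  (1, 0x9876302415, 2), (1, 0x9876254130, 2), (3, 0x9876321540, 1), (2, 0x9876154320, 2), (4, 0x9876431520, 9),
  (1, 0x9876021534, 4), (2, 0x9876325410, 6), (3, 0x9876543102, 4), (2, 0x9876432015, 6), (1, 0x9876154032, 10),
  (1, 0x9876315240, 0), (2, 0x9876402513, 8), (4, 0x9876042315, 8), (3, 0x9876014532, 11), (4, 0x9876025431, 1),
  (3, 0x9876430125, 0), (3, 0x9876231504, 6), (4, 0x9876431520, 5), (4, 0x9876014532, 8), (4, 0x9876315402, 7),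
  (4, 0x9876430251, 9), (4, 0x9876542130, 9), (1, 0x9876153240, 12), (2, 0x9876305142, 4), (3, 0x9876203145, 3),
  (2, 0x9876205413, 8), (2, 0x9876205413, 0), (3, 0x9876401532, 10), (3, 0x9876531024, 14), (2, 0x9876054312, 0),
  (4, 0x9876054123, 6), (1, 0x9876154320, 3), (3, 0x9876321054, 13), (1, 0x9876432501, 12), (4, 0x9876431520, 13),
  (4, 0x9876132054, 14), (4, 0x9876021345, 3), (4, 0x9876532410, 2), (2, 0x9876432150, 6), (3, 0x9876401532, 14),
  (1, 0x9876215430, 9), (2, 0x9876243015, 12), (3, 0x9876054123, 7), (2, 0x9876125340, 11), (3, 0x9876254301, 13),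
  (2, 0x9876125340, 10), (2, 0x9876402351, 12), (4, 0x9876310542, 6), (2, 0x9876154320, 14), (3, 0x9876253041, 7),
  (2, 0x9876532104, 10), (3, 0x9876542130, 11), (1, 0x9876402513, 13), (1, 0x9876305142, 6), (1, 0x9876342105, 3),
  (4, 0x9876132054, 4), (3, 0x9876015234, 1), (2, 0x9876504213, 6), (3, 0x9876042315, 7), (2, 0x9876410523, 6),
  (4, 0x9876542013, 13), (1, 0x9876125340, 8), (3, 0x9876310542, 7), (4, 0x9876130245, 8), (4, 0x9876140325, 11),
  (1, 0x9876015423, 14), (4, 0x9876530214, 8), (2, 0x9876253041, 8), (3, 0x9876125340, 5), (1, 0x9876431052, 14),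
  (3, 0x9876325041, 8), (3, 0x9876031254, 13), (4, 0x9876421503, 5), (3, 0x9876154032, 6), (1, 0x9876032145, 5),
  (4, 0x9876325041, 4), (4, 0x9876310254, 14), (2, 0x9876254130, 4), (3, 0x9876431520, 0), (2, 0x9876342105, 9),
  (3, 0x9876410523, 9), (3, 0x9876130245, 4), (2, 0x9876302415, 3), (3, 0x9876302541, 11), (2, 0x9876543102, 0),
  (1, 0x9876125340, 4), (1, 0x9876432015, 13), (3, 0x9876543210, 3), (2, 0x9876530421, 4), (1, 0x9876054123, 1),
  (1, 0x9876432501, 10), (1, 0x9876105243, 5), (2, 0x9876542013, 11), (2, 0x9876321405, 5), (3, 0x9876254301, 9),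
  (2, 0x9876540312, 6), (2, 0x9876140325, 12), (4, 0x9876153402, 7), (2, 0x9876430251, 12), (1, 0x9876015342, 9),
  (3, 0x9876432150, 0), (1, 0x9876542013, 9), (4, 0x9876302541, 5), (4, 0x9876302541, 2), (1, 0x9876102534, 14),
  (4, 0x9876015234, 7), (1, 0x9876205341, 10), (2, 0x9876015342, 13), (3, 0x9876203145, 10), (2, 0x9876105243, 7),
  (3, 0x9876503412, 14), (4, 0x9876542130, 14), (3, 0x9876305421, 12), (3, 0x9876025143, 0), (3, 0x9876302541, 1),
  (2, 0x9876254301, 12), (4, 0x9876432501, 0), (2, 0x9876325041, 0), (1, 0x9876054123, 10), (3, 0x9876543021, 3),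
  (3, 0x9876054123, 3), (2, 0x9876203145, 8), (3, 0x9876432150, 4), (3, 0x9876530214, 10), (2, 0x9876153402, 1),
  (4, 0x9876153240, 2), (4, 0x9876315240, 7), (3, 0x9876543210, 4), (1, 0x9876154320, 7), (4, 0x9876125403, 7),
  (4, 0x9876154032, 2)]

/-- a certificate -/
def t6b : List (ℕ × ℕ × ℕ) :=
  [(1, 0x9706543218, 4), (3, 0x5809743216, 0), (4, 0x8605943217, 8), (3, 0x7590643218, 13), (4, 0x9807543216, 12),
  (4, 0x9086543217, 4), (1, 0x6597043218, 2), (2, 0x5908643217, 0), (2, 0x5978043216, 6), (4, 0x8605943217, 5),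
  (1, 0x8760543219, 9), (4, 0x5986043217, 14), (2, 0x8765943210, 3), (3, 0x8076543219, 13), (1, 0x8675043219, 2),
  (3, 0x8750943216, 5), (2, 0x579643218, 14), (4, 0x9870643215, 2), (3, 0x8079643215, 13), (2, 0x5968743210, 6),
  (1, 0x7508643219, 12), (3, 0x6985743210, 12), (4, 0x5890643217, 10), (2, 0x6509743218, 5), (1, 0x7569043218, 7),
  (2, 0x8097543216, 9), (4, 0x976543218, 14), (2, 0x6589043217, 12), (1, 0x5809743216, 4), (3, 0x5986043217, 7),
  (3, 0x9078543216, 8), (1, 0x6958043217, 5), (4, 0x9768543210, 2), (4, 0x9860543217, 7), (4, 0x8079643215, 0),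
  (2, 0x8750943216, 9), (2, 0x7605843219, 4), (4, 0x7509843216, 7), (2, 0x7658043219, 3), (4, 0x6958043217, 12),
  (3, 0x6075843219, 6), (3, 0x6059843217, 13), (3, 0x756943218, 0), (3, 0x7685943210, 0), (2, 0x9807543216, 6),
  (1, 0x5809743216, 12), (4, 0x6057943218, 5), (1, 0x6057943218, 14), (4, 0x596743218, 13), (1, 0x9860543217, 5),
  (4, 0x5897043216, 13), (4, 0x597843216, 3), (1, 0x7589643210, 13), (1, 0x8765943210, 13), (1, 0x5890643217, 11),
  (4, 0x8079643215, 6), (4, 0x579643218, 3), (3, 0x7590643218, 4), (2, 0x9870643215, 11), (3, 0x8607543219, 13),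
  (4, 0x7690843215, 4), (1, 0x7658043219, 7), (4, 0x7605843219, 0), (1, 0x8079643215, 3), (1, 0x9706543218, 5),
  (4, 0x6985743210, 7), (2, 0x7508643219, 6), (3, 0x7598043216, 7), (2, 0x5890643217, 0), (2, 0x8650743219, 11),
  (1, 0x596743218, 10), (2, 0x5970643218, 3), (3, 0x758643219, 11), (4, 0x8705643219, 11), (3, 0x5908643217, 11),
  (4, 0x9760843215, 2), (1, 0x6509743218, 13), (2, 0x6985743210, 8), (3, 0x685743219, 3), (3, 0x6057943218, 4),
  (4, 0x7650943218, 11), (1, 0x9876543210, 12), (4, 0x7508643219, 3), (2, 0x7508643219, 5), (3, 0x6597043218, 0),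
  (2, 0x6509743218, 1), (2, 0x7658043219, 8), (4, 0x6075843219, 0), (1, 0x8675043219, 3), (1, 0x8607543219, 9),
  (4, 0x9870643215, 0), (1, 0x765843219, 14), (1, 0x785943216, 4), (4, 0x8670943215, 9), (3, 0x7590643218, 10),
  (1, 0x589743216, 4), (1, 0x9760843215, 12), (4, 0x7650943218, 0), (2, 0x9870643215, 10), (1, 0x8079643215, 1),
  (3, 0x9786043215, 9), (3, 0x7590643218, 6), (4, 0x7689043215, 0), (1, 0x865943217, 11), (4, 0x6907543218, 7),
  (1, 0x796843215, 2), (1, 0x5968743210, 2), (3, 0x7659843210, 1), (2, 0x5987643210, 2), (4, 0x8657943210, 9),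
  (1, 0x7658043219, 4), (2, 0x7596843210, 6), (3, 0x9860543217, 4), (2, 0x8706943215, 6), (1, 0x5908643217, 10),
  (1, 0x6579843210, 0), (2, 0x756943218, 8), (4, 0x9786043215, 8), (3, 0x6958043217, 11), (4, 0x7598043216, 1),
  (3, 0x8067943215, 0), (3, 0x8650743219, 6), (4, 0x8657943210, 5), (4, 0x6958043217, 8), (4, 0x6590843217, 7),
  (4, 0x8075943216, 9), (4, 0x9768543210, 9), (1, 0x5879643210, 12), (2, 0x569843217, 4), (3, 0x869743215, 3),
  (2, 0x596743218, 8), (2, 0x596743218, 0), (3, 0x658943217, 10), (3, 0x8607543219, 14), (2, 0x5986043217, 0),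
  (4, 0x5967043218, 6), (1, 0x5987643210, 3), (3, 0x7605843219, 13), (1, 0x8750943216, 12), (4, 0x8657943210, 13),
  (4, 0x8705643219, 14), (4, 0x7689043215, 3), (4, 0x8796543210, 2), (2, 0x8765943210, 6), (3, 0x658943217, 14),
  (1, 0x6598743210, 9), (2, 0x9806743215, 12), (3, 0x5967043218, 7), (2, 0x7589643210, 11), (3, 0x5980743216, 13),
  (2, 0x7589643210, 10), (2, 0x785943216, 12), (4, 0x6059843217, 6), (2, 0x5987643210, 14), (3, 0x5809743216, 7),
  (2, 0x8760543219, 10), (3, 0x9768543210, 11), (1, 0x756943218, 13), (1, 0x569843217, 6), (1, 0x9760843215, 3),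
  (4, 0x8705643219, 4), (3, 0x6578043219, 1), (2, 0x976543218, 6), (3, 0x9786043215, 7), (2, 0x6057943218, 6),
  (4, 0x9706543218, 13), (1, 0x7589643210, 8), (3, 0x6059843217, 7), (4, 0x8079643215, 8), (4, 0x9087643215, 11),
  (1, 0x6597043218, 14), (4, 0x8076543219, 8), (2, 0x5809743216, 8), (3, 0x7589643210, 5), (1, 0x8605943217, 14),
  (3, 0x7509843216, 8), (3, 0x8675043219, 13), (4, 0x7650943218, 5), (3, 0x5908643217, 6), (1, 0x8769043215, 5),
  (4, 0x7509843216, 4), (4, 0x6075843219, 14), (2, 0x5968743210, 4), (3, 0x8657943210, 0), (2, 0x9760843215, 9),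
  (3, 0x6057943218, 9), (3, 0x8079643215, 4), (2, 0x796843215, 3), (3, 0x759843216, 11), (2, 0x9860543217, 0),
  (1, 0x7589643210, 4), (1, 0x8706943215, 13), (3, 0x9876543210, 3), (2, 0x8097543216, 4), (1, 0x5967043218, 1),
  (1, 0x8750943216, 10), (1, 0x579643218, 5), (2, 0x9706543218, 11), (2, 0x7690843215, 5), (3, 0x5980743216, 9),
  (2, 0x9086543217, 6), (2, 0x9087643215, 12), (4, 0x5890643217, 7), (2, 0x8075943216, 12), (1, 0x6589043217, 9),
  (3, 0x8765943210, 0), (1, 0x9706543218, 9), (4, 0x759843216, 5), (4, 0x759843216, 2), (1, 0x758643219, 14),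
  (4, 0x6578043219, 7), (1, 0x589743216, 10), (2, 0x6589043217, 13), (3, 0x869743215, 10), (2, 0x579643218, 7),
  (3, 0x896543217, 14), (4, 0x9768543210, 14), (3, 0x597843216, 12), (3, 0x7569043218, 0), (3, 0x759843216, 1),
  (2, 0x5980743216, 12), (4, 0x8750943216, 0), (2, 0x7509843216, 0), (1, 0x5967043218, 10), (3, 0x9807543216, 3),
  (3, 0x5967043218, 3), (2, 0x869743215, 8), (3, 0x8765943210, 4), (3, 0x8076543219, 10), (2, 0x5890643217, 1),
  (4, 0x5879643210, 2), (4, 0x6579843210, 7), (3, 0x9876543210, 4), (1, 0x5987643210, 7), (4, 0x7590643218, 7),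
  (4, 0x5908643217, 2)]

theorem C6b (hp : ∀ v : V, 5 • v = 0) (hNF : NF 10 V) {v : V} (h1 : Fx 10 v1 v) (h2 : Fx 10 v2 v) : v = 0 := by
  have hk : (k6b.all fun k => and (okc 10 k) (and (Nat.beq (comp v1 k) (comp k v1)) (Nat.beq (comp v2 k) (comp k v2))))
      = true := by decide +kernel
  have h := ckZ hp (v := v) (k6b.map (rm NW)) (map_rm_zero (by decide +kernel) (by decide +kernel) fun k hk' => by
    have h0 := List.all_eq_true.1 hk k hk'
    rw [Bool.and_eq_true, Bool.and_eq_true] at h0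
    apply C5 hp hNF
    · exact fx_comm (by norm_num) (by decide +kernel) (by decide +kernel) (by decide +kernel)
        (fx_smul (by decide +kernel) h0.1 h0.2.1 h1)
    · exact fx_comm (by norm_num) (by decide +kernel) (by decide +kernel) (by decide +kernel)
        (fx_smul (by decide +kernel) h0.1 h0.2.2 h2)
    · exact ckFx hp [] fe w1 NW [] (by decide +kernel) (by decide +kernel) (by decide +kernel)
    · exact ckFx hp [] fe w2 NW [] (by decide +kernel) (by decide +kernel) (by decide +kernel)) [(1, idc)] t6b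
    (by decide +kernel)
  rwa [ev_one (by norm_num)] at h

/-- **The prime 5.** -/
theorem five (hp : ∀ v : V, 5 • v = 0) (hNF : NF 10 V) (v : V) : v = 0 := by
  have h := ckZ hp (v := v) (k6.map (rm NV)) (map_rm_zero (by decide +kernel) (by decide +kernel) fun k hk' =>
    C6b hp hNF (ckFx hp [] fe v1 NV [] (by decide +kernel) (by decide +kernel) (by decide +kernel))
      (ckFx hp [] fe v2 NV [] (by decide +kernel) (by decide +kernel) (by decide +kernel))) [(1, idc)] t6
    (by decide +kernel)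
  rwa [ev_one (by norm_num)] at h

end Cfsg.Agent.H196.Five
end

-- part: S4100
section
-- import your own Cfsg.Agent.* helpers here

set_option autoImplicit false
open Cfsg

namespace Cfsg.Agent.S4100

open Subgroup Cfsg.Agent.H196.GA Cfsg.Agent.H196.AltElt Cfsg.Agent.H196.AltLift

universe u

/-- the hypothesis passes to centralizers in subgroups -/
theorem cent_sub {G : Type u} [Group G] {L : Type u} [Group L] (ι : L →* G) (hι : Function.Injective ι) (x : L)
    (h : Group.IsSolvable (centralizer ({ι x} : Set G))) : Group.IsSolvable (centralizer ({x} : Set L)) := by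
  refine Group.isSolvable_of_isSolvable_injective
    (f := (ι.comp (centralizer ({x} : Set L)).subtype).codRestrict (centralizer ({ι x} : Set G)) fun z => ?_) ?_
  · rw [mem_centralizer_singleton_iff]
    show ι z * ι x = ι x * ι z
    rw [← map_mul, ← map_mul, mem_centralizer_singleton_iff.1 z.2]
  · intro a b hab
    have hab' := congrArg Subtype.val hab
    exact Subtype.ext (hι hab')

theorem exists_orderOf {S : Type*} [Group S] {p : ℕ} (hp : p.Prime) {c : S} (hc : c ^ p = 1) :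
    ∃ k, orderOf c = p ^ k := by
  rcases (Nat.dvd_prime hp).1 (orderOf_dvd_of_pow_eq_one hc) with h | h
  · exact ⟨0, by rw [h, pow_zero]⟩
  · exact ⟨1, by rw [h, pow_one]⟩

/-- the cases `p = 2` and `p = 5` -/
theorem small {G : Type u} [Group G] [Finite G] (p : ℕ) [hp : Fact p.Prime]
    (h : ∀ x : G, x ∉ Subgroup.center G → (∃ k : ℕ, orderOf x = p ^ k) →
      Group.IsSolvable (Subgroup.centralizer ({x} : Set G))) (q : ℕ) (hq : 3 ≤ q) (hqp : q ∣ 2 * p)
    (hmod : ∀ (V : Type u) [AddCommGroup V] [DistribMulAction (Equiv.Perm (Fin (q + 5))) V],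
      (∀ v : V, p • v = 0) → NF (q + 5) V → ∀ v : V, v = 0)
    {L : Type u} [Group L] [Finite L] (ι : L →* G) (hι : Function.Injective ι)
    (ψ : L →* alternatingGroup (Fin (q + 5))) (hψ : Function.Surjective ψ) : False := by
  obtain ⟨c, D, hc1, hcp, hD, hDs, -⟩ := exists_elt q p hq hqp
  have hcen : center (alternatingGroup (Fin (q + 5))) = ⊥ := alternatingGroup.center_eq_bot (by
    rw [Nat.card_eq_fintype_card, Fintype.card_fin]; omega)
  have hinj : ∀ z : L, ι z ∈ center G → z ∈ center L := by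
    intro z hz
    rw [mem_center_iff]
    intro g
    apply hι
    rw [map_mul, map_mul, mem_center_iff.1 hz]
  refine Cfsg.Agent.H196.AltMain.main hmod c (by rw [hcen, mem_bot]; exact hc1) ?_ D hD hDs (Nat.card L) L rfl
    ((center G).comap ι) (fun z hz => hinj z hz) ?_ ψ hψ
  · exact exists_orderOf hp.out hcp
  · rintro x ⟨k, hk⟩ hx
    exact cent_sub ι hι x (h (ι x) hx ⟨k, by rw [orderOf_injective ι hι, hk]⟩)

/-- the case `p ≥ 7` -/
theorem large {G : Type u} [Group G] [Finite G] (p : ℕ) [hp : Fact p.Prime] (hp7 : ¬ p ∣ 120) (hp3 : 3 ≤ p)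
    (h : ∀ x : G, x ∉ Subgroup.center G → (∃ k : ℕ, orderOf x = p ^ k) →
      Group.IsSolvable (Subgroup.centralizer ({x} : Set G)))
    {L : Type u} [Group L] [Finite L] (ι : L →* G) (hι : Function.Injective ι)
    (ψ : L →* alternatingGroup (Fin (p + 5))) (hψ : Function.Surjective ψ) : False := by
  obtain ⟨c, D, hc1, hcp, hD, hDs, hDc⟩ := exists_elt p p hp3 (Dvd.intro_left 2 rfl)
  have hcen : center (alternatingGroup (Fin (p + 5))) = ⊥ := alternatingGroup.center_eq_bot (by
    rw [Nat.card_eq_fintype_card, Fintype.card_fin]; omega)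
  obtain ⟨y, hy, ⟨k, hk⟩, hys⟩ := lift_coprime (φ := ψ) (c := c) (D := D) (p := p) hψ
    (exists_orderOf hp.out hcp) hD hDs (fun h' => hp7 (h'.trans hDc))
  refine hys (cent_sub ι hι y (h (ι y) (fun hyc => hc1 ?_) ⟨k, by rw [orderOf_injective ι hι, hk]⟩))
  have h1 : c ∈ center (alternatingGroup (Fin (p + 5))) := by
    rw [mem_center_iff]
    intro g
    obtain ⟨x, rfl⟩ := hψ g
    rw [← hy, ← map_mul, ← map_mul]
    congr 1
    apply hι
    rw [map_mul, map_mul, mem_center_iff.1 hyc]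
  rwa [hcen, mem_bot] at h1

/-- Let G be a finite group and p a prime other than 3 such that the centralizer of every non-central element of p-power order is solvable. Then every alternating group of degree at least 5 involved in G (as a section) has degree at most p + 4, or at most p + 6 = 8 when p = 2. -/
theorem result {G : Type*} [Group G] [Finite G] (p : ℕ) [Fact p.Prime] (hp3 : p ≠ 3)
    (h : ∀ x : G, x ∉ Subgroup.center G → (∃ k : ℕ, orderOf x = p ^ k) → Group.IsSolvable (Subgroup.centralizer ({x} : Set G)))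
    (d : ℕ) (hd : 5 ≤ d) (hinv : Cfsg.Involves (alternatingGroup (Fin d)) G) :
    d ≤ p + 4 + (if p = 2 then 2 else 0) := by
  by_contra hlt
  rw [not_le] at hlt
  have hp : p.Prime := Fact.out
  obtain ⟨K, R, hn, ⟨e⟩⟩ := hinv
  let φ : K →* alternatingGroup (Fin d) := e.toMonoidHom.comp (QuotientGroup.mk' (R.subgroupOf K))
  have hφ : Function.Surjective φ := e.surjective.comp (QuotientGroup.mk'_surjective _)
  by_cases h2 : p = 2
  · subst h2
    rw [if_pos rfl] at hlt
    obtain ⟨L, ψ, hψ⟩ := exists_section φ hφ (m := 4 + 5) (by omega)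
    exact small 2 h 4 (by norm_num) (by norm_num)
      (fun V _ _ hV hNF v => Cfsg.Agent.H196.Two.two hV hNF v)
      (K.subtype.comp L.subtype) (K.subtype_injective.comp L.subtype_injective) ψ hψ
  · rw [if_neg h2] at hlt
    obtain ⟨L, ψ, hψ⟩ := exists_section φ hφ (m := p + 5) (by omega)
    by_cases h5 : p = 5
    · subst h5
      exact small 5 h 5 (by norm_num) (by norm_num)
        (fun V _ _ hV hNF v => Cfsg.Agent.H196.Five.five hV hNF v)
        (K.subtype.comp L.subtype) (K.subtype_injective.comp L.subtype_injective) ψ hψ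
    · have h1 := hp.two_le
      refine large p (fun hdvd => ?_) (by omega) h (K.subtype.comp L.subtype)
        (K.subtype_injective.comp L.subtype_injective) ψ hψ
      have h120 : (120 : ℕ) = 2 ^ 3 * (3 * 5) := by norm_num
      rw [h120, hp.dvd_mul, hp.dvd_mul] at hdvd
      rcases hdvd with hdvd | hdvd | hdvd
      · exact h2 ((Nat.prime_dvd_prime_iff_eq hp Nat.prime_two).1 (hp.dvd_of_dvd_pow hdvd))
      · exact hp3 ((Nat.prime_dvd_prime_iff_eq hp Nat.prime_three).1 hdvd)
      · exact h5 ((Nat.prime_dvd_prime_iff_eq hp Nat.prime_five).1 hdvd)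

end Cfsg.Agent.S4100
end
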