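import Cfsg.Statements.S4107
import Cfsg.Agent.Lib.Cores
import Mathlib
set_option linter.all false

set_option autoImplicit false
open Cfsg

namespace Cfsg.Agent.S4107

open Cfsg.Agent.Lib.Cores

theorem isPGroup_of {G : Type*} [Group G] [Finite G] (N : Subgroup G)
    (heq : ∀ x : G, x ∉ N → ∀ n ∈ N, orderOf (x * n) = orderOf x) (p : ℕ) [Fact p.Prime]
    (h : ¬ pCore p G ≤ N) : IsPGroup p N := by
  obtain ⟨x, hx, hxN⟩ := SetLike.not_le_iff_exists.1 h
  rintro ⟨n, hn⟩
  obtain ⟨k, hk⟩ := (pCore_isPGroup (G := G) p) ⟨x, hx⟩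
  have hk' : x ^ p ^ k = 1 := by simpa using congrArg Subtype.val hk
  have h1 : (x * n) ^ p ^ k = 1 := by
    apply orderOf_dvd_iff_pow_eq_one.1
    rw [heq x hxN n hn]
    exact orderOf_dvd_of_pow_eq_one hk'
  have h2 : n ^ p ^ k ∈ pCore p G := by
    rw [← QuotientGroup.eq_one_iff]
    have h3 : ((x * n : G) : G ⧸ pCore p G) ^ p ^ k = 1 := by
      rw [← QuotientGroup.mk_pow, h1, QuotientGroup.mk_one]
    have h4 : (x : G ⧸ pCore p G) = 1 := (QuotientGroup.eq_one_iff x).2 hx
    rw [QuotientGroup.mk_mul, h4, one_mul] at h3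
    rw [QuotientGroup.mk_pow, h3]
  obtain ⟨j, hj⟩ := (pCore_isPGroup (G := G) p) ⟨n ^ p ^ k, h2⟩
  refine ⟨k + j, ?_⟩
  apply Subtype.ext
  have := congrArg Subtype.val hj
  simpa [pow_add, pow_mul] using this

theorem exists_prime {G : Type*} [Group G] [Finite G] (N : Subgroup G)
    (h : ¬ Cfsg.fittingSubgroup G ≤ N) : ∃ p : ℕ, p.Prime ∧ ¬ pCore p G ≤ N := by
  by_contra hcon
  push Not at hcon
  apply h
  rw [fittingSubgroup_eq_iSup_pCore]
  exact iSup_le fun p => hcon p p.2

/-- Let G be a finite group and N a proper non-trivial normal subgroup such that for every x outside N all elements of the coset xN have the same order as x. Then N ≤ F(G) or F(G) ≤ N, where F(G) is the Fitting subgroup; and if N is properly contained in F(G) then F(G) has prime-power order. -/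
theorem result {G : Type*} [Group G] [Finite G] (N : Subgroup G) [N.Normal] (hN1 : N ≠ ⊥) (hN2 : N ≠ ⊤)
    (heq : ∀ x : G, x ∉ N → ∀ n ∈ N, orderOf (x * n) = orderOf x) :
    (N ≤ Cfsg.fittingSubgroup G ∨ Cfsg.fittingSubgroup G ≤ N) ∧
    (N < Cfsg.fittingSubgroup G → IsPrimePow (Nat.card (Cfsg.fittingSubgroup G))) := by
  constructor
  · by_cases h : Cfsg.fittingSubgroup G ≤ N
    · exact Or.inr h
    · left
      obtain ⟨p, hp, hpN⟩ := exists_prime N h
      haveI : Fact p.Prime := ⟨hp⟩
      have hNp := isPGroup_of N heq p hpN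
      exact (le_pCore inferInstance hNp).trans (pCore_le_fittingSubgroup p)
  · intro hlt
    have h : ¬ Cfsg.fittingSubgroup G ≤ N := fun h => absurd (lt_of_lt_of_le hlt h) (lt_irrefl _)
    obtain ⟨p, hp, hpN⟩ := exists_prime N h
    haveI : Fact p.Prime := ⟨hp⟩
    have hNp := isPGroup_of N heq p hpN
    have hle : Cfsg.fittingSubgroup G ≤ pCore p G := by
      rw [fittingSubgroup_eq_iSup_pCore]
      refine iSup_le fun q => ?_
      haveI : Fact (q : ℕ).Prime := ⟨q.2⟩
      by_cases hqp : (q : ℕ) = p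
      · rw [hqp]
      · by_cases hq : pCore (q : ℕ) G ≤ N
        · have hd : Disjoint (pCore (q : ℕ) G) N :=
            IsPGroup.disjoint_of_ne (q : ℕ) p hqp _ _ (pCore_isPGroup _) hNp
          have : pCore (q : ℕ) G = ⊥ := by
            rw [← le_bot_iff]
            exact hd le_rfl hq
          rw [this]; exact bot_le
        · exfalso
          have hNq := isPGroup_of N heq (q : ℕ) hq
          have hd : Disjoint N N := IsPGroup.disjoint_of_ne (q : ℕ) p hqp _ _ hNq hNp
          exact hN1 (disjoint_self.1 hd)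
    have heqF : Cfsg.fittingSubgroup G = pCore p G := le_antisymm hle (pCore_le_fittingSubgroup p)
    obtain ⟨k, hk⟩ := IsPGroup.iff_card.1 (pCore_isPGroup (G := G) p)
    rw [heqF, hk]
    have hk0 : k ≠ 0 := by
      rintro rfl
      rw [pow_zero, Subgroup.card_eq_one] at hk
      rw [heqF, hk] at hlt
      exact not_lt_bot hlt
    exact (isPrimePow_nat_iff _).2 ⟨p, k, hp, Nat.pos_of_ne_zero hk0, rfl⟩

end Cfsg.Agent.S4107
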