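import Cfsg.Statements.S4115
import Cfsg.Agent.S0877
import Cfsg.Agent.H521.TIHall
import Cfsg.Agent.H521.FpfSection
set_option linter.all false

set_option autoImplicit false
universe u
open Cfsg

namespace Cfsg.Agent.S4115

open scoped Pointwise

/-- A normal complement in the normalizer gives a normal complement (Brauer-Suzuki). -/
theorem exists_normal_complement {G : Type u} [Group G] [Finite G] (H : Subgroup G)
    (hTI : Cfsg.IsTISubset (H : Set G)) (hHall : (Nat.card H).Coprime (H.subgroupOf (Subgroup.normalizer (H : Set G))).index)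
    (hK : ∃ K : Subgroup (Subgroup.normalizer (H : Set G)), K.Normal ∧ K.IsComplement' (H.subgroupOf (Subgroup.normalizer (H : Set G)))) :
    ∃ N : Subgroup G, N.Normal ∧ N.IsComplement' H := by
  classical
  obtain ⟨K, hKn, hKc⟩ := hK
  have hH := Cfsg.Agent.H521.TIHall.hall_of_ti hTI hHall
  have hHn : (H.subgroupOf (Subgroup.normalizer (H : Set G))).Normal := Subgroup.normal_in_normalizer
  obtain ⟨N, hN, h1, h2⟩ := Cfsg.Agent.S0877.result H hH (by
    intro x hx y hy hxy
    obtain ⟨g, hg⟩ := isConj_iff.mp hxy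
    by_cases hx1 : x = 1
    · subst hx1
      exact ⟨1, H.one_mem, by rw [← hg]; group⟩
    have hgN : g ∈ Subgroup.normalizer (H : Set G) := by
      by_contra hgn
      exact hx1 (hTI g hgn x hx (by rw [hg]; exact hy))
    -- `g = h k`
    have h3 := hKc.symm.mul_eq
    have h4 : (⟨g, hgN⟩ : Subgroup.normalizer (H : Set G)) ∈
        ((H.subgroupOf (Subgroup.normalizer (H : Set G)) : Set (Subgroup.normalizer (H : Set G))) *
          (K : Set (Subgroup.normalizer (H : Set G)))) := by
      rw [h3]; exact Set.mem_univ _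
    obtain ⟨h, hh, k, hk, hhk⟩ := h4
    have hcomm : ∀ z : Subgroup.normalizer (H : Set G),
        z ∈ H.subgroupOf (Subgroup.normalizer (H : Set G)) → k * z = z * k := by
      intro z hz
      have h5 := Subgroup.commute_of_normal_of_disjoint K _ hKn hHn hKc.disjoint k z hk hz
      exact h5.eq
    refine ⟨h, hh, ?_⟩
    have h6 := hcomm ⟨x, Subgroup.le_normalizer hx⟩ hx
    have h7 : (k : G) * x = x * k := congrArg Subtype.val h6
    have h8 : (h : G) * k = g := congrArg Subtype.val hhk
    rw [← hg, ← h8]
    have h9 : (h : G) * k * x * (h * k : G)⁻¹ = h * (k * x * (k : G)⁻¹) * (h : G)⁻¹ := by group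
    rw [h9, h7]; group) (by
    intro E p hp hE hcard
    obtain ⟨g, hg⟩ := Cfsg.Agent.H521.TIHall.exists_conj_ge hH hTI E (fun q hq hqd => hqd.trans hcard)
    refine ⟨g⁻¹, ?_⟩
    rintro _ ⟨e, he, rfl⟩
    obtain ⟨h, hh, hhe⟩ := hg he
    have h3 : (MulAut.conj g⁻¹).toMonoidHom e = h := by
      rw [← hhe]
      simp
      group
    rw [h3]
    exact hh)
  refine ⟨N, hN, ?_⟩
  apply Subgroup.isComplement'_of_disjoint_and_mul_eq_univ
  · rw [disjoint_iff]; exact h2
  · rw [← Subgroup.normal_mul N H, h1]
    rfl

/-- Let G be a finite group and H a subgroup that meets each of its conjugates by elements outside N_G(H) trivially and whose order is coprime to its index in N_G(H). Then H has a normal complement in N_G(H) if and only if H has a normal complement in G. Moreover, if H is not normal in G and has a normal complement in N_G(H), then H is isomorphic to a Frobenius complement of some finite Frobenius group. -/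
theorem result {G : Type u} [Group G] [Finite G] (H : Subgroup G)
    (hTI : Cfsg.IsTISubset (H : Set G)) (hHall : (Nat.card H).Coprime (H.subgroupOf (Subgroup.normalizer (H : Set G))).index) :
    ((∃ K : Subgroup (Subgroup.normalizer (H : Set G)), K.Normal ∧ K.IsComplement' (H.subgroupOf (Subgroup.normalizer (H : Set G)))) ↔
      (∃ N : Subgroup G, N.Normal ∧ N.IsComplement' H)) ∧
    (¬ H.Normal → (∃ K : Subgroup (Subgroup.normalizer (H : Set G)), K.Normal ∧ K.IsComplement' (H.subgroupOf (Subgroup.normalizer (H : Set G)))) →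
      ∃ (F : Type u) (_ : Group F) (_ : Finite F) (C : Subgroup F), Cfsg.IsFrobeniusComplement C ∧ Nonempty (H ≃* C)) := by
  refine ⟨⟨exists_normal_complement H hTI hHall, ?_⟩, ?_⟩
  · rintro ⟨N, hN, hc⟩
    refine ⟨N.subgroupOf _, inferInstance, ?_⟩
    apply Subgroup.isComplement'_of_disjoint_and_mul_eq_univ
    · rw [Subgroup.disjoint_def]
      rintro ⟨x, hx⟩ h1 h2
      exact Subtype.ext (Subgroup.disjoint_def.mp hc.disjoint h1 h2)
    · rw [Set.eq_univ_iff_forall]
      rintro ⟨x, hx⟩
      have h1 : x ∈ ((N : Set G) * (H : Set G)) := by rw [hc.mul_eq]; exact Set.mem_univ _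
      obtain ⟨n, hn, h, hh, hnh⟩ := h1
      have hhN : h ∈ Subgroup.normalizer (H : Set G) := Subgroup.le_normalizer hh
      have hnN : n ∈ Subgroup.normalizer (H : Set G) := by
        have : n = x * h⁻¹ := by rw [← hnh]; group
        rw [this]
        exact mul_mem hx (inv_mem hhN)
      exact ⟨⟨n, hnN⟩, hn, ⟨h, hhN⟩, hh, Subtype.ext hnh⟩
  · intro hnn hK
    obtain ⟨N, hN, hc⟩ := exists_normal_complement H hTI hHall hK
    exact Cfsg.Agent.H521.FpfSection.frobenius_of_normal_complement hc
      (Cfsg.Agent.H521.TIHall.hall_of_ti hTI hHall) hTI hnn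

end Cfsg.Agent.S4115
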