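import Cfsg.Statements.S4117
import Cfsg.Agent.H521.ZCoprime
set_option linter.all false

set_option autoImplicit false
open Cfsg

namespace Cfsg.Agent.S4117

open Subgroup SemidirectProduct
open scoped commutatorElement

/-- Let A be a finite group acting on the finite group G by automorphisms with the orders of A and G coprime, and suppose every Sylow subgroup of G is cyclic. Then the fixed-point subgroup C_G(A) is a Hall subgroup of G (its order is coprime to its index), the subgroup [G, A] generated by the elements g⁻¹·a(g) is cyclic and normal with [G, A] ∩ C_G(A) = 1 and [G, A]·C_G(A) = G. -/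
theorem result {G A : Type*} [Group G] [Finite G] [Group A] [Finite A]
    [MulDistribMulAction A G] (hcop : (Nat.card A).Coprime (Nat.card G))
    (hcyc : ∀ (p : ℕ) [Fact p.Prime] (P : Sylow p G), IsCyclic (P : Subgroup G)) :
    (Nat.card (MulAction.fixedPoints A G : Set G)).Coprime (Nat.card G / Nat.card (MulAction.fixedPoints A G : Set G)) ∧
    IsCyclic (Subgroup.closure {y : G | ∃ (a : A) (g : G), y = g⁻¹ * a • g}) ∧
    (Subgroup.closure {y : G | ∃ (a : A) (g : G), y = g⁻¹ * a • g}).Normal ∧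
    (Subgroup.closure {y : G | ∃ (a : A) (g : G), y = g⁻¹ * a • g} : Set G) ∩ MulAction.fixedPoints A G = {1} ∧
    Subgroup.closure {y : G | ∃ (a : A) (g : G), y = g⁻¹ * a • g} ⊔ Subgroup.closure (MulAction.fixedPoints A G) = ⊤ := by
  classical
  let φ : A →* MulAut G := MulDistribMulAction.toMulAut A G
  have hφ : ∀ a g, φ a g = a • g := fun a g => rfl
  have hfin : Finite (G ⋊[φ] A) := Finite.of_equiv _ SemidirectProduct.equivProd.symm
  set K : Subgroup (G ⋊[φ] A) := (inl : G →* G ⋊[φ] A).range with hK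
  set B : Subgroup (G ⋊[φ] A) := (inr : A →* G ⋊[φ] A).range with hB
  have hKn : K.Normal := by
    rw [hK, range_inl_eq_ker_rightHom]
    infer_instance
  have hBK : B ≤ normalizer (K : Set (G ⋊[φ] A)) := le_normalizer_of_normal
  let e : G ≃* K := MonoidHom.ofInjective inl_injective
  have hcardK : Nat.card K = Nat.card G := Nat.card_congr e.symm.toEquiv
  have hcardB : Nat.card B = Nat.card A :=
    Nat.card_congr (MonoidHom.ofInjective (inr_injective : Function.Injective (inr : A →* G ⋊[φ] A))).symm.toEquiv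
  have hZG : IsZGroup G := ⟨fun p hp P => by
    have : Fact p.Prime := ⟨hp⟩
    exact hcyc p P⟩
  have hZK : IsZGroup K := IsZGroup.of_injective (f := e.symm.toMonoidHom) e.symm.injective
  obtain ⟨h1, h2, h3, h4⟩ := Cfsg.Agent.H521.ZCoprime.main hBK (by rw [hcardK, hcardB]; exact hcop)
  set L : Subgroup G := Subgroup.closure {y : G | ∃ (a : A) (g : G), y = g⁻¹ * a • g} with hL
  -- the commutator subgroup
  have hcomm : ∀ (g : G) (a : A), ⁅(inl g : G ⋊[φ] A), (inr a : G ⋊[φ] A)⁆ = inl (g * a • g⁻¹) := by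
    intro g a
    rw [commutatorElement_def, mul_assoc, mul_assoc, ← mul_assoc (inr a), ← map_inv, ← map_inv,
      ← inl_aut, ← map_mul, hφ]
  have hLmap : L.map (inl : G →* G ⋊[φ] A) = ⁅K, B⁆ := by
    apply le_antisymm
    · rw [hL, MonoidHom.map_closure, closure_le]
      rintro _ ⟨_, ⟨a, g, rfl⟩, rfl⟩
      have h5 : (inl (g⁻¹ * a • g) : G ⋊[φ] A) = ⁅(inl g⁻¹ : G ⋊[φ] A), (inr a : G ⋊[φ] A)⁆ := by
        rw [hcomm, inv_inv]
      rw [h5]
      exact commutator_mem_commutator ⟨_, rfl⟩ ⟨_, rfl⟩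
    · rw [commutator_le]
      rintro _ ⟨g, rfl⟩ _ ⟨a, rfl⟩
      rw [hcomm]
      refine ⟨_, subset_closure ⟨a, g⁻¹, ?_⟩, rfl⟩
      rw [inv_inv]
  -- the fixed points
  have hfix : ∀ g : G, (inl g : G ⋊[φ] A) ∈ centralizer (B : Set (G ⋊[φ] A)) ↔
      g ∈ MulAction.fixedPoints A G := by
    intro g
    rw [mem_centralizer_iff]
    constructor
    · intro h a
      have h5 := h (inr a) ⟨a, rfl⟩
      have h6 : (inl (φ a g) : G ⋊[φ] A) = inl g := by
        rw [inl_aut, map_inv, mul_inv_eq_iff_eq_mul, h5]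
      exact inl_injective h6
    · rintro h _ ⟨a, rfl⟩
      have h5 : (inl (φ a g) : G ⋊[φ] A) = inl g := by rw [hφ, h a]
      rw [inl_aut, map_inv, mul_inv_eq_iff_eq_mul] at h5
      exact h5
  have hcardC : Nat.card (K ⊓ centralizer (B : Set (G ⋊[φ] A)) : Subgroup (G ⋊[φ] A)) =
      Nat.card (MulAction.fixedPoints A G : Set G) := by
    symm
    refine Nat.card_congr (Equiv.ofBijective
      (fun g : MulAction.fixedPoints A G => (⟨inl (g : G), ⟨(g : G), rfl⟩, (hfix g).mpr g.2⟩ :
        (K ⊓ centralizer (B : Set (G ⋊[φ] A)) : Subgroup (G ⋊[φ] A)))) ⟨?_, ?_⟩)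
    · intro g g' hgg
      exact Subtype.ext (inl_injective (congrArg Subtype.val hgg))
    · rintro ⟨_, ⟨g, rfl⟩, hg⟩
      exact ⟨⟨g, (hfix g).mp hg⟩, rfl⟩
  rw [hcardC, hcardK] at h1
  refine ⟨h1, ?_, ?_, ?_, ?_⟩
  · rw [← hLmap] at h2
    exact isCyclic_of_surjective
      (f := (L.equivMapOfInjective (inl : G →* G ⋊[φ] A) inl_injective).symm.toMonoidHom)
      (MulEquiv.surjective _)
  · have hn := Cfsg.Agent.Lib.CoprimeCommutator.left_le_normalizer_commutator K B
    rw [← hLmap] at hn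
    refine ⟨fun n hn' g => ?_⟩
    have h5 := (mem_normalizer_iff.mp (hn ⟨g, rfl⟩) (inl n)).mp ⟨n, hn', rfl⟩
    obtain ⟨m, hm, hmn⟩ := h5
    rw [← map_inv, ← map_mul, ← map_mul] at hmn
    rw [← inl_injective hmn]
    exact hm
  · ext g
    constructor
    · rintro ⟨hg1, hg2⟩
      have h5 : (inl g : G ⋊[φ] A) ∈ (⁅K, B⁆ : Subgroup (G ⋊[φ] A)) ⊓ (K ⊓ centralizer (B : Set (G ⋊[φ] A))) := by
        refine ⟨?_, ⟨g, rfl⟩, (hfix g).mpr hg2⟩
        rw [← hLmap]
        exact ⟨g, hg1, rfl⟩
      rw [h3, mem_bot] at h5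
      exact inl_injective (by rw [h5, map_one])
    · intro hg
      rw [Set.mem_singleton_iff] at hg
      subst hg
      exact ⟨L.one_mem, fun a => smul_one a⟩
  · have h5 : (L ⊔ Subgroup.closure (MulAction.fixedPoints A G)).map (inl : G →* G ⋊[φ] A) =
        (⊤ : Subgroup G).map (inl : G →* G ⋊[φ] A) := by
      rw [← MonoidHom.range_eq_map, ← hK]
      apply le_antisymm
      · rintro _ ⟨g, -, rfl⟩
        exact ⟨g, rfl⟩
      · rw [← h4, Subgroup.map_sup, hLmap]
        apply sup_le_sup_left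
        rintro _ ⟨⟨g, rfl⟩, hg⟩
        exact ⟨g, subset_closure ((hfix g).mp hg), rfl⟩
    exact map_injective inl_injective h5

end Cfsg.Agent.S4117
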