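import Mathlib
import Cfsg.Agent.S0023
import Cfsg.Agent.S0029
import Cfsg.Agent.Lib.FrattiniBasic
import Cfsg.Agent.TwoFusion.PerfCore
import Cfsg.Agent.H521.ZCoprime
import Cfsg.Prelude.Def_Solvable
import Cfsg.Agent.S0035
import Cfsg.Agent.S0039
import Cfsg.Agent.S0690
import Cfsg.Agent.Solvable.FpfPGroup
import Cfsg.Agent.Solvable.UniqueOrderP
import Cfsg.Prelude.Def_OddOrderLocal
import Cfsg.Agent.StrongEmb.TransferCompl
import Cfsg.Agent.SolvableStructure.CarterSystem
import Cfsg.Agent.H521.TIHall
import Cfsg.Statements.S4118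
import Cfsg.Agent.PLocal.SL2Perfect
import Cfsg.Agent.H521.FpfSection
set_option linter.all false

-- part: H521/PerfAct
section
/-!
# Perfect groups acting coprimely on groups with cyclic or quaternion Sylow subgroups
-/

set_option autoImplicit false

namespace Cfsg.Agent.H521.PerfAct

open Subgroup
open scoped commutatorElement

/-- The Frattini quotient of a generalized quaternion `2`-group has at most four elements. -/
theorem card_quotient_frattini_le {P : Type*} [Group P] [Finite P] {m : ℕ}
    (e : P ≃* QuaternionGroup (2 ^ m)) (h2 : IsPGroup 2 P) : Nat.card (P ⧸ frattini P) ≤ 4 := by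
  classical
  have : Fact (Nat.Prime 2) := ⟨Nat.prime_two⟩
  set a : P := e.symm (QuaternionGroup.a 1) with ha
  set x : P := e.symm (QuaternionGroup.xa 0) with hx
  have hsq : ∀ g : P, g ^ 2 ∈ frattini P := by
    intro g
    rw [frattini, Order.radical]
    simp only [mem_iInf]
    intro M hM
    exact Cfsg.Agent.Lib.FrattiniBasic.pow_mem_of_isCoatom h2 hM g
  have hpow : ∀ k : ℕ, ∃ b : Bool, ((a ^ k : P) : P ⧸ frattini P) = ((a ^ b.toNat : P) : P ⧸ frattini P) := by
    intro k
    rcases Nat.even_or_odd' k with ⟨l, hl | hl⟩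
    · refine ⟨false, ?_⟩
      rw [QuotientGroup.eq]
      have h1 : (a ^ k)⁻¹ * a ^ false.toNat = ((a ^ l) ^ 2)⁻¹ := by
        rw [hl, mul_comm 2 l, pow_mul]; simp
      rw [h1]
      exact inv_mem (hsq _)
    · refine ⟨true, ?_⟩
      rw [QuotientGroup.eq]
      have h1 : (a ^ k)⁻¹ * a ^ true.toNat = ((a ^ l) ^ 2)⁻¹ := by
        rw [hl, mul_comm 2 l, pow_succ', pow_mul]; simp
      rw [h1]
      exact inv_mem (hsq _)
  let f : Bool × Bool → P ⧸ frattini P := fun ij =>
    ((x ^ ij.1.toNat * a ^ ij.2.toNat : P) : P ⧸ frattini P)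
  have hf : Function.Surjective f := by
    intro v
    obtain ⟨g, rfl⟩ := QuotientGroup.mk_surjective v
    obtain ⟨q, rfl⟩ := e.symm.surjective g
    have hne : NeZero (2 * 2 ^ m) := ⟨by positivity⟩
    rcases q with i | i
    · obtain ⟨b, hb⟩ := hpow i.val
      refine ⟨(false, b), ?_⟩
      have h1 : e.symm (QuaternionGroup.a i) = a ^ i.val := by
        rw [ha, ← map_pow, QuaternionGroup.a_one_pow, ZMod.natCast_zmod_val]
      rw [h1, hb]
      simp [f]
    · obtain ⟨b, hb⟩ := hpow i.val
      refine ⟨(true, b), ?_⟩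
      have h1 : e.symm (QuaternionGroup.xa i) = x * a ^ i.val := by
        rw [ha, hx, ← map_pow, ← map_mul, QuaternionGroup.a_one_pow, ZMod.natCast_zmod_val,
          QuaternionGroup.xa_mul_a, zero_add]
      rw [h1, QuotientGroup.mk_mul, hb]
      simp [f]
  calc Nat.card (P ⧸ frattini P) ≤ Nat.card (Bool × Bool) := Nat.card_le_card_of_surjective f hf
    _ = 4 := by simp

/-- A perfect group of odd order normalizing a generalized quaternion `2`-group centralizes it. -/
theorem le_centralizer_of_quaternion {G : Type*} [Group G] [Finite G] {R P : Subgroup G}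
    (hR : ⁅R, R⁆ = R) (hodd : Odd (Nat.card R)) (hRP : R ≤ normalizer (P : Set G)) {m : ℕ}
    (e : P ≃* QuaternionGroup (2 ^ m)) (h2 : IsPGroup 2 P) : R ≤ centralizer (P : Set G) := by
  classical
  have : Fact (Nat.Prime 2) := ⟨Nat.prime_two⟩
  -- the action on the Frattini quotient
  let φ : R →* MulAut P := (normalizerMonoidHom P).comp (inclusion hRP)
  have hφ : ∀ (h : R) (x : P), ((φ h x : P) : G) = h * x * (h : G)⁻¹ := fun h x => rfl
  have hmap : ∀ h : R, (frattini P).map (φ h : P →* P) = frattini P := by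
    intro h
    exact characteristic_iff_map_eq.mp (inferInstance : (frattini P).Characteristic) (φ h)
  let ψ : R →* Equiv.Perm (P ⧸ frattini P) :=
    { toFun := fun h => (QuotientGroup.congr _ _ (φ h) (hmap h)).toEquiv
      map_one' := by
        ext x
        obtain ⟨x, rfl⟩ := QuotientGroup.mk_surjective x
        change QuotientGroup.congr _ _ (φ 1) (hmap 1) _ = _
        rw [QuotientGroup.congr_mk]
        simp
      map_mul' := by
        intro a b
        ext x
        obtain ⟨x, rfl⟩ := QuotientGroup.mk_surjective x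
        change QuotientGroup.congr _ _ (φ (a * b)) (hmap (a * b)) (x : P ⧸ frattini P) =
          QuotientGroup.congr _ _ (φ a) (hmap a)
            (QuotientGroup.congr _ _ (φ b) (hmap b) (x : P ⧸ frattini P))
        rw [QuotientGroup.congr_mk, QuotientGroup.congr_mk, QuotientGroup.congr_mk,
          map_mul]
        rfl }
  -- its image is trivial
  have hcard : Nat.card ψ.range ∣ 3 := by
    have h3 : Nat.card ψ.range ∣ 24 := by
      have h4 : Nat.card ψ.range ∣ Nat.card (Equiv.Perm (P ⧸ frattini P)) := card_subgroup_dvd_card _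
      rw [Nat.card_perm] at h4
      apply h4.trans
      have h5 := Nat.factorial_dvd_factorial (card_quotient_frattini_le e h2)
      exact h5
    have h5 : Nat.Coprime (Nat.card ψ.range) (2 ^ 3) := by
      apply Nat.Coprime.pow_right
      rw [Nat.coprime_two_right]
      exact hodd.of_dvd_nat (card_range_dvd ψ)
    exact h5.dvd_of_dvd_mul_left (by norm_num at h3 ⊢; exact h3)
  have hcomm : ∀ x y : ψ.range, x * y = y * x := by
    rcases (Nat.dvd_prime Nat.prime_three).mp hcard with h1 | h1
    · have h4 : Subsingleton ψ.range := (Nat.card_eq_one_iff_unique.mp h1).1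
      intro x y
      exact Subsingleton.elim _ _
    · have : Fact (Nat.Prime 3) := ⟨Nat.prime_three⟩
      have h4 : IsCyclic ψ.range := isCyclic_of_prime_card h1
      let _ := h4.commGroup
      intro x y
      exact mul_comm x y
  have hcommR : commutator R = ⊤ := by
    apply Subgroup.map_injective R.subtype_injective
    rw [Subgroup.map_subtype_commutator, hR, ← MonoidHom.range_eq_map, Subgroup.range_subtype]
  have htriv : ∀ r : R, ψ r = 1 := by
    intro r
    have h1 : commutator R ≤ ψ.rangeRestrict.ker := by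
      rw [_root_.commutator_def, commutator_le]
      intro x _ y _
      rw [MonoidHom.mem_ker, map_commutatorElement, commutatorElement_eq_one_iff_mul_comm]
      exact hcomm _ _
    have h3 : r ∈ ψ.rangeRestrict.ker := h1 (hcommR ▸ mem_top r)
    exact congrArg Subtype.val h3
  apply Cfsg.Agent.S0029.result R P hRP
  · obtain ⟨n, hn⟩ := IsPGroup.iff_card.mp (h2.to_subgroup (frattini P))
    rw [hn]
    apply Nat.Coprime.pow_right
    rwa [Nat.coprime_two_right]
  · intro r hr k hk
    have h1 := htriv ⟨r, hr⟩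
    have h3 := congrArg (fun f : Equiv.Perm (P ⧸ frattini P) => f ((⟨k, hk⟩ : P) : P ⧸ frattini P)) h1
    have h4 : ((φ ⟨r, hr⟩ ⟨k, hk⟩ : P) : P ⧸ frattini P) = ((⟨k, hk⟩ : P) : P ⧸ frattini P) := h3
    have h5 : (φ ⟨r, hr⟩ ⟨k, hk⟩) * (⟨k, hk⟩ : P)⁻¹ ∈ frattini P := by
      rw [← QuotientGroup.eq_one_iff, QuotientGroup.mk_mul, h4, ← QuotientGroup.mk_mul,
        mul_inv_cancel, QuotientGroup.mk_one]
    exact ⟨_, h5, rfl⟩

/-- A perfect group `R` acting coprimely on a solvable group `H` all of whose Sylow subgroups are cyclic or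
generalized quaternion centralizes `H`. -/
theorem le_centralizer_of_sylow {G : Type*} [Group G] [Finite G] {R H : Subgroup G}
    (hR : ⁅R, R⁆ = R) (hRH : R ≤ normalizer (H : Set G)) (hcop : (Nat.card R).Coprime (Nat.card H))
    (hsol : Group.IsSolvable H)
    (hsyl : ∀ p : ℕ, p.Prime → ∀ P : Subgroup H, IsPGroup p P → IsCyclic P ∨
      (p = 2 ∧ ∃ m : ℕ, m ≠ 0 ∧ Nonempty (P ≃* QuaternionGroup (2 ^ m)))) :
    R ≤ centralizer (H : Set G) := by
  classical
  have key : ∀ p : ℕ, p.Prime → ∃ Q : Subgroup G, Q ≤ H ∧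
      Nat.card Q = p ^ (Nat.card H).factorization p ∧ Q ≤ centralizer (R : Set G) := by
    intro p hp
    have : Fact p.Prime := ⟨hp⟩
    obtain ⟨P, hP⟩ := Cfsg.Agent.S0023.result R H hRH hcop (Or.inr hsol) p
    have hcard : Nat.card ((P : Subgroup H).map H.subtype) = p ^ (Nat.card H).factorization p := by
      rw [card_map_of_injective H.subtype_injective, Sylow.card_eq_multiplicity]
    refine ⟨(P : Subgroup H).map H.subtype, map_subtype_le _, hcard, ?_⟩
    let e : (P : Subgroup H) ≃* (P : Subgroup H).map H.subtype :=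
      (P : Subgroup H).equivMapOfInjective _ H.subtype_injective
    have h1 : R ≤ centralizer ((P : Subgroup H).map H.subtype : Set G) := by
      rcases hsyl p hp P P.2 with hc | ⟨rfl, m, hm, ⟨f⟩⟩
      · have hc' : IsCyclic ((P : Subgroup H).map H.subtype) :=
          isCyclic_of_surjective (f := e.toMonoidHom) e.surjective
        have h2 := Cfsg.Agent.H521.ZCoprime.commutator_le_centralizer hP hP
        rwa [hR] at h2
      · have hodd : Odd (Nat.card R) := by
          rw [← Nat.coprime_two_right]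
          apply Nat.Coprime.coprime_dvd_right _ hcop
          have h3 : 2 ∣ Nat.card (P : Subgroup H) := by
            rw [Nat.card_congr f.toEquiv, Nat.card_eq_fintype_card, QuaternionGroup.card]
            exact Dvd.dvd.mul_right (by norm_num) _
          exact h3.trans (card_subgroup_dvd_card _)
        exact le_centralizer_of_quaternion hR hodd hP (e.symm.trans f) (P.2.map _)
    rwa [le_centralizer_iff]
  rw [le_centralizer_iff]
  have h1 : Nat.card H ∣ Nat.card (H ⊓ centralizer (R : Set G) : Subgroup G) := by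
    rw [Nat.dvd_iff_prime_pow_dvd_dvd]
    intro q k hq hqk
    obtain ⟨Q, hQH, hQc, hQR⟩ := key q hq
    have h3 : q ^ k ∣ Nat.card Q := by
      rw [hQc]
      apply Nat.pow_dvd_pow
      exact (hq.pow_dvd_iff_le_factorization Nat.card_pos.ne').mp hqk
    exact h3.trans (card_dvd_of_le (le_inf hQH hQR))
  have h4 : H ⊓ centralizer (R : Set G) = H := by
    apply eq_of_le_of_card_ge inf_le_left
    exact Nat.le_of_dvd Nat.card_pos h1
  exact inf_eq_left.mp h4

end Cfsg.Agent.H521.PerfAct
end

-- part: H521/FrobComp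
section
/-!
# Frobenius complements: Sylow subgroups, solvability

* `sylow_cyclic_or_quaternion`: the `p`-subgroups of a Frobenius complement are cyclic or generalized
  quaternion.
* `isSolvable_of_no_sl`: a Frobenius complement without a subgroup `SL(2,5)` is solvable.
-/

set_option autoImplicit false

namespace Cfsg.Agent.H521.FrobComp

open Subgroup
open scoped commutatorElement

variable {F : Type*} [Group F] [Finite F]

/-- The kernel of a Frobenius group. -/
theorem exists_kernel (C : Subgroup F) (hC : Cfsg.IsFrobeniusComplement C) :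
    ∃ K : Subgroup F, K.Normal ∧ K.IsComplement' C ∧ K ≠ ⊥ ∧
      ∀ c ∈ C, c ≠ 1 → K ⊓ centralizer {c} = ⊥ := by
  obtain ⟨K, -, hK, hc⟩ := Cfsg.Agent.S0035.result C hC
  have hKb : K ≠ ⊥ := by
    rintro rfl
    apply hC.2.1
    have h1 := hc.sup_eq_top
    rwa [bot_sup_eq] at h1
  exact ⟨K, hK, hc, hKb, (Cfsg.Agent.S0039.result K C hc hKb hC.1).mp hC⟩

/-- The `p`-subgroups of a Frobenius complement are cyclic or generalized quaternion. -/
theorem sylow_cyclic_or_quaternion (C : Subgroup F) (hC : Cfsg.IsFrobeniusComplement C) {p : ℕ}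
    (hp : p.Prime) {P : Type*} [Group P] [Finite P] (hP : IsPGroup p P) (f : P →* F)
    (hf : Function.Injective f) (hfC : ∀ x, f x ∈ C) :
    IsCyclic P ∨ (p = 2 ∧ ∃ m : ℕ, m ≠ 0 ∧ Nonempty (P ≃* QuaternionGroup (2 ^ m))) := by
  have : Fact p.Prime := ⟨hp⟩
  obtain ⟨K, hK, hc, hKb, hfpf⟩ := exists_kernel C hC
  apply Cfsg.Agent.Solvable.UniqueOrderP.cyclic_or_quaternion hP
  apply Cfsg.Agent.Solvable.UniqueOrderP.uniqueP_of_subgroup
  intro L₁ L₂ h₁ h₂
  exact Cfsg.Agent.Solvable.FpfPGroup.unique_subgroup_of_fpf C K hKb le_normalizer_of_normal hfpf hp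
    hP f hf hfC L₁ L₂ h₁ h₂

/-- A Frobenius complement without a subgroup `SL(2,5)` is solvable. -/
theorem isSolvable_of_no_sl (C : Subgroup F) (hC : Cfsg.IsFrobeniusComplement C)
    (hno : ∀ K : Subgroup F, K ≤ C → ¬ Nonempty (K ≃* Matrix.SpecialLinearGroup (Fin 2) (ZMod 5))) :
    Group.IsSolvable C := by
  classical
  obtain ⟨K, hK, hc, hKb, hfpf⟩ := exists_kernel C hC
  apply Cfsg.Agent.TwoFusion.PerfCore.solvable_of_perf_eq_bot
  by_contra hne
  set R := Cfsg.Agent.TwoFusion.PerfCore.perf C with hR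
  have hRC : R ≤ C := Cfsg.Agent.TwoFusion.PerfCore.perf_le C
  have hRR : ⁅R, R⁆ = R := Cfsg.Agent.TwoFusion.PerfCore.perf_perfect C
  let φ : F →* MulAut K := MulAut.conjNormal
  have hφ : ∀ (h : F) (x : K), ((φ h x : K) : F) = h * x * h⁻¹ := fun h x => MulAut.conjNormal_apply h x
  have hinj : ∀ c ∈ C, φ c = 1 → c = 1 := by
    intro c hcC h1
    by_contra hc1
    apply hKb
    rw [eq_bot_iff, ← hfpf c hcC hc1]
    refine le_inf le_rfl ?_
    intro x hx
    rw [mem_centralizer_singleton_iff]
    have h2 := congrArg (fun f : MulAut K => ((f ⟨x, hx⟩ : K) : F)) h1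
    change ((φ c ⟨x, hx⟩ : K) : F) = x at h2
    rw [hφ] at h2
    first
      | exact mul_inv_eq_iff_eq_mul.mp h2
      | exact (mul_inv_eq_iff_eq_mul.mp h2).symm
  set G' : Subgroup (MulAut K) := R.map φ with hG'
  have hcomm : commutator G' = ⊤ := by
    apply Subgroup.map_injective G'.subtype_injective
    rw [Subgroup.map_subtype_commutator, ← MonoidHom.range_eq_map, Subgroup.range_subtype]
    exact Cfsg.Agent.TwoFusion.PerfCore.map_perfect hRR φ
  obtain ⟨e⟩ := Cfsg.Agent.S0690.result G' (by
    rintro _ ⟨r, hr, rfl⟩ hr1 k hk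
    have hr1' : r ≠ 1 := by
      rintro rfl
      exact hr1 (map_one φ)
    have h2 : (k : F) ∈ K ⊓ centralizer {r} := by
      refine ⟨k.2, ?_⟩
      change (k : F) ∈ centralizer {r}
      rw [mem_centralizer_singleton_iff]
      have h3 := congrArg Subtype.val hk
      rw [hφ] at h3
      first
        | exact mul_inv_eq_iff_eq_mul.mp h3
        | exact (mul_inv_eq_iff_eq_mul.mp h3).symm
    rw [hfpf r (hRC hr) hr1', mem_bot] at h2
    exact Subtype.ext h2) hcomm (by
    intro h1
    rw [hG', Subgroup.map_eq_bot_iff] at h1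
    apply hne
    rw [eq_bot_iff]
    intro r hr
    rw [mem_bot]
    exact hinj r (hRC hr) (h1 hr))
  -- `R ≃ G'`
  let f : R →* G' := (φ.comp R.subtype).codRestrict G' (fun r => ⟨r, r.2, rfl⟩)
  have hf : Function.Bijective f := by
    constructor
    · rw [injective_iff_map_eq_one]
      intro r hr
      exact Subtype.ext (hinj r (hRC r.2) (congrArg Subtype.val hr))
    · rintro ⟨_, r, hr, rfl⟩
      exact ⟨⟨r, hr⟩, rfl⟩
  exact hno R hRC ⟨(MulEquiv.ofBijective f hf).trans e⟩

end Cfsg.Agent.H521.FrobComp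
end

-- part: H521/PiSepTI
section
/-!
# `π`-separable groups with a TI-subgroup which is a Hall subgroup of its normalizer
-/

set_option autoImplicit false

namespace Cfsg.Agent.H521.PiSepTI

open Subgroup

variable {G : Type*} [Group G] [Finite G]

omit [Finite G] in
theorem card_eq_relIndex_mul {N W : Subgroup G} (h : N ≤ W) :
    Nat.card W = N.relIndex W * Nat.card N := by
  have := relIndex_mul_relIndex ⊥ N W bot_le h
  rw [relIndex_bot_left, relIndex_bot_left, mul_comm] at this
  exact this.symm

omit [Finite G] in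
theorem card_sup_dvd (K N : Subgroup G) [N.Normal] :
    Nat.card (K ⊔ N : Subgroup G) ∣ Nat.card K * Nat.card N := by
  rw [card_eq_relIndex_mul (le_sup_right : N ≤ K ⊔ N), relIndex_sup_right]
  exact Nat.mul_dvd_mul_right (relIndex_dvd_card _ _) _

/-- The largest normal subgroup of order prime to `n`. -/
theorem core_spec (n : ℕ) {O : Subgroup G}
    (hO : O = sSup {K : Subgroup G | K.Normal ∧ (Nat.card K).Coprime n}) :
    O.Normal ∧ (Nat.card O).Coprime n ∧ ∀ K : Subgroup G, K.Normal → (Nat.card K).Coprime n → K ≤ O := by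
  obtain ⟨K₀, ⟨hK₀, hK₀c⟩, hmax⟩ :=
    (Set.toFinite {K : Subgroup G | K.Normal ∧ (Nat.card K).Coprime n}).exists_maximal
      ⟨⊥, inferInstance, by rw [card_bot]; exact Nat.coprime_one_left n⟩
  have hle : ∀ K : Subgroup G, K.Normal → (Nat.card K).Coprime n → K ≤ K₀ := by
    intro K hK hKc
    have h1 : K ⊔ K₀ ∈ {K : Subgroup G | K.Normal ∧ (Nat.card K).Coprime n} :=
      ⟨inferInstance, Nat.Coprime.coprime_dvd_left (card_sup_dvd K K₀) (Nat.Coprime.mul_left hKc hK₀c)⟩
    exact le_sup_left.trans (hmax h1 le_sup_right)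
  have h2 : O = K₀ := by
    rw [hO]
    apply le_antisymm
    · exact sSup_le fun K hK => hle K hK.1 hK.2
    · exact le_sSup ⟨hK₀, hK₀c⟩
  subst h2
  exact ⟨hK₀, hK₀c, hle⟩

/-- First part of the structure theorem. -/
theorem structureA {H : Subgroup G} (hTI : Cfsg.IsTISubset (H : Set G)) (hnn : ¬ H.Normal)
    (hHall : (Nat.card H).Coprime (H.subgroupOf (Subgroup.normalizer (H : Set G))).index)
    (hsep : ∃ (n : ℕ) (M : Fin (n + 1) → Subgroup G), M 0 = ⊥ ∧ M (Fin.last n) = ⊤ ∧ Monotone M ∧
      (∀ i, (M i).Normal) ∧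
      ∀ i : Fin n, (∀ q : ℕ, q.Prime → q ∣ (M i.castSucc).relIndex (M i.succ) → q ∣ Nat.card H) ∨
        ((M i.castSucc).relIndex (M i.succ)).Coprime (Nat.card H))
    {O : Subgroup G} (hO : O = sSup {K : Subgroup G | K.Normal ∧ (Nat.card K).Coprime (Nat.card H)}) :
    O ⊔ Subgroup.normalizer (H : Set G) = ⊤ ∧ (O ⊔ H).Normal := by
  classical
  obtain ⟨hOn, hOc, hOmax⟩ := core_spec (Nat.card H) hO
  have hH := Cfsg.Agent.H521.TIHall.hall_of_ti hTI hHall
  have hHb : H ≠ ⊥ := by
    rintro rfl
    exact hnn inferInstance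
  obtain ⟨n, M, hM0, hMl, hMm, hMn, hMq⟩ := hsep
  obtain ⟨i, hi1, hi2⟩ : ∃ i : Fin n, M i.castSucc ≤ O ∧ ¬ M i.succ ≤ O := by
    by_contra hno
    push Not at hno
    have hall : ∀ i : Fin (n + 1), M i ≤ O := by
      intro i
      induction i using Fin.induction with
      | zero => rw [hM0]; exact bot_le
      | succ i ih => exact hno i ih
    have h1 := hall (Fin.last n)
    rw [hMl] at h1
    have h2 : Nat.card H ∣ Nat.card O := card_dvd_of_le (le_top.trans h1)
    have h3 : Nat.card H = 1 := Nat.Coprime.eq_one_of_dvd hOc.symm h2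
    exact hHb (Subgroup.card_eq_one.mp h3)
  have hMin := hMn i.succ
  set W : Subgroup G := O ⊔ M i.succ with hW
  have hWn : W.Normal := inferInstance
  have hOW : O ≤ W := le_sup_left
  have hq1 : O.relIndex W ∣ (M i.castSucc).relIndex (M i.succ) := by
    rw [hW, relIndex_sup_left]
    exact relIndex_dvd_of_le_left _ hi1
  have hWO : ¬ W ≤ O := fun h => hi2 (le_sup_right.trans h)
  have hqpi : ∀ q : ℕ, q.Prime → q ∣ O.relIndex W → q ∣ Nat.card H := by
    rcases hMq i with h | h
    · exact fun q hq hqd => h q hq (hqd.trans hq1)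
    · exfalso
      apply hWO
      apply hOmax W hWn
      rw [card_eq_relIndex_mul hOW]
      exact Nat.Coprime.mul_left (Nat.Coprime.coprime_dvd_left hq1 h) hOc
  have hne1 : O.relIndex W ≠ 1 := fun h => hWO (relIndex_eq_one.mp h)
  obtain ⟨p, hp, hpd⟩ := Nat.exists_prime_and_dvd hne1
  have : Fact p.Prime := ⟨hp⟩
  have hpH := hqpi p hp hpd
  have hpW : p ∣ Nat.card W := hpd.trans (relIndex_dvd_card _ _)
  -- Frattini
  obtain ⟨P⟩ : Nonempty (Sylow p W) := inferInstance
  set P' : Subgroup G := (P : Subgroup W).map W.subtype with hP'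
  have hfrat : normalizer (P' : Set G) ⊔ W = ⊤ := Sylow.normalizer_sup_eq_top P
  have hP'p : IsPGroup p P' := P.2.map _
  obtain ⟨c, hc⟩ := Cfsg.Agent.StrongEmb.TransferCompl.pGroup_conj_of_hall hH hp hpH hP'p
  obtain ⟨z, hz, hz1⟩ : ∃ z : G, z ∈ P' ∧ z ≠ 1 := by
    have h1 : P' ≠ ⊥ := by
      intro h
      have h2 : Nat.card P' = p ^ (Nat.card W).factorization p := by
        rw [hP', card_map_of_injective W.subtype_injective, Sylow.card_eq_multiplicity]
      rw [h, card_bot] at h2
      exact (hp.factorization_pos_of_dvd Nat.card_pos.ne' hpW).ne'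
        (Nat.pow_right_injective hp.two_le (by simpa using h2.symm))
    obtain ⟨z, hz⟩ := ne_bot_iff_exists_ne_one.mp h1
    exact ⟨z, z.2, fun h => hz (Subtype.ext h)⟩
  have hNP : ∀ g ∈ normalizer (P' : Set G), c * g * c⁻¹ ∈ normalizer (H : Set G) := by
    intro g hg
    by_contra hgn
    have h1 : g * z * g⁻¹ ∈ P' := (mem_normalizer_iff.mp hg z).mp hz
    have h2 : c * g * c⁻¹ * (c * z * c⁻¹) * (c * g * c⁻¹)⁻¹ = c * (g * z * g⁻¹) * c⁻¹ := by group
    have h3 := hTI _ hgn (c * z * c⁻¹) (hc z hz) (by rw [h2]; exact hc _ h1)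
    apply hz1
    have h4 : z = c⁻¹ * (c * z * c⁻¹) * c := by group
    rw [h4, h3]; group
  have hNW : normalizer (H : Set G) ⊔ W = ⊤ := by
    rw [eq_top_iff]
    intro x _
    have h1 : c⁻¹ * x * c ∈ normalizer (P' : Set G) ⊔ W := by rw [hfrat]; exact mem_top _
    rw [mem_sup_of_normal_right] at h1
    obtain ⟨g, hg, w, hw, hgw⟩ := h1
    have h2 : x = (c * g * c⁻¹) * (c * w * c⁻¹) := by
      have h3 : x = c * (c⁻¹ * x * c) * c⁻¹ := by group
      rw [h3, ← hgw]; group
    rw [h2]
    exact mul_mem (mem_sup_left (hNP g hg)) (mem_sup_right (hWn.conj_mem w hw c))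
  -- `W ≤ O H`
  have hWle : W ≤ O ⊔ H := by
    have h1 : (O ⊔ (H ⊓ W)).relIndex W = 1 := by
      by_contra hne
      obtain ⟨q, hq, hqd⟩ := Nat.exists_prime_and_dvd hne
      have h2 : q ∣ O.relIndex W := hqd.trans (relIndex_dvd_of_le_left _ le_sup_left)
      have h3 : q ∣ H.relIndex W := by
        rw [← inf_relIndex_right]
        exact hqd.trans (relIndex_dvd_of_le_left _ le_sup_right)
      have h4 : H.relIndex W ∣ H.index := by
        rw [← Cfsg.Agent.SolvableStructure.CarterSystem.relIndex_sup_of_normal]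
        exact relIndex_dvd_index_of_le le_sup_left
      have h5 := Nat.dvd_gcd (hqpi q hq h2) (h3.trans h4)
      rw [Nat.coprime_iff_gcd_eq_one.mp hH] at h5
      exact hq.one_lt.ne' (Nat.dvd_one.mp h5)
    exact (relIndex_eq_one.mp h1).trans (sup_le_sup_left inf_le_left _)
  have htop : O ⊔ normalizer (H : Set G) = ⊤ := by
    rw [eq_top_iff, ← hNW]
    apply sup_le le_sup_right
    exact hWle.trans (sup_le_sup_left le_normalizer _)
  refine ⟨htop, ?_⟩
  rw [← normalizer_eq_top_iff, eq_top_iff, ← htop]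
  apply sup_le
  · exact le_sup_left.trans le_normalizer
  · intro g hg
    have h1 := mem_normalizer_iff_map_conj_eq.mp hg
    have h2 : g ∈ normalizer (O : Set G) := by
      rw [normalizer_eq_top_iff.mpr hOn]
      exact mem_top g
    have h3 := mem_normalizer_iff_map_conj_eq.mp h2
    rw [mem_normalizer_iff_map_conj_eq]
    exact (Subgroup.map_sup O H _).trans (congrArg₂ (· ⊔ ·) h3 h1)

end Cfsg.Agent.H521.PiSepTI
end

-- part: S4118
section
set_option autoImplicit false
open Cfsg

namespace Cfsg.Agent.S4118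

open Subgroup
open scoped commutatorElement Pointwise

/-- `SL(2,5)` is not solvable. -/
theorem not_isSolvable_sl25 : ¬ Group.IsSolvable (Matrix.SpecialLinearGroup (Fin 2) (ZMod 5)) := by
  intro h
  have : Fact (Nat.Prime 5) := ⟨by norm_num⟩
  have hnt : Nontrivial (Matrix.SpecialLinearGroup (Fin 2) (ZMod 5)) := by
    refine ⟨1, ⟨!![1, 1; 0, 1], by simp [Matrix.det_fin_two]⟩, ?_⟩
    intro h1
    have h2 := congrArg (fun M : Matrix.SpecialLinearGroup (Fin 2) (ZMod 5) => M 0 1) h1
    simp at h2
  have h1 : commutator (Matrix.SpecialLinearGroup (Fin 2) (ZMod 5)) < ⊤ := Group.IsSolvable.commutator_lt_top_of_nontrivial _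
  exact h1.ne (Cfsg.Agent.PLocal.SL2Perfect.commutator_eq_top (by norm_num) (by norm_num))

/-- Let G be a finite group and H a non-normal subgroup meeting each of its conjugates by elements outside N_G(H) trivially, with the order of H coprime to its index in N_G(H); let π be the set of primes dividing the order of H and suppose G is π-separable (it has a chain of normal subgroups from 1 to G each of whose factors has order divisible only by primes in π or coprime to the order of H). Let O be the largest normal subgroup of G of order coprime to the order of H. Then G = O·N_G(H), O·H is normal in G, and G is solvable if and only if O is solvable and H has no subgroup isomorphic to SL₂(5). -/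
theorem result {G : Type*} [Group G] [Finite G] (H : Subgroup G)
    (hTI : Cfsg.IsTISubset (H : Set G)) (hnn : ¬ H.Normal)
    (hHall : (Nat.card H).Coprime (H.subgroupOf (Subgroup.normalizer (H : Set G))).index)
    (hsep : ∃ (n : ℕ) (M : Fin (n + 1) → Subgroup G), M 0 = ⊥ ∧ M (Fin.last n) = ⊤ ∧ Monotone M ∧ (∀ i, (M i).Normal) ∧
      ∀ i : Fin n, (∀ q : ℕ, q.Prime → q ∣ (M i.castSucc).relIndex (M i.succ) → q ∣ Nat.card H) ∨
        ((M i.castSucc).relIndex (M i.succ)).Coprime (Nat.card H))
    (O : Subgroup G) (hO : O = sSup {K : Subgroup G | K.Normal ∧ (Nat.card K).Coprime (Nat.card H)}) :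
    O ⊔ Subgroup.normalizer (H : Set G) = ⊤ ∧ (O ⊔ H).Normal ∧
    (Group.IsSolvable G ↔ Group.IsSolvable O ∧
      ∀ K : Subgroup G, K ≤ H → ¬ Nonempty (K ≃* Matrix.SpecialLinearGroup (Fin 2) (ZMod 5))) := by
  classical
  obtain ⟨hOn, hOc, hOmax⟩ := Cfsg.Agent.H521.PiSepTI.core_spec (Nat.card H) hO
  obtain ⟨htop, hXn⟩ := Cfsg.Agent.H521.PiSepTI.structureA hTI hnn hHall hsep hO
  have hH := Cfsg.Agent.H521.TIHall.hall_of_ti hTI hHall
  refine ⟨htop, hXn, ?_⟩
  constructor
  · intro hG
    refine ⟨inferInstance, ?_⟩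
    rintro K hKH ⟨e⟩
    apply not_isSolvable_sl25
    have h1 : Group.IsSolvable K := inferInstance
    exact Group.isSolvable_of_surjective (f := e.toMonoidHom) e.surjective
  rintro ⟨hOs, hno⟩
  -- `H ∩ O = 1`
  have hHO : Disjoint O H := Subgroup.disjoint_of_coprime_natCard hOc
  -- `H` is a Frobenius complement
  set X : Subgroup G := O ⊔ H with hX
  have hHX : H ≤ X := le_sup_right
  have hOX : O ≤ X := le_sup_left
  have hcompl : (O.subgroupOf X).IsComplement' (H.subgroupOf X) := by
    apply isComplement'_of_disjoint_and_mul_eq_univ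
    · rw [disjoint_def]
      rintro ⟨x, hx⟩ h1 h2
      exact Subtype.ext (disjoint_def.mp hHO h1 h2)
    · rw [← normal_mul, ← subgroupOf_sup hOX hHX, ← hX, subgroupOf_self]
      rfl
  have hcardHX : Nat.card (H.subgroupOf X) = Nat.card H := Nat.card_congr (subgroupOfEquivOfLe hHX).toEquiv
  have hidxHX : (H.subgroupOf X).index = Nat.card O := by
    rw [hcompl.index_eq_card]
    exact Nat.card_congr (subgroupOfEquivOfLe hOX).toEquiv
  have hnormX : ∀ g : X, g ∈ normalizer (H.subgroupOf X : Set X) ↔ (g : G) ∈ normalizer (H : Set G) := by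
    intro g
    rw [mem_normalizer_iff, mem_normalizer_iff]
    constructor
    · intro h x
      constructor
      · intro hx
        exact (h ⟨x, hHX hx⟩).mp hx
      · intro hx
        have h1 := (h ⟨x, by
          have h2 : x = (g : G)⁻¹ * ((g : G) * x * (g : G)⁻¹) * (g : G) := by group
          rw [h2]
          exact mul_mem (mul_mem (inv_mem g.2) (hHX hx)) g.2⟩).mpr hx
        exact h1
    · rintro h ⟨x, hx⟩
      exact h x
  obtain ⟨F, _, _, C, hC, ⟨e⟩⟩ := Cfsg.Agent.H521.FpfSection.frobenius_of_normal_complement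
    (H := H.subgroupOf X) (M := O.subgroupOf X) hcompl (by rw [hcardHX, hidxHX]; exact hOc.symm) (by
      intro g hg x hx hgx
      have h1 : (g : G) ∉ normalizer (H : Set G) := fun h => hg ((hnormX g).mpr h)
      exact Subtype.ext (hTI g h1 x hx hgx)) (by
      intro hn
      apply hnn
      have hXN : X ≤ normalizer (H : Set G) := by
        intro g hg
        have h1 : (⟨g, hg⟩ : X) ∈ normalizer (H.subgroupOf X : Set X) := by
          rw [normalizer_eq_top_iff.mpr hn]
          exact mem_top _
        exact (hnormX _).mp h1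
      refine ⟨fun h hh g => ?_⟩
      have h1 : g * h * g⁻¹ ∈ X := hXn.conj_mem h (hHX hh) g
      refine Cfsg.Agent.H521.TIHall.mem_of_mem_normalizer hHall (hXN h1) (fun q hq hqd => ?_)
      have h2 : orderOf (g * h * g⁻¹) = orderOf h := by
        have := orderOf_injective (MulAut.conj g).toMonoidHom (MulAut.conj g).injective h
        simpa using this
      rw [h2] at hqd
      exact hqd.trans (Subgroup.orderOf_dvd_natCard H hh))
  let e' : H ≃* C := (subgroupOfEquivOfLe hHX).symm.trans e
  -- `H` is solvable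
  have hCs : Group.IsSolvable C := by
    apply Cfsg.Agent.H521.FrobComp.isSolvable_of_no_sl C hC
    rintro K hKC ⟨f⟩
    -- transport `K` to `H`
    let ι : K →* H := e'.symm.toMonoidHom.comp (inclusion hKC)
    have hι : Function.Injective ι := e'.symm.injective.comp (inclusion_injective hKC)
    let ι' : K →* G := H.subtype.comp ι
    have hι' : Function.Injective ι' := H.subtype_injective.comp hι
    apply hno ι'.range
    · rintro _ ⟨k, rfl⟩
      exact (ι k).2
    · exact ⟨(MonoidHom.ofInjective hι').symm.trans f⟩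
  have hHs : Group.IsSolvable H := Group.isSolvable_of_surjective (f := e'.symm.toMonoidHom) e'.symm.surjective
  -- `X` is solvable
  have hXs : Group.IsSolvable X := by
    have h1 : Group.IsSolvable (O.subgroupOf X) := Group.isSolvable_of_isSolvable_injective
      (f := (subgroupOfEquivOfLe hOX).toMonoidHom) (subgroupOfEquivOfLe hOX).injective
    have h2 : Group.IsSolvable (X ⧸ O.subgroupOf X) := by
      have h3 : Group.IsSolvable (H.subgroupOf X) := Group.isSolvable_of_isSolvable_injective
        (f := (subgroupOfEquivOfLe hHX).toMonoidHom) (subgroupOfEquivOfLe hHX).injective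
      refine Group.isSolvable_of_surjective (G := H.subgroupOf X)
        (f := (QuotientGroup.mk' (O.subgroupOf X)).comp (H.subgroupOf X).subtype) ?_
      intro v
      obtain ⟨x, rfl⟩ := QuotientGroup.mk_surjective v
      have h4 : x ∈ ((O.subgroupOf X : Set X) * (H.subgroupOf X : Set X)) := by
        rw [hcompl.mul_eq]; exact Set.mem_univ _
      obtain ⟨o, ho, h, hh, rfl⟩ := h4
      refine ⟨⟨h, hh⟩, ?_⟩
      change ((h : X) : X ⧸ O.subgroupOf X) = ((o * h : X) : X ⧸ O.subgroupOf X)
      rw [QuotientGroup.mk_mul, (QuotientGroup.eq_one_iff o).mpr ho, one_mul]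
    exact (Group.isSolvable_iff_subgroup_quotient (O.subgroupOf X)).mpr ⟨h1, h2⟩
  -- a complement of `H` in its normalizer
  set N : Subgroup G := normalizer (H : Set G) with hN
  have hHN : H ≤ N := le_normalizer
  have hHNn : (H.subgroupOf N).Normal := Subgroup.normal_in_normalizer
  have hcardHN : Nat.card (H.subgroupOf N) = Nat.card H := Nat.card_congr (subgroupOfEquivOfLe hHN).toEquiv
  obtain ⟨T₀, hT₀⟩ := Subgroup.exists_right_complement'_of_coprime (N := H.subgroupOf N)
    (by rw [hcardHN]; exact hHall)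
  set T : Subgroup G := T₀.map N.subtype with hT
  have hTN : T ≤ N := map_subtype_le _
  have hTcard : Nat.card T = (H.subgroupOf N).index := by
    rw [hT, card_map_of_injective N.subtype_injective, hT₀.symm.index_eq_card]
  have hTcop : (Nat.card T).Coprime (Nat.card H) := by
    rw [hTcard]
    exact hHall.symm
  have hHT : N ≤ H ⊔ T := by
    intro x hx
    have h4 : (⟨x, hx⟩ : N) ∈ ((H.subgroupOf N : Set N) * (T₀ : Set N)) := by
      rw [hT₀.mul_eq]; exact Set.mem_univ _
    obtain ⟨h, hh, t, ht, hht⟩ := h4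
    have h5 : x = (h : G) * t := (congrArg Subtype.val hht).symm
    rw [h5]
    exact mul_mem (mem_sup_left hh) (mem_sup_right ⟨t, ht, rfl⟩)
  have hXT : X ⊔ T = ⊤ := by
    rw [eq_top_iff, ← htop]
    apply sup_le (hOX.trans le_sup_left)
    exact hHT.trans (sup_le (hHX.trans le_sup_left) le_sup_right)
  -- `C_T(H) ≤ O`
  set K₁ : Subgroup G := T ⊓ centralizer (H : Set G) with hK₁
  have hK₁N : N ≤ normalizer (K₁ : Set G) := by
    apply hHT.trans
    apply sup_le
    · -- `H` centralizes `K₁`
      intro h hh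
      have h1 : h ∈ centralizer (K₁ : Set G) := by
        rw [mem_centralizer_iff]
        intro k hk
        exact (mem_centralizer_iff.mp hk.2 h hh).symm
      exact centralizer_le_normalizer _ h1
    · have key : ∀ t ∈ T, ∀ k ∈ K₁, t * k * t⁻¹ ∈ K₁ := by
        intro t ht k hk
        refine ⟨T.mul_mem (T.mul_mem ht hk.1) (T.inv_mem ht), ?_⟩
        change t * k * t⁻¹ ∈ centralizer (H : Set G)
        rw [mem_centralizer_iff]
        intro h hh
        have h1 : t⁻¹ * h * t ∈ H := by
          have := (mem_normalizer_iff.mp (inv_mem (hTN ht)) h).mp hh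
          simpa using this
        have h2 := mem_centralizer_iff.mp hk.2 _ h1
        calc h * (t * k * t⁻¹) = t * ((t⁻¹ * h * t) * k) * t⁻¹ := by group
          _ = t * (k * (t⁻¹ * h * t)) * t⁻¹ := by rw [h2]
          _ = t * k * t⁻¹ * h := by group
      intro t ht
      rw [mem_normalizer_iff]
      intro x
      refine ⟨fun hx => key t ht x hx, fun hx => ?_⟩
      have h3 := key t⁻¹ (inv_mem ht) _ hx
      have h4 : t⁻¹ * (t * x * t⁻¹) * t⁻¹⁻¹ = x := by group
      rwa [h4] at h3
  have hK₁O : K₁ ≤ O := by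
    have hn : (O ⊔ K₁).Normal := by
      rw [← normalizer_eq_top_iff, eq_top_iff, ← htop]
      apply sup_le
      · exact le_sup_left.trans le_normalizer
      · intro g hg
        have h1 := mem_normalizer_iff_map_conj_eq.mp (hK₁N hg)
        have h2 : g ∈ normalizer (O : Set G) := by
          rw [normalizer_eq_top_iff.mpr hOn]
          exact mem_top g
        have h3 := mem_normalizer_iff_map_conj_eq.mp h2
        rw [mem_normalizer_iff_map_conj_eq]
        exact (Subgroup.map_sup O K₁ _).trans (congrArg₂ (· ⊔ ·) h3 h1)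
    have hc : (Nat.card (O ⊔ K₁ : Subgroup G)).Coprime (Nat.card H) := by
      rw [sup_comm]
      apply Nat.Coprime.coprime_dvd_left (Cfsg.Agent.H521.PiSepTI.card_sup_dvd K₁ O)
      apply Nat.Coprime.mul_left _ hOc
      exact Nat.Coprime.coprime_dvd_left (card_dvd_of_le inf_le_left) hTcop
    exact le_sup_right.trans (hOmax _ hn hc)
  -- the perfect core of `T` centralizes `H`
  set R : Subgroup G := Cfsg.Agent.TwoFusion.PerfCore.perf T with hR
  have hRT : R ≤ T := Cfsg.Agent.TwoFusion.PerfCore.perf_le T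
  have hRC : R ≤ centralizer (H : Set G) := by
    apply Cfsg.Agent.H521.PerfAct.le_centralizer_of_sylow
      (Cfsg.Agent.TwoFusion.PerfCore.perf_perfect T) (hRT.trans hTN)
      (Nat.Coprime.coprime_dvd_left (card_dvd_of_le hRT) hTcop) hHs
    intro p hp P hP
    exact Cfsg.Agent.H521.FrobComp.sylow_cyclic_or_quaternion C hC hp hP
      (C.subtype.comp (e'.toMonoidHom.comp P.subtype))
      (C.subtype_injective.comp (e'.injective.comp P.subtype_injective)) (fun x => (e' x).2)
  have hRX : R ≤ X := (le_inf hRT hRC).trans (hK₁O.trans hOX)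
  -- conclusion
  have hfin : Cfsg.Agent.TwoFusion.PerfCore.perf (⊤ : Subgroup G) ≤ X := by
    have h1 : (⊤ : Subgroup G).map (QuotientGroup.mk' X) = T.map (QuotientGroup.mk' X) := by
      rw [← hXT, Subgroup.map_sup]
      have h2 : X.map (QuotientGroup.mk' X) = ⊥ := by
        rw [Subgroup.map_eq_bot_iff, QuotientGroup.ker_mk']
      rw [h2, bot_sup_eq]
    have h3 := Cfsg.Agent.TwoFusion.PerfCore.map_perf (QuotientGroup.mk' X) (⊤ : Subgroup G)
    rw [h1, ← Cfsg.Agent.TwoFusion.PerfCore.map_perf] at h3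
    have h4 : R.map (QuotientGroup.mk' X) = ⊥ := by
      rw [Subgroup.map_eq_bot_iff, QuotientGroup.ker_mk']
      exact hRX
    rw [h4, Subgroup.map_eq_bot_iff, QuotientGroup.ker_mk'] at h3
    exact h3
  have hperf : Cfsg.Agent.TwoFusion.PerfCore.perf (⊤ : Subgroup G) = ⊥ := by
    apply Cfsg.Agent.TwoFusion.PerfCore.eq_bot_of_perfect_of_solvable
      (Cfsg.Agent.TwoFusion.PerfCore.perf_perfect _)
    exact Group.isSolvable_of_isSolvable_injective (f := inclusion hfin) (inclusion_injective hfin)
  have h5 := Cfsg.Agent.TwoFusion.PerfCore.solvable_of_perf_eq_bot hperf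
  exact Group.isSolvable_of_surjective (f := (topEquiv : (⊤ : Subgroup G) ≃* G).toMonoidHom) topEquiv.surjective

end Cfsg.Agent.S4118
end
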