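import Cfsg.Statements.S4126
import Cfsg.Agent.S0071
import Cfsg.Agent.S0007
import Cfsg.Agent.SmallSimple.S1000.QStruct
import Cfsg.Agent.Lib.CoprimeStab
import Cfsg.Agent.GTwoFour.Tools
set_option linter.all false

set_option autoImplicit false
open Cfsg

namespace Cfsg.Agent.S4126

open Subgroup
open scoped commutatorElement

section

variable {G : Type*} [Group G]

/-- If `y x y⁻¹ = x d` with `d` a `p`-element commuting with `y` and `y` of order prime to `p`, then
`y` and `x` commute. -/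
theorem comm_of_div {p : ℕ} {x y d : G} (hy : (orderOf y).Coprime p) (hyx : y * x * y⁻¹ = x * d)
    (hyd : y * d = d * y) {k : ℕ} (hd : d ^ p ^ k = 1) : d = 1 := by
  have h1 : ∀ n : ℕ, y ^ n * x * (y ^ n)⁻¹ = x * d ^ n := by
    intro n
    induction n with
    | zero => simp
    | succ n ih =>
      have h2 : y ^ (n + 1) * x * (y ^ (n + 1))⁻¹ = y * (y ^ n * x * (y ^ n)⁻¹) * y⁻¹ := by
        rw [pow_succ']; group
      have h3 : y * d ^ n * y⁻¹ = d ^ n := by
        have : Commute y (d ^ n) := (show Commute y d from hyd).pow_right n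
        rw [this.eq]; group
      rw [h2, ih]
      calc y * (x * d ^ n) * y⁻¹ = (y * x * y⁻¹) * (y * d ^ n * y⁻¹) := by group
        _ = x * d ^ (n + 1) := by rw [hyx, h3, mul_assoc, ← pow_succ']
  have h2 := h1 (orderOf y)
  rw [pow_orderOf_eq_one] at h2
  have h3 : d ^ orderOf y = 1 := by
    have : x = x * d ^ orderOf y := by simpa using h2
    exact (mul_eq_left.mp this.symm)
  have h4 : orderOf d ∣ orderOf y := orderOf_dvd_of_pow_eq_one h3
  have h5 : orderOf d ∣ p ^ k := orderOf_dvd_of_pow_eq_one hd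
  have h6 : (orderOf y).Coprime (p ^ k) := hy.pow_right k
  exact orderOf_eq_one_iff.mp (Nat.eq_one_of_dvd_coprimes h6 h4 h5)

/-- The exponent `p` (`p` odd) or `4` (`p = 2`). -/
def ex (p : ℕ) : ℕ := if p = 2 then 4 else p

theorem dvd_ex (p : ℕ) : p ∣ ex p := by
  unfold ex; split_ifs with h
  · subst h; norm_num
  · exact dvd_rfl

theorem pow_ex {p : ℕ} {x : G} (h : x ^ p = 1) : x ^ ex p = 1 := by
  obtain ⟨k, hk⟩ := dvd_ex p
  rw [hk, pow_mul, h, one_pow]

/-- An element `y` of order prime to `p` normalizing the `p`-group `X` and centralizing its elements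
of order `p` (and `4` for `p = 2`) centralizes `X`. -/
theorem centralizes [Finite G] {p : ℕ} [hp : Fact p.Prime] {X Y : Subgroup G} (hX : IsPGroup p X)
    (hYX : Y ≤ X) (hN : normalizer (X : Set G) ≤ normalizer (Y : Set G))
    (h1 : ∀ y ∈ Y, y ^ p ∈ centralizer (Y : Set G))
    (h2 : ∀ y ∈ Y, ∀ x ∈ X, ⁅y, x⁆ ∈ Y ⊓ centralizer (Y : Set G))
    (h3 : X ⊓ centralizer (Y : Set G) ≤ Y)
    {y : G} (hy : (orderOf y).Coprime p) (hyX : y ∈ normalizer (X : Set G))
    (hc : ∀ x ∈ Y, x ^ ex p = 1 → y * x = x * y) :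
    ∀ x ∈ X, y * x = x * y := by
  have hpow : ∀ x ∈ X, ∃ k : ℕ, x ^ p ^ k = 1 := by
    intro x hx
    obtain ⟨k, hk⟩ := hX ⟨x, hx⟩
    exact ⟨k, by simpa using congrArg Subtype.val hk⟩
  have hyY := hN hyX
  have memY : ∀ x ∈ Y, x⁻¹ * (y * x * y⁻¹) ∈ Y := fun x hx =>
    Y.mul_mem (Y.inv_mem hx) ((mem_normalizer_iff.mp hyY x).mp hx)
  have finish : ∀ x, x⁻¹ * (y * x * y⁻¹) ∈ X →
      y * (x⁻¹ * (y * x * y⁻¹)) = (x⁻¹ * (y * x * y⁻¹)) * y → y * x = x * y := by
    intro x hx hcx
    obtain ⟨k, hk⟩ := hpow _ hx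
    have h4 := comm_of_div (x := x) hy (by group) hcx hk
    have h5 : y * x * y⁻¹ = x := by
      have := congrArg (fun t => x * t) h4
      simpa [mul_assoc] using this
    calc y * x = (y * x * y⁻¹) * y := by group
      _ = x * y := by rw [h5]
  -- conjugation by `y` normalizes the centralizer of `Y`
  have hcent : ∀ z ∈ centralizer (Y : Set G), y * z * y⁻¹ ∈ centralizer (Y : Set G) := by
    intro z hz
    rw [mem_centralizer_iff] at hz ⊢
    intro c hcY
    have h4 : y⁻¹ * c * y ∈ Y := by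
      have := (mem_normalizer_iff.mp (inv_mem hyY) c).mp hcY
      simpa using this
    have h5 := hz _ h4
    calc c * (y * z * y⁻¹) = y * ((y⁻¹ * c * y) * z) * y⁻¹ := by group
      _ = y * (z * (y⁻¹ * c * y)) * y⁻¹ := by rw [h5]
      _ = y * z * y⁻¹ * c := by group
  -- (i)
  have hZ : ∀ n : ℕ, ∀ z ∈ Y, z ∈ centralizer (Y : Set G) → z ^ p ^ n = 1 → y * z = z * y := by
    intro n
    induction n with
    | zero => intro z _ _ hz; simp only [pow_zero, pow_one] at hz; rw [hz]; simp
    | succ n ih =>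
      intro z hzY hzc hz
      have h4 : y * z ^ p = z ^ p * y := by
        apply ih (z ^ p) (Y.pow_mem hzY p) (Subgroup.pow_mem _ hzc p)
        rw [← pow_mul, ← pow_succ']; exact hz
      set d := z⁻¹ * (y * z * y⁻¹) with hd
      have hdY : d ∈ Y := memY z hzY
      have hzd : z * d = y * z * y⁻¹ := by rw [hd]; group
      have h5 : Commute z d := by
        have := mem_centralizer_iff.mp hzc d hdY
        exact this.symm
      have h6 : (z * d) ^ p = z ^ p := by
        rw [hzd, conj_pow, h4]; group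
      rw [h5.mul_pow] at h6
      have h7 : d ^ p = 1 := mul_eq_left.mp h6
      exact finish z (hYX hdY) (hc d hdY (pow_ex h7))
  have hZ' : ∀ z ∈ Y, z ∈ centralizer (Y : Set G) → y * z = z * y := by
    intro z hz hzc
    obtain ⟨k, hk⟩ := hpow z (hYX hz)
    exact hZ k z hz hzc hk
  -- (ii)
  have hY' : ∀ c ∈ Y, y * c = c * y := by
    intro c hcY
    set d := c⁻¹ * (y * c * y⁻¹) with hd
    have hdY : d ∈ Y := memY c hcY
    have hcd : c * d = y * c * y⁻¹ := by rw [hd]; group
    have h4 : y * c ^ p = c ^ p * y := hZ' _ (Y.pow_mem hcY p) (h1 c hcY)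
    have h6 : (c * d) ^ p = c ^ p := by
      rw [hcd, conj_pow, h4]; group
    -- commutator
    set w := ⁅d, c⁆ with hw
    have hwm := h2 d hdY c (hYX hcY)
    have hwc : Commute w c := (mem_centralizer_iff.mp hwm.2 c hcY).symm
    have hwd : Commute w d := (mem_centralizer_iff.mp hwm.2 d hdY).symm
    have hdc : d * c = w * (c * d) := by rw [hw, commutatorElement_def]; group
    have h7 := Lib.CoprimeStab.mul_pow_class_two hdc hwc hwd
    have hwp : w ^ p = 1 := by
      -- `[d, c ^ p] = 1`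
      have h8 : ∀ n : ℕ, d * c ^ n = w ^ n * (c ^ n * d) := by
        intro n
        induction n with
        | zero => simp
        | succ n ih =>
          have e1 : d * c ^ (n + 1) = (d * c ^ n) * c := by rw [pow_succ]; group
          rw [e1, ih]
          calc w ^ n * (c ^ n * d) * c = w ^ n * c ^ n * (d * c) := by group
            _ = w ^ n * (c ^ n * w) * (c * d) := by rw [hdc]; group
            _ = w ^ n * (w * c ^ n) * (c * d) := by rw [(hwc.pow_right n).eq]
            _ = w ^ (n + 1) * (c ^ (n + 1) * d) := by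
              rw [pow_succ w, pow_succ c]; group
      have h9 := h8 p
      have h10 := mem_centralizer_iff.mp (h1 c hcY) d hdY
      rw [h10] at h9
      exact (mul_eq_right.mp h9.symm)
    have h11 : w ^ p.choose 2 * d ^ p = 1 := by
      have := h7 p
      rw [h6, ← mul_assoc, (hwc.pow_pow (p.choose 2) p).eq, mul_assoc] at this
      exact (mul_eq_left.mp this.symm)
    have h12 : d ^ ex p = 1 := by
      by_cases hp2 : p = 2
      · subst hp2
        have e1 : ex 2 = 2 * 2 := by simp [ex]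
        rw [e1, pow_mul]
        have e2 : d ^ 2 = w⁻¹ := by
          have : w ^ 1 * d ^ 2 = 1 := by simpa using h11
          rw [pow_one] at this
          exact (inv_eq_of_mul_eq_one_right this).symm
        rw [e2, inv_pow, hwp, inv_one]
      · have hodd : Odd p := hp.out.odd_of_ne_two hp2
        have e1 : p ∣ p.choose 2 := by
          apply hp.out.dvd_choose_self (by norm_num)
          exact lt_of_le_of_ne hp.out.two_le (Ne.symm hp2)
        obtain ⟨k, hk⟩ := e1
        rw [hk, pow_mul, hwp, one_pow, one_mul] at h11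
        exact pow_ex h11
    exact finish c (hYX hdY) (hc d hdY h12)
  -- (iii)
  intro x hx
  have hxY : ∀ t ∈ X, t ∈ normalizer (Y : Set G) := fun t ht => hN (le_normalizer ht)
  set d := x⁻¹ * (y * x * y⁻¹) with hd
  have hdX : d ∈ X := X.mul_mem (X.inv_mem hx) ((mem_normalizer_iff.mp hyX x).mp hx)
  have hdc : d ∈ centralizer (Y : Set G) := by
    rw [mem_centralizer_iff]
    intro c hcY
    have e1 : x * c * x⁻¹ ∈ Y := (mem_normalizer_iff.mp (hxY x hx) c).mp hcY
    have e3 := hY' _ e1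
    have e4 := hY' c hcY
    have e5 : y⁻¹ * c * y = c := by
      calc y⁻¹ * c * y = y⁻¹ * (c * y) := by group
        _ = y⁻¹ * (y * c) := by rw [e4]
        _ = c := by group
    have e6 : (y * x * y⁻¹) * c * (y * x * y⁻¹)⁻¹ = x * c * x⁻¹ := by
      calc (y * x * y⁻¹) * c * (y * x * y⁻¹)⁻¹ = y * (x * (y⁻¹ * c * y) * x⁻¹) * y⁻¹ := by group
        _ = y * (x * c * x⁻¹) * y⁻¹ := by rw [e5]
        _ = x * c * x⁻¹ := by rw [e3]; group
    have e7 : d * c * d⁻¹ = c := by
      calc d * c * d⁻¹ = x⁻¹ * ((y * x * y⁻¹) * c * (y * x * y⁻¹)⁻¹) * x := by rw [hd]; group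
        _ = c := by rw [e6]; group
    calc c * d = (d * c * d⁻¹) * d := by rw [e7]
      _ = d * c := by group
  exact finish x hdX (hY' d (h3 ⟨hdX, hdc⟩))

/-- A `p`-element whose conjugacy class has `p`-power size: any Sylow `p`-subgroup is a supplement
of the centralizer. -/
theorem exists_factor [Finite G] {p : ℕ} [hp : Fact p.Prime] (P : Sylow p G) {x : G}
    (hx : ∃ a : ℕ, (centralizer ({x} : Set G)).index = p ^ a) (g : G) :
    ∃ u ∈ (P : Subgroup G), ∃ c, c * x = x * c ∧ g = u * c := by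
  obtain ⟨a, ha⟩ := hx
  have h0 : (P : Subgroup G).index.Coprime (centralizer ({x} : Set G)).index := by
    rw [ha]
    apply Nat.Coprime.pow_right
    exact ((Nat.Prime.coprime_iff_not_dvd hp.out).mpr P.not_dvd_index).symm
  obtain ⟨u, hu, c, hc, rfl⟩ := (S0007.result (P : Subgroup G) (centralizer ({x} : Set G)) h0).2 g
  exact ⟨u, hu, c, (mem_centralizer_iff.mp hc x rfl).symm, rfl⟩

/-- If all elements of the normal `p`-subgroup `D` have `p`-power class size then the elements of
order prime to `p` centralize `D`. -/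
theorem comm_of_class [Finite G] {p : ℕ} [hp : Fact p.Prime] {D : Subgroup G} (hDn : D.Normal)
    (hD : IsPGroup p D) (hcl : ∀ x ∈ D, ∃ a : ℕ, (centralizer ({x} : Set G)).index = p ^ a)
    {y : G} (hy : (orderOf y).Coprime p) : ∀ x ∈ D, y * x = x * y := by
  classical
  -- `E` : the elements of `D` commuting with all `p'`-elements
  let E : Subgroup G := D ⊓ centralizer {g : G | (orderOf g).Coprime p}
  have hEn : E.Normal := by
    refine ⟨fun x hx g => mem_inf.mpr ⟨hDn.conj_mem x hx.1 g, ?_⟩⟩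
    rw [mem_centralizer_iff]
    intro z hz
    have h1 : (orderOf (g⁻¹ * z * g)).Coprime p := by
      have h2 : orderOf (g⁻¹ * z * g) = orderOf z := by
        have := orderOf_injective (MulAut.conj g⁻¹).toMonoidHom (MulAut.conj g⁻¹).injective z
        simpa [MulAut.conj_apply] using this
      rw [h2]; exact hz
    have h3 := mem_centralizer_iff.mp hx.2 _ h1
    calc z * (g * x * g⁻¹) = g * ((g⁻¹ * z * g) * x) * g⁻¹ := by group
      _ = g * (x * (g⁻¹ * z * g)) * g⁻¹ := by rw [h3]
      _ = g * x * g⁻¹ * z := by group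
  by_cases hDE : D ≤ E
  · intro x hx
    exact mem_centralizer_iff.mp (hDE hx).2 y hy
  exfalso
  obtain ⟨P⟩ : Nonempty (Sylow p G) := inferInstance
  have hDP : D ≤ (P : Subgroup G) := by
    obtain ⟨Q, hQ⟩ := hD.exists_le_sylow
    obtain ⟨g, hg⟩ := MulAction.exists_smul_eq G Q P
    rw [← hg]
    intro x hx
    rw [Sylow.coe_subgroup_smul, Subgroup.mem_pointwise_smul_iff_inv_smul_mem]
    apply hQ
    have := hDn.conj_mem x hx g⁻¹
    simpa [MulAut.smul_def] using this
  -- an element of `D ∖ E` central modulo `E`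
  obtain ⟨x, hxD, hxE, hx⟩ : ∃ x ∈ D, x ∉ E ∧ ∀ u ∈ (P : Subgroup G), u * x * u⁻¹ * x⁻¹ ∈ E := by
    let EP : Subgroup P := E.subgroupOf P
    have : EP.Normal := hEn.subgroupOf P
    let N : Subgroup (P ⧸ EP) := (D.subgroupOf P).map (QuotientGroup.mk' EP)
    have hDPn : (D.subgroupOf (P : Subgroup G)).Normal := hDn.subgroupOf P
    have hN : N.Normal := hDPn.map _ (QuotientGroup.mk'_surjective EP)
    have hPp : IsPGroup p (P ⧸ EP) := P.2.to_quotient EP
    have hN1 : N ≠ ⊥ := by
      intro h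
      apply hDE
      intro x hx
      have h1 : (QuotientGroup.mk' EP) ⟨x, hDP hx⟩ ∈ N := ⟨⟨x, hDP hx⟩, hx, rfl⟩
      rw [h, mem_bot] at h1
      have h2 : (⟨x, hDP hx⟩ : P) ∈ EP := (QuotientGroup.eq_one_iff _).mp h1
      exact h2
    obtain ⟨z, hzN, hzc, hz1⟩ := GTwoFour.Tools.exists_mem_center_of_normal hPp N hN1
    obtain ⟨x, hx, rfl⟩ := hzN
    refine ⟨x, hx, ?_, ?_⟩
    · intro h
      exact hz1 ((QuotientGroup.eq_one_iff _).mpr h)
    · intro u hu
      have h1 := mem_center_iff.mp hzc (QuotientGroup.mk' EP ⟨u, hu⟩)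
      have h2 : QuotientGroup.mk' EP (⟨u, hu⟩ * x * ⟨u, hu⟩⁻¹ * x⁻¹) = 1 := by
        rw [map_mul, map_mul, map_mul, map_inv, map_inv, h1]; group
      have h3 := (QuotientGroup.eq_one_iff _).mp h2
      exact h3
  -- then the class of `x` lies in `x E`
  have hxg : ∀ g : G, g * x * g⁻¹ * x⁻¹ ∈ E := by
    intro g
    obtain ⟨u, hu, c, hc, rfl⟩ := exists_factor P (hcl x hxD) g
    have : u * c * x * (u * c)⁻¹ * x⁻¹ = u * x * u⁻¹ * x⁻¹ := by
      rw [mul_assoc u c x, hc]; group
    rw [this]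
    exact hx u hu
  apply hxE
  refine mem_inf.mpr ⟨hxD, ?_⟩
  rw [mem_centralizer_iff]
  intro z hz
  have h1 : x⁻¹ * (z * x * z⁻¹ * x⁻¹) * x ∈ E := by
    have := hEn.conj_mem _ (hxg z) x⁻¹
    simpa using this
  have h2 : x⁻¹ * (z * x * z⁻¹ * x⁻¹) * x = x⁻¹ * (z * x * z⁻¹) := by group
  rw [h2] at h1
  obtain ⟨k, hk⟩ := hD ⟨_, h1.1⟩
  have hk' : (x⁻¹ * (z * x * z⁻¹)) ^ p ^ k = 1 := by simpa using congrArg Subtype.val hk
  have h3 := comm_of_div (x := x) hz (by group) (mem_centralizer_iff.mp h1.2 z hz) hk'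
  have h5 : z * x * z⁻¹ = x := by
    have := congrArg (fun t => x * t) h3
    simpa [mul_assoc] using this
  calc z * x = (z * x * z⁻¹) * z := by group
    _ = x * z := by rw [h5]

end

theorem main {G : Type*} [Group G] [Finite G] (p : ℕ) [hp : Fact p.Prime]
    (h : ∀ x : G, (orderOf x = p ∨ (p = 2 ∧ orderOf x = 4)) → ∃ a : ℕ, (Subgroup.centralizer ({x} : Set G)).index = p ^ a) :
    Cfsg.HasNormalPComplement p G := by
  classical
  -- the elements with `x ^ e = 1`
  have hcl : ∀ x : G, x ^ ex p = 1 → ∃ a : ℕ, (centralizer ({x} : Set G)).index = p ^ a := by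
    intro x hx
    by_cases hx1 : x = 1
    · refine ⟨0, ?_⟩
      have : centralizer ({x} : Set G) = ⊤ := by
        rw [eq_top_iff]; intro g _; rw [mem_centralizer_iff]; intro t ht
        rw [Set.mem_singleton_iff.mp ht, hx1]; simp
      rw [this]; simp
    by_cases hp2 : p = 2
    · subst hp2
      have e1 : ex 2 = 2 ^ 2 := by simp [ex]
      rw [e1] at hx
      obtain ⟨k, hk, hk'⟩ := (Nat.dvd_prime_pow Nat.prime_two).mp (orderOf_dvd_of_pow_eq_one hx)
      have hk0 : k ≠ 0 := by
        rintro rfl; exact hx1 (orderOf_eq_one_iff.mp (by simpa using hk'))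
      have : k = 1 ∨ k = 2 := by omega
      rcases this with rfl | rfl
      · exact h x (Or.inl (by simpa using hk'))
      · exact h x (Or.inr ⟨rfl, by simpa using hk'⟩)
    · have e1 : ex p = p := by simp [ex, hp2]
      rw [e1] at hx
      exact h x (Or.inl (orderOf_eq_prime hx hx1))
  obtain ⟨P⟩ : Nonempty (Sylow p G) := inferInstance
  -- `O = O_p(G)`, as the intersection of the Sylow subgroups
  let O : Subgroup G := (P : Subgroup G).normalCore
  have hOn : O.Normal := Subgroup.normalCore_normal _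
  have hOp : IsPGroup p O := P.2.to_le (Subgroup.normalCore_le _)
  have hxO : ∀ x : G, x ^ ex p = 1 → x ∈ O := by
    intro x hx
    have hxp : IsPGroup p (zpowers x) := by
      rw [IsPGroup.iff_card, Nat.card_zpowers]
      obtain ⟨k, hk⟩ : ∃ k, ex p = p ^ k := by
        by_cases hp2 : p = 2
        · exact ⟨2, by simp [ex, hp2]⟩
        · exact ⟨1, by simp [ex, hp2]⟩
      rw [hk] at hx
      obtain ⟨j, _, hj⟩ := (Nat.dvd_prime_pow hp.out).mp (orderOf_dvd_of_pow_eq_one hx)
      exact ⟨j, hj⟩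
    obtain ⟨Q, hQ⟩ := hxp.exists_le_sylow
    have hxQ : x ∈ (Q : Subgroup G) := hQ (mem_zpowers x)
    -- a conjugate of `x` lies in `P`
    obtain ⟨g, hg⟩ := MulAction.exists_smul_eq G Q P
    have hxP : g * x * g⁻¹ ∈ (P : Subgroup G) := by
      rw [← hg, Sylow.coe_subgroup_smul]
      exact ⟨x, hxQ, by simp [MulAut.smul_def]⟩
    intro t
    -- `t x t⁻¹ = (t g⁻¹) (g x g⁻¹) (t g⁻¹)⁻¹`
    have hx' : (g * x * g⁻¹) ^ ex p = 1 := by rw [conj_pow, hx]; group
    obtain ⟨u, hu, c, hc, hu'⟩ := exists_factor P (hcl _ hx') (t * g⁻¹)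
    have e1 : t * x * t⁻¹ = u * (g * x * g⁻¹) * u⁻¹ := by
      calc t * x * t⁻¹ = (t * g⁻¹) * (g * x * g⁻¹) * (t * g⁻¹)⁻¹ := by group
        _ = u * (c * (g * x * g⁻¹)) * c⁻¹ * u⁻¹ := by rw [hu']; group
        _ = u * (g * x * g⁻¹) * u⁻¹ := by rw [hc]; group
    rw [e1]
    exact (P : Subgroup G).mul_mem ((P : Subgroup G).mul_mem hu hxP) ((P : Subgroup G).inv_mem hu)
  -- the elements of order prime to `p` centralize `O`
  obtain ⟨Y, hYO, hN, h1, h2, h3⟩ := SmallSimple.S1000.QStruct.exists_critical hOp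
  have hYn : Y.Normal := by
    rw [← normalizer_eq_top_iff, eq_top_iff]
    refine le_trans ?_ hN
    rw [(normalizer_eq_top_iff (H := O)).mpr hOn]
  -- the subgroup `D`
  have hDmul : ∀ {a b : G}, a ∈ Y → b ∈ Y → a ^ ex p = 1 → b ^ ex p = 1 → (a * b) ^ ex p = 1 := by
    intro a b ha hb ha' hb'
    set w := ⁅b, a⁆ with hw
    have hwm := h2 b hb a (hYO ha)
    have hwc : Commute w a := (mem_centralizer_iff.mp hwm.2 a ha).symm
    have hwd : Commute w b := (mem_centralizer_iff.mp hwm.2 b hb).symm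
    have hdc : b * a = w * (a * b) := by rw [hw, commutatorElement_def]; group
    have h7 := Lib.CoprimeStab.mul_pow_class_two hdc hwc hwd
    have hwp : w ^ p = 1 := by
      have h8 : ∀ n : ℕ, b * a ^ n = w ^ n * (a ^ n * b) := by
        intro n
        induction n with
        | zero => simp
        | succ n ih =>
          have e1 : b * a ^ (n + 1) = (b * a ^ n) * a := by rw [pow_succ]; group
          rw [e1, ih]
          calc w ^ n * (a ^ n * b) * a = w ^ n * a ^ n * (b * a) := by group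
            _ = w ^ n * (a ^ n * w) * (a * b) := by rw [hdc]; group
            _ = w ^ n * (w * a ^ n) * (a * b) := by rw [(hwc.pow_right n).eq]
            _ = w ^ (n + 1) * (a ^ (n + 1) * b) := by
              rw [pow_succ w, pow_succ a]; group
      have h9 := h8 p
      have h10 := mem_centralizer_iff.mp (h1 a ha) b hb
      rw [h10] at h9
      exact (mul_eq_right.mp h9.symm)
    rw [h7, ha', hb', mul_one, mul_one]
    have : p ∣ (ex p).choose 2 := by
      by_cases hp2 : p = 2
      · subst hp2; simp only [ex, if_true]; decide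
      · simp only [ex, if_neg hp2]
        apply hp.out.dvd_choose_self (by norm_num)
        exact lt_of_le_of_ne hp.out.two_le (Ne.symm hp2)
    obtain ⟨k, hk⟩ := this
    rw [hk, pow_mul, hwp, one_pow]
  let D : Subgroup G :=
    { carrier := {x | x ∈ Y ∧ x ^ ex p = 1}
      one_mem' := ⟨Y.one_mem, one_pow _⟩
      mul_mem' := fun {a b} ha hb => ⟨Y.mul_mem ha.1 hb.1, hDmul ha.1 hb.1 ha.2 hb.2⟩
      inv_mem' := fun {a} ha => ⟨Y.inv_mem ha.1, by rw [inv_pow, ha.2, inv_one]⟩ }
  have hDn : D.Normal := ⟨fun x hx g => ⟨hYn.conj_mem x hx.1 g, by rw [conj_pow, hx.2]; group⟩⟩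
  have hDp : IsPGroup p D := hOp.to_le (fun x hx => hYO hx.1)
  have hyD : ∀ y : G, (orderOf y).Coprime p → ∀ x ∈ D, y * x = x * y := fun y hy =>
    comm_of_class hDn hDp (fun x hx => hcl x hx.2) hy
  have hyO : ∀ y : G, (orderOf y).Coprime p → ∀ x ∈ O, y * x = x * y := by
    intro y hy
    apply centralizes hOp hYO hN h1 h2 h3 hy
    · rw [(normalizer_eq_top_iff (H := O)).mpr hOn]; trivial
    · intro x hx hx'
      exact hyD y hy x ⟨hx, hx'⟩
  -- the Frobenius criterion
  refine ⟨P, ?_⟩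
  rw [S0071.result P]
  intro Q hQP g hg hgo
  have hQp : IsPGroup p Q := P.2.to_le hQP
  obtain ⟨Y', hYQ, hN', h1', h2', h3'⟩ := SmallSimple.S1000.QStruct.exists_critical hQp
  have := centralizes hQp hYQ hN' h1' h2' h3' hgo hg (by
    intro x _ hx'
    exact hyO g hgo x (hxO x hx'))
  rw [mem_centralizer_iff]
  intro x hx
  exact (this x hx).symm

/-- Let G be a finite group and p a prime. Suppose every element of order p, and when p = 2 also every element of order 4, has a conjugacy class of p-power size. Then G has a normal p-complement. -/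
theorem result {G : Type*} [Group G] [Finite G] (p : ℕ) [Fact p.Prime]
    (h : ∀ x : G, (orderOf x = p ∨ (p = 2 ∧ orderOf x = 4)) → ∃ a : ℕ, (Subgroup.centralizer ({x} : Set G)).index = p ^ a) :
    Cfsg.HasNormalPComplement p G :=
  main p h

end Cfsg.Agent.S4126
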