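import Cfsg.Statements.S4127
import Cfsg.Agent.H524.ClassSize
import Cfsg.Agent.Lib.ThompsonPQ
import Cfsg.Agent.S0007
set_option linter.all false

set_option autoImplicit false
open Cfsg

namespace Cfsg.Agent.S4127

open Subgroup Cfsg.Agent.H524.ClassSize

/-- For commuting elements `x`, `y` of coprime orders, the centralizer of `x y` centralizes `x`. -/
theorem commute_left {G : Type*} [Group G] {x y w : G} (hxy : Commute x y)
    (hc : (orderOf y).Coprime (orderOf x)) (hw : Commute w (x * y)) : Commute w x := by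
  obtain ⟨m, hm⟩ := exists_pow_eq_self_of_coprime hc
  have h1 : Commute w ((x * y) ^ orderOf y) := hw.pow_right _
  rw [hxy.mul_pow, pow_orderOf_eq_one, mul_one] at h1
  have h2 := h1.pow_right m
  rwa [hm] at h2

/-- Let G be a finite group, p a prime and p^a the largest power of p dividing the size of any conjugacy class of G. If some element of p-power order has a conjugacy class of size exactly p^a, then G has a normal p-complement. -/
theorem result {G : Type*} [Group G] [Finite G] (p : ℕ) [Fact p.Prime]
    (a : ℕ) (hmax : ∀ y : G, ¬ p ^ (a + 1) ∣ (Subgroup.centralizer ({y} : Set G)).index)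
    (hx : ∃ x : G, (∃ k : ℕ, orderOf x = p ^ k) ∧ (Subgroup.centralizer ({x} : Set G)).index = p ^ a) :
    Cfsg.HasNormalPComplement p G := by
  obtain ⟨x, ⟨k, hk⟩, hxi⟩ := hx
  have hp : p.Prime := Fact.out
  set C := Subgroup.centralizer ({x} : Set G) with hC
  -- Step 1
  have hstep : ∀ y : C, (orderOf y).Coprime p →
      ¬ p ∣ (Subgroup.centralizer ({y} : Set C)).index := by
    intro y hy hdvd
    have hyx : Commute x (y : G) := by
      have h0 : (y : G) ∈ Subgroup.centralizer ({x} : Set G) := y.2
      rw [Subgroup.mem_centralizer_singleton_iff] at h0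
      exact h0.symm
    have hoy : orderOf (y : G) = orderOf y := Subgroup.orderOf_coe y
    have hcop : (orderOf (y : G)).Coprime (orderOf x) := by
      rw [hoy, hk]; exact Nat.Coprime.pow_right _ hy
    have hle : Subgroup.centralizer ({x * (y : G)} : Set G) ≤
        (Subgroup.centralizer ({y} : Set C)).map C.subtype := by
      intro w hw
      rw [Subgroup.mem_centralizer_singleton_iff] at hw
      have h1 : Commute w x := commute_left hyx hcop hw
      have h2 : Commute w (y : G) := by
        have hw' : Commute w ((y : G) * x) := by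
          show w * ((y : G) * x) = (y : G) * x * w
          rw [← hyx.eq]; exact hw
        exact commute_left hyx.symm hcop.symm hw'
      have hwC : w ∈ C := by
        rw [hC, Subgroup.mem_centralizer_singleton_iff]; exact h1
      refine ⟨⟨w, hwC⟩, ?_, rfl⟩
      change (⟨w, hwC⟩ : C) ∈ Subgroup.centralizer ({y} : Set C)
      rw [Subgroup.mem_centralizer_singleton_iff]
      exact Subtype.ext h2
    have h3 := Subgroup.index_dvd_of_le hle
    rw [Subgroup.index_map_subtype, hxi] at h3
    apply hmax (x * (y : G))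
    refine dvd_trans ?_ h3
    rw [pow_succ']
    exact Nat.mul_dvd_mul hdvd dvd_rfl
  -- Step 2
  obtain ⟨P0⟩ : Nonempty (Sylow p C) := inferInstance
  obtain ⟨hP0, N, hN, hNc, hNP⟩ := normal_and_complement P0 (sylow_sup_centralizer hstep P0)
  have hu : Unique (Sylow p C) := Sylow.unique_of_normal P0 hP0
  set K := N.map C.subtype with hK
  have hKC : K ≤ C := Subgroup.map_subtype_le N
  have hNcop : (Nat.card N).Coprime p := by
    rw [Nat.coprime_comm, Nat.Prime.coprime_iff_not_dvd hp, ← hNc.index_eq_card]
    exact P0.not_dvd_index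
  have hKcard : Nat.card K = Nat.card N := Subgroup.card_map_of_injective C.subtype_injective
  have hNidx : N.index = Nat.card P0 := hNc.symm.index_eq_card
  -- Step 3
  obtain ⟨P, hP⟩ : ∃ P : Sylow p G, zpowers x ≤ (P : Subgroup G) := by
    have hpx : IsPGroup p (zpowers x) := by
      apply IsPGroup.of_card (n := k)
      rw [Nat.card_zpowers, hk]
    exact hpx.exists_le_sylow
  have hconj : ∀ g : G, g * x * g⁻¹ ∈ (P : Subgroup G) := by
    intro g
    have hcop : (P : Subgroup G).index.Coprime C.index := by
      rw [hxi, Nat.coprime_comm]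
      exact Nat.Coprime.pow_left _ ((Nat.Prime.coprime_iff_not_dvd hp).mpr P.not_dvd_index)
    obtain ⟨u, hu, c, hc, rfl⟩ := Cfsg.Agent.S0007.exists_mul_eq (P : Subgroup G) C hcop g
    have h1 : c * x * c⁻¹ = x := by
      rw [hC, Subgroup.mem_centralizer_singleton_iff] at hc
      rw [hc]; group
    have h2 : u * c * x * (u * c)⁻¹ = u * (c * x * c⁻¹) * u⁻¹ := by group
    rw [h2, h1]
    exact mul_mem (mul_mem hu (hP (mem_zpowers x))) (inv_mem hu)
  set R := Subgroup.normalClosure ({x} : Set G) with hR
  have hRP : R ≤ (P : Subgroup G) := by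
    rw [hR, Subgroup.normalClosure, Subgroup.closure_le]
    intro z hz
    rw [Group.mem_conjugatesOfSet_iff] at hz
    obtain ⟨y, hy, hyz⟩ := hz
    rw [Set.mem_singleton_iff] at hy
    subst hy
    obtain ⟨g, rfl⟩ := isConj_iff.mp hyz
    exact hconj g
  have hxR : x ∈ R := Subgroup.subset_normalClosure (Set.mem_singleton x)
  have hRp : IsPGroup p R := P.isPGroup'.to_le hRP
  -- Step 4
  have hRC : R ⊓ Subgroup.centralizer ((zpowers x : Subgroup G) : Set G) ≤
      Subgroup.centralizer (K : Set G) := by
    intro r hr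
    have hrC : r ∈ C := by
      rw [hC, Subgroup.mem_centralizer_singleton_iff]
      exact ((Subgroup.mem_centralizer_iff.mp hr.2) x (mem_zpowers x)).symm
    have hA : IsPGroup p (zpowers (⟨r, hrC⟩ : C)) := by
      obtain ⟨n, hn⟩ := (IsPGroup.iff_orderOf.mp hRp) ⟨r, hr.1⟩
      apply IsPGroup.of_card (n := n)
      rw [Nat.card_zpowers, Subgroup.orderOf_mk]
      rwa [Subgroup.orderOf_mk] at hn
    obtain ⟨S, hS⟩ := hA.exists_le_sylow
    have hSP : S = P0 := hu.uniq S |>.trans (hu.uniq P0).symm
    have hrP : (⟨r, hrC⟩ : C) ∈ (P0 : Subgroup C) := by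
      rw [← hSP]; exact hS (mem_zpowers _)
    rw [Subgroup.mem_centralizer_iff]
    rintro _ ⟨n, hn, rfl⟩
    have h1 := (Subgroup.mem_centralizer_iff.mp (hNP hn)) _ hrP
    have h2 := congrArg Subtype.val h1
    exact h2.symm
  have hRn : R.Normal := Subgroup.normalClosure_normal
  have hKR : K ≤ Subgroup.centralizer (R : Set G) := by
    refine Cfsg.Agent.Lib.ThompsonPQ.thompson_p_times_q p (zpowers x) K R ?_ ?_ hRp ?_ ?_ ?_ hRC
    · apply IsPGroup.of_card (n := k)
      rw [Nat.card_zpowers, hk]
    · rw [hKcard]; exact hNcop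
    · rw [zpowers_le, Subgroup.mem_centralizer_iff]
      intro y hy
      have := hKC hy
      rw [hC, Subgroup.mem_centralizer_singleton_iff] at this
      exact this
    · intro y _
      have := Subgroup.normalizer_eq_top (H := R)
      rw [this]; trivial
    · intro y _
      have := Subgroup.normalizer_eq_top (H := R)
      rw [this]; trivial
  -- Step 5
  have hCR : Subgroup.centralizer (R : Set G) ≤ C := by
    rw [hC]
    apply Subgroup.centralizer_le
    intro y hy
    rw [Set.mem_singleton_iff] at hy
    subst hy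
    exact hxR
  have hKn : K.Normal := by
    refine ⟨fun y hy g => ?_⟩
    have h1 : g * y * g⁻¹ ∈ Subgroup.centralizer (R : Set G) :=
      (inferInstance : (Subgroup.centralizer (R : Set G)).Normal).conj_mem y (hKR hy) g
    have h2 : g * y * g⁻¹ ∈ C := hCR h1
    have h3 : (orderOf (g * y * g⁻¹)).Coprime p := by
      have h4 : orderOf (g * y * g⁻¹) = orderOf y := by
        have := orderOf_injective (MulAut.conj g).toMonoidHom (MulAut.conj g).injective y
        simpa using this
      rw [h4]
      have h5 : orderOf y ∣ Nat.card K := by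
        have := orderOf_dvd_natCard (⟨y, hy⟩ : K)
        rwa [Subgroup.orderOf_mk] at this
      rw [hKcard] at h5
      exact Nat.Coprime.coprime_dvd_left h5 hNcop
    -- the image in `C / N` is a `p`-group
    refine ⟨⟨g * y * g⁻¹, h2⟩, ?_, rfl⟩
    change (⟨g * y * g⁻¹, h2⟩ : C) ∈ N
    rw [← QuotientGroup.eq_one_iff, ← orderOf_eq_one_iff]
    have h6 : orderOf (((⟨g * y * g⁻¹, h2⟩ : C)) : C ⧸ N) ∣ Nat.card (C ⧸ N) :=
      orderOf_dvd_natCard _
    have h7 : orderOf (((⟨g * y * g⁻¹, h2⟩ : C)) : C ⧸ N) ∣ orderOf (g * y * g⁻¹) := by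
      have := orderOf_map_dvd (QuotientGroup.mk' N) (⟨g * y * g⁻¹, h2⟩ : C)
      rwa [Subgroup.orderOf_mk] at this
    have h8 : Nat.card (C ⧸ N) = Nat.card P0 := hNidx
    obtain ⟨n, hn⟩ := IsPGroup.iff_card.mp P0.isPGroup'
    rw [h8, hn] at h6
    exact Nat.eq_one_of_dvd_coprimes (Nat.Coprime.pow_right _ h3) h7 h6
  -- Step 6
  refine ⟨P, K, hKn, ?_⟩
  apply Subgroup.isComplement'_of_coprime
  · obtain ⟨n, hn⟩ := IsPGroup.iff_card.mp P0.isPGroup'
    have hidx : K.index = p ^ (n + a) := by
      rw [hK, Subgroup.index_map_subtype, hxi, hNidx, hn, pow_add]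
    have hcard : Nat.card G = Nat.card K * p ^ (n + a) := by
      rw [← hidx]; exact (Subgroup.card_mul_index K).symm
    have hKp : ¬ p ∣ Nat.card K := by
      rw [hKcard]; exact (Nat.Prime.coprime_iff_not_dvd hp).mp hNcop.symm
    have : (Nat.card G).factorization p = n + a := by
      rw [hcard, Nat.factorization_mul Nat.card_pos.ne' (pow_pos hp.pos _).ne', Finsupp.add_apply,
        Nat.factorization_eq_zero_of_not_dvd hKp, zero_add, hp.factorization_pow,
        Finsupp.single_eq_same]
    rw [Sylow.card_eq_multiplicity P, this, hcard]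
  · obtain ⟨n, hn⟩ := IsPGroup.iff_card.mp P.isPGroup'
    rw [hn, hKcard]
    exact Nat.Coprime.pow_right _ hNcop

end Cfsg.Agent.S4127
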