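import Mathlib
import Cfsg.Agent.H683.TwoSizeTop
import Cfsg.Agent.H683.ClassCount
import Cfsg.Agent.H551.Frob
import Cfsg.Agent.S0007
import Cfsg.Agent.S0034
import Cfsg.Statements.S4138
set_option linter.all false

-- part: H683/CopTop
section
/-!
# Groups whose two largest class sizes are coprime
-/

set_option autoImplicit false

namespace Cfsg.Agent.H683.CopTop

open Subgroup Cfsg.Agent.H683.TwoSize
open scoped commutatorElement

theorem nat_decomp (m : ℕ) : ∀ N : ℕ, N ≠ 0 →
    ∃ u v k : ℕ, N = u * v ∧ u ∣ m ^ k ∧ v.Coprime m := by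
  intro N
  induction N using Nat.strong_induction_on with
  | _ N ih =>
    intro hN
    by_cases h1 : N.gcd m = 1
    · exact ⟨1, N, 0, (one_mul N).symm, one_dvd _, h1⟩
    · obtain ⟨N1, hN1⟩ := Nat.gcd_dvd_left N m
      have hN10 : N1 ≠ 0 := by
        rintro rfl
        rw [mul_zero] at hN1
        exact hN hN1
      have hd0 : N.gcd m ≠ 0 := fun h => hN (Nat.eq_zero_of_gcd_eq_zero_left h)
      have hlt : N1 < N := by
        have h2 : 1 < N.gcd m := by omega
        calc N1 = 1 * N1 := (one_mul _).symm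
          _ < N.gcd m * N1 := Nat.mul_lt_mul_of_pos_right h2 (Nat.pos_of_ne_zero hN10)
          _ = N := hN1.symm
      obtain ⟨u, v, k, h3, h4, h5⟩ := ih N1 hlt hN10
      refine ⟨N.gcd m * u, v, k + 1, ?_, ?_, h5⟩
      · conv_lhs => rw [hN1, h3]
        rw [mul_assoc]
      · rw [pow_succ']
        exact mul_dvd_mul (Nat.gcd_dvd_right _ _) h4

variable {G : Type*} [Group G] [Finite G]

/-- The primes dividing the order of `a` divide `m`. -/
def IsPi (m : ℕ) (a : G) : Prop := ∃ k, orderOf a ∣ m ^ k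

omit [Finite G] in
theorem IsPi.coprime {m : ℕ} {a : G} (ha : IsPi m a) {t : ℕ} (ht : t.Coprime m) :
    (orderOf a).Coprime t := by
  obtain ⟨k, hk⟩ := ha
  exact Nat.Coprime.coprime_dvd_left hk (Nat.Coprime.pow_left k ht.symm)

omit [Finite G] in
theorem IsPi.of_dvd {m : ℕ} {a b : G} (ha : IsPi m a) (h : orderOf b ∣ orderOf a) : IsPi m b := by
  obtain ⟨k, hk⟩ := ha
  exact ⟨k, h.trans hk⟩

/-- Decomposition of an element with respect to a set of primes. -/
theorem exists_decomp_pi (m : ℕ) (g : G) : ∃ a b : G, a * b = g ∧ Commute a b ∧ IsPi m a ∧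
    (orderOf b).Coprime m ∧ a ∈ zpowers g ∧ b ∈ zpowers g := by
  obtain ⟨u, v, k, huv, hu, hv⟩ := nat_decomp m (orderOf g) (orderOf_pos g).ne'
  have hcop : u.Coprime v := Nat.Coprime.coprime_dvd_left hu (Nat.Coprime.pow_left k hv.symm)
  obtain ⟨e, he1, he2⟩ := Nat.chineseRemainder hcop 1 0
  obtain ⟨f, hf1, hf2⟩ := Nat.chineseRemainder hcop 0 1
  refine ⟨g ^ e, g ^ f, ?_, (Commute.refl g).pow_pow e f, ⟨k, ?_⟩, ?_, ⟨e, by simp⟩, ⟨f, by simp⟩⟩
  · rw [← pow_add]
    conv_rhs => rw [← pow_one g]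
    rw [pow_eq_pow_iff_modEq, huv, ← Nat.modEq_and_modEq_iff_modEq_mul hcop]
    constructor
    · simpa using he1.add hf1
    · simpa using he2.add hf2
  · refine (orderOf_dvd_of_pow_eq_one ?_).trans hu
    rw [← pow_mul, ← orderOf_dvd_iff_pow_eq_one, huv, mul_comm]
    exact mul_dvd_mul_right ((Nat.modEq_zero_iff_dvd).1 he2) u
  · refine Nat.Coprime.coprime_dvd_left (orderOf_dvd_of_pow_eq_one ?_) hv
    rw [← pow_mul, ← orderOf_dvd_iff_pow_eq_one, huv]
    exact mul_dvd_mul_right ((Nat.modEq_zero_iff_dvd).1 hf1) v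

theorem relIndex_eq_index {A B : Subgroup G} (h : A.index.Coprime B.index) :
    A.relIndex B = A.index := by
  have h1 : A.relIndex B * B.index = (A ⊓ B).index := by
    rw [← Subgroup.inf_relIndex_right]
    exact Subgroup.relIndex_mul_index inf_le_right
  have h2 : A.index ∣ (A ⊓ B).index := Subgroup.index_dvd_of_le inf_le_left
  rw [← h1] at h2
  have h3 : A.index ∣ A.relIndex B := h.dvd_of_dvd_mul_right h2
  apply le_antisymm
  · have h4 : A.relIndex B ≤ A.relIndex ⊤ := Subgroup.relIndex_le_of_le_right le_top (by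
      rw [Subgroup.relIndex_top_right]; exact Subgroup.index_ne_zero_of_finite)
    rwa [Subgroup.relIndex_top_right] at h4
  · exact Nat.le_of_dvd (Nat.pos_of_ne_zero Subgroup.index_ne_zero_of_finite) h3

/-- The conjugacy class as a set. -/
def cls (b : G) : Set G := Set.range fun h : G => h * b * h⁻¹

omit [Finite G] in
theorem mem_cls {b k : G} : k ∈ cls b ↔ ∃ h : G, h * b * h⁻¹ = k := Iff.rfl

theorem card_cls (b : G) : Nat.card (cls b) = (cz b).index := by
  rw [← show (ConjClasses.mk b).carrier = cls b from ?_]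
  · exact Cfsg.Agent.H683.ClassCount.card_carrier b
  · ext k
    rw [ConjClasses.mem_carrier_iff_mk_eq, ConjClasses.mk_eq_mk_iff_isConj, isConj_comm, isConj_iff,
      mem_cls]

/-- `K_a b ⊆ K_{ab}` for coprime class sizes. -/
theorem conj_mul_mem {a b : G} (h : (cz a).index.Coprime (cz b).index) (g : G) {k : G}
    (hk : k ∈ cls b) : g * a * g⁻¹ * k ∈ cls (a * b) := by
  obtain ⟨t, rfl⟩ := hk
  obtain ⟨c, hc, u, hu, hcu⟩ := Cfsg.Agent.S0007.exists_mul_eq (cz b) (cz a) h.symm (t⁻¹ * g)
  rw [mem_cz] at hc hu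
  refine ⟨t * c, ?_⟩
  have h1 : g = t * (c * u) := by rw [← hcu]; group
  have h2 : c * b * c⁻¹ = b := by rw [hc]; group
  have h3 : u * a * u⁻¹ = a := by rw [hu]; group
  calc t * c * (a * b) * (t * c)⁻¹ = t * (c * a * c⁻¹) * (c * b * c⁻¹) * t⁻¹ := by group
    _ = t * (c * (u * a * u⁻¹) * c⁻¹) * b * t⁻¹ := by rw [h2, h3]
    _ = g * a * g⁻¹ * (t * b * t⁻¹) := by rw [h1]; group

/-- The subgroup `[a, G]`. -/
def comS (a : G) : Subgroup G := closure (Set.range fun g : G => ⁅g, a⁆)

omit [Finite G] in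
theorem mem_comS (a g : G) : ⁅g, a⁆ ∈ comS a := subset_closure ⟨g, rfl⟩

instance comS_normal (a : G) : (comS a).Normal := by
  refine ⟨fun t ht h => ?_⟩
  induction ht using closure_induction with
  | mem x hx =>
    obtain ⟨g, rfl⟩ := hx
    have e : h * ⁅g, a⁆ * h⁻¹ = ⁅h * g, a⁆ * ⁅h, a⁆⁻¹ := by
      simp only [commutatorElement_def]; group
    dsimp only
    rw [e]
    exact mul_mem (mem_comS a _) (inv_mem (mem_comS a _))
  | one => rw [mul_one, mul_inv_cancel]; exact one_mem _
  | mul x y _ _ hx hy =>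
    have e : h * (x * y) * h⁻¹ = (h * x * h⁻¹) * (h * y * h⁻¹) := by group
    rw [e]; exact mul_mem hx hy
  | inv x _ hx =>
    have e : h * x⁻¹ * h⁻¹ = (h * x * h⁻¹)⁻¹ := by group
    rw [e]; exact inv_mem hx

omit [Finite G] in
theorem card_dvd_of_closed (H : Subgroup G) (S : Set G) (hS : ∀ t ∈ H, ∀ k ∈ S, t * k ∈ S) :
    Nat.card H ∣ Nat.card S := by
  have h1 : (QuotientGroup.mk : G → G ⧸ H) ⁻¹' ((QuotientGroup.mk : G → G ⧸ H) '' S⁻¹) = S⁻¹ := by
    apply Set.Subset.antisymm
    · rintro x ⟨y, hy, hxy⟩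
      rw [QuotientGroup.eq] at hxy
      rw [Set.mem_inv] at hy ⊢
      have h2 := hS _ (inv_mem hxy) _ hy
      have e : (y⁻¹ * x)⁻¹ * y⁻¹ = x⁻¹ := by group
      rwa [e] at h2
    · intro x hx
      exact ⟨x, hx, rfl⟩
  have h2 := QuotientGroup.card_preimage_mk H ((QuotientGroup.mk : G → G ⧸ H) '' S⁻¹)
  rw [h1] at h2
  have h3 : Nat.card (S⁻¹ : Set G) = Nat.card S :=
    Nat.card_congr (Equiv.subtypeEquiv (Equiv.inv G) (fun x => by simp))
  rw [← h3, h2]
  exact dvd_mul_right _ _

theorem le_index_mul {a b : G} (h : (cz a).index.Coprime (cz b).index) :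
    (cz b).index ≤ (cz (a * b)).index := by
  rw [← card_cls, ← card_cls]
  have hinj : Function.Injective (fun k : cls b => (⟨a * k, by
      have := conj_mul_mem h 1 k.2
      simpa using this⟩ : cls (a * b))) := by
    intro k l hkl
    have := congrArg Subtype.val hkl
    exact Subtype.ext (mul_left_cancel this)
  exact Nat.card_le_card_of_injective _ hinj

theorem card_comS_dvd {a b : G} (h : (cz a).index.Coprime (cz b).index)
    (hab : (cz (a * b)).index = (cz b).index) : Nat.card (comS a) ∣ (cz b).index := by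
  rw [← hab, ← card_cls]
  have himg : ∀ g : G, (fun k => g * a * g⁻¹ * k) '' cls b = cls (a * b) := by
    intro g
    apply Set.eq_of_subset_of_ncard_le
    · rintro _ ⟨k, hk, rfl⟩
      exact conj_mul_mem h g hk
    · rw [Set.ncard_image_of_injective _ (mul_right_injective _), ← Nat.card_coe_set_eq,
        ← Nat.card_coe_set_eq, card_cls, card_cls, hab]
    · exact Set.toFinite _
  apply card_dvd_of_closed
  intro t ht
  induction ht using closure_induction with
  | mem x hx =>
    obtain ⟨g, rfl⟩ := hx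
    intro k hk
    rw [← himg 1] at hk
    obtain ⟨l, hl, rfl⟩ := hk
    dsimp only
    have e : ⁅g, a⁆ * (1 * a * 1⁻¹ * l) = g * a * g⁻¹ * l := by
      simp only [commutatorElement_def]; group
    rw [e]
    exact conj_mul_mem h g hl
  | one => intro k hk; rwa [one_mul]
  | mul x y _ _ hx hy => intro k hk; rw [mul_assoc]; exact hx _ (hy _ hk)
  | inv x _ hx =>
    have hpow : ∀ j : ℕ, ∀ k ∈ cls (a * b), x ^ j * k ∈ cls (a * b) := by
      intro j
      induction j with
      | zero => intro k hk; rwa [pow_zero, one_mul]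
      | succ j ih => intro k hk; rw [pow_succ', mul_assoc]; exact hx _ (ih k hk)
    intro k hk
    have e : x⁻¹ = x ^ (orderOf x - 1) := by
      rw [inv_eq_of_mul_eq_one_right]
      rw [← pow_succ', Nat.sub_add_cancel (orderOf_pos x), pow_orderOf_eq_one]
    rw [e]
    exact hpow _ k hk

end Cfsg.Agent.H683.CopTop
end

-- part: H683/CopTopB
section
/-!
# Groups whose two largest class sizes are coprime: the centralizers
-/

set_option autoImplicit false
set_option linter.unusedSectionVars false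

namespace Cfsg.Agent.H683.CopTop

open Subgroup Cfsg.Agent.H683.TwoSize
open scoped commutatorElement

/-- `m > n > 1` are the two largest class sizes and are coprime. -/
structure Hyp (G : Type*) [Group G] (m n : ℕ) : Prop where
  hmn : n < m
  hn : 1 < n
  hcop : m.Coprime n
  htop : ∀ z : G, (cz z).index ≤ m
  hsec : ∀ z : G, (cz z).index < m → (cz z).index ≤ n

variable {G : Type*} [Group G] [Finite G] {m n : ℕ}

theorem index_dvd_of_mem_zpowers {x y : G} (h : y ∈ zpowers x) : (cz y).index ∣ (cz x).index :=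
  Subgroup.index_dvd_of_le (cz_le_of_mem_zpowers h)

theorem index_pos (x : G) : 0 < (cz x).index := Nat.pos_of_ne_zero Subgroup.index_ne_zero_of_finite

theorem cz_eq_of_le {x y : G} (hle : cz x ≤ cz y) (h : (cz x).index ≤ (cz y).index) :
    cz x = cz y := by
  apply Subgroup.eq_of_le_of_card_ge hle
  have h1 := (cz x).card_mul_index
  rw [← (cz y).card_mul_index] at h1
  by_contra hcon
  push Not at hcon
  have : Nat.card (cz x) * (cz x).index < Nat.card (cz y) * (cz y).index :=
    Nat.mul_lt_mul_of_lt_of_le hcon h (index_pos y)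
  omega

theorem cz_mul_left {a b : G} (hc : Commute a b) (h : (orderOf a).Coprime (orderOf b)) :
    cz (a * b) ≤ cz a := cz_le_of_mem_zpowers (mem_zpowers_mul hc h)

theorem cz_mul_right {a b : G} (hc : Commute a b) (h : (orderOf a).Coprime (orderOf b)) :
    cz (a * b) ≤ cz b := cz_le_of_mem_zpowers (mem_zpowers_mul' hc h)

namespace Hyp

variable (H : Hyp G m n)
include H

/-- For the largest class size: `C(a) ≤ C(b)` for commuting coprime elements. -/
theorem le_of_top {a b : G} (ha : (cz a).index = m) (hc : Commute a b)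
    (h : (orderOf a).Coprime (orderOf b)) : cz a ≤ cz b := by
  have h1 : cz (a * b) = cz a :=
    cz_eq_of_le (cz_mul_left hc h) (by rw [ha]; exact H.htop _)
  rw [← h1]
  exact cz_mul_right hc h

/-- For the second largest class size. -/
theorem le_of_second {a b : G} (ha : (cz a).index = n) (hc : Commute a b)
    (h : (orderOf a).Coprime (orderOf b)) : cz a ≤ cz b := by
  have h1 : cz (a * b) = cz a := by
    refine cz_eq_of_le (cz_mul_left hc h) ?_
    rw [ha]
    apply H.hsec
    refine lt_of_le_of_ne (H.htop _) fun h2 => ?_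
    have h3 : (cz a).index ∣ (cz (a * b)).index := Subgroup.index_dvd_of_le (cz_mul_left hc h)
    rw [ha, h2] at h3
    have h4 : n = 1 := Nat.eq_one_of_dvd_coprimes H.hcop h3 dvd_rfl
    exact H.hn.ne' h4
  rw [← h1]
  exact cz_mul_right hc h

/-- `[a, G]` has order dividing `m` if the class size of `a` is prime to `m`. -/
theorem card_comS_top {y : G} (hy : (cz y).index = m) {a : G} (ha : (cz a).index.Coprime m) :
    Nat.card (comS a) ∣ m := by
  have h1 : (cz a).index.Coprime (cz y).index := by rwa [hy]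
  have h2 := le_index_mul h1
  have h3 := card_comS_dvd h1 (le_antisymm (by rw [hy]; exact H.htop _) h2)
  rwa [hy] at h3

theorem card_comS_second {x : G} (hx : (cz x).index = n) {a : G} (ha : (cz a).index.Coprime n)
    (ha' : (cz a).index < m) : Nat.card (comS a) ∣ n := by
  have h1 : (cz a).index.Coprime (cz x).index := by rwa [hx]
  have h2 := le_index_mul h1
  have h3 : (cz (a * x)).index ≤ n := by
    apply H.hsec
    refine lt_of_le_of_ne (H.htop _) fun h4 => ?_
    have h5 : (cz (a * x)).index ∣ (cz a).index * n := by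
      have e1 : (cz a ⊓ cz x) ≤ cz (a * x) := by
        rintro g ⟨hg1, hg2⟩
        have hg1' : g * a = a * g := mem_cz.1 hg1
        have hg2' : g * x = x * g := mem_cz.1 hg2
        rw [mem_cz]
        calc g * (a * x) = (g * a) * x := by group
          _ = a * (g * x) := by rw [hg1']; group
          _ = a * x * g := by rw [hg2']; group
      have e2 : (cz a ⊓ cz x).index = (cz a).index * n := by
        rw [← Subgroup.relIndex_mul_index (inf_le_right : cz a ⊓ cz x ≤ cz x),
          Subgroup.inf_relIndex_right, relIndex_eq_index h1, hx]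
      rw [← e2]
      exact Subgroup.index_dvd_of_le e1
    rw [h4] at h5
    have h6 : m ∣ (cz a).index := H.hcop.dvd_of_dvd_mul_right h5
    exact absurd (Nat.le_of_dvd (index_pos a) h6) (not_le.2 ha')
  have h4 := card_comS_dvd h1 (le_antisymm (by rw [hx]; exact h3) h2)
  rwa [hx] at h4

end Hyp

/-- If `[a, G]` centralizes `a` then its elements have order dividing that of `a`, and all
conjugates of `a` commute. -/
theorem comS_le_centralizer {a : G} (h : comS a ≤ cz a) (g : G) : comS a ≤ cz (g * a * g⁻¹) := by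
  intro t ht
  have h1 := h ((comS_normal a).conj_mem t ht g⁻¹)
  rw [inv_inv, mem_cz] at h1
  rw [mem_cz]
  calc t * (g * a * g⁻¹) = g * ((g⁻¹ * t * g) * a) * g⁻¹ := by group
    _ = g * (a * (g⁻¹ * t * g)) * g⁻¹ := by rw [h1]
    _ = _ := by group

theorem conj_commute {a : G} (h : comS a ≤ cz a) (g k : G) :
    Commute (g * a * g⁻¹) (k * a * k⁻¹) := by
  have h1 : g * a * g⁻¹ = ⁅g, a⁆ * a := by rw [commutatorElement_def]; group
  have h2 := comS_le_centralizer h k (mem_comS a g)
  rw [mem_cz] at h2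
  have h3 : k * a * k⁻¹ = ⁅k, a⁆ * a := by rw [commutatorElement_def]; group
  have h4 := h (mem_comS a k)
  rw [mem_cz] at h4
  have h5 : Commute ⁅g, a⁆ (k * a * k⁻¹) := h2
  have h6 : Commute a (k * a * k⁻¹) := by
    rw [h3]
    exact Commute.mul_right (show Commute ⁅k, a⁆ a from h4).symm (Commute.refl a)
  rw [h1]
  exact Commute.mul_left h5 h6

theorem comS_pow {a : G} (h : comS a ≤ cz a) : ∀ t ∈ comS a, t ^ orderOf a = 1 := by
  have hcomm : ∀ t ∈ comS a, ∀ s ∈ comS a, t * s = s * t := by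
    intro t ht s hs
    induction hs using closure_induction with
    | mem x hx =>
      obtain ⟨g, rfl⟩ := hx
      have h1 := comS_le_centralizer h g ht
      rw [mem_cz] at h1
      have h2 := h ht
      rw [mem_cz] at h2
      have h3 : Commute t ((g * a * g⁻¹) * a⁻¹) :=
        Commute.mul_right h1 (Commute.inv_right h2)
      have e : ⁅g, a⁆ = (g * a * g⁻¹) * a⁻¹ := by rw [commutatorElement_def]
      dsimp only
      rw [e]
      exact h3
    | one => rw [mul_one, one_mul]
    | mul x y _ _ hx hy => exact (Commute.mul_right hx hy : Commute t (x * y))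
    | inv x _ hx => exact (Commute.inv_right hx : Commute t x⁻¹)
  intro t ht
  induction ht using closure_induction with
  | mem x hx =>
    obtain ⟨g, rfl⟩ := hx
    have h2 := h (mem_comS a g)
    rw [mem_cz] at h2
    have h3 : Commute ⁅g, a⁆ a := h2
    have h4 : (⁅g, a⁆ * a) ^ orderOf a = 1 := by
      have e : ⁅g, a⁆ * a = g * a * g⁻¹ := by rw [commutatorElement_def]; group
      rw [e, conj_pow, pow_orderOf_eq_one, mul_one, mul_inv_cancel]
    rw [h3.mul_pow, pow_orderOf_eq_one, mul_one] at h4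
    exact h4
  | one => rw [one_pow]
  | mul x y hx' hy' hx hy =>
    rw [(show Commute x y from hcomm x hx' y hy').mul_pow, hx, hy, mul_one]
  | inv x _ hx => rw [inv_pow, hx, inv_one]

theorem mem_center_of_comS {a : G} (h : comS a = ⊥) : a ∈ center G := by
  rw [mem_center_iff]
  intro g
  have h1 := mem_comS a g
  rw [h, mem_bot] at h1
  exact commutatorElement_eq_one_iff_mul_comm.1 h1

namespace Hyp

variable (H : Hyp G m n)
include H

/-- A `π(m)'`-element of class size prime to `m` is central. -/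
theorem mem_center {y : G} (hy : (cz y).index = m) {w : G} (hw : (cz w).index.Coprime m)
    (hwo : (orderOf w).Coprime m) : w ∈ center G := by
  have h1 := H.card_comS_top hy hw
  have h2 : comS w ≤ cz w :=
    Cfsg.Agent.H551.Compl.le_centralizer_of_coprime (Nat.Coprime.coprime_dvd_right h1 hw)
  apply mem_center_of_comS
  rw [eq_bot_iff]
  intro t ht
  rw [mem_bot, ← orderOf_eq_one_iff]
  have h3 : orderOf t ∣ m := by
    refine dvd_trans ?_ h1
    rw [← Subgroup.orderOf_mk t ht]
    exact orderOf_dvd_natCard _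
  exact Nat.eq_one_of_dvd_coprimes hwo (orderOf_dvd_of_pow_eq_one (comS_pow h2 t ht)) h3

end Hyp

/-- `x` has the second largest class size and is a `π(m)`-element. -/
structure IsX (m n : ℕ) (x : G) : Prop where
  index_eq : (cz x).index = n
  isPi : IsPi m x

theorem IsX.conj {x : G} (hx : IsX m n x) (g : G) : IsX m n (g * x * g⁻¹) := by
  have h1 : orderOf (g * x * g⁻¹) = orderOf x := (MulAut.conj g).orderOf_eq x
  refine ⟨?_, hx.isPi.of_dvd h1.dvd⟩
  rw [← hx.index_eq, ← card_cls, ← card_cls]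
  congr 2
  ext k
  constructor
  · rintro ⟨h, rfl⟩
    exact ⟨h * g, by group⟩
  · rintro ⟨h, rfl⟩
    refine ⟨h * g⁻¹, ?_⟩
    dsimp only
    group

namespace Hyp

variable (H : Hyp G m n)
include H

theorem exists_isX {x y : G} (hx : (cz x).index = n) (hy : (cz y).index = m) :
    ∃ x' : G, IsX m n x' ∧ cz x' = cz x := by
  obtain ⟨a, b, hab, hc, ha, hb, haz, hbz⟩ := exists_decomp_pi m x
  have hbZ : b ∈ center G := by
    refine H.mem_center hy ?_ hb
    refine Nat.Coprime.coprime_dvd_left (index_dvd_of_mem_zpowers hbz) ?_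
    rw [hx]
    exact H.hcop.symm
  have h1 : cz x = cz a := by rw [← hab, cz_mul_center hbZ]
  exact ⟨a, ⟨by rw [← h1, hx], ha⟩, h1.symm⟩

/-- The `π(m)'`-elements of `C(x)` are central. -/
theorem center_of_cz_x {x y : G} (hx : IsX m n x) (hy : (cz y).index = m) {w : G}
    (hw : w ∈ cz x) (hwo : (orderOf w).Coprime m) : w ∈ center G := by
  have hc : Commute x w := (mem_cz.1 hw).symm
  have h1 : cz x ≤ cz w := H.le_of_second hx.index_eq hc (hx.isPi.coprime hwo)
  refine H.mem_center hy ?_ hwo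
  refine Nat.Coprime.coprime_dvd_left (Subgroup.index_dvd_of_le h1) ?_
  rw [hx.index_eq]
  exact H.hcop.symm

/-- If `|G : C(a)| = m` then `C(a)` contains a non-central `π(n)`-element of prime power order. -/
theorem exists_in_top {x a : G} (hx : (cz x).index = n) (ha : (cz a).index = m) :
    ∃ w ∈ cz a, w ∉ center G ∧ (orderOf w).Coprime m := by
  obtain ⟨r, hr, hrn⟩ := Nat.exists_prime_and_dvd H.hn.ne'
  have h1 : n ∣ (center G).relIndex (cz a) := by
    have h2 : n ∣ (center G).index := by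
      rw [← hx]
      exact Subgroup.index_dvd_of_le (center_le_cz x)
    rw [← Subgroup.relIndex_mul_index (center_le_cz a), ha] at h2
    exact H.hcop.symm.dvd_of_dvd_mul_right h2
  obtain ⟨w, hw, hwZ, -, k, hk⟩ := exists_of_dvd_relIndex_center hr (hrn.trans h1)
  refine ⟨w, hw, hwZ, ?_⟩
  rw [hk]
  refine Nat.Coprime.pow_left k ?_
  rw [hr.coprime_iff_not_dvd]
  intro hrm
  have := Nat.eq_one_of_dvd_coprimes H.hcop hrm hrn
  exact hr.one_lt.ne' this

/-- No element of `C(x)` has class size `m`. -/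
theorem ne_top {x y : G} (hx : IsX m n x) (hy : (cz y).index = m) {v : G} (hv : v ∈ cz x) :
    (cz v).index ≠ m := by
  intro hvm
  obtain ⟨a, b, hab, hc, ha, hb, haz, hbz⟩ := exists_decomp_pi m v
  have hbZ : b ∈ center G := H.center_of_cz_x hx hy ((zpowers_le.2 hv) hbz) hb
  have h1 : cz v = cz a := by rw [← hab, cz_mul_center hbZ]
  rw [h1] at hvm
  obtain ⟨w, hw, hwZ, hwo⟩ := H.exists_in_top hx.index_eq hvm
  apply hwZ
  have h2 : cz a ≤ cz w := H.le_of_top hvm (mem_cz.1 hw).symm (ha.coprime hwo)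
  have h3 : x ∈ cz a := by
    have h4 := (zpowers_le.2 hv) haz
    rw [mem_cz] at h4 ⊢
    exact h4.symm
  have h5 := h2 h3
  refine H.center_of_cz_x hx hy ?_ hwo
  rw [mem_cz] at h5 ⊢
  exact h5.symm

/-- The conjugates of `x` commute. -/
theorem comS_le {x y : G} (hx : IsX m n x) (hy : (cz y).index = m) : comS x ≤ cz x := by
  have h1 : Nat.card (comS x) ∣ m := H.card_comS_top hy (by rw [hx.index_eq]; exact H.hcop.symm)
  refine Cfsg.Agent.H551.Compl.le_centralizer_of_coprime (Nat.Coprime.coprime_dvd_right h1 ?_)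
  rw [show (Subgroup.centralizer ({x} : Set G)).index = n from hx.index_eq]
  exact H.hcop.symm

end Hyp

/-- The normal closure of `x`. -/
def NX (x : G) : Subgroup G := closure (Set.range fun g : G => g * x * g⁻¹)

theorem conj_mem_NX (x g : G) : g * x * g⁻¹ ∈ NX x := subset_closure ⟨g, rfl⟩

theorem self_mem_NX (x : G) : x ∈ NX x := by
  have := conj_mem_NX x 1
  simpa using this

instance NX_normal (x : G) : (NX x).Normal := by
  refine ⟨fun t ht h => ?_⟩
  induction ht using closure_induction with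
  | mem t ht =>
    obtain ⟨g, rfl⟩ := ht
    have e : h * (g * x * g⁻¹) * h⁻¹ = (h * g) * x * (h * g)⁻¹ := by group
    dsimp only
    rw [e]
    exact conj_mem_NX x _
  | one => rw [mul_one, mul_inv_cancel]; exact one_mem _
  | mul s t _ _ hs ht =>
    have e : h * (s * t) * h⁻¹ = (h * s * h⁻¹) * (h * t * h⁻¹) := by group
    rw [e]; exact mul_mem hs ht
  | inv t _ ht =>
    have e : h * t⁻¹ * h⁻¹ = (h * t * h⁻¹)⁻¹ := by group
    rw [e]; exact inv_mem ht

namespace Hyp

variable (H : Hyp G m n)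
include H

theorem NX_comm {x y : G} (hx : IsX m n x) (hy : (cz y).index = m) :
    ∀ s ∈ NX x, ∀ t ∈ NX x, s * t = t * s := by
  have h := H.comS_le hx hy
  have h1 : ∀ g : G, ∀ t ∈ NX x, Commute (g * x * g⁻¹) t := by
    intro g t ht
    induction ht using closure_induction with
    | mem t ht => obtain ⟨k, rfl⟩ := ht; exact conj_commute h g k
    | one => exact Commute.one_right _
    | mul s t _ _ hs ht => exact hs.mul_right ht
    | inv t _ ht => exact ht.inv_right
  intro s hs t ht
  change Commute s t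
  induction hs using closure_induction with
  | mem s hs => obtain ⟨k, rfl⟩ := hs; exact h1 k t ht
  | one => exact Commute.one_left _
  | mul s u _ _ hs hu => exact hs.mul_left hu
  | inv s _ hs => exact hs.inv_left

theorem NX_isPi {x y : G} (hx : IsX m n x) (hy : (cz y).index = m) : ∀ s ∈ NX x, IsPi m s := by
  have hcomm := H.NX_comm hx hy
  have h1 : ∀ s ∈ NX x, s ^ orderOf x = 1 := by
    intro s hs
    induction hs using closure_induction with
    | mem s hs =>
      obtain ⟨g, rfl⟩ := hs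
      dsimp only
      rw [conj_pow, pow_orderOf_eq_one, mul_one, mul_inv_cancel]
    | one => rw [one_pow]
    | mul s t hs' ht' hs ht =>
      rw [(show Commute s t from hcomm s hs' t ht').mul_pow, hs, ht, mul_one]
    | inv s _ hs => rw [inv_pow, hs, inv_one]
  intro s hs
  exact hx.isPi.of_dvd (orderOf_dvd_of_pow_eq_one (h1 s hs))

theorem NX_le {x y : G} (hx : IsX m n x) (hy : (cz y).index = m) : NX x ≤ cz x := fun s hs => by
  rw [mem_cz]
  exact H.NX_comm hx hy s hs x (self_mem_NX x)

/-- An element of class size `< m` and prime to `n` is central. -/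
theorem mem_center' {x y : G} (hx : IsX m n x) (hy : (cz y).index = m) {w : G}
    (hw : (cz w).index.Coprime n) (hwm : (cz w).index < m) : w ∈ center G := by
  have h1 := H.card_comS_second hx.index_eq hw hwm
  have hZ : comS w ≤ center G := by
    intro c hc
    have h2 : orderOf c ∣ n := by
      refine dvd_trans ?_ h1
      rw [← Subgroup.orderOf_mk c hc]
      exact orderOf_dvd_natCard _
    have h3 : (orderOf c).Coprime m := Nat.Coprime.coprime_dvd_left h2 H.hcop.symm
    refine H.center_of_cz_x hx hy ?_ h3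
    have h4 : ⁅c, x⁆ ∈ comS w := by
      have e : ⁅c, x⁆ = c * (x * c⁻¹ * x⁻¹) := by rw [commutatorElement_def]; group
      rw [e]
      exact mul_mem hc ((comS_normal w).conj_mem _ (inv_mem hc) x)
    have h5 : ⁅c, x⁆ ∈ NX x := by
      rw [commutatorElement_def]
      exact mul_mem (conj_mem_NX x c) (inv_mem (self_mem_NX x))
    have h6 : orderOf ⁅c, x⁆ ∣ n := by
      refine dvd_trans ?_ h1
      rw [← Subgroup.orderOf_mk _ h4]
      exact orderOf_dvd_natCard _
    have h7 : (orderOf ⁅c, x⁆).Coprime n := (H.NX_isPi hx hy _ h5).coprime H.hcop.symm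
    have h8 : orderOf ⁅c, x⁆ = 1 := Nat.eq_one_of_dvd_coprimes h7 dvd_rfl h6
    rw [orderOf_eq_one_iff, commutatorElement_eq_one_iff_mul_comm] at h8
    rw [mem_cz]
    exact h8
  -- the class size divides `|[w, G]|`
  obtain ⟨θ, hθ⟩ := exists_theta (R := ⊤) (y := w) fun g _ => hZ (mem_comS w g)
  have h2 : (cz w).index = Nat.card θ.range := by
    rw [← Subgroup.index_ker]
    have h3 : θ.ker = (cz w).subgroupOf ⊤ := by
      ext g
      rw [MonoidHom.mem_ker, mem_subgroupOf, mem_cz, ← commutatorElement_eq_one_iff_mul_comm, ← hθ]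
      exact Subtype.ext_iff
    rw [h3]
    exact (Subgroup.relIndex_top_right (cz w)).symm
  have h3 : Nat.card θ.range ∣ Nat.card (comS w) := by
    rw [← Subgroup.card_map_of_injective (center G).subtype_injective]
    apply Subgroup.card_dvd_of_le
    rintro _ ⟨_, ⟨g, rfl⟩, rfl⟩
    rw [Subgroup.coe_subtype, hθ]
    exact mem_comS w g
  rw [← cz_index_eq_one]
  refine Nat.eq_one_of_dvd_coprimes hw dvd_rfl ?_
  rw [h2]
  exact h3.trans h1

end Hyp

end Cfsg.Agent.H683.CopTop
end

-- part: H683/CopTopC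
section
/-!
# Groups whose two largest class sizes are coprime: the complement
-/

set_option autoImplicit false
set_option linter.unusedSectionVars false

namespace Cfsg.Agent.H683.CopTop

open Subgroup Cfsg.Agent.H683.TwoSize
open scoped commutatorElement

variable {G : Type*} [Group G] [Finite G] {m n : ℕ}

theorem relIndex_le_index (A B : Subgroup G) : A.relIndex B ≤ A.index := by
  have h4 : A.relIndex B ≤ A.relIndex ⊤ := Subgroup.relIndex_le_of_le_right le_top (by
    rw [Subgroup.relIndex_top_right]; exact Subgroup.index_ne_zero_of_finite)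
  rwa [Subgroup.relIndex_top_right] at h4

theorem le_cz_mul {a b : G} {C : Subgroup G} (ha : C ≤ cz a) (hb : C ≤ cz b) : C ≤ cz (a * b) := by
  intro g hg
  have h1 : g * a = a * g := mem_cz.1 (ha hg)
  have h2 : g * b = b * g := mem_cz.1 (hb hg)
  rw [mem_cz]
  calc g * (a * b) = (g * a) * b := by group
    _ = a * (g * b) := by rw [h1]; group
    _ = a * b * g := by rw [h2]; group

namespace Hyp

variable (H : Hyp G m n) {x y : G} (hx : IsX m n x) (hy : (cz y).index = m)
include H hx hy

/-- The `π(m)`-part of an element of class size `m` is central. -/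
theorem pi_part_central {a b : G} (hc : Commute a b) (ha : IsPi m a) (hb : (orderOf b).Coprime m)
    (hab : (cz (a * b)).index = m) : a ∈ center G := by
  by_contra haZ
  have hdvd : (cz a).index ∣ m := by
    rw [← hab]
    exact Subgroup.index_dvd_of_le (cz_mul_left hc (ha.coprime hb))
  have hmem : ∀ u : G, (cz u).index ∣ m → (cz u).index ≠ m → u ∈ center G := fun u hu hne =>
    H.mem_center' hx hy (Nat.Coprime.coprime_dvd_left hu H.hcop)
      (lt_of_le_of_ne (H.htop _) hne)
  have ham : (cz a).index = m := by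
    by_contra hne
    exact haZ (hmem a hdvd hne)
  obtain ⟨w, hw, hwZ, hwo⟩ := H.exists_in_top hx.index_eq ham
  have h1 : cz a ≤ cz w := H.le_of_top ham (mem_cz.1 hw).symm (ha.coprime hwo)
  have hwm : (cz w).index = m := by
    by_contra hne
    refine hwZ (hmem w ?_ hne)
    rw [← ham]
    exact Subgroup.index_dvd_of_le h1
  have h2 : cz a = cz w := cz_eq_of_le h1 (by rw [ham, hwm])
  have hinf : cz x ⊓ cz a = center G := by
    apply le_antisymm
    · rintro u ⟨hu1, hu2⟩
      have hu1' : u ∈ cz x := hu1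
      have hu2' : u ∈ cz a := hu2
      obtain ⟨c, d, hcd, -, hcp, hdo, hcz', hdz⟩ := exists_decomp_pi m u
      have h3 : cz a ≤ cz d :=
        H.le_of_top ham (mem_cz.1 ((zpowers_le.2 hu2') hdz)).symm (ha.coprime hdo)
      have h4 : cz a ≤ cz c := by
        rw [h2]
        refine H.le_of_top hwm ?_ (hcp.coprime hwo).symm
        have h5 := (zpowers_le.2 hu2') hcz'
        rw [h2] at h5
        exact (mem_cz.1 h5).symm
      have h5 : cz a ≤ cz u := by
        rw [← hcd]
        exact le_cz_mul h4 h3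
      refine hmem u ?_ (H.ne_top hx hy hu1')
      rw [← ham]
      exact Subgroup.index_dvd_of_le h5
    · exact le_inf (center_le_cz x) (center_le_cz a)
  have hrel : (center G).relIndex (cz a) = n := by
    rw [← hinf, Subgroup.inf_relIndex_right, relIndex_eq_index, hx.index_eq]
    rw [hx.index_eq, ham]
    exact H.hcop.symm
  obtain ⟨p, a', hp, ⟨k, hk⟩, haz, haZ'⟩ := exists_primary _ _ rfl haZ
  have h3 : p ∣ n := by
    rw [← hrel]
    exact dvd_relIndex_center hp ((zpowers_le.2 (self_mem_cz a)) haz) haZ' hk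
  have h4 : p ∣ m := by
    obtain ⟨j, hj⟩ := ha
    have hk0 : k ≠ 0 := by
      rintro rfl
      rw [pow_zero, orderOf_eq_one_iff] at hk
      exact haZ' (hk ▸ one_mem _)
    have h5 : p ∣ m ^ j := by
      refine (dvd_pow_self p hk0).trans ?_
      rw [← hk]
      exact (orderOf_dvd_of_mem_zpowers haz).trans hj
    exact hp.dvd_of_dvd_pow h5
  exact hp.one_lt.ne' (Nat.eq_one_of_dvd_coprimes H.hcop h4 h3)

/-- The `π(m)`-elements of `C(v)` are central if `v` has class size `m`. -/
theorem pi_central {v u : G} (hv : (cz v).index = m) (hu : u ∈ cz v) (hup : IsPi m u) :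
    u ∈ center G := by
  obtain ⟨a, b, hab, hc, ha, hb, haz, hbz⟩ := exists_decomp_pi m v
  have haZ : a ∈ center G := H.pi_part_central hx hy hc ha hb (by rw [hab, hv])
  have h1 : cz v = cz b := by rw [← hab, hc.eq, cz_mul_center haZ]
  rw [h1] at hv hu
  have hcu : Commute u b := mem_cz.1 hu
  have h2 : cz b ≤ cz u := H.le_of_top hv hcu.symm (hup.coprime hb).symm
  refine H.pi_part_central hx hy hcu hup hb ?_
  apply le_antisymm (H.htop _)
  rw [← hv]
  exact Nat.le_of_dvd (index_pos _)
    (Subgroup.index_dvd_of_le (cz_mul_right hcu (hup.coprime hb)))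

theorem inf_eq {v : G} (hv : (cz v).index = m) : cz x ⊓ cz v = center G := by
  apply le_antisymm
  · rintro u ⟨hu1, hu2⟩
    have hu1' : u ∈ cz x := hu1
    have hu2' : u ∈ cz v := hu2
    obtain ⟨c, d, hcd, -, hcp, hdo, hcz', hdz⟩ := exists_decomp_pi m u
    rw [← hcd]
    exact mul_mem (H.pi_central hx hy hv ((zpowers_le.2 hu2') hcz') hcp)
      (H.center_of_cz_x hx hy ((zpowers_le.2 hu1') hdz) hdo)
  · exact le_inf (center_le_cz x) (center_le_cz v)

theorem relIndex_v {v : G} (hv : (cz v).index = m) : (center G).relIndex (cz v) = n := by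
  rw [← H.inf_eq hx hy hv, Subgroup.inf_relIndex_right, relIndex_eq_index, hx.index_eq]
  rw [hx.index_eq, hv]
  exact H.hcop.symm

theorem relIndex_x : (center G).relIndex (cz x) = m := by
  rw [← H.inf_eq hx hy hy, inf_comm, Subgroup.inf_relIndex_right, relIndex_eq_index, hy]
  rw [hx.index_eq, hy]
  exact H.hcop

theorem x_notMem : x ∉ center G := fun h => by
  have := cz_index_eq_one.2 h
  rw [hx.index_eq] at this
  exact H.hn.ne' this

theorem y_notMem {v : G} (hv : (cz v).index = m) : v ∉ center G := fun h => by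
  have := cz_index_eq_one.2 h
  rw [hv] at this
  have h1 := H.hmn
  have h2 := H.hn
  omega

/-- The image of the normal closure of `x` in `G / Z` has more than `n` elements. -/
theorem lt_card : n < Nat.card ((NX x).map (QuotientGroup.mk' (center G))) := by
  set π := QuotientGroup.mk' (center G) with hπ
  let C' := (cz (π x)).comap π
  have hC' : ∀ g ∈ C', ⁅g, x⁆ ∈ center G := by
    intro g hg
    rw [← QuotientGroup.eq_one_iff]
    change π ⁅g, x⁆ = 1
    rw [map_commutatorElement, commutatorElement_eq_one_iff_mul_comm]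
    exact mem_cz.1 hg
  obtain ⟨θ, hθ⟩ := exists_theta hC'
  have hker : θ.ker = (cz x).subgroupOf C' := by
    ext g
    rw [MonoidHom.mem_ker, mem_subgroupOf, mem_cz, ← commutatorElement_eq_one_iff_mul_comm, ← hθ]
    exact Subtype.ext_iff
  have hle : cz x ≤ C' := by
    intro g hg
    rw [mem_comap, mem_cz, ← map_mul, ← map_mul, mem_cz.1 hg]
  have h1 : (cz x).relIndex C' = 1 := by
    by_contra hne
    obtain ⟨p, hp, hpd⟩ := Nat.exists_prime_and_dvd hne
    have hpf : Fact p.Prime := ⟨hp⟩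
    have h2 : p ∣ n := by
      rw [← hx.index_eq]
      exact hpd.trans (Subgroup.relIndex_dvd_index_of_le hle)
    have h3 : p ∣ Nat.card θ.range := by
      rw [← Subgroup.index_ker, hker]
      exact hpd
    obtain ⟨⟨_, g, rfl⟩, ht⟩ := exists_prime_orderOf_dvd_card' p h3
    have h4 : p ∣ orderOf x := by
      rw [← ht]
      apply orderOf_dvd_of_pow_eq_one
      apply Subtype.ext
      rw [SubmonoidClass.coe_pow, OneMemClass.coe_one]
      apply Subtype.ext
      rw [SubmonoidClass.coe_pow, hθ]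
      exact theta_pow (hC' g g.2) (by rw [pow_orderOf_eq_one]; exact one_mem _)
    obtain ⟨k, hk⟩ := hx.isPi
    exact hp.one_lt.ne' (Nat.eq_one_of_dvd_coprimes H.hcop (hp.dvd_of_dvd_pow (h4.trans hk)) h2)
  have h2 : (cz (π x)).index = n := by
    have h3 : C'.index = (cz (π x)).index :=
      Subgroup.index_comap_of_surjective _ (QuotientGroup.mk'_surjective _)
    rw [← h3, ← hx.index_eq, ← Subgroup.relIndex_mul_index hle, h1, one_mul]
  have h3 : 1 ∉ cls (π x) := by
    rintro ⟨h, hh⟩
    dsimp only at hh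
    have h4 : π x = 1 := by
      have e : π x = h⁻¹ * (h * π x * h⁻¹) * h := by group
      rw [e, hh]; group
    exact H.x_notMem hx hy ((QuotientGroup.eq_one_iff x).1 h4)
  have h4 : insert 1 (cls (π x)) ⊆ ((NX x).map π : Set (G ⧸ center G)) := by
    rintro k (rfl | ⟨h, rfl⟩)
    · exact one_mem _
    · obtain ⟨g, rfl⟩ := QuotientGroup.mk'_surjective (center G) h
      refine ⟨g * x * g⁻¹, conj_mem_NX x g, ?_⟩
      rw [map_mul, map_mul, map_inv]
  have h5 := Set.ncard_le_ncard h4 (Set.toFinite _)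
  rw [Set.ncard_insert_of_notMem h3 (Set.toFinite _), ← Nat.card_coe_set_eq,
    ← Nat.card_coe_set_eq, card_cls, h2] at h5
  exact h5

omit H hx hy in
theorem relIndex_le_card {F : Subgroup G} {d : G} {S : Set G} (hS : ∀ h ∈ F, h * d * h⁻¹ ∈ S) :
    (cz d).relIndex F ≤ Nat.card S := by
  let f : F ⧸ (cz d).subgroupOf F → S := Quotient.lift (fun h : F => ⟨(h : G) * d * (h : G)⁻¹, hS h h.2⟩) (by
    intro a b hab
    have h1 : a⁻¹ * b ∈ (cz d).subgroupOf F := QuotientGroup.leftRel_apply.1 hab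
    rw [mem_subgroupOf, mem_cz] at h1
    apply Subtype.ext
    dsimp only
    have h2 : ((a : G)⁻¹ * b) * d = d * ((a : G)⁻¹ * b) := h1
    calc (a : G) * d * (a : G)⁻¹ = a * (d * ((a : G)⁻¹ * b)) * (b : G)⁻¹ := by group
      _ = a * (((a : G)⁻¹ * b) * d) * (b : G)⁻¹ := by rw [h2]
      _ = _ := by group)
  refine Nat.card_le_card_of_injective f ?_
  intro a b hab
  obtain ⟨a, rfl⟩ := QuotientGroup.mk_surjective a
  obtain ⟨b, rfl⟩ := QuotientGroup.mk_surjective b
  rw [QuotientGroup.eq, mem_subgroupOf, mem_cz]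
  have h1 : (a : G) * d * (a : G)⁻¹ = b * d * (b : G)⁻¹ := congrArg Subtype.val hab
  change ((a : G)⁻¹ * b) * d = d * ((a : G)⁻¹ * b)
  calc ((a : G)⁻¹ * b) * d = (a : G)⁻¹ * (b * d * (b : G)⁻¹) * b := by group
    _ = (a : G)⁻¹ * (a * d * (a : G)⁻¹) * b := by rw [h1]
    _ = _ := by group

theorem NX_inf : NX x ⊓ cz y ≤ center G := by
  rw [← H.inf_eq hx hy hy]
  exact inf_le_inf_right _ (H.NX_le hx hy)

/-- The key step. -/
theorem part_central {u : G} (hu : u ∈ cz y) (huZ : u ∉ center G) (huo : (orderOf u).Coprime m)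
    {x' a c : G} (hx' : IsX m n x') (ha : a ∈ NX x) (hc : c ∈ NX x) (hcu : c * u = u * c)
    (hx'e : x' = (a * u * a⁻¹ * u⁻¹) * c) : c ∈ center G := by
  by_contra hcZ
  set N := NX x with hN
  set d := a * u * a⁻¹ * u⁻¹ with hd
  set Y := cz y with hY
  have hcp : IsPi m c := H.NX_isPi hx hy c hc
  have hcomm : Commute c u := hcu
  have hcop : (orderOf c).Coprime (orderOf u) := hcp.coprime huo
  have h1 : (cz (c * u)).index ≠ m := fun h => hcZ (H.pi_part_central hx hy hcomm hcp huo h)
  have h2 : (cz (c * u)).index ≤ n := H.hsec _ (lt_of_le_of_ne (H.htop _) h1)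
  set E := cz (c * u) with hE
  have hEc : E ≤ cz c := cz_mul_left hcomm hcop
  have hEu : E ≤ cz u := cz_mul_right hcomm hcop
  have hinf' : cz x' ⊓ cz y = center G := H.inf_eq hx' hy hy
  -- the set of commutators
  let D : Set G := {t | ∃ b ∈ N, t = b * u * b⁻¹ * u⁻¹}
  have hDcard : Nat.card D ≤ (cz u).relIndex N := by
    let f : N ⧸ (cz u).subgroupOf N → D := Quotient.lift
      (fun b : N => ⟨(b : G) * u * (b : G)⁻¹ * u⁻¹, b, b.2, rfl⟩) (by
        intro b b' hbb
        have h3 : b⁻¹ * b' ∈ (cz u).subgroupOf N := QuotientGroup.leftRel_apply.1 hbb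
        rw [mem_subgroupOf, mem_cz] at h3
        apply Subtype.ext
        dsimp only
        have h4 : ((b : G)⁻¹ * b') * u = u * ((b : G)⁻¹ * b') := h3
        calc (b : G) * u * (b : G)⁻¹ * u⁻¹ = b * (u * ((b : G)⁻¹ * b')) * (b' : G)⁻¹ * u⁻¹ := by group
          _ = b * (((b : G)⁻¹ * b') * u) * (b' : G)⁻¹ * u⁻¹ := by rw [h4]
          _ = _ := by group)
    refine Nat.card_le_card_of_surjective f ?_
    rintro ⟨t, b, hb, rfl⟩
    exact ⟨((⟨b, hb⟩ : N) : N ⧸ (cz u).subgroupOf N), rfl⟩
  have hd1 : d ≠ 1 := by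
    intro h
    rw [h, one_mul] at hx'e
    apply huZ
    rw [← hinf', Subgroup.mem_inf]
    refine ⟨?_, hu⟩
    rw [mem_cz, hx'e]
    exact hcu.symm
  let F : Subgroup G := (N ⊔ E) ⊓ Y
  have hF : ∀ h ∈ F, h * c * h⁻¹ = c ∧ h * u * h⁻¹ = u := by
    rintro h ⟨hh1, hh2⟩
    have hhY : h ∈ Y := hh2
    have hh1' : h ∈ ((N ⊔ E : Subgroup G) : Set G) := hh1
    rw [Subgroup.normal_mul] at hh1'
    obtain ⟨ν, hν, e, he, rfl⟩ := hh1'
    have he1 : e * c = c * e := mem_cz.1 (hEc he)
    have he2 : e * u = u * e := mem_cz.1 (hEu he)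
    have hνc : ν * c = c * ν := H.NX_comm hx hy ν hν c hc
    constructor
    · calc ν * e * c * (ν * e)⁻¹ = ν * (e * c) * e⁻¹ * ν⁻¹ := by group
        _ = (ν * c) * ν⁻¹ := by rw [he1]; group
        _ = c := by rw [hνc]; group
    · have h3 : ⁅ν * e, u⁆ = ν * (u * ν⁻¹ * u⁻¹) := by
        rw [commutatorElement_def]
        calc ν * e * u * (ν * e)⁻¹ * u⁻¹ = ν * (e * u) * e⁻¹ * ν⁻¹ * u⁻¹ := by group
          _ = _ := by rw [he2]; group
      have h4 : ⁅ν * e, u⁆ ∈ N := by
        rw [h3]
        exact mul_mem hν ((NX_normal x).conj_mem _ (inv_mem hν) u)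
      have h5 : ⁅ν * e, u⁆ ∈ Y := by
        rw [commutatorElement_def]
        exact mul_mem (mul_mem (mul_mem hhY hu) (inv_mem hhY)) (inv_mem hu)
      have h6 : ⁅ν * e, u⁆ ∈ center G := H.NX_inf hx hy ⟨h4, h5⟩
      have h7 : ⁅ν * e, u⁆ ^ orderOf u = 1 :=
        theta_pow h6 (by rw [pow_orderOf_eq_one]; exact one_mem _)
      have h8 : orderOf ⁅ν * e, u⁆ = 1 :=
        Nat.eq_one_of_dvd_coprimes ((H.NX_isPi hx hy _ h4).coprime huo) dvd_rfl
          (orderOf_dvd_of_pow_eq_one h7)
      rw [orderOf_eq_one_iff, commutatorElement_eq_one_iff_mul_comm] at h8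
      rw [h8]; group
  have hZF : center G ≤ F := le_inf ((center_le_cz _).trans le_sup_right) (center_le_cz y)
  have hFd : F ⊓ cz d ≤ center G := by
    rintro h ⟨hh1, hh2⟩
    have hhF : h ∈ F := hh1
    have hhd : h * d = d * h := mem_cz.1 hh2
    rw [← hinf', Subgroup.mem_inf]
    refine ⟨?_, (Subgroup.mem_inf.1 hhF).2⟩
    have h3 := (hF h hhF).1
    have h4 : h * c = c * h := mul_inv_eq_iff_eq_mul.1 h3
    rw [mem_cz, hx'e]
    calc h * (d * c) = (h * d) * c := by group
      _ = d * (h * c) := by rw [hhd]; group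
      _ = d * c * h := by rw [h4]; group
  have h3 : (cz d).relIndex F ≤ Nat.card (D \ {1} : Set G) := by
    apply relIndex_le_card
    intro h hh
    have h4 := (hF h hh).2
    refine ⟨⟨h * a * h⁻¹, (NX_normal x).conj_mem _ ha h, ?_⟩, ?_⟩
    · calc h * d * h⁻¹ = (h * a * h⁻¹) * (h * u * h⁻¹) * (h * a * h⁻¹)⁻¹ * (h * u * h⁻¹)⁻¹ := by
            rw [hd]; group
        _ = _ := by rw [h4]
    · intro h5
      apply hd1
      have h6 : h * d * h⁻¹ = 1 := h5
      have e : d = h⁻¹ * (h * d * h⁻¹) * h := by group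
      rw [e, h6]; group
  have h4 : Nat.card (D \ {1} : Set G) < Nat.card D := by
    rw [Nat.card_coe_set_eq, Nat.card_coe_set_eq]
    apply Set.ncard_lt_ncard
    · refine ⟨Set.sdiff_subset, fun hsub => ?_⟩
      have : (1 : G) ∈ D \ {1} := hsub ⟨1, one_mem _, by group⟩
      exact this.2 rfl
    · exact Set.toFinite _
  have hne : ∀ A B : Subgroup G, A.relIndex B ≠ 0 := fun A B =>
    Subgroup.index_ne_zero_of_finite
  have h5 : (center G).relIndex F ≤ (cz d).relIndex F := by
    rw [← Subgroup.inf_relIndex_right (cz d) F, inf_comm]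
    exact Subgroup.relIndex_le_of_le_left hFd (hne _ _)
  have h6 : (center G).relIndex F < (cz u).relIndex N :=
    lt_of_le_of_lt (h5.trans h3) (h4.trans_le hDcard)
  have a1 : E.relIndex (N ⊔ E) * (N ⊔ E).index = E.index :=
    Subgroup.relIndex_mul_index le_sup_right
  have a2 : E.relIndex N ≤ E.relIndex (N ⊔ E) :=
    Subgroup.relIndex_le_of_le_right le_sup_left (hne _ _)
  have a3 : (cz u).relIndex N ≤ E.relIndex N := Subgroup.relIndex_le_of_le_left hEu (hne _ _)
  have a4 : (N ⊔ E).relIndex Y ≤ (N ⊔ E).index := relIndex_le_index _ _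
  have a5 : F.relIndex Y = (N ⊔ E).relIndex Y := Subgroup.inf_relIndex_right _ _
  have a6 : (center G).relIndex F * F.relIndex Y = n := by
    rw [← H.relIndex_v hx hy hy]
    exact Subgroup.relIndex_mul_relIndex _ _ _ hZF inf_le_right
  have a7 : 0 < F.relIndex Y := Nat.pos_of_ne_zero (hne _ _)
  have a8 : (center G).relIndex F * F.relIndex Y < E.relIndex (N ⊔ E) * (N ⊔ E).index := by
    refine lt_of_lt_of_le (Nat.mul_lt_mul_of_pos_right (h6.trans_le (a3.trans a2)) a7) ?_
    exact Nat.mul_le_mul_left _ (by rw [a5]; exact a4)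
  omega

end Hyp

end Cfsg.Agent.H683.CopTop
end

-- part: H683/CopTopD
section
/-!
# Groups whose two largest class sizes are coprime: the structure
-/

set_option autoImplicit false
set_option linter.unusedSectionVars false

namespace Cfsg.Agent.H683.CopTop

open Subgroup Cfsg.Agent.H683.TwoSize
open scoped commutatorElement Pointwise

variable {G : Type*} [Group G] [Finite G] {m n : ℕ}

namespace Hyp

variable (H : Hyp G m n) {x y : G} (hx : IsX m n x) (hy : (cz y).index = m)
include H hx hy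

/-- Non-central `π(m)'`-elements of `C(y)` centralize only central elements of `N`. -/
theorem fix_central {u : G} (hu : u ∈ cz y) (huZ : u ∉ center G) (huo : (orderOf u).Coprime m)
    {w : G} (hw : w ∈ NX x) (hwu : w * u = u * w) : w ∈ center G := by
  have hcomm := H.NX_comm hx hy
  have hcard : (Nat.card (NX x)).Coprime (orderOf u) := by
    by_contra hne
    obtain ⟨p, hp, hpd⟩ := Nat.exists_prime_and_dvd hne
    have hpf : Fact p.Prime := ⟨hp⟩
    obtain ⟨t, ht⟩ := exists_prime_orderOf_dvd_card' p (hpd.trans (Nat.gcd_dvd_left _ _))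
    have h1 := (H.NX_isPi hx hy t t.2).coprime huo
    rw [Subgroup.orderOf_coe, ht] at h1
    exact hp.one_lt.ne' (Nat.eq_one_of_dvd_coprimes h1 dvd_rfl (hpd.trans (Nat.gcd_dvd_right _ _)))
  let M : Subgroup G :=
    { carrier := {w | ∃ a ∈ NX x, ∃ c ∈ NX x, c ∈ center G ∧ w = (a * u * a⁻¹ * u⁻¹) * c}
      one_mem' := ⟨1, one_mem _, 1, one_mem _, one_mem _, by group⟩
      mul_mem' := by
        rintro _ _ ⟨a, ha, c, hc, hcZ, rfl⟩ ⟨b, hb, d, hd, hdZ, rfl⟩
        refine ⟨a * b, mul_mem ha hb, c * d, mul_mem hc hd, mul_mem hcZ hdZ, ?_⟩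
        have h1 : u * a⁻¹ * u⁻¹ ∈ NX x := (NX_normal x).conj_mem _ (inv_mem ha) u
        have h2 : b * u * b⁻¹ * u⁻¹ ∈ NX x := by
          have e : b * u * b⁻¹ * u⁻¹ = b * (u * b⁻¹ * u⁻¹) := by group
          rw [e]
          exact mul_mem hb ((NX_normal x).conj_mem _ (inv_mem hb) u)
        have h3 := hcomm _ h2 _ h1
        have h4 := mem_center_iff.1 hcZ (b * u * b⁻¹ * u⁻¹)
        calc a * u * a⁻¹ * u⁻¹ * c * (b * u * b⁻¹ * u⁻¹ * d)
            = a * u * a⁻¹ * u⁻¹ * (c * (b * u * b⁻¹ * u⁻¹)) * d := by group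
          _ = a * ((u * a⁻¹ * u⁻¹) * (b * u * b⁻¹ * u⁻¹)) * c * d := by rw [← h4]; group
          _ = a * ((b * u * b⁻¹ * u⁻¹) * (u * a⁻¹ * u⁻¹)) * c * d := by rw [h3]
          _ = _ := by group
      inv_mem' := by
        rintro _ ⟨a, ha, c, hc, hcZ, rfl⟩
        refine ⟨a⁻¹, inv_mem ha, c⁻¹, inv_mem hc, inv_mem hcZ, ?_⟩
        have h1 : u * a⁻¹ * u⁻¹ ∈ NX x := (NX_normal x).conj_mem _ (inv_mem ha) u
        have h3 := hcomm _ (inv_mem ha) _ (inv_mem h1)
        have h4 := mem_center_iff.1 (inv_mem hcZ) (u * a * u⁻¹ * a⁻¹)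
        calc (a * u * a⁻¹ * u⁻¹ * c)⁻¹ = c⁻¹ * (u * a * u⁻¹ * a⁻¹) := by group
          _ = ((u * a⁻¹ * u⁻¹)⁻¹ * a⁻¹) * c⁻¹ := by rw [← h4]; group
          _ = (a⁻¹ * (u * a⁻¹ * u⁻¹)⁻¹) * c⁻¹ := by rw [h3]
          _ = _ := by group }
  have hM : NX x ≤ M := by
    rw [NX, closure_le]
    rintro _ ⟨g, rfl⟩
    obtain ⟨a, ha, c, hc, hcu, he⟩ := Cfsg.Agent.H551.Frob.exists_decomp hcomm hcard
      (conj_mem_NX x g)
    exact ⟨a, ha, c, hc, H.part_central hx hy hu huZ huo (hx.conj g) ha hc hcu he, he⟩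
  obtain ⟨a, ha, c, hc, hcZ, rfl⟩ := hM hw
  have h1 : (a * u * a⁻¹ * u⁻¹) * u = u * (a * u * a⁻¹ * u⁻¹) := by
    have h2 := mem_center_iff.1 hcZ u
    have h3 : (a * u * a⁻¹ * u⁻¹) * u * c = u * (a * u * a⁻¹ * u⁻¹) * c := by
      calc (a * u * a⁻¹ * u⁻¹) * u * c = (a * u * a⁻¹ * u⁻¹) * (u * c) := by group
        _ = (a * u * a⁻¹ * u⁻¹ * c) * u := by rw [h2]; group
        _ = u * (a * u * a⁻¹ * u⁻¹ * c) := hwu
        _ = _ := by group
    exact mul_right_cancel h3
  have h2 := Cfsg.Agent.H551.Frob.comm_eq_one hcomm ha hcard h1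
  have h3 : a * u * a⁻¹ * u⁻¹ = 1 := by rw [h2]; group
  rw [h3, one_mul]
  exact hcZ

/-- The same for all non-central elements of `C(y)`. -/
theorem fix_central' {u : G} (hu : u ∈ cz y) (huZ : u ∉ center G)
    {w : G} (hw : w ∈ NX x) (hwu : w * u = u * w) : w ∈ center G := by
  obtain ⟨a, b, hab, hc, ha, hb, haz, hbz⟩ := exists_decomp_pi m u
  have haZ : a ∈ center G := H.pi_central hx hy hy ((zpowers_le.2 hu) haz) ha
  have h1 : cz u = cz b := by rw [← hab, hc.eq, cz_mul_center haZ]
  have hbZ : b ∉ center G := fun h => huZ (hab ▸ mul_mem haZ h)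
  refine H.fix_central hx hy ((zpowers_le.2 hu) hbz) hbZ hb hw ?_
  have h2 : w ∈ cz u := mem_cz.2 hwu
  rw [h1] at h2
  exact mem_cz.1 h2

/-- All non-central elements of `C(y)` have class size `m`. -/
theorem index_of_mem {u : G} (hu : u ∈ cz y) (huZ : u ∉ center G) : (cz u).index = m := by
  have hne : ∀ A B : Subgroup G, A.relIndex B ≠ 0 := fun A B =>
    Subgroup.index_ne_zero_of_finite
  have h1 : (center G).relIndex (NX x) ≤ (cz u).relIndex (NX x) := by
    rw [← Subgroup.inf_relIndex_right (cz u) (NX x)]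
    refine Subgroup.relIndex_le_of_le_left ?_ (hne _ _)
    rintro w ⟨hw1, hw2⟩
    exact H.fix_central' hx hy hu huZ hw2 (mem_cz.1 hw1)
  have h2 := H.lt_card hx hy
  rw [← Subgroup.relIndex_ker, QuotientGroup.ker_mk'] at h2
  have h3 : n < (cz u).index := h2.trans_le (h1.trans (relIndex_le_index _ _))
  by_contra hne'
  exact absurd (H.hsec u (lt_of_le_of_ne (H.htop u) hne')) (not_le.2 h3)

/-- A distinguished element of `C(y)`. -/
theorem exists_y0 : ∃ (q : ℕ) (y0 : G), q.Prime ∧ ¬ q ∣ m ∧ y0 ∈ cz y ∧ y0 ∉ center G ∧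
    y0 ^ q ∈ center G ∧ (∃ k, orderOf y0 = q ^ k) ∧ cz y0 = cz y := by
  obtain ⟨q, y', hq, ⟨k, hk⟩, hyz, hyZ⟩ := exists_primary _ _ rfl (H.y_notMem hx hy hy)
  obtain ⟨y0, hy0z, hy0Z, hy0q, l, hl⟩ := exists_of_dvd_relIndex_center hq
    (dvd_relIndex_center hq (mem_zpowers y') hyZ hk)
  have h1 : y0 ∈ zpowers y := (zpowers_le.2 hyz) hy0z
  have h2 : y0 ∈ cz y := (zpowers_le.2 (self_mem_cz y)) h1
  refine ⟨q, y0, hq, ?_, h2, hy0Z, hy0q, ⟨l, hl⟩, ?_⟩
  · intro hqm
    apply hy0Z
    refine H.pi_central hx hy hy h2 ⟨l, ?_⟩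
    rw [hl]
    exact pow_dvd_pow_of_dvd hqm l
  · exact (cz_eq_of_le (cz_le_of_mem_zpowers h1) (by
      rw [hy, H.index_of_mem hx hy h2 hy0Z])).symm

/-- `C(u) = C(y)` for all non-central elements of `C(y)`. -/
theorem cz_eq {u : G} (hu : u ∈ cz y) (huZ : u ∉ center G) : cz u = cz y := by
  obtain ⟨q, y0, hq, hqm, hy0, hy0Z, hy0q, ⟨l, hl⟩, hy0e⟩ := H.exists_y0 hx hy
  have hqf : Fact q.Prime := ⟨hq⟩
  obtain ⟨r, u', hr, ⟨k, hk⟩, huz, huZ'⟩ := exists_primary _ _ rfl huZ
  obtain ⟨v, hvz, hvZ, hvr, j, hj⟩ := exists_of_dvd_relIndex_center hr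
    (dvd_relIndex_center hr (mem_zpowers u') huZ' hk)
  have h1 : v ∈ zpowers u := (zpowers_le.2 huz) hvz
  have hvy : v ∈ cz y := (zpowers_le.2 hu) h1
  have hvm := H.index_of_mem hx hy hvy hvZ
  have hum := H.index_of_mem hx hy hu huZ
  have hy0m := H.index_of_mem hx hy hy0 hy0Z
  have hvc : v ∈ cz y0 := by rw [hy0e]; exact hvy
  have hcomm : Commute y0 v := (mem_cz.1 hvc).symm
  have key : cz v = cz y0 := by
    by_cases hrq : r = q
    · subst hrq
      have hex : ∃ j : ℕ, v * y0 ^ j ∈ center G := by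
        by_contra hcon
        push Not at hcon
        have hNn : ∀ g : G, g ∈ normalizer (NX x : Set G) := by
          intro g
          have := (Subgroup.normalizer_eq_top_iff (H := NX x)).2 (NX_normal x)
          rw [this]
          exact mem_top g
        have hZle : ∀ z ∈ center G, z ∈ centralizer (NX x : Set G) := fun z hz => by
          rw [mem_centralizer_iff]
          intro t _
          exact mem_center_iff.1 hz t
        have hid := ident (p := r) (NX x) (H.NX_comm hx hy) (hNn v) (hNn y0) (hZle _ hvr)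
          (hZle _ hy0q) (by
            rw [commutatorElement_eq_one_iff_mul_comm.2 hcomm.symm.eq]
            exact one_mem _) (NX x) (center G) le_rfl
          (fun w hw => (NX_normal x).conj_mem _ hw v) (fun w hw => (NX_normal x).conj_mem _ hw y0)
          (fun w hw h => H.fix_central' hx hy hy0 hy0Z hw h.symm)
          (fun j w hw h => H.fix_central' hx hy (mul_mem hvy (pow_mem hy0 j)) (hcon j) hw h.symm)
        have h2 := hid x (self_mem_NX x)
        have hcop : r.Coprime (orderOf x) := by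
          refine (hx.isPi.coprime ?_).symm
          rw [hr.coprime_iff_not_dvd]
          exact hqm
        obtain ⟨i, hi⟩ := exists_pow_eq_self_of_coprime hcop
        apply H.x_notMem hx hy
        rw [← hi]
        exact pow_mem h2 i
      obtain ⟨i, hi⟩ := hex
      have h2 : cz v = cz (y0 ^ i) := by
        have e : v = (y0 ^ i)⁻¹ * (v * y0 ^ i) := by
          have h3 := mem_center_iff.1 hi (y0 ^ i)⁻¹
          rw [h3]; group
        rw [e, cz_mul_center hi]
        ext g
        rw [mem_cz, mem_cz]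
        constructor
        · intro h; exact (Commute.inv_right_iff.1 (show Commute g (y0 ^ i)⁻¹ from h)).eq
        · intro h; exact (Commute.inv_right (show Commute g (y0 ^ i) from h)).eq
      have h3 : cz y0 ≤ cz v := by
        rw [h2]
        exact cz_le_of_mem_zpowers ⟨i, by simp⟩
      exact (cz_eq_of_le h3 (by rw [hy0m, hvm])).symm
    · refine (cz_eq_of_le (H.le_of_top hy0m hcomm ?_) (by rw [hy0m, hvm])).symm
      rw [hl, hj]
      exact Nat.Coprime.pow _ _ ((Nat.coprime_primes hq hr).2 (Ne.symm hrq))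
  rw [← hy0e, ← key]
  exact cz_eq_of_le (cz_le_of_mem_zpowers h1) (by rw [hum, hvm])

theorem y_comm : ∀ u ∈ cz y, ∀ w ∈ cz y, u * w = w * u := by
  intro u hu w hw
  by_cases huZ : u ∈ center G
  · exact (mem_center_iff.1 huZ w).symm
  · rw [← H.cz_eq hx hy hu huZ] at hw
    exact (mem_cz.1 hw).symm

/-- `C(y)` is self-normalizing. -/
theorem self_normalizing {g : G} (hg : ∀ u ∈ cz y, g * u * g⁻¹ ∈ cz y) : g ∈ cz y := by
  obtain ⟨c, hc, h, hh, rfl⟩ := Cfsg.Agent.S0007.exists_mul_eq (cz x) (cz y)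
    (by rw [hx.index_eq, hy]; exact H.hcop.symm) g
  refine mul_mem ?_ hh
  -- `c` normalizes `C(y)`
  have hcn : ∀ u ∈ cz y, c * u * c⁻¹ ∈ cz y := by
    intro u hu
    have h1 := hg (h⁻¹ * u * h) (mul_mem (mul_mem (inv_mem hh) hu) hh)
    have e : c * h * (h⁻¹ * u * h) * (c * h)⁻¹ = c * u * c⁻¹ := by group
    rwa [e] at h1
  apply center_le_cz y
  by_contra hcZ
  have hcn' : c ∈ normalizer (cz y : Set G) := Subgroup.mem_normalizer_fintype hcn
  obtain ⟨a, b, hab, hcomm, ha, hb, haz, hbz⟩ := exists_decomp_pi m c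
  have hbZ : b ∈ center G := H.center_of_cz_x hx hy ((zpowers_le.2 hc) hbz) hb
  have haZ : a ∉ center G := fun h => hcZ (hab ▸ mul_mem h hbZ)
  have hax : a ∈ cz x := (zpowers_le.2 hc) haz
  have han : a ∈ normalizer (cz y : Set G) := (zpowers_le.2 hcn') haz
  have hinf : cz a ⊓ cz y ≤ center G := by
    rintro u ⟨hu1, hu2⟩
    by_contra huZ
    apply haZ
    rw [← H.inf_eq hx hy hy, Subgroup.mem_inf]
    refine ⟨hax, ?_⟩
    rw [← H.cz_eq hx hy hu2 huZ, mem_cz]
    exact (mem_cz.1 hu1).symm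
  have hn : n ≤ (cz a).index := by
    refine le_trans ?_ (relIndex_le_index (cz a) (cz y))
    rw [← H.relIndex_v hx hy hy, ← Subgroup.inf_relIndex_right (cz a) (cz y)]
    exact Subgroup.relIndex_le_of_le_left hinf Subgroup.index_ne_zero_of_finite
  have hn' : (cz a).index = n :=
    le_antisymm (H.hsec a (lt_of_le_of_ne (H.htop a) (H.ne_top hx hy hax))) hn
  have hXa : IsX m n a := ⟨hn', ha⟩
  obtain ⟨q, y0, hq, hqm, hy0, hy0Z, hy0q, ⟨l, hl⟩, hy0e⟩ := H.exists_y0 hx hy
  have h1 : ⁅a, y0⁆ ∈ NX a := by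
    have e : ⁅a, y0⁆ = a * (y0 * a * y0⁻¹)⁻¹ := by rw [commutatorElement_def]; group
    rw [e]
    exact mul_mem (self_mem_NX a) (inv_mem (conj_mem_NX a y0))
  have h2 : ⁅a, y0⁆ ∈ cz y := by
    rw [commutatorElement_def]
    exact mul_mem (((mem_normalizer_iff.1 han) y0).1 hy0) (inv_mem hy0)
  have h3 : ⁅a, y0⁆ ∈ center G := H.NX_inf hXa hy ⟨h1, h2⟩
  have h4 : ⁅a, y0⁆ ^ orderOf y0 = 1 :=
    theta_pow h3 (by rw [pow_orderOf_eq_one]; exact one_mem _)
  have hcop : (orderOf y0).Coprime m := by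
    rw [hl]
    refine Nat.Coprime.pow_left l ?_
    rw [hq.coprime_iff_not_dvd]
    exact hqm
  have h5 : orderOf ⁅a, y0⁆ = 1 :=
    Nat.eq_one_of_dvd_coprimes ((H.NX_isPi hXa hy _ h1).coprime hcop) dvd_rfl
      (orderOf_dvd_of_pow_eq_one h4)
  rw [orderOf_eq_one_iff, commutatorElement_eq_one_iff_mul_comm] at h5
  apply haZ
  rw [← H.inf_eq hx hy hy, Subgroup.mem_inf]
  refine ⟨hax, ?_⟩
  rw [← hy0e, mem_cz]
  exact h5

end Hyp

end Cfsg.Agent.H683.CopTop
end

-- part: S4138
section
set_option autoImplicit false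
open Cfsg

namespace Cfsg.Agent.S4138

open Subgroup Cfsg.Agent.H683.TwoSize Cfsg.Agent.H683.CopTop
open scoped Pointwise

theorem aux {G : Type*} [Group G] [Finite G] {m n : ℕ} (H : Hyp G m n) {x y : G}
    (hx : IsX m n x) (hy : (cz y).index = m) :
    (∀ a ∈ cz x, ∀ b ∈ cz x, a * b = b * a) ∧
    Cfsg.IsFrobeniusComplement ((cz y).map (QuotientGroup.mk' (center G))) ∧
    Cfsg.frobeniusKernel ((cz y).map (QuotientGroup.mk' (center G))) =
      ((cz x).map (QuotientGroup.mk' (center G)) : Set (G ⧸ center G)) := by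
  set π := QuotientGroup.mk' (center G) with hπ
  have hπ1 : ∀ g : G, π g = 1 ↔ g ∈ center G := fun g => QuotientGroup.eq_one_iff g
  have hcardY : Nat.card ((cz y).map π) = n := by
    rw [← Subgroup.relIndex_ker, hπ, QuotientGroup.ker_mk']
    exact H.relIndex_v hx hy hy
  have hcardX : Nat.card ((cz x).map π) = m := by
    rw [← Subgroup.relIndex_ker, hπ, QuotientGroup.ker_mk']
    exact H.relIndex_x hx hy
  have hindex : ((cz y).map π).index = m := by
    rw [← hy]
    exact Subgroup.index_map_eq _ (QuotientGroup.mk'_surjective _)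
      (by rw [QuotientGroup.ker_mk']; exact center_le_cz y)
  have hconjidx : ∀ g : G, (cz (g * y * g⁻¹)).index = m := by
    intro g
    rw [← hy, ← card_cls, ← card_cls]
    congr 2
    ext k
    constructor
    · rintro ⟨h, rfl⟩
      exact ⟨h * g, by group⟩
    · rintro ⟨h, rfl⟩
      refine ⟨h * g⁻¹, ?_⟩
      dsimp only
      group
  have hconj : ∀ g u : G, u ∈ cz y → g * u * g⁻¹ ∈ cz (g * y * g⁻¹) := by
    intro g u hu
    rw [mem_cz] at hu ⊢
    calc g * u * g⁻¹ * (g * y * g⁻¹) = g * (u * y) * g⁻¹ := by group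
      _ = g * (y * u) * g⁻¹ := by rw [hu]
      _ = _ := by group
  have hconj' : ∀ g u : G, g * u * g⁻¹ ∈ cz (g * y * g⁻¹) → u ∈ cz y := by
    intro g u hu
    rw [mem_cz] at hu ⊢
    calc u * y = g⁻¹ * ((g * u * g⁻¹) * (g * y * g⁻¹)) * g := by group
      _ = g⁻¹ * ((g * y * g⁻¹) * (g * u * g⁻¹)) * g := by rw [hu]
      _ = _ := by group
  have hn1 := H.hn
  have hmn := H.hmn
  have hF : Cfsg.IsFrobeniusComplement ((cz y).map π) := by
    refine ⟨?_, ?_, ?_⟩
    · intro h
      rw [h, Subgroup.card_bot] at hcardY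
      omega
    · intro h
      rw [h, Subgroup.index_top] at hindex
      omega
    · intro g' hg'
      obtain ⟨g, rfl⟩ := QuotientGroup.mk'_surjective (center G) g'
      rw [eq_bot_iff]
      rintro k hk
      obtain ⟨hk1, hk2⟩ := Subgroup.mem_inf.1 hk
      obtain ⟨u, hu, rfl⟩ := hk1
      rw [Subgroup.mem_pointwise_smul_iff_inv_smul_mem, ← map_inv, MulAut.smul_def,
        MulAut.conj_apply, ← map_inv, ← map_inv, ← map_mul, ← map_mul, inv_inv] at hk2
      obtain ⟨w, hw, hwe⟩ := hk2
      rw [Subgroup.mem_bot, hπ1]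
      by_contra huZ
      apply hg'
      -- `g⁻¹ u g = w z`
      have hz : w⁻¹ * (g⁻¹ * u * g) ∈ center G := by
        rw [← hπ1, map_mul, map_inv, hwe, inv_mul_cancel]
      have hwy : g⁻¹ * u * g ∈ cz y := by
        have e : g⁻¹ * u * g = w * (w⁻¹ * (g⁻¹ * u * g)) := by group
        rw [e]
        exact mul_mem hw (center_le_cz y hz)
      have hwZ : g⁻¹ * u * g ∉ center G := by
        intro h
        apply huZ
        have h1 := mem_center_iff.1 h g
        have e : u = g * (g⁻¹ * u * g) * g⁻¹ := by group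
        rw [e, h1, mul_inv_cancel_right]
        exact h
      have h1 := H.cz_eq hx hy hwy hwZ
      have h2 := H.cz_eq hx hy hu huZ
      refine ⟨g, ?_, rfl⟩
      apply H.self_normalizing hx hy
      intro v hv
      rw [← h1, mem_cz] at hv
      rw [← h2, mem_cz]
      calc g * v * g⁻¹ * u = g * (v * (g⁻¹ * u * g)) * g⁻¹ := by group
        _ = g * (g⁻¹ * u * g * v) * g⁻¹ := by rw [hv]
        _ = _ := by group
  have hker : ((cz x).map π : Set (G ⧸ center G)) ⊆ Cfsg.frobeniusKernel ((cz y).map π) := by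
    rintro _ ⟨c, hc, rfl⟩
    by_cases hcZ : c ∈ center G
    · left
      exact (hπ1 c).2 hcZ
    · right
      intro g' hg'
      obtain ⟨g, rfl⟩ := QuotientGroup.mk'_surjective (center G) g'
      rw [Subgroup.mem_pointwise_smul_iff_inv_smul_mem, ← map_inv, MulAut.smul_def,
        MulAut.conj_apply, ← map_inv, ← map_inv, ← map_mul, ← map_mul, inv_inv] at hg'
      obtain ⟨w, hw, hwe⟩ := hg'
      have hz : w⁻¹ * (g⁻¹ * c * g) ∈ center G := by
        rw [← hπ1, map_mul, map_inv, hwe, inv_mul_cancel]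
      have hwy : g⁻¹ * c * g ∈ cz y := by
        have e : g⁻¹ * c * g = w * (w⁻¹ * (g⁻¹ * c * g)) := by group
        rw [e]
        exact mul_mem hw (center_le_cz y hz)
      apply hcZ
      rw [← H.inf_eq hx hy (hconjidx g), Subgroup.mem_inf]
      refine ⟨hc, ?_⟩
      have e : c = g * (g⁻¹ * c * g) * g⁻¹ := by group
      rw [e]
      exact hconj g _ hwy
  have hkereq : Cfsg.frobeniusKernel ((cz y).map π) = ((cz x).map π : Set (G ⧸ center G)) := by
    refine (Set.eq_of_subset_of_ncard_le hker ?_ (Set.toFinite _)).symm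
    rw [← Nat.card_coe_set_eq, ← Nat.card_coe_set_eq, (Cfsg.Agent.S0034.result _ hF).1, hindex]
    exact hcardX.ge
  refine ⟨?_, hF, hkereq⟩
  -- `C(x)` is abelian
  have hXe : ∀ v ∈ cz x, v ∉ center G → cz v = cz x := by
    intro v hv hvZ
    have hinf : ∀ g : G, ∀ u : G, u ∈ cz v → u ∈ cz (g * y * g⁻¹) → u ∈ center G := by
      intro g u hu1 hu2
      by_contra huZ
      apply hvZ
      rw [← H.inf_eq hx hy (hconjidx g), Subgroup.mem_inf]
      refine ⟨hv, ?_⟩
      rw [← H.cz_eq hx (hconjidx g) hu2 huZ, mem_cz]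
      exact (mem_cz.1 hu1).symm
    have hle : cz v ≤ cz x := by
      intro u hu
      have h1 : π u ∈ Cfsg.frobeniusKernel ((cz y).map π) := by
        by_cases huZ : u ∈ center G
        · left
          exact (hπ1 u).2 huZ
        · right
          intro g' hg'
          obtain ⟨g, rfl⟩ := QuotientGroup.mk'_surjective (center G) g'
          rw [Subgroup.mem_pointwise_smul_iff_inv_smul_mem, ← map_inv, MulAut.smul_def,
            MulAut.conj_apply, ← map_inv, ← map_inv, ← map_mul, ← map_mul, inv_inv] at hg'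
          obtain ⟨w, hw, hwe⟩ := hg'
          have hz : w⁻¹ * (g⁻¹ * u * g) ∈ center G := by
            rw [← hπ1, map_mul, map_inv, hwe, inv_mul_cancel]
          have hwy : g⁻¹ * u * g ∈ cz y := by
            have e : g⁻¹ * u * g = w * (w⁻¹ * (g⁻¹ * u * g)) := by group
            rw [e]
            exact mul_mem hw (center_le_cz y hz)
          apply huZ
          apply hinf g u hu
          have e : u = g * (g⁻¹ * u * g) * g⁻¹ := by group
          rw [e]
          exact hconj g _ hwy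
      rw [hkereq] at h1
      obtain ⟨w, hw, hwe⟩ := h1
      have hz : w⁻¹ * u ∈ center G := by
        rw [← hπ1, map_mul, map_inv, hwe, inv_mul_cancel]
      have e : u = w * (w⁻¹ * u) := by group
      rw [e]
      exact mul_mem hw (center_le_cz x hz)
    have hn : n ≤ (cz v).index := by
      rw [← hx.index_eq]
      exact Nat.le_of_dvd (index_pos v) (Subgroup.index_dvd_of_le hle)
    have hn' : (cz v).index = n :=
      le_antisymm (H.hsec v (lt_of_le_of_ne (H.htop v) (H.ne_top hx hy hv))) hn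
    exact cz_eq_of_le hle (by rw [hn', hx.index_eq])
  intro a ha b hb
  by_cases haZ : a ∈ center G
  · exact (mem_center_iff.1 haZ b).symm
  · rw [← hXe a ha haZ] at hb
    exact (mem_cz.1 hb).symm

/-- Let G be a finite group whose two largest conjugacy class sizes m > n > 1 are coprime, and let x, y ∈ G have classes of sizes n and m respectively. Then C_G(x) and C_G(y) are abelian, and G/Z(G) is a Frobenius group with kernel C_G(x)/Z(G) and complement C_G(y)/Z(G). -/
theorem result {G : Type*} [Group G] [Finite G] (m n : ℕ) (hmn : n < m) (hn : 1 < n)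
    (hcop : m.Coprime n) (htop : ∀ z : G, (Subgroup.centralizer ({z} : Set G)).index ≤ m) (hsecond : ∀ z : G, (Subgroup.centralizer ({z} : Set G)).index < m → (Subgroup.centralizer ({z} : Set G)).index ≤ n)
    (x y : G) (hx : (Subgroup.centralizer ({x} : Set G)).index = n) (hy : (Subgroup.centralizer ({y} : Set G)).index = m) :
    IsMulCommutative (Subgroup.centralizer ({x} : Set G)) ∧ IsMulCommutative (Subgroup.centralizer ({y} : Set G)) ∧
    Cfsg.IsFrobeniusComplement ((Subgroup.centralizer ({y} : Set G)).map (QuotientGroup.mk' (Subgroup.center G))) ∧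
    Cfsg.frobeniusKernel ((Subgroup.centralizer ({y} : Set G)).map (QuotientGroup.mk' (Subgroup.center G))) =
      ((Subgroup.centralizer ({x} : Set G)).map (QuotientGroup.mk' (Subgroup.center G)) : Set (G ⧸ Subgroup.center G)) := by
  have H : Hyp G m n := ⟨hmn, hn, hcop, htop, hsecond⟩
  obtain ⟨x', hx', hxe⟩ := H.exists_isX hx hy
  have hxe' : Subgroup.centralizer ({x} : Set G) = cz x' := hxe.symm
  obtain ⟨h1, h2, h3⟩ := aux H hx' hy
  rw [hxe']
  refine ⟨⟨⟨fun a b => Subtype.ext (h1 a a.2 b b.2)⟩⟩,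
    ⟨⟨fun a b => Subtype.ext (H.y_comm hx' hy a a.2 b b.2)⟩⟩, h2, h3⟩

end Cfsg.Agent.S4138
end
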