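import Cfsg.Statements.S4139
import Cfsg.Agent.H683.ClassCount
set_option linter.all false

set_option autoImplicit false
open Cfsg

namespace Cfsg.Agent.S4139

open Cfsg.Agent.H683.ClassCount

/-- Let G and H be finite groups such that for every natural number k, G and H have the same number of conjugacy classes of size k. If H is nilpotent then G is nilpotent. -/
theorem result {G H : Type*} [Group G] [Finite G] [Group H] [Finite H]
    (hH : Group.IsNilpotent H)
    (h : ∀ k : ℕ, Nat.card {C : ConjClasses G // Nat.card C.carrier = k} = Nat.card {C : ConjClasses H // Nat.card C.carrier = k}) :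
    Group.IsNilpotent G := by
  obtain ⟨φ, hφ⟩ := exists_equiv h
  have hcount : ∀ P : ℕ → Prop, Nat.card {x : G // P (csz x)} = Nat.card {x : H // P (csz x)} := by
    intro P
    exact Nat.card_congr (φ.subtypeEquiv fun x => by rw [hφ])
  have hZ : Nat.card (Subgroup.center G) = Nat.card (Subgroup.center H) := by
    have := hcount (fun k => k = 1)
    simp only [csz_eq_one_iff] at this
    exact this
  have hcard : Nat.card G = Nat.card H := Nat.card_congr φ
  have hc : ∀ (q : ℕ) [Fact q.Prime] (P : Sylow q G), ∀ z ∈ (P : Subgroup G),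
      (∀ u ∈ (P : Subgroup G), u * z = z * u) → z ∈ Subgroup.center G := by
    intro q hq P z hzP hz
    obtain ⟨a, b, m, n, hm, hn, h1, h2, h3, h4⟩ := counts hH q
    refine center_sylow (fun hd => ?_) P hzP hz
    have h5 := card_X (G := G) q
    rw [hcount (fun k => ¬ q ∣ k), h3, hZ, h2, mul_assoc] at h5
    have h6 : m = n * Nat.card (XQ G q) :=
      Nat.eq_of_mul_eq_mul_left (pow_pos hq.out.pos b) h5
    have h7 : q ∣ m := by
      rw [h6]
      exact hd.mul_left n
    exact (Nat.Prime.coprime_iff_not_dvd hq.out).1 hm.symm h7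
  refine (Group.isNilpotent_of_finite_tfae.out 0 3 rfl rfl).2 fun p hp P => ?_
  obtain ⟨a, b, m, n, hm, hn, h1, h2, h3, h4⟩ := counts hH p
  refine normal_of_counts hc hm hn (hcard.trans h1) (hZ.trans h2) ?_ P
  rw [hcount (fun k => ∃ j, k = p ^ j)]
  exact h4

end Cfsg.Agent.S4139
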