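import Cfsg.Statements.S4154
set_option linter.all false

set_option autoImplicit false
open Cfsg

namespace Cfsg.Agent.S4154

/-- The commutators `g⁻¹ β(g)` for an endomorphism `β`. -/
def commSet {H : Type*} [Group H] (β : H →* H) : Set H := Set.range fun g : H => g⁻¹ * β g

/-- If every element of the finite group `H` is a fixed point times a commutator, then this expression
is unique. -/
theorem unique_of_ccp {H : Type*} [Group H] [Finite H] (β : H →* H)
    (hccp : ∀ x : H, ∃ c g : H, β c = c ∧ x = c * (g⁻¹ * β g))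
    {c c' g g' : H} (hc : β c = c) (hc' : β c' = c')
    (h : c * (g⁻¹ * β g) = c' * (g'⁻¹ * β g')) : c = c' := by
  classical
  let C : Subgroup H := β.eqLocus (MonoidHom.id H)
  have hCmem : ∀ a : H, a ∈ C ↔ β a = a := fun a => Iff.rfl
  -- the number of commutators is at most the index of `C`
  have hcard : Nat.card (commSet β) ≤ C.index := by
    -- surjection from the quotient by right cosets
    let r : Setoid H := QuotientGroup.rightRel C
    have hwd : ∀ a b : H, r.r a b → a⁻¹ * β a = b⁻¹ * β b := by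
      intro a b hab
      have hab' : b * a⁻¹ ∈ C := QuotientGroup.rightRel_apply.mp hab
      rw [hCmem, map_mul, map_inv] at hab'
      have h1 : β b = b * a⁻¹ * β a := by
        rw [← hab']; group
      rw [h1]; group
    let φ : Quotient r → commSet β :=
      Quotient.lift (fun a => (⟨a⁻¹ * β a, ⟨a, rfl⟩⟩ : commSet β))
        (fun a b hab => Subtype.ext (hwd a b hab))
    have hφ : Function.Surjective φ := by
      rintro ⟨_, ⟨g, rfl⟩⟩
      exact ⟨Quotient.mk r g, rfl⟩
    have h1 : Nat.card (commSet β) ≤ Nat.card (Quotient r) :=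
      Nat.card_le_card_of_surjective φ hφ
    have h2 : Nat.card (Quotient r) = C.index := by
      rw [Subgroup.index]
      exact Nat.card_congr (QuotientGroup.quotientRightRelEquivQuotientLeftRel C)
    exact h1.trans h2.le
  -- the product map is onto, hence bijective
  let m : C × commSet β → H := fun z => z.1.1 * z.2.1
  have hm : Function.Surjective m := by
    intro x
    obtain ⟨c, g, hc, hx⟩ := hccp x
    exact ⟨(⟨c, hc⟩, ⟨g⁻¹ * β g, ⟨g, rfl⟩⟩), hx.symm⟩
  have hle : Nat.card (C × commSet β) ≤ Nat.card H := by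
    rw [Nat.card_prod, ← C.card_mul_index]
    exact Nat.mul_le_mul_left _ hcard
  have heq : Nat.card (C × commSet β) = Nat.card H :=
    le_antisymm hle (Nat.card_le_card_of_surjective m hm)
  have hbij : Function.Bijective m := (Nat.bijective_iff_surjective_and_card m).mpr ⟨hm, heq⟩
  have := hbij.1 (a₁ := (⟨c, hc⟩, ⟨g⁻¹ * β g, ⟨g, rfl⟩⟩))
    (a₂ := (⟨c', hc'⟩, ⟨g'⁻¹ * β g', ⟨g', rfl⟩⟩)) h
  exact congrArg (fun z : C × commSet β => z.1.1) this

/-- Let G be a finite group and α an automorphism of G such that every element of G is the product of an element fixed by α and an element of the form g⁻¹α(g). If N is a normal α-invariant subgroup, then the automorphism ᾱ induced on G/N has the same property, and every coset fixed by ᾱ contains an element fixed by α (so the fixed points of ᾱ are the images of the fixed points of α). -/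
theorem result {G : Type*} [Group G] [Finite G] (α : MulAut G)
    (hccp : ∀ x : G, ∃ c g : G, α c = c ∧ x = c * (g⁻¹ * α g))
    (N : Subgroup G) [N.Normal] (hN : ∀ n ∈ N, α n ∈ N) :
    (∀ x : G, ∃ c g : G, c⁻¹ * α c ∈ N ∧ x⁻¹ * (c * (g⁻¹ * α g)) ∈ N) ∧
    (∀ x : G, x⁻¹ * α x ∈ N → ∃ c : G, α c = c ∧ c⁻¹ * x ∈ N) := by
  refine ⟨?_, ?_⟩
  · intro x
    obtain ⟨c, g, hc, hx⟩ := hccp x
    refine ⟨c, g, ?_, ?_⟩
    · rw [hc, inv_mul_cancel]; exact N.one_mem
    · rw [← hx, inv_mul_cancel]; exact N.one_mem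
  · intro x hx
    obtain ⟨c, g, hc, hxe⟩ := hccp x
    refine ⟨c, hc, ?_⟩
    let β : (G ⧸ N) →* (G ⧸ N) := QuotientGroup.map N N (α : G →* G) hN
    have hβ : ∀ a : G, β (a : G ⧸ N) = ((α a : G) : G ⧸ N) := fun a => rfl
    have hccp' : ∀ z : G ⧸ N, ∃ c g : G ⧸ N, β c = c ∧ z = c * (g⁻¹ * β g) := by
      intro z
      obtain ⟨a, rfl⟩ := QuotientGroup.mk_surjective z
      obtain ⟨c, g, hc, ha⟩ := hccp a
      refine ⟨(c : G ⧸ N), (g : G ⧸ N), ?_, ?_⟩
      · rw [hβ, hc]
      · rw [hβ, ← QuotientGroup.mk_inv, ← QuotientGroup.mk_mul, ← QuotientGroup.mk_mul, ← ha]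
    have hxfix : β (x : G ⧸ N) = (x : G ⧸ N) := by
      rw [hβ]
      exact (QuotientGroup.eq.mpr hx).symm
    have hcfix : β (c : G ⧸ N) = (c : G ⧸ N) := by rw [hβ, hc]
    have key : (c : G ⧸ N) = (x : G ⧸ N) := by
      refine unique_of_ccp β hccp' (g := (g : G ⧸ N)) (g' := 1) hcfix hxfix ?_
      rw [hβ, ← QuotientGroup.mk_inv, ← QuotientGroup.mk_mul, ← QuotientGroup.mk_mul, ← hxe]
      simp
    exact QuotientGroup.eq.mp key

end Cfsg.Agent.S4154
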