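import Mathlib
import Cfsg.Statements.S4156
set_option linter.all false

set_option autoImplicit false
open Cfsg

namespace Cfsg.Agent.S4156

open Matrix

/-- The matrix of a permutation of `n + 1` points on the deleted permutation module, in the basis
`e_i - e_n`. -/
def mat (n : ℕ) (F : Type*) [Field F] (σ : Equiv.Perm (Fin (n + 1))) : Matrix (Fin n) (Fin n) F :=
  Matrix.of fun j i => (if σ i.castSucc = j.castSucc then 1 else 0) -
    (if σ (Fin.last n) = j.castSucc then 1 else 0)

theorem mat_apply (n : ℕ) (F : Type*) [Field F] (σ : Equiv.Perm (Fin (n + 1))) (j i : Fin n) :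
    mat n F σ j i = (if σ i.castSucc = j.castSucc then 1 else 0) -
      (if σ (Fin.last n) = j.castSucc then 1 else 0) := rfl

theorem mat_one (n : ℕ) (F : Type*) [Field F] : mat n F 1 = 1 := by
  ext j i
  rw [mat_apply, Matrix.one_apply]
  have h : ¬ (Fin.last n = j.castSucc) := fun h => Fin.castSucc_ne_last j h.symm
  simp only [Equiv.Perm.coe_one, id_eq, h, if_false, sub_zero, Fin.castSucc_inj]
  by_cases hij : i = j
  · simp [hij]
  · simp [hij, Ne.symm hij]

theorem mat_mul (n : ℕ) (F : Type*) [Field F] (σ τ : Equiv.Perm (Fin (n + 1))) :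
    mat n F (σ * τ) = mat n F σ * mat n F τ := by
  ext k i
  rw [Matrix.mul_apply]
  simp only [mat_apply]
  -- the sum over all points
  have h1 : ∑ j : Fin (n + 1), ((if σ j = k.castSucc then (1 : F) else 0) -
      (if σ (Fin.last n) = k.castSucc then 1 else 0)) *
      ((if τ i.castSucc = j then (1 : F) else 0) - (if τ (Fin.last n) = j then 1 else 0)) =
      (if σ (τ i.castSucc) = k.castSucc then 1 else 0) -
        (if σ (τ (Fin.last n)) = k.castSucc then 1 else 0) := by
    have h2 : ∀ (a : Fin (n + 1)) (f : Fin (n + 1) → F),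
        ∑ j : Fin (n + 1), f j * (if a = j then (1 : F) else 0) = f a := by
      intro a f
      simp
    simp only [mul_sub, Finset.sum_sub_distrib]
    rw [h2 _ (fun j => (if σ j = k.castSucc then (1 : F) else 0) -
      (if σ (Fin.last n) = k.castSucc then 1 else 0)),
      h2 _ (fun j => (if σ j = k.castSucc then (1 : F) else 0) -
      (if σ (Fin.last n) = k.castSucc then 1 else 0))]
    ring
  rw [Fin.sum_univ_castSucc] at h1
  refine Eq.trans ?_ (h1.symm.trans ?_)
  · rfl
  simp

/-- The representation. -/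
def rep (n : ℕ) (F : Type*) [Field F] : Equiv.Perm (Fin (n + 1)) →* Matrix (Fin n) (Fin n) F where
  toFun := mat n F
  map_one' := mat_one n F
  map_mul' := mat_mul n F

theorem det_eq_one (n : ℕ) (hn : 5 ≤ n) (F : Type*) [Field F] (σ : alternatingGroup (Fin (n + 1))) :
    (mat n F σ).det = 1 := by
  let δ : alternatingGroup (Fin (n + 1)) →* Fˣ :=
    ((Matrix.detMonoidHom.comp (rep n F)).comp (alternatingGroup (Fin (n + 1))).subtype).toHomUnits
  have h1 : commutator (alternatingGroup (Fin (n + 1))) ≤ δ.ker :=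
    Abelianization.commutator_subset_ker δ
  rw [commutator_alternatingGroup_eq_top (by simp; omega)] at h1
  have h2 : δ σ = 1 := h1 (Subgroup.mem_top σ)
  have h3 : ((δ σ : Fˣ) : F) = 1 := by rw [h2]; rfl
  exact h3

/-- The homomorphism to the special linear group. -/
def toSL (n : ℕ) (hn : 5 ≤ n) (F : Type*) [Field F] :
    alternatingGroup (Fin (n + 1)) →* Matrix.SpecialLinearGroup (Fin n) F where
  toFun σ := ⟨mat n F σ, det_eq_one n hn F σ⟩
  map_one' := Subtype.ext (mat_one n F)
  map_mul' σ τ := Subtype.ext (mat_mul n F σ τ)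

/-- Let n ≥ 5 and F a finite field. Then the projective special linear group PSL_n(F) contains a subgroup isomorphic to the alternating group of degree n + 1. -/
theorem result (n : ℕ) (hn : 5 ≤ n) (F : Type*) [Field F] [Finite F] :
    ∃ f : alternatingGroup (Fin (n + 1)) →* Matrix.ProjectiveSpecialLinearGroup (Fin n) F, Function.Injective f := by
  refine ⟨(QuotientGroup.mk' _).comp (toSL n hn F), ?_⟩
  rw [injective_iff_map_eq_one]
  intro σ hσ
  have h1 : toSL n hn F σ ∈ Subgroup.center (Matrix.SpecialLinearGroup (Fin n) F) :=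
    (QuotientGroup.eq_one_iff _).1 hσ
  obtain ⟨r, -, hr⟩ := Matrix.SpecialLinearGroup.mem_center_iff.1 h1
  have h2 : ∀ j i : Fin n, j ≠ i → mat n F σ j i = 0 := by
    intro j i hji
    have : (toSL n hn F σ : Matrix (Fin n) (Fin n) F) = mat n F σ := rfl
    rw [← this, ← hr]
    simp [Matrix.scalar_apply, Matrix.diagonal_apply_ne _ hji]
  have hlast : (σ : Equiv.Perm (Fin (n + 1))) (Fin.last n) = Fin.last n := by
    by_contra hne
    obtain ⟨j, hj⟩ : ∃ j : Fin n, j.castSucc = (σ : Equiv.Perm (Fin (n + 1))) (Fin.last n) :=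
      Fin.exists_castSucc_eq.2 hne
    obtain ⟨i, hi⟩ : ∃ i : Fin n, j ≠ i := by
      haveI : Nontrivial (Fin n) := Fin.nontrivial_iff_two_le.2 (by omega)
      obtain ⟨i, hi⟩ := exists_ne j
      exact ⟨i, hi.symm⟩
    have h3 := h2 j i hi
    rw [mat_apply, ← hj] at h3
    have h4 : ¬ ((σ : Equiv.Perm (Fin (n + 1))) i.castSucc = j.castSucc) := by
      rw [hj]
      intro h
      exact Fin.castSucc_ne_last i ((σ : Equiv.Perm (Fin (n + 1))).injective h)
    rw [if_neg h4, if_pos rfl] at h3
    simp at h3
  apply Subtype.ext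
  apply Equiv.ext
  intro x
  induction x using Fin.lastCases with
  | last => exact hlast
  | cast i =>
    by_contra hne
    have h5 : (σ : Equiv.Perm (Fin (n + 1))) i.castSucc ≠ Fin.last n := by
      rw [← hlast]
      intro h
      exact Fin.castSucc_ne_last i ((σ : Equiv.Perm (Fin (n + 1))).injective h)
    obtain ⟨j, hj⟩ : ∃ j : Fin n, j.castSucc = (σ : Equiv.Perm (Fin (n + 1))) i.castSucc :=
      Fin.exists_castSucc_eq.2 h5
    have hji : j ≠ i := by
      rintro rfl
      exact hne hj.symm
    have h3 := h2 j i hji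
    rw [mat_apply, hlast] at h3
    have h6 : ¬ (Fin.last n = j.castSucc) := fun h => Fin.castSucc_ne_last j h.symm
    rw [if_pos hj.symm, if_neg h6] at h3
    simp at h3

end Cfsg.Agent.S4156
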