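import Mathlib
import Cfsg.Agent.SmallSimple.SelfCentPrime
import Cfsg.Agent.H535.AHLemmaR
import Cfsg.Agent.S0112
import Cfsg.Agent.S0113
import Cfsg.Statements.S4162
set_option linter.all false

-- part: H668/DSa
section
/-!
# S4162, part 1: groups with distinct class sizes (helper668)

* `cc x` : order of the centralizer of `x`;
* `Dist G` : elements with the same centralizer order are conjugate;
* `Rat G` : every element is conjugate to its powers with exponent prime to `|G|`;
* `sum_inv_cc` : the class equation `∑ 1 / c = 1`;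
* `cc_quot_le`, `cc_quot_two` : centralizers in quotients.
-/

set_option autoImplicit false

open Subgroup

namespace Cfsg.Agent.H668.DS

open Classical in
/-- The order of the centralizer. -/
noncomputable def cc {G : Type*} [Group G] (x : G) : ℕ := Nat.card (Subgroup.centralizer ({x} : Set G))

/-- Elements with the same centralizer order are conjugate. -/
def Dist (G : Type*) [Group G] : Prop := ∀ x y : G, cc x = cc y → IsConj x y

/-- Rational groups. -/
def Rat (G : Type*) [Group G] : Prop := ∀ (x : G) (j : ℕ), j.Coprime (Nat.card G) → IsConj x (x ^ j)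

theorem cc_pos {G : Type*} [Group G] [Finite G] (x : G) : 0 < cc x := Nat.card_pos

theorem cc_dvd {G : Type*} [Group G] [Finite G] (x : G) : cc x ∣ Nat.card G := Subgroup.card_subgroup_dvd_card _

theorem card_carrier_mul_cc {G : Type*} [Group G] [Finite G] (x : G) :
    Nat.card (ConjClasses.mk x).carrier * cc x = Nat.card G :=
  SmallSimple.SelfCentPrime.card_carrier_mul_card_centralizer x

theorem card_conj_mul_cc {G : Type*} [Group G] [Finite G] (x : G) :
    Nat.card {y : G // IsConj x y} * cc x = Nat.card G := by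
  rw [← card_carrier_mul_cc x]
  congr 1

theorem cc_eq_of_isConj {G : Type*} [Group G] [Finite G] {x y : G} (h : IsConj x y) : cc x = cc y := by
  have h1 := card_carrier_mul_cc x
  have h2 := card_carrier_mul_cc y
  have h3 : ConjClasses.mk x = ConjClasses.mk y := ConjClasses.mk_eq_mk_iff_isConj.2 h
  rw [h3] at h1
  have h4 : 0 < Nat.card (ConjClasses.mk y).carrier := by
    rcases Nat.eq_zero_or_pos (Nat.card (ConjClasses.mk y).carrier) with h0 | h0
    · rw [h0, zero_mul] at h2
      exact absurd h2.symm Nat.card_pos.ne'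
    · exact h0
  exact Nat.eq_of_mul_eq_mul_left h4 (h1.trans h2.symm)

/-- `Dist` from the hypothesis of S4162. -/
theorem dist_of_inj {G : Type*} [Group G] [Finite G]
    (h : Function.Injective fun C : ConjClasses G => Nat.card C.carrier) : Dist G := by
  intro x y hxy
  have h1 := card_carrier_mul_cc x
  have h2 := card_carrier_mul_cc y
  rw [hxy] at h1
  have h3 : Nat.card (ConjClasses.mk x).carrier = Nat.card (ConjClasses.mk y).carrier :=
    Nat.eq_of_mul_eq_mul_right (cc_pos y) (h1.trans h2.symm)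
  exact ConjClasses.mk_eq_mk_iff_isConj.1 (h h3)

theorem cc_pow {G : Type*} [Group G] [Finite G] (x : G) {j : ℕ} (hj : j.Coprime (orderOf x)) :
    cc (x ^ j) = cc x := by
  unfold cc
  congr 2
  ext g
  rw [mem_centralizer_singleton_iff, mem_centralizer_singleton_iff]
  constructor
  · intro h
    obtain ⟨m, hm⟩ := exists_pow_eq_self_of_coprime hj
    rw [← hm]
    exact (Commute.pow_right (show Commute g (x ^ j) from h) m)
  · intro h
    exact (Commute.pow_right (show Commute g x from h) j)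

/-- Groups with distinct class sizes are rational. -/
theorem Dist.rat {G : Type*} [Group G] [Finite G] (h : Dist G) : Rat G := by
  intro x j hj
  apply h
  rw [cc_pow x (hj.coprime_dvd_right (orderOf_dvd_natCard x))]

theorem Rat.inv {G : Type*} [Group G] [Finite G] (h : Rat G) (x : G) : IsConj x x⁻¹ := by
  have h1 : 0 < Nat.card G := Nat.card_pos
  have h2 : (Nat.card G - 1).Coprime (Nat.card G) := by
    rcases Nat.lt_or_ge 1 (Nat.card G) with h3 | h3
    · exact (Nat.coprime_self_sub_left h3.le).2 (Nat.coprime_one_left _) |>.symm.symm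
    · have h4 : Nat.card G = 1 := le_antisymm h3 h1
      rw [h4]
      simp
  have h3 := h x _ h2
  have h4 : x ^ (Nat.card G - 1) = x⁻¹ := by
    rw [eq_inv_iff_mul_eq_one, ← pow_succ, Nat.sub_add_cancel h1, pow_card_eq_one']
  rwa [h4] at h3

/-- Quotients of rational groups are rational. -/
theorem Rat.of_surjective {G H : Type*} [Group G] [Finite G] [Group H] [Finite H] (h : Rat G) (f : G →* H)
    (hf : Function.Surjective f) : Rat H := by
  intro y j hj
  obtain ⟨x, rfl⟩ := hf y
  -- replace `j` by an exponent prime to `|G|`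
  obtain ⟨j', hj', hjj⟩ : ∃ j' : ℕ, j'.Coprime (Nat.card G) ∧ j' ≡ j [MOD Nat.card H] := by
    have h1 : Nat.card H ∣ Nat.card G := by
      rw [Nat.card_congr (QuotientGroup.quotientKerEquivOfSurjective f hf).toEquiv.symm]
      exact Subgroup.card_quotient_dvd_card _
    have := ZMod.unitsMap_surjective h1
    obtain ⟨u, hu⟩ := this (ZMod.unitOfCoprime j hj)
    have : NeZero (Nat.card G) := ⟨Nat.card_pos.ne'⟩
    have : NeZero (Nat.card H) := ⟨Nat.card_pos.ne'⟩
    refine ⟨(u : ZMod (Nat.card G)).val, ZMod.val_coe_unit_coprime u, ?_⟩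
    rw [← ZMod.natCast_eq_natCast_iff]
    have h2 := congrArg (fun z : (ZMod (Nat.card H))ˣ => (z : ZMod (Nat.card H))) hu
    simp only [ZMod.unitsMap_val, ZMod.coe_unitOfCoprime] at h2
    rw [← h2, ZMod.natCast_val]
  have h2 : f x ^ j = f x ^ j' := by
    apply (pow_eq_pow_iff_modEq).2
    exact (hjj.symm).of_dvd (orderOf_dvd_natCard _)
  rw [h2, ← map_pow]
  exact f.map_isConj (h x j' hj')

/-- The class equation. -/
theorem sum_inv_cc {G : Type*} [Group G] [Finite G] (h : Dist G) [Fintype G] [DecidableEq ℕ] :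
    ∑ d ∈ Finset.univ.image (fun x : G => cc x), (1 / (d : ℚ)) = 1 := by
  classical
  have h1 : (Nat.card G : ℚ) = ∑ d ∈ Finset.univ.image (fun x : G => cc x), (Nat.card G : ℚ) * (1 / (d : ℚ)) := by
    have h2 : (Finset.univ : Finset G).card
        = ∑ d ∈ Finset.univ.image (fun x : G => cc x), ((Finset.univ : Finset G).filter (fun x => cc x = d)).card := by
      apply Finset.card_eq_sum_card_image
    rw [Nat.card_eq_fintype_card, ← Finset.card_univ, h2]
    push_cast
    apply Finset.sum_congr rfl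
    intro d hd
    obtain ⟨x, -, rfl⟩ := Finset.mem_image.1 hd
    have h3 : ((Finset.univ : Finset G).filter (fun y => cc y = cc x)).card = Nat.card {y : G // IsConj x y} := by
      rw [Nat.card_eq_fintype_card, Fintype.card_subtype]
      congr 1
      ext y
      simp only [Finset.mem_filter, Finset.mem_univ, true_and]
      constructor
      · intro hy
        exact h x y hy.symm
      · intro hy
        exact (cc_eq_of_isConj hy).symm
    have h4 := card_conj_mul_cc x
    rw [h3]
    have h5 : ((Finset.univ : Finset G).card : ℚ) = (Nat.card {y : G // IsConj x y} : ℚ) * (cc x : ℚ) := by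
      rw [Finset.card_univ, ← Nat.card_eq_fintype_card, ← h4]
      push_cast
      ring
    have h6 : (cc x : ℚ) ≠ 0 := by exact_mod_cast (cc_pos x).ne'
    have h7 : (Finset.univ : Finset G).card = ∑ d ∈ Finset.univ.image (fun x : G => cc x),
      ((Finset.univ : Finset G).filter (fun x => cc x = d)).card := h2
    rw [← Nat.cast_sum, ← h7, h5]
    field_simp
  rw [← Finset.mul_sum] at h1
  have h2 : (Nat.card G : ℚ) ≠ 0 := by exact_mod_cast (Nat.card_pos (α := G)).ne'
  field_simp at h1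
  linarith

/-- Fibres of a surjective homomorphism over a subset. -/
theorem card_preimage {G H : Type*} [Group G] [Finite G] [Group H] [Finite H] (f : G →* H)
    (hf : Function.Surjective f) (S : Set H) :
    Nat.card (f ⁻¹' S) = Nat.card f.ker * Nat.card S := by
  classical
  have e : (f ⁻¹' S) ≃ f.ker × S := by
    choose g hg using hf
    refine
      { toFun := fun z => (⟨(g (f z))⁻¹ * z, by rw [MonoidHom.mem_ker, map_mul, map_inv, hg, inv_mul_cancel]⟩, ⟨f z, z.2⟩)
        invFun := fun w => ⟨g w.2 * w.1, by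
          rw [Set.mem_preimage, map_mul, hg, (MonoidHom.mem_ker).1 w.1.2, mul_one]; exact w.2.2⟩
        left_inv := fun z => by
          ext; simp
        right_inv := fun w => by
          obtain ⟨⟨a, ha⟩, ⟨b, hb⟩⟩ := w
          have h1 : f (g b * a) = b := by
            rw [map_mul, hg, (MonoidHom.mem_ker).1 ha, mul_one]
          ext
          · simp [h1]
          · simp [h1] }
  rw [Nat.card_congr e, Nat.card_prod]

theorem card_preimage_conj {G H : Type*} [Group G] [Finite G] [Group H] [Finite H] (f : G →* H)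
    (hf : Function.Surjective f) (x : G) :
    Nat.card {y : G // IsConj (f x) (f y)} * cc (f x) = Nat.card G := by
  have h1 : Nat.card {y : G // IsConj (f x) (f y)} = Nat.card f.ker * Nat.card {w : H // IsConj (f x) w} :=
    card_preimage f hf {w : H | IsConj (f x) w}
  have h2 := card_conj_mul_cc (f x)
  have h3 : Nat.card G = Nat.card f.ker * Nat.card H := by
    have := card_preimage f hf Set.univ
    rw [Set.preimage_univ] at this
    rw [Nat.card_congr (Equiv.Set.univ G), Nat.card_congr (Equiv.Set.univ H)] at this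
    exact this
  rw [h1, mul_assoc, h2, h3]

theorem cc_quot_le {G H : Type*} [Group G] [Finite G] [Group H] [Finite H] (f : G →* H)
    (hf : Function.Surjective f) (x : G) : cc (f x) ≤ cc x := by
  have h1 := card_preimage_conj f hf x
  have h2 := card_conj_mul_cc x
  have h3 : Nat.card {y : G // IsConj x y} ≤ Nat.card {y : G // IsConj (f x) (f y)} := by
    apply Nat.card_le_card_of_injective (fun y : {y : G // IsConj x y} => (⟨y.1, f.map_isConj y.2⟩ : {y : G // IsConj (f x) (f y)}))
    intro a b hab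
    exact Subtype.ext (congrArg (fun z : {y : G // IsConj (f x) (f y)} => z.1) hab)
  have h4 : 0 < Nat.card {y : G // IsConj x y} := by
    rcases Nat.eq_zero_or_pos (Nat.card {y : G // IsConj x y}) with h0 | h0
    · rw [h0, zero_mul] at h2
      exact absurd h2.symm Nat.card_pos.ne'
    · exact h0
  by_contra hlt
  push Not at hlt
  have h5 : Nat.card {y : G // IsConj x y} * cc x < Nat.card {y : G // IsConj (f x) (f y)} * cc (f x) := by
    calc Nat.card {y : G // IsConj x y} * cc x < Nat.card {y : G // IsConj x y} * cc (f x) := by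
          exact Nat.mul_lt_mul_of_pos_left hlt h4
      _ ≤ _ := Nat.mul_le_mul_right _ h3
  omega

/-- Two classes over the same class of a quotient. -/
theorem cc_quot_two {G H : Type*} [Group G] [Finite G] [Group H] [Finite H] (f : G →* H)
    (hf : Function.Surjective f) (x y : G) (hxy : ¬ IsConj x y) (h : IsConj (f x) (f y)) :
    1 / (cc x : ℚ) + 1 / (cc y : ℚ) ≤ 1 / (cc (f x) : ℚ) := by
  classical
  have h1 := card_preimage_conj f hf x
  have h2 := card_conj_mul_cc x
  have h2' := card_conj_mul_cc y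
  have h3 : Nat.card {z : G // IsConj x z} + Nat.card {z : G // IsConj y z}
      ≤ Nat.card {z : G // IsConj (f x) (f z)} := by
    rw [← Nat.card_sum]
    apply Nat.card_le_card_of_injective (Sum.elim
      (fun z : {z : G // IsConj x z} => (⟨z.1, f.map_isConj z.2⟩ : {z : G // IsConj (f x) (f z)}))
      (fun z : {z : G // IsConj y z} => (⟨z.1, h.trans (f.map_isConj z.2)⟩ : {z : G // IsConj (f x) (f z)})))
    rintro (a | a) (b | b) hab
    · simp only [Sum.elim_inl, Subtype.mk.injEq] at hab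
      rw [Sum.inl.injEq]
      exact Subtype.ext hab
    · simp only [Sum.elim_inl, Sum.elim_inr, Subtype.mk.injEq] at hab
      exact absurd (a.2.trans (hab ▸ b.2.symm)) hxy
    · simp only [Sum.elim_inl, Sum.elim_inr, Subtype.mk.injEq] at hab
      exact absurd (b.2.trans (hab ▸ a.2.symm)) hxy
    · simp only [Sum.elim_inr, Subtype.mk.injEq] at hab
      rw [Sum.inr.injEq]
      exact Subtype.ext hab
  have hG : (0 : ℚ) < (Nat.card G : ℚ) := by exact_mod_cast (Nat.card_pos (α := G))
  have e1 : (Nat.card {z : G // IsConj x z} : ℚ) = Nat.card G * (1 / (cc x : ℚ)) := by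
    have : (cc x : ℚ) ≠ 0 := by exact_mod_cast (cc_pos x).ne'
    rw [← h2]
    push_cast
    field_simp
  have e2 : (Nat.card {z : G // IsConj y z} : ℚ) = Nat.card G * (1 / (cc y : ℚ)) := by
    have : (cc y : ℚ) ≠ 0 := by exact_mod_cast (cc_pos y).ne'
    rw [← h2']
    push_cast
    field_simp
  have e3 : (Nat.card {z : G // IsConj (f x) (f z)} : ℚ) = Nat.card G * (1 / (cc (f x) : ℚ)) := by
    have : (cc (f x) : ℚ) ≠ 0 := by exact_mod_cast (cc_pos (f x)).ne'
    rw [← h1]
    push_cast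
    field_simp
  have h4 : (Nat.card {z : G // IsConj x z} : ℚ) + (Nat.card {z : G // IsConj y z} : ℚ)
      ≤ (Nat.card {z : G // IsConj (f x) (f z)} : ℚ) := by exact_mod_cast h3
  rw [e1, e2, e3, ← mul_add] at h4
  exact le_of_mul_le_mul_left h4 hG

end Cfsg.Agent.H668.DS
end

-- part: H668/DSn
section
/-!
# S4162, part 2: sums of reciprocals of smooth numbers (helper668)
-/

set_option autoImplicit false

namespace Cfsg.Agent.H668.DS

theorem geom_lt (q : ℚ) (hq : 1 < q) (M : ℕ) : ∑ i ∈ Finset.range M, (1 / q) ^ i < q / (q - 1) := by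
  have h0 : (0 : ℚ) < q := by linarith
  have h1 : (1 / q : ℚ) ≠ 1 := by
    intro h
    rw [div_eq_one_iff_eq h0.ne'] at h
    linarith
  rw [geom_sum_eq h1]
  have h2 : (0 : ℚ) < (1 / q) ^ M := by positivity
  have h3 : (1 / q : ℚ) - 1 < 0 := by
    rw [sub_neg, div_lt_one h0]
    exact hq
  rw [div_lt_iff_of_neg h3]
  have h4 : q / (q - 1) * (1 / q - 1) = -1 := by
    have : q - 1 ≠ 0 := by linarith
    field_simp
    ring
  rw [h4]
  linarith

theorem smooth_sum {C I J K : Finset ℕ}
    (hC : ∀ c ∈ C, ∃ i ∈ I, ∃ j ∈ J, ∃ k ∈ K, c = 2 ^ i * 3 ^ j * 5 ^ k) :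
    ∑ c ∈ C, (1 / (c : ℚ)) ≤ (∑ i ∈ I, (1 / 2 : ℚ) ^ i) * (∑ j ∈ J, (1 / 3 : ℚ) ^ j) * (∑ k ∈ K, (1 / 5 : ℚ) ^ k) := by
  classical
  have h1 : C ⊆ ((I ×ˢ J) ×ˢ K).image (fun t : (ℕ × ℕ) × ℕ => 2 ^ t.1.1 * 3 ^ t.1.2 * 5 ^ t.2) := by
    intro c hc
    obtain ⟨i, hi, j, hj, k, hk, rfl⟩ := hC c hc
    rw [Finset.mem_image]
    exact ⟨((i, j), k), by simp [hi, hj, hk], rfl⟩
  have h2 : ∑ c ∈ C, (1 / (c : ℚ)) ≤ ∑ t ∈ (I ×ˢ J) ×ˢ K, (1 / ((2 ^ t.1.1 * 3 ^ t.1.2 * 5 ^ t.2 : ℕ) : ℚ)) := by
    refine le_trans (Finset.sum_le_sum_of_subset_of_nonneg h1 (fun c _ _ => by positivity)) ?_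
    apply Finset.sum_image_le_of_nonneg
    intro t _
    positivity
  refine h2.trans (le_of_eq ?_)
  rw [Finset.sum_product, Finset.sum_product, Finset.sum_mul_sum, Finset.sum_mul]
  apply Finset.sum_congr rfl
  intro i _
  rw [Finset.sum_mul]
  apply Finset.sum_congr rfl
  intro j _
  rw [Finset.mul_sum]
  apply Finset.sum_congr rfl
  intro k _
  push_cast
  rw [one_div_pow, one_div_pow, one_div_pow, one_div_mul_one_div, one_div_mul_one_div]

theorem exists_bound (C : Finset ℕ) : ∃ M : ℕ, ∀ c ∈ C, ∀ i j k : ℕ, c = 2 ^ i * 3 ^ j * 5 ^ k → i < M ∧ j < M ∧ k < M := by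
  refine ⟨C.sup id + 1, fun c hc i j k h => ?_⟩
  have h1 : c ≤ C.sup id := Finset.le_sup (f := id) hc
  have h2 : i < 2 ^ i := Nat.lt_two_pow_self
  have h3 : j < 3 ^ j := Nat.lt_pow_self (by norm_num)
  have h4 : k < 5 ^ k := Nat.lt_pow_self (by norm_num)
  have h5 : 1 ≤ 2 ^ i := Nat.one_le_two_pow
  have h6 : 1 ≤ 3 ^ j := Nat.one_le_pow _ _ (by norm_num)
  have h7 : 1 ≤ 5 ^ k := Nat.one_le_pow _ _ (by norm_num)
  have h8 : 2 ^ i ≤ c := by
    rw [h]
    calc 2 ^ i = 2 ^ i * 1 * 1 := by ring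
      _ ≤ _ := Nat.mul_le_mul (Nat.mul_le_mul le_rfl h6) h7
  have h9 : 3 ^ j ≤ c := by
    rw [h]
    calc 3 ^ j = 1 * 3 ^ j * 1 := by ring
      _ ≤ _ := Nat.mul_le_mul (Nat.mul_le_mul h5 le_rfl) h7
  have h10 : 5 ^ k ≤ c := by
    rw [h]
    calc 5 ^ k = 1 * 1 * 5 ^ k := by ring
      _ ≤ _ := Nat.mul_le_mul (Nat.mul_le_mul h5 h6) le_rfl
  omega

theorem geom2 (M : ℕ) : ∑ i ∈ Finset.range M, (1 / 2 : ℚ) ^ i < 2 := by
  have := geom_lt 2 (by norm_num) M
  norm_num at this ⊢
  exact this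

theorem geom3 (M : ℕ) : ∑ i ∈ Finset.range M, (1 / 3 : ℚ) ^ i < 3 / 2 := by
  have := geom_lt 3 (by norm_num) M
  norm_num at this ⊢
  exact this

theorem geom5 (M : ℕ) : ∑ i ∈ (Finset.range M).erase 1, (1 / 5 : ℚ) ^ i ≤ 21 / 20 := by
  have h := geom_lt 5 (by norm_num) M
  by_cases h1 : 1 ∈ Finset.range M
  · have h2 := Finset.add_sum_erase (Finset.range M) (fun i => (1 / 5 : ℚ) ^ i) h1
    simp only [pow_one] at h2
    norm_num at h h2 ⊢
    linarith
  · rw [Finset.erase_eq_of_notMem h1]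
    rw [Finset.mem_range, not_lt] at h1
    interval_cases M
    · simp
      norm_num
    · simp
      norm_num

theorem sum_nonneg' (s : Finset ℕ) (q : ℚ) (hq : 0 ≤ q) : 0 ≤ ∑ i ∈ s, q ^ i :=
  Finset.sum_nonneg (fun i _ => by positivity)

/-- `{2,3,5}`-numbers with 5-part different from 5. -/
theorem bound5 (C X : Finset ℕ) (hC : ∀ c ∈ C, ∃ i j k : ℕ, k ≠ 1 ∧ c = 2 ^ i * 3 ^ j * 5 ^ k)
    (hX : ∀ c ∈ X, ∃ i j k : ℕ, k ≠ 1 ∧ c = 2 ^ i * 3 ^ j * 5 ^ k) (hd : Disjoint C X) :
    ∑ c ∈ C, (1 / (c : ℚ)) + ∑ c ∈ X, (1 / (c : ℚ)) < 63 / 20 := by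
  classical
  rw [← Finset.sum_union hd]
  obtain ⟨M, hM⟩ := exists_bound (C ∪ X)
  have h1 := smooth_sum (C := C ∪ X) (I := Finset.range (M + 1)) (J := Finset.range (M + 1)) (K := (Finset.range (M + 1)).erase 1)
    (by
      intro c hc
      obtain ⟨i, j, k, hk, h⟩ : ∃ i j k : ℕ, k ≠ 1 ∧ c = 2 ^ i * 3 ^ j * 5 ^ k := by
        rcases Finset.mem_union.1 hc with h | h
        · exact hC c h
        · exact hX c h
      obtain ⟨a1, a2, a3⟩ := hM c hc i j k h
      exact ⟨i, Finset.mem_range.2 (by omega), j, Finset.mem_range.2 (by omega), k,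
        Finset.mem_erase.2 ⟨hk, Finset.mem_range.2 (by omega)⟩, h⟩)
  refine lt_of_le_of_lt h1 ?_
  have g2 := geom2 (M + 1)
  have g3 := geom3 (M + 1)
  have g5 := geom5 (M + 1)
  have p2 := sum_nonneg' (Finset.range (M + 1)) (1 / 2) (by norm_num)
  have p3 : (0 : ℚ) < ∑ i ∈ Finset.range (M + 1), (1 / 3 : ℚ) ^ i :=
    Finset.sum_pos (fun i _ => by positivity) ⟨0, by simp⟩
  have p5 : (0 : ℚ) < ∑ i ∈ (Finset.range (M + 1)).erase 1, (1 / 5 : ℚ) ^ i :=
    Finset.sum_pos (fun i _ => by positivity) ⟨0, by simp⟩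
  calc _ < 2 * (3 / 2) * (∑ k ∈ (Finset.range (M + 1)).erase 1, (1 / 5 : ℚ) ^ k) := by
        apply mul_lt_mul_of_pos_right _ p5
        calc _ ≤ 2 * (∑ i ∈ Finset.range (M + 1), (1 / 3 : ℚ) ^ i) := mul_le_mul_of_nonneg_right g2.le p3.le
          _ < _ := by linarith
    _ ≤ _ := by linarith

/-- `{2,3}`-numbers. -/
theorem bound3 (C X : Finset ℕ) (hC : ∀ c ∈ C, ∃ i j : ℕ, c = 2 ^ i * 3 ^ j)
    (hX : ∀ c ∈ X, ∃ i j : ℕ, c = 2 ^ i * 3 ^ j) (hd : Disjoint C X) :
    ∑ c ∈ C, (1 / (c : ℚ)) + ∑ c ∈ X, (1 / (c : ℚ)) < 3 := by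
  classical
  rw [← Finset.sum_union hd]
  obtain ⟨M, hM⟩ := exists_bound (C ∪ X)
  have h1 := smooth_sum (C := C ∪ X) (I := Finset.range (M + 1)) (J := Finset.range (M + 1)) (K := {0})
    (by
      intro c hc
      obtain ⟨i, j, h⟩ : ∃ i j : ℕ, c = 2 ^ i * 3 ^ j := by
        rcases Finset.mem_union.1 hc with h | h
        · exact hC c h
        · exact hX c h
      have h' : c = 2 ^ i * 3 ^ j * 5 ^ 0 := by rw [h]; ring
      obtain ⟨a1, a2, a3⟩ := hM c hc i j 0 h'
      exact ⟨i, Finset.mem_range.2 (by omega), j, Finset.mem_range.2 (by omega), 0, by simp, h'⟩)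
  refine lt_of_le_of_lt h1 ?_
  have g2 := geom2 (M + 1)
  have g3 := geom3 (M + 1)
  have p3 : (0 : ℚ) < ∑ i ∈ Finset.range (M + 1), (1 / 3 : ℚ) ^ i :=
    Finset.sum_pos (fun i _ => by positivity) ⟨0, by simp⟩
  simp only [Finset.sum_singleton, pow_zero, mul_one]
  calc _ ≤ 2 * (∑ i ∈ Finset.range (M + 1), (1 / 3 : ℚ) ^ i) := mul_le_mul_of_nonneg_right g2.le p3.le
    _ < _ := by linarith

/-- `{2,3}`-numbers not divisible by 16. -/
theorem bound3' (C X : Finset ℕ) (hC : ∀ c ∈ C, ∃ i j : ℕ, i < 4 ∧ c = 2 ^ i * 3 ^ j)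
    (hX : ∀ c ∈ X, ∃ i j : ℕ, i < 4 ∧ c = 2 ^ i * 3 ^ j) (hd : Disjoint C X) :
    ∑ c ∈ C, (1 / (c : ℚ)) + ∑ c ∈ X, (1 / (c : ℚ)) < 45 / 16 := by
  classical
  rw [← Finset.sum_union hd]
  obtain ⟨M, hM⟩ := exists_bound (C ∪ X)
  have h1 := smooth_sum (C := C ∪ X) (I := Finset.range 4) (J := Finset.range (M + 1)) (K := {0})
    (by
      intro c hc
      obtain ⟨i, j, hi, h⟩ : ∃ i j : ℕ, i < 4 ∧ c = 2 ^ i * 3 ^ j := by
        rcases Finset.mem_union.1 hc with h | h
        · exact hC c h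
        · exact hX c h
      have h' : c = 2 ^ i * 3 ^ j * 5 ^ 0 := by rw [h]; ring
      obtain ⟨a1, a2, a3⟩ := hM c hc i j 0 h'
      exact ⟨i, Finset.mem_range.2 hi, j, Finset.mem_range.2 (by omega), 0, by simp, h'⟩)
  refine lt_of_le_of_lt h1 ?_
  have g2 : ∑ i ∈ Finset.range 4, (1 / 2 : ℚ) ^ i = 15 / 8 := by
    simp [Finset.sum_range_succ]
    norm_num
  have g3 := geom3 (M + 1)
  rw [g2]
  simp only [Finset.sum_singleton, pow_zero, mul_one]
  linarith

/-- `{2,5}`-numbers with 5-part different from 5. -/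
theorem bound25 (C X : Finset ℕ) (hC : ∀ c ∈ C, ∃ i k : ℕ, k ≠ 1 ∧ c = 2 ^ i * 5 ^ k)
    (hX : ∀ c ∈ X, ∃ i k : ℕ, k ≠ 1 ∧ c = 2 ^ i * 5 ^ k) (hd : Disjoint C X) :
    ∑ c ∈ C, (1 / (c : ℚ)) + ∑ c ∈ X, (1 / (c : ℚ)) < 21 / 10 := by
  classical
  rw [← Finset.sum_union hd]
  obtain ⟨M, hM⟩ := exists_bound (C ∪ X)
  have h1 := smooth_sum (C := C ∪ X) (I := Finset.range (M + 1)) (J := {0}) (K := (Finset.range (M + 1)).erase 1)
    (by
      intro c hc
      obtain ⟨i, k, hk, h⟩ : ∃ i k : ℕ, k ≠ 1 ∧ c = 2 ^ i * 5 ^ k := by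
        rcases Finset.mem_union.1 hc with h | h
        · exact hC c h
        · exact hX c h
      have h' : c = 2 ^ i * 3 ^ 0 * 5 ^ k := by rw [h]; ring
      obtain ⟨a1, a2, a3⟩ := hM c hc i 0 k h'
      exact ⟨i, Finset.mem_range.2 (by omega), 0, by simp, k,
        Finset.mem_erase.2 ⟨hk, Finset.mem_range.2 (by omega)⟩, h'⟩)
  refine lt_of_le_of_lt h1 ?_
  have g2 := geom2 (M + 1)
  have g5 := geom5 (M + 1)
  have p5 : (0 : ℚ) < ∑ i ∈ (Finset.range (M + 1)).erase 1, (1 / 5 : ℚ) ^ i :=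
    Finset.sum_pos (fun i _ => by positivity) ⟨0, by simp⟩
  simp only [Finset.sum_singleton, pow_zero, mul_one]
  calc _ < 2 * (∑ k ∈ (Finset.range (M + 1)).erase 1, (1 / 5 : ℚ) ^ k) := mul_lt_mul_of_pos_right g2 p5
    _ ≤ _ := by linarith

end Cfsg.Agent.H668.DS
end

-- part: H668/DSend
section
/-!
# S4162, the end game (helper668)

* `s3_of_six` : a non-commutative group of order 6 (helper341's proof);
* `two_case` : a self-centralizing involution in a group with distinct class sizes;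
* `end_game` : the numerical end of the proof.
-/

set_option autoImplicit false

open Subgroup Cfsg.Agent.AH

namespace Cfsg.Agent.H668.DSend

/-- A non-commutative group of order 6 (copied from helper341's `SelfThree`). -/
theorem s3_of_six {Q : Type*} [Group Q] [Finite Q] (h6 : Nat.card Q = 6) (hne : ¬ ∀ a b : Q, a * b = b * a) :
    Nonempty (Q ≃* Equiv.Perm (Fin 3)) := by
  classical
  have : Fact (Nat.Prime 2) := ⟨Nat.prime_two⟩
  have : Fact (Nat.Prime 3) := ⟨Nat.prime_three⟩
  obtain ⟨s, hs⟩ := exists_prime_orderOf_dvd_card' (G := Q) 2 (by rw [h6]; norm_num)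
  obtain ⟨x, hx⟩ := exists_prime_orderOf_dvd_card' (G := Q) 3 (by rw [h6]; norm_num)
  have hH : Nat.card (zpowers s) = 2 := by rw [Nat.card_zpowers, hs]
  have hind : (zpowers s).index = 3 := by
    have := (zpowers s).card_mul_index
    rw [hH, h6] at this
    omega
  let φ : Q →* Equiv.Perm (Q ⧸ zpowers s) := MulAction.toPermHom Q (Q ⧸ zpowers s)
  have hinj : Function.Injective φ := by
    rw [← MonoidHom.ker_eq_bot_iff, ← normalCore_eq_ker]
    have hle := normalCore_le (zpowers s)
    have hdvd : Nat.card (zpowers s).normalCore ∣ 2 := by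
      rw [← hH]
      exact card_dvd_of_le hle
    rcases (Nat.dvd_prime Nat.prime_two).1 hdvd with h1 | h1
    · exact card_eq_one.1 h1
    · exfalso
      have h2 : (zpowers s).normalCore = zpowers s := eq_of_le_of_card_ge hle (by rw [h1, hH])
      have hn : (zpowers s).Normal := by rw [← h2]; exact normalCore_normal _
      -- `s` is central
      have hsc : ∀ g : Q, g * s = s * g := by
        intro g
        have h3 := hn.conj_mem s (mem_zpowers s) g
        obtain ⟨k, hk⟩ := h3
        have hk' : s ^ k = g * s * g⁻¹ := hk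
        have hs2 : s ^ (2 : ℤ) = 1 := by
          have := pow_orderOf_eq_one s
          rw [hs] at this
          exact_mod_cast this
        rcases Int.even_or_odd' k with ⟨m, rfl | rfl⟩
        · exfalso
          rw [zpow_mul, hs2, one_zpow] at hk'
          have : s = 1 := by
            have := congrArg (fun y => g⁻¹ * y * g) hk'.symm
            simpa [mul_assoc] using this
          rw [this, orderOf_one] at hs
          omega
        · rw [zpow_add, zpow_mul, hs2, one_zpow, one_mul, zpow_one] at hk'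
          calc g * s = g * s * g⁻¹ * g := by group
            _ = s * g := by rw [← hk']
      apply hne
      -- `s x` has order 6
      have ho : orderOf (s * x) = 6 := by
        have hc : Commute s x := (hsc x).symm
        rw [hc.orderOf_mul_eq_mul_orderOf_of_coprime (by rw [hs, hx]; norm_num), hs, hx]
      have hcyc : ∀ y : Q, y ∈ zpowers (s * x) := by
        intro y
        have h3 : zpowers (s * x) = ⊤ := by
          apply eq_top_of_card_eq
          rw [Nat.card_zpowers, ho, h6]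
        rw [h3]; exact mem_top y
      intro a b
      obtain ⟨i, hi⟩ := hcyc a
      obtain ⟨j, hj⟩ := hcyc b
      have hi' : (s * x) ^ i = a := hi
      have hj' : (s * x) ^ j = b := hj
      rw [← hi', ← hj', ← zpow_add, ← zpow_add, add_comm]
  have hcard : Nat.card (Q ⧸ zpowers s) = 3 := hind
  let e : (Q ⧸ zpowers s) ≃ Fin 3 := Finite.equivFinOfCardEq hcard
  let ψ : Q →* Equiv.Perm (Fin 3) := (e.permCongrHom : Equiv.Perm (Q ⧸ zpowers s) →* Equiv.Perm (Fin 3)).comp φ
  have hψ : Function.Injective ψ := e.permCongrHom.injective.comp hinj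
  have hb : Function.Bijective ψ := by
    rw [Nat.bijective_iff_injective_and_card]
    refine ⟨hψ, ?_⟩
    rw [h6, Nat.card_eq_fintype_card, Fintype.card_perm, Fintype.card_fin]
    rfl
  exact ⟨MulEquiv.ofBijective ψ hb⟩


theorem cent_one {G : Type*} [Group G] : cent (1 : G) = Nat.card G := by
  unfold cent
  have : Subgroup.centralizer ({1} : Set G) = ⊤ := by
    rw [eq_top_iff]
    intro g _
    rw [mem_centralizer_singleton_iff, mul_one, one_mul]
  rw [this, Subgroup.card_top]

theorem nontriv_cent {G : Type*} [Group G] [Finite G] [Nontrivial G] (x : G) : cent x ≠ 1 := by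
  intro h
  have h1 : Subgroup.centralizer ({x} : Set G) = ⊥ := Subgroup.eq_bot_of_card_eq _ h
  have h2 : x ∈ Subgroup.centralizer ({x} : Set G) := by
    rw [mem_centralizer_singleton_iff]
  rw [h1, Subgroup.mem_bot] at h2
  rw [h2, cent_one] at h
  have := Finite.one_lt_card (α := G)
  omega

/-- A self-centralizing involution. -/
theorem two_case {G : Type*} [Group G] [Finite G] (hAH : IsAH G) (x : G) (hx : cent x = 2) :
    Nonempty (G ≃* Equiv.Perm (Fin 3)) := by
  classical
  have hf2 : Fact (Nat.Prime 2) := ⟨Nat.prime_two⟩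
  have hxC : x ∈ Subgroup.centralizer ({x} : Set G) := by
    rw [mem_centralizer_singleton_iff]
  -- `x ≠ 1`
  have hx1 : x ≠ 1 := by
    rintro rfl
    have h1 : Nat.card G = 2 := by rw [← cent_one, hx]
    obtain ⟨y, hy⟩ := exists_prime_orderOf_dvd_card' (G := G) 2 (by rw [h1])
    have h2 : cent y = 2 := by
      unfold cent
      have : Subgroup.centralizer ({y} : Set G) = ⊤ := by
        have hz : zpowers y = ⊤ := by
          apply eq_top_of_card_eq
          rw [Nat.card_zpowers, hy, h1]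
        rw [eq_top_iff, ← hz, zpowers_le, mem_centralizer_singleton_iff]
      rw [this, card_top, h1]
    have h3 := isConj_of_cent_eq hAH (hx.trans h2.symm)
    rw [isConj_comm, isConj_one_left] at h3
    rw [h3, orderOf_one] at hy
    omega
  have hxx : x * x = 1 := by
    have h1 : (⟨x, hxC⟩ : Subgroup.centralizer ({x} : Set G)) ^ 2 = 1 := by
      have := pow_card_eq_one' (x := (⟨x, hxC⟩ : Subgroup.centralizer ({x} : Set G)))
      have h2 : Nat.card (Subgroup.centralizer ({x} : Set G)) = 2 := hx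
      rwa [h2] at this
    have h2 := congrArg Subtype.val h1
    simpa [pow_two] using h2
  have hxo : orderOf x = 2 := orderOf_eq_prime (by rw [pow_two, hxx]) hx1
  have hCz : Subgroup.centralizer ({x} : Set G) = zpowers x := by
    symm
    apply eq_of_le_of_card_ge
    · rw [zpowers_le]; exact hxC
    · rw [Nat.card_zpowers, hxo]; exact hx.le
  have hCm : ∀ g : G, g * x = x * g → g = 1 ∨ g = x := by
    intro g hg
    have h1 : g ∈ zpowers x := by
      rw [← hCz, mem_centralizer_singleton_iff]; exact hg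
    obtain ⟨k, hk⟩ := h1
    have hk' : x ^ k = g := hk
    have hx2 : x ^ (2 : ℤ) = 1 := by rw [zpow_two, hxx]
    rcases Int.even_or_odd' k with ⟨m, rfl | rfl⟩
    · left; rw [← hk', zpow_mul, hx2, one_zpow]
    · right; rw [← hk', zpow_add, zpow_mul, hx2, one_zpow, one_mul, zpow_one]
  -- the Sylow 2-subgroup
  have hp : IsPGroup 2 (zpowers x) := IsPGroup.of_card (n := 1) (by rw [Nat.card_zpowers, hxo, pow_one])
  obtain ⟨P, hP⟩ := hp.exists_le_sylow
  have hxP : x ∈ (P : Subgroup G) := hP (mem_zpowers x)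
  have hPe : (P : Subgroup G) = zpowers x := by
    have hPn : Nontrivial P := ⟨⟨⟨x, hxP⟩, 1, fun h => hx1 (congrArg Subtype.val h)⟩⟩
    have hZ : Nontrivial (Subgroup.center P) := P.2.center_nontrivial
    obtain ⟨⟨z, hzZ⟩, hz1⟩ := exists_ne (1 : Subgroup.center P)
    have hz2 : (z : G) = x := by
      rcases hCm z (by
        have := congrArg Subtype.val (mem_center_iff.1 hzZ ⟨x, hxP⟩)
        exact this.symm) with h | h
      · exfalso
        apply hz1
        ext
        exact h
      · exact h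
    refine le_antisymm ?_ hP
    intro g hg
    rw [← hCz, mem_centralizer_singleton_iff, ← hz2]
    exact congrArg Subtype.val (mem_center_iff.1 hzZ ⟨g, hg⟩)
  have hN : normalizer (P : Subgroup G) ≤ Subgroup.centralizer (P : Set G) := by
    intro g hg
    rw [mem_centralizer_iff]
    intro h hh
    have hh' : h ∈ (P : Subgroup G) := hh
    have hgx : g * x * g⁻¹ = x := by
      have h1 : g * x * g⁻¹ ∈ (P : Subgroup G) := ((mem_normalizer_iff.1 hg) x).1 hxP
      rw [hPe, ← hCz, mem_centralizer_singleton_iff] at h1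
      rcases hCm _ h1 with h2 | h2
      · exfalso
        apply hx1
        have := congrArg (fun y => g⁻¹ * y * g) h2
        simpa [mul_assoc] using this
      · exact h2
    have hgx' : g * x = x * g := by
      calc g * x = g * x * g⁻¹ * g := by group
        _ = _ := by rw [hgx]
    rw [hPe, ← hCz, mem_centralizer_singleton_iff] at hh'
    rcases hCm h hh' with h2 | h2
    · rw [h2]; group
    · rw [h2]; exact hgx'.symm
  have hcomp := MonoidHom.ker_transferSylow_isComplement' P hN
  set K : Subgroup G := (MonoidHom.transferSylow P hN).ker with hK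
  have hKn : K.Normal := MonoidHom.normal_ker _
  have hKi : K.index = 2 := by
    have h1 : Nat.card (P : Subgroup G) = 2 := by rw [hPe, Nat.card_zpowers, hxo]
    rw [← h1]
    exact hcomp.symm.index_eq_card
  have hKodd : ¬ 2 ∣ Nat.card K := MonoidHom.not_dvd_card_ker_transferSylow P hN
  have hcG : Nat.card G = 2 * Nat.card K := by rw [← K.card_mul_index, hKi, mul_comm]
  have hxK : x ∉ K := by
    intro h
    apply hKodd
    rw [← hxo]
    exact Subgroup.orderOf_dvd_natCard K h
  -- the elements outside `K` are the conjugates of `x`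
  have hout : ∀ g : G, g ∉ K → IsConj x g := by
    have hS : ({y : G | IsConj x y} : Set G) = (K : Set G)ᶜ := by
      apply Set.eq_of_subset_of_ncard_le
      · intro y hy hyK
        obtain ⟨c, hc⟩ := isConj_iff.1 (show IsConj x y from hy)
        apply hxK
        have := hKn.conj_mem y hyK c⁻¹
        rw [← hc] at this
        simpa [mul_assoc] using this
      · have h1 := DS.card_conj_mul_cc x
        have h2 : DS.cc x = 2 := hx
        rw [h2] at h1
        have h3 := Set.ncard_add_ncard_compl (K : Set G)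
        have h4 : (K : Set G).ncard = Nat.card K := rfl
        have h5 : ({y : G | IsConj x y} : Set G).ncard = Nat.card {y : G // IsConj x y} := rfl
        omega
      · exact Set.toFinite _
    intro g hg
    have : g ∈ ({y : G | IsConj x y} : Set G) := by rw [hS]; exact hg
    exact this
  have hinv : ∀ g : G, g ∉ K → g * g = 1 := by
    intro g hg
    obtain ⟨c, hc⟩ := isConj_iff.1 (hout g hg)
    rw [← hc]
    calc c * x * c⁻¹ * (c * x * c⁻¹) = c * (x * x) * c⁻¹ := by group
      _ = 1 := by rw [hxx]; group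
  have hmul : ∀ g k : G, g ∉ K → k ∈ K → g * k ∉ K := by
    intro g k hg hk h
    exact hg ((K.mul_mem_cancel_right hk).1 h)
  have hact : ∀ g k : G, g ∉ K → k ∈ K → g * k * g = k⁻¹ := by
    intro g k hg hk
    have h1 := hinv _ (hmul g k hg hk)
    rw [eq_inv_iff_mul_eq_one, ← h1]
    group
  have hKc : ∀ a ∈ K, ∀ b ∈ K, a * b = b * a := by
    intro a ha b hb
    have h1 := hact x a hxK ha
    have h2 := hact x b hxK hb
    have h3 := hact x (a * b) hxK (K.mul_mem ha hb)
    have h4 : x * (a * b) * x = (x * a * x) * (x * b * x) := by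
      calc x * (a * b) * x = x * a * 1 * b * x := by group
        _ = x * a * (x * x) * b * x := by rw [hxx]
        _ = _ := by group
    rw [h4, h1, h2, mul_inv_rev] at h3
    have h5 := congrArg (fun y => y⁻¹) h3
    simpa using h5.symm
  have hcK : ∀ k ∈ K, k ≠ 1 → cent k = Nat.card K := by
    intro k hk hk1
    have : Subgroup.centralizer ({k} : Set G) = K := by
      apply le_antisymm
      · intro g hg
        rw [mem_centralizer_singleton_iff] at hg
        by_contra hgK
        have h1 := hact g k hgK hk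
        rw [hg, mul_assoc, hinv g hgK, mul_one] at h1
        apply hKodd
        have h2 : orderOf k = 2 := by
          apply orderOf_eq_prime _ hk1
          rw [pow_two]
          nth_rewrite 1 [h1]
          exact inv_mul_cancel k
        rw [← h2]
        exact Subgroup.orderOf_dvd_natCard K hk
      · intro g hg
        rw [mem_centralizer_singleton_iff]
        exact hKc g hg k hk
    unfold cent
    rw [this]
  have hK1 : Nat.card K ≠ 1 := by
    intro h
    have h1 : cent (1 : G) = cent x := by rw [cent_one, hcG, h, hx]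
    have h3 := isConj_of_cent_eq hAH h1
    rw [isConj_comm, isConj_one_left] at h3
    exact hx1 h3
  have hK3 : Nat.card K ≤ 3 := by
    have hKb : K ≠ ⊥ := by
      rintro h
      apply hK1
      rw [h, card_bot]
    obtain ⟨k, hk, hk1⟩ := K.bot_or_exists_ne_one.resolve_left hKb
    have h1 := DS.card_conj_mul_cc k
    have h2 : DS.cc k = Nat.card K := hcK k hk hk1
    rw [h2, hcG] at h1
    have h3 : Nat.card {y : G // IsConj k y} = 2 := Nat.eq_of_mul_eq_mul_right Nat.card_pos h1
    have h4 : (K : Set G) ⊆ insert 1 {y : G | IsConj k y} := by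
      intro y hy
      rw [Set.mem_insert_iff]
      by_cases hy1 : y = 1
      · left; exact hy1
      · right
        exact isConj_of_cent_eq hAH ((hcK k hk hk1).trans (hcK y hy hy1).symm)
    have h5 := Set.ncard_le_ncard h4 (Set.toFinite _)
    have h6 := Set.ncard_insert_le (1 : G) {y : G | IsConj k y}
    have h7 : (K : Set G).ncard = Nat.card K := rfl
    have h8 : ({y : G | IsConj k y} : Set G).ncard = Nat.card {y : G // IsConj k y} := rfl
    omega
  have hKe : Nat.card K = 3 := by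
    have : 0 < Nat.card K := Nat.card_pos
    omega
  apply s3_of_six (by rw [hcG, hKe])
  intro hcomm
  have h1 : cent x = Nat.card G := by
    unfold cent
    have : Subgroup.centralizer ({x} : Set G) = ⊤ := by
      rw [eq_top_iff]
      intro g _
      rw [mem_centralizer_singleton_iff]
      exact hcomm g x
    rw [this, card_top]
  rw [hx, hcG, hKe] at h1
  omega

/-- Numbers with prime divisors at most 5. -/
theorem smooth {n : ℕ} (hn : n ≠ 0) (h : ∀ q, q.Prime → q ∣ n → q ≤ 5) :
    n = 2 ^ n.factorization 2 * 3 ^ n.factorization 3 * 5 ^ n.factorization 5 := by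
  conv_lhs => rw [← Nat.prod_factorization_pow_eq_self hn]
  rw [Finsupp.prod_of_support_subset (s := {2, 3, 5})]
  · rw [Finset.prod_insert (by decide), Finset.prod_insert (by decide), Finset.prod_singleton]
    ring
  · intro q hq
    rw [Nat.support_factorization, Nat.mem_primeFactors] at hq
    have h1 := h q hq.1 hq.2.1
    have h2 := hq.1.two_le
    interval_cases q
    · simp
    · simp
    · exfalso
      exact absurd hq.1 (by decide)
    · simp
  · intro i _
    exact pow_zero i

/-- Small divisor sums. -/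
theorem small_sum : ∀ n : ℕ, n < 15 → 0 < n → ∑ d ∈ (n.divisors.filter (fun d : ℕ => 3 ≤ d) : Finset ℕ), (1 / ((d : ℕ) : ℚ)) < 1 := by
  intro n hn h0
  interval_cases n <;> decide +kernel

theorem end_game {G : Type*} [Group G] [Finite G] [Nontrivial G] (hAH : IsAH G)
    (hpr : ∀ q, q.Prime → q ∣ Nat.card G → q ≤ 5)
    (h25 : ∀ x : G, 5 ∣ cent x → 25 ∣ cent x)
    (h125 : ∀ x : G, 25 ∣ cent x → ¬ 125 ∣ cent x → 3 ∣ cent x)
    (h4 : 5 ∣ Nat.card G → ∀ x : G, cent x ≠ 4)
    (h16 : ∀ x : G, cent x = 4 → ¬ 16 ∣ Nat.card G)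
    (h3 : ∀ x : G, cent x = 3 → ∀ g : G, 3 ∣ cent g → g = 1 ∨ IsConj g x) :
    Nonempty (G ≃* Equiv.Perm (Fin 3)) := by
  classical
  by_cases hex2 : ∃ x : G, cent x = 2
  · obtain ⟨x, hx⟩ := hex2
    exact two_case hAH x hx
  exfalso
  push Not at hex2
  have hft : Fintype G := Fintype.ofFinite G
  have hD : DS.Dist G := DS.dist_of_inj hAH
  set C : Finset ℕ := Finset.univ.image (fun x : G => cent x) with hC
  have hsum : ∑ d ∈ C, (1 / (d : ℚ)) = 1 := by
    have h1 := DS.sum_inv_cc hD
    have h2 : Finset.univ.image (fun x : G => DS.cc x) = C := by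
      rw [hC]
      rfl
    rw [h2] at h1
    exact h1
  have hmem : ∀ c ∈ C, ∃ x : G, cent x = c := by
    intro c hc
    obtain ⟨x, -, hx⟩ := Finset.mem_image.1 hc
    exact ⟨x, hx⟩
  -- the shape of the elements of `C`
  have hpos : ∀ c ∈ C, 0 < c := by
    intro c hc
    obtain ⟨x, rfl⟩ := hmem c hc
    exact cent_pos x
  have hge3 : ∀ c ∈ C, 3 ≤ c := by
    intro c hc
    have h0 := hpos c hc
    obtain ⟨x, rfl⟩ := hmem c hc
    have h1 := nontriv_cent x
    have h2 := hex2 x
    omega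
  have hsm : ∀ c ∈ C, c = 2 ^ c.factorization 2 * 3 ^ c.factorization 3 * 5 ^ c.factorization 5 := by
    intro c hc
    have h0 := hpos c hc
    obtain ⟨x, rfl⟩ := hmem c hc
    apply smooth h0.ne'
    intro q hq hqd
    exact hpr q hq (hqd.trans (cent_dvd x))
  have hk1 : ∀ c ∈ C, c.factorization 5 ≠ 1 := by
    intro c hc h1
    have h0 := hpos c hc
    obtain ⟨x, rfl⟩ := hmem c hc
    have h2 : 5 ∣ cent x := by
      rw [Nat.Prime.dvd_iff_one_le_factorization (by norm_num) h0.ne', h1]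
    have h3 := h25 x h2
    have h4 : 5 ^ 2 ∣ cent x := h3
    rw [Nat.Prime.pow_dvd_iff_le_factorization (by norm_num) h0.ne', h1] at h4
    omega
  by_cases hex3 : ∃ x : G, cent x = 3
  · obtain ⟨x, hx⟩ := hex3
    by_cases hn : Nat.card G < 15
    · -- small orders
      have h1 := small_sum (Nat.card G) hn Nat.card_pos
      have h2 : C ⊆ (Nat.card G).divisors.filter (fun d : ℕ => 3 ≤ d) := by
        intro c hc
        rw [Finset.mem_filter, Nat.mem_divisors]
        refine ⟨⟨?_, Nat.card_pos.ne'⟩, hge3 c hc⟩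
        obtain ⟨y, rfl⟩ := hmem c hc
        exact cent_dvd y
      have h5 := Finset.sum_le_sum_of_subset_of_nonneg (f := fun d : ℕ => (1 / (d : ℚ))) h2
        (fun d _ _ => by positivity)
      rw [hsum] at h5
      linarith
    · push Not at hn
      -- `C = {|G|, 3} ∪ C'`
      set C' : Finset ℕ := C.filter (fun c => ¬ 3 ∣ c) with hC'
      have h1 : C ⊆ {Nat.card G, 3} ∪ C' := by
        intro c hc
        rw [Finset.mem_union, hC', Finset.mem_filter]
        by_cases h3c : 3 ∣ c
        · left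
          obtain ⟨y, rfl⟩ := hmem c hc
          rw [Finset.mem_insert, Finset.mem_singleton]
          rcases h3 x hx y h3c with h | h
          · left; rw [h, cent_one]
          · right; rw [cent_conj_eq h, hx]
        · exact Or.inr ⟨hc, h3c⟩
      have h2 := Finset.sum_le_sum_of_subset_of_nonneg (f := fun d : ℕ => (1 / (d : ℚ))) h1
        (fun d _ _ => by positivity)
      have h5 : ∑ d ∈ {Nat.card G, 3} ∪ C', (1 / (d : ℚ)) ≤
          ∑ d ∈ ({Nat.card G, 3} : Finset ℕ), (1 / (d : ℚ)) + ∑ d ∈ C', (1 / (d : ℚ)) := by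
        rw [← Finset.sum_union_inter (s₁ := ({Nat.card G, 3} : Finset ℕ)) (s₂ := C')]
        have : 0 ≤ ∑ d ∈ ({Nat.card G, 3} : Finset ℕ) ∩ C', (1 / (d : ℚ)) :=
          Finset.sum_nonneg (fun d _ => by positivity)
        linarith
      have h6 : ∑ d ∈ ({Nat.card G, 3} : Finset ℕ), (1 / (d : ℚ)) ≤ 1 / 15 + 1 / 3 := by
        rw [Finset.sum_pair (by omega)]
        have h7 : (15 : ℚ) ≤ (Nat.card G : ℚ) := by exact_mod_cast hn
        have h8 : (1 : ℚ) / (Nat.card G : ℚ) ≤ 1 / 15 := by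
          apply one_div_le_one_div_of_le (by norm_num) h7
        push_cast
        linarith
      have h7 := DS.bound25 C' {1, 2} (by
          intro c hc
          rw [hC', Finset.mem_filter] at hc
          refine ⟨c.factorization 2, c.factorization 5, hk1 c hc.1, ?_⟩
          have h8 := hsm c hc.1
          rw [Nat.factorization_eq_zero_of_not_dvd hc.2, pow_zero, mul_one] at h8
          exact h8) (by
          intro c hc
          rw [Finset.mem_insert, Finset.mem_singleton] at hc
          rcases hc with rfl | rfl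
          · exact ⟨0, 0, by norm_num, by norm_num⟩
          · exact ⟨1, 0, by norm_num, by norm_num⟩) (by
          rw [Finset.disjoint_left]
          intro c hc hc2
          rw [hC', Finset.mem_filter] at hc
          have h8 := hge3 c hc.1
          rw [Finset.mem_insert, Finset.mem_singleton] at hc2
          omega)
      rw [Finset.sum_pair (by norm_num)] at h7
      rw [hsum] at h2
      norm_num at h2 h5 h6 h7
      linarith
  · push Not at hex3
    by_cases hex4 : ∃ x : G, cent x = 4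
    · obtain ⟨x, hx⟩ := hex4
      have hn5 : ¬ 5 ∣ Nat.card G := fun h => h4 h x hx
      have hn16 := h16 x hx
      have h7 := DS.bound3' C {1, 2, 3} (by
          intro c hc
          have h8 := hsm c hc
          have h0 := hpos c hc
          obtain ⟨y, rfl⟩ := hmem c hc
          refine ⟨(cent y).factorization 2, (cent y).factorization 3, ?_, ?_⟩
          · by_contra h9
            push Not at h9
            apply hn16
            have h10 : 2 ^ 4 ∣ cent y := by
              rw [Nat.Prime.pow_dvd_iff_le_factorization (by norm_num) h0.ne']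
              exact h9
            exact h10.trans (cent_dvd y)
          · have h10 : ¬ 5 ∣ cent y := fun h => hn5 (h.trans (cent_dvd y))
            rw [Nat.factorization_eq_zero_of_not_dvd h10, pow_zero, mul_one] at h8
            exact h8) (by
          intro c hc
          simp only [Finset.mem_insert, Finset.mem_singleton] at hc
          rcases hc with rfl | rfl | rfl
          · exact ⟨0, 0, by norm_num, by norm_num⟩
          · exact ⟨1, 0, by norm_num, by norm_num⟩
          · exact ⟨0, 1, by norm_num, by norm_num⟩) (by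
          rw [Finset.disjoint_left]
          intro c hc hc2
          have h8 := hge3 c hc
          simp only [Finset.mem_insert, Finset.mem_singleton] at hc2
          obtain ⟨y, hy⟩ := hmem c hc
          have h9 := hex3 y
          omega)
      rw [hsum, Finset.sum_insert (by decide), Finset.sum_pair (by norm_num)] at h7
      norm_num at h7
    · push Not at hex4
      have h7 := DS.bound5 C {1, 2, 3, 4, 25, 50, 100} (by
          intro c hc
          exact ⟨c.factorization 2, c.factorization 3, c.factorization 5, hk1 c hc, hsm c hc⟩) (by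
          intro c hc
          simp only [Finset.mem_insert, Finset.mem_singleton] at hc
          rcases hc with rfl | rfl | rfl | rfl | rfl | rfl | rfl
          · exact ⟨0, 0, 0, by norm_num, by norm_num⟩
          · exact ⟨1, 0, 0, by norm_num, by norm_num⟩
          · exact ⟨0, 1, 0, by norm_num, by norm_num⟩
          · exact ⟨2, 0, 0, by norm_num, by norm_num⟩
          · exact ⟨0, 0, 2, by norm_num, by norm_num⟩
          · exact ⟨1, 0, 2, by norm_num, by norm_num⟩
          · exact ⟨2, 0, 2, by norm_num, by norm_num⟩) (by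
          rw [Finset.disjoint_left]
          intro c hc hc2
          have h8 := hge3 c hc
          simp only [Finset.mem_insert, Finset.mem_singleton] at hc2
          obtain ⟨y, hy⟩ := hmem c hc
          have h9 := hex3 y
          have h10 := hex4 y
          have h11 := h125 y
          rw [hy] at h9 h10 h11
          rcases hc2 with rfl | rfl | rfl | rfl | rfl | rfl | rfl
          · omega
          · omega
          · omega
          · omega
          · exact absurd (h11 (by decide) (by decide)) (by decide)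
          · exact absurd (h11 (by decide) (by decide)) (by decide)
          · exact absurd (h11 (by decide) (by decide)) (by decide))
      rw [hsum, Finset.sum_insert (by decide), Finset.sum_insert (by decide), Finset.sum_insert (by decide),
        Finset.sum_insert (by decide), Finset.sum_insert (by decide), Finset.sum_pair (by norm_num)] at h7
      norm_num at h7

end Cfsg.Agent.H668.DSend
end

-- part: H515/AhNorm
section
/-!
Pieces for S4162: in a finite solvable real group the Sylow 2-subgroups are self-normalizing.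
-/

set_option autoImplicit false

universe u

open scoped commutatorElement

namespace Cfsg.Agent.H515.Ah

open Subgroup

/-- A nontrivial finite solvable group has a nontrivial normal elementary abelian subgroup. -/
theorem exists_normal_elab (G : Type*) [Group G] [Finite G] [Nontrivial G]
    (hs : Group.IsSolvable G) :
    ∃ (r : ℕ) (N : Subgroup G), r.Prime ∧ N.Normal ∧ N ≠ ⊥ ∧ (∀ a ∈ N, ∀ b ∈ N, a * b = b * a) ∧
      ∀ a ∈ N, a ^ r = 1 := by
  classical
  obtain ⟨n, hn⟩ := (Group.isSolvable_def G).mp hs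
  -- last nontrivial term
  have hex : ∃ k, derivedSeries G k ≠ ⊥ ∧ derivedSeries G (k + 1) = ⊥ := by
    have h0 : derivedSeries G 0 ≠ ⊥ := by
      rw [derivedSeries_zero]; exact top_ne_bot
    set m := Nat.find (⟨n, hn⟩ : ∃ n, derivedSeries G n = ⊥) with hm
    have hmspec : derivedSeries G m = ⊥ := Nat.find_spec (⟨n, hn⟩ : ∃ n, derivedSeries G n = ⊥)
    have hm0 : m ≠ 0 := by
      intro h; rw [h] at hmspec; exact h0 hmspec
    refine ⟨m - 1, ?_, ?_⟩
    · exact Nat.find_min (⟨n, hn⟩ : ∃ n, derivedSeries G n = ⊥) (by omega)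
    · have : m - 1 + 1 = m := by omega
      rw [this]; exact hmspec
  obtain ⟨k, hk1, hk2⟩ := hex
  set A := derivedSeries G k with hA
  have hAn : A.Normal := derivedSeries_normal G k
  have hAc : ∀ a ∈ A, ∀ b ∈ A, a * b = b * a := by
    intro a ha b hb
    have h1 : ⁅a, b⁆ ∈ derivedSeries G (k + 1) := by
      rw [derivedSeries_succ]
      exact Subgroup.commutator_mem_commutator ha hb
    rw [hk2, Subgroup.mem_bot] at h1
    exact commutatorElement_eq_one_iff_mul_comm.mp h1
  have hAcard : Nat.card A ≠ 1 := by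
    intro h
    exact hk1 (Subgroup.card_eq_one.mp h)
  obtain ⟨r, hr, hrd⟩ := Nat.exists_prime_and_dvd hAcard
  have : Fact r.Prime := ⟨hr⟩
  obtain ⟨x, hx⟩ := exists_prime_orderOf_dvd_card' (G := A) r hrd
  let N : Subgroup G :=
    { carrier := {a | a ∈ A ∧ a ^ r = 1}
      mul_mem' := by
        rintro a b ⟨ha, ha'⟩ ⟨hb, hb'⟩
        refine ⟨mul_mem ha hb, ?_⟩
        have : Commute a b := hAc a ha b hb
        rw [this.mul_pow, ha', hb', one_mul]
      one_mem' := ⟨one_mem _, one_pow _⟩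
      inv_mem' := by
        rintro a ⟨ha, ha'⟩
        exact ⟨inv_mem ha, by rw [inv_pow, ha', inv_one]⟩ }
  refine ⟨r, N, hr, ⟨?_⟩, ?_, ?_, ?_⟩
  · rintro a ⟨ha, ha'⟩ g
    exact ⟨hAn.conj_mem a ha g, by rw [conj_pow, ha', mul_one, mul_inv_cancel]⟩
  · intro h
    have h1 : (x : G) ∈ N := ⟨x.2, by rw [← hx, ← orderOf_coe, pow_orderOf_eq_one]⟩
    rw [h, Subgroup.mem_bot] at h1
    have h2 : x = 1 := by ext; exact h1
    rw [h2, orderOf_one] at hx
    exact hr.one_lt.ne hx
  · rintro a ⟨ha, _⟩ b ⟨hb, _⟩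
    exact hAc a ha b hb
  · rintro a ⟨_, ha⟩
    exact ha

/-- An element whose centralizer contains a Sylow 2-subgroup and is conjugate to its inverse satisfies
`n ^ 2 = 1`. -/
theorem sq_eq_one_of_real {G : Type*} [Group G] [Finite G] {n : G} (hn : IsConj n n⁻¹)
    (hodd : Odd (centralizer ({n} : Set G)).index) : n ^ 2 = 1 := by
  classical
  by_contra hne
  -- the conjugacy class of n has odd size, closed under inversion without fixed points
  have hcard : Nat.card (ConjClasses.mk n).carrier = (centralizer ({n} : Set G)).index := by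
    have h1 : (ConjClasses.mk n).carrier = MulAction.orbit (ConjAct G) n := by
      rw [ConjAct.orbit_eq_carrier_conjClasses]
    have h2 := MulAction.index_stabilizer (ConjAct G) n
    have h4 : (MulAction.stabilizer (ConjAct G) n).index =
        (Subgroup.centralizer ({n} : Set G)).index := by
      rw [Subgroup.centralizer_eq_comap_stabilizer]
      exact (Subgroup.index_comap_of_surjective _ (ConjAct.toConjAct (G := G)).surjective).symm
    rw [h1, ← h4, h2]
    rfl
  rw [← hcard] at hodd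
  have hmem : ∀ y : G, y ∈ (ConjClasses.mk n).carrier ↔ IsConj n y := by
    intro y
    rw [ConjClasses.mem_carrier_iff_mk_eq, ConjClasses.mk_eq_mk_iff_isConj, isConj_comm]
  have hinv : ∀ y ∈ (ConjClasses.mk n).carrier, y⁻¹ ∈ (ConjClasses.mk n).carrier := by
    intro y hy
    rw [hmem] at hy ⊢
    refine hn.trans ?_
    obtain ⟨c, hc⟩ := isConj_iff.mp hy
    refine isConj_iff.mpr ⟨c, ?_⟩
    rw [← hc]; group
  have hfin : Fintype (ConjClasses.mk n).carrier := Fintype.ofFinite _
  let f : (ConjClasses.mk n).carrier → (ConjClasses.mk n).carrier := fun y => ⟨(y : G)⁻¹, hinv y y.2⟩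
  have hf : Function.Involutive f := by
    intro y
    ext
    simp [f]
  have h3 : ∀ y, f y ≠ y := by
    intro y hy
    have h4 : (y : G)⁻¹ = y := congrArg Subtype.val hy
    have h5 : (y : G) ^ 2 = 1 := by
      rw [pow_two]; nth_rw 1 [← h4]; exact inv_mul_cancel _
    obtain ⟨c, hc⟩ := isConj_iff.mp ((hmem y).mp y.2)
    rw [← hc, conj_pow] at h5
    have h6 : n ^ 2 = c⁻¹ * (c * n ^ 2 * c⁻¹) * c := by group
    rw [h5] at h6
    apply hne
    rw [h6]; group
  have h7 : Even (Fintype.card (ConjClasses.mk n).carrier) := by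
    have h8 := Equiv.Perm.card_fixedPoints_modEq (p := 2) (n := 1) (f := f) (by
      funext y
      simp only [pow_one]
      show f (f y) = y
      exact hf y)
    have h9 : Fintype.card (Function.fixedPoints f) = 0 := by
      rw [Fintype.card_eq_zero_iff]
      exact ⟨fun y => h3 y y.2⟩
    rw [h9] at h8
    exact even_iff_two_dvd.mpr (Nat.modEq_zero_iff_dvd.mp h8)
  rw [Nat.card_eq_fintype_card] at hodd
  exact (Nat.not_even_iff_odd.mpr hodd) h7

theorem normalizer_sylow_two_aux (m : ℕ) : ∀ (G : Type u) [Group G] [Finite G], Nat.card G ≤ m →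
    Group.IsSolvable G → (∀ x : G, IsConj x x⁻¹) →
    ∀ S : Sylow 2 G, normalizer ((S : Subgroup G) : Set G) ≤ (S : Subgroup G) := by
  induction m with
  | zero =>
    intro G _ _ hc
    have := Nat.card_pos (α := G)
    omega
  | succ m ih =>
    intro G _ _ hc hs hreal S
    rcases subsingleton_or_nontrivial G with hsub | hnt
    · intro x _
      rw [Subsingleton.elim x 1]
      exact one_mem _
    obtain ⟨r, N, hr, hN, hN1, hNc, hNr⟩ := exists_normal_elab G hs
    have hr' : Fact r.Prime := ⟨hr⟩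
    have h2' : Fact (Nat.Prime 2) := ⟨Nat.prime_two⟩
    have hNp : IsPGroup r N := by
      intro a
      refine ⟨1, ?_⟩
      ext
      simpa using hNr a a.2
    -- quotient
    have hcq : Nat.card (G ⧸ N) ≤ m := by
      have h1 : Nat.card G = Nat.card (G ⧸ N) * Nat.card N := Subgroup.card_eq_card_quotient_mul_card_subgroup N
      have h2 : 1 < Nat.card N := (Subgroup.one_lt_card_iff_ne_bot N).mpr hN1
      have h3 := Nat.card_pos (α := G ⧸ N)
      nlinarith
    have hsq : Group.IsSolvable (G ⧸ N) := Group.isSolvable_of_surjective (QuotientGroup.mk'_surjective N)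
    have hrq : ∀ x : G ⧸ N, IsConj x x⁻¹ := by
      intro x
      obtain ⟨g, rfl⟩ := QuotientGroup.mk'_surjective N x
      have := (QuotientGroup.mk' N).map_isConj (hreal g)
      simpa using this
    have hf := QuotientGroup.mk'_surjective N
    have key := ih (G ⧸ N) hcq hsq hrq (S.mapSurjective hf)
    intro g hg
    have hg1 : QuotientGroup.mk' N g ∈ normalizer (((S.mapSurjective hf : Sylow 2 (G ⧸ N)) : Subgroup (G ⧸ N)) : Set (G ⧸ N)) := by
      rw [Subgroup.mem_normalizer_iff'']
      have hg' := hg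
      rw [Subgroup.mem_normalizer_iff''] at hg'
      intro y
      rw [Sylow.coe_mapSurjective]
      constructor
      · rintro ⟨s, hs', rfl⟩
        exact ⟨g⁻¹ * s * g, (hg' s).mp hs', by simp⟩
      · rintro ⟨s, hs', hsy⟩
        refine ⟨g * s * g⁻¹, ?_, ?_⟩
        · apply (hg' _).mpr
          have : g⁻¹ * (g * s * g⁻¹) * g = s := by group
          rw [this]; exact hs'
        · rw [map_mul, map_mul, hsy, map_inv]; group
    have hg2 := key hg1
    rw [Sylow.coe_mapSurjective] at hg2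
    obtain ⟨s, hsS, hsg⟩ := hg2
    have hn : s⁻¹ * g ∈ N := by
      rw [← QuotientGroup.eq]
      exact hsg
    set n := s⁻¹ * g with hndef
    have hnn : n ∈ normalizer ((S : Subgroup G) : Set G) :=
      mul_mem (inv_mem (Subgroup.le_normalizer hsS)) hg
    have hgn : g = s * n := by rw [hndef]; group
    suffices hnS : n ∈ (S : Subgroup G) by
      rw [hgn]; exact mul_mem hsS hnS
    by_cases hr2 : r = 2
    · subst hr2
      have h1 := hNp.inf_normalizer_sylow S
      have h2 : n ∈ N ⊓ normalizer (S : Set G) := ⟨hn, hnn⟩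
      rw [h1] at h2
      exact h2.2
    · -- `n` centralizes `S`
      have hdisj : ∀ y, y ∈ N → y ∈ (S : Subgroup G) → y = 1 := by
        intro y hy1 hy2
        have h1 : orderOf y ∣ r := orderOf_dvd_of_pow_eq_one (hNr y hy1)
        obtain ⟨k, hk⟩ := (S.isPGroup' ⟨y, hy2⟩)
        have h2 : orderOf y ∣ 2 ^ k := orderOf_dvd_of_pow_eq_one (by
          have := congrArg Subtype.val hk
          simpa using this)
        have h3 : Nat.Coprime r (2 ^ k) :=
          Nat.Coprime.pow_right k ((Nat.coprime_primes hr Nat.prime_two).mpr hr2)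
        have h4 := Nat.dvd_gcd h1 h2
        rw [h3] at h4
        exact orderOf_eq_one_iff.mp (Nat.dvd_one.mp h4)
      have hcent : (S : Subgroup G) ≤ centralizer ({n} : Set G) := by
        intro t ht
        rw [mem_centralizer_singleton_iff]
        have h1 : t * n * t⁻¹ * n⁻¹ ∈ N := mul_mem (hN.conj_mem n hn t) (inv_mem hn)
        have h2 : t * n * t⁻¹ * n⁻¹ ∈ (S : Subgroup G) := by
          have : t * n * t⁻¹ * n⁻¹ = t * (n * t⁻¹ * n⁻¹) := by group
          rw [this]
          refine mul_mem ht ?_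
          exact (Subgroup.mem_normalizer_iff.mp hnn _).mp (inv_mem ht)
        have h3 := hdisj _ h1 h2
        have h4 : t * n = (t * n * t⁻¹ * n⁻¹) * (n * t) := by group
        rw [h4, h3, one_mul]
      have hidx : Odd (centralizer ({n} : Set G)).index := by
        have h1 : (centralizer ({n} : Set G)).index ∣ (S : Subgroup G).index :=
          Subgroup.index_dvd_of_le hcent
        have h2 : ¬ 2 ∣ (S : Subgroup G).index := S.not_dvd_index
        rw [← Nat.not_even_iff_odd, even_iff_two_dvd]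
        exact fun h => h2 (h.trans h1)
      have h5 := sq_eq_one_of_real (hreal n) hidx
      have h6 := hNr n hn
      have h7 : orderOf n ∣ 2 := orderOf_dvd_of_pow_eq_one h5
      have h8 : orderOf n ∣ r := orderOf_dvd_of_pow_eq_one h6
      have h9 : Nat.Coprime r 2 := (Nat.coprime_primes hr Nat.prime_two).mpr hr2
      have h10 := Nat.dvd_gcd h8 h7
      rw [h9] at h10
      rw [orderOf_eq_one_iff.mp (Nat.dvd_one.mp h10)]
      exact one_mem _

/-- `(N)`: in a finite solvable group all of whose elements are real, the Sylow 2-subgroups are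
self-normalizing. -/
theorem normalizer_sylow_two {G : Type*} [Group G] [Finite G] (hs : Group.IsSolvable G)
    (h : ∀ x : G, IsConj x x⁻¹) (S : Sylow 2 G) :
    normalizer ((S : Subgroup G) : Set G) = (S : Subgroup G) :=
  le_antisymm (normalizer_sylow_two_aux _ G le_rfl hs h S) Subgroup.le_normalizer

/-- Frattini: if the Sylow 2-subgroup `S` of `G` is self-normalizing, there is no proper overgroup `H` of a
subgroup `K` containing `S` in which `K` is normal. -/
theorem le_of_sylow_self_normalizing {G : Type*} [Group G] [Finite G] {p : ℕ} [Fact p.Prime] (S : Sylow p G)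
    (hN : normalizer ((S : Subgroup G) : Set G) ≤ (S : Subgroup G)) {H K : Subgroup G}
    (hSK : (S : Subgroup G) ≤ K) (hnorm : ∀ h ∈ H, ∀ k ∈ K, h * k * h⁻¹ ∈ K) : H ≤ K := by
  intro h hh
  have h1 : ((h • S : Sylow p G) : Subgroup G) ≤ K := by
    rw [Sylow.coe_subgroup_smul]
    rintro _ ⟨s, hs, rfl⟩
    exact hnorm h hh s (hSK hs)
  obtain ⟨k, hk⟩ := MulAction.exists_smul_eq K ((h • S).subtype h1) (S.subtype hSK)
  have h2 : (k : G) • (h • S) = S := by
    rw [Sylow.smul_subtype] at hk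
    exact Sylow.subtype_injective hk
  rw [← mul_smul, Sylow.smul_eq_iff_mem_normalizer] at h2
  have h3 : (k : G) * h ∈ K := hSK (hN h2)
  have h4 := mul_mem (inv_mem k.2) h3
  simpa using h4

end Cfsg.Agent.H515.Ah
end

-- part: H515/AhThree
section
/-!
Pieces for S4162: rational groups with an element whose centralizer has order 3.
-/

set_option autoImplicit false

namespace Cfsg.Agent.H515.Ah

open Cfsg.Agent.AH Subgroup

variable {G : Type*} [Group G] [Finite G]

omit [Finite G] in
theorem mem_cent_self (x : G) : x ∈ centralizer ({x} : Set G) :=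
  mem_centralizer_singleton_iff.mpr rfl

/-- In a rational group an element with a centralizer of order 3 has order 3. -/
theorem orderOf_of_three (h : IsRat G) {x : G} (hx : cent x = 3) : orderOf x = 3 := by
  have ho : orderOf x ∣ 3 := by
    have := Subgroup.orderOf_dvd_natCard (centralizer ({x} : Set G)) (mem_cent_self x)
    unfold cent at hx
    rwa [hx] at this
  rcases (Nat.dvd_prime Nat.prime_three).mp ho with h1 | h3
  · exfalso
    rw [orderOf_eq_one_iff] at h1
    subst h1
    have hc : Nat.card G = 3 := by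
      rw [← hx]
      unfold cent
      have : centralizer ({1} : Set G) = ⊤ := by
        rw [eq_top_iff]
        intro z _
        rw [mem_centralizer_singleton_iff]; simp
      rw [this]
      exact (Nat.card_congr Subgroup.topEquiv.toEquiv).symm
    have : Fact (Nat.Prime 3) := ⟨Nat.prime_three⟩
    obtain ⟨g, hg⟩ := exists_prime_orderOf_dvd_card' (G := G) 3 (by rw [hc])
    have hcyc : IsCyclic G := isCyclic_of_prime_card hc
    obtain ⟨c, hc⟩ := isConj_iff.mp (h.inv g)
    have hcomm : c * g = g * c := by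
      have := IsCyclic.commGroup (α := G)
      exact (IsMulCommutative.is_comm (M := G)).comm c g
    rw [hcomm, mul_inv_cancel_right] at hc
    have h2 : g ^ 2 = 1 := by
      rw [pow_two]; nth_rw 2 [hc]; exact mul_inv_cancel g
    have := orderOf_dvd_of_pow_eq_one h2
    rw [hg] at this
    omega
  · exact h3

theorem centralizer_of_three (h : IsRat G) {x : G} (hx : cent x = 3) :
    centralizer ({x} : Set G) = zpowers x := by
  symm
  apply Subgroup.eq_of_le_of_card_ge
  · rw [zpowers_le]; exact mem_cent_self x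
  · unfold cent at hx
    rw [hx, Nat.card_zpowers, orderOf_of_three h hx]

/-- The Sylow 3-subgroups have order 3. -/
theorem card_sylow_three (h : IsRat G) {x : G} (hx : cent x = 3) (P : Sylow 3 G) :
    Nat.card P = 3 := by
  have : Fact (Nat.Prime 3) := ⟨Nat.prime_three⟩
  have ho := orderOf_of_three h hx
  have hP3 : IsPGroup 3 (zpowers x) :=
    IsPGroup.of_card (n := 1) (by rw [Nat.card_zpowers, ho]; norm_num)
  obtain ⟨Q, hQ⟩ := hP3.exists_le_sylow
  have hcard : Nat.card P = Nat.card Q := Nat.card_congr (P.equiv Q).toEquiv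
  rw [hcard]
  have hnt : Nontrivial Q := by
    refine ⟨⟨⟨x, hQ (mem_zpowers x)⟩, 1, ?_⟩⟩
    intro hh
    have : x = 1 := congrArg Subtype.val hh
    rw [this, orderOf_one] at ho
    omega
  have hcn : Nontrivial (Subgroup.center Q) := Q.isPGroup'.center_nontrivial
  obtain ⟨z, hz1⟩ := exists_ne (1 : Subgroup.center Q)
  have hzx : (z : Q).1 ∈ centralizer ({x} : Set G) := by
    rw [mem_centralizer_singleton_iff]
    have := (Subgroup.mem_center_iff.mp z.2) ⟨x, hQ (mem_zpowers x)⟩
    have := congrArg Subtype.val this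
    exact this.symm
  rw [centralizer_of_three h hx] at hzx
  have hz1' : (z : Q).1 ≠ 1 := by
    intro hh
    apply hz1
    ext
    exact hh
  have hzz : zpowers (z : Q).1 = zpowers x := by
    apply Subgroup.eq_of_le_of_card_ge
    · rw [zpowers_le]; exact hzx
    · rw [Nat.card_zpowers, Nat.card_zpowers, ho]
      have h1 : orderOf (z : Q).1 ∣ 3 := by
        have h0 := Subgroup.orderOf_dvd_natCard _ hzx
        rwa [Nat.card_zpowers, ho] at h0
      rcases (Nat.dvd_prime Nat.prime_three).mp h1 with h1 | h1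
      · exact absurd (orderOf_eq_one_iff.mp h1) hz1'
      · omega
  have hle : (Q : Subgroup G) ≤ centralizer ({x} : Set G) := by
    intro q hq
    rw [mem_centralizer_singleton_iff]
    have hx' : x ∈ zpowers (z : Q).1 := by rw [hzz]; exact mem_zpowers x
    obtain ⟨k, hk⟩ := mem_zpowers_iff.mp hx'
    have hqz : Commute q (z : Q).1 := by
      have := (Subgroup.mem_center_iff.mp z.2) ⟨q, hq⟩
      exact congrArg Subtype.val this
    rw [← hk]
    exact hqz.zpow_right k
  rw [centralizer_of_three h hx] at hle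
  have heq : (Q : Subgroup G) = zpowers x := le_antisymm hle hQ
  show Nat.card (Q : Subgroup G) = 3
  rw [heq, Nat.card_zpowers, ho]

theorem isConj_of_mem_zpowers_three (h : IsRat G) {x g : G} (ho : orderOf x = 3)
    (hg : g ∈ zpowers x) : g = 1 ∨ IsConj g x := by
  classical
  rw [mem_zpowers_iff_mem_range_orderOf] at hg
  rw [ho] at hg
  simp only [Finset.mem_image, Finset.mem_range] at hg
  obtain ⟨k, hk, rfl⟩ := hg
  interval_cases k
  · left; simp
  · right; rw [pow_one]
  · right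
    exact (h x 2 (by rw [ho]; norm_num)).symm

/-- `(C3)`: in a rational group with `|C(x)| = 3`, every element whose centralizer has order divisible
by 3 is trivial or conjugate to `x`. -/
theorem c3 (h : IsRat G) {x : G} (hx : cent x = 3) (g : G) (hg : 3 ∣ cent g) :
    g = 1 ∨ IsConj g x := by
  have : Fact (Nat.Prime 3) := ⟨Nat.prime_three⟩
  have ho := orderOf_of_three h hx
  obtain ⟨y, hy⟩ := exists_prime_orderOf_dvd_card' (G := centralizer ({g} : Set G)) 3 hg
  have hy' : orderOf (y : G) = 3 := by rw [orderOf_coe, hy]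
  have hyP : IsPGroup 3 (zpowers (y : G)) :=
    IsPGroup.of_card (n := 1) (by rw [Nat.card_zpowers, hy']; norm_num)
  have hxP : IsPGroup 3 (zpowers x) :=
    IsPGroup.of_card (n := 1) (by rw [Nat.card_zpowers, ho]; norm_num)
  obtain ⟨P, hP⟩ := hxP.exists_le_sylow
  obtain ⟨Q, hQ⟩ := hyP.exists_le_sylow
  have hPe : zpowers x = (P : Subgroup G) := by
    apply Subgroup.eq_of_le_of_card_ge hP
    rw [Nat.card_zpowers, ho]
    exact (card_sylow_three h hx P).le
  obtain ⟨c, hc⟩ := MulAction.exists_smul_eq G Q P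
  have hcy : c * (y : G) * c⁻¹ ∈ zpowers x := by
    rw [hPe, ← hc, Sylow.coe_subgroup_smul]
    have : c * (y : G) * c⁻¹ = MulAut.conj c • (y : G) := rfl
    rw [this]
    exact Subgroup.smul_mem_pointwise_smul _ _ _ (hQ (mem_zpowers _))
  have hyx : IsConj (y : G) x := by
    have h1 : IsConj (y : G) (c * (y : G) * c⁻¹) := isConj_iff.mpr ⟨c, rfl⟩
    rcases isConj_of_mem_zpowers_three h ho hcy with h2 | h2
    · exfalso
      have : (y : G) = 1 := by
        have := congrArg (fun t => c⁻¹ * t * c) h2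
        simpa [mul_assoc] using this
      rw [this, orderOf_one] at hy'
      omega
    · exact h1.trans h2
  have hcy3 : cent (y : G) = 3 := by rw [cent_conj_eq hyx, hx]
  have hgy : g ∈ centralizer ({(y : G)} : Set G) := by
    have := y.2
    rw [mem_centralizer_singleton_iff] at this ⊢
    exact this.symm
  rw [centralizer_of_three h hcy3] at hgy
  rcases isConj_of_mem_zpowers_three h hy' hgy with h1 | h1
  · exact Or.inl h1
  · exact Or.inr (h1.trans hyx)

end Cfsg.Agent.H515.Ah
end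

-- part: H515/AhFour
section
/-!
Pieces for S4162: in a rational group with an element whose centralizer has order 4, the Sylow
2-subgroups have order at most 8.
-/

set_option autoImplicit false

namespace Cfsg.Agent.H515.Ah

open Cfsg.Agent.AH Subgroup

variable {G : Type*} [Group G] [Finite G]

/-- In a rational group, the order of `N_G(<a>)` is `|C_G(a)| * φ(|a|)`. -/
theorem card_normalizer_zpowers (h : IsRat G) (a : G) :
    Nat.card (normalizer ((zpowers a : Subgroup G) : Set G)) = cent a * (orderOf a).totient := by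
  classical
  set H : Subgroup G := zpowers a with hH
  have hcyc : IsCyclic H := inferInstance
  have haH : a ∈ H := mem_zpowers a
  have hsurj : Function.Surjective H.normalizerMonoidHom := by
    intro f
    -- f a = a ^ j
    have h1 : ((f ⟨a, haH⟩ : H) : G) ∈ zpowers a := (f ⟨a, haH⟩).2
    rw [mem_zpowers_iff_mem_range_orderOf] at h1
    simp only [Finset.mem_image, Finset.mem_range] at h1
    obtain ⟨j, hj, hja⟩ := h1
    have hord : orderOf (a ^ j) = orderOf a := by
      rw [hja, orderOf_coe]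
      have : orderOf (f ⟨a, haH⟩) = orderOf (⟨a, haH⟩ : H) :=
        orderOf_injective f.toMonoidHom f.injective _
      rw [this, ← orderOf_coe]
    have hcop : j.Coprime (orderOf a) := by
      rw [orderOf_pow] at hord
      rcases Nat.div_eq_self.mp hord with h2 | h2
      · exact absurd h2 (orderOf_pos a).ne'
      · rw [Nat.coprime_comm]; exact h2
    obtain ⟨g, hg⟩ := isConj_iff.mp (h a j hcop)
    have hgn : g ∈ normalizer (H : Set G) := by
      rw [Subgroup.mem_normalizer_iff]
      have hle : ∀ y ∈ H, g * y * g⁻¹ ∈ H := by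
        intro y hy
        obtain ⟨k, rfl⟩ := mem_zpowers_iff.mp hy
        rw [← conj_zpow, hg]
        exact zpow_mem (pow_mem haH j) k
      intro y
      refine ⟨hle y, fun hy => ?_⟩
      have hmap : H.map (MulAut.conj g).toMonoidHom = H := by
        apply Subgroup.eq_of_le_of_card_ge
        · rintro _ ⟨z, hz, rfl⟩
          exact hle z hz
        · rw [Subgroup.card_map_of_injective (MulAut.conj g).injective]
      rw [← hmap] at hy
      obtain ⟨z, hz, hzy⟩ := hy
      have : z = y := by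
        have h3 : g * z * g⁻¹ = g * y * g⁻¹ := hzy
        simpa using h3
      rw [← this]; exact hz
    refine ⟨⟨g, hgn⟩, ?_⟩
    ext ⟨y, hy⟩
    obtain ⟨k, rfl⟩ := mem_zpowers_iff.mp hy
    have h4 : (⟨a ^ k, hy⟩ : H) = (⟨a, haH⟩ : H) ^ k := by ext; simp
    rw [h4, map_zpow, map_zpow]
    congr 1
    congr 1
    ext
    rw [← hja]
    exact hg
  have h1 := Subgroup.card_eq_card_quotient_mul_card_subgroup (H.normalizerMonoidHom).ker
  have h2 : Nat.card (normalizer (H : Set G) ⧸ (H.normalizerMonoidHom).ker) = (orderOf a).totient := by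
    rw [Nat.card_congr (QuotientGroup.quotientKerEquivOfSurjective _ hsurj).toEquiv,
      IsCyclic.card_mulAut H, hH, Nat.card_zpowers]
  have hcH : centralizer (H : Set G) = centralizer ({a} : Set G) := by
    apply le_antisymm
    · exact Subgroup.centralizer_le (by intro y hy; rw [Set.mem_singleton_iff.mp hy]; exact haH)
    · intro z hz
      rw [mem_centralizer_iff]
      intro y hy
      obtain ⟨k, rfl⟩ := mem_zpowers_iff.mp hy
      have : Commute z a := mem_centralizer_singleton_iff.mp hz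
      exact (this.zpow_right k).symm
  have h3 : Nat.card (H.normalizerMonoidHom).ker = cent a := by
    rw [normalizerMonoidHom_ker]
    unfold cent
    rw [← hcH]
    exact Nat.card_congr (Subgroup.subgroupOfEquivOfLe
      (Subgroup.centralizer_le_normalizer (H : Set G))).toEquiv
  rw [h1, h2, h3, mul_comm]

/-- A 2-group with an element whose centralizer has order 4 has order at most 4 or a cyclic subgroup of
index 2. -/
theorem exists_cyclic_of_cent_four {S : Type*} [Group S] [Finite S] {n : ℕ}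
    (hS : Nat.card S = 2 ^ n) (hn : 3 ≤ n) (A : Subgroup S) (hA : Nat.card A = 4)
    (hC : centralizer (A : Set S) = A) : ∃ C : Subgroup S, IsCyclic C ∧ C.index = 2 := by
  have : Fact (Nat.Prime 2) := ⟨Nat.prime_two⟩
  have h1 := Cfsg.Agent.S0112.result (p := 2) n hS A (by rw [hA]; norm_num) hC
  exact Cfsg.Agent.S0113.result n hn hS h1

/-- `(C4)`: in a rational group with an element whose centralizer has order 4, the Sylow 2-subgroups have
order at most 8. -/
theorem c4 (h : IsRat G) {x : G} (hx : cent x = 4) (S : Sylow 2 G) : Nat.card S ≤ 8 := by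
  classical
  have h2 : Fact (Nat.Prime 2) := ⟨Nat.prime_two⟩
  obtain ⟨n, hn⟩ := IsPGroup.iff_card.mp S.isPGroup'
  by_contra hgt
  have hgt' : 8 < Nat.card S := not_le.mp hgt
  have hn4 : 4 ≤ n := by
    by_contra h4
    have : n ≤ 3 := by omega
    have h5 : 2 ^ n ≤ 2 ^ 3 := Nat.pow_le_pow_right (by norm_num) this
    have h6 : Nat.card S = 2 ^ n := hn
    omega
  -- the centralizer `A` of `x`, a 2-group of order 4
  set A : Subgroup G := centralizer ({x} : Set G) with hAdef
  have hAcard : Nat.card A = 4 := hx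
  have hAp : IsPGroup 2 A := IsPGroup.of_card (n := 2) (by rw [hAcard]; norm_num)
  obtain ⟨T, hT⟩ := hAp.exists_le_sylow
  have hTcard : Nat.card T = 2 ^ n := by
    rw [Nat.card_congr (T.equiv S).toEquiv]; exact hn
  have hxT : x ∈ (T : Subgroup G) := hT (mem_cent_self x)
  have hcomm : IsMulCommutative A := by
    exact IsPGroup.isMulCommutative_of_card_eq_prime_sq (p := 2) (G := A) (by rw [hAcard]; norm_num)
  let A' : Subgroup T := A.subgroupOf (T : Subgroup G)
  have hA' : Nat.card A' = 4 := by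
    rw [← hAcard]
    exact Nat.card_congr (Subgroup.subgroupOfEquivOfLe hT).toEquiv
  have hCA' : centralizer (A' : Set T) = A' := by
    apply le_antisymm
    · intro z hz
      rw [Subgroup.mem_subgroupOf, hAdef, mem_centralizer_singleton_iff]
      have h3 := (mem_centralizer_iff.mp hz) ⟨x, hxT⟩ (by
        show (⟨x, hxT⟩ : T) ∈ A'
        rw [Subgroup.mem_subgroupOf]
        exact mem_cent_self x)
      exact (congrArg Subtype.val h3).symm
    · intro z hz
      rw [mem_centralizer_iff]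
      intro y hy
      have hy' : (y : G) ∈ A := Subgroup.mem_subgroupOf.mp hy
      have hz' : (z : G) ∈ A := Subgroup.mem_subgroupOf.mp hz
      have h3 := hcomm.is_comm.comm (⟨y, hy'⟩ : A) ⟨z, hz'⟩
      have h4 : (y : G) * (z : G) = (z : G) * (y : G) := congrArg (fun t : A => (t : G)) h3
      exact Subtype.ext h4
  obtain ⟨C, hC1, hC2⟩ := exists_cyclic_of_cent_four hTcard (by omega) A' hA' hCA'
  obtain ⟨c, hc⟩ := hC1.exists_generator
  have hCcard : Nat.card C = 2 ^ (n - 1) := by
    have h3 := C.index_mul_card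
    rw [hC2, hTcard] at h3
    have h4 : 2 ^ n = 2 * 2 ^ (n - 1) := by
      rw [← pow_succ']; congr 1; omega
    rw [h4] at h3
    exact Nat.eq_of_mul_eq_mul_left (by norm_num) h3
  set a : G := ((c : T) : G) with ha
  have hoa : orderOf a = 2 ^ (n - 1) := by
    rw [ha, orderOf_coe, orderOf_coe, ← hCcard]
    exact orderOf_eq_card_of_forall_mem_zpowers hc
  have hN := card_normalizer_zpowers h a
  have hd1 : 2 ^ (n - 1) ∣ cent a := by
    have := Subgroup.orderOf_dvd_natCard (centralizer ({a} : Set G)) (mem_cent_self a)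
    rwa [hoa] at this
  have hd2 : (orderOf a).totient = 2 ^ (n - 2) := by
    rw [hoa, Nat.totient_prime_pow Nat.prime_two (by omega)]
    have : n - 1 - 1 = n - 2 := by omega
    rw [this]; norm_num
  have hd3 : 2 ^ (n - 1) * 2 ^ (n - 2) ∣ Nat.card G := by
    calc 2 ^ (n - 1) * 2 ^ (n - 2) ∣ cent a * (orderOf a).totient := by
          rw [hd2]; exact Nat.mul_dvd_mul_right hd1 _
      _ = _ := hN.symm
      _ ∣ Nat.card G := Subgroup.card_subgroup_dvd_card _
  rw [← pow_add] at hd3
  have hd4 : 2 ^ (n - 1 + (n - 2)) ∣ 2 ^ n := by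
    have h5 : Nat.card T = 2 ^ (Nat.card G).factorization 2 := T.card_eq_multiplicity
    have h6 := (Nat.Prime.pow_dvd_iff_le_factorization Nat.prime_two (Nat.card_pos (α := G)).ne').mp hd3
    rw [← hTcard, h5]
    exact Nat.pow_dvd_pow 2 h6
  have := (Nat.pow_dvd_pow_iff_le_right (by norm_num : 1 < 2)).mp hd4
  omega

end Cfsg.Agent.H515.Ah
end

-- part: H515/AhFrat
section
/-!
Pieces for S4162: the Frattini step excluding `|M| = 24`.
-/

set_option autoImplicit false

namespace Cfsg.Agent.H515.Ah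

open Cfsg.Agent.AH Subgroup

/-- `(C4)`, as used: a rational group with an element whose centralizer has order 4 has order not
divisible by 16. -/
theorem h16 {G : Type*} [Group G] [Finite G] (h : IsRat G) {x : G} (hx : cent x = 4) :
    ¬ 16 ∣ Nat.card G := by
  intro hd
  have : Fact (Nat.Prime 2) := ⟨Nat.prime_two⟩
  obtain ⟨S⟩ : Nonempty (Sylow 2 G) := inferInstance
  have h1 := c4 h hx S
  have h2 : 16 ∣ Nat.card S := by
    rw [S.card_eq_multiplicity]
    have h3 : 2 ^ 4 ∣ Nat.card G := by norm_num; exact hd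
    have h4 := (Nat.Prime.pow_dvd_iff_le_factorization Nat.prime_two (Nat.card_pos (α := G)).ne').mp h3
    exact (by norm_num : 16 = 2 ^ 4) ▸ Nat.pow_dvd_pow 2 h4
  have h5 := Nat.le_of_dvd Nat.card_pos h2
  omega

/-- `(C3)`, as used. -/
theorem h3 {G : Type*} [Group G] [Finite G] (h : IsRat G) :
    ∀ x : G, cent x = 3 → ∀ g : G, 3 ∣ cent g → g = 1 ∨ IsConj g x :=
  fun _ hx g hg => c3 h hx g hg

/-- A group `N` with a normal subgroup `K` of index 3; the order of `K` is `8 * odd`: the number 3 divides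
the order of the normalizer of a Sylow 2-subgroup. -/
theorem frattini_three {G : Type*} [Group G] [Finite G] (N : Subgroup G) (K : Subgroup N) [K.Normal]
    (hK : K.index = 3) (h8 : 8 ∣ Nat.card K) (h16 : ¬ 16 ∣ Nat.card G) :
    ∃ S : Sylow 2 G, 3 ∣ Nat.card (normalizer ((S : Subgroup G) : Set G)) := by
  classical
  have : Fact (Nat.Prime 2) := ⟨Nat.prime_two⟩
  obtain ⟨P⟩ : Nonempty (Sylow 2 K) := inferInstance
  have hfr := Sylow.normalizer_sup_eq_top P
  set P' : Subgroup N := (P : Subgroup K).map K.subtype with hP'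
  set S0 : Subgroup G := P'.map N.subtype with hS0
  -- card of P
  have hcP : Nat.card P = 8 := by
    obtain ⟨k, hk⟩ := IsPGroup.iff_card.mp P.isPGroup'
    have h1 : 8 ∣ Nat.card P := by
      rw [P.card_eq_multiplicity]
      have h3 : 2 ^ 3 ∣ Nat.card K := by norm_num; exact h8
      have h4 := (Nat.Prime.pow_dvd_iff_le_factorization Nat.prime_two
        (Nat.card_pos (α := K)).ne').mp h3
      exact (by norm_num : 8 = 2 ^ 3) ▸ Nat.pow_dvd_pow 2 h4
    have h2 : Nat.card P ∣ Nat.card G := by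
      calc Nat.card P ∣ Nat.card K := Subgroup.card_subgroup_dvd_card _
        _ ∣ Nat.card N := Subgroup.card_subgroup_dvd_card _
        _ ∣ Nat.card G := Subgroup.card_subgroup_dvd_card _
    have h3 : k < 4 := by
      by_contra hk4
      apply h16
      refine Dvd.dvd.trans ?_ h2
      rw [hk, (by norm_num : 16 = 2 ^ 4)]
      exact Nat.pow_dvd_pow 2 (by omega)
    have h4 : ¬ k < 3 := by
      intro hk3
      rw [hk] at h1
      have := Nat.le_of_dvd (by positivity) h1
      have h5 : 2 ^ k < 2 ^ 3 := Nat.pow_lt_pow_right (by norm_num) hk3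
      omega
    have h5 : k = 3 := by omega
    rw [hk, h5]; norm_num
  have hcP' : Nat.card P' = 8 := by
    rw [hP', Subgroup.card_map_of_injective K.subtype_injective]; exact hcP
  have hcS0 : Nat.card S0 = 8 := by
    rw [hS0, Subgroup.card_map_of_injective N.subtype_injective]; exact hcP'
  have h8G : (Nat.card G).factorization 2 = 3 := by
    have h1 : 2 ^ 3 ∣ Nat.card G := by
      have := Subgroup.card_subgroup_dvd_card S0
      rw [hcS0] at this
      norm_num; exact this
    have h2 := (Nat.Prime.pow_dvd_iff_le_factorization Nat.prime_two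
      (Nat.card_pos (α := G)).ne').mp h1
    by_contra hne
    have h3 : 4 ≤ (Nat.card G).factorization 2 := by omega
    have h4 := (Nat.Prime.pow_dvd_iff_le_factorization Nat.prime_two
      (Nat.card_pos (α := G)).ne').mpr h3
    exact h16 (by norm_num at h4; exact h4)
  let S : Sylow 2 G := Sylow.ofCard S0 (by rw [hcS0, h8G]; norm_num)
  refine ⟨S, ?_⟩
  have hS : ((S : Sylow 2 G) : Subgroup G) = S0 := rfl
  rw [hS]
  -- normalizer of P' in N maps into the normalizer of S0
  have h1 : 3 ∣ Nat.card (normalizer (P' : Set N)) := by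
    have h2 : K.relIndex (normalizer (P' : Set N) ⊔ K) = K.relIndex (normalizer (P' : Set N)) :=
      Subgroup.relIndex_sup_right _ _
    rw [hfr, Subgroup.relIndex_top_right, hK] at h2
    rw [h2]
    exact Subgroup.relIndex_dvd_card _ _
  have h2 : (normalizer (P' : Set N)).map N.subtype ≤ normalizer (S0 : Set G) := by
    rintro _ ⟨n, hn, rfl⟩
    rw [Subgroup.mem_normalizer_iff]
    have hn' := Subgroup.mem_normalizer_iff.mp hn
    intro y
    constructor
    · rintro ⟨s, hs, rfl⟩
      exact ⟨n * s * n⁻¹, (hn' s).mp hs, by simp⟩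
    · rintro ⟨s, hs, hsy⟩
      have h3 : y = ((n⁻¹ * s * n : N) : G) := by
        have : (s : G) = (n : G) * y * (n : G)⁻¹ := hsy
        simp only [Subgroup.coe_mul, Subgroup.coe_inv]
        rw [this]; group
      rw [h3]
      refine ⟨n⁻¹ * s * n, ?_, rfl⟩
      apply (hn' _).mpr
      have : n * (n⁻¹ * s * n) * n⁻¹ = s := by group
      rw [this]; exact hs
  have h3 := Subgroup.card_dvd_of_le h2
  rw [Subgroup.card_map_of_injective N.subtype_injective] at h3
  exact h1.trans h3

/-- The Frattini step. -/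
theorem frattini24 {G : Type*} [Group G] [Finite G] (N X : Subgroup G) [(X.subgroupOf N).Normal]
    (hcard : Nat.card (N ⧸ X.subgroupOf N) = 24)
    (hR : ∀ R : Sylow 3 (N ⧸ X.subgroupOf N),
      Subgroup.normalizer ((R : Subgroup (N ⧸ X.subgroupOf N)) : Set (N ⧸ X.subgroupOf N)) ≤
        Subgroup.centralizer ((R : Subgroup (N ⧸ X.subgroupOf N)) : Set (N ⧸ X.subgroupOf N)))
    (h16 : ¬ 16 ∣ Nat.card G) :
    ∃ S : Sylow 2 G, 3 ∣ Nat.card (Subgroup.normalizer ((S : Subgroup G) : Set G)) := by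
  classical
  have : Fact (Nat.Prime 3) := ⟨Nat.prime_three⟩
  set X' := X.subgroupOf N
  obtain ⟨R⟩ : Nonempty (Sylow 3 (N ⧸ X')) := inferInstance
  have hcompl := MonoidHom.ker_transferSylow_isComplement' R (hR R)
  set Q : Subgroup (N ⧸ X') := (MonoidHom.transferSylow R (hR R)).ker with hQ
  have hQn : Q.Normal := inferInstance
  have hcR : Nat.card R = 3 := by
    rw [R.card_eq_multiplicity, hcard]
    have h8 : Nat.factorization 8 3 = 0 :=
      Nat.factorization_eq_zero_of_not_dvd (by norm_num)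
    have : Nat.factorization 24 3 = 1 := by
      rw [show (24 : ℕ) = 8 * 3 by norm_num, Nat.factorization_mul (by norm_num) (by norm_num)]
      simp [Nat.Prime.factorization Nat.prime_three, h8]
    rw [this]; norm_num
  have hidx : Q.index = 3 := by rw [hcompl.symm.index_eq_card]; exact hcR
  let K : Subgroup N := Q.comap (QuotientGroup.mk' X')
  have hKi : K.index = 3 := by
    rw [Subgroup.index_comap_of_surjective _ (QuotientGroup.mk'_surjective X'), hidx]
  have hK8 : 8 ∣ Nat.card K := by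
    have h1 := K.index_mul_card
    have h2 : Nat.card N = 24 * Nat.card X' := by
      rw [Subgroup.card_eq_card_quotient_mul_card_subgroup X', hcard]
    rw [hKi, h2] at h1
    have h3 : Nat.card K = 8 * Nat.card X' := by omega
    rw [h3]; exact dvd_mul_right _ _
  exact frattini_three N K hKi hK8 h16

end Cfsg.Agent.H515.Ah
end

-- part: H174/RatTrace
section
/-!
Trace lemma for real linear groups over `ZMod p` (used for S4162: Sylow `p`-subgroups of rational
solvable groups, `p ≥ 5`).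
-/

set_option autoImplicit false
set_option linter.style.haveILetI false

namespace Cfsg.Agent.H174.RatSyl

/-- The trace of a linear map whose range lies in a line. -/
theorem trace_of_line {K V : Type*} [Field K] [AddCommGroup V] [Module K V] [FiniteDimensional K V]
    (f : V →ₗ[K] V) (z : V) (hz : z ≠ 0) (c : K) (hfz : f z = c • z)
    (hf : ∀ v, f v ∈ Submodule.span K ({z} : Set V)) :
    LinearMap.trace K V f = c := by
  have h1 := LinearMap.trace_restrict_eq_of_forall_mem (Submodule.span K ({z} : Set V)) f hf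
  rw [← h1]
  have h2 : f.restrict (p := Submodule.span K ({z} : Set V))
      (q := Submodule.span K ({z} : Set V)) (fun x _ => hf x) = c • LinearMap.id := by
    apply LinearMap.ext
    rintro ⟨x, hx⟩
    obtain ⟨a, rfl⟩ := Submodule.mem_span_singleton.mp hx
    apply Subtype.ext
    simp only [LinearMap.restrict_apply, LinearMap.smul_apply, LinearMap.id_apply, map_smul, hfz,
      SetLike.mk_smul_mk]
    rw [smul_comm]
  rw [h2, map_smul, LinearMap.trace_id, finrank_span_singleton hz]
  simp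

/-- **Lemma LG.** `H` a real group of linear maps over `ZMod p`, `X ≤ H` of order prime to `p`
fixing `z ≠ 0`, and some `n ∈ H` maps `z` to `c • z` with `c ≠ c⁻¹`.  Then `X` has a fixed vector
outside the line of `z`. -/
theorem lg {p : ℕ} [Fact p.Prime] {V : Type*} [AddCommGroup V] [Module (ZMod p) V] [Finite V]
    (H X : Subgroup (V ≃ₗ[ZMod p] V)) (hp : ¬ p ∣ Nat.card X)
    (hreal : ∀ g ∈ H, ∃ t ∈ H, t * g * t⁻¹ = g⁻¹) (hXH : X ≤ H) (z : V) (hz : z ≠ 0)
    (hXz : ∀ x ∈ X, x z = z) (n : V ≃ₗ[ZMod p] V) (hn : n ∈ H) (c : ZMod p) (hc : c ≠ c⁻¹)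
    (hnz : n z = c • z) :
    ∃ u : V, (∀ x ∈ X, x u = u) ∧ u ∉ Submodule.span (ZMod p) ({z} : Set V) := by
  classical
  by_contra hcon
  push Not at hcon
  have hfin : Finite (V ≃ₗ[ZMod p] V) :=
    Finite.of_injective (fun e : V ≃ₗ[ZMod p] V => (e : V → V)) DFunLike.coe_injective
  have : Fintype X := Fintype.ofFinite X
  have : FiniteDimensional (ZMod p) V := Module.Finite.of_finite
  let S : V →ₗ[ZMod p] V := ∑ x : X, ((x : V ≃ₗ[ZMod p] V) : V →ₗ[ZMod p] V)
  have hSfix : ∀ v, ∀ x ∈ X, x (S v) = S v := by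
    intro v x hx
    simp only [S, LinearMap.sum_apply, map_sum]
    exact Fintype.sum_equiv (Equiv.mulLeft (⟨x, hx⟩ : X)) _ _ (fun y => rfl)
  have hSz : S z = (Nat.card X : ZMod p) • z := by
    simp only [S, LinearMap.sum_apply]
    have : ∀ x : X, ((x : V ≃ₗ[ZMod p] V) : V →ₗ[ZMod p] V) z = z := fun x => hXz x x.2
    rw [Finset.sum_congr rfl (fun x _ => this x)]
    simp only [Finset.sum_const, Finset.card_univ, Nat.card_eq_fintype_card]
    exact (Nat.cast_smul_eq_nsmul (ZMod p) _ z).symm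
  have hcz : c ≠ 0 := by
    rintro rfl
    apply hc
    simp
  have hninv : n⁻¹ z = c⁻¹ • z := by
    have : n⁻¹ (n z) = z := by
      have : (n⁻¹ * n) z = z := by rw [inv_mul_cancel]; rfl
      exact this
    rw [hnz, map_smul] at this
    rw [eq_inv_smul_iff₀ hcz]
    exact this
  -- traces of `S ∘ m`
  have htr : ∀ (m : V ≃ₗ[ZMod p] V) (d : ZMod p), m z = d • z →
      LinearMap.trace (ZMod p) V (S ∘ₗ (m : V →ₗ[ZMod p] V)) = d * (Nat.card X : ZMod p) := by
    intro m d hm
    apply trace_of_line _ z hz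
    · simp only [LinearMap.comp_apply, LinearEquiv.coe_coe, hm, map_smul, hSz, smul_smul]
    · intro v
      exact hcon _ (fun x hx => hSfix _ x hx)
  have htr2 : ∀ (m : V ≃ₗ[ZMod p] V),
      LinearMap.trace (ZMod p) V (S ∘ₗ (m : V →ₗ[ZMod p] V)) =
        ∑ x : X, LinearMap.trace (ZMod p) V (((x : V ≃ₗ[ZMod p] V) * m : V ≃ₗ[ZMod p] V) :
          V →ₗ[ZMod p] V) := by
    intro m
    have h1 : S ∘ₗ (m : V →ₗ[ZMod p] V) = ∑ x : X, (((x : V ≃ₗ[ZMod p] V) * m :
        V ≃ₗ[ZMod p] V) : V →ₗ[ZMod p] V) := by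
      apply LinearMap.ext
      intro v
      simp only [S, LinearMap.comp_apply, LinearMap.sum_apply]
      rfl
    rw [h1, map_sum]
  have hinv : ∀ g ∈ H, LinearMap.trace (ZMod p) V (g : V →ₗ[ZMod p] V) =
      LinearMap.trace (ZMod p) V ((g⁻¹ : V ≃ₗ[ZMod p] V) : V →ₗ[ZMod p] V) := by
    intro g hg
    obtain ⟨t, -, ht⟩ := hreal g hg
    rw [← ht]
    exact (LinearMap.trace_conj' (g : V →ₗ[ZMod p] V) t).symm
  have hcyc : ∀ g k : V ≃ₗ[ZMod p] V,
      LinearMap.trace (ZMod p) V ((g * k : V ≃ₗ[ZMod p] V) : V →ₗ[ZMod p] V) =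
        LinearMap.trace (ZMod p) V ((k * g : V ≃ₗ[ZMod p] V) : V →ₗ[ZMod p] V) := by
    intro g k
    exact LinearMap.trace_mul_comm (ZMod p) (g : V →ₗ[ZMod p] V) (k : V →ₗ[ZMod p] V)
  have hkey : ∑ x : X, LinearMap.trace (ZMod p) V (((x : V ≃ₗ[ZMod p] V) * n : V ≃ₗ[ZMod p] V) :
          V →ₗ[ZMod p] V) = ∑ x : X, LinearMap.trace (ZMod p) V
            (((x : V ≃ₗ[ZMod p] V) * n⁻¹ : V ≃ₗ[ZMod p] V) : V →ₗ[ZMod p] V) := by
    refine Fintype.sum_equiv (Equiv.inv X) _ _ (fun x => ?_)
    rw [hinv _ (H.mul_mem (hXH x.2) hn), mul_inv_rev, hcyc]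
    rfl
  rw [← htr2, ← htr2, htr n c hnz, htr n⁻¹ c⁻¹ hninv] at hkey
  have hX0 : (Nat.card X : ZMod p) ≠ 0 := by
    rw [Ne, ZMod.natCast_eq_zero_iff]
    exact hp
  exact hc (mul_right_cancel₀ hX0 hkey)

/-- Lemma LG for a group acting on an additive group of exponent `p`. -/
theorem lg_add {p : ℕ} [Fact p.Prime] {N V : Type*} [Group N] [AddCommGroup V] [Finite V]
    (φ : N → V ≃+ V) (hmul : ∀ m n v, φ (m * n) v = φ m (φ n v)) (hV : ∀ v : V, p • v = 0)
    (hreal : ∀ g : N, ∃ t : N, t * g * t⁻¹ = g⁻¹)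
    (X : Subgroup N) (C : Subgroup N) (hC : ∀ c ∈ C, ∀ v, φ c v = v) (hp : ¬ p ∣ C.relIndex X)
    (z : V) (hz : z ≠ 0)
    (hXz : ∀ x ∈ X, φ x z = z) (n : N) (k : ℕ) (hk : (k : ZMod p) ≠ (k : ZMod p)⁻¹)
    (hnz : φ n z = k • z) :
    ∃ u : V, (∀ x ∈ X, φ x u = u) ∧ u ∉ AddSubgroup.zmultiples z := by
  classical
  letI : Module (ZMod p) V := AddCommGroup.zmodModule (n := p) hV
  have hone : ∀ v, φ 1 v = v := by
    intro v
    apply (φ 1).injective
    rw [← hmul, one_mul]
  let ψ : N →* (V ≃ₗ[ZMod p] V) :=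
    { toFun := fun m => (φ m).toLinearEquiv (fun c x => ZMod.map_smul _ c x)
      map_one' := by
        apply LinearEquiv.ext
        intro x
        exact hone x
      map_mul' := fun m m' => by
        apply LinearEquiv.ext
        intro x
        exact hmul m m' x }
  have hψ : ∀ (m : N) (v : V), ψ m v = φ m v := fun _ _ => rfl
  have hcard : Nat.card (X.map ψ) ∣ C.relIndex X := by
    have h1 : Nat.card (X.map ψ) = ((ψ.comp X.subtype).ker).index := by
      rw [Subgroup.index_ker]
      congr 1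
      have : (ψ.comp X.subtype).range = X.map ψ := by
        rw [MonoidHom.range_comp, Subgroup.range_subtype]
      rw [this]
    rw [h1]
    apply Subgroup.index_dvd_of_le
    intro x hx
    rw [MonoidHom.mem_ker]
    apply LinearEquiv.ext
    intro v
    exact hC _ hx v
  obtain ⟨u, hu1, hu2⟩ := lg ψ.range (X.map ψ) (fun h => hp (h.trans hcard))
    (by
      rintro _ ⟨g, rfl⟩
      obtain ⟨t, ht⟩ := hreal g
      exact ⟨ψ t, ⟨t, rfl⟩, by rw [← map_inv, ← map_mul, ← map_mul, ht, map_inv]⟩)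
    (by rw [MonoidHom.range_eq_map]; exact Subgroup.map_mono le_top)
    z hz
    (by
      rintro _ ⟨x, hx, rfl⟩
      rw [hψ, hXz x hx])
    (ψ n) ⟨n, rfl⟩ (k : ZMod p) hk
    (by rw [hψ, hnz, Nat.cast_smul_eq_nsmul])
  refine ⟨u, fun x hx => hu1 (ψ x) ⟨x, hx, rfl⟩, fun hu => hu2 ?_⟩
  obtain ⟨j, hj⟩ := AddSubgroup.mem_zmultiples_iff.mp hu
  rw [Submodule.mem_span_singleton]
  refine ⟨(j : ZMod p), ?_⟩
  rw [Int.cast_smul_eq_zsmul]
  exact hj

/-- Lemma LG for subgroups of a group: `N` acts by conjugation on the elementary abelian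
subgroup `A`; `X ≤ N` centralizes `z`, and `p` does not divide `|X : C|`, where `C ≤ X`
centralizes `A`. -/
theorem lg_group {p : ℕ} [Fact p.Prime] {G : Type*} [Group G] (N A X : Subgroup G) [Finite A]
    (hNA : ∀ n ∈ N, ∀ a ∈ A, n * a * n⁻¹ ∈ A)
    (hA : ∀ a ∈ A, ∀ b ∈ A, a * b = b * a) (hAp : ∀ a ∈ A, a ^ p = 1)
    (hreal : ∀ g ∈ N, ∃ t ∈ N, t * g * t⁻¹ = g⁻¹)
    (hXN : X ≤ N) (z : G) (hzA : z ∈ A) (hz : z ≠ 1) (hXz : ∀ x ∈ X, x * z * x⁻¹ = z)
    (C : Subgroup G) (hCA : ∀ c ∈ C, ∀ a ∈ A, c * a * c⁻¹ = a)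
    (hp : ¬ p ∣ C.relIndex X)
    (n : G) (hn : n ∈ N) (k : ℕ) (hk : (k : ZMod p) ≠ (k : ZMod p)⁻¹)
    (hnz : n * z * n⁻¹ = z ^ k) :
    ∃ u ∈ A, (∀ x ∈ X, x * u * x⁻¹ = u) ∧ u ∉ Subgroup.zpowers z := by
  classical
  letI : CommGroup A :=
    { (inferInstance : Group A) with
      mul_comm := fun a b => Subtype.ext (hA a a.2 b b.2) }
  let φ : N →* MulAut A :=
    { toFun := fun m =>
        { toFun := fun a => ⟨m * a * m⁻¹, hNA m m.2 a a.2⟩
          invFun := fun a => ⟨(m : G)⁻¹ * a * m, by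
            have := hNA (m : G)⁻¹ (N.inv_mem m.2) a a.2
            rwa [inv_inv] at this⟩
          left_inv := fun a => Subtype.ext (by simp [mul_assoc])
          right_inv := fun a => Subtype.ext (by simp [mul_assoc])
          map_mul' := fun a b => Subtype.ext (by simp [mul_assoc]) }
      map_one' := by
        apply MulEquiv.ext
        intro a
        exact Subtype.ext (by simp)
      map_mul' := fun m m' => by
        apply MulEquiv.ext
        intro a
        exact Subtype.ext (by simp [mul_assoc]) }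
  have hφ : ∀ (m : N) (a : A), ((φ m a : A) : G) = m * a * (m : G)⁻¹ := fun _ _ => rfl
  obtain ⟨u, hu1, hu2⟩ := lg_add (V := Additive A)
    (fun m => MulEquiv.toAdditive (φ m))
    (fun m n v => by rw [map_mul]; rfl) (fun a => Subtype.ext (hAp a.toMul a.toMul.2))
    (fun g => by
      obtain ⟨t, ht, htg⟩ := hreal g g.2
      exact ⟨⟨t, ht⟩, Subtype.ext htg⟩)
    (X.subgroupOf N) (C.subgroupOf N) (fun c hc v => Subtype.ext (hCA c hc v.toMul v.toMul.2))
    (by
      rw [Subgroup.relIndex_subgroupOf hXN]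
      exact hp)
    (Additive.ofMul ⟨z, hzA⟩)
    (fun h => hz (congrArg (fun a : Additive A => (a.toMul : G)) h))
    (fun x hx => Subtype.ext (hXz x hx)) ⟨n, hn⟩ k hk (Subtype.ext hnz)
  refine ⟨u.toMul, u.toMul.2, fun x hx => ?_, fun hu => hu2 ?_⟩
  · exact congrArg (fun a : Additive A => (a.toMul : G)) (hu1 ⟨x, hXN hx⟩ hx)
  · obtain ⟨j, hj⟩ := hu
    exact ⟨j, Subtype.ext hj⟩

end Cfsg.Agent.H174.RatSyl
end

-- part: H174/RatCore
section
/-!
Core contradiction for Theorem H (Sylow `p`-subgroups of rational solvable groups are normal for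
`p ≥ 5`; used for S4162).
-/

set_option autoImplicit false

namespace Cfsg.Agent.H174.RatSyl

open Finset

/-! ### Small group facts -/

theorem mem_of_pow_mem {N : Type*} [Group N] (M : Subgroup N) {p i : ℕ} (hp : 1 < p)
    (hi : i.Coprime p) {a : N} (ha : a ^ p = 1) (h : a ^ i ∈ M) : a ∈ M := by
  obtain ⟨k, -, hk⟩ := Nat.exists_mul_mod_eq_one_of_coprime hi hp
  have h1 : (a ^ i) ^ k = a := by
    rw [← pow_mul, ← Nat.mod_add_div (i * k) p, hk, pow_add, pow_mul, ha, one_pow, mul_one,
      pow_one]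
  rw [← h1]
  exact M.pow_mem h k

theorem conj_step {N : Type*} [Group N] {n m z : N} {l r : ℤ} (h1 : n * m * n⁻¹ = m⁻¹)
    (h2 : m * z * m⁻¹ = z ^ l) (h3 : n⁻¹ * z * n = z ^ r) : m * m * z * (m * m)⁻¹ = z := by
  have h4 : m⁻¹ * z * m = z ^ l := by
    calc m⁻¹ * z * m = (n * m * n⁻¹) * z * (n * m * n⁻¹)⁻¹ := by rw [h1, inv_inv]
      _ = n * (m * (n⁻¹ * z * n) * m⁻¹) * n⁻¹ := by group
      _ = n * (m * z * m⁻¹) ^ r * n⁻¹ := by rw [h3, conj_zpow]
      _ = n * (z ^ r) ^ l * n⁻¹ := by rw [h2, ← zpow_mul, ← zpow_mul, mul_comm]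
      _ = (n * (n⁻¹ * z * n) * n⁻¹) ^ l := by rw [h3, conj_zpow]
      _ = z ^ l := by group
  have h5 : m * z * m⁻¹ = m⁻¹ * z * m := by rw [h2, h4]
  calc m * m * z * (m * m)⁻¹ = m * (m * z * m⁻¹) * m⁻¹ := by group
    _ = m * (m⁻¹ * z * m) * m⁻¹ := by rw [h5]
    _ = z := by group

/-! ### Actions on additive groups -/

section action

variable {N V : Type*} [Group N] [AddCommGroup V] [DistribMulAction N V]

theorem fpf_pair (p : ℕ) (a b : N) (hab : a * b = b * a) (w : V)
    (ha : ∀ i, 0 < i → i < p → ∑ j ∈ range p, ((a ^ i) ^ j) • w = 0)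
    (hb : ∀ j, j < p → ∑ i ∈ range p, ((b * a ^ j) ^ i) • w = 0) : p • w = 0 := by
  have h1 : ∑ j ∈ range p, ∑ i ∈ range p, ((b * a ^ j) ^ i) • w = 0 :=
    Finset.sum_eq_zero (fun j hj => hb j (mem_range.mp hj))
  rw [Finset.sum_comm] at h1
  have h2 : ∀ i ∈ range p, ∑ j ∈ range p, ((b * a ^ j) ^ i) • w = if i = 0 then p • w else 0 := by
    intro i hi
    split_ifs with h
    · subst h
      simp
    · have h3 : ∀ j ∈ range p, ((b * a ^ j) ^ i) • w = b ^ i • (((a ^ i) ^ j) • w) := by
        intro j _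
        have hc : Commute b (a ^ j) := (show Commute b a from hab.symm).pow_right j
        rw [smul_smul, hc.mul_pow, ← pow_mul, ← pow_mul, mul_comm j i]
      rw [Finset.sum_congr rfl h3, ← Finset.smul_sum,
        ha i (Nat.pos_of_ne_zero h) (mem_range.mp hi), smul_zero]
  rw [Finset.sum_congr rfl h2, Finset.sum_ite_eq'] at h1
  split_ifs at h1 with h
  · exact h1
  · have : p = 0 := by
      simpa using h
    rw [this, zero_smul]

theorem norm_fixed (p : ℕ) (c : N) (hc : c ^ p = 1) (w : V) :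
    c • ∑ j ∈ range p, (c ^ j) • w = ∑ j ∈ range p, (c ^ j) • w := by
  rw [Finset.smul_sum]
  have h1 : ∀ j ∈ range p, c • (c ^ j) • w = (c ^ (j + 1)) • w := by
    intro j _
    rw [smul_smul, ← pow_succ']
  rw [Finset.sum_congr rfl h1]
  have h2 := Finset.sum_range_succ (fun j => (c ^ j) • w) p
  have h3 := Finset.sum_range_succ' (fun j => (c ^ j) • w) p
  rw [h3] at h2
  rw [hc, pow_zero] at h2
  exact add_right_cancel h2

/-- Choice of `M ≤ A` maximal with a nonzero fixed vector. -/
theorem exists_max_fix [Finite N] [Nontrivial V] (A : Subgroup N) :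
    ∃ M : Subgroup N, M ≤ A ∧ (∃ w : V, w ≠ 0 ∧ ∀ a ∈ M, a • w = w) ∧
      ∀ w : V, w ≠ 0 → (∀ a ∈ M, a • w = w) → ∀ b ∈ A, b • w = w → b ∈ M := by
  classical
  have hne : {M : Subgroup N | M ≤ A ∧ ∃ w : V, w ≠ 0 ∧ ∀ a ∈ M, a • w = w}.Nonempty := by
    obtain ⟨w, hw⟩ := exists_ne (0 : V)
    refine ⟨⊥, bot_le, w, hw, ?_⟩
    intro a ha
    rw [Subgroup.mem_bot.mp ha, one_smul]
  obtain ⟨M, hM⟩ := (Set.toFinite _).exists_maximal hne
  refine ⟨M, hM.1.1, hM.1.2, ?_⟩
  intro w hw hMw b hb hbw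
  have hle : M ≤ A ⊓ MulAction.stabilizer N w := by
    intro a ha
    exact ⟨hM.1.1 ha, MulAction.mem_stabilizer_iff.mpr (hMw a ha)⟩
  have h1 := hM.2 (y := A ⊓ MulAction.stabilizer N w)
    ⟨inf_le_left, w, hw, fun a ha => MulAction.mem_stabilizer_iff.mp ha.2⟩ hle
  exact h1 ⟨hb, MulAction.mem_stabilizer_iff.mpr hbw⟩

/-- `A / M` is cyclic. -/
theorem cyclic_mod [Nontrivial V] {p s : ℕ} (hp : p.Prime) (hs : s.Prime) (hsp : s ≠ p)
    (hVs : ∀ v : V, s • v = 0) (A M : Subgroup N) (hAc : ∀ a ∈ A, ∀ b ∈ A, a * b = b * a)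
    (hAp : ∀ a ∈ A, a ^ p = 1) (hMA : M ≤ A) (hM1 : ∃ w : V, w ≠ 0 ∧ ∀ a ∈ M, a • w = w)
    (hM2 : ∀ w : V, w ≠ 0 → (∀ a ∈ M, a • w = w) → ∀ b ∈ A, b • w = w → b ∈ M)
    {a b : N} (ha : a ∈ A) (haM : a ∉ M) (hb : b ∈ A) : ∃ j : ℕ, b * a ^ j ∈ M := by
  by_contra hcon
  push Not at hcon
  obtain ⟨w, hw, hMw⟩ := hM1
  have key : ∀ c ∈ A, c ∉ M → ∑ j ∈ range p, (c ^ j) • w = 0 := by
    intro c hc hcM
    by_contra hne
    refine hcM (hM2 _ hne ?_ c hc (norm_fixed p c (hAp c hc) w))
    intro x hx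
    rw [Finset.smul_sum]
    refine Finset.sum_congr rfl (fun j _ => ?_)
    rw [smul_smul, hAc x (hMA hx) _ (A.pow_mem hc j), ← smul_smul, hMw x hx]
  have h1 : p • w = 0 := by
    apply fpf_pair p a b (hAc a ha b hb) w
    · intro i hi0 hip
      refine key _ (A.pow_mem ha i) (fun h => haM ?_)
      exact mem_of_pow_mem M hp.one_lt
        (Nat.coprime_of_lt_prime hi0.ne' hip hp).symm (hAp a ha) h
    · intro j _
      exact key _ (A.mul_mem hb (A.pow_mem ha j)) (hcon j)
  have hcop : Nat.Coprime p s := (Nat.coprime_primes hp hs).mpr (Ne.symm hsp)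
  apply hw
  have h2 : ((p : ℤ) * p.gcdA s + s * p.gcdB s) • w = w := by
    rw [← Nat.gcd_eq_gcd_ab, hcop]
    simp
  rw [← h2, add_smul, mul_comm, mul_comm (s : ℤ), mul_smul, mul_smul]
  simp only [natCast_zsmul, h1, hVs, smul_zero, add_zero]

end action

/-! ### The choice of `z` and of `m` -/

theorem exists_z {N : Type*} [Group N] [Finite N] (A M : Subgroup N) [A.Normal] (hA1 : A ≠ ⊥)
    (hAmin : ∀ B : Subgroup N, B.Normal → B ≤ A → B ≠ ⊥ → B = A) (hM : ¬ A ≤ M) :
    ∃ z ∈ A, z ∉ M ∧ ∀ u ∈ A, u ≠ 1 → Subgroup.centralizer {z} ≤ Subgroup.centralizer {u} →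
      Subgroup.centralizer {u} ≤ Subgroup.centralizer {z} := by
  obtain ⟨x, hx, hx1⟩ := A.bot_or_exists_ne_one.resolve_left hA1
  obtain ⟨z1, ⟨hz1A, hz11⟩, hmax⟩ := Set.exists_max_image {z : N | z ∈ A ∧ z ≠ 1}
    (fun z => Nat.card (Subgroup.centralizer {z})) (Set.toFinite _) ⟨x, hx, hx1⟩
  have hK : Subgroup.normalClosure {z1} = A := by
    refine hAmin _ Subgroup.normalClosure_normal ?_ ?_
    · exact Subgroup.normalClosure_le_normal (Set.singleton_subset_iff.mpr hz1A)
    · intro h
      apply hz11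
      have : z1 ∈ Subgroup.normalClosure {z1} := Subgroup.subset_normalClosure rfl
      rw [h] at this
      exact Subgroup.mem_bot.mp this
  have hn : ∃ n : N, n * z1 * n⁻¹ ∉ M := by
    by_contra h
    push Not at h
    apply hM
    rw [← hK]
    refine (Subgroup.closure_le _).mpr ?_
    intro y hy
    obtain ⟨y', hy', hc⟩ := Group.mem_conjugatesOfSet_iff.mp hy
    rw [Set.mem_singleton_iff] at hy'
    subst hy'
    obtain ⟨n, rfl⟩ := isConj_iff.mp hc
    exact h n
  obtain ⟨n, hn⟩ := hn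
  refine ⟨n * z1 * n⁻¹, Subgroup.Normal.conj_mem inferInstance _ hz1A n, hn, ?_⟩
  intro u hu hu1 hle
  have h1 : Nat.card (Subgroup.centralizer {u}) ≤ Nat.card (Subgroup.centralizer {z1}) :=
    hmax u ⟨hu, hu1⟩
  have h2 : Nat.card (Subgroup.centralizer {z1}) ≤
      Nat.card (Subgroup.centralizer {n * z1 * n⁻¹}) := by
    refine Nat.card_le_card_of_injective
      (fun y : Subgroup.centralizer {z1} => (⟨n * y * n⁻¹, ?_⟩ :
        Subgroup.centralizer {n * z1 * n⁻¹})) ?_
    · have hy := y.2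
      rw [Subgroup.mem_centralizer_singleton_iff] at hy ⊢
      calc n * (y : N) * n⁻¹ * (n * z1 * n⁻¹) = n * ((y : N) * z1) * n⁻¹ := by group
        _ = n * (z1 * y) * n⁻¹ := by rw [hy]
        _ = n * z1 * n⁻¹ * (n * y * n⁻¹) := by group
    · intro a b hab
      have := congrArg Subtype.val hab
      exact Subtype.ext (mul_left_cancel (mul_right_cancel this))
  exact (Subgroup.eq_of_le_of_card_ge hle (h1.trans h2)).ge

theorem step5 {N : Type*} [Group N] {p : ℕ} (hp : p.Prime) (hp5 : 5 ≤ p)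
    (A M : Subgroup N) [A.Normal] (hAc : ∀ a ∈ A, ∀ b ∈ A, a * b = b * a)
    (hAp : ∀ a ∈ A, a ^ p = 1) (hMA : M ≤ A) {z : N} (hz : z ∈ A) (hzM : z ∉ M)
    {u : N} (huM : u ∈ M) (hu1 : u ≠ 1)
    (hzu : Subgroup.centralizer {z} ≤ Subgroup.centralizer {u})
    (hmax : ∀ u ∈ A, u ≠ 1 → Subgroup.centralizer {z} ≤ Subgroup.centralizer {u} →
      Subgroup.centralizer {u} ≤ Subgroup.centralizer {z}) {m : N}
    (hmu : m * u * m⁻¹ = u ^ 2) (hmM : ∀ a ∈ M, m * a * m⁻¹ ∈ M) :
    m * m * z * (m * m)⁻¹ * z⁻¹ ∉ M := by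
  intro hc
  have hup : u ^ p = 1 := hAp u (hMA huM)
  have hodd : Nat.Coprime 2 p := by
    have := (Nat.coprime_primes Nat.prime_two hp).mpr (by omega)
    exact this
  have huz : Subgroup.centralizer {u} ≤ Subgroup.centralizer {z} := hmax u (hMA huM) hu1 hzu
  -- `m` normalizes the centralizer
  have hXm : ∀ x ∈ Subgroup.centralizer {z}, m⁻¹ * x * m ∈ Subgroup.centralizer {z} := by
    intro x hx
    apply huz
    have h1 := hzu hx
    rw [Subgroup.mem_centralizer_singleton_iff] at h1 ⊢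
    have h2 : u = m⁻¹ * u ^ 2 * m := by
      rw [← hmu]
      group
    have h3 : Commute x (u ^ 2) := (show Commute x u from h1).pow_right 2
    calc m⁻¹ * x * m * u = m⁻¹ * x * m * (m⁻¹ * u ^ 2 * m) := by rw [← h2]
      _ = m⁻¹ * (x * u ^ 2) * m := by group
      _ = m⁻¹ * (u ^ 2 * x) * m := by rw [h3.eq]
      _ = (m⁻¹ * u ^ 2 * m) * (m⁻¹ * x * m) := by group
      _ = u * (m⁻¹ * x * m) := by rw [← h2]
  set c := m * m with hcdef
  have hcM : ∀ a ∈ M, c * a * c⁻¹ ∈ M := by
    intro a ha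
    have := hmM _ (hmM a ha)
    have h : c * a * c⁻¹ = m * (m * a * m⁻¹) * m⁻¹ := by rw [hcdef]; group
    rw [h]
    exact this
  have hXc : ∀ k : ℕ, ∀ x ∈ Subgroup.centralizer {z},
      (c ^ k)⁻¹ * x * c ^ k ∈ Subgroup.centralizer {z} := by
    intro k
    induction k with
    | zero => intro x hx; simpa using hx
    | succ k ih =>
      intro x hx
      have h1 := hXm _ (hXm _ (ih x hx))
      have h : (c ^ (k + 1))⁻¹ * x * c ^ (k + 1) =
          m⁻¹ * (m⁻¹ * ((c ^ k)⁻¹ * x * c ^ k) * m) * m := by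
        rw [pow_succ, mul_inv_rev, hcdef]
        group
      rw [h]
      exact h1
  have hcu1 : c * u * c⁻¹ = u ^ 4 := by
    have h : c * u * c⁻¹ = m * (m * u * m⁻¹) * m⁻¹ := by
      rw [hcdef]; group
    rw [h, hmu, ← conj_pow, hmu, ← pow_mul]
  have hcu : ∀ k : ℕ, c ^ k * u * (c ^ k)⁻¹ = u ^ (4 ^ k) := by
    intro k
    induction k with
    | zero => simp
    | succ k ih =>
      calc c ^ (k + 1) * u * (c ^ (k + 1))⁻¹ = c * (c ^ k * u * (c ^ k)⁻¹) * c⁻¹ := by
            rw [pow_succ']; group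
        _ = c * u ^ (4 ^ k) * c⁻¹ := by rw [ih]
        _ = (c * u * c⁻¹) ^ (4 ^ k) := by rw [conj_pow]
        _ = u ^ (4 ^ (k + 1)) := by rw [hcu1, ← pow_mul, pow_succ' 4 k]
  have hck : c ^ (p - 1) * z = z * c ^ (p - 1) := by
    have h1 : c ^ (p - 1) ∈ Subgroup.centralizer {u} := by
      rw [Subgroup.mem_centralizer_singleton_iff]
      have h2 := hcu (p - 1)
      have h3 : u ^ (4 ^ (p - 1)) = u := by
        have h4 : 4 ^ (p - 1) % p = 1 := by
          have h5 : Nat.Coprime 4 p := by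
            have : (4 : ℕ) = 2 ^ 2 := by norm_num
            rw [this]
            exact Nat.Coprime.pow_left 2 hodd
          have h6 := Nat.ModEq.pow_totient h5
          rw [Nat.totient_prime hp] at h6
          have h7 : (1 : ℕ) % p = 1 := Nat.mod_eq_of_lt hp.one_lt
          rw [Nat.ModEq, h7] at h6
          exact h6
        rw [← Nat.mod_add_div (4 ^ (p - 1)) p, h4, pow_add, pow_mul, hup, one_pow, mul_one,
          pow_one]
      rw [h3] at h2
      exact mul_inv_eq_iff_eq_mul.mp h2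
    exact Subgroup.mem_centralizer_singleton_iff.mp (huz h1)
  -- conjugates of `z`
  have h1 : ∀ k : ℕ, c ^ k * z * (c ^ k)⁻¹ * z⁻¹ ∈ M := by
    intro k
    induction k with
    | zero => simp
    | succ k ih =>
      have h : c ^ (k + 1) * z * (c ^ (k + 1))⁻¹ * z⁻¹ =
          (c * (c ^ k * z * (c ^ k)⁻¹ * z⁻¹) * c⁻¹) * (c * z * c⁻¹ * z⁻¹) := by
        rw [pow_succ']; group
      rw [h]
      exact M.mul_mem (hcM _ ih) hc
  have hg : ∀ k : ℕ, (z * c) ^ (k + 1) * (c ^ (k + 1))⁻¹ =
      ((z * c) ^ k * (c ^ k)⁻¹) * (c ^ k * z * (c ^ k)⁻¹) := by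
    intro k
    rw [pow_succ, pow_succ]
    group
  have h2 : ∀ k : ℕ, (z * c) ^ k * (c ^ k)⁻¹ ∈ A := by
    intro k
    induction k with
    | zero => simp
    | succ k ih =>
      rw [hg]
      exact A.mul_mem ih (Subgroup.Normal.conj_mem inferInstance _ hz _)
  have h3 : ∀ k : ℕ, Subgroup.centralizer {z} ≤
      Subgroup.centralizer {(z * c) ^ k * (c ^ k)⁻¹} := by
    intro k
    induction k with
    | zero =>
      intro x _
      rw [Subgroup.mem_centralizer_singleton_iff]
      simp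
    | succ k ih =>
      intro x hx
      rw [hg]
      have h4 := ih hx
      have h5 := hXc k x hx
      rw [Subgroup.mem_centralizer_singleton_iff] at h4 h5 ⊢
      have h6 : x * (c ^ k * z * (c ^ k)⁻¹) = (c ^ k * z * (c ^ k)⁻¹) * x := by
        calc x * (c ^ k * z * (c ^ k)⁻¹) = c ^ k * ((c ^ k)⁻¹ * x * c ^ k * z) * (c ^ k)⁻¹ := by
              group
          _ = c ^ k * (z * ((c ^ k)⁻¹ * x * c ^ k)) * (c ^ k)⁻¹ := by rw [h5]
          _ = (c ^ k * z * (c ^ k)⁻¹) * x := by group
      rw [← mul_assoc, h4, mul_assoc, h6]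
      simp only [mul_assoc]
  have h4 : ∀ k : ℕ, ((z * c) ^ k * (c ^ k)⁻¹) * (z ^ k)⁻¹ ∈ M := by
    intro k
    induction k with
    | zero => simp
    | succ k ih =>
      have h5 : ((z * c) ^ (k + 1) * (c ^ (k + 1))⁻¹) * (z ^ (k + 1))⁻¹ =
          (((z * c) ^ k * (c ^ k)⁻¹) * (z ^ k)⁻¹) * (c ^ k * z * (c ^ k)⁻¹ * z⁻¹) := by
        have h6 := hAc _ (hMA (h1 k)) _ (A.inv_mem (A.pow_mem hz k))
        rw [hg, mul_assoc _ (z ^ k)⁻¹, ← h6, pow_succ]
        group
      rw [h5]
      exact M.mul_mem ih (h1 k)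
  set b := (z * c) ^ (p - 1) * (c ^ (p - 1))⁻¹ with hb
  have hbA : b ∈ A := h2 _
  have hbM : b ∉ M := by
    intro h
    apply hzM
    have h5 : z ^ (p - 1) ∈ M := by
      have h6 := M.mul_mem (M.inv_mem (h4 (p - 1))) h
      have h7 : (b * (z ^ (p - 1))⁻¹)⁻¹ * b = z ^ (p - 1) := by
        rw [mul_inv_rev, inv_inv, mul_assoc, inv_mul_cancel, mul_one]
      rw [← h7]
      exact h6
    refine mem_of_pow_mem M hp.one_lt ?_ (hAp z hz) h5
    exact (Nat.coprime_of_lt_prime (by omega) (by omega) hp).symm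
  have hb1 : b ≠ 1 := fun h => hbM (h ▸ M.one_mem)
  have hbz : z⁻¹ * b * z = b := by
    rw [mul_assoc, hAc b hbA z hz, inv_mul_cancel_left]
  have hcb : c * b * c⁻¹ = b := by
    have h6 : c * (z * c) ^ (p - 1) = z⁻¹ * ((z * c) ^ (p - 1) * (z * c)) := by
      rw [← pow_succ, pow_succ', mul_assoc z c, inv_mul_cancel_left]
    calc c * b * c⁻¹ = c * (z * c) ^ (p - 1) * (c ^ (p - 1))⁻¹ * c⁻¹ := by rw [hb]; group
      _ = z⁻¹ * ((z * c) ^ (p - 1) * (z * c)) * (c ^ (p - 1))⁻¹ * c⁻¹ := by rw [h6]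
      _ = z⁻¹ * (z * c) ^ (p - 1) * (z * (c ^ (p - 1))⁻¹) := by group
      _ = z⁻¹ * (z * c) ^ (p - 1) * ((c ^ (p - 1))⁻¹ * z) := by
          congr 1
          have h7 : Commute z (c ^ (p - 1)) := hck.symm
          exact h7.inv_right.eq
      _ = z⁻¹ * b * z := by rw [hb]; group
      _ = b := hbz
  have hcX : c ∈ Subgroup.centralizer {u} := by
    apply hzu
    apply hmax b hbA hb1 (h3 _)
    rw [Subgroup.mem_centralizer_singleton_iff]
    exact mul_inv_eq_iff_eq_mul.mp hcb
  rw [Subgroup.mem_centralizer_singleton_iff] at hcX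
  have h8 := hcu 1
  rw [pow_one, pow_one, mul_inv_eq_iff_eq_mul.mpr hcX] at h8
  have h9 : u ^ 3 = 1 := by
    have : u ^ 3 * u = 1 * u := by
      rw [← pow_succ, one_mul]
      exact h8.symm
    exact mul_right_cancel this
  apply hu1
  have h10 := mem_of_pow_mem (⊥ : Subgroup N) (p := p) (i := 3) (a := u) hp.one_lt
    ((Nat.coprime_primes Nat.prime_three hp).mpr (by omega)) hup (by rw [h9]; exact one_mem _)
  exact Subgroup.mem_bot.mp h10

/-! ### `m` and `m⁻¹` act differently on `A / M` -/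

theorem core_conj {N : Type*} [Group N] {A M : Subgroup N} [A.Normal]
    (hAc : ∀ a ∈ A, ∀ b ∈ A, a * b = b * a) (hMA : M ≤ A) {z : N} (hz : z ∈ A)
    (hcyc : ∀ b ∈ A, ∃ j : ℕ, b * z ^ j ∈ M) {m n : N}
    (hm : m ∈ Subgroup.normalizer (M : Set N)) (hn : n ∈ Subgroup.normalizer (M : Set N))
    (h : n * m * n⁻¹ = m⁻¹) : m * m * z * (m * m)⁻¹ * z⁻¹ ∈ M := by
  have hzL : z ∈ Subgroup.normalizer (M : Set N) := by
    rw [Subgroup.mem_normalizer_iff]
    intro a
    constructor
    · intro ha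
      rw [hAc z hz a (hMA ha), mul_inv_cancel_right]
      exact ha
    · intro ha
      have h1 : a ∈ A := by
        have := Subgroup.Normal.conj_mem (inferInstance : A.Normal) _ (hMA ha) z⁻¹
        have h2 : z⁻¹ * (z * a * z⁻¹) * z⁻¹⁻¹ = a := by group
        rwa [h2] at this
      rw [hAc z hz a h1, mul_inv_cancel_right] at ha
      exact ha
  let L := Subgroup.normalizer (M : Set N)
  let π : L →* L ⧸ (M.subgroupOf L) := QuotientGroup.mk' _
  have hπ : ∀ x : L, π x = 1 ↔ (x : N) ∈ M := by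
    intro x
    rw [← Subgroup.mem_subgroupOf]
    exact QuotientGroup.eq_one_iff x
  obtain ⟨j, hj⟩ := hcyc _ (Subgroup.Normal.conj_mem (inferInstance : A.Normal) _ hz m)
  obtain ⟨r, hr⟩ := hcyc _ (Subgroup.Normal.conj_mem (inferInstance : A.Normal) _ hz n⁻¹)
  rw [inv_inv] at hr
  have h1 := (hπ (⟨m, hm⟩ * ⟨z, hzL⟩ * ⟨m, hm⟩⁻¹ * ⟨z, hzL⟩ ^ j)).mpr hj
  have h2 := (hπ (⟨n, hn⟩⁻¹ * ⟨z, hzL⟩ * ⟨n, hn⟩ * ⟨z, hzL⟩ ^ r)).mpr hr
  have h3 : (⟨n, hn⟩ * ⟨m, hm⟩ * ⟨n, hn⟩⁻¹ : L) = ⟨m, hm⟩⁻¹ := Subtype.ext h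
  have h4 := congrArg π h3
  simp only [map_mul, map_inv, map_pow] at h1 h2 h4
  have h5 := conj_step (l := -j) (r := -r) h4
    (by rw [zpow_neg, zpow_natCast]; exact eq_inv_of_mul_eq_one_left h1)
    (by rw [zpow_neg, zpow_natCast]; exact eq_inv_of_mul_eq_one_left h2)
  have h6 := (hπ (⟨m, hm⟩ * ⟨m, hm⟩ * ⟨z, hzL⟩ * (⟨m, hm⟩ * ⟨m, hm⟩)⁻¹ * ⟨z, hzL⟩⁻¹)).mp (by
    simp only [map_mul, map_inv]
    rw [h5, mul_inv_cancel])
  exact h6

/-! ### The norm argument -/

theorem core_norm {N V : Type*} [Group N] [AddCommGroup V] [DistribMulAction N V] [Finite N]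
    [Finite V] {s : ℕ} (A M : Subgroup N) [A.Normal] (hAc : ∀ a ∈ A, ∀ b ∈ A, a * b = b * a)
    (hMA : M ≤ A) (hcard : (Nat.card M).Coprime s) (hVs : ∀ v : V, s • v = 0)
    (hM2 : ∀ w : V, w ≠ 0 → (∀ a ∈ M, a • w = w) → ∀ b ∈ A, b • w = w → b ∈ M)
    (w : V) (hw : w ≠ 0) (hMw : ∀ a ∈ M, a • w = w) (m : N) (hmw : m • w = w)
    (hm : m ∈ Subgroup.normalizer (M : Set N))
    (h3 : ∀ w' : V, ∃ (v : V) (n : N), n * m * n⁻¹ = m⁻¹ ∧ n • w' = -v - m⁻¹ • w' + m⁻¹ • v)
    (hn : ∀ n : N, n * m * n⁻¹ = m⁻¹ → ∃ a ∈ M, n * a * n⁻¹ ∉ M) : False := by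
  classical
  have hfM : Fintype M := Fintype.ofFinite M
  have hm1 : ∀ a ∈ M, m * a * m⁻¹ ∈ M := fun a ha => (Subgroup.mem_normalizer_iff.mp hm a).mp ha
  have hm2 : ∀ a ∈ M, m⁻¹ * a * m ∈ M := fun a ha => (Subgroup.mem_normalizer_iff''.mp hm a).mp ha
  let W : AddSubgroup V :=
    { carrier := {v | ∀ a ∈ M, a • v = v}
      zero_mem' := fun a _ => smul_zero a
      add_mem' := fun {x y} hx hy a ha => by rw [smul_add, hx a ha, hy a ha]
      neg_mem' := fun {x} hx a ha => by rw [smul_neg, hx a ha] }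
  have hWm : ∀ v ∈ W, m • v ∈ W := by
    intro v hv a ha
    have h1 : a • m • v = m • (m⁻¹ * a * m) • v := by
      rw [smul_smul, smul_smul]
      congr 1
      group
    rw [h1, hv _ (hm2 a ha)]
  let θ : W →+ W :=
    { toFun := fun v => ⟨m • (v : V) - v, W.sub_mem (hWm v v.2) v.2⟩
      map_zero' := Subtype.ext (by simp)
      map_add' := fun x y => Subtype.ext (by
        simp only [AddSubgroup.coe_add, smul_add]
        abel) }
  have hninj : ¬ Function.Injective θ := by
    intro hinj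
    have h1 : θ ⟨w, hMw⟩ = θ 0 := by
      rw [map_zero]
      exact Subtype.ext (by simp [θ, hmw])
    exact hw (congrArg Subtype.val (hinj h1))
  rw [Finite.injective_iff_surjective] at hninj
  obtain ⟨w', hw'⟩ : ∃ w' : W, ∀ v : W, θ v ≠ w' := by
    by_contra hcon
    push Not at hcon
    exact hninj hcon
  obtain ⟨v, n, hnm, hv⟩ := h3 w'
  obtain ⟨a0, ha0, ha0M⟩ := hn n hnm
  let E : V →+ V := ∑ a : M, DistribSMul.toAddMonoidHom V (a : N)
  have hE : ∀ x : V, E x = ∑ a : M, (a : N) • x := by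
    intro x
    simp only [E, AddMonoidHom.finsetSum_apply]
    rfl
  have hE1 : ∀ x : V, ∀ a ∈ M, a • E x = E x := by
    intro x a ha
    rw [hE, Finset.smul_sum]
    refine Fintype.sum_equiv (Equiv.mulLeft (⟨a, ha⟩ : M)) _ _ (fun y => ?_)
    rw [smul_smul]
    rfl
  have hE2 : ∀ x : V, m⁻¹ • E x = E (m⁻¹ • x) := by
    intro x
    rw [hE, hE, Finset.smul_sum]
    let e : M ≃ M :=
      { toFun := fun a => ⟨m⁻¹ * a * m, hm2 a a.2⟩
        invFun := fun a => ⟨m * a * m⁻¹, hm1 a a.2⟩
        left_inv := fun a => Subtype.ext (by simp [mul_assoc])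
        right_inv := fun a => Subtype.ext (by simp [mul_assoc]) }
    refine Fintype.sum_equiv e _ _ (fun y => ?_)
    have h1 : ((e y : M) : N) = m⁻¹ * y * m := rfl
    rw [h1, smul_smul, smul_smul]
    congr 1
    group
  have hE3 : ∀ x ∈ W, E x = Nat.card M • x := by
    intro x hx
    have h1 : ∀ a : M, (a : N) • x = x := fun a => hx a a.2
    simp only [hE, h1, Finset.sum_const, Finset.card_univ, Nat.card_eq_fintype_card]
  have hE4 : E (n • (w' : V)) = 0 := by
    by_contra hne
    refine ha0M (hM2 _ hne (hE1 _) _ (Subgroup.Normal.conj_mem inferInstance _ (hMA ha0) n) ?_)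
    rw [hE, Finset.smul_sum]
    refine Finset.sum_congr rfl (fun a _ => ?_)
    rw [smul_smul, hAc _ (Subgroup.Normal.conj_mem inferInstance _ (hMA ha0) n) a (hMA a.2),
      mul_smul]
    congr 1
    have h1 : (n * a0 * n⁻¹) • n • (w' : V) = n • a0 • (w' : V) := by
      rw [smul_smul, smul_smul]
      congr 1
      group
    rw [h1, w'.2 a0 ha0]
  rw [hv, map_add, map_sub, map_neg, ← hE2, ← hE2, hE3 _ w'.2] at hE4
  have heW : E v ∈ W := hE1 v
  have h5 : (Nat.card M) • (w' : V) = m • (-E v) - (-E v) := by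
    have h6 := congrArg (fun x => m • x) hE4
    simp only [smul_add, smul_sub, smul_neg, smul_inv_smul, smul_zero] at h6
    rw [smul_neg]
    have h7 : (Nat.card M) • (w' : V) = -(m • E v) + E v - (-(m • E v) - Nat.card M • (w' : V) + E v) := by
      abel
    rw [h7, h6]
    abel
  have h6 : θ ⟨-E v, W.neg_mem heW⟩ = (Nat.card M) • w' := Subtype.ext h5.symm
  refine hw' (((Nat.card M).gcdA s) • ⟨-E v, W.neg_mem heW⟩) ?_
  rw [map_zsmul, h6]
  have h8 : ((Nat.card M : ℤ) * (Nat.card M).gcdA s + s * (Nat.card M).gcdB s) • w' = w' := by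
    rw [← Nat.gcd_eq_gcd_ab, hcard]
    simp
  have h9 : s • w' = 0 := Subtype.ext (hVs w')
  rw [add_smul, mul_comm, mul_comm (s : ℤ), mul_smul, mul_smul] at h8
  simp only [natCast_zsmul, h9, smul_zero, add_zero] at h8
  exact h8

/-! ### The core contradiction -/

theorem core {N V : Type*} [Group N] [AddCommGroup V] [DistribMulAction N V] [Finite N]
    [Finite V] [Nontrivial V] {p s : ℕ} (hp : p.Prime) (hp5 : 5 ≤ p) (hs : s.Prime) (hsp : s ≠ p)
    (hVs : ∀ v : V, s • v = 0)
    (P A : Subgroup N) [A.Normal] (hPA : ∀ x ∈ P, ∀ a ∈ A, x * a = a * x)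
    (hPi : ¬ p ∣ P.index) (hAc : ∀ a ∈ A, ∀ b ∈ A, a * b = b * a) (hAp : ∀ a ∈ A, a ^ p = 1)
    (hA1 : A ≠ ⊥) (hAmin : ∀ B : Subgroup N, B.Normal → B ≤ A → B ≠ ⊥ → B = A)
    (hCA : ∀ v : V, (∀ a ∈ A, a • v = v) → v = 0)
    (h1 : ∀ (n : N) (k : ℕ), k.Coprime (orderOf n) → ∃ t, t * n * t⁻¹ = n ^ k)
    (h1' : ∀ n : N, ∃ t, t * n * t⁻¹ = n⁻¹)
    (h2 : ∀ (w : V) (a : N), a ∈ A → a • w = w → ∃ m : N, m • w = w ∧ m * a * m⁻¹ = a ^ 2)
    (h3 : ∀ (w : V) (m : N), ∃ (v : V) (n : N), n * m * n⁻¹ = m⁻¹ ∧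
      n • w = -v - m⁻¹ • w + m⁻¹ • v) : False := by
  obtain ⟨M, hMA, hM1, hM2⟩ := exists_max_fix (V := V) A
  have hAM : ¬ A ≤ M := by
    intro h
    obtain ⟨w, hw, hMw⟩ := hM1
    exact hw (hCA w (fun a ha => hMw a (h ha)))
  obtain ⟨z, hzA, hzM, hmax⟩ := exists_z A M hA1 hAmin hAM
  have hz1 : z ≠ 1 := fun h => hzM (h ▸ M.one_mem)
  have hcyc : ∀ b ∈ A, ∃ j : ℕ, b * z ^ j ∈ M := fun b hb =>
    cyclic_mod hp hs hsp hVs A M hAc hAp hMA hM1 hM2 hzA hzM hb
  have : Fact p.Prime := ⟨hp⟩
  have hord : orderOf z = p := orderOf_eq_prime (hAp z hzA) hz1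
  obtain ⟨n, hn⟩ := h1 z 2 (by
    rw [hord]
    exact (Nat.coprime_primes Nat.prime_two hp).mpr (by omega))
  have hPz : P ≤ Subgroup.centralizer {z} := by
    intro x hx
    rw [Subgroup.mem_centralizer_singleton_iff]
    exact hPA x hx z hzA
  obtain ⟨u, huA, hXu, huz⟩ := lg_group ⊤ A (Subgroup.centralizer {z})
    (fun n _ a ha => Subgroup.Normal.conj_mem inferInstance a ha n) hAc hAp
    (fun g _ => by
      obtain ⟨t, ht⟩ := h1' g
      exact ⟨t, trivial, ht⟩)
    le_top z hzA hz1
    (fun x hx => by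
      rw [Subgroup.mem_centralizer_singleton_iff] at hx
      rw [hx, mul_inv_cancel_right])
    P (fun c hc a ha => by rw [hPA c hc a ha, mul_inv_cancel_right])
    (fun h => hPi (h.trans (Dvd.intro _ (Subgroup.relIndex_mul_index hPz)))) n trivial 2
    (by
      intro h4
      have h5 : ((2 : ℕ) : ZMod p) ≠ 0 := by
        rw [Ne, ZMod.natCast_eq_zero_iff]
        exact fun h => absurd (Nat.le_of_dvd two_pos h) (by omega)
      have h6 : ((3 : ℕ) : ZMod p) = 0 := by
        have h7 : ((2 : ℕ) : ZMod p) * ((2 : ℕ) : ZMod p) = 1 := by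
          nth_rewrite 1 [h4]
          exact inv_mul_cancel₀ h5
        have h8 : ((3 : ℕ) : ZMod p) = ((2 : ℕ) : ZMod p) * ((2 : ℕ) : ZMod p) - 1 := by
          push_cast
          ring
        rw [h8, h7, sub_self]
      rw [ZMod.natCast_eq_zero_iff] at h6
      exact absurd (Nat.le_of_dvd (by norm_num) h6) (by omega)) hn
  obtain ⟨j, hj⟩ := hcyc u huA
  have hu01 : u * z ^ j ≠ 1 := by
    intro h
    apply huz
    rw [Subgroup.mem_zpowers_iff]
    exact ⟨-j, by rw [zpow_neg, zpow_natCast]; exact (eq_inv_of_mul_eq_one_left h).symm⟩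
  have hzu0 : Subgroup.centralizer {z} ≤ Subgroup.centralizer {u * z ^ j} := by
    intro x hx
    have h4 := hXu x hx
    rw [Subgroup.mem_centralizer_singleton_iff] at hx ⊢
    have h5 : Commute x u := mul_inv_eq_iff_eq_mul.mp h4
    have h6 : Commute x z := hx
    exact (h5.mul_right (h6.pow_right j)).eq
  obtain ⟨w, hw, hMw⟩ := hM1
  obtain ⟨m, hmw, hmu⟩ := h2 w (u * z ^ j) (hMA hj) (hMw _ hj)
  have hmM : ∀ a ∈ M, m * a * m⁻¹ ∈ M := by
    intro a ha
    refine hM2 w hw hMw _ (Subgroup.Normal.conj_mem inferInstance a (hMA ha) m) ?_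
    have h4 : m⁻¹ • w = w := by
      rw [inv_smul_eq_iff, hmw]
    rw [mul_smul, h4, mul_smul, hMw a ha, hmw]
  have hmnorm : m ∈ Subgroup.normalizer (M : Set N) := by
    have : Finite (M : Set N) := Subtype.finite
    exact Subgroup.mem_normalizer_fintype hmM
  have h5 := step5 hp hp5 A M hAc hAp hMA hzA hzM hj hu01 hzu0 hmax hmu hmM
  have hcard : (Nat.card M).Coprime s := by
    have h6 : IsPGroup p M := by
      intro a
      refine ⟨1, ?_⟩
      rw [pow_one]
      exact Subtype.ext (hAp a (hMA a.2))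
    obtain ⟨i, hi⟩ := IsPGroup.iff_card.mp h6
    rw [hi]
    exact Nat.Coprime.pow_left i ((Nat.coprime_primes hp hs).mpr (Ne.symm hsp))
  refine core_norm A M hAc hMA hcard hVs hM2 w hw hMw m hmw hmnorm (fun w' => h3 w' m) ?_
  intro n' hn'
  by_contra hcon
  push Not at hcon
  have hnnorm : n' ∈ Subgroup.normalizer (M : Set N) := by
    have : Finite (M : Set N) := Subtype.finite
    exact Subgroup.mem_normalizer_fintype hcon
  exact h5 (core_conj hAc hMA hzA hcyc hmnorm hnnorm hn')

end Cfsg.Agent.H174.RatSyl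
end

-- part: H174/RatSylow
section
/-!
**Theorem H** (used for S4162): in a finite rational solvable group the Sylow `p`-subgroups are
normal for `p ≥ 5`.
-/

set_option autoImplicit false
set_option linter.style.haveILetI false

namespace Cfsg.Agent.H174.RatSyl

open Cfsg.Agent.AH

universe u

/-! ### Minimal normal subgroups of solvable groups -/

theorem exists_min_normal (G : Type u) [Group G] [Finite G] [Group.IsSolvable G] [Nontrivial G] :
    ∃ V : Subgroup G, V.Normal ∧ V ≠ ⊥ ∧ (∀ K : Subgroup G, K.Normal → K ≤ V → K ≠ ⊥ → K = V) ∧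
      (∀ a ∈ V, ∀ b ∈ V, a * b = b * a) ∧ ∃ s : ℕ, s.Prime ∧ ∀ v ∈ V, v ^ s = 1 := by
  classical
  have hne : {V : Subgroup G | V.Normal ∧ V ≠ ⊥}.Nonempty :=
    ⟨⊤, inferInstance, top_ne_bot⟩
  obtain ⟨V, hV⟩ := (Set.toFinite _).exists_minimal hne
  obtain ⟨hVn, hV1⟩ := hV.1
  have hmin : ∀ K : Subgroup G, K.Normal → K ≤ V → K ≠ ⊥ → K = V := by
    intro K hK hKV hK1
    exact le_antisymm hKV (hV.2 (y := K) ⟨hK, hK1⟩ hKV)
  have hcomm : ⁅V, V⁆ = ⊥ := by
    by_contra h
    have h1 := hmin ⁅V, V⁆ inferInstance (Subgroup.commutator_le_left V V) h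
    exact (Group.IsSolvable.commutator_lt_of_ne_bot hV1).ne h1
  have hc : ∀ a ∈ V, ∀ b ∈ V, a * b = b * a := by
    intro a ha b hb
    have h1 := Subgroup.commutator_mem_commutator ha hb
    rw [hcomm, Subgroup.mem_bot, commutatorElement_eq_one_iff_mul_comm] at h1
    exact h1
  have hVnt : Nontrivial V := (Subgroup.nontrivial_iff_ne_bot V).mpr hV1
  obtain ⟨s, hs, hsd⟩ := Nat.exists_prime_and_dvd (n := Nat.card V)
    (Finite.one_lt_card_iff_nontrivial.mpr hVnt).ne'
  have : Fact s.Prime := ⟨hs⟩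
  obtain ⟨x, hx⟩ := exists_prime_orderOf_dvd_card' (G := V) s hsd
  let K : Subgroup G :=
    { carrier := {v | v ∈ V ∧ v ^ s = 1}
      one_mem' := ⟨V.one_mem, one_pow s⟩
      mul_mem' := fun {a b} ha hb => ⟨V.mul_mem ha.1 hb.1, by
        rw [(show Commute a b from hc a ha.1 b hb.1).mul_pow, ha.2, hb.2, one_mul]⟩
      inv_mem' := fun {a} ha => ⟨V.inv_mem ha.1, by rw [inv_pow, ha.2, inv_one]⟩ }
  have hK : K.Normal := ⟨fun v hv g => ⟨hVn.conj_mem v hv.1 g, by
    rw [conj_pow, hv.2, mul_one, mul_inv_cancel]⟩⟩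
  have hK1 : K ≠ ⊥ := by
    intro h
    have h1 : (x : G) ∈ K := ⟨x.2, by
      rw [← Subgroup.coe_pow, ← hx, pow_orderOf_eq_one, Subgroup.coe_one]⟩
    rw [h, Subgroup.mem_bot] at h1
    have h2 : x = 1 := Subtype.ext h1
    rw [h2, orderOf_one] at hx
    exact hs.one_lt.ne hx
  have hKV := hmin K hK (fun v hv => hv.1) hK1
  refine ⟨V, hVn, hV1, hmin, hc, s, hs, fun v hv => ?_⟩
  rw [← hKV] at hv
  exact hv.2

/-! ### Sylow subgroups and normal subgroups -/

theorem sup_normal_of_quotient {G : Type u} [Group G] [Finite G] {p : ℕ} [Fact p.Prime]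
    (P : Sylow p G) (K : Subgroup G) [K.Normal]
    (h : ∀ Q : Sylow p (G ⧸ K), (Q : Subgroup (G ⧸ K)).Normal) :
    ((P : Subgroup G) ⊔ K).Normal := by
  have h1 := h (P.mapSurjective (QuotientGroup.mk'_surjective K))
  rw [Sylow.coe_mapSurjective] at h1
  have h2 := h1.comap (QuotientGroup.mk' K)
  rw [Subgroup.comap_map_eq, QuotientGroup.ker_mk'] at h2
  exact h2

theorem normal_of_pnormal {G : Type u} [Group G] [Finite G] {p : ℕ} [Fact p.Prime]
    (P : Sylow p G) (K : Subgroup G) [K.Normal] (hK : IsPGroup p K)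
    (h : ∀ Q : Sylow p (G ⧸ K), (Q : Subgroup (G ⧸ K)).Normal) : (P : Subgroup G).Normal := by
  have h1 := sup_normal_of_quotient P K h
  have h2 : IsPGroup p ((P : Subgroup G) ⊔ K : Subgroup G) :=
    P.isPGroup'.to_sup_of_normal_right hK
  have h3 := P.is_maximal' h2 le_sup_left
  rw [h3] at h1
  exact h1

/-! ### Decomposition lemmas -/

theorem decomp_unique {G : Type u} [Group G] {V N : Subgroup G} (h : V ⊓ N = ⊥)
    {a b x y : G} (ha : a ∈ V) (hb : b ∈ V) (hx : x ∈ N) (hy : y ∈ N) (hxy : a * x = b * y) :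
    a = b ∧ x = y := by
  have h1 : b⁻¹ * a = y * x⁻¹ := by
    rw [eq_mul_inv_iff_mul_eq, mul_assoc, hxy, inv_mul_cancel_left]
  have h2 : b⁻¹ * a ∈ V ⊓ N :=
    ⟨V.mul_mem (V.inv_mem hb) ha, h1 ▸ N.mul_mem hy (N.inv_mem hx)⟩
  rw [h, Subgroup.mem_bot] at h2
  have h3 : a = b := (inv_mul_eq_one.mp h2).symm
  subst h3
  exact ⟨rfl, mul_left_cancel hxy⟩

theorem conj_reduce {G : Type u} [Group G] {V N : Subgroup G} [V.Normal] (h : V ⊓ N = ⊥)
    {v t x y : G} (hv : v ∈ V) (ht : t ∈ N) (hx : x ∈ N) (hy : y ∈ N)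
    (hxy : (v * t) * x * (v * t)⁻¹ = y) : t * x * t⁻¹ = y := by
  have htx : t * x * t⁻¹ ∈ N := N.mul_mem (N.mul_mem ht hx) (N.inv_mem ht)
  have h1 : (v * ((t * x * t⁻¹) * v⁻¹ * (t * x * t⁻¹)⁻¹)) * (t * x * t⁻¹) = 1 * y := by
    rw [← hxy]
    group
  exact (decomp_unique h (V.mul_mem hv (Subgroup.Normal.conj_mem inferInstance _
    (V.inv_mem hv) _)) V.one_mem htx hy h1).2

/-- The rationality conditions needed in the core argument. -/
theorem rat_conj_pair {G : Type u} [Group G] [Finite G] (hG : IsRat G) {p s : ℕ} (hp : p.Prime)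
    (hp3 : 3 ≤ p) (hs : s.Prime) (hsp : s ≠ p) (w a : G) (hw : w ^ s = 1) (ha : a ^ p = 1)
    (hwa : w * a = a * w) : ∃ g : G, g * w * g⁻¹ = w ∧ g * a * g⁻¹ = a ^ 2 := by
  have hcop : Nat.Coprime s p := (Nat.coprime_primes hs hp).mpr hsp
  have hc : Commute w a := hwa
  obtain ⟨k, hk1, hk2⟩ := Nat.chineseRemainder hcop 1 2
  obtain ⟨i, hi1, hi2⟩ := Nat.chineseRemainder hcop 1 0
  obtain ⟨j, hj1, hj2⟩ := Nat.chineseRemainder hcop 0 1
  have hmod : ∀ {x : G} {n u v : ℕ}, x ^ n = 1 → u ≡ v [MOD n] → x ^ u = x ^ v := by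
    intro x n u v hx huv
    rw [← Nat.mod_add_div u n, ← Nat.mod_add_div v n, pow_add, pow_add, pow_mul, pow_mul, hx,
      one_pow, one_pow, huv]
  have hks : k.Coprime s := by
    have h1 := hk1.gcd_eq
    rw [Nat.gcd_one_left] at h1
    exact h1
  have hkp : k.Coprime p := by
    have h1 := hk2.gcd_eq
    have h2 : Nat.gcd 2 p = 1 := (Nat.coprime_primes Nat.prime_two hp).mpr (by omega)
    rw [h2] at h1
    exact h1
  have hord : orderOf (w * a) ∣ s * p := by
    apply orderOf_dvd_of_pow_eq_one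
    rw [hc.mul_pow, pow_mul, hw, one_pow, mul_comm s p, pow_mul, ha, one_pow, one_mul]
  have hkc : k.Coprime (orderOf (w * a)) :=
    Nat.Coprime.coprime_dvd_right hord (Nat.Coprime.mul_right hks hkp)
  obtain ⟨g, hg⟩ := isConj_iff.mp (hG (w * a) k hkc)
  have hpow : ∀ n : ℕ, g * (w * a) ^ n * g⁻¹ = w ^ (k * n) * a ^ (k * n) := by
    intro n
    rw [← conj_pow, hg, ← pow_mul, hc.mul_pow]
  refine ⟨g, ?_, ?_⟩
  · have h1 := hpow i
    have e1 : w ^ i = w := by rw [hmod hw hi1, pow_one]
    have e2 : a ^ i = 1 := by rw [hmod ha hi2, pow_zero]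
    have e3 : w ^ (k * i) = w := by rw [hmod hw (hk1.mul hi1), mul_one, pow_one]
    have e4 : a ^ (k * i) = 1 := by rw [hmod ha (hk2.mul hi2), mul_zero, pow_zero]
    rw [hc.mul_pow, e1, e2, e3, e4, mul_one] at h1
    exact h1
  · have h1 := hpow j
    have e1 : w ^ j = 1 := by rw [hmod hw hj1, pow_zero]
    have e2 : a ^ j = a := by rw [hmod ha hj2, pow_one]
    have e3 : w ^ (k * j) = 1 := by rw [hmod hw (hk1.mul hj1), mul_zero, pow_zero]
    have e4 : a ^ (k * j) = a ^ 2 := by rw [hmod ha (hk2.mul hj2), mul_one]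
    rw [hc.mul_pow, e1, e2, e3, e4, one_mul, one_mul] at h1
    exact h1

theorem core_group {G : Type u} [Group G] [Finite G] (hG : IsRat G) {p s : ℕ} (hp : p.Prime)
    (hp5 : 5 ≤ p) (hs : s.Prime) (hsp : s ≠ p) (V N : Subgroup G) [V.Normal] (hV1 : V ≠ ⊥)
    (hVc : ∀ a ∈ V, ∀ b ∈ V, a * b = b * a) (hVs : ∀ v ∈ V, v ^ s = 1)
    (hVN : V ⊓ N = ⊥) (hsup : ∀ g : G, ∃ v ∈ V, ∃ n ∈ N, v * n = g)
    (P A : Subgroup N) [A.Normal] (hPA : ∀ x ∈ P, ∀ a ∈ A, x * a = a * x)
    (hPi : ¬ p ∣ P.index) (hAc : ∀ a ∈ A, ∀ b ∈ A, a * b = b * a) (hAp : ∀ a ∈ A, a ^ p = 1)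
    (hA1 : A ≠ ⊥) (hAmin : ∀ B : Subgroup N, B.Normal → B ≤ A → B ≠ ⊥ → B = A)
    (hCA : ∀ v ∈ V, (∀ a ∈ A, (a : G) * v * (a : G)⁻¹ = v) → v = 1) : False := by
  letI : CommGroup V :=
    { (inferInstance : Group V) with
      mul_comm := fun a b => Subtype.ext (hVc a a.2 b b.2) }
  have hVn : ∀ (n : G) (v : G), v ∈ V → n * v * n⁻¹ ∈ V := fun n v hv =>
    Subgroup.Normal.conj_mem inferInstance v hv n
  letI : DistribMulAction N (Additive V) :=
    { smul := fun n v => Additive.ofMul ⟨(n : G) * ((v.toMul : V) : G) * (n : G)⁻¹,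
        hVn _ _ v.toMul.2⟩
      one_smul := fun v => congrArg Additive.ofMul (Subtype.ext
        (show (1 : G) * ((v.toMul : V) : G) * (1 : G)⁻¹ = ((v.toMul : V) : G) by group))
      mul_smul := fun m n v => congrArg Additive.ofMul (Subtype.ext
        (show ((m : G) * (n : G)) * ((v.toMul : V) : G) * ((m : G) * (n : G))⁻¹ =
          (m : G) * ((n : G) * ((v.toMul : V) : G) * (n : G)⁻¹) * (m : G)⁻¹ by group))
      smul_zero := fun n => congrArg Additive.ofMul (Subtype.ext
        (show (n : G) * (1 : G) * (n : G)⁻¹ = 1 by group))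
      smul_add := fun n v w => congrArg Additive.ofMul (Subtype.ext
        (show (n : G) * (((v.toMul : V) : G) * ((w.toMul : V) : G)) * (n : G)⁻¹ =
          ((n : G) * ((v.toMul : V) : G) * (n : G)⁻¹) *
            ((n : G) * ((w.toMul : V) : G) * (n : G)⁻¹) by group)) }
  have hsm : ∀ (n : N) (v : Additive V), (((n • v).toMul : V) : G) =
      (n : G) * ((v.toMul : V) : G) * (n : G)⁻¹ := fun _ _ => rfl
  have hext : ∀ (v w : Additive V), ((v.toMul : V) : G) = ((w.toMul : V) : G) → v = w := by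
    intro v w h
    exact congrArg Additive.ofMul (Subtype.ext h)
  haveI : Nontrivial (Additive V) := by
    have : Nontrivial V := (Subgroup.nontrivial_iff_ne_bot V).mpr hV1
    infer_instance
  refine core (N := N) (V := Additive V) hp hp5 hs hsp ?_ P A hPA hPi hAc hAp hA1 hAmin ?_ ?_ ?_ ?_
    ?_
  · intro v
    apply congrArg Additive.ofMul
    exact Subtype.ext (hVs _ v.toMul.2)
  · intro v hv
    apply hext
    refine hCA _ v.toMul.2 (fun a ha => ?_)
    rw [← hsm, hv a ha]
  · intro n k hk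
    rw [← Subgroup.orderOf_coe] at hk
    obtain ⟨g, hg⟩ := isConj_iff.mp (hG (n : G) k hk)
    obtain ⟨v, hv, t, ht, rfl⟩ := hsup g
    exact ⟨⟨t, ht⟩, Subtype.ext (conj_reduce hVN hv ht n.2 (N.pow_mem n.2 k) hg)⟩
  · intro n
    obtain ⟨g, hg⟩ := isConj_iff.mp (hG.inv (n : G))
    obtain ⟨v, hv, t, ht, rfl⟩ := hsup g
    exact ⟨⟨t, ht⟩, Subtype.ext (conj_reduce hVN hv ht n.2 (N.inv_mem n.2) hg)⟩
  · intro w a ha haw
    have h1 : (a : G) * ((w.toMul : V) : G) * (a : G)⁻¹ = ((w.toMul : V) : G) := by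
      rw [← hsm, haw]
    obtain ⟨g, hg1, hg2⟩ := rat_conj_pair hG hp (by omega) hs hsp ((w.toMul : V) : G) (a : G)
      (hVs _ w.toMul.2) (by rw [← Subgroup.coe_pow, hAp a ha, Subgroup.coe_one])
      (mul_inv_eq_iff_eq_mul.mp h1).symm
    obtain ⟨v, hv, t, ht, rfl⟩ := hsup g
    refine ⟨⟨t, ht⟩, hext _ _ ?_, Subtype.ext (conj_reduce hVN hv ht a.2 (N.pow_mem a.2 2) hg2)⟩
    rw [hsm]
    have h2 : v * t * ((w.toMul : V) : G) * (v * t)⁻¹ =
        v * (t * ((w.toMul : V) : G) * t⁻¹) * v⁻¹ := by group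
    rw [h2, hVc v hv _ (hVn _ _ w.toMul.2), mul_inv_cancel_right] at hg1
    exact hg1
  · intro w m
    obtain ⟨g, hg⟩ := isConj_iff.mp (hG.inv (((w.toMul : V) : G) * (m : G)))
    obtain ⟨v, hv, t, ht, rfl⟩ := hsup g
    have hw := w.toMul.2
    set w0 : G := ((w.toMul : V) : G) with hw0
    have h1 : (v * (t * w0 * t⁻¹) * ((t * m * t⁻¹) * v⁻¹ * (t * m * t⁻¹)⁻¹)) * (t * m * t⁻¹) =
        ((m : G)⁻¹ * w0⁻¹ * (m : G)⁻¹⁻¹) * (m : G)⁻¹ := by
      calc (v * (t * w0 * t⁻¹) * ((t * m * t⁻¹) * v⁻¹ * (t * m * t⁻¹)⁻¹)) * (t * m * t⁻¹) =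
          (v * t) * (w0 * m) * (v * t)⁻¹ := by group
        _ = (w0 * m)⁻¹ := hg
        _ = _ := by group
    obtain ⟨h2, h3⟩ := decomp_unique hVN
      (V.mul_mem (V.mul_mem hv (hVn t _ hw)) (hVn _ _ (V.inv_mem hv)))
      (hVn _ _ (V.inv_mem hw)) (N.mul_mem (N.mul_mem ht m.2) (N.inv_mem ht)) (N.inv_mem m.2) h1
    refine ⟨Additive.ofMul ⟨v, hv⟩, ⟨t, ht⟩, Subtype.ext h3, ?_⟩
    rw [h3] at h2
    have h4 : (Additive.ofMul (⟨v, hv⟩ : V)) + (⟨t, ht⟩ : N) • w +
        m⁻¹ • (-Additive.ofMul (⟨v, hv⟩ : V)) = m⁻¹ • (-w) := by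
      apply hext
      exact h2
    rw [smul_neg, smul_neg] at h4
    have h5 : (⟨t, ht⟩ : N) • w = -(Additive.ofMul (⟨v, hv⟩ : V)) +
        ((Additive.ofMul (⟨v, hv⟩ : V)) + (⟨t, ht⟩ : N) • w +
        -(m⁻¹ • (Additive.ofMul (⟨v, hv⟩ : V)))) + m⁻¹ • (Additive.ofMul (⟨v, hv⟩ : V)) := by
      abel
    rw [h5, h4]
    abel

/-- A nontrivial normal `p`-subgroup contains a minimal normal subgroup which is central in the
`p`-subgroup and of exponent `p`. -/
theorem exists_min_in_pgroup {N : Type u} [Group N] [Finite N] {p : ℕ} (hp : p.Prime)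
    (P : Subgroup N) [P.Normal] (hP : IsPGroup p P) (hP1 : P ≠ ⊥) :
    ∃ A : Subgroup N, A.Normal ∧ A ≠ ⊥ ∧ (∀ x ∈ P, ∀ a ∈ A, x * a = a * x) ∧ A ≤ P ∧
      (∀ a ∈ A, a ^ p = 1) ∧ ∀ B : Subgroup N, B.Normal → B ≤ A → B ≠ ⊥ → B = A := by
  classical
  have hfact : Fact p.Prime := ⟨hp⟩
  have hPnt : Nontrivial P := (Subgroup.nontrivial_iff_ne_bot P).mpr hP1
  let Ω : Subgroup N :=
    { carrier := {x | x ∈ P ∧ (∀ y ∈ P, y * x = x * y) ∧ x ^ p = 1}
      one_mem' := ⟨P.one_mem, fun y _ => by simp, one_pow p⟩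
      mul_mem' := fun {a b} ha hb => ⟨P.mul_mem ha.1 hb.1, fun y hy => by
          rw [← mul_assoc, ha.2.1 y hy, mul_assoc, hb.2.1 y hy, mul_assoc], by
        rw [(show Commute a b from hb.2.1 a ha.1).mul_pow, ha.2.2, hb.2.2, one_mul]⟩
      inv_mem' := fun {a} ha => ⟨P.inv_mem ha.1, fun y hy => by
          have h1 : Commute y a := ha.2.1 y hy
          exact h1.inv_right.eq, by rw [inv_pow, ha.2.2, inv_one]⟩ }
  have hΩn : Ω.Normal := ⟨fun x hx g => ⟨Subgroup.Normal.conj_mem inferInstance x hx.1 g, by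
      intro y hy
      have h1 := hx.2.1 (g⁻¹ * y * g) (Subgroup.Normal.conj_mem' inferInstance y hy g)
      calc y * (g * x * g⁻¹) = g * ((g⁻¹ * y * g) * x) * g⁻¹ := by group
        _ = g * (x * (g⁻¹ * y * g)) * g⁻¹ := by rw [h1]
        _ = g * x * g⁻¹ * y := by group, by
      rw [conj_pow, hx.2.2, mul_one, mul_inv_cancel]⟩⟩
  have hΩ1 : Ω ≠ ⊥ := by
    intro h
    have hc : Nontrivial (Subgroup.center P) := hP.center_nontrivial
    have hcp : IsPGroup p (Subgroup.center P) := hP.to_subgroup _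
    obtain ⟨k, hk0, hk⟩ := (IsPGroup.nontrivial_iff_card hcp).mp hc
    obtain ⟨x, hx⟩ := exists_prime_orderOf_dvd_card' (G := Subgroup.center P) p (by
      rw [hk]
      exact dvd_pow_self p hk0.ne')
    have h1 : (((x : P)) : N) ∈ Ω := by
      refine ⟨(x : P).2, ?_, ?_⟩
      · intro y hy
        have h2 := Subgroup.mem_center_iff.mp x.2 ⟨y, hy⟩
        exact congrArg Subtype.val h2
      · have h2 : x ^ p = 1 := by rw [← hx, pow_orderOf_eq_one]
        exact congrArg (fun y : Subgroup.center P => (((y : P)) : N)) h2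
    rw [h, Subgroup.mem_bot] at h1
    have h2 : x = 1 := Subtype.ext (Subtype.ext h1)
    rw [h2, orderOf_one] at hx
    exact hp.one_lt.ne hx
  have hne : {B : Subgroup N | B.Normal ∧ B ≤ Ω ∧ B ≠ ⊥}.Nonempty := ⟨Ω, hΩn, le_rfl, hΩ1⟩
  obtain ⟨A, hA⟩ := (Set.toFinite _).exists_minimal hne
  refine ⟨A, hA.1.1, hA.1.2.2, fun x hx a ha => (hA.1.2.1 ha).2.1 x hx,
    fun a ha => (hA.1.2.1 ha).1, fun a ha => (hA.1.2.1 ha).2.2, ?_⟩
  intro B hB hBA hB1
  exact le_antisymm hBA (hA.2 (y := B) ⟨hB, hBA.trans hA.1.2.1, hB1⟩ hBA)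

theorem sylow_normal_aux {p : ℕ} (hp : p.Prime) (hp5 : 5 ≤ p) (n : ℕ) :
    ∀ (G : Type u) [Group G] [Finite G] [Group.IsSolvable G], Nat.card G = n → IsRat G →
      ∀ P : Sylow p G, (P : Subgroup G).Normal := by
  classical
  have hfact : Fact p.Prime := ⟨hp⟩
  induction n using Nat.strong_induction_on with
  | _ n ih =>
  intro G _ _ _ hcard hG P
  have hQ : ∀ K : Subgroup G, ∀ _ : K.Normal, K ≠ ⊥ → ∀ Q : Sylow p (G ⧸ K),
      (Q : Subgroup (G ⧸ K)).Normal := by
    intro K hK hK1 Q
    refine ih (Nat.card (G ⧸ K)) ?_ (G ⧸ K) rfl (hG.quotient K) Q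
    have h1 := Subgroup.card_eq_card_quotient_mul_card_subgroup K
    have h2 : 1 < Nat.card K :=
      Finite.one_lt_card_iff_nontrivial.mpr ((Subgroup.nontrivial_iff_ne_bot K).mpr hK1)
    have h3 : 0 < Nat.card (G ⧸ K) := Nat.card_pos
    rw [← hcard, h1]
    exact lt_mul_of_one_lt_right h3 h2
  by_contra hP
  have hop : ∀ K : Subgroup G, K.Normal → IsPGroup p K → K = ⊥ := by
    intro K hK hKp
    by_contra hK1
    exact hP (normal_of_pnormal P K hKp (hQ K hK hK1))
  have hnt : Nontrivial G := by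
    rcases subsingleton_or_nontrivial G with h | h
    · exact absurd ⟨fun x hx g => by rw [Subsingleton.elim (g * x * g⁻¹) x]; exact hx⟩ hP
    · exact h
  obtain ⟨V, hV, hV1, hVmin, hVc, s, hs, hVs⟩ := exists_min_normal G
  have hsp : s ≠ p := by
    rintro rfl
    refine hV1 (hop V hV ?_)
    intro v
    exact ⟨1, Subtype.ext (by rw [pow_one]; exact hVs v v.2)⟩
  have hPV : ((P : Subgroup G) ⊔ V).Normal := sup_normal_of_quotient P V (hQ V hV hV1)
  let N : Subgroup G := Subgroup.normalizer ((P : Subgroup G) : Set G)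
  have hPN : (P : Subgroup G) ≤ N := Subgroup.le_normalizer
  have hVNtop : V ⊔ N = ⊤ := by
    have h1 : N ⊔ ((P : Subgroup G) ⊔ V) = ⊤ :=
      Sylow.normalizer_sup_eq_top' P (N := (P : Subgroup G) ⊔ V) le_sup_left
    rw [← sup_assoc, sup_eq_left.mpr hPN] at h1
    rw [sup_comm]
    exact h1
  have hsup : ∀ g : G, ∃ v ∈ V, ∃ n ∈ N, v * n = g := by
    intro g
    have h1 : g ∈ V ⊔ N := by rw [hVNtop]; trivial
    exact Subgroup.mem_sup_of_normal_left.mp h1
  -- a normality criterion
  have hnorm : ∀ K : Subgroup G, (∀ k ∈ K, ∀ v ∈ V, v * k * v⁻¹ ∈ K) →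
      (∀ k ∈ K, ∀ n ∈ N, n * k * n⁻¹ ∈ K) → K.Normal := by
    intro K h1 h2
    refine ⟨fun k hk g => ?_⟩
    obtain ⟨v, hv, n, hn, rfl⟩ := hsup g
    have h3 : v * n * k * (v * n)⁻¹ = v * (n * k * n⁻¹) * v⁻¹ := by group
    rw [h3]
    exact h1 _ (h2 k hk n hn) v hv
  have hVN : V ⊓ N = ⊥ := by
    by_contra hne
    have h1 : (V ⊓ N).Normal := by
      apply hnorm
      · intro k hk v hv
        rw [hVc v hv k hk.1, mul_inv_cancel_right]
        exact hk
      · intro k hk n hn
        exact ⟨hV.conj_mem k hk.1 n, N.mul_mem (N.mul_mem hn hk.2) (N.inv_mem hn)⟩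
    have h2 := hVmin _ h1 inf_le_left hne
    have h3 : V ≤ N := inf_eq_left.mp h2
    rw [sup_eq_right.mpr h3] at hVNtop
    exact hP (Subgroup.normalizer_eq_top_iff.mp hVNtop)
  -- the Sylow subgroup inside its normalizer
  let P' : Subgroup N := (P : Subgroup G).subgroupOf N
  have hP'n : P'.Normal := Subgroup.normal_in_normalizer
  have hP'p : IsPGroup p P' := P.isPGroup'.comap_subtype
  have hP'1 : P' ≠ ⊥ := by
    intro h
    apply hP
    have h1 : (P : Subgroup G) = ⊥ := by
      rw [eq_bot_iff]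
      intro x hx
      have h2 : (⟨x, hPN hx⟩ : N) ∈ P' := hx
      rw [h, Subgroup.mem_bot] at h2
      exact Subgroup.mem_bot.mpr (congrArg Subtype.val h2)
    rw [h1]
    infer_instance
  obtain ⟨A, hAn, hA1, hPA, hAP, hAp, hAmin⟩ := exists_min_in_pgroup hp P' hP'p hP'1
  refine core_group hG hp hp5 hs hsp V N hV1 hVc hVs hVN hsup P' A hPA ?_
    (fun a ha b hb => hPA a (hAP ha) b hb) hAp hA1 hAmin ?_
  · intro h
    exact P.not_dvd_index (h.trans (Dvd.intro _ (Subgroup.relIndex_mul_index hPN)))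
  · -- `C_V(A) = 1`
    let C : Subgroup G :=
      { carrier := {v | v ∈ V ∧ ∀ a ∈ A, (a : G) * v * (a : G)⁻¹ = v}
        one_mem' := ⟨V.one_mem, fun a _ => by simp⟩
        mul_mem' := fun {x y} hx hy => ⟨V.mul_mem hx.1 hy.1, fun a ha => by
          have h1 : (a : G) * (x * y) * (a : G)⁻¹ =
              ((a : G) * x * (a : G)⁻¹) * ((a : G) * y * (a : G)⁻¹) := by group
          rw [h1, hx.2 a ha, hy.2 a ha]⟩
        inv_mem' := fun {x} hx => ⟨V.inv_mem hx.1, fun a ha => by
          have h1 : (a : G) * x⁻¹ * (a : G)⁻¹ = ((a : G) * x * (a : G)⁻¹)⁻¹ := by group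
          rw [h1, hx.2 a ha]⟩ }
    have hC : C.Normal := by
      apply hnorm
      · intro k hk v hv
        rw [hVc v hv k hk.1, mul_inv_cancel_right]
        exact hk
      · intro k hk n hn
        refine ⟨hV.conj_mem k hk.1 n, fun a ha => ?_⟩
        have h1 := hk.2 _ (hAn.conj_mem' a ha ⟨n, hn⟩)
        have h2 : (a : G) * (n * k * n⁻¹) * (a : G)⁻¹ =
            n * ((n⁻¹ * a * n) * k * (n⁻¹ * a * n)⁻¹) * n⁻¹ := by group
        rw [h2]
        congr 2
    have hC1 : C = ⊥ := by
      by_contra hne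
      have h1 := hVmin C hC (fun v hv => hv.1) hne
      have hA' : (A.map N.subtype).Normal := by
        apply hnorm
        · rintro _ ⟨a, ha, rfl⟩ v hv
          have h2 : v ∈ C := by rw [h1]; exact hv
          have h3 := h2.2 a ha
          have h4 : v * (a : G) * v⁻¹ = a := by
            rw [mul_inv_eq_iff_eq_mul, ← mul_inv_eq_iff_eq_mul.mp h3]
          refine ⟨a, ha, ?_⟩
          exact h4.symm
        · rintro _ ⟨a, ha, rfl⟩ n hn
          exact ⟨_, hAn.conj_mem a ha ⟨n, hn⟩, rfl⟩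
      have h5 := hop _ hA' (by
        rintro ⟨_, a, ha, rfl⟩
        refine ⟨1, Subtype.ext ?_⟩
        rw [pow_one]
        have h7 : ((a ^ p : N) : G) = 1 := congrArg Subtype.val (hAp a ha)
        rw [Subgroup.coe_pow] at h7
        exact h7)
      apply hA1
      rw [eq_bot_iff]
      intro a ha
      have h6 : (a : G) ∈ A.map N.subtype := ⟨a, ha, rfl⟩
      rw [h5, Subgroup.mem_bot] at h6
      exact Subgroup.mem_bot.mpr (Subtype.ext h6)
    intro v hv hvA
    have h1 : v ∈ C := ⟨hv, hvA⟩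
    rw [hC1] at h1
    exact Subgroup.mem_bot.mp h1

/-- **Theorem H.** In a finite rational solvable group every Sylow `p`-subgroup with `p ≥ 5` is
normal. -/
theorem sylow_normal_of_isRat {G : Type u} [Group G] [Finite G] [Group.IsSolvable G]
    (hG : IsRat G) {p : ℕ} (hp : p.Prime) (hp5 : 5 ≤ p) (P : Sylow p G) :
    (P : Subgroup G).Normal :=
  sylow_normal_aux hp hp5 (Nat.card G) G rfl hG P

end Cfsg.Agent.H174.RatSyl
end

-- part: S4162
section
set_option autoImplicit false
set_option linter.unusedSectionVars false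
open Cfsg

namespace Cfsg.Agent.S4162

open Subgroup AH

section

variable {G : Type*} [Group G] [Finite G]

/-- Decomposition into the `p'`-part and the `p`-part. -/
theorem exists_decomp (p : ℕ) [hp : Fact p.Prime] (x : G) :
    ∃ g y : G, x = g * y ∧ (orderOf g).Coprime p ∧ (∃ k : ℕ, y ^ p ^ k = 1) ∧ g * y = y * g ∧
      ∀ z : G, z * x = x * z → z * g = g * z ∧ z * y = y * z := by
  have hn : orderOf x ≠ 0 := (orderOf_pos x).ne'
  have hmul : ordProj[p] (orderOf x) * ordCompl[p] (orderOf x) = orderOf x :=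
    Nat.ordProj_mul_ordCompl_eq_self _ p
  have hcop : (ordCompl[p] (orderOf x)).Coprime p :=
    (Nat.coprime_ordCompl hp.out hn).symm
  set m := ordCompl[p] (orderOf x) with hm
  set k := (orderOf x).factorization p with hk
  have hcop' : m.Coprime (p ^ k) := Nat.Coprime.pow_right k hcop
  obtain ⟨j, hj1, hj2⟩ := Nat.chineseRemainder hcop' 1 0
  obtain ⟨l, hl1, hl2⟩ := Nat.chineseRemainder hcop' 0 1
  refine ⟨x ^ j, x ^ l, ?_, ?_, ⟨k, ?_⟩, ?_, ?_⟩
  · rw [← pow_add]
    conv_lhs => rw [← pow_one x]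
    rw [pow_eq_pow_iff_modEq, ← hmul, mul_comm]
    apply (Nat.modEq_and_modEq_iff_modEq_mul hcop').mp
    constructor
    · simpa using (hj1.add hl1).symm
    · simpa using (hj2.add hl2).symm
  · apply Nat.Coprime.coprime_dvd_left _ hcop
    rw [orderOf_dvd_iff_pow_eq_one, ← pow_mul, ← orderOf_dvd_iff_pow_eq_one, ← hmul]
    exact mul_dvd_mul ((Nat.modEq_zero_iff_dvd).mp hj2) dvd_rfl
  · rw [← pow_mul, ← orderOf_dvd_iff_pow_eq_one, ← hmul, mul_comm]
    exact mul_dvd_mul ((Nat.modEq_zero_iff_dvd).mp hl1) dvd_rfl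
  · exact (Commute.refl x).pow_pow j l
  · intro z hz
    exact ⟨Commute.pow_right hz j, Commute.pow_right hz l⟩

theorem pElement_mem {p : ℕ} [hp : Fact p.Prime] (P : Sylow p G) [hPn : (P : Subgroup G).Normal]
    {y : G} {k : ℕ} (hy : y ^ p ^ k = 1) : y ∈ (P : Subgroup G) := by
  have h1 : IsPGroup p (zpowers y) := by
    obtain ⟨j, -, hj⟩ := (Nat.dvd_prime_pow hp.out).mp (orderOf_dvd_of_pow_eq_one hy)
    exact IsPGroup.of_card (n := j) (by rw [Nat.card_zpowers, hj])
  obtain ⟨Q, hQ⟩ := h1.exists_le_sylow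
  have : Subsingleton (Sylow p G) := by
    have := Sylow.unique_of_normal P hPn
    infer_instance
  rw [Subsingleton.elim P Q]
  exact hQ (mem_zpowers y)

theorem inv_pair (hG : IsRat G) {g h : G} (hgh : Commute g h)
    (hc : (orderOf g).Coprime (orderOf h)) :
    ∃ k : G, k * g * k⁻¹ = g ∧ k * h * k⁻¹ = h⁻¹ := by
  obtain ⟨e, he1, he2⟩ := Nat.chineseRemainder hc 1 (orderOf h - 1)
  obtain ⟨i, hi1, hi2⟩ := Nat.chineseRemainder hc 1 0
  have hpos := orderOf_pos h
  have hhinv : h ^ (orderOf h - 1) = h⁻¹ := by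
    rw [eq_inv_iff_mul_eq_one, ← pow_succ, Nat.sub_add_cancel hpos, pow_orderOf_eq_one]
  have hge : g ^ e = g := by
    conv_rhs => rw [← pow_one g]
    exact pow_eq_pow_iff_modEq.mpr he1
  have hhe : h ^ e = h⁻¹ := by
    rw [← hhinv]
    exact pow_eq_pow_iff_modEq.mpr he2
  have hgi : g ^ i = g := by
    conv_rhs => rw [← pow_one g]
    exact pow_eq_pow_iff_modEq.mpr hi1
  have hhi : h ^ i = 1 := by
    rw [← orderOf_dvd_iff_pow_eq_one]
    exact (Nat.modEq_zero_iff_dvd).mp hi2
  have hcop : e.Coprime (orderOf (g * h)) := by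
    rw [hgh.orderOf_mul_eq_mul_orderOf_of_coprime hc]
    apply Nat.Coprime.mul_right
    · unfold Nat.Coprime
      rw [he1.gcd_eq]; simp
    · unfold Nat.Coprime
      rw [he2.gcd_eq]
      have h1 : (orderOf h - 1) + 1 = orderOf h := by omega
      have h2 : Nat.gcd (orderOf h - 1) ((orderOf h - 1) + 1) = 1 := by simp
      rwa [h1] at h2
  obtain ⟨k, hk⟩ := isConj_iff.mp (hG (g * h) e hcop)
  rw [hgh.mul_pow, hge, hhe] at hk
  have hkg : k * g * k⁻¹ = g := by
    have h1 : (k * (g * h) * k⁻¹) ^ i = k * (g * h) ^ i * k⁻¹ := conj_pow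
    rw [hk, hgh.mul_pow, hgi, hhi, mul_one, (hgh.inv_right).mul_pow, hgi, inv_pow, hhi, inv_one,
      mul_one] at h1
    exact h1.symm
  refine ⟨k, hkg, ?_⟩
  have h2 : k * (g * h) * k⁻¹ = (k * g * k⁻¹) * (k * h * k⁻¹) := by group
  rw [h2, hkg] at hk
  exact mul_left_cancel hk

theorem normal_subgroupOf_of_le_normalizer {X N : Subgroup G} (hXN : X ≤ N)
    (h : N ≤ normalizer (X : Set G)) : (X.subgroupOf N).Normal := by
  rw [normal_subgroupOf_iff hXN]
  intro x n hx hn
  exact (mem_normalizer_iff.mp (h hn) x).mp hx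

end

section

variable {G : Type*} [Group G] [Finite G] (hs : Group.IsSolvable G) (hAH : IsAH G)

include hs hAH

theorem sylow_normal {p : ℕ} [hp : Fact p.Prime] (hp5 : 5 ≤ p) (P : Sylow p G) :
    (P : Subgroup G).Normal :=
  H174.RatSyl.sylow_normal_of_isRat hAH.isRat hp.out hp5 P

theorem prime_le_five (q : ℕ) (hq : q.Prime) (hqd : q ∣ Nat.card G) : q ≤ 5 := by
  by_contra hlt
  have hqf : Fact q.Prime := ⟨hq⟩
  obtain ⟨P⟩ : Nonempty (Sylow q G) := inferInstance
  have hPn := sylow_normal hs hAH (by omega : 5 ≤ q) P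
  have hP1 : (P : Subgroup G) ⊓ centralizer ({1} : Set G) ≠ ⊥ := by
    have h1 : centralizer ({1} : Set G) = ⊤ := by
      rw [eq_top_iff]
      intro x _
      rw [mem_centralizer_singleton_iff]; simp
    rw [h1, inf_top_eq]
    intro h0
    have h2 : q ∣ Nat.card (P : Subgroup G) := P.dvd_card_of_dvd_card hqd
    rw [h0, card_bot] at h2
    exact hq.one_lt.ne' (Nat.dvd_one.mp h2)
  obtain ⟨h5, -⟩ := lemmaR hAH (by omega) P
    (fun r _ hr Q => sylow_normal hs hAH hr Q) 1 (by simp) hP1
  omega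

/-- The case analysis of an element whose centralizer order is divisible by 5. -/
theorem five_data (x : G) (hx : 5 ∣ cent x) :
    25 ∣ cent x ∧ (¬ 125 ∣ cent x → 3 ∣ cent x) := by
  classical
  have h5f : Fact (Nat.Prime 5) := ⟨by norm_num⟩
  obtain ⟨P⟩ : Nonempty (Sylow 5 G) := inferInstance
  have hPn := sylow_normal hs hAH le_rfl P
  obtain ⟨g, y, hxe, hg, ⟨k, hyk⟩, hgy, hcom⟩ := exists_decomp 5 x
  have hyP : y ∈ (P : Subgroup G) := pElement_mem P hyk
  -- centralizer of x
  have hCx : ∀ z, z ∈ centralizer ({x} : Set G) ↔ (z * g = g * z ∧ z * y = y * z) := by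
    intro z
    rw [mem_centralizer_singleton_iff]
    refine ⟨hcom z, ?_⟩
    rintro ⟨h1, h2⟩
    rw [hxe]
    calc z * (g * y) = z * g * y := by group
      _ = g * (z * y) := by rw [h1]; group
      _ = g * y * z := by rw [h2]; group
  have hY : (P : Subgroup G) ⊓ centralizer ({g} : Set G) ≠ ⊥ := by
    obtain ⟨t, ht⟩ := exists_prime_orderOf_dvd_card' (G := centralizer ({x} : Set G)) 5 hx
    intro h0
    have h1 : (t : G) ∈ (P : Subgroup G) ⊓ centralizer ({g} : Set G) := by
      refine ⟨pElement_mem (k := 1) P ?_, ?_⟩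
      · have h2 : t ^ 5 = 1 := by rw [← ht]; exact pow_orderOf_eq_one t
        have h3 : (t : G) ^ 5 = 1 := by exact_mod_cast congrArg Subtype.val h2
        simpa using h3
      · exact mem_centralizer_singleton_iff.mpr ((hCx t).mp t.2).1
    rw [h0, mem_bot] at h1
    have h2 : t = 1 := Subtype.ext h1
    rw [h2, orderOf_one] at ht
    omega
  obtain ⟨-, U, X, N, hN, hU25, hUle, hUY, hUX, hXN, h24, hR⟩ :=
    lemmaR hAH le_rfl P (fun r _ hr Q => sylow_normal hs hAH hr Q) g hg hY
  have hUC : U ≤ centralizer ({x} : Set G) := by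
    intro u hu
    rw [hCx]
    exact ⟨mem_centralizer_singleton_iff.mp (hUle hu).2,
      hUY u hu y ⟨hyP, mem_centralizer_singleton_iff.mpr hgy.symm⟩⟩
  have h25 : 25 ∣ cent x := by
    rw [← hU25]; exact card_dvd_of_le hUC
  refine ⟨h25, fun h125 => ?_⟩
  -- `P ∩ C(x) = U`
  have hPC : (P : Subgroup G) ⊓ centralizer ({x} : Set G) = U := by
    have hle : U ≤ (P : Subgroup G) ⊓ centralizer ({x} : Set G) :=
      le_inf (fun u hu => (hUle hu).1) hUC
    symm
    apply eq_of_le_of_card_ge hle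
    have hpg : IsPGroup 5 ((P : Subgroup G) ⊓ centralizer ({x} : Set G) : Subgroup G) :=
      P.isPGroup'.to_le inf_le_left
    obtain ⟨n, hn⟩ := IsPGroup.iff_card.mp hpg
    rw [hn, hU25]
    have hn2 : n ≤ 2 := by
      by_contra hlt
      apply h125
      have h1 : 5 ^ n ∣ cent x := by
        rw [← hn]; exact card_dvd_of_le inf_le_right
      exact (show (125 : ℕ) ∣ 5 ^ n by
        have : (125 : ℕ) = 5 ^ 3 := by norm_num
        rw [this]; exact pow_dvd_pow 5 (by omega)).trans h1
    calc 5 ^ n ≤ 5 ^ 2 := Nat.pow_le_pow_right (by norm_num) hn2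
      _ = 25 := by norm_num
  have hyU : y ∈ U := by
    rw [← hPC]
    exact ⟨hyP, (hCx y).mpr ⟨hgy.symm, rfl⟩⟩
  have hYU : (P : Subgroup G) ⊓ centralizer ({g} : Set G) = U := by
    apply le_antisymm _ hUle
    intro t ht
    rw [← hPC]
    refine ⟨ht.1, (hCx t).mpr ⟨mem_centralizer_singleton_iff.mp ht.2, (hUY y hyU t ht).symm⟩⟩
  have hXle : X ≤ centralizer ({g} : Set G) := fun z hz => by
    have := hXN hz
    rw [hN] at this
    exact this.1
  by_cases hy1 : y = 1
  · -- x = g
    have hxg : x = g := by rw [hxe, hy1, mul_one]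
    have h1 : 24 ∣ Nat.card N := by
      rw [← h24]; exact relIndex_dvd_card X N
    have h2 : N ≤ centralizer ({x} : Set G) := by
      rw [hxg, hN]; exact inf_le_left
    exact ((by norm_num : 3 ∣ 24).trans h1).trans (card_dvd_of_le h2)
  · have hCX : centralizer ({x} : Set G) = X := by rw [hxe]; exact hUX y hyU hy1
    have hgX : g ∈ X := by
      rw [← hCX, hCx]
      exact ⟨rfl, hgy⟩
    by_cases h3g : 3 ∣ orderOf g
    · have h1 : cent x = Nat.card X := by unfold cent; rw [hCX]
      rw [h1]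
      exact h3g.trans (Subgroup.orderOf_dvd_natCard X hgX)
    exfalso
    have hNX : N ≤ normalizer (X : Set G) := by rw [hN]; exact inf_le_right
    have hNg : ∀ n ∈ N, n * g = g * n := by
      intro n hn
      rw [hN] at hn
      exact mem_centralizer_singleton_iff.mp hn.1
    have hnorm := normal_subgroupOf_of_le_normalizer hXN hNX
    have h3f : Fact (Nat.Prime 3) := ⟨Nat.prime_three⟩
    have hM24 : Nat.card (N ⧸ X.subgroupOf N) = 24 := by
      rw [← index_eq_card]; exact h24
    -- an element of order 3 of N / X and a 3-element above it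
    obtain ⟨r, hr⟩ := exists_prime_orderOf_dvd_card' (G := N ⧸ X.subgroupOf N) 3
      (by rw [hM24]; norm_num)
    obtain ⟨h₀, hh₀⟩ := QuotientGroup.mk_surjective r
    -- replace by a 3-element
    have hn0 : orderOf h₀ ≠ 0 := (orderOf_pos h₀).ne'
    have hmul : ordProj[3] (orderOf h₀) * ordCompl[3] (orderOf h₀) = orderOf h₀ :=
      Nat.ordProj_mul_ordCompl_eq_self _ 3
    have hcop3 : (ordCompl[3] (orderOf h₀)).Coprime 3 :=
      (Nat.coprime_ordCompl Nat.prime_three hn0).symm
    obtain ⟨j, hj1, hj2⟩ := Nat.chineseRemainder hcop3 0 1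
    set h : N := h₀ ^ j with hh
    have hhr : (h : N ⧸ X.subgroupOf N) = r := by
      rw [hh, QuotientGroup.mk_pow, hh₀]
      conv_rhs => rw [← pow_one r]
      rw [pow_eq_pow_iff_modEq, hr]
      exact hj2
    have hh3 : h ^ (3 ^ (orderOf h₀).factorization 3) = 1 := by
      rw [hh, ← pow_mul, ← orderOf_dvd_iff_pow_eq_one]
      have hdv : ordProj[3] (orderOf h₀) * ordCompl[3] (orderOf h₀) ∣
          j * 3 ^ (orderOf h₀).factorization 3 := by
        rw [mul_comm]
        exact mul_dvd_mul ((Nat.modEq_zero_iff_dvd).mp hj1) dvd_rfl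
      rwa [hmul] at hdv
    have hgh : Commute g (h : G) := (hNg h h.2).symm
    have hco : (orderOf g).Coprime (orderOf (h : G)) := by
      have h1 : orderOf (h : G) ∣ 3 ^ (orderOf h₀).factorization 3 := by
        rw [orderOf_dvd_iff_pow_eq_one]
        exact_mod_cast congrArg Subtype.val hh3
      apply Nat.Coprime.coprime_dvd_right h1
      apply Nat.Coprime.pow_right
      rw [Nat.coprime_comm, Nat.Prime.coprime_iff_not_dvd Nat.prime_three]
      exact h3g
    obtain ⟨t, htg, hth⟩ := inv_pair hAH.isRat hgh hco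
    have htg' : t * g = g * t := mul_inv_eq_iff_eq_mul.mp htg
    -- t normalizes X
    have htX : t ∈ normalizer (X : Set G) := by
      have htyU : t * y * t⁻¹ ∈ U := by
        rw [← hYU]
        refine ⟨hPn.conj_mem y hyP t, ?_⟩
        apply mem_centralizer_singleton_iff.mpr
        have e1 : Commute t g := htg'
        have e2 : Commute y g := hgy.symm
        exact (e1.mul_left e2).mul_left e1.inv_left
      have hty1 : t * y * t⁻¹ ≠ 1 := by
        intro h0
        apply hy1
        have := mul_inv_eq_one.mp h0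
        exact mul_eq_left.mp this
      have hX2 := hUX _ htyU hty1
      have hX1 := hUX y hyU hy1
      have hconj : g * (t * y * t⁻¹) = t * (g * y) * t⁻¹ := by
        calc g * (t * y * t⁻¹) = (g * t) * y * t⁻¹ := by group
          _ = t * (g * y) * t⁻¹ := by rw [← htg']; group
      rw [mem_normalizer_iff]
      intro z
      have h1 : z ∈ X ↔ z * (g * y) = (g * y) * z := by
        rw [← hX1, mem_centralizer_singleton_iff]
      have h2 : t * z * t⁻¹ ∈ X ↔ t * z * t⁻¹ * (t * (g * y) * t⁻¹) =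
          (t * (g * y) * t⁻¹) * (t * z * t⁻¹) := by
        rw [← hX2, hconj, mem_centralizer_singleton_iff]
      rw [h1, h2]
      constructor
      · intro h3
        calc t * z * t⁻¹ * (t * (g * y) * t⁻¹) = t * (z * (g * y)) * t⁻¹ := by group
          _ = t * ((g * y) * z) * t⁻¹ := by rw [h3]
          _ = _ := by group
      · intro h3
        have h4 : t * (z * (g * y)) * t⁻¹ = t * ((g * y) * z) * t⁻¹ := by
          calc t * (z * (g * y)) * t⁻¹ = t * z * t⁻¹ * (t * (g * y) * t⁻¹) := by group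
            _ = _ := h3
            _ = _ := by group
        exact mul_left_cancel (mul_right_cancel h4)
    have htN : t ∈ N := by
      rw [hN]; exact mem_inf.mpr ⟨mem_centralizer_singleton_iff.mpr htg', htX⟩
    -- in the quotient
    let t' : N := ⟨t, htN⟩
    have hq : (t' : N ⧸ X.subgroupOf N) * r * (t' : N ⧸ X.subgroupOf N)⁻¹ = r⁻¹ := by
      rw [← hhr]
      have h1 : t' * h * t'⁻¹ = h⁻¹ := Subtype.ext hth
      rw [← QuotientGroup.mk_inv, ← QuotientGroup.mk_mul, ← QuotientGroup.mk_mul, h1,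
        QuotientGroup.mk_inv]
    -- the Sylow 3-subgroup generated by r
    have hRc : Nat.card (zpowers r) = 3 ^ (Nat.card (N ⧸ X.subgroupOf N)).factorization 3 := by
      rw [Nat.card_zpowers, hr, hM24]
      have : (24 : ℕ) = 3 ^ 1 * 2 ^ 3 := by norm_num
      rw [this, Nat.factorization_mul (by norm_num) (by norm_num),
        Nat.Prime.factorization_pow Nat.prime_three, Nat.Prime.factorization_pow Nat.prime_two]
      simp
    let R : Sylow 3 (N ⧸ X.subgroupOf N) := Sylow.ofCard (zpowers r) hRc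
    have hRe : (R : Subgroup (N ⧸ X.subgroupOf N)) = zpowers r := rfl
    have htR : (t' : N ⧸ X.subgroupOf N) ∈ normalizer (R : Set (N ⧸ X.subgroupOf N)) := by
      have h1 : (t' : N ⧸ X.subgroupOf N) ∈
          normalizer ((zpowers r : Subgroup (N ⧸ X.subgroupOf N)) : Set (N ⧸ X.subgroupOf N)) := by
        rw [mem_normalizer_iff]
        intro z
        have e1 : ∀ i : ℤ, (t' : N ⧸ X.subgroupOf N) * r ^ i * (t' : N ⧸ X.subgroupOf N)⁻¹ =
            r ^ (-i) := by
          intro i
          rw [← conj_zpow, hq, inv_zpow, zpow_neg]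
        constructor
        · rintro ⟨i, rfl⟩
          exact ⟨-i, (e1 i).symm⟩
        · rintro ⟨i, hi⟩
          refine ⟨-i, ?_⟩
          have e2 := e1 (-i)
          rw [neg_neg] at e2
          change r ^ i = _ at hi
          rw [hi] at e2
          exact mul_left_cancel (mul_right_cancel e2)
      exact h1
    have htC := hR hnorm R htR
    have h1 : r * (t' : N ⧸ X.subgroupOf N) = (t' : N ⧸ X.subgroupOf N) * r :=
      mem_centralizer_iff.mp htC r (mem_zpowers r)
    rw [← h1, mul_inv_cancel_right] at hq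
    have h2 : r ^ 2 = 1 := by rw [pow_two]; nth_rewrite 1 [hq]; simp
    have h3 := orderOf_dvd_of_pow_eq_one h2
    rw [hr] at h3
    omega

/-- Order four centralizers do not occur when 5 divides the order. -/
theorem cent_ne_four (h5 : 5 ∣ Nat.card G) (x : G) : cent x ≠ 4 := by
  intro hx
  have h5f : Fact (Nat.Prime 5) := ⟨by norm_num⟩
  obtain ⟨P⟩ : Nonempty (Sylow 5 G) := inferInstance
  have hPn := sylow_normal hs hAH le_rfl P
  have hP1 : (P : Subgroup G) ⊓ centralizer ({1} : Set G) ≠ ⊥ := by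
    have h1 : centralizer ({1} : Set G) = ⊤ := by
      rw [eq_top_iff]
      intro x _
      rw [mem_centralizer_singleton_iff]; simp
    rw [h1, inf_top_eq]
    intro h0
    have h2 : 5 ∣ Nat.card (P : Subgroup G) := P.dvd_card_of_dvd_card h5
    rw [h0, card_bot] at h2
    omega
  obtain ⟨-, U, X, N, hN, -, -, -, -, hXN, h24, hR⟩ := lemmaR hAH le_rfl P
    (fun r _ hr Q => sylow_normal hs hAH hr Q) 1 (by simp) hP1
  have hNX : N ≤ normalizer (X : Set G) := by rw [hN]; exact inf_le_right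
  have hnorm := normal_subgroupOf_of_le_normalizer hXN hNX
  have hM24 : Nat.card (N ⧸ X.subgroupOf N) = 24 := by
    rw [← index_eq_card]; exact h24
  obtain ⟨S, hS⟩ := H515.Ah.frattini24 N X hM24 (hR hnorm) (H515.Ah.h16 hAH.isRat hx)
  rw [H515.Ah.normalizer_sylow_two hs hAH.isRat.inv S] at hS
  obtain ⟨n, hn⟩ := IsPGroup.iff_card.mp S.isPGroup'
  rw [hn] at hS
  have := (Nat.prime_dvd_prime_iff_eq Nat.prime_three Nat.prime_two).mp
    (Nat.prime_three.dvd_of_dvd_pow hS)
  omega

end

/-- Let G be a non-trivial finite solvable group in which distinct conjugacy classes have distinct sizes. Then G is isomorphic to the symmetric group of degree 3. -/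
theorem result {G : Type*} [Group G] [Finite G] [Nontrivial G] (hG : Group.IsSolvable G)
    (h : Function.Injective fun C : ConjClasses G => Nat.card C.carrier) : Nonempty (G ≃* Equiv.Perm (Fin 3)) := by
  have hAH : IsAH G := h
  exact H668.DSend.end_game hAH (fun q hq hqd => prime_le_five hG hAH q hq hqd)
    (fun x hx => (five_data hG hAH x hx).1)
    (fun x hx hx' => (five_data hG hAH x ((by norm_num : 5 ∣ 25).trans hx)).2 hx')
    (fun h5 x => cent_ne_four hG hAH h5 x)
    (fun x hx => H515.Ah.h16 hAH.isRat hx)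
    (H515.Ah.h3 hAH.isRat)

end Cfsg.Agent.S4162
end
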