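import Cfsg.Statements.S4163
set_option linter.all false

set_option autoImplicit false
open Cfsg
open scoped commutatorElement

namespace Cfsg.Agent.S4163

/-- An element `[a, x]`, `a` in an abelian normal subgroup, has a larger centraliser than `x`,
if it is not trivial. -/
theorem card_centralizer_lt {G : Type*} [Group G] [Finite G] (A : Subgroup G) [hN : A.Normal]
    (hA : ∀ a ∈ A, ∀ b ∈ A, a * b = b * a) (x a : G) (ha : a ∈ A)
    (hne : a * x * a⁻¹ * x⁻¹ ≠ 1) :
    (Subgroup.centralizer ({a * x * a⁻¹ * x⁻¹} : Set G)).index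
      < (Subgroup.centralizer ({x} : Set G)).index := by
  classical
  set b : G := a * x * a⁻¹ * x⁻¹ with hb
  set C : Subgroup G := Subgroup.centralizer ({x} : Set G) with hC
  set B : Subgroup G := Subgroup.centralizer ({b} : Set G) with hB
  have hmemC : ∀ g : G, g ∈ C ↔ g * x = x * g := by
    intro g; rw [hC, Subgroup.mem_centralizer_singleton_iff]
  have hmemB : ∀ g : G, g ∈ B ↔ g * b = b * g := by
    intro g; rw [hB, Subgroup.mem_centralizer_singleton_iff]
  -- the map `φ y = y x y⁻¹ x⁻¹` on `A`
  have hφA : ∀ y ∈ A, y * x * y⁻¹ * x⁻¹ ∈ A := by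
    intro y hy
    have : x * y⁻¹ * x⁻¹ ∈ A := hN.conj_mem _ (A.inv_mem hy) x
    have h2 := A.mul_mem hy this
    simpa [mul_assoc] using h2
  have hbA : b ∈ A := hφA a ha
  have hAB : A ≤ B := by
    intro y hy
    rw [hmemB]; exact hA y hy b hbA
  set D : Subgroup G := C ⊓ B with hD
  -- size of `A / (A ∩ C)`
  have hDA : D.relIndex A = C.relIndex A := by
    have : D ⊓ A = C ⊓ A := by
      apply le_antisymm
      · exact le_inf (inf_le_left.trans inf_le_left) inf_le_right
      · exact le_inf (le_inf inf_le_left (inf_le_right.trans hAB)) inf_le_right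
    rw [← Subgroup.inf_relIndex_right D A, this, Subgroup.inf_relIndex_right]
  -- strict inequality
  have hlt : D.relIndex C < C.relIndex A := by
    -- cosets of `D` in `C` inject in the cosets of `C ∩ A` in `A`, missing the trivial one
    let φ : A → G := fun y => (y : G) * x * (y : G)⁻¹ * x⁻¹
    have hφ : ∀ y z : A, φ y = φ z ↔ (y : G)⁻¹ * (z : G) ∈ C := by
      intro y z
      simp only [φ]
      rw [hmemC]
      have hy := y.2
      have hz := z.2
      constructor
      · intro h
        have h1 : (y : G) * x * (y : G)⁻¹ = (z : G) * x * (z : G)⁻¹ := mul_right_cancel h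
        calc (y : G)⁻¹ * (z : G) * x = (y : G)⁻¹ * ((z : G) * x * (z : G)⁻¹) * z := by group
          _ = (y : G)⁻¹ * ((y : G) * x * (y : G)⁻¹) * z := by rw [h1]
          _ = x * ((y : G)⁻¹ * (z : G)) := by group
      · intro h
        have h1 : (y : G) * x * (y : G)⁻¹ = (z : G) * x * (z : G)⁻¹ := by
          calc (y : G) * x * (y : G)⁻¹ = (y : G) * (x * ((y : G)⁻¹ * (z : G))) * (z : G)⁻¹ := by group
            _ = (y : G) * ((y : G)⁻¹ * (z : G) * x) * (z : G)⁻¹ := by rw [h]
            _ = (z : G) * x * (z : G)⁻¹ := by group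
        rw [h1]
    have hcardimg : (Set.range φ).ncard = C.relIndex A := by
      rw [Subgroup.relIndex, Subgroup.index]
      symm
      rw [← Nat.card_coe_set_eq]
      refine Nat.card_congr ?_
      refine Equiv.ofBijective
        (Quotient.lift (fun y : A => (⟨φ y, y, rfl⟩ : Set.range φ)) ?_) ⟨?_, ?_⟩
      · intro y z h
        have h' : y⁻¹ * z ∈ C.subgroupOf A := QuotientGroup.leftRel_apply.mp h
        apply Subtype.ext
        exact (hφ y z).2 (by simpa [Subgroup.mem_subgroupOf] using h')
      · intro q r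
        refine Quotient.inductionOn₂ q r ?_
        intro y z h
        have h' : φ y = φ z := congrArg Subtype.val h
        apply Quotient.sound
        apply QuotientGroup.leftRel_apply.mpr
        rw [Subgroup.mem_subgroupOf]
        simpa using (hφ y z).1 h'
      · rintro ⟨_, y, rfl⟩
        exact ⟨Quotient.mk _ y, rfl⟩
    -- orbit of `b` under `C`
    let ψ : C → G := fun c => (c : G) * b * (c : G)⁻¹
    have hψ : ∀ y z : C, ψ y = ψ z ↔ (y : G)⁻¹ * (z : G) ∈ B := by
      intro y z
      simp only [ψ]
      rw [hmemB]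
      constructor
      · intro h1
        calc (y : G)⁻¹ * (z : G) * b = (y : G)⁻¹ * ((z : G) * b * (z : G)⁻¹) * z := by group
          _ = (y : G)⁻¹ * ((y : G) * b * (y : G)⁻¹) * z := by rw [h1]
          _ = b * ((y : G)⁻¹ * (z : G)) := by group
      · intro h
        calc (y : G) * b * (y : G)⁻¹ = (y : G) * (b * ((y : G)⁻¹ * (z : G))) * (z : G)⁻¹ := by group
            _ = (y : G) * ((y : G)⁻¹ * (z : G) * b) * (z : G)⁻¹ := by rw [h]
            _ = (z : G) * b * (z : G)⁻¹ := by group
    have hcardorb : (Set.range ψ).ncard = D.relIndex C := by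
      rw [hD, Subgroup.inf_relIndex_left, Subgroup.relIndex, Subgroup.index]
      symm
      rw [← Nat.card_coe_set_eq]
      refine Nat.card_congr ?_
      refine Equiv.ofBijective
        (Quotient.lift (fun y : C => (⟨ψ y, y, rfl⟩ : Set.range ψ)) ?_) ⟨?_, ?_⟩
      · intro y z h
        have h' : y⁻¹ * z ∈ B.subgroupOf C := QuotientGroup.leftRel_apply.mp h
        apply Subtype.ext
        exact (hψ y z).2 (by simpa [Subgroup.mem_subgroupOf] using h')
      · intro q r
        refine Quotient.inductionOn₂ q r ?_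
        intro y z h
        have h' : ψ y = ψ z := congrArg Subtype.val h
        apply Quotient.sound
        apply QuotientGroup.leftRel_apply.mpr
        rw [Subgroup.mem_subgroupOf]
        simpa using (hψ y z).1 h'
      · rintro ⟨_, y, rfl⟩
        exact ⟨Quotient.mk _ y, rfl⟩
    rw [← hcardimg, ← hcardorb]
    apply Set.ncard_lt_ncard _ (Set.toFinite _)
    refine ⟨?_, ?_⟩
    · rintro _ ⟨c, rfl⟩
      refine ⟨⟨(c : G) * a * (c : G)⁻¹, hN.conj_mem _ ha c⟩, ?_⟩
      simp only [φ, ψ]
      have hc : (c : G) * x = x * (c : G) := (hmemC _).1 c.2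
      have hc' : (c : G)⁻¹ * x = x * (c : G)⁻¹ := by
        calc (c : G)⁻¹ * x = (c : G)⁻¹ * (x * (c : G)) * (c : G)⁻¹ := by group
          _ = (c : G)⁻¹ * ((c : G) * x) * (c : G)⁻¹ := by rw [hc]
          _ = x * (c : G)⁻¹ := by group
      have hc'' : (c : G) * x⁻¹ = x⁻¹ * (c : G) := by
        calc (c : G) * x⁻¹ = x⁻¹ * (x * (c : G)) * x⁻¹ := by group
          _ = x⁻¹ * ((c : G) * x) * x⁻¹ := by rw [hc]
          _ = x⁻¹ * (c : G) := by group
      have hc3 : (c : G)⁻¹ * x⁻¹ = x⁻¹ * (c : G)⁻¹ := by
        calc (c : G)⁻¹ * x⁻¹ = x⁻¹ * (x * (c : G)⁻¹) * x⁻¹ := by group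
          _ = x⁻¹ * ((c : G)⁻¹ * x) * x⁻¹ := by rw [hc']
          _ = x⁻¹ * (c : G)⁻¹ := by group
      calc (c : G) * a * (c : G)⁻¹ * x * ((c : G) * a * (c : G)⁻¹)⁻¹ * x⁻¹
          = (c : G) * a * ((c : G)⁻¹ * x) * (c : G) * a⁻¹ * ((c : G)⁻¹ * x⁻¹) := by group
        _ = (c : G) * a * (x * (c : G)⁻¹) * (c : G) * a⁻¹ * (x⁻¹ * (c : G)⁻¹) := by rw [hc', hc3]
        _ = (c : G) * b * (c : G)⁻¹ := by rw [hb]; group
    · intro hsub
      have h1 : (1 : G) ∈ Set.range φ := ⟨1, by simp [φ]⟩
      obtain ⟨c, hc⟩ := hsub h1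
      simp only [ψ] at hc
      apply hne
      have : b = (c : G)⁻¹ * ((c : G) * b * (c : G)⁻¹) * c := by group
      rw [this, hc]; group
  -- conclusion
  have h1 : Nat.card C = Nat.card D * D.relIndex C := by
    have := Subgroup.relIndex_mul_relIndex (⊥ : Subgroup G) D C bot_le inf_le_left
    rw [Subgroup.relIndex_bot_left, Subgroup.relIndex_bot_left] at this
    exact this.symm
  have h2 : Nat.card B = Nat.card D * D.relIndex B := by
    have := Subgroup.relIndex_mul_relIndex (⊥ : Subgroup G) D B bot_le inf_le_right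
    rw [Subgroup.relIndex_bot_left, Subgroup.relIndex_bot_left] at this
    exact this.symm
  have h3 : D.relIndex A ≤ D.relIndex B :=
    Subgroup.relIndex_le_of_le_right hAB (by
      have := Nat.card_pos (α := B)
      rw [h2] at this
      exact (Nat.pos_of_mul_pos_left this).ne')
  have hlt2 : Nat.card C < Nat.card B := by
    rw [h1, h2]
    exact Nat.mul_lt_mul_of_pos_left (lt_of_lt_of_le (hDA ▸ hlt) h3) Nat.card_pos
  have e1 := Subgroup.card_mul_index C
  have e2 := Subgroup.card_mul_index B
  have hpos : 0 < Nat.card G := Nat.card_pos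
  by_contra hcon
  push Not at hcon
  have : Nat.card C * C.index < Nat.card B * B.index := by
    have hi : 0 < B.index := Nat.pos_of_ne_zero Subgroup.index_ne_zero_of_finite
    calc Nat.card C * C.index ≤ Nat.card C * B.index := Nat.mul_le_mul_left _ hcon
      _ < Nat.card B * B.index := Nat.mul_lt_mul_of_pos_right hlt2 hi
  omega

/-- Let G be a finite group with a normal abelian subgroup A satisfying C_G(A) = A. Suppose some conjugacy class of G has size greater than 1, let m be the smallest such size, and let M be the subgroup generated by the elements whose class has size 1 or m. Then M is nilpotent of class at most 3. -/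
theorem result {G : Type*} [Group G] [Finite G]
    (A : Subgroup G) [A.Normal] (hA : IsMulCommutative A) (hCA : Subgroup.centralizer (A : Set G) = A)
    (m : ℕ) (hm1 : 1 < m) (hm : ∃ x : G, (Subgroup.centralizer ({x} : Set G)).index = m) (hmin : ∀ x : G, 1 < (Subgroup.centralizer ({x} : Set G)).index → m ≤ (Subgroup.centralizer ({x} : Set G)).index) :
    Subgroup.upperCentralSeries ↥(Subgroup.closure {x : G | (Subgroup.centralizer ({x} : Set G)).index = 1 ∨ (Subgroup.centralizer ({x} : Set G)).index = m}) 3 = ⊤ := by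
  classical
  have hAc : ∀ a ∈ A, ∀ b ∈ A, a * b = b * a := by
    intro a ha b hb
    have := hA.is_comm.comm (⟨a, ha⟩ : A) ⟨b, hb⟩
    exact congrArg Subtype.val this
  set M : Subgroup G := Subgroup.closure {x : G | (Subgroup.centralizer ({x} : Set G)).index = 1 ∨ (Subgroup.centralizer ({x} : Set G)).index = m} with hM
  have hcen : ∀ x : G, (Subgroup.centralizer ({x} : Set G)).index = 1 → x ∈ Subgroup.center G := by
    intro x hx
    rw [Subgroup.index_eq_one] at hx
    rw [Subgroup.mem_center_iff]
    intro g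
    have : g ∈ Subgroup.centralizer ({x} : Set G) := by rw [hx]; trivial
    rwa [Subgroup.mem_centralizer_singleton_iff] at this
  -- the key: `[a, x]` central
  have key : ∀ a ∈ A, ∀ x ∈ M, ⁅a, x⁆ ∈ Subgroup.center G := by
    intro a ha x hx
    have hker : M ≤ (Subgroup.centralizer
        ((A.map (QuotientGroup.mk' (Subgroup.center G)) : Subgroup (G ⧸ Subgroup.center G)) :
          Set (G ⧸ Subgroup.center G))).comap (QuotientGroup.mk' (Subgroup.center G)) := by
      rw [hM, Subgroup.closure_le]
      intro y hy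
      rw [SetLike.mem_coe, Subgroup.mem_comap, Subgroup.mem_centralizer_iff]
      rintro _ ⟨c, hc, rfl⟩
      have hmem : c * y * c⁻¹ * y⁻¹ ∈ Subgroup.center G := by
        rcases hy with hy | hy
        · have h := hcen y hy
          have : c * y * c⁻¹ * y⁻¹ = 1 := by
            rw [Subgroup.mem_center_iff] at h
            rw [h c]; group
          rw [this]; exact Subgroup.one_mem _
        · by_cases h1 : c * y * c⁻¹ * y⁻¹ = 1
          · rw [h1]; exact Subgroup.one_mem _
          · have hlt := card_centralizer_lt A hAc y c hc h1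
            rw [hy] at hlt
            apply hcen
            by_contra hcon
            have h2 : 1 < (Subgroup.centralizer ({c * y * c⁻¹ * y⁻¹} : Set G)).index := by
              have : (Subgroup.centralizer ({c * y * c⁻¹ * y⁻¹} : Set G)).index ≠ 0 :=
                Subgroup.index_ne_zero_of_finite
              omega
            have := hmin _ h2
            omega
      rw [← map_mul, ← map_mul]
      rw [QuotientGroup.mk'_apply, QuotientGroup.mk'_apply, eq_comm, QuotientGroup.eq]
      have e : (y * c)⁻¹ * (c * y) = (y * c)⁻¹ * (c * y * c⁻¹ * y⁻¹) * (y * c) := by group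
      rw [e]
      have := (inferInstance : (Subgroup.center G).Normal).conj_mem _ hmem (y * c)⁻¹
      simpa using this
    have hx' := hker hx
    rw [Subgroup.mem_comap, Subgroup.mem_centralizer_iff] at hx'
    have h2 := hx' (QuotientGroup.mk' (Subgroup.center G) a) ⟨a, ha, rfl⟩
    have h3 : QuotientGroup.mk' (Subgroup.center G) ⁅a, x⁆ = 1 := by
      rw [commutatorElement_def, map_mul, map_mul, map_mul, h2, map_inv, map_inv]
      group
    rwa [QuotientGroup.mk'_apply, QuotientGroup.eq_one_iff] at h3
  have hAM : ⁅A, M⁆ ≤ Subgroup.center G := by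
    rw [Subgroup.commutator_le]
    exact key
  have hMA : ⁅M, A⁆ ≤ Subgroup.center G := by
    rw [Subgroup.commutator_comm]; exact hAM
  have hMM : ⁅M, M⁆ ≤ A := by
    have h0 : ⁅⁅M, M⁆, A⁆ = ⊥ := by
      apply Subgroup.commutator_commutator_eq_bot_of_rotate
      · rw [eq_bot_iff]
        refine (Subgroup.commutator_mono hMA le_top).trans ?_
        rw [Subgroup.commutator_le]
        intro g hg h _
        rw [Subgroup.mem_bot, commutatorElement_eq_one_iff_mul_comm]
        exact ((Subgroup.mem_center_iff.1 hg) h).symm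
      · rw [eq_bot_iff]
        refine (Subgroup.commutator_mono hAM le_top).trans ?_
        rw [Subgroup.commutator_le]
        intro g hg h _
        rw [Subgroup.mem_bot, commutatorElement_eq_one_iff_mul_comm]
        exact ((Subgroup.mem_center_iff.1 hg) h).symm
    have h1 : ⁅M, M⁆ ≤ Subgroup.centralizer (A : Set G) :=
      Subgroup.commutator_eq_bot_iff_le_centralizer.1 h0
    rwa [hCA] at h1
  rw [eq_top_iff]
  intro x _
  rw [Subgroup.mem_upperCentralSeries_succ_iff]
  intro y
  rw [Subgroup.mem_upperCentralSeries_succ_iff]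
  intro z
  rw [Subgroup.mem_upperCentralSeries_succ_iff]
  intro w
  rw [Subgroup.upperCentralSeries_zero, Subgroup.mem_bot]
  apply Subtype.ext
  have h1 : ⁅(x : G), (y : G)⁆ ∈ A := hMM (Subgroup.commutator_mem_commutator x.2 y.2)
  have h2 : ⁅⁅(x : G), (y : G)⁆, (z : G)⁆ ∈ Subgroup.center G :=
    hAM (Subgroup.commutator_mem_commutator h1 z.2)
  have h3 : ⁅⁅⁅(x : G), (y : G)⁆, (z : G)⁆, (w : G)⁆ = 1 := by
    rw [commutatorElement_eq_one_iff_mul_comm]
    exact ((Subgroup.mem_center_iff.1 h2) w).symm
  simpa [commutatorElement_def] using h3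

end Cfsg.Agent.S4163
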