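import Cfsg.Statements.S4172
import Cfsg.Agent.S0081
import Cfsg.Agent.S0101
import Cfsg.Agent.S0575
import Cfsg.Agent.S0012
import Cfsg.Agent.Lib.GenFitting
import Cfsg.Agent.SignalizersComponents.CompBasic
import Cfsg.Agent.Lib.SubnormalJoin
import Cfsg.Agent.Lib.MinNormalNonabelian
import Cfsg.Agent.Transfer.FrobeniusFusion
set_option linter.all false

set_option autoImplicit false
open Cfsg

namespace Cfsg.Agent.S4172

open Subgroup
open scoped commutatorElement

/-- In a finite `p`-group `P` with `|P : Φ(P)| = p ^ 2`, a subgroup not contained in `Φ(P)` generates `P`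
together with one element. -/
theorem exists_gen {P : Type*} [Group P] [Finite P] {p : ℕ} [hp : Fact p.Prime]
    (hgen : (frattini P).index = p ^ 2) (K : Subgroup P) (hK : ¬ K ≤ frattini P) :
    ∃ x : P, K ⊔ zpowers x = ⊤ := by
  have hpp := hp.out
  by_cases h1 : K ⊔ frattini P = ⊤
  · refine ⟨1, ?_⟩
    rw [frattini_nongenerating h1]; simp
  · obtain ⟨x, hx⟩ : ∃ x : P, x ∉ K ⊔ frattini P := by
      by_contra hcon
      push Not at hcon
      exact h1 (eq_top_iff.2 fun x _ => hcon x)
    refine ⟨x, ?_⟩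
    have hdv : (K ⊔ frattini P).index ∣ p ^ 2 := by
      rw [← hgen]; exact Subgroup.index_dvd_of_le le_sup_right
    have hne2 : (K ⊔ frattini P).index ≠ p ^ 2 := by
      intro h
      have h2 : frattini P = K ⊔ frattini P := by
        apply Subgroup.eq_of_le_of_card_ge le_sup_right
        have e1 := Subgroup.card_mul_index (frattini P)
        have e2 := Subgroup.card_mul_index (K ⊔ frattini P)
        rw [h, ← hgen] at e2
        have : (frattini P).index ≠ 0 := Subgroup.index_ne_zero_of_finite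
        have h3 : Nat.card (frattini P) * (frattini P).index = Nat.card ↥(K ⊔ frattini P) * (frattini P).index := by
          rw [e1, e2]
        exact (Nat.eq_of_mul_eq_mul_right (Nat.pos_of_ne_zero this) h3).symm.le
      exact hK (le_sup_left.trans h2.symm.le)
    have hne0 : (K ⊔ frattini P).index ≠ 1 := by
      intro h; exact h1 (Subgroup.index_eq_one.1 h)
    have hidx : (K ⊔ frattini P).index = p := by
      obtain ⟨i, hi, hi'⟩ := (Nat.dvd_prime_pow hpp).1 hdv
      interval_cases i
      · exact absurd (by simpa using hi') h1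
      · simpa using hi'
      · exact absurd hi' hne2
    have h3 : (K ⊔ frattini P) ⊔ zpowers x = ⊤ := by
      have hd : ((K ⊔ frattini P) ⊔ zpowers x).index ∣ p := by
        rw [← hidx]; exact Subgroup.index_dvd_of_le le_sup_left
      rcases (Nat.dvd_prime hpp).1 hd with h | h
      · exact Subgroup.index_eq_one.1 h
      · exfalso
        have h4 : (K ⊔ frattini P) = (K ⊔ frattini P) ⊔ zpowers x := by
          apply Subgroup.eq_of_le_of_card_ge le_sup_left
          have e1 := Subgroup.card_mul_index (K ⊔ frattini P)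
          have e2 := Subgroup.card_mul_index ((K ⊔ frattini P) ⊔ zpowers x)
          rw [h, ← e1, hidx] at e2
          exact (Nat.eq_of_mul_eq_mul_right hpp.pos e2).le
        apply hx
        rw [h4]
        exact (le_sup_right : zpowers x ≤ _) (mem_zpowers x)
    apply frattini_nongenerating
    rw [eq_top_iff, ← h3]
    refine sup_le (sup_le ?_ le_sup_right) ?_
    · exact le_sup_left.trans le_sup_left
    · exact le_sup_right.trans le_sup_left

/-- The image of a group `K ⊔ ⟨x⟩` under a homomorphism killing `K` is cyclic. -/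
theorem isCyclic_map_of_gen {P Q : Type*} [Group P] [Group Q] (f : P →* Q) {K : Subgroup P} [K.Normal] {x : P}
    (hx : K ⊔ zpowers x = ⊤) (hK : K ≤ f.ker) : ∀ y : P, ∃ n : ℤ, f y = f x ^ n := by
  intro y
  have hz : y ∈ K ⊔ zpowers x := by rw [hx]; trivial
  obtain ⟨k, hk, w, hw, rfl⟩ := (Subgroup.mem_sup_of_normal_left).1 hz
  obtain ⟨n, rfl⟩ := Subgroup.mem_zpowers_iff.1 hw
  refine ⟨n, ?_⟩
  rw [map_mul, show f k = 1 from hK hk, one_mul, map_zpow]

/-- If `K` is normal in `P` and `K ⊔ ⟨x⟩ = P` then commutators of elements of `P` lie in `K`. -/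
theorem commutator_mem_of_gen {P : Type*} [Group P] (K : Subgroup P) [K.Normal] {x : P}
    (hx : K ⊔ zpowers x = ⊤) (a b : P) : a * b * a⁻¹ * b⁻¹ ∈ K := by
  obtain ⟨m, hm⟩ := isCyclic_map_of_gen (QuotientGroup.mk' K) hx (by simp) a
  obtain ⟨n, hn⟩ := isCyclic_map_of_gen (QuotientGroup.mk' K) hx (by simp) b
  rw [← QuotientGroup.eq_one_iff (N := K)]
  show (QuotientGroup.mk' K) (a * b * a⁻¹ * b⁻¹) = 1
  rw [map_mul, map_mul, map_mul, map_inv, map_inv, hm, hn, ← zpow_add, add_comm, zpow_add]
  group

section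

variable {G : Type*} [Group G] [Finite G] {p : ℕ} [hp : Fact p.Prime]

/-- A group with a normal `p`-complement and trivial `O_{p'}` is a `p`-group. -/
theorem isPGroup_of_complement {N : Type*} [Group N] [Finite N] (h : HasNormalPComplement p N)
    (hc : pPrimeCore p N = ⊥) : IsPGroup p N := by
  obtain ⟨Q, C, hCn, hC⟩ := h
  have h1 : (Nat.card C).Coprime p := by
    have := hC.index_eq_card
    rw [← this]
    exact ((Nat.Prime.coprime_iff_not_dvd hp.out).2 Q.not_dvd_index).symm
  have h2 : C = ⊥ := by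
    rw [eq_bot_iff, ← hc]; exact Lib.Cores.le_pPrimeCore hCn h1
  have h3 : (Q : Subgroup N) = ⊤ := by
    rw [h2] at hC
    exact Subgroup.isComplement'_bot_left.1 hC
  have := Q.isPGroup'
  rw [h3] at this
  exact this.of_equiv Subgroup.topEquiv

/-- If `N₁` is subnormal in `G`, normalised by the Sylow subgroup `P`, `N₁ ⊓ P ≤ Φ(P)` and
`O_{p'}(G) = 1` then `N₁` is a `p`-group. -/
theorem isPGroup_of_inf_le (P : Sylow p G) (hcore : pPrimeCore p G = ⊥) (N : Subgroup G)
    (hN : N.IsSubnormal) (hPN : (P : Subgroup G) ≤ normalizer (N : Set G))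
    (h : N ⊓ (P : Subgroup G) ≤ (frattini ↥(P : Subgroup G)).map (P : Subgroup G).subtype) :
    IsPGroup p N := by
  -- work in `H = P ⊔ N`
  let H : Subgroup G := (P : Subgroup G) ⊔ N
  have hPH : (P : Subgroup G) ≤ H := le_sup_left
  have hNH : N ≤ H := le_sup_right
  have hnorm : (N.subgroupOf H).Normal :=
    Subgroup.normal_subgroupOf_of_le_normalizer (sup_le hPN le_normalizer)
  let P' : Sylow p H := P.subtype hPH
  have hP' : (P' : Subgroup H) = (P : Subgroup G).subgroupOf H := rfl
  let e : ↥(P' : Subgroup H) ≃* ↥(P : Subgroup G) := Subgroup.subgroupOfEquivOfLe hPH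
  have hle : N.subgroupOf H ⊓ (P' : Subgroup H) ≤ (frattini P').map (P' : Subgroup H).subtype := by
    rintro ⟨x, hxH⟩ ⟨hx1, hx2⟩
    have hx1' : x ∈ N := hx1
    have hx2' : x ∈ (P : Subgroup G) := hx2
    obtain ⟨y, hy, hyx⟩ := h ⟨hx1', hx2'⟩
    have hz : e.symm y ∈ frattini ↥(P' : Subgroup H) :=
      frattini_le_comap_frattini_of_surjective (φ := e.symm.toMonoidHom) e.symm.surjective hy
    refine ⟨e.symm y, hz, ?_⟩
    apply Subtype.ext
    show (((e.symm y : ↥(P' : Subgroup H)) : H) : G) = x
    rw [← hyx]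
    rfl
  have h2 := S0081.result P' (N.subgroupOf H) hle
  have e2 : ↥(N.subgroupOf H) ≃* ↥N := Subgroup.subgroupOfEquivOfLe hNH
  have h3 : pPrimeCore p (N.subgroupOf H) = ⊥ := by
    have h5 : pPrimeCore p N = ⊥ := by
      have h6 := SignalizersComponents.CompBasic.map_subtype_pPrimeCore_of_subnormal p hN
      rw [hcore, inf_bot_eq, Subgroup.map_eq_bot_iff_of_injective _ N.subtype_injective] at h6
      exact h6
    have h6 := Lib.Cores.map_equiv_pPrimeCore e2 p
    rw [h5, Subgroup.map_eq_bot_iff_of_injective _ e2.injective] at h6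
    exact h6
  have h4 := isPGroup_of_complement h2 h3
  exact h4.of_equiv e2


/-- The two generation consequences for a subgroup `N` normalised by `P` and not meeting `P` in `Φ(P)`. -/
theorem gen_of_not_le (P : Sylow p G) (hgen : (frattini ↥(P : Subgroup G)).index = p ^ 2) (N : Subgroup G)
    (h : ¬ N ⊓ (P : Subgroup G) ≤ (frattini ↥(P : Subgroup G)).map (P : Subgroup G).subtype) :
    ∃ x : ↥(P : Subgroup G), N.subgroupOf (P : Subgroup G) ⊔ zpowers x = ⊤ := by
  apply exists_gen hgen
  intro hle
  apply h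
  rintro y ⟨hy1, hy2⟩
  exact ⟨⟨y, hy2⟩, hle (show (⟨y, hy2⟩ : ↥(P : Subgroup G)) ∈ N.subgroupOf (P : Subgroup G) from hy1), rfl⟩

end

end Cfsg.Agent.S4172

namespace Cfsg.Agent.S4172

open Subgroup
open scoped commutatorElement

section main

variable {G : Type*} [Group G] [Finite G] {p : ℕ} [hp : Fact p.Prime]

/-- A normal subgroup `V ≤ G` which is elementary abelian-like (commutative), contains the normal subgroup `N`;
`y ∈ V` commutes with the Sylow subgroup `P`, `V = N ⟨y⟩`, `y ∉ N`, `y ^ p = 1`; then some element `z ∈ V \ N` is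
centralised by the centraliser `K` of `V / N`. -/
theorem exists_fixed (P : Sylow p G) (N V K : Subgroup G)
    (hVn : V.Normal) (hVc : ∀ a ∈ V, ∀ b ∈ V, a * b = b * a)
    (hPK : (P : Subgroup G) ≤ K) (hK : ∀ g ∈ K, ∀ v ∈ V, g * v * g⁻¹ * v⁻¹ ∈ N)
    (y : G) (hyV : y ∈ V) (hyN : y ∉ N) (hyp : y ^ p = 1) (hyP : ∀ g ∈ (P : Subgroup G), g * y * g⁻¹ = y) :
    ∃ z ∈ V, z ∉ N ∧ ∀ g ∈ K, g * z * g⁻¹ = z := by
  classical
  let : CommGroup V := { (inferInstance : Group V) with
    mul_comm := fun a b => Subtype.ext (hVc a a.2 b b.2) }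
  let PK : Subgroup K := (P : Subgroup G).subgroupOf K
  have : Fintype (K ⧸ PK) := Fintype.ofFinite _
  let f : K ⧸ PK → V := Quotient.lift (s := QuotientGroup.leftRel PK)
    (fun g : K => (⟨(g : G) * y * (g : G)⁻¹, hVn.conj_mem y hyV g⟩ : V)) (by
      intro a b hab
      have hab' : a⁻¹ * b ∈ PK := QuotientGroup.leftRel_apply.1 hab
      have h1 : ((a : G)⁻¹ * b) ∈ (P : Subgroup G) := hab'
      apply Subtype.ext
      show (a : G) * y * (a : G)⁻¹ = (b : G) * y * (b : G)⁻¹
      have h2 := hyP _ h1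
      calc (a : G) * y * (a : G)⁻¹ = (a : G) * ((((a : G)⁻¹ * b)) * y * ((a : G)⁻¹ * b)⁻¹) * (a : G)⁻¹ := by rw [h2]
        _ = (b : G) * y * (b : G)⁻¹ := by group)
  have hf : ∀ g : K, f (g : K ⧸ PK) = (⟨(g : G) * y * (g : G)⁻¹, hVn.conj_mem y hyV g⟩ : V) := fun g => rfl
  let z : V := ∏ q : K ⧸ PK, f q
  refine ⟨z, z.2, ?_, ?_⟩
  · -- modulo `N` all factors are `y`
    intro hz
    let N' : Subgroup V := N.subgroupOf V
    have h1 : ∀ q : K ⧸ PK, (QuotientGroup.mk (f q) : V ⧸ N') = QuotientGroup.mk (⟨y, hyV⟩ : V) := by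
      intro q
      obtain ⟨g, rfl⟩ := QuotientGroup.mk_surjective q
      rw [hf]
      rw [QuotientGroup.eq]
      show ((⟨(g : G) * y * (g : G)⁻¹, hVn.conj_mem y hyV g⟩ : V)⁻¹ * (⟨y, hyV⟩ : V) : V) ∈ N'
      show (((g : G) * y * (g : G)⁻¹)⁻¹ * y : G) ∈ N
      have := hK g g.2 y hyV
      have h2 : ((g : G) * y * (g : G)⁻¹ * y⁻¹)⁻¹ ∈ N := N.inv_mem this
      have h3 : ((g : G) * y * (g : G)⁻¹)⁻¹ * y = ((g : G) * y * (g : G)⁻¹ * y⁻¹)⁻¹ := by
        have := hVc _ (hVn.conj_mem y hyV g) y⁻¹ (V.inv_mem hyV)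
        rw [this]; group
      rw [h3]; exact h2
    have h2 : (QuotientGroup.mk z : V ⧸ N') = (QuotientGroup.mk (⟨y, hyV⟩ : V)) ^ (Nat.card (K ⧸ PK)) := by
      show QuotientGroup.mk' N' (∏ q : K ⧸ PK, f q) = _
      have h1' : ∀ q : K ⧸ PK, QuotientGroup.mk' N' (f q) = QuotientGroup.mk (⟨y, hyV⟩ : V) := h1
      rw [map_prod]
      simp only [h1', Finset.prod_const, Finset.card_univ, Nat.card_eq_fintype_card]
    have h3 : (QuotientGroup.mk z : V ⧸ N') = 1 := (QuotientGroup.eq_one_iff z).2 hz
    rw [h3] at h2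
    have h4 : (QuotientGroup.mk (⟨y, hyV⟩ : V) : V ⧸ N') ^ p = 1 := by
      rw [← QuotientGroup.mk_pow]
      have : (⟨y, hyV⟩ : V) ^ p = 1 := Subtype.ext hyp
      rw [this]; rfl
    have h5 : (Nat.card (K ⧸ PK)).Coprime p := by
      have h6 : ¬ p ∣ PK.index := (P.subtype hPK).not_dvd_index
      exact ((Nat.Prime.coprime_iff_not_dvd hp.out).2 h6).symm
    have h6 := orderOf_dvd_of_pow_eq_one h2.symm
    have h7 := orderOf_dvd_of_pow_eq_one h4
    have h8 := Nat.eq_one_of_dvd_coprimes h5 h6 h7
    have h9 := orderOf_eq_one_iff.1 h8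
    exact hyN ((QuotientGroup.eq_one_iff (N := N') (⟨y, hyV⟩ : V)).1 h9)
  · intro g hg
    let c : V →* V :=
      { toFun := fun v => ⟨g * v * g⁻¹, hVn.conj_mem v v.2 g⟩
        map_one' := Subtype.ext (by simp)
        map_mul' := fun a b => Subtype.ext (by simp) }
    have hc : ∀ q : K ⧸ PK, c (f q) = f ((⟨g, hg⟩ : K) • q) := by
      intro q
      obtain ⟨h, rfl⟩ := QuotientGroup.mk_surjective q
      rw [hf]
      have : ((⟨g, hg⟩ : K) • (h : K ⧸ PK)) = (((⟨g, hg⟩ * h : K)) : K ⧸ PK) := rfl
      rw [this, hf]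
      apply Subtype.ext
      show g * ((h : G) * y * (h : G)⁻¹) * g⁻¹ = (g * (h : G)) * y * (g * (h : G))⁻¹
      group
    have hz : c z = z := by
      show c (∏ q : K ⧸ PK, f q) = ∏ q : K ⧸ PK, f q
      rw [map_prod]
      rw [Finset.prod_congr rfl (fun q _ => hc q)]
      exact Equiv.prod_comp (MulAction.toPerm (⟨g, hg⟩ : K)) f
    exact congrArg Subtype.val hz


/-- Elements of `Φ(P ∩ E)`, `E` normal, lie in `Φ(P)`. -/
theorem frattini_inf_le (P E : Subgroup G) [hE : E.Normal] (w : ↥(P.subgroupOf E))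
    (hw : w ∈ frattini ↥(P.subgroupOf E)) : ((w : E) : G) ∈ (frattini ↥P).map P.subtype := by
  let e : ↥(P.subgroupOf E) ≃* ↥(E.subgroupOf P) :=
    { toFun := fun x => ⟨⟨x.1.1, x.2⟩, x.1.2⟩
      invFun := fun x => ⟨⟨x.1.1, x.2⟩, x.1.2⟩
      left_inv := fun x => rfl
      right_inv := fun x => rfl
      map_mul' := fun x y => rfl }
  have h1 : e w ∈ frattini ↥(E.subgroupOf P) :=
    frattini_le_comap_frattini_of_surjective (φ := e.toMonoidHom) e.surjective hw
  have h2 := S0575.result (E.subgroupOf P)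
  have h3 : ((e w : ↥(E.subgroupOf P)) : P) ∈ frattini ↥P := h2 ⟨e w, h1, rfl⟩
  exact ⟨_, h3, rfl⟩

/-- The layer is trivial if a nontrivial normal `p`-subgroup `N` lies in every nontrivial normal subgroup and
`Φ(P)` contains no nontrivial normal subgroup of `G`. -/
theorem layer_eq_bot (P : Sylow p G) (N : Subgroup G) (hNn : N.Normal) (hNp : IsPGroup p N)
    (hPhi : ¬ N ≤ (frattini ↥(P : Subgroup G)).map (P : Subgroup G).subtype)
    (hNle : ∀ K : Subgroup G, K.Normal → K ≠ ⊥ → N ≤ K) : layer G = ⊥ := by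
  by_contra hne
  have hEn : (layer G).Normal := SignalizersComponents.Components.layer_normal G
  have hNE : N ≤ layer G := hNle _ hEn hne
  have hNsol : Group.IsSolvable N := by
    have : Group.IsNilpotent N := hNp.isNilpotent
    infer_instance
  have hc := Lib.ComponentSolvable.layer_le_centralizer_of_normal_solvable hNn hNsol
  obtain ⟨Q, hQ⟩ := Transfer.FrobeniusFusion.exists_sylow_subgroupOf P (layer G)
  have hNP : N ≤ (P : Subgroup G) := (Lib.Cores.le_pCore hNn hNp).trans (Lib.Cores.pCore_le_sylow P)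
  have hker : (QuotientGroup.mk' (N.subgroupOf (layer G))).ker = N.subgroupOf (layer G) := QuotientGroup.ker_mk' _
  have h1 := S0101.result (p := p) (QuotientGroup.mk' (N.subgroupOf (layer G))) (QuotientGroup.mk'_surjective _)
    (by
      rw [hker]
      intro x hx
      rw [Subgroup.mem_center_iff]
      intro y
      have h2 := hc y.2
      rw [Subgroup.mem_centralizer_iff] at h2
      exact Subtype.ext (h2 x hx).symm)
    ((Group.isPerfect_def).1 (SignalizersComponents.Components.layer_isPerfect G)) Q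
  apply hPhi
  intro n hn
  have h2 : (⟨n, hNE hn⟩ : layer G) ∈ (QuotientGroup.mk' (N.subgroupOf (layer G))).ker ⊓ (Q : Subgroup (layer G)) := by
    refine ⟨?_, ?_⟩
    · rw [hker]; exact hn
    · rw [hQ]; exact hNP hn
  obtain ⟨w, hw, hwn⟩ := h1 h2
  have hwn' : ((w : layer G) : G) = n := congrArg Subtype.val hwn
  rw [← hwn']
  have h3 : ∀ (R : Subgroup (layer G)) (hR : R = (P : Subgroup G).subgroupOf (layer G)) (w : ↥R),
      w ∈ frattini ↥R → ((w : layer G) : G) ∈ (frattini ↥(P : Subgroup G)).map (P : Subgroup G).subtype := by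
    rintro R rfl w hw
    exact frattini_inf_le (P : Subgroup G) (layer G) w hw
  exact h3 _ hQ w hw

/-- The main theorem with a weaker form of the normality instance. -/
theorem main (P : Sylow p G) (hna : ¬ IsMulCommutative (P : Subgroup G))
    (hgen : (frattini ↥(P : Subgroup G)).index = p ^ 2) (hcore : Cfsg.pPrimeCore p G = ⊥)
    (hfrat : ((frattini ↥(P : Subgroup G)).map (P : Subgroup G).subtype).normalCore = ⊥)
    (hFn : (Cfsg.generalizedFittingSubgroup G).Normal) :
    (Cfsg.generalizedFittingSubgroup G ≠ ⊥ ∧ ∀ K : Subgroup G, K.Normal → K ≠ ⊥ → Cfsg.generalizedFittingSubgroup G ≤ K) ∧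
      (∃ x : ↥(P : Subgroup G), (Cfsg.generalizedFittingSubgroup G).subgroupOf (P : Subgroup G) ⊔ zpowers x = ⊤) ∧
      (¬ IsMulCommutative (Cfsg.generalizedFittingSubgroup G) → ∀ K L : Subgroup G, Cfsg.IsComponent K → Cfsg.IsComponent L → ∃ x ∈ (P : Subgroup G), L = K.map (MulAut.conj x).toMonoidHom) := by
  have hpp := hp.out
  -- a nontrivial normal subgroup meets `P` outside `Φ(P)`
  have key : ∀ N : Subgroup G, N.Normal → N ≠ ⊥ →
      ¬ N ⊓ (P : Subgroup G) ≤ (frattini ↥(P : Subgroup G)).map (P : Subgroup G).subtype := by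
    intro N hN hne h
    have h1 : IsPGroup p N := isPGroup_of_inf_le P hcore N hN.isSubnormal
      (Subgroup.le_normalizer_of_normal) h
    have h2 : N ≤ (P : Subgroup G) := (Lib.Cores.le_pCore hN h1).trans (Lib.Cores.pCore_le_sylow P)
    have h3 : N ≤ (frattini ↥(P : Subgroup G)).map (P : Subgroup G).subtype := (le_inf le_rfl h2).trans h
    have h4 : N ≤ ((frattini ↥(P : Subgroup G)).map (P : Subgroup G).subtype).normalCore :=
      Subgroup.normal_le_normalCore.2 h3
    rw [hfrat] at h4
    exact hne (le_bot_iff.1 h4)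
  have gen : ∀ N : Subgroup G, N.Normal → N ≠ ⊥ →
      ∃ x : ↥(P : Subgroup G), N.subgroupOf (P : Subgroup G) ⊔ zpowers x = ⊤ :=
    fun N hN hne => gen_of_not_le P hgen N (key N hN hne)
  -- two subgroups normalised by `P` with cyclic `P / (P ∩ N)` meet nontrivially
  have meet : ∀ N₁ N₂ : Subgroup G, (P : Subgroup G) ≤ normalizer (N₁ : Set G) →
      (P : Subgroup G) ≤ normalizer (N₂ : Set G) →
      (∃ x : ↥(P : Subgroup G), N₁.subgroupOf (P : Subgroup G) ⊔ zpowers x = ⊤) →
      (∃ x : ↥(P : Subgroup G), N₂.subgroupOf (P : Subgroup G) ⊔ zpowers x = ⊤) → N₁ ⊓ N₂ ≠ ⊥ := by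
    rintro N₁ N₂ h1 h2 ⟨x, hx⟩ ⟨y, hy⟩ hbot
    apply hna
    have n1 : (N₁.subgroupOf (P : Subgroup G)).Normal := Subgroup.normal_subgroupOf_of_le_normalizer h1
    have n2 : (N₂.subgroupOf (P : Subgroup G)).Normal := Subgroup.normal_subgroupOf_of_le_normalizer h2
    refine ⟨⟨fun a b => ?_⟩⟩
    have h3 := commutator_mem_of_gen _ hx a b
    have h4 := commutator_mem_of_gen _ hy a b
    have h5 : ((a * b * a⁻¹ * b⁻¹ : ↥(P : Subgroup G)) : G) ∈ N₁ ⊓ N₂ := ⟨h3, h4⟩
    rw [hbot, Subgroup.mem_bot] at h5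
    have h6 : a * b * a⁻¹ * b⁻¹ = 1 := Subtype.ext h5
    have h7 : a * b = b * a := by
      have := congrArg (· * (b * a)) h6
      simpa [mul_assoc] using this
    exact h7
  have meetn : ∀ N₁ N₂ : Subgroup G, N₁.Normal → N₂.Normal → N₁ ≠ ⊥ → N₂ ≠ ⊥ → N₁ ⊓ N₂ ≠ ⊥ := by
    intro N₁ N₂ h1 h2 h3 h4
    exact meet N₁ N₂ Subgroup.le_normalizer_of_normal Subgroup.le_normalizer_of_normal (gen N₁ h1 h3) (gen N₂ h2 h4)
  -- the minimal normal subgroup
  have hnt : Nontrivial G := by
    by_contra h
    rw [not_nontrivial_iff_subsingleton] at h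
    exact hna ⟨⟨fun a b => Subsingleton.elim _ _⟩⟩
  obtain ⟨N, hNn, hNne, hNmin⟩ := Lib.SubnormalJoin.exists_minimal_normal G
  have hNle : ∀ K : Subgroup G, K.Normal → K ≠ ⊥ → N ≤ K := by
    intro K hK hKne
    have h1 := meetn N K hNn hK hNne hKne
    rcases hNmin (N ⊓ K) (Subgroup.normal_inf_normal N K) inf_le_left with h | h
    · exact absurd h h1
    · exact inf_eq_left.1 h
  set F := generalizedFittingSubgroup G with hF
  have hCF : centralizer (F : Set G) ≤ F := Lib.GenFitting.centralizer_genFitting_le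
  have hFne : F ≠ ⊥ := by
    intro h
    rw [h] at hCF
    have h1 : centralizer ((⊥ : Subgroup G) : Set G) = ⊤ := by
      rw [eq_top_iff]; intro g _; rw [Subgroup.mem_centralizer_iff]; rintro h hh
      rw [SetLike.mem_coe, Subgroup.mem_bot] at hh
      rw [hh]; simp
    rw [h1] at hCF
    exact bot_ne_top (le_antisymm bot_le hCF)
  have hfit' : ¬ (∀ x ∈ N, ∀ y ∈ N, Commute x y) → fittingSubgroup G = ⊥ := by
    intro hab
    by_contra hne
    apply hab
    have hNf : N ≤ fittingSubgroup G := hNle _ Lib.Cores.fittingSubgroup_normal hne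
    have hnil : Group.IsNilpotent (fittingSubgroup G) := Lib.Cores.fittingSubgroup_isNilpotent
    have hsolf : Group.IsSolvable (fittingSubgroup G) := inferInstance
    have hsol : Group.IsSolvable N := by
      exact Group.isSolvable_of_isSolvable_injective (Subgroup.inclusion_injective hNf)
    have h1 : ⁅N, N⁆ = ⊥ ∨ ⁅N, N⁆ = N := hNmin _ (Subgroup.commutator_normal N N) (Subgroup.commutator_le_self N)
    rcases h1 with h1 | h1
    · intro x hx y hy
      have h2 : ⁅x, y⁆ ∈ ⁅N, N⁆ := Subgroup.commutator_mem_commutator hx hy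
      rw [h1, Subgroup.mem_bot] at h2
      exact commutatorElement_eq_one_iff_mul_comm.1 h2
    · exfalso
      have hNt : Nontrivial N := (Subgroup.nontrivial_iff_ne_bot N).2 hNne
      have h2 : commutator N < ⊤ := Group.IsSolvable.commutator_lt_top_of_nontrivial N
      have h3 : (commutator N).map N.subtype = ⁅N, N⁆ := by
        rw [_root_.commutator_def, Subgroup.map_commutator, ← MonoidHom.range_eq_map, Subgroup.range_subtype]
      rw [h1] at h3
      apply h2.ne
      rw [eq_top_iff]
      intro x _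
      have h4 : (x : G) ∈ (commutator N).map N.subtype := by rw [h3]; exact x.2
      obtain ⟨y, hy, hyx⟩ := h4
      have : y = x := Subtype.ext hyx
      rwa [← this]
  have hFN : F ≤ N := by
    by_cases hab : ∀ x ∈ N, ∀ y ∈ N, Commute x y
    · -- abelian case
      obtain ⟨q, hq, hNq, hNe⟩ := Lib.MinNormalNonabelian.abelian_structure N hNne hNmin hab
      have hqp : q = p := by
        by_contra hqp
        have : Fact q.Prime := ⟨hq⟩
        have h1 : (Nat.card N).Coprime p := by
          obtain ⟨n, hn⟩ := (IsPGroup.iff_card).1 hNq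
          rw [hn]
          exact Nat.Coprime.pow_left _ ((Nat.coprime_primes hq hpp).2 hqp)
        have h2 := Lib.Cores.le_pPrimeCore hNn h1
        rw [hcore] at h2
        exact hNne (le_bot_iff.1 h2)
      subst hqp
      have hNP : N ≤ (P : Subgroup G) := (Lib.Cores.le_pCore hNn hNq).trans (Lib.Cores.pCore_le_sylow P)
      have hlay : layer G = ⊥ := layer_eq_bot P N hNn hNq (fun h => key N hNn hNne (inf_le_left.trans h)) hNle
      have hFV : F = pCore q G := by
        rw [hF, Lib.GenFitting.genFitting_def, hlay, bot_sup_eq, Lib.Cores.fittingSubgroup_eq_iSup_pCore]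
        apply le_antisymm
        · refine iSup_le fun r => ?_
          by_cases hr : (r : ℕ) = q
          · rw [hr]
          · have h1 : (Nat.card (pCore (r : ℕ) G)).Coprime q := by
              have : Fact (r : ℕ).Prime := ⟨r.2⟩
              obtain ⟨n, hn⟩ := (IsPGroup.iff_card).1 (Lib.Cores.pCore_isPGroup (G := G) (r : ℕ))
              rw [hn]
              exact Nat.Coprime.pow_left _ ((Nat.coprime_primes r.2 hpp).2 hr)
            have h2 := Lib.Cores.le_pPrimeCore (Lib.Cores.pCore_normal (G := G) (r : ℕ)) h1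
            rw [hcore] at h2
            exact h2.trans bot_le
        · exact le_iSup (fun r : Nat.Primes => pCore (r : ℕ) G) ⟨q, hpp⟩
      rw [hFV]
      have hVn : (pCore q G).Normal := Lib.Cores.pCore_normal q
      have hVp : IsPGroup q (pCore q G) := Lib.Cores.pCore_isPGroup q
      have hVP : pCore q G ≤ (P : Subgroup G) := Lib.Cores.pCore_le_sylow P
      -- `V = O_p(G)` is elementary abelian
      have hfV : frattini (pCore q G) = ⊥ := by
        have h1 : ((frattini (pCore q G)).map (pCore q G).subtype) ≤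
            ((frattini ↥(P : Subgroup G)).map (P : Subgroup G).subtype).normalCore := by
          have hn : ((frattini (pCore q G)).map (pCore q G).subtype).Normal :=
            inferInstance
          refine Subgroup.normal_le_normalCore.2 ?_
          rintro _ ⟨x, hx, rfl⟩
          let e : ↥(pCore q G) ≃* ↥((pCore q G).subgroupOf (P : Subgroup G)) := (Subgroup.subgroupOfEquivOfLe hVP).symm
          have h2 : e x ∈ frattini ↥((pCore q G).subgroupOf (P : Subgroup G)) :=
            frattini_le_comap_frattini_of_surjective (φ := e.toMonoidHom) e.surjective hx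
          have h3 := S0575.result ((pCore q G).subgroupOf (P : Subgroup G))
          exact ⟨_, h3 ⟨e x, h2, rfl⟩, rfl⟩
        rw [hfrat, le_bot_iff, Subgroup.map_eq_bot_iff_of_injective _ (Subgroup.subtype_injective _)] at h1
        exact h1
      have hVel := S0012.result q hVp
      rw [hfV] at hVel
      have hVc : ∀ a ∈ pCore q G, ∀ b ∈ pCore q G, a * b = b * a := by
        intro a ha b hb
        have h1 : ⁅(⟨a, ha⟩ : pCore q G), (⟨b, hb⟩ : pCore q G)⁆ ∈ commutator ↥(pCore q G) := by
          rw [_root_.commutator_def]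
          exact Subgroup.commutator_mem_commutator (Subgroup.mem_top _) (Subgroup.mem_top _)
        have h2 := hVel.1 h1
        rw [Subgroup.mem_bot, commutatorElement_eq_one_iff_mul_comm] at h2
        exact congrArg Subtype.val h2
      have hVe : ∀ a ∈ pCore q G, a ^ q = 1 := by
        intro a ha
        have h1 := hVel.2 ⟨a, ha⟩
        rw [Subgroup.mem_bot] at h1
        exact congrArg Subtype.val h1
      have hNV : N ≤ pCore q G := Lib.Cores.le_pCore hNn hNq
      -- every element of `V` is, modulo `N`, centralised by `P`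
      obtain ⟨x, hx⟩ := gen N hNn hNne
      have hNPn : (N.subgroupOf (P : Subgroup G)).Normal := inferInstance
      have hfac : ∀ v ∈ pCore q G, ∃ n ∈ N, ∃ w ∈ pCore q G, n * w = v ∧
          ∀ g ∈ (P : Subgroup G), g * w * g⁻¹ = w := by
        intro v hvV
        have hv1 : (⟨v, hVP hvV⟩ : ↥(P : Subgroup G)) ∈ N.subgroupOf (P : Subgroup G) ⊔ zpowers x := by
          rw [hx]; trivial
        obtain ⟨n, hn, w, hw, hnw⟩ := (Subgroup.mem_sup_of_normal_left).1 hv1
        obtain ⟨k, hk⟩ := Subgroup.mem_zpowers_iff.1 hw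
        have hn' : (n : G) ∈ N := hn
        have hvw : (n : G) * (w : G) = v := congrArg Subtype.val hnw
        have hwV : (w : G) ∈ pCore q G := by
          have : (w : G) = (n : G)⁻¹ * v := by rw [← hvw]; group
          rw [this]; exact mul_mem (inv_mem (hNV hn')) hvV
        refine ⟨n, hn', w, hwV, hvw, ?_⟩
        intro g hg
        have hg1 : (⟨g, hg⟩ : ↥(P : Subgroup G)) ∈ N.subgroupOf (P : Subgroup G) ⊔ zpowers x := by
          rw [hx]; trivial
        obtain ⟨n₂, hn₂, w₂, hw₂, hnw₂⟩ := (Subgroup.mem_sup_of_normal_left).1 hg1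
        obtain ⟨l, hl⟩ := Subgroup.mem_zpowers_iff.1 hw₂
        have hg2 : (n₂ : G) * (w₂ : G) = g := congrArg Subtype.val hnw₂
        have c1 : (w₂ : G) * (w : G) = (w : G) * (w₂ : G) := by
          have : w₂ * w = w * w₂ := by rw [← hk, ← hl, ← zpow_add, ← zpow_add, add_comm]
          exact congrArg Subtype.val this
        have c2 : (n₂ : G) * (w : G) = (w : G) * (n₂ : G) := hVc _ (hNV hn₂) _ hwV
        have c3 : g * (w : G) = (w : G) * g := by
          rw [← hg2, mul_assoc, c1, ← mul_assoc, c2, mul_assoc]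
        rw [c3]; group
      let K : Subgroup G := (centralizer (((pCore q G).map (QuotientGroup.mk' N) : Subgroup (G ⧸ N)) : Set (G ⧸ N))).comap
        (QuotientGroup.mk' N)
      have hKn : K.Normal := by
        have h1 : ((pCore q G).map (QuotientGroup.mk' N)).Normal := hVn.map _ (QuotientGroup.mk'_surjective N)
        have h2 : (centralizer (((pCore q G).map (QuotientGroup.mk' N) : Subgroup (G ⧸ N)) : Set (G ⧸ N))).Normal :=
          inferInstance
        exact h2.comap _
      have hKV : ⁅K, pCore q G⁆ ≤ N := (Lib.Cores.commutator_le_iff_le_comap_centralizer K _).2 le_rfl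
      have hKV' : ∀ g ∈ K, ∀ v ∈ pCore q G, g * v * g⁻¹ * v⁻¹ ∈ N := fun g hg v hv =>
        hKV (Subgroup.commutator_mem_commutator hg hv)
      have hPK : (P : Subgroup G) ≤ K := by
        rw [show K = (centralizer (((pCore q G).map (QuotientGroup.mk' N) : Subgroup (G ⧸ N)) : Set (G ⧸ N))).comap
          (QuotientGroup.mk' N) from rfl, ← Lib.Cores.commutator_le_iff_le_comap_centralizer, Subgroup.commutator_le]
        intro g hg v hv
        exact commutator_mem_of_gen _ hx ⟨g, hg⟩ ⟨v, hVP hv⟩
      have hstep : ∀ C : Subgroup G, N ≤ C → ¬ pCore q G ≤ C →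
          ∃ z ∈ pCore q G, z ∉ C ∧ ∀ g ∈ K, g * z * g⁻¹ = z := by
        intro C hNC hVC
        obtain ⟨v, hvV, hvC⟩ := SetLike.not_le_iff_exists.1 hVC
        obtain ⟨n, hn, w, hwV, hnw, hwP⟩ := hfac v hvV
        refine exists_fixed P C (pCore q G) K hVn hVc hPK (fun g hg v hv => hNC (hKV' g hg v hv)) w hwV ?_
          (hVe w hwV) hwP
        intro h; apply hvC; rw [← hnw]; exact mul_mem (hNC hn) h
      by_contra hVN
      obtain ⟨z, hzV, hzN, hzK⟩ := hstep N le_rfl hVN
      let C : Subgroup G := pCore q G ⊓ centralizer (K : Set G)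
      have hCn : C.Normal := Subgroup.normal_inf_normal _ _
      have hzC : ∀ z ∈ pCore q G, (∀ g ∈ K, g * z * g⁻¹ = z) → z ∈ C := by
        intro z hzV hzK
        refine ⟨hzV, ?_⟩
        show z ∈ centralizer (K : Set G)
        rw [Subgroup.mem_centralizer_iff]
        intro g hg
        have := hzK g hg
        exact mul_inv_eq_iff_eq_mul.1 this
      have hCne : C ≠ ⊥ := by
        intro h
        have h1 := hzC z hzV hzK
        rw [h, Subgroup.mem_bot] at h1
        exact hzN (h1 ▸ N.one_mem)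
      have hNC : N ≤ C := hNle C hCn hCne
      have hVC : pCore q G ≤ C := by
        by_contra h
        obtain ⟨z', hz'V, hz'C, hz'K⟩ := hstep C hNC h
        exact hz'C (hzC z' hz'V hz'K)
      apply hna
      have hPV : (P : Subgroup G) ≤ pCore q G := by
        intro g hg
        rw [← hFV]
        apply hCF
        rw [Subgroup.mem_centralizer_iff, hFV]
        intro v hv
        exact ((Subgroup.mem_centralizer_iff.1 (hVC hv).2) g (hPK hg)).symm
      exact ⟨⟨fun a b => Subtype.ext (hVc a (hPV a.2) b (hPV b.2))⟩⟩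
    · -- nonabelian case
      have hfit : fittingSubgroup G = ⊥ := hfit' hab
      rw [hF, Lib.GenFitting.genFitting_def, hfit, sup_bot_eq, SignalizersComponents.Components.layer_le_iff]
      intro K hK
      rcases SignalizersComponents.Components.component_le_or_commutator_eq_bot hK hNn.isSubnormal with h | h
      · exact h
      · exfalso
        apply hab
        have h1 : K ≤ centralizer (N : Set G) := by
          intro k hk
          rw [Subgroup.mem_centralizer_iff]
          intro n hn
          have h2 : ⁅k, n⁆ ∈ ⁅K, N⁆ := Subgroup.commutator_mem_commutator hk hn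
          rw [h, Subgroup.mem_bot] at h2
          exact (commutatorElement_eq_one_iff_mul_comm.1 h2).symm
        have h2 : centralizer (N : Set G) ≠ ⊥ := by
          intro h3
          rw [h3] at h1
          exact SignalizersComponents.Components.component_ne_bot hK (le_bot_iff.1 h1)
        have h3 : (centralizer (N : Set G)).Normal := inferInstance
        have h4 := hNle _ h3 h2
        intro x hx y hy
        exact (Subgroup.mem_centralizer_iff.1 (h4 hy) x hx)
  refine ⟨⟨hFne, fun K hK hKne => hFN.trans (hNle K hK hKne)⟩, gen F hFn hFne, ?_⟩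
  intro hFc K L hK hL
  have hfit : fittingSubgroup G = ⊥ := by
    apply hfit'
    intro h
    apply hFc
    exact ⟨⟨fun a b => Subtype.ext (h a (hFN a.2) b (hFN b.2))⟩⟩
  -- orbit products
  let M : Subgroup G → Subgroup G := fun K => ⨆ x : ↥(P : Subgroup G), K.map (MulAut.conj (x : G)).toMonoidHom
  have hMK : ∀ K : Subgroup G, K ≤ M K := by
    intro K
    refine le_trans ?_ (le_iSup (fun x : ↥(P : Subgroup G) => K.map (MulAut.conj (x : G)).toMonoidHom) 1)
    intro k hk
    exact ⟨k, hk, by simp⟩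
  have hMsub : ∀ K : Subgroup G, IsComponent K → (M K).IsSubnormal := by
    intro K hK
    exact Lib.SubnormalJoin.isSubnormal_iSup _ fun x =>
      (SignalizersComponents.Components.isComponent_conj (x : G) hK).1
  have hMP : ∀ K : Subgroup G, (P : Subgroup G) ≤ normalizer (M K : Set G) := by
    intro K
    have h1 : ∀ g ∈ (P : Subgroup G), (M K).map (MulAut.conj g).toMonoidHom ≤ M K := by
      intro g hg
      rw [Subgroup.map_iSup]
      refine iSup_le fun x => ?_
      rw [Lib.MinNormal.map_conj_map_conj]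
      exact le_iSup (fun x : ↥(P : Subgroup G) => K.map (MulAut.conj (x : G)).toMonoidHom) (⟨g, hg⟩ * x)
    intro g hg
    rw [Subgroup.mem_normalizer_iff]
    intro h
    constructor
    · intro hh
      exact h1 g hg ⟨h, hh, rfl⟩
    · intro hh
      have := h1 g⁻¹ (inv_mem hg) ⟨_, hh, rfl⟩
      simpa [mul_assoc] using this
  have hMnot : ∀ K : Subgroup G, IsComponent K →
      ∃ x : ↥(P : Subgroup G), (M K).subgroupOf (P : Subgroup G) ⊔ zpowers x = ⊤ := by
    intro K hK
    apply gen_of_not_le P hgen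
    intro h
    have h1 : IsPGroup p (M K) := isPGroup_of_inf_le P hcore (M K) (hMsub K hK) (hMP K) h
    have h2 : Group.IsNilpotent (M K) := h1.isNilpotent
    have h3 := SignalizersComponents.CharP.subnormal_nilpotent_le_fitting (hMsub K hK) h2
    rw [hfit] at h3
    exact SignalizersComponents.Components.component_ne_bot hK (le_bot_iff.1 ((hMK K).trans h3))
  by_contra hno
  push Not at hno
  have hcomm : ∀ a ∈ M K, ∀ b ∈ M L, a * b = b * a := by
    have h1 : M K ≤ centralizer (M L : Set G) := by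
      refine iSup_le fun x => ?_
      rw [Subgroup.le_centralizer_iff]
      refine iSup_le fun y => ?_
      apply SignalizersComponents.Components.component_le_centralizer_of_ne
        (SignalizersComponents.Components.isComponent_conj (y : G) hL)
        (SignalizersComponents.Components.isComponent_conj (x : G) hK)
      intro h
      apply hno ((y : G)⁻¹ * x) (mul_mem (inv_mem y.2) x.2)
      rw [← Lib.MinNormal.map_conj_map_conj, ← h, Lib.MinNormal.map_conj_map_conj, inv_mul_cancel,
        Lib.MinNormal.map_conj_one]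
    intro a ha b hb
    exact (Subgroup.mem_centralizer_iff.1 (h1 ha) b hb).symm
  apply meet (M K) (M L) (hMP K) (hMP L) (hMnot K hK) (hMnot L hL)
  have h1 : (M K ⊓ M L).IsSubnormal := (hMsub K hK).inf (hMsub L hL)
  have h2 : Group.IsNilpotent ↥(M K ⊓ M L) := by
    have h5 : ∀ a b : ↥(M K ⊓ M L), a * b = b * a := fun a b => Subtype.ext (hcomm a a.2.1 b b.2.2)
    let : CommGroup ↥(M K ⊓ M L) := { (inferInstance : Group ↥(M K ⊓ M L)) with mul_comm := h5 }
    exact CommGroup.isNilpotent
  have h3 := SignalizersComponents.CharP.subnormal_nilpotent_le_fitting h1 h2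
  rw [hfit] at h3
  exact le_bot_iff.1 h3

end main

/-- Let p be a prime and G a finite group with a non-commutative Sylow p-subgroup P whose Frattini subgroup has index p² in P (P is generated by two elements). Suppose G has no nontrivial normal subgroup of order prime to p and the Frattini subgroup of P contains no nontrivial normal subgroup of G. Then the generalized Fitting subgroup F*(G) is the unique minimal normal subgroup of G, the image of P in G/F*(G) is cyclic, and if F*(G) is not commutative then P permutes the components of G transitively by conjugation. -/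
theorem result {G : Type*} [Group G] [Finite G] (p : ℕ) [Fact p.Prime] (P : Sylow p G) (hna : ¬ IsMulCommutative (P : Subgroup G)) (hgen : (frattini ↥(P : Subgroup G)).index = p ^ 2) (hcore : Cfsg.pPrimeCore p G = ⊥) (hfrat : ((frattini ↥(P : Subgroup G)).map (P : Subgroup G).subtype).normalCore = ⊥) [hFn : (Cfsg.generalizedFittingSubgroup G).Normal] :
    (Cfsg.generalizedFittingSubgroup G ≠ ⊥ ∧ ∀ K : Subgroup G, K.Normal → K ≠ ⊥ → Cfsg.generalizedFittingSubgroup G ≤ K) ∧
      IsCyclic ↥((P : Subgroup G).map (QuotientGroup.mk' (Cfsg.generalizedFittingSubgroup G))) ∧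
      (¬ IsMulCommutative (Cfsg.generalizedFittingSubgroup G) → ∀ K L : Subgroup G, Cfsg.IsComponent K → Cfsg.IsComponent L → ∃ x ∈ (P : Subgroup G), L = K.map (MulAut.conj x).toMonoidHom) := by
  obtain ⟨h1, ⟨x, hx⟩, h3⟩ := main P hna hgen hcore hfrat hFn
  refine ⟨h1, ?_, h3⟩
  let π := QuotientGroup.mk' (Cfsg.generalizedFittingSubgroup G)
  refine ⟨⟨⟨π x, ⟨x, x.2, rfl⟩⟩, ?_⟩⟩
  rintro ⟨_, ⟨y, hy, rfl⟩⟩
  let f : ↥(P : Subgroup G) →* G ⧸ Cfsg.generalizedFittingSubgroup G := π.comp (P : Subgroup G).subtype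
  obtain ⟨n, hn⟩ := isCyclic_map_of_gen f hx (by
    intro z hz
    exact (QuotientGroup.eq_one_iff (z : G)).2 hz) ⟨y, hy⟩
  refine Subgroup.mem_zpowers_iff.2 ⟨n, Subtype.ext ?_⟩
  exact hn.symm

end Cfsg.Agent.S4172
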