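import Cfsg.Prelude.Def_Local
import Cfsg.Agent.Lib.PSolvable
import Cfsg.Statements.S4176
import Cfsg.Agent.H535.SpanOrbit
set_option linter.all false

-- part: H535/PComplement
section
/-! Existence of `p`-complements in `p`-soluble groups. -/

set_option autoImplicit false
open Cfsg

namespace Cfsg.Agent.H535

universe u

theorem relIndex_comap_mk {G : Type*} [Group G] (N : Subgroup G) [N.Normal] (Q : Subgroup (G ⧸ N)) :
    N.relIndex (Q.comap (QuotientGroup.mk' N)) = Nat.card Q := by
  have h1 : ((⊥ : Subgroup (G ⧸ N)).comap (QuotientGroup.mk' N)).relIndex (Q.comap (QuotientGroup.mk' N)) =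
      Nat.card Q := by
    rw [Subgroup.relIndex_comap, Subgroup.map_comap_eq_self_of_surjective (QuotientGroup.mk'_surjective N),
      Subgroup.relIndex_bot_left]
  rwa [MonoidHom.comap_bot, QuotientGroup.ker_mk'] at h1

/-- **A finite `p`-soluble group has a `p`-complement.** -/
theorem exists_pComplement_aux (p : ℕ) [Fact p.Prime] (n : ℕ) :
    ∀ (G : Type u) [Group G] [Finite G], Nat.card G = n → IsPSolvable p G →
      ∃ Q : Subgroup G, (Nat.card Q).Coprime p ∧ ∃ m, Q.index = p ^ m := by
  induction n using Nat.strong_induction_on with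
  | _ n ih =>
  intro G _ _ hn hG
  rcases subsingleton_or_nontrivial G with hs | hs
  · exact ⟨⊤, by simp, 0, by simp⟩
  have key : ∀ N : Subgroup G, ∀ hN : N.Normal, N ≠ ⊥ → ∃ Q : Subgroup (G ⧸ N),
      (Nat.card Q).Coprime p ∧ ∃ m, Q.index = p ^ m := by
    intro N hN hne
    refine ih (Nat.card (G ⧸ N)) ?_ (G ⧸ N) rfl
      (Lib.PSolvable.IsPSolvable_of_surjective p hG (QuotientGroup.mk' N) (QuotientGroup.mk'_surjective N))
    rw [← hn, ← N.card_mul_index, ← Subgroup.index_eq_card]
    have h1 : 1 < Nat.card N := (Subgroup.one_lt_card_iff_ne_bot N).mpr hne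
    have h2 : 0 < N.index := Nat.pos_of_ne_zero Subgroup.index_ne_zero_of_finite
    nlinarith
  rcases Lib.PSolvable.exists_core_ne_bot p hG with h | h
  · set N := pCore p G with hNdef
    have hN : N.Normal := Lib.HallHigman.pCore_normal p
    obtain ⟨Q, hQ, m, hm⟩ := key N hN h
    set K := Q.comap (QuotientGroup.mk' N) with hK
    have hNK : N ≤ K := by
      intro x hx
      rw [hK, Subgroup.mem_comap]
      have : QuotientGroup.mk' N x = 1 := by
        rw [← MonoidHom.mem_ker, QuotientGroup.ker_mk']
        exact hx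
      rw [this]
      exact Q.one_mem
    obtain ⟨a, ha⟩ := IsPGroup.iff_card.mp (Lib.HallHigman.pCore_isPGroup p (G := G))
    have hcN : Nat.card (N.subgroupOf K) = p ^ a := by
      rw [Nat.card_congr (Subgroup.subgroupOfEquivOfLe hNK).toEquiv]
      exact ha
    have hiN : (N.subgroupOf K).index = Nat.card Q := relIndex_comap_mk N Q
    have hcop : (Nat.card (N.subgroupOf K)).Coprime (N.subgroupOf K).index := by
      rw [hcN, hiN]
      exact (hQ.symm.pow_left a)
    obtain ⟨L, hL⟩ := Subgroup.exists_right_complement'_of_coprime hcop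
    refine ⟨L.map K.subtype, ?_, a + m, ?_⟩
    · have h1 : Nat.card (L.map K.subtype) = Nat.card L :=
        (Nat.card_congr (L.equivMapOfInjective K.subtype K.subtype_injective).toEquiv).symm
      rw [h1, ← hL.symm.index_eq_card, hiN]
      exact hQ
    · have h1 : (L.map K.subtype).index = (L.map K.subtype).relIndex K * K.index :=
        (Subgroup.relIndex_mul_index (Subgroup.map_subtype_le L)).symm
      have h2 : (L.map K.subtype).relIndex K = L.index := by
        show ((L.map K.subtype).subgroupOf K).index = L.index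
        congr 1
        exact Subgroup.comap_map_eq_self_of_injective K.subtype_injective L
      rw [h1, h2, hL.index_eq_card, hcN, hK,
        Subgroup.index_comap_of_surjective _ (QuotientGroup.mk'_surjective N), hm, pow_add]
  · set N := pPrimeCore p G with hNdef
    have hN : N.Normal := Lib.HallHigman.pPrimeCore_normal p
    obtain ⟨Q, hQ, m, hm⟩ := key N hN h
    refine ⟨Q.comap (QuotientGroup.mk' N), ?_, m, ?_⟩
    · have hNK : N ≤ Q.comap (QuotientGroup.mk' N) := by
        intro x hx
        rw [Subgroup.mem_comap]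
        have : QuotientGroup.mk' N x = 1 := by
          rw [← MonoidHom.mem_ker, QuotientGroup.ker_mk']
          exact hx
        rw [this]
        exact Q.one_mem
      rw [← Lib.HallHigman.card_mul_relIndex' hNK, relIndex_comap_mk N Q]
      exact Nat.Coprime.mul_left (Lib.HallHigman.pPrimeCore_coprime p) hQ
    · rw [Subgroup.index_comap_of_surjective _ (QuotientGroup.mk'_surjective N), hm]

/-- **A finite `p`-soluble group has a `p`-complement.** -/
theorem exists_pComplement {G : Type*} [Group G] [Finite G] (p : ℕ) [Fact p.Prime] (hG : IsPSolvable p G) :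
    ∃ Q : Subgroup G, (Nat.card Q).Coprime p ∧ ∃ m, Q.index = p ^ m :=
  exists_pComplement_aux p _ G rfl hG

end Cfsg.Agent.H535
end

-- part: S4176
section
set_option autoImplicit false
open Cfsg

namespace Cfsg.Agent.S4176

open Cfsg.Agent.H535 in
/-- If `Q` is transitive on the orbit of `a`, which spans, and `|Q| ≠ 0` in `k`, the `Q`-fixed vectors are the
multiples of the sum of the `ρ q a`. -/
theorem fixed_eq_smul {k V H : Type*} [Field k] [AddCommGroup V] [Module k V] [Group H] [Finite H]
    (ρ : Representation k H V) (a : V)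
    (hspan : Submodule.span k {u : V | ∃ h : H, ρ h a = u} = ⊤) (Q : Subgroup H) [Fintype Q]
    (hne : (Fintype.card Q : k) ≠ 0)
    (hQ : ∀ h : H, ∃ q ∈ Q, ρ h a = ρ q a) (v : V) (hv : ∀ q ∈ Q, ρ q v = v) :
    ∃ c : k, v = c • ∑ q : Q, ρ q a := by
  classical
  have := Fintype.ofFinite H
  obtain ⟨c, hc⟩ := exists_coeffs ρ a hspan v
  refine ⟨(Fintype.card Q : k)⁻¹ * ∑ h, c h, ?_⟩
  have h1 : (Fintype.card Q : k) • v = ∑ g : Q, ρ g v := by
    have : ∀ g : Q, ρ g v = v := fun g => hv g g.2
    simp [this, Nat.cast_smul_eq_nsmul]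
  have h2 : ∑ g : Q, ρ g v = (∑ h, c h) • ∑ q : Q, ρ q a := by
    conv_lhs => rw [hc]
    simp only [map_sum, map_smul]
    rw [Finset.sum_comm, Finset.sum_smul]
    refine Finset.sum_congr rfl fun h _ => ?_
    rw [← Finset.smul_sum]
    congr 1
    obtain ⟨q₀, hq₀, hh⟩ := hQ h
    rw [hh]
    have : ∀ g : Q, ρ g (ρ q₀ a) = ρ (g * (⟨q₀, hq₀⟩ : Q) : Q) a := fun g => by
      rw [Subgroup.coe_mul, map_mul]; rfl
    simp only [this]
    exact Fintype.sum_equiv (Equiv.mulRight (⟨q₀, hq₀⟩ : Q)) _ _ (fun g => rfl)
  rw [mul_smul, ← h2, ← h1, smul_smul, inv_mul_cancel₀ hne, one_smul]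

open Cfsg.Agent.H535 in
/-- Let k be a field of prime characteristic p, H a finite p-soluble group and ρ a k-linear representation of H on V. Let a be a vector that is fixed by some Sylow p-subgroup of H and whose H-orbit spans V. Then the space of H-fixed vectors has dimension at most 1, and every vector b whose H-orbit has size coprime to the size of the orbit of a is fixed by H. -/
theorem result {k V H : Type*} [Field k] (p : ℕ) [Fact p.Prime] [CharP k p] [AddCommGroup V] [Module k V]
    [Group H] [Finite H] (hsol : Cfsg.IsPSolvable p H) (ρ : Representation k H V) (a : V)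
    (hfix : ∃ P : Sylow p H, ∀ x : H, x ∈ (P : Subgroup H) → ρ x a = a)
    (hspan : Submodule.span k {u : V | ∃ h : H, ρ h a = u} = ⊤) :
    Module.finrank k ρ.invariants ≤ 1 ∧
    ∀ b : V, (Nat.card {u : V | ∃ h : H, ρ h a = u}).Coprime (Nat.card {u : V | ∃ h : H, ρ h b = u}) → ∀ h : H, ρ h b = b := by
  classical
  obtain ⟨P, hP⟩ := hfix
  have hp : p.Prime := Fact.out
  -- the orbit of `a` has size prime to `p`
  have horb : (Nat.card {u : V | ∃ h : H, ρ h a = u}).Coprime p := by
    rw [← index_vstab, Nat.coprime_comm, hp.coprime_iff_not_dvd]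
    intro hdvd
    have hle : (P : Subgroup H) ≤ vstab ρ a := fun x hx => hP x hx
    exact P.not_dvd_index (hdvd.trans (Subgroup.index_dvd_of_le hle))
  have hcard : ∀ Q : Subgroup H, (Nat.card Q).Coprime p → ∀ [Fintype Q], (Fintype.card Q : k) ≠ 0 := by
    intro Q hQ _ h0
    rw [CharP.cast_eq_zero_iff k p, ← Nat.card_eq_fintype_card] at h0
    exact (hp.coprime_iff_not_dvd.1 hQ.symm) h0
  constructor
  · obtain ⟨Q, hQ, m, hm⟩ := exists_pComplement p hsol
    have := Fintype.ofFinite Q
    have htr : ∀ h : H, ∃ q ∈ Q, ρ h a = ρ q a := by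
      refine vtransitive_of_coprime ρ Q a ?_
      rw [hm]
      exact horb.pow_right m
    have hle : ρ.invariants ≤ Submodule.span k {∑ q : Q, ρ q a} := by
      intro v hv
      obtain ⟨c, hc⟩ := fixed_eq_smul ρ a hspan Q (hcard Q hQ) htr v (fun q _ => hv q)
      rw [hc]
      exact Submodule.smul_mem _ _ (Submodule.mem_span_singleton_self _)
    refine (Submodule.finrank_mono hle).trans ?_
    exact (finrank_span_le_card ({∑ q : Q, ρ q a} : Set V)).trans (by simp)
  · intro b hb h
    set B := vstab ρ b with hB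
    obtain ⟨Q₀, hQ₀, m, hm⟩ := exists_pComplement (G := B) p
      (Lib.PSolvable.IsPSolvable_of_injective p hsol B.subtype B.subtype_injective)
    set Q : Subgroup H := Q₀.map B.subtype with hQdef
    have hQB : Q ≤ B := Subgroup.map_subtype_le Q₀
    have hQ : (Nat.card Q).Coprime p := by
      have h1 : Nat.card Q = Nat.card Q₀ :=
        (Nat.card_congr (Q₀.equivMapOfInjective B.subtype B.subtype_injective).toEquiv).symm
      rw [h1]; exact hQ₀
    have hidx : Q.index = p ^ m * B.index := by
      rw [← Subgroup.relIndex_mul_index hQB, ← hm]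
      congr 1
      show ((Q₀.map B.subtype).subgroupOf B).index = Q₀.index
      congr 1
      exact Subgroup.comap_map_eq_self_of_injective B.subtype_injective Q₀
    have := Fintype.ofFinite Q
    have htr : ∀ h : H, ∃ q ∈ Q, ρ h a = ρ q a := by
      refine vtransitive_of_coprime ρ Q a ?_
      rw [hidx]
      refine Nat.Coprime.mul_right (horb.pow_right m) ?_
      rw [hB, index_vstab]
      exact hb
    obtain ⟨c, hc⟩ := fixed_eq_smul ρ a hspan Q (hcard Q hQ) htr b (fun q hq => hQB hq)
    rw [hc, map_smul, sum_subgroup_invariant ρ a Q htr h]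

end Cfsg.Agent.S4176
end
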