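-- Proof of statement S4186
import Cfsg.Statements.S4186
set_option linter.all false

set_option autoImplicit false
open Cfsg

namespace Cfsg.Agent.S4186

/-- Let T and X be subgroups of a group with T a finite 2-group normalizing X but not centralizing it. Then some element of T inverts some non-identity element of X under conjugation. -/
theorem result {G : Type*} [Group G] (T X : Subgroup G) [Finite ↥T] (hT : IsPGroup 2 ↥T) (hTN : T ≤ Subgroup.normalizer (X : Set G)) (hTC : ¬ T ≤ Subgroup.centralizer (X : Set G)) : ∃ t ∈ T, ∃ x ∈ X, x ≠ 1 ∧ t * x * t⁻¹ = x⁻¹ := by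
  classical
  -- key: for every t ∈ T and every n, if t^(2^n) centralizes X then either conclusion or t does
  by_contra hcon
  push Not at hcon
  have key : ∀ t ∈ T, (∀ x ∈ X, t ^ 2 * x = x * t ^ 2) → ∀ x ∈ X, t * x = x * t := by
    intro t ht h2 x hx
    by_contra hne
    have htX : t * x * t⁻¹ ∈ X := (Subgroup.mem_normalizer_iff.mp (hTN ht) x).mp hx
    have hy : x⁻¹ * (t * x * t⁻¹) ∈ X := X.mul_mem (X.inv_mem hx) htX
    apply hcon t ht _ hy
    · intro h1
      apply hne
      have : t * x * t⁻¹ = x := by
        have := congrArg (fun z => x * z) h1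
        simpa [mul_assoc] using this
      calc t * x = (t * x * t⁻¹) * t := by group
        _ = x * t := by rw [this]
    · have h3 : t ^ 2 * x * (t ^ 2)⁻¹ = x := by
        rw [h2 x hx]; group
      calc t * (x⁻¹ * (t * x * t⁻¹)) * t⁻¹ = (t * x * t⁻¹)⁻¹ * (t ^ 2 * x * (t ^ 2)⁻¹) := by
            group
        _ = (t * x * t⁻¹)⁻¹ * x := by rw [h3]
        _ = (x⁻¹ * (t * x * t⁻¹))⁻¹ := by group
  have key2 : ∀ n : ℕ, ∀ t ∈ T, (∀ x ∈ X, t ^ (2 ^ n) * x = x * t ^ (2 ^ n)) →
      ∀ x ∈ X, t * x = x * t := by
    intro n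
    induction n with
    | zero => intro t ht h x hx; simpa using h x hx
    | succ n ih =>
      intro t ht h
      apply ih t ht
      apply key (t ^ 2 ^ n) (T.pow_mem ht _)
      intro x hx
      have := h x hx
      rw [pow_succ, pow_mul] at this
      exact this
  apply hTC
  intro t ht
  rw [Subgroup.mem_centralizer_iff]
  intro x hx
  obtain ⟨n, hn⟩ := hT ⟨t, ht⟩
  have hn' : t ^ 2 ^ n = 1 := by
    have := congrArg Subtype.val hn
    simpa using this
  have := key2 n t ht (by intro x hx; rw [hn']; simp) x hx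
  exact this.symm

end Cfsg.Agent.S4186
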