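import Cfsg.Statements.S4196
import Cfsg.Agent.S4195
set_option linter.all false

set_option autoImplicit false
open Cfsg

namespace Cfsg.Agent.S4196

/-- A finite group G has elementary abelian Sylow 2-subgroups (commutative with every element squaring to the identity) if and only if every 2-element of G has a Sylow 2-subgroup in its centralizer and is conjugate to its inverse. -/
theorem result {G : Type*} [Group G] [Finite G] (P : Sylow 2 G) :
    (IsMulCommutative (P : Subgroup G) ∧ ∀ x ∈ (P : Subgroup G), x ^ 2 = 1) ↔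
      ∀ x : G, (∃ k : ℕ, orderOf x = 2 ^ k) → (∃ Q : Sylow 2 G, (Q : Subgroup G) ≤ Subgroup.centralizer ({x} : Set G)) ∧ IsConj x x⁻¹ := by
  constructor
  · rintro ⟨hc, he⟩ x ⟨k, hk⟩
    have hp : IsPGroup 2 (Subgroup.zpowers x) := by
      apply IsPGroup.of_card (n := k)
      rw [Nat.card_zpowers, hk]
    obtain ⟨Q, hQ⟩ := hp.exists_le_sylow
    have hxQ : x ∈ (Q : Subgroup G) := hQ (Subgroup.mem_zpowers x)
    obtain ⟨g, hg⟩ := MulAction.exists_smul_eq G Q P
    have hmem : ∀ y ∈ (Q : Subgroup G), g * y * g⁻¹ ∈ (P : Subgroup G) := by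
      intro y hy
      rw [← hg]
      show g * y * g⁻¹ ∈ ((g • Q : Sylow 2 G) : Subgroup G)
      rw [Sylow.coe_subgroup_smul]
      exact Subgroup.smul_mem_pointwise_smul y (MulAut.conj g) _ hy
    refine ⟨⟨Q, ?_⟩, ?_⟩
    · intro y hy
      rw [Subgroup.mem_centralizer_singleton_iff]
      have h1 := hc.is_comm.comm (⟨g * y * g⁻¹, hmem y hy⟩ : (P : Subgroup G)) ⟨g * x * g⁻¹, hmem x hxQ⟩
      have h2 : (g * y * g⁻¹) * (g * x * g⁻¹) = (g * x * g⁻¹) * (g * y * g⁻¹) := congrArg Subtype.val h1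
      have h3 : g * (y * x) * g⁻¹ = g * (x * y) * g⁻¹ := by
        calc g * (y * x) * g⁻¹ = (g * y * g⁻¹) * (g * x * g⁻¹) := by group
          _ = (g * x * g⁻¹) * (g * y * g⁻¹) := h2
          _ = g * (x * y) * g⁻¹ := by group
      exact mul_left_cancel (mul_right_cancel h3)
    · have h1 := he _ (hmem x hxQ)
      have h2 : x ^ 2 = 1 := by
        have h3 : g * x ^ 2 * g⁻¹ = 1 := by
          rw [← h1, pow_two, pow_two]; group
        have h4 : g * x ^ 2 * g⁻¹ = g * 1 * g⁻¹ := by rw [h3]; group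
        exact mul_left_cancel (mul_right_cancel h4)
      have h5 : x⁻¹ = x := by
        rw [inv_eq_iff_mul_eq_one, ← pow_two, h2]
      rw [h5]
  · intro h
    have he : ∀ x ∈ (P : Subgroup G), x ^ 2 = 1 := by
      intro x hx
      by_cases hx1 : x = 1
      · rw [hx1, one_pow]
      obtain ⟨k, hk⟩ := (IsPGroup.iff_orderOf.1 P.isPGroup') ⟨x, hx⟩
      rw [Subgroup.orderOf_mk] at hk
      obtain ⟨⟨Q, hQ⟩, hr⟩ := h x ⟨k, hk⟩
      have h6 := Cfsg.Agent.S4195.result x hx1 Q hQ hr
      rw [← h6]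
      exact pow_orderOf_eq_one x
    refine ⟨⟨⟨?_⟩⟩, he⟩
    intro a b
    apply Subtype.ext
    have ha := he _ a.2
    have hb := he _ b.2
    have hab := he _ (mul_mem a.2 b.2)
    rw [pow_two] at ha hb hab
    show (a : G) * b = b * a
    have ha' : (a : G)⁻¹ = a := inv_eq_of_mul_eq_one_left ha
    have hb' : (b : G)⁻¹ = b := inv_eq_of_mul_eq_one_left hb
    calc (a : G) * b = (a : G)⁻¹ * (b : G)⁻¹ := by
          rw [ha', hb']
      _ = (b * a : G)⁻¹ := by rw [mul_inv_rev]
      _ = b * a := by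
          have hba := he _ (mul_mem b.2 a.2)
          rw [pow_two] at hba
          exact (eq_inv_of_mul_eq_one_left hba).symm

end Cfsg.Agent.S4196
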