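import Cfsg.Statements.S4230
set_option linter.all false
-- import your own Cfsg.Agent.* helpers here

set_option autoImplicit false
open Cfsg

namespace Cfsg.Agent.S4230

/-- Let p be an odd prime, q a natural number not divisible by p, and e the multiplicative order of q modulo p. For a natural number f, p divides the value at q of the f-th cyclotomic polynomial if and only if f = e·p^j for some j ≥ 0. -/
theorem result (p q f : ℕ) (hp : p.Prime) (hp2 : p ≠ 2) (hpq : ¬ p ∣ q) :
    ((p : ℤ) ∣ (Polynomial.cyclotomic f ℤ).eval (q : ℤ)) ↔ ∃ j : ℕ, f = orderOf (q : ZMod p) * p ^ j := by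
  have : Fact p.Prime := ⟨hp⟩
  have hq0 : (q : ZMod p) ≠ 0 := by
    intro h
    exact hpq ((ZMod.natCast_eq_zero_iff q p).1 h)
  have hopos : 0 < orderOf (q : ZMod p) := by
    rw [← Units.val_mk0 hq0, orderOf_units]
    exact orderOf_pos _
  have hndvd : ¬ p ∣ orderOf (q : ZMod p) := by
    intro h
    have h1 : orderOf (q : ZMod p) ∣ p - 1 := by
      rw [orderOf_dvd_iff_pow_eq_one]
      exact ZMod.pow_card_sub_one_eq_one hq0
    have h2 := Nat.le_of_dvd (Nat.sub_pos_of_lt hp.one_lt) (h.trans h1)
    have h3 := hp.pos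
    omega
  have key : ((p : ℤ) ∣ (Polynomial.cyclotomic f ℤ).eval (q : ℤ)) ↔
      (Polynomial.cyclotomic f (ZMod p)).IsRoot (q : ZMod p) := by
    rw [← ZMod.intCast_zmod_eq_zero_iff_dvd, Polynomial.IsRoot.def]
    have := Polynomial.eval_intCast_map (Int.castRingHom (ZMod p)) (Polynomial.cyclotomic f ℤ) (q : ℤ)
    simp at this
    rw [this]
  rw [key]
  rcases Nat.eq_zero_or_pos f with rfl | hf
  · constructor
    · intro h
      simp at h
    · rintro ⟨j, hj⟩
      exact absurd hj.symm (Nat.mul_pos hopos (pow_pos hp.pos j)).ne'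
  · obtain ⟨k, m, hm, rfl⟩ : ∃ k m : ℕ, ¬ p ∣ m ∧ f = p ^ k * m := by
      obtain ⟨k, m, hm, h⟩ := Nat.exists_eq_pow_mul_and_not_dvd hf.ne' p hp.ne_one
      exact ⟨k, m, hm, h⟩
    have : NeZero (m : ZMod p) := ⟨by rwa [Ne, ZMod.natCast_eq_zero_iff]⟩
    rw [Polynomial.isRoot_cyclotomic_prime_pow_mul_iff_of_charP]
    constructor
    · intro h
      exact ⟨k, by rw [← h.eq_orderOf, mul_comm]⟩
    · rintro ⟨j, hj⟩
      have hmo : m = orderOf (q : ZMod p) := by
        have h1 : (p ^ k * m).factorization p = k := by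
          have hm0 : m ≠ 0 := by rintro rfl; exact hm (dvd_zero p)
          rw [Nat.factorization_mul (pow_pos hp.pos k).ne' hm0, hp.factorization_pow]
          simp [Nat.factorization_eq_zero_of_not_dvd hm]
        have h2 : (orderOf (q : ZMod p) * p ^ j).factorization p = j := by
          rw [Nat.factorization_mul hopos.ne' (pow_pos hp.pos j).ne', hp.factorization_pow]
          simp [Nat.factorization_eq_zero_of_not_dvd hndvd]
        have hkj : k = j := by rw [← h1, hj, h2]
        subst hkj
        rw [mul_comm] at hj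
        exact Nat.eq_of_mul_eq_mul_right (pow_pos hp.pos k) hj
      rw [hmo]
      exact IsPrimitiveRoot.orderOf _

end Cfsg.Agent.S4230
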