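import Mathlib
import Cfsg.Agent.S0111
import Cfsg.Agent.S0071
import Cfsg.Agent.S0205
import Cfsg.Agent.Lib.NormalHall
import Cfsg.Agent.S0508
import Cfsg.Agent.Lib.Cores
import Cfsg.Agent.S0144
import Cfsg.Agent.S0253
import Cfsg.Agent.S0804
import Cfsg.Agent.S0811
import Cfsg.Agent.S0812
import Cfsg.Agent.ClassicalGeometry.PSL2Basic
import Cfsg.Agent.S0003
import Cfsg.Agent.LieClassical.FieldTransfer
import Cfsg.Agent.SignalizersComponents.ComponentExists
import Cfsg.Agent.StdL2.Cover
import Cfsg.Agent.OddCyclic.CoverTrans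
import Cfsg.Statements.S4233
import Cfsg.Agent.Lib.FastPerm
import Cfsg.Agent.FastGrp
import Cfsg.Agent.Prune
set_option linter.all false

section
prune_inst 0x7ffcfcfbaff8bddfffff7e7ffefddffdd9f87fffffdffbcbffe8e9ff6fdf6b0ebbc5fbaf1fe052ff1ef6e29430f87b53fdffceffee6bdc7ffffd5ff41ffbff9ffdf7b58051d090240fb46fff83f07f8e7f3fffffffffffffffffffffffffffbeffffffffffff

-- part: H546/MaxNorSimple
section
prune_inst 0x2000000000000000000010000022004800000000430001512009020006100000000600c8800c0010020800000000200210001000000000000004004000002080a2900030000004200007801007180c00000000000000000000000000041000000000000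
set_option linter.all false
open scoped Cfsg.Agent.FastGrp

-- part: H546/MaxNor
section
/-!
# Groups in which the normalizers of the nontrivial subgroups of order `p ^ a * q ^ b` are maximal

General lemmas: `nor_sup`, `nor_comm`, `fix_all`, `eq_of_inv`, `exists_core`, `nor_nor`.
-/

set_option autoImplicit false

namespace Cfsg.Agent.H546.MaxNor

open Subgroup
open scoped Pointwise

variable {X : Type*} [Group X]

/-- the order has at most two prime divisors -/
def TwoP (H : Subgroup X) : Prop :=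
  ∃ p q : ℕ, p.Prime ∧ q.Prime ∧ ∀ r : ℕ, r.Prime → r ∣ Nat.card H → r = p ∨ r = q

/-- the nontrivial subgroups whose order has at most two prime divisors have maximal normalizers -/
def PM (X : Type*) [Group X] : Prop :=
  ∀ H : Subgroup X, H ≠ ⊥ → TwoP H → IsCoatom (normalizer (H : Set X))

theorem mem_nor [Finite X] {H : Subgroup X} {g : X} (h : ∀ x ∈ H, g * x * g⁻¹ ∈ H) :
    g ∈ normalizer (H : Set X) := by
  rw [mem_normalizer_iff_map_conj_eq]
  apply Subgroup.eq_of_le_of_card_ge
  · rintro _ ⟨x, hx, rfl⟩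
    exact h x hx
  · rw [Subgroup.card_map_of_injective (MulAut.conj g).injective]

theorem conj_mem {H : Subgroup X} {g x : X} (hg : g ∈ normalizer (H : Set X)) (hx : x ∈ H) : g * x * g⁻¹ ∈ H :=
  (mem_normalizer_iff.1 hg x).1 hx

theorem conj_mem' {H : Subgroup X} {g x : X} (hg : g ∈ normalizer (H : Set X)) (hx : x ∈ H) : g⁻¹ * x * g ∈ H := by
  have := conj_mem (inv_mem hg) hx
  rwa [inv_inv] at this

theorem eq_one_of_pow {p r k l : ℕ} (hp : p.Prime) (hr : r.Prime) (hpr : p ≠ r) {x : X}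
    (h1 : x ^ p ^ k = 1) (h2 : x ^ r ^ l = 1) : x = 1 := by
  have h3 := orderOf_dvd_of_pow_eq_one h1
  have h4 := orderOf_dvd_of_pow_eq_one h2
  have h5 : Nat.Coprime (p ^ k) (r ^ l) := Nat.Coprime.pow _ _ ((Nat.coprime_primes hp hr).2 hpr)
  have h6 := Nat.dvd_gcd h3 h4
  rw [h5.gcd_eq_one] at h6
  exact orderOf_eq_one_iff.1 (Nat.dvd_one.1 h6)

theorem inf_eq_bot {p r : ℕ} (hp : p.Prime) (hr : r.Prime) (hpr : p ≠ r) {A B : Subgroup X}
    (hA : IsPGroup p A) (hB : IsPGroup r B) {x : X} (h1 : x ∈ A) (h2 : x ∈ B) : x = 1 := by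
  obtain ⟨k, hk⟩ := hA ⟨x, h1⟩
  obtain ⟨l, hl⟩ := hB ⟨x, h2⟩
  exact eq_one_of_pow hp hr hpr (congrArg Subtype.val hk) (congrArg Subtype.val hl)

theorem mem_sup_nor {A B : Subgroup X} (hBA : B ≤ normalizer (A : Set X)) {x : X} :
    x ∈ A ⊔ B ↔ ∃ a ∈ A, ∃ b ∈ B, a * b = x := by
  have h := Subgroup.coe_mul_of_right_le_normalizer_left A B hBA
  constructor
  · intro hx
    have hx' : x ∈ ((A ⊔ B : Subgroup X) : Set X) := hx
    rw [h] at hx'
    exact Set.mem_mul.1 hx'
  · rintro ⟨a, ha, b, hb, rfl⟩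
    exact mul_mem (le_sup_left (a := A) ha) (le_sup_right (b := B) hb)

theorem pow_mul_mem {A B : Subgroup X} (hBA : B ≤ normalizer (A : Set X)) {a b : X} (ha : a ∈ A) (hb : b ∈ B)
    (n : ℕ) : ∃ a' ∈ A, (a * b) ^ n = a' * b ^ n := by
  induction n with
  | zero => exact ⟨1, one_mem _, by simp⟩
  | succ n ih =>
    obtain ⟨a', ha', h⟩ := ih
    refine ⟨a' * (b ^ n * a * (b ^ n)⁻¹), mul_mem ha' (conj_mem (hBA (pow_mem hb n)) ha), ?_⟩
    rw [pow_succ, h, pow_succ]
    group

theorem twoP_of_isPGroup [Finite X] {p : ℕ} (hp : p.Prime) {H : Subgroup X} (hH : IsPGroup p H) : TwoP H := by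
  refine ⟨p, p, hp, hp, fun r hr hdvd => ?_⟩
  have : Fact p.Prime := ⟨hp⟩
  obtain ⟨k, hk⟩ := IsPGroup.iff_card.1 hH
  rw [hk] at hdvd
  exact Or.inl ((Nat.prime_dvd_prime_iff_eq hr hp).1 (hr.dvd_of_dvd_pow hdvd))

theorem dvd_of_isPGroup [Finite X] {p s : ℕ} (hp : p.Prime) (hs : s.Prime) {H : Subgroup X} (hH : IsPGroup p H)
    (h : s ∣ Nat.card H) : s = p := by
  have : Fact p.Prime := ⟨hp⟩
  obtain ⟨k, hk⟩ := IsPGroup.iff_card.1 hH
  rw [hk] at h
  exact (Nat.prime_dvd_prime_iff_eq hs hp).1 (hs.dvd_of_dvd_pow h)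

theorem twoP_sup [Finite X] {p r : ℕ} (hp : p.Prime) (hr : r.Prime) {A B : Subgroup X}
    (hA : IsPGroup p A) (hB : IsPGroup r B) (hBA : B ≤ normalizer (A : Set X)) : TwoP (A ⊔ B) := by
  refine ⟨p, r, hp, hr, fun s hs hdvd => ?_⟩
  have : Fact s.Prime := ⟨hs⟩
  obtain ⟨x, hx⟩ := exists_prime_orderOf_dvd_card' s hdvd
  obtain ⟨a, ha, b, hb, hab⟩ := (mem_sup_nor hBA).1 x.2
  obtain ⟨a', ha', h⟩ := pow_mul_mem hBA ha hb (Nat.card B)
  have hb1 : b ^ Nat.card B = 1 := by
    have := pow_card_eq_one' (x := (⟨b, hb⟩ : B))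
    exact congrArg Subtype.val this
  have ha1 : a' ^ Nat.card A = 1 := by
    have := pow_card_eq_one' (x := (⟨a', ha'⟩ : A))
    exact congrArg Subtype.val this
  rw [hb1, mul_one, hab] at h
  have h2 : (x : X) ^ (Nat.card B * Nat.card A) = 1 := by rw [pow_mul, h, ha1]
  have h3 : x ^ (Nat.card B * Nat.card A) = 1 := Subtype.ext h2
  have h4 := orderOf_dvd_of_pow_eq_one h3
  rw [hx] at h4
  rcases (Nat.Prime.dvd_mul hs).1 h4 with h5 | h5
  · exact Or.inr (dvd_of_isPGroup hr hs hB h5)
  · exact Or.inl (dvd_of_isPGroup hp hs hA h5)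

theorem mem_of_pow [Finite X] {p r : ℕ} (hp : p.Prime) (hr : r.Prime) (hpr : p ≠ r) {A B : Subgroup X}
    (hA : IsPGroup p A) (hB : IsPGroup r B) (hBA : B ≤ normalizer (A : Set X)) {x : X} (hx : x ∈ A ⊔ B)
    {k : ℕ} (hk : x ^ p ^ k = 1) : x ∈ A := by
  obtain ⟨a, ha, b, hb, rfl⟩ := (mem_sup_nor hBA).1 hx
  obtain ⟨a', ha', h⟩ := pow_mul_mem hBA ha hb (p ^ k)
  rw [hk] at h
  have h1 : b ^ p ^ k ∈ A := by
    have : b ^ p ^ k = a'⁻¹ := (inv_eq_of_mul_eq_one_right h.symm).symm
    rw [this]; exact inv_mem ha'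
  have h2 : b ^ p ^ k = 1 := inf_eq_bot hp hr hpr hA hB h1 (pow_mem hb _)
  obtain ⟨l, hl⟩ := hB ⟨b, hb⟩
  have h3 : b = 1 := eq_one_of_pow hp hr hpr h2 (congrArg Subtype.val hl)
  rw [h3, mul_one]; exact ha

theorem nor_sup_le [Finite X] {p r : ℕ} (hp : p.Prime) (hr : r.Prime) (hpr : p ≠ r) {A B : Subgroup X}
    (hA : IsPGroup p A) (hB : IsPGroup r B) (hBA : B ≤ normalizer (A : Set X)) :
    normalizer ((A ⊔ B : Subgroup X) : Set X) ≤ normalizer (A : Set X) := by
  intro g hg
  apply mem_nor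
  intro x hx
  obtain ⟨k, hk⟩ := hA ⟨x, hx⟩
  apply mem_of_pow hp hr hpr hA hB hBA (conj_mem hg (le_sup_left (a := A) hx)) (k := k)
  rw [conj_pow, show x ^ p ^ k = 1 from congrArg Subtype.val hk, mul_one, mul_inv_cancel]

theorem nor_eq (hX : PM X) {H K : Subgroup X} (hH : H ≠ ⊥) (hH2 : TwoP H) (hK : K ≠ ⊥) (hK2 : TwoP K)
    (h : normalizer (H : Set X) ≤ normalizer (K : Set X)) :
    normalizer (H : Set X) = normalizer (K : Set X) := by
  rcases (hX H hH hH2).le_iff.1 h with h1 | h1
  · exact absurd h1 (hX K hK hK2).1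
  · exact h1.symm

theorem nor_sup [Finite X] (hX : PM X) {p r : ℕ} (hp : p.Prime) (hr : r.Prime) (hpr : p ≠ r) {A B : Subgroup X}
    (hA : IsPGroup p A) (hB : IsPGroup r B) (hA1 : A ≠ ⊥) (hBA : B ≤ normalizer (A : Set X)) :
    normalizer ((A ⊔ B : Subgroup X) : Set X) = normalizer (A : Set X) := by
  refine nor_eq hX ?_ (twoP_sup hp hr hA hB hBA) hA1 (twoP_of_isPGroup hp hA)
    (nor_sup_le hp hr hpr hA hB hBA)
  intro h
  exact hA1 (le_bot_iff.1 (h ▸ le_sup_left))

theorem le_nor_of_comm {A B : Subgroup X} (h : ∀ a ∈ A, ∀ b ∈ B, a * b = b * a) :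
    B ≤ normalizer (A : Set X) := by
  intro b hb
  rw [mem_normalizer_iff]
  intro a
  constructor
  · intro ha
    rw [← h a ha b hb, mul_inv_cancel_right]; exact ha
  · intro ha
    have h1 := h _ ha b hb
    have h2 : b * a * b⁻¹ * b = b * a := by group
    rw [h2] at h1
    have h3 : a = b * a * b⁻¹ := by
      have := mul_left_cancel h1
      exact this
    rw [h3]; exact ha

theorem nor_comm [Finite X] (hX : PM X) {p r : ℕ} (hp : p.Prime) (hr : r.Prime) (hpr : p ≠ r) {A B : Subgroup X}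
    (hA : IsPGroup p A) (hB : IsPGroup r B) (hA1 : A ≠ ⊥) (hB1 : B ≠ ⊥)
    (h : ∀ a ∈ A, ∀ b ∈ B, a * b = b * a) :
    normalizer (A : Set X) = normalizer (B : Set X) := by
  rw [← nor_sup hX hp hr hpr hA hB hA1 (le_nor_of_comm h), sup_comm,
    nor_sup hX hr hp hpr.symm hB hA hB1 (le_nor_of_comm fun b hb a ha => (h a ha b hb).symm)]

/-- a commutator of elements of mutually normalizing subgroups of coprime orders is trivial -/
theorem comm_of_nor {p r : ℕ} (hp : p.Prime) (hr : r.Prime) (hpr : p ≠ r) {U R : Subgroup X}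
    (hU : IsPGroup p U) (hR : IsPGroup r R) (hRU : R ≤ normalizer (U : Set X)) {u : X} (hu : u ∈ U)
    (hur : u ∈ normalizer (R : Set X)) {ρ : X} (hρ : ρ ∈ R) : u * ρ = ρ * u := by
  have h1 : u * ρ * u⁻¹ * ρ⁻¹ ∈ R := mul_mem (conj_mem hur hρ) (inv_mem hρ)
  have h2 : u * ρ * u⁻¹ * ρ⁻¹ ∈ U := by
    have : u * ρ * u⁻¹ * ρ⁻¹ = u * (ρ * u⁻¹ * ρ⁻¹) := by group
    rw [this]
    exact mul_mem hu (conj_mem (hRU hρ) (inv_mem hu))
  have h3 := inf_eq_bot hp hr hpr hU hR h2 h1
  have h4 : u * ρ * u⁻¹ = ρ := mul_inv_eq_one.1 h3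
  exact mul_inv_eq_iff_eq_mul.1 h4

/-- **(A1)** If the `r`-group `R` normalizes the `p`-group `U` and centralizes a nontrivial element of `U`, then
`R` centralizes `U`. -/
theorem fix_all [Finite X] (hX : PM X) {p r : ℕ} (hp : p.Prime) (hr : r.Prime) (hpr : p ≠ r) {U R : Subgroup X}
    (hU : IsPGroup p U) (hR : IsPGroup r R) (hRU : R ≤ normalizer (U : Set X)) {u : X} (hu : u ∈ U) (hu1 : u ≠ 1)
    (h : ∀ ρ ∈ R, u * ρ = ρ * u) : ∀ v ∈ U, ∀ ρ ∈ R, v * ρ = ρ * v := by
  have : Fact p.Prime := ⟨hp⟩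
  rcases eq_or_ne R ⊥ with rfl | hR1
  · intro v _ ρ hρ
    rw [Subgroup.mem_bot.1 hρ, mul_one, one_mul]
  set A : Subgroup X := U ⊓ centralizer (R : Set X) with hA
  have hAU : A ≤ U := inf_le_left
  have hAp : IsPGroup p A := hU.to_le hAU
  have hmemA : ∀ v, v ∈ A ↔ v ∈ U ∧ ∀ ρ ∈ R, v * ρ = ρ * v := by
    intro v
    rw [hA, Subgroup.mem_inf, Subgroup.mem_centralizer_iff]
    constructor
    · rintro ⟨h1, h2⟩
      exact ⟨h1, fun ρ hρ => (h2 ρ hρ).symm⟩
    · rintro ⟨h1, h2⟩
      exact ⟨h1, fun ρ hρ => (h2 ρ hρ).symm⟩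
  have hA1 : A ≠ ⊥ := by
    intro hbot
    have : u ∈ A := (hmemA u).2 ⟨hu, h⟩
    rw [hbot, Subgroup.mem_bot] at this
    exact hu1 this
  have hnor := nor_comm hX hp hr hpr hAp hR hA1 hR1 (fun a ha b hb => ((hmemA a).1 ha).2 b hb)
  -- the normalizer of `A` in `U` is `A`
  have hself : ∀ v ∈ U, v ∈ normalizer (A : Set X) → v ∈ A := by
    intro v hv hvA
    rw [hnor] at hvA
    exact (hmemA v).2 ⟨hv, fun ρ hρ => comm_of_nor hp hr hpr hU hR hRU hv hvA hρ⟩
  have hAU' : A = U := by
    by_contra hne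
    have hlt : A < U := lt_of_le_of_ne hAU hne
    have hnil : Group.IsNilpotent U := IsPGroup.isNilpotent hU
    have hnc : NormalizerCondition U := Group.normalizerCondition_of_isNilpotent
    have hlt' : A.subgroupOf U < ⊤ := by
      rw [lt_top_iff_ne_top]
      intro htop
      rw [Subgroup.subgroupOf_eq_top] at htop
      exact hne (le_antisymm hAU htop)
    have h1 := hnc _ hlt'
    obtain ⟨w, hw, hwn⟩ := SetLike.exists_of_lt h1
    apply hwn
    rw [Subgroup.mem_subgroupOf]
    apply hself w w.2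
    apply mem_nor
    intro x hx
    have := conj_mem hw (show (⟨x, hAU hx⟩ : U) ∈ A.subgroupOf U from hx)
    exact this
  intro v hv
  rw [← hAU'] at hv
  exact ((hmemA v).1 hv).2

/-- two `r`-subgroups of `V ⊔ R` of the same order are conjugate under `V` -/
theorem conj_of_sup [Finite X] {p r : ℕ} (hp : p.Prime) (hr : r.Prime) (hpr : p ≠ r) {V R R' : Subgroup X}
    (hV : IsPGroup p V) (hR : IsPGroup r R) (hR' : IsPGroup r R') (hRV : R ≤ normalizer (V : Set X))
    (hle : R' ≤ V ⊔ R) (hcard : Nat.card R' = Nat.card R) :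
    ∃ v ∈ V, R' = R.map (MulAut.conj v).toMonoidHom := by
  have : Fact r.Prime := ⟨hr⟩
  have : Fact p.Prime := ⟨hp⟩
  set W : Subgroup X := V ⊔ R with hW
  have hVW : V ≤ W := le_sup_left
  have hRW : R ≤ W := le_sup_right
  have hcompl : Nat.card W = Nat.card V * Nat.card R := by
    have h1 : V ⊓ R = ⊥ := by
      rw [eq_bot_iff]
      intro x hx
      exact Subgroup.mem_bot.2 (inf_eq_bot hp hr hpr hV hR hx.1 hx.2)
    have e : V × R ≃ W := by
      refine Equiv.ofBijective (fun x => ⟨x.1 * x.2, mul_mem (hVW x.1.2) (hRW x.2.2)⟩) ⟨?_, ?_⟩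
      · rintro ⟨a, b⟩ ⟨c, d⟩ h
        have h2 : (a : X) * b = c * d := congrArg Subtype.val h
        have h3 : (c : X)⁻¹ * a = d * (b : X)⁻¹ := by
          rw [inv_mul_eq_iff_eq_mul, ← mul_assoc, ← h2, mul_inv_cancel_right]
        have h4 : (c : X)⁻¹ * a ∈ V ⊓ R :=
          ⟨V.mul_mem (V.inv_mem c.2) a.2, h3 ▸ R.mul_mem d.2 (R.inv_mem b.2)⟩
        rw [h1, Subgroup.mem_bot] at h4
        have h5 : a = c := Subtype.ext (inv_mul_eq_one.1 h4).symm
        subst h5
        have h6 : b = d := Subtype.ext (mul_left_cancel h2)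
        rw [h6]
      · rintro ⟨w, hw⟩
        obtain ⟨a, ha, b, hb, hab⟩ := (mem_sup_nor hRV).1 hw
        exact ⟨(⟨a, ha⟩, ⟨b, hb⟩), Subtype.ext hab⟩
    rw [← Nat.card_congr e, Nat.card_prod]
  have hnd : ¬ r ∣ Nat.card V := fun h => hpr (dvd_of_isPGroup hp hr hV h).symm
  obtain ⟨k, hk⟩ := IsPGroup.iff_card.1 hR
  have hfac : (Nat.card W).factorization r = k := by
    rw [hcompl, hk, Nat.factorization_mul Nat.card_pos.ne' (pow_pos hr.pos k).ne', hr.factorization_pow]
    simp [Nat.factorization_eq_zero_of_not_dvd hnd]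
  have hc1 : Nat.card (R.subgroupOf W) = r ^ (Nat.card W).factorization r := by
    rw [hfac, ← hk]
    exact Nat.card_congr (Subgroup.subgroupOfEquivOfLe hRW).toEquiv
  have hc2 : Nat.card (R'.subgroupOf W) = r ^ (Nat.card W).factorization r := by
    rw [hfac, ← hk, ← hcard]
    exact Nat.card_congr (Subgroup.subgroupOfEquivOfLe hle).toEquiv
  obtain ⟨w, hw⟩ := MulAction.exists_smul_eq W (Sylow.ofCard _ hc1) (Sylow.ofCard _ hc2)
  obtain ⟨v, hv, ρ, hρ, hvρ⟩ := (mem_sup_nor hRV).1 w.2
  refine ⟨v, hv, ?_⟩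
  have h1 : (MulAut.conj w) • (R.subgroupOf W) = R'.subgroupOf W := by
    have := congrArg (fun P : Sylow r W => (P : Subgroup W)) hw
    exact this
  have hR'eq : R' = R.map (MulAut.conj (w : X)).toMonoidHom := by
    have h2 : (MulAut.conj w • R.subgroupOf W).map W.subtype = (R'.subgroupOf W).map W.subtype :=
      congrArg (fun K : Subgroup W => K.map W.subtype) h1
    rw [Subgroup.subgroupOf_map_subtype, inf_eq_left.2 hle] at h2
    rw [← h2]
    ext x
    constructor
    · rintro ⟨y, hy, rfl⟩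
      obtain ⟨z, hz, hzy⟩ := hy
      refine ⟨z, hz, ?_⟩
      have := congrArg Subtype.val hzy
      exact this
    · rintro ⟨y, hy, rfl⟩
      refine ⟨w * ⟨y, hRW hy⟩ * w⁻¹, ⟨⟨y, hRW hy⟩, hy, rfl⟩, rfl⟩
  rw [hR'eq, ← hvρ]
  ext x
  constructor
  · rintro ⟨y, hy, rfl⟩
    refine ⟨ρ * y * ρ⁻¹, mul_mem (mul_mem hρ hy) (inv_mem hρ), ?_⟩
    simp [MulAut.conj_apply, mul_assoc]
  · rintro ⟨y, hy, rfl⟩
    refine ⟨ρ⁻¹ * y * ρ, mul_mem (mul_mem (inv_mem hρ) hy) hρ, ?_⟩
    simp [MulAut.conj_apply, mul_assoc]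

/-- **(A2)** If the `r`-group `R` normalizes the `p`-group `U` and centralizes no nontrivial element of `U`, then
`U` has no nontrivial proper `R`-invariant subgroup. -/
theorem eq_of_inv [Finite X] (hX : PM X) {p r : ℕ} (hp : p.Prime) (hr : r.Prime) (hpr : p ≠ r)
    {U R V : Subgroup X} (hU : IsPGroup p U) (hR : IsPGroup r R) (hRU : R ≤ normalizer (U : Set X))
    (hfree : ∀ u ∈ U, (∀ ρ ∈ R, u * ρ = ρ * u) → u = 1) (hVU : V ≤ U) (hV1 : V ≠ ⊥)
    (hRV : R ≤ normalizer (V : Set X)) : V = U := by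
  have : Fact p.Prime := ⟨hp⟩
  have hVp : IsPGroup p V := hU.to_le hVU
  have hnor := nor_sup hX hp hr hpr hVp hR hV1 hRV
  have hself : ∀ u ∈ U, u ∈ normalizer (V : Set X) → u ∈ V := by
    intro u hu huV
    rw [← hnor] at huV
    have hle : R.map (MulAut.conj u).toMonoidHom ≤ V ⊔ R := by
      rintro _ ⟨ρ, hρ, rfl⟩
      exact conj_mem huV (le_sup_right (b := R) hρ)
    obtain ⟨v, hv, hRv⟩ := conj_of_sup hp hr hpr hVp hR (hR.map _) hRV hle
      (Subgroup.card_map_of_injective (MulAut.conj u).injective)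
    have hnR : v⁻¹ * u ∈ normalizer (R : Set X) := by
      apply mem_nor
      intro ρ hρ
      have h1 : u * ρ * u⁻¹ ∈ R.map (MulAut.conj u).toMonoidHom := ⟨ρ, hρ, rfl⟩
      rw [hRv] at h1
      obtain ⟨ρ', hρ', h2⟩ := h1
      have h3 : v * ρ' * v⁻¹ = u * ρ * u⁻¹ := h2
      have h4 : v⁻¹ * u * ρ * (v⁻¹ * u)⁻¹ = ρ' := by
        rw [show v⁻¹ * u * ρ * (v⁻¹ * u)⁻¹ = v⁻¹ * (u * ρ * u⁻¹) * v by group, ← h3]
        group
      rw [h4]; exact hρ'
    have hin : v⁻¹ * u ∈ U := mul_mem (inv_mem (hVU hv)) hu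
    have h5 : v⁻¹ * u = 1 := hfree _ hin fun ρ hρ => comm_of_nor hp hr hpr hU hR hRU hin hnR hρ
    rw [inv_mul_eq_one.1 h5] at hv
    exact hv
  by_contra hne
  have hlt : V < U := lt_of_le_of_ne hVU hne
  have hnil : Group.IsNilpotent U := IsPGroup.isNilpotent hU
  have hnc : NormalizerCondition U := Group.normalizerCondition_of_isNilpotent
  have hlt' : V.subgroupOf U < ⊤ := by
    rw [lt_top_iff_ne_top]
    intro htop
    rw [Subgroup.subgroupOf_eq_top] at htop
    exact hne (le_antisymm hVU htop)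
  have h1 := hnc _ hlt'
  obtain ⟨w, hw, hwn⟩ := SetLike.exists_of_lt h1
  apply hwn
  rw [Subgroup.mem_subgroupOf]
  apply hself w w.2
  apply mem_nor
  intro x hx
  have := conj_mem hw (show (⟨x, hVU hx⟩ : U) ∈ V.subgroupOf U from hx)
  exact this

theorem isPGroup_sup {p : ℕ} {A B : Subgroup X} (hA : IsPGroup p A) (hB : IsPGroup p B)
    (hBA : B ≤ normalizer (A : Set X)) : IsPGroup p (A ⊔ B : Subgroup X) :=
  hA.to_sup_of_normal_left' hB hBA

/-- The `p`-core of the normalizer of a nontrivial `p`-subgroup. -/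
theorem exists_core [Finite X] (hX : PM X) {p : ℕ} (hp : p.Prime) {H : Subgroup X} (hH : IsPGroup p H)
    (hH1 : H ≠ ⊥) : ∃ W : Subgroup X, IsPGroup p W ∧ H ≤ W ∧
      normalizer (W : Set X) = normalizer (H : Set X) ∧
      ∀ W' : Subgroup X, IsPGroup p W' → normalizer (H : Set X) ≤ normalizer (W' : Set X) → W' ≤ W := by
  obtain ⟨W, ⟨hWp, hHW, hnW⟩, hmax⟩ := Set.Finite.exists_maximalFor
    (fun W : Subgroup X => Nat.card W)
    {W : Subgroup X | IsPGroup p W ∧ H ≤ W ∧ normalizer (H : Set X) ≤ normalizer (W : Set X)}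
    (Set.toFinite _) ⟨H, hH, le_rfl, le_rfl⟩
  have hW1 : W ≠ ⊥ := fun h => hH1 (le_bot_iff.1 (h ▸ hHW))
  have heq := nor_eq hX hH1 (twoP_of_isPGroup hp hH) hW1 (twoP_of_isPGroup hp hWp) hnW
  refine ⟨W, hWp, hHW, heq.symm, fun W' hW' hn => ?_⟩
  rcases eq_or_ne W' ⊥ with rfl | hW'1
  · exact bot_le
  have heq' := nor_eq hX hH1 (twoP_of_isPGroup hp hH) hW'1 (twoP_of_isPGroup hp hW') hn
  have hle : W' ≤ normalizer (W : Set X) := by
    rw [← heq, heq']; exact le_normalizer
  have hsup : IsPGroup p (W ⊔ W' : Subgroup X) := isPGroup_sup hWp hW' hle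
  have hmem : (W ⊔ W' : Subgroup X) ∈
      {W : Subgroup X | IsPGroup p W ∧ H ≤ W ∧ normalizer (H : Set X) ≤ normalizer (W : Set X)} := by
    refine ⟨hsup, hHW.trans le_sup_left, ?_⟩
    intro g hg
    apply mem_nor
    intro x hx
    obtain ⟨a, ha, b, hb, rfl⟩ := (mem_sup_nor hle).1 hx
    rw [show g * (a * b) * g⁻¹ = (g * a * g⁻¹) * (g * b * g⁻¹) by group]
    exact mul_mem (le_sup_left (a := W) (conj_mem (hnW hg) ha)) (le_sup_right (b := W') (conj_mem (hn hg) hb))
  have h1 := hmax hmem (Nat.card_le_card_of_injective (Subgroup.inclusion (le_sup_left (a := W) (b := W')))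
    (Subgroup.inclusion_injective _))
  have h2 : W = W ⊔ W' := Subgroup.eq_of_le_of_card_ge le_sup_left h1
  rw [h2]; exact le_sup_right

/-- the normalizer of a nontrivial `p`-subgroup is its own normalizer -/
theorem nor_nor [Finite X] (hX : PM X) {p : ℕ} (hp : p.Prime) {H : Subgroup X} (hH : IsPGroup p H)
    (hH1 : H ≠ ⊥) : normalizer ((normalizer (H : Set X) : Subgroup X) : Set X) = normalizer (H : Set X) := by
  obtain ⟨W, hWp, hHW, hWn, hmax⟩ := exists_core hX hp hH hH1
  apply le_antisymm _ le_normalizer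
  intro g hg
  rw [← hWn]
  apply mem_nor
  have h1 : W.map (MulAut.conj g).toMonoidHom ≤ W := by
    apply hmax _ (hWp.map _)
    intro m hm
    apply mem_nor
    rintro _ ⟨x, hx, rfl⟩
    have h2 : g⁻¹ * m * g ∈ normalizer (H : Set X) := conj_mem' hg hm
    rw [← hWn] at h2
    refine ⟨g⁻¹ * m * g * x * (g⁻¹ * m * g)⁻¹, conj_mem h2 hx, ?_⟩
    simp [MulAut.conj_apply, mul_assoc]
  intro x hx
  exact h1 ⟨x, hx, rfl⟩

end Cfsg.Agent.H546.MaxNor
end

-- part: H546/MaxNorTwo
section
/-!
# Groups in which the normalizers of the nontrivial `{p, q}`-subgroups are maximal: 2-local analysis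

`Loc U g r v`: `U` is a 2-group normalized but not centralized by the `r`-element `g`, `r` odd.
-/

set_option autoImplicit false
set_option linter.unusedSectionVars false

namespace Cfsg.Agent.H546.MaxNor

open Subgroup
open scoped Pointwise

variable {X : Type*} [Group X]

/-- an involution normalizing a cyclic group of odd prime power order centralizes or inverts it -/
theorem invol_act {s k : ℕ} (hs : s.Prime) (hs2 : s ≠ 2) {t u : X} (ht : orderOf t = s ^ k) (hu : u * u = 1)
    (hn : u * t * u⁻¹ ∈ zpowers t) : u * t * u⁻¹ = t ∨ u * t * u⁻¹ = t⁻¹ := by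
  obtain ⟨m, hm⟩ := mem_zpowers_iff.1 hn
  have hui : u⁻¹ = u := inv_eq_of_mul_eq_one_right hu
  have h1 : t ^ (m * m) = t := by
    rw [zpow_mul, hm, conj_zpow, hm]
    rw [hui]
    rw [show u * (u * t * u) * u = (u * u) * t * (u * u) by group, hu]
    group
  have h2 : t ^ (m * m - 1) = 1 := by rw [zpow_sub, h1, zpow_one, mul_inv_cancel]
  have h3 : ((s ^ k : ℕ) : ℤ) ∣ m * m - 1 := by
    rw [← ht]; exact orderOf_dvd_iff_zpow_eq_one.2 h2
  have h4 : ((s : ℤ) ^ k) ∣ (m - 1) * (m + 1) := by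
    have : (m - 1) * (m + 1) = m * m - 1 := by ring
    rw [this]; exact_mod_cast h3
  have hsp : Prime (s : ℤ) := Nat.prime_iff_prime_int.1 hs
  rw [← hm]
  by_cases h5 : (s : ℤ) ∣ m - 1
  · have h6 : ¬ (s : ℤ) ∣ m + 1 := by
      intro h6
      have h7 : (s : ℤ) ∣ 2 := by
        have := dvd_sub h6 h5
        rwa [show m + 1 - (m - 1) = 2 by ring] at this
      have h8 : s ∣ 2 := by exact_mod_cast h7
      exact hs2 ((Nat.prime_dvd_prime_iff_eq hs Nat.prime_two).1 h8)
    left
    have h7 : IsCoprime ((s : ℤ) ^ k) (m + 1) :=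
      ((Prime.coprime_iff_not_dvd hsp).2 h6).pow_left
    have h8 := h7.dvd_of_dvd_mul_right h4
    have h9 : t ^ (m - 1) = 1 := by
      rw [← orderOf_dvd_iff_zpow_eq_one, ht]; exact_mod_cast h8
    rw [show m = (m - 1) + 1 by ring, zpow_add, h9, zpow_one, one_mul]
  · right
    have h7 : IsCoprime ((s : ℤ) ^ k) (m - 1) :=
      ((Prime.coprime_iff_not_dvd hsp).2 h5).pow_left
    have h8 := h7.dvd_of_dvd_mul_left h4
    have h9 : t ^ (m + 1) = 1 := by
      rw [← orderOf_dvd_iff_zpow_eq_one, ht]; exact_mod_cast h8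
    rw [show m = (m + 1) - 1 by ring, zpow_sub, h9, zpow_one, one_mul]

/-- `U` is a 2-group normalized but not centralized by the `r`-element `g`, `r` odd -/
structure Loc (U : Subgroup X) (g : X) (r v : ℕ) : Prop where
  two : IsPGroup 2 U
  prime : r.Prime
  odd : r ≠ 2
  ord : orderOf g = r ^ v
  nor : g ∈ normalizer (U : Set X)
  ncent : ∃ u ∈ U, u * g ≠ g * u

theorem isPGroup_zpowers {p k : ℕ} {x : X} (h : orderOf x = p ^ k) : IsPGroup p (zpowers x) :=
  IsPGroup.of_card (n := k) (by rw [Nat.card_zpowers, h])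

theorem comm_zpowers {x y : X} (h : x * y = y * x) : ∀ a ∈ zpowers x, ∀ b ∈ zpowers y, a * b = b * a := by
  intro a ha b hb
  obtain ⟨m, rfl⟩ := mem_zpowers_iff.1 ha
  obtain ⟨n, rfl⟩ := mem_zpowers_iff.1 hb
  exact ((show Commute x y from h).zpow_zpow m n)

/-- an element normalizing the group generated by an involution commutes with it -/
theorem mem_nor_invol [Finite X] {z y : X} (hz : z * z = 1) (hz1 : z ≠ 1) :
    y ∈ normalizer (zpowers z : Set X) ↔ y * z = z * y := by
  constructor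
  · intro hy
    have h1 := conj_mem hy (mem_zpowers z)
    obtain ⟨m, hm⟩ := mem_zpowers_iff.1 h1
    rcases Int.even_or_odd' m with ⟨k, rfl | rfl⟩
    · exfalso
      rw [zpow_mul, zpow_ofNat, pow_two, hz, one_zpow] at hm
      exact hz1 (conj_eq_one_iff.1 hm.symm)
    · rw [zpow_add, zpow_mul, zpow_ofNat, pow_two, hz, one_zpow, one_mul, zpow_one] at hm
      exact (mul_inv_eq_iff_eq_mul.1 hm.symm)
  · intro hy
    apply mem_nor
    intro x hx
    have := comm_zpowers hy y (mem_zpowers y) x hx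
    rw [this, mul_inv_cancel_right]; exact hx

theorem orderOf_of_sq {z : X} (hz : z * z = 1) (hz1 : z ≠ 1) : orderOf z = 2 :=
  orderOf_eq_prime (by rw [pow_two]; exact hz) hz1

namespace Loc

variable [Finite X] {U : Subgroup X} {g : X} {r v : ℕ}

theorem ne_one (L : Loc U g r v) : g ≠ 1 := by
  rintro rfl
  obtain ⟨u, -, h⟩ := L.ncent
  exact h (by rw [mul_one, one_mul])

theorem U_ne (L : Loc U g r v) : U ≠ ⊥ := by
  rintro rfl
  obtain ⟨u, hu, h⟩ := L.ncent
  rw [Subgroup.mem_bot.1 hu] at h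
  exact h (by rw [mul_one, one_mul])

theorem isP (L : Loc U g r v) : IsPGroup r (zpowers g) := isPGroup_zpowers L.ord

theorem zne (L : Loc U g r v) : zpowers g ≠ ⊥ := by
  rw [Ne, zpowers_eq_bot]; exact L.ne_one

theorem zle (L : Loc U g r v) : zpowers g ≤ normalizer (U : Set X) := by
  rw [zpowers_le]; exact L.nor

/-- `g` acts freely on `U` -/
theorem free (hX : PM X) (L : Loc U g r v) {u : X} (hu : u ∈ U) (h : u * g = g * u) : u = 1 := by
  by_contra hu1
  obtain ⟨w, hw, hwg⟩ := L.ncent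
  exact hwg (fix_all hX Nat.prime_two L.prime L.odd.symm L.two L.isP L.zle hu hu1
    (fun ρ hρ => comm_zpowers h u (mem_zpowers u) ρ hρ) w hw g (mem_zpowers g))

theorem min (hX : PM X) (L : Loc U g r v) {V : Subgroup X} (hVU : V ≤ U) (hV : V ≠ ⊥)
    (hg : g ∈ normalizer (V : Set X)) : V = U :=
  eq_of_inv hX Nat.prime_two L.prime L.odd.symm L.two L.isP L.zle
    (fun u hu h => L.free hX hu (h g (mem_zpowers g))) hVU hV (by rw [zpowers_le]; exact hg)

/-- `U` is the largest normal 2-subgroup of its normalizer -/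
theorem core (hX : PM X) (L : Loc U g r v) {W : Subgroup X} (hW : IsPGroup 2 W)
    (hn : normalizer (U : Set X) ≤ normalizer (W : Set X)) : W ≤ U := by
  obtain ⟨C, hC2, hUC, hCn, hmax⟩ := exists_core hX Nat.prime_two L.two L.U_ne
  have hgC : g ∈ normalizer (C : Set X) := by rw [hCn]; exact L.nor
  have hncent : ∃ u ∈ C, u * g ≠ g * u := by
    obtain ⟨u, hu, h⟩ := L.ncent
    exact ⟨u, hUC hu, h⟩
  have L' : Loc C g r v := ⟨hC2, L.prime, L.odd, L.ord, hgC, hncent⟩
  have : U = C := L'.min hX hUC L.U_ne L.nor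
  rw [this]
  exact hmax W hW hn

theorem elem (hX : PM X) (L : Loc U g r v) :
    (∀ u ∈ U, u * u = 1) ∧ ∀ u ∈ U, ∀ w ∈ U, u * w = w * u := by
  let V : Subgroup X :=
    { carrier := {u | u ∈ U ∧ (∀ w ∈ U, w * u = u * w) ∧ u * u = 1}
      one_mem' := ⟨one_mem _, fun w _ => by rw [mul_one, one_mul], by rw [mul_one]⟩
      mul_mem' := by
        rintro a b ⟨ha, ha2, ha3⟩ ⟨hb, hb2, hb3⟩
        refine ⟨mul_mem ha hb, fun w hw => ?_, ?_⟩
        · rw [← mul_assoc, ha2 w hw, mul_assoc, hb2 w hw, mul_assoc]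
        · rw [show a * b * (a * b) = a * (b * a) * b by group, ← ha2 b hb |>.symm]
          rw [show a * (a * b) * b = (a * a) * (b * b) by group, ha3, hb3, mul_one]
      inv_mem' := by
        rintro a ⟨ha, ha2, ha3⟩
        have : a⁻¹ = a := inv_eq_of_mul_eq_one_right ha3
        rw [this]
        exact ⟨ha, ha2, ha3⟩ }
  have hVU : V ≤ U := fun x hx => hx.1
  have hgV : g ∈ normalizer (V : Set X) := by
    apply mem_nor
    rintro x ⟨h1, h2, h3⟩
    refine ⟨conj_mem L.nor h1, fun w hw => ?_, ?_⟩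
    · have h4 := h2 _ (conj_mem' L.nor hw)
      calc w * (g * x * g⁻¹) = g * (g⁻¹ * w * g * x) * g⁻¹ := by group
        _ = g * (x * (g⁻¹ * w * g)) * g⁻¹ := by rw [h4]
        _ = g * x * g⁻¹ * w := by group
    · rw [show g * x * g⁻¹ * (g * x * g⁻¹) = g * (x * x) * g⁻¹ by group, h3]; group
  have hV1 : V ≠ ⊥ := by
    have hfact : Fact (Nat.Prime 2) := ⟨Nat.prime_two⟩
    have hnt : Nontrivial U := (Subgroup.nontrivial_iff_ne_bot U).2 L.U_ne
    have hct := L.two.center_nontrivial
    obtain ⟨c, hc1⟩ := exists_ne (1 : Subgroup.center U)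
    obtain ⟨k, hk⟩ := (L.two.to_le (le_refl U)) ⟨(c : U), by exact (c : U).2⟩
    -- an involution in the centre
    have hcU : ((c : U) : X) ≠ 1 := by
      intro h
      apply hc1
      apply Subtype.ext
      apply Subtype.ext
      exact h
    have hpow : ∃ m : ℕ, ((c : U) : X) ^ 2 ^ m ≠ 1 ∧ ((c : U) : X) ^ 2 ^ (m + 1) = 1 := by
      obtain ⟨k, hk⟩ := L.two (c : U)
      have hk' : ((c : U) : X) ^ 2 ^ k = 1 := congrArg Subtype.val hk
      induction k with
      | zero => rw [pow_zero, pow_one] at hk'; exact absurd hk' hcU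
      | succ k ih =>
        by_cases h : ((c : U) : X) ^ 2 ^ k = 1
        · exact ih (Subtype.ext h) h
        · exact ⟨k, h, hk'⟩
    obtain ⟨m, hm1, hm2⟩ := hpow
    intro hbot
    have hmem : ((c : U) : X) ^ 2 ^ m ∈ V := by
      refine ⟨pow_mem (c : U).2 _, fun w hw => ?_, ?_⟩
      · have h1 := Subgroup.mem_center_iff.1 c.2 ⟨w, hw⟩
        have h2 : w * (c : U) = (c : U) * w := congrArg Subtype.val h1
        exact (show Commute w ((c : U) : X) from h2).pow_right _
      · rw [← pow_add, ← two_mul, ← pow_succ', hm2]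
    rw [hbot, Subgroup.mem_bot] at hmem
    exact hm1 hmem
  have hVU' := L.min hX hVU hV1 hgV
  constructor
  · intro u hu
    rw [← hVU'] at hu
    exact hu.2.2
  · intro u hu w hw
    rw [← hVU'] at hw
    exact hw.2.1 u hu

/-- the centralizer of `U` is `U` -/
theorem cent (hX : PM X) (L : Loc U g r v) {x : X} (hx : ∀ u ∈ U, u * x = x * u) : x ∈ U := by
  have hle : IsPGroup 2 (centralizer (U : Set X)) := by
    rintro ⟨y, hy⟩
    have hy' : ∀ u ∈ U, u * y = y * u := fun u hu => mem_centralizer_iff.1 hy u hu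
    by_contra hcon
    push Not at hcon
    -- an odd prime divides the order of `y`
    have hord : ∀ k, orderOf y ≠ 2 ^ k := by
      intro k hk
      apply hcon k
      apply Subtype.ext
      change y ^ 2 ^ k = 1
      rw [← hk]; exact pow_orderOf_eq_one y
    obtain ⟨s, hs, hs2, hsd⟩ : ∃ s : ℕ, s.Prime ∧ s ≠ 2 ∧ s ∣ orderOf y := by
      by_contra hno
      push Not at hno
      have : ∃ k, orderOf y = 2 ^ k := by
        refine ⟨(orderOf y).primeFactorsList.length, Nat.eq_prime_pow_of_unique_prime_dvd (orderOf_pos y).ne' ?_⟩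
        intro d hd hdd
        by_contra hd2
        exact hno d hd hd2 hdd
      obtain ⟨k, hk⟩ := this
      exact hord k hk
    obtain ⟨c, hc⟩ := hsd
    have ht : orderOf (y ^ c) = s ^ 1 := by
      rw [pow_one, orderOf_pow, hc, Nat.gcd_eq_right (Dvd.intro_left s rfl)]
      exact Nat.mul_div_cancel _ (Nat.pos_of_ne_zero (by rintro rfl; exact (orderOf_pos y).ne' (by rw [hc]; rfl)))
    set t := y ^ c with htdef
    have ht1 : t ≠ 1 := by
      intro h
      rw [h, orderOf_one, pow_one] at ht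
      exact hs.ne_one ht.symm
    have htU : ∀ u ∈ U, u * t = t * u := fun u hu =>
      (show Commute u y from hy' u hu).pow_right c
    have h1 := nor_comm hX Nat.prime_two hs hs2.symm L.two (isPGroup_zpowers ht) L.U_ne
      (by rw [Ne, zpowers_eq_bot]; exact ht1)
      (fun a ha b hb => by
        obtain ⟨m, rfl⟩ := mem_zpowers_iff.1 hb
        exact (show Commute a t from htU a ha).zpow_right m)
    obtain ⟨z, hz, hz1⟩ := (Subgroup.bot_or_exists_ne_one U).resolve_left L.U_ne
    have hzz := (L.elem hX).1 z hz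
    have h2 := nor_comm hX Nat.prime_two hs hs2.symm
      (isPGroup_zpowers (p := 2) (k := 1) (x := z) (by rw [pow_one]; exact orderOf_of_sq hzz hz1))
      (isPGroup_zpowers ht) (by rw [Ne, zpowers_eq_bot]; exact hz1) (by rw [Ne, zpowers_eq_bot]; exact ht1)
      (comm_zpowers (htU z hz))
    have h3 : g ∈ normalizer (zpowers z : Set X) := by rw [h2, ← h1]; exact L.nor
    rw [mem_nor_invol hzz hz1] at h3
    exact hz1 (L.free hX hz h3.symm)
  refine L.core hX hle ?_ (mem_centralizer_iff.2 hx)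
  intro m hm
  apply mem_nor
  intro y hy
  rw [mem_centralizer_iff]
  intro u hu
  have h1 := mem_centralizer_iff.1 hy _ (conj_mem' hm hu)
  calc u * (m * y * m⁻¹) = m * (m⁻¹ * u * m * y) * m⁻¹ := by group
    _ = m * (y * (m⁻¹ * u * m)) * m⁻¹ := by rw [h1]
    _ = m * y * m⁻¹ * u := by group

/-- an element of `U` commuting with `g ^ 2` is trivial -/
theorem free_sq (hX : PM X) (L : Loc U g r v) {u : X} (hu : u ∈ U) (h : u * (g * g) = g * g * u) : u = 1 := by
  apply L.free hX hu
  have hodd : Odd (orderOf g) := by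
    rw [L.ord]; exact (L.prime.odd_of_ne_two L.odd).pow
  obtain ⟨k, hk⟩ := hodd
  have h1 : (g * g) ^ (k + 1) = g := by
    rw [← pow_two, ← pow_mul, show 2 * (k + 1) = orderOf g + 1 by omega, pow_succ, pow_orderOf_eq_one, one_mul]
  have h2 : Commute u (g * g) := h
  have h3 := h2.pow_right (k + 1)
  rw [h1] at h3
  exact h3

end Loc

end Cfsg.Agent.H546.MaxNor
end

-- part: H546/MaxNorOne
section
/-!
# Case I of the 2-local analysis: an involution of `U` commutes with an element of odd prime order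

Then `U` is a four-group and a Sylow 2-subgroup, and the centralizer of the involution is dihedral of order `4 s`.
-/

set_option autoImplicit false
set_option linter.unusedSectionVars false

namespace Cfsg.Agent.H546.MaxNor

open Subgroup
open scoped Pointwise

variable {X : Type*} [Group X]

/-- the outcome of Case I -/
structure Out (U : Subgroup X) (g z t u : X) (s : ℕ) : Prop where
  hz : z ∈ U
  hz1 : z ≠ 1
  hu : u ∈ U
  hu1 : u ≠ 1
  huz : u ≠ z
  mem : ∀ w ∈ U, w = 1 ∨ w = z ∨ w = u ∨ w = z * u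
  prime : s.Prime
  odd : s ≠ 2
  ord : orderOf t = s
  tz : t * z = z * t
  inv : u * t * u⁻¹ = t⁻¹
  D : ∀ y, y ∈ normalizer (zpowers t : Set X) ↔ y * z = z * y
  cz : ∀ y, y * z = z * y → ∃ m : ℤ, ∃ w ∈ U, y = t ^ m * w
  trans : ∀ w ∈ U, w ≠ 1 → ∃ i : ℕ, i < 3 ∧ w = g ^ i * z * (g ^ i)⁻¹
  int : ∀ m ∈ normalizer (U : Set X), m * z = z * m → m ∈ U
  sylow : ∀ S : Subgroup X, IsPGroup 2 S → U ≤ S → S = U
  M : ∀ m ∈ normalizer (U : Set X), ∃ i : ℕ, i < 3 ∧ ∃ w ∈ U, m = g ^ i * w

theorem caseI [Finite X] (hX : PM X) {U : Subgroup X} {g : X} {r v : ℕ} (L : Loc U g r v)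
    {z t : X} {s : ℕ} (hz : z ∈ U) (hz1 : z ≠ 1) (hs : s.Prime) (hs2 : s ≠ 2) (ht : orderOf t = s)
    (htz : t * z = z * t) : ∃ u, Out U g z t u s := by
  have hel := (L.elem hX).1
  have hab := (L.elem hX).2
  have hzz := hel z hz
  have ht' : orderOf t = s ^ 1 := by rw [pow_one, ht]
  have ht1 : t ≠ 1 := by
    intro h; rw [h, orderOf_one] at ht; exact hs.ne_one ht.symm
  have hTp : IsPGroup s (zpowers t) := isPGroup_zpowers ht'
  have hTb : zpowers t ≠ ⊥ := by rw [Ne, zpowers_eq_bot]; exact ht1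
  -- normalizer of `⟨w⟩` for an involution `w` commuting with `t`
  have hN : ∀ w ∈ U, w ≠ 1 → w * t = t * w → ∀ y, y ∈ normalizer (zpowers t : Set X) ↔ y * w = w * y := by
    intro w hw hw1 hwt y
    have hww := hel w hw
    have h := nor_comm hX Nat.prime_two hs hs2.symm
      (isPGroup_zpowers (p := 2) (k := 1) (x := w) (by rw [pow_one]; exact orderOf_of_sq hww hw1))
      hTp (by rw [Ne, zpowers_eq_bot]; exact hw1) hTb (comm_zpowers hwt)
    rw [← h]
    exact mem_nor_invol hww hw1
  have hD := hN z hz hz1 htz.symm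
  have hUD : U ≤ normalizer (zpowers t : Set X) := fun w hw => (hD w).2 (hab w hw z hz)
  -- the centralizer of `t` in `U`
  have a0 : ∀ w ∈ U, w * t ≠ t * w → w * t * w⁻¹ = t⁻¹ := by
    intro w hw hne
    rcases invol_act hs hs2 ht' (hel w hw) (conj_mem (hUD hw) (mem_zpowers t)) with h | h
    · exact absurd (mul_inv_eq_iff_eq_mul.1 h) hne
    · exact h
  have a1 : ∃ u ∈ U, u * t ≠ t * u := by
    by_contra hcon
    push Not at hcon
    have h1 := L.cent hX hcon
    have h2 := hel t h1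
    have h3 : s ∣ 2 := by rw [← ht]; exact orderOf_dvd_of_pow_eq_one (by rw [pow_two]; exact h2)
    exact hs2 ((Nat.prime_dvd_prime_iff_eq hs Nat.prime_two).1 h3)
  have a2 : ∀ w₁ ∈ U, ∀ w₂ ∈ U, w₁ * t ≠ t * w₁ → w₂ * t ≠ t * w₂ → w₁ * w₂ * t = t * (w₁ * w₂) := by
    intro w₁ h₁ w₂ h₂ hn₁ hn₂
    have e₁ := a0 w₁ h₁ hn₁
    have e₂ := a0 w₂ h₂ hn₂
    have : w₁ * w₂ * t * (w₁ * w₂)⁻¹ = t := by
      calc w₁ * w₂ * t * (w₁ * w₂)⁻¹ = w₁ * (w₂ * t * w₂⁻¹) * w₁⁻¹ := by group
        _ = w₁ * t⁻¹ * w₁⁻¹ := by rw [e₂]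
        _ = (w₁ * t * w₁⁻¹)⁻¹ := by group
        _ = t := by rw [e₁, inv_inv]
    exact mul_inv_eq_iff_eq_mul.1 this
  have a3 : ∀ w ∈ U, w ≠ 1 → w * t = t * w → (g * w * g⁻¹) * t ≠ t * (g * w * g⁻¹) := by
    intro w hw hw1 hwt hcon
    have h1 := hN w hw hw1 hwt
    have hgw : g * w * g⁻¹ ∈ U := conj_mem L.nor hw
    have hgw1 : g * w * g⁻¹ ≠ 1 := fun h => hw1 (conj_eq_one_iff.1 h)
    have h2 := hN _ hgw hgw1 hcon
    have h3 : g ∈ normalizer ((normalizer (zpowers t : Set X) : Subgroup X) : Set X) := by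
      apply mem_nor
      intro y hy
      rw [h1] at hy
      rw [h2]
      calc g * y * g⁻¹ * (g * w * g⁻¹) = g * (y * w) * g⁻¹ := by group
        _ = g * (w * y) * g⁻¹ := by rw [hy]
        _ = g * w * g⁻¹ * (g * y * g⁻¹) := by group
    rw [nor_nor hX hs hTp hTb] at h3
    exact hz1 (L.free hX hz ((hD g).1 h3).symm)
  have a4 : ∀ w ∈ U, w ≠ 1 → w * t = t * w → w = z := by
    intro w hw hw1 hwt
    by_contra hwz
    have hzw1 : z * w ≠ 1 := by
      intro h
      apply hwz
      have : z * w = z * z := by rw [h, hzz]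
      exact mul_left_cancel this
    have hzwt : z * w * t = t * (z * w) := by
      rw [mul_assoc, hwt, ← mul_assoc, ← htz, mul_assoc]
    have h1 := a3 z hz hz1 htz.symm
    have h2 := a3 w hw hw1 hwt
    have h3 := a2 _ (conj_mem L.nor hz) _ (conj_mem L.nor hw) h1 h2
    have h4 := a3 _ (mul_mem hz hw) hzw1 hzwt
    apply h4
    rw [show g * (z * w) * g⁻¹ = g * z * g⁻¹ * (g * w * g⁻¹) by group]
    exact h3
  obtain ⟨u, hu, hut⟩ := a1
  have hu1 : u ≠ 1 := by rintro rfl; exact hut (by rw [mul_one, one_mul])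
  have huz : u ≠ z := by rintro rfl; exact hut htz.symm
  have huu := hel u hu
  have huzc := hab z hz u hu
  have hmem : ∀ w ∈ U, w = 1 ∨ w = z ∨ w = u ∨ w = z * u := by
    intro w hw
    by_cases hwt : w * t = t * w
    · by_cases hw1 : w = 1
      · exact Or.inl hw1
      · exact Or.inr (Or.inl (a4 w hw hw1 hwt))
    · have h1 := a2 w hw u hu hwt hut
      by_cases hwu : w * u = 1
      · right; right; left
        have : w * u = u * u := by rw [hwu, huu]
        exact mul_right_cancel this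
      · have h2 := a4 _ (mul_mem hw hu) hwu h1
        right; right; right
        rw [← h2, mul_assoc, huu, mul_one]
  have hinv := a0 u hu hut
  -- the intersection of the normalizers
  have a6 : ∀ m ∈ normalizer (U : Set X), m * z = z * m → m ∈ U := by
    intro m hm hmz
    apply L.cent hX
    intro w hw
    by_cases hw1 : w = 1
    · rw [hw1, one_mul, mul_one]
    have hww := hel w hw
    have hW2 : IsPGroup 2 (zpowers w) :=
      isPGroup_zpowers (k := 1) (by rw [pow_one]; exact orderOf_of_sq hww hw1)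
    have hWn : zpowers w ≤ normalizer (zpowers t : Set X) := by rw [zpowers_le]; exact hUD hw
    have hns := nor_sup hX hs Nat.prime_two hs2 hTp hW2 hTb hWn
    have hmD : m ∈ normalizer ((zpowers t ⊔ zpowers w : Subgroup X) : Set X) := by
      rw [hns]; exact (hD m).2 hmz
    have h1 : m * w * m⁻¹ ∈ zpowers t ⊔ zpowers w :=
      conj_mem hmD (le_sup_right (a := zpowers t) (mem_zpowers w))
    obtain ⟨a, ha, b, hb, hab'⟩ := (mem_sup_nor hWn).1 h1
    have h2 : a ∈ U := by
      have : a = m * w * m⁻¹ * b⁻¹ := by rw [← hab', mul_inv_cancel_right]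
      rw [this]
      exact mul_mem (conj_mem hm hw) (inv_mem ((zpowers_le.2 hw) hb))
    have h3 : a = 1 := inf_eq_bot hs Nat.prime_two hs2 hTp L.two ha h2
    rw [h3, one_mul] at hab'
    obtain ⟨n, hn⟩ := mem_zpowers_iff.1 hb
    have hmw1 : m * w * m⁻¹ ≠ 1 := fun h => hw1 (conj_eq_one_iff.1 h)
    rcases Int.even_or_odd' n with ⟨k, rfl | rfl⟩
    · exfalso
      rw [zpow_mul, zpow_ofNat, pow_two, hww, one_zpow] at hn
      exact hmw1 (by rw [← hab', ← hn])
    · rw [zpow_add, zpow_mul, zpow_ofNat, pow_two, hww, one_zpow, one_mul, zpow_one] at hn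
      have h4 : m * w * m⁻¹ = w := by rw [← hab', ← hn]
      exact (mul_inv_eq_iff_eq_mul.1 h4).symm
  -- `g` permutes the involutions of `U` transitively
  set z₁ := g * z * g⁻¹ with hz₁
  set z₂ := g * z₁ * g⁻¹ with hz₂
  have hz₁U : z₁ ∈ U := conj_mem L.nor hz
  have hz₂U : z₂ ∈ U := conj_mem L.nor hz₁U
  have hz₁1 : z₁ ≠ 1 := fun h => hz1 (conj_eq_one_iff.1 h)
  have hz₂1 : z₂ ≠ 1 := fun h => hz₁1 (conj_eq_one_iff.1 h)
  have hz₁z : z₁ ≠ z := by
    intro h
    exact hz1 (L.free hX hz (mul_inv_eq_iff_eq_mul.1 h).symm)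
  have hz₂z₁ : z₂ ≠ z₁ := by
    intro h
    exact hz₁1 (L.free hX hz₁U (mul_inv_eq_iff_eq_mul.1 h).symm)
  have hz₂z : z₂ ≠ z := by
    intro h
    apply hz1
    apply L.free_sq hX hz
    rw [hz₂, hz₁, show g * (g * z * g⁻¹) * g⁻¹ = (g * g) * z * (g * g)⁻¹ by group] at h
    exact (mul_inv_eq_iff_eq_mul.1 h).symm
  have htrans : ∀ w ∈ U, w ≠ 1 → ∃ i : ℕ, i < 3 ∧ w = g ^ i * z * (g ^ i)⁻¹ := by
    intro w hw hw1
    have e0 : g ^ 0 * z * (g ^ 0)⁻¹ = z := by simp
    have e1 : g ^ 1 * z * (g ^ 1)⁻¹ = z₁ := by rw [pow_one]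
    have e2 : g ^ 2 * z * (g ^ 2)⁻¹ = z₂ := by rw [hz₂, hz₁, pow_two]; group
    rcases hmem w hw with h | h | h | h
    · exact absurd h hw1
    · exact ⟨0, by norm_num, by rw [e0]; exact h⟩
    · rcases hmem z₁ hz₁U with k | k | k | k
      · exact absurd k hz₁1
      · exact absurd k hz₁z
      · exact ⟨1, by norm_num, by rw [e1, h, k]⟩
      · rcases hmem z₂ hz₂U with l | l | l | l
        · exact absurd l hz₂1
        · exact absurd l hz₂z
        · exact ⟨2, by norm_num, by rw [e2, h, l]⟩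
        · exact absurd (l.trans k.symm) hz₂z₁
    · rcases hmem z₁ hz₁U with k | k | k | k
      · exact absurd k hz₁1
      · exact absurd k hz₁z
      · rcases hmem z₂ hz₂U with l | l | l | l
        · exact absurd l hz₂1
        · exact absurd l hz₂z
        · exact absurd (l.trans k.symm) hz₂z₁
        · exact ⟨2, by norm_num, by rw [e2, h, l]⟩
      · exact ⟨1, by norm_num, by rw [e1, h, k]⟩
  have a6' : ∀ w ∈ U, w ≠ 1 → ∀ m ∈ normalizer (U : Set X), m * w = w * m → m ∈ U := by
    intro w hw hw1 m hm hmw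
    obtain ⟨i, -, hi⟩ := htrans w hw hw1
    have hgi : g ^ i ∈ normalizer (U : Set X) := pow_mem L.nor i
    have h1 : (g ^ i)⁻¹ * m * g ^ i ∈ normalizer (U : Set X) := mul_mem (mul_mem (inv_mem hgi) hm) hgi
    have h2 : (g ^ i)⁻¹ * m * g ^ i * z = z * ((g ^ i)⁻¹ * m * g ^ i) := by
      have hzw : z = (g ^ i)⁻¹ * w * g ^ i := by rw [hi]; group
      rw [hzw]
      calc (g ^ i)⁻¹ * m * g ^ i * ((g ^ i)⁻¹ * w * g ^ i) = (g ^ i)⁻¹ * (m * w) * g ^ i := by group
        _ = (g ^ i)⁻¹ * (w * m) * g ^ i := by rw [hmw]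
        _ = (g ^ i)⁻¹ * w * g ^ i * ((g ^ i)⁻¹ * m * g ^ i) := by group
    have h3 := a6 _ h1 h2
    have h4 := conj_mem hgi h3
    rwa [show g ^ i * ((g ^ i)⁻¹ * m * g ^ i) * (g ^ i)⁻¹ = m by group] at h4
  have hM : ∀ m ∈ normalizer (U : Set X), ∃ i : ℕ, i < 3 ∧ ∃ w ∈ U, m = g ^ i * w := by
    intro m hm
    have h1 : m * z * m⁻¹ ∈ U := conj_mem hm hz
    have h2 : m * z * m⁻¹ ≠ 1 := fun h => hz1 (conj_eq_one_iff.1 h)
    obtain ⟨i, hi3, hi⟩ := htrans _ h1 h2
    refine ⟨i, hi3, (g ^ i)⁻¹ * m, ?_, by group⟩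
    apply a6 _ (mul_mem (inv_mem (pow_mem L.nor i)) hm)
    have h3 : m * z = g ^ i * z * (g ^ i)⁻¹ * m := mul_inv_eq_iff_eq_mul.1 hi
    rw [mul_assoc, h3]; group
  -- `U` is a Sylow 2-subgroup
  have hsyl : ∀ S : Subgroup X, IsPGroup 2 S → U ≤ S → S = U := by
    intro S hS hUS
    have hfact : Fact (Nat.Prime 2) := ⟨Nat.prime_two⟩
    by_contra hne
    have hnil : Group.IsNilpotent S := IsPGroup.isNilpotent hS
    have hnc : NormalizerCondition S := Group.normalizerCondition_of_isNilpotent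
    have hlt' : U.subgroupOf S < ⊤ := by
      rw [lt_top_iff_ne_top]
      intro htop
      rw [Subgroup.subgroupOf_eq_top] at htop
      exact hne (le_antisymm htop hUS)
    obtain ⟨w, hw, hwn⟩ := SetLike.exists_of_lt (hnc _ hlt')
    rw [Subgroup.mem_subgroupOf] at hwn
    have hwM : (w : X) ∈ normalizer (U : Set X) := by
      apply mem_nor
      intro x hx
      have := conj_mem hw (show (⟨x, hUS hx⟩ : S) ∈ U.subgroupOf S from hx)
      exact this
    apply hwn
    -- `w` commutes with a nontrivial element of `U`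
    obtain ⟨i, hi3, y, hy, hwy⟩ := hM w hwM
    obtain ⟨k, hk⟩ := hS w
    have hk' : (w : X) ^ 2 ^ k = 1 := congrArg Subtype.val hk
    have hgk : g ^ (i * 2 ^ k) ∈ U := by
      -- modulo `U`
      have hn : ∀ n : ℕ, ∃ y' ∈ U, (w : X) ^ n = g ^ (i * n) * y' := by
        intro n
        induction n with
        | zero => exact ⟨1, one_mem _, by simp⟩
        | succ n ih =>
          obtain ⟨y', hy', h⟩ := ih
          refine ⟨(g ^ i)⁻¹ * y' * g ^ i * y, mul_mem (conj_mem' (pow_mem L.nor i) hy') hy, ?_⟩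
          rw [pow_succ, h, hwy, mul_add, mul_one, pow_add]; group
      obtain ⟨y', hy', h⟩ := hn (2 ^ k)
      rw [hk'] at h
      have : g ^ (i * 2 ^ k) = y'⁻¹ := eq_inv_of_mul_eq_one_left h.symm
      rw [this]; exact inv_mem hy'
    have hgi : g ^ (i * 2 ^ k) = 1 := by
      have h1 := inf_eq_bot L.prime Nat.prime_two L.odd L.isP L.two (pow_mem (mem_zpowers g) (i * 2 ^ k)) hgk
      exact h1
    have hgi' : g ^ i = 1 := by
      have h1 : orderOf g ∣ i * 2 ^ k := orderOf_dvd_of_pow_eq_one hgi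
      rw [L.ord] at h1
      have h2 : Nat.Coprime (r ^ v) (2 ^ k) :=
        Nat.Coprime.pow _ _ ((Nat.coprime_primes L.prime Nat.prime_two).2 L.odd)
      have h3 := h2.dvd_of_dvd_mul_right h1
      rw [← L.ord] at h3
      exact orderOf_dvd_iff_pow_eq_one.1 h3
    rw [hwy, hgi', one_mul]; exact hy
  -- the centralizer of `z`
  have hcz : ∀ y, y * z = z * y → ∃ m : ℤ, ∃ w ∈ U, y = t ^ m * w := by
    intro y hyz
    have hW2 : IsPGroup 2 (zpowers u) :=
      isPGroup_zpowers (k := 1) (by rw [pow_one]; exact orderOf_of_sq huu hu1)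
    have hWn : zpowers u ≤ normalizer (zpowers t : Set X) := by rw [zpowers_le]; exact hUD hu
    have hns := nor_sup hX hs Nat.prime_two hs2 hTp hW2 hTb hWn
    have hyD : y ∈ normalizer ((zpowers t ⊔ zpowers u : Subgroup X) : Set X) := by
      rw [hns]; exact (hD y).2 hyz
    have h1 : y * u * y⁻¹ ∈ zpowers t ⊔ zpowers u :=
      conj_mem hyD (le_sup_right (a := zpowers t) (mem_zpowers u))
    obtain ⟨a, ha, b, hb, hab'⟩ := (mem_sup_nor hWn).1 h1
    obtain ⟨i, hi⟩ := mem_zpowers_iff.1 ha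
    obtain ⟨n, hn⟩ := mem_zpowers_iff.1 hb
    have hsq : (y * u * y⁻¹) * (y * u * y⁻¹) = 1 := by
      rw [show y * u * y⁻¹ * (y * u * y⁻¹) = y * (u * u) * y⁻¹ by group, huu]; group
    have hne1 : y * u * y⁻¹ ≠ 1 := fun h => hu1 (conj_eq_one_iff.1 h)
    have hbu : b = u := by
      rcases Int.even_or_odd' n with ⟨k, rfl | rfl⟩
      · exfalso
        rw [zpow_mul, zpow_ofNat, pow_two, huu, one_zpow] at hn
        rw [← hn, mul_one] at hab'
        apply hne1
        refine inf_eq_bot hs Nat.prime_two hs2 hTp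
          (isPGroup_zpowers (p := 2) (k := 1) (x := y * u * y⁻¹) (by rw [pow_one]; exact orderOf_of_sq hsq hne1))
          (hab' ▸ ha) (mem_zpowers _)
      · rw [zpow_add, zpow_mul, zpow_ofNat, pow_two, huu, one_zpow, one_mul, zpow_one] at hn
        exact hn.symm
    -- halve the exponent
    obtain ⟨k, hk⟩ : ∃ k : ℤ, t ^ (2 * k) = t ^ i := by
      obtain ⟨c, hc⟩ := hs.odd_of_ne_two hs2
      refine ⟨i * (c + 1), ?_⟩
      have : 2 * (i * ((c : ℤ) + 1)) = i + (s : ℤ) * i := by
        have : (s : ℤ) = 2 * c + 1 := by exact_mod_cast hc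
        rw [this]; ring
      rw [this, zpow_add, zpow_mul, zpow_natCast, ← ht, pow_orderOf_eq_one, one_zpow, mul_one]
    refine ⟨k, t ^ (-k) * y, ?_, by rw [← mul_assoc, ← zpow_add]; simp⟩
    have hut' : u * t ^ (-k) = t ^ k * u := by
      have h2 : u * t ^ (-k) * u⁻¹ = (u * t * u⁻¹) ^ (-k) := (conj_zpow).symm
      rw [hinv, inv_zpow', neg_neg] at h2
      exact mul_inv_eq_iff_eq_mul.1 h2
    have hyu : y * u = t ^ i * u * y := by
      have : y * u * y⁻¹ = t ^ i * u := by rw [← hab', ← hi, hbu]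
      exact mul_inv_eq_iff_eq_mul.1 this
    have c1 : u * (t ^ (-k) * y) = t ^ (-k) * y * u := by
      rw [← mul_assoc, hut', mul_assoc (t ^ (-k)), hyu, ← hk, ← mul_assoc, ← mul_assoc, ← zpow_add]
      congr 2
      congr 1
      ring
    have c2 : z * (t ^ (-k) * y) = t ^ (-k) * y * z := by
      have h3 : Commute z (t ^ (-k)) := (show Commute z t from htz.symm).zpow_right (-k)
      rw [← mul_assoc, h3.eq, mul_assoc, ← hyz, mul_assoc]
    apply L.cent hX
    intro w hw
    rcases hmem w hw with h | h | h | h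
    · rw [h, one_mul, mul_one]
    · rw [h]; exact c2
    · rw [h]; exact c1
    · rw [h, mul_assoc, c1, ← mul_assoc, c2, mul_assoc]
  exact ⟨u, hz, hz1, hu, hu1, huz, hmem, hs, hs2, ht, htz, hinv, hD, hcz, htrans, a6, hsyl, hM⟩

end Cfsg.Agent.H546.MaxNor
end

-- part: H546/MaxNorEven
section
/-!
# Case II of the 2-local analysis: the centralizers of the involutions of `U` are 2-groups

This case is impossible (`caseII`).
-/

set_option autoImplicit false
set_option linter.unusedSectionVars false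

namespace Cfsg.Agent.H546.MaxNor

open Subgroup
open scoped Pointwise

variable {X : Type*} [Group X]

/-- a nontrivial 2-element has a power of order two -/
theorem exists_invol {x : X} {k : ℕ} (hk : x ^ 2 ^ k = 1) (hx : x ≠ 1) :
    ∃ m : ℕ, x ^ m * x ^ m = 1 ∧ x ^ m ≠ 1 := by
  induction k with
  | zero => rw [pow_zero, pow_one] at hk; exact absurd hk hx
  | succ k ih =>
    by_cases h : x ^ 2 ^ k = 1
    · exact ih h
    · refine ⟨2 ^ k, ?_, h⟩
      rw [← pow_add, ← two_mul, ← pow_succ', hk]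

/-- a proper subgroup of a 2-group is properly contained in its normalizer -/
theorem exists_nor [Finite X] {A S : Subgroup X} (hS : IsPGroup 2 S) (hAS : A ≤ S) (hne : A ≠ S) :
    ∃ w ∈ S, w ∉ A ∧ w ∈ normalizer (A : Set X) := by
  have hfact : Fact (Nat.Prime 2) := ⟨Nat.prime_two⟩
  have hnil : Group.IsNilpotent S := IsPGroup.isNilpotent hS
  have hnc : NormalizerCondition S := Group.normalizerCondition_of_isNilpotent
  have hlt' : A.subgroupOf S < ⊤ := by
    rw [lt_top_iff_ne_top]
    intro htop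
    rw [Subgroup.subgroupOf_eq_top] at htop
    exact hne (le_antisymm hAS htop)
  obtain ⟨w, hw, hwn⟩ := SetLike.exists_of_lt (hnc _ hlt')
  rw [Subgroup.mem_subgroupOf] at hwn
  refine ⟨w, w.2, hwn, ?_⟩
  apply mem_nor
  intro x hx
  have := conj_mem hw (show (⟨x, hAS hx⟩ : S) ∈ A.subgroupOf S from hx)
  exact this

theorem caseII [Finite X] (hX : PM X) {U : Subgroup X} {g : X} {r v : ℕ} (L : Loc U g r v)
    (h2 : ∀ z ∈ U, z ≠ 1 → IsPGroup 2 (centralizer ({z} : Set X))) : False := by
  have hfact : Fact (Nat.Prime 2) := ⟨Nat.prime_two⟩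
  have hel := (L.elem hX).1
  have hab := (L.elem hX).2
  have hMtop : normalizer (U : Set X) ≠ ⊤ := (hX U L.U_ne (twoP_of_isPGroup Nat.prime_two L.two)).1
  have hMco := hX U L.U_ne (twoP_of_isPGroup Nat.prime_two L.two)
  have hgodd : Odd (orderOf g) := by
    rw [L.ord]; exact (L.prime.odd_of_ne_two L.odd).pow
  have hg2 : ∀ w : X, w * (g * g) = g * g * w → w * g = g * w := by
    intro w h
    obtain ⟨k, hk⟩ := hgodd
    have h1 : (g * g) ^ (k + 1) = g := by
      rw [← pow_two, ← pow_mul, show 2 * (k + 1) = orderOf g + 1 by omega, pow_succ, pow_orderOf_eq_one, one_mul]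
    have h3 := (show Commute w (g * g) from h).pow_right (k + 1)
    rw [h1] at h3
    exact h3
  -- no nontrivial element of `U` normalizes `⟨g⟩`
  have b2 : ∀ x ∈ U, x ∈ normalizer (zpowers g : Set X) → x = 1 := by
    intro x hx hxn
    exact L.free hX hx (comm_of_nor Nat.prime_two L.prime L.odd.symm L.two L.isP L.zle hx hxn (mem_zpowers g))
  -- decomposition of the elements of `M`
  have b1 : ∀ m ∈ normalizer (U : Set X), ∃ u ∈ U, u⁻¹ * m ∈ normalizer (zpowers g : Set X) := by
    intro m hm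
    have hns := nor_sup hX Nat.prime_two L.prime L.odd.symm L.two L.isP L.U_ne L.zle
    have hm' := hm
    rw [← hns] at hm'
    have hle : (zpowers g).map (MulAut.conj m).toMonoidHom ≤ U ⊔ zpowers g := by
      rintro _ ⟨ρ, hρ, rfl⟩
      exact conj_mem hm' (le_sup_right (b := zpowers g) hρ)
    obtain ⟨u, hu, hRu⟩ := conj_of_sup Nat.prime_two L.prime L.odd.symm L.two L.isP (L.isP.map _) L.zle hle
      (Subgroup.card_map_of_injective (MulAut.conj m).injective)
    refine ⟨u, hu, ?_⟩
    apply mem_nor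
    intro ρ hρ
    have h1 : m * ρ * m⁻¹ ∈ (zpowers g).map (MulAut.conj m).toMonoidHom := ⟨ρ, hρ, rfl⟩
    rw [hRu] at h1
    obtain ⟨ρ', hρ', h3⟩ := h1
    have h4 : u * ρ' * u⁻¹ = m * ρ * m⁻¹ := h3
    have h5 : u⁻¹ * m * ρ * (u⁻¹ * m)⁻¹ = ρ' := by
      rw [show u⁻¹ * m * ρ * (u⁻¹ * m)⁻¹ = u⁻¹ * (m * ρ * m⁻¹) * u by group, ← h4]
      group
    rw [h5]; exact hρ'
  -- an involution of `M` does not commute with `g`
  have b3 : ∀ i ∈ normalizer (U : Set X), i * i = 1 → i ≠ 1 → i * g ≠ g * i := by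
    intro i hi hii hi1 hig
    have h1 := nor_comm hX Nat.prime_two L.prime L.odd.symm
      (isPGroup_zpowers (p := 2) (k := 1) (x := i) (by rw [pow_one]; exact orderOf_of_sq hii hi1))
      L.isP (by rw [Ne, zpowers_eq_bot]; exact hi1) L.zne (comm_zpowers hig)
    obtain ⟨u, hu, hu1⟩ := (Subgroup.bot_or_exists_ne_one U).resolve_left L.U_ne
    have hfix : ∃ w ∈ U, w ≠ 1 ∧ w * i = i * w := by
      have hiu : i * u * i⁻¹ ∈ U := conj_mem hi hu
      have hi' : i⁻¹ = i := inv_eq_of_mul_eq_one_right hii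
      by_cases h : u * (i * u * i⁻¹) = 1
      · refine ⟨u, hu, hu1, ?_⟩
        have h3 : i * u * i⁻¹ = u := by
          have : u * (i * u * i⁻¹) = u * u := by rw [h, hel u hu]
          exact mul_left_cancel this
        exact (mul_inv_eq_iff_eq_mul.1 h3).symm
      · refine ⟨_, mul_mem hu hiu, h, ?_⟩
        have h3 := hab u hu _ hiu
        calc u * (i * u * i⁻¹) * i = u * (i * u) := by group
          _ = i * (i⁻¹ * u * i) * u := by group
          _ = i * (i * u * i⁻¹) * u := by rw [hi']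
          _ = i * (i * u * i⁻¹ * u) := by group
          _ = i * (u * (i * u * i⁻¹)) := by rw [h3]
    obtain ⟨w, hw, hw1, hwi⟩ := hfix
    apply hw1
    apply b2 w hw
    rw [← h1, mem_nor_invol hii hi1]
    exact hwi
  -- involutions of `M` outside `U`
  have b4 : ∀ x ∈ normalizer (U : Set X), x * x = 1 → x ∉ U → ∃ u ∈ U, ∃ n ∈ normalizer (U : Set X),
      x = u * n ∧ n * n = 1 ∧ n ≠ 1 ∧ n * g * n⁻¹ = g⁻¹ := by
    intro x hx hxx hxU
    obtain ⟨u, hu, hun⟩ := b1 x hx
    set n := u⁻¹ * x with hn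
    have hnM : n ∈ normalizer (U : Set X) := mul_mem (inv_mem (le_normalizer hu)) hx
    have hxun : x = u * n := by rw [hn]; group
    have hnn : n * n = 1 := by
      apply b2 _ _ (mul_mem hun hun)
      have h1 : u * (n * u * n⁻¹) * (n * n) = 1 := by
        rw [show u * (n * u * n⁻¹) * (n * n) = (u * n) * (u * n) by group, ← hxun, hxx]
      have h3 : n * n = (u * (n * u * n⁻¹))⁻¹ := eq_inv_of_mul_eq_one_right h1
      rw [h3]
      exact inv_mem (mul_mem hu (conj_mem hnM hu))
    have hn1 : n ≠ 1 := by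
      intro h
      apply hxU
      rw [hxun, h, mul_one]; exact hu
    refine ⟨u, hu, n, hnM, hxun, hnn, hn1, ?_⟩
    rcases invol_act L.prime L.odd L.ord hnn (conj_mem hun (mem_zpowers g)) with h | h
    · exact absurd (mul_inv_eq_iff_eq_mul.1 h) (b3 n hnM hnn hn1)
    · exact h
  have hgne : g ≠ g⁻¹ := by
    intro h
    have h3 : g * g = 1 := by
      nth_rewrite 2 [h]; exact mul_inv_cancel g
    obtain ⟨u, -, hu⟩ := L.ncent
    exact hu (hg2 u (by rw [h3, mul_one, one_mul]))
  -- the product of two commuting involutions of `M` outside `U` is in `U`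
  have b5 : ∀ x ∈ normalizer (U : Set X), ∀ y ∈ normalizer (U : Set X), x * x = 1 → y * y = 1 →
      x * y = y * x → x ∉ U → y ∉ U → x * y ∈ U := by
    intro x hx y hy hxx hyy hxy hxU hyU
    by_contra hcon
    have hxy2 : (x * y) * (x * y) = 1 := by
      rw [show x * y * (x * y) = x * (y * x) * y by group, ← hxy]
      rw [show x * (x * y) * y = (x * x) * (y * y) by group, hxx, hyy, mul_one]
    obtain ⟨u₁, hu₁, n₁, hn₁, e₁, -, -, i₁⟩ := b4 x hx hxx hxU
    obtain ⟨u₂, hu₂, n₂, hn₂, e₂, -, -, i₂⟩ := b4 y hy hyy hyU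
    obtain ⟨u₃, hu₃, n₃, hn₃, e₃, -, -, i₃⟩ := b4 _ (mul_mem hx hy) hxy2 hcon
    have hnorg : ∀ n : X, n * g * n⁻¹ = g⁻¹ → n ∈ normalizer (zpowers g : Set X) := by
      intro n hn
      apply mem_nor
      intro ρ hρ
      obtain ⟨m, rfl⟩ := mem_zpowers_iff.1 hρ
      rw [← conj_zpow, hn]
      exact zpow_mem (inv_mem (mem_zpowers g)) m
    have h1 : n₁ * n₂ * n₃⁻¹ ∈ U := by
      have : n₁ * n₂ * n₃⁻¹ = (n₁ * u₂⁻¹ * n₁⁻¹) * u₁⁻¹ * u₃ := by
        have e : u₁ * n₁ * (u₂ * n₂) = u₃ * n₃ := by rw [← e₁, ← e₂, e₃]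
        have e' : n₁ * u₂ * n₂ = u₁⁻¹ * u₃ * n₃ := by
          rw [mul_assoc u₁⁻¹, ← e]; group
        calc n₁ * n₂ * n₃⁻¹ = (n₁ * u₂⁻¹ * n₁⁻¹) * (n₁ * u₂ * n₂) * n₃⁻¹ := by group
          _ = (n₁ * u₂⁻¹ * n₁⁻¹) * (u₁⁻¹ * u₃ * n₃) * n₃⁻¹ := by rw [e']
          _ = _ := by group
      rw [this]
      exact mul_mem (mul_mem (conj_mem hn₁ (inv_mem hu₂)) (inv_mem hu₁)) hu₃
    have h3 := b2 _ h1 (mul_mem (mul_mem (hnorg _ i₁) (hnorg _ i₂)) (inv_mem (hnorg _ i₃)))
    have h4 : n₁ * n₂ = n₃ := mul_inv_eq_one.1 h3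
    have h5 : n₁ * n₂ * g * (n₁ * n₂)⁻¹ = g := by
      calc n₁ * n₂ * g * (n₁ * n₂)⁻¹ = n₁ * (n₂ * g * n₂⁻¹) * n₁⁻¹ := by group
        _ = n₁ * g⁻¹ * n₁⁻¹ := by rw [i₂]
        _ = (n₁ * g * n₁⁻¹)⁻¹ := by group
        _ = g := by rw [i₁, inv_inv]
    rw [h4, i₃] at h5
    exact hgne h5.symm
  -- a Sylow 2-subgroup
  obtain ⟨S₁, ⟨hS₁2, hUS₁, hS₁M⟩, hS₁max⟩ := Set.Finite.exists_maximalFor
    (fun W : Subgroup X => Nat.card W)
    {W : Subgroup X | IsPGroup 2 W ∧ U ≤ W ∧ W ≤ normalizer (U : Set X)}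
    (Set.toFinite _) ⟨U, L.two, le_rfl, le_normalizer⟩
  obtain ⟨S, hS₁S⟩ := hS₁2.exists_le_sylow
  have hSM : ∀ x ∈ (S : Subgroup X), x ∈ normalizer (U : Set X) → x ∈ S₁ := by
    have hle : S₁ ≤ (S : Subgroup X) ⊓ normalizer (U : Set X) := le_inf hS₁S hS₁M
    have h1 := hS₁max (j := (S : Subgroup X) ⊓ normalizer (U : Set X))
      ⟨S.isPGroup'.to_le inf_le_left, hUS₁.trans hle, inf_le_right⟩
      (Nat.card_le_card_of_injective (Subgroup.inclusion hle) (Subgroup.inclusion_injective _))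
    have h3 := Subgroup.eq_of_le_of_card_ge hle h1
    intro x hx hxM
    rw [h3]; exact ⟨hx, hxM⟩
  have hUS : U ≤ S := hUS₁.trans hS₁S
  -- the centre of `S`
  obtain ⟨z, hzS, hzz, hz1, hzc⟩ : ∃ z ∈ (S : Subgroup X), z * z = 1 ∧ z ≠ 1 ∧ ∀ w ∈ (S : Subgroup X), w * z = z * w := by
    have hnt : Nontrivial (S : Subgroup X) := by
      rw [Subgroup.nontrivial_iff_ne_bot]
      intro h
      exact L.U_ne (le_bot_iff.1 (h ▸ hUS))
    have hct := S.isPGroup'.center_nontrivial
    obtain ⟨c, hc1⟩ := exists_ne (1 : Subgroup.center (S : Subgroup X))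
    obtain ⟨k, hk⟩ := S.isPGroup' (c : (S : Subgroup X))
    have hk' : (((c : (S : Subgroup X)) : X)) ^ 2 ^ k = 1 := congrArg Subtype.val hk
    have hcne : ((c : (S : Subgroup X)) : X) ≠ 1 := by
      intro h
      exact hc1 (Subtype.ext (Subtype.ext h))
    obtain ⟨m, hm1, hm2⟩ := exists_invol hk' hcne
    refine ⟨_, pow_mem (c : (S : Subgroup X)).2 m, hm1, hm2, fun w hw => ?_⟩
    have h1 := Subgroup.mem_center_iff.1 c.2 ⟨w, hw⟩
    have h3 : w * (c : (S : Subgroup X)) = (c : (S : Subgroup X)) * w := congrArg Subtype.val h1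
    exact (show Commute w (((c : (S : Subgroup X)) : X)) from h3).pow_right m
  have hzU : z ∈ U := L.cent hX fun u hu => hzc u (hUS hu)
  have hCz : ∀ y, y * z = z * y → y ∈ (S : Subgroup X) := by
    have hle : (S : Subgroup X) ≤ centralizer ({z} : Set X) := by
      intro w hw
      rw [mem_centralizer_singleton_iff]
      exact hzc w hw
    have h1 := S.is_maximal' (h2 z hzU hz1) hle
    intro y hy
    rw [← h1, mem_centralizer_singleton_iff]
    exact hy
  have hNz : normalizer (zpowers z : Set X) = (S : Subgroup X) := by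
    ext y
    rw [mem_nor_invol hzz hz1]
    exact ⟨fun h => hCz y h, fun h => hzc y h⟩
  have hz2 : IsPGroup 2 (zpowers z) := isPGroup_zpowers (k := 1) (by rw [pow_one]; exact orderOf_of_sq hzz hz1)
  have hzb : zpowers z ≠ ⊥ := by rw [Ne, zpowers_eq_bot]; exact hz1
  have hSco : IsCoatom (S : Subgroup X) := by
    rw [← hNz]; exact hX _ hzb (twoP_of_isPGroup Nat.prime_two hz2)
  have hSnle : ¬ (S : Subgroup X) ≤ normalizer (U : Set X) := by
    intro hle
    rcases hSco.le_iff.1 hle with h | h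
    · exact hMtop h
    · have : g ∈ (S : Subgroup X) := h ▸ L.nor
      exact L.ne_one (inf_eq_bot L.prime Nat.prime_two L.odd L.isP S.isPGroup' (mem_zpowers g) this)
  have hS₁ne : S₁ ≠ S := by
    intro h; exact hSnle (h ▸ hS₁M)
  obtain ⟨s, hsS, hsS₁, hsn⟩ := exists_nor S.isPGroup' hS₁S hS₁ne
  have hsM : s ∉ normalizer (U : Set X) := fun h => hsS₁ (hSM s hsS h)
  -- `E = s U s⁻¹`
  set E : Subgroup X := U.map (MulAut.conj s).toMonoidHom with hE
  have hEmem : ∀ x, x ∈ E ↔ s⁻¹ * x * s ∈ U := by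
    intro x
    constructor
    · rintro ⟨y, hy, rfl⟩
      have : s⁻¹ * (MulAut.conj s) y * s = y := by simp [MulAut.conj_apply, mul_assoc]
      change s⁻¹ * (MulAut.conj s) y * s ∈ U
      rw [this]; exact hy
    · intro hx
      exact ⟨_, hx, by simp [MulAut.conj_apply, mul_assoc]⟩
  have hES₁ : ∀ x ∈ E, x ∈ S₁ := by
    intro x hx
    have h1 := conj_mem hsn (hUS₁ ((hEmem x).1 hx))
    rwa [show s * (s⁻¹ * x * s) * s⁻¹ = x by group] at h1
  have hEM : ∀ x ∈ E, x ∈ normalizer (U : Set X) := fun x hx => hS₁M (hES₁ x hx)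
  have hEel : ∀ x ∈ E, x * x = 1 := by
    intro x hx
    have h1 := hel _ ((hEmem x).1 hx)
    have h3 : s⁻¹ * (x * x) * s = 1 := by rw [← h1]; group
    have h4 : x * x = s * (s⁻¹ * (x * x) * s) * s⁻¹ := by group
    rw [h4, h3]; group
  have hEab : ∀ x ∈ E, ∀ y ∈ E, x * y = y * x := by
    intro x hx y hy
    have h1 := hab _ ((hEmem x).1 hx) _ ((hEmem y).1 hy)
    calc x * y = s * (s⁻¹ * x * s * (s⁻¹ * y * s)) * s⁻¹ := by group
      _ = s * (s⁻¹ * y * s * (s⁻¹ * x * s)) * s⁻¹ := by rw [h1]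
      _ = y * x := by group
  have hEcard : Nat.card E = Nat.card U := Subgroup.card_map_of_injective (MulAut.conj s).injective
  have hEU : ¬ E ≤ U := by
    intro hle
    have h1 : E = U := Subgroup.eq_of_le_of_card_ge hle hEcard.ge
    apply hsM
    rw [mem_normalizer_iff_map_conj_eq]
    exact h1
  obtain ⟨x, hxE, hxU⟩ := SetLike.not_le_iff_exists.1 hEU
  have hxM := hEM x hxE
  have hxx := hEel x hxE
  obtain ⟨u₀, hu₀, n, hnM, hxun, hnn, hn1, hng⟩ := b4 x hxM hxx hxU
  -- the intersection `U ∩ E` has index two in `U`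
  have hIE : ∀ y ∈ E, y ∉ U → ∀ w ∈ E, w ∉ U → y * w ∈ U := fun y hy hyU w hw hwU =>
    b5 y (hEM y hy) w (hEM w hw) (hEel y hy) (hEel w hw) (hEab y hy w hw) hyU hwU
  have hcardE : Nat.card E = 2 * Nat.card (U ⊓ E : Subgroup X) := by
    have h1 : ((U ⊓ E).subgroupOf E).index = 2 := by
      rw [Subgroup.index_eq_two_iff]
      refine ⟨⟨x, hxE⟩, fun b => ?_⟩
      by_cases hb : (b : X) ∈ U
      · right
        refine ⟨⟨hb, b.2⟩, fun hcon => hxU ?_⟩
        have h3 : (b : X) * x ∈ U := hcon.1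
        have := mul_mem (inv_mem hb) h3
        rwa [inv_mul_cancel_left] at this
      · left
        refine ⟨⟨hIE b b.2 hb x hxE hxU, mul_mem b.2 hxE⟩, fun hcon => hb hcon.1⟩
    have h3 := Subgroup.card_mul_index ((U ⊓ E).subgroupOf E)
    rw [h1, Nat.card_congr (Subgroup.subgroupOfEquivOfLe (inf_le_right : U ⊓ E ≤ E)).toEquiv] at h3
    rw [← h3, mul_comm]
  have hIU : ∀ y ∈ U, y ∉ E → ∀ w ∈ U, w ∉ E → y * w ∈ E := by
    have h1 : ((U ⊓ E).subgroupOf U).index = 2 := by
      have h3 := Subgroup.card_mul_index ((U ⊓ E).subgroupOf U)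
      rw [Nat.card_congr (Subgroup.subgroupOfEquivOfLe (inf_le_left : U ⊓ E ≤ U)).toEquiv, ← hEcard, hcardE,
        mul_comm 2] at h3
      exact Nat.eq_of_mul_eq_mul_left Nat.card_pos h3
    intro y hy hyE w hw hwE
    have h3 := Subgroup.mul_mem_iff_of_index_two h1 (a := ⟨y, hy⟩) (b := ⟨w, hw⟩)
    have h4 : (⟨y, hy⟩ : U) * ⟨w, hw⟩ ∈ (U ⊓ E).subgroupOf U := by
      rw [h3]
      constructor
      · intro h; exact absurd h.2 hyE
      · intro h; exact absurd h.2 hwE
    exact h4.2
  -- `n` centralizes `U ∩ E`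
  have hxc : ∀ w ∈ U, w ∈ E → w * n = n * w := by
    intro w hw hwE
    have h1 := hEab w hwE x hxE
    have h3 := hab w hw u₀ hu₀
    have h4 : n = u₀⁻¹ * x := by rw [hxun]; group
    rw [h4, ← mul_assoc, (show Commute w u₀ from h3).inv_right.eq, mul_assoc, h1, mul_assoc]
  have hfreeI : ∀ w ∈ U, w ∈ E → w ≠ 1 → g * w * g⁻¹ ∉ E := by
    intro w hw hwE hw1 hcon
    have h1 := hxc _ (conj_mem L.nor hw) hcon
    have h3 := hxc w hw hwE
    apply hw1
    apply L.free_sq hX hw
    -- `g⁻¹ n g` commutes with `w`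
    have h4 : Commute w (g⁻¹ * n * g) := by
      have e1 : w * (g⁻¹ * n * g) = g⁻¹ * (g * w * g⁻¹ * n) * g := by group
      have e2 : g⁻¹ * n * g * w = g⁻¹ * (n * (g * w * g⁻¹)) * g := by group
      change w * (g⁻¹ * n * g) = g⁻¹ * n * g * w
      rw [e1, e2, h1]
    have h5 : g⁻¹ * n * g = (g * g)⁻¹ * n := by
      have h6 : n * g = g⁻¹ * n := mul_inv_eq_iff_eq_mul.1 hng
      rw [mul_assoc, h6]; group
    rw [h5] at h4
    have h7 : Commute w ((g * g)⁻¹) := by
      have := h4.mul_right (show Commute w n⁻¹ from (show Commute w n from h3).inv_right)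
      rwa [mul_inv_cancel_right] at this
    have := h7.inv_right
    rw [inv_inv] at this
    exact this
  have hzE : z ∈ E := by
    rw [hEmem]
    have : s⁻¹ * z * s = z := by rw [mul_assoc, ← hzc s hsS]; group
    rw [this]; exact hzU
  have hI : ∀ w ∈ U, w ∈ E → w ≠ 1 → w = z := by
    intro w hw hwE hw1
    by_contra hwz
    have hzw1 : z * w ≠ 1 := by
      intro h
      apply hwz
      have : z * w = z * z := by rw [h, hzz]
      exact mul_left_cancel this
    have h1 := hIU _ (conj_mem L.nor hzU) (hfreeI z hzU hzE hz1) _ (conj_mem L.nor hw) (hfreeI w hw hwE hw1)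
    rw [show g * z * g⁻¹ * (g * w * g⁻¹) = g * (z * w) * g⁻¹ by group] at h1
    exact hfreeI _ (mul_mem hzU hw) (mul_mem hzE hwE) hzw1 h1
  -- the elements of `U`
  set u : X := g * z * g⁻¹ with hudef
  have huU : u ∈ U := conj_mem L.nor hzU
  have hu1 : u ≠ 1 := fun h => hz1 (conj_eq_one_iff.1 h)
  have huE : u ∉ E := hfreeI z hzU hzE hz1
  have huz : u ≠ z := fun h => huE (h ▸ hzE)
  have huu := hel u huU
  have hzu := hab z hzU u huU
  have hmem : ∀ w ∈ U, w = 1 ∨ w = z ∨ w = u ∨ w = z * u := by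
    intro w hw
    by_cases hwE : w ∈ E
    · by_cases hw1 : w = 1
      · exact Or.inl hw1
      · exact Or.inr (Or.inl (hI w hw hwE hw1))
    · have h1 := hIU w hw hwE u huU huE
      by_cases hwu : w * u = 1
      · right; right; left
        have : w * u = u * u := by rw [hwu, huu]
        exact mul_right_cancel this
      · have h3 := hI _ (mul_mem hw huU) h1 hwu
        right; right; right
        rw [← h3, mul_assoc, huu, mul_one]
  -- the action of `g`
  set z₂ : X := g * u * g⁻¹ with hz₂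
  have hz₂U : z₂ ∈ U := conj_mem L.nor huU
  have hz₂1 : z₂ ≠ 1 := fun h => hu1 (conj_eq_one_iff.1 h)
  have hz₂u : z₂ ≠ u := by
    intro h
    exact hu1 (L.free hX huU (mul_inv_eq_iff_eq_mul.1 h).symm)
  have hz₂z : z₂ ≠ z := by
    intro h
    apply hz1
    apply L.free_sq hX hzU
    rw [hz₂, hudef, show g * (g * z * g⁻¹) * g⁻¹ = (g * g) * z * (g * g)⁻¹ by group] at h
    exact (mul_inv_eq_iff_eq_mul.1 h).symm
  have hz₂e : z₂ = z * u := by
    rcases hmem z₂ hz₂U with h | h | h | h
    · exact absurd h hz₂1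
    · exact absurd h hz₂z
    · exact absurd h hz₂u
    · exact h
  have hg3z : g * z₂ * g⁻¹ = z := by
    have : g * z₂ * g⁻¹ = (g * z * g⁻¹) * (g * u * g⁻¹) := by rw [hz₂e]; group
    rw [this, ← hudef, ← hz₂, hz₂e, hzu, ← mul_assoc, huu, one_mul]
  have hg3 : g ^ 3 = 1 := by
    have hc : ∀ w ∈ U, w * g ^ 3 = g ^ 3 * w := by
      have e1 : g ^ 3 * z * (g ^ 3)⁻¹ = z := by
        have : g ^ 3 * z * (g ^ 3)⁻¹ = g * (g * (g * z * g⁻¹) * g⁻¹) * g⁻¹ := by
          rw [show g ^ 3 = g * g * g by rw [pow_succ, pow_two]]; group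
        rw [this, ← hudef, ← hz₂, hg3z]
      have e2 : g ^ 3 * u * (g ^ 3)⁻¹ = u := by
        have : g ^ 3 * u * (g ^ 3)⁻¹ = g * (g * (g * u * g⁻¹) * g⁻¹) * g⁻¹ := by
          rw [show g ^ 3 = g * g * g by rw [pow_succ, pow_two]]; group
        rw [this, ← hz₂, hg3z]
      have c1 := (mul_inv_eq_iff_eq_mul.1 e1).symm
      have c2 := (mul_inv_eq_iff_eq_mul.1 e2).symm
      intro w hw
      rcases hmem w hw with h | h | h | h
      · rw [h, one_mul, mul_one]
      · rw [h]; exact c1
      · rw [h]; exact c2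
      · rw [h, mul_assoc, c2, ← mul_assoc, c1, mul_assoc]
    have h1 := L.cent hX hc
    exact inf_eq_bot L.prime Nat.prime_two L.odd L.isP L.two (pow_mem (mem_zpowers g) 3) h1
  -- `n ∈ E`
  have hxcent : ∃ w ∈ U, w * x ≠ x * w := by
    by_contra hcon
    push Not at hcon
    exact hxU (L.cent hX hcon)
  have hUc : ∀ w ∈ U, w * x = x * w → w = 1 ∨ w = z := by
    intro w hw hwx
    by_contra hcon
    push Not at hcon
    obtain ⟨y, hy, hyx⟩ := hxcent
    apply hyx
    have hzx := hEab z hzE x hxE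
    have key : ∀ y ∈ U, y * x = x * y := by
      have hmem' : ∀ y ∈ U, y = 1 ∨ y = z ∨ y = w ∨ y = z * w := by
        intro y hy
        rcases hmem w hw with h | h | h | h
        · exact absurd h hcon.1
        · exact absurd h hcon.2
        · rw [h]; exact hmem y hy
        · have hzw : z * w = u := by rw [h, ← mul_assoc, hzz, one_mul]
          rw [hzw, h]
          rcases hmem y hy with k | k | k | k
          · exact Or.inl k
          · exact Or.inr (Or.inl k)
          · exact Or.inr (Or.inr (Or.inr k))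
          · exact Or.inr (Or.inr (Or.inl k))
      intro y hy
      rcases hmem' y hy with h | h | h | h
      · rw [h, one_mul, mul_one]
      · rw [h]; exact hzx
      · rw [h]; exact hwx
      · rw [h, mul_assoc, hwx, ← mul_assoc, hzx, mul_assoc]
    exact key y hy
  have hnE : n ∈ E := by
    -- `n = x w'`
    have hw' : x⁻¹ * n ∈ U := by
      have : x⁻¹ * n = x⁻¹ * u₀⁻¹ * x := by rw [hxun]; group
      rw [this]
      exact conj_mem' hxM (inv_mem hu₀)
    have hxi : x⁻¹ = x := inv_eq_of_mul_eq_one_right hxx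
    have hni : n⁻¹ = n := inv_eq_of_mul_eq_one_right hnn
    have hc : x⁻¹ * n * x = x * (x⁻¹ * n) := by
      have h1 : (x⁻¹ * n)⁻¹ = x⁻¹ * n := inv_eq_of_mul_eq_one_right (hel _ hw')
      have h3 : (x⁻¹ * n)⁻¹ = n * x := by rw [mul_inv_rev, inv_inv, hni]
      rw [h3] at h1
      rw [← h1]
      rw [mul_assoc, hxx, mul_one, h1, hxi, ← mul_assoc, hxx, one_mul]
    rcases hUc _ hw' hc with h | h
    · have : n = x := (inv_mul_eq_one.1 h).symm
      rw [this]; exact hxE
    · have : n = x * z := by rw [← h]; group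
      rw [this]; exact mul_mem hxE hzE
  have hCE : ∀ w ∈ E, w ≠ 1 → IsPGroup 2 (centralizer ({w} : Set X)) := by
    intro w hw hw1
    have h1 := (hEmem w).1 hw
    have h3 : s⁻¹ * w * s ≠ 1 := by
      intro h
      apply hw1
      have : w = s * (s⁻¹ * w * s) * s⁻¹ := by group
      rw [this, h]; group
    have h4 := h2 _ h1 h3
    have h5 : centralizer ({w} : Set X) = (centralizer ({s⁻¹ * w * s} : Set X)).map (MulAut.conj s).toMonoidHom := by
      ext y
      rw [mem_centralizer_singleton_iff]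
      constructor
      · intro hy
        refine ⟨s⁻¹ * y * s, ?_, by simp [MulAut.conj_apply, mul_assoc]⟩
        change s⁻¹ * y * s ∈ centralizer ({s⁻¹ * w * s} : Set X)
        rw [mem_centralizer_singleton_iff]
        calc s⁻¹ * y * s * (s⁻¹ * w * s) = s⁻¹ * (y * w) * s := by group
          _ = s⁻¹ * (w * y) * s := by rw [hy]
          _ = _ := by group
      · rintro ⟨y', hy', rfl⟩
        have hy'' : y' * (s⁻¹ * w * s) = s⁻¹ * w * s * y' := mem_centralizer_singleton_iff.1 hy'
        change s * y' * s⁻¹ * w = w * (s * y' * s⁻¹)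
        calc s * y' * s⁻¹ * w = s * (y' * (s⁻¹ * w * s)) * s⁻¹ := by group
          _ = s * (s⁻¹ * w * s * y') * s⁻¹ := by rw [hy'']
          _ = w * (s * y' * s⁻¹) := by group
    rw [h5]
    exact h4.map _
  -- the elements of `S₁`
  have hS₁el : ∀ w ∈ S₁, w ∈ U ∨ w * x ∈ U := by
    intro w hw
    have hwM := hS₁M hw
    have hwz : w * z = z * w := hzc w (hS₁S hw)
    have hxz : x * z = z * x := hEab x hxE z hzE
    -- an element of `M` commuting with `z` fixes `u` or maps it to `z u`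
    have hact : ∀ y ∈ normalizer (U : Set X), y * z = z * y → y * u * y⁻¹ = u ∨ y * u * y⁻¹ = z * u := by
      intro y hy hyz
      rcases hmem _ (conj_mem hy huU) with h | h | h | h
      · exact absurd (conj_eq_one_iff.1 h) hu1
      · exfalso
        apply huz
        have h3 : y * z * y⁻¹ = z := mul_inv_eq_iff_eq_mul.2 hyz
        have h4 : y * u * y⁻¹ = y * z * y⁻¹ := by rw [h, h3]
        exact mul_left_cancel (mul_right_cancel h4)
      · exact Or.inl h
      · exact Or.inr h
    have hcentU : ∀ y ∈ normalizer (U : Set X), y * z = z * y → y * u * y⁻¹ = u → y ∈ U := by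
      intro y hy hyz hyu
      apply L.cent hX
      have c2 := (mul_inv_eq_iff_eq_mul.1 hyu).symm
      intro w hw
      rcases hmem w hw with h | h | h | h
      · rw [h, one_mul, mul_one]
      · rw [h]; exact hyz.symm
      · rw [h]; exact c2
      · rw [h, mul_assoc, c2, ← mul_assoc, ← hyz, mul_assoc]
    rcases hact w hwM hwz with h | h
    · exact Or.inl (hcentU w hwM hwz h)
    · right
      have hxu : x * u * x⁻¹ = z * u := by
        rcases hact x hxM hxz with k | k
        · exact absurd (hcentU x hxM hxz k) hxU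
        · exact k
      apply hcentU _ (mul_mem hwM hxM)
      · rw [mul_assoc, hxz, ← mul_assoc, hwz, mul_assoc]
      · calc w * x * u * (w * x)⁻¹ = w * (x * u * x⁻¹) * w⁻¹ := by group
          _ = w * (z * u) * w⁻¹ := by rw [hxu]
          _ = (w * z * w⁻¹) * (w * u * w⁻¹) := by group
          _ = z * (z * u) := by rw [mul_inv_eq_iff_eq_mul.2 hwz, h]
          _ = u := by rw [← mul_assoc, hzz, one_mul]
  have hxS₁ : x ∈ S₁ := hES₁ x hxE
  have hxz : x * z = z * x := hEab x hxE z hzE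
  have hxi : x⁻¹ = x := inv_eq_of_mul_eq_one_right hxx
  have hxu : x * u = z * u * x := by
    have hxuU := conj_mem hxM huU
    rcases hmem _ hxuU with h | h | h | h
    · exact absurd (conj_eq_one_iff.1 h) hu1
    · exfalso
      apply huz
      have h3 : x * z * x⁻¹ = z := mul_inv_eq_iff_eq_mul.2 hxz
      have h4 : x * u * x⁻¹ = x * z * x⁻¹ := by rw [h, h3]
      exact mul_left_cancel (mul_right_cancel h4)
    · exfalso
      have h3 := hUc u huU (mul_inv_eq_iff_eq_mul.1 h).symm
      rcases h3 with h3 | h3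
      · exact hu1 h3
      · exact huz h3
    · exact mul_inv_eq_iff_eq_mul.1 h
  -- involutions of `S₁` lie in `U ∪ E`
  have hS₁inv : ∀ w ∈ S₁, w * w = 1 → w ∈ U ∨ w ∈ E := by
    intro w hw hww
    rcases hS₁el w hw with h | h
    · exact Or.inl h
    · right
      have hwi : w⁻¹ = w := inv_eq_of_mul_eq_one_right hww
      -- `w x ∈ U` commutes with `x`
      have h3 := hel _ h
      have h4 : (w * x)⁻¹ = w * x := inv_eq_of_mul_eq_one_right h3
      rw [mul_inv_rev, hwi, hxi] at h4
      have h5 : w * x * x = x * (w * x) := by rw [mul_assoc, hxx, mul_one, ← h4, ← mul_assoc, hxx, one_mul]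
      rcases hUc _ h h5 with h6 | h6
      · have : w = x := by
          have := eq_inv_of_mul_eq_one_left h6
          rwa [hxi] at this
        rw [this]; exact hxE
      · have : w = z * x := by rw [← h6, mul_assoc, hxx, mul_one]
        rw [this]; exact mul_mem hzE hxE
  -- the element `c = u x` of order four
  set c : X := u * x with hcdef
  have hcc : c * c = z := by
    rw [hcdef, show u * x * (u * x) = u * (x * u) * x by group, hxu,
      show u * (z * u * x) * x = (u * z) * (u * (x * x)) by group, hxx, mul_one, ← hzu, mul_assoc, huu, mul_one]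
  have hcS₁ : c ∈ S₁ := mul_mem (hUS₁ huU) hxS₁
  have hc4 : c ^ 4 = 1 := by
    rw [show (4 : ℕ) = 2 + 2 by norm_num, pow_add, pow_two, hcc, hzz]
  have hcP : IsPGroup 2 (zpowers c) := by
    apply S.isPGroup'.to_le
    rw [zpowers_le]; exact hS₁S hcS₁
  have hc1 : c ≠ 1 := by
    intro h; rw [h, mul_one] at hcc; exact hz1 hcc.symm
  have hcb : zpowers c ≠ ⊥ := by rw [Ne, zpowers_eq_bot]; exact hc1
  have hczp : ∀ y ∈ zpowers c, y = 1 ∨ y = z ∨ y = c ∨ y = c⁻¹ := by
    intro y hy
    obtain ⟨m, rfl⟩ := mem_zpowers_iff.1 hy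
    have h1 : c ^ m = c ^ (m % 4) := by
      conv_lhs => rw [← Int.emod_add_mul_ediv m 4, zpow_add, zpow_mul,
        show c ^ (4 : ℤ) = 1 by exact_mod_cast hc4, one_zpow, mul_one]
    have h3 : m % 4 = 0 ∨ m % 4 = 1 ∨ m % 4 = 2 ∨ m % 4 = 3 := by omega
    rw [h1]
    rcases h3 with h | h | h | h <;> rw [h]
    · left; exact zpow_zero c
    · right; right; left; exact zpow_one c
    · right; left; rw [← hcc]; exact zpow_two c
    · right; right; right
      have : c ^ (3 : ℤ) * c = 1 := by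
        rw [← zpow_add_one]; exact_mod_cast hc4
      exact eq_inv_of_mul_eq_one_left this
  have hNc : normalizer (zpowers c : Set X) = (S : Subgroup X) := by
    rw [← hNz]
    apply nor_eq hX hcb (twoP_of_isPGroup Nat.prime_two hcP) hzb (twoP_of_isPGroup Nat.prime_two hz2)
    intro y hy
    rw [mem_nor_invol hzz hz1]
    have h1 := conj_mem hy (mem_zpowers c)
    have h3 : y * z * y⁻¹ = z := by
      have h4 : y * z * y⁻¹ = (y * c * y⁻¹) * (y * c * y⁻¹) := by rw [← hcc]; group
      rw [h4]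
      rcases hczp _ h1 with h | h | h | h
      · exact absurd (conj_eq_one_iff.1 h) hc1
      · exfalso
        have : (y * c * y⁻¹) * (y * c * y⁻¹) = 1 := by rw [h, hzz]
        rw [← h4] at this
        exact hz1 (conj_eq_one_iff.1 this)
      · rw [h, hcc]
      · rw [h, ← mul_inv_rev, hcc]; exact inv_eq_of_mul_eq_one_right hzz
    exact mul_inv_eq_iff_eq_mul.1 h3
  have hcU : c ∉ U := by
    intro h
    have := hel c h
    rw [hcc] at this
    exact hz1 this
  have hNS₁ : normalizer (S₁ : Set X) = (S : Subgroup X) := by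
    rw [← hNc]
    have hS₁b : S₁ ≠ ⊥ := fun h => L.U_ne (le_bot_iff.1 (h ▸ hUS₁))
    apply nor_eq hX hS₁b (twoP_of_isPGroup Nat.prime_two hS₁2) hcb (twoP_of_isPGroup Nat.prime_two hcP)
    intro y hy
    apply mem_nor
    intro w hw
    obtain ⟨m, rfl⟩ := mem_zpowers_iff.1 hw
    rw [← conj_zpow]
    apply zpow_mem
    -- `y c y⁻¹` is an element of order four of `S₁`
    have h1 : y * c * y⁻¹ ∈ S₁ := conj_mem hy hcS₁
    have h3 : (y * c * y⁻¹) * (y * c * y⁻¹) ≠ 1 := by
      rw [show y * c * y⁻¹ * (y * c * y⁻¹) = y * (c * c) * y⁻¹ by group, hcc]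
      exact fun h => hz1 (conj_eq_one_iff.1 h)
    rcases hS₁el _ h1 with h | h
    · exact absurd (hel _ h) h3
    · have h4 : y * c * y⁻¹ = (y * c * y⁻¹ * x) * x := by
        rw [mul_assoc (y * c * y⁻¹) x x, hxx, mul_one]
      rcases hmem _ h with k | k | k | k
      · exfalso; apply h3; rw [h4, k, one_mul, hxx]
      · exfalso; apply h3; rw [h4, k]
        rw [show z * x * (z * x) = z * (x * z) * x by group, hxz,
          show z * (z * x) * x = (z * z) * (x * x) by group, hzz, hxx, mul_one]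
      · rw [h4, k, ← hcdef]; exact mem_zpowers c
      · rw [h4, k, mul_assoc, ← hcdef, ← hcc]
        exact mul_mem (mul_mem (mem_zpowers c) (mem_zpowers c)) (mem_zpowers c)
  -- `S₁` has index two in `S`
  have hSel : ∀ y ∈ (S : Subgroup X), y ∈ S₁ ∨ s⁻¹ * y ∈ S₁ := by
    intro y hy
    have hyn : y ∈ normalizer (S₁ : Set X) := by rw [hNS₁]; exact hy
    have h1 : y * u * y⁻¹ ∈ S₁ := conj_mem hyn (hUS₁ huU)
    have h3 : (y * u * y⁻¹) * (y * u * y⁻¹) = 1 := by
      rw [show y * u * y⁻¹ * (y * u * y⁻¹) = y * (u * u) * y⁻¹ by group, huu]; group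
    have hyz : y * z * y⁻¹ = z := mul_inv_eq_iff_eq_mul.2 (hzc y hy)
    rcases hS₁inv _ h1 h3 with h | h
    · left
      apply hSM y hy
      apply mem_nor
      intro w hw
      rcases hmem w hw with k | k | k | k
      · rw [k, mul_one, mul_inv_cancel]; exact one_mem _
      · rw [k, hyz]; exact hzU
      · rw [k]; exact h
      · rw [k, show y * (z * u) * y⁻¹ = (y * z * y⁻¹) * (y * u * y⁻¹) by group, hyz]
        exact mul_mem hzU h
    · right
      apply hSM _ (mul_mem (inv_mem hsS) hy)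
      apply mem_nor
      intro w hw
      have hEw : y * w * y⁻¹ ∈ E := by
        rcases hmem w hw with k | k | k | k
        · rw [k, mul_one, mul_inv_cancel]; exact one_mem _
        · rw [k, hyz]; exact hzE
        · rw [k]; exact h
        · rw [k, show y * (z * u) * y⁻¹ = (y * z * y⁻¹) * (y * u * y⁻¹) by group, hyz]
          exact mul_mem hzE h
      rw [hEmem] at hEw
      rw [show s⁻¹ * y * w * (s⁻¹ * y)⁻¹ = s⁻¹ * (y * w * y⁻¹) * s by group]
      exact hEw
  have hrel : S₁.relIndex (S : Subgroup X) = 2 := by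
    rw [Subgroup.relIndex, Subgroup.index_eq_two_iff]
    refine ⟨⟨s, hsS⟩⁻¹, fun b => ?_⟩
    by_cases hb : (b : X) ∈ S₁
    · right
      refine ⟨hb, fun hcon => hsS₁ ?_⟩
      have h3 : (b : X) * s⁻¹ ∈ S₁ := hcon
      have := mul_mem (inv_mem hb) h3
      rw [inv_mul_cancel_left] at this
      exact (inv_mem_iff (x := s)).1 this
    · left
      refine ⟨?_, hb⟩
      change (b : X) * s⁻¹ ∈ S₁
      rcases hSel b⁻¹ (inv_mem b.2) with h | h
      · exact absurd ((inv_mem_iff (x := (b : X))).1 h) hb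
      · have := inv_mem h
        rw [mul_inv_rev, inv_inv, inv_inv] at this
        -- `b s ∈ S₁`; normality of `S₁` in `S`
        have hsn' : s ∈ normalizer (S₁ : Set X) := hsn
        have hs2 : s * s ∈ S₁ := by
          rcases hSel (s * s) (mul_mem hsS hsS) with k | k
          · exact k
          · rw [inv_mul_cancel_left] at k; exact absurd k hsS₁
        have h5 := mul_mem this (inv_mem hs2)
        rwa [show (b : X) * s * (s * s)⁻¹ = b * s⁻¹ by group] at h5
  -- the elements of `M`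
  have hMel : ∀ m ∈ normalizer (U : Set X), ∃ i : ℕ, (g ^ i)⁻¹ * m ∈ S₁ := by
    intro m hm
    have hex : ∃ i : ℕ, m * z * m⁻¹ = g ^ i * z * (g ^ i)⁻¹ := by
      rcases hmem _ (conj_mem hm hzU) with h | h | h | h
      · exact absurd (conj_eq_one_iff.1 h) hz1
      · exact ⟨0, by rw [h]; simp⟩
      · exact ⟨1, by rw [h, pow_one]⟩
      · refine ⟨2, ?_⟩
        rw [h, ← hz₂e, hz₂, hudef, pow_two]; group
    obtain ⟨i, hi⟩ := hex
    refine ⟨i, hSM _ (hCz _ ?_) (mul_mem (inv_mem (pow_mem L.nor i)) hm)⟩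
    have h3 : m * z = g ^ i * z * (g ^ i)⁻¹ * m := mul_inv_eq_iff_eq_mul.1 hi
    rw [mul_assoc, h3]; group
  -- no normal subgroup of index two
  have hnoindex : ∀ T : Subgroup X, T.Normal → T.index = 2 → False := by
    intro T hT hT2
    have hTtop : T ≠ ⊤ := by
      intro h; rw [h, Subgroup.index_top] at hT2; exact absurd hT2 (by norm_num)
    have hgT : g ∈ T := by
      have h1 : g ^ orderOf g ∈ T := by rw [pow_orderOf_eq_one]; exact one_mem _
      obtain ⟨k, hk⟩ := hgodd
      rw [hk, pow_succ, pow_mul] at h1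
      have h3 : (g ^ 2) ^ k ∈ T := pow_mem (by rw [← hT2]; exact T.pow_index_mem g) k
      exact (T.mul_mem_cancel_left h3).1 h1
    have hcomm : ∀ w ∈ U, g * w * g⁻¹ * w⁻¹ ∈ T := by
      intro w _
      rw [show g * w * g⁻¹ * w⁻¹ = g * (w * g⁻¹ * w⁻¹) by group]
      exact mul_mem hgT (hT.conj_mem _ (inv_mem hgT) w)
    have hz₂T : z * u ∈ T := by
      have := hcomm z hzU
      rw [← hudef, show z⁻¹ = z from inv_eq_of_mul_eq_one_right hzz, ← hzu] at this
      exact this
    have hzT : z ∈ T := by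
      have := hcomm u huU
      rw [← hz₂, hz₂e, mul_assoc, mul_inv_cancel, mul_one] at this
      exact this
    have huT : u ∈ T := (T.mul_mem_cancel_left hzT).1 hz₂T
    have hUT : U ≤ T := by
      intro w hw
      rcases hmem w hw with h | h | h | h
      · rw [h]; exact one_mem _
      · rw [h]; exact hzT
      · rw [h]; exact huT
      · rw [h]; exact hz₂T
    have hxT : x ∈ T := by
      have h1 := hUT ((hEmem x).1 hxE)
      have := hT.conj_mem _ h1 s
      rwa [show s * (s⁻¹ * x * s) * s⁻¹ = x by group] at this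
    have hMT : normalizer (U : Set X) ≤ T := by
      intro m hm
      obtain ⟨i, hi⟩ := hMel m hm
      have h1 : (g ^ i)⁻¹ * m ∈ T := by
        rcases hS₁el _ hi with h | h
        · exact hUT h
        · have := mul_mem (hUT h) (inv_mem hxT)
          rwa [mul_inv_cancel_right] at this
      have := mul_mem (pow_mem hgT i) h1
      rwa [mul_inv_cancel_left] at this
    rcases hMco.le_iff.1 hMT with h | h
    · exact hTtop h
    · have h1 := nor_nor hX Nat.prime_two L.two L.U_ne
      rw [← h] at h1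
      have h3 : normalizer (T : Set X) = ⊤ := Subgroup.normalizer_eq_top_iff.2 hT
      rw [h3] at h1
      exact hTtop h1.symm
  -- the centralizers of all involutions are 2-groups
  have hall : ∀ i : X, i * i = 1 → i ≠ 1 → ∀ y, y * i = i * y → ∃ k : ℕ, y ^ 2 ^ k = 1 := by
    have hall₁ : ∀ i ∈ S₁, i * i = 1 → i ≠ 1 → ∀ y, y * i = i * y → ∃ k : ℕ, y ^ 2 ^ k = 1 := by
      intro i hi hii hi1 y hy
      have h1 : IsPGroup 2 (centralizer ({i} : Set X)) := by
        rcases hS₁inv i hi hii with h | h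
        · exact h2 i h hi1
        · exact hCE i h hi1
      obtain ⟨k, hk⟩ := h1 ⟨y, mem_centralizer_singleton_iff.2 hy⟩
      exact ⟨k, congrArg Subtype.val hk⟩
    -- transport by conjugation
    have htr : ∀ (i k : X), (∀ y, y * (k * i * k⁻¹) = k * i * k⁻¹ * y → ∃ m : ℕ, y ^ 2 ^ m = 1) →
        ∀ y, y * i = i * y → ∃ m : ℕ, y ^ 2 ^ m = 1 := by
      intro i k h y hy
      obtain ⟨m, hm⟩ := h (k * y * k⁻¹) (by
        calc k * y * k⁻¹ * (k * i * k⁻¹) = k * (y * i) * k⁻¹ := by group
          _ = k * (i * y) * k⁻¹ := by rw [hy]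
          _ = _ := by group)
      refine ⟨m, ?_⟩
      rw [conj_pow] at hm
      exact conj_eq_one_iff.1 hm
    have hallS : ∀ i ∈ (S : Subgroup X), i * i = 1 → i ≠ 1 → ∀ y, y * i = i * y → ∃ k : ℕ, y ^ 2 ^ k = 1 := by
      intro i hi hii hi1
      by_cases hiS₁ : i ∈ S₁
      · exact hall₁ i hiS₁ hii hi1
      · rcases Cfsg.Agent.S0111.result S S₁ hS₁S hrel i (orderOf_of_sq hii hi1) hi hiS₁ with
          ⟨T, hT, hT2, -⟩ | ⟨k, hk⟩
        · exact (hnoindex T hT hT2).elim
        · apply htr i k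
          apply hall₁ _ hk
          · rw [show k * i * k⁻¹ * (k * i * k⁻¹) = k * (i * i) * k⁻¹ by group, hii]; group
          · exact fun h => hi1 (conj_eq_one_iff.1 h)
    intro i hii hi1
    have hi2 : IsPGroup 2 (zpowers i) := isPGroup_zpowers (k := 1) (by rw [pow_one]; exact orderOf_of_sq hii hi1)
    obtain ⟨P, hP⟩ := hi2.exists_le_sylow
    obtain ⟨k, hk⟩ := MulAction.exists_smul_eq X P S
    apply htr i k
    apply hallS
    · have h1 : k * i * k⁻¹ ∈ ((k • P : Sylow 2 X) : Subgroup X) :=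
        ⟨i, hP (mem_zpowers i), rfl⟩
      rw [hk] at h1
      exact h1
    · rw [show k * i * k⁻¹ * (k * i * k⁻¹) = k * (i * i) * k⁻¹ by group, hii]; group
    · exact fun h => hi1 (conj_eq_one_iff.1 h)
  -- the normalizer of `⟨g⟩`
  have hgp3 : ∀ y ∈ zpowers g, y = 1 ∨ y = g ∨ y = g⁻¹ := by
    intro y hy
    obtain ⟨m, rfl⟩ := mem_zpowers_iff.1 hy
    have h1 : g ^ m = g ^ (m % 3) := by
      conv_lhs => rw [← Int.emod_add_mul_ediv m 3, zpow_add, zpow_mul,
        show g ^ (3 : ℤ) = 1 by exact_mod_cast hg3, one_zpow, mul_one]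
    have h3 : m % 3 = 0 ∨ m % 3 = 1 ∨ m % 3 = 2 := by omega
    rw [h1]
    rcases h3 with h | h | h <;> rw [h]
    · left; exact zpow_zero g
    · right; left; exact zpow_one g
    · right; right
      have : g ^ (2 : ℤ) * g = 1 := by
        rw [← zpow_add_one]; exact_mod_cast hg3
      exact eq_inv_of_mul_eq_one_left this
  have hnodd : ∀ i : X, i * i = 1 → i ≠ 1 → i * g ≠ g * i := by
    intro i hii hi1 hig
    obtain ⟨k, hk⟩ := hall i hii hi1 g hig.symm
    exact L.ne_one (eq_one_of_pow L.prime Nat.prime_two L.odd (by rw [← L.ord]; exact pow_orderOf_eq_one g) hk)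
  have hnC : ∀ y, y * n = n * y → y * g = g * y → y = 1 := by
    intro y hyn hyg
    by_contra hy1
    obtain ⟨k, hk⟩ := hall n hnn hn1 y hyn
    obtain ⟨m, hm1, hm2⟩ := exists_invol hk hy1
    exact hnodd _ hm1 hm2 ((show Commute y g from hyg).pow_left m)
  have hgM : zpowers g ≤ normalizer (U : Set X) := L.zle
  have hnng : zpowers n ≤ normalizer (zpowers g : Set X) := by
    rw [zpowers_le]
    apply mem_nor
    intro ρ hρ
    obtain ⟨m, rfl⟩ := mem_zpowers_iff.1 hρ
    rw [← conj_zpow, hng]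
    exact zpow_mem (inv_mem (mem_zpowers g)) m
  have hnP : IsPGroup 2 (zpowers n) := isPGroup_zpowers (k := 1) (by rw [pow_one]; exact orderOf_of_sq hnn hn1)
  have hLle : normalizer (zpowers g : Set X) ≤ normalizer (U : Set X) := by
    intro y hy
    have hns := nor_sup hX L.prime Nat.prime_two L.odd L.isP hnP L.zne hnng
    have hy' := hy
    rw [← hns] at hy'
    have h1 : y * n * y⁻¹ ∈ zpowers g ⊔ zpowers n :=
      conj_mem hy' (le_sup_right (a := zpowers g) (mem_zpowers n))
    obtain ⟨a, ha, b, hb, hab'⟩ := (mem_sup_nor hnng).1 h1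
    obtain ⟨k, hk⟩ := mem_zpowers_iff.1 hb
    have hsq : (y * n * y⁻¹) * (y * n * y⁻¹) = 1 := by
      rw [show y * n * y⁻¹ * (y * n * y⁻¹) = y * (n * n) * y⁻¹ by group, hnn]; group
    have hne1 : y * n * y⁻¹ ≠ 1 := fun h => hn1 (conj_eq_one_iff.1 h)
    have hbn : b = n := by
      rcases Int.even_or_odd' k with ⟨j, rfl | rfl⟩
      · exfalso
        rw [zpow_mul, zpow_ofNat, pow_two, hnn, one_zpow] at hk
        rw [← hk, mul_one] at hab'
        apply hne1
        refine inf_eq_bot L.prime Nat.prime_two L.odd L.isP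
          (isPGroup_zpowers (p := 2) (k := 1) (x := y * n * y⁻¹) (by rw [pow_one]; exact orderOf_of_sq hsq hne1))
          (hab' ▸ ha) (mem_zpowers _)
      · rw [zpow_add, zpow_mul, zpow_ofNat, pow_two, hnn, one_zpow, one_mul, zpow_one] at hk
        exact hk.symm
    rw [hbn] at hab'
    -- `a = b' ^ 2` with `b' ∈ ⟨g⟩`
    obtain ⟨b', hb', hbb⟩ : ∃ b' ∈ zpowers g, b' * b' = a := by
      rcases hgp3 a ha with h | h | h
      · exact ⟨1, one_mem _, by rw [h, mul_one]⟩
      · refine ⟨g⁻¹, inv_mem (mem_zpowers g), ?_⟩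
        rw [h]
        have : g * g * g = 1 := by rw [← hg3, pow_succ, pow_two]
        rw [← mul_inv_rev]
        exact (eq_inv_of_mul_eq_one_right this).symm
      · refine ⟨g, mem_zpowers g, ?_⟩
        rw [h]
        have : g * g * g = 1 := by rw [← hg3, pow_succ, pow_two]
        exact eq_inv_of_mul_eq_one_left this
    have hnb : n * b' = b'⁻¹ * n := by
      obtain ⟨m, rfl⟩ := mem_zpowers_iff.1 hb'
      have h3 : n * g ^ m * n⁻¹ = (g ^ m)⁻¹ := by rw [← conj_zpow, hng, inv_zpow]
      exact mul_inv_eq_iff_eq_mul.1 h3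
    set w := b'⁻¹ * y with hw
    have hywn : w * n = n * w := by
      have h3 : y * n = b' * b' * n * y := by
        have : y * n * y⁻¹ = b' * b' * n := by rw [hbb, hab']
        exact mul_inv_eq_iff_eq_mul.1 this
      calc w * n = b'⁻¹ * (y * n) := by rw [hw]; group
        _ = b'⁻¹ * (b' * b' * n * y) := by rw [h3]
        _ = b' * n * y := by group
        _ = n * (n⁻¹ * b' * n) * y := by group
        _ = n * (b'⁻¹ * y) := by
            have h4 : n⁻¹ * b' * n = b'⁻¹ := by
              have hni : n⁻¹ = n := inv_eq_of_mul_eq_one_right hnn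
              rw [hni, hnb, mul_assoc, hnn, mul_one]
            rw [h4]; group
        _ = n * w := by rw [hw]
    have hwn : w ∈ normalizer (zpowers g : Set X) := mul_mem (inv_mem (le_normalizer hb')) hy
    have hyw : y = b' * w := by rw [hw]; group
    have hwM : w ∈ normalizer (U : Set X) := by
      rcases hgp3 _ (conj_mem hwn (mem_zpowers g)) with h | h | h
      · exact absurd (conj_eq_one_iff.1 h) L.ne_one
      · have : w = 1 := hnC w hywn (mul_inv_eq_iff_eq_mul.1 h)
        rw [this]; exact one_mem _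
      · have h3 : n * w = 1 := by
          apply hnC
          · rw [mul_assoc, hywn]
          · have h4 : n * w * g * (n * w)⁻¹ = g := by
              calc n * w * g * (n * w)⁻¹ = n * (w * g * w⁻¹) * n⁻¹ := by group
                _ = (n * g * n⁻¹)⁻¹ := by rw [h]; group
                _ = g := by rw [hng, inv_inv]
            exact mul_inv_eq_iff_eq_mul.1 h4
        have : w = n⁻¹ := eq_inv_of_mul_eq_one_right h3
        rw [this]; exact inv_mem hnM
    rw [hyw]
    exact mul_mem (hgM hb') hwM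
  have hLco := hX _ L.zne (twoP_of_isPGroup L.prime L.isP)
  rcases hLco.le_iff.1 hLle with h | h
  · exact hMtop h
  · apply hz1
    apply b2 z hzU
    rw [← h]
    exact le_normalizer hzU

end Cfsg.Agent.H546.MaxNor
end

-- part: H546/MaxNorSimple
section
/-!
# A nontrivial group in which the nontrivial `{p, q}`-subgroups have maximal normalizers is simple
-/

set_option autoImplicit false
set_option linter.unusedSectionVars false

namespace Cfsg.Agent.H546.MaxNor

open Subgroup
open scoped Pointwise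

variable {X : Type*} [Group X]

/-- an element of order prime to 2 outside a subgroup has a power of prime power order outside it -/
theorem exists_ppow [Finite X] (C : Subgroup X) (n : ℕ) : ∀ g : X, orderOf g = n → 0 < n → g ∉ C →
    ∃ h ∈ zpowers g, ∃ r v : ℕ, r.Prime ∧ orderOf h = r ^ v ∧ h ∉ C := by
  induction n using Nat.recOnPosPrimePosCoprime with
  | prime_pow p k hp hk =>
    intro g hg _ hgC
    exact ⟨g, mem_zpowers g, p, k, hp, hg, hgC⟩
  | zero => intro g _ h; exact absurd h (lt_irrefl 0)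
  | one =>
    intro g hg _ hgC
    rw [orderOf_eq_one_iff] at hg
    exact absurd (hg ▸ one_mem C) hgC
  | coprime a b ha hb hab iha ihb =>
    intro g hg _ hgC
    by_cases h1 : g ^ a ∈ C
    · by_cases h2 : g ^ b ∈ C
      · exfalso
        apply hgC
        have h3 : g = (g ^ a) ^ (Nat.gcdA a b) * (g ^ b) ^ (Nat.gcdB a b) := by
          rw [← zpow_natCast g a, ← zpow_natCast g b, ← zpow_mul, ← zpow_mul, ← zpow_add, ← Nat.gcd_eq_gcd_ab,
            hab.gcd_eq_one]
          simp
        rw [h3]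
        exact mul_mem (zpow_mem h1 _) (zpow_mem h2 _)
      · have h3 : orderOf (g ^ b) = a := by
          rw [orderOf_pow, hg, Nat.gcd_eq_right (Dvd.intro_left a rfl), Nat.mul_div_cancel _ (by omega)]
        obtain ⟨h, hh, r, v, hr, hv, hhC⟩ := iha (g ^ b) h3 (by omega) h2
        exact ⟨h, (zpowers_le.2 (pow_mem (mem_zpowers g) b)) hh, r, v, hr, hv, hhC⟩
    · have h3 : orderOf (g ^ a) = b := by
        rw [orderOf_pow, hg, Nat.gcd_eq_right (Dvd.intro b rfl), Nat.mul_div_cancel_left _ (by omega)]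
      obtain ⟨h, hh, r, v, hr, hv, hhC⟩ := ihb (g ^ a) h3 (by omega) h1
      exact ⟨h, (zpowers_le.2 (pow_mem (mem_zpowers g) a)) hh, r, v, hr, hv, hhC⟩

/-- there is no nontrivial normal `p`-subgroup -/
theorem not_normal_p [Finite X] (hX : PM X) {p : ℕ} (hp : p.Prime) {V : Subgroup X} (hV : IsPGroup p V)
    (hV1 : V ≠ ⊥) (hn : V.Normal) : False :=
  (hX V hV1 (twoP_of_isPGroup hp hV)).1 (Subgroup.normalizer_eq_top_iff.2 hn)

/-- there is no nontrivial solvable normal subgroup -/
theorem not_solv [Finite X] (hX : PM X) {N : Subgroup X} (hN : N.Normal) (hN1 : N ≠ ⊥) :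
    ¬ Group.IsSolvable N := by
  intro hs
  obtain ⟨A, ⟨hAn, hA1, hAs⟩, hAmin⟩ := Set.Finite.exists_minimalFor
    (fun W : Subgroup X => Nat.card W)
    {W : Subgroup X | W.Normal ∧ W ≠ ⊥ ∧ Group.IsSolvable W}
    (Set.toFinite _) ⟨N, hN, hN1, hs⟩
  have hAnt : Nontrivial A := (Subgroup.nontrivial_iff_ne_bot A).2 hA1
  have hlt : commutator A < ⊤ := Group.IsSolvable.commutator_lt_top_of_nontrivial A
  have hlt' : ⁅A, A⁆ < A := by
    rw [← Subgroup.map_subtype_commutator]
    have h1 : (commutator A).map A.subtype < (⊤ : Subgroup A).map A.subtype :=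
      (Subgroup.map_lt_map_iff_of_injective A.subtype_injective).2 hlt
    rwa [← MonoidHom.range_eq_map, Subgroup.range_subtype] at h1
  have hcb : ⁅A, A⁆ = ⊥ := by
    by_contra hne
    have hle : ⁅A, A⁆ ≤ A := hlt'.le
    have h1 : Nat.card A ≤ Nat.card (⁅A, A⁆ : Subgroup X) :=
      hAmin (j := ⁅A, A⁆) ⟨Subgroup.commutator_normal A A, hne,
        Group.isSolvable_of_isSolvable_injective (Subgroup.inclusion_injective hle)⟩
        (Nat.card_le_card_of_injective (Subgroup.inclusion hle) (Subgroup.inclusion_injective _))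
    exact hlt'.ne (Subgroup.eq_of_le_of_card_ge hle h1)
  have hab : ∀ x ∈ A, ∀ y ∈ A, x * y = y * x := by
    intro x hx y hy
    have h1 := Subgroup.commutator_mem_commutator hx hy
    rw [hcb, Subgroup.mem_bot] at h1
    exact (commutatorElement_eq_one_iff_mul_comm.1 h1)
  -- a prime divisor
  have hcard : Nat.card A ≠ 1 := by
    intro h
    exact hA1 (Subgroup.card_eq_one.1 h)
  obtain ⟨p, hp, hpd⟩ := Nat.exists_prime_and_dvd hcard
  have hfact : Fact p.Prime := ⟨hp⟩
  obtain ⟨x, hx⟩ := exists_prime_orderOf_dvd_card' p hpd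
  let V : Subgroup X :=
    { carrier := {y | y ∈ A ∧ y ^ p = 1}
      one_mem' := ⟨one_mem _, one_pow p⟩
      mul_mem' := by
        rintro a b ⟨ha, ha2⟩ ⟨hb, hb2⟩
        refine ⟨mul_mem ha hb, ?_⟩
        rw [(show Commute a b from hab a ha b hb).mul_pow, ha2, hb2, mul_one]
      inv_mem' := by
        rintro a ⟨ha, ha2⟩
        exact ⟨inv_mem ha, by rw [inv_pow, ha2, inv_one]⟩ }
  apply not_normal_p hX hp (V := V)
  · rintro ⟨y, hy⟩
    exact ⟨1, Subtype.ext (by rw [pow_one]; exact hy.2)⟩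
  · intro h
    have h1 : (x : X) ∈ V := ⟨x.2, by
      have := pow_orderOf_eq_one x
      rw [hx] at this
      exact congrArg Subtype.val this⟩
    rw [h, Subgroup.mem_bot] at h1
    have h2 : x = 1 := Subtype.ext h1
    rw [h2, orderOf_one] at hx
    exact hp.ne_one hx.symm
  · refine ⟨fun y hy c => ⟨hAn.conj_mem y hy.1 c, ?_⟩⟩
    rw [conj_pow, hy.2, mul_one, mul_inv_cancel]

theorem main_simple [Finite X] [Nontrivial X] (hX : PM X) :
    IsSimpleGroup X ∧ ∃ (U : Subgroup X) (g : X) (r v : ℕ) (z t u : X) (s : ℕ),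
      Loc U g r v ∧ Out U g z t u s := by
  obtain ⟨T, ⟨hTn, hT1⟩, hTmin'⟩ := Set.Finite.exists_minimalFor
    (fun W : Subgroup X => Nat.card W)
    {W : Subgroup X | W.Normal ∧ W ≠ ⊥}
    (Set.toFinite _) ⟨⊤, Subgroup.normal_top, top_ne_bot⟩
  have hTmin : ∀ N : Subgroup X, N.Normal → N ≤ T → N ≠ ⊥ → N = T := by
    intro N hN hle h1
    exact Subgroup.eq_of_le_of_card_ge hle (hTmin' (j := N) ⟨hN, h1⟩
      (Nat.card_le_card_of_injective (Subgroup.inclusion hle) (Subgroup.inclusion_injective _)))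
  have hTs := not_solv hX hTn hT1
  have hf2 : Fact (Nat.Prime 2) := ⟨Nat.prime_two⟩
  let P : Sylow 2 T := default
  -- `T` has no normal 2-complement
  have hnc : ¬ ∀ Q : Subgroup T, Q ≤ (P : Subgroup T) → ∀ g ∈ normalizer (Q : Set T),
      Nat.Coprime (orderOf g) 2 → g ∈ centralizer (Q : Set T) := by
    intro hall
    obtain ⟨N, hNn, hNc⟩ := (Cfsg.Agent.S0071.result P).2 hall
    have hidx : N.index = Nat.card (P : Subgroup T) := hNc.symm.index_eq_card
    have hidx' : (P : Subgroup T).index = Nat.card N := hNc.index_eq_card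
    have hPc : (Nat.card (P : Subgroup T)).Coprime (Nat.card N) := by
      rw [← hidx']
      obtain ⟨k, hk⟩ := IsPGroup.iff_card.1 P.isPGroup'
      rw [hk]
      exact Nat.Coprime.pow_left k ((Nat.Prime.coprime_iff_not_dvd Nat.prime_two).2 P.not_dvd_index)
    have hcop : (Nat.card N).Coprime N.index := by rw [hidx]; exact hPc.symm
    have hnor := Lib.NormalHall.normal_map_subtype_of_coprime T N hcop
    have hcardmap : Nat.card (N.map T.subtype) = Nat.card N :=
      Subgroup.card_map_of_injective T.subtype_injective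
    by_cases hb : N.map T.subtype = ⊥
    · have hN1 : Nat.card N = 1 := by rw [← hcardmap, hb, Subgroup.card_bot]
      rw [hN1] at hidx'
      have hPtop : (P : Subgroup T) = ⊤ := Subgroup.index_eq_one.1 hidx'
      have hT2 : IsPGroup 2 T := by
        have h1 := P.isPGroup'
        intro x
        obtain ⟨k, hk⟩ := h1 ⟨x, by rw [hPtop]; exact Subgroup.mem_top x⟩
        exact ⟨k, congrArg Subtype.val hk⟩
      exact not_normal_p hX Nat.prime_two hT2 hT1 hTn
    · have hNT := hTmin _ hnor (Subgroup.map_subtype_le N) hb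
      have hcT : Nat.card T = Nat.card N := by rw [← hcardmap, hNT]
      have hodd : Odd (Nat.card T) := by
        rw [hcT, ← hidx', ← Nat.not_even_iff_odd, even_iff_two_dvd]
        exact P.not_dvd_index
      exact hTs (Cfsg.Agent.S0205.result hodd)
  push Not at hnc
  obtain ⟨Q, hQP, g₀, hg₀n, hg₀o, hg₀c⟩ := hnc
  obtain ⟨h, hh, r, v, hr, hv, hhC⟩ := exists_ppow (centralizer (Q : Set T)) (orderOf g₀) g₀ rfl
    (orderOf_pos g₀) hg₀c
  have hhn : h ∈ normalizer (Q : Set T) := (zpowers_le.2 hg₀n) hh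
  have hh1 : h ≠ 1 := by rintro rfl; exact hhC (one_mem _)
  have hr2 : r ≠ 2 := by
    rintro rfl
    have h1 : orderOf h ∣ orderOf g₀ := orderOf_dvd_of_mem_zpowers hh
    rw [hv] at h1
    have h2 : v ≠ 0 := by
      rintro rfl
      rw [pow_zero, orderOf_eq_one_iff] at hv
      exact hh1 hv
    have h3 : 2 ∣ orderOf g₀ := (dvd_pow_self 2 h2).trans h1
    exact (Nat.Prime.coprime_iff_not_dvd Nat.prime_two).1 hg₀o.symm h3
  set U : Subgroup X := Q.map T.subtype with hU
  have hUT : U ≤ T := Subgroup.map_subtype_le Q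
  have hUmem : ∀ x : T, (x : X) ∈ U ↔ x ∈ Q := by
    intro x
    rw [hU]
    constructor
    · rintro ⟨y, hy, hyx⟩
      rwa [← Subtype.ext hyx]
    · intro hx; exact ⟨x, hx, rfl⟩
  have L : Loc U (h : X) r v := by
    refine ⟨?_, hr, hr2, ?_, ?_, ?_⟩
    · exact (P.isPGroup'.to_le hQP).map T.subtype
    · rw [← hv]; exact orderOf_submonoid h
    · apply mem_nor
      intro x hx
      have h1 := (hUmem ⟨x, hUT hx⟩).1 hx
      exact (hUmem _).2 (conj_mem hhn h1)
    · by_contra hcon
      push Not at hcon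
      apply hhC
      rw [mem_centralizer_iff]
      intro q hq
      exact Subtype.ext (hcon q ((hUmem q).2 hq))
  -- an involution commuting with an element of odd prime order
  have hcase : ∃ z ∈ U, z ≠ 1 ∧ ∃ (t : X) (s : ℕ), s.Prime ∧ s ≠ 2 ∧ orderOf t = s ∧ t * z = z * t := by
    by_contra hcon
    push Not at hcon
    apply caseII hX L
    intro z hz hz1
    rintro ⟨y, hy⟩
    by_contra hno
    push Not at hno
    have hy' : y * z = z * y := mem_centralizer_singleton_iff.1 hy
    have hord : ∀ k, orderOf y ≠ 2 ^ k := by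
      intro k hk
      apply hno k
      apply Subtype.ext
      change y ^ 2 ^ k = 1
      rw [← hk]; exact pow_orderOf_eq_one y
    obtain ⟨s, hs, hs2, hsd⟩ : ∃ s : ℕ, s.Prime ∧ s ≠ 2 ∧ s ∣ orderOf y := by
      by_contra hno
      push Not at hno
      have : ∃ k, orderOf y = 2 ^ k := by
        refine ⟨(orderOf y).primeFactorsList.length, Nat.eq_prime_pow_of_unique_prime_dvd (orderOf_pos y).ne' ?_⟩
        intro d hd hdd
        by_contra hd2
        exact hno d hd hd2 hdd
      obtain ⟨k, hk⟩ := this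
      exact hord k hk
    obtain ⟨c, hc⟩ := hsd
    have ht : orderOf (y ^ c) = s := by
      rw [orderOf_pow, hc, Nat.gcd_eq_right (Dvd.intro_left s rfl)]
      exact Nat.mul_div_cancel _ (Nat.pos_of_ne_zero (by rintro rfl; exact (orderOf_pos y).ne' (by rw [hc]; rfl)))
    exact hcon z hz hz1 (y ^ c) s hs hs2 ht ((show Commute y z from hy').pow_left c)
  obtain ⟨z, hz, hz1, t, s, hs, hs2, ht, htz⟩ := hcase
  obtain ⟨u, O⟩ := caseI hX L hz hz1 hs hs2 ht htz
  -- `T = X`
  have hNT : normalizer (U : Set X) ≤ T := by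
    intro m hm
    obtain ⟨i, -, w, hw, rfl⟩ := O.M m hm
    exact mul_mem (pow_mem h.2 i) (hUT hw)
  have hTtop : T = ⊤ := by
    rw [eq_top_iff]
    intro x _
    -- the Sylow subgroups `U` and `x U x⁻¹` of `T`
    have hUsyl : ∀ W : Subgroup T, IsPGroup 2 W → U.subgroupOf T ≤ W → W = U.subgroupOf T := by
      intro W hW hle
      have h1 : W.map T.subtype = U := by
        apply O.sylow _ (hW.map _)
        intro y hy
        exact ⟨⟨y, hUT hy⟩, hle (show (⟨y, hUT hy⟩ : T) ∈ U.subgroupOf T from hy), rfl⟩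
      ext y
      rw [Subgroup.mem_subgroupOf, ← h1]
      constructor
      · intro hy; exact ⟨y, hy, rfl⟩
      · rintro ⟨y', hy', hyy⟩
        rwa [← Subtype.ext hyy]
    have hU2 : IsPGroup 2 (U.subgroupOf T) := L.two.comap_of_injective T.subtype T.subtype_injective
    let PU : Sylow 2 T := ⟨U.subgroupOf T, hU2, fun {W} hW hle => hUsyl W hW hle⟩
    set U' : Subgroup X := U.map (MulAut.conj x).toMonoidHom with hU'
    have hU'T : U' ≤ T := by
      rintro _ ⟨y, hy, rfl⟩
      exact hTn.conj_mem y (hUT hy) x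
    have hU'2 : IsPGroup 2 (U'.subgroupOf T) := (L.two.map _).comap_of_injective T.subtype T.subtype_injective
    obtain ⟨P', hP'⟩ := hU'2.exists_le_sylow
    obtain ⟨τ, hτ⟩ := MulAction.exists_smul_eq T P' PU
    have h1 : (τ : X) * x ∈ normalizer (U : Set X) := by
      apply mem_nor
      intro y hy
      have h2 : x * y * x⁻¹ ∈ U' := ⟨y, hy, rfl⟩
      have h3 : (⟨x * y * x⁻¹, hU'T h2⟩ : T) ∈ (P' : Subgroup T) := hP' h2
      have h4 : τ * ⟨x * y * x⁻¹, hU'T h2⟩ * τ⁻¹ ∈ ((τ • P' : Sylow 2 T) : Subgroup T) :=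
        ⟨_, h3, rfl⟩
      rw [hτ] at h4
      have h5 : (τ : X) * (x * y * x⁻¹) * (τ : X)⁻¹ ∈ U := h4
      rwa [show (τ : X) * x * y * (τ * x)⁻¹ = τ * (x * y * x⁻¹) * (τ : X)⁻¹ by group]
    have h2 := hNT h1
    exact (T.mul_mem_cancel_left τ.2).1 h2
  refine ⟨⟨fun N hN => ?_⟩, U, h, r, v, z, t, u, s, L, O⟩
  by_cases hb : N = ⊥
  · exact Or.inl hb
  · right
    rw [← hTtop]
    exact hTmin N hN (hTtop ▸ le_top) hb

end Cfsg.Agent.H546.MaxNor
end
end

-- part: S4233
section
prune_inst 0x200000000000000000000000000000000000000000000000000000000000000000000000040c10000000000000000000000000000000000000000000000000000000000000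
set_option linter.all false
open scoped Cfsg.Agent.FastGrp

-- part: H546/MaxNorPSL
section
/-!
# The simple groups of `MaxNorSimple` are isomorphic to `PSL(2, F)`, `F` of odd order
-/

set_option autoImplicit false
set_option linter.unusedSectionVars false

namespace Cfsg.Agent.H546.MaxNor

open Subgroup
open scoped Pointwise

variable {X : Type*} [Group X]

theorem Out.card [Finite X] {U : Subgroup X} {g z t u : X} {s r v : ℕ} (hX : PM X) (L : Loc U g r v)
    (O : Out U g z t u s) : Nat.card U = 4 := by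
  classical
  have hzu : z * u ≠ 1 := by
    intro h
    have h1 := (L.elem hX).1 u O.hu
    apply O.huz
    have : z * u = u * u := by rw [h, h1]
    exact (mul_right_cancel this).symm
  have hzu2 : z * u ≠ z := fun h => O.hu1 (mul_eq_left.1 h)
  have hzu3 : z * u ≠ u := fun h => O.hz1 (mul_eq_right.1 h)
  have h1 : (U : Set X) = (({1, z, u, z * u} : Finset X) : Set X) := by
    ext w
    simp only [SetLike.mem_coe, Finset.coe_insert, Finset.coe_singleton, Set.mem_insert_iff,
      Set.mem_singleton_iff]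
    constructor
    · intro hw; exact O.mem w hw
    · rintro (h | h | h | h) <;> rw [h]
      · exact one_mem _
      · exact O.hz
      · exact O.hu
      · exact mul_mem O.hz O.hu
  have h2 : Nat.card U = (({1, z, u, z * u} : Finset X)).card := by
    change Nat.card (U : Set X) = _
    rw [h1, Nat.card_coe_set_eq, Set.ncard_coe_finset]
  rw [h2, Finset.card_insert_of_notMem, Finset.card_insert_of_notMem, Finset.card_insert_of_notMem,
    Finset.card_singleton]
  · simp only [Finset.mem_singleton]; exact hzu3.symm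
  · simp only [Finset.mem_insert, Finset.mem_singleton, not_or]; exact ⟨O.huz.symm, hzu2.symm⟩
  · simp only [Finset.mem_insert, Finset.mem_singleton, not_or]; exact ⟨O.hz1.symm, O.hu1.symm, hzu.symm⟩

theorem Out.klein [Finite X] {U : Subgroup X} {g z t u : X} {s r v : ℕ} (hX : PM X) (L : Loc U g r v)
    (O : Out U g z t u s) : IsKleinFour U := by
  refine ⟨O.card hX L, ?_⟩
  have h1 : Monoid.exponent U ∣ 2 := by
    rw [Monoid.exponent_dvd_iff_forall_pow_eq_one]
    intro x
    apply Subtype.ext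
    rw [pow_two]
    exact (L.elem hX).1 x x.2
  rcases (Nat.dvd_prime Nat.prime_two).1 h1 with h | h
  · exfalso
    rw [Monoid.exp_eq_one_iff] at h
    have h2 := Nat.card_eq_one_iff_unique.2 ⟨h, ⟨1⟩⟩
    rw [O.card hX L] at h2
    exact absurd h2 (by norm_num)
  · exact h

theorem exists_psl [Finite X] [IsSimpleGroup X] (hX : PM X) {U : Subgroup X} {g z t u : X} {s r v : ℕ}
    (L : Loc U g r v) (O : Out U g z t u s) :
    ∃ (F : Type) (_ : Field F) (_ : Fintype F), Odd (Fintype.card F) ∧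
      Nonempty (X ≃* Matrix.ProjectiveSpecialLinearGroup (Fin 2) F) := by
  have hf2 : Fact (Nat.Prime 2) := ⟨Nat.prime_two⟩
  let P : Sylow 2 X := ⟨U, L.two, fun {W} hW hle => O.sylow W hW hle⟩
  have hel := (L.elem hX).1
  have hab := (L.elem hX).2
  have hs3 : 2 < s := by
    have h1 := O.prime.two_le
    have h2 := O.odd
    omega
  have ht1 : t ≠ 1 := by
    intro h
    have h1 := O.ord
    rw [h, orderOf_one] at h1
    exact O.prime.ne_one h1.symm
  have htp : IsPGroup s (zpowers t) := isPGroup_zpowers (k := 1) (by rw [pow_one]; exact O.ord)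
  have hsodd : Odd s := O.prime.odd_of_ne_two O.odd
  -- the core of the centralizer
  set C : Subgroup X := centralizer ({z} : Set X) with hC
  have hCmem : ∀ y, y ∈ C ↔ y * z = z * y := fun y => mem_centralizer_singleton_iff
  have htC : zpowers t ≤ C := by
    rw [zpowers_le, hCmem]; exact O.tz
  have hO : (Cfsg.oddCore C).map C.subtype = zpowers t := by
    apply le_antisymm
    · rintro _ ⟨y, hy, rfl⟩
      -- an element of odd order
      have hcop := Cfsg.Agent.Lib.Cores.pPrimeCore_coprime (G := C) 2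
      have hNn := Cfsg.Agent.Lib.Cores.pPrimeCore_normal (G := C) 2
      have htcore : ∀ m : ℤ, (⟨t ^ m, htC (zpow_mem (mem_zpowers t) m)⟩ : C) ∈ Cfsg.oddCore C := by
        have hle : (zpowers t).subgroupOf C ≤ Cfsg.oddCore C := by
          apply Cfsg.Agent.Lib.Cores.le_pPrimeCore
          · refine ⟨fun x hx c => ?_⟩
            have h1 : (c : X) ∈ normalizer (zpowers t : Set X) := (O.D c).2 ((hCmem c).1 c.2)
            exact conj_mem (x := (x : X)) h1 hx
          · rw [Nat.card_congr (Subgroup.subgroupOfEquivOfLe htC).toEquiv, Nat.card_zpowers, O.ord]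
            exact (Nat.coprime_primes O.prime Nat.prime_two).2 O.odd
        intro m
        exact hle (zpow_mem (mem_zpowers t) m)
      obtain ⟨m, w, hw, hyw⟩ := O.cz y ((hCmem y).1 y.2)
      have hwC : w ∈ C := (hCmem w).2 (hab w hw z O.hz)
      have h1 : (⟨w, hwC⟩ : C) ∈ Cfsg.oddCore C := by
        have h2 : (⟨w, hwC⟩ : C) = (⟨t ^ (-m), htC (zpow_mem (mem_zpowers t) (-m))⟩ : C) * y := by
          apply Subtype.ext
          change w = t ^ (-m) * (y : X)
          rw [hyw, ← mul_assoc, ← zpow_add]; simp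
        rw [h2]
        exact mul_mem (htcore _) hy
      have h3 : w = 1 := by
        by_contra hw1
        have h4 : orderOf (⟨⟨w, hwC⟩, h1⟩ : Cfsg.oddCore C) = 2 := by
          apply orderOf_of_sq
          · apply Subtype.ext
            apply Subtype.ext
            exact hel w hw
          · intro h
            exact hw1 (congrArg (fun x : Cfsg.oddCore C => ((x : C) : X)) h)
        have h5 : 2 ∣ Nat.card (Cfsg.oddCore C) := h4 ▸ _root_.orderOf_dvd_natCard _
        exact (Nat.Prime.coprime_iff_not_dvd Nat.prime_two).1 hcop.symm h5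
      change (y : X) ∈ zpowers t
      rw [hyw, h3, mul_one]
      exact zpow_mem (mem_zpowers t) m
    · intro y hy
      have hle : (zpowers t).subgroupOf C ≤ Cfsg.oddCore C := by
        apply Cfsg.Agent.Lib.Cores.le_pPrimeCore
        · refine ⟨fun x hx c => ?_⟩
          have h1 : (c : X) ∈ normalizer (zpowers t : Set X) := (O.D c).2 ((hCmem c).1 c.2)
          exact conj_mem (x := (x : X)) h1 hx
        · rw [Nat.card_congr (Subgroup.subgroupOfEquivOfLe htC).toEquiv, Nat.card_zpowers, O.ord]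
          exact (Nat.coprime_primes O.prime Nat.prime_two).2 O.odd
      exact ⟨⟨y, htC hy⟩, hle hy, rfl⟩
  have hut : u * t ≠ t * u := by
    intro h
    have h1 := O.inv
    rw [h, mul_inv_cancel_right] at h1
    have h2 : t * t = 1 := by nth_rewrite 2 [h1]; exact mul_inv_cancel t
    have h3 : orderOf t ∣ 2 := orderOf_dvd_of_pow_eq_one (by rw [pow_two]; exact h2)
    rw [O.ord] at h3
    exact O.odd ((Nat.prime_dvd_prime_iff_eq O.prime Nat.prime_two).1 h3)
  have hcent : ∀ w ∈ U, w ∈ centralizer (zpowers t : Set X) ↔ w * t = t * w := by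
    intro w _
    rw [mem_centralizer_iff]
    constructor
    · intro h; exact (h t (mem_zpowers t)).symm
    · intro h x hx
      exact (comm_zpowers h w (mem_zpowers w) x hx).symm
  have hzt : z * t = t * z := O.tz.symm
  have huc : ∀ w ∈ U, w * t = t * w → w = 1 ∨ w = z := by
    intro w hw hwt
    rcases O.mem w hw with h | h | h | h
    · exact Or.inl h
    · exact Or.inr h
    · rw [h] at hwt; exact absurd hwt hut
    · exfalso
      apply hut
      rw [h] at hwt
      have h1 : u = z * (z * u) := by rw [← mul_assoc, hel z O.hz, one_mul]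
      rw [h1, mul_assoc, hwt, ← mul_assoc, hzt, mul_assoc]
  have hinvt : ∀ w ∈ U, w * t ≠ t * w → w * t * w⁻¹ = t⁻¹ := by
    intro w hw hwt
    rcases O.mem w hw with h | h | h | h
    · exact absurd (by rw [h, one_mul, mul_one]) hwt
    · rw [h] at hwt; exact absurd hzt hwt
    · rw [h]; exact O.inv
    · rw [h, show z * u * t * (z * u)⁻¹ = z * (u * t * u⁻¹) * z⁻¹ by group, O.inv]
      rw [show z * t⁻¹ * z⁻¹ = (z * t * z⁻¹)⁻¹ by group, hzt, mul_inv_cancel_right]
  apply Cfsg.Agent.S0508.result P 2 le_rfl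
    (by
      have := O.klein hX L
      exact IsKleinFour.nonempty_mulEquiv (G₁ := U) (G₂ := DihedralGroup 2))
    z (orderOf_of_sq (hel z O.hz) O.hz1) O.hz (fun w hw => hab w hw z O.hz) (zpowers t) hO.symm
  · intro _
    have hinf : ∀ w, w ∈ ((P : Subgroup X) ⊓ centralizer (zpowers t : Set X) : Subgroup X) ↔ w ∈ zpowers z := by
      intro w
      constructor
      · rintro ⟨hw, hwc⟩
        rcases huc w hw ((hcent w hw).1 hwc) with h | h
        · rw [h]; exact one_mem _
        · rw [h]; exact mem_zpowers z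
      · intro hw
        have hzm : z ∈ ((P : Subgroup X) ⊓ centralizer (zpowers t : Set X) : Subgroup X) :=
          ⟨O.hz, (hcent z O.hz).2 hzt⟩
        exact (zpowers_le.2 hzm) hw
    have heq : ((P : Subgroup X) ⊓ centralizer (zpowers t : Set X) : Subgroup X) = zpowers z :=
      Subgroup.ext hinf
    rw [heq]
    refine ⟨inferInstance, ?_⟩
    have hcz : Nat.card (zpowers z) = 2 := by
      rw [Nat.card_zpowers]; exact orderOf_of_sq (hel z O.hz) O.hz1
    have hle : zpowers z ≤ U := by rw [zpowers_le]; exact O.hz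
    have h2 := Subgroup.card_mul_index ((zpowers z).subgroupOf U)
    rw [Nat.card_congr (Subgroup.subgroupOfEquivOfLe hle).toEquiv, hcz, O.card hX L] at h2
    change ((zpowers z).subgroupOf U).index = 2
    omega
  · intro w hw hwc y hy
    obtain ⟨m, rfl⟩ := mem_zpowers_iff.1 hy
    rw [← conj_zpow, hinvt w hw (fun h => hwc ((hcent w hw).2 h)), inv_zpow]
  · intro Y hY hY1
    have hYt : Y = zpowers t := by
      have h1 : Nat.card (zpowers t) = s := by rw [Nat.card_zpowers, O.ord]
      have h2 : Nat.card Y ∣ s := h1 ▸ Subgroup.card_dvd_of_le hY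
      rcases (Nat.dvd_prime O.prime).1 h2 with h | h
      · exact absurd (Subgroup.card_eq_one.1 h) hY1
      · exact Subgroup.eq_of_le_of_card_ge hY (by rw [h, h1])
    rw [hYt]
    intro y hy
    rw [← hC, hCmem]
    exact (O.D y).1 hy

end Cfsg.Agent.H546.MaxNor
end

-- part: H546/MaxNorThirteen
section
/-!
# If the nontrivial `{p, q}`-subgroups of `PSL(2, F)` have maximal normalizers then `|F| = 13`
-/

set_option autoImplicit false
set_option linter.unusedSectionVars false

namespace Cfsg.Agent.H546.MaxNor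

open Subgroup
open scoped Pointwise

variable {X : Type*} [Group X]

theorem PM.congr {Y : Type*} [Group Y] (e : X ≃* Y) (hX : PM X) : PM Y := by
  intro H hH hH2
  have h1 : H.comap e.toMonoidHom ≠ ⊥ := by
    intro h
    apply hH
    rw [eq_bot_iff]
    intro y hy
    have h2 : e.symm y ∈ H.comap e.toMonoidHom := by
      change e (e.symm y) ∈ H
      rw [e.apply_symm_apply]; exact hy
    rw [h, Subgroup.mem_bot] at h2
    rw [Subgroup.mem_bot]
    have := congrArg e h2
    rwa [e.apply_symm_apply, map_one] at this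
  have hcard : Nat.card (H.comap e.toMonoidHom) = Nat.card H :=
    Nat.card_congr
      { toFun := fun x => ⟨e x, x.2⟩
        invFun := fun y => ⟨e.symm y, by
          change e (e.symm y) ∈ H
          rw [e.apply_symm_apply]; exact y.2⟩
        left_inv := fun x => Subtype.ext (e.symm_apply_apply x)
        right_inv := fun y => Subtype.ext (e.apply_symm_apply y) }
  have h2 : TwoP (H.comap e.toMonoidHom) := by
    obtain ⟨p, q, hp, hq, h⟩ := hH2
    exact ⟨p, q, hp, hq, fun r hr hd => h r hr (by rwa [hcard] at hd)⟩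
  have h3 := hX _ h1 h2
  have h4 : normalizer ((H.comap e.toMonoidHom : Subgroup X) : Set X) =
      (normalizer (H : Set Y)).comap e.toMonoidHom :=
    (Subgroup.comap_normalizer_eq_of_surjective H e.surjective).symm
  rw [h4] at h3
  have h5 : ∀ K : Subgroup Y, (K.comap e.toMonoidHom).map e.toMonoidHom = K := fun K =>
    Subgroup.map_comap_eq_self_of_surjective e.surjective K
  refine ⟨fun htop => h3.1 ?_, fun K hK => ?_⟩
  · rw [htop, Subgroup.comap_top]
  · have h6 : (normalizer (H : Set Y)).comap e.toMonoidHom < K.comap e.toMonoidHom := by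
      rw [Subgroup.comap_lt_comap_of_surjective e.surjective]
      exact hK
    have h7 := h3.2 _ h6
    rw [← h5 K, h7, Subgroup.map_top_of_surjective _ e.surjective]

/-- a dihedral subgroup of order `2 m` with `3 ∣ m` has `m ∣ 6` -/
theorem dihedral_three [Finite X] (hX : PM X) {H : Subgroup X} {m : ℕ} (e : H ≃* DihedralGroup m)
    (h3 : 3 ∣ m) (hm0 : 0 < m) : m ∣ 6 := by
  have : NeZero m := ⟨hm0.ne'⟩
  set ρ : X := ((e.symm (DihedralGroup.r 1) : H) : X) with hρ
  set σ : X := ((e.symm (DihedralGroup.sr 0) : H) : X) with hσ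
  have hσσ : σ * σ = 1 := by
    have h1 : e.symm (DihedralGroup.sr 0) * e.symm (DihedralGroup.sr 0) = (1 : H) := by
      rw [← map_mul, DihedralGroup.sr_mul_sr, sub_self, ← DihedralGroup.one_def, map_one]
    exact congrArg Subtype.val h1
  have hrel : σ * ρ = ρ⁻¹ * σ := by
    have h1 : e.symm (DihedralGroup.sr 0) * e.symm (DihedralGroup.r 1) =
        (e.symm (DihedralGroup.r 1))⁻¹ * e.symm (DihedralGroup.sr 0) := by
      rw [← map_inv, ← map_mul, ← map_mul]
      congr 1
      rw [DihedralGroup.sr_mul_r, DihedralGroup.inv_r, DihedralGroup.r_mul_sr]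
      congr 1
      ring
    exact congrArg Subtype.val h1
  have hordρ : orderOf ρ = m := by
    have h1 : orderOf ρ = orderOf (e.symm (DihedralGroup.r 1)) := by
      rw [hρ]; exact orderOf_submonoid _
    rw [h1, MulEquiv.orderOf_eq, DihedralGroup.orderOf_r_one]
  have hσρ : σ ∉ zpowers ρ := by
    intro h
    obtain ⟨k, hk⟩ := mem_zpowers_iff.1 h
    have h1 : (e.symm (DihedralGroup.r 1)) ^ k = e.symm (DihedralGroup.sr 0) := Subtype.ext (by
      rw [← hσ, ← hk, hρ]; rfl)
    rw [← map_zpow] at h1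
    have h2 := e.symm.injective h1
    have h4 : ∀ k : ℤ, ∃ j : ZMod m, (DihedralGroup.r 1 : DihedralGroup m) ^ k = DihedralGroup.r j := by
      intro k
      have h5 : (DihedralGroup.r 1 : DihedralGroup m) ^ k ∈ zpowers (DihedralGroup.r 1 : DihedralGroup m) :=
        zpow_mem (mem_zpowers _) k
      obtain ⟨n, hn⟩ := (isOfFinOrder_of_finite _).mem_powers_iff_mem_zpowers.2 h5
      refine ⟨n, ?_⟩
      change (DihedralGroup.r 1 : DihedralGroup m) ^ n = _ at hn
      rw [← hn, DihedralGroup.r_one_pow]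
    obtain ⟨j, hj⟩ := h4 k
    rw [hj] at h2
    cases h2
  obtain ⟨c, hc⟩ := h3
  set τ : X := ρ ^ c with hτ
  have hc0 : 0 < c := by
    rcases Nat.eq_zero_or_pos c with h | h
    · rw [h, mul_zero] at hc; omega
    · exact h
  have hordτ : orderOf τ = 3 ^ 1 := by
    rw [hτ, orderOf_pow, hordρ, hc, Nat.gcd_eq_right (Dvd.intro_left 3 rfl), Nat.mul_div_cancel _ hc0, pow_one]
  have hτ1 : τ ≠ 1 := by
    intro h; rw [h, orderOf_one] at hordτ; norm_num at hordτ
  have hσ1 : σ ≠ 1 := fun h => hσρ (h ▸ one_mem _)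
  have hσn : ∀ x ∈ zpowers ρ, σ * x * σ⁻¹ = x⁻¹ := by
    intro x hx
    obtain ⟨k, rfl⟩ := mem_zpowers_iff.1 hx
    rw [← conj_zpow, hrel, mul_inv_cancel_right, inv_zpow]
  have hτρ : zpowers τ ≤ zpowers ρ := by rw [zpowers_le]; exact pow_mem (mem_zpowers ρ) c
  have hn1 : zpowers σ ≤ normalizer (zpowers τ : Set X) := by
    rw [zpowers_le]
    apply mem_nor
    intro x hx
    rw [hσn x (hτρ hx)]; exact inv_mem hx
  have hσ2 : IsPGroup 2 (zpowers σ) := isPGroup_zpowers (k := 1) (by rw [pow_one]; exact orderOf_of_sq hσσ hσ1)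
  have hns := nor_sup hX Nat.prime_three Nat.prime_two (by norm_num) (isPGroup_zpowers hordτ) hσ2
    (by rw [Ne, zpowers_eq_bot]; exact hτ1) hn1
  have hρn : ρ ∈ normalizer (zpowers τ : Set X) := by
    apply mem_nor
    intro x hx
    have h1 := comm_zpowers (x := ρ) (y := ρ) rfl ρ (mem_zpowers ρ) x (hτρ hx)
    rw [h1, mul_inv_cancel_right]; exact hx
  rw [← hns] at hρn
  have h1 : ρ * σ * ρ⁻¹ ∈ zpowers τ ⊔ zpowers σ := conj_mem hρn (le_sup_right (a := zpowers τ) (mem_zpowers σ))
  obtain ⟨a, ha, b, hb, hab⟩ := (mem_sup_nor hn1).1 h1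
  have h2 : ρ * σ * ρ⁻¹ = ρ * ρ * σ := by
    have h4 : σ * ρ⁻¹ = ρ * σ := by
      have h5 := hσn ρ⁻¹ (inv_mem (mem_zpowers ρ))
      rw [inv_inv] at h5
      exact mul_inv_eq_iff_eq_mul.1 h5
    rw [mul_assoc, h4, mul_assoc]
  rw [h2] at hab
  obtain ⟨k, hk⟩ := mem_zpowers_iff.1 hb
  rcases Int.even_or_odd' k with ⟨j, rfl | rfl⟩
  · exfalso
    rw [zpow_mul, zpow_ofNat, pow_two, hσσ, one_zpow] at hk
    apply hσρ
    have h4 : σ = (ρ * ρ)⁻¹ * a := by rw [← hk, mul_one] at hab; rw [hab]; group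
    rw [h4]
    exact mul_mem (inv_mem (mul_mem (mem_zpowers ρ) (mem_zpowers ρ))) (hτρ ha)
  · rw [zpow_add, zpow_mul, zpow_ofNat, pow_two, hσσ, one_zpow, one_mul, zpow_one] at hk
    rw [← hk] at hab
    have h4 : a = ρ * ρ := mul_right_cancel hab
    have h5 : (ρ * ρ) ^ 3 = 1 := by
      rw [← h4]
      obtain ⟨n, rfl⟩ := mem_zpowers_iff.1 ha
      rw [← zpow_natCast, ← zpow_mul, mul_comm, zpow_mul, zpow_natCast,
        show τ ^ 3 = 1 from by have := pow_orderOf_eq_one τ; rwa [hordτ, pow_one] at this, one_zpow]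
    have h6 : ρ ^ 6 = 1 := by
      rw [← h5, ← pow_two, ← pow_mul]
    rw [← hordρ]
    exact orderOf_dvd_of_pow_eq_one h6

theorem alt_five : ∀ z : Equiv.Perm (Fin 5), Equiv.Perm.sign z = 1 → z * z = 1 → z ≠ 1 →
    ∀ t : Equiv.Perm (Fin 5), Equiv.Perm.sign t = 1 → t * z = z * t → t * t = 1 := by
  (set_option synthInstance.maxSize 9000 in open scoped Cfsg.Agent.Lib.FastPerm in decide +kernel)

section thirteen

variable {F : Type*} [Field F] [Fintype F]

local notation "PSL2" => Matrix.ProjectiveSpecialLinearGroup (Fin 2) F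

local notation "SL2" => Matrix.SpecialLinearGroup (Fin 2) F

open Cfsg.Agent.ClassicalGeometry.PSL2Basic

/-- characteristic three is impossible -/
theorem not_char_three (hX : PM PSL2) (h3 : (3 : F) = 0) (hodd : Odd (Fintype.card F))
    (hq : 3 < Fintype.card F) : False := by
  let π : SL2 →* PSL2 := QuotientGroup.mk' (center SL2)
  have hπs : Function.Surjective π := QuotientGroup.mk'_surjective _
  have hπ : ∀ a b : SL2, π a = π b → a = b ∨ a = -b := by
    intro a b h
    have h1 := (QuotientGroup.eq (s := center SL2)).1 h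
    rcases mem_center_SL2_iff.1 h1 with h2 | h2
    · exact Or.inl (inv_mul_eq_one.1 h2)
    · right
      have h4 : b = a * -1 := by rw [← h2, mul_inv_cancel_left]
      rw [h4, mul_neg, mul_one, neg_neg]
  let x₀ : SL2 := ⟨!![1, 1; 0, 1], by simp [Matrix.det_fin_two]⟩
  have hpow : ∀ k : ℤ, (((x₀ ^ k : SL2)) : Matrix (Fin 2) (Fin 2) F) = !![1, (k : F); 0, 1] := by
    have hn : ∀ n : ℕ, (((x₀ ^ n : SL2)) : Matrix (Fin 2) (Fin 2) F) = !![1, (n : F); 0, 1] := by
      intro n
      induction n with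
      | zero =>
        rw [pow_zero, Matrix.SpecialLinearGroup.coe_one]
        ext i j; (revert i j; simp only [_root_.Fin.forall_fin_succ, _root_.Nat.cast_zero, _root_.Matrix.of_apply, _root_.Matrix.cons_val', _root_.Matrix.cons_val_fin_one, Fin.isValue, _root_.Matrix.cons_val_zero, _root_.Matrix.cons_val_succ, _root_.IsEmpty.forall_iff, _root_.and_true, _root_.Matrix.one_apply_eq, Nat.reduceAdd, _root_.Fin.succ_zero_eq_one, _root_.ne_eq, _root_.zero_ne_one, _root_.not_false_eq_true, _root_.Matrix.one_apply_ne, _root_.and_self, _root_.Fin.succ_ne_zero, _root_.true_and])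
      | succ n ih =>
        rw [pow_succ, Matrix.SpecialLinearGroup.coe_mul, ih]
        ext i j
        (revert i j; simp only [x₀, Matrix.mul_apply, Fin.sum_univ_two, add_comm, _root_.Fin.forall_fin_succ, _root_.Matrix.of_apply, _root_.Matrix.cons_val', _root_.Matrix.cons_val_fin_one, Fin.isValue, _root_.Matrix.cons_val_zero, _root_.Matrix.cons_val_one, _root_.Nat.cast_add, _root_.Nat.cast_one, _root_.mul_one, _root_.MulZeroClass.mul_zero, _root_.zero_add, _root_.Matrix.cons_val_succ, _root_.forall_const, _root_.true_and, _root_.implies_true, _root_.and_self])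
    intro k
    rcases Int.eq_nat_or_neg k with ⟨n, rfl | rfl⟩
    · rw [zpow_natCast, hn]; simp
    · rw [zpow_neg, zpow_natCast, Matrix.SpecialLinearGroup.coe_inv, hn]
      rw [Matrix.adjugate_fin_two]
      ext i j; (revert i j; simp [_root_.Fin.forall_fin_succ])
  set x : PSL2 := π x₀ with hx
  have hx3 : x ^ 3 = 1 := by
    have h1 : x₀ ^ 3 = 1 := by
      apply Subtype.ext
      have := hpow 3
      rw [show (x₀ : SL2) ^ (3 : ℤ) = x₀ ^ 3 from by norm_cast] at this
      rw [this, Matrix.SpecialLinearGroup.coe_one]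
      ext i j; (revert i j; simp only [h3, _root_.Fin.forall_fin_succ, _root_.Int.cast_ofNat, _root_.Matrix.of_apply, _root_.Matrix.cons_val', _root_.Matrix.cons_val_fin_one, Fin.isValue, _root_.Matrix.cons_val_zero, _root_.Matrix.cons_val_succ, _root_.IsEmpty.forall_iff, _root_.and_true, _root_.Matrix.one_apply_eq, Nat.reduceAdd, _root_.Fin.succ_zero_eq_one, _root_.ne_eq, _root_.zero_ne_one, _root_.not_false_eq_true, _root_.Matrix.one_apply_ne, _root_.and_self, _root_.Fin.succ_ne_zero, _root_.true_and])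
    rw [hx, ← map_pow, h1, map_one]
  have hx1 : x ≠ 1 := by
    intro h
    have h1 : π x₀ = π 1 := by rw [map_one]; exact h
    rcases hπ _ _ h1 with h2 | h2
    · have := congrArg (fun A : SL2 => (A : Matrix (Fin 2) (Fin 2) F) 0 1) h2
      simp [x₀] at this
    · have := congrArg (fun A : SL2 => (A : Matrix (Fin 2) (Fin 2) F) 0 1) h2
      simp [x₀] at this
  have hord : orderOf x = 3 ^ 1 := by
    rw [pow_one]; exact orderOf_eq_prime hx3 hx1
  have hco := hX (zpowers x) (by rw [Ne, zpowers_eq_bot]; exact hx1)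
    (twoP_of_isPGroup Nat.prime_three (isPGroup_zpowers hord))
  -- the image of the upper triangular group
  let B₀ : Subgroup SL2 :=
    { carrier := {A | (A : Matrix (Fin 2) (Fin 2) F) 1 0 = 0}
      one_mem' := by simp
      mul_mem' := by
        intro a b ha hb
        change ((a * b : SL2) : Matrix (Fin 2) (Fin 2) F) 1 0 = 0
        change (a : Matrix (Fin 2) (Fin 2) F) 1 0 = 0 at ha
        change (b : Matrix (Fin 2) (Fin 2) F) 1 0 = 0 at hb
        rw [Matrix.SpecialLinearGroup.coe_mul, Matrix.mul_apply, Fin.sum_univ_two, ha, hb]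
        ring
      inv_mem' := by
        intro a ha
        change ((a⁻¹ : SL2) : Matrix (Fin 2) (Fin 2) F) 1 0 = 0
        change (a : Matrix (Fin 2) (Fin 2) F) 1 0 = 0 at ha
        rw [Matrix.SpecialLinearGroup.coe_inv, Matrix.adjugate_fin_two]
        simp [ha] }
  have hle : normalizer (zpowers x : Set PSL2) ≤ B₀.map π := by
    intro y hy
    obtain ⟨g, rfl⟩ := hπs y
    obtain ⟨k, hk⟩ := mem_zpowers_iff.1 (conj_mem hy (mem_zpowers x))
    refine ⟨g, ?_, rfl⟩
    change (g : Matrix (Fin 2) (Fin 2) F) 1 0 = 0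
    have h1 : π (g * x₀) = π (x₀ ^ k * g) := by
      rw [map_mul, map_mul, map_zpow]
      exact mul_inv_eq_iff_eq_mul.1 hk.symm
    rcases hπ _ _ h1 with h2 | h2
    · have h4 := congrArg (fun A : SL2 => (A : Matrix (Fin 2) (Fin 2) F) 1 1) h2
      simp only [Matrix.SpecialLinearGroup.coe_mul, hpow] at h4
      simp only [x₀, Matrix.mul_apply, Fin.sum_univ_two, _root_.Fin.isValue, _root_.Matrix.of_apply, _root_.Matrix.cons_val', _root_.Matrix.cons_val_one, _root_.Matrix.cons_val_fin_one, _root_.Matrix.cons_val_zero, _root_.mul_one, _root_.MulZeroClass.zero_mul, _root_.one_mul, _root_.zero_add, _root_.add_eq_right] at h4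
      exact h4
    · have h4 := congrArg (fun A : SL2 => (A : Matrix (Fin 2) (Fin 2) F) 1 0) h2
      simp only [Matrix.SpecialLinearGroup.coe_mul, Matrix.SpecialLinearGroup.coe_neg, hpow] at h4
      simp only [x₀, Matrix.mul_apply, Fin.sum_univ_two, Matrix.vecMul, dotProduct, _root_.Fin.isValue, _root_.Matrix.of_apply, _root_.Matrix.cons_val', _root_.Matrix.cons_val_zero, _root_.Matrix.cons_val_fin_one, _root_.mul_one, _root_.Matrix.cons_val_one, _root_.MulZeroClass.mul_zero, _root_.add_zero, _root_.Matrix.cons_mul, _root_.Nat.succ_eq_add_one, _root_.Nat.reduceAdd, _root_.Matrix.empty_mul, _root_.Equiv.symm_apply_apply, _root_.Matrix.neg_apply, _root_.one_mul, _root_.MulZeroClass.zero_mul, _root_.zero_add] at h4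
      have h2' : (2 : F) ≠ 0 := (two_ne_zero_iff_odd F).2 hodd
      have h5 : (2 : F) * (g : Matrix (Fin 2) (Fin 2) F) 1 0 = 0 := by linear_combination h4
      exact (mul_eq_zero.1 h5).resolve_left h2'
  have hBtop : B₀.map π ≠ ⊤ := by
    intro htop
    let w : SL2 := ⟨!![0, 1; -1, 0], by simp [Matrix.det_fin_two]⟩
    have h1 : π w ∈ B₀.map π := by rw [htop]; exact Subgroup.mem_top _
    obtain ⟨b, hb, hbw⟩ := h1
    have hb' : (b : Matrix (Fin 2) (Fin 2) F) 1 0 = 0 := hb
    rcases hπ _ _ hbw with h2 | h2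
    · rw [h2] at hb'; simp [w] at hb'
    · rw [h2, Matrix.SpecialLinearGroup.coe_neg] at hb'; simp [w] at hb'
  have heq : B₀.map π = normalizer (zpowers x : Set PSL2) := (hco.le_iff.1 hle).resolve_left hBtop
  -- squares
  have hfour : ∀ a : Fˣ, a ^ 4 = 1 := by
    intro a
    let d : SL2 := ⟨!![(a : F), 0; 0, ((a⁻¹ : Fˣ) : F)], by simp [Matrix.det_fin_two]⟩
    have hd : π d ∈ normalizer (zpowers x : Set PSL2) := by
      rw [← heq]
      exact ⟨d, by change (d : Matrix (Fin 2) (Fin 2) F) 1 0 = 0; simp [d], rfl⟩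
    obtain ⟨k, hk⟩ := mem_zpowers_iff.1 (conj_mem hd (mem_zpowers x))
    have h1 : π (d * x₀) = π (x₀ ^ k * d) := by
      rw [map_mul, map_mul, map_zpow]
      exact mul_inv_eq_iff_eq_mul.1 hk.symm
    have h2 : (a : F) = k * ((a⁻¹ : Fˣ) : F) := by
      rcases hπ _ _ h1 with h2 | h2
      · have h4 := congrArg (fun A : SL2 => (A : Matrix (Fin 2) (Fin 2) F) 0 1) h2
        simp only [Matrix.SpecialLinearGroup.coe_mul, hpow] at h4
        simpa only [d, x₀, Matrix.mul_apply, Fin.sum_univ_two, _root_.Units.val_inv_eq_inv_val, _root_.Fin.isValue, _root_.Matrix.of_apply, _root_.Matrix.cons_val', _root_.Matrix.cons_val_fin_one, _root_.Matrix.cons_val_zero, _root_.Matrix.cons_val_one, _root_.mul_one, _root_.add_zero, _root_.MulZeroClass.mul_zero, _root_.zero_add] using h4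
      · exfalso
        have h4 := congrArg (fun A : SL2 => (A : Matrix (Fin 2) (Fin 2) F) 0 0) h2
        simp only [Matrix.SpecialLinearGroup.coe_mul, Matrix.SpecialLinearGroup.coe_neg, hpow] at h4
        simp [d, x₀, Matrix.mul_apply, Fin.sum_univ_two] at h4
        have h2' : (2 : F) ≠ 0 := (two_ne_zero_iff_odd F).2 hodd
        have h5 : (2 : F) * (a : F) = 0 := by linear_combination h4
        exact a.ne_zero ((mul_eq_zero.1 h5).resolve_left h2')
    have h4 : (a : F) ^ 2 = k := by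
      have h5 : (a : F) * a = k * (((a⁻¹ : Fˣ) : F) * a) := by
        nth_rewrite 1 [h2]; ring
      rw [pow_two, h5, ← Units.val_mul, inv_mul_cancel, Units.val_one, mul_one]
    have hk3 : (k : F) = ((k % 3 : ℤ) : F) := by
      conv_lhs => rw [← Int.emod_add_mul_ediv k 3]
      push_cast
      rw [h3, zero_mul, add_zero]
    have hr : k % 3 = 0 ∨ k % 3 = 1 ∨ k % 3 = 2 := by omega
    apply Units.ext
    rw [Units.val_pow_eq_pow_val, Units.val_one, show 4 = 2 * 2 by norm_num, pow_mul, h4, hk3]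
    rcases hr with h | h | h
    · exfalso
      rw [hk3, h, Int.cast_zero] at h4
      exact a.ne_zero (pow_eq_zero_iff (two_ne_zero)|>.1 h4)
    · rw [h]; simp
    · rw [h]; push_cast; linear_combination h3
  classical
  have hcard : Fintype.card Fˣ ∣ 4 := by
    have h1 : Monoid.exponent Fˣ ∣ 4 := Monoid.exponent_dvd_iff_forall_pow_eq_one.2 hfour
    rwa [IsCyclic.exponent_eq_card, Nat.card_eq_fintype_card] at h1
  rw [Fintype.card_units] at hcard
  have h5 := Nat.le_of_dvd (by norm_num) hcard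
  have h6 : Fintype.card F = 4 ∨ Fintype.card F = 5 := by omega
  rcases h6 with h6 | h6
  · rw [h6] at hodd; exact absurd hodd (by decide)
  · have h7 : ((5 : ℕ) : F) = 0 := by rw [← h6]; exact Nat.cast_card_eq_zero F
    have h8 : (1 : F) = 0 := by
      have : ((5 : ℕ) : F) = 5 := by norm_cast
      rw [this] at h7
      linear_combination 2 * h3 - h7
    exact one_ne_zero h8

end thirteen

end Cfsg.Agent.H546.MaxNor
end

-- part: H546/MaxNorCard
section
/-!
# If the nontrivial `{p, q}`-subgroups of `PSL(2, F)` have maximal normalizers then `|F| = 13`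
-/

set_option autoImplicit false
set_option linter.unusedSectionVars false

namespace Cfsg.Agent.H546.MaxNor

open Subgroup
open scoped Pointwise

variable {X : Type*} [Group X]

theorem Out.card_nor [Finite X] {U : Subgroup X} {g z t u : X} {s r v : ℕ} (hX : PM X) (L : Loc U g r v)
    (O : Out U g z t u s) : Nat.card (normalizer (U : Set X)) ≤ 12 := by
  classical
  have h1 : Nat.card (Fin 3 × U) = 12 := by
    rw [Nat.card_prod, O.card hX L, Nat.card_eq_fintype_card, Fintype.card_fin]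
  rw [← h1]
  have h2 : ∀ m : normalizer (U : Set X), ∃ x : Fin 3 × U, (m : X) = g ^ (x.1 : ℕ) * x.2 := by
    intro m
    obtain ⟨i, hi, w, hw, h⟩ := O.M m m.2
    exact ⟨(⟨i, hi⟩, ⟨w, hw⟩), h⟩
  choose f hf using h2
  refine Nat.card_le_card_of_injective f ?_
  intro m m' h
  apply Subtype.ext
  rw [hf m, hf m', h]

/-- there is no proper subgroup isomorphic to `A5` -/
theorem alt_top [Finite X] {U : Subgroup X} {g z t u : X} {s r v : ℕ} (hX : PM X) (L : Loc U g r v)
    (O : Out U g z t u s) {H : Subgroup X} (e : H ≃* alternatingGroup (Fin 5)) : False := by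
  have hf2 : Fact (Nat.Prime 2) := ⟨Nat.prime_two⟩
  let PU : Sylow 2 X := ⟨U, L.two, fun {W} hW hle => O.sylow W hW hle⟩
  obtain ⟨a₀, b₀, c₀, ha, hb, hab, hca, hcb, hc, ha1, hb1, hba, hc1⟩ : ∃ a b c : alternatingGroup (Fin 5),
      a * a = 1 ∧ b * b = 1 ∧ a * b = b * a ∧ c * a * c⁻¹ = b ∧ c * b * c⁻¹ = a * b ∧ c ^ 3 = 1 ∧
      a ≠ 1 ∧ b ≠ 1 ∧ b ≠ a ∧ c ≠ 1 := by
    refine ⟨⟨Equiv.swap 0 1 * Equiv.swap 2 3, Equiv.Perm.mem_alternatingGroup.2 (by decide)⟩,
      ⟨Equiv.swap 0 2 * Equiv.swap 1 3, Equiv.Perm.mem_alternatingGroup.2 (by decide)⟩,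
      ⟨Equiv.swap 1 2 * Equiv.swap 2 3, Equiv.Perm.mem_alternatingGroup.2 (by decide)⟩,
      ?_, ?_, ?_, ?_, ?_, ?_, ?_, ?_, ?_, ?_⟩
    all_goals first | (apply Subtype.ext; decide) | (intro h; exact absurd (congrArg Subtype.val h) (by decide))
  let φ : alternatingGroup (Fin 5) →* X := H.subtype.comp e.symm.toMonoidHom
  have hφi : Function.Injective φ := H.subtype_injective.comp e.symm.injective
  have hφH : ∀ y, φ y ∈ H := fun y => (e.symm y).2
  set a := φ a₀ with haa
  set b := φ b₀ with hbb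
  set c := φ c₀ with hcc
  have ha' : a * a = 1 := by rw [haa, ← map_mul, ha, map_one]
  have hb' : b * b = 1 := by rw [hbb, ← map_mul, hb, map_one]
  have hab' : a * b = b * a := by rw [haa, hbb, ← map_mul, hab, map_mul]
  have hca' : c * a * c⁻¹ = b := by rw [haa, hbb, hcc, ← map_inv, ← map_mul, ← map_mul, hca]
  have hcb' : c * b * c⁻¹ = a * b := by rw [haa, hbb, hcc, ← map_inv, ← map_mul, ← map_mul, ← map_mul, hcb]
  have hc' : c ^ 3 = 1 := by rw [hcc, ← map_pow, hc, map_one]
  have ha1' : a ≠ 1 := by rw [haa, Ne, ← map_one φ, hφi.eq_iff]; exact ha1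
  have hb1' : b ≠ 1 := by rw [hbb, Ne, ← map_one φ, hφi.eq_iff]; exact hb1
  have hba' : b ≠ a := by rw [haa, hbb, Ne, hφi.eq_iff]; exact hba
  have hc1' : c ≠ 1 := by rw [hcc, Ne, ← map_one φ, hφi.eq_iff]; exact hc1
  set W : Subgroup X := zpowers a ⊔ zpowers b with hW
  have haW : a ∈ W := le_sup_left (a := zpowers a) (mem_zpowers a)
  have hbW : b ∈ W := le_sup_right (a := zpowers a) (mem_zpowers b)
  have hWH : W ≤ H := by
    rw [hW]
    apply sup_le
    · rw [zpowers_le]; exact hφH _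
    · rw [zpowers_le]; exact hφH _
  have hW2 : IsPGroup 2 W := by
    apply isPGroup_sup
    · exact isPGroup_zpowers (k := 1) (by rw [pow_one]; exact orderOf_of_sq ha' ha1')
    · exact isPGroup_zpowers (k := 1) (by rw [pow_one]; exact orderOf_of_sq hb' hb1')
    · exact le_nor_of_comm (comm_zpowers hab')
  obtain ⟨P, hP⟩ := hW2.exists_le_sylow
  have hPc : Nat.card P = 4 := by
    rw [← O.card hX L]
    have h1 := Sylow.card_eq_multiplicity P
    have h2 := Sylow.card_eq_multiplicity PU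
    rw [h1]; exact h2.symm
  have hWc : Nat.card W = 4 := by
    have h1 : Nat.card W ∣ 4 := hPc ▸ Subgroup.card_dvd_of_le hP
    have h2 : Nat.card W ≠ 1 := by
      intro h
      have h3 := Subgroup.card_eq_one.1 h
      rw [h3, Subgroup.mem_bot] at haW
      exact ha1' haW
    have h3 : Nat.card W ≠ 2 := by
      intro h
      have h4 : zpowers a = W := by
        apply Subgroup.eq_of_le_of_card_ge le_sup_left
        rw [Nat.card_zpowers, orderOf_of_sq ha' ha1', h]
      have h5 : b ∈ zpowers a := by rw [h4]; exact hbW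
      obtain ⟨k, hk⟩ := mem_zpowers_iff.1 h5
      rcases Int.even_or_odd' k with ⟨j, rfl | rfl⟩
      · rw [zpow_mul, zpow_ofNat, pow_two, ha', one_zpow] at hk
        exact hb1' hk.symm
      · rw [zpow_add, zpow_mul, zpow_ofNat, pow_two, ha', one_zpow, one_mul, zpow_one] at hk
        exact hba' hk.symm
    have h4 : Nat.card W ≤ 4 := Nat.le_of_dvd (by norm_num) h1
    interval_cases (Nat.card W)
    · simp at h1
    · exact absurd rfl h2
    · exact absurd rfl h3
    · norm_num at h1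
    · rfl
  have hWP : W = P := Subgroup.eq_of_le_of_card_ge hP (by rw [hPc, hWc])
  have hnor : Nat.card (normalizer (W : Set X)) ≤ 12 := by
    have h1 := O.card_nor hX L
    have h2 := Sylow.card_eq_index_normalizer P
    have h3 := Sylow.card_eq_index_normalizer PU
    rw [h2] at h3
    have h4 := Subgroup.card_mul_index (normalizer (P : Set X))
    have h5 := Subgroup.card_mul_index (normalizer (PU : Set X))
    rw [← h5, h3] at h4
    have h6 : 0 < (normalizer (PU : Set X)).index := Nat.pos_of_ne_zero Subgroup.index_ne_zero_of_finite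
    have h7 := Nat.eq_of_mul_eq_mul_right h6 h4
    rw [hWP]
    change Nat.card (normalizer (P : Set X)) ≤ 12
    rw [h7]
    exact h1
  have hcn : c ∈ normalizer (W : Set X) := by
    apply mem_nor
    have h1 : W.map (MulAut.conj c).toMonoidHom ≤ W := by
      rw [Subgroup.map_le_iff_le_comap]
      nth_rewrite 1 [hW]
      apply sup_le
      · rw [zpowers_le]
        change c * a * c⁻¹ ∈ W
        rw [hca']; exact hbW
      · rw [zpowers_le]
        change c * b * c⁻¹ ∈ W
        rw [hcb']; exact mul_mem haW hbW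
    intro x hx
    exact h1 ⟨x, hx, rfl⟩
  have hle : normalizer (W : Set X) ≤ H := by
    have h1 : 4 ∣ Nat.card (normalizer (W : Set X) ⊓ H : Subgroup X) := by
      rw [← hWc]
      exact Subgroup.card_dvd_of_le (le_inf le_normalizer hWH)
    have h2 : 3 ∣ Nat.card (normalizer (W : Set X) ⊓ H : Subgroup X) := by
      have h3 : Nat.card (zpowers c) = 3 := by
        rw [Nat.card_zpowers]
        have : Fact (Nat.Prime 3) := ⟨Nat.prime_three⟩
        exact orderOf_eq_prime hc' hc1'
      rw [← h3]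
      apply Subgroup.card_dvd_of_le
      rw [zpowers_le]
      exact ⟨hcn, hφH _⟩
    have h3 : 12 ∣ Nat.card (normalizer (W : Set X) ⊓ H : Subgroup X) := by
      have := Nat.Coprime.mul_dvd_of_dvd_of_dvd (by decide : Nat.Coprime 4 3) h1 h2
      exact this
    have h4 := Nat.le_of_dvd Nat.card_pos h3
    have h5 : (normalizer (W : Set X) ⊓ H : Subgroup X) = normalizer (W : Set X) :=
      Subgroup.eq_of_le_of_card_ge inf_le_left (hnor.trans h4)
    rw [← h5]; exact inf_le_right
  have hWb : W ≠ ⊥ := by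
    intro h; rw [h, Subgroup.card_bot] at hWc; norm_num at hWc
  have hHc : Nat.card H = 60 := by
    rw [Nat.card_congr e.toEquiv, Nat.card_eq_fintype_card]
    (set_option synthInstance.maxSize 9000 in open scoped Cfsg.Agent.Lib.FastPerm in decide +kernel)
  rcases (hX W hWb (twoP_of_isPGroup Nat.prime_two hW2)).le_iff.1 hle with h | h
  · -- `Y = A5`
    let e' : X ≃* alternatingGroup (Fin 5) :=
      (Subgroup.topEquiv.symm.trans (MulEquiv.subgroupCongr h.symm)).trans e
    have hel := (L.elem hX).1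
    have h1 := alt_five ((e' z : alternatingGroup (Fin 5)) : Equiv.Perm (Fin 5))
      (Equiv.Perm.mem_alternatingGroup.1 (e' z).2)
      (by rw [← Subgroup.coe_mul, ← map_mul, hel z O.hz, map_one, Subgroup.coe_one])
      (by
        intro h2
        have h3 : e' z = 1 := Subtype.ext h2
        rw [← map_one e', e'.injective.eq_iff] at h3
        exact O.hz1 h3)
      ((e' t : alternatingGroup (Fin 5)) : Equiv.Perm (Fin 5))
      (Equiv.Perm.mem_alternatingGroup.1 (e' t).2)
      (by rw [← Subgroup.coe_mul, ← map_mul, O.tz, map_mul, Subgroup.coe_mul])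
    have h2 : e' (t * t) = 1 := by
      rw [map_mul]; exact Subtype.ext h1
    rw [← map_one e', e'.injective.eq_iff] at h2
    have h3 : orderOf t ∣ 2 := orderOf_dvd_of_pow_eq_one (by rw [pow_two]; exact h2)
    rw [O.ord] at h3
    exact O.odd ((Nat.prime_dvd_prime_iff_eq O.prime Nat.prime_two).1 h3)
  · rw [h] at hHc
    omega

section thirteen

variable {F : Type*} [Field F] [Fintype F]

local notation "PSL2" => Matrix.ProjectiveSpecialLinearGroup (Fin 2) F

local notation "SL2" => Matrix.SpecialLinearGroup (Fin 2) F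

open Cfsg.Agent.ClassicalGeometry.PSL2Basic

theorem card_eq_thirteen (hX : PM PSL2) (hodd : Odd (Fintype.card F)) [Nontrivial PSL2] :
    Fintype.card F = 13 := by
  obtain ⟨-, U, g, r, v, z, t, u, s, L, O⟩ := main_simple hX
  have hf2 : Fact (Nat.Prime 2) := ⟨Nat.prime_two⟩
  let PU : Sylow 2 PSL2 := ⟨U, L.two, fun {W} hW hle => O.sylow W hW hle⟩
  have hcard := card_PSL2_odd (F := F) hodd
  have h8 : ¬ 8 ∣ Nat.card PSL2 := by
    intro h
    have h1 : Nat.card (PU : Subgroup PSL2) = 4 := O.card hX L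
    have h2 : 2 ^ 3 ∣ Nat.card (PU : Subgroup PSL2) := PU.pow_dvd_card_of_pow_dvd_card (by norm_num; exact h)
    rw [h1] at h2
    norm_num at h2
  have h5 : ¬ 5 ∣ Fintype.card F * (Fintype.card F ^ 2 - 1) := by
    intro h
    obtain ⟨H, ⟨e⟩⟩ := (Cfsg.Agent.S0804.result (F := F) rfl).2 h
    exact alt_top hX L O e
  have h3F : 3 ∣ Fintype.card F → (3 : F) = 0 := by
    intro h
    obtain ⟨p, hp⟩ := CharP.exists F
    obtain ⟨n, hpp, hn⟩ := FiniteField.card F p
    rw [hn] at h
    have h1 := (Nat.prime_dvd_prime_iff_eq Nat.prime_three hpp).1 (Nat.prime_three.dvd_of_dvd_pow h)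
    subst h1
    exact_mod_cast CharP.cast_eq_zero F 3
  have hnc3 := fun h => not_char_three (F := F) hX (h3F h) hodd
  have hsolv : Nat.card PSL2 ≠ 12 := by
    intro h
    apply not_solv hX (N := ⊤) Subgroup.normal_top top_ne_bot
    apply Cfsg.Agent.S0144.result 2 3 2 1 Nat.prime_two Nat.prime_three
    rw [Subgroup.card_top, h]; norm_num
  have hd11 := fun hq => Cfsg.Agent.S0811.result (F := F) (q := Fintype.card F) rfl hq
  have hd12 := fun hq => Cfsg.Agent.S0812.result (F := F) (q := Fintype.card F) rfl hq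
  have hgt : 1 < Fintype.card F := Fintype.one_lt_card
  generalize Fintype.card F = q at *
  have hne : ∀ k ∈ ({2, 3, 5, 7, 9, 11} : Finset ℕ), q ≠ k := by
    intro k hk hqk
    subst hqk
    simp only [Finset.mem_insert, Finset.mem_singleton] at hk
    rcases hk with rfl | rfl | rfl | rfl | rfl | rfl
    · exact absurd hodd (by decide)
    · exact hsolv (by omega)
    · exact h5 (by norm_num)
    · exact h8 (by omega)
    · exact h5 (by norm_num)
    · exact h5 (by norm_num)
  have hq6 : q ∉ ({2, 3, 5, 7, 9, 11} : Finset ℕ) := fun h => hne q h rfl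
  have hq3 : q ∉ ({2, 7, 9} : Finset ℕ) := by
    intro h
    apply hq6
    simp only [Finset.mem_insert, Finset.mem_singleton] at h ⊢
    (clear * - h; tauto)
  have hgcd : Nat.gcd 2 (q - 1) = 2 := by
    apply Nat.gcd_eq_left
    exact (Nat.Odd.sub_odd hodd odd_one).two_dvd
  obtain ⟨m, hm⟩ := hodd
  simp only [Finset.mem_insert, Finset.mem_singleton, not_or] at hq6
  have h3 : 3 ∣ q ∨ 3 ∣ m ∨ 3 ∣ m + 1 := by
    clear hcard h8 h5 hsolv hq6 hq3 hgcd
    rcases (by omega : m % 3 = 0 ∨ m % 3 = 1 ∨ m % 3 = 2) with h | h | h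
    · exact Or.inr (Or.inl (by omega))
    · exact Or.inl (by omega)
    · exact Or.inr (Or.inr (by omega))
  rcases h3 with h3 | h3 | h3
  · exact (hnc3 h3 (by (clear * - hgt hq6; omega))).elim
  · obtain ⟨H, -, ⟨e⟩⟩ := hd12 (by
      simp only [Finset.mem_insert, Finset.mem_singleton, not_or]; exact hq6)
    rw [hgcd] at e
    have h4 : (q - 1) / 2 = m := by (clear * - hm; omega)
    rw [h4] at e
    have h6 := Nat.le_of_dvd (by norm_num) (dihedral_three hX e h3 (by omega))
    (clear * - hgt hm hq6 h6; omega)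
  · obtain ⟨H, -, ⟨e⟩⟩ := hd11 hq3
    rw [hgcd] at e
    have h4 : (q + 1) / 2 = m + 1 := by omega
    rw [h4] at e
    have h6 := Nat.le_of_dvd (by norm_num) (dihedral_three hX e h3 (by omega))
    (clear * - hgt hm hq6 h6; omega)

end thirteen

end Cfsg.Agent.H546.MaxNor
end

-- part: H546/MaxNorDed
section
/-!
# A finite group of odd order whose cyclic subgroups of prime power order are normal is abelian
-/

set_option autoImplicit false
set_option linter.unusedSectionVars false

namespace Cfsg.Agent.H546.MaxNor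

open Subgroup
open scoped Pointwise

variable {S : Type*} [Group S]

theorem mul_pow_class {x y e : S} (h : y * x = x * y * e) (hxe : x * e = e * x) (hye : y * e = e * y) (n : ℕ) :
    (x * y) ^ n = x ^ n * y ^ n * e ^ (n.choose 2) := by
  have hxe' : Commute x e := hxe
  have hye' : Commute y e := hye
  have h1 : ∀ n : ℕ, y ^ n * x = x * y ^ n * e ^ n := by
    intro n
    induction n with
    | zero => simp
    | succ n ih =>
      calc y ^ (n + 1) * x = y * (y ^ n * x) := by rw [pow_succ']; group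
        _ = y * x * (y ^ n * e ^ n) := by rw [ih]; group
        _ = x * y * (e * y ^ n) * e ^ n := by rw [h]; group
        _ = x * y * (y ^ n * e) * e ^ n := by rw [(hye'.pow_left n).eq]
        _ = x * y ^ (n + 1) * e ^ (n + 1) := by rw [pow_succ' y, pow_succ' e]; group
  induction n with
  | zero => simp
  | succ n ih =>
    have h2 : (n + 1).choose 2 = n + n.choose 2 := by
      rw [Nat.choose_succ_succ' n 1, Nat.choose_one_right]
    rw [pow_succ, ih, h2]
    calc x ^ n * y ^ n * e ^ n.choose 2 * (x * y)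
        = x ^ n * y ^ n * (e ^ n.choose 2 * (x * y)) := by group
      _ = x ^ n * y ^ n * (x * y * e ^ n.choose 2) := by
          rw [((hxe'.mul_left hye').pow_right (n.choose 2)).eq]
      _ = x ^ n * (y ^ n * x) * y * e ^ n.choose 2 := by group
      _ = x ^ n * (x * y ^ n * e ^ n) * y * e ^ n.choose 2 := by rw [h1]
      _ = x ^ n * x * y ^ n * (e ^ n * y) * e ^ n.choose 2 := by group
      _ = x ^ n * x * y ^ n * (y * e ^ n) * e ^ n.choose 2 := by rw [(hye'.pow_right n).eq]
      _ = x ^ (n + 1) * y ^ (n + 1) * e ^ (n + n.choose 2) := by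
          rw [pow_succ x, pow_succ y, pow_add]; group

theorem mem_bottom {p k : ℕ} (hp : p.Prime) {a c : S} (h : orderOf a = p ^ (k + 1)) (hc : c ∈ zpowers a)
    (hcp : c ^ p = 1) : c ∈ zpowers (a ^ p ^ k) := by
  obtain ⟨i, rfl⟩ := mem_zpowers_iff.1 hc
  rw [← zpow_natCast, ← zpow_mul] at hcp
  have h1 : ((orderOf a : ℕ) : ℤ) ∣ i * p := orderOf_dvd_iff_zpow_eq_one.2 hcp
  rw [h, pow_succ] at h1
  push_cast at h1
  have h2 : (p : ℤ) ^ k ∣ i := Int.dvd_of_mul_dvd_mul_right (by exact_mod_cast hp.ne_zero) h1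
  obtain ⟨j, rfl⟩ := h2
  rw [zpow_mul]
  have h3 : a ^ ((p : ℤ) ^ k) = a ^ p ^ k := by
    rw [← zpow_natCast a (p ^ k)]; push_cast; rfl
  rw [h3]
  exact zpow_mem (mem_zpowers _) j

theorem zpowers_bottom [Finite S] {p k : ℕ} (hp : p.Prime) {a c : S} (h : orderOf a = p ^ (k + 1))
    (hc : c ∈ zpowers a) (hcp : c ^ p = 1) (hc1 : c ≠ 1) : zpowers c = zpowers (a ^ p ^ k) := by
  have hf : Fact p.Prime := ⟨hp⟩
  have h1 : orderOf c = p := orderOf_eq_prime hcp hc1
  apply Subgroup.eq_of_le_of_card_ge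
  · rw [zpowers_le]; exact mem_bottom hp h hc hcp
  · rw [Nat.card_zpowers, Nat.card_zpowers, h1, orderOf_pow, h, pow_succ,
      Nat.gcd_eq_right (Dvd.intro p rfl), Nat.mul_div_cancel_left _ (pow_pos hp.pos k)]

theorem ded_aux [Finite S] {p : ℕ} (hp : p.Prime) (hp2 : p ≠ 2)
    (hn : ∀ (x : S) (k : ℕ), orderOf x = p ^ k → (zpowers x).Normal) (N : ℕ) :
    ∀ (a b : S) (k l : ℕ), orderOf a = p ^ k → orderOf b = p ^ l → k + l ≤ N → a * b = b * a := by
  have hf : Fact p.Prime := ⟨hp⟩
  induction N with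
  | zero =>
    intro a b k l ha hb hkl
    have hk : k = 0 := by omega
    rw [hk, pow_zero, orderOf_eq_one_iff] at ha
    rw [ha, one_mul, mul_one]
  | succ N ih =>
    intro a b k l ha hb hkl
    wlog hlk : l ≤ k generalizing a b k l
    · exact (this b a l k hb ha (by omega) (by omega)).symm
    by_contra hab
    rcases Nat.eq_zero_or_pos l with hl | hl
    · rw [hl, pow_zero, orderOf_eq_one_iff] at hb
      apply hab
      rw [hb, one_mul, mul_one]
    obtain ⟨l, rfl⟩ : ∃ l', l = l' + 1 := ⟨l - 1, by omega⟩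
    obtain ⟨k, rfl⟩ : ∃ k', k = k' + 1 := ⟨k - 1, by omega⟩
    set c : S := a * b * a⁻¹ * b⁻¹ with hc
    have hca : c ∈ zpowers a := by
      have h1 := (hn a _ ha).conj_mem a⁻¹ (inv_mem (mem_zpowers a)) b
      have h2 : c = a * (b * a⁻¹ * b⁻¹) := by rw [hc]; group
      rw [h2]; exact mul_mem (mem_zpowers a) h1
    have hcb : c ∈ zpowers b := by
      have h1 := (hn b _ hb).conj_mem b (mem_zpowers b) a
      exact mul_mem h1 (inv_mem (mem_zpowers b))
    have hca' : a * c = c * a := comm_zpowers (x := a) (y := a) rfl a (mem_zpowers a) c hca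
    have hcb' : b * c = c * b := comm_zpowers (x := b) (y := b) rfl b (mem_zpowers b) c hcb
    have hc1 : c ≠ 1 := by
      intro h
      apply hab
      have h1 : a * b * (b * a)⁻¹ = 1 := by rw [← h, hc]; group
      exact mul_inv_eq_one.1 h1
    -- `[a ^ n, b] = c ^ n`
    have hpow : ∀ n : ℕ, a ^ n * b * (a ^ n)⁻¹ = c ^ n * b := by
      intro n
      induction n with
      | zero => simp
      | succ n ihn =>
        have h1 : a ^ (n + 1) * b * (a ^ (n + 1))⁻¹ = a * (a ^ n * b * (a ^ n)⁻¹) * a⁻¹ := by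
          rw [pow_succ']; group
        rw [h1, ihn]
        have h2 : a * (c ^ n * b) * a⁻¹ = c ^ n * (a * b * a⁻¹) := by
          rw [← mul_assoc a, ((show Commute a c from hca').pow_right n).eq]; group
        rw [h2, show a * b * a⁻¹ = c * b by rw [hc]; group, pow_succ]
        group
    have hcp : c ^ p = 1 := by
      have h1 : orderOf (a ^ p) = p ^ k := by
        rw [orderOf_pow, ha, pow_succ, Nat.gcd_eq_right (Dvd.intro_left _ rfl), Nat.mul_div_cancel _ hp.pos]
      have h2 := ih (a ^ p) b k (l + 1) h1 hb (by omega)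
      have h3 := hpow p
      rw [h2, mul_inv_cancel_right] at h3
      exact (mul_eq_right.1 h3.symm)
    have hordc : orderOf c = p := orderOf_eq_prime hcp hc1
    have h1 := zpowers_bottom hp ha hca hcp hc1
    have h2 := zpowers_bottom hp hb hcb hcp hc1
    have h3 : a ^ p ^ k ∈ zpowers (b ^ p ^ l) := by
      rw [← h2, h1]; exact mem_zpowers _
    obtain ⟨j, hj⟩ := (isOfFinOrder_of_finite _).mem_powers_iff_mem_zpowers.2 h3
    change (b ^ p ^ l) ^ j = a ^ p ^ k at hj
    have hpj : ¬ p ∣ j := by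
      rintro ⟨m, rfl⟩
      have h4 : (b ^ p ^ l) ^ p = 1 := by
        rw [← pow_mul, ← pow_succ, ← hb]; exact pow_orderOf_eq_one b
      rw [pow_mul, h4, one_pow] at hj
      rw [← hj, zpowers_one_eq_bot, zpowers_eq_bot] at h1
      exact hc1 h1
    set x : S := (a⁻¹) ^ p ^ (k - l) with hx
    set y : S := b ^ j with hy
    have hxc : x * c = c * x := ((show Commute a c from hca').inv_left.pow_left _).eq
    have hyc : y * c = c * y := ((show Commute b c from hcb').pow_left _).eq
    -- `y x = x y e`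
    set e : S := y⁻¹ * x⁻¹ * y * x with he
    have hyx : y * x = x * y * e := by rw [he]; group
    have hec : e ∈ zpowers c := by
      have h4 := hpow (p ^ (k - l))
      have h5 : a ^ p ^ (k - l) = x⁻¹ := by rw [hx, inv_pow, inv_inv]
      rw [h5] at h4
      have h6 : x⁻¹ * y * x = (x⁻¹ * b * x⁻¹⁻¹) ^ j := by
        rw [conj_pow, inv_inv]
      have h7 : e = y⁻¹ * (x⁻¹ * y * x) := by rw [he]; group
      rw [h7, h6, h4, (show Commute (c ^ p ^ (k - l)) b from ((show Commute b c from hcb').symm.pow_left _)).mul_pow,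
        ← hy]
      have h8 : Commute y⁻¹ ((c ^ p ^ (k - l)) ^ j) := ((show Commute y c from hyc).inv_left.pow_right _).pow_right _
      rw [← mul_assoc, h8.eq, mul_assoc, inv_mul_cancel, mul_one]
      exact pow_mem (pow_mem (mem_zpowers c) _) _
    have hxe : x * e = e * x := by
      obtain ⟨m, hm⟩ := mem_zpowers_iff.1 hec
      rw [← hm]; exact ((show Commute x c from hxc).zpow_right m).eq
    have hye : y * e = e * y := by
      obtain ⟨m, hm⟩ := mem_zpowers_iff.1 hec
      rw [← hm]; exact ((show Commute y c from hyc).zpow_right m).eq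
    have hep : e ^ ((p ^ l).choose 2) = 1 := by
      have h4 : p ∣ (p ^ l).choose 2 := by
        apply hp.dvd_choose_pow (by norm_num)
        intro h
        rcases Nat.eq_zero_or_pos l with h0 | h0
        · rw [h0, pow_zero] at h; norm_num at h
        · have h5 : p ∣ 2 := h ▸ dvd_pow_self p h0.ne'
          exact hp2 ((Nat.prime_dvd_prime_iff_eq hp Nat.prime_two).1 h5)
      obtain ⟨m, hm⟩ := h4
      obtain ⟨i, hi⟩ := mem_zpowers_iff.1 hec
      have h5 : e ^ p = 1 := by
        rw [← hi, ← zpow_natCast, ← zpow_mul, mul_comm, zpow_mul, zpow_natCast, hcp, one_zpow]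
      rw [hm, pow_mul, h5, one_pow]
    have hd : (x * y) ^ p ^ l = 1 := by
      rw [mul_pow_class hyx hxe hye, hep, mul_one]
      have h4 : y ^ p ^ l = a ^ p ^ k := by rw [hy, ← pow_mul, mul_comm, pow_mul, hj]
      have h5 : x ^ p ^ l = (a ^ p ^ k)⁻¹ := by
        rw [hx, ← pow_mul, ← pow_add, inv_pow]
        congr 3
        omega
      rw [h4, h5, inv_mul_cancel]
    obtain ⟨m, hm, hmm⟩ := (Nat.dvd_prime_pow hp).1 (orderOf_dvd_of_pow_eq_one hd)
    have h4 := ih a (x * y) (k + 1) m ha hmm (by omega)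
    -- then `a` commutes with `y = b ^ j`
    have h5 : a * y = y * a := by
      have hax : x * a = a * x := ((Commute.refl a).inv_left.pow_left _).eq
      have h6 : x * (a * y) = x * (y * a) := by
        rw [← mul_assoc, hax, mul_assoc, h4]; group
      exact mul_left_cancel h6
    have h6 : a * b * a⁻¹ = c * b := by rw [hc]; group
    have h7 : (a * b * a⁻¹) ^ j = y := by
      rw [conj_pow, ← hy, h5, mul_inv_cancel_right]
    rw [h6, (show Commute c b from hcb'.symm).mul_pow, ← hy] at h7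
    have h8 : c ^ j = 1 := mul_eq_right.1 h7
    apply hpj
    rw [← hordc]
    exact orderOf_dvd_of_pow_eq_one h8

theorem odd_dedekind [Finite S] (hodd : ¬ 2 ∣ Nat.card S)
    (hn : ∀ (x : S) (p k : ℕ), p.Prime → orderOf x = p ^ k → (zpowers x).Normal) (a b : S) :
    a * b = b * a := by
  have h1 : ∀ (a b : S) (p k q l : ℕ), p.Prime → q.Prime → orderOf a = p ^ k → orderOf b = q ^ l →
      a * b = b * a := by
    intro a b p k q l hp hq ha hb
    by_cases hpq : p = q
    · subst hpq
      by_cases hp2 : p = 2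
      · subst hp2
        rcases Nat.eq_zero_or_pos k with h | h
        · rw [h, pow_zero, orderOf_eq_one_iff] at ha
          rw [ha, one_mul, mul_one]
        · exfalso
          apply hodd
          exact ((dvd_pow_self 2 h.ne').trans (ha ▸ dvd_rfl)).trans (_root_.orderOf_dvd_natCard a)
      · exact ded_aux hp hp2 (fun x k hx => hn x p k hp hx) (k + l) a b k l ha hb le_rfl
    · have hA := hn a p k hp ha
      have hB := hn b q l hq hb
      have h2 : a * b * a⁻¹ * b⁻¹ ∈ zpowers a := by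
        have h1 := hA.conj_mem a⁻¹ (inv_mem (mem_zpowers a)) b
        have h2 : a * b * a⁻¹ * b⁻¹ = a * (b * a⁻¹ * b⁻¹) := by group
        rw [h2]; exact mul_mem (mem_zpowers a) h1
      have h3 : a * b * a⁻¹ * b⁻¹ ∈ zpowers b :=
        mul_mem (hB.conj_mem b (mem_zpowers b) a) (inv_mem (mem_zpowers b))
      have h4 := inf_eq_bot hp hq hpq (isPGroup_zpowers ha) (isPGroup_zpowers hb) h2 h3
      have h5 : a * b * (b * a)⁻¹ = 1 := by rw [← h4]; group
      exact mul_inv_eq_one.1 h5
  have h2 : ∀ (a b : S) (q l : ℕ), q.Prime → orderOf b = q ^ l → a * b = b * a := by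
    intro a b q l hq hb
    by_contra hab
    have hac : a ∉ centralizer ({b} : Set S) := fun h => hab (mem_centralizer_singleton_iff.1 h)
    obtain ⟨h, -, r, v, hr, hv, hh⟩ := exists_ppow (centralizer ({b} : Set S)) (orderOf a) a rfl (orderOf_pos a) hac
    exact hh (mem_centralizer_singleton_iff.2 (h1 h b r v q l hr hq hv hb))
  by_contra hab
  have hac : b ∉ centralizer ({a} : Set S) := fun h => hab (mem_centralizer_singleton_iff.1 h).symm
  obtain ⟨h, -, r, v, hr, hv, hh⟩ := exists_ppow (centralizer ({a} : Set S)) (orderOf b) b rfl (orderOf_pos b) hac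
  exact hh (mem_centralizer_singleton_iff.2 (h2 a h r v hr hv).symm)

end Cfsg.Agent.H546.MaxNor
end

-- part: H546/MaxNorRad
section
/-!
# The quotient by the solvable radical
-/

set_option autoImplicit false
set_option linter.unusedSectionVars false

namespace Cfsg.Agent.H546.MaxNor

open Subgroup
open scoped Pointwise
open Cfsg.Agent.SignalizersComponents.ComponentExists

variable {G : Type*} [Group G]

/-- The data of the solvable radical `R` of a group as in the theorem. -/
structure Rad (R : Subgroup G) : Prop where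
  normal : R.Normal
  solv : Group.IsSolvable R
  max : ∀ N : Subgroup G, N.Normal → Group.IsSolvable N → N ≤ R
  ne : R ≠ ⊤
  nor : ∀ H : Subgroup G, TwoP H → ¬ H ≤ R → IsCoatom (normalizer (H : Set G))

theorem card_of_twoP {n : ℕ} (hn : n ≠ 0) {p q : ℕ} (h : ∀ r : ℕ, r.Prime → r ∣ n → r = p ∨ r = q) :
    ∃ a b, n = p ^ a * q ^ b := by
  by_cases hp : p.Prime
  · refine ⟨n.factorization p, (n / p ^ n.factorization p).primeFactorsList.length, ?_⟩
    have h1 : n / p ^ n.factorization p ≠ 0 := by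
      have := Nat.ordCompl_pos p hn
      omega
    have h2 : n / p ^ n.factorization p = q ^ (n / p ^ n.factorization p).primeFactorsList.length := by
      apply Nat.eq_prime_pow_of_unique_prime_dvd h1
      intro d hd hdd
      rcases h d hd (hdd.trans (Nat.ordCompl_dvd n p)) with h3 | h3
      · subst h3
        exact absurd hdd (Nat.not_dvd_ordCompl hp hn)
      · exact h3
    rw [← h2]
    exact (Nat.ordProj_mul_ordCompl_eq_self n p).symm
  · refine ⟨0, n.primeFactorsList.length, ?_⟩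
    rw [pow_zero, one_mul]
    apply Nat.eq_prime_pow_of_unique_prime_dvd hn
    intro d hd hdd
    rcases h d hd hdd with h3 | h3
    · subst h3; exact absurd hd hp
    · exact h3

theorem solv_of_twoP [Finite G] {H : Subgroup G} (hH : TwoP H) : Group.IsSolvable H := by
  obtain ⟨p, q, hp, hq, h⟩ := hH
  obtain ⟨a, b, hab⟩ := card_of_twoP (Nat.card_pos (α := H)).ne' h
  exact Cfsg.Agent.S0144.result p q a b hp hq hab

theorem exists_rad [Finite G] (hG : ¬ Group.IsSolvable G)
    (h : ∀ H : Subgroup G, ¬ H.IsSubnormal → TwoP H → IsCoatom (normalizer (H : Set G))) :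
    ∃ R : Subgroup G, Rad R := by
  obtain ⟨R, hRc, hRs, hRm⟩ := exists_solvableRadical G
  refine ⟨R, ⟨inferInstance, hRs, hRm, ?_, ?_⟩⟩
  · intro htop
    apply hG
    rw [htop] at hRs
    exact Group.isSolvable_of_surjective (f := (Subgroup.topEquiv (G := G)).toMonoidHom)
      Subgroup.topEquiv.surjective
  · intro H hH hHR
    refine h H ?_ hH
    intro hsub
    obtain ⟨N, hN, hNs, hHN⟩ := exists_normal_isSolvable_of_isSubnormal hsub (solv_of_twoP hH)
    exact hHR (hHN.trans (hRm N hN hNs))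

/-- a solvable subgroup not contained in the radical generates with it a subgroup which is not normal -/
theorem Rad.not_normal [Finite G] {R : Subgroup G} (D : Rad R) {H : Subgroup G} (hs : Group.IsSolvable H)
    (hH : ¬ H ≤ R) : ¬ (H ⊔ R).Normal := by
  intro hn
  have := D.normal
  exact hH (le_sup_left.trans (D.max _ hn (isSolvable_sup_of_normal hs D.solv)))

theorem Rad.nor_sup [Finite G] {R : Subgroup G} (D : Rad R) {H : Subgroup G} (h2 : TwoP H)
    (hH : ¬ H ≤ R) : normalizer (H : Set G) = normalizer ((H ⊔ R : Subgroup G) : Set G) := by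
  have hn := D.normal
  have hle : normalizer (H : Set G) ≤ normalizer ((H ⊔ R : Subgroup G) : Set G) := by
    intro g hg
    rw [mem_normalizer_iff_map_conj_eq] at hg ⊢
    rw [Subgroup.map_sup, hg]
    congr 1
    exact mem_normalizer_iff_map_conj_eq.1 (by rw [Subgroup.normalizer_eq_top R]; exact mem_top g)
  rcases (D.nor H h2 hH).le_iff.1 hle with h | h
  · exact absurd (Subgroup.normalizer_eq_top_iff.1 h) (D.not_normal (solv_of_twoP h2) hH)
  · exact h.symm

theorem Rad.le_nor [Finite G] {R : Subgroup G} (D : Rad R) {H : Subgroup G} (h2 : TwoP H)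
    (hH : ¬ H ≤ R) : R ≤ normalizer (H : Set G) := by
  rw [D.nor_sup h2 hH]
  exact le_sup_right.trans le_normalizer

theorem isCoatom_of_comap {Y : Type*} [Group Y] {f : G →* Y} (hf : Function.Surjective f) {K : Subgroup Y}
    (h : IsCoatom (K.comap f)) : IsCoatom K := by
  refine ⟨fun htop => h.1 (by rw [htop, Subgroup.comap_top]), fun L hL => ?_⟩
  have h6 : K.comap f < L.comap f := (Subgroup.comap_lt_comap_of_surjective hf).2 hL
  rw [← Subgroup.map_comap_eq_self_of_surjective hf L, h.2 _ h6, Subgroup.map_top_of_surjective _ hf]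

theorem Rad.pm [Finite G] {R : Subgroup G} (D : Rad R) [R.Normal] : PM (G ⧸ R) := by
  intro Hb hHb hHb2
  have hπ : Function.Surjective (QuotientGroup.mk' R) := QuotientGroup.mk'_surjective R
  set π := QuotientGroup.mk' R with hpi
  set H1 : Subgroup G := Hb.comap π with hH1
  have hRH1 : R ≤ H1 := by
    intro x hx
    change π x ∈ Hb
    have h1 : π x = 1 := (QuotientGroup.eq_one_iff x).2 hx
    rw [h1]; exact one_mem _
  have hmap : H1.map π = Hb := Subgroup.map_comap_eq_self_of_surjective hπ Hb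
  have hRs0 := D.solv
  have hRs : Group.IsSolvable (R.subgroupOf H1) :=
    Group.isSolvable_of_surjective (f := (Subgroup.subgroupOfEquivOfLe hRH1).symm.toMonoidHom)
      (Subgroup.subgroupOfEquivOfLe hRH1).symm.surjective
  let ψ : H1 →* G ⧸ R := π.comp H1.subtype
  have hψr : ψ.range = Hb := by
    rw [MonoidHom.range_comp, Subgroup.range_subtype, hmap]
  have hψk : ψ.ker = R.subgroupOf H1 := by
    rw [← MonoidHom.comap_ker, QuotientGroup.ker_mk']; rfl
  have hsol : Group.IsSolvable H1 := by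
    have hHbs : Group.IsSolvable ψ.range := by rw [hψr]; exact solv_of_twoP hHb2
    have hks : Group.IsSolvable ψ.ker := by rw [hψk]; exact hRs
    rw [Group.isSolvable_iff_subgroup_quotient ψ.ker]
    exact ⟨hks, Group.isSolvable_of_surjective (f := (QuotientGroup.quotientKerEquivRange ψ).symm.toMonoidHom)
      (QuotientGroup.quotientKerEquivRange ψ).symm.surjective⟩
  obtain ⟨p, q, hp, hq, hpq⟩ := hHb2
  have hN0 : Nat.card H1 ≠ 0 := Nat.card_pos.ne'
  set N := Nat.card H1 with hN
  set N1 := N / p ^ N.factorization p with hN1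
  have hN1' : N1 ≠ 0 := (Nat.ordCompl_pos p hN0).ne'
  set N2 := N1 / q ^ N1.factorization q with hN2
  have hN2' : N2 ≠ 0 := (Nat.ordCompl_pos q hN1').ne'
  have hNe : N = (p ^ N.factorization p * q ^ N1.factorization q) * N2 := by
    rw [mul_assoc, hN2, Nat.ordProj_mul_ordCompl_eq_self, hN1, Nat.ordProj_mul_ordCompl_eq_self]
  have hpN2 : ¬ p ∣ N2 := fun h => Nat.not_dvd_ordCompl hp hN0 (h.trans (Nat.ordCompl_dvd N1 q))
  have hqN2 : ¬ q ∣ N2 := Nat.not_dvd_ordCompl hq hN1'
  have hcop : (p ^ N.factorization p * q ^ N1.factorization q).Coprime N2 :=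
    Nat.Coprime.mul_left (Nat.Coprime.pow_left _ ((Nat.Prime.coprime_iff_not_dvd hp).2 hpN2))
      (Nat.Coprime.pow_left _ ((Nat.Prime.coprime_iff_not_dvd hq).2 hqN2))
  obtain ⟨X0, hX0⟩ := Cfsg.Agent.S0003.result _ _ hNe hcop
  have hX0i : X0.index = N2 := by
    have h1 := Subgroup.card_mul_index X0
    rw [hX0] at h1
    have h2 : 0 < p ^ N.factorization p * q ^ N1.factorization q :=
      Nat.mul_pos (pow_pos hp.pos _) (pow_pos hq.pos _)
    exact Nat.eq_of_mul_eq_mul_left h2 (h1.trans hNe)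
  have hRi : (R.subgroupOf H1).index = Nat.card Hb := by
    rw [← hψk, Subgroup.index_ker, hψr]
  have hsup : X0 ⊔ R.subgroupOf H1 = ⊤ := by
    rw [← Subgroup.index_eq_one]
    by_contra hne
    obtain ⟨s, hs, hsd⟩ := Nat.exists_prime_and_dvd hne
    have h1 : s ∣ N2 := by
      rw [← hX0i]; exact hsd.trans (Subgroup.index_dvd_of_le le_sup_left)
    have h2 : s ∣ Nat.card Hb := by
      rw [← hRi]; exact hsd.trans (Subgroup.index_dvd_of_le le_sup_right)
    rcases hpq s hs h2 with h3 | h3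
    · exact hpN2 (h3 ▸ h1)
    · exact hqN2 (h3 ▸ h1)
  set X1 : Subgroup G := X0.map H1.subtype with hX1
  have hsup' : X1 ⊔ R = H1 := by
    have h1 := congrArg (fun K => Subgroup.map H1.subtype K) hsup
    simp only [Subgroup.map_sup] at h1
    rw [Subgroup.subgroupOf_map_subtype, inf_eq_left.2 hRH1, ← MonoidHom.range_eq_map,
      Subgroup.range_subtype] at h1
    exact h1
  have hX1c : Nat.card X1 = p ^ N.factorization p * q ^ N1.factorization q := by
    rw [← hX0]; exact Subgroup.card_map_of_injective H1.subtype_injective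
  have hX1t : TwoP X1 := by
    refine ⟨p, q, hp, hq, fun r hr hd => ?_⟩
    rw [hX1c] at hd
    rcases (Nat.Prime.dvd_mul hr).1 hd with h | h
    · exact Or.inl ((Nat.prime_dvd_prime_iff_eq hr hp).1 (hr.dvd_of_dvd_pow h))
    · exact Or.inr ((Nat.prime_dvd_prime_iff_eq hr hq).1 (hr.dvd_of_dvd_pow h))
  have hX1R : ¬ X1 ≤ R := by
    intro h
    apply hHb
    rw [sup_eq_right.2 h] at hsup'
    rw [← hmap, ← hsup', eq_bot_iff]
    rintro _ ⟨x, hx, rfl⟩
    rw [Subgroup.mem_bot]
    exact (QuotientGroup.eq_one_iff x).2 hx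
  have h1 := D.nor X1 hX1t hX1R
  rw [D.nor_sup hX1t hX1R, hsup'] at h1
  apply isCoatom_of_comap hπ
  rw [Subgroup.comap_normalizer_eq_of_surjective Hb hπ]
  exact h1

theorem psl_thirteen {F : Type*} [Field F] [Fintype F] (hF : Fintype.card F = 13) :
    Nonempty (Matrix.ProjectiveSpecialLinearGroup (Fin 2) F ≃*
      Matrix.ProjectiveSpecialLinearGroup (Fin 2) (ZMod 13)) := by
  have hfact : Fact (Nat.Prime 13) := ⟨by norm_num⟩
  let e : Matrix.ProjectiveSpecialLinearGroup (Fin 2) (ZMod 13) ≃*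
      Matrix.ProjectiveSpecialLinearGroup (Fin 2) F :=
    Cfsg.Agent.LieClassical.FieldTransfer.pslCongr (ZMod.ringEquivOfPrime F (by norm_num) hF)
  exact ⟨e.symm⟩

theorem sl_thirteen {F : Type*} [Field F] [Fintype F] (hF : Fintype.card F = 13) :
    Nonempty (Matrix.SpecialLinearGroup (Fin 2) F ≃* Matrix.SpecialLinearGroup (Fin 2) (ZMod 13)) := by
  have hfact : Fact (Nat.Prime 13) := ⟨by norm_num⟩
  let e : Matrix.SpecialLinearGroup (Fin 2) (ZMod 13) ≃* Matrix.SpecialLinearGroup (Fin 2) F :=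
    Cfsg.Agent.LieClassical.FieldTransfer.slCongr (ZMod.ringEquivOfPrime F (by norm_num) hF)
  exact ⟨e.symm⟩

/-- the quotient by the solvable radical is `PSL(2, 13)` -/
theorem Rad.psl [Finite G] {R : Subgroup G} (D : Rad R) [R.Normal] :
    IsSimpleGroup (G ⧸ R) ∧
    (∃ (U : Subgroup (G ⧸ R)) (g : G ⧸ R) (r v : ℕ) (z t u : G ⧸ R) (s : ℕ), Loc U g r v ∧ Out U g z t u s) ∧
    ∃ (F : Type) (_ : Field F) (_ : Fintype F), Fintype.card F = 13 ∧
      Nonempty ((G ⧸ R) ≃* Matrix.ProjectiveSpecialLinearGroup (Fin 2) F) := by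
  have hnt : Nontrivial (G ⧸ R) := by
    obtain ⟨x, hx⟩ : ∃ x, x ∉ R := by
      by_contra h
      push Not at h
      exact D.ne ((Subgroup.eq_top_iff' R).2 h)
    exact ⟨⟨(QuotientGroup.mk x : G ⧸ R), 1, fun h => hx ((QuotientGroup.eq_one_iff x).1 h)⟩⟩
  obtain ⟨hs, U, g, r, v, z, t, u, s, L, O⟩ := main_simple D.pm
  obtain ⟨F, iF, iFF, hodd, ⟨e⟩⟩ := exists_psl D.pm L O
  have hnt' : Nontrivial (Matrix.ProjectiveSpecialLinearGroup (Fin 2) F) := e.injective.nontrivial
  have hF := card_eq_thirteen (PM.congr e D.pm) hodd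
  exact ⟨hs, ⟨U, g, r, v, z, t, u, s, L, O⟩, F, iF, iFF, hF, ⟨e⟩⟩

end Cfsg.Agent.H546.MaxNor
end

-- part: H546/MaxNorLift
section
/-!
# The perfect residual centralizes the solvable radical
-/

set_option autoImplicit false
set_option linter.unusedSectionVars false

namespace Cfsg.Agent.H546.MaxNor

open Subgroup
open scoped Pointwise
open Cfsg.Agent.SignalizersComponents.ComponentExists

variable {G : Type*} [Group G]

theorem dvd_of_zpow_mem {p k : ℕ} (hp : p.Prime) {R : Subgroup G} {x : G} (hx : x ∉ R)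
    (hxp : x ^ p ^ k = 1) {i : ℤ} (hi : x ^ i ∈ R) : (p : ℤ) ∣ i := by
  by_contra hcon
  have h1 : IsCoprime (p : ℤ) i := (Nat.prime_iff_prime_int.1 hp).coprime_iff_not_dvd.2 hcon
  have h2 : IsCoprime ((p : ℤ) ^ k) i := h1.pow_left
  obtain ⟨a, b, hab⟩ := h2
  apply hx
  have h3 : x ^ ((p : ℤ) ^ k) = 1 := by
    rw [← Nat.cast_pow, zpow_natCast, hxp]
  have h4 : x = (x ^ i) ^ b := by
    calc x = x ^ (a * (p : ℤ) ^ k + b * i) := by rw [hab, zpow_one]
      _ = (x ^ ((p : ℤ) ^ k)) ^ a * (x ^ i) ^ b := by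
        rw [zpow_add, ← zpow_mul, ← zpow_mul, mul_comm a, mul_comm b]
      _ = (x ^ i) ^ b := by rw [h3, one_zpow, one_mul]
  rw [h4]
  exact zpow_mem hi b

theorem comm_of_pow [Finite G] {p k r l : ℕ} (hp : p.Prime) (hr : r.Prime) (hpr : p ≠ r) {x y : G}
    (hx : orderOf x = p ^ k) (hy : orderOf y = r ^ l) {m : ℤ} (h : y * x * y⁻¹ = x ^ (1 + p * m)) :
    x * y = y * x := by
  have h1 : ∀ n : ℕ, y ^ n * x * (y ^ n)⁻¹ = x ^ ((1 + p * m) ^ n) := by
    intro n
    induction n with
    | zero => simp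
    | succ n ih =>
      have h2 : y ^ (n + 1) * x * (y ^ (n + 1))⁻¹ = y ^ n * (y * x * y⁻¹) * (y ^ n)⁻¹ := by
        rw [pow_succ]; group
      rw [h2, h, ← conj_zpow, ih, ← zpow_mul, pow_succ]
  have h2 : y ^ p ^ k * x * (y ^ p ^ k)⁻¹ = x := by
    rw [h1]
    have h3 : ((p : ℤ) ^ (k + 1)) ∣ (1 + p * m) ^ p ^ k - 1 ^ p ^ k :=
      dvd_sub_pow_of_dvd_sub (by rw [add_sub_cancel_left]; exact Dvd.intro m rfl) k
    rw [one_pow] at h3
    have h4 : ((orderOf x : ℕ) : ℤ) ∣ (1 + p * m) ^ p ^ k - 1 := by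
      rw [hx]; push_cast
      exact (pow_dvd_pow _ (Nat.le_succ k)).trans h3
    have h5 : x ^ ((1 + (p : ℤ) * m) ^ p ^ k - 1) = 1 := orderOf_dvd_iff_zpow_eq_one.1 h4
    rw [zpow_sub, zpow_one] at h5
    exact mul_inv_eq_one.1 h5
  have h3 : (p ^ k).Coprime (orderOf y) := by
    rw [hy]; exact Nat.Coprime.pow _ _ ((Nat.coprime_primes hp hr).2 hpr)
  obtain ⟨n, hn⟩ := exists_pow_eq_self_of_coprime h3
  have h4 : Commute (y ^ p ^ k) x := mul_inv_eq_iff_eq_mul.1 h2
  have h5 := h4.pow_left n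
  rw [hn] at h5
  exact h5.symm

/-- elements of coprime prime power orders outside and inside the radical commute -/
theorem Rad.comm [Finite G] {R : Subgroup G} (D : Rad R) {p k r l : ℕ} (hp : p.Prime) (hr : r.Prime)
    (hpr : p ≠ r) {x y : G} (hx : orderOf x = p ^ k) (hxR : x ∉ R) (hyR : y ∈ R) (hy : orderOf y = r ^ l) :
    x * y = y * x := by
  have hn := D.normal
  have hle : ¬ zpowers x ≤ R := by rw [zpowers_le]; exact hxR
  have h1 := D.le_nor (twoP_of_isPGroup hp (isPGroup_zpowers hx)) hle hyR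
  obtain ⟨i, hi⟩ := mem_zpowers_iff.1 (conj_mem h1 (mem_zpowers x))
  have h2 : x ^ (i - 1) ∈ R := by
    rw [zpow_sub, zpow_one, hi]
    have h3 : y * x * y⁻¹ * x⁻¹ = y * (x * y⁻¹ * x⁻¹) := by group
    rw [h3]
    exact mul_mem hyR (hn.conj_mem _ (inv_mem hyR) x)
  obtain ⟨m, hm⟩ := dvd_of_zpow_mem hp hxR (by rw [← hx]; exact pow_orderOf_eq_one x) h2
  refine comm_of_pow hp hr hpr hx hy (m := m) ?_
  rw [← hi, ← hm]
  congr 1
  ring

/-- there is a `p`-element outside a normal subgroup of index divisible by `p` -/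
theorem exists_lift [Finite G] {R : Subgroup G} {p : ℕ} (hp : p.Prime) (hd : p ∣ R.index) :
    ∃ (x : G) (k : ℕ), orderOf x = p ^ k ∧ x ∉ R := by
  have hf : Fact p.Prime := ⟨hp⟩
  let P : Sylow p G := default
  have h1 : ¬ (P : Subgroup G) ≤ R := by
    intro h
    exact P.not_dvd_index (hd.trans (Subgroup.index_dvd_of_le h))
  obtain ⟨x, hxP, hxR⟩ := Set.not_subset.1 h1
  obtain ⟨k, hk⟩ := IsPGroup.iff_orderOf.1 P.isPGroup' ⟨x, hxP⟩
  exact ⟨x, k, by rw [← hk]; exact (orderOf_submonoid (⟨x, hxP⟩ : (P : Subgroup G))), hxR⟩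

/-- a perfect normal subgroup `N` with solvable quotient -/
theorem exists_residual (G : Type*) [Group G] [Finite G] : ∃ N : Subgroup G, N.Normal ∧ ⁅N, N⁆ = N ∧
    (Group.IsSolvable N → Group.IsSolvable G) ∧
    ∀ M : Subgroup G, M.Normal → ∀ R : Subgroup G, Group.IsSolvable R → M ⊔ R = ⊤ → N ≤ M := by
  obtain ⟨N, ⟨n, hn⟩, hmin⟩ := Set.Finite.exists_minimalFor (fun W : Subgroup G => Nat.card W)
    {W : Subgroup G | ∃ n, derivedSeries G n = W} (Set.toFinite _) ⟨⊤, 0, rfl⟩
  have hperf : ⁅N, N⁆ = N := by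
    apply Subgroup.eq_of_le_of_card_ge
    · have : N.Normal := by rw [← hn]; infer_instance
      exact Subgroup.commutator_le_left N N
    · refine hmin (j := ⁅N, N⁆) ⟨n + 1, ?_⟩ ?_
      · rw [derivedSeries_succ, hn]
      · have : N.Normal := by rw [← hn]; infer_instance
        exact Subgroup.card_le_of_le (Subgroup.commutator_le_left N N)
  have hall : ∀ k, N ≤ derivedSeries G k := by
    intro k
    induction k with
    | zero => exact le_top
    | succ k ih =>
      rw [derivedSeries_succ, ← hperf]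
      exact Subgroup.commutator_mono ih ih
  refine ⟨N, by rw [← hn]; infer_instance, hperf, ?_, ?_⟩
  · intro hs
    have hb : N = ⊥ := by
      by_contra hne
      have : Nontrivial N := (Subgroup.nontrivial_iff_ne_bot N).2 hne
      have h1 : commutator N < ⊤ := Group.IsSolvable.commutator_lt_top_of_nontrivial N
      have h2 : (commutator N).map N.subtype < (⊤ : Subgroup N).map N.subtype :=
        (Subgroup.map_lt_map_iff_of_injective N.subtype_injective).2 h1
      rw [Subgroup.map_subtype_commutator, hperf, ← MonoidHom.range_eq_map, Subgroup.range_subtype] at h2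
      exact lt_irrefl _ h2
    exact ⟨⟨n, by rw [hn, hb]⟩⟩
  · intro M hM R hR hMR
    have hsol : Group.IsSolvable (G ⧸ M) := by
      refine Group.isSolvable_of_surjective (f := (QuotientGroup.mk' M).comp R.subtype) ?_
      intro y
      obtain ⟨g, rfl⟩ := QuotientGroup.mk'_surjective M y
      have h1 : g ∈ M ⊔ R := by rw [hMR]; exact mem_top g
      obtain ⟨m, hm, r, hr, rfl⟩ := (mem_sup_nor (A := M) (B := R)
        (by rw [Subgroup.normalizer_eq_top M]; exact le_top)).1 h1
      refine ⟨⟨r, hr⟩, ?_⟩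
      change QuotientGroup.mk' M r = QuotientGroup.mk' M (m * r)
      rw [map_mul, show QuotientGroup.mk' M m = 1 from (QuotientGroup.eq_one_iff m).2 hm, one_mul]
    obtain ⟨k, hk⟩ := hsol.solvable
    have h1 := (Subgroup.map_mono (f := QuotientGroup.mk' M) (hall k)).trans
      (map_derivedSeries_le_derivedSeries (QuotientGroup.mk' M) k)
    rw [hk, le_bot_iff, Subgroup.map_eq_bot_iff, QuotientGroup.ker_mk'] at h1
    exact h1

theorem Rad.sup [Finite G] {R : Subgroup G} [hRn : R.Normal] (hs : IsSimpleGroup (G ⧸ R))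
    {K : Subgroup G} (hK : K.Normal) (hKR : ¬ K ≤ R) : K ⊔ R = ⊤ := by
  have hπ : Function.Surjective (QuotientGroup.mk' R) := QuotientGroup.mk'_surjective R
  have h1 : (K.map (QuotientGroup.mk' R)).Normal := hK.map _ hπ
  rcases hs.eq_bot_or_eq_top_of_normal _ h1 with h | h
  · rw [Subgroup.map_eq_bot_iff, QuotientGroup.ker_mk'] at h
    exact absurd h hKR
  · have h2 := congrArg (Subgroup.comap (QuotientGroup.mk' R)) h
    rw [Subgroup.comap_map_eq, QuotientGroup.ker_mk', Subgroup.comap_top] at h2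
    exact h2

/-- the residual centralizes the radical -/
theorem Rad.cent [Finite G] {R : Subgroup G} (D : Rad R) [R.Normal] (hs : IsSimpleGroup (G ⧸ R))
    (h3 : 3 ∣ R.index) (h7 : 7 ∣ R.index) {N : Subgroup G}
    (hN : ∀ M : Subgroup G, M.Normal → ∀ R : Subgroup G, Group.IsSolvable R → M ⊔ R = ⊤ → N ≤ M) :
    ∀ x ∈ N, ∀ y ∈ R, x * y = y * x := by
  have hn := D.normal
  have key : ∀ r : ℕ, r.Prime → ∀ x ∈ N, ∀ y ∈ R, ∀ l, orderOf y = r ^ l → x * y = y * x := by
    intro r hr
    let C : Subgroup G :=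
      { carrier := {x | ∀ y ∈ R, ∀ l, orderOf y = r ^ l → x * y = y * x}
        one_mem' := by intro y _ _ _; rw [one_mul, mul_one]
        mul_mem' := by
          intro a b ha hb y hy l hl
          rw [mul_assoc, hb y hy l hl, ← mul_assoc, ha y hy l hl, mul_assoc]
        inv_mem' := by
          intro a ha y hy l hl
          exact ((show Commute a y from ha y hy l hl).inv_left).eq }
    have hCn : C.Normal := by
      refine ⟨fun x hx g y hy l hl => ?_⟩
      have h1 : g⁻¹ * y * g ∈ R := by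
        have := hn.conj_mem y hy g⁻¹
        rwa [inv_inv] at this
      have h2 : orderOf (g⁻¹ * y * g) = r ^ l := by
        rw [← hl]
        have h4 : g⁻¹ * y * g = MulAut.conj g⁻¹ y := by
          rw [MulAut.conj_apply, inv_inv]
        rw [h4]
        exact MulEquiv.orderOf_eq (MulAut.conj g⁻¹) y
      have h4 := hx _ h1 l h2
      calc g * x * g⁻¹ * y = g * (x * (g⁻¹ * y * g)) * g⁻¹ := by group
        _ = g * ((g⁻¹ * y * g) * x) * g⁻¹ := by rw [h4]
        _ = y * (g * x * g⁻¹) := by group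
    have hCR : ¬ C ≤ R := by
      have : ∃ p : ℕ, p.Prime ∧ p ≠ r ∧ p ∣ R.index := by
        by_cases hr3 : r = 3
        · exact ⟨7, by norm_num, by omega, h7⟩
        · exact ⟨3, by norm_num, fun h => hr3 h.symm, h3⟩
      obtain ⟨p, hp, hpr, hpd⟩ := this
      obtain ⟨x, k, hx, hxR⟩ := exists_lift hp hpd
      intro hle
      exact hxR (hle (fun y hy l hl => D.comm hp hr hpr hx hxR hy hl))
    have h1 := Rad.sup hs hCn hCR
    intro x hx
    exact hN C hCn R D.solv h1 hx
  intro x hx y hy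
  by_contra hxy
  have h1 : y ∉ centralizer ({x} : Set G) := fun h => hxy (mem_centralizer_singleton_iff.1 h).symm
  obtain ⟨h, hh, r, v, hr, hv, hhC⟩ := exists_ppow (centralizer ({x} : Set G)) (orderOf y) y rfl (orderOf_pos y) h1
  apply hhC
  rw [mem_centralizer_singleton_iff]
  exact (key r hr x hx h ((zpowers_le.2 hy) hh) v hv).symm

end Cfsg.Agent.H546.MaxNor
end

-- part: H546/MaxNorRes
section
/-!
# The structure of the perfect residual
-/

set_option autoImplicit false
set_option linter.unusedSectionVars false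

namespace Cfsg.Agent.H546.MaxNor

open Subgroup
open scoped Pointwise
open Cfsg.Agent.SignalizersComponents.ComponentExists

variable {G : Type*} [Group G]

/-- The data of the perfect residual `N`. -/
structure Res (R N : Subgroup G) : Prop where
  normal : N.Normal
  perf : ⁅N, N⁆ = N
  cent : ∀ x ∈ N, ∀ y ∈ R, x * y = y * x
  sup : N ⊔ R = ⊤

theorem Res.struct [Finite G] {R N : Subgroup G} [R.Normal] (hs : IsSimpleGroup (G ⧸ R)) (E : Res R N) {F : Type} [Field F] [Fintype F]
    (hF : Fintype.card F = 13) (e : (G ⧸ R) ≃* Matrix.ProjectiveSpecialLinearGroup (Fin 2) F) :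
    (Nonempty (N ≃* Matrix.ProjectiveSpecialLinearGroup (Fin 2) (ZMod 13)) ∨
      Nonempty (N ≃* Matrix.SpecialLinearGroup (Fin 2) (ZMod 13))) ∧
    IsPGroup 2 (N ⊓ R : Subgroup G) ∧ ∃ a, Nat.card N = 2 ^ a * 1092 := by
  have hodd : Odd (Fintype.card F) := by rw [hF]; decide
  have hNn := E.normal
  have hcard : Nat.card (Matrix.ProjectiveSpecialLinearGroup (Fin 2) F) = 1092 := by
    have h1 := Cfsg.Agent.ClassicalGeometry.PSL2Basic.card_PSL2_odd (F := F) hodd
    rw [hF] at h1
    omega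
  let f : N →* Matrix.ProjectiveSpecialLinearGroup (Fin 2) F :=
    e.toMonoidHom.comp ((QuotientGroup.mk' R).comp N.subtype)
  have hf : Function.Surjective f := by
    intro y
    obtain ⟨g, hg⟩ := QuotientGroup.mk'_surjective R (e.symm y)
    have h1 : g ∈ N ⊔ R := by rw [E.sup]; exact mem_top g
    obtain ⟨n, hn, r, hr, rfl⟩ := (mem_sup_nor (A := N) (B := R)
      (by rw [Subgroup.normalizer_eq_top N]; exact le_top)).1 h1
    refine ⟨⟨n, hn⟩, ?_⟩
    change e (QuotientGroup.mk' R n) = y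
    rw [map_mul, show QuotientGroup.mk' R r = 1 from (QuotientGroup.eq_one_iff r).2 hr, mul_one] at hg
    rw [hg, e.apply_symm_apply]
  have hk : f.ker = R.subgroupOf N := by
    ext x
    rw [MonoidHom.mem_ker, Subgroup.mem_subgroupOf]
    change e (QuotientGroup.mk' R (x : G)) = 1 ↔ _
    rw [EmbeddingLike.map_eq_one_iff]
    exact QuotientGroup.eq_one_iff (x : G)
  have hkc : f.ker ≤ center N := by
    intro x hx
    rw [hk, Subgroup.mem_subgroupOf] at hx
    rw [mem_center_iff]
    intro y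
    exact Subtype.ext (E.cent y y.2 x hx)
  have hL : commutator N = ⊤ := by
    apply Subgroup.map_injective N.subtype_injective
    rw [Subgroup.map_subtype_commutator, E.perf, ← MonoidHom.range_eq_map, Subgroup.range_subtype]
  have hnd : ∀ p : ℕ, p.Prime → p ∣ Nat.card f.ker → p = 2 := by
    intro p hp hpd
    by_contra hp2
    have hfp : Fact p.Prime := ⟨hp⟩
    exact Cfsg.Agent.Lib.PSL2Mult.not_dvd_ker hodd (by rw [hF]; norm_num) (by rw [hF]; norm_num) hf hkc hL hp2 hpd
  have hkcard : Nat.card f.ker = 2 ^ (Nat.card f.ker).primeFactorsList.length :=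
    Nat.eq_prime_pow_of_unique_prime_dvd Nat.card_pos.ne' (fun {d} hd hdd => hnd d hd hdd)
  set a := (Nat.card f.ker).primeFactorsList.length with ha
  have hk2 : IsPGroup 2 f.ker := IsPGroup.of_card hkcard
  have hNcard : Nat.card N = 2 ^ a * 1092 := by
    rw [← hkcard, ← hcard, ← Subgroup.card_mul_index f.ker, Subgroup.index_ker,
      MonoidHom.range_eq_top.2 hf, Subgroup.card_top]
  -- the center
  have hnt : Nontrivial (Matrix.ProjectiveSpecialLinearGroup (Fin 2) F) :=
    Finite.one_lt_card_iff_nontrivial.1 (by rw [hcard]; norm_num)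
  have hs' : IsSimpleGroup (Matrix.ProjectiveSpecialLinearGroup (Fin 2) F) :=
    IsSimpleGroup.isSimpleGroup_of_surjective e.toMonoidHom e.surjective
  have hcent : center (Matrix.ProjectiveSpecialLinearGroup (Fin 2) F) = ⊥ := by
    rcases hs'.eq_bot_or_eq_top_of_normal (center _) inferInstance with h | h
    · exact h
    · exfalso
      have h1 : commutator N ≤ f.ker := by
        rw [commutator_def, Subgroup.commutator_le]
        intro x _ y _
        rw [MonoidHom.mem_ker, map_commutatorElement, commutatorElement_eq_one_iff_mul_comm]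
        exact (mem_center_iff.1 (h ▸ mem_top (f y) : f y ∈ center _) (f x))
      rw [hL, top_le_iff] at h1
      have h2 : Nat.card f.ker = Nat.card N := by rw [h1, Subgroup.card_top]
      rw [← h2, hkcard] at hNcard
      have h3 : 0 < 2 ^ a := pow_pos (by norm_num) a
      omega
  have hck : center N = f.ker := by
    apply le_antisymm _ hkc
    intro x hx
    rw [MonoidHom.mem_ker, ← Subgroup.mem_bot, ← hcent, mem_center_iff]
    intro y
    obtain ⟨w, rfl⟩ := hf y
    rw [← map_mul, ← map_mul, mem_center_iff.1 hx w]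
  refine ⟨?_, ?_, a, hNcard⟩
  · have e' : N ⧸ center N ≃* Matrix.ProjectiveSpecialLinearGroup (Fin 2) F :=
      (QuotientGroup.quotientMulEquivOfEq hck).trans (QuotientGroup.quotientKerEquivOfSurjective f hf)
    rcases Cfsg.Agent.OddCyclic.CoverTrans.sl_two_of_perfect hL (by rw [hck]; exact hk2)
      (by rw [Nat.card_eq_fintype_card]; exact hodd) e' with h | h
    · left
      obtain ⟨g⟩ := psl_thirteen hF
      have hinj : Function.Injective f := by
        rw [← MonoidHom.ker_eq_bot_iff, ← hck, h]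
      exact ⟨(MulEquiv.ofBijective f ⟨hinj, hf⟩).trans g⟩
    · right
      obtain ⟨h⟩ := h
      obtain ⟨g⟩ := sl_thirteen hF
      exact ⟨h.trans g⟩
  · have h1 := hk2.map N.subtype
    rw [hk, Subgroup.subgroupOf_map_subtype, inf_comm] at h1
    exact h1

end Cfsg.Agent.H546.MaxNor
end

-- part: H546/MaxNorFinal
section
/-!
# The order of the solvable radical is coprime to 3, 7, 13, and its 2-elements lie in the residual
-/

set_option autoImplicit false
set_option linter.unusedSectionVars false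

namespace Cfsg.Agent.H546.MaxNor

open Subgroup
open scoped Pointwise
open Cfsg.Agent.SignalizersComponents.ComponentExists

variable {G : Type*} [Group G]

theorem zpowers_mul_sup {R : Subgroup G} {x y : G} (hyR : y ∈ R) : zpowers (x * y) ⊔ R = zpowers x ⊔ R := by
  apply le_antisymm
  · apply sup_le _ le_sup_right
    rw [zpowers_le]
    exact mul_mem (le_sup_left (a := zpowers x) (mem_zpowers _)) (le_sup_right (b := R) hyR)
  · apply sup_le _ le_sup_right
    rw [zpowers_le]
    have h1 : x * y * y⁻¹ ∈ zpowers (x * y) ⊔ R :=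
      mul_mem (le_sup_left (a := zpowers (x * y)) (mem_zpowers _)) (le_sup_right (b := R) (inv_mem hyR))
    rwa [mul_inv_cancel_right] at h1

theorem nor_aux {p : ℕ} (hp : p.Prime) {R : Subgroup G} {x y n : G} (hx : orderOf x = p) (hy : orderOf y = p)
    (hxR : x ∉ R) (hyR : y ∈ R) (hxy : x * y = y * x) (hny : n * y = y * n) {i j : ℤ}
    (hi : (x * y) ^ i = n * (x * y) * n⁻¹) (hj : x ^ j = n * x * n⁻¹) : x * n = n * x := by
  have hxp : x ^ p = 1 := by rw [← hx]; exact pow_orderOf_eq_one x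
  have h8 : n * (x * y) * n⁻¹ = n * x * n⁻¹ * y := by
    have h9 : y * n⁻¹ = n⁻¹ * y := ((show Commute n y from hny).inv_left.symm).eq
    calc n * (x * y) * n⁻¹ = n * x * (y * n⁻¹) := by group
      _ = n * x * (n⁻¹ * y) := by rw [h9]
      _ = n * x * n⁻¹ * y := by group
  rw [h8, ← hj, (show Commute x y from hxy).mul_zpow] at hi
  have h9 : x ^ (j - i) = y ^ (i - 1) := by
    have h11 : y ^ i = y ^ (i - 1) * y := by
      rw [← zpow_add_one]; congr 1; ring
    have h12 : x ^ j = x ^ i * x ^ (j - i) := by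
      rw [← zpow_add]; congr 1; ring
    rw [h11, h12, ← mul_assoc] at hi
    have h13 := mul_right_cancel hi
    exact (mul_left_cancel h13).symm
  have h10 : (p : ℤ) ∣ j - i :=
    dvd_of_zpow_mem (k := 1) hp hxR (by rw [pow_one]; exact hxp) (h9 ▸ zpow_mem hyR _)
  have h11 : x ^ (j - i) = 1 := by
    rw [← orderOf_dvd_iff_zpow_eq_one, hx]; exact h10
  rw [h11] at h9
  have h12 : (p : ℤ) ∣ i - 1 := by
    rw [← hy, orderOf_dvd_iff_zpow_eq_one]; exact h9.symm
  have h13 : (p : ℤ) ∣ j - 1 := by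
    have : j - 1 = (j - i) + (i - 1) := by ring
    rw [this]; exact dvd_add h10 h12
  have h14 : x ^ (j - 1) = 1 := by
    rw [← orderOf_dvd_iff_zpow_eq_one, hx]; exact h13
  rw [zpow_sub, zpow_one, mul_inv_eq_one] at h14
  rw [h14] at hj
  exact eq_mul_inv_iff_mul_eq.1 hj

theorem Res.not_dvd [Finite G] {R N : Subgroup G} (D : Rad R) (E : Res R N)
    (h2 : IsPGroup 2 (N ⊓ R : Subgroup G)) {a : ℕ} (hN : Nat.card N = 2 ^ a * 1092) {p : ℕ}
    (h : p = 3 ∨ p = 7 ∨ p = 13) : ¬ p ∣ Nat.card R := by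
  intro hpR
  have hp : p.Prime := by rcases h with rfl | rfl | rfl <;> norm_num
  have hf : Fact p.Prime := ⟨hp⟩
  have hp2 : p ≠ 2 := by omega
  have hpN : p ∣ Nat.card N := by
    rw [hN]; rcases h with rfl | rfl | rfl
    · exact Dvd.dvd.mul_left (by norm_num) _
    · exact Dvd.dvd.mul_left (by norm_num) _
    · exact Dvd.dvd.mul_left (by norm_num) _
  obtain ⟨y₀, hy₀⟩ := exists_prime_orderOf_dvd_card' p hpR
  set y : G := (y₀ : G) with hyy
  have hyR : y ∈ R := y₀.2
  have hyo : orderOf y = p := by rw [← hy₀]; exact orderOf_submonoid y₀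
  let P : Sylow p N := default
  have hPc : Nat.card P = p := by
    obtain ⟨n, hn⟩ := IsPGroup.iff_card.1 P.isPGroup'
    have h1 : p ^ n ∣ 2 ^ a * 1092 := by rw [← hN, ← hn]; exact Subgroup.card_subgroup_dvd_card _
    have h3 : (p ^ n).Coprime (2 ^ a) := Nat.Coprime.pow _ _ ((Nat.coprime_primes hp Nat.prime_two).2 hp2)
    have h4 := h3.dvd_of_dvd_mul_left h1
    have h5 : n < 2 := by
      by_contra hcon
      have h6 : p ^ 2 ∣ 1092 := (pow_dvd_pow p (by omega)).trans h4
      rcases h with rfl | rfl | rfl <;> norm_num at h6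
    have h7 : p ∣ Nat.card P := P.dvd_card_of_dvd_card hpN
    have h8 : n ≠ 0 := by
      rintro rfl
      rw [hn, pow_zero] at h7
      exact hp.one_lt.ne' (Nat.dvd_one.1 h7)
    have h9 : n = 1 := by omega
    rw [hn, h9, pow_one]
  have hP : normalizer ((P : Subgroup N) : Set N) ≤ centralizer (P : Set N) := by
    intro n hn
    rw [mem_centralizer_iff]
    intro x hx
    change x ∈ (P : Subgroup N) at hx
    by_cases hx1 : x = 1
    · rw [hx1, one_mul, mul_one]
    have hox : orderOf x = p := by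
      have h1 : orderOf x ∣ p := by
        rw [← hPc]
        exact Subgroup.orderOf_dvd_natCard (P : Subgroup N) hx
      exact ((Nat.dvd_prime hp).1 h1).resolve_left (fun h => hx1 (orderOf_eq_one_iff.1 h))
    have hzx : zpowers x = P := by
      apply Subgroup.eq_of_le_of_card_ge
      · rw [zpowers_le]; exact hx
      · rw [Nat.card_zpowers, hox]; exact hPc.le
    have hoxG : orderOf (x : G) = p := by rw [orderOf_submonoid, hox]
    have hxp : (x : G) ^ p = 1 := by
      have := pow_orderOf_eq_one (x : G)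
      rwa [hoxG] at this
    have hxR : (x : G) ∉ R := by
      intro hxR
      obtain ⟨k, hk⟩ := h2 ⟨x, x.2, hxR⟩
      have h4 : (x : G) ^ 2 ^ k = 1 := congrArg Subtype.val hk
      apply hx1
      apply Subtype.ext
      exact eq_one_of_pow (k := 1) hp Nat.prime_two hp2 (by rw [pow_one]; exact hxp) h4
    have hxy : (x : G) * y = y * x := E.cent x x.2 y hyR
    have hxyR : (x : G) * y ∉ R := by
      intro h1
      exact hxR ((R.mul_mem_cancel_right hyR).1 h1)
    have hxyo : orderOf ((x : G) * y) = p := by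
      apply orderOf_eq_prime
      · rw [(show Commute (x : G) y from hxy).mul_pow, hxp, one_mul, ← hyo, pow_orderOf_eq_one]
      · intro h1; rw [h1] at hxyR; exact hxyR (one_mem _)
    -- the element `n` normalizes `⟨x⟩`
    have hnx : (n : G) ∈ normalizer (zpowers (x : G) : Set G) := by
      apply mem_nor
      intro w hw
      obtain ⟨i, rfl⟩ := mem_zpowers_iff.1 hw
      rw [← conj_zpow]
      apply zpow_mem
      have h4 := conj_mem hn hx
      rw [← hzx] at h4
      obtain ⟨j, hj⟩ := mem_zpowers_iff.1 h4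
      exact mem_zpowers_iff.2 ⟨j, congrArg Subtype.val hj⟩
    have t1 : TwoP (zpowers (x : G)) := twoP_of_isPGroup hp (isPGroup_zpowers (k := 1) (by rw [pow_one, hoxG]))
    have t2 : TwoP (zpowers ((x : G) * y)) :=
      twoP_of_isPGroup hp (isPGroup_zpowers (k := 1) (by rw [pow_one, hxyo]))
    have h4 := D.nor_sup t1 (by rw [zpowers_le]; exact hxR)
    have h5 := D.nor_sup t2 (by rw [zpowers_le]; exact hxyR)
    have h6 : zpowers ((x : G) * y) ⊔ R = zpowers (x : G) ⊔ R := zpowers_mul_sup hyR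
    rw [h6, ← h4] at h5
    have h7 : (n : G) ∈ normalizer (zpowers ((x : G) * y) : Set G) := by rw [h5]; exact hnx
    obtain ⟨i, hi⟩ := mem_zpowers_iff.1 (conj_mem h7 (mem_zpowers _))
    obtain ⟨j, hj⟩ := mem_zpowers_iff.1 (conj_mem hnx (mem_zpowers _))
    have hny : (n : G) * y = y * n := E.cent n n.2 y hyR
    apply Subtype.ext
    exact nor_aux hp hoxG hyo hxR hyR hxy hny hi hj
  have h3 := MonoidHom.ker_transferSylow_isComplement' P hP
  have h4 : commutator N ≤ (MonoidHom.transferSylow P hP).ker := by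
    rw [commutator_def, Subgroup.commutator_le]
    intro x _ y _
    rw [MonoidHom.mem_ker, map_commutatorElement, commutatorElement_eq_one_iff_mul_comm]
    have h5 : ∀ u v : P, u * v = v * u := fun u v =>
      Subtype.ext ((mem_centralizer_iff.1 (hP (le_normalizer u.2)) v v.2).symm)
    exact h5 _ _
  have hL : commutator N = ⊤ := by
    apply Subgroup.map_injective N.subtype_injective
    rw [Subgroup.map_subtype_commutator, E.perf, ← MonoidHom.range_eq_map, Subgroup.range_subtype]
  rw [hL, top_le_iff] at h4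
  have h6 : (MonoidHom.transferSylow P hP).ker.index = Nat.card P := h3.symm.index_eq_card
  rw [h4, Subgroup.index_top, hPc] at h6
  exact hp.one_lt.ne h6

theorem Res.lift [Finite G] {R N : Subgroup G} [R.Normal] (E : Res R N) (w : G ⧸ R) :
    ∃ x ∈ N, QuotientGroup.mk' R x = w := by
  have hNn := E.normal
  obtain ⟨g, hg⟩ := QuotientGroup.mk'_surjective R w
  have h1 : g ∈ N ⊔ R := by rw [E.sup]; exact mem_top g
  obtain ⟨n, hn, r, hr, rfl⟩ := (mem_sup_nor (A := N) (B := R)
    (by rw [Subgroup.normalizer_eq_top N]; exact le_top)).1 h1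
  refine ⟨n, hn, ?_⟩
  rwa [map_mul, show QuotientGroup.mk' R r = 1 from (QuotientGroup.eq_one_iff r).2 hr, mul_one] at hg

theorem zpow_of_sq {x : G} (h : x * x = 1) (i : ℤ) : (Even i ∧ x ^ i = 1) ∨ (¬ Even i ∧ x ^ i = x) := by
  rcases Int.even_or_odd' i with ⟨j, rfl | rfl⟩
  · left
    exact ⟨even_two_mul j, by rw [zpow_mul, zpow_ofNat, pow_two, h, one_zpow]⟩
  · right
    refine ⟨Int.not_even_two_mul_add_one j, ?_⟩
    rw [zpow_add, zpow_mul, zpow_ofNat, pow_two, h, one_zpow, one_mul, zpow_one]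

theorem Res.two_mem [Finite G] {R N : Subgroup G} [R.Normal] (D : Rad R) (E : Res R N)
    (h2 : IsPGroup 2 (N ⊓ R : Subgroup G)) {U : Subgroup (G ⧸ R)} {g z t u : G ⧸ R} {s r v : ℕ}
    (hX : PM (G ⧸ R)) (L : Loc U g r v) (O : Out U g z t u s) {y : G} {m : ℕ} (hyR : y ∈ R)
    (hyo : orderOf y = 2 ^ m) : y ∈ N := by
  have hNn := E.normal
  have hel := (L.elem hX).1
  have hab := (L.elem hX).2
  obtain ⟨x1, hx1, hz⟩ := E.lift z
  obtain ⟨x2, hx2, hu⟩ := E.lift u
  obtain ⟨i₀, -, hi₀⟩ := O.trans u O.hu O.hu1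
  obtain ⟨ρ, hρN, hρ⟩ := E.lift (g ^ i₀)
  set π := QuotientGroup.mk' R with hπ
  have hπk : ∀ x, π x = 1 ↔ x ∈ R := fun x => QuotientGroup.eq_one_iff x
  set W : Subgroup G := U.comap π ⊓ N with hW
  have hWp : IsPGroup 2 W := by
    intro w
    have hw1 : π w ∈ U := w.2.1
    obtain ⟨k, hk⟩ := L.two ⟨π w, hw1⟩
    have hk' : π w ^ 2 ^ k = 1 := congrArg Subtype.val hk
    rw [← map_pow, hπk] at hk'
    obtain ⟨l, hl⟩ := h2 ⟨(w : G) ^ 2 ^ k, pow_mem w.2.2 _, hk'⟩
    refine ⟨k + l, Subtype.ext ?_⟩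
    have hl' : ((w : G) ^ 2 ^ k) ^ 2 ^ l = 1 := congrArg Subtype.val hl
    rw [← pow_mul, ← pow_add] at hl'
    exact hl'
  have hTp : IsPGroup 2 (W ⊔ zpowers y : Subgroup G) := by
    apply isPGroup_sup hWp (isPGroup_zpowers hyo)
    apply le_nor_of_comm
    intro a ha b hb
    exact E.cent a ha.2 b ((zpowers_le.2 hyR) hb)
  have hx1W : x1 ∈ W := ⟨by change π x1 ∈ U; rw [hz]; exact O.hz, hx1⟩
  have hx2W : x2 ∈ W := ⟨by change π x2 ∈ U; rw [hu]; exact O.hu, hx2⟩
  set H : Subgroup G := zpowers (x1 * y) ⊔ zpowers x2 with hH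
  have hHT : H ≤ W ⊔ zpowers y := by
    apply sup_le
    · rw [zpowers_le]
      exact mul_mem (le_sup_left (a := W) hx1W) (le_sup_right (b := zpowers y) (mem_zpowers y))
    · rw [zpowers_le]
      exact le_sup_left (a := W) hx2W
  have hHp : IsPGroup 2 H := hTp.to_le hHT
  have hHR : ¬ H ≤ R := by
    intro h
    have h1 := h (le_sup_right (b := zpowers x2) (mem_zpowers x2))
    rw [← hπk, hu] at h1
    exact O.hu1 h1
  have hmap : H.map π = U := by
    rw [hH, Subgroup.map_sup, MonoidHom.map_zpowers, MonoidHom.map_zpowers, map_mul, hz, hu,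
      (hπk y).2 hyR, mul_one]
    apply le_antisymm
    · exact sup_le (by rw [zpowers_le]; exact O.hz) (by rw [zpowers_le]; exact O.hu)
    · intro w hw
      have hzm : z ∈ zpowers z ⊔ zpowers u := le_sup_left (a := zpowers z) (mem_zpowers z)
      have hum : u ∈ zpowers z ⊔ zpowers u := le_sup_right (a := zpowers z) (mem_zpowers u)
      rcases O.mem w hw with h | h | h | h <;> rw [h]
      · exact one_mem _
      · exact hzm
      · exact hum
      · exact mul_mem hzm hum
  have hsup : H ⊔ R = U.comap π := by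
    rw [← hmap, Subgroup.comap_map_eq, hπ, QuotientGroup.ker_mk']
  have hρn : ρ ∈ normalizer (H : Set G) := by
    rw [D.nor_sup (twoP_of_isPGroup Nat.prime_two hHp) hHR, hsup]
    apply mem_nor
    intro w hw
    change π w ∈ U at hw
    change π (ρ * w * ρ⁻¹) ∈ U
    rw [map_mul, map_mul, map_inv, hρ]
    exact conj_mem (pow_mem L.nor i₀) hw
  have hmem := conj_mem hρn (le_sup_left (a := zpowers (x1 * y)) (b := zpowers x2) (mem_zpowers (x1 * y)))
  set κ := QuotientGroup.mk' N with hκ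
  have hκk : ∀ x, κ x = 1 ↔ x ∈ N := fun x => QuotientGroup.eq_one_iff x
  have hzu : Commute z u := hab z O.hz u O.hu
  let Λ : Subgroup G :=
    { carrier := {w | ∃ i j : ℤ, π w = z ^ i * u ^ j ∧ κ w = κ y ^ i}
      one_mem' := ⟨0, 0, by rw [map_one, zpow_zero, zpow_zero, mul_one], by rw [map_one, zpow_zero]⟩
      mul_mem' := by
        rintro a b ⟨i, j, h1, h3⟩ ⟨i', j', h4, h5⟩
        refine ⟨i + i', j + j', ?_, ?_⟩
        · rw [map_mul, h1, h4, zpow_add, zpow_add]
          have h6 : u ^ j * z ^ i' = z ^ i' * u ^ j := ((hzu.zpow_zpow i' j).symm).eq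
          calc z ^ i * u ^ j * (z ^ i' * u ^ j') = z ^ i * (u ^ j * z ^ i') * u ^ j' := by group
            _ = z ^ i * (z ^ i' * u ^ j) * u ^ j' := by rw [h6]
            _ = z ^ i * z ^ i' * (u ^ j * u ^ j') := by group
        · rw [map_mul, h3, h5, zpow_add]
      inv_mem' := by
        rintro a ⟨i, j, h1, h3⟩
        refine ⟨-i, -j, ?_, ?_⟩
        · rw [map_inv, h1, mul_inv_rev, ← zpow_neg, ← zpow_neg]
          exact ((hzu.zpow_zpow (-i) (-j)).symm).eq
        · rw [map_inv, h3, zpow_neg] }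
  have hHΛ : H ≤ Λ := by
    apply sup_le
    · rw [zpowers_le]
      exact ⟨1, 0, by rw [map_mul, hz, (hπk y).2 hyR, mul_one, zpow_one, zpow_zero, mul_one],
        by rw [map_mul, (hκk x1).2 hx1, one_mul, zpow_one]⟩
    · rw [zpowers_le]
      exact ⟨0, 1, by rw [hu, zpow_one, zpow_zero, one_mul], by rw [(hκk x2).2 hx2, zpow_zero]⟩
  obtain ⟨i, j, h1, h3⟩ := hHΛ hmem
  rw [map_mul, map_mul, map_inv, map_mul, hρ, hz, (hπk y).2 hyR, mul_one, ← hi₀] at h1
  rw [map_mul, map_mul, map_inv, map_mul, (hκk ρ).2 hρN, (hκk x1).2 hx1, one_mul, one_mul, inv_one,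
    mul_one] at h3
  have hieven : Even i := by
    by_contra hodd
    rcases zpow_of_sq (hel z O.hz) i with h | h
    · exact hodd h.1
    · rw [h.2] at h1
      rcases zpow_of_sq (hel u O.hu) j with h' | h'
      · rw [h'.2, mul_one] at h1
        exact O.huz h1
      · rw [h'.2] at h1
        exact O.hz1 (mul_eq_right.1 h1.symm)
  rw [← hκk]
  by_contra hne
  have h4 : κ y ^ (i - 1) = 1 := by
    rw [zpow_sub, zpow_one, ← h3, mul_inv_cancel]
  have h5 : κ y ^ 2 ^ m = 1 := by
    rw [← map_pow, ← hyo, pow_orderOf_eq_one, map_one]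
  obtain ⟨k, -, hk⟩ := (Nat.dvd_prime_pow Nat.prime_two).1 (orderOf_dvd_of_pow_eq_one h5)
  have hk0 : k ≠ 0 := by
    rintro rfl
    rw [pow_zero, orderOf_eq_one_iff] at hk
    exact hne hk
  have h6 : ((orderOf (κ y) : ℕ) : ℤ) ∣ i - 1 := orderOf_dvd_iff_zpow_eq_one.2 h4
  rw [hk] at h6
  have h7 : (2 : ℤ) ∣ i - 1 := by
    have : (2 : ℤ) ∣ ((2 ^ k : ℕ) : ℤ) := by push_cast; exact dvd_pow_self 2 hk0
    exact this.trans h6
  obtain ⟨c, hc⟩ := hieven
  omega

end Cfsg.Agent.H546.MaxNor
end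

-- part: S4233
section
set_option autoImplicit false
open Cfsg

namespace Cfsg.Agent.S4233

open Subgroup Cfsg.Agent.H546.MaxNor
open scoped Pointwise

/-- Let G be a finite non-solvable group in which every subgroup H that is not subnormal and whose order has at most two prime divisors has a normalizer N_G(H) that is a maximal subgroup of G. Then G is the internal direct product of normal subgroups K and S with K isomorphic to PSL(2, 13) or to SL(2, 13), S abelian, and the orders of K and S coprime. -/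
theorem result {G : Type*} [Group G] [Finite G] (hG : ¬ Group.IsSolvable G)
    (h : ∀ H : Subgroup G, ¬ H.IsSubnormal →
      (∃ p q : ℕ, p.Prime ∧ q.Prime ∧ ∀ r : ℕ, r.Prime → r ∣ Nat.card H → r = p ∨ r = q) →
      IsCoatom (Subgroup.normalizer (H : Set G))) :
    ∃ K S : Subgroup G, K.Normal ∧ S.Normal ∧ K ⊓ S = ⊥ ∧ K ⊔ S = ⊤ ∧
      (Nonempty (K ≃* Matrix.ProjectiveSpecialLinearGroup (Fin 2) (ZMod 13)) ∨
        Nonempty (K ≃* Matrix.SpecialLinearGroup (Fin 2) (ZMod 13))) ∧
      IsMulCommutative S ∧ (Nat.card K).Coprime (Nat.card S) := by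
  obtain ⟨R, D⟩ := exists_rad hG h
  have hRn : R.Normal := D.normal
  obtain ⟨hs, ⟨U, g, r, v, z, t, u, s, L, O⟩, F, iF, iFF, hF, ⟨e⟩⟩ := D.psl
  have hidx : R.index = 1092 := by
    have h1 := Cfsg.Agent.ClassicalGeometry.PSL2Basic.card_PSL2_odd (F := F) (by rw [hF]; decide)
    rw [hF, ← Nat.card_congr e.toEquiv] at h1
    change R.index * 2 = _ at h1
    omega
  obtain ⟨N, hNn, hNp, hNs, hNM⟩ := exists_residual G
  have hcent := D.cent hs (by rw [hidx]; norm_num) (by rw [hidx]; norm_num) hNM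
  have hNR : ¬ N ≤ R := by
    intro hle
    have := D.solv
    exact hG (hNs (Group.isSolvable_of_isSolvable_injective (Subgroup.inclusion_injective hle)))
  have E : Res R N := ⟨hNn, hNp, hcent, Rad.sup hs hNn hNR⟩
  obtain ⟨hiso, hZ2, a, hNc⟩ := E.struct hs hF e
  -- the Sylow 2-subgroup of `R`
  have hf2 : Fact (Nat.Prime 2) := ⟨Nat.prime_two⟩
  let Q : Sylow 2 R := default
  have hQN : ∀ w ∈ (Q : Subgroup R), (w : G) ∈ N := by
    intro w hw
    obtain ⟨m, hm⟩ := IsPGroup.iff_orderOf.1 Q.isPGroup' ⟨w, hw⟩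
    refine E.two_mem D hZ2 D.pm L O w.2 (m := m) ?_
    rw [orderOf_submonoid, ← hm]
    exact orderOf_submonoid (⟨w, hw⟩ : (Q : Subgroup R))
  have hP : normalizer ((Q : Subgroup R) : Set R) ≤ centralizer (Q : Set R) := by
    intro n _
    rw [mem_centralizer_iff]
    intro x hx
    exact Subtype.ext (hcent x (hQN x hx) n n.2)
  have hcomp := MonoidHom.ker_transferSylow_isComplement' Q hP
  set S' : Subgroup R := (MonoidHom.transferSylow Q hP).ker with hS'
  have hS'c : Nat.card S' = (Q : Subgroup R).index := hcomp.index_eq_card.symm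
  have hS'i : S'.index = Nat.card Q := hcomp.symm.index_eq_card
  have hS'2 : ¬ 2 ∣ Nat.card S' := by rw [hS'c]; exact Q.not_dvd_index
  have hcop : (Nat.card S').Coprime S'.index := by
    obtain ⟨k, hk⟩ := IsPGroup.iff_card.1 Q.isPGroup'
    rw [hS'i, hk]
    exact (Nat.Coprime.pow_left k ((Nat.Prime.coprime_iff_not_dvd Nat.prime_two).2 hS'2)).symm
  have hSn : (S'.map R.subtype).Normal := Cfsg.Agent.Lib.NormalHall.normal_map_subtype_of_coprime R S' hcop
  set S : Subgroup G := S'.map R.subtype with hS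
  have hSR : S ≤ R := Subgroup.map_subtype_le S'
  have hSc : Nat.card S = Nat.card S' := Subgroup.card_map_of_injective R.subtype_injective
  have hS2 : ¬ 2 ∣ Nat.card S := by rw [hSc]; exact hS'2
  have hRc : Nat.card S ∣ Nat.card R := Subgroup.card_dvd_of_le hSR
  have hnd := fun p hp => E.not_dvd D hZ2 hNc (p := p) hp
  -- coprime orders
  have hKS : (Nat.card N).Coprime (Nat.card S) := by
    rw [Nat.coprime_iff_gcd_eq_one]
    by_contra hne
    obtain ⟨p, hp, hpd⟩ := Nat.exists_prime_and_dvd hne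
    have h1 : p ∣ Nat.card N := hpd.trans (Nat.gcd_dvd_left _ _)
    have h3 : p ∣ Nat.card S := hpd.trans (Nat.gcd_dvd_right _ _)
    have h4 : p ≠ 2 := by rintro rfl; exact hS2 h3
    rw [hNc] at h1
    rcases hp.dvd_mul.1 h1 with h5 | h5
    · exact h4 ((Nat.prime_dvd_prime_iff_eq hp Nat.prime_two).1 (hp.dvd_of_dvd_pow h5))
    · have h6 : (1092 : ℕ) = 2 ^ 2 * (3 * (7 * 13)) := by norm_num
      rw [h6] at h5
      have h7 : p = 3 ∨ p = 7 ∨ p = 13 := by
        rcases hp.dvd_mul.1 h5 with h5 | h5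
        · exact absurd ((Nat.prime_dvd_prime_iff_eq hp Nat.prime_two).1 (hp.dvd_of_dvd_pow h5)) h4
        rcases hp.dvd_mul.1 h5 with h5 | h5
        · exact Or.inl ((Nat.prime_dvd_prime_iff_eq hp (by norm_num)).1 h5)
        rcases hp.dvd_mul.1 h5 with h5 | h5
        · exact Or.inr (Or.inl ((Nat.prime_dvd_prime_iff_eq hp (by norm_num)).1 h5))
        · exact Or.inr (Or.inr ((Nat.prime_dvd_prime_iff_eq hp (by norm_num)).1 h5))
      exact hnd p h7 (h3.trans hRc)
  refine ⟨N, S, hNn, hSn, ?_, ?_, hiso, ?_, hKS⟩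
  · exact disjoint_iff.1 (Subgroup.disjoint_of_coprime_natCard hKS)
  · -- the join
    have h1 : R ≤ N ⊔ S := by
      have h3 := congrArg (fun W => Subgroup.map R.subtype W) hcomp.sup_eq_top
      simp only [Subgroup.map_sup] at h3
      rw [← MonoidHom.range_eq_map, Subgroup.range_subtype] at h3
      rw [← h3, sup_comm]
      apply sup_le_sup_right
      rintro _ ⟨w, hw, rfl⟩
      exact hQN w hw
    rw [eq_top_iff, ← E.sup]
    exact sup_le le_sup_left h1
  · -- `S` is abelian
    have hab : ∀ a b : S, a * b = b * a := by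
      apply odd_dedekind hS2
      intro x q k hq hx
      have hxo : orderOf (x : G) = q ^ k := by rw [orderOf_submonoid, hx]
      -- an element of order three of `N`
      have hf3 : Fact (Nat.Prime 3) := ⟨by norm_num⟩
      have h3N : 3 ∣ Nat.card N := by rw [hNc]; exact Dvd.dvd.mul_left (by norm_num) _
      obtain ⟨b₀, hb₀⟩ := exists_prime_orderOf_dvd_card' 3 h3N
      set b : G := (b₀ : G) with hb
      have hbN : b ∈ N := b₀.2
      have hbo : orderOf b = 3 ^ 1 := by rw [hb, orderOf_submonoid, hb₀, pow_one]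
      have hb3 : b ^ 3 ^ 1 = 1 := by rw [← hbo]; exact pow_orderOf_eq_one b
      have hbR : b ∉ R := by
        intro hbR
        obtain ⟨l, hl⟩ := hZ2 ⟨b, hbN, hbR⟩
        have h4 : b ^ 2 ^ l = 1 := congrArg Subtype.val hl
        have h5 := eq_one_of_pow (k := 1) Nat.prime_three Nat.prime_two (by norm_num) hb3 h4
        rw [h5, orderOf_one] at hbo
        norm_num at hbo
      have hxR : (x : G) ∈ R := hSR x.2
      have hcomm : ∀ c ∈ zpowers b, ∀ d ∈ zpowers (x : G), c * d = d * c :=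
        comm_zpowers (hcent b hbN x hxR)
      have hle := le_nor_of_comm hcomm
      have hT : TwoP (zpowers b ⊔ zpowers (x : G)) :=
        twoP_sup Nat.prime_three hq (isPGroup_zpowers hbo) (isPGroup_zpowers hxo) hle
      have hTR : ¬ zpowers b ⊔ zpowers (x : G) ≤ R := by
        intro h1
        exact hbR (h1 (le_sup_left (a := zpowers b) (mem_zpowers b)))
      have hRT := D.le_nor hT hTR
      refine ⟨fun w hw c => ?_⟩
      obtain ⟨i, rfl⟩ := mem_zpowers_iff.1 hw
      rw [← conj_zpow]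
      apply zpow_mem
      have h4 : (c : G) * x * (c : G)⁻¹ ∈ zpowers b ⊔ zpowers (x : G) :=
        conj_mem (hRT (hSR c.2)) (le_sup_right (a := zpowers b) (mem_zpowers (x : G)))
      obtain ⟨c', hc', d, hd, hcd⟩ := (mem_sup_nor hle).1 h4
      have h5 : c' ∈ R := by
        have h6 : c' = (c : G) * x * (c : G)⁻¹ * d⁻¹ := by rw [← hcd, mul_inv_cancel_right]
        rw [h6]
        exact mul_mem (mul_mem (mul_mem (hSR c.2) hxR) (inv_mem (hSR c.2)))
          (inv_mem ((zpowers_le.2 hxR) hd))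
      obtain ⟨j, rfl⟩ := mem_zpowers_iff.1 hc'
      have h6 : (3 : ℤ) ∣ j := by exact_mod_cast dvd_of_zpow_mem Nat.prime_three hbR hb3 h5
      have h7 : b ^ j = 1 := by
        rw [← orderOf_dvd_iff_zpow_eq_one, hbo]; exact_mod_cast h6
      rw [h7, one_mul] at hcd
      obtain ⟨l, hl⟩ := mem_zpowers_iff.1 hd
      refine mem_zpowers_iff.2 ⟨l, Subtype.ext ?_⟩
      change (x : G) ^ l = (c : G) * x * (c : G)⁻¹
      rw [hl, hcd]
    exact ⟨⟨hab⟩⟩

end Cfsg.Agent.S4233
end
end
end
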