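import Mathlib
import Cfsg.Agent.SignalizersComponents.CoprimeBasic
import Cfsg.Agent.S0215
import Cfsg.Prelude.Def_Involutions
import Cfsg.Agent.S1225
import Cfsg.Agent.S1141
import Cfsg.Agent.S1136
import Cfsg.Agent.S1220
import Cfsg.Agent.HKS.EndOrd
import Cfsg.Agent.WeakTI.PslTwo
import Cfsg.Prelude.Def_LieRecognition
import Cfsg.Statements.S4235
import Cfsg.Agent.S0205
import Cfsg.Agent.FastGrp
import Cfsg.Agent.Prune
set_option linter.all false
prune_inst 0x7ffefef8afbdbddfffff7e7ffff9dffe39d4dfffffffff43ffffefff9fff03af3bedfbaf9de0d8ff8ff7e29630b87853f97eeeffef6bdc7ffffd5ff45ffbee1ff7ffbf8d51dfb8b41ffc6ffffbf37fce7f3fffffffffffffffffffffffffffffffffffffffff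
open scoped Cfsg.Agent.FastGrp

-- part: H547/FrobSys
section
/-!
# Frobenius systems (S4235): local analysis

`MS M` : `M` is maximal solvable; `Sys F` : a Frobenius system.
-/

set_option autoImplicit false

namespace Cfsg.Agent.H547.FrobSys

open scoped Pointwise commutatorElement
open Subgroup

universe u

variable {G : Type u} [Group G]

/-- maximal solvable subgroups -/
def MS (M : Subgroup G) : Prop := Group.IsSolvable M ∧ ∀ M' : Subgroup G, M < M' → ¬ Group.IsSolvable M'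

/-- Frobenius systems -/
structure Sys (F : Subgroup G → Subgroup G) : Prop where
  le : ∀ M, MS M → F M ≤ M
  nrm : ∀ M, MS M → M ≤ Subgroup.normalizer (F M : Set G)
  fpf : ∀ M, MS M → ∀ a ∈ M, a ∉ F M → ∀ x ∈ F M, x * a = a * x → x = 1
  ti : ∀ M, MS M → ∀ g : G, g ∉ M → F M ⊓ (MulAut.conj g • F M) = ⊥
  ne : ∀ M, MS M → F M ≠ ⊥ ∨ IsMulCommutative M

theorem exists_MS [Finite G] {K : Subgroup G} (hK : Group.IsSolvable K) : ∃ M, K ≤ M ∧ MS M := by
  obtain ⟨M, hM⟩ := (Set.toFinite {M : Subgroup G | K ≤ M ∧ Group.IsSolvable M}).exists_maximal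
    ⟨K, le_rfl, hK⟩
  refine ⟨M, hM.prop.1, hM.prop.2, ?_⟩
  intro M' hlt hs
  exact hlt.not_ge (hM.le_of_ge ⟨hM.prop.1.trans hlt.le, hs⟩ hlt.le)

variable {F : Subgroup G → Subgroup G}

theorem conj_mem_smul {A : Subgroup G} {x : G} (g : G) (hx : x ∈ A) :
    g * x * g⁻¹ ∈ MulAut.conj g • A :=
  Subgroup.smul_mem_pointwise_smul x (MulAut.conj g) A hx

theorem Sys.conj_mem (h : Sys F) {M : Subgroup G} (hM : MS M) {g x : G} (hg : g ∈ M) (hx : x ∈ F M) :
    g * x * g⁻¹ ∈ F M :=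
  (Subgroup.mem_normalizer_iff.mp (h.nrm M hM hg) x).mp hx

/-- `F(M) ∩ F(M)^g = 1` elementwise. -/
theorem Sys.eq_one (h : Sys F) {M : Subgroup G} (hM : MS M) {g x : G} (hg : g ∉ M) (hx : x ∈ F M)
    (hx' : g * x * g⁻¹ ∈ F M) : x = 1 := by
  have h1 : g * x * g⁻¹ ∈ F M ⊓ (MulAut.conj g • F M) := ⟨hx', conj_mem_smul g hx⟩
  rw [h.ti M hM g hg, Subgroup.mem_bot] at h1
  rw [mul_inv_eq_one] at h1
  exact mul_eq_left.mp h1

theorem Sys.cent (h : Sys F) {M : Subgroup G} (hM : MS M) {x g : G} (hx : x ∈ F M) (hx1 : x ≠ 1)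
    (hc : x * g = g * x) : g ∈ F M := by
  have hgM : g ∈ M := by
    by_contra hg
    apply hx1
    refine h.eq_one hM hg hx ?_
    rw [← hc]
    simpa using hx
  by_contra hgF
  exact hx1 (h.fpf M hM g hgM hgF x hx hc)

/-- If all the maximal solvable subgroups containing the Sylow `2`-subgroup `P` are abelian, `G` is
solvable. -/
theorem solvable_of_comm [Finite G] (FT : ∀ (K : Type u) [Group K] [Finite K], Odd (Nat.card K) → Group.IsSolvable K)
    (P : Sylow 2 G) (hall : ∀ M : Subgroup G, MS M → (P : Subgroup G) ≤ M → IsMulCommutative M) :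
    Group.IsSolvable G := by
  have hPs : Group.IsSolvable (P : Subgroup G) := by
    have := P.2.isNilpotent
    infer_instance
  have hN : Subgroup.normalizer (P : Set G) ≤ Subgroup.centralizer (P : Set G) := by
    intro y hy
    have h1 : Subgroup.zpowers y ≤ Subgroup.normalizer ((P : Subgroup G) : Set G) :=
      Subgroup.zpowers_le.mpr hy
    have hys : Group.IsSolvable (Subgroup.zpowers y) := Group.isSolvable_of_comm fun a b =>
      (inferInstance : IsMulCommutative (Subgroup.zpowers y)).is_comm.comm a b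
    have h2 : Group.IsSolvable ↥((P : Subgroup G) ⊔ Subgroup.zpowers y) :=
      Cfsg.Agent.SignalizersComponents.CoprimeBasic.isSolvable_sup h1 hPs hys
    obtain ⟨M, hKM, hM⟩ := exists_MS h2
    have hc := hall M hM (le_sup_left.trans hKM)
    have hyM : y ∈ M := hKM ((le_sup_right : Subgroup.zpowers y ≤ _) (Subgroup.mem_zpowers y))
    rw [Subgroup.mem_centralizer_iff]
    intro x hx
    have hxM : x ∈ M := hKM ((le_sup_left : (P : Subgroup G) ≤ _) hx)
    exact congrArg Subtype.val (hc.is_comm.comm (⟨x, hxM⟩ : M) ⟨y, hyM⟩)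
  have hcomp := MonoidHom.ker_transferSylow_isComplement' P hN
  have hodd : ¬ 2 ∣ Nat.card (MonoidHom.transferSylow P hN).ker :=
    MonoidHom.not_dvd_card_ker_transferSylow P hN
  have h1 : Group.IsSolvable (MonoidHom.transferSylow P hN).ker :=
    FT _ (Nat.not_even_iff_odd.mp (fun h => hodd (even_iff_two_dvd.mp h)))
  exact Group.isSolvable_of_ker_le_range (MonoidHom.transferSylow P hN).ker.subtype
    (MonoidHom.transferSylow P hN) (by simp)

/-- No abelian normal subgroups. -/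
theorem Sys.eq_bot_of_abelian [Finite G]
    (FT : ∀ (K : Type u) [Group K] [Finite K], Odd (Nat.card K) → Group.IsSolvable K)
    (h : Sys F) (hns : ¬ Group.IsSolvable G) (A : Subgroup G) (hA : A.Normal)
    (hc : ∀ x ∈ A, ∀ y ∈ A, x * y = y * x) : A = ⊥ := by
  by_contra hA1
  have hAs : Group.IsSolvable A :=
    Group.isSolvable_of_comm fun a b => Subtype.ext (hc a a.2 b b.2)
  have hAM : ∀ M : Subgroup G, MS M → A ≤ M := by
    intro M hM
    have h1 : Group.IsSolvable ↥(A ⊔ M) :=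
      Cfsg.Agent.SignalizersComponents.CoprimeBasic.isSolvable_sup
        (by rw [Subgroup.normalizer_eq_top A]; exact le_top) hAs hM.1
    by_contra h2
    have h3 : M < A ⊔ M := by
      rw [right_lt_sup]
      exact h2
    exact hM.2 _ h3 h1
  have hFM : ∀ M : Subgroup G, MS M → F M = ⊥ := by
    intro M hM
    by_contra hF
    obtain ⟨f, hf, hf1⟩ : ∃ f ∈ F M, f ≠ 1 := by
      by_contra hcon
      push Not at hcon
      exact hF ((Subgroup.eq_bot_iff_forall _).mpr hcon)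
    -- a nontrivial element in the intersection
    obtain ⟨x, hxA, hxF, hx1⟩ : ∃ x ∈ A, x ∈ F M ∧ x ≠ 1 := by
      by_contra hcon
      push Not at hcon
      -- then `A` centralises `F M`
      have h1 : ∀ a ∈ A, f * a = a * f := by
        intro a ha
        have h2 : a * f * a⁻¹ * f⁻¹ ∈ F M :=
          mul_mem (h.conj_mem hM (hAM M hM ha) hf) (inv_mem hf)
        have h3 : a * f * a⁻¹ * f⁻¹ ∈ A := by
          have h4 : f * a⁻¹ * f⁻¹ ∈ A := hA.conj_mem _ (inv_mem ha) f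
          have h5 : a * f * a⁻¹ * f⁻¹ = a * (f * a⁻¹ * f⁻¹) := by group
          rw [h5]
          exact mul_mem ha h4
        have h4 := hcon _ h3 h2
        rw [mul_inv_eq_one, mul_inv_eq_iff_eq_mul] at h4
        exact h4.symm
      obtain ⟨a, ha, ha1⟩ : ∃ a ∈ A, a ≠ 1 := by
        by_contra hcon2
        push Not at hcon2
        exact hA1 ((Subgroup.eq_bot_iff_forall _).mpr hcon2)
      exact ha1 (hcon a ha (h.cent hM hf hf1 (h1 a ha)))
    have hAF : A ≤ F M := fun a ha => h.cent hM hxF hx1 (hc x hxA a ha)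
    have hMtop : ∀ g : G, g ∈ M := by
      intro g
      by_contra hg
      exact hx1 (h.eq_one hM hg hxF (hAF (hA.conj_mem x hxA g)))
    apply hns
    have h1 : M = ⊤ := (Subgroup.eq_top_iff' M).mpr hMtop
    have h2 := hM.1
    rw [h1] at h2
    exact Group.isSolvable_of_surjective (f := (⊤ : Subgroup G).subtype) (fun g => ⟨⟨g, trivial⟩, rfl⟩)
  obtain ⟨P⟩ : Nonempty (Sylow 2 G) := inferInstance
  exact hns (solvable_of_comm FT P fun M hM _ => (h.ne M hM).resolve_left (fun h1 => h1 (hFM M hM)))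

/-- No solvable normal subgroups. -/
theorem Sys.eq_bot_of_solvable [Finite G]
    (FT : ∀ (K : Type u) [Group K] [Finite K], Odd (Nat.card K) → Group.IsSolvable K)
    (h : Sys F) (hns : ¬ Group.IsSolvable G) (N : Subgroup G) (hN : N.Normal)
    (hs : Group.IsSolvable N) : N = ⊥ := by
  classical
  by_contra hN1
  obtain ⟨n, hn⟩ := hs.solvable
  have hex : ∃ n, derivedSeries N n = ⊥ := ⟨n, hn⟩
  set k := Nat.find hex with hk
  have hk1 : derivedSeries N k = ⊥ := Nat.find_spec hex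
  have hk0 : k ≠ 0 := by
    intro h0
    rw [h0, derivedSeries_zero] at hk1
    apply hN1
    rw [Subgroup.eq_bot_iff_forall]
    intro x hx
    have h1 : (⟨x, hx⟩ : N) ∈ (⊤ : Subgroup N) := Subgroup.mem_top _
    rw [hk1, Subgroup.mem_bot] at h1
    exact congrArg Subtype.val h1
  obtain ⟨j, hj⟩ : ∃ j, k = j + 1 := ⟨k - 1, by omega⟩
  have hj1 : derivedSeries N j ≠ ⊥ := Nat.find_min hex (by omega)
  rw [hj, derivedSeries_succ] at hk1
  have hchar : (derivedSeries N j).Characteristic := derivedSeries_characteristic N j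
  have hAn : ((derivedSeries N j).map N.subtype).Normal := ConjAct.normal_of_characteristic_of_normal
  have h1 := h.eq_bot_of_abelian FT hns _ hAn (by
    rintro _ ⟨x, hx, rfl⟩ _ ⟨y, hy, rfl⟩
    have h2 : ⁅x, y⁆ ∈ (⊥ : Subgroup N) := hk1 ▸ Subgroup.commutator_mem_commutator hx hy
    rw [Subgroup.mem_bot, commutatorElement_eq_one_iff_mul_comm] at h2
    exact congrArg Subtype.val h2)
  exact hj1 ((Subgroup.map_eq_bot_iff_of_injective _ N.subtype_injective).mp h1)

/-- The Sylow `2`-subgroups are not of rank one. -/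
theorem Sys.exists_four [Finite G]
    (FT : ∀ (K : Type u) [Group K] [Finite K], Odd (Nat.card K) → Group.IsSolvable K)
    (h : Sys F) (hns : ¬ Group.IsSolvable G) (P : Sylow 2 G) :
    ∃ x ∈ P, ∃ y ∈ P, x ≠ 1 ∧ y ≠ 1 ∧ x ≠ y ∧ x * x = 1 ∧ y * y = 1 ∧ x * y = y * x := by
  by_contra hcon
  push Not at hcon
  have hev : Even (Nat.card G) := by
    by_contra h1
    exact hns (FT G (Nat.not_even_iff_odd.mp h1))
  have hP1 : (P : Subgroup G) ≠ ⊥ := by
    intro h1
    have h2 : 2 ∣ Nat.card (P : Subgroup G) := P.dvd_card_of_dvd_card (even_iff_two_dvd.mp hev)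
    rw [h1, Subgroup.card_bot] at h2
    norm_num at h2
  have hPnt : Nontrivial (P : Subgroup G) := (Subgroup.nontrivial_iff_ne_bot _).mpr hP1
  have hZ : Nontrivial (Subgroup.center (P : Subgroup G)) := P.2.center_nontrivial
  have hZp : IsPGroup 2 (Subgroup.center (P : Subgroup G)) := P.2.to_subgroup _
  obtain ⟨⟨⟨z, hzP⟩, hzZ⟩, hz⟩ : ∃ z : Subgroup.center (P : Subgroup G), orderOf z = 2 := by
    have h1 : 2 ∣ Nat.card (Subgroup.center (P : Subgroup G)) := by
      rcases hZp.card_eq_or_dvd with h2 | h2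
      · exact absurd h2 (Finite.one_lt_card_iff_nontrivial.mpr hZ).ne'
      · exact h2
    exact exists_prime_orderOf_dvd_card' 2 h1
  rw [Subgroup.orderOf_mk, Subgroup.orderOf_mk] at hz
  have hz1 : z ≠ 1 := by
    rintro rfl
    rw [orderOf_one] at hz
    norm_num at hz
  have hzz : z * z = 1 := by
    rw [← pow_two, ← hz, pow_orderOf_eq_one]
  have hzc : ∀ x ∈ P, x * z = z * x := by
    intro x hx
    exact congrArg Subtype.val (Subgroup.mem_center_iff.mp hzZ ⟨x, hx⟩)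
  obtain ⟨N, hN, hNodd, hNc⟩ := Cfsg.Agent.S0215.result P z hz hzP (by
    intro g hg
    by_contra hne
    refine hcon (g * z * g⁻¹) hg z hzP ?_ hz1 hne ?_ hzz (hzc _ hg)
    · intro h1
      apply hz1
      rw [mul_inv_eq_one] at h1
      exact mul_eq_left.mp h1
    · calc g * z * g⁻¹ * (g * z * g⁻¹) = g * (z * z) * g⁻¹ := by group
        _ = 1 := by rw [hzz]; group)
  have hNb : N = ⊥ := h.eq_bot_of_solvable FT hns N hN (FT N hNodd)
  have hzcen : ∀ g : G, z * g = g * z := by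
    intro g
    have h1 := hNc g
    rw [hNb, Subgroup.mem_bot, mul_inv_eq_one, mul_inv_eq_iff_eq_mul] at h1
    exact h1
  have h1 := h.eq_bot_of_abelian FT hns (Subgroup.center G) inferInstance (by
    intro x _ y hy
    exact (Subgroup.mem_center_iff.mp hy x))
  have h2 : z ∈ Subgroup.center G := Subgroup.mem_center_iff.mpr fun g => (hzcen g).symm
  rw [h1, Subgroup.mem_bot] at h2
  exact hz1 h2

/-- An element of `M ∖ F(M)` whose square is one inverts `F(M)`. -/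
theorem Sys.surj [Finite G] (h : Sys F) {M : Subgroup G} (hM : MS M) {a : G} (haM : a ∈ M)
    (haF : a ∉ F M) {f : G} (hf : f ∈ F M) : ∃ v ∈ F M, v⁻¹ * (a * v * a⁻¹) = f := by
  let φ : F M → F M := fun v => ⟨(v : G)⁻¹ * (a * v * a⁻¹),
    mul_mem (inv_mem v.2) (h.conj_mem hM haM v.2)⟩
  have hinj : Function.Injective φ := by
    rintro ⟨v, hv⟩ ⟨w, hw⟩ hvw
    have h1 : v⁻¹ * (a * v * a⁻¹) = w⁻¹ * (a * w * a⁻¹) := congrArg Subtype.val hvw
    have h2 : (v * w⁻¹) * a = a * (v * w⁻¹) := by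
      have h3 : w * v⁻¹ * (a * v * a⁻¹) = a * w * a⁻¹ := by
        rw [mul_assoc, h1]; group
      have h4 : a * (v * w⁻¹) = (v * w⁻¹) * (w * v⁻¹ * (a * v * a⁻¹)) * (a * w⁻¹) := by group
      rw [h4, h3]; group
    have h3 := h.fpf M hM a haM haF (v * w⁻¹) (mul_mem hv (inv_mem hw)) h2
    exact Subtype.ext (mul_inv_eq_one.mp h3)
  obtain ⟨⟨v, hv⟩, hv'⟩ := (Finite.injective_iff_surjective.mp hinj) ⟨f, hf⟩
  exact ⟨v, hv, congrArg Subtype.val hv'⟩

theorem Sys.inverts [Finite G] (h : Sys F) {M : Subgroup G} (hM : MS M) {a : G} (haM : a ∈ M)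
    (haF : a ∉ F M) (ha2 : a * a = 1) {f : G} (hf : f ∈ F M) : a * f * a⁻¹ = f⁻¹ := by
  obtain ⟨v, hv, rfl⟩ := h.surj hM haM haF hf
  have ha : a⁻¹ = a := inv_eq_of_mul_eq_one_right ha2
  rw [ha]
  calc a * (v⁻¹ * (a * v * a)) * a = (a * v⁻¹ * a) * v * (a * a) := by group
    _ = (v⁻¹ * (a * v * a⁻¹))⁻¹ := by
      rw [ha2, mul_one, ha]
      rw [mul_inv_rev, mul_inv_rev, mul_inv_rev, ha, inv_inv]
      group
    _ = _ := by rw [ha]

/-- The Sylow `2`-subgroup of `M` is in `F(M)`. -/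
theorem Sys.sylow_le [Finite G]
    (FT : ∀ (K : Type u) [Group K] [Finite K], Odd (Nat.card K) → Group.IsSolvable K)
    (h : Sys F) (hns : ¬ Group.IsSolvable G) (P : Sylow 2 G) {M : Subgroup G} (hM : MS M)
    (hPM : (P : Subgroup G) ≤ M) (hF : F M ≠ ⊥) : (P : Subgroup G) ≤ F M := by
  obtain ⟨w, hwP, hwF, hw1⟩ : ∃ w ∈ P, w ∈ F M ∧ w ≠ 1 := by
    by_contra hcon
    push Not at hcon
    obtain ⟨x, hx, y, hy, hx1, hy1, hxy, hxx, hyy, hc⟩ := h.exists_four FT hns P
    obtain ⟨f, hf, hf1⟩ : ∃ f ∈ F M, f ≠ 1 := by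
      by_contra hcon
      push Not at hcon
      exact hF ((Subgroup.eq_bot_iff_forall _).mpr hcon)
    have hxF : x ∉ F M := fun h1 => hx1 (hcon x hx h1)
    have hyF : y ∉ F M := fun h1 => hy1 (hcon y hy h1)
    have hxyF : x * y ∉ F M := by
      intro h1
      have h2 := hcon (x * y) (mul_mem hx hy) h1
      apply hxy
      have h3 : x⁻¹ = x := inv_eq_of_mul_eq_one_right hxx
      rw [← h3]
      exact (inv_eq_of_mul_eq_one_right h2)
    have h1 := h.inverts hM (hPM hx) hxF hxx (inv_mem hf)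
    have h2 := h.inverts hM (hPM hy) hyF hyy hf
    apply hf1
    refine h.fpf M hM (x * y) (hPM (mul_mem hx hy)) hxyF f hf ?_
    rw [inv_inv] at h1
    have h3 : x * y * f * (x * y)⁻¹ = f := by
      calc x * y * f * (x * y)⁻¹ = x * (y * f * y⁻¹) * x⁻¹ := by group
        _ = f := by rw [h2, h1]
    rw [mul_inv_eq_iff_eq_mul] at h3
    exact h3.symm
  have hPnt : Nontrivial (P : Subgroup G) := ⟨⟨w, hwP⟩, 1, fun h1 => hw1 (congrArg Subtype.val h1)⟩
  have hZ : Nontrivial (Subgroup.center (P : Subgroup G)) := P.2.center_nontrivial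
  obtain ⟨⟨⟨z, hzP⟩, hzZ⟩, hz⟩ := exists_ne (1 : Subgroup.center (P : Subgroup G))
  have hz1 : z ≠ 1 := by
    rintro rfl
    exact hz rfl
  have hzc : ∀ x ∈ P, x * z = z * x := by
    intro x hx
    exact congrArg Subtype.val (Subgroup.mem_center_iff.mp hzZ ⟨x, hx⟩)
  have hzF : z ∈ F M := h.cent hM hwF hw1 (hzc w hwP)
  intro x hx
  exact h.cent hM hzF hz1 (hzc x hx).symm

/-- Elements of `M` of square one are in `F(M)`. -/
theorem Sys.mem_of_sq [Finite G] (h : Sys F) {M : Subgroup G} (hM : MS M) (P : Sylow 2 G)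
    (hPF : (P : Subgroup G) ≤ F M) {t : G} (ht : t ∈ M) (htt : t * t = 1) : t ∈ F M := by
  have hn : ((F M).subgroupOf M).Normal :=
    (Subgroup.normal_subgroupOf_iff_le_normalizer (h.le M hM)).mpr (h.nrm M hM)
  have h1 : ¬ 2 ∣ (F M).index := fun h1 =>
    P.not_dvd_index (h1.trans (Subgroup.index_dvd_of_le hPF))
  have h2 : ¬ 2 ∣ ((F M).subgroupOf M).index := by
    intro h2
    apply h1
    rw [← Subgroup.relIndex_mul_index (h.le M hM)]
    exact Dvd.dvd.mul_right h2 _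
  obtain ⟨k, hk⟩ : ∃ k, ((F M).subgroupOf M).index = 2 * k + 1 := by
    rw [← even_iff_two_dvd, Nat.not_even_iff_odd] at h2
    exact h2
  have h3 : (⟨t, ht⟩ : M) ^ ((F M).subgroupOf M).index ∈ (F M).subgroupOf M :=
    Subgroup.pow_index_mem _ _
  rw [hk, pow_succ, pow_mul] at h3
  have h4 : (⟨t, ht⟩ : M) ^ 2 = 1 := by
    rw [pow_two]
    exact Subtype.ext htt
  rw [h4, one_pow, one_mul] at h3
  exact h3

/-- An element of prime order `p` of `M ∖ F(M)`: `p ∤ |F(M)|`. -/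
theorem Sys.not_dvd [Finite G] (h : Sys F) {M : Subgroup G} (hM : MS M) {p : ℕ} (hp : p.Prime)
    {a : G} (haM : a ∈ M) (haF : a ∉ F M) (hap : a ^ p = 1) : ¬ p ∣ Nat.card (F M) := by
  have := Fact.mk hp
  intro hdvd
  have hpg : IsPGroup p (Subgroup.zpowers a) :=
    IsPGroup.of_card_dvd_pow (n := 1)
      (by rw [Nat.card_zpowers, pow_one]; exact orderOf_dvd_of_pow_eq_one hap)
  have hle : Subgroup.zpowers a ≤ Subgroup.normalizer (F M : Set G) :=
    Subgroup.zpowers_le.mpr (h.nrm M hM haM)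
  let _ : MulAction (Subgroup.zpowers a) (F M) :=
    { smul := fun g x => ⟨(g : G) * x * (g : G)⁻¹,
        (Subgroup.mem_normalizer_iff.mp (hle g.2) x).mp x.2⟩
      one_smul := fun x => Subtype.ext (by
        change (1 : G) * x * (1 : G)⁻¹ = x
        group)
      mul_smul := fun g g' x => Subtype.ext (by
        change ((g : G) * g') * x * ((g : G) * g')⁻¹ = g * (g' * x * (g' : G)⁻¹) * (g : G)⁻¹
        group) }
  have h1 := hpg.card_modEq_card_fixedPoints (F M)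
  have h2 : Nat.card (MulAction.fixedPoints (Subgroup.zpowers a) (F M)) = 1 := by
    rw [Nat.card_eq_one_iff_exists]
    refine ⟨⟨1, fun g => Subtype.ext ?_⟩, ?_⟩
    · change (g : G) * 1 * (g : G)⁻¹ = 1
      group
    · rintro ⟨⟨x, hx⟩, hfix⟩
      apply Subtype.ext
      apply Subtype.ext
      have h3 : a * x * a⁻¹ = x := congrArg Subtype.val (hfix ⟨a, Subgroup.mem_zpowers a⟩)
      refine h.fpf M hM a haM haF x hx ?_
      rw [mul_inv_eq_iff_eq_mul] at h3
      exact h3.symm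
  rw [h2] at h1
  have h3 := (Nat.modEq_zero_iff_dvd.mpr hdvd).symm.trans h1
  have h4 : p ∣ 1 := (Nat.modEq_zero_iff_dvd).mp h3.symm
  exact hp.one_lt.ne' (Nat.dvd_one.mp h4)

/-- `F(M) ∩ M^u = 1` for `u ∉ M`. -/
theorem Sys.inf_conj [Finite G] (h : Sys F) {M : Subgroup G} (hM : MS M) {u x : G} (hu : u ∉ M)
    (hx : x ∈ F M) (hx' : u⁻¹ * x * u ∈ M) : x = 1 := by
  by_contra hx1
  -- pass to prime order
  obtain ⟨p, hp, hpd⟩ := Nat.exists_prime_and_dvd (n := orderOf x)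
    (fun h1 => hx1 (orderOf_eq_one_iff.mp h1))
  have := Fact.mk hp
  set y := x ^ (orderOf x / p) with hy
  have hyo : orderOf y = p := orderOf_pow_orderOf_div (orderOf_pos x).ne' hpd
  have hy1 : y ≠ 1 := by
    intro h1
    rw [h1, orderOf_one] at hyo
    exact hp.one_lt.ne hyo
  have hyF : y ∈ F M := pow_mem hx _
  have hyM : u⁻¹ * y * u ∈ M := by
    have h1 : u⁻¹ * y * u = (u⁻¹ * x * u) ^ (orderOf x / p) := by
      have h2 := conj_pow (a := u⁻¹) (b := x) (i := orderOf x / p)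
      rw [inv_inv] at h2
      rw [h2]
    rw [h1]
    exact pow_mem hx' _
  have hyF' : u⁻¹ * y * u ∉ F M := by
    intro h1
    have h2 : u⁻¹ ∉ M := fun h3 => hu (inv_mem_iff.mp h3)
    apply hy1
    refine h.eq_one hM h2 hyF ?_
    rw [inv_inv]
    exact h1
  have h1 : (u⁻¹ * y * u) ^ p = 1 := by
    have h2 := conj_pow (a := u⁻¹) (b := y) (i := p)
    rw [inv_inv] at h2
    rw [h2, ← hyo, pow_orderOf_eq_one]
    group
  refine h.not_dvd hM hp hyM hyF' h1 ?_
  rw [← hyo]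
  exact Subgroup.orderOf_dvd_natCard _ hyF

end Cfsg.Agent.H547.FrobSys
end

-- part: H547/FrobSysMain
section
/-!
# Frobenius systems (S4235): the strongly embedded subgroup `M` and the rank one set-up
-/

set_option autoImplicit false

namespace Cfsg.Agent.H547.FrobSys

open scoped Pointwise commutatorElement
open Subgroup

universe u

variable {G : Type u} [Group G] {F : Subgroup G → Subgroup G}

/-- The situation: `M` is maximal solvable and `F(M)` contains the Sylow `2`-subgroup `P`. -/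
structure Ctx (F : Subgroup G → Subgroup G) (M : Subgroup G) (P : Sylow 2 G) : Prop where
  FT : ∀ (K : Type u) [Group K] [Finite K], Odd (Nat.card K) → Group.IsSolvable K
  sys : Sys F
  hns : ¬ Group.IsSolvable G
  hM : MS M
  hPF : (P : Subgroup G) ≤ F M

variable {M : Subgroup G} {P : Sylow 2 G}

theorem Ctx.ne_top (c : Ctx F M P) : M ≠ ⊤ := by
  intro h1
  apply c.hns
  have h2 := c.hM.1
  rw [h1] at h2
  exact Group.isSolvable_of_surjective (f := (⊤ : Subgroup G).subtype) (fun g => ⟨⟨g, trivial⟩, rfl⟩)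

theorem Ctx.exists_inv [Finite G] (c : Ctx F M P) : ∃ x ∈ P, ∃ y ∈ P, x ≠ 1 ∧ y ≠ 1 ∧ x ≠ y ∧
    x * x = 1 ∧ y * y = 1 ∧ x * y = y * x := c.sys.exists_four c.FT c.hns P

theorem Ctx.even_F [Finite G] (c : Ctx F M P) : Even (Nat.card (F M)) := by
  obtain ⟨x, hx, y, hy, hx1, hy1, hxy, hxx, hyy, hc⟩ := c.exists_inv
  have h1 : orderOf x = 2 := orderOf_eq_prime (by rw [pow_two]; exact hxx) hx1
  rw [even_iff_two_dvd, ← h1]
  exact Subgroup.orderOf_dvd_natCard _ (c.hPF hx)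

theorem Ctx.mem_F [Finite G] (c : Ctx F M P) {t : G} (ht : t ∈ M) (htt : t * t = 1) : t ∈ F M :=
  c.sys.mem_of_sq c.hM P c.hPF ht htt

theorem Ctx.strong [Finite G] (c : Ctx F M P) : Cfsg.IsStronglyEmbedded M := by
  refine ⟨c.ne_top, ?_, ?_⟩
  · exact even_iff_two_dvd.mpr ((even_iff_two_dvd.mp c.even_F).trans
      (Subgroup.card_dvd_of_le (c.sys.le M c.hM)))
  · intro g hg
    by_contra hcon
    rw [Nat.not_odd_iff_even, even_iff_two_dvd] at hcon
    have := Fact.mk Nat.prime_two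
    obtain ⟨⟨t, htMM⟩, ht⟩ := exists_prime_orderOf_dvd_card' 2 hcon
    rw [Subgroup.orderOf_mk] at ht
    obtain ⟨htM, ht'⟩ := Subgroup.mem_inf.mp htMM
    have htt : t * t = 1 := by
      rw [← pow_two, ← ht, pow_orderOf_eq_one]
    obtain ⟨s, hs, hst⟩ := ht'
    have hst' : g * s * g⁻¹ = t := hst
    have hss : s * s = 1 := by
      have h1 : s = g⁻¹ * t * g := by rw [← hst']; group
      rw [h1]
      calc g⁻¹ * t * g * (g⁻¹ * t * g) = g⁻¹ * (t * t) * g := by group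
        _ = 1 := by rw [htt]; group
    have h1 := c.sys.eq_one c.hM hg (c.mem_F hs hss) (by rw [hst']; exact c.mem_F htM htt)
    rw [h1, mul_one, mul_inv_cancel] at hst'
    rw [← hst', orderOf_one] at ht
    norm_num at ht

/-- there is an involution outside `M` -/
theorem Ctx.exists_u [Finite G] (c : Ctx F M P) : ∃ u : G, u ∉ M ∧ u * u = 1 ∧ u ≠ 1 := by
  obtain ⟨x, hx, y, hy, hx1, hy1, hxy, hxx, hyy, hc⟩ := c.exists_inv
  obtain ⟨g, hg⟩ : ∃ g, g ∉ M := by
    by_contra hcon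
    push Not at hcon
    exact c.ne_top ((Subgroup.eq_top_iff' M).mpr hcon)
  have hgx : (g * x * g⁻¹) * (g * x * g⁻¹) = 1 := by
    calc g * x * g⁻¹ * (g * x * g⁻¹) = g * (x * x) * g⁻¹ := by group
      _ = 1 := by rw [hxx]; group
  refine ⟨g * x * g⁻¹, ?_, hgx, ?_⟩
  · intro h1
    exact hx1 (c.sys.eq_one c.hM hg (c.hPF hx) (c.mem_F h1 hgx))
  · intro h1
    rw [mul_inv_eq_one] at h1
    exact hx1 (mul_eq_left.mp h1)

theorem mem_map_conj {A : Subgroup G} {g x : G} :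
    x ∈ A.map (MulAut.conj g).toMonoidHom ↔ g⁻¹ * x * g ∈ A := by
  constructor
  · rintro ⟨y, hy, rfl⟩
    change g⁻¹ * (g * y * g⁻¹) * g ∈ A
    have h1 : g⁻¹ * (g * y * g⁻¹) * g = y := by group
    rw [h1]
    exact hy
  · intro h1
    refine ⟨g⁻¹ * x * g, h1, ?_⟩
    change g * (g⁻¹ * x * g) * g⁻¹ = x
    group

/-- `F(M) ∩ D = 1` -/
theorem Ctx.inf_D [Finite G] (c : Ctx F M P) {u x : G} (hu : u ∉ M) (hx : x ∈ F M)
    (hxD : x ∈ M ⊓ M.map (MulAut.conj u).toMonoidHom) : x = 1 :=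
  c.sys.inf_conj c.hM hu hx (mem_map_conj.mp hxD.2)

theorem orderOf_two {x : G} (hx1 : x ≠ 1) (hxx : x * x = 1) : orderOf x = 2 :=
  orderOf_eq_prime (by rw [pow_two]; exact hxx) hx1

/-- `M = F(M) D`: each element of `M` is `f d` -/
theorem Ctx.exists_mul [Finite G] (c : Ctx F M P) {u : G} (hu : u ∉ M) (huu : u * u = 1)
    (hu1 : u ≠ 1) {m : G} (hm : m ∈ M) : ∃ d ∈ M ⊓ M.map (MulAut.conj u).toMonoidHom,
    ∃ f ∈ F M, m = d * f := by
  obtain ⟨s, hs, y, hy, hs1, hy1, hsy, hss, hyy, -⟩ := c.exists_inv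
  have hsF := c.hPF hs
  have hsM := c.sys.le M c.hM hsF
  have hmsM : m * s * m⁻¹ ∈ M := mul_mem (mul_mem hm hsM) (inv_mem hm)
  have hms2 : (m * s * m⁻¹) * (m * s * m⁻¹) = 1 := by
    calc m * s * m⁻¹ * (m * s * m⁻¹) = m * (s * s) * m⁻¹ := by group
      _ = 1 := by rw [hss]; group
  have hms1 : m * s * m⁻¹ ≠ 1 := by
    intro h1
    rw [mul_inv_eq_one] at h1
    exact hs1 (mul_eq_left.mp h1)
  obtain ⟨⟨d, hd, hds⟩, -⟩ := Cfsg.Agent.S1225.result M c.strong u (orderOf_two hu1 huu) hu s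
    (m * s * m⁻¹) (orderOf_two hs1 hss) hsM (orderOf_two hms1 hms2) hmsM
  refine ⟨d, hd, d⁻¹ * m, ?_, by group⟩
  refine c.sys.cent c.hM hsF hs1 ?_
  have h1 : d * s = m * s * m⁻¹ * d := by
    rw [← hds]; group
  calc s * (d⁻¹ * m) = d⁻¹ * (d * s) * (d⁻¹ * m) := by group
    _ = d⁻¹ * m * s := by rw [h1]; group

/-! ### a normal subgroup of odd index is everything -/

theorem sq_mem_of_odd [Finite G] {L : Subgroup G} (hL : L.Normal) (hodd : Odd L.index) {t : G}
    (htt : t * t = 1) : t ∈ L := by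
  obtain ⟨k, hk⟩ := hodd
  have h3 : t ^ L.index ∈ L := Subgroup.pow_index_mem _ _
  rw [hk, pow_succ, pow_mul, pow_two, htt, one_pow, one_mul] at h3
  exact h3

theorem Ctx.eq_top [Finite G] (c : Ctx F M P) {u : G} (hu : u ∉ M) (huu : u * u = 1)
    (hu1 : u ≠ 1) {L : Subgroup G} (hL : L.Normal) (hodd : Odd L.index) : L = ⊤ := by
  obtain ⟨s, hs, y, hy, hs1, hy1, hsy, hss, hyy, -⟩ := c.exists_inv
  have hsM := c.sys.le M c.hM (c.hPF hs)
  have hyM := c.sys.le M c.hM (c.hPF hy)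
  set D := M ⊓ M.map (MulAut.conj u).toMonoidHom with hD
  have huL : u ∈ L := sq_mem_of_odd hL hodd huu
  -- `L ∩ M` is strongly embedded in `L`
  have hse : Cfsg.IsStronglyEmbedded (M.subgroupOf L) := by
    refine ⟨?_, ?_, ?_⟩
    · intro h1
      have h2 : (⟨u, huL⟩ : L) ∈ M.subgroupOf L := by rw [h1]; exact Subgroup.mem_top _
      exact hu h2
    · have h1 : orderOf (⟨⟨s, sq_mem_of_odd hL hodd hss⟩, hsM⟩ : M.subgroupOf L) = 2 := by
        apply orderOf_two
        · intro h2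
          exact hs1 (congrArg (fun x : M.subgroupOf L => ((x : L) : G)) h2)
        · exact Subtype.ext (Subtype.ext hss)
      rw [even_iff_two_dvd, ← h1]
      exact _root_.orderOf_dvd_natCard _
    · intro g hg
      have hg' : (g : G) ∉ M := hg
      have h1 := c.strong.2.2 g hg'
      have h2 : Nat.card ↥(M.subgroupOf L ⊓ (M.subgroupOf L).map (MulAut.conj g).toMonoidHom) ∣
          Nat.card ↥(M ⊓ M.map (MulAut.conj (g : G)).toMonoidHom) := by
        have h3 : (M.subgroupOf L ⊓ (M.subgroupOf L).map (MulAut.conj g).toMonoidHom).map L.subtype ≤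
            M ⊓ M.map (MulAut.conj (g : G)).toMonoidHom := by
          rintro _ ⟨x, hx, rfl⟩
          obtain ⟨hx1, hx2⟩ := Subgroup.mem_inf.mp hx
          refine Subgroup.mem_inf.mpr ⟨hx1, ?_⟩
          rw [mem_map_conj] at hx2 ⊢
          exact hx2
        have h4 := Subgroup.card_dvd_of_le h3
        rwa [Nat.card_congr ((M.subgroupOf L ⊓ (M.subgroupOf L).map
          (MulAut.conj g).toMonoidHom).equivMapOfInjective L.subtype L.subtype_injective).symm.toEquiv] at h4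
      exact h1.of_dvd_nat h2
  -- `D ≤ L`
  have hDL : D ≤ L := by
    intro d hd
    obtain ⟨hdM, hdu⟩ := Subgroup.mem_inf.mp hd
    have hsL : s ∈ L := sq_mem_of_odd hL hodd hss
    have ht2 : (d * s * d⁻¹) * (d * s * d⁻¹) = 1 := by
      calc d * s * d⁻¹ * (d * s * d⁻¹) = d * (s * s) * d⁻¹ := by group
        _ = 1 := by rw [hss]; group
    have ht1 : d * s * d⁻¹ ≠ 1 := by
      intro h1
      rw [mul_inv_eq_one] at h1
      exact hs1 (mul_eq_left.mp h1)
    have htL : d * s * d⁻¹ ∈ L := sq_mem_of_odd hL hodd ht2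
    have htM : d * s * d⁻¹ ∈ M := mul_mem (mul_mem hdM hsM) (inv_mem hdM)
    obtain ⟨⟨e, he, hes⟩, -⟩ := Cfsg.Agent.S1225.result (M.subgroupOf L) hse ⟨u, huL⟩
      (orderOf_two (fun h => hu1 (congrArg Subtype.val h)) (Subtype.ext huu)) hu ⟨s, hsL⟩
      ⟨d * s * d⁻¹, htL⟩ (orderOf_two (fun h => hs1 (congrArg Subtype.val h)) (Subtype.ext hss)) hsM
      (orderOf_two (fun h => ht1 (congrArg Subtype.val h)) (Subtype.ext ht2)) htM
    have hes' : (e : G) * s * (e : G)⁻¹ = d * s * d⁻¹ := congrArg Subtype.val hes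
    obtain ⟨he1, he2⟩ := Subgroup.mem_inf.mp he
    rw [mem_map_conj] at he2
    have heD : (e : G) ∈ D := by
      refine Subgroup.mem_inf.mpr ⟨he1, ?_⟩
      rw [mem_map_conj]
      exact he2
    have h1 : (e : G)⁻¹ * d ∈ F M := by
      refine c.sys.cent c.hM (c.hPF hs) hs1 ?_
      calc s * ((e : G)⁻¹ * d) = (e : G)⁻¹ * ((e : G) * s * (e : G)⁻¹) * d := by group
        _ = (e : G)⁻¹ * d * s := by rw [hes']; group
    have h2 := c.inf_D hu h1 (mul_mem (inv_mem heD) hd)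
    rw [inv_mul_eq_one] at h2
    rw [← h2]
    exact e.2
  -- a nontrivial element of `D`
  obtain ⟨⟨δ, hδ, hδs⟩, -⟩ := Cfsg.Agent.S1225.result M c.strong u (orderOf_two hu1 huu) hu s
    y (orderOf_two hs1 hss) hsM (orderOf_two hy1 hyy) hyM
  have hδ1 : δ ≠ 1 := by
    rintro rfl
    apply hsy
    rw [← hδs]
    group
  have hδF : δ ∉ F M := fun h1 => hδ1 (c.inf_D hu h1 hδ)
  have hFL : F M ≤ L := by
    intro f hf
    obtain ⟨v, hv, rfl⟩ := c.sys.surj c.hM (Subgroup.mem_inf.mp hδ).1 hδF hf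
    have h1 : v⁻¹ * (δ * v * δ⁻¹) = (v⁻¹ * δ * v) * δ⁻¹ := by group
    rw [h1]
    refine mul_mem ?_ (inv_mem (hDL hδ))
    have h2 := hL.conj_mem δ (hDL hδ) v⁻¹
    rwa [inv_inv] at h2
  have hML : M ≤ L := by
    intro m hm
    obtain ⟨d, hd, f, hf, rfl⟩ := c.exists_mul hu huu hu1 hm
    exact mul_mem (hDL hd) (hFL hf)
  -- Frattini
  have := Fact.mk Nat.prime_two
  have h1 := Sylow.normalizer_sup_eq_top' P (c.hPF.trans hFL)
  rw [eq_top_iff, ← h1, sup_le_iff]
  refine ⟨?_, le_rfl⟩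
  intro g hg
  apply hML
  by_contra hgM
  have h2 : g * s * g⁻¹ ∈ P := (Subgroup.mem_normalizer_iff.mp hg s).mp hs
  exact hs1 (c.sys.eq_one c.hM hgM (c.hPF hs) (c.hPF h2))

/-! ### the rank one set-up -/

open MulAction in
theorem Ctx.two_trans [Finite G] (c : Ctx F M P) : MulAction.IsMultiplyPretransitive G (G ⧸ M) 2 := by
  have key : ∀ g₁ g₂ : G, g₁ ∉ M → g₂ ∉ M → ∃ h ∈ M, g₂⁻¹ * (h * g₁) ∈ M := by
    rcases Cfsg.Agent.S1220.result M c.strong with h | ⟨-, h⟩
    · exact h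
    · exfalso
      have hodd : Odd (Nat.card (Cfsg.oddCore G)) := by
        have h1 : (Nat.card (Cfsg.pPrimeCore 2 G)).Coprime 2 :=
          Cfsg.Agent.Lib.Cores.pPrimeCore_coprime 2
        exact Nat.coprime_two_right.mp h1
      have h1 : Cfsg.oddCore G = ⊥ := c.sys.eq_bot_of_solvable c.FT c.hns _
        (Cfsg.Agent.Lib.Cores.pPrimeCore_normal 2) (c.FT _ hodd)
      rw [h1, bot_sup_eq] at h
      exact c.ne_top h
  rw [is_two_pretransitive_iff]
  intro a b x y hab hxy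
  induction a using QuotientGroup.induction_on with | _ g₁ =>
  induction b using QuotientGroup.induction_on with | _ g₂ =>
  induction x using QuotientGroup.induction_on with | _ g₃ =>
  induction y using QuotientGroup.induction_on with | _ g₄ =>
  have h12 : g₁⁻¹ * g₂ ∉ M := fun h => hab (QuotientGroup.eq.mpr h)
  have h34 : g₃⁻¹ * g₄ ∉ M := fun h => hxy (QuotientGroup.eq.mpr h)
  obtain ⟨h, hM, hh⟩ := key _ _ h12 h34
  refine ⟨g₃ * h * g₁⁻¹, ?_, ?_⟩
  · change ((g₃ * h * g₁⁻¹ * g₁ : G) : G ⧸ M) = (g₃ : G ⧸ M)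
    rw [QuotientGroup.eq]
    have h1 : (g₃ * h * g₁⁻¹ * g₁)⁻¹ * g₃ = h⁻¹ := by group
    rw [h1]
    exact inv_mem hM
  · change ((g₃ * h * g₁⁻¹ * g₂ : G) : G ⧸ M) = (g₄ : G ⧸ M)
    rw [QuotientGroup.eq]
    have h1 : (g₃ * h * g₁⁻¹ * g₂)⁻¹ * g₄ = ((g₃⁻¹ * g₄)⁻¹ * (h * (g₁⁻¹ * g₂)))⁻¹ := by group
    rw [h1]
    exact inv_mem hh

theorem stab_one (M : Subgroup G) : MulAction.stabilizer G ((1 : G) : G ⧸ M) = M :=
  MulAction.stabilizer_quotient M

theorem stab_u (M : Subgroup G) (u : G) : MulAction.stabilizer G (u • ((1 : G) : G ⧸ M)) =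
    M.map (MulAut.conj u).toMonoidHom := by
  rw [MulAction.stabilizer_smul_eq_stabilizer_map_conj, stab_one]

theorem Ctx.faithful [Finite G] (c : Ctx F M P) : FaithfulSMul G (G ⧸ M) := by
  refine ⟨fun {a b} hab => ?_⟩
  have hK : M.normalCore = ⊥ := c.sys.eq_bot_of_solvable c.FT c.hns _ inferInstance (by
    have := c.hM.1
    exact Group.isSolvable_of_isSolvable_injective (f := Subgroup.inclusion M.normalCore_le)
      (Subgroup.inclusion_injective _))
  have h1 : b⁻¹ * a ∈ M.normalCore := by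
    intro g
    have h2 := hab ((g⁻¹ : G) : G ⧸ M)
    change ((a * g⁻¹ : G) : G ⧸ M) = ((b * g⁻¹ : G) : G ⧸ M) at h2
    rw [QuotientGroup.eq] at h2
    have h3 : g * (b⁻¹ * a) * g⁻¹ = ((a * g⁻¹)⁻¹ * (b * g⁻¹))⁻¹ := by group
    rw [h3]
    exact inv_mem h2
  rw [hK, Subgroup.mem_bot, inv_mul_eq_one] at h1
  exact h1.symm

theorem Ctx.setup [Finite G] (c : Ctx F M P) {u : G} (hu : u ∉ M) (huu : u * u = 1)
    (hu1 : u ≠ 1) : Cfsg.IsRankOneSetup G (G ⧸ M) ((1 : G) : G ⧸ M) u (F M) where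
  two_transitive := c.two_trans
  mul_self := huu
  ne_one := hu1
  not_mem := by rw [stab_one]; exact hu
  le := by rw [stab_one]; exact c.sys.le M c.hM
  conj_mem := by
    rw [stab_one]
    exact fun h hh x hx => c.sys.conj_mem c.hM hh hx
  inf_eq_bot := by
    rw [stab_u, Subgroup.eq_bot_iff_forall]
    intro x hx
    obtain ⟨hx1, hx2⟩ := Subgroup.mem_inf.mp hx
    exact c.inf_D hu hx1 (Subgroup.mem_inf.mpr ⟨c.sys.le M c.hM hx1, hx2⟩)
  sup_eq := by
    rw [stab_u, stab_one]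
    apply le_antisymm
    · exact sup_le (c.sys.le M c.hM) inf_le_left
    · intro m hm
      obtain ⟨d, hd, f, hf, rfl⟩ := c.exists_mul hu huu hu1 hm
      exact mul_mem ((le_sup_right : _ ≤ F M ⊔ _) hd) ((le_sup_left : F M ≤ _) hf)
  even_card := c.even_F
  odd_card := by
    rw [stab_u, stab_one]
    exact c.strong.2.2 u hu

/-! ### Orders -/

theorem Ctx.card_M [Finite G] (c : Ctx F M P) {u : G} (hu : u ∉ M) (huu : u * u = 1)
    (hu1 : u ≠ 1) : Nat.card M =
      Nat.card ↥(M ⊓ M.map (MulAut.conj u).toMonoidHom) * Nat.card (F M) := by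
  rw [← Nat.card_prod]
  symm
  let φ : ↥(M ⊓ M.map (MulAut.conj u).toMonoidHom) × F M → M := fun x =>
    ⟨(x.1 : G) * x.2, mul_mem (Subgroup.mem_inf.mp x.1.2).1 (c.sys.le M c.hM x.2.2)⟩
  refine Nat.card_congr (Equiv.ofBijective φ ⟨?_, ?_⟩)
  · rintro ⟨⟨d, hd⟩, ⟨f, hf⟩⟩ ⟨⟨d', hd'⟩, ⟨f', hf'⟩⟩ h1
    have h2 : d * f = d' * f' := congrArg Subtype.val h1
    have h3 : d'⁻¹ * d = f' * f⁻¹ := by
      rw [inv_mul_eq_iff_eq_mul, ← mul_assoc, ← h2]
      group
    have h4 : d'⁻¹ * d = 1 := c.inf_D hu (by rw [h3]; exact mul_mem hf' (inv_mem hf))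
      (mul_mem (inv_mem hd') hd)
    have h5 : d' = d := inv_mul_eq_one.mp h4
    subst h5
    have h6 : f = f' := mul_left_cancel h2
    subst h6
    rfl
  · rintro ⟨m, hm⟩
    obtain ⟨d, hd, f, hf, rfl⟩ := c.exists_mul hu huu hu1 hm
    exact ⟨⟨⟨d, hd⟩, ⟨f, hf⟩⟩, rfl⟩

open MulAction in
theorem Ctx.card_index [Finite G] (c : Ctx F M P) {u : G} (hu : u ∉ M) (huu : u * u = 1)
    (hu1 : u ≠ 1) : Nat.card (G ⧸ M) = Nat.card (F M) + 1 := by
  rw [← Finite.card_option]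
  symm
  let φ : Option (F M) → G ⧸ M := fun x => x.elim ((1 : G) : G ⧸ M) (fun f => (((f : G) * u : G) : G ⧸ M))
  have hne : ∀ f : F M, (((f : G) * u : G) : G ⧸ M) ≠ ((1 : G) : G ⧸ M) := by
    intro f h1
    rw [QuotientGroup.eq, mul_one, inv_mem_iff] at h1
    apply hu
    have h2 := mul_mem (inv_mem (c.sys.le M c.hM f.2)) h1
    rwa [inv_mul_cancel_left] at h2
  refine Nat.card_congr (Equiv.ofBijective φ ⟨?_, ?_⟩)
  · rintro (_ | f) (_ | f') h1
    · rfl
    · exact absurd h1.symm (hne f')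
    · exact absurd h1 (hne f)
    · have h2 : (((f : G) * u : G) : G ⧸ M) = (((f' : G) * u : G) : G ⧸ M) := h1
      rw [QuotientGroup.eq] at h2
      have h3 : u⁻¹ * ((f : G)⁻¹ * f') * u ∈ M := by
        have h4 : ((f : G) * u)⁻¹ * (f' * u) = u⁻¹ * ((f : G)⁻¹ * f') * u := by group
        rwa [h4] at h2
      have h5 := c.sys.inf_conj c.hM hu (mul_mem (inv_mem f.2) f'.2) h3
      rw [inv_mul_eq_one] at h5
      rw [Subtype.ext h5]
  · intro x
    by_cases hx : x = ((1 : G) : G ⧸ M)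
    · exact ⟨none, hx.symm⟩
    · have hu' : ((u : G) : G ⧸ M) ≠ ((1 : G) : G ⧸ M) := by
        intro h1
        rw [QuotientGroup.eq, mul_one, inv_mem_iff] at h1
        exact hu h1
      obtain ⟨h, h1, h2⟩ := (is_two_pretransitive_iff.mp c.two_trans) hu'.symm (Ne.symm hx)
      have hM : h ∈ M := by
        have h3 : ((h * 1 : G) : G ⧸ M) = ((1 : G) : G ⧸ M) := h1
        rw [mul_one, QuotientGroup.eq, mul_one, inv_mem_iff] at h3
        exact h3
      obtain ⟨d, hd, f, hf, hdf⟩ := c.exists_mul hu huu hu1 (inv_mem hM)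
      refine ⟨some ⟨f⁻¹, inv_mem hf⟩, ?_⟩
      rw [← h2]
      change ((f⁻¹ * u : G) : G ⧸ M) = ((h * u : G) : G ⧸ M)
      rw [QuotientGroup.eq]
      have h3 : h = f⁻¹ * d⁻¹ := by
        rw [← inv_inv h, hdf]; group
      rw [h3]
      have h4 : (f⁻¹ * u)⁻¹ * (f⁻¹ * d⁻¹ * u) = (u⁻¹ * d * u)⁻¹ := by group
      rw [h4]
      exact inv_mem (mem_map_conj.mp (Subgroup.mem_inf.mp hd).2)

theorem Ctx.card_G [Finite G] (c : Ctx F M P) {u : G} (hu : u ∉ M) (huu : u * u = 1)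
    (hu1 : u ≠ 1) : Nat.card G = (Nat.card (F M) + 1) *
      (Nat.card ↥(M ⊓ M.map (MulAut.conj u).toMonoidHom) * Nat.card (F M)) := by
  rw [← c.card_index hu huu hu1, ← c.card_M hu huu hu1]
  exact Subgroup.card_eq_card_quotient_mul_card_subgroup M

/-- if `F(M) = P` then `|D| + 1 ≤ |Z(P)|` -/
theorem Ctx.card_D_le [Finite G] (c : Ctx F M P) {u : G} (hu : u ∉ M) (hFP : F M = (P : Subgroup G)) :
    Nat.card ↥(M ⊓ M.map (MulAut.conj u).toMonoidHom) + 1 ≤ Nat.card (Subgroup.center (P : Subgroup G)) := by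
  -- a central involution of `P`
  obtain ⟨x, hx, y, hy, hx1, hy1, hxy, hxx, hyy, -⟩ := c.exists_inv
  have hPnt : Nontrivial (P : Subgroup G) := ⟨⟨x, hx⟩, 1, fun h1 => hx1 (congrArg Subtype.val h1)⟩
  have hZ : Nontrivial (Subgroup.center (P : Subgroup G)) := P.2.center_nontrivial
  have hZp : IsPGroup 2 (Subgroup.center (P : Subgroup G)) := P.2.to_subgroup _
  have := Fact.mk Nat.prime_two
  obtain ⟨⟨⟨z, hzP⟩, hzZ⟩, hz⟩ : ∃ z : Subgroup.center (P : Subgroup G), orderOf z = 2 := by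
    have h1 : 2 ∣ Nat.card (Subgroup.center (P : Subgroup G)) := by
      rcases hZp.card_eq_or_dvd with h2 | h2
      · exact absurd h2 (Finite.one_lt_card_iff_nontrivial.mpr hZ).ne'
      · exact h2
    exact exists_prime_orderOf_dvd_card' 2 h1
  rw [Subgroup.orderOf_mk, Subgroup.orderOf_mk] at hz
  have hz1 : z ≠ 1 := by
    rintro rfl
    rw [orderOf_one] at hz
    norm_num at hz
  have hzc : ∀ x ∈ P, x * z = z * x := by
    intro x hx
    exact congrArg Subtype.val (Subgroup.mem_center_iff.mp hzZ ⟨x, hx⟩)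
  -- `M` normalises `P`
  have hMP : ∀ m ∈ M, ∀ x ∈ (P : Subgroup G), m * x * m⁻¹ ∈ (P : Subgroup G) := by
    intro m hm x hx
    have hx' : x ∈ F M := by rw [hFP]; exact hx
    have h1 := c.sys.conj_mem c.hM hm hx'
    rwa [hFP] at h1
  have hcen : ∀ d ∈ M, ∀ hd : d * z * d⁻¹ ∈ (P : Subgroup G),
      (⟨d * z * d⁻¹, hd⟩ : (P : Subgroup G)) ∈ Subgroup.center (P : Subgroup G) := by
    intro d hd hdP
    rw [Subgroup.mem_center_iff]
    rintro ⟨w, hw⟩
    apply Subtype.ext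
    change w * (d * z * d⁻¹) = d * z * d⁻¹ * w
    have h1 : d⁻¹ * w * d ∈ (P : Subgroup G) := by
      have := hMP d⁻¹ (inv_mem hd) w hw
      rwa [inv_inv] at this
    have h2 := hzc _ h1
    calc w * (d * z * d⁻¹) = d * ((d⁻¹ * w * d) * z) * d⁻¹ := by group
      _ = d * z * d⁻¹ * w := by rw [h2]; group
  rw [← Finite.card_option]
  let φ : Option ↥(M ⊓ M.map (MulAut.conj u).toMonoidHom) → Subgroup.center (P : Subgroup G) := fun o =>
    o.elim 1 (fun d => ⟨⟨(d : G) * z * (d : G)⁻¹, hMP _ (Subgroup.mem_inf.mp d.2).1 z hzP⟩,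
      hcen _ (Subgroup.mem_inf.mp d.2).1 _⟩)
  refine Nat.card_le_card_of_injective φ ?_
  have hne : ∀ d : G, d * z * d⁻¹ ≠ 1 := by
    intro d h1
    rw [mul_inv_eq_one] at h1
    exact hz1 (mul_eq_left.mp h1)
  rintro (_ | ⟨d, hd⟩) (_ | ⟨d', hd'⟩) h1
  · rfl
  · exact absurd (congrArg (fun x : Subgroup.center (P : Subgroup G) => ((x : (P : Subgroup G)) : G)) h1).symm
      (hne d')
  · exact absurd (congrArg (fun x : Subgroup.center (P : Subgroup G) => ((x : (P : Subgroup G)) : G)) h1)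
      (hne d)
  · have h2 : d * z * d⁻¹ = d' * z * d'⁻¹ :=
      congrArg (fun x : Subgroup.center (P : Subgroup G) => ((x : (P : Subgroup G)) : G)) h1
    have h3 : d'⁻¹ * d ∈ F M := by
      refine c.sys.cent c.hM (c.hPF hzP) hz1 ?_
      calc z * (d'⁻¹ * d) = d'⁻¹ * (d' * z * d'⁻¹) * d := by group
        _ = d'⁻¹ * d * z := by rw [← h2]; group
    have h4 := c.inf_D hu h3 (mul_mem (inv_mem hd') hd)
    rw [inv_mul_eq_one] at h4
    subst h4
    rfl

/-- the arithmetic excluding `PSU(3, q)` -/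
theorem arith {t o d g : ℕ} (ht : 3 ≤ t) (ho : o ≠ 0) (hd : d ≠ 0) (hg : g ≠ 0)
    (h : ((t + 1) ^ 3 * o + 1) * (g * d * o) = (t * (t + 2)) * ((t + 2) * (t ^ 2 + t + 1))) :
    o = 1 ∧ g * d = t * (t + 2) := by
  have hm : 0 < g * d * o := Nat.pos_of_ne_zero (mul_ne_zero (mul_ne_zero hg hd) ho)
  set m := g * d * o with hm'
  -- in `ℤ`
  have h1 : ((m : ℤ) - t * (t + 2)) = (t + 1) ^ 3 * (t * (t + 2) - o * m) := by
    have h2 : (((t : ℤ) + 1) ^ 3 * o + 1) * m = (t * (t + 2)) * ((t + 2) * (t ^ 2 + t + 1)) := by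
      exact_mod_cast h
    linear_combination h2
  have ho1 : (1 : ℤ) ≤ o := by exact_mod_cast Nat.one_le_iff_ne_zero.mpr ho
  have hm1 : (1 : ℤ) ≤ m := by exact_mod_cast hm
  have ht1 : (3 : ℤ) ≤ t := by exact_mod_cast ht
  set x : ℤ := t * (t + 2) - o * m with hx
  have hx0 : x = 0 := by
    rcases lt_trichotomy x 0 with h2 | h2 | h2
    · exfalso
      have h3 : x ≤ -1 := by omega
      have h4 : ((t : ℤ) + 1) ^ 3 * x ≤ ((t : ℤ) + 1) ^ 3 * (-1) :=
        mul_le_mul_of_nonneg_left h3 (by positivity)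
      nlinarith only [h, h4]
    · exact h2
    · exfalso
      have h3 : (1 : ℤ) ≤ x := by omega
      have h4 : ((t : ℤ) + 1) ^ 3 * 1 ≤ ((t : ℤ) + 1) ^ 3 * x :=
        mul_le_mul_of_nonneg_left h3 (by positivity)
      have h5 : (m : ℤ) ≤ o * m := by nlinarith only [ho1]
      have h6 : (0 : ℤ) < ((t : ℤ) + 1) ^ 3 := by positivity
      linarith only [h, h2, h4, h5, h6]
  rw [hx0, mul_zero, sub_eq_zero] at h1
  have h2 : (o : ℤ) * m = 1 * m := by
    rw [one_mul]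
    have := hx
    rw [hx0] at this
    linarith only [h1, hx0]
  have h3 : (o : ℤ) = 1 := mul_right_cancel₀ (by omega : (m : ℤ) ≠ 0) h2
  have h4 : o = 1 := by exact_mod_cast h3
  refine ⟨h4, ?_⟩
  have h5 : m = t * (t + 2) := by exact_mod_cast h1
  rw [hm', h4, mul_one] at h5
  exact h5

theorem Ctx.not_psu [Finite G] (c : Ctx F M P) {K : Type} [Field K] [Fintype K] {n : ℕ}
    (hn : 2 ≤ n) (hK : Fintype.card K = (2 ^ n) ^ 2) (e : G ≃* Cfsg.PSU 3 K (2 ^ n)) : False := by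
  have := Fact.mk Nat.prime_two
  obtain ⟨u, hu, huu, hu1⟩ := c.exists_u
  have hfin : Finite (Cfsg.PSU 3 K (2 ^ n)) := Finite.of_equiv _ e.toEquiv
  let S : Sylow 2 (Cfsg.PSU 3 K (2 ^ n)) := P.mapSurjective (f := e.toMonoidHom) e.surjective
  obtain ⟨hS1, hS2, -⟩ := Cfsg.Agent.S1141.result hn hK S
  let eP : (P : Subgroup G) ≃* (S : Subgroup (Cfsg.PSU 3 K (2 ^ n))) :=
    (P : Subgroup G).equivMapOfInjective e.toMonoidHom e.injective
  have hP1 : Nat.card (P : Subgroup G) = (2 ^ n) ^ 3 := by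
    rw [Nat.card_congr eP.toEquiv]; exact hS1
  have hP2 : Nat.card (Subgroup.center (P : Subgroup G)) = 2 ^ n := by
    rw [Nat.card_congr (Subgroup.centerCongr eP).toEquiv]; exact hS2
  obtain ⟨t, ht⟩ : ∃ t, 2 ^ n = t + 1 := ⟨2 ^ n - 1, by
    have := Nat.one_le_two_pow (n := n); omega⟩
  have h4 : 4 ≤ 2 ^ n := by
    calc 4 = 2 ^ 2 := by norm_num
      _ ≤ 2 ^ n := Nat.pow_le_pow_right (by norm_num) hn
  have ht3 : 3 ≤ t := by omega
  have hcard := Cfsg.Agent.HKS.EndOrd.card_psu_three (F := K) (t := t) (by rw [← ht]; exact hK)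
  rw [← ht, ← Nat.card_congr e.toEquiv, c.card_G hu huu hu1, ht] at hcard
  obtain ⟨o, ho⟩ : Nat.card (P : Subgroup G) ∣ Nat.card (F M) := Subgroup.card_dvd_of_le c.hPF
  rw [hP1, ht] at ho
  have hd0 : Nat.card ↥(M ⊓ M.map (MulAut.conj u).toMonoidHom) ≠ 0 := Nat.card_pos.ne'
  have hdle := c.card_D_le hu
  set d := Nat.card ↥(M ⊓ M.map (MulAut.conj u).toMonoidHom) with hd
  have ho0 : o ≠ 0 := by
    rintro rfl
    rw [mul_zero] at ho
    exact Nat.card_pos.ne' ho
  set g := Nat.gcd 3 (t + 2) with hg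
  have hg3 : g ≤ 3 := Nat.le_of_dvd (by norm_num) (Nat.gcd_dvd_left 3 (t + 2))
  have hg0 : g ≠ 0 := Nat.gcd_ne_zero_left (by norm_num)
  have key : ((t + 1) ^ 3 * o + 1) * (g * d * o) = (t * (t + 2)) * ((t + 2) * (t ^ 2 + t + 1)) := by
    have h5 : 0 < (t + 1) ^ 3 := by positivity
    apply Nat.eq_of_mul_eq_mul_left h5
    calc (t + 1) ^ 3 * (((t + 1) ^ 3 * o + 1) * (g * d * o))
        = g * (((t + 1) ^ 3 * o + 1) * (d * ((t + 1) ^ 3 * o))) := by ring
      _ = (t + 1) ^ 3 * (t * ((t + 2) ^ 2 * (t ^ 2 + t + 1))) := by rw [← ho]; exact hcard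
      _ = (t + 1) ^ 3 * (t * (t + 2) * ((t + 2) * (t ^ 2 + t + 1))) := by ring
  obtain ⟨ho1, hgd⟩ := arith ht3 ho0 hd0 hg0 key
  have hFP : F M = (P : Subgroup G) := by
    symm
    apply Subgroup.eq_of_le_of_card_ge c.hPF
    rw [ho, ho1, mul_one, hP1, ht]
  have h5 := hdle hFP
  rw [hP2, ht] at h5
  have h6 : d ≤ t := by omega
  have h7 : t * (t + 2) ≤ 3 * t := by
    rw [← hgd]
    exact Nat.mul_le_mul hg3 h6
  nlinarith only [ht, h4, h7]

theorem Ctx.main [Finite G] (c : Ctx F M P) :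
    (∃ (K : Type) (_ : Field K) (_ : Fintype K), (∃ n : ℕ, 2 ≤ n ∧ Fintype.card K = 2 ^ n) ∧
        Nonempty (G ≃* Matrix.SpecialLinearGroup (Fin 2) K)) ∨
      Cfsg.Lie.IsoSuzuki G := by
  obtain ⟨u, hu, huu, hu1⟩ := c.exists_u
  obtain ⟨x, hx, y, hy, hx1, hy1, hxy, hxx, hyy, hc⟩ := c.exists_inv
  have := c.faithful
  obtain ⟨L, hL, hodd, hcases⟩ := Cfsg.Agent.S1136.result (c.setup hu huu hu1)
    ⟨x, y, hx1, hy1, hxy, hxx, hyy, hc⟩
  have hLtop := c.eq_top hu huu hu1 hL hodd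
  subst hLtop
  let e0 : G ≃* (⊤ : Subgroup G) := Subgroup.topEquiv.symm
  rcases hcases with ⟨K, hK1, hK2, ⟨n, hn, hK⟩, ⟨e⟩⟩ | ⟨K, hK1, hK2, m, hm, hK, ⟨e⟩⟩ | ⟨K, hK1, hK2, n, hn, hK, ⟨e⟩⟩
  · left
    have hchar : CharP K 2 := by
      have h2 := Fact.mk Nat.prime_two
      exact charP_of_card_eq_prime_pow hK
    obtain ⟨e2⟩ := Cfsg.Agent.WeakTI.PslTwo.nonempty_equiv (F := K)
    exact ⟨K, hK1, hK2, ⟨n, hn, hK⟩, ⟨(e0.trans e).trans e2.symm⟩⟩
  · right
    exact ⟨K, hK1, hK2, m, hm, hK, ⟨e0.trans e⟩⟩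
  · exact (c.not_psu hn hK (e0.trans e)).elim

end Cfsg.Agent.H547.FrobSys
end

-- part: S4235
section
set_option autoImplicit false
open scoped Pointwise
open Cfsg

namespace Cfsg.Agent.S4235

/-- Let G be a finite group. Call a subgroup maximal solvable if it is solvable and not properly contained in a solvable subgroup. Suppose F assigns to each maximal solvable subgroup M a normal subgroup F(M) of M such that: every element of M outside F(M) centralizes no non-identity element of F(M); F(M) meets each conjugate g F(M) g⁻¹ with g outside M trivially; and F(M) is nontrivial unless M is abelian. Then G is solvable, or G is isomorphic to SL(2, K) for a finite field K of characteristic 2 with at least 4 elements, or G is isomorphic to a Suzuki group. -/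
theorem result {G : Type*} [Group G] [Finite G] (F : Subgroup G → Subgroup G)
    (h : ∀ M : Subgroup G, (Group.IsSolvable M ∧ ∀ M' : Subgroup G, M < M' → ¬ Group.IsSolvable M') →
      F M ≤ M ∧ M ≤ Subgroup.normalizer (F M : Set G) ∧
      (∀ a ∈ M, a ∉ F M → ∀ x ∈ F M, x * a = a * x → x = 1) ∧
      (∀ g : G, g ∉ M → F M ⊓ (MulAut.conj g • F M) = ⊥) ∧
      (F M ≠ ⊥ ∨ IsMulCommutative M)) :
    Group.IsSolvable G ∨
      (∃ (K : Type) (_ : Field K) (_ : Fintype K), (∃ n : ℕ, 2 ≤ n ∧ Fintype.card K = 2 ^ n) ∧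
        Nonempty (G ≃* Matrix.SpecialLinearGroup (Fin 2) K)) ∨
      Cfsg.Lie.IsoSuzuki G := by
  by_cases hs : Group.IsSolvable G
  · exact Or.inl hs
  right
  have hsys : Cfsg.Agent.H547.FrobSys.Sys F :=
    ⟨fun M hM => (h M hM).1, fun M hM => (h M hM).2.1, fun M hM => (h M hM).2.2.1,
      fun M hM => (h M hM).2.2.2.1, fun M hM => (h M hM).2.2.2.2⟩
  obtain ⟨P⟩ : Nonempty (Sylow 2 G) := inferInstance
  obtain ⟨M, hM, hPM, hc⟩ : ∃ M : Subgroup G, Cfsg.Agent.H547.FrobSys.MS M ∧ (P : Subgroup G) ≤ M ∧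
      ¬ IsMulCommutative M := by
    by_contra hcon
    push Not at hcon
    exact hs (Cfsg.Agent.H547.FrobSys.solvable_of_comm
      (fun K _ _ hK => Cfsg.Agent.S0205.result hK) P hcon)
  have hF : F M ≠ ⊥ := (hsys.ne M hM).resolve_right hc
  have c : Cfsg.Agent.H547.FrobSys.Ctx F M P :=
    ⟨fun K _ _ hK => Cfsg.Agent.S0205.result hK, hsys, hs, hM,
      hsys.sylow_le (fun K _ _ hK => Cfsg.Agent.S0205.result hK) hs P hM hPM hF⟩
  exact c.main

end Cfsg.Agent.S4235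
end

private theorem dce_b3ff6b5eae57 : _root_.True := by
  try have : _root_.True := by simp only [_root_.MonoidHom.transferSylow.congr_simp]
  exact _root_.True.intro
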