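import Cfsg.Statements.S4240
import Cfsg.Agent.H548.SolvAct
import Cfsg.Agent.Prune
set_option linter.all false
open scoped Cfsg.Agent.FastGrp

set_option autoImplicit false
open Cfsg

namespace Cfsg.Agent.S4240

open Subgroup Cfsg.Agent.H548.NilMax Cfsg.Agent.H548.InvSub Cfsg.Agent.H548.NpcCase
  Cfsg.Agent.H548.SolvAct

/-- A nontrivial finite solvable group has `O^p(G) ≠ G` for some prime `p`. -/
theorem exists_pResidual_ne_top {G : Type*} [Group G] [Finite G] [Nontrivial G]
    [Group.IsSolvable G] : ∃ p : ℕ, p.Prime ∧ Cfsg.pResidual p G ≠ ⊤ := by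
  have hlt : commutator G < ⊤ := Group.IsSolvable.commutator_lt_top_of_nontrivial G
  have h1 : (commutator G).index ≠ 1 := fun h => hlt.ne (Subgroup.index_eq_one.mp h)
  obtain ⟨p, hp, hpd⟩ := Nat.exists_prime_and_dvd h1
  have : Fact p.Prime := ⟨hp⟩
  refine ⟨p, hp, ?_⟩
  intro htop
  have hcard : (commutator G).index = Nat.card (Abelianization G) := rfl
  rw [hcard] at hpd
  obtain ⟨x, hx⟩ := exists_prime_orderOf_dvd_card' p hpd
  obtain ⟨m, hm1, hm2⟩ : ∃ m : ℕ, Nat.card (Abelianization G) =
      p ^ (Nat.card (Abelianization G)).factorization p * m ∧ ¬ p ∣ m :=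
    ⟨_, (Nat.ordProj_mul_ordCompl_eq_self _ p).symm,
      Nat.not_dvd_ordCompl hp Nat.card_pos.ne'⟩
  let f : G →* Abelianization G := (powMonoidHom m).comp Abelianization.of
  have hf : ∀ g : G, (orderOf g).Coprime p → f g = 1 := by
    intro g hg
    have e1 : f g ^ orderOf g = 1 := by rw [← map_pow, pow_orderOf_eq_one, map_one]
    have e2 : f g ^ (p ^ (Nat.card (Abelianization G)).factorization p) = 1 := by
      change ((Abelianization.of g) ^ m) ^ _ = 1
      rw [← pow_mul, mul_comm m, ← hm1]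
      exact pow_card_eq_one'
    rw [← orderOf_eq_one_iff]
    exact Nat.eq_one_of_dvd_coprimes (hg.pow_right _) (orderOf_dvd_of_pow_eq_one e1)
      (orderOf_dvd_of_pow_eq_one e2)
  have hker : Cfsg.pResidual p G ≤ f.ker := by
    rw [Cfsg.pResidual, Subgroup.closure_le]
    intro g hg
    exact hf g hg
  rw [htop] at hker
  obtain ⟨g, hg⟩ := QuotientGroup.mk_surjective x
  have h2 : f g = 1 := hker (Subgroup.mem_top g)
  have h3 : x ^ m = 1 := by
    rw [← hg]; exact h2
  have h4 : p ∣ m := by
    rw [← hx]; exact orderOf_dvd_of_pow_eq_one h3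
  exact hm2 h4

/-- Let a finite group A act by automorphisms on a finite group G of order coprime to that of A. Suppose every maximal A-invariant proper subgroup of G is nilpotent while G is not. Then G is solvable, the order of G has the form p^a·q^b for two distinct primes p and q, and G has a normal A-invariant Sylow subgroup for some prime dividing its order. -/
theorem result {A G : Type*} [Group A] [Group G] [Finite A] [Finite G] [MulDistribMulAction A G]
    (hcop : (Nat.card A).Coprime (Nat.card G))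
    (hmax : ∀ H : Subgroup G, H ≠ ⊤ → (∀ a : A, ∀ x ∈ H, a • x ∈ H) →
      (∀ K : Subgroup G, H < K → (∀ a : A, ∀ x ∈ K, a • x ∈ K) → K = ⊤) → Group.IsNilpotent H)
    (hG : ¬ Group.IsNilpotent G) :
    Group.IsSolvable G ∧
      (∃ p q a b : ℕ, p.Prime ∧ q.Prime ∧ p ≠ q ∧ Nat.card G = p ^ a * q ^ b) ∧
      ∃ (p : ℕ) (P : Sylow p G), p.Prime ∧ p ∣ Nat.card G ∧ (P : Subgroup G).Normal ∧ (∀ a : A, ∀ x ∈ (P : Subgroup G), a • x ∈ (P : Subgroup G)) := by
  have hnil : ∀ H : Subgroup G, H ≠ ⊤ → Inv A H → Group.IsNilpotent H := by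
    intro H hH hHi
    obtain ⟨M, hHM, hM1, hM2, hM3⟩ := exists_max hHi hH
    exact nilp_of_le hHM (hmax M hM1 hM2 hM3)
  have hsolv : Group.IsSolvable G := solvable_of_all (A := A) _ G rfl hcop hnil
  refine ⟨hsolv, ?_⟩
  have hnt : Nontrivial G := by
    by_contra h
    rw [not_nontrivial_iff_subsingleton] at h
    exact hG inferInstance
  obtain ⟨p, hp, hN1⟩ := exists_pResidual_ne_top (G := G)
  have hpF : Fact p.Prime := ⟨hp⟩
  have hNn : (Cfsg.pResidual p G).Normal :=
    Cfsg.Agent.Transfer.NormalPComplement.pResidual_normal p G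
  have hNi : Inv A (Cfsg.pResidual p G) := by
    apply inv_of_map_eq
    intro a
    apply Subgroup.eq_of_le_of_card_ge
    · rw [Cfsg.pResidual, MonoidHom.map_closure, Subgroup.closure_le]
      rintro _ ⟨x, hx, rfl⟩
      apply Subgroup.subset_closure
      have : orderOf ((MulDistribMulAction.toMonoidHom G a) x) = orderOf x :=
        orderOf_injective (MulDistribMulAction.toMonoidHom G a) (MulAction.injective a) x
      change Nat.Coprime _ p
      rw [this]
      exact hx
    · rw [Subgroup.card_map_of_injective (MulAction.injective a)]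
  have hNnil : Group.IsNilpotent (Cfsg.pResidual p G) := hnil _ hN1 hNi
  have hQn : ∀ (q : ℕ) (_ : Fact q.Prime) (Q : Sylow q G), q ≠ p → (Q : Subgroup G).Normal := by
    intro q hq Q hqp
    have hQN : (Q : Subgroup G) ≤ Cfsg.pResidual p G := by
      intro x hx
      apply Cfsg.Agent.Transfer.NormalPComplement.mem_pResidual_of_coprime
      obtain ⟨k, hk⟩ := Q.isPGroup' ⟨x, hx⟩
      have hk' : x ^ q ^ k = 1 := congrArg Subtype.val hk
      apply Nat.Coprime.coprime_dvd_left (orderOf_dvd_of_pow_eq_one hk')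
      exact Nat.Coprime.pow_left k ((Nat.coprime_primes hq.out hp).mpr hqp)
    rw [← Subgroup.normalizer_eq_top_iff, ← Sylow.normalizer_sup_eq_top' Q hQN]
    exact (sup_eq_left.mpr (le_normalizer_of_nilp Q hNnil hQN)).symm
  obtain ⟨P, hP⟩ := exists_inv_sylow (A := A) (G := G) hcop (Or.inr hsolv) p
  have hPn : ¬ (P : Subgroup G).Normal := by
    intro hPn
    apply hG
    refine ((Group.isNilpotent_of_finite_tfae (G := G)).out 0 3 rfl rfl).mpr ?_
    intro q hq Q
    by_cases hqp : q = p
    · subst hqp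
      have := Sylow.unique_of_normal P hPn
      have h2 : Q = P := Subsingleton.elim Q P
      rw [h2]; exact hPn
    · exact hQn q hq Q hqp
  have hidx : (normalizer ((P : Subgroup G) : Set G)).index ≠ 1 := by
    intro h
    exact hPn (Subgroup.normalizer_eq_top_iff.mp (Subgroup.index_eq_one.mp h))
  obtain ⟨q, hq, hqd⟩ := Nat.exists_prime_and_dvd hidx
  have hqF : Fact q.Prime := ⟨hq⟩
  have hqp : q ≠ p := by
    rintro rfl
    exact not_dvd_index_of_le P Subgroup.le_normalizer hqd
  obtain ⟨Q, hQ⟩ := exists_inv_sylow (A := A) (G := G) hcop (Or.inr hsolv) q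
  have hQnorm := hQn q hqF Q hqp
  have hPQ : (P : Subgroup G) ⊔ (Q : Subgroup G) = ⊤ := by
    by_contra hne
    have hn := hnil _ hne (hP.sup hQ)
    exact not_dvd_index_of_le Q (le_sup_right.trans (le_normalizer_of_nilp P hn le_sup_left)) hqd
  have hQd : q ∣ Nat.card G := hqd.trans (Subgroup.index_dvd_card _)
  refine ⟨?_, q, Q, hq, hQd, hQnorm, hQ⟩
  obtain ⟨b, hb⟩ := IsPGroup.iff_card.mp Q.isPGroup'
  change Nat.card (Q : Subgroup G) = _ at hb
  obtain ⟨n, hn⟩ := IsPGroup.iff_card.mp P.isPGroup'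
  change Nat.card (P : Subgroup G) = _ at hn
  have e : (Q : Subgroup G).index = (Q : Subgroup G).relIndex P := by
    rw [← Subgroup.relIndex_sup_left, sup_comm, hPQ, Subgroup.relIndex_top_right]
  have h1 : (Q : Subgroup G).index ∣ p ^ n := by
    rw [e, ← hn]; exact Subgroup.relIndex_dvd_card _ _
  obtain ⟨a, -, ha⟩ := (Nat.dvd_prime_pow hp).mp h1
  refine ⟨p, q, a, b, hp, hq, hqp.symm, ?_⟩
  rw [← (Q : Subgroup G).card_mul_index, ha, hb, mul_comm]

end Cfsg.Agent.S4240
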