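import Cfsg.Statements.S4242
import Cfsg.Agent.S0072
import Cfsg.Agent.H548.NpcCase
set_option linter.all false

set_option autoImplicit false
open Cfsg

namespace Cfsg.Agent.S4242

open Subgroup Cfsg.Agent.H548.NilMax Cfsg.Agent.H548.InvSub Cfsg.Agent.H548.NpcCase

/-- The trivial action. -/
@[reducible] def trivAct (G : Type*) [Group G] : MulDistribMulAction PUnit.{1} G where
  smul _ x := x
  one_smul _ := rfl
  mul_smul _ _ _ := rfl
  smul_one _ := rfl
  smul_mul _ _ _ := rfl

theorem inv_triv {G : Type*} [Group G] (H : Subgroup G) :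
    letI := trivAct G; Inv PUnit.{1} H := fun _ _ hx => hx

theorem proper_nilp {G : Type*} [Group G] [Finite G] {p : ℕ}
    (h : ∀ M : Subgroup G, IsCoatom M → p ∣ Nat.card M → Group.IsNilpotent M)
    (H : Subgroup G) (hH : H ≠ ⊤) (hp : p ∣ Nat.card H) : Group.IsNilpotent H := by
  obtain h1 | ⟨M, hM, hHM⟩ := eq_top_or_exists_le_coatom H
  · exact absurd h1 hH
  · exact nilp_of_le hHM (h M hM (hp.trans (Subgroup.card_dvd_of_le hHM)))

theorem dvd_card_of_pgroup {G : Type*} [Group G] [Finite G] {p : ℕ} [Fact p.Prime]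
    {R : Subgroup G} (hR : IsPGroup p R) (hR1 : R ≠ ⊥) : p ∣ Nat.card R := by
  obtain ⟨n, hn⟩ := IsPGroup.iff_card.mp hR
  rw [hn]
  refine dvd_pow_self p ?_
  rintro rfl
  rw [pow_zero] at hn
  exact hR1 (Subgroup.eq_bot_of_card_eq R hn)

theorem exists_normal_pgroup {G : Type*} [Group G] [Finite G] {p : ℕ} [hp : Fact p.Prime]
    (hpG : p ∣ Nat.card G)
    (h : ∀ H : Subgroup G, H ≠ ⊤ → p ∣ Nat.card H → Group.IsNilpotent H)
    (M : Subgroup G) (hMn : ¬ Group.IsNilpotent M) (hMp : ¬ p ∣ Nat.card M) :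
    ∃ R : Subgroup G, R.Normal ∧ IsPGroup p R ∧ R ≠ ⊥ := by
  by_contra hcon
  push Not at hcon
  have hnpc : Cfsg.HasNormalPComplement p G := by
    rw [Cfsg.Agent.S0072.result]
    intro Q hQ hQ1
    have hne : normalizer (Q : Set G) ≠ ⊤ := by
      intro htop
      exact hQ1 (hcon Q (Subgroup.normalizer_eq_top_iff.mp htop) hQ)
    have hdvd : p ∣ Nat.card (normalizer (Q : Set G)) :=
      (dvd_card_of_pgroup hQ hQ1).trans (Subgroup.card_dvd_of_le Subgroup.le_normalizer)
    exact Cfsg.Agent.Solvable.FpfThompson.hasNormalPComplement_of_isNilpotent (h _ hne hdvd) p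
  obtain ⟨K, hK, hKp, hKG⟩ :=
    Cfsg.Agent.Transfer.NormalPComplement.hasNormalPComplement_iff.mp hnpc
  letI := trivAct G
  have hS : ∀ q : ℕ, ∀ _ : Fact q.Prime, ∃ Q : Sylow q G, Inv PUnit.{1} (Q : Subgroup G) := by
    intro q hq
    obtain ⟨Q⟩ : Nonempty (Sylow q G) := inferInstance
    exact ⟨Q, inv_triv _⟩
  rcases npc_case (A := PUnit.{1}) hpG (fun H h1 _ h3 => h H h1 h3) hS K hK hKp hKG with
    ⟨P, -, hP⟩ | ⟨q, hq, P, Q, hqp, -, -, hQ, hPQ⟩
  · have h1 := hcon P hP P.isPGroup'
    have h2 : p ∣ Nat.card (P : Subgroup G) := P.dvd_card_of_dvd_card hpG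
    rw [h1, Subgroup.card_bot] at h2
    exact hp.out.one_lt.ne' (Nat.dvd_one.mp h2)
  · -- `G = PQ`, so `M` is a `q`-group
    apply hMn
    have hMq : IsPGroup q M := by
      have h1 : (Q : Subgroup G).index ∣ Nat.card (P : Subgroup G) := by
        have e : (Q : Subgroup G).index = (Q : Subgroup G).relIndex P := by
          rw [← Subgroup.relIndex_sup_left, sup_comm, hPQ, Subgroup.relIndex_top_right]
        rw [e]; exact Subgroup.relIndex_dvd_card _ _
      have h2 : Nat.card M ∣ Nat.card (Q : Subgroup G) := by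
        have h3 : Nat.card M ∣ Nat.card (Q : Subgroup G) * Nat.card (P : Subgroup G) := by
          refine (Subgroup.card_subgroup_dvd_card M).trans ?_
          rw [← (Q : Subgroup G).card_mul_index]
          exact Nat.mul_dvd_mul_left _ h1
        refine Nat.Coprime.dvd_of_dvd_mul_right ?_ h3
        obtain ⟨n, hn⟩ := IsPGroup.iff_card.mp P.isPGroup'
        change Nat.card (P : Subgroup G) = _ at hn
        rw [hn]
        exact (Nat.Coprime.pow_left n ((Nat.Prime.coprime_iff_not_dvd hp.out).mpr hMp)).symm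
      obtain ⟨n, hn⟩ := IsPGroup.iff_card.mp Q.isPGroup'
      change Nat.card (Q : Subgroup G) = _ at hn
      rw [hn] at h2
      obtain ⟨m, -, hm⟩ := (Nat.dvd_prime_pow hq.out).mp h2
      exact IsPGroup.of_card hm
    exact hMq.isNilpotent

theorem forward {G : Type*} [Group G] [Finite G] {p : ℕ} [hp : Fact p.Prime]
    (h : ∀ H : Subgroup G, H ≠ ⊤ → p ∣ Nat.card H → Group.IsNilpotent H)
    (M : Subgroup G) (hM : IsCoatom M) (hMn : ¬ Group.IsNilpotent M) (hMp : ¬ p ∣ Nat.card M)
    (R : Subgroup G) (hR : R.Normal) (hRp : IsPGroup p R) (hR1 : R ≠ ⊥) :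
    ∃ Z K : Subgroup G, Z.Normal ∧ K.Normal ∧ Z ⊓ K = ⊥ ∧ Z ⊔ K = ⊤ ∧ Nat.card Z = p ∧
          Cfsg.IsMinimalNonNilpotent K ∧ ¬ p ∣ Nat.card K := by
  have hdR := dvd_card_of_pgroup hRp hR1
  have hsup : ∀ S : Subgroup G, p ∣ Nat.card S → S ⊔ M = ⊤ := by
    intro S hS
    apply hM.2
    refine lt_of_le_of_ne le_sup_right ?_
    intro h1
    apply hMp
    refine hS.trans (Subgroup.card_dvd_of_le ?_)
    rw [h1]; exact le_sup_left
  have hRM := hsup R hdR
  have hcop : (Nat.card R).Coprime (Nat.card M) := by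
    obtain ⟨n, hn⟩ := IsPGroup.iff_card.mp hRp
    rw [hn]
    exact Nat.Coprime.pow_left n ((Nat.Prime.coprime_iff_not_dvd hp.out).mpr hMp)
  have hinf : R ⊓ M = ⊥ := by
    apply Subgroup.eq_bot_of_card_eq
    exact Nat.eq_one_of_dvd_coprimes hcop (Subgroup.card_dvd_of_le inf_le_left)
      (Subgroup.card_dvd_of_le inf_le_right)
  have hcardM : R.index = Nat.card M := by
    have e : R.index = R.relIndex M := by
      rw [← Subgroup.relIndex_sup_left, hRM, Subgroup.relIndex_top_right]
    rw [e, ← Subgroup.inf_relIndex_right, hinf, Subgroup.relIndex_bot_left]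
  -- proper subgroups of `M`
  have hprop : ∀ S : Subgroup G, S < M → Group.IsNilpotent ↥(R ⊔ S) := by
    intro S hS
    apply h
    · intro htop
      have e : R.index = R.relIndex S := by
        rw [← Subgroup.relIndex_sup_left, htop, Subgroup.relIndex_top_right]
      rw [hcardM] at e
      have h1 : Nat.card M ∣ Nat.card S := by
        rw [e]; exact Subgroup.relIndex_dvd_card _ _
      exact hS.ne (Subgroup.eq_of_le_of_card_ge hS.le (Nat.le_of_dvd Nat.card_pos h1))
    · exact hdR.trans (Subgroup.card_dvd_of_le le_sup_left)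
  have hcomm : ∀ r ∈ R, ∀ m ∈ M, Commute r m := by
    intro r hr m hm
    have hlt : zpowers m < M := by
      refine lt_of_le_of_ne (by rwa [zpowers_le]) ?_
      intro he
      apply hMn
      rw [← he]
      exact @CommGroup.isNilpotent _ (IsCyclic.commGroup (α := zpowers m))
    apply commute_of_mem (hprop _ hlt) (le_sup_left (a := R) hr)
      (le_sup_right (a := R) (mem_zpowers m))
    exact Nat.Coprime.coprime_dvd_left (Subgroup.orderOf_dvd_natCard R hr)
      (Nat.Coprime.coprime_dvd_right (Subgroup.orderOf_dvd_natCard M hm) hcop)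
  have hMnorm : M.Normal := by
    rw [← Subgroup.normalizer_eq_top_iff, eq_top_iff, ← hRM]
    refine sup_le ?_ Subgroup.le_normalizer
    intro r hr
    rw [Subgroup.mem_normalizer_iff]
    intro x
    constructor
    · intro hx
      rw [(hcomm r hr x hx).eq, mul_inv_cancel_right]
      exact hx
    · intro hx
      have h1 := (hcomm r hr _ hx).eq
      have h2 : x = r * x * r⁻¹ := by
        have h3 : r⁻¹ * (r * (r * x * r⁻¹)) = r⁻¹ * ((r * x * r⁻¹) * r) := by rw [h1]
        calc x = r⁻¹ * ((r * x * r⁻¹) * r) := by group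
          _ = r⁻¹ * (r * (r * x * r⁻¹)) := h3.symm
          _ = r * x * r⁻¹ := by group
      rw [h2]; exact hx
  have hcardR : Nat.card R = p := by
    obtain ⟨r, hr⟩ := exists_prime_orderOf_dvd_card' p hdR
    have hrp : Nat.card (zpowers (r : G)) = p := by
      rw [Nat.card_zpowers, Subgroup.orderOf_coe, hr]
    have h1 := hsup (zpowers (r : G)) (by rw [hrp])
    have e : M.index = M.relIndex (zpowers (r : G)) := by
      rw [← Subgroup.relIndex_sup_left, sup_comm, h1, Subgroup.relIndex_top_right]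
    have h2 : M.index ∣ p := by
      rw [e]
      refine (Subgroup.relIndex_dvd_card _ _).trans ?_
      rw [hrp]
    have h3 : M.index = Nat.card R := by
      have e1 := M.card_mul_index
      have e2 := R.card_mul_index
      rw [hcardM, mul_comm, ← e1] at e2
      exact (Nat.eq_of_mul_eq_mul_left Nat.card_pos e2).symm
    rw [h3] at h2
    exact Nat.dvd_antisymm h2 hdR
  refine ⟨R, M, hR, hMnorm, hinf, hRM, hcardR, ⟨hMn, ?_⟩, hMp⟩
  intro H hH
  have hlt : H.map M.subtype < M := by
    refine lt_of_le_of_ne (Subgroup.map_subtype_le H) ?_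
    intro he
    apply hH
    rw [eq_top_iff]
    intro x _
    have : (x : G) ∈ H.map M.subtype := by rw [he]; exact x.2
    obtain ⟨y, hy, hyx⟩ := this
    have : y = x := Subtype.ext hyx
    rwa [← this]
  have h1 := nilp_of_le (le_sup_right (a := R)) (hprop _ hlt)
  have := h1
  exact Group.nilpotent_of_mulEquiv (H.equivMapOfInjective M.subtype M.subtype_injective).symm

theorem backward {G : Type*} [Group G] [Finite G] {p : ℕ} [hp : Fact p.Prime]
    (Z K : Subgroup G) (hZ : Z.Normal) (hK : K.Normal) (hinf : Z ⊓ K = ⊥) (hsup : Z ⊔ K = ⊤)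
    (hZp : Nat.card Z = p) (hmin : Cfsg.IsMinimalNonNilpotent K) (hKp : ¬ p ∣ Nat.card K)
    (M : Subgroup G) (hM : IsCoatom M) (hMp : p ∣ Nat.card M) : Group.IsNilpotent M := by
  have hcardK : Z.index = Nat.card K := by
    have e : Z.index = Z.relIndex K := by
      rw [← Subgroup.relIndex_sup_left, hsup, Subgroup.relIndex_top_right]
    rw [e, ← Subgroup.inf_relIndex_right, hinf, Subgroup.relIndex_bot_left]
  have hZM : Z ≤ M := by
    obtain ⟨x, hx⟩ := exists_prime_orderOf_dvd_card' p hMp
    have hxp : orderOf (x : G) = p := by rw [Subgroup.orderOf_coe, hx]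
    have hxZ : (x : G) ∈ Z := by
      rw [← QuotientGroup.eq_one_iff, ← orderOf_eq_one_iff]
      have h1 : orderOf ((x : G) : G ⧸ Z) ∣ p := by
        rw [← hxp]; exact orderOf_map_dvd (QuotientGroup.mk' Z) (x : G)
      have h2 : orderOf ((x : G) : G ⧸ Z) ∣ Nat.card K := by
        rw [← hcardK, Subgroup.index_eq_card]
        exact orderOf_dvd_natCard _
      exact Nat.eq_one_of_dvd_coprimes ((Nat.Prime.coprime_iff_not_dvd hp.out).mpr hKp) h1 h2
    have h3 : zpowers (x : G) = Z := by
      apply Subgroup.eq_of_le_of_card_ge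
      · rwa [zpowers_le]
      · rw [Nat.card_zpowers, hxp, hZp]
    rw [← h3, zpowers_le]
    exact x.2
  have hKM : ¬ K ≤ M := by
    intro hle
    apply hM.1
    rw [eq_top_iff, ← hsup]
    exact sup_le hZM hle
  have hnil : Group.IsNilpotent ↥(M ⊓ K) := by
    have h1 : M.subgroupOf K ≠ ⊤ := by
      rw [Ne, Subgroup.subgroupOf_eq_top]; exact hKM
    have := hmin.2 _ h1
    have e1 : (M.subgroupOf K).map K.subtype = M ⊓ K := Subgroup.subgroupOf_map_subtype M K
    rw [← e1]
    exact Group.nilpotent_of_mulEquiv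
      ((M.subgroupOf K).equivMapOfInjective K.subtype K.subtype_injective)
  have hcomm : ∀ z ∈ Z, ∀ k ∈ K, z * k = k * z := by
    intro z hz k hk
    exact Subgroup.commute_of_normal_of_disjoint Z K hZ hK (disjoint_iff.mpr hinf) z k hz hk
  have hZnil : Group.IsNilpotent Z := by
    have hZpg : IsPGroup p Z := IsPGroup.of_card (n := 1) (by rw [hZp, pow_one])
    exact hZpg.isNilpotent
  have hMsup : Z ⊔ (M ⊓ K) = M := by
    apply le_antisymm (sup_le hZM inf_le_left)
    intro m hm
    have h1 : m ∈ Z ⊔ K := by rw [hsup]; trivial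
    rw [Subgroup.mem_sup_of_normal_left] at h1
    obtain ⟨z, hz, k, hk, rfl⟩ := h1
    have hkM : k ∈ M := by
      have := M.mul_mem (M.inv_mem (hZM hz)) hm
      rwa [inv_mul_cancel_left] at this
    exact Subgroup.mul_mem _ (le_sup_left (a := Z) hz) (le_sup_right (a := Z) ⟨hkM, hk⟩)
  let f : Z × ↥(M ⊓ K) →* G := MonoidHom.noncommCoprod Z.subtype (M ⊓ K).subtype
    (fun z k => hcomm z z.2 k k.2.2)
  have hr : f.range = M := by
    refine (MonoidHom.noncommCoprod_range _ _ _).trans ?_
    rw [Subgroup.range_subtype, Subgroup.range_subtype, hMsup]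
  rw [← hr]
  exact Group.nilpotent_of_surjective f.rangeRestrict f.rangeRestrict_surjective

/-- Let G be a finite group and p a prime dividing its order. Every maximal subgroup of G of order divisible by p is nilpotent if and only if G is nilpotent, or G is a minimal non-nilpotent group, or G is the internal direct product of a normal subgroup of order p and a normal minimal non-nilpotent subgroup of order prime to p. -/
theorem result {G : Type*} [Group G] [Finite G] (p : ℕ) (hp : p.Prime) (hpG : p ∣ Nat.card G) :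
    (∀ M : Subgroup G, IsCoatom M → p ∣ Nat.card M → Group.IsNilpotent M) ↔
      (Group.IsNilpotent G ∨ Cfsg.IsMinimalNonNilpotent G ∨
        ∃ Z K : Subgroup G, Z.Normal ∧ K.Normal ∧ Z ⊓ K = ⊥ ∧ Z ⊔ K = ⊤ ∧ Nat.card Z = p ∧
          Cfsg.IsMinimalNonNilpotent K ∧ ¬ p ∣ Nat.card K) := by
  have hpF : Fact p.Prime := ⟨hp⟩
  constructor
  · intro h0
    have h := proper_nilp h0
    by_cases hG : Group.IsNilpotent G
    · exact Or.inl hG
    by_cases hmin : Cfsg.IsMinimalNonNilpotent G
    · exact Or.inr (Or.inl hmin)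
    right; right
    rw [Cfsg.IsMinimalNonNilpotent] at hmin
    push Not at hmin
    obtain ⟨H, hH, hHn⟩ := hmin hG
    obtain h1 | ⟨M, hM, hHM⟩ := eq_top_or_exists_le_coatom H
    · exact absurd h1 hH
    have hMn : ¬ Group.IsNilpotent M := fun hn => hHn (nilp_of_le hHM hn)
    have hMp : ¬ p ∣ Nat.card M := fun hd => hMn (h0 M hM hd)
    obtain ⟨R, hR, hRp, hR1⟩ := exists_normal_pgroup hpG h M hMn hMp
    exact forward h M hM hMn hMp R hR hRp hR1
  · rintro (h | h | ⟨Z, K, hZ, hK, hinf, hsup, hZp, hmin, hKp⟩) M hM hMp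
    · infer_instance
    · exact h.2 M hM.1
    · exact backward Z K hZ hK hinf hsup hZp hmin hKp M hM hMp

end Cfsg.Agent.S4242
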