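import Cfsg.Statements.S4251
import Cfsg.Agent.Transfer.AlperinFusion
import Cfsg.Agent.S0079
set_option linter.all false

set_option autoImplicit false
open Cfsg

namespace Cfsg.Agent.S4251

/-- If `N / C` is a `p`-group and `S ≤ N` has index prime to `p` then `N = C S`: every element of
`N` is `c * s`. -/
theorem exists_mul {G : Type*} [Group G] [Finite G] (p : ℕ) [Fact p.Prime] (N C S : Subgroup G)
    (hSN : S ≤ N) [(C.subgroupOf N).Normal] (hS : ¬ p ∣ S.relIndex N)
    (h : IsPGroup p (N ⧸ C.subgroupOf N)) (x : G) (hx : x ∈ N) :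
    ∃ c ∈ C, ∃ s ∈ S, x = c * s := by
  set M : Subgroup N := C.subgroupOf N with hM
  set T : Subgroup N := S.subgroupOf N with hT
  have h1 : ¬ p ∣ (T.map (QuotientGroup.mk' M)).index := by
    intro hd
    apply hS
    have h2 : (T.map (QuotientGroup.mk' M)).index ∣ T.index :=
      Subgroup.index_map_dvd T (QuotientGroup.mk'_surjective M)
    exact hd.trans h2
  have h2 : (T.map (QuotientGroup.mk' M)).index = 1 := by
    obtain ⟨k, hk⟩ := IsPGroup.index h (T.map (QuotientGroup.mk' M))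
    rw [hk] at h1 ⊢
    rcases Nat.eq_zero_or_pos k with rfl | hk
    · simp
    · exact absurd (dvd_pow_self p hk.ne') h1
  rw [Subgroup.index_eq_one] at h2
  have h3 : (QuotientGroup.mk' M) ⟨x, hx⟩ ∈ T.map (QuotientGroup.mk' M) := by
    rw [h2]; exact Subgroup.mem_top _
  obtain ⟨s, hs, hs'⟩ := h3
  have h4 : (⟨x, hx⟩ : N) * s⁻¹ ∈ M := by
    have h5 : (QuotientGroup.mk' M) (⟨x, hx⟩ * s⁻¹) = 1 := by
      rw [map_mul, map_inv, hs', mul_inv_cancel]
    exact (QuotientGroup.eq_one_iff _).1 h5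
  refine ⟨x * (s : G)⁻¹, h4, s, hs, ?_⟩
  group

/-- Let P be a Sylow p-subgroup of a finite group G. Call an intersection H = P ∩ Q with a Sylow p-subgroup Q tame when N_P(H) and N_Q(H) are Sylow p-subgroups of N_G(H). If N_G(H)/C_G(H) is a p-group for every nontrivial tame intersection H = P ∩ Q, then G has a normal p-complement. -/
theorem result {G : Type*} [Group G] [Finite G] (p : ℕ) [Fact p.Prime] (P : Sylow p G)
    (h : ∀ Q : Sylow p G, (P : Subgroup G) ⊓ (Q : Subgroup G) ≠ ⊥ → (¬ p ∣ ((P : Subgroup G) ⊓ Subgroup.normalizer (((P : Subgroup G) ⊓ (Q : Subgroup G) : Subgroup G) : Set G)).relIndex (Subgroup.normalizer (((P : Subgroup G) ⊓ (Q : Subgroup G) : Subgroup G) : Set G)) ∧ ¬ p ∣ ((Q : Subgroup G) ⊓ Subgroup.normalizer (((P : Subgroup G) ⊓ (Q : Subgroup G) : Subgroup G) : Set G)).relIndex (Subgroup.normalizer (((P : Subgroup G) ⊓ (Q : Subgroup G) : Subgroup G) : Set G))) →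
      IsPGroup p (Subgroup.normalizer (((P : Subgroup G) ⊓ (Q : Subgroup G) : Subgroup G) : Set G) ⧸
        (Subgroup.centralizer (((P : Subgroup G) ⊓ (Q : Subgroup G) : Subgroup G) : Set G)).subgroupOf
          (Subgroup.normalizer (((P : Subgroup G) ⊓ (Q : Subgroup G) : Subgroup G) : Set G)))) :
    Cfsg.HasNormalPComplement p G := by
  have hfus : ∀ x ∈ (P : Subgroup G), ∀ y ∈ (P : Subgroup G), (∃ g : G, g * x * g⁻¹ = y) →
      ∃ u ∈ (P : Subgroup G), u * x * u⁻¹ = y := by
    rintro x hx y hy ⟨g, hg⟩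
    have hg' : (g⁻¹)⁻¹ * x * g⁻¹ ∈ P := by rw [inv_inv, hg]; exact hy
    have key := Cfsg.Agent.Transfer.AlperinFusion.rel_of_conj (P := P)
      (r := fun a b => ∃ u ∈ (P : Subgroup G), u * a * u⁻¹ = b)
      (fun a _ => ⟨1, one_mem _, by group⟩)
      (fun a b c => by
        rintro ⟨u, hu, rfl⟩ ⟨v, hv, rfl⟩
        exact ⟨v * u, mul_mem hv hu, by group⟩) ?_ hx hg'
    · rw [inv_inv, hg] at key
      exact key
    · intro Q hQ z hz _ a ha
      by_cases hne : (P : Subgroup G) ⊓ (Q : Subgroup G) = ⊥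
      · rw [hne, Subgroup.mem_bot] at ha
        subst ha
        exact ⟨1, one_mem _, by group⟩
      · have hp := h Q hne hQ
        haveI : ((Subgroup.centralizer (((P : Subgroup G) ⊓ (Q : Subgroup G) : Subgroup G) : Set G)).subgroupOf
          (Subgroup.normalizer (((P : Subgroup G) ⊓ (Q : Subgroup G) : Subgroup G) : Set G))).Normal :=
          inferInstance
        obtain ⟨c, hc, s, hs, hcs⟩ := exists_mul p _ _ _ inf_le_right hQ.1 hp z hz
        refine ⟨s⁻¹, inv_mem hs.1, ?_⟩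
        have h1 := Subgroup.mem_centralizer_iff.1 hc a ha
        have h2 : c⁻¹ * a * c = a := by
          rw [mul_assoc, h1]
          group
        have h3 : z⁻¹ * a * z = s⁻¹ * (c⁻¹ * a * c) * s := by rw [hcs]; group
        rw [h3, h2, inv_inv]
  have h1 := (Cfsg.Agent.S0079.result (P : Subgroup G) P.2.isNilpotent ?_).2 hfus
  · obtain ⟨N, hN, hNP⟩ := h1
    exact ⟨P, N, hN, hNP⟩
  · exact P.card_coprime_index

end Cfsg.Agent.S4251
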