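import Cfsg.Statements.S4261
import Cfsg.Agent.H555.IndexPow
set_option linter.all false

set_option autoImplicit false
open Cfsg

namespace Cfsg.Agent.S4261

/-- Let M be a maximal subgroup of a finite solvable group G such that x^[G : M] lies in M for every x in G. Then M is normal in G. -/
theorem result {G : Type*} [Group G] [Finite G] (hG : Group.IsSolvable G) (M : Subgroup G) (hM : IsCoatom M)
    (hexp : ∀ x : G, x ^ M.index ∈ M) : M.Normal := by
  exact Cfsg.Agent.H555.IndexPow.normal_of_solvable hG M hM hexp

end Cfsg.Agent.S4261
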