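import Cfsg.Statements.S4264
import Cfsg.Agent.S0725
import Cfsg.Agent.H553.PermClass
set_option linter.all false
-- import your own Cfsg.Agent.* helpers here

set_option autoImplicit false
open Cfsg

namespace Cfsg.Agent.S4264

open Cfsg.Agent.H553 MulAction

/-- The symmetric group of degree `n` has at most `2 ^ (n - 1)` classes. -/
theorem perm_le (α : Type*) [Finite α] :
    Nat.card (ConjClasses (Equiv.Perm α)) ≤ 2 ^ (Nat.card α - 1) := by
  classical
  have := Fintype.ofFinite α
  rw [Nat.card_eq_fintype_card (α := α)]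
  let f : ConjClasses (Equiv.Perm α) → (Fintype.card α).Partition :=
    Quotient.lift (fun σ : Equiv.Perm α => σ.partition)
      (fun σ τ h => Equiv.Perm.partition_eq_of_isConj.mp h)
  have hf : Function.Injective f := by
    intro C D hCD
    obtain ⟨σ, rfl⟩ := C.exists_rep
    obtain ⟨τ, rfl⟩ := D.exists_rep
    exact ConjClasses.mk_eq_mk_iff_isConj.mpr (Equiv.Perm.partition_eq_of_isConj.mpr hCD)
  refine (Nat.card_le_card_of_injective f hf).trans ?_
  refine (Nat.card_le_card_of_surjective _ (Nat.Partition.ofComposition_surj)).trans ?_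
  rw [Nat.card_eq_fintype_card, composition_card]

theorem prim (α : Type*) [Finite α] (R : Subgroup (Equiv.Perm α)) (hR : IsPreprimitive R α)
    (h2 : 2 ≤ Nat.card α) : Nat.card (ConjClasses R) ≤ 5 ^ (Nat.card α - 1) := by
  classical
  have := Fintype.ofFinite α
  have hcard : Nat.card (Equiv.Perm α) = (Nat.card α).factorial := by
    rw [Nat.card_eq_fintype_card, Fintype.card_perm, Nat.card_eq_fintype_card]
  rcases Nat.lt_or_ge (Nat.card α) 10 with h10 | h10
  · have h1 : Nat.card (ConjClasses R) ≤ (Nat.card α).factorial := by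
      rw [← hcard]
      exact KClass.le_card.trans (Subgroup.card_le_card_group R)
    refine h1.trans ?_
    generalize Nat.card α = n at h2 h10
    interval_cases n <;> decide
  · by_cases hA : alternatingGroup α ≤ R
    · have h1 := KClass.mul_card_le R
      have h3 : Nat.card (Equiv.Perm α) ≤ 2 * Nat.card R := by
        have : Nontrivial α := by
          rw [← Finite.one_lt_card_iff_nontrivial]
          omega
        rw [← two_mul_nat_card_alternatingGroup]
        exact Nat.mul_le_mul_left 2 (Subgroup.card_le_of_le hA)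
      have h4 := perm_le α
      have h5 : 0 < Nat.card R := Nat.card_pos
      have h6 : Nat.card (ConjClasses R) * Nat.card R ≤
          (2 * 2 ^ (Nat.card α - 1)) * Nat.card R := by
        refine h1.trans ((Nat.mul_le_mul h4 h3).trans ?_)
        apply le_of_eq
        ring
      have h7 := Nat.le_of_mul_le_mul_right h6 h5
      refine h7.trans ?_
      obtain ⟨m, hm⟩ : ∃ m, Nat.card α = m + 2 := ⟨Nat.card α - 2, by omega⟩
      rw [hm]
      have h8 : (2 : ℕ) ^ m ≤ 5 ^ m := Nat.pow_le_pow_left (by norm_num) m
      calc 2 * 2 ^ (m + 2 - 1) = 4 * 2 ^ m := by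
            rw [show m + 2 - 1 = m + 1 by omega, pow_succ]; ring
        _ ≤ 5 * 5 ^ m := Nat.mul_le_mul (by norm_num) h8
        _ = 5 ^ (m + 2 - 1) := by rw [show m + 2 - 1 = m + 1 by omega, pow_succ]; ring
    · have h1 := S0725.result R hR hA
      rw [← Nat.card_eq_fintype_card] at h1
      refine KClass.le_card.trans (h1.trans ?_)
      obtain ⟨m, hm⟩ : ∃ m, Nat.card α = m + 10 := ⟨Nat.card α - 10, by omega⟩
      rw [hm, show m + 10 - 1 = m + 9 by omega, pow_add, pow_add]
      exact Nat.mul_le_mul (Nat.pow_le_pow_left (by norm_num) m) (by norm_num)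

/-- Let G be a subgroup of the symmetric group of degree d ≥ 1. Then G has at most 5^{d−1} conjugacy classes. -/
theorem result (d : ℕ) (hd : 1 ≤ d) (G : Subgroup (Equiv.Perm (Fin d))) : Nat.card (ConjClasses ↥G) ≤ 5 ^ (d - 1) := by
  have h := PermClass.bd_all (s := False) (c := 5) (by norm_num)
    (fun α _ R hR h2 _ => prim α R hR h2) d (Fin d) G ⟨⟨0, hd⟩⟩ (by simp) (fun h => h.elim)
  simpa using h

end Cfsg.Agent.S4264
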