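import Mathlib
import Cfsg.Agent.H697.ClassCount
import Cfsg.Agent.H698.Landau
import Cfsg.Agent.H558.CP.Impr_mg
import Cfsg.Agent.H718.ConjRep
import Cfsg.Agent.H558.CP.Fp
import Cfsg.Agent.S0043
import Cfsg.Statements.S4266
set_option linter.all false

-- part: H558/CP/Count
section
/-!
# Counting classes over an abelian normal subgroup, and the numerical inequalities
-/

set_option autoImplicit false

namespace Cfsg.Agent.H558.CP

open Subgroup

/-- Counting classes inside and outside of the centralizer of an abelian normal subgroup. -/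
theorem count_normal {G : Type*} [Group G] [Finite G] (M : Subgroup G) [hMn : M.Normal]
    (hM : ∀ x ∈ M, ∀ y ∈ M, x * y = y * x) (hM1 : M ≠ ⊥) :
    Nat.card (ConjClasses (G ⧸ centralizer (M : Set G))) + 1 ≤ Nat.card (ConjClasses G) ∧
    Nat.card (ConjClasses (G ⧸ centralizer (M : Set G))) * (centralizer (M : Set G)).index +
      (Nat.card M - 1) ≤ Nat.card (ConjClasses G) * (centralizer (M : Set G)).index := by
  classical
  have := Fintype.ofFinite G
  have := Fintype.ofFinite M
  have := Fintype.ofFinite (ConjClasses G)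
  set C := centralizer (M : Set G) with hC
  have hMC : M ≤ C := fun x hx => mem_centralizer_iff.mpr (fun y hy => hM y hy x hx)
  have := Fintype.ofFinite (ConjClasses (G ⧸ C))
  let f : M → ConjClasses G := fun a => ConjClasses.mk (a : G)
  let T : Finset (ConjClasses G) := Finset.univ.image f
  have hT1 : ConjClasses.mk (1 : G) ∈ T := Finset.mem_image.mpr ⟨1, Finset.mem_univ _, rfl⟩
  -- the classes in `M`
  have h1 : ∀ c ∈ T.erase (ConjClasses.mk (1 : G)),
      ((Finset.univ.erase (1 : M)).filter fun a : M => f a = c).card ≤ C.index := by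
    intro c _
    rcases ((Finset.univ.erase (1 : M)).filter fun a : M => f a = c).eq_empty_or_nonempty with
      h0 | ⟨a, ha⟩
    · rw [h0, Finset.card_empty]; exact Nat.zero_le _
    · have hfa : f a = c := (Finset.mem_filter.1 ha).2
      have h2 : ((Finset.univ.erase (1 : M)).filter fun b : M => f b = c).card ≤
          (ConjClasses.mk (a : G)).carrier.ncard := by
        rw [← Finset.card_image_of_injective _ (Subtype.val_injective (p := fun x => x ∈ M)),
          ← Set.ncard_coe_finset]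
        apply Set.ncard_le_ncard
        · intro x hx
          simp only [Finset.coe_image, Set.mem_image, Finset.mem_coe, Finset.mem_filter] at hx
          obtain ⟨b, ⟨-, hb⟩, rfl⟩ := hx
          rw [ConjClasses.mem_carrier_iff_mk_eq]
          exact hb.trans hfa.symm
        · exact Set.toFinite _
      refine h2.trans ?_
      rw [← H697.ClassCount.index_centralizer]
      apply Nat.le_of_dvd (Nat.pos_of_ne_zero Subgroup.index_ne_zero_of_finite)
      apply Subgroup.index_dvd_of_le
      intro b hb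
      rw [Subgroup.mem_centralizer_singleton_iff]
      exact (mem_centralizer_iff.mp hb a a.2).symm
  have h2 := Finset.card_le_mul_card_image_of_maps_to
    (s := (Finset.univ.erase (1 : M))) (t := T.erase (ConjClasses.mk (1 : G)))
    (f := f) (fun a ha => by
      rw [Finset.mem_erase]
      refine ⟨fun h => ?_, Finset.mem_image.mpr ⟨a, Finset.mem_univ _, rfl⟩⟩
      have h3 : IsConj (a : G) 1 := ConjClasses.mk_eq_mk_iff_isConj.mp h
      exact (Finset.mem_erase.mp ha).1 (Subtype.ext (isConj_one_left.mp h3))) C.index h1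
  rw [Finset.card_erase_of_mem (Finset.mem_univ _), Finset.card_univ,
    ← Nat.card_eq_fintype_card, Finset.card_erase_of_mem hT1] at h2
  -- the classes outside
  let π : ConjClasses G → ConjClasses (G ⧸ C) := ConjClasses.map (QuotientGroup.mk' C)
  have hπ : Function.Surjective π := ConjClasses.map_surjective (QuotientGroup.mk'_surjective C)
  have h3 : (Finset.univ.erase (ConjClasses.mk (1 : G ⧸ C))) ⊆ (Tᶜ).image π := by
    intro s hs
    obtain ⟨c, rfl⟩ := hπ s
    refine Finset.mem_image.mpr ⟨c, ?_, rfl⟩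
    rw [Finset.mem_compl]
    intro hc
    obtain ⟨m, -, rfl⟩ := Finset.mem_image.mp hc
    apply (Finset.mem_erase.mp hs).1
    change ConjClasses.mk (QuotientGroup.mk' C (m : G)) = ConjClasses.mk 1
    congr 1
    exact (QuotientGroup.eq_one_iff (m : G)).mpr (hMC m.2)
  have h4 := (Finset.card_le_card h3).trans Finset.card_image_le
  rw [Finset.card_erase_of_mem (Finset.mem_univ _), Finset.card_univ,
    ← Nat.card_eq_fintype_card, Finset.card_compl, ← Nat.card_eq_fintype_card] at h4
  have h5 : 1 ≤ T.card := Finset.card_pos.mpr ⟨_, hT1⟩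
  have h6 : T.card ≤ Nat.card (ConjClasses G) := by
    rw [Nat.card_eq_fintype_card]
    exact Finset.card_le_univ _
  have h7 : 1 < T.card := by
    obtain ⟨m, hm, hm1⟩ : ∃ m ∈ M, m ≠ 1 := by
      by_contra hcon
      push Not at hcon
      exact hM1 ((eq_bot_iff_forall M).mpr hcon)
    rw [Finset.one_lt_card]
    refine ⟨_, hT1, ConjClasses.mk m, Finset.mem_image.mpr ⟨⟨m, hm⟩, Finset.mem_univ _, rfl⟩, ?_⟩
    intro h
    exact hm1 (isConj_one_right.mp (ConjClasses.mk_eq_mk_iff_isConj.mp h))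
  refine ⟨?_, ?_⟩
  · have h9 : Nat.card (ConjClasses (G ⧸ C)) + 1 ≤ Nat.card (ConjClasses G) := by omega
    exact h9
  have h8 : Nat.card (ConjClasses (G ⧸ C)) + (T.card - 1) ≤ Nat.card (ConjClasses G) := by omega
  calc Nat.card (ConjClasses (G ⧸ C)) * C.index + (Nat.card M - 1)
      ≤ Nat.card (ConjClasses (G ⧸ C)) * C.index + C.index * (T.card - 1) :=
        Nat.add_le_add_left h2 _
    _ = (Nat.card (ConjClasses (G ⧸ C)) + (T.card - 1)) * C.index := by ring
    _ ≤ _ := Nat.mul_le_mul_right _ h8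

theorem le_6 {G : Type*} [Group G] [Finite G] (h : Nat.card (ConjClasses G) ≤ 3) :
    Nat.card G ≤ 6 := by
  refine H698.Landau.card_le_of_chk ?_
  generalize Nat.card (ConjClasses G) = k at h
  interval_cases k <;> decide +kernel

/-- from `h k ≥ h² c + N` -/
theorem sq_bound {k h c N : ℚ} (hh : 0 < h) (hc : 0 ≤ c) (hN : 0 ≤ N) (h1 : c * h * h + N ≤ k * h) :
    4 * c * N ≤ k ^ 2 := by
  have h2 : 0 ≤ (c * h * h - N) ^ 2 := sq_nonneg _
  have h3 : (c * h * h + N) ^ 2 ≤ (k * h) ^ 2 := by
    apply pow_le_pow_left₀ _ h1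
    positivity
  have h4 : 4 * c * N * (h * h) ≤ k ^ 2 * (h * h) := by nlinarith
  exact le_of_mul_le_mul_right h4 (by positivity)

theorem le_of_sq {a b : ℕ} (h : ((a : ℕ) : ℚ) ^ 2 ≤ ((b : ℕ) : ℚ) ^ 2) : a ≤ b := by
  have h1 : a ^ 2 ≤ b ^ 2 := by exact_mod_cast h
  exact (Nat.pow_le_pow_iff_left (by norm_num)).mp h1

/-- numerics, abelian case -/
theorem num_abel {p k h : ℕ} (hp : 2 ≤ p) (hh : 0 < h) (h1 : h * h + (p ^ 2 - 1) ≤ k * h) :
    49 * p ≤ 60 * k := by
  have hp1 : 1 ≤ p ^ 2 := Nat.one_le_pow _ _ (by omega)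
  have h2 : (1 * h * h + ((p : ℚ) ^ 2 - 1) : ℚ) ≤ k * h := by
    have : ((h * h + (p ^ 2 - 1) : ℕ) : ℚ) ≤ ((k * h : ℕ) : ℚ) := by exact_mod_cast h1
    push_cast [Nat.cast_sub hp1] at this
    linarith
  have hpQ : (2 : ℚ) ≤ p := by exact_mod_cast hp
  have h3 := sq_bound (by exact_mod_cast hh) (by norm_num) (by nlinarith) h2
  have h4 : ((49 * p : ℕ) : ℚ) ^ 2 ≤ ((60 * k : ℕ) : ℚ) ^ 2 := by
    push_cast
    nlinarith
  exact le_of_sq h4

/-- numerics, `|H| ≤ (11/2) k(H)` -/
theorem num_two {p k h kH : ℕ} (hp : 5 ≤ p) (hh : 0 < h) (hH : (h : ℚ) ≤ 11 / 2 * kH)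
    (h1 : kH * h + (p ^ 2 - 1) ≤ k * h) : 49 * p ≤ 60 * k := by
  have hp1 : 1 ≤ p ^ 2 := Nat.one_le_pow _ _ (by omega)
  have hh' : (0 : ℚ) < h := by exact_mod_cast hh
  have h2 : (2 / 11 * h * h + ((p : ℚ) ^ 2 - 1) : ℚ) ≤ k * h := by
    have : ((kH * h + (p ^ 2 - 1) : ℕ) : ℚ) ≤ ((k * h : ℕ) : ℚ) := by exact_mod_cast h1
    push_cast [Nat.cast_sub hp1] at this
    nlinarith
  have hpQ : (5 : ℚ) ≤ p := by exact_mod_cast hp
  have h3 := sq_bound hh' (by norm_num) (by nlinarith) h2
  refine le_of_sq ?_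
  push_cast
  nlinarith

/-- numerics, dimension at least 3 -/
theorem num_three {p k h kH a : ℕ} (hp : 11 ≤ p) (ha : 3 ≤ a) (hh : 0 < h)
    (hH : (h : ℚ) ≤ 599 / 100 * 11 ^ (a - 2) * kH) (h1 : kH * h + (p ^ a - 1) ≤ k * h) :
    49 * p ≤ 60 * k := by
  have hp1 : 1 ≤ p ^ a := Nat.one_le_pow _ _ (by omega)
  have hh' : (0 : ℚ) < h := by exact_mod_cast hh
  have hpQ : (11 : ℚ) ≤ p := by exact_mod_cast hp
  obtain ⟨m, rfl⟩ := Nat.exists_eq_add_of_le' ha
  have hm : m + 3 - 2 = m + 1 := by omega
  rw [hm] at hH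
  set c : ℚ := 100 / 599 * (1 / 11) ^ (m + 1) with hc
  have hc0 : 0 < c := by positivity
  have hcc : c * (599 / 100 * 11 ^ (m + 1)) = 1 := by
    have h2 : (1 / 11 : ℚ) ^ (m + 1) * 11 ^ (m + 1) = 1 := by
      rw [← mul_pow]; norm_num
    calc c * (599 / 100 * 11 ^ (m + 1)) = (1 / 11 : ℚ) ^ (m + 1) * 11 ^ (m + 1) := by
          rw [hc]; ring
      _ = 1 := h2
  have h4 : c * h ≤ kH := by
    calc c * h ≤ c * (599 / 100 * 11 ^ (m + 1) * kH) := mul_le_mul_of_nonneg_left hH hc0.le
      _ = (c * (599 / 100 * 11 ^ (m + 1))) * kH := by ring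
      _ = kH := by rw [hcc, one_mul]
  have h2 : (c * h * h + ((p : ℚ) ^ (m + 3) - 1) : ℚ) ≤ k * h := by
    have : ((kH * h + (p ^ (m + 3) - 1) : ℕ) : ℚ) ≤ ((k * h : ℕ) : ℚ) := by exact_mod_cast h1
    push_cast [Nat.cast_sub hp1] at this
    have h5 := mul_le_mul_of_nonneg_right h4 hh'.le
    linarith
  have hpa : (1331 : ℚ) ≤ (p : ℚ) ^ (m + 3) := by
    calc (1331 : ℚ) = 11 ^ 3 := by norm_num
      _ ≤ 11 ^ (m + 3) := pow_le_pow_right₀ (by norm_num) (by omega)
      _ ≤ (p : ℚ) ^ (m + 3) := pow_le_pow_left₀ (by norm_num) hpQ _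
  have h3 := sq_bound hh' hc0.le (by linarith) h2
  refine le_of_sq ?_
  push_cast
  -- `c p^a ≥ (100/599) p²`
  have h6 : 100 / 599 * (p : ℚ) ^ 2 ≤ c * (p : ℚ) ^ (m + 3) := by
    have h7 : (1 : ℚ) ≤ (1 / 11) ^ (m + 1) * (p : ℚ) ^ (m + 1) := by
      rw [← mul_pow]
      apply one_le_pow₀
      linarith
    calc 100 / 599 * (p : ℚ) ^ 2 = 100 / 599 * (p : ℚ) ^ 2 * 1 := by ring
      _ ≤ 100 / 599 * (p : ℚ) ^ 2 * ((1 / 11) ^ (m + 1) * (p : ℚ) ^ (m + 1)) :=
          mul_le_mul_of_nonneg_left h7 (by positivity)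
      _ = c * (p : ℚ) ^ (m + 3) := by rw [hc]; ring
  have h8 : c * (1330 / 1331 * (p : ℚ) ^ (m + 3)) ≤ c * ((p : ℚ) ^ (m + 3) - 1) :=
    mul_le_mul_of_nonneg_left (by linarith) hc0.le
  nlinarith

/-- numerics, the exceptional case `|H| = 24 m`, `k(H) ≥ 4 m`, `m d = p - 1`. -/
theorem num_exc {p k h kH m d : ℕ} (hp : p.Prime) (hh : h = 24 * m) (hkH : 4 * m ≤ kH)
    (hmd : m * d = p - 1) (h1 : kH * h + (p ^ 2 - 1) ≤ k * h) : 49 * p ≤ 60 * k := by
  by_contra hcon
  push Not at hcon
  have hp2 := hp.two_le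
  have hp1 : p = m * d + 1 := by omega
  have hm0 : 0 < m := by
    rcases Nat.eq_zero_or_pos m with h | h
    · rw [h, zero_mul] at hmd
      omega
    · exact h
  have hk : (60 * k : ℤ) ≤ 49 * p - 1 := by exact_mod_cast (by omega : (60 * k : ℤ) ≤ 49 * p - 1)
  have h2 : (96 * m * m + ((p : ℤ) ^ 2 - 1) : ℤ) ≤ k * (24 * m) := by
    have h3 : 1 ≤ p ^ 2 := Nat.one_le_pow _ _ (by omega)
    have h4 : ((kH * h + (p ^ 2 - 1) : ℕ) : ℤ) ≤ ((k * h : ℕ) : ℤ) := by exact_mod_cast h1
    push_cast [Nat.cast_sub h3] at h4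
    rw [hh] at h4
    push_cast at h4
    have h5 : (4 * m : ℤ) ≤ kH := by exact_mod_cast hkH
    have h6 : (0 : ℤ) ≤ m := by positivity
    nlinarith
  have hmZ : (0 : ℤ) < m := by exact_mod_cast hm0
  have h3 : (60 : ℤ) * (96 * m * m + ((p : ℤ) ^ 2 - 1)) ≤ (49 * p - 1) * (24 * m) := by
    nlinarith
  have hpZ : (p : ℤ) = m * d + 1 := by exact_mod_cast hp1
  rw [hpZ] at h3
  have h4 : (m : ℤ) * (m * (5 * d ^ 2 - 98 * d + 480) + 10 * d - 96) ≤ 0 := by nlinarith
  have h5 : (m * (5 * d ^ 2 - 98 * d + 480) + 10 * d - 96 : ℤ) ≤ 0 := by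
    by_contra h
    push Not at h
    have := mul_pos hmZ h
    omega
  have h6 : d ≤ 9 := by
    by_contra h
    push Not at h
    have h7 : (10 : ℤ) ≤ d := by exact_mod_cast h
    have h8 : (0 : ℤ) ≤ 5 * d ^ 2 - 98 * d + 480 := by nlinarith
    have h9 := mul_nonneg hmZ.le h8
    nlinarith
  have h7 : m ≤ 2 := by
    by_contra h
    push Not at h
    have h8 : (3 : ℤ) ≤ m := by exact_mod_cast h
    interval_cases d <;> norm_num at h5 <;> omega
  have h8 : (m = 2 ∧ d = 9) ∨ (m = 1 ∧ d = 9) ∨ (m = 1 ∧ d = 8) := by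
    interval_cases m <;> interval_cases d <;> first | (exfalso; revert h5; norm_num; done) | simp
  rcases h8 with ⟨rfl, rfl⟩ | ⟨rfl, rfl⟩ | ⟨rfl, rfl⟩
  · have : p = 19 := by omega
    subst this
    norm_num at *
    omega
  · have : p = 10 := by omega
    subst this
    norm_num at hp
  · have : p = 9 := by omega
    subst this
    norm_num at hp

end Cfsg.Agent.H558.CP
end

-- part: H558/CP/MinN
section
/-!
# The action of a solvable group on a minimal normal subgroup
-/

set_option autoImplicit false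

namespace Cfsg.Agent.H558.CP

open Module Subgroup

universe u

theorem cb_of_minimal {G : Type u} [Group G] [Finite G] [Group.IsSolvable G] (p : ℕ)
    [hp : Fact p.Prime] (V : Subgroup G) [hVn : V.Normal]
    (hab : ∀ a ∈ V, ∀ b ∈ V, a * b = b * a) (hexp : ∀ u ∈ V, u ^ p = 1) (hV : V ≠ ⊥)
    (hmin : ∀ M : Subgroup G, M.Normal → M ≤ V → M = ⊥ ∨ M = V) :
    ∃ a, 1 ≤ a ∧ Nat.card V = p ^ a ∧ CB (G ⧸ centralizer (V : Set G)) (BB a) ∧
      (a = 2 → CB (G ⧸ centralizer (V : Set G)) (11 / 2) ∨
        ∃ m d : ℕ, Nat.card (G ⧸ centralizer (V : Set G)) = 24 * m ∧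
          4 * m ≤ Nat.card (ConjClasses (G ⧸ centralizer (V : Set G))) ∧ m * d = p - 1) := by
  classical
  obtain ⟨E, i1, i2, i3, e, ρ, he, hρ⟩ := H718.exists_conjRep p ⊤ V hab hexp
    (fun h _ u hu => hVn.conj_mem u hu h)
  let τ : G →* (⊤ : Subgroup G) := (Subgroup.topEquiv.symm : G ≃* (⊤ : Subgroup G)).toMonoidHom
  let ρ' : Representation (ZMod p) G E := ρ.comp τ
  have hρ' : ∀ (g : G) (s : E), ((e (ρ' g s) : V) : G) = g * e s * g⁻¹ := fun g s => hρ (τ g) s
  have hker : ρ'.ker = centralizer (V : Set G) := by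
    ext g
    rw [MonoidHom.mem_ker, mem_centralizer_iff]
    constructor
    · intro h v hv
      have h1 := hρ' g (e.symm ⟨v, hv⟩)
      rw [h, Module.End.one_apply, Equiv.apply_symm_apply] at h1
      have h2 : v = g * v * g⁻¹ := h1
      calc v * g = (g * v * g⁻¹) * g := by rw [← h2]
        _ = g * v := by group
    · intro h
      ext s
      apply e.injective
      apply Subtype.ext
      rw [hρ', ← h _ (e s).2]
      simp
  let σ : Representation (ZMod p) (G ⧸ centralizer (V : Set G)) E :=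
    QuotientGroup.lift (centralizer (V : Set G)) ρ' (fun x hx => by
      rw [← hker] at hx
      exact hx)
  have hσ : ∀ g : G, σ (QuotientGroup.mk g) = ρ' g := fun g => rfl
  have hσinj : Function.Injective σ := by
    rw [injective_iff_map_eq_one]
    intro x hx
    obtain ⟨g, rfl⟩ := QuotientGroup.mk_surjective x
    rw [QuotientGroup.eq_one_iff, ← hker]
    exact hx
  have hirr : Irr σ := by
    refine ⟨?_, fun U hU => ?_⟩
    · have : Nontrivial V := (Subgroup.nontrivial_iff_ne_bot V).mpr hV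
      exact e.nontrivial
    · let M : Subgroup G :=
        { carrier := {x | ∃ s ∈ U, ((e s : V) : G) = x}
          one_mem' := by
            refine ⟨0, U.zero_mem, ?_⟩
            have h1 := he 0 0
            rw [add_zero] at h1
            have h2 : e 0 = 1 := by
              have h3 : e 0 * 1 = e 0 * e 0 := by rw [mul_one]; exact h1
              exact (mul_left_cancel h3).symm
            rw [h2]
            rfl
          mul_mem' := by
            rintro _ _ ⟨s, hs, rfl⟩ ⟨t, ht, rfl⟩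
            exact ⟨s + t, U.add_mem hs ht, by rw [he]; rfl⟩
          inv_mem' := by
            rintro _ ⟨s, hs, rfl⟩
            refine ⟨-s, U.neg_mem hs, ?_⟩
            have h1 := he (-s) s
            rw [neg_add_cancel] at h1
            have h0 := he 0 0
            rw [add_zero] at h0
            have h2 : e 0 = 1 := by
              have h3 : e 0 * 1 = e 0 * e 0 := by rw [mul_one]; exact h0
              exact (mul_left_cancel h3).symm
            rw [h2] at h1
            have h3 : e (-s) = (e s)⁻¹ := eq_inv_of_mul_eq_one_left h1.symm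
            rw [h3]
            rfl }
      have hMn : M.Normal := ⟨by
        rintro _ ⟨s, hs, rfl⟩ g
        refine ⟨σ (QuotientGroup.mk g) s, hU _ s hs, ?_⟩
        rw [hσ, hρ']⟩
      have hMV : M ≤ V := by
        rintro _ ⟨s, hs, rfl⟩
        exact (e s).2
      rcases hmin M hMn hMV with h | h
      · left
        rw [Submodule.eq_bot_iff]
        intro s hs
        have h1 : ((e s : V) : G) ∈ M := ⟨s, hs, rfl⟩
        rw [h, Subgroup.mem_bot] at h1
        have h2 : e s = 1 := Subtype.ext h1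
        have h0 := he s s
        rw [h2, one_mul] at h0
        have h3 : e (s + s) = e s := by rw [h0, h2]
        have h4 := e.injective h3
        simpa using h4
      · right
        rw [eq_top_iff]
        intro s _
        have h1 : ((e s : V) : G) ∈ M := by rw [h]; exact (e s).2
        obtain ⟨t, ht, h2⟩ := h1
        have h3 : t = s := e.injective (Subtype.ext h2)
        rwa [← h3]
  have hfd : FiniteDimensional (ZMod p) E := inferInstance
  obtain ⟨h1, h2⟩ := over_Fp p σ hσinj hirr
  refine ⟨finrank (ZMod p) E, ?_, ?_, h1, h2⟩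
  · have := hirr.1
    exact Module.finrank_pos
  · rw [← Nat.card_congr e, Module.natCard_eq_pow_finrank (K := ZMod p), Nat.card_zmod]

end Cfsg.Agent.H558.CP
end

-- part: H558/CP/Final
section
/-!
# Class numbers of solvable groups of order divisible by `p²`
-/

set_option autoImplicit false

namespace Cfsg.Agent.H558.CP

open Module Subgroup Cfsg.Agent.H553.Sy Cfsg.Agent.H553.CF
open scoped commutatorElement

universe u

/-- The commutator subgroup centralizes a cyclic normal subgroup. -/
theorem comm_cyclic {G : Type u} [Group G] (K : Subgroup G) (hK : K.Normal) [hc : IsCyclic K]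
    (g h k : G) (hk : k ∈ K) : ⁅g, h⁆ * k = k * ⁅g, h⁆ := by
  obtain ⟨⟨k₀, hk₀⟩, hgen⟩ := hc.exists_generator
  have hgen' : ∀ x ∈ K, ∃ i : ℤ, k₀ ^ i = x := by
    intro x hx
    obtain ⟨i, hi⟩ := mem_zpowers_iff.mp (hgen ⟨x, hx⟩)
    exact ⟨i, congrArg Subtype.val hi⟩
  -- every element acts as a power
  have hpow : ∀ g : G, ∃ i : ℤ, ∀ x ∈ K, g * x * g⁻¹ = x ^ i := by
    intro g
    obtain ⟨i, hi⟩ := hgen' _ (hK.conj_mem k₀ hk₀ g)
    refine ⟨i, fun x hx => ?_⟩
    obtain ⟨n, rfl⟩ := hgen' x hx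
    have h1 : g * k₀ ^ n * g⁻¹ = (g * k₀ * g⁻¹) ^ n := (conj_zpow).symm
    rw [h1, ← hi, ← zpow_mul, ← zpow_mul, mul_comm]
  have hcom : ∀ x ∈ K, g * (h * x * h⁻¹) * g⁻¹ = h * (g * x * g⁻¹) * h⁻¹ := by
    intro x hx
    obtain ⟨i, hi⟩ := hpow g
    obtain ⟨j, hj⟩ := hpow h
    rw [hi _ (hK.conj_mem x hx h), hj _ (hK.conj_mem x hx g), hi x hx, hj x hx, ← zpow_mul,
      ← zpow_mul, mul_comm]
  have h1 : ⁅g, h⁆ * k * ⁅g, h⁆⁻¹ = k := by
    have h2 := hcom (g⁻¹ * (h⁻¹ * k * h) * g) (by
      have h3 := hK.conj_mem k hk h⁻¹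
      rw [inv_inv] at h3
      have h4 := hK.conj_mem _ h3 g⁻¹
      rwa [inv_inv] at h4)
    rw [commutatorElement_def]
    calc g * h * g⁻¹ * h⁻¹ * k * (g * h * g⁻¹ * h⁻¹)⁻¹
        = g * (h * (g⁻¹ * (h⁻¹ * k * h) * g) * h⁻¹) * g⁻¹ := by group
      _ = h * (g * (g⁻¹ * (h⁻¹ * k * h) * g) * g⁻¹) * h⁻¹ := h2
      _ = k := by group
  calc ⁅g, h⁆ * k = (⁅g, h⁆ * k * ⁅g, h⁆⁻¹) * ⁅g, h⁆ := by group
    _ = k * ⁅g, h⁆ := by rw [h1]

/-- The index of the centralizer of a normal subgroup of prime order is less than the prime. -/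
theorem index_lt {G : Type u} [Group G] [Finite G] {p : ℕ} (hp : p.Prime) (V : Subgroup G)
    [hVn : V.Normal] (hV : Nat.card V = p) : (centralizer (V : Set G)).index < p := by
  classical
  have : Fact p.Prime := ⟨hp⟩
  have hVb : V ≠ ⊥ := by
    rintro rfl
    rw [Subgroup.card_bot] at hV
    exact hp.one_lt.ne hV
  obtain ⟨v, hv, hv1⟩ : ∃ v ∈ V, v ≠ 1 := by
    by_contra hcon
    push Not at hcon
    exact hVb ((eq_bot_iff_forall V).mpr hcon)
  have hzp : zpowers v = V := by
    have h1 : zpowers v ≤ V := by rwa [zpowers_le]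
    refine Subgroup.eq_of_le_of_card_ge h1 ?_
    have h2 := Subgroup.card_dvd_of_le h1
    rw [hV] at h2 ⊢
    rcases (Nat.dvd_prime hp).mp h2 with h3 | h3
    · exfalso
      rw [Nat.card_zpowers, orderOf_eq_one_iff] at h3
      exact hv1 h3
    · exact h3.ge
  have hcent : centralizer ({v} : Set G) ≤ centralizer (V : Set G) := by
    intro g hg
    rw [mem_centralizer_iff]
    intro x hx
    rw [SetLike.mem_coe, ← hzp] at hx
    obtain ⟨i, rfl⟩ := mem_zpowers_iff.mp hx
    have h1 : Commute g v := (mem_centralizer_singleton_iff.mp hg)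
    exact (h1.zpow_right i).symm.eq
  have h1 : (centralizer (V : Set G)).index ≤ (centralizer ({v} : Set G)).index :=
    Nat.le_of_dvd (Nat.pos_of_ne_zero Subgroup.index_ne_zero_of_finite)
      (Subgroup.index_dvd_of_le hcent)
  rw [H697.ClassCount.index_centralizer] at h1
  have h2 : (ConjClasses.mk v).carrier ⊆ (V : Set G) \ {1} := by
    intro x hx
    rw [ConjClasses.mem_carrier_iff_mk_eq, ConjClasses.mk_eq_mk_iff_isConj] at hx
    obtain ⟨g, hg⟩ := isConj_iff.mp hx
    refine ⟨?_, ?_⟩
    · have h3 : x = g⁻¹ * v * g := by rw [← hg]; group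
      rw [h3]
      have := hVn.conj_mem v hv g⁻¹
      rwa [inv_inv] at this
    · intro h3
      rw [Set.mem_singleton_iff] at h3
      apply hv1
      rw [← hg, h3]
      group
  have h3 := Set.ncard_le_ncard h2 (Set.toFinite _)
  rw [Set.ncard_sdiff_singleton_of_mem (one_mem V)] at h3
  have h4 : (V : Set G).ncard = p := by
    rw [← hV]
    rfl
  rw [h4] at h3
  have := hp.one_lt
  omega

/-- If no proper quotient has order divisible by `p²`, and there is a minimal normal subgroup of
order `p`, there is an abelian normal subgroup `M` of order `p²` with `G / C_G(M)` abelian. -/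
theorem case_one {G : Type u} [Group G] [Finite G] [hsolv : Group.IsSolvable G] (p : ℕ)
    [hp : Fact p.Prime] (hpG : p ^ 2 ∣ Nat.card G)
    (hq : ∀ N : Subgroup G, N.Normal → N ≠ ⊥ → ¬ p ^ 2 ∣ N.index) (V : Subgroup G)
    [hVn : V.Normal] (hV : Nat.card V = p) :
    49 * p ≤ 60 * Nat.card (ConjClasses G) := by
  classical
  have hVb : V ≠ ⊥ := by
    rintro rfl
    rw [Subgroup.card_bot] at hV
    exact hp.out.one_lt.ne hV
  set C := centralizer (V : Set G) with hC
  have hCn : C.Normal := inferInstance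
  have hVcomm : ∀ a ∈ V, ∀ b ∈ V, a * b = b * a := by
    intro a ha b hb
    have hcyc : IsCyclic V := isCyclic_of_prime_card hV
    let _ : CommGroup V := IsCyclic.commGroup
    exact congrArg Subtype.val (mul_comm (⟨a, ha⟩ : V) ⟨b, hb⟩)
  have hVC : V ≤ C := fun x hx => mem_centralizer_iff.mpr (fun y hy => hVcomm y hy x hx)
  have hCidx : ¬ p ∣ C.index := by
    intro h
    have h1 := Nat.le_of_dvd (Nat.pos_of_ne_zero Subgroup.index_ne_zero_of_finite) h
    have h2 : C.index < p := index_lt hp.out V hV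
    omega
  have hC2 : p ^ 2 ∣ Nat.card C := by
    have h1 := C.card_mul_index
    rw [← h1] at hpG
    exact (Nat.Coprime.pow_left 2 ((Nat.Prime.coprime_iff_not_dvd hp.out).mpr hCidx)).dvd_of_dvd_mul_right
      hpG
  have hVneC : C ≠ V := by
    intro h
    rw [h, hV] at hC2
    have h1 := Nat.le_of_dvd hp.out.pos hC2
    have h2 := hp.out.two_le
    nlinarith
  -- `M`
  obtain ⟨M, hMm⟩ := (Set.toFinite {N : Subgroup G | N.Normal ∧ V ≤ N ∧ N ≤ C ∧
    N ≠ V}).exists_minimal ⟨C, hCn, hVC, le_rfl, hVneC⟩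
  obtain ⟨hMn, hVM, hMC, hMV⟩ := hMm.prop
  have hMmin : ∀ N : Subgroup G, N.Normal → V ≤ N → N ≤ M → N = V ∨ N = M := by
    intro N hN hVN hNM
    by_cases h : N = V
    · exact Or.inl h
    · exact Or.inr (le_antisymm hNM (hMm.le_of_le ⟨hN, hVN, hNM.trans hMC, h⟩ hNM))
  -- `M / V`
  set π := QuotientGroup.mk' V with hπ
  have hπs : Function.Surjective π := QuotientGroup.mk'_surjective V
  have hker : π.ker = V := QuotientGroup.ker_mk' V
  set Mb := M.map π with hMb
  have hMbn : Mb.Normal := Subgroup.Normal.map hMn π hπs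
  have hMb0 : Mb ≠ ⊥ := by
    intro h
    rw [hMb, Subgroup.map_eq_bot_iff, hker] at h
    exact hMV (le_antisymm h hVM)
  have hMbmin : ∀ N : Subgroup (G ⧸ V), N.Normal → N ≤ Mb → N = ⊥ ∨ N = Mb := by
    intro N hN hNM
    have h1 : N.comap π ≤ M := by
      intro x hx
      obtain ⟨y, hy, hyx⟩ := hNM hx
      have h2 : y⁻¹ * x ∈ V := QuotientGroup.eq.mp hyx
      have h3 := mul_mem hy (hVM h2)
      rwa [mul_inv_cancel_left] at h3
    have h2 : V ≤ N.comap π := hker.symm.le.trans (Subgroup.ker_le_comap π N)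
    rcases hMmin _ (Subgroup.Normal.comap hN π) h2 h1 with h3 | h3
    · left
      rw [← Subgroup.map_comap_eq_self_of_surjective hπs N, h3]
      rw [Subgroup.map_eq_bot_iff, hker]
    · right
      rw [← Subgroup.map_comap_eq_self_of_surjective hπs N, h3]
  obtain ⟨hMbc, q, hqp, hqx⟩ := S0043.result Mb hMb0 hMbmin
  have hMbcard : Nat.card M = p * Nat.card Mb := by
    have h1 := Subgroup.relIndex_ker (K := M) π
    rw [hker] at h1
    rw [← h1, ← hV]
    exact (card_mul_relIndex hVM).symm
  have hMbidx : Nat.card Mb ∣ Nat.card (G ⧸ V) := Subgroup.card_subgroup_dvd_card _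
  have hVidx : ¬ p ^ 2 ∣ Nat.card (G ⧸ V) := hq V hVn hVb
  have : Fact q.Prime := ⟨hqp⟩
  have hMbp : IsPGroup q Mb := fun x => ⟨1, Subtype.ext (by rw [pow_one]; exact hqx x x.2)⟩
  obtain ⟨b, hb⟩ := IsPGroup.iff_card.mp hMbp
  have hb0 : b ≠ 0 := by
    rintro rfl
    rw [pow_zero] at hb
    exact hMb0 (Subgroup.card_eq_one.mp hb)
  by_cases hqp' : q = p
  · subst hqp'
    have hb1 : b = 1 := by
      by_contra h
      apply hVidx
      refine dvd_trans ?_ (hb ▸ hMbidx)
      exact pow_dvd_pow q (by omega)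
    rw [hb1, pow_one] at hb
    have hM2 : Nat.card M = q ^ 2 := by rw [hMbcard, hb, pow_two]
    have hMab : ∀ x ∈ M, ∀ y ∈ M, x * y = y * x := by
      intro x hx y hy
      exact congrArg Subtype.val (isMulCommutative_iff.mp
        (IsPGroup.isMulCommutative_of_card_eq_prime_sq hM2) ⟨x, hx⟩ ⟨y, hy⟩)
    have hMbot : M ≠ ⊥ := by
      rintro rfl
      exact hVb (le_bot_iff.mp hVM)
    have hMCM : M ≤ centralizer (M : Set G) := fun x hx =>
      mem_centralizer_iff.mpr (fun y hy => hMab y hy x hx)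
    have hnd : ¬ q ∣ (centralizer (M : Set G)).index := by
      intro h
      have h1 : q ^ 2 ∣ Nat.card (centralizer (M : Set G)) := by
        rw [← hM2]
        exact Subgroup.card_dvd_of_le hMCM
      have h2 := (centralizer (M : Set G)).card_mul_index
      have h3 : q ^ 2 * q ∣ Nat.card G := by
        rw [← h2]
        exact mul_dvd_mul h1 h
      have h4 := V.card_mul_index
      rw [hV] at h4
      have h5 : q * q ^ 2 ∣ q * V.index := by
        rw [h4]
        rwa [mul_comm] at h3
      exact hVidx (Nat.dvd_of_mul_dvd_mul_left hp.out.pos h5)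
    -- commutators centralize `M`
    have hcomm : ∀ g h : G, ⁅g, h⁆ ∈ centralizer (M : Set G) := by
      intro g h
      set c := ⁅g, h⁆ with hc
      have hcV : ∀ v ∈ V, c * v = v * c := by
        intro v hv
        have hcyc : IsCyclic V := isCyclic_of_prime_card hV
        exact comm_cyclic V hVn g h v hv
      have hcM : ∀ m ∈ M, c * m * c⁻¹ * m⁻¹ ∈ V := by
        intro m hm
        have hcyc : IsCyclic Mb := isCyclic_of_prime_card hb
        have h1 := comm_cyclic Mb hMbn (π g) (π h) (π m) (Subgroup.mem_map_of_mem π hm)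
        rw [← map_commutatorElement, ← hc] at h1
        rw [← hker, MonoidHom.mem_ker, map_mul, map_mul, map_mul, map_inv, map_inv, h1]
        group
      have hcp : c ^ q ∈ centralizer (M : Set G) := by
        rw [mem_centralizer_iff]
        intro m hm
        obtain ⟨v, hv, hvm⟩ : ∃ v ∈ V, c * m * c⁻¹ = v * m :=
          ⟨_, hcM m hm, by group⟩
        have h1 : ∀ k : ℕ, c ^ k * m * (c ^ k)⁻¹ = v ^ k * m := by
          intro k
          induction k with
          | zero => simp
          | succ k ih =>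
            have h2 : c * v ^ k = v ^ k * c := hcV _ (pow_mem hv k)
            calc c ^ (k + 1) * m * (c ^ (k + 1))⁻¹ = c * (c ^ k * m * (c ^ k)⁻¹) * c⁻¹ := by
                  rw [pow_succ']; group
              _ = (c * v ^ k) * m * c⁻¹ := by rw [ih]; group
              _ = v ^ k * (c * m * c⁻¹) := by rw [h2]; group
              _ = v ^ (k + 1) * m := by rw [hvm, pow_succ, mul_assoc]
        have h2 : v ^ q = 1 := by
          have h3 : orderOf v ∣ Nat.card V := Subgroup.orderOf_dvd_natCard V hv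
          rw [hV] at h3
          exact orderOf_dvd_iff_pow_eq_one.mp h3
        have h3 := h1 q
        rw [h2, one_mul] at h3
        calc m * c ^ q = (c ^ q * m * (c ^ q)⁻¹) * c ^ q := by rw [h3]
          _ = c ^ q * m := by group
      rw [← QuotientGroup.eq_one_iff]
      have h1 : (QuotientGroup.mk c : G ⧸ centralizer (M : Set G)) ^ q = 1 := by
        rw [← QuotientGroup.mk_pow, QuotientGroup.eq_one_iff]
        exact hcp
      have h2 : orderOf (QuotientGroup.mk c : G ⧸ centralizer (M : Set G)) ∣ q :=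
        orderOf_dvd_of_pow_eq_one h1
      rcases (Nat.dvd_prime hp.out).mp h2 with h3 | h3
      · exact orderOf_eq_one_iff.mp h3
      · exfalso
        apply hnd
        have h4 : orderOf (QuotientGroup.mk c : G ⧸ centralizer (M : Set G)) ∣
            Nat.card (G ⧸ centralizer (M : Set G)) := orderOf_dvd_natCard _
        rw [h3] at h4
        exact h4
    have hHab : ∀ x y : G ⧸ centralizer (M : Set G), x * y = y * x := by
      intro x y
      obtain ⟨g, rfl⟩ := QuotientGroup.mk_surjective x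
      obtain ⟨h, rfl⟩ := QuotientGroup.mk_surjective y
      rw [← commutatorElement_eq_one_iff_mul_comm]
      have h1 : (QuotientGroup.mk ⁅g, h⁆ : G ⧸ centralizer (M : Set G)) = 1 :=
        (QuotientGroup.eq_one_iff _).mpr (hcomm g h)
      exact h1
    have hk := CB.of_comm hHab
    unfold CB at hk
    rw [one_mul] at hk
    have hk' : Nat.card (G ⧸ centralizer (M : Set G)) ≤
        Nat.card (ConjClasses (G ⧸ centralizer (M : Set G))) := by exact_mod_cast hk
    have hcnt := (count_normal M hMab hMbot).2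
    rw [hM2] at hcnt
    refine num_abel hp.out.two_le (h := (centralizer (M : Set G)).index)
      (Nat.pos_of_ne_zero Subgroup.index_ne_zero_of_finite) ?_
    refine le_trans (Nat.add_le_add_right (Nat.mul_le_mul_right _ ?_) _) hcnt
    exact hk'
  · exfalso
    -- `M` is nilpotent
    have hnil : Group.IsNilpotent M := by
      let f : M →* G ⧸ V := π.comp M.subtype
      have hf : f.ker ≤ center M := by
        intro x hx
        rw [MonoidHom.mem_ker] at hx
        have h1 : (x : G) ∈ V := by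
          rw [← hker]
          exact hx
        rw [mem_center_iff]
        intro y
        apply Subtype.ext
        have h2 := mem_centralizer_iff.mp (hMC y.2) x h1
        exact h2.symm
      have hfr : Group.IsNilpotent f.range := by
        have h1 : ∀ a b : f.range, a * b = b * a := by
          rintro ⟨_, x, rfl⟩ ⟨_, y, rfl⟩
          apply Subtype.ext
          have h2 := isMulCommutative_iff.mp hMbc ⟨π x, Subgroup.mem_map_of_mem π x.2⟩
            ⟨π y, Subgroup.mem_map_of_mem π y.2⟩
          have h3 := congrArg Subtype.val h2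
          exact h3
        let _ : CommGroup f.range :=
          { (inferInstance : Group f.range) with mul_comm := h1 }
        infer_instance
      refine Subgroup.isNilpotent_of_ker_le_center f.rangeRestrict ?_
      rw [MonoidHom.ker_rangeRestrict]
      exact hf
    obtain ⟨P⟩ : Nonempty (Sylow q M) := inferInstance
    have hPn : (P : Subgroup M).Normal := inferInstance
    have hPc : (P : Subgroup M).Characteristic := Sylow.characteristic_of_normal P hPn
    set R := (P : Subgroup M).map M.subtype with hR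
    have hRn : R.Normal := inferInstance
    have hRcard : Nat.card R = Nat.card P :=
      Nat.card_congr ((P : Subgroup M).equivMapOfInjective M.subtype M.subtype_injective).symm.toEquiv
    have hRb : R ≠ ⊥ := by
      intro h
      have h1 : Nat.card P = 1 := by
        rw [← hRcard, h, Subgroup.card_bot]
      have h2 : q ∣ Nat.card M := by
        rw [hMbcard, hb]
        exact (dvd_pow_self q hb0).mul_left p
      have h3 := P.dvd_card_of_dvd_card h2
      rw [h1] at h3
      exact hqp.one_lt.ne' (Nat.dvd_one.mp h3)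
    apply hq R hRn hRb
    have h1 := R.card_mul_index
    rw [← h1] at hpG
    have h2 : Nat.Coprime (p ^ 2) (Nat.card R) := by
      rw [hRcard]
      obtain ⟨n, hn⟩ := IsPGroup.iff_card.mp P.isPGroup'
      rw [hn]
      exact Nat.Coprime.pow 2 n ((Nat.coprime_primes hp.out hqp).mpr (Ne.symm hqp'))
    exact h2.dvd_of_dvd_mul_left hpG

/-- **The bound `49 p ≤ 60 k(G)`.** -/
theorem main (n : ℕ) : ∀ (G : Type u) [Group G] [Finite G] [Group.IsSolvable G] (p : ℕ)
    [Fact p.Prime], Nat.card G = n → p ^ 2 ∣ Nat.card G →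
    49 * p ≤ 60 * Nat.card (ConjClasses G) := by
  induction n using Nat.strong_induction_on with
  | _ n ih =>
  intro G _ _ _ p hp hn hpG
  classical
  by_cases hq : ∃ N : Subgroup G, N.Normal ∧ N ≠ ⊥ ∧ p ^ 2 ∣ N.index
  · obtain ⟨N, hN, hN0, hNp⟩ := hq
    have h1 : Nat.card (G ⧸ N) < n := by
      have h2 := N.card_mul_index
      have h3 : 1 < Nat.card N := (Subgroup.one_lt_card_iff_ne_bot N).mpr hN0
      have h4 : 0 < N.index := Nat.pos_of_ne_zero Subgroup.index_ne_zero_of_finite
      change N.index < n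
      rw [← hn, ← h2]
      nlinarith
    have h2 := ih _ h1 (G ⧸ N) p rfl hNp
    have h3 := H553.KClass.le_of_surjective (QuotientGroup.mk' N) (QuotientGroup.mk'_surjective N)
    omega
  push Not at hq
  have hG1 : 1 < Nat.card G := by
    have h1 := Nat.le_of_dvd Nat.card_pos hpG
    have h2 := hp.out.two_le
    nlinarith
  have hGnt : Nontrivial G := Finite.one_lt_card_iff_nontrivial.mp hG1
  obtain ⟨V, hVm⟩ := (Set.toFinite {N : Subgroup G | N.Normal ∧ N ≠ ⊥}).exists_minimal
    ⟨⊤, inferInstance, top_ne_bot⟩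
  obtain ⟨hVn, hVb⟩ := hVm.prop
  have hVmin : ∀ N : Subgroup G, N.Normal → N ≤ V → N = ⊥ ∨ N = V := by
    intro N hN hNV
    by_cases h : N = ⊥
    · exact Or.inl h
    · exact Or.inr (le_antisymm hNV (hVm.le_of_le ⟨hN, h⟩ hNV))
  obtain ⟨hVc, q, hqp, hqx⟩ := S0043.result V hVb hVmin
  have hqfact : Fact q.Prime := ⟨hqp⟩
  have hVp : IsPGroup q V := fun x => ⟨1, Subtype.ext (by rw [pow_one]; exact hqx x x.2)⟩
  obtain ⟨b, hb⟩ := IsPGroup.iff_card.mp hVp
  have hpq : q = p := by
    by_contra hne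
    apply hq V hVn hVb
    have h1 := V.card_mul_index
    rw [← h1, hb] at hpG
    exact (Nat.Coprime.pow 2 b ((Nat.coprime_primes hp.out hqp).mpr (Ne.symm hne))).dvd_of_dvd_mul_left
      hpG
  subst hpq
  have hab : ∀ x ∈ V, ∀ y ∈ V, x * y = y * x := by
    intro x hx y hy
    exact congrArg Subtype.val (isMulCommutative_iff.mp hVc ⟨x, hx⟩ ⟨y, hy⟩)
  obtain ⟨a, ha1, hVa, hCB, htwo⟩ := cb_of_minimal q V hab hqx hVb hVmin
  rcases Nat.lt_or_ge a 2 with ha | ha
  · have h1 : a = 1 := by omega
    rw [h1, pow_one] at hVa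
    exact case_one q hpG hq V hVa
  obtain ⟨hcnt1, hcnt2⟩ := count_normal V hab hVb
  have hidx : Nat.card (G ⧸ centralizer (V : Set G)) = (centralizer (V : Set G)).index := rfl
  unfold CB at hCB
  unfold CB at htwo
  rw [hidx] at hCB htwo
  rw [hVa] at hcnt2
  have hh : 0 < (centralizer (V : Set G)).index :=
    Nat.pos_of_ne_zero Subgroup.index_ne_zero_of_finite
  have hkHpos : 0 < Nat.card (ConjClasses (G ⧸ centralizer (V : Set G))) := Nat.card_pos
  have h42 : Nat.card (ConjClasses (G ⧸ centralizer (V : Set G))) ≤ 4 →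
      (centralizer (V : Set G)).index ≤ 42 := fun h => H698.Landau.le_42 h
  have h6 : Nat.card (ConjClasses (G ⧸ centralizer (V : Set G))) ≤ 3 →
      (centralizer (V : Set G)).index ≤ 6 := fun h => le_6 h
  have hGtwo : Nat.card (ConjClasses G) ≤ 2 → Nat.card G ≤ 2 := fun h =>
    H697.ClassCount.card_le_two h
  generalize Nat.card (ConjClasses (G ⧸ centralizer (V : Set G))) = kH at *
  generalize (centralizer (V : Set G)).index = h at *
  generalize Nat.card (ConjClasses G) = k at *
  have hqle := Nat.le_of_dvd Nat.card_pos hpG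
  rcases Nat.lt_or_ge q 5 with hq5 | hq5
  · have h23 : q = 2 ∨ q = 3 := by
      have h4 : q ≠ 4 := by
        rintro rfl
        norm_num at hqp
      have := hqp.two_le
      omega
    rcases h23 with rfl | rfl
    · omega
    · by_contra hcon
      have h1 := hGtwo (by omega)
      omega
  rcases Nat.lt_or_ge a 3 with ha3 | ha3
  · have h2 : a = 2 := by omega
    subst h2
    rcases htwo rfl with h1 | ⟨m, d, h1, h2, h3⟩
    · exact num_two hq5 hh h1 hcnt2
    · exact num_exc hqp h1 h2 h3 hcnt2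
  rcases Nat.lt_or_ge q 11 with hq11 | hq11
  · have h57 : q = 5 ∨ q = 7 := by
      interval_cases q <;> first | (exfalso; revert hqp; norm_num; done) | simp
    have hpow : q ^ 3 ≤ q ^ a := Nat.pow_le_pow_right hqp.pos ha3
    rcases h57 with rfl | rfl
    · by_contra hcon
      have hk : k ≤ 4 := by omega
      have h1 := h6 (by omega)
      have h2 : k * h ≤ 4 * 6 := Nat.mul_le_mul hk h1
      omega
    · by_contra hcon
      have hk : k ≤ 5 := by omega
      have h1 := h42 (by omega)
      have h2 : k * h ≤ 5 * 42 := Nat.mul_le_mul hk h1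
      omega
  · rw [BB_three_le ha3] at hCB
    exact num_three hq11 ha3 hh hCB hcnt2

end Cfsg.Agent.H558.CP
end

-- part: S4266
section
set_option autoImplicit false
open Cfsg

namespace Cfsg.Agent.S4266

/-- Let p be a prime and G a finite solvable group whose order is divisible by p². Then G has at least 49p/60 conjugacy classes. -/
theorem result {G : Type*} [Group G] [Finite G] (hsolv : Group.IsSolvable G) (p : ℕ) [Fact p.Prime] (hp : p ^ 2 ∣ Nat.card G) : 49 * p ≤ 60 * Nat.card (ConjClasses G) :=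
  Cfsg.Agent.H558.CP.main _ G p rfl hp

end Cfsg.Agent.S4266
end
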