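import Cfsg.Statements.S4269
import Mathlib
set_option linter.all false

set_option autoImplicit false
open Cfsg

namespace Cfsg.Agent.S4269

open scoped commutatorElement

theorem sup_induct {G : Type*} [Group G] {S T : Subgroup G} {p : G → Prop}
    (hS : ∀ s ∈ S, p s) (hT : ∀ t ∈ T, p t) (h1 : p 1)
    (hm : ∀ x y, p x → p y → p (x * y)) (hi : ∀ x, p x → p x⁻¹) {y : G} (hy : y ∈ S ⊔ T) :
    p y := by
  rw [Subgroup.sup_eq_closure] at hy
  induction hy using Subgroup.closure_induction with
  | mem x hx => exact hx.elim (hS x) (hT x)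
  | one => exact h1
  | mul x y _ _ hx hy => exact hm x y hx hy
  | inv x _ hx => exact hi x hx

/-- Let G be a finite group, V an abelian normal subgroup and H a subgroup with HV = G. Then H is pronormal in G (H and gHg⁻¹ are conjugate inside the subgroup they generate, for every g) if and only if every H-invariant subgroup U of V satisfies U = N_U(H)·[H, U], that is, U is the join of U ∩ N_G(H) and the commutator subgroup [H, U]. -/
theorem result {G : Type*} [Group G] [Finite G]
    (V : Subgroup G) [V.Normal] (hV : IsMulCommutative ↥V) (H : Subgroup G) (hHV : H ⊔ V = ⊤) :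
    Cfsg.IsPronormal H ↔
      ∀ U : Subgroup G, U ≤ V → (∀ h ∈ H, U.map (MulAut.conj h).toMonoidHom = U) →
        U = (U ⊓ Subgroup.normalizer (H : Set G)) ⊔ ⁅H, U⁆ := by
  have hVc : ∀ a ∈ V, ∀ b ∈ V, a * b = b * a := by
    intro a ha b hb
    have := isMulCommutative_iff.mp hV ⟨a, ha⟩ ⟨b, hb⟩
    exact congrArg Subtype.val this
  -- every element of `G` is `v * h`
  have hdec : ∀ g : G, ∃ v ∈ V, ∃ h ∈ H, g = v * h := by
    intro g
    have hg : g ∈ V ⊔ H := by rw [sup_comm, hHV]; trivial
    rw [← SetLike.mem_coe, Subgroup.normal_mul] at hg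
    obtain ⟨a, ha, b, hb, e⟩ := Set.mem_mul.mp hg
    exact ⟨a, ha, b, hb, e.symm⟩
  constructor
  · intro hpro U hUV hU
    have hUn : ∀ g : G, ∀ u ∈ U, g * u * g⁻¹ ∈ U := by
      intro g u hu
      obtain ⟨v, hv, h, hh, rfl⟩ := hdec g
      have h1 : h * u * h⁻¹ ∈ U := by
        rw [← hU h hh]
        exact ⟨u, hu, rfl⟩
      have h2 : v * (h * u * h⁻¹) = (h * u * h⁻¹) * v := hVc v hv _ (hUV h1)
      have : v * h * u * (v * h)⁻¹ = h * u * h⁻¹ := by
        have : v * h * u * (v * h)⁻¹ = v * (h * u * h⁻¹) * v⁻¹ := by group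
        rw [this, h2]; group
      rw [this]; exact h1
    have hUN : U.Normal := ⟨fun u hu g => hUn g u hu⟩
    have hcU : ⁅H, U⁆ ≤ U := Subgroup.commutator_le_right H U
    refine le_antisymm ?_ (sup_le inf_le_left hcU)
    intro u hu
    obtain ⟨x, hx, hxe⟩ := hpro u
    -- x ∈ H ⊔ [H, U]
    have hle : H ⊔ H.map (MulAut.conj u).toMonoidHom ≤ H ⊔ ⁅H, U⁆ := by
      refine sup_le le_sup_left ?_
      rintro _ ⟨h, hh, rfl⟩
      have : (MulAut.conj u).toMonoidHom h = ⁅h, u⁆⁻¹ * h := by
        simp only [MulEquiv.toMonoidHom_eq_coe, MonoidHom.coe_coe, MulAut.conj_apply,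
          commutatorElement_def]
        group
      rw [this]
      exact Subgroup.mul_mem _ (Subgroup.inv_mem _ (le_sup_right (a := H)
        (Subgroup.commutator_mem_commutator hh hu))) (le_sup_left (b := ⁅H, U⁆) hh)
    have hx' := hle hx
    -- [H,U] is normalized by H
    have hnorm : ∀ h ∈ H, ∀ c ∈ ⁅H, U⁆, h * c * h⁻¹ ∈ ⁅H, U⁆ := by
      intro h hh c hc
      have h1 : (⁅H, U⁆).map (MulAut.conj h).toMonoidHom = ⁅H, U⁆ := by
        rw [Subgroup.map_commutator, hU h hh]
        congr 1
        ext y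
        constructor
        · rintro ⟨z, hz, rfl⟩
          exact H.mul_mem (H.mul_mem hh hz) (H.inv_mem hh)
        · intro hy
          exact ⟨h⁻¹ * y * h, H.mul_mem (H.mul_mem (H.inv_mem hh) hy) hh, by
            simp only [MulEquiv.toMonoidHom_eq_coe, MonoidHom.coe_coe, MulAut.conj_apply]
            group⟩
      rw [← h1]
      exact ⟨c, hc, rfl⟩
    have hxd : ∃ c ∈ ⁅H, U⁆, ∃ h ∈ H, x = c * h := by
      have hcl : ∀ y ∈ H ⊔ ⁅H, U⁆, ∃ c ∈ ⁅H, U⁆, ∃ h ∈ H, y = c * h := by
        intro y hy
        refine sup_induct (p := fun y => ∃ c ∈ ⁅H, U⁆, ∃ h ∈ H, y = c * h)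
          (S := H) (T := ⁅H, U⁆) ?_ ?_ ?_ ?_ ?_ hy
        · intro h hh
          exact ⟨1, one_mem _, h, hh, (one_mul h).symm⟩
        · intro c hc
          exact ⟨c, hc, 1, one_mem _, (mul_one c).symm⟩
        · exact ⟨1, one_mem _, 1, one_mem _, (one_mul 1).symm⟩
        · rintro y z ⟨c, hc, h, hh, rfl⟩ ⟨c', hc', h', hh', rfl⟩
          refine ⟨c * (h * c' * h⁻¹), Subgroup.mul_mem _ hc (hnorm h hh c' hc'), h * h',
            H.mul_mem hh hh', by group⟩
        · rintro y ⟨c, hc, h, hh, rfl⟩
          refine ⟨h⁻¹ * c⁻¹ * h⁻¹⁻¹, hnorm h⁻¹ (H.inv_mem hh) _ (Subgroup.inv_mem _ hc), h⁻¹,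
            H.inv_mem hh, by group⟩
      exact hcl x hx'
    obtain ⟨c, hc, h, hh, rfl⟩ := hxd
    -- c⁻¹ u normalizes H
    have hcu : c⁻¹ * u ∈ U ⊓ Subgroup.normalizer (H : Set G) := by
      refine ⟨U.mul_mem (U.inv_mem (hcU hc)) hu, ?_⟩
      have key : H.map (MulAut.conj (c⁻¹ * u)).toMonoidHom = H := by
        have e1 : H.map (MulAut.conj (c⁻¹ * u)).toMonoidHom =
            (H.map (MulAut.conj u).toMonoidHom).map (MulAut.conj c⁻¹).toMonoidHom := by
          rw [Subgroup.map_map]
          congr 1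
          ext y
          simp
        have e2 : H.map (MulAut.conj (c * h)).toMonoidHom =
            (H.map (MulAut.conj h).toMonoidHom).map (MulAut.conj c).toMonoidHom := by
          rw [Subgroup.map_map]
          congr 1
          ext y
          simp
        have e3 : H.map (MulAut.conj h).toMonoidHom = H := by
          ext y
          constructor
          · rintro ⟨z, hz, rfl⟩
            exact H.mul_mem (H.mul_mem hh hz) (H.inv_mem hh)
          · intro hy
            exact ⟨h⁻¹ * y * h, H.mul_mem (H.mul_mem (H.inv_mem hh) hy) hh, by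
              simp only [MulEquiv.toMonoidHom_eq_coe, MonoidHom.coe_coe, MulAut.conj_apply]
              group⟩
        rw [e1, hxe, e2, e3, Subgroup.map_map]
        have : ((MulAut.conj c⁻¹).toMonoidHom.comp (MulAut.conj c).toMonoidHom) =
            MonoidHom.id G := by
          ext y
          simp [mul_assoc]
        rw [this, Subgroup.map_id]
      refine Subgroup.mem_normalizer_iff.mpr fun y => ?_
      constructor
      · intro hy
        have : (MulAut.conj (c⁻¹ * u)).toMonoidHom y ∈ H.map (MulAut.conj (c⁻¹ * u)).toMonoidHom :=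
          ⟨y, hy, rfl⟩
        rw [key] at this
        exact this
      · intro hy
        have hy2 : (c⁻¹ * u) * y * (c⁻¹ * u)⁻¹ ∈ H.map (MulAut.conj (c⁻¹ * u)).toMonoidHom := by
          rw [key]; exact hy
        obtain ⟨z, hz, hze⟩ := hy2
        have hzy : z = y := by
          have : (c⁻¹ * u) * z * (c⁻¹ * u)⁻¹ = (c⁻¹ * u) * y * (c⁻¹ * u)⁻¹ := hze
          exact mul_left_cancel (mul_right_cancel this)
        rw [← hzy]; exact hz
    have : u = c * (c⁻¹ * u) := by group
    rw [this]
    exact Subgroup.mul_mem _ (le_sup_right (a := U ⊓ Subgroup.normalizer (H : Set G)) hc)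
      (le_sup_left (b := ⁅H, U⁆) hcu)
  · intro hU g
    obtain ⟨v, hv, h0, hh0, rfl⟩ := hdec g
    -- conjugation by `v * h0` is conjugation by `v` on `H`
    have hconj : ∀ a : G, H.map (MulAut.conj (a * h0)).toMonoidHom =
        H.map (MulAut.conj a).toMonoidHom := by
      intro a
      ext y
      constructor
      · rintro ⟨z, hz, rfl⟩
        exact ⟨h0 * z * h0⁻¹, H.mul_mem (H.mul_mem hh0 hz) (H.inv_mem hh0), by
          simp only [MulEquiv.toMonoidHom_eq_coe, MonoidHom.coe_coe, MulAut.conj_apply]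
          group⟩
      · rintro ⟨z, hz, rfl⟩
        exact ⟨h0⁻¹ * z * h0, H.mul_mem (H.mul_mem (H.inv_mem hh0) hz) hh0, by
          simp only [MulEquiv.toMonoidHom_eq_coe, MonoidHom.coe_coe, MulAut.conj_apply]
          group⟩
    rw [hconj]
    -- W = the H-invariant subgroup generated by `v`
    let W : Subgroup G := Subgroup.closure {w | ∃ h ∈ H, w = h * v * h⁻¹}
    have hWV : W ≤ V := by
      rw [Subgroup.closure_le]
      rintro _ ⟨h, -, rfl⟩
      exact Subgroup.Normal.conj_mem inferInstance v hv h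
    have hWinv : ∀ h ∈ H, W.map (MulAut.conj h).toMonoidHom = W := by
      have hle : ∀ h ∈ H, W.map (MulAut.conj h).toMonoidHom ≤ W := by
        intro h hh
        rw [MonoidHom.map_closure, Subgroup.closure_le]
        rintro _ ⟨_, ⟨k, hk, rfl⟩, rfl⟩
        refine Subgroup.subset_closure ⟨h * k, H.mul_mem hh hk, ?_⟩
        simp only [MulEquiv.toMonoidHom_eq_coe, MonoidHom.coe_coe, MulAut.conj_apply]
        group
      intro h hh
      refine le_antisymm (hle h hh) ?_
      intro w hw
      refine ⟨h⁻¹ * w * h, ?_, by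
        simp only [MulEquiv.toMonoidHom_eq_coe, MonoidHom.coe_coe, MulAut.conj_apply]
        group⟩
      have := hle h⁻¹ (H.inv_mem hh) ⟨w, hw, rfl⟩
      simpa using this
    let K : Subgroup G := H ⊔ H.map (MulAut.conj v).toMonoidHom
    have hHK : H ≤ K := le_sup_left
    have hvK : ∀ h ∈ H, ⁅h, v⁆ ∈ K := by
      intro h hh
      have h1 : (MulAut.conj v).toMonoidHom h ∈ K :=
        (le_sup_right : H.map (MulAut.conj v).toMonoidHom ≤ K) ⟨h, hh, rfl⟩
      have : ⁅h, v⁆ = h * ((MulAut.conj v).toMonoidHom h)⁻¹ := by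
        simp only [MulEquiv.toMonoidHom_eq_coe, MonoidHom.coe_coe, MulAut.conj_apply,
          commutatorElement_def]
        group
      rw [this]
      exact K.mul_mem (hHK hh) (K.inv_mem h1)
    have hWK : ⁅H, W⁆ ≤ K := by
      rw [Subgroup.commutator_le]
      intro h hh w hw
      -- for fixed h the set of w ∈ V with [h,w] ∈ K is a subgroup
      have : ∀ w ∈ W, ∀ h ∈ H, ⁅h, w⁆ ∈ K := by
        intro w hw
        refine Subgroup.closure_induction (p := fun w _ => ∀ h ∈ H, ⁅h, w⁆ ∈ K) ?_ ?_ ?_ ?_ hw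
        · rintro _ ⟨k, hk, rfl⟩ h hh
          have e : ⁅h, k * v * k⁻¹⁆ = k * ⁅k⁻¹ * h * k, v⁆ * k⁻¹ := by
            simp only [commutatorElement_def]
            group
          rw [e]
          exact K.mul_mem (K.mul_mem (hHK hk) (hvK _ (H.mul_mem (H.mul_mem (H.inv_mem hk) hh) hk)))
            (K.inv_mem (hHK hk))
        · intro h hh
          rw [commutatorElement_one_right]
          exact K.one_mem
        · intro x y hx hy hxK hyK h hh
          have hxV : x ∈ V := hWV hx
          have hyV : y ∈ V := hWV hy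
          have hyhV : ⁅h, y⁆ ∈ V := by
            rw [commutatorElement_def]
            exact V.mul_mem (Subgroup.Normal.conj_mem inferInstance y hyV h) (V.inv_mem hyV)
          have e : ⁅h, x * y⁆ = ⁅h, x⁆ * (x * ⁅h, y⁆ * x⁻¹) := by
            simp only [commutatorElement_def]
            group
          rw [e, hVc x hxV _ hyhV, mul_inv_cancel_right]
          exact K.mul_mem (hxK h hh) (hyK h hh)
        · intro x hx hxK h hh
          have hxV : x ∈ V := hWV hx
          have hxhV : ⁅h, x⁆⁻¹ ∈ V := by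
            rw [commutatorElement_def]
            exact V.inv_mem
              (V.mul_mem (Subgroup.Normal.conj_mem inferInstance x hxV h) (V.inv_mem hxV))
          have e : ⁅h, x⁻¹⁆ = x⁻¹ * (⁅h, x⁆⁻¹ * x) := by
            simp only [commutatorElement_def]
            group
          rw [e, ← hVc x hxV _ hxhV, inv_mul_cancel_left]
          exact K.inv_mem (hxK h hh)
      exact this w hw h hh
    have hvW : v ∈ W := Subgroup.subset_closure ⟨1, H.one_mem, by group⟩
    have hWeq := hU W hWV hWinv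
    -- v = c * n, c ∈ [H,W], n ∈ N_W(H)
    have hvd : ∃ c ∈ ⁅H, W⁆, ∃ n ∈ Subgroup.normalizer (H : Set G), v = c * n := by
      have hcW : ⁅H, W⁆ ≤ V := by
        refine (Subgroup.commutator_mono le_rfl hWV).trans ?_
        exact Subgroup.commutator_le_right H V
      have : ∀ y ∈ (W ⊓ Subgroup.normalizer (H : Set G)) ⊔ ⁅H, W⁆,
          ∃ c ∈ ⁅H, W⁆, ∃ n ∈ Subgroup.normalizer (H : Set G), n ∈ V ∧ y = c * n := by
        intro y hy
        refine sup_induct (S := W ⊓ Subgroup.normalizer (H : Set G)) (T := ⁅H, W⁆)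
          (p := fun y => ∃ c ∈ ⁅H, W⁆, ∃ n ∈ Subgroup.normalizer (H : Set G), n ∈ V ∧ y = c * n)
          ?_ ?_ ?_ ?_ ?_ hy
        · rintro n ⟨hnW, hnN⟩
          exact ⟨1, one_mem _, n, hnN, hWV hnW, (one_mul n).symm⟩
        · intro c hc
          exact ⟨c, hc, 1, one_mem _, one_mem _, (mul_one c).symm⟩
        · exact ⟨1, one_mem _, 1, one_mem _, one_mem _, (one_mul 1).symm⟩
        · rintro y z ⟨c, hc, n, hn, hnV, rfl⟩ ⟨c', hc', n', hn', hn'V, rfl⟩
          refine ⟨c * c', Subgroup.mul_mem _ hc hc', n * n', Subgroup.mul_mem _ hn hn',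
            V.mul_mem hnV hn'V, ?_⟩
          have := hVc n hnV c' (hcW hc')
          calc c * n * (c' * n') = c * (n * c') * n' := by group
            _ = c * (c' * n) * n' := by rw [this]
            _ = c * c' * (n * n') := by group
        · rintro y ⟨c, hc, n, hn, hnV, rfl⟩
          refine ⟨c⁻¹, Subgroup.inv_mem _ hc, n⁻¹, Subgroup.inv_mem _ hn, V.inv_mem hnV, ?_⟩
          rw [hVc c (hcW hc) n hnV]
          group
      obtain ⟨c, hc, n, hn, -, e⟩ := this v (hWeq ▸ hvW)
      exact ⟨c, hc, n, hn, e⟩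
    obtain ⟨c, hc, n, hn, hve⟩ := hvd
    refine ⟨c, hWK hc, ?_⟩
    rw [hve]
    have e1 : H.map (MulAut.conj (c * n)).toMonoidHom =
        (H.map (MulAut.conj n).toMonoidHom).map (MulAut.conj c).toMonoidHom := by
      rw [Subgroup.map_map]
      congr 1
      ext y
      simp
    have e2 : H.map (MulAut.conj n).toMonoidHom = H := by
      rw [Subgroup.mem_normalizer_iff] at hn
      ext y
      constructor
      · rintro ⟨z, hz, rfl⟩
        exact (hn z).mp hz
      · intro hy
        refine ⟨n⁻¹ * y * n, ?_, by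
          simp only [MulEquiv.toMonoidHom_eq_coe, MonoidHom.coe_coe, MulAut.conj_apply]
          group⟩
        have := (hn (n⁻¹ * y * n)).mpr (by
          have : n * (n⁻¹ * y * n) * n⁻¹ = y := by group
          rw [this]; exact hy)
        exact this
    rw [e1, e2]

end Cfsg.Agent.S4269
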