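import Cfsg.Statements.S4304
set_option linter.all false

set_option autoImplicit false
open Cfsg

namespace Cfsg.Agent.S4304

open MulAction Subgroup

universe u

theorem fact7 : Fact (Nat.Prime 7) := ⟨by norm_num⟩

/-- Sylow subgroups of a normal subgroup of index prime to `p`. -/
theorem card_sylow_normal {G : Type u} [Group G] [Finite G] (p : ℕ) [Fact p.Prime]
    (N : Subgroup G) [N.Normal] (hN : ¬ p ∣ N.index) :
    Nat.card (Sylow p N) = Nat.card (Sylow p G) := by
  classical
  have hle : ∀ P : Sylow p G, (P : Subgroup G) ≤ N := by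
    intro P
    have h1 : IsPGroup p ((P : Subgroup G).map (QuotientGroup.mk' N)) := P.isPGroup'.map _
    have h2 : (P : Subgroup G).map (QuotientGroup.mk' N) = ⊥ := by
      obtain ⟨k, hk⟩ := IsPGroup.iff_card.mp h1
      have hdvd : Nat.card ((P : Subgroup G).map (QuotientGroup.mk' N)) ∣ N.index :=
        Subgroup.card_subgroup_dvd_card _
      rcases Nat.eq_zero_or_pos k with rfl | hk0
      · rw [pow_zero] at hk
        exact Subgroup.eq_bot_of_card_eq _ hk
      · exact absurd ((dvd_pow_self p hk0.ne').trans (hk ▸ hdvd)) hN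
    rwa [Subgroup.map_eq_bot_iff, QuotientGroup.ker_mk'] at h2
  refine (Nat.card_congr
    (Equiv.ofBijective (fun P : Sylow p G => P.subtype (hle P)) ⟨?_, ?_⟩)).symm
  · intro P Q h
    exact Sylow.subtype_injective h
  · intro R
    obtain ⟨Q, hQ⟩ := R.exists_comap_subtype_eq
    refine ⟨Q, ?_⟩
    apply Sylow.ext
    exact hQ

/-- The quotient by the kernel of the action on Sylow subgroups has the same Sylow number. -/
theorem card_sylow_quotient {G : Type u} [Group G] [Finite G] (p : ℕ) [Fact p.Prime] :
    Nat.card (Sylow p (G ⧸ (toPermHom G (Sylow p G)).ker)) = Nat.card (Sylow p G) := by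
  classical
  set K := (toPermHom G (Sylow p G)).ker with hK
  have hs : Function.Surjective (QuotientGroup.mk' K) := QuotientGroup.mk'_surjective K
  refine (Nat.card_congr
    (Equiv.ofBijective (fun P : Sylow p G => P.mapSurjective hs) ⟨?_, ?_⟩)).symm
  · intro P Q h
    have h' : (P : Subgroup G).map (QuotientGroup.mk' K) = (Q : Subgroup G).map (QuotientGroup.mk' K) := by
      have := congrArg (fun R : Sylow p (G ⧸ K) => (R : Subgroup (G ⧸ K))) h
      simpa using this
    have hPN : (P : Subgroup G) ≤ normalizer (Q : Set G) := by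
      intro x hx
      have hx' : QuotientGroup.mk' K x ∈ (Q : Subgroup G).map (QuotientGroup.mk' K) := by
        rw [← h']; exact Subgroup.mem_map_of_mem _ hx
      obtain ⟨y, hy, hyx⟩ := hx'
      have hk : y⁻¹ * x ∈ K := by
        rw [← QuotientGroup.eq]; exact hyx
      have hk2 : (y⁻¹ * x) • Q = Q := by
        have := MonoidHom.mem_ker.mp hk
        exact congrArg (fun σ : Equiv.Perm (Sylow p G) => σ Q) this
      have hy2 : y • Q = Q := by
        rw [Sylow.smul_eq_iff_mem_normalizer]
        exact Subgroup.le_normalizer hy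
      rw [← Sylow.smul_eq_iff_mem_normalizer]
      calc x • Q = y • ((y⁻¹ * x) • Q) := by rw [← mul_smul]; simp
        _ = Q := by rw [hk2, hy2]
    have h3 : (P : Subgroup G) ≤ Q := by
      have := IsPGroup.inf_normalizer_sylow P.isPGroup' Q
      rw [inf_eq_left.mpr hPN] at this
      exact inf_eq_left.mp this.symm
    exact Sylow.ext (P.is_maximal' Q.isPGroup' h3).symm
  · exact Sylow.mapSurjective_surjective hs p


/-- An element of a Sylow subgroup fixes a Sylow subgroup iff it belongs to it. -/
theorem smul_eq_iff_mem {G : Type u} [Group G] [Finite G] (p : ℕ) [Fact p.Prime]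
    {P Q : Sylow p G} {g : G} (hg : g ∈ P) : g • Q = Q ↔ g ∈ Q := by
  constructor
  · intro h
    have h1 : IsPGroup p (Subgroup.zpowers g) := by
      refine P.isPGroup'.to_le ?_
      rw [Subgroup.zpowers_le]
      exact hg
    have h2 := IsPGroup.inf_normalizer_sylow h1 Q
    have h3 : Subgroup.zpowers g ≤ normalizer (Q : Set G) := by
      rw [Subgroup.zpowers_le, ← Sylow.smul_eq_iff_mem_normalizer]
      exact h
    rw [inf_eq_left.mpr h3] at h2
    have h4 := inf_eq_left.mp h2.symm
    exact h4 (Subgroup.mem_zpowers g)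
  · intro h
    rw [Sylow.smul_eq_iff_mem_normalizer]
    exact Subgroup.le_normalizer h

/-- Burnside count for one Sylow 7-subgroup acting on the fifteen. -/
theorem pair_count {G : Type u} [Group G] [Finite G] (hn : Nat.card (Sylow 7 G) = 15)
    (P : Sylow 7 G) [Fintype (P : Subgroup G)] [Fintype (Sylow 7 G)] [DecidableEq (Sylow 7 G)] :
    ∑ g : (P : Subgroup G), (Finset.univ.filter (fun y : Sylow 7 G => (g : G) • y = y)).card
      = 3 * Nat.card (P : Subgroup G) := by
  classical
  have := fact7
  have hX : Fintype.card (Sylow 7 G) = 15 := by rw [← Nat.card_eq_fintype_card, hn]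
  have h1 : ∑ g : (P : Subgroup G), (Finset.univ.filter (fun y : Sylow 7 G => (g : G) • y = y)).card
      = ∑ y : Sylow 7 G,
        (Finset.univ.filter (fun g : (P : Subgroup G) => (g : G) • y = y)).card := by
    simp only [Finset.card_filter]
    exact Finset.sum_comm
  have h2 : ∀ y : Sylow 7 G, y ≠ P →
      7 * (Finset.univ.filter (fun g : (P : Subgroup G) => (g : G) • y = y)).card
        = Nat.card (P : Subgroup G) := by
    intro y hy
    have e1 : (Finset.univ.filter (fun g : (P : Subgroup G) => (g : G) • y = y)).card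
        = Nat.card (stabilizer (P : Subgroup G) y) := by
      rw [Nat.card_eq_fintype_card, Fintype.card_subtype]
      rfl
    have e2 : Nat.card (orbit (P : Subgroup G) y) * Nat.card (stabilizer (P : Subgroup G) y)
        = Nat.card (P : Subgroup G) := by
      rw [← Nat.card_prod]
      exact Nat.card_congr (MulAction.orbitProdStabilizerEquivGroup (P : Subgroup G) y)
    obtain ⟨k, hk⟩ := IsPGroup.iff_card.mp P.isPGroup'
    have e3 : Nat.card (orbit (P : Subgroup G) y) ∣ 7 ^ k := by
      rw [← hk]; exact Dvd.intro _ e2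
    obtain ⟨j, hj, hj'⟩ := (Nat.dvd_prime_pow (by norm_num : Nat.Prime 7)).mp e3
    have hle : Nat.card (orbit (P : Subgroup G) y) ≤ 15 := by
      rw [← hn]
      exact Nat.card_le_card_of_injective
        (fun z : orbit (P : Subgroup G) y => (z : Sylow 7 G)) Subtype.coe_injective
    have hj1 : j ≠ 0 := by
      rintro rfl
      rw [pow_zero, Nat.card_eq_one_iff_unique] at hj'
      obtain ⟨hs, _⟩ := hj'
      have hfix : y ∈ fixedPoints (P : Subgroup G) (Sylow 7 G) := by
        intro g
        have := hs.elim ⟨g • y, mem_orbit y g⟩ ⟨y, mem_orbit_self y⟩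
        exact congrArg Subtype.val this
      rw [IsPGroup.sylow_mem_fixedPoints_iff P.isPGroup'] at hfix
      exact hy (Sylow.ext (P.is_maximal' y.isPGroup' hfix))
    have hj2 : j = 1 := by
      by_contra hne
      have h2 : 2 ≤ j := by omega
      have : 7 ^ 2 ≤ 7 ^ j := Nat.pow_le_pow_right (by norm_num) h2
      rw [hj'] at hle
      omega
    rw [hj2, pow_one] at hj'
    rw [e1, ← e2, hj']
  have h3 : (Finset.univ.filter (fun g : (P : Subgroup G) => (g : G) • P = P)).card
      = Nat.card (P : Subgroup G) := by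
    rw [Finset.filter_true_of_mem, Finset.card_univ, Nat.card_eq_fintype_card]
    intro g _
    exact (smul_eq_iff_mem 7 (P := P) g.2).mpr g.2
  have h4 : 7 * ∑ y : Sylow 7 G,
      (Finset.univ.filter (fun g : (P : Subgroup G) => (g : G) • y = y)).card
      = 21 * Nat.card (P : Subgroup G) := by
    rw [Finset.mul_sum, ← Finset.add_sum_erase _ _ (Finset.mem_univ P), h3]
    have : ∑ x ∈ Finset.univ.erase P,
        7 * (Finset.univ.filter (fun g : (P : Subgroup G) => (g : G) • x = x)).card
        = ∑ x ∈ (Finset.univ : Finset (Sylow 7 G)).erase P, Nat.card (P : Subgroup G) :=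
      Finset.sum_congr rfl (fun y hy => h2 y (Finset.ne_of_mem_erase hy))
    rw [this, Finset.sum_const, Finset.card_erase_of_mem (Finset.mem_univ _), Finset.card_univ, hX]
    simp only [smul_eq_mul]
    ring
  rw [h1]
  omega

/-- Number of fixed Sylow 7-subgroups of a 7-element is 1 or 8. -/
theorem fix_card {G : Type u} [Group G] [Finite G] (hn : Nat.card (Sylow 7 G) = 15)
    [Fintype (Sylow 7 G)] [DecidableEq (Sylow 7 G)]
    (hf : ∀ g : G, (∀ y : Sylow 7 G, g • y = y) → g = 1)
    (P : Sylow 7 G) (g : G) (hg : g ∈ P) (hg1 : g ≠ 1) :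
    (Finset.univ.filter (fun y : Sylow 7 G => g • y = y)).card = 1 ∨
    (Finset.univ.filter (fun y : Sylow 7 G => g • y = y)).card = 8 := by
  classical
  have := fact7
  have hX : Fintype.card (Sylow 7 G) = 15 := by rw [← Nat.card_eq_fintype_card, hn]
  set F := Finset.univ.filter (fun y : Sylow 7 G => g • y = y) with hF
  have h1 : IsPGroup 7 (Subgroup.zpowers g) := by
    refine P.isPGroup'.to_le ?_
    rw [Subgroup.zpowers_le]
    exact hg
  have h2 := h1.card_modEq_card_fixedPoints (Sylow 7 G)
  have h3 : Nat.card (fixedPoints (Subgroup.zpowers g) (Sylow 7 G)) = F.card := by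
    rw [← Nat.card_eq_finsetCard]
    refine Nat.card_congr (Equiv.subtypeEquivRight ?_)
    intro y
    simp only [hF, Finset.mem_filter, Finset.mem_univ, true_and]
    constructor
    · intro h
      exact h ⟨g, Subgroup.mem_zpowers g⟩
    · intro h z
      have : (z : G) ∈ stabilizer G y := by
        have h5 : Subgroup.zpowers g ≤ stabilizer G y := by
          rw [Subgroup.zpowers_le]; exact h
        exact h5 z.2
      exact this
  rw [h3, hn] at h2
  have h4 : F.card ≤ 15 := by rw [← hX]; exact Finset.card_le_univ _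
  have h5 : P ∈ F := by
    simp only [hF, Finset.mem_filter, Finset.mem_univ, true_and]
    exact (smul_eq_iff_mem 7 (P := P) hg).mpr hg
  have h6 : 0 < F.card := Finset.card_pos.mpr ⟨P, h5⟩
  have h7 : F.card ≠ 15 := by
    intro h
    rw [← hX, Finset.card_eq_iff_eq_univ] at h
    apply hg1
    apply hf
    intro y
    have : y ∈ F := by rw [h]; exact Finset.mem_univ _
    simpa [hF] using this
  have h8 : 15 % 7 = F.card % 7 := h2
  omega

/-- The number of elements of `P` fixing eight Sylow 7-subgroups. -/
theorem count_eight {G : Type u} [Group G] [Finite G] (hn : Nat.card (Sylow 7 G) = 15)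
    [Fintype (Sylow 7 G)] [DecidableEq (Sylow 7 G)] 
    (hf : ∀ g : G, (∀ y : Sylow 7 G, g • y = y) → g = 1)
    (P : Sylow 7 G) [Fintype (P : Subgroup G)] :
    14 + 7 * (Finset.univ.filter (fun g : (P : Subgroup G) =>
      (Finset.univ.filter (fun y : Sylow 7 G => (g : G) • y = y)).card = 8)).card
      = 2 * Nat.card (P : Subgroup G) := by
  classical
  have hX : Fintype.card (Sylow 7 G) = 15 := by rw [← Nat.card_eq_fintype_card, hn]
  have h := pair_count hn P
  set f : ↥(P : Subgroup G) → ℕ :=
    fun g => (Finset.univ.filter (fun y : Sylow 7 G => (g : G) • y = y)).card with hfdef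
  have hf1 : f 1 = 15 := by
    simp only [hfdef]
    rw [Finset.filter_true_of_mem, Finset.card_univ, hX]
    intro y _
    simp
  have hfo : ∀ g : (P : Subgroup G), g ≠ 1 → f g = 1 + 7 * (if f g = 8 then 1 else 0) := by
    intro g hg
    have hg' : (g : G) ≠ 1 := by
      intro h; apply hg; exact Subtype.ext h
    rcases fix_card hn hf P g g.2 hg' with h | h
    · have h' : f g = 1 := h
      rw [h']; norm_num
    · have h' : f g = 8 := h
      rw [h']; norm_num
  have hsum : ∑ g : (P : Subgroup G), f g = 15 + ((Nat.card (P : Subgroup G) - 1)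
      + 7 * (Finset.univ.filter (fun g : (P : Subgroup G) => f g = 8)).card) := by
    rw [← Finset.add_sum_erase _ _ (Finset.mem_univ (1 : (P : Subgroup G))), hf1]
    congr 1
    rw [Finset.sum_congr rfl (fun g hg => hfo g (Finset.ne_of_mem_erase hg))]
    rw [Finset.sum_add_distrib, Finset.sum_const, Finset.card_erase_of_mem (Finset.mem_univ _),
      Finset.card_univ, ← Nat.card_eq_fintype_card, ← Finset.mul_sum, smul_eq_mul, mul_one]
    congr 2
    rw [← Finset.card_filter]
    congr 1
    ext g
    simp only [Finset.mem_filter, Finset.mem_erase, Finset.mem_univ, and_true, true_and,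
      and_iff_right_iff_imp]
    rintro h8 rfl
    rw [hf1] at h8
    omega
  have hpos : 0 < Nat.card (P : Subgroup G) := Nat.card_pos
  have h' : ∑ g : (P : Subgroup G), f g = 3 * Nat.card (P : Subgroup G) := h
  have hgoal : 14 + 7 * (Finset.univ.filter (fun g : (P : Subgroup G) => f g = 8)).card
      = 2 * Nat.card (P : Subgroup G) := by
    omega
  exact hgoal


/-- The Sylow 7-subgroups have order 7 when the action is faithful. -/
theorem card_sylow_eq {G : Type u} [Group G] [Finite G] (hn : Nat.card (Sylow 7 G) = 15)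
    (hf : ∀ g : G, (∀ y : Sylow 7 G, g • y = y) → g = 1)
    (P : Sylow 7 G) : Nat.card (P : Subgroup G) = 7 := by
  classical
  have := fact7
  have iG : Fintype G := Fintype.ofFinite G
  have iX : Fintype (Sylow 7 G) := Fintype.ofFinite _
  have hX : Fintype.card (Sylow 7 G) = 15 := by rw [← Nat.card_eq_fintype_card, hn]
  obtain ⟨k, hk⟩ : ∃ k, ∀ Q : Sylow 7 G, Nat.card (Q : Subgroup G) = 7 ^ k :=
    ⟨_, fun Q => Q.card_eq_multiplicity⟩
  let fx : G → ℕ := fun g => (Finset.univ.filter (fun y : Sylow 7 G => g • y = y)).card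
  let S : Finset G := Finset.univ.filter (fun g => (∃ Q : Sylow 7 G, g ∈ Q) ∧ fx g = 8)
  have hsum : ∑ Q : Sylow 7 G, (S.filter (fun g => g • Q = Q)).card = 8 * S.card := by
    have e1 : ∑ Q : Sylow 7 G, (S.filter (fun g => g • Q = Q)).card = ∑ g ∈ S, fx g := by
      simp only [fx, Finset.card_filter]
      exact Finset.sum_comm
    rw [e1]
    have e2 : ∑ g ∈ S, fx g = ∑ g ∈ S, 8 := by
      refine Finset.sum_congr rfl ?_
      intro g hg
      exact (Finset.mem_filter.mp hg).2.2
    rw [e2, Finset.sum_const, smul_eq_mul, mul_comm]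
  have hQ : ∀ Q : Sylow 7 G, 14 + 7 * (S.filter (fun g => g • Q = Q)).card = 2 * 7 ^ k := by
    intro Q
    have h1 := count_eight hn hf Q
    rw [hk Q] at h1
    rw [← h1]
    congr 2
    symm
    refine Finset.card_bij (fun g _ => (g : G)) ?_ ?_ ?_
    · intro g hg
      rw [Finset.mem_filter] at hg ⊢
      refine ⟨Finset.mem_filter.mpr ⟨Finset.mem_univ _, ⟨Q, g.2⟩, hg.2⟩, ?_⟩
      exact (smul_eq_iff_mem 7 (P := Q) g.2).mpr g.2
    · intro a _ b _ h
      exact Subtype.ext h
    · intro g hg
      rw [Finset.mem_filter] at hg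
      obtain ⟨hgS, hgQ⟩ := hg
      obtain ⟨_, ⟨R, hR⟩, h8⟩ := Finset.mem_filter.mp hgS
      have hgQ' : g ∈ Q := (smul_eq_iff_mem 7 (P := R) hR).mp hgQ
      exact ⟨⟨g, hgQ'⟩, Finset.mem_filter.mpr ⟨Finset.mem_univ _, h8⟩, rfl⟩
  have hk2 : k ≤ 2 := by
    by_contra hk3
    have hk3' : 3 ≤ k := by omega
    have h1 : 7 ^ 3 ∣ Nat.card G := by
      refine (pow_dvd_pow 7 hk3').trans ?_
      rw [← hk P]
      exact Subgroup.card_subgroup_dvd_card _
    have h2 : Nat.card G ∣ Nat.card (Equiv.Perm (Sylow 7 G)) := by
      refine Subgroup.card_dvd_of_injective (toPermHom G (Sylow 7 G)) ?_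
      rw [injective_iff_map_eq_one]
      intro g hg
      apply hf
      intro y
      exact congrArg (fun σ : Equiv.Perm (Sylow 7 G) => σ y) hg
    rw [Nat.card_perm, hn] at h2
    have h3 := h1.trans h2
    revert h3
    decide
  have hS : ∑ Q : Sylow 7 G, (14 + 7 * (S.filter (fun g => g • Q = Q)).card) = 15 * (2 * 7 ^ k) := by
    rw [Finset.sum_congr rfl (fun Q _ => hQ Q), Finset.sum_const, Finset.card_univ, hX, smul_eq_mul]
  rw [Finset.sum_add_distrib, ← Finset.mul_sum, hsum, Finset.sum_const, Finset.card_univ, hX,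
    smul_eq_mul] at hS
  rw [hk P]
  interval_cases k
  · omega
  · norm_num
  · omega

/-- `P` is self-centralising unless there is an odd permutation. -/
theorem centralizer_or_odd {G : Type u} [Group G] [Finite G] (hn : Nat.card (Sylow 7 G) = 15)
    (hf : ∀ g : G, (∀ y : Sylow 7 G, g • y = y) → g = 1)
    (P : Sylow 7 G) (hC : Nat.card (centralizer ((P : Subgroup G) : Set G)) ≠ 7) :
    ∃ M : Subgroup G, M.Normal ∧ M.index = 2 := by
  classical
  have := fact7
  have iG : Fintype G := Fintype.ofFinite G
  have iX : Fintype (Sylow 7 G) := Fintype.ofFinite _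
  have hX : Fintype.card (Sylow 7 G) = 15 := by rw [← Nat.card_eq_fintype_card, hn]
  have hP := card_sylow_eq hn hf P
  set C := centralizer ((P : Subgroup G) : Set G) with hCdef
  have hPcomm : ∀ x ∈ (P : Subgroup G), ∀ y ∈ (P : Subgroup G), x * y = y * x := by
    intro x hx y hy
    have : IsCyclic (P : Subgroup G) := isCyclic_of_prime_card hP
    have h := (IsCyclic.commGroup (α := (P : Subgroup G))).mul_comm ⟨x, hx⟩ ⟨y, hy⟩
    exact congrArg Subtype.val h
  have hPC : (P : Subgroup G) ≤ C := by
    intro x hx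
    rw [hCdef, Subgroup.mem_centralizer_iff]
    intro y hy
    exact hPcomm y hy x hx
  have h7 : 7 ∣ Nat.card C := by
    rw [← hP]; exact Subgroup.card_dvd_of_le hPC
  obtain ⟨m, hm⟩ := h7
  have hm1 : m ≠ 1 := by
    rintro rfl
    exact hC (by rw [hm])
  have h49 : ¬ 7 * 7 ∣ Nat.card G := by
    intro h
    have h1 := P.card_eq_multiplicity
    rw [hP] at h1
    have h2 : 2 ≤ (Nat.card G).factorization 7 := by
      rw [← (by norm_num : Nat.Prime 7).pow_dvd_iff_le_factorization (Nat.card_pos.ne')]
      simpa [pow_two] using h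
    have : 7 ^ 2 ≤ 7 ^ (Nat.card G).factorization 7 := Nat.pow_le_pow_right (by norm_num) h2
    omega
  have h7m : ¬ 7 ∣ m := by
    rintro ⟨l, rfl⟩
    apply h49
    refine (Dvd.intro l ?_).trans (Subgroup.card_subgroup_dvd_card C)
    rw [hm]; ring
  obtain ⟨r, hr, hrm⟩ := Nat.exists_prime_and_dvd hm1
  have hr7 : r ≠ 7 := by
    rintro rfl; exact h7m hrm
  have hrC : r ∣ Nat.card C := by rw [hm]; exact Dvd.dvd.mul_left hrm 7
  have hrF : Fact r.Prime := ⟨hr⟩
  obtain ⟨t, ht⟩ := exists_prime_orderOf_dvd_card' r hrC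
  have ht' : orderOf (t : G) = r := by rw [Subgroup.orderOf_coe, ht]
  have ht1 : (t : G) ≠ 1 := by
    intro h; rw [h, orderOf_one] at ht'; exact hr.one_lt.ne ht'
  set F : Set (Sylow 7 G) := {y | (t : G) • y = y} with hFdef
  have hcomm : ∀ g ∈ (P : Subgroup G), g * (t : G) = (t : G) * g := by
    intro g hg
    exact (Subgroup.mem_centralizer_iff.mp t.2) g hg
  -- P acts on F
  let act : MulAction (P : Subgroup G) F :=
    { smul := fun g y => ⟨(g : G) • y.1, by
        have hy : (t : G) • y.1 = y.1 := y.2
        change (t : G) • ((g : G) • y.1) = (g : G) • y.1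
        rw [← mul_smul, ← hcomm g g.2, mul_smul, hy]⟩
      one_smul := fun y => Subtype.ext (one_smul G y.1)
      mul_smul := fun g h y => Subtype.ext (mul_smul (g : G) (h : G) y.1) }
  have hPF : (P : Sylow 7 G) ∈ F := by
    change (t : G) • P = P
    rw [Sylow.smul_eq_iff_mem_normalizer]
    exact Subgroup.centralizer_le_normalizer _ t.2
  have hmod : Nat.card F ≡ 1 [MOD 7] := by
    have h1 := P.isPGroup'.card_modEq_card_fixedPoints F
    have h2 : Nat.card (fixedPoints (P : Subgroup G) F) = 1 := by
      rw [Nat.card_eq_one_iff_unique]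
      constructor
      · constructor
        rintro ⟨⟨y, hy⟩, hy'⟩ ⟨⟨z, hz⟩, hz'⟩
        have key : ∀ w : Sylow 7 G, (∀ g : (P : Subgroup G), (g : G) • w = w) → w = P := by
          intro w hw
          have hfix : w ∈ fixedPoints (P : Subgroup G) (Sylow 7 G) := fun g => hw g
          rw [IsPGroup.sylow_mem_fixedPoints_iff P.isPGroup'] at hfix
          exact Sylow.ext (P.is_maximal' w.isPGroup' hfix)
        have h3 : y = P := key y (fun g => congrArg Subtype.val (hy' g))
        have h4 : z = P := key z (fun g => congrArg Subtype.val (hz' g))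
        apply Subtype.ext
        apply Subtype.ext
        exact h3.trans h4.symm
      · exact ⟨⟨⟨P, hPF⟩, fun g => Subtype.ext
          ((smul_eq_iff_mem 7 (P := P) (g := (g : G)) g.2).mpr g.2)⟩⟩
    rw [h2] at h1
    exact h1
  have hle : Nat.card F ≤ 15 := by
    rw [← hn]
    exact Nat.card_le_card_of_injective (fun z : F => (z : Sylow 7 G)) Subtype.coe_injective
  have hne : Nat.card F ≠ 15 := by
    intro h
    apply ht1
    apply hf
    intro y
    have huniv : F = Set.univ := by
      rw [Set.eq_univ_iff_ncard, hn]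
      exact h
    have : y ∈ F := by rw [huniv]; trivial
    exact this
  -- zpowers t acts
  have hmodr : 15 ≡ Nat.card F [MOD r] := by
    have h1 : IsPGroup r (Subgroup.zpowers (t : G)) := by
      apply IsPGroup.of_card (n := 1)
      rw [Nat.card_zpowers, ht', pow_one]
    have h2 := h1.card_modEq_card_fixedPoints (Sylow 7 G)
    rw [hn] at h2
    have h3 : Nat.card (fixedPoints (Subgroup.zpowers (t : G)) (Sylow 7 G)) = Nat.card F := by
      refine Nat.card_congr (Equiv.subtypeEquivRight ?_)
      intro y
      constructor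
      · intro h
        exact h ⟨(t : G), Subgroup.mem_zpowers (t : G)⟩
      · intro h z
        have : (z : G) ∈ stabilizer G y := by
          have h5 : Subgroup.zpowers (t : G) ≤ stabilizer G y := by
            rw [Subgroup.zpowers_le]; exact h
          exact h5 z.2
        exact this
    rw [h3] at h2
    exact h2
  have hcase : Nat.card F = 1 ∨ Nat.card F = 8 := by
    have h8 : Nat.card F % 7 = 1 % 7 := hmod
    omega
  have h1 : Nat.card F = 1 ∧ r = 2 := by
    rcases hcase with h | h
    · refine ⟨h, ?_⟩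
      rw [h] at hmodr
      have h14 : r ∣ 14 := by
        have := (Nat.modEq_iff_dvd' (by norm_num : 1 ≤ 15)).mp hmodr.symm
        simpa using this
      have : r ∣ 2 * 7 := by simpa using h14
      rcases (Nat.Prime.dvd_mul hr).mp this with h | h
      · exact (Nat.prime_dvd_prime_iff_eq hr (by norm_num)).mp h
      · exact absurd ((Nat.prime_dvd_prime_iff_eq hr (by norm_num)).mp h) hr7
    · exfalso
      rw [h] at hmodr
      have h14 : r ∣ 7 := by
        have := (Nat.modEq_iff_dvd' (by norm_num : 8 ≤ 15)).mp hmodr.symm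
        simpa using this
      exact hr7 ((Nat.prime_dvd_prime_iff_eq hr (by norm_num)).mp h14)
  obtain ⟨hF1, hr2⟩ := h1
  -- sign
  let φ : G →* ℤˣ := Equiv.Perm.sign.comp (toPermHom G (Sylow 7 G))
  have hφt : φ (t : G) = -1 := by
    change Equiv.Perm.sign (toPermHom G (Sylow 7 G) (t : G)) = -1
    rw [Equiv.Perm.sign_of_pow_two_eq_one]
    · have hfp : Fintype.card (Function.fixedPoints (toPermHom G (Sylow 7 G) (t : G))) = 1 := by
        rw [← Nat.card_eq_fintype_card]
        exact hF1
      rw [hfp, hX]
      decide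
    · rw [← map_pow]
      have : (t : G) ^ 2 = 1 := by
        rw [← hr2, ← ht']; exact pow_orderOf_eq_one _
      rw [this, map_one]
  refine ⟨φ.ker, inferInstance, ?_⟩
  rw [Subgroup.index_ker]
  have : φ.range = ⊤ := by
    rw [eq_top_iff]
    intro x _
    rcases Int.units_eq_one_or x with rfl | rfl
    · exact one_mem _
    · exact ⟨t, hφt⟩
  rw [this]
  simp [Nat.card_eq_fintype_card]


/-- `N(P)/C(P)` embeds in `Aut P`. -/
theorem card_normalizer_dvd {G : Type u} [Group G] [Finite G] (P : Subgroup G) (hc : IsCyclic P) :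
    Nat.card (normalizer (P : Set G)) ∣
      Nat.card (centralizer (P : Set G)) * (Nat.card P).totient := by
  have h1 : Nat.card (P.normalizerMonoidHom.ker) * Nat.card (P.normalizerMonoidHom.range)
      = Nat.card (normalizer (P : Set G)) := by
    have h2 := Subgroup.card_mul_index (P.normalizerMonoidHom.ker)
    rw [Subgroup.index_ker] at h2
    exact h2
  rw [← h1]
  refine Nat.mul_dvd_mul ?_ ?_
  · rw [Subgroup.normalizerMonoidHom_ker]
    rw [Nat.card_congr (Subgroup.subgroupOfEquivOfLe
      (Subgroup.centralizer_le_normalizer (P : Set G))).toEquiv]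
  · rw [← IsCyclic.card_mulAut]
    exact Subgroup.card_subgroup_dvd_card _

theorem main (n : ℕ) : ∀ (G : Type u) [Group G] [Finite G], Nat.card G = n →
    Nat.card (Sylow 7 G) ≠ 15 := by
  induction n using Nat.strong_induction_on with
  | _ n ih =>
  intro G _ _ hGn hn
  classical
  have := fact7
  -- normal subgroups of index prime to 7
  have hno : ∀ M : Subgroup G, M.Normal → ¬ 7 ∣ M.index → M = ⊤ := by
    intro M hM h7
    by_contra hne
    have h1 : Nat.card M < n := by
      rw [← hGn]
      have h2 := Subgroup.card_mul_index M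
      have h3 : M.index ≠ 1 := fun h => hne (Subgroup.index_eq_one.mp h)
      have h4 : M.index ≠ 0 := Subgroup.index_ne_zero_of_finite
      have h5 : 0 < Nat.card M := Nat.card_pos
      rw [← h2]
      have h6 : 2 ≤ M.index := by omega
      nlinarith
    exact ih _ h1 M rfl (by rw [card_sylow_normal 7 M h7, hn])
  have hf : ∀ g : G, (∀ y : Sylow 7 G, g • y = y) → g = 1 := by
    by_contra hcon
    push Not at hcon
    obtain ⟨g, hg, hg1⟩ := hcon
    have hgk : g ∈ (toPermHom G (Sylow 7 G)).ker := by
      rw [MonoidHom.mem_ker]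
      ext y
      rw [toPermHom_apply, toPerm_apply, hg y]
      rfl
    have h1 : Nat.card (G ⧸ (toPermHom G (Sylow 7 G)).ker) < n := by
      have h2 := Subgroup.card_eq_card_quotient_mul_card_subgroup (toPermHom G (Sylow 7 G)).ker
      have h3 : 1 < Nat.card (toPermHom G (Sylow 7 G)).ker := by
        rw [Subgroup.one_lt_card_iff_ne_bot]
        intro h4
        rw [h4, Subgroup.mem_bot] at hgk
        exact hg1 hgk
      have h5 : 0 < Nat.card (G ⧸ (toPermHom G (Sylow 7 G)).ker) := Nat.card_pos
      rw [← hGn, h2]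
      nlinarith
    exact ih _ h1 _ rfl (by rw [card_sylow_quotient, hn])
  have P : Sylow 7 G := default
  have hP := card_sylow_eq hn hf P
  have hPc : IsCyclic (P : Subgroup G) := isCyclic_of_prime_card hP
  have hC : Nat.card (centralizer ((P : Subgroup G) : Set G)) = 7 := by
    by_contra hC
    obtain ⟨M, hM, hM2⟩ := centralizer_or_odd hn hf P hC
    have := hno M hM (by rw [hM2]; norm_num)
    rw [this, Subgroup.index_top] at hM2
    omega
  have hN : Nat.card (normalizer ((P : Subgroup G) : Set G)) ∣ 42 := by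
    have := card_normalizer_dvd (P : Subgroup G) hPc
    rw [hC, hP] at this
    have h6 : Nat.totient 7 = 6 := by
      rw [Nat.totient_prime (by norm_num)]
    rw [h6] at this
    exact this
  have hcard : Nat.card G = Nat.card (normalizer ((P : Subgroup G) : Set G)) * 15 := by
    rw [← Subgroup.card_mul_index (normalizer ((P : Subgroup G) : Set G)), ← hn,
      Sylow.card_eq_index_normalizer P]
    rfl
  have h630 : Nat.card G ∣ 630 := by
    rw [hcard]
    exact Nat.mul_dvd_mul hN (dvd_refl 15)
  -- odd order
  have hodd : ¬ 2 ∣ Nat.card G := by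
    intro h2
    have f2 : Fact (Nat.Prime 2) := ⟨Nat.prime_two⟩
    have T : Sylow 2 G := default
    have hT : Nat.card (T : Subgroup G) = 2 := by
      obtain ⟨k, hk⟩ := IsPGroup.iff_card.mp T.isPGroup'
      have hk1 : 2 ^ k ∣ 630 := by
        rw [← hk]; exact (Subgroup.card_subgroup_dvd_card _).trans h630
      have hk2 : k ≤ 1 := by
        by_contra hk2
        have : 2 ^ 2 ∣ 630 := (pow_dvd_pow 2 (by omega : 2 ≤ k)).trans hk1
        revert this; decide
      have hk3 : 2 ∣ Nat.card (T : Subgroup G) := T.dvd_card_of_dvd_card h2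
      rw [hk] at hk3 ⊢
      interval_cases k
      · omega
      · norm_num
    have hTc : IsCyclic (T : Subgroup G) := isCyclic_of_prime_card hT
    have hmin : (Nat.card G).minFac = 2 := Nat.minFac_eq_two_iff _ |>.mpr h2
    have hcomp := IsCyclic.isComplement' hmin hTc
    have hidx := hcomp.symm.index_eq_card
    rw [hT] at hidx
    have := hno _ inferInstance (by rw [hidx]; norm_num)
    rw [this, Subgroup.index_top] at hidx
    omega
  -- Sylow 5
  have f5 : Fact (Nat.Prime 5) := ⟨by norm_num⟩
  have Q : Sylow 5 G := default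
  have hQ : Nat.card (Q : Subgroup G) = 5 := by
    obtain ⟨k, hk⟩ := IsPGroup.iff_card.mp Q.isPGroup'
    have hk1 : 5 ^ k ∣ 630 := by
      rw [← hk]; exact (Subgroup.card_subgroup_dvd_card _).trans h630
    have hk2 : k ≤ 1 := by
      by_contra hk2
      have : 5 ^ 2 ∣ 630 := (pow_dvd_pow 5 (by omega : 2 ≤ k)).trans hk1
      revert this; decide
    have hk3 : 5 ∣ Nat.card (Q : Subgroup G) := Q.dvd_card_of_dvd_card
      (by rw [hcard]; exact Dvd.intro_left (Nat.card (normalizer ((P : Subgroup G) : Set G)) * 3) (by ring))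
    rw [hk] at hk3 ⊢
    interval_cases k
    · omega
    · norm_num
  have hQc : IsCyclic (Q : Subgroup G) := isCyclic_of_prime_card hQ
  have hQN : normalizer ((Q : Subgroup G) : Set G) ≤ centralizer ((Q : Subgroup G) : Set G) := by
    have h1 : Nat.card ((Q : Subgroup G).normalizerMonoidHom.range) ∣ 4 := by
      have h2 := Subgroup.card_subgroup_dvd_card (Q : Subgroup G).normalizerMonoidHom.range
      rw [IsCyclic.card_mulAut, hQ, Nat.totient_prime (by norm_num)] at h2
      exact h2
    have h2 : Nat.card ((Q : Subgroup G).normalizerMonoidHom.range) ∣ Nat.card G := by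
      refine (Subgroup.card_range_dvd _).trans (Subgroup.card_subgroup_dvd_card _)
    have h3 : Nat.card ((Q : Subgroup G).normalizerMonoidHom.range) = 1 := by
      have h4 : Nat.Coprime 4 (Nat.card G) := by
        rw [show 4 = 2 ^ 2 by norm_num]
        apply Nat.Coprime.pow_left
        exact (Nat.Prime.coprime_iff_not_dvd Nat.prime_two).mpr hodd
      exact Nat.eq_one_of_dvd_coprimes h4 h1 h2
    have h4 : (Q : Subgroup G).normalizerMonoidHom.ker = ⊤ := by
      rw [← Subgroup.index_eq_one, Subgroup.index_ker, h3]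
    rw [Subgroup.normalizerMonoidHom_ker, Subgroup.subgroupOf_eq_top] at h4
    exact h4
  have hcomp := MonoidHom.ker_transferSylow_isComplement' Q hQN
  have hidx := hcomp.symm.index_eq_card
  rw [hQ] at hidx
  have := hno _ inferInstance (by rw [hidx]; norm_num)
  rw [this, Subgroup.index_top] at hidx
  omega

/-- No finite group has exactly 15 Sylow 7-subgroups. -/
theorem result {G : Type*} [Group G] [Finite G] : Nat.card (Sylow 7 G) ≠ 15 := by
  exact main _ G rfl

end Cfsg.Agent.S4304
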