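import Cfsg.Statements.S4333
import Cfsg.Agent.Solvable.Zipper
set_option linter.all false

set_option autoImplicit false
open Pointwise
open Cfsg

namespace Cfsg.Agent.S4333

universe u

theorem aux (n : ℕ) :
    ∀ (G : Type u) [Group G] [Finite G], Nat.card G = n → ∀ A : Subgroup G,
      (∀ a ∈ A, ∀ g : G, (A.subgroupOf (A ⊔ MulAut.conj (g⁻¹ * a * g) • A)).IsSubnormal) →
      A.IsSubnormal := by
  induction n using Nat.strong_induction_on with
  | _ n ih =>
    intro G _ _ hn A h
    by_contra hns
    have hproper : ∀ H : Subgroup G, H < ⊤ → A ≤ H → (A.subgroupOf H).IsSubnormal := by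
      intro H hH hAH
      have hcard : Nat.card H < n := by
        rw [← hn, ← Subgroup.card_top (G := G)]
        refine lt_of_le_of_ne (Subgroup.card_le_of_le le_top) fun h => ?_
        exact hH.ne (Subgroup.eq_of_le_of_card_ge le_top h.ge)
      refine ih _ hcard H rfl _ fun a ha g => ?_
      have ha' : (a : G) ∈ A := Subgroup.mem_subgroupOf.mp ha
      have hle : A.subgroupOf H ⊔ MulAut.conj (g⁻¹ * a * g) • (A.subgroupOf H) ≤
          (A ⊔ MulAut.conj ((g : G)⁻¹ * (a : G) * (g : G)) • A).comap H.subtype := by
        refine sup_le (Subgroup.comap_mono le_sup_left) ?_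
        refine le_trans ?_ (Subgroup.comap_mono (le_sup_right (a := A)))
        intro y hy
        rw [Subgroup.mem_pointwise_smul_iff_inv_smul_mem, ← map_inv] at hy
        rw [Subgroup.mem_comap, Subgroup.mem_pointwise_smul_iff_inv_smul_mem, ← map_inv]
        exact hy
      let f : (A.subgroupOf H ⊔ MulAut.conj (g⁻¹ * a * g) • (A.subgroupOf H) : Subgroup H) →*
          (A ⊔ MulAut.conj ((g : G)⁻¹ * (a : G) * (g : G)) • A : Subgroup G) :=
        (H.subtype.comp (Subgroup.subtype _)).codRestrict _ (fun y => hle y.2)
      exact (h (a : G) ha' (g : G)).comap f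
    obtain ⟨M, hM, hAM, huniq⟩ := Cfsg.Agent.Solvable.Zipper.zipper A hproper hns
    -- every conjugate of an element of `A` normalizes `M`
    have hconj : ∀ a ∈ A, ∀ g : G, g⁻¹ * a * g ∈ Subgroup.normalizer (M : Set G) := by
      intro a ha g
      set x : G := g⁻¹ * a * g with hx
      have hle : MulAut.conj x • A ≤ M := by
        rcases eq_top_or_exists_le_coatom (A ⊔ MulAut.conj x • A) with ht | ⟨K, hK, hle⟩
        · exfalso
          apply hns
          have h1 := h a ha g
          rw [← hx, ht] at h1
          exact h1.trans le_top Subgroup.IsSubnormal.top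
        · rw [← huniq K hK (le_sup_left.trans hle)]
          exact le_sup_right.trans hle
      have hle2 : A ≤ MulAut.conj x⁻¹ • M := by
        have h1 : MulAut.conj x⁻¹ • (MulAut.conj x • A) ≤ MulAut.conj x⁻¹ • M :=
          Subgroup.pointwise_smul_le_pointwise_smul_iff.mpr hle
        rwa [smul_smul, ← map_mul, inv_mul_cancel, map_one, one_smul] at h1
      have hmax : IsCoatom (MulAut.conj x⁻¹ • M : Subgroup G) := by
        constructor
        · intro h1
          apply hM.1
          rw [eq_top_iff]
          intro y _
          have h2 : (MulAut.conj x⁻¹) y ∈ MulAut.conj x⁻¹ • M := by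
            rw [h1]; trivial
          exact (Subgroup.smul_mem_pointwise_smul_iff (a := MulAut.conj x⁻¹)).mp h2
        · intro K hK
          have h1 : M < MulAut.conj x • K := by
            have h2 : MulAut.conj x • (MulAut.conj x⁻¹ • M) ≤ MulAut.conj x • K :=
              Subgroup.pointwise_smul_le_pointwise_smul_iff.mpr hK.le
            rw [smul_smul, ← map_mul, mul_inv_cancel, map_one, one_smul] at h2
            refine lt_of_le_of_ne h2 fun h3 => hK.ne ?_
            rw [h3, smul_smul, ← map_mul, inv_mul_cancel, map_one, one_smul]
          have h2 := hM.2 _ h1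
          rw [eq_top_iff]
          intro y _
          have h3 : (MulAut.conj x) y ∈ MulAut.conj x • K := by
            rw [h2]; trivial
          exact (Subgroup.smul_mem_pointwise_smul_iff (a := MulAut.conj x)).mp h3
      have heq := huniq _ hmax hle2
      have heq2 : MulAut.conj x • M = M := by
        conv_lhs => rw [← heq]
        rw [smul_smul, ← map_mul, mul_inv_cancel, map_one, one_smul]
      rw [Subgroup.mem_normalizer_iff]
      intro y
      constructor
      · intro hy
        have : (MulAut.conj x) y ∈ MulAut.conj x • M :=
          Subgroup.smul_mem_pointwise_smul y (MulAut.conj x) M hy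
        rw [heq2] at this
        exact this
      · intro hy
        have h3 : (MulAut.conj x) y ∈ MulAut.conj x • M := by
          rw [heq2]; exact hy
        exact (Subgroup.smul_mem_pointwise_smul_iff (a := MulAut.conj x)).mp h3
    have hncl : Subgroup.normalClosure (A : Set G) ≤ Subgroup.normalizer (M : Set G) := by
      rw [Subgroup.normalClosure, Subgroup.closure_le]
      intro y hy
      rw [Group.mem_conjugatesOfSet_iff] at hy
      obtain ⟨a, ha, hay⟩ := hy
      obtain ⟨c, hc⟩ := isConj_iff.mp hay
      have := hconj a ha c⁻¹
      rw [inv_inv, hc] at this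
      exact this
    have hAN : A ≤ Subgroup.normalClosure (A : Set G) := Subgroup.le_normalClosure
    by_cases hMn : M.Normal
    · exact hns ((hproper _ hM.lt_top hAM).trans hAM hMn.isSubnormal)
    · have hNM : Subgroup.normalizer (M : Set G) = M := by
        have h1 : M ≤ Subgroup.normalizer (M : Set G) := Subgroup.le_normalizer
        rcases h1.eq_or_lt with h2 | h2
        · exact h2.symm
        · exact absurd (Subgroup.normalizer_eq_top_iff.mp (hM.2 _ h2)) hMn
      rw [hNM] at hncl
      exact hns ((hproper _ (lt_of_le_of_lt hncl hM.lt_top) hAN).trans hAN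
        (Subgroup.normalClosure_normal (s := (A : Set G))).isSubnormal)

/-- Let A be a subgroup of a finite group G. If A is subnormal in the subgroup generated by A and its conjugate by g⁻¹ a g, for every a ∈ A and every g ∈ G, then A is subnormal in G. (A sharpening of Wielandt's subnormality criterion: only conjugates of A by conjugates of elements of A are needed.) -/
theorem result {G : Type*} [Group G] [Finite G]
    (A : Subgroup G)
    (h : ∀ a ∈ A, ∀ g : G, (A.subgroupOf (A ⊔ MulAut.conj (g⁻¹ * a * g) • A)).IsSubnormal) :
    A.IsSubnormal :=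
  aux (Nat.card G) G rfl A h

end Cfsg.Agent.S4333
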