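import Cfsg.Statements.S4344
import Cfsg.Agent.H571.SylowNumber
set_option linter.all false

set_option autoImplicit false
open Cfsg

namespace Cfsg.Agent.S4344

/-- Let S be a finite non-abelian simple group, M a maximal subgroup of S and C a cyclic normal subgroup of M. If a Sylow p-subgroup P of S (for a prime p dividing the order of S) is contained in C, then the number of Sylow p-subgroups of S equals the index of M. -/
theorem result {S : Type*} [Group S] [Finite S]
    [IsSimpleGroup S] (hS : ¬ IsMulCommutative S) (p : ℕ) [Fact p.Prime] (hp : p ∣ Nat.card S)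
    (M : Subgroup S) (hM : IsCoatom M) (C : Subgroup S) (hCM : C ≤ M) (hCn : (C.subgroupOf M).Normal)
    (hC : IsCyclic C) (P : Sylow p S) (hP : (P : Subgroup S) ≤ C) :
    Nat.card (Sylow p S) = M.index := by
  have hcomm : ∀ x ∈ C, ∀ y ∈ C, x * y = y * x := by
    intro x hx y hy
    obtain ⟨g, hg⟩ := hC.exists_generator
    obtain ⟨a, ha⟩ := hg ⟨x, hx⟩
    obtain ⟨b, hb⟩ := hg ⟨y, hy⟩
    have : (⟨x, hx⟩ : C) * ⟨y, hy⟩ = ⟨y, hy⟩ * ⟨x, hx⟩ := by
      rw [← ha, ← hb]
      exact (Commute.refl g).zpow_zpow a b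
    exact congrArg Subtype.val this
  -- `M` normalizes `P`
  have h1 : M ≤ Subgroup.normalizer ((P : Subgroup S) : Set S) := by
    have hCN : C ≤ Subgroup.normalizer ((P : Subgroup S) : Set S) := by
      intro c hc
      rw [Subgroup.mem_normalizer_iff]
      intro x
      constructor
      · intro hx
        rw [hcomm c hc x (hP hx), mul_inv_cancel_right]
        exact hx
      · intro hx
        have h2 : c * x * c⁻¹ ∈ C := hP hx
        have h3 : x ∈ C := by
          have := C.mul_mem (C.mul_mem (C.inv_mem hc) h2) hc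
          have h6 : c⁻¹ * (c * x * c⁻¹) * c = x := by group
          rwa [h6] at this
        rwa [hcomm c hc x h3, mul_inv_cancel_right] at hx
    intro m hm
    -- `m • P ≤ C` is a Sylow subgroup, so equals `P`
    refine Sylow.smul_eq_iff_mem_normalizer.1 ?_
    have hmP : ((m • P : Sylow p S) : Subgroup S) ≤ C := by
      rw [Sylow.coe_subgroup_smul]
      intro x hx
      rw [Subgroup.mem_pointwise_smul_iff_inv_smul_mem] at hx
      have hx1 : (MulAut.conj m)⁻¹ • x = m⁻¹ * x * m := by
        rw [← map_inv, MulAut.smul_def, MulAut.conj_apply, inv_inv]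
      rw [hx1] at hx
      have hx2 : m⁻¹ * x * m ∈ C := hP hx
      have h2 : (⟨m⁻¹ * x * m, hCM hx2⟩ : M) ∈ C.subgroupOf M := by
        rw [Subgroup.mem_subgroupOf]
        exact hx2
      have h3 := hCn.conj_mem _ h2 ⟨m, hm⟩
      rw [Subgroup.mem_subgroupOf] at h3
      have h6 : m * (m⁻¹ * x * m) * m⁻¹ = x := by group
      have h7 : m * (m⁻¹ * x * m) * m⁻¹ ∈ C := h3
      rwa [h6] at h7
    -- `m • P` centralizes `P`, so `P * (m • P)` is a `p`-group
    have h2 : (m • P : Sylow p S) = P := by
      have h3 : ((m • P : Sylow p S) : Subgroup S) ≤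
          Subgroup.normalizer ((P : Subgroup S) : Set S) := hmP.trans hCN
      have h4 : ((m • P : Sylow p S) : Subgroup S) ⊓
          Subgroup.normalizer ((P : Subgroup S) : Set S) =
          ((m • P : Sylow p S) : Subgroup S) ⊓ P :=
        IsPGroup.inf_normalizer_sylow (m • P : Sylow p S).isPGroup' P
      rw [inf_eq_left.2 h3] at h4
      have h5 : ((m • P : Sylow p S) : Subgroup S) ≤ P := by
        rw [h4]; exact inf_le_right
      exact Sylow.ext ((m • P : Sylow p S).is_maximal' P.isPGroup' h5).symm
    exact h2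
  have h2 : Subgroup.normalizer ((P : Subgroup S) : Set S) ≠ ⊤ := by
    intro h
    have h3 : (P : Subgroup S).Normal := Subgroup.normalizer_eq_top_iff.1 h
    rcases h3.eq_bot_or_eq_top with h4 | h4
    · exact P.ne_bot_of_dvd_card hp h4
    · apply hS
      refine ⟨⟨fun a b => hcomm a (hP (h4 ▸ Subgroup.mem_top a)) b (hP (h4 ▸ Subgroup.mem_top b))⟩⟩
  have h3 : Subgroup.normalizer ((P : Subgroup S) : Set S) = M := by
    by_contra hne
    exact h2 (hM.2 _ (lt_of_le_of_ne h1 (Ne.symm hne)))
  rw [P.card_eq_index_normalizer]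
  exact congrArg Subgroup.index h3

end Cfsg.Agent.S4344
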