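import Mathlib
import Cfsg.Agent.H571.SylowNumber
import Cfsg.Agent.S4343
import Cfsg.Agent.S0720
import Cfsg.Agent.S0985
import Cfsg.Agent.SmallSimple.PrimeLocal
import Cfsg.Agent.WeakTI.SylCent
import Cfsg.Statements.S4346
import Cfsg.Agent.S0025
import Cfsg.Agent.SmallSimple.SylowSub
set_option linter.all false

-- part: H571/TwentyTwoA
section
/-!
# Simple groups with exactly 22 Sylow 3-subgroups: the action is doubly transitive and the
Sylow 3-subgroups have order 3
-/

set_option autoImplicit false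

namespace Cfsg.Agent.H571.TwentyTwo

open Subgroup MulAction

instance fact3 : Fact (Nat.Prime 3) := ⟨by norm_num⟩

variable {G : Type*} [Group G] [Finite G]

/-- A divisor of `22` which is `1` mod `3` is `1` or `22`. -/
theorem eq_one_or_of_dvd {n : ℕ} (h : n ∣ 22) (h1 : n ≡ 1 [MOD 3]) : n = 1 ∨ n = 22 := by
  have h2 : n ∈ Nat.divisors 22 := Nat.mem_divisors.2 ⟨h, by norm_num⟩
  have h3 : Nat.divisors 22 = {1, 2, 11, 22} := by decide
  rw [h3] at h2
  simp only [Finset.mem_insert, Finset.mem_singleton] at h2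
  rcases h2 with rfl | rfl | rfl | rfl
  · exact Or.inl rfl
  · exact absurd h1 (by decide)
  · exact absurd h1 (by decide)
  · exact Or.inr rfl

/-- The stabilizer of a Sylow 3-subgroup is maximal. -/
theorem isPreprimitive (hn : Nat.card (Sylow 3 G) = 22) : IsPreprimitive G (Sylow 3 G) := by
  have hnt : Nontrivial (Sylow 3 G) := by
    rw [← Finite.one_lt_card_iff_nontrivial, hn]
    norm_num
  obtain ⟨P⟩ : Nonempty (Sylow 3 G) := inferInstance
  rw [← isCoatom_stabilizer_iff_preprimitive G P, Sylow.stabilizer_eq_normalizer]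
  have hidx : (normalizer ((P : Subgroup G) : Set G)).index = 22 := by
    have h0 : Nat.card (Sylow 3 G) = (normalizer ((P : Subgroup G) : Set G)).index :=
      P.card_eq_index_normalizer
    rw [← h0, hn]
  refine ⟨?_, ?_⟩
  · intro h
    have h1 : normalizer ((P : Subgroup G) : Set G) = ⊤ := h
    rw [h1, index_top] at hidx
    norm_num at hidx
  · intro H hH
    have hPH : (P : Subgroup G) ≤ H := le_normalizer.trans hH.le
    have h1 := SylowNumber.card_sylow_eq_relIndex P H hPH
    have h2 : (normalizer ((P : Subgroup G) : Set G)).relIndex H * H.index = 22 := by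
      rw [← hidx]
      exact relIndex_mul_index hH.le
    have h3 : Nat.card (Sylow 3 H) ≡ 1 [MOD 3] := card_sylow_modEq_one 3 H
    rw [h1] at h3
    rcases eq_one_or_of_dvd (Dvd.intro _ h2) h3 with h4 | h4
    · exfalso
      rw [relIndex_eq_one] at h4
      exact absurd (le_antisymm hH.le h4) hH.ne
    · rw [h4] at h2
      have h5 : H.index = 1 := by omega
      exact index_eq_one.1 h5

/-- The action on the Sylow 3-subgroups is doubly transitive. -/
theorem two_transitive (hn : Nat.card (Sylow 3 G) = 22) {P Q P' Q' : Sylow 3 G}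
    (h : P ≠ Q) (h' : P' ≠ Q') : ∃ g : G, g • P = P' ∧ g • Q = Q' := by
  classical
  have hp := isPreprimitive hn
  have hfin : Fintype (Sylow 3 G) := Fintype.ofFinite _
  set G' : Subgroup (Equiv.Perm (Sylow 3 G)) := (toPermHom G (Sylow 3 G)).range with hG'
  have hp' : IsPreprimitive G' (Sylow 3 G) := by
    let f : Sylow 3 G →ₑ[(toPermHom G (Sylow 3 G)).rangeRestrict] (Sylow 3 G) :=
      { toFun := id
        map_smul' := fun g x => rfl }
    exact IsPreprimitive.of_surjective (f := f) Function.surjective_id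
  have hcard : Fintype.card (Sylow 3 G) = 2 * 11 := by
    rw [← Nat.card_eq_fintype_card, hn]
  rcases S0720.result (by norm_num : Nat.Prime 11) hcard G' hp' P with h1 | ⟨-, a, -, ha, -⟩
  · rw [is_two_pretransitive_iff] at h1
    obtain ⟨⟨_, g, rfl⟩, hg1, hg2⟩ := h1 h h'
    exact ⟨g, hg1, hg2⟩
  · exfalso
    rcases Nat.lt_or_ge a 2 with h2 | h2
    · interval_cases a <;> omega
    · rcases Nat.lt_or_ge a 3 with h3 | h3
      · interval_cases a; omega
      · nlinarith

/-- All indices `|P : P ∩ Q|` divide 3. -/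
theorem relIndex_dvd (hn : Nat.card (Sylow 3 G) = 22) (P Q : Sylow 3 G) :
    (Q : Subgroup G).relIndex (P : Subgroup G) ∣ 3 := by
  by_cases hPQ : P = Q
  · subst hPQ
    rw [relIndex_self]
    exact one_dvd _
  obtain ⟨P₀, Q₀, h0, h1⟩ := S0985.result (G := G) 3 2 (by rw [hn]; decide)
  obtain ⟨g, rfl, rfl⟩ := two_transitive hn h0 hPQ
  have h2 : ((g • Q₀ : Sylow 3 G) : Subgroup G).relIndex ((g • P₀ : Sylow 3 G) : Subgroup G) =
      (Q₀ : Subgroup G).relIndex (P₀ : Subgroup G) := by
    rw [Sylow.coe_subgroup_smul, Sylow.coe_subgroup_smul]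
    exact relIndex_map_map_of_injective (f := (MulAut.conj g).toMonoidHom)
      (Q₀ : Subgroup G) (P₀ : Subgroup G) (MulAut.conj g).injective
  rw [h2]
  have h3 : (Q₀ : Subgroup G).relIndex (P₀ : Subgroup G) ≤ 3 := h1
  have h4 : (Q₀ : Subgroup G).relIndex (P₀ : Subgroup G) ∣ Nat.card (P₀ : Subgroup G) :=
    relIndex_dvd_card _ _
  obtain ⟨n, hn'⟩ := IsPGroup.iff_card.1 P₀.isPGroup'
  rw [hn'] at h4
  obtain ⟨k, -, hk⟩ := (Nat.dvd_prime_pow (by norm_num : Nat.Prime 3)).1 h4
  rw [hk] at h3 ⊢
  have h5 : k ≤ 1 := by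
    by_contra hk1
    have : 3 ^ 2 ≤ 3 ^ k := Nat.pow_le_pow_right (by norm_num) (by omega)
    omega
  exact (pow_dvd_pow 3 h5).trans (by norm_num)

end Cfsg.Agent.H571.TwentyTwo
end

-- part: H571/TwentyTwoB
section
/-!
# No simple group has exactly 22 Sylow 3-subgroups
-/

set_option autoImplicit false

namespace Cfsg.Agent.H571.TwentyTwo

open Subgroup MulAction
open scoped Pointwise
open Cfsg.Agent.SmallSimple.PrimeLocal

variable {G : Type*} [Group G] [Finite G]

theorem card_eq_three [IsSimpleGroup G] (hG : ¬ IsMulCommutative G)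
    (hn : Nat.card (Sylow 3 G) = 22) (P : Sylow 3 G) : Nat.card (P : Subgroup G) = 3 := by
  have hO : ⨅ R : Sylow 3 G, (R : Subgroup G) = ⊥ := by
    rcases (S4343.iInf_sylow_normal (S := G) 3).eq_bot_or_eq_top with h3 | h3
    · exact h3
    · exfalso
      apply hG
      apply S4343.isMulCommutative_of_simple_pGroup 3
      have h4 : (P : Subgroup G) = ⊤ := top_unique (h3 ▸ iInf_le _ P)
      have h5 := P.isPGroup'
      rw [h4] at h5
      exact h5.of_equiv Subgroup.topEquiv
  have h1 := SmallSylow.card_dvd_of_relIndex_dvd (relIndex_dvd hn) hO P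
  rcases (Nat.dvd_prime (by norm_num : Nat.Prime 3)).1 h1 with h2 | h2
  · exfalso
    have h3 : (P : Subgroup G) = ⊥ := Subgroup.card_eq_one.1 h2
    have h4 : Subsingleton (Sylow 3 G) := by
      refine ⟨fun Q R => ?_⟩
      have h5 : ∀ Q : Sylow 3 G, (Q : Subgroup G) = ⊥ := by
        intro Q
        apply Subgroup.card_eq_one.1
        rw [Q.card_eq_multiplicity, ← P.card_eq_multiplicity, h2]
      exact Sylow.ext ((h5 Q).trans (h5 R).symm)
    have h5 : Nat.card (Sylow 3 G) = 1 := Nat.card_eq_one_iff_unique.2 ⟨h4, ⟨P⟩⟩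
    rw [hn] at h5
    norm_num at h5
  · exact h2

/-- An element acting trivially is `1`. -/
theorem eq_one_of_smul [IsSimpleGroup G] (hn : Nat.card (Sylow 3 G) = 22) (g : G)
    (hg : ∀ Q : Sylow 3 G, g • Q = Q) : g = 1 := by
  have h1 : (toPermHom G (Sylow 3 G)).ker = ⊥ := by
    rcases (inferInstance : (toPermHom G (Sylow 3 G)).ker.Normal).eq_bot_or_eq_top with h | h
    · exact h
    · exfalso
      obtain ⟨P⟩ : Nonempty (Sylow 3 G) := inferInstance
      have h2 : Subsingleton (Sylow 3 G) := by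
        refine ⟨fun Q R => ?_⟩
        obtain ⟨g, rfl⟩ := exists_smul_eq G Q R
        have h3 : g ∈ (toPermHom G (Sylow 3 G)).ker := h ▸ mem_top g
        have h4 := congrArg (fun f : Equiv.Perm (Sylow 3 G) => f Q) (MonoidHom.mem_ker.1 h3)
        exact h4.symm
      have h5 : Nat.card (Sylow 3 G) = 1 := Nat.card_eq_one_iff_unique.2 ⟨h2, ⟨P⟩⟩
      rw [hn] at h5
      norm_num at h5
  have h2 : g ∈ (toPermHom G (Sylow 3 G)).ker := by
    rw [MonoidHom.mem_ker]
    ext1 Q
    exact hg Q
  rw [h1, mem_bot] at h2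
  exact h2

/-- `22 * 21` divides `|G|`. -/
theorem dvd_card (hn : Nat.card (Sylow 3 G) = 22) : 22 * 21 ∣ Nat.card G := by
  classical
  obtain ⟨P⟩ : Nonempty (Sylow 3 G) := inferInstance
  have hnt : Nontrivial (Sylow 3 G) := by
    rw [← Finite.one_lt_card_iff_nontrivial, hn]
    norm_num
  obtain ⟨Q, hQ⟩ := exists_ne P
  -- `G` acts transitively on ordered pairs of distinct points
  have h1 : Nat.card (orbit G (P, Q)) = 22 * 21 := by
    have h2 : orbit G (P, Q) = {x : Sylow 3 G × Sylow 3 G | x.1 ≠ x.2} := by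
      ext ⟨R, S⟩
      constructor
      · rintro ⟨g, hg⟩
        have h3 : g • P = R := congrArg Prod.fst hg
        have h4 : g • Q = S := congrArg Prod.snd hg
        show R ≠ S
        rw [← h3, ← h4]
        intro h5
        exact hQ (smul_left_cancel g h5).symm
      · intro h
        obtain ⟨g, h3, h4⟩ := two_transitive hn (Ne.symm hQ) h
        exact ⟨g, Prod.ext h3 h4⟩
    rw [h2]
    have hfin : Fintype (Sylow 3 G) := Fintype.ofFinite _
    rw [Nat.card_coe_set_eq, Set.ncard_eq_toFinset_card']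
    have h3 : ({x : Sylow 3 G × Sylow 3 G | x.1 ≠ x.2} : Set _).toFinset =
        (Finset.univ : Finset (Sylow 3 G)).offDiag := by
      ext ⟨R, S⟩
      simp
    rw [h3, Finset.offDiag_card, Finset.card_univ, ← Nat.card_eq_fintype_card, hn]
  rw [← h1]
  have h2 := (stabilizer G (P, Q)).card_mul_index
  have h3 : (orbit G (P, Q)).ncard = (stabilizer G (P, Q)).index :=
    (index_stabilizer G (P, Q)).symm
  rw [Nat.card_coe_set_eq, h3]
  exact Dvd.intro_left _ h2

/-- A nontrivial element of a Sylow 3-subgroup fixes only this Sylow 3-subgroup. -/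
theorem eq_of_smul_eq (P : Sylow 3 G) (hP : Nat.card (P : Subgroup G) = 3) {x : G} (hx : x ∈ P)
    (hx1 : x ≠ 1) (Q : Sylow 3 G) (h : x • Q = Q) : P = Q := by
  have h1 : x ∈ normalizer ((Q : Subgroup G) : Set G) := Sylow.smul_eq_iff_mem_normalizer.1 h
  have h2 : (P : Subgroup G) ≤ normalizer ((Q : Subgroup G) : Set G) := by
    have h3 : zpowers x = (P : Subgroup G) := by
      apply eq_of_le_of_card_ge (zpowers_le.2 hx)
      rw [hP, Nat.card_zpowers]
      have h4 : orderOf x ∣ 3 := by
        have := orderOf_dvd_natCard (⟨x, hx⟩ : (P : Subgroup G))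
        rwa [Subgroup.orderOf_mk, hP] at this
      rcases (Nat.dvd_prime (by norm_num : Nat.Prime 3)).1 h4 with h5 | h5
      · exact absurd (orderOf_eq_one_iff.1 h5) hx1
      · exact h5.ge
    rw [← h3]
    exact zpowers_le.2 h1
  have h4 : (P : Subgroup G) ⊓ normalizer ((Q : Subgroup G) : Set G) = (P : Subgroup G) ⊓ Q :=
    IsPGroup.inf_normalizer_sylow P.isPGroup' Q
  rw [inf_eq_left.2 h2] at h4
  have h5 : (P : Subgroup G) ≤ Q := by
    rw [h4]
    exact inf_le_right
  exact Sylow.ext (P.is_maximal' Q.isPGroup' h5).symm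

/-- `P` fixes exactly one Sylow 3-subgroup. -/
theorem fixed_unique (P : Sylow 3 G) (Q : Sylow 3 G) (h : ∀ x ∈ P, x • Q = Q) : P = Q := by
  have h2 : (P : Subgroup G) ≤ normalizer ((Q : Subgroup G) : Set G) :=
    fun x hx => Sylow.smul_eq_iff_mem_normalizer.1 (h x hx)
  have h4 : (P : Subgroup G) ⊓ normalizer ((Q : Subgroup G) : Set G) = (P : Subgroup G) ⊓ Q :=
    IsPGroup.inf_normalizer_sylow P.isPGroup' Q
  rw [inf_eq_left.2 h2] at h4
  have h5 : (P : Subgroup G) ≤ Q := by
    rw [h4]
    exact inf_le_right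
  exact Sylow.ext (P.is_maximal' Q.isPGroup' h5).symm

/-- Let `T ≠ 1` be a 7-subgroup centralizing `P`. Then `T` fixes only `P`. -/
theorem seven_fixed [IsSimpleGroup G] (hn : Nat.card (Sylow 3 G) = 22) (P : Sylow 3 G)
    (T : Subgroup G) (hT : IsPGroup 7 T) (hT1 : T ≠ ⊥)
    (hTP : ∀ t ∈ T, ∀ x ∈ P, t * x = x * t) (Q : Sylow 3 G) (hQ : ∀ t ∈ T, t • Q = Q) : P = Q := by
  classical
  have hf7 : Fact (Nat.Prime 7) := ⟨by norm_num⟩
  by_contra hPQ
  -- the number of fixed points
  have h1 : Nat.card (Sylow 3 G) ≡ Nat.card (fixedPoints T (Sylow 3 G)) [MOD 7] :=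
    hT.card_modEq_card_fixedPoints (Sylow 3 G)
  -- `P` acts on the fixed points of `T`
  let S : SubMulAction (P : Subgroup G) (Sylow 3 G) :=
    { carrier := fixedPoints T (Sylow 3 G)
      smul_mem' := by
        intro x R hR t
        have h2 : (t : G) • R = R := hR t
        show (t : G) • (x : G) • R = (x : G) • R
        rw [← mul_smul, hTP t t.2 x x.2, mul_smul, h2] }
  have h2 : Nat.card S ≡ Nat.card (fixedPoints (P : Subgroup G) S) [MOD 3] :=
    P.isPGroup'.card_modEq_card_fixedPoints S
  have hPS : P ∈ fixedPoints T (Sylow 3 G) := by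
    intro t
    have : (t : G) ∈ normalizer ((P : Subgroup G) : Set G) := by
      rw [mem_normalizer_iff]
      intro x
      constructor
      · intro hx
        rw [hTP t t.2 x hx, mul_inv_cancel_right]
        exact hx
      · intro hx
        have h3 := hTP t t.2 _ hx
        have h4 : (t : G) * x * (t : G)⁻¹ = x := by
          have h5 : (t : G) * ((t : G) * x * (t : G)⁻¹) = (t : G) * x := by
            rw [h3]; group
          exact mul_left_cancel h5
        rwa [h4] at hx
    exact Sylow.smul_eq_iff_mem_normalizer.2 this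
  have h3 : Nat.card (fixedPoints (P : Subgroup G) S) = 1 := by
    rw [Nat.card_eq_one_iff_unique]
    refine ⟨⟨?_⟩, ⟨⟨P, hPS⟩, ?_⟩⟩
    · rintro ⟨⟨R, hR⟩, hR'⟩ ⟨⟨R', hR1⟩, hR1'⟩
      have e1 : P = R := fixed_unique P R (fun x hx => congrArg Subtype.val (hR' ⟨x, hx⟩))
      have e2 : P = R' := fixed_unique P R' (fun x hx => congrArg Subtype.val (hR1' ⟨x, hx⟩))
      subst e1
      subst e2
      rfl
    · intro x
      apply Subtype.ext
      exact Sylow.smul_eq_iff_mem_normalizer.2 (le_normalizer x.2)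
  rw [h3] at h2
  have h4 : Nat.card S = Nat.card (fixedPoints T (Sylow 3 G)) := rfl
  rw [h4] at h2
  rw [hn] at h1
  set f := Nat.card (fixedPoints T (Sylow 3 G)) with hf
  have h5 : f ≤ 22 := by
    rw [← hn, hf]
    exact Nat.card_le_card_of_injective _ Subtype.val_injective
  have h6 : f ≠ 22 := by
    intro h6
    apply hT1
    rw [eq_bot_iff]
    intro t ht
    rw [mem_bot]
    apply eq_one_of_smul hn
    intro R
    have h7 : fixedPoints T (Sylow 3 G) = Set.univ := by
      rw [Set.eq_univ_iff_ncard, ← Nat.card_coe_set_eq, ← hf, h6, hn]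
    have h8 : R ∈ fixedPoints T (Sylow 3 G) := h7 ▸ Set.mem_univ R
    exact h8 ⟨t, ht⟩
  have h7 : 2 ≤ f := by
    have : Nontrivial (fixedPoints T (Sylow 3 G)) :=
      ⟨⟨P, hPS⟩, ⟨Q, fun t => hQ t t.2⟩, fun h => hPQ (congrArg Subtype.val h)⟩
    exact Finite.one_lt_card_iff_nontrivial.2 this
  have h8 : f % 3 = 1 := h2
  have h9 : f % 7 = 1 := h1.symm
  omega

/-- A `7`-element of `K ≤ C(P)` generates its own centralizer in `K`. -/
theorem mem_of_centralizes [IsSimpleGroup G] (hn : Nat.card (Sylow 3 G) = 22) (P : Sylow 3 G)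
    (hP : Nat.card (P : Subgroup G) = 3) (K : Subgroup G)
    (hKP : ∀ k ∈ K, ∀ x ∈ (P : Subgroup G), k * x = x * k) (h3 : ¬ 3 ∣ Nat.card K)
    (T : Subgroup G) (hTK : T ≤ K) (hT : Nat.card T = 7) (c : G) (hc : c ∈ K)
    (hcT : ∀ t ∈ T, t * c = c * t) : c ∈ T := by
  classical
  have hf7 : Fact (Nat.Prime 7) := ⟨by norm_num⟩
  have hnt : Nontrivial (Sylow 3 G) := by
    rw [← Finite.one_lt_card_iff_nontrivial, hn]
    norm_num
  obtain ⟨Q, hQ⟩ := exists_ne P
  have hT7 : IsPGroup 7 T := IsPGroup.of_card (n := 1) (by rw [hT, pow_one])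
  -- elements of `K` fix `P`
  have hKfix : ∀ k ∈ K, k • P = P := by
    intro k hk
    have : k ∈ normalizer ((P : Subgroup G) : Set G) := by
      rw [mem_normalizer_iff]
      intro x
      constructor
      · intro hx
        rw [hKP k hk x hx, mul_inv_cancel_right]
        exact hx
      · intro hx
        have h3 := hKP k hk _ hx
        have h4 : k * x * k⁻¹ = x := by
          have h5 : k * (k * x * k⁻¹) = k * x := by
            rw [h3]; group
          exact mul_left_cancel h5
        rwa [h4] at hx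
    exact Sylow.smul_eq_iff_mem_normalizer.2 this
  have hPfix : ∀ x ∈ (P : Subgroup G), x • P = P := fun x hx =>
    Sylow.smul_eq_iff_mem_normalizer.2 (le_normalizer hx)
  have hP3 : ∀ x ∈ (P : Subgroup G), x ^ 3 = 1 := by
    intro x hx
    have h := pow_card_eq_one' (x := (⟨x, hx⟩ : (P : Subgroup G)))
    rw [hP] at h
    exact congrArg Subtype.val h
  have hTpow : ∀ t ∈ T, t ^ 7 = 1 := by
    intro t ht
    have h := pow_card_eq_one' (x := (⟨t, ht⟩ : T))
    rw [hT] at h
    exact congrArg Subtype.val h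
  -- semiregularity of `PT`
  have hsemi : ∀ x ∈ (P : Subgroup G), ∀ t ∈ T, (x * t) • Q = Q → x = 1 ∧ t = 1 := by
    intro x hx t ht h
    have hcomm : Commute x t := (hKP t (hTK ht) x hx).symm
    have hx1 : x = 1 := by
      by_contra hx1
      have h1 : (x * t) ^ 7 = x := by
        rw [hcomm.mul_pow, hTpow t ht, mul_one, show 7 = 3 * 2 + 1 from rfl, pow_add, pow_mul,
          hP3 x hx, one_pow, one_mul, pow_one]
      have h2 : (x * t) ^ 7 • Q = Q := by
        have h4 : x * t ∈ stabilizer G Q := h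
        exact (stabilizer G Q).pow_mem h4 7
      rw [h1] at h2
      exact hQ (eq_of_smul_eq P hP hx hx1 Q h2).symm
    subst hx1
    rw [one_mul] at h
    refine ⟨rfl, ?_⟩
    by_contra ht1
    have h1 : zpowers t = T := by
      apply eq_of_le_of_card_ge (zpowers_le.2 ht)
      rw [hT, Nat.card_zpowers]
      have h4 : orderOf t ∣ 7 := orderOf_dvd_of_pow_eq_one (hTpow t ht)
      rcases (Nat.dvd_prime (by norm_num : Nat.Prime 7)).1 h4 with h5 | h5
      · exact absurd (orderOf_eq_one_iff.1 h5) ht1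
      · exact h5.ge
    have h2 : ∀ s ∈ T, s • Q = Q := by
      intro s hs
      rw [← h1] at hs
      have h5 : zpowers t ≤ stabilizer G Q := zpowers_le.2 h
      exact h5 hs
    have hT1 : T ≠ ⊥ := by
      rintro rfl
      simp at hT
    exact hQ (seven_fixed hn P T hT7 hT1 (fun s hs x hx => hKP s (hTK hs) x hx) Q h2).symm
  -- the regular action of `PT` on the points different from `P`
  have hne : ∀ g : G, g • P = P → g • Q ≠ P := by
    intro g hg h
    rw [← hg] at h
    exact hQ (smul_left_cancel g h)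
  let f : ↥(P : Subgroup G) × ↥T → {R : Sylow 3 G // R ≠ P} := fun a =>
    ⟨((a.1 : G) * (a.2 : G)) • Q, hne _ (by
      rw [mul_smul, hKfix _ (hTK a.2.2), hPfix _ a.1.2])⟩
  have hf : Function.Injective f := by
    rintro ⟨x, t⟩ ⟨x', t'⟩ h
    have h1 : ((x : G) * t) • Q = ((x' : G) * t') • Q := congrArg Subtype.val h
    have hcomm : (t' : G)⁻¹ * ((x' : G)⁻¹ * x) = ((x' : G)⁻¹ * x) * (t' : G)⁻¹ :=
      hKP _ (hTK (T.inv_mem t'.2)) _ ((P : Subgroup G).mul_mem ((P : Subgroup G).inv_mem x'.2) x.2)
    have h2 : (((x' : G)⁻¹ * x) * ((t' : G)⁻¹ * t)) • Q = Q := by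
      have h3 : ((x' : G)⁻¹ * x) * ((t' : G)⁻¹ * t) = ((x' : G) * t')⁻¹ * ((x : G) * t) := by
        rw [← mul_assoc, ← hcomm]
        group
      rw [h3, mul_smul, h1, inv_smul_smul]
    obtain ⟨e1, e2⟩ := hsemi _ ((P : Subgroup G).mul_mem ((P : Subgroup G).inv_mem x'.2) x.2) _
      (T.mul_mem (T.inv_mem t'.2) t.2) h2
    have e1' : x = x' := Subtype.ext (inv_mul_eq_one.1 e1).symm
    have e2' : t = t' := Subtype.ext (inv_mul_eq_one.1 e2).symm
    rw [e1', e2']
  have hfb : Function.Bijective f := by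
    apply hf.bijective_of_nat_card_le
    have hfin : Fintype (Sylow 3 G) := Fintype.ofFinite _
    rw [Nat.card_prod, hP, hT, Nat.card_eq_fintype_card, Fintype.card_subtype_compl,
      Fintype.card_subtype_eq, ← Nat.card_eq_fintype_card, hn]
  obtain ⟨⟨x, t⟩, hxt⟩ := hfb.2 ⟨c • Q, hne c (hKfix c hc)⟩
  have hxt' : ((x : G) * t) • Q = c • Q := congrArg Subtype.val hxt
  set d := ((x : G) * t)⁻¹ * c with hd
  have hdQ : d • Q = Q := by
    rw [hd, mul_smul, ← hxt', inv_smul_smul]
  have hdcomm : ∀ y ∈ (P : Subgroup G), ∀ s ∈ T, d * (y * s) = (y * s) * d := by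
    intro y hy s hs
    have hxy : (x : G) * y = y * x := by
      have hcyc : IsCyclic (P : Subgroup G) := isCyclic_of_prime_card hP
      obtain ⟨g, hg⟩ := hcyc.exists_generator
      obtain ⟨a, ha⟩ := hg x
      obtain ⟨b, hb⟩ := hg ⟨y, hy⟩
      have h5 : x * ⟨y, hy⟩ = ⟨y, hy⟩ * x := by
        rw [← ha, ← hb]
        exact (Commute.refl g).zpow_zpow a b
      exact congrArg Subtype.val h5
    have hts : (t : G) * s = s * t := by
      have hcyc : IsCyclic T := isCyclic_of_prime_card hT
      obtain ⟨g, hg⟩ := hcyc.exists_generator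
      obtain ⟨a, ha⟩ := hg t
      obtain ⟨b, hb⟩ := hg ⟨s, hs⟩
      have h5 : t * ⟨s, hs⟩ = ⟨s, hs⟩ * t := by
        rw [← ha, ← hb]
        exact (Commute.refl g).zpow_zpow a b
      exact congrArg Subtype.val h5
    have c1 : Commute (x : G) y := hxy
    have c2 : Commute (t : G) s := hts
    have c3 : Commute (t : G) y := hKP t (hTK t.2) y hy
    have c4 : Commute s (x : G) := hKP s (hTK hs) x x.2
    have c5 : Commute c y := hKP c hc y hy
    have c6 : Commute s c := hcT s hs
    have c7 : Commute ((x : G) * t) (y * s) :=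
      (c1.mul_left c3).mul_right (c4.symm.mul_left c2)
    have c8 : Commute c (y * s) := c5.mul_right c6.symm
    exact (c7.inv_left.mul_left c8)
  have hd1 : d = 1 := by
    apply eq_one_of_smul hn
    intro R
    by_cases hR : R = P
    · subst hR
      rw [hd, mul_smul, hKfix c hc, inv_smul_eq_iff, mul_smul, hKfix _ (hTK t.2), hPfix _ x.2]
    · obtain ⟨⟨y, s⟩, hys⟩ := hfb.2 ⟨R, hR⟩
      have hys' : ((y : G) * s) • Q = R := congrArg Subtype.val hys
      rw [← hys', ← mul_smul, hdcomm y y.2 s s.2, mul_smul, hdQ]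
  have hcxt : (x : G) * t = c := inv_mul_eq_one.1 hd1
  have hxK : (x : G) ∈ K := by
    have h5 : (x : G) = c * (t : G)⁻¹ := by rw [← hcxt]; group
    rw [h5]
    exact K.mul_mem hc (K.inv_mem (hTK t.2))
  have hx1 : (x : G) = 1 := by
    have h5 : orderOf (x : G) ∣ 3 := orderOf_dvd_of_pow_eq_one (hP3 x x.2)
    rcases (Nat.dvd_prime (by norm_num : Nat.Prime 3)).1 h5 with h6 | h6
    · exact orderOf_eq_one_iff.1 h6
    · exfalso
      apply h3
      have h7 := orderOf_dvd_natCard (⟨x, hxK⟩ : K)
      rwa [Subgroup.orderOf_mk, h6] at h7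
  rw [← hcxt, hx1, one_mul]
  exact t.2

/-- The main arithmetic. -/
theorem false_of_simple [IsSimpleGroup G] (hG : ¬ IsMulCommutative G)
    (hn : Nat.card (Sylow 3 G) = 22) : False := by
  classical
  have hf7 : Fact (Nat.Prime 7) := ⟨by norm_num⟩
  have hf11 : Fact (Nat.Prime 11) := ⟨by norm_num⟩
  obtain ⟨P⟩ : Nonempty (Sylow 3 G) := inferInstance
  have hP : Nat.card (P : Subgroup G) = 3 := card_eq_three hG hn P
  have hall : ∀ R : Sylow 3 G, Nat.card (R : Subgroup G) = 3 := card_eq_three hG hn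
  have hdvd := dvd_card hn
  have h3 : 3 ∣ Nat.card G := (by norm_num : 3 ∣ 22 * 21).trans hdvd
  have h9 : ¬ 3 ^ 2 ∣ Nat.card G := by
    intro h
    have h1 := P.card_eq_multiplicity
    have h2 : 2 ≤ (Nat.card G).factorization 3 :=
      ((by norm_num : Nat.Prime 3).pow_dvd_iff_le_factorization Nat.card_pos.ne').1 h
    have h4 : 3 ^ 2 ≤ 3 ^ (Nat.card G).factorization 3 := Nat.pow_le_pow_right (by norm_num) h2
    have h5 : Nat.card P = 3 := hP
    rw [h1] at h5
    omega
  obtain ⟨e, K, hK⟩ := exists_local hG h3 h9 P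
  have he : e = 2 := by
    have h1 := hK.dvd_pred
    have h2 := hK.one_lt
    have h4 : e ≤ 2 := Nat.le_of_dvd (by norm_num) h1
    omega
  subst he
  have hcard : Nat.card G = 132 * Nat.card K := by
    rw [hK.card_eq, hn]
    ring
  -- `2 |K| ∣ 7!`
  have hK7 : 2 * Nat.card K ∣ 5040 := by
    obtain ⟨o, ho1, ho2⟩ := hK.card_sylow hG (by norm_num) hP
    rw [hn] at ho1
    have ho : o = 7 := by omega
    subst ho
    rcases ho2 with h | ⟨h, -⟩
    · exact h
    · omega
  have hK7' : 7 ∣ Nat.card K := by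
    rw [hcard] at hdvd
    omega
  obtain ⟨m, hm⟩ := hK7'
  have hm3 : ¬ 3 ∣ m := by
    intro h
    exact hK.not_dvd (hm ▸ h.mul_left 7)
  have hm40 : m ∣ 40 := by
    rw [hm] at hK7
    have h1 : m ∣ 360 := by
      obtain ⟨c, hc⟩ := hK7
      exact ⟨c, by nlinarith⟩
    have h2 : m ∣ 9 * 40 := h1
    have h4 : Nat.Coprime m 9 := by
      have : Nat.Coprime m (3 ^ 2) := by
        apply Nat.Coprime.pow_right
        rw [Nat.coprime_comm]
        exact (Nat.Prime.coprime_iff_not_dvd (by norm_num)).2 hm3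
      exact this
    exact h4.dvd_of_dvd_mul_left h2
  have hKP : ∀ k ∈ K, ∀ x ∈ (P : Subgroup G), k * x = x * k := hK.comm
  have hm128 : m = 1 ∨ m = 2 ∨ m = 8 := by
    obtain ⟨T₀⟩ : Nonempty (Sylow 7 K) := inferInstance
    have hm7 : ¬ 7 ∣ m := fun h => by
      have := h.trans hm40
      norm_num at this
    have hT₀ : Nat.card T₀ = 7 := by
      apply card_of_not_sq_dvd (hm ▸ dvd_mul_right 7 m)
      intro h
      rw [hm] at h
      exact hm7 ((Nat.mul_dvd_mul_iff_left (by norm_num : 0 < 7)).1 (by rwa [pow_two] at h))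
    have hC : centralizer ((T₀ : Subgroup K) : Set K) = (T₀ : Subgroup K) := by
      apply le_antisymm
      · intro c hc
        have h1 := mem_of_centralizes hn P hP K hKP hK.not_dvd ((T₀ : Subgroup K).map K.subtype)
          (map_subtype_le _) (by
            rw [card_map_of_injective K.subtype_injective]
            exact hT₀) (c : G) c.2 (by
            rintro _ ⟨t, ht, rfl⟩
            have h2 := mem_centralizer_iff.1 hc t ht
            exact congrArg Subtype.val h2)
        obtain ⟨t, ht, htc⟩ := h1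
        have h3 : t = c := Subtype.ext htc
        exact h3 ▸ ht
      · intro c hc
        have hcyc : IsCyclic (T₀ : Subgroup K) := isCyclic_of_prime_card hT₀
        rw [mem_centralizer_iff]
        intro t ht
        obtain ⟨g, hg⟩ := hcyc.exists_generator
        obtain ⟨a, ha⟩ := hg ⟨c, hc⟩
        obtain ⟨b, hb⟩ := hg ⟨t, ht⟩
        have h5 : (⟨t, ht⟩ : (T₀ : Subgroup K)) * ⟨c, hc⟩ = ⟨c, hc⟩ * ⟨t, ht⟩ := by
          rw [← ha, ← hb]
          exact (Commute.refl g).zpow_zpow b a
        exact congrArg Subtype.val h5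
    obtain ⟨d, hd, hd'⟩ := WeakTI.SylCent.exists_factor T₀ hT₀
    have hn7 : Nat.card (Sylow 7 K) ≡ 1 [MOD 7] := card_sylow_modEq_one 7 K
    have hC7 : Nat.card (centralizer ((T₀ : Subgroup K) : Set K)) = 7 := by
      rw [hC]
      exact hT₀
    rw [hC7, hm] at hd'
    set n := Nat.card (Sylow 7 K) with hndef
    have hnd : n * d = m := by nlinarith
    have hd6 : d ∈ Nat.divisors 6 := Nat.mem_divisors.2 ⟨hd, by norm_num⟩
    have hm40' : m ∈ Nat.divisors 40 := Nat.mem_divisors.2 ⟨hm40, by norm_num⟩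
    have e6 : Nat.divisors 6 = {1, 2, 3, 6} := by decide
    have e40 : Nat.divisors 40 = {1, 2, 4, 5, 8, 10, 20, 40} := by decide
    rw [e6] at hd6
    rw [e40] at hm40'
    simp only [Finset.mem_insert, Finset.mem_singleton] at hd6 hm40'
    have hn7' : n % 7 = 1 := hn7
    rcases hd6 with rfl | rfl | rfl | rfl <;>
      rcases hm40' with rfl | rfl | rfl | rfl | rfl | rfl | rfl | rfl <;> omega
  -- the prime 11
  have h11 : 11 ∣ Nat.card G := (by norm_num : 11 ∣ 22 * 21).trans hdvd
  have hGm : Nat.card G = 924 * m := by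
    rw [hcard, hm]
    ring
  have h121 : ¬ 11 ^ 2 ∣ Nat.card G := by
    rw [hGm]
    rcases hm128 with rfl | rfl | rfl <;> norm_num
  obtain ⟨R⟩ : Nonempty (Sylow 11 G) := inferInstance
  obtain ⟨e, L, hL⟩ := exists_local hG h11 h121 R
  have hR : Nat.card R = 11 := card_of_not_sq_dvd h11 h121 R
  obtain ⟨o, ho1, ho2⟩ := hL.card_sylow hG (by norm_num) hR
  have hcardG := hL.card_eq
  -- `3 ∤ |L|`
  have hL3 : ¬ 3 ∣ Nat.card L := by
    intro h
    obtain ⟨y, hy⟩ := exists_prime_orderOf_dvd_card' 3 h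
    have hyG : orderOf (y : G) = 3 := by
      rw [Subgroup.orderOf_coe]
      exact hy
    have hz : IsPGroup 3 (zpowers (y : G)) := by
      apply IsPGroup.of_card (n := 1)
      rw [Nat.card_zpowers, hyG, pow_one]
    obtain ⟨P', hP'⟩ := hz.exists_le_sylow
    have hP'eq : zpowers (y : G) = (P' : Subgroup G) := by
      apply eq_of_le_of_card_ge hP'
      rw [hall P', Nat.card_zpowers, hyG]
    -- `|C(P')| = 3 |K|`
    have hcard2 : Nat.card (centralizer ((P' : Subgroup G) : Set G)) = 3 * Nat.card K := by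
      obtain ⟨g, rfl⟩ := exists_smul_eq G P P'
      rw [← hK.card_centralizer]
      have h5 : centralizer (((g • P : Sylow 3 G) : Subgroup G) : Set G) =
          (centralizer ((P : Subgroup G) : Set G)).map (MulAut.conj g).toMonoidHom := by
        ext z
        rw [Sylow.coe_subgroup_smul, mem_centralizer_iff]
        constructor
        · intro hz
          refine ⟨g⁻¹ * z * g, ?_, by simp [mul_assoc]⟩
          show _ ∈ centralizer ((P : Subgroup G) : Set G)
          rw [mem_centralizer_iff]
          intro w hw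
          have h6 := hz (g * w * g⁻¹) (by
            rw [SetLike.mem_coe, Subgroup.mem_smul_pointwise_iff_exists]
            exact ⟨w, hw, rfl⟩)
          have h7 : w * (g⁻¹ * z * g) = g⁻¹ * ((g * w * g⁻¹) * z) * g := by group
          rw [h7, h6]
          group
        · rintro ⟨w, hw, rfl⟩ v hv
          rw [SetLike.mem_coe, Subgroup.mem_smul_pointwise_iff_exists] at hv
          obtain ⟨u, hu, rfl⟩ := hv
          have hw' : w ∈ centralizer ((P : Subgroup G) : Set G) := hw
          have h8 := mem_centralizer_iff.1 hw' u hu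
          show (g * u * g⁻¹) * (g * w * g⁻¹) = (g * w * g⁻¹) * (g * u * g⁻¹)
          have h9 : (g * u * g⁻¹) * (g * w * g⁻¹) = g * (u * w) * g⁻¹ := by group
          rw [h9, h8]
          group
      rw [h5, card_map_of_injective (MulAut.conj g).injective]
      rfl
    -- `R ≤ C(P')`
    have hRle : (R : Subgroup G) ≤ centralizer ((P' : Subgroup G) : Set G) := by
      intro r hr
      rw [mem_centralizer_iff]
      intro w hw
      rw [← hP'eq] at hw
      obtain ⟨i, rfl⟩ := hw
      have h6 : (y : G) * r = r * y := hL.comm y y.2 r hr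
      exact ((Commute.zpow_left (show Commute (y : G) r from h6) i)).eq
    have h12 := card_dvd_of_le hRle
    rw [hcard2, hm] at h12
    have hR' : Nat.card (R : Subgroup G) = 11 := hR
    rw [hR'] at h12
    rcases hm128 with rfl | rfl | rfl <;> norm_num at h12
  rw [hGm] at hcardG
  have he1 := hL.one_lt
  have he2 : e ∈ Nat.divisors 10 := Nat.mem_divisors.2 ⟨hL.dvd_pred, by norm_num⟩
  have e10 : Nat.divisors 10 = {1, 2, 5, 10} := by decide
  rw [e10] at he2
  simp only [Finset.mem_insert, Finset.mem_singleton] at he2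
  set l := Nat.card L with hl
  have hl0 : 0 < l := Nat.card_pos
  rw [ho1] at hcardG
  have hkey : (1 + 11 * o) * (e * l) = 84 * m := by nlinarith
  have he5 : e = 2 := by
    rcases he2 with rfl | rfl | rfl | rfl
    · omega
    · rfl
    · exfalso
      have h5 : 5 ∣ 84 * m := ⟨(1 + 11 * o) * l, by rw [← hkey]; ring⟩
      rcases hm128 with rfl | rfl | rfl <;> norm_num at h5
    · exfalso
      have h5 : 5 ∣ 84 * m := ⟨(1 + 11 * o) * (2 * l), by rw [← hkey]; ring⟩
      rcases hm128 with rfl | rfl | rfl <;> norm_num at h5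
  subst he5
  have hkey2 : (1 + 11 * o) * l = 42 * m := by nlinarith
  have ho0 : o ≠ 0 := by
    rintro rfl
    rcases ho2 with h | ⟨h, -⟩
    · have := Nat.le_of_dvd (by norm_num) h
      simp at this
      omega
    · omega
  have hob : o ≤ 30 := by
    have h1 : 1 + 11 * o ≤ 42 * m := by nlinarith
    rcases hm128 with rfl | rfl | rfl <;> omega
  have hlb : l ≤ 28 := by
    have h1 : 12 * l ≤ 42 * m := by
      have : 12 ≤ 1 + 11 * o := by omega
      nlinarith
    rcases hm128 with rfl | rfl | rfl <;> omega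
  have ho1' : o ≠ 1 := by
    rintro rfl
    rcases ho2 with h | ⟨-, h⟩
    · have := Nat.le_of_dvd (by norm_num) h
      simp at this
      omega
    · rw [h] at hkey2
      rcases hm128 with rfl | rfl | rfl <;> omega
  rcases hm128 with rfl | rfl | rfl
  · interval_cases o <;> omega
  · interval_cases o <;> omega
  · interval_cases o <;> omega

end Cfsg.Agent.H571.TwentyTwo
end

-- part: S4346
section
set_option autoImplicit false
open Cfsg

namespace Cfsg.Agent.S4346

open H571.SylowNumber H571.TwentyTwo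

/-- If `K` is a normal 3'-subgroup and `G = PK`, then `n_3(G) ≠ 22`. -/
theorem ne_of_coprime {G : Type*} [Group G] [Finite G] (P : Sylow 3 G) (K : Subgroup G) [K.Normal]
    (hK : ¬ 3 ∣ Nat.card K) (hPK : (P : Subgroup G) ⊔ K = ⊤) : Nat.card (Sylow 3 G) ≠ 22 := by
  intro hn
  have hf2 : Fact (Nat.Prime 2) := ⟨by norm_num⟩
  -- `n_3(G) = |K : N_K(P)|`
  have hPn : (P : Subgroup G) ≤ Subgroup.normalizer ((P : Subgroup G) : Set G) :=
    Subgroup.le_normalizer
  have hKn : K.Normal := inferInstance
  have hcopPK : (Nat.card (P : Subgroup G)).Coprime (Nat.card K) := by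
    obtain ⟨n, hn⟩ := IsPGroup.iff_card.1 P.isPGroup'
    rw [hn]
    exact Nat.Coprime.pow_left _ ((Nat.Prime.coprime_iff_not_dvd (by norm_num)).2 hK)
  have hdisj : (P : Subgroup G) ⊓ K = ⊥ := (Subgroup.disjoint_of_coprime_natCard hcopPK).eq_bot
  -- `N_K(P) = C_K(P)`
  set C := K ⊓ Subgroup.normalizer ((P : Subgroup G) : Set G) with hC
  have hCP : ∀ c ∈ C, ∀ x ∈ (P : Subgroup G), c * x = x * c := by
    rintro c ⟨hcK, hcN⟩ x hx
    have h1 : c * x * c⁻¹ * x⁻¹ ∈ (P : Subgroup G) :=
      (P : Subgroup G).mul_mem ((Subgroup.mem_normalizer_iff.1 hcN x).1 hx)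
        ((P : Subgroup G).inv_mem hx)
    have h2 : c * x * c⁻¹ * x⁻¹ ∈ K := by
      have h3 : c * x * c⁻¹ * x⁻¹ = c * (x * c⁻¹ * x⁻¹) := by group
      rw [h3]
      exact K.mul_mem hcK (hKn.conj_mem _ (K.inv_mem hcK) x)
    have h3 : c * x * c⁻¹ * x⁻¹ ∈ (P : Subgroup G) ⊓ K := ⟨h1, h2⟩
    rw [hdisj, Subgroup.mem_bot] at h3
    have h4 : c * x = (c * x * c⁻¹ * x⁻¹) * (x * c) := by group
    rw [h4, h3, one_mul]
  set NP := Subgroup.normalizer ((P : Subgroup G) : Set G) with hNP
  have hidx : NP.relIndex K = 22 := by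
    have h1 : NP ⊔ K = ⊤ := by
      rw [eq_top_iff, ← hPK]
      exact sup_le_sup_right hPn K
    have h2 := relIndex_sup_of_normal NP K
    rw [h1, Subgroup.relIndex_top_right] at h2
    have h0 : Nat.card (Sylow 3 G) = NP.index := P.card_eq_index_normalizer
    rw [← h2, ← h0, hn]
  have hKcard : Nat.card K = 22 * Nat.card C := by
    have h1 := SmallSimple.SylowSub.card_inf_mul_relIndex NP K
    rw [hidx, inf_comm] at h1
    rw [← h1, mul_comm]
  -- a Sylow 2-subgroup `R` of `C`, contained in a `P`-invariant Sylow 2-subgroup of `K`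
  obtain ⟨R⟩ : Nonempty (Sylow 2 C) := inferInstance
  set R' := (R : Subgroup C).map C.subtype with hR'
  have hR'C : R' ≤ C := Subgroup.map_subtype_le _
  have hCK : C ≤ K := inf_le_left
  obtain ⟨Q, hRQ, hPQ⟩ := S0025.result (P : Subgroup G) K
    (by rw [Subgroup.normalizer_eq_top]; exact le_top) hcopPK
    (Or.inl (by
      have : Group.IsNilpotent (P : Subgroup G) := P.isPGroup'.isNilpotent
      infer_instance)) 2 R' (hR'C.trans hCK) (R.isPGroup'.map _) (by
      intro x hx
      rw [Subgroup.mem_normalizer_iff]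
      intro r
      constructor
      · intro hr
        rw [← hCP r (hR'C hr) x hx, mul_inv_cancel_right]
        exact hr
      · intro hr
        have h1 := hCP _ (hR'C hr) x hx
        have h2 : x * r * x⁻¹ = r := by
          have h3 : x * (x * r * x⁻¹) = x * r := by
            rw [← h1]
            group
          exact mul_left_cancel h3
        rwa [h2] at hr)
  set Q' := (Q : Subgroup K).map K.subtype with hQ'
  have hQ'K : Q' ≤ K := Subgroup.map_subtype_le _
  have hcardR : Nat.card R' = 2 ^ (Nat.card C).factorization 2 := by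
    rw [hR', Subgroup.card_map_of_injective C.subtype_injective]
    exact R.card_eq_multiplicity
  have hcardQ : Nat.card Q' = 2 ^ (Nat.card K).factorization 2 := by
    rw [hQ', Subgroup.card_map_of_injective K.subtype_injective]
    exact Q.card_eq_multiplicity
  have hfact : (Nat.card K).factorization 2 = (Nat.card C).factorization 2 + 1 := by
    rw [hKcard, Nat.factorization_mul (by norm_num) Nat.card_pos.ne', Finsupp.add_apply, add_comm]
    congr 1
    rw [show 22 = 2 * 11 from rfl, Nat.factorization_mul (by norm_num) (by norm_num),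
      Finsupp.add_apply, Nat.Prime.factorization_self (by norm_num),
      Nat.factorization_eq_zero_of_not_dvd (by norm_num)]
  -- `|C ∩ Q'| = |R'|`
  have hCQ : C ⊓ Q' = R' := by
    symm
    apply Subgroup.eq_of_le_of_card_ge (le_inf hR'C hRQ)
    have h1 : IsPGroup 2 ((C ⊓ Q').subgroupOf C) := by
      have h2 : IsPGroup 2 (C ⊓ Q' : Subgroup G) :=
        (Q.isPGroup'.map K.subtype).to_le inf_le_right
      exact h2.comap_of_injective C.subtype C.subtype_injective
    obtain ⟨S, hS⟩ := h1.exists_le_sylow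
    have h2 : Nat.card ((C ⊓ Q').subgroupOf C) ≤ Nat.card (S : Subgroup C) :=
      Subgroup.card_le_of_le hS
    have h3 : Nat.card ((C ⊓ Q').subgroupOf C) = Nat.card (C ⊓ Q' : Subgroup G) :=
      Nat.card_congr (Subgroup.subgroupOfEquivOfLe inf_le_left).toEquiv
    rw [h3] at h2
    rw [hcardR]
    exact h2.trans_eq S.card_eq_multiplicity
  have horb : Nat.card (MulAction.orbit Q' P) = 2 := by
    have h0 : (MulAction.orbit Q' P).ncard = (MulAction.stabilizer Q' P).index :=
      (MulAction.index_stabilizer Q' P).symm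
    have h1 : MulAction.stabilizer Q' P = NP.subgroupOf Q' := by
      ext x
      rw [MulAction.mem_stabilizer_iff, Subgroup.mem_subgroupOf]
      exact Sylow.smul_eq_iff_mem_normalizer (g := (x : G)) (P := P)
    rw [Nat.card_coe_set_eq, h0, h1]
    have h2 := SmallSimple.SylowSub.card_inf_mul_relIndex NP Q'
    have h3 : NP ⊓ Q' = R' := by
      rw [← hCQ]
      apply le_antisymm
      · exact le_inf (le_inf (inf_le_right.trans hQ'K) inf_le_left) inf_le_right
      · exact le_inf (inf_le_left.trans inf_le_right) inf_le_right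
    rw [h3, hcardR, hcardQ, hfact, pow_succ] at h2
    exact Nat.eq_of_mul_eq_mul_left (pow_pos (by norm_num) _) h2
  -- `P` acts on this orbit with just one fixed point
  let S : SubMulAction (P : Subgroup G) (Sylow 3 G) :=
    { carrier := MulAction.orbit Q' P
      smul_mem' := by
        rintro x _ ⟨q, rfl⟩
        have h1 : (x : G) * (q : G) * (x : G)⁻¹ ∈ Q' :=
          (Subgroup.mem_normalizer_iff.1 (hPQ x.2) q).1 q.2
        refine ⟨⟨_, h1⟩, ?_⟩
        show ((x : G) * (q : G) * (x : G)⁻¹) • P = (x : G) • (q : G) • P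
        have h2 : (x : G)⁻¹ • P = P :=
          Sylow.smul_eq_iff_mem_normalizer.2 (hPn ((P : Subgroup G).inv_mem x.2))
        rw [mul_smul, h2, mul_smul] }
  have h2 : Nat.card S ≡ Nat.card (MulAction.fixedPoints (P : Subgroup G) S) [MOD 3] :=
    P.isPGroup'.card_modEq_card_fixedPoints S
  have h3 : Nat.card (MulAction.fixedPoints (P : Subgroup G) S) = 1 := by
    rw [Nat.card_eq_one_iff_unique]
    refine ⟨⟨?_⟩, ⟨⟨P, MulAction.mem_orbit_self P⟩, ?_⟩⟩
    · rintro ⟨⟨R, hR⟩, hR'⟩ ⟨⟨R', hR1⟩, hR1'⟩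
      have e1 : P = R := fixed_unique P R (fun x hx => congrArg Subtype.val (hR' ⟨x, hx⟩))
      have e2 : P = R' := fixed_unique P R' (fun x hx => congrArg Subtype.val (hR1' ⟨x, hx⟩))
      subst e1
      subst e2
      rfl
    · intro x
      apply Subtype.ext
      exact Sylow.smul_eq_iff_mem_normalizer.2 (hPn x.2)
  have h4 : Nat.card S = 2 := horb
  rw [h3, h4] at h2
  exact absurd h2 (by decide)

universe u in
theorem main : ∀ (n : ℕ) (G : Type u) [Group G] [Finite G], Nat.card G = n →
    Nat.card (Sylow 3 G) ≠ 22 := by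
  intro n
  induction n using Nat.strong_induction_on with
  | _ n ih =>
    intro G _ _ hG hn
    have hnt : Nontrivial G := by
      by_contra h
      rw [not_nontrivial_iff_subsingleton] at h
      have h1 : Subsingleton (Sylow 3 G) := ⟨fun P Q => Sylow.ext (Subsingleton.elim _ _)⟩
      have h2 : Nat.card (Sylow 3 G) = 1 :=
        Nat.card_eq_one_iff_unique.2 ⟨h1, inferInstance⟩
      omega
    by_cases hs : IsSimpleGroup G
    · apply false_of_simple (G := G) _ hn
      intro hc
      obtain ⟨P⟩ : Nonempty (Sylow 3 G) := inferInstance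
      have h1 : (P : Subgroup G).Normal := by
        constructor
        intro x hx g
        have h2 : g * x = x * g := hc.is_comm.comm g x
        rw [h2, mul_inv_cancel_right]
        exact hx
      have h3 : Nat.card (Sylow 3 G) = 1 := by
        have : (Subgroup.normalizer ((P : Subgroup G) : Set G)).index = 1 := by
          rw [Subgroup.normalizer_eq_top, Subgroup.index_top]
        have h0 : Nat.card (Sylow 3 G) = (Subgroup.normalizer ((P : Subgroup G) : Set G)).index :=
          P.card_eq_index_normalizer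
        rw [h0, this]
      omega
    · -- a proper nontrivial normal subgroup
      obtain ⟨K, hKn, hK1, hK2⟩ : ∃ K : Subgroup G, K.Normal ∧ K ≠ ⊥ ∧ K ≠ ⊤ := by
        by_contra hcon
        push Not at hcon
        apply hs
        refine { exists_pair_ne := hnt.exists_pair_ne, eq_bot_or_eq_top_of_normal := ?_ }
        intro H hH
        by_cases h : H = ⊥
        · exact Or.inl h
        · exact Or.inr (hcon H hH h)
      obtain ⟨P⟩ : Nonempty (Sylow 3 G) := inferInstance
      -- subgroups and quotients are smaller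
      have hsub : ∀ H : Subgroup G, H ≠ ⊤ → Nat.card (Sylow 3 H) ≠ 22 := by
        intro H hH
        refine ih (Nat.card H) ?_ H rfl
        rw [← hG]
        have h1 := H.card_mul_index
        have h2 : H.index ≠ 1 := fun h => hH (Subgroup.index_eq_one.1 h)
        have h3 : H.index ≠ 0 := Subgroup.index_ne_zero_of_finite
        have h4 : 0 < Nat.card H := Nat.card_pos
        rw [← h1]
        have h5 : 2 ≤ H.index := by omega
        nlinarith
      have hquo : ∀ N : Subgroup G, N.Normal → N ≠ ⊥ → ∀ [N.Normal], Nat.card (Sylow 3 (G ⧸ N)) ≠ 22 := by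
        intro N _ hN _
        refine ih (Nat.card (G ⧸ N)) ?_ (G ⧸ N) rfl
        rw [← hG]
        have h2 := N.card_eq_card_quotient_mul_card_subgroup
        have h3 : 1 < Nat.card N := by
          have : Nat.card N ≠ 1 := fun h => hN (Subgroup.card_eq_one.1 h)
          have := Nat.card_pos (α := N)
          omega
        have h4 : 0 < Nat.card (G ⧸ N) := Nat.card_pos
        rw [h2]
        nlinarith
      have h22 : ∀ a b : ℕ, a * b = 22 → a ≡ 1 [MOD 3] → a ≠ 22 → b = 22 := by
        intro a b hab ha ha'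
        rcases eq_one_or_of_dvd (Dvd.intro _ hab) ha with h | h
        · rw [h, one_mul] at hab
          exact hab
        · exact absurd h ha'
      have h1 := card_sylow_eq_mul P K
      rw [hn] at h1
      have h2 : Nat.card (Sylow 3 ((P : Subgroup G) ⊔ K : Subgroup G)) = 22 :=
        h22 _ _ h1.symm (card_sylow_modEq_one 3 _) (hquo K hKn hK1)
      have h3 : (P : Subgroup G) ⊔ K = ⊤ := by
        by_contra h
        exact hsub _ h h2
      set N := ((P : Subgroup G) ⊔ K) ⊓
        Subgroup.normalizer (((P : Subgroup G) ⊓ K : Subgroup G) : Set G) with hN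
      have h4 := card_sylow_sup P K N hN
      rw [h2] at h4
      have h5 : Nat.card (Sylow 3 N) = 22 :=
        h22 _ _ h4.symm (card_sylow_modEq_one 3 _) (hsub K hK2)
      have h6 : N = ⊤ := by
        by_contra h
        exact hsub _ h h5
      have h7 : ((P : Subgroup G) ⊓ K).Normal := by
        rw [← Subgroup.normalizer_eq_top_iff, eq_top_iff, ← h6, hN]
        exact inf_le_right
      have h8 : (P : Subgroup G) ⊓ K = ⊥ := by
        by_contra h
        refine hquo _ h7 h ?_
        rw [← hn]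
        symm
        apply card_sylow_of_surjective (QuotientGroup.mk' _) (QuotientGroup.mk'_surjective _)
        rw [QuotientGroup.ker_mk']
        exact P.isPGroup'.to_le inf_le_left
      -- `K` is a 3'-group
      have h9 : ¬ 3 ∣ Nat.card K := by
        obtain ⟨T, hT⟩ := exists_sylow_inf P K
        intro h
        apply T.ne_bot_of_dvd_card h
        rw [hT, ← Subgroup.inf_subgroupOf_right, h8, Subgroup.bot_subgroupOf]
      exact ne_of_coprime P K h9 h3 hn

/-- No finite group has exactly 22 Sylow 3-subgroups. -/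
theorem result {G : Type*} [Group G] [Finite G] : Nat.card (Sylow 3 G) ≠ 22 :=
  main (Nat.card G) G rfl

end Cfsg.Agent.S4346
end
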