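import Cfsg.Statements.S4354
import Cfsg.Agent.H573.PCent
set_option linter.all false

set_option autoImplicit false
open Cfsg

namespace Cfsg.Agent.S4354

/-- Let G be a finite group and p a prime such that the Sylow p-subgroups of G are non-abelian while every element of p-power order has conjugacy class size prime to p, and suppose no nontrivial proper normal subgroup N of G has this property and no quotient G/N by such an N has it. Then G is simple. -/
theorem result {G : Type*} [Group G] [Finite G]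
    (p : ℕ) [Fact p.Prime] (h : ((∃ P : Sylow p G, ¬ IsMulCommutative P) ∧ ∀ x : G, (∃ k : ℕ, orderOf x = p ^ k) → ¬ p ∣ (Subgroup.centralizer ({x} : Set G)).index))
    (hmin : ∀ (N : Subgroup G) [N.Normal], N ≠ ⊥ → N ≠ ⊤ →
      ¬ ((∃ P : Sylow p N, ¬ IsMulCommutative P) ∧ ∀ x : N, (∃ k : ℕ, orderOf x = p ^ k) → ¬ p ∣ (Subgroup.centralizer ({x} : Set N)).index) ∧
      ¬ ((∃ P : Sylow p (G ⧸ N), ¬ IsMulCommutative P) ∧ ∀ x : (G ⧸ N), (∃ k : ℕ, orderOf x = p ^ k) → ¬ p ∣ (Subgroup.centralizer ({x} : Set (G ⧸ N))).index)) :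
    IsSimpleGroup G := by
  obtain ⟨⟨P, hP⟩, hc⟩ := h
  have hc' : H573.PCent p G := hc
  have hnt : Nontrivial G := by
    by_contra hn
    rw [not_nontrivial_iff_subsingleton] at hn
    exact hP ⟨⟨fun a b => Subtype.ext (Subsingleton.elim _ _)⟩⟩
  refine { eq_bot_or_eq_top_of_normal := fun N hN => ?_ }
  by_contra hcon
  rw [not_or] at hcon
  obtain ⟨h1, h2⟩ := hmin N hcon.1 hcon.2
  refine hP (H573.abelian_of_normal hc' N ?_ ?_ P)
  · intro Q
    by_contra hQ
    exact h1 ⟨⟨Q, hQ⟩, H573.pcent_normal hc' N⟩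
  · intro Q
    by_contra hQ
    exact h2 ⟨⟨Q, hQ⟩, H573.pcent_quotient hc' N⟩

end Cfsg.Agent.S4354
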