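import Mathlib
import Cfsg.Statements.S4359
set_option linter.all false

-- part: H574/Sims
section
/-!
# The method of Sims and Glauberman

`α` an automorphism of a finite group `G`, `P` a subgroup, `P ∩ α P` normal of prime index `p` in `α P`; no
nontrivial normal subgroup of `P` is invariant under `α`. Then `P` is a `p`-group with "generators"
`x 0, …, x (t-1)`, `x (i+1) = α (x i)`, `#P = p ^ t`.
-/

set_option autoImplicit false

open Subgroup Pointwise
open scoped commutatorElement

namespace Cfsg.Agent.H574.Sims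

variable {G : Type*} [Group G]

/-! ### The commutator argument -/

theorem commute_closure {y : G} {S : Set G} (hS : ∀ s ∈ S, Commute y s) {w : G} (hw : w ∈ closure S) :
    Commute y w := by
  have h : closure S ≤ centralizer {y} := by
    rw [closure_le]
    intro s hs
    rw [SetLike.mem_coe, mem_centralizer_singleton_iff]
    exact (hS s hs).eq.symm
  have h2 := h hw
  rw [mem_centralizer_singleton_iff] at h2
  exact h2.symm

theorem mem_split {y : G} {S : Set G} (hS : ∀ s ∈ S, Commute y s) {c : G}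
    (hc : c ∈ closure (insert y S)) : ∃ e : ℤ, ∃ w ∈ closure S, c = y ^ e * w := by
  induction hc using closure_induction with
  | mem x hx =>
    rcases hx with rfl | hx
    · exact ⟨1, 1, one_mem _, by simp⟩
    · exact ⟨0, x, subset_closure hx, by simp⟩
  | one => exact ⟨0, 1, one_mem _, by simp⟩
  | mul a b _ _ ha hb =>
    obtain ⟨e, w, hw, rfl⟩ := ha
    obtain ⟨f, v, hv, rfl⟩ := hb
    refine ⟨e + f, w * v, mul_mem hw hv, ?_⟩
    have h1 : Commute (y ^ f) w := (commute_closure hS hw).zpow_left f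
    calc y ^ e * w * (y ^ f * v) = y ^ e * (w * y ^ f) * v := by group
      _ = y ^ e * (y ^ f * w) * v := by rw [h1.eq]
      _ = y ^ (e + f) * (w * v) := by rw [zpow_add]; group
  | inv a _ ha =>
    obtain ⟨e, w, hw, rfl⟩ := ha
    refine ⟨-e, w⁻¹, inv_mem hw, ?_⟩
    have h1 : Commute (y ^ e) w := (commute_closure hS hw).zpow_left e
    rw [mul_inv_rev, zpow_neg]
    exact (h1.inv_inv).eq.symm

theorem mem_zpowers_of_coprime {y : G} {p : ℕ} (hp : p.Prime) (hy : y ^ p = 1) {e : ℤ}
    (he : ¬ (p : ℤ) ∣ e) : y ∈ zpowers (y ^ e) := by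
  have hcop : IsCoprime (p : ℤ) e := by
    rw [Prime.coprime_iff_not_dvd (Nat.prime_iff_prime_int.1 hp)]
    exact he
  obtain ⟨u, v, huv⟩ := hcop
  refine ⟨v, ?_⟩
  have h1 : y ^ (p : ℤ) = 1 := by rw [zpow_natCast, hy]
  have h2 : y ^ (u * p) = 1 := by rw [mul_comm, zpow_mul, h1, one_zpow]
  calc (y ^ e) ^ v = y ^ (v * e) := by rw [← zpow_mul, mul_comm]
    _ = y ^ (u * p + v * e) := by
        rw [zpow_add y (u * p), h2, one_mul]
    _ = y := by rw [huv, zpow_one]

/-- The commutator `⁅x 0, x a⁆` involves only the `x i` with `i ≥ t - a`. -/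
theorem lemA {x : ℤ → G} {p : ℕ} (hp : p.Prime) {t a : ℤ} (h1a : 1 ≤ a)
    (hxp : ∀ i, x i ^ p = 1)
    (hcomm : ∀ i j, i ≤ j → j < i + a → Commute (x i) (x j))
    (hnc : ∀ i, ¬ Commute (x i) (x (i + a)))
    (hcl : ∀ i k, a ≤ k → k < t → ∀ u ∈ zpowers (x i), ∀ v ∈ zpowers (x (i + k)),
      ⁅u, v⁆ ∈ closure (x '' Set.Ioo i (i + k))) (hat : a < t)
    (i : ℤ) (hi1 : 1 ≤ i) : i ≤ t - a → ⁅x 0, x a⁆ ∈ closure (x '' Set.Ico i a) := by
  have hcomm' : ∀ i j, j < i + a → i < j + a → Commute (x i) (x j) := by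
    intro i j h1 h2
    rcases le_total i j with h | h
    · exact hcomm i j h h1
    · exact (hcomm j i h h2).symm
  induction i, hi1 using Int.leInduction with
  | base =>
    intro _
    have h := hcl 0 a le_rfl hat (x 0) (mem_zpowers _) (x (0 + a)) (mem_zpowers _)
    rw [zero_add] at h
    have h2 : Set.Ioo (0 : ℤ) a = Set.Ico 1 a := by
      ext l; simp only [Set.mem_Ioo, Set.mem_Ico]; omega
    rwa [h2] at h
  | succ i hi ih =>
    intro hle
    have hc := ih (by omega)
    by_cases hia : i < a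
    · set c := ⁅x 0, x a⁆ with hcdef
      -- `c` commutes with `x (i + a)`
      have hcom : Commute c (x (i + a)) := by
        set y := x 0
        set z := x a
        set w := x (i + a)
        have hzw : Commute z w := hcomm' _ _ (by omega) (by omega)
        have hd : ⁅y⁻¹, w⁻¹⁆ ∈ closure (x '' Set.Ioo 0 (0 + (i + a))) := by
          refine hcl 0 (i + a) (by omega) (by omega) y⁻¹ (inv_mem (mem_zpowers _)) w⁻¹ ?_
          rw [zero_add]; exact inv_mem (mem_zpowers _)
        have hzd : Commute z ⁅y⁻¹, w⁻¹⁆ := by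
          refine commute_closure ?_ hd
          rintro _ ⟨l, hl, rfl⟩
          rw [Set.mem_Ioo] at hl
          exact hcomm' _ _ (by omega) (by omega)
        have h1 : y⁻¹ * w * y = w * ⁅y⁻¹, w⁻¹⁆⁻¹ := by
          rw [commutatorElement_def]; group
        have h2 : Commute z (y⁻¹ * w * y) := by
          rw [h1]
          exact hzw.mul_right hzd.inv_right
        have h3 : Commute (y * z * y⁻¹) w := by
          have := h2.eq
          change y * z * y⁻¹ * w = w * (y * z * y⁻¹)
          calc y * z * y⁻¹ * w = y * (z * (y⁻¹ * w * y)) * y⁻¹ := by group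
            _ = y * (y⁻¹ * w * y * z) * y⁻¹ := by rw [this]
            _ = w * (y * z * y⁻¹) := by group
        rw [hcdef, commutatorElement_def]
        exact h3.mul_left hzw.inv_left
      have hset : x '' Set.Ico i a = insert (x i) (x '' Set.Ico (i + 1) a) := by
        rw [← Set.image_insert_eq]
        congr 1
        ext l; simp only [Set.mem_insert_iff, Set.mem_Ico]; omega
      rw [hset] at hc
      obtain ⟨e, w, hw, hcw⟩ := mem_split (by
        rintro _ ⟨l, hl, rfl⟩
        rw [Set.mem_Ico] at hl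
        exact hcomm' _ _ (by omega) (by omega)) hc
      have hwc : Commute w (x (i + a)) := by
        refine (commute_closure ?_ hw).symm
        rintro _ ⟨l, hl, rfl⟩
        rw [Set.mem_Ico] at hl
        exact hcomm' _ _ (by omega) (by omega)
      have hxe : Commute (x i ^ e) (x (i + a)) := by
        have : x i ^ e = c * w⁻¹ := by rw [hcw]; group
        rw [this]
        exact hcom.mul_left hwc.inv_left
      by_cases he : (p : ℤ) ∣ e
      · obtain ⟨f, rfl⟩ := he
        rw [zpow_mul, zpow_natCast, hxp, one_zpow, one_mul] at hcw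
        rw [hcw]; exact hw
      · exfalso
        apply hnc i
        obtain ⟨v, hv⟩ := mem_zpowers_of_coprime hp (hxp i) he
        rw [← hv]
        exact hxe.zpow_left v
    · exfalso
      apply hnc 0
      rw [Set.Ico_eq_empty hia, Set.image_empty, Subgroup.closure_empty, mem_bot,
        commutatorElement_eq_one_iff_commute] at hc
      rw [zero_add]; exact hc

/-- The two-sided version: if `3 a < 2 t` and the sets of indices `< t - a`, `≥ t - a` are independent,
there is a contradiction. -/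
theorem lemB {x : ℤ → G} {p : ℕ} (hp : p.Prime) {t a : ℤ} (h1a : 1 ≤ a)
    (hxp : ∀ i, x i ^ p = 1)
    (hcomm : ∀ i j, i ≤ j → j < i + a → Commute (x i) (x j))
    (hnc : ∀ i, ¬ Commute (x i) (x (i + a)))
    (hcl : ∀ i k, a ≤ k → k < t → ∀ u ∈ zpowers (x i), ∀ v ∈ zpowers (x (i + k)),
      ⁅u, v⁆ ∈ closure (x '' Set.Ioo i (i + k))) (hat : a < t) :
    ⁅x 0, x a⁆ ∈ closure (x '' Set.Ico (t - a) a) ∧ ⁅x 0, x a⁆ ∈ closure (x '' Set.Ioc 0 (2 * a - t)) := by
  refine ⟨lemA hp h1a hxp hcomm hnc hcl hat (t - a) (by omega) le_rfl, ?_⟩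
  have h := lemA (x := fun i => x (a - i)) hp h1a (fun i => hxp _) (t := t) (a := a)
    (fun i j hij hj => (hcomm (a - j) (a - i) (by omega) (by omega)).symm)
    (fun i h => by
      apply hnc (a - (i + a))
      have : a - (i + a) + a = a - i := by ring
      rw [this]
      exact h.symm)
    (fun i k hk1 hk2 u hu v hv => by
      have h1 := hcl (a - (i + k)) k hk1 hk2 v hv u (by
        have : a - (i + k) + k = a - i := by ring
        rw [this]; exact hu)
      rw [← commutatorElement_inv]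
      apply inv_mem
      convert h1 using 2
      ext g
      simp only [Set.mem_image, Set.mem_Ioo]
      constructor
      · rintro ⟨l, hl, rfl⟩; exact ⟨a - l, by omega, rfl⟩
      · rintro ⟨l, hl, rfl⟩; exact ⟨a - l, by omega, by congr 1; ring⟩)
    hat (t - a) (by omega) le_rfl
  simp only [sub_zero, sub_self] at h
  rw [← commutatorElement_inv]
  apply inv_mem
  convert h using 2
  ext g
  simp only [Set.mem_image, Set.mem_Ioc, Set.mem_Ico]
  constructor
  · rintro ⟨l, hl, rfl⟩; exact ⟨a - l, by omega, by congr 1; ring⟩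
  · rintro ⟨l, hl, rfl⟩; exact ⟨a - l, by omega, rfl⟩

/-! ### General facts -/

/-- Subgroups of index `p` of a `p`-group are normal. -/
theorem le_normalizer_of_relIndex [Finite G] {p : ℕ} [Fact p.Prime] {A B : Subgroup G} (hB : IsPGroup p B)
    (hAB : A ≤ B) (h : A.relIndex B = p) : B ≤ normalizer (A : Set G) := by
  apply (normal_subgroupOf_iff_le_normalizer hAB).1
  apply Subgroup.normal_of_index_eq_minFac_card
  obtain ⟨n, hn⟩ := IsPGroup.iff_card.1 hB
  rw [hn]
  have hn0 : n ≠ 0 := by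
    rintro rfl
    rw [pow_zero, card_eq_one] at hn
    rw [hn, relIndex_bot_right] at h
    exact (Fact.out : p.Prime).one_lt.ne h
  rw [Nat.Prime.pow_minFac Fact.out hn0]
  exact h

theorem eq_or_eq_of_relIndex {p : ℕ} (hp : p.Prime) {A S B : Subgroup G} (hAS : A ≤ S) (hSB : S ≤ B)
    (h : A.relIndex B = p) : S = A ∨ S = B := by
  have h1 := relIndex_mul_relIndex A S B hAS hSB
  rw [h] at h1
  have h2 : A.relIndex S ∣ p := ⟨_, h1.symm⟩
  rcases (Nat.dvd_prime hp).1 h2 with h3 | h3
  · left; exact le_antisymm (relIndex_eq_one.1 h3) hAS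
  · right
    have h4 : S.relIndex B = 1 := by
      rw [h3] at h1
      exact Nat.eq_of_mul_eq_mul_left hp.pos (by rw [h1, mul_one])
    exact le_antisymm hSB (relIndex_eq_one.1 h4)

theorem card_relIndex [Finite G] {A B : Subgroup G} (hAB : A ≤ B) :
    Nat.card A * A.relIndex B = Nat.card B := by
  have := card_mul_index (A.subgroupOf B)
  rwa [Nat.card_congr (subgroupOfEquivOfLe hAB).toEquiv] at this

theorem card_smul (α : MulAut G) (S : Subgroup G) : Nat.card (α • S : Subgroup G) = Nat.card S :=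
  (Nat.card_congr (equivSMul α S).toEquiv).symm

theorem smul_eq_of_le [Finite G] {α : MulAut G} {S : Subgroup G} (h : S ≤ α • S) : α • S = S :=
  (Subgroup.eq_of_le_of_card_ge h (by rw [card_smul])).symm

theorem smul_eq_of_ge [Finite G] {α : MulAut G} {S : Subgroup G} (h : α • S ≤ S) : α • S = S :=
  Subgroup.eq_of_le_of_card_ge h (by rw [card_smul])

theorem smul_normalizer (α : MulAut G) {S T : Subgroup G} (h : S ≤ normalizer (T : Set G)) :
    α • S ≤ normalizer ((α • T : Subgroup G) : Set G) := by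
  intro x hx
  rw [mem_pointwise_smul_iff_inv_smul_mem] at hx
  have h1 := h hx
  rw [mem_normalizer_iff] at h1 ⊢
  intro y
  rw [mem_pointwise_smul_iff_inv_smul_mem, mem_pointwise_smul_iff_inv_smul_mem]
  rw [smul_mul', smul_mul', smul_inv']
  exact h1 _

/-! ### The chain -/

/-- `D k = P ∩ α P ∩ … ∩ α ^ k P` -/
def D (α : MulAut G) (P : Subgroup G) : ℕ → Subgroup G
  | 0 => P
  | (k + 1) => D α P k ⊓ α • D α P k

section chain

variable {α : MulAut G} {P : Subgroup G}

theorem D_zero : D α P 0 = P := rfl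
theorem D_succ (k : ℕ) : D α P (k + 1) = D α P k ⊓ α • D α P k := rfl

theorem D_succ_le (k : ℕ) : D α P (k + 1) ≤ D α P k := inf_le_left

theorem D_succ_le' (k : ℕ) : D α P (k + 1) ≤ α • D α P k := inf_le_right

theorem D_anti {j k : ℕ} (h : j ≤ k) : D α P k ≤ D α P j := by
  induction k, h using Nat.le_induction with
  | base => exact le_rfl
  | succ k _ ih => exact (D_succ_le k).trans ih

theorem D_le (k : ℕ) : D α P k ≤ P := D_anti (Nat.zero_le k)

theorem D_isPGroup {p : ℕ} (hP : IsPGroup p P) (k : ℕ) : IsPGroup p (D α P k) :=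
  hP.to_le (D_le k)

theorem relIndex_le [Finite G] (k : ℕ) :
    (D α P (k + 2)).relIndex (D α P (k + 1)) ≤ (D α P (k + 1)).relIndex (D α P k) := by
  rw [D_succ (k + 1), inf_relIndex_left]
  have h1 : (α • D α P (k + 1)).relIndex (α • D α P k) = (D α P (k + 1)).relIndex (D α P k) :=
    relIndex_pointwise_smul _ _ _
  rw [← h1]
  exact relIndex_le_of_le_right (D_succ_le' k) (Nat.card_pos.ne')

theorem relIndex_le_zero [Finite G] (k : ℕ) :
    (D α P (k + 1)).relIndex (D α P k) ≤ (D α P 1).relIndex (D α P 0) := by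
  induction k with
  | zero => exact le_rfl
  | succ k ih => exact (relIndex_le k).trans ih

theorem relIndex_cases [Finite G] {p : ℕ} [Fact p.Prime] (hP : IsPGroup p P)
    (h0 : (D α P 1).relIndex (D α P 0) = p) (k : ℕ) :
    (D α P (k + 1)).relIndex (D α P k) = 1 ∨ (D α P (k + 1)).relIndex (D α P k) = p := by
  have h1 := relIndex_le_zero (α := α) (P := P) k
  rw [h0] at h1
  obtain ⟨n, hn⟩ := IsPGroup.iff_card.1 (D_isPGroup (α := α) hP k)
  have h2 : (D α P (k + 1)).relIndex (D α P k) ∣ p ^ n := hn ▸ relIndex_dvd_card _ _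
  obtain ⟨j, -, hj⟩ := (Nat.dvd_prime_pow Fact.out).1 h2
  rw [hj] at h1 ⊢
  have h3 : j ≤ 1 := by
    by_contra h
    have h4 : p ^ 2 ≤ p ^ j := Nat.pow_le_pow_right (Fact.out : p.Prime).pos (by omega)
    have h5 : p < p ^ 2 := by
      rw [pow_two]; exact lt_mul_self (Fact.out : p.Prime).one_lt
    omega
  interval_cases j
  · left; simp
  · right; simp

theorem card_D [Finite G] {p : ℕ} {k : ℕ}
    (h : ∀ j < k, (D α P (j + 1)).relIndex (D α P j) = p) : Nat.card P = p ^ k * Nat.card (D α P k) := by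
  induction k with
  | zero => rw [pow_zero, one_mul, D_zero]
  | succ k ih =>
    rw [ih (fun j hj => h j (by omega)), pow_succ, ← card_relIndex (D_succ_le k), h k (by omega)]
    ring

theorem exists_stop [Finite G] {p : ℕ} [Fact p.Prime] (hP : IsPGroup p P)
    (h0 : (D α P 1).relIndex (D α P 0) = p) : ∃ k, (D α P (k + 1)).relIndex (D α P k) = 1 := by
  by_contra hcon
  push Not at hcon
  have h1 : ∀ j, (D α P (j + 1)).relIndex (D α P j) = p := fun j =>
    (relIndex_cases hP h0 j).resolve_left (hcon j)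
  have h2 := card_D (k := Nat.card P) (fun j _ => h1 j)
  have h3 : Nat.card P < p ^ Nat.card P := Nat.lt_pow_self (Fact.out : p.Prime).one_lt
  have h4 : 0 < Nat.card (D α P (Nat.card P)) := Nat.card_pos
  have h5 : p ^ Nat.card P ≤ p ^ Nat.card P * Nat.card (D α P (Nat.card P)) := Nat.le_mul_of_pos_right _ h4
  omega

/-- The length of the chain: `t` with `#P = p ^ t`, `D t = 1`. -/
theorem exists_length [Finite G] {p : ℕ} [Fact p.Prime] (hP : IsPGroup p P)
    (h0 : (D α P 1).relIndex (D α P 0) = p)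
    (hmin : ∀ Q : Subgroup G, Q ≤ P → P ≤ normalizer (Q : Set G) → α • Q = Q → Q = ⊥) :
    ∃ t : ℕ, 1 ≤ t ∧ Nat.card P = p ^ t ∧ D α P t = ⊥ ∧
      (∀ k < t, (D α P (k + 1)).relIndex (D α P k) = p) ∧
      (∀ k, k + 1 < t → D α P k = D α P (k + 1) ⊔ α⁻¹ • D α P (k + 1)) := by
  classical
  have hex := exists_stop hP h0
  obtain ⟨t, ht1, hlt⟩ : ∃ t, (D α P (t + 1)).relIndex (D α P t) = 1 ∧
      ∀ k < t, (D α P (k + 1)).relIndex (D α P k) = p :=
    ⟨Nat.find hex, Nat.find_spec hex, fun k hk =>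
      (relIndex_cases hP h0 k).resolve_left (Nat.find_min hex hk)⟩
  have ht0 : 1 ≤ t := by
    by_contra h
    have h1 : t = 0 := by omega
    rw [h1, h0] at ht1
    exact (Fact.out : p.Prime).one_lt.ne' ht1
  have hinv : α • D α P t = D α P t := by
    apply smul_eq_of_le
    exact (relIndex_eq_one.1 ht1).trans (D_succ_le' t)
  have hsup : ∀ k, k + 1 < t → D α P k = D α P (k + 1) ⊔ α⁻¹ • D α P (k + 1) := by
    intro k hk
    have h1 : α⁻¹ • D α P (k + 1) ≤ D α P k := by
      rw [← pointwise_smul_le_pointwise_smul_iff (a := α), smul_inv_smul]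
      exact D_succ_le' k
    rcases eq_or_eq_of_relIndex Fact.out (le_sup_left : D α P (k + 1) ≤ D α P (k + 1) ⊔ α⁻¹ • D α P (k + 1))
      (sup_le (D_succ_le k) h1) (hlt k (by omega)) with h2 | h2
    · exfalso
      have h3 : α⁻¹ • D α P (k + 1) ≤ D α P (k + 1) := le_sup_right.trans h2.le
      have h4 : α⁻¹ • D α P (k + 1) = D α P (k + 1) := smul_eq_of_ge h3
      have h5 : α • D α P (k + 1) = D α P (k + 1) := by
        conv_lhs => rw [← h4, smul_inv_smul]
      have h6 := hlt (k + 1) hk
      rw [D_succ (k + 1), h5, inf_idem, relIndex_self] at h6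
      exact (Fact.out : p.Prime).one_lt.ne h6
    · exact h2.symm
  have hnorm : ∀ k, k ≤ t → D α P (t - k) ≤ normalizer ((D α P t : Subgroup G) : Set G) := by
    intro k hk
    induction k with
    | zero => exact le_normalizer
    | succ k ih =>
      rcases Nat.eq_zero_or_pos k with h | h
      · subst h
        have h1 : t - (0 + 1) + 1 = t := by omega
        have h2 := hlt (t - (0 + 1)) (by omega)
        rw [h1] at h2
        exact le_normalizer_of_relIndex (D_isPGroup hP _) (D_anti (by omega)) h2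
      · have h1 : t - (k + 1) + 1 = t - k := by omega
        have h2 := hsup (t - (k + 1)) (by omega)
        rw [h1] at h2
        rw [h2]
        have h3 := ih (by omega)
        refine sup_le h3 ?_
        have h4 := smul_normalizer α⁻¹ h3
        have h5 : α⁻¹ • D α P t = D α P t := by
          conv_lhs => rw [← hinv, inv_smul_smul]
        rwa [h5] at h4
  have hbot : D α P t = ⊥ := by
    apply hmin _ (D_le t) _ hinv
    have := hnorm t le_rfl
    rwa [Nat.sub_self, D_zero] at this
  refine ⟨t, ht0, ?_, hbot, hlt, hsup⟩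
  rw [card_D hlt, hbot]; simp

end chain

/-! ### `P` is a `p`-group -/

theorem isPGroup_of [Finite G] {α : MulAut G} {P : Subgroup G} {p : ℕ} (hp : p.Prime)
    (hN : ((P ⊓ α • P).subgroupOf (α • P)).Normal)
    (hidx : (P ⊓ α • P).relIndex (α • P) = p)
    (h1 : ∀ Q : Subgroup G, Q ≤ P → P ≤ normalizer (Q : Set G) → α • Q = Q → Q = ⊥) :
    IsPGroup p P := by
  set S : Set G := {x | x ∈ P ∧ (orderOf x).Coprime p} with hS
  have hmemP : ∀ x ∈ α • P, (orderOf x).Coprime p → x ∈ P := by
    intro x hx hxo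
    have h2 := ((P ⊓ α • P).subgroupOf (α • P)).pow_index_mem (⟨x, hx⟩ : (α • P : Subgroup G))
    change (⟨x, hx⟩ : (α • P : Subgroup G)) ^ (P ⊓ α • P).relIndex (α • P) ∈ _ at h2
    rw [hidx, mem_subgroupOf] at h2
    have h3 : x ^ p ∈ P := h2.1
    obtain ⟨m, hm⟩ := exists_pow_eq_self_of_coprime hxo.symm
    rw [← hm]
    exact pow_mem h3 m
  have hαS : α • closure S ≤ closure S := by
    rw [smul_closure]
    apply Subgroup.closure_mono
    rintro _ ⟨x, ⟨hx, hxo⟩, rfl⟩
    have ho : orderOf (α • x) = orderOf x := by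
      rw [MulAut.smul_def]; exact orderOf_injective α.toMonoidHom α.injective x
    refine ⟨hmemP _ (smul_mem_pointwise_smul _ _ _ hx) ?_, ?_⟩
    · simp only
      rw [ho]; exact hxo
    · simp only
      rw [ho]; exact hxo
  have hα : α • closure S = closure S := smul_eq_of_ge hαS
  have hTP : closure S ≤ P := by
    rw [closure_le]
    intro x hx; exact hx.1
  have hconj : ∀ g ∈ P, ∀ y ∈ closure S, g * y * g⁻¹ ∈ closure S := by
    intro g hg y hy
    have h2 : MulAut.conj g • closure S ≤ closure S := by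
      rw [smul_closure]
      apply Subgroup.closure_mono
      rintro _ ⟨x, ⟨hx, hxo⟩, rfl⟩
      have ho : orderOf (MulAut.conj g • x) = orderOf x := by
        rw [MulAut.smul_def]; exact orderOf_injective (MulAut.conj g).toMonoidHom (MulAut.conj g).injective x
      refine ⟨?_, ?_⟩
      · simp only [MulAut.smul_def, MulAut.conj_apply]
        exact mul_mem (mul_mem hg hx) (inv_mem hg)
      · simp only
        rw [ho]; exact hxo
    have h3 := h2 (smul_mem_pointwise_smul y (MulAut.conj g) _ hy)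
    simpa [MulAut.smul_def] using h3
  have hTn : P ≤ normalizer ((closure S : Subgroup G) : Set G) := by
    intro g hg
    rw [mem_normalizer_iff]
    intro y
    refine ⟨hconj g hg y, fun h => ?_⟩
    have h2 := hconj g⁻¹ (inv_mem hg) _ h
    have h3 : g⁻¹ * (g * y * g⁻¹) * g⁻¹⁻¹ = y := by group
    rwa [h3] at h2
  have hbot := h1 _ hTP hTn hα
  intro x
  have hx0 : orderOf (x : G) ≠ 0 := (orderOf_pos (x : G)).ne'
  obtain ⟨k, m, hm, hkm⟩ := Nat.exists_eq_pow_mul_and_not_dvd hx0 p hp.ne_one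
  refine ⟨k, ?_⟩
  have h2 : ((x : G) ^ p ^ k) ^ m = 1 := by rw [← pow_mul, ← hkm, pow_orderOf_eq_one]
  have h3 : (orderOf ((x : G) ^ p ^ k)).Coprime p := by
    apply Nat.Coprime.coprime_dvd_left (orderOf_dvd_of_pow_eq_one h2)
    exact ((Nat.Prime.coprime_iff_not_dvd hp).2 hm).symm
  have h4 : (x : G) ^ p ^ k ∈ closure S := subset_closure ⟨pow_mem x.2 _, h3⟩
  rw [hbot, mem_bot] at h4
  exact Subtype.ext h4

/-! ### Elements -/

section elements

variable [Finite G] {α : MulAut G} {P : Subgroup G} {p : ℕ} [Fact p.Prime]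

/-- Subgroups generated by consecutive elements, shifted. -/
theorem shift_closure {x : ℤ → G} (hx : ∀ i j, (α ^ j) (x i) = x (i + j)) (j a b : ℤ) :
    (α ^ j) • closure (x '' Set.Ico a b) = closure (x '' Set.Ico (a + j) (b + j)) := by
  rw [smul_closure]
  congr 1
  ext g
  constructor
  · rintro ⟨_, ⟨l, hl, rfl⟩, rfl⟩
    rw [Set.mem_Ico] at hl
    exact ⟨l + j, by rw [Set.mem_Ico]; omega, (hx l j).symm⟩
  · rintro ⟨l, hl, rfl⟩
    rw [Set.mem_Ico] at hl
    refine ⟨x (l - j), ⟨l - j, by rw [Set.mem_Ico]; omega, rfl⟩, ?_⟩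
    change (α ^ j) (x (l - j)) = x l
    rw [hx]; congr 1; ring

/-- The elements `x i`. -/
theorem exists_elements (hP : IsPGroup p P)
    (h0 : (D α P 1).relIndex (D α P 0) = p)
    (hmin : ∀ Q : Subgroup G, Q ≤ P → P ≤ normalizer (Q : Set G) → α • Q = Q → Q = ⊥) :
    ∃ (t : ℕ) (x : ℤ → G), 1 ≤ t ∧ Nat.card P = p ^ t ∧ (∀ i j, (α ^ j) (x i) = x (i + j)) ∧
      closure (x '' Set.Ico 0 (t : ℤ)) = P ∧
      (∀ (i : ℤ) (k : ℕ), k ≤ t → Nat.card (closure (x '' Set.Ico i (i + k))) = p ^ k) ∧
      (∀ i k : ℤ, 1 ≤ k → k < t → ∀ u ∈ zpowers (x i), ∀ v ∈ zpowers (x (i + k)),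
        ⁅u, v⁆ ∈ closure (x '' Set.Ioo i (i + k))) := by
  obtain ⟨t, ht1, hcardP, hbot, hlt, hsup⟩ := exists_length hP h0 hmin
  have hpp : p.Prime := Fact.out
  -- the orders
  have hcard : ∀ k ≤ t, Nat.card (D α P (t - k)) = p ^ k := by
    intro k hk
    have h1 := card_D (α := α) (P := P) (p := p) (k := t - k) (fun j hj => hlt j (by omega))
    rw [hcardP] at h1
    have h2 : p ^ t = p ^ (t - k) * p ^ k := by rw [← pow_add]; congr 1; omega
    rw [h2] at h1
    exact (Nat.eq_of_mul_eq_mul_left (pow_pos hpp.pos _) h1).symm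
  have hcyc : IsCyclic (D α P (t - 1)) := by
    apply isCyclic_of_prime_card (p := p)
    rw [hcard 1 ht1, pow_one]
  obtain ⟨⟨y, hyD⟩, hy⟩ := hcyc.exists_generator
  have hyz : D α P (t - 1) = zpowers y := by
    apply le_antisymm
    · intro z hz
      obtain ⟨k, hk⟩ := mem_zpowers_iff.1 (hy ⟨z, hz⟩)
      exact mem_zpowers_iff.2 ⟨k, by simpa using congrArg Subtype.val hk⟩
    · rw [zpowers_le]; exact hyD
  let x : ℤ → G := fun i => (α ^ (i - (t - 1)) : MulAut G) y
  have hx : ∀ i j, (α ^ j) (x i) = x (i + j) := by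
    intro i j
    change (α ^ j) ((α ^ (i - (t - 1)) : MulAut G) y) = (α ^ (i + j - (t - 1)) : MulAut G) y
    rw [← MulAut.mul_apply, ← zpow_add]
    congr 2; ring
  have hxt : x (t - 1) = y := by
    change (α ^ ((t : ℤ) - 1 - (t - 1)) : MulAut G) y = y
    rw [sub_self, zpow_zero]; rfl
  have hα1 : ∀ S : Subgroup G, α⁻¹ • S = (α ^ (-1 : ℤ)) • S := by intro S; rw [zpow_neg_one]
  have hDk : ∀ k : ℕ, k ≤ t → D α P (t - k) = closure (x '' Set.Ico ((t : ℤ) - k) t) := by
    intro k hk
    induction k with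
    | zero =>
      rw [Nat.sub_zero, hbot]
      simp
    | succ k ih =>
      rcases Nat.eq_zero_or_pos k with h | h
      · subst h
        have h1 : Set.Ico ((t : ℤ) - ((0 + 1 : ℕ) : ℤ)) t = {(t : ℤ) - 1} := by
          ext l; simp only [Set.mem_Ico, Set.mem_singleton_iff]; omega
        rw [h1, Set.image_singleton, hxt, ← zpowers_eq_closure]
        exact hyz
      · have h1 : t - (k + 1) + 1 = t - k := by omega
        have h2 := hsup (t - (k + 1)) (by omega)
        rw [h1, ih (by omega), hα1, shift_closure hx, ← Subgroup.closure_union, ← Set.image_union] at h2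
        rw [h2]
        congr 2
        ext l
        simp only [Set.mem_union, Set.mem_Ico]
        push_cast
        omega
  refine ⟨t, x, ht1, hcardP, hx, ?_, ?_, ?_⟩
  · have := hDk t le_rfl
    rw [Nat.sub_self, D_zero, sub_self] at this
    exact this.symm
  · intro i k hk
    have h1 := card_smul (α ^ (i - ((t : ℤ) - k))) (closure (x '' Set.Ico ((t : ℤ) - k) t))
    rw [shift_closure hx, ← hDk k hk, hcard k hk] at h1
    have h2 : (t : ℤ) - k + (i - (t - k)) = i := by ring
    have h3 : (t : ℤ) + (i - (t - k)) = i + k := by ring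
    rwa [h2, h3] at h1
  · intro i k hk1 hkt u hu v hv
    -- translate
    obtain ⟨m, hm⟩ : ∃ m : ℕ, (t : ℤ) - 1 - k = m := ⟨((t : ℤ) - 1 - k).toNat, by omega⟩
    have hmt : m + 1 < t := by omega
    set e : ℤ := i - m with he
    have hDm : ∀ j : ℕ, j ≤ t → D α P j = closure (x '' Set.Ico (j : ℤ) t) := by
      intro j hj
      have h2 := hDk (t - j) (by omega)
      have h3 : t - (t - j) = j := by omega
      rw [h3] at h2
      rw [h2]
      congr 3
      push_cast [Nat.cast_sub hj]
      ring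
    have hA := hDm (m + 1) (by omega)
    have hB : α⁻¹ • D α P (m + 1) = closure (x '' Set.Ico (m : ℤ) (t - 1)) := by
      rw [hA, hα1, shift_closure hx]
      congr 3
      push_cast; ring
    have hn1 : D α P m ≤ normalizer ((D α P (m + 1) : Subgroup G) : Set G) :=
      le_normalizer_of_relIndex (D_isPGroup hP _) (D_succ_le m) (hlt m (by omega))
    have hle2 : α⁻¹ • D α P (m + 1) ≤ D α P m := by
      rw [← pointwise_smul_le_pointwise_smul_iff (a := α), smul_inv_smul]
      exact D_succ_le' m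
    have hn2 : D α P m ≤ normalizer ((α⁻¹ • D α P (m + 1) : Subgroup G) : Set G) := by
      apply le_normalizer_of_relIndex (D_isPGroup hP _) hle2
      have h3 := card_relIndex hle2
      rw [card_smul, ← card_relIndex (D_succ_le m), hlt m (by omega)] at h3
      exact Nat.eq_of_mul_eq_mul_left Nat.card_pos h3
    have key : ∀ u ∈ zpowers (x m), ∀ v ∈ zpowers (x (t - 1)),
        ⁅u, v⁆ ∈ closure (x '' Set.Ioo (m : ℤ) (t - 1)) := by
      intro u hu v hv
      have hu2 : u ∈ α⁻¹ • D α P (m + 1) := by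
        have h4 : zpowers (x m) ≤ α⁻¹ • D α P (m + 1) := by
          rw [zpowers_le, hB]
          exact subset_closure ⟨m, by rw [Set.mem_Ico]; omega, rfl⟩
        exact h4 hu
      have hv2 : v ∈ D α P (m + 1) := by
        have h4 : zpowers (x (t - 1)) ≤ D α P (m + 1) := by
          rw [zpowers_le, hA]
          exact subset_closure ⟨t - 1, by rw [Set.mem_Ico]; push_cast; omega, rfl⟩
        exact h4 hv
      have h5 : ⁅u, v⁆ ∈ D α P (m + 1) := by
        have h6 := hn1 (hle2 hu2)
        rw [mem_normalizer_iff] at h6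
        rw [commutatorElement_def]
        exact mul_mem ((h6 v).1 hv2) (inv_mem hv2)
      have h6 : ⁅u, v⁆ ∈ α⁻¹ • D α P (m + 1) := by
        have h7 := hn2 (D_succ_le m hv2)
        rw [mem_normalizer_iff] at h7
        have h8 : ⁅u, v⁆ = u * (v * u⁻¹ * v⁻¹) := by rw [commutatorElement_def]; group
        rw [h8]
        exact mul_mem hu2 ((h7 u⁻¹).1 (inv_mem hu2))
      have h7 : D α P (m + 1) ⊓ α⁻¹ • D α P (m + 1) = α⁻¹ • D α P (m + 2) := by
        rw [D_succ (m + 1), smul_inf, inv_smul_smul, inf_comm]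
      have h8 : ⁅u, v⁆ ∈ α⁻¹ • D α P (m + 2) := by rw [← h7]; exact ⟨h5, h6⟩
      rw [hDm (m + 2) (by omega), hα1, shift_closure hx] at h8
      have h9 : Set.Ico (((m + 2 : ℕ) : ℤ) + -1) ((t : ℤ) + -1) = Set.Ioo (m : ℤ) (t - 1) := by
        ext l; simp only [Set.mem_Ico, Set.mem_Ioo]; push_cast; omega
      rwa [h9] at h8
    have hinv : ∀ (j l : ℤ) (w : G), w ∈ zpowers (x j) → (α ^ l) w ∈ zpowers (x (j + l)) := by
      rintro j l _ ⟨f, rfl⟩
      exact ⟨f, by simp only; rw [map_zpow, hx]⟩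
    have hu' := hinv i (-e) u hu
    have hv' := hinv (i + k) (-e) v hv
    have e1 : i + -e = m := by rw [he]; ring
    have e2 : i + k + -e = t - 1 := by rw [he, ← hm]; ring
    rw [e1] at hu'
    rw [e2] at hv'
    have h3 := key _ hu' _ hv'
    have h4 : Set.Ioo (m : ℤ) (t - 1) = Set.Ico (m + 1 : ℤ) (t - 1) := by
      ext l; simp only [Set.mem_Ico, Set.mem_Ioo]; omega
    rw [h4] at h3
    have h5 := smul_mem_pointwise_smul _ (α ^ e) _ h3
    rw [shift_closure hx] at h5
    have h6 : Set.Ico ((m : ℤ) + 1 + e) (t - 1 + e) = Set.Ioo i (i + k) := by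
      ext l; simp only [Set.mem_Ico, Set.mem_Ioo]; omega
    rw [h6] at h5
    have h7 : (α ^ e) • ⁅(α ^ (-e)) u, (α ^ (-e)) v⁆ = ⁅u, v⁆ := by
      change (α ^ e) ⁅(α ^ (-e)) u, (α ^ (-e)) v⁆ = ⁅u, v⁆
      rw [map_commutatorElement, ← MulAut.mul_apply, ← MulAut.mul_apply, ← zpow_add, add_neg_cancel,
        zpow_zero]
      rfl
    rwa [h7] at h5

theorem main_aux (hP : IsPGroup p P)
    (h0 : (D α P 1).relIndex (D α P 0) = p)
    (hmin : ∀ Q : Subgroup G, Q ≤ P → P ≤ normalizer (Q : Set G) → α • Q = Q → Q = ⊥)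
    (n : ℕ) (hn : 1 ≤ n)
    (hZ : ∀ z ∈ P, (∀ i : ℕ, i ≤ n → ∀ y ∈ (α ^ (i : ℤ)) • P, Commute z y) → z = 1) :
    ∃ t : ℕ, Nat.card P = p ^ t ∧ 1 ≤ t ∧ t ≤ 3 * n ∧ t ≠ 3 * n - 1 := by
  classical
  obtain ⟨t, x, ht1, hcardP, hx, hxP, hcard, hcl⟩ := exists_elements hP h0 hmin
  have hpp : p.Prime := Fact.out
  have hxp : ∀ i, x i ^ p = 1 := by
    intro i
    have h1 := hcard i 1 ht1
    have h2 : Set.Ico i (i + ((1 : ℕ) : ℤ)) = {i} := by
      ext l; simp only [Set.mem_Ico, Set.mem_singleton_iff]; push_cast; omega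
    rw [h2, Set.image_singleton, ← zpowers_eq_closure, Nat.card_zpowers, pow_one] at h1
    rw [← h1, pow_orderOf_eq_one]
  have hx1 : ∀ i, x i ≠ 1 := by
    intro i
    have h1 := hcard i 1 ht1
    have h2 : Set.Ico i (i + ((1 : ℕ) : ℤ)) = {i} := by
      ext l; simp only [Set.mem_Ico, Set.mem_singleton_iff]; push_cast; omega
    rw [h2, Set.image_singleton, ← zpowers_eq_closure, Nat.card_zpowers, pow_one] at h1
    intro h
    rw [h, orderOf_one] at h1
    exact hpp.one_lt.ne h1
  -- the size of the abelian window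
  let Q : ℕ → Prop := fun k => ∀ l : ℤ, 0 ≤ l → l < k → Commute (x 0) (x l)
  have hQ1 : Q 1 := by
    intro l h1 h2
    have : l = 0 := by push_cast at h2; omega
    rw [this]
  obtain ⟨a, ha1, hat, hQa, hQa'⟩ : ∃ a : ℕ, 1 ≤ a ∧ a ≤ t ∧ Q a ∧ (a < t → ¬ Q (a + 1)) := by
    refine ⟨Nat.findGreatest Q t, Nat.le_findGreatest ht1 hQ1, Nat.findGreatest_le t,
      Nat.findGreatest_spec ht1 hQ1, fun h => Nat.findGreatest_is_greatest (Nat.lt_succ_self _) h⟩
  have hshift : ∀ i j : ℤ, Commute (x 0) (x (j - i)) → Commute (x i) (x j) := by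
    intro i j h
    have h1 := h.map (α ^ i)
    rw [hx, hx] at h1
    have e1 : (0 : ℤ) + i = i := by ring
    have e2 : j - i + i = j := by ring
    rwa [e1, e2] at h1
  have hcomm : ∀ i j : ℤ, i ≤ j → j < i + a → Commute (x i) (x j) := by
    intro i j h1 h2
    exact hshift i j (hQa (j - i) (by omega) (by omega))
  have hcomm' : ∀ i j : ℤ, j < i + a → i < j + a → Commute (x i) (x j) := by
    intro i j h1 h2
    rcases le_total i j with h | h
    · exact hcomm i j h h1
    · exact (hcomm j i h h2).symm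
  -- first inequality
  have ineq1 : 2 * a ≤ t + n := by
    by_contra hcon
    apply hx1 (a - 1)
    apply hZ
    · have h1 : x (a - 1) ∈ closure (x '' Set.Ico 0 (t : ℤ)) :=
        subset_closure ⟨a - 1, by rw [Set.mem_Ico]; omega, rfl⟩
      rwa [hxP] at h1
    · intro i hi y hy
      rw [← hxP, shift_closure hx] at hy
      refine commute_closure ?_ hy
      rintro _ ⟨l, hl, rfl⟩
      rw [Set.mem_Ico] at hl
      exact hcomm' _ _ (by omega) (by omega)
  -- second inequality
  have ineq2 : a < t → 2 * t ≤ 3 * a := by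
    intro hat'
    by_contra hcon
    have hnc0 : ¬ Commute (x 0) (x a) := by
      intro h
      apply hQa' hat'
      intro l hl1 hl2
      by_cases hla : l < a
      · exact hQa l hl1 hla
      · have : l = a := by push_cast at hl2; omega
        rw [this]; exact h
    have hnc : ∀ i : ℤ, ¬ Commute (x i) (x (i + a)) := by
      intro i h
      apply hnc0
      have h1 := h.map (α ^ (-i))
      rw [hx, hx] at h1
      have e1 : i + -i = 0 := by ring
      have e2 : i + a + -i = a := by ring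
      rwa [e1, e2] at h1
    obtain ⟨hc1, hc2⟩ := lemB (x := x) hpp (t := t) (a := a) (by omega) hxp hcomm hnc
      (fun i k h1 h2 => hcl i k (by omega) h2) (by omega)
    have hc0 : ⁅x 0, x a⁆ ≠ 1 := by
      intro h; apply hnc0; rwa [commutatorElement_eq_one_iff_commute] at h
    by_cases hm : 2 * a ≤ t
    · rw [Set.Ioc_eq_empty (by omega), Set.image_empty, Subgroup.closure_empty, mem_bot] at hc2
      exact hc0 hc2
    · obtain ⟨m, hm⟩ : ∃ m : ℕ, 2 * a = t + m := ⟨2 * a - t, by omega⟩
      have hA : ⁅x 0, x a⁆ ∈ closure (x '' Set.Ico 1 (1 + (m : ℤ))) := by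
        have : Set.Ioc (0 : ℤ) (2 * a - t) = Set.Ico 1 (1 + (m : ℤ)) := by
          ext l; simp only [Set.mem_Ioc, Set.mem_Ico]; omega
        rwa [this] at hc2
      have hB : ⁅x 0, x a⁆ ∈ closure (x '' Set.Ico (1 + (m : ℤ)) (1 + m + ((a - 1 - m : ℕ) : ℤ))) := by
        apply Subgroup.closure_mono _ hc1
        apply Set.image_mono
        intro l hl
        simp only [Set.mem_Ico] at hl ⊢
        omega
      set A := closure (x '' Set.Ico 1 (1 + (m : ℤ))) with hAdef
      set B := closure (x '' Set.Ico (1 + (m : ℤ)) (1 + m + ((a - 1 - m : ℕ) : ℤ))) with hBdef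
      have hcA : Nat.card A = p ^ m := hcard 1 m (by omega)
      have hcB : Nat.card B = p ^ (a - 1 - m) := hcard (1 + m) (a - 1 - m) (by omega)
      have hAB : A ⊔ B = closure (x '' Set.Ico 1 (1 + ((a - 1 : ℕ) : ℤ))) := by
        rw [hAdef, hBdef, ← Subgroup.closure_union, ← Set.image_union]
        congr 2
        ext l
        simp only [Set.mem_union, Set.mem_Ico]
        omega
      have hcAB : Nat.card (A ⊔ B : Subgroup G) = p ^ (a - 1) := by
        rw [hAB]; exact hcard 1 (a - 1) (by omega)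
      have hcomAB : ∀ (u : A) (v : B), Commute (A.subtype u) (B.subtype v) := by
        rintro ⟨u, hu⟩ ⟨v, hv⟩
        change Commute u v
        apply Commute.symm
        refine commute_closure ?_ hu
        rintro _ ⟨l, hl, rfl⟩
        apply Commute.symm
        refine commute_closure ?_ hv
        rintro _ ⟨k, hk, rfl⟩
        rw [Set.mem_Ico] at hl hk
        exact hcomm' _ _ (by omega) (by omega)
      let f := MonoidHom.noncommCoprod A.subtype B.subtype hcomAB
      have hfr : f.range = A ⊔ B := by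
        rw [MonoidHom.noncommCoprod_range, range_subtype, range_subtype]
      have hfb : Function.Bijective f.rangeRestrict := by
        rw [Nat.bijective_iff_surjective_and_card]
        refine ⟨f.rangeRestrict_surjective, ?_⟩
        rw [hfr, hcAB, Nat.card_prod, hcA, hcB, ← pow_add]
        congr 1; omega
      have h1 : f.rangeRestrict (⟨_, hA⟩, 1) = f.rangeRestrict (1, ⟨_, hB⟩) := by
        apply Subtype.ext
        change A.subtype ⟨_, hA⟩ * B.subtype 1 = A.subtype 1 * B.subtype ⟨_, hB⟩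
        simp
      have h2 := congrArg Prod.fst (hfb.1 h1)
      have h3 := congrArg Subtype.val h2
      exact hc0 h3
  refine ⟨t, hcardP, ht1, ?_, ?_⟩
  · rcases Nat.lt_or_ge a t with h | h
    · have := ineq2 h; omega
    · omega
  · rcases Nat.lt_or_ge a t with h | h
    · have := ineq2 h; omega
    · omega

end elements

end Cfsg.Agent.H574.Sims
end

-- part: S4359
section
set_option autoImplicit false
open Pointwise
open Cfsg

namespace Cfsg.Agent.S4359

/-- Let P be a subgroup of a finite group G and g an element such that P ∩ g⁻¹Pg is a normal subgroup of prime index p in g⁻¹Pg. Let n ≥ 1 and let K be the subgroup generated by P and its conjugates g⁻ⁱPgⁱ for i ≤ n. Suppose that g normalizes no non-identity normal subgroup of P and that P meets the center of K trivially. Then the order of P is pᵗ for some t with 1 ≤ t ≤ 3n and t ≠ 3n - 1. -/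
theorem result {G : Type*} [Group G] [Finite G]
    (P : Subgroup G) (g : G) (p : ℕ) (hp : p.Prime)
    (hN : ((P ⊓ MulAut.conj g⁻¹ • P).subgroupOf (MulAut.conj g⁻¹ • P)).Normal)
    (hidx : (P ⊓ MulAut.conj g⁻¹ • P).relIndex (MulAut.conj g⁻¹ • P) = p)
    (n : ℕ) (hn : 1 ≤ n) (K : Subgroup G) (hK : K = ⨆ i ∈ Finset.range (n + 1), MulAut.conj (g ^ i)⁻¹ • P)
    (h1 : ∀ Q : Subgroup G, Q ≤ P → (Q.subgroupOf P).Normal → MulAut.conj g • Q = Q → Q = ⊥)
    (h2 : P ⊓ (Subgroup.center K).map K.subtype = ⊥) :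
    ∃ t : ℕ, Nat.card P = p ^ t ∧ 1 ≤ t ∧ t ≤ 3 * n ∧ t ≠ 3 * n - 1 := by
  have : Fact p.Prime := ⟨hp⟩
  have hα : ∀ i : ℕ, (MulAut.conj g⁻¹) ^ (i : ℤ) = MulAut.conj (g ^ i)⁻¹ := by
    intro i
    rw [zpow_natCast, ← map_pow, inv_pow]
  have hinv : ∀ Q : Subgroup G, MulAut.conj g⁻¹ • Q = Q → MulAut.conj g • Q = Q := by
    intro Q hQ
    have h3 : MulAut.conj g • (MulAut.conj g⁻¹ • Q) = Q := by
      rw [← mul_smul, ← map_mul, mul_inv_cancel, map_one, one_smul]
    rwa [hQ] at h3
  have hmin : ∀ Q : Subgroup G, Q ≤ P → P ≤ Subgroup.normalizer (Q : Set G) →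
      MulAut.conj g⁻¹ • Q = Q → Q = ⊥ := by
    intro Q hQ hn hQg
    exact h1 Q hQ ((Subgroup.normal_subgroupOf_iff_le_normalizer hQ).2 hn) (hinv Q hQg)
  have hP := H574.Sims.isPGroup_of (α := MulAut.conj g⁻¹) hp hN hidx hmin
  have h0 : (H574.Sims.D (MulAut.conj g⁻¹) P 1).relIndex (H574.Sims.D (MulAut.conj g⁻¹) P 0) = p := by
    change (P ⊓ MulAut.conj g⁻¹ • P).relIndex P = p
    have e1 := H574.Sims.card_relIndex (inf_le_left : P ⊓ MulAut.conj g⁻¹ • P ≤ P)
    have e2 := H574.Sims.card_relIndex (inf_le_right : P ⊓ MulAut.conj g⁻¹ • P ≤ MulAut.conj g⁻¹ • P)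
    rw [hidx, H574.Sims.card_smul, ← e1] at e2
    exact (Nat.eq_of_mul_eq_mul_left Nat.card_pos e2).symm
  refine H574.Sims.main_aux hP h0 hmin n hn ?_
  intro z hz hcomm
  have hKle : ∀ i : ℕ, i ≤ n → MulAut.conj (g ^ i)⁻¹ • P ≤ K := by
    intro i hi
    rw [hK]
    exact le_iSup₂_of_le i (Finset.mem_range.2 (by omega)) le_rfl
  have hzK : z ∈ K := by
    have h3 := hKle 0 (Nat.zero_le n)
    rw [pow_zero, inv_one, map_one, one_smul] at h3
    exact h3 hz
  have hcen : K ≤ Subgroup.centralizer {z} := by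
    rw [hK]
    refine iSup₂_le fun i hi y hy => ?_
    rw [Finset.mem_range] at hi
    rw [Subgroup.mem_centralizer_singleton_iff]
    rw [← hα i] at hy
    exact (hcomm i (by omega) y hy).eq.symm
  have h3 : z ∈ P ⊓ (Subgroup.center K).map K.subtype := by
    refine ⟨hz, ⟨⟨z, hzK⟩, ?_, rfl⟩⟩
    rw [SetLike.mem_coe, Subgroup.mem_center_iff]
    rintro ⟨y, hy⟩
    have h4 := hcen hy
    rw [Subgroup.mem_centralizer_singleton_iff] at h4
    exact Subtype.ext h4
  rw [h2, Subgroup.mem_bot] at h3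
  exact h3

end Cfsg.Agent.S4359
end
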