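import Cfsg.Statements.S4370
import Cfsg.Agent.Solvable.UniqueOrderP
import Cfsg.Agent.Lib.NilpotentCoprime
import Mathlib.GroupTheory.NoncommCoprod
set_option linter.all false

set_option autoImplicit false
open Cfsg

namespace Cfsg.Agent.S4370

open Subgroup

/-- In `QuaternionGroup (2 ^ k)` the centralizer of a non-central element is cyclic. -/
theorem quaternion_centralizer_isCyclic {k : ℕ} (q : QuaternionGroup (2 ^ k))
    (hq : q ∉ Subgroup.center (QuaternionGroup (2 ^ k))) :
    IsCyclic (Subgroup.centralizer ({q} : Set (QuaternionGroup (2 ^ k)))) := by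
  have htwo : ∀ i : ZMod (2 * 2 ^ k), 2 * i = 0 → i = 0 ∨ i = ((2 ^ k : ℕ) : ZMod (2 * 2 ^ k)) := by
    intro i hi
    have : NeZero (2 * 2 ^ k) := ⟨by positivity⟩
    obtain ⟨a, ha, rfl⟩ : ∃ a : ℕ, a < 2 * 2 ^ k ∧ ((a : ℕ) : ZMod (2 * 2 ^ k)) = i :=
      ⟨i.val, ZMod.val_lt i, ZMod.natCast_zmod_val i⟩
    have h1 : (((2 * a : ℕ)) : ZMod (2 * 2 ^ k)) = 0 := by
      push_cast
      exact hi
    rw [ZMod.natCast_eq_zero_iff] at h1
    have h2 : 2 ^ k ∣ a := Nat.dvd_of_mul_dvd_mul_left (by norm_num) h1
    obtain ⟨c, rfl⟩ := h2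
    have h3 : c < 2 := by
      by_contra hc
      push Not at hc
      have : 2 ^ k * 2 ≤ 2 ^ k * c := Nat.mul_le_mul_left _ hc
      omega
    interval_cases c
    · left; simp
    · right; simp
  rcases q with i | i
  · -- a rotation
    have h2i : 2 * i ≠ 0 := by
      intro h0
      apply hq
      rw [Subgroup.mem_center_iff]
      rintro (j | j)
      · rw [QuaternionGroup.a_mul_a, QuaternionGroup.a_mul_a, add_comm]
      · rw [QuaternionGroup.xa_mul_a, QuaternionGroup.a_mul_xa]
        congr 1
        rw [eq_sub_iff_add_eq, add_assoc, ← two_mul, h0, add_zero]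
    have hle : Subgroup.centralizer ({QuaternionGroup.a i} : Set (QuaternionGroup (2 ^ k))) ≤
        Subgroup.zpowers (QuaternionGroup.a 1) := by
      rintro (j | j) hg
      · have : NeZero (2 * 2 ^ k) := ⟨by positivity⟩
        rw [Subgroup.mem_zpowers_iff]
        refine ⟨(j.val : ℤ), ?_⟩
        rw [zpow_natCast, QuaternionGroup.a_one_pow, ZMod.natCast_zmod_val]
      · exfalso
        rw [Subgroup.mem_centralizer_singleton_iff] at hg
        rw [QuaternionGroup.xa_mul_a, QuaternionGroup.a_mul_xa] at hg
        have h4 := QuaternionGroup.xa.inj hg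
        apply h2i
        rw [eq_sub_iff_add_eq, add_assoc, ← two_mul] at h4
        simpa using h4
    exact Subgroup.isCyclic_of_le hle
  · have hle : Subgroup.centralizer ({QuaternionGroup.xa i} : Set (QuaternionGroup (2 ^ k))) ≤
        Subgroup.zpowers (QuaternionGroup.xa i) := by
      rintro (j | j) hg
      · rw [Subgroup.mem_centralizer_singleton_iff] at hg
        rw [QuaternionGroup.xa_mul_a, QuaternionGroup.a_mul_xa] at hg
        have h4 := QuaternionGroup.xa.inj hg
        have h5 : 2 * j = 0 := by
          have h7 : (2 : ZMod (2 * 2 ^ k)) * j = (i + j) - (i - j) := by ring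
          rw [h7, h4, sub_self]
        rcases htwo j h5 with rfl | rfl
        · rw [QuaternionGroup.a_zero]; exact one_mem _
        · have : (QuaternionGroup.a ((2 ^ k : ℕ) : ZMod (2 * 2 ^ k)) : QuaternionGroup (2 ^ k)) =
              (QuaternionGroup.xa i) ^ 2 := (QuaternionGroup.xa_sq i).symm
          rw [this]
          exact pow_mem (Subgroup.mem_zpowers _) 2
      · rw [Subgroup.mem_centralizer_singleton_iff] at hg
        rw [QuaternionGroup.xa_mul_xa, QuaternionGroup.xa_mul_xa] at hg
        have h4 := QuaternionGroup.a.inj hg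
        have h5 : 2 * (j - i) = 0 := by
          have h6 : i - j = j - i := by
            calc i - j = ((2 ^ k : ℕ) : ZMod (2 * 2 ^ k)) + i - j - ((2 ^ k : ℕ) : ZMod (2 * 2 ^ k)) := by ring
              _ = ((2 ^ k : ℕ) : ZMod (2 * 2 ^ k)) + j - i - ((2 ^ k : ℕ) : ZMod (2 * 2 ^ k)) := by
                  rw [h4]
              _ = j - i := by ring
          calc 2 * (j - i) = (j - i) + (j - i) := by ring
            _ = (j - i) + (i - j) := by rw [h6]
            _ = 0 := by ring
        have hj : j = i + (j - i) := by ring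
        rcases htwo _ h5 with h0 | h0
        · rw [h0, add_zero] at hj
          rw [hj]; exact Subgroup.mem_zpowers _
        · rw [h0] at hj
          rw [hj, ← QuaternionGroup.xa_mul_a, ← QuaternionGroup.xa_sq i]
          exact mul_mem (Subgroup.mem_zpowers _) (pow_mem (Subgroup.mem_zpowers _) 2)
    exact Subgroup.isCyclic_of_le hle

/-- In a cyclic finite group, two elements killed by the prime `p`. -/
theorem mem_zpowers_of_isCyclic {C : Type*} [Group C] [Finite C] [IsCyclic C] {p : ℕ}
    (hp : p.Prime) {x y : C} (hx : x ≠ 1) (hxp : x ^ p = 1) (hyp : y ^ p = 1) :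
    y ∈ Subgroup.zpowers x := by
  have := Fact.mk hp
  classical
  have hfin := Fintype.ofFinite C
  have hox : orderOf x = p := orderOf_eq_prime hxp hx
  have h1 : (Finset.univ.filter fun a : C => a ^ p = 1).card ≤ p :=
    IsCyclic.card_pow_eq_one_le hp.pos
  have h2 : ((Subgroup.zpowers x : Set C).toFinset).card = p := by
    rw [Set.toFinset_card, ← Nat.card_eq_fintype_card]
    exact (Nat.card_zpowers x).trans hox
  have h3 : (Subgroup.zpowers x : Set C).toFinset ⊆ Finset.univ.filter fun a : C => a ^ p = 1 := by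
    intro a ha
    rw [Set.mem_toFinset, SetLike.mem_coe, Subgroup.mem_zpowers_iff] at ha
    obtain ⟨n, rfl⟩ := ha
    rw [Finset.mem_filter]
    refine ⟨Finset.mem_univ _, ?_⟩
    rw [← zpow_natCast, ← zpow_mul, mul_comm, zpow_mul, zpow_natCast, hxp, one_zpow]
  have h4 := Finset.eq_of_subset_of_card_le h3 (by rw [h2]; exact h1)
  have h5 : y ∈ Finset.univ.filter fun a : C => a ^ p = 1 := by
    rw [Finset.mem_filter]; exact ⟨Finset.mem_univ _, hyp⟩
  rw [← h4, Set.mem_toFinset] at h5
  exact h5

/-- The forward direction. -/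
theorem forward {G : Type*} [Group G] [Finite G] (hG : Group.IsNilpotent G)
    (hna : ¬ IsMulCommutative G)
    (h : ∀ x : G, x ∉ Subgroup.center G → IsCyclic (Subgroup.centralizer ({x} : Set G))) :
      ∃ (k m : ℕ), 1 ≤ k ∧ Odd m ∧ Nonempty (G ≃* QuaternionGroup (2 ^ k) × Multiplicative (ZMod m)) := by
  classical
  -- a non-abelian Sylow subgroup
  obtain ⟨p, hp, P, x, y, hx, hy, hxy⟩ : ∃ (p : ℕ) (_ : Fact p.Prime) (P : Sylow p G) (x y : G),
      x ∈ P ∧ y ∈ P ∧ x * y ≠ y * x := by
    by_contra hcon
    push Not at hcon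
    apply hna
    obtain ⟨e⟩ := (Group.isNilpotent_of_finite_tfae (G := G)).out 0 4 |>.mp hG
    refine ⟨⟨fun a b => ?_⟩⟩
    obtain ⟨a, rfl⟩ := e.surjective a
    obtain ⟨b, rfl⟩ := e.surjective b
    rw [← map_mul, ← map_mul]
    congr 1
    funext q Q
    have hq : Fact (q : ℕ).Prime := ⟨Nat.prime_of_mem_primeFactors q.2⟩
    ext
    exact hcon q hq Q _ _ (a q Q).2 (b q Q).2
  have hPn : (P : Subgroup G).Normal := inferInstance
  have hcop : (Nat.card (P : Subgroup G)).Coprime (P : Subgroup G).index := P.card_coprime_index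
  obtain ⟨K, hK⟩ := Subgroup.exists_right_complement'_of_coprime hcop
  have hKcard : Nat.card K = (P : Subgroup G).index := by
    rw [← hK.symm.index_eq_card]
  have hcomm : ∀ a ∈ (P : Subgroup G), ∀ b ∈ K, Commute a b := by
    intro a ha b hb
    apply Cfsg.Agent.Lib.NilpotentCoprime.commute_of_coprime_orderOf
    have h1 : orderOf a ∣ Nat.card (P : Subgroup G) := by
      have := orderOf_dvd_natCard (⟨a, ha⟩ : (P : Subgroup G))
      rwa [Subgroup.orderOf_mk] at this
    have h2 : orderOf b ∣ Nat.card K := by
      have := orderOf_dvd_natCard (⟨b, hb⟩ : K)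
      rwa [Subgroup.orderOf_mk] at this
    rw [hKcard] at h2
    exact Nat.Coprime.of_dvd h1 h2 hcop
  have hxc : x ∉ Subgroup.center G := by
    intro hc
    rw [Subgroup.mem_center_iff] at hc
    exact hxy (hc y).symm
  have hCx := h x hxc
  have hKC : K ≤ Subgroup.centralizer ({x} : Set G) := by
    intro b hb
    rw [Subgroup.mem_centralizer_singleton_iff]
    exact (hcomm x hx b hb).eq.symm
  have hKcyc : IsCyclic K := Subgroup.isCyclic_of_le hKC
  -- unique subgroup of order `p`
  have hp' : p.Prime := hp.out
  have hPp : IsPGroup p (P : Subgroup G) := P.isPGroup'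
  have hPnt : Nontrivial (P : Subgroup G) := by
    rw [Subgroup.nontrivial_iff_exists_ne_one]
    refine ⟨x, hx, ?_⟩
    rintro rfl
    simp at hxy
  have hcen : ∀ z : (P : Subgroup G), z ^ p = 1 → (z : G) ∈ Subgroup.center G := by
    intro z hz
    by_contra hzc
    have hCz := h z hzc
    -- a central element of order `p`
    have hZnt : Nontrivial (Subgroup.center (P : Subgroup G)) := hPp.center_nontrivial
    obtain ⟨c, hc⟩ : ∃ c : Subgroup.center (P : Subgroup G), orderOf c = p := by
      have hZp : IsPGroup p (Subgroup.center (P : Subgroup G)) := hPp.to_subgroup _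
      have hdvd : p ∣ Nat.card (Subgroup.center (P : Subgroup G)) := by
        rcases hZp.card_eq_or_dvd with h1 | h1
        · exact absurd h1 (Finite.one_lt_card (α := Subgroup.center (P : Subgroup G))).ne'
        · exact h1
      exact exists_prime_orderOf_dvd_card' p hdvd
    set c' : G := ((c : (P : Subgroup G)) : G) with hc'
    have hc'p : c' ^ p = 1 := by
      have h0 : c ^ p = 1 := by
        have := pow_orderOf_eq_one c
        rwa [hc] at this
      exact congrArg (fun t : Subgroup.center (P : Subgroup G) => ((t : (P : Subgroup G)) : G)) h0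
    have hc'1 : c' ≠ 1 := by
      intro h1
      have : c = 1 := by
        apply Subtype.ext; apply Subtype.ext; exact h1
      rw [this, orderOf_one] at hc
      exact hp'.one_lt.ne hc
    have hc'cen : c' ∈ Subgroup.center G := by
      rw [Subgroup.mem_center_iff]
      intro g
      have hg : g ∈ (⊤ : Subgroup G) := Subgroup.mem_top g
      obtain ⟨⟨a, b⟩, hab⟩ := hK.2 g
      simp only at hab
      rw [← hab]
      have h1 : (c : (P : Subgroup G)) ∈ Subgroup.center (P : Subgroup G) := c.2
      rw [Subgroup.mem_center_iff] at h1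
      have h2 : (a : G) * c' = c' * a := by
        have := congrArg (Subtype.val) (h1 a)
        exact this
      have h3 : c' * (b : G) = b * c' := (hcomm c' (c : (P : Subgroup G)).2 b b.2).eq
      rw [mul_assoc, ← h3, ← mul_assoc, h2, mul_assoc]
    apply hzc
    have hzm : (z : G) ∈ Subgroup.centralizer ({(z : G)} : Set G) := by
      rw [Subgroup.mem_centralizer_singleton_iff]
    have hcm : c' ∈ Subgroup.centralizer ({(z : G)} : Set G) := by
      rw [Subgroup.mem_centralizer_singleton_iff]
      rw [Subgroup.mem_center_iff] at hc'cen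
      exact (hc'cen z).symm
    have h5 := mem_zpowers_of_isCyclic (C := Subgroup.centralizer ({(z : G)} : Set G)) hp'
      (x := ⟨c', hcm⟩) (y := ⟨(z : G), hzm⟩) (by
        intro h6; exact hc'1 (congrArg Subtype.val h6))
      (by apply Subtype.ext; exact hc'p)
      (by apply Subtype.ext; exact (by rw [← Subgroup.coe_pow, hz]; rfl : (z : G) ^ p = 1))
    rw [Subgroup.mem_zpowers_iff] at h5
    obtain ⟨n, hn⟩ := h5
    have hn' : c' ^ n = (z : G) := congrArg Subtype.val hn
    rw [← hn']
    exact Subgroup.zpow_mem _ hc'cen n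
  have hU : Cfsg.Agent.Solvable.UniqueOrderP.UniqueP p (P : Subgroup G) := by
    rw [Cfsg.Agent.Solvable.UniqueOrderP.uniqueP_def]
    intro u v hu1 hup hvp
    have hu : (u : G) ∈ Subgroup.centralizer ({x} : Set G) := by
      have := hcen u hup
      rw [Subgroup.mem_center_iff] at this
      rw [Subgroup.mem_centralizer_singleton_iff]
      exact (this x).symm
    have hv : (v : G) ∈ Subgroup.centralizer ({x} : Set G) := by
      have := hcen v hvp
      rw [Subgroup.mem_center_iff] at this
      rw [Subgroup.mem_centralizer_singleton_iff]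
      exact (this x).symm
    have h5 := mem_zpowers_of_isCyclic (C := Subgroup.centralizer ({x} : Set G)) hp'
      (x := ⟨u, hu⟩) (y := ⟨v, hv⟩) (by
        intro h6
        exact hu1 (Subtype.ext (congrArg
          (Subtype.val : (Subgroup.centralizer ({x} : Set G)) → G) h6)))
      (by apply Subtype.ext; exact (by rw [← Subgroup.coe_pow, hup]; rfl : (u : G) ^ p = 1))
      (by apply Subtype.ext; exact (by rw [← Subgroup.coe_pow, hvp]; rfl : (v : G) ^ p = 1))
    rw [Subgroup.mem_zpowers_iff] at h5 ⊢
    obtain ⟨n, hn⟩ := h5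
    refine ⟨n, ?_⟩
    apply Subtype.ext
    exact congrArg (Subtype.val : (Subgroup.centralizer ({x} : Set G)) → G) hn
  rcases Cfsg.Agent.Solvable.UniqueOrderP.cyclic_or_quaternion hPp hU with hc | ⟨hp2, m, hm, ⟨e⟩⟩
  · exfalso
    apply hxy
    obtain ⟨g, hg⟩ := hc
    obtain ⟨i, hi⟩ := hg ⟨x, hx⟩
    obtain ⟨j, hj⟩ := hg ⟨y, hy⟩
    have hi' : (g : G) ^ i = x := by
      simp only at hi
      rw [← Subgroup.coe_zpow, hi]
    have hj' : (g : G) ^ j = y := by
      simp only at hj
      rw [← Subgroup.coe_zpow, hj]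
    rw [← hi', ← hj', ← zpow_add, ← zpow_add, add_comm]
  · subst hp2
    refine ⟨m, Nat.card K, Nat.one_le_iff_ne_zero.mpr hm, ?_, ?_⟩
    · rw [hKcard, ← Nat.not_even_iff_odd, even_iff_two_dvd]
      exact P.not_dvd_index
    · let f : (↥(P : Subgroup G)) × (↥K) →* G :=
        MonoidHom.noncommCoprod (P : Subgroup G).subtype K.subtype
        (fun a b => hcomm a a.2 b b.2)
      have hf : Function.Bijective f := hK
      exact ⟨(MulEquiv.ofBijective f hf).symm.trans
        (MulEquiv.prodCongr e (zmodCyclicMulEquiv hKcyc).symm)⟩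

/-- Let G be a finite non-abelian nilpotent group. Then the centralizer of every non-central element of G is cyclic if and only if G is isomorphic to the direct product of a generalized quaternion group and a cyclic group of odd order. -/
theorem result {G : Type*} [Group G] [Finite G] (hG : Group.IsNilpotent G)
    (hna : ¬ IsMulCommutative G) :
    (∀ x : G, x ∉ Subgroup.center G → IsCyclic (Subgroup.centralizer ({x} : Set G))) ↔
      ∃ (k m : ℕ), 1 ≤ k ∧ Odd m ∧ Nonempty (G ≃* QuaternionGroup (2 ^ k) × Multiplicative (ZMod m)) := by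
  refine ⟨forward hG hna, ?_⟩
  rintro ⟨k, m, hk, hm, ⟨e⟩⟩ x hx
  have hm0 : NeZero m := ⟨by rintro rfl; simp at hm⟩
  set q := (e x).1 with hq
  have hqc : q ∉ Subgroup.center (QuaternionGroup (2 ^ k)) := by
    intro hc
    apply hx
    rw [Subgroup.mem_center_iff] at hc ⊢
    intro g
    apply e.injective
    rw [map_mul, map_mul]
    apply Prod.ext
    · exact hc _
    · exact mul_comm _ _
  have hcyc := quaternion_centralizer_isCyclic q hqc
  let A := Subgroup.centralizer ({q} : Set (QuaternionGroup (2 ^ k)))
  have hA : IsCyclic (A × Multiplicative (ZMod m)) := by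
    rw [Group.isCyclic_prod_iff]
    refine ⟨hcyc, inferInstance, ?_⟩
    have h1 : Nat.card A ∣ 4 * 2 ^ k := by
      have h2 : Nat.card (QuaternionGroup (2 ^ k)) = 4 * 2 ^ k := by
        rw [Nat.card_eq_fintype_card, QuaternionGroup.card]
      rw [← h2]
      exact Subgroup.card_subgroup_dvd_card A
    have h3 : Nat.card (Multiplicative (ZMod m)) = m := by
      rw [Nat.card_congr Multiplicative.toAdd, Nat.card_zmod]
    rw [h3]
    refine Nat.Coprime.coprime_dvd_left h1 ?_
    have h4 : 4 * 2 ^ k = 2 ^ (k + 2) := by ring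
    rw [h4]
    apply Nat.Coprime.pow_left
    rw [Nat.coprime_two_left]
    exact hm
  let f : Subgroup.centralizer ({x} : Set G) →* A × Multiplicative (ZMod m) :=
    { toFun := fun c => (⟨(e c).1, by
        rw [Subgroup.mem_centralizer_singleton_iff]
        have h5 := Subgroup.mem_centralizer_singleton_iff.mp c.2
        have h6 := congrArg (fun t => (e t).1) h5
        simpa using h6⟩, (e c).2)
      map_one' := by
        apply Prod.ext
        · apply Subtype.ext; simp
        · simp
      map_mul' := by
        intro a b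
        apply Prod.ext
        · apply Subtype.ext; simp
        · simp }
  refine isCyclic_of_injective f ?_
  intro a b hab
  apply Subtype.ext
  apply e.injective
  have h7 := congrArg (fun t => t.1) hab
  have h8 := congrArg (fun t => t.2) hab
  apply Prod.ext
  · exact congrArg Subtype.val h7
  · exact h8

end Cfsg.Agent.S4370
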