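import Cfsg.Statements.S4377
set_option linter.all false

set_option autoImplicit false
open Cfsg

namespace Cfsg.Agent.S4377

theorem card_pow_eq {G : Type*} [Group G] [Finite G] {n : ℕ} (hn : n ≠ 0) :
    Nat.card {g : G // g ^ n = 1} = ∑ d ∈ n.divisors, Nat.card {g : G // orderOf g = d} := by
  classical
  haveI := Fintype.ofFinite G
  simp_rw [Nat.card_eq_fintype_card, Fintype.card_subtype]
  rw [← Finset.card_biUnion]
  · congr 1
    ext g
    simp [hn, orderOf_dvd_iff_pow_eq_one]
  · intro a _ b _ hab
    rw [Function.onFun, Finset.disjoint_left]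
    intro g hg hg'
    simp only [Finset.mem_filter, Finset.mem_univ, true_and] at hg hg'
    exact hab (hg.symm.trans hg')

/-- Two finite groups have the same number of elements of each order if and only if, for every n, they have the same number of elements g with gⁿ = 1. -/
theorem result {G H : Type*} [Group G] [Finite G] [Group H] [Finite H] :
    (∀ n : ℕ, Nat.card {g : G // orderOf g = n} = Nat.card {h : H // orderOf h = n}) ↔
      ∀ n : ℕ, Nat.card {g : G // g ^ n = 1} = Nat.card {h : H // h ^ n = 1} := by
  constructor
  · intro h n
    rcases eq_or_ne n 0 with rfl | hn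
    · have key : ∀ {K : Type _} [Group K] (m : ℕ), Nat.card K ∣ m →
          Nat.card {g : K // g ^ 0 = 1} = Nat.card {g : K // g ^ m = 1} := by
        intro K _ m hm
        refine Nat.card_congr (Equiv.subtypeEquivRight fun g => ?_)
        have : g ^ m = 1 := by
          obtain ⟨c, rfl⟩ := hm
          rw [pow_mul, pow_card_eq_one', one_pow]
        simp [this]
      have key' : ∀ {K : Type _} [Group K] (m : ℕ), Nat.card K ∣ m →
          Nat.card {g : K // g ^ 0 = 1} = Nat.card {g : K // g ^ m = 1} := by
        intro K _ m hm
        refine Nat.card_congr (Equiv.subtypeEquivRight fun g => ?_)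
        have : g ^ m = 1 := by
          obtain ⟨c, rfl⟩ := hm
          rw [pow_mul, pow_card_eq_one', one_pow]
        simp [this]
      have hne : Nat.card G * Nat.card H ≠ 0 :=
        mul_ne_zero Nat.card_pos.ne' Nat.card_pos.ne'
      rw [key (Nat.card G * Nat.card H) (dvd_mul_right _ _),
        key' (Nat.card G * Nat.card H) (dvd_mul_left _ _),
        card_pow_eq hne, card_pow_eq hne]
      exact Finset.sum_congr rfl fun d _ => h d
    · rw [card_pow_eq hn, card_pow_eq hn]
      exact Finset.sum_congr rfl fun d _ => h d
  · intro h n
    induction n using Nat.strong_induction_on with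
    | _ n ih =>
      rcases eq_or_ne n 0 with rfl | hn
      · have h1 : IsEmpty {g : G // orderOf g = 0} :=
          ⟨fun x => (orderOf_pos x.1).ne' x.2⟩
        have h2 : IsEmpty {g : H // orderOf g = 0} :=
          ⟨fun x => (orderOf_pos x.1).ne' x.2⟩
        rw [Nat.card_of_isEmpty, Nat.card_of_isEmpty]
      · have h3 := h n
        rw [card_pow_eq hn, card_pow_eq hn, ← Nat.cons_self_properDivisors hn,
          Finset.sum_cons, Finset.sum_cons] at h3
        have h4 : ∑ d ∈ n.properDivisors, Nat.card {g : G // orderOf g = d} =
            ∑ d ∈ n.properDivisors, Nat.card {g : H // orderOf g = d} :=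
          Finset.sum_congr rfl fun d hd => ih d (Nat.mem_properDivisors.1 hd).2
        omega

end Cfsg.Agent.S4377
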