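import Mathlib
import Cfsg.Statements.S4376
import Cfsg.Agent.S4377
set_option linter.all false

-- part: H579/OTFrame
section
set_option autoImplicit false

namespace Cfsg.Agent.H579.OTFrame

/-- The number of solutions of `g ^ n = 1`. -/
noncomputable def cnt (G : Type*) [Group G] (n : ℕ) : ℕ := Nat.card {g : G // g ^ n = 1}

theorem cnt_prod (G H : Type*) [Group G] [Group H] (n : ℕ) :
    cnt (G × H) n = cnt G n * cnt H n := by
  unfold cnt
  rw [← Nat.card_prod]
  refine Nat.card_congr ⟨fun x => ⟨⟨x.1.1, (Prod.ext_iff.1 x.2).1⟩, ⟨x.1.2, (Prod.ext_iff.1 x.2).2⟩⟩,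
    fun x => ⟨(x.1.1, x.2.1), Prod.ext x.1.2 x.2.2⟩, fun _ => rfl, fun _ => rfl⟩

theorem cnt_pi (G : Type*) [Group G] (k n : ℕ) :
    cnt (Fin k → G) n = cnt G n ^ k := by
  unfold cnt
  have e : {g : Fin k → G // g ^ n = 1} ≃ (Fin k → {g : G // g ^ n = 1}) :=
    ⟨fun x i => ⟨x.1 i, congrFun x.2 i⟩, fun x => ⟨fun i => (x i).1, funext fun i => (x i).2⟩,
      fun _ => rfl, fun _ => rfl⟩
  rw [Nat.card_congr e, Nat.card_fun, Nat.card_fin]

/-- A finite group with a homomorphism to `P`. -/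
structure Ov (P : Type) [Group P] : Type 1 where
  carrier : Type
  [grp : Group carrier]
  [fin : Finite carrier]
  π : carrier →* P

attribute [instance] Ov.grp Ov.fin

variable {P : Type} [Group P]

/-- The number of solutions of `x ^ n = 1` in the fibre over `g`. -/
noncomputable def Ov.cntO (Γ : Ov P) (g : P) (n : ℕ) : ℕ :=
  Nat.card {x : Γ.carrier // x ^ n = 1 ∧ Γ.π x = g}

theorem Ov.cnt_eq [Fintype P] (Γ : Ov P) (n : ℕ) :
    cnt Γ.carrier n = ∑ g : P, Γ.cntO g n := by
  unfold cnt Ov.cntO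
  have e : {x : Γ.carrier // x ^ n = 1} ≃ Σ g : P, {x : Γ.carrier // x ^ n = 1 ∧ Γ.π x = g} :=
    ⟨fun x => ⟨Γ.π x.1, x.1, x.2, rfl⟩, fun x => ⟨x.2.1, x.2.2.1⟩, fun _ => rfl, by
      rintro ⟨g, x, hx, rfl⟩; rfl⟩
  rw [Nat.card_congr e, Nat.card_sigma]

/-- The group `P` over itself. -/
def base (P : Type) [Group P] [Finite P] : Ov P := ⟨P, MonoidHom.id P⟩

theorem cntO_base [Finite P] [DecidableEq P] (g : P) (n : ℕ) :
    (base P).cntO g n = if g ^ n = 1 then 1 else 0 := by
  unfold Ov.cntO base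
  split_ifs with h
  · rw [Nat.card_eq_one_iff_unique]
    exact ⟨⟨fun x y => Subtype.ext (x.2.2.trans y.2.2.symm)⟩, ⟨⟨g, h, rfl⟩⟩⟩
  · rw [Nat.card_eq_zero]
    left
    exact ⟨fun x => h (by have h1 := x.2.1; have h2 : x.1 = g := x.2.2; rwa [h2] at h1)⟩

section Ext

variable {V : Type} [AddCommGroup V]

/-- The carrier of the extension of `Γ` by `V`. -/
structure SD (Γ : Ov P) (ρ : P →* AddMonoid.End V) where
  v : V
  x : Γ.carrier

variable {Γ : Ov P} {ρ : P →* AddMonoid.End V}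

@[ext] theorem SD.ext' {a b : SD Γ ρ} (h1 : a.v = b.v) (h2 : a.x = b.x) : a = b := by
  cases a; cases b; congr

instance SD.instMul : Mul (SD Γ ρ) := ⟨fun a b => ⟨a.v + ρ (Γ.π a.x) b.v, a.x * b.x⟩⟩
instance SD.instOne : One (SD Γ ρ) := ⟨⟨0, 1⟩⟩
instance SD.instInv : Inv (SD Γ ρ) := ⟨fun a => ⟨-(ρ (Γ.π a.x⁻¹) a.v), a.x⁻¹⟩⟩

@[simp] theorem SD.mul_v (a b : SD Γ ρ) : (a * b).v = a.v + ρ (Γ.π a.x) b.v := rfl
@[simp] theorem SD.mul_x (a b : SD Γ ρ) : (a * b).x = a.x * b.x := rfl
@[simp] theorem SD.one_v : (1 : SD Γ ρ).v = 0 := rfl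
@[simp] theorem SD.one_x : (1 : SD Γ ρ).x = 1 := rfl
@[simp] theorem SD.inv_v (a : SD Γ ρ) : (a⁻¹).v = -(ρ (Γ.π a.x⁻¹) a.v) := rfl
@[simp] theorem SD.inv_x (a : SD Γ ρ) : (a⁻¹).x = a.x⁻¹ := rfl

instance SD.instGroup : Group (SD Γ ρ) :=
  Group.ofLeftAxioms
    (by
      intro a b c
      apply SD.ext'
      · simp only [SD.mul_v, SD.mul_x, map_mul, map_add, add_assoc]
        rfl
      · simp [mul_assoc])
    (by
      intro a
      apply SD.ext'
      · simp
      · simp)
    (by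
      intro a
      apply SD.ext'
      · simp
      · simp)

/-- The equivalence with the product. -/
def SD.equiv (Γ : Ov P) (ρ : P →* AddMonoid.End V) : SD Γ ρ ≃ V × Γ.carrier :=
  ⟨fun a => (a.v, a.x), fun a => ⟨a.1, a.2⟩, fun _ => rfl, fun _ => rfl⟩

instance SD.instFinite [Finite V] : Finite (SD Γ ρ) := Finite.of_equiv _ (SD.equiv Γ ρ).symm

/-- The projection. -/
def SD.proj (Γ : Ov P) (ρ : P →* AddMonoid.End V) : SD Γ ρ →* Γ.carrier where
  toFun a := a.x
  map_one' := rfl
  map_mul' _ _ := rfl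

/-- The inclusion of the kernel. -/
def SD.incl (Γ : Ov P) (ρ : P →* AddMonoid.End V) : Multiplicative V →* SD Γ ρ where
  toFun v := ⟨v.toAdd, 1⟩
  map_one' := rfl
  map_mul' a b := by
    apply SD.ext'
    · simp
    · simp

theorem SD.isSolvable (Γ : Ov P) (ρ : P →* AddMonoid.End V) [Group.IsSolvable Γ.carrier] :
    Group.IsSolvable (SD Γ ρ) := by
  refine Group.isSolvable_of_ker_le_range (SD.incl Γ ρ) (SD.proj Γ ρ) ?_
  intro a ha
  exact ⟨Multiplicative.ofAdd a.v, SD.ext' rfl (MonoidHom.mem_ker.1 ha).symm⟩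

/-- The norm. -/
def nrm (τ : V → V) : ℕ → V → V
  | 0, _ => 0
  | n + 1, v => v + τ (nrm τ n v)

theorem SD.pow_eq (a : SD Γ ρ) (n : ℕ) :
    a ^ n = ⟨nrm (ρ (Γ.π a.x)) n a.v, a.x ^ n⟩ := by
  induction n with
  | zero =>
    rw [pow_zero]
    apply SD.ext'
    · rfl
    · simp
  | succ n ih =>
    rw [pow_succ', ih]
    apply SD.ext'
    · rfl
    · simp [pow_succ']

/-- The factor. -/
noncomputable def fac (τ : V → V) (n : ℕ) : ℕ := Nat.card {v : V // nrm τ n v = 0}

theorem nrm_eq_sum (τ : AddMonoid.End V) (n : ℕ) (v : V) :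
    nrm τ n v = ∑ i ∈ Finset.range n, (τ ^ i) v := by
  induction n with
  | zero => simp [nrm]
  | succ n ih =>
    rw [nrm, ih, map_sum, Finset.sum_range_succ', add_comm]
    congr 1
    refine Finset.sum_congr rfl fun i _ => ?_
    rw [pow_succ']
    rfl

theorem map_nrm (τ : AddMonoid.End V) (n : ℕ) (h : τ ^ n = 1) (v : V) :
    τ (nrm τ n v) = nrm τ n v := by
  have h1 : nrm τ (n + 1) v = v + τ (nrm τ n v) := rfl
  have h2 : nrm τ (n + 1) v = nrm τ n v + v := by
    rw [nrm_eq_sum, nrm_eq_sum, Finset.sum_range_succ, h]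
    rfl
  rw [h1, add_comm] at h2
  exact add_right_cancel h2

theorem fac_fpf (τ : AddMonoid.End V) (n : ℕ) (h : τ ^ n = 1)
    (hfpf : ∀ v, τ v = v → v = 0) : fac τ n = Nat.card V := by
  unfold fac
  refine Nat.card_congr (Equiv.subtypeUnivEquiv fun v => ?_)
  exact hfpf _ (map_nrm τ n h v)

theorem nrm_one (n : ℕ) (v : V) : nrm ((1 : AddMonoid.End V) : V → V) n v = n • v := by
  rw [nrm_eq_sum]
  simp

theorem fac_one_of_dvd (ℓ : ℕ) (hℓ : ∀ v : V, ℓ • v = 0) (n : ℕ) (hn : ℓ ∣ n) :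
    fac ((1 : AddMonoid.End V) : V → V) n = Nat.card V := by
  unfold fac
  refine Nat.card_congr (Equiv.subtypeUnivEquiv fun v => ?_)
  obtain ⟨k, rfl⟩ := hn
  rw [nrm_one, mul_comm, mul_nsmul, hℓ] 

theorem eq_zero_of_nsmul {ℓ : ℕ} (hp : ℓ.Prime) (hℓ : ∀ v : V, ℓ • v = 0) {n : ℕ} (hn : ¬ ℓ ∣ n)
    {v : V} (hv : n • v = 0) : v = 0 := by
  have h1 : addOrderOf v ∣ ℓ := addOrderOf_dvd_of_nsmul_eq_zero (hℓ v)
  have h2 : addOrderOf v ∣ n := addOrderOf_dvd_of_nsmul_eq_zero hv
  have h3 : Nat.Coprime ℓ n := (Nat.Prime.coprime_iff_not_dvd hp).2 hn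
  have h4 : addOrderOf v = 1 := Nat.eq_one_of_dvd_coprimes h3 h1 h2
  exact AddMonoid.addOrderOf_eq_one_iff.1 h4

theorem fac_one_of_not_dvd {ℓ : ℕ} (hp : ℓ.Prime) (hℓ : ∀ v : V, ℓ • v = 0) (n : ℕ)
    (hn : ¬ ℓ ∣ n) : fac ((1 : AddMonoid.End V) : V → V) n = 1 := by
  unfold fac
  rw [Nat.card_eq_one_iff_unique]
  refine ⟨⟨fun x y => Subtype.ext ?_⟩, ⟨⟨0, by rw [nrm_one, smul_zero]⟩⟩⟩
  have hx := x.2
  have hy := y.2
  rw [nrm_one] at hx hy
  rw [eq_zero_of_nsmul hp hℓ hn hx, eq_zero_of_nsmul hp hℓ hn hy]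

theorem nrm_mul (τ : AddMonoid.End V) {m : ℕ} (h : τ ^ m = 1) (k : ℕ) (v : V) :
    nrm τ (m * k) v = k • nrm τ m v := by
  induction k with
  | zero => simp [nrm]
  | succ k ih =>
    rw [Nat.mul_succ, nrm_eq_sum, Finset.sum_range_add, ← nrm_eq_sum, ih, succ_nsmul]
    congr 1
    rw [nrm_eq_sum]
    refine Finset.sum_congr rfl fun i _ => ?_
    rw [pow_add, pow_mul, h, one_pow, one_mul]

theorem fac_mul_of_dvd (τ : AddMonoid.End V) {m : ℕ} (h : τ ^ m = 1) {ℓ : ℕ}
    (hℓ : ∀ v : V, ℓ • v = 0) (k : ℕ) (hk : ℓ ∣ k) : fac τ (m * k) = Nat.card V := by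
  unfold fac
  refine Nat.card_congr (Equiv.subtypeUnivEquiv fun v => ?_)
  obtain ⟨k, rfl⟩ := hk
  rw [nrm_mul τ h, mul_comm ℓ k, mul_nsmul, hℓ] 

theorem fac_mul_of_not_dvd (τ : AddMonoid.End V) {m : ℕ} (h : τ ^ m = 1) {ℓ : ℕ} (hp : ℓ.Prime)
    (hℓ : ∀ v : V, ℓ • v = 0) (k : ℕ) (hk : ¬ ℓ ∣ k) : fac τ (m * k) = fac τ m := by
  unfold fac
  refine Nat.card_congr (Equiv.subtypeEquivRight fun v => ?_)
  rw [nrm_mul τ h]
  exact ⟨fun h1 => eq_zero_of_nsmul hp hℓ hk h1, fun h1 => by rw [h1, smul_zero]⟩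

section

variable [Finite V]

/-- The extension of `Γ` by `V`. -/
def Ov.ext (Γ : Ov P) (ρ : P →* AddMonoid.End V) : Ov P := ⟨SD Γ ρ, Γ.π.comp (SD.proj Γ ρ)⟩

theorem cntO_ext (Γ : Ov P) (ρ : P →* AddMonoid.End V) (g : P) (n : ℕ) :
    (Γ.ext ρ).cntO g n = fac (ρ g) n * Γ.cntO g n := by
  unfold Ov.cntO fac
  rw [← Nat.card_prod]
  refine Nat.card_congr ⟨fun a => ⟨⟨a.1.v, ?_⟩, ⟨a.1.x, ?_, ?_⟩⟩, fun a => ⟨⟨a.1.1, a.2.1⟩, ?_, ?_⟩,
    fun _ => rfl, fun _ => rfl⟩
  · have h1 := a.2.1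
    have h2 : Γ.π a.1.x = g := a.2.2
    have h3 := SD.pow_eq (Γ := Γ) (ρ := ρ) a.1 n
    rw [h2] at h3
    have h4 : (⟨nrm (ρ g) n a.1.v, a.1.x ^ n⟩ : SD Γ ρ) = 1 := h3.symm.trans h1
    exact congrArg SD.v h4
  · have h1 := a.2.1
    have h3 := SD.pow_eq (Γ := Γ) (ρ := ρ) a.1 n
    exact congrArg SD.x (h3.symm.trans h1)
  · exact a.2.2
  · have h3 := SD.pow_eq (Γ := Γ) (ρ := ρ) ⟨a.1.1, a.2.1⟩ n
    refine h3.trans ?_
    apply SD.ext'
    · change nrm (ρ (Γ.π a.2.1)) n a.1.1 = 0
      rw [a.2.2.2]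
      exact a.1.2
    · exact a.2.2.1
  · exact a.2.2.2

end

end Ext

/-- A finite `P`-module with known factors. -/
structure PMod (P : Type) [Group P] : Type 1 where
  V : Type
  [grp : AddCommGroup V]
  [fin : Finite V]
  ρ : P →* AddMonoid.End V
  F : P → ℕ → ℕ
  hF : ∀ g n, g ^ n = 1 → fac (ρ g) n = F g n

attribute [instance] PMod.grp PMod.fin

/-- The group built from a list of modules. -/
def mk [Finite P] (L : List (PMod P)) : Ov P := L.foldr (fun M Γ => Γ.ext M.ρ) (base P)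

theorem cntO_mk [Finite P] [DecidableEq P] (L : List (PMod P)) (g : P) (n : ℕ) :
    (mk L).cntO g n = if g ^ n = 1 then (L.map fun M => M.F g n).prod else 0 := by
  induction L with
  | nil => exact cntO_base g n
  | cons M L ih =>
    change ((mk L).ext M.ρ).cntO g n = _
    rw [cntO_ext, ih]
    split_ifs with h
    · rw [List.map_cons, List.prod_cons, M.hF g n h]
    · rw [mul_zero]

theorem cnt_mk [Fintype P] [DecidableEq P] (L : List (PMod P)) (n : ℕ) :
    cnt (mk L).carrier n =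
      ∑ g : P, if g ^ n = 1 then (L.map fun M => M.F g n).prod else 0 := by
  rw [Ov.cnt_eq]
  exact Finset.sum_congr rfl fun g _ => cntO_mk L g n

theorem isSolvable_mk [Finite P] [Group.IsSolvable P] (L : List (PMod P)) :
    Group.IsSolvable (mk L).carrier := by
  induction L with
  | nil => exact (inferInstance : Group.IsSolvable P)
  | cons M L ih => exact SD.isSolvable (mk L) M.ρ

/-- A base module: an elementary abelian group with an automorphism of order `m` all of whose
nontrivial powers are fixed point free. -/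
structure BM : Type 1 where
  V : Type
  [grp : AddCommGroup V]
  [fin : Finite V]
  τ : AddMonoid.End V
  m : ℕ
  ℓ : ℕ
  q : ℕ
  hm : τ ^ m = 1
  hfpf : ∀ k, ¬ m ∣ k → ∀ v, (τ ^ k) v = v → v = 0
  hp : ℓ.Prime
  hℓ : ∀ v : V, ℓ • v = 0
  hq : Nat.card V = q

attribute [instance] BM.grp BM.fin

theorem BM.pow_eq (b : BM) {i j : ℕ} (h : i % b.m = j % b.m) : b.τ ^ i = b.τ ^ j := by
  rw [← Nat.mod_add_div i b.m, ← Nat.mod_add_div j b.m, pow_add, pow_add, pow_mul, pow_mul, b.hm,
    one_pow, one_pow, h]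

/-- A module for `P` via a homomorphism to `ℤ/m`. -/
def BM.toPMod (b : BM) (lam : P → ℕ) (h : ∀ g h, lam (g * h) % b.m = (lam g + lam h) % b.m)
    (h1 : lam 1 % b.m = 0) : PMod P where
  V := b.V
  ρ :=
    { toFun := fun g => b.τ ^ lam g
      map_one' := by
        have : b.τ ^ lam 1 = b.τ ^ 0 := b.pow_eq (by rw [h1, Nat.zero_mod])
        rw [this, pow_zero]
      map_mul' := fun g k => by
        rw [← pow_add]
        exact b.pow_eq (h g k) }
  F := fun g n => if lam g % b.m = 0 then (if n % b.ℓ = 0 then b.q else 1) else b.q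
  hF := by
    intro g n hg
    change fac (b.τ ^ lam g : AddMonoid.End b.V) n = _
    by_cases hl : lam g % b.m = 0
    · have h2 : b.τ ^ lam g = 1 := by
        have : b.τ ^ lam g = b.τ ^ 0 := b.pow_eq (by rw [hl, Nat.zero_mod])
        rw [this, pow_zero]
      rw [h2, if_pos hl]
      split_ifs with hn
      · rw [fac_one_of_dvd b.ℓ b.hℓ n (Nat.dvd_of_mod_eq_zero hn), b.hq]
      · exact fac_one_of_not_dvd b.hp b.hℓ n (fun h => hn (Nat.mod_eq_zero_of_dvd h))
    · rw [if_neg hl, fac_fpf _ n _ (b.hfpf _ fun hd => hl (Nat.mod_eq_zero_of_dvd hd)), b.hq]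
      have key : ∀ n : ℕ, (b.τ ^ lam g) ^ n = b.τ ^ lam (g ^ n) := by
        intro n
        induction n with
        | zero =>
          rw [pow_zero, pow_zero, ← pow_zero b.τ]
          exact b.pow_eq (by rw [h1, Nat.zero_mod])
        | succ n ih =>
          rw [pow_succ, ih, pow_succ g n, ← pow_add]
          exact b.pow_eq (h _ _).symm
      rw [key, hg, ← pow_zero b.τ]
      exact b.pow_eq (by rw [h1, Nat.zero_mod])

/-- The endomorphism given by an additive function. -/
def endOf {V : Type} [AddCommGroup V] (f : V → V) (hadd : ∀ v w, f (v + w) = f v + f w) :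
    AddMonoid.End V := AddMonoidHom.mk' f hadd

theorem endOf_pow {V : Type} [AddCommGroup V] (f : V → V) (hadd : ∀ v w, f (v + w) = f v + f w)
    (n : ℕ) (v : V) : (endOf f hadd ^ n) v = f^[n] v := by
  rw [AddMonoid.End.coe_pow]
  rfl

/-- Constructor with decidable conditions. -/
def BM.of (V : Type) [AddCommGroup V] [Finite V] (f : V → V) (hadd : ∀ v w, f (v + w) = f v + f w)
    (m ℓ q : ℕ) (hm0 : m ≠ 0) (hm : ∀ v, f^[m] v = v)
    (hfpf : ∀ k < m, k ≠ 0 → ∀ v, f^[k] v = v → v = 0) (hp : ℓ.Prime)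
    (hℓ : ∀ v : V, ℓ • v = 0) (hq : Nat.card V = q) : BM where
  V := V
  τ := endOf f hadd
  m := m
  ℓ := ℓ
  q := q
  hm := by
    refine AddMonoidHom.ext fun v => ?_
    exact (endOf_pow f hadd m v).trans (hm v)
  hfpf := by
    intro k hk v hv
    rw [endOf_pow] at hv
    refine hfpf (k % m) (Nat.mod_lt _ (Nat.pos_of_ne_zero hm0))
      (fun h => hk (Nat.dvd_of_mod_eq_zero h)) v ?_
    conv_rhs => rw [← hv, ← Nat.mod_add_div k m, Function.iterate_add_apply, Function.iterate_mul]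
    congr 1
    symm
    generalize k / m = j
    induction j with
    | zero => rfl
    | succ j ih =>
      rw [Function.iterate_succ_apply', ih]
      exact hm v
  hp := hp
  hℓ := hℓ
  hq := hq

end Cfsg.Agent.H579.OTFrame
end

-- part: H579/OTMods
section
set_option autoImplicit false

namespace Cfsg.Agent.H579.OTMods

set_option synthInstance.maxSize 2000

open Cfsg.Agent.H579.OTFrame

/-- `ℤ/3` with inversion. -/
def b23 : BM := BM.of (ZMod 3) (fun v => -v) (fun _ _ => neg_add _ _) 2 3 3 (by decide) (by decide)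
  (by decide) (by norm_num) (by decide) (by simp)

/-- `ℤ/5` with inversion. -/
def b25 : BM := BM.of (ZMod 5) (fun v => -v) (fun _ _ => neg_add _ _) 2 5 5 (by decide) (by decide)
  (by decide) (by norm_num) (by decide) (by simp)

/-- `𝔽₄` with an automorphism of order 3. -/
def b32 : BM := BM.of (ZMod 2 × ZMod 2) (fun v => (v.2, v.1 + v.2))
  (fun v w => Prod.ext rfl (add_add_add_comm _ _ _ _)) 3 2 4 (by decide) (by decide)
  (by decide) (by norm_num) (by decide) (by simp)

/-- `𝔽₂₅` with an automorphism of order 3. -/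
def b35 : BM := BM.of (ZMod 5 × ZMod 5) (fun v => (-v.2, v.1 - v.2))
  (fun v w => Prod.ext (neg_add _ _) (add_sub_add_comm _ _ _ _)) 3 5 25 (by decide)
  (by decide +kernel) (by decide +kernel) (by norm_num) (by decide +kernel) (by simp)

/-- `𝔽₁₆` with an automorphism of order 15. -/
def b152 : BM := BM.of (ZMod 2 × ZMod 2 × ZMod 2 × ZMod 2)
  (fun v => (v.2.2.2, v.1 + v.2.2.2, v.2.1, v.2.2.1))
  (fun v w => Prod.ext rfl (Prod.ext (add_add_add_comm _ _ _ _) rfl)) 15 2 16 (by decide)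
  (by decide +kernel) (by decide +kernel) (by norm_num) (by decide +kernel) (by simp)

/-- `𝔽₈₁` with an automorphism of order 10. -/
def b103 : BM := BM.of (ZMod 3 × ZMod 3 × ZMod 3 × ZMod 3)
  (fun v => (v.2.2.2, v.2.2.2 - v.1, v.2.2.2 - v.2.1, v.2.2.2 - v.2.2.1))
  (fun v w => Prod.ext rfl (Prod.ext (add_sub_add_comm _ _ _ _) (Prod.ext
    (add_sub_add_comm _ _ _ _) (add_sub_add_comm _ _ _ _)))) 10 3 81 (by decide)
  (by decide +kernel) (by decide +kernel) (by norm_num) (by decide +kernel) (by simp)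

end Cfsg.Agent.H579.OTMods
end

-- part: H579/OTHeis
section
set_option autoImplicit false
set_option synthInstance.maxSize 2000

namespace Cfsg.Agent.H579.OTHeis

open Cfsg.Agent.H579.OTFrame

/-- The Heisenberg group modulo 3. -/
structure E27 where
  a : ZMod 3
  b : ZMod 3
  c : ZMod 3
  deriving DecidableEq

namespace E27

/-- The equivalence with the triples. -/
def equiv : E27 ≃ ZMod 3 × ZMod 3 × ZMod 3 :=
  ⟨fun x => (x.a, x.b, x.c), fun x => ⟨x.1, x.2.1, x.2.2⟩, fun _ => rfl, fun _ => rfl⟩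

instance instFintype : Fintype E27 := Fintype.ofEquiv _ equiv.symm

instance instMul : Mul E27 := ⟨fun x y => ⟨x.a + y.a, x.b + y.b, x.c + y.c + x.a * y.b⟩⟩
instance instOne : One E27 := ⟨⟨0, 0, 0⟩⟩
instance instInv : Inv E27 := ⟨fun x => ⟨-x.a, -x.b, -x.c + x.a * x.b⟩⟩

theorem mul_def (x y : E27) : x * y = ⟨x.a + y.a, x.b + y.b, x.c + y.c + x.a * y.b⟩ := rfl
theorem one_def : (1 : E27) = ⟨0, 0, 0⟩ := rfl
theorem inv_def (x : E27) : x⁻¹ = ⟨-x.a, -x.b, -x.c + x.a * x.b⟩ := rfl

instance instGroup : Group E27 :=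
  Group.ofLeftAxioms
    (by
      intro x y z
      simp only [mul_def, E27.mk.injEq]
      refine ⟨add_assoc _ _ _, add_assoc _ _ _, ?_⟩
      ring)
    (by
      intro x
      cases x
      simp [mul_def, one_def])
    (by
      intro x
      simp [mul_def, one_def, inv_def])

theorem card : Fintype.card E27 = 27 := by
  rw [Fintype.ofEquiv_card]
  rfl

theorem pow_three (x : E27) : x ^ 3 = 1 := by
  revert x
  decide +kernel

theorem isPGroup : IsPGroup 3 E27 := fun x => ⟨1, by rw [pow_one]; exact pow_three x⟩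

instance isSolvable : Group.IsSolvable E27 := by
  have h3 : Fact (Nat.Prime 3) := ⟨Nat.prime_three⟩
  have h4 : Group.IsNilpotent E27 := IsPGroup.isNilpotent isPGroup
  infer_instance

end E27

/-- Multiplication by a power of a primitive cube root of unity. -/
def om (k : ZMod 3) (v : ZMod 2 × ZMod 2) : ZMod 2 × ZMod 2 :=
  if k = 0 then v else if k = 1 then (v.2, v.1 + v.2) else (v.1 + v.2, v.1)

theorem om_add (k l : ZMod 3) (v : ZMod 2 × ZMod 2) : om (k + l) v = om k (om l v) := by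
  revert k l v; decide +kernel

theorem om_map_add (k : ZMod 3) (v w : ZMod 2 × ZMod 2) : om k (v + w) = om k v + om k w := by
  revert k v w; decide +kernel

theorem om_zero (v : ZMod 2 × ZMod 2) : om 0 v = v := rfl

/-- The module `𝔽₄³`. -/
abbrev W : Type := ZMod 3 → ZMod 2 × ZMod 2

/-- The action. -/
def T (g : E27) (f : W) : W := fun x => om (g.c + g.b * x) (f (x + g.a))

theorem T_add (g : E27) (f f' : W) : T g (f + f') = T g f + T g f' :=
  funext fun _ => om_map_add _ _ _

theorem T_one (f : W) : T 1 f = f := by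
  funext x
  simp only [T, E27.one_def, zero_mul, add_zero, om_zero]

theorem T_mul (g h : E27) (f : W) : T (g * h) f = T g (T h f) := by
  funext x
  simp only [T, E27.mul_def]
  rw [← om_add, add_assoc x]
  congr 1
  ring

/-- The representation. -/
def rho : E27 →* AddMonoid.End W where
  toFun g := endOf (T g) (T_add g)
  map_one' := AddMonoidHom.ext fun v => T_one v
  map_mul' g h := AddMonoidHom.ext fun v => T_mul g h v

theorem rho_apply (g : E27) (f : W) : rho g f = T g f := rfl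

theorem card_W : Nat.card W = 64 := by
  rw [Nat.card_eq_fintype_card]
  simp [W]

theorem two_nsmul_W (v : W) : 2 • v = 0 := by
  have key : ∀ w : ZMod 2 × ZMod 2, 2 • w = 0 := by decide
  exact funext fun x => key (v x)

theorem fac_three (g : E27) (h : ¬ (g.a = 0 ∧ g.b = 0)) : fac (T g) 3 = 16 := by
  have key : ∀ g : E27, ¬ (g.a = 0 ∧ g.b = 0) →
      Fintype.card {v : W // ∀ x, v x + (T g v) x + (T g (T g v)) x = 0} = 16 := by
    decide +kernel
  rw [← key g h, ← Nat.card_eq_fintype_card]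
  unfold fac
  refine Nat.card_congr (Equiv.subtypeEquivRight fun v => ?_)
  have h1 : nrm (T g) 3 v = v + (T g v + T g (T g v)) := by
    simp only [nrm]
    rw [show T g (0 : W) = 0 from (map_zero (rho g)), add_zero, T_add]
  rw [h1, funext_iff]
  refine forall_congr' fun x => ?_
  simp only [Pi.add_apply, Pi.zero_apply, add_assoc]

/-- The factors of `W`. -/
def FW (g : E27) (n : ℕ) : ℕ :=
  if g = 1 then (if n % 2 = 0 then 64 else 1)
  else if g.a = 0 ∧ g.b = 0 then 64
  else if n % 2 = 0 then 64 else 16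

theorem rho_pow (g : E27) (n : ℕ) (h : g ^ n = 1) : rho g ^ n = 1 := by
  rw [← map_pow, h, map_one]

theorem fac_W (g : E27) (n : ℕ) (h : g ^ n = 1) : fac (rho g) n = FW g n := by
  unfold FW
  split_ifs with h1 h2 h3 h4
  · subst h1
    rw [map_one, fac_one_of_dvd 2 two_nsmul_W n (Nat.dvd_of_mod_eq_zero h2), card_W]
  · subst h1
    rw [map_one]
    exact fac_one_of_not_dvd Nat.prime_two two_nsmul_W n (fun h => h2 (Nat.mod_eq_zero_of_dvd h))
  · rw [fac_fpf _ n (rho_pow g n h), card_W]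
    have key : ∀ g : E27, g ≠ 1 → g.a = 0 ∧ g.b = 0 → ∀ v : W, (∀ x, T g v x = v x) →
        ∀ x, v x = 0 := by
      decide +kernel
    intro v hv
    funext x
    exact key g h1 h3 v (fun x => congrFun hv x) x
  all_goals
    have hn : 3 ∣ n := by
      have h5 : g ^ (n % 3) = 1 := by
        rw [← h]
        conv_rhs => rw [← Nat.mod_add_div n 3, pow_add, pow_mul, E27.pow_three, one_pow, mul_one]
      have h6 : n % 3 < 3 := Nat.mod_lt _ (by norm_num)
      have key : ∀ g : E27, g ≠ 1 → g ^ 1 ≠ 1 ∧ g ^ 2 ≠ 1 := by decide +kernel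
      have h7 := key g h1
      rw [Nat.dvd_iff_mod_eq_zero]
      interval_cases h8 : n % 3
      · rfl
      · exact absurd h5 h7.1
      · exact absurd h5 h7.2
    obtain ⟨k, rfl⟩ := hn
  · rw [fac_mul_of_dvd (rho g) (rho_pow g 3 (E27.pow_three g)) two_nsmul_W k (by omega), card_W]
  · rw [fac_mul_of_not_dvd (rho g) (rho_pow g 3 (E27.pow_three g)) Nat.prime_two two_nsmul_W k
      (by omega)]
    exact fac_three g h3

/-- The module `W`. -/
def modW : PMod E27 where
  V := W
  ρ := rho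
  F := FW
  hF := fac_W

end Cfsg.Agent.H579.OTHeis
end

-- part: H579/OTGroups
section
set_option autoImplicit false
set_option synthInstance.maxSize 2000

namespace Cfsg.Agent.H579.OTGroups

open Cfsg.Agent.H579.OTFrame Cfsg.Agent.H579.OTMods Cfsg.Agent.H579.OTHeis

/-- The right hand side of the counting formula. -/
def S {P : Type} [Group P] [Fintype P] [DecidableEq P] (L : List (PMod P)) (n : ℕ) : ℕ :=
  ∑ g : P, if g ^ n = 1 then (L.map fun M => M.F g n).prod else 0

abbrev P2 : Type := Multiplicative (ZMod 2)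
abbrev P3 : Type := Multiplicative (ZMod 3)
abbrev P30 : Type := Multiplicative (ZMod 30)
abbrev P22 : Type := Multiplicative (ZMod 2 × ZMod 2)
abbrev P33 : Type := Multiplicative (ZMod 3 × ZMod 3)

def l2 (g : P2) : ℕ := (Multiplicative.toAdd g).val
def l3 (g : P3) : ℕ := (Multiplicative.toAdd g).val
def l30 (g : P30) : ℕ := (Multiplicative.toAdd g).val
def l22 (a b : ZMod 2) (g : P22) : ℕ :=
  (a * (Multiplicative.toAdd g).1 + b * (Multiplicative.toAdd g).2).val
def l33 (a b : ZMod 3) (g : P33) : ℕ :=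
  (a * (Multiplicative.toAdd g).1 + b * (Multiplicative.toAdd g).2).val
def l27 (a b : ZMod 3) (g : E27) : ℕ := (a * g.a + b * g.b).val

-- modules for `P2`
def m2_3 : PMod P2 := b23.toPMod l2 (by decide) (by decide)
def m2_5 : PMod P2 := b25.toPMod l2 (by decide) (by decide)
-- modules for `P3`
def m3_2 : PMod P3 := b32.toPMod l3 (by decide) (by decide)
def m3_5 : PMod P3 := b35.toPMod l3 (by decide) (by decide)
-- modules for `P30`
def m30_23 : PMod P30 := b23.toPMod l30 (by decide +kernel) (by decide)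
def m30_25 : PMod P30 := b25.toPMod l30 (by decide +kernel) (by decide)
def m30_32 : PMod P30 := b32.toPMod l30 (by decide +kernel) (by decide)
def m30_152 : PMod P30 := b152.toPMod l30 (by decide +kernel) (by decide)
def m30_103 : PMod P30 := b103.toPMod l30 (by decide +kernel) (by decide)
-- modules for `P22`
def m22_3 (a b : ZMod 2) : PMod P22 := b23.toPMod (l22 a b) (by revert a b; decide +kernel)
  (by revert a b; decide +kernel)
def m22_5 (a b : ZMod 2) : PMod P22 := b25.toPMod (l22 a b) (by revert a b; decide +kernel)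
  (by revert a b; decide +kernel)
-- modules for `P33`
def m33_2 (a b : ZMod 3) : PMod P33 := b32.toPMod (l33 a b) (by revert a b; decide +kernel)
  (by revert a b; decide +kernel)
def m33_5 (a b : ZMod 3) : PMod P33 := b35.toPMod (l33 a b) (by revert a b; decide +kernel)
  (by revert a b; decide +kernel)
-- modules for `E27`
def m27_2 (a b : ZMod 3) : PMod E27 := b32.toPMod (l27 a b) (by revert a b; decide +kernel)
  (by revert a b; decide +kernel)
def m27_5 (a b : ZMod 3) : PMod E27 := b35.toPMod (l27 a b) (by revert a b; decide +kernel)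
  (by revert a b; decide +kernel)

end Cfsg.Agent.H579.OTGroups
end

-- part: H579/OTFinal
section
set_option autoImplicit false
set_option synthInstance.maxSize 2000

namespace Cfsg.Agent.H579.OTFinal

open Cfsg.Agent.H579.OTFrame Cfsg.Agent.H579.OTMods Cfsg.Agent.H579.OTHeis
open Cfsg.Agent.H579.OTGroups

/-- A finite solvable group with a formula for the counts. -/
structure GD : Type 1 where
  carrier : Type
  [grp : Group carrier]
  [fin : Finite carrier]
  c : ℕ → ℕ
  hc : ∀ n, cnt carrier n = c n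
  hs : Group.IsSolvable carrier

attribute [instance] GD.grp GD.fin

/-- The group built from a list of modules. -/
def GD.of {P : Type} [Group P] [Fintype P] [DecidableEq P] [Group.IsSolvable P]
    (L : List (PMod P)) : GD where
  carrier := (OTFrame.mk L).carrier
  c := S L
  hc := cnt_mk L
  hs := isSolvable_mk L

theorem cnt_punit (n : ℕ) : cnt PUnit.{1} n = 1 := by
  unfold cnt
  rw [Nat.card_eq_one_iff_unique]
  exact ⟨inferInstance, ⟨⟨PUnit.unit, rfl⟩⟩⟩

/-- The trivial group. -/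
def GD.one : GD where
  carrier := PUnit.{1}
  c := fun _ => 1
  hc := cnt_punit
  hs := inferInstance

/-- The product. -/
def GD.mul (A B : GD) : GD where
  carrier := A.carrier × B.carrier
  c := fun n => A.c n * B.c n
  hc := fun n => by rw [cnt_prod, A.hc, B.hc]
  hs := by
    have h1 := A.hs
    have h2 := B.hs
    infer_instance

/-- The powers. -/
def GD.pow (A : GD) : ℕ → GD
  | 0 => GD.one
  | n + 1 => A.mul (A.pow n)

/-- The product of a list of powers. -/
def GD.prod (L : List (GD × ℕ)) : GD := L.foldr (fun x B => (x.1.pow x.2).mul B) GD.one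

theorem GD.c_pow (A : GD) (k n : ℕ) : (A.pow k).c n = A.c n ^ k := by
  induction k with
  | zero => rfl
  | succ k ih =>
    change A.c n * (A.pow k).c n = _
    rw [ih, pow_succ']

theorem GD.c_prod (L : List (GD × ℕ)) (n : ℕ) :
    (GD.prod L).c n = (L.map fun x => x.1.c n ^ x.2).prod := by
  induction L with
  | nil => rfl
  | cons x L ih =>
    change (x.1.pow x.2).c n * (GD.prod L).c n = _
    rw [ih, GD.c_pow, List.map_cons, List.prod_cons]

/-- The factors on the side of `A₅`. -/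
def listL : List (GD × ℕ) :=
  [(GD.of [m3_2], 7),
   (GD.of [m3_2, m3_2, m3_2], 2),
   (GD.of [m2_3, m2_5, m2_5], 2),
   (GD.of [m30_32, m30_32, m30_152, m30_23, m30_25], 2),
   (GD.of [m33_2 1 1, m33_2 1 1, m33_2 1 2, m33_2 1 2, m33_2 1 2, m33_2 1 2, m33_5 1 0,
      m33_5 1 1], 2),
   (GD.of [m22_3 0 1, m22_3 0 1, m22_3 1 0, m22_3 1 0, m22_3 1 1, m22_3 1 1, m22_3 1 1,
      m22_3 1 1], 2),
   (GD.of [modW, m27_2 1 2], 2),
   (GD.of [modW, m27_5 1 2], 4)]

/-- The factors of the solvable group. -/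
def listR : List (GD × ℕ) :=
  [(GD.of [m3_5], 4),
   (GD.of [m3_2, m3_2], 2),
   (GD.of [m2_3, m2_3], 2),
   (GD.of [m3_2, m3_2, m3_2, m3_2], 6),
   (GD.of [m3_2, m3_2, m3_2, m3_5], 2),
   (GD.of [m33_2 1 0, m33_2 1 1, m33_2 1 2], 2),
   (GD.of [m30_23, m30_103, m30_25], 2),
   (GD.of [m22_3 1 0, m22_3 1 1, m22_5 0 1, m22_5 1 1, m22_5 1 1], 2),
   (GD.of [modW, m27_2 1 0, m27_2 1 2], 1),
   (GD.of [modW, m27_2 1 2, m27_5 1 2], 2),
   (GD.of ([] : List (PMod P2)), 4),
   (GD.of ([] : List (PMod P3)), 8)]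

/-- The counts of `A₅`. -/
def cA5 (n : ℕ) : ℕ :=
  if n = 1 then 1 else if n = 2 then 16 else if n = 3 then 21 else if n = 5 then 25
  else if n = 6 then 36 else if n = 10 then 40 else if n = 15 then 45 else 60

/-- The relevant exponents. -/
def exps : List ℕ := [0, 1, 2, 3, 5, 6, 10, 15, 30]

theorem cnt_A5 : ∀ n ∈ exps, cnt (alternatingGroup (Fin 5)) n = cA5 n := by
  have key : ∀ n ∈ exps, Fintype.card {g : alternatingGroup (Fin 5) // g ^ n = 1} = cA5 n := by
    decide +kernel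
  intro n hn
  rw [← key n hn, ← Nat.card_eq_fintype_card]
  rfl

theorem numeric : ∀ n ∈ exps, cA5 n ^ 2 * (listL.map fun x => x.1.c n ^ x.2).prod =
    (listR.map fun x => x.1.c n ^ x.2).prod := by
  decide +kernel

theorem numeric30 : (listR.map fun x => x.1.c 0 ^ x.2).prod =
    (listR.map fun x => x.1.c 30 ^ x.2).prod := by
  decide +kernel

end Cfsg.Agent.H579.OTFinal
end

-- part: S4376
section
set_option autoImplicit false
open Cfsg

namespace Cfsg.Agent.S4376

open Cfsg.Agent.H579.OTFrame Cfsg.Agent.H579.OTFinal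

/-- The nonsolvable group. -/
abbrev HL : Type :=
  (alternatingGroup (Fin 5) × alternatingGroup (Fin 5)) × (GD.prod listL).carrier

/-- The solvable group. -/
abbrev GR : Type := (GD.prod listR).carrier

theorem cnt_HL : ∀ n ∈ exps, cnt HL n = cnt GR n := by
  intro n hn
  rw [cnt_prod, cnt_prod, cnt_A5 n hn, (GD.prod listL).hc, (GD.prod listR).hc, GD.c_prod,
    GD.c_prod, ← numeric n hn, pow_two]

theorem pow_eq_one_of_cnt {G : Type*} [Group G] [Finite G] (h : cnt G 0 = cnt G 30) (x : G) :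
    x ^ 30 = 1 := by
  unfold cnt at h
  have h1 : Nat.card {g : G // g ^ 0 = 1} = Nat.card G :=
    Nat.card_congr (Equiv.subtypeUnivEquiv fun x => pow_zero x)
  by_contra hx
  have h2 : Nat.card {g : G // g ^ 30 = 1} < Nat.card G :=
    Finite.card_subtype_lt (x := x) hx
  omega

theorem cnt_gcd {G : Type*} [Group G] [Finite G] (h : cnt G 0 = cnt G 30) (n : ℕ) :
    cnt G n = cnt G (Nat.gcd n 30) := by
  unfold cnt
  refine Nat.card_congr (Equiv.subtypeEquivRight fun x => ?_)
  constructor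
  · intro h1
    exact pow_gcd_eq_one.2 ⟨h1, pow_eq_one_of_cnt h x⟩
  · intro h1
    obtain ⟨k, hk⟩ := Nat.gcd_dvd_left n 30
    rw [hk, pow_mul, h1, one_pow]

theorem cnt_eq (n : ℕ) : cnt GR n = cnt HL n := by
  have h0 : cnt GR 0 = cnt GR 30 := by
    rw [(GD.prod listR).hc, (GD.prod listR).hc, GD.c_prod, GD.c_prod, numeric30]
  have h1 : cnt HL 0 = cnt HL 30 := by
    rw [cnt_HL 0 (by decide), cnt_HL 30 (by decide), h0]
  rw [cnt_gcd h0, cnt_gcd h1]
  have hd : Nat.gcd n 30 ∈ Nat.divisors 30 := by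
    rw [Nat.mem_divisors]
    exact ⟨Nat.gcd_dvd_right n 30, by norm_num⟩
  have hd' : Nat.gcd n 30 ∈ exps := by
    generalize Nat.gcd n 30 = d at hd
    have : ∀ d ∈ Nat.divisors 30, d ∈ exps := by decide +kernel
    exact this d hd
  exact (cnt_HL _ hd').symm

theorem not_solvable : ¬ Group.IsSolvable HL := by
  intro h
  have h1 : Group.IsSolvable (alternatingGroup (Fin 5)) := by
    refine Group.isSolvable_of_surjective (f := (MonoidHom.fst _ _).comp (MonoidHom.fst
      (alternatingGroup (Fin 5) × alternatingGroup (Fin 5)) (GD.prod listL).carrier)) ?_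
    intro x
    exact ⟨((x, 1), 1), rfl⟩
  have h2 : Group.IsSolvable (Equiv.Perm (Fin 5)) := by
    have h3 : Group.IsSolvable ℤˣ := inferInstance
    refine Group.isSolvable_of_ker_le_range (alternatingGroup (Fin 5)).subtype
      (Equiv.Perm.sign (α := Fin 5)) ?_
    rw [Subgroup.range_subtype]
    exact le_rfl
  exact Equiv.Perm.not_isSolvable_fin_5 h2

/-- There are finite groups G and H having the same number of elements of each order (the same order type) with G solvable and H not solvable. -/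
theorem result :
    ∃ (G : Type) (_ : Group G) (_ : Finite G) (H : Type) (_ : Group H) (_ : Finite H),
      Group.IsSolvable G ∧ ¬ Group.IsSolvable H ∧ ∀ n : ℕ, Nat.card {g : G // orderOf g = n} = Nat.card {h : H // orderOf h = n} := by
  refine ⟨GR, inferInstance, inferInstance, HL, inferInstance, inferInstance,
    (GD.prod listR).hs, not_solvable, ?_⟩
  exact Cfsg.Agent.S4377.result.2 cnt_eq

end Cfsg.Agent.S4376
end
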