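import Cfsg.Statements.S4385
import Cfsg.Agent.H581.SimsF
set_option linter.all false

set_option autoImplicit false
open Pointwise
open Cfsg

namespace Cfsg.Agent.S4385

open Cfsg.Agent.H581.Sims in
/-- Let H be a subgroup of a finite group G whose largest normal 2-subgroup O_2(H) is nontrivial and such that H/O_2(H) is a dihedral group of order at least 4. Let P be a Sylow 2-subgroup of H and S a Sylow 2-subgroup of G containing P. Suppose y ∈ S lies outside P, normalizes P, has y² in the product of P with the centralizer of P in G, and normalizes no non-identity normal subgroup of H contained in P. Then P has order 4, 8 or 16, and H modulo its largest normal subgroup of odd order is isomorphic to the four-group, to the symmetric group of degree 4, or to the direct product of the symmetric group of degree 4 with a group of order 2. -/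
theorem result {G : Type*} [Group G] [Finite G]
    (H : Subgroup G) (hO : Cfsg.pCore 2 ↥H ≠ ⊥) (n : ℕ) (hn : 2 ≤ n) (hdih : Nonempty (↥H ⧸ Cfsg.pCore 2 ↥H ≃* DihedralGroup n))
    (P : Subgroup G) (hPH : P ≤ H) (hP : IsPGroup 2 P) (hPsyl : ¬ 2 ∣ P.relIndex H)
    (S : Sylow 2 G) (hPS : P ≤ (S : Subgroup G)) (y : G) (hyS : y ∈ (S : Subgroup G)) (hyP : y ∉ P)
    (hy2 : y ^ 2 ∈ P ⊔ Subgroup.centralizer (P : Set G)) (hyN : MulAut.conj y • P = P)
    (hyQ : ∀ Q : Subgroup G, Q ≤ P → (Q.subgroupOf H).Normal → MulAut.conj y • Q = Q → Q = ⊥) :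
    (Nat.card P = 4 ∨ Nat.card P = 8 ∨ Nat.card P = 16) ∧
    (Nonempty (↥H ⧸ Cfsg.oddCore ↥H ≃* Multiplicative (ZMod 2) × Multiplicative (ZMod 2)) ∨
     Nonempty (↥H ⧸ Cfsg.oddCore ↥H ≃* Equiv.Perm (Fin 4)) ∨
     Nonempty (↥H ⧸ Cfsg.oddCore ↥H ≃* Equiv.Perm (Fin 4) × Multiplicative (ZMod 2))) := by
  obtain ⟨-, hcard, hcases⟩ := dihedral_final H n hn hdih P hPH hP hPsyl y hyN (by
    intro X hX hHX hyX
    -- `y²` normalises `X`
    have hy2X : y ^ 2 ∈ Subgroup.normalizer (X : Set G) := by
      refine (sup_le (hPH.trans hHX) ?_ : P ⊔ Subgroup.centralizer (P : Set G) ≤ _) hy2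
      refine le_trans (Subgroup.centralizer_le hX) ?_
      exact Subgroup.centralizer_le_normalizer _
    have h1 : MulAut.conj y • X = MulAut.conj y⁻¹ • X := by
      have h2 : MulAut.conj (y ^ 2) • X = X := conj_smul_eq_of_mem hy2X
      rw [pow_two, map_mul, ← smul_smul] at h2
      have h3 : MulAut.conj y⁻¹ • (MulAut.conj y • (MulAut.conj y • X)) = MulAut.conj y⁻¹ • X := by rw [h2]
      rwa [smul_smul (MulAut.conj y⁻¹), ← map_mul, inv_mul_cancel, map_one, one_smul] at h3
    have hHX' : H ≤ Subgroup.normalizer ((MulAut.conj y • X : Subgroup G) : Set G) := by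
      rw [h1, ← smul_normalizer]
      have h3 := Subgroup.pointwise_smul_le_pointwise_smul_iff (a := MulAut.conj y⁻¹) |>.2 hyX
      rwa [smul_smul, ← map_mul, inv_mul_cancel, map_one, one_smul] at h3
    have hyXP : MulAut.conj y • X ≤ P := by
      have h3 := Subgroup.pointwise_smul_le_pointwise_smul_iff (a := MulAut.conj y) |>.2 hX
      rwa [hyN] at h3
    have hle : X ⊔ MulAut.conj y • X ≤ P := sup_le hX hyXP
    have hnorm : H ≤ Subgroup.normalizer ((X ⊔ MulAut.conj y • X : Subgroup G) : Set G) := by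
      intro h hh
      refine mem_normalizer_of_conj_smul_eq ?_
      rw [Subgroup.smul_sup, conj_smul_eq_of_mem (hHX hh), conj_smul_eq_of_mem (hHX' hh)]
    have h4 := hyQ (X ⊔ MulAut.conj y • X) hle
      ((Subgroup.normal_subgroupOf_iff_le_normalizer (hle.trans hPH)).2 hnorm) (by
        rw [Subgroup.smul_sup]
        have h5 : MulAut.conj y • MulAut.conj y • X = X := by
          conv_lhs => rw [h1]
          rw [smul_smul, ← map_mul, mul_inv_cancel, map_one, one_smul]
        rw [h5, sup_comm])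
    rw [eq_bot_iff, ← h4]
    exact le_sup_left)
  have hne : Nat.card P ≠ 2 := by
    intro h
    apply hO
    rw [← Subgroup.card_eq_one]
    omega
  rcases hcases with h | ⟨h, h'⟩ | ⟨h, h'⟩ | ⟨h, h'⟩
  · exact absurd h hne
  · exact ⟨Or.inl h, Or.inl h'⟩
  · exact ⟨Or.inr (Or.inl h), Or.inr (Or.inl h')⟩
  · exact ⟨Or.inr (Or.inr h), Or.inr (Or.inr h')⟩

end Cfsg.Agent.S4385
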