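import Mathlib
import Cfsg.Agent.H584.MaxClass
import Cfsg.Agent.H584.Sect
import Cfsg.Agent.SmallSimple.OrderEight
import Cfsg.Statements.S4398
set_option linter.all false

-- part: H584/Eight
section
/-!
# Nonabelian subgroups of order 8 in 2-groups

* `Eight H a b z`: the multiplication facts of a nonabelian group `H` of order 8 generated by `a`, `b` with centre `{1, z}`.
* `maxClass_of_selfcent_eight`: if a 2-group `S` has such a subgroup with `C_S(H) ≤ H`, then `S` is of maximal class.
* `dsq_of_selfcent_eight`.
* `centralizer_le_of_rank_two`: if `S` has sectional rank at most 2 then `C_S(H) ≤ H`.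
-/

set_option autoImplicit false

namespace Cfsg.Agent.H584.Eight

open Subgroup Cfsg Cfsg.Agent.TwoFusion.SectionalRank

universe u

/-- `a`, `b`, `z` are the standard elements of a nonabelian group of order 8. -/
structure Std {D : Type*} [Group D] (a b z : D) : Prop where
  zz : z * z = 1
  z1 : z ≠ 1
  ab : a * b = z * (b * a)
  cz : ∀ x, x * z = z * x
  comm : ∀ x y : D, x * y * x⁻¹ * y⁻¹ = 1 ∨ x * y * x⁻¹ * y⁻¹ = z
  sq : ∀ x : D, x * x = 1 ∨ x * x = z
  cen : ∀ x : D, x * a = a * x → x * b = b * x → x = 1 ∨ x = z
  gen : ∀ x : D, ∃ i j k : Fin 2, x = a ^ (i : ℕ) * b ^ (j : ℕ) * z ^ (k : ℕ)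

theorem std_dihedral : Std (DihedralGroup.r 1 : DihedralGroup 4) (DihedralGroup.sr 0) (DihedralGroup.r 2) where
  zz := by decide
  z1 := by decide
  ab := by decide
  cz := by decide
  comm := by decide
  sq := by decide
  cen := by decide
  gen := by decide

theorem std_quaternion : Std (QuaternionGroup.a 1 : QuaternionGroup 2) (QuaternionGroup.xa 0) (QuaternionGroup.a 2) where
  zz := by decide
  z1 := by decide
  ab := by decide
  cz := by decide
  comm := by decide
  sq := by decide
  cen := by decide
  gen := by decide

/-- The same inside a subgroup. -/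
structure IsEight {S : Type*} [Group S] (H : Subgroup S) (a b z : S) : Prop where
  aH : a ∈ H
  bH : b ∈ H
  zH : z ∈ H
  card : Nat.card H = 8
  zz : z * z = 1
  z1 : z ≠ 1
  ab : a * b = z * (b * a)
  cz : ∀ x ∈ H, x * z = z * x
  comm : ∀ x ∈ H, ∀ y ∈ H, x * y * x⁻¹ * y⁻¹ = 1 ∨ x * y * x⁻¹ * y⁻¹ = z
  sq : ∀ x ∈ H, x * x = 1 ∨ x * x = z
  cen : ∀ x ∈ H, x * a = a * x → x * b = b * x → x = 1 ∨ x = z
  gen : ∀ x ∈ H, ∃ i j k : Fin 2, x = a ^ (i : ℕ) * b ^ (j : ℕ) * z ^ (k : ℕ)

theorem isEight_of_std {S D : Type*} [Group S] [Group D] {H : Subgroup S} (hH : Nat.card H = 8) (e : H ≃* D)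
    {a b z : D} (h : Std a b z) : IsEight H (e.symm a : S) (e.symm b : S) (e.symm z : S) where
  aH := (e.symm a).2
  bH := (e.symm b).2
  zH := (e.symm z).2
  card := hH
  zz := by
    rw [← Subgroup.coe_mul, ← map_mul, h.zz, map_one, Subgroup.coe_one]
  z1 := by
    intro h1
    apply h.z1
    have h2 : e.symm z = 1 := Subtype.ext h1
    exact (MulEquiv.map_eq_one_iff e.symm).1 h2
  ab := by
    rw [← Subgroup.coe_mul, ← Subgroup.coe_mul, ← Subgroup.coe_mul, ← map_mul, ← map_mul, ← map_mul, h.ab]
  cz := by
    intro x hx
    have h1 := h.cz (e ⟨x, hx⟩)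
    have h2 := congrArg e.symm h1
    rw [map_mul, map_mul, e.symm_apply_apply] at h2
    exact congrArg Subtype.val h2
  comm := by
    intro x hx y hy
    rcases h.comm (e ⟨x, hx⟩) (e ⟨y, hy⟩) with h1 | h1
    · left
      have h2 := congrArg e.symm h1
      simp only [map_mul, map_inv, e.symm_apply_apply, map_one] at h2
      exact congrArg Subtype.val h2
    · right
      have h2 := congrArg e.symm h1
      simp only [map_mul, map_inv, e.symm_apply_apply] at h2
      exact congrArg Subtype.val h2
  sq := by
    intro x hx
    rcases h.sq (e ⟨x, hx⟩) with h1 | h1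
    · left
      have h2 := congrArg e.symm h1
      simp only [map_mul, e.symm_apply_apply, map_one] at h2
      exact congrArg Subtype.val h2
    · right
      have h2 := congrArg e.symm h1
      simp only [map_mul, e.symm_apply_apply] at h2
      exact congrArg Subtype.val h2
  cen := by
    intro x hx h1 h2
    have h3 : e ⟨x, hx⟩ * a = a * e ⟨x, hx⟩ := by
      apply e.symm.injective
      rw [map_mul, map_mul, e.symm_apply_apply]
      exact Subtype.ext h1
    have h4 : e ⟨x, hx⟩ * b = b * e ⟨x, hx⟩ := by
      apply e.symm.injective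
      rw [map_mul, map_mul, e.symm_apply_apply]
      exact Subtype.ext h2
    rcases h.cen _ h3 h4 with h5 | h5
    · left
      have h6 := congrArg e.symm h5
      rw [e.symm_apply_apply, map_one] at h6
      exact congrArg Subtype.val h6
    · right
      have h6 := congrArg e.symm h5
      rw [e.symm_apply_apply] at h6
      exact congrArg Subtype.val h6
  gen := by
    intro x hx
    obtain ⟨i, j, k, h1⟩ := h.gen (e ⟨x, hx⟩)
    refine ⟨i, j, k, ?_⟩
    have h2 := congrArg e.symm h1
    simp only [map_mul, map_pow, e.symm_apply_apply] at h2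
    exact congrArg Subtype.val h2

theorem exists_isEight {S : Type*} [Group S] {H : Subgroup S}
    (h : Nonempty (↥H ≃* DihedralGroup 4) ∨ Nonempty (↥H ≃* QuaternionGroup 2)) :
    ∃ a b z : S, IsEight H a b z := by
  rcases h with ⟨⟨e⟩⟩ | ⟨⟨e⟩⟩
  · refine ⟨_, _, _, isEight_of_std ?_ e std_dihedral⟩
    rw [Nat.card_congr e.toEquiv, DihedralGroup.nat_card]
  · refine ⟨_, _, _, isEight_of_std ?_ e std_quaternion⟩
    rw [Nat.card_congr e.toEquiv, Nat.card_eq_fintype_card, QuaternionGroup.card]

theorem exists_isEight_of_card {S : Type*} [Group S] {H : Subgroup S} (hH : Nat.card H = 8)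
    (hna : ¬ IsMulCommutative H) : ∃ a b z : S, IsEight H a b z :=
  exists_isEight (Cfsg.Agent.SmallSimple.OrderEight.dihedral_or_quaternion_of_card_eight hH hna)

namespace IsEight

variable {S : Type u} [Group S] {H : Subgroup S} {a b z : S}

theorem zinv (h : IsEight H a b z) : z⁻¹ = z := inv_eq_of_mul_eq_one_left h.zz

/-- An element commuting with `a` and `b` centralizes `H`. -/
theorem mem_centralizer (h : IsEight H a b z) {x : S} (ha : x * a = a * x) (hb : x * b = b * x) :
    x ∈ centralizer (H : Set S) := by
  have hz : x * z = z * x := by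
    have h1 : z = a * b * a⁻¹ * b⁻¹ := by rw [h.ab]; group
    have ha' : Commute x a := ha
    have hb' : Commute x b := hb
    rw [h1]
    exact ((ha'.mul_right hb').mul_right ha'.inv_right).mul_right hb'.inv_right
  rw [mem_centralizer_iff]
  intro y hy
  obtain ⟨i, j, k, rfl⟩ := h.gen y hy
  have h1 : Commute x (a ^ (i : ℕ) * b ^ (j : ℕ) * z ^ (k : ℕ)) :=
    (((show Commute x a from ha).pow_right _).mul_right ((show Commute x b from hb).pow_right _)).mul_right
      ((show Commute x z from hz).pow_right _)
  exact h1.eq.symm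

theorem elemSection (h : IsEight H a b z) : ElemSection 2 H (zpowers z) where
  le := zpowers_le.2 h.zH
  comm x hx y hy := by
    rcases h.comm x hx y hy with h1 | h1
    · rw [h1]; exact one_mem _
    · rw [h1]; exact mem_zpowers z
  pow x hx := by
    rw [pow_two]
    rcases h.sq x hx with h1 | h1
    · rw [h1]; exact one_mem _
    · rw [h1]; exact mem_zpowers z

theorem mem_zpowers_iff (h : IsEight H a b z) {x : S} : x ∈ zpowers z ↔ x = 1 ∨ x = z := by
  constructor
  · intro hx
    obtain ⟨k, rfl⟩ := Subgroup.mem_zpowers_iff.1 hx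
    rcases Int.even_or_odd' k with ⟨l, rfl | rfl⟩
    · left
      rw [zpow_mul]
      have : z ^ (2 : ℤ) = 1 := by rw [zpow_ofNat, pow_two, h.zz]
      rw [this, one_zpow]
    · right
      rw [zpow_add, zpow_mul, zpow_one]
      have : z ^ (2 : ℤ) = 1 := by rw [zpow_ofNat, pow_two, h.zz]
      rw [this, one_zpow, one_mul]
  · rintro (rfl | rfl)
    · exact one_mem _
    · exact mem_zpowers _

theorem card_zpowers (h : IsEight H a b z) : Nat.card (zpowers z) = 2 := by
  rw [Nat.card_zpowers]
  exact orderOf_eq_prime (by rw [pow_two, h.zz]) h.z1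

/-- In a 2-group of sectional rank at most 2 a nonabelian subgroup of order 8 contains its centralizer. -/
theorem centralizer_le_of_rank_two [Finite S] (h : IsEight H a b z) (h2 : IsPGroup 2 S)
    (hr : SectionalPRankLE 2 2 S) : centralizer (H : Set S) ≤ H := by
  intro x hx
  by_contra hxH
  obtain ⟨j, hj1, hj2⟩ := Sect.exists_sq_mem h2 H x hxH
  set y := x ^ (2 ^ j) with hy
  have hyc : y ∈ centralizer (H : Set S) := pow_mem hx _
  have hyy : y * y ∈ zpowers z := by
    rw [h.mem_zpowers_iff]
    rw [pow_two] at hj2
    have h3 : y * y ∈ centralizer (H : Set S) := mul_mem hyc hyc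
    exact h.cen _ hj2 ((mem_centralizer_iff.1 h3 a h.aH).symm) ((mem_centralizer_iff.1 h3 b h.bH).symm)
  have h1 := Sect.card_le_of_section hr h.elemSection y ?_ hyy hj1
  · rw [h.card, h.card_zpowers] at h1
    omega
  · intro m hm
    rw [← mem_centralizer_iff.1 hyc m hm]
    simp

/-- If `C_S(H) ≤ H` then `Z(S) = ⟨z⟩`. -/
theorem center_eq [Finite S] (h : IsEight H a b z) (h2 : IsPGroup 2 S)
    (hC : centralizer (H : Set S) ≤ H) : center S = zpowers z := by
  have h1 : center S ≤ zpowers z := by
    intro x hx
    rw [h.mem_zpowers_iff]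
    have hxH : x ∈ H := hC (center_le_centralizer _ hx)
    exact h.cen x hxH ((mem_center_iff.1 hx a).symm) ((mem_center_iff.1 hx b).symm)
  have : Nontrivial S := ⟨⟨z, 1, h.z1⟩⟩
  haveI : Fact (Nat.Prime 2) := ⟨Nat.prime_two⟩
  have h3 := h2.center_nontrivial
  apply le_antisymm h1
  apply (Subgroup.eq_of_le_of_card_ge h1 _).ge
  rw [h.card_zpowers]
  exact Finite.one_lt_card

/-- A 2-group with a nonabelian subgroup of order 8 containing its centralizer is of maximal class. -/
theorem maxClass [Finite S] (h : IsEight H a b z) (n : ℕ) (hS : Nat.card S = 2 ^ n)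
    (hC : centralizer (H : Set S) ≤ H) : Group.nilpotencyClass S = n - 1 := by
  haveI : Fact (Nat.Prime 2) := ⟨Nat.prime_two⟩
  have h2 : IsPGroup 2 S := IsPGroup.of_card hS
  haveI : Group.IsNilpotent S := h2.isNilpotent
  haveI : Nontrivial S := ⟨⟨z, 1, h.z1⟩⟩
  have hZ := h.center_eq h2 hC
  have hn : 3 ≤ n := by
    have h3 : Nat.card H ∣ Nat.card S := card_subgroup_dvd_card H
    rw [h.card, hS, show 8 = 2 ^ 3 by norm_num] at h3
    exact (Nat.pow_dvd_pow_iff_le_right (by norm_num)).1 h3
  have hZcard : Nat.card (center S) = 2 ^ 1 := by rw [hZ, h.card_zpowers, pow_one]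
  have hQ : Nat.card (S ⧸ center S) = 2 ^ (n - 1) :=
    (Cfsg.Agent.Transfer.MaximalClass.card_quotient_center (p := 2) hS hZcard).2
  -- the image of `H` is self-centralizing of order 4
  set π := QuotientGroup.mk' (center S) with hπ
  have hle : center S ≤ H := by rw [hZ]; exact zpowers_le.2 h.zH
  have hAcard : Nat.card (H.map π) = 2 ^ 2 := by
    have h3 : Nat.card (H.map π) * Nat.card (center S) = Nat.card H := by
      have h4 := Subgroup.card_mul_index (H.map π)
      have h5 : (H.map π).index = H.index := by
        rw [index_map_eq _ (QuotientGroup.mk'_surjective _)]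
        rw [QuotientGroup.ker_mk']
        exact hle
      have h6 := Subgroup.card_mul_index H
      rw [h5, hQ] at h4
      rw [hS] at h6
      have h7 : 2 ^ n = 2 ^ (n - 1) * 2 := by rw [← pow_succ]; congr 1; omega
      rw [h7, ← h4] at h6
      rw [hZcard, pow_one]
      have h8 : 0 < H.index := Nat.pos_of_ne_zero H.index_ne_zero_of_finite
      have h9 : Nat.card H * H.index = (Nat.card (H.map π) * 2) * H.index := by
        rw [h6]; ring
      exact (Nat.eq_of_mul_eq_mul_right h8 h9).symm
    rw [hZcard, h.card] at h3
    omega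
  have hcent : Subgroup.centralizer (H.map π : Set (S ⧸ center S)) = H.map π := by
    apply le_antisymm
    · intro q hq
      obtain ⟨x, rfl⟩ := QuotientGroup.mk_surjective q
      rw [mem_centralizer_iff] at hq
      have key : ∀ m ∈ H, m * x * m⁻¹ * x⁻¹ = 1 ∨ m * x * m⁻¹ * x⁻¹ = z := by
        intro m hm
        have h3 := hq (π m) (mem_map_of_mem π hm)
        have h4 : m * x * m⁻¹ * x⁻¹ ∈ center S := by
          rw [← QuotientGroup.eq_one_iff]
          change (m : S ⧸ center S) * x = x * m at h3
          rw [QuotientGroup.mk_mul, QuotientGroup.mk_mul, QuotientGroup.mk_mul, h3,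
            QuotientGroup.mk_inv, QuotientGroup.mk_inv]
          group
        rw [hZ, h.mem_zpowers_iff] at h4
        exact h4
      have hzc : z ∈ center S := by rw [hZ]; exact mem_zpowers z
      have hzx : ∀ g : S, g * z = z * g := fun g => mem_center_iff.1 hzc g
      -- `a x = x a` or `a x = z x a`
      have ka : a * x = x * a ∨ a * x = z * (x * a) := by
        rcases key a h.aH with h3 | h3
        · left
          calc a * x = (a * x * a⁻¹ * x⁻¹) * (x * a) := by group
            _ = x * a := by rw [h3, one_mul]
        · right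
          calc a * x = (a * x * a⁻¹ * x⁻¹) * (x * a) := by group
            _ = z * (x * a) := by rw [h3]
      have kb : b * x = x * b ∨ b * x = z * (x * b) := by
        rcases key b h.bH with h3 | h3
        · left
          calc b * x = (b * x * b⁻¹ * x⁻¹) * (x * b) := by group
            _ = x * b := by rw [h3, one_mul]
        · right
          calc b * x = (b * x * b⁻¹ * x⁻¹) * (x * b) := by group
            _ = z * (x * b) := by rw [h3]
      have hba : b * a = z * (a * b) := by
        rw [h.ab, ← mul_assoc, h.zz, one_mul]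
      suffices hx : x ∈ H from mem_map_of_mem π hx
      rcases ka with ka | ka <;> rcases kb with kb | kb
      · exact hC (h.mem_centralizer ka.symm kb.symm)
      · -- `b x = z x b`, use `x * a`
        have h3 : x * a ∈ centralizer (H : Set S) := by
          apply h.mem_centralizer
          · rw [← mul_assoc, ka]
          · calc x * a * b = x * (a * b) := by group
              _ = x * (z * (b * a)) := by rw [h.ab]
              _ = (x * z) * (b * a) := by group
              _ = (z * x) * (b * a) := by rw [hzx]
              _ = (z * (x * b)) * a := by group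
              _ = b * x * a := by rw [kb]
              _ = b * (x * a) := by group
        have h4 := hC h3
        exact (Subgroup.mul_mem_cancel_right H h.aH).1 h4
      · have h3 : x * b ∈ centralizer (H : Set S) := by
          apply h.mem_centralizer
          · calc x * b * a = x * (b * a) := by group
              _ = x * (z * (a * b)) := by rw [hba]
              _ = (x * z) * (a * b) := by group
              _ = (z * x) * (a * b) := by rw [hzx]
              _ = (z * (x * a)) * b := by group
              _ = a * x * b := by rw [ka]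
              _ = a * (x * b) := by group
          · rw [← mul_assoc, kb]
        have h4 := hC h3
        exact (Subgroup.mul_mem_cancel_right H h.bH).1 h4
      · have h3 : x * (a * b) ∈ centralizer (H : Set S) := by
          apply h.mem_centralizer
          · calc x * (a * b) * a = x * a * (b * a) := by group
              _ = x * a * (z * (a * b)) := by rw [hba]
              _ = x * (a * z) * (a * b) := by group
              _ = x * (z * a) * (a * b) := by rw [hzx]
              _ = (x * z) * (a * (a * b)) := by group
              _ = (z * x) * (a * (a * b)) := by rw [hzx]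
              _ = z * (x * a) * (a * b) := by group
              _ = a * x * (a * b) := by rw [ka]
              _ = a * (x * (a * b)) := by group
          · calc x * (a * b) * b = x * (z * (b * a)) * b := by rw [h.ab]
              _ = (x * z) * (b * a * b) := by group
              _ = (z * x) * (b * a * b) := by rw [hzx]
              _ = (z * (x * b)) * (a * b) := by group
              _ = b * x * (a * b) := by rw [kb]
              _ = b * (x * (a * b)) := by group
        have h4 := hC h3
        exact (Subgroup.mul_mem_cancel_right H (mul_mem h.aH h.bH)).1 h4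
    · rintro _ ⟨x, hx, rfl⟩
      rw [mem_centralizer_iff]
      rintro _ ⟨y, hy, rfl⟩
      rw [← map_mul, ← map_mul, hπ, QuotientGroup.mk'_apply, QuotientGroup.mk'_apply, QuotientGroup.eq]
      rw [hZ, h.mem_zpowers_iff]
      rcases h.comm x⁻¹ (inv_mem hx) y⁻¹ (inv_mem hy) with h3 | h3
      · left; rw [← h3]; group
      · right; rw [← h3]; group
  have hcl := Cfsg.Agent.S0112.result (p := 2) (n - 1) hQ (H.map π) hAcard hcent
  rw [Group.nilpotencyClass_eq_quotient_center_plus_one, hcl]
  omega

theorem dsq [Finite S] (h : IsEight H a b z) (h2 : IsPGroup 2 S)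
    (hC : centralizer (H : Set S) ≤ H) : MaxClass.DSQ S := by
  obtain ⟨n, hS⟩ := IsPGroup.iff_card.1 h2
  have hn : 3 ≤ n := by
    have h3 : Nat.card H ∣ Nat.card S := card_subgroup_dvd_card H
    rw [h.card, hS, show 8 = 2 ^ 3 by norm_num] at h3
    exact (Nat.pow_dvd_pow_iff_le_right (by norm_num)).1 h3
  exact MaxClass.dsq_of_maxClass n hn hS (h.maxClass n hS hC)

end IsEight

end Cfsg.Agent.H584.Eight
end

-- part: S4398
section
set_option autoImplicit false
open Cfsg

namespace Cfsg.Agent.S4398

/-- Let S be a finite 2-group of sectional 2-rank at most 2 that contains a subgroup isomorphic to the dihedral group of order 8 or to the quaternion group of order 8. Then S is dihedral of order at least 8, semidihedral of order at least 16 (order 2^(k+4) with an element a of order 2^(k+3) and an involution b with b a b⁻¹ = a^(2^(k+2)−1)), or generalized quaternion of order at least 8. -/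
theorem result {S : Type*} [Group S] [Finite S] (h2 : IsPGroup 2 S) (hr : Cfsg.SectionalPRankLE 2 2 S)
    (hsub : ∃ H : Subgroup S, Nonempty (↥H ≃* DihedralGroup 4) ∨ Nonempty (↥H ≃* QuaternionGroup 2)) :
    ((∃ k : ℕ, Nonempty (S ≃* DihedralGroup (2 ^ (k + 2)))) ∨
      (∃ k : ℕ, Nat.card S = 2 ^ (k + 4) ∧ ∃ a b : S, orderOf a = 2 ^ (k + 3) ∧ orderOf b = 2 ∧ b * a * b⁻¹ = a ^ (2 ^ (k + 2) - 1)) ∨
      (∃ k : ℕ, Nonempty (S ≃* QuaternionGroup (2 ^ (k + 1))))) := by
  obtain ⟨H, hH⟩ := hsub
  obtain ⟨a, b, z, h⟩ := Cfsg.Agent.H584.Eight.exists_isEight hH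
  exact h.dsq h2 (h.centralizer_le_of_rank_two h2 hr)

end Cfsg.Agent.S4398
end
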