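import Mathlib
import Cfsg.Agent.H584.Pair
import Cfsg.Statements.S4401
set_option linter.all false

-- part: H584/Index
section
/-!
# The statement behind S4401

`S` a 2-group of sectional rank at most 4, `P` nonabelian with centre `⟨z⟩` of order 2, `P` normalized by
`S₀ = C_S(z)`: then `S₀ = S`, or `P` has sectional rank at most 2 and `|S : S₀| = 2`.
-/

set_option autoImplicit false

namespace Cfsg.Agent.H584.Index

open Subgroup Cfsg Cfsg.Agent.TwoFusion.SectionalRank Cfsg.Agent.H584.Pair

universe u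

variable {S : Type u} [Group S]

theorem mem_conj {P : Subgroup S} {g x : S} :
    x ∈ P.map (MulAut.conj g).toMonoidHom ↔ g⁻¹ * x * g ∈ P := by
  constructor
  · rintro ⟨y, hy, rfl⟩
    have : g⁻¹ * ((MulAut.conj g).toMonoidHom y) * g = y := by
      change g⁻¹ * (g * y * g⁻¹) * g = y
      group
    rw [this]
    exact hy
  · intro h
    refine ⟨_, h, ?_⟩
    change g * (g⁻¹ * x * g) * g⁻¹ = x
    group

theorem CenGen.conj {P : Subgroup S} {z : S} (hz : CenGen P z) (g : S) :
    CenGen (P.map (MulAut.conj g).toMonoidHom) (g * z * g⁻¹) where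
  mem := ⟨z, hz.mem, rfl⟩
  ne := by
    intro h
    apply hz.ne
    calc z = g⁻¹ * (g * z * g⁻¹) * g := by group
      _ = 1 := by rw [h]; group
  sq := by
    calc g * z * g⁻¹ * (g * z * g⁻¹) = g * (z * z) * g⁻¹ := by group
      _ = 1 := by rw [hz.sq]; group
  comm := by
    rintro _ ⟨x, hx, rfl⟩
    change g * x * g⁻¹ * (g * z * g⁻¹) = g * z * g⁻¹ * (g * x * g⁻¹)
    calc g * x * g⁻¹ * (g * z * g⁻¹) = g * (x * z) * g⁻¹ := by group
      _ = g * (z * x) * g⁻¹ := by rw [hz.comm x hx]
      _ = g * z * g⁻¹ * (g * x * g⁻¹) := by group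
  uniq := by
    rintro _ ⟨x, hx, rfl⟩ hc
    change g * x * g⁻¹ = 1 ∨ g * x * g⁻¹ = g * z * g⁻¹
    have h1 : ∀ y ∈ P, y * x = x * y := by
      intro y hy
      have h3 := hc _ ⟨y, hy, rfl⟩
      change g * y * g⁻¹ * (g * x * g⁻¹) = g * x * g⁻¹ * (g * y * g⁻¹) at h3
      calc y * x = g⁻¹ * (g * y * g⁻¹ * (g * x * g⁻¹)) * g := by group
        _ = g⁻¹ * (g * x * g⁻¹ * (g * y * g⁻¹)) * g := by rw [h3]
        _ = x * y := by group
    rcases hz.uniq x hx h1 with rfl | rfl
    · left; group
    · right; rfl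

theorem na_conj {P : Subgroup S} (h : ∃ a ∈ P, ∃ b ∈ P, a * b ≠ b * a) (g : S) :
    ∃ a ∈ P.map (MulAut.conj g).toMonoidHom, ∃ b ∈ P.map (MulAut.conj g).toMonoidHom, a * b ≠ b * a := by
  obtain ⟨a, ha, b, hb, hab⟩ := h
  refine ⟨_, ⟨a, ha, rfl⟩, _, ⟨b, hb, rfl⟩, ?_⟩
  intro h
  apply hab
  change g * a * g⁻¹ * (g * b * g⁻¹) = g * b * g⁻¹ * (g * a * g⁻¹) at h
  calc a * b = g⁻¹ * (g * a * g⁻¹ * (g * b * g⁻¹)) * g := by group
    _ = g⁻¹ * (g * b * g⁻¹ * (g * a * g⁻¹)) * g := by rw [h]
    _ = b * a := by group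

/-- Conjugates of `P` by elements normalizing `S₀` are normalized by `S₀`. -/
theorem normalized_conj {P S₀ : Subgroup S} (hP : ∀ s ∈ S₀, ∀ x ∈ P, s * x * s⁻¹ ∈ P) {g : S}
    (hg : g ∈ normalizer (S₀ : Set S)) :
    ∀ s ∈ S₀, ∀ x ∈ P.map (MulAut.conj g).toMonoidHom, s * x * s⁻¹ ∈ P.map (MulAut.conj g).toMonoidHom := by
  intro s hs x hx
  rw [mem_conj] at hx ⊢
  have h1 : g⁻¹ * s * g ∈ S₀ := by
    have h3 := inv_mem hg
    rw [mem_normalizer_iff] at h3
    have h4 := (h3 s).1 hs
    rwa [inv_inv] at h4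
  have h5 := hP _ h1 _ hx
  have h6 : g⁻¹ * s * g * (g⁻¹ * x * g) * (g⁻¹ * s * g)⁻¹ = g⁻¹ * (s * x * s⁻¹) * g := by group
  rwa [h6] at h5

variable [Finite S]

/-- Sectional rank of `P` when `P` commutes with a conjugate which it meets trivially. -/
theorem rank_le_two (hr : SectionalPRankLE 2 4 S) {P : Subgroup S} (g : S)
    (hc : ∀ p ∈ P, ∀ q ∈ P.map (MulAut.conj g).toMonoidHom, p * q = q * p)
    (hd : P ⊓ P.map (MulAut.conj g).toMonoidHom = ⊥) : SectionalPRankLE 2 2 ↥P := by
  rw [sectionalPRankLE_iff]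
  intro X Y hXY
  set X1 := X.map P.subtype with hX1
  set Y1 := Y.map P.subtype with hY1
  have hX1P : X1 ≤ P := by
    rintro _ ⟨x, _, rfl⟩
    exact x.2
  have hs1 : ElemSection 2 X1 Y1 := hXY.map P.subtype
  have hs2 := hs1.map (MulAut.conj g).toMonoidHom
  have hle2 : X1.map (MulAut.conj g).toMonoidHom ≤ P.map (MulAut.conj g).toMonoidHom := map_mono hX1P
  have hcx : ∀ p ∈ X1, ∀ q ∈ X1.map (MulAut.conj g).toMonoidHom, p * q = q * p := fun p hp q hq =>
    hc p (hX1P hp) q (hle2 hq)
  have hdx : X1 ⊓ X1.map (MulAut.conj g).toMonoidHom = ⊥ := by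
    rw [eq_bot_iff, ← hd]
    exact inf_le_inf hX1P hle2
  have h1 := sectionalPRankLE_iff.1 hr _ _ (elemSection_prod hcx hs1 hs2)
  rw [card_sup_eq hcx hdx] at h1
  have h3 := card_sup_le (P := Y1) (Q := Y1.map (MulAut.conj g).toMonoidHom)
    (fun p hp q hq => hcx p (hs1.le hp) q (hs2.le hq))
  have hinj : Function.Injective (MulAut.conj g).toMonoidHom := (MulAut.conj g).injective
  rw [card_map_of_injective hinj] at h1 h3
  have hcX : Nat.card X1 = Nat.card X := card_map_of_injective P.subtype_injective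
  have hcY : Nat.card Y1 = Nat.card Y := card_map_of_injective P.subtype_injective
  rw [hcX] at h1
  rw [hcY] at h3
  have h4 : Nat.card X * Nat.card X ≤ (2 ^ 2 * Nat.card Y) * (2 ^ 2 * Nat.card Y) := by
    calc Nat.card X * Nat.card X ≤ 2 ^ 4 * Nat.card (Y1 ⊔ Y1.map (MulAut.conj g).toMonoidHom : Subgroup S) := h1
      _ ≤ 2 ^ 4 * (Nat.card Y * Nat.card Y) := Nat.mul_le_mul_left _ h3
      _ = (2 ^ 2 * Nat.card Y) * (2 ^ 2 * Nat.card Y) := by ring
  exact Nat.mul_self_le_mul_self_iff.1 h4

theorem main (h2 : IsPGroup 2 S) (hr : SectionalPRankLE 2 4 S) {P S₀ : Subgroup S} {z : S}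
    (hz : CenGen P z) (hna : ∃ a ∈ P, ∃ b ∈ P, a * b ≠ b * a)
    (hS₀ : ∀ x, x ∈ S₀ ↔ x * z = z * x) (hPn : ∀ s ∈ S₀, ∀ x ∈ P, s * x * s⁻¹ ∈ P) :
    S₀ = ⊤ ∨ (SectionalPRankLE 2 2 ↥P ∧ S₀.index = 2) := by
  have : Fact (Nat.Prime 2) := ⟨Nat.prime_two⟩
  have hnil : Group.IsNilpotent S := h2.isNilpotent
  have hPS : P ≤ S₀ := fun x hx => (hS₀ x).2 (hz.comm x hx)
  by_cases htop : S₀ = ⊤
  · exact Or.inl htop
  right
  -- the normalizer `T` of `S₀`
  set T := normalizer (S₀ : Set S) with hT
  have hlt : S₀ < T := Group.normalizerCondition_of_isNilpotent S₀ (lt_top_iff_ne_top.2 htop)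
  obtain ⟨g, hgT, hgS⟩ := SetLike.exists_of_lt hlt
  set Pg := P.map (MulAut.conj g).toMonoidHom with hPg
  set z' := g * z * g⁻¹ with hz'
  have hzg : CenGen Pg z' := CenGen.conj hz g
  have hnag := na_conj hna g
  have hPgn := normalized_conj hPn hgT
  have hconjS : ∀ t ∈ T, ∀ s ∈ S₀, t * s * t⁻¹ ∈ S₀ := fun t ht s hs => (mem_normalizer_iff.1 ht s).1 hs
  have hPuS : ∀ u ∈ T, P.map (MulAut.conj u).toMonoidHom ≤ S₀ := by
    rintro u hu _ ⟨x, hx, rfl⟩
    exact hconjS u hu x (hPS hx)
  have hcz : ∀ u v : S, u * z * u⁻¹ = v * z * v⁻¹ → u⁻¹ * v ∈ S₀ := by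
    intro u v h
    rw [hS₀]
    calc u⁻¹ * v * z = u⁻¹ * (v * z * v⁻¹) * v := by group
      _ = u⁻¹ * (u * z * u⁻¹) * v := by rw [h]
      _ = z * (u⁻¹ * v) := by group
  have hzz' : z ≠ z' := by
    intro h
    apply hgS
    have h3 := hcz 1 g (by simpa using h)
    simpa using h3
  have hcomm := commute_pair h2 hz hzg hzz' hPS (hPuS g hgT) hPn hPgn
  have hinf := inf_eq_bot h2 hz hzg hzz' hPS (hPuS g hgT) hPn hPgn
  refine ⟨rank_le_two hr g hcomm hinf, ?_⟩
  -- centralizer of `P` and `Pg`
  have hcent : ∀ x, (∀ p ∈ P, x * p = p * x) → (∀ p ∈ Pg, x * p = p * x) → x ∈ P ⊔ Pg := fun x h3 h4 =>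
    centralizer_pair h2 hr hz hzg hzz' hPS (hPuS g hgT) hPn hPgn hna hnag h3 h4
  have hcent' : ∀ x, (∀ p ∈ P, x * p = p * x) → (∀ p ∈ Pg, x * p = p * x) →
      x = 1 ∨ x = z ∨ x = z' ∨ x = z * z' := by
    intro x h3 h4
    obtain ⟨p, hp, q, hq, hpq⟩ := mem_sup_of_comm hcomm (hcent x h3 h4)
    have hp' : p = 1 ∨ p = z := by
      apply hz.uniq p hp
      intro y hy
      have h5 := h3 y hy
      have h6 := hcomm y hy q hq
      rw [hpq] at h5
      have h7 : p * y * q = y * p * q := by
        calc p * y * q = p * (y * q) := by group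
          _ = p * (q * y) := by rw [h6]
          _ = p * q * y := by group
          _ = y * (p * q) := h5
          _ = y * p * q := by group
      exact (mul_right_cancel h7).symm
    have hq' : q = 1 ∨ q = z' := by
      apply hzg.uniq q hq
      intro y hy
      have h5 := h4 y hy
      have h6 := hcomm p hp y hy
      rw [hpq] at h5
      have h7 : p * (q * y) = p * (y * q) := by
        calc p * (q * y) = p * q * y := by group
          _ = y * (p * q) := h5
          _ = y * p * q := by group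
          _ = p * y * q := by rw [h6]
          _ = p * (y * q) := by group
      exact (mul_left_cancel h7).symm
    rcases hp' with rfl | rfl <;> rcases hq' with rfl | rfl
    · left; rw [hpq, one_mul]
    · right; right; left; rw [hpq, one_mul]
    · right; left; rw [hpq, mul_one]
    · right; right; right; exact hpq
  -- two conjugates of `z` under `T`
  have htwo : ∀ u ∈ T, u * z * u⁻¹ = z ∨ u * z * u⁻¹ = z' := by
    intro u hu
    by_contra hcon
    push Not at hcon
    obtain ⟨hc1, hc2⟩ := hcon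
    have hzu := CenGen.conj hz u
    have hnau := na_conj hna u
    have hPun := normalized_conj hPn hu
    have hcu1 := commute_pair h2 hz hzu hc1.symm hPS (hPuS u hu) hPn hPun
    have hcu2 := commute_pair h2 hzg hzu hc2.symm (hPuS g hgT) (hPuS u hu) hPgn hPun
    obtain ⟨a, ha, b, hb, hab⟩ := hnau
    apply hab
    have hb' : b ∈ P ⊔ Pg := hcent b (fun p hp => (hcu1 p hp b hb).symm) (fun p hp => (hcu2 p hp b hb).symm)
    obtain ⟨p, hp, q, hq, hpq⟩ := mem_sup_of_comm hcomm hb'
    rw [hpq, ← mul_assoc, ← hcu1 p hp a ha, mul_assoc, ← hcu2 q hq a ha, mul_assoc]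
  have hcosT : ∀ u ∈ T, u ∈ S₀ ∨ g⁻¹ * u ∈ S₀ := by
    intro u hu
    rcases htwo u hu with h | h
    · left
      rw [hS₀]
      exact mul_inv_eq_iff_eq_mul.1 h
    · right
      exact hcz g u h.symm
  -- `T = S`
  have hTtop : T = ⊤ := by
    by_contra hTne
    have hltT : T < normalizer (T : Set S) :=
      Group.normalizerCondition_of_isNilpotent T (lt_top_iff_ne_top.2 hTne)
    obtain ⟨u, huN, huT⟩ := SetLike.exists_of_lt hltT
    have hconjT : ∀ t ∈ T, u * t * u⁻¹ ∈ T := fun t ht => (mem_normalizer_iff.1 huN t).1 ht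
    have hconjT' : ∀ t ∈ T, u⁻¹ * t * u ∈ T := by
      intro t ht
      have h3 := (mem_normalizer_iff.1 (inv_mem huN) t).1 ht
      rwa [inv_inv] at h3
    have hST : S₀ ≤ T := hlt.le
    have hzS : z ∈ S₀ := hPS hz.mem
    have hz'S : z' ∈ S₀ := hconjS g hgT z hzS
    have hzz'c : z * z' = z' * z := ((hS₀ z').1 hz'S).symm
    set c := z * z' with hc
    have hz'sq : z' * z' = 1 := hzg.sq
    have hcsq : c * c = 1 := by
      rw [hc]
      calc z * z' * (z * z') = z * (z' * z) * z' := by group
        _ = z * (z * z') * z' := by rw [← hzz'c]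
        _ = (z * z) * (z' * z') := by group
        _ = 1 := by rw [hz.sq, hz'sq, one_mul]
    have hc1 : c ≠ 1 := by
      intro h
      apply hzz'
      have h3 : z = z'⁻¹ := eq_inv_of_mul_eq_one_left h
      rw [h3]
      exact inv_eq_of_mul_eq_one_left hz'sq
    -- `g` swaps
    have hgz' : g * z' * g⁻¹ = z := by
      rcases htwo (g * g) (mul_mem hgT hgT) with h | h
      · rw [← h]; rw [hz']; group
      · exfalso
        apply hgS
        have h3 := hcz g (g * g) h.symm
        have h4 : g⁻¹ * (g * g) = g := by group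
        rwa [h4] at h3
    -- `c` is centralized by `T`
    have hcT : ∀ t ∈ T, t * c = c * t := by
      have h3 : ∀ t ∈ S₀, t * z' = z' * t := by
        intro t ht
        exact hzg.comm_of_normalizes (hPgn t ht) (by
          intro x hx
          have h3 := hPgn t⁻¹ (inv_mem ht) x hx
          rwa [inv_inv] at h3)
      have h4 : ∀ t ∈ S₀, t * c = c * t := by
        intro t ht
        calc t * c = (t * z) * z' := by rw [hc]; group
          _ = (z * t) * z' := by rw [(hS₀ t).1 ht]
          _ = z * (t * z') := by group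
          _ = z * (z' * t) := by rw [h3 t ht]
          _ = c * t := by rw [hc]; group
      have h5 : g * c = c * g := by
        have : g * c * g⁻¹ = c := by
          calc g * c * g⁻¹ = (g * z * g⁻¹) * (g * z' * g⁻¹) := by rw [hc]; group
            _ = z' * z := by rw [hgz']
            _ = c := hzz'c.symm
        exact mul_inv_eq_iff_eq_mul.1 this
      intro t ht
      rcases hcosT t ht with h | h
      · exact h4 t h
      · have h6 := h4 _ h
        calc t * c = g * (g⁻¹ * t * c) := by group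
          _ = g * (c * (g⁻¹ * t)) := by rw [h6]
          _ = (g * c) * (g⁻¹ * t) := by group
          _ = (c * g) * (g⁻¹ * t) := by rw [h5]
          _ = c * t := by group
    -- uniqueness of `c`
    have hZT : ∀ x, (∀ t ∈ T, t * x = x * t) → x = 1 ∨ x = c := by
      intro x hx
      rcases hcent' x (fun p hp => (hx p (hST (hPS hp))).symm)
        (fun p hp => (hx p (hST (hPuS g hgT hp))).symm) with h | h | h | h
      · exact Or.inl h
      · exfalso
        subst h
        exact hgS ((hS₀ g).2 (hx g hgT))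
      · exfalso
        have h3 := hx g hgT
        rw [h] at h3
        have h4 : g * z' * g⁻¹ = z' := by rw [h3]; group
        rw [hgz'] at h4
        exact hzz' h4
      · exact Or.inr h
    have huc : u * c * u⁻¹ = c := by
      have hcc : ∀ t ∈ T, t * (u * c * u⁻¹) = (u * c * u⁻¹) * t := by
        intro t ht
        have h3 := hcT _ (hconjT' t ht)
        calc t * (u * c * u⁻¹) = u * (u⁻¹ * t * u * c) * u⁻¹ := by group
          _ = u * (c * (u⁻¹ * t * u)) * u⁻¹ := by rw [h3]
          _ = u * c * u⁻¹ * t := by group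
      rcases hZT (u * c * u⁻¹) hcc with h | h
      · exfalso
        apply hc1
        calc c = u⁻¹ * (u * c * u⁻¹) * u := by group
          _ = 1 := by rw [h]; group
      · exact h
    set y := u * z * u⁻¹ with hy
    have hyT : y ∈ T := hconjT z (hST hzS)
    have huz' : u * z' * u⁻¹ = y * c := by
      have h3 : z' = z * c := by rw [hc, ← mul_assoc, hz.sq, one_mul]
      calc u * z' * u⁻¹ = u * (z * c) * u⁻¹ := by rw [← h3]
        _ = (u * z * u⁻¹) * (u * c * u⁻¹) := by group
        _ = y * c := by rw [huc]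
    -- conjugates of `y` under `T`
    have hyconj : ∀ t ∈ T, t * y * t⁻¹ = y ∨ t * y * t⁻¹ = y * c := by
      intro t ht
      have h3 : t * y * t⁻¹ = u * ((u⁻¹ * t * u) * z * (u⁻¹ * t * u)⁻¹) * u⁻¹ := by
        rw [hy]; group
      rcases htwo _ (hconjT' t ht) with h | h
      · left; rw [h3, h]
      · right; rw [h3, h, huz']
    have hcP : c ∉ P := by
      intro h
      have h3 : z' ∈ P := by
        have h4 : z' = z * c := by rw [hc, ← mul_assoc, hz.sq, one_mul]
        rw [h4]
        exact mul_mem hz.mem h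
      have h5 : z' ∈ P ⊓ Pg := ⟨h3, hzg.mem⟩
      rw [hinf, mem_bot] at h5
      exact hzg.ne h5
    have hcPg : c ∉ Pg := by
      intro h
      have h3 : z ∈ Pg := by
        have h4 : z = c * z' := by rw [hc, mul_assoc, hz'sq, mul_one]
        rw [h4]
        exact mul_mem h hzg.mem
      have h5 : z ∈ P ⊓ Pg := ⟨hz.mem, h3⟩
      rw [hinf, mem_bot] at h5
      exact hz.ne h5
    have hynez : y ≠ z := by
      intro h
      apply huT
      apply hST
      rw [hS₀]
      exact mul_inv_eq_iff_eq_mul.1 h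
    have hynez' : y ≠ z' := by
      intro h
      apply huT
      have h3 := hcz g u h.symm
      have h4 := mul_mem hgT (hST h3)
      have h5 : g * (g⁻¹ * u) = u := by group
      rwa [h5] at h4
    by_cases hyS : y ∈ S₀
    · -- case A
      have hyP : ∀ p ∈ P, y * p = p * y := by
        intro p hp
        rcases hyconj p (hST (hPS hp)) with h | h
        · exact (mul_inv_eq_iff_eq_mul.1 h).symm
        · exfalso
          apply hcP
          have h3 : y⁻¹ * (p * y * p⁻¹) = c := by rw [h]; group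
          rw [← h3]
          have h4 : y⁻¹ * p * y ∈ P := by
            have := hPn y⁻¹ (inv_mem hyS) p hp
            rwa [inv_inv] at this
          have h5 := mul_mem h4 (inv_mem hp)
          have h6 : y⁻¹ * p * y * p⁻¹ = y⁻¹ * (p * y * p⁻¹) := by group
          rwa [h6] at h5
      have hyPg : ∀ p ∈ Pg, y * p = p * y := by
        intro p hp
        rcases hyconj p (hST (hPuS g hgT hp)) with h | h
        · exact (mul_inv_eq_iff_eq_mul.1 h).symm
        · exfalso
          apply hcPg
          have h3 : y⁻¹ * (p * y * p⁻¹) = c := by rw [h]; group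
          rw [← h3]
          have h4 : y⁻¹ * p * y ∈ Pg := by
            have := hPgn y⁻¹ (inv_mem hyS) p hp
            rwa [inv_inv] at this
          have h5 := mul_mem h4 (inv_mem hp)
          have h6 : y⁻¹ * p * y * p⁻¹ = y⁻¹ * (p * y * p⁻¹) := by group
          rwa [h6] at h5
      rcases hcent' y hyP hyPg with h | h | h | h
      · apply hz.ne
        calc z = u⁻¹ * y * u := by rw [hy]; group
          _ = 1 := by rw [h]; group
      · exact hynez h
      · exact hynez' h
      · -- `y = c`, so `z = c`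
        have h3 : z = c := by
          calc z = u⁻¹ * y * u := by rw [hy]; group
            _ = u⁻¹ * (u * c * u⁻¹) * u := by rw [h, huc]
            _ = c := by group
        have h4 : z' = 1 := by
          have : z * 1 = z * z' := by rw [mul_one]; exact h3
          exact (mul_left_cancel this).symm
        exact hzg.ne h4
    · -- case B
      have hyg : g⁻¹ * y ∈ S₀ := (hcosT y hyT).resolve_left hyS
      have hyP : ∀ p ∈ P, y * p * y⁻¹ ∈ Pg := by
        intro p hp
        refine ⟨(g⁻¹ * y) * p * (g⁻¹ * y)⁻¹, hPn _ hyg p hp, ?_⟩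
        change g * ((g⁻¹ * y) * p * (g⁻¹ * y)⁻¹) * g⁻¹ = y * p * y⁻¹
        group
      obtain ⟨a, ha, b, hb, hab⟩ := hna
      have hall : ∀ p ∈ P, p = 1 ∨ p = z := by
        intro p hp
        have h3 := hyconj p⁻¹ (hST (hPS (inv_mem hp)))
        rw [inv_inv] at h3
        rcases h3 with h | h
        · left
          have h4 : y * p * y⁻¹ = p := by
            calc y * p * y⁻¹ = p * (p⁻¹ * y * p) * y⁻¹ := by group
              _ = p := by rw [h]; group
          have h5 : p ∈ P ⊓ Pg := ⟨hp, by rw [← h4]; exact hyP p hp⟩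
          rwa [hinf, mem_bot] at h5
        · right
          have h4 : y * p * y⁻¹ = p * c := by
            have hyc : y * c * y⁻¹ = c := by rw [hcT y hyT]; group
            calc y * p * y⁻¹ = p * (p⁻¹ * y * p) * y⁻¹ := by group
              _ = p * (y * c) * y⁻¹ := by rw [h]
              _ = p * (y * c * y⁻¹) := by group
              _ = p * c := by rw [hyc]
          have h5 : p * z ∈ Pg := by
            have h6 : p * z = (y * p * y⁻¹) * z' := by
              rw [h4, hc]
              calc p * z = p * z * (z' * z') := by rw [hz'sq, mul_one]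
                _ = p * (z * z') * z' := by group
            rw [h6]
            exact mul_mem (hyP p hp) hzg.mem
          have h7 : p * z ∈ P ⊓ Pg := ⟨mul_mem hp hz.mem, h5⟩
          rw [hinf, mem_bot] at h7
          have h8 : p = z⁻¹ := eq_inv_of_mul_eq_one_left h7
          rw [h8]
          exact inv_eq_of_mul_eq_one_left hz.sq
      apply hab
      rcases hall a ha with rfl | rfl
      · rw [one_mul, mul_one]
      · exact (hz.comm b hb).symm
  -- index 2
  rw [index_eq_two_iff_exists_notMem_and]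
  refine ⟨g, hgS, ?_⟩
  intro b
  have hbT : b ∈ T := by rw [hTtop]; trivial
  rcases hcosT b⁻¹ (inv_mem hbT) with h | h
  · right
    exact inv_mem_iff.1 h
  · left
    have h3 := inv_mem h
    have h4 : (g⁻¹ * b⁻¹)⁻¹ = b * g := by group
    rwa [h4] at h3

end Cfsg.Agent.H584.Index
end

-- part: S4401
section
set_option autoImplicit false
open Cfsg

namespace Cfsg.Agent.S4401

/-- Let S be a finite 2-group of sectional 2-rank at most 4 and P a proper non-abelian subgroup whose centre has order 2. Let S₀ be the centralizer in S of Z(P) and suppose P is normal in S₀. Then either S₀ = S, or P has sectional 2-rank at most 2 and S₀ has index 2 in S. -/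
theorem result {S : Type*} [Group S] [Finite S] (h2 : IsPGroup 2 S) (hr : Cfsg.SectionalPRankLE 2 4 S)
    (P : Subgroup S) (hPlt : P ≠ ⊤) (hP : ¬ IsMulCommutative ↥P) (hZP : Nat.card ↥(Subgroup.center ↥P) = 2)
    (S₀ : Subgroup S) (hS₀ : S₀ = Subgroup.centralizer (((Subgroup.center ↥P).map P.subtype : Subgroup S) : Set S))
    (hPn : ∀ s ∈ S₀, ∀ x ∈ P, s * x * s⁻¹ ∈ P) :
    S₀ = ⊤ ∨ (Cfsg.SectionalPRankLE 2 2 ↥P ∧ S₀.index = 2) := by
  obtain ⟨z, hz, hzm⟩ := Cfsg.Agent.H584.Pair.exists_gen hZP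
  have hna : ∃ a ∈ P, ∃ b ∈ P, a * b ≠ b * a := by
    by_contra hcon
    push Not at hcon
    exact hP ⟨⟨fun a b => Subtype.ext (hcon a a.2 b b.2)⟩⟩
  refine Cfsg.Agent.H584.Index.main h2 hr hz hna ?_ hPn
  intro x
  rw [hS₀, hzm, Subgroup.mem_centralizer_iff]
  constructor
  · intro h
    exact (h z (Subgroup.mem_zpowers z)).symm
  · rintro h _ ⟨k, rfl⟩
    exact ((show Commute x z from h).zpow_right k).eq.symm

end Cfsg.Agent.S4401
end
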