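import Mathlib
import Cfsg.Agent.Lib.DihedralRecog
import Cfsg.Agent.Transfer.TausskyTwoGroup
import Cfsg.Agent.H584.Sect
import Cfsg.Statements.S4402
set_option linter.all false

-- part: H584/WrModel
section
/-!
# A concrete model `W` of `D₈ ≀ C₂` (order 128)

* `W`: triples `(p, q, s)` with `p q : DihedralGroup 4`, `s : Bool`.
* `Rel a b t`: the defining relations; `lift : W →* G`.
* `injective_of_ne`: a homomorphism from `W` which does not kill the central involution `wz` is injective.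
* `mulEquiv_of_rel`: a group of order 128 generated by `a, b, t` with `Rel a b t` is isomorphic to `W`.
* `exists_sylow`: `W` is isomorphic to (every) Sylow 2-subgroup of `Perm (Fin 8)`.
-/

set_option autoImplicit false

namespace Cfsg.Agent.H584.WrModel

open Subgroup Cfsg.Agent.Lib.DihedralRecog

/-- The dihedral group of order 8. -/
abbrev D := DihedralGroup 4

/-- `D₈ ≀ C₂` -/
@[ext] structure W where
  p : D
  q : D
  s : Bool
deriving DecidableEq

namespace W

def equivProd : W ≃ D × D × Bool where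
  toFun w := (w.p, w.q, w.s)
  invFun x := ⟨x.1, x.2.1, x.2.2⟩
  left_inv _ := rfl
  right_inv _ := rfl

instance instFintypeW : Fintype W := Fintype.ofEquiv _ equivProd.symm

instance instMulW : Mul W := ⟨fun x y => ⟨x.p * (bif x.s then y.q else y.p), x.q * (bif x.s then y.p else y.q), xor x.s y.s⟩⟩

instance instOneW : One W := ⟨⟨1, 1, false⟩⟩

instance instInvW : Inv W := ⟨fun x => ⟨(bif x.s then x.q else x.p)⁻¹, (bif x.s then x.p else x.q)⁻¹, x.s⟩⟩

theorem mul_def (x y : W) :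
    x * y = ⟨x.p * (bif x.s then y.q else y.p), x.q * (bif x.s then y.p else y.q), xor x.s y.s⟩ := rfl

theorem one_def : (1 : W) = ⟨1, 1, false⟩ := rfl

theorem inv_def (x : W) : x⁻¹ = ⟨(bif x.s then x.q else x.p)⁻¹, (bif x.s then x.p else x.q)⁻¹, x.s⟩ := rfl

instance instGroupW : Group W := Group.ofLeftAxioms
  (by
    rintro ⟨p, q, s⟩ ⟨p', q', s'⟩ ⟨p'', q'', s''⟩
    cases s <;> cases s' <;> cases s'' <;> simp [mul_def, mul_assoc])
  (by
    rintro ⟨p, q, s⟩
    simp [mul_def, one_def])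
  (by
    rintro ⟨p, q, s⟩
    cases s <;> simp [mul_def, one_def, inv_def])

theorem card_W : Nat.card W = 2 ^ 7 := by
  rw [Nat.card_congr equivProd, Nat.card_prod, Nat.card_prod, DihedralGroup.nat_card, Nat.card_eq_fintype_card,
    Fintype.card_bool]
  norm_num

theorem isPGroup_W : IsPGroup 2 W := IsPGroup.of_card card_W

/-- standard elements -/
def wa : W := ⟨.sr 0, 1, false⟩
def wb : W := ⟨.sr 1, 1, false⟩
def wc : W := ⟨1, .sr 0, false⟩
def wd : W := ⟨1, .sr 1, false⟩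
def wt : W := ⟨1, 1, true⟩
def wz1 : W := ⟨.r 2, 1, false⟩
def wz2 : W := ⟨1, .r 2, false⟩
def wz : W := ⟨.r 2, .r 2, false⟩

/-- the centre of `W` -/
theorem center_le (x : W) (hx : ∀ y : W, x * y = y * x) : x = 1 ∨ x = wz := by
  have h1 := hx wa
  have h2 := hx wb
  have h3 := hx wt
  clear hx
  obtain ⟨p, q, s⟩ := x
  revert p q s
  decide

theorem injective_of_ne {G : Type*} [Group G] (f : W →* G) (h : f wz ≠ 1) : Function.Injective f := by
  have : Fact (Nat.Prime 2) := ⟨Nat.prime_two⟩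
  rw [← MonoidHom.ker_eq_bot_iff]
  by_contra hne
  obtain ⟨x, hx, hxc, hx1⟩ := Cfsg.Agent.Transfer.TausskyTwoGroup.exists_ne_one_mem_inf_center
    (p := 2) isPGroup_W f.ker hne
  rcases center_le x (fun y => (mem_center_iff.1 hxc y).symm) with h1 | h1
  · exact hx1 h1
  · rw [h1] at hx
    exact h hx

end W

open W

/-- The relations of `D₈ ≀ C₂` on generators `a`, `b`, `t`. -/
structure Rel {G : Type*} [Group G] (a b t : G) : Prop where
  aa : a * a = 1
  bb : b * b = 1
  tt : t * t = 1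
  ab : (a * b) ^ 4 = 1
  ac : a * (t * a * t) = t * a * t * a
  ad : a * (t * b * t) = t * b * t * a
  bc : b * (t * a * t) = t * a * t * b
  bd : b * (t * b * t) = t * b * t * b

theorem rel_W : Rel wa wb wt where
  aa := by decide
  bb := by decide
  tt := by decide
  ab := by decide
  ac := by decide
  ad := by decide
  bc := by decide
  bd := by decide

section lift

variable {G : Type*} [Group G] {a b t : G} (h : Rel a b t)
include h

theorem Rel.inv_conj : a * (a * b) * a⁻¹ = (a * b)⁻¹ := by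
  have ha : a⁻¹ = a := inv_eq_of_mul_eq_one_left h.aa
  have hb : b⁻¹ = b := inv_eq_of_mul_eq_one_left h.bb
  rw [mul_inv_rev, ha, hb, ← mul_assoc, h.aa, one_mul]

/-- the homomorphism on the first factor -/
def Rel.dl : D →* G := dihedralHom (a * b) a h.ab h.aa h.inv_conj

theorem Rel.dl_a : h.dl (.sr 0) = a := by
  rw [Rel.dl, dihedralHom_sr, zpw_zero, mul_one]

theorem Rel.dl_b : h.dl (.sr 1) = b := by
  rw [Rel.dl, dihedralHom_sr, zpw_one, ← mul_assoc, h.aa, one_mul]

omit h in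
theorem D_gen (p : D) : p ∈ closure ({.sr 0, .sr 1} : Set D) := by
  have h0 : (.sr 0 : D) ∈ closure ({.sr 0, .sr 1} : Set D) := subset_closure (by simp)
  have h1 : (.sr 1 : D) ∈ closure ({.sr 0, .sr 1} : Set D) := subset_closure (by simp)
  have hr : (.r 1 : D) ∈ closure ({.sr 0, .sr 1} : Set D) := by
    have := mul_mem h0 h1
    exact this
  have key : ∀ p : D, ∃ i : Fin 2, ∃ j : Fin 4, p = (.sr 0) ^ (i : ℕ) * (.r 1) ^ (j : ℕ) := by decide
  obtain ⟨i, j, hp⟩ := key p
  rw [hp]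
  exact mul_mem (pow_mem h0 _) (pow_mem hr _)

theorem Rel.comm (p q : D) : h.dl p * (t * h.dl q * t) = t * h.dl q * t * h.dl p := by
  have ht : t⁻¹ = t := inv_eq_of_mul_eq_one_left h.tt
  -- `t · t` as a homomorphism
  let f : D →* G := (MulAut.conj t).toMonoidHom.comp h.dl
  have hf : ∀ q, f q = t * h.dl q * t := by
    intro q
    change t * h.dl q * t⁻¹ = _
    rw [ht]
  have h1 : ∀ p ∈ ({.sr 0, .sr 1} : Set D), ∀ q ∈ ({.sr 0, .sr 1} : Set D), Commute (h.dl p) (f q) := by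
    intro p hp q hq
    rw [hf]
    simp only [Set.mem_insert_iff, Set.mem_singleton_iff] at hp hq
    rcases hp with rfl | rfl <;> rcases hq with rfl | rfl
    · rw [h.dl_a]; exact h.ac
    · rw [h.dl_a, h.dl_b]; exact h.ad
    · rw [h.dl_a, h.dl_b]; exact h.bc
    · rw [h.dl_b]; exact h.bd
  have h2 : ∀ p ∈ ({.sr 0, .sr 1} : Set D), ∀ q : D, Commute (h.dl p) (f q) := by
    intro p hp q
    have hq := D_gen q
    induction hq using closure_induction with
    | mem x hx => exact h1 p hp x hx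
    | one => rw [map_one]; exact Commute.one_right _
    | mul x y _ _ ihx ihy => rw [map_mul]; exact ihx.mul_right ihy
    | inv x _ ihx => rw [map_inv]; exact ihx.inv_right
  have h3 : Commute (h.dl p) (f q) := by
    have hp := D_gen p
    induction hp using closure_induction with
    | mem x hx => exact h2 x hx q
    | one => rw [map_one]; exact Commute.one_left _
    | mul x y _ _ ihx ihy => rw [map_mul]; exact ihx.mul_left ihy
    | inv x _ ihx => rw [map_inv]; exact ihx.inv_left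
  rw [← hf]
  exact h3

/-- the homomorphism from `W` -/
def Rel.lift : W →* G := MonoidHom.mk'
  (fun w => h.dl w.p * (t * h.dl w.q * t) * (bif w.s then t else 1)) (by
    have ht : ∀ x : G, t * (t * x) = x := fun x => by rw [← mul_assoc, h.tt, one_mul]
    rintro ⟨p, q, s⟩ ⟨p', q', s'⟩
    cases s
    · -- `s = false`
      simp only [mul_def, cond_false, Bool.false_xor, mul_one, map_mul]
      have e : h.dl p * (t * h.dl q * t) * (h.dl p' * (t * h.dl q' * t) * (bif s' then t else 1)) =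
          h.dl p * ((t * h.dl q * t) * h.dl p') * (t * h.dl q' * t) * (bif s' then t else 1) := by group
      rw [e, ← h.comm]
      have e2 : h.dl p * (h.dl p' * (t * h.dl q * t)) * (t * h.dl q' * t) * (bif s' then t else 1) =
          h.dl p * h.dl p' * (t * h.dl q * (t * (t * (h.dl q' * t)))) * (bif s' then t else 1) := by group
      rw [e2, ht]
      group
    · simp only [mul_def, cond_true, Bool.true_xor, map_mul]
      have e : h.dl p * (t * h.dl q * t) * t * (h.dl p' * (t * h.dl q' * t) * (bif s' then t else 1)) =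
          h.dl p * (t * h.dl q * (t * (t * (h.dl p' * (t * h.dl q' * t))))) * (bif s' then t else 1) := by group
      rw [e, ht, h.comm]
      have e2 : h.dl p * (t * h.dl q * (t * h.dl q' * t * h.dl p')) * (bif s' then t else 1) =
          h.dl p * (t * (h.dl q * (t * h.dl q' * t)) * h.dl p') * (bif s' then t else 1) := by group
      rw [e2, h.comm]
      have e3 : h.dl p * (t * (t * h.dl q' * t * h.dl q) * h.dl p') * (bif s' then t else 1) =
          h.dl p * (t * (t * (h.dl q' * t * h.dl q * h.dl p'))) * (bif s' then t else 1) := by group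
      rw [e3, ht]
      cases s'
      · simp only [cond_false, Bool.not_false, cond_true, mul_one]
        have e4 : h.dl p * h.dl q' * (t * (h.dl q * h.dl p') * t) * t =
            h.dl p * h.dl q' * (t * (h.dl q * h.dl p')) * (t * t) := by group
        rw [e4, h.tt]
        group
      · simp only [cond_true, Bool.not_true, cond_false, mul_one]
        group)

theorem Rel.lift_apply (w : W) :
    h.lift w = h.dl w.p * (t * h.dl w.q * t) * (bif w.s then t else 1) := rfl

theorem Rel.lift_a : h.lift wa = a := by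
  rw [h.lift_apply]
  change h.dl (.sr 0) * (t * h.dl 1 * t) * 1 = a
  rw [map_one, mul_one, mul_one, h.tt, mul_one, h.dl_a]

theorem Rel.lift_b : h.lift wb = b := by
  rw [h.lift_apply]
  change h.dl (.sr 1) * (t * h.dl 1 * t) * 1 = b
  rw [map_one, mul_one, mul_one, h.tt, mul_one, h.dl_b]

theorem Rel.lift_t : h.lift wt = t := by
  rw [h.lift_apply]
  change h.dl 1 * (t * h.dl 1 * t) * t = t
  rw [map_one, mul_one, h.tt, mul_one, one_mul]

/-- A group of order 128 generated by `a, b, t` satisfying the relations is isomorphic to `W`. -/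
theorem Rel.bijective (hG : Nat.card G = 128) (hgen : closure ({a, b, t} : Set G) = ⊤) :
    Function.Bijective h.lift := by
  have hfin : Finite G := Nat.finite_of_card_ne_zero (by omega)
  have hs : Function.Surjective h.lift := by
    rw [← MonoidHom.range_eq_top, eq_top_iff, ← hgen, closure_le]
    intro x hx
    simp only [Set.mem_insert_iff, Set.mem_singleton_iff] at hx
    rcases hx with rfl | rfl | rfl
    · exact ⟨wa, h.lift_a⟩
    · exact ⟨wb, h.lift_b⟩
    · exact ⟨wt, h.lift_t⟩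
  rw [Nat.bijective_iff_surjective_and_card]
  exact ⟨hs, by rw [card_W, hG]; norm_num⟩

end lift

end Cfsg.Agent.H584.WrModel
end

-- part: H584/WrSylow
section
/-!
# The Sylow 2-subgroups of `Perm (Fin 8)` are isomorphic to `W`
-/

set_option autoImplicit false

namespace Cfsg.Agent.H584.WrModel

open Subgroup W

/-- permutations -/
def pa : Equiv.Perm (Fin 8) := Equiv.swap 0 2
def pb : Equiv.Perm (Fin 8) := Equiv.swap 0 1 * Equiv.swap 2 3
def pt : Equiv.Perm (Fin 8) := Equiv.swap 0 4 * Equiv.swap 1 5 * Equiv.swap 2 6 * Equiv.swap 3 7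

theorem rel_perm : Rel pa pb pt where
  aa := by decide
  bb := by decide
  tt := by decide
  ab := by decide
  ac := by decide
  ad := by decide
  bc := by decide
  bd := by decide

theorem wz_eq : wz = wa * wb * (wa * wb) * (wt * (wa * wb * (wa * wb)) * wt) := by decide

theorem perm_injective : Function.Injective rel_perm.lift := by
  apply W.injective_of_ne
  rw [wz_eq]
  simp only [map_mul, Rel.lift_a, Rel.lift_b, Rel.lift_t]
  decide

theorem card_range : Nat.card rel_perm.lift.range = 128 := by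
  rw [← Nat.card_congr (MonoidHom.ofInjective perm_injective).toEquiv, card_W]
  norm_num

/-- the Sylow 2-subgroup -/
noncomputable def sylowPerm : Sylow 2 (Equiv.Perm (Fin 8)) :=
  IsPGroup.toSylow (P := rel_perm.lift.range) (IsPGroup.of_card (n := 7) (by rw [card_range]; norm_num)) (by
    have h1 := Subgroup.card_mul_index rel_perm.lift.range
    rw [card_range, Nat.card_eq_fintype_card, Fintype.card_perm, Fintype.card_fin] at h1
    have h2 : rel_perm.lift.range.index = 315 := by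
      have h3 : Nat.factorial 8 = 128 * 315 := by decide
      rw [h3] at h1
      exact Nat.eq_of_mul_eq_mul_left (by norm_num) h1
    rw [h2]
    norm_num)

theorem equiv_sylow (T : Sylow 2 (Equiv.Perm (Fin 8))) : Nonempty (W ≃* ↥(T : Subgroup (Equiv.Perm (Fin 8)))) := by
  have : Fact (Nat.Prime 2) := ⟨Nat.prime_two⟩
  have e1 : W ≃* rel_perm.lift.range := MonoidHom.ofInjective perm_injective
  have e2 : (sylowPerm : Subgroup (Equiv.Perm (Fin 8))) ≃* (T : Subgroup (Equiv.Perm (Fin 8))) :=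
    Sylow.equiv sylowPerm T
  exact ⟨e1.trans e2⟩

end Cfsg.Agent.H584.WrModel
end

-- part: H584/WrAuto
section
/-!
# Subgroups and automorphisms of the model `W` of `D₈ ≀ C₂`

`A0`, `B0`: the two normal elementary abelian subgroups of order 16; `J0 = A0 B0` of order 64; `Z0 = A0 ∩ B0`.
-/

set_option autoImplicit false

namespace Cfsg.Agent.H584.WrModel

open Subgroup W

def InA (w : W) : Prop := w * wa = wa * w ∧ w * wc = wc * w
def InB (w : W) : Prop := w * wb = wb * w ∧ w * wd = wd * w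
def InZ (w : W) : Prop := InA w ∧ InB w
def InJ (w : W) : Prop := w * wz1 = wz1 * w

instance instDecInA : DecidablePred InA := fun w => inferInstanceAs (Decidable (_ ∧ _))
instance instDecInB : DecidablePred InB := fun w => inferInstanceAs (Decidable (_ ∧ _))
instance instDecInZ : DecidablePred InZ := fun w => inferInstanceAs (Decidable (_ ∧ _))
instance instDecInJ : DecidablePred InJ := fun w => inferInstanceAs (Decidable (_ = _))

def A0 : Subgroup W := centralizer {wa, wc}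
def B0 : Subgroup W := centralizer {wb, wd}
def Z0 : Subgroup W := A0 ⊓ B0
def J0 : Subgroup W := centralizer {wz1}

theorem mem_A0 {w : W} : w ∈ A0 ↔ InA w := by
  rw [A0, mem_centralizer_iff, InA]
  constructor
  · intro h
    exact ⟨(h wa (by simp)).symm, (h wc (by simp)).symm⟩
  · rintro ⟨h1, h2⟩ y hy
    simp only [Set.mem_insert_iff, Set.mem_singleton_iff] at hy
    rcases hy with rfl | rfl
    · exact h1.symm
    · exact h2.symm

theorem mem_B0 {w : W} : w ∈ B0 ↔ InB w := by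
  rw [B0, mem_centralizer_iff, InB]
  constructor
  · intro h
    exact ⟨(h wb (by simp)).symm, (h wd (by simp)).symm⟩
  · rintro ⟨h1, h2⟩ y hy
    simp only [Set.mem_insert_iff, Set.mem_singleton_iff] at hy
    rcases hy with rfl | rfl
    · exact h1.symm
    · exact h2.symm

theorem mem_Z0 {w : W} : w ∈ Z0 ↔ InZ w := by
  rw [Z0, mem_inf, mem_A0, mem_B0, InZ]

theorem mem_J0 {w : W} : w ∈ J0 ↔ InJ w := by
  rw [J0, mem_centralizer_iff, InJ]
  constructor
  · intro h
    exact (h wz1 (by simp)).symm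
  · intro h1 y hy
    rw [Set.mem_singleton_iff] at hy
    rw [hy]
    exact h1.symm

/-- explicit lists -/
def listA : List W := [1, .r 2, .sr 0, .sr 2].flatMap fun p => [1, .r 2, .sr 0, .sr 2].map fun q => ⟨p, q, false⟩
def listB : List W := [1, .r 2, .sr 1, .sr 3].flatMap fun p => [1, .r 2, .sr 1, .sr 3].map fun q => ⟨p, q, false⟩
def listZ : List W := [1, .r 2].flatMap fun p => [1, .r 2].map fun q => ⟨p, q, false⟩

theorem inA_iff : ∀ w : W, InA w ↔ w ∈ listA := by
  rintro ⟨p, q, s⟩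
  revert p q s
  decide +kernel

theorem inB_iff : ∀ w : W, InB w ↔ w ∈ listB := by
  rintro ⟨p, q, s⟩
  revert p q s
  decide +kernel

theorem inZ_iff : ∀ w : W, InZ w ↔ w ∈ listZ := by
  rintro ⟨p, q, s⟩
  revert p q s
  decide +kernel

theorem inJ_iff : ∀ w : W, InJ w ↔ w.s = false := by
  rintro ⟨p, q, s⟩
  revert p q s
  decide +kernel

theorem card_A0 : Nat.card A0 = 16 := by
  have h1 : Nat.card A0 = Nat.card {w : W // InA w} := Nat.card_congr (Equiv.subtypeEquivRight fun w => mem_A0)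
  rw [h1, Nat.card_eq_fintype_card, Fintype.card_subtype]
  decide +kernel

theorem card_B0 : Nat.card B0 = 16 := by
  have h1 : Nat.card B0 = Nat.card {w : W // InB w} := Nat.card_congr (Equiv.subtypeEquivRight fun w => mem_B0)
  rw [h1, Nat.card_eq_fintype_card, Fintype.card_subtype]
  decide +kernel

theorem card_Z0 : Nat.card Z0 = 4 := by
  have h1 : Nat.card Z0 = Nat.card {w : W // InZ w} := Nat.card_congr (Equiv.subtypeEquivRight fun w => mem_Z0)
  rw [h1, Nat.card_eq_fintype_card, Fintype.card_subtype]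
  decide +kernel

theorem card_J0 : Nat.card J0 = 64 := by
  have h1 : Nat.card J0 = Nat.card {w : W // InJ w} := Nat.card_congr (Equiv.subtypeEquivRight fun w => mem_J0)
  rw [h1, Nat.card_eq_fintype_card, Fintype.card_subtype]
  decide +kernel

theorem A0_comm {v w : W} (hv : InA v) (hw : InA w) : v * w = w * v := by
  rw [inA_iff] at hv hw
  revert v w
  have h : ∀ v ∈ listA, ∀ w ∈ listA, v * w = w * v := by decide +kernel
  intro v w hv hw
  exact h v hv w hw

theorem A0_sq {v : W} (hv : InA v) : v * v = 1 := by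
  rw [inA_iff] at hv
  revert v
  have h : ∀ v ∈ listA, v * v = 1 := by decide +kernel
  intro v hv
  exact h v hv

theorem A0_conj (g : W) {v : W} (hv : InA v) : InA (g * v * g⁻¹) := by
  rw [inA_iff] at hv
  have h : ∀ v ∈ listA, ∀ g : W, InA (g * v * g⁻¹) := by decide +kernel
  exact h v hv g

theorem B0_comm {v w : W} (hv : InB v) (hw : InB w) : v * w = w * v := by
  rw [inB_iff] at hv hw
  have h : ∀ v ∈ listB, ∀ w ∈ listB, v * w = w * v := by decide +kernel
  exact h v hv w hw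

theorem B0_sq {v : W} (hv : InB v) : v * v = 1 := by
  rw [inB_iff] at hv
  have h : ∀ v ∈ listB, v * v = 1 := by decide +kernel
  exact h v hv

theorem B0_conj (g : W) {v : W} (hv : InB v) : InB (g * v * g⁻¹) := by
  rw [inB_iff] at hv
  have h : ∀ v ∈ listB, ∀ g : W, InB (g * v * g⁻¹) := by decide +kernel
  exact h v hv g

/-- an involution commuting with its conjugates is in `A0` or `B0` -/
theorem inA_or_inB : ∀ v : W, v * v = 1 → v * (wa * wb * v * (wa * wb)⁻¹) = (wa * wb * v * (wa * wb)⁻¹) * v →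
    v * (wt * v * wt⁻¹) = (wt * v * wt⁻¹) * v → InA v ∨ InB v := by
  rintro ⟨p, q, s⟩
  revert p q s
  decide +kernel

/-- a normal elementary abelian subgroup of order 16 is `A0` or `B0` -/
theorem eq_A0_or_B0 {V : Subgroup W} (hn : ∀ g : W, ∀ v ∈ V, g * v * g⁻¹ ∈ V) (hc : ∀ v ∈ V, ∀ w ∈ V, v * w = w * v)
    (hs : ∀ v ∈ V, v * v = 1) (hcard : Nat.card V = 16) : V = A0 ∨ V = B0 := by
  have h1 : ∀ v ∈ V, v ∈ A0 ∨ v ∈ B0 := by
    intro v hv
    rw [mem_A0, mem_B0]
    exact inA_or_inB v (hs v hv) (hc v hv _ (hn _ v hv)) (hc v hv _ (hn _ v hv))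
  have h2 : V ≤ A0 ∨ V ≤ B0 := by
    by_contra hcon
    push Not at hcon
    obtain ⟨h3, h4⟩ := hcon
    obtain ⟨x, hx, hxA⟩ := SetLike.not_le_iff_exists.1 h3
    obtain ⟨y, hy, hyB⟩ := SetLike.not_le_iff_exists.1 h4
    have hxB := (h1 x hx).resolve_left hxA
    have hyA := (h1 y hy).resolve_right hyB
    rcases h1 (x * y) (mul_mem hx hy) with h5 | h5
    · exact hxA ((Subgroup.mul_mem_cancel_right A0 hyA).1 h5)
    · exact hyB ((Subgroup.mul_mem_cancel_left B0 hxB).1 h5)
  rcases h2 with h2 | h2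
  · left
    exact Subgroup.eq_of_le_of_card_ge h2 (by rw [card_A0, hcard])
  · right
    exact Subgroup.eq_of_le_of_card_ge h2 (by rw [card_B0, hcard])

theorem A0_ne_B0 : A0 ≠ B0 := by
  intro h
  have h1 : wa ∈ A0 := by rw [mem_A0]; decide
  rw [h, mem_B0] at h1
  revert h1
  decide +kernel

section auto

variable {φ : W →* W} (hφ : Function.Injective φ)
include hφ

theorem map_A0 : A0.map φ = A0 ∨ A0.map φ = B0 := by
  have hs : Function.Surjective φ := Finite.surjective_of_injective hφ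
  apply eq_A0_or_B0
  · rintro g _ ⟨v, hv, rfl⟩
    obtain ⟨g, rfl⟩ := hs g
    rw [← map_inv, ← map_mul, ← map_mul]
    exact ⟨_, mem_A0.2 (A0_conj g (mem_A0.1 hv)), rfl⟩
  · rintro _ ⟨v, hv, rfl⟩ _ ⟨w, hw, rfl⟩
    rw [← map_mul, ← map_mul, A0_comm (mem_A0.1 hv) (mem_A0.1 hw)]
  · rintro _ ⟨v, hv, rfl⟩
    rw [← map_mul, A0_sq (mem_A0.1 hv), map_one]
  · rw [card_map_of_injective hφ, card_A0]

theorem map_B0 : B0.map φ = A0 ∨ B0.map φ = B0 := by
  have hs : Function.Surjective φ := Finite.surjective_of_injective hφ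
  apply eq_A0_or_B0
  · rintro g _ ⟨v, hv, rfl⟩
    obtain ⟨g, rfl⟩ := hs g
    rw [← map_inv, ← map_mul, ← map_mul]
    exact ⟨_, mem_B0.2 (B0_conj g (mem_B0.1 hv)), rfl⟩
  · rintro _ ⟨v, hv, rfl⟩ _ ⟨w, hw, rfl⟩
    rw [← map_mul, ← map_mul, B0_comm (mem_B0.1 hv) (mem_B0.1 hw)]
  · rintro _ ⟨v, hv, rfl⟩
    rw [← map_mul, B0_sq (mem_B0.1 hv), map_one]
  · rw [card_map_of_injective hφ, card_B0]

theorem map_AB : (A0.map φ = A0 ∧ B0.map φ = B0) ∨ (A0.map φ = B0 ∧ B0.map φ = A0) := by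
  have hne : A0.map φ ≠ B0.map φ := fun h => A0_ne_B0 (Subgroup.map_injective hφ h)
  rcases map_A0 hφ with h1 | h1 <;> rcases map_B0 hφ with h2 | h2
  · exact absurd (h1.trans h2.symm) hne
  · exact Or.inl ⟨h1, h2⟩
  · exact Or.inr ⟨h1, h2⟩
  · exact absurd (h1.trans h2.symm) hne

theorem map_wz : φ wz = wz := by
  have hs : Function.Surjective φ := Finite.surjective_of_injective hφ
  have hz : ∀ x : W, wz * x = x * wz := by decide +kernel
  rcases center_le (φ wz) (by
    intro y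
    obtain ⟨y, rfl⟩ := hs y
    rw [← map_mul, ← map_mul, hz]) with h | h
  · exfalso
    rw [← map_one φ] at h
    have := hφ h
    revert this
    decide +kernel
  · exact h

theorem map_wz1 : (φ wz1 = wz1 ∧ φ wz2 = wz2) ∨ (φ wz1 = wz2 ∧ φ wz2 = wz1) := by
  have hZ : φ wz1 ∈ Z0 ∧ φ wz2 ∈ Z0 := by
    have h1 : wz1 ∈ A0 ∧ wz1 ∈ B0 ∧ wz2 ∈ A0 ∧ wz2 ∈ B0 := by
      simp only [mem_A0, mem_B0]
      decide
    obtain ⟨ha, hb, hc, hd⟩ := h1
    rcases map_AB hφ with ⟨h2, h3⟩ | ⟨h2, h3⟩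
    · have e1 := mem_map_of_mem φ ha
      have e2 := mem_map_of_mem φ hb
      have e3 := mem_map_of_mem φ hc
      have e4 := mem_map_of_mem φ hd
      rw [h2] at e1 e3
      rw [h3] at e2 e4
      exact ⟨⟨e1, e2⟩, ⟨e3, e4⟩⟩
    · have e1 := mem_map_of_mem φ ha
      have e2 := mem_map_of_mem φ hb
      have e3 := mem_map_of_mem φ hc
      have e4 := mem_map_of_mem φ hd
      rw [h2] at e1 e3
      rw [h3] at e2 e4
      exact ⟨⟨e2, e1⟩, ⟨e4, e3⟩⟩
  have hz := map_wz hφ
  have hz12 : wz1 * wz2 = wz := by decide +kernel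
  rw [← hz12, map_mul] at hz
  have n1 : φ wz1 ≠ 1 := by
    intro h
    rw [← map_one φ] at h
    have := hφ h
    revert this
    decide +kernel
  have n2 : φ wz2 ≠ 1 := by
    intro h
    rw [← map_one φ] at h
    have := hφ h
    revert this
    decide +kernel
  obtain ⟨h1, h2⟩ := hZ
  rw [mem_Z0, inZ_iff] at h1 h2
  generalize φ wz1 = x at *
  generalize φ wz2 = y at *
  have key : ∀ x ∈ listZ, ∀ y ∈ listZ, x ≠ 1 → y ≠ 1 → x * y = wz1 * wz2 →
      (x = wz1 ∧ y = wz2) ∨ (x = wz2 ∧ y = wz1) := by decide +kernel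
  exact key x h1 y h2 n1 n2 hz

end auto

/-- stage facts for automorphisms fixing `wz1` and `wz2` -/
theorem stage_one : ∀ γ ∈ listA, ∀ δ ∈ listB, (γ * δ) * (γ * δ) = wz2 →
    (γ.q = .sr 0 ∨ γ.q = .sr 2) ∧ (δ.q = .sr 1 ∨ δ.q = .sr 3) := by decide +kernel

theorem stage_two : ∀ α ∈ listA, ∀ δ ∈ listB, (δ.q = .sr 1 ∨ δ.q = .sr 3) → α * δ = δ * α →
    (α.q = 1 ∨ α.q = .r 2) := by decide +kernel

theorem stage_two' : ∀ β ∈ listB, ∀ γ ∈ listA, (γ.q = .sr 0 ∨ γ.q = .sr 2) → β * γ = γ * β →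
    (β.q = 1 ∨ β.q = .r 2) := by decide +kernel

theorem stage_three : ∀ α ∈ listA, ∀ β ∈ listB, (α * β) * (α * β) = wz1 →
    (α.p = .sr 0 ∨ α.p = .sr 2) ∧ (β.p = .sr 1 ∨ β.p = .sr 3) := by decide +kernel

theorem stage_four : ∀ α ∈ listA, ∀ δ ∈ listB, (α.p = .sr 0 ∨ α.p = .sr 2) → α * δ = δ * α →
    (δ.p = 1 ∨ δ.p = .r 2) := by decide +kernel

theorem stage_four' : ∀ β ∈ listB, ∀ γ ∈ listA, (β.p = .sr 1 ∨ β.p = .sr 3) → β * γ = γ * β →
    (γ.p = 1 ∨ γ.p = .r 2) := by decide +kernel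

theorem stage_a : ∀ α ∈ listA, (α.p = .sr 0 ∨ α.p = .sr 2) → (α.q = 1 ∨ α.q = .r 2) → α * wa ∈ listZ := by decide +kernel
theorem stage_b : ∀ β ∈ listB, (β.p = .sr 1 ∨ β.p = .sr 3) → (β.q = 1 ∨ β.q = .r 2) → β * wb ∈ listZ := by decide +kernel
theorem stage_c : ∀ γ ∈ listA, (γ.p = 1 ∨ γ.p = .r 2) → (γ.q = .sr 0 ∨ γ.q = .sr 2) → γ * wc ∈ listZ := by decide +kernel
theorem stage_d : ∀ δ ∈ listB, (δ.p = 1 ∨ δ.p = .r 2) → (δ.q = .sr 1 ∨ δ.q = .sr 3) → δ * wd ∈ listZ := by decide +kernel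

/-- `α, γ ∈ A0`, `β, δ ∈ B0` with the relations of `wa, wb, wc, wd` and the same central involutions are
congruent to `wa, …, wd` modulo `Z0`. -/
theorem quad {α β γ δ : W} (hα : InA α) (hβ : InB β) (hγ : InA γ) (hδ : InB δ)
    (h1 : (α * β) * (α * β) = wz1) (h2 : (γ * δ) * (γ * δ) = wz2) (h3 : α * δ = δ * α) (h4 : β * γ = γ * β) :
    α * wa ∈ Z0 ∧ β * wb ∈ Z0 ∧ γ * wc ∈ Z0 ∧ δ * wd ∈ Z0 := by
  rw [inA_iff] at hα hγ
  rw [inB_iff] at hβ hδ
  simp only [mem_Z0, inZ_iff]
  obtain ⟨s1, s2⟩ := stage_one γ hγ δ hδ h2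
  obtain ⟨s3, s4⟩ := stage_three α hα β hβ h1
  have s5 := stage_two α hα δ hδ s2 h3
  have s6 := stage_two' β hβ γ hγ s1 h4
  have s7 := stage_four α hα δ hδ s3 h3
  have s8 := stage_four' β hβ γ hγ s4 h4
  exact ⟨stage_a α hα s3 s5, stage_b β hβ s4 s6, stage_c γ hγ s8 s1, stage_d δ hδ s7 s2⟩

end Cfsg.Agent.H584.WrModel
end

-- part: H584/WrRank
section
/-!
# `D₈ ≀ C₂` in 2-groups of sectional rank at most 4

`ι : W →* S` injective, `S` a 2-group of sectional rank at most 4.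

* `no_fifth`: an element centralizing `J0` modulo `Z0`, with square in `Z0`, is in `J0`.
* `cent_A`, `cent_B`: `C_S(A0) = A0`, `C_S(B0) = B0`.
* `norm_A`, `norm_B`: `N_S(A0) = N_S(B0) = W`.
-/

set_option autoImplicit false

namespace Cfsg.Agent.H584.WrRank

open Subgroup Cfsg Cfsg.Agent.TwoFusion.SectionalRank Cfsg.Agent.H584.WrModel Cfsg.Agent.H584.WrModel.W

/-- In a 2-group, for `A < C`, both normalized by `M ≥ C`: there is `y ∈ C - A` with `y² ∈ A`, `[y, M] ≤ A`. -/
theorem exists_central_step {S : Type*} [Group S] [Finite S] (h2 : IsPGroup 2 S) {A C M : Subgroup S}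
    (hne : ¬ C ≤ A) (hCM : C ≤ M) (hA : ∀ m ∈ M, ∀ a ∈ A, m * a * m⁻¹ ∈ A)
    (hC : ∀ m ∈ M, ∀ a ∈ C, m * a * m⁻¹ ∈ C) :
    ∃ y ∈ C, y ∉ A ∧ y * y ∈ A ∧ ∀ m ∈ M, y * m * y⁻¹ * m⁻¹ ∈ A := by
  have : Fact (Nat.Prime 2) := ⟨Nat.prime_two⟩
  have hAn : (A.subgroupOf M).Normal := by
    constructor
    intro n hn g
    rw [mem_subgroupOf] at hn ⊢
    exact hA g g.2 n hn
  set π := QuotientGroup.mk' (A.subgroupOf M) with hπ
  have hCn : ((C.subgroupOf M).map π).Normal := by
    have h3 : (C.subgroupOf M).Normal := by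
      constructor
      intro n hn g
      rw [mem_subgroupOf] at hn ⊢
      exact hC g g.2 n hn
    exact h3.map π (QuotientGroup.mk'_surjective _)
  have hCne : (C.subgroupOf M).map π ≠ ⊥ := by
    intro h
    apply hne
    intro c hc
    have h3 : π ⟨c, hCM hc⟩ ∈ (C.subgroupOf M).map π := mem_map_of_mem π (show (⟨c, hCM hc⟩ : M) ∈ C.subgroupOf M from hc)
    rw [h, mem_bot, hπ, QuotientGroup.mk'_apply, QuotientGroup.eq_one_iff] at h3
    exact h3
  have hpQ : IsPGroup 2 (M ⧸ A.subgroupOf M) := (h2.to_subgroup M).to_quotient _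
  obtain ⟨q, hq, hqc, hq1⟩ := Cfsg.Agent.Transfer.TausskyTwoGroup.exists_ne_one_mem_inf_center
    (p := 2) hpQ _ hCne
  obtain ⟨x, hx, rfl⟩ := hq
  have hxA : (x : S) ∉ A := by
    intro h
    apply hq1
    rw [hπ, QuotientGroup.mk'_apply, QuotientGroup.eq_one_iff]
    exact h
  have hxcomm : ∀ m : M, π (x * m) = π (m * x) := by
    intro m
    rw [map_mul, map_mul]
    exact (mem_center_iff.1 hqc (π m)).symm
  obtain ⟨j, hj1, hj2⟩ := Sect.exists_sq_mem h2 A x hxA
  refine ⟨(x : S) ^ (2 ^ j), pow_mem hx _, hj1, by rwa [pow_two] at hj2, ?_⟩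
  intro m hm
  have h3 : Commute (π x) (π ⟨m, hm⟩) := by
    have := hxcomm ⟨m, hm⟩
    rw [map_mul, map_mul] at this
    exact this
  have h4 := (h3.pow_left (2 ^ j)).eq
  rw [← map_pow, ← map_mul, ← map_mul] at h4
  have h5 : π (x ^ 2 ^ j * ⟨m, hm⟩ * (⟨m, hm⟩ * x ^ 2 ^ j)⁻¹) = 1 := by
    rw [map_mul, map_inv, h4, mul_inv_cancel]
  rw [hπ, QuotientGroup.mk'_apply, QuotientGroup.eq_one_iff, mem_subgroupOf] at h5
  have h6 : (x : S) ^ 2 ^ j * m * ((x : S) ^ 2 ^ j)⁻¹ * m⁻¹ =
      ((x ^ 2 ^ j * ⟨m, hm⟩ * (⟨m, hm⟩ * x ^ 2 ^ j)⁻¹ : M) : S) := by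
    push_cast
    group
  rw [h6]
  exact h5

/-- Normalizers grow inside `M`. -/
theorem exists_normalizing {S : Type*} [Group S] [Finite S] (h2 : IsPGroup 2 S) {P M : Subgroup S}
    (hPM : P ≤ M) (hne : ¬ M ≤ P) : ∃ x ∈ M, x ∉ P ∧ (∀ p ∈ P, x * p * x⁻¹ ∈ P) ∧ ∀ p ∈ P, x⁻¹ * p * x ∈ P := by
  have : Fact (Nat.Prime 2) := ⟨Nat.prime_two⟩
  have hnil : Group.IsNilpotent M := (h2.to_subgroup M).isNilpotent
  have hlt : P.subgroupOf M < ⊤ := by
    rw [lt_top_iff_ne_top]
    intro h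
    rw [subgroupOf_eq_top] at h
    exact hne h
  have h3 := Group.normalizerCondition_of_isNilpotent (P.subgroupOf M) hlt
  obtain ⟨x, hx1, hx2⟩ := SetLike.exists_of_lt h3
  refine ⟨x, x.2, hx2, ?_, ?_⟩
  · intro p hp
    have := (mem_normalizer_iff.1 hx1 ⟨p, hPM hp⟩).1 hp
    exact this
  · intro p hp
    have := (mem_normalizer_iff.1 (inv_mem hx1) ⟨p, hPM hp⟩).1 hp
    rw [inv_inv] at this
    exact this

section

variable {S : Type*} [Group S] [Finite S] (h2 : IsPGroup 2 S) (hr : SectionalPRankLE 2 4 S)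
  (ι : W →* S) (hι : Function.Injective ι)

theorem Z0_cases {w : W} (h : w ∈ Z0) : w = 1 ∨ w = wz1 ∨ w = wz2 ∨ w = wz1 * wz2 := by
  rw [mem_Z0, inZ_iff] at h
  have key : ∀ w ∈ listZ, w = 1 ∨ w = wz1 ∨ w = wz2 ∨ w = wz1 * wz2 := by decide +kernel
  exact key w h

theorem J0_le : J0 ≤ closure ({wa, wb, wc, wd} : Set W) := by
  intro w hw
  rw [mem_J0, inJ_iff] at hw
  obtain ⟨p, q, s⟩ := w
  change s = false at hw
  subst hw
  have e : (⟨p, q, false⟩ : W) = ⟨p, 1, false⟩ * ⟨1, q, false⟩ := by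
    rw [W.mul_def]; simp
  rw [e]
  have k1 : ∀ p : D, ∃ i : Fin 2, ∃ j : Fin 4, (⟨p, 1, false⟩ : W) = wa ^ (i : ℕ) * (wa * wb) ^ (j : ℕ) := by
    decide +kernel
  have k2 : ∀ p : D, ∃ i : Fin 2, ∃ j : Fin 4, (⟨1, p, false⟩ : W) = wc ^ (i : ℕ) * (wc * wd) ^ (j : ℕ) := by
    decide +kernel
  have ha : wa ∈ closure ({wa, wb, wc, wd} : Set W) := subset_closure (by simp)
  have hb : wb ∈ closure ({wa, wb, wc, wd} : Set W) := subset_closure (by simp)
  have hc : wc ∈ closure ({wa, wb, wc, wd} : Set W) := subset_closure (by simp)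
  have hd : wd ∈ closure ({wa, wb, wc, wd} : Set W) := subset_closure (by simp)
  obtain ⟨i, j, h1⟩ := k1 p
  obtain ⟨k, l, h3⟩ := k2 q
  rw [h1, h3]
  exact mul_mem (mul_mem (pow_mem ha _) (pow_mem (mul_mem ha hb) _))
    (mul_mem (pow_mem hc _) (pow_mem (mul_mem hc hd) _))

include h2 hr hι

omit h2 in
/-- No fifth dimension. -/
theorem no_fifth (y : S) (ha : y * ι wa * y⁻¹ * (ι wa)⁻¹ ∈ Z0.map ι) (hb : y * ι wb * y⁻¹ * (ι wb)⁻¹ ∈ Z0.map ι)
    (hc : y * ι wc * y⁻¹ * (ι wc)⁻¹ ∈ Z0.map ι) (hd : y * ι wd * y⁻¹ * (ι wd)⁻¹ ∈ Z0.map ι)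
    (hz1 : y * ι wz1 = ι wz1 * y) (hz2 : y * ι wz2 = ι wz2 * y) (hyy : y * y ∈ Z0.map ι) : y ∈ J0.map ι := by
  by_contra hyJ
  set N := Z0.map ι with hN
  set T : Set S := insert y (ι '' {wa, wb, wc, wd}) with hT
  -- `y` and the generators commute with `N`
  have hyN : ∀ n ∈ N, y * n = n * y := by
    rintro _ ⟨w, hw, rfl⟩
    rcases Z0_cases hw with rfl | rfl | rfl | rfl
    · rw [map_one, one_mul, mul_one]
    · exact hz1
    · exact hz2
    · rw [map_mul, ← mul_assoc, hz1, mul_assoc, hz2, mul_assoc]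
  have hgN : ∀ g ∈ ({wa, wb, wc, wd} : Set W), ∀ n ∈ N, ι g * n = n * ι g := by
    rintro g hg _ ⟨w, hw, rfl⟩
    rw [← map_mul, ← map_mul]
    congr 1
    rw [SetLike.mem_coe, mem_Z0, inZ_iff] at hw
    simp only [Set.mem_insert_iff, Set.mem_singleton_iff] at hg
    have key : ∀ w ∈ listZ, wa * w = w * wa ∧ wb * w = w * wb ∧ wc * w = w * wc ∧ wd * w = w * wd := by
      decide +kernel
    obtain ⟨k1, k2, k3, k4⟩ := key w hw
    rcases hg with rfl | rfl | rfl | rfl
    · exact k1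
    · exact k2
    · exact k3
    · exact k4
  have hnorm : ∀ g : S, (∀ n ∈ N, g * n = n * g) → g ∈ normalizer (N : Set S) := by
    intro g hg
    apply centralizer_le_normalizer
    rw [mem_centralizer_iff]
    intro n hn
    exact (hg n hn).symm
  have hyc : ∀ g ∈ ({wa, wb, wc, wd} : Set W), y * ι g * y⁻¹ * (ι g)⁻¹ ∈ N := by
    intro g hg
    simp only [Set.mem_insert_iff, Set.mem_singleton_iff] at hg
    rcases hg with rfl | rfl | rfl | rfl
    · exact ha
    · exact hb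
    · exact hc
    · exact hd
  have hgg : ∀ g ∈ ({wa, wb, wc, wd} : Set W), ∀ g' ∈ ({wa, wb, wc, wd} : Set W), g * g' * g⁻¹ * g'⁻¹ ∈ Z0 := by
    have key : ∀ g ∈ [wa, wb, wc, wd], ∀ g' ∈ [wa, wb, wc, wd], g * g' * g⁻¹ * g'⁻¹ ∈ listZ := by decide +kernel
    intro g hg g' hg'
    rw [mem_Z0, inZ_iff]
    exact key g (by simpa using hg) g' (by simpa using hg')
  have hg2 : ∀ g ∈ ({wa, wb, wc, wd} : Set W), g * g = 1 := by
    have key : ∀ g ∈ [wa, wb, wc, wd], g * g = 1 := by decide +kernel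
    intro g hg
    exact key g (by simpa using hg)
  have hsec := Sect.elemSection_closure N T ?_ ?_ ?_
  · have hle : J0.map ι ≤ closure (T ∪ (N : Set S)) := by
      rintro _ ⟨w, hw, rfl⟩
      have h3 := J0_le hw
      have h4 : ι w ∈ (closure ({wa, wb, wc, wd} : Set W)).map ι := mem_map_of_mem ι h3
      rw [MonoidHom.map_closure] at h4
      refine closure_mono ?_ h4
      exact (Set.subset_insert _ _).trans Set.subset_union_left
    have hlt : J0.map ι < closure (T ∪ (N : Set S)) := by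
      refine lt_of_le_of_ne hle ?_
      intro h
      apply hyJ
      rw [h]
      exact subset_closure (Or.inl (Set.mem_insert _ _))
    have h5 := Sect.two_mul_card_le hlt
    have h6 := sectionalPRankLE_iff.1 hr _ _ hsec
    have hcN : Nat.card N = 4 := by rw [hN, card_map_of_injective hι, card_Z0]
    rw [hcN] at h6
    rw [card_map_of_injective hι, card_J0] at h5
    omega
  · rintro a (rfl | ⟨g, hg, rfl⟩)
    · exact hnorm _ hyN
    · exact hnorm _ (hgN g hg)
  · rintro a (rfl | ⟨g, hg, rfl⟩) b (rfl | ⟨g', hg', rfl⟩)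
    · have : b * b * b⁻¹ * b⁻¹ = 1 := by group
      rw [this]
      exact one_mem _
    · exact hyc g' hg'
    · have h3 := inv_mem (hyc g hg)
      have h4 : (b * ι g * b⁻¹ * (ι g)⁻¹)⁻¹ = ι g * b * (ι g)⁻¹ * b⁻¹ := by group
      rwa [h4] at h3
    · rw [← map_inv, ← map_inv, ← map_mul, ← map_mul, ← map_mul]
      exact mem_map_of_mem ι (hgg g hg g' hg')
  · rintro a (rfl | ⟨g, hg, rfl⟩)
    · exact hyy
    · rw [← map_mul, hg2 g hg, map_one]
      exact one_mem _

/-- `C_S(A0) = A0` -/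
theorem cent_A (y : S) (hy : ∀ w ∈ A0, y * ι w = ι w * y) : y ∈ A0.map ι := by
  by_contra hyA
  have hstep := exists_central_step h2 (A := A0.map ι)
    (C := centralizer ((A0.map ι : Subgroup S) : Set S)) (M := normalizer ((A0.map ι : Subgroup S) : Set S))
    (by
      intro h
      apply hyA
      apply h
      rw [mem_centralizer_iff]
      rintro _ ⟨w, hw, rfl⟩
      exact (hy w hw).symm) (centralizer_le_normalizer _) (by
      intro m hm a ha
      exact (mem_normalizer_iff.1 hm a).1 ha) (by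
      intro m hm a ha
      rw [mem_centralizer_iff] at ha ⊢
      intro h hh
      have h3 := (mem_normalizer_iff.1 (inv_mem hm) h).1 hh
      rw [inv_inv] at h3
      have h4 := ha _ h3
      calc h * (m * a * m⁻¹) = m * (m⁻¹ * h * m * a) * m⁻¹ := by group
        _ = m * (a * (m⁻¹ * h * m)) * m⁻¹ := by rw [h4]
        _ = m * a * m⁻¹ * h := by group)
  obtain ⟨x, hxC, hxA, hxx, hxM⟩ := hstep
  · have hxa : ∀ w ∈ A0, x * ι w = ι w * x := by
      intro w hw
      exact ((mem_centralizer_iff.1 hxC) (ι w) (mem_map_of_mem ι hw)).symm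
    have hWM : ∀ g : W, ι g ∈ normalizer ((A0.map ι : Subgroup S) : Set S) := by
      intro g
      rw [mem_normalizer_iff]
      intro h
      constructor
      · rintro ⟨v, hv, rfl⟩
        exact ⟨g * v * g⁻¹, mem_A0.2 (A0_conj g (mem_A0.1 hv)), by rw [map_mul, map_mul, map_inv]⟩
      · rintro ⟨v, hv, hvh⟩
        refine ⟨g⁻¹ * v * g, ?_, ?_⟩
        · have := mem_A0.2 (A0_conj g⁻¹ (mem_A0.1 hv))
          rwa [inv_inv] at this
        · rw [map_mul, map_mul, hvh, map_inv]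
          group
    obtain ⟨u, hu, hub⟩ := hxM (ι wb) (hWM wb)
    obtain ⟨w, hw, hwd⟩ := hxM (ι wd) (hWM wd)
    obtain ⟨v, hv, hvx⟩ := hxx
    have hub' : x * ι wb * x⁻¹ = ι (u * wb) := by
      rw [map_mul, hub]; group
    have hwd' : x * ι wd * x⁻¹ = ι (w * wd) := by
      rw [map_mul, hwd]; group
    have r1 : (u * wb) * (u * wb) = 1 := by
      apply hι
      rw [map_mul, ← hub', map_one]
      have h3 : ι wb * ι wb = 1 := by
        rw [← map_mul, show wb * wb = 1 by decide, map_one]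
      calc x * ι wb * x⁻¹ * (x * ι wb * x⁻¹) = x * (ι wb * ι wb) * x⁻¹ := by group
        _ = 1 := by rw [h3]; group
    have r2 : (w * wd) * (w * wd) = 1 := by
      apply hι
      rw [map_mul, ← hwd', map_one]
      have h3 : ι wd * ι wd = 1 := by
        rw [← map_mul, show wd * wd = 1 by decide, map_one]
      calc x * ι wd * x⁻¹ * (x * ι wd * x⁻¹) = x * (ι wd * ι wd) * x⁻¹ := by group
        _ = 1 := by rw [h3]; group
    have r3 : (u * wb) * (w * wd) = (w * wd) * (u * wb) := by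
      apply hι
      rw [map_mul ι (u * wb), map_mul ι (w * wd), ← hwd', ← hub']
      have h3 : ι wb * ι wd = ι wd * ι wb := by
        rw [← map_mul, ← map_mul, show wb * wd = wd * wb by decide]
      calc x * ι wb * x⁻¹ * (x * ι wd * x⁻¹) = x * (ι wb * ι wd) * x⁻¹ := by group
        _ = x * (ι wd * ι wb) * x⁻¹ := by rw [h3]
        _ = x * ι wd * x⁻¹ * (x * ι wb * x⁻¹) := by group
    rw [SetLike.mem_coe, mem_A0, inA_iff] at hu hw
    have key : ∀ u ∈ listA, (u * wb) * (u * wb) = 1 → ∀ w ∈ listA, (w * wd) * (w * wd) = 1 →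
        (u * wb) * (w * wd) = (w * wd) * (u * wb) → u ∈ listZ ∧ w ∈ listZ := by decide +kernel
    obtain ⟨huZ, hwZ⟩ := key u hu r1 w hw r2 r3
    rw [← inZ_iff, ← mem_Z0] at huZ hwZ
    -- the square of `x`
    have hxz : ∀ ζ ∈ Z0, x * ι ζ = ι ζ * x := fun ζ hζ => hxa ζ hζ.1
    have hZsq : ∀ ζ ∈ Z0, ι ζ * ι ζ = 1 := by
      intro ζ hζ
      rw [← map_mul, A0_sq (mem_A0.1 hζ.1), map_one]
    have hsq : ∀ (g ζ : W), ζ ∈ Z0 → x * ι g * x⁻¹ = ι (ζ * g) → v * g = g * v := by
      intro g ζ hζ hg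
      apply hι
      rw [map_mul, map_mul, hvx]
      have h3 : x * (x * ι g * x⁻¹) * x⁻¹ = ι g := by
        rw [hg, map_mul]
        calc x * (ι ζ * ι g) * x⁻¹ = (x * ι ζ) * ι g * x⁻¹ := by group
          _ = (ι ζ * x) * ι g * x⁻¹ := by rw [hxz ζ hζ]
          _ = ι ζ * (x * ι g * x⁻¹) := by group
          _ = (ι ζ * ι ζ) * ι g := by rw [hg, map_mul]; group
          _ = ι g := by rw [hZsq ζ hζ, one_mul]
      calc x * x * ι g = (x * (x * ι g * x⁻¹) * x⁻¹) * (x * x) := by group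
        _ = ι g * (x * x) := by rw [h3]
    have hvb := hsq wb u huZ hub'
    have hvd := hsq wd w hwZ hwd'
    have hvZ : v ∈ Z0 := by
      rw [mem_Z0]
      exact ⟨mem_A0.1 hv, hvb, hvd⟩
    have hone : ∀ w ∈ A0, x * ι w * x⁻¹ * (ι w)⁻¹ ∈ Z0.map ι := by
      intro w hw
      rw [hxa w hw]
      have : ι w * x * x⁻¹ * (ι w)⁻¹ = 1 := by group
      rw [this]
      exact one_mem _
    have hJ := no_fifth hr ι hι x (hone wa (by rw [mem_A0]; decide +kernel)) ⟨u, huZ, hub⟩
      (hone wc (by rw [mem_A0]; decide +kernel)) ⟨w, hwZ, hwd⟩ (hxa wz1 (by rw [mem_A0]; decide +kernel))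
      (hxa wz2 (by rw [mem_A0]; decide +kernel)) ⟨v, hvZ, hvx⟩
    obtain ⟨j, -, rfl⟩ := hJ
    apply hxA
    refine ⟨j, ?_, rfl⟩
    rw [SetLike.mem_coe, mem_A0]
    constructor
    · apply hι
      rw [map_mul, map_mul]
      exact hxa wa (by rw [mem_A0]; decide +kernel)
    · apply hι
      rw [map_mul, map_mul]
      exact hxa wc (by rw [mem_A0]; decide +kernel)

end

end Cfsg.Agent.H584.WrRank
end

-- part: H584/WrNorm
section
/-!
# Normalizers of the normal `2⁴`s of `D₈ ≀ C₂`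

`ι : W →* S` injective, `S` a 2-group of sectional rank at most 4.
-/

set_option autoImplicit false

namespace Cfsg.Agent.H584.WrRank

open Subgroup Cfsg Cfsg.Agent.TwoFusion.SectionalRank Cfsg.Agent.H584.WrModel Cfsg.Agent.H584.WrModel.W

theorem rel_swap : Rel wb wa wt where
  aa := by decide +kernel
  bb := by decide +kernel
  tt := by decide +kernel
  ab := by decide +kernel
  ac := by decide +kernel
  ad := by decide +kernel
  bc := by decide +kernel
  bd := by decide +kernel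

/-- the automorphism of `W` interchanging `wa` and `wb` -/
def sig : W →* W := rel_swap.lift

theorem sig_injective : Function.Injective sig := by
  apply W.injective_of_ne
  rw [wz_eq, sig]
  simp only [map_mul, Rel.lift_a, Rel.lift_b, Rel.lift_t]
  decide +kernel

theorem map_sig : A0.map sig = B0 ∧ B0.map sig = A0 := by
  rcases map_AB sig_injective with ⟨h, -⟩ | h
  · exfalso
    have h1 : sig wa ∈ A0.map sig := mem_map_of_mem sig (by rw [mem_A0]; decide +kernel)
    rw [h, sig, Rel.lift_a, mem_A0] at h1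
    revert h1
    decide +kernel
  · exact h

theorem map_conj_A0 (g : W) : A0.map (MulAut.conj g).toMonoidHom = A0 := by
  apply Subgroup.eq_of_le_of_card_ge
  · rintro _ ⟨v, hv, rfl⟩
    exact mem_A0.2 (A0_conj g (mem_A0.1 hv))
  · rw [card_map_of_injective (MulAut.conj g).injective]

theorem map_conj_B0 (g : W) : B0.map (MulAut.conj g).toMonoidHom = B0 := by
  apply Subgroup.eq_of_le_of_card_ge
  · rintro _ ⟨v, hv, rfl⟩
    exact mem_B0.2 (B0_conj g (mem_B0.1 hv))
  · rw [card_map_of_injective (MulAut.conj g).injective]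

theorem exists_phi {S : Type*} [Group S] (ι : W →* S) (hι : Function.Injective ι) (x : S)
    (hx : ∀ p ∈ ι.range, x * p * x⁻¹ ∈ ι.range) :
    ∃ φ : W →* W, Function.Injective φ ∧ ∀ w, x * ι w * x⁻¹ = ι (φ w) := by
  have h1 : ∀ w, ∃ w', ι w' = x * ι w * x⁻¹ := fun w => hx _ ⟨w, rfl⟩
  choose φ hφ using h1
  refine ⟨MonoidHom.mk' φ ?_, ?_, ?_⟩
  · intro v w
    apply hι
    rw [map_mul, hφ, hφ, hφ, map_mul]
    group
  · intro v w hvw
    have h2 : ι (φ v) = ι (φ w) := congrArg ι hvw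
    rw [hφ, hφ] at h2
    exact hι (mul_left_cancel (mul_right_cancel h2))
  · intro w
    exact (hφ w).symm

theorem A0_le_J0 : A0 ≤ J0 := by
  intro w hw
  rw [mem_A0, inA_iff] at hw
  rw [mem_J0]
  have key : ∀ w ∈ listA, InJ w := by decide +kernel
  exact key w hw

theorem B0_le_J0 : B0 ≤ J0 := by
  intro w hw
  rw [mem_B0, inB_iff] at hw
  rw [mem_J0]
  have key : ∀ w ∈ listB, InJ w := by decide +kernel
  exact key w hw

theorem phi_Z0 {φ : W →* W} (h1 : φ wz1 = wz1) (h2 : φ wz2 = wz2) {ζ : W} (hζ : ζ ∈ Z0) : φ ζ = ζ := by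
  rcases Z0_cases hζ with rfl | rfl | rfl | rfl
  · exact map_one φ
  · exact h1
  · exact h2
  · rw [map_mul, h1, h2]

section

variable {S : Type*} [Group S] [Finite S] (h2 : IsPGroup 2 S) (hr : SectionalPRankLE 2 4 S)
  (ι : W →* S) (hι : Function.Injective ι)

include h2 hr hι

theorem cent_B (y : S) (hy : ∀ w ∈ B0, y * ι w = ι w * y) : y ∈ B0.map ι := by
  have h1 := cent_A h2 hr (ι.comp sig) (hι.comp sig_injective) y (by
    intro w hw
    apply hy
    rw [← map_sig.1]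
    exact mem_map_of_mem sig hw)
  rw [← Subgroup.map_map, map_sig.1] at h1
  exact h1

/-- The key contradiction. -/
theorem bad {x : S} (hx : x ∉ ι.range) {φ : W →* W} (hφ : ∀ w, x * ι w * x⁻¹ = ι (φ w))
    (hA : A0.map φ = A0) (hB : B0.map φ = B0) (hz1 : φ wz1 = wz1) (hz2 : φ wz2 = wz2) : False := by
  have mA : ∀ v ∈ A0, φ v ∈ A0 := fun v hv => by rw [← hA]; exact mem_map_of_mem φ hv
  have mB : ∀ v ∈ B0, φ v ∈ B0 := fun v hv => by rw [← hB]; exact mem_map_of_mem φ hv
  have ia : wa ∈ A0 := by rw [mem_A0]; decide +kernel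
  have ib : wb ∈ B0 := by rw [mem_B0]; decide +kernel
  have ic : wc ∈ A0 := by rw [mem_A0]; decide +kernel
  have id' : wd ∈ B0 := by rw [mem_B0]; decide +kernel
  have q := quad (mem_A0.1 (mA _ ia)) (mem_B0.1 (mB _ ib)) (mem_A0.1 (mA _ ic)) (mem_B0.1 (mB _ id'))
    (by rw [← map_mul, ← map_mul, show wa * wb * (wa * wb) = wz1 by decide +kernel, hz1])
    (by rw [← map_mul, ← map_mul, show wc * wd * (wc * wd) = wz2 by decide +kernel, hz2])
    (by rw [← map_mul, ← map_mul, show wa * wd = wd * wa by decide +kernel])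
    (by rw [← map_mul, ← map_mul, show wb * wc = wc * wb by decide +kernel])
  obtain ⟨qa, qb, qc, qd⟩ := q
  have hcomm : ∀ g : W, g * g = 1 → φ g * g ∈ Z0 → x * ι g * x⁻¹ * (ι g)⁻¹ ∈ Z0.map ι := by
    intro g hg h
    refine ⟨φ g * g, h, ?_⟩
    rw [map_mul, ← hφ]
    have : ι g = (ι g)⁻¹ := by
      rw [eq_inv_iff_mul_eq_one, ← map_mul, hg, map_one]
    rw [← this]
  have hsq : ∀ g : W, g * g = 1 → φ g * g ∈ Z0 → φ (φ g) = g := by
    intro g hg h
    have h3 : φ g = (φ g * g) * g := by rw [mul_assoc, hg, mul_one]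
    have h4 := phi_Z0 hz1 hz2 h
    have h5 : (φ g * g) * (φ g * g) = 1 := A0_sq (mem_A0.1 h.1)
    calc φ (φ g) = φ ((φ g * g) * g) := by rw [← h3]
      _ = φ (φ g * g) * φ g := map_mul _ _ _
      _ = (φ g * g) * φ g := by rw [h4]
      _ = (φ g * g) * ((φ g * g) * g) := by rw [← h3]
      _ = ((φ g * g) * (φ g * g)) * g := by group
      _ = g := by rw [h5, one_mul]
  have eaa : wa * wa = 1 := by decide +kernel
  have ebb : wb * wb = 1 := by decide +kernel
  have ecc : wc * wc = 1 := by decide +kernel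
  have edd : wd * wd = 1 := by decide +kernel
  have hJ : ∀ w ∈ J0, φ (φ w) = w := by
    intro w hw
    have h3 := J0_le hw
    have h4 : Set.EqOn (φ.comp φ) (MonoidHom.id W) (closure ({wa, wb, wc, wd} : Set W)) := by
      apply MonoidHom.eqOn_closure
      intro g hg
      simp only [Set.mem_insert_iff, Set.mem_singleton_iff] at hg
      rcases hg with rfl | rfl | rfl | rfl
      · exact hsq _ eaa qa
      · exact hsq _ ebb qb
      · exact hsq _ ecc qc
      · exact hsq _ edd qd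
    exact h4 h3
  have hxx : ∀ w ∈ J0, x * x * ι w = ι w * (x * x) := by
    intro w hw
    have h3 : x * (x * ι w * x⁻¹) * x⁻¹ = ι w := by rw [hφ, hφ, hJ w hw]
    calc x * x * ι w = (x * (x * ι w * x⁻¹) * x⁻¹) * (x * x) := by group
      _ = ι w * (x * x) := by rw [h3]
  obtain ⟨v, hv, hvx⟩ := cent_A h2 hr ι hι (x * x) (fun w hw => hxx w (A0_le_J0 hw))
  have hvZ : v ∈ Z0 := by
    rw [mem_Z0]
    refine ⟨mem_A0.1 hv, ?_, ?_⟩
    · apply hι
      rw [map_mul, map_mul, hvx]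
      exact hxx _ (B0_le_J0 ib)
    · apply hι
      rw [map_mul, map_mul, hvx]
      exact hxx _ (B0_le_J0 id')
  have hzc : ∀ g : W, φ g = g → x * ι g = ι g * x := by
    intro g hg
    have h3 := hφ g
    rw [hg] at h3
    exact mul_inv_eq_iff_eq_mul.1 h3
  obtain ⟨j, -, hj⟩ := no_fifth hr ι hι x (hcomm _ eaa qa) (hcomm _ ebb qb) (hcomm _ ecc qc) (hcomm _ edd qd)
    (hzc _ hz1) (hzc _ hz2) ⟨v, hvZ, hvx⟩
  exact hx ⟨j, hj⟩

/-- Version where `x` may interchange the two central involutions. -/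
theorem bad' {x : S} (hx : x ∉ ι.range) {φ : W →* W} (hinj : Function.Injective φ)
    (hφ : ∀ w, x * ι w * x⁻¹ = ι (φ w)) (hA : A0.map φ = A0) (hB : B0.map φ = B0) : False := by
  rcases map_wz1 hinj with ⟨h1, h3⟩ | ⟨h1, h3⟩
  · exact bad h2 hr ι hι hx hφ hA hB h1 h3
  · refine bad h2 hr ι hι (x := x * ι wt) (φ := φ.comp (MulAut.conj wt).toMonoidHom) ?_ ?_ ?_ ?_ ?_ ?_
    · intro h
      exact hx ((Subgroup.mul_mem_cancel_right _ (show ι wt ∈ ι.range from ⟨wt, rfl⟩)).1 h)
    · intro w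
      change _ = ι (φ (wt * w * wt⁻¹))
      rw [← hφ, map_mul, map_mul, map_inv]
      group
    · rw [← Subgroup.map_map, map_conj_A0, hA]
    · rw [← Subgroup.map_map, map_conj_B0, hB]
    · change φ (wt * wz1 * wt⁻¹) = wz1
      rw [show wt * wz1 * wt⁻¹ = wz2 by decide +kernel, h3]
    · change φ (wt * wz2 * wt⁻¹) = wz2
      rw [show wt * wz2 * wt⁻¹ = wz1 by decide +kernel, h1]

/-- `N_S(A0) ≤ W` -/
theorem norm_A : normalizer ((A0.map ι : Subgroup S) : Set S) ≤ ι.range := by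
  by_contra hne
  have hWM : ι.range ≤ normalizer ((A0.map ι : Subgroup S) : Set S) := by
    rintro _ ⟨g, rfl⟩
    rw [mem_normalizer_iff]
    intro h
    constructor
    · rintro ⟨v, hv, rfl⟩
      exact ⟨g * v * g⁻¹, mem_A0.2 (A0_conj g (mem_A0.1 hv)), by rw [map_mul, map_mul, map_inv]⟩
    · rintro ⟨v, hv, hvh⟩
      refine ⟨g⁻¹ * v * g, ?_, ?_⟩
      · have := mem_A0.2 (A0_conj g⁻¹ (mem_A0.1 hv))
        rwa [inv_inv] at this
      · rw [map_mul, map_mul, hvh, map_inv]
        group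
  obtain ⟨x, hxM, hxP, hxn, -⟩ := exists_normalizing h2 hWM hne
  obtain ⟨φ, hinj, hφ⟩ := exists_phi ι hι x hxn
  have hA : A0.map φ ≤ A0 := by
    rintro _ ⟨v, hv, rfl⟩
    have h3 := (mem_normalizer_iff.1 hxM (ι v)).1 (mem_map_of_mem ι hv)
    rw [hφ] at h3
    obtain ⟨w, hw, hwv⟩ := h3
    rw [← hι hwv]
    exact hw
  rcases map_AB hinj with ⟨h3, h4⟩ | ⟨h3, h4⟩
  · exact bad' h2 hr ι hι hxP hinj hφ h3 h4
  · apply A0_ne_B0
    rw [h3] at hA
    exact (Subgroup.eq_of_le_of_card_ge hA (by rw [card_A0, card_B0])).symm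

/-- `N_S(B0) ≤ W` -/
theorem norm_B : normalizer ((B0.map ι : Subgroup S) : Set S) ≤ ι.range := by
  have h1 := norm_A h2 hr (ι.comp sig) (hι.comp sig_injective)
  rw [← Subgroup.map_map, map_sig.1] at h1
  refine h1.trans ?_
  rintro _ ⟨w, rfl⟩
  exact ⟨sig w, rfl⟩

omit [Finite S] h2 hr hι in
theorem range_le_norm_A : ι.range ≤ normalizer ((A0.map ι : Subgroup S) : Set S) := by
  rintro _ ⟨g, rfl⟩
  rw [mem_normalizer_iff]
  intro h
  constructor
  · rintro ⟨v, hv, rfl⟩
    exact ⟨g * v * g⁻¹, mem_A0.2 (A0_conj g (mem_A0.1 hv)), by rw [map_mul, map_mul, map_inv]⟩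
  · rintro ⟨v, hv, hvh⟩
    refine ⟨g⁻¹ * v * g, ?_, ?_⟩
    · have := mem_A0.2 (A0_conj g⁻¹ (mem_A0.1 hv))
      rwa [inv_inv] at this
    · rw [map_mul, map_mul, hvh, map_inv]
      group

omit [Finite S] h2 hr hι in
theorem range_le_norm_B : ι.range ≤ normalizer ((B0.map ι : Subgroup S) : Set S) := by
  rintro _ ⟨g, rfl⟩
  rw [mem_normalizer_iff]
  intro h
  constructor
  · rintro ⟨v, hv, rfl⟩
    exact ⟨g * v * g⁻¹, mem_B0.2 (B0_conj g (mem_B0.1 hv)), by rw [map_mul, map_mul, map_inv]⟩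
  · rintro ⟨v, hv, hvh⟩
    refine ⟨g⁻¹ * v * g, ?_, ?_⟩
    · have := mem_B0.2 (B0_conj g⁻¹ (mem_B0.1 hv))
      rwa [inv_inv] at this
    · rw [map_mul, map_mul, hvh, map_inv]
      group

/-- an element of `N_S(W)` outside `W` interchanges `A0` and `B0` -/
theorem swaps {x : S} (hx : x ∉ ι.range) {φ : W →* W} (hinj : Function.Injective φ)
    (hφ : ∀ w, x * ι w * x⁻¹ = ι (φ w)) : A0.map φ = B0 ∧ B0.map φ = A0 := by
  rcases map_AB hinj with ⟨h3, h4⟩ | h
  · exact absurd (bad' h2 hr ι hι hx hinj hφ h3 h4) id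
  · exact h

/-- the centre of `S` -/
theorem center_eq : center S = zpowers (ι wz) := by
  have : Fact (Nat.Prime 2) := ⟨Nat.prime_two⟩
  have hz2 : ι wz * ι wz = 1 := by rw [← map_mul, show wz * wz = 1 by decide +kernel, map_one]
  have hz1 : ι wz ≠ 1 := by
    intro h
    rw [← map_one ι] at h
    have := hι h
    revert this
    decide +kernel
  have h1 : center S ≤ zpowers (ι wz) := by
    intro x hx
    obtain ⟨v, hv, rfl⟩ := cent_A h2 hr ι hι x (fun w _ => ((mem_center_iff.1 hx) (ι w)).symm)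
    rcases center_le v (by
      intro y
      apply hι
      rw [map_mul, map_mul]
      exact ((mem_center_iff.1 hx) (ι y)).symm) with h | h
    · rw [h, map_one]; exact one_mem _
    · rw [h]; exact mem_zpowers _
  have : Nontrivial S := ⟨⟨_, _, hz1⟩⟩
  have h3 := h2.center_nontrivial
  apply le_antisymm h1
  apply (Subgroup.eq_of_le_of_card_ge h1 _).ge
  rw [Nat.card_zpowers, orderOf_eq_prime (p := 2) (by rw [pow_two, hz2]) hz1]
  exact Finite.one_lt_card

omit [Finite S] h2 hr in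
theorem card_zpowers_wz : Nat.card (zpowers (ι wz)) = 2 := by
  have : Fact (Nat.Prime 2) := ⟨Nat.prime_two⟩
  have hz2 : ι wz * ι wz = 1 := by rw [← map_mul, show wz * wz = 1 by decide +kernel, map_one]
  have hz1 : ι wz ≠ 1 := by
    intro h
    rw [← map_one ι] at h
    have := hι h
    revert this
    decide +kernel
  rw [Nat.card_zpowers]
  exact orderOf_eq_prime (by rw [pow_two, hz2]) hz1

end

end Cfsg.Agent.H584.WrRank
end

-- part: H584/WrGrow
section
/-!
# The growth of `D₈ ≀ C₂`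

`ι : W →* S` injective, `S` a 2-group of sectional rank at most 4, `u ∈ N_S(W) - W`. Up to changing `u` modulo `W` and
`ι` by an automorphism of `W`, `u` interchanges `wa`, `wb` and `wc`, `wd`, centralizes `wt` modulo `wz`, `u² ∈ ⟨wz⟩`.
-/

set_option autoImplicit false

namespace Cfsg.Agent.H584.WrRank

open Subgroup Cfsg Cfsg.Agent.TwoFusion.SectionalRank Cfsg.Agent.H584.WrModel Cfsg.Agent.H584.WrModel.W

/-- `φ` interchanges `wa` and `wb`, `wc` and `wd` modulo `Z0` and centralizes `Z0`. -/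
structure Sw (φ : W →* W) : Prop where
  z1 : φ wz1 = wz1
  z2 : φ wz2 = wz2
  a : φ wa * wb ∈ Z0
  b : φ wb * wa ∈ Z0
  c : φ wc * wd ∈ Z0
  d : φ wd * wc ∈ Z0

theorem mul_right_Z0 {ζ w : W} (hζ : ζ ∈ Z0) : ζ * w ∈ Z0 ↔ w ∈ Z0 := Subgroup.mul_mem_cancel_left Z0 hζ

theorem Z0_comm_J0 {ζ w : W} (hζ : ζ ∈ Z0) (hw : w ∈ J0) : ζ * w = w * ζ := by
  rw [mem_Z0, inZ_iff] at hζ
  rw [mem_J0] at hw
  have key : ∀ ζ ∈ listZ, ∀ w : W, InJ w → ζ * w = w * ζ := by decide +kernel
  exact key ζ hζ w hw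

theorem Z0_le_J0 : Z0 ≤ J0 := inf_le_left.trans A0_le_J0

theorem Z0_sq {ζ : W} (hζ : ζ ∈ Z0) : ζ * ζ = 1 := A0_sq (mem_A0.1 hζ.1)

/-- Changing by an inner automorphism from `J0`. -/
theorem Sw.conj {φ : W →* W} (h : Sw φ) {g : W} (hg : g ∈ J0) :
    Sw ((MulAut.conj g).toMonoidHom.comp φ) := by
  have hg' : InJ g := mem_J0.1 hg
  have key : ∀ g : W, InJ g → g * wz1 * g⁻¹ = wz1 ∧ g * wz2 * g⁻¹ = wz2 ∧ g * wa * g⁻¹ * wa ∈ listZ ∧
      g * wb * g⁻¹ * wb ∈ listZ ∧ g * wc * g⁻¹ * wc ∈ listZ ∧ g * wd * g⁻¹ * wd ∈ listZ := by decide +kernel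
  obtain ⟨k1, k2, k3, k4, k5, k6⟩ := key g hg'
  have aux : ∀ x y : W, y * y = 1 → x * y ∈ Z0 → g * y * g⁻¹ * y ∈ listZ → g * x * g⁻¹ * y ∈ Z0 := by
    intro x y hy hxy hl
    rw [← inZ_iff, ← mem_Z0] at hl
    have e : g * x * g⁻¹ * y = (x * y) * (g * y * g⁻¹ * y) := by
      have h3 : g * (x * y) = (x * y) * g := (Z0_comm_J0 hxy hg).symm
      calc g * x * g⁻¹ * y = g * x * (y * y) * g⁻¹ * y := by rw [hy, mul_one]
        _ = (g * (x * y)) * y * g⁻¹ * y := by group
        _ = ((x * y) * g) * y * g⁻¹ * y := by rw [h3]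
        _ = (x * y) * (g * y * g⁻¹ * y) := by group
    rw [e]
    exact mul_mem hxy hl
  exact ⟨by change g * φ wz1 * g⁻¹ = wz1; rw [h.z1, k1], by change g * φ wz2 * g⁻¹ = wz2; rw [h.z2, k2],
    aux _ _ (by decide +kernel) h.a k4, aux _ _ (by decide +kernel) h.b k3,
    aux _ _ (by decide +kernel) h.c k6, aux _ _ (by decide +kernel) h.d k5⟩

section

variable {S : Type*} [Group S] [Finite S] (h2 : IsPGroup 2 S) (hr : SectionalPRankLE 2 4 S)
  (ι : W →* S) (hι : Function.Injective ι)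

/-- the data of an element `u` -/
structure Dat (ι : W →* S) (u : S) (φ : W →* W) (j : W) : Prop where
  nm : u ∉ ι.range
  hφ : ∀ w, u * ι w * u⁻¹ = ι (φ w)
  sw : Sw φ
  sq : u * u = ι j
  jJ : j ∈ J0

omit [Finite S] in
theorem Dat.mul {ι : W →* S} {u : S} {φ : W →* W} {j : W} (h : Dat ι u φ j) {g : W} (hg : g ∈ J0)
    (hg' : g * φ g * j ∈ J0) : Dat ι (ι g * u) ((MulAut.conj g).toMonoidHom.comp φ) (g * φ g * j) where
  nm := by
    intro h3
    exact h.nm ((Subgroup.mul_mem_cancel_left _ (show ι g ∈ ι.range from ⟨g, rfl⟩)).1 h3)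
  hφ := by
    intro w
    change _ = ι (g * φ w * g⁻¹)
    rw [map_mul, map_mul, ← h.hφ, map_inv]
    group
  sw := h.sw.conj hg
  sq := by
    rw [map_mul, map_mul, ← h.hφ, ← h.sq]
    group
  jJ := hg'

include h2 hr hι

theorem exists_dat {x : S} (hx : x ∉ ι.range) (hxn : ∀ p ∈ ι.range, x * p * x⁻¹ ∈ ι.range)
    (hxx : x * x ∈ ι.range) : ∃ u φ j, Dat ι u φ j := by
  -- first with `φ wz1 = wz1`
  have step : ∀ (x : S), x ∉ ι.range → x * x ∈ ι.range → ∀ φ : W →* W, Function.Injective φ →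
      (∀ w, x * ι w * x⁻¹ = ι (φ w)) → φ wz1 = wz1 → φ wz2 = wz2 → ∃ u φ j, Dat ι u φ j := by
    intro x hx hxx φ hinj hφ hz1 hz2
    obtain ⟨hA, hB⟩ := swaps h2 hr ι hι hx hinj hφ
    have mA : ∀ v ∈ A0, φ v ∈ B0 := fun v hv => by rw [← hA]; exact mem_map_of_mem φ hv
    have mB : ∀ v ∈ B0, φ v ∈ A0 := fun v hv => by rw [← hB]; exact mem_map_of_mem φ hv
    have ia : wa ∈ A0 := by rw [mem_A0]; decide +kernel
    have ib : wb ∈ B0 := by rw [mem_B0]; decide +kernel
    have ic : wc ∈ A0 := by rw [mem_A0]; decide +kernel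
    have id' : wd ∈ B0 := by rw [mem_B0]; decide +kernel
    have q := quad (mem_A0.1 (mB _ ib)) (mem_B0.1 (mA _ ia)) (mem_A0.1 (mB _ id')) (mem_B0.1 (mA _ ic))
      (by rw [← map_mul, ← map_mul, show wb * wa * (wb * wa) = wz1 by decide +kernel, hz1])
      (by rw [← map_mul, ← map_mul, show wd * wc * (wd * wc) = wz2 by decide +kernel, hz2])
      (by rw [← map_mul, ← map_mul, show wb * wc = wc * wb by decide +kernel])
      (by rw [← map_mul, ← map_mul, show wa * wd = wd * wa by decide +kernel])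
    obtain ⟨qb, qa, qd, qc⟩ := q
    obtain ⟨j, hj⟩ := hxx
    refine ⟨x, φ, j, ⟨hx, hφ, ⟨hz1, hz2, qa, qb, qc, qd⟩, hj.symm, ?_⟩⟩
    rw [mem_J0, InJ]
    apply hι
    rw [map_mul, map_mul, hj]
    have h3 : x * ι wz1 = ι wz1 * x := by
      have := hφ wz1
      rw [hz1] at this
      exact mul_inv_eq_iff_eq_mul.1 this
    rw [mul_assoc, h3, ← mul_assoc, h3, mul_assoc]
  obtain ⟨φ, hinj, hφ⟩ := exists_phi ι hι x hxn
  rcases map_wz1 hinj with ⟨h1, h3⟩ | ⟨h1, h3⟩
  · exact step x hx hxx φ hinj hφ h1 h3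
  · refine step (x * ι wt) ?_ ?_ (φ.comp (MulAut.conj wt).toMonoidHom)
      (hinj.comp (MulAut.conj wt).injective) ?_ ?_ ?_
    · intro h
      exact hx ((Subgroup.mul_mem_cancel_right _ (show ι wt ∈ ι.range from ⟨wt, rfl⟩)).1 h)
    · have h4 : x * ι wt * (x * ι wt) = (x * ι wt * x⁻¹) * (x * x) * ι wt := by group
      rw [h4, hφ]
      exact mul_mem (mul_mem ⟨_, rfl⟩ hxx) ⟨_, rfl⟩
    · intro w
      change _ = ι (φ (wt * w * wt⁻¹))
      rw [← hφ, map_mul, map_mul, map_inv]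
      group
    · change φ (wt * wz1 * wt⁻¹) = wz1
      rw [show wt * wz1 * wt⁻¹ = wz2 by decide +kernel, h3]
    · change φ (wt * wz2 * wt⁻¹) = wz2
      rw [show wt * wz2 * wt⁻¹ = wz1 by decide +kernel, h1]

omit [Finite S] h2 hr in
/-- `φ ∘ φ` is conjugation by `j` -/
theorem Dat.phi_phi {u : S} {φ : W →* W} {j : W} (h : Dat ι u φ j) (w : W) : φ (φ w) = j * w * j⁻¹ := by
  apply hι
  rw [← h.hφ, ← h.hφ, map_mul, map_mul, map_inv, ← h.sq]
  group

omit [Finite S] h2 hr in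
/-- Stage B: `u² ∈ Z0`. -/
theorem Dat.stageB {u : S} {φ : W →* W} {j : W} (h : Dat ι u φ j) : ∃ u φ j, Dat ι u φ j ∧ j ∈ Z0 := by
  have sq' : ∀ x y : W, x * x = 1 → y * y = 1 → φ x * y ∈ Z0 → φ y * x ∈ Z0 →
      φ (φ x) * x = φ (φ y) * y := by
    intro x y hx hy hxy hyx
    have e1 : φ x = (φ x * y) * y := by rw [mul_assoc, hy, mul_one]
    have e2 : φ y = (φ y * x) * x := by rw [mul_assoc, hx, mul_one]
    have e3 : φ (φ x) = (φ x * y) * (φ y * x) * x := by
      calc φ (φ x) = φ ((φ x * y) * y) := by rw [← e1]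
        _ = φ (φ x * y) * φ y := map_mul _ _ _
        _ = (φ x * y) * ((φ y * x) * x) := by rw [phi_Z0 h.sw.z1 h.sw.z2 hxy, ← e2]
        _ = (φ x * y) * (φ y * x) * x := by group
    have e4 : φ (φ y) = (φ y * x) * (φ x * y) * y := by
      calc φ (φ y) = φ ((φ y * x) * x) := by rw [← e2]
        _ = φ (φ y * x) * φ x := map_mul _ _ _
        _ = (φ y * x) * ((φ x * y) * y) := by rw [phi_Z0 h.sw.z1 h.sw.z2 hyx, ← e1]
        _ = (φ y * x) * (φ x * y) * y := by group
    have e5 : (φ x * y) * (φ y * x) = (φ y * x) * (φ x * y) := Z0_comm_J0 hxy (Z0_le_J0 hyx)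
    calc φ (φ x) * x = (φ x * y) * (φ y * x) * (x * x) := by rw [e3]; group
      _ = (φ y * x) * (φ x * y) * (y * y) := by rw [hx, hy, e5]
      _ = φ (φ y) * y := by rw [e4]; group
  have hab := sq' wa wb (by decide +kernel) (by decide +kernel) h.sw.a h.sw.b
  have hcd := sq' wc wd (by decide +kernel) (by decide +kernel) h.sw.c h.sw.d
  rw [h.phi_phi ι hι, h.phi_phi ι hι] at hab hcd
  have key : ∀ j : W, InJ j → j * wa * j⁻¹ * wa = j * wb * j⁻¹ * wb → j * wc * j⁻¹ * wc = j * wd * j⁻¹ * wd →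
      InZ j ∨ InZ (wa * wb * j) ∨ InZ (wc * wd * j) ∨ InZ (wa * wc * (wb * wd) * j) := by decide +kernel
  have ha := h.sw.a
  have hc := h.sw.c
  have ea : φ wa = (φ wa * wb) * wb := by rw [mul_assoc, show wb * wb = 1 by decide +kernel, mul_one]
  have ec : φ wc = (φ wc * wd) * wd := by rw [mul_assoc, show wd * wd = 1 by decide +kernel, mul_one]
  have iJ : wa ∈ J0 ∧ wb ∈ J0 ∧ wc ∈ J0 ∧ wd ∈ J0 := by
    simp only [mem_J0]
    decide +kernel
  obtain ⟨ja, jb, jc, jd⟩ := iJ
  rcases key j (mem_J0.1 h.jJ) hab hcd with h3 | h3 | h3 | h3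
  · exact ⟨u, φ, j, h, mem_Z0.2 h3⟩
  · have e : wa * φ wa * j = (φ wa * wb) * (wa * wb * j) := by
      have h4 : wa * (φ wa * wb) = (φ wa * wb) * wa := (Z0_comm_J0 ha ja).symm
      calc wa * φ wa * j = wa * ((φ wa * wb) * wb) * j := by rw [← ea]
        _ = (wa * (φ wa * wb)) * wb * j := by group
        _ = ((φ wa * wb) * wa) * wb * j := by rw [h4]
        _ = (φ wa * wb) * (wa * wb * j) := by group
    have hZ : wa * φ wa * j ∈ Z0 := by rw [e]; exact mul_mem ha (mem_Z0.2 h3)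
    exact ⟨_, _, _, h.mul ja (Z0_le_J0 hZ), hZ⟩
  · have e : wc * φ wc * j = (φ wc * wd) * (wc * wd * j) := by
      have h4 : wc * (φ wc * wd) = (φ wc * wd) * wc := (Z0_comm_J0 hc jc).symm
      calc wc * φ wc * j = wc * ((φ wc * wd) * wd) * j := by rw [← ec]
        _ = (wc * (φ wc * wd)) * wd * j := by group
        _ = ((φ wc * wd) * wc) * wd * j := by rw [h4]
        _ = (φ wc * wd) * (wc * wd * j) := by group
    have hZ : wc * φ wc * j ∈ Z0 := by rw [e]; exact mul_mem hc (mem_Z0.2 h3)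
    exact ⟨_, _, _, h.mul jc (Z0_le_J0 hZ), hZ⟩
  · have e : wa * wc * φ (wa * wc) * j = (φ wa * wb) * (φ wc * wd) * (wa * wc * (wb * wd) * j) := by
      have h4 : wa * wc * (φ wa * wb) = (φ wa * wb) * (wa * wc) := (Z0_comm_J0 ha (mul_mem ja jc)).symm
      have h5 : wa * wc * wb * (φ wc * wd) = (φ wc * wd) * (wa * wc * wb) :=
        (Z0_comm_J0 hc (mul_mem (mul_mem ja jc) jb)).symm
      calc wa * wc * φ (wa * wc) * j = wa * wc * (((φ wa * wb) * wb) * ((φ wc * wd) * wd)) * j := by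
            rw [map_mul, ← ea, ← ec]
        _ = (wa * wc * (φ wa * wb)) * wb * (φ wc * wd) * wd * j := by group
        _ = (φ wa * wb) * (wa * wc * wb * (φ wc * wd)) * wd * j := by rw [h4]; group
        _ = (φ wa * wb) * (φ wc * wd) * (wa * wc * (wb * wd) * j) := by rw [h5]; group
    have hZ : wa * wc * φ (wa * wc) * j ∈ Z0 := by rw [e]; exact mul_mem (mul_mem ha hc) (mem_Z0.2 h3)
    exact ⟨_, _, _, h.mul (mul_mem ja jc) (Z0_le_J0 hZ), hZ⟩

omit [Finite S] h2 hr in
/-- when `j ∈ Z0`: the corrections of `wa` and `wb` agree -/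
theorem Dat.eqs {u : S} {φ : W →* W} {j : W} (h : Dat ι u φ j) (hj : j ∈ Z0) :
    φ wa * wb = φ wb * wa ∧ φ wc * wd = φ wd * wc := by
  have aux : ∀ x y : W, x ∈ J0 → x * x = 1 → y * y = 1 → φ x * y ∈ Z0 → φ y * x ∈ Z0 →
      φ x * y = φ y * x := by
    intro x y hxJ hx hy hxy hyx
    have e1 : φ x = (φ x * y) * y := by rw [mul_assoc, hy, mul_one]
    have e2 : φ y = (φ y * x) * x := by rw [mul_assoc, hx, mul_one]
    have e3 : φ (φ x) = (φ x * y) * (φ y * x) * x := by
      calc φ (φ x) = φ ((φ x * y) * y) := by rw [← e1]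
        _ = φ (φ x * y) * φ y := map_mul _ _ _
        _ = (φ x * y) * ((φ y * x) * x) := by rw [phi_Z0 h.sw.z1 h.sw.z2 hxy, ← e2]
        _ = (φ x * y) * (φ y * x) * x := by group
    rw [h.phi_phi ι hι, Z0_comm_J0 hj hxJ, mul_inv_cancel_right] at e3
    have e4 : (φ x * y) * (φ y * x) = 1 := by
      have : (φ x * y) * (φ y * x) * x = 1 * x := by rw [one_mul, ← e3]
      exact mul_right_cancel this
    have e5 : φ x * y = (φ y * x)⁻¹ := eq_inv_of_mul_eq_one_left e4
    rw [e5]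
    exact inv_eq_of_mul_eq_one_left (Z0_sq hyx)
  have iJ : wa ∈ J0 ∧ wc ∈ J0 := by
    simp only [mem_J0]
    decide +kernel
  exact ⟨aux wa wb iJ.1 (by decide +kernel) (by decide +kernel) h.sw.a h.sw.b,
    aux wc wd iJ.2 (by decide +kernel) (by decide +kernel) h.sw.c h.sw.d⟩

omit [Finite S] h2 hr in
/-- Stage C: moreover `φ wa * wb ∈ {1, wz2}` and `φ wc * wd ∈ {1, wz1}`. -/
theorem Dat.stageC {u : S} {φ : W →* W} {j : W} (h : Dat ι u φ j) (hj : j ∈ Z0) :
    ∃ u φ j, Dat ι u φ j ∧ j ∈ Z0 ∧ (φ wa * wb = 1 ∨ φ wa * wb = wz2) ∧ (φ wc * wd = 1 ∨ φ wc * wd = wz1) := by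
  have iJ : wa ∈ J0 ∧ wb ∈ J0 ∧ wc ∈ J0 ∧ wd ∈ J0 := by
    simp only [mem_J0]
    decide +kernel
  obtain ⟨ja, jb, jc, jd⟩ := iJ
  -- first fix `a`
  have stepA : ∃ u φ j, Dat ι u φ j ∧ j ∈ Z0 ∧ (φ wa * wb = 1 ∨ φ wa * wb = wz2) := by
    have hcase : (φ wa * wb = 1 ∨ φ wa * wb = wz2) ∨ (φ wa * wb = wz1 ∨ φ wa * wb = wz1 * wz2) := by
      rcases Z0_cases h.sw.a with h3 | h3 | h3 | h3 <;> simp [h3]
    rcases hcase with h3 | h3
    · exact ⟨u, φ, j, h, hj, h3⟩
    · obtain ⟨e1, -⟩ := h.eqs ι hι hj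
      have ha := h.sw.a
      have ea : φ wa = (φ wa * wb) * wb := by rw [mul_assoc, show wb * wb = 1 by decide +kernel, mul_one]
      have eb : φ wb = (φ wa * wb) * wa := by rw [e1, mul_assoc, show wa * wa = 1 by decide +kernel, mul_one]
      have e : wa * wb * φ (wa * wb) = 1 := by
        have h4 : wb * (φ wa * wb) = (φ wa * wb) * wb := (Z0_comm_J0 ha jb).symm
        calc wa * wb * φ (wa * wb) = wa * wb * (((φ wa * wb) * wb) * ((φ wa * wb) * wa)) := by
              rw [map_mul, ← ea, ← eb]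
          _ = wa * wb * ((φ wa * wb) * (wb * (φ wa * wb)) * wa) := by group
          _ = wa * wb * (((φ wa * wb) * (φ wa * wb)) * wb * wa) := by rw [h4]; group
          _ = wa * wb * (wb * wa) := by rw [Z0_sq ha, one_mul]
          _ = 1 := by decide +kernel
      have e' : wa * wb * φ (wa * wb) * j = j := by rw [e, one_mul]
      refine ⟨_, _, _, h.mul (mul_mem ja jb) (by rw [e']; exact h.jJ), by rw [e']; exact hj, ?_⟩
      change (wa * wb * φ wa * (wa * wb)⁻¹) * wb = 1 ∨ (wa * wb * φ wa * (wa * wb)⁻¹) * wb = wz2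
      have h5 : (wa * wb * φ wa * (wa * wb)⁻¹) * wb = (φ wa * wb) * wz1 := by
        have h6 : wa * wb * (φ wa * wb) = (φ wa * wb) * (wa * wb) := (Z0_comm_J0 ha (mul_mem ja jb)).symm
        calc (wa * wb * φ wa * (wa * wb)⁻¹) * wb = (wa * wb * (φ wa * wb)) * wb * (wa * wb)⁻¹ * wb := by
              conv_lhs => rw [ea]
              group
          _ = (φ wa * wb) * ((wa * wb) * wb * (wa * wb)⁻¹ * wb) := by rw [h6]; group
          _ = (φ wa * wb) * wz1 := by
              rw [show (wa * wb) * wb * (wa * wb)⁻¹ * wb = wz1 by decide +kernel]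
      rw [h5]
      rcases h3 with h3 | h3 <;> rw [h3]
      · left; decide +kernel
      · right; decide +kernel
  obtain ⟨u, φ, j, h, hj, h3⟩ := stepA
  have hcase : (φ wc * wd = 1 ∨ φ wc * wd = wz1) ∨ (φ wc * wd = wz2 ∨ φ wc * wd = wz1 * wz2) := by
    rcases Z0_cases h.sw.c with h4 | h4 | h4 | h4 <;> simp [h4]
  rcases hcase with h4 | h4
  · exact ⟨u, φ, j, h, hj, h3, h4⟩
  · obtain ⟨-, e1⟩ := h.eqs ι hι hj
    have hc := h.sw.c
    have ec : φ wc = (φ wc * wd) * wd := by rw [mul_assoc, show wd * wd = 1 by decide +kernel, mul_one]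
    have ed : φ wd = (φ wc * wd) * wc := by rw [e1, mul_assoc, show wc * wc = 1 by decide +kernel, mul_one]
    have e : wc * wd * φ (wc * wd) = 1 := by
      have h5 : wd * (φ wc * wd) = (φ wc * wd) * wd := (Z0_comm_J0 hc jd).symm
      calc wc * wd * φ (wc * wd) = wc * wd * (((φ wc * wd) * wd) * ((φ wc * wd) * wc)) := by
            rw [map_mul, ← ec, ← ed]
        _ = wc * wd * ((φ wc * wd) * (wd * (φ wc * wd)) * wc) := by group
        _ = wc * wd * (((φ wc * wd) * (φ wc * wd)) * wd * wc) := by rw [h5]; group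
        _ = wc * wd * (wd * wc) := by rw [Z0_sq hc, one_mul]
        _ = 1 := by decide +kernel
    have e' : wc * wd * φ (wc * wd) * j = j := by rw [e, one_mul]
    refine ⟨_, _, _, h.mul (mul_mem jc jd) (by rw [e']; exact h.jJ), by rw [e']; exact hj, ?_, ?_⟩
    · change (wc * wd * φ wa * (wc * wd)⁻¹) * wb = 1 ∨ (wc * wd * φ wa * (wc * wd)⁻¹) * wb = wz2
      have h5 : (wc * wd * φ wa * (wc * wd)⁻¹) * wb = φ wa * wb := by
        have ea : φ wa = (φ wa * wb) * wb := by
          rw [mul_assoc, show wb * wb = 1 by decide +kernel, mul_one]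
        have h6 : wc * wd * (φ wa * wb) = (φ wa * wb) * (wc * wd) :=
          (Z0_comm_J0 h.sw.a (mul_mem jc jd)).symm
        calc (wc * wd * φ wa * (wc * wd)⁻¹) * wb = (wc * wd * (φ wa * wb)) * wb * (wc * wd)⁻¹ * wb := by
              conv_lhs => rw [ea]
              group
          _ = (φ wa * wb) * ((wc * wd) * wb * (wc * wd)⁻¹ * wb) := by rw [h6]; group
          _ = φ wa * wb := by
              rw [show (wc * wd) * wb * (wc * wd)⁻¹ * wb = 1 by decide +kernel, mul_one]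
      rw [h5]
      exact h3
    · change (wc * wd * φ wc * (wc * wd)⁻¹) * wd = 1 ∨ (wc * wd * φ wc * (wc * wd)⁻¹) * wd = wz1
      have h5 : (wc * wd * φ wc * (wc * wd)⁻¹) * wd = (φ wc * wd) * wz2 := by
        have h6 : wc * wd * (φ wc * wd) = (φ wc * wd) * (wc * wd) :=
          (Z0_comm_J0 hc (mul_mem jc jd)).symm
        calc (wc * wd * φ wc * (wc * wd)⁻¹) * wd = (wc * wd * (φ wc * wd)) * wd * (wc * wd)⁻¹ * wd := by
              conv_lhs => rw [ec]
              group
          _ = (φ wc * wd) * ((wc * wd) * wd * (wc * wd)⁻¹ * wd) := by rw [h6]; group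
          _ = (φ wc * wd) * wz2 := by
              rw [show (wc * wd) * wd * (wc * wd)⁻¹ * wd = wz2 by decide +kernel]
      rw [h5]
      rcases h4 with h4 | h4 <;> rw [h4]
      · left; decide +kernel
      · right; decide +kernel

end

end Cfsg.Agent.H584.WrRank
end

-- part: H584/WrFinal
section
/-!
# The growth of `D₈ ≀ C₂`: the normal form of `u`, and `N_S(W) / Z(S) ≅ D₈ ≀ C₂`
-/

set_option autoImplicit false

namespace Cfsg.Agent.H584.WrRank

open Subgroup Cfsg Cfsg.Agent.TwoFusion.SectionalRank Cfsg.Agent.H584.WrModel Cfsg.Agent.H584.WrModel.W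

/-- the normal form -/
structure Nf {S : Type*} [Group S] (ι : W →* S) (u : S) : Prop where
  nm : u ∉ ι.range
  a : u * ι wa * u⁻¹ = ι wb
  b : u * ι wb * u⁻¹ = ι wa
  c : u * ι wc * u⁻¹ = ι wd
  d : u * ι wd * u⁻¹ = ι wc
  t : u * ι wt * u⁻¹ = ι wt ∨ u * ι wt * u⁻¹ = ι (wt * wz)
  sq : u * u = 1 ∨ u * u = ι wz

theorem rel_tau : Rel (wa * wz2) wb wt where
  aa := by decide +kernel
  bb := by decide +kernel
  tt := by decide +kernel
  ab := by decide +kernel
  ac := by decide +kernel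
  ad := by decide +kernel
  bc := by decide +kernel
  bd := by decide +kernel

/-- the automorphism `wa ↦ wa * wz2`, `wb ↦ wb`, `wt ↦ wt` of `W` -/
def tau : W →* W := rel_tau.lift

theorem tau_injective : Function.Injective tau := by
  apply W.injective_of_ne
  rw [wz_eq, tau]
  simp only [map_mul, Rel.lift_a, Rel.lift_b, Rel.lift_t]
  decide +kernel

theorem tau_a : tau wa = wa * wz2 := rel_tau.lift_a
theorem tau_b : tau wb = wb := rel_tau.lift_b
theorem tau_t : tau wt = wt := rel_tau.lift_t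
theorem tau_c : tau wc = wc * wz1 := by
  rw [show wc = wt * wa * wt by decide +kernel, map_mul, map_mul, tau_a, tau_t]
  decide +kernel
theorem tau_d : tau wd = wd := by
  rw [show wd = wt * wb * wt by decide +kernel, map_mul, map_mul, tau_b, tau_t]

section

variable {S : Type*} [Group S] [Finite S] (h2 : IsPGroup 2 S) (hr : SectionalPRankLE 2 4 S)
  (ι : W →* S) (hι : Function.Injective ι)

include h2 hr hι

theorem exists_nf {x : S} (hx : x ∉ ι.range) (hxn : ∀ p ∈ ι.range, x * p * x⁻¹ ∈ ι.range)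
    (hxx : x * x ∈ ι.range) : ∃ (κ : W →* S) (u : S), Function.Injective κ ∧ κ.range = ι.range ∧ Nf κ u := by
  obtain ⟨u, φ, j, h⟩ := exists_dat h2 hr ι hι hx hxn hxx
  obtain ⟨u, φ, j, h, hj⟩ := h.stageB ι hι
  obtain ⟨u, φ, j, h, hj, hζ, hη⟩ := h.stageC ι hι hj
  obtain ⟨e1, e3⟩ := h.eqs ι hι hj
  have hw1 : φ wt * φ wt = 1 := by rw [← map_mul, show wt * wt = 1 by decide +kernel, map_one]
  have hw2 : φ wt * wz1 = wz2 * φ wt := by
    have h3 : φ (wt * wz1) = φ (wz2 * wt) := by rw [show wt * wz1 = wz2 * wt by decide +kernel]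
    rw [map_mul, map_mul, h.sw.z1, h.sw.z2] at h3
    exact h3
  have hw3 : φ wc = φ wt * φ wa * φ wt := by
    rw [← map_mul, ← map_mul, show wt * wa * wt = wc by decide +kernel]
  have hw4 : φ wd = φ wt * φ wb * φ wt := by
    rw [← map_mul, ← map_mul, show wt * wb * wt = wd by decide +kernel]
  have ea : φ wa = (φ wa * wb) * wb := by rw [mul_assoc, show wb * wb = 1 by decide +kernel, mul_one]
  have eb : φ wb = (φ wa * wb) * wa := by rw [e1, mul_assoc, show wa * wa = 1 by decide +kernel, mul_one]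
  have ec : φ wc = (φ wc * wd) * wd := by rw [mul_assoc, show wd * wd = 1 by decide +kernel, mul_one]
  have ed : φ wd = (φ wc * wd) * wc := by rw [e3, mul_assoc, show wc * wc = 1 by decide +kernel, mul_one]
  have key : ∀ ζ ∈ [(1 : W), wz2], ∀ η ∈ [(1 : W), wz1], ∀ w : W,
      (w * w = 1 ∧ w * wz1 = wz2 * w ∧ η * wd = w * (ζ * wb) * w ∧ η * wc = w * (ζ * wa) * w) →
      (((ζ = 1 ∧ η = 1) ∨ (ζ = wz2 ∧ η = wz1)) ∧ (w = wt ∨ w = wt * wz)) := by decide +kernel
  have hm1 : φ wa * wb ∈ [(1 : W), wz2] := by simpa using hζ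
  have hm2 : φ wc * wd ∈ [(1 : W), wz1] := by simpa using hη
  obtain ⟨k1, k2⟩ := key (φ wa * wb) hm1 (φ wc * wd) hm2 (φ wt) ⟨hw1, hw2,
    by rw [← ec, ← ea]; exact hw3, by rw [← ed, ← eb]; exact hw4⟩
  have hwz : φ wz = wz := by
    rw [show wz = wz1 * wz2 by decide +kernel, map_mul, h.sw.z1, h.sw.z2]
  have hjt : j * wt = wt * j := by
    have h3 : φ (φ wt) = wt := by
      rcases k2 with k2 | k2
      · rw [k2, k2]
      · rw [k2, map_mul, k2, hwz]
        decide +kernel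
    rw [h.phi_phi ι hι] at h3
    exact mul_inv_eq_iff_eq_mul.1 h3
  have hj' : j = 1 ∨ j = wz := by
    have key2 : ∀ j ∈ listZ, j * wt = wt * j → j = 1 ∨ j = wz := by decide +kernel
    rw [mem_Z0, inZ_iff] at hj
    exact key2 j hj hjt
  have hsq : u * u = 1 ∨ u * u = ι wz := by
    rw [h.sq]
    rcases hj' with h3 | h3
    · left; rw [h3, map_one]
    · right; rw [h3]
  rcases k1 with ⟨k3, k4⟩ | ⟨k3, k4⟩
  · rw [k3, one_mul] at ea eb
    rw [k4, one_mul] at ec ed
    refine ⟨ι, u, hι, rfl, ⟨h.nm, ?_, ?_, ?_, ?_, ?_, hsq⟩⟩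
    · rw [h.hφ, ea]
    · rw [h.hφ, eb]
    · rw [h.hφ, ec]
    · rw [h.hφ, ed]
    · rw [h.hφ]
      rcases k2 with k2 | k2
      · left; rw [k2]
      · right; rw [k2]
  · rw [k3] at ea eb
    rw [k4] at ec ed
    have hts : Function.Surjective tau := Finite.surjective_of_injective tau_injective
    have hrange : (ι.comp tau).range = ι.range := by
      apply le_antisymm
      · rintro _ ⟨w, rfl⟩
        exact ⟨tau w, rfl⟩
      · rintro _ ⟨w, rfl⟩
        obtain ⟨v, rfl⟩ := hts w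
        exact ⟨v, rfl⟩
    refine ⟨ι.comp tau, u, hι.comp tau_injective, hrange, ⟨?_, ?_, ?_, ?_, ?_, ?_, ?_⟩⟩
    · rw [hrange]; exact h.nm
    · change u * ι (tau wa) * u⁻¹ = ι (tau wb)
      rw [h.hφ, tau_a, tau_b, map_mul, ea, h.sw.z2, show wz2 * wb * wz2 = wb by decide +kernel]
    · change u * ι (tau wb) * u⁻¹ = ι (tau wa)
      rw [h.hφ, tau_a, tau_b, eb, show wz2 * wa = wa * wz2 by decide +kernel]
    · change u * ι (tau wc) * u⁻¹ = ι (tau wd)
      rw [h.hφ, tau_c, tau_d, map_mul, ec, h.sw.z1, show wz1 * wd * wz1 = wd by decide +kernel]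
    · change u * ι (tau wd) * u⁻¹ = ι (tau wc)
      rw [h.hφ, tau_c, tau_d, ed, show wz1 * wc = wc * wz1 by decide +kernel]
    · change u * ι (tau wt) * u⁻¹ = ι (tau wt) ∨ u * ι (tau wt) * u⁻¹ = ι (tau (wt * wz))
      rw [h.hφ, map_mul, map_wz tau_injective, tau_t]
      rcases k2 with k2 | k2
      · left; rw [k2]
      · right; rw [k2]
    · change u * u = 1 ∨ u * u = ι (tau wz)
      rw [map_wz tau_injective]
      exact hsq

/-- index 2 in the normalizer -/
theorem relIndex_eq_two (hne : ι.range ≠ ⊤) :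
    ι.range.relIndex (normalizer (ι.range : Set S)) = 2 := by
  have hxP := exists_normalizing h2 (P := ι.range) (M := ⊤) le_top (fun h => hne (eq_top_iff.2 h))
  obtain ⟨x, -, hxP, hxn, hxn'⟩ := hxP
  have hxN : x ∈ normalizer (ι.range : Set S) := by
    rw [mem_normalizer_iff]
    intro h
    refine ⟨fun hh => hxn h hh, fun hh => ?_⟩
    have h3 := hxn' _ hh
    have h4 : x⁻¹ * (x * h * x⁻¹) * x = h := by group
    rwa [h4] at h3
  obtain ⟨φ, hφi, hφ⟩ := exists_phi ι hι x hxn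
  obtain ⟨hφA, hφB⟩ := swaps h2 hr ι hι hxP hφi hφ
  rw [Subgroup.relIndex, index_eq_two_iff_exists_notMem_and]
  refine ⟨⟨x, hxN⟩, hxP, ?_⟩
  rintro ⟨y, hyN⟩
  by_cases hy : y ∈ ι.range
  · right; exact hy
  · left
    rw [mem_subgroupOf]
    change y * x ∈ ι.range
    have hyn : ∀ p ∈ ι.range, y * p * y⁻¹ ∈ ι.range := fun p hp => (mem_normalizer_iff.1 hyN p).1 hp
    obtain ⟨ψ, hψi, hψ⟩ := exists_phi ι hι y hyn
    obtain ⟨hψA, hψB⟩ := swaps h2 hr ι hι hy hψi hψ
    by_contra hyx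
    refine bad' h2 hr ι hι hyx (φ := ψ.comp φ) (hψi.comp hφi) ?_ ?_ ?_
    · intro w
      change _ = ι (ψ (φ w))
      rw [← hψ, ← hφ]
      group
    · rw [← Subgroup.map_map, hφA, hψB]
    · rw [← Subgroup.map_map, hφB, hψA]

end

/-! ### the quotient -/

section quot

variable {X : Type*} [Group X]

/-- the data in the quotient `N_S(W) / Z(S)` -/
structure Quo (κ : W →* X) (u : X) : Prop where
  z : κ wz = 1
  a : u * κ wa * u⁻¹ = κ wb
  b : u * κ wb * u⁻¹ = κ wa
  c : u * κ wc * u⁻¹ = κ wd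
  d : u * κ wd * u⁻¹ = κ wc
  t : u * κ wt * u⁻¹ = κ wt
  sq : u * u = 1

variable {κ : W →* X} {u : X} (h : Quo κ u)
include h

theorem Quo.uinv : u⁻¹ = u := inv_eq_of_mul_eq_one_left h.sq

theorem Quo.ua : u * κ wa = κ wb * u := mul_inv_eq_iff_eq_mul.1 h.a
theorem Quo.ub : u * κ wb = κ wa * u := mul_inv_eq_iff_eq_mul.1 h.b
theorem Quo.uc : u * κ wc = κ wd * u := mul_inv_eq_iff_eq_mul.1 h.c
theorem Quo.ud : u * κ wd = κ wc * u := mul_inv_eq_iff_eq_mul.1 h.d
theorem Quo.ut : u * κ wt = κ wt * u := mul_inv_eq_iff_eq_mul.1 h.t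

/-- `y = u c b` -/
theorem Quo.rel : Rel (κ wt) (κ wt * (u * κ (wc * wb))) (κ wa) := by
  have hua := h.ua
  have hub := h.ub
  have huc := h.uc
  have hud := h.ud
  have hut := h.ut
  have huu := h.sq
  -- move `u` to the right
  have mv : ∀ v w : W, u * κ v = κ w * u → ∀ x : X, u * (κ v * x) = κ w * (u * x) := by
    intro v w hvw x
    rw [← mul_assoc, hvw, mul_assoc]
  have pa := mv _ _ hua
  have pb := mv _ _ hub
  have pc := mv _ _ huc
  have pd := mv _ _ hud
  have pt := mv _ _ hut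
  have pu : ∀ x : X, u * (u * x) = x := fun x => by rw [← mul_assoc, huu, one_mul]
  have km : ∀ v w : W, κ v * κ w = κ (v * w) := fun v w => (map_mul κ v w).symm
  have km' : ∀ (v w : W) (x : X), κ v * (κ w * x) = κ (v * w) * x := by
    intro v w x
    rw [map_mul, mul_assoc]
  have hz := h.z
  have ks : κ (wc * wb) = κ wc * κ wb := map_mul κ _ _
  have kone : ∀ w : W, w = 1 ∨ w = wz → κ w = 1 := by
    rintro w (rfl | rfl)
    · exact map_one κ
    · exact hz
  have keq : ∀ v w : W, v = w ∨ v = wz * w → κ v = κ w := by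
    rintro v w (rfl | rfl)
    · rfl
    · rw [map_mul, hz, one_mul]
  have e4 : κ wt * (κ wt * (u * κ (wc * wb))) = u * κ (wc * wb) := by
    rw [km', show wt * wt = 1 by decide +kernel, map_one, one_mul]
  refine ⟨?_, ?_, ?_, ?_, ?_, ?_, ?_, ?_⟩
  · rw [km]; exact kone _ (by decide +kernel)
  · simp only [ks, mul_assoc]
    simp only [pa, pb, pc, pd, pt, pu, hua, hub, huc, hud, hut, huu]
    simp only [km, km', mul_one]
    exact kone _ (by decide +kernel)
  · rw [km]; exact kone _ (by decide +kernel)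
  · rw [e4, show (4 : ℕ) = 2 * 2 from rfl, pow_mul, pow_two, pow_two]
    simp only [ks, mul_assoc]
    simp only [pa, pb, pc, pd, pt, pu, hua, hub, huc, hud, hut, huu]
    simp only [km, km', mul_one]
    exact kone _ (by decide +kernel)
  · simp only [km, ← mul_assoc]
    exact keq _ _ (by decide +kernel)
  · simp only [ks, mul_assoc]
    simp only [pa, pb, pc, pd, pt, pu, hua, hub, huc, hud, hut, huu]
    simp only [km, km', mul_one]
    simp only [← mul_assoc]
    congr 1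
  · simp only [ks, mul_assoc]
    simp only [pa, pb, pc, pd, pt, pu, hua, hub, huc, hud, hut, huu]
    simp only [km, km', mul_one]
    simp only [← mul_assoc]
    congr 1
  · simp only [ks, mul_assoc]
    simp only [pa, pb, pc, pd, pt, pu, hua, hub, huc, hud, hut, huu]
    simp only [km, km', mul_one]
    exact keq _ _ (by decide +kernel)

end quot

theorem W_gen (H : Subgroup W) (ha : wa ∈ H) (hb : wb ∈ H) (ht : wt ∈ H) (w : W) : w ∈ H := by
  have hc : wc ∈ H := by
    rw [show wc = wt * wa * wt by decide +kernel]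
    exact mul_mem (mul_mem ht ha) ht
  have hd : wd ∈ H := by
    rw [show wd = wt * wb * wt by decide +kernel]
    exact mul_mem (mul_mem ht hb) ht
  have hJ : J0 ≤ H := by
    refine J0_le.trans ((closure_le _).2 ?_)
    intro x hx
    simp only [Set.mem_insert_iff, Set.mem_singleton_iff] at hx
    rcases hx with rfl | rfl | rfl | rfl
    · exact ha
    · exact hb
    · exact hc
    · exact hd
  have key : ∀ w : W, InJ w ∨ InJ (w * wt) := by decide +kernel
  rcases key w with h | h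
  · exact hJ (mem_J0.2 h)
  · exact (Subgroup.mul_mem_cancel_right H ht).1 (hJ (mem_J0.2 h))

section final

variable {S : Type*} [Group S] [Finite S] (h2 : IsPGroup 2 S) (hr : SectionalPRankLE 2 4 S)
  (ι : W →* S) (hι : Function.Injective ι)

include h2 hr hι

theorem quotient_equiv (hne : ι.range ≠ ⊤)
    (hn : ((center S).subgroupOf (normalizer (ι.range : Set S))).Normal) :
    Nonempty (↥(normalizer (ι.range : Set S)) ⧸ (center S).subgroupOf (normalizer (ι.range : Set S)) ≃* W) := by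
  set N := normalizer (ι.range : Set S) with hN
  have hidx := relIndex_eq_two h2 hr ι hι hne
  have hPN : ι.range ≤ N := le_normalizer
  have hxP := exists_normalizing h2 (P := ι.range) (M := ⊤) le_top (fun h => hne (eq_top_iff.2 h))
  obtain ⟨x, -, hxP, hxn, hxn'⟩ := hxP
  have hxN : x ∈ N := by
    rw [hN, mem_normalizer_iff]
    intro h
    refine ⟨fun hh => hxn h hh, fun hh => ?_⟩
    have h3 := hxn' _ hh
    have h4 : x⁻¹ * (x * h * x⁻¹) * x = h := by group
    rwa [h4] at h3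
  have hxx : x * x ∈ ι.range := by
    have h3 := mul_self_mem_of_index_two hidx (⟨x, hxN⟩ : N)
    exact h3
  obtain ⟨κ0, u, hκ0, hrange, hnf⟩ := exists_nf h2 hr ι hι hxP hxn hxx
  -- `u ∈ N`
  have huN : ∀ w : W, u * κ0 w * u⁻¹ ∈ κ0.range := by
    intro w
    let H : Subgroup W := (κ0.range.comap (MulAut.conj u).toMonoidHom).comap κ0
    have hmem : ∀ v, v ∈ H ↔ u * κ0 v * u⁻¹ ∈ κ0.range := fun v => Iff.rfl
    refine (hmem w).1 (W_gen H ?_ ?_ ?_ w)
    · rw [hmem, hnf.a]; exact ⟨_, rfl⟩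
    · rw [hmem, hnf.b]; exact ⟨_, rfl⟩
    · rw [hmem]
      rcases hnf.t with h | h
      · rw [h]; exact ⟨_, rfl⟩
      · rw [h]; exact ⟨_, rfl⟩
  obtain ⟨ψ, hψi, hψ⟩ := exists_phi κ0 hκ0 u (by rintro _ ⟨w, rfl⟩; exact huN w)
  have huN' : u ∈ N := by
    have hs : Function.Surjective ψ := Finite.surjective_of_injective hψi
    rw [hN, mem_normalizer_iff, ← hrange]
    intro h
    constructor
    · rintro ⟨w, rfl⟩
      exact huN w
    · rintro ⟨w, hw⟩
      obtain ⟨v, rfl⟩ := hs w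
      rw [← hψ] at hw
      refine ⟨v, ?_⟩
      exact mul_left_cancel (mul_right_cancel hw)
  set π := QuotientGroup.mk' ((center S).subgroupOf N) with hπ
  have hκN : ∀ w, κ0 w ∈ N := by
    intro w
    apply hPN
    rw [← hrange]
    exact ⟨w, rfl⟩
  let κ : W →* (↥N ⧸ (center S).subgroupOf N) := π.comp (κ0.codRestrict N hκN)
  have hκ : ∀ w, κ w = π ⟨κ0 w, hκN w⟩ := fun w => rfl
  have hcen : center S = zpowers (κ0 wz) := center_eq h2 hr κ0 hκ0
  have hz : κ wz = 1 := by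
    rw [hκ, hπ, QuotientGroup.mk'_apply, QuotientGroup.eq_one_iff, mem_subgroupOf, hcen]
    exact mem_zpowers _
  have hconj : ∀ v w : W, u * κ0 v * u⁻¹ = κ0 w → π ⟨u, huN'⟩ * κ v * (π ⟨u, huN'⟩)⁻¹ = κ w := by
    intro v w h
    rw [hκ, hκ, ← map_mul, ← map_inv, ← map_mul]
    congr 1
    exact Subtype.ext h
  have hquo : Quo κ (π ⟨u, huN'⟩) := by
    refine ⟨hz, hconj _ _ hnf.a, hconj _ _ hnf.b, hconj _ _ hnf.c, hconj _ _ hnf.d, ?_, ?_⟩
    · rcases hnf.t with h | h
      · exact hconj _ _ h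
      · rw [hconj _ _ h, map_mul, hz, mul_one]
    · rw [← map_mul, hπ, QuotientGroup.mk'_apply, QuotientGroup.eq_one_iff, mem_subgroupOf, hcen]
      change u * u ∈ _
      rcases hnf.sq with h | h
      · rw [h]; exact one_mem _
      · rw [h]; exact mem_zpowers _
  have hrel := hquo.rel
  -- the order
  have hcard : Nat.card (↥N ⧸ (center S).subgroupOf N) = 128 := by
    have h3 := Subgroup.card_eq_card_quotient_mul_card_subgroup ((center S).subgroupOf N)
    have h4 : Nat.card ((center S).subgroupOf N) = 2 := by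
      have h5 : center S ≤ N := by
        intro z hz
        exact center_le_normalizer _ hz
      rw [Nat.card_congr (subgroupOfEquivOfLe h5).toEquiv, hcen, card_zpowers_wz κ0 hκ0]
    have h6 : Nat.card N = 256 := by
      rw [card_eq_relIndex_mul N ι.range hPN, hidx, ← Nat.card_congr (MonoidHom.ofInjective hι).toEquiv, card_W]
      norm_num
    rw [h4, h6] at h3
    omega
  -- generation
  set a' := κ wt with ha'
  set y' := π ⟨u, huN'⟩ * κ (wc * wb) with hy'
  have hgen : closure ({κ wt, κ wt * (π ⟨u, huN'⟩ * κ (wc * wb)), κ wa} : Set _) = ⊤ := by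
    set K := closure ({κ wt, κ wt * (π ⟨u, huN'⟩ * κ (wc * wb)), κ wa} : Set (↥N ⧸ (center S).subgroupOf N)) with hK
    have k1 : κ wt ∈ K := subset_closure (by simp)
    have k2 : κ wt * (π ⟨u, huN'⟩ * κ (wc * wb)) ∈ K := subset_closure (by simp)
    have k3 : κ wa ∈ K := subset_closure (by simp)
    have k4 : π ⟨u, huN'⟩ * κ (wc * wb) ∈ K := (Subgroup.mul_mem_cancel_left K k1).1 k2
    have k5 : κ (wa * wb * wa) ∈ K := by
      have h3 := mul_mem (mul_mem k4 k3) (inv_mem k4)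
      have h4 : π ⟨u, huN'⟩ * κ (wc * wb) * κ wa * (π ⟨u, huN'⟩ * κ (wc * wb))⁻¹ = κ (wa * wb * wa) := by
        have e1 : π ⟨u, huN'⟩ * κ (wc * wb) * κ wa * (π ⟨u, huN'⟩ * κ (wc * wb))⁻¹ =
            π ⟨u, huN'⟩ * κ (wc * wb * wa * (wc * wb)⁻¹) * (π ⟨u, huN'⟩)⁻¹ := by
          rw [map_mul κ (wc * wb * wa), map_mul κ (wc * wb) wa, map_inv]
          group
        rw [e1, show wc * wb * wa * (wc * wb)⁻¹ = wb * wa * wb by decide +kernel, map_mul, map_mul]
        have e2 : π ⟨u, huN'⟩ * (κ wb * κ wa * κ wb) * (π ⟨u, huN'⟩)⁻¹ =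
            (π ⟨u, huN'⟩ * κ wb * (π ⟨u, huN'⟩)⁻¹) * (π ⟨u, huN'⟩ * κ wa * (π ⟨u, huN'⟩)⁻¹) *
            (π ⟨u, huN'⟩ * κ wb * (π ⟨u, huN'⟩)⁻¹) := by group
        rw [e2, hquo.a, hquo.b, map_mul, map_mul]
      rwa [h4] at h3
    have k6 : κ wb ∈ K := by
      have h3 := mul_mem (mul_mem k3 k5) k3
      rwa [← map_mul, ← map_mul, show wa * (wa * wb * wa) * wa = wb by decide +kernel] at h3
    have k7 : ∀ w, κ w ∈ K := fun w => W_gen (K.comap κ) k3 k6 k1 w
    have k8 : π ⟨u, huN'⟩ ∈ K := (Subgroup.mul_mem_cancel_right K (k7 _)).1 k4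
    rw [eq_top_iff]
    intro q _
    obtain ⟨⟨g, hg⟩, rfl⟩ := QuotientGroup.mk'_surjective _ q
    by_cases hgP : g ∈ κ0.range
    · obtain ⟨w, rfl⟩ := hgP
      exact k7 w
    · have h3 : g * u⁻¹ ∈ κ0.range := by
        have hidx' : (κ0.range.subgroupOf N).index = 2 := by rw [hrange]; exact hidx
        have h4 := (Subgroup.mul_mem_iff_of_index_two hidx' (a := ⟨g, hg⟩) (b := (⟨u, huN'⟩ : N)⁻¹)).2 (by
          rw [inv_mem_iff, mem_subgroupOf, mem_subgroupOf]
          exact ⟨fun h => absurd h hgP, fun h => absurd h hnf.nm⟩)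
        exact h4
      obtain ⟨w, hw⟩ := h3
      have h5 : π ⟨g, hg⟩ = κ w * π ⟨u, huN'⟩ := by
        rw [hκ, ← map_mul]
        congr 1
        apply Subtype.ext
        change g = κ0 w * u
        rw [hw]
        group
      rw [h5]
      exact mul_mem (k7 w) k8
  exact ⟨(MulEquiv.ofBijective _ (hrel.bijective hcard hgen)).symm⟩

end final

end Cfsg.Agent.H584.WrRank
end

-- part: S4402
section
set_option autoImplicit false
open Cfsg

namespace Cfsg.Agent.S4402

/-- Let S be a finite 2-group of sectional 2-rank at most 4 and P a proper subgroup isomorphic to the wreath product of the dihedral group of order 8 by a group of order 2 (equivalently, to a Sylow 2-subgroup of the symmetric group of degree 8; order 128). Then Z(S) = Z(P) has order 2, P has index 2 in its normalizer N_S(P), N_S(P)/Z(S) is again isomorphic to that wreath product, and every elementary abelian subgroup V of order 16 that is normal in P satisfies N_S(V) = P. -/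
theorem result {S : Type*} [Group S] [Finite S] (h2 : IsPGroup 2 S) (hr : Cfsg.SectionalPRankLE 2 4 S)
    (P : Subgroup S) (hPlt : P ≠ ⊤) (hP : ∃ T : Sylow 2 (Equiv.Perm (Fin 8)), Nonempty (↥P ≃* ↥(T : Subgroup (Equiv.Perm (Fin 8))))) :
    Subgroup.center S = (Subgroup.center ↥P).map P.subtype ∧ Nat.card ↥(Subgroup.center S) = 2 ∧
    P.relIndex (Subgroup.normalizer (P : Set S)) = 2 ∧
    (∃ (_ : ((Subgroup.center S).subgroupOf (Subgroup.normalizer (P : Set S))).Normal) (T : Sylow 2 (Equiv.Perm (Fin 8))),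
      Nonempty (↥(Subgroup.normalizer (P : Set S)) ⧸ (Subgroup.center S).subgroupOf (Subgroup.normalizer (P : Set S)) ≃*
        ↥(T : Subgroup (Equiv.Perm (Fin 8))))) ∧
    ∀ V : Subgroup S, V ≤ P → (∀ g ∈ P, ∀ v ∈ V, g * v * g⁻¹ ∈ V) → Cfsg.IsElementaryAbelian 2 V → Nat.card ↥V = 16 →
      Subgroup.normalizer (V : Set S) = P := by
  obtain ⟨T, ⟨e⟩⟩ := hP
  obtain ⟨f⟩ := Cfsg.Agent.H584.WrModel.equiv_sylow T
  -- the embedding of the model
  let ι : Cfsg.Agent.H584.WrModel.W →* S := P.subtype.comp ((f.trans e.symm).toMonoidHom)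
  have hι : Function.Injective ι := P.subtype_injective.comp (f.trans e.symm).injective
  have hrange : ι.range = P := by
    apply le_antisymm
    · rintro _ ⟨w, rfl⟩
      exact (((f.trans e.symm) w : P)).2
    · intro p hp
      refine ⟨(f.trans e.symm).symm ⟨p, hp⟩, ?_⟩
      change P.subtype ((f.trans e.symm) ((f.trans e.symm).symm ⟨p, hp⟩)) = p
      rw [MulEquiv.apply_symm_apply]
      rfl
  have hcS := Cfsg.Agent.H584.WrRank.center_eq h2 hr ι hι
  have hcard := Cfsg.Agent.H584.WrRank.card_zpowers_wz ι hι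
  have hne : ι.range ≠ ⊤ := by rw [hrange]; exact hPlt
  have hcP : (Subgroup.center ↥P).map P.subtype = Subgroup.zpowers (ι Cfsg.Agent.H584.WrModel.W.wz) := by
    apply le_antisymm
    · rintro _ ⟨z, hz, rfl⟩
      have hzP : (z : S) ∈ ι.range := by rw [hrange]; exact z.2
      obtain ⟨v, hv⟩ := hzP
      rcases Cfsg.Agent.H584.WrModel.W.center_le v (by
        intro y
        apply hι
        rw [map_mul, map_mul, hv]
        have hyP : ι y ∈ P := by rw [← hrange]; exact ⟨y, rfl⟩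
        exact (congrArg Subtype.val (Subgroup.mem_center_iff.1 hz ⟨ι y, hyP⟩)).symm) with h | h
      · rw [Subgroup.coe_subtype, ← hv, h, map_one]
        exact one_mem _
      · rw [Subgroup.coe_subtype, ← hv, h]
        exact Subgroup.mem_zpowers _
    · rw [Subgroup.zpowers_le]
      have hzc : ι Cfsg.Agent.H584.WrModel.W.wz ∈ Subgroup.center S := by
        rw [hcS]; exact Subgroup.mem_zpowers _
      have hzP : ι Cfsg.Agent.H584.WrModel.W.wz ∈ P := by rw [← hrange]; exact ⟨_, rfl⟩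
      refine ⟨⟨_, hzP⟩, ?_, rfl⟩
      rw [SetLike.mem_coe, Subgroup.mem_center_iff]
      intro g
      exact Subtype.ext (Subgroup.mem_center_iff.1 hzc g)
  have hnorm : ((Subgroup.center S).subgroupOf (Subgroup.normalizer (P : Set S))).Normal := by
    constructor
    intro n hn g
    rw [Subgroup.mem_subgroupOf] at hn ⊢
    exact Subgroup.Normal.conj_mem inferInstance _ hn g
  refine ⟨hcS.trans hcP.symm, by rw [hcS]; exact hcard, ?_, ⟨hnorm, T, ?_⟩, ?_⟩
  · have h := Cfsg.Agent.H584.WrRank.relIndex_eq_two h2 hr ι hι hne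
    rwa [hrange] at h
  · have h := Cfsg.Agent.H584.WrRank.quotient_equiv h2 hr ι hι hne
    rw [hrange] at h
    obtain ⟨g⟩ := h hnorm
    exact ⟨g.trans f⟩
  · intro V hVP hVn hVe hVcard
    -- `V` is the image of `A0` or `B0`
    have hV : (V.comap ι).map ι = V := by
      rw [Subgroup.map_comap_eq, hrange]
      exact inf_eq_right.2 hVP
    have hVc : V.comap ι = Cfsg.Agent.H584.WrModel.A0 ∨ V.comap ι = Cfsg.Agent.H584.WrModel.B0 := by
      apply Cfsg.Agent.H584.WrModel.eq_A0_or_B0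
      · intro g v hv
        rw [Subgroup.mem_comap] at hv ⊢
        rw [map_mul, map_mul, map_inv]
        exact hVn _ (by rw [← hrange]; exact ⟨g, rfl⟩) _ hv
      · intro v hv w hw
        apply hι
        rw [map_mul, map_mul]
        exact congrArg Subtype.val (hVe.1.is_comm.comm (⟨ι v, hv⟩ : V) ⟨ι w, hw⟩)
      · intro v hv
        apply hι
        rw [map_mul, map_one, ← pow_two]
        exact hVe.2 _ hv
      · rw [← hVcard]
        conv_rhs => rw [← hV]
        rw [Subgroup.card_map_of_injective hι]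
    rcases hVc with h | h
    · rw [← hV, h, ← hrange]
      exact le_antisymm (Cfsg.Agent.H584.WrRank.norm_A h2 hr ι hι)
        (Cfsg.Agent.H584.WrRank.range_le_norm_A ι)
    · rw [← hV, h, ← hrange]
      exact le_antisymm (Cfsg.Agent.H584.WrRank.norm_B h2 hr ι hι)
        (Cfsg.Agent.H584.WrRank.range_le_norm_B ι)

end Cfsg.Agent.S4402
end
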