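import Cfsg.Prelude.Def_CaseTheorems
import Cfsg.Prelude.Def_Transfer
import Cfsg.Agent.Lib.ElemAbGL
import Cfsg.Agent.Lib.NormalElementary
import Cfsg.Agent.Omega.Sec.Basic
import Cfsg.Agent.S0636
import Cfsg.Agent.Lib.FrattiniPGroup
import Cfsg.Agent.Lib.NormalRankFour
import Cfsg.Statements.S4404
import Cfsg.Agent.S0004
import Cfsg.Agent.S0005
set_option linter.all false

-- part: H585/ModTwo
section
/-!
# Elements of odd prime order acting on a normal elementary abelian 2-subgroup with small commutator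
-/

set_option autoImplicit false

namespace Cfsg.Agent.H585.ModTwo

open Subgroup
open scoped commutatorElement Pointwise

variable {S : Type*} [Group S]

/-- `M` is a normal elementary abelian 2-subgroup. -/
structure Hyp (M : Subgroup S) : Prop where
  normal : M.Normal
  comm : ∀ a ∈ M, ∀ b ∈ M, a * b = b * a
  sq : ∀ a ∈ M, a * a = 1

/-- `[M, y]` as a subgroup. -/
def cm {M : Subgroup S} (hM : Hyp M) (y : S) : Subgroup S where
  carrier := {v | ∃ m ∈ M, v = y * m * y⁻¹ * m⁻¹}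
  mul_mem' := by
    rintro _ _ ⟨m, hm, rfl⟩ ⟨n, hn, rfl⟩
    refine ⟨m * n, M.mul_mem hm hn, ?_⟩
    have h1 : y * n * y⁻¹ ∈ M := hM.normal.conj_mem n hn y
    have h2 : m⁻¹ * (y * n * y⁻¹ * n⁻¹) = (y * n * y⁻¹ * n⁻¹) * m⁻¹ :=
      hM.comm _ (M.inv_mem hm) _ (M.mul_mem h1 (M.inv_mem hn))
    calc y * m * y⁻¹ * m⁻¹ * (y * n * y⁻¹ * n⁻¹) = y * m * y⁻¹ * (m⁻¹ * (y * n * y⁻¹ * n⁻¹)) := by group
      _ = y * m * y⁻¹ * ((y * n * y⁻¹ * n⁻¹) * m⁻¹) := by rw [h2]
      _ = y * (m * n) * y⁻¹ * (m * n)⁻¹ := by group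
  one_mem' := ⟨1, M.one_mem, by group⟩
  inv_mem' := by
    rintro _ ⟨m, hm, rfl⟩
    refine ⟨m⁻¹, M.inv_mem hm, ?_⟩
    have h1 : y * m⁻¹ * y⁻¹ ∈ M := hM.normal.conj_mem _ (M.inv_mem hm) y
    calc (y * m * y⁻¹ * m⁻¹)⁻¹ = m * (y * m⁻¹ * y⁻¹) := by group
      _ = (y * m⁻¹ * y⁻¹) * m := hM.comm _ hm _ h1
      _ = y * m⁻¹ * y⁻¹ * m⁻¹⁻¹ := by group

section

variable {M : Subgroup S} (hM : Hyp M)

include hM in
theorem inv_eq {a : S} (ha : a ∈ M) : a⁻¹ = a := inv_eq_of_mul_eq_one_left (hM.sq a ha)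

theorem mem_cm {y v : S} : v ∈ cm hM y ↔ ∃ m ∈ M, v = y * m * y⁻¹ * m⁻¹ := Iff.rfl

theorem cm_le (y : S) : cm hM y ≤ M := by
  rintro _ ⟨m, hm, rfl⟩
  exact M.mul_mem (hM.normal.conj_mem m hm y) (M.inv_mem hm)

theorem comm_mem_cm {y m : S} (hm : m ∈ M) : y * m * y⁻¹ * m⁻¹ ∈ cm hM y := ⟨m, hm, rfl⟩

theorem conj_mem_cm_iff {g y v : S} : g * v * g⁻¹ ∈ cm hM (g * y * g⁻¹) ↔ v ∈ cm hM y := by
  constructor
  · rintro ⟨m, hm, h⟩
    refine ⟨g⁻¹ * m * g, by simpa using hM.normal.conj_mem m hm g⁻¹, ?_⟩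
    calc v = g⁻¹ * (g * v * g⁻¹) * g := by group
      _ = g⁻¹ * (g * y * g⁻¹ * m * (g * y * g⁻¹)⁻¹ * m⁻¹) * g := by rw [h]
      _ = _ := by group
  · rintro ⟨m, hm, rfl⟩
    refine ⟨g * m * g⁻¹, hM.normal.conj_mem m hm g, ?_⟩
    group

theorem cm_map_conj (g y : S) : (cm hM y).map (MulAut.conj g).toMonoidHom = cm hM (g * y * g⁻¹) := by
  ext w
  constructor
  · rintro ⟨v, hv, rfl⟩
    exact (conj_mem_cm_iff hM).mpr hv
  · intro hw
    refine ⟨g⁻¹ * w * g, ?_, ?_⟩
    · show g⁻¹ * w * g ∈ cm hM y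
      rw [← conj_mem_cm_iff hM (g := g)]
      have : g * (g⁻¹ * w * g) * g⁻¹ = w := by group
      rw [this]; exact hw
    · show g * (g⁻¹ * w * g) * g⁻¹ = w
      group

theorem cm_congr {y y' : S} (h : y⁻¹ * y' ∈ centralizer (M : Set S)) : cm hM y' = cm hM y := by
  have key : ∀ m ∈ M, y' * m * y'⁻¹ = y * m * y⁻¹ := by
    intro m hm
    have h1 := mem_centralizer_iff.mp h m hm
    have h2 : y' = y * (y⁻¹ * y') := by group
    calc y' * m * y'⁻¹ = y * ((y⁻¹ * y') * m) * (y⁻¹ * y')⁻¹ * y⁻¹ := by group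
      _ = y * (m * (y⁻¹ * y')) * (y⁻¹ * y')⁻¹ * y⁻¹ := by rw [h1]
      _ = y * m * y⁻¹ := by group
  ext v
  constructor
  · rintro ⟨m, hm, rfl⟩
    exact ⟨m, hm, by rw [key m hm]⟩
  · rintro ⟨m, hm, rfl⟩
    exact ⟨m, hm, by rw [key m hm]⟩

/-- Fixed-point-freeness. -/
theorem eq_one_of_commute {y : S} {r : ℕ} (hr : Odd r) (hy : y ^ r ∈ centralizer (M : Set S)) {v : S}
    (hv : v ∈ cm hM y) (h : y * v * y⁻¹ = v) : v = 1 := by
  obtain ⟨m, hm, hvm⟩ := hv
  have hvM : v ∈ M := by rw [hvm]; exact M.mul_mem (hM.normal.conj_mem m hm y) (M.inv_mem hm)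
  have h1 : ∀ n : ℕ, y ^ n * m * (y ^ n)⁻¹ = v ^ n * m := by
    intro n
    induction n with
    | zero => simp
    | succ n ih =>
      have h2 : y * m * y⁻¹ = v * m := by rw [hvm]; group
      have h3 : y * v ^ n * y⁻¹ = v ^ n := by
        rw [← conj_pow, h]
      calc y ^ (n + 1) * m * (y ^ (n + 1))⁻¹ = y * (y ^ n * m * (y ^ n)⁻¹) * y⁻¹ := by
            rw [pow_succ']; group
        _ = y * (v ^ n * m) * y⁻¹ := by rw [ih]
        _ = (y * v ^ n * y⁻¹) * (y * m * y⁻¹) := by group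
        _ = v ^ n * (v * m) := by rw [h2, h3]
        _ = v ^ (n + 1) * m := by rw [pow_succ]; group
  have h2 := h1 r
  have h3 := mem_centralizer_iff.mp hy m hm
  have h4 : y ^ r * m * (y ^ r)⁻¹ = m := by rw [← h3]; group
  rw [h4] at h2
  have h5 : v ^ r = 1 := by
    have := h2.symm
    rwa [mul_eq_right] at this
  obtain ⟨k, hk⟩ := hr
  rw [hk, pow_add, pow_mul, pow_two, hM.sq v hvM, one_pow, one_mul, pow_one] at h5
  exact h5

theorem commute_of_disjoint {y : S} {U : Subgroup S} (hU : U ≤ M) (hyU : ∀ u ∈ U, y * u * y⁻¹ ∈ U)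
    (hd : cm hM y ⊓ U = ⊥) {u : S} (hu : u ∈ U) : y * u * y⁻¹ = u := by
  have h1 : y * u * y⁻¹ * u⁻¹ ∈ cm hM y ⊓ U := ⟨⟨u, hU hu, rfl⟩, U.mul_mem (hyU u hu) (U.inv_mem hu)⟩
  rw [hd, mem_bot, mul_inv_eq_one] at h1
  exact h1

theorem conj_mem_cm_of_comm {y y' : S} (h : ⁅y', y⁆ ∈ centralizer (M : Set S)) {v : S} (hv : v ∈ cm hM y) :
    y' * v * y'⁻¹ ∈ cm hM y := by
  have h1 := (conj_mem_cm_iff hM (g := y')).mpr hv
  have h2 : cm hM (y' * y * y'⁻¹) = cm hM y := by
    apply cm_congr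
    have hn : (centralizer (M : Set S)).Normal := by
      have := hM.normal
      infer_instance
    have h3 := hn.conj_mem _ h y⁻¹
    have h4 : y⁻¹ * ⁅y', y⁆ * y⁻¹⁻¹ = y⁻¹ * (y' * y * y'⁻¹) := by
      rw [commutatorElement_def]; group
    rwa [h4] at h3
  rwa [h2] at h1

/-- A `y`-invariant subgroup of `[M, y]` has order congruent to `1` modulo `r`. -/
theorem card_modEq [Finite S] {y : S} {r : ℕ} [hrp : Fact r.Prime] (hr2 : r ≠ 2)
    (hy : y ^ r ∈ centralizer (M : Set S)) {U : Subgroup S} (hU : U ≤ cm hM y) (hyU : ∀ u ∈ U, y * u * y⁻¹ ∈ U) :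
    r ∣ Nat.card ↥U - 1 := by
  classical
  have hr := hrp.out
  have hodd : Odd r := hr.odd_of_ne_two hr2
  -- `y` acts on `U`; the permutation has order dividing `r` and only one fixed point
  have hyU' : ∀ u ∈ U, y⁻¹ * u * y ∈ U := by
    intro u hu
    have hUM : U ≤ M := hU.trans (cm_le hM y)
    have h1 : ∀ n : ℕ, y ^ n * u * (y ^ n)⁻¹ ∈ U := by
      intro n
      induction n with
      | zero => simpa using hu
      | succ n ih =>
        have := hyU _ ih
        have e : y * (y ^ n * u * (y ^ n)⁻¹) * y⁻¹ = y ^ (n + 1) * u * (y ^ (n + 1))⁻¹ := by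
          rw [pow_succ']; group
        rwa [e] at this
    have h2 := h1 (r - 1)
    have h3 := mem_centralizer_iff.mp hy u (hUM hu)
    have e : y ^ r = y * y ^ (r - 1) := by
      rw [← pow_succ', Nat.sub_add_cancel hr.one_lt.le]
    have e2 : y ^ (r - 1) * u * (y ^ (r - 1))⁻¹ = y⁻¹ * u * y := by
      have h4 : y ^ r * u * (y ^ r)⁻¹ = u := by rw [← h3]; group
      rw [e] at h4
      calc y ^ (r - 1) * u * (y ^ (r - 1))⁻¹ = y⁻¹ * (y * y ^ (r - 1) * u * (y * y ^ (r - 1))⁻¹) * y := by group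
        _ = y⁻¹ * u * y := by rw [h4]
    rwa [e2] at h2
  let σ : Equiv.Perm ↥U :=
    { toFun := fun u => ⟨y * u * y⁻¹, hyU u u.2⟩
      invFun := fun u => ⟨y⁻¹ * u * y, hyU' u u.2⟩
      left_inv := by intro u; apply Subtype.ext; show y⁻¹ * (y * (u : S) * y⁻¹) * y = u; group
      right_inv := by intro u; apply Subtype.ext; show y * (y⁻¹ * (u : S) * y) * y⁻¹ = u; group }
  have hσ : ∀ n : ℕ, ∀ u : ↥U, (((σ ^ n) u : ↥U) : S) = y ^ n * u * (y ^ n)⁻¹ := by
    intro n
    induction n with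
    | zero => intro u; simp
    | succ n ih =>
      intro u
      rw [pow_succ', Equiv.Perm.mul_apply]
      show y * ((σ ^ n) u : S) * y⁻¹ = _
      rw [ih, pow_succ']; group
  have hσr : σ ^ r = 1 := by
    ext u
    rw [hσ]
    have h3 := mem_centralizer_iff.mp hy u (cm_le hM y (hU u.2))
    show y ^ r * (u : S) * (y ^ r)⁻¹ = u
    rw [← h3]; group
  have hp : IsPGroup r ↥(Subgroup.zpowers σ) := by
    intro g
    obtain ⟨g, hg⟩ := g
    obtain ⟨k, rfl⟩ := Subgroup.mem_zpowers_iff.mp hg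
    refine ⟨1, Subtype.ext ?_⟩
    show (σ ^ k) ^ (r ^ 1) = 1
    rw [pow_one, ← zpow_natCast, ← zpow_mul, mul_comm, zpow_mul, zpow_natCast, hσr, one_zpow]
  have hmod := hp.card_modEq_card_fixedPoints ↥U
  have hfix : Nat.card ↥(MulAction.fixedPoints ↥(Subgroup.zpowers σ) ↥U) = 1 := by
    rw [Nat.card_eq_one_iff_unique]
    constructor
    · constructor
      rintro ⟨a, ha⟩ ⟨b, hb⟩
      have key : ∀ a : ↥U, a ∈ MulAction.fixedPoints ↥(Subgroup.zpowers σ) ↥U → (a : S) = 1 := by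
        intro a ha
        have h1 := ha ⟨σ, Subgroup.mem_zpowers σ⟩
        have h2 : y * (a : S) * y⁻¹ = a := congrArg Subtype.val h1
        exact eq_one_of_commute hM hodd hy (hU a.2) h2
      exact Subtype.ext (Subtype.ext ((key a ha).trans (key b hb).symm))
    · refine ⟨⟨1, ?_⟩⟩
      intro g
      obtain ⟨g, hg⟩ := g
      obtain ⟨k, rfl⟩ := Subgroup.mem_zpowers_iff.mp hg
      show (σ ^ k) 1 = 1
      have h1 : σ 1 = 1 := by
        apply Subtype.ext
        show y * (1 : S) * y⁻¹ = 1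
        group
      have h2 : Function.IsFixedPt (σ ^ k) (1 : ↥U) := by
        exact Equiv.Perm.zpow_apply_eq_self_of_apply_eq_self h1 k
      exact h2
  rw [hfix] at hmod
  exact (Nat.modEq_iff_dvd' Nat.card_pos).mp hmod.symm

/-- A nontrivial `y`-invariant subgroup of `[M, y]` is everything if `|[M, y]| = r + 1`. -/
theorem eq_cm_of_le [Finite S] {y : S} {r : ℕ} [hrp : Fact r.Prime] (hr2 : r ≠ 2)
    (hy : y ^ r ∈ centralizer (M : Set S))
    (hc : Nat.card ↥(cm hM y) = r + 1) {U : Subgroup S} (hU : U ≤ cm hM y) (hyU : ∀ u ∈ U, y * u * y⁻¹ ∈ U)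
    (hne : U ≠ ⊥) : U = cm hM y := by
  have h1 : Nat.card ↥U ≤ r + 1 := by
    rw [← hc]; exact Subgroup.card_le_of_le hU
  have h2 : 1 < Nat.card ↥U := (Subgroup.one_lt_card_iff_ne_bot U).mpr hne
  have h3 : r ∣ Nat.card ↥U - 1 := card_modEq hM hr2 hy hU hyU
  have h4 : Nat.card ↥U = r + 1 := by
    have h5 := Nat.le_of_dvd (by omega) h3
    omega
  exact Subgroup.eq_of_le_of_card_ge hU (by rw [h4, hc])

end

section

variable [Finite S]

theorem relIndex_centralizer_dvd {K U : Subgroup S} (h : K ≤ normalizer (U : Set S)) :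
    (centralizer (U : Set S)).relIndex K ∣ Nat.card (MulAut ↥U) := by
  let f : ↥K →* MulAut ↥U := (normalizerMonoidHom U).comp (inclusion h)
  have hker : f.ker = (centralizer (U : Set S)).subgroupOf K := by
    ext k
    rw [MonoidHom.mem_ker, mem_subgroupOf, mem_centralizer_iff]
    constructor
    · intro hk u hu
      have h2 := congrArg (fun φ : MulAut ↥U => ((φ ⟨u, hu⟩ : ↥U) : S)) hk
      have h3 : (k : S) * u * (k : S)⁻¹ = u := h2
      exact (mul_inv_eq_iff_eq_mul.mp h3).symm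
    · intro hk
      ext u
      show (k : S) * (u : S) * (k : S)⁻¹ = u
      rw [← hk u u.2]; group
  rw [Subgroup.relIndex, ← hker, Subgroup.index_ker]
  exact Subgroup.card_subgroup_dvd_card _

/-- The order of `GL_n(2)`. -/
def gl (n : ℕ) : ℕ := ∏ i : Fin n, (2 ^ n - 2 ^ (i : ℕ))

theorem card_mulAut {U : Subgroup S} (hc : ∀ a ∈ U, ∀ b ∈ U, a * b = b * a) (h2 : ∀ a ∈ U, a * a = 1) {n : ℕ}
    (hn : Nat.card ↥U = 2 ^ n) : Nat.card (MulAut ↥U) = gl n := by
  have : Fact (Nat.Prime 2) := ⟨Nat.prime_two⟩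
  let _ : CommGroup ↥U := { (inferInstance : Group ↥U) with mul_comm := fun a b => Subtype.ext (hc a a.2 b b.2) }
  obtain ⟨e⟩ := Cfsg.Agent.Lib.ElemAbGL.mulAut_equiv_GL (V := ↥U) 2 n (fun x => Subtype.ext (by
    rw [Subgroup.coe_pow, pow_two]; exact h2 x x.2)) hn
  rw [Nat.card_congr e.toEquiv, Matrix.card_GL_field, gl]
  simp only [ZMod.card]

theorem gl_two : gl 2 = 6 := by decide
theorem gl_three : gl 3 = 168 := by decide
theorem gl_vals : gl 0 = 1 ∧ gl 1 = 1 ∧ gl 2 = 6 ∧ gl 3 = 168 ∧ gl 4 = 20160 ∧ gl 5 = 9999360 ∧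
    gl 6 = 20158709760 := by decide

variable {M : Subgroup S} (hM : Hyp M)

theorem gen_le_normalizer (y y' : S) :
    closure ({y, y'} : Set S) ≤ normalizer ((cm hM y ⊔ cm hM y' : Subgroup S) : Set S) := by
  have hle : cm hM y ⊔ cm hM y' ≤ M := sup_le (cm_le hM y) (cm_le hM y')
  have key : ∀ z ∈ ({y, y'} : Set S), ∀ u ∈ cm hM y ⊔ cm hM y', z * u * z⁻¹ ∈ cm hM y ⊔ cm hM y' := by
    intro z hz u hu
    have h1 : z * u * z⁻¹ * u⁻¹ ∈ cm hM y ⊔ cm hM y' := by
      simp only [Set.mem_insert_iff, Set.mem_singleton_iff] at hz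
      rcases hz with rfl | rfl
      · exact mem_sup_left (comm_mem_cm hM (hle hu))
      · exact mem_sup_right (comm_mem_cm hM (hle hu))
    have : z * u * z⁻¹ = (z * u * z⁻¹ * u⁻¹) * u := by group
    rw [this]
    exact mul_mem h1 hu
  rw [closure_le]
  intro z hz
  exact Subgroup.mem_normalizer_fintype (key z hz)

theorem gen_comm_mem {y y' d : S} (hd : d ∈ closure ({y, y'} : Set S)) :
    ∀ m ∈ M, d * m * d⁻¹ * m⁻¹ ∈ cm hM y ⊔ cm hM y' := by
  have hN := gen_le_normalizer hM y y'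
  induction hd using Subgroup.closure_induction with
  | mem z hz =>
    intro m hm
    simp only [Set.mem_insert_iff, Set.mem_singleton_iff] at hz
    rcases hz with rfl | rfl
    · exact mem_sup_left (comm_mem_cm hM hm)
    · exact mem_sup_right (comm_mem_cm hM hm)
  | one => intro m _; simp
  | mul a b ha hb iha ihb =>
    intro m hm
    have h1 := ihb m hm
    have h2 := (mem_normalizer_iff.mp (hN ha) _).mp h1
    have h3 := iha m hm
    have : a * b * m * (a * b)⁻¹ * m⁻¹ = (a * (b * m * b⁻¹ * m⁻¹) * a⁻¹) * (a * m * a⁻¹ * m⁻¹) := by group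
    rw [this]
    exact mul_mem h2 h3
  | inv a ha iha =>
    intro m hm
    have h1 := iha (a⁻¹ * m * a) (by simpa using hM.normal.conj_mem m hm a⁻¹)
    have : a⁻¹ * m * a⁻¹⁻¹ * m⁻¹ = (a * (a⁻¹ * m * a) * a⁻¹ * (a⁻¹ * m * a)⁻¹)⁻¹ := by group
    rw [this]
    exact inv_mem h1

theorem centralizer_inf_le {y y' : S} (hodd : Odd (Nat.card ↥(closure ({y, y'} : Set S)))) {d : S}
    (hd : d ∈ closure ({y, y'} : Set S))
    (hdU : d ∈ centralizer ((cm hM y ⊔ cm hM y' : Subgroup S) : Set S)) : d ∈ centralizer (M : Set S) := by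
  rw [mem_centralizer_iff]
  intro m hm
  obtain ⟨u, hu⟩ : ∃ u, u = d * m * d⁻¹ * m⁻¹ := ⟨_, rfl⟩
  have huU : u ∈ cm hM y ⊔ cm hM y' := by rw [hu]; exact gen_comm_mem hM hd m hm
  have huM : u ∈ M := (sup_le (cm_le hM y) (cm_le hM y') : cm hM y ⊔ cm hM y' ≤ M) huU
  have hdu : d * u * d⁻¹ = u := by
    rw [← mem_centralizer_iff.mp hdU u huU]; group
  have h1 : ∀ n : ℕ, d ^ n * m * (d ^ n)⁻¹ = u ^ n * m := by
    intro n
    induction n with
    | zero => simp
    | succ n ih =>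
      have h2 : d * m * d⁻¹ = u * m := by rw [hu]; group
      have h3 : d * u ^ n * d⁻¹ = u ^ n := by
        rw [← conj_pow, hdu]
      calc d ^ (n + 1) * m * (d ^ (n + 1))⁻¹ = d * (d ^ n * m * (d ^ n)⁻¹) * d⁻¹ := by
            rw [pow_succ']; group
        _ = d * (u ^ n * m) * d⁻¹ := by rw [ih]
        _ = (d * u ^ n * d⁻¹) * (d * m * d⁻¹) := by group
        _ = u ^ n * (u * m) := by rw [h2, h3]
        _ = u ^ (n + 1) * m := by rw [pow_succ]; group
  have h2 := h1 (Nat.card ↥(closure ({y, y'} : Set S)))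
  have h3 : d ^ Nat.card ↥(closure ({y, y'} : Set S)) = 1 := by
    have := pow_card_eq_one' (x := (⟨d, hd⟩ : ↥(closure ({y, y'} : Set S))))
    exact congrArg Subtype.val this
  rw [h3, one_mul, inv_one, mul_one] at h2
  have h5 : u ^ Nat.card ↥(closure ({y, y'} : Set S)) = 1 := by
    have := h2.symm
    rwa [mul_eq_right] at this
  obtain ⟨k, hk⟩ := hodd
  rw [hk, pow_add, pow_mul, pow_two, hM.sq u huM, one_pow, one_mul, pow_one] at h5
  rw [h5] at hu
  have h6 : d * m = m * d := by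
    have h7 : d * m * d⁻¹ = m := mul_inv_eq_one.mp hu.symm
    exact mul_inv_eq_iff_eq_mul.mp h7
  exact h6.symm

theorem card_sup_dvd (y y' : S) : ∃ n : ℕ, Nat.card ↥(cm hM y ⊔ cm hM y') = 2 ^ n ∧
    2 ^ n ≤ Nat.card ↥(cm hM y) * Nat.card ↥(cm hM y') := by
  have hle : cm hM y ⊔ cm hM y' ≤ M := sup_le (cm_le hM y) (cm_le hM y')
  have : Fact (Nat.Prime 2) := ⟨Nat.prime_two⟩
  have hp : IsPGroup 2 ↥(cm hM y ⊔ cm hM y') := by
    intro u
    refine ⟨1, Subtype.ext ?_⟩
    rw [pow_one, pow_two]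
    exact hM.sq u (hle u.2)
  obtain ⟨n, hn⟩ := (IsPGroup.iff_card).1 hp
  refine ⟨n, hn, ?_⟩
  rw [← hn, ← Nat.card_prod]
  have hsurj : Function.Surjective (fun w : ↥(cm hM y) × ↥(cm hM y') =>
      (⟨(w.1 : S) * (w.2 : S), mul_mem (mem_sup_left w.1.2) (mem_sup_right w.2.2)⟩ : ↥(cm hM y ⊔ cm hM y'))) := by
    rintro ⟨u, hu⟩
    have hu' : u ∈ (cm hM y : Subgroup S) ⊔ cm hM y' := hu
    have hn : cm hM y ≤ normalizer ((cm hM y' : Subgroup S) : Set S) := by
      intro a ha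
      rw [mem_normalizer_iff]
      intro b
      constructor
      · intro hb
        have : a * b * a⁻¹ = b := by
          rw [hM.comm a (cm_le hM y ha) b (cm_le hM y' hb)]; group
        rw [this]; exact hb
      · intro hb
        have h1 := hM.comm a (cm_le hM y ha) _ (cm_le hM y' hb)
        have : b = a⁻¹ * (a * b * a⁻¹) * a := by group
        rw [this]
        have h2 : a⁻¹ * (a * b * a⁻¹) * a = a * b * a⁻¹ := by
          rw [mul_assoc, ← h1]; group
        rw [h2]; exact hb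
    have h1 : u ∈ ((cm hM y : Set S) * (cm hM y' : Set S)) := by
      rw [← Subgroup.coe_mul_of_left_le_normalizer_right _ _ hn]
      exact hu'
    obtain ⟨a, ha, b, hb, rfl⟩ := h1
    exact ⟨(⟨a, ha⟩, ⟨b, hb⟩), rfl⟩
  exact Nat.card_le_card_of_surjective _ hsurj

theorem relIndex_dvd_gl {y y' : S} (hodd : Odd (Nat.card ↥(closure ({y, y'} : Set S)))) {n : ℕ}
    (hn : Nat.card ↥(cm hM y ⊔ cm hM y') = 2 ^ n) :
    (centralizer (M : Set S)).relIndex (closure ({y, y'} : Set S)) ∣ gl n := by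
  have hle : cm hM y ⊔ cm hM y' ≤ M := sup_le (cm_le hM y) (cm_le hM y')
  have h1 := relIndex_centralizer_dvd (gen_le_normalizer hM y y')
  rw [card_mulAut (fun a ha b hb => hM.comm a (hle ha) b (hle hb)) (fun a ha => hM.sq a (hle ha)) hn] at h1
  refine dvd_trans ?_ h1
  rw [← Subgroup.inf_relIndex_right (centralizer ((cm hM y ⊔ cm hM y' : Subgroup S) : Set S))]
  apply Subgroup.relIndex_dvd_of_le_left
  rintro d ⟨h2, h3⟩
  exact centralizer_inf_le hM hodd h3 h2

/-- Two elements of an `r`-group (`r = 3`, `d = 2` or `r = 7`, `d = 3`) with commutators of order `2 ^ d` on `M`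
commute modulo `C(M)`. -/
theorem comm_mem_of_pgroup {r d : ℕ} (hrd : (r = 3 ∧ d = 2) ∨ (r = 7 ∧ d = 3)) {y y' : S}
    (hp : IsPGroup r ↥(closure ({y, y'} : Set S)))
    (hy : Nat.card ↥(cm hM y) = 2 ^ d) (hy' : Nat.card ↥(cm hM y') = 2 ^ d) :
    ⁅y, y'⁆ ∈ centralizer (M : Set S) := by
  have hrp : r.Prime := by rcases hrd with ⟨rfl, _⟩ | ⟨rfl, _⟩ <;> norm_num
  have : Fact r.Prime := ⟨hrp⟩
  set D := closure ({y, y'} : Set S) with hD
  obtain ⟨c, hc⟩ := (IsPGroup.iff_card).1 hp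
  have hodd : Odd (Nat.card ↥D) := by
    rw [hc]
    apply Odd.pow
    rcases hrd with ⟨rfl, _⟩ | ⟨rfl, _⟩ <;> decide
  obtain ⟨n, hn, hnle⟩ := card_sup_dvd hM y y'
  rw [hy, hy', ← pow_add] at hnle
  have hn2 : n ≤ d + d := (Nat.pow_le_pow_iff_right (by norm_num)).mp hnle
  have h1 := relIndex_dvd_gl hM hodd hn
  rw [← hD] at h1
  have h2 : ∃ k, (centralizer (M : Set S)).relIndex D = r ^ k := by
    have h3 := Subgroup.relIndex_dvd_card (centralizer (M : Set S)) D
    rw [hc] at h3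
    obtain ⟨k, _, hk⟩ := (Nat.dvd_prime_pow hrp).mp h3
    exact ⟨k, hk⟩
  obtain ⟨k, hk⟩ := h2
  rw [hk] at h1
  have hk2 : k ≤ 2 := by
    by_contra h3
    have h4 : r ^ 3 ∣ gl n := (pow_dvd_pow r (by omega)).trans h1
    obtain ⟨g0, g1, g2, g3, g4, g5, g6⟩ := gl_vals
    rcases hrd with ⟨rfl, rfl⟩ | ⟨rfl, rfl⟩
    · have : n = 0 ∨ n = 1 ∨ n = 2 ∨ n = 3 ∨ n = 4 := by omega
      rcases this with rfl | rfl | rfl | rfl | rfl
      · rw [g0] at h4; revert h4; decide
      · rw [g1] at h4; revert h4; decide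
      · rw [g2] at h4; revert h4; decide
      · rw [g3] at h4; revert h4; decide
      · rw [g4] at h4; revert h4; decide
    · have : n = 0 ∨ n = 1 ∨ n = 2 ∨ n = 3 ∨ n = 4 ∨ n = 5 ∨ n = 6 := by omega
      rcases this with rfl | rfl | rfl | rfl | rfl | rfl | rfl
      · rw [g0] at h4; revert h4; decide
      · rw [g1] at h4; revert h4; decide
      · rw [g2] at h4; revert h4; decide
      · rw [g3] at h4; revert h4; decide
      · rw [g4] at h4; revert h4; decide
      · rw [g5] at h4; revert h4; decide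
      · rw [g6] at h4; revert h4; decide
  -- the quotient `D / C_D(M)` is commutative
  have hMn := hM.normal
  have hCn : (centralizer (M : Set S)).Normal := inferInstance
  have hNn : ((centralizer (M : Set S)).subgroupOf D).Normal := inferInstance
  have hcard : Nat.card (↥D ⧸ (centralizer (M : Set S)).subgroupOf D) = r ^ k := hk
  have hcomm : ∀ a b : ↥D ⧸ (centralizer (M : Set S)).subgroupOf D, a * b = b * a := by
    have hk3 : k = 0 ∨ k = 1 ∨ k = 2 := by omega
    rcases hk3 with rfl | rfl | rfl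
    · rw [pow_zero] at hcard
      have := (Nat.card_eq_one_iff_unique.mp hcard).1
      intro a b
      exact Subsingleton.elim _ _
    · rw [pow_one] at hcard
      have := isCyclic_of_prime_card hcard
      intro a b
      let _ := IsCyclic.commGroup (α := ↥D ⧸ (centralizer (M : Set S)).subgroupOf D)
      exact mul_comm a b
    · have := IsPGroup.isMulCommutative_of_card_eq_prime_sq hcard
      exact this.is_comm.comm
  have hyD : y ∈ D := subset_closure (by simp)
  have hyD' : y' ∈ D := subset_closure (by simp)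
  have h3 := hcomm (QuotientGroup.mk' _ ⟨y, hyD⟩) (QuotientGroup.mk' _ ⟨y', hyD'⟩)
  rw [← commutatorElement_eq_one_iff_mul_comm, ← map_commutatorElement] at h3
  have h4 := (QuotientGroup.eq_one_iff _).mp h3
  exact mem_subgroupOf.mp h4

end

end Cfsg.Agent.H585.ModTwo
end

-- part: H585/PCentral
section
/-!
# Finite `p`-groups (`p` odd) all of whose elements of order `p` are central

* `commutator_pow_eq_one`: if all elements of order `p` are central, `x ^ (p ^ 2) = 1` implies `⁅x, g⁆ ^ p = 1`.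
* `card_le_omega` (Thompson): an elementary abelian quotient `T` of `G` satisfies `|T| ≤ |Ω₁(G)|`.
* `exists_rank_three`: a finite `p`-group, `p` odd, with an elementary abelian quotient of order at least
  `p ^ 4` contains an elementary abelian subgroup of order `p ^ 3`.
-/

set_option autoImplicit false

namespace Cfsg.Agent.H585.PCentral

open Subgroup
open scoped commutatorElement

universe u v

variable {G : Type u} [Group G]

theorem comm_pow_aux [Finite G] {p : ℕ} [Fact p.Prime] (hp : p ≠ 2) (hG : IsPGroup p G)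
    (hc : ∀ x : G, x ^ p = 1 → ∀ g : G, Commute x g) :
    ∀ n : ℕ, ∀ x g : G, x ^ (p ^ 2) = 1 → Nat.card (closure ({x, g} : Set G)) ≤ n → ⁅x, g⁆ ^ p = 1 := by
  intro n
  induction n with
  | zero =>
    intro x g _ h
    have : 0 < Nat.card (closure ({x, g} : Set G)) := Nat.card_pos
    omega
  | succ n ih =>
    intro x g hx hle
    by_cases hcm : Commute x g
    · rw [commutatorElement_eq_one_iff_commute.mpr hcm, one_pow]
    have hlt := Cfsg.Agent.Lib.NormalElementary.card_closure_pair_lt hG hcm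
    have h1 := ih x (g * x * g⁻¹) hx (by omega)
    -- `X = x`, `Y = g x⁻¹ g⁻¹`
    have hcl : closure ({x, g * x⁻¹ * g⁻¹} : Set G) ≤ closure ({x, g * x * g⁻¹} : Set G) := by
      rw [closure_le]
      rintro w (rfl | hw)
      · exact subset_closure (by simp)
      · rw [Set.mem_singleton_iff] at hw
        have : w = (g * x * g⁻¹)⁻¹ := by rw [hw]; group
        rw [this]
        exact inv_mem (subset_closure (by simp))
    have h2 := ih x (g * x⁻¹ * g⁻¹) hx (by
      have := Subgroup.card_le_of_le hcl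
      omega)
    set y := g * x⁻¹ * g⁻¹ with hy
    have hcp : (y⁻¹ * x⁻¹ * y * x) ^ p = 1 := by
      have : y⁻¹ * x⁻¹ * y * x = (y⁻¹ * x⁻¹) * ⁅x, y⁆⁻¹ * (y⁻¹ * x⁻¹)⁻¹ := by
        rw [commutatorElement_def]; group
      rw [this, conj_pow, inv_pow, h2]; group
    have hcc := hc _ hcp
    have h3 := Cfsg.Agent.Lib.NormalElementary.mul_pow_prime_of_swap hp (x := x) (y := y)
      (c := y⁻¹ * x⁻¹ * y * x) (by group) (hcc _) (hcc _) hcp
    have hxp : Commute (x ^ p) g := by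
      apply hc
      rw [← pow_mul, ← pow_two]; exact hx
    have h4 : y ^ p = (x ^ p)⁻¹ := by
      rw [hy, conj_pow, inv_pow, ← (hxp.inv_left).eq]; group
    rw [h4, mul_inv_cancel] at h3
    have h5 : ⁅x, g⁆ = x * y := by rw [commutatorElement_def, hy]; group
    rw [h5, h3]

theorem commutator_pow_eq_one [Finite G] {p : ℕ} [Fact p.Prime] (hp : p ≠ 2) (hG : IsPGroup p G)
    (hc : ∀ x : G, x ^ p = 1 → ∀ g : G, Commute x g) (x g : G) (hx : x ^ (p ^ 2) = 1) : ⁅x, g⁆ ^ p = 1 :=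
  comm_pow_aux hp hG hc _ x g hx le_rfl

/-- The subgroup of elements of order dividing `p`, when these are central. -/
def om (G : Type u) [Group G] (p : ℕ) (hc : ∀ x : G, x ^ p = 1 → ∀ g : G, Commute x g) : Subgroup G where
  carrier := {x | x ^ p = 1}
  mul_mem' := by
    intro a b ha hb
    have h := (hc a ha b).mul_pow p
    rw [Set.mem_ofPred_eq] at ha hb ⊢
    rw [h, ha, hb, one_mul]
  one_mem' := one_pow p
  inv_mem' := by
    intro a ha
    rw [Set.mem_ofPred_eq] at ha ⊢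
    rw [inv_pow, ha, inv_one]

theorem mem_om {p : ℕ} {hc : ∀ x : G, x ^ p = 1 → ∀ g : G, Commute x g} {x : G} : x ∈ om G p hc ↔ x ^ p = 1 :=
  Iff.rfl

theorem om_normal {p : ℕ} (hc : ∀ x : G, x ^ p = 1 → ∀ g : G, Commute x g) : (om G p hc).Normal := by
  constructor
  intro x hx g
  have : g * x * g⁻¹ = x := by
    rw [← (hc x hx g).eq]; simp
  rw [this]; exact hx

theorem exists_hyperplane {p : ℕ} [hpf : Fact p.Prime] {T : Type v} [CommGroup T] [Finite T]
    (hT : ∀ t : T, t ^ p = 1) {t : T} (ht : t ≠ 1) :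
    ∃ T₀ : Subgroup T, t ∉ T₀ ∧ T₀ ⊔ zpowers t = ⊤ := by
  classical
  obtain ⟨T₀, _, hT₀⟩ := (Set.toFinite {N : Subgroup T | t ∉ N}).exists_le_maximal
    (a := (⊥ : Subgroup T)) (by
      show t ∉ (⊥ : Subgroup T)
      rw [mem_bot]; exact ht)
  refine ⟨T₀, hT₀.1, ?_⟩
  rw [eq_top_iff]
  intro u _
  by_cases hu : u ∈ T₀
  · exact mem_sup_left hu
  have h1 : t ∈ T₀ ⊔ zpowers u := by
    by_contra h
    have h2 := hT₀.2 (show t ∉ T₀ ⊔ zpowers u from h) le_sup_left
    exact hu (h2 (mem_sup_right (mem_zpowers u)))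
  obtain ⟨a, ha, b, hb, hab⟩ := mem_sup.mp h1
  obtain ⟨k, rfl⟩ := mem_zpowers_iff.mp hb
  have hpp := hpf.out
  have hk : ¬ (p : ℤ) ∣ k := by
    rintro ⟨m, rfl⟩
    have : u ^ ((p : ℤ) * m) = 1 := by rw [zpow_mul, zpow_natCast, hT, one_zpow]
    rw [this, mul_one] at hab
    rw [hab] at ha
    exact hT₀.1 ha
  have hcop : IsCoprime k (p : ℤ) := by
    rw [Int.isCoprime_iff_gcd_eq_one, Int.gcd_comm]
    exact (Int.isCoprime_iff_gcd_eq_one.mp ((Nat.prime_iff_prime_int.mp hpp).coprime_iff_not_dvd.mpr hk))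
  obtain ⟨α, β, hαβ⟩ := hcop
  have hu2 : u = (u ^ k) ^ α := by
    rw [← zpow_mul]
    calc u = u ^ (1 : ℤ) := (zpow_one u).symm
      _ = u ^ (α * k + β * p) := by rw [hαβ]
      _ = u ^ (k * α) * (u ^ (p : ℤ)) ^ β := by rw [zpow_add, mul_comm α k, mul_comm β, zpow_mul u (p : ℤ)]
      _ = u ^ (k * α) := by rw [zpow_natCast, hT, one_zpow, mul_one]
  rw [hu2]
  apply zpow_mem
  have h3 : u ^ k = a⁻¹ * t := by rw [← hab]; simp
  rw [h3]
  exact mul_mem (inv_mem (mem_sup_left ha)) (mem_sup_right (mem_zpowers t))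

theorem card_le_omega_aux {p : ℕ} [hpf : Fact p.Prime] (hp : p ≠ 2) : ∀ n : ℕ, ∀ (G : Type u) [Group G] [Finite G],
    Nat.card G ≤ n → IsPGroup p G → (∀ x : G, x ^ p = 1 → ∀ g : G, Commute x g) →
    ∀ (T : Type v) [CommGroup T] (f : G →* T), Function.Surjective f → (∀ t : T, t ^ p = 1) →
    Nat.card T ≤ Nat.card {x : G // x ^ p = 1} := by
  intro n
  induction n with
  | zero =>
    intro G _ _ h
    have : 0 < Nat.card G := Nat.card_pos
    omega
  | succ n ih =>
    intro G _ _ hcard hG hc T _ f hf hT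
    have hpp := hpf.out
    have : Finite T := Finite.of_surjective f hf
    by_cases hker : ∀ x : G, x ^ p = 1 → f x = 1
    · -- `f` factors through `G / Ω`
      by_cases htriv : ∀ x : G, x ^ p = 1 → x = 1
      · -- no elements of order `p`: trivial group
        have h1 : ∀ x : G, x = 1 := by
          intro x
          obtain ⟨k, hk⟩ := hG x
          induction k with
          | zero => simpa using hk
          | succ k ihk =>
            apply ihk
            apply htriv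
            rw [← pow_mul, ← pow_succ]; exact hk
        have h2 : Subsingleton T := by
          constructor
          intro a b
          obtain ⟨x, rfl⟩ := hf a
          obtain ⟨y, rfl⟩ := hf b
          rw [h1 x, h1 y]
        rw [Nat.card_of_subsingleton (1 : T)]
        have : Nonempty {x : G // x ^ p = 1} := ⟨⟨1, one_pow p⟩⟩
        exact Nat.card_pos
      push Not at htriv
      obtain ⟨x₀, hx₀, hx₀1⟩ := htriv
      have hn := om_normal (G := G) hc
      have hlt : Nat.card (G ⧸ om G p hc) < Nat.card G := by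
        have h1 := Subgroup.card_eq_card_quotient_mul_card_subgroup (om G p hc)
        have h2 : 1 < Nat.card (om G p hc) := by
          rw [Subgroup.one_lt_card_iff_ne_bot]
          intro h
          apply hx₀1
          have h3 : x₀ ∈ om G p hc := mem_om.mpr hx₀
          rwa [h, mem_bot] at h3
        have h3 : 0 < Nat.card (G ⧸ om G p hc) := Nat.card_pos
        rw [h1]
        exact lt_mul_of_one_lt_right h3 h2
      have hGq : IsPGroup p (G ⧸ om G p hc) := hG.to_quotient _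
      have hcq : ∀ x : G ⧸ om G p hc, x ^ p = 1 → ∀ g : G ⧸ om G p hc, Commute x g := by
        intro x hx g
        obtain ⟨x, rfl⟩ := QuotientGroup.mk'_surjective _ x
        obtain ⟨g, rfl⟩ := QuotientGroup.mk'_surjective _ g
        rw [← map_pow] at hx
        have h1 : x ^ p ∈ om G p hc := (QuotientGroup.eq_one_iff _).mp hx
        rw [mem_om, ← pow_mul, ← pow_two] at h1
        have h2 := commutator_pow_eq_one hp hG hc x g h1
        rw [← commutatorElement_eq_one_iff_commute, ← map_commutatorElement]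
        exact (QuotientGroup.eq_one_iff _).mpr (mem_om.mpr h2)
      have hle : om G p hc ≤ f.ker := by
        intro x hx
        exact hker x hx
      have h1 := ih (G ⧸ om G p hc) (by omega) hGq hcq T (QuotientGroup.lift (om G p hc) f hle)
        (by
          intro t
          obtain ⟨x, rfl⟩ := hf t
          exact ⟨QuotientGroup.mk x, rfl⟩) hT
      refine h1.trans ?_
      -- the power map
      have hpow : ∀ y : {y : G ⧸ om G p hc // y ^ p = 1}, ((Quotient.out y.1 : G) ^ p) ^ p = 1 := by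
        rintro ⟨y, hy⟩
        have h2 : (QuotientGroup.mk (Quotient.out y) : G ⧸ om G p hc) = y := QuotientGroup.out_eq' y
        have h3 : (QuotientGroup.mk ((Quotient.out y) ^ p) : G ⧸ om G p hc) = 1 := by
          rw [QuotientGroup.mk_pow, h2, hy]
        exact (QuotientGroup.eq_one_iff _).mp h3
      apply Nat.card_le_card_of_injective (fun y => (⟨(Quotient.out y.1 : G) ^ p, hpow y⟩ : {x : G // x ^ p = 1}))
      intro y z hyz
      have hyz' : (Quotient.out y.1 : G) ^ p = (Quotient.out z.1 : G) ^ p := congrArg Subtype.val hyz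
      have hy2 : (QuotientGroup.mk (Quotient.out y.1) : G ⧸ om G p hc) = y.1 := QuotientGroup.out_eq' y.1
      have hz2 : (QuotientGroup.mk (Quotient.out z.1) : G ⧸ om G p hc) = z.1 := QuotientGroup.out_eq' z.1
      apply Subtype.ext
      rw [← hy2, ← hz2, QuotientGroup.eq, mem_om]
      set a := (Quotient.out y.1 : G) with ha
      set b := (Quotient.out z.1 : G) with hb
      have hap : a ^ (p ^ 2) = 1 := by
        rw [pow_two, pow_mul]; exact hpow y
      -- commutator of `a⁻¹` and `b`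
      have h4 := commutator_pow_eq_one hp hG hc a b hap
      have hcp : (b⁻¹ * a * b * a⁻¹) ^ p = 1 := by
        have : b⁻¹ * a * b * a⁻¹ = b⁻¹ * ⁅a, b⁆ * (b⁻¹)⁻¹ := by
          rw [commutatorElement_def]; group
        rw [this, conj_pow, h4]; group
      have hcc := hc _ hcp
      have h5 := Cfsg.Agent.Lib.NormalElementary.mul_pow_prime_of_swap hp (x := a⁻¹) (y := b)
        (c := b⁻¹ * a * b * a⁻¹) (by group) (hcc _) (hcc _) hcp
      rw [h5, inv_pow, hyz', inv_mul_cancel]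
    · push Not at hker
      obtain ⟨z, hz, hfz⟩ := hker
      obtain ⟨T₀, hT₀, hsup⟩ := exists_hyperplane hT hfz
      let G₀ : Subgroup G := T₀.comap f
      have hzG : z ∉ G₀ := hT₀
      have hlt : Nat.card G₀ < Nat.card G := by
        apply lt_of_le_of_ne (Subgroup.card_le_card_group _)
        intro h
        have : G₀ = ⊤ := Subgroup.eq_top_of_card_eq _ h
        rw [this] at hzG
        exact hzG (mem_top _)
      let f₀ : ↥G₀ →* ↥T₀ := (f.comp G₀.subtype).codRestrict T₀ (fun x => x.2)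
      have hf₀ : Function.Surjective f₀ := by
        rintro ⟨t, ht⟩
        obtain ⟨x, rfl⟩ := hf t
        exact ⟨⟨x, ht⟩, rfl⟩
      have h1 := ih ↥G₀ (by omega) (hG.to_subgroup G₀)
        (by
          intro x hx g
          have hx' : (x : G) ^ p = 1 := by simpa using congrArg Subtype.val hx
          exact Subtype.ext (hc _ hx' g))
        ↥T₀ f₀ hf₀ (fun t => Subtype.ext (by simpa using hT t))
      have h2 : Nat.card T ≤ Nat.card ↥T₀ * p := by
        have h3 := Subgroup.card_mul_index T₀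
        rw [← h3]
        apply Nat.mul_le_mul_left
        rw [← Subgroup.relIndex_top_right, ← hsup, sup_comm, Subgroup.relIndex_sup_right]
        have h4 : Nat.card ↥(zpowers (f z)) = p := by
          rw [Nat.card_zpowers]
          exact orderOf_eq_prime (hT _) hfz
        rw [← h4]
        exact Nat.le_of_dvd Nat.card_pos (Subgroup.relIndex_dvd_card _ _)
      refine h2.trans ((Nat.mul_le_mul_right p h1).trans ?_)
      have h5 : Nat.card ↥(zpowers z) = p := by
        rw [Nat.card_zpowers]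
        exact orderOf_eq_prime hz (fun h => hfz (by rw [h, map_one]))
      nth_rewrite 2 [← h5]
      rw [← Nat.card_prod]
      have hzz : ∀ w ∈ zpowers z, w ^ p = 1 := by
        intro w hw
        obtain ⟨k, rfl⟩ := mem_zpowers_iff.mp hw
        rw [← zpow_natCast, ← zpow_mul, mul_comm, zpow_mul, zpow_natCast, hz, one_zpow]
      apply Nat.card_le_card_of_injective (fun w : {x : ↥G₀ // x ^ p = 1} × ↥(zpowers z) =>
        (⟨((w.1.1 : ↥G₀) : G) * (w.2 : G), by
          have hx' : ((w.1.1 : ↥G₀) : G) ^ p = 1 := by simpa using congrArg Subtype.val w.1.2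
          rw [(hc _ hx' _).mul_pow, hx', hzz _ w.2.2, one_mul]⟩ : {x : G // x ^ p = 1}))
      rintro ⟨⟨a, ha⟩, b⟩ ⟨⟨c, hcc⟩, d⟩ h
      have h' : (a : G) * (b : G) = (c : G) * (d : G) := congrArg Subtype.val h
      have h6 : (c : G)⁻¹ * (a : G) = (d : G) * (b : G)⁻¹ := by
        rw [inv_mul_eq_iff_eq_mul, ← mul_assoc, ← h']; simp
      have h7 : (d : G) * (b : G)⁻¹ ∈ G₀ := by
        rw [← h6]; exact mul_mem (inv_mem c.2) a.2
      have h8 : (d : G) * (b : G)⁻¹ = 1 := by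
        by_contra hne
        apply hzG
        have h9 : (d : G) * (b : G)⁻¹ ∈ zpowers z := mul_mem d.2 (inv_mem b.2)
        have h10 : zpowers ((d : G) * (b : G)⁻¹) = zpowers z := by
          apply Subgroup.eq_of_le_of_card_ge
          · rw [zpowers_le]; exact h9
          · rw [h5, Nat.card_zpowers, orderOf_eq_prime (hzz _ h9) hne]
        have h11 : z ∈ zpowers ((d : G) * (b : G)⁻¹) := by rw [h10]; exact mem_zpowers z
        exact (zpowers_le.mpr h7) h11
      have h9 : (d : G) = b := mul_inv_eq_one.mp h8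
      have h10 : (a : G) = c := by
        rw [h8, inv_mul_eq_one] at h6
        exact h6.symm
      apply Prod.ext
      · exact Subtype.ext (Subtype.ext h10)
      · exact Subtype.ext h9.symm

/-- **Thompson.** `G` a finite `p`-group, `p` odd, all of whose elements of order `p` are central. Then every
elementary abelian quotient of `G` has order at most `|Ω₁(G)|`. -/
theorem card_le_omega {p : ℕ} [hpf : Fact p.Prime] (hp : p ≠ 2) {G : Type u} [Group G] [Finite G]
    (hG : IsPGroup p G) (hc : ∀ x : G, x ^ p = 1 → ∀ g : G, Commute x g)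
    {T : Type v} [CommGroup T] (f : G →* T) (hf : Function.Surjective f) (hT : ∀ t : T, t ^ p = 1) :
    Nat.card T ≤ Nat.card {x : G // x ^ p = 1} :=
  card_le_omega_aux hp _ G le_rfl hG hc T f hf hT

/-- The centralizer of a normal elementary abelian subgroup of order `p ^ 2` of a `p`-group has index
dividing `p`. -/
theorem index_centralizer_dvd {p : ℕ} [hpf : Fact p.Prime] {R : Type u} [Group R] [Finite R] (hR : IsPGroup p R)
    (A : Subgroup R) [A.Normal] (hA : Cfsg.IsElementaryAbelian p A) (hA2 : Nat.card ↥A = p ^ 2) :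
    (centralizer (A : Set R)).index ∣ p := by
  have hpp := hpf.out
  let _ : CommGroup ↥A := { (inferInstance : Group ↥A) with mul_comm := hA.1.is_comm.comm }
  obtain ⟨e⟩ := Cfsg.Agent.Lib.ElemAbGL.mulAut_equiv_GL (V := ↥A) p 2 (fun x => Subtype.ext (by
    rw [Subgroup.coe_pow]; exact hA.2 x x.2)) hA2
  have hker : (MulAut.conjNormal (H := A)).ker = centralizer (A : Set R) := by
    ext g
    rw [MonoidHom.mem_ker, mem_centralizer_iff]
    constructor
    · intro h a ha
      have h2 := congrArg (fun φ : MulAut ↥A => ((φ ⟨a, ha⟩ : ↥A) : R)) h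
      have h3 : g * a * g⁻¹ = a := h2
      exact (mul_inv_eq_iff_eq_mul.mp h3).symm
    · intro h
      ext a
      show g * (a : R) * g⁻¹ = a
      rw [← h a a.2]; simp
  rw [← hker, Subgroup.index_ker]
  have h1 : Nat.card ↥(MulAut.conjNormal (H := A)).range ∣ Nat.card (MulAut ↥A) := Subgroup.card_subgroup_dvd_card _
  rw [Nat.card_congr e.toEquiv, Matrix.card_GL_field, Fin.prod_univ_two] at h1
  simp only [ZMod.card, Fin.val_zero, Fin.val_one, pow_zero, pow_one] at h1
  have h2 : ∃ k, Nat.card ↥(MulAut.conjNormal (H := A)).range = p ^ k := by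
    rw [← Subgroup.index_ker]
    obtain ⟨n, hn⟩ := (IsPGroup.iff_card).1 hR
    have h3 := Subgroup.index_dvd_card (MulAut.conjNormal (H := A)).ker
    rw [hn] at h3
    obtain ⟨k, _, hk⟩ := (Nat.dvd_prime_pow hpp).mp h3
    exact ⟨k, hk⟩
  obtain ⟨k, hk⟩ := h2
  rw [hk] at h1 ⊢
  have h4 : (p ^ 2 - 1) * (p ^ 2 - p) = p * ((p ^ 2 - 1) * (p - 1)) := by
    have : p ^ 2 - p = p * (p - 1) := by rw [pow_two, Nat.mul_sub, mul_one]
    rw [this]; ring
  rw [h4] at h1
  by_contra h5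
  have h6 : 2 ≤ k := by
    by_contra h7
    apply h5
    have : k = 0 ∨ k = 1 := by omega
    rcases this with rfl | rfl
    · simp
    · simp
  have h7 : p * p ∣ p * ((p ^ 2 - 1) * (p - 1)) := by
    rw [← pow_two]; exact (pow_dvd_pow p h6).trans h1
  have h8 : p ∣ (p ^ 2 - 1) * (p - 1) := Nat.dvd_of_mul_dvd_mul_left hpp.pos h7
  have h9 : 1 < p := hpp.one_lt
  rcases hpp.dvd_mul.mp h8 with h | h
  · have h10 : p ∣ p ^ 2 := dvd_pow_self p (by norm_num)
    have h11 : p ∣ 1 := by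
      have := (Nat.dvd_sub h10 h)
      have h12 : p ^ 2 - (p ^ 2 - 1) = 1 := by
        have : 1 ≤ p ^ 2 := Nat.one_le_pow _ _ hpp.pos
        omega
      rwa [h12] at this
    exact hpp.one_lt.ne' (Nat.dvd_one.mp h11)
  · have := Nat.le_of_dvd (by omega) h
    omega

/-- `p`-rank at most two if there is no elementary abelian subgroup of order `p ^ 3`. -/
theorem pRankLE_two_of {p : ℕ} [hpf : Fact p.Prime] {R : Type u} [Group R] [Finite R]
    (h : ¬ ∃ F : Subgroup R, Cfsg.IsElementaryAbelian p F ∧ Nat.card ↥F = p ^ 3) : Cfsg.PRankLE p 2 R := by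
  intro A hA hAp
  by_contra hlt
  push Not at hlt
  apply h
  have hpp := hpf.out
  have hAg : IsPGroup p ↥A := fun a => ⟨1, Subtype.ext (by rw [pow_one]; exact hAp a a.2)⟩
  obtain ⟨n, hn⟩ := (IsPGroup.iff_card).1 hAg
  have h3 : 3 ≤ n := by
    by_contra h4
    have : p ^ n ≤ p ^ 2 := Nat.pow_le_pow_right hpp.pos (by omega)
    omega
  obtain ⟨K, hK⟩ := Sylow.exists_subgroup_card_pow_prime (G := ↥A) p (n := 3) (by rw [hn]; exact pow_dvd_pow p h3)
  refine ⟨K.map A.subtype, ⟨?_, ?_⟩, ?_⟩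
  · constructor
    constructor
    rintro ⟨_, ⟨a, _, rfl⟩⟩ ⟨_, ⟨b, _, rfl⟩⟩
    apply Subtype.ext
    have := hA.is_comm.comm a b
    show (a : R) * b = b * a
    exact congrArg Subtype.val this
  · rintro _ ⟨a, _, rfl⟩
    exact hAp a a.2
  · rw [Subgroup.card_map_of_injective A.subtype_injective, hK]

/-- The key estimate: in a `p`-group of rank at most `2` (`p` odd) let `A` be an elementary abelian subgroup of
order `p ^ 2`; then elementary abelian quotients of `C_R(A)` have order at most `p ^ 2`. -/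
theorem card_le_of_centralizer {p : ℕ} [hpf : Fact p.Prime] (hp : p ≠ 2) {R : Type u} [Group R] [Finite R]
    (hR : IsPGroup p R) (hr : Cfsg.PRankLE p 2 R) (A : Subgroup R) (hA : Cfsg.IsElementaryAbelian p A)
    (hA2 : Nat.card ↥A = p ^ 2) {T : Type v} [CommGroup T] (f : ↥(centralizer (A : Set R)) →* T)
    (hf : Function.Surjective f) (hT : ∀ t : T, t ^ p = 1) : Nat.card T ≤ p ^ 2 := by
  have hAc : ∀ a ∈ A, ∀ b ∈ A, a * b = b * a := Cfsg.Agent.Omega.Sec.Basic.comm_of hA.1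
  have hmem : ∀ x : ↥(centralizer (A : Set R)), x ^ p = 1 → (x : R) ∈ A := by
    intro x hx
    apply Cfsg.Agent.Omega.Sec.Basic.mem_of_rank hr hAc hA.2 hA2.ge
    · intro a ha
      exact (mem_centralizer_iff.mp x.2 a ha).symm
    · simpa using congrArg Subtype.val hx
  have h1 := card_le_omega hp (hR.to_subgroup (centralizer (A : Set R)))
    (by
      intro x hx g
      apply Subtype.ext
      exact mem_centralizer_iff.mp g.2 _ (hmem x hx)) f hf hT
  refine h1.trans ?_
  rw [← hA2]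
  exact Nat.card_le_card_of_injective (fun x : {x : ↥(centralizer (A : Set R)) // x ^ p = 1} =>
    (⟨(x.1 : R), hmem x.1 x.2⟩ : ↥A)) (by
      intro x y hxy
      have h3 := congrArg (fun a : ↥A => (a : R)) hxy
      have h2 : ((x.1 : ↥(centralizer (A : Set R))) : R) = y.1 := h3
      exact Subtype.ext (Subtype.ext h2))

/-- A finite `p`-group, `p` odd, with an elementary abelian quotient of order at least `p ^ 4` contains an
elementary abelian subgroup of order `p ^ 3`. -/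
theorem exists_rank_three {p : ℕ} [hpf : Fact p.Prime] (hp : p ≠ 2) {R : Type u} [Group R] [Finite R]
    (hR : IsPGroup p R) {T : Type v} [CommGroup T] (f : R →* T) (hf : Function.Surjective f)
    (hT : ∀ t : T, t ^ p = 1) (hcard : p ^ 4 ≤ Nat.card T) :
    ∃ F : Subgroup R, Cfsg.IsElementaryAbelian p F ∧ Nat.card ↥F = p ^ 3 := by
  by_contra hcon
  have hpp := hpf.out
  have hr := pRankLE_two_of hcon
  have hncyc : ¬ IsCyclic R := by
    intro hcyc
    have h1 : IsCyclic T := isCyclic_of_surjective f hf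
    have : Finite T := Finite.of_surjective f hf
    obtain ⟨t, ht⟩ := h1.exists_generator
    have h2 : orderOf t = Nat.card T := orderOf_eq_card_of_forall_mem_zpowers ht
    have h3 : orderOf t ∣ p := orderOf_dvd_of_pow_eq_one (hT t)
    have h4 : Nat.card T ≤ p := by rw [← h2]; exact Nat.le_of_dvd hpp.pos h3
    have h5 : p ^ 1 < p ^ 4 := Nat.pow_lt_pow_right hpp.one_lt (by norm_num)
    rw [pow_one] at h5
    omega
  obtain ⟨A, _, hAn, hA, hA2⟩ := Cfsg.Agent.S0636.result hp hR (⊤ : Subgroup R) (by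
    intro h
    apply hncyc
    exact isCyclic_of_surjective (Subgroup.topEquiv (G := R)).toMonoidHom (Subgroup.topEquiv (G := R)).surjective)
  have hidx := index_centralizer_dvd hR A hA hA2
  set B := centralizer (A : Set R) with hB
  let T' : Subgroup T := B.map f
  let f' : ↥B →* ↥T' := (f.comp B.subtype).codRestrict T' (fun x => ⟨x, x.2, rfl⟩)
  have hf' : Function.Surjective f' := by
    rintro ⟨_, ⟨x, hx, rfl⟩⟩
    exact ⟨⟨x, hx⟩, rfl⟩
  have h1 := card_le_of_centralizer hp hR hr A hA hA2 f' hf' (fun t => Subtype.ext (by simpa using hT t))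
  have h2 : T'.index ∣ B.index := Subgroup.index_map_dvd B hf
  have h3 : T'.index ≤ p := Nat.le_of_dvd hpp.pos (h2.trans hidx)
  have h4 := Subgroup.card_mul_index T'
  have h5 : Nat.card T ≤ p ^ 2 * p := by
    rw [← h4]; exact Nat.mul_le_mul h1 h3
  have h6 : p ^ 3 < p ^ 4 := Nat.pow_lt_pow_right hpp.one_lt (by norm_num)
  have h7 : p ^ 2 * p = p ^ 3 := by ring
  omega

end Cfsg.Agent.H585.PCentral
end

-- part: H585/RankB
section
/-!
# Four independent small elements give an elementary abelian subgroup of rank three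
-/

set_option autoImplicit false

namespace Cfsg.Agent.H585.RankB

open Subgroup Cfsg.Agent.H585.ModTwo Cfsg.Agent.H585.PCentral
open scoped commutatorElement Pointwise

variable {S : Type*} [Group S] [Finite S]

/-- the two relevant pairs `(3, 2)` and `(7, 3)` -/
def RD (r d : ℕ) : Prop := (r = 3 ∧ d = 2) ∨ (r = 7 ∧ d = 3)

theorem RD.prime {r d : ℕ} (h : RD r d) : r.Prime := by
  rcases h with ⟨rfl, _⟩ | ⟨rfl, _⟩ <;> norm_num

theorem RD.ne_two {r d : ℕ} (h : RD r d) : r ≠ 2 := by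
  rcases h with ⟨rfl, _⟩ | ⟨rfl, _⟩ <;> norm_num

theorem RD.pow {r d : ℕ} (h : RD r d) : 2 ^ d = r + 1 := by
  rcases h with ⟨rfl, rfl⟩ | ⟨rfl, rfl⟩ <;> norm_num

theorem RD.not_sq {r d : ℕ} (h : RD r d) : ¬ r ^ 2 ∣ gl d := by
  obtain ⟨g0, g1, g2, g3, g4, g5, g6⟩ := gl_vals
  rcases h with ⟨rfl, rfl⟩ | ⟨rfl, rfl⟩
  · rw [g2]; decide
  · rw [g3]; decide

variable {M : Subgroup S} (hM : Hyp M)

include hM in
theorem relIndex_dvd {r d : ℕ} (hrd : RD r d) {K V : Subgroup S} (hK : IsPGroup r ↥K) (hV : V ≤ M)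
    (hVc : Nat.card ↥V = 2 ^ d) (hKV : K ≤ normalizer (V : Set S)) : (centralizer (V : Set S)).relIndex K ∣ r := by
  have hrp := hrd.prime
  have : Fact r.Prime := ⟨hrp⟩
  have h1 := relIndex_centralizer_dvd hKV
  rw [card_mulAut (fun a ha b hb => hM.comm a (hV ha) b (hV hb)) (fun a ha => hM.sq a (hV ha)) hVc] at h1
  obtain ⟨c, hc⟩ := (IsPGroup.iff_card).1 hK
  have h3 := Subgroup.relIndex_dvd_card (centralizer (V : Set S)) K
  rw [hc] at h3
  obtain ⟨k, _, hk⟩ := (Nat.dvd_prime_pow hrp).mp h3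
  rw [hk] at h1 ⊢
  have hk2 : k ≤ 1 := by
    by_contra h
    exact hrd.not_sq ((pow_dvd_pow r (by omega)).trans h1)
  exact (pow_dvd_pow r hk2).trans (by rw [pow_one])

omit [Finite S] in
theorem not_isCyclic_of {r : ℕ} [Fact r.Prime] {X : Subgroup S} (hX : ∀ x ∈ X, x ^ r = 1)
    (hc : r ^ 2 ≤ Nat.card ↥X) : ¬ IsCyclic ↥X := by
  intro h
  have hrp : r.Prime := Fact.out
  have hfin : Finite ↥X := by
    apply Nat.finite_of_card_ne_zero
    have : 0 < r ^ 2 := pow_pos hrp.pos 2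
    omega
  obtain ⟨t, ht⟩ := h.exists_generator
  have h2 : orderOf t = Nat.card ↥X := orderOf_eq_card_of_forall_mem_zpowers ht
  have h3 : orderOf t ∣ r := orderOf_dvd_of_pow_eq_one (Subtype.ext (by simpa using hX t t.2))
  have h4 : Nat.card ↥X ≤ r := by rw [← h2]; exact Nat.le_of_dvd hrp.pos h3
  have h5 : r ^ 1 < r ^ 2 := Nat.pow_lt_pow_right hrp.one_lt (by norm_num)
  rw [pow_one] at h5
  omega

include hM in
theorem noncyclic_of {r d : ℕ} (hrd : RD r d) {F V : Subgroup S} (hF : Cfsg.IsElementaryAbelian r F)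
    (hFc : Nat.card ↥F = r ^ 3) (hV : V ≤ M) (hVc : Nat.card ↥V = 2 ^ d)
    (hFV : F ≤ normalizer (V : Set S)) : ¬ IsCyclic ↥(F ⊓ centralizer (V : Set S)) := by
  have hrp := hrd.prime
  have : Fact r.Prime := ⟨hrp⟩
  have hFp : IsPGroup r ↥F := IsPGroup.of_card hFc
  have h1 := relIndex_dvd hM hrd hFp hV hVc hFV
  apply not_isCyclic_of (r := r) (X := F ⊓ centralizer (V : Set S)) (fun x hx => hF.2 x hx.1)
  have h2 : Nat.card ↥(F ⊓ centralizer (V : Set S)) * (centralizer (V : Set S)).relIndex F = r ^ 3 := by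
    rw [← Subgroup.inf_relIndex_left, ← hFc]
    have := Subgroup.relIndex_mul_relIndex ⊥ (F ⊓ centralizer (V : Set S)) F bot_le inf_le_left
    rwa [Subgroup.relIndex_bot_left, Subgroup.relIndex_bot_left] at this
  have h3 : (centralizer (V : Set S)).relIndex F ≤ r := Nat.le_of_dvd hrp.pos h1
  by_contra h4
  push Not at h4
  have h5 : Nat.card ↥(F ⊓ centralizer (V : Set S)) * (centralizer (V : Set S)).relIndex F < r ^ 2 * r := by
    calc Nat.card ↥(F ⊓ centralizer (V : Set S)) * (centralizer (V : Set S)).relIndex F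
        ≤ Nat.card ↥(F ⊓ centralizer (V : Set S)) * r := Nat.mul_le_mul_left _ h3
      _ < r ^ 2 * r := Nat.mul_lt_mul_of_pos_right h4 hrp.pos
  rw [h2, ← pow_succ] at h5
  exact lt_irrefl _ h5

theorem disjoint_of_ne {r d : ℕ} (hrd : RD r d) {y y' : S} (hy : y ^ r ∈ centralizer (M : Set S))
    (hy' : y' ^ r ∈ centralizer (M : Set S)) (hc : Nat.card ↥(cm hM y) = 2 ^ d)
    (hc' : Nat.card ↥(cm hM y') = 2 ^ d) (h : ⁅y, y'⁆ ∈ centralizer (M : Set S)) (hne : cm hM y ≠ cm hM y') :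
    cm hM y ⊓ cm hM y' = ⊥ := by
  have : Fact r.Prime := ⟨hrd.prime⟩
  by_contra hcon
  apply hne
  have h' : ⁅y', y⁆ ∈ centralizer (M : Set S) := by
    rw [← commutatorElement_inv]; exact inv_mem h
  have h1 := eq_cm_of_le hM (y := y) hrd.ne_two hy (by rw [hc, hrd.pow]) (U := cm hM y ⊓ cm hM y') inf_le_left
    (fun u hu => ⟨conj_mem_cm_of_comm hM (y := y) (y' := y) (by rw [commutatorElement_self]; exact one_mem _) hu.1,
      conj_mem_cm_of_comm hM h hu.2⟩) hcon
  have h2 := eq_cm_of_le hM (y := y') hrd.ne_two hy' (by rw [hc', hrd.pow]) (U := cm hM y ⊓ cm hM y') inf_le_right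
    (fun u hu => ⟨conj_mem_cm_of_comm hM h' hu.1,
      conj_mem_cm_of_comm hM (y := y') (y' := y') (by rw [commutatorElement_self]; exact one_mem _) hu.2⟩) hcon
  exact h1.symm.trans h2

theorem exists_pi_surj {r : ℕ} [hrp : Fact r.Prime] {R : Type*} [Group R] (χ : Fin 4 → (R →* Multiplicative (ZMod r)))
    (s : Fin 4 → R) (h0 : ∀ i j, i ≠ j → χ i (s j) = 1) (h1 : ∀ i, χ i (s i) ≠ 1) :
    Function.Surjective (MonoidHom.pi χ : R →* (Fin 4 → Multiplicative (ZMod r))) := by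
  intro x
  have hcard : Nat.card (Multiplicative (ZMod r)) = r := by
    rw [Nat.card_congr Multiplicative.toAdd, Nat.card_zmod]
  have hz : ∀ i, x i ∈ zpowers (χ i (s i)) := fun i => mem_zpowers_of_prime_card hcard (h1 i)
  choose a ha using fun i => mem_zpowers_iff.mp (hz i)
  refine ⟨s 0 ^ a 0 * s 1 ^ a 1 * s 2 ^ a 2 * s 3 ^ a 3, ?_⟩
  funext i
  show χ i _ = x i
  rw [map_mul, map_mul, map_mul, map_zpow, map_zpow, map_zpow, map_zpow]
  have hi : i = 0 ∨ i = 1 ∨ i = 2 ∨ i = 3 := by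
    revert i; decide
  rcases hi with rfl | rfl | rfl | rfl
  · rw [h0 0 1 (by decide), h0 0 2 (by decide), h0 0 3 (by decide), ha]; simp
  · rw [h0 1 0 (by decide), h0 1 2 (by decide), h0 1 3 (by decide), ha]; simp
  · rw [h0 2 0 (by decide), h0 2 1 (by decide), h0 2 3 (by decide), ha]; simp
  · rw [h0 3 0 (by decide), h0 3 1 (by decide), h0 3 2 (by decide), ha]; simp

/-- An element of prime-power order of a finite group `K` is conjugate into a given Sylow subgroup. -/
theorem exists_conj_mem_sylow {K : Type*} [Group K] [Finite K] {p : ℕ} [Fact p.Prime] (R : Sylow p K) {t : K}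
    (ht : IsPGroup p ↥(zpowers t)) : ∃ k : K, k * t * k⁻¹ ∈ (R : Subgroup K) := by
  obtain ⟨Q, hQ⟩ := ht.exists_le_sylow
  obtain ⟨g, hg⟩ := MulAction.exists_smul_eq K Q R
  refine ⟨g, ?_⟩
  have h1 : t ∈ (Q : Subgroup K) := hQ (mem_zpowers t)
  rw [← hg]
  show g * t * g⁻¹ ∈ ((g • Q : Sylow p K) : Subgroup K)
  rw [Sylow.coe_subgroup_smul]
  exact Subgroup.smul_mem_pointwise_smul t (MulAut.conj g) _ h1

theorem main {r d : ℕ} (hrd : RD r d) (H : Subgroup S) (t : Fin 4 → S) (htH : ∀ i, t i ∈ H)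
    (htp : ∀ i, IsPGroup r ↥(zpowers (t i))) (htr : ∀ i, t i ^ r ∈ centralizer (M : Set S))
    (hcard : ∀ i, Nat.card ↥(cm hM (t i)) = 2 ^ d) (hcomm : ∀ i j, ⁅t i, t j⁆ ∈ centralizer (M : Set S))
    (hne : ∀ i j, i ≠ j → cm hM (t i) ≠ cm hM (t j)) :
    ∃ F : Subgroup S, F ≤ H ∧ Cfsg.IsElementaryAbelian r F ∧ Nat.card ↥F = r ^ 3 ∧
      ¬ IsCyclic ↥(F ⊓ centralizer ((cm hM (t 0) : Subgroup S) : Set S)) := by
  classical
  have hrp := hrd.prime
  have : Fact r.Prime := ⟨hrp⟩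
  let K : Subgroup S := H ⊓ ⨅ i : Fin 4, normalizer ((cm hM (t i) : Subgroup S) : Set S)
  have hKN : ∀ i, K ≤ normalizer ((cm hM (t i) : Subgroup S) : Set S) :=
    fun i => inf_le_right.trans (iInf_le _ i)
  have htK : ∀ i, t i ∈ K := by
    intro i
    refine ⟨htH i, ?_⟩
    show t i ∈ ⨅ i : Fin 4, normalizer ((cm hM (t i) : Subgroup S) : Set S)
    rw [Subgroup.mem_iInf]
    intro j
    exact Subgroup.mem_normalizer_fintype (fun v hv => conj_mem_cm_of_comm hM (hcomm i j) hv)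
  obtain ⟨R⟩ : Nonempty (Sylow r ↥K) := inferInstance
  have hconj : ∀ i, ∃ k : ↥K, k * ⟨t i, htK i⟩ * k⁻¹ ∈ (R : Subgroup ↥K) := by
    intro i
    apply exists_conj_mem_sylow
    intro g
    obtain ⟨m, hm⟩ := mem_zpowers_iff.mp g.2
    obtain ⟨c, hc⟩ := htp i ⟨t i ^ m, zpow_mem (mem_zpowers _) m⟩
    refine ⟨c, Subtype.ext (Subtype.ext ?_)⟩
    have h2 : ((g : ↥K) : S) = t i ^ m := by rw [← hm]; simp
    have h3 : (t i ^ m) ^ r ^ c = 1 := by simpa using congrArg Subtype.val hc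
    show ((g : ↥K) : S) ^ r ^ c = 1
    rw [h2, h3]
  choose κ hκ using hconj
  -- the elements of `R`
  let s : Fin 4 → ↥(R : Subgroup ↥K) := fun i => ⟨κ i * ⟨t i, htK i⟩ * (κ i)⁻¹, hκ i⟩
  have hs : ∀ i, ((s i : ↥K) : S) = (κ i : S) * t i * (κ i : S)⁻¹ := fun i => rfl
  have hcms : ∀ i, cm hM ((s i : ↥K) : S) = cm hM (t i) := by
    intro i
    rw [hs, ← cm_map_conj]
    ext v
    have h1 := mem_normalizer_iff.mp (hKN i (κ i).2)
    constructor
    · rintro ⟨w, hw, rfl⟩
      exact (h1 w).mp hw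
    · intro hv
      refine ⟨(κ i : S)⁻¹ * v * κ i, ?_, ?_⟩
      · show (κ i : S)⁻¹ * v * κ i ∈ cm hM (t i)
        rw [h1]
        have : (κ i : S) * ((κ i : S)⁻¹ * v * κ i) * (κ i : S)⁻¹ = v := by group
        rw [this]; exact hv
      · show (κ i : S) * ((κ i : S)⁻¹ * v * κ i) * (κ i : S)⁻¹ = v
        group
  have hMn := hM.normal
  have hCn : (centralizer (M : Set S)).Normal := inferInstance
  have hsr : ∀ i, ((s i : ↥K) : S) ^ r ∈ centralizer (M : Set S) := by
    intro i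
    rw [hs, conj_pow]
    exact hCn.conj_mem _ (htr i) _
  have hdisj : ∀ i j, i ≠ j → cm hM (t i) ⊓ cm hM (t j) = ⊥ := fun i j hij =>
    disjoint_of_ne hM hrd (htr i) (htr j) (hcard i) (hcard j) (hcomm i j) (hne i j hij)
  -- the image of `R` in `S`
  let Rs : Subgroup S := (R : Subgroup ↥K).map K.subtype
  have hRsp : IsPGroup r ↥Rs := R.isPGroup'.map _
  have hRsK : Rs ≤ K := map_subtype_le _
  -- characters
  let N : Fin 4 → Subgroup ↥(R : Subgroup ↥K) := fun i =>
    ((centralizer ((cm hM (t i) : Subgroup S) : Set S)).comap K.subtype).comap (R : Subgroup ↥K).subtype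
  have hNmem : ∀ i x, x ∈ N i ↔ ((x : ↥K) : S) ∈ centralizer ((cm hM (t i) : Subgroup S) : Set S) := fun i x => Iff.rfl
  have hNn : ∀ i, (N i).Normal := by
    intro i
    constructor
    intro x hx g
    rw [hNmem, mem_centralizer_iff] at hx ⊢
    intro v hv
    have h1 := mem_normalizer_iff.mp (inv_mem (hKN i (g : ↥K).2))
    have h2 : ((g : ↥K) : S)⁻¹ * v * ((g : ↥K) : S) ∈ cm hM (t i) := by
      have := (h1 v).mp hv
      simpa using this
    have h3 := hx _ h2
    show v * (((g : ↥K) : S) * ((x : ↥K) : S) * ((g : ↥K) : S)⁻¹) = (((g : ↥K) : S) * ((x : ↥K) : S) * ((g : ↥K) : S)⁻¹) * v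
    calc v * (((g : ↥K) : S) * ((x : ↥K) : S) * ((g : ↥K) : S)⁻¹)
        = ((g : ↥K) : S) * ((((g : ↥K) : S)⁻¹ * v * ((g : ↥K) : S)) * ((x : ↥K) : S)) * ((g : ↥K) : S)⁻¹ := by group
      _ = ((g : ↥K) : S) * (((x : ↥K) : S) * (((g : ↥K) : S)⁻¹ * v * ((g : ↥K) : S))) * ((g : ↥K) : S)⁻¹ := by rw [h3]
      _ = _ := by group
  have hsN : ∀ i j, i ≠ j → s j ∈ N i := by
    intro i j hij
    rw [hNmem, mem_centralizer_iff]
    intro v hv
    have h1 : cm hM ((s j : ↥K) : S) ⊓ cm hM (t i) = ⊥ := by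
      rw [hcms]; exact hdisj j i hij.symm
    have h2 := commute_of_disjoint hM (cm_le hM (t i))
      (fun u hu => (mem_normalizer_iff.mp (hKN i (s j : ↥K).2) u).mp hu) h1 hv
    exact (mul_inv_eq_iff_eq_mul.mp h2).symm
  have hsN' : ∀ i, s i ∉ N i := by
    intro i hi
    rw [hNmem, mem_centralizer_iff] at hi
    have h1 : cm hM (t i) = ⊥ := by
      rw [eq_bot_iff]
      intro v hv
      rw [mem_bot]
      apply eq_one_of_commute hM (y := ((s i : ↥K) : S)) (hrp.odd_of_ne_two hrd.ne_two) (hsr i)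
      · rw [hcms]; exact hv
      · rw [← hi v hv]; group
    have h2 := hcard i
    rw [h1, Subgroup.card_bot, hrd.pow] at h2
    have := hrp.pos
    omega
  have hNi : ∀ i, Nat.card (↥(R : Subgroup ↥K) ⧸ N i) = r := by
    intro i
    have h1 := relIndex_dvd hM hrd hRsp (cm_le hM (t i)) (hcard i) (hRsK.trans (hKN i))
    have h2 : (N i).index = (centralizer ((cm hM (t i) : Subgroup S) : Set S)).relIndex Rs := by
      have e1 : N i = (centralizer ((cm hM (t i) : Subgroup S) : Set S)).comap (K.subtype.comp (R : Subgroup ↥K).subtype) := by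
        rw [← Subgroup.comap_comap]
      rw [e1, Subgroup.index_comap]
      congr 1
      rw [MonoidHom.range_comp, Subgroup.range_subtype]
    rw [← h2] at h1
    rcases (Nat.dvd_prime hrp).mp h1 with h3 | h3
    · exfalso
      rw [Subgroup.index_eq_one] at h3
      exact hsN' i (by rw [h3]; trivial)
    · exact h3
  have hχ : ∀ i, ∃ χ : ↥(R : Subgroup ↥K) →* Multiplicative (ZMod r), χ.ker = N i := by
    intro i
    have hn := hNn i
    have hc2 : Nat.card (Multiplicative (ZMod r)) = r := by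
      rw [Nat.card_congr Multiplicative.toAdd, Nat.card_zmod]
    let e : (↥(R : Subgroup ↥K) ⧸ N i) ≃* Multiplicative (ZMod r) := mulEquivOfPrimeCardEq (hNi i) hc2
    refine ⟨e.toMonoidHom.comp (QuotientGroup.mk' (N i)), ?_⟩
    ext x
    rw [MonoidHom.mem_ker]
    show e (QuotientGroup.mk' (N i) x) = 1 ↔ _
    rw [← QuotientGroup.eq_one_iff (N := N i) x]
    constructor
    · intro h
      exact e.injective (h.trans e.map_one.symm)
    · intro h
      show e ((x : ↥(R : Subgroup ↥K) ⧸ N i)) = 1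
      rw [h, map_one]
  choose χ hχk using hχ
  have hsurj := exists_pi_surj χ s
    (fun i j hij => by
      have := hsN i j hij
      rw [← hχk i] at this
      exact this)
    (fun i h => by
      apply hsN' i
      rw [← hχk i]
      exact h)
  obtain ⟨F', hF'e, hF'c⟩ := exists_rank_three (p := r) hrd.ne_two (R := ↥(R : Subgroup ↥K)) R.isPGroup'
    (MonoidHom.pi χ : ↥(R : Subgroup ↥K) →* (Fin 4 → Multiplicative (ZMod r))) hsurj
    (by
      intro x
      funext i
      show (x i) ^ r = 1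
      have hc2 : Nat.card (Multiplicative (ZMod r)) = r := by
        rw [Nat.card_congr Multiplicative.toAdd, Nat.card_zmod]
      have := pow_card_eq_one' (x := x i)
      rwa [hc2] at this)
    (by
      have hc2 : Nat.card (Multiplicative (ZMod r)) = r := by
        rw [Nat.card_congr Multiplicative.toAdd, Nat.card_zmod]
      rw [Nat.card_fun, hc2, Nat.card_eq_fintype_card, Fintype.card_fin])
  let φ : ↥(R : Subgroup ↥K) →* S := K.subtype.comp (R : Subgroup ↥K).subtype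
  have hφ : Function.Injective φ := K.subtype_injective.comp (R : Subgroup ↥K).subtype_injective
  refine ⟨F'.map φ, ?_, ?_, ?_, ?_⟩
  · rintro _ ⟨x, _, rfl⟩
    exact (x : ↥K).2.1
  · refine ⟨?_, ?_⟩
    · constructor
      constructor
      rintro ⟨_, ⟨a, ha, rfl⟩⟩ ⟨_, ⟨b, hb, rfl⟩⟩
      apply Subtype.ext
      have := hF'e.1.is_comm.comm ⟨a, ha⟩ ⟨b, hb⟩
      have h2 : a * b = b * a := congrArg Subtype.val this
      show φ a * φ b = φ b * φ a
      rw [← map_mul, ← map_mul, h2]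
    · rintro _ ⟨a, ha, rfl⟩
      rw [← map_pow, hF'e.2 a ha, map_one]
  · rw [Subgroup.card_map_of_injective hφ, hF'c]
  · apply noncyclic_of hM hrd (F := F'.map φ)
    · refine ⟨?_, ?_⟩
      · constructor
        constructor
        rintro ⟨_, ⟨a, ha, rfl⟩⟩ ⟨_, ⟨b, hb, rfl⟩⟩
        apply Subtype.ext
        have := hF'e.1.is_comm.comm ⟨a, ha⟩ ⟨b, hb⟩
        have h2 : a * b = b * a := congrArg Subtype.val this
        show φ a * φ b = φ b * φ a
        rw [← map_mul, ← map_mul, h2]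
      · rintro _ ⟨a, ha, rfl⟩
        rw [← map_pow, hF'e.2 a ha, map_one]
    · rw [Subgroup.card_map_of_injective hφ, hF'c]
    · exact cm_le hM (t 0)
    · exact hcard 0
    · rintro _ ⟨x, _, rfl⟩
      exact hKN 0 (x : ↥K).2

end Cfsg.Agent.H585.RankB
end

-- part: H585/TripleC
section
/-!
# An impossible configuration in 3-groups of rank two
-/

set_option autoImplicit false

namespace Cfsg.Agent.H585.TripleC

open Subgroup Cfsg.Agent.H585.PCentral
open scoped commutatorElement Pointwise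

universe u v

theorem card_quot_frattini_le {K : Type u} [Group K] [Finite K] (hK : IsPGroup 3 K) (hr : Cfsg.PRankLE 3 2 K)
    (A : Subgroup K) (hA : Cfsg.IsElementaryAbelian 3 A) (hA2 : Nat.card ↥A = 3 ^ 2) :
    Nat.card (↥(centralizer (A : Set K)) ⧸ frattini ↥(centralizer (A : Set K))) ≤ 9 := by
  have hf3 : Fact (Nat.Prime 3) := ⟨Nat.prime_three⟩
  have hp : IsPGroup 3 ↥(centralizer (A : Set K)) := hK.to_subgroup _
  let _ : CommGroup (↥(centralizer (A : Set K)) ⧸ frattini ↥(centralizer (A : Set K))) :=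
    { (inferInstance : Group (↥(centralizer (A : Set K)) ⧸ frattini ↥(centralizer (A : Set K)))) with
      mul_comm := by
        intro a b
        obtain ⟨a, rfl⟩ := QuotientGroup.mk'_surjective _ a
        obtain ⟨b, rfl⟩ := QuotientGroup.mk'_surjective _ b
        rw [← commutatorElement_eq_one_iff_mul_comm, ← map_commutatorElement]
        exact (QuotientGroup.eq_one_iff _).mpr (Cfsg.Agent.Lib.FrattiniPGroup.commutator_mem_frattini hp a b) }
  exact card_le_of_centralizer (p := 3) (by norm_num) hK hr A hA hA2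
    (QuotientGroup.mk' (frattini ↥(centralizer (A : Set K)))) (QuotientGroup.mk'_surjective _)
    (by
      intro t
      obtain ⟨a, rfl⟩ := QuotientGroup.mk'_surjective _ t
      rw [← map_pow]
      exact (QuotientGroup.eq_one_iff _).mpr (Cfsg.Agent.Lib.FrattiniPGroup.pow_mem_frattini hp a))

theorem tripleK {K : Type u} [Group K] [Finite K] (hK : IsPGroup 3 K) (hr : Cfsg.PRankLE 3 2 K)
    {T : Type v} [CommGroup T] (hT : Nat.card T = 3) (σ : K ≃* K) (hσ : ∀ k, σ (σ (σ k)) = k)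
    (χ : K →* T) (x : K) (hx1 : χ x ≠ 1) (hx2 : χ (σ x) = 1) (hx3 : χ (σ (σ x)) = 1)
    (A : Subgroup K) [hAn : A.Normal] (hA : Cfsg.IsElementaryAbelian 3 A) (hA2 : Nat.card ↥A = 3 ^ 2)
    (hAσ : ∀ k : K, k⁻¹ * σ k ∈ centralizer (A : Set K))
    (E1 : Subgroup K) (hE : Cfsg.IsElementaryAbelian 3 E1) (hE2 : Nat.card ↥E1 = 3 ^ 2)
    (hE1 : ∀ a ∈ E1, σ a = a) (hEχ : ∃ a ∈ E1, χ a ≠ 1) : False := by
  have h3p : Nat.Prime 3 := Nat.prime_three
  have hf3 : Fact (Nat.Prime 3) := ⟨h3p⟩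
  have hfinT : Finite T := Nat.finite_of_card_ne_zero (by rw [hT]; norm_num)
  have hT3 : ∀ t : T, t ^ 3 = 1 := fun t => by rw [← hT]; exact pow_card_eq_one'
  have hgen : ∀ t s : T, s ≠ 1 → ∃ i : ℤ, s ^ i = t := fun t s hs =>
    mem_zpowers_iff.mp (mem_zpowers_of_prime_card hT hs)
  obtain ⟨τ, hτ⟩ : ∃ τ, τ = χ x := ⟨_, rfl⟩
  have hτ1 : τ ≠ 1 := by rw [hτ]; exact hx1
  let Φ : K →* T × T × T := χ.prod ((χ.comp σ.toMonoidHom).prod (χ.comp (σ.toMonoidHom.comp σ.toMonoidHom)))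
  have hΦ : ∀ k, Φ k = (χ k, χ (σ k), χ (σ (σ k))) := fun k => rfl
  have hΦx : Φ x = (τ, 1, 1) := by rw [hΦ, hx2, hx3, hτ]
  have hΦσx : Φ (σ x) = (1, 1, τ) := by rw [hΦ, hx2, hx3, hσ, hτ]
  have hΦσσx : Φ (σ (σ x)) = (1, τ, 1) := by rw [hΦ, hx3, hσ, hx2, hτ]
  have hsurj : Function.Surjective Φ := by
    rintro ⟨t1, t2, t3⟩
    obtain ⟨i, hi⟩ := hgen t1 τ hτ1
    obtain ⟨j, hj⟩ := hgen t2 τ hτ1
    obtain ⟨k, hk⟩ := hgen t3 τ hτ1
    refine ⟨x ^ i * σ (σ x) ^ j * σ x ^ k, ?_⟩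
    rw [map_mul, map_mul, map_zpow, map_zpow, map_zpow, hΦx, hΦσx, hΦσσx]
    simp [hi, hj, hk]
  have hcardT : Nat.card (T × T × T) = 27 := by rw [Nat.card_prod, Nat.card_prod, hT]
  -- the centralizer `B` of `A`
  obtain ⟨B, hB⟩ : ∃ B, B = centralizer (A : Set K) := ⟨_, rfl⟩
  have hBn : B.Normal := by rw [hB]; infer_instance
  have hidx : B.index ∣ 3 := by rw [hB]; exact index_centralizer_dvd hK A hA hA2
  have hcB : Nat.card ↥(B.map Φ) ≤ 9 := by
    subst hB
    let f' : ↥(centralizer (A : Set K)) →* ↥((centralizer (A : Set K)).map Φ) :=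
      (Φ.comp (centralizer (A : Set K)).subtype).codRestrict _ (fun x => ⟨x, x.2, rfl⟩)
    have hf' : Function.Surjective f' := by
      rintro ⟨_, ⟨x, hx, rfl⟩⟩
      exact ⟨⟨x, hx⟩, rfl⟩
    have h1 := card_le_of_centralizer (p := 3) (by norm_num) hK hr A hA hA2 f' hf'
      (fun t => Subtype.ext (by
        obtain ⟨⟨t1, t2, t3⟩, ht⟩ := t
        simp only [SubmonoidClass.mk_pow, Prod.pow_mk, hT3, OneMemClass.coe_one]
        rfl))
    exact h1
  have hmi : Nat.card ↥(B.map Φ) * (B.map Φ).index = 27 := by rw [Subgroup.card_mul_index, hcardT]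
  have hid2 : (B.map Φ).index ∣ B.index := Subgroup.index_map_dvd B hsurj
  have hB3 : B.index = 3 ∧ (B.map Φ).index = 3 ∧ Nat.card ↥(B.map Φ) = 9 := by
    have h1 := Nat.le_of_dvd (by norm_num) hidx
    have h0 : B.index ≠ 0 := Subgroup.index_ne_zero_of_finite
    have h2 := Nat.le_of_dvd (Nat.pos_of_ne_zero h0) hid2
    have h3 : (B.map Φ).index ≤ 3 := h2.trans h1
    have h4 : Nat.card ↥(B.map Φ) * (B.map Φ).index ≤ 9 * (B.map Φ).index := Nat.mul_le_mul_right _ hcB
    have h5 : (B.map Φ).index = 3 := by omega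
    rw [h5] at h2 hmi
    exact ⟨by omega, h5, by omega⟩
  obtain ⟨hBi, hBΦi, hBΦc⟩ := hB3
  have hkerB : Φ.ker ≤ B := by
    have h1 : (B ⊔ Φ.ker).index = 3 := by
      rw [← Subgroup.comap_map_eq, Subgroup.index_comap_of_surjective _ hsurj, hBΦi]
    have h2 : B = B ⊔ Φ.ker := by
      apply Subgroup.eq_of_le_of_card_ge le_sup_left
      have h3 := Subgroup.card_mul_index B
      have h4 := Subgroup.card_mul_index (B ⊔ Φ.ker)
      rw [hBi] at h3
      rw [h1] at h4
      omega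
    rw [h2]; exact le_sup_right
  have hσB : ∀ k, k⁻¹ * σ k ∈ B := by rw [hB]; exact hAσ
  have hcomm : ∀ k ∈ B, ∀ a ∈ A, k * a = a * k := by
    intro k hk a ha
    rw [hB, mem_centralizer_iff] at hk
    exact (hk a ha).symm
  have hxB : x ∉ B := by
    intro hx
    have h1 : σ x ∈ B := by
      have := mul_mem hx (hσB x)
      rwa [mul_inv_cancel_left] at this
    have h2 : σ (σ x) ∈ B := by
      have := mul_mem h1 (hσB (σ x))
      rwa [mul_inv_cancel_left] at this
    have h3 : B.map Φ = ⊤ := by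
      rw [eq_top_iff]
      rintro ⟨t1, t2, t3⟩ _
      obtain ⟨i, hi⟩ := hgen t1 τ hτ1
      obtain ⟨j, hj⟩ := hgen t2 τ hτ1
      obtain ⟨k, hk⟩ := hgen t3 τ hτ1
      refine ⟨x ^ i * σ (σ x) ^ j * σ x ^ k, mul_mem (mul_mem (zpow_mem hx _) (zpow_mem h2 _)) (zpow_mem h1 _), ?_⟩
      rw [map_mul, map_mul, map_zpow, map_zpow, map_zpow, hΦx, hΦσx, hΦσσx]
      simp [hi, hj, hk]
    rw [h3, Subgroup.card_top, hcardT] at hBΦc
    omega
  -- `E1 ≤ B`
  have hprod : x * σ x * σ (σ x) ∈ B := by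
    have hq : Nat.card (K ⧸ B) = 3 := hBi
    have e1 : (QuotientGroup.mk (σ x) : K ⧸ B) = QuotientGroup.mk x := (QuotientGroup.eq.mpr (hσB x)).symm
    have e2 : (QuotientGroup.mk (σ (σ x)) : K ⧸ B) = QuotientGroup.mk (σ x) :=
      (QuotientGroup.eq.mpr (hσB (σ x))).symm
    rw [← QuotientGroup.eq_one_iff]
    have h1 : (QuotientGroup.mk (x * σ x * σ (σ x)) : K ⧸ B) =
        QuotientGroup.mk x * QuotientGroup.mk (σ x) * QuotientGroup.mk (σ (σ x)) := rfl
    have h2 := pow_card_eq_one' (x := (QuotientGroup.mk x : K ⧸ B))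
    rw [hq] at h2
    rw [h1, e2, e1, ← pow_two, ← pow_succ]
    exact h2
  have hΦprod : Φ (x * σ x * σ (σ x)) = (τ, τ, τ) := by
    rw [map_mul, map_mul, hΦx, hΦσx, hΦσσx]; simp
  have hΦE : ∀ a ∈ E1, Φ a = (χ a, χ a, χ a) := by
    intro a ha
    rw [hΦ, hE1 a ha, hE1 a ha]
  have hE1B : E1 ≤ B := by
    intro a ha
    obtain ⟨i, hi⟩ := hgen (χ a) τ hτ1
    have h1 : a * ((x * σ x * σ (σ x)) ^ i)⁻¹ ∈ Φ.ker := by
      rw [MonoidHom.mem_ker, map_mul, map_inv, map_zpow, hΦprod, hΦE a ha, ← hi]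
      simp
    have h2 := mul_mem (hkerB h1) (zpow_mem hprod i)
    rwa [inv_mul_cancel_right] at h2
  have hEA : E1 = A := by
    have h1 : E1 ≤ A := by
      intro a ha
      apply Cfsg.Agent.Omega.Sec.Basic.mem_of_rank hr (Cfsg.Agent.Omega.Sec.Basic.comm_of hA.1) hA.2 hA2.ge
      · exact hcomm a (hE1B ha)
      · exact hE.2 a ha
    exact Subgroup.eq_of_le_of_card_ge h1 (by rw [hA2, hE2])
  subst hEA
  -- the element `a`
  obtain ⟨a, haE, ha⟩ : ∃ a ∈ E1, χ a = τ := by
    obtain ⟨a, ha, ha1⟩ := hEχ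
    obtain ⟨i, hi⟩ := hgen τ (χ a) ha1
    exact ⟨a ^ i, zpow_mem ha i, by rw [map_zpow, hi]⟩
  have ha3 : a ^ 3 = 1 := hE.2 a haE
  have hΦa : Φ a = (τ, τ, τ) := by rw [hΦE a haE, ha]
  -- `x` does not commute with `a`
  have hza : x * a * x⁻¹ ≠ a := by
    intro hcon
    apply hxB
    rw [hB, mem_centralizer_iff]
    let D : Subgroup K := E1 ⊓ Φ.ker
    have hDn : D.Normal := inferInstance
    have hDc : Nat.card ↥D ≤ 3 := by
      have h1 : Φ.ker.relIndex E1 ≠ 1 := by
        intro h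
        rw [Subgroup.relIndex_eq_one] at h
        have := h haE
        rw [MonoidHom.mem_ker, hΦa] at this
        exact hτ1 (congrArg Prod.fst this)
      have h2 : Nat.card ↥D * Φ.ker.relIndex E1 = 3 ^ 2 := by
        rw [← Subgroup.inf_relIndex_left, ← hE2]
        have := Subgroup.relIndex_mul_relIndex ⊥ (E1 ⊓ Φ.ker) E1 bot_le inf_le_left
        rwa [Subgroup.relIndex_bot_left, Subgroup.relIndex_bot_left] at this
      have h3 : Φ.ker.relIndex E1 ∣ 3 ^ 2 := ⟨_, by rw [mul_comm] at h2; exact h2.symm⟩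
      obtain ⟨k, hk, hk2⟩ := (Nat.dvd_prime_pow h3p).mp h3
      have hk0 : k ≠ 0 := by
        rintro rfl
        exact h1 (by rw [hk2, pow_zero])
      rw [hk2] at h2
      have h4 : 3 ^ 1 ≤ 3 ^ k := Nat.pow_le_pow_right (by norm_num) (by omega)
      by_contra h5
      push Not at h5
      have h6 : 4 * 3 ≤ Nat.card ↥D * 3 ^ k := Nat.mul_le_mul h5 (by simpa using h4)
      omega
    have hDz : D ≤ center K := Cfsg.Agent.Lib.NormalRankFour.le_center_of_card_le hK D hDc
    intro w hw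
    obtain ⟨i, hi⟩ := hgen (χ w) τ hτ1
    have hc : w * (a ^ i)⁻¹ ∈ D := by
      refine ⟨E1.mul_mem hw (E1.inv_mem (E1.zpow_mem haE i)), ?_⟩
      show w * (a ^ i)⁻¹ ∈ Φ.ker
      rw [MonoidHom.mem_ker, map_mul, map_inv, map_zpow, hΦa, hΦE w hw, ← hi]
      simp
    have h1 := mem_center_iff.mp (hDz hc) x
    have h2 : x * a ^ i * x⁻¹ = a ^ i := by rw [← conj_zpow, hcon]
    have h3 : x * a ^ i = a ^ i * x := mul_inv_eq_iff_eq_mul.mp h2
    have h4 : w = w * (a ^ i)⁻¹ * a ^ i := by group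
    calc w * x = (w * (a ^ i)⁻¹) * (a ^ i * x) := by group
      _ = (w * (a ^ i)⁻¹) * (x * a ^ i) := by rw [h3]
      _ = ((w * (a ^ i)⁻¹) * x) * a ^ i := by group
      _ = (x * (w * (a ^ i)⁻¹)) * a ^ i := by rw [h1]
      _ = x * w := by group
  -- the element `b`
  obtain ⟨b, hb⟩ : ∃ b, b = x⁻¹ * σ x := ⟨_, rfl⟩
  have hbB : b ∈ B := by rw [hb]; exact hσB x
  have haB : a ∈ B := hE1B haE
  have hab : a * b = b * a := (hcomm b hbB a haE).symm
  have hΦb : Φ b = (τ⁻¹, 1, τ) := by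
    rw [hb, map_mul, map_inv, hΦx, hΦσx]; simp
  have hσb : Φ (σ b) = (1, τ, τ⁻¹) := by
    rw [hb, map_mul, map_inv, map_mul, map_inv, hΦσx, hΦσσx]; simp
  -- `B = ⟨a, b⟩`
  obtain ⟨L, hL⟩ : ∃ L : Subgroup K, L = closure {a, b} := ⟨_, rfl⟩
  have hLB : L ≤ B := by
    rw [hL, closure_le]
    rintro w hw
    simp only [Set.mem_insert_iff, Set.mem_singleton_iff] at hw
    rcases hw with rfl | rfl
    · exact haB
    · exact hbB
  have haL : a ∈ L := by rw [hL]; exact subset_closure (by simp)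
  have hbL : b ∈ L := by rw [hL]; exact subset_closure (by simp)
  have hLmap : L.map Φ = B.map Φ := by
    apply Subgroup.eq_of_le_of_card_ge (Subgroup.map_mono hLB)
    rw [hBΦc]
    by_contra hlt
    push Not at hlt
    have h1 : Nat.card ↥(L.map Φ) ∣ 3 ^ 3 := by
      have := Subgroup.card_subgroup_dvd_card (L.map Φ)
      rwa [hcardT] at this
    obtain ⟨k, hk, hk2⟩ := (Nat.dvd_prime_pow h3p).mp h1
    have hk1 : k ≤ 1 := by
      by_contra h
      have : 3 ^ 2 ≤ 3 ^ k := Nat.pow_le_pow_right (by norm_num) (by omega)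
      omega
    have h2 : Nat.card ↥(L.map Φ) ≤ 3 := by
      rw [hk2]
      calc 3 ^ k ≤ 3 ^ 1 := Nat.pow_le_pow_right (by norm_num) hk1
        _ = 3 := by norm_num
    have h3 : zpowers (Φ a) = L.map Φ := by
      apply Subgroup.eq_of_le_of_card_ge
      · rw [zpowers_le]; exact ⟨a, haL, rfl⟩
      · have : orderOf (Φ a) = 3 := by
          apply orderOf_eq_prime
          · rw [← map_pow, ha3, map_one]
          · rw [hΦa]
            intro h
            exact hτ1 (congrArg Prod.fst h)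
        rw [Nat.card_zpowers, this]; exact h2
    have h4 : Φ b ∈ zpowers (Φ a) := by rw [h3]; exact ⟨b, hbL, rfl⟩
    obtain ⟨i, hi⟩ := mem_zpowers_iff.mp h4
    rw [hΦa, hΦb] at hi
    have h5 : τ ^ i = τ⁻¹ := congrArg Prod.fst hi
    have h6 : τ ^ i = 1 := congrArg (fun w => w.2.1) hi
    rw [h6] at h5
    exact hτ1 (inv_eq_one.mp h5.symm)
  have hBp : IsPGroup 3 ↥B := hK.to_subgroup B
  have hfrat : Φ.ker.subgroupOf B ≤ frattini ↥B := by
    have h1 : frattini ↥B ≤ Φ.ker.subgroupOf B := by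
      apply Cfsg.Agent.Lib.FrattiniPGroup.frattini_le (p := 3)
      · intro u v
        rw [mem_subgroupOf, MonoidHom.mem_ker]
        have : ((⁅u, v⁆ : ↥B) : K) = ⁅(u : K), (v : K)⁆ := rfl
        rw [this, map_commutatorElement, commutatorElement_eq_one_iff_mul_comm]
        exact mul_comm _ _
      · intro u
        rw [mem_subgroupOf, MonoidHom.mem_ker, Subgroup.coe_pow, map_pow, hΦ]
        simp only [Prod.pow_mk, hT3]
        rfl
    have h2 : Nat.card (↥B ⧸ frattini ↥B) ≤ 9 := by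
      subst hB
      exact card_quot_frattini_le hK hr E1 hA hA2
    have h3 := Subgroup.card_eq_card_quotient_mul_card_subgroup (frattini ↥B)
    have h4 := Subgroup.card_mul_index (Φ.ker.subgroupOf B)
    have h5 : (Φ.ker.subgroupOf B).index = 9 := by
      have h6 : (Φ.ker.subgroupOf B) = (Φ.comp B.subtype).ker := by
        ext w
        rfl
      rw [h6, Subgroup.index_ker, MonoidHom.range_comp, Subgroup.range_subtype, hBΦc]
    rw [h5] at h4
    rw [Subgroup.eq_of_le_of_card_ge h1]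
    have h7 : Nat.card ↥B ≤ 9 * Nat.card ↥(frattini ↥B) := by
      rw [h3]; exact Nat.mul_le_mul_right _ h2
    omega
  have hBL : B ≤ L := by
    have h1 : L.subgroupOf B ⊔ frattini ↥B = ⊤ := by
      rw [eq_top_iff]
      rintro ⟨k, hk⟩ _
      have h2 : Φ k ∈ L.map Φ := by rw [hLmap]; exact ⟨k, hk, rfl⟩
      obtain ⟨l, hl, hlk⟩ := h2
      have h3 : l⁻¹ * k ∈ Φ.ker := by rw [MonoidHom.mem_ker, map_mul, map_inv, hlk, inv_mul_cancel]
      have h4 : (⟨k, hk⟩ : ↥B) = ⟨l, hLB hl⟩ * ⟨l⁻¹ * k, hkerB h3⟩ := by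
        apply Subtype.ext
        show k = l * (l⁻¹ * k)
        group
      rw [h4]
      apply mul_mem (mem_sup_left _) (mem_sup_right _)
      · exact mem_subgroupOf.mpr hl
      · exact hfrat (mem_subgroupOf.mpr h3)
    have h2 := frattini_nongenerating h1
    rwa [Subgroup.subgroupOf_eq_top] at h2
  -- normal forms
  have hform : ∀ k ∈ B, ∃ i j : ℤ, k = a ^ i * b ^ j := by
    intro k hk
    have h1 := hBL hk
    rw [hL] at h1
    have hc : Commute a b := hab
    induction h1 using closure_induction with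
    | mem w hw =>
      simp only [Set.mem_insert_iff, Set.mem_singleton_iff] at hw
      rcases hw with rfl | rfl
      · exact ⟨1, 0, by simp⟩
      · exact ⟨0, 1, by simp⟩
    | one => exact ⟨0, 0, by simp⟩
    | mul u v hu hv ihu ihv =>
      obtain ⟨i, j, hij⟩ := ihu (hLB (by rw [hL]; exact hu))
      obtain ⟨i', j', hij'⟩ := ihv (hLB (by rw [hL]; exact hv))
      refine ⟨i + i', j + j', ?_⟩
      rw [hij, hij', zpow_add, zpow_add]
      have := (hc.zpow_zpow i' j).eq
      calc a ^ i * b ^ j * (a ^ i' * b ^ j') = a ^ i * (b ^ j * a ^ i') * b ^ j' := by group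
        _ = a ^ i * (a ^ i' * b ^ j) * b ^ j' := by rw [this]
        _ = _ := by group
    | inv u hu ihu =>
      obtain ⟨i, j, hij⟩ := ihu (hLB (by rw [hL]; exact hu))
      refine ⟨-i, -j, ?_⟩
      rw [hij, mul_inv_rev, ← zpow_neg, ← zpow_neg]
      exact (hc.zpow_zpow (-i) (-j)).eq.symm
  have hordτ : orderOf τ = 3 := orderOf_eq_prime (hT3 τ) hτ1
  have hkerform : ∀ k ∈ Φ.ker, ∃ j : ℤ, k = b ^ (3 * j) := by
    intro k hk
    obtain ⟨i, j, hij⟩ := hform k (hkerB hk)
    rw [MonoidHom.mem_ker, hij, map_mul, map_zpow, map_zpow, hΦa, hΦb] at hk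
    have h2 : τ ^ i * 1 ^ j = 1 := congrArg (fun w => w.2.1) hk
    have h3 : τ ^ i * τ ^ j = 1 := congrArg (fun w => w.2.2) hk
    rw [one_zpow, mul_one] at h2
    rw [h2, one_mul] at h3
    rw [← orderOf_dvd_iff_zpow_eq_one, hordτ] at h2 h3
    obtain ⟨i', rfl⟩ := h2
    obtain ⟨j', rfl⟩ := h3
    refine ⟨j', ?_⟩
    have h4 : a ^ (((3 : ℕ) : ℤ) * i') = 1 := by rw [zpow_mul, zpow_natCast, ha3, one_zpow]
    rw [hij, h4, one_mul]
    rfl
  obtain ⟨j, hj⟩ := hkerform (x * b * x⁻¹ * b⁻¹) (by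
    rw [MonoidHom.mem_ker]
    simp only [map_mul, map_inv]
    rw [mul_comm (Φ x) (Φ b), mul_inv_cancel_right, mul_inv_cancel])
  obtain ⟨i, hi⟩ := hkerform (σ b * (a * b)⁻¹) (by
    rw [MonoidHom.mem_ker]
    simp only [map_mul, map_inv]
    rw [hσb, hΦa, hΦb]
    have h5 : τ * τ * τ = 1 := by
      have := hT3 τ
      rwa [pow_succ, pow_two] at this
    have h6 : τ⁻¹ = τ * τ := (eq_inv_of_mul_eq_one_left h5).symm
    have h7 : (τ * τ) * (τ * τ)⁻¹ = 1 := mul_inv_cancel _
    ext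
    · simp
    · simp
    · have h8 : τ * τ * (τ * τ * (τ * τ)) = (τ * τ * τ) * (τ * τ * τ) := by group
      simp only [Prod.mk_mul_mk, Prod.inv_mk, Prod.snd_one, h6, mul_inv_rev]
      rw [h8, h5, one_mul])
  have hc : Commute a b := hab
  have h1 : x * b * x⁻¹ = b ^ (3 * j + 1) := by
    rw [zpow_add, zpow_one, ← hj]; group
  have h2 : σ b = a * b ^ (3 * i + 1) := by
    have : σ b = b ^ (3 * i) * (a * b) := by rw [← hi]; group
    rw [this, zpow_add, zpow_one, ← mul_assoc, ← mul_assoc, (hc.zpow_right (3 * i)).eq]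
  have h3 : σ x = x * b := by rw [hb]; group
  have h4 : σ (x * b * x⁻¹) = a * b ^ ((3 * i + 1) * (3 * j + 1)) := by
    rw [h1, map_zpow, h2, (hc.zpow_right (3 * i + 1)).mul_zpow, ← zpow_mul]
    congr 1
    rw [zpow_add, zpow_one, zpow_mul]
    have : a ^ (3 : ℤ) = 1 := by exact_mod_cast ha3
    rw [this, one_zpow, one_mul]
  have h5 : σ (x * b * x⁻¹) = (x * a * x⁻¹) * b ^ ((3 * i + 1) * (3 * j + 1)) := by
    rw [map_mul, map_mul, map_inv, h3, h2]
    have h6 : b * (a * b ^ (3 * i + 1)) * b⁻¹ = a * b ^ (3 * i + 1) := by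
      rw [← mul_assoc, ← hc.eq]; group
    calc x * b * (a * b ^ (3 * i + 1)) * (x * b)⁻¹ = x * (b * (a * b ^ (3 * i + 1)) * b⁻¹) * x⁻¹ := by group
      _ = x * (a * b ^ (3 * i + 1)) * x⁻¹ := by rw [h6]
      _ = (x * a * x⁻¹) * (x * b * x⁻¹) ^ (3 * i + 1) := by rw [conj_zpow]; group
      _ = (x * a * x⁻¹) * b ^ ((3 * i + 1) * (3 * j + 1)) := by
        rw [h1, ← zpow_mul, mul_comm (3 * j + 1)]
  rw [h4] at h5
  exact hza (mul_right_cancel h5).symm

theorem triple {P : Type u} [Group P] [Finite P] (hP : IsPGroup 3 P) (K : Subgroup P) [hKn : K.Normal]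
    (hr : Cfsg.PRankLE 3 2 ↥K) {T : Type v} [CommGroup T] (hT : Nat.card T = 3) (e : P) (he : e ^ 3 = 1)
    (χ : ↥K →* T) (x : ↥K) (hx1 : χ x ≠ 1) (hx2 : χ (MulAut.conjNormal e x) = 1)
    (hx3 : χ (MulAut.conjNormal e (MulAut.conjNormal e x)) = 1)
    (E1 : Subgroup ↥K) (hE : Cfsg.IsElementaryAbelian 3 E1) (hE2 : Nat.card ↥E1 = 3 ^ 2)
    (hE1 : ∀ a ∈ E1, MulAut.conjNormal e a = a) (hEχ : ∃ a ∈ E1, χ a ≠ 1) : False := by
  have hf3 : Fact (Nat.Prime 3) := ⟨Nat.prime_three⟩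
  obtain ⟨A, hAK, hAn, hA, hA2⟩ := Cfsg.Agent.S0636.result (p := 3) (by norm_num) hP K (by
    intro hcyc
    have h1 : IsCyclic ↥E1 := inferInstance
    obtain ⟨t, ht⟩ := h1.exists_generator
    have h2 : orderOf t = Nat.card ↥E1 := orderOf_eq_card_of_forall_mem_zpowers ht
    have h3 : orderOf t ∣ 3 := orderOf_dvd_of_pow_eq_one (Subtype.ext (by simpa using hE.2 t t.2))
    rw [h2, hE2] at h3
    revert h3; decide)
  have hidx := index_centralizer_dvd hP A hA hA2
  have hcomm : ∀ u v : P, ⁅u, v⁆ ∈ centralizer (A : Set P) := by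
    intro u v
    have hn : (centralizer (A : Set P)).Normal := inferInstance
    have hq : Nat.card (P ⧸ centralizer (A : Set P)) ∣ 3 := hidx
    have hc : ∀ a b : P ⧸ centralizer (A : Set P), a * b = b * a := by
      rcases (Nat.dvd_prime Nat.prime_three).mp hq with h | h
      · have := (Nat.card_eq_one_iff_unique.mp h).1
        intro a b
        exact Subsingleton.elim _ _
      · have := isCyclic_of_prime_card h
        intro a b
        let _ := IsCyclic.commGroup (α := P ⧸ centralizer (A : Set P))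
        exact mul_comm a b
    have h1 := hc (QuotientGroup.mk' _ u) (QuotientGroup.mk' _ v)
    rw [← commutatorElement_eq_one_iff_mul_comm, ← map_commutatorElement] at h1
    exact (QuotientGroup.eq_one_iff _).mp h1
  have hA2' : Nat.card ↥(A.subgroupOf K) = 3 ^ 2 := by
    rw [← hA2]; exact Nat.card_congr (Subgroup.subgroupOfEquivOfLe hAK).toEquiv
  apply tripleK (hP.to_subgroup K) hr hT (MulAut.conjNormal e) (by
      intro k
      apply Subtype.ext
      rw [MulAut.conjNormal_apply, MulAut.conjNormal_apply, MulAut.conjNormal_apply]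
      calc e * (e * (e * (k : P) * e⁻¹) * e⁻¹) * e⁻¹ = e ^ 3 * k * (e ^ 3)⁻¹ := by
            rw [pow_succ, pow_two]; group
        _ = k := by rw [he]; group) χ x hx1 hx2 hx3 (A.subgroupOf K) ⟨?_, ?_⟩ hA2' ?_ E1 hE hE2 hE1 hEχ
  · constructor
    constructor
    rintro ⟨a, ha⟩ ⟨b, hb⟩
    apply Subtype.ext
    apply Subtype.ext
    exact Cfsg.Agent.Omega.Sec.Basic.comm_of hA.1 a ha b hb
  · intro a ha
    apply Subtype.ext
    simpa using hA.2 a ha
  · intro k
    rw [mem_centralizer_iff]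
    intro a ha
    apply Subtype.ext
    have h1 := hcomm (k : P)⁻¹ e
    have h2 : ((k⁻¹ * MulAut.conjNormal e k : ↥K) : P) = ⁅(k : P)⁻¹, e⁆ := by
      rw [Subgroup.coe_mul, MulAut.conjNormal_apply, Subgroup.coe_inv, commutatorElement_def]
      group
    show (a : P) * ((k⁻¹ * MulAut.conjNormal e k : ↥K) : P) = ((k⁻¹ * MulAut.conjNormal e k : ↥K) : P) * a
    rw [h2]
    exact mem_centralizer_iff.mp h1 _ ha

end Cfsg.Agent.H585.TripleC
end

-- part: H585/MoveFour
section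
/-!
# Elements of order three moving a four-group
-/

set_option autoImplicit false

namespace Cfsg.Agent.H585.MoveFour

open Subgroup Cfsg.Agent.H585.ModTwo Cfsg.Agent.H585.PCentral Cfsg.Agent.H585.RankB
open scoped commutatorElement Pointwise

universe u
variable {S : Type u} [Group S] [Finite S]

variable {M : Subgroup S} (hM : Hyp M)

omit [Finite S] in
theorem mem_normalizer_cm {y g : S} : g ∈ normalizer ((cm hM y : Subgroup S) : Set S) ↔
    cm hM (g * y * g⁻¹) = cm hM y := by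
  rw [mem_normalizer_iff]
  constructor
  · intro h
    ext v
    have h1 : v = g * (g⁻¹ * v * g) * g⁻¹ := by group
    rw [h1, conj_mem_cm_iff hM, h]
  · intro h v
    rw [← conj_mem_cm_iff hM (g := g), h]

omit [Finite S] in
theorem card_cm_conj (y g : S) : Nat.card ↥(cm hM (g * y * g⁻¹)) = Nat.card ↥(cm hM y) := by
  rw [← cm_map_conj]
  exact Subgroup.card_map_of_injective (MulEquiv.injective (MulAut.conj g))

include hM in
/-- The character of an `r`-group acting on `V`. -/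
theorem exists_char {r d : ℕ} (hrd : RD r d) {R : Type u} [Group R] [Finite R] (hR : IsPGroup r R) (φ : R →* S)
    {V : Subgroup S} (hV : V ≤ M) (hVc : Nat.card ↥V = 2 ^ d) (hN : φ.range ≤ normalizer (V : Set S))
    (hx : ∃ x, φ x ∉ centralizer (V : Set S)) :
    ∃ χ : R →* Multiplicative (ZMod r), ∀ y, χ y = 1 ↔ φ y ∈ centralizer (V : Set S) := by
  have hrp := hrd.prime
  have : Fact r.Prime := ⟨hrp⟩
  let N : Subgroup R := (centralizer (V : Set S)).comap φ
  have hNmem : ∀ y, y ∈ N ↔ φ y ∈ centralizer (V : Set S) := fun y => Iff.rfl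
  have hNn : N.Normal := by
    constructor
    intro x hx g
    rw [hNmem, mem_centralizer_iff] at hx ⊢
    intro v hv
    have h1 := mem_normalizer_iff.mp (inv_mem (hN ⟨g, rfl⟩))
    have h2 : (φ g)⁻¹ * v * φ g ∈ V := by
      have := (h1 v).mp hv
      simpa using this
    have h3 := hx _ h2
    rw [map_mul, map_mul, map_inv]
    calc v * (φ g * φ x * (φ g)⁻¹) = φ g * (((φ g)⁻¹ * v * φ g) * φ x) * (φ g)⁻¹ := by group
      _ = φ g * (φ x * ((φ g)⁻¹ * v * φ g)) * (φ g)⁻¹ := by rw [h3]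
      _ = _ := by group
  have hcard : Nat.card (R ⧸ N) = r := by
    have h0 : IsPGroup r ↥φ.range := by
      have := hR.of_surjective φ.rangeRestrict φ.rangeRestrict_surjective
      exact this
    have h1 := relIndex_dvd hM hrd h0 hV hVc hN
    have h2 : N.index = (centralizer (V : Set S)).relIndex φ.range := Subgroup.index_comap _ _
    rw [← h2] at h1
    rcases (Nat.dvd_prime hrp).mp h1 with h3 | h3
    · exfalso
      rw [Subgroup.index_eq_one] at h3
      obtain ⟨x, hx⟩ := hx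
      apply hx
      rw [← hNmem, h3]
      exact mem_top _
    · exact h3
  have hc2 : Nat.card (Multiplicative (ZMod r)) = r := by
    rw [Nat.card_congr Multiplicative.toAdd, Nat.card_zmod]
  let e : (R ⧸ N) ≃* Multiplicative (ZMod r) := mulEquivOfPrimeCardEq hcard hc2
  refine ⟨e.toMonoidHom.comp (QuotientGroup.mk' N), ?_⟩
  intro x
  show e (QuotientGroup.mk' N x) = 1 ↔ _
  rw [← hNmem, ← QuotientGroup.eq_one_iff (N := N) x]
  constructor
  · intro h
    exact e.injective (h.trans e.map_one.symm)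
  · intro h
    show e ((x : R ⧸ N)) = 1
    rw [h, map_one]

omit [Finite S] in
theorem zpowers_isPGroup_of_conj {r : ℕ} {t g : S} (h : IsPGroup r ↥(zpowers t)) :
    IsPGroup r ↥(zpowers (g * t * g⁻¹)) := by
  intro w
  obtain ⟨m, hm⟩ := mem_zpowers_iff.mp w.2
  obtain ⟨c, hc⟩ := h ⟨t ^ m, zpow_mem (mem_zpowers _) m⟩
  refine ⟨c, Subtype.ext ?_⟩
  have h3 : (t ^ m) ^ r ^ c = 1 := by simpa using congrArg Subtype.val hc
  show (w : S) ^ r ^ c = 1
  rw [← hm, conj_zpow, conj_pow, h3]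
  group

omit [Finite S] in
theorem zpowers_isPGroup {r : ℕ} {P : Subgroup S} (hP : IsPGroup r ↥P) {t : S} (ht : t ∈ P) :
    IsPGroup r ↥(zpowers t) := by
  apply hP.to_le
  rw [zpowers_le]; exact ht

/-- Four different conjugates. -/
theorem four {r d : ℕ} (hrd : RD r d) (H : Subgroup S) {t : S} (htp : IsPGroup r ↥(zpowers t))
    (htr : t ^ r ∈ centralizer (M : Set S)) (hcard : Nat.card ↥(cm hM t) = 2 ^ d) (htH : t ∈ H)
    (hcomm : ∀ g ∈ H, ⁅t, g * t * g⁻¹⁆ ∈ centralizer (M : Set S))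
    (g : Fin 4 → S) (hg : ∀ i, g i ∈ H) (hg0 : g 0 = 1)
    (hne : ∀ i j, i ≠ j → cm hM (g i * t * (g i)⁻¹) ≠ cm hM (g j * t * (g j)⁻¹)) :
    ∃ F : Subgroup S, F ≤ H ∧ Cfsg.IsElementaryAbelian r F ∧ Nat.card ↥F = r ^ 3 ∧
      ¬ IsCyclic ↥(F ⊓ centralizer ((cm hM t : Subgroup S) : Set S)) := by
  have hMn := hM.normal
  have hCn : (centralizer (M : Set S)).Normal := inferInstance
  have h := RankB.main hM hrd H (fun i => g i * t * (g i)⁻¹)
    (fun i => mul_mem (mul_mem (hg i) htH) (inv_mem (hg i)))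
    (fun i => zpowers_isPGroup_of_conj htp)
    (fun i => by rw [conj_pow]; exact hCn.conj_mem _ htr _)
    (fun i => by rw [card_cm_conj, hcard])
    (fun i j => by
      have h1 := hCn.conj_mem _ (hcomm ((g i)⁻¹ * g j) (mul_mem (inv_mem (hg i)) (hg j))) (g i)
      have h2 : g i * ⁅t, (g i)⁻¹ * g j * t * ((g i)⁻¹ * g j)⁻¹⁆ * (g i)⁻¹ =
          ⁅g i * t * (g i)⁻¹, g j * t * (g j)⁻¹⁆ := by
        rw [commutatorElement_def, commutatorElement_def]; group
      rwa [h2] at h1)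
    hne
  have h0 : g 0 * t * (g 0)⁻¹ = t := by rw [hg0]; group
  have h' := h
  beta_reduce at h'
  rw [h0] at h'
  exact h'

/-- An element of prime order at least five moving `[M, t]`. -/
theorem four_of_large {r d : ℕ} (hrd : RD r d) (H : Subgroup S) {t : S} (htp : IsPGroup r ↥(zpowers t))
    (htr : t ^ r ∈ centralizer (M : Set S)) (hcard : Nat.card ↥(cm hM t) = 2 ^ d) (htH : t ∈ H)
    (hcomm : ∀ g ∈ H, ⁅t, g * t * g⁻¹⁆ ∈ centralizer (M : Set S))
    {p : ℕ} (hp : p.Prime) (hp5 : 5 ≤ p) {e : S} (heH : e ∈ H) (hep : e ^ p = 1)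
    (heN : e ∉ normalizer ((cm hM t : Subgroup S) : Set S)) :
    ∃ F : Subgroup S, F ≤ H ∧ Cfsg.IsElementaryAbelian r F ∧ Nat.card ↥F = r ^ 3 ∧
      ¬ IsCyclic ↥(F ⊓ centralizer ((cm hM t : Subgroup S) : Set S)) := by
  have hkey : ∀ n : ℕ, 0 < n → n < p → e ^ n ∉ normalizer ((cm hM t : Subgroup S) : Set S) := by
    intro n hn0 hn hmem
    apply heN
    have hcop : IsCoprime (n : ℤ) (p : ℤ) := by
      rw [Nat.isCoprime_iff_coprime]
      exact (Nat.coprime_of_lt_prime (by omega) hn hp).symm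
    obtain ⟨α, β, hαβ⟩ := hcop
    have : e = (e ^ n) ^ α := by
      calc e = e ^ (1 : ℤ) := (zpow_one e).symm
        _ = e ^ (α * n + β * p) := by rw [hαβ]
        _ = e ^ ((n : ℤ) * α) * (e ^ (p : ℤ)) ^ β := by rw [zpow_add, mul_comm α, mul_comm β, zpow_mul e (p : ℤ)]
        _ = (e ^ n) ^ α := by rw [zpow_natCast, hep, one_zpow, mul_one, zpow_mul, zpow_natCast]
    rw [this]
    exact zpow_mem hmem α
  have hlt : ∀ i j : Fin 4, i < j → cm hM (e ^ (i : ℕ) * t * (e ^ (i : ℕ))⁻¹) ≠ cm hM (e ^ (j : ℕ) * t * (e ^ (j : ℕ))⁻¹) := by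
    intro i j hij hcon
    have hij' : (i : ℕ) < (j : ℕ) := hij
    have hj4 := j.2
    apply hkey ((j : ℕ) - (i : ℕ)) (by omega) (by omega)
    rw [mem_normalizer_cm]
    have h1 := congrArg (fun W : Subgroup S => W.map (MulAut.conj (e ^ (i : ℕ))⁻¹).toMonoidHom) hcon
    simp only [cm_map_conj] at h1
    have h2 : (e ^ (i : ℕ))⁻¹ * (e ^ (i : ℕ) * t * (e ^ (i : ℕ))⁻¹) * ((e ^ (i : ℕ))⁻¹)⁻¹ = t := by group
    have h3 : (e ^ (i : ℕ))⁻¹ * (e ^ (j : ℕ) * t * (e ^ (j : ℕ))⁻¹) * ((e ^ (i : ℕ))⁻¹)⁻¹ =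
        e ^ ((j : ℕ) - (i : ℕ)) * t * (e ^ ((j : ℕ) - (i : ℕ)))⁻¹ := by
      have h4 : e ^ (j : ℕ) = e ^ (i : ℕ) * e ^ ((j : ℕ) - (i : ℕ)) := by
        rw [← pow_add]; congr 1; omega
      rw [h4]; group
    rw [h2, h3] at h1
    exact h1.symm
  apply four hM hrd H htp htr hcard htH hcomm (fun i => e ^ (i : ℕ)) (fun i => pow_mem heH _) (by simp)
  intro i j hij
  rcases lt_or_gt_of_ne hij with h | h
  · exact hlt i j h
  · exact (hlt j i h).symm

theorem comm_conj_of_pgroup {r d : ℕ} (hrd : RD r d) {P : Subgroup S} (hP : IsPGroup r ↥P) {t : S} (htP : t ∈ P)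
    (hcard : Nat.card ↥(cm hM t) = 2 ^ d) : ∀ g ∈ P, ⁅t, g * t * g⁻¹⁆ ∈ centralizer (M : Set S) := by
  intro g hg
  apply comm_mem_of_pgroup hM hrd (y := t) (y' := g * t * g⁻¹)
  · apply hP.to_le
    rw [closure_le]
    rintro w hw
    simp only [Set.mem_insert_iff, Set.mem_singleton_iff] at hw
    rcases hw with rfl | rfl
    · exact htP
    · exact mul_mem (mul_mem hg htP) (inv_mem hg)
  · exact hcard
  · rw [card_cm_conj, hcard]

theorem cent_of_ne {r d : ℕ} (hrd : RD r d) {y y' : S} (hy : y ^ r ∈ centralizer (M : Set S))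
    (hy' : y' ^ r ∈ centralizer (M : Set S)) (hc : Nat.card ↥(cm hM y) = 2 ^ d)
    (hc' : Nat.card ↥(cm hM y') = 2 ^ d) (h : ⁅y, y'⁆ ∈ centralizer (M : Set S)) (hne : cm hM y ≠ cm hM y') :
    y' ∈ centralizer ((cm hM y : Subgroup S) : Set S) := by
  have h1 := disjoint_of_ne hM hrd hy hy' hc hc' h hne
  have h' : ⁅y', y⁆ ∈ centralizer (M : Set S) := by
    rw [← commutatorElement_inv]; exact inv_mem h
  rw [mem_centralizer_iff]
  intro v hv
  have h2 := commute_of_disjoint hM (cm_le hM y) (fun u hu => conj_mem_cm_of_comm hM h' hu)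
    (by rw [inf_comm]; exact h1) hv
  exact (mul_inv_eq_iff_eq_mul.mp h2).symm

omit [Finite S] in
theorem elem_map {R : Type*} [Group R] {r : ℕ} {F : Subgroup R} (hF : Cfsg.IsElementaryAbelian r F) (φ : R →* S) :
    Cfsg.IsElementaryAbelian r (F.map φ) := by
  refine ⟨?_, ?_⟩
  · constructor
    constructor
    rintro ⟨_, ⟨a, ha, rfl⟩⟩ ⟨_, ⟨b, hb, rfl⟩⟩
    apply Subtype.ext
    have := hF.1.is_comm.comm ⟨a, ha⟩ ⟨b, hb⟩
    have h2 : a * b = b * a := congrArg Subtype.val this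
    show φ a * φ b = φ b * φ a
    rw [← map_mul, ← map_mul, h2]
  · rintro _ ⟨a, ha, rfl⟩
    rw [← map_pow, hF.2 a ha, map_one]

/-- The case `p = 3`. -/
theorem case3 {P : Subgroup S} (hP : IsPGroup 3 ↥P) {x : S} (hxP : x ∈ P)
    (hx3 : x ^ 3 ∈ centralizer (M : Set S)) (hcard : Nat.card ↥(cm hM x) = 4) {E : Subgroup S} (hEP : E ≤ P)
    (hE : Cfsg.IsElementaryAbelian 3 E) (hE3 : Nat.card ↥E = 3 ^ 3) :
    ∃ F : Subgroup S, Cfsg.IsElementaryAbelian 3 F ∧ Nat.card ↥F = 3 ^ 3 ∧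
      ¬ IsCyclic ↥(F ⊓ centralizer ((cm hM x : Subgroup S) : Set S)) := by
  have hf3 : Fact (Nat.Prime 3) := ⟨Nat.prime_three⟩
  have hrd : RD 3 2 := Or.inl ⟨rfl, rfl⟩
  have hcard' : Nat.card ↥(cm hM x) = 2 ^ 2 := hcard
  by_cases hEN : E ≤ normalizer ((cm hM x : Subgroup S) : Set S)
  · exact ⟨E, hE, hE3, noncyclic_of hM hrd hE hE3 (cm_le hM x) hcard' hEN⟩
  obtain ⟨e, heE, heN⟩ := SetLike.not_le_iff_exists.mp hEN
  have heP : e ∈ P := hEP heE
  have he3 : e ^ 3 = 1 := hE.2 e heE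
  have hcomm := comm_conj_of_pgroup hM hrd hP hxP hcard'
  have hMn := hM.normal
  have hCn : (centralizer (M : Set S)).Normal := inferInstance
  have hcomm2 : ∀ g ∈ P, ∀ h ∈ P, ⁅g * x * g⁻¹, h * x * h⁻¹⁆ ∈ centralizer (M : Set S) := by
    intro g hg h hh
    have h1 := hCn.conj_mem _ (hcomm (g⁻¹ * h) (mul_mem (inv_mem hg) hh)) g
    have h2 : g * ⁅x, g⁻¹ * h * x * (g⁻¹ * h)⁻¹⁆ * g⁻¹ = ⁅g * x * g⁻¹, h * x * h⁻¹⁆ := by
      rw [commutatorElement_def, commutatorElement_def]; group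
    rwa [h2] at h1
  -- powers of `e`
  have heN2 : e ^ 2 ∉ normalizer ((cm hM x : Subgroup S) : Set S) := by
    intro h
    apply heN
    have h1 : e = (e ^ 2) ^ 2 := by
      calc e = e ^ 3 * e := by rw [he3, one_mul]
        _ = (e ^ 2) ^ 2 := by group
    rw [h1]
    exact pow_mem h 2
  have hne1 : cm hM (e * x * e⁻¹) ≠ cm hM x := fun h => heN ((mem_normalizer_cm hM).mpr h)
  have hne2 : cm hM (e ^ 2 * x * (e ^ 2)⁻¹) ≠ cm hM x := fun h => heN2 ((mem_normalizer_cm hM).mpr h)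
  have hne3 : cm hM (e ^ 2 * x * (e ^ 2)⁻¹) ≠ cm hM (e * x * e⁻¹) := by
    intro h
    apply hne1
    have h1 := congrArg (fun W : Subgroup S => W.map (MulAut.conj e⁻¹).toMonoidHom) h
    simp only [cm_map_conj] at h1
    have h2 : e⁻¹ * (e ^ 2 * x * (e ^ 2)⁻¹) * e⁻¹⁻¹ = e * x * e⁻¹ := by group
    have h3 : e⁻¹ * (e * x * e⁻¹) * e⁻¹⁻¹ = x := by group
    rwa [h2, h3] at h1
  by_cases hfour : ∃ g ∈ P, cm hM (g * x * g⁻¹) ≠ cm hM x ∧ cm hM (g * x * g⁻¹) ≠ cm hM (e * x * e⁻¹) ∧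
      cm hM (g * x * g⁻¹) ≠ cm hM (e ^ 2 * x * (e ^ 2)⁻¹)
  · obtain ⟨g, hgP, hg0, hg1, hg2⟩ := hfour
    have hxx : (1 : S) * x * (1 : S)⁻¹ = x := by group
    obtain ⟨F, _, hF⟩ := four hM hrd P (zpowers_isPGroup hP hxP) hx3 hcard' hxP hcomm ![1, e, e ^ 2, g]
      (by
        intro i
        fin_cases i
        · exact one_mem _
        · exact heP
        · exact pow_mem heP 2
        · exact hgP)
      rfl
      (by
        intro i j hij
        fin_cases i <;> fin_cases j <;>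
          simp only [Fin.zero_eta, Fin.mk_one, Fin.reduceFinMk, ne_eq, not_true_eq_false] at hij <;>
          simp only [Fin.zero_eta, Fin.mk_one, Fin.reduceFinMk, Matrix.cons_val, Matrix.cons_val_zero,
            Matrix.cons_val_one, hxx]
        · exact hne1.symm
        · exact hne2.symm
        · exact hg0.symm
        · exact hne1
        · exact hne3.symm
        · exact hg1.symm
        · exact hne2
        · exact hne3
        · exact hg2.symm
        · exact hg0
        · exact hg1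
        · exact hg2)
    exact ⟨F, hF⟩
  · push Not at hfour
    have hmap : ∀ g u v : S, cm hM u = cm hM v → cm hM (g * u * g⁻¹) = cm hM (g * v * g⁻¹) := by
      intro g u v h
      rw [← cm_map_conj, ← cm_map_conj, h]
    have hEc : ∀ a ∈ E, ∀ b ∈ E, a * b = b * a := Cfsg.Agent.Omega.Sec.Basic.comm_of hE.1
    have hV4 : (cm hM x : Subgroup S) ≠ ⊥ := by
      intro h
      rw [h, Subgroup.card_bot] at hcard
      omega
    obtain ⟨K, hK⟩ : ∃ K : Subgroup ↥P, K = ⨅ g : ↥P,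
      (normalizer ((cm hM ((g : S) * x * (g : S)⁻¹) : Subgroup S) : Set S)).comap P.subtype := ⟨_, rfl⟩
    have hKmem : ∀ k : ↥P, k ∈ K ↔ ∀ g : ↥P,
        (k : S) ∈ normalizer ((cm hM ((g : S) * x * (g : S)⁻¹) : Subgroup S) : Set S) := by
      intro k
      rw [hK, Subgroup.mem_iInf]
      rfl
    have hKn : K.Normal := by
      constructor
      intro k hk h
      rw [hKmem] at hk ⊢
      intro g
      have h1 := hk (h⁻¹ * g)
      rw [mem_normalizer_cm] at h1 ⊢
      have h2 := hmap (h : S) _ _ h1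
      have e1 : (h : S) * ((k : S) * (((h⁻¹ * g : ↥P) : S) * x * ((h⁻¹ * g : ↥P) : S)⁻¹) * (k : S)⁻¹) * (h : S)⁻¹ =
          ((h * k * h⁻¹ : ↥P) : S) * ((g : S) * x * (g : S)⁻¹) * ((h * k * h⁻¹ : ↥P) : S)⁻¹ := by
        simp only [Subgroup.coe_mul, Subgroup.coe_inv]; group
      have e2 : (h : S) * (((h⁻¹ * g : ↥P) : S) * x * ((h⁻¹ * g : ↥P) : S)⁻¹) * (h : S)⁻¹ = (g : S) * x * (g : S)⁻¹ := by
        simp only [Subgroup.coe_mul, Subgroup.coe_inv]; group
      rwa [e1, e2] at h2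
    let φ : ↥K →* S := P.subtype.comp K.subtype
    have hφ : Function.Injective φ := P.subtype_injective.comp K.subtype_injective
    have hφN : φ.range ≤ normalizer ((cm hM x : Subgroup S) : Set S) := by
      rintro _ ⟨k, rfl⟩
      have h1 := (hKmem k).mp k.2 1
      have h2 : ((1 : ↥P) : S) * x * ((1 : ↥P) : S)⁻¹ = x := by simp
      rwa [h2] at h1
    have hKp : IsPGroup 3 ↥K := hP.to_subgroup K
    by_cases hrank : ∃ F' : Subgroup ↥K, Cfsg.IsElementaryAbelian 3 F' ∧ Nat.card ↥F' = 3 ^ 3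
    · obtain ⟨F', hF', hF'3⟩ := hrank
      have hc3 : Nat.card ↥(F'.map φ) = 3 ^ 3 := by rw [Subgroup.card_map_of_injective hφ, hF'3]
      refine ⟨F'.map φ, elem_map hF' φ, hc3, noncyclic_of hM hrd (elem_map hF' φ) hc3 (cm_le hM x) hcard' ?_⟩
      rintro _ ⟨k, _, rfl⟩
      exact hφN ⟨k, rfl⟩
    have hr := pRankLE_two_of hrank
    -- `x ∈ K`
    have hxK : (⟨x, hxP⟩ : ↥P) ∈ K := by
      rw [hKmem]
      intro g
      apply Subgroup.mem_normalizer_fintype
      intro v hv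
      exact conj_mem_cm_of_comm hM (hcomm g g.2) hv
    have hxcent : x ∉ centralizer ((cm hM x : Subgroup S) : Set S) := by
      intro h
      apply hV4
      rw [eq_bot_iff]
      intro v hv
      rw [mem_bot]
      apply eq_one_of_commute hM (r := 3) (by decide) hx3 hv
      rw [← mem_centralizer_iff.mp h v hv]; group
    obtain ⟨χ, hχ⟩ := exists_char hM hrd hKp φ (cm_le hM x) hcard' hφN ⟨⟨⟨x, hxP⟩, hxK⟩, hxcent⟩
    -- `N0 = E ∩ N(V)` of order `9`
    obtain ⟨N0, hN0⟩ : ∃ N0 : Subgroup S, N0 = E ⊓ normalizer ((cm hM x : Subgroup S) : Set S) := ⟨_, rfl⟩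
    have hN0E : N0 ≤ E := by rw [hN0]; exact inf_le_left
    have hcover : ∀ f ∈ E, ∃ i : Fin 3, (e ^ (i : ℕ))⁻¹ * f ∈ N0 := by
      intro f hf
      have hcases : cm hM (f * x * f⁻¹) = cm hM x ∨ cm hM (f * x * f⁻¹) = cm hM (e * x * e⁻¹) ∨
          cm hM (f * x * f⁻¹) = cm hM (e ^ 2 * x * (e ^ 2)⁻¹) := by
        by_contra hcon
        push Not at hcon
        exact hcon.2.2 (hfour f (hEP hf) hcon.1 hcon.2.1)
      rw [hN0]
      rcases hcases with h | h | h
      · refine ⟨0, E.mul_mem (E.inv_mem (E.pow_mem heE _)) hf, ?_⟩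
        show (e ^ 0)⁻¹ * f ∈ normalizer ((cm hM x : Subgroup S) : Set S)
        rw [mem_normalizer_cm, pow_zero, inv_one, one_mul, h]
      · refine ⟨1, E.mul_mem (E.inv_mem (E.pow_mem heE _)) hf, ?_⟩
        show (e ^ 1)⁻¹ * f ∈ normalizer ((cm hM x : Subgroup S) : Set S)
        rw [mem_normalizer_cm]
        have h1 := hmap (e ^ 1)⁻¹ _ _ h
        have e1 : (e ^ 1)⁻¹ * (f * x * f⁻¹) * (e ^ 1)⁻¹⁻¹ = (e ^ 1)⁻¹ * f * x * ((e ^ 1)⁻¹ * f)⁻¹ := by group
        have e2 : (e ^ 1)⁻¹ * (e * x * e⁻¹) * (e ^ 1)⁻¹⁻¹ = x := by group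
        rwa [e1, e2] at h1
      · refine ⟨2, E.mul_mem (E.inv_mem (E.pow_mem heE _)) hf, ?_⟩
        show (e ^ 2)⁻¹ * f ∈ normalizer ((cm hM x : Subgroup S) : Set S)
        rw [mem_normalizer_cm]
        have h1 := hmap (e ^ 2)⁻¹ _ _ h
        have e1 : (e ^ 2)⁻¹ * (f * x * f⁻¹) * (e ^ 2)⁻¹⁻¹ = (e ^ 2)⁻¹ * f * x * ((e ^ 2)⁻¹ * f)⁻¹ := by group
        have e2 : (e ^ 2)⁻¹ * (e ^ 2 * x * (e ^ 2)⁻¹) * (e ^ 2)⁻¹⁻¹ = x := by group
        rwa [e1, e2] at h1
    have hN0c : Nat.card ↥N0 = 3 ^ 2 := by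
      have h1 : Nat.card ↥E ≤ Nat.card (Fin 3 × ↥N0) := by
        have hs : Function.Surjective (fun w : Fin 3 × ↥N0 =>
            (⟨e ^ (w.1 : ℕ) * (w.2 : S), mul_mem (pow_mem heE _) (hN0E w.2.2)⟩ : ↥E)) := by
          rintro ⟨f, hf⟩
          obtain ⟨i, hi⟩ := hcover f hf
          exact ⟨(i, ⟨_, hi⟩), Subtype.ext (mul_inv_cancel_left _ _)⟩
        exact Nat.card_le_card_of_surjective _ hs
      rw [Nat.card_prod, Nat.card_eq_fintype_card (α := Fin 3), Fintype.card_fin, hE3] at h1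
      have h2 : Nat.card ↥N0 ∣ 3 ^ 3 := by rw [← hE3]; exact Subgroup.card_dvd_of_le hN0E
      obtain ⟨k, hk, hk2⟩ := (Nat.dvd_prime_pow Nat.prime_three).mp h2
      have hk3 : k ≠ 3 := by
        rintro rfl
        have h3 : N0 = E := Subgroup.eq_of_le_of_card_ge hN0E (by rw [hk2, hE3])
        rw [← h3, hN0] at heE
        exact heN heE.2
      have hk4 : k = 2 := by
        by_contra h
        have h5 : 3 ^ k ≤ 3 ^ 1 := Nat.pow_le_pow_right (by norm_num) (by omega)
        rw [hk2] at h1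
        omega
      rw [hk2, hk4]
    have hN0K : ∀ f ∈ N0, ∃ k : ↥K, φ k = f := by
      intro f hf
      have hfE := hN0E hf
      have hfN : f ∈ normalizer ((cm hM x : Subgroup S) : Set S) := by rw [hN0] at hf; exact hf.2
      have hfK : (⟨f, hEP hfE⟩ : ↥P) ∈ K := by
        rw [hKmem]
        intro g
        rw [mem_normalizer_cm] at hfN
        have hEi : ∀ u ∈ E, f ∈ normalizer ((cm hM (u * x * u⁻¹) : Subgroup S) : Set S) := by
          intro u hu
          rw [mem_normalizer_cm]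
          have h1 := hmap u _ _ hfN
          have e1 : u * (f * x * f⁻¹) * u⁻¹ = f * (u * x * u⁻¹) * f⁻¹ := by
            have h2 := hEc u hu f hfE
            calc u * (f * x * f⁻¹) * u⁻¹ = (u * f) * x * (u * f)⁻¹ := by group
              _ = (f * u) * x * (f * u)⁻¹ := by rw [h2]
              _ = _ := by group
          rwa [e1] at h1
        by_cases c0 : cm hM ((g : S) * x * (g : S)⁻¹) = cm hM x
        · rw [c0, mem_normalizer_cm]; exact hfN
        by_cases c1 : cm hM ((g : S) * x * (g : S)⁻¹) = cm hM (e * x * e⁻¹)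
        · rw [c1]; exact hEi e heE
        rw [hfour g g.2 c0 c1]
        exact hEi _ (pow_mem heE 2)
      exact ⟨⟨⟨f, hEP hfE⟩, hfK⟩, rfl⟩
    have hmapN0 : (N0.comap φ).map φ = N0 := by
      ext f
      constructor
      · rintro ⟨k, hk, rfl⟩
        exact hk
      · intro hf
        obtain ⟨k, rfl⟩ := hN0K f hf
        exact ⟨k, hf, rfl⟩
    have hE1c : Nat.card ↥(N0.comap φ) = 3 ^ 2 := by
      rw [← hN0c]
      conv_rhs => rw [← hmapN0]
      rw [Subgroup.card_map_of_injective hφ]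
    by_cases hall : ∀ a ∈ N0.comap φ, χ a = 1
    · refine ⟨E, hE, hE3, ?_⟩
      apply not_isCyclic_of (r := 3) (X := E ⊓ centralizer ((cm hM x : Subgroup S) : Set S)) (fun w hw => hE.2 w hw.1)
      rw [← hN0c]
      apply Subgroup.card_le_of_le
      intro f hf
      refine ⟨hN0E hf, ?_⟩
      obtain ⟨k, rfl⟩ := hN0K f hf
      exact (hχ k).mp (hall k hf)
    push Not at hall
    exfalso
    have hxe : ∀ u ∈ E, cm hM (u * x * u⁻¹) ≠ cm hM x → u * x * u⁻¹ ∈ centralizer ((cm hM x : Subgroup S) : Set S) := by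
      intro u hu hne
      apply cent_of_ne hM hrd hx3 _ hcard' _ (hcomm u (hEP hu)) (fun h => hne h.symm)
      · rw [conj_pow]; exact hCn.conj_mem _ hx3 _
      · rw [card_cm_conj, hcard']
    have hcT : Nat.card (Multiplicative (ZMod 3)) = 3 := by
      rw [Nat.card_congr Multiplicative.toAdd, Nat.card_zmod]
    apply TripleC.triple (P := ↥P) hP K hr hcT ⟨e, heP⟩ (Subtype.ext (by simpa using he3)) χ ⟨⟨x, hxP⟩, hxK⟩
      (fun h => hxcent ((hχ _).mp h)) ?_ ?_ (N0.comap φ) ⟨?_, ?_⟩ hE1c ?_ hall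
    · rw [hχ]
      show ((MulAut.conjNormal (⟨e, heP⟩ : ↥P) (⟨⟨x, hxP⟩, hxK⟩ : ↥K) : ↥P) : S) ∈ _
      rw [MulAut.conjNormal_apply]
      exact hxe e heE hne1
    · rw [hχ]
      show ((MulAut.conjNormal (⟨e, heP⟩ : ↥P) (MulAut.conjNormal (⟨e, heP⟩ : ↥P) (⟨⟨x, hxP⟩, hxK⟩ : ↥K)) : ↥P) : S) ∈ _
      rw [MulAut.conjNormal_apply, MulAut.conjNormal_apply]
      have h1 := hxe (e ^ 2) (pow_mem heE 2) hne2
      have h2 : e ^ 2 * x * (e ^ 2)⁻¹ = e * (e * x * e⁻¹) * e⁻¹ := by rw [pow_two]; group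
      rw [h2] at h1
      exact h1
    · constructor
      constructor
      rintro ⟨a, ha⟩ ⟨b, hb⟩
      apply Subtype.ext
      apply hφ
      show φ (a * b) = φ (b * a)
      rw [map_mul, map_mul]
      exact hEc _ (hN0E ha) _ (hN0E hb)
    · intro a ha
      apply hφ
      rw [map_pow, map_one]
      exact hE.2 _ (hN0E ha)
    · intro a ha
      apply hφ
      show ((MulAut.conjNormal (⟨e, heP⟩ : ↥P) a : ↥P) : S) = φ a
      rw [MulAut.conjNormal_apply]
      show e * φ a * e⁻¹ = φ a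
      rw [hEc e heE _ (hN0E ha)]; group

end Cfsg.Agent.H585.MoveFour
end

-- part: H585/Seven
section
/-!
# Two elements of order three not commuting on `M`: an element of order seven
-/

set_option autoImplicit false

namespace Cfsg.Agent.H585.Seven

open Subgroup Cfsg.Agent.H585.ModTwo Cfsg.Agent.H585.PCentral Cfsg.Agent.H585.RankB Cfsg.Agent.H585.MoveFour
open scoped commutatorElement Pointwise

universe u

theorem gl_dvd {n : ℕ} (hn : n ≤ 4) : gl n ∣ 20160 := by
  obtain ⟨g0, g1, g2, g3, g4, g5, g6⟩ := gl_vals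
  have : n = 0 ∨ n = 1 ∨ n = 2 ∨ n = 3 ∨ n = 4 := by omega
  rcases this with rfl | rfl | rfl | rfl | rfl
  · rw [g0]; decide
  · rw [g1]; decide
  · rw [g2]; decide
  · rw [g3]; decide
  · rw [g4]

/-- A group of order `3 ^ k`, `k ≤ 2`, is commutative. -/
theorem comm_of_card_three_pow {G : Type u} [Group G] [Finite G] {k : ℕ} (hk : k ≤ 2) (hG : Nat.card G = 3 ^ k) :
    ∀ a b : G, a * b = b * a := by
  have hf3 : Fact (Nat.Prime 3) := ⟨Nat.prime_three⟩
  have hk3 : k = 0 ∨ k = 1 ∨ k = 2 := by omega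
  rcases hk3 with rfl | rfl | rfl
  · rw [pow_zero] at hG
    have := (Nat.card_eq_one_iff_unique.mp hG).1
    intro a b
    exact Subsingleton.elim _ _
  · rw [pow_one] at hG
    have := isCyclic_of_prime_card hG
    intro a b
    let _ := IsCyclic.commGroup (α := G)
    exact mul_comm a b
  · have := IsPGroup.isMulCommutative_of_card_eq_prime_sq hG
    exact this.is_comm.comm

theorem sylow_normal_of_card_one {G : Type u} [Group G] [Finite G] {p : ℕ} [Fact p.Prime] (P : Sylow p G)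
    (h : Nat.card (Sylow p G) = 1) : (P : Subgroup G).Normal ∧ ∀ Q : Subgroup G, IsPGroup p ↥Q → Q ≤ P := by
  have hs : Subsingleton (Sylow p G) := (Nat.card_eq_one_iff_unique.mp h).1
  constructor
  · exact Sylow.normal_of_subsingleton P
  · intro Q hQ
    obtain ⟨R, hR⟩ := hQ.exists_le_sylow
    rwa [Subsingleton.elim R P] at hR

/-- A finite group of order dividing `20160` and `3 ^ a * p ^ b`, `p ≥ 5`, generated by two elements of order
dividing three that do not commute: `p = 7`, and there is a normal Sylow `7`-subgroup of order `7`. -/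
theorem group_aux {G : Type u} [Group G] [Finite G] {p a b : ℕ} (hp : p.Prime) (hp5 : 5 ≤ p)
    (h1 : Nat.card G ∣ 20160) (h2 : Nat.card G ∣ 3 ^ a * p ^ b) {x y : G} (hgen : closure ({x, y} : Set G) = ⊤)
    (hx : x ^ 3 = 1) (hy : y ^ 3 = 1) (hxy : x * y ≠ y * x) :
    p = 7 ∧ 7 ∣ Nat.card G ∧ ∀ t : G, IsPGroup 7 ↥(zpowers t) → t ≠ 1 → (zpowers t).Normal ∧ t ^ 7 = 1 := by
  have hf3 : Fact (Nat.Prime 3) := ⟨Nat.prime_three⟩
  have hGpos : 0 < Nat.card G := Nat.card_pos
  have hpd : p ∣ Nat.card G := by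
    by_contra hnp
    have h3 : Nat.card G ∣ 3 ^ a := by
      apply Nat.Coprime.dvd_of_dvd_mul_right _ h2
      exact Nat.Coprime.pow_right b ((hp.coprime_iff_not_dvd.mpr hnp).symm)
    obtain ⟨k, _, hk⟩ := (Nat.dvd_prime_pow Nat.prime_three).mp h3
    have hk2 : k ≤ 2 := by
      by_contra h
      have h4 : 3 ^ 3 ∣ 20160 := (pow_dvd_pow 3 (by omega)).trans (hk ▸ h1)
      revert h4; decide
    exact hxy (comm_of_card_three_pow hk2 hk x y)
  have hp57 : p = 5 ∨ p = 7 := by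
    have h3 : p ∣ 2 ^ 6 * 3 ^ 2 * 5 * 7 := (hpd.trans h1).trans (by norm_num)
    rcases hp.dvd_mul.mp h3 with h | h
    · rcases hp.dvd_mul.mp h with h | h
      · rcases hp.dvd_mul.mp h with h | h
        · have := (Nat.prime_dvd_prime_iff_eq hp Nat.prime_two).mp (hp.dvd_of_dvd_pow h)
          omega
        · have := (Nat.prime_dvd_prime_iff_eq hp Nat.prime_three).mp (hp.dvd_of_dvd_pow h)
          omega
      · exact Or.inl ((Nat.prime_dvd_prime_iff_eq hp Nat.prime_five).mp h)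
    · exact Or.inr ((Nat.prime_dvd_prime_iff_eq hp (by norm_num)).mp h)
  -- the order of `G` divides `9 p`
  have h9p : Nat.card G ∣ 9 * p := by
    have h3 : Nat.card G ∣ Nat.gcd 20160 (3 ^ a * p ^ b) := Nat.dvd_gcd h1 h2
    have h4 : Nat.Coprime (Nat.card G) 64 := by
      have h5 : Nat.Coprime (3 ^ a * p ^ b) 64 := by
        have : (64 : ℕ) = 2 ^ 6 := by norm_num
        rw [this]
        apply Nat.Coprime.pow_right
        apply Nat.Coprime.mul_left
        · exact Nat.Coprime.pow_left _ (by decide)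
        · apply Nat.Coprime.pow_left
          rw [Nat.coprime_primes hp Nat.prime_two]; omega
      exact Nat.Coprime.coprime_dvd_left h2 h5
    have h6 : Nat.card G ∣ 315 := by
      apply h4.dvd_of_dvd_mul_left
      exact h1
    rcases hp57 with rfl | rfl
    · have h7 : Nat.Coprime (Nat.card G) 7 := by
        apply Nat.Coprime.coprime_dvd_left h2
        apply Nat.Coprime.mul_left
        · exact Nat.Coprime.pow_left _ (by decide)
        · exact Nat.Coprime.pow_left _ (by decide)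
      apply h7.dvd_of_dvd_mul_left
      exact h6
    · have h7 : Nat.Coprime (Nat.card G) 5 := by
        apply Nat.Coprime.coprime_dvd_left h2
        apply Nat.Coprime.mul_left
        · exact Nat.Coprime.pow_left _ (by decide)
        · exact Nat.Coprime.pow_left _ (by decide)
      apply h7.dvd_of_dvd_mul_left
      exact h6
  rcases hp57 with rfl | rfl
  · -- `p = 5`
    exfalso
    obtain ⟨P⟩ : Nonempty (Sylow 3 G) := inferInstance
    have hi : (P : Subgroup G).index ∣ 5 := by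
      have h3 : (P : Subgroup G).index ∣ 9 * 5 := (Subgroup.index_dvd_card _).trans h9p
      have h4 : Nat.Coprime (P : Subgroup G).index 9 := by
        have : (9 : ℕ) = 3 ^ 2 := by norm_num
        rw [this]
        exact Nat.Coprime.pow_right _ ((Nat.prime_three.coprime_iff_not_dvd.mpr P.not_dvd_index).symm)
      exact h4.dvd_of_dvd_mul_left h3
    have hn : Nat.card (Sylow 3 G) = 1 := by
      have h3 : Nat.card (Sylow 3 G) ∣ 5 := P.card_dvd_index.trans hi
      have h4 : Nat.card (Sylow 3 G) ≡ 1 [MOD 3] := card_sylow_modEq_one 3 G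
      rcases (Nat.dvd_prime Nat.prime_five).mp h3 with h | h
      · exact h
      · rw [h] at h4
        exact absurd h4 (by decide)
    obtain ⟨_, hall⟩ := sylow_normal_of_card_one P hn
    have hz : ∀ z : G, z ^ 3 = 1 → z ∈ (P : Subgroup G) := by
      intro z hz
      apply hall (zpowers z) _ (mem_zpowers z)
      intro w
      obtain ⟨k, hk⟩ := mem_zpowers_iff.mp w.2
      refine ⟨1, Subtype.ext ?_⟩
      show (w : G) ^ 3 ^ 1 = 1
      rw [pow_one, ← hk, ← zpow_natCast, ← zpow_mul, mul_comm, zpow_mul, zpow_natCast, hz, one_zpow]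
    have htop : (P : Subgroup G) = ⊤ := by
      rw [eq_top_iff, ← hgen, closure_le]
      rintro w hw
      simp only [Set.mem_insert_iff, Set.mem_singleton_iff] at hw
      rcases hw with rfl | rfl
      · exact hz _ hx
      · exact hz _ hy
    have h5 : ∃ k, Nat.card G = 3 ^ k := by
      have h6 : IsPGroup 3 G := by
        have := P.isPGroup'
        rw [htop] at this
        exact this.of_equiv Subgroup.topEquiv
      exact (IsPGroup.iff_card).1 h6
    obtain ⟨k, hk⟩ := h5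
    rw [hk] at hpd
    have := (Nat.prime_dvd_prime_iff_eq Nat.prime_five Nat.prime_three).mp (Nat.prime_five.dvd_of_dvd_pow hpd)
    omega
  · refine ⟨rfl, hpd, ?_⟩
    have hp7 : Nat.Prime 7 := hp
    have hf7 : Fact (Nat.Prime 7) := ⟨hp7⟩
    obtain ⟨P⟩ : Nonempty (Sylow 7 G) := inferInstance
    have hi : (P : Subgroup G).index ∣ 3 ^ 2 := by
      have h3 : (P : Subgroup G).index ∣ 9 * 7 := (Subgroup.index_dvd_card _).trans h9p
      have h4 : Nat.Coprime (P : Subgroup G).index 7 :=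
        (hp7.coprime_iff_not_dvd.mpr P.not_dvd_index).symm
      exact h4.dvd_of_dvd_mul_right h3
    have hn : Nat.card (Sylow 7 G) = 1 := by
      have h3 : Nat.card (Sylow 7 G) ∣ 3 ^ 2 := P.card_dvd_index.trans hi
      have h4 : Nat.card (Sylow 7 G) ≡ 1 [MOD 7] := card_sylow_modEq_one 7 G
      obtain ⟨k, hk, hk2⟩ := (Nat.dvd_prime_pow Nat.prime_three).mp h3
      have : k = 0 ∨ k = 1 ∨ k = 2 := by omega
      rcases this with rfl | rfl | rfl
      · exact hk2
      · rw [hk2] at h4; exact absurd h4 (by decide)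
      · rw [hk2] at h4; exact absurd h4 (by decide)
    obtain ⟨hPn, hall⟩ := sylow_normal_of_card_one P hn
    have hPc : Nat.card ↥(P : Subgroup G) ∣ 7 := by
      have h3 : Nat.card ↥(P : Subgroup G) ∣ 9 * 7 := (Subgroup.card_subgroup_dvd_card _).trans h9p
      obtain ⟨k, hk⟩ := (IsPGroup.iff_card).1 P.isPGroup'
      rw [hk] at h3 ⊢
      exact Nat.Coprime.dvd_of_dvd_mul_left (Nat.Coprime.pow_left _ (by decide)) h3
    intro t ht ht1
    have htP : zpowers t ≤ (P : Subgroup G) := hall _ ht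
    have h3 : zpowers t = (P : Subgroup G) := by
      apply Subgroup.eq_of_le_of_card_ge htP
      have h4 : Nat.card ↥(zpowers t) ∣ 7 := (Subgroup.card_dvd_of_le htP).trans hPc
      rcases (Nat.dvd_prime hp7).mp h4 with h | h
      · exfalso
        rw [Subgroup.card_eq_one, zpowers_eq_bot] at h
        exact ht1 h
      · rw [h]; exact Nat.le_of_dvd (by norm_num) hPc
    constructor
    · rw [h3]; exact hPn
    · have h4 : orderOf t ∣ 7 := by
        rw [← Nat.card_zpowers]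
        exact (Subgroup.card_dvd_of_le htP).trans hPc
      exact orderOf_dvd_iff_pow_eq_one.mp h4

variable {S : Type u} [Group S] [Finite S]

variable {M : Subgroup S} (hM : Hyp M)

omit [Finite S] in
theorem cm_zpow_le (t : S) (j : ℤ) : cm hM (t ^ j) ≤ cm hM t := by
  rintro _ ⟨m, hm, rfl⟩
  have h1 : t ^ j ∈ closure ({t, t} : Set S) := zpow_mem (subset_closure (by simp)) j
  have h2 : cm hM t ⊔ cm hM t = cm hM t := sup_idem _
  rw [← h2]
  have hN : closure ({t, t} : Set S) ≤ normalizer ((cm hM t ⊔ cm hM t : Subgroup S) : Set S) := by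
    rw [h2, closure_le]
    rintro w hw
    simp only [Set.mem_insert_iff, Set.mem_singleton_iff, or_self] at hw
    rw [hw]
    show t ∈ normalizer ((cm hM t : Subgroup S) : Set S)
    rw [mem_normalizer_cm]
    congr 1
    group
  generalize t ^ j = d at h1 ⊢
  induction h1 using Subgroup.closure_induction generalizing m with
  | mem z hz =>
    simp only [Set.mem_insert_iff, Set.mem_singleton_iff, or_self] at hz
    rw [hz]
    exact mem_sup_left (comm_mem_cm hM hm)
  | one => simp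
  | mul a b ha hb iha ihb =>
    have h1 := ihb m hm
    have h2 := (mem_normalizer_iff.mp (hN ha) _).mp h1
    have h3 := iha m hm
    have : a * b * m * (a * b)⁻¹ * m⁻¹ = (a * (b * m * b⁻¹ * m⁻¹) * a⁻¹) * (a * m * a⁻¹ * m⁻¹) := by group
    rw [this]
    exact mul_mem h2 h3
  | inv a ha iha =>
    have h1 := iha (a⁻¹ * m * a) (by simpa using hM.normal.conj_mem m hm a⁻¹)
    have : a⁻¹ * m * a⁻¹⁻¹ * m⁻¹ = (a * (a⁻¹ * m * a) * a⁻¹ * (a⁻¹ * m * a)⁻¹)⁻¹ := by group
    rw [this]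
    exact inv_mem h1

theorem exists_seven {p a b : ℕ} (hp : p.Prime) (hp5 : 5 ≤ p) {x y : S}
    (hD : Nat.card ↥(closure ({x, y} : Set S)) ∣ 3 ^ a * p ^ b)
    (hx : x ^ 3 ∈ centralizer (M : Set S)) (hy : y ^ 3 ∈ centralizer (M : Set S))
    (hcx : Nat.card ↥(cm hM x) = 4) (hcy : Nat.card ↥(cm hM y) = 4)
    (hxy : ⁅x, y⁆ ∉ centralizer (M : Set S)) :
    p = 7 ∧ ∃ t : S, IsPGroup 7 ↥(zpowers t) ∧ t ^ 7 ∈ centralizer (M : Set S) ∧
      Nat.card ↥(cm hM t) = 2 ^ 3 ∧ cm hM x ≤ cm hM t := by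
  have hf3 : Fact (Nat.Prime 3) := ⟨Nat.prime_three⟩
  obtain ⟨D, hDdef⟩ : ∃ D, D = closure ({x, y} : Set S) := ⟨_, rfl⟩
  have hxD : x ∈ D := by rw [hDdef]; exact subset_closure (by simp)
  have hyD : y ∈ D := by rw [hDdef]; exact subset_closure (by simp)
  have hodd : Odd (Nat.card ↥(closure ({x, y} : Set S))) := by
    apply Odd.of_dvd_nat _ hD
    exact (Odd.pow (by decide)).mul (hp.odd_of_ne_two (by omega)).pow
  obtain ⟨n, hn, hnle⟩ := card_sup_dvd hM x y
  rw [hcx, hcy] at hnle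
  have hn4 : n ≤ 4 := by
    by_contra h
    have : 2 ^ 5 ≤ 2 ^ n := Nat.pow_le_pow_right (by norm_num) (by omega)
    omega
  have hrel := relIndex_dvd_gl hM hodd hn
  rw [← hDdef] at hrel hodd hD
  have hMn := hM.normal
  have hCn : (centralizer (M : Set S)).Normal := inferInstance
  obtain ⟨N, hN⟩ : ∃ N : Subgroup ↥D, N = (centralizer (M : Set S)).subgroupOf D := ⟨_, rfl⟩
  have hNn : N.Normal := by rw [hN]; infer_instance
  have hNmem : ∀ d : ↥D, d ∈ N ↔ (d : S) ∈ centralizer (M : Set S) := by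
    intro d
    rw [hN]; exact mem_subgroupOf
  have hcardG : Nat.card (↥D ⧸ N) = (centralizer (M : Set S)).relIndex D := by rw [hN]; rfl
  let π : ↥D →* ↥D ⧸ N := QuotientGroup.mk' N
  have hπ : Function.Surjective π := QuotientGroup.mk'_surjective N
  have hπ1 : ∀ d, π d = 1 ↔ (d : S) ∈ centralizer (M : Set S) := by
    intro d
    rw [← hNmem]
    exact QuotientGroup.eq_one_iff d
  have hgenD : closure ({⟨x, hxD⟩, ⟨y, hyD⟩} : Set ↥D) = ⊤ := by
    have h1 : (closure ({⟨x, hxD⟩, ⟨y, hyD⟩} : Set ↥D)).map D.subtype = D := by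
      rw [MonoidHom.map_closure, Set.image_pair]
      exact hDdef.symm
    rw [eq_top_iff]
    intro d _
    have h2 : (d : S) ∈ (closure ({⟨x, hxD⟩, ⟨y, hyD⟩} : Set ↥D)).map D.subtype := by rw [h1]; exact d.2
    obtain ⟨d', hd', h3⟩ := h2
    have h4 : d' = d := Subtype.ext h3
    rw [← h4]; exact hd'
  obtain ⟨hp7, h7dvd, h7⟩ := group_aux (G := ↥D ⧸ N) hp hp5 (a := a) (b := b)
    (by rw [hcardG]; exact hrel.trans (gl_dvd hn4))
    (by rw [hcardG]; exact (Subgroup.relIndex_dvd_card _ _).trans hD)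
    (x := π ⟨x, hxD⟩) (y := π ⟨y, hyD⟩)
    (by rw [← Set.image_pair, ← MonoidHom.map_closure, hgenD, ← MonoidHom.range_eq_map, MonoidHom.range_eq_top]; exact hπ)
    (by rw [← map_pow, hπ1]; exact hx)
    (by rw [← map_pow, hπ1]; exact hy)
    (by
      intro h
      rw [← commutatorElement_eq_one_iff_mul_comm, ← map_commutatorElement, hπ1] at h
      exact hxy h)
  refine ⟨hp7, ?_⟩
  have hf7 : Fact (Nat.Prime 7) := ⟨by norm_num⟩
  have hrd : RD 7 3 := Or.inr ⟨rfl, rfl⟩
  -- a `7`-element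
  obtain ⟨T⟩ : Nonempty (Sylow 7 ↥D) := inferInstance
  obtain ⟨t, htT, htN⟩ : ∃ t ∈ (T : Subgroup ↥D), t ∉ N := by
    by_contra hcon
    push Not at hcon
    have h1 : (T : Subgroup ↥D) ≤ N := hcon
    have h2 : N.index ∣ (T : Subgroup ↥D).index := Subgroup.index_dvd_of_le h1
    exact T.not_dvd_index (h7dvd.trans h2)
  have htp : IsPGroup 7 ↥(zpowers (t : S)) := by
    intro w
    obtain ⟨m, hm⟩ := mem_zpowers_iff.mp w.2
    obtain ⟨c, hc⟩ := T.isPGroup' ⟨t ^ m, zpow_mem htT m⟩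
    refine ⟨c, Subtype.ext ?_⟩
    have h3 : (t ^ m) ^ 7 ^ c = 1 := by simpa using congrArg Subtype.val hc
    have h4 : ((t : S) ^ m) ^ 7 ^ c = 1 := by simpa using congrArg Subtype.val h3
    show (w : S) ^ 7 ^ c = 1
    rw [← hm, h4]
  have hπt : IsPGroup 7 ↥(zpowers (π t)) := by
    intro w
    obtain ⟨m, hm⟩ := mem_zpowers_iff.mp w.2
    obtain ⟨c, hc⟩ := T.isPGroup' ⟨t ^ m, zpow_mem htT m⟩
    refine ⟨c, Subtype.ext ?_⟩
    have h3 : (t ^ m) ^ 7 ^ c = 1 := by simpa using congrArg Subtype.val hc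
    show (w : ↥D ⧸ N) ^ 7 ^ c = 1
    rw [← hm, ← map_zpow, ← map_pow, h3, map_one]
  have hπt1 : π t ≠ 1 := by
    intro h
    apply htN
    rw [hNmem]; exact (hπ1 t).mp h
  obtain ⟨hzn, ht7⟩ := h7 (π t) hπt hπt1
  have ht7C : (t : S) ^ 7 ∈ centralizer (M : Set S) := by
    rw [← map_pow, hπ1] at ht7
    exact ht7
  -- `D` normalizes `[M, t]`
  have hDN : ∀ g : ↥D, (g : S) ∈ normalizer ((cm hM (t : S) : Subgroup S) : Set S) := by
    intro g
    rw [mem_normalizer_cm]
    have h1 := hzn.conj_mem (π t) (mem_zpowers _) (π g)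
    obtain ⟨j, hj⟩ := mem_zpowers_iff.mp h1
    have h2 : π ((t ^ j)⁻¹ * (g * t * g⁻¹)) = 1 := by
      rw [map_mul, map_inv, map_zpow, hj]
      simp only [map_mul, map_inv]
      group
    rw [hπ1] at h2
    have h3 : cm hM ((g : S) * t * (g : S)⁻¹) = cm hM ((t : S) ^ j) := by
      apply cm_congr
      simpa using h2
    apply Subgroup.eq_of_le_of_card_ge
    · rw [h3]; exact cm_zpow_le hM _ _
    · rw [card_cm_conj]
  -- the order of `[M, t]`
  have htD : (t : S) ∈ closure ({x, y} : Set S) := by rw [← hDdef]; exact t.2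
  have htU : cm hM (t : S) ≤ cm hM x ⊔ cm hM y := by
    rintro _ ⟨m, hm, rfl⟩
    exact gen_comm_mem hM htD m hm
  have htne : (cm hM (t : S) : Subgroup S) ≠ ⊥ := by
    intro h
    apply hπt1
    rw [hπ1, mem_centralizer_iff]
    intro m hm
    have h1 : (t : S) * m * (t : S)⁻¹ * m⁻¹ ∈ cm hM (t : S) := comm_mem_cm hM hm
    rw [h, mem_bot, mul_inv_eq_one] at h1
    exact (mul_inv_eq_iff_eq_mul.mp h1).symm
  have hct : Nat.card ↥(cm hM (t : S)) = 2 ^ 3 := by
    have h1 : Nat.card ↥(cm hM (t : S)) ∣ 2 ^ n := by rw [← hn]; exact Subgroup.card_dvd_of_le htU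
    obtain ⟨k, hk, hk2⟩ := (Nat.dvd_prime_pow Nat.prime_two).mp h1
    have h2 : 7 ∣ Nat.card ↥(cm hM (t : S)) - 1 := card_modEq hM (by norm_num) ht7C le_rfl
      (fun u hu => conj_mem_cm_of_comm hM (y := (t : S)) (y' := (t : S)) (by rw [commutatorElement_self]; exact one_mem _) hu)
    have h3 : 1 < Nat.card ↥(cm hM (t : S)) := (Subgroup.one_lt_card_iff_ne_bot _).mpr htne
    rw [hk2] at h2 h3 ⊢
    have h4 : k = 0 ∨ k = 1 ∨ k = 2 ∨ k = 3 ∨ k = 4 := by omega
    rcases h4 with rfl | rfl | rfl | rfl | rfl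
    · omega
    · omega
    · omega
    · rfl
    · omega
  refine ⟨t, htp, ht7C, hct, ?_⟩
  -- `[M, x] ≤ [M, t]`
  have hrelmul : 2 ^ 3 * (cm hM (t : S) : Subgroup S).relIndex (cm hM x ⊔ cm hM y) = 2 ^ n := by
    rw [← hct, ← hn]
    have := Subgroup.relIndex_mul_relIndex ⊥ (cm hM (t : S)) (cm hM x ⊔ cm hM y) bot_le htU
    rwa [Subgroup.relIndex_bot_left, Subgroup.relIndex_bot_left] at this
  have hrel2 : (cm hM (t : S) : Subgroup S).relIndex (cm hM x ⊔ cm hM y) ≤ 2 := by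
    by_contra h
    push Not at h
    have h2 : 2 ^ 3 * 3 ≤ 2 ^ 3 * (cm hM (t : S) : Subgroup S).relIndex (cm hM x ⊔ cm hM y) := Nat.mul_le_mul_left _ h
    have h3 : 2 ^ n ≤ 2 ^ 4 := Nat.pow_le_pow_right (by norm_num) hn4
    omega
  have htriv : ∀ u ∈ cm hM x ⊔ cm hM y, x * u * x⁻¹ * u⁻¹ ∈ cm hM (t : S) := by
    intro u hu
    have hxN := mem_normalizer_iff.mp (hDN ⟨x, hxD⟩)
    have hxu : x * u * x⁻¹ ∈ cm hM x ⊔ cm hM y :=
      (mem_normalizer_iff.mp (gen_le_normalizer hM x y (subset_closure (by simp))) u).mp hu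
    have h0 : (cm hM (t : S) : Subgroup S).relIndex (cm hM x ⊔ cm hM y) ≠ 0 := by
      intro h
      rw [h, mul_zero] at hrelmul
      exact absurd hrelmul.symm (by positivity)
    have h1 : (cm hM (t : S) : Subgroup S).relIndex (cm hM x ⊔ cm hM y) = 1 ∨
        (cm hM (t : S) : Subgroup S).relIndex (cm hM x ⊔ cm hM y) = 2 := by omega
    rcases h1 with h1 | h1
    · rw [Subgroup.relIndex_eq_one] at h1
      exact mul_mem (h1 hxu) (inv_mem (h1 hu))
    · have h2 := Subgroup.mul_mem_iff_of_index_two (H := (cm hM (t : S) : Subgroup S).subgroupOf (cm hM x ⊔ cm hM y))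
        h1 (a := ⟨x * u * x⁻¹, hxu⟩) (b := ⟨u⁻¹, inv_mem hu⟩)
      simp only [mem_subgroupOf] at h2
      have h3 : x * u * x⁻¹ * u⁻¹ ∈ cm hM (t : S) ↔ (x * u * x⁻¹ ∈ cm hM (t : S) ↔ u⁻¹ ∈ cm hM (t : S)) := h2
      rw [h3, inv_mem_iff]
      exact (hxN u).symm
  have hinf : cm hM x ⊓ cm hM (t : S) = cm hM x := by
    apply eq_cm_of_le hM (r := 3) (by norm_num) hx (by rw [hcx]) inf_le_left
    · intro u hu
      exact ⟨conj_mem_cm_of_comm hM (y := x) (y' := x) (by rw [commutatorElement_self]; exact one_mem _) hu.1,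
        (mem_normalizer_iff.mp (hDN ⟨x, hxD⟩) u).mp hu.2⟩
    · intro hbot
      have h1 : (cm hM x : Subgroup S) = ⊥ := by
        rw [eq_bot_iff]
        intro u hu
        rw [mem_bot]
        apply eq_one_of_commute hM (r := 3) (by decide) hx hu
        have h2 : x * u * x⁻¹ * u⁻¹ ∈ cm hM x ⊓ cm hM (t : S) :=
          ⟨comm_mem_cm hM (cm_le hM x hu), htriv u (mem_sup_left hu)⟩
        rw [hbot, mem_bot, mul_inv_eq_one] at h2
        exact h2
      rw [h1, Subgroup.card_bot] at hcx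
      omega
  rw [← hinf]
  exact inf_le_right

end Cfsg.Agent.H585.Seven
end

-- part: S4404
section
set_option autoImplicit false
open Cfsg

namespace Cfsg.Agent.S4404

open Subgroup Cfsg.Agent.H585.ModTwo Cfsg.Agent.H585.RankB Cfsg.Agent.H585.MoveFour Cfsg.Agent.H585.Seven
open scoped commutatorElement Pointwise

theorem hall_pair {S : Type*} [Group S] [Finite S] [Group.IsSolvable S] {m n : ℕ} (hS : Nat.card S = m * n)
    (hmn : m.Coprime n) (Q E : Subgroup S) (hQ : (Nat.card ↥Q).Coprime n) (hE : (Nat.card ↥E).Coprime n) :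
    ∃ (H : Subgroup S) (g : S), Nat.card ↥H = m ∧ Q ≤ H ∧ E.map (MulAut.conj g).toMonoidHom ≤ H := by
  obtain ⟨H, hH, hQH⟩ := Cfsg.Agent.S0005.result m n hS hmn Q hQ
  obtain ⟨H', hH', hEH⟩ := Cfsg.Agent.S0005.result m n hS hmn E hE
  obtain ⟨g, hg⟩ := Cfsg.Agent.S0004.result m n hS hmn H' H hH' hH
  refine ⟨H, g, hH, hQH, ?_⟩
  rw [← hg]
  exact Subgroup.map_mono hEH

theorem elem_conj {S : Type*} [Group S] [Finite S] {p : ℕ} {E : Subgroup S} (hE : Cfsg.IsElementaryAbelian p E)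
    (hE3 : Nat.card ↥E = p ^ 3) (g : S) : Cfsg.IsElementaryAbelian p (E.map (MulAut.conj g).toMonoidHom) ∧
      Nat.card ↥(E.map (MulAut.conj g).toMonoidHom) = p ^ 3 := by
  refine ⟨elem_map hE _, ?_⟩
  rw [Subgroup.card_map_of_injective (MulEquiv.injective (MulAut.conj g)), hE3]

theorem closure_comm {S : Type*} [Group S] {M : Subgroup S} (hM : Hyp M) (x : S) :
    ⁅zpowers x, M⁆ = cm hM x := by
  apply le_antisymm
  · rw [Subgroup.commutator_le]
    intro q hq m hm
    obtain ⟨k, rfl⟩ := mem_zpowers_iff.mp hq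
    exact cm_zpow_le hM x k ⟨m, hm, by rw [commutatorElement_def]⟩
  · rintro _ ⟨m, hm, rfl⟩
    have := Subgroup.commutator_mem_commutator (mem_zpowers x) hm
    rwa [commutatorElement_def] at this

/-- Let S be a finite solvable group and M a normal elementary abelian 2-subgroup of S. Suppose S contains an elementary abelian subgroup of order p³ for some odd prime p, and a cyclic 3-subgroup Q such that the cubes of the elements of Q centralize M and the commutator subgroup [Q, M] has order 4 (a four-group inside M). Then S contains an elementary abelian subgroup F of order r³, for some odd prime r, whose centralizer of [Q, M] in F — the subgroup C_F([Q, M]) — is not cyclic. -/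
theorem result {S : Type*} [Group S] [Finite S]
    [Group.IsSolvable S] (M : Subgroup S) [M.Normal] (hM : Cfsg.IsElementaryAbelian 2 M)
    (p : ℕ) (hp : p.Prime) (hp2 : p ≠ 2) (E : Subgroup S) (hE : Cfsg.IsElementaryAbelian p E) (hE3 : Nat.card ↥E = p ^ 3)
    (Q : Subgroup S) (hQc : IsCyclic ↥Q) (hQ3 : IsPGroup 3 ↥Q)
    (hQ1 : ∀ x ∈ Q, x ^ 3 ∈ Subgroup.centralizer (M : Set S)) (hQM : Nat.card ↥⁅Q, M⁆ = 4) :
    ∃ (r : ℕ) (F : Subgroup S), r.Prime ∧ r ≠ 2 ∧ Cfsg.IsElementaryAbelian r F ∧ Nat.card ↥F = r ^ 3 ∧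
      ¬ IsCyclic ↥(F ⊓ Subgroup.centralizer ((⁅Q, M⁆ : Subgroup S) : Set S)) := by
  obtain ⟨x, hxQ⟩ : ∃ x, Q = zpowers x := by
    obtain ⟨g, hg⟩ := hQc.exists_generator
    refine ⟨g, le_antisymm ?_ ?_⟩
    · intro q hq
      obtain ⟨k, hk⟩ := mem_zpowers_iff.mp (hg ⟨q, hq⟩)
      exact mem_zpowers_iff.mpr ⟨k, by simpa using congrArg Subtype.val hk⟩
    · rw [zpowers_le]; exact g.2
  subst hxQ
  have hMn : M.Normal := inferInstance
  have H0 : Hyp M := ⟨inferInstance, Cfsg.Agent.Omega.Sec.Basic.comm_of hM.1, fun a ha => by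
    have := hM.2 a ha
    rwa [pow_two] at this⟩
  rw [closure_comm H0] at hQM ⊢
  have hCn : (centralizer (M : Set S)).Normal := inferInstance
  have hx3 : x ^ 3 ∈ centralizer (M : Set S) := hQ1 x (mem_zpowers x)
  have hf3 : Fact (Nat.Prime 3) := ⟨Nat.prime_three⟩
  have hfp : Fact p.Prime := ⟨hp⟩
  have hSpos : Nat.card S ≠ 0 := Nat.card_pos.ne'
  obtain ⟨c, hc⟩ := (IsPGroup.iff_card).1 hQ3
  obtain ⟨a, N1, hN1, hSN⟩ := Nat.exists_eq_pow_mul_and_not_dvd hSpos 3 (by norm_num)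
  have hcp3 : Nat.Coprime 3 N1 := Nat.prime_three.coprime_iff_not_dvd.mpr hN1
  rcases eq_or_ne p 3 with rfl | hp3
  · obtain ⟨P, g, hP, hxP, hEP⟩ := hall_pair hSN (Nat.Coprime.pow_left a hcp3) (zpowers x) E
      (by rw [hc]; exact Nat.Coprime.pow_left c hcp3) (by rw [hE3]; exact Nat.Coprime.pow_left 3 hcp3)
    obtain ⟨hE', hE3'⟩ := elem_conj hE hE3 g
    obtain ⟨F, hF1, hF2, hF3⟩ := case3 H0 (IsPGroup.of_card hP) (hxP (mem_zpowers x)) hx3 hQM hEP hE' hE3'
    exact ⟨3, F, hp, hp2, hF1, hF2, hF3⟩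
  have hp5 : 5 ≤ p := by
    have h2 := hp.two_le
    by_contra h
    have : p = 4 := by omega
    rw [this] at hp
    revert hp; decide
  have hN1pos : N1 ≠ 0 := by
    rintro rfl
    exact hN1 (dvd_zero 3)
  obtain ⟨b, n, hn, hNn⟩ := Nat.exists_eq_pow_mul_and_not_dvd hN1pos p hp.one_lt.ne'
  have hcpn : Nat.Coprime p n := hp.coprime_iff_not_dvd.mpr hn
  have hc3n : Nat.Coprime 3 n := Nat.Coprime.coprime_dvd_right ⟨p ^ b, by rw [mul_comm]; exact hNn⟩ hcp3
  have hSm : Nat.card S = (3 ^ a * p ^ b) * n := by rw [hSN, hNn]; ring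
  obtain ⟨H, g, hH, hxH, hEH⟩ := hall_pair hSm
    (Nat.Coprime.mul_left (Nat.Coprime.pow_left a hc3n) (Nat.Coprime.pow_left b hcpn)) (zpowers x) E
      (by rw [hc]; exact Nat.Coprime.pow_left c hc3n) (by rw [hE3]; exact Nat.Coprime.pow_left 3 hcpn)
  rw [zpowers_le] at hxH
  obtain ⟨hE', hE3'⟩ := elem_conj hE hE3 g
  have hrd3 : RD 3 2 := Or.inl ⟨rfl, rfl⟩
  by_cases hcomm : ∀ h ∈ H, ⁅x, h * x * h⁻¹⁆ ∈ centralizer (M : Set S)
  · by_cases hEN : E.map (MulAut.conj g).toMonoidHom ≤ normalizer ((cm H0 x : Subgroup S) : Set S)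
    · refine ⟨p, _, hp, hp2, hE', hE3', ?_⟩
      have h1 := relIndex_centralizer_dvd hEN
      rw [card_mulAut (fun a ha b hb => H0.comm a (cm_le H0 x ha) b (cm_le H0 x hb))
        (fun a ha => H0.sq a (cm_le H0 x ha)) (n := 2) hQM, gl_two] at h1
      have h2 : (centralizer ((cm H0 x : Subgroup S) : Set S)).relIndex (E.map (MulAut.conj g).toMonoidHom) ∣ p ^ 3 := by
        rw [← hE3']; exact Subgroup.relIndex_dvd_card _ _
      have h3 : Nat.Coprime (p ^ 3) 6 := by
        apply Nat.Coprime.pow_left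
        have : (6 : ℕ) = 2 * 3 := by norm_num
        rw [this]
        apply Nat.Coprime.mul_right
        · rw [Nat.coprime_primes hp Nat.prime_two]; exact hp2
        · rw [Nat.coprime_primes hp Nat.prime_three]; exact hp3
      have h4 := Nat.eq_one_of_dvd_coprimes h3 h2 h1
      rw [Subgroup.relIndex_eq_one] at h4
      rw [inf_eq_left.mpr h4]
      apply not_isCyclic_of (r := p) (fun w hw => hE'.2 w hw)
      rw [hE3']
      exact Nat.pow_le_pow_right hp.pos (by norm_num)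
    · obtain ⟨e, heE, heN⟩ := SetLike.not_le_iff_exists.mp hEN
      obtain ⟨F, _, hF1, hF2, hF3⟩ := four_of_large H0 hrd3 H hQ3 hx3 hQM hxH hcomm hp hp5 (hEH heE)
        (hE'.2 e heE) heN
      exact ⟨3, F, Nat.prime_three, by norm_num, hF1, hF2, hF3⟩
  · push Not at hcomm
    obtain ⟨h, hhH, hh⟩ := hcomm
    have hD : Nat.card ↥(closure ({x, h * x * h⁻¹} : Set S)) ∣ 3 ^ a * p ^ b := by
      rw [← hH]
      apply Subgroup.card_dvd_of_le
      rw [closure_le]
      rintro w hw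
      simp only [Set.mem_insert_iff, Set.mem_singleton_iff] at hw
      rcases hw with rfl | rfl
      · exact hxH
      · exact mul_mem (mul_mem hhH hxH) (inv_mem hhH)
    obtain ⟨rfl, t, htp, ht7, hct, hxt⟩ := exists_seven H0 hp hp5 hD hx3
      (by rw [conj_pow]; exact hCn.conj_mem _ hx3 _) hQM (by rw [card_cm_conj]; exact hQM) hh
    have hrd7 : RD 7 3 := Or.inr ⟨rfl, rfl⟩
    obtain ⟨c', hc'⟩ := (IsPGroup.iff_card).1 htp
    obtain ⟨b', n', hn', hSn'⟩ := Nat.exists_eq_pow_mul_and_not_dvd hSpos 7 (by norm_num)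
    have hcp7 : Nat.Coprime 7 n' := hp.coprime_iff_not_dvd.mpr hn'
    obtain ⟨P, g', hP, htP, hEP⟩ := hall_pair hSn' (Nat.Coprime.pow_left b' hcp7) (zpowers t) E
      (by rw [hc']; exact Nat.Coprime.pow_left c' hcp7) (by rw [hE3]; exact Nat.Coprime.pow_left 3 hcp7)
    rw [zpowers_le] at htP
    have hPp : IsPGroup 7 ↥P := IsPGroup.of_card hP
    obtain ⟨hE'', hE3''⟩ := elem_conj hE hE3 g'
    have hfinal : ∃ F : Subgroup S, Cfsg.IsElementaryAbelian 7 F ∧ Nat.card ↥F = 7 ^ 3 ∧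
        ¬ IsCyclic ↥(F ⊓ centralizer ((cm H0 t : Subgroup S) : Set S)) := by
      by_cases hEN : E.map (MulAut.conj g').toMonoidHom ≤ normalizer ((cm H0 t : Subgroup S) : Set S)
      · exact ⟨_, hE'', hE3'', noncyclic_of H0 hrd7 hE'' hE3'' (cm_le H0 t) hct hEN⟩
      · obtain ⟨e, heE, heN⟩ := SetLike.not_le_iff_exists.mp hEN
        obtain ⟨F, _, hF⟩ := four_of_large H0 hrd7 P htp ht7 hct htP (comm_conj_of_pgroup H0 hrd7 hPp htP hct) hp
          (by norm_num) (hEP heE) (hE''.2 e heE) heN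
        exact ⟨F, hF⟩
    obtain ⟨F, hF1, hF2, hF3⟩ := hfinal
    refine ⟨7, F, hp, hp2, hF1, hF2, ?_⟩
    intro hcyc
    apply hF3
    have hle : F ⊓ centralizer ((cm H0 t : Subgroup S) : Set S) ≤ F ⊓ centralizer ((cm H0 x : Subgroup S) : Set S) := by
      apply inf_le_inf_left
      exact Subgroup.centralizer_le hxt
    exact isCyclic_of_injective (inclusion hle) (inclusion_injective hle)

end Cfsg.Agent.S4404
end
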