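import Cfsg.Statements.S4408
import Cfsg.Agent.Lib.Cores
import Cfsg.Agent.S0044
import Cfsg.Agent.GH.C2GrowG
import Mathlib.GroupTheory.Index
import Mathlib.Algebra.BigOperators.Fin
set_option linter.all false

set_option autoImplicit false
open Cfsg Subgroup

namespace Cfsg.Agent.S4408

variable {G : Type*} [Group G]

/-- The subgroup of elements of `E` fixed by `t`. -/
def fx (E : Subgroup G) (t : G) : Subgroup G := E ⊓ centralizer {t}

theorem mem_fx {E : Subgroup G} {t x : G} : x ∈ fx E t ↔ x ∈ E ∧ t * x * t⁻¹ = x := by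
  unfold fx
  rw [mem_inf, mem_centralizer_iff]
  constructor
  · rintro ⟨h1, h2⟩
    refine ⟨h1, ?_⟩
    rw [h2 t rfl]; group
  · rintro ⟨h1, h2⟩
    refine ⟨h1, ?_⟩
    rintro k hk
    obtain rfl : k = t := hk
    nth_rewrite 2 [← h2]; group

/-- An involution acting on a group of odd order: `x = c * d` with `c` fixed, `d` inverted. -/
theorem split [Finite G] (E : Subgroup G) (hodd : Odd (Nat.card ↥E)) (t : G) (ht : t * t = 1)
    (htE : ∀ x ∈ E, t * x * t⁻¹ ∈ E) (x : G) (hx : x ∈ E) :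
    ∃ c ∈ E, ∃ d ∈ E, x = c * d ∧ t * c * t⁻¹ = c ∧ t * d * t⁻¹ = d⁻¹ := by
  have htinv : t⁻¹ = t := inv_eq_of_mul_eq_one_right ht
  obtain ⟨y, hy⟩ : ∃ y, y = x⁻¹ * (t * x * t⁻¹) := ⟨_, rfl⟩
  have hyE : y ∈ E := by rw [hy]; exact E.mul_mem (E.inv_mem hx) (htE x hx)
  have hty : t * y * t⁻¹ = y⁻¹ := by
    rw [hy]
    have e : t * (x⁻¹ * (t * x * t⁻¹)) * t⁻¹ = t * x⁻¹ * t * x * (t * t)⁻¹ := by group
    rw [e, ht, inv_one, mul_one]
    have e2 : (x⁻¹ * (t * x * t⁻¹))⁻¹ = t * x⁻¹ * t⁻¹ * x := by group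
    rw [e2, htinv]
  have hyo : Odd (orderOf y) := by
    have h1 : orderOf (⟨y, hyE⟩ : ↥E) = orderOf y := Subgroup.orderOf_mk y hyE
    rw [← h1]
    exact Odd.of_dvd_nat hodd (orderOf_dvd_natCard _)
  obtain ⟨m, hm⟩ := hyo
  obtain ⟨z, hz⟩ : ∃ z, z = y ^ (m + 1) := ⟨_, rfl⟩
  have hzz : z * z = y := by
    rw [hz, ← pow_add]
    have e : m + 1 + (m + 1) = (2 * m + 1) + 1 := by ring
    rw [e, pow_succ, ← hm, pow_orderOf_eq_one, one_mul]
  have htz : t * z * t⁻¹ = z⁻¹ := by
    rw [hz, ← conj_pow, hty, inv_pow]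
  have hzE : z ∈ E := by rw [hz]; exact E.pow_mem hyE _
  refine ⟨x * z, E.mul_mem hx hzE, z⁻¹, E.inv_mem hzE, by group, ?_, ?_⟩
  · have e1 : t * x * t⁻¹ = x * y := by rw [hy]; group
    have e2 : t * (x * z) * t⁻¹ = (t * x * t⁻¹) * (t * z * t⁻¹) := by group
    rw [e2, e1, htz, ← hzz]; group
  · have e2 : t * z⁻¹ * t⁻¹ = (t * z * t⁻¹)⁻¹ := by group
    rw [e2, htz]

/-- Minimal invariant subgroups of `C` modulo a centralised `A`: every `t ∈ I` acts trivially or
by inversion modulo `A`. -/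
theorem exists_min [Finite G] (I A C : Subgroup G) (hI : Cfsg.IsElementaryAbelian 2 I)
    (hIC : I ≤ normalizer (C : Set G)) (hCA : ¬ C ≤ A) (hcen : ∀ a ∈ A, ∀ c ∈ C, c * a = a * c)
    (hodd : Odd (Nat.card ↥C)) :
    ∃ E : Subgroup G, E ≤ C ∧ ¬ E ≤ A ∧ I ≤ normalizer (E : Set G) ∧
      (∀ E' : Subgroup G, E' ≤ E → I ≤ normalizer (E' : Set G) → ¬ E' ≤ A → E ≤ E') ∧
      ∀ t ∈ I, ∀ x ∈ E, t * x * t⁻¹ = x ∨ t * x * t⁻¹ * x ∈ A ∧ (A = ⊥ → t * x * t⁻¹ = x⁻¹) := by
  obtain ⟨E, hE⟩ := (Set.toFinite {E : Subgroup G | E ≤ C ∧ ¬ E ≤ A ∧ I ≤ normalizer (E : Set G)}).exists_minimal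
    ⟨C, le_refl _, hCA, hIC⟩
  obtain ⟨⟨hEC, hEA, hIE⟩, hmin⟩ := hE
  have hmin' : ∀ E' : Subgroup G, E' ≤ E → I ≤ normalizer (E' : Set G) → ¬ E' ≤ A → E ≤ E' := by
    intro E' h1 h2 h3
    exact hmin (y := E') ⟨h1.trans hEC, h3, h2⟩ h1
  refine ⟨E, hEC, hEA, hIE, hmin', ?_⟩
  have hcomm : ∀ x ∈ I, ∀ y ∈ I, x * y = y * x := by
    intro x hx y hy
    have := hI.1.is_comm.comm (⟨x, hx⟩ : ↥I) ⟨y, hy⟩
    exact congrArg Subtype.val this
  have hsq : ∀ x ∈ I, x * x = 1 := by
    intro x hx; have := hI.2 x hx; rwa [pow_two] at this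
  have hoddE : Odd (Nat.card ↥E) := Odd.of_dvd_nat hodd (card_dvd_of_le hEC)
  have hIE' := le_normalizer_iff.mp hIE
  intro t ht x hx
  by_cases hf : fx E t ≤ A
  · right
    obtain ⟨c, hc, d, hd, hxcd, htc, htd⟩ := split E hoddE t (hsq t ht) (hIE' t ht) x hx
    have hcA : c ∈ A := hf (mem_fx.mpr ⟨hc, htc⟩)
    have e : t * x * t⁻¹ = c * d⁻¹ := by
      have e1 : t * x * t⁻¹ = (t * c * t⁻¹) * (t * d * t⁻¹) := by rw [hxcd]; group
      rw [e1, htc, htd]
    refine ⟨?_, ?_⟩
    · have e2 : t * x * t⁻¹ * x = c * c := by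
        rw [e, hxcd]
        have h1 := hcen c hcA d⁻¹ (C.inv_mem (hEC hd))
        calc c * d⁻¹ * (c * d) = c * (d⁻¹ * c) * d := by group
          _ = c * (c * d⁻¹) * d := by rw [h1]
          _ = c * c := by group
      rw [e2]
      exact A.mul_mem hcA hcA
    · intro hA
      rw [hA, mem_bot] at hcA
      rw [e, hxcd, hcA]; group
  · left
    have h1 : E ≤ fx E t := by
      refine hmin' _ inf_le_left ?_ hf
      rw [le_normalizer_iff]
      intro s hs k hk
      rw [mem_fx] at hk ⊢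
      refine ⟨hIE' s hs k hk.1, ?_⟩
      have e : t * (s * k * s⁻¹) * t⁻¹ = s * (t * k * t⁻¹) * s⁻¹ := by
        have h2 := hcomm t ht s hs
        calc t * (s * k * s⁻¹) * t⁻¹ = (t * s) * k * (t * s)⁻¹ := by group
          _ = (s * t) * k * (s * t)⁻¹ := by rw [h2]
          _ = s * (t * k * t⁻¹) * s⁻¹ := by group
      rw [e, hk.2]
    exact (mem_fx.mp (h1 hx)).2

theorem sq_one_odd [Finite G] (E : Subgroup G) (hodd : Odd (Nat.card ↥E)) (x : G) (hx : x ∈ E)
    (h : x * x = 1) : x = 1 := by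
  have h1 : (⟨x, hx⟩ : ↥E) ^ 2 = 1 := by
    ext1; push_cast; rw [pow_two]; exact h
  have h2 : orderOf (⟨x, hx⟩ : ↥E) ∣ 2 := orderOf_dvd_of_pow_eq_one h1
  have h3 : orderOf (⟨x, hx⟩ : ↥E) ∣ Nat.card ↥E := orderOf_dvd_natCard _
  have h4 : Nat.Coprime 2 (Nat.card ↥E) := by
    rw [Nat.coprime_two_left]; exact hodd
  have h5 := Nat.eq_one_of_dvd_coprimes h4 h2 h3
  rw [orderOf_eq_one_iff] at h5
  exact congrArg Subtype.val h5

/-- An elementary abelian `2`-group acting faithfully on a nilpotent group of odd order acts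
faithfully on some abelian invariant subgroup. -/
theorem exists_abelian [Finite G] (I F : Subgroup G) (hI : Cfsg.IsElementaryAbelian 2 I)
    (hIF : I ≤ normalizer (F : Set G)) (hnil : Group.IsNilpotent ↥F) (hodd : Odd (Nat.card ↥F))
    (hfaith : ∀ t ∈ I, (∀ x ∈ F, t * x * t⁻¹ = x) → t = 1) :
    ∃ A : Subgroup G, A ≤ F ∧ I ≤ normalizer (A : Set G) ∧ (∀ x ∈ A, ∀ y ∈ A, x * y = y * x) ∧
      ∀ t ∈ I, (∀ x ∈ A, t * x * t⁻¹ = x) → t = 1 := by
  have hsq : ∀ x ∈ I, x * x = 1 := by
    intro x hx; have := hI.2 x hx; rwa [pow_two] at this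
  obtain ⟨A, hA⟩ := (Set.toFinite {A : Subgroup G | A ≤ F ∧ I ≤ normalizer (A : Set G) ∧
    (∀ x ∈ A, ∀ y ∈ A, x * y = y * x)}).exists_maximal ⟨⊥, bot_le, by
      rw [le_normalizer_iff]; intro h _ k hk; rw [mem_bot] at hk ⊢; rw [hk]; group, by
      intro x hx y hy; rw [mem_bot] at hx hy; rw [hx, hy]⟩
  obtain ⟨⟨hAF, hIA, hAab⟩, hmax⟩ := hA
  have hIA' := le_normalizer_iff.mp hIA
  have hIF' := le_normalizer_iff.mp hIF
  -- C_F(A) ≤ A
  have hCA : F ⊓ centralizer (A : Set G) ≤ A := by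
    by_contra hCA
    have hIC : I ≤ normalizer ((F ⊓ centralizer (A : Set G) : Subgroup G) : Set G) := by
      rw [le_normalizer_iff]
      intro t ht k hk
      obtain ⟨hk1, hk2⟩ := mem_inf.mp hk
      rw [mem_centralizer_iff] at hk2
      refine mem_inf.mpr ⟨hIF' t ht k hk1, mem_centralizer_iff.mpr ?_⟩
      intro a ha
      have h1 := hk2 (t⁻¹ * a * t) (by
        have := hIA' t⁻¹ (I.inv_mem ht) a ha
        rwa [inv_inv] at this)
      calc a * (t * k * t⁻¹) = t * ((t⁻¹ * a * t) * k) * t⁻¹ := by group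
        _ = t * (k * (t⁻¹ * a * t)) * t⁻¹ := by rw [h1]
        _ = t * k * t⁻¹ * a := by group
    obtain ⟨E, hEC, hEA, hIE, _, hE⟩ := exists_min I A (F ⊓ centralizer (A : Set G)) hI hIC hCA
      (by
        rintro a ha c ⟨_, hc⟩
        exact (mem_centralizer_iff.mp hc a ha).symm)
      (Odd.of_dvd_nat hodd (card_dvd_of_le inf_le_left))
    obtain ⟨x, hxE, hxA⟩ := SetLike.not_le_iff_exists.mp hEA
    have hxc : ∀ a ∈ A, a * x = x * a := fun a ha => mem_centralizer_iff.mp (hEC hxE).2 a ha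
    have hxF : x ∈ F := (hEC hxE).1
    have hB : A ⊔ zpowers x ≤ A := by
      apply hmax (y := A ⊔ zpowers x)
      · refine ⟨sup_le hAF (by rwa [zpowers_le]), ?_, ?_⟩
        · have e : A ⊔ zpowers x = closure ((A : Set G) ∪ {x}) := by
            rw [Subgroup.closure_union, Subgroup.closure_eq, zpowers_eq_closure]
          rw [e, le_normalizer_closure_iff]
          rintro t ht g (hg | hg)
          · exact subset_closure (Or.inl (hIA' t ht g hg))
          · obtain rfl : g = x := hg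
            have hA' : A ≤ closure ((A : Set G) ∪ {g}) := by
              intro y hy; exact subset_closure (Or.inl hy)
            have hg' : g ∈ closure ((A : Set G) ∪ {g}) := subset_closure (Or.inr rfl)
            rcases hE t ht g hxE with h | ⟨h, _⟩
            · rw [h]; exact hg'
            · have := (closure ((A : Set G) ∪ {g})).mul_mem (hA' h) (Subgroup.inv_mem _ hg')
              simpa using this
        · have h1 : A ⊔ zpowers x ≤ centralizer ((A ⊔ zpowers x : Subgroup G) : Set G) := by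
            have hx1 : A ⊔ zpowers x ≤ centralizer (A : Set G) := by
              apply sup_le
              · intro a ha
                rw [mem_centralizer_iff]
                intro b hb
                exact hAab b hb a ha
              · rw [zpowers_le, mem_centralizer_iff]
                exact hxc
            have hx2 : A ⊔ zpowers x ≤ centralizer (zpowers x : Set G) := by
              apply sup_le
              · rw [le_centralizer_iff, zpowers_le, mem_centralizer_iff]
                exact hxc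
              · rw [zpowers_le, mem_centralizer_iff]
                rintro _ ⟨k, rfl⟩
                simp only
                exact (Commute.refl x).zpow_left k
            rw [le_centralizer_iff]
            apply sup_le
            · rw [le_centralizer_iff]; exact hx1
            · rw [le_centralizer_iff]; exact hx2
          intro y hy z hz
          exact (mem_centralizer_iff.mp (h1 hz) y hy)
      · exact le_sup_left
    exact hxA (hB ((le_sup_right : zpowers x ≤ A ⊔ zpowers x) (mem_zpowers x)))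
  refine ⟨A, hAF, hIA, hAab, ?_⟩
  intro t ht htA
  apply hfaith t ht
  -- N := C_F(t) is self-normalising in F
  let N : Subgroup ↥F := (fx F t).subgroupOf F
  have hN : N = ⊤ := by
    have hnc : NormalizerCondition ↥F := Group.normalizerCondition_of_isNilpotent
    rw [normalizerCondition_iff_only_full_group_self_normalizing] at hnc
    apply hnc
    apply le_antisymm _ le_normalizer
    rintro ⟨f, hf⟩ hfN
    rw [mem_subgroupOf, mem_fx]
    refine ⟨hf, ?_⟩
    change t * f * t⁻¹ = f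
    have hAN : ∀ a ∈ A, t * a * t⁻¹ = a := htA
    -- [t, f] centralises A
    have h1 : t * f * t⁻¹ * f⁻¹ ∈ A := by
      apply hCA
      refine mem_inf.mpr ⟨F.mul_mem (hIF' t ht f hf) (F.inv_mem hf), mem_centralizer_iff.mpr ?_⟩
      intro a ha
      have hfi : (⟨f, hf⟩ : ↥F)⁻¹ ∈ normalizer (N : Set ↥F) := Subgroup.inv_mem _ hfN
      have ha' : (⟨a, hAF ha⟩ : ↥F) ∈ N := by
        rw [mem_subgroupOf, mem_fx]
        exact ⟨hAF ha, htA a ha⟩
      have h2 := (mem_normalizer_iff.mp hfi _).mp ha'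
      rw [inv_inv, mem_subgroupOf, mem_fx] at h2
      have h3 : t * (f⁻¹ * a * f) * t⁻¹ = f⁻¹ * a * f := h2.2
      have h4 : (t * f * t⁻¹ * f⁻¹)⁻¹ * a * (t * f * t⁻¹ * f⁻¹) = a := by
        have h5 : t⁻¹ * a * t = a := by
          have := htA a ha
          calc t⁻¹ * a * t = t⁻¹ * (t * a * t⁻¹) * t := by rw [this]
            _ = a := by group
        calc (t * f * t⁻¹ * f⁻¹)⁻¹ * a * (t * f * t⁻¹ * f⁻¹)
            = f * (t * (f⁻¹ * (t⁻¹ * a * t) * f) * t⁻¹) * f⁻¹ := by group
          _ = f * (t * (f⁻¹ * a * f) * t⁻¹) * f⁻¹ := by rw [h5]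
          _ = f * (f⁻¹ * a * f) * f⁻¹ := by rw [h3]
          _ = a := by group
      calc a * (t * f * t⁻¹ * f⁻¹) = (t * f * t⁻¹ * f⁻¹) * ((t * f * t⁻¹ * f⁻¹)⁻¹ * a * (t * f * t⁻¹ * f⁻¹)) := by group
        _ = (t * f * t⁻¹ * f⁻¹) * a := by rw [h4]
    obtain ⟨a, ha⟩ : ∃ a, a = t * f * t⁻¹ * f⁻¹ := ⟨_, rfl⟩
    rw [← ha] at h1
    have h2 : t * f * t⁻¹ = a * f := by rw [ha]; group
    have h3 : f = a * (a * f) := by
      calc f = (t * t) * f * (t * t)⁻¹ := by rw [hsq t ht]; group
        _ = t * (t * f * t⁻¹) * t⁻¹ := by group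
        _ = t * (a * f) * t⁻¹ := by rw [h2]
        _ = (t * a * t⁻¹) * (t * f * t⁻¹) := by group
        _ = a * (a * f) := by rw [htA a h1, h2]
    have h4 : a * a = 1 := by
      have : a * a * f = 1 * f := by rw [one_mul, mul_assoc]; exact h3.symm
      exact mul_right_cancel this
    have h5 := sq_one_odd A (Odd.of_dvd_nat hodd (card_dvd_of_le hAF)) a h1 h4
    rw [h2, h5, one_mul]
  intro x hx
  have h1 : (⟨x, hx⟩ : ↥F) ∈ N := by rw [hN]; trivial
  rw [mem_subgroupOf, mem_fx] at h1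
  exact h1.2

/-- An element `j` of `I` moving `A` moves an invariant subgroup of prime order of `A`. -/
theorem exists_prime_sub [Finite G] (I A : Subgroup G) (hI : Cfsg.IsElementaryAbelian 2 I)
    (hIA : I ≤ normalizer (A : Set G)) (hab : ∀ x ∈ A, ∀ y ∈ A, x * y = y * x)
    (hodd : Odd (Nat.card ↥A)) (j : G) (hj : j ∈ I) (hjA : ∃ a ∈ A, j * a * j⁻¹ ≠ a) :
    ∃ E : Subgroup G, E ≤ A ∧ (Nat.card ↥E).Prime ∧ I ≤ normalizer (E : Set G) ∧
      (∀ t ∈ I, (∀ x ∈ E, t * x * t⁻¹ = x) ∨ (∀ x ∈ E, t * x * t⁻¹ = x⁻¹)) ∧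
      (∀ x ∈ E, j * x * j⁻¹ = x⁻¹) := by
  have hcomm : ∀ x ∈ I, ∀ y ∈ I, x * y = y * x := by
    intro x hx y hy
    have := hI.1.is_comm.comm (⟨x, hx⟩ : ↥I) ⟨y, hy⟩
    exact congrArg Subtype.val this
  have hsq : ∀ x ∈ I, x * x = 1 := by
    intro x hx; have := hI.2 x hx; rwa [pow_two] at this
  have hIA' := le_normalizer_iff.mp hIA
  let M : Subgroup G :=
    { carrier := {x | x ∈ A ∧ j * x * j⁻¹ = x⁻¹}
      one_mem' := ⟨A.one_mem, by group⟩
      mul_mem' := by
        rintro x y ⟨hx, hx'⟩ ⟨hy, hy'⟩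
        refine ⟨A.mul_mem hx hy, ?_⟩
        calc j * (x * y) * j⁻¹ = (j * x * j⁻¹) * (j * y * j⁻¹) := by group
          _ = x⁻¹ * y⁻¹ := by rw [hx', hy']
          _ = (y * x)⁻¹ := by group
          _ = (x * y)⁻¹ := by rw [hab x hx y hy]
      inv_mem' := by
        rintro x ⟨hx, hx'⟩
        refine ⟨A.inv_mem hx, ?_⟩
        calc j * x⁻¹ * j⁻¹ = (j * x * j⁻¹)⁻¹ := by group
          _ = x⁻¹⁻¹ := by rw [hx'] }
  have hMA : M ≤ A := fun x hx => hx.1
  have hM : ¬ M ≤ ⊥ := by
    obtain ⟨a, ha, haj⟩ := hjA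
    intro h
    have h1 : a⁻¹ * (j * a * j⁻¹) ∈ M := by
      refine ⟨A.mul_mem (A.inv_mem ha) (hIA' j hj a ha), ?_⟩
      have hjinv : j⁻¹ = j := inv_eq_of_mul_eq_one_right (hsq j hj)
      have e1 : j * (a⁻¹ * (j * a * j⁻¹)) * j⁻¹ = (j * a⁻¹ * j⁻¹) * ((j * j) * a * (j * j)⁻¹) := by group
      have e2 : (a⁻¹ * (j * a * j⁻¹))⁻¹ = (j * a⁻¹ * j⁻¹) * a := by group
      rw [e1, e2, hsq j hj]; group
    have h2 := mem_bot.mp (h h1)
    apply haj
    exact (inv_mul_eq_one.mp h2).symm
  have hIM : I ≤ normalizer (M : Set G) := by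
    rw [le_normalizer_iff]
    rintro t ht k ⟨hk1, hk2⟩
    refine ⟨hIA' t ht k hk1, ?_⟩
    calc j * (t * k * t⁻¹) * j⁻¹ = (j * t) * k * (j * t)⁻¹ := by group
      _ = (t * j) * k * (t * j)⁻¹ := by rw [hcomm j hj t ht]
      _ = t * (j * k * j⁻¹) * t⁻¹ := by group
      _ = t * k⁻¹ * t⁻¹ := by rw [hk2]
      _ = (t * k * t⁻¹)⁻¹ := by group
  obtain ⟨E, hEM, hEbot, hIE, hmin, hE⟩ := exists_min I ⊥ M hI hIM hM
    (by intro a ha c _; rw [mem_bot] at ha; rw [ha]; group)
    (Odd.of_dvd_nat hodd (card_dvd_of_le hMA))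
  have hEodd : Odd (Nat.card ↥E) := Odd.of_dvd_nat hodd (card_dvd_of_le (hEM.trans hMA))
  have hE' : ∀ t ∈ I, ∀ x ∈ E, t * x * t⁻¹ = x ∨ t * x * t⁻¹ = x⁻¹ := by
    intro t ht x hx
    rcases hE t ht x hx with h | ⟨_, h⟩
    · exact Or.inl h
    · exact Or.inr (h rfl)
  have hgen : ∀ x ∈ E, x ≠ 1 → E ≤ zpowers x := by
    intro x hx hx1
    refine hmin _ (by rwa [zpowers_le]) ?_ ?_
    · rw [le_normalizer_iff]
      rintro t ht _ ⟨k, rfl⟩
      simp only
      rw [← conj_zpow]
      rcases hE' t ht x hx with h | h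
      · rw [h]; exact ⟨k, rfl⟩
      · rw [h]; exact Subgroup.zpow_mem _ (Subgroup.inv_mem _ (mem_zpowers x)) _
    · rw [zpowers_le, mem_bot]; exact hx1
  obtain ⟨x, hx, hx1⟩ : ∃ x ∈ E, x ≠ 1 := by
    by_contra h
    push Not at h
    exact hEbot fun x hx => mem_bot.mpr (h x hx)
  have hEx : E = zpowers x := le_antisymm (hgen x hx hx1) (by rwa [zpowers_le])
  have hp : (Nat.card ↥E).Prime := by
    rw [hEx, Nat.card_zpowers]
    have ho1 : orderOf x ≠ 1 := by rwa [Ne, orderOf_eq_one_iff]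
    obtain ⟨q, hq, hqd⟩ := Nat.exists_prime_and_dvd ho1
    obtain ⟨m, hm⟩ := hqd
    have hqpos := hq.pos
    have hopos : 0 < orderOf x := orderOf_pos x
    have hmpos : 0 < m := by
      rcases Nat.eq_zero_or_pos m with h | h
      · rw [h, mul_zero] at hm; omega
      · exact h
    by_cases hm1 : m = 1
    · rw [hm, hm1, mul_one]; exact hq
    · exfalso
      -- x ^ q is nontrivial of order m, but generates
      have hxq : x ^ q ≠ 1 := by
        intro h
        have h2 := orderOf_dvd_of_pow_eq_one h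
        rw [hm] at h2
        have h3 := Nat.le_of_dvd hqpos h2
        have h4 : q * 1 < q * m := Nat.mul_lt_mul_of_pos_left (by omega) hqpos
        omega
      have h2 := hgen (x ^ q) (E.pow_mem hx q) hxq
      have h3 : Nat.card ↥E ≤ Nat.card ↥(zpowers (x ^ q)) := card_le_of_le h2
      rw [hEx, Nat.card_zpowers, Nat.card_zpowers, orderOf_pow' x hqpos.ne', hm,
        Nat.gcd_mul_right_left] at h3
      rw [Nat.mul_div_cancel_left m hqpos] at h3
      have h4 : 1 * m < q * m := Nat.mul_lt_mul_of_pos_right hq.one_lt hmpos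
      omega
  refine ⟨E, hEM.trans hMA, hp, hIE, ?_, fun y hy => (hEM hy).2⟩
  intro t ht
  have key : ∀ (f : G) (hf : ∀ k : ℤ, t * (x ^ k) * t⁻¹ = f ^ k), (∀ y ∈ E, ∃ k : ℤ, y = x ^ k ∧ t * y * t⁻¹ = f ^ k) := by
    intro f hf y hy
    rw [hEx] at hy
    obtain ⟨k, rfl⟩ := hy
    exact ⟨k, rfl, hf k⟩
  rcases hE' t ht x hx with h | h
  · left
    intro y hy
    obtain ⟨k, hk, hk'⟩ := key x (fun k => by rw [← conj_zpow, h]) y hy
    rw [hk', hk]
  · right
    intro y hy
    obtain ⟨k, hk, hk'⟩ := key x⁻¹ (fun k => by rw [← conj_zpow, h]) y hy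
    rw [hk', hk, inv_zpow]

/-- Let S be a finite solvable group whose Fitting subgroup F(S) has odd order, and let I be an elementary abelian 2-subgroup of S of order 2ⁿ with n ≥ 1. Then F(S) contains subgroups A₁, …, Aₙ of prime order, each normalized by I, pairwise commuting and generating a subgroup A of order |A₁|⋯|Aₙ| (their internal direct product), such that no non-identity element of I centralizes A. -/
theorem result {S : Type*} [Group S] [Finite S]
    [Group.IsSolvable S] (hF : Odd (Nat.card ↥(Cfsg.fittingSubgroup S)))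
    (I : Subgroup S) (hI : Cfsg.IsElementaryAbelian 2 I) (n : ℕ) (hn : 1 ≤ n) (hIn : Nat.card ↥I = 2 ^ n) :
    ∃ f : Fin n → Subgroup S, (∀ i, (Nat.card ↥(f i)).Prime) ∧ (∀ i, f i ≤ Cfsg.fittingSubgroup S) ∧
      (∀ i, I ≤ Subgroup.normalizer ((f i) : Set S)) ∧ (∀ i j, i ≠ j → ∀ a ∈ f i, ∀ b ∈ f j, a * b = b * a) ∧
      Nat.card ↥(⨆ i, f i) = ∏ i, Nat.card ↥(f i) ∧ I ⊓ Subgroup.centralizer ((⨆ i, f i : Subgroup S) : Set S) = ⊥ := by
  have hFn : (Cfsg.fittingSubgroup S).Normal := Cfsg.Agent.Lib.Cores.fittingSubgroup_normal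
  have hcomm : ∀ x ∈ I, ∀ y ∈ I, x * y = y * x := by
    intro x hx y hy
    have := hI.1.is_comm.comm (⟨x, hx⟩ : ↥I) ⟨y, hy⟩
    exact congrArg Subtype.val this
  have hsq : ∀ x ∈ I, x * x = 1 := by
    intro x hx; have := hI.2 x hx; rwa [pow_two] at this
  obtain ⟨A, hAF, hIA, hAab, hfaith⟩ := exists_abelian I (Cfsg.fittingSubgroup S) hI
    (by rw [le_normalizer_iff]; intro t _ k hk; exact hFn.conj_mem k hk t)
    Cfsg.Agent.Lib.Cores.fittingSubgroup_isNilpotent hF (by
      intro t ht h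
      have h1 : t ∈ centralizer (Cfsg.fittingSubgroup S : Set S) := by
        rw [mem_centralizer_iff]
        intro x hx
        have := h x hx
        calc x * t = (t * x * t⁻¹) * t := by rw [this]
          _ = t * x := by group
      exact sq_one_odd _ hF t (Cfsg.Agent.S0044.result h1) (hsq t ht))
  have hAodd : Odd (Nat.card ↥A) := Odd.of_dvd_nat hF (card_dvd_of_le hAF)
  have main : ∀ k : ℕ, k ≤ n → ∃ f : Fin k → Subgroup S, (∀ i, (Nat.card ↥(f i)).Prime) ∧
      (∀ i, f i ≤ A) ∧ (∀ i, I ≤ Subgroup.normalizer ((f i) : Set S)) ∧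
      Nat.card ↥(⨆ i, f i) = ∏ i, Nat.card ↥(f i) ∧
      Nat.card ↥(I ⊓ Subgroup.centralizer ((⨆ i, f i : Subgroup S) : Set S)) = 2 ^ (n - k) := by
    intro k
    induction k with
    | zero =>
      intro _
      refine ⟨fun i => i.elim0, fun i => i.elim0, fun i => i.elim0, fun i => i.elim0, ?_, ?_⟩
      · simp
      · rw [iSup_of_empty]
        have : I ⊓ centralizer ((⊥ : Subgroup S) : Set S) = I := by
          rw [inf_eq_left, le_centralizer_iff]; exact bot_le
        rw [this, hIn, Nat.sub_zero]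
    | succ k ih =>
      intro hk
      obtain ⟨f, hfp, hfA, hfI, hfc, hfJ⟩ := ih (by omega)
      obtain ⟨P, hP⟩ : ∃ P, P = ⨆ i, f i := ⟨_, rfl⟩
      rw [← hP] at hfc hfJ
      have hPA : P ≤ A := by rw [hP]; exact iSup_le hfA
      obtain ⟨J, hJ⟩ : ∃ J, J = I ⊓ centralizer (P : Set S) := ⟨_, rfl⟩
      rw [← hJ] at hfJ
      have hJI : J ≤ I := by rw [hJ]; exact inf_le_left
      have hJP : ∀ t ∈ J, ∀ x ∈ P, t * x * t⁻¹ = x := by
        intro t ht x hx
        rw [hJ, mem_inf, mem_centralizer_iff] at ht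
        rw [← ht.2 x hx]; group
      obtain ⟨j, hjJ, hj1⟩ : ∃ j ∈ J, j ≠ 1 := by
        by_contra h
        push Not at h
        have : J = ⊥ := le_bot_iff.mp fun x hx => mem_bot.mpr (h x hx)
        rw [this, card_bot] at hfJ
        have h2 : 1 < 2 ^ (n - k) := Nat.one_lt_two_pow (by omega)
        omega
      have hjA : ∃ a ∈ A, j * a * j⁻¹ ≠ a := by
        by_contra h
        push Not at h
        exact hj1 (hfaith j (hJI hjJ) h)
      obtain ⟨E, hEA, hEp, hIE, hEs, hEj⟩ := exists_prime_sub I A hI hIA hAab hAodd j (hJI hjJ) hjA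
      have hEodd : Odd (Nat.card ↥E) := Odd.of_dvd_nat hAodd (card_dvd_of_le hEA)
      have hEP : E ⊓ P = ⊥ := by
        rw [eq_bot_iff]
        intro x hx
        obtain ⟨hxE, hxP⟩ := mem_inf.mp hx
        rw [mem_bot]
        have h1 := hEj x hxE
        rw [hJP j hjJ x hxP] at h1
        apply sq_one_odd E hEodd x hxE
        nth_rewrite 2 [h1]; group
      have hcardPE : Nat.card ↥(E ⊔ P) = Nat.card ↥E * Nat.card ↥P := by
        have h1 := Cfsg.Agent.GH.C2GrowG.card_sup (K := P) (H := E) (by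
          rw [le_normalizer_iff]
          intro t ht x hx
          rw [hAab t (hEA ht) x (hPA hx)]
          simpa using hx)
        rw [hEP, card_bot, mul_one] at h1
        exact h1
      have hsup : (⨆ i, (Fin.snoc f E : Fin (k + 1) → Subgroup S) i) = E ⊔ P := by
        apply le_antisymm
        · apply iSup_le
          intro i
          refine Fin.lastCases ?_ ?_ i
          · rw [Fin.snoc_last]; exact le_sup_left
          · intro i
            rw [Fin.snoc_castSucc, hP]
            exact (le_iSup f i).trans le_sup_right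
        · apply sup_le
          · have := le_iSup (Fin.snoc f E : Fin (k + 1) → Subgroup S) (Fin.last k)
            rwa [Fin.snoc_last] at this
          · rw [hP]
            apply iSup_le
            intro i
            have := le_iSup (Fin.snoc f E : Fin (k + 1) → Subgroup S) (Fin.castSucc i)
            rwa [Fin.snoc_castSucc] at this
      refine ⟨Fin.snoc f E, ?_, ?_, ?_, ?_, ?_⟩
      · intro i
        refine Fin.lastCases ?_ ?_ i
        · rw [Fin.snoc_last]; exact hEp
        · intro i; rw [Fin.snoc_castSucc]; exact hfp i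
      · intro i
        refine Fin.lastCases ?_ ?_ i
        · rw [Fin.snoc_last]; exact hEA
        · intro i; rw [Fin.snoc_castSucc]; exact hfA i
      · intro i
        refine Fin.lastCases ?_ ?_ i
        · rw [Fin.snoc_last]; exact hIE
        · intro i; rw [Fin.snoc_castSucc]; exact hfI i
      · rw [hsup, hcardPE, hfc, Fin.prod_univ_castSucc, mul_comm]
        simp only [Fin.snoc_last, Fin.snoc_castSucc]
      · rw [hsup]
        obtain ⟨J', hJ'⟩ : ∃ J', J' = I ⊓ centralizer ((E ⊔ P : Subgroup S) : Set S) := ⟨_, rfl⟩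
        rw [← hJ']
        have hJ'm : ∀ t, t ∈ J' ↔ t ∈ J ∧ ∀ x ∈ E, t * x * t⁻¹ = x := by
          intro t
          rw [hJ', hJ, mem_inf, mem_inf, and_assoc]
          apply and_congr_right
          intro _
          have h1 : t ∈ centralizer ((E ⊔ P : Subgroup S) : Set S) ↔
              t ∈ centralizer (P : Set S) ∧ t ∈ centralizer (E : Set S) := by
            constructor
            · intro h
              rw [← zpowers_le, le_centralizer_iff] at h
              constructor
              · rw [← zpowers_le, le_centralizer_iff]; exact le_sup_right.trans h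
              · rw [← zpowers_le, le_centralizer_iff]; exact le_sup_left.trans h
            · rintro ⟨h1, h2⟩
              rw [← zpowers_le, le_centralizer_iff] at h1 h2 ⊢
              exact sup_le h2 h1
          rw [h1]
          apply and_congr_right
          intro _
          rw [mem_centralizer_iff]
          constructor
          · intro h x hx
            rw [← h x hx]; group
          · intro h x hx
            nth_rewrite 1 [← h x hx]; group
        have hJ'J : J' ≤ J := fun t ht => ((hJ'm t).mp ht).1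
        have hrel : J'.relIndex J = 2 := by
          rw [relIndex_eq_two_iff]
          refine ⟨j, hjJ, fun t ht => ?_⟩
          have hEne : ∃ x ∈ E, x ≠ 1 := by
            by_contra h
            push Not at h
            have : E = ⊥ := le_bot_iff.mp fun x hx => mem_bot.mpr (h x hx)
            rw [this, card_bot] at hEp
            exact Nat.not_prime_one hEp
          obtain ⟨x₀, hx₀, hx₀1⟩ := hEne
          have hne : x₀ ≠ x₀⁻¹ := by
            intro h
            apply hx₀1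
            apply sq_one_odd E hEodd x₀ hx₀
            nth_rewrite 2 [h]; group
          rcases hEs t (hJI ht) with h | h
          · right
            refine ⟨(hJ'm t).mpr ⟨ht, h⟩, fun h2 => ?_⟩
            have h3 := ((hJ'm _).mp h2).2 x₀ hx₀
            have h4 : t * j * x₀ * (t * j)⁻¹ = t * (j * x₀ * j⁻¹) * t⁻¹ := by group
            rw [h4, hEj x₀ hx₀, h _ (E.inv_mem hx₀)] at h3
            exact hne h3.symm
          · left
            refine ⟨(hJ'm _).mpr ⟨J.mul_mem ht hjJ, fun x hx => ?_⟩, fun h2 => ?_⟩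
            · have h4 : t * j * x * (t * j)⁻¹ = t * (j * x * j⁻¹) * t⁻¹ := by group
              rw [h4, hEj x hx, h _ (E.inv_mem hx), inv_inv]
            · have h3 := ((hJ'm _).mp h2).2 x₀ hx₀
              rw [h x₀ hx₀] at h3
              exact hne h3.symm
        have h5 := Subgroup.card_mul_index (J'.subgroupOf J)
        rw [Nat.card_congr (Subgroup.subgroupOfEquivOfLe hJ'J).toEquiv] at h5
        change Nat.card ↥J' * J'.relIndex J = Nat.card ↥J at h5
        rw [hrel, hfJ] at h5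
        have e : n - k = (n - (k + 1)) + 1 := by omega
        rw [e, pow_succ] at h5
        omega
  obtain ⟨f, hfp, hfA, hfI, hfc, hfJ⟩ := main n le_rfl
  refine ⟨f, hfp, fun i => (hfA i).trans hAF, hfI, ?_, hfc, ?_⟩
  · intro i j _ a ha b hb
    exact hAab a (hfA i ha) b (hfA j hb)
  · rw [Nat.sub_self, pow_zero] at hfJ
    exact (Subgroup.card_eq_one).mp hfJ

end Cfsg.Agent.S4408
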