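import Mathlib.GroupTheory.Nilpotent
import Mathlib.GroupTheory.Sylow
import Mathlib.GroupTheory.Index
import Cfsg.Agent.S0119
import Cfsg.Agent.Lib.FrattiniBasic
import Cfsg.Agent.S0012
import Cfsg.Statements.S4409
import Cfsg.Agent.S0003
import Cfsg.Agent.S0044
import Cfsg.Agent.S0095
import Cfsg.Agent.J2.ExtQuot
import Cfsg.Agent.GH.C2GrowG
import Cfsg.Agent.Lib.DihedralRecog
import Cfsg.Agent.SignalizersComponents.CompOrbit
set_option linter.all false

-- part: H586/OddAct
section
/-!
# A group `H` of odd order acting by conjugation on `2`-subgroups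

All groups are subgroups of a fixed finite group `G`; `Cen H Y`: `H` centralises `Y`.
-/

set_option autoImplicit false

namespace Cfsg.Agent.H586.OddAct

open Subgroup

variable {G : Type*} [Group G]

/-- `H` centralises `Y`. -/
def Cen (H Y : Subgroup G) : Prop := ∀ h ∈ H, ∀ y ∈ Y, h * y * h⁻¹ = y

theorem Cen.mono {H Y Y' : Subgroup G} (h : Cen H Y) (hY : Y' ≤ Y) : Cen H Y' :=
  fun a ha y hy => h a ha y (hY hy)

theorem cen_iff {H Y : Subgroup G} : Cen H Y ↔ H ≤ centralizer (Y : Set G) := by
  constructor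
  · intro h a ha
    rw [mem_centralizer_iff]
    intro y hy
    nth_rewrite 1 [← h a ha y hy]; group
  · intro h a ha y hy
    rw [← mem_centralizer_iff.mp (h ha) y hy]; group

/-- If `h` has odd order, `c` is a `2`-element commuting with `h` and `h y h⁻¹ = y c`, then
`c = 1`. -/
theorem stab {h y c : G} (hh : Odd (orderOf h)) {n : ℕ} (hc : c ^ 2 ^ n = 1) (hhc : h * c * h⁻¹ = c)
    (hy : h * y * h⁻¹ = y * c) : c = 1 := by
  have key : ∀ k : ℕ, h ^ k * y * (h ^ k)⁻¹ = y * c ^ k := by
    intro k
    induction k with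
    | zero => simp
    | succ k ih =>
      have e : h ^ (k + 1) * y * (h ^ (k + 1))⁻¹ = h * (h ^ k * y * (h ^ k)⁻¹) * h⁻¹ := by
        rw [pow_succ']; group
      rw [e, ih]
      have e2 : h * (y * c ^ k) * h⁻¹ = (h * y * h⁻¹) * (h * c ^ k * h⁻¹) := by group
      have e3 : h * c ^ k * h⁻¹ = c ^ k := by rw [← conj_pow, hhc]
      rw [e2, e3, hy, pow_succ']; group
  have h1 := key (orderOf h)
  rw [pow_orderOf_eq_one] at h1
  have h2 : c ^ orderOf h = 1 := by
    have h3 : y * 1 = y * c ^ orderOf h := by rw [← h1]; group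
    exact (mul_left_cancel h3).symm
  have h3 := orderOf_dvd_of_pow_eq_one h2
  have h4 := orderOf_dvd_of_pow_eq_one hc
  have h5 : Nat.Coprime (orderOf h) (2 ^ n) := (Nat.coprime_two_right.mpr hh).pow_right n
  exact orderOf_eq_one_iff.mp (Nat.eq_one_of_dvd_coprimes h5 h3 h4)

theorem odd_orderOf [Finite G] {H : Subgroup G} (hH : Odd (Nat.card ↥H)) {h : G} (hh : h ∈ H) :
    Odd (orderOf h) := by
  have h1 : orderOf (⟨h, hh⟩ : ↥H) = orderOf h := Subgroup.orderOf_mk h hh
  rw [← h1]
  exact Odd.of_dvd_nat hH (orderOf_dvd_natCard _)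

theorem two_pow {Y : Subgroup G} (hY : IsPGroup 2 ↥Y) {c : G} (hc : c ∈ Y) : ∃ n : ℕ, c ^ 2 ^ n = 1 := by
  obtain ⟨n, hn⟩ := hY ⟨c, hc⟩
  exact ⟨n, by simpa using congrArg Subtype.val hn⟩

/-- Coprime action: trivial on `D` and on `Y` modulo `D` implies trivial on `Y`. -/
theorem cen_of_chain [Finite G] {H Y D : Subgroup G} (hH : Odd (Nat.card ↥H)) (hY : IsPGroup 2 ↥Y)
    (hD : Cen H D) (hDY : D ≤ Y) (h : ∀ a ∈ H, ∀ y ∈ Y, y⁻¹ * (a * y * a⁻¹) ∈ D) : Cen H Y := by
  intro a ha y hy
  obtain ⟨n, hn⟩ := two_pow hY (hDY (h a ha y hy))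
  have h1 := stab (h := a) (y := y) (c := y⁻¹ * (a * y * a⁻¹)) (odd_orderOf hH ha) hn
    (hD a ha _ (h a ha y hy)) (by group)
  exact (inv_mul_eq_one.mp h1).symm

/-- Trivial on an index `2` subgroup implies trivial. -/
theorem cen_of_index_two [Finite G] {H Y B : Subgroup G} (hH : Odd (Nat.card ↥H))
    (hY : IsPGroup 2 ↥Y) (hHY : H ≤ normalizer (Y : Set G)) (hHB : H ≤ normalizer (B : Set G))
    (hBY : B ≤ Y) (hrel : B.relIndex Y = 2) (hB : Cen H B) : Cen H Y := by
  apply cen_of_chain hH hY hB hBY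
  intro a ha y hy
  have hay : a * y * a⁻¹ ∈ Y := le_normalizer_iff.mp hHY a ha y hy
  by_cases hyB : y ∈ B
  · rw [hB a ha y hyB]; simp
  · have hayB : a * y * a⁻¹ ∉ B := by
      intro h
      apply hyB
      have := le_normalizer_iff.mp hHB a⁻¹ (H.inv_mem ha) _ h
      have e : a⁻¹ * (a * y * a⁻¹) * a⁻¹⁻¹ = y := by group
      rwa [e] at this
    have hidx : (B.subgroupOf Y).index = 2 := hrel
    have h1 := (Subgroup.mul_mem_iff_of_index_two hidx
      (a := (⟨y, hy⟩ : ↥Y)⁻¹) (b := ⟨a * y * a⁻¹, hay⟩)).mpr (by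
        rw [Subgroup.inv_mem_iff, mem_subgroupOf, mem_subgroupOf]
        exact ⟨fun h => absurd h hyB, fun h => absurd h hayB⟩)
    rw [mem_subgroupOf] at h1
    exact h1

/-- Trivial on groups of order `2`. -/
theorem cen_of_card_two [Finite G] {H B : Subgroup G} (hHB : H ≤ normalizer (B : Set G))
    (hB : Nat.card ↥B = 2) : Cen H B := by
  intro a ha b hb
  by_cases hb1 : b = 1
  · rw [hb1]; group
  · have h1 : a * b * a⁻¹ ∈ B := le_normalizer_iff.mp hHB a ha b hb
    have h2 : a * b * a⁻¹ ≠ 1 := by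
      intro h
      apply hb1
      have : a * b * a⁻¹ = a * 1 * a⁻¹ := by rw [h]; group
      exact mul_left_cancel (mul_right_cancel this)
    have := (Nat.card_eq_two_iff' (1 : ↥B)).mp hB
    obtain ⟨x, _, hx⟩ := this
    have e1 := hx ⟨b, hb⟩ (fun h => hb1 (congrArg Subtype.val h))
    have e2 := hx ⟨a * b * a⁻¹, h1⟩ (fun h => h2 (congrArg Subtype.val h))
    exact congrArg Subtype.val (e2.trans e1.symm)

/-- The commutator `[Y, H]`. -/
def cm (Y H : Subgroup G) : Subgroup G :=
  closure {x | ∃ y ∈ Y, ∃ h ∈ H, x = y⁻¹ * (h * y * h⁻¹)}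

theorem cm_le {Y H : Subgroup G} (hHY : H ≤ normalizer (Y : Set G)) : cm Y H ≤ Y := by
  unfold cm
  rw [closure_le]
  rintro _ ⟨y, hy, h, hh, rfl⟩
  exact Y.mul_mem (Y.inv_mem hy) (le_normalizer_iff.mp hHY h hh y hy)

theorem cm_inv {Y H : Subgroup G} (hHY : H ≤ normalizer (Y : Set G)) :
    H ≤ normalizer (cm Y H : Set G) := by
  unfold cm
  rw [le_normalizer_closure_iff]
  rintro k hk _ ⟨y, hy, h, hh, rfl⟩
  apply Subgroup.subset_closure
  refine ⟨k * y * k⁻¹, le_normalizer_iff.mp hHY k hk y hy, k * h * k⁻¹,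
    H.mul_mem (H.mul_mem hk hh) (H.inv_mem hk), by group⟩

theorem cen_of_cen_cm [Finite G] {H Y : Subgroup G} (hH : Odd (Nat.card ↥H))
    (hY : IsPGroup 2 ↥Y) (hHY : H ≤ normalizer (Y : Set G)) (h : Cen H (cm Y H)) : Cen H Y :=
  cen_of_chain hH hY h (cm_le hHY) (fun a ha y hy => Subgroup.subset_closure ⟨y, hy, a, ha, rfl⟩)

/-- `Y` is minimal among the `H`-invariant subgroups on which `H` acts nontrivially. -/
structure Min (H Y : Subgroup G) : Prop where
  two : IsPGroup 2 ↥Y
  inv : H ≤ normalizer (Y : Set G)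
  nt : ¬ Cen H Y
  min : ∀ D : Subgroup G, D ≤ Y → H ≤ normalizer (D : Set G) → ¬ Cen H D → D = Y

theorem Min.cm_eq [Finite G] {H Y : Subgroup G} (hH : Odd (Nat.card ↥H)) (m : Min H Y) :
    cm Y H = Y :=
  m.min _ (cm_le m.inv) (cm_inv m.inv) (fun h => m.nt (cen_of_cen_cm hH m.two m.inv h))

theorem exists_min [Finite G] {H Q : Subgroup G} (hQ : IsPGroup 2 ↥Q)
    (hHQ : H ≤ normalizer (Q : Set G)) (hnt : ¬ Cen H Q) : ∃ Y ≤ Q, Min H Y := by
  obtain ⟨Y, hY⟩ := (Set.toFinite {Y : Subgroup G | Y ≤ Q ∧ H ≤ normalizer (Y : Set G) ∧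
    ¬ Cen H Y}).exists_minimal ⟨Q, le_refl _, hHQ, hnt⟩
  obtain ⟨⟨hYQ, hHY, hYnt⟩, hmin⟩ := hY
  refine ⟨Y, hYQ, hQ.to_le hYQ, hHY, hYnt, ?_⟩
  intro D hD hHD hDnt
  exact le_antisymm hD (hmin (y := D) ⟨hD.trans hYQ, hHD, hDnt⟩ hD)

/-- A minimal abelian `Y` has exponent `2`. -/
theorem Min.sq_one [Finite G] {H Y : Subgroup G} (hH : Odd (Nat.card ↥H)) (m : Min H Y)
    (hab : ∀ x ∈ Y, ∀ y ∈ Y, x * y = y * x) : ∀ x ∈ Y, x * x = 1 := by
  -- squares
  let D : Subgroup G :=
    { carrier := {x | ∃ y ∈ Y, x = y * y}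
      one_mem' := ⟨1, Y.one_mem, by simp⟩
      mul_mem' := by
        rintro _ _ ⟨x, hx, rfl⟩ ⟨y, hy, rfl⟩
        refine ⟨x * y, Y.mul_mem hx hy, ?_⟩
        have := hab x hx y hy
        calc x * x * (y * y) = x * (x * y) * y := by group
          _ = x * (y * x) * y := by rw [this]
          _ = x * y * (x * y) := by group
      inv_mem' := by
        rintro _ ⟨x, hx, rfl⟩
        exact ⟨x⁻¹, Y.inv_mem hx, by group⟩ }
  let S : Subgroup G :=
    { carrier := {x | x ∈ Y ∧ x * x = 1}
      one_mem' := ⟨Y.one_mem, by simp⟩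
      mul_mem' := by
        rintro x y ⟨hx, hx2⟩ ⟨hy, hy2⟩
        refine ⟨Y.mul_mem hx hy, ?_⟩
        have := hab x hx y hy
        calc x * y * (x * y) = x * (y * x) * y := by group
          _ = x * (x * y) * y := by rw [this]
          _ = (x * x) * (y * y) := by group
          _ = 1 := by rw [hx2, hy2, one_mul]
      inv_mem' := by
        rintro x ⟨hx, hx2⟩
        refine ⟨Y.inv_mem hx, ?_⟩
        rw [← mul_inv_rev, hx2, inv_one] }
  have hDY : D ≤ Y := by
    rintro _ ⟨y, hy, rfl⟩; exact Y.mul_mem hy hy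
  have hHD : H ≤ normalizer (D : Set G) := by
    rw [le_normalizer_iff]
    rintro h hh _ ⟨y, hy, rfl⟩
    exact ⟨h * y * h⁻¹, le_normalizer_iff.mp m.inv h hh y hy, by group⟩
  have hYbot : Y ≠ ⊥ := by
    intro h
    apply m.nt
    intro a _ y hy
    rw [h, mem_bot] at hy
    rw [hy]; group
  have hDne : D ≠ Y := by
    intro hDY'
    -- squaring is surjective on Y, hence injective
    let f : ↥Y → ↥Y := fun y => y * y
    have hf : Function.Surjective f := by
      rintro ⟨x, hx⟩
      rw [← hDY'] at hx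
      obtain ⟨y, hy, rfl⟩ := hx
      exact ⟨⟨y, hy⟩, rfl⟩
    have hf' : Function.Injective f := Finite.injective_iff_surjective.mpr hf
    have hodd : ¬ 2 ∣ Nat.card ↥Y := by
      intro h2
      have : Fact (Nat.Prime 2) := ⟨Nat.prime_two⟩
      obtain ⟨x, hx⟩ := exists_prime_orderOf_dvd_card' 2 h2
      have h3 : f x = f 1 := by
        change x * x = 1 * 1
        rw [← pow_two, ← hx, pow_orderOf_eq_one, one_mul]
      have h4 := hf' h3
      rw [h4, orderOf_one] at hx
      omega
    have : Fact (Nat.Prime 2) := ⟨Nat.prime_two⟩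
    obtain ⟨n, hn⟩ := IsPGroup.iff_card.mp m.two
    rcases n with _ | n
    · rw [pow_zero] at hn
      exact hYbot (Subgroup.card_eq_one.mp hn)
    · apply hodd
      rw [hn, pow_succ]
      exact dvd_mul_left _ _
  have hDcen : Cen H D := by
    by_contra hc
    exact hDne (m.min D hDY hHD hc)
  have hcmS : cm Y H ≤ S := by
    unfold cm
    rw [closure_le]
    rintro _ ⟨y, hy, h, hh, rfl⟩
    have hy' := le_normalizer_iff.mp m.inv h hh y hy
    refine ⟨Y.mul_mem (Y.inv_mem hy) hy', ?_⟩
    have h1 := hDcen h hh (y * y) ⟨y, hy, rfl⟩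
    have h2 : (h * y * h⁻¹) * (h * y * h⁻¹) = y * y := by
      rw [← h1]; group
    have h3 := hab y hy _ hy'
    calc y⁻¹ * (h * y * h⁻¹) * (y⁻¹ * (h * y * h⁻¹))
        = y⁻¹ * ((h * y * h⁻¹) * y) * y⁻¹ * y⁻¹ * (h * y * h⁻¹) := by group
      _ = y⁻¹ * (y * (h * y * h⁻¹)) * y⁻¹ * y⁻¹ * (h * y * h⁻¹) := by rw [h3]
      _ = y⁻¹ * y⁻¹ * (y * y) * ((h * y * h⁻¹) * y⁻¹ * y⁻¹ * (h * y * h⁻¹)) := by group
      _ = (h * y * h⁻¹) * y⁻¹ * y⁻¹ * (h * y * h⁻¹) := by group
      _ = y⁻¹ * (y * (h * y * h⁻¹)) * y⁻¹ * y⁻¹ * (h * y * h⁻¹) := by group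
      _ = y⁻¹ * ((h * y * h⁻¹) * y) * y⁻¹ * y⁻¹ * (h * y * h⁻¹) := by rw [h3]
      _ = y⁻¹ * (h * y * h⁻¹) * y⁻¹ * (h * y * h⁻¹) := by group
      _ = y⁻¹ * y⁻¹ * (y * (h * y * h⁻¹)) * y⁻¹ * (h * y * h⁻¹) := by group
      _ = y⁻¹ * y⁻¹ * ((h * y * h⁻¹) * y) * y⁻¹ * (h * y * h⁻¹) := by rw [h3]
      _ = y⁻¹ * y⁻¹ * ((h * y * h⁻¹) * (h * y * h⁻¹)) := by group
      _ = y⁻¹ * y⁻¹ * (y * y) := by rw [h2]
      _ = 1 := by group
  intro x hx
  rw [← m.cm_eq hH] at hx
  exact (hcmS hx).2

/-- A minimal nonabelian `Y` is special. -/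
theorem Min.special [Finite G] {H Y : Subgroup G} (hH : Odd (Nat.card ↥H)) (m : Min H Y)
    (hnab : ¬ ∀ x ∈ Y, ∀ y ∈ Y, x * y = y * x) : Cfsg.IsSpecial 2 ↥Y := by
  have hf2 : Fact (Nat.Prime 2) := ⟨Nat.prime_two⟩
  let A : Subgroup (MulAut ↥Y) := (H.subgroupOf (normalizer (Y : Set G))).map Y.normalizerMonoidHom
  have hA : ∀ h ∈ H, ∃ a ∈ A, ∀ y : ↥Y, ((a y : ↥Y) : G) = h * y * h⁻¹ := by
    intro h hh
    refine ⟨Y.normalizerMonoidHom ⟨h, m.inv hh⟩, mem_map_of_mem _ hh, fun y => ?_⟩
    simp
  have hA' : ∀ a ∈ A, ∃ h ∈ H, ∀ y : ↥Y, ((a y : ↥Y) : G) = h * y * h⁻¹ := by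
    rintro _ ⟨⟨h, hN⟩, hh, rfl⟩
    exact ⟨h, hh, fun y => by simp⟩
  have hcard : Nat.Coprime (Nat.card ↥A) 2 := by
    rw [Nat.coprime_two_right]
    apply Odd.of_dvd_nat hH
    have h1 : Nat.card ↥A ∣ Nat.card ↥(H.subgroupOf (normalizer (Y : Set G))) :=
      Subgroup.card_map_dvd _ _
    rwa [Nat.card_congr (Subgroup.subgroupOfEquivOfLe m.inv).toEquiv] at h1
  have hgen : Subgroup.closure {x : ↥Y | ∃ g : ↥Y, ∃ a ∈ A, x = g⁻¹ * a g} = ⊤ := by
    have hinj : Function.Injective (Subgroup.map Y.subtype) :=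
      Subgroup.map_injective Y.subtype_injective
    apply hinj
    rw [MonoidHom.map_closure]
    have h1 : (Y.subtype '' {x : ↥Y | ∃ g : ↥Y, ∃ a ∈ A, x = g⁻¹ * a g}) =
        {x | ∃ y ∈ Y, ∃ h ∈ H, x = y⁻¹ * (h * y * h⁻¹)} := by
      ext x
      constructor
      · rintro ⟨_, ⟨g, a, ha, rfl⟩, rfl⟩
        obtain ⟨h, hh, hah⟩ := hA' a ha
        refine ⟨g, g.2, h, hh, ?_⟩
        rw [← hah]; rfl
      · rintro ⟨y, hy, h, hh, rfl⟩
        obtain ⟨a, ha, hah⟩ := hA h hh
        refine ⟨(⟨y, hy⟩ : ↥Y)⁻¹ * a ⟨y, hy⟩, ⟨⟨y, hy⟩, a, ha, rfl⟩, ?_⟩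
        rw [Subgroup.coe_subtype, Subgroup.coe_mul, hah]; rfl
    rw [h1]
    have h2 : Subgroup.map Y.subtype ⊤ = Y := by
      rw [← MonoidHom.range_eq_map, Subgroup.range_subtype]
    rw [h2]
    exact m.cm_eq hH
  have hchar : ∀ K : Subgroup ↥Y, K.Characteristic → IsMulCommutative K →
      ∀ a ∈ A, ∀ h ∈ K, a h = h := by
    intro K hK hKc a ha k hk
    obtain ⟨h, hh, hah⟩ := hA' a ha
    have hD : Cen H (K.map Y.subtype) := by
      by_contra hc
      have h1 := m.min (K.map Y.subtype) (Subgroup.map_subtype_le K) (by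
        rw [le_normalizer_iff]
        rintro g hg _ ⟨x, hx, rfl⟩
        obtain ⟨b, hb, hbg⟩ := hA g hg
        refine ⟨b x, ?_, hbg x⟩
        have := (Subgroup.characteristic_iff_map_le.mp hK) b
        exact this (mem_map_of_mem _ hx)) hc
      apply hnab
      intro x hx y hy
      rw [← h1] at hx hy
      obtain ⟨x, hx, rfl⟩ := hx
      obtain ⟨y, hy, rfl⟩ := hy
      have := hKc.is_comm.comm (⟨x, hx⟩ : ↥K) ⟨y, hy⟩
      exact congrArg (fun z : ↥K => ((z : ↥Y) : G)) this
    ext1
    rw [hah]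
    exact hD h hh k (mem_map_of_mem _ hk)
  exact (Cfsg.Agent.S0119.result m.two A hcard hgen hchar).1

/-- Central elements modulo a subgroup, in a nilpotent group. -/
theorem exists_central_mod {P : Type*} [Group P] [hP : Group.IsNilpotent P] (A C : Subgroup P)
    [C.Normal] (h : ¬ C ≤ A) : ∃ x ∈ C, x ∉ A ∧ ∀ g : P, g * x * g⁻¹ * x⁻¹ ∈ A := by
  classical
  have hex : ∃ k, C ⊓ (⊤ : Subgroup P).lowerCentralSeries k ≤ A := by
    obtain ⟨n, hn⟩ := Subgroup.nilpotent_iff_lowerCentralSeries.mp hP
    exact ⟨n, by rw [hn, inf_bot_eq]; exact bot_le⟩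
  obtain ⟨k, hk⟩ : ∃ k, k = Nat.find hex := ⟨_, rfl⟩
  have hkA : C ⊓ (⊤ : Subgroup P).lowerCentralSeries k ≤ A := by rw [hk]; exact Nat.find_spec hex
  rcases k with _ | k
  · exfalso
    apply h
    intro x hx
    apply hkA
    refine mem_inf.mpr ⟨hx, ?_⟩
    rw [Subgroup.lowerCentralSeries_zero]; trivial
  · have hk' : ¬ C ⊓ (⊤ : Subgroup P).lowerCentralSeries k ≤ A := by
      apply Nat.find_min hex
      omega
    obtain ⟨x, hx, hxA⟩ := SetLike.not_le_iff_exists.mp hk'
    obtain ⟨hxC, hxk⟩ := mem_inf.mp hx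
    refine ⟨x, hxC, hxA, fun g => hkA (mem_inf.mpr ⟨?_, ?_⟩)⟩
    · exact C.mul_mem (‹C.Normal›.conj_mem x hxC g) (C.inv_mem hxC)
    · rw [Subgroup.lowerCentralSeries_succ]
      have := Subgroup.commutator_mem_commutator (mem_top g) hxk
      rw [Subgroup.commutator_comm] at this
      exact this

end Cfsg.Agent.H586.OddAct
end

-- part: H586/NoAbelianEight
section
/-!
# `2`-groups without noncyclic abelian subgroups of order `8`

`NA8 R`: `R` has a noncyclic abelian subgroup of order `8`.
If `H` has odd order and acts nontrivially on the `2`-group `Q` with `¬ NA8 Q`, then `Q` is a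
four-group or a quaternion group of order `8` (`classify`).
-/

set_option autoImplicit false

namespace Cfsg.Agent.H586.NoAbelianEight

open Subgroup Cfsg.Agent.H586.OddAct

variable {G : Type*} [Group G]

/-- `R` contains a noncyclic abelian subgroup of order `8`. -/
def NA8 (R : Subgroup G) : Prop :=
  ∃ A : Subgroup G, A ≤ R ∧ IsMulCommutative ↥A ∧ ¬ IsCyclic ↥A ∧ Nat.card ↥A = 8

theorem NA8.mono {R R' : Subgroup G} (h : NA8 R) (hR : R ≤ R') : NA8 R' := by
  obtain ⟨A, h1, h2⟩ := h
  exact ⟨A, h1.trans hR, h2⟩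

theorem not_cyclic_of_pow_four [Finite G] {A : Subgroup G} (h8 : Nat.card ↥A = 8)
    (h4 : ∀ a ∈ A, a ^ 4 = 1) : ¬ IsCyclic ↥A := by
  intro h
  obtain ⟨g, hg⟩ := IsCyclic.exists_generator (α := ↥A)
  have h1 : orderOf g = 8 := by rw [← h8]; exact orderOf_eq_card_of_forall_mem_zpowers hg
  have h2 : orderOf g ∣ 4 := by
    apply orderOf_dvd_of_pow_eq_one
    ext1
    push_cast
    exact h4 _ g.2
  rw [h1] at h2
  omega

theorem pow_card_eq_one' [Finite G] {E : Subgroup G} {n : ℕ} (hE : Nat.card ↥E = n) {x : G}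
    (hx : x ∈ E) : x ^ n = 1 := by
  have h1 : (⟨x, hx⟩ : ↥E) ^ n = 1 := by rw [← hE]; exact _root_.pow_card_eq_one'
  exact congrArg Subtype.val h1

/-- Extending an abelian group of order `4` by a commuting element. -/
theorem na8_of_ext [Finite G] (E R : Subgroup G) (x : G) (hE : Nat.card ↥E = 4)
    (hEc : ∀ a ∈ E, ∀ b ∈ E, a * b = b * a) (hER : E ≤ R) (hxR : x ∈ R) (hxE : x ∉ E)
    (hcx : ∀ e ∈ E, e * x = x * e) (hx2 : x * x ∈ E) (hx4 : x ^ 4 = 1) : NA8 R := by
  let A : Subgroup G :=
    { carrier := {a | a ∈ E ∨ a * x ∈ E}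
      one_mem' := Or.inl E.one_mem
      mul_mem' := by
        rintro a b (ha | ha) (hb | hb)
        · exact Or.inl (E.mul_mem ha hb)
        · right; rw [mul_assoc]; exact E.mul_mem ha hb
        · right
          have e : a * b * x = (a * x) * b := by rw [mul_assoc, hcx b hb, ← mul_assoc]
          rw [e]; exact E.mul_mem ha hb
        · left
          have h1 := hcx _ hb
          have e : a * b = (a * x) * (b * x) * (x * x)⁻¹ := by
            calc a * b = a * (b * x) * x⁻¹ := by group
              _ = a * ((b * x) * x) * x⁻¹ * x⁻¹ := by group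
              _ = a * (x * (b * x)) * x⁻¹ * x⁻¹ := by rw [h1]
              _ = (a * x) * (b * x) * (x * x)⁻¹ := by group
          rw [e]; exact E.mul_mem (E.mul_mem ha hb) (E.inv_mem hx2)
      inv_mem' := by
        rintro a (ha | ha)
        · exact Or.inl (E.inv_mem ha)
        · right
          have h1 := hcx _ (E.inv_mem ha)
          have e : a⁻¹ * x = (x * x) * (a * x)⁻¹ := by
            calc a⁻¹ * x = x * (a * x)⁻¹ * x := by group
              _ = x * ((a * x)⁻¹ * x) := by group
              _ = x * (x * (a * x)⁻¹) := by rw [h1]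
              _ = (x * x) * (a * x)⁻¹ := by group
          rw [e]; exact E.mul_mem hx2 (E.inv_mem ha) }
  have hEA : E ≤ A := fun a ha => Or.inl ha
  have hform : ∀ a ∈ A, ∃ e ∈ E, a = e ∨ a = e * x⁻¹ := by
    rintro a (ha | ha)
    · exact ⟨a, ha, Or.inl rfl⟩
    · exact ⟨a * x, ha, Or.inr (by group)⟩
  have hcx' : ∀ e ∈ E, e * x⁻¹ = x⁻¹ * e := by
    intro e he
    have h1 := hcx e he
    calc e * x⁻¹ = x⁻¹ * (x * e) * x⁻¹ := by group
      _ = x⁻¹ * (e * x) * x⁻¹ := by rw [h1]
      _ = x⁻¹ * e := by group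
  have hcomm : ∀ a ∈ A, ∀ b ∈ A, a * b = b * a := by
    intro a ha b hb
    obtain ⟨e, he, h1⟩ := hform a ha
    obtain ⟨f, hf, h2⟩ := hform b hb
    have c1 : Commute e f := hEc e he f hf
    have c2 : Commute e x⁻¹ := hcx' e he
    have c3 : Commute x⁻¹ f := (hcx' f hf).symm
    have c4 : Commute x⁻¹ x⁻¹ := Commute.refl _
    rcases h1 with h1 | h1 <;> rcases h2 with h2 | h2 <;> rw [h1, h2]
    · exact c1
    · exact c1.mul_right c2
    · exact c1.mul_left c3
    · exact (c1.mul_right c2).mul_left (c3.mul_right c4)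
  have hrel : E.relIndex A = 2 := by
    rw [relIndex_eq_two_iff]
    refine ⟨x, Or.inr hx2, fun b hb => ?_⟩
    by_cases hbE : b ∈ E
    · right
      refine ⟨hbE, fun h => hxE ?_⟩
      have := E.mul_mem (E.inv_mem hbE) h
      simpa using this
    · left
      exact ⟨hb.resolve_left hbE, hbE⟩
  have hcard : Nat.card ↥A = 8 := by
    have h5 := Subgroup.card_mul_index (E.subgroupOf A)
    rw [Nat.card_congr (Subgroup.subgroupOfEquivOfLe hEA).toEquiv] at h5
    change Nat.card ↥E * E.relIndex A = Nat.card ↥A at h5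
    rw [hrel, hE] at h5
    exact h5.symm
  refine ⟨A, ?_, ⟨⟨fun a b => Subtype.ext (hcomm a a.2 b b.2)⟩⟩, ?_, hcard⟩
  · intro a ha
    obtain ⟨e, he, rfl | rfl⟩ := hform a ha
    · exact hER he
    · exact R.mul_mem (hER he) (R.inv_mem hxR)
  · apply not_cyclic_of_pow_four hcard
    intro a ha
    obtain ⟨e, he, rfl | rfl⟩ := hform a ha
    · exact pow_card_eq_one' hE he
    · have hc : Commute e x⁻¹ := hcx' e he
      rw [hc.mul_pow, pow_card_eq_one' hE he, inv_pow, hx4]; simp

theorem na8_of_elem [Finite G] (E : Subgroup G) (hE : 8 ≤ Nat.card ↥E)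
    (hE2 : ∀ x ∈ E, x * x = 1) : NA8 E := by
  have hf2 : Fact (Nat.Prime 2) := ⟨Nat.prime_two⟩
  have hp : IsPGroup 2 ↥E := by
    intro x
    refine ⟨1, ?_⟩
    ext1
    push_cast
    rw [pow_two]
    exact hE2 _ x.2
  obtain ⟨n, hn⟩ := IsPGroup.iff_card.mp hp
  have hn3 : 3 ≤ n := by
    by_contra h
    have : n ≤ 2 := by omega
    have h1 : 2 ^ n ≤ 2 ^ 2 := Nat.pow_le_pow_right (by norm_num) this
    omega
  have hd : 2 ^ 3 ∣ Nat.card ↥E := by rw [hn]; exact pow_dvd_pow 2 hn3
  obtain ⟨K, hK⟩ := Sylow.exists_subgroup_card_pow_prime 2 hd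
  have hcommE : ∀ x ∈ E, ∀ y ∈ E, x * y = y * x := by
    intro x hx y hy
    have h1 := inv_eq_of_mul_eq_one_right (hE2 _ (E.mul_mem hx hy))
    have hx1 := inv_eq_of_mul_eq_one_right (hE2 x hx)
    have hy1 := inv_eq_of_mul_eq_one_right (hE2 y hy)
    rw [← h1, mul_inv_rev, hx1, hy1]
  have hcard : Nat.card ↥(K.map E.subtype) = 8 := by
    rw [Nat.card_congr (K.equivMapOfInjective E.subtype E.subtype_injective).toEquiv.symm, hK]
    norm_num
  refine ⟨K.map E.subtype, Subgroup.map_subtype_le K, ⟨⟨fun a b => Subtype.ext ?_⟩⟩, ?_, hcard⟩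
  · exact hcommE _ (Subgroup.map_subtype_le K a.2) _ (Subgroup.map_subtype_le K b.2)
  · apply not_cyclic_of_pow_four hcard
    intro a ha
    have h1 := hE2 a (Subgroup.map_subtype_le K ha)
    have : a ^ 4 = (a * a) * (a * a) := by simp only [pow_succ, pow_zero, one_mul, mul_assoc]
    rw [this, h1, one_mul]

/-- The group `{1, z, y, y z}`. -/
theorem exists_four (z y : G) (hz : z * z = 1) (hzy : z * y = y * z) (hy : y * y = 1 ∨ y * y = z)
    (hz1 : z ≠ 1) (hy1 : y ≠ 1) (hyz : y ≠ z) :
    ∃ E : Subgroup G, Nat.card ↥E = 4 ∧ (∀ x, x ∈ E ↔ x = 1 ∨ x = z ∨ x = y ∨ x = y * z) := by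
  have hmul : ∀ a b : G, (a = 1 ∨ a = z ∨ a = y ∨ a = y * z) → (b = 1 ∨ b = z ∨ b = y ∨ b = y * z) →
      (a * b = 1 ∨ a * b = z ∨ a * b = y ∨ a * b = y * z) := by
    have e1 : z * (y * z) = y := by rw [← mul_assoc, hzy, mul_assoc, hz, mul_one]
    have e2 : y * z * z = y := by rw [mul_assoc, hz, mul_one]
    have e3 : y * z * y = y * y * z := by rw [mul_assoc, hzy, ← mul_assoc]
    have e4 : y * z * (y * z) = y * y := by rw [mul_assoc, e1]
    have e5 : y * (y * z) = y * y * z := by rw [mul_assoc]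
    rintro a b (rfl | rfl | rfl | rfl) (rfl | rfl | rfl | rfl)
    · simp
    · simp
    · simp
    · simp
    · simp
    · rw [hz]; simp
    · rw [hzy]; simp
    · rw [e1]; simp
    · simp
    · simp
    · rcases hy with h | h <;> rw [h] <;> simp
    · rw [e5]; rcases hy with h | h
      · rw [h]; simp
      · rw [h, hz]; simp
    · simp
    · rw [e2]; simp
    · rw [e3]; rcases hy with h | h
      · rw [h]; simp
      · rw [h, hz]; simp
    · rw [e4]; rcases hy with h | h <;> rw [h] <;> simp
  have hfour : ∀ a : G, (a = 1 ∨ a = z ∨ a = y ∨ a = y * z) → a * (a * (a * a)) = 1 := by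
    have e1 : z * (y * z) = y := by rw [← mul_assoc, hzy, mul_assoc, hz, mul_one]
    have e4 : y * z * (y * z) = y * y := by rw [mul_assoc, e1]
    have hyy : (y * y) * (y * y) = 1 := by rcases hy with h | h <;> rw [h] <;> simp [hz]
    rintro a (rfl | rfl | rfl | rfl)
    · simp
    · rw [hz, mul_one, hz]
    · rw [← mul_assoc]; exact hyy
    · rw [← mul_assoc, e4]; exact hyy
  let E : Subgroup G :=
    { carrier := {x | x = 1 ∨ x = z ∨ x = y ∨ x = y * z}
      one_mem' := Or.inl rfl
      mul_mem' := fun {a b} ha hb => hmul a b ha hb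
      inv_mem' := by
        intro a ha
        have h1 : a⁻¹ = a * (a * a) := inv_eq_of_mul_eq_one_right (hfour a ha)
        change a⁻¹ = 1 ∨ a⁻¹ = z ∨ a⁻¹ = y ∨ a⁻¹ = y * z
        rw [h1]
        exact hmul _ _ ha (hmul _ _ ha ha) }
  refine ⟨E, ?_, fun x => Iff.rfl⟩
  have h1 : (E : Set G) = {1, z, y, y * z} := by
    ext x
    simp only [Set.mem_insert_iff, Set.mem_singleton_iff]
    rfl
  have h2 : Nat.card ↥E = Set.ncard (E : Set G) := rfl
  rw [h2, h1, Set.ncard_insert_of_notMem, Set.ncard_insert_of_notMem, Set.ncard_insert_of_notMem,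
    Set.ncard_singleton]
  · simp only [Set.mem_singleton_iff]
    intro h
    exact hz1 (by simpa using h.symm)
  · simp only [Set.mem_insert_iff, Set.mem_singleton_iff, not_or]
    refine ⟨fun h => hyz h.symm, fun h => ?_⟩
    exact hy1 (by simpa using h.symm)
  · simp only [Set.mem_insert_iff, Set.mem_singleton_iff, not_or]
    refine ⟨fun h => hz1 h.symm, fun h => hy1 h.symm, fun h => ?_⟩
    apply hyz
    have : y * z * z = z := by rw [← h, one_mul]
    rw [mul_assoc, hz, mul_one] at this
    exact this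

/-- Quaternion groups of order `8`, with coordinates. -/
structure Q8 (Y : Subgroup G) (z i j : G) : Prop where
  hi : i ∈ Y
  hj : j ∈ Y
  ii : i * i = z
  jj : j * j = z
  zz : z * z = 1
  z1 : z ≠ 1
  ji : j * i = i * j * z
  gen : ∀ x ∈ Y, x = 1 ∨ x = z ∨ x = i ∨ x = i * z ∨ x = j ∨ x = j * z ∨ x = i * j ∨ x = i * j * z

namespace Q8

variable {Y : Subgroup G} {z i j : G}

theorem hz (q : Q8 Y z i j) : z ∈ Y := by rw [← q.ii]; exact Y.mul_mem q.hi q.hi

theorem zi (q : Q8 Y z i j) : z * i = i * z := by rw [← q.ii]; group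

theorem zj (q : Q8 Y z i j) : z * j = j * z := by rw [← q.jj]; group

theorem zc (q : Q8 Y z i j) : ∀ x ∈ Y, z * x = x * z := by
  intro x hx
  have c1 : Commute z i := q.zi
  have c2 : Commute z j := q.zj
  have c3 : Commute z z := Commute.refl z
  rcases q.gen x hx with rfl | rfl | rfl | rfl | rfl | rfl | rfl | rfl
  · simp
  · rfl
  · exact c1
  · exact c1.mul_right c3
  · exact c2
  · exact c2.mul_right c3
  · exact c1.mul_right c2
  · exact (c1.mul_right c2).mul_right c3

theorem i_ne_one (q : Q8 Y z i j) : i ≠ 1 := by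
  intro h; apply q.z1; rw [← q.ii, h, one_mul]

theorem i_ne_z (q : Q8 Y z i j) : i ≠ z := by
  intro h
  apply q.z1
  have h1 := q.ii
  rw [h, q.zz] at h1
  exact h1.symm

/-- squares -/
theorem sq (q : Q8 Y z i j) : ∀ x ∈ Y, x = 1 ∨ x = z ∨ x * x = z := by
  intro x hx
  have e0 : ∀ w, z * w = w * z → (w * z) * (w * z) = w * w := by
    intro w hw
    calc w * z * (w * z) = w * (z * w) * z := by group
      _ = w * (w * z) * z := by rw [hw]
      _ = w * w * (z * z) := by group
      _ = w * w := by rw [q.zz, mul_one]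
  have eij : (i * j) * (i * j) = z := by
    calc i * j * (i * j) = i * (j * i) * j := by group
      _ = i * (i * j * z) * j := by rw [q.ji]
      _ = i * i * j * (z * j) := by group
      _ = z * j * (j * z) := by rw [q.ii, q.zj]
      _ = z * (j * j) * z := by group
      _ = z * z * z := by rw [q.jj]
      _ = z := by rw [q.zz, one_mul]
  rcases q.gen x hx with h | h | h | h | h | h | h | h
  · exact Or.inl h
  · exact Or.inr (Or.inl h)
  · right; right; rw [h, q.ii]
  · right; right; rw [h, e0 i q.zi, q.ii]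
  · right; right; rw [h, q.jj]
  · right; right; rw [h, e0 j q.zj, q.jj]
  · right; right; rw [h, eij]
  · right; right; rw [h, e0 _ (q.zc _ (Y.mul_mem q.hi q.hj)), eij]

/-- commutation -/
theorem comm_i (q : Q8 Y z i j) : ∀ x ∈ Y, (x * i = i * x ∧ (x = 1 ∨ x = z ∨ x = i ∨ x = i * z)) ∨
    (x * i = i * x * z ∧ (x = j ∨ x = j * z ∨ x = i * j ∨ x = i * j * z)) := by
  intro x hx
  rcases q.gen x hx with h | h | h | h | h | h | h | h
  · left; refine ⟨by rw [h]; simp, by simp [h]⟩
  · left; refine ⟨by rw [h]; exact q.zi, by simp [h]⟩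
  · left; refine ⟨by rw [h], by simp [h]⟩
  · left; refine ⟨?_, by simp [h]⟩
    rw [h, mul_assoc, q.zi]
  · right; refine ⟨by rw [h]; exact q.ji, by simp [h]⟩
  · right; refine ⟨?_, by simp [h]⟩
    rw [h]
    calc j * z * i = j * (z * i) := by group
      _ = (j * i) * z := by rw [q.zi]; group
      _ = i * (j * z) * z := by rw [q.ji]; group
  · right; refine ⟨?_, by simp [h]⟩
    rw [h]
    calc i * j * i = i * (j * i) := by group
      _ = i * (i * j) * z := by rw [q.ji]; group
  · right; refine ⟨?_, by simp [h]⟩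
    rw [h]
    calc i * j * z * i = i * j * (z * i) := by group
      _ = i * (j * i) * z := by rw [q.zi]; group
      _ = i * (i * j * z) * z := by rw [q.ji]

theorem ij (q : Q8 Y z i j) : i * j = j * i * z := by
  rw [q.ji, mul_assoc, q.zz, mul_one]

theorem center (q : Q8 Y z i j) {x : G} (hx : x ∈ Y) (h1 : x * i = i * x) (h2 : x * j = j * x) :
    x = 1 ∨ x = z := by
  rcases q.comm_i x hx with ⟨_, h | h | h | h⟩ | ⟨h, _⟩
  · exact Or.inl h
  · exact Or.inr h
  · exfalso
    rw [h, q.ij] at h2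
    exact q.z1 (by simpa using h2)
  · exfalso
    rw [h] at h2
    have e1 : i * z * j = (j * i * z) * z := by
      calc i * z * j = i * (z * j) := by group
        _ = (i * j) * z := by rw [q.zj]; group
        _ = (j * i * z) * z := by rw [q.ij]
    rw [e1] at h2
    have : j * (i * z) * z = j * (i * z) * 1 := by
      calc j * (i * z) * z = j * i * z * z := by group
        _ = j * (i * z) := h2
        _ = j * (i * z) * 1 := (mul_one _).symm
    exact q.z1 (mul_left_cancel this)
  · exfalso
    rw [h1] at h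
    exact q.z1 (by simpa using h)

/-- the subgroup generated by `i` -/
theorem exists_E (q : Q8 Y z i j) : ∃ E : Subgroup G, Nat.card ↥E = 4 ∧ E ≤ Y ∧
    (∀ x, x ∈ E ↔ x = 1 ∨ x = z ∨ x = i ∨ x = i * z) := by
  obtain ⟨E, h1, h2⟩ := exists_four z i q.zz q.zi (Or.inr q.ii) q.z1 q.i_ne_one q.i_ne_z
  refine ⟨E, h1, ?_, h2⟩
  intro x hx
  rcases (h2 x).mp hx with rfl | rfl | rfl | rfl
  · exact Y.one_mem
  · exact q.hz
  · exact q.hi
  · exact Y.mul_mem q.hi q.hz

theorem card [Finite G] (q : Q8 Y z i j) : Nat.card ↥Y = 8 := by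
  obtain ⟨E, hE4, hEY, hE⟩ := q.exists_E
  have hrel : E.relIndex Y = 2 := by
    rw [relIndex_eq_two_iff]
    have hcom : ∀ x ∈ Y, x ∈ E ↔ x * i = i * x := by
      intro x hx
      rcases q.comm_i x hx with ⟨h1, h2⟩ | ⟨h1, h2⟩
      · exact ⟨fun _ => h1, fun _ => (hE x).mpr h2⟩
      · constructor
        · intro hxE
          rcases (hE x).mp hxE with h | h | h | h
          · rw [h]; simp
          · rw [h]; exact q.zi
          · rw [h]
          · rw [h, mul_assoc, q.zi]
        · intro h
          rw [h] at h1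
          exact absurd (by simpa using h1) q.z1
    have hncom : ∀ x ∈ Y, x ∉ E → x * i = i * x * z := by
      intro x hx hxE
      rcases q.comm_i x hx with ⟨h1, h2⟩ | ⟨h1, h2⟩
      · exact absurd ((hE x).mpr h2) hxE
      · exact h1
    have hjE : j ∉ E := by
      intro h
      have h2 := (hcom j q.hj).mp h
      rw [q.ji] at h2
      exact q.z1 (by simpa using h2)
    refine ⟨j, q.hj, fun b hb => ?_⟩
    by_cases hbE : b ∈ E
    · right
      refine ⟨hbE, fun h => hjE ?_⟩
      have := E.mul_mem (E.inv_mem hbE) h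
      simpa using this
    · left
      refine ⟨(hcom _ (Y.mul_mem hb q.hj)).mpr ?_, hbE⟩
      calc b * j * i = b * (j * i) := by group
        _ = (b * i) * (j * z) := by rw [q.ji]; group
        _ = i * b * (z * j) * z := by rw [hncom b hb hbE]; group
        _ = i * (b * j) * (z * z) := by rw [q.zj]; group
        _ = i * (b * j) := by rw [q.zz, mul_one]
  have h5 := Subgroup.card_mul_index (E.subgroupOf Y)
  rw [Nat.card_congr (Subgroup.subgroupOfEquivOfLe hEY).toEquiv] at h5
  change Nat.card ↥E * E.relIndex Y = Nat.card ↥Y at h5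
  rw [hrel, hE4] at h5
  exact h5.symm

/-- An element normalising the three subgroups of order `4` acts as an element of `Y`. -/
theorem fix (q : Q8 Y z i j) {n : G} (hni : n * i * n⁻¹ = i ∨ n * i * n⁻¹ = i * z)
    (hnj : n * j * n⁻¹ = j ∨ n * j * n⁻¹ = j * z) : ∃ y ∈ Y, ∀ x ∈ Y, (y * n) * x = x * (y * n) := by
  -- it is enough to commute with `i` and `j`
  have key : ∀ m : G, m * i * m⁻¹ = i → m * j * m⁻¹ = j → ∀ x ∈ Y, m * x = x * m := by
    intro m h1 h2 x hx
    have c1 : Commute m i := by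
      change m * i = i * m
      nth_rewrite 2 [← h1]; group
    have c2 : Commute m j := by
      change m * j = j * m
      nth_rewrite 2 [← h2]; group
    have c3 : Commute m z := by rw [← q.ii]; exact c1.mul_right c1
    rcases q.gen x hx with h | h | h | h | h | h | h | h <;> rw [h]
    · simp
    · exact c3
    · exact c1
    · exact c1.mul_right c3
    · exact c2
    · exact c2.mul_right c3
    · exact c1.mul_right c2
    · exact (c1.mul_right c2).mul_right c3
  have cz : ∀ y ∈ Y, y * z * y⁻¹ = z := by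
    intro y hy
    rw [← q.zc y hy]; group
  have ciji : i * j * i⁻¹ = j * z := by rw [q.ij, mul_assoc j i z, ← q.zi]; group
  have cjij : j * i * j⁻¹ = i * z := by rw [q.ji, mul_assoc i j z, ← q.zj]; group
  rcases hni with hi | hi <;> rcases hnj with hj | hj
  · exact ⟨1, Y.one_mem, by rw [one_mul]; exact key n hi hj⟩
  · refine ⟨i, q.hi, key _ ?_ ?_⟩
    · calc i * n * i * (i * n)⁻¹ = i * (n * i * n⁻¹) * i⁻¹ := by group
        _ = i := by rw [hi]; group
    · calc i * n * j * (i * n)⁻¹ = i * (n * j * n⁻¹) * i⁻¹ := by group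
        _ = (i * j * i⁻¹) * (i * z * i⁻¹) := by rw [hj]; group
        _ = j * z * z := by rw [ciji, cz i q.hi]
        _ = j := by rw [mul_assoc, q.zz, mul_one]
  · refine ⟨j, q.hj, key _ ?_ ?_⟩
    · calc j * n * i * (j * n)⁻¹ = j * (n * i * n⁻¹) * j⁻¹ := by group
        _ = (j * i * j⁻¹) * (j * z * j⁻¹) := by rw [hi]; group
        _ = i * z * z := by rw [cjij, cz j q.hj]
        _ = i := by rw [mul_assoc, q.zz, mul_one]
    · calc j * n * j * (j * n)⁻¹ = j * (n * j * n⁻¹) * j⁻¹ := by group
        _ = j := by rw [hj]; group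
  · refine ⟨i * j, Y.mul_mem q.hi q.hj, key _ ?_ ?_⟩
    · calc i * j * n * i * (i * j * n)⁻¹ = i * (j * (n * i * n⁻¹) * j⁻¹) * i⁻¹ := by group
        _ = i * ((j * i * j⁻¹) * (j * z * j⁻¹)) * i⁻¹ := by rw [hi]; group
        _ = i * (i * z * z) * i⁻¹ := by rw [cjij, cz j q.hj]
        _ = i := by rw [mul_assoc i z z, q.zz]; group
    · calc i * j * n * j * (i * j * n)⁻¹ = i * (j * (n * j * n⁻¹) * j⁻¹) * i⁻¹ := by group
        _ = i * (j * (j * z) * j⁻¹) * i⁻¹ := by rw [hj]
        _ = i * (j * (j * z * j⁻¹)) * i⁻¹ := by group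
        _ = i * (j * z) * i⁻¹ := by rw [cz j q.hj]
        _ = (i * j * i⁻¹) * (i * z * i⁻¹) := by group
        _ = j * z * z := by rw [ciji, cz i q.hi]
        _ = j := by rw [mul_assoc, q.zz, mul_one]

end Q8

end Cfsg.Agent.H586.NoAbelianEight
end

-- part: H586/ClassifyNA8
section
/-!
# `2`-groups without noncyclic abelian subgroups of order `8` with an odd order action

`classify`: if `H` has odd order, normalises and does not centralise the `2`-group `Q`, and `Q`
has no noncyclic abelian subgroup of order `8`, then `Q` is a four-group or quaternion of order `8`.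
-/

set_option autoImplicit false

namespace Cfsg.Agent.H586.NoAbelianEight

open Subgroup Cfsg.Agent.H586.OddAct

variable {G : Type*} [Group G]

/-- Elements of `Y` central modulo `A` in a larger `2`-group `N` normalising `Y`. -/
theorem exists_fixed_mod [Finite G] (N Y A : Subgroup G) (hN : IsPGroup 2 ↥N) (hYN : Y ≤ N)
    (hNY : N ≤ normalizer (Y : Set G)) (h : ¬ Y ≤ A) :
    ∃ y ∈ Y, y ∉ A ∧ ∀ n ∈ N, n * y * n⁻¹ * y⁻¹ ∈ A := by
  have hf2 : Fact (Nat.Prime 2) := ⟨Nat.prime_two⟩
  have hnil : Group.IsNilpotent ↥N := hN.isNilpotent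
  have hnor : (Y.subgroupOf N).Normal := (normal_subgroupOf_iff_le_normalizer hYN).mpr hNY
  obtain ⟨x, hx, hxA, hxg⟩ := exists_central_mod (A.subgroupOf N) (Y.subgroupOf N) (by
    intro hle
    apply h
    intro y hy
    have := hle (show (⟨y, hYN hy⟩ : ↥N) ∈ Y.subgroupOf N from by rw [mem_subgroupOf]; exact hy)
    rw [mem_subgroupOf] at this
    exact this)
  rw [mem_subgroupOf] at hx hxA
  refine ⟨x, hx, hxA, fun n hn => ?_⟩
  have := hxg ⟨n, hn⟩
  rw [mem_subgroupOf] at this
  exact this

/-- In a `2`-group a proper subgroup is normalised by an outside element with square inside. -/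
theorem exists_next [Finite G] (Y Q : Subgroup G) (hQ : IsPGroup 2 ↥Q) (hYQ : Y ≤ Q)
    (hne : Y ≠ Q) : ∃ x ∈ Q, x ∉ Y ∧ x * x ∈ Y ∧ x ∈ normalizer (Y : Set G) := by
  have hf2 : Fact (Nat.Prime 2) := ⟨Nat.prime_two⟩
  obtain ⟨n, hn⟩ := IsPGroup.iff_card.mp hQ
  obtain ⟨k, hk⟩ := IsPGroup.iff_card.mp (hQ.to_le hYQ)
  have hkc : Nat.card ↥(Y.subgroupOf Q) = 2 ^ k := by
    rw [Nat.card_congr (Subgroup.subgroupOfEquivOfLe hYQ).toEquiv, hk]
  have hlt : k < n := by
    have hd : Nat.card ↥Y ∣ Nat.card ↥Q := card_dvd_of_le hYQ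
    rw [hn, hk] at hd
    have hle : k ≤ n := (Nat.pow_dvd_pow_iff_le_right (by norm_num)).mp hd
    rcases Nat.lt_or_ge k n with h | h
    · exact h
    · exfalso
      have : k = n := le_antisymm hle h
      apply hne
      apply eq_of_le_of_card_ge hYQ
      rw [hn, hk, this]
  have hd : 2 ^ (k + 1) ∣ Nat.card ↥Q := by rw [hn]; exact pow_dvd_pow 2 hlt
  obtain ⟨K, hK, hYK⟩ := Sylow.exists_subgroup_card_pow_succ hd hkc
  have hidx : ((Y.subgroupOf Q).subgroupOf K).index = 2 := by
    have h5 := Subgroup.card_mul_index ((Y.subgroupOf Q).subgroupOf K)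
    rw [Nat.card_congr (Subgroup.subgroupOfEquivOfLe hYK).toEquiv, hkc, hK, pow_succ] at h5
    exact Nat.eq_of_mul_eq_mul_left (by positivity) h5
  obtain ⟨x, hxK, hxY⟩ : ∃ x ∈ K, x ∉ Y.subgroupOf Q := by
    by_contra h
    push Not at h
    have h1 : Nat.card ↥K ≤ Nat.card ↥(Y.subgroupOf Q) := card_le_of_le h
    rw [hK, hkc, pow_succ] at h1
    have : 0 < 2 ^ k := by positivity
    omega
  have hxY' : (x : G) ∉ Y := by rwa [mem_subgroupOf] at hxY
  have hsq := Subgroup.mul_self_mem_of_index_two hidx ⟨x, hxK⟩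
  rw [mem_subgroupOf, mem_subgroupOf] at hsq
  refine ⟨x, x.2, hxY', hsq, ?_⟩
  -- conjugation
  have hnor : ((Y.subgroupOf Q).subgroupOf K).Normal := Subgroup.normal_of_index_eq_two hidx
  have hzp : zpowers (x : G) ≤ normalizer (Y : Set G) := by
    rw [le_normalizer_iff]
    rintro _ ⟨m, rfl⟩ y hy
    have hyK : (⟨y, hYQ hy⟩ : ↥Q) ∈ K := hYK (by rw [mem_subgroupOf]; exact hy)
    have := hnor.conj_mem ⟨⟨y, hYQ hy⟩, hyK⟩ (by rw [mem_subgroupOf, mem_subgroupOf]; exact hy)
      ((⟨x, hxK⟩ : ↥K) ^ m)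
    rw [mem_subgroupOf, mem_subgroupOf] at this
    simpa using this
  exact hzp (mem_zpowers _)

/-- A minimal `Y` without `NA8`, abelian case. -/
theorem min_card_four [Finite G] {H Y : Subgroup G} (hH : Odd (Nat.card ↥H)) (m : Min H Y)
    (hab : ∀ x ∈ Y, ∀ y ∈ Y, x * y = y * x) (hna : ¬ NA8 Y) :
    Nat.card ↥Y = 4 ∧ ∀ x ∈ Y, x * x = 1 := by
  have hf2 : Fact (Nat.Prime 2) := ⟨Nat.prime_two⟩
  have h1 := m.sq_one hH hab
  refine ⟨?_, h1⟩
  obtain ⟨n, hn⟩ := IsPGroup.iff_card.mp m.two
  have hlt : ¬ 8 ≤ Nat.card ↥Y := fun h => hna (na8_of_elem Y h h1)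
  rcases n with _ | _ | _ | n
  · exfalso
    apply m.nt
    rw [pow_zero] at hn
    have := Subgroup.card_eq_one.mp hn
    intro a _ y hy
    rw [this, mem_bot] at hy
    rw [hy]; group
  · exfalso
    exact m.nt (cen_of_card_two m.inv (by simpa using hn))
  · simpa using hn
  · exfalso
    apply hlt
    rw [hn]
    have : 2 ^ 3 ≤ 2 ^ (n + 1 + 1 + 1) := Nat.pow_le_pow_right (by norm_num) (by omega)
    simpa using this

/-- A minimal `Y` without `NA8`, nonabelian case. -/
theorem min_q8 [Finite G] {H Y : Subgroup G} (hH : Odd (Nat.card ↥H)) (m : Min H Y)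
    (hnab : ¬ ∀ x ∈ Y, ∀ y ∈ Y, x * y = y * x) (hna : ¬ NA8 Y) : ∃ z i j, Q8 Y z i j := by
  have hf2 : Fact (Nat.Prime 2) := ⟨Nat.prime_two⟩
  obtain ⟨_, hfr, hcm⟩ := m.special hH hnab
  -- the centre, inside `G`
  obtain ⟨Z, hZ⟩ : ∃ Z : Subgroup G, ∀ x, x ∈ Z ↔ x ∈ Y ∧ ∀ y ∈ Y, x * y = y * x := by
    refine ⟨Y ⊓ centralizer (Y : Set G), fun x => ?_⟩
    rw [mem_inf, mem_centralizer_iff]
    exact and_congr_right fun _ => ⟨fun h y hy => (h y hy).symm, fun h y hy => (h y hy).symm⟩
  have hZc : ∀ x : ↥Y, x ∈ center ↥Y ↔ (x : G) ∈ Z := by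
    intro x
    rw [hZ, mem_center_iff]
    constructor
    · intro h
      exact ⟨x.2, fun y hy => (congrArg Subtype.val (h ⟨y, hy⟩)).symm⟩
    · rintro ⟨_, h⟩ ⟨y, hy⟩
      exact Subtype.ext (h y hy).symm
  have hZY : Z ≤ Y := fun x hx => ((hZ x).mp hx).1
  have hZcomm : ∀ x ∈ Z, ∀ y ∈ Y, x * y = y * x := fun x hx => ((hZ x).mp hx).2
  have hsqZ : ∀ x ∈ Y, x * x ∈ Z := by
    intro x hx
    have h1 := Cfsg.Agent.Lib.FrattiniBasic.pow_mem_frattini m.two ⟨x, hx⟩
    rw [hfr, hZc] at h1
    simpa [pow_two] using h1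
  have hcmZ : ∀ x ∈ Y, ∀ y ∈ Y, x * y * x⁻¹ * y⁻¹ ∈ Z := by
    intro x hx y hy
    have h1 : (⟨x, hx⟩ : ↥Y) * ⟨y, hy⟩ * (⟨x, hx⟩ : ↥Y)⁻¹ * (⟨y, hy⟩ : ↥Y)⁻¹ ∈ commutator ↥Y :=
      Subgroup.commutator_mem_commutator (mem_top _) (mem_top _)
    rw [hcm, hZc] at h1
    exact h1
  have hcsq : ∀ x ∈ Y, ∀ y ∈ Y, (x * y * x⁻¹ * y⁻¹) * (x * y * x⁻¹ * y⁻¹) = 1 := by
    intro x hx y hy
    have hc := hZcomm _ (hcmZ x hx y hy)
    obtain ⟨c, hcd⟩ : ∃ c, c = x * y * x⁻¹ * y⁻¹ := ⟨_, rfl⟩
    rw [← hcd] at hc ⊢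
    have e1 : x * y = c * y * x := by rw [hcd]; group
    have e2 : (x * x) * y = (c * c) * (y * (x * x)) := by
      calc x * x * y = x * (x * y) := by group
        _ = x * (c * y * x) := by rw [e1]
        _ = (x * c) * y * x := by group
        _ = (c * x) * y * x := by rw [hc x hx]
        _ = c * (x * y) * x := by group
        _ = c * (c * y * x) * x := by rw [e1]
        _ = (c * c) * (y * (x * x)) := by group
    rw [hZcomm _ (hsqZ x hx) y hy] at e2
    have e3 : 1 * (y * (x * x)) = (c * c) * (y * (x * x)) := by rw [one_mul]; exact e2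
    exact (mul_right_cancel e3).symm
  -- `Z` has exponent 2
  have hZ2 : ∀ x ∈ Z, x * x = 1 := by
    let D : Subgroup ↥Y :=
      { carrier := {x | (x : G) ∈ Z ∧ (x : G) * x = 1}
        one_mem' := ⟨Z.one_mem, by simp⟩
        mul_mem' := by
          rintro x y ⟨hx, hx2⟩ ⟨hy, hy2⟩
          refine ⟨Z.mul_mem hx hy, ?_⟩
          have h1 := hZcomm _ hx _ y.2
          change ((x : G) * y) * (x * y) = 1
          calc (x : G) * y * (x * y) = (x * y) * (x * y) := rfl
            _ = (y * x) * (x * y) := by rw [h1]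
            _ = y * (x * x) * y := by group
            _ = y * y := by rw [hx2]; group
            _ = 1 := hy2
        inv_mem' := by
          rintro x ⟨hx, hx2⟩
          refine ⟨Z.inv_mem hx, ?_⟩
          change (x : G)⁻¹ * (x : G)⁻¹ = 1
          rw [← mul_inv_rev, hx2, inv_one] }
    have hle : commutator ↥Y ≤ D := by
      rw [_root_.commutator_def, Subgroup.commutator_le]
      intro x _ y _
      exact ⟨hcmZ _ x.2 _ y.2, hcsq _ x.2 _ y.2⟩
    intro x hx
    have h1 : (⟨x, hZY hx⟩ : ↥Y) ∈ commutator ↥Y := by rw [hcm, hZc]; exact hx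
    exact (hle h1).2
  have hexy : ∃ y ∈ Y, y ∉ Z := by
    by_contra h
    push Not at h
    apply hnab
    intro x hx y hy
    exact hZcomm x (h x hx) y hy
  have hZcard : Nat.card ↥Z = 2 := by
    obtain ⟨n, hn⟩ := IsPGroup.iff_card.mp (m.two.to_le hZY)
    have hlt : ¬ 8 ≤ Nat.card ↥Z := fun h => hna ((na8_of_elem Z h hZ2).mono hZY)
    rcases n with _ | _ | _ | n
    · exfalso
      rw [pow_zero] at hn
      have h1 := Subgroup.card_eq_one.mp hn
      apply hnab
      intro x hx y hy
      have h2 := hcmZ x hx y hy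
      rw [h1, mem_bot] at h2
      calc x * y = (x * y * x⁻¹ * y⁻¹) * (y * x) := by group
        _ = y * x := by rw [h2, one_mul]
    · simpa using hn
    · exfalso
      obtain ⟨y, hy, hyZ⟩ := hexy
      apply hna
      refine na8_of_ext Z Y y (by simpa using hn) (fun a ha b hb => hZcomm a ha b (hZY hb)) hZY hy
        hyZ (fun e he => hZcomm e he y hy) (hsqZ y hy) ?_
      have : y ^ 4 = (y * y) * (y * y) := by simp only [pow_succ, pow_zero, one_mul, mul_assoc]
      rw [this]; exact hZ2 _ (hsqZ y hy)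
    · exfalso
      apply hlt
      rw [hn]
      have : 2 ^ 3 ≤ 2 ^ (n + 1 + 1 + 1) := Nat.pow_le_pow_right (by norm_num) (by omega)
      simpa using this
  obtain ⟨z, hzZ, hz1, hzall⟩ : ∃ z ∈ Z, z ≠ 1 ∧ ∀ x ∈ Z, x = 1 ∨ x = z := by
    obtain ⟨x, hx, hxu⟩ := (Nat.card_eq_two_iff' (1 : ↥Z)).mp hZcard
    refine ⟨x, x.2, fun h => hx (Subtype.ext h), fun y hy => ?_⟩
    by_cases h : y = 1
    · exact Or.inl h
    · right
      exact congrArg Subtype.val (hxu ⟨y, hy⟩ (fun h' => h (congrArg Subtype.val h')))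
  have hzz : z * z = 1 := hZ2 z hzZ
  have hzY : z ∈ Y := hZY hzZ
  have hzc : ∀ y ∈ Y, z * y = y * z := hZcomm z hzZ
  have hsq : ∀ x ∈ Y, x * x = 1 ∨ x * x = z := fun x hx => hzall _ (hsqZ x hx)
  have hco : ∀ x ∈ Y, ∀ y ∈ Y, x * y = y * x ∨ x * y = y * x * z := by
    intro x hx y hy
    rcases hzall _ (hcmZ x hx y hy) with h | h
    · left
      calc x * y = (x * y * x⁻¹ * y⁻¹) * (y * x) := by group
        _ = y * x := by rw [h, one_mul]
    · right
      calc x * y = (x * y * x⁻¹ * y⁻¹) * (y * x) := by group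
        _ = z * (y * x) := by rw [h]
        _ = y * x * z := hzc _ (Y.mul_mem hy hx)
  -- centralizers
  have hcent : ∀ y ∈ Y, y ≠ 1 → y ≠ z → ∀ x ∈ Y, x * y = y * x →
      x = 1 ∨ x = z ∨ x = y ∨ x = y * z := by
    intro y hy hy1 hyz x hx hxy
    obtain ⟨E, hE4, hE⟩ := exists_four z y hzz (hzc y hy) (hsq y hy) hz1 hy1 hyz
    by_contra hxE
    have hxE' : x ∉ E := fun h => hxE ((hE x).mp h)
    apply hna
    have hEY : E ≤ Y := by
      intro e he
      rcases (hE e).mp he with rfl | rfl | rfl | rfl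
      · exact Y.one_mem
      · exact hzY
      · exact hy
      · exact Y.mul_mem hy hzY
    have c0 : Commute z y := hzc y hy
    have c1 : Commute z x := hzc x hx
    have c2 : Commute y x := hxy.symm
    refine na8_of_ext E Y x hE4 ?_ hEY hx hxE' ?_ ?_ ?_
    · intro a ha b hb
      rcases (hE a).mp ha with rfl | rfl | rfl | rfl
      · simp
      · exact hzc b (hEY hb)
      · rcases (hE b).mp hb with rfl | rfl | rfl | rfl
        · simp
        · exact c0.symm
        · rfl
        · exact (Commute.refl _).mul_right c0.symm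
      · rcases (hE b).mp hb with rfl | rfl | rfl | rfl
        · simp
        · exact c0.symm.mul_left (Commute.refl _)
        · exact (Commute.refl _).mul_left c0
        · rfl
    · intro e he
      rcases (hE e).mp he with rfl | rfl | rfl | rfl
      · simp
      · exact c1
      · exact c2
      · exact c2.mul_left c1
    · rcases hsq x hx with h | h <;> rw [h]
      · exact E.one_mem
      · exact (hE z).mpr (Or.inr (Or.inl rfl))
    · have : x ^ 4 = (x * x) * (x * x) := by simp only [pow_succ, pow_zero, one_mul, mul_assoc]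
      rw [this]
      rcases hsq x hx with h | h <;> rw [h]
      · simp
      · exact hzz
  have hZinv : ∀ h ∈ H, h * z * h⁻¹ = z := by
    intro h hh
    have h1 : h * z * h⁻¹ ∈ Z := by
      rw [hZ]
      refine ⟨le_normalizer_iff.mp m.inv h hh z hzY, fun y hy => ?_⟩
      have h2 := hzc _ (le_normalizer_iff.mp m.inv h⁻¹ (H.inv_mem hh) y hy)
      calc h * z * h⁻¹ * y = h * (z * (h⁻¹ * y * h⁻¹⁻¹)) * h⁻¹ := by group
        _ = h * (h⁻¹ * y * h⁻¹⁻¹ * z) * h⁻¹ := by rw [h2]
        _ = y * (h * z * h⁻¹) := by group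
    rcases hzall _ h1 with h2 | h2
    · exfalso
      apply hz1
      calc z = h⁻¹ * (h * z * h⁻¹) * h := by group
        _ = 1 := by rw [h2]; group
    · exact h2
  -- no outside involutions
  have hninv : ∀ a ∈ Y, a * a = 1 → a = 1 ∨ a = z := by
    intro a ha haa
    by_contra hcon
    push Not at hcon
    obtain ⟨ha1, haz⟩ := hcon
    -- an element not commuting with `a`
    obtain ⟨b, hb, hab⟩ : ∃ b ∈ Y, a * b ≠ b * a := by
      by_contra h
      push Not at h
      rcases hzall a ((hZ a).mpr ⟨ha, h⟩) with h | h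
      · exact ha1 h
      · exact haz h
    have hab' : b * a = a * b * z := by
      rcases hco b hb a ha with h | h
      · exact absurd h.symm hab
      · exact h
    obtain ⟨y, hy, hyy, hay⟩ : ∃ y ∈ Y, y * y = z ∧ y * a = a * y * z := by
      rcases hsq b hb with h | h
      · refine ⟨a * b, Y.mul_mem ha hb, ?_, ?_⟩
        · calc a * b * (a * b) = a * (b * a) * b := by group
            _ = a * (a * b * z) * b := by rw [hab']
            _ = (a * a) * b * (z * b) := by group
            _ = b * (b * z) := by rw [haa, hzc b hb, one_mul]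
            _ = b * b * z := by group
            _ = z := by rw [h, one_mul]
        · calc a * b * a = a * (b * a) := by group
            _ = a * (a * b * z) := by rw [hab']
            _ = a * (a * b) * z := by group
      · exact ⟨b, hb, h, hab'⟩
    have hy1 : y ≠ 1 := by rintro rfl; apply hz1; rw [← hyy, one_mul]
    have hyz : y ≠ z := by rintro rfl; rw [hzz] at hyy; exact hz1 hyy.symm
    obtain ⟨B, hB4, hB⟩ := exists_four z y hzz (hzc y hy) (Or.inr hyy) hz1 hy1 hyz
    have hBY : B ≤ Y := by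
      intro e he
      rcases (hB e).mp he with rfl | rfl | rfl | rfl
      · exact Y.one_mem
      · exact hzY
      · exact hy
      · exact Y.mul_mem hy hzY
    -- commuting with y
    have hByc : ∀ x ∈ Y, x ∈ B ↔ x * y = y * x := by
      intro x hx
      constructor
      · intro hxB
        rcases (hB x).mp hxB with h | h | h | h
        · rw [h]; simp
        · rw [h]; exact hzc y hy
        · rw [h]
        · rw [h, mul_assoc, hzc y hy]
      · intro h
        exact (hB x).mpr (hcent y hy hy1 hyz x hx h)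
    have hay' : a * y = y * a * z := by
      rw [hay, mul_assoc, hzz, mul_one]
    have haB : a ∉ B := by
      intro h
      have h1 := (hByc a ha).mp h
      rw [hay'] at h1
      exact hz1 (by simpa using h1)
    have hnotB : ∀ x ∈ Y, x ∉ B → x * y = y * x * z := by
      intro x hx hxB
      rcases hco x hx y hy with h | h
      · exact absurd ((hByc x hx).mpr h) hxB
      · exact h
    have hprod : ∀ x ∈ Y, x ∉ B → x * a ∈ B := by
      intro x hx hxB
      rw [hByc _ (Y.mul_mem hx ha)]
      calc x * a * y = x * (a * y) := by group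
        _ = (x * y) * (a * z) := by rw [hay']; group
        _ = y * x * (z * a) * z := by rw [hnotB x hx hxB]; group
        _ = y * (x * a) * (z * z) := by rw [hzc a ha]; group
        _ = y * (x * a) := by rw [hzz, mul_one]
    have hBsq : ∀ x ∈ Y, x ∉ B → x * x = 1 := by
      intro x hx hxB
      have h1 := hprod x hx hxB
      have h2 := (hByc _ (Y.mul_mem hx ha)).mp h1
      -- x = b a with b ∈ B, (b a)² = b a b a
      obtain ⟨c, hc⟩ : ∃ c, c = x * a := ⟨_, rfl⟩
      rw [← hc] at h1 h2
      have hx' : x = c * a := by rw [hc, mul_assoc, haa, mul_one]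
      rcases (hB c).mp h1 with h | h | h | h
      · rw [hx', h, one_mul, haa]
      · rw [hx', h]
        calc z * a * (z * a) = (z * a) * (z * a) := rfl
          _ = (a * z) * (z * a) := by rw [hzc a ha]
          _ = a * (z * z) * a := by group
          _ = 1 := by rw [hzz, mul_one, haa]
      · rw [hx', h]
        calc y * a * (y * a) = y * (a * y) * a := by group
          _ = y * (y * a * z) * a := by rw [hay']
          _ = (y * y) * a * (z * a) := by group
          _ = (z * a) * (z * a) := by rw [hyy]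
          _ = (a * z) * (z * a) := by nth_rewrite 1 [hzc a ha]; rfl
          _ = a * (z * z) * a := by group
          _ = 1 := by rw [hzz, mul_one, haa]
      · rw [hx', h]
        calc y * z * a * (y * z * a) = y * (z * a) * (y * z * a) := by group
          _ = y * (a * z) * (y * z * a) := by rw [hzc a ha]
          _ = y * a * (z * y) * (z * a) := by group
          _ = y * a * (y * z) * (z * a) := by rw [hzc y hy]
          _ = y * (a * y) * (z * z) * a := by group
          _ = y * (y * a * z) * a := by rw [hzz, hay', mul_one]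
          _ = (y * y) * a * (z * a) := by group
          _ = (z * a) * (z * a) := by rw [hyy]
          _ = (a * z) * (z * a) := by nth_rewrite 1 [hzc a ha]; rfl
          _ = a * (z * z) * a := by group
          _ = 1 := by rw [hzz, mul_one, haa]
    have hBset : ∀ x, x ∈ B ↔ x ∈ Y ∧ (x = 1 ∨ x = z ∨ x * x = z) := by
      intro x
      constructor
      · intro hx
        refine ⟨hBY hx, ?_⟩
        rcases (hB x).mp hx with h | h | h | h
        · exact Or.inl h
        · exact Or.inr (Or.inl h)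
        · right; right; rw [h, hyy]
        · right; right
          rw [h]
          calc y * z * (y * z) = y * (z * y) * z := by group
            _ = (y * y) * (z * z) := by rw [hzc y hy]; group
            _ = z := by rw [hyy, hzz, mul_one]
      · rintro ⟨hx, h | h | h⟩
        · rw [h]; exact B.one_mem
        · rw [h]; exact (hB z).mpr (Or.inr (Or.inl rfl))
        · by_contra hxB
          rw [hBsq x hx hxB] at h
          exact hz1 h.symm
    have hHB : H ≤ normalizer (B : Set G) := by
      rw [le_normalizer_iff]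
      intro h hh x hx
      rw [hBset] at hx ⊢
      refine ⟨le_normalizer_iff.mp m.inv h hh x hx.1, ?_⟩
      rcases hx.2 with h1 | h1 | h1
      · left; rw [h1]; group
      · right; left; rw [h1]; exact hZinv h hh
      · right; right
        calc h * x * h⁻¹ * (h * x * h⁻¹) = h * (x * x) * h⁻¹ := by group
          _ = z := by rw [h1]; exact hZinv h hh
    have hHZ : H ≤ normalizer (Z : Set G) := by
      rw [le_normalizer_iff]
      intro h hh x hx
      rcases hzall x hx with rfl | rfl
      · have : h * 1 * h⁻¹ = 1 := by group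
        rw [this]; exact Z.one_mem
      · rw [hZinv h hh]; exact hx
    have hZB : Z ≤ B := by
      intro x hx
      rcases hzall x hx with rfl | rfl
      · exact B.one_mem
      · exact (hB x).mpr (Or.inr (Or.inl rfl))
    have hrelZB : Z.relIndex B = 2 := by
      have h5 := Subgroup.card_mul_index (Z.subgroupOf B)
      rw [Nat.card_congr (Subgroup.subgroupOfEquivOfLe hZB).toEquiv] at h5
      change Nat.card ↥Z * Z.relIndex B = Nat.card ↥B at h5
      rw [hZcard, hB4] at h5
      omega
    have hrelBY : B.relIndex Y = 2 := by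
      rw [relIndex_eq_two_iff]
      refine ⟨a, ha, fun x hx => ?_⟩
      by_cases hxB : x ∈ B
      · right
        refine ⟨hxB, fun h => haB ?_⟩
        have := B.mul_mem (B.inv_mem hxB) h
        simpa using this
      · left
        exact ⟨hprod x hx hxB, hxB⟩
    have hZcen : Cen H Z := cen_of_card_two hHZ hZcard
    have hBcen : Cen H B := cen_of_index_two hH (m.two.to_le hBY) hHB hHZ hZB hrelZB hZcen
    exact m.nt (cen_of_index_two hH m.two m.inv hHB hBY hrelBY hBcen)
  -- the coordinates
  obtain ⟨i, hi, j, hj, hij⟩ : ∃ i ∈ Y, ∃ j ∈ Y, i * j ≠ j * i := by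
    by_contra h
    push Not at h
    exact hnab h
  have hi1 : i ≠ 1 := by rintro rfl; apply hij; simp
  have hiz : i ≠ z := by rintro rfl; exact hij (hzc j hj)
  have hj1 : j ≠ 1 := by rintro rfl; apply hij; simp
  have hjz : j ≠ z := by rintro rfl; exact hij (hzc i hi).symm
  have hii : i * i = z := by
    rcases hsq i hi with h | h
    · rcases hninv i hi h with h' | h'
      · exact absurd h' hi1
      · exact absurd h' hiz
    · exact h
  have hjj : j * j = z := by
    rcases hsq j hj with h | h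
    · rcases hninv j hj h with h' | h'
      · exact absurd h' hj1
      · exact absurd h' hjz
    · exact h
  have hji : j * i = i * j * z := by
    rcases hco j hj i hi with h | h
    · exact absurd h.symm hij
    · exact h
  refine ⟨z, i, j, ⟨hi, hj, hii, hjj, hzz, hz1, hji, ?_⟩⟩
  intro x hx
  rcases hco x hx i hi with h | h
  · rcases hcent i hi hi1 hiz x hx h with h | h | h | h
    · exact Or.inl h
    · exact Or.inr (Or.inl h)
    · exact Or.inr (Or.inr (Or.inl h))
    · exact Or.inr (Or.inr (Or.inr (Or.inl h)))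
  · have h1 : x * j * i = i * (x * j) := by
      calc x * j * i = x * (j * i) := by group
        _ = (x * i) * (j * z) := by rw [hji]; group
        _ = i * x * (z * j) * z := by rw [h]; group
        _ = i * (x * j) * (z * z) := by rw [hzc j hj]; group
        _ = i * (x * j) := by rw [hzz, mul_one]
    have hjinv : j⁻¹ = j * z := by
      rw [inv_eq_iff_mul_eq_one]
      calc j * (j * z) = (j * j) * z := by group
        _ = 1 := by rw [hjj, hzz]
    have hx' : ∀ w, x * j = w → x = w * (j * z) := by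
      intro w hw
      rw [← hw, ← hjinv]; group
    rcases hcent i hi hi1 hiz (x * j) (Y.mul_mem hx hj) h1 with h2 | h2 | h2 | h2
    · have := hx' _ h2
      right; right; right; right; right; left
      rw [this, one_mul]
    · have := hx' _ h2
      right; right; right; right; left
      rw [this, ← mul_assoc, hzc j hj, mul_assoc, hzz, mul_one]
    · have := hx' _ h2
      right; right; right; right; right; right; right
      rw [this]; group
    · have := hx' _ h2
      right; right; right; right; right; right; left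
      rw [this]
      calc i * z * (j * z) = i * (z * j) * z := by group
        _ = i * j * (z * z) := by rw [hzc j hj]; group
        _ = i * j := by rw [hzz, mul_one]

theorem inv_inf {H A B : Subgroup G} (hA : H ≤ normalizer (A : Set G))
    (hB : H ≤ normalizer (B : Set G)) : H ≤ normalizer ((A ⊓ B : Subgroup G) : Set G) := by
  rw [le_normalizer_iff] at hA hB ⊢
  intro h hh x hx
  obtain ⟨h1, h2⟩ := mem_inf.mp hx
  exact mem_inf.mpr ⟨hA h hh x h1, hB h hh x h2⟩

theorem inv_centralizer {H A : Subgroup G} (hA : H ≤ normalizer (A : Set G)) :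
    H ≤ normalizer ((centralizer (A : Set G) : Subgroup G) : Set G) := by
  rw [le_normalizer_iff] at hA ⊢
  intro h hh x hx
  rw [mem_centralizer_iff] at hx ⊢
  intro a ha
  have h1 := hx _ (hA h⁻¹ (H.inv_mem hh) a ha)
  calc a * (h * x * h⁻¹) = h * (h⁻¹ * a * h⁻¹⁻¹ * x) * h⁻¹ := by group
    _ = h * (x * (h⁻¹ * a * h⁻¹⁻¹)) * h⁻¹ := by rw [h1]
    _ = h * x * h⁻¹ * a := by group

theorem inv_normalizer {H A : Subgroup G} (hA : H ≤ normalizer (A : Set G)) :
    H ≤ normalizer ((normalizer (A : Set G) : Subgroup G) : Set G) :=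
  hA.trans le_normalizer

theorem inv_sup {H A B : Subgroup G} (hA : H ≤ normalizer (A : Set G))
    (hB : H ≤ normalizer (B : Set G)) : H ≤ normalizer ((A ⊔ B : Subgroup G) : Set G) := by
  have e : A ⊔ B = closure ((A : Set G) ∪ B) := by
    rw [Subgroup.closure_union, Subgroup.closure_eq, Subgroup.closure_eq]
  rw [le_normalizer_iff] at hA hB
  rw [e, le_normalizer_closure_iff]
  rintro h hh g (hg | hg)
  · exact Subgroup.subset_closure (Or.inl (hA h hh g hg))
  · exact Subgroup.subset_closure (Or.inr (hB h hh g hg))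

theorem relIndex_eq {A B : Subgroup G} [Finite G] (hAB : A ≤ B) {a k : ℕ} (hA : Nat.card ↥A = a)
    (hB : Nat.card ↥B = a * k) : A.relIndex B = k := by
  have h5 := Subgroup.card_mul_index (A.subgroupOf B)
  rw [Nat.card_congr (Subgroup.subgroupOfEquivOfLe hAB).toEquiv] at h5
  change Nat.card ↥A * A.relIndex B = Nat.card ↥B at h5
  rw [hA, hB] at h5
  have : 0 < a := by rw [← hA]; exact Nat.card_pos
  exact Nat.eq_of_mul_eq_mul_left this h5

/-- The case of a group of order `4`: `N` centralises `Y`. -/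
theorem four_cent [Finite G] {H Y N : Subgroup G} (hH : Odd (Nat.card ↥H)) (hN : IsPGroup 2 ↥N)
    (hYN : Y ≤ N) (hNY : N ≤ normalizer (Y : Set G)) (hHY : H ≤ normalizer (Y : Set G))
    (hHN : H ≤ normalizer (N : Set G)) (hY4 : Nat.card ↥Y = 4) (hnt : ¬ Cen H Y) :
    ∀ n ∈ N, ∀ y ∈ Y, n * y = y * n := by
  have hF : Y ⊓ centralizer (N : Set G) = Y := by
    by_contra hne
    have hcard : Nat.card ↥(Y ⊓ centralizer (N : Set G) : Subgroup G) ∣ 4 := by
      rw [← hY4]; exact card_dvd_of_le inf_le_left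
    have h1 : Nat.card ↥(Y ⊓ centralizer (N : Set G) : Subgroup G) ≠ 4 := by
      intro h
      exact hne (eq_of_le_of_card_ge inf_le_left (by rw [h, hY4]))
    have h2 : Nat.card ↥(Y ⊓ centralizer (N : Set G) : Subgroup G) ≠ 1 := by
      intro h
      have h3 := Subgroup.card_eq_one.mp h
      have hYb : ¬ Y ≤ ⊥ := by
        intro h4
        rw [le_bot_iff] at h4
        rw [h4, card_bot] at hY4
        omega
      obtain ⟨y, hy, hy1, hyn⟩ := exists_fixed_mod N Y ⊥ hN hYN hNY hYb
      apply hy1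
      rw [← h3]
      refine mem_inf.mpr ⟨hy, mem_centralizer_iff.mpr ?_⟩
      intro n hn
      have h4 := mem_bot.mp (hyn n hn)
      calc n * y = (n * y * n⁻¹ * y⁻¹) * (y * n) := by group
        _ = y * n := by rw [h4, one_mul]
    have h3 : Nat.card ↥(Y ⊓ centralizer (N : Set G) : Subgroup G) = 2 := by
      have h4 := Nat.le_of_dvd (by norm_num) hcard
      interval_cases h5 : Nat.card ↥(Y ⊓ centralizer (N : Set G) : Subgroup G) <;> omega
    have hinv := inv_inf hHY (inv_centralizer hHN)
    exact hnt (cen_of_index_two hH (hN.to_le hYN) hHY hinv inf_le_left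
      (relIndex_eq inf_le_left h3 (by rw [hY4])) (cen_of_card_two hinv h3))
  intro n hn y hy
  rw [← hF] at hy
  exact mem_centralizer_iff.mp (mem_inf.mp hy).2 n hn

theorem Q8.norm_z {Y : Subgroup G} {z i j : G} (q : Q8 Y z i j) {n : G}
    (hn : n ∈ normalizer (Y : Set G)) : n * z * n⁻¹ = z := by
  have h1 : ∀ x ∈ Y, n * x * n⁻¹ ∈ Y := fun x hx => (hn x).mp hx
  have h2 : ∀ x ∈ Y, n⁻¹ * x * n ∈ Y := fun x hx => by
    have := ((normalizer (Y : Set G)).inv_mem hn x).mp hx
    rwa [inv_inv] at this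
  have h3 : ∀ x ∈ Y, (n * z * n⁻¹) * x = x * (n * z * n⁻¹) := by
    intro x hx
    have h4 := q.zc _ (h2 x hx)
    calc n * z * n⁻¹ * x = n * (z * (n⁻¹ * x * n)) * n⁻¹ := by group
      _ = n * ((n⁻¹ * x * n) * z) * n⁻¹ := by rw [h4]
      _ = x * (n * z * n⁻¹) := by group
  rcases q.center (h1 z q.hz) (h3 i q.hi) (h3 j q.hj) with h | h
  · exfalso
    apply q.z1
    calc z = n⁻¹ * (n * z * n⁻¹) * n := by group
      _ = 1 := by rw [h]; group
  · exact h

/-- The case of a quaternion group: `N` acts trivially on `Y / Z(Y)`. -/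
theorem q8_cent [Finite G] {H Y N : Subgroup G} {z i j : G} (q : Q8 Y z i j)
    (hH : Odd (Nat.card ↥H)) (hN : IsPGroup 2 ↥N)
    (hYN : Y ≤ N) (hNY : N ≤ normalizer (Y : Set G)) (hHY : H ≤ normalizer (Y : Set G))
    (hHN : H ≤ normalizer (N : Set G)) (hnt : ¬ Cen H Y) :
    ∀ n ∈ N, ∀ y ∈ Y, n * y * n⁻¹ = y ∨ n * y * n⁻¹ = y * z := by
  have hzN : ∀ n ∈ N, n * z * n⁻¹ = z := fun n hn => q.norm_z (hNY hn)
  have hzH : ∀ h ∈ H, h * z * h⁻¹ = z := fun h hh => q.norm_z (hHY hh)
  have hzinv : z⁻¹ = z := inv_eq_of_mul_eq_one_right q.zz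
  let F : Subgroup G :=
    { carrier := {y | y ∈ Y ∧ ∀ n ∈ N, n * y * n⁻¹ = y ∨ n * y * n⁻¹ = y * z}
      one_mem' := ⟨Y.one_mem, fun n _ => by left; group⟩
      mul_mem' := by
        rintro a b ⟨ha, ha'⟩ ⟨hb, hb'⟩
        refine ⟨Y.mul_mem ha hb, fun n hn => ?_⟩
        have e : n * (a * b) * n⁻¹ = (n * a * n⁻¹) * (n * b * n⁻¹) := by group
        have e1 : a * z * b = a * b * z := by rw [mul_assoc, q.zc b hb, ← mul_assoc]
        rw [e]
        rcases ha' n hn with h | h <;> rcases hb' n hn with h' | h' <;> rw [h, h']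
        · left; rfl
        · right; group
        · right; exact e1
        · left
          calc a * z * (b * z) = (a * z * b) * z := by group
            _ = a * b * (z * z) := by rw [e1]; group
            _ = a * b := by rw [q.zz, mul_one]
      inv_mem' := by
        rintro a ⟨ha, ha'⟩
        refine ⟨Y.inv_mem ha, fun n hn => ?_⟩
        have e : n * a⁻¹ * n⁻¹ = (n * a * n⁻¹)⁻¹ := by group
        rw [e]
        rcases ha' n hn with h | h <;> rw [h]
        · left; rfl
        · right; rw [mul_inv_rev, hzinv]; exact q.zc _ (Y.inv_mem ha) }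
  have hFY : F ≤ Y := fun x hx => hx.1
  have hHF : H ≤ normalizer (F : Set G) := by
    rw [le_normalizer_iff]
    rintro h hh y ⟨hy, hy'⟩
    refine ⟨le_normalizer_iff.mp hHY h hh y hy, fun n hn => ?_⟩
    have h1 := le_normalizer_iff.mp hHN h⁻¹ (H.inv_mem hh) n hn
    have e : n * (h * y * h⁻¹) * n⁻¹ = h * ((h⁻¹ * n * h⁻¹⁻¹) * y * (h⁻¹ * n * h⁻¹⁻¹)⁻¹) * h⁻¹ := by
      group
    rw [e]
    rcases hy' _ h1 with h2 | h2 <;> rw [h2]
    · left; rfl
    · right
      calc h * (y * z) * h⁻¹ = (h * y * h⁻¹) * (h * z * h⁻¹) := by group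
        _ = h * y * h⁻¹ * z := by rw [hzH h hh]
  have hzord : orderOf z = 2 := by
    apply orderOf_eq_prime _ q.z1
    rw [pow_two]; exact q.zz
  have hZcard : Nat.card ↥(zpowers z) = 2 := by rw [Nat.card_zpowers, hzord]
  have hZmem : ∀ x, x ∈ zpowers z ↔ x = 1 ∨ x = z := by
    intro x
    constructor
    · rintro ⟨k, rfl⟩
      simp only
      rcases Int.even_or_odd' k with ⟨m, rfl | rfl⟩
      · left
        have : z ^ (2 : ℤ) = 1 := by
          rw [zpow_two, q.zz]
        rw [zpow_mul, this, one_zpow]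
      · right
        have : z ^ (2 : ℤ) = 1 := by
          rw [zpow_two, q.zz]
        rw [zpow_add, zpow_mul, this, one_zpow, one_mul, zpow_one]
    · rintro (rfl | rfl)
      · exact Subgroup.one_mem _
      · exact mem_zpowers _
  have hZF : zpowers z ≤ F := by
    rw [zpowers_le]
    exact ⟨q.hz, fun n hn => Or.inl (hzN n hn)⟩
  have hHZ : H ≤ normalizer (zpowers z : Set G) := by
    rw [le_normalizer_iff]
    intro h hh x hx
    rw [hZmem] at hx ⊢
    rcases hx with rfl | rfl
    · left; group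
    · right; exact hzH h hh
  have hYcard := q.card
  have hF : F = Y := by
    by_contra hne
    obtain ⟨y, hy, hyZ, hyn⟩ := exists_fixed_mod N Y (zpowers z) hN hYN hNY (by
      intro hle
      have h1 := card_le_of_le hle
      rw [hYcard, hZcard] at h1
      omega)
    have hyF : y ∈ F := by
      refine ⟨hy, fun n hn => ?_⟩
      have e : n * y * n⁻¹ = (n * y * n⁻¹ * y⁻¹) * y := by group
      rcases (hZmem _).mp (hyn n hn) with h | h
      · left; rw [e, h, one_mul]
      · right; rw [e, h]; exact q.zc y hy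
    have hd1 : Nat.card ↥F ∣ 8 := by rw [← hYcard]; exact card_dvd_of_le hFY
    have hd2 : 2 ∣ Nat.card ↥F := by rw [← hZcard]; exact card_dvd_of_le hZF
    have hne8 : Nat.card ↥F ≠ 8 := by
      intro h
      exact hne (eq_of_le_of_card_ge hFY (by rw [h, hYcard]))
    have hne2 : Nat.card ↥F ≠ 2 := by
      intro h
      have h1 : zpowers z = F := eq_of_le_of_card_ge hZF (by rw [h, hZcard])
      rw [← h1] at hyF
      exact hyZ hyF
    have hF4 : Nat.card ↥F = 4 := by
      have h1 := Nat.le_of_dvd (by norm_num) hd1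
      interval_cases h5 : Nat.card ↥F <;> omega
    have hFcen : Cen H F := cen_of_index_two hH ((hN.to_le hYN).to_le hFY) hHF hHZ hZF
      (relIndex_eq hZF hZcard (by rw [hF4])) (cen_of_card_two hHZ hZcard)
    exact hnt (cen_of_index_two hH (hN.to_le hYN) hHY hHF hFY
      (relIndex_eq hFY hF4 (by rw [hYcard])) hFcen)
  intro n hn y hy
  rw [← hF] at hy
  exact hy.2 n hn

/-- A quaternion group properly contained in `Q` is centralised by an outside element. -/
theorem q8_ext [Finite G] {H Y Q : Subgroup G} {z i j : G} (q : Q8 Y z i j)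
    (hH : Odd (Nat.card ↥H)) (hQ : IsPGroup 2 ↥Q) (hYQ : Y ≤ Q) (hne : Y ≠ Q)
    (hHY : H ≤ normalizer (Y : Set G)) (hHQ : H ≤ normalizer (Q : Set G)) (hnt : ¬ Cen H Y) :
    ∃ x ∈ Q, x ∉ Y ∧ (∀ y ∈ Y, x * y = y * x) ∧ (x * x = 1 ∨ x * x = z) := by
  obtain ⟨x, hxQ, hxY, hxx, hxN⟩ := exists_next Y Q hQ hYQ hne
  have h1 := q8_cent q hH (N := Q ⊓ normalizer (Y : Set G)) (hQ.to_le inf_le_left)
    (le_inf hYQ le_normalizer) inf_le_right hHY (inv_inf hHQ (inv_normalizer hHY)) hnt x
    (mem_inf.mpr ⟨hxQ, hxN⟩)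
  obtain ⟨y, hy, hyx⟩ := q.fix (h1 i q.hi) (h1 j q.hj)
  refine ⟨y * x, Q.mul_mem (hYQ hy) hxQ, ?_, hyx, ?_⟩
  · intro h
    apply hxY
    have := Y.mul_mem (Y.inv_mem hy) h
    simpa using this
  · have h2 : (y * x) * (y * x) ∈ Y := by
      have e : (y * x) * (y * x) = y * y * (x * x) := by
        have h3 := hyx y⁻¹ (Y.inv_mem hy)
        calc (y * x) * (y * x) = y * ((y⁻¹ * (y * x)) * (y * x)) := by group
          _ = y * ((y * x) * y⁻¹ * (y * x)) := by rw [← h3]
          _ = y * y * (x * x) := by group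
      rw [e]
      exact Y.mul_mem (Y.mul_mem hy hy) hxx
    apply q.center h2
    · rw [mul_assoc, hyx i q.hi, ← mul_assoc, hyx i q.hi, mul_assoc]
    · rw [mul_assoc, hyx j q.hj, ← mul_assoc, hyx j q.hj, mul_assoc]

theorem q8_na8 [Finite G] {Y R : Subgroup G} {z i j : G} (q : Q8 Y z i j) (hYR : Y ≤ R) {x : G}
    (hxR : x ∈ R) (hxY : x ∉ Y) (hxc : ∀ y ∈ Y, x * y = y * x) (hxx : x * x = 1 ∨ x * x = z) :
    NA8 R := by
  obtain ⟨E, hE4, hEY, hE⟩ := q.exists_E
  refine na8_of_ext E R x hE4 ?_ (hEY.trans hYR) hxR (fun h => hxY (hEY h))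
    (fun e he => (hxc e (hEY he)).symm) ?_ ?_
  · intro a ha b hb
    rcases (hE a).mp ha with rfl | rfl | rfl | rfl
    · simp
    · exact q.zc b (hEY hb)
    · rcases (hE b).mp hb with rfl | rfl | rfl | rfl
      · simp
      · exact q.zi.symm
      · rfl
      · rw [mul_assoc, q.zi]
    · have h1 := q.zc b (hEY hb)
      rcases (hE b).mp hb with rfl | rfl | rfl | rfl
      · simp
      · rw [mul_assoc, ← mul_assoc b i b, q.zi, mul_assoc]
      · rw [mul_assoc, q.zi]
      · rfl
  · rcases hxx with h | h <;> rw [h]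
    · exact E.one_mem
    · exact (hE z).mpr (Or.inr (Or.inl rfl))
  · have : x ^ 4 = (x * x) * (x * x) := by simp only [pow_succ, pow_zero, one_mul, mul_assoc]
    rw [this]
    rcases hxx with h | h <;> rw [h]
    · simp
    · exact q.zz

/-- **Classification**: a `2`-group without noncyclic abelian subgroups of order `8` on which a
group of odd order acts nontrivially is a four-group or quaternion of order `8`. -/
theorem classify [Finite G] {H Q : Subgroup G} (hH : Odd (Nat.card ↥H)) (hQ : IsPGroup 2 ↥Q)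
    (hHQ : H ≤ normalizer (Q : Set G)) (hnt : ¬ Cen H Q) (hna : ¬ NA8 Q) :
    (Nat.card ↥Q = 4 ∧ ∀ x ∈ Q, x * x = 1) ∨ ∃ z i j, Q8 Q z i j := by
  obtain ⟨Y, hYQ, m⟩ := exists_min hQ hHQ hnt
  have hnaY : ¬ NA8 Y := fun h => hna (h.mono hYQ)
  by_cases hab : ∀ x ∈ Y, ∀ y ∈ Y, x * y = y * x
  · left
    obtain ⟨h4, h2⟩ := min_card_four hH m hab hnaY
    have hYQ' : Y = Q := by
      by_contra hne
      obtain ⟨x, hxQ, hxY, hxx, hxN⟩ := exists_next Y Q hQ hYQ hne
      have h1 := four_cent hH (N := Q ⊓ normalizer (Y : Set G)) (hQ.to_le inf_le_left)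
        (le_inf hYQ le_normalizer) inf_le_right m.inv (inv_inf hHQ (inv_normalizer m.inv)) h4
        m.nt x (mem_inf.mpr ⟨hxQ, hxN⟩)
      apply hna
      refine na8_of_ext Y Q x h4 hab hYQ hxQ hxY (fun e he => (h1 e he).symm) hxx ?_
      have : x ^ 4 = (x * x) * (x * x) := by simp only [pow_succ, pow_zero, one_mul, mul_assoc]
      rw [this, h2 _ hxx]
    rw [← hYQ']
    exact ⟨h4, h2⟩
  · right
    obtain ⟨z, i, j, q⟩ := min_q8 hH m hab hnaY
    have hYQ' : Y = Q := by
      by_contra hne
      obtain ⟨x, hxQ, hxY, hxc, hxx⟩ := q8_ext q hH hQ hYQ hne m.inv hHQ m.nt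
      exact hna (q8_na8 q hYQ hxQ hxY hxc hxx)
    rw [← hYQ']
    exact ⟨z, i, j, q⟩

end Cfsg.Agent.H586.NoAbelianEight
end

-- part: S4409
section
set_option autoImplicit false
open Cfsg

namespace Cfsg.Agent.S4409

open Subgroup Cfsg.Agent.H586.OddAct Cfsg.Agent.H586.NoAbelianEight
open scoped Pointwise

variable {G : Type*} [Group G]

/-- Change of coordinates in a quaternion group. -/
theorem q8_change {Y : Subgroup G} {z i j : G} (q : Q8 Y z i j) {a b : G} (ha : a ∈ Y)
    (hb : b ∈ Y) (hab : a * b ≠ b * a) : Q8 Y z a b := by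
  have hz := q.hz
  have hzc := q.zc
  have hzz := q.zz
  have hz1 := q.z1
  have hsq := q.sq
  have hcent : ∀ y ∈ Y, y ≠ 1 → y ≠ z → ∀ x ∈ Y, x * y = y * x →
      x = 1 ∨ x = z ∨ x = y ∨ x = y * z := by
    intro y hy hy1 hyz x hx hxy
    have hyy : y * y = z := by
      rcases hsq y hy with h | h | h
      · exact absurd h hy1
      · exact absurd h hyz
      · exact h
    have hyinv : y⁻¹ = y * z := by
      rw [inv_eq_iff_mul_eq_one, ← mul_assoc, hyy, hzz]
    rcases hsq x hx with h | h | h
    · exact Or.inl h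
    · exact Or.inr (Or.inl h)
    · have h1 : (x * y) * (x * y) = 1 := by
        calc x * y * (x * y) = x * (y * x) * y := by group
          _ = x * (x * y) * y := by rw [hxy]
          _ = (x * x) * (y * y) := by group
          _ = 1 := by rw [h, hyy, hzz]
      rcases hsq _ (Y.mul_mem hx hy) with h2 | h2 | h2
      · right; right; right
        rw [← hyinv]
        exact mul_eq_one_iff_eq_inv.mp h2
      · right; right; left
        have : x = z * y⁻¹ := by rw [← h2]; group
        rw [this, hyinv, hzc _ (Y.mul_mem hy hz), mul_assoc, hzz, mul_one]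
      · rw [h1] at h2
        exact absurd h2.symm hz1
  have ha1 : a ≠ 1 := by rintro rfl; apply hab; simp
  have haz : a ≠ z := by rintro rfl; exact hab (hzc b hb)
  have hb1 : b ≠ 1 := by rintro rfl; apply hab; simp
  have hbz : b ≠ z := by rintro rfl; exact hab (hzc a ha).symm
  have haa : a * a = z := by
    rcases hsq a ha with h | h | h
    · exact absurd h ha1
    · exact absurd h haz
    · exact h
  have hbb : b * b = z := by
    rcases hsq b hb with h | h | h
    · exact absurd h hb1
    · exact absurd h hbz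
    · exact h
  have hinv : ∀ y ∈ Y, y * y = z → y⁻¹ = y * z := by
    intro y hy hyy
    rw [inv_eq_iff_mul_eq_one, ← mul_assoc, hyy, hzz]
  -- commutators
  have hco : ∀ x ∈ Y, ∀ y ∈ Y, x * y = y * x ∨ x * y = y * x * z := by
    intro x hx y hy
    rcases hsq x hx with h | h | h
    · left; rw [h]; simp
    · left; rw [h]; exact hzc y hy
    · rcases hsq y hy with h' | h' | h'
      · left; rw [h']; simp
      · left; rw [h']; exact (hzc x hx).symm
      · -- `x y (y x)⁻¹ = x y x⁻¹ y⁻¹ = (x y)^2`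
        have e : x * y * (y * x)⁻¹ = (x * y) * (x * y) := by
          rw [mul_inv_rev, hinv x hx h, hinv y hy h']
          calc x * y * (x * z * (y * z)) = x * y * x * (z * y) * z := by group
            _ = x * y * x * (y * z) * z := by rw [hzc y hy]
            _ = x * y * (x * y) * (z * z) := by group
            _ = x * y * (x * y) := by rw [hzz, mul_one]
        rcases hsq _ (Y.mul_mem hx hy) with h2 | h2 | h2
        · left
          have : y = x⁻¹ := (inv_eq_of_mul_eq_one_right h2).symm
          rw [this]; group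
        · left
          rw [h2, hzz] at e
          calc x * y = (x * y * (y * x)⁻¹) * (y * x) := by group
            _ = y * x := by rw [h2, e, one_mul]
        · right
          rw [h2] at e
          calc x * y = (x * y * (y * x)⁻¹) * (y * x) := by group
            _ = z * (y * x) := by rw [e]
            _ = y * x * z := hzc _ (Y.mul_mem hy hx)
  have hba : b * a = a * b * z := by
    rcases hco b hb a ha with h | h
    · exact absurd h.symm hab
    · exact h
  refine ⟨ha, hb, haa, hbb, hzz, hz1, hba, ?_⟩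
  intro x hx
  rcases hco x hx a ha with h | h
  · rcases hcent a ha ha1 haz x hx h with h | h | h | h
    · exact Or.inl h
    · exact Or.inr (Or.inl h)
    · exact Or.inr (Or.inr (Or.inl h))
    · exact Or.inr (Or.inr (Or.inr (Or.inl h)))
  · have h1 : x * b * a = a * (x * b) := by
      calc x * b * a = x * (b * a) := by group
        _ = (x * a) * (b * z) := by rw [hba]; group
        _ = a * x * (z * b) * z := by rw [h]; group
        _ = a * (x * b) * (z * z) := by rw [hzc b hb]; group
        _ = a * (x * b) := by rw [hzz, mul_one]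
    have hx' : ∀ w, x * b = w → x = w * (b * z) := by
      intro w hw
      rw [← hw, ← hinv b hb hbb]; group
    rcases hcent a ha ha1 haz (x * b) (Y.mul_mem hx hb) h1 with h2 | h2 | h2 | h2
    · have := hx' _ h2
      right; right; right; right; right; left
      rw [this, one_mul]
    · have := hx' _ h2
      right; right; right; right; left
      rw [this, ← mul_assoc, hzc b hb, mul_assoc, hzz, mul_one]
    · have := hx' _ h2
      right; right; right; right; right; right; right
      rw [this]; group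
    · have := hx' _ h2
      right; right; right; right; right; right; left
      rw [this]
      calc a * z * (b * z) = a * (z * b) * z := by group
        _ = a * b * (z * z) := by rw [hzc b hb]; group
        _ = a * b := by rw [hzz, mul_one]

/-- The isomorphism with the quaternion group. -/
theorem q8_iso [Finite G] {Y : Subgroup G} {z i j : G} (q : Q8 Y z i j) :
    Nonempty (↥Y ≃* QuaternionGroup 2) := by
  have hi4 : orderOf i = 2 * 2 := by
    have h4 : i ^ (2 ^ 2) = 1 := by
      have : i ^ (2 ^ 2) = (i * i) * (i * i) := by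
        rw [show (2 ^ 2 : ℕ) = 4 from rfl]
        simp only [pow_succ, pow_zero, one_mul, mul_assoc]
      rw [this, q.ii, q.zz]
    have hn : ¬ i ^ (2 ^ 1) = 1 := by
      rw [pow_one, pow_two, q.ii]; exact q.z1
    have := orderOf_eq_prime_pow hn h4
    simpa using this
  apply Cfsg.Agent.Lib.DihedralRecog.subgroup_quaternion_of_generators (by norm_num) Y i j q.hi q.hj
    hi4
  · rw [q.jj, pow_two, q.ii]
  · have hinv : i⁻¹ = i * z := by rw [inv_eq_iff_mul_eq_one, ← mul_assoc, q.ii, q.zz]
    rw [q.ji, hinv, mul_assoc i j z, ← q.zj]; group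
  · rintro ⟨k, hk⟩
    simp only at hk
    have h1 : Commute i j := by rw [← hk]; exact (Commute.refl i).zpow_right k
    have h2 := q.ij
    have h3 : i * j = j * i := h1
    rw [h3] at h2
    exact q.z1 (by simpa using h2)
  · rw [q.card]

/-- Special groups: squares, commutators and centre, inside `G`. -/
theorem special_facts [Finite G] {Y : Subgroup G} (hs : Cfsg.IsSpecial 2 ↥Y) :
    ∃ Z : Subgroup G, Z ≤ Y ∧ (∀ x, x ∈ Z ↔ x ∈ Y ∧ ∀ y ∈ Y, x * y = y * x) ∧
      Z = (center ↥Y).map Y.subtype ∧ (∀ x ∈ Y, x * x ∈ Z) ∧ ∀ x ∈ Z, x * x = 1 := by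
  have hf2 : Fact (Nat.Prime 2) := ⟨Nat.prime_two⟩
  obtain ⟨h2, hfr, hcm⟩ := hs
  obtain ⟨Z, hZ⟩ : ∃ Z : Subgroup G, ∀ x, x ∈ Z ↔ x ∈ Y ∧ ∀ y ∈ Y, x * y = y * x := by
    refine ⟨Y ⊓ centralizer (Y : Set G), fun x => ?_⟩
    rw [mem_inf, mem_centralizer_iff]
    exact and_congr_right fun _ => ⟨fun h y hy => (h y hy).symm, fun h y hy => (h y hy).symm⟩
  have hZc : ∀ x : ↥Y, x ∈ center ↥Y ↔ (x : G) ∈ Z := by
    intro x
    rw [hZ, mem_center_iff]
    constructor
    · intro h
      exact ⟨x.2, fun y hy => (congrArg Subtype.val (h ⟨y, hy⟩)).symm⟩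
    · rintro ⟨_, h⟩ ⟨y, hy⟩
      exact Subtype.ext (h y hy).symm
  have hZY : Z ≤ Y := fun x hx => ((hZ x).mp hx).1
  have hZcomm : ∀ x ∈ Z, ∀ y ∈ Y, x * y = y * x := fun x hx => ((hZ x).mp hx).2
  have hsqZ : ∀ x ∈ Y, x * x ∈ Z := by
    intro x hx
    have h1 := Cfsg.Agent.Lib.FrattiniBasic.pow_mem_frattini h2 ⟨x, hx⟩
    rw [hfr, hZc] at h1
    simpa [pow_two] using h1
  have hcmZ : ∀ x ∈ Y, ∀ y ∈ Y, x * y * x⁻¹ * y⁻¹ ∈ Z := by
    intro x hx y hy
    have h1 : (⟨x, hx⟩ : ↥Y) * ⟨y, hy⟩ * (⟨x, hx⟩ : ↥Y)⁻¹ * (⟨y, hy⟩ : ↥Y)⁻¹ ∈ commutator ↥Y :=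
      Subgroup.commutator_mem_commutator (mem_top _) (mem_top _)
    rw [hcm, hZc] at h1
    exact h1
  have hcsq : ∀ x ∈ Y, ∀ y ∈ Y, (x * y * x⁻¹ * y⁻¹) * (x * y * x⁻¹ * y⁻¹) = 1 := by
    intro x hx y hy
    have hc := hZcomm _ (hcmZ x hx y hy)
    obtain ⟨c, hcd⟩ : ∃ c, c = x * y * x⁻¹ * y⁻¹ := ⟨_, rfl⟩
    rw [← hcd] at hc ⊢
    have e1 : x * y = c * y * x := by rw [hcd]; group
    have e2 : (x * x) * y = (c * c) * (y * (x * x)) := by
      calc x * x * y = x * (x * y) := by group
        _ = x * (c * y * x) := by rw [e1]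
        _ = (x * c) * y * x := by group
        _ = (c * x) * y * x := by rw [hc x hx]
        _ = c * (x * y) * x := by group
        _ = c * (c * y * x) * x := by rw [e1]
        _ = (c * c) * (y * (x * x)) := by group
    rw [hZcomm _ (hsqZ x hx) y hy] at e2
    have e3 : 1 * (y * (x * x)) = (c * c) * (y * (x * x)) := by rw [one_mul]; exact e2
    exact (mul_right_cancel e3).symm
  have hZ2 : ∀ x ∈ Z, x * x = 1 := by
    let D : Subgroup ↥Y :=
      { carrier := {x | (x : G) ∈ Z ∧ (x : G) * x = 1}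
        one_mem' := ⟨Z.one_mem, by simp⟩
        mul_mem' := by
          rintro x y ⟨hx, hx2⟩ ⟨hy, hy2⟩
          refine ⟨Z.mul_mem hx hy, ?_⟩
          have h1 := hZcomm _ hx _ y.2
          change ((x : G) * y) * (x * y) = 1
          calc (x : G) * y * (x * y) = (x * y) * (x * y) := rfl
            _ = (y * x) * (x * y) := by rw [h1]
            _ = y * (x * x) * y := by group
            _ = y * y := by rw [hx2]; group
            _ = 1 := hy2
        inv_mem' := by
          rintro x ⟨hx, hx2⟩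
          refine ⟨Z.inv_mem hx, ?_⟩
          change (x : G)⁻¹ * (x : G)⁻¹ = 1
          rw [← mul_inv_rev, hx2, inv_one] }
    have hle : commutator ↥Y ≤ D := by
      rw [_root_.commutator_def, Subgroup.commutator_le]
      intro x _ y _
      exact ⟨hcmZ _ x.2 _ y.2, hcsq _ x.2 _ y.2⟩
    intro x hx
    have h1 : (⟨x, hZY hx⟩ : ↥Y) ∈ commutator ↥Y := by rw [hcm, hZc]; exact hx
    exact (hle h1).2
  refine ⟨Z, hZY, hZ, ?_, hsqZ, hZ2⟩
  ext x
  constructor
  · intro hx
    exact ⟨⟨x, hZY hx⟩, (hZc ⟨x, hZY hx⟩).mpr hx, rfl⟩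
  · rintro ⟨y, hy, rfl⟩
    exact (hZc y).mp hy

/-- `H` acts irreducibly on a group of order `4` on which it acts nontrivially. -/
theorem irr [Finite G] {H Y C : Subgroup G} (hH : Odd (Nat.card ↥H)) (hY : IsPGroup 2 ↥Y)
    (hHY : H ≤ normalizer (Y : Set G)) (hHC : H ≤ normalizer (C : Set G))
    (hY4 : Nat.card ↥Y = 4) (hnt : ¬ Cen H Y) (hCY : C ≤ Y) (hC : C ≠ ⊥) : C = Y := by
  have hd : Nat.card ↥C ∣ 4 := by rw [← hY4]; exact card_dvd_of_le hCY
  have h1 : Nat.card ↥C ≠ 1 := fun h => hC (Subgroup.card_eq_one.mp h)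
  have h2 : Nat.card ↥C ≠ 2 := by
    intro h
    exact hnt (cen_of_index_two hH hY hHY hHC hCY (relIndex_eq hCY h (by rw [hY4]))
      (cen_of_card_two hHC h))
  have h4 : Nat.card ↥C = 4 := by
    have h3 := Nat.le_of_dvd (by norm_num) hd
    interval_cases h5 : Nat.card ↥C <;> omega
  exact eq_of_le_of_card_ge hCY (by rw [h4, hY4])

/-- `O_2(S)` has a noncyclic abelian subgroup of order `8` if `S` does. -/
theorem na8_core [Finite G] {H Q : Subgroup G} (hH : Odd (Nat.card ↥H)) (hQ : IsPGroup 2 ↥Q)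
    (hQn : Q.Normal) (hC : centralizer (Q : Set G) ≤ Q) (hnt : ¬ Cen H Q)
    (hA : NA8 (⊤ : Subgroup G)) : NA8 Q := by
  by_contra hna
  have hHQ : H ≤ normalizer (Q : Set G) := by
    rw [le_normalizer_iff]; intro h _ x hx; exact hQn.conj_mem x hx h
  obtain ⟨A, _, hAc, hAcyc, hA8⟩ := hA
  have hAcomm : ∀ x ∈ A, ∀ y ∈ A, x * y = y * x := by
    intro x hx y hy
    exact congrArg Subtype.val (hAc.is_comm.comm (⟨x, hx⟩ : ↥A) ⟨y, hy⟩)
  have hA2 : IsPGroup 2 ↥A := IsPGroup.of_card (n := 3) (by rw [hA8]; norm_num)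
  have hN2 : IsPGroup 2 ↥(A ⊔ Q : Subgroup G) := hA2.to_sup_of_normal_right hQ
  have hNQ : A ⊔ Q ≤ normalizer (Q : Set G) := by
    rw [le_normalizer_iff]; intro h _ x hx; exact hQn.conj_mem x hx h
  rcases classify hH hQ hHQ hnt hna with ⟨hQ4, hQsq⟩ | ⟨z, i, j, q⟩
  · -- four-group
    have hAQ : ¬ A ≤ centralizer (Q : Set G) := by
      intro h
      have h1 := card_le_of_le (h.trans hC)
      rw [hA8, hQ4] at h1
      omega
    obtain ⟨y, hy, hy1, hyn⟩ := exists_fixed_mod (A ⊔ Q) Q ⊥ hN2 le_sup_right hNQ (by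
      intro h
      rw [le_bot_iff] at h
      rw [h, card_bot] at hQ4
      omega)
    rw [mem_bot] at hy1
    have hyA : ∀ a ∈ A, a * y * a⁻¹ = y := by
      intro a ha
      have h1 := mem_bot.mp (hyn a ((le_sup_left : A ≤ A ⊔ Q) ha))
      calc a * y * a⁻¹ = (a * y * a⁻¹ * y⁻¹) * y := by group
        _ = y := by rw [h1, one_mul]
    obtain ⟨w, hw, hwy⟩ : ∃ w ∈ Q, w ∉ zpowers y := by
      by_contra h
      push Not at h
      have h1 := card_le_of_le (show Q ≤ zpowers y from h)
      have h2 : orderOf y = 2 := by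
        apply orderOf_eq_prime _ hy1
        rw [pow_two]; exact hQsq y hy
      rw [hQ4, Nat.card_zpowers, h2] at h1
      omega
    have hw1 : w ≠ 1 := by rintro rfl; exact hwy (Subgroup.one_mem _)
    have hwy' : w ≠ y := by rintro rfl; exact hwy (mem_zpowers _)
    have hcQ : ∀ a ∈ Q, ∀ b ∈ Q, a * b = b * a := by
      intro a ha b hb
      have e1 := inv_eq_of_mul_eq_one_right (hQsq a ha)
      have e2 := inv_eq_of_mul_eq_one_right (hQsq b hb)
      have e3 := inv_eq_of_mul_eq_one_right (hQsq _ (Q.mul_mem ha hb))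
      rw [← e3, mul_inv_rev, e1, e2]
    obtain ⟨E, hE4, hE⟩ := exists_four y w (hQsq y hy) (hcQ y hy w hw) (Or.inl (hQsq w hw)) hy1 hw1 hwy'
    have hEQ : E = Q := by
      apply eq_of_le_of_card_ge
      · intro x hx
        rcases (hE x).mp hx with rfl | rfl | rfl | rfl
        · exact Q.one_mem
        · exact hy
        · exact hw
        · exact Q.mul_mem hw hy
      · rw [hE4, hQ4]
    rw [hEQ] at hE
    -- action on w
    have hact : ∀ a ∈ A, a * w * a⁻¹ = w ∨ a * w * a⁻¹ = w * y := by
      intro a ha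
      have h1 : a * w * a⁻¹ ∈ Q := hQn.conj_mem w hw a
      rcases (hE _).mp h1 with h | h | h | h
      · exfalso
        apply hw1
        calc w = a⁻¹ * (a * w * a⁻¹) * a := by group
          _ = 1 := by rw [h]; group
      · exfalso
        apply hwy'
        calc w = a⁻¹ * (a * w * a⁻¹) * a := by group
          _ = a⁻¹ * (a * y * a⁻¹) * a := by rw [h, hyA a ha]
          _ = y := by group
      · exact Or.inl h
      · exact Or.inr h
    have hcen : ∀ a ∈ A, a * w * a⁻¹ = w → a ∈ centralizer (Q : Set G) := by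
      intro a ha h
      have c1 : Commute a w := by
        change a * w = w * a
        nth_rewrite 2 [← h]; group
      have c2 : Commute a y := by
        change a * y = y * a
        nth_rewrite 2 [← hyA a ha]; group
      rw [mem_centralizer_iff]
      intro x hx
      rcases (hE x).mp hx with rfl | rfl | rfl | rfl
      · simp
      · exact c2.symm
      · exact c1.symm
      · exact (c1.mul_right c2).symm
    obtain ⟨a, ha, haQ⟩ := SetLike.not_le_iff_exists.mp hAQ
    have haw : a * w * a⁻¹ = w * y := by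
      rcases hact a ha with h | h
      · exact absurd (hcen a ha h) haQ
      · exact h
    have hyy := hQsq y hy
    have hrel : (A ⊓ centralizer (Q : Set G)).relIndex A = 2 := by
      rw [relIndex_eq_two_iff]
      refine ⟨a, ha, fun b hb => ?_⟩
      by_cases hbQ : b ∈ centralizer (Q : Set G)
      · right
        refine ⟨mem_inf.mpr ⟨hb, hbQ⟩, fun h => haQ ?_⟩
        have := (centralizer (Q : Set G)).mul_mem
          ((centralizer (Q : Set G)).inv_mem hbQ) (mem_inf.mp h).2
        simpa using this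
      · left
        refine ⟨mem_inf.mpr ⟨A.mul_mem hb ha, hcen _ (A.mul_mem hb ha) ?_⟩, fun h => hbQ (mem_inf.mp h).2⟩
        have hbw : b * w * b⁻¹ = w * y := by
          rcases hact b hb with h | h
          · exact absurd (hcen b hb h) hbQ
          · exact h
        calc b * a * w * (b * a)⁻¹ = b * (a * w * a⁻¹) * b⁻¹ := by group
          _ = (b * w * b⁻¹) * (b * y * b⁻¹) := by rw [haw]; group
          _ = w * (y * y) := by rw [hbw, hyA b hb]; group
          _ = w := by rw [hyy, mul_one]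
    have hc4 : Nat.card ↥(A ⊓ centralizer (Q : Set G) : Subgroup G) = 4 := by
      have h5 := Subgroup.card_mul_index ((A ⊓ centralizer (Q : Set G)).subgroupOf A)
      rw [Nat.card_congr (Subgroup.subgroupOfEquivOfLe inf_le_left).toEquiv] at h5
      change Nat.card ↥(A ⊓ centralizer (Q : Set G) : Subgroup G) *
        (A ⊓ centralizer (Q : Set G)).relIndex A = Nat.card ↥A at h5
      rw [hrel, hA8] at h5
      omega
    have heq : A ⊓ centralizer (Q : Set G) = Q :=
      eq_of_le_of_card_ge (inf_le_right.trans hC) (by rw [hc4, hQ4])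
    apply hAQ
    intro b hb
    rw [mem_centralizer_iff]
    intro x hx
    rw [← heq] at hx
    exact hAcomm x (mem_inf.mp hx).1 b hb
  · -- quaternion group
    have hcentz : ∀ x ∈ centralizer (Q : Set G), x = 1 ∨ x = z := by
      intro x hx
      have h1 := mem_centralizer_iff.mp hx
      exact q.center (hC hx) (h1 i q.hi).symm (h1 j q.hj).symm
    have hzS : ∀ n : G, n * z * n⁻¹ = z := by
      intro n
      apply q.norm_z
      have : (⊤ : Subgroup G) ≤ normalizer (Q : Set G) := by
        rw [le_normalizer_iff]; intro h _ x hx; exact hQn.conj_mem x hx h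
      exact this (mem_top n)
    have hzord : orderOf z = 2 := by
      apply orderOf_eq_prime _ q.z1
      rw [pow_two]; exact q.zz
    have hZmem : ∀ x, x ∈ zpowers z ↔ x = 1 ∨ x = z := by
      intro x
      constructor
      · rintro ⟨k, rfl⟩
        simp only
        rcases Int.even_or_odd' k with ⟨m, rfl | rfl⟩
        · left
          have : z ^ (2 : ℤ) = 1 := by
            rw [zpow_two, q.zz]
          rw [zpow_mul, this, one_zpow]
        · right
          have : z ^ (2 : ℤ) = 1 := by
            rw [zpow_two, q.zz]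
          rw [zpow_add, zpow_mul, this, one_zpow, one_mul, zpow_one]
      · rintro (rfl | rfl)
        · exact Subgroup.one_mem _
        · exact mem_zpowers _
    obtain ⟨y, hy, hyZ, hyn⟩ := exists_fixed_mod (A ⊔ Q) Q (zpowers z) hN2 le_sup_right hNQ (by
      intro hle
      have h1 := card_le_of_le hle
      rw [q.card, Nat.card_zpowers, hzord] at h1
      omega)
    have hy1 : y ≠ 1 := fun h => hyZ ((hZmem y).mpr (Or.inl h))
    have hyz : y ≠ z := fun h => hyZ ((hZmem y).mpr (Or.inr h))
    obtain ⟨w, hw, hyw⟩ : ∃ w ∈ Q, y * w ≠ w * y := by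
      by_contra h
      push Not at h
      rcases q.center hy (h i q.hi) (h j q.hj) with h | h
      · exact hy1 h
      · exact hyz h
    have q' : Q8 Q z y w := q8_change q hy hw hyw
    have hzc := q'.zc
    have hzz := q'.zz
    have hz1 := q'.z1
    have hyA : ∀ a ∈ A, a * y * a⁻¹ = y ∨ a * y * a⁻¹ = y * z := by
      intro a ha
      have e : a * y * a⁻¹ = (a * y * a⁻¹ * y⁻¹) * y := by group
      rcases (hZmem _).mp (hyn a ((le_sup_left : A ≤ A ⊔ Q) ha)) with h | h
      · left; rw [e, h, one_mul]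
      · right; rw [e, h]; exact hzc y hy
    -- action on w
    have hwA : ∀ a ∈ A, (a * w * a⁻¹ = w ∨ a * w * a⁻¹ = w * z) ∨
        (a * w * a⁻¹ = y * w ∨ a * w * a⁻¹ = y * w * z) := by
      intro a ha
      have h1 : a * w * a⁻¹ ∈ Q := hQn.conj_mem w hw a
      have hnc : ¬ (a * w * a⁻¹) * y = y * (a * w * a⁻¹) := by
        intro h
        have h2 : (a * w * a⁻¹) * (a * y * a⁻¹) = (a * y * a⁻¹) * (a * w * a⁻¹) := by
          rcases hyA a ha with h3 | h3 <;> rw [h3]
          · exact h
          · have h4 := hzc _ h1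
            calc a * w * a⁻¹ * (y * z) = (a * w * a⁻¹ * y) * z := by group
              _ = y * (a * w * a⁻¹ * z) := by rw [h]; group
              _ = y * (z * (a * w * a⁻¹)) := by rw [h4]
              _ = y * z * (a * w * a⁻¹) := by group
        apply hyw
        calc y * w = a⁻¹ * ((a * y * a⁻¹) * (a * w * a⁻¹)) * a := by group
          _ = a⁻¹ * ((a * w * a⁻¹) * (a * y * a⁻¹)) * a := by rw [h2]
          _ = w * y := by group
      rcases q'.comm_i _ h1 with ⟨h2, _⟩ | ⟨_, h2 | h2 | h2 | h2⟩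
      · exact absurd h2 hnc
      · exact Or.inl (Or.inl h2)
      · exact Or.inl (Or.inr h2)
      · exact Or.inr (Or.inl h2)
      · exact Or.inr (Or.inr h2)
    have hinQ : ∀ a ∈ A, (a * w * a⁻¹ = w ∨ a * w * a⁻¹ = w * z) → a ∈ Q := by
      intro a ha h
      obtain ⟨b, hb, hba⟩ := q'.fix (hyA a ha) h
      have h1 : b * a ∈ centralizer (Q : Set G) := by
        rw [mem_centralizer_iff]
        intro x hx
        exact (hba x hx).symm
      have := Q.mul_mem (Q.inv_mem hb) (hC h1)
      simpa using this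
    obtain ⟨a, ha, haQ⟩ : ∃ a ∈ A, a ∉ Q := by
      by_contra h
      push Not at h
      have h1 : A = Q := eq_of_le_of_card_ge h (by rw [hA8, q.card])
      apply hyw
      rw [← h1] at hy hw
      exact hAcomm y hy w hw
    have haw : ∀ b ∈ A, b ∉ Q → (b * w * b⁻¹ = y * w ∨ b * w * b⁻¹ = y * w * z) := by
      intro b hb hbQ
      rcases hwA b hb with h | h
      · exact absurd (hinQ b hb h) hbQ
      · exact h
    have hyy := q'.ii
    -- products of two outside elements
    have hprod : ∀ b ∈ A, b ∉ Q → b * a ∈ Q := by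
      intro b hb hbQ
      apply hinQ _ (A.mul_mem hb ha)
      have e : b * a * w * (b * a)⁻¹ = b * (a * w * a⁻¹) * b⁻¹ := by group
      rw [e]
      have ez : b * z * b⁻¹ = z := hzS b
      have e2 : ∀ v ∈ Q, b * (y * w) * b⁻¹ = v → (b * (a * w * a⁻¹) * b⁻¹ = v ∨
          b * (a * w * a⁻¹) * b⁻¹ = v * z) := by
        intro v _ hv
        rcases haw a ha haQ with h | h <;> rw [h]
        · exact Or.inl hv
        · right
          calc b * (y * w * z) * b⁻¹ = (b * (y * w) * b⁻¹) * (b * z * b⁻¹) := by group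
            _ = v * z := by rw [hv, ez]
      have e3 : b * (y * w) * b⁻¹ = w ∨ b * (y * w) * b⁻¹ = w * z := by
        have e4 : b * (y * w) * b⁻¹ = (b * y * b⁻¹) * (b * w * b⁻¹) := by group
        have c1 := hzc w hw
        rw [e4]
        rcases hyA b hb with h | h <;> rcases haw b hb hbQ with h' | h' <;> rw [h, h']
        · right
          rw [← mul_assoc, hyy]; exact c1
        · left
          calc y * (y * w * z) = (y * y) * w * z := by group
            _ = (z * w) * z := by rw [hyy]
            _ = w * (z * z) := by rw [c1]; group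
            _ = w := by rw [hzz, mul_one]
        · left
          calc y * z * (y * w) = y * (z * y) * w := by group
            _ = (y * y) * z * w := by rw [hzc y hy]; group
            _ = w := by rw [hyy, hzz, one_mul]
        · right
          calc y * z * (y * w * z) = y * (z * y) * w * z := by group
            _ = (y * y) * z * w * z := by rw [hzc y hy]; group
            _ = w * z := by rw [hyy, hzz, one_mul]
      rcases e3 with h | h
      · exact e2 w hw h
      · rcases e2 (w * z) (Q.mul_mem hw q'.hz) h with h' | h'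
        · exact Or.inr h'
        · left; rw [h', mul_assoc, hzz, mul_one]
    have hrel : (A ⊓ Q).relIndex A = 2 := by
      rw [relIndex_eq_two_iff]
      refine ⟨a, ha, fun b hb => ?_⟩
      by_cases hbQ : b ∈ Q
      · right
        refine ⟨mem_inf.mpr ⟨hb, hbQ⟩, fun h => haQ ?_⟩
        have := Q.mul_mem (Q.inv_mem hbQ) (mem_inf.mp h).2
        simpa using this
      · left
        exact ⟨mem_inf.mpr ⟨A.mul_mem hb ha, hprod b hb hbQ⟩, fun h => hbQ (mem_inf.mp h).2⟩
    have hc4 : Nat.card ↥(A ⊓ Q : Subgroup G) = 4 := by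
      have h5 := Subgroup.card_mul_index ((A ⊓ Q).subgroupOf A)
      rw [Nat.card_congr (Subgroup.subgroupOfEquivOfLe inf_le_left).toEquiv] at h5
      change Nat.card ↥(A ⊓ Q : Subgroup G) * (A ⊓ Q).relIndex A = Nat.card ↥A at h5
      rw [hrel, hA8] at h5
      omega
    -- elements of `A ∩ Q`
    have hAQ : ∀ x ∈ A, x ∈ Q → x = 1 ∨ x = z ∨ x = y ∨ x = y * z := by
      intro x hx hxQ
      have hax : a * x * a⁻¹ = x := by rw [hAcomm a ha x hx]; group
      rcases q'.comm_i x hxQ with ⟨_, h⟩ | ⟨_, h⟩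
      · exact h
      · exfalso
        have hyw1 : ∀ s t : G, s * w = t * w → s = t := fun s t h => mul_right_cancel h
        have ez : a * z * a⁻¹ = z := hzS a
        -- `a w a⁻¹ = w` or `w z`-type contradictions
        have hcon : ¬ (a * w * a⁻¹ = w ∨ a * w * a⁻¹ = w * z) := fun h => haQ (hinQ a ha h)
        apply hcon
        rcases h with h | h | h | h
        · left; rw [← h]; exact hax
        · left
          rw [h] at hax
          have e1 : (a * w * a⁻¹) * z = w * z := by
            calc (a * w * a⁻¹) * z = (a * w * a⁻¹) * (a * z * a⁻¹) := by rw [ez]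
              _ = a * (w * z) * a⁻¹ := by group
              _ = w * z := hax
          exact mul_right_cancel e1
        · -- x = y w: a (y w) a⁻¹ = y w
          rw [h] at hax
          have e1 : (a * y * a⁻¹) * (a * w * a⁻¹) = y * w := by
            calc (a * y * a⁻¹) * (a * w * a⁻¹) = a * (y * w) * a⁻¹ := by group
              _ = y * w := hax
          rcases hyA a ha with h2 | h2
          · left; rw [h2] at e1; exact mul_left_cancel e1
          · right
            rw [h2, mul_assoc] at e1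
            have e2 := mul_left_cancel e1
            have e3 : a * w * a⁻¹ = z * w := by
              calc a * w * a⁻¹ = (z * z) * (a * w * a⁻¹) := by rw [hzz, one_mul]
                _ = z * (z * (a * w * a⁻¹)) := by group
                _ = z * w := by rw [e2]
            rw [e3]; exact hzc w hw
        · rw [h] at hax
          have e0 : a * (y * w) * a⁻¹ = y * w := by
            have e1 : (a * (y * w) * a⁻¹) * z = (y * w) * z := by
              calc (a * (y * w) * a⁻¹) * z = (a * (y * w) * a⁻¹) * (a * z * a⁻¹) := by rw [ez]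
                _ = a * (y * w * z) * a⁻¹ := by group
                _ = y * w * z := hax
            exact mul_right_cancel e1
          have e1 : (a * y * a⁻¹) * (a * w * a⁻¹) = y * w := by
            calc (a * y * a⁻¹) * (a * w * a⁻¹) = a * (y * w) * a⁻¹ := by group
              _ = y * w := e0
          rcases hyA a ha with h2 | h2
          · left; rw [h2] at e1; exact mul_left_cancel e1
          · right
            rw [h2, mul_assoc] at e1
            have e2 := mul_left_cancel e1
            have e3 : a * w * a⁻¹ = z * w := by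
              calc a * w * a⁻¹ = (z * z) * (a * w * a⁻¹) := by rw [hzz, one_mul]
                _ = z * (z * (a * w * a⁻¹)) := by group
                _ = z * w := by rw [e2]
            rw [e3]; exact hzc w hw
    -- so `y ∈ A`
    obtain ⟨E, hE4, hEQ, hE⟩ := q'.exists_E
    have hAE : A ⊓ Q = E := by
      apply eq_of_le_of_card_ge
      · intro x hx
        exact (hE x).mpr (hAQ x (mem_inf.mp hx).1 (mem_inf.mp hx).2)
      · rw [hE4, hc4]
    have hyA' : y ∈ A := by
      have : y ∈ E := (hE y).mpr (Or.inr (Or.inr (Or.inl rfl)))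
      rw [← hAE] at this
      exact (mem_inf.mp this).1
    have hay : a * y * a⁻¹ = y := by rw [hAcomm a ha y hyA']; group
    -- `a²`
    have haa : a * a ∈ E := by rw [← hAE]; exact mem_inf.mpr ⟨A.mul_mem ha ha, hprod a ha haQ⟩
    have haaw : (a * a) * w * (a * a)⁻¹ = w * z := by
      have ez : a * z * a⁻¹ = z := hzS a
      have e : (a * a) * w * (a * a)⁻¹ = a * (a * w * a⁻¹) * a⁻¹ := by group
      rw [e]
      have c1 := hzc w hw
      rcases haw a ha haQ with h | h <;> rw [h]
      · calc a * (y * w) * a⁻¹ = (a * y * a⁻¹) * (a * w * a⁻¹) := by group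
          _ = (y * y) * w := by rw [hay, h]; group
          _ = w * z := by rw [hyy, c1]
      · calc a * (y * w * z) * a⁻¹ = (a * y * a⁻¹) * (a * w * a⁻¹) * (a * z * a⁻¹) := by group
          _ = (y * y) * w * (z * z) := by rw [hay, h, ez]; group
          _ = w * z := by rw [hyy, hzz, mul_one, c1]
    have hA4 : (a * a) * (a * a) = z := by
      have h1 : a * a ≠ 1 := by
        intro h
        rw [h] at haaw
        apply hz1
        have : w * z = w * 1 := by rw [← haaw]; group
        exact mul_left_cancel this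
      have h2 : a * a ≠ z := by
        intro h
        rw [h] at haaw
        apply hz1
        have : w * z = w * 1 := by rw [← haaw, hzc w hw]; group
        exact mul_left_cancel this
      rcases q'.sq _ (hEQ haa) with h | h | h
      · exact absurd h h1
      · exact absurd h h2
      · exact h
    have hord : orderOf a = 8 := by
      have h8 : a ^ (2 ^ 3) = 1 := by
        have : a ^ (2 ^ 3) = ((a * a) * (a * a)) * ((a * a) * (a * a)) := by
          rw [show (2 ^ 3 : ℕ) = 8 from rfl]
          simp only [pow_succ, pow_zero, one_mul, mul_assoc]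
        rw [this, hA4, hzz]
      have hn : ¬ a ^ (2 ^ 2) = 1 := by
        have : a ^ (2 ^ 2) = (a * a) * (a * a) := by
          rw [show (2 ^ 2 : ℕ) = 4 from rfl]
          simp only [pow_succ, pow_zero, one_mul, mul_assoc]
        rw [this, hA4]; exact hz1
      have := orderOf_eq_prime_pow hn h8
      simpa using this
    apply hAcyc
    apply isCyclic_of_orderOf_eq_card (⟨a, ha⟩ : ↥A)
    rw [hA8, ← hord]
    exact Subgroup.orderOf_mk a ha

/-- A characteristic subgroup is invariant. -/
theorem inv_of_char {H Y : Subgroup G} (hHY : H ≤ normalizer (Y : Set G)) (K : Subgroup ↥Y)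
    [hK : K.Characteristic] : H ≤ normalizer ((K.map Y.subtype : Subgroup G) : Set G) := by
  rw [le_normalizer_iff]
  rintro g hg _ ⟨x, hx, rfl⟩
  have h1 := (Subgroup.characteristic_iff_map_le.mp hK)
    (Y.normalizerMonoidHom ⟨g, hHY hg⟩)
  refine ⟨Y.normalizerMonoidHom ⟨g, hHY hg⟩ x, h1 (mem_map_of_mem _ hx), ?_⟩
  simp

theorem card_map_subtype {Y : Subgroup G} (K : Subgroup ↥Y) :
    Nat.card ↥(K.map Y.subtype) = Nat.card ↥K :=
  (Nat.card_congr (K.equivMapOfInjective Y.subtype Y.subtype_injective).toEquiv).symm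

/-- The structure theorem. -/
theorem structure_thm [Finite G] {H X : Subgroup G} (hH : Odd (Nat.card ↥H)) (hX : IsPGroup 2 ↥X)
    (hHX : H ≤ normalizer (X : Set G)) (hnt : ¬ Cen H X)
    (hmin : ∀ Y ≤ X, H ≤ normalizer (Y : Set G) → NA8 Y → Y = X)
    (hNA : NA8 X) (hnab : ¬ ∀ x ∈ X, ∀ y ∈ X, x * y = y * x) :
    (Cfsg.IsExtraspecial 2 ↥X ∧ 32 ≤ Nat.card ↥X) ∨
    (∃ (X₀ : Subgroup G) (k : ℕ), X₀ ≤ X ∧ X₀.relIndex X = 2 ∧
      Nonempty (↥X₀ ≃* QuaternionGroup (2 ^ (k + 1))) ∧
      X₀ ⊔ (X ⊓ Subgroup.centralizer (X₀ : Set G)) = X) ∨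
    (Cfsg.IsSpecial 2 ↥X ∧ Nat.card ↥(Subgroup.center ↥X) = 4) := by
  have hf2 : Fact (Nat.Prime 2) := ⟨Nat.prime_two⟩
  have hnabX : ∃ x ∈ X, ∃ y ∈ X, x * y ≠ y * x := by
    by_contra h
    push Not at h
    exact hnab h
  -- the centre
  obtain ⟨Z, hZdef⟩ : ∃ Z : Subgroup G, Z = X ⊓ centralizer (X : Set G) := ⟨_, rfl⟩
  have hZ : ∀ x, x ∈ Z ↔ x ∈ X ∧ ∀ y ∈ X, x * y = y * x := by
    intro x
    rw [hZdef, mem_inf, mem_centralizer_iff]
    exact and_congr_right fun _ => ⟨fun h y hy => (h y hy).symm, fun h y hy => (h y hy).symm⟩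
  have hZX : Z ≤ X := fun x hx => ((hZ x).mp hx).1
  have hHZ : H ≤ normalizer (Z : Set G) := by rw [hZdef]; exact inv_inf hHX (inv_centralizer hHX)
  have hZneX : Z ≠ X := by
    intro h
    apply hnab
    intro x hx y hy
    rw [← h] at hx
    exact ((hZ x).mp hx).2 y hy
  have hZna : ¬ NA8 Z := fun h => hZneX (hmin Z hZX hHZ h)
  have hZmap : Z = (center ↥X).map X.subtype := by
    ext x
    constructor
    · intro hx
      refine ⟨⟨x, hZX hx⟩, ?_, rfl⟩
      rw [SetLike.mem_coe, mem_center_iff]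
      rintro ⟨y, hy⟩
      exact Subtype.ext (((hZ x).mp hx).2 y hy).symm
    · rintro ⟨y, hy, rfl⟩
      rw [SetLike.mem_coe, mem_center_iff] at hy
      rw [hZ]
      exact ⟨y.2, fun w hw => (congrArg Subtype.val (hy ⟨w, hw⟩)).symm⟩
  have hZcard : Nat.card ↥Z = Nat.card ↥(center ↥X) := by rw [hZmap, card_map_subtype]
  by_cases hprop : ∃ Y, Y ≤ X ∧ Y ≠ X ∧ H ≤ normalizer (Y : Set G) ∧ ¬ Cen H Y
  · obtain ⟨Y, hYX, hYne, hHY, hYnt⟩ := hprop
    have hYna : ¬ NA8 Y := fun h => hYne (hmin Y hYX hHY h)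
    have hY2 : IsPGroup 2 ↥Y := hX.to_le hYX
    rcases classify hH hY2 hHY hYnt hYna with ⟨hY4, hYsq⟩ | ⟨z, i, j, q⟩
    · -- four-group
      right; right
      have hYab : ∀ a ∈ Y, ∀ b ∈ Y, a * b = b * a := by
        intro a ha b hb
        have e1 := inv_eq_of_mul_eq_one_right (hYsq a ha)
        have e2 := inv_eq_of_mul_eq_one_right (hYsq b hb)
        have e3 := inv_eq_of_mul_eq_one_right (hYsq _ (Y.mul_mem ha hb))
        rw [← e3, mul_inv_rev, e1, e2]
      have hcY := four_cent hH (N := X ⊓ normalizer (Y : Set G)) (hX.to_le inf_le_left)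
        (le_inf hYX le_normalizer) inf_le_right hHY (inv_inf hHX (inv_normalizer hHY)) hY4 hYnt
      obtain ⟨x, hxX, hxY, hxx, hxN⟩ := exists_next Y X hX hYX hYne
      have hxc := hcY x (mem_inf.mpr ⟨hxX, hxN⟩)
      have hCna : NA8 (X ⊓ centralizer (Y : Set G)) := by
        refine na8_of_ext Y _ x hY4 hYab (le_inf hYX ?_) ?_ hxY (fun e he => (hxc e he).symm) hxx ?_
        · intro a ha
          rw [mem_centralizer_iff]
          intro b hb
          exact hYab b hb a ha
        · refine mem_inf.mpr ⟨hxX, mem_centralizer_iff.mpr fun y hy => (hxc y hy).symm⟩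
        · have : x ^ 4 = (x * x) * (x * x) := by simp only [pow_succ, pow_zero, one_mul, mul_assoc]
          rw [this, hYsq _ hxx]
      have hCX := hmin _ inf_le_left (inv_inf hHX (inv_centralizer hHY)) hCna
      have hYZ : Y ≤ Z := by
        intro y hy
        rw [hZ]
        refine ⟨hYX hy, fun w hw => ?_⟩
        rw [← hCX] at hw
        exact mem_centralizer_iff.mp (mem_inf.mp hw).2 y hy
      have hZnt : ¬ Cen H Z := fun h => hYnt (h.mono hYZ)
      have hZ4 : Nat.card ↥Z = 4 := by
        rcases classify hH (hX.to_le hZX) hHZ hZnt hZna with ⟨h, _⟩ | ⟨z, i, j, q⟩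
        · exact h
        · exfalso
          have h1 := ((hZ i).mp q.hi).2 j (hZX q.hj)
          have h2 := q.ij
          rw [h1] at h2
          exact q.z1 (by simpa using h2)
      have hYZ' : Y = Z := eq_of_le_of_card_ge hYZ (by rw [hY4, hZ4])
      -- the Frattini subgroup
      obtain ⟨D, hD⟩ : ∃ D : Subgroup G, D = (frattini ↥X).map X.subtype := ⟨_, rfl⟩
      obtain ⟨C, hC⟩ : ∃ C : Subgroup G, C = (_root_.commutator ↥X).map X.subtype := ⟨_, rfl⟩
      have hDX : D ≤ X := by rw [hD]; exact map_subtype_le _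
      have hCX' : C ≤ X := by rw [hC]; exact map_subtype_le _
      have hHD : H ≤ normalizer (D : Set G) := by rw [hD]; exact inv_of_char hHX _
      have hHC : H ≤ normalizer (C : Set G) := by rw [hC]; exact inv_of_char hHX _
      have hCD : C ≤ D := by
        rw [hC, hD]
        exact Subgroup.map_mono (Cfsg.Agent.S0012.result 2 hX).1
      have hCb : C ≠ ⊥ := by
        intro h
        obtain ⟨x, hx, y, hy, hxy⟩ := hnabX
        apply hxy
        have h1 : (⟨x, hx⟩ : ↥X) * ⟨y, hy⟩ * (⟨x, hx⟩ : ↥X)⁻¹ * (⟨y, hy⟩ : ↥X)⁻¹ ∈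
            _root_.commutator ↥X :=
          Subgroup.commutator_mem_commutator (mem_top _) (mem_top _)
        have h2 : x * y * x⁻¹ * y⁻¹ ∈ C := by rw [hC]; exact mem_map_of_mem X.subtype h1
        rw [h, mem_bot] at h2
        calc x * y = (x * y * x⁻¹ * y⁻¹) * (y * x) := by group
          _ = y * x := by rw [h2, one_mul]
      -- normal nontrivial subgroups meet the centre
      have hmeet : ∀ K : Subgroup G, K ≤ X → X ≤ normalizer (K : Set G) → K ≠ ⊥ → K ⊓ Y ≠ ⊥ := by
        intro K hKX hXK hKb h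
        obtain ⟨k, hk, hk1, hkn⟩ := exists_fixed_mod X K ⊥ hX hKX hXK (by rwa [le_bot_iff])
        rw [mem_bot] at hk1
        apply hk1
        have hkY : k ∈ Y := by
          rw [hYZ', hZ]
          refine ⟨hKX hk, fun w hw => ?_⟩
          have h1 := mem_bot.mp (hkn w hw)
          calc k * w = (w * k * w⁻¹ * k⁻¹)⁻¹ * (w * k) := by group
            _ = w * k := by rw [h1]; group
        have : k ∈ K ⊓ Y := mem_inf.mpr ⟨hk, hkY⟩
        rw [h, mem_bot] at this
        exact this
      have hirr : ∀ K : Subgroup G, K ≤ X → X ≤ normalizer (K : Set G) →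
          H ≤ normalizer (K : Set G) → K ≠ ⊥ → Y ≤ K := by
        intro K hKX hXK hHK hKb
        have h1 := irr hH hY2 hHY (inv_inf hHK hHY) hY4 hYnt inf_le_right (hmeet K hKX hXK hKb)
        rw [← h1]; exact inf_le_left
      have hXX : X ≤ normalizer (X : Set G) := le_normalizer
      have hYD : Y ≤ D := hirr D hDX (by rw [hD]; exact inv_of_char hXX _) hHD
        (fun h => hCb (le_bot_iff.mp (h ▸ hCD)))
      have hYC : Y ≤ C := hirr C hCX' (by rw [hC]; exact inv_of_char hXX _) hHC hCb
      have hDneX : D ≠ X := by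
        intro h
        have h1 : frattini ↥X = ⊤ := by
          apply Subgroup.map_injective X.subtype_injective
          rw [← hD, h, ← MonoidHom.range_eq_map, Subgroup.range_subtype]
        have hX1 : X ≠ ⊥ := by
          intro h2
          apply hCb
          rw [← le_bot_iff, ← h2]; exact hCX'
        have hnt' : Nontrivial ↥X := (Subgroup.nontrivial_iff_ne_bot X).mpr hX1
        obtain ⟨M, hM, _⟩ := (eq_top_or_exists_le_coatom (⊥ : Subgroup ↥X)).resolve_left bot_ne_top
        have h3 : frattini ↥X ≤ M := frattini_le_coatom hM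
        rw [h1, top_le_iff] at h3
        exact hM.1 h3
      have hDna : ¬ NA8 D := fun h => hDneX (hmin D hDX hHD h)
      have hDnt : ¬ Cen H D := fun h => hYnt (h.mono hYD)
      have hD4 : Nat.card ↥D = 4 := by
        rcases classify hH (hX.to_le hDX) hHD hDnt hDna with ⟨h, _⟩ | ⟨z, i, j, q⟩
        · exact h
        · exfalso
          have h1 : ∀ y ∈ Y, y = 1 ∨ y = z := by
            intro y hy
            rcases q.sq y (hYD hy) with h | h | h
            · exact Or.inl h
            · exact Or.inr h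
            · rw [hYsq y hy] at h
              exact absurd h.symm q.z1
          have h2 : (Y : Set G) ⊆ {1, z} := by
            intro y hy
            rcases h1 y hy with h | h <;> simp [h]
          have h3 := Set.ncard_le_ncard h2 (Set.toFinite _)
          have h4 : Set.ncard (Y : Set G) = 4 := hY4
          have h5 : Set.ncard ({1, z} : Set G) ≤ 2 := Set.ncard_insert_le _ _ |>.trans (by
            rw [Set.ncard_singleton])
          omega
      have hDY : D = Y := (eq_of_le_of_card_ge hYD (by rw [hD4, hY4])).symm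
      have hCY : C = Y := le_antisymm (hDY ▸ hCD) hYC
      have hinj : Function.Injective (Subgroup.map X.subtype) :=
        Subgroup.map_injective X.subtype_injective
      refine ⟨⟨hX, hinj ?_, hinj ?_⟩, ?_⟩
      · rw [← hD, ← hZmap, hDY, hYZ']
      · rw [← hC, ← hZmap, hCY, hYZ']
      · rw [← hZcard, hZ4]
    · -- quaternion group
      obtain ⟨x, hxX, hxY, hxc, hxx⟩ := q8_ext q hH hX hYX hYne hHY hHX hYnt
      obtain ⟨C, hC⟩ : ∃ C : Subgroup G, C = X ⊓ centralizer (Y : Set G) := ⟨_, rfl⟩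
      have hCm : ∀ c, c ∈ C ↔ c ∈ X ∧ ∀ y ∈ Y, c * y = y * c := by
        intro c
        rw [hC, mem_inf, mem_centralizer_iff]
        exact and_congr_right fun _ => ⟨fun h y hy => (h y hy).symm, fun h y hy => (h y hy).symm⟩
      have hCX : C ≤ X := fun c hc => ((hCm c).mp hc).1
      have hHC : H ≤ normalizer (C : Set G) := by
        rw [hC]; exact inv_inf hHX (inv_centralizer hHY)
      have hzC : z ∈ C := by
        rw [hCm]; exact ⟨hYX q.hz, q.zc⟩
      have hzord : orderOf z = 2 := by
        apply orderOf_eq_prime _ q.z1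
        rw [pow_two]; exact q.zz
      have hZmem : ∀ x, x ∈ zpowers z ↔ x = 1 ∨ x = z := by
        intro x
        constructor
        · rintro ⟨k, rfl⟩
          simp only
          rcases Int.even_or_odd' k with ⟨m, rfl | rfl⟩
          · left
            have : z ^ (2 : ℤ) = 1 := by
              rw [zpow_two, q.zz]
            rw [zpow_mul, this, one_zpow]
          · right
            have : z ^ (2 : ℤ) = 1 := by
              rw [zpow_two, q.zz]
            rw [zpow_add, zpow_mul, this, one_zpow, one_mul, zpow_one]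
        · rintro (rfl | rfl)
          · exact Subgroup.one_mem _
          · exact mem_zpowers _
      have hYC : ∀ c ∈ C, c ∈ Y → c = 1 ∨ c = z := by
        intro c hc hcY
        have h1 := ((hCm c).mp hc).2
        exact q.center hcY (h1 i q.hi) (h1 j q.hj)
      have hYCinf : Y ⊓ C = zpowers z := by
        ext c
        rw [mem_inf, hZmem]
        constructor
        · rintro ⟨h1, h2⟩; exact hYC c h2 h1
        · rintro (rfl | rfl)
          · exact ⟨Y.one_mem, C.one_mem⟩
          · exact ⟨q.hz, hzC⟩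
      -- key claim
      have hkey : ∀ C₁ : Subgroup G, C₁ ≤ C → z ∈ C₁ → ¬ C₁ ≤ zpowers z →
          H ≤ normalizer (C₁ : Set G) → C₁ = C := by
        intro C₁ hC₁ hz₁ hne₁ hH₁
        have hC₁2 : IsPGroup 2 ↥C₁ := hX.to_le (hC₁.trans hCX)
        obtain ⟨x₁, hx₁, hx₁Z, hx₁x, _⟩ := exists_next (zpowers z) C₁ hC₁2
          (by rwa [zpowers_le]) (fun h => hne₁ h.ge)
        have hx₁c := ((hCm x₁).mp (hC₁ hx₁)).2
        have h1 : NA8 (Y ⊔ C₁) := by
          refine q8_na8 q le_sup_left (le_sup_right (a := Y) hx₁) ?_ hx₁c ((hZmem _).mp hx₁x)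
          intro h
          exact hx₁Z ((hZmem _).mpr (hYC x₁ (hC₁ hx₁) h))
        have h2 : Y ⊔ C₁ = X := hmin _ (sup_le hYX (hC₁.trans hCX)) (inv_sup hHY hH₁) h1
        apply le_antisymm hC₁
        intro c hc
        have hcX : c ∈ Y ⊔ C₁ := by rw [h2]; exact hCX hc
        have hnor : C₁ ≤ normalizer (Y : Set G) := by
          rw [le_normalizer_iff]
          intro a ha y hy
          rw [((hCm a).mp (hC₁ ha)).2 y hy]; simpa using hy
        obtain ⟨y, hy, c₁, hc₁, hyc⟩ : ∃ y ∈ Y, ∃ c₁ ∈ C₁, y * c₁ = c := by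
          have h3 : ((Y ⊔ C₁ : Subgroup G) : Set G) = (Y : Set G) * (C₁ : Set G) :=
            Subgroup.coe_mul_of_right_le_normalizer_left Y C₁ hnor
          have h4 : c ∈ ((Y ⊔ C₁ : Subgroup G) : Set G) := hcX
          rw [h3] at h4
          exact Set.mem_mul.mp h4
        have hyC : y ∈ C := by
          have : y = c * c₁⁻¹ := by rw [← hyc]; group
          rw [this]
          exact C.mul_mem hc (C.inv_mem (hC₁ hc₁))
        rw [← hyc]
        rcases hYC y hyC hy with h | h
        · rw [h, one_mul]; exact hc₁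
        · rw [h]; exact C₁.mul_mem hz₁ hc₁
      have hxC : x ∈ C := (hCm x).mpr ⟨hxX, hxc⟩
      have hxnZ : x ∉ zpowers z := by
        intro h
        rcases (hZmem x).mp h with h | h
        · exact hxY (h ▸ Y.one_mem)
        · exact hxY (h ▸ q.hz)
      have hXYC : Y ⊔ C = X := by
        apply hmin _ (sup_le hYX hCX) (inv_sup hHY hHC)
        exact q8_na8 q le_sup_left (le_sup_right (a := Y) hxC) hxY hxc hxx
      have hnorC : C ≤ normalizer (Y : Set G) := by
        rw [le_normalizer_iff]
        intro a ha y hy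
        rw [((hCm a).mp ha).2 y hy]; simpa using hy
      have hcardX : Nat.card ↥X * 2 = Nat.card ↥C * 8 := by
        have h1 := Cfsg.Agent.GH.C2GrowG.card_sup (K := Y) (H := C) hnorC
        rw [sup_comm, hXYC, inf_comm, hYCinf, Nat.card_zpowers, hzord, q.card] at h1
        exact h1
      have hthird : Nat.card ↥C = 4 → (∃ (X₀ : Subgroup G) (k : ℕ), X₀ ≤ X ∧ X₀.relIndex X = 2 ∧
          Nonempty (↥X₀ ≃* QuaternionGroup (2 ^ (k + 1))) ∧
          X₀ ⊔ (X ⊓ Subgroup.centralizer (X₀ : Set G)) = X) := by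
        intro hC4
        refine ⟨Y, 0, hYX, ?_, ?_, ?_⟩
        · apply relIndex_eq hYX q.card
          rw [hC4] at hcardX
          omega
        · simpa using q8_iso q
        · rw [← hC]; exact hXYC
      by_cases hCcen : Cen H C
      · -- trivial action on `C`
        right; left
        apply hthird
        have hxz : z * x = x * z := (hxc z q.hz).symm
        obtain ⟨E, hE4, hE⟩ := exists_four z x q.zz hxz hxx q.z1
          (fun h => hxnZ ((hZmem x).mpr (Or.inl h))) (fun h => hxnZ ((hZmem x).mpr (Or.inr h)))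
        have hEC : E ≤ C := by
          intro e he
          rcases (hE e).mp he with rfl | rfl | rfl | rfl
          · exact C.one_mem
          · exact hzC
          · exact hxC
          · exact C.mul_mem hxC hzC
        have hEeq : E = C := by
          apply hkey E hEC ((hE z).mpr (Or.inr (Or.inl rfl)))
          · intro h
            exact hxnZ (h ((hE x).mpr (Or.inr (Or.inr (Or.inl rfl)))))
          · rw [le_normalizer_iff]
            intro h hh e he
            rw [hCcen h hh e (hEC he)]; exact he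
        rw [← hEeq, hE4]
      · have hCne : C ≠ X := by
          intro h
          have h1 : i ∈ C := by rw [h]; exact hYX q.hi
          have h2 := ((hCm i).mp h1).2 j q.hj
          have h3 := q.ij
          rw [h2] at h3
          exact q.z1 (by simpa using h3)
        have hCna : ¬ NA8 C := fun h => hCne (hmin C hCX hHC h)
        rcases classify hH (hX.to_le hCX) hHC hCcen hCna with ⟨hC4, _⟩ | ⟨z', i', j', q'⟩
        · right; left; exact hthird hC4
        · left
          -- `z' = z`
          have hzz' : z = z' := by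
            have h1 : ∀ c ∈ C, z * c = c * z := fun c hc => (((hCm c).mp hc).2 z q.hz).symm
            rcases q'.center hzC (h1 _ q'.hi) (h1 _ q'.hj) with h | h
            · exact absurd h q.z1
            · exact h
          have hX32 : Nat.card ↥X = 32 := by
            rw [q'.card] at hcardX
            omega
          have hform : ∀ g ∈ X, ∃ y ∈ Y, ∃ c ∈ C, g = y * c := by
            intro g hg
            have h3 : ((Y ⊔ C : Subgroup G) : Set G) = (Y : Set G) * (C : Set G) :=
              Subgroup.coe_mul_of_right_le_normalizer_left Y C hnorC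
            have h4 : g ∈ ((Y ⊔ C : Subgroup G) : Set G) := by rw [hXYC]; exact hg
            rw [h3] at h4
            obtain ⟨y, hy, c, hc, h⟩ := Set.mem_mul.mp h4
            exact ⟨y, hy, c, hc, h.symm⟩
          have hYsq : ∀ y ∈ Y, y * y = 1 ∨ y * y = z := by
            intro y hy
            rcases q.sq y hy with h | h | h
            · left; rw [h]; simp
            · left; rw [h]; exact q.zz
            · exact Or.inr h
          have hCsq : ∀ c ∈ C, c * c = 1 ∨ c * c = z := by
            intro c hc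
            rcases q'.sq c hc with h | h | h
            · left; rw [h]; simp
            · left; rw [h]; exact q'.zz
            · right; rw [h, hzz']
          have hzX : ∀ g ∈ X, z * g = g * z := by
            intro g hg
            obtain ⟨y, hy, c, hc, rfl⟩ := hform g hg
            have c1 : Commute z y := q.zc y hy
            have c2 : Commute z c := (((hCm c).mp hc).2 z q.hz).symm
            exact c1.mul_right c2
          have hcen : ∀ g ∈ X, (∀ h ∈ X, g * h = h * g) → g = 1 ∨ g = z := by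
            intro g hg hgc
            obtain ⟨y, hy, c, hc, hgyc⟩ := hform g hg
            have h1 : ∀ w ∈ Y, y * w = w * y := by
              intro w hw
              have h2 := hgc w (hYX hw)
              have h3 := ((hCm c).mp hc).2 w hw
              rw [hgyc] at h2
              have h4 : (y * w) * c = (w * y) * c := by
                calc y * w * c = y * (w * c) := by group
                  _ = y * (c * w) := by rw [h3]
                  _ = y * c * w := by group
                  _ = w * (y * c) := h2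
                  _ = (w * y) * c := by group
              exact mul_right_cancel h4
            have h5 : ∀ d ∈ C, c * d = d * c := by
              intro d hd
              have h2 := hgc d (hCX hd)
              have h3 := ((hCm d).mp hd).2 y hy
              rw [hgyc] at h2
              have h4 : y * (c * d) = y * (d * c) := by
                calc y * (c * d) = y * c * d := by group
                  _ = d * (y * c) := h2
                  _ = d * y * c := by group
                  _ = y * d * c := by rw [h3]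
                  _ = y * (d * c) := by group
              exact mul_left_cancel h4
            have hy' := q.center hy (h1 i q.hi) (h1 j q.hj)
            have hc' := q'.center hc (h5 i' q'.hi) (h5 j' q'.hj)
            rw [hgyc]
            rcases hy' with h | h <;> rcases hc' with h' | h' <;> rw [h, h']
            · simp
            · right; rw [one_mul, hzz']
            · right; rw [mul_one]
            · left; rw [← hzz', q.zz]
          have hZeq : Z = zpowers z := by
            ext g
            rw [hZ, hZmem]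
            constructor
            · rintro ⟨h1, h2⟩; exact hcen g h1 h2
            · rintro (rfl | rfl)
              · exact ⟨X.one_mem, fun y _ => by simp⟩
              · exact ⟨hYX q.hz, hzX⟩
          have hcen2 : Nat.card ↥(center ↥X) = 2 := by
            rw [← hZcard, hZeq, Nat.card_zpowers, hzord]
          refine ⟨Cfsg.Agent.J2.ExtQuot.isExtraspecial_two hX hcen2 ?_ ?_, by rw [hX32]⟩
          · rintro ⟨g, hg⟩
            rw [mem_center_iff]
            rintro ⟨h, hh⟩
            apply Subtype.ext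
            change h * (g ^ 2) = (g ^ 2) * h
            obtain ⟨y, hy, c, hc, hgyc⟩ := hform g hg
            have e : g ^ 2 = (y * y) * (c * c) := by
              have h3 := ((hCm c).mp hc).2 y hy
              rw [pow_two, hgyc]
              calc y * c * (y * c) = y * (c * y) * c := by group
                _ = y * (y * c) * c := by rw [h3]
                _ = (y * y) * (c * c) := by group
            have h1 : g ^ 2 = 1 ∨ g ^ 2 = z := by
              rw [e]
              rcases hYsq y hy with h1 | h1 <;> rcases hCsq c hc with h2 | h2 <;> rw [h1, h2]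
              · simp
              · simp
              · simp
              · left; exact q.zz
            rcases h1 with h1 | h1 <;> rw [h1]
            · simp
            · exact (hzX h hh).symm
          · refine ⟨⟨i, hYX q.hi⟩, ⟨j, hYX q.hj⟩, ?_⟩
            intro h
            have h1 : i * j = j * i := congrArg Subtype.val h
            have h2 := q.ij
            rw [h1] at h2
            exact q.z1 (by simpa using h2)
  · -- trivial action on all proper invariant subgroups
    have m : Min H X := by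
      refine ⟨hX, hHX, hnt, fun D hD hHD hDnt => ?_⟩
      by_contra hne
      exact hprop ⟨D, hD, hne, hHD, hDnt⟩
    have hs := m.special hH hnab
    obtain ⟨Z', hZ'X, hZ', hZ'map, hsqZ, hZ2⟩ := special_facts hs
    have hZZ' : Z = Z' := by rw [hZmap, hZ'map]
    rw [← hZZ'] at hsqZ hZ2
    obtain ⟨n, hn⟩ := IsPGroup.iff_card.mp (hX.to_le hZX)
    have hlt : ¬ 8 ≤ Nat.card ↥Z := fun h => hZna (na8_of_elem Z h hZ2)
    rcases n with _ | _ | _ | n
    · exfalso
      rw [pow_zero] at hn
      have h1 := Subgroup.card_eq_one.mp hn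
      obtain ⟨k, hk, hk1, hkn⟩ := exists_fixed_mod X X ⊥ hX le_rfl le_normalizer (by
        intro h
        apply hnab
        intro x hx y _
        rw [mem_bot.mp (h hx)]; simp)
      rw [mem_bot] at hk1
      apply hk1
      rw [← mem_bot, ← h1, hZ]
      refine ⟨hk, fun w hw => ?_⟩
      have h1 := mem_bot.mp (hkn w hw)
      calc k * w = (w * k * w⁻¹ * k⁻¹)⁻¹ * (w * k) := by group
        _ = w * k := by rw [h1]; group
    · left
      have hZ2c : Nat.card ↥(center ↥X) = 2 := by rw [← hZcard]; simpa using hn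
      have hex : Cfsg.IsExtraspecial 2 ↥X := ⟨hs, hZ2c⟩
      refine ⟨hex, ?_⟩
      obtain ⟨r, hr1, hr⟩ := Cfsg.Agent.S0095.result hex
      by_contra hlt32
      have hr1' : r = 1 := by
        by_contra hne
        apply hlt32
        rw [hr]
        have : 2 ^ 5 ≤ 2 ^ (2 * r + 1) := Nat.pow_le_pow_right (by norm_num) (by omega)
        simpa using this
      rw [hr1'] at hr
      obtain ⟨A, hAX, hAc, _, hA8⟩ := hNA
      have hAeq : A = X := eq_of_le_of_card_ge hAX (by rw [hA8, hr]; norm_num)
      apply hnab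
      intro x hx y hy
      rw [← hAeq] at hx hy
      exact congrArg Subtype.val (hAc.is_comm.comm (⟨x, hx⟩ : ↥A) ⟨y, hy⟩)
    · right; right
      exact ⟨hs, by rw [← hZcard]; simpa using hn⟩
    · exfalso
      apply hlt
      rw [hn]
      have : 2 ^ 3 ≤ 2 ^ (n + 1 + 1 + 1) := Nat.pow_le_pow_right (by norm_num) (by omega)
      simpa using this

/-- Let S be a finite solvable group with O_{2'}(S) = 1 that contains a non-cyclic abelian subgroup of order 8, while no proper subgroup of S of 2-power index contains one. Then a Sylow 2-subgroup X of S is normal in S, and one of the following holds: X is abelian; X is extraspecial of order at least 32; X has a generalized quaternion subgroup X₀ of index 2 with X = X₀·C_X(X₀); or X is special with centre of order 4. -/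
theorem result {S : Type*} [Group S] [Finite S]
    [Group.IsSolvable S] (hO : Cfsg.pPrimeCore 2 S = ⊥)
    (h8 : ∃ A : Subgroup S, IsMulCommutative ↥A ∧ ¬ IsCyclic ↥A ∧ Nat.card ↥A = 8)
    (hmin : ∀ R : Subgroup S, R ≠ ⊤ → (∃ k : ℕ, R.index = 2 ^ k) →
      ¬ ∃ A : Subgroup S, A ≤ R ∧ IsMulCommutative ↥A ∧ ¬ IsCyclic ↥A ∧ Nat.card ↥A = 8)
    (X : Sylow 2 S) :
    (X : Subgroup S).Normal ∧
      (IsMulCommutative ↥X ∨
        (Cfsg.IsExtraspecial 2 ↥X ∧ 32 ≤ Nat.card ↥X) ∨
        (∃ (X₀ : Subgroup S) (k : ℕ), X₀ ≤ (X : Subgroup S) ∧ X₀.relIndex (X : Subgroup S) = 2 ∧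
          Nonempty (↥X₀ ≃* QuaternionGroup (2 ^ (k + 1))) ∧ X₀ ⊔ ((X : Subgroup S) ⊓ Subgroup.centralizer (X₀ : Set S)) = (X : Subgroup S)) ∨
        (Cfsg.IsSpecial 2 ↥X ∧ Nat.card ↥(Subgroup.center ↥X) = 4)) := by
  have hf2 : Fact (Nat.Prime 2) := ⟨Nat.prime_two⟩
  obtain ⟨Q, hQdef⟩ : ∃ Q : Subgroup S, Q = Cfsg.pCore 2 S := ⟨_, rfl⟩
  have hQn : Q.Normal := by rw [hQdef]; exact Cfsg.Agent.Lib.Cores.pCore_normal 2
  have hQ2 : IsPGroup 2 ↥Q := by rw [hQdef]; exact Cfsg.Agent.Lib.Cores.pCore_isPGroup 2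
  have hQX : Q ≤ X := by rw [hQdef]; exact Cfsg.Agent.Lib.Cores.pCore_le_sylow X
  have hFQ : Cfsg.fittingSubgroup S = Q := by
    apply le_antisymm
    · rw [hQdef]; exact Cfsg.Agent.SignalizersComponents.CompOrbit.fittingSubgroup_le_pCore hO
    · rw [hQdef]; exact Cfsg.Agent.Lib.Cores.pCore_le_fittingSubgroup 2
  have hC : centralizer (Q : Set S) ≤ Q := by
    have := Cfsg.Agent.S0044.result (G := S)
    rwa [hFQ] at this
  -- Hall 2'-subgroup
  obtain ⟨a, m, hm2, ham⟩ := Nat.exists_eq_pow_mul_and_not_dvd (n := Nat.card S) Nat.card_pos.ne' 2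
    (by norm_num)
  have hmodd : Odd m := by
    rw [← Nat.not_even_iff_odd, even_iff_two_dvd]; exact hm2
  have hcop : m.Coprime (2 ^ a) := (Nat.coprime_two_right.mpr hmodd).pow_right a
  obtain ⟨H, hHm⟩ := Cfsg.Agent.S0003.result (G := S) m (2 ^ a) (by rw [ham, mul_comm]) hcop
  have hHodd : Odd (Nat.card ↥H) := by rw [hHm]; exact hmodd
  have hHidx : H.index = 2 ^ a := by
    have h1 := Subgroup.card_mul_index H
    rw [hHm, ham, mul_comm] at h1
    exact Nat.eq_of_mul_eq_mul_right (Nat.pos_of_ne_zero (by rintro rfl; simp at hm2)) h1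
  have hK : ∀ Y : Subgroup S, NA8 Y → Y ⊔ H = ⊤ := by
    intro Y hY
    by_contra hne
    have hd : (Y ⊔ H).index ∣ 2 ^ a := by
      rw [← hHidx]; exact Subgroup.index_dvd_of_le le_sup_right
    obtain ⟨k, _, hk⟩ := (Nat.dvd_prime_pow Nat.prime_two).mp hd
    exact hmin (Y ⊔ H) hne ⟨k, hk⟩ (hY.mono le_sup_left)
  have hNAtop : NA8 (⊤ : Subgroup S) := by
    obtain ⟨A, h1, h2, h3⟩ := h8
    exact ⟨A, le_top, h1, h2, h3⟩
  have hHQ : H ≤ normalizer (Q : Set S) := by
    rw [le_normalizer_iff]; intro h _ x hx; exact hQn.conj_mem x hx h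
  have hcardS : Nat.card S = Nat.card ↥H * 2 ^ a := by rw [hHm, ham, mul_comm]
  -- if `H` centralises `Q` then `H = 1`
  have hHtriv : Cen H Q → H = ⊥ := by
    intro h
    have h1 : H ≤ Q := (cen_iff.mp h).trans hC
    obtain ⟨n, hn⟩ := IsPGroup.iff_card.mp (hQ2.to_le h1)
    rcases n with _ | n
    · rw [pow_zero] at hn; exact Subgroup.card_eq_one.mp hn
    · exfalso
      rw [hn, pow_succ] at hHodd
      rw [Nat.odd_iff] at hHodd
      omega
  have hbotinv : ∀ Y : Subgroup S, (⊥ : Subgroup S) ≤ normalizer (Y : Set S) := fun _ => bot_le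
  by_cases hcenQ : Cen H Q
  · -- `S` is a 2-group
    have hHb := hHtriv hcenQ
    have hmone : m = 1 := by rw [← hHm, hHb, card_bot]
    have hS2 : IsPGroup 2 S := IsPGroup.of_card (n := a) (by rw [ham, hmone, mul_one])
    obtain ⟨A, hAc, hAcyc, hA8⟩ := h8
    have hAtop : A = ⊤ := by
      have h1 := hK A ⟨A, le_rfl, hAc, hAcyc, hA8⟩
      rwa [hHb, sup_bot_eq] at h1
    have hXtop : (X : Subgroup S) = ⊤ := by
      rw [← top_le_iff, ← (Cfsg.Agent.Lib.Cores.pCore_eq_top_iff 2).mpr hS2, ← hQdef]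
      exact hQX
    refine ⟨by rw [hXtop]; infer_instance, Or.inl ?_⟩
    refine ⟨⟨?_⟩⟩
    rintro ⟨x, hx⟩ ⟨y, hy⟩
    apply Subtype.ext
    change x * y = y * x
    have hx' : x ∈ A := by rw [hAtop]; trivial
    have hy' : y ∈ A := by rw [hAtop]; trivial
    exact congrArg Subtype.val (hAc.is_comm.comm (⟨x, hx'⟩ : ↥A) ⟨y, hy'⟩)
  · have hNAQ : NA8 Q := na8_core hHodd hQ2 hQn hC hcenQ hNAtop
    -- invariant subgroups with `NA8` are everything
    have hcopQ : Nat.Coprime (Nat.card ↥(X : Subgroup S)) (Nat.card ↥H) := by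
      obtain ⟨n, hn⟩ := IsPGroup.iff_card.mp X.isPGroup'
      rw [hn]
      exact (Nat.coprime_two_left.mpr hHodd).pow_left n
    have hmain : ∀ Y : Subgroup S, Y ≤ X → H ≤ normalizer (Y : Set S) → NA8 Y → Y = X := by
      intro Y hYX hHY hY
      have h1 := Cfsg.Agent.GH.C2GrowG.card_sup (K := Y) (H := H) hHY
      rw [sup_comm, hK Y hY, Subgroup.card_top] at h1
      have h2 : Nat.card ↥(X : Subgroup S) ∣ Nat.card ↥H * Nat.card ↥Y := by
        rw [← h1]
        exact (Subgroup.card_subgroup_dvd_card (X : Subgroup S)).mul_right _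
      have h3 := hcopQ.dvd_of_dvd_mul_left h2
      exact eq_of_le_of_card_ge hYX (Nat.le_of_dvd Nat.card_pos h3)
    have hQX' : Q = X := hmain Q hQX hHQ hNAQ
    rw [hQX'] at hHQ hcenQ hNAQ hQn
    refine ⟨hQn, ?_⟩
    by_cases hab : ∀ x ∈ (X : Subgroup S), ∀ y ∈ (X : Subgroup S), x * y = y * x
    · left
      exact ⟨⟨fun x y => Subtype.ext (hab x x.2 y y.2)⟩⟩
    · right
      exact structure_thm hHodd X.isPGroup' hHQ hcenQ hmain hNAQ hab

end Cfsg.Agent.S4409
end
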