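import Cfsg.Statements.S4410
import Cfsg.Agent.Lib.Cores
import Cfsg.Agent.S0044
import Mathlib.Tactic.LinearCombination
import Mathlib.Tactic.Module
import Mathlib.Algebra.Module.ZMod
set_option linter.all false

set_option autoImplicit false
open Cfsg

namespace Cfsg.Agent.S4410

section Aux

variable {V : Type*} [AddCommGroup V] [Module (ZMod 2) V]

theorem add_self_eq_zero (v : V) : v + v = 0 := by
  have h : (2 : ZMod 2) • v = 0 := by
    have : (2 : ZMod 2) = 0 := by decide
    rw [this, zero_smul]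
  rwa [two_smul] at h

theorem zcases (c : ZMod 2) : c = 0 ∨ c = 1 := by
  revert c; decide

/-- product of two transvections which is unipotent has order dividing 4 -/
theorem pow_four (a b : V ≃ₗ[ZMod 2] V) (f g : V →ₗ[ZMod 2] ZMod 2) (u w : V)
    (ha : ∀ v, a v = v + f v • u) (hb : ∀ v, b v = v + g v • w) (hu : f u = 0) (hw : g w = 0)
    (h : f w = 0 ∨ g u = 0) : (a * b) ^ 4 = 1 := by
  have h2 : ∀ v : V, v + v = 0 := add_self_eq_zero
  have hsq : ∀ v, (a * b) ((a * b) v) = v + (f v * g u) • w + (g v * f w) • u := by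
    intro v
    rcases h with h | h
    · simp only [LinearEquiv.mul_apply, ha, hb, map_add, map_smul, hu, hw, h, smul_eq_mul, mul_zero,
        add_zero, zero_smul, add_smul, smul_add, mul_comm (f v)]
      have e1 := h2 (f v • u)
      have e2 := h2 (g v • w)
      linear_combination (norm := module) e1 + e2
    · simp only [LinearEquiv.mul_apply, ha, hb, map_add, map_smul, hu, hw, h, smul_eq_mul, mul_zero,
        add_zero, zero_smul, add_smul, smul_add, mul_zero]
      have e1 := h2 (f v • u)
      have e2 := h2 (g v • w)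
      have e3 := h2 ((g v * f w) • u)
      linear_combination (norm := module) e1 + e2 + e3
  ext v
  have : ((a * b) ^ 4) v = (a * b) ((a * b) ((a * b) ((a * b) v))) := by
    simp [pow_succ, LinearEquiv.mul_apply]
  rw [this, hsq, hsq]
  simp only [LinearEquiv.coe_one, id]
  have e1 := h2 ((f v * g u) • w)
  have e2 := h2 ((g v * f w) • u)
  rcases h with h | h
  · simp only [map_add, map_smul, hu, hw, h, smul_eq_mul, mul_zero, add_zero, zero_smul, zero_mul] at *
    linear_combination (norm := module) e1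
  · simp only [map_add, map_smul, hu, hw, h, smul_eq_mul, mul_zero, add_zero, zero_smul, zero_mul] at *
    linear_combination (norm := module) e2

theorem core (N : Subgroup (V ≃ₗ[ZMod 2] V)) (hN4 : ∀ n ∈ N, n ^ 4 = 1 → n = 1)
    (P : V ≃ₗ[ZMod 2] V) (hPN : ∀ n ∈ N, P * n * P⁻¹ ∈ N) (h4 : P ^ 4 = 1)
    (f : V →ₗ[ZMod 2] ZMod 2) (u : V) (hf : ∀ v, P (P v) = v + f v • u)
    (x : V ≃ₗ[ZMod 2] V) (hx : x ∈ N) (hxt : P ^ 2 * x ≠ x * P ^ 2) : False := by
  have h2 : ∀ v : V, v + v = 0 := add_self_eq_zero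
  obtain ⟨t, htdef⟩ : ∃ t, t = P ^ 2 := ⟨_, rfl⟩
  rw [← htdef] at hxt
  have ht : ∀ v, t v = v + f v • u := by
    intro v; rw [htdef, pow_two, LinearEquiv.mul_apply, hf]
  have htt : t * t = 1 := by
    rw [htdef, ← pow_add]; exact h4
  have ht1 : t ≠ 1 := by
    rintro rfl; exact hxt (by simp)
  have hu0 : u ≠ 0 := by
    rintro rfl
    apply ht1
    ext v
    simp [ht]
  obtain ⟨v₀, hv₀⟩ : ∃ v₀, f v₀ = 1 := by
    by_contra hcon
    push Not at hcon
    apply ht1
    ext v
    rw [ht]
    rcases zcases (f v) with h | h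
    · simp [h]
    · exact absurd h (hcon v)
  have hP3 : ∀ v, f (P v) • u = f v • P u := by
    intro v
    have e1 := hf (P v)
    have e2 := congrArg P (hf v)
    rw [e1, map_add, map_smul] at e2
    exact add_left_cancel e2
  have hPu0 : P u ≠ 0 := by
    intro h; exact hu0 (by simpa using h)
  have hPu : P u = u := by
    have := hP3 v₀
    rw [hv₀, one_smul] at this
    rcases zcases (f (P v₀)) with h | h
    · rw [h, zero_smul] at this; exact absurd this.symm hPu0
    · rw [h, one_smul] at this; exact this.symm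
  have hfP : ∀ v, f (P v) = f v := by
    intro v
    have := hP3 v
    rw [hPu] at this
    rcases zcases (f (P v)) with h | h <;> rcases zcases (f v) with h' | h' <;> rw [h, h'] at this ⊢
    · simp at this; exact absurd this.symm hu0
    · simp at this; exact absurd this hu0
  have hfu : f u = 0 := by
    have e1 : t (t u) = u := by
      have := congrArg (fun g : V ≃ₗ[ZMod 2] V => g u) htt
      simpa [LinearEquiv.mul_apply] using this
    rcases zcases (f u) with h | h
    · exact h
    · exfalso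
      rw [ht u, h, one_smul, h2, map_zero] at e1
      exact hu0 e1.symm
  have hPt : P * t = t * P := by rw [htdef]; group
  have htN : ∀ n ∈ N, t * n * t⁻¹ ∈ N := by
    intro n hn
    have := hPN _ (hPN n hn)
    have e : P * (P * n * P⁻¹) * P⁻¹ = t * n * t⁻¹ := by rw [htdef, pow_two]; group
    rwa [e] at this
  have htinv : t⁻¹ = t := by
    rw [inv_eq_iff_mul_eq_one]; exact htt
  -- the conjugate by x
  obtain ⟨t', ht'def⟩ : ∃ t', t' = x * t * x⁻¹ := ⟨_, rfl⟩
  obtain ⟨f', hf'def⟩ : ∃ f' : V →ₗ[ZMod 2] ZMod 2, ∀ v, f' v = f (x⁻¹ v) :=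
    ⟨f.comp (x⁻¹ : V ≃ₗ[ZMod 2] V).toLinearMap, fun v => rfl⟩
  obtain ⟨u', hu'def⟩ : ∃ u', u' = x u := ⟨_, rfl⟩
  have hxx : ∀ v, x (x⁻¹ v) = v := fun v => by
    rw [← LinearEquiv.mul_apply, mul_inv_cancel]; rfl
  have hxx' : ∀ v, x⁻¹ (x v) = v := fun v => by
    rw [← LinearEquiv.mul_apply, inv_mul_cancel]; rfl
  have ht' : ∀ v, t' v = v + f' v • u' := by
    intro v
    rw [ht'def, LinearEquiv.mul_apply, LinearEquiv.mul_apply, ht, map_add, map_smul, hxx, hf'def, hu'def]
  have ht't' : t' * t' = 1 := by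
    rw [ht'def]
    calc x * t * x⁻¹ * (x * t * x⁻¹) = x * (t * t) * x⁻¹ := by group
      _ = 1 := by rw [htt]; group
  have hf'u' : f' u' = 0 := by rw [hf'def, hu'def, hxx', hfu]
  have hy : t * t' ∈ N := by
    have e : t * t' = (t * x * t⁻¹) * x⁻¹ := by
      rw [ht'def, htinv]; group
    rw [e]
    exact N.mul_mem (htN x hx) (N.inv_mem hx)
  have hy1 : t * t' ≠ 1 := by
    intro h
    have h' : t' = t := by
      rw [← htinv, eq_comm, inv_eq_iff_mul_eq_one]; exact h
    apply hxt
    rw [ht'def] at h'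
    have := congrArg (· * x) h'
    simp only [inv_mul_cancel_right] at this
    exact this.symm
  have key1 : f u' = 1 ∧ f' u = 1 := by
    by_contra hcon
    apply hy1
    apply hN4 _ hy
    apply pow_four t t' f f' u u' ht ht' hfu hf'u'
    rcases zcases (f u') with h | h
    · exact Or.inl h
    · rcases zcases (f' u) with h' | h'
      · exact Or.inr h'
      · exact absurd ⟨h, h'⟩ hcon
  -- conjugate by P
  obtain ⟨t'', ht''def⟩ : ∃ t'', t'' = P * t' * P⁻¹ := ⟨_, rfl⟩
  obtain ⟨f'', hf''def⟩ : ∃ f'' : V →ₗ[ZMod 2] ZMod 2, ∀ v, f'' v = f' (P⁻¹ v) :=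
    ⟨f'.comp (P⁻¹ : V ≃ₗ[ZMod 2] V).toLinearMap, fun v => rfl⟩
  obtain ⟨u'', hu''def⟩ : ∃ u'', u'' = P u' := ⟨_, rfl⟩
  have hPP : ∀ v, P (P⁻¹ v) = v := fun v => by
    rw [← LinearEquiv.mul_apply, mul_inv_cancel]; rfl
  have hPP' : ∀ v, P⁻¹ (P v) = v := fun v => by
    rw [← LinearEquiv.mul_apply, inv_mul_cancel]; rfl
  have ht'' : ∀ v, t'' v = v + f'' v • u'' := by
    intro v
    rw [ht''def, LinearEquiv.mul_apply, LinearEquiv.mul_apply, ht', map_add, map_smul, hPP, hf''def,
      hu''def]
  have hf''u'' : f'' u'' = 0 := by rw [hf''def, hu''def, hPP', hf'u']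
  have hfu'' : f u'' = 1 := by rw [hu''def, hfP]; exact key1.1
  have hf''u : f'' u = 1 := by
    rw [hf''def]
    have : P⁻¹ u = u := by
      have := hPP' u
      rwa [hPu] at this
    rw [this]; exact key1.2
  have hy2 : t * t'' ∈ N := by
    have e : t * t'' = P * (t * t') * P⁻¹ := by
      rw [ht''def, ← mul_assoc, ← mul_assoc, ← hPt]; group
    rw [e]
    exact hPN _ hy
  have hy3 : t' * t'' ∈ N := by
    have e : t' * t'' = (t * t')⁻¹ * (t * t'') := by
      have : t'⁻¹ = t' := by rw [inv_eq_iff_mul_eq_one]; exact ht't'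
      rw [mul_inv_rev, this]; group
    rw [e]
    exact N.mul_mem (N.inv_mem hy) hy2
  by_cases h1 : t' * t'' = 1
  · have e : t'' = t' := by
      have : t'⁻¹ = t' := by rw [inv_eq_iff_mul_eq_one]; exact ht't'
      rw [← this, eq_comm, inv_eq_iff_mul_eq_one]; exact h1
    have e2 : u'' = u' := by
      have e3 := ht'' u
      rw [e, ht' u, hf''u, key1.2, one_smul, one_smul] at e3
      exact (add_left_cancel e3).symm
    have e3 := hf u'
    rw [← hu''def, e2, ← hu''def, e2, key1.1, one_smul] at e3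
    apply hu0
    have : u' + 0 = u' + u := by rw [add_zero]; exact e3
    exact (add_left_cancel this).symm
  · have key2 : f' u'' = 1 ∧ f'' u' = 1 := by
      by_contra hcon
      apply h1
      apply hN4 _ hy3
      apply pow_four t' t'' f' f'' u' u'' ht' ht'' hf'u' hf''u''
      rcases zcases (f' u'') with h | h
      · exact Or.inl h
      · rcases zcases (f'' u') with h' | h'
        · exact Or.inr h'
        · exact absurd ⟨h, h'⟩ hcon
    obtain ⟨r, hrdef⟩ : ∃ r, r = t'' * t' * t'' := ⟨_, rfl⟩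
    have hr : ∀ v, r v = v + (f' + f'') v • (u' + u'') := by
      intro v
      rw [hrdef, LinearEquiv.mul_apply, LinearEquiv.mul_apply]
      simp only [ht'', ht', map_add, map_smul, key2.1, key2.2, hf''u'', hf'u', smul_eq_mul, mul_zero,
        mul_one, add_zero, LinearMap.add_apply]
      have e1 := h2 (f'' v • u'')
      linear_combination (norm := module) e1
    have hz : t * r ∈ N := by
      have e : t * r = (t * t'') * (t' * t'') := by rw [hrdef]; group
      rw [e]; exact N.mul_mem hy2 hy3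
    have hz1 : t * r = 1 := by
      apply hN4 _ hz
      apply pow_four t r f (f' + f'') u (u' + u'') ht hr hfu
      · simp only [LinearMap.add_apply, map_add, hf'u', hf''u'', key2.1, key2.2]
        decide
      · left
        rw [map_add, key1.1, hfu'']
        decide
    have e : r = t := by
      rw [← htinv, eq_comm, inv_eq_iff_mul_eq_one]; exact hz1
    have e1 := hr u'
    rw [e, ht u', LinearMap.add_apply, hf'u', key2.2, key1.1, zero_add, one_smul, one_smul] at e1
    have e2 : u = u' + u'' := add_left_cancel e1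
    have e3 := hf u'
    rw [← hu''def, key1.1, one_smul] at e3
    -- u'' = u + u'
    have e4 : u'' = u + u' := by
      have := h2 u'
      rw [e2]
      linear_combination (norm := module) (-1 : ZMod 2) • this
    rw [e4, map_add, hPu, ← hu''def, e4, ← add_assoc, h2, zero_add] at e3
    apply hu0
    have : u' + 0 = u' + u := by rw [add_zero]; exact e3
    exact (add_left_cancel this).symm

end Aux

/-- If `O_2(S) = 1` then `F(S)` has odd order. -/
theorem fitting_odd {S : Type*} [Group S] [Finite S] (h : Cfsg.pCore 2 S = ⊥) :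
    ¬ 2 ∣ Nat.card ↥(Cfsg.fittingSubgroup S) := by
  haveI : Fact (Nat.Prime 2) := ⟨Nat.prime_two⟩
  intro hdvd
  haveI : Group.IsNilpotent ↥(Cfsg.fittingSubgroup S) := Cfsg.Agent.Lib.Cores.fittingSubgroup_isNilpotent
  have h1 := Cfsg.Agent.Lib.Cores.map_subtype_pCore 2
    (N := Cfsg.fittingSubgroup S) Cfsg.Agent.Lib.Cores.fittingSubgroup_normal
  rw [h, inf_bot_eq, Subgroup.map_eq_bot_iff_of_injective _ (Subgroup.subtype_injective _)] at h1
  obtain ⟨T⟩ : Nonempty (Sylow 2 ↥(Cfsg.fittingSubgroup S)) := inferInstance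
  have hTn : (T : Subgroup ↥(Cfsg.fittingSubgroup S)).Normal := inferInstance
  have h2 : (T : Subgroup ↥(Cfsg.fittingSubgroup S)) ≤ Cfsg.pCore 2 ↥(Cfsg.fittingSubgroup S) :=
    Cfsg.Agent.Lib.Cores.le_pCore hTn T.isPGroup'
  rw [h1, le_bot_iff] at h2
  have h3 := T.dvd_card_of_dvd_card hdvd
  rw [h2, Subgroup.card_bot] at h3
  omega

/-- Let V be a finite-dimensional vector space over the field with two elements and S a solvable group of linear automorphisms of V with O₂(S) = 1. If P ∈ S has order 4 and (P − 1)³ = 0 on V, then the image of (P − 1)² has at least 4 elements; equivalently, in the decomposition of V into indecomposable modules for the cyclic group generated by P, at least two summands have dimension 3. -/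
theorem result
    {V : Type*} [AddCommGroup V] [Module (ZMod 2) V] [Finite V]
    (S : Subgroup (V ≃ₗ[ZMod 2] V)) (hS : Group.IsSolvable ↥S) (hO2 : Cfsg.pCore 2 ↥S = ⊥)
    (P : V ≃ₗ[ZMod 2] V) (hPS : P ∈ S) (hP4 : orderOf P = 4)
    (hcub : ((P : V →ₗ[ZMod 2] V) - LinearMap.id) ^ 3 = 0) :
    4 ≤ Nat.card ↥(LinearMap.range (((P : V →ₗ[ZMod 2] V) - LinearMap.id) ^ 2)) := by
  by_contra hcon
  push Not at hcon
  have h2 : ∀ v : V, v + v = 0 := add_self_eq_zero
  have hD : ∀ v, ((((P : V →ₗ[ZMod 2] V) - LinearMap.id) ^ 2 : V →ₗ[ZMod 2] V)) v = P (P v) - v := by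
    intro v
    rw [pow_two, Module.End.mul_apply]
    simp only [LinearMap.sub_apply, LinearMap.id_apply, LinearEquiv.coe_coe, map_sub]
    have e1 := h2 (P v)
    have e2 := h2 v
    linear_combination (norm := module) e2 - e1
  have h4 : P ^ 4 = 1 := by rw [← hP4]; exact pow_orderOf_eq_one P
  have hP2 : P ^ 2 ≠ 1 := by
    intro h
    have := orderOf_dvd_of_pow_eq_one h
    rw [hP4] at this
    omega
  haveI hfin : Finite (V ≃ₗ[ZMod 2] V) :=
    Finite.of_injective (fun g : V ≃ₗ[ZMod 2] V => (g : V → V)) DFunLike.coe_injective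
  obtain ⟨v₁, hv₁⟩ : ∃ v, P (P v) ≠ v := by
    by_contra hc
    push Not at hc
    apply hP2
    ext v
    rw [pow_two, LinearEquiv.mul_apply, hc]; rfl
  -- the range has exactly two elements
  obtain ⟨R, hR⟩ : ∃ R, R = LinearMap.range (((P : V →ₗ[ZMod 2] V) - LinearMap.id) ^ 2) := ⟨_, rfl⟩
  have hmemR : ∀ v, P (P v) - v ∈ R := by
    intro v; rw [hR, ← hD]; exact LinearMap.mem_range_self _ v
  rw [← hR] at hcon
  obtain ⟨u, hu⟩ : ∃ u, u = P (P v₁) - v₁ := ⟨_, rfl⟩
  have hu0 : u ≠ 0 := by rw [hu, sub_ne_zero]; exact hv₁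
  have huR : u ∈ R := by rw [hu]; exact hmemR v₁
  have hR2 : ∀ w ∈ R, w = 0 ∨ w = u := by
    intro w hw
    by_contra hc
    push Not at hc
    have : ({0, u, w, u + w} : Set V) ⊆ (R : Set V) := by
      intro z hz
      simp only [Set.mem_insert_iff, Set.mem_singleton_iff] at hz
      rcases hz with rfl | rfl | rfl | rfl
      · exact R.zero_mem
      · exact huR
      · exact hw
      · exact R.add_mem huR hw
    have hc4 : Set.ncard ({0, u, w, u + w} : Set V) = 4 := by
      have hn1 : u ≠ w := fun h => hc.2 h.symm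
      have hn2 : u + w ≠ 0 := by
        intro h
        apply hn1
        have : u + w + w = w := by rw [h, zero_add]
        rw [add_assoc, h2, add_zero] at this
        exact this
      rw [Set.ncard_insert_of_notMem, Set.ncard_insert_of_notMem, Set.ncard_insert_of_notMem,
        Set.ncard_singleton]
      · simp only [Set.mem_singleton_iff]
        intro h
        exact hu0 (by simpa using h.symm)
      · simp only [Set.mem_insert_iff, Set.mem_singleton_iff, not_or]
        refine ⟨hn1, ?_⟩
        intro h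
        exact hc.1 (by simpa using h.symm)
      · simp only [Set.mem_insert_iff, Set.mem_singleton_iff, not_or]
        exact ⟨fun h => hu0 h.symm, fun h => hc.1 h.symm, fun h => hn2 h.symm⟩
    have := Set.ncard_le_ncard this (Set.toFinite _)
    rw [hc4] at this
    have e : Set.ncard (R : Set V) = Nat.card ↥R := rfl
    rw [e] at this
    omega
  -- the functional
  classical
  let f0 : V →+ ZMod 2 :=
    { toFun := fun v => if P (P v) - v = 0 then 0 else 1
      map_zero' := by simp
      map_add' := by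
        intro a b
        have ea : P (P (a + b)) - (a + b) = (P (P a) - a) + (P (P b) - b) := by
          rw [map_add, map_add]; abel
        simp only [ea]
        have hu2 := h2 u
        rcases hR2 _ (hmemR a) with ha | ha <;> rcases hR2 _ (hmemR b) with hb | hb <;>
          rw [ha, hb] <;> simp [hu0, hu2]
        decide }
  let f : V →ₗ[ZMod 2] ZMod 2 := f0.toZModLinearMap 2
  have hf : ∀ v, P (P v) = v + f v • u := by
    intro v
    have e : f v = if P (P v) - v = 0 then 0 else 1 := rfl
    rw [e]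
    rcases hR2 _ (hmemR v) with ha | ha
    · rw [ha]; simp; exact sub_eq_zero.mp ha
    · rw [ha]; simp [hu0]; rw [← ha]; abel
  -- the group side
  have hFn : (Cfsg.fittingSubgroup ↥S).Normal := Cfsg.Agent.Lib.Cores.fittingSubgroup_normal
  haveI : Finite ↥S := inferInstance
  haveI := hS
  have hodd := fitting_odd hO2
  have hC := Cfsg.Agent.S0044.result (G := ↥S)
  set p : ↥S := ⟨P, hPS⟩ with hp
  have hp2F : p ^ 2 ∉ Cfsg.fittingSubgroup ↥S := by
    intro h
    have e1 : (⟨p ^ 2, h⟩ : ↥(Cfsg.fittingSubgroup ↥S)) ^ 2 = 1 := by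
      ext1
      push_cast
      rw [← pow_mul]
      ext1
      push_cast
      exact h4
    have e2 : orderOf (⟨p ^ 2, h⟩ : ↥(Cfsg.fittingSubgroup ↥S)) = 2 := by
      apply orderOf_eq_prime e1
      intro h'
      apply hP2
      have := congrArg (fun z : ↥(Cfsg.fittingSubgroup ↥S) => ((z : ↥S) : V ≃ₗ[ZMod 2] V)) h'
      simpa using this
    apply hodd
    have e3 := orderOf_dvd_natCard (⟨p ^ 2, h⟩ : ↥(Cfsg.fittingSubgroup ↥S))
    rwa [e2] at e3
  have hp2C : p ^ 2 ∉ Subgroup.centralizer (Cfsg.fittingSubgroup ↥S : Set ↥S) := fun h => hp2F (hC h)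
  rw [Subgroup.mem_centralizer_iff] at hp2C
  push Not at hp2C
  obtain ⟨x, hxF, hx⟩ := hp2C
  refine core ((Cfsg.fittingSubgroup ↥S).map S.subtype) ?_ P ?_ h4 f u hf (x : V ≃ₗ[ZMod 2] V)
    (Subgroup.mem_map_of_mem _ hxF) ?_
  · rintro n ⟨s, hs, rfl⟩ hn
    have hs4 : s ^ 4 = 1 := by
      ext1; simpa using hn
    have hs4' : (⟨s, hs⟩ : ↥(Cfsg.fittingSubgroup ↥S)) ^ 4 = 1 := by
      ext1; simpa using hs4
    have hco : Nat.Coprime 4 (Nat.card ↥(Cfsg.fittingSubgroup ↥S)) := by
      have : Nat.Coprime 2 (Nat.card ↥(Cfsg.fittingSubgroup ↥S)) :=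
        (Nat.Prime.coprime_iff_not_dvd Nat.prime_two).mpr hodd
      exact Nat.Coprime.pow_left 2 this
    have h5 : orderOf (⟨s, hs⟩ : ↥(Cfsg.fittingSubgroup ↥S)) = 1 := by
      have d1 := orderOf_dvd_of_pow_eq_one hs4'
      have d2 := orderOf_dvd_natCard (⟨s, hs⟩ : ↥(Cfsg.fittingSubgroup ↥S))
      exact Nat.eq_one_of_dvd_coprimes hco d1 d2
    rw [orderOf_eq_one_iff] at h5
    have := congrArg (fun z : ↥(Cfsg.fittingSubgroup ↥S) => ((z : ↥S) : V ≃ₗ[ZMod 2] V)) h5
    simpa using this
  · rintro n ⟨s, hs, rfl⟩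
    refine ⟨p * s * p⁻¹, hFn.conj_mem s hs p, ?_⟩
    simp [hp]
  · intro h
    apply hx
    ext1
    push_cast
    exact h.symm

end Cfsg.Agent.S4410
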