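import Mathlib
import Cfsg.Prelude.Def_Local
import Cfsg.Prelude.Def_PLocal
import Cfsg.Agent.Lib.Cores
import Cfsg.Agent.Lib.PSolvable
import Cfsg.Agent.PLocal.PConstrained
import Cfsg.Agent.S0618
import Cfsg.Agent.S0605
import Cfsg.Agent.S0602
import Cfsg.Agent.PLocal.StableClosure
import Cfsg.Agent.PLocal.FFFamily
import Cfsg.Agent.GH.C2GrowG
import Cfsg.Agent.Lib.SylowNormalInf
import Cfsg.Agent.PLocal.PSolvable
import Cfsg.Statements.S4411
import Cfsg.Agent.OddOrderLocal.FittingHall
set_option linter.all false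

-- part: H586/AutStar
section
/-!
# Characteristic subgroups of `P` centralised by the `q`-elements normalising them

`Star p q P`: every `q`-element normalising a characteristic subgroup of `P` centralises it.
Inheritance by injective homomorphisms and by quotients.
-/

set_option autoImplicit false

open Subgroup Cfsg

namespace Cfsg.Agent.H586.AutStar

/-- every `q`-element normalising a characteristic subgroup of `P` centralises it -/
def Star (q : ℕ) {X : Type*} [Group X] (P : Subgroup X) : Prop :=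
  ∀ K : Subgroup ↥P, K.Characteristic → ∀ x : X, (∃ k : ℕ, x ^ (q ^ k) = 1) →
    x ∈ normalizer ((K.map P.subtype : Subgroup X) : Set X) →
    x ∈ centralizer ((K.map P.subtype : Subgroup X) : Set X)

/-- the preimage of a characteristic subgroup under a surjection with characteristic kernel -/
theorem char_comap {A B : Type*} [Group A] [Group B] (f : A →* B) (hf : Function.Surjective f)
    (hk : f.ker.Characteristic) {K : Subgroup B} (hK : K.Characteristic) :
    (K.comap f).Characteristic := by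
  rw [characteristic_iff_le_comap]
  intro φ x hx
  rw [mem_comap] at hx ⊢
  rw [mem_comap]
  -- the induced endomorphism
  have hker : ∀ y : A, y ∈ f.ker → f (φ y) = 1 := by
    intro y hy
    have : y ∈ f.ker.comap φ.toMonoidHom := by
      rw [characteristic_iff_comap_eq.1 hk φ]; exact hy
    exact this
  have hker' : ∀ y : A, y ∈ f.ker → f (φ.symm y) = 1 := by
    intro y hy
    have : y ∈ f.ker.comap φ.symm.toMonoidHom := by
      rw [characteristic_iff_comap_eq.1 hk φ.symm]; exact hy
    exact this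
  have hw : ∀ u v : A, f u = f v → f (φ u) = f (φ v) := by
    intro u v h
    have : v⁻¹ * u ∈ f.ker := by rw [MonoidHom.mem_ker, map_mul, map_inv, h]; simp
    have := hker _ this
    rw [map_mul, map_inv, map_mul, map_inv] at this
    exact (inv_mul_eq_one.1 this).symm
  have hw' : ∀ u v : A, f u = f v → f (φ.symm u) = f (φ.symm v) := by
    intro u v h
    have : v⁻¹ * u ∈ f.ker := by rw [MonoidHom.mem_ker, map_mul, map_inv, h]; simp
    have := hker' _ this
    rw [map_mul, map_inv, map_mul, map_inv] at this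
    exact (inv_mul_eq_one.1 this).symm
  choose s hs using hf
  let ψ : B ≃* B :=
    { toFun := fun b => f (φ (s b))
      invFun := fun b => f (φ.symm (s b))
      left_inv := by
        intro b
        have h1 : f (φ.symm (s (f (φ (s b))))) = f (φ.symm (φ (s b))) := hw' _ _ (hs _)
        simp only [h1, MulEquiv.symm_apply_apply, hs]
      right_inv := by
        intro b
        have h1 : f (φ (s (f (φ.symm (s b))))) = f (φ (φ.symm (s b))) := hw _ _ (hs _)
        simp only [h1, MulEquiv.apply_symm_apply, hs]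
      map_mul' := by
        intro a b
        have h1 : f (φ (s (a * b))) = f (φ (s a * s b)) := hw _ _ (by rw [hs, map_mul, hs, hs])
        rw [h1, map_mul, map_mul] }
  have h2 : f x ∈ K.comap ψ.toMonoidHom := by
    rw [characteristic_iff_comap_eq.1 hK ψ]; exact hx
  have h3 : ψ (f x) = f (φ x) := hw _ _ (hs _)
  have h4 : ψ (f x) ∈ K := h2
  rw [h3] at h4
  exact h4

/-- `Star` is inherited along injective homomorphisms. -/
theorem Star.of_injective {q : ℕ} {X Y : Type*} [Group X] [Group Y] (f : Y →* X)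
    (hf : Function.Injective f) (P : Subgroup Y) (h : Star q (P.map f)) : Star q P := by
  intro K hK x hx hn
  let e : ↥P ≃* ↥(P.map f) := P.equivMapOfInjective f hf
  have hK' : (K.map e.toMonoidHom).Characteristic := by
    have h1 : K.map e.toMonoidHom = K.comap e.symm.toMonoidHom := by
      ext y
      constructor
      · rintro ⟨z, hz, rfl⟩
        show e.symm (e z) ∈ K
        rwa [MulEquiv.symm_apply_apply]
      · intro hy
        exact ⟨e.symm y, hy, e.apply_symm_apply y⟩
    rw [h1]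
    refine char_comap _ e.symm.surjective ?_ hK
    have : e.symm.toMonoidHom.ker = ⊥ := by
      rw [MonoidHom.ker_eq_bot_iff]; exact e.symm.injective
    rw [this]; infer_instance
  have hmap : (K.map e.toMonoidHom).map (P.map f).subtype = (K.map P.subtype).map f := by
    ext y
    constructor
    · rintro ⟨_, ⟨z, hz, rfl⟩, rfl⟩
      exact ⟨z, ⟨z, hz, rfl⟩, rfl⟩
    · rintro ⟨_, ⟨z, hz, rfl⟩, rfl⟩
      exact ⟨e z, ⟨z, hz, rfl⟩, rfl⟩
  have h1 := h _ hK' (f x) (by obtain ⟨k, hk⟩ := hx; exact ⟨k, by rw [← map_pow, hk, map_one]⟩)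
  rw [hmap] at h1
  have h2 : f x ∈ normalizer (((K.map P.subtype).map f : Subgroup X) : Set X) := by
    rw [mem_normalizer_iff] at hn ⊢
    intro y
    constructor
    · rintro ⟨z, hz, rfl⟩
      exact ⟨x * z * x⁻¹, (hn z).1 hz, by simp⟩
    · rintro ⟨z, hz, hz'⟩
      have h0 : x * (x⁻¹ * z * x) * x⁻¹ = z := by group
      refine ⟨x⁻¹ * z * x, (hn _).2 (by rw [h0]; exact hz), ?_⟩
      rw [map_mul, map_mul, map_inv, hz']; group
  have h3 := h1 h2
  rw [mem_centralizer_iff] at h3 ⊢
  intro y hy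
  apply hf
  rw [map_mul, map_mul]
  exact h3 (f y) ⟨y, hy, rfl⟩

/-- the `q`-part of a lift of a `q`-element -/
theorem exists_q_lift {q : ℕ} [Fact q.Prime] {X Y : Type*} [Group X] [Finite X] [Group Y]
    (f : X →* Y) (x : X) (hx : ∃ k : ℕ, f x ^ (q ^ k) = 1) :
    ∃ m : ℕ, f (x ^ m) = f x ∧ ∃ k : ℕ, (x ^ m) ^ (q ^ k) = 1 := by
  obtain ⟨k, hk⟩ := hx
  have hq : q.Prime := Fact.out
  obtain ⟨a, b, hb, hab⟩ : ∃ a b : ℕ, ¬ q ∣ b ∧ orderOf x = q ^ a * b :=
    Nat.exists_eq_pow_mul_and_not_dvd (orderOf_pos x).ne' q hq.ne_one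
  have hcop : Nat.Coprime b (q ^ k) :=
    (Nat.Coprime.pow_right k ((Nat.Prime.coprime_iff_not_dvd hq).2 hb).symm)
  obtain ⟨m, hm1, hm2⟩ := Nat.chineseRemainder hcop 0 1
  refine ⟨m, ?_, a, ?_⟩
  · rw [map_pow]
    have h1 : f x ^ m = f x ^ 1 := by
      rw [pow_eq_pow_iff_modEq]
      exact hm2.of_dvd (orderOf_dvd_of_pow_eq_one hk)
    rw [h1, pow_one]
  · have hbm : b ∣ m := (Nat.modEq_zero_iff_dvd).1 hm1
    obtain ⟨c, rfl⟩ := hbm
    rw [← pow_mul]
    apply orderOf_dvd_iff_pow_eq_one.1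
    rw [hab]
    exact ⟨c, by ring⟩

/-- Inheritance by quotients. -/
theorem Star.map_of {q : ℕ} [Fact q.Prime] {X Y : Type*} [Group X] [Finite X] [Group Y]
    (f : X →* Y) (hf : Function.Surjective f) (P : Subgroup X)
    (hker : (f.ker.subgroupOf P).Characteristic)
    (hlift : ∀ K : Subgroup X, K ≤ P → f.ker ⊓ P ≤ K → ∀ x : X,
      f x ∈ normalizer ((K.map f : Subgroup Y) : Set Y) →
      ∃ y : X, f y = f x ∧ y ∈ normalizer (K : Set X))
    (h : Star q P) : Star q (P.map f) := by
  intro K' hK' x' hx' hn'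
  obtain ⟨x, rfl⟩ := hf x'
  have hsurj := f.subgroupMap_surjective P
  have hk1 : (f.subgroupMap P).ker = f.ker.subgroupOf P := by
    ext y
    rw [MonoidHom.mem_ker, mem_subgroupOf, MonoidHom.mem_ker]
    constructor
    · intro h; exact congrArg Subtype.val h
    · intro h; exact Subtype.ext h
  have hchar : (K'.comap (f.subgroupMap P)).Characteristic :=
    char_comap _ hsurj (by rw [hk1]; exact hker) hK'
  set K := K'.comap (f.subgroupMap P) with hKdef
  have hmap : (K.map P.subtype).map f = K'.map (P.map f).subtype := by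
    ext y
    constructor
    · rintro ⟨_, ⟨z, hz, rfl⟩, rfl⟩
      exact ⟨f.subgroupMap P z, hz, rfl⟩
    · rintro ⟨z, hz, rfl⟩
      obtain ⟨w, rfl⟩ := hsurj z
      exact ⟨w, ⟨w, hz, rfl⟩, rfl⟩
  rw [← hmap] at hn' ⊢
  obtain ⟨y, hy, hyn⟩ := hlift (K.map P.subtype) (map_subtype_le _) (by
    rintro z ⟨hz1, hz2⟩
    refine ⟨⟨z, hz2⟩, ?_, rfl⟩
    show f.subgroupMap P ⟨z, hz2⟩ ∈ K'
    have : f.subgroupMap P ⟨z, hz2⟩ = 1 := Subtype.ext hz1
    rw [this]; exact one_mem _) x hn'
  obtain ⟨m, hm1, hm2⟩ := exists_q_lift (q := q) f y (by rw [hy]; exact hx')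
  have h1 := h K hchar (y ^ m) hm2 (pow_mem hyn m)
  rw [← hy, ← hm1]
  rw [mem_centralizer_iff] at h1 ⊢
  rintro _ ⟨z, hz, rfl⟩
  rw [← map_mul, ← map_mul, h1 z hz]

/-- Inheritance by quotients by characteristic subgroups of `P`. -/
theorem Star.map_of_le {q : ℕ} [Fact q.Prime] {X Y : Type*} [Group X] [Finite X] [Group Y]
    (f : X →* Y) (hf : Function.Surjective f) (P : Subgroup X)
    (hker : (f.ker.subgroupOf P).Characteristic) (hle : f.ker ≤ P)
    (h : Star q P) : Star q (P.map f) := by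
  refine h.map_of f hf P hker ?_
  intro K hKP hK x hx
  refine ⟨x, rfl, ?_⟩
  have hmem : ∀ z : X, z ∈ K ↔ f z ∈ K.map f := by
    intro z
    constructor
    · intro hz; exact ⟨z, hz, rfl⟩
    · rintro ⟨w, hw, hwz⟩
      have h1 : w⁻¹ * z ∈ f.ker := by rw [MonoidHom.mem_ker, map_mul, map_inv, hwz]; simp
      have h2 : w⁻¹ * z ∈ K := hK ⟨h1, hle h1⟩
      have h3 := K.mul_mem hw h2
      rwa [mul_inv_cancel_left] at h3
  rw [mem_normalizer_iff] at hx ⊢
  intro z
  rw [hmem, hmem (x * z * x⁻¹), map_mul, map_mul, map_inv]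
  exact hx (f z)

/-- Inheritance by quotients by normal `p'`-subgroups. -/
theorem Star.map_of_coprime {p q : ℕ} [Fact p.Prime] [Fact q.Prime] {X Y : Type*} [Group X]
    [Finite X] [Group Y] (f : X →* Y) (hf : Function.Surjective f) (P : Subgroup X)
    (hP : IsPGroup p P) (hk : (Nat.card f.ker).Coprime p) (h : Star q P) : Star q (P.map f) := by
  have hbot : f.ker ⊓ P = ⊥ := by
    have h1 : (Nat.card ↥(f.ker)).Coprime (Nat.card ↥P) := by
      obtain ⟨n, hn⟩ := hP.exists_card_eq
      rw [hn]; exact hk.pow_right n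
    exact (Subgroup.disjoint_of_coprime_natCard h1).eq_bot
  refine h.map_of f hf P ?_ ?_
  · have : f.ker.subgroupOf P = ⊥ := by
      rw [← Subgroup.inf_subgroupOf_right, hbot]; simp
    rw [this]; infer_instance
  · intro K hKP _ x hx
    have hKp : IsPGroup p K := hP.to_le hKP
    have h1 := Cfsg.Agent.PLocal.PConstrained.map_normalizer_eq f hf hk hKp
    rw [← h1] at hx
    obtain ⟨y, hy, hyx⟩ := hx
    exact ⟨y, hyx, hy⟩

end Cfsg.Agent.H586.AutStar
end

-- part: H586/AutPQ
section
/-!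
# `{p, q}`-groups satisfying the `Star` condition

If `X` is a finite `p`-solvable `{p, q}`-group with `O_{p'}(X) = 1`, `{p, q} ≠ {2, 3}`, and the
`q`-elements of `X` centralise the characteristic subgroups of a Sylow `p`-subgroup that they
normalise, then `X` is a `p`-group.
-/

set_option autoImplicit false

open Subgroup Cfsg

namespace Cfsg.Agent.H586.AutPQ

open Cfsg.Agent.H586.AutStar

universe u

/-- a central `p`-subgroup of index prime to `p` has a characteristic complement -/
theorem central_split {D : Type*} [Group D] [Finite D] {p : ℕ} [hp : Fact p.Prime] (W : Subgroup D)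
    (hWc : W ≤ center D) (hWp : IsPGroup p W) (hi : ¬ p ∣ W.index) :
    ∃ K : Subgroup D, K.Characteristic ∧ (Nat.card K).Coprime p ∧ W ⊔ K = ⊤ ∧ W ⊓ K = ⊥ ∧
      K.index = Nat.card W := by
  obtain ⟨n, hn⟩ := hWp.exists_card_eq
  have hcop : Nat.Coprime (Nat.card W) W.index := by
    rw [hn]
    exact Nat.Coprime.pow_left n ((Nat.Prime.coprime_iff_not_dvd hp.out).2 hi)
  have : W.Normal := ⟨fun w hw g => by
    have h1 : g * w = w * g := mem_center_iff.1 (hWc hw) g
    rw [h1, mul_inv_cancel_right]; exact hw⟩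
  obtain ⟨K, hK⟩ := Subgroup.exists_right_complement'_of_coprime hcop
  have hKc : (Nat.card K).Coprime p := by
    have h1 : Nat.card K = W.index := hK.symm.index_eq_card.symm
    rw [h1]
    exact ((Nat.Prime.coprime_iff_not_dvd hp.out).2 hi).symm
  refine ⟨K, ?_, hKc, hK.sup_eq_top, hK.disjoint.eq_bot, hK.index_eq_card⟩
  rw [characteristic_iff_le_comap]
  intro φ x hx
  show φ x ∈ K
  have h1 : φ x ∈ (W ⊔ K : Subgroup D) := by rw [hK.sup_eq_top]; trivial
  rw [mem_sup_of_normal_left] at h1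
  obtain ⟨w, hw, k, hk, hwk⟩ := h1
  have hcomm : Commute w k := (mem_center_iff.1 (hWc hw) k).symm
  have h2 : (φ x) ^ Nat.card K = 1 := by
    rw [← map_pow, orderOf_dvd_iff_pow_eq_one.1 (Subgroup.orderOf_dvd_natCard K hx), map_one]
  rw [← hwk, hcomm.mul_pow, (orderOf_dvd_iff_pow_eq_one.1 (Subgroup.orderOf_dvd_natCard K hk)),
    mul_one] at h2
  have h3 : w ^ (p ^ n) = 1 := by
    rw [← hn]; exact orderOf_dvd_iff_pow_eq_one.1 (Subgroup.orderOf_dvd_natCard W hw)
  have h4 : orderOf w ∣ 1 := by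
    have h5 : Nat.Coprime (Nat.card K) (p ^ n) := hKc.pow_right n
    rw [← h5]
    exact Nat.dvd_gcd (orderOf_dvd_of_pow_eq_one h2) (orderOf_dvd_of_pow_eq_one h3)
  have h5 : w = 1 := by
    rw [Nat.dvd_one, orderOf_eq_one_iff] at h4; exact h4
  rw [← hwk, h5, one_mul]
  exact hk

/-- `O_{p'}` of the quotient by a central `p`-subgroup -/
theorem pPrimeCore_quotient_central {X : Type*} [Group X] [Finite X] {p : ℕ} [hp : Fact p.Prime]
    (hX : pPrimeCore p X = ⊥) (W : Subgroup X) [W.Normal] (hWc : W ≤ center X)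
    (hWp : IsPGroup p W) : pPrimeCore p (X ⧸ W) = ⊥ := by
  set E := pPrimeCore p (X ⧸ W) with hE
  have hEn : E.Normal := Lib.Cores.pPrimeCore_normal p
  have hEc : (Nat.card E).Coprime p := Lib.Cores.pPrimeCore_coprime p
  set D := E.comap (QuotientGroup.mk' W) with hD
  have hDn : D.Normal := hEn.comap _
  have hWD : W ≤ D := by
    intro w hw
    show QuotientGroup.mk' W w ∈ E
    have : QuotientGroup.mk' W w = 1 := (QuotientGroup.eq_one_iff w).2 hw
    rw [this]; exact one_mem _
  have hcard : Nat.card D = Nat.card W * Nat.card E := by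
    have h1 := Subgroup.card_mul_index (W.subgroupOf D)
    have h2 : Nat.card (W.subgroupOf D) = Nat.card W :=
      Nat.card_congr (subgroupOfEquivOfLe hWD).toEquiv
    have h3 : (W.subgroupOf D).index = Nat.card E := by
      have h4 : W.relIndex D = Nat.card E := by
        have h5 := Subgroup.relIndex_ker (K := D) (QuotientGroup.mk' W)
        rw [QuotientGroup.ker_mk'] at h5
        rw [h5]
        have h6 : D.map (QuotientGroup.mk' W) = E :=
          map_comap_eq_self_of_surjective (QuotientGroup.mk'_surjective W) E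
        rw [← h6]
      exact h4
    rw [← h1, h2, h3]
  obtain ⟨K, hKchar, hKc, hsup, hinf, -⟩ := central_split (p := p) (W.subgroupOf D) (by
      rintro ⟨w, hwD⟩ hw
      rw [mem_center_iff]
      rintro ⟨g, hg⟩
      apply Subtype.ext
      exact mem_center_iff.1 (hWc hw) g) (hWp.of_equiv (subgroupOfEquivOfLe hWD).symm) (by
      have h1 := Subgroup.card_mul_index (W.subgroupOf D)
      have h2 : Nat.card (W.subgroupOf D) = Nat.card W :=
        Nat.card_congr (subgroupOfEquivOfLe hWD).toEquiv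
      rw [h2, hcard] at h1
      have h3 : (W.subgroupOf D).index = Nat.card E :=
        Nat.eq_of_mul_eq_mul_left Nat.card_pos h1
      rw [h3]
      exact (Nat.Prime.coprime_iff_not_dvd hp.out).1 hEc.symm)
  have hKn : (K.map D.subtype).Normal := by
    have := hKchar
    infer_instance
  have hK1 : K.map D.subtype ≤ pPrimeCore p X :=
    Lib.Cores.le_pPrimeCore hKn (by rw [card_map_of_injective D.subtype_injective]; exact hKc)
  rw [hX, le_bot_iff, map_eq_bot_iff_of_injective _ D.subtype_injective] at hK1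
  rw [hK1, sup_bot_eq, subgroupOf_eq_top] at hsup
  rw [eq_bot_iff]
  intro e he
  obtain ⟨x, rfl⟩ := QuotientGroup.mk'_surjective W e
  have h1 : x ∈ W := hsup he
  rw [mem_bot]
  exact (QuotientGroup.eq_one_iff x).2 h1

theorem omegaOne_center_char (p : ℕ) (S : Type*) [Group S] :
    (omegaOne p (center S)).Characteristic := by
  rw [characteristic_iff_map_le]
  intro φ
  rw [omegaOne, MonoidHom.map_closure]
  apply Subgroup.closure_mono
  rintro _ ⟨x, ⟨hx1, hx2⟩, rfl⟩
  refine ⟨?_, ?_⟩
  · rw [mem_center_iff] at hx1 ⊢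
    intro g
    obtain ⟨h, rfl⟩ := φ.surjective g
    show φ h * φ x = φ x * φ h
    rw [← map_mul, ← map_mul, hx1]
  · show φ x ^ p = 1
    rw [← map_pow, hx2, map_one]

theorem omegaOne_inf_centralizer {G : Type*} [Group G] (p : ℕ) (S : Subgroup G) :
    omegaOne p (S ⊓ centralizer (S : Set G)) = (omegaOne p (center ↥S)).map S.subtype := by
  rw [omegaOne, omegaOne, MonoidHom.map_closure]
  congr 1
  ext x
  constructor
  · rintro ⟨⟨hx1, hx2⟩, hx3⟩
    refine ⟨⟨x, hx1⟩, ⟨?_, Subtype.ext hx3⟩, rfl⟩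
    show (⟨x, hx1⟩ : ↥S) ∈ center ↥S
    rw [mem_center_iff]
    rintro ⟨g, hg⟩
    exact Subtype.ext (mem_centralizer_iff.1 hx2 g hg)
  · rintro ⟨y, ⟨hy1, hy2⟩, rfl⟩
    refine ⟨⟨y.2, ?_⟩, ?_⟩
    · show (y : G) ∈ centralizer (S : Set G)
      rw [mem_centralizer_iff]
      intro g hg
      exact congrArg Subtype.val (mem_center_iff.1 hy1 ⟨g, hg⟩)
    · exact congrArg Subtype.val hy2

theorem two_three_dvd {G : Type u} [Group G] [Finite G] {p : ℕ} [Fact p.Prime]
    (hsep : IsPSolvable p G) (hO : pPrimeCore p G = ⊥) (hnf : ¬ IsThompsonFactorizable p G) :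
    2 ∣ Nat.card G ∧ 3 ∣ Nat.card G := by
  obtain ⟨hp, E, -, -, -, hn, ⟨e⟩⟩ := Cfsg.Agent.S0618.result hsep hO hnf
  have h6 : 6 ∣ Nat.card (Matrix.SpecialLinearGroup (Fin 2) (ZMod p)) := by
    rcases hp with rfl | rfl
    · rw [Cfsg.Agent.PLocal.FFFamily.card_sl_two]
    · rw [Cfsg.Agent.PLocal.FFFamily.card_sl_three]; decide
  rw [← Nat.card_congr e.toEquiv] at h6
  have h7 := h6.trans ((Subgroup.card_quotient_dvd_card _).trans (Subgroup.card_subgroup_dvd_card E))
  exact ⟨(by decide : 2 ∣ 6).trans h7, (by decide : 3 ∣ 6).trans h7⟩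

/-- a subgroup `C` of `N` containing a Sylow `p`-subgroup and all `q`-elements of a `{p, q}`-group
contains everything -/
theorem le_of_pq {X : Type*} [Group X] [Finite X] {p q : ℕ} [hp : Fact p.Prime] [hq : Fact q.Prime]
    (hpq : ∀ r : ℕ, r.Prime → r ∣ Nat.card X → r = p ∨ r = q) (P : Sylow p X) (N C : Subgroup X)
    (hPC : (P : Subgroup X) ≤ C) (hC : ∀ x ∈ N, (∃ k : ℕ, x ^ (q ^ k) = 1) → x ∈ C)
    (hPN : (P : Subgroup X) ≤ N) : N ≤ C := by
  have h0 : C.relIndex N = 1 := by
    by_contra hne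
    obtain ⟨r, hr, hrd⟩ := Nat.exists_prime_and_dvd hne
    have hrX : r ∣ Nat.card X :=
      (hrd.trans (Subgroup.index_dvd_card (C.subgroupOf N))).trans (Subgroup.card_subgroup_dvd_card N)
    rcases hpq r hr hrX with rfl | rfl
    · have h1 : C.relIndex N ∣ (P : Subgroup X).relIndex N :=
        Subgroup.relIndex_dvd_of_le_left N hPC
      have h2 : (P : Subgroup X).relIndex N ∣ (P : Subgroup X).index :=
        ⟨N.index, (Subgroup.relIndex_mul_index hPN).symm⟩
      exact P.not_dvd_index (hrd.trans (h1.trans h2))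
    · let Q : Sylow r ↥N := default
      have h1 : (Q : Subgroup ↥N) ≤ C.subgroupOf N := by
        intro x hx
        rw [mem_subgroupOf]
        obtain ⟨k, hk⟩ := Q.2 ⟨x, hx⟩
        refine hC x x.2 ⟨k, ?_⟩
        have := congrArg (fun y : ↥(Q : Subgroup ↥N) => ((y : ↥N) : X)) hk
        simpa using this
      have h2 : (C.subgroupOf N).index ∣ (Q : Subgroup ↥N).index := Subgroup.index_dvd_of_le h1
      exact Q.not_dvd_index (hrd.trans h2)
  exact Subgroup.relIndex_eq_one.1 h0

/-- **The induction.** -/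
theorem not_dvd (p q : ℕ) [hp : Fact p.Prime] [hq : Fact q.Prime] (hpq : p ≠ q)
    (h23 : ¬ ((p = 2 ∧ q = 3) ∨ (p = 3 ∧ q = 2))) :
    ∀ n : ℕ, ∀ (X : Type u) [Group X] [Finite X], Nat.card X = n →
      (∀ r : ℕ, r.Prime → r ∣ Nat.card X → r = p ∨ r = q) → IsPSolvable p X →
      pPrimeCore p X = ⊥ → ∀ P : Sylow p X, Star q (P : Subgroup X) → ¬ q ∣ Nat.card X := by
  intro n
  induction n using Nat.strong_induction_on with
  | _ n ih =>
  intro X _ _ hn hprimes hsol hO P hstar hdvd
  have hfac : IsThompsonFactorizable p X := by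
    by_contra hnf
    obtain ⟨h2, h3⟩ := two_three_dvd hsol hO hnf
    have h2' := hprimes 2 Nat.prime_two h2
    have h3' := hprimes 3 Nat.prime_three h3
    omega
  -- the subgroup `W = Ω₁(Z(P))`
  set W : Subgroup X := omegaOne p ((P : Subgroup X) ⊓ centralizer ((P : Subgroup X) : Set X)) with hW
  have hWeq : W = (omegaOne p (center ↥(P : Subgroup X))).map (P : Subgroup X).subtype :=
    omegaOne_inf_centralizer p _
  have hWP : W ≤ (P : Subgroup X) := by rw [hWeq]; exact map_subtype_le _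
  have hPW : (P : Subgroup X) ≤ centralizer (W : Set X) := by
    have h1 : W ≤ centralizer ((P : Subgroup X) : Set X) := by
      rw [hW, omegaOne, closure_le]
      rintro x ⟨⟨_, hx⟩, _⟩
      exact hx
    exact le_centralizer_iff.1 h1
  -- `W ≤ J(P)`
  have hWJ : W ≤ thompsonSubgroupOf p (P : Subgroup X) := by
    rw [hWeq, thompsonSubgroupOf]
    apply map_mono
    rw [omegaOne, closure_le]
    rintro x ⟨hx1, hx2⟩
    by_cases h1 : x = 1
    · rw [h1]; exact one_mem _
    · refine Cfsg.Agent.S0605.result x ?_ (orderOf_eq_prime hx2 h1)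
      rw [mem_centralizer_iff]
      intro g _
      exact mem_center_iff.1 hx1 g
  have hJchar := (Cfsg.Agent.S0602.result (G := ↥(P : Subgroup X)) (p := p)).1
  -- `N(J(P)) ≤ C(W)`
  have hN : normalizer (thompsonSubgroupOf p (P : Subgroup X) : Set X) ≤ centralizer (W : Set X) := by
    refine le_of_pq hprimes P _ _ hPW ?_ ?_
    · intro x hx hxq
      have h1 := hstar _ hJchar x hxq hx
      exact centralizer_le (show (W : Set X) ⊆ _ from hWJ) h1
    · have := hJchar
      have h1 : ((thompsonSubgroup p ↥(P : Subgroup X))).Normal := inferInstance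
      intro x hx
      rw [mem_normalizer_iff]
      intro y
      constructor
      · rintro ⟨z, hz, rfl⟩
        exact ⟨⟨x, hx⟩ * z * ⟨x, hx⟩⁻¹, h1.conj_mem z hz _, rfl⟩
      · rintro ⟨z, hz, hzy⟩
        refine ⟨⟨x, hx⟩⁻¹ * z * ⟨x, hx⟩, ?_, ?_⟩
        · have := h1.conj_mem z hz ⟨x, hx⟩⁻¹
          rwa [inv_inv] at this
        · have h2 : (z : X) = x * y * x⁻¹ := hzy
          show x⁻¹ * (z : X) * x = y
          rw [h2]; group
  have hWc : W ≤ center X := by
    have h1 : centralizer (W : Set X) = ⊤ := by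
      rw [eq_top_iff]
      intro g _
      obtain ⟨x, hx, c, hc, m, hm, rfl⟩ := hfac P g
      rw [hO, mem_bot] at hx
      rw [hx, one_mul]
      exact mul_mem hc (hN hm)
    intro w hw
    rw [mem_center_iff]
    intro g
    have h2 : g ∈ centralizer (W : Set X) := by rw [h1]; trivial
    exact (mem_centralizer_iff.1 h2 w hw).symm
  have hWn : W.Normal := ⟨fun w hw g => by
    have h1 : g * w = w * g := mem_center_iff.1 (hWc hw) g
    rw [h1, mul_inv_cancel_right]; exact hw⟩
  have hWp : IsPGroup p W := P.2.to_le hWP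
  by_cases hPbot : (P : Subgroup X) = ⊥
  · -- `X` is a `p'`-group
    have h1 : (Nat.card X).Coprime p := by
      have h2 := P.not_dvd_index
      rw [hPbot, index_bot] at h2
      exact ((Nat.Prime.coprime_iff_not_dvd hp.out).2 h2).symm
    have h2 : (⊤ : Subgroup X) ≤ pPrimeCore p X :=
      Lib.Cores.le_pPrimeCore inferInstance (by rw [Subgroup.card_top]; exact h1)
    rw [hO, top_le_iff] at h2
    have h3 : Nat.card X = 1 := by
      rw [← Subgroup.card_top (G := X), ← h2, Subgroup.card_bot]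
    rw [h3, Nat.dvd_one] at hdvd
    exact hq.out.one_lt.ne' hdvd
  · have hWne : W ≠ ⊥ := by
      rw [hWeq, Ne, map_eq_bot_iff_of_injective _ (P : Subgroup X).subtype_injective]
      have : Nontrivial ↥(P : Subgroup X) := (Subgroup.nontrivial_iff_ne_bot _).2 hPbot
      exact Cfsg.Agent.PLocal.StableClosure.omegaOne_center_ne_bot P.2
    have hcard := Subgroup.card_eq_card_quotient_mul_card_subgroup W
    have hlt : Nat.card (X ⧸ W) < n := by
      rw [← hn, hcard]
      have h1 : 1 < Nat.card W := (Subgroup.one_lt_card_iff_ne_bot W).2 hWne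
      have h2 : 0 < Nat.card (X ⧸ W) := Nat.card_pos
      nlinarith
    have hsurj := QuotientGroup.mk'_surjective W
    have hqW : ¬ q ∣ Nat.card W := by
      obtain ⟨k, hk⟩ := hWp.exists_card_eq
      rw [hk]
      intro h
      exact hpq ((Nat.prime_dvd_prime_iff_eq hq.out hp.out).1 (hq.out.dvd_of_dvd_pow h)).symm
    have hdvd' : q ∣ Nat.card (X ⧸ W) := by
      rw [hcard] at hdvd
      exact (hq.out.dvd_mul.1 hdvd).resolve_right hqW
    refine ih _ hlt (X ⧸ W) rfl ?_ ?_ ?_ (P.mapSurjective hsurj) ?_ hdvd'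
    · intro r hr hrd
      exact hprimes r hr (hrd.trans (Subgroup.card_quotient_dvd_card W))
    · exact Lib.PSolvable.IsPSolvable_of_surjective p hsol _ hsurj
    · exact pPrimeCore_quotient_central hO W hWc hWp
    · have h1 : ((P.mapSurjective hsurj : Sylow p (X ⧸ W)) : Subgroup (X ⧸ W)) =
          (P : Subgroup X).map (QuotientGroup.mk' W) := rfl
      rw [h1]
      refine hstar.map_of_le _ hsurj _ ?_ ?_
      · rw [QuotientGroup.ker_mk', hWeq]
        have h2 : ((omegaOne p (center ↥(P : Subgroup X))).map (P : Subgroup X).subtype).subgroupOf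
            (P : Subgroup X) = omegaOne p (center ↥(P : Subgroup X)) :=
          comap_map_eq_self_of_injective (P : Subgroup X).subtype_injective _
        rw [h2]
        exact omegaOne_center_char p _
      · rw [QuotientGroup.ker_mk']; exact hWP

end Cfsg.Agent.H586.AutPQ
end

-- part: H586/PQSub
section
/-!
# `{p, q}`-subgroups of `p`-solvable groups

A finite `p`-solvable group of order divisible by `q ≠ p` has a `{p, q}`-subgroup containing a
given Sylow `p`-subgroup and of order divisible by `q`.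
-/

set_option autoImplicit false

open Subgroup Cfsg

namespace Cfsg.Agent.H586.PQSub

universe u

theorem card_comap {A B : Type*} [Group A] [Group B] [Finite A] (f : A →* B)
    (hf : Function.Surjective f) (X : Subgroup B) :
    Nat.card (X.comap f) = Nat.card f.ker * Nat.card X := by
  have hle : f.ker ≤ X.comap f := ker_le_comap f X
  have h1 := Subgroup.card_mul_index (f.ker.subgroupOf (X.comap f))
  have h2 : Nat.card (f.ker.subgroupOf (X.comap f)) = Nat.card f.ker :=
    Nat.card_congr (subgroupOfEquivOfLe hle).toEquiv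
  have h3 : (f.ker.subgroupOf (X.comap f)).index = Nat.card X := by
    have h5 := Subgroup.relIndex_ker (K := X.comap f) f
    rw [map_comap_eq_self_of_surjective hf] at h5
    exact h5
  rw [← h1, h2, h3]

theorem frattini_case {p q : ℕ} [hp : Fact p.Prime] [hq : Fact q.Prime] {A : Type*} [Group A]
    [Finite A] (D : Subgroup A) [D.Normal] (hpD : ¬ p ∣ Nat.card D) (hqD : q ∣ Nat.card D) :
    ∃ X : Subgroup A, (∀ r : ℕ, r.Prime → r ∣ Nat.card X → r = p ∨ r = q) ∧
        q ∣ Nat.card X ∧ ¬ p ∣ X.index := by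
  obtain ⟨Q⟩ : Nonempty (Sylow q ↥D) := inferInstance
  have hfr : normalizer (((Q : Subgroup ↥D).map D.subtype : Subgroup A) : Set A) ⊔ D = ⊤ :=
    Sylow.normalizer_sup_eq_top Q
  have hQ₁p : IsPGroup q ((Q : Subgroup ↥D).map D.subtype) := Q.2.map _
  have hQ₁c : q ∣ Nat.card ((Q : Subgroup ↥D).map D.subtype) := by
    rw [card_map_of_injective D.subtype_injective]
    exact Q.dvd_card_of_dvd_card hqD
  generalize (Q : Subgroup ↥D).map D.subtype = Q₁ at *
  obtain ⟨N, hN⟩ : ∃ N : Subgroup A, N = normalizer (Q₁ : Set A) := ⟨_, rfl⟩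
  rw [← hN] at hfr
  have hidx : N.index ∣ Nat.card D := by
    have h0 : N ≤ normalizer (D : Set A) := by rw [normalizer_eq_top]; exact le_top
    have h1 := Cfsg.Agent.GH.C2GrowG.card_sup h0
    rw [hfr, Subgroup.card_top, ← Subgroup.card_mul_index N, mul_assoc] at h1
    exact ⟨_, (Nat.eq_of_mul_eq_mul_left Nat.card_pos h1).symm⟩
  obtain ⟨P₁⟩ : Nonempty (Sylow p ↥N) := inferInstance
  have hP₂i : ¬ p ∣ ((P₁ : Subgroup ↥N).map N.subtype).index := by
    rw [Subgroup.index_map_subtype]
    intro h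
    rcases hp.out.dvd_mul.1 h with h | h
    · exact P₁.not_dvd_index h
    · exact hpD (h.trans hidx)
  have hle : (P₁ : Subgroup ↥N).map N.subtype ≤ normalizer (Q₁ : Set A) := by
    rw [← hN]; exact map_subtype_le _
  have hP₂p : IsPGroup p ((P₁ : Subgroup ↥N).map N.subtype) := P₁.2.map _
  generalize (P₁ : Subgroup ↥N).map N.subtype = P₂ at *
  have hcard := Cfsg.Agent.GH.C2GrowG.card_sup hle
  obtain ⟨a, ha⟩ := hP₂p.exists_card_eq
  obtain ⟨b, hb⟩ := hQ₁p.exists_card_eq
  refine ⟨P₂ ⊔ Q₁, ?_, ?_, ?_⟩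
  · intro r hr hrd
    have h1 : r ∣ p ^ a * q ^ b := by
      rw [← ha, ← hb, ← hcard]; exact hrd.mul_right _
    rcases hr.dvd_mul.1 h1 with h | h
    · exact Or.inl ((Nat.prime_dvd_prime_iff_eq hr hp.out).1 (hr.dvd_of_dvd_pow h))
    · exact Or.inr ((Nat.prime_dvd_prime_iff_eq hr hq.out).1 (hr.dvd_of_dvd_pow h))
  · exact hQ₁c.trans (Subgroup.card_dvd_of_le le_sup_right)
  · intro h
    exact hP₂i (h.trans (Subgroup.index_dvd_of_le le_sup_left))

theorem exists_pq (p q : ℕ) [hp : Fact p.Prime] [hq : Fact q.Prime] (hpq : p ≠ q) :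
    ∀ n : ℕ, ∀ (A : Type u) [Group A] [Finite A], Nat.card A = n → IsPSolvable p A →
      q ∣ Nat.card A → ∃ X : Subgroup A, (∀ r : ℕ, r.Prime → r ∣ Nat.card X → r = p ∨ r = q) ∧
        q ∣ Nat.card X ∧ ¬ p ∣ X.index := by
  intro n
  induction n using Nat.strong_induction_on with
  | _ n ih =>
  intro A _ _ hn hsol hdvd
  have hnt : Nontrivial A := by
    have : 1 < Nat.card A := lt_of_lt_of_le hq.out.one_lt (Nat.le_of_dvd Nat.card_pos hdvd)
    exact Finite.one_lt_card_iff_nontrivial.1 this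
  -- the quotient by a nontrivial normal subgroup of order prime to `q`
  have hquo : ∀ (D : Subgroup A) [D.Normal], D ≠ ⊥ → ¬ q ∣ Nat.card D →
      ∃ X : Subgroup (A ⧸ D), (∀ r : ℕ, r.Prime → r ∣ Nat.card X → r = p ∨ r = q) ∧
        q ∣ Nat.card X ∧ ¬ p ∣ X.index := by
    intro D hD hDne hqD
    have hcard := Subgroup.card_eq_card_quotient_mul_card_subgroup D
    refine ih (Nat.card (A ⧸ D)) ?_ (A ⧸ D) rfl ?_ ?_
    · rw [← hn, hcard]
      have h1 : 1 < Nat.card D := (Subgroup.one_lt_card_iff_ne_bot D).2 hDne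
      have h2 : 0 < Nat.card (A ⧸ D) := Nat.card_pos
      nlinarith
    · exact Lib.PSolvable.IsPSolvable_of_surjective p hsol _ (QuotientGroup.mk'_surjective D)
    · rw [hcard] at hdvd
      exact (hq.out.dvd_mul.1 hdvd).resolve_right hqD
  rcases Lib.PSolvable.exists_core_ne_bot p hsol with h | h
  · -- `O_p(A) ≠ 1`
    have hn := Lib.Cores.pCore_normal (G := A) p
    obtain ⟨k, hk⟩ := (Lib.Cores.pCore_isPGroup (G := A) p).exists_card_eq
    obtain ⟨X, hX1, hX2, hX3⟩ := hquo (pCore p A) h (by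
      rw [hk]; intro h
      exact hpq ((Nat.prime_dvd_prime_iff_eq hq.out hp.out).1 (hq.out.dvd_of_dvd_pow h)).symm)
    have hsurj := QuotientGroup.mk'_surjective (pCore p A)
    have hc := card_comap (QuotientGroup.mk' (pCore p A)) hsurj X
    rw [QuotientGroup.ker_mk', hk] at hc
    refine ⟨X.comap (QuotientGroup.mk' (pCore p A)), ?_, ?_, ?_⟩
    · intro r hr hrd
      rw [hc] at hrd
      rcases hr.dvd_mul.1 hrd with h | h
      · exact Or.inl ((Nat.prime_dvd_prime_iff_eq hr hp.out).1 (hr.dvd_of_dvd_pow h))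
      · exact hX1 r hr h
    · rw [hc]; exact hX2.mul_left _
    · rw [index_comap_of_surjective _ hsurj]; exact hX3
  · -- `O_{p'}(A) ≠ 1`
    have hDn : (pPrimeCore p A).Normal := Lib.Cores.pPrimeCore_normal (G := A) p
    have hDc : (Nat.card (pPrimeCore p A)).Coprime p := Lib.Cores.pPrimeCore_coprime (G := A) p
    generalize pPrimeCore p A = D at *
    have hpD : ¬ p ∣ Nat.card D := (Nat.Prime.coprime_iff_not_dvd hp.out).1 hDc.symm
    by_cases hqD : q ∣ Nat.card D
    · exact frattini_case D hpD hqD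
    · -- Schur–Zassenhaus
      obtain ⟨X, hX1, hX2, hX3⟩ := hquo D h hqD
      have hsurj := QuotientGroup.mk'_surjective D
      set Y := X.comap (QuotientGroup.mk' D) with hY
      have hc := card_comap (QuotientGroup.mk' D) hsurj X
      rw [QuotientGroup.ker_mk'] at hc
      have hDY : D ≤ Y := by
        have := ker_le_comap (QuotientGroup.mk' D) X
        rwa [QuotientGroup.ker_mk'] at this
      have h2 : Nat.card (D.subgroupOf Y) = Nat.card D :=
        Nat.card_congr (subgroupOfEquivOfLe hDY).toEquiv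
      have h3 : (D.subgroupOf Y).index = Nat.card X := by
        have h1 := Subgroup.card_mul_index (D.subgroupOf Y)
        rw [h2, hc] at h1
        exact Nat.eq_of_mul_eq_mul_left Nat.card_pos h1
      have hcop : Nat.Coprime (Nat.card (D.subgroupOf Y)) (D.subgroupOf Y).index := by
        rw [h2, h3]
        apply Nat.Coprime.symm
        apply Nat.Coprime.symm
        rw [Nat.coprime_iff_gcd_eq_one] 
        by_contra hne
        obtain ⟨r, hr, hrd⟩ := Nat.exists_prime_and_dvd hne
        rcases hX1 r hr (hrd.trans (Nat.gcd_dvd_right _ _)) with rfl | rfl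
        · exact hpD (hrd.trans (Nat.gcd_dvd_left _ _))
        · exact hqD (hrd.trans (Nat.gcd_dvd_left _ _))
      obtain ⟨K, hK⟩ := Subgroup.exists_right_complement'_of_coprime hcop
      have hKcard : Nat.card K = Nat.card X := by rw [← h3, hK.symm.index_eq_card]
      have hKidx : K.index = Nat.card D := by rw [hK.index_eq_card, h2]
      refine ⟨K.map Y.subtype, ?_, ?_, ?_⟩
      · rw [card_map_of_injective Y.subtype_injective, hKcard]; exact hX1
      · rw [card_map_of_injective Y.subtype_injective, hKcard]; exact hX2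
      · rw [Subgroup.index_map_subtype, hKidx, hY, index_comap_of_surjective _ hsurj]
        intro h
        rcases hp.out.dvd_mul.1 h with h | h
        · exact hpD h
        · exact hX3 h

/-- **`{p, q}`-subgroups over a Sylow `p`-subgroup.** -/
theorem exists_pq_over {p q : ℕ} [hp : Fact p.Prime] [hq : Fact q.Prime] (hpq : p ≠ q)
    {A : Type u} [Group A] [Finite A] (hsol : IsPSolvable p A) (hdvd : q ∣ Nat.card A)
    (P : Sylow p A) : ∃ X : Subgroup A, (P : Subgroup A) ≤ X ∧
      (∀ r : ℕ, r.Prime → r ∣ Nat.card X → r = p ∨ r = q) ∧ q ∣ Nat.card X := by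
  obtain ⟨X, hX1, hX2, hX3⟩ := exists_pq p q hpq _ A rfl hsol hdvd
  let P₁ : Sylow p ↥X := default
  have hP₁ : IsPGroup p ((P₁ : Subgroup ↥X).map X.subtype) := P₁.2.map _
  have hi : ¬ p ∣ ((P₁ : Subgroup ↥X).map X.subtype).index := by
    rw [Subgroup.index_map_subtype]
    intro h
    rcases hp.out.dvd_mul.1 h with h | h
    · exact P₁.not_dvd_index h
    · exact hX3 h
  let P₂ : Sylow p A := hP₁.toSylow hi
  obtain ⟨g, hg⟩ := MulAction.exists_smul_eq A P₂ P
  refine ⟨X.map (MulAut.conj g).toMonoidHom, ?_, ?_, ?_⟩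
  · rw [← hg]
    have h1 : ((g • P₂ : Sylow p A) : Subgroup A) =
        ((P₁ : Subgroup ↥X).map X.subtype).map (MulAut.conj g).toMonoidHom := rfl
    rw [h1]
    exact map_mono (map_subtype_le _)
  · rw [card_map_of_injective (MulAut.conj g).injective]; exact hX1
  · rw [card_map_of_injective (MulAut.conj g).injective]; exact hX2

end Cfsg.Agent.H586.PQSub
end

-- part: H586/AutMain
section
/-!
# Automizers of `p`-subgroups: from `{p, q}`-groups to `p`-solvable groups
-/

set_option autoImplicit false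

open Subgroup Cfsg

namespace Cfsg.Agent.H586.AutMain

open Cfsg.Agent.H586.AutStar Cfsg.Agent.H586.AutPQ

universe u

/-- the centraliser of a normal `p`-subgroup containing its centraliser in a Sylow `p`-subgroup -/
theorem centralizer_structure {p : ℕ} [hp : Fact p.Prime] {Y : Type*} [Group Y] [Finite Y]
    (H : Subgroup Y) [H.Normal] (P : Sylow p Y) (C : Subgroup Y) (hC : C = centralizer (H : Set Y))
    (hPC : (P : Subgroup Y) ⊓ C ≤ H) :
    ∃ K : Subgroup ↥C, K.Characteristic ∧ (Nat.card K).Coprime p ∧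
      ∃ k : ℕ, K.index = p ^ k := by
  have hCn : C.Normal := by rw [hC]; infer_instance
  obtain ⟨K, h1, h2, -, -, h3⟩ := central_split (p := p) ((P : Subgroup Y).subgroupOf C) (by
      rintro ⟨x, hxC⟩ hx
      rw [mem_center_iff]
      rintro ⟨g, hg⟩
      apply Subtype.ext
      have hxH : x ∈ H := hPC ⟨hx, hxC⟩
      rw [hC] at hg
      exact (mem_centralizer_iff.1 hg x hxH).symm)
    (Lib.SylowNormalInf.isPGroup_subgroupOf P C) (Lib.SylowNormalInf.not_dvd_relIndex P C)
  refine ⟨K, h1, h2, ?_⟩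
  obtain ⟨k, hk⟩ := (Lib.SylowNormalInf.isPGroup_subgroupOf P C).exists_card_eq
  exact ⟨k, h3.trans hk⟩

theorem isPSolvable_of_index {p : ℕ} [hp : Fact p.Prime] {D : Type*} [Group D] [Finite D]
    (K : Subgroup D) [K.Normal] (hK : (Nat.card K).Coprime p) (hi : ∃ k : ℕ, K.index = p ^ k) :
    IsPSolvable p D := by
  refine Lib.PSolvable.IsPSolvable_of_quotient p K (Or.inr hK) ?_
  apply Cfsg.Agent.PLocal.PSolvable.isPSolvable_of_isPGroup
  obtain ⟨k, hk⟩ := hi
  exact IsPGroup.of_card (n := k) (by rw [← hk, Subgroup.index])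

theorem no_bad_Y {p q : ℕ} [hp : Fact p.Prime] [hq : Fact q.Prime] (hpq : p ≠ q)
    (h23 : ¬ ((p = 2 ∧ q = 3) ∨ (p = 3 ∧ q = 2))) {Y : Type u} [Group Y] [Finite Y]
    (H : Subgroup Y) [H.Normal] (hHp : IsPGroup p H) (P : Sylow p Y)
    (hstar : Star q (P : Subgroup Y))
    (hPC : (P : Subgroup Y) ⊓ centralizer (H : Set Y) ≤ H) (hsol : IsPSolvable p Y)
    (hprimes : ∀ r : ℕ, r.Prime → r ∣ (centralizer (H : Set Y)).index → r = p ∨ r = q) :
    ¬ q ∣ (centralizer (H : Set Y)).index := by
  intro hdvd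
  obtain ⟨C, hC⟩ : ∃ C : Subgroup Y, C = centralizer (H : Set Y) := ⟨_, rfl⟩
  rw [← hC] at hPC hprimes hdvd
  obtain ⟨K, hK1, hK2, k, hk⟩ := centralizer_structure H P C hC hPC
  have hCn : C.Normal := by rw [hC]; infer_instance
  have hKn : (K.map C.subtype).Normal := by
    have := hK1
    infer_instance
  have hKO : K.map C.subtype ≤ pPrimeCore p Y :=
    Lib.Cores.le_pPrimeCore hKn (by rw [card_map_of_injective C.subtype_injective]; exact hK2)
  have hOn : (pPrimeCore p Y).Normal := Lib.Cores.pPrimeCore_normal p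
  have hOc : (Nat.card (pPrimeCore p Y)).Coprime p := Lib.Cores.pPrimeCore_coprime p
  have hOC : pPrimeCore p Y ≤ C := by
    have h1 : pPrimeCore p Y ⊓ H = ⊥ := by
      obtain ⟨m, hm⟩ := hHp.exists_card_eq
      refine (Subgroup.disjoint_of_coprime_natCard ?_).eq_bot
      rw [hm]; exact hOc.pow_right m
    intro x hx
    rw [hC, mem_centralizer_iff]
    intro y hy
    have h2 : x * y * x⁻¹ * y⁻¹ ∈ pPrimeCore p Y ⊓ H := by
      refine ⟨?_, ?_⟩
      · have h3 := hOn.conj_mem _ (inv_mem hx) y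
        have h4 := mul_mem hx h3
        have h5 : x * (y * x⁻¹ * y⁻¹) = x * y * x⁻¹ * y⁻¹ := by group
        rwa [h5] at h4
      · exact H.mul_mem (Subgroup.Normal.conj_mem inferInstance y hy x) (H.inv_mem hy)
    rw [h1, mem_bot] at h2
    have h3 : x * y = y * x := by
      have := mul_inv_eq_one.1 h2
      rw [mul_inv_eq_iff_eq_mul] at this
      exact this
    exact h3.symm
  have hidx : (pPrimeCore p Y).relIndex C * C.index = (pPrimeCore p Y).index :=
    Subgroup.relIndex_mul_index hOC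
  have hrel : (pPrimeCore p Y).relIndex C ∣ p ^ k := by
    rw [← hk]
    have h1 : (K.map C.subtype).relIndex C = K.index := by
      rw [Subgroup.relIndex]
      congr 1
      exact comap_map_eq_self_of_injective C.subtype_injective K
    rw [← h1]
    exact Subgroup.relIndex_dvd_of_le_left C hKO
  have hsurj := QuotientGroup.mk'_surjective (pPrimeCore p Y)
  refine not_dvd p q hpq h23 _ (Y ⧸ pPrimeCore p Y) rfl ?_ ?_ ?_ (P.mapSurjective hsurj) ?_ ?_
  · intro r hr hrd
    have h1 : r ∣ (pPrimeCore p Y).index := hrd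
    rw [← hidx] at h1
    rcases hr.dvd_mul.1 h1 with h | h
    · exact Or.inl ((Nat.prime_dvd_prime_iff_eq hr hp.out).1 (hr.dvd_of_dvd_pow (h.trans hrel)))
    · exact hprimes r hr h
  · exact Lib.PSolvable.IsPSolvable_of_surjective p hsol _ hsurj
  · exact Lib.Cores.pPrimeCore_quotient_pPrimeCore p
  · have h1 : ((P.mapSurjective hsurj : Sylow p (Y ⧸ pPrimeCore p Y)) : Subgroup (Y ⧸ pPrimeCore p Y)) =
        (P : Subgroup Y).map (QuotientGroup.mk' (pPrimeCore p Y)) := rfl
    rw [h1]
    exact hstar.map_of_coprime _ hsurj _ P.2 (by rw [QuotientGroup.ker_mk']; exact hOc)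
  · have h1 : q ∣ (pPrimeCore p Y).index := by rw [← hidx]; exact hdvd.mul_left _
    exact h1

theorem no_bad_N {p q : ℕ} [hp : Fact p.Prime] [hq : Fact q.Prime] (hpq : p ≠ q)
    (h23 : ¬ ((p = 2 ∧ q = 3) ∨ (p = 3 ∧ q = 2))) {N : Type u} [Group N] [Finite N]
    (H : Subgroup N) [H.Normal] (hHp : IsPGroup p H) (P : Sylow p N)
    (hstar : Star q (P : Subgroup N))
    (hPC : (P : Subgroup N) ⊓ centralizer (H : Set N) ≤ H)
    (hsol : IsPSolvable p (N ⧸ centralizer (H : Set N))) :
    ¬ q ∣ (centralizer (H : Set N)).index := by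
  intro hdvd
  -- `N` is `p`-solvable
  have hsolN : IsPSolvable p N := by
    obtain ⟨K, hK1, hK2, hK3⟩ := centralizer_structure H P _ rfl hPC
    have := hK1
    have hKn : K.Normal := inferInstance
    exact Lib.PSolvable.IsPSolvable_of_extension p _ (isPSolvable_of_index K hK2 hK3) hsol
  have hHP : H ≤ (P : Subgroup N) := hHp.le_sylow_of_normal P
  obtain ⟨C, hC⟩ : ∃ C : Subgroup N, C = centralizer (H : Set N) := ⟨_, rfl⟩
  have hCn : C.Normal := by rw [hC]; infer_instance
  have hsol' : IsPSolvable p (N ⧸ C) :=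
    Lib.PSolvable.IsPSolvable_of_surjective p hsolN _ (QuotientGroup.mk'_surjective C)
  have hsurj := QuotientGroup.mk'_surjective C
  obtain ⟨X, hX1, hX2, hX3⟩ := Cfsg.Agent.H586.PQSub.exists_pq_over hpq hsol'
    (by rw [hC]; exact hdvd) (P.mapSurjective hsurj)
  have hX1' : (P : Subgroup N).map (QuotientGroup.mk' C) ≤ X := hX1
  set Y : Subgroup N := X.comap (QuotientGroup.mk' C) with hY
  have hPY : (P : Subgroup N) ≤ Y := map_le_iff_le_comap.1 hX1'
  have hCY : C ≤ Y := by
    have := ker_le_comap (QuotientGroup.mk' C) X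
    rwa [QuotientGroup.ker_mk'] at this
  have hHY : H ≤ Y := hHP.trans hPY
  have hcen : centralizer ((H.subgroupOf Y : Subgroup ↥Y) : Set ↥Y) = C.subgroupOf Y := by
    ext y
    rw [mem_subgroupOf, hC, mem_centralizer_iff, mem_centralizer_iff]
    constructor
    · intro h x hx
      exact congrArg Subtype.val (h ⟨x, hHY hx⟩ hx)
    · intro h x hx
      exact Subtype.ext (h x hx)
  have hidx : (C.subgroupOf Y).index = Nat.card X := by
    have h5 := Subgroup.relIndex_ker (K := Y) (QuotientGroup.mk' C)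
    rw [QuotientGroup.ker_mk', map_comap_eq_self_of_surjective hsurj] at h5
    exact h5
  have hPmap : ((P.subtype hPY : Sylow p ↥Y) : Subgroup ↥Y).map Y.subtype = (P : Subgroup N) :=
    map_subgroupOf_eq_of_le hPY
  have hnb := no_bad_Y hpq h23 (H.subgroupOf Y) (hHp.comap_of_injective Y.subtype Y.subtype_injective)
    (P.subtype hPY) (Star.of_injective Y.subtype Y.subtype_injective _ (by rw [hPmap]; exact hstar))
    (by
      rw [hcen]
      rintro x ⟨hx1, hx2⟩
      rw [mem_subgroupOf]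
      refine hPC ⟨hx1, ?_⟩
      rw [← hC]
      exact hx2)
    (Lib.PSolvable.IsPSolvable_of_injective p hsolN Y.subtype Y.subtype_injective)
  rw [hcen, hidx] at hnb
  exact hnb hX2 hX3

end Cfsg.Agent.H586.AutMain
end

-- part: S4411
section
set_option autoImplicit false
open Cfsg

namespace Cfsg.Agent.S4411

open Subgroup Cfsg.Agent.H586.AutStar

/-- some `q`-element acts nontrivially on `K` -/
def Bad (q : ℕ) {G : Type*} [Group G] (K : Subgroup G) : Prop :=
  ∃ x : G, (∃ k : ℕ, x ^ (q ^ k) = 1) ∧ x ∈ normalizer (K : Set G) ∧ x ∉ centralizer (K : Set G)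

theorem bad_iff {q : ℕ} [hq : Fact q.Prime] {G : Type*} [Group G] [Finite G] (K : Subgroup G) :
    q ∣ ((centralizer (K : Set G)).subgroupOf (normalizer (K : Set G))).index ↔ Bad q K := by
  constructor
  · intro h
    by_contra hb
    obtain ⟨Q⟩ : Nonempty (Sylow q ↥(normalizer (K : Set G))) := inferInstance
    have h1 : (Q : Subgroup ↥(normalizer (K : Set G))) ≤
        (centralizer (K : Set G)).subgroupOf (normalizer (K : Set G)) := by
      intro x hx
      rw [mem_subgroupOf]
      by_contra hxc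
      apply hb
      obtain ⟨k, hk⟩ := Q.2 ⟨x, hx⟩
      refine ⟨x, ⟨k, ?_⟩, x.2, hxc⟩
      have := congrArg (fun y : ↥(Q : Subgroup ↥(normalizer (K : Set G))) =>
        ((y : ↥(normalizer (K : Set G))) : G)) hk
      simpa using this
    exact Q.not_dvd_index (h.trans (Subgroup.index_dvd_of_le h1))
  · rintro ⟨x, ⟨k, hk⟩, hn, hc⟩
    let y : ↥(normalizer (K : Set G)) ⧸
        (centralizer (K : Set G)).subgroupOf (normalizer (K : Set G)) :=
      QuotientGroup.mk ⟨x, hn⟩
    have hy1 : y ^ (q ^ k) = 1 := by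
      have h1 : (⟨x, hn⟩ : ↥(normalizer (K : Set G))) ^ (q ^ k) = 1 := Subtype.ext hk
      have h2 : y ^ (q ^ k) = QuotientGroup.mk ((⟨x, hn⟩ : ↥(normalizer (K : Set G))) ^ (q ^ k)) := rfl
      rw [h2, h1]; rfl
    have hy2 : y ≠ 1 := by
      intro h
      apply hc
      exact (QuotientGroup.eq_one_iff (N := (centralizer (K : Set G)).subgroupOf
        (normalizer (K : Set G))) _).1 h
    obtain ⟨m, -, hm⟩ := (Nat.dvd_prime_pow hq.out).1 (orderOf_dvd_of_pow_eq_one hy1)
    have hm0 : m ≠ 0 := by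
      rintro rfl
      rw [pow_zero, orderOf_eq_one_iff] at hm
      exact hy2 hm
    have h3 : q ∣ orderOf y := by rw [hm]; exact dvd_pow_self q hm0
    exact h3.trans (orderOf_dvd_natCard y)

theorem mem_normalizer_map_conj {G : Type*} [Group G] {K : Subgroup G} (g : G) {x : G}
    (hx : x ∈ normalizer (K : Set G)) :
    g * x * g⁻¹ ∈ normalizer ((K.map (MulAut.conj g).toMonoidHom : Subgroup G) : Set G) := by
  have h := Subgroup.le_normalizer_map (H := K) (MulAut.conj g).toMonoidHom
  exact h ⟨x, hx, rfl⟩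

theorem Bad.conj {q : ℕ} {G : Type*} [Group G] {K : Subgroup G} (h : Bad q K) (g : G) :
    Bad q (K.map (MulAut.conj g).toMonoidHom) := by
  obtain ⟨x, ⟨k, hk⟩, hn, hc⟩ := h
  refine ⟨g * x * g⁻¹, ⟨k, ?_⟩, mem_normalizer_map_conj g hn, ?_⟩
  · rw [conj_pow, hk]; group
  · intro hc'
    apply hc
    rw [mem_centralizer_iff] at hc' ⊢
    intro y hy
    have h1 : g * y * g⁻¹ * (g * x * g⁻¹) = g * x * g⁻¹ * (g * y * g⁻¹) := hc' _ ⟨y, hy, rfl⟩
    have h2 : g * (y * x) * g⁻¹ = g * (x * y) * g⁻¹ := by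
      calc g * (y * x) * g⁻¹ = g * y * g⁻¹ * (g * x * g⁻¹) := by group
        _ = g * x * g⁻¹ * (g * y * g⁻¹) := h1
        _ = g * (x * y) * g⁻¹ := by group
    exact mul_left_cancel (mul_right_cancel h2)

/-- `p`-part of the order of the normaliser -/
noncomputable def v (p : ℕ) {G : Type*} [Group G] (K : Subgroup G) : ℕ :=
  (Nat.card ↥(normalizer (K : Set G))).factorization p

theorem card_le_v {p : ℕ} [hp : Fact p.Prime] {G : Type*} [Group G] [Finite G] {K T : Subgroup G}
    (hT : IsPGroup p T) (h : T ≤ normalizer (K : Set G)) : Nat.card T ≤ p ^ v p K := by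
  obtain ⟨a, ha⟩ := hT.exists_card_eq
  have h1 : p ^ a ∣ Nat.card ↥(normalizer (K : Set G)) := by
    rw [← ha]; exact Subgroup.card_dvd_of_le h
  have h2 : a ≤ v p K := by
    rw [v, ← hp.out.pow_dvd_iff_le_factorization Nat.card_pos.ne']
    exact h1
  rw [ha]
  exact Nat.pow_le_pow_right hp.out.pos h2

/-- Let p and q be distinct primes with {p, q} ≠ {2, 3}, and let G be a finite group such that for every p-subgroup H of G the automizer N_G(H)/C_G(H) is p-solvable. If q divides the order of N_G(H)/C_G(H) for some p-subgroup H, then a Sylow p-subgroup of G has a normal subgroup K (normal in the Sylow subgroup) such that q divides the order of N_G(K)/C_G(K). -/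
theorem result {G : Type*} [Group G] [Finite G]
    (p q : ℕ) [Fact p.Prime] [Fact q.Prime] (hpq : p ≠ q) (h23 : ¬ ((p = 2 ∧ q = 3) ∨ (p = 3 ∧ q = 2)))
    (hsol : ∀ H : Subgroup G, IsPGroup p ↥H →
      Cfsg.IsPSolvable p (↥(Subgroup.normalizer (H : Set G)) ⧸ (Subgroup.centralizer (H : Set G)).subgroupOf (Subgroup.normalizer (H : Set G))))
    (H : Subgroup G) (hH : IsPGroup p ↥H)
    (hq : q ∣ ((Subgroup.centralizer (H : Set G)).subgroupOf (Subgroup.normalizer (H : Set G))).index)
    (Gp : Sylow p G) :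
    ∃ K : Subgroup G, K ≤ (Gp : Subgroup G) ∧ (Gp : Subgroup G) ≤ Subgroup.normalizer (K : Set G) ∧
      q ∣ ((Subgroup.centralizer (K : Set G)).subgroupOf (Subgroup.normalizer (K : Set G))).index := by
  by_contra hcon
  -- no bad subgroup is normal in a Sylow subgroup
  have hS : ∀ (S : Sylow p G) (K : Subgroup G), K ≤ (S : Subgroup G) →
      (S : Subgroup G) ≤ normalizer (K : Set G) → ¬ Bad q K := by
    intro S K hKS hSK hb
    obtain ⟨g, hg⟩ := MulAction.exists_smul_eq G S Gp
    have hg' : (Gp : Subgroup G) = (S : Subgroup G).map (MulAut.conj g).toMonoidHom := by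
      rw [← hg]; rfl
    apply hcon
    refine ⟨K.map (MulAut.conj g).toMonoidHom, ?_, ?_, (bad_iff _).2 (hb.conj g)⟩
    · rw [hg']; exact map_mono hKS
    · rw [hg']
      rintro _ ⟨x, hx, rfl⟩
      exact mem_normalizer_map_conj g (hSK hx)
  -- the maximal choice
  obtain ⟨H, ⟨hHp, hHb⟩, hmax⟩ : ∃ H : Subgroup G, (IsPGroup p H ∧ Bad q H) ∧
      ∀ H' : Subgroup G, (IsPGroup p H' ∧ Bad q H') →
        v p H' * (Nat.card G + 1) + Nat.card H' ≤ v p H * (Nat.card G + 1) + Nat.card H := by
    have hfin : {H : Subgroup G | IsPGroup p H ∧ Bad q H}.Finite := Set.toFinite _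
    have hne : {H : Subgroup G | IsPGroup p H ∧ Bad q H}.Nonempty := ⟨H, hH, (bad_iff H).1 hq⟩
    obtain ⟨H, hH, hmax⟩ := Set.exists_max_image _
      (fun H : Subgroup G => v p H * (Nat.card G + 1) + Nat.card H) hfin hne
    exact ⟨H, hH, hmax⟩
  have hv : ∀ H' : Subgroup G, IsPGroup p H' → Bad q H' → v p H' ≤ v p H := by
    intro H' h1 h2
    by_contra hlt
    have h3 := hmax H' ⟨h1, h2⟩
    have h4 : v p H + 1 ≤ v p H' := by omega
    have h5 : (v p H + 1) * (Nat.card G + 1) ≤ v p H' * (Nat.card G + 1) :=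
      Nat.mul_le_mul_right _ h4
    have h6 : Nat.card H ≤ Nat.card G := Subgroup.card_le_card_group H
    have h7 : (v p H + 1) * (Nat.card G + 1) = v p H * (Nat.card G + 1) + (Nat.card G + 1) := by ring
    omega
  have hc : ∀ H' : Subgroup G, IsPGroup p H' → Bad q H' → v p H ≤ v p H' →
      Nat.card H' ≤ Nat.card H := by
    intro H' h1 h2 h3
    have h4 := hmax H' ⟨h1, h2⟩
    have h5 : v p H' = v p H := le_antisymm (hv H' h1 h2) h3
    rw [h5] at h4
    omega
  -- the Sylow subgroup of the normaliser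
  obtain ⟨N, hN⟩ : ∃ N : Subgroup G, N = normalizer (H : Set G) := ⟨_, rfl⟩
  obtain ⟨P⟩ : Nonempty (Sylow p ↥N) := inferInstance
  obtain ⟨P₁, hP₁⟩ : ∃ P₁ : Subgroup G, P₁ = (P : Subgroup ↥N).map N.subtype := ⟨_, rfl⟩
  have hP₁N : P₁ ≤ N := by rw [hP₁]; exact map_subtype_le _
  have hP₁p : IsPGroup p P₁ := by rw [hP₁]; exact P.2.map _
  have hP₁c : Nat.card P₁ = p ^ v p H := by
    rw [hP₁, card_map_of_injective N.subtype_injective, P.card_eq_multiplicity, v, hN]
  have hHN : H ≤ N := by rw [hN]; exact le_normalizer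
  have hHn : (H.subgroupOf N).Normal := by rw [hN]; exact normal_in_normalizer
  have hHp' : IsPGroup p (H.subgroupOf N) := hHp.comap_of_injective N.subtype N.subtype_injective
  have hHP' : H.subgroupOf N ≤ (P : Subgroup ↥N) := hHp'.le_sylow_of_normal P
  have hHP : H ≤ P₁ := by
    intro x hx
    rw [hP₁]
    exact ⟨⟨x, hHN hx⟩, hHP' (show (⟨x, hHN hx⟩ : ↥N) ∈ H.subgroupOf N from hx), rfl⟩
  -- `Star`
  have hstar : Star q P₁ := by
    intro K hK x hxq hxn
    by_contra hxc
    have hKbad : Bad q (K.map P₁.subtype) := ⟨x, hxq, hxn, hxc⟩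
    have hKp : IsPGroup p (K.map P₁.subtype) := hP₁p.to_le (map_subtype_le _)
    have hKv := hv _ hKp hKbad
    obtain ⟨S, hSP⟩ := hP₁p.exists_le_sylow
    have hne : P₁ < (S : Subgroup G) := by
      refine lt_of_le_of_ne hSP ?_
      intro heq
      refine hS S H (hHP.trans hSP) ?_ hHb
      rw [← heq, ← hN]; exact hP₁N
    -- the normaliser in `S` is larger
    have hnil : Group.IsNilpotent ↥(S : Subgroup G) := S.2.isNilpotent
    have h1 : P₁.subgroupOf (S : Subgroup G) < ⊤ := by
      rw [lt_top_iff_ne_top, Ne, subgroupOf_eq_top]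
      exact fun h => hne.not_ge h
    have h2 := Group.normalizerCondition_of_isNilpotent (G := ↥(S : Subgroup G)) _ h1
    obtain ⟨t, ht1, ht2⟩ := SetLike.exists_of_lt h2
    have hT : P₁ < (S : Subgroup G) ⊓ normalizer (P₁ : Set G) := by
      refine lt_of_le_of_ne (le_inf hSP le_normalizer) ?_
      intro heq
      apply ht2
      rw [mem_subgroupOf, heq]
      refine ⟨t.2, ?_⟩
      show (t : G) ∈ normalizer (P₁ : Set G)
      rw [mem_normalizer_iff] at ht1 ⊢
      intro y
      by_cases hy : y ∈ (S : Subgroup G)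
      · have := ht1 ⟨y, hy⟩
        simpa [mem_subgroupOf] using this
      · constructor
        · intro h; exact absurd (hSP h) hy
        · intro h
          exfalso
          apply hy
          have h3 := hSP h
          have h4 := (S : Subgroup G).mul_mem ((S : Subgroup G).mul_mem ((S : Subgroup G).inv_mem t.2) h3) t.2
          have h5 : (t : G)⁻¹ * (t * y * (t : G)⁻¹) * t = y := by group
          rwa [h5] at h4
    have hKn : normalizer (P₁ : Set G) ≤ normalizer ((K.map P₁.subtype : Subgroup G) : Set G) :=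
      Cfsg.Agent.OddOrderLocal.FittingHall.normalizer_le_normalizer_map P₁ K hK
    have h3 : Nat.card ↥((S : Subgroup G) ⊓ normalizer (P₁ : Set G) : Subgroup G) ≤
        p ^ v p (K.map P₁.subtype) :=
      card_le_v (S.2.to_le inf_le_left) (inf_le_right.trans hKn)
    have h4 : p ^ v p (K.map P₁.subtype) ≤ p ^ v p H :=
      Nat.pow_le_pow_right (Fact.out : p.Prime).pos hKv
    rw [← hP₁c] at h4
    have h5 : Nat.card P₁ < Nat.card ↥((S : Subgroup G) ⊓ normalizer (P₁ : Set G) : Subgroup G) :=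
      lt_of_le_of_ne (Subgroup.card_le_of_le hT.le)
        (fun h => hT.ne (Subgroup.eq_of_le_of_card_ge hT.le h.ge))
    omega
  -- the centraliser
  obtain ⟨C, hC⟩ : ∃ C : Subgroup ↥N, C = centralizer ((H.subgroupOf N : Subgroup ↥N) : Set ↥N) :=
    ⟨_, rfl⟩
  have hCmem : ∀ y : ↥N, y ∈ C ↔ (y : G) ∈ centralizer (H : Set G) := by
    intro y
    rw [hC, mem_centralizer_iff, mem_centralizer_iff]
    constructor
    · intro h x hx
      exact congrArg Subtype.val (h ⟨x, hHN hx⟩ hx)
    · intro h x hx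
      exact Subtype.ext (h x hx)
  have hCn : C.Normal := by
    rw [hC]
    have := hHn
    infer_instance
  have hCeq : C = (centralizer (H : Set G)).subgroupOf N := by
    ext y
    rw [hCmem, mem_subgroupOf]
  have hPC : (P : Subgroup ↥N) ⊓ C ≤ H.subgroupOf N := by
    obtain ⟨Q, hQ⟩ : ∃ Q : Subgroup ↥N, Q = (P : Subgroup ↥N) ⊓ C := ⟨_, rfl⟩
    obtain ⟨H₁, hH₁⟩ : ∃ H₁ : Subgroup ↥N, H₁ = H.subgroupOf N ⊔ Q := ⟨_, rfl⟩
    have hfr : normalizer (Q : Set ↥N) ⊔ C = ⊤ := by
      rw [hQ]
      exact Cfsg.Agent.Lib.SylowNormalInf.normalizer_inf_sup_eq_top P C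
    -- a `q`-element of `N(Q)` outside `C`
    obtain ⟨x, hxq, hxN, hxC⟩ := hHb
    rw [← hN] at hxN
    have hx1 : (⟨x, hxN⟩ : ↥N) ∉ C := fun h => hxC ((hCmem _).1 h)
    have hx2 : (⟨x, hxN⟩ : ↥N) ∈ normalizer (Q : Set ↥N) ⊔ C := by rw [hfr]; trivial
    rw [mem_sup_of_normal_right] at hx2
    obtain ⟨y, hy, c, hc', hyc⟩ := hx2
    have hmk : QuotientGroup.mk' C y = QuotientGroup.mk' C ⟨x, hxN⟩ := by
      rw [← hyc, map_mul]
      have : QuotientGroup.mk' C c = 1 := (QuotientGroup.eq_one_iff c).2 hc'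
      rw [this, mul_one]
    obtain ⟨m, hm1, hm2⟩ := exists_q_lift (q := q) (QuotientGroup.mk' C) y (by
      rw [hmk]
      obtain ⟨k, hk⟩ := hxq
      refine ⟨k, ?_⟩
      rw [← map_pow]
      have : (⟨x, hxN⟩ : ↥N) ^ (q ^ k) = 1 := Subtype.ext hk
      rw [this, map_one])
    have hyn : y ^ m ∈ normalizer (Q : Set ↥N) := pow_mem hy m
    have hyC : y ^ m ∉ C := by
      intro h
      apply hx1
      have h1 : QuotientGroup.mk' C (y ^ m) = 1 := (QuotientGroup.eq_one_iff _).2 h
      rw [hm1, hmk] at h1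
      exact (QuotientGroup.eq_one_iff _).1 h1
    -- `H₁` is bad
    have hle1 : normalizer (Q : Set ↥N) ≤ normalizer (H₁ : Set ↥N) := by
      intro z hz
      rw [hH₁]
      have h1 : z ∈ normalizer ((H.subgroupOf N : Subgroup ↥N) : Set ↥N) := by
        have := hHn
        rw [normalizer_eq_top]; trivial
      exact Subgroup.normalizer_inf_normalizer_le_normalizer_sup _ _ ⟨h1, hz⟩
    have hH₂ : ∀ z : ↥N, z ∈ normalizer (H₁ : Set ↥N) →
        (z : G) ∈ normalizer ((H₁.map N.subtype : Subgroup G) : Set G) := by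
      intro z hz
      exact Subgroup.le_normalizer_map (H := H₁) N.subtype ⟨z, hz, rfl⟩
    have hHH₂ : H ≤ H₁.map N.subtype := by
      intro z hz
      refine ⟨⟨z, hHN hz⟩, ?_, rfl⟩
      rw [hH₁]
      exact mem_sup_left (show (⟨z, hHN hz⟩ : ↥N) ∈ H.subgroupOf N from hz)
    have hbad : Bad q (H₁.map N.subtype) := by
      refine ⟨((y ^ m : ↥N) : G), ?_, hH₂ _ (hle1 hyn), ?_⟩
      · obtain ⟨k, hk⟩ := hm2
        exact ⟨k, by rw [← SubmonoidClass.coe_pow, hk]; rfl⟩
      · intro h
        apply hyC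
        rw [hCmem]
        exact centralizer_le (show (H : Set G) ⊆ _ from hHH₂) h
    have hH₁P : H₁ ≤ (P : Subgroup ↥N) := by
      rw [hH₁]
      refine sup_le hHP' ?_
      rw [hQ]; exact inf_le_left
    have hH₂p : IsPGroup p (H₁.map N.subtype) := (P.2.to_le hH₁P).map _
    have hPn : P₁ ≤ normalizer ((H₁.map N.subtype : Subgroup G) : Set G) := by
      intro z hz
      rw [hP₁] at hz
      obtain ⟨w, hw, rfl⟩ := hz
      apply hH₂
      apply hle1
      rw [hQ, mem_normalizer_iff]
      intro z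
      constructor
      · rintro ⟨h1, h2⟩
        exact ⟨(P : Subgroup ↥N).mul_mem ((P : Subgroup ↥N).mul_mem hw h1)
          ((P : Subgroup ↥N).inv_mem hw), hCn.conj_mem z h2 w⟩
      · rintro ⟨h1, h2⟩
        have h3 : w⁻¹ * (w * z * w⁻¹) * w = z := by group
        refine ⟨?_, ?_⟩
        · have := (P : Subgroup ↥N).mul_mem ((P : Subgroup ↥N).mul_mem
            ((P : Subgroup ↥N).inv_mem hw) h1) hw
          rwa [h3] at this
        · have := hCn.conj_mem _ h2 w⁻¹
          rwa [inv_inv, h3] at this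
    have hvle : v p H ≤ v p (H₁.map N.subtype) := by
      have h1 := card_le_v hP₁p hPn
      rw [hP₁c] at h1
      exact (Nat.pow_le_pow_iff_right (Fact.out : p.Prime).one_lt).1 h1
    have hcle := hc _ hH₂p hbad hvle
    have heq : H = H₁.map N.subtype := Subgroup.eq_of_le_of_card_ge hHH₂ hcle
    intro z hz
    rw [← hQ] at hz
    rw [mem_subgroupOf, heq]
    exact ⟨z, by rw [hH₁]; exact mem_sup_right hz, rfl⟩
  have hsolN : IsPSolvable p (↥N ⧸ C) := by
    subst hN
    subst hCeq
    exact hsol H hHp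
  subst hC
  have h1 := Cfsg.Agent.H586.AutMain.no_bad_N hpq h23 (H.subgroupOf N) hHp' P
    (Star.of_injective N.subtype N.subtype_injective _ (by rw [← hP₁]; exact hstar)) hPC hsolN
  apply h1
  rw [hCeq, hN]
  exact (bad_iff H).2 hHb

end Cfsg.Agent.S4411
end
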