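import Cfsg.Statements.S4412
import Cfsg.Agent.H586.GenAut
import Mathlib.GroupTheory.FixedPointFree
import Mathlib.GroupTheory.Index
import Mathlib.Tactic.Ring
import Mathlib.Tactic.LinearCombination
set_option linter.all false

set_option autoImplicit false
open Cfsg

namespace Cfsg.Agent.S4412

/-- The fixed points of `T` do not form a cyclic group. -/
def Br {P : Type*} [Group P] (T : MulAut P) : Prop :=
  ¬ ∃ g : P, ∀ x : P, (T x = x ↔ x ∈ Subgroup.zpowers g)

section Hyper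

variable {G : Type*} [Group G]

/-- A hyperplane of an elementary abelian `2`-group containing a given subgroup and avoiding a
given element. -/
theorem exists_hyper [Finite G] (I I₀ : Subgroup G) (hI : Cfsg.IsElementaryAbelian 2 I)
    (hle : I₀ ≤ I) {b : G} (hbI : b ∈ I) (hb : b ∉ I₀) :
    ∃ I₁ : Subgroup G, I₀ ≤ I₁ ∧ I₁ ≤ I ∧ b ∉ I₁ ∧ (∀ c ∈ I, c ∉ I₁ → c * b ∈ I₁) ∧
      2 * Nat.card ↥I₁ = Nat.card ↥I := by
  have hcomm : ∀ x ∈ I, ∀ y ∈ I, x * y = y * x := by
    intro x hx y hy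
    have := hI.1.is_comm.comm (⟨x, hx⟩ : ↥I) ⟨y, hy⟩
    exact congrArg Subtype.val this
  have hsq : ∀ x ∈ I, x * x = 1 := by
    intro x hx; have := hI.2 x hx; rwa [pow_two] at this
  obtain ⟨J, hJ⟩ := (Set.toFinite {J : Subgroup G | I₀ ≤ J ∧ J ≤ I ∧ b ∉ J}).exists_maximal
    ⟨I₀, le_refl _, hle, hb⟩
  obtain ⟨⟨hJ0, hJI, hbJ⟩, hmax⟩ := hJ
  have hcos : ∀ c ∈ I, c ∉ J → c * b ∈ J := by
    intro c hc hcJ
    let K : Subgroup G :=
      { carrier := {x | x ∈ I ∧ (x ∈ J ∨ x * c ∈ J)}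
        one_mem' := ⟨I.one_mem, Or.inl J.one_mem⟩
        mul_mem' := by
          rintro x y ⟨hx, hx'⟩ ⟨hy, hy'⟩
          refine ⟨I.mul_mem hx hy, ?_⟩
          rcases hx' with hx' | hx' <;> rcases hy' with hy' | hy'
          · exact Or.inl (J.mul_mem hx' hy')
          · right
            rw [mul_assoc]; exact J.mul_mem hx' hy'
          · right
            rw [mul_assoc, hcomm y hy c hc, ← mul_assoc]; exact J.mul_mem hx' hy'
          · left
            have e : x * y = (x * c) * (y * c) := by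
              calc x * y = x * y * 1 := by rw [mul_one]
                _ = x * y * (c * c) := by rw [hsq c hc]
                _ = x * (y * c) * c := by group
                _ = x * (c * y) * c := by rw [hcomm y hy c hc]
                _ = (x * c) * (y * c) := by group
            rw [e]; exact J.mul_mem hx' hy'
        inv_mem' := by
          rintro x ⟨hx, hx'⟩
          have : x⁻¹ = x := by rw [inv_eq_iff_mul_eq_one]; exact hsq x hx
          rw [this]; exact ⟨hx, hx'⟩ }
    by_contra hcb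
    have hbK : b ∉ K := by
      rintro ⟨_, h | h⟩
      · exact hbJ h
      · apply hcb; rwa [hcomm c hc b hbI]
    have hKJ : K ≤ J := by
      apply hmax (y := K)
      · exact ⟨fun x hx => ⟨hle hx, Or.inl (hJ0 hx)⟩, fun x hx => hx.1, hbK⟩
      · exact fun x hx => ⟨hJI hx, Or.inl hx⟩
    apply hcJ
    apply hKJ
    refine ⟨hc, Or.inr ?_⟩
    rw [hsq c hc]; exact J.one_mem
  refine ⟨J, hJ0, hJI, hbJ, hcos, ?_⟩
  have hrel : J.relIndex I = 2 := by
    rw [Subgroup.relIndex_eq_two_iff]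
    refine ⟨b, hbI, fun c hc => ?_⟩
    by_cases hcJ : c ∈ J
    · right
      refine ⟨hcJ, fun h => hbJ ?_⟩
      have := J.mul_mem (J.inv_mem hcJ) h
      simpa using this
    · left
      exact ⟨hcos c hc hcJ, hcJ⟩
  have := Subgroup.card_mul_index (J.subgroupOf I)
  rw [Nat.card_congr (Subgroup.subgroupOfEquivOfLe hJI).toEquiv] at this
  change Nat.card ↥J * J.relIndex I = Nat.card ↥I at this
  rw [hrel] at this
  omega

end Hyper

section Sign

variable {P : Type*} [Group P] [Finite P]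

omit [Finite P] in
theorem sign (p : ℕ) (hp : p.Prime) (hp2 : p ≠ 2) (hP : IsPGroup p P) (T : MulAut P)
    (hT : T * T = 1) (a : P) (hTa : T a ∈ Subgroup.zpowers a) : T a = a ∨ T a = a⁻¹ := by
  obtain ⟨k, hk⟩ := hTa
  simp only at hk
  have h1 : T (T a) = a := by
    rw [← MulAut.mul_apply, hT]; rfl
  have h2 : a ^ (k * k - 1) = 1 := by
    rw [zpow_sub, zpow_one, zpow_mul, hk, ← map_zpow, hk, h1, mul_inv_cancel]
  have hpf : Fact p.Prime := ⟨hp⟩
  obtain ⟨m, hm⟩ := (IsPGroup.iff_orderOf.mp hP) a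
  have h3 : ((p ^ m : ℕ) : ℤ) ∣ k * k - 1 := by
    rw [← hm]; exact orderOf_dvd_iff_zpow_eq_one.mpr h2
  have h4 : k * k - 1 = (k - 1) * (k + 1) := by ring
  rw [h4] at h3
  have hpp : Prime (p : ℤ) := Nat.prime_iff_prime_int.mp hp
  by_cases hd : (p : ℤ) ∣ k - 1
  · have hd' : ¬ (p : ℤ) ∣ k + 1 := by
      intro h
      have h5 : (p : ℤ) ∣ 2 := by
        have := dvd_sub h hd
        have e : k + 1 - (k - 1) = 2 := by ring
        rwa [e] at this
      have h6 : p ∣ 2 := by exact_mod_cast h5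
      exact hp2 ((Nat.prime_dvd_prime_iff_eq hp Nat.prime_two).mp h6)
    have hc : IsCoprime ((p ^ m : ℕ) : ℤ) (k + 1) := by
      push_cast
      exact IsCoprime.pow_left ((Prime.coprime_iff_not_dvd hpp).mpr hd')
    left
    have h5 := hc.dvd_of_dvd_mul_right h3
    rw [← hm] at h5
    have h6 := orderOf_dvd_iff_zpow_eq_one.mp h5
    rw [zpow_sub, zpow_one, hk, mul_inv_eq_one] at h6
    exact h6
  · have hc : IsCoprime ((p ^ m : ℕ) : ℤ) (k - 1) := by
      push_cast
      exact IsCoprime.pow_left ((Prime.coprime_iff_not_dvd hpp).mpr hd)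
    right
    have h5 := hc.dvd_of_dvd_mul_left h3
    rw [← hm] at h5
    have h6 := orderOf_dvd_iff_zpow_eq_one.mp h5
    rw [zpow_add, zpow_one, hk, mul_eq_one_iff_eq_inv] at h6
    exact h6

omit [Finite P] in
theorem eq_one_of_sq (p : ℕ) (hp2 : p ≠ 2) (hp : p.Prime) (hP : IsPGroup p P) (a : P)
    (ha : a = a⁻¹) : a = 1 := by
  have h2 : a ^ 2 = 1 := by
    rw [pow_two]; nth_rewrite 2 [ha]; exact mul_inv_cancel a
  have hpf : Fact p.Prime := ⟨hp⟩
  obtain ⟨m, hm⟩ := (IsPGroup.iff_orderOf.mp hP) a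
  have h3 := orderOf_dvd_of_pow_eq_one h2
  rw [hm] at h3
  have h4 : Nat.Coprime (p ^ m) 2 := by
    apply Nat.Coprime.pow_left
    exact (Nat.coprime_primes hp Nat.prime_two).mpr hp2
  have h5 := Nat.Coprime.eq_one_of_dvd h4 h3
  rw [← hm] at h5
  exact orderOf_eq_one_iff.mp h5

end Sign

/-- An abelian group of `p`-power order generated by two elements does not have three independent
elements of order `p`, separated by commuting signs. -/
theorem not_two_gen {P : Type*} [CommGroup P] [Finite P] (p : ℕ) (hp : p.Prime) (hp2 : p ≠ 2)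
    (b : Fin 3 → P) (hb : ∀ i, orderOf (b i) = p) (U : Fin 3 → MulAut P)
    (hU : ∀ i j, i ≠ j → U j (b i) = b i) (hUi : ∀ i, U i (b i) = (b i)⁻¹)
    (x y : P) (hxy : Subgroup.closure {x, y} = ⊤) : False := by
  have hpf : Fact p.Prime := ⟨hp⟩
  let φ : P →* P := powMonoidHom p
  have h1 : Nat.card (P ⧸ φ.range) ≤ p * p := by
    let g : Fin p × Fin p → P ⧸ φ.range := fun k => QuotientGroup.mk (x ^ (k.1 : ℕ) * y ^ (k.2 : ℕ))
    have hg : Function.Surjective g := by
      intro q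
      obtain ⟨z, rfl⟩ := QuotientGroup.mk_surjective q
      have hz : z ∈ Subgroup.closure {x, y} := by rw [hxy]; trivial
      rw [Subgroup.mem_closure_pair] at hz
      obtain ⟨m, n, rfl⟩ := hz
      have hp0 : (p : ℤ) ≠ 0 := by exact_mod_cast hp.ne_zero
      have hpos : (0 : ℤ) < p := by exact_mod_cast hp.pos
      have hm1 := Int.emod_nonneg m hp0
      have hm2 := Int.emod_lt_of_pos m hpos
      have hn1 := Int.emod_nonneg n hp0
      have hn2 := Int.emod_lt_of_pos n hpos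
      refine ⟨⟨⟨(m % p).toNat, by omega⟩, ⟨(n % p).toNat, by omega⟩⟩, ?_⟩
      change (QuotientGroup.mk _ : P ⧸ φ.range) = QuotientGroup.mk _
      rw [QuotientGroup.eq]
      refine ⟨x ^ (m / p) * y ^ (n / p), ?_⟩
      change (x ^ (m / p) * y ^ (n / p)) ^ p = _
      have em : m = (m % p) + (m / p) * p := by
        have := Int.emod_add_mul_ediv m p; linarith
      have en : n = (n % p) + (n / p) * p := by
        have := Int.emod_add_mul_ediv n p; linarith
      have e1 : x ^ ((m % p).toNat : ℕ) = x ^ (m % p) := by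
        rw [← zpow_natCast, Int.toNat_of_nonneg hm1]
      have e2 : y ^ ((n % p).toNat : ℕ) = y ^ (n % p) := by
        rw [← zpow_natCast, Int.toNat_of_nonneg hn1]
      change _ = (x ^ ((m % p).toNat : ℕ) * y ^ ((n % p).toNat : ℕ))⁻¹ * (x ^ m * y ^ n)
      rw [e1, e2]
      conv_rhs => rw [em, en]
      rw [zpow_add, zpow_add, zpow_mul, zpow_mul, mul_pow, zpow_natCast, zpow_natCast]
      simp only [Int.add_mul_emod_self_right, Int.emod_emod]
      rw [eq_inv_mul_iff_mul_eq]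
      rw [mul_mul_mul_comm]
    have := Nat.card_le_card_of_surjective g hg
    simpa [Nat.card_prod] using this
  have h2 : p * p * p ≤ Nat.card ↥φ.ker := by
    let F : (Fin 3 → Fin p) → ↥φ.ker := fun k => ⟨∏ i, b i ^ (k i : ℕ), by
      rw [MonoidHom.mem_ker]
      change (∏ i, b i ^ (k i : ℕ)) ^ p = 1
      rw [← Finset.prod_pow]
      apply Finset.prod_eq_one
      intro i _
      have hbp : b i ^ p = 1 := by rw [← hb i]; exact pow_orderOf_eq_one _
      rw [← pow_mul, mul_comm, pow_mul, hbp, one_pow]⟩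
    have hF : Function.Injective F := by
      intro k l hkl
      have hkl' : ∏ i, b i ^ (k i : ℕ) = ∏ i, b i ^ (l i : ℕ) := congrArg Subtype.val hkl
      funext j
      let E : P →* P := MonoidHom.id P / (U j).toMonoidHom
      have hE : ∀ z, E z = z / U j z := fun z => rfl
      have hEb : ∀ i, i ≠ j → E (b i) = 1 := by
        intro i hij
        rw [hE, hU i j hij, div_self']
      have hEj : E (b j) = b j ^ 2 := by
        rw [hE, hUi, div_inv_eq_mul, pow_two]
      have key : ∀ m : Fin 3 → Fin p, E (∏ i, b i ^ (m i : ℕ)) = (b j ^ 2) ^ (m j : ℕ) := by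
        intro m
        rw [map_prod, Finset.prod_eq_single j]
        · rw [map_pow, hEj]
        · intro i _ hij
          rw [map_pow, hEb i hij, one_pow]
        · intro h; exact absurd (Finset.mem_univ j) h
      have h3 := congrArg E hkl'
      rw [key, key, ← pow_mul, ← pow_mul, pow_inj_mod, hb j] at h3
      have h4 : (k j : ℕ) ≡ (l j : ℕ) [MOD p] := by
        apply Nat.ModEq.cancel_left_of_coprime (c := 2) _ h3
        exact (Nat.coprime_primes hp Nat.prime_two).mpr hp2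
      ext
      have := Nat.ModEq.eq_of_lt_of_lt h4 (k j).2 (l j).2
      exact this
    have := Nat.card_le_card_of_injective F hF
    simp only [Nat.card_eq_fintype_card, Fintype.card_fun, Fintype.card_fin] at this
    calc p * p * p = p ^ 3 := by ring
      _ ≤ _ := this
  have h3 : Nat.card ↥φ.ker * Nat.card ↥φ.range = Nat.card P := by
    have := Subgroup.card_mul_index φ.ker
    rwa [Subgroup.index_ker] at this
  have h4 : Nat.card ↥φ.range * Nat.card (P ⧸ φ.range) = Nat.card P := by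
    have := Subgroup.card_mul_index φ.range
    exact this
  have h5 : 0 < Nat.card ↥φ.range := Nat.card_pos
  have h6 : Nat.card ↥φ.ker = Nat.card (P ⧸ φ.range) := by
    have : Nat.card ↥φ.range * Nat.card ↥φ.ker = Nat.card ↥φ.range * Nat.card (P ⧸ φ.range) := by
      rw [h4, ← h3, mul_comm]
    exact Nat.eq_of_mul_eq_mul_left h5 this
  have h7 : p * p * p ≤ p * p := by
    rw [h6] at h2; exact h2.trans h1
  have h8 : 2 ≤ p := hp.two_le
  nlinarith [Nat.mul_pos hp.pos hp.pos]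

theorem patterns : ∀ f : Fin 3 → Bool, (∀ j, f j = true) ∨ (∃ i, ∀ j, f j = decide (j = i)) ∨
    (∀ j, f j = false) ∨ (∃ i, ∀ j, f j = decide (j ≠ i)) := by
  decide

theorem fin3_prod : ∀ i : Fin 3, ∃ j k : Fin 3, ∀ l : Fin 3, (l = i ↔ (l ≠ j ↔ l ≠ k)) := by
  decide

theorem fin3_two : ∀ i : Fin 3, ∃ j k : Fin 3, j ≠ i ∧ k ≠ i ∧ j ≠ k := by
  decide

theorem core {P : Type*} [Group P] [Finite P] (p : ℕ) (hp : p.Prime) (hp2 : p ≠ 2)
    (hP : IsPGroup p P)
    (I : Subgroup (MulAut P)) (hI : Cfsg.IsElementaryAbelian 2 I) (hI8 : Nat.card ↥I = 8)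
    (I₁ : Subgroup (MulAut P)) (hI₁ : I₁ ≤ I) (hI₁4 : Nat.card ↥I₁ = 4)
    (h1 : ∀ T ∈ I₁, T ≠ 1 → ∃ g : P, ∀ x : P, (T x = x ↔ x ∈ Subgroup.zpowers g)) :
    IsMulCommutative P ∧ (∃ a b c : P, Subgroup.closure {a, b, c} = ⊤) ∧
      (¬ ∃ a b : P, Subgroup.closure {a, b} = ⊤) ∧
      ∃ U : Fin 3 → MulAut P, Function.Injective U ∧ (∀ i, U i ∈ I ∧ U i ≠ 1 ∧ Br (U i)) ∧
        (∀ T ∈ I, T ≠ 1 → Br T → ∃ i, T = U i) ∧ I ≤ Subgroup.closure (Set.range U) ∧
        ∀ T ∈ I₁, ∃ i j, T = U i * U j := by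
  classical
  have hfinA : Finite (MulAut P) :=
    Finite.of_injective (fun g : MulAut P => (g : P → P)) DFunLike.coe_injective
  have hpf : Fact p.Prime := ⟨hp⟩
  have hcomm : ∀ x ∈ I, ∀ y ∈ I, x * y = y * x := by
    intro x hx y hy
    have := hI.1.is_comm.comm (⟨x, hx⟩ : ↥I) ⟨y, hy⟩
    exact congrArg Subtype.val this
  have hcomm' : ∀ x ∈ I, ∀ y ∈ I, ∀ z : P, x (y z) = y (x z) := by
    intro x hx y hy z
    rw [← MulAut.mul_apply, hcomm x hx y hy]; rfl
  have hsq : ∀ x ∈ I, x * x = 1 := by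
    intro x hx; have := hI.2 x hx; rwa [pow_two] at this
  have hcop : ∀ Q : Subgroup P, (Nat.card ↥I₁).Coprime (Nat.card ↥Q) := by
    intro Q
    rw [hI₁4]
    obtain ⟨n, hn⟩ := IsPGroup.iff_card.mp (hP.to_subgroup Q)
    rw [hn]
    apply Nat.Coprime.pow_right
    exact Nat.Coprime.pow_left 2 ((Nat.coprime_primes Nat.prime_two hp).mpr (Ne.symm hp2))
  have hI₁c : IsMulCommutative ↥I₁ := by
    refine ⟨⟨?_⟩⟩
    rintro ⟨x, hx⟩ ⟨y, hy⟩
    ext1
    exact hcomm x (hI₁ hx) y (hI₁ hy)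
  have hI₁n : ¬ IsCyclic ↥I₁ := by
    intro h
    obtain ⟨g, hg⟩ := IsCyclic.exists_generator (α := ↥I₁)
    have h4 : orderOf g = 4 := by
      rw [← hI₁4]; exact orderOf_eq_card_of_forall_mem_zpowers hg
    have h2 : orderOf g ∣ 2 := by
      apply orderOf_dvd_of_pow_eq_one
      ext1
      rw [pow_two]
      exact hsq _ (hI₁ g.2)
    rw [h4] at h2
    omega
  -- enumerate
  have hcard3 : Nat.card {T : MulAut P // T ∈ I₁ ∧ T ≠ 1} = 3 := by
    have h2 : Set.ncard ((I₁ : Set (MulAut P)) \ {1}) = 3 := by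
      rw [Set.ncard_sdiff_singleton_of_mem I₁.one_mem]
      have : Set.ncard (I₁ : Set (MulAut P)) = 4 := hI₁4
      rw [this]
    have h3 : Nat.card {T : MulAut P // T ∈ I₁ ∧ T ≠ 1} = Set.ncard ((I₁ : Set (MulAut P)) \ {1}) := rfl
    rw [h3, h2]
  let e : Fin 3 ≃ {T : MulAut P // T ∈ I₁ ∧ T ≠ 1} := (Finite.equivFinOfCardEq hcard3).symm
  obtain ⟨T, hTdef⟩ : ∃ T : Fin 3 → MulAut P, ∀ i, T i = (e i : MulAut P) := ⟨_, fun i => rfl⟩
  have hTI₁ : ∀ i, T i ∈ I₁ := fun i => by rw [hTdef]; exact (e i).2.1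
  have hT1 : ∀ i, T i ≠ 1 := fun i => by rw [hTdef]; exact (e i).2.2
  have hTI : ∀ i, T i ∈ I := fun i => hI₁ (hTI₁ i)
  have hTsurj : ∀ t ∈ I₁, t ≠ 1 → ∃ i, t = T i := by
    intro t ht ht1
    refine ⟨e.symm ⟨t, ht, ht1⟩, ?_⟩
    rw [hTdef, Equiv.apply_symm_apply]
  choose a ha using fun i => h1 (T i) (hTI₁ i) (hT1 i)
  have hgen : Subgroup.closure (Set.range a) = ⊤ := by
    rw [eq_top_iff]
    refine (Cfsg.Agent.H586.GenAut.gen I₁ hI₁n ⊤ (fun _ _ _ _ => trivial) (hcop ⊤)).trans ?_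
    rw [Subgroup.closure_le]
    rintro x ⟨_, t, ht, ht1, htx⟩
    obtain ⟨i, rfl⟩ := hTsurj t ht ht1
    have h2 := (ha i x).mp htx
    have h3 : Subgroup.zpowers (a i) ≤ Subgroup.closure (Set.range a) := by
      rw [Subgroup.zpowers_le]; exact Subgroup.subset_closure ⟨i, rfl⟩
    exact h3 h2
  have hsgn : ∀ t ∈ I, ∀ i, t (a i) = a i ∨ t (a i) = (a i)⁻¹ := by
    intro t ht i
    apply sign p hp hp2 hP t (hsq t ht)
    rw [← ha i, hcomm' _ (hTI i) _ ht, (ha i (a i)).mpr (Subgroup.mem_zpowers _)]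
  have hext : ∀ t ∈ I, ∀ t' ∈ I, (∀ i, (t (a i) = a i ↔ t' (a i) = a i)) → t = t' := by
    intro t ht t' ht' h
    have h2 : Set.EqOn t.toMonoidHom t'.toMonoidHom (Subgroup.closure (Set.range a) : Set P) := by
      apply MonoidHom.eqOn_closure
      rintro _ ⟨i, rfl⟩
      change t (a i) = t' (a i)
      by_cases h3 : t (a i) = a i
      · rw [h3, (h i).mp h3]
      · have h4 : ¬ t' (a i) = a i := fun h5 => h3 ((h i).mpr h5)
        rw [(hsgn t ht i).resolve_left h3, (hsgn t' ht' i).resolve_left h4]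
    ext x
    exact h2 (by rw [hgen]; trivial)
  have hsurj : ∀ f : Fin 3 → Bool, ∃ t ∈ I, ∀ i, (t (a i) = a i ↔ f i = true) := by
    let s : ↥I → (Fin 3 → Bool) := fun t i => decide ((t : MulAut P) (a i) = a i)
    have hs : Function.Injective s := by
      intro t t' htt
      ext1
      apply hext _ t.2 _ t'.2
      intro i
      have := congrFun htt i
      simpa [s] using this
    have hs' : Function.Bijective s := by
      have : Fintype ↥I := Fintype.ofFinite _
      rw [Fintype.bijective_iff_injective_and_card]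
      refine ⟨hs, ?_⟩
      rw [← Nat.card_eq_fintype_card, hI8]
      simp
    intro f
    obtain ⟨t, rfl⟩ := hs'.2 f
    refine ⟨t, t.2, fun i => ?_⟩
    simp [s]
  have hane : ∀ i, a i ≠ (a i)⁻¹ := by
    intro i h
    have h2 := eq_one_of_sq p hp2 hp hP _ h
    obtain ⟨t, _, ht⟩ := hsurj (fun _ => false)
    have := ht i
    rw [h2] at this
    simp at this
  have hzne : ∀ i j, a i ∈ Subgroup.zpowers (a j) → i = j := by
    intro i j h
    obtain ⟨t, htI, ht⟩ := hsurj (fun k => decide (k = j))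
    have h2 : t (a j) = a j := by rw [ht]; simp
    obtain ⟨k, hk⟩ := h
    have h3 : t (a i) = a i := by
      rw [← hk]; simp only [map_zpow, h2]
    rw [ht] at h3
    simpa using h3
  have hTpat : ∀ i j, (T i (a j) = a j ↔ j = i) := by
    intro i j
    rw [ha]
    constructor
    · exact hzne j i
    · rintro rfl; exact Subgroup.mem_zpowers _
  have hprodpat : ∀ t ∈ I, ∀ t' ∈ I, ∀ i, ((t * t') (a i) = a i ↔ (t (a i) = a i ↔ t' (a i) = a i)) := by
    intro t ht t' ht' i
    rw [MulAut.mul_apply]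
    rcases hsgn t ht i with h | h <;> rcases hsgn t' ht' i with h' | h' <;> rw [h']
    · simp [h]
    · rw [map_inv, h]
      have := hane i
      simp [Ne.symm this]
    · rw [h]
      have := hane i
      simp [Ne.symm this]
    · rw [map_inv, h, inv_inv]
      have := hane i
      simp [Ne.symm this]
  obtain ⟨τ, hτI, hτ⟩ := hsurj (fun _ => false)
  have hτinv : ∀ i, τ (a i) = (a i)⁻¹ := by
    intro i
    refine (hsgn τ hτI i).resolve_left ?_
    rw [hτ]; simp
  have hτfix : ∀ x, τ x = x → x = 1 := by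
    let Q : Subgroup P :=
      { carrier := {x | τ x = x}
        one_mem' := map_one τ
        mul_mem' := by
          intro x y hx hy
          change τ (x * y) = x * y
          rw [map_mul, hx, hy]
        inv_mem' := by
          intro x hx
          change τ x⁻¹ = x⁻¹
          rw [map_inv, hx] }
    have hQ : Q ≤ ⊥ := by
      refine (Cfsg.Agent.H586.GenAut.gen I₁ hI₁n Q ?_ (hcop Q)).trans ?_
      · intro t ht x hx
        change τ (t x) = t x
        rw [hcomm' _ hτI _ (hI₁ ht)]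
        exact congrArg t hx
      · rw [Subgroup.closure_le]
        rintro x ⟨hxQ, t, ht, ht1, htx⟩
        obtain ⟨i, rfl⟩ := hTsurj t ht ht1
        obtain ⟨k, hk⟩ := (ha i x).mp htx
        simp only at hk
        have h2 : τ x = x⁻¹ := by
          rw [← hk, map_zpow, hτinv, inv_zpow]
        have h3 : τ x = x := hxQ
        have h4 : x = x⁻¹ := by rw [← h2, h3]
        exact eq_one_of_sq p hp2 hp hP x h4
    intro x hx
    exact Subgroup.mem_bot.mp (hQ hx)
  have habel : ∀ x y : P, x * y = y * x := by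
    have h2 : MonoidHom.FixedPointFree (τ : P → P) := hτfix
    have h3 : Function.Involutive (τ : P → P) := by
      intro x
      rw [← MulAut.mul_apply, hsq τ hτI]; rfl
    intro x y
    exact h2.commute_all_of_involutive h3 x y
  choose U hUI hUpat using fun i => hsurj (fun j => decide (j ≠ i))
  have hUpat' : ∀ i j, (U i (a j) = a j ↔ j ≠ i) := by
    intro i j; rw [hUpat]; simp
  have hUinj : Function.Injective U := by
    intro i j hij
    by_contra hne
    have h2 := (hUpat' i j).mpr (Ne.symm hne)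
    rw [hij] at h2
    exact (hUpat' j j).mp h2 rfl
  have hUbr : ∀ i, Br (U i) := by
    rintro i ⟨g, hg⟩
    obtain ⟨j, k, hji, hki, hjk⟩ := fin3_two i
    have hj := (hg (a j)).mp ((hUpat' i j).mpr hji)
    have hk := (hg (a k)).mp ((hUpat' i k).mpr hki)
    obtain ⟨t, htI, ht⟩ := hsurj (fun l => decide (l = j))
    have htj : t (a j) = a j := by rw [ht]; simp
    have htk : ¬ t (a k) = a k := by rw [ht]; simpa using Ne.symm hjk
    have hgU : U i g = g := (hg g).mpr (Subgroup.mem_zpowers g)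
    have htg : t g ∈ Subgroup.zpowers g := by
      rw [← hg, hcomm' _ (hUI i) _ htI, hgU]
    rcases sign p hp hp2 hP t (hsq t htI) g htg with h | h
    · obtain ⟨m, hm⟩ := hk
      simp only at hm
      apply htk
      rw [← hm, map_zpow, h]
    · obtain ⟨m, hm⟩ := hj
      simp only at hm
      apply hane j
      rw [← hm, map_zpow, h, inv_zpow] at htj
      rw [← hm]
      exact htj.symm
  have hU1 : ∀ i, U i ≠ 1 := by
    intro i h
    have := hUpat' i i
    rw [h] at this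
    simp at this
  have hone : ∀ t ∈ I, (∀ j, t (a j) = a j) → t = 1 := by
    intro t ht h
    apply hext t ht 1 I.one_mem
    intro i
    simp [h i]
  have hclass : ∀ t ∈ I, t = 1 ∨ (∃ i, t = T i) ∨ t = τ ∨ ∃ i, t = U i := by
    intro t ht
    rcases patterns (fun j => decide (t (a j) = a j)) with h | ⟨i, h⟩ | h | ⟨i, h⟩
    · left
      apply hone t ht
      intro j; simpa using h j
    · right; left
      refine ⟨i, hext t ht _ (hTI i) fun j => ?_⟩
      rw [hTpat]
      have := h j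
      simpa using this
    · right; right; left
      refine hext t ht _ hτI fun j => ?_
      rw [hτ]
      have := h j
      simpa using this
    · right; right; right
      refine ⟨i, hext t ht _ (hUI i) fun j => ?_⟩
      rw [hUpat']
      exact decide_eq_decide.mp (h j)
  have hTprod : ∀ i, ∃ j k, T i = U j * U k := by
    intro i
    obtain ⟨j, k, hjk⟩ := fin3_prod i
    refine ⟨j, k, hext _ (hTI i) _ (I.mul_mem (hUI j) (hUI k)) fun l => ?_⟩
    rw [hTpat, hprodpat _ (hUI j) _ (hUI k), hUpat', hUpat']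
    exact hjk l
  have hUcl : ∀ i, U i ∈ Subgroup.closure (Set.range U) := fun i => Subgroup.subset_closure ⟨i, rfl⟩
  have hτprod : τ = U 0 * U 1 * U 2 := by
    apply hext _ hτI _ (I.mul_mem (I.mul_mem (hUI 0) (hUI 1)) (hUI 2))
    intro j
    rw [hprodpat _ (I.mul_mem (hUI 0) (hUI 1)) _ (hUI 2), hprodpat _ (hUI 0) _ (hUI 1), hτ,
      hUpat', hUpat', hUpat']
    revert j
    decide
  refine ⟨⟨⟨habel⟩⟩, ⟨a 0, a 1, a 2, ?_⟩, ?_, U, hUinj, fun i => ⟨hUI i, hU1 i, hUbr i⟩, ?_, ?_, ?_⟩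
  · rw [← hgen]
    congr 1
    ext x
    simp only [Set.mem_insert_iff, Set.mem_singleton_iff, Set.mem_range, Fin.exists_fin_succ,
      Fin.exists_fin_zero]
    constructor
    · rintro (rfl | rfl | rfl) <;> simp
    · intro h
      simpa [eq_comm] using h
  · rintro ⟨x, y, hxy⟩
    have hb : ∀ i, ∃ b, b ∈ Subgroup.zpowers (a i) ∧ orderOf b = p := by
      intro i
      have hai : a i ≠ 1 := by
        intro h
        apply hane i
        rw [h]; simp
      obtain ⟨n, hn⟩ := IsPGroup.iff_card.mp (hP.to_subgroup (Subgroup.zpowers (a i)))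
      have hn0 : n ≠ 0 := by
        rintro rfl
        rw [pow_zero, Nat.card_zpowers, orderOf_eq_one_iff] at hn
        exact hai hn
      have hdvd : p ∣ Nat.card ↥(Subgroup.zpowers (a i)) := by
        rw [hn]; exact dvd_pow_self p hn0
      obtain ⟨b, hb⟩ := exists_prime_orderOf_dvd_card' p hdvd
      refine ⟨b, b.2, ?_⟩
      rw [← hb]; exact Subgroup.orderOf_coe b
    choose b hbz hbo using hb
    let _ : CommGroup P := { ‹Group P› with mul_comm := habel }
    apply not_two_gen (P := P) p hp hp2 b hbo U ?_ ?_ x y hxy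
    · intro i j hij
      obtain ⟨m, hm⟩ := hbz i
      simp only at hm
      rw [← hm]
      have := (hUpat' j i).mpr hij
      calc U j (a i ^ m) = (U j (a i)) ^ m := map_zpow (U j) _ _
        _ = a i ^ m := by rw [this]
    · intro i
      obtain ⟨m, hm⟩ := hbz i
      simp only at hm
      rw [← hm]
      have : U i (a i) = (a i)⁻¹ := by
        refine (hsgn _ (hUI i) i).resolve_left ?_
        rw [hUpat']; simp
      calc U i (a i ^ m) = (U i (a i)) ^ m := map_zpow (U i) _ _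
        _ = (a i ^ m)⁻¹ := by rw [this, inv_zpow]
  · intro t ht ht1 htb
    rcases hclass t ht with rfl | ⟨i, rfl⟩ | rfl | ⟨i, rfl⟩
    · exact absurd rfl ht1
    · exact absurd ⟨a i, ha i⟩ htb
    · exfalso
      apply htb
      refine ⟨1, fun x => ⟨fun h => ?_, fun h => ?_⟩⟩
      · rw [hτfix x h]; exact Subgroup.one_mem _
      · rw [Subgroup.zpowers_one_eq_bot, Subgroup.mem_bot] at h
        rw [h, map_one]
    · exact ⟨i, rfl⟩
  · intro t ht
    rcases hclass t ht with rfl | ⟨i, rfl⟩ | rfl | ⟨i, rfl⟩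
    · exact Subgroup.one_mem _
    · obtain ⟨j, k, hjk⟩ := hTprod i
      rw [hjk]; exact Subgroup.mul_mem _ (hUcl j) (hUcl k)
    · rw [hτprod]
      exact Subgroup.mul_mem _ (Subgroup.mul_mem _ (hUcl 0) (hUcl 1)) (hUcl 2)
    · exact hUcl i
  · intro t ht
    by_cases ht1 : t = 1
    · exact ⟨0, 0, by rw [ht1, hsq _ (hUI 0)]⟩
    · obtain ⟨i, rfl⟩ := hTsurj t ht ht1
      exact hTprod i

/-- Let p be an odd prime, P a finite p-group and I an elementary abelian subgroup of order 8 of Aut(P). Call T ∈ I, T ≠ 1, broad when its fixed-point subgroup C_P(T) is not cyclic. Suppose I has a proper subgroup I₀ containing no broad element such that the product of any two broad elements lies in I₀. Then P is abelian of rank exactly 3 (generated by three elements but not by two), there are exactly three broad elements and they generate I, and I₀ is exactly the set of products of two broad elements. -/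
theorem result
    {P : Type*} [Group P] [Finite P] (p : ℕ) (hp : p.Prime) (hp2 : p ≠ 2) (hP : IsPGroup p P)
    (I : Subgroup (MulAut P)) (hI : Cfsg.IsElementaryAbelian 2 I) (hI8 : Nat.card ↥I = 8)
    (I₀ : Subgroup (MulAut P)) (hI₀ : I₀ < I)
    (hdisj : ∀ T ∈ I₀, T ≠ 1 → ∃ g : P, ∀ x : P, (T x = x ↔ x ∈ Subgroup.zpowers g))
    (hprod : ∀ T ∈ I, ∀ T' ∈ I, T ≠ 1 → T' ≠ 1 → (¬ ∃ g : P, ∀ x : P, (T x = x ↔ x ∈ Subgroup.zpowers g)) →
      (¬ ∃ g : P, ∀ x : P, (T' x = x ↔ x ∈ Subgroup.zpowers g)) → T * T' ∈ I₀) :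
    IsMulCommutative P ∧ (∃ a b c : P, Subgroup.closure {a, b, c} = ⊤) ∧ (¬ ∃ a b : P, Subgroup.closure {a, b} = ⊤) ∧
      Nat.card {T : MulAut P // T ∈ I ∧ T ≠ 1 ∧ ¬ ∃ g : P, ∀ x : P, (T x = x ↔ x ∈ Subgroup.zpowers g)} = 3 ∧
      Subgroup.closure {T : MulAut P | T ∈ I ∧ T ≠ 1 ∧ ¬ ∃ g : P, ∀ x : P, (T x = x ↔ x ∈ Subgroup.zpowers g)} = I ∧
      (I₀ : Set (MulAut P)) = {S : MulAut P | ∃ T T' : MulAut P, T ∈ I ∧ T' ∈ I ∧ T ≠ 1 ∧ T' ≠ 1 ∧
        (¬ ∃ g : P, ∀ x : P, (T x = x ↔ x ∈ Subgroup.zpowers g)) ∧ (¬ ∃ g : P, ∀ x : P, (T' x = x ↔ x ∈ Subgroup.zpowers g)) ∧ S = T * T'} := by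
  classical
  have hfinA : Finite (MulAut P) :=
    Finite.of_injective (fun g : MulAut P => (g : P → P)) DFunLike.coe_injective
  have hsq : ∀ x ∈ I, x * x = 1 := by
    intro x hx; have := hI.2 x hx; rwa [pow_two] at this
  -- choose the element to avoid
  obtain ⟨b, hbI, hb0, hbb⟩ : ∃ b ∈ I, b ∉ I₀ ∧ ∀ T ∈ I, T ≠ 1 → Br T → T * b ∈ I₀ := by
    by_cases h : ∃ b ∈ I, b ≠ 1 ∧ Br b
    · obtain ⟨b, hbI, hb1, hbr⟩ := h
      refine ⟨b, hbI, fun h0 => hbr (hdisj b h0 hb1), fun T hT hT1 hTb => ?_⟩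
      exact hprod T hT b hbI hT1 hb1 hTb hbr
    · obtain ⟨b, hbI, hb0⟩ := Set.exists_of_ssubset hI₀
      refine ⟨b, hbI, hb0, fun T hT hT1 hTb => absurd ⟨T, hT, hT1, hTb⟩ h⟩
  obtain ⟨I₁, h01, h1I, hb1, hcos, hcard⟩ := exists_hyper I I₀ hI hI₀.le hbI hb0
  have hI₁4 : Nat.card ↥I₁ = 4 := by omega
  have h1 : ∀ T ∈ I₁, T ≠ 1 → ∃ g : P, ∀ x : P, (T x = x ↔ x ∈ Subgroup.zpowers g) := by
    intro T hT hT1
    by_contra hbr
    have h2 := hbb T (h1I hT) hT1 hbr
    apply hb1
    have h3 := I₁.mul_mem (I₁.inv_mem hT) (h01 h2)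
    simpa using h3
  obtain ⟨hab, hg3, hg2, U, hUinj, hU, hUall, hUcl, hI₁U⟩ :=
    core p hp hp2 hP I hI hI8 I₁ h1I hI₁4 h1
  have hset : {T : MulAut P | T ∈ I ∧ T ≠ 1 ∧ ¬ ∃ g : P, ∀ x : P, (T x = x ↔ x ∈ Subgroup.zpowers g)} =
      Set.range U := by
    ext T
    constructor
    · rintro ⟨hT, hT1, hTb⟩
      obtain ⟨i, rfl⟩ := hUall T hT hT1 hTb
      exact ⟨i, rfl⟩
    · rintro ⟨i, rfl⟩
      exact ⟨(hU i).1, (hU i).2.1, (hU i).2.2⟩
  refine ⟨hab, hg3, hg2, ?_, ?_, ?_⟩
  · change Nat.card ↥{T : MulAut P | T ∈ I ∧ T ≠ 1 ∧ ¬ ∃ g : P, ∀ x : P, (T x = x ↔ x ∈ Subgroup.zpowers g)} = 3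
    rw [hset, Nat.card_range_of_injective hUinj]
    simp
  · rw [hset]
    apply le_antisymm _ hUcl
    rw [Subgroup.closure_le]
    rintro _ ⟨i, rfl⟩
    exact (hU i).1
  · apply Set.Subset.antisymm
    · intro S hS
      obtain ⟨i, j, rfl⟩ := hI₁U S (h01 hS)
      exact ⟨U i, U j, (hU i).1, (hU j).1, (hU i).2.1, (hU j).2.1, (hU i).2.2, (hU j).2.2, rfl⟩
    · rintro S ⟨T, T', hT, hT', hT1, hT'1, hTb, hTb', rfl⟩
      exact hprod T hT T' hT' hT1 hT'1 hTb hTb'

end Cfsg.Agent.S4412
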