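import Mathlib
import Cfsg.Prelude.Def_Transfer
import Cfsg.Agent.LargeExtra.Pres
import Cfsg.Agent.H587.ExtraTwoCount
import Cfsg.Statements.S4413
set_option linter.all false

-- part: H587/MinusThirtyTwo
section
/-!
# The outer automorphism group of the extraspecial group of order 32 of minus type

`M` : the group generated by four pairwise anticommuting involutions `q 0, …, q 3` and a central involution;
`q 4 = q 0 q 1 q 2 q 3` is a fifth one. The automorphism group permutes the five pairs `{q i, z q i}` as the
symmetric group of degree five, with kernel the inner automorphism group.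
-/

set_option autoImplicit false

namespace Cfsg.Agent.H587.MinusThirtyTwo

open Cfsg.Agent.LargeExtra.Model Cfsg.Agent.LargeExtra.Pres
open Cfsg.Agent.Transfer.ExtraspecialTwo Cfsg.Agent.H587.ExtraTwoCount

/-- Pairwise anticommuting involutions. -/
def BM (i : ℕ) : ℕ := 2 ^ i - 1

/-- Plus type: two commuting hyperbolic pairs. -/
def BP (i : ℕ) : ℕ := if i = 1 then 1 else if i = 3 then 4 else 0

/-- The extraspecial group of order 32 and minus type. -/
abbrev M : Type := XG BM 4

theorem triM : Tri BM 4 := by decide +kernel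
theorem nonM : Nondeg BM 4 := by decide +kernel
theorem nonP : Nondeg BP 4 := by decide +kernel

theorem centralM : CentralTwo M := centralTwo nonM
theorem centralP : CentralTwo (XG BP 4) := centralTwo nonP

/-- Five pairwise anticommuting involutions. -/
def x (i : Fin 5) : M := if h : i.1 < 4 then ⟨⟨2 ^ i.1, Nat.pow_lt_pow_right (by norm_num) h⟩, false⟩
  else ⟨⟨15, by norm_num⟩, false⟩

theorem x_sq : ∀ i, x i * x i = 1 := by decide +kernel
theorem x_anti : ∀ i j, i ≠ j → x i * x j = zz * (x j * x i) := by decide +kernel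
theorem x_ne_one : ∀ i, x i ≠ 1 := by decide +kernel
theorem x_ne_zz : ∀ i, x i ≠ zz := by decide +kernel

/-- The index of the pair containing an involution. -/
def letter (g : M) : Fin 5 :=
  if g.v.1 = 1 then 0 else if g.v.1 = 2 then 1 else if g.v.1 = 4 then 2 else if g.v.1 = 8 then 3 else 4

theorem letter_x : ∀ i, letter (x i) = i := by decide +kernel
theorem letter_zx : ∀ i, letter (zz * x i) = i := by decide +kernel

theorem eq_x : ∀ g : M, g * g = 1 → g ≠ 1 → g ≠ zz → g = x (letter g) ∨ g = zz * x (letter g) := by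
  decide +kernel

theorem aut_x (α : MulAut M) (i : Fin 5) :
    α (x i) = x (letter (α (x i))) ∨ α (x i) = zz * x (letter (α (x i))) := by
  apply eq_x
  · rw [← map_mul, x_sq, map_one]
  · intro h
    exact x_ne_one i ((map_eq_one_iff α α.injective).mp h)
  · intro h
    rw [← aut_zz nonM α] at h
    exact x_ne_zz i (α.injective h)

theorem letter_comp (α β : MulAut M) (i : Fin 5) :
    letter ((α * β) (x i)) = letter (α (x (letter (β (x i))))) := by
  show letter (α (β (x i))) = _
  rcases aut_x β i with h | h
  · conv_lhs => rw [h]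
  · conv_lhs => rw [h]
    rw [map_mul, aut_zz nonM]
    rcases aut_x α (letter (β (x i))) with h1 | h1
    · conv_lhs => rw [h1]
      rw [letter_zx]
    · conv_lhs => rw [h1]
      rw [← mul_assoc, zz_mul_zz, one_mul, letter_x]

/-- The action on the five pairs. -/
@[reducible] def act : MulAction (MulAut M) (Fin 5) where
  smul α i := letter (α (x i))
  one_smul i := letter_x i
  mul_smul α β i := letter_comp α β i

/-- The homomorphism to the symmetric group. -/
noncomputable def Phi : MulAut M →* Equiv.Perm (Fin 5) :=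
  @MulAction.toPermHom (MulAut M) (Fin 5) _ act

theorem Phi_apply (α : MulAut M) (i : Fin 5) : Phi α i = letter (α (x i)) := rfl

/-- The images of the generators for a permutation. -/
def imgs (σ : Equiv.Perm (Fin 5)) (i : ℕ) : M := if h : i < 5 then x (σ ⟨i, h⟩) else 1

theorem good (σ : Equiv.Perm (Fin 5)) : Good BM 4 (imgs σ) := by
  constructor
  · intro i hi
    have hb : (BM i).testBit i = false := by
      revert hi; revert i; decide +kernel
    rw [hb, imgs, dif_pos (by omega), x_sq]
    rfl
  · intro i hi j hj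
    have hb : (BM i).testBit j = true := by
      revert hj; revert j; revert hi; revert i; decide +kernel
    rw [hb, imgs, imgs, dif_pos (by omega), dif_pos (by omega)]
    exact x_anti _ _ (fun h => by
      have := σ.injective h
      simp only [Fin.mk.injEq] at this
      omega)

theorem Phi_surjective : Function.Surjective Phi := by
  intro σ
  refine ⟨autOf triM nonM (imgs σ) (good σ), ?_⟩
  have h4 : ∀ i : Fin 5, i.1 < 4 → Phi (autOf triM nonM (imgs σ) (good σ)) i = σ i := by
    intro i hi
    rw [Phi_apply]
    have h1 : x i = q BM 4 ⟨i.1, hi⟩ := by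
      unfold x q; rw [dif_pos hi]
    rw [h1, autOf_q, imgs, dif_pos i.2, letter_x]
  ext i
  by_cases hi : i.1 < 4
  · rw [h4 i hi]
  · -- the last one by injectivity
    have hi4 : i = 4 := by
      apply Fin.ext
      have := i.2
      show i.1 = 4
      omega
    obtain ⟨j, hj⟩ := (Phi (autOf triM nonM (imgs σ) (good σ))).surjective (σ i)
    by_cases hj4 : j.1 < 4
    · rw [h4 j hj4] at hj
      have := σ.injective hj
      rw [this, hi4] at hj4
      exact absurd hj4 (by decide)
    · have hj5 : j = i := by
        apply Fin.ext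
        have := i.2
        have := j.2
        omega
      rw [hj5] at hj
      rw [hj]

/-- Every choice of signs is realised by a conjugation. -/
theorem exists_conj : ∀ a b c d : Bool, ∃ g : M,
    g * x 0 * g⁻¹ = zp zz a * x 0 ∧ g * x 1 * g⁻¹ = zp zz b * x 1 ∧
      g * x 2 * g⁻¹ = zp zz c * x 2 ∧ g * x 3 * g⁻¹ = zp zz d * x 3 := by
  decide +kernel

theorem ker_Phi : Phi.ker = (MulAut.conj : M →* MulAut M).range := by
  ext α
  rw [MonoidHom.mem_ker, MonoidHom.mem_range]
  constructor
  · intro h
    have hl : ∀ i, letter (α (x i)) = i := fun i => by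
      rw [← Phi_apply, h]; rfl
    have h1 : ∀ i, ∃ b : Bool, α (x i) = zp zz b * x i := by
      intro i
      rcases aut_x α i with h2 | h2
      · refine ⟨false, ?_⟩
        rw [hl] at h2
        rw [h2]; simp [zp]
      · refine ⟨true, ?_⟩
        rw [hl] at h2
        rw [h2]; simp [zp]
    choose s hs using h1
    obtain ⟨g, h0, h1, h2, h3⟩ := exists_conj (s 0) (s 1) (s 2) (s 3)
    refine ⟨g, ?_⟩
    apply aut_ext nonM
    intro i
    have hqi : ∀ j : Fin 4, q BM 4 j = x ⟨j.1, by omega⟩ := by
      intro j
      unfold x q; rw [dif_pos (show j.1 < 4 from j.2)]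
    rw [MulAut.conj_apply, hqi, hs]
    fin_cases i
    · exact h0
    · exact h1
    · exact h2
    · exact h3
  · rintro ⟨g, rfl⟩
    ext i
    rw [Phi_apply, MulAut.conj_apply]
    have : letter (g * x i * g⁻¹) = i := by
      rcases comm_or g (x i) with h | h
      · rw [h, mul_assoc, mul_inv_cancel, mul_one, letter_x]
      · rw [h, mul_assoc, mul_assoc, mul_inv_cancel, mul_one, letter_zx]
    rw [this]
    rfl

/-- `12` solutions of `x ^ 2 = 1`. -/
theorem card_M : Nat.card M = 32 := by rw [card_XG]; rfl
theorem card_P : Nat.card (XG BP 4) = 32 := by rw [card_XG]; rfl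

/-- The elementary abelian subgroup of order 8 of the plus group. -/
theorem exists_eight : ∃ A : Subgroup (XG BP 4), Cfsg.IsElementaryAbelian 2 A ∧ Nat.card A = 8 := by
  let S : Finset (XG BP 4) := Finset.univ.filter (fun g => g.v.1 &&& 10 = 0)
  have h1 : (1 : XG BP 4) ∈ S := by decide +kernel
  have hm : ∀ a b : XG BP 4, a ∈ S → b ∈ S → a * b ∈ S := by decide +kernel
  have hi : ∀ a : XG BP 4, a ∈ S → a⁻¹ ∈ S := by decide +kernel
  have hc : S.card = 8 := by decide +kernel
  have hcomm : ∀ a b : XG BP 4, a ∈ S → b ∈ S → a * b = b * a := by decide +kernel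
  have hsq : ∀ a : XG BP 4, a ∈ S → a * a = 1 := by decide +kernel
  refine ⟨⟨⟨⟨(S : Set (XG BP 4)), ?_⟩, ?_⟩, ?_⟩, ⟨⟨⟨?_⟩⟩, ?_⟩, ?_⟩
  · intro a b ha hb
    exact hm a b ha hb
  · exact h1
  · intro a ha
    exact hi a ha
  · rintro ⟨a, ha⟩ ⟨b, hb⟩
    exact Subtype.ext (hcomm a b ha hb)
  · intro a ha
    rw [sq]; exact hsq a ha
  · show Nat.card (S : Set (XG BP 4)) = 8
    rw [Nat.card_coe_set_eq, Set.ncard_coe_finset, hc]

theorem numSq_M : numSq M = 12 := by
  unfold numSq
  rw [Nat.card_eq_fintype_card, Fintype.card_subtype]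
  decide +kernel

theorem numSq_P : numSq (XG BP 4) = 20 := by
  unfold numSq
  rw [Nat.card_eq_fintype_card, Fintype.card_subtype]
  decide +kernel

/-- `P` is isomorphic to `M`. -/
theorem exists_iso {P : Type*} [Group P] [Finite P]
    (hex : Cfsg.IsExtraspecial 2 P) (h32 : Nat.card P = 32)
    (hminus : ∀ A : Subgroup P, Cfsg.IsElementaryAbelian 2 A → Nat.card ↥A ≤ 4) :
    Nonempty (P ≃* M) := by
  have hP := centralTwo_of_isExtraspecial hex
  rcases card_sq 2 hP (by rw [h32]; rfl) with h | ⟨-, h⟩
  · exfalso
    obtain ⟨e⟩ := iso_of_card 2 hP centralP (by rw [h32]; rfl) (by rw [card_P]; rfl)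
      (by rw [h, numSq_P]; rfl)
    obtain ⟨A, hA, hA8⟩ := exists_eight
    have h1 := hminus (A.map e.symm.toMonoidHom) ?_
    · have h2 : Nat.card (A.map e.symm.toMonoidHom) = Nat.card A :=
        (Nat.card_congr (e.symm.subgroupMap A).toEquiv).symm
      rw [h2, hA8] at h1
      omega
    · obtain ⟨hcomm, hsq⟩ := hA
      constructor
      · constructor
        constructor
        rintro ⟨_, ⟨a, ha, rfl⟩⟩ ⟨_, ⟨b, hb, rfl⟩⟩
        apply Subtype.ext
        show e.symm a * e.symm b = e.symm b * e.symm a
        have := hcomm.is_comm.comm (⟨a, ha⟩ : A) ⟨b, hb⟩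
        rw [← map_mul, ← map_mul]
        exact congrArg e.symm (congrArg Subtype.val this)
      · rintro _ ⟨a, ha, rfl⟩
        show (e.symm a) ^ 2 = 1
        rw [← map_pow, hsq a ha, map_one]
  · exact iso_of_card 2 hP centralM (by rw [h32]; rfl) (by rw [card_M]; rfl)
      (by rw [h, numSq_M]; rfl)

/-- The action of the automorphisms of a group isomorphic to `M`. -/
noncomputable def Psi {P : Type*} [Group P] (e : P ≃* M) : MulAut P →* Equiv.Perm (Fin 5) :=
  Phi.comp (MulAut.congr e).toMonoidHom

theorem Psi_surjective {P : Type*} [Group P] (e : P ≃* M) : Function.Surjective (Psi e) :=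
  Phi_surjective.comp (MulAut.congr e).surjective

theorem ker_Psi {P : Type*} [Group P] (e : P ≃* M) :
    (Psi e).ker = (MulAut.conj : P →* MulAut P).range := by
  ext α
  have h1 : α ∈ (Psi e).ker ↔ (MulAut.congr e) α ∈ (MulAut.conj : M →* MulAut M).range := by
    rw [← ker_Phi, MonoidHom.mem_ker, MonoidHom.mem_ker]
    rfl
  rw [h1]
  constructor
  · rintro ⟨g, hg⟩
    refine ⟨e.symm g, ?_⟩
    ext y
    have h2 := DFunLike.congr_fun hg (e y)
    have h3 : (MulAut.congr e α) (e y) = e (α y) := by
      show e (α (e.symm (e y))) = _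
      rw [e.symm_apply_apply]
    rw [h3, MulAut.conj_apply] at h2
    apply e.injective
    rw [← h2, MulAut.conj_apply, map_mul, map_mul, map_inv, e.apply_symm_apply]
  · rintro ⟨g, rfl⟩
    refine ⟨e g, ?_⟩
    ext y
    have h3 : (MulAut.congr e (MulAut.conj g)) y = e (g * e.symm y * g⁻¹) := rfl
    rw [h3, MulAut.conj_apply, map_mul, map_mul, map_inv, e.apply_symm_apply]

theorem card_inn {P : Type*} [Group P] [Finite P] (e : P ≃* M) :
    Nat.card (MulAut.conj : P →* MulAut P).range = 16 := by
  have h1 : Nat.card P = 32 := by rw [Nat.card_congr e.toEquiv, card_M]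
  have h2 : Nat.card (Subgroup.center P) = 2 := by
    rw [Nat.card_congr (Subgroup.centerCongr e).toEquiv]
    exact card_center nonM
  have h3 : (MulAut.conj : P →* MulAut P).ker = Subgroup.center P := by
    ext g
    rw [MonoidHom.mem_ker, Subgroup.mem_center_iff]
    constructor
    · intro h y
      have h5 := DFunLike.congr_fun h y
      rw [MulAut.conj_apply, MulAut.one_apply] at h5
      rw [mul_inv_eq_iff_eq_mul] at h5
      exact h5.symm
    · intro h
      ext y
      rw [MulAut.conj_apply, MulAut.one_apply, ← h y, mul_assoc, mul_inv_cancel, mul_one]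
  have h4 := Subgroup.index_ker (MulAut.conj : P →* MulAut P)
  have h5 := (MulAut.conj : P →* MulAut P).ker.card_mul_index
  rw [h4, h3, h2, h1] at h5
  omega

theorem main {P : Type*} [Group P] [Finite P] (e : P ≃* M)
    [(MulAut.conj : P →* MulAut P).range.Normal] :
    Nat.card ↥(MulAut.conj : P →* MulAut P).range = 16 ∧ Nat.card (MulAut P) = 1920 ∧
      Nonempty ((MulAut P ⧸ (MulAut.conj : P →* MulAut P).range) ≃* Equiv.Perm (Fin 5)) := by
  have h1 := card_inn e
  have e1 : (MulAut P ⧸ (MulAut.conj : P →* MulAut P).range) ≃* Equiv.Perm (Fin 5) :=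
    (QuotientGroup.quotientMulEquivOfEq (ker_Psi e).symm).trans
      (QuotientGroup.quotientKerEquivOfSurjective (Psi e) (Psi_surjective e))
  refine ⟨h1, ?_, ⟨e1⟩⟩
  have h2 := (MulAut.conj : P →* MulAut P).range.card_mul_index
  rw [h1, Subgroup.index, Nat.card_congr e1.toEquiv, Nat.card_perm, Nat.card_fin] at h2
  rw [← h2]
  rfl

end Cfsg.Agent.H587.MinusThirtyTwo
end

-- part: S4413
section
set_option autoImplicit false
open Cfsg

namespace Cfsg.Agent.S4413

/-- Let P be an extraspecial 2-group of order 32 with no elementary abelian subgroup of order 8 (the central product of a dihedral and a quaternion group of order 8). Then the inner automorphism group of P has order 16 and the outer automorphism group Aut(P)/Inn(P) is isomorphic to the symmetric group of degree 5; in particular Aut(P) has order 1920. -/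
theorem result {P : Type*} [Group P] [Finite P]
    (hex : Cfsg.IsExtraspecial 2 P) (h32 : Nat.card P = 32)
    (hminus : ∀ A : Subgroup P, Cfsg.IsElementaryAbelian 2 A → Nat.card ↥A ≤ 4)
    [(MulAut.conj : P →* MulAut P).range.Normal] :
    Nat.card ↥(MulAut.conj : P →* MulAut P).range = 16 ∧ Nat.card (MulAut P) = 1920 ∧
      Nonempty ((MulAut P ⧸ (MulAut.conj : P →* MulAut P).range) ≃* Equiv.Perm (Fin 5)) := by
  obtain ⟨e⟩ := Cfsg.Agent.H587.MinusThirtyTwo.exists_iso hex h32 hminus
  exact Cfsg.Agent.H587.MinusThirtyTwo.main e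

end Cfsg.Agent.S4413
end
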