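import Mathlib
import Cfsg.Agent.OddOrderLocal.Thm34
import Cfsg.Agent.H587.OrbitWeights
import Cfsg.Statements.S4414
set_option linter.all false

-- part: H587/OrbitBC
section
/-!
# Fixed points under base change
-/

set_option autoImplicit false

namespace Cfsg.Agent.H587.OrbitBC

open Module TensorProduct Cfsg.Agent.OddOrderLocal.Thm34 Cfsg.Agent.H587.OrbitWeights
open Cfsg.Agent.OddOrderLocal.Thm34Weights
open scoped commutatorElement

attribute [local instance] wtAction

variable {F : Type*} [Field F] {F' : Type*} [Field F'] [Algebra F F'] {G : Type*} [Group G]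
    {V : Type*} [AddCommGroup V] [Module F V]

theorem fix_bc_le (ρ : Representation F G V) (T : Subgroup G) :
    fix (bc F' ρ) T ≤ Submodule.span F' ((fun v : V => (1 : F') ⊗ₜ[F] v) '' (fix ρ T : Set V)) := by
  intro w hw
  let b := Module.Free.chooseBasis F F'
  obtain ⟨c, rfl⟩ := TensorProduct.eq_repr_basis_left b w
  have hc : ∀ i, c i ∈ fix ρ T := by
    intro i t ht
    have h1 := hw t ht
    have h2 : bc F' ρ t (c.sum fun i n => b i ⊗ₜ[F] n) =
        (c.mapRange (ρ t) (map_zero _)).sum fun i n => b i ⊗ₜ[F] n := by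
      rw [Finsupp.sum_mapRange_index (by intro i; rw [TensorProduct.tmul_zero]), map_finsuppSum]
      rfl
    rw [h2, ← sub_eq_zero, ← Finsupp.sum_sub_index (by intro i a b; rw [TensorProduct.tmul_sub])] at h1
    have h3 := TensorProduct.sum_tmul_basis_left_eq_zero b _ h1
    have h4 := DFunLike.congr_fun h3 i
    rw [Finsupp.sub_apply, Finsupp.mapRange_apply, Finsupp.zero_apply, sub_eq_zero] at h4
    exact h4
  unfold Finsupp.sum
  apply Submodule.sum_mem
  intro i _
  have h5 : b i ⊗ₜ[F] c i = b i • ((1 : F') ⊗ₜ[F] c i) := by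
    rw [TensorProduct.smul_tmul', smul_eq_mul, mul_one]
  show b i ⊗ₜ[F] c i ∈ _
  rw [h5]
  apply Submodule.smul_mem
  apply Submodule.subset_span
  exact ⟨c i, hc i, rfl⟩

theorem finrank_fix_bc [FiniteDimensional F V] (ρ : Representation F G V) (T : Subgroup G) :
    finrank F' (fix (bc F' ρ) T) ≤ finrank F (fix ρ T) := by
  let b := Module.finBasis F (fix ρ T)
  have h1 : fix (bc F' ρ) T ≤ Submodule.span F' (Set.range fun i => (1 : F') ⊗ₜ[F] (b i : V)) := by
    refine (fix_bc_le ρ T).trans ?_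
    rw [Submodule.span_le]
    rintro _ ⟨v, hv, rfl⟩
    show (1 : F') ⊗ₜ[F] v ∈ _
    have h2 : v = ∑ i, (b.repr ⟨v, hv⟩ i) • (b i : V) := by
      have h3 := congrArg Subtype.val (b.sum_repr ⟨v, hv⟩)
      rw [AddSubmonoidClass.coe_finsetSum] at h3
      exact h3.symm
    rw [h2, TensorProduct.tmul_sum]
    apply Submodule.sum_mem
    intro i _
    rw [TensorProduct.tmul_smul, ← algebraMap_smul F' (b.repr ⟨v, hv⟩ i)]
    apply Submodule.smul_mem
    exact Submodule.subset_span ⟨i, rfl⟩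
  refine (Submodule.finrank_mono h1).trans ?_
  refine (finrank_range_le_card _).trans ?_
  rw [Fintype.card_fin]

/-- The main statement on fixed points. -/
theorem main [Finite G] [Finite F] [FiniteDimensional F V] [Nontrivial V] {ℓ : ℕ} [hℓ : Fact ℓ.Prime] [CharP F ℓ]
    (ρ : Representation F G V) (A : Subgroup G) [A.Normal] (hA : (Nat.card A : F) ≠ 0)
    (hcomm : ∀ a ∈ A, ∀ b ∈ A, a * b = b * a) (T : Subgroup G) (hT : IsPGroup ℓ T)
    (Q : Subgroup G) {q : ℕ} [hq : Fact q.Prime] (hqℓ : q ≠ ℓ) (hQ : Nat.card Q = q)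
    (hAQ : ⁅A, Q⁆ = A) (hfixA : fix ρ A = ⊥) :
    2 ≤ finrank F (fix ρ T) ∧
      ((∀ x ∈ Q, ∀ v ∈ fix ρ T, ρ x v ∈ fix ρ T) → q ≤ finrank F (fix ρ T)) := by
  let K := AlgebraicClosure F
  have hchar : CharP K ℓ := charP_of_injective_algebraMap (algebraMap F K).injective ℓ
  have hAK : (Nat.card A : K) ≠ 0 := by
    intro h
    apply hA
    have h1 : algebraMap F K (Nat.card A : F) = 0 := by rw [map_natCast, h]
    exact (map_eq_zero _).1 h1
  have hne : Nontrivial (K ⊗[F] V) := inferInstance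
  obtain ⟨x, hx⟩ : ∃ x : Q, orderOf x = q := exists_prime_orderOf_dvd_card' q (by rw [hQ])
  have hx' : orderOf (x : G) = q := by rw [Subgroup.orderOf_coe, hx]
  have hzx : Subgroup.zpowers (x : G) ≤ Q := by
    rw [Subgroup.zpowers_le]; exact x.2
  have hfree : ∀ y ∈ Subgroup.zpowers (x : G), y ≠ 1 → ∀ χ ∈ Om (bc K ρ) A, y • χ ≠ χ := by
    intro y hy hy1 χ hχ hyχ
    -- `Q` fixes `χ`
    have hyQ : y ∈ Q := hzx hy
    have h1 : ∀ z ∈ Q, z • χ = χ := by
      intro z hz
      have h2 : (⟨z, hz⟩ : Q) ∈ Subgroup.zpowers (⟨y, hyQ⟩ : Q) := by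
        apply mem_zpowers_of_prime_card hQ
        intro h
        exact hy1 (congrArg Subtype.val h)
      obtain ⟨n, hn⟩ := Subgroup.mem_zpowers_iff.mp h2
      have hn' : y ^ n = z := congrArg Subtype.val hn
      rw [← hn']
      have h3 : y ∈ MulAction.stabilizer G χ := hyχ
      exact (MulAction.stabilizer G χ).zpow_mem h3 n
    have hmul := wt_mul (ρ := bc K ρ) (K := A) hχ
    have hone := wt_one (ρ := bc K ρ) (K := A) hχ
    -- the kernel of `χ`
    let B : Subgroup G :=
      { carrier := {g | ∃ h : g ∈ A, χ ⟨g, h⟩ = 1}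
        one_mem' := ⟨A.one_mem, hone⟩
        mul_mem' := by
          rintro a b ⟨ha, ha'⟩ ⟨hb, hb'⟩
          refine ⟨A.mul_mem ha hb, ?_⟩
          have := hmul ⟨a, ha⟩ ⟨b, hb⟩
          rw [ha', hb', mul_one] at this
          exact this
        inv_mem' := by
          rintro a ⟨ha, ha'⟩
          refine ⟨A.inv_mem ha, ?_⟩
          have := hmul ⟨a, ha⟩ ⟨a, ha⟩⁻¹
          rw [ha', one_mul, mul_inv_cancel, hone] at this
          exact this.symm }
    have hB : A ≤ B := by
      conv_lhs => rw [← hAQ]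
      rw [Subgroup.commutator_le]
      intro a ha z hz
      have hnorm : ∀ g : G, ∀ c ∈ A, g * c * g⁻¹ ∈ A := fun g c hc =>
        (inferInstance : A.Normal).conj_mem c hc g
      have hmem : ⁅a, z⁆ ∈ A := by
        rw [commutatorElement_def, mul_assoc, mul_assoc, ← mul_assoc z]
        exact A.mul_mem ha (hnorm z _ (A.inv_mem ha))
      refine ⟨hmem, ?_⟩
      have h4 := congrFun (h1 z⁻¹ (Q.inv_mem hz)) (⟨a, ha⟩⁻¹ : A)
      rw [wt_smul_def, inv_inv] at h4
      have h5 : (⟨⁅a, z⁆, hmem⟩ : A) = ⟨a, ha⟩ * MulAut.conjNormal z (⟨a, ha⟩⁻¹ : A) := by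
        apply Subtype.ext
        rw [Subgroup.coe_mul, MulAut.conjNormal_apply, Subgroup.coe_inv]
        show ⁅a, z⁆ = a * (z * a⁻¹ * z⁻¹)
        rw [commutatorElement_def]
        simp only [mul_assoc]
      rw [h5, hmul, h4, ← hmul, mul_inv_cancel, hone]
    have h6 : ∀ a : A, χ a = 1 := by
      intro a
      obtain ⟨_, h7⟩ := hB a.2
      exact h7
    apply hχ
    rw [eq_bot_iff]
    intro w hw
    rw [mem_wt] at hw
    have hwf : w ∈ fix (bc K ρ) A := by
      intro a ha
      have := hw ⟨a, ha⟩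
      rw [h6, one_smul] at this
      exact this
    have h8 := fix_bc_le ρ A hwf
    rw [hfixA] at h8
    have h9 : ((fun v : V => (1 : K) ⊗ₜ[F] v) '' ((⊥ : Submodule F V) : Set V)) = {0} := by
      ext u
      constructor
      · rintro ⟨v, hv, rfl⟩
        have : v = 0 := hv
        rw [this]
        exact TensorProduct.tmul_zero _ _
      · intro hu
        refine ⟨0, rfl, ?_⟩
        have : u = 0 := hu
        rw [this]
        exact TensorProduct.tmul_zero _ _
    rw [h9, Submodule.span_zero_singleton] at h8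
    exact h8
  have h2 := two_le (ρ := bc K ρ) hAK hcomm T hT hqℓ (x := (x : G)) (by rw [← hx', pow_orderOf_eq_one])
    (hfree _ (Subgroup.mem_zpowers _) (by
      intro h
      rw [h, orderOf_one] at hx'
      exact hq.out.one_lt.ne hx'))
  refine ⟨h2.trans (finrank_fix_bc ρ T), ?_⟩
  intro hinv
  refine le_trans ?_ (finrank_fix_bc (F' := K) ρ T)
  apply q_le (ρ := bc K ρ) hAK hcomm T hT hqℓ hx' hfree
  intro w hw
  have h3 : fix (bc K ρ) T ≤ (fix (bc K ρ) T).comap (bc K ρ (x : G)) := by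
    refine (fix_bc_le ρ T).trans ?_
    rw [Submodule.span_le]
    rintro _ ⟨v, hv, rfl⟩
    show bc K ρ (x : G) ((1 : K) ⊗ₜ[F] v) ∈ fix (bc K ρ) T
    intro t ht
    rw [bc_tmul, bc_tmul, hinv x x.2 v hv t ht]
  exact h3 hw

end Cfsg.Agent.H587.OrbitBC
end

-- part: S4414
section
set_option autoImplicit false
open Cfsg

namespace Cfsg.Agent.S4414

/-- Let S be a finite solvable group whose order is divisible only by the primes 2, p, q (p, q distinct odd primes), with a Sylow system S₂, S_p, S_q (pairwise permutable Sylow subgroups) such that: S_p is a minimal normal subgroup of S of order p or p²; S_q has order q and [S_p, S_q] = S_p; and O₂(S) = 1. Let E be an irreducible module for S over the field with two elements on which S_p acts faithfully, and E₀ the subspace of fixed points of S₂. Then either E₀ has at least 8 elements, or E₀ has exactly 4 elements and S_q does not leave E₀ invariant. -/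
theorem result {S : Type*} [Group S] [Finite S]
    [Group.IsSolvable S] (p q : ℕ) (hp : p.Prime) (hq : q.Prime) (hp2 : p ≠ 2) (hq2 : q ≠ 2) (hpq : p ≠ q)
    (hπ : ∀ r : ℕ, r.Prime → r ∣ Nat.card S → r = 2 ∨ r = p ∨ r = q)
    (S₂ : Sylow 2 S) (Sp : Sylow p S) (Sq : Sylow q S)
    (h2q : Nat.card ↥((S₂ : Subgroup S) ⊔ (Sq : Subgroup S)) = Nat.card ↥S₂ * Nat.card ↥Sq)
    (h2p : Nat.card ↥((S₂ : Subgroup S) ⊔ (Sp : Subgroup S)) = Nat.card ↥S₂ * Nat.card ↥Sp)
    (hpq' : Nat.card ↥((Sp : Subgroup S) ⊔ (Sq : Subgroup S)) = Nat.card ↥Sp * Nat.card ↥Sq)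
    (hSpN : (Sp : Subgroup S).Normal) (hSpmin : ∀ N : Subgroup S, N.Normal → N ≤ (Sp : Subgroup S) → N = ⊥ ∨ N = (Sp : Subgroup S))
    (hSpcard : Nat.card ↥Sp = p ∨ Nat.card ↥Sp = p ^ 2)
    (hSq : Nat.card ↥Sq = q) (hcomm : ⁅(Sp : Subgroup S), (Sq : Subgroup S)⁆ = (Sp : Subgroup S))
    (hO2 : Cfsg.pCore 2 S = ⊥)
    {E : Type*} [AddCommGroup E] [Module (ZMod 2) E] [Finite E] (ρ : Representation (ZMod 2) S E) (hE : Nontrivial E)
    (hirr : ∀ N : Submodule (ZMod 2) E, (∀ s : S, ∀ m ∈ N, ρ s m ∈ N) → N = ⊥ ∨ N = ⊤)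
    (hfaith : ∀ x ∈ (Sp : Subgroup S), ρ x = 1 → x = 1) :
    8 ≤ Nat.card {v : E // ∀ s ∈ (S₂ : Subgroup S), ρ s v = v} ∨
      (Nat.card {v : E // ∀ s ∈ (S₂ : Subgroup S), ρ s v = v} = 4 ∧
        ∃ x ∈ (Sq : Subgroup S), ∃ v : E, (∀ s ∈ (S₂ : Subgroup S), ρ s v = v) ∧ ¬ ∀ s ∈ (S₂ : Subgroup S), ρ s (ρ x v) = ρ x v) := by
  have _ := hπ
  have _ := h2q
  have _ := h2p
  have _ := hpq'
  have _ := hSpmin
  have _ := hO2
  have _ := hpq
  have hpf : Fact p.Prime := ⟨hp⟩
  have hqf : Fact q.Prime := ⟨hq⟩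
  have h2f : Fact (2 : ℕ).Prime := ⟨Nat.prime_two⟩
  have hN : (Sp : Subgroup S).Normal := hSpN
  -- `Sp` is commutative
  have hcomm' : ∀ a ∈ (Sp : Subgroup S), ∀ b ∈ (Sp : Subgroup S), a * b = b * a := by
    have h1 : ∀ a b : (Sp : Subgroup S), a * b = b * a := by
      rcases hSpcard with h | h
      · have hcyc : IsCyclic (Sp : Subgroup S) := isCyclic_of_prime_card h
        let _ := hcyc.commGroup
        exact fun a b => mul_comm a b
      · exact IsPGroup.isMulCommutative_of_card_eq_prime_sq h |>.is_comm.comm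
    intro a ha b hb
    exact congrArg Subtype.val (h1 ⟨a, ha⟩ ⟨b, hb⟩)
  have hcard2 : (Nat.card (Sp : Subgroup S) : ZMod 2) ≠ 0 := by
    have h1 : ∃ n, Nat.card (Sp : Subgroup S) = p ^ n := by
      rcases hSpcard with h | h
      · exact ⟨1, by rw [pow_one]; exact h⟩
      · exact ⟨2, h⟩
    obtain ⟨n, hn⟩ := h1
    rw [hn]
    intro h0
    rw [ZMod.natCast_eq_zero_iff] at h0
    exact hp2 ((Nat.prime_dvd_prime_iff_eq Nat.prime_two hp).mp (Nat.prime_two.dvd_of_dvd_pow h0)).symm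
  -- no fixed points
  have hfix : Cfsg.Agent.H587.OrbitWeights.fix ρ (Sp : Subgroup S) = ⊥ := by
    rcases hirr (Cfsg.Agent.H587.OrbitWeights.fix ρ (Sp : Subgroup S)) (by
      intro s m hm t ht
      have h1 : s⁻¹ * t * s ∈ (Sp : Subgroup S) := by
        have := hN.conj_mem t ht s⁻¹
        rwa [inv_inv] at this
      have h2 := hm _ h1
      have h3 : ρ t (ρ s m) = ρ s (ρ (s⁻¹ * t * s) m) := by
        rw [← Module.End.mul_apply, ← Module.End.mul_apply, ← map_mul, ← map_mul]
        congr 2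
        group
      rw [h3, h2]) with h | h
    · exact h
    · exfalso
      have h1 : (Sp : Subgroup S) = ⊥ := by
        rw [Subgroup.eq_bot_iff_forall]
        intro x hx
        apply hfaith x hx
        ext v
        have hv : v ∈ Cfsg.Agent.H587.OrbitWeights.fix ρ (Sp : Subgroup S) := by rw [h]; trivial
        exact hv x hx
      have h2 : Nat.card (Sp : Subgroup S) = 1 := by rw [h1]; exact Subgroup.card_bot
      rcases hSpcard with h3 | h3
      · have h4 : Nat.card (Sp : Subgroup S) = p := h3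
        rw [h2] at h4
        exact hp.one_lt.ne h4
      · have h4 : Nat.card (Sp : Subgroup S) = p ^ 2 := h3
        rw [h2] at h4
        have := Nat.one_lt_pow (two_ne_zero) hp.one_lt
        omega
  obtain ⟨h1, h2⟩ := Cfsg.Agent.H587.OrbitBC.main (ℓ := 2) ρ (Sp : Subgroup S) hcard2 hcomm'
    (S₂ : Subgroup S) S₂.isPGroup' (Sq : Subgroup S) hq2 hSq hcomm hfix
  have hc : Nat.card {v : E // ∀ s ∈ (S₂ : Subgroup S), ρ s v = v} =
      2 ^ Module.finrank (ZMod 2) (Cfsg.Agent.H587.OrbitWeights.fix ρ (S₂ : Subgroup S)) := by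
    have h3 : Nat.card {v : E // ∀ s ∈ (S₂ : Subgroup S), ρ s v = v} =
        Nat.card (Cfsg.Agent.H587.OrbitWeights.fix ρ (S₂ : Subgroup S)) := rfl
    rw [h3]
    have := Fintype.ofFinite (Cfsg.Agent.H587.OrbitWeights.fix ρ (S₂ : Subgroup S))
    rw [Nat.card_eq_fintype_card, Module.card_eq_pow_finrank (K := ZMod 2), ZMod.card]
  rw [hc]
  by_cases h3 : 3 ≤ Module.finrank (ZMod 2) (Cfsg.Agent.H587.OrbitWeights.fix ρ (S₂ : Subgroup S))
  · left
    calc 8 = 2 ^ 3 := by norm_num
      _ ≤ _ := Nat.pow_le_pow_right (by norm_num) h3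
  · right
    have h4 : Module.finrank (ZMod 2) (Cfsg.Agent.H587.OrbitWeights.fix ρ (S₂ : Subgroup S)) = 2 := by
      omega
    refine ⟨by rw [h4]; norm_num, ?_⟩
    by_contra hcon
    have h5 := h2 (by
      intro x hx v hv
      by_contra hn
      exact hcon ⟨x, hx, v, hv, hn⟩)
    rw [h4] at h5
    have := hq.two_le
    omega

end Cfsg.Agent.S4414
end
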