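import Mathlib
import Cfsg.Prelude.Def_Transfer
import Cfsg.Agent.H587.CubicJ
import Cfsg.Agent.J2.ExtQuot
import Cfsg.Prelude.Def_Solvable
import Cfsg.Agent.Lib.HallHigman
import Cfsg.Agent.Lib.CoprimeCommutator
import Cfsg.Statements.S4415
set_option linter.all false

-- part: H587/CubicK
section
/-!
# S4415, part K: even permutations of degree three and four
-/

set_option autoImplicit false
set_option linter.unusedSectionVars false
set_option linter.unusedVariables false

namespace Cfsg.Agent.H587.Cubic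

set_option maxRecDepth 10000 in
theorem fin3 : ∀ σ : Equiv.Perm (Fin 3), Equiv.Perm.sign σ = 1 → σ ^ 3 = 1 := by decide

set_option maxRecDepth 10000 in
theorem fin4 : ∀ σ : Equiv.Perm (Fin 4), Equiv.Perm.sign σ = 1 → σ ^ 2 = 1 ∨ σ ^ 3 = 1 := by decide

set_option maxRecDepth 10000 in
theorem fin4' : ∀ σ : Equiv.Perm (Fin 4), Equiv.Perm.sign σ = 1 → σ ^ 2 = 1 → (∃ x, σ x = x) → σ = 1 := by
  decide

theorem perm3 {X : Type*} [Fintype X] [DecidableEq X] (hX : Fintype.card X = 3) (σ : Equiv.Perm X)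
    (hs : Equiv.Perm.sign σ = 1) : σ ^ 3 = 1 := by
  let e := Fintype.equivFinOfCardEq hX
  have h1 := fin3 (e.permCongrHom σ) (by
    rw [← hs]; exact Equiv.Perm.sign_permCongr e σ)
  rw [← map_pow] at h1
  exact (MulEquiv.map_eq_one_iff _).mp h1

theorem perm4 {X : Type*} [Fintype X] [DecidableEq X] (hX : Fintype.card X = 4) (σ : Equiv.Perm X)
    (hs : Equiv.Perm.sign σ = 1) : σ ^ 2 = 1 ∨ σ ^ 3 = 1 := by
  let e := Fintype.equivFinOfCardEq hX
  have h1 := fin4 (e.permCongrHom σ) (by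
    rw [← hs]; exact Equiv.Perm.sign_permCongr e σ)
  rw [← map_pow, ← map_pow] at h1
  rcases h1 with h1 | h1
  · exact Or.inl ((MulEquiv.map_eq_one_iff _).mp h1)
  · exact Or.inr ((MulEquiv.map_eq_one_iff _).mp h1)

theorem perm4' {X : Type*} [Fintype X] [DecidableEq X] (hX : Fintype.card X = 4) (σ : Equiv.Perm X)
    (hs : Equiv.Perm.sign σ = 1) (h2 : σ ^ 2 = 1) (hx : ∃ x, σ x = x) : σ = 1 := by
  let e := Fintype.equivFinOfCardEq hX
  have h1 := fin4' (e.permCongrHom σ) (by
    rw [← hs]; exact Equiv.Perm.sign_permCongr e σ) (by rw [← map_pow, h2, map_one]) (by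
      obtain ⟨x, hx⟩ := hx
      refine ⟨e x, ?_⟩
      show e (σ (e.symm (e x))) = e x
      rw [e.symm_apply_apply, hx])
  exact (MulEquiv.map_eq_one_iff _).mp h1

end Cfsg.Agent.H587.Cubic
end

-- part: H587/CubicL
section
/-!
# S4415, part L: the structure of `R`
-/

set_option autoImplicit false
set_option linter.unusedSectionVars false
set_option linter.unusedVariables false

namespace Cfsg.Agent.H587.Cubic

open Module
open scoped commutatorElement

universe u w

attribute [instance] MD.act MD.fin MD.trans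

section

variable {G : Type u} [Group G] {E : Type w} [AddCommGroup E] [Module (ZMod 3) E] [Finite E]
variable {ρ : Representation (ZMod 3) G E} {R : Subgroup G} {b : G}

/-- `R` is in the kernel of every homomorphism to an abelian group. -/
theorem CS.hom_trivial (h : CS ρ R b) {C : Type*} [CommGroup C] (φ : G →* C) : ∀ r ∈ R, φ r = 1 := by
  have h1 : R ≤ φ.ker := by
    rw [← h.comm, Subgroup.commutator_le]
    intro r _ c _
    rw [MonoidHom.mem_ker, map_commutatorElement]
    exact commutatorElement_eq_one_iff_mul_comm.mpr (mul_comm _ _)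
  intro r hr
  exact MonoidHom.mem_ker.mp (h1 hr)

variable (m : MD ρ R b)

theorem MD.s_one (x : m.X) : m.s 1 x = 1 := by
  have h1 := m.hv 1 x
  rw [rho_one, one_smul] at h1
  have h2 : (m.s 1 x - 1) • m.v x = 0 := by rw [sub_smul, ← h1, one_smul, sub_self]
  exact sub_eq_zero.mp ((smul_eq_zero.mp h2).resolve_right (m.ne x))

theorem MD.s_mul (g k : G) (x : m.X) : m.s (g * k) x = m.s g (k • x) * m.s k x := by
  have h1 := m.hv (g * k) x
  rw [rho_mul, m.hv k, map_smul, m.hv g, smul_smul, ← mul_smul] at h1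
  have h2 : (m.s k x * m.s g (k • x) - m.s (g * k) x) • m.v ((g * k) • x) = 0 := by
    rw [sub_smul, h1, sub_self]
  rw [← sub_eq_zero.mp ((smul_eq_zero.mp h2).resolve_right (m.ne _)), mul_comm]

theorem MD.s_ne (g : G) (x : m.X) : m.s g x ≠ 0 := by
  intro h0
  have h1 := m.hv g x
  rw [h0, zero_smul] at h1
  have := ρ.inv_self_apply g (m.v x)
  rw [h1, map_zero] at this
  exact m.ne x this.symm

theorem MD.s_cases (g : G) (x : m.X) : m.s g x = 1 ∨ m.s g x = -1 :=
  (zmod3_cases (m.s g x)).resolve_left (m.s_ne g x)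

theorem MD.s_sq (g : G) (x : m.X) : m.s g x * m.s g x = 1 := by
  rcases m.s_cases g x with h | h <;> rw [h] <;> decide

theorem MD.s_cj (g k : G) (x : m.X) (hk : k • x = x) : m.s (cj g k) (g • x) = m.s k x := by
  have h1 := m.s_mul (cj g k) g x
  have h2 : cj g k * g = g * k := by unfold cj; group
  rw [h2, m.s_mul, hk] at h1
  have h3 : m.s g x * m.s k x = m.s g x * m.s (cj g k) (g • x) := by rw [h1, mul_comm]
  exact (mul_left_cancel₀ (m.s_ne g x) h3).symm

theorem MD.s_comm (g k : G) (x : m.X) (hgk : g * k = k * g) (hk : ∀ y : m.X, k • y = y) :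
    m.s k (g • x) = m.s k x := by
  have h1 : cj g k = k := by unfold cj; rw [hgk, mul_inv_cancel_right]
  have h2 := m.s_cj g k x (hk x)
  rwa [h1] at h2

theorem MD.eq_of (g k : G) (h1 : ∀ x : m.X, g • x = k • x) (h2 : ∀ x : m.X, m.s g x = m.s k x) :
    g = k := by
  have h3 : g⁻¹ * k = 1 := by
    apply m.faith
    intro x
    rw [rho_mul, m.hv k, ← h1, ← h2, ← m.hv g, ρ.inv_self_apply]
  exact inv_mul_eq_one.mp h3

theorem MD.prod_R (h : CS ρ R b) [Fintype m.X] {r : G} (hr : r ∈ R) : ∏ x : m.X, m.s r x = 1 := by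
  let φ : G →* ZMod 3 :=
    { toFun := fun g => ∏ x : m.X, m.s g x
      map_one' := by
        apply Finset.prod_eq_one
        intro x _
        exact m.s_one x
      map_mul' := by
        intro g k
        simp only [m.s_mul]
        rw [Finset.prod_mul_distrib]
        congr 1
        exact Equiv.prod_comp (MulAction.toPerm k) (fun x => m.s g x) }
  have h1 := h.hom_trivial φ.toHomUnits r hr
  exact congrArg Units.val h1

theorem MD.sign_R (h : CS ρ R b) [Fintype m.X] [DecidableEq m.X] {r : G} (hr : r ∈ R) :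
    Equiv.Perm.sign (MulAction.toPermHom G m.X r) = 1 :=
  h.hom_trivial ((Equiv.Perm.sign (α := m.X)).comp (MulAction.toPermHom G m.X)) r hr

theorem MD.cube [Finite G] (h : CS ρ R b) {r : G} (hr : r ∈ R)
    (h3 : (MulAction.toPermHom G m.X r) ^ 3 = 1) : ∀ x : m.X, r • x = x := by
  have h1 : r ^ Nat.card R = 1 := by
    have := pow_card_eq_one' (x := (⟨r, hr⟩ : R))
    exact congrArg Subtype.val this
  have h2 : (MulAction.toPermHom G m.X r) ^ Nat.card R = 1 := by rw [← map_pow, h1, map_one]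
  have h4 : orderOf (MulAction.toPermHom G m.X r) = 1 := by
    apply Nat.eq_one_of_dvd_coprimes (a := 3) (b := Nat.card R)
    · rw [Nat.Prime.coprime_iff_not_dvd Nat.prime_three]; exact h.r3
    · exact orderOf_dvd_of_pow_eq_one h3
    · exact orderOf_dvd_of_pow_eq_one h2
  rw [orderOf_eq_one_iff] at h4
  intro x
  exact Equiv.congr_fun h4 x

theorem MD.card_le [Finite G] [Group.IsSolvable G] (h : CS ρ R b) : Nat.card m.X ≤ 4 :=
  perm_small b m.x₁ (b • m.x₁) (b • b • m.x₁) rfl rfl m.b3 m.b1.symm m.bx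
    (fun N hN hb => h.eq_top hN hb)

theorem MD.n12 : m.x₁ ≠ b • m.x₁ := m.b1.symm
theorem MD.n23 : b • m.x₁ ≠ b • b • m.x₁ := fun h => m.b1 (MulAction.injective b h).symm
theorem MD.n13 : m.x₁ ≠ b • b • m.x₁ := by
  intro h
  apply m.b1
  conv_lhs => rw [h]
  exact m.b3

theorem MD.three_le : 3 ≤ Nat.card m.X := by
  classical
  have := Fintype.ofFinite m.X
  rw [Nat.card_eq_fintype_card]
  have h1 : ({m.x₁, b • m.x₁, b • b • m.x₁} : Finset m.X).card = 3 := by
    rw [Finset.card_eq_three]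
    exact ⟨_, _, _, m.n12, m.n13, m.n23, rfl⟩
  rw [← h1]
  exact Finset.card_le_univ _

-- the values of `t^b`
theorem MD.u1 : m.s (cj b m.t) m.x₁ = -1 := by
  have h1 := m.s_cj b m.t (b • b • m.x₁) (m.tx _)
  rw [m.b3, m.s3] at h1
  exact h1
theorem MD.u2 : m.s (cj b m.t) (b • m.x₁) = 1 := by
  rw [m.s_cj b m.t _ (m.tx _), m.s1]
theorem MD.u3 : m.s (cj b m.t) (b • b • m.x₁) = -1 := by
  rw [m.s_cj b m.t _ (m.tx _), m.s2]

theorem MD.tt (x : m.X) : m.s (m.t * cj b m.t) x = m.s m.t x * m.s (cj b m.t) x := by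
  rw [m.s_mul, m.tx' x]

theorem MD.t1R (h : CS ρ R b) : cj b m.t ∈ R := cj_mem h.nor b m.tR

theorem MD.case3 [Finite G] (h : CS ρ R b) (hX : Nat.card m.X = 3) :
    Cfsg.IsElementaryAbelian 2 R ∧ Nat.card R = 4 := by
  classical
  have := Fintype.ofFinite m.X
  have hX' : Fintype.card m.X = 3 := by rw [← Nat.card_eq_fintype_card, hX]
  have hfix : ∀ r ∈ R, ∀ x : m.X, r • x = x := by
    intro r hr
    exact m.cube h hr (perm3 hX' _ (m.sign_R h hr))
  have hcard3 : ({m.x₁, b • m.x₁, b • b • m.x₁} : Finset m.X).card = 3 := by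
    rw [Finset.card_eq_three]
    exact ⟨_, _, _, m.n12, m.n13, m.n23, rfl⟩
  have huniv : (Finset.univ : Finset m.X) = {m.x₁, b • m.x₁, b • b • m.x₁} := by
    symm
    rw [Finset.eq_univ_iff_forall]
    intro x
    have h1 : ({m.x₁, b • m.x₁, b • b • m.x₁} : Finset m.X) = Finset.univ := by
      rw [← Finset.card_eq_iff_eq_univ, hcard3, hX']
    rw [h1]
    exact Finset.mem_univ x
  have hcov : ∀ x : m.X, x = m.x₁ ∨ x = b • m.x₁ ∨ x = b • b • m.x₁ := by
    intro x
    have : x ∈ (Finset.univ : Finset m.X) := Finset.mem_univ x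
    rw [huniv] at this
    simpa using this
  have hprod : ∀ r ∈ R, m.s r m.x₁ * (m.s r (b • m.x₁) * m.s r (b • b • m.x₁)) = 1 := by
    intro r hr
    have h1 := m.prod_R h hr
    rw [huniv, Finset.prod_insert, Finset.prod_insert, Finset.prod_singleton] at h1
    · exact h1
    · rw [Finset.mem_singleton]; exact m.n23
    · rw [Finset.mem_insert, Finset.mem_singleton]
      rintro (h2 | h2)
      · exact m.n12 h2
      · exact m.n13 h2
  have hsq : ∀ r ∈ R, r * r = 1 := by
    intro r hr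
    apply m.eq_of
    · intro x; rw [mul_smul, hfix r hr, hfix r hr, one_smul]
    · intro x; rw [m.s_mul, hfix r hr, m.s_sq, m.s_one]
  refine ⟨⟨⟨⟨?_⟩⟩, ?_⟩, ?_⟩
  · rintro ⟨x, hx⟩ ⟨y, hy⟩
    apply Subtype.ext
    show x * y = y * x
    have e := hsq _ (R.mul_mem hx hy)
    calc x * y = x * (x * y * (x * y)) * y := by rw [e, mul_one]
      _ = (x * x) * (y * x) * (y * y) := by group
      _ = y * x := by rw [hsq x hx, hsq y hy, one_mul, mul_one]
  · intro r hr; rw [pow_two]; exact hsq r hr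
  · -- the order
    let S : Finset G := {1, m.t, cj b m.t, m.t * cj b m.t}
    have hS : (R : Set G) = S := by
      ext r
      constructor
      · intro hr
        have hp := hprod r hr
        have key : ∀ g ∈ R, (m.s r m.x₁ = m.s g m.x₁ → m.s r (b • m.x₁) = m.s g (b • m.x₁) →
            m.s r (b • b • m.x₁) = m.s g (b • b • m.x₁) → r = g) := by
          intro g hg e1 e2 e3
          apply m.eq_of
          · intro x; rw [hfix r hr, hfix g hg]
          · intro x
            rcases hcov x with rfl | rfl | rfl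
            · exact e1
            · exact e2
            · exact e3
        show r ∈ S
        simp only [S, Finset.mem_insert, Finset.mem_singleton]
        rcases m.s_cases r m.x₁ with h1 | h1 <;> rcases m.s_cases r (b • m.x₁) with h2 | h2 <;>
          rw [h1, h2] at hp
        · left
          apply key 1 R.one_mem
          · rw [h1, m.s_one]
          · rw [h2, m.s_one]
          · rw [m.s_one]
            simpa using hp
        · right; left
          apply key m.t m.tR
          · rw [h1, m.s1]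
          · rw [h2, m.s2]
          · rw [m.s3]
            rcases m.s_cases r (b • b • m.x₁) with h3 | h3
            · rw [h3] at hp; exact absurd hp (by decide)
            · exact h3
        · right; right; left
          apply key _ (m.t1R h)
          · rw [h1, m.u1]
          · rw [h2, m.u2]
          · rw [m.u3]
            rcases m.s_cases r (b • b • m.x₁) with h3 | h3
            · rw [h3] at hp; exact absurd hp (by decide)
            · exact h3
        · right; right; right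
          apply key _ (R.mul_mem m.tR (m.t1R h))
          · rw [h1, m.tt, m.s1, m.u1]; decide
          · rw [h2, m.tt, m.s2, m.u2]; decide
          · rw [m.tt, m.s3, m.u3]
            rcases m.s_cases r (b • b • m.x₁) with h3 | h3
            · rw [h3]; decide
            · rw [h3] at hp; exact absurd hp (by decide)
      · intro hr
        have hr' : r ∈ S := hr
        simp only [S, Finset.mem_insert, Finset.mem_singleton] at hr'
        rcases hr' with rfl | rfl | rfl | rfl
        · exact R.one_mem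
        · exact m.tR
        · exact m.t1R h
        · exact R.mul_mem m.tR (m.t1R h)
    have hScard : S.card = 4 := by
      apply le_antisymm Finset.card_le_four
      have h1 : (S.image (fun g => (m.s g m.x₁, m.s g (b • m.x₁)))).card = 4 := by
        simp only [S, Finset.image_insert, Finset.image_singleton, m.s_one, m.s1, m.s2, m.u1, m.u2, m.tt]
        decide
      rw [← h1]
      exact Finset.card_image_le
    have h1 : Nat.card R = Nat.card (R : Set G) := rfl
    rw [h1, hS, Nat.card_coe_set_eq, Set.ncard_coe_finset, hScard]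

end

end Cfsg.Agent.H587.Cubic
end

-- part: H587/CubicM
section
/-!
# S4415, part M: the structure of `R` in degree four
-/

set_option autoImplicit false
set_option linter.unusedSectionVars false
set_option linter.unusedVariables false

namespace Cfsg.Agent.H587.Cubic

open Module
open scoped commutatorElement

universe u w

section

variable {G : Type u} [Group G] {E : Type w} [AddCommGroup E] [Module (ZMod 3) E] [Finite E]
variable {ρ : Representation (ZMod 3) G E} {R : Subgroup G} {b : G}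
variable (m : MD ρ R b)

/-- The kernel of `R` on the lines. -/
def MD.D : Subgroup G where
  carrier := {r | r ∈ R ∧ ∀ x : m.X, r • x = x}
  one_mem' := ⟨R.one_mem, fun x => one_smul _ x⟩
  mul_mem' := by
    rintro a c ⟨h1, h2⟩ ⟨h3, h4⟩
    exact ⟨R.mul_mem h1 h3, fun x => by rw [mul_smul, h4, h2]⟩
  inv_mem' := by
    rintro a ⟨h1, h2⟩
    exact ⟨R.inv_mem h1, fun x => by rw [inv_smul_eq_iff, h2]⟩

theorem MD.D_sq {r : G} (hr : r ∈ m.D) : r * r = 1 := by
  apply m.eq_of
  · intro x; rw [mul_smul, hr.2, hr.2, one_smul]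
  · intro x; rw [m.s_mul, hr.2, m.s_sq, m.s_one]

theorem MD.D_elem : Cfsg.IsElementaryAbelian 2 m.D := by
  refine ⟨⟨⟨?_⟩⟩, ?_⟩
  · rintro ⟨x, hx⟩ ⟨y, hy⟩
    apply Subtype.ext
    show x * y = y * x
    have e := m.D_sq (m.D.mul_mem hx hy)
    calc x * y = x * (x * y * (x * y)) * y := by rw [e, mul_one]
      _ = (x * x) * (y * x) * (y * y) := by group
      _ = y * x := by rw [m.D_sq hx, m.D_sq hy, one_mul, mul_one]
  · intro r hr; rw [pow_two]; exact m.D_sq hr

theorem MD.case4 [Finite G] (h : CS ρ R b) (hX : Nat.card m.X = 4) :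
    Cfsg.IsExtraspecial 2 R ∧ Nat.card R = 32 ∧
      ∃ A : Subgroup G, A ≤ R ∧ Cfsg.IsElementaryAbelian 2 A ∧ Nat.card A = 8 := by
  classical
  have := Fintype.ofFinite m.X
  have hX' : Fintype.card m.X = 4 := by rw [← Nat.card_eq_fintype_card, hX]
  have hRn := h.nor
  -- the fourth point
  have hcard3 : ({m.x₁, b • m.x₁, b • b • m.x₁} : Finset m.X).card = 3 := by
    rw [Finset.card_eq_three]
    exact ⟨_, _, _, m.n12, m.n13, m.n23, rfl⟩
  obtain ⟨x₄, hx₄⟩ : ∃ x : m.X, x ∉ ({m.x₁, b • m.x₁, b • b • m.x₁} : Finset m.X) := by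
    by_contra hcon
    push Not at hcon
    have h1 : ({m.x₁, b • m.x₁, b • b • m.x₁} : Finset m.X) = Finset.univ := by
      rw [Finset.eq_univ_iff_forall]; exact hcon
    rw [h1, Finset.card_univ, hX'] at hcard3
    omega
  have hfour : ∀ a c d f : m.X, a ≠ c → a ≠ d → a ≠ f → c ≠ d → c ≠ f → d ≠ f →
      (Finset.univ : Finset m.X) = {a, c, d, f} := by
    intro a c d f h1 h2 h3 h4 h5 h6
    symm
    rw [← Finset.card_eq_iff_eq_univ, hX']
    rw [Finset.card_insert_of_notMem, Finset.card_insert_of_notMem, Finset.card_insert_of_notMem,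
      Finset.card_singleton]
    · simpa using h6
    · simp only [Finset.mem_insert, Finset.mem_singleton, not_or]; exact ⟨h4, h5⟩
    · simp only [Finset.mem_insert, Finset.mem_singleton, not_or]; exact ⟨h1, h2, h3⟩
  have hprod4 : ∀ (F : m.X → ZMod 3) (a c d f : m.X), a ≠ c → a ≠ d → a ≠ f → c ≠ d → c ≠ f → d ≠ f →
      ∏ x : m.X, F x = F a * (F c * (F d * F f)) := by
    intro F a c d f h1 h2 h3 h4 h5 h6
    rw [hfour a c d f h1 h2 h3 h4 h5 h6, Finset.prod_insert, Finset.prod_insert, Finset.prod_insert,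
      Finset.prod_singleton]
    · simpa using h6
    · simp only [Finset.mem_insert, Finset.mem_singleton, not_or]; exact ⟨h4, h5⟩
    · simp only [Finset.mem_insert, Finset.mem_singleton, not_or]; exact ⟨h1, h2, h3⟩
  simp only [Finset.mem_insert, Finset.mem_singleton, not_or] at hx₄
  have h41 : x₄ ≠ m.x₁ := hx₄.1
  have h42 : x₄ ≠ b • m.x₁ := hx₄.2.1
  have h43 : x₄ ≠ b • b • m.x₁ := hx₄.2.2
  have hcov : ∀ x : m.X, x = m.x₁ ∨ x = b • m.x₁ ∨ x = b • b • m.x₁ ∨ x = x₄ := by
    intro x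
    have : x ∈ (Finset.univ : Finset m.X) := Finset.mem_univ x
    rw [hfour _ _ _ _ m.n12 m.n13 h41.symm m.n23 h42.symm h43.symm] at this
    simpa using this
  have hprod : ∀ r ∈ R, m.s r m.x₁ * (m.s r (b • m.x₁) * (m.s r (b • b • m.x₁) * m.s r x₄)) = 1 := by
    intro r hr
    rw [← hprod4 (m.s r) _ _ _ _ m.n12 m.n13 h41.symm m.n23 h42.symm h43.symm]
    exact m.prod_R h hr
  -- the permutations
  have hinvol : ∀ r ∈ R, (MulAction.toPermHom G m.X r) ^ 2 = 1 := by
    intro r hr
    rcases perm4 hX' _ (m.sign_R h hr) with h1 | h1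
    · exact h1
    · have h2 := m.cube h hr h1
      have h3 : MulAction.toPermHom G m.X r = 1 := Equiv.ext h2
      rw [h3, one_pow]
  have hinv : ∀ r ∈ R, ∀ x : m.X, r • r • x = x := by
    intro r hr x
    have h1 := Equiv.congr_fun (hinvol r hr) x
    exact h1
  have hfpf : ∀ r ∈ R, (∃ x : m.X, r • x = x) → ∀ x : m.X, r • x = x := by
    intro r hr hx x
    have h1 := perm4' hX' _ (m.sign_R h hr) (hinvol r hr) hx
    exact Equiv.congr_fun h1 x
  -- transitivity of `R`
  have hbx4 : b • x₄ = x₄ := m.bx x₄ h41 h42 h43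
  have htr : ∀ y : m.X, ∃ r ∈ R, r • x₄ = y := by
    intro y
    obtain ⟨g, hg⟩ := MulAction.exists_smul_eq G x₄ y
    have hg' : g ∈ R ⊔ Subgroup.zpowers b := by rw [h.gen]; trivial
    rw [Subgroup.mem_sup_of_normal_left] at hg'
    obtain ⟨r, hr, c, hc, rfl⟩ := hg'
    refine ⟨r, hr, ?_⟩
    have hc' : Subgroup.zpowers b ≤ MulAction.stabilizer G x₄ := by
      rw [Subgroup.zpowers_le]; exact hbx4
    have h1 : c • x₄ = x₄ := hc' hc
    rw [mul_smul, h1] at hg
    exact hg
  obtain ⟨r₀, hr₀, hr₀4⟩ := htr m.x₁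
  have hr₀1 : r₀ • m.x₁ = x₄ := by rw [← hr₀4]; exact hinv r₀ hr₀ x₄
  have hr₀nf : ∀ x : m.X, r₀ • x ≠ x := by
    intro x hx
    have := hfpf r₀ hr₀ ⟨x, hx⟩ m.x₁
    rw [hr₀1] at this
    exact h41 this
  have hr₀2 : r₀ • (b • m.x₁) = b • b • m.x₁ := by
    rcases hcov (r₀ • (b • m.x₁)) with h1 | h1 | h1 | h1
    · exfalso
      exact h42 (MulAction.injective r₀ (h1.trans hr₀4.symm)).symm
    · exact absurd h1 (hr₀nf _)
    · exact h1
    · exfalso
      exact m.b1 (MulAction.injective r₀ (h1.trans hr₀1.symm))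
  have hr₀3 : r₀ • (b • b • m.x₁) = b • m.x₁ := by rw [← hr₀2]; exact hinv r₀ hr₀ _
  -- signs at the fourth point
  have hs4 : m.s m.t x₄ = 1 := by
    have h1 := hprod m.t m.tR
    rw [m.s1, m.s2, m.s3] at h1
    rcases m.s_cases m.t x₄ with h2 | h2
    · exact h2
    · rw [h2] at h1; exact absurd h1 (by decide)
  have hu4 : m.s (cj b m.t) x₄ = 1 := by
    have h1 := hprod _ (m.t1R h)
    rw [m.u1, m.u2, m.u3] at h1
    rcases m.s_cases (cj b m.t) x₄ with h2 | h2
    · exact h2
    · rw [h2] at h1; exact absurd h1 (by decide)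
  -- the central involution
  obtain ⟨w, hw⟩ : ∃ w, w = cj r₀ (cj b m.t) := ⟨_, rfl⟩
  have hwR : w ∈ R := by rw [hw]; exact cj_mem hRn r₀ (m.t1R h)
  have hwx : ∀ x : m.X, w • x = x := by
    intro x
    rw [hw]
    unfold cj
    rw [mul_smul, mul_smul]
    have h1 := m.tx' (r₀⁻¹ • x)
    unfold cj at h1
    rw [h1, smul_inv_smul]
  have hw1 : m.s w m.x₁ = 1 := by
    have h1 := m.s_cj r₀ (cj b m.t) x₄ (m.tx' _)
    rw [hr₀4, ← hw, hu4] at h1
    exact h1
  have hw2 : m.s w (b • m.x₁) = -1 := by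
    have h1 := m.s_cj r₀ (cj b m.t) (b • b • m.x₁) (m.tx' _)
    rw [hr₀3, ← hw, m.u3] at h1
    exact h1
  have hw3 : m.s w (b • b • m.x₁) = 1 := by
    have h1 := m.s_cj r₀ (cj b m.t) (b • m.x₁) (m.tx' _)
    rw [hr₀2, ← hw, m.u2] at h1
    exact h1
  have hw4 : m.s w x₄ = -1 := by
    have h1 := m.s_cj r₀ (cj b m.t) m.x₁ (m.tx' _)
    rw [hr₀1, ← hw, m.u1] at h1
    exact h1
  obtain ⟨z, hz⟩ : ∃ z, z = cj b m.t * w := ⟨_, rfl⟩
  have hzR : z ∈ R := by rw [hz]; exact R.mul_mem (m.t1R h) hwR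
  have hzx : ∀ x : m.X, z • x = x := by
    intro x; rw [hz, mul_smul, hwx, m.tx']
  have hzs : ∀ x : m.X, m.s z x = -1 := by
    intro x
    rw [hz, m.s_mul, hwx]
    rcases hcov x with rfl | rfl | rfl | rfl
    · rw [m.u1, hw1]; decide
    · rw [m.u2, hw2]; decide
    · rw [m.u3, hw3]; decide
    · rw [hu4, hw4]; decide
  have hzc : ∀ g, g * z = z * g := by
    intro g
    apply m.eq_of
    · intro x; rw [mul_smul, mul_smul, hzx, hzx]
    · intro x; rw [m.s_mul, m.s_mul, hzx, hzs, hzs, mul_comm]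
  have hzD : z ∈ m.D := ⟨hzR, hzx⟩
  have hz2 : z * z = 1 := m.D_sq hzD
  have hz1 : z ≠ 1 := by
    intro h1
    have h2 := hzs x₄
    rw [h1, m.s_one] at h2
    exact absurd h2 (by decide)
  have hscal : ∀ r : G, (∀ x : m.X, r • x = x) → (∀ x : m.X, m.s r x = m.s r x₄) → r = 1 ∨ r = z := by
    intro r h1 h2
    rcases m.s_cases r x₄ with h3 | h3
    · left
      apply m.eq_of
      · intro x; rw [h1, one_smul]
      · intro x; rw [h2, h3, m.s_one]
    · right
      apply m.eq_of
      · intro x; rw [h1, hzx]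
      · intro x; rw [h2, h3, hzs]
  -- squares
  have hsq : ∀ r ∈ R, r * r = 1 ∨ r * r = z := by
    intro r hr
    by_cases hf : ∃ x : m.X, r • x = x
    · left; exact m.D_sq ⟨hr, hfpf r hr hf⟩
    have hnf : ∀ x : m.X, r • x ≠ x := fun x hx => hf ⟨x, hx⟩
    apply hscal
    · intro x; rw [mul_smul]; exact hinv r hr x
    · intro y
      rw [m.s_mul, m.s_mul]
      by_cases hy4 : y = x₄
      · rw [hy4]
      by_cases hyr : y = r • x₄
      · rw [hyr, hinv r hr, mul_comm]
      have e := hprod4 (m.s r) x₄ (r • x₄) y (r • y) (hnf x₄).symm (fun h1 => hy4 h1.symm)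
        (by
          intro h1
          apply hyr
          rw [h1]; exact (hinv r hr y).symm) (fun h1 => hyr h1.symm)
        (by
          intro h1
          exact hy4 (MulAction.injective r h1).symm) (hnf y).symm
      rw [m.prod_R h hr] at e
      rcases m.s_cases r x₄ with c1 | c1 <;> rcases m.s_cases r (r • x₄) with c2 | c2 <;>
        rcases m.s_cases r y with c3 | c3 <;> rcases m.s_cases r (r • y) with c4 | c4 <;>
        rw [c1, c2, c3, c4] at e ⊢ <;> first | decide | (exact absurd e (by decide))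
  -- the centre
  have hctr : ∀ c ∈ R, (∀ r ∈ R, r * c = c * r) → c = 1 ∨ c = z := by
    intro c hc hcc
    have h1 := m.s_comm c m.t x₄ (hcc m.t m.tR).symm m.tx
    have h2 := m.s_comm c (cj b m.t) x₄ (hcc _ (m.t1R h)).symm m.tx'
    have h3 : c • x₄ = x₄ := by
      rcases hcov (c • x₄) with h4 | h4 | h4 | h4
      · rw [h4, m.u1, hu4] at h2; exact absurd h2 (by decide)
      · rw [h4, m.s2, hs4] at h1; exact absurd h1 (by decide)
      · rw [h4, m.s3, hs4] at h1; exact absurd h1 (by decide)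
      · exact h4
    have h5 := hfpf c hc ⟨x₄, h3⟩
    apply hscal c h5
    intro x
    obtain ⟨r, hr, rfl⟩ := htr x
    exact m.s_comm r c x₄ (hcc r hr) h5
  -- the order of `D`
  let S : Finset G := {1, m.t, cj b m.t, m.t * cj b m.t, z, z * m.t, z * cj b m.t, z * (m.t * cj b m.t)}
  have htD : m.t ∈ m.D := ⟨m.tR, m.tx⟩
  have huD : cj b m.t ∈ m.D := ⟨m.t1R h, m.tx'⟩
  have hzt : ∀ g ∈ m.D, ∀ x : m.X, m.s (z * g) x = - m.s g x := by
    intro g hg x
    rw [m.s_mul, hg.2, hzs, neg_one_mul]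
  have hS : (m.D : Set G) = S := by
    ext r
    constructor
    · intro hr
      have hp := hprod r hr.1
      have key : ∀ g ∈ m.D, (m.s r m.x₁ = m.s g m.x₁ → m.s r (b • m.x₁) = m.s g (b • m.x₁) →
          m.s r (b • b • m.x₁) = m.s g (b • b • m.x₁) → r = g) := by
        intro g hg e1 e2 e3
        have hpg := hprod g hg.1
        have e4 : m.s r x₄ = m.s g x₄ := by
          rw [e1, e2, e3] at hp
          have h1 := hp.trans hpg.symm
          exact mul_left_cancel₀ (m.s_ne _ _) (mul_left_cancel₀ (m.s_ne _ _)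
            (mul_left_cancel₀ (m.s_ne _ _) h1))
        apply m.eq_of
        · intro x; rw [hr.2, hg.2]
        · intro x
          rcases hcov x with rfl | rfl | rfl | rfl
          · exact e1
          · exact e2
          · exact e3
          · exact e4
      show r ∈ S
      simp only [S, Finset.mem_insert, Finset.mem_singleton]
      rcases m.s_cases r m.x₁ with h1 | h1 <;> rcases m.s_cases r (b • m.x₁) with h2 | h2 <;>
        rcases m.s_cases r (b • b • m.x₁) with h3 | h3
      · left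
        exact key 1 m.D.one_mem (by rw [h1, m.s_one]) (by rw [h2, m.s_one]) (by rw [h3, m.s_one])
      · right; right; right; right; right; right; right
        have hm := m.D.mul_mem htD huD
        exact key _ (m.D.mul_mem hzD hm)
          (by rw [h1, hzt _ hm, m.tt, m.s1, m.u1]; decide)
          (by rw [h2, hzt _ hm, m.tt, m.s2, m.u2]; decide)
          (by rw [h3, hzt _ hm, m.tt, m.s3, m.u3]; decide)
      · right; right; right; right; right; right; left
        exact key _ (m.D.mul_mem hzD huD)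
          (by rw [h1, hzt _ huD, m.u1]; decide)
          (by rw [h2, hzt _ huD, m.u2])
          (by rw [h3, hzt _ huD, m.u3]; decide)
      · right; left
        exact key _ htD (by rw [h1, m.s1]) (by rw [h2, m.s2]) (by rw [h3, m.s3])
      · right; right; right; right; right; left
        exact key _ (m.D.mul_mem hzD htD)
          (by rw [h1, hzt _ htD, m.s1])
          (by rw [h2, hzt _ htD, m.s2]; decide)
          (by rw [h3, hzt _ htD, m.s3]; decide)
      · right; right; left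
        exact key _ huD (by rw [h1, m.u1]) (by rw [h2, m.u2]) (by rw [h3, m.u3])
      · right; right; right; left
        exact key _ (m.D.mul_mem htD huD)
          (by rw [h1, m.tt, m.s1, m.u1]; decide)
          (by rw [h2, m.tt, m.s2, m.u2]; decide)
          (by rw [h3, m.tt, m.s3, m.u3]; decide)
      · right; right; right; right; left
        exact key _ hzD (by rw [h1, hzs]) (by rw [h2, hzs]) (by rw [h3, hzs])
    · intro hr
      have hr' : r ∈ S := hr
      simp only [S, Finset.mem_insert, Finset.mem_singleton] at hr'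
      have hm := m.D.mul_mem htD huD
      rcases hr' with rfl | rfl | rfl | rfl | rfl | rfl | rfl | rfl
      · exact m.D.one_mem
      · exact htD
      · exact huD
      · exact hm
      · exact hzD
      · exact m.D.mul_mem hzD htD
      · exact m.D.mul_mem hzD huD
      · exact m.D.mul_mem hzD hm
  have hScard : S.card = 8 := by
    apply le_antisymm
    · refine (Finset.card_insert_le _ _).trans ?_
      refine Nat.succ_le_succ ((Finset.card_insert_le _ _).trans ?_)
      refine Nat.succ_le_succ ((Finset.card_insert_le _ _).trans ?_)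
      refine Nat.succ_le_succ ((Finset.card_insert_le _ _).trans ?_)
      exact Nat.succ_le_succ Finset.card_le_four
    · have hm := m.D.mul_mem htD huD
      have h1 : (S.image (fun g => (m.s g m.x₁, m.s g (b • m.x₁), m.s g (b • b • m.x₁)))).card = 8 := by
        simp only [S, Finset.image_insert, Finset.image_singleton, hzt _ htD, hzt _ huD, hzt _ hm,
          m.s_one, m.s1, m.s2, m.s3, m.u1, m.u2, m.u3, m.tt, hzs]
        decide
      rw [← h1]
      exact Finset.card_image_le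
  have hDcard : Nat.card m.D = 8 := by
    have h1 : Nat.card m.D = Nat.card (m.D : Set G) := rfl
    rw [h1, hS, Nat.card_coe_set_eq, Set.ncard_coe_finset, hScard]
  -- the order of `R`
  have hRcard : Nat.card R = 32 := by
    have h1 := MulAction.index_stabilizer R x₄
    have h2 : MulAction.orbit R x₄ = Set.univ := by
      rw [Set.eq_univ_iff_forall]
      intro y
      obtain ⟨r, hr, hry⟩ := htr y
      exact ⟨⟨r, hr⟩, hry⟩
    rw [h2, Set.ncard_univ, hX] at h1
    have h3 := Subgroup.card_mul_index (MulAction.stabilizer R x₄)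
    have h4 : Nat.card (MulAction.stabilizer R x₄) = 8 := by
      rw [← hDcard]
      apply Nat.card_congr
      exact
        { toFun := fun r => ⟨r.1.1, r.1.2, hfpf _ r.1.2 ⟨x₄, r.2⟩⟩
          invFun := fun r => ⟨⟨r.1, r.2.1⟩, r.2.2 x₄⟩
          left_inv := fun r => rfl
          right_inv := fun r => rfl }
    rw [h1, h4] at h3
    omega
  refine ⟨?_, hRcard, m.D, fun r hr => hr.1, m.D_elem, hDcard⟩
  -- extraspecial
  have hcen : ∀ c : R, c ∈ Subgroup.center R ↔ (c : G) = 1 ∨ (c : G) = z := by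
    intro c
    rw [Subgroup.mem_center_iff]
    constructor
    · intro hc
      apply hctr c c.2
      intro r hr
      exact congrArg Subtype.val (hc ⟨r, hr⟩)
    · rintro (h1 | h1) r
      · apply Subtype.ext
        show (r : G) * c = c * r
        rw [h1, mul_one, one_mul]
      · apply Subtype.ext
        show (r : G) * c = c * r
        rw [h1]; exact hzc r
  apply Cfsg.Agent.J2.ExtQuot.isExtraspecial_two
  · apply IsPGroup.of_card (n := 5)
    rw [hRcard]; norm_num
  · have h1 : Subgroup.center R = Subgroup.zpowers (⟨z, hzR⟩ : R) := by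
      ext c
      rw [hcen]
      constructor
      · rintro (h2 | h2)
        · have : c = 1 := Subtype.ext h2
          rw [this]; exact Subgroup.one_mem _
        · have : c = ⟨z, hzR⟩ := Subtype.ext h2
          rw [this]; exact Subgroup.mem_zpowers _
      · intro hc
        have h2 : Subgroup.zpowers (⟨z, hzR⟩ : R) ≤ Subgroup.center R := by
          rw [Subgroup.zpowers_le, hcen]; exact Or.inr rfl
        exact (hcen c).mp (h2 hc)
    rw [h1, Nat.card_zpowers]
    have h2 : Fact (Nat.Prime 2) := ⟨Nat.prime_two⟩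
    apply orderOf_eq_prime
    · apply Subtype.ext
      show z ^ 2 = 1
      rw [pow_two, hz2]
    · intro h3
      exact hz1 (congrArg Subtype.val h3)
  · intro x
    rw [hcen]
    have := hsq x x.2
    rwa [← pow_two] at this
  · refine ⟨⟨cj b m.t, m.t1R h⟩, ⟨r₀, hr₀⟩, ?_⟩
    intro h1
    have h2 : cj b m.t * r₀ = r₀ * cj b m.t := congrArg Subtype.val h1
    have h3 := m.s_comm r₀ (cj b m.t) x₄ h2.symm m.tx'
    rw [hr₀4, m.u1, hu4] at h3
    exact absurd h3 (by decide)

/-- The main result for the group `R⟨b⟩`. -/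
theorem CS.main [Finite G] [Group.IsSolvable G] (h : CS ρ R b) {t : G} (hq : FG b t) (htR : t ∈ R) :
    ((Cfsg.IsElementaryAbelian 2 R ∧ Nat.card R = 4) ∨
      (Cfsg.IsExtraspecial 2 R ∧ Nat.card R = 32 ∧
        ∃ A : Subgroup G, A ≤ R ∧ Cfsg.IsElementaryAbelian 2 A ∧ Nat.card A = 8)) ∧
    ∃ F₀ F₁ : Submodule (ZMod 3) E, F₀ ⊓ F₁ = ⊥ ∧ F₀ ⊔ F₁ = ⊤ ∧
      (∀ g : G, ∀ v ∈ F₁, ρ g v = v) ∧ (∀ g : G, ∀ v ∈ F₀, ρ g v ∈ F₀) ∧
      (∀ g : G, (∀ v ∈ F₀, ρ g v = v) → g = 1) ∧
      (∀ N : Submodule (ZMod 3) E, N ≤ F₀ → (∀ g : G, ∀ v ∈ N, ρ g v ∈ N) → N = ⊥ ∨ N = F₀) := by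
  obtain ⟨A, hA1, hA2, hA3, hA4⟩ := h.exists_elem hq htR
  obtain ⟨m⟩ := h.exists_md A hA1 hA2 hA3 hA4
  refine ⟨?_, m.U, m.U', m.inf, m.sup, m.triv, m.inv, m.faithU, m.irr⟩
  have h1 := m.card_le h
  have h2 := m.three_le
  rcases (by omega : Nat.card m.X = 3 ∨ Nat.card m.X = 4) with h3 | h3
  · exact Or.inl (m.case3 h h3)
  · exact Or.inr (m.case4 h h3)

end

end Cfsg.Agent.H587.Cubic
end

-- part: H587/CubicN
section
/-!
# S4415, part N: the reduction to `[O_{3'}(S), B] B`
-/

set_option autoImplicit false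
set_option linter.unusedSectionVars false
set_option linter.unusedVariables false

namespace Cfsg.Agent.H587.Cubic

open Module
open scoped commutatorElement

universe u w

theorem three_smul_zero {E : Type*} [AddCommGroup E] [Module (ZMod 3) E] (v : E) : v + v + v = 0 := by
  have h7 : (3 : ZMod 3) • v = 0 := by
    have : (3 : ZMod 3) = 0 := rfl
    rw [this, zero_smul]
  have h8 : (3 : ZMod 3) • v = v + v + v := by
    have : (3 : ZMod 3) = 1 + 1 + 1 := rfl
    rw [this, add_smul, add_smul, one_smul]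
  rw [← h8, h7]

/-- The commutator space of a single Jordan block of size three. -/
theorem dim_two {S : Type u} [Group S] {E : Type w} [AddCommGroup E] [Module (ZMod 3) E] [Finite E]
    (ρ : Representation (ZMod 3) S E) (b : S) (hb : b * b * b = 1) (E₀ E₁ : Submodule (ZMod 3) E)
    (hE01' : E₀ ⊔ E₁ = ⊤) (hE1 : ∀ v ∈ E₁, ρ b v = v) (hE0inv : ∀ v ∈ E₀, ρ b v ∈ E₀)
    (hE0 : Nat.card E₀ = 27) (hind : ∃ v ∈ E₀, ρ b (ρ b v - v) - (ρ b v - v) ≠ 0) :
    finrank (ZMod 3) (dd ρ b) = 2 := by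
  have hfin : Module.Finite (ZMod 3) E := Module.Finite.of_finite
  have hE0d : finrank (ZMod 3) E₀ = 3 := by
    have h1 := Module.natCard_eq_pow_finrank (K := ZMod 3) (V := E₀)
    rw [hE0, Nat.card_zmod] at h1
    have h2 : 3 ^ 3 = 3 ^ finrank (ZMod 3) E₀ := by rw [← h1]; norm_num
    exact (Nat.pow_right_injective (le_refl 2 |>.trans (by norm_num)) h2).symm
  obtain ⟨v, hv, hne⟩ := hind
  have hcube : ∀ u : E, ρ b (ρ b (ρ b u - u) - (ρ b u - u)) - (ρ b (ρ b u - u) - (ρ b u - u)) = 0 := by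
    intro u
    have h1 : ρ b (ρ b (ρ b u)) = u := by rw [← rho_mul, ← rho_mul, hb, rho_one]
    simp only [map_sub, h1]
    have h2 := three_smul_zero (ρ b u)
    have h3 := three_smul_zero (ρ b (ρ b u))
    calc u - ρ b (ρ b u) - (ρ b (ρ b u) - ρ b u) - (ρ b (ρ b u) - ρ b u - (ρ b u - u))
        = (ρ b u + ρ b u + ρ b u) - (ρ b (ρ b u) + ρ b (ρ b u) + ρ b (ρ b u)) := by abel
      _ = 0 := by rw [h2, h3, sub_zero]
  let f : E →ₗ[ZMod 3] E := ρ b - 1
  have hf : ∀ u, f u = ρ b u - u := fun u => rfl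
  apply le_antisymm
  · -- upper bound
    have h1 : dd ρ b ≤ LinearMap.range (f.domRestrict E₀) := by
      intro x hx
      obtain ⟨u, rfl⟩ := mem_dd.mp hx
      have hu : u ∈ E₀ ⊔ E₁ := by rw [hE01']; trivial
      obtain ⟨u₀, hu₀, u₁, hu₁, rfl⟩ := Submodule.mem_sup.mp hu
      refine ⟨⟨u₀, hu₀⟩, ?_⟩
      show ρ b u₀ - u₀ = ρ b (u₀ + u₁) - (u₀ + u₁)
      rw [map_add, hE1 u₁ hu₁]; abel
    have h2 := LinearMap.finrank_range_add_finrank_ker (f.domRestrict E₀)
    have h3 : 0 < finrank (ZMod 3) (LinearMap.ker (f.domRestrict E₀)) := by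
      rw [Module.finrank_pos_iff]
      have hmem : ρ b (ρ b v - v) - (ρ b v - v) ∈ E₀ :=
        E₀.sub_mem (hE0inv _ (E₀.sub_mem (hE0inv v hv) hv)) (E₀.sub_mem (hE0inv v hv) hv)
      refine ⟨⟨⟨⟨_, hmem⟩, ?_⟩, 0, ?_⟩⟩
      · rw [LinearMap.mem_ker]
        exact hcube v
      · intro h0
        apply hne
        exact congrArg (fun x => ((x : LinearMap.ker (f.domRestrict E₀)) : E₀).1) h0
    rw [hE0d] at h2
    have h4 := Submodule.finrank_mono h1
    omega
  · -- lower bound
    have hli : LinearIndependent (ZMod 3) (![⟨ρ b v - v, sub_mem_dd ρ b v⟩,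
        ⟨ρ b (ρ b v - v) - (ρ b v - v), sub_mem_dd ρ b _⟩] : Fin 2 → dd ρ b) := by
      rw [LinearIndependent.pair_iff]
      intro s t hst
      have h1 : s • (ρ b v - v) + t • (ρ b (ρ b v - v) - (ρ b v - v)) = 0 := congrArg Subtype.val hst
      have h2 : s • (ρ b (ρ b v - v) - (ρ b v - v)) = 0 := by
        have h3 := congrArg f h1
        rw [map_add, map_smul, map_smul, map_zero, hf, hf, hcube, smul_zero, add_zero] at h3
        exact h3
      have h3 : s = 0 := (smul_eq_zero.mp h2).resolve_right hne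
      rw [h3, zero_smul, zero_add] at h1
      exact ⟨h3, (smul_eq_zero.mp h1).resolve_right hne⟩
    have := hli.fintype_card_le_finrank
    rwa [Fintype.card_fin] at this

/-- The involution. -/
theorem exists_fg {S : Type u} [Group S] [Finite S] [Group.IsSolvable S] (B : Subgroup S)
    (hB : Nat.card B = 3) (b : S) (hb : Subgroup.zpowers b = B)
    (Q : Subgroup S) (hQ : Cfsg.IsElementaryAbelian 2 Q)
    (hBQ : B ≤ Subgroup.normalizer (Q : Set S)) (hBQ' : ¬ B ≤ Subgroup.centralizer (Q : Set S))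
    (P : Sylow 3 S) (hBZ : (Subgroup.center ↥(P : Subgroup S)).map (P : Subgroup S).subtype = B) :
    ∃ t ∈ ⁅Cfsg.pPrimeCore 3 S, B⁆, FG b t := by
  have f3 : Fact (Nat.Prime 3) := ⟨Nat.prime_three⟩
  have hbB : b ∈ B := by rw [← hb]; exact Subgroup.mem_zpowers b
  have hb3 : b * b * b = 1 := by
    have h1 : orderOf b = 3 := by rw [← Nat.card_zpowers, hb, hB]
    have h2 := pow_orderOf_eq_one b
    rw [h1, pow_succ, pow_two] at h2
    exact h2
  have hQ2 : ∀ x ∈ Q, x * x = 1 := by
    intro x hx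
    rw [← pow_two]; exact hQ.2 x hx
  -- the element
  obtain ⟨n, hn, hnne⟩ : ∃ n ∈ Q, b * n ≠ n * b := by
    by_contra hcon
    push Not at hcon
    apply hBQ'
    rw [← hb, Subgroup.zpowers_le, Subgroup.mem_centralizer_iff]
    intro x hx
    exact (hcon x hx).symm
  have hbQ : ∀ x ∈ Q, cj b x ∈ Q := fun x hx => ((Subgroup.mem_normalizer_iff.mp (hBQ hbB)) x).mp hx
  obtain ⟨t, ht⟩ : ∃ t, t = n⁻¹ * cj b n := ⟨_, rfl⟩
  have htQ : t ∈ Q := by rw [ht]; exact Q.mul_mem (Q.inv_mem hn) (hbQ n hn)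
  have hq : FG b t := by
    refine ⟨?_, hQ2 t htQ, ?_⟩
    · intro h1
      apply hnne
      rw [ht, inv_mul_eq_one] at h1
      rw [mul_eq_cj, ← h1]
    · rw [ht]; exact prod_y hb3
  -- `t` is in the core
  have hKn : (Cfsg.pPrimeCore 3 S).Normal := Cfsg.Agent.Lib.HallHigman.pPrimeCore_normal 3
  have htK : t ∈ Cfsg.pPrimeCore 3 S := by
    let K := Cfsg.pPrimeCore 3 S
    let π := QuotientGroup.mk' K
    have hquo : Cfsg.pPrimeCore 3 (S ⧸ K) = ⊥ :=
      Cfsg.Agent.Lib.HallHigman.pPrimeCore_quotient_eq_bot 3 K rfl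
    have hHH := Cfsg.Agent.Lib.HallHigman.centralizer_pCore_le_of_solvable (G := S ⧸ K) 3 hquo
    have hOn : (Cfsg.pCore 3 (S ⧸ K)).Normal := Cfsg.Agent.Lib.HallHigman.pCore_normal 3
    have hbO : π b ∈ Cfsg.pCore 3 (S ⧸ K) := by
      apply hHH
      rw [Subgroup.mem_centralizer_iff]
      intro o ho
      have h1 := Cfsg.Agent.Lib.HallHigman.pCore_le_sylow 3
        (P.mapSurjective (QuotientGroup.mk'_surjective K)) ho
      have h2 : o ∈ (P : Subgroup S).map (QuotientGroup.mk' K) := h1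
      obtain ⟨p, hp, rfl⟩ := h2
      have hbZ : b ∈ (Subgroup.center ↥(P : Subgroup S)).map (P : Subgroup S).subtype := by
        rw [hBZ]; exact hbB
      obtain ⟨c, hc, hcb⟩ := hbZ
      have h3 := Subgroup.mem_center_iff.mp hc ⟨p, hp⟩
      have h4 : p * b = b * p := by
        rw [← hcb]; exact congrArg Subtype.val h3
      show π p * π b = π b * π p
      rw [← map_mul, h4, map_mul]
    have htO : π t ∈ Cfsg.pCore 3 (S ⧸ K) := by
      have h1 : π t = ((π n)⁻¹ * π b * π n) * (π b)⁻¹ := by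
        rw [ht]; unfold cj
        rw [map_mul, map_mul, map_mul, map_inv, map_inv]; group
      rw [h1]
      apply Subgroup.mul_mem _ _ (Subgroup.inv_mem _ hbO)
      have := hOn.conj_mem _ hbO (π n)⁻¹
      rwa [inv_inv] at this
    obtain ⟨k, hk⟩ := (Cfsg.Agent.Lib.HallHigman.pCore_isPGroup (G := S ⧸ K) 3) ⟨π t, htO⟩
    have h2 : (π t) ^ (3 ^ k) = 1 := congrArg Subtype.val hk
    have h3 : (π t) ^ 2 = 1 := by rw [← map_pow, pow_two, hq.sq, map_one]
    have h4 : orderOf (π t) = 1 := by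
      apply Nat.eq_one_of_dvd_coprimes (a := 3 ^ k) (b := 2)
      · apply Nat.Coprime.pow_left; decide
      · exact orderOf_dvd_of_pow_eq_one h2
      · exact orderOf_dvd_of_pow_eq_one h3
    rw [orderOf_eq_one_iff] at h4
    exact (QuotientGroup.eq_one_iff t).mp h4
  refine ⟨cj b (cj b t), ?_, (hq.next hb3).next hb3⟩
  have h1 : ⁅t, b⁆ ∈ ⁅Cfsg.pPrimeCore 3 S, B⁆ := Subgroup.commutator_mem_commutator htK hbB
  have h2 : ⁅t, b⁆ = cj b (cj b t) := by
    rw [commutatorElement_def, ← hq.mul_eq hb3]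
    have : b * t⁻¹ * b⁻¹ = cj b t := by rw [hq.inv_eq]; rfl
    rw [← this]; group
  rwa [h2] at h1

end Cfsg.Agent.H587.Cubic
end

-- part: S4415
section
set_option autoImplicit false
open Cfsg
open scoped commutatorElement

namespace Cfsg.Agent.S4415

/-- Let S be a finite solvable group acting faithfully on a finite-dimensional space E over the field with three elements, with O₃(S) = 1. Let B ≤ S have order 3 and suppose: E = E₀ ⊕ E₁ with B fixing E₁ pointwise, E₀ B-invariant of order 27 and indecomposable under B (a generator of B has a single Jordan block on E₀); B normalizes but does not centralize some subgroup Q of S that is elementary abelian of order 4; and B is the centre of a Sylow 3-subgroup of S. Put R = [O_{3'}(S), B]. Then R is elementary abelian of order 4 or extraspecial of order 32 containing an elementary abelian subgroup of order 8 (a central product of two quaternion groups), and E is the direct sum of a subspace fixed pointwise by R and an RB-invariant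 subspace on which the subgroup RB acts faithfully and irreducibly. -/
theorem result {S : Type*} [Group S] [Finite S]
    [Group.IsSolvable S] {E : Type*} [AddCommGroup E] [Module (ZMod 3) E] [Finite E] (ρ : Representation (ZMod 3) S E)
    (hfaith : Function.Injective ρ) (hO3 : Cfsg.pCore 3 S = ⊥)
    (B : Subgroup S) (hB : Nat.card ↥B = 3) (b : S) (hb : Subgroup.zpowers b = B)
    (E₀ E₁ : Submodule (ZMod 3) E) (hE01 : E₀ ⊓ E₁ = ⊥) (hE01' : E₀ ⊔ E₁ = ⊤)
    (hE1 : ∀ v ∈ E₁, ρ b v = v) (hE0inv : ∀ v ∈ E₀, ρ b v ∈ E₀) (hE0 : Nat.card ↥E₀ = 27)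
    (hind : ∃ v ∈ E₀, ρ b (ρ b v - v) - (ρ b v - v) ≠ 0)
    (Q : Subgroup S) (hQ : Cfsg.IsElementaryAbelian 2 Q) (hQ4 : Nat.card ↥Q = 4)
    (hBQ : B ≤ Subgroup.normalizer (Q : Set S)) (hBQ' : ¬ B ≤ Subgroup.centralizer (Q : Set S))
    (P : Sylow 3 S) (hBZ : (Subgroup.center ↥(P : Subgroup S)).map (P : Subgroup S).subtype = B) :
    ((Cfsg.IsElementaryAbelian 2 ⁅Cfsg.pPrimeCore 3 S, B⁆ ∧ Nat.card ↥⁅Cfsg.pPrimeCore 3 S, B⁆ = 4) ∨
      (Cfsg.IsExtraspecial 2 ↥⁅Cfsg.pPrimeCore 3 S, B⁆ ∧ Nat.card ↥⁅Cfsg.pPrimeCore 3 S, B⁆ = 32 ∧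
        ∃ A : Subgroup S, A ≤ ⁅Cfsg.pPrimeCore 3 S, B⁆ ∧ Cfsg.IsElementaryAbelian 2 A ∧ Nat.card ↥A = 8)) ∧
    ∃ F₀ F₁ : Submodule (ZMod 3) E, F₀ ⊓ F₁ = ⊥ ∧ F₀ ⊔ F₁ = ⊤ ∧
      (∀ r ∈ ⁅Cfsg.pPrimeCore 3 S, B⁆, ∀ v ∈ F₁, ρ r v = v) ∧ (∀ r ∈ ⁅Cfsg.pPrimeCore 3 S, B⁆ ⊔ B, ∀ v ∈ F₀, ρ r v ∈ F₀) ∧
      (∀ r ∈ ⁅Cfsg.pPrimeCore 3 S, B⁆ ⊔ B, (∀ v ∈ F₀, ρ r v = v) → r = 1) ∧
      (∀ N : Submodule (ZMod 3) E, N ≤ F₀ → (∀ r ∈ ⁅Cfsg.pPrimeCore 3 S, B⁆ ⊔ B, ∀ v ∈ N, ρ r v ∈ N) → N = ⊥ ∨ N = F₀) := by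
  have f3 : Fact (Nat.Prime 3) := ⟨Nat.prime_three⟩
  have hbB : b ∈ B := by rw [← hb]; exact Subgroup.mem_zpowers b
  have hb3 : b * b * b = 1 := by
    have h1 : orderOf b = 3 := by rw [← Nat.card_zpowers, hb, hB]
    have h2 := pow_orderOf_eq_one b
    rw [h1, pow_succ, pow_two] at h2
    exact h2
  obtain ⟨t, htR, hq⟩ := Cfsg.Agent.H587.Cubic.exists_fg B hB b hb Q hQ hBQ hBQ' P hBZ
  have hKn : (Cfsg.pPrimeCore 3 S).Normal := Cfsg.Agent.Lib.HallHigman.pPrimeCore_normal 3
  have hKc : (Nat.card (Cfsg.pPrimeCore 3 S)).Coprime 3 := Cfsg.Agent.Lib.HallHigman.pPrimeCore_coprime 3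
  have hRK : ⁅Cfsg.pPrimeCore 3 S, B⁆ ≤ Cfsg.pPrimeCore 3 S := Subgroup.commutator_le_left _ _
  have hRR : ⁅⁅Cfsg.pPrimeCore 3 S, B⁆, B⁆ = ⁅Cfsg.pPrimeCore 3 S, B⁆ := by
    apply Cfsg.Agent.Lib.CoprimeCommutator.commutator_commutator_eq
    · rw [Subgroup.normalizer_eq_top_iff.mpr hKn]; exact le_top
    · rw [hB]; exact hKc.symm
  have hBn : B ≤ Subgroup.normalizer ((⁅Cfsg.pPrimeCore 3 S, B⁆ : Subgroup S) : Set S) := by
    intro x hx
    apply Subgroup.mem_normalizer_fintype
    intro y hy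
    have h1 : ⁅Cfsg.pPrimeCore 3 S, B⁆ ≤
        (⁅Cfsg.pPrimeCore 3 S, B⁆).comap (MulAut.conj x).toMonoidHom := by
      rw [Subgroup.commutator_le]
      intro k hk c hc
      show x * ⁅k, c⁆ * x⁻¹ ∈ ⁅Cfsg.pPrimeCore 3 S, B⁆
      have e : x * ⁅k, c⁆ * x⁻¹ = ⁅x * k * x⁻¹, x * c * x⁻¹⁆ := by
        rw [commutatorElement_def, commutatorElement_def]; group
      rw [e]
      exact Subgroup.commutator_mem_commutator (hKn.conj_mem k hk x)
        (B.mul_mem (B.mul_mem hx hc) (B.inv_mem hx))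
    exact h1 hy
  generalize ⁅Cfsg.pPrimeCore 3 S, B⁆ = R at *
  -- the group `R B`
  have hRG : R ≤ R ⊔ B := le_sup_left
  have hBG : B ≤ R ⊔ B := le_sup_right
  let G := (R ⊔ B : Subgroup S)
  let ι : G →* S := (R ⊔ B).subtype
  have hι : Function.Injective ι := Subgroup.subtype_injective _
  let ρ' : Representation (ZMod 3) G E := ρ.comp ι
  let R' : Subgroup G := R.subgroupOf (R ⊔ B)
  let b' : G := ⟨b, hBG hbB⟩
  have hmapR : R'.map ι = R := Subgroup.map_subgroupOf_eq_of_le hRG
  have hmapb : (Subgroup.zpowers b').map ι = B := by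
    rw [MonoidHom.map_zpowers]; exact hb
  have hcardR : Nat.card R' = Nat.card R := Nat.card_congr (Subgroup.subgroupOfEquivOfLe hRG).toEquiv
  have hdd : Cfsg.Agent.H587.Cubic.dd ρ' b' = Cfsg.Agent.H587.Cubic.dd ρ b := rfl
  have hCS : Cfsg.Agent.H587.Cubic.CS ρ' R' b' := by
    refine ⟨?_, ?_, ?_, ?_, ?_, ?_, inferInstance, ?_⟩
    · intro g hg
      apply hι
      apply hfaith
      rw [map_one, map_one]
      ext v
      exact hg v
    · apply Subgroup.normal_subgroupOf_of_le_normalizer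
      exact sup_le Subgroup.le_normalizer hBn
    · exact hι hb3
    · apply Subgroup.map_injective hι
      rw [Subgroup.map_sup, hmapR, hmapb, ← MonoidHom.range_eq_map, Subgroup.range_subtype]
    · apply Subgroup.map_injective hι
      rw [Subgroup.map_commutator, hmapR, hmapb, hRR]
    · rw [hcardR]
      intro h3
      have h4 : 3 ∣ Nat.card (Cfsg.pPrimeCore 3 S) := h3.trans (Subgroup.card_dvd_of_le hRK)
      have := Nat.Coprime.eq_one_of_dvd hKc.symm h4
      omega
    · rw [hdd]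
      exact Cfsg.Agent.H587.Cubic.dim_two ρ b hb3 E₀ E₁ hE01' hE1 hE0inv hE0 hind
  have hq' : Cfsg.Agent.H587.Cubic.FG b' (⟨t, hRG htR⟩ : G) := by
    refine ⟨?_, ?_, ?_⟩
    · intro h1; exact hq.ne (congrArg Subtype.val h1)
    · exact hι hq.sq
    · exact hι hq.prod
  obtain ⟨hstr, F₀, F₁, h1, h2, h3, h4, h5, h6⟩ := hCS.main hq' (show (⟨t, hRG htR⟩ : G) ∈ R' from htR)
  refine ⟨?_, F₀, F₁, h1, h2, ?_, ?_, ?_, ?_⟩
  · rcases hstr with ⟨h7, h8⟩ | ⟨h7, h8, A, hA1, hA2, hA3⟩
    · left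
      refine ⟨⟨⟨⟨?_⟩⟩, ?_⟩, by rw [← hcardR]; exact h8⟩
      · rintro ⟨x, hx⟩ ⟨y, hy⟩
        apply Subtype.ext
        have h9 := h7.1.is_comm.comm (⟨⟨x, hRG hx⟩, hx⟩ : R') ⟨⟨y, hRG hy⟩, hy⟩
        exact congrArg (fun g : R' => ((g : G) : S)) h9
      · intro x hx
        exact congrArg ι (h7.2 ⟨x, hRG hx⟩ hx)
    · right
      refine ⟨Cfsg.Agent.J2.ExtQuot.isExtraspecial_of_equiv (Subgroup.subgroupOfEquivOfLe hRG) h7,
        by rw [← hcardR]; exact h8, A.map ι, ?_, ⟨⟨⟨?_⟩⟩, ?_⟩, ?_⟩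
      · rw [← hmapR]; exact Subgroup.map_mono hA1
      · rintro ⟨_, x, hx, rfl⟩ ⟨_, y, hy, rfl⟩
        apply Subtype.ext
        have h9 := hA2.1.is_comm.comm (⟨x, hx⟩ : A) ⟨y, hy⟩
        exact congrArg (fun g : A => ι (g : G)) h9
      · rintro _ ⟨x, hx, rfl⟩
        rw [← map_pow, hA2.2 x hx, map_one]
      · rw [← hA3]
        exact (Nat.card_congr (Subgroup.equivMapOfInjective A ι hι).toEquiv).symm
  · intro r hr v hv
    exact h3 ⟨r, hRG hr⟩ v hv
  · intro r hr v hv
    exact h4 ⟨r, hr⟩ v hv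
  · intro r hr hv
    exact congrArg ι (h5 ⟨r, hr⟩ hv)
  · intro N hN hinv
    exact h6 N hN (fun g v hv => hinv g g.2 v hv)

end Cfsg.Agent.S4415
end
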