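import Cfsg.Statements.S4420
set_option linter.all false

set_option autoImplicit false
open Cfsg

namespace Cfsg.Agent.S4420

theorem comm_of_sq {H : Type*} [Group H] (h : ∀ x : H, x ^ 2 = 1) (a b : H) : a * b = b * a := by
  have inv_eq : ∀ x : H, x⁻¹ = x := fun x => by
    have := h x
    rw [pow_two] at this
    exact inv_eq_of_mul_eq_one_left this
  calc a * b = (a * b)⁻¹ := (inv_eq _).symm
    _ = b⁻¹ * a⁻¹ := mul_inv_rev a b
    _ = b * a := by rw [inv_eq, inv_eq]

/-- Structure of groups in which every element outside some proper subgroup has square 1. Let H be a finite group with a proper subgroup A such that every element outside A has square 1. Then H has an abelian normal subgroup B of index 2 such that every element outside B is an involution inverting every element of B; and if H is not an elementary abelian 2-group, B is the only abelian normal subgroup of index 2 with this property. -/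
theorem result {H : Type*} [Group H] [Finite H] (A : Subgroup H) (hA : A ≠ ⊤) (hD : ∀ x : H, x ∉ A → x ^ 2 = 1) :
    ∃ B : Subgroup H, B.Normal ∧ IsMulCommutative ↥B ∧ B.index = 2 ∧
      (∀ x : H, x ∉ B → x ^ 2 = 1 ∧ ∀ b ∈ B, x * b * x⁻¹ = b⁻¹) ∧
      (¬ (IsMulCommutative H ∧ ∀ x : H, x ^ 2 = 1) →
        ∀ B' : Subgroup H, B'.Normal → IsMulCommutative ↥B' → B'.index = 2 →
          (∀ x : H, x ∉ B' → x ^ 2 = 1 ∧ ∀ b ∈ B', x * b * x⁻¹ = b⁻¹) → B' = B) := by
  classical
  have hinv : ∀ x : H, x ∉ A → ∀ a ∈ A, x * a * x⁻¹ = a⁻¹ := by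
    intro x hx a ha
    have hxa : x * a ∉ A := fun h => hx ((A.mul_mem_cancel_right ha).1 h)
    have h1 := hD _ hxa
    have h2 := hD _ hx
    have h3 : x⁻¹ = x := by
      rw [pow_two] at h2
      exact inv_eq_of_mul_eq_one_left h2
    rw [h3]
    rw [pow_two] at h1
    have : x * a * x * a = 1 := by simpa [mul_assoc] using h1
    exact eq_inv_of_mul_eq_one_left this
  by_cases hel : ∀ x : H, x ^ 2 = 1
  · -- elementary abelian
    have hcomm := comm_of_sq hel
    have hinvself : ∀ x : H, x⁻¹ = x := fun x => by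
      have := hel x
      rw [pow_two] at this
      exact inv_eq_of_mul_eq_one_left this
    have hp : IsPGroup 2 H := fun x => ⟨1, by simpa using hel x⟩
    haveI : Fact (Nat.Prime 2) := ⟨Nat.prime_two⟩
    obtain ⟨n, hn⟩ := IsPGroup.iff_card.1 hp
    have hn0 : n ≠ 0 := by
      rintro rfl
      apply hA
      have h1 : Nat.card H = 1 := by simpa using hn
      haveI := (Nat.card_eq_one_iff_unique.1 h1).1
      exact Subsingleton.elim _ _
    obtain ⟨B, hB⟩ := Sylow.exists_subgroup_card_pow_prime (G := H) 2 (n := n - 1)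
      (by rw [hn]; exact pow_dvd_pow _ (by omega))
    have hBi : B.index = 2 := by
      have h1 := B.card_mul_index
      rw [hB, hn] at h1
      obtain ⟨k, rfl⟩ : ∃ k, n = k + 1 := ⟨n - 1, by omega⟩
      simp only [Nat.add_sub_cancel, pow_succ] at h1
      exact Nat.eq_of_mul_eq_mul_left (by positivity) h1
    refine ⟨B, ⟨fun b hb g => by rw [hcomm g b]; simpa using hb⟩, ⟨⟨fun a b => Subtype.ext (hcomm _ _)⟩⟩, hBi, ?_, ?_⟩
    · intro x _
      refine ⟨hel x, fun b _ => ?_⟩
      rw [hcomm x b, hinvself b]; simp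
    · intro h
      exact absurd ⟨⟨⟨hcomm⟩⟩, hel⟩ h
  · -- not elementary abelian
    obtain ⟨t, ht⟩ := not_forall.1 hel
    have htA : t ∈ A := by
      by_contra h
      exact ht (hD t h)
    obtain ⟨x, hx⟩ : ∃ x, x ∉ A := by
      by_contra h
      push Not at h
      exact hA (eq_top_iff.2 fun y _ => h y)
    have hAcomm : ∀ a ∈ A, ∀ b ∈ A, a * b = b * a := by
      intro a ha b hb
      have h1 := hinv x hx (a * b) (A.mul_mem ha hb)
      have h2 := hinv x hx a ha
      have h3 := hinv x hx b hb
      have h4 : x * (a * b) * x⁻¹ = (x * a * x⁻¹) * (x * b * x⁻¹) := by group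
      rw [h1, h2, h3, mul_inv_rev] at h4
      have h5 := congrArg (·⁻¹) h4
      simpa using h5
    have hAind : ∀ y z : H, y ∉ A → z ∉ A → y * z ∈ A := by
      intro y z hy hz
      by_contra hyz
      have h1 := hinv _ hyz t htA
      have h2 : y * z * t * (y * z)⁻¹ = y * (z * t * z⁻¹) * y⁻¹ := by group
      rw [h2, hinv z hz t htA, hinv y hy t⁻¹ (A.inv_mem htA), inv_inv] at h1
      apply ht
      rw [pow_two]
      nth_rw 1 [h1]
      exact inv_mul_cancel t
    have hAn : A.Normal := ⟨fun a ha g => by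
      by_cases hg : g ∈ A
      · exact A.mul_mem (A.mul_mem hg ha) (A.inv_mem hg)
      · rw [hinv g hg a ha]; exact A.inv_mem ha⟩
    have hAi : A.index = 2 := by
      rw [Subgroup.index_eq_two_iff]
      refine ⟨x, fun b => ?_⟩
      by_cases hb : b ∈ A
      · right
        exact ⟨hb, fun h => hx ((A.mul_mem_cancel_left hb).1 h)⟩
      · left
        exact ⟨hAind b x hb hx, hb⟩
    refine ⟨A, hAn, ⟨⟨fun a b => Subtype.ext (hAcomm _ a.2 _ b.2)⟩⟩, hAi, fun y hy => ⟨hD y hy, hinv y hy⟩, ?_⟩
    intro _ B' hB'n hB'c hB'i hB'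
    -- suppose B' ≠ A; then a ∈ A \ B' gives a contradiction
    by_contra hne
    have hnle : ¬ A ≤ B' := by
      intro hle
      apply hne
      symm
      apply Subgroup.eq_of_le_of_card_ge hle
      have h1 := A.card_mul_index
      have h2 := B'.card_mul_index
      rw [hAi] at h1
      rw [hB'i] at h2
      omega
    obtain ⟨b, hbA, hbB⟩ := Set.not_subset.1 hnle
    have htB' : t ∈ B' := by
      by_contra h
      exact ht (hB' t h).1
    have h1 := (hB' b hbB).2 t htB'
    rw [hAcomm b hbA t htA] at h1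
    apply ht
    have h2 : t = t⁻¹ := by simpa using h1
    rw [pow_two]
    nth_rw 1 [h2]
    exact inv_mul_cancel t

end Cfsg.Agent.S4420
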