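import Cfsg.Statements.S4517
import Cfsg.Agent.H611.RealBlock
import Cfsg.Agent.S0135
set_option linter.all false

set_option autoImplicit false
open Cfsg

namespace Cfsg.Agent.S4517

open scoped ComplexConjugate
open Cfsg.Agent.Blocks Cfsg.Agent.S4490

/-- Let G be a finite group, M a maximal ideal of the algebraic integers containing 2, and k a natural number coprime to the order of G with g ^ k = g⁻¹ for every element g of odd order (so that g ↦ g ^ k induces a field automorphism of the character values inverting the roots of unity of odd order). If B is a 2-block of full defect (its defect equals the exponent of 2 in the order of G) that is stable under χ ↦ χ ∘ (· ^ k), then B is the principal 2-block. -/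
theorem result {G : Type*} [Group G] [Finite G] (M : Ideal Cfsg.AlgInt) (hM : Cfsg.IsPModular 2 M) (k : ℕ) (hk : Nat.Coprime k (Nat.card G)) (hk₂ : ∀ g : G, Odd (orderOf g) → g ^ k = g⁻¹) (B : Set (Cfsg.IrrCharacter G)) (hB : Cfsg.IsPBlock M B) (hdef : Cfsg.blockDefect 2 B = (Nat.card G).factorization 2) (hstab : ∀ χ ∈ B, ∃ ψ ∈ B, ∀ g : G, (ψ : G → ℂ) g = (χ : G → ℂ) (g ^ k)) : B = Cfsg.principalBlock M G := by
  classical
  have := Fintype.ofFinite G
  have hprime : M.IsPrime := Local.isPrime_of_isPModular hM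
  have : Fact (Nat.Prime 2) := ⟨Nat.prime_two⟩
  -- a character of odd degree in `B`
  have hne : B.Nonempty := Basic.isPBlock_nonempty hB
  have hne' : ((fun χ : IrrCharacter G =>
      (charDegree (χ : G → ℂ)).factorization 2) '' B).Nonempty := hne.image _
  obtain ⟨χ, hχ, hmin⟩ := Nat.sInf_mem hne'
  have hle : (charDegree (χ : G → ℂ)).factorization 2 ≤ (Nat.card G).factorization 2 := by
    obtain ⟨k, ρ, hρ, hχ'⟩ := χ.2
    have h1 : Module.finrank ℂ (Fin k → ℂ) ∣ Nat.card G := Cfsg.Agent.S0135.result ρ
    have h2 : charDegree (χ : G → ℂ) = k := by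
      apply Basic.charDegree_of_eq
      rw [← hχ', Representation.char_one]
      simp
    rw [Module.finrank_fin_fun, ← h2] at h1
    exact (Nat.factorization_le_iff_dvd (Basic.charDegree_pos χ.2).ne'
      Nat.card_pos.ne').2 h1 2
  have hodd : ¬ 2 ∣ charDegree (χ : G → ℂ) := by
    rw [Basic.blockDefect_def, ← hmin] at hdef
    simp only at hdef
    have h0 : (charDegree (χ : G → ℂ)).factorization 2 = 0 := by omega
    intro h
    have := Nat.Prime.factorization_pos_of_dvd Nat.prime_two (Basic.charDegree_pos χ.2).ne' h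
    omega
  obtain ⟨ψ, hψB, hψ⟩ := hstab χ hχ
  have h1 : SameBlock M (χ : G → ℂ) (ψ : G → ℂ) := Basic.isPBlock_sameBlock hB hχ hψB
  have h2 : SameBlock M (ψ : G → ℂ) (cj χ : G → ℂ) := by
    refine PRegular.sameBlock_of_isPRegular hM ψ.2 (cj χ).2 fun g hg => ?_
    have hodd : Odd (orderOf g) := by
      rw [← Nat.not_even_iff_odd, even_iff_two_dvd]
      exact hg
    have h1 : (ψ : G → ℂ) g = (cj χ : G → ℂ) g := by rw [hψ, hk₂ g hodd, cj_apply']
    have h3 : (ψ : G → ℂ) 1 = (cj χ : G → ℂ) 1 := by rw [hψ, one_pow, cj_one]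
    have h2 : centralChar (cj χ : G → ℂ) g = centralChar (ψ : G → ℂ) g := by
      rw [Basic.centralChar_def, Basic.centralChar_def, h1, h3]
    rw [h2, sub_self]
    exact Local.memLocalIdeal_zero
  have h3 := Cfsg.Agent.H611.RealBlock.mem_principalBlock_of_odd hM χ
    (Basic.sameBlock_trans h1 h2) hodd
  let one : IrrCharacter G := ⟨fun _ => 1, Basic.isIrrCharacter_one⟩
  have hB0 : IsPBlock M (principalBlock M G) := ⟨one, rfl⟩
  exact Basic.isPBlock_eq_of_mem hB hB0 hχ h3

end Cfsg.Agent.S4517
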