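import Cfsg.Agent.H615.AltConj
import Cfsg.Agent.H615.AltClif
import Cfsg.Agent.H614.Rank
import Cfsg.Agent.S4432
import Cfsg.Agent.Blocks.Over
import Mathlib
import Cfsg.Agent.H614.Defect
import Cfsg.Agent.S4438
import Cfsg.Agent.H615.AltCount
import Cfsg.Agent.H615.AltMult
import Cfsg.Statements.S4535
set_option linter.all false

-- part: H615/AltSpan
section
/-!
# The span of the `p`-regular parts of a block of an alternating group

For a block `B` of the alternating group containing a constituent of the restriction of `ch β₀`, the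
`p`-regular parts of the members of `B` lie in the span of the restrictions of the `ch γ` (`γ` of the
colour of `β₀`) and of one function for each self-reflected `γ` of that colour (`blockRank_le_add`).
-/

set_option autoImplicit false
set_option linter.unusedSectionVars false

namespace Cfsg.Agent.H615.AltSpan

open Finset Cfsg Cfsg.Agent.H614 Cfsg.Agent.H615.AltRefl Cfsg.Agent.H615.AltConj
open Cfsg.Agent.Characters.Core
open scoped ComplexConjugate

universe u

variable {α : Type u} [Fintype α] [DecidableEq α] {m : ℕ}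

/-- Restriction of functions to the alternating group. -/
def resA (α : Type u) [Fintype α] [DecidableEq α] :
    (Equiv.Perm α → ℂ) →ₗ[ℂ] (alternatingGroup α → ℂ) where
  toFun f := fun a => f a
  map_add' _ _ := rfl
  map_smul' _ _ := rfl

theorem resA_apply (f : Equiv.Perm α → ℂ) (a : alternatingGroup α) : resA α f a = f a := rfl

theorem pRegularPart_resA (p : ℕ) (f : Equiv.Perm α → ℂ) :
    pRegularPart p (fun a : alternatingGroup α => f a) = resA α (pRegularPart p f) := by
  funext a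
  rw [resA_apply]
  unfold pRegularPart IsPRegular
  rw [Subgroup.orderOf_coe]

/-- The restricted `p`-regular parts of Frobenius' class functions. -/
noncomputable def Phi (α : Type u) [Fintype α] [DecidableEq α] (p : ℕ) (γ : Fin m → ℕ) :
    alternatingGroup α → ℂ := resA α (pRegularPart p (ch α γ))

theorem Phi_alt (p : ℕ) : Alt (Phi (m := m) α p) := by
  intro σ β
  have h := alt_pRegular (α := α) p σ β
  simp only at h
  unfold Phi
  rw [h, map_zsmul]

theorem Phi_upRel {p : ℕ} (hp : p.Prime) (hm : Fintype.card α ≤ m) :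
    UpRel p (Phi (m := m) α p) := by
  intro γ r hr
  unfold Phi
  rw [← map_sum, upRel_pRegular hp hm γ r hr, map_zero]

theorem Phi_eq (p : ℕ) (γ : Fin m → ℕ) :
    Phi α p γ = pRegularPart p (fun a : alternatingGroup α => ch α γ a) :=
  (pRegularPart_resA p _).symm

/-- Conjugate partitions have the same restriction. -/
theorem resA_ch_refl {β β' : Fin m → ℕ} (h : IsRefl β β') (hβ : StrictMono β)
    (hβ' : StrictMono β') (hs : ∑ i, β i = Fintype.card α + ∑ i : Fin m, (i : ℕ)) :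
    (fun a : alternatingGroup α => ch α β a) = fun a : alternatingGroup α => ch α β' a := by
  funext a
  rw [ch_refl h hβ hβ' hs]
  have h1 : sgn (a : Equiv.Perm α) = 1 := by
    unfold sgn
    rw [Equiv.Perm.mem_alternatingGroup.mp a.2]
    simp
  rw [h1, one_mul]

theorem Phi_refl {p : ℕ} {β β' : Fin m → ℕ} (h : IsRefl β β') (hβ : StrictMono β)
    (hβ' : StrictMono β') (hs : ∑ i, β i = Fintype.card α + ∑ i : Fin m, (i : ℕ)) :
    Phi α p β = Phi α p β' := by
  rw [Phi_eq, Phi_eq, resA_ch_refl h hβ hβ' hs]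

/-- A character vanishing on the odd permutations belongs to a self-reflected tuple. -/
theorem isRefl_self_of_vanish (hm : Fintype.card α ≤ m) {γ : Fin m → ℕ} (hγ : StrictMono γ)
    (hs : ∑ i, γ i = Fintype.card α + ∑ i : Fin m, (i : ℕ))
    (hv : ∀ g : Equiv.Perm α, g ∉ alternatingGroup α → ch α γ g = 0) : IsRefl γ γ := by
  obtain ⟨γ', hγ', hr⟩ := exists_refl (m' := m) hγ (lt_of_strictMono hγ hs hm)
  have h1 : ch α γ = ch α γ' := by
    funext g
    by_cases hg : g ∈ alternatingGroup α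
    · exact congrFun (resA_ch_refl hr hγ hγ' hs) ⟨g, hg⟩
    · have h2 := ch_refl hr hγ hγ' hs g
      rw [hv g hg] at h2 ⊢
      have h3 : sgn g ≠ 0 := by
        intro h0
        have := sgn_mul_self g
        rw [h0] at this
        simp at this
      rcases mul_eq_zero.mp h2.symm with h4 | h4
      · exact absurd h4 h3
      · exact h4.symm
  have h2 := ch_inj hγ hγ' hs h1
  rw [← h2] at hr
  exact hr

/-- The strictly increasing tuples of the colour of `β₀` belonging to partitions of `card α`. -/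
def Col (α : Type u) [Fintype α] (p : ℕ) (β₀ : Fin m → ℕ) : Set (Fin m → ℕ) :=
  {γ | StrictMono γ ∧ ∑ i, γ i = Fintype.card α + ∑ i : Fin m, (i : ℕ) ∧ SameCol p β₀ γ}

/-- The index of the alternating group. -/
theorem index_two [Nontrivial α] : (alternatingGroup α).index = 2 :=
  alternatingGroup.index_eq_two

/-- Every member of `B` lies under a character of the colour of `β₀`. -/
theorem exists_col {p : ℕ} [hp : Fact p.Prime] {M : Ideal AlgInt} (hM : IsPModular p M)
    (hm : Fintype.card α ≤ m) {β₀ : Fin m → ℕ} (hβ₀ : StrictMono β₀)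
    (hs₀ : ∑ i, β₀ i = Fintype.card α + ∑ i : Fin m, (i : ℕ))
    {B : Set (IrrCharacter (alternatingGroup α))} (hB : IsPBlock M B)
    {χ₀ : IrrCharacter (alternatingGroup α)} (hχ₀ : χ₀ ∈ B)
    (hc₀ : classInner (fun a : alternatingGroup α => ch α β₀ a) (χ₀ : alternatingGroup α → ℂ) ≠ 0)
    {χ : IrrCharacter (alternatingGroup α)} (hχ : χ ∈ B) :
    ∃ γ ∈ Col α p β₀,
      classInner (fun a : alternatingGroup α => ch α γ a) (χ : alternatingGroup α → ℂ) ≠ 0 := by
  have hMp : M.IsPrime := hM.2.1.isPrime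
  set X₀ : IrrCharacter (Equiv.Perm α) := ⟨ch α β₀, isIrr_ch hβ₀ hs₀⟩ with hX₀
  have hX₀' : X₀ ∈ blockOf M (X₀ : Equiv.Perm α → ℂ) := Blocks.Basic.mem_blockOf_self X₀
  obtain ⟨ψ, hψ, hψχ⟩ := S4432.result p M hM (alternatingGroup α)
    (blockOf M (X₀ : Equiv.Perm α → ℂ)) (Blocks.Basic.isPBlock_blockOf X₀) B hB
    ⟨X₀, hX₀', χ₀, hχ₀, hc₀⟩ χ hχ
  obtain ⟨γ, hγ, hsγ, hψγ, hc⟩ := mem_blockOf hM hm hβ₀ hs₀ hψ
  refine ⟨γ, ⟨hγ, hsγ, hc⟩, ?_⟩
  rw [← hψγ]; exact hψχ

/-- **The rank of a block of an alternating group.** -/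
theorem blockRank_le_add [Nontrivial α] {p : ℕ} [hp : Fact p.Prime] {M : Ideal AlgInt}
    (hM : IsPModular p M) (hm : Fintype.card α ≤ m) {β₀ : Fin m → ℕ} (hβ₀ : StrictMono β₀)
    (hs₀ : ∑ i, β₀ i = Fintype.card α + ∑ i : Fin m, (i : ℕ))
    {B : Set (IrrCharacter (alternatingGroup α))} (hB : IsPBlock M B)
    {χ₀ : IrrCharacter (alternatingGroup α)} (hχ₀ : χ₀ ∈ B)
    (hc₀ : classInner (fun a : alternatingGroup α => ch α β₀ a) (χ₀ : alternatingGroup α → ℂ) ≠ 0)
    {T : Finset (alternatingGroup α → ℂ)}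
    (hT : ∀ γ ∈ Col α p β₀, Phi α p γ ∈ Submodule.span ℂ (T : Set (alternatingGroup α → ℂ)))
    {k : ℕ} (hk : ∀ S : Finset (Fin m → ℕ), (∀ γ ∈ S, γ ∈ Col α p β₀ ∧ IsRefl γ γ) → S.card ≤ k) :
    blockRank p B ≤ T.card + k := by
  classical
  -- a constituent for every tuple
  have hch : ∀ γ : Fin m → ℕ, ∃ θ : alternatingGroup α → ℂ,
      (∃ χ : IrrCharacter (alternatingGroup α),
        classInner (fun a : alternatingGroup α => ch α γ a) (χ : alternatingGroup α → ℂ) ≠ 0) →
      IsIrrCharacter (alternatingGroup α) θ ∧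
        classInner (fun a : alternatingGroup α => ch α γ a) θ ≠ 0 := by
    intro γ
    by_cases h : ∃ χ : IrrCharacter (alternatingGroup α),
        classInner (fun a : alternatingGroup α => ch α γ a) (χ : alternatingGroup α → ℂ) ≠ 0
    · obtain ⟨χ, hχ⟩ := h
      exact ⟨χ, fun _ => ⟨χ.2, hχ⟩⟩
    · exact ⟨0, fun h' => absurd h' h⟩
  choose θ hθ using hch
  set S : Finset (Fin m → ℕ) := (Fintype.piFinset fun _ : Fin m => Finset.range (m + m)).filter
    (fun γ => γ ∈ Col α p β₀ ∧ IsRefl γ γ) with hS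
  have hScard : S.card ≤ k := hk S fun γ hγ => (Finset.mem_filter.mp hγ).2
  set T' : Finset (alternatingGroup α → ℂ) := S.image (fun γ => pRegularPart p (θ γ)) with hT'
  have hT'card : T'.card ≤ k := Finset.card_image_le.trans hScard
  have hmem : ∀ χ ∈ B, pRegularPart p (χ : alternatingGroup α → ℂ) ∈
      Submodule.span ℂ ((T ∪ T' : Finset (alternatingGroup α → ℂ)) : Set (alternatingGroup α → ℂ)) := by
    intro χ hχ
    obtain ⟨γ, hγ, hγχ⟩ := exists_col hM hm hβ₀ hs₀ hB hχ₀ hc₀ hχ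
    have h1 : Phi α p γ ∈ Submodule.span ℂ
        ((T ∪ T' : Finset (alternatingGroup α → ℂ)) : Set (alternatingGroup α → ℂ)) := by
      refine Submodule.span_mono ?_ (hT γ hγ)
      rw [Finset.coe_union]; exact Set.subset_union_left
    by_cases hv : ∀ g : Equiv.Perm α, g ∉ alternatingGroup α → ch α γ g = 0
    · have hr := isRefl_self_of_vanish hm hγ.1 hγ.2.1 hv
      have hγS : γ ∈ S := by
        rw [hS, Finset.mem_filter, Fintype.mem_piFinset]
        exact ⟨fun i => Finset.mem_range.mpr (hr.lt i), hγ, hr⟩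
      have h2 : pRegularPart p (θ γ) ∈ Submodule.span ℂ
          ((T ∪ T' : Finset (alternatingGroup α → ℂ)) : Set (alternatingGroup α → ℂ)) := by
        apply Submodule.subset_span
        rw [Finset.coe_union]
        right
        rw [hT', Finset.mem_coe]
        exact Finset.mem_image_of_mem _ hγS
      obtain ⟨h3, h4⟩ := hθ γ ⟨χ, hγχ⟩
      by_cases heq : (χ : alternatingGroup α → ℂ) = θ γ
      · rw [heq]; exact h2
      · have h5 := AltClif.restrict_eq_add index_two (isIrr_ch hγ.1 hγ.2.1) hv χ.2 h3 heq hγχ h4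
        have h6 : pRegularPart p (χ : alternatingGroup α → ℂ) =
            Phi α p γ - pRegularPart p (θ γ) := by
          rw [Phi_eq, h5]
          funext a
          simp only [pRegularPart, Pi.sub_apply, Pi.add_apply]
          split_ifs <;> simp
        rw [h6]
        exact Submodule.sub_mem _ h1 h2
    · push Not at hv
      obtain ⟨y, hy, hne⟩ := hv
      have h2 := HKS.CosetTwo.isIrr_restrict index_two (isIrr_ch hγ.1 hγ.2.1) hy hne
      have h3 := AltClif.eq_of_irr_constituent h2 χ.2 hγχ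
      rw [h3, ← Phi_eq]
      exact h1
  unfold blockRank
  refine le_trans (Submodule.finrank_mono (t := Submodule.span ℂ
    ((T ∪ T' : Finset (alternatingGroup α → ℂ)) : Set (alternatingGroup α → ℂ))) ?_) ?_
  · rw [Submodule.span_le]
    rintro _ ⟨χ, hχ, rfl⟩
    exact hmem χ hχ
  · refine (finrank_span_finset_le_card _).trans ?_
    refine (Finset.card_union_le _ _).trans ?_
    omega

/-- Every irreducible character of the alternating group lies under some `ch β`. -/
theorem exists_beta (hm : Fintype.card α ≤ m) (χ : IrrCharacter (alternatingGroup α)) :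
    ∃ β : Fin m → ℕ, StrictMono β ∧ ∑ i, β i = Fintype.card α + ∑ i : Fin m, (i : ℕ) ∧
      classInner (fun a : alternatingGroup α => ch α β a) (χ : alternatingGroup α → ℂ) ≠ 0 := by
  obtain ⟨ψ, hψ⟩ := Blocks.Over.exists_over (alternatingGroup α) χ
  obtain ⟨β, hβ, hs, hψβ⟩ := irr_eq hm ψ.2
  refine ⟨β, hβ, hs, ?_⟩
  rw [← hψβ]; exact hψ

end Cfsg.Agent.H615.AltSpan
end

-- part: H615/AltFour
section
/-!
# The dihedral group of order eight on four points

For `z = (a b)(c d)`:
* `VV z` : the permutations commuting with `z` and fixing the fixed points of `z`; a normal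
  `2`-subgroup of the centralizer of `z` (`isPGroup_VV`);
* `KK z y` : the elementary abelian group generated by `z` and `y = (a c)(b d)`.
-/

set_option autoImplicit false
set_option linter.unusedSectionVars false

namespace Cfsg.Agent.H615.AltFour

open Equiv Equiv.Perm

universe u

variable {α : Type u}

/-- The permutations commuting with `z` and fixing the fixed points of `z`. -/
def VV (z : Perm α) : Subgroup (Perm α) where
  carrier := {g | g * z = z * g ∧ ∀ x, z x = x → g x = x}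
  mul_mem' := by
    rintro g h ⟨hg, hg'⟩ ⟨hh, hh'⟩
    refine ⟨?_, fun x hx => ?_⟩
    · rw [mul_assoc, hh, ← mul_assoc, hg, mul_assoc]
    · rw [Perm.mul_apply, hh' x hx, hg' x hx]
  one_mem' := ⟨by simp, fun x _ => rfl⟩
  inv_mem' := by
    rintro g ⟨hg, hg'⟩
    refine ⟨?_, fun x hx => ?_⟩
    · rw [inv_mul_eq_iff_eq_mul, ← mul_assoc, hg, mul_assoc, mul_inv_cancel, mul_one]
    · rw [Perm.inv_eq_iff_eq, hg' x hx]

theorem mem_VV {z g : Perm α} : g ∈ VV z ↔ g * z = z * g ∧ ∀ x, z x = x → g x = x := Iff.rfl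

theorem VV_le_centralizer (z : Perm α) : VV z ≤ Subgroup.centralizer ({z} : Set (Perm α)) := by
  intro g hg
  rw [Subgroup.mem_centralizer_singleton_iff]
  exact hg.1

theorem conj_mem_VV {z g h : Perm α} (hh : h * z = z * h) (hg : g ∈ VV z) :
    h * g * h⁻¹ ∈ VV z := by
  have hh' : h⁻¹ * z = z * h⁻¹ := by
    rw [inv_mul_eq_iff_eq_mul, ← mul_assoc, hh, mul_assoc, mul_inv_cancel, mul_one]
  refine ⟨?_, fun x hx => ?_⟩
  · rw [mul_assoc, hh', ← mul_assoc, mul_assoc h, hg.1, ← mul_assoc, hh, mul_assoc, mul_assoc,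
      mul_assoc]
  · have h1 : z (h⁻¹ x) = h⁻¹ x := by
      rw [← Perm.mul_apply, ← hh', Perm.mul_apply, hx]
    rw [Perm.mul_apply, Perm.mul_apply, hg.2 _ h1, ← Perm.mul_apply, mul_inv_cancel, Perm.one_apply]

variable [DecidableEq α]

section Points

variable {a b c d : α} (hab : a ≠ b) (hac : a ≠ c) (had : a ≠ d) (hbc : b ≠ c) (hbd : b ≠ d)
  (hcd : c ≠ d)

include hab hac had hbc hbd hcd

theorem z_apply : (swap a b * swap c d) a = b ∧ (swap a b * swap c d) b = a ∧
    (swap a b * swap c d) c = d ∧ (swap a b * swap c d) d = c := by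
  refine ⟨?_, ?_, ?_, ?_⟩
  · rw [Perm.mul_apply, swap_apply_of_ne_of_ne hac had, swap_apply_left]
  · rw [Perm.mul_apply, swap_apply_of_ne_of_ne hbc hbd, swap_apply_right]
  · rw [Perm.mul_apply, swap_apply_left, swap_apply_of_ne_of_ne had.symm hbd.symm]
  · rw [Perm.mul_apply, swap_apply_right, swap_apply_of_ne_of_ne hac.symm hbc.symm]

omit hab hac had hbc hbd hcd in
theorem z_apply_of_ne {x : α} (ha : x ≠ a) (hb : x ≠ b) (hc : x ≠ c) (hd : x ≠ d) :
    (swap a b * swap c d) x = x := by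
  rw [Perm.mul_apply, swap_apply_of_ne_of_ne hc hd, swap_apply_of_ne_of_ne ha hb]

theorem pow_four {g : Perm α} (hg : g ∈ VV (swap a b * swap c d)) : g ^ 4 = 1 := by
  obtain ⟨za, zb, zc, zd⟩ := z_apply hab hac had hbc hbd hcd
  obtain ⟨z, hz⟩ : ∃ z, z = swap a b * swap c d := ⟨_, rfl⟩
  have hne := fun {x : α} => z_apply_of_ne (a := a) (b := b) (c := c) (d := d) (x := x)
  rw [← hz] at hg za zb zc zd
  simp only [← hz] at hne
  have hcomm : ∀ x, g (z x) = z (g x) := fun x => by
    rw [← Perm.mul_apply, hg.1, Perm.mul_apply]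
  have hin : ∀ x, z x ≠ x → g x = a ∨ g x = b ∨ g x = c ∨ g x = d := by
    intro x hx
    by_contra hcon
    push Not at hcon
    have h1 := hne hcon.1 hcon.2.1 hcon.2.2.1 hcon.2.2.2
    rw [← hcomm] at h1
    exact hx (g.injective h1)
  have hgb : g b = z (g a) := by rw [← za, hcomm]
  have hgd : g d = z (g c) := by rw [← zc, hcomm]
  have hga := hin a (by rw [za]; exact hab.symm)
  have hgc := hin c (by rw [zc]; exact hcd.symm)
  have hgac : g a ≠ g c := fun h => hac (g.injective h)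
  have hgbc : g b ≠ g c := fun h => hbc (g.injective h)
  have key : ∀ x, (x = a ∨ x = b ∨ x = c ∨ x = d) → g (g (g (g x))) = x := by
    rcases hga with h1 | h1 | h1 | h1 <;> rcases hgc with h2 | h2 | h2 | h2 <;>
      rw [h1] at hgb hgac <;> rw [h2] at hgd hgac hgbc <;>
      simp only [za, zb, zc, zd] at hgb hgd <;> rw [hgb] at hgbc <;>
      first
        | exact absurd rfl hgac
        | exact absurd rfl hgbc
        | (rintro x (rfl | rfl | rfl | rfl) <;> simp only [h1, h2, hgb, hgd])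
  ext x
  have h4 : (g ^ 4) x = g (g (g (g x))) := rfl
  rw [h4, Perm.one_apply]
  by_cases hx : x = a ∨ x = b ∨ x = c ∨ x = d
  · exact key x hx
  · push Not at hx
    have h5 := hg.2 x (hne hx.1 hx.2.1 hx.2.2.1 hx.2.2.2)
    rw [h5, h5, h5, h5]

theorem isPGroup_VV : IsPGroup 2 (VV (swap a b * swap c d)) := by
  intro g
  refine ⟨2, ?_⟩
  exact Subtype.ext (pow_four hab hac had hbc hbd hcd g.2)

theorem comm : (swap a b * swap c d) * (swap a c * swap b d) =
    (swap a c * swap b d) * (swap a b * swap c d) := by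
  obtain ⟨za, zb, zc, zd⟩ := z_apply hab hac had hbc hbd hcd
  obtain ⟨ya, yc, yb, yd⟩ := z_apply hac hab had hbc.symm hcd hbd
  ext x
  rw [Perm.mul_apply, Perm.mul_apply (swap a c * swap b d)]
  by_cases ha : x = a
  · rw [ha, ya, za, zc, yb]
  by_cases hb : x = b
  · rw [hb, yb, zb, zd, ya]
  by_cases hc : x = c
  · rw [hc, yc, zc, za, yd]
  by_cases hd : x = d
  · rw [hd, yd, zd, zb, yc]
  rw [z_apply_of_ne ha hb hc hd, z_apply_of_ne ha hc hb hd, z_apply_of_ne ha hb hc hd]

theorem z_sq : (swap a b * swap c d) * (swap a b * swap c d) = 1 := by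
  obtain ⟨za, zb, zc, zd⟩ := z_apply hab hac had hbc hbd hcd
  ext x
  rw [Perm.mul_apply, Perm.one_apply]
  by_cases ha : x = a
  · rw [ha, za, zb]
  by_cases hb : x = b
  · rw [hb, zb, za]
  by_cases hc : x = c
  · rw [hc, zc, zd]
  by_cases hd : x = d
  · rw [hd, zd, zc]
  rw [z_apply_of_ne ha hb hc hd, z_apply_of_ne ha hb hc hd]

/-- The elementary abelian group of order four of the four points. -/
theorem exists_four : ∃ E : Subgroup (Perm α), E ≤ VV (swap a b * swap c d) ∧
    (∀ g ∈ E, ∀ h ∈ E, g * h = h * g) ∧ (∀ g ∈ E, g ^ 2 = 1) ∧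
    (∀ [Fintype α], E ≤ alternatingGroup α) ∧ (∀ [Finite α], 4 ≤ Nat.card E) := by
  obtain ⟨za, zb, zc, zd⟩ := z_apply hab hac had hbc hbd hcd
  obtain ⟨ya, yc, yb, yd⟩ := z_apply hac hab had hbc.symm hcd hbd
  have hc := comm hab hac had hbc hbd hcd
  have hz := z_sq hab hac had hbc hbd hcd
  have hy := z_sq hac hab had hbc.symm hcd hbd
  have hyV : swap a c * swap b d ∈ VV (swap a b * swap c d) := by
    refine ⟨hc.symm, fun x hx => ?_⟩
    apply z_apply_of_ne
    · rintro rfl; rw [za] at hx; exact hab hx.symm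
    · rintro rfl; rw [zc] at hx; exact hcd hx.symm
    · rintro rfl; rw [zb] at hx; exact hab hx
    · rintro rfl; rw [zd] at hx; exact hcd hx
  have hzV : swap a b * swap c d ∈ VV (swap a b * swap c d) := ⟨rfl, fun x hx => hx⟩
  have hsign : ∀ [Fintype α], sign (swap a b * swap c d) = 1 ∧ sign (swap a c * swap b d) = 1 := by
    intro _
    rw [Perm.sign_mul, Perm.sign_mul, sign_swap hab, sign_swap hcd, sign_swap hac, sign_swap hbd]
    simp
  have hza' := za
  have hya' := ya
  have hzy : (swap a b * swap c d) ((swap a c * swap b d) a) = d := by rw [ya, zc]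
  obtain ⟨z, hz'⟩ : ∃ z, z = swap a b * swap c d := ⟨_, rfl⟩
  obtain ⟨y, hy'⟩ : ∃ y, y = swap a c * swap b d := ⟨_, rfl⟩
  simp only [← hz', ← hy'] at *
  have hcm : Commute z y := hc
  have hsq : ∀ i j : ℕ, (z ^ i * y ^ j) * (z ^ i * y ^ j) = 1 := by
    intro i j
    have h1 : (z ^ i * y ^ j) * (z ^ i * y ^ j) = (z * z) ^ i * (y * y) ^ j := by
      rw [hcm.pow_pow i j |>.symm.mul_mul_mul_comm, ← (Commute.refl z).mul_pow,
        ← (Commute.refl y).mul_pow]
    rw [h1, hz, hy, one_pow, one_pow, one_mul]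
  refine ⟨{ carrier := {g | ∃ i j : ℕ, g = z ^ i * y ^ j}
            mul_mem' := ?_, one_mem' := ⟨0, 0, by simp⟩, inv_mem' := ?_ }, ?_, ?_, ?_, ?_, ?_⟩
  · rintro _ _ ⟨i, j, rfl⟩ ⟨k, l, rfl⟩
    refine ⟨i + k, j + l, ?_⟩
    rw [(hcm.pow_pow k j).symm.mul_mul_mul_comm, pow_add, pow_add]
  · rintro _ ⟨i, j, rfl⟩
    exact ⟨i, j, inv_eq_of_mul_eq_one_right (hsq i j)⟩
  · rintro _ ⟨i, j, rfl⟩
    exact (VV z).mul_mem ((VV z).pow_mem hzV i) ((VV z).pow_mem hyV j)
  · rintro _ ⟨i, j, rfl⟩ _ ⟨k, l, rfl⟩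
    rw [(hcm.pow_pow k j).symm.mul_mul_mul_comm, (hcm.pow_pow i l).symm.mul_mul_mul_comm, ← pow_add,
      ← pow_add, ← pow_add, ← pow_add, add_comm k i, add_comm l j]
  · rintro _ ⟨i, j, rfl⟩
    rw [pow_two, hsq]
  · intro _
    rintro _ ⟨i, j, rfl⟩
    exact (alternatingGroup α).mul_mem ((alternatingGroup α).pow_mem hsign.1 i)
      ((alternatingGroup α).pow_mem hsign.2 j)
  · intro _
    have h4 : Nat.card (Fin 4) = 4 := by simp
    rw [← h4]
    let f : Fin 4 → Perm α := ![1, z, y, z * y]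
    have hf : ∀ i, ∃ k l : ℕ, f i = z ^ k * y ^ l := by
      intro i
      fin_cases i
      · exact ⟨0, 0, by simp [f]⟩
      · exact ⟨1, 0, by simp [f]⟩
      · exact ⟨0, 1, by simp [f]⟩
      · exact ⟨1, 1, by simp [f]⟩
    refine Nat.card_le_card_of_injective (fun i => ⟨f i, hf i⟩) ?_
    intro i j hij
    have h1 : f i = f j := Subtype.ext_iff.mp hij
    have h2 : f i a = f j a := by rw [h1]
    have h3 : ∀ i, f i a = ![a, b, c, d] i := by
      intro i
      fin_cases i
      · rfl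
      · exact za
      · exact ya
      · exact hzy
    rw [h3, h3] at h2
    fin_cases i <;> fin_cases j <;> simp at h2 ⊢ <;> tauto

end Points

variable [Fintype α]

theorem exists_points (h : 4 ≤ Fintype.card α) : ∃ a b c d : α, a ≠ b ∧ a ≠ c ∧ a ≠ d ∧ b ≠ c ∧
    b ≠ d ∧ c ≠ d := by
  obtain ⟨f⟩ : Nonempty (Fin 4 ↪ α) := by
    rw [Function.Embedding.nonempty_iff_card_le]; simpa using h
  refine ⟨f 0, f 1, f 2, f 3, ?_, ?_, ?_, ?_, ?_, ?_⟩ <;> exact fun h => by
    have := f.injective h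
    simp at this

theorem cycleType_z {a b c d : α} (hab : a ≠ b) (hac : a ≠ c) (had : a ≠ d) (hbc : b ≠ c)
    (hbd : b ≠ d) (hcd : c ≠ d) :
    (swap a b * swap c d).cycleType = Multiset.replicate 2 2 := by
  have hdisj : Disjoint (swap a b) (swap c d) := by
    intro x
    by_cases h1 : x = a
    · right; subst h1; exact swap_apply_of_ne_of_ne hac had
    · by_cases h2 : x = b
      · right; subst h2; exact swap_apply_of_ne_of_ne hbc hbd
      · left; exact swap_apply_of_ne_of_ne h1 h2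
  rw [hdisj.cycleType_mul, (isCycle_swap hab).cycleType, (isCycle_swap hcd).cycleType,
    card_support_swap hab, card_support_swap hcd]
  rfl

end Cfsg.Agent.H615.AltFour
end

-- part: H615/AltDefect
section
/-!
# Defect groups of blocks of alternating groups

`B` a block of the alternating group with defect group `D` containing a constituent of the restriction
of `ch β₀`, `β₀` of weight `w`.

* `eq_bot` : `w = 0 → D = ⊥`;
* `pow_le_odd` : `p ^ w ≤ p ^ s` for `p` odd if `s` bounds the sectional rank of `D`;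
* `pow_le_two` : `2 ^ w ≤ 2 * 2 ^ s` for `p = 2`;
* `four_le` : `4 ≤ 2 ^ s` for `p = 2`, `w = 2`.
-/

set_option autoImplicit false
set_option linter.unusedSectionVars false

namespace Cfsg.Agent.H615.AltDefect

open Finset Cfsg Cfsg.Agent.H614 Cfsg.Agent.H615.AltRefl Cfsg.Agent.H615.AltConj
open Cfsg.Agent.Characters.Core

universe u

variable {α : Type u} [Fintype α] [DecidableEq α] {m : ℕ}

section

variable {p : ℕ} [hp : Fact p.Prime] {M : Ideal AlgInt}

/-- Knörr's theorem for the alternating group. -/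
theorem exists_inf (hM : IsPModular p M)
    {β₀ : Fin m → ℕ} (hβ₀ : StrictMono β₀)
    (hs₀ : ∑ i, β₀ i = Fintype.card α + ∑ i : Fin m, (i : ℕ))
    {B : Set (IrrCharacter (alternatingGroup α))} (hB : IsPBlock M B)
    {χ₀ : IrrCharacter (alternatingGroup α)} (hχ₀ : χ₀ ∈ B)
    (hc₀ : classInner (fun a : alternatingGroup α => ch α β₀ a) (χ₀ : alternatingGroup α → ℂ) ≠ 0)
    {D : Subgroup (alternatingGroup α)} (hD : IsDefectGroup p M B D) :
    ∃ P : Subgroup (Equiv.Perm α), IsDefectGroup p M (blockOf M (ch α β₀)) P ∧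
      P ⊓ alternatingGroup α = D.map (alternatingGroup α).subtype := by
  have hMp : M.IsPrime := hM.2.1.isPrime
  set X₀ : IrrCharacter (Equiv.Perm α) := ⟨ch α β₀, isIrr_ch hβ₀ hs₀⟩ with hX₀
  have hX₀' : X₀ ∈ blockOf M (X₀ : Equiv.Perm α → ℂ) := Blocks.Basic.mem_blockOf_self X₀
  have h1 : (D.map (alternatingGroup α).subtype).subgroupOf (alternatingGroup α) = D :=
    Subgroup.comap_map_eq_self_of_injective (Subgroup.subtype_injective _) D
  exact S4438.result p M hM (alternatingGroup α) B hB (D.map (alternatingGroup α).subtype)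
    (Subgroup.map_subtype_le D) (by rw [h1]; exact hD) (blockOf M (X₀ : Equiv.Perm α → ℂ))
    (Blocks.Basic.isPBlock_blockOf X₀) ⟨X₀, hX₀', χ₀, hχ₀, hc₀⟩

theorem eq_bot (hM : IsPModular p M) (hm : Fintype.card α ≤ m)
    {β₀ : Fin m → ℕ} (hβ₀ : StrictMono β₀)
    (hs₀ : ∑ i, β₀ i = Fintype.card α + ∑ i : Fin m, (i : ℕ))
    {B : Set (IrrCharacter (alternatingGroup α))} (hB : IsPBlock M B)
    {χ₀ : IrrCharacter (alternatingGroup α)} (hχ₀ : χ₀ ∈ B)
    (hc₀ : classInner (fun a : alternatingGroup α => ch α β₀ a) (χ₀ : alternatingGroup α → ℂ) ≠ 0)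
    {D : Subgroup (alternatingGroup α)} (hD : IsDefectGroup p M B D)
    (hw : ∑ j, β₀ j / p = npairs p β₀) : D = ⊥ := by
  have hMp : M.IsPrime := hM.2.1.isPrime
  obtain ⟨P, hP, hPD⟩ := exists_inf hM hβ₀ hs₀ hB hχ₀ hc₀ hD
  set X₀ : IrrCharacter (Equiv.Perm α) := ⟨ch α β₀, isIrr_ch hβ₀ hs₀⟩ with hX₀
  have hX₀' : X₀ ∈ blockOf M (ch α β₀) := Blocks.Basic.mem_blockOf_self X₀
  have h1 := defect_eq_bot hM hm (Blocks.Basic.isPBlock_blockOf X₀) hβ₀ hs₀ hX₀' rfl hw hP
  rw [h1, bot_inf_eq] at hPD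
  exact (Subgroup.map_eq_bot_iff_of_injective _ (Subgroup.subtype_injective _)).mp hPD.symm

/-- Elementary abelian subgroups of the defect group of the covering block. -/
theorem card_inf_le {P : Subgroup (Equiv.Perm α)} {D : Subgroup (alternatingGroup α)}
    (hPD : P ⊓ alternatingGroup α = D.map (alternatingGroup α).subtype) {s : ℕ}
    (hrank : SectionalPRankLE p s D) {E : Subgroup (Equiv.Perm α)} (hE : E ≤ P)
    (hc : ∀ a ∈ E, ∀ b ∈ E, a * b = b * a) (he : ∀ a ∈ E, a ^ p = 1) :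
    Nat.card (E ⊓ alternatingGroup α : Subgroup (Equiv.Perm α)) ≤ p ^ s := by
  have h1 : E.subgroupOf (alternatingGroup α) ≤ D := by
    intro a ha
    have h2 : (a : Equiv.Perm α) ∈ P ⊓ alternatingGroup α := ⟨hE ha, a.2⟩
    rw [hPD] at h2
    obtain ⟨d, hd, hda⟩ := h2
    rw [← Subtype.ext hda]
    exact hd
  have h2 : Nat.card (E ⊓ alternatingGroup α : Subgroup (Equiv.Perm α)) =
      Nat.card ((E.subgroupOf (alternatingGroup α)).subgroupOf D) := by
    rw [Nat.card_congr (Subgroup.subgroupOfEquivOfLe h1).toEquiv, ← Subgroup.inf_subgroupOf_right,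
      Nat.card_congr (Subgroup.subgroupOfEquivOfLe inf_le_right).toEquiv]
  rw [h2]
  apply card_le_of_sectional hrank
  · intro a ha b hb
    apply Subtype.ext
    apply Subtype.ext
    exact hc _ ha _ hb
  · intro a ha
    apply Subtype.ext
    apply Subtype.ext
    exact he _ ha

/-- A subgroup of index at most two in a group of permutations. -/
theorem card_le_two_mul (E : Subgroup (Equiv.Perm α)) :
    Nat.card E ≤ 2 * Nat.card (E ⊓ alternatingGroup α : Subgroup (Equiv.Perm α)) := by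
  have h1 := Subgroup.card_mul_index ((alternatingGroup α).subgroupOf E)
  have h2 : ((alternatingGroup α).subgroupOf E).index ≤ 2 := by
    have h3 : (alternatingGroup α).relIndex E ∣ (alternatingGroup α).index :=
      Subgroup.relIndex_dvd_index_of_normal _ _
    rcases subsingleton_or_nontrivial α with h | h
    · have h4 : (alternatingGroup α).index = 1 := by
        rw [Subgroup.index_eq_one]
        ext g
        simp [Subsingleton.elim g 1]
      rw [h4] at h3
      exact (Nat.le_of_dvd one_pos h3).trans (by norm_num)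
    · rw [alternatingGroup.index_eq_two] at h3
      exact Nat.le_of_dvd two_pos h3
  have h3 : Nat.card ((alternatingGroup α).subgroupOf E) =
      Nat.card (E ⊓ alternatingGroup α : Subgroup (Equiv.Perm α)) := by
    rw [← Subgroup.inf_subgroupOf_right, inf_comm,
      Nat.card_congr (Subgroup.subgroupOfEquivOfLe inf_le_left).toEquiv]
  rw [← h1, h3, mul_comm]
  exact Nat.mul_le_mul_right _ h2

/-- A conjugate of the group generated by the cycles of `z` lies in the defect group. -/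
theorem exists_cyc (hM : IsPModular p M)
    {β₀ : Fin m → ℕ} (hβ₀ : StrictMono β₀)
    (hs₀ : ∑ i, β₀ i = Fintype.card α + ∑ i : Fin m, (i : ℕ)) {w : ℕ}
    (hw : ∑ j, β₀ j / p = w + npairs p β₀) {P : Subgroup (Equiv.Perm α)}
    (hP : IsDefectGroup p M (blockOf M (ch α β₀)) P) :
    ∃ E : Subgroup (Equiv.Perm α), E ≤ P ∧ (∀ a ∈ E, ∀ b ∈ E, a * b = b * a) ∧
      (∀ a ∈ E, a ^ p = 1) ∧ p ^ w ≤ Nat.card E := by
  have hMp : M.IsPrime := hM.2.1.isPrime
  set X₀ : IrrCharacter (Equiv.Perm α) := ⟨ch α β₀, isIrr_ch hβ₀ hs₀⟩ with hX₀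
  have hX₀' : X₀ ∈ blockOf M (ch α β₀) := Blocks.Basic.mem_blockOf_self X₀
  obtain ⟨h1, h2⟩ := ch_ne_zero (α := α) hβ₀ hs₀ hw
  obtain ⟨z, hz⟩ := exists_cycleType (α := α) h1
  have hzp := pow_eq_one_of_cycleType hz
  have hPg : IsPGroup p (cyc z) := by
    intro g
    refine ⟨1, ?_⟩
    rw [pow_one]
    exact Subtype.ext (cyc_pow hzp g.2)
  have hn : ((cyc z).subgroupOf (Subgroup.centralizer ({z} : Set (Equiv.Perm α)))).Normal := by
    constructor
    intro g hg h
    rw [Subgroup.mem_subgroupOf] at hg ⊢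
    exact conj_mem_cyc (Subgroup.mem_centralizer_singleton_iff.mp h.2) hg
  have hx : ∃ k : ℕ, orderOf z = p ^ k := by
    have h3 := orderOf_dvd_of_pow_eq_one hzp
    rcases (Nat.dvd_prime hp.out).mp h3 with h | h
    · exact ⟨0, by simpa using h⟩
    · exact ⟨1, by simpa using h⟩
  obtain ⟨g, hg⟩ := le_defect_of_normal hM hx (Blocks.Basic.isPBlock_blockOf X₀) hX₀' (h2 z hz) hPg
    (cyc_le_centralizer z) hn hP
  refine ⟨_, hg, ?_, ?_, ?_⟩
  · rintro _ ⟨a, ha, rfl⟩ _ ⟨b, hb, rfl⟩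
    rw [← map_mul, ← map_mul, cyc_comm ha hb]
  · rintro _ ⟨a, ha, rfl⟩
    rw [← map_pow, cyc_pow hzp ha, map_one]
  · refine (pow_le_card_cyc hz).trans (le_of_eq ?_)
    exact Nat.card_congr ((cyc z).equivMapOfInjective _ (MulAut.conj g).injective).toEquiv

variable {β₀ : Fin m → ℕ} {B : Set (IrrCharacter (alternatingGroup α))}
  {χ₀ : IrrCharacter (alternatingGroup α)} {D : Subgroup (alternatingGroup α)}

theorem pow_le_odd (hM : IsPModular p M) (hodd : p ≠ 2) (hβ₀ : StrictMono β₀)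
    (hs₀ : ∑ i, β₀ i = Fintype.card α + ∑ i : Fin m, (i : ℕ)) (hB : IsPBlock M B)
    (hχ₀ : χ₀ ∈ B)
    (hc₀ : classInner (fun a : alternatingGroup α => ch α β₀ a) (χ₀ : alternatingGroup α → ℂ) ≠ 0)
    (hD : IsDefectGroup p M B D) {w : ℕ} (hw : ∑ j, β₀ j / p = w + npairs p β₀) {s : ℕ}
    (hrank : SectionalPRankLE p s D) : p ^ w ≤ p ^ s := by
  obtain ⟨P, hP, hPD⟩ := exists_inf hM hβ₀ hs₀ hB hχ₀ hc₀ hD
  obtain ⟨E, hE, hcomm, hexp, hcard⟩ := exists_cyc hM hβ₀ hs₀ hw hP
  refine hcard.trans ?_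
  have h1 : E ≤ alternatingGroup α := by
    intro a ha
    rw [Equiv.Perm.mem_alternatingGroup]
    have h2 := congrArg Equiv.Perm.sign (hexp a ha)
    rw [map_pow, map_one] at h2
    rcases Int.units_eq_one_or (Equiv.Perm.sign a) with h3 | h3
    · exact h3
    · rw [h3, (hp.out.odd_of_ne_two hodd).neg_one_pow] at h2
      exact absurd h2 (by decide)
  have h2 := card_inf_le hPD hrank hE hcomm hexp
  rwa [inf_eq_left.mpr h1] at h2

theorem pow_le_two (hM : IsPModular p M) (hβ₀ : StrictMono β₀)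
    (hs₀ : ∑ i, β₀ i = Fintype.card α + ∑ i : Fin m, (i : ℕ)) (hB : IsPBlock M B)
    (hχ₀ : χ₀ ∈ B)
    (hc₀ : classInner (fun a : alternatingGroup α => ch α β₀ a) (χ₀ : alternatingGroup α → ℂ) ≠ 0)
    (hD : IsDefectGroup p M B D) {w : ℕ} (hw : ∑ j, β₀ j / p = w + npairs p β₀) {s : ℕ}
    (hrank : SectionalPRankLE p s D) : p ^ w ≤ 2 * p ^ s := by
  obtain ⟨P, hP, hPD⟩ := exists_inf hM hβ₀ hs₀ hB hχ₀ hc₀ hD
  obtain ⟨E, hE, hcomm, hexp, hcard⟩ := exists_cyc hM hβ₀ hs₀ hw hP
  exact hcard.trans ((card_le_two_mul E).trans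
    (Nat.mul_le_mul_left 2 (card_inf_le hPD hrank hE hcomm hexp)))

theorem one_le (hD1 : D ≠ ⊥) (hM : IsPModular p M) (hD : IsDefectGroup p M B D) {s : ℕ}
    (hrank : SectionalPRankLE p s D) : p ≤ p ^ s := by
  have hpg := Blocks.Basic.isPGroup_of_isDefectGroup hD
  have hcard : p ∣ Nat.card D := by
    obtain ⟨k, hk⟩ := IsPGroup.iff_card.mp hpg
    rcases Nat.eq_zero_or_pos k with h | h
    · rw [h, pow_zero] at hk
      exact absurd (Subgroup.card_eq_one.mp hk) hD1
    · rw [hk]; exact dvd_pow_self p h.ne'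
  obtain ⟨x, hx⟩ := exists_prime_orderOf_dvd_card' (G := D) p hcard
  have h1 := card_le_of_sectional hrank (E := Subgroup.zpowers x) ?_ ?_
  · rwa [Nat.card_zpowers, hx] at h1
  · rintro _ ⟨i, rfl⟩ _ ⟨j, rfl⟩
    exact (Commute.refl x).zpow_zpow i j
  · rintro _ ⟨i, rfl⟩
    simp only
    rw [← zpow_natCast, ← zpow_mul, mul_comm, zpow_mul, zpow_natCast, ← hx, pow_orderOf_eq_one,
      one_zpow]

end

section Two

variable {M : Ideal AlgInt} {β₀ : Fin m → ℕ} {B : Set (IrrCharacter (alternatingGroup α))}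
  {χ₀ : IrrCharacter (alternatingGroup α)} {D : Subgroup (alternatingGroup α)}

theorem four_le (hM : IsPModular 2 M) (hβ₀ : StrictMono β₀)
    (hs₀ : ∑ i, β₀ i = Fintype.card α + ∑ i : Fin m, (i : ℕ)) (hB : IsPBlock M B)
    (hχ₀ : χ₀ ∈ B)
    (hc₀ : classInner (fun a : alternatingGroup α => ch α β₀ a) (χ₀ : alternatingGroup α → ℂ) ≠ 0)
    (hD : IsDefectGroup 2 M B D) (hw : ∑ j, β₀ j / 2 = 2 + npairs 2 β₀) {s : ℕ}
    (hrank : SectionalPRankLE 2 s D) : 4 ≤ 2 ^ s := by
  have : Fact (Nat.Prime 2) := ⟨Nat.prime_two⟩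
  have hMp : M.IsPrime := hM.2.1.isPrime
  obtain ⟨P, hP, hPD⟩ := exists_inf hM hβ₀ hs₀ hB hχ₀ hc₀ hD
  set X₀ : IrrCharacter (Equiv.Perm α) := ⟨ch α β₀, isIrr_ch hβ₀ hs₀⟩ with hX₀
  have hX₀' : X₀ ∈ blockOf M (ch α β₀) := Blocks.Basic.mem_blockOf_self X₀
  obtain ⟨h1, h2⟩ := ch_ne_zero (α := α) hβ₀ hs₀ hw
  obtain ⟨a, b, c, d, hab, hac, had, hbc, hbd, hcd⟩ := AltFour.exists_points (α := α) (by omega)
  have hz := AltFour.cycleType_z hab hac had hbc hbd hcd
  have hPg := AltFour.isPGroup_VV hab hac had hbc hbd hcd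
  obtain ⟨E, hEV, hcomm, hexp, hEA, hcard⟩ := AltFour.exists_four hab hac had hbc hbd hcd
  obtain ⟨z, hz'⟩ : ∃ z, z = Equiv.swap a b * Equiv.swap c d := ⟨_, rfl⟩
  rw [← hz'] at hz hPg hEV
  have hn : ((AltFour.VV z).subgroupOf (Subgroup.centralizer ({z} : Set (Equiv.Perm α)))).Normal := by
    constructor
    intro g hg h
    rw [Subgroup.mem_subgroupOf] at hg ⊢
    exact AltFour.conj_mem_VV (Subgroup.mem_centralizer_singleton_iff.mp h.2) hg
  have hx : ∃ k : ℕ, orderOf z = 2 ^ k := by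
    have h3 := orderOf_dvd_of_pow_eq_one (pow_eq_one_of_cycleType hz)
    rcases (Nat.dvd_prime Nat.prime_two).mp h3 with h | h
    · exact ⟨0, by simpa using h⟩
    · exact ⟨1, by simpa using h⟩
  obtain ⟨g, hg⟩ := le_defect_of_normal hM hx (Blocks.Basic.isPBlock_blockOf X₀) hX₀' (h2 z hz) hPg
    (AltFour.VV_le_centralizer z) hn hP
  have hE' : E.map (MulAut.conj g).toMonoidHom ≤ P := (Subgroup.map_mono hEV).trans hg
  have h3 := card_inf_le hPD hrank hE' ?_ ?_
  · have h4 : E.map (MulAut.conj g).toMonoidHom ≤ alternatingGroup α := by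
      rintro _ ⟨x, hx, rfl⟩
      exact (inferInstance : (alternatingGroup α).Normal).conj_mem x (hEA hx) g
    rw [inf_eq_left.mpr h4, ← Nat.card_congr
      (E.equivMapOfInjective _ (MulAut.conj g).injective).toEquiv] at h3
    exact hcard.trans h3
  · rintro _ ⟨a, ha, rfl⟩ _ ⟨b, hb, rfl⟩
    rw [← map_mul, ← map_mul, hcomm a ha b hb]
  · rintro _ ⟨a, ha, rfl⟩
    rw [← map_pow, hexp a ha, map_one]

end Two

end Cfsg.Agent.H615.AltDefect
end

-- part: H615/AltSelf
section
/-!
# The number of self-reflected tuples of a given colour and weight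

`card_self_le` : it is at most `scb p w = ∑_{2 v ≤ w} cc (p / 2) v * cc (p % 2) (w - 2 v)`.
-/

set_option autoImplicit false
set_option linter.unusedSectionVars false

namespace Cfsg.Agent.H615.AltSelf

open Finset Cfsg.Agent.H614 Cfsg.Agent.H615.AltRefl Cfsg.Agent.H615.AltConj
open Cfsg.Agent.H615.AltCount

variable {m : ℕ}

/-- The bound for the number of self-conjugate partitions of weight `w` with a given core. -/
def scb (p w : ℕ) : ℕ := ∑ v ∈ range (w / 2 + 1), cc (p / 2) v * cc (p % 2) (w - 2 * v)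

/-- The runners below the middle. -/
def I1 (p : ℕ) : Finset ℕ := (range p).filter (fun i => 2 * i + 1 < p)

/-- The middle runner. -/
def I2 (p : ℕ) : Finset ℕ := (range p).filter (fun i => 2 * i + 1 = p)

/-- The runners above the middle. -/
def I3 (p : ℕ) : Finset ℕ := (range p).filter (fun i => p < 2 * i + 1)

theorem card_I1 (p : ℕ) : (I1 p).card = p / 2 := by
  have h : I1 p = range (p / 2) := by
    ext i
    simp only [I1, Finset.mem_filter, Finset.mem_range]
    omega
  rw [h, Finset.card_range]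

theorem card_I2 (p : ℕ) : (I2 p).card = p % 2 := by
  rcases Nat.mod_two_eq_zero_or_one p with h | h
  · rw [h, Finset.card_eq_zero]
    ext i
    simp only [I2, Finset.mem_filter, Finset.mem_range, Finset.notMem_empty, iff_false]
    omega
  · rw [h, Finset.card_eq_one]
    refine ⟨p / 2, ?_⟩
    ext i
    simp only [I2, Finset.mem_filter, Finset.mem_range, Finset.mem_singleton]
    omega

theorem union_I (p : ℕ) : (I1 p ∪ I2 p) ∪ I3 p = range p := by
  ext i
  simp only [I1, I2, I3, Finset.mem_union, Finset.mem_filter, Finset.mem_range]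
  omega

theorem card_filter_image {p : ℕ} {γ : Fin m → ℕ} (hγ : Function.Injective γ) {I : Finset ℕ}
    {i : ℕ} (hi : i ∈ I) :
    #{b ∈ (univ.image γ).filter (fun b => b % p ∈ I) | b % p = i} = res p γ i := by
  unfold res
  rw [← Finset.card_image_of_injective _ hγ]
  congr 1
  ext b
  simp only [Finset.mem_image, Finset.mem_filter, Finset.mem_univ, true_and]
  constructor
  · rintro ⟨⟨⟨j, rfl⟩, _⟩, hj⟩
    exact ⟨j, hj, rfl⟩
  · rintro ⟨j, hj, rfl⟩
    exact ⟨⟨⟨j, rfl⟩, by rw [hj]; exact hi⟩, hj⟩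

/-- **The number of self-reflected tuples.** -/
theorem card_self_le {p : ℕ} (hp : 0 < p) (hN : p ∣ m + m) (β₀ : Fin m → ℕ) (w : ℕ)
    (S : Finset (Fin m → ℕ)) (hS : ∀ γ ∈ S, StrictMono γ ∧ IsRefl γ γ ∧ SameCol p β₀ γ ∧
      ∑ j, γ j / p = w + npairs p γ) : S.card ≤ scb p w := by
  classical
  set N := m + m with hNdef
  -- the bead sets
  have hrefl : ∀ γ ∈ S, ∀ b < N, (b ∈ univ.image γ ↔ N - 1 - b ∉ univ.image γ) := by
    intro γ hγ b hb
    have h1 := (hS γ hγ).2.1.iff b hb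
    simpa using h1
  have hinv : ∀ γ ∈ S, 2 * inv N p (I1 p) (univ.image γ) + inv N p (I2 p) (univ.image γ) = w := by
    intro γ hγ
    obtain ⟨h1, h2, h3, h4⟩ := hS γ hγ
    have h5 := sum_div_eq (N := N) hp h1.injective h2.lt (S := univ.image γ) (I := range p) (by
      intro b
      simp only [Finset.mem_image, Finset.mem_univ, true_and, Finset.mem_range]
      exact ⟨fun h => ⟨h, Nat.mod_lt _ hp⟩, fun h => h.1⟩)
    have h6 : inv N p (range p) (univ.image γ) = w := by omega
    rw [← union_I, inv_union, inv_union] at h6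
    · have h7 : inv N p (I1 p) (univ.image γ) = inv N p (I3 p) (univ.image γ) := by
        apply inv_refl hp hN (hrefl γ hγ)
        intro i hi
        simp only [I1, I3, Finset.mem_filter, Finset.mem_range]
        omega
      omega
    · rw [Finset.disjoint_left]
      intro i
      simp only [I1, I2, Finset.mem_filter, Finset.mem_range]
      omega
    · rw [Finset.disjoint_left]
      intro i
      simp only [I1, I2, I3, Finset.mem_filter, Finset.mem_range, Finset.mem_union]
      omega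
  let F1 : (Fin m → ℕ) → Finset ℕ := fun γ => (univ.image γ).filter (fun b => b % p ∈ I1 p)
  let F2 : (Fin m → ℕ) → Finset ℕ := fun γ => (univ.image γ).filter (fun b => b % p ∈ I2 p)
  have hmod : ∀ b < N, (N - 1 - b) % p = p - 1 - b % p := by
    intro b hb
    obtain ⟨K, hK⟩ := hN
    have h2 := Nat.div_add_mod b p
    have h3 := Nat.mod_lt b hp
    have hdiv : b / p < K := by
      by_contra hcon
      push Not at hcon
      have := Nat.mul_le_mul_left p hcon
      omega
    obtain ⟨L, hL⟩ : ∃ L, K = b / p + 1 + L := ⟨K - (b / p + 1), by omega⟩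
    have h4 : N - 1 - b = p * L + (p - 1 - b % p) := by
      rw [hL] at hK
      have h5 : p * (b / p + 1 + L) = p * (b / p) + p + p * L := by ring
      omega
    rw [h4, Nat.mul_add_mod, Nat.mod_eq_of_lt (by omega)]
  have hinj : Set.InjOn (fun γ => (F1 γ, F2 γ)) S := by
    intro γ hγ γ' hγ' h
    obtain ⟨h1, h2⟩ := Prod.ext_iff.mp h
    simp only at h1 h2
    have hm1 : ∀ b, b % p ∈ I1 p → (b ∈ univ.image γ ↔ b ∈ univ.image γ') := by
      intro b hb
      have h3 : b ∈ F1 γ ↔ b ∈ F1 γ' := by rw [h1]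
      simp only [F1, Finset.mem_filter, hb, and_true] at h3
      exact h3
    have hm2 : ∀ b, b % p ∈ I2 p → (b ∈ univ.image γ ↔ b ∈ univ.image γ') := by
      intro b hb
      have h3 : b ∈ F2 γ ↔ b ∈ F2 γ' := by rw [h2]
      simp only [F2, Finset.mem_filter, hb, and_true] at h3
      exact h3
    apply (StrictMono.range_inj (hS γ hγ).1 (hS γ' hγ').1).mp
    ext b
    have hb1 : b ∈ Set.range γ ↔ b ∈ univ.image γ := by simp
    have hb2 : b ∈ Set.range γ' ↔ b ∈ univ.image γ' := by simp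
    rw [hb1, hb2]
    by_cases hbN : b < N
    · have hb3 := Nat.mod_lt b hp
      rcases lt_trichotomy (2 * (b % p) + 1) p with h3 | h3 | h3
      · exact hm1 b (by simp only [I1, Finset.mem_filter, Finset.mem_range]; exact ⟨hb3, h3⟩)
      · exact hm2 b (by simp only [I2, Finset.mem_filter, Finset.mem_range]; exact ⟨hb3, h3⟩)
      · rw [hrefl γ hγ b hbN, hrefl γ' hγ' b hbN, hm1 (N - 1 - b)]
        rw [hmod b hbN]
        simp only [I1, Finset.mem_filter, Finset.mem_range]
        omega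
    · rw [← hb1, ← hb2]
      constructor
      · rintro ⟨j, rfl⟩; exact absurd ((hS γ hγ).2.1.lt j) hbN
      · rintro ⟨j, rfl⟩; exact absurd ((hS γ' hγ').2.1.lt j) hbN
  rw [Finset.card_eq_sum_card_fiberwise (f := fun γ => inv N p (I1 p) (univ.image γ))
    (t := range (w / 2 + 1))]
  swap
  · intro γ hγ
    have := hinv γ hγ
    rw [Finset.mem_coe, Finset.mem_range]
    simp only
    omega
  unfold scb
  refine Finset.sum_le_sum fun v hv => ?_
  set Sv := S.filter (fun γ => inv N p (I1 p) (univ.image γ) = v) with hSv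
  have hSvS : ∀ γ ∈ Sv, γ ∈ S ∧ inv N p (I1 p) (univ.image γ) = v := fun γ hγ =>
    Finset.mem_filter.mp hγ
  have h1 : Sv.card = (Sv.image (fun γ => (F1 γ, F2 γ))).card := by
    rw [Finset.card_image_of_injOn]
    exact hinj.mono (fun γ hγ => (hSvS γ hγ).1)
  have h2 : Sv.image (fun γ => (F1 γ, F2 γ)) ⊆ Sv.image F1 ×ˢ Sv.image F2 := by
    intro x hx
    obtain ⟨γ, hγ, rfl⟩ := Finset.mem_image.mp hx
    rw [Finset.mem_product]
    exact ⟨Finset.mem_image_of_mem _ hγ, Finset.mem_image_of_mem _ hγ⟩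
  rw [h1]
  refine (Finset.card_le_card h2).trans ?_
  rw [Finset.card_product]
  have hsub : ∀ γ ∈ S, ∀ b ∈ univ.image γ, b < N := by
    intro γ hγ b hb
    obtain ⟨j, -, rfl⟩ := Finset.mem_image.mp hb
    exact (hS γ hγ).2.1.lt j
  apply Nat.mul_le_mul
  · rw [← card_I1]
    apply card_sets_le (N := N) hp (I1 p) v (res p β₀)
    intro T hT
    obtain ⟨γ, hγ, rfl⟩ := Finset.mem_image.mp hT
    obtain ⟨hγS, hγv⟩ := hSvS γ hγ
    refine ⟨?_, ?_, ?_, ?_⟩
    · intro b hb
      exact Finset.mem_range.mpr (hsub γ hγS b (Finset.mem_filter.mp hb).1)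
    · intro b hb
      exact (Finset.mem_filter.mp hb).2
    · intro i hi
      rw [(hS γ hγS).2.2.1 i]
      exact card_filter_image (hS γ hγS).1.injective hi
    · rw [← hγv]
      exact inv_filter N p (I1 p) (univ.image γ)
  · rw [← card_I2]
    apply card_sets_le (N := N) hp (I2 p) (w - 2 * v) (res p β₀)
    intro T hT
    obtain ⟨γ, hγ, rfl⟩ := Finset.mem_image.mp hT
    obtain ⟨hγS, hγv⟩ := hSvS γ hγ
    refine ⟨?_, ?_, ?_, ?_⟩
    · intro b hb
      exact Finset.mem_range.mpr (hsub γ hγS b (Finset.mem_filter.mp hb).1)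
    · intro b hb
      exact (Finset.mem_filter.mp hb).2
    · intro i hi
      rw [(hS γ hγS).2.2.1 i]
      exact card_filter_image (hS γ hγS).1.injective hi
    · have h3 := hinv γ hγS
      have h4 : inv N p (I2 p) (univ.image γ) = w - 2 * v := by omega
      rw [← h4]
      exact inv_filter N p (I2 p) (univ.image γ)

end Cfsg.Agent.H615.AltSelf
end

-- part: H615/AltNum
section
/-!
# Numerical inequalities for the blocks of the alternating groups
-/

set_option autoImplicit false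

namespace Cfsg.Agent.H615.AltNum

open Finset Cfsg.Agent.H615.AltCount Cfsg.Agent.H615.AltSelf

/-- The sum in `scb` for odd primes. -/
def sb (r w : ℕ) : ℕ := ∑ v ∈ range (w / 2 + 1), cc r v * cc 1 (w - 2 * v)

theorem cc_succ_le (r v : ℕ) : cc r (v + 1) ≤ (r + 1) * cc r v := by
  cases v with
  | zero => simp [cc]
  | succ v => simp only [cc]; rw [pow_succ]; exact le_of_eq (by ring)

theorem cc_one_succ (v : ℕ) : cc 1 (v + 1) = 2 ^ v := by simp [cc]

theorem sb_step (r w : ℕ) : sb r (w + 2) ≤ 2 ^ (w + 1) + (r + 1) * sb r w := by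
  unfold sb
  have h1 : (w + 2) / 2 + 1 = (w / 2 + 1) + 1 := by omega
  rw [h1, Finset.sum_range_succ', Finset.mul_sum]
  have h2 : cc r 0 * cc 1 (w + 2 - 2 * 0) = 2 ^ (w + 1) := by
    rw [Nat.mul_zero, Nat.sub_zero, show w + 2 = (w + 1) + 1 from rfl, cc_one_succ]
    simp [cc]
  rw [h2, add_comm]
  apply Nat.add_le_add_left
  refine Finset.sum_le_sum fun v _ => ?_
  have h3 : w + 2 - 2 * (v + 1) = w - 2 * v := by omega
  rw [h3, ← mul_assoc]
  exact Nat.mul_le_mul_right _ (cc_succ_le r v)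

theorem sb_two (r : ℕ) : sb r 2 = r + 2 := by
  simp [sb, Finset.sum_range_succ, cc]; ring

theorem sb_one (r : ℕ) : sb r 1 = 1 := by
  simp [sb, cc]

theorem sb_three (r : ℕ) : sb r 3 = r + 4 := by
  simp [sb, Finset.sum_range_succ, cc]; ring

theorem sb_lt {r : ℕ} (hr : 1 ≤ r) (w : ℕ) (hw : 3 ≤ w) : sb r w < (2 * r + 1) ^ (w - 1) := by
  induction w using Nat.strong_induction_on with
  | _ w ih =>
  by_cases h3 : w = 3
  · subst h3
    rw [sb_three]
    norm_num
    nlinarith
  by_cases h4 : w = 4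
  · subst h4
    have h := sb_step r 2
    rw [sb_two] at h
    norm_num at h ⊢
    nlinarith [sq_nonneg r]
  obtain ⟨u, rfl⟩ : ∃ u, w = u + 2 := ⟨w - 2, by omega⟩
  have h := sb_step r u
  have h1 := ih u (by omega) (by omega)
  obtain ⟨t, rfl⟩ : ∃ t, u = t + 1 := ⟨u - 1, by omega⟩
  have e1 : t + 1 - 1 = t := by omega
  have e2 : t + 1 + 2 - 1 = t + 2 := by omega
  rw [e1] at h1
  rw [e2]
  have h2 : 2 ^ t ≤ (2 * r + 1) ^ t := Nat.pow_le_pow_left (by omega) t
  have h5 : (2 : ℕ) ^ (t + 1 + 1) = 4 * 2 ^ t := by rw [pow_add, pow_add]; ring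
  have h6 : (2 * r + 1) ^ (t + 2) = (2 * r + 1) ^ 2 * (2 * r + 1) ^ t := by rw [pow_add]; ring
  rw [h5] at h
  rw [h6]
  generalize (2 * r + 1) ^ t = x at *
  generalize (2 : ℕ) ^ t = y at *
  generalize sb r (t + 1) = z at *
  have h7 : (r + 1) * z ≤ (r + 1) * x := Nat.mul_le_mul_left _ h1.le
  have h8 : 0 < x := by omega
  have h9 : 4 * x + (r + 1) * x < (2 * r + 1) ^ 2 * x := by
    have : 4 * x + (r + 1) * x = (r + 5) * x := by ring
    rw [this]
    apply Nat.mul_lt_mul_of_pos_right _ h8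
    nlinarith
  omega

theorem scb_odd {p : ℕ} (hp : p % 2 = 1) (w : ℕ) : scb p w = sb (p / 2) w := by
  unfold scb sb
  rw [hp]

/-- `p` odd. -/
theorem scb_lt {p : ℕ} (hp : p % 2 = 1) (hp3 : 3 ≤ p) {w : ℕ} (hw : 2 ≤ w)
    (hne : ¬ (p = 3 ∧ w = 2)) : scb p w < p ^ (w - 1) := by
  rw [scb_odd hp]
  have h1 : p = 2 * (p / 2) + 1 := by omega
  rcases Nat.lt_or_ge w 3 with h | h
  · have h2 : w = 2 := by omega
    subst h2
    rw [sb_two]
    norm_num
    omega
  · have h2 := sb_lt (r := p / 2) (by omega) w h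
    rwa [← h1] at h2

theorem cc_zero_succ (v : ℕ) : cc 0 (v + 1) = 0 := by simp [cc]

theorem scb_two_le {w : ℕ} (hw : 2 ≤ w) : scb 2 w ≤ 2 ^ (w / 2 - 1) := by
  unfold scb
  have h1 : ∀ v ∈ range (w / 2 + 1), v ≠ w / 2 → cc (2 / 2) v * cc (2 % 2) (w - 2 * v) = 0 := by
    intro v hv hne
    rw [Finset.mem_range] at hv
    obtain ⟨u, hu⟩ : ∃ u, w - 2 * v = u + 1 := ⟨w - 2 * v - 1, by omega⟩
    rw [hu, show 2 % 2 = 0 from rfl, cc_zero_succ, mul_zero]
  rw [Finset.sum_eq_single_of_mem (w / 2) (Finset.mem_range.mpr (by omega)) h1]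
  obtain ⟨u, hu⟩ : ∃ u, w / 2 = u + 1 := ⟨w / 2 - 1, by omega⟩
  rw [hu, show 2 / 2 = 1 from rfl, cc_one_succ, show u + 1 - 1 = u by omega]
  have h2 : cc (2 % 2) (w - 2 * (u + 1)) ≤ 1 := by
    rw [show 2 % 2 = 0 from rfl]
    rcases Nat.eq_zero_or_pos (w - 2 * (u + 1)) with h | h
    · rw [h]; simp [cc]
    · obtain ⟨t, ht⟩ : ∃ t, w - 2 * (u + 1) = t + 1 := ⟨w - 2 * (u + 1) - 1, by omega⟩
      rw [ht, cc_zero_succ]; exact Nat.zero_le _
  calc 2 ^ u * cc (2 % 2) (w - 2 * (u + 1)) ≤ 2 ^ u * 1 := Nat.mul_le_mul_left _ h2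
    _ = 2 ^ u := mul_one _

theorem fib_le (w : ℕ) : Nat.fib (w + 5) ≤ 5 * 2 ^ w := by
  induction w using Nat.strong_induction_on with
  | _ w ih =>
    match w with
    | 0 => decide
    | 1 => decide
    | w + 2 =>
      have h1 := ih (w + 1) (by omega)
      have h2 := ih w (by omega)
      have h3 : Nat.fib (w + 2 + 5) = Nat.fib (w + 5) + Nat.fib (w + 6) := by
        rw [show w + 2 + 5 = (w + 5) + 2 by ring, Nat.fib_add_two]
      have h4 : Nat.fib (w + 6) = Nat.fib (w + 1 + 5) := by congr 1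
      rw [h3, h4]
      rw [pow_succ] at h1 ⊢
      rw [pow_succ]
      omega

/-- `p = 2`. -/
theorem two_lt {w : ℕ} (hw : 3 ≤ w) :
    Fintype.card (Nat.Partition w) + scb 2 w < 2 ^ (w - 1) := by
  have h1 := AltMult.card_partition_le_fib w
  rcases Nat.lt_or_ge w 4 with h | h
  · have h2 : w = 3 := by omega
    subst h2
    have h3 : scb 2 3 = 0 := by decide
    rw [h3]
    have h4 : Nat.fib 4 = 3 := by decide
    norm_num at h1 ⊢
    omega
  · obtain ⟨u, rfl⟩ : ∃ u, w = u + 4 := ⟨w - 4, by omega⟩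
    have h2 := scb_two_le (w := u + 4) (by omega)
    have h3 := fib_le u
    have h4 : u + 4 - 1 = u + 3 := by omega
    have h5 : (u + 4) / 2 - 1 ≤ u + 1 := by omega
    have h6 : 2 ^ ((u + 4) / 2 - 1) ≤ 2 ^ (u + 1) := Nat.pow_le_pow_right two_pos h5
    rw [h4]
    have h7 : (2 : ℕ) ^ (u + 3) = 8 * 2 ^ u := by rw [pow_add]; ring
    have h8 : (2 : ℕ) ^ (u + 1) = 2 * 2 ^ u := by rw [pow_add]; ring
    have h9 : 0 < 2 ^ u := by positivity
    have h10 : u + 4 + 1 = u + 5 := by ring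
    rw [h10] at h1
    omega

theorem two_weight_one : Fintype.card (Nat.Partition 1) + scb 2 1 < 2 := by
  have h1 := AltMult.card_partition_le_fib 1
  have h2 : scb 2 1 = 0 := by decide
  have h3 : Nat.fib (1 + 1) = 1 := by decide
  omega

theorem two_weight_two : Fintype.card (Nat.Partition 2) + scb 2 2 < 4 := by
  have h1 := AltMult.card_partition_le_fib 2
  have h2 : scb 2 2 = 1 := by decide
  have h3 : Nat.fib (2 + 1) = 2 := by decide
  omega

end Cfsg.Agent.H615.AltNum
end

-- part: H615/AltOne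
section
/-!
# Blocks of weight one closed under conjugation of partitions

`weight_one` : an alternating function with raising relations which is invariant under reflection takes
values of weight one (and self-conjugate colour, `p` odd) in a space of dimension at most `(p - 1) / 2`.
-/

set_option autoImplicit false
set_option linter.unusedSectionVars false

namespace Cfsg.Agent.H615.AltOne

open Finset Cfsg.Agent.H614 Cfsg.Agent.H615.AltRefl Cfsg.Agent.H615.AltConj

variable {m : ℕ} {W : Type*} [AddCommGroup W] [Module ℂ W]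

theorem mem_of_hooks {p : ℕ} (hp : 0 < p) {Φ : (Fin m → ℕ) → W} (hΦ : Alt Φ) {c₀ : Fin m → ℕ}
    (hc : Function.Injective c₀) (hc0 : ∑ j, c₀ j / p = npairs p c₀) {γ : Fin m → ℕ}
    (hγ : SameCol p c₀ γ) (hw : ∑ j, γ j / p = 1 + npairs p γ) (K : Submodule ℂ W)
    (hK : ∀ j, p ≤ γ j → Function.Injective (dn γ j p) → Psi Φ p (γ j % p) 1 c₀ ∈ K) : Φ γ ∈ K := by
  have hsum := energy_Psi hΦ γ hw
  rw [one_smul] at hsum
  rw [← hsum]
  refine Submodule.sum_mem _ fun j _ => Submodule.sum_mem _ fun r hr => ?_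
  have hr1 := mem_range.mp hr
  have hle : p * (r + 1) ≤ γ j :=
    le_trans (Nat.mul_le_mul_left _ hr1) (Nat.mul_div_le _ _)
  by_cases hinj : Function.Injective (dn γ j (p * (r + 1)))
  · have hr0 : r = 0 := by
      by_contra hne
      exact not_injective_dn hp hw j hle (by omega) hinj
    subst hr0
    have hle' : p ≤ γ j := by simpa using hle
    have hinj' : Function.Injective (dn γ j p) := by simpa using hinj
    have h1 := sum_div_dn hp γ j hle
    have h2 := npairs_of_mod (dn_mod (dvd_mul_right p (0 + 1)) γ j hle)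
    have h3 := sameCol_dn (dvd_mul_right p (0 + 1)) γ j hle
    obtain ⟨σ, hσ⟩ := exists_perm_of_weight_zero hp hc hinj hc0 (by omega) (hγ.trans h3.symm)
    rw [hσ, Psi_alt hΦ p (γ j % p) (0 + 1), ← Int.cast_smul_eq_zsmul ℂ]
    exact Submodule.smul_mem _ _ (hK j hle' hinj')
  · rw [(Psi_alt hΦ p (γ j % p) (r + 1)).eq_zero_of_not_injective two_torsion_module hinj]
    exact Submodule.zero_mem _

theorem mod_refl {N p : ℕ} (hp : 0 < p) (hN : p ∣ N) {b : ℕ} (hb : b < N) :
    (N - 1 - b) % p = p - 1 - b % p := by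
  obtain ⟨K, hK⟩ := hN
  have h2 := Nat.div_add_mod b p
  have h3 := Nat.mod_lt b hp
  have hdiv : b / p < K := by
    by_contra hcon
    push Not at hcon
    have := Nat.mul_le_mul_left p hcon
    omega
  obtain ⟨L, hL⟩ : ∃ L, K = b / p + 1 + L := ⟨K - (b / p + 1), by omega⟩
  have h4 : N - 1 - b = p * L + (p - 1 - b % p) := by
    rw [hL] at hK
    have h5 : p * (b / p + 1 + L) = p * (b / p) + p + p * L := by ring
    omega
  rw [h4, Nat.mul_add_mod, Nat.mod_eq_of_lt (by omega)]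

theorem mem_span_opposite {p : ℕ} (hp : 0 < p) (hN : p ∣ m + m) {Φ : (Fin m → ℕ) → W}
    (hΦ : Alt Φ) {c₀ : Fin m → ℕ} (hc : Function.Injective c₀)
    (hc0 : ∑ j, c₀ j / p = npairs p c₀) {n : ℕ} (hn : n ≤ m)
    (hs : ∑ j, c₀ j + p = n + ∑ i : Fin m, (i : ℕ))
    (hsym : ∀ γ γ' : Fin m → ℕ, StrictMono γ → StrictMono γ' →
      ∑ i, γ i = n + ∑ i : Fin m, (i : ℕ) → IsRefl γ γ' → Φ γ = Φ γ')
    (hcol : ∀ γ γ' : Fin m → ℕ, SameCol p c₀ γ → IsRefl γ γ' → SameCol p c₀ γ')
    {i : ℕ} (hi : i < p) : Psi Φ p i 1 c₀ ∈ Submodule.span ℂ {Psi Φ p (p - 1 - i) 1 c₀} := by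
  have hexp : Psi Φ p i 1 c₀ = ∑ k, if c₀ k % p = i then Φ (up c₀ k p) else 0 := by
    unfold Psi; simp only [mul_one]
  rw [hexp]
  refine Submodule.sum_mem _ fun k _ => ?_
  split_ifs with hk
  swap
  · exact Submodule.zero_mem _
  obtain ⟨δ, hδ⟩ : ∃ δ, δ = up c₀ k p := ⟨_, rfl⟩
  rw [← hδ]
  by_cases hinj : Function.Injective δ
  swap
  · rw [hΦ.eq_zero_of_not_injective two_torsion_module hinj]
    exact Submodule.zero_mem _
  have hδk : δ k = c₀ k + p := by rw [hδ, up_self]
  have hδne : ∀ l, l ≠ k → δ l = c₀ l := fun l hl => by rw [hδ, up_ne _ _ hl]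
  have hdn : dn δ k p = c₀ := by rw [hδ, dn_up_self]
  -- sort
  set σ := Tuple.sort δ with hσ
  have hmono : StrictMono (δ ∘ σ) :=
    (Tuple.monotone_sort δ).strictMono_of_injective (hinj.comp σ.injective)
  have hrange : Set.range (δ ∘ σ) = Set.range δ := by
    rw [Set.range_comp]; simp
  have hsumδ : ∑ j, δ j = n + ∑ i : Fin m, (i : ℕ) := by
    rw [hδ, sum_up]; exact hs
  have hsumσ : ∑ j, (δ ∘ σ) j = n + ∑ i : Fin m, (i : ℕ) := by
    rw [← hsumδ]; exact Equiv.sum_comp σ δ
  obtain ⟨δ', hmono', hr⟩ := exists_refl (m' := m) hmono (lt_of_strictMono hmono hsumσ hn)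
  have hΦδ : Φ δ = sg σ • Φ (δ ∘ σ) := by
    rw [hΦ, smul_smul, sg_mul_self, one_smul]
  rw [hΦδ, hsym _ _ hmono hmono' hsumσ hr, ← Int.cast_smul_eq_zsmul ℂ]
  apply Submodule.smul_mem
  have hcolδ : SameCol p c₀ (δ ∘ σ) := by
    have h1 : SameCol p δ c₀ := by rw [hδ]; exact sameCol_up (dvd_refl p) c₀ k
    exact ((sameCol_comp p δ σ).trans h1).symm
  have hcol' := hcol _ _ hcolδ hr
  -- the weight of `δ ∘ σ`
  have hwδ : ∑ j, (δ ∘ σ) j / p = 1 + npairs p (δ ∘ σ) := by
    have h1 : ∑ j, (δ ∘ σ) j / p = ∑ j, δ j / p := Equiv.sum_comp σ (fun j => δ j / p)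
    have h2 := npairs_of_sameCol hcolδ
    have h3 := sum_div_dn hp δ k (c := 1) (by rw [hδk]; omega)
    rw [mul_one, hdn] at h3
    omega
  have hw' : ∑ j, δ' j / p = 1 + npairs p δ' :=
    weight_of_sameCol hp (hcolδ.symm.trans hcol')
      (hsumσ.trans (sum_refl hr hmono hsumσ).symm) hwδ
  refine mem_of_hooks hp hΦ hc hc0 hcol' hw' _ fun j hj hdinj => ?_
  have hmodj : δ' j % p = p - 1 - i := by
    obtain ⟨b', hb'⟩ : ∃ b', b' = δ' j := ⟨_, rfl⟩
    have hb'lt : b' < m + m := by rw [hb']; exact hr.lt' j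
    have hj' : p ≤ b' := by rw [hb']; exact hj
    have hno : b' - p ∉ Set.range δ' := by
      rintro ⟨l, hl⟩
      by_cases hlj : l = j
      · subst hlj; omega
      · apply hlj
        apply hdinj
        rw [dn_self, dn_ne _ _ hlj, hl, hb']
    have hb1 : m + m - 1 - (b' - p) ∈ Set.range δ := by
      rw [← hrange, hr.iff _ (by omega)]
      have h1 : m + m - 1 - (m + m - 1 - (b' - p)) = b' - p := by omega
      rw [h1]; exact hno
    have hb2 : m + m - 1 - b' ∉ Set.range δ := by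
      rw [← hrange, hr.iff _ (by omega), not_not]
      have h1 : m + m - 1 - (m + m - 1 - b') = b' := by omega
      rw [h1]; exact ⟨j, hb'.symm⟩
    obtain ⟨l, hl⟩ := hb1
    have hlk : l = k := by
      by_contra hlk
      have h1 := hδne l hlk
      rw [h1] at hl
      have h2 : p ≤ c₀ l := by omega
      have h3 : 1 ≤ c₀ l / p := by
        rw [Nat.le_div_iff_mul_le hp]; omega
      obtain ⟨q, hq⟩ := down_of_weight_zero hp hc hc0 l (t := c₀ l / p - 1) (by omega)
      have h4 := Nat.div_add_mod (c₀ l) p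
      have h5 : p * (c₀ l / p - 1) = p * (c₀ l / p) - p := by
        rw [Nat.mul_sub, mul_one]
      have h6 : p * 1 ≤ p * (c₀ l / p) := Nat.mul_le_mul_left p h3
      have h7 : c₀ q + p = c₀ l := by omega
      by_cases hqk : q = k
      · subst hqk
        apply hlk
        apply hinj
        rw [h1, hδk, h7]
      · apply hb2
        refine ⟨q, ?_⟩
        rw [hδne q hqk]
        omega
    rw [hlk, hδk] at hl
    have h1 : c₀ k + p < m + m := by omega
    have h2 := mod_refl hp hN h1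
    rw [Nat.add_mod_right, hk] at h2
    have h3 : b' = m + m - 1 - (c₀ k + p) + p := by omega
    rw [← hb', h3, Nat.add_mod_right, h2]
  rw [hmodj]
  exact Submodule.subset_span rfl

/-- **Weight one.** -/
theorem weight_one [DecidableEq W] {p : ℕ} (hp : 0 < p) (hodd : p % 2 = 1) (hN : p ∣ m + m)
    {Φ : (Fin m → ℕ) → W}
    (hΦ : Alt Φ) (hR : UpRel p Φ) {c₀ : Fin m → ℕ} (hc : Function.Injective c₀)
    (hc0 : ∑ j, c₀ j / p = npairs p c₀) {n : ℕ} (hn : n ≤ m)
    (hs : ∑ j, c₀ j + p = n + ∑ i : Fin m, (i : ℕ))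
    (hsym : ∀ γ γ' : Fin m → ℕ, StrictMono γ → StrictMono γ' →
      ∑ i, γ i = n + ∑ i : Fin m, (i : ℕ) → IsRefl γ γ' → Φ γ = Φ γ')
    (hcol : ∀ γ γ' : Fin m → ℕ, SameCol p c₀ γ → IsRefl γ γ' → SameCol p c₀ γ') :
    ∃ T : Finset W, T.card ≤ p / 2 ∧ ∀ γ : Fin m → ℕ, SameCol p c₀ γ →
      ∑ j, γ j / p = 1 + npairs p γ → Φ γ ∈ Submodule.span ℂ (T : Set W) := by
  set T : Finset W := (range (p / 2)).image (fun i => Psi Φ p i 1 c₀) with hT
  have hlow : ∀ i, i < p / 2 → Psi Φ p i 1 c₀ ∈ Submodule.span ℂ (T : Set W) := by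
    intro i hi
    apply Submodule.subset_span
    rw [hT, Finset.mem_coe]
    exact Finset.mem_image_of_mem (fun i => Psi Φ p i 1 c₀) (Finset.mem_range.mpr hi)
  have hne : ∀ i, i < p → i ≠ p / 2 → Psi Φ p i 1 c₀ ∈ Submodule.span ℂ (T : Set W) := by
    intro i hi hne
    rcases lt_or_gt_of_ne hne with h | h
    · exact hlow i h
    · have h1 := mem_span_opposite hp hN hΦ hc hc0 hn hs hsym hcol hi
      have h2 := hlow (p - 1 - i) (by omega)
      refine (Submodule.span_le.mpr ?_) h1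
      rintro _ rfl
      exact h2
  have hall : ∀ i, i < p → Psi Φ p i 1 c₀ ∈ Submodule.span ℂ (T : Set W) := by
    intro i hi
    by_cases h : i = p / 2
    · subst h
      have h1 := sum_Psi hp hR one_pos c₀
      rw [← Finset.add_sum_erase _ _ (Finset.mem_range.mpr hi)] at h1
      rw [eq_neg_of_add_eq_zero_left h1]
      apply Submodule.neg_mem
      refine Submodule.sum_mem _ fun j hj => ?_
      rw [Finset.mem_erase, Finset.mem_range] at hj
      exact hne j hj.2 hj.1
    · exact hne i hi h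
  refine ⟨T, ?_, fun γ hγ hw => ?_⟩
  · exact Finset.card_image_le.trans (by rw [Finset.card_range])
  · exact mem_of_hooks hp hΦ hc hc0 hγ hw _ fun j _ _ => hall _ (Nat.mod_lt _ hp)

end Cfsg.Agent.H615.AltOne
end

-- part: H615/AltRank
section
/-!
# The rank of a block of an alternating group

`blockRank_lt` : a block of `alternatingGroup α` with nontrivial defect group `D` of sectional `p`-rank
at most `s` has `p`-regular rank less than `p ^ s`.
-/

set_option autoImplicit false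
set_option linter.unusedSectionVars false

namespace Cfsg.Agent.H615.AltRank

open Finset Cfsg Cfsg.Agent.H614 Cfsg.Agent.H615.AltRefl Cfsg.Agent.H615.AltConj
open Cfsg.Agent.H615.AltSpan Cfsg.Agent.H615.AltSelf Cfsg.Agent.H615.AltNum
open Cfsg.Agent.Characters.Core

universe u

variable {α : Type u} [Fintype α] [DecidableEq α]

theorem core_weight {m p : ℕ} (hp : 0 < p) {β : Fin m → ℕ} (hβ : Function.Injective β) :
    ∑ j, core p β j / p = npairs p (core p β) := by
  rw [npairs_of_mod (core_mod (p := p) β), ← sum_low p hβ]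
  exact Finset.sum_congr rfl fun j _ => core_div hp β j

theorem blockRank_lt {p : ℕ} [hp : Fact p.Prime] {M : Ideal AlgInt} (hM : IsPModular p M)
    {B : Set (IrrCharacter (alternatingGroup α))} (hB : IsPBlock M B)
    {D : Subgroup (alternatingGroup α)} (hD : IsDefectGroup p M B D) (hD1 : D ≠ ⊥) {s : ℕ}
    (hrank : SectionalPRankLE p s D) : blockRank p B < p ^ s := by
  classical
  have hMp : M.IsPrime := hM.2.1.isPrime
  have hp0 : 0 < p := hp.out.pos
  rcases subsingleton_or_nontrivial α with hα | hα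
  · exfalso
    apply hD1
    rw [eq_bot_iff]
    intro g _
    rw [Subgroup.mem_bot]
    apply Subtype.ext
    exact Subsingleton.elim _ _
  obtain ⟨m, hm, hN⟩ : ∃ m, Fintype.card α ≤ m ∧ p ∣ m + m :=
    ⟨p * Fintype.card α, Nat.le_mul_of_pos_left _ hp0, ⟨2 * Fintype.card α, by ring⟩⟩
  obtain ⟨χ₀, hχ₀⟩ := Blocks.Basic.isPBlock_nonempty hB
  obtain ⟨β₀, hβ₀, hs₀, hc₀⟩ := exists_beta hm χ₀
  obtain ⟨w, hw⟩ : ∃ w, ∑ j, β₀ j / p = w + npairs p β₀ :=
    ⟨_, (Nat.sub_add_cancel (npairs_le hp0 hβ₀.injective)).symm⟩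
  rcases Nat.eq_zero_or_pos w with rfl | hw0
  · exact absurd (AltDefect.eq_bot hM hm hβ₀ hs₀ hB hχ₀ hc₀ hD (by simpa using hw)) hD1
  -- the weight of the members of the colour
  have hwt : ∀ γ ∈ Col α p β₀, ∑ j, γ j / p = w + npairs p γ := fun γ hγ =>
    weight_of_sameCol hp0 hγ.2.2 (hs₀.trans hγ.2.1.symm) hw
  have hself : ∀ S : Finset (Fin m → ℕ), (∀ γ ∈ S, γ ∈ Col α p β₀ ∧ IsRefl γ γ) →
      S.card ≤ scb p w := by
    intro S hS
    refine card_self_le hp0 hN β₀ w S fun γ hγ => ?_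
    obtain ⟨h1, h2⟩ := hS γ hγ
    exact ⟨h1.1, h2, h1.2.2, hwt γ h1⟩
  -- the core
  have hcinj := core_injective hp0 hβ₀.injective
  have hc0 := core_weight hp0 hβ₀.injective
  have hcol0 : SameCol p (core p β₀) β₀ := sameCol_of_mod (core_mod β₀)
  have hPhi := Phi_alt (α := α) (m := m) p
  have hUp := Phi_upRel (α := α) (m := m) hp.out hm
  have key : ∀ {c k : ℕ} (T : Finset (alternatingGroup α → ℂ)), T.card ≤ c →
      (∀ γ ∈ Col α p β₀, Phi α p γ ∈ Submodule.span ℂ (T : Set (alternatingGroup α → ℂ))) →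
      (∀ S : Finset (Fin m → ℕ), (∀ γ ∈ S, γ ∈ Col α p β₀ ∧ IsRefl γ γ) → S.card ≤ k) →
      blockRank p B ≤ c + k := by
    intro c k T hT hT' hk
    exact (blockRank_le_add hM hm hβ₀ hs₀ hB hχ₀ hc₀ hT' hk).trans (Nat.add_le_add_right hT _)
  by_cases h2 : p = 2
  · subst h2
    obtain ⟨T, hT, hT'⟩ := AltMult.rank_two hcinj hc0 w hPhi hUp
    have h3 := key T hT (fun γ hγ => hT' γ (hcol0.trans hγ.2.2) (hwt γ hγ)) hself
    rcases Nat.lt_or_ge w 3 with h4 | h4
    · rcases Nat.lt_or_ge w 2 with h5 | h5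
      · have h6 : w = 1 := by omega
        subst h6
        have h7 := AltDefect.one_le hD1 hM hD hrank
        have h8 := two_weight_one
        omega
      · have h6 : w = 2 := by omega
        subst h6
        have h7 := AltDefect.four_le hM hβ₀ hs₀ hB hχ₀ hc₀ hD hw hrank
        have h8 := two_weight_two
        omega
    · have h5 := two_lt h4
      have h6 := AltDefect.pow_le_two hM hβ₀ hs₀ hB hχ₀ hc₀ hD hw hrank
      obtain ⟨v, rfl⟩ : ∃ v, w = v + 1 := ⟨w - 1, by omega⟩
      rw [Nat.add_sub_cancel] at h5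
      rw [pow_succ] at h6
      omega
  · have hodd : p % 2 = 1 := Nat.odd_iff.mp (hp.out.odd_of_ne_two h2)
    have hp3 : 3 ≤ p := by
      have := hp.out.two_le
      omega
    refine lt_of_lt_of_le ?_ (AltDefect.pow_le_odd hM h2 hβ₀ hs₀ hB hχ₀ hc₀ hD hw hrank)
    obtain ⟨T, hT, hT'⟩ := rank_le hp0 w β₀ _ hPhi hUp
    rcases Nat.lt_or_ge w 2 with h4 | h4
    · have h5 : w = 1 := by omega
      subst h5
      rw [pow_one]
      by_cases hex : ∃ γ₀ ∈ Col α p β₀, IsRefl γ₀ γ₀
      · obtain ⟨γ₀, hγ₀, hr₀⟩ := hex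
        have hcolc : SameCol p (core p β₀) γ₀ := hcol0.trans hγ₀.2.2
        obtain ⟨T, hT, hT'⟩ := AltOne.weight_one hp0 hodd hN hPhi hUp hcinj hc0 hm
          (by have := sum_core (p := p) hβ₀.injective hw; rw [mul_one] at this; omega)
          (fun γ γ' hγ hγ' hs hr => Phi_refl hr hγ hγ' hs)
          (fun γ γ' hγ hr => hcolc.trans (sameCol_refl hp0 hN hr₀ hr (hcolc.symm.trans hγ)))
        have h6 := key T hT (fun γ hγ => hT' γ (hcol0.trans hγ.2.2) (hwt γ hγ)) hself
        have h7 : scb p 1 = 1 := by rw [scb_odd hodd, sb_one]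
        omega
      · have h6 := key T hT (fun γ hγ => hT' γ hγ.2.2 (hwt γ hγ)) (k := 0) (by
          intro S hS
          rw [Nat.le_zero, Finset.card_eq_zero, Finset.eq_empty_iff_forall_notMem]
          intro γ hγ
          exact hex ⟨γ, (hS γ hγ).1, (hS γ hγ).2⟩)
        simp only [bb, pow_zero, mul_one] at h6
        omega
    · by_cases h32 : p = 3 ∧ w = 2
      · obtain ⟨rfl, rfl⟩ := h32
        obtain ⟨T, hT, hT'⟩ := AltMult.rank_three hcinj hc0 hPhi hUp
        have h6 := key T hT (fun γ hγ => hT' γ (hcol0.trans hγ.2.2) (hwt γ hγ)) hself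
        have h7 : scb 3 2 = 3 := by decide
        norm_num
        omega
      · have h5 := scb_lt hodd hp3 h4 h32
        have h6 := key T hT (fun γ hγ => hT' γ hγ.2.2 (hwt γ hγ)) hself
        obtain ⟨v, rfl⟩ : ∃ v, w = v + 1 := ⟨w - 1, by omega⟩
        simp only [bb] at h6
        rw [Nat.add_sub_cancel] at h5
        obtain ⟨q, rfl⟩ : ∃ q, p = q + 1 := ⟨p - 1, by omega⟩
        rw [Nat.add_sub_cancel] at h6
        have h7 : (q + 1) ^ (v + 1) = q * (q + 1) ^ v + (q + 1) ^ v := by rw [pow_succ]; ring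
        omega

end Cfsg.Agent.H615.AltRank
end

-- part: S4535
section
set_option autoImplicit false
open Cfsg

namespace Cfsg.Agent.S4535

/-- Let B be a p-block of a finite alternating group (relative to a maximal ideal M of the algebraic integers containing p) with a nontrivial defect group D all of whose sections have p-rank at most s. Then the p-regular rank of B is less than p ^ s. -/
theorem result (n : ℕ) (p : ℕ) [Fact p.Prime] (M : Ideal Cfsg.AlgInt) (hM : Cfsg.IsPModular p M) (B : Set (Cfsg.IrrCharacter (alternatingGroup (Fin n)))) (hB : Cfsg.IsPBlock M B) (D : Subgroup (alternatingGroup (Fin n))) (hD : Cfsg.IsDefectGroup p M B D) (hD1 : D ≠ ⊥) (s : ℕ) (hs : Cfsg.SectionalPRankLE p s D) : Cfsg.blockRank p B < p ^ s :=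
  Cfsg.Agent.H615.AltRank.blockRank_lt hM hB hD hD1 hs

end Cfsg.Agent.S4535
end
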