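import Mathlib
import Cfsg.Prelude.Def_Blocks
import Cfsg.Agent.Characters.Core
import Cfsg.Agent.Characters.Linear
import Cfsg.Agent.CharDeep.PowerDegrees
import Cfsg.Agent.CharactersDeep.Extraspecial
import Cfsg.Agent.Solvable.SchurZassenhausConj
import Cfsg.Statements.S4561
set_option linter.all false

-- part: H621/RamTriple
section
/-!
# Fully ramified linear characters: group theoretic form and a wreath product construction

`Ram Z lam`: `lam` is an invariant linear character of the normal subgroup `Z` of `H` and every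
`x ∉ Z` has a `y` with `⁅x, y⁆ ∈ Z`, `lam ⁅x, y⁆ ≠ 1`.
If `Ram Z lam` in `K` and `Ram ZL mu` in `L` with a suitable `π : L →* Q`, then the twisted wreath
product `(Q → K) ⋊ L` has the property again.
-/

set_option autoImplicit false

namespace Cfsg.Agent.H621

universe u v w

open scoped commutatorElement

/-- `lam` is an invariant linear character of the normal subgroup `Z` of `H`, and every `x ∉ Z`
has a `y` with `⁅x, y⁆ ∈ Z`, `lam ⁅x, y⁆ ≠ 1`. -/
structure Ram {H : Type*} [Group H] (Z : Subgroup H) (lam : H → ℂˣ) : Prop where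
  normal : Z.Normal
  mul : ∀ x ∈ Z, ∀ y ∈ Z, lam (x * y) = lam x * lam y
  inv : ∀ z ∈ Z, ∀ h, lam (h * z * h⁻¹) = lam z
  ram : ∀ x, x ∉ Z → ∃ y, ⁅x, y⁆ ∈ Z ∧ lam ⁅x, y⁆ ≠ 1

theorem Ram.one {H : Type*} [Group H] {Z : Subgroup H} {lam : H → ℂˣ} (h : Ram Z lam) :
    lam 1 = 1 := by
  have := h.mul 1 Z.one_mem 1 Z.one_mem
  rw [mul_one] at this
  exact left_eq_mul.1 this

theorem Ram.map_inv {H : Type*} [Group H] {Z : Subgroup H} {lam : H → ℂˣ} (h : Ram Z lam)
    {x : H} (hx : x ∈ Z) : lam x⁻¹ = (lam x)⁻¹ := by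
  have := h.mul x⁻¹ (Z.inv_mem hx) x hx
  rw [inv_mul_cancel, h.one] at this
  exact eq_inv_of_mul_eq_one_left this.symm

theorem Ram.map_pow {H : Type*} [Group H] {Z : Subgroup H} {lam : H → ℂˣ} (h : Ram Z lam)
    {x : H} (hx : x ∈ Z) (n : ℕ) : lam (x ^ n) = (lam x) ^ n := by
  induction n with
  | zero => simp [h.one]
  | succ n ih => rw [pow_succ, h.mul _ (Z.pow_mem hx n) _ hx, ih, pow_succ]

/-- The twisted wreath product `(Q → K) ⋊ L`, `L` acting through `π : L →* Q`. -/
@[ext] structure Wr (K : Type u) {L : Type v} {Q : Type w} [Group L] [Group Q] (π : L →* Q) where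
  /-- base component -/
  f : Q → K
  /-- top component -/
  l : L

namespace Wr

variable {K : Type u} {L : Type v} {Q : Type w} [Group K] [Group L] [Group Q] {π : L →* Q}

instance instMulWr : Mul (Wr K π) := ⟨fun a b => ⟨fun i => a.f i * b.f ((π a.l)⁻¹ * i), a.l * b.l⟩⟩
instance instOneWr : One (Wr K π) := ⟨⟨fun _ => 1, 1⟩⟩
instance instInvWr : Inv (Wr K π) := ⟨fun a => ⟨fun i => (a.f (π a.l * i))⁻¹, a.l⁻¹⟩⟩

@[simp] theorem mul_f (a b : Wr K π) (i : Q) : (a * b).f i = a.f i * b.f ((π a.l)⁻¹ * i) := rfl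
@[simp] theorem mul_l (a b : Wr K π) : (a * b).l = a.l * b.l := rfl
@[simp] theorem one_f (i : Q) : (1 : Wr K π).f i = 1 := rfl
@[simp] theorem one_l : (1 : Wr K π).l = 1 := rfl
@[simp] theorem inv_f (a : Wr K π) (i : Q) : (a⁻¹).f i = (a.f (π a.l * i))⁻¹ := rfl
@[simp] theorem inv_l (a : Wr K π) : (a⁻¹).l = a.l⁻¹ := rfl

instance instGroupWr : Group (Wr K π) := Group.ofLeftAxioms
  (by intro a b c; ext i <;> simp [mul_assoc])
  (by intro a; ext i <;> simp)
  (by intro a; ext i <;> simp)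

omit [Group K] in
theorem finite_wr [Finite K] [Finite L] [Finite Q] : Finite (Wr K π) := by
  have : Function.Injective (fun a : Wr K π => (a.f, a.l)) := by
    intro a b h
    simp only [Prod.mk.injEq] at h
    exact Wr.ext h.1 h.2
  exact Finite.of_injective _ this

/-- `Wr K π` as a product -/
def equivProd : Wr K π ≃ (Q → K) × L where
  toFun a := (a.f, a.l)
  invFun a := ⟨a.1, a.2⟩
  left_inv _ := rfl
  right_inv _ := rfl

omit [Group K] in
theorem card_wr : Nat.card (Wr K π) = Nat.card (Q → K) * Nat.card L := by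
  rw [Nat.card_congr (equivProd (K := K) (π := π)), Nat.card_prod]

/-- The subgroup `Z ^ Q × ZL`. -/
def ZZ (Z : Subgroup K) (ZL : Subgroup L) (_hZL : ZL ≤ π.ker) : Subgroup (Wr K π) where
  carrier := {a | (∀ i, a.f i ∈ Z) ∧ a.l ∈ ZL}
  mul_mem' := by
    rintro a b ⟨ha, ha'⟩ ⟨hb, hb'⟩
    exact ⟨fun i => Z.mul_mem (ha i) (hb _), ZL.mul_mem ha' hb'⟩
  one_mem' := ⟨fun _ => Z.one_mem, ZL.one_mem⟩
  inv_mem' := by
    rintro a ⟨ha, ha'⟩
    exact ⟨fun i => Z.inv_mem (ha _), ZL.inv_mem ha'⟩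

theorem mem_ZZ {Z : Subgroup K} {ZL : Subgroup L} {hZL : ZL ≤ π.ker} {a : Wr K π} :
    a ∈ ZZ Z ZL hZL ↔ (∀ i, a.f i ∈ Z) ∧ a.l ∈ ZL := Iff.rfl

open scoped Classical in
/-- the linear character of `Z ^ Q × ZL` -/
noncomputable def lamW [Fintype Q] (lam : K → ℂˣ) (mu : L → ℂˣ) (a : Wr K π) : ℂˣ :=
  (∏ i, lam (a.f i)) * mu a.l

/-- The construction. -/
theorem ram_wr [Fintype Q] {Z : Subgroup K} {lam : K → ℂˣ} (hK : Ram Z lam)
    {ZL : Subgroup L} {mu : L → ℂˣ} (hL : Ram ZL mu) (hZL : ZL ≤ π.ker)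
    (hπ : ∀ l : L, l ∉ π.ker → ∃ y ∈ π.ker, ⁅l, y⁆ ∈ ZL ∧ mu ⁅l, y⁆ ≠ 1) :
    Ram (ZZ Z ZL hZL) (lamW (π := π) lam mu) := by
  classical
  have hπ1 : ∀ l ∈ ZL, π l = 1 := fun l hl => hZL hl
  have hconj : ∀ z ∈ ZZ Z ZL hZL, ∀ h : Wr K π, ∀ i, (h * z * h⁻¹).f i =
      h.f i * z.f ((π h.l)⁻¹ * i) * (h.f i)⁻¹ := by
    rintro z ⟨-, hz⟩ h i
    simp [hπ1 _ hz]
  refine ⟨⟨fun z hz h => ?_⟩, fun x hx y hy => ?_, fun z hz h => ?_, fun x hx => ?_⟩
  · refine ⟨fun i => ?_, ?_⟩
    · rw [hconj z hz h i]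
      exact hK.normal.conj_mem _ (hz.1 _) _
    · exact hL.normal.conj_mem _ hz.2 _
  · simp only [lamW, mul_f, mul_l, hπ1 _ hx.2, inv_one, one_mul]
    rw [hL.mul _ hx.2 _ hy.2, Finset.prod_congr rfl (fun i _ => hK.mul _ (hx.1 i) _ (hy.1 i)),
      Finset.prod_mul_distrib]
    exact mul_mul_mul_comm _ _ _ _
  · simp only [lamW]
    congr 1
    · rw [Finset.prod_congr rfl (fun i _ => by rw [hconj z hz h i, hK.inv _ (hz.1 _)])]
      exact Fintype.prod_equiv (Equiv.mulLeft (π h.l)⁻¹) _ _ (fun i => rfl)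
    · exact hL.inv _ hz.2 _
  · by_cases h1 : x.l ∈ π.ker
    · have h1' : π x.l = 1 := h1
      by_cases h2 : ∃ i, x.f i ∉ Z
      · obtain ⟨i, hi⟩ := h2
        obtain ⟨y, hy1, hy2⟩ := hK.ram _ hi
        let y' : Wr K π := ⟨Pi.mulSingle i y, 1⟩
        have hl : (⁅x, y'⁆).l = 1 := by
          simp [commutatorElement_def, y']
        have hf : ∀ j, (⁅x, y'⁆).f j = ⁅x.f j, (Pi.mulSingle i y : Q → K) j⁆ := by
          intro j
          simp [commutatorElement_def, y', h1']
        have hf' : ∀ j, j ≠ i → (⁅x, y'⁆).f j = 1 := by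
          intro j hj
          rw [hf j, Pi.mulSingle_eq_of_ne hj, commutatorElement_one_right]
        have hfi : (⁅x, y'⁆).f i = ⁅x.f i, y⁆ := by
          rw [hf i, Pi.mulSingle_eq_same]
        refine ⟨y', ⟨fun j => ?_, ?_⟩, ?_⟩
        · by_cases hj : j = i
          · subst hj; rw [hfi]; exact hy1
          · rw [hf' j hj]; exact Z.one_mem
        · rw [hl]; exact ZL.one_mem
        · simp only [lamW]
          rw [hl, hL.one, mul_one, Finset.prod_eq_single i, hfi]
          · exact hy2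
          · intro j _ hj
            rw [hf' j hj, hK.one]
          · simp
      · push Not at h2
        have h3 : x.l ∉ ZL := fun h => hx ⟨h2, h⟩
        obtain ⟨y, hy1, hy2⟩ := hL.ram _ h3
        let y' : Wr K π := ⟨fun _ => 1, y⟩
        have hl : (⁅x, y'⁆).l = ⁅x.l, y⁆ := by
          simp [commutatorElement_def, y']
        have hf : ∀ j, (⁅x, y'⁆).f j = x.f j * (x.f ((π y)⁻¹ * j))⁻¹ := by
          intro j
          simp [commutatorElement_def, y', h1']
        refine ⟨y', ⟨fun j => ?_, ?_⟩, ?_⟩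
        · rw [hf j]; exact Z.mul_mem (h2 _) (Z.inv_mem (h2 _))
        · rw [hl]; exact hy1
        · simp only [lamW]
          rw [hl]
          have : ∏ j, lam ((⁅x, y'⁆).f j) = 1 := by
            rw [Finset.prod_congr rfl (fun j _ => by
              rw [hf j, hK.mul _ (h2 _) _ (Z.inv_mem (h2 _)), hK.map_inv (h2 _)])]
            rw [Finset.prod_mul_distrib, Finset.prod_inv_distrib]
            rw [Fintype.prod_equiv (Equiv.mulLeft (π y)⁻¹) (fun j => lam (x.f ((π y)⁻¹ * j)))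
              (fun j => lam (x.f j)) (fun j => rfl)]
            exact mul_inv_cancel _
          rw [this, one_mul]
          exact hy2
    · obtain ⟨y, hy, hy1, hy2⟩ := hπ _ h1
      have hy' : π y = 1 := hy
      let y' : Wr K π := ⟨fun _ => 1, y⟩
      have hl : (⁅x, y'⁆).l = ⁅x.l, y⁆ := by
        simp [commutatorElement_def, y']
      have hf : ∀ j, (⁅x, y'⁆).f j = 1 := by
        intro j
        simp [commutatorElement_def, y', hy']
      refine ⟨y', ⟨fun j => ?_, ?_⟩, ?_⟩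
      · rw [hf j]; exact Z.one_mem
      · rw [hl]; exact hy1
      · simp only [lamW]
        rw [hl, Finset.prod_congr rfl (fun j _ => by rw [hf j, hK.one])]
        simpa using hy2

end Wr

/-! ### The Heisenberg group -/

/-- The Heisenberg group of order `p ^ 3`. -/
@[ext] structure Heis (p : ℕ) where
  /-- first coordinate -/
  a : ZMod p
  /-- second coordinate -/
  b : ZMod p
  /-- central coordinate -/
  c : ZMod p

namespace Heis

variable {p : ℕ}

instance instMulHeis : Mul (Heis p) := ⟨fun x y => ⟨x.a + y.a, x.b + y.b, x.c + y.c + x.a * y.b⟩⟩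
instance instOneHeis : One (Heis p) := ⟨⟨0, 0, 0⟩⟩
instance instInvHeis : Inv (Heis p) := ⟨fun x => ⟨-x.a, -x.b, -x.c + x.a * x.b⟩⟩

@[simp] theorem mul_a (x y : Heis p) : (x * y).a = x.a + y.a := rfl
@[simp] theorem mul_b (x y : Heis p) : (x * y).b = x.b + y.b := rfl
@[simp] theorem mul_c (x y : Heis p) : (x * y).c = x.c + y.c + x.a * y.b := rfl
@[simp] theorem one_a : (1 : Heis p).a = 0 := rfl
@[simp] theorem one_b : (1 : Heis p).b = 0 := rfl
@[simp] theorem one_c : (1 : Heis p).c = 0 := rfl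
@[simp] theorem inv_a (x : Heis p) : (x⁻¹).a = -x.a := rfl
@[simp] theorem inv_b (x : Heis p) : (x⁻¹).b = -x.b := rfl
@[simp] theorem inv_c (x : Heis p) : (x⁻¹).c = -x.c + x.a * x.b := rfl

instance instGroupHeis : Group (Heis p) := Group.ofLeftAxioms
  (by intro x y z; ext <;> simp <;> ring)
  (by intro x; ext <;> simp)
  (by intro x; ext <;> simp)

/-- as a product -/
def equivProd : Heis p ≃ ZMod p × ZMod p × ZMod p where
  toFun x := (x.a, x.b, x.c)
  invFun x := ⟨x.1, x.2.1, x.2.2⟩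
  left_inv _ := rfl
  right_inv _ := rfl

theorem card_heis : Nat.card (Heis p) = p ^ 3 := by
  rw [Nat.card_congr (equivProd (p := p)), Nat.card_prod, Nat.card_prod, Nat.card_zmod]
  ring

theorem finite_heis [NeZero p] : Finite (Heis p) := Finite.of_equiv _ (equivProd (p := p)).symm

/-- projection -/
def pr : Heis p →* Multiplicative (ZMod p) where
  toFun x := Multiplicative.ofAdd x.a
  map_one' := rfl
  map_mul' _ _ := rfl

/-- section -/
def sec : Multiplicative (ZMod p) →* Heis p where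
  toFun x := ⟨x.toAdd, 0, 0⟩
  map_one' := rfl
  map_mul' x y := by ext <;> simp

theorem pr_sec (x : Multiplicative (ZMod p)) : pr (sec x) = x := rfl

/-- centre -/
def cen (p : ℕ) : Subgroup (Heis p) where
  carrier := {x | x.a = 0 ∧ x.b = 0}
  mul_mem' := by
    rintro x y ⟨hx, hx'⟩ ⟨hy, hy'⟩
    exact ⟨by simp [hx, hy], by simp [hx', hy']⟩
  one_mem' := ⟨rfl, rfl⟩
  inv_mem' := by
    rintro x ⟨hx, hx'⟩
    exact ⟨by simp [hx], by simp [hx']⟩

theorem cen_le : cen p ≤ (pr (p := p)).ker := by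
  rintro x ⟨hx, -⟩
  rw [MonoidHom.mem_ker]
  change Multiplicative.ofAdd x.a = 1
  rw [hx]; rfl

/-- the character of the centre -/
noncomputable def mu [NeZero p] (x : Heis p) : ℂˣ := Circle.toUnits (ZMod.toCircle x.c)

theorem mu_eq_one [NeZero p] {x : Heis p} : mu x = 1 ↔ x.c = 0 := by
  constructor
  · intro h
    have h1 : ZMod.toCircle x.c = 1 := by
      have h2 := congrArg Units.val h
      exact Subtype.ext h2
    have h2 : ZMod.toCircle x.c = ZMod.toCircle (0 : ZMod p) := by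
      rw [h1, AddChar.map_zero_eq_one]
    exact ZMod.injective_toCircle h2
  · intro h
    rw [mu, h, AddChar.map_zero_eq_one, map_one]

theorem comm_mem (x y : Heis p) : ⁅x, y⁆ ∈ cen p := by
  constructor <;> simp [commutatorElement_def]

theorem comm_c (x y : Heis p) : (⁅x, y⁆).c = x.a * y.b - y.a * x.b := by
  simp [commutatorElement_def]; ring

theorem ram_heis [NeZero p] [Fact p.Prime] : Ram (cen p) (mu (p := p)) := by
  refine ⟨⟨fun z hz h => ?_⟩, fun x hx y hy => ?_, fun z hz h => ?_, fun x hx => ?_⟩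
  · constructor
    · simp [hz.1]
    · simp [hz.2]
  · simp only [mu, mul_c, hx.1, zero_mul, add_zero, AddChar.map_add_eq_mul, map_mul]
  · have : (h * z * h⁻¹).c = z.c := by
      have h1 := hz.1
      have h2 := hz.2
      change h.c + z.c + h.a * z.b + (-h.c + h.a * h.b) + (h.a + z.a) * -h.b = z.c
      rw [h1, h2]; ring
    simp only [mu, this]
  · by_cases ha : x.a = 0
    · have hb : x.b ≠ 0 := fun h => hx ⟨ha, h⟩
      refine ⟨⟨1, 0, 0⟩, comm_mem _ _, ?_⟩
      rw [Ne, mu_eq_one, comm_c]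
      simpa [ha] using hb
    · refine ⟨⟨0, 1, 0⟩, comm_mem _ _, ?_⟩
      rw [Ne, mu_eq_one, comm_c]
      simpa using ha

theorem ram_ker [NeZero p] [Fact p.Prime] (l : Heis p) (hl : l ∉ (pr (p := p)).ker) :
    ∃ y ∈ (pr (p := p)).ker, ⁅l, y⁆ ∈ cen p ∧ mu ⁅l, y⁆ ≠ 1 := by
  have ha : l.a ≠ 0 := by
    intro h
    apply hl
    rw [MonoidHom.mem_ker]
    change Multiplicative.ofAdd l.a = 1
    rw [h]; rfl
  refine ⟨⟨0, 1, 0⟩, rfl, comm_mem _ _, ?_⟩
  rw [Ne, mu_eq_one, comm_c]
  simpa using ha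

end Heis

end Cfsg.Agent.H621
end

-- part: H621/CentralType
section
/-!
# Groups of central type: from commutators to characters; solvable groups embed in central quotients
-/

set_option autoImplicit false

namespace Cfsg.Agent.H621

universe u

open Cfsg
open Cfsg.Agent.Characters.Core
open scoped commutatorElement ComplexConjugate

/-- If every `x ∉ Z(H)` has `y` with `1 ≠ ⁅x, y⁆ ∈ Z(H)` and `Z(H)` embeds in `ℂˣ`, then `H` has
a faithful irreducible character of degree squared `|H : Z(H)|`. -/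
theorem exists_irr_of_center {H : Type u} [Group H] [Finite H]
    (c : Subgroup.center H →* ℂˣ) (hc : Function.Injective c)
    (hram : ∀ x, x ∉ Subgroup.center H → ∃ y, ⁅x, y⁆ ∈ Subgroup.center H ∧ ⁅x, y⁆ ≠ 1) :
    ∃ χ : IrrCharacter H, (∀ h : H, (χ : H → ℂ) h = (χ : H → ℂ) 1 → h = 1) ∧
      (charDegree (χ : H → ℂ)) ^ 2 = (Subgroup.center H).index := by
  classical
  have := Fintype.ofFinite H
  have := Fintype.ofFinite (Subgroup.center H)
  have hlam := Cfsg.Agent.Characters.Linear.isIrrCharacter_hom c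
  obtain ⟨χ, hχ, hne⟩ := Cfsg.Agent.CharDeep.PowerDegrees.exists_irr_over (Subgroup.center H) hlam
  obtain ⟨c', hc', -⟩ := Cfsg.Agent.CharactersDeep.Extraspecial.exists_central_hom hχ
  have hlam' := Cfsg.Agent.Characters.Linear.isIrrCharacter_hom c'
  have hres : (fun n : Subgroup.center H => χ n) = (χ 1) • (fun z : Subgroup.center H => (c' z : ℂ)) := by
    funext z
    have := hc' 1 z
    rw [one_mul] at this
    simpa using this
  have hcc : c' = c := by
    by_contra hcon
    apply hne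
    rw [hres, classInner_smul_left, classInner_irr_ne hlam' hlam, mul_zero]
    intro h
    apply hcon
    ext z
    exact congrFun h z
  subst hcc
  have h0 : ∀ x, x ∉ Subgroup.center H → χ x = 0 := by
    intro x hx
    obtain ⟨y, hy1, hy2⟩ := hram x hx
    have h1 : y * x * y⁻¹ = x * (⁅x, y⁆)⁻¹ := by
      have hz := Subgroup.mem_center_iff.1 ((Subgroup.center H).inv_mem hy1) x
      rw [hz, commutatorElement_def]
      group
    have h2 := hc' x ⟨(⁅x, y⁆)⁻¹, (Subgroup.center H).inv_mem hy1⟩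
    have h3 := isIrr_isClassFunction hχ x y
    rw [h1] at h3
    rw [h3] at h2
    by_contra hne0
    have h4 : ((c' ⟨(⁅x, y⁆)⁻¹, (Subgroup.center H).inv_mem hy1⟩ : ℂˣ) : ℂ) = 1 := by
      have : χ x * 1 = χ x * ((c' ⟨(⁅x, y⁆)⁻¹, (Subgroup.center H).inv_mem hy1⟩ : ℂˣ) : ℂ) := by
        rw [mul_one]; exact h2
      exact (mul_left_cancel₀ hne0 this).symm
    have h5 : (⟨(⁅x, y⁆)⁻¹, (Subgroup.center H).inv_mem hy1⟩ : Subgroup.center H) = 1 := by
      apply hc
      rw [map_one]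
      exact Units.ext h4
    apply hy2
    have := congrArg Subtype.val h5
    exact inv_eq_one.1 this
  obtain ⟨n, hn, hn1⟩ := isIrr_apply_one hχ
  refine ⟨⟨χ, hχ⟩, fun h hh => ?_, ?_⟩
  · have hh' : χ h = χ 1 := hh
    have hmem : h ∈ Subgroup.center H := by
      by_contra hcon
      rw [h0 h hcon] at hh'
      exact isIrr_apply_one_ne_zero hχ hh'.symm
    have h1 := congrFun hres ⟨h, hmem⟩
    simp only [Pi.smul_apply, smul_eq_mul] at h1
    rw [hh'] at h1
    have h2 : ((c' ⟨h, hmem⟩ : ℂˣ) : ℂ) = 1 := by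
      have h3 : χ 1 * 1 = χ 1 * ((c' ⟨h, hmem⟩ : ℂˣ) : ℂ) := by rw [mul_one]; exact h1
      exact (mul_left_cancel₀ (isIrr_apply_one_ne_zero hχ) h3).symm
    have h5 : (⟨h, hmem⟩ : Subgroup.center H) = 1 := by
      apply hc
      rw [map_one]
      exact Units.ext h2
    exact congrArg Subtype.val h5
  · have hdeg : charDegree χ = n := by
      unfold charDegree
      rw [hn1]
      simp
    change (charDegree χ) ^ 2 = _
    rw [hdeg]
    have h1 := classInner_irr_self hχ
    rw [classInner_def] at h1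
    have h2 : ∑ g : H, χ g * conj (χ g) = (Nat.card (Subgroup.center H) : ℂ) * (n : ℂ) ^ 2 := by
      rw [← Finset.sum_filter_add_sum_filter_not Finset.univ (fun g => g ∈ Subgroup.center H)]
      have h3 : ∑ g ∈ Finset.univ.filter (fun g => g ∉ Subgroup.center H), χ g * conj (χ g) = 0 := by
        apply Finset.sum_eq_zero
        intro g hg
        rw [Finset.mem_filter] at hg
        rw [h0 g hg.2, zero_mul]
      rw [h3, add_zero]
      have h4 : ∀ g ∈ Finset.univ.filter (fun g => g ∈ Subgroup.center H),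
          χ g * conj (χ g) = (n : ℂ) ^ 2 := by
        intro g hg
        rw [Finset.mem_filter] at hg
        have h5 := congrFun hres ⟨g, hg.2⟩
        simp only [Pi.smul_apply, smul_eq_mul] at h5
        rw [h5, hn1, map_mul, Complex.conj_natCast]
        have h6 := Cfsg.Agent.Characters.Linear.norm_hom_apply c' ⟨g, hg.2⟩
        have h7 : ((c' ⟨g, hg.2⟩ : ℂˣ) : ℂ) * conj ((c' ⟨g, hg.2⟩ : ℂˣ) : ℂ) = 1 := by
          rw [Complex.mul_conj, Complex.normSq_eq_norm_sq, h6]; simp
        linear_combination (n : ℂ) ^ 2 * h7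
      rw [Finset.sum_congr rfl h4, Finset.sum_const, nsmul_eq_mul]
      congr 1
      rw [Nat.card_eq_fintype_card, Fintype.card_subtype]
    rw [h2] at h1
    have h3 := (Subgroup.center H).card_mul_index
    have h4 : (Nat.card H : ℂ) ≠ 0 := card_ne_zero_complex
    have h5 : (Nat.card (Subgroup.center H) : ℂ) * (n : ℂ) ^ 2 = Nat.card H := by
      field_simp at h1
      linear_combination h1
    have h6 : Nat.card (Subgroup.center H) * n ^ 2 = Nat.card H := by exact_mod_cast h5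
    rw [← h3] at h6
    exact Nat.eq_of_mul_eq_mul_left Nat.card_pos h6

/-- The kernel of `lam` on `Z`. -/
def Ram.ker {H : Type*} [Group H] {Z : Subgroup H} {lam : H → ℂˣ} (h : Ram Z lam) :
    Subgroup H where
  carrier := {z | z ∈ Z ∧ lam z = 1}
  mul_mem' := by
    rintro x y ⟨hx, hx'⟩ ⟨hy, hy'⟩
    exact ⟨Z.mul_mem hx hy, by rw [h.mul x hx y hy, hx', hy', one_mul]⟩
  one_mem' := ⟨Z.one_mem, h.one⟩
  inv_mem' := by
    rintro x ⟨hx, hx'⟩
    exact ⟨Z.inv_mem hx, by rw [h.map_inv hx, hx', inv_one]⟩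

theorem Ram.ker_normal {H : Type*} [Group H] {Z : Subgroup H} {lam : H → ℂˣ} (h : Ram Z lam) :
    h.ker.Normal := by
  refine ⟨fun z hz g => ?_⟩
  exact ⟨h.normal.conj_mem _ hz.1 _, by rw [h.inv z hz.1 g]; exact hz.2⟩

theorem Ram.mem_ker {H : Type*} [Group H] {Z : Subgroup H} {lam : H → ℂˣ} (h : Ram Z lam)
    {z : H} : z ∈ h.ker ↔ z ∈ Z ∧ lam z = 1 := Iff.rfl

/-- The quotient by the kernel: a group of central type. -/
theorem Ram.quotient {H : Type u} [Group H] [Finite H] {Z : Subgroup H} {lam : H → ℂˣ}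
    (h : Ram Z lam) :
    ∃ (X : Type u) (_ : Group X) (_ : Finite X) (f : H →* X) (c : Subgroup.center X →* ℂˣ),
      Function.Surjective f ∧ (∀ x, f x ∈ Subgroup.center X ↔ x ∈ Z) ∧
      (∀ z ∈ Z, ∀ hz : f z ∈ Subgroup.center X, c ⟨f z, hz⟩ = lam z) ∧
      Function.Injective c ∧
      (∀ x, x ∉ Subgroup.center X → ∃ y, ⁅x, y⁆ ∈ Subgroup.center X ∧ ⁅x, y⁆ ≠ 1) := by
  classical
  have hN := h.ker_normal
  have hmk : ∀ x : H, (QuotientGroup.mk' h.ker x = 1 ↔ x ∈ Z ∧ lam x = 1) := by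
    intro x
    rw [QuotientGroup.mk'_apply, QuotientGroup.eq_one_iff]
    exact h.mem_ker
  have hsurj : Function.Surjective (QuotientGroup.mk' h.ker) := QuotientGroup.mk'_surjective _
  have hcen : ∀ x, QuotientGroup.mk' h.ker x ∈ Subgroup.center (H ⧸ h.ker) ↔ x ∈ Z := by
    intro x
    constructor
    · intro hx
      by_contra hcon
      obtain ⟨y, hy1, hy2⟩ := h.ram x hcon
      rw [Subgroup.mem_center_iff] at hx
      have h1 := hx (QuotientGroup.mk' h.ker y)
      have h2 : QuotientGroup.mk' h.ker ⁅x, y⁆ = 1 := by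
        rw [map_commutatorElement, commutatorElement_eq_one_iff_mul_comm]
        exact h1.symm
      exact hy2 ((hmk _).1 h2).2
    · intro hx
      rw [Subgroup.mem_center_iff]
      intro g
      obtain ⟨g, rfl⟩ := hsurj g
      have h2 : QuotientGroup.mk' h.ker ⁅g, x⁆ = 1 := by
        rw [hmk]
        have h3 : ⁅g, x⁆ = (g * x * g⁻¹) * x⁻¹ := by rw [commutatorElement_def]
        have h4 : g * x * g⁻¹ ∈ Z := h.normal.conj_mem _ hx _
        refine ⟨?_, ?_⟩
        · rw [h3]
          exact Z.mul_mem h4 (Z.inv_mem hx)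
        · rw [h3, h.mul _ h4 _ (Z.inv_mem hx), h.inv x hx, h.map_inv hx, mul_inv_cancel]
      rw [map_commutatorElement, commutatorElement_eq_one_iff_mul_comm] at h2
      exact h2
  have hex : ∀ z : Subgroup.center (H ⧸ h.ker), ∃ x : H, x ∈ Z ∧ QuotientGroup.mk' h.ker x = z := by
    intro z
    obtain ⟨x, hx⟩ := hsurj z
    exact ⟨x, (hcen x).1 (hx ▸ z.2), hx⟩
  choose s hs1 hs2 using hex
  have hwell : ∀ x ∈ Z, ∀ y ∈ Z, QuotientGroup.mk' h.ker x = QuotientGroup.mk' h.ker y →
      lam x = lam y := by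
    intro x hx y hy hxy
    have h1 : QuotientGroup.mk' h.ker (x⁻¹ * y) = 1 := by
      rw [map_mul, _root_.map_inv, hxy, inv_mul_cancel]
    have h2 := ((hmk _).1 h1).2
    rw [h.mul _ (Z.inv_mem hx) _ hy, h.map_inv hx, inv_mul_eq_one] at h2
    exact h2
  let c : Subgroup.center (H ⧸ h.ker) →* ℂˣ := MonoidHom.mk' (fun z => lam (s z)) (by
    intro a b
    rw [← h.mul _ (hs1 a) _ (hs1 b)]
    apply hwell _ (hs1 _) _ (Z.mul_mem (hs1 a) (hs1 b))
    rw [map_mul, hs2, hs2, hs2]
    rfl)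
  refine ⟨H ⧸ h.ker, inferInstance, inferInstance, QuotientGroup.mk' h.ker, c, hsurj, hcen,
    ?_, ?_, ?_⟩
  · intro z hz hz'
    exact hwell _ (hs1 _) _ hz (hs2 _)
  · rw [injective_iff_map_eq_one]
    intro a ha
    have h1 : QuotientGroup.mk' h.ker (s a) = 1 := (hmk _).2 ⟨hs1 a, ha⟩
    rw [hs2] at h1
    exact Subtype.ext h1
  · intro x hx
    obtain ⟨x, rfl⟩ := hsurj x
    have hx' : x ∉ Z := fun hh => hx ((hcen x).2 hh)
    obtain ⟨y, hy1, hy2⟩ := h.ram x hx'
    refine ⟨QuotientGroup.mk' h.ker y, ?_, ?_⟩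
    · rw [← map_commutatorElement]
      exact (hcen _).2 hy1
    · rw [← map_commutatorElement]
      intro h3
      exact hy2 ((hmk _).1 h3).2

/-- A map `φ : G → H` inducing an injective homomorphism `G → H / Z`. -/
structure ProjEmb {G : Type*} [Group G] {H : Type*} [Group H] (Z : Subgroup H) (φ : G → H) :
    Prop where
  mul : ∀ g h, (φ (g * h))⁻¹ * (φ g * φ h) ∈ Z
  inj : ∀ g, φ g ∈ Z → g = 1

/-- The inductive statement. -/
def Good (G : Type u) [Group G] : Prop :=
  ∃ (H : Type u) (_ : Group H) (_ : Finite H) (Z : Subgroup H) (lam : H → ℂˣ) (φ : G → H),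
    Ram Z lam ∧ ProjEmb Z φ ∧ (∀ p : ℕ, p.Prime → p ∣ Nat.card H → p ∣ Nat.card G) ∧
    (∀ z ∈ Z, lam z ^ (∏ p ∈ (Nat.card G).primeFactors, p) = 1) ∧
    (∀ p : ℕ, p.Prime → p ∣ Nat.card G → ∃ z ∈ Z, lam z ≠ 1 ∧ lam z ^ p = 1)

theorem good_of_subsingleton (G : Type u) [Group G] [Subsingleton G] : Good G := by
  refine ⟨PUnit, inferInstance, inferInstance, ⊤, fun _ => 1, fun _ => 1, ⟨inferInstance, ?_, ?_,
    ?_⟩, ⟨?_, ?_⟩, ?_, ?_, ?_⟩
  · intros; simp
  · intros; simp
  · intro x hx; exact absurd (Subgroup.mem_top x) hx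
  · intros; simp
  · intro g _; exact Subsingleton.elim _ _
  · intro p hp h
    rw [Nat.card_unique] at h
    exact absurd (Nat.dvd_one.1 h) hp.one_lt.ne'
  · intros; simp
  · intro p hp h
    rw [Nat.card_unique] at h
    exact absurd (Nat.dvd_one.1 h) hp.one_lt.ne'

theorem mu_pow {p : ℕ} [NeZero p] (l : Heis p) : Heis.mu l ^ p = 1 := by
  unfold Heis.mu
  rw [← _root_.map_pow, ← AddChar.map_nsmul_eq_pow]
  simp

open scoped Classical in
theorem good_of_normal {G : Type u} [Group G] [Finite G] {p : ℕ} [hp : Fact p.Prime]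
    (N : Subgroup G) [N.Normal] (hN : N.index = p) (hgood : Good N) : Good G := by
  obtain ⟨K, _, _, Z, lam, φ, hR, hφ, hcard, hpow, hex⟩ := hgood
  have : NeZero p := ⟨hp.out.ne_zero⟩
  have hcQ : Nat.card (G ⧸ N) = Nat.card (Multiplicative (ZMod p)) := by
    rw [← Subgroup.index_eq_card, hN]; simp
  have hcG : Nat.card G = Nat.card N * p := by rw [← hN, Subgroup.card_mul_index]
  have e : (G ⧸ N) ≃* Multiplicative (ZMod p) := by
    have h1 : Nat.card (G ⧸ N) = p := by rw [hcQ]; simp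
    exact mulEquivOfPrimeCardEq (p := p) h1 (by simp)
  let π : G →* Multiplicative (ZMod p) := e.toMonoidHom.comp (QuotientGroup.mk' N)
  have hπ : Function.Surjective π := e.surjective.comp (QuotientGroup.mk'_surjective N)
  have hker : ∀ g, π g = 1 ↔ g ∈ N := by
    intro g
    change e (QuotientGroup.mk' N g) = 1 ↔ _
    rw [EmbeddingLike.map_eq_one_iff, QuotientGroup.mk'_apply, QuotientGroup.eq_one_iff]
  choose s hs using hπ
  have hmem : ∀ (g : G) (i : Multiplicative (ZMod p)), (s i)⁻¹ * g * s ((π g)⁻¹ * i) ∈ N := by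
    intro g i
    rw [← hker, map_mul, map_mul, _root_.map_inv, hs, hs]
    rw [mul_comm i⁻¹ (π g), mul_assoc, mul_comm (π g)⁻¹ i, inv_mul_cancel_left, mul_inv_cancel]
  have hfin : Finite (Wr K (Heis.pr (p := p))) := by
    have := Heis.finite_heis (p := p)
    exact Wr.finite_wr
  have hRW := Wr.ram_wr (π := Heis.pr (p := p)) hR (Heis.ram_heis (p := p)) Heis.cen_le
    (Heis.ram_ker (p := p))
  have hH3 := Heis.card_heis (p := p)
  refine ⟨Wr K (Heis.pr (p := p)), inferInstance, hfin, _, _,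
    fun g => ⟨fun i => φ ⟨_, hmem g i⟩, Heis.sec (π g)⟩, hRW, ⟨?_, ?_⟩, ?_, ?_, ?_⟩
  · intro g h
    refine ⟨fun i => ?_, ?_⟩
    · simp only [Wr.mul_f, Wr.inv_f, Heis.pr_sec, inv_inv, Wr.inv_l, _root_.map_inv]
      have h1 := hφ.mul ⟨_, hmem g (π (g * h) * i)⟩ ⟨_, hmem h ((π g)⁻¹ * (π (g * h) * i))⟩
      have h2 : (⟨_, hmem g (π (g * h) * i)⟩ * ⟨_, hmem h ((π g)⁻¹ * (π (g * h) * i))⟩ : N) =
          ⟨_, hmem (g * h) (π (g * h) * i)⟩ := by
        apply Subtype.ext
        simp only [Subgroup.coe_mul]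
        have h3 : (π h)⁻¹ * ((π g)⁻¹ * (π (g * h) * i)) = (π (g * h))⁻¹ * (π (g * h) * i) := by
          rw [map_mul]; group
        rw [h3]
        group
      rw [h2] at h1
      exact h1
    · simp only [Wr.mul_l, Wr.inv_l, map_mul, inv_mul_cancel]
      exact (Heis.cen p).one_mem
  · rintro g ⟨h1, h2⟩
    have h3 : π g = 1 := Heis.cen_le h2
    have h4 := hφ.inj _ (h1 1)
    have h5 := congrArg Subtype.val h4
    simp only [h3, inv_one, mul_one, Subgroup.coe_one] at h5
    have h6 : (s 1)⁻¹ * g * s 1 = 1 := h5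
    have h7 : g = s 1 * ((s 1)⁻¹ * g * s 1) * (s 1)⁻¹ := by group
    rw [h7, h6]; group
  · intro q hq hd
    rw [Wr.card_wr, hq.dvd_mul] at hd
    rw [hcG, hq.dvd_mul]
    rcases hd with hd | hd
    · rw [Nat.card_fun] at hd
      exact Or.inl (hcard q hq (hq.dvd_of_dvd_pow hd))
    · rw [hH3] at hd
      exact Or.inr (hq.dvd_of_dvd_pow hd)
  · rintro z ⟨hz1, hz2⟩
    have hn1 : (∏ p ∈ (Nat.card N).primeFactors, p) ∣ ∏ p ∈ (Nat.card G).primeFactors, p := by
      apply Finset.prod_dvd_prod_of_subset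
      exact Nat.primeFactors_mono (by rw [hcG]; exact Nat.dvd_mul_right _ _) Nat.card_pos.ne'
    have hn2 : p ∣ ∏ p ∈ (Nat.card G).primeFactors, p := by
      apply Finset.dvd_prod_of_mem (fun p => p)
      rw [Nat.mem_primeFactors]
      exact ⟨hp.out, by rw [hcG]; exact Nat.dvd_mul_left _ _, Nat.card_pos.ne'⟩
    obtain ⟨a, ha⟩ := hn1
    obtain ⟨b, hb⟩ := hn2
    unfold Wr.lamW
    rw [mul_pow]
    have h1 : (∏ i, lam (z.f i)) ^ (∏ p ∈ (Nat.card G).primeFactors, p) = 1 := by
      rw [ha, pow_mul, ← Finset.prod_pow]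
      rw [Finset.prod_congr rfl (fun i _ => hpow _ (hz1 i))]
      simp
    have h2 : Heis.mu z.l ^ (∏ p ∈ (Nat.card G).primeFactors, p) = 1 := by
      rw [hb, pow_mul, mu_pow, one_pow]
    rw [h1, h2, one_mul]
  · intro q hq hd
    rw [hcG, hq.dvd_mul] at hd
    rcases hd with hd | hd
    · obtain ⟨z, hz, hz1, hz2⟩ := hex q hq hd
      refine ⟨⟨Pi.mulSingle 1 z, 1⟩, ⟨fun i => ?_, (Heis.cen p).one_mem⟩, ?_⟩
      · by_cases hi : i = 1
        · subst hi; simpa using hz
        · have h1 : (Pi.mulSingle 1 z : Multiplicative (ZMod p) → K) i = 1 :=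
            Pi.mulSingle_eq_of_ne hi _
          change (Pi.mulSingle 1 z : Multiplicative (ZMod p) → K) i ∈ Z
          rw [h1]; exact Z.one_mem
      · have : Wr.lamW lam Heis.mu (⟨Pi.mulSingle 1 z, 1⟩ : Wr K (Heis.pr (p := p))) = lam z := by
          unfold Wr.lamW
          rw [(Heis.ram_heis (p := p)).one, mul_one, Finset.prod_eq_single 1]
          · simp
          · intro j _ hj
            simp only
            rw [Pi.mulSingle_eq_of_ne hj, hR.one]
          · simp
        rw [this]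
        exact ⟨hz1, hz2⟩
    · have hqp : q = p := (Nat.prime_dvd_prime_iff_eq hq hp.out).1 hd
      subst hqp
      refine ⟨⟨fun _ => 1, ⟨0, 0, 1⟩⟩, ⟨fun i => Z.one_mem, ⟨rfl, rfl⟩⟩, ?_⟩
      have : Wr.lamW lam Heis.mu (⟨fun _ => 1, ⟨0, 0, 1⟩⟩ : Wr K (Heis.pr (p := q))) =
          Heis.mu (⟨0, 0, 1⟩ : Heis q) := by
        unfold Wr.lamW
        simp [hR.one]
      rw [this]
      refine ⟨?_, mu_pow _⟩
      rw [Ne, Heis.mu_eq_one]
      have : Fact (1 < q) := ⟨hp.out.one_lt⟩
      exact one_ne_zero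

theorem good_of_solvable (n : ℕ) : ∀ (G : Type u) [Group G] [Finite G], Nat.card G = n →
    Group.IsSolvable G → Good G := by
  induction n using Nat.strong_induction_on with
  | _ n ih =>
    intro G _ _ hn hG
    rcases subsingleton_or_nontrivial G with h | h
    · exact good_of_subsingleton G
    · obtain ⟨M, hM, -, hp⟩ := Cfsg.Agent.Solvable.SchurZassenhausConj.exists_normal_prime_index
        (⊥ : Subgroup G) bot_ne_top inferInstance
      have : Fact M.index.Prime := ⟨hp⟩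
      refine good_of_normal M rfl (ih (Nat.card M) ?_ M rfl inferInstance)
      rw [← hn, ← M.card_mul_index]
      exact lt_mul_of_one_lt_right Nat.card_pos hp.one_lt

theorem main {G : Type u} [Group G] [Finite G] (hsolv : Group.IsSolvable G) :
    ∃ (H : Type u) (_ : Group H) (_ : Finite H) (χ : Cfsg.IrrCharacter H),
      (∀ h : H, (χ : H → ℂ) h = (χ : H → ℂ) 1 → h = 1) ∧
      (Cfsg.charDegree (χ : H → ℂ)) ^ 2 = (Subgroup.center H).index ∧
      (∃ f : G →* H ⧸ Subgroup.center H, Function.Injective f) ∧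
      (∀ p : ℕ, p.Prime → ((p ∣ Nat.card H ↔ p ∣ Nat.card G) ∧
        (p ∣ Nat.card (Subgroup.center H) ↔ p ∣ Nat.card G))) ∧
      Squarefree (Nat.card (Subgroup.center H)) := by
  classical
  obtain ⟨H, _, _, Z, lam, φ, hR, hφ, hcard, hpow, hex⟩ := good_of_solvable _ G rfl hsolv
  obtain ⟨X, _, _, f, c, hf, hcen, hc, hcinj, hram⟩ := hR.quotient
  obtain ⟨χ, h1, h2⟩ := exists_irr_of_center c hcinj hram
  have hXH : Nat.card X ∣ Nat.card H := Subgroup.card_dvd_of_surjective f hf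
  have hcp : ∀ x : Subgroup.center X, x ^ (∏ p ∈ (Nat.card G).primeFactors, p) = 1 := by
    rintro ⟨x, hx⟩
    obtain ⟨z, rfl⟩ := hf x
    apply hcinj
    rw [_root_.map_pow, map_one, hc z ((hcen z).1 hx) hx]
    exact hpow z ((hcen z).1 hx)
  have hcyc : IsCyclic (Subgroup.center X) :=
    isCyclic_of_injective_ringHom ((Units.coeHom ℂ).comp c)
      ((Units.val_injective).comp hcinj)
  obtain ⟨g, hg⟩ := hcyc.exists_ofOrder_eq_natCard
  have hdvd : Nat.card (Subgroup.center X) ∣ ∏ p ∈ (Nat.card G).primeFactors, p := by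
    rw [← hg]
    exact orderOf_dvd_of_pow_eq_one (hcp g)
  have hsq : Squarefree (∏ p ∈ (Nat.card G).primeFactors, p) := by
    apply Finset.squarefree_prod_of_pairwise_isCoprime
    · intro a ha b hb hab
      change IsRelPrime a b
      rw [← Nat.coprime_iff_isRelPrime]
      exact (Nat.coprime_primes (Nat.prime_of_mem_primeFactors ha)
        (Nat.prime_of_mem_primeFactors hb)).2 hab
    · intro a ha
      exact (Nat.prime_of_mem_primeFactors ha).prime.squarefree
  have hXG : ∀ p : ℕ, p.Prime → p ∣ Nat.card X → p ∣ Nat.card G :=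
    fun p hp h => hcard p hp (h.trans hXH)
  have hGZ : ∀ p : ℕ, p.Prime → p ∣ Nat.card G → p ∣ Nat.card (Subgroup.center X) := by
    intro p hp hd
    obtain ⟨z, hz, hz1, hz2⟩ := hex p hp hd
    have hz' : f z ∈ Subgroup.center X := (hcen z).2 hz
    have h3 : orderOf (⟨f z, hz'⟩ : Subgroup.center X) = p := by
      have : Fact p.Prime := ⟨hp⟩
      apply orderOf_eq_prime
      · apply hcinj
        rw [_root_.map_pow, map_one, hc z hz hz', hz2]
      · intro h4
        apply hz1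
        rw [← hc z hz hz', h4, map_one]
    rw [← h3]
    exact orderOf_dvd_natCard _
  have hZX : Nat.card (Subgroup.center X) ∣ Nat.card X := Subgroup.card_subgroup_dvd_card _
  refine ⟨X, inferInstance, inferInstance, χ, h1, h2, ?_, ?_, hsq.squarefree_of_dvd hdvd⟩
  · let F : G →* X ⧸ Subgroup.center X := MonoidHom.mk' (fun g => QuotientGroup.mk' _ (f (φ g))) (by
      intro a b
      rw [← map_mul, ← map_mul, QuotientGroup.mk'_apply, QuotientGroup.mk'_apply,
        QuotientGroup.eq, ← _root_.map_inv, ← map_mul]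
      exact (hcen _).2 (hφ.mul a b))
    refine ⟨F, ?_⟩
    rw [injective_iff_map_eq_one]
    intro a ha
    apply hφ.inj
    rw [← hcen]
    exact (QuotientGroup.eq_one_iff _).1 ha
  · intro p hp
    exact ⟨⟨hXG p hp, fun h => (hGZ p hp h).trans hZX⟩,
      ⟨fun h => hXG p hp (h.trans hZX), hGZ p hp⟩⟩

end Cfsg.Agent.H621
end

-- part: S4561
section
set_option autoImplicit false
universe u
open Cfsg

namespace Cfsg.Agent.S4561

/-- For every finite solvable group G there is a finite group H with a faithful irreducible character χ whose degree squared equals the index of the centre Z(H) (so χ is fully ramified over the centre), such that G is isomorphic to a subgroup of H/Z(H), the primes dividing the orders of H, of Z(H) and of G are the same, and the order of Z(H) is squarefree. -/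
theorem result {G : Type u} [Group G] [Finite G] (hsolv : Group.IsSolvable G) : ∃ (H : Type u) (_ : Group H) (_ : Finite H) (χ : Cfsg.IrrCharacter H), (∀ h : H, (χ : H → ℂ) h = (χ : H → ℂ) 1 → h = 1) ∧ (Cfsg.charDegree (χ : H → ℂ)) ^ 2 = (Subgroup.center H).index ∧ (∃ f : G →* H ⧸ Subgroup.center H, Function.Injective f) ∧ (∀ p : ℕ, p.Prime → ((p ∣ Nat.card H ↔ p ∣ Nat.card G) ∧ (p ∣ Nat.card (Subgroup.center H) ↔ p ∣ Nat.card G))) ∧ Squarefree (Nat.card (Subgroup.center H)) :=
  Cfsg.Agent.H621.main hsolv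

end Cfsg.Agent.S4561
end
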