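import Mathlib
import Cfsg.Agent.H622.Cyc
import Cfsg.Agent.CharactersDeep.NormalInd
import Cfsg.Agent.S0006
import Cfsg.Statements.S4563
set_option linter.all false

-- part: H622/Ind
section
/-!
# Fully ramified characters induced from a normal subgroup
-/

set_option autoImplicit false
open scoped ComplexConjugate
open Cfsg

namespace Cfsg.Agent.H622.Ind

open Cfsg.Agent.Characters.Core Subgroup Cfsg.Agent.H622.FR Cfsg.Agent.H622.Grp
  Cfsg.Agent.H622.Star Cfsg.Agent.H622.Cyc

universe u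

variable {H : Type u} [Group H]

/-- If a fully ramified character is induced from the normal subgroup `K`, the degree of the
characters of `K` is determined. -/
theorem exists_deg [Fintype H] (Z : Subgroup H) [Z.Normal] {θ : Z → ℂ} (hθ : IsIrrCharacter Z θ)
    {χ : H → ℂ} (hχ : FullRam Z.subtype θ χ) (K : Subgroup H) [Fintype K] (hZK : Z ≤ K)
    (φ : K → ℂ) (hφ : IsCharacter K φ) (hind : indFun K φ = χ) :
    ∃ (ψ : K → ℂ) (v : ℕ), OverMul (inclusion hZK) θ ψ ∧ ψ 1 = v * θ 1 ∧
      v ^ 2 * K.index = Z.relIndex K := by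
  classical
  have := finite_irr (G := K)
  have := Fintype.ofFinite (IrrCharacter K)
  have hcl := isIrr_isClassFunction hχ.irr
  have h1 : classInner φ (fun k : K => χ k) = 1 := by
    rw [← CharactersDeep.NormalInd.classInner_indFun K φ χ hcl, hind]
    exact classInner_irr_self hχ.irr
  obtain ⟨n, hn⟩ := exists_nat_comb hφ
  choose c hc using fun ψ : IrrCharacter K =>
    classInner_isNat (isIrr_isCharacter ψ.2)
      (isCharacter_comp K.subtype (isIrr_isCharacter hχ.irr) : IsCharacter K (χ ∘ K.subtype))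
  have h2 : ∑ ψ : IrrCharacter K, n ψ * c ψ = 1 := by
    have h3 : classInner φ (fun k : K => χ k) = ∑ ψ : IrrCharacter K, (n ψ : ℂ) * c ψ := by
      conv_lhs => rw [hn]
      rw [classInner_sum_left]
      refine Finset.sum_congr rfl fun ψ _ => ?_
      rw [← Nat.cast_smul_eq_nsmul ℂ, classInner_smul_left]
      congr 1
      exact hc ψ
    rw [h1] at h3
    exact_mod_cast h3.symm
  obtain ⟨ψ, -, hψ0⟩ : ∃ ψ ∈ Finset.univ, n ψ * c ψ ≠ 0 :=
    Finset.exists_ne_zero_of_sum_ne_zero (by rw [h2]; exact one_ne_zero)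
  have h4 : n ψ * c ψ ≤ 1 := by
    rw [← h2]
    exact Finset.single_le_sum (f := fun ψ => n ψ * c ψ) (fun _ _ => Nat.zero_le _)
      (Finset.mem_univ ψ)
  have h5 : n ψ * c ψ = 1 := le_antisymm h4 (Nat.pos_of_ne_zero hψ0)
  have h6 : c ψ = 1 := Nat.eq_one_of_mul_eq_one_left h5
  have h7 : classInner (χ ∘ K.subtype) (ψ : K → ℂ) = 1 := by
    have := hc ψ
    rw [h6, Nat.cast_one] at this
    rw [← classInner_conj_symm, this, map_one]
  have hj : K.subtype.comp (inclusion hZK) = Z.subtype := rfl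
  have hoψ : OverMul (inclusion hZK) θ (ψ : K → ℂ) := by
    refine overMul_of_constituent hθ
      (isCharacter_comp K.subtype (isIrr_isCharacter hχ.irr)) ?_ ψ.2 ?_
    · intro a
      have := hχ.lies a
      simp only [Function.comp, map_one]
      exact this
    · rw [h7]; exact one_ne_zero
  obtain ⟨v, hv0, hv⟩ := hoψ.exists_deg hθ
  obtain ⟨x, hx0, hx⟩ := hχ.exists_deg hθ
  have h8 := inner_fullRam K.subtype K.subtype_injective (inclusion_injective hZK) hθ
    (X := χ) (hj ▸ hχ) hoψ hx hv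
  rw [h7, one_mul] at h8
  have h9 : Nat.card K = x * v * Nat.card Z := by exact_mod_cast h8
  have h10 := hχ.sq_eq hθ hx
  have h11 : Nat.card K * K.index = Nat.card H := K.card_mul_index
  have h12 : Nat.card Z * Z.relIndex K = Nat.card K := card_mul_relIndex hZK
  have hZ0 : 0 < Nat.card Z := Nat.card_pos
  refine ⟨ψ, v, hoψ, hv, ?_⟩
  have h13 : Z.relIndex K = x * v := by
    apply Nat.eq_of_mul_eq_mul_left hZ0
    rw [h12, h9]; ring
  have h14 : x = v * K.index := by
    have h15 : x * v * K.index = x ^ 2 := by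
      apply Nat.eq_of_mul_eq_mul_left hZ0
      calc Nat.card Z * (x * v * K.index) = (x * v * Nat.card Z) * K.index := by ring
        _ = Nat.card Z * x ^ 2 := by rw [← h9, h11, ← h10]; ring
    apply Nat.eq_of_mul_eq_mul_left hx0
    rw [← mul_assoc, h15]; ring
  rw [h13, h14]; ring

/-- The quotient has a subgroup of index the `s`-part of its order. -/
theorem exists_index_eq [Fintype H] (Z : Subgroup H) [Z.Normal] {θ : Z → ℂ}
    (hθ : IsIrrCharacter Z θ)
    {χ : H → ℂ} (hχ : FullRam Z.subtype θ χ) (K : Subgroup H) [Fintype K] [K.Normal] (hZK : Z ≤ K)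
    (φ : K → ℂ) (hφ : IsCharacter K φ) (hind : indFun K φ = χ) (s : ℕ) (hs : s.Prime) :
    ∃ U : Subgroup (H ⧸ K), U.index = s ^ (Nat.card (H ⧸ K)).factorization s := by
  have : Fact s.Prime := ⟨hs⟩
  obtain ⟨ψ, v, hψ, hv, hvK⟩ := exists_deg Z hθ hχ K hZK φ hφ hind
  obtain ⟨Q⟩ : Nonempty (Sylow s H) := inferInstance
  obtain ⟨U, hU⟩ := exists_index hθ hχ K hZK Q
  obtain ⟨XP, hXP⟩ := exists_fullRam_sylow hθ hχ Q
  obtain ⟨w, hw0, hw, hJ⟩ := exists_card_ov hθ (le_sup_left : Z ≤ Z ⊔ (Q : Subgroup H))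
    (le_inf le_sup_left hZK : Z ≤ (Z ⊔ (Q : Subgroup H)) ⊓ K) inf_le_left
    (le_normalizer_inf K _) hXP
  obtain ⟨b, hb⟩ := exists_card_pow hθ hχ K hZK Q
  have hWK : (Z ⊔ (Q : Subgroup H)) ⊓ K ≤ K := inf_le_right
  have hZW : Z ≤ (Z ⊔ (Q : Subgroup H)) ⊓ K := le_inf le_sup_left hZK
  have hdvd : w ∣ v := dvd_of_overMul (inclusion hWK) (j := inclusion hZW) hθ (X := ψ) hψ hv hw
  refine ⟨U, ?_⟩
  rw [hU, hb]
  congr 1
  rw [hb] at hJ hU
  have hHK : Nat.card (H ⧸ K) = K.index := rfl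
  have hidx : K.index ≠ 0 := index_ne_zero_of_finite
  have hZK0 : Z.relIndex K ≠ 0 := index_ne_zero_of_finite
  have hv0 : v ≠ 0 := by
    rintro rfl
    rw [zero_pow two_ne_zero, zero_mul] at hvK
    exact hZK0 hvK.symm
  apply le_antisymm
  · -- the index of `U` divides the order
    have h1 : s ^ b ∣ Nat.card (H ⧸ K) := by
      rw [← hU]
      exact index_dvd_card _
    exact (hs.pow_dvd_iff_le_factorization Nat.card_pos.ne').1 h1
  · -- comparison of `s`-parts
    have h1 : Z.relIndex ((Z ⊔ (Q : Subgroup H)) ⊓ K) *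
        ((Z ⊔ (Q : Subgroup H)) ⊓ K).relIndex K = Z.relIndex K :=
      relIndex_mul_relIndex _ _ _ hZW hWK
    have h2 : (((Z ⊔ (Q : Subgroup H)) ⊓ K).relIndex K).factorization s = 0 :=
      Nat.factorization_eq_zero_of_not_dvd (not_dvd_relIndex_inf Q Z K)
    have hWK0 : ((Z ⊔ (Q : Subgroup H)) ⊓ K).relIndex K ≠ 0 := index_ne_zero_of_finite
    have hZW0 : Z.relIndex ((Z ⊔ (Q : Subgroup H)) ⊓ K) ≠ 0 := index_ne_zero_of_finite
    have h3 := congrArg (fun n => n.factorization s) h1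
    simp only [Nat.factorization_mul hZW0 hWK0, Finsupp.add_apply, h2, add_zero] at h3
    rw [← hJ, ← hvK, Nat.factorization_mul (pow_ne_zero b hs.ne_zero) (pow_ne_zero 2 hw0.ne'),
      Nat.factorization_mul (pow_ne_zero 2 hv0) hidx] at h3
    simp only [Finsupp.add_apply, Nat.factorization_pow, Finsupp.smul_apply, smul_eq_mul,
      hs.factorization_self, mul_one] at h3
    have h4 : w.factorization s ≤ v.factorization s :=
      (Nat.factorization_le_iff_dvd hw0.ne' hv0).2 hdvd s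
    rw [hHK]
    omega

theorem isSolvable_quotient [Fintype H] (Z : Subgroup H) [Z.Normal] {θ : Z → ℂ}
    (hθ : IsIrrCharacter Z θ)
    {χ : H → ℂ} (hχ : FullRam Z.subtype θ χ) (K : Subgroup H) [Fintype K] [K.Normal] (hZK : Z ≤ K)
    (φ : K → ℂ) (hφ : IsCharacter K φ) (hind : indFun K φ = χ) : Group.IsSolvable (H ⧸ K) :=
  S0006.result fun s hs => exists_index_eq Z hθ hχ K hZK φ hφ hind s hs

end Cfsg.Agent.H622.Ind
end

-- part: S4563
section
set_option autoImplicit false
open Cfsg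

namespace Cfsg.Agent.S4563

/-- Let χ be an irreducible character of the finite group H that is fully ramified over the normal subgroup Z: the restriction of χ to Z is e times an irreducible character of Z with e ^ 2 equal to the index of Z. If K is a proper normal subgroup of H containing Z and χ is induced from a character of K, then H/K is solvable; in particular, if K is solvable then so is H. -/
theorem result {H : Type*} [Group H] [Fintype H] (Z : Subgroup H) [Z.Normal] (χ : Cfsg.IrrCharacter H) (hfr : ∃ (θ : Cfsg.IrrCharacter ↥Z) (e : ℕ), e ^ 2 = Z.index ∧ ∀ z : ↥Z, (χ : H → ℂ) z = (e : ℂ) * (θ : ↥Z → ℂ) z) (K : Subgroup H) [K.Normal] [Fintype K] (hZK : Z ≤ K) (hK : K ≠ ⊤) (φ : ↥K → ℂ) (hφ : Cfsg.IsCharacter ↥K φ) (hind : Cfsg.indFun K φ = (χ : H → ℂ)) : Group.IsSolvable (H ⧸ K) ∧ (Group.IsSolvable ↥K → Group.IsSolvable H) := by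
  obtain ⟨θ, e, he, h⟩ := hfr
  have h1 : Group.IsSolvable (H ⧸ K) :=
    H622.Ind.isSolvable_quotient Z θ.2 (H622.Cyc.fullRam_of Z χ.2 he h) K hZK φ hφ hind
  refine ⟨h1, fun h2 => ?_⟩
  exact solvable_of_ker_le_range K.subtype (QuotientGroup.mk' K) (by simp)

end Cfsg.Agent.S4563
end
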