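import Cfsg.Statements.S4566
import Cfsg.Agent.H622.Over
set_option linter.all false

set_option autoImplicit false
open Cfsg

namespace Cfsg.Agent.S4566

/-- Let N be a central subgroup of the finite group G, ψ a faithful irreducible (hence degree-one) character of N, and χ an irreducible character of G whose restriction to N contains ψ. If g ∈ G and some x ∈ G has commutator x⁻¹ g⁻¹ x g in N but different from 1, then χ g = 0. -/
theorem result {G : Type*} [Group G] [Fintype G] (N : Subgroup G) [Fintype N] (hN : N ≤ Subgroup.center G) (ψ : Cfsg.IrrCharacter ↥N) (hfaith : ∀ n : ↥N, (ψ : ↥N → ℂ) n = (ψ : ↥N → ℂ) 1 → n = 1) (χ : Cfsg.IrrCharacter G) (hover : Cfsg.classInner (fun n : ↥N => (χ : G → ℂ) n) (ψ : ↥N → ℂ) ≠ 0) (g x : G) (hcomm : x⁻¹ * g⁻¹ * x * g ∈ N) (hne : x⁻¹ * g⁻¹ * x * g ≠ 1) : (χ : G → ℂ) g = 0 := by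
  obtain ⟨c, hc⟩ := H622.Over.exists_hom_of_central hN ψ.2
  rw [hc] at hover hfaith
  have hl : H622.Over.Lies N c (χ : G → ℂ) := (H622.Over.lies_iff_classInner hN c χ.2).2 hover
  refine H622.Over.eq_zero_of_comm (Characters.Core.isIrr_isClassFunction χ.2) hl hcomm ?_
  intro h
  apply hne
  have := hfaith ⟨_, hcomm⟩ (by beta_reduce; rw [h, map_one])
  exact congrArg Subtype.val this

end Cfsg.Agent.S4566
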