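import Cfsg.Statements.S4574
import Cfsg.Agent.OddOrderCharacters.PF13.SumBound
import Cfsg.Agent.Characters.Values
set_option linter.all false

set_option autoImplicit false
open Cfsg

namespace Cfsg.Agent.S4574

open Cfsg.Agent.Characters.Core Cfsg.Agent.Characters.GaloisBasic
open Cfsg.Agent.OddOrderCharacters.PF13.SumBound

/-- The degree of a representation afforded by an irreducible character. -/
theorem degree_eq {G : Type*} [Group G] {χ : G → ℂ} (hχ : Cfsg.IsIrrCharacter G χ) :
    χ 1 = (Cfsg.charDegree χ : ℂ) ∧ 0 < Cfsg.charDegree χ := by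
  obtain ⟨n, hn, h⟩ := isIrr_apply_one hχ
  have hd : Cfsg.charDegree χ = n := by
    unfold Cfsg.charDegree
    rw [h, Complex.natCast_re, Nat.floor_natCast]
  rw [hd]
  exact ⟨h, hn⟩

/-- Elements on which the character has absolute value its degree: powers. -/
theorem norm_pow {G : Type*} [Group G] [Finite G] {χ : G → ℂ} (hχ : Cfsg.IsIrrCharacter G χ)
    {g : G} (m : ℕ) (hg : ‖χ g‖ = (Cfsg.charDegree χ : ℝ)) :
    ‖χ (g ^ m)‖ = (Cfsg.charDegree χ : ℝ) := by
  obtain ⟨n, ρ, hρ, rfl⟩ := hχ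
  have h1 : (Cfsg.charDegree ρ.character : ℝ) = (Module.finrank ℂ (Fin n → ℂ) : ℝ) := by
    have h2 : ρ.character 1 = ((Module.finrank ℂ (Fin n → ℂ) : ℕ) : ℂ) := ρ.char_one
    unfold Cfsg.charDegree
    rw [h2, Complex.natCast_re, Nat.floor_natCast]
  rw [h1] at hg ⊢
  obtain ⟨w, hw⟩ := (Cfsg.Agent.Characters.Values.norm_character_eq_iff ρ g).1 hg
  refine (Cfsg.Agent.Characters.Values.norm_character_eq_iff ρ (g ^ m)).2 ⟨w ^ m, ?_⟩
  rw [map_pow, hw]
  induction m with
  | zero => simp; rfl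
  | succ k ih =>
    rw [pow_succ, ih, pow_succ]
    ext v
    simp [mul_smul]
    ring

/-- Let χ be an irreducible character of the finite group G, of degree d, and let Z(χ) be the set of elements g with |χ g| = d (the centre of χ). Then χ vanishes on at least (d ^ 2 - 1) · |Z(χ)| elements of G, with equality when every value |χ g| is 0, 1 or d. -/
theorem result {G : Type*} [Group G] [Fintype G] [DecidableEq G] (χ : G → ℂ) (hχ : Cfsg.IsIrrCharacter G χ) : (Cfsg.charDegree χ ^ 2 - 1) * (Finset.univ.filter (fun g : G => ‖χ g‖ = (Cfsg.charDegree χ : ℝ))).card ≤ (Finset.univ.filter (fun g : G => χ g = 0)).card ∧ ((∀ g : G, ‖χ g‖ = 0 ∨ ‖χ g‖ = 1 ∨ ‖χ g‖ = (Cfsg.charDegree χ : ℝ)) → (Cfsg.charDegree χ ^ 2 - 1) * (Finset.univ.filter (fun g : G => ‖χ g‖ = (Cfsg.charDegree χ : ℝ))).card = (Finset.univ.filter (fun g : G => χ g = 0)).card) := by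
  obtain ⟨hd, hdpos⟩ := degree_eq hχ
  set d := Cfsg.charDegree χ with hddef
  have hdR : (0 : ℝ) < d := by exact_mod_cast hdpos
  classical
  set Z := Finset.univ.filter (fun g : G => ‖χ g‖ = (d : ℝ)) with hZ
  set N := Finset.univ.filter (fun g : G => χ g = 0) with hN
  set X := Finset.univ.filter (fun g : G => χ g ≠ 0 ∧ ‖χ g‖ ≠ (d : ℝ)) with hX
  -- the sum of squares
  have hsum : ∑ g : G, ‖χ g‖ ^ 2 = (Nat.card G : ℝ) := by
    have h1 := classInner_irr_self hχ
    rw [classInner_self_eq_ofReal] at h1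
    have h2 : (Nat.card G : ℝ)⁻¹ * ∑ g : G, Complex.normSq (χ g) = 1 := by exact_mod_cast h1
    have h3 : (Nat.card G : ℝ) ≠ 0 := by exact_mod_cast Nat.card_pos.ne'
    have h4 : ∑ g : G, Complex.normSq (χ g) = (Nat.card G : ℝ) := by
      field_simp at h2
      exact h2
    rw [← h4]
    exact Finset.sum_congr rfl fun g _ => (Complex.normSq_eq_norm_sq _).symm
  have hdisjZN : Disjoint Z N := by
    rw [Finset.disjoint_left]
    intro g h1 h2
    rw [hZ, Finset.mem_filter] at h1
    rw [hN, Finset.mem_filter] at h2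
    rw [h2.2, norm_zero] at h1
    exact hdR.ne h1.2
  have hdisj : Disjoint (Z ∪ N) X := by
    rw [Finset.disjoint_left]
    intro g h1 h2
    rw [hX, Finset.mem_filter] at h2
    rcases Finset.mem_union.1 h1 with h | h
    · rw [hZ, Finset.mem_filter] at h
      exact h2.2.2 h.2
    · rw [hN, Finset.mem_filter] at h
      exact h2.2.1 h.2
  have hunion : (Z ∪ N) ∪ X = Finset.univ := by
    ext g
    simp only [hZ, hN, hX, Finset.mem_union, Finset.mem_filter, Finset.mem_univ, true_and,
      iff_true]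
    tauto
  have hcard : Z.card + N.card + X.card = Nat.card G := by
    rw [← Finset.card_union_of_disjoint hdisjZN, ← Finset.card_union_of_disjoint hdisj, hunion,
      Finset.card_univ, Nat.card_eq_fintype_card]
  have hsum2 : (d : ℝ) ^ 2 * Z.card + ∑ g ∈ X, ‖χ g‖ ^ 2 = (Nat.card G : ℝ) := by
    rw [← hsum, ← hunion, Finset.sum_union hdisj, Finset.sum_union hdisjZN]
    have h1 : ∑ g ∈ Z, ‖χ g‖ ^ 2 = (d : ℝ) ^ 2 * Z.card := by
      rw [Finset.sum_congr rfl (g := fun _ => (d : ℝ) ^ 2), Finset.sum_const, nsmul_eq_mul, mul_comm]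
      intro g hg
      rw [hZ, Finset.mem_filter] at hg
      rw [hg.2]
    have h2 : ∑ g ∈ N, ‖χ g‖ ^ 2 = 0 := by
      apply Finset.sum_eq_zero
      intro g hg
      rw [hN, Finset.mem_filter] at hg
      rw [hg.2]
      simp
    rw [h1, h2, add_zero]
  have hpow : (d ^ 2 - 1) * Z.card + Z.card = d ^ 2 * Z.card := by
    have : 1 ≤ d ^ 2 := Nat.one_le_pow _ _ hdpos
    nlinarith [Nat.sub_add_cancel this]
  have hcardR : (Z.card : ℝ) + N.card + X.card = Nat.card G := by exact_mod_cast hcard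
  have hpowR : (((d ^ 2 - 1) * Z.card : ℕ) : ℝ) + Z.card = (d : ℝ) ^ 2 * Z.card := by
    exact_mod_cast hpow
  constructor
  · have hbound : (X.card : ℝ) ≤ ∑ g ∈ X, ‖χ g‖ ^ 2 := by
      have := card_le_sum_sq (G := G) ({()} : Finset Unit) (fun _ => χ)
        (fun _ _ => ⟨χ, 0, isIrr_isCharacter hχ, isCharacter_zero, (sub_zero χ).symm⟩) X ?_ ?_
      · simpa using this
      · intro g hg m hm
        rw [hX, Finset.mem_filter] at hg ⊢
        refine ⟨Finset.mem_univ _, ?_, ?_⟩
        · obtain ⟨σ, hσ⟩ := exists_ringEquiv_of_coprime (G := G) hm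
          rw [← hσ χ (isIrr_isCharacter hχ) g]
          exact (map_ne_zero σ).2 hg.2.1
        · intro h
          apply hg.2.2
          obtain ⟨k, hk⟩ : ∃ k : ℕ, (g ^ m) ^ k = g := by
            obtain ⟨k, hk⟩ := exists_pow_eq_self_of_coprime
              (Nat.Coprime.coprime_dvd_right (orderOf_dvd_natCard g) hm)
            exact ⟨k, hk⟩
          have := norm_pow hχ k h
          rwa [hk] at this
      · intro g hg
        rw [hX, Finset.mem_filter] at hg
        exact ⟨(), Finset.mem_singleton_self _, hg.2.1⟩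
    have : (((d ^ 2 - 1) * Z.card : ℕ) : ℝ) ≤ N.card := by linarith
    exact_mod_cast this
  · intro h
    have hbound : ∑ g ∈ X, ‖χ g‖ ^ 2 = (X.card : ℝ) := by
      rw [Finset.sum_congr rfl (g := fun _ => (1 : ℝ)), Finset.sum_const, nsmul_eq_mul, mul_one]
      intro g hg
      rw [hX, Finset.mem_filter] at hg
      rcases h g with h | h | h
      · exact absurd (norm_eq_zero.1 h) hg.2.1
      · rw [h, one_pow]
      · exact absurd h hg.2.2
    have : (((d ^ 2 - 1) * Z.card : ℕ) : ℝ) = N.card := by linarith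
    exact_mod_cast this

end Cfsg.Agent.S4574
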