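import Cfsg.Statements.S4575
import Cfsg.Agent.H624.MajTwoB
set_option linter.all false

set_option autoImplicit false
open Cfsg

namespace Cfsg.Agent.S4575

/-- Let B be a 2-block of the finite group G (relative to a maximal ideal M of the algebraic integers containing 2) of defect d with defect group D. Let z be an element of D commuting with every element of D, and let b be a block of the centralizer of z with defect group D that induces B (a major subsection (z, b)). If the number of irreducible characters in B exceeds the 2-regular rank of b by at most three, then B contains at most 2 ^ d irreducible characters. -/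
theorem result {G : Type*} [Group G] [Finite G] (M : Ideal Cfsg.AlgInt) (hM : Cfsg.IsPModular 2 M) (B : Set (Cfsg.IrrCharacter G)) (hB : Cfsg.IsPBlock M B) (D : Subgroup G) (hD : Cfsg.IsDefectGroup 2 M B D) (z : G) (hzD : z ∈ D) (hzc : ∀ d ∈ D, d * z = z * d) (b : Set (Cfsg.IrrCharacter ↥(Subgroup.centralizer ({z} : Set G)))) (hb : Cfsg.IsInducedBlock M (Subgroup.centralizer ({z} : Set G)) b B) (hbD : Cfsg.IsDefectGroup 2 M b (D.subgroupOf (Subgroup.centralizer ({z} : Set G)))) (h : Nat.card B ≤ Cfsg.blockRank 2 b + 3) : Nat.card B ≤ 2 ^ Cfsg.blockDefect 2 B := by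
  classical
  have := Cfsg.Agent.Characters.Core.finite_irr (G := G)
  have : Fintype B := Fintype.ofFinite B
  obtain ⟨ζ, k, P, a, hζ, hP⟩ :=
    Cfsg.Agent.H624.MajTwo.exists_proj hM hB hD hzD hzc rfl hb hbD
  obtain ⟨χ₀, hχ₀, hχ₀0⟩ := Cfsg.Agent.Blocks.Blau.exists_blockHeight_eq_zero 2
    (Cfsg.Agent.Blocks.Blau.isPBlock_nonempty hM hB)
  have h0 : ∃ ψ : B, blockHeight 2 B ((ψ : IrrCharacter G) : G → ℂ) = 0 := ⟨⟨χ₀, hχ₀⟩, hχ₀0⟩
  have hcard : (Nat.card B : ℤ) = ∑ _ψ : B, (1 : ℤ) := by
    rw [Finset.sum_const, Finset.card_univ, Nat.card_eq_fintype_card, nsmul_eq_mul, mul_one]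
  have hfour : (Nat.card B : ℤ) ≤
      ∑ ψ : B, (4 : ℤ) ^ blockHeight 2 B ((ψ : IrrCharacter G) : G → ℂ) := by
    rw [hcard]
    exact Finset.sum_le_sum fun ψ _ => one_le_pow₀ (by norm_num)
  by_cases hd : blockDefect 2 B = 0
  · have h1 := hP.row_bound hM hζ (χ := ⟨χ₀, hχ₀⟩) hχ₀0
    have h2 := hP.le hζ ⟨χ₀, hχ₀⟩
    rw [hd, pow_zero] at h2 ⊢
    rw [hd, pow_zero, one_mul] at h1
    have h3 : (Nat.card B : ℤ) ≤ 1 := hfour.trans (h1.trans h2)
    exact_mod_cast h3
  · have hr : ((Fintype.card B : ℤ) - (blockRank 2 b : ℤ)) ≤ 3 := by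
      rw [← Nat.card_eq_fintype_card]
      omega
    rcases (hP.compl hM hζ h0 hd).main hM hζ h0 hr with h1 | h1
    · exact_mod_cast hfour.trans h1
    · have h2 : 3 * (Nat.card B : ℤ) ≤ ∑ ψ : B,
          (if blockHeight 2 B ((ψ : IrrCharacter G) : G → ℂ) = 0 then 3
            else 2 ^ (blockHeight 2 B ((ψ : IrrCharacter G) : G → ℂ) + 1) : ℤ) := by
        rw [hcard, Finset.mul_sum]
        refine Finset.sum_le_sum fun ψ _ => ?_
        split_ifs with hψ
        · norm_num
        · have h3 : (2 : ℤ) ^ 2 ≤ 2 ^ (blockHeight 2 B ((ψ : IrrCharacter G) : G → ℂ) + 1) :=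
            pow_le_pow_right₀ (by norm_num) (by omega)
          linarith
      have h3 := h2.trans h1
      have h4 : (Nat.card B : ℤ) ≤ 2 ^ blockDefect 2 B := by linarith
      exact_mod_cast h4

end Cfsg.Agent.S4575
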