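import Cfsg.Statements.S4585
import Cfsg.Agent.H626.OrderPFour
import Cfsg.Agent.S0063
set_option linter.all false

set_option autoImplicit false
open Cfsg

namespace Cfsg.Agent.S4585

open Subgroup
open scoped commutatorElement

theorem commutator_eq_bot_of_comm {P : Type*} [Group P] (h : IsMulCommutative P) :
    commutator P = ⊥ := by
  rw [eq_bot_iff, commutator_def, commutator_le]
  intro a _ b _
  rw [mem_bot, commutatorElement_eq_one_iff_mul_comm]
  exact h.is_comm.comm a b

/-- If `G / G'` is cyclic and `[G', G] ≤ K` with `K` normal in `G`, `K ≤ G'`, then `G' ≤ K`. -/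
theorem commutator_le_of_isCyclic {P : Type*} [Group P] (K : Subgroup P) [K.Normal]
    (hK : ⁅commutator P, (⊤ : Subgroup P)⁆ ≤ K) (hKle : K ≤ commutator P)
    [hc : IsCyclic (P ⧸ commutator P)] :
    commutator P ≤ K := by
  have hle : K ≤ (commutator P).comap (MonoidHom.id P) := by simpa using hKle
  let f : P ⧸ K →* P ⧸ commutator P := QuotientGroup.map K (commutator P) (MonoidHom.id P) hle
  have hf : f.ker ≤ center (P ⧸ K) := by
    intro q hq
    obtain ⟨g, rfl⟩ := QuotientGroup.mk'_surjective K q
    have h1 : ((g : P) : P ⧸ commutator P) = 1 := hq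
    rw [QuotientGroup.eq_one_iff] at h1
    rw [mem_center_iff]
    intro r
    obtain ⟨x, rfl⟩ := QuotientGroup.mk'_surjective K r
    symm
    rw [← commutatorElement_eq_one_iff_mul_comm, ← map_commutatorElement]
    exact (QuotientGroup.eq_one_iff _).2 (hK (commutator_mem_commutator h1 (mem_top x)))
  have hcm : IsMulCommutative (P ⧸ K) :=
    MonoidHom.isMulCommutative_of_isCyclic_of_ker_le_center f hf
  rw [commutator_def, commutator_le]
  intro a _ b _
  have h1 : (a : P ⧸ K) * (b : P ⧸ K) = (b : P ⧸ K) * (a : P ⧸ K) := hcm.is_comm.comm _ _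
  rw [← commutatorElement_eq_one_iff_mul_comm] at h1
  have h2 : ((⁅a, b⁆ : P) : P ⧸ K) = ⁅(a : P ⧸ K), (b : P ⧸ K)⁆ :=
    map_commutatorElement (QuotientGroup.mk' K) a b
  rw [← h2] at h1
  exact (QuotientGroup.eq_one_iff _).1 h1

/-- Let p be a prime and P a group of order p^4. Then P' has index p^2 in P if and only if P has maximal nilpotency class, that is, nilpotency class exactly 3. -/
theorem result {P : Type*} [Group P] [Finite P] (p : ℕ) [Fact p.Prime] (hP : Nat.card P = p ^ 4) :
    (commutator P).index = p ^ 2 ↔ Group.nilpotencyClass P = 3 := by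
  have hp : p.Prime := Fact.out
  have hpg : IsPGroup p P := IsPGroup.of_card hP
  have hnil : Group.IsNilpotent P := hpg.isNilpotent
  have hnt : Nontrivial P := by
    rw [← Finite.one_lt_card_iff_nontrivial, hP]
    exact Nat.one_lt_pow (by norm_num) hp.one_lt
  have hcls : Group.nilpotencyClass P ≤ 3 := Cfsg.Agent.S0063.result p 4 hP (by norm_num)
  have hmul : (commutator P).index * Nat.card (commutator P) = p ^ 4 := by
    rw [index_mul_card, hP]
  constructor
  · intro h
    have hcard : Nat.card (commutator P) = p ^ 2 := by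
      rw [h, show p ^ 4 = p ^ 2 * p ^ 2 by ring] at hmul
      exact Nat.eq_of_mul_eq_mul_left (pow_pos hp.pos 2) hmul
    have hcard1 : commutator P ≠ ⊥ := by
      intro h1
      rw [h1, card_bot] at hcard
      exact (Nat.one_lt_pow (by norm_num : (2 : ℕ) ≠ 0) hp.one_lt).ne hcard
    by_contra hcon
    have h2 : Group.nilpotencyClass P ≤ 2 := by omega
    have h3 : (⊤ : Subgroup P).lowerCentralSeries 2 = ⊥ :=
      Subgroup.lowerCentralSeries_eq_bot_iff_nilpotencyClass_le.2 h2
    have hle : commutator P ≤ center P :=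
      Cfsg.Agent.Transfer.CentralComm.commutator_le_center_of_eq_bot h3
    have h4 : (center P).index ∣ p ^ 2 := h ▸ index_dvd_of_le hle
    obtain ⟨k, hk, hk'⟩ := (Nat.dvd_prime_pow hp).1 h4
    have hcyc : k ≤ 1 → False := by
      intro hk1
      have h5 : Nat.card (P ⧸ center P) ∣ p := by
        change (center P).index ∣ p
        rw [hk']
        interval_cases k <;> simp
      have : IsCyclic (P ⧸ center P) := isCyclic_of_card_dvd_prime h5
      have hcm : IsMulCommutative P :=
        MonoidHom.isMulCommutative_of_isCyclic_of_ker_le_center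
          (QuotientGroup.mk' (center P)) (by rw [QuotientGroup.ker_mk'])
      exact hcard1 (commutator_eq_bot_of_comm hcm)
    have hk2 : k = 2 := by
      by_contra hne
      exact hcyc (by omega)
    rw [hk2] at hk'
    have h6 := Cfsg.Agent.H626.OrderPFour.card_commutator_of_index_center hk'
    rw [hcard] at h6
    have := hp.one_lt
    nlinarith
  · intro h
    set L1 := commutator P with hL1
    set L2 := (⊤ : Subgroup P).lowerCentralSeries 2 with hL2
    have hL2' : L2 = ⁅commutator P, (⊤ : Subgroup P)⁆ := rfl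
    have hL3 : ⁅L2, (⊤ : Subgroup P)⁆ = ⊥ := by
      change (⊤ : Subgroup P).lowerCentralSeries 3 = ⊥
      rw [Subgroup.lowerCentralSeries_eq_bot_iff_nilpotencyClass_le, h]
    have hL2ne : L2 ≠ ⊥ := by
      intro h1
      rw [hL2, Subgroup.lowerCentralSeries_eq_bot_iff_nilpotencyClass_le] at h1
      omega
    have hle : L2 ≤ L1 :=
      Subgroup.lowerCentralSeries_antitone (⊤ : Subgroup P) (by norm_num : 1 ≤ 2)
    have hne : L2 ≠ L1 := by
      intro h1
      apply hL2ne
      rw [← hL3]
      conv_lhs => rw [hL2']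
      rw [h1]
    have hn2 : L2.Normal := by
      rw [hL2']
      infer_instance
    -- orders
    obtain ⟨i, hi, hi'⟩ := (Nat.dvd_prime_pow hp).1 (hP ▸ card_subgroup_dvd_card L1)
    obtain ⟨a, ha, ha'⟩ := (Nat.dvd_prime_pow hp).1 (hP ▸ card_subgroup_dvd_card L2)
    have ha1 : a ≠ 0 := by
      rintro rfl
      rw [pow_zero, card_eq_one] at ha'
      exact hL2ne ha'
    have hlt : a < i := by
      have h1 : Nat.card L2 < Nat.card L1 := by
        rcases (card_le_of_le hle).lt_or_eq with h1 | h1
        · exact h1
        · exact absurd (eq_of_le_of_card_ge hle h1.ge) hne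
      rw [ha', hi'] at h1
      exact (Nat.pow_lt_pow_iff_right hp.one_lt).1 h1
    have hj : L1.index ∣ p ^ 4 := hmul ▸ dvd_mul_right _ _
    obtain ⟨j, hj, hj'⟩ := (Nat.dvd_prime_pow hp).1 hj
    rw [hj', hi', ← pow_add] at hmul
    have hij : j + i = 4 := Nat.pow_right_injective hp.two_le hmul
    have hj2 : ¬ j ≤ 1 := by
      intro hj1
      have h5 : Nat.card (P ⧸ commutator P) ∣ p := by
        change L1.index ∣ p
        rw [hj']
        interval_cases j <;> simp
      have : IsCyclic (P ⧸ commutator P) := isCyclic_of_card_dvd_prime h5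
      exact hne (le_antisymm hle (commutator_le_of_isCyclic L2 hL2'.ge hle))
    have : j = 2 := by omega
    rw [hj', this]

end Cfsg.Agent.S4585
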