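import Cfsg.Statements.S4602
import Cfsg.Agent.Lib.PSolvable
import Cfsg.Agent.Lib.Cores
set_option linter.all false

set_option autoImplicit false
open Cfsg

namespace Cfsg.Agent.S4602

open Cfsg.Agent.Lib

/-- In one direction: if a Sylow `p`-subgroup normalizes a Sylow `q`-subgroup `Q`, then `Q ≤ O_{p'}(G)`. -/
theorem le_core {G : Type*} [Group G] [Finite G] (p q : ℕ) [Fact p.Prime] [Fact q.Prime] (hpq : p ≠ q)
    (hsolv : Cfsg.IsPSolvable p G) (P : Sylow p G) (Q : Sylow q G)
    (h : (P : Subgroup G) ≤ Subgroup.normalizer ((Q : Subgroup G) : Set G)) :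
    (Q : Subgroup G) ≤ Cfsg.pPrimeCore p G := by
  classical
  set N := Cfsg.pPrimeCore p G with hN
  have : N.Normal := Cores.pPrimeCore_normal p
  set π := QuotientGroup.mk' N with hπ
  have hsurj : Function.Surjective π := QuotientGroup.mk'_surjective N
  have hbot : Cfsg.pPrimeCore p (G ⧸ N) = ⊥ := Cores.pPrimeCore_quotient_pPrimeCore p
  have hs : Cfsg.IsPSolvable p (G ⧸ N) := PSolvable.IsPSolvable_of_surjective p hsolv π hsurj
  have hC := PSolvable.centralizer_pCore_le_of_pSolvable p hs hbot
  set O := Cfsg.pCore p (G ⧸ N) with hO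
  have : O.Normal := Cores.pCore_normal p
  have hOP : O ≤ (P : Subgroup G).map π := by
    have := Cores.pCore_le_sylow (P.mapSurjective hsurj)
    simpa using this
  have hPn : (P : Subgroup G).map π ≤ Subgroup.normalizer (((Q : Subgroup G).map π : Subgroup (G ⧸ N)) : Set (G ⧸ N)) := by
    refine (Subgroup.map_mono h).trans ?_
    exact Subgroup.le_normalizer_map π
  have hQp : IsPGroup q ((Q : Subgroup G).map π : Subgroup (G ⧸ N)) := Q.isPGroup'.map π
  have hOp : IsPGroup p O := Cores.pCore_isPGroup p
  have hinf : O ⊓ (Q : Subgroup G).map π = ⊥ := by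
    rw [← disjoint_iff]
    exact IsPGroup.disjoint_of_ne p q hpq _ _ hOp hQp
  have hcomm : (Q : Subgroup G).map π ≤ Subgroup.centralizer (O : Set (G ⧸ N)) := by
    rw [← Subgroup.commutator_eq_bot_iff_le_centralizer]
    rw [eq_bot_iff, ← hinf]
    refine le_inf ?_ ?_
    · exact Subgroup.commutator_le_right _ _
    · rw [Subgroup.commutator_le]
      intro g₁ hg₁ g₂ hg₂
      have h1 : g₂ ∈ Subgroup.normalizer (((Q : Subgroup G).map π : Subgroup (G ⧸ N)) : Set (G ⧸ N)) :=
        hPn (hOP hg₂)
      have h2 : g₂ * g₁⁻¹ * g₂⁻¹ ∈ (Q : Subgroup G).map π :=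
        (Subgroup.mem_normalizer_iff.mp h1 g₁⁻¹).mp (inv_mem hg₁)
      have : g₁ * g₂ * g₁⁻¹ * g₂⁻¹ = g₁ * (g₂ * g₁⁻¹ * g₂⁻¹) := by
        simp [mul_assoc]
      change g₁ * g₂ * g₁⁻¹ * g₂⁻¹ ∈ _
      rw [this]
      exact mul_mem hg₁ h2
  have hQbot : (Q : Subgroup G).map π = ⊥ := by
    rw [eq_bot_iff, ← hinf]
    exact le_inf (hcomm.trans hC) le_rfl
  rw [Subgroup.map_eq_bot_iff] at hQbot
  simpa [hπ] using hQbot

/-- Let G be a finite p-solvable group and q a prime different from p. Some Sylow p-subgroup of G normalizes some Sylow q-subgroup of G if and only if q does not divide the order of G/O_{p'}(G), the quotient by the largest normal subgroup of order prime to p. -/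
theorem result {G : Type*} [Group G] [Finite G] (p q : ℕ) [Fact p.Prime] [Fact q.Prime] (hpq : p ≠ q) (hsolv : Cfsg.IsPSolvable p G) :
    (∃ (P : Sylow p G) (Q : Sylow q G), (P : Subgroup G) ≤ Subgroup.normalizer ((Q : Subgroup G) : Set G)) ↔ ¬ q ∣ (Cfsg.pPrimeCore p G).index := by
  classical
  constructor
  · rintro ⟨P, Q, h⟩ hd
    have hle := le_core p q hpq hsolv P Q h
    exact Q.not_dvd_index (hd.trans (Subgroup.index_dvd_of_le hle))
  · intro hq
    set N := Cfsg.pPrimeCore p G with hN
    have : N.Normal := Cores.pPrimeCore_normal p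
    have hcop : (Nat.card N).Coprime p := Cores.pPrimeCore_coprime p
    obtain ⟨R⟩ : Nonempty (Sylow q N) := inferInstance
    have hRi : ¬ q ∣ ((R : Subgroup N).map N.subtype).index := by
      rw [Subgroup.index_map_subtype]
      intro hd
      rcases (Fact.out : q.Prime).dvd_mul.mp hd with h1 | h1
      · exact R.not_dvd_index h1
      · exact hq h1
    let Q : Sylow q G := (R.isPGroup'.map N.subtype).toSylow hRi
    have hQ : (Q : Subgroup G) = (R : Subgroup N).map N.subtype := rfl
    have hfr : Subgroup.normalizer (((R : Subgroup N).map N.subtype : Subgroup G) : Set G) ⊔ N = ⊤ :=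
      Sylow.normalizer_sup_eq_top R
    set K := Subgroup.normalizer ((Q : Subgroup G) : Set G) with hK
    have hsup : K ⊔ N = ⊤ := by rw [hK, hQ]; exact hfr
    have hidx : ¬ p ∣ K.index := by
      have h1 : K.index ∣ Nat.card N := by
        have e1 : N.index = N.relIndex K := by
          rw [← Subgroup.relIndex_top_right, ← hsup, Subgroup.relIndex_sup_right]
        have e2 : Nat.card (N ⊓ K : Subgroup G) * N.relIndex K = Nat.card K := by
          rw [← Subgroup.inf_relIndex_right, ← Subgroup.relIndex_bot_left, ← Subgroup.relIndex_bot_left,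
            Subgroup.relIndex_mul_relIndex _ _ _ bot_le inf_le_right]
        have e3 := Subgroup.card_mul_index K
        have e4 := Subgroup.card_mul_index N
        have e5 : Nat.card (N ⊓ K : Subgroup G) * K.index = Nat.card N := by
          have hpos : 0 < N.relIndex K := Nat.pos_of_ne_zero Subgroup.index_ne_zero_of_finite
          apply Nat.eq_of_mul_eq_mul_right hpos
          rw [← e1, e4, ← e3, ← e2, e1]
          ring
        exact ⟨_, by rw [← e5, mul_comm]⟩
      intro hd
      have : p ∣ Nat.card N := hd.trans h1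
      exact ((Fact.out : p.Prime).coprime_iff_not_dvd.mp hcop.symm) this
    obtain ⟨S⟩ : Nonempty (Sylow p K) := inferInstance
    have hSi : ¬ p ∣ ((S : Subgroup K).map K.subtype).index := by
      rw [Subgroup.index_map_subtype]
      intro hd
      rcases (Fact.out : p.Prime).dvd_mul.mp hd with h1 | h1
      · exact S.not_dvd_index h1
      · exact hidx h1
    refine ⟨(S.isPGroup'.map K.subtype).toSylow hSi, Q, ?_⟩
    show (S : Subgroup K).map K.subtype ≤ K
    exact Subgroup.map_subtype_le _

end Cfsg.Agent.S4602
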