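import Mathlib
import Cfsg.Agent.H648.Dict
import Cfsg.Agent.H646.NormalSupport
import Cfsg.Agent.H649.Transport
import Cfsg.Agent.S0919
import Cfsg.Agent.H365.Zsig
import Cfsg.Agent.H697.Hering
import Cfsg.Agent.H648.HeightForm
import Cfsg.Agent.H644.CentralQuot
import Cfsg.Agent.S0908
import Cfsg.Agent.S4733
import Cfsg.Agent.Blocks.Knorr
import Cfsg.Agent.H648.NormTheta
import Cfsg.Agent.H591.Reynolds
import Cfsg.Agent.S4437
import Cfsg.Agent.H648.HarrisKnorr
import Cfsg.Agent.H625.FongRank
import Cfsg.Agent.S4435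
import Cfsg.Agent.S4436
import Cfsg.Agent.S4438
import Cfsg.Agent.S4648
import Cfsg.Agent.S4434
import Cfsg.Agent.S0972
import Cfsg.Agent.Lib.FrattiniPGroup
import Cfsg.Agent.H649.DefectPair
import Cfsg.Agent.S4655
import Cfsg.Agent.S4658
import Cfsg.Statements.S4609
set_option linter.all false

-- part: H648/NormInd
section
/-!
# Induction to the whole group of blocks of subgroups between `C_X(V)` and `X`, `V` normal
-/

set_option autoImplicit false
set_option linter.unusedSectionVars false

open Cfsg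

namespace Cfsg.Agent.H648.NormInd

open Cfsg.Agent.H644 Cfsg.Agent.Blocks.Local Cfsg.Agent.Blocks.MinMax
open Cfsg.Agent.H648.Dict
open Cfsg.Agent.Blocks.Basic (isPBlock_nonempty isPBlock_sameBlock isPGroup_of_isDefectGroup
  isPBlock_eq_of_mem)

universe u

variable {X : Type u} [Group X] [Finite X] {p : ℕ} [Fact p.Prime] {M : Ideal AlgInt}
  (V : Subgroup X) [V.Normal]

/-- A block of `H ≥ C_X(V)` with the central character of `B` on the elements supported on
`C_X(V)` induces `B`. -/
theorem isInducedBlock_of_lam (hM : IsPModular p M) [M.IsPrime] (hV : IsPGroup p V)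
    {H : Subgroup X} (hVH : V ≤ H) (hCH : Subgroup.centralizer (V : Set X) ≤ H)
    {β : Set (IrrCharacter H)} (hβ : IsPBlock M β) {B : Set (IrrCharacter X)} (hB : IsPBlock M B)
    (h : ∀ ξ ∈ β, ∀ χ ∈ B, ∀ x : MonoidAlgebra (ResField M) X, IsCls x →
      (∀ g, g ∉ Subgroup.centralizer (V : Set X) → x.coeff g = 0) →
      lam M (χ : X → ℂ) x = lam M (ξ : H → ℂ) (res H x)) : IsInducedBlock M H β B := by
  have := Fintype.ofFinite X
  obtain ⟨B₁, hB₁⟩ := Cfsg.Agent.S0919.result p M hM V H hV hVH hCH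
    (by rw [Subgroup.normalizer_eq_top]; exact le_top) β hβ
  obtain ⟨ξ, hξ⟩ := isPBlock_nonempty hβ
  obtain ⟨χ, hχ⟩ := isPBlock_nonempty hB
  obtain ⟨χ', hχ'⟩ := isPBlock_nonempty hB₁.2.1
  have h1 : lam M (χ' : X → ℂ) (idem M B) = 1 := by
    rw [← (isInducedBlock_iff.1 hB₁).2.2 ξ hξ χ' hχ' _ (isCls_idem B),
      ← h ξ hξ χ hχ (idem M B) (isCls_idem B) ?_, lam_idem_of_mem hM (isUnion_of_isPBlock hB) hχ]
    intro g hg
    rw [coeff_idem, Cfsg.Agent.H646.NormalSupport.blockCoeff_eq_zero hM hB V hV hg,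
      redC_zero]
  have h2 : χ' ∈ B := (lam_idem_eq_one_iff hM (isUnion_of_isPBlock hB)).1 h1
  have h3 : B₁ = B := isPBlock_eq_of_mem hB₁.2.1 hB hχ' h2
  rw [← h3]
  exact hB₁

/-- The block of `C_X(V)` covered by `B` induces `B`. -/
theorem isInducedBlock_of_covers (hM : IsPModular p M) (hV : IsPGroup p V)
    (C : Subgroup X) [C.Normal] [Fintype C] (hVC : V ≤ C)
    (hC : Subgroup.centralizer (V : Set X) = C)
    {b : Set (IrrCharacter C)} (hb : IsPBlock M b)
    {B : Set (IrrCharacter X)} (hB : IsPBlock M B) (hcov : Covers C B b) :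
    IsInducedBlock M C b B := by
  have hp : M.IsPrime := isPrime_of_isPModular hM
  have := Fintype.ofFinite X
  refine isInducedBlock_of_lam V hM hV hVC hC.le hb hB ?_
  intro ξ hξ χ hχ x hx hsupp
  exact (covers_iff_lam C hM hB hb).1 hcov χ hχ ξ hξ x hx fun g hg => hsupp g (by rwa [hC])

/-- A block of `Y ≥ C = C_X(V)` covering the copy of `b` induces `B`. -/
theorem isInducedBlock_of_covers_copy (hM : IsPModular p M) (hV : IsPGroup p V)
    (C : Subgroup X) [C.Normal] [Fintype C]
    (hC : Subgroup.centralizer (V : Set X) = C)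
    {b : Set (IrrCharacter C)} (hb : IsPBlock M b)
    {B : Set (IrrCharacter X)} (hB : IsPBlock M B) (hcov : Covers C B b)
    {Y : Subgroup X} (hVY : V ≤ Y) (hCY : C ≤ Y) [Fintype (C.subgroupOf Y)]
    {β : Set (IrrCharacter Y)} (hβ : IsPBlock M β)
    (hβcov : Covers (C.subgroupOf Y) β
      (Cfsg.Agent.H649.blkMap (Subgroup.subgroupOfEquivOfLe hCY).symm b)) :
    IsInducedBlock M Y β B := by
  have hp : M.IsPrime := isPrime_of_isPModular hM
  have := Fintype.ofFinite X
  refine isInducedBlock_of_lam V hM hV hVY (hC.le.trans hCY) hβ hB ?_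
  intro ξ hξ χ hχ x hx hsupp
  obtain ⟨θ, hθ⟩ := isPBlock_nonempty hb
  have h1 := (covers_iff_lam C hM hB hb).1 hcov χ hχ θ hθ x hx fun g hg => hsupp g (by rwa [hC])
  have h2 := (covers_iff_lam (C.subgroupOf Y) hM hβ (Cfsg.Agent.H649.isPBlock_blkMap hb)).1 hβcov
    ξ hξ (Cfsg.Agent.H649.irrMap (Subgroup.subgroupOfEquivOfLe hCY).symm θ)
    (Cfsg.Agent.H649.irrMap_mem_blkMap.2 hθ) (res Y x) (isCls_res (isInv_of_isCls hx Y)) (by
      intro g hg
      rw [coeff_res]
      exact hsupp g (fun h => hg (by rw [Subgroup.mem_subgroupOf, ← hC]; exact h)))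
  rw [h1, h2]
  refine (lam_irrMap (Subgroup.subgroupOfEquivOfLe hCY).symm θ
    (isCls_res (isInv_of_isCls hx C)) fun l => ?_).symm
  rw [coeff_res, coeff_res, coeff_res]
  rfl

end Cfsg.Agent.H648.NormInd
end

-- part: H648/TransArith
section
/-!
# Sums of two squares and large Zsigmondy primes

`cases_of_ss`: if `p ^ n - 1` is a sum of two squares up to squares (`n ≥ 2`) and there is no large
Zsigmondy prime for `p ^ n - 1`, then `p ^ n` is `9` or `81`.
-/

set_option autoImplicit false

namespace Cfsg.Agent.H648.TransArith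

open Cfsg.Agent.H365.Zsig

/-- All primes congruent to `3` modulo `4` divide `N` to an even power. -/
def SS (N : ℕ) : Prop := ∀ q : ℕ, q.Prime → q % 4 = 3 → Even (padicValNat q N)

theorem ss_of {N f a b : ℕ} (hN : N ≠ 0) (hf : f ≠ 0) (h : N * f ^ 2 = a ^ 2 + b ^ 2) : SS N := by
  intro q hq hq3
  have := Fact.mk hq
  have h1 := Nat.eq_sq_add_sq_iff.1 ⟨a, b, h⟩
  by_cases hqN : q ∣ N
  · have h2 := h1 q (by
      rw [Nat.mem_primeFactors]
      exact ⟨hq, hqN.mul_right _, mul_ne_zero hN (pow_ne_zero _ hf)⟩) hq3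
    rw [padicValNat.mul hN (pow_ne_zero _ hf), padicValNat.pow, Nat.even_add] at h2
    exact h2.2 (even_two_mul _)
  · rw [padicValNat.eq_zero_of_not_dvd hqN]
    exact Even.zero

theorem exists_of_ss {N : ℕ} (h : SS N) : ∃ x y, N = x ^ 2 + y ^ 2 :=
  Nat.eq_sq_add_sq_iff.2 fun q hq hq3 => h q (Nat.prime_of_mem_primeFactors hq) hq3

theorem not_ss_of_mod {N : ℕ} (h : N % 4 = 3) : ¬ SS N := by
  intro hs
  obtain ⟨x, y, hxy⟩ := exists_of_ss hs
  have hx : x ^ 2 % 4 = 0 ∨ x ^ 2 % 4 = 1 := by
    have : x % 4 = 0 ∨ x % 4 = 1 ∨ x % 4 = 2 ∨ x % 4 = 3 := by omega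
    rcases this with h | h | h | h <;> simp [Nat.pow_mod, h]
  have hy : y ^ 2 % 4 = 0 ∨ y ^ 2 % 4 = 1 := by
    have : y % 4 = 0 ∨ y % 4 = 1 ∨ y % 4 = 2 ∨ y % 4 = 3 := by omega
    rcases this with h | h | h | h <;> simp [Nat.pow_mod, h]
  omega

theorem ss_of_two_pow_mul {k m : ℕ} (hm : m ≠ 0) (h : SS (2 ^ k * m)) : SS m := by
  intro q hq hq3
  have := Fact.mk hq
  have h1 := h q hq hq3
  rw [padicValNat.mul (pow_ne_zero _ two_ne_zero) hm, padicValNat.pow,
    padicValNat.eq_zero_of_not_dvd (n := 2), mul_zero, zero_add] at h1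
  · exact h1
  · intro h2
    have := (Nat.prime_dvd_prime_iff_eq hq Nat.prime_two).1 h2
    omega

theorem two_pow_sub_one {n : ℕ} (hn : 2 ≤ n) : (2 ^ n - 1) % 4 = 3 := by
  obtain ⟨k, rfl⟩ := Nat.exists_eq_add_of_le hn
  rw [pow_add]
  have : 0 < 2 ^ k := by positivity
  omega

theorem ne_two_of_ss {p n : ℕ} (hn : 2 ≤ n) (h : SS (p ^ n - 1)) : p ≠ 2 := by
  rintro rfl
  exact not_ss_of_mod (two_pow_sub_one hn) h

theorem not_ss_of_seven {N : ℕ} (h1 : 7 ∣ N) (h2 : ¬ 49 ∣ N) (h0 : N ≠ 0) : ¬ SS N := by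
  intro h
  have : Fact (Nat.Prime 7) := ⟨by norm_num⟩
  have h3 := h 7 (by norm_num) (by norm_num)
  have h4 : 1 ≤ padicValNat 7 N := one_le_padicValNat_of_dvd h0 h1
  have h5 : padicValNat 7 N < 2 := by
    by_contra h6
    apply h2
    have h7 : 7 ^ 2 ∣ N := (padicValNat_dvd_iff_le h0).2 (not_lt.1 h6)
    simpa using h7
  have h6 : padicValNat 7 N = 1 := by omega
  rw [h6] at h3
  exact absurd h3 (by decide)

theorem cases_of_ss {p n : ℕ} (hp : p.Prime) (hn : 2 ≤ n) (h : SS (p ^ n - 1))
    (hL : ¬ Large p n) : p = 3 ∧ (n = 2 ∨ n = 4) := by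
  have hp2 : p ≠ 2 := ne_two_of_ss hn h
  have hpodd : p % 2 = 1 := by
    rcases hp.eq_two_or_odd with h | h
    · exact absurd h hp2
    · exact h
  have hp3 : 3 ≤ p := by
    have := hp.two_le
    omega
  by_contra hcon
  apply hL
  apply large_zsigmondy p n hp.two_le hn
  · rintro ⟨rfl, s, t, ht, hst⟩
    have ht' : t = 0 ∨ t = 1 := by omega
    have hN : p ^ 2 - 1 = (p - 1) * (p + 1) := by
      obtain ⟨k, rfl⟩ := Nat.exists_eq_add_of_le hp3
      have : (3 + k) ^ 2 = (3 + k - 1) * (3 + k + 1) + 1 := by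
        have : 3 + k - 1 = 2 + k := by omega
        rw [this]; ring
      omega
    rcases ht' with rfl | rfl
    · rw [pow_zero, mul_one] at hst
      -- `p + 1 = 2 ^ s`
      have hs2 : 3 ≤ s := by
        by_contra hs
        have : s = 0 ∨ s = 1 ∨ s = 2 := by omega
        rcases this with rfl | rfl | rfl
        · omega
        · omega
        · exact hcon ⟨by omega, Or.inl rfl⟩
      obtain ⟨r, rfl⟩ := Nat.exists_eq_add_of_le hs2
      have h1 : p ^ 2 - 1 = 2 ^ (r + 4) * (2 ^ (r + 2) - 1) := by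
        rw [hN]
        have h2 : p + 1 = 2 ^ (3 + r) := hst
        have h3 : p - 1 = 2 * (2 ^ (r + 2) - 1) := by
          have h4 : 2 ^ (3 + r) = 2 * 2 ^ (r + 2) := by ring
          have h5 : 0 < 2 ^ (r + 2) := by positivity
          omega
        rw [h2, h3]
        ring
      rw [h1] at h
      have h5 : 4 ≤ 2 ^ (r + 2) := by
        calc 4 = 2 ^ 2 := by norm_num
          _ ≤ 2 ^ (r + 2) := Nat.pow_le_pow_right (by norm_num) (by omega)
      have h2 := ss_of_two_pow_mul (by omega) h
      exact not_ss_of_mod (two_pow_sub_one (by omega)) h2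
    · rw [pow_one] at hst
      -- `p + 1 = 3 * 2 ^ s`: the exponent of `3` is one
      have : Fact (Nat.Prime 3) := ⟨by norm_num⟩
      have h1 := h 3 (by norm_num) (by norm_num)
      rw [hN, padicValNat.mul (by omega) (by omega), hst,
        padicValNat.mul (pow_ne_zero _ two_ne_zero) (by norm_num), padicValNat_self,
        padicValNat.eq_zero_of_not_dvd (n := p - 1),
        padicValNat.eq_zero_of_not_dvd (n := 2 ^ s)] at h1
      · exact absurd h1 (by decide)
      · intro h2
        have := (Nat.Prime.dvd_of_dvd_pow (by norm_num) h2 : 3 ∣ 2)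
        omega
      · omega
  · rintro ⟨h1, -⟩
    exact hp2 h1
  · rintro ⟨rfl, rfl | rfl⟩
    · exact hcon ⟨rfl, Or.inr rfl⟩
    · exact not_ss_of_seven (by norm_num) (by norm_num) (by norm_num) h
  · rintro ⟨rfl, rfl⟩
    exact not_ss_of_seven (by norm_num) (by norm_num) (by norm_num) h

end Cfsg.Agent.H648.TransArith
end

-- part: H648/LinTrans
section
/-!
# Linear groups transitive on nonzero vectors in which few elements have a cyclic centralizer

`H` is a group of linear maps of the finite space `V` over the prime field of order `p`, of order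
prime to `p` and transitive on the nonzero vectors, `|H|` is a sum of two squares, the
stabilizers of the vectors have square order, and any two nonidentity elements of `H` with cyclic
centralizers are conjugate.  Then `|V| ≤ 3`.
-/

set_option autoImplicit false

namespace Cfsg.Agent.H648.LinTrans

open Module Subgroup
open Cfsg.Agent.PermutationGroups.RegularLinear
open Cfsg.Agent.LieRecognition.FT61 Cfsg.Agent.H697 Cfsg.Agent.H648.TransArith
open Cfsg.Agent.H365.Zsig

/-- Any two nonidentity elements with cyclic centralizers are conjugate. -/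
def G2 (D : Type*) [Group D] : Prop := ∀ x y : D, x ≠ 1 → y ≠ 1 →
  IsCyclic (centralizer ({x} : Set D)) → IsCyclic (centralizer ({y} : Set D)) → IsConj x y

section grp

variable {D : Type*} [Group D]

theorem isCyclic_of_le {A B : Subgroup D} (h : A ≤ B) (hB : IsCyclic B) : IsCyclic A :=
  isCyclic_of_injective (inclusion h) (inclusion_injective h)

theorem orderOf_eq_of_isConj {x y : D} (h : IsConj x y) : orderOf x = orderOf y := by
  obtain ⟨c, hc⟩ := isConj_iff.1 h
  rw [← hc]
  exact (MulEquiv.orderOf_eq (MulAut.conj c) x).symm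

theorem centralizer_le_pow (x : D) (k : ℕ) :
    centralizer ({x} : Set D) ≤ centralizer ({x ^ k} : Set D) := by
  intro g hg
  rw [mem_centralizer_singleton_iff] at hg ⊢
  exact ((show Commute g x from hg).pow_right k)

variable [Finite D] {p n : ℕ} [Fact p.Prime] (σ : D →* GL (Fin n) (ZMod p))

/-- The square of a primitive prime divisor does not divide the order. -/
theorem sq_not_dvd (hσ : Function.Injective σ) (hG : G2 D) {s : ℕ} (hs : s.Prime)
    (hsn : s ∣ p ^ n - 1) (hsd : ∀ d, 0 < d → d < n → ¬ s ∣ p ^ d - 1) :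
    ¬ s ^ 2 ∣ Nat.card D := by
  intro h
  have := Fact.mk hs
  obtain ⟨P⟩ : Nonempty (Sylow s D) := inferInstance
  have hcyc : ∀ z : D, orderOf z = s → IsCyclic (centralizer ({z} : Set D)) := fun z hz =>
    HeringMat.isCyclic_centralizer σ hσ hs hsn hsd hz
  have hP2 : s ^ 2 ∣ Nat.card P := Sylow.pow_dvd_card_of_pow_dvd_card P h
  have hPne : (P : Subgroup D) ≠ ⊥ := by
    intro h0
    have h1 : Nat.card P = 1 := by
      change Nat.card (P : Subgroup D) = 1
      rw [h0, card_bot]
    rw [h1] at hP2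
    have h2 := Nat.dvd_one.1 hP2
    have h3 := hs.two_le
    nlinarith
  have hPc : IsCyclic P := Grp.isCyclic_sylow hcyc P hPne
  obtain ⟨g, hg⟩ := IsCyclic.exists_ofOrder_eq_natCard (α := P)
  obtain ⟨m, hm⟩ := hP2
  have hPpos : 0 < Nat.card P := Nat.card_pos
  have hm0 : 0 < m := by
    apply Nat.pos_of_ne_zero
    rintro rfl
    omega
  have hs0 := hs.pos
  have hsne : s ≠ 1 := hs.one_lt.ne'
  have ho1 : orderOf ((g : D) ^ m) = s ^ 2 := by
    rw [orderOf_pow_of_dvd hm0.ne' (by rw [Subgroup.orderOf_coe, hg, hm]; exact dvd_mul_left _ _),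
      Subgroup.orderOf_coe, hg, hm, Nat.mul_div_cancel _ hm0]
  have ho2 : orderOf (((g : D) ^ m) ^ s) = s := by
    rw [orderOf_pow_of_dvd hs0.ne' (by rw [ho1]; exact dvd_pow_self _ two_ne_zero), ho1, pow_two,
      Nat.mul_div_cancel _ hs0]
  have hc2 := hcyc _ ho2
  have hc1 := isCyclic_of_le (centralizer_le_pow ((g : D) ^ m) s) hc2
  have hconj := hG ((g : D) ^ m) (((g : D) ^ m) ^ s) (by
    intro h1
    rw [h1, orderOf_one] at ho1
    nlinarith [hs.two_le]) (by
    intro h1
    rw [h1, orderOf_one] at ho2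
    exact hsne ho2.symm) hc1 hc2
  have h1 := orderOf_eq_of_isConj hconj
  rw [ho1, ho2] at h1
  nlinarith [hs.two_le]

/-- A primitive prime divisor is at most `n + 1`. -/
theorem le_of_ppd (hσ : Function.Injective σ) (hG : G2 D) {s : ℕ} (hs : s.Prime)
    (hsn : s ∣ p ^ n - 1) (hsd : ∀ d, 0 < d → d < n → ¬ s ∣ p ^ d - 1)
    (hsD : s ∣ Nat.card D) : s ≤ n + 1 := by
  have := Fact.mk hs
  have hcyc : ∀ z : D, orderOf z = s → IsCyclic (centralizer ({z} : Set D)) := fun z hz =>
    HeringMat.isCyclic_centralizer σ hσ hs hsn hsd hz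
  obtain ⟨z, hz⟩ := exists_prime_orderOf_dvd_card' s hsD
  set C : Subgroup D := centralizer ({z} : Set D) with hC
  set N : Subgroup D := normalizer (C : Set D) with hN
  have hord : ∀ j : Fin (s - 1), orderOf (z ^ ((j : ℕ) + 1)) = s := by
    intro j
    have hj := j.2
    have h1 : orderOf (z ^ ((j : ℕ) + 1)) ∣ s := (orderOf_pow_dvd _).trans hz.dvd
    rcases (Nat.dvd_prime hs).1 h1 with h2 | h2
    · rw [orderOf_eq_one_iff] at h2
      have h3 := orderOf_dvd_of_pow_eq_one h2
      rw [hz] at h3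
      have := Nat.le_of_dvd (Nat.succ_pos _) h3
      omega
    · exact h2
  have hz1 : z ≠ 1 := by
    intro h
    rw [h, orderOf_one] at hz
    exact hs.one_lt.ne hz
  have hconj : ∀ j : Fin (s - 1), ∃ g : D, g * z * g⁻¹ = z ^ ((j : ℕ) + 1) := by
    intro j
    have h1 := hG z (z ^ ((j : ℕ) + 1)) hz1 (by
      intro h
      have := hord j
      rw [h, orderOf_one] at this
      exact hs.one_lt.ne this) (hcyc z hz) (hcyc _ (hord j))
    exact isConj_iff.1 h1
  choose g hg using hconj
  have hgN : ∀ j, g j ∈ N := by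
    intro j
    apply HeringMat.normalizer_zpowers_le z
    have h1 : ∀ k : ℤ, g j * z ^ k * (g j)⁻¹ ∈ zpowers z := by
      intro k
      rw [← conj_zpow, hg j]
      exact Subgroup.zpow_mem _ (Subgroup.pow_mem _ (mem_zpowers z) _) k
    have hfin : ((zpowers z : Subgroup D) : Set D).Finite := Set.toFinite _
    rw [mem_normalizer_iff]
    have hmap : (zpowers z).map (MulAut.conj (g j)).toMonoidHom = zpowers z := by
      apply Subgroup.eq_of_le_of_card_ge
      · rintro _ ⟨_, ⟨k, rfl⟩, rfl⟩
        exact h1 k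
      · rw [Nat.card_congr ((zpowers z).equivMapOfInjective _
          (MulAut.conj (g j)).injective).toEquiv.symm]
    intro y
    constructor
    · rintro ⟨k, rfl⟩
      exact h1 k
    · intro hy
      rw [← hmap] at hy
      obtain ⟨y', hy', h2⟩ := hy
      have h3 : y' = y := by
        have h4 : g j * y' * (g j)⁻¹ = g j * y * (g j)⁻¹ := h2
        exact mul_left_cancel (mul_right_cancel h4)
      rw [← h3]
      exact hy'
  have hcard := HeringMat.card_normalizer_le σ hσ hs hsn hsd hz
  rw [← hC, ← hN] at hcard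
  have hCN : C ≤ N := le_normalizer
  have hrel : Nat.card C * (C.subgroupOf N).index = Nat.card N := by
    rw [← (C.subgroupOf N).card_mul_index]
    congr 1
    exact (Nat.card_congr (subgroupOfEquivOfLe hCN).toEquiv).symm
  have hle : (C.subgroupOf N).index ≤ n := by
    have h0 : 0 < Nat.card C := Nat.card_pos
    rw [← hrel, mul_comm n] at hcard
    exact Nat.le_of_mul_le_mul_left hcard h0
  have hinj : Function.Injective (fun j : Fin (s - 1) =>
      (QuotientGroup.mk (⟨g j, hgN j⟩ : N) : N ⧸ C.subgroupOf N)) := by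
    intro i j hij
    have h1 := QuotientGroup.eq.1 hij
    rw [mem_subgroupOf] at h1
    change (g i)⁻¹ * g j ∈ centralizer ({z} : Set D) at h1
    rw [mem_centralizer_singleton_iff] at h1
    have h2 : z ^ ((i : ℕ) + 1) = z ^ ((j : ℕ) + 1) := by
      rw [← hg i, ← hg j]
      calc g i * z * (g i)⁻¹ = g i * (z * ((g i)⁻¹ * g j)) * (g j)⁻¹ := by group
        _ = g i * ((g i)⁻¹ * g j * z) * (g j)⁻¹ := by rw [h1]
        _ = g j * z * (g j)⁻¹ := by group
    have h3 := pow_injOn_Iio_orderOf (by rw [Set.mem_Iio, hz]; have := i.2; omega)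
      (by rw [Set.mem_Iio, hz]; have := j.2; omega) h2
    exact Fin.ext (by omega)
  have h1 := Nat.card_le_card_of_injective _ hinj
  rw [Nat.card_eq_fintype_card, Fintype.card_fin] at h1
  have h2 : Nat.card (N ⧸ C.subgroupOf N) = (C.subgroupOf N).index := rfl
  omega

theorem not_large (hσ : Function.Injective σ) (hG : G2 D) (hdvd : p ^ n - 1 ∣ Nat.card D) :
    ¬ Large p n := by
  rintro ⟨s, hs, hsn, hsd, h | h⟩
  · have := le_of_ppd σ hσ hG hs hsn (fun d h1 h2 => hsd d h1 h2) (hsn.trans hdvd)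
    omega
  · exact sq_not_dvd σ hσ hG hs hsn (fun d h1 h2 => hsd d h1 h2) (h.trans hdvd)

end grp

section lin

variable {p : ℕ} [Fact p.Prime] {V : Type*} [AddCommGroup V] [Module (ZMod p) V]

/-- The commutative case. -/
theorem card_le_of_comm [Finite V] [Nontrivial V] (H : Subgroup (V ≃ₗ[ZMod p] V))
    (htr : ∀ v w : V, v ≠ 0 → w ≠ 0 → ∃ h ∈ H, h v = w) (hG : G2 H)
    (hc : ∀ a b : H, a * b = b * a) : Nat.card V ≤ 3 := by
  have hfin : Finite (V ≃ₗ[ZMod p] V) := finite_gl
  have hcyc : IsCyclic (⊤ : Subgroup H) := by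
    have hcomm : IsMulCommutative (⊤ : Subgroup H) :=
      ⟨⟨fun a b => Subtype.ext (hc a b)⟩⟩
    have hinj := groupAlg_injective_of_comm H htr ⊤ inferInstance hcomm
    exact (isCyclic_and_card_dvd (groupAlg (⊤ : Subgroup H)) hinj
      (H.subtype.comp (⊤ : Subgroup H).subtype)
      (H.subtype_injective.comp (⊤ : Subgroup H).subtype_injective)
      (fun g => coe_mem_groupAlg ⊤ g.2)).1
  have hone : ∀ x y : H, x ≠ 1 → y ≠ 1 → x = y := by
    intro x y hx hy
    have h1 := hG x y hx hy (isCyclic_of_le le_top hcyc) (isCyclic_of_le le_top hcyc)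
    obtain ⟨c, hc'⟩ := isConj_iff.1 h1
    rw [← hc', hc c x, mul_inv_cancel_right]
  have hH : Nat.card H ≤ 2 := by
    by_contra hcon
    push Not at hcon
    have : 2 < Nat.card H := hcon
    obtain ⟨x, hx⟩ : ∃ x : H, x ≠ 1 := by
      have : Nontrivial H := Finite.one_lt_card_iff_nontrivial.1 (by omega)
      exact exists_ne 1
    have hle : Nat.card H ≤ ({1, x} : Set H).ncard := by
      rw [← Set.ncard_univ]
      apply Set.ncard_le_ncard _ (Set.toFinite _)
      intro y _
      by_cases hy : y = 1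
      · exact Or.inl hy
      · exact Or.inr (hone y x hy hx)
    have := Set.ncard_insert_le (1 : H) {x}
    rw [Set.ncard_singleton] at this
    omega
  have h1 := Hering.dvd_card H htr
  have h2 : 0 < Nat.card H := Nat.card_pos
  have h3 := Nat.le_of_dvd h2 h1
  omega

/-- The order of a transitive group. -/
theorem card_eq_mul [Finite V] [Nontrivial V] (H : Subgroup (V ≃ₗ[ZMod p] V))
    (htr : ∀ v w : V, v ≠ 0 → w ≠ 0 → ∃ h ∈ H, h v = w) {v : V} (hv : v ≠ 0) :
    Nat.card H = (Nat.card V - 1) * Nat.card (MulAction.stabilizer H v) := by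
  have : Finite (V ≃ₗ[ZMod p] V) := finite_gl
  have h1 := (MulAction.stabilizer H v).card_mul_index
  rw [MulAction.index_stabilizer] at h1
  have h2 : MulAction.orbit H v = {x : V | x ≠ 0} := by
    ext x
    constructor
    · rintro ⟨d, rfl⟩
      intro h
      apply hv
      have h3 : (d : V ≃ₗ[ZMod p] V) v = 0 := h
      exact (LinearEquiv.map_eq_zero_iff _).1 h3
    · intro hx
      obtain ⟨d, hd, hdx⟩ := htr v x hv hx
      exact ⟨⟨d, hd⟩, hdx⟩
  have h3 : {x : V | x ≠ 0} = ({0} : Set V)ᶜ := by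
    ext x
    simp
  rw [h2, h3, Set.ncard_compl, Set.ncard_singleton] at h1
  rw [← h1, mul_comm]

theorem dvd_card_of_orbits {S W : Type*} [Group S] [MulAction S W] [Finite W] {m : ℕ}
    (h : ∀ w : W, m ∣ Nat.card (MulAction.orbit S w)) : m ∣ Nat.card W := by
  classical
  have := Fintype.ofFinite W
  have : Fintype (MulAction.orbitRel.Quotient S W) := Fintype.ofFinite _
  rw [Nat.card_congr (MulAction.selfEquivSigmaOrbits S W), Nat.card_sigma]
  exact Finset.dvd_sum fun ω _ => h _

/-- The map `-1` lies in `H`. -/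
theorem exists_neg_one [Finite V] [Nontrivial V] (H : Subgroup (V ≃ₗ[ZMod p] V))
    (htr : ∀ v w : V, v ≠ 0 → w ≠ 0 → ∃ h ∈ H, h v = w) {k : ℕ} (hk : 1 ≤ k)
    (hkn : 2 ^ k ∣ Nat.card V - 1)
    (hkd : ∀ d, 0 < d → d < finrank (ZMod p) V → ¬ 2 ^ k ∣ p ^ d - 1) :
    ∃ z : H, ∀ v, (z : V ≃ₗ[ZMod p] V) v = -v := by
  classical
  have hfin : Finite (V ≃ₗ[ZMod p] V) := finite_gl
  have hmf : Module.Finite (ZMod p) V := Module.Finite.of_finite
  have hdvd := Hering.dvd_card H htr
  have h2H : 2 ∣ Nat.card H := ((dvd_pow_self 2 (by omega)).trans hkn).trans hdvd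
  have : Fact (Nat.Prime 2) := ⟨Nat.prime_two⟩
  obtain ⟨S⟩ : Nonempty (Sylow 2 H) := inferInstance
  have hSne : (S : Subgroup H) ≠ ⊥ := by
    intro h
    have h1 := S.dvd_card_of_dvd_card h2H
    rw [h, card_bot] at h1
    omega
  obtain ⟨z, hzS, hz, hzc⟩ := Grp.exists_central_orderOf S hSne
  have hz2 : z * z = 1 := by
    have := pow_orderOf_eq_one z
    rwa [hz, pow_two] at this
  have hz1 : z ≠ 1 := by
    rintro rfl
    rw [orderOf_one] at hz
    omega
  -- the fixed vectors of `z`
  let W : Submodule (ZMod p) V :=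
    { carrier := {v | (z : V ≃ₗ[ZMod p] V) v = v}
      add_mem' := by
        intro a b ha hb
        simp only [Set.mem_setOf_eq] at ha hb ⊢
        rw [map_add, ha, hb]
      zero_mem' := by simp
      smul_mem' := by
        intro c a ha
        simp only [Set.mem_setOf_eq] at ha ⊢
        rw [map_smul, ha] }
  have hmemW : ∀ v, v ∈ W ↔ (z : V ≃ₗ[ZMod p] V) v = v := fun v => Iff.rfl
  have hWcard : Nat.card W = p ^ finrank (ZMod p) W := by
    rw [Module.natCard_eq_pow_finrank (K := ZMod p), Nat.card_zmod]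
  have hdle : finrank (ZMod p) W ≤ finrank (ZMod p) V := Submodule.finrank_le W
  rcases Nat.eq_zero_or_pos (finrank (ZMod p) W) with h0 | h0
  · have hbot : W = ⊥ := Submodule.finrank_eq_zero.1 h0
    refine ⟨z, fun v => ?_⟩
    have h1 : v + (z : V ≃ₗ[ZMod p] V) v ∈ W := by
      rw [hmemW, map_add]
      have h2 : (z : V ≃ₗ[ZMod p] V) ((z : V ≃ₗ[ZMod p] V) v) = v := by
        have h3 : ((z * z : H) : V ≃ₗ[ZMod p] V) v = v := by
          rw [hz2]
          rfl
        exact h3
      rw [h2, add_comm]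
    rw [hbot, Submodule.mem_bot] at h1
    exact eq_neg_of_add_eq_zero_right h1
  · exfalso
    rcases Nat.lt_or_ge (finrank (ZMod p) W) (finrank (ZMod p) V) with hlt | hge
    · apply hkd _ h0 hlt
      rw [← hWcard]
      -- `S` acts on the nonzero vectors of `W`
      let A := {w : W // w ≠ 0}
      have hstab : ∀ (s : S) (w : W), (((s : H) : V ≃ₗ[ZMod p] V) w) ∈ W := by
        intro s w
        rw [hmemW]
        have h1 : z * (s : H) = (s : H) * z := hzc _ s.2
        have h2 : ((z * (s : H) : H) : V ≃ₗ[ZMod p] V) (w : V) =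
            (((s : H) * z : H) : V ≃ₗ[ZMod p] V) (w : V) := by rw [h1]
        have h3 : (z : V ≃ₗ[ZMod p] V) (((s : H) : V ≃ₗ[ZMod p] V) w) =
            ((s : H) : V ≃ₗ[ZMod p] V) ((z : V ≃ₗ[ZMod p] V) w) := h2
        rw [h3, (hmemW w).1 w.2]
      let act : MulAction S A :=
        { smul := fun s w => ⟨⟨((s : H) : V ≃ₗ[ZMod p] V) (w : W), hstab s w⟩, by
            intro h
            apply w.2
            apply Subtype.ext
            have h1 : ((s : H) : V ≃ₗ[ZMod p] V) ((w : W) : V) = 0 := congrArg Subtype.val h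
            exact (LinearEquiv.map_eq_zero_iff _).1 h1⟩
          one_smul := fun w => rfl
          mul_smul := fun s t w => rfl }
      have hAcard : Nat.card A = Nat.card W - 1 := by
        have h1 : Nat.card A = ({0}ᶜ : Set W).ncard := by
          rw [← Nat.card_coe_set_eq]
          rfl
        rw [h1, Set.ncard_compl, Set.ncard_singleton]
      rw [← hAcard]
      apply dvd_card_of_orbits (S := S)
      intro w
      have hw0 : ((w : W) : V) ≠ 0 := fun h => w.2 (Subtype.ext h)
      have h1 : Nat.card (MulAction.orbit S w) = (MulAction.stabilizer S w).index := by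
        rw [MulAction.index_stabilizer, ← Nat.card_coe_set_eq]
      rw [h1]
      have h2 := (MulAction.stabilizer S w).card_mul_index
      -- the stabilizer in `S` embeds into the stabilizer in `H`
      have h3 : Nat.card (MulAction.stabilizer S w) ∣
          Nat.card (MulAction.stabilizer H ((w : W) : V)) := by
        let j : MulAction.stabilizer S w →* MulAction.stabilizer H ((w : W) : V) :=
          { toFun := fun s => ⟨((s : S) : H), by
              have h4 : (s : S) • w = w := s.2
              have h5 : ((((s : S) : H)) : V ≃ₗ[ZMod p] V) ((w : W) : V) = ((w : W) : V) :=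
                congrArg (fun x : A => ((x : W) : V)) h4
              exact h5⟩
            map_one' := rfl
            map_mul' := fun _ _ => rfl }
        refine Subgroup.card_dvd_of_injective j fun a b hab => ?_
        apply Subtype.ext
        apply Subtype.ext
        exact congrArg (fun x : MulAction.stabilizer H ((w : W) : V) => (x : H)) hab
      obtain ⟨b, hb⟩ := (IsPGroup.iff_card (p := 2)).1
        (S.isPGroup'.to_subgroup (MulAction.stabilizer S w))
      obtain ⟨a, ha⟩ := (IsPGroup.iff_card (p := 2)).1 S.isPGroup'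
      have h4 : 2 ^ (b + k) ∣ Nat.card H := by
        rw [card_eq_mul H htr hw0, pow_add, mul_comm]
        exact mul_dvd_mul hkn (hb ▸ h3)
      have h5 : 2 ^ (b + k) ∣ Nat.card S := Sylow.pow_dvd_card_of_pow_dvd_card S h4
      rw [← h2, hb, pow_add] at h5
      exact Nat.dvd_of_mul_dvd_mul_left (by positivity) h5
    · have htop : W = ⊤ := Submodule.eq_top_of_finrank_eq (le_antisymm hdle hge)
      apply hz1
      apply Subtype.ext
      ext v
      have : v ∈ W := htop ▸ Submodule.mem_top
      exact (hmemW v).1 this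

theorem neg_comm (H : Subgroup (V ≃ₗ[ZMod p] V)) {z : H}
    (hz : ∀ v, (z : V ≃ₗ[ZMod p] V) v = -v) (g : H) : g * z = z * g := by
  apply Subtype.ext
  ext v
  change (g : V ≃ₗ[ZMod p] V) ((z : V ≃ₗ[ZMod p] V) v) =
    (z : V ≃ₗ[ZMod p] V) ((g : V ≃ₗ[ZMod p] V) v)
  rw [hz, hz, map_neg]

theorem neg_mul_self (H : Subgroup (V ≃ₗ[ZMod p] V)) {z : H}
    (hz : ∀ v, (z : V ≃ₗ[ZMod p] V) v = -v) : z * z = 1 := by
  apply Subtype.ext
  ext v
  change (z : V ≃ₗ[ZMod p] V) ((z : V ≃ₗ[ZMod p] V) v) = v
  rw [hz, hz, neg_neg]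

theorem neg_ne_one [Nontrivial V] (hp : p ≠ 2) (H : Subgroup (V ≃ₗ[ZMod p] V)) {z : H}
    (hz : ∀ v, (z : V ≃ₗ[ZMod p] V) v = -v) : z ≠ 1 := by
  rintro rfl
  obtain ⟨v, hv⟩ := exists_ne (0 : V)
  apply hv
  have h1 : v = -v := hz v
  have h2 : (2 : ZMod p) • v = 0 := by
    rw [two_smul]
    nth_rewrite 2 [h1]
    exact add_neg_cancel v
  have h3 : (2 : ZMod p) ≠ 0 := by
    intro h
    have h4 : ((2 : ℕ) : ZMod p) = 0 := by exact_mod_cast h
    rw [ZMod.natCast_eq_zero_iff] at h4
    have := (Nat.prime_dvd_prime_iff_eq (Fact.out : p.Prime) Nat.prime_two).1 h4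
    exact hp this
  exact (smul_eq_zero.1 h2).resolve_left h3

/-- `|V| = 81`. -/
theorem false_of_eightyone [Finite V] [Nontrivial V] (hp : p = 3)
    (hn : finrank (ZMod p) V = 4) (H : Subgroup (V ≃ₗ[ZMod p] V))
    (htr : ∀ v w : V, v ≠ 0 → w ≠ 0 → ∃ h ∈ H, h v = w) (hG : G2 H) : False := by
  subst hp
  have hfin : Finite (V ≃ₗ[ZMod 3] V) := finite_gl
  have hV := Hering.card_eq (p := 3) (V := V)
  obtain ⟨σ, hσ⟩ := Hering.exists_toGL H
  rw [hn] at hV
  obtain ⟨z, hz⟩ := exists_neg_one H htr (k := 4) (by norm_num) (by rw [hV]; norm_num) (by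
    intro d h1 h2
    rw [hn] at h2
    interval_cases d <;> norm_num)
  have hzz := neg_mul_self H hz
  have hz1 := neg_ne_one (by norm_num) H hz
  have h5 : 5 ∣ Nat.card H := by
    refine dvd_trans ?_ (Hering.dvd_card H htr)
    rw [hV]
    norm_num
  have : Fact (Nat.Prime 5) := ⟨by norm_num⟩
  obtain ⟨x, hx⟩ := exists_prime_orderOf_dvd_card' 5 h5
  have hxc : IsCyclic (centralizer ({x} : Set H)) := by
    refine HeringMat.isCyclic_centralizer σ hσ (s := 5) (by norm_num) ?_ ?_ hx
    · rw [hn]; norm_num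
    · intro d h1 h2
      rw [hn] at h2
      interval_cases d <;> norm_num
  have hxp : x ^ 5 = 1 := by rw [← hx]; exact pow_orderOf_eq_one x
  have hx1 : x ≠ 1 := by
    rintro rfl
    rw [orderOf_one] at hx
    omega
  have hcomm := neg_comm H hz
  have hw5 : (x * z) ^ 5 = z := by
    have h1 : Commute x z := hcomm x
    rw [h1.mul_pow, hxp, one_mul]
    calc z ^ 5 = (z * z) * (z * z) * z := by
          simp only [pow_succ, pow_zero, one_mul, mul_assoc]
      _ = z := by rw [hzz, one_mul, one_mul]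
  have hwc : IsCyclic (centralizer ({x * z} : Set H)) := by
    refine isCyclic_of_le ?_ hxc
    intro g hg
    rw [mem_centralizer_singleton_iff] at hg ⊢
    have h1 : g * x * z = x * g * z := by
      rw [mul_assoc, hg, mul_assoc, mul_assoc, hcomm g]
    exact mul_right_cancel h1
  have hconj := hG x (x * z) hx1 (by
    intro h
    rw [h, one_pow] at hw5
    exact hz1 hw5.symm) hxc hwc
  have h1 := orderOf_eq_of_isConj hconj
  rw [hx] at h1
  have h2 : (x * z) ^ 5 = 1 := by rw [h1]; exact pow_orderOf_eq_one _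
  rw [hw5] at h2
  exact hz1 h2

/-- `|V| = 9`. -/
theorem false_of_nine [Finite V] [Nontrivial V] (hp : p = 3)
    (hn : finrank (ZMod p) V = 2) (H : Subgroup (V ≃ₗ[ZMod p] V))
    (htr : ∀ v w : V, v ≠ 0 → w ≠ 0 → ∃ h ∈ H, h v = w)
    {f : ℕ} (hstab : ∀ v : V, v ≠ 0 → Nat.card (MulAction.stabilizer H v) = f ^ 2)
    (hG : G2 H) : False := by
  subst hp
  have hfin : Finite (V ≃ₗ[ZMod 3] V) := finite_gl
  have hV := Hering.card_eq (p := 3) (V := V)
  obtain ⟨σ, hσ⟩ := Hering.exists_toGL H
  rw [hn] at hV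
  obtain ⟨z, hz⟩ := exists_neg_one H htr (k := 3) (by norm_num) (by rw [hV]; norm_num) (by
    intro d h1 h2
    rw [hn] at h2
    interval_cases d
    norm_num)
  have hzz := neg_mul_self H hz
  have hz1 := neg_ne_one (by norm_num) H hz
  have hcomm := neg_comm H hz
  obtain ⟨v₀, hv₀⟩ := exists_ne (0 : V)
  have hcard := card_eq_mul H htr hv₀
  rw [hstab v₀ hv₀, hV] at hcard
  have h48 : Nat.card H ∣ 48 := by
    have h1 : Nat.card H ∣ Nat.card (GL (Fin (finrank (ZMod 3) V)) (ZMod 3)) :=
      Subgroup.card_dvd_of_injective σ hσ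
    rw [Matrix.card_GL_field, hn] at h1
    have h2 : ∏ i : Fin 2, (Fintype.card (ZMod 3) ^ 2 - Fintype.card (ZMod 3) ^ (i : ℕ)) = 48 := by
      rw [ZMod.card]
      decide
    rw [h2] at h1
    exact h1
  have hf : f ^ 2 = 1 := by
    rw [hcard] at h48
    have h1 : f ^ 2 ∣ 6 := by
      have h2 : (8 : ℕ) * f ^ 2 ∣ 8 * 6 := by simpa using h48
      exact Nat.dvd_of_mul_dvd_mul_left (by norm_num) h2
    have h2 : f ≤ 2 := by
      have := Nat.le_of_dvd (by norm_num) h1
      nlinarith
    interval_cases f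
    · norm_num at h1
    · rfl
    · norm_num at h1
  rw [hf] at hcard
  norm_num at hcard
  -- the only involution is `z`
  have hfix : ∀ (g : H) (v : V), v ≠ 0 → (g : V ≃ₗ[ZMod 3] V) v = v → g = 1 := by
    intro g v hv hgv
    have h1 := hstab v hv
    rw [hf, Subgroup.card_eq_one] at h1
    have h2 : g ∈ MulAction.stabilizer H v := hgv
    rw [h1, mem_bot] at h2
    exact h2
  have hinv : ∀ t : H, t ≠ 1 → t * t = 1 → t = z := by
    intro t ht htt
    apply Subtype.ext
    ext v
    rw [hz]
    have h1 : (t : V ≃ₗ[ZMod 3] V) (v + (t : V ≃ₗ[ZMod 3] V) v) = v + (t : V ≃ₗ[ZMod 3] V) v := by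
      have h2 : (t : V ≃ₗ[ZMod 3] V) ((t : V ≃ₗ[ZMod 3] V) v) = v := by
        have h3 : ((t * t : H) : V ≃ₗ[ZMod 3] V) v = v := by
          rw [htt]
          rfl
        exact h3
      rw [map_add, h2, add_comm]
    by_contra h2
    apply ht
    apply hfix t _ _ h1
    intro h3
    exact h2 (eq_neg_of_add_eq_zero_right h3)
  have hord : ∀ x : H, x ≠ 1 → x ≠ z → 4 ∣ orderOf x := by
    intro x hx hxz
    have h1 : orderOf x ∣ 2 ^ 3 := by
      have := orderOf_dvd_natCard x
      rw [hcard] at this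
      exact this
    obtain ⟨k, hk, hk'⟩ := (Nat.dvd_prime_pow Nat.prime_two).1 h1
    have hk2 : 2 ≤ k := by
      by_contra hk2
      have : k = 0 ∨ k = 1 := by omega
      rcases this with rfl | rfl
      · rw [pow_zero, orderOf_eq_one_iff] at hk'
        exact hx hk'
      · apply hxz
        apply hinv x hx
        have := pow_orderOf_eq_one x
        rwa [hk', pow_one, pow_two] at this
    rw [hk']
    exact pow_dvd_pow 2 hk2
  by_cases hc : ∀ a b : H, a * b = b * a
  · have := card_le_of_comm H htr hG hc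
    rw [hV] at this
    omega
  · have hcent : ∀ x : H, x ≠ 1 → x ≠ z → Nat.card (centralizer ({x} : Set H)) = 4 ∧
        IsCyclic (centralizer ({x} : Set H)) := by
      intro x hx hxz
      have h4 := hord x hx hxz
      have hxc : x ∈ centralizer ({x} : Set H) := by
        rw [mem_centralizer_singleton_iff]
      have h1 : orderOf x ∣ Nat.card (centralizer ({x} : Set H)) := by
        have := orderOf_dvd_natCard (⟨x, hxc⟩ : centralizer ({x} : Set H))
        rwa [Subgroup.orderOf_mk] at this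
      have h2 : Nat.card (centralizer ({x} : Set H)) ∣ 8 := by
        rw [← hcard]
        exact Subgroup.card_subgroup_dvd_card _
      have h3 : Nat.card (centralizer ({x} : Set H)) ≠ 8 := by
        intro h3
        apply hc
        have htop : centralizer ({x} : Set H) = ⊤ := by
          apply Subgroup.eq_top_of_card_eq
          rw [h3, hcard]
        have hxZ : x ∈ center H := by
          rw [mem_center_iff]
          intro g
          have : g ∈ centralizer ({x} : Set H) := htop ▸ mem_top g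
          exact mem_centralizer_singleton_iff.1 this
        have hle : zpowers x ≤ center H := by rwa [zpowers_le]
        have hnorm : (zpowers x).Normal := by
          refine ⟨fun n hn g => ?_⟩
          have h5 := mem_center_iff.1 (hle hn) g
          rw [h5, mul_inv_cancel_right]
          exact hn
        have hidx : (zpowers x).index ≤ 2 := by
          have h5 := (zpowers x).card_mul_index
          rw [Nat.card_zpowers, hcard] at h5
          obtain ⟨c, hc'⟩ := h4
          rw [hc'] at h5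
          have hc0 : 0 < c := by
            apply Nat.pos_of_ne_zero
            rintro rfl
            omega
          by_contra h6
          push Not at h6
          nlinarith [Nat.mul_le_mul hc0 h6]
        have hcyc : IsCyclic (H ⧸ zpowers x) := by
          have h5 : Nat.card (H ⧸ zpowers x) ≤ 2 := hidx
          have h6 : 0 < Nat.card (H ⧸ zpowers x) := Nat.card_pos
          have h7 : Nat.card (H ⧸ zpowers x) = 1 ∨ Nat.card (H ⧸ zpowers x) = 2 := by omega
          rcases h7 with h7 | h7
          · have := (Nat.card_eq_one_iff_unique.1 h7).1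
            exact isCyclic_of_subsingleton
          · have : Fact (Nat.Prime 2) := ⟨Nat.prime_two⟩
            exact isCyclic_of_prime_card h7
        intro a b
        exact ((QuotientGroup.mk' (zpowers x)).isMulCommutative_of_isCyclic_of_ker_le_center
          (by rw [QuotientGroup.ker_mk']; exact hle)).is_comm.comm a b
      have h5 : Nat.card (centralizer ({x} : Set H)) = 4 := by
        have h6 : 4 ∣ Nat.card (centralizer ({x} : Set H)) := h4.trans h1
        have h7 := Nat.le_of_dvd (by norm_num) h2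
        obtain ⟨c, hc'⟩ := h6
        rw [hc'] at h2 h3 h7 ⊢
        have : c ≤ 2 := by omega
        interval_cases c
        · norm_num at h2
        · rfl
        · exact absurd rfl h3
      refine ⟨h5, ?_⟩
      have h6 : orderOf (⟨x, hxc⟩ : centralizer ({x} : Set H)) =
          Nat.card (centralizer ({x} : Set H)) := by
        rw [Subgroup.orderOf_mk]
        rw [h5] at h1 ⊢
        exact Nat.dvd_antisymm h1 h4
      exact isCyclic_of_orderOf_eq_card _ h6
    obtain ⟨x, hx, hxz⟩ : ∃ x : H, x ≠ 1 ∧ x ≠ z := by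
      by_contra hcon
      push Not at hcon
      have hle : Nat.card H ≤ ({1, z} : Set H).ncard := by
        rw [← Set.ncard_univ]
        apply Set.ncard_le_ncard _ (Set.toFinite _)
        intro y _
        by_cases hy : y = 1
        · exact Or.inl hy
        · exact Or.inr (hcon y hy)
      have := Set.ncard_insert_le (1 : H) {z}
      rw [Set.ncard_singleton] at this
      omega
    obtain ⟨hx4, hxc⟩ := hcent x hx hxz
    -- the class of `x`
    let φ : H ⧸ centralizer ({x} : Set H) → H := Quotient.lift (fun g : H => g * x * g⁻¹) (by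
      intro a b hab
      have h1 : a⁻¹ * b ∈ centralizer ({x} : Set H) := QuotientGroup.leftRel_apply.1 hab
      rw [mem_centralizer_singleton_iff] at h1
      calc a * x * a⁻¹ = a * (x * (a⁻¹ * b)) * b⁻¹ := by group
        _ = a * (a⁻¹ * b * x) * b⁻¹ := by rw [h1]
        _ = b * x * b⁻¹ := by group)
    have hidx : Nat.card (H ⧸ centralizer ({x} : Set H)) = 2 := by
      have h5 := (centralizer ({x} : Set H)).card_mul_index
      rw [hx4, hcard] at h5
      have h6 : Nat.card (H ⧸ centralizer ({x} : Set H)) = (centralizer ({x} : Set H)).index := rfl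
      omega
    have hrange : (Set.univ : Set H) ⊆ Set.range φ ∪ {1, z} := by
      intro y _
      by_cases hy : y = 1
      · exact Or.inr (Or.inl hy)
      by_cases hyz : y = z
      · exact Or.inr (Or.inr hyz)
      · left
        obtain ⟨c, hc'⟩ := isConj_iff.1 (hG x y hx hy hxc (hcent y hy hyz).2)
        exact ⟨QuotientGroup.mk c, hc'⟩
    have h1 := Set.ncard_le_ncard hrange (Set.toFinite _)
    rw [Set.ncard_univ, hcard] at h1
    have h2 := Set.ncard_union_le (Set.range φ) {1, z}
    have h3 : (Set.range φ).ncard ≤ 2 := by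
      rw [← hidx, ← Set.image_univ, ← Set.ncard_univ]
      exact Set.ncard_image_le (Set.toFinite _)
    have h4 := Set.ncard_insert_le (1 : H) {z}
    rw [Set.ncard_singleton] at h4
    omega

/-- **The main theorem on transitive linear groups.** -/
theorem card_le_three [Finite V] [Nontrivial V] (H : Subgroup (V ≃ₗ[ZMod p] V))
    (htr : ∀ v w : V, v ≠ 0 → w ≠ 0 → ∃ h ∈ H, h v = w)
    {f : ℕ} (hstab : ∀ v : V, v ≠ 0 → Nat.card (MulAction.stabilizer H v) = f ^ 2)
    {a b : ℕ} (hab : Nat.card H = a ^ 2 + b ^ 2) (hG : G2 H) : Nat.card V ≤ 3 := by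
  have hfin : Finite (V ≃ₗ[ZMod p] V) := finite_gl
  have hmf : Module.Finite (ZMod p) V := Module.Finite.of_finite
  have hp : p.Prime := Fact.out
  have hV := Hering.card_eq (p := p) (V := V)
  obtain ⟨σ, hσ⟩ := Hering.exists_toGL H
  have hn0 : 0 < finrank (ZMod p) V := Module.finrank_pos
  obtain ⟨v₀, hv₀⟩ := exists_ne (0 : V)
  have hcard := card_eq_mul H htr hv₀
  rw [hstab v₀ hv₀, hV] at hcard
  rcases Nat.lt_or_ge (finrank (ZMod p) V) 2 with h1 | h2
  · have hn : finrank (ZMod p) V = 1 := by omega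
    apply card_le_of_comm H htr hG
    intro x y
    apply hσ
    rw [map_mul, map_mul]
    apply Units.ext
    rw [Units.val_mul, Units.val_mul]
    ext i j
    rw [Matrix.mul_apply, Matrix.mul_apply]
    refine Finset.sum_congr rfl fun k _ => ?_
    have hi := i.2
    have hj := j.2
    have hk := k.2
    have h1 : k = i := Fin.ext (by omega)
    have h2 : j = i := Fin.ext (by omega)
    rw [h1, h2, mul_comm]
  · exfalso
    have hpow : p ^ finrank (ZMod p) V - 1 ≠ 0 := by
      have h3 : 2 ^ 1 ≤ p ^ finrank (ZMod p) V := by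
        calc 2 ^ 1 ≤ 2 ^ finrank (ZMod p) V := Nat.pow_le_pow_right (by norm_num) hn0
          _ ≤ p ^ finrank (ZMod p) V := Nat.pow_le_pow_left hp.two_le _
      omega
    have hf0 : f ≠ 0 := by
      rintro rfl
      have : 0 < Nat.card H := Nat.card_pos
      rw [hcard] at this
      simp at this
    have hSS := ss_of hpow hf0 (hcard.symm.trans hab)
    have hnL := not_large σ hσ hG ⟨f ^ 2, hcard⟩
    obtain ⟨hp3, hn | hn⟩ := cases_of_ss hp h2 hSS hnL
    · exact false_of_nine hp3 hn H htr hstab hG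
    · exact false_of_eightyone hp3 hn H htr hG

end lin

end Cfsg.Agent.H648.LinTrans
end

-- part: H648/NormLin
section
/-!
# The conjugation action on a normal elementary abelian subgroup as a linear group
-/

set_option autoImplicit false

namespace Cfsg.Agent.H648.NormLin

open Cfsg.Agent.H648.LinTrans

universe u

variable {X : Type u} [Group X] [Finite X] {p : ℕ} [Fact p.Prime]

theorem g2_of_equiv {A B : Type*} [Group A] [Group B] (e : A ≃* B) (hG : G2 A) : G2 B := by
  intro x y hx hy hcx hcy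
  have hcyc : ∀ z : B, IsCyclic (Subgroup.centralizer ({z} : Set B)) →
      IsCyclic (Subgroup.centralizer ({e.symm z} : Set A)) := by
    intro z hz
    have hmem : ∀ w ∈ Subgroup.centralizer ({e.symm z} : Set A),
        e w ∈ Subgroup.centralizer ({z} : Set B) := by
      intro w hw
      rw [Subgroup.mem_centralizer_singleton_iff] at hw ⊢
      have := congrArg e hw
      rwa [map_mul, map_mul, e.apply_symm_apply] at this
    refine isCyclic_of_injective
      (MonoidHom.mk' (fun w : Subgroup.centralizer ({e.symm z} : Set A) =>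
        (⟨e w, hmem w w.2⟩ : Subgroup.centralizer ({z} : Set B))) (by
          intro a b
          apply Subtype.ext
          exact map_mul e (a : A) b)) ?_
    intro a b h
    apply Subtype.ext
    apply e.injective
    exact congrArg Subtype.val h
  have h1 := hG (e.symm x) (e.symm y) (fun h => hx (by simpa using h))
    (fun h => hy (by simpa using h)) (hcyc x hcx) (hcyc y hcy)
  obtain ⟨c, hc⟩ := isConj_iff.1 h1
  refine isConj_iff.2 ⟨e c, ?_⟩
  have := congrArg e hc
  simpa using this

theorem card_le_three_lin {W : Type*} [AddCommGroup W] [Module (ZMod p) W] [Finite W]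
    [Nontrivial W] (φ : X →* (W ≃ₗ[ZMod p] W))
    (htr : ∀ v w : W, v ≠ 0 → w ≠ 0 → ∃ x : X, φ x v = w) {f : ℕ}
    (hstab : ∀ v : W, v ≠ 0 → ∀ S : Subgroup X, (∀ x, x ∈ S ↔ φ x v = v) →
      φ.ker.relIndex S = f ^ 2)
    {a b : ℕ} (hab : φ.ker.index = a ^ 2 + b ^ 2) (hG : G2 (X ⧸ φ.ker)) : Nat.card W ≤ 3 := by
  have hcardr : Nat.card φ.range = φ.ker.index :=
    (Nat.card_congr (QuotientGroup.quotientKerEquivRange φ).toEquiv).symm
  refine LinTrans.card_le_three (p := p) φ.range ?_ (f := f) ?_ (a := a) (b := b) ?_ ?_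
  · intro v w hv hw
    obtain ⟨x, hx⟩ := htr v w hv hw
    exact ⟨φ x, ⟨x, rfl⟩, hx⟩
  · intro v hv
    have h1 : ∀ x, x ∈ (MulAction.stabilizer φ.range v).comap φ.rangeRestrict ↔ φ x v = v := by
      intro x
      rw [Subgroup.mem_comap, MulAction.mem_stabilizer_iff]
      rfl
    have h2 := Subgroup.index_comap_of_surjective (MulAction.stabilizer φ.range v)
      φ.rangeRestrict_surjective
    have h3 := (MulAction.stabilizer φ.range v).card_mul_index
    have h4 := hstab v hv _ h1
    have h5 : φ.ker ≤ (MulAction.stabilizer φ.range v).comap φ.rangeRestrict := by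
      intro x hx
      rw [h1, MonoidHom.mem_ker.1 hx]
      rfl
    have h6 := Subgroup.relIndex_mul_index h5
    rw [← h2, hcardr, ← h6, h4] at h3
    exact Nat.eq_of_mul_eq_mul_right (Nat.pos_of_ne_zero Subgroup.index_ne_zero_of_finite) h3
  · rw [hcardr, hab]
  · exact g2_of_equiv (QuotientGroup.quotientKerEquivRange φ) hG

theorem card_le_three_aut {W : Type*} [CommGroup W] [Finite W] [Nontrivial W]
    (hexp : ∀ w : W, w ^ p = 1) (ψ : X →* MulAut W)
    (htr : ∀ v w : W, v ≠ 1 → w ≠ 1 → ∃ x : X, ψ x v = w) {f : ℕ}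
    (hstab : ∀ v : W, v ≠ 1 → ∀ S : Subgroup X, (∀ x, x ∈ S ↔ ψ x v = v) →
      ψ.ker.relIndex S = f ^ 2)
    {a b : ℕ} (hab : ψ.ker.index = a ^ 2 + b ^ 2) (hG : G2 (X ⧸ ψ.ker)) : Nat.card W ≤ 3 := by
  let _ : Module (ZMod p) (Additive W) := AddCommGroup.zmodModule (n := p) hexp
  let lin : MulAut W → (Additive W ≃ₗ[ZMod p] Additive W) := fun x =>
    { (MulEquiv.toAdditive x : Additive W ≃+ Additive W) with
      map_smul' := fun c v => ZMod.map_smul
        (MulEquiv.toAdditive x : Additive W ≃+ Additive W) c v }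
  have hlin : ∀ (x : MulAut W) (v : Additive W), lin x v =
      Additive.ofMul (x (Additive.toMul v)) := fun _ _ => rfl
  let φ : X →* (Additive W ≃ₗ[ZMod p] Additive W) :=
    MonoidHom.mk' (fun x => lin (ψ x)) (by
        intro x y
        refine LinearEquiv.ext fun v => ?_
        rw [LinearEquiv.mul_apply, hlin, hlin, hlin, map_mul]
        rfl)
  have hφ : ∀ (x : X) (v : Additive W), φ x v = Additive.ofMul (ψ x (Additive.toMul v)) :=
    fun _ _ => rfl
  have hker : φ.ker = ψ.ker := by
    ext x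
    rw [MonoidHom.mem_ker, MonoidHom.mem_ker]
    constructor
    · intro h
      refine MulEquiv.ext fun v => ?_
      have h1 := congrArg (fun l => Additive.toMul (l (Additive.ofMul v))) h
      exact h1
    · intro h
      refine LinearEquiv.ext fun v => ?_
      rw [hφ, h]
      rfl
  have : Nontrivial (Additive W) := inferInstanceAs (Nontrivial W)
  have hcard : Nat.card (Additive W) = Nat.card W := rfl
  rw [← hcard]
  refine card_le_three_lin (p := p) φ ?_ (f := f) ?_ (a := a) (b := b) ?_ ?_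
  · intro v w hv hw
    obtain ⟨x, hx⟩ := htr (Additive.toMul v) (Additive.toMul w) hv hw
    exact ⟨x, by rw [hφ, hx]; rfl⟩
  · intro v hv S hS
    rw [hker]
    exact hstab (Additive.toMul v) hv S hS
  · rw [hker, hab]
  · exact g2_of_equiv (QuotientGroup.quotientMulEquivOfEq hker.symm) hG

/-- `V` is a normal elementary abelian `p`-subgroup of `X`, with centralizer `C`, `X` is transitive
on the nonidentity elements of `V`, with stabilizers of order `f²` modulo `C`, the order of `X / C`
is a sum of two squares and any two nonidentity elements of `X / C` with cyclic centralizers are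
conjugate. Then `|V| ≤ 3`. -/
theorem card_le_three (V C : Subgroup X) [V.Normal] [C.Normal]
    (hC : Subgroup.centralizer (V : Set X) = C) (hVC : V ≤ C)
    (hexp : ∀ v ∈ V, v ^ p = 1) (hV1 : V ≠ ⊥)
    (htr : ∀ v ∈ V, ∀ w ∈ V, v ≠ 1 → w ≠ 1 → IsConj v w) {f : ℕ}
    (hstab : ∀ v ∈ V, v ≠ 1 → C.relIndex (Subgroup.centralizer ({v} : Set X)) = f ^ 2)
    {a b : ℕ} (hab : C.index = a ^ 2 + b ^ 2) (hG : G2 (X ⧸ C)) : Nat.card V ≤ 3 := by
  have hcomm : ∀ v w : V, v * w = w * v := by
    intro v w
    apply Subtype.ext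
    have h1 : (v : X) ∈ Subgroup.centralizer (V : Set X) := by rw [hC]; exact hVC v.2
    exact ((Subgroup.mem_centralizer_iff.1 h1) w w.2).symm
  have hnt : Nontrivial V := (Subgroup.nontrivial_iff_ne_bot V).2 hV1
  have hker : (MulAut.conjNormal : X →* MulAut V).ker = C := by
    ext x
    rw [MonoidHom.mem_ker, ← hC, Subgroup.mem_centralizer_iff]
    constructor
    · intro h v hv
      have h2 : (((MulAut.conjNormal x : MulAut V) ⟨v, hv⟩ : V) : X) = v := by rw [h]; rfl
      rw [MulAut.conjNormal_apply] at h2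
      have h3 : x * v * x⁻¹ = v := h2
      rw [mul_inv_eq_iff_eq_mul] at h3
      exact h3.symm
    · intro h
      refine MulEquiv.ext fun v => ?_
      apply Subtype.ext
      rw [MulAut.conjNormal_apply, mul_inv_eq_iff_eq_mul]
      exact (h v v.2).symm
  have hG' : G2 (X ⧸ (MulAut.conjNormal : X →* MulAut V).ker) :=
    g2_of_equiv (QuotientGroup.quotientMulEquivOfEq hker.symm) hG
  let _ : CommGroup V := { (inferInstance : Group V) with mul_comm := hcomm }
  refine card_le_three_aut (p := p) (W := V) ?_ (MulAut.conjNormal : X →* MulAut V) ?_ (f := f) ?_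
    (a := a) (b := b) ?_ ?_
  · intro w
    apply Subtype.ext
    exact hexp w w.2
  · intro v w hv hw
    obtain ⟨x, hx⟩ := isConj_iff.1 (htr v v.2 w w.2 (fun h => hv (Subtype.ext h))
      (fun h => hw (Subtype.ext h)))
    refine ⟨x, Subtype.ext ?_⟩
    exact (MulAut.conjNormal_apply x v).trans hx
  · intro v hv S hS
    have h1 : S = Subgroup.centralizer ({(v : X)} : Set X) := by
      ext x
      rw [hS, Subgroup.mem_centralizer_singleton_iff]
      constructor
      · intro h
        have h2 : (((MulAut.conjNormal x : MulAut V) v : V) : X) = v := congrArg Subtype.val h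
        have h3 := (MulAut.conjNormal_apply x v).symm.trans h2
        rw [mul_inv_eq_iff_eq_mul] at h3
        exact h3
      · intro h
        apply Subtype.ext
        refine (MulAut.conjNormal_apply x v).trans ?_
        rw [mul_inv_eq_iff_eq_mul]
        exact h
    have h2 := hstab v v.2 (fun h => hv (Subtype.ext h))
    rw [← h1] at h2
    rw [← h2]
    congr 1
  · rw [← hab, ← hker]
  · exact hG'

end Cfsg.Agent.H648.NormLin
end

-- part: H648/Canonical
section
/-!
# The canonical character of a block with central defect group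
-/

set_option autoImplicit false

open Cfsg Cfsg.Agent.Blocks.Basic Cfsg.Agent.Blocks.Local Module

namespace Cfsg.Agent.H648.Canonical

open Cfsg.Agent.H644.CentralQuot

variable {C : Type*} [Group C] [Finite C] {p : ℕ} [Fact p.Prime] {M : Ideal AlgInt}

/-- A block with central defect group `U` has exactly one character which is trivial on `U`, and
this is a character of defect zero of the quotient. -/
theorem exists_canonical (hM : IsPModular p M) (U : Subgroup C) (hU : U ≤ Subgroup.center C)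
    {b : Set (IrrCharacter C)} (hb : IsPBlock M b) (hD : IsDefectGroup p M b U) :
    ∃ θ ∈ b, (∀ u ∈ U, (θ : C → ℂ) u = (θ : C → ℂ) 1) ∧
      p ^ (U.index).factorization p ∣ charDegree (θ : C → ℂ) ∧
      ∀ θ' ∈ b, (∀ u ∈ U, (θ' : C → ℂ) u = (θ' : C → ℂ) 1) → θ' = θ := by
  classical
  have hp : p.Prime := Fact.out
  have := Fintype.ofFinite C
  have := Fintype.ofFinite U
  have hUn : U.Normal := ⟨fun n hn g => by
    have := Subgroup.mem_center_iff.1 (hU hn) g
    rw [this, mul_assoc, mul_inv_cancel, mul_one]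
    exact hn⟩
  have hcard := S0908.result p M hM b hb U hD
  have h1 := blockDefect_defl hM hU hcard hb
  have h2 : blockDefect p (defl U b) = 0 := by omega
  have h3 : IsPBlock M (defl U b) :=
    isPBlock_defl hM hU (IsPGroup.of_card hcard) hb
  have h4 := (S4733.result p M hM _ h3).2.1.1 h2
  obtain ⟨θ, hθ⟩ := exists_mem_defl hM (IsPGroup.of_card hcard) hb
  have h5 := HeightForm.defect_add (p := p) (defl U b) hθ
  refine ⟨infl U θ, hθ, ?_, ?_, ?_⟩
  · intro u hu
    rw [infl_apply, infl_one]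
    have h6 : (QuotientGroup.mk u : C ⧸ U) = 1 := (QuotientGroup.eq_one_iff u).2 hu
    rw [h6]
  · rw [charDegree_infl]
    rw [h2] at h5
    have h6 : Nat.card (C ⧸ U) = U.index := rfl
    rw [h6] at h5
    refine (pow_dvd_pow p ?_).trans (Nat.ordProj_dvd _ _)
    omega
  · intro θ' hθ' htriv
    have hsum : ∑ u : U, (θ' : C → ℂ) u ≠ 0 := by
      have h7 : ∀ u : U, (θ' : C → ℂ) u = (θ' : C → ℂ) 1 := fun u => htriv u u.2
      simp only [h7]
      rw [Finset.sum_const, nsmul_eq_mul]
      refine mul_ne_zero ?_ (Cfsg.Agent.Characters.Core.isIrr_apply_one_ne_zero θ'.2)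
      rw [Finset.card_univ]
      exact_mod_cast Fintype.card_pos.ne'
    obtain ⟨ψ, hψ⟩ := Cfsg.Agent.Blocks.Deflate.exists_deflation U (θ' : C → ℂ) θ'.2 hsum
    have h8 : infl U ψ = θ' := Subtype.ext hψ.symm
    have h9 : ψ ∈ defl U b := by rw [mem_defl, h8]; exact hθ'
    have h10 : Subsingleton (defl U b) := (Nat.card_eq_one_iff_unique.1 h4.1).1
    have h11 : (⟨ψ, h9⟩ : defl U b) = ⟨θ, hθ⟩ := Subsingleton.elim _ _
    have h12 : ψ = θ := congrArg Subtype.val h11
    rw [← h8, h12]

end Cfsg.Agent.H648.Canonical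
end

-- part: H648/NormStab
section
/-!
# Blocks with a normal elementary abelian defect group `V`, `k(B) ≤ l(B) + 1 ≤ 3`: the stable case
-/

set_option autoImplicit false
set_option linter.unusedSectionVars false

open Cfsg

namespace Cfsg.Agent.H648.NormStab

open Cfsg.Agent.H644 Cfsg.Agent.Blocks.Local
open Cfsg.Agent.H648.Dict Cfsg.Agent.H648.GoodCount Cfsg.Agent.H622.Star
open Cfsg.Agent.H591.Reynolds (IsStab)
open Cfsg.Agent.Blocks.Covering (conjIrr conjIrr_apply)
open Cfsg.Agent.Blocks.Basic (isPBlock_nonempty isPBlock_sameBlock isPGroup_of_isDefectGroup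
  isPBlock_eq_of_mem isPBlock_blockOf mem_blockOf_self)

universe u

variable {X : Type u} [Group X] [Finite X] {p : ℕ} [Fact p.Prime] {M : Ideal AlgInt}

/-- There are characters over every invariant character. -/
theorem exists_mem_over {C : Subgroup X} [C.Normal] {θ : C → ℂ} (hθ : IsIrrCharacter C θ)
    (hinv : Inv θ) : ∃ χ : IrrCharacter X, χ ∈ Over C θ := by
  have := Characters.Core.finite_irr (G := X)
  have := Fintype.ofFinite (Over C θ)
  by_contra h
  push Not at h
  have h1 := index_eq_sum hθ hinv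
  have h2 : IsEmpty (Over C θ) := ⟨fun χ => h χ.1 χ.2⟩
  rw [Finset.univ_eq_empty, Finset.sum_empty] at h1
  exact Subgroup.index_ne_zero_of_finite h1

theorem covers_of_mem_over {C : Subgroup X} [C.Normal] [Fintype C] {θ : IrrCharacter C}
    {b : Set (IrrCharacter C)} (hθ : θ ∈ b) {χ : IrrCharacter X} (hχ : χ ∈ Over C (θ : C → ℂ))
    {β : Set (IrrCharacter X)} (hβ : χ ∈ β) : Covers C β b := by
  refine ⟨χ, hβ, θ, hθ, fun h => ?_⟩
  have h1 := classInner_of_mem_over θ.2 hχ
  rw [h, zero_mul] at h1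
  exact Characters.Core.isIrr_apply_one_ne_zero χ.2 h1.symm

section Stable

variable (V C : Subgroup X) [V.Normal] [C.Normal] [Fintype C]

include V in
/-- The canonical character. -/
theorem exists_theta (hM : IsPModular p M) (hC : Subgroup.centralizer (V : Set X) = C)
    (hVC : V ≤ C) {b : Set (IrrCharacter C)} (hb : IsPBlock M b)
    (hbD : IsDefectGroup p M b (V.subgroupOf C)) (hst : IsStab b (⊤ : Subgroup X)) :
    ∃ θ ∈ b, Inv (θ : C → ℂ) ∧
      (∀ n : C, (n : X) ∈ V → (θ : C → ℂ) n = (θ : C → ℂ) 1) ∧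
      p ^ (V.relIndex C).factorization p ∣ charDegree (θ : C → ℂ) := by
  have hU : V.subgroupOf C ≤ Subgroup.center C := by
    intro v hv
    rw [Subgroup.mem_center_iff]
    intro c
    apply Subtype.ext
    have h1 : (c : X) ∈ Subgroup.centralizer (V : Set X) := by rw [hC]; exact c.2
    exact ((Subgroup.mem_centralizer_iff.1 h1) v hv).symm
  obtain ⟨θ, hθ, h1, h2, h3⟩ := Canonical.exists_canonical hM (V.subgroupOf C) hU hb hbD
  refine ⟨θ, hθ, ?_, fun n hn => h1 n hn, h2⟩
  intro g n
  have h4 : conjIrr C g θ ∈ b := (hst.mem_iff g).1 (Subgroup.mem_top g) θ hθ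
  have h5 := h3 _ h4 (fun u hu => by
    rw [conjIrr_apply, conjIrr_apply, map_one]
    refine h1 _ ?_
    rw [Subgroup.mem_subgroupOf, MulAut.conjNormal_apply]
    exact (inferInstance : V.Normal).conj_mem _ (Subgroup.mem_subgroupOf.1 hu) g)
  have h6 := congrFun (congrArg Subtype.val h5) n
  exact h6

/-- The index of `C` is prime to `p`. -/
theorem not_dvd_index (hM : IsPModular p M) (hC : Subgroup.centralizer (V : Set X) = C)
    (hVC : V ≤ C) (hV : IsPGroup p V) {b : Set (IrrCharacter C)} (hb : IsPBlock M b)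
    (hbD : IsDefectGroup p M b (V.subgroupOf C)) (hst : IsStab b (⊤ : Subgroup X))
    {B : Set (IrrCharacter X)} (hB : IsPBlock M B) (hBD : IsDefectGroup p M B V)
    (hcov : Covers C B b) : ¬ p ∣ C.index := by
  have := Fintype.ofFinite X
  have h1 := NormInd.isInducedBlock_of_covers V hM hV C hVC hC hb hB hcov
  have h2 := (Cfsg.Agent.S4437.result p M hM V hV C (by rw [hC, sup_eq_right.2 hVC]) b hb hbD B h1
    ⊤ ?_).1 hBD
  · rwa [Subgroup.relIndex_top_right] at h2
  · intro g
    constructor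
    · intro _
      refine ⟨by rw [Subgroup.normalizer_eq_top]; exact Subgroup.mem_top g, ?_⟩
      intro θ hθ θ' h
      have h3 := (hst g⁻¹).1 (Subgroup.mem_top _) θ hθ θ'
      refine h3 fun n => ?_
      refine h ⟨g⁻¹ * n * g⁻¹⁻¹, Subgroup.Normal.conj_mem inferInstance _ n.2 _⟩ n ?_
      group
    · intro _
      exact Subgroup.mem_top g

/-- The group level: all the characters over `θ` lie in `B`. -/
theorem card_over_le (hM : IsPModular p M) (hC : Subgroup.centralizer (V : Set X) = C)
    (hVC : V ≤ C) (hV : IsPGroup p V) {b : Set (IrrCharacter C)} (hb : IsPBlock M b)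
    {B : Set (IrrCharacter X)} (hB : IsPBlock M B)
    (hcov : Covers C B b) (hidx : ¬ p ∣ C.index) {θ : IrrCharacter C} (hθ : θ ∈ b)
    (hinv : Inv (θ : C → ℂ)) (htriv : ∀ n : C, (n : X) ∈ V → (θ : C → ℂ) n = (θ : C → ℂ) 1)
    (hdeg : p ^ (V.relIndex C).factorization p ∣ charDegree (θ : C → ℂ)) :
    Nat.card (Over C (θ : C → ℂ)) ≤ blockRank p B := by
  have hp : M.IsPrime := isPrime_of_isPModular hM
  have h0 := NormInd.isInducedBlock_of_covers V hM hV C hVC hC hb hB hcov
  refine NormTheta.card_over_le_blockRank V hV hVC htriv hdeg hidx ?_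
  intro χ hχ
  have h1 := covers_of_mem_over (C := C) hθ hχ (mem_blockOf_self (M := M) χ)
  have h2 := NormInd.isInducedBlock_of_covers V hM hV C hVC hC hb (isPBlock_blockOf (M := M) χ) h1
  rw [isInducedBlock_unique h0 h2]
  exact mem_blockOf_self χ

/-- The level of a subgroup `Y ≥ C`. -/
theorem exists_beta (hM : IsPModular p M) (hC : Subgroup.centralizer (V : Set X) = C)
    (hVC : V ≤ C) (hV : IsPGroup p V) {b : Set (IrrCharacter C)} (hb : IsPBlock M b)
    {B : Set (IrrCharacter X)} (hB : IsPBlock M B)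
    (hcov : Covers C B b) (hidx : ¬ p ∣ C.index) {θ : IrrCharacter C} (hθ : θ ∈ b)
    (hinv : Inv (θ : C → ℂ)) (htriv : ∀ n : C, (n : X) ∈ V → (θ : C → ℂ) n = (θ : C → ℂ) 1)
    (hdeg : p ^ (V.relIndex C).factorization p ∣ charDegree (θ : C → ℂ))
    {Y : Subgroup X} (hCY : C ≤ Y) :
    ∃ β : Set (IrrCharacter Y), IsInducedBlock M Y β B ∧
      (blockRank p β = 1 → ∃ f : ℕ, C.relIndex Y = f ^ 2) := by
  classical
  have hp : M.IsPrime := isPrime_of_isPModular hM
  have := Fintype.ofFinite (C.subgroupOf Y)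
  have hVY := hVC.trans hCY
  have : (C.subgroupOf Y).Normal := Subgroup.normal_subgroupOf
  have : (V.subgroupOf Y).Normal := Subgroup.normal_subgroupOf
  let e := (Subgroup.subgroupOfEquivOfLe hCY).symm
  let η : IrrCharacter (C.subgroupOf Y) := Cfsg.Agent.H649.irrMap e θ
  have hη : ∀ n : C.subgroupOf Y, (η : C.subgroupOf Y → ℂ) n =
      (θ : C → ℂ) ⟨((n : Y) : X), Subgroup.mem_subgroupOf.1 n.2⟩ := fun _ => rfl
  have hηinv : Inv (η : C.subgroupOf Y → ℂ) := by
    intro g n
    rw [hη, hη, ← hinv (g : X) ⟨((n : Y) : X), Subgroup.mem_subgroupOf.1 n.2⟩]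
    congr 1
  obtain ⟨χ, hχ⟩ := exists_mem_over η.2 hηinv
  have hηb : η ∈ Cfsg.Agent.H649.blkMap e b := Cfsg.Agent.H649.irrMap_mem_blkMap.2 hθ
  have hind : IsInducedBlock M Y (blockOf M (χ : Y → ℂ)) B :=
    NormInd.isInducedBlock_of_covers_copy V hM hV C hC hb hB hcov hVY hCY
      (isPBlock_blockOf (M := M) χ) (covers_of_mem_over hηb hχ (mem_blockOf_self χ))
  refine ⟨_, hind, fun hrank => ?_⟩
  have hsub : Over (C.subgroupOf Y) (η : C.subgroupOf Y → ℂ) ⊆ blockOf M (χ : Y → ℂ) := by
    intro χ' hχ'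
    have := Fintype.ofFinite Y
    refine Cfsg.Agent.H646.NormalSupport.sameBlock_of_common_constituent hM (V.subgroupOf Y)
      (hV.comap_subtype) (C.subgroupOf Y) ?_ (θ := η) ?_ ?_
    · intro y hy
      rw [Subgroup.mem_subgroupOf, ← hC, Subgroup.mem_centralizer_iff]
      intro v hv
      exact congrArg Subtype.val ((Subgroup.mem_centralizer_iff.1 hy) ⟨v, hVY hv⟩ hv)
    · obtain ⟨χ₁, h1, θ₁, h2, h3⟩ := covers_of_mem_over (b := {η}) rfl hχ (Set.mem_singleton χ)
      rw [Set.mem_singleton_iff.1 h1, Set.mem_singleton_iff.1 h2] at h3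
      exact h3
    · obtain ⟨χ₁, h1, θ₁, h2, h3⟩ := covers_of_mem_over (b := {η}) rfl hχ' (Set.mem_singleton χ')
      rw [Set.mem_singleton_iff.1 h1, Set.mem_singleton_iff.1 h2] at h3
      exact h3
  have hcard := NormTheta.card_over_le_blockRank (p := p) (V.subgroupOf Y) hV.comap_subtype
    (N := C.subgroupOf Y) (fun y hy => hVC hy) (θ := η) (fun n hn => by
      rw [hη, hη]
      exact htriv _ hn) (by
      rw [Subgroup.relIndex_subgroupOf hCY, Cfsg.Agent.H649.charDegree_irrMap]
      exact hdeg) (by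
      intro h
      exact hidx (h.trans (Subgroup.relIndex_dvd_index_of_normal C Y))) hsub
  rw [hrank] at hcard
  exact exists_sq η.2 hηinv hcard

/-- The stable case. -/
theorem card_le_three (hM : IsPModular p M) (hC : Subgroup.centralizer (V : Set X) = C)
    (hVC : V ≤ C) (hexp : ∀ v ∈ V, v ^ p = 1) (hV1 : V ≠ ⊥)
    {b : Set (IrrCharacter C)} (hb : IsPBlock M b)
    (hbD : IsDefectGroup p M b (V.subgroupOf C)) (hst : IsStab b (⊤ : Subgroup X))
    {B : Set (IrrCharacter X)} (hB : IsPBlock M B) (hBD : IsDefectGroup p M B V)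
    (hcov : Covers C B b) (hl : blockRank p B ≤ 2) (hk : Nat.card B ≤ blockRank p B + 1) :
    Nat.card V ≤ 3 := by
  have hp : p.Prime := Fact.out
  have hV : IsPGroup p V := isPGroup_of_isDefectGroup hBD
  have hidx := not_dvd_index V C hM hC hVC hV hb hbD hst hB hBD hcov
  obtain ⟨θ, hθ, hinv, htriv, hdeg⟩ := exists_theta V C hM hC hVC hb hbD hst
  have hcard : Nat.card (Over C (θ : C → ℂ)) ≤ 2 :=
    (card_over_le V C hM hC hVC hV hb hB hcov hidx hθ hinv htriv hdeg).trans hl
  obtain ⟨a, c, hac⟩ := exists_sq_add_sq θ.2 hinv hcard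
  have hord : ∀ v ∈ V, ∃ k : ℕ, orderOf v = p ^ k := by
    intro v hv
    obtain ⟨k, hk⟩ := IsPGroup.iff_orderOf.1 hV ⟨v, hv⟩
    exact ⟨k, by rw [← hk, Subgroup.orderOf_mk]⟩
  have hY : ∀ v ∈ V, v ≠ 1 → C ≤ Subgroup.centralizer ({v} : Set X) := by
    intro v hv _
    rw [← hC]
    exact Subgroup.centralizer_le (Set.singleton_subset_iff.2 hv)
  have hind : ∀ v ∈ V, v ≠ 1 → ∃ β : Set (IrrCharacter (Subgroup.centralizer ({v} : Set X))),
      IsInducedBlock M (Subgroup.centralizer ({v} : Set X)) β B ∧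
        ∃ f : ℕ, C.relIndex (Subgroup.centralizer ({v} : Set X)) = f ^ 2 := by
    intro v hv hv1
    obtain ⟨β, h1, h2⟩ := exists_beta V C hM hC hVC hV hb hB hcov hidx hθ hinv htriv hdeg
      (hY v hv hv1)
    exact ⟨β, h1, h2 (SecOne.blockRank_eq_one_of_induced hM hB hk (hord v hv) hv1 h1)⟩
  have htr : ∀ v ∈ V, ∀ w ∈ V, v ≠ 1 → w ≠ 1 → IsConj v w := by
    intro v hv w hw hv1 hw1
    obtain ⟨β, h1, -⟩ := hind v hv hv1
    obtain ⟨β', h1', -⟩ := hind w hw hw1
    exact SecOne.isConj_of_induced hM hB hk (hord v hv) hv1 (hord w hw) hw1 h1 h1'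
  obtain ⟨⟨v₀, hv₀⟩, hv₀'⟩ := Subgroup.ne_bot_iff_exists_ne_one.1 hV1
  have hv₀1 : v₀ ≠ 1 := fun h => hv₀' (Subtype.ext h)
  obtain ⟨-, -, f, hf⟩ := hind v₀ hv₀ hv₀1
  refine NormLin.card_le_three (p := p) V C hC hVC hexp hV1 htr (f := f) ?_ hac ?_
  · intro v hv hv1
    rw [← hf]
    obtain ⟨x, hx⟩ := isConj_iff.1 (htr v hv v₀ hv₀ hv1 hv₀1)
    have h1 : (Subgroup.centralizer ({v} : Set X)).index =
        (Subgroup.centralizer ({v₀} : Set X)).index := by
      rw [← Cfsg.Agent.H649.index_centralizer_map (MulAut.conj x) v, MulAut.conj_apply, hx]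
    have h2 := Subgroup.relIndex_mul_index (hY v hv hv1)
    have h3 := Subgroup.relIndex_mul_index (hY v₀ hv₀ hv₀1)
    rw [h1] at h2
    exact Nat.eq_of_mul_eq_mul_right (Nat.pos_of_ne_zero Subgroup.index_ne_zero_of_finite)
      (h2.trans h3.symm)
  · intro x y hx hy hcx hcy
    obtain ⟨x, rfl⟩ := QuotientGroup.mk_surjective x
    obtain ⟨y, rfl⟩ := QuotientGroup.mk_surjective y
    exact isConj_of_card_le_two θ.2 hinv hcard (fun h => hx ((QuotientGroup.eq_one_iff x).2 h))
      (fun h => hy ((QuotientGroup.eq_one_iff y).2 h)) hcx hcy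

end Stable

end Cfsg.Agent.H648.NormStab
end

-- part: H648/NormAb
section
/-!
# Blocks with a normal elementary abelian defect group and at most three characters
-/

set_option autoImplicit false
set_option linter.unusedSectionVars false

open Cfsg

namespace Cfsg.Agent.H648.NormAb

open Cfsg.Agent.H644 Cfsg.Agent.Blocks.Local
open Cfsg.Agent.H648.Dict Cfsg.Agent.H648.GoodCount Cfsg.Agent.H622.Star
open Cfsg.Agent.H591.Reynolds (IsStab)
open Cfsg.Agent.OddOrderCharacters.PF9.CliffGen (resTo resTo_apply down)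
open Cfsg.Agent.Blocks.Covering (conjIrr conjIrr_apply conjIrr_conjIrr conjIrr_one sameBlock_conjIrr)
open Cfsg.Agent.Blocks.Basic (isPBlock_nonempty isPBlock_sameBlock isPGroup_of_isDefectGroup
  isPBlock_eq_of_mem isPBlock_blockOf mem_blockOf_self isPBlock_mem_of_sameBlock)

universe u

variable {X : Type u} [Group X] [Finite X] {p : ℕ} [Fact p.Prime] {M : Ideal AlgInt}

/-- The stabilizer of a block of a normal subgroup. -/
theorem exists_isStab [M.IsPrime] (C : Subgroup X) [C.Normal] {b : Set (IrrCharacter C)}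
    (hb : IsPBlock M b) : ∃ T : Subgroup X, IsStab b T := by
  have key : ∀ g : X, (∃ θ ∈ b, conjIrr C g θ ∈ b) → ∀ θ ∈ b, conjIrr C g θ ∈ b := by
    rintro g ⟨θ₀, h1, h2⟩ θ hθ
    exact isPBlock_mem_of_sameBlock hb h2 (sameBlock_conjIrr C g (isPBlock_sameBlock hb h1 hθ))
  let T : Subgroup X :=
    { carrier := {g | ∀ θ ∈ b, conjIrr C g θ ∈ b}
      one_mem' := fun θ hθ => by rw [conjIrr_one]; exact hθ
      mul_mem' := fun {g h} hg hh θ hθ => by
        rw [← conjIrr_conjIrr]
        exact hh _ (hg _ hθ)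
      inv_mem' := fun {g} hg => by
        obtain ⟨θ, hθ⟩ := isPBlock_nonempty hb
        refine key g⁻¹ ⟨_, hg θ hθ, ?_⟩
        rw [conjIrr_conjIrr, mul_inv_cancel, conjIrr_one]
        exact hθ }
  refine ⟨T, fun g => ?_⟩
  constructor
  · intro hg θ hθ θ' h
    have h1 : θ' = conjIrr C g θ := by
      apply Subtype.ext
      funext n
      rw [h, conjIrr_apply]
      congr 1
    rw [h1]
    exact hg θ hθ
  · intro h θ hθ
    refine h θ hθ _ fun n => ?_
    rw [conjIrr_apply]
    congr 1

/-- The only defect group is a normal one. -/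
theorem eq_of_isDefectGroup (hM : IsPModular p M) {B : Set (IrrCharacter X)} (hB : IsPBlock M B)
    {V P : Subgroup X} [V.Normal] (hV : IsDefectGroup p M B V) (hP : IsDefectGroup p M B P) :
    P = V := by
  have := isPrime_of_isPModular hM
  obtain ⟨x, rfl⟩ := HarrisKnorr.exists_conj_of_isDefectGroup hM hB hV hP
  ext g
  rw [Subgroup.mem_map]
  constructor
  · rintro ⟨v, hv, rfl⟩
    exact (inferInstance : V.Normal).conj_mem v hv x
  · intro hg
    refine ⟨x⁻¹ * g * x, ?_, ?_⟩
    · have := (inferInstance : V.Normal).conj_mem g hg x⁻¹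
      simpa using this
    · change x * (x⁻¹ * g * x) * x⁻¹ = g
      group

/-- The case `k(B) ≤ l(B) + 1 ≤ 3`. -/
theorem card_le_three_aux (hM : IsPModular p M) (V : Subgroup X) [V.Normal]
    (hcomm : ∀ v ∈ V, ∀ w ∈ V, v * w = w * v)
    (hexp : ∀ v ∈ V, v ^ p = 1) (hV1 : V ≠ ⊥)
    {B : Set (IrrCharacter X)} (hB : IsPBlock M B) (hBD : IsDefectGroup p M B V)
    (hl : blockRank p B ≤ 2) (hk : Nat.card B ≤ blockRank p B + 1) :
    Nat.card V ≤ 3 := by
  classical
  have hp : M.IsPrime := isPrime_of_isPModular hM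
  have := Fintype.ofFinite X
  let C : Subgroup X := Subgroup.centralizer (V : Set X)
  have hCn : C.Normal := Subgroup.normal_centralizer
  have := Fintype.ofFinite C
  have hVC : V ≤ C := fun v hv => Subgroup.mem_centralizer_iff.2 fun w hw => hcomm w hw v hv
  obtain ⟨χ, hχ⟩ := isPBlock_nonempty hB
  obtain ⟨θ₀, hθ₀⟩ := Cfsg.Agent.Blocks.Fong.exists_constituent C χ
  let b : Set (IrrCharacter C) := blockOf M (θ₀ : C → ℂ)
  have hb : IsPBlock M b := isPBlock_blockOf θ₀
  have hcov : Covers C B b := ⟨χ, hχ, θ₀, mem_blockOf_self θ₀, hθ₀⟩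
  -- the defect group of `b`
  have hbD : IsDefectGroup p M b (V.subgroupOf C) := by
    obtain ⟨Q, hQ⟩ := Dict.exists_isDefectGroup hM hb
    have hQ' : (Q.map C.subtype).subgroupOf C = Q :=
      Subgroup.comap_map_eq_self_of_injective (Subgroup.subtype_injective C) _
    obtain ⟨P, hP, hPQ⟩ := Cfsg.Agent.S4438.result p M hM C b hb (Q.map C.subtype)
      (Subgroup.map_subtype_le Q) (by rw [hQ']; exact hQ) B hB hcov
    rw [eq_of_isDefectGroup hM hB hBD hP, inf_eq_left.2 hVC] at hPQ
    rw [hPQ, hQ']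
    exact hQ
  -- the stabilizer
  obtain ⟨T, hT⟩ := exists_isStab C hb
  have hCT : C ≤ T := hT.le hb
  have hVT : V ≤ T := hVC.trans hCT
  have := Fintype.ofFinite T
  have := Fintype.ofFinite (C.subgroupOf T)
  have : (C.subgroupOf T).Normal := Subgroup.normal_subgroupOf
  have : (V.subgroupOf T).Normal := Subgroup.normal_subgroupOf
  obtain ⟨B', hB', ⟨ψ, hψ, θ, hθ, h0⟩, hind⟩ :=
    (Cfsg.Agent.S4435.result p M hM C b hb T hT hCT).2.2 B hB hcov
  have h0' : Cfsg.classInner (resTo hCT (ψ : T → ℂ)) (θ : C → ℂ) ≠ 0 := h0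
  have hcard := Cfsg.Agent.H625.FongRank.card_eq p hM hb hT hCT hB' hψ hθ h0' hind
  have hrank := Cfsg.Agent.H625.FongRank.rank_eq p hM hb hT hCT hB' hψ hθ h0' hind
  -- the defect group of `B'`
  have hB'D : IsDefectGroup p M B' (V.subgroupOf T) := by
    obtain ⟨D, hD⟩ := Dict.exists_isDefectGroup hM hB'
    have h1 := (Cfsg.Agent.S4436.result p M hM C b hb T hT hCT B' hB' ⟨ψ, hψ, θ, hθ, h0⟩ B
      hind).1 D hD
    have h2 := eq_of_isDefectGroup hM hB hBD h1
    have h3 : (D.map T.subtype).subgroupOf T = D :=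
      Subgroup.comap_map_eq_self_of_injective (Subgroup.subtype_injective T) _
    rw [← h2, h3]
    exact hD
  let e := (Subgroup.subgroupOfEquivOfLe hCT).symm
  have hcardV : Nat.card (V.subgroupOf T) = Nat.card V :=
    Nat.card_congr (Subgroup.subgroupOfEquivOfLe hVT).toEquiv
  rw [← hcardV]
  refine NormStab.card_le_three (V.subgroupOf T) (C.subgroupOf T) hM ?_ (fun t ht => hVC ht)
    ?_ ?_ (b := Cfsg.Agent.H649.blkMap e b) (Cfsg.Agent.H649.isPBlock_blkMap hb) ?_ ?_ hB' hB'D
    ?_ (hrank ▸ hl) (by rw [← hrank, ← hcard]; exact hk)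
  · ext t
    rw [Subgroup.mem_subgroupOf, Subgroup.mem_centralizer_iff]
    constructor
    · intro h
      exact Subgroup.mem_centralizer_iff.2 fun v hv =>
        congrArg Subtype.val (h ⟨v, hVT hv⟩ hv)
    · intro h v hv
      apply Subtype.ext
      exact (Subgroup.mem_centralizer_iff.1 h) v hv
  · intro v hv
    apply Subtype.ext
    exact hexp v hv
  · intro h
    apply hV1
    rw [← Subgroup.card_eq_one, ← hcardV, h, Subgroup.card_bot]
  · have h1 : (V.subgroupOf T).subgroupOf (C.subgroupOf T) =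
        (V.subgroupOf C).map e.toMonoidHom := by
      ext n
      constructor
      · intro hn
        exact ⟨⟨((n : T) : X), n.2⟩, hn, rfl⟩
      · rintro ⟨m, hm, rfl⟩
        exact hm
    rw [h1]
    exact Cfsg.Agent.H649.isDefectGroup_blkMap hbD
  · intro t
    constructor
    · intro _ η hη η' h
      rw [Cfsg.Agent.H649.mem_blkMap] at hη ⊢
      have h2 := (hT (t : X)).1 t.2 _ hη (Cfsg.Agent.H649.irrMap e.symm η')
      refine h2 fun n => ?_
      exact h (e n)
    · intro _
      exact Subgroup.mem_top t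
  · refine ⟨ψ, hψ, Cfsg.Agent.H649.irrMap e θ, Cfsg.Agent.H649.irrMap_mem_blkMap.2 hθ, ?_⟩
    have h1 := Cfsg.Agent.H591.Cliff.classInner_down_res hCT (ψ : T → ℂ) (θ : C → ℂ)
    have h2 : classInner (fun n : C.subgroupOf T => (ψ : T → ℂ) n)
        (Cfsg.Agent.H649.irrMap e θ : C.subgroupOf T → ℂ) =
        classInner (resTo hCT (ψ : T → ℂ)) (θ : C → ℂ) := h1
    rw [h2]
    exact h0'

/-- **Blocks with a normal elementary abelian defect group and at most three characters.** -/
theorem card_le_three (hM : IsPModular p M) (V : Subgroup X) [V.Normal]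
    (hcomm : ∀ v ∈ V, ∀ w ∈ V, v * w = w * v)
    (hexp : ∀ v ∈ V, v ^ p = 1) (hV1 : V ≠ ⊥)
    {B : Set (IrrCharacter X)} (hB : IsPBlock M B) (hBD : IsDefectGroup p M B V)
    (hk : Nat.card B ≤ 3) : Nat.card V ≤ 3 := by
  have hprime : M.IsPrime := isPrime_of_isPModular hM
  obtain ⟨h1, h2, h3⟩ := Cfsg.Agent.S4733.result p M hM B hB
  have h4 := Cfsg.Agent.S0908.result p M hM B hB V hBD
  have h5 : blockDefect p B ≠ 0 := by
    intro h
    rw [h, pow_zero, Subgroup.card_eq_one] at h4
    exact hV1 h4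
  have h6 : Nat.card B ≠ blockRank p B := fun h => h5 (h3.2 h)
  have h7 := SecOne.blockRank_pos (p := p) hB
  have h8 : blockRank p B ≤ 2 := by omega
  rcases Nat.lt_or_ge (blockRank p B) 2 with h9 | h9
  · have h10 : blockRank p B = 1 := by omega
    rw [(Cfsg.Agent.S4648.result p M hM B hB V hBD hV1 h10 (by omega)).2.1]
    exact hk
  · exact card_le_three_aux hM V hcomm hexp hV1 hB hBD h8 (by omega)

end Cfsg.Agent.H648.NormAb
end

-- part: H648/ThreeNorm
section
/-!
# Blocks with a normal defect group of exponent `p` and at most three characters of height zero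
-/

set_option autoImplicit false

open Cfsg

namespace Cfsg.Agent.H648.ThreeNorm

open Cfsg.Agent.H644.CentralQuot (infl infl_injective charDegree_infl)

universe u

theorem isCyclic_of_quotient {U : Type*} [Group U] [Finite U] {p : ℕ} [Fact p.Prime]
    (hU : IsPGroup p U) (hc : IsCyclic (U ⧸ commutator U)) : IsCyclic U := by
  obtain ⟨v, hv⟩ := hc.exists_generator
  obtain ⟨g, rfl⟩ := QuotientGroup.mk_surjective v
  refine ⟨g, fun x => ?_⟩
  show x ∈ Subgroup.zpowers g
  by_contra hx
  have hne : Subgroup.zpowers g ≠ ⊤ := fun h => hx (h ▸ Subgroup.mem_top x)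
  rcases eq_top_or_exists_le_coatom (Subgroup.zpowers g) with h1 | ⟨M, hM, hgM⟩
  · exact hne h1
  · apply hM.1
    rw [eq_top_iff]
    intro y _
    obtain ⟨k, hk⟩ := Subgroup.mem_zpowers_iff.1 (hv (QuotientGroup.mk y))
    have h2 : (QuotientGroup.mk (g ^ k) : U ⧸ commutator U) = QuotientGroup.mk y := hk
    rw [QuotientGroup.eq] at h2
    have h3 : (g ^ k)⁻¹ * y ∈ M := frattini_le_coatom hM
      (Cfsg.Agent.Lib.FrattiniPGroup.commutator_le_frattini hU h2)
    have h4 : g ^ k ∈ M := zpow_mem (hgM (Subgroup.mem_zpowers g)) k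
    have : y = g ^ k * ((g ^ k)⁻¹ * y) := by group
    rw [this]
    exact mul_mem h4 h3

variable {N : Type u} [Group N] [Finite N] {p : ℕ} [Fact p.Prime] {M : Ideal AlgInt}

theorem card_le_three (hM : IsPModular p M) (D : Subgroup N) [D.Normal]
    (hexp : ∀ v ∈ D, v ^ p = 1) (hD1 : D ≠ ⊥)
    {b : Set (IrrCharacter N)} (hb : IsPBlock M b) (hbD : IsDefectGroup p M b D)
    (hk : Nat.card {ψ : IrrCharacter N // ψ ∈ b ∧ blockHeight p b (ψ : N → ℂ) = 0} ≤ 3) :
    Nat.card D ≤ 3 := by
  have hp : p.Prime := Fact.out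
  have hprime : M.IsPrime := Cfsg.Agent.Blocks.Local.isPrime_of_isPModular hM
  have hDp : IsPGroup p D := Cfsg.Agent.Blocks.Basic.isPGroup_of_isDefectGroup hbD
  have := Characters.Core.finite_irr (G := N)
  let Φ : Subgroup N := ⁅D, D⁆
  have hΦn : Φ.Normal := Subgroup.commutator_normal D D
  have hΦD : Φ ≤ D := Subgroup.commutator_le_left D D
  have hΦp : IsPGroup p Φ := hDp.to_le hΦD
  obtain ⟨bb, hbb, hinf, hdef⟩ := Cfsg.Agent.S4434.result p M hM Φ hΦp b hb
  let V : Subgroup (N ⧸ Φ) := D.map (QuotientGroup.mk' Φ)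
  have hVn : V.Normal := Subgroup.Normal.map inferInstance _ (QuotientGroup.mk'_surjective Φ)
  have hVD : IsDefectGroup p M bb V := (hdef V).2 ⟨D, hbD, rfl⟩
  -- cardinalities
  have hcardV : Nat.card V * Nat.card Φ = Nat.card D := by
    have h1 := (((QuotientGroup.mk' Φ).subgroupMap D).ker).card_mul_index
    rw [Subgroup.index_ker, MonoidHom.range_eq_top.2 (MonoidHom.subgroupMap_surjective _ _),
      Subgroup.card_top] at h1
    have h2 : ((QuotientGroup.mk' Φ).subgroupMap D).ker = Φ.subgroupOf D := by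
      ext x
      rw [MonoidHom.mem_ker, Subgroup.mem_subgroupOf, ← QuotientGroup.eq_one_iff]
      exact ⟨fun h => congrArg Subtype.val h, fun h => Subtype.ext h⟩
    rw [h2, Nat.card_congr (Subgroup.subgroupOfEquivOfLe hΦD).toEquiv, mul_comm] at h1
    exact h1
  have hd : blockDefect p b = blockDefect p bb + (Nat.card Φ).factorization p := by
    have h1 := Cfsg.Agent.S0908.result p M hM b hb D hbD
    have h2 := Cfsg.Agent.S0908.result p M hM bb hbb V hVD
    rw [h1, h2] at hcardV
    have h3 : (p ^ blockDefect p bb * Nat.card Φ).factorization p =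
        (p ^ blockDefect p b).factorization p := by rw [hcardV]
    rw [Nat.factorization_mul (pow_pos hp.pos _).ne' Nat.card_pos.ne', Finsupp.add_apply,
      hp.factorization_pow, hp.factorization_pow, Finsupp.single_eq_same,
      Finsupp.single_eq_same] at h3
    exact h3.symm
  have hNcard : (Nat.card N).factorization p =
      (Nat.card (N ⧸ Φ)).factorization p + (Nat.card Φ).factorization p := by
    rw [Subgroup.card_eq_card_quotient_mul_card_subgroup Φ,
      Nat.factorization_mul Nat.card_pos.ne' Nat.card_pos.ne', Finsupp.add_apply]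
  -- commutativity and exponent
  have hcomm : ∀ v ∈ V, ∀ w ∈ V, v * w = w * v := by
    rintro _ ⟨a, ha, rfl⟩ _ ⟨c, hc, rfl⟩
    have h1 : a * c * a⁻¹ * c⁻¹ ∈ Φ := Subgroup.commutator_mem_commutator ha hc
    have h2 : (QuotientGroup.mk' Φ) (a * c * a⁻¹ * c⁻¹) = 1 := (QuotientGroup.eq_one_iff _).2 h1
    rw [map_mul, map_mul, map_mul, map_inv, map_inv, mul_inv_eq_one, mul_inv_eq_iff_eq_mul] at h2
    exact h2
  have hVexp : ∀ v ∈ V, v ^ p = 1 := by
    rintro _ ⟨a, ha, rfl⟩
    rw [← map_pow, hexp a ha, map_one]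
  have hcom : (commutator D).map D.subtype = Φ := by
    rw [commutator_def, Subgroup.map_commutator, ← MonoidHom.range_eq_map, Subgroup.range_subtype]
  have hcc : Nat.card (commutator D) = Nat.card Φ := by
    rw [← hcom]
    exact Nat.card_congr ((commutator D).equivMapOfInjective _ (Subgroup.subtype_injective D)).toEquiv
  have hcq : Nat.card (D ⧸ commutator D) = Nat.card V := by
    have h1 := Subgroup.card_eq_card_quotient_mul_card_subgroup (commutator D)
    rw [hcc, ← hcardV] at h1
    exact (Nat.eq_of_mul_eq_mul_right Nat.card_pos h1).symm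
  have hV1 : V ≠ ⊥ := by
    intro h
    rw [h, Subgroup.card_bot] at hcq
    have h1 : commutator D = ⊤ := by
      rw [← Subgroup.index_eq_one]
      exact hcq
    have hnt : Nontrivial D := (Subgroup.nontrivial_iff_ne_bot D).2 hD1
    have hnil : Group.IsNilpotent D := hDp.isNilpotent
    have hs : Group.IsSolvable D := inferInstance
    exact (Group.IsSolvable.commutator_lt_top_of_nontrivial (G := D)).ne h1
  -- the characters
  have hk' : Nat.card bb ≤ 3 := by
    refine le_trans ?_ hk
    have := Fintype.ofFinite N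
    have := Fintype.ofFinite (N ⧸ Φ)
    have hht := (Cfsg.Agent.S0972.result p M hM bb hbb V hVD).1 hcomm
    refine Nat.card_le_card_of_injective
      (fun χ : bb => (⟨infl Φ χ.1, hinf χ.1 χ.2 _ rfl, ?_⟩ :
        {ψ : IrrCharacter N // ψ ∈ b ∧ blockHeight p b (ψ : N → ℂ) = 0})) ?_
    · have h1 := HeightForm.defect_add (p := p) bb χ.2
      have h2 := HeightForm.defect_add (p := p) b (hinf χ.1 χ.2 (infl Φ χ.1) rfl)
      rw [charDegree_infl] at h2
      rw [hht χ.1 χ.2] at h1
      omega
    · intro χ χ' h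
      exact Subtype.ext (infl_injective Φ (congrArg Subtype.val h))
  have hV3 := NormAb.card_le_three hM V hcomm hVexp hV1 hbb hVD hk'
  -- `D` is cyclic
  have hcyc : IsCyclic (D ⧸ commutator D) := by
    have h0 : 0 < Nat.card (D ⧸ commutator D) := Nat.card_pos
    rw [← hcq] at hV3
    generalize hn : Nat.card (D ⧸ commutator D) = n at h0 hV3
    interval_cases n
    · have := (Nat.card_eq_one_iff_unique.1 hn).1
      exact isCyclic_of_subsingleton
    · have : Fact (Nat.Prime 2) := ⟨Nat.prime_two⟩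
      exact isCyclic_of_prime_card hn
    · have : Fact (Nat.Prime 3) := ⟨Nat.prime_three⟩
      exact isCyclic_of_prime_card hn
  have hD := isCyclic_of_quotient hDp hcyc
  have hΦ1 : commutator D = ⊥ := by
    rw [commutator_def, Subgroup.commutator_eq_bot_iff_le_centralizer]
    intro x _
    rw [Subgroup.mem_centralizer_iff]
    intro y _
    let _ := hD.commGroup
    exact mul_comm y x
  rw [hΦ1, Subgroup.card_bot] at hcc
  rw [← hcardV, ← hcc, mul_one]
  exact hV3

end Cfsg.Agent.H648.ThreeNorm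
end

-- part: H648/ThreeMain
section
/-!
# Blocks with three characters
-/

set_option autoImplicit false

open Cfsg

namespace Cfsg.Agent.H648.ThreeMain

universe u

variable {G : Type u} [Group G] [Finite G] {p : ℕ} [Fact p.Prime] {M : Ideal AlgInt}

/-- Every element of the defect group has a block of its centralizer inducing `B`. -/
theorem exists_induced (hM : IsPModular p M) {B : Set (IrrCharacter G)} (hB : IsPBlock M B)
    {D : Subgroup G} (hD : IsDefectGroup p M B D) {v : G} (hv : v ∈ D) :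
    ∃ b : Set (IrrCharacter (Subgroup.centralizer ({v} : Set G))),
      IsInducedBlock M (Subgroup.centralizer ({v} : Set G)) b B := by
  have := Fintype.ofFinite G
  have := Cfsg.Agent.Blocks.Local.isPrime_of_isPModular hM
  have hDp : IsPGroup p D := Cfsg.Agent.Blocks.Basic.isPGroup_of_isDefectGroup hD
  obtain ⟨e, he⟩ := Cfsg.Agent.H649.exists_pair_of_isDefectGroup hM hB hD
  have hvD' : Subgroup.zpowers v ≤ D := Subgroup.zpowers_le.2 hv
  obtain ⟨f, ⟨hf, hfle⟩, -⟩ := Cfsg.Agent.S4655.result p M hM D (Subgroup.zpowers v) e he.1 hvD'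
  have hvp : IsPGroup p (Subgroup.zpowers v) := hDp.to_le hvD'
  have hpair := (Cfsg.Agent.S4658.result p M hM D (Subgroup.zpowers v) e f he.1 ⟨hvp, hf⟩ hfle B
    hB).1 he
  have hind := (Cfsg.Agent.H649.isBrauerPairOf_iff_isInducedBlock hM hB hvp hf).1 hpair
  have hC : Subgroup.centralizer ({v} : Set G) =
      Subgroup.centralizer ((Subgroup.zpowers v : Subgroup G) : Set G) := by
    ext y
    rw [Subgroup.mem_centralizer_singleton_iff, Subgroup.mem_centralizer_iff]
    constructor
    · rintro h _ ⟨n, rfl⟩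
      exact ((show Commute v y from h.symm).zpow_left n).eq
    · intro h
      exact (h v (Subgroup.mem_zpowers v)).symm
  rw [hC]
  exact ⟨f, hind⟩

/-- `k(B) = l(B) + 1`: the defect group has exponent `p`. -/
theorem pow_eq_one (hM : IsPModular p M) {B : Set (IrrCharacter G)} (hB : IsPBlock M B)
    {D : Subgroup G} (hD : IsDefectGroup p M B D) (hD1 : D ≠ ⊥)
    (hk : Nat.card B ≤ blockRank p B + 1) {v : G} (hv : v ∈ D) : v ^ p = 1 := by
  have hp : p.Prime := Fact.out
  have hDp : IsPGroup p D := Cfsg.Agent.Blocks.Basic.isPGroup_of_isDefectGroup hD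
  have hord : ∀ v ∈ D, ∃ k : ℕ, orderOf v = p ^ k := by
    intro v hv
    obtain ⟨k, hk⟩ := IsPGroup.iff_orderOf.1 hDp ⟨v, hv⟩
    exact ⟨k, by rw [← hk, Subgroup.orderOf_mk]⟩
  obtain ⟨n, hn⟩ := hDp.exists_card_eq
  have hn0 : n ≠ 0 := by
    rintro rfl
    rw [pow_zero, Subgroup.card_eq_one] at hn
    exact hD1 hn
  obtain ⟨z, hz⟩ := exists_prime_orderOf_dvd_card' (G := D) p (hn ▸ dvd_pow_self p hn0)
  have hz' : orderOf (z : G) = p := by rw [Subgroup.orderOf_coe, hz]
  have hz1 : (z : G) ≠ 1 := by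
    intro h
    rw [h, orderOf_one] at hz'
    exact hp.one_lt.ne hz'
  by_cases hv1 : v = 1
  · rw [hv1, one_pow]
  · obtain ⟨b, hb⟩ := exists_induced hM hB hD hv
    obtain ⟨b', hb'⟩ := exists_induced hM hB hD z.2
    obtain ⟨c, hc⟩ := isConj_iff.1
      (SecOne.isConj_of_induced hM hB hk (hord v hv) hv1 (hord z z.2) hz1 hb hb')
    have h1 : orderOf v = p := by
      rw [← hz', ← hc]
      exact (MulEquiv.orderOf_eq (MulAut.conj c) v).symm
    rw [← h1]
    exact pow_orderOf_eq_one v

/-- **S4609.** -/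
theorem main (hM : IsPModular p M) {B : Set (IrrCharacter G)} (hB : IsPBlock M B)
    {D : Subgroup G} (hD : IsDefectGroup p M B D) (hk : Nat.card B = 3)
    {b : Set (IrrCharacter (Subgroup.normalizer (D : Set G)))}
    (hb : IsPBlock M b)
    (hbD : IsDefectGroup p M b (D.subgroupOf (Subgroup.normalizer (D : Set G))))
    (hAM : Nat.card {χ : IrrCharacter G // χ ∈ B ∧ blockHeight p B (χ : G → ℂ) = 0} =
      Nat.card {ψ : IrrCharacter (Subgroup.normalizer (D : Set G)) //
        ψ ∈ b ∧ blockHeight p b (ψ : Subgroup.normalizer (D : Set G) → ℂ) = 0}) :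
    Nat.card D = 3 := by
  have hp : p.Prime := Fact.out
  have hprime : M.IsPrime := Cfsg.Agent.Blocks.Local.isPrime_of_isPModular hM
  have := Characters.Core.finite_irr (G := G)
  obtain ⟨h1, h2, h3⟩ := Cfsg.Agent.S4733.result p M hM B hB
  have h4 := Cfsg.Agent.S0908.result p M hM B hB D hD
  have h5 : blockDefect p B ≠ 0 := by
    intro h
    have := (h2.1 h).1
    omega
  have hD1 : D ≠ ⊥ := by
    rintro rfl
    rw [Subgroup.card_bot] at h4
    rcases Nat.pow_eq_one.1 h4.symm with h | h
    · exact hp.one_lt.ne' h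
    · exact h5 h
  have h6 : Nat.card B ≠ blockRank p B := fun h => h5 (h3.2 h)
  have h7 := SecOne.blockRank_pos (p := p) hB
  rcases Nat.lt_or_ge (blockRank p B) 2 with h9 | h9
  · rw [(Cfsg.Agent.S4648.result p M hM B hB D hD hD1 (by omega) (by omega)).2.1, hk]
  · have h10 : blockRank p B = 2 := by omega
    have hexp : ∀ v ∈ D, v ^ p = 1 := fun v hv =>
      pow_eq_one hM hB hD hD1 (by omega) hv
    let N := Subgroup.normalizer (D : Set G)
    have hDN : D ≤ N := Subgroup.le_normalizer
    have hn : (D.subgroupOf N).Normal := Subgroup.normal_in_normalizer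
    have hcardD : Nat.card (D.subgroupOf N) = Nat.card D :=
      Nat.card_congr (Subgroup.subgroupOfEquivOfLe hDN).toEquiv
    have hk3 : Nat.card {ψ : IrrCharacter N // ψ ∈ b ∧ blockHeight p b (ψ : N → ℂ) = 0} ≤ 3 := by
      rw [← hAM, ← hk]
      exact Nat.card_le_card_of_injective (fun χ => (⟨χ.1, χ.2.1⟩ : B)) fun χ χ' h =>
        Subtype.ext (congrArg (fun x : B => (x : IrrCharacter G)) h)
    have h11 : Nat.card (D.subgroupOf N) ≤ 3 := by
      refine ThreeNorm.card_le_three hM (D.subgroupOf N) ?_ ?_ hb hbD hk3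
      · intro v hv
        exact Subtype.ext (hexp v hv)
      · intro h
        rw [h, Subgroup.card_bot] at hcardD
        exact hD1 (Subgroup.card_eq_one.1 hcardD.symm)
    rw [hcardD] at h11
    -- `|D|` is `2` or `3`
    have h12 : 1 < Nat.card D := by
      rw [Subgroup.one_lt_card_iff_ne_bot]
      exact hD1
    rcases Nat.lt_or_ge (Nat.card D) 3 with h13 | h13
    · exfalso
      have h14 : Nat.card D = 2 := by omega
      rw [h14] at h4
      have := Fintype.ofFinite G
      have h15 := HeightForm.brauer_feit hM hB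
      have h16 : p ^ (2 * blockDefect p B) = 4 := by
        rw [mul_comm, pow_mul, ← h4]
        norm_num
      rw [h16] at h15
      have h17 : 3 ≤ ∑ᶠ ψ ∈ B, p ^ (2 * blockHeight p B (ψ : G → ℂ)) := by
        classical
        have := Fintype.ofFinite (IrrCharacter G)
        rw [HeightForm.finsum_mem_filter, ← hk]
        have h18 : Nat.card B = ((Finset.univ : Finset (IrrCharacter G)).filter (· ∈ B)).card := by
          rw [Nat.card_eq_fintype_card, Fintype.card_subtype]
        rw [h18, Finset.card_eq_sum_ones]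
        exact Finset.sum_le_sum fun ψ _ => Nat.one_le_pow _ _ hp.pos
      omega
    · omega

end Cfsg.Agent.H648.ThreeMain
end

-- part: S4609
section
set_option autoImplicit false
open Cfsg

namespace Cfsg.Agent.S4609

/-- Let G be a finite group, p a prime, M a maximal ideal of the algebraic integers containing p, and B a p-block of G with defect group D containing exactly three irreducible characters. Suppose the number of height-zero characters of B equals the number of height-zero characters of its Brauer correspondent b, the block of N_G(D) with defect group D inducing B (as the Alperin–McKay conjecture predicts). Then D has order 3. -/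
theorem result {G : Type*} [Group G] [Finite G] (p : ℕ) [Fact p.Prime] (M : Ideal Cfsg.AlgInt) (hM : Cfsg.IsPModular p M) (B : Set (Cfsg.IrrCharacter G)) (hB : Cfsg.IsPBlock M B) (D : Subgroup G) (hD : Cfsg.IsDefectGroup p M B D) (hk : Nat.card B = 3)
    (b : Set (Cfsg.IrrCharacter (Subgroup.normalizer (D : Set G)))) (hbB : Cfsg.IsInducedBlock M (Subgroup.normalizer (D : Set G)) b B)
    (hbD : Cfsg.IsDefectGroup p M b (D.subgroupOf (Subgroup.normalizer (D : Set G))))
    (hAM : Nat.card {χ : Cfsg.IrrCharacter G // χ ∈ B ∧ Cfsg.blockHeight p B (χ : G → ℂ) = 0} =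
           Nat.card {ψ : Cfsg.IrrCharacter (Subgroup.normalizer (D : Set G)) // ψ ∈ b ∧ Cfsg.blockHeight p b (ψ : Subgroup.normalizer (D : Set G) → ℂ) = 0}) :
    Nat.card D = 3 := by
  exact Cfsg.Agent.H648.ThreeMain.main hM hB hD hk hbB.1 hbD hAM

end Cfsg.Agent.S4609
end
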