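import Cfsg.Statements.S4611
import Cfsg.Agent.H633.Principal
set_option linter.all false

set_option autoImplicit false
open Cfsg

namespace Cfsg.Agent.S4611

/-- Let G be a finite solvable group and π a nonempty set of primes, each dividing the order of G; fix for each p in π a maximal ideal M p of the algebraic integers containing p. Then the only irreducible character lying in the principal p-block for every p in π is the principal character if and only if G is generated by the subgroups O_{p'}(G), p in π (the largest normal subgroups of order prime to p). -/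
theorem result {G : Type*} [Group G] [Finite G] [Group.IsSolvable G] (π : Set ℕ) (hπ : ∀ p ∈ π, p.Prime ∧ p ∣ Nat.card G) (hne : π.Nonempty) (M : ℕ → Ideal Cfsg.AlgInt) (hM : ∀ p ∈ π, Cfsg.IsPModular p (M p)) :
    (∀ χ : Cfsg.IrrCharacter G, (∀ p ∈ π, χ ∈ Cfsg.principalBlock (M p) G) → (χ : G → ℂ) = fun _ => 1) ↔
      ⨆ p ∈ π, Cfsg.pPrimeCore p G = ⊤ := by
  have key : ∀ χ : Cfsg.IrrCharacter G, (∀ p ∈ π, χ ∈ Cfsg.principalBlock (M p) G) ↔
      ∀ n ∈ (⨆ p ∈ π, Cfsg.pPrimeCore p G : Subgroup G), (χ : G → ℂ) n = (χ : G → ℂ) 1 := by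
    intro χ
    obtain ⟨K, hK, hKmem⟩ := Cfsg.Agent.Blocks.BlockKer.exists_kernel χ.2
    have h1 : (∀ n ∈ (⨆ p ∈ π, Cfsg.pPrimeCore p G : Subgroup G), (χ : G → ℂ) n = (χ : G → ℂ) 1) ↔
        (⨆ p ∈ π, Cfsg.pPrimeCore p G : Subgroup G) ≤ K :=
      ⟨fun h n hn => (hKmem n).2 (h n hn), fun h n hn => (hKmem n).1 (h hn)⟩
    rw [h1, iSup₂_le_iff]
    refine forall₂_congr fun p hp => ?_
    haveI : Fact p.Prime := ⟨(hπ p hp).1⟩
    rw [Cfsg.Agent.H633.Principal.mem_principalBlock_iff_of_pSolvable (hM p hp)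
      (Cfsg.Agent.Lib.PSolvable.IsPSolvable_of_solvable p)]
    exact ⟨fun h n hn => (hKmem n).2 (h n hn), fun h n hn => (hKmem n).1 (h hn)⟩
  have hnorm : (⨆ p ∈ π, Cfsg.pPrimeCore p G : Subgroup G).Normal := by
    haveI : ∀ p, (Cfsg.pPrimeCore p G).Normal := fun p => Cfsg.Agent.Lib.Cores.pPrimeCore_normal p
    haveI : ∀ p, (⨆ _ : p ∈ π, Cfsg.pPrimeCore p G : Subgroup G).Normal := fun p =>
      Subgroup.iSup_normal _
    exact Subgroup.iSup_normal _
  constructor
  · intro h
    exact Cfsg.Agent.H633.Principal.top_of_forall_ker _ fun χ hχ => h χ ((key χ).2 hχ)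
  · intro h χ hχ
    refine Cfsg.Agent.H633.Principal.eq_one_of_ker_top χ fun g => ?_
    exact (key χ).1 hχ g (by rw [h]; exact Subgroup.mem_top g)

end Cfsg.Agent.S4611
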