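import Mathlib
import Cfsg.Statements.S4632
import Cfsg.Agent.ClassificationK.GTwoSylow
import Cfsg.Agent.H638.G2Iso
set_option linter.all false

-- part: H638/SqComm
section
/-!
# Groups whose abelianisation is elementary abelian: `∀ x, x ^ 2 ∈ commutator G`

* `of_equiv`, `of_surjective`: transport;
* `of_closure`: it is enough to check the squares of generators;
* `sylow_of_equiv`, `sylow_of_card`: transport to Sylow 2-subgroups.
-/

set_option autoImplicit false

namespace Cfsg.Agent.H638.SqComm

/-- the square of every element lies in the derived subgroup -/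
def SqComm (G : Type*) [Group G] : Prop := ∀ x : G, x ^ 2 ∈ commutator G

theorem of_surjective {G H : Type*} [Group G] [Group H] (f : G →* H) (hf : Function.Surjective f) (h : SqComm G) :
    SqComm H := by
  intro y
  obtain ⟨x, rfl⟩ := hf y
  rw [← map_pow]
  have h1 : (commutator G).map f ≤ commutator H := by
    rw [commutator_def, Subgroup.map_commutator]
    exact Subgroup.commutator_mono le_top le_top
  exact h1 ⟨_, h x, rfl⟩

theorem of_equiv {G H : Type*} [Group G] [Group H] (e : G ≃* H) (h : SqComm G) : SqComm H :=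
  of_surjective e.toMonoidHom e.surjective h

/-- It is enough to check generators. -/
theorem of_closure {G : Type*} [Group G] (S : Set G) (hS : Subgroup.closure S = ⊤)
    (h : ∀ x ∈ S, x ^ 2 ∈ commutator G) : SqComm G := by
  -- the set of elements whose square dies in the abelianisation is a subgroup
  let K : Subgroup G := ((powMonoidHom 2).comp (Abelianization.of (G := G))).ker
  have hK : ∀ x, x ∈ K ↔ x ^ 2 ∈ commutator G := by
    intro x
    show (Abelianization.of x) ^ 2 = 1 ↔ _
    rw [← map_pow, ← MonoidHom.mem_ker, Abelianization.ker_of]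
  have h1 : Subgroup.closure S ≤ K := (Subgroup.closure_le _).2 fun x hx => (hK x).2 (h x hx)
  intro x
  rw [hS] at h1
  exact (hK x).1 (h1 (Subgroup.mem_top x))

/-- Version for subgroups: `P = closure S` inside a bigger group. -/
theorem of_closure_eq {G : Type*} [Group G] {P : Subgroup G} (S : Set G) (hS : Subgroup.closure S = P)
    (h : ∀ x ∈ S, x ^ 2 ∈ ⁅P, P⁆) : SqComm P := by
  have hmap : (commutator P).map P.subtype = ⁅P, P⁆ := by
    rw [commutator_def, Subgroup.map_commutator]
    simp [← MonoidHom.range_eq_map]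
  refine of_closure (P.subtype ⁻¹' S) ?_ ?_
  · have hSP : S ⊆ P := by
      intro x hx
      rw [← hS]
      exact Subgroup.subset_closure hx
    apply Subgroup.map_injective P.subtype_injective
    rw [MonoidHom.map_closure, ← MonoidHom.range_eq_map, Subgroup.range_subtype]
    rw [Set.image_preimage_eq_of_subset, hS]
    intro x hx
    exact ⟨⟨x, hSP hx⟩, rfl⟩
  · intro x hx
    have h1 := h _ hx
    rw [← hmap] at h1
    obtain ⟨y, hy, hyx⟩ := h1
    have : y = x ^ 2 := Subtype.ext hyx
    rwa [this] at hy

/-- All Sylow 2-subgroups of isomorphic groups. -/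
theorem sylow_of_sylow {G : Type*} [Group G] [Finite G] {p : ℕ} [Fact p.Prime] (Q : Sylow p G)
    (h : SqComm (Q : Subgroup G)) (P : Sylow p G) : SqComm (P : Subgroup G) :=
  of_equiv (Sylow.equiv Q P) h

end Cfsg.Agent.H638.SqComm
end

-- part: S4632
section
set_option autoImplicit false
open Cfsg

namespace Cfsg.Agent.S4632

open Cfsg.Agent.ClassificationK.GTwoModel Cfsg.Agent.H638.SqComm
open scoped commutatorElement

/-- commutators with the inverting element -/
theorem mem_two {m : ℕ} (i j : ZMod m) : (⟨2 * i, 2 * j, false, false⟩ : T m) ∈ commutator (T m) := by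
  have h : (⟨2 * i, 2 * j, false, false⟩ : T m) = ⁅(⟨i, j, false, false⟩ : T m), ⟨0, 0, true, false⟩⁆ := by
    rw [commutatorElement_def]
    simp [T.inv_mk, T.mul_mk]
    constructor <;> ring
  rw [h]
  exact Subgroup.commutator_mem_commutator (Subgroup.mem_top _) (Subgroup.mem_top _)

/-- commutators with the swapping element -/
theorem mem_diff {m : ℕ} (i j : ZMod m) : (⟨i - j, j - i, false, false⟩ : T m) ∈ commutator (T m) := by
  have h : (⟨i - j, j - i, false, false⟩ : T m) = ⁅(⟨i, j, false, false⟩ : T m), ⟨0, 0, false, true⟩⁆ := by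
    rw [commutatorElement_def]
    simp [T.inv_mk, T.mul_mk]
    constructor <;> ring
  rw [h]
  exact Subgroup.commutator_mem_commutator (Subgroup.mem_top _) (Subgroup.mem_top _)

theorem sqComm_T (m : ℕ) : SqComm (T m) := by
  rintro ⟨i, j, e, d⟩
  rw [pow_two, T.mul_mk]
  cases e <;> cases d <;>
    simp only [sg_true, sg_false, cond_true, cond_false, Bool.xor_false, Bool.xor_true, Bool.not_true, Bool.not_false]
  · have := mem_two i j
    convert this using 2 <;> ring
  · have := mul_mem (mem_two j i) (mem_diff i j)
    rw [T.mul_mk] at this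
    simp only [sg_false, cond_false, Bool.xor_false] at this
    convert this using 2 <;> ring
  · convert one_mem (commutator (T m)) using 1
    rw [T.one_def]
    congr 1 <;> ring
  · have := mem_diff i j
    convert this using 2 <;> ring

/-- Let F be a finite field of odd order and G₂(F) the automorphism group of the split octonion algebra over F (realized on F⁸ with the Zorn vector-matrix multiplication). A Sylow 2-subgroup P of G₂(F) has P/P' elementary abelian: the square of every element of P lies in the derived subgroup of P. -/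
theorem result {F : Type*} [Field F] [Fintype F] (hF : Odd (Fintype.card F)) (P : Sylow 2 (Cfsg.Lie.G2 F)) : ∀ x : (P : Subgroup (Cfsg.Lie.G2 F)), x ^ 2 ∈ commutator (P : Subgroup (Cfsg.Lie.G2 F)) := by
  obtain ⟨e⟩ := Cfsg.Agent.H638.G2Iso.equiv (F := F)
  have hcard : Nat.card ↥(Cfsg.Lie.chevG2.group F) =
      Fintype.card F ^ 6 * (Fintype.card F ^ 2 - 1) * (Fintype.card F ^ 6 - 1) :=
    Cfsg.Agent.S1059.result (F := F) rfl
  have : Fact (Nat.Prime 2) := ⟨Nat.prime_two⟩
  obtain ⟨Q⟩ : Nonempty (Sylow 2 ↥(Cfsg.Lie.chevG2.group F)) := inferInstance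
  obtain ⟨k, -, ⟨f⟩⟩ := Cfsg.Agent.ClassificationK.GTwoSylow.exists_equiv hF hcard Q
  have hQ : SqComm (Q : Subgroup ↥(Cfsg.Lie.chevG2.group F)) := of_equiv f (sqComm_T _)
  let P' : Sylow 2 ↥(Cfsg.Lie.chevG2.group F) := P.mapSurjective (f := e.toMonoidHom) e.surjective
  have hP' : (P' : Subgroup ↥(Cfsg.Lie.chevG2.group F)) = (P : Subgroup (Cfsg.Lie.G2 F)).map e.toMonoidHom := rfl
  have hS : SqComm ((P : Subgroup (Cfsg.Lie.G2 F)).map e.toMonoidHom) := by
    rw [← hP']
    exact sylow_of_sylow Q hQ P'
  exact of_equiv ((P : Subgroup (Cfsg.Lie.G2 F)).equivMapOfInjective e.toMonoidHom e.injective).symm hS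

end Cfsg.Agent.S4632
end
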