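import Cfsg.Statements.S4665
import Mathlib
import Cfsg.Agent.Blocks.Orthogonality
import Cfsg.Agent.Characters.Core
set_option linter.all false

set_option autoImplicit false
open Cfsg

namespace Cfsg.Agent.S4665

open scoped ComplexConjugate

theorem pRegularPart_of_not_dvd {G : Type*} [Group G] {p : ℕ} {χ : G → ℂ} {g : G}
    (hg : ¬ p ∣ orderOf g) : pRegularPart p χ g = χ g := by
  unfold pRegularPart
  exact if_pos hg

theorem pRegularPart_of_dvd {G : Type*} [Group G] {p : ℕ} {χ : G → ℂ} {g : G}
    (hg : p ∣ orderOf g) : pRegularPart p χ g = 0 := by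
  unfold pRegularPart
  exact if_neg (not_not.mpr hg)

/-- The sum of the values of an irreducible character over a subgroup is divisible by its order. -/
theorem sum_subgroup {G : Type*} [Group G] [Fintype G] (P : Subgroup G) [Fintype P]
    (ψ : IrrCharacter G) :
    ∃ n : ℕ, ∑ x : P, (ψ : G → ℂ) x = (Nat.card P : ℂ) * n := by
  obtain ⟨n, hn⟩ := Characters.Core.classInner_isNat
    (Characters.Core.isCharacter_comp P.subtype (Blocks.Basic.irr_isCharacter ψ.2))
    (Characters.Core.isCharacter_one (G := P))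
  refine ⟨n, ?_⟩
  rw [← hn, Characters.Core.classInner_def, ← mul_assoc,
    mul_inv_cancel₀ Characters.Core.card_ne_zero_complex, one_mul]
  refine Finset.sum_congr rfl fun x _ => ?_
  simp

/-- Fix a prime p, a maximal ideal M of the algebraic integers containing p, and a p-block B of the finite group G, and let p^a be the p-part of the order of G. Let χ be an integer combination of the irreducible characters in B. If the function that agrees with χ on p-regular elements and vanishes on p-singular elements is again an integer combination of the irreducible characters in B, then p^a divides χ(1). -/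
theorem result {G : Type*} [Group G] [Fintype G] (p : ℕ) [Fact p.Prime] (M : Ideal Cfsg.AlgInt) (hM : Cfsg.IsPModular p M) (B : Set (Cfsg.IrrCharacter G)) (hB : Cfsg.IsPBlock M B) (χ : G → ℂ) (hχ : (∃ n : Cfsg.IrrCharacter G → ℤ, ∀ g : G, χ g = ∑ᶠ ψ ∈ B, (n ψ : ℂ) * (ψ : G → ℂ) g)) (h0 : (∃ n : Cfsg.IrrCharacter G → ℤ, ∀ g : G, Cfsg.pRegularPart p χ g = ∑ᶠ ψ ∈ B, (n ψ : ℂ) * (ψ : G → ℂ) g)) : ∃ k : ℤ, χ 1 = (p ^ (Nat.card G).factorization p : ℂ) * k := by
  classical
  have hp : p.Prime := Fact.out
  have hfin : Finite (IrrCharacter G) := S0909.finite_irr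
  have := Fintype.ofFinite (IrrCharacter G)
  obtain ⟨n, hn⟩ := h0
  obtain ⟨P, hP2, hPcard⟩ : ∃ P : Subgroup G, IsPGroup p P ∧
      Nat.card P = p ^ (Nat.card G).factorization p := by
    obtain ⟨P⟩ : Nonempty (Sylow p G) := inferInstance
    exact ⟨P, P.2, P.card_eq_multiplicity⟩
  have hsum : ∑ x : P, pRegularPart p χ x = χ 1 := by
    rw [Finset.sum_eq_single (1 : P)]
    · rw [Subgroup.coe_one, pRegularPart_of_not_dvd]
      rw [orderOf_one]; exact fun h => hp.one_lt.ne' (Nat.dvd_one.mp h)
    · intro x _ hx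
      refine pRegularPart_of_dvd ?_
      obtain ⟨k, hk⟩ := (IsPGroup.iff_orderOf.mp hP2) x
      have hk' : orderOf (x : G) = p ^ k := by
        rw [← hk]; exact Subgroup.orderOf_coe x
      rw [hk']
      refine dvd_pow_self p ?_
      rintro rfl
      rw [pow_zero, orderOf_eq_one_iff] at hk
      exact hx hk
    · exact fun h => absurd (Finset.mem_univ _) h
  choose m hm using fun ψ : IrrCharacter G => sum_subgroup P ψ
  refine ⟨∑ ψ : IrrCharacter G with ψ ∈ B, n ψ * m ψ, ?_⟩
  rw [← hsum]
  have h1 : ∀ x : P, pRegularPart p χ x =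
      ∑ ψ : IrrCharacter G with ψ ∈ B, (n ψ : ℂ) * (ψ : G → ℂ) x := by
    intro x
    rw [hn, Blocks.Orthogonality.finsum_mem_eq_sum_filter]
  rw [Finset.sum_congr rfl fun x _ => h1 x, Finset.sum_comm]
  push_cast
  rw [Finset.mul_sum]
  refine Finset.sum_congr rfl fun ψ _ => ?_
  rw [← Finset.mul_sum]
  have h2 := hm ψ
  have h3 : (∑ x : P, (ψ : G → ℂ) x) = (p ^ (Nat.card G).factorization p : ℂ) * m ψ := by
    rw [h2]
    congr 1
    exact_mod_cast hPcard
  rw [h3]
  ring

end Cfsg.Agent.S4665
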