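import Mathlib
import Cfsg.Agent.Lib.Dihedral
import Cfsg.Agent.Transfer.PGroupNormal
import Cfsg.Agent.S0157
import Cfsg.Agent.HKS.Pair
import Cfsg.Agent.OddOrderCharacters.Clifford
import Cfsg.Agent.H656.DihedralP
import Cfsg.Agent.H656.PermSetup
import Cfsg.Statements.S4707
import Cfsg.Agent.S0483
import Cfsg.Agent.S0720
import Cfsg.Agent.S0669
import Cfsg.Agent.S0253
import Cfsg.Agent.Classification.BSW.CharTools
import Cfsg.Agent.StandardComponent.FiRedGen
import Cfsg.Agent.SmallSimple.PSLTwoPart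
import Cfsg.Agent.Lib.PSL2Torus
import Cfsg.Agent.ClassicalGeometry.PSL2Basic
import Cfsg.Agent.H656.DihedralSimple
import Cfsg.Agent.H656.TwoPSimple
import Cfsg.Agent.FastGrp
import Cfsg.Agent.Prune
set_option linter.all false

section
prune_inst 0x7f00000000000000000000000000000000000000000000000000000000000000000000000000000000000000000000000000000000000000000000000000000000000000000000000000000000000000003fffffffffffffffffffffffffffbeffbdffffffff

-- part: H656/TwoPSylow
section
set_option linter.all false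
open scoped Cfsg.Agent.FastGrp

-- part: H656/SignCycle
section
/-!
# The sign of a permutation which swaps two points and is semiregular on the others
-/

set_option autoImplicit false

open Equiv Equiv.Perm

namespace Cfsg.Agent.H656.SignCycle

variable {α : Type*} [Fintype α] [DecidableEq α]

/-- A permutation swapping `a` and `b` whose powers are semiregular on the other points is odd if
`2 n` divides the number of other points. -/
theorem sign_eq (f : Perm α) {a b : α} (hab : a ≠ b) (hfa : f a = b) (hfb : f b = a) {n : ℕ}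
    (hn0 : n ≠ 0) (hfn : f ^ n = 1)
    (hfree : ∀ x, x ≠ a → x ≠ b → ∀ k : ℕ, (f ^ k) x = x → n ∣ k)
    (hn1 : n ≠ 1)
    (hcard : ∃ m, Fintype.card α = 2 * n * m + 2) : sign f = -1 := by
  obtain ⟨m, hm⟩ := hcard
  -- no fixed points
  have hsupp : f.support = Finset.univ := by
    rw [Finset.eq_univ_iff_forall]
    intro x
    rw [mem_support]
    intro hx
    by_cases hxa : x = a
    · rw [hxa, hfa] at hx
      exact hab hx.symm
    by_cases hxb : x = b
    · rw [hxb, hfb] at hx
      exact hab hx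
    have h1 := hfree x hxa hxb 1 (by rw [pow_one]; exact hx)
    exact hn1 (Nat.dvd_one.mp h1)
  set C := f.cycleFactorsFinset with hC
  have hc₀ : f.cycleOf a ∈ C := by
    rw [hC, cycleOf_mem_cycleFactorsFinset_iff, hsupp]
    exact Finset.mem_univ a
  have hfa' : f a ≠ a := by rw [hfa]; exact hab.symm
  have hsupp₀ : (f.cycleOf a).support = {a, b} := by
    ext x
    rw [mem_support_cycleOf_iff' hfa']
    simp only [Finset.mem_insert, Finset.mem_singleton]
    constructor
    · rintro ⟨k, rfl⟩
      have h2 : ∀ k : ℤ, (f ^ k) a = a ∨ (f ^ k) a = b := by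
        intro k
        induction k using Int.induction_on with
        | zero => left; rfl
        | succ i ih =>
          rw [add_comm, zpow_add, zpow_one, Perm.mul_apply]
          rcases ih with h | h
          · rw [h, hfa]; right; rfl
          · rw [h, hfb]; left; rfl
        | pred i ih =>
          rw [sub_eq_add_neg, add_comm, zpow_add, Perm.mul_apply, zpow_neg_one]
          rcases ih with h | h
          · rw [h]
            right
            rw [Perm.inv_eq_iff_eq]
            exact hfb.symm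
          · rw [h]
            left
            rw [Perm.inv_eq_iff_eq]
            exact hfa.symm
      exact h2 k
    · rintro (rfl | rfl)
      · exact SameCycle.refl f _
      · refine ⟨1, ?_⟩
        rw [zpow_one]
        exact hfa
  have hcard₀ : (f.cycleOf a).support.card = 2 := by
    rw [hsupp₀, Finset.card_pair hab]
  have hcard₁ : ∀ c ∈ C.erase (f.cycleOf a), c.support.card = n := by
    intro c hc
    rw [Finset.mem_erase] at hc
    obtain ⟨hne, hcC⟩ := hc
    have hdisj : Disjoint c (f.cycleOf a) :=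
      cycleFactorsFinset_pairwise_disjoint f hcC hc₀ hne
    obtain ⟨hcyc, hcf⟩ := mem_cycleFactorsFinset_iff.mp hcC
    obtain ⟨x, hx⟩ : ∃ x, x ∈ c.support := by
      obtain ⟨x, hx, -⟩ := hcyc
      exact ⟨x, mem_support.mpr hx⟩
    have hxab : x ∉ (f.cycleOf a).support := by
      intro h
      have h1 := hdisj.disjoint_support
      exact (Finset.disjoint_left.mp h1) hx h
    rw [hsupp₀, Finset.mem_insert, Finset.mem_singleton, not_or] at hxab
    have hpow : ∀ k : ℕ, (c ^ k) x = (f ^ k) x ∧ (c ^ k) x ∈ c.support := by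
      intro k
      induction k with
      | zero => exact ⟨rfl, hx⟩
      | succ k ih =>
        have h1 : (c ^ (k + 1)) x = c ((c ^ k) x) := by
          rw [pow_succ', Perm.mul_apply]
        have h2 : (f ^ (k + 1)) x = f ((f ^ k) x) := by
          rw [pow_succ', Perm.mul_apply]
        refine ⟨?_, ?_⟩
        · rw [h1, h2, ← ih.1]
          exact hcf _ ih.2
        · rw [h1]
          exact apply_mem_support.mpr ih.2
    have h1 : orderOf c = c.support.card := hcyc.orderOf
    have h2 : n ∣ orderOf c := by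
      apply hfree x hxab.1 hxab.2
      rw [← (hpow _).1, pow_orderOf_eq_one, one_apply]
    have h3 : orderOf c ∣ n := by
      have h4 : c.support.card ∈ f.cycleType := by
        rw [cycleType_def, Multiset.mem_map]
        exact ⟨c, hcC, rfl⟩
      rw [h1]
      exact (dvd_of_mem_cycleType h4).trans (orderOf_dvd_of_pow_eq_one hfn)
    rw [← h1]
    exact Nat.dvd_antisymm h3 h2
  have hsum : f.cycleType.sum = Fintype.card α := by
    rw [sum_cycleType, hsupp, Finset.card_univ]
  have hcc : Multiset.card f.cycleType = C.card := by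
    rw [cycleType_def, Multiset.card_map]
    rfl
  have hsum2 : f.cycleType.sum = 2 + (C.card - 1) * n := by
    have h1 : f.cycleType.sum = ∑ c ∈ C, c.support.card := by
      rw [cycleType_def]
      rfl
    rw [h1, ← Finset.add_sum_erase _ _ hc₀, hcard₀, Finset.sum_congr rfl hcard₁,
      Finset.sum_const, Finset.card_erase_of_mem hc₀, smul_eq_mul]
  have hCpos : 0 < C.card := Finset.card_pos.mpr ⟨_, hc₀⟩
  have hCm : C.card = 2 * m + 1 := by
    have h1 : (C.card - 1) * n = (2 * m) * n := by
      have : 2 * m * n = 2 * n * m := by ring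
      omega
    have h2 := Nat.eq_of_mul_eq_mul_right (Nat.pos_of_ne_zero hn0) h1
    omega
  rw [sign_of_cycleType, hsum, hcc, hCm, hm]
  have h1 : 2 * n * m + 2 + (2 * m + 1) = 2 * (n * m + 1 + m) + 1 := by ring
  rw [h1, pow_succ, pow_mul]
  simp

end Cfsg.Agent.H656.SignCycle
end

-- part: H656/TwoPSylow
section
/-!
# Dihedral Sylow 2-subgroups

A group of even permutations of degree `2 p` in which all involutions have exactly two fixed points
and `|G|` and `p - 1` have the same `2`-part has dihedral Sylow 2-subgroups.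
-/

set_option autoImplicit false

open Cfsg

namespace Cfsg.Agent.H656.TwoPSylow

variable {G : Type*} [Group G] [Finite G] {α : Type*} [Fintype α] [DecidableEq α] [MulAction G α]

omit [Finite G] [Fintype α] [DecidableEq α] in
/-- The two fixed points of an involution. -/
theorem eq_or_eq (hinv : ∀ b : G, orderOf b = 2 → Nat.card (MulAction.fixedBy α b) = 2) {w : G}
    (hw : orderOf w = 2) {a b : α} (hab : a ≠ b) (ha : w • a = a) (hb : w • b = b) {x : α}
    (hx : w • x = x) : x = a ∨ x = b := by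
  have h1 : (MulAction.fixedBy α w).ncard = 2 := hinv w hw
  rw [Set.ncard_eq_two] at h1
  obtain ⟨c, d, hcd, heq⟩ := h1
  have hmem : ∀ y, w • y = y → y = c ∨ y = d := by
    intro y hy
    have h2 : y ∈ MulAction.fixedBy α w := hy
    rw [heq] at h2
    exact h2
  rcases hmem a ha with h1 | h1 <;> rcases hmem b hb with h2 | h2 <;>
    rcases hmem x hx with h3 | h3
  · exact absurd (h1.trans h2.symm) hab
  · exact absurd (h1.trans h2.symm) hab
  · left; rw [h1, h3]
  · right; rw [h2, h3]
  · right; rw [h2, h3]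
  · left; rw [h1, h3]
  · exact absurd (h1.trans h2.symm) hab
  · exact absurd (h1.trans h2.symm) hab

theorem main [MulAction.IsPretransitive G α] {p : ℕ} (hp : Odd p) (hp3 : 3 ≤ p)
    (hα : Fintype.card α = 2 * p)
    (hinv : ∀ b : G, orderOf b = 2 → Nat.card (MulAction.fixedBy α b) = 2)
    (hsign : ∀ g : G, Equiv.Perm.sign (MulAction.toPerm g : Equiv.Perm α) = 1)
    (h2 : (Nat.card G).factorization 2 = (p - 1).factorization 2) (S : Sylow 2 G) :
    ∃ n, 2 ≤ n ∧ Nonempty ((S : Subgroup G) ≃* DihedralGroup n) := by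
  have hf2 : Fact (Nat.Prime 2) := ⟨Nat.prime_two⟩
  obtain ⟨m₀, hm₀⟩ := hp
  have hp1 : p - 1 ≠ 0 := by omega
  -- the order of `S`
  have hScard : Nat.card (S : Subgroup G) = 2 ^ (p - 1).factorization 2 := by
    rw [← h2]
    exact Sylow.card_eq_multiplicity S
  have hSdvd : Nat.card (S : Subgroup G) ∣ p - 1 := by
    rw [hScard]
    exact Nat.ordProj_dvd _ _
  have hfac : 1 ≤ (p - 1).factorization 2 := by
    have h3 : 2 ∣ p - 1 := ⟨m₀, by omega⟩
    exact Nat.Prime.factorization_pos_of_dvd Nat.prime_two hp1 h3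
  have hSp : IsPGroup 2 (S : Subgroup G) := S.isPGroup'
  have hSnt : Nontrivial (S : Subgroup G) := by
    rw [← Finite.one_lt_card_iff_nontrivial, hScard]
    exact Nat.one_lt_two_pow (by omega)
  -- a central involution
  obtain ⟨z, hzS, hz2, hzc⟩ : ∃ z : G, z ∈ (S : Subgroup G) ∧ orderOf z = 2 ∧
      ∀ s ∈ (S : Subgroup G), s * z = z * s := by
    have h3 := hSp.center_nontrivial
    have h4 : IsPGroup 2 (Subgroup.center (S : Subgroup G)) := hSp.to_subgroup _
    have h5 : 2 ∣ Nat.card (Subgroup.center (S : Subgroup G)) := by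
      obtain ⟨k, hk, hk2⟩ := h4.nontrivial_iff_card.mp h3
      rw [hk2]
      exact dvd_pow_self 2 hk.ne'
    obtain ⟨z, hz⟩ := exists_prime_orderOf_dvd_card' 2 h5
    refine ⟨((z : (S : Subgroup G)) : G), (z : (S : Subgroup G)).2, ?_, ?_⟩
    · rw [Subgroup.orderOf_coe, Subgroup.orderOf_coe]
      exact hz
    · intro s hs
      have h6 := Subgroup.mem_center_iff.mp z.2 ⟨s, hs⟩
      exact congrArg Subtype.val h6
  obtain ⟨a, b, hab, hzab⟩ := Set.ncard_eq_two.mp
    (show (MulAction.fixedBy α z).ncard = 2 from hinv z hz2)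
  have hza : z • a = a := by
    have : a ∈ MulAction.fixedBy α z := by rw [hzab]; exact Set.mem_insert a _
    exact this
  have hzb : z • b = b := by
    have : b ∈ MulAction.fixedBy α z := by rw [hzab]; exact Set.mem_insert_of_mem a rfl
    exact this
  -- `S` permutes `{a, b}`
  have hperm : ∀ s ∈ (S : Subgroup G), ∀ x, (x = a ∨ x = b) → (s • x = a ∨ s • x = b) := by
    intro s hs x hx
    apply eq_or_eq hinv hz2 hab hza hzb
    rw [smul_smul, ← hzc s hs, mul_smul]
    rcases hx with rfl | rfl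
    · rw [hza]
    · rw [hzb]
  have hpa : ∀ s ∈ (S : Subgroup G), s • a = a ∨ s • a = b := fun s hs => hperm s hs a (Or.inl rfl)
  have hpb : ∀ s ∈ (S : Subgroup G), s • b = a ∨ s • b = b := fun s hs => hperm s hs b (Or.inr rfl)
  have hfixb : ∀ s ∈ (S : Subgroup G), s • a = a → s • b = b := by
    intro s hs h
    rcases hpb s hs with h1 | h1
    · exfalso
      rw [← h] at h1
      exact hab (MulAction.injective s h1).symm
    · exact h1
  have hswap : ∀ s ∈ (S : Subgroup G), s • a = b → s • b = a := by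
    intro s hs h
    rcases hpb s hs with h1 | h1
    · exact h1
    · exfalso
      exact hab (MulAction.injective s (h.trans h1.symm))
  -- `S` moves `a`
  have hexists : ∃ s ∈ (S : Subgroup G), s • a = b := by
    by_contra hcon
    push Not at hcon
    have hle : (S : Subgroup G) ≤ MulAction.stabilizer G a := by
      intro s hs
      rw [MulAction.mem_stabilizer_iff]
      exact (hpa s hs).resolve_right (hcon s hs)
    have h3 : ¬ 2 ∣ (S : Subgroup G).index := S.not_dvd_index
    apply h3
    rw [← Subgroup.relIndex_mul_index hle, MulAction.index_stabilizer_of_transitive,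
      Nat.card_eq_fintype_card, hα]
    exact Dvd.dvd.mul_left (Dvd.intro p rfl) _
  -- powers
  have hordpow : ∀ s ∈ (S : Subgroup G), ∃ j, orderOf s = 2 ^ j := by
    intro s hs
    obtain ⟨j, hj⟩ := IsPGroup.iff_orderOf.mp hSp ⟨s, hs⟩
    rw [Subgroup.orderOf_mk] at hj
    exact ⟨j, hj⟩
  -- elements of `S` fixing `a`
  have hsemi : ∀ t ∈ (S : Subgroup G), t • a = a → t ≠ 1 → ∀ x, t • x = x → x = a ∨ x = b := by
    intro t ht hta ht1 x hx
    obtain ⟨j, hj⟩ := hordpow t ht
    have hj0 : j ≠ 0 := by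
      rintro rfl
      rw [pow_zero, orderOf_eq_one_iff] at hj
      exact ht1 hj
    have h3 : orderOf (t ^ 2 ^ (j - 1)) = 2 := by
      obtain ⟨i, rfl⟩ : ∃ i, j = i + 1 := ⟨j - 1, by omega⟩
      rw [Nat.add_sub_cancel, orderOf_pow' _ (by positivity), hj,
        Nat.gcd_eq_right (pow_dvd_pow 2 (Nat.le_succ i)), pow_succ,
        Nat.mul_div_cancel_left _ (by positivity)]
    have hfixpow : ∀ (y : α), t • y = y → ∀ k : ℕ, t ^ k • y = y := by
      intro y hy k
      induction k with
      | zero => rw [pow_zero, one_smul]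
      | succ k ih => rw [pow_succ, mul_smul, hy, ih]
    exact eq_or_eq hinv h3 hab (hfixpow a hta _) (hfixpow b (hfixb t ht hta) _) (hfixpow x hx _)
  -- elements of `S` moving `a` are involutions
  have hinvol : ∀ s ∈ (S : Subgroup G), s • a = b → s * s = 1 := by
    intro s hs hsa
    by_contra hss
    obtain ⟨j, hj⟩ := hordpow s hs
    have hj2 : 2 ≤ j := by
      by_contra hcon
      apply hss
      have h3 : orderOf s ∣ 2 := by
        rw [hj]
        have : j = 0 ∨ j = 1 := by omega
        rcases this with rfl | rfl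
        · norm_num
        · norm_num
      have h4 := orderOf_dvd_iff_pow_eq_one.mp h3
      rwa [sq] at h4
    have hsb := hswap s hs hsa
    have h3 : Equiv.Perm.sign (MulAction.toPerm s : Equiv.Perm α) = -1 := by
      have hpowsmul : ∀ (k : ℕ) (x : α), ((MulAction.toPerm s : Equiv.Perm α) ^ k) x = s ^ k • x := by
        intro k x
        have : (MulAction.toPerm s : Equiv.Perm α) = MulAction.toPermHom G α s := rfl
        rw [this, ← map_pow]
        rfl
      apply SignCycle.sign_eq (MulAction.toPerm s : Equiv.Perm α) hab hsa hsb (n := 2 ^ j)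
      · positivity
      · ext x
        rw [hpowsmul, ← hj, pow_orderOf_eq_one, one_smul]
        rfl
      · intro x hxa hxb k hk
        rw [hpowsmul] at hk
        by_contra hndvd
        rw [← hj] at hndvd
        have hk1 : s ^ k ≠ 1 := fun h => hndvd (orderOf_dvd_of_pow_eq_one h)
        have hkS : s ^ k ∈ (S : Subgroup G) := Subgroup.pow_mem _ hs k
        rcases hpa _ hkS with h4 | h4
        · rcases hsemi _ hkS h4 hk1 x hk with h5 | h5
          · exact hxa h5
          · exact hxb h5
        · by_cases h5 : s ^ k * s ^ k = 1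
          · -- `k` is even
            rw [← pow_add, ← two_mul] at h5
            have h6 := orderOf_dvd_of_pow_eq_one h5
            rw [hj] at h6
            obtain ⟨i, rfl⟩ : ∃ i, j = i + 2 := ⟨j - 2, by omega⟩
            have h7 : 2 ^ (i + 1) ∣ k := by
              have h8 : 2 ^ (i + 2) = 2 * 2 ^ (i + 1) := by ring
              rw [h8] at h6
              exact Nat.dvd_of_mul_dvd_mul_left two_pos h6
            obtain ⟨l, hl⟩ : 2 ∣ k := (dvd_pow_self 2 (Nat.succ_ne_zero i)).trans h7
            have h8 : ∀ l : ℕ, s ^ (2 * l) • a = a := by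
              intro l
              induction l with
              | zero => rw [mul_zero, pow_zero, one_smul]
              | succ l ih =>
                have : s ^ (2 * (l + 1)) = s ^ (2 * l) * (s * s) := by
                  rw [← sq, ← pow_add]
                  congr 1
                rw [this, mul_smul, mul_smul, hsa, hsb, ih]
            rw [hl, h8] at h4
            exact hab h4
          · have h6 : (s ^ k * s ^ k) • a = a := by
              rw [mul_smul, h4]
              exact hswap _ hkS h4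
            rcases hsemi _ (Subgroup.mul_mem _ hkS hkS) h6 h5 x (by
              rw [mul_smul, hk, hk]) with h7 | h7
            · exact hxa h7
            · exact hxb h7
      · exact (Nat.one_lt_two_pow (by omega)).ne'
      · have h4 : 2 ^ j ∣ p - 1 := by
          rw [← hj, ← Subgroup.orderOf_mk _ hs]
          exact (orderOf_dvd_natCard _).trans hSdvd
        obtain ⟨m, hm⟩ := h4
        refine ⟨m, ?_⟩
        rw [hα]
        have : 2 * 2 ^ j * m = 2 * (p - 1) := by rw [hm]; ring
        omega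
    rw [hsign s] at h3
    exact absurd h3 (by decide)
  obtain ⟨s₀, hs₀, hs₀a⟩ := hexists
  have hs₀b := hswap s₀ hs₀ hs₀a
  have hs₀2 := hinvol s₀ hs₀ hs₀a
  have hs₀1 : s₀ ≠ 1 := by
    rintro rfl
    rw [one_smul] at hs₀a
    exact hab hs₀a
  have hs₀o : orderOf s₀ = 2 := orderOf_eq_prime (by rw [sq, hs₀2]) hs₀1
  set T : Subgroup G := (S : Subgroup G) ⊓ MulAction.stabilizer G a with hT
  have hTS : T ≤ (S : Subgroup G) := inf_le_left
  have hTmem : ∀ {t : G}, t ∈ T ↔ t ∈ (S : Subgroup G) ∧ t • a = a := by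
    intro t
    rw [hT, Subgroup.mem_inf, MulAction.mem_stabilizer_iff]
  have hinvert : ∀ t ∈ T, s₀ * t * s₀ = t⁻¹ := by
    intro t ht
    have h3 : (s₀ * t) * (s₀ * t) = 1 := by
      apply hinvol _ (Subgroup.mul_mem _ hs₀ (hTS ht))
      rw [mul_smul, (hTmem.mp ht).2, hs₀a]
    rw [eq_inv_iff_mul_eq_one, ← h3]
    group
  have hTcomm : ∀ t ∈ T, ∀ t' ∈ T, t * t' = t' * t := by
    intro t ht t' ht'
    have h3 := hinvert _ (T.mul_mem (T.inv_mem ht') (T.inv_mem ht))
    have h4 : s₀ * (t'⁻¹ * t⁻¹) * s₀ = (s₀ * t'⁻¹ * s₀) * (s₀ * t⁻¹ * s₀) := by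
      calc s₀ * (t'⁻¹ * t⁻¹) * s₀ = s₀ * t'⁻¹ * 1 * t⁻¹ * s₀ := by group
        _ = s₀ * t'⁻¹ * (s₀ * s₀) * t⁻¹ * s₀ := by rw [hs₀2]
        _ = _ := by group
    rw [h4, hinvert _ (T.inv_mem ht'), hinvert _ (T.inv_mem ht), inv_inv, inv_inv, mul_inv_rev,
      inv_inv, inv_inv] at h3
    exact h3.symm
  have hzT : z ∈ T := hTmem.mpr ⟨hzS, hza⟩
  -- the involutions of `T`
  have huniq : ∀ t ∈ T, t * t = 1 → t = 1 ∨ t = z := by
    obtain ⟨c, d, hcd, hs₀cd⟩ := Set.ncard_eq_two.mp
      (show (MulAction.fixedBy α s₀).ncard = 2 from hinv s₀ hs₀o)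
    have hc : s₀ • c = c := by
      have : c ∈ MulAction.fixedBy α s₀ := by rw [hs₀cd]; exact Set.mem_insert c _
      exact this
    have hd : s₀ • d = d := by
      have : d ∈ MulAction.fixedBy α s₀ := by rw [hs₀cd]; exact Set.mem_insert_of_mem c rfl
      exact this
    have hca : c ≠ a := by
      rintro rfl
      rw [hc] at hs₀a
      exact hab hs₀a
    have hcb : c ≠ b := by
      rintro rfl
      rw [hc] at hs₀b
      exact hab hs₀b.symm
    have key : ∀ t ∈ T, t * t = 1 → t ≠ 1 → t • c = d := by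
      intro t ht htt ht1
      have h3 : t⁻¹ = t := inv_eq_of_mul_eq_one_left htt
      have h4 := hinvert t ht
      rw [h3] at h4
      have h5 : s₀ * t = t * s₀ := by
        calc s₀ * t = s₀ * t * (s₀ * s₀) := by rw [hs₀2, mul_one]
          _ = (s₀ * t * s₀) * s₀ := by group
          _ = t * s₀ := by rw [h4]
      have h6 : s₀ • (t • c) = t • c := by
        rw [smul_smul, h5, mul_smul, hc]
      rcases eq_or_eq hinv hs₀o hcd hc hd h6 with h7 | h7
      · exfalso
        rcases hsemi t (hTS ht) (hTmem.mp ht).2 ht1 c h7 with h8 | h8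
        · exact hca h8
        · exact hcb h8
      · exact h7
    intro t ht htt
    by_cases ht1 : t = 1
    · exact Or.inl ht1
    right
    have hzz : z * z = 1 := by
      rw [← sq, ← hz2, pow_orderOf_eq_one]
    have hz1 : z ≠ 1 := by
      rintro rfl
      rw [orderOf_one] at hz2
      norm_num at hz2
    have h3 := key t ht htt ht1
    have h4 := key z hzT hzz hz1
    by_contra hne
    have h5 : z⁻¹ * t ∈ T := T.mul_mem (T.inv_mem hzT) ht
    have h6 : z⁻¹ * t ≠ 1 := by
      intro h
      apply hne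
      rw [inv_mul_eq_one] at h
      exact h.symm
    have h7 : (z⁻¹ * t) • c = c := by
      rw [mul_smul, h3, ← h4, inv_smul_smul]
    rcases hsemi _ (hTS h5) (hTmem.mp h5).2 h6 c h7 with h8 | h8
    · exact hca h8
    · exact hcb h8
  -- `T` is cyclic
  have hTcyc : IsCyclic T := by
    let _ : CommGroup T :=
      { (inferInstance : Group T) with
        mul_comm := fun x y => Subtype.ext (hTcomm x x.2 y y.2) }
    have hTp : IsPGroup 2 T := IsPGroup.to_le hSp hTS
    refine Cfsg.Agent.Transfer.PGroupNormal.isCyclic_of_card_ker_pow_le hTp ?_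
    have h3 : (((powMonoidHom 2 : T →* T).ker : Subgroup T) : Set T) ⊆ {1, ⟨z, hzT⟩} := by
      intro x hx
      have h4 : x ^ 2 = 1 := hx
      have h5 : (x : G) * x = 1 := by
        have := congrArg Subtype.val h4
        rw [sq] at this
        exact this
      rcases huniq x x.2 h5 with h6 | h6
      · left; exact Subtype.ext h6
      · right; exact Subtype.ext h6
    have h4 : (((powMonoidHom 2 : T →* T).ker : Subgroup T) : Set T).ncard ≤ 2 :=
      (Set.ncard_le_ncard h3 (Set.toFinite _)).trans (Set.ncard_insert_le _ _ |>.trans (by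
        rw [Set.ncard_singleton]))
    exact h4
  obtain ⟨r, hr⟩ := hTcyc.exists_generator
  have hrT : Subgroup.zpowers (r : G) = T := by
    apply le_antisymm
    · rw [Subgroup.zpowers_le]; exact r.2
    · intro t ht
      obtain ⟨k, hk⟩ := hr ⟨t, ht⟩
      exact ⟨k, congrArg Subtype.val hk⟩
  have hro : orderOf (r : G) = Nat.card T := by
    rw [← Nat.card_zpowers, hrT]
  have hTcard : 2 ≤ Nat.card T := by
    have h3 : orderOf (⟨z, hzT⟩ : T) ∣ Nat.card T := orderOf_dvd_natCard _
    rw [Subgroup.orderOf_mk, hz2] at h3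
    exact Nat.le_of_dvd Nat.card_pos h3
  have hindex : (T.subgroupOf (S : Subgroup G)).index = 2 := by
    rw [Subgroup.index_eq_two_iff]
    refine ⟨⟨s₀, hs₀⟩, fun g => ?_⟩
    have h3 : g * ⟨s₀, hs₀⟩ ∈ T.subgroupOf (S : Subgroup G) ↔ (g : G) • b = a := by
      rw [Subgroup.mem_subgroupOf, hTmem]
      constructor
      · rintro ⟨-, h⟩
        change ((g : G) * s₀) • a = a at h
        rw [mul_smul, hs₀a] at h
        exact h
      · intro h
        refine ⟨(g * ⟨s₀, hs₀⟩).2, ?_⟩
        change ((g : G) * s₀) • a = a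
        rw [mul_smul, hs₀a, h]
    have h4 : g ∈ T.subgroupOf (S : Subgroup G) ↔ (g : G) • a = a := by
      rw [Subgroup.mem_subgroupOf, hTmem]
      exact ⟨fun h => h.2, fun h => ⟨g.2, h⟩⟩
    rw [h3, h4]
    rcases hpa g g.2 with h5 | h5
    · right
      refine ⟨h5, ?_⟩
      rw [hfixb g g.2 h5]
      exact hab.symm
    · left
      refine ⟨hswap g g.2 h5, ?_⟩
      rw [h5]
      exact hab.symm
  have hScard2 : Nat.card (S : Subgroup G) = 2 * Nat.card T := by
    rw [← Subgroup.card_mul_index (T.subgroupOf (S : Subgroup G)), hindex, mul_comm,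
      Nat.card_congr (Subgroup.subgroupOfEquivOfLe hTS).toEquiv]
  refine ⟨Nat.card T, hTcard, ?_⟩
  apply Cfsg.Agent.Lib.Dihedral.nonempty_mulEquiv_subgroup (by omega) (S : Subgroup G) (r : G) s₀
    (hTS r.2) hs₀ hro hs₀2 (hinvert r r.2)
  · rw [hrT, hTmem]
    rintro ⟨-, h⟩
    rw [hs₀a] at h
    exact hab h.symm
  · exact hScard2

end Cfsg.Agent.H656.TwoPSylow
end
end

-- part: S4707
section
set_option linter.all false
open scoped Cfsg.Agent.FastGrp

-- part: H656/TwoPChar
section
/-!
# The permutation character of a rank 3 group of degree `2 p` with Sylow `p`-normalizer of order `2 p`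
-/

set_option autoImplicit false
set_option linter.style.haveILetI false
set_option linter.unusedSectionVars false

open scoped ComplexConjugate
open Cfsg Cfsg.Agent.Characters.Core

namespace Cfsg.Agent.H656.TwoPChar

universe u v

variable {G : Type u} [Group G] [Finite G] {α : Type v} [Fintype α] [MulAction G α]

/-- The permutation character of a group of rank three. -/
theorem exists_add [MulAction.IsPretransitive G α] [Nonempty α]
    (hrank : Nat.card (Quotient (MulAction.orbitRel G (α × α))) = 3) :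
    ∃ ρ σ : G → ℂ, IsIrrCharacter G ρ ∧ IsIrrCharacter G σ ∧ ρ ≠ 1 ∧ σ ≠ 1 ∧ ρ ≠ σ ∧
      ∀ g, (Nat.card (MulAction.fixedBy α g) : ℂ) = 1 + ρ g + σ g := by
  classical
  letI := Fintype.ofFinite G
  obtain ⟨π, hπ⟩ : ∃ π : G → ℂ, π = fun g : G => (Nat.card (MulAction.fixedBy α g) : ℂ) := ⟨_, rfl⟩
  have hπc : IsCharacter G π := hπ ▸ Cfsg.Agent.S0157.isCharacter_fixedBy α
  have h11 : classInner (1 : G → ℂ) 1 = 1 := classInner_irr_self isIrr_one
  have hπ1 : classInner π 1 = 1 := by
    have := Cfsg.Agent.S0157.avg_fixedBy (G := G) α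
    rw [Cfsg.Agent.S0157.card_orbits_of_pretransitive G α] at this
    rw [hπ]
    simpa only [classInner, _root_.Nat.card_eq_fintype_card, _root_.Fintype.card_ofFinset, _root_.MulAction.mem_fixedBy, _root_.Pi.one_apply, _root_.map_one, _root_.mul_one, _root_.Nat.cast_one] using this
  have h1π : classInner 1 π = 1 := by
    rw [← classInner_conj_symm, hπ1, map_one]
  have hππ : classInner π π = (Nat.card (Quotient (MulAction.orbitRel G (α × α))) : ℂ) := by
    rw [← Cfsg.Agent.S0157.avg_fixedBy (G := G) (α × α), hπ]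
    simp only [classInner, Cfsg.Agent.S0157.card_fixedBy_prod, Nat.cast_mul, Complex.conj_natCast]
  have hnorm : classInner (π - 1) (π - 1) = 2 := by
    rw [classInner_sub_left, classInner_sub_right, classInner_sub_right, hππ, hπ1, h1π, h11, hrank]
    norm_num
  have hchar : IsCharacter G (π - 1) :=
    Cfsg.Agent.OddOrderCharacters.Clifford.isCharacter_sub_irr hπc isIrr_one (by
      rw [hπ1]; exact one_ne_zero)
  obtain ⟨ρ, σ, hρ, hσ, hne, heq⟩ := Cfsg.Agent.HKS.exists_add_of_norm_two hchar hnorm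
  have hinner : classInner ρ 1 + classInner σ 1 = 0 := by
    rw [← classInner_add_left, ← heq, classInner_sub_left, hπ1, h11, sub_self]
  refine ⟨ρ, σ, hρ, hσ, ?_, ?_, hne, ?_⟩
  · intro h
    rw [h, h11, classInner_irr_ne hσ isIrr_one (fun h' => hne (h.trans h'.symm))] at hinner
    norm_num at hinner
  · intro h
    rw [h, h11, classInner_irr_ne hρ isIrr_one (fun h' => hne (h'.trans h.symm))] at hinner
    norm_num at hinner
  · intro g
    have h1 := congrFun heq g
    rw [hπ] at h1
    simp only [Pi.sub_apply, Pi.one_apply, Pi.add_apply] at h1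
    linear_combination h1

/-- The degree of a character vanishing on the nonidentity elements of a subgroup is divisible by
the order of the subgroup. -/
theorem dvd_degree {P : Subgroup G} {σ : G → ℂ} (hσ : IsCharacter G σ)
    (h0 : ∀ y ∈ P, y ≠ 1 → σ y = 0) : ∃ n : ℕ, σ 1 = (Nat.card P : ℂ) * n := by
  classical
  letI : Fintype P := Fintype.ofFinite P
  obtain ⟨n, hn⟩ := classInner_isNat (isCharacter_comp P.subtype hσ) (isCharacter_one (G := P))
  refine ⟨n, ?_⟩
  rw [← hn, classInner_def, Finset.sum_eq_single (1 : P)]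
  · simp only [Function.comp_apply, map_one, Pi.one_apply, mul_one]
    rw [← mul_assoc, mul_inv_cancel₀, one_mul]
    exact_mod_cast Nat.card_pos.ne'
  · intro y _ hy
    simp only [Function.comp_apply, Subgroup.subtype_apply]
    rw [h0 y y.2 (fun h => hy (Subtype.ext h)), zero_mul]
  · intro h
    exact absurd (Finset.mem_univ _) h

variable {p : ℕ} [Fact p.Prime] {P : Sylow p G}

/-- The three constituents of the permutation character. -/
theorem main_aux (h : DihedralP.Hyp P) {ρ σ : G → ℂ} (hρ : IsIrrCharacter G ρ)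
    (hσ : IsIrrCharacter G σ) (hρ1 : ρ ≠ 1) (hσ1 : σ ≠ 1)
    (hdeg : (2 * p : ℂ) = 1 + ρ 1 + σ 1)
    (h0 : ∀ y ∈ (P : Subgroup G), y ≠ 1 → 1 + ρ y + σ y = 0) :
    ((∀ y ∈ (P : Subgroup G), y ≠ 1 → ρ y = -1) ∧ (∀ y ∈ (P : Subgroup G), y ≠ 1 → σ y = 0)) ∨
      ((∀ y ∈ (P : Subgroup G), y ≠ 1 → σ y = -1) ∧
        (∀ y ∈ (P : Subgroup G), y ≠ 1 → ρ y = 0)) := by
  obtain ⟨χ, Y, a, ε, ha, hε, hχ1, hY1, hχP, hz, hreg, hnc⟩ := h.exists_chars
  have hP' : Nat.card (P : Subgroup G) = p := h.card
  obtain ⟨y₀, hy₀, hy₀1⟩ := PermSetup.exists_mem hP'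
  obtain ⟨R, hR⟩ : ∃ R : IrrCharacter G, (R : G → ℂ) = ρ := ⟨⟨ρ, hρ⟩, rfl⟩
  obtain ⟨S, hS⟩ : ∃ S : IrrCharacter G, (S : G → ℂ) = σ := ⟨⟨σ, hσ⟩, rfl⟩
  have hp1 : ¬ p ∣ orderOf (1 : G) := by
    rw [orderOf_one]
    exact (Fact.out : p.Prime).one_lt.ne' ∘ Nat.dvd_one.mp
  -- trichotomy
  have tri : ∀ T : IrrCharacter G, (T : G → ℂ) ≠ 1 → T = χ ∨ T ∈ Y ∨
      ∀ y ∈ (P : Subgroup G), y ≠ 1 → (T : G → ℂ) y = 0 := by
    intro T hT1
    by_cases h1 : T = χ
    · exact Or.inl h1
    · by_cases h2 : T ∈ Y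
      · exact Or.inr (Or.inl h2)
      · exact Or.inr (Or.inr (hz T hT1 h1 h2))
  have hχirr := χ.2
  rcases tri R (by rwa [hR]) with h1 | h1 | h1 <;> rcases tri S (by rwa [hS]) with h2 | h2 | h2
  · -- both equal to `χ`
    exfalso
    have h3 := h0 y₀ hy₀ hy₀1
    rw [← hR, ← hS, h1, h2, hχP y₀ hy₀ hy₀1] at h3
    have h4 : (1 : ℤ) + a + a = 0 := by exact_mod_cast h3
    omega
  · exfalso
    apply hnc S h2 (-1 - a)
    intro y hy hy1
    have h3 := h0 y hy hy1
    rw [← hR, ← hS, h1, hχP y hy hy1] at h3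
    linear_combination h3
  · left
    refine ⟨fun y hy hy1 => ?_, fun y hy hy1 => ?_⟩
    · have h3 := h0 y hy hy1
      rw [← hS, h2 y hy hy1] at h3
      linear_combination h3
    · rw [← hS]
      exact h2 y hy hy1
  · exfalso
    apply hnc R h1 (-1 - a)
    intro y hy hy1
    have h3 := h0 y hy hy1
    rw [← hR, ← hS, h2, hχP y hy hy1] at h3
    linear_combination h3
  · exfalso
    have h3 := hreg R h1 1 hp1
    have h4 := hreg S h2 1 hp1
    have h5 : (ε : ℂ) ≠ 0 := by
      rcases hε with rfl | rfl <;> norm_num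
    have h6 : (R : G → ℂ) 1 = (S : G → ℂ) 1 := by
      apply mul_left_cancel₀ h5
      rw [h3, h4]
    obtain ⟨n, -, hn⟩ := isIrr_apply_one hσ
    rw [← hR, h6, hS, hn] at hdeg
    have h7 : (2 * p : ℤ) = 1 + n + n := by exact_mod_cast hdeg
    omega
  · exfalso
    apply hnc R h1 (-1)
    intro y hy hy1
    have h3 := h0 y hy hy1
    rw [← hR, ← hS, h2 y hy hy1] at h3
    linear_combination h3
  · right
    refine ⟨fun y hy hy1 => ?_, fun y hy hy1 => ?_⟩
    · have h3 := h0 y hy hy1
      rw [← hR, h1 y hy hy1] at h3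
      linear_combination h3
    · rw [← hR]
      exact h1 y hy hy1
  · exfalso
    apply hnc S h2 (-1)
    intro y hy hy1
    have h3 := h0 y hy hy1
    rw [← hR, ← hS, h1 y hy hy1] at h3
    linear_combination h3
  · exfalso
    have h3 := h0 y₀ hy₀ hy₀1
    rw [← hR, ← hS, h1 y₀ hy₀ hy₀1, h2 y₀ hy₀ hy₀1] at h3
    norm_num at h3

theorem degrees (h : DihedralP.Hyp P) {ρ σ : G → ℂ} (hρ : IsIrrCharacter G ρ)
    (hσ : IsIrrCharacter G σ) (hdeg : (2 * p : ℂ) = 1 + ρ 1 + σ 1)
    (h0 : ∀ y ∈ (P : Subgroup G), y ≠ 1 → σ y = 0) : ρ 1 = (p : ℂ) - 1 ∧ σ 1 = p := by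
  have hP' : Nat.card (P : Subgroup G) = p := h.card
  have hpp : p.Prime := Fact.out
  obtain ⟨m, hm, hm1⟩ := isIrr_apply_one hρ
  obtain ⟨n, hn, hn1⟩ := isIrr_apply_one hσ
  obtain ⟨k, hk⟩ := dvd_degree (isIrr_isCharacter hσ) h0
  rw [hP', hn1] at hk
  have hk' : n = p * k := by exact_mod_cast hk
  rw [hm1, hn1] at hdeg
  have hdeg' : 2 * p = 1 + m + n := by exact_mod_cast hdeg
  have hk1 : k = 1 := by
    have h1 : k ≠ 0 := by rintro rfl; omega
    by_contra h2
    have h3 : 2 ≤ k := by omega
    have h4 : p * 2 ≤ p * k := Nat.mul_le_mul_left p h3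
    omega
  rw [hk1, mul_one] at hk'
  rw [hk'] at hdeg' hn1
  refine ⟨?_, hn1⟩
  rw [hm1]
  have h5 : (2 * p : ℂ) = 1 + m + p := by exact_mod_cast hdeg'
  linear_combination h5 * (-1)

/-- **The permutation character.** -/
theorem main [MulAction.IsPretransitive G α] [Nonempty α] (h : DihedralP.Hyp P)
    (hrank : Nat.card (Quotient (MulAction.orbitRel G (α × α))) = 3)
    (hα : Fintype.card α = 2 * p)
    (hfix : ∀ y ∈ (P : Subgroup G), y ≠ 1 → Nat.card (MulAction.fixedBy α y) = 0) :
    ∃ ρ σ : G → ℂ, IsIrrCharacter G ρ ∧ IsIrrCharacter G σ ∧ ρ 1 = (p : ℂ) - 1 ∧ σ 1 = p ∧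
      (∀ y ∈ (P : Subgroup G), y ≠ 1 → ρ y = -1) ∧
      ∀ g, (Nat.card (MulAction.fixedBy α g) : ℂ) = 1 + ρ g + σ g := by
  obtain ⟨ρ, σ, hρ, hσ, hρ1, hσ1, -, hπ⟩ := exists_add hrank
  have hdeg : (2 * p : ℂ) = 1 + ρ 1 + σ 1 := by
    rw [← hπ, PermSetup.card_fixedBy_one, hα]
    push_cast
    ring
  have h0 : ∀ y ∈ (P : Subgroup G), y ≠ 1 → 1 + ρ y + σ y = 0 := by
    intro y hy hy1
    rw [← hπ, hfix y hy hy1, Nat.cast_zero]
  rcases main_aux h hρ hσ hρ1 hσ1 hdeg h0 with ⟨h1, h2⟩ | ⟨h1, h2⟩
  · obtain ⟨h3, h4⟩ := degrees h hρ hσ hdeg h2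
    exact ⟨ρ, σ, hρ, hσ, h3, h4, h1, hπ⟩
  · obtain ⟨h3, h4⟩ := degrees h hσ hρ (by linear_combination hdeg) h2
    exact ⟨σ, ρ, hσ, hρ, h3, h4, h1, fun g => by rw [hπ g]; ring⟩

end Cfsg.Agent.H656.TwoPChar
end

-- part: H656/TwoPArith
section
/-!
# Arithmetic for primitive groups of degree `2 p`
-/

set_option autoImplicit false

namespace Cfsg.Agent.H656.TwoPArith

theorem arith {p q N c : ℕ} (hp : p.Prime) (hp5 : 5 ≤ p) (hq : IsPrimePow q) (hodd : Odd q)
    (hq3 : 3 < q) (hN : 2 * N = q * (q ^ 2 - 1))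
    (hc : (q % 4 = 1 ∧ c = q - 1) ∨ (q % 4 = 3 ∧ c = q + 1))
    (hmul : N * (p - 1) = p * (p - 2) * c ^ 2) (hp2 : ¬ p ^ 2 ∣ N) (hdvd : c ∣ N) :
    p = 5 ∧ q = 5 := by
  have hpodd : p ≠ 2 := by omega
  obtain ⟨c', hcc', hc'⟩ : ∃ c', c * c' = q ^ 2 - 1 ∧
      ((q % 4 = 1 ∧ c' = q + 1) ∨ (q % 4 = 3 ∧ c' = q - 1)) := by
    have h7 : q ^ 2 - 1 = (q + 1) * (q - 1) := by
      have := Nat.sq_sub_sq q 1
      rwa [one_pow] at this
    rcases hc with ⟨h1, rfl⟩ | ⟨h1, rfl⟩
    · exact ⟨q + 1, by rw [h7, mul_comm], Or.inl ⟨h1, rfl⟩⟩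
    · exact ⟨q - 1, by rw [h7], Or.inr ⟨h1, rfl⟩⟩
  have hc0 : 0 < c := by
    rcases hc with ⟨h1, h2⟩ | ⟨h1, h2⟩ <;> omega
  have hc'0 : 0 < c' := by
    rcases hc' with ⟨h1, h2⟩ | ⟨h1, h2⟩ <;> omega
  obtain ⟨d, hd⟩ := hdvd
  -- `d (p - 1) = p (p - 2) c`
  have h1 : d * (p - 1) = p * (p - 2) * c := by
    apply Nat.eq_of_mul_eq_mul_left hc0
    rw [← mul_assoc, ← hd, hmul]
    ring
  have h2 : q * c' = 2 * d := by
    apply Nat.eq_of_mul_eq_mul_left hc0
    calc c * (q * c') = q * (c * c') := by ring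
      _ = 2 * N := by rw [hcc', hN]
      _ = c * (2 * d) := by rw [hd]; ring
  have hcop : Nat.Coprime (p - 1) (p * (p - 2)) := by
    apply Nat.Coprime.mul_right
    · have : p = (p - 1) + 1 := by omega
      rw [this, Nat.add_sub_cancel]
      simp
    · have h3 : p - 1 = (p - 2) + 1 := by omega
      rw [h3]
      simp
  have h3 : p - 1 ∣ c := by
    apply hcop.dvd_of_dvd_mul_left
    rw [← h1]
    exact Dvd.intro_left d rfl
  obtain ⟨k, hk⟩ := h3
  have hk0 : 0 < k := by
    rcases Nat.eq_zero_or_pos k with h | h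
    · rw [h, mul_zero] at hk
      omega
    · exact h
  have h4 : d = p * (p - 2) * k := by
    have : 0 < p - 1 := by omega
    apply Nat.eq_of_mul_eq_mul_right this
    rw [h1, hk]
    ring
  have h5 : q * c' = 2 * (p * (p - 2) * k) := by rw [h2, h4]
  by_cases hpq : p ∣ q
  · -- `q = p`
    obtain ⟨r, f, hr, hf, rfl⟩ := hq
    have hr' : r.Prime := hr.nat_prime
    have hpr : p = r := (Nat.prime_dvd_prime_iff_eq hp hr').mp (hp.dvd_of_dvd_pow hpq)
    subst hpr
    have hf1 : f = 1 := by
      by_contra hf1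
      apply hp2
      have h6 : p ^ 2 ∣ p ^ f := pow_dvd_pow p (by omega)
      have h7 : p ^ 2 ∣ 2 * N := by
        rw [hN]
        exact h6.mul_right _
      exact (Nat.Coprime.pow_left 2 ((Nat.coprime_primes hp Nat.prime_two).mpr hpodd)).dvd_of_dvd_mul_left
        h7
    rw [hf1, pow_one] at h5 hc' ⊢
    have h6 : c' = 2 * (p - 2) * k := by
      apply Nat.eq_of_mul_eq_mul_left hp.pos
      rw [h5]
      ring
    have h7 : 2 * (p - 2) ≤ c' := by
      rw [h6]
      exact Nat.le_mul_of_pos_right _ hk0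
    have h8 : p = 5 := by
      rcases hc' with ⟨-, h8⟩ | ⟨-, h8⟩ <;> (clear * - hp5 h6 h7 h8; omega)
    exact ⟨h8, h8⟩
  · exfalso
    have h6 : p ∣ c' := by
      have h7 : p ∣ q * c' := by
        rw [h5]
        exact ⟨2 * ((p - 2) * k), by ring⟩
      exact (hp.dvd_mul.mp h7).resolve_left hpq
    obtain ⟨m, hm⟩ := h6
    have h7 : q * m = 2 * ((p - 2) * k) := by
      apply Nat.eq_of_mul_eq_mul_left hp.pos
      calc p * (q * m) = q * (p * m) := by ring
        _ = q * c' := by rw [hm]
        _ = _ := by rw [h5]; ring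
    have hm2 : 2 ≤ m := by
      have h8 : 2 ∣ c' := by
        rcases hc' with ⟨h8, h9⟩ | ⟨h8, h9⟩ <;> (clear * - h8 h9; omega)
      have h9 : 2 ∣ m := by
        rw [hm] at h8
        exact (Nat.prime_two.dvd_mul.mp h8).resolve_left (fun h =>
          hpodd ((Nat.prime_dvd_prime_iff_eq Nat.prime_two hp).mp h).symm)
      apply Nat.le_of_dvd _ h9
      rcases Nat.eq_zero_or_pos m with h | h
      · rw [h, mul_zero] at hm
        omega
      · exact h
    obtain ⟨P, rfl⟩ : ∃ P, p = P + 2 := ⟨p - 2, by omega⟩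
    have e1 : P + 2 - 1 = P + 1 := by omega
    have e2 : P + 2 - 2 = P := by omega
    rw [e1] at hk
    rw [e2] at h7
    have h8 : q * m * (P + 1) = 2 * P * c := by
      rw [h7, hk]; ring
    have h9 : q * 2 * (P + 1) ≤ 2 * P * c := by
      rw [← h8]
      exact Nat.mul_le_mul_right _ (Nat.mul_le_mul_left _ hm2)
    rcases hc with ⟨h10, h11⟩ | ⟨h10, h11⟩
    · have h12 : c ≤ q := by omega
      have h13 : 2 * P * c ≤ 2 * P * q := Nat.mul_le_mul_left _ h12
      have h14 : q * 2 * (P + 1) = 2 * P * q + 2 * q := by ring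
      omega
    · rcases hc' with ⟨h12, h13⟩ | ⟨h12, h13⟩
      · omega
      · have h14 : (P + 2) * 2 ≤ q - 1 := by
          rw [← h13, hm]
          exact Nat.mul_le_mul_left _ hm2
        have h15 : 2 * P * c = 2 * P * q + 2 * P := by rw [h11]; ring
        have h16 : q * 2 * (P + 1) = 2 * P * q + 2 * q := by ring
        (clear * - h9 h14 h15 h16; omega)

theorem alt_seven {p : ℕ} (hp : p.Prime) (hp5 : 5 ≤ p)
    (h2 : (2520 : ℕ).factorization 2 = (p - 1).factorization 2) (hdvd : p ∣ 2520) : False := by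
  have h3 : (2 ^ 3 : ℕ) ∣ p - 1 := by
    have h4 : 3 ≤ (2520 : ℕ).factorization 2 :=
      (Nat.prime_two.pow_dvd_iff_le_factorization (by norm_num)).mp (by norm_num)
    rw [h2] at h4
    exact (pow_dvd_pow 2 h4).trans (Nat.ordProj_dvd _ 2)
  have h4 : (2520 : ℕ) = 2 ^ 3 * 3 ^ 2 * 5 * 7 := by norm_num
  rw [h4] at hdvd
  rcases hp.dvd_mul.mp hdvd with h | h
  · rcases hp.dvd_mul.mp h with h | h
    · rcases hp.dvd_mul.mp h with h | h
      · have := Nat.le_of_dvd (by norm_num) (hp.dvd_of_dvd_pow h)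
        omega
      · have := Nat.le_of_dvd (by norm_num) (hp.dvd_of_dvd_pow h)
        omega
    · have := Nat.le_of_dvd (by norm_num) h
      omega
  · have := Nat.le_of_dvd (by norm_num) h
    omega

end Cfsg.Agent.H656.TwoPArith
end

-- part: H656/TwoPFix
section
/-!
# Fixed points of the involutions of `N_G(P)`
-/

set_option autoImplicit false
set_option linter.unusedSectionVars false

open Cfsg

namespace Cfsg.Agent.H656.TwoPFix

universe u v

variable {G : Type u} [Group G] [Finite G] {α : Type v} [Fintype α] [DecidableEq α] [MulAction G α]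
  {p : ℕ} [Fact p.Prime] {P : Sylow p G}

open DihedralP

/-- The involutions of `N_G(P)` have at most two fixed points. -/
theorem card_le_two (h : Hyp P) (hα : Fintype.card α = 2 * p)
    (hfree : ∀ y ∈ (P : Subgroup G), y ≠ 1 → ∀ a : α, y • a ≠ a) {x : G}
    (hx : x ∈ Subgroup.normalizer ((P : Subgroup G) : Set G)) (hxP : x ∉ (P : Subgroup G)) :
    Nat.card (MulAction.fixedBy α x) ≤ 2 := by
  have hpp : p.Prime := Fact.out
  have hP' : Nat.card (P : Subgroup G) = p := h.card
  have hinj : Function.Injective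
      (fun q : ↥(P : Subgroup G) × ↥(MulAction.fixedBy α x) => (q.1 : G) • (q.2 : α)) := by
    rintro ⟨⟨y, hy⟩, ⟨a, ha⟩⟩ ⟨⟨y', hy'⟩, ⟨a', ha'⟩⟩ heq
    have ha1 : x • a = a := ha
    have ha2 : x • a' = a' := ha'
    have heq' : y • a = y' • a' := heq
    set z : G := y'⁻¹ * y with hz
    have hzP : z ∈ (P : Subgroup G) := Subgroup.mul_mem _ (Subgroup.inv_mem _ hy') hy
    have h1 : z • a = a' := by
      rw [hz, mul_smul, heq', inv_smul_smul]
    have h2 : z⁻¹ • a = z • a := by
      calc z⁻¹ • a = (x * z * x⁻¹) • a := by rw [h.conj_eq_inv hx hxP hzP]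
        _ = x • z • x⁻¹ • a := by rw [mul_smul, mul_smul]
        _ = x • z • a := by
          congr 2
          rw [inv_smul_eq_iff]
          exact ha1.symm
        _ = z • a := by rw [h1, ha2]
    have h3 : (z * z) • a = a := by
      rw [mul_smul, ← h2, smul_inv_smul]
    have h4 : z = 1 := by
      by_contra hz1
      have h5 : z * z ≠ 1 := by
        intro h5
        have h6 := PermSetup.orderOf_eq hP' hzP hz1
        have h7 : orderOf z ∣ 2 := orderOf_dvd_of_pow_eq_one (by rw [sq, h5])
        rw [h6] at h7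
        have h8 := Nat.le_of_dvd two_pos h7
        have h9 := h.five
        omega
      exact hfree _ (Subgroup.mul_mem _ hzP hzP) h5 a h3
    have h5 : y = y' := by
      rw [hz, inv_mul_eq_one] at h4
      exact h4.symm
    have h6 : a = a' := by
      rw [h4, one_smul] at h1
      exact h1
    subst h5 h6
    rfl
  have h1 := Nat.card_le_card_of_injective _ hinj
  rw [Nat.card_prod, hP', Nat.card_eq_fintype_card (α := α), hα, mul_comm 2 p] at h1
  exact Nat.le_of_mul_le_mul_left h1 hpp.pos

/-- The involutions of `N_G(P)` have exactly two fixed points. -/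
theorem card_eq_two (h : Hyp P) (hα : Fintype.card α = 2 * p)
    (hfree : ∀ y ∈ (P : Subgroup G), y ≠ 1 → ∀ a : α, y • a ≠ a)
    (hsign : ∀ g : G, Equiv.Perm.sign (MulAction.toPerm g : Equiv.Perm α) = 1) {x : G}
    (hx : x ∈ Subgroup.normalizer ((P : Subgroup G) : Set G)) (hxP : x ∉ (P : Subgroup G)) :
    Nat.card (MulAction.fixedBy α x) = 2 := by
  have h1 := card_le_two h hα hfree hx hxP
  have h2 : (MulAction.toPerm x : Equiv.Perm α) ^ 2 = 1 := by
    ext a
    rw [sq]
    change x • x • a = a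
    rw [smul_smul, h.mul_self_eq_one hx hxP, one_smul]
  have h3 : Fintype.card (Function.fixedPoints (MulAction.toPerm x : Equiv.Perm α)) =
      Nat.card (MulAction.fixedBy α x) := by
    rw [← Nat.card_eq_fintype_card]
    rfl
  have h4 := Equiv.Perm.two_dvd_card_support h2
  have h5 := Equiv.Perm.card_fixedPoints (MulAction.toPerm x : Equiv.Perm α)
  rw [Equiv.Perm.sum_cycleType] at h5
  rw [h3, hα] at h5
  have h6 : (MulAction.toPerm x : Equiv.Perm α).support.card ≤ 2 * p := by
    rw [← hα]
    exact Finset.card_le_univ _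
  have h7 := Equiv.Perm.sign_of_pow_two_eq_one h2
  rw [h3, hα, hsign] at h7
  have hp5 := h.five
  have hodd : Odd p := (Fact.out : p.Prime).odd_of_ne_two (by omega)
  obtain ⟨k, hk⟩ := h4
  have h8 : Nat.card (MulAction.fixedBy α x) = 0 ∨ Nat.card (MulAction.fixedBy α x) = 2 := by
    omega
  rcases h8 with h8 | h8
  · exfalso
    rw [h8, Nat.sub_zero, Nat.mul_div_cancel_left _ two_pos, hodd.neg_one_pow] at h7
    exact absurd h7 (by decide)
  · exact h8

end Cfsg.Agent.H656.TwoPFix
end

-- part: S4707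
section
set_option autoImplicit false
open Cfsg

namespace Cfsg.Agent.S4707

open scoped commutatorElement
open Cfsg.Agent.H656.DihedralP Cfsg.Agent.H656.DihedralSimple Cfsg.Agent.H656.PermSetup

/-- Let p > 3 be a prime and G a primitive permutation group of degree 2p that is not doubly transitive. If a Sylow p-subgroup of G has normalizer of order 2p, then p = 5 and G is isomorphic to the alternating group of degree 5. -/
theorem result {α : Type*} [Fintype α] [DecidableEq α] {p : ℕ} [Fact p.Prime] (hp : 3 < p) (hα : Fintype.card α = 2 * p) (G : Subgroup (Equiv.Perm α)) (hprim : MulAction.IsPreprimitive G α) (hnot2 : ¬ MulAction.IsMultiplyPretransitive G α 2) (P : Sylow p G) (hN : Nat.card (Subgroup.normalizer ((P : Subgroup G) : Set G)) = 2 * p) : p = 5 ∧ Nonempty (G ≃* alternatingGroup (Fin 5)) := by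
  have hpp : p.Prime := Fact.out
  have hp5 : 5 ≤ p := by
    have : p ≠ 4 := by rintro rfl; exact absurd hpp (by norm_num)
    omega
  have hodd : Odd p := hpp.odd_of_ne_two (by omega)
  have htrans : MulAction.IsPretransitive G α := hprim.toIsPretransitive
  obtain ⟨a₀⟩ : Nonempty α := by
    rw [← Fintype.card_pos_iff, hα]
    omega
  have hne : Nonempty α := ⟨a₀⟩
  have hNcα : Nat.card α = 2 * p := by rw [Nat.card_eq_fintype_card, hα]
  -- normal subgroups are transitive
  have hnorm : ∀ K : Subgroup G, K.Normal → K ≠ ⊥ → 2 * p ∣ Nat.card K := by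
    intro K hK hKb
    have hKt : MulAction.IsPretransitive K α := by
      apply MulAction.IsQuasiPreprimitive.isPretransitive_of_normal (G := G) (X := α) (N := K)
      intro h
      apply hKb
      rw [Subgroup.eq_bot_iff_forall]
      intro k hk
      apply FaithfulSMul.eq_of_smul_eq_smul (α := α)
      intro a
      rw [one_smul]
      have h1 : a ∈ MulAction.fixedPoints K α := by rw [h]; exact Set.mem_univ a
      exact h1 ⟨k, hk⟩
    rw [← hNcα, ← MulAction.index_stabilizer_of_transitive K a₀]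
    exact Subgroup.index_dvd_card _
  have h2pG : 2 * p ∣ Nat.card G := by
    rw [← hNcα, ← MulAction.index_stabilizer_of_transitive G a₀]
    exact Subgroup.index_dvd_card _
  have hpG : p ∣ Nat.card G := (Dvd.intro_left 2 rfl).trans h2pG
  have hnn : ¬ (P : Subgroup G).Normal := by
    intro h
    have h1 := hnorm _ h (P.ne_bot_of_dvd_card hpG)
    obtain ⟨n, hn⟩ := P.isPGroup'.exists_card_eq
    have h2 : 2 ∣ p ^ n := by
      rw [← hn]
      exact (Dvd.intro p rfl).trans h1
    have h3 := (Nat.prime_dvd_prime_iff_eq Nat.prime_two hpp).mp (Nat.prime_two.dvd_of_dvd_pow h2)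
    omega
  have hP : Nat.card P = p := card_sylow (by omega) P hN hnn
  have hP' : Nat.card (P : Subgroup G) = p := hP
  have hsimple : IsSimpleGroup G := by
    apply Cfsg.Agent.H656.TwoPSimple.isSimpleGroup P hP hN
    intro K hK hKb
    have h1 := hnorm K hK hKb
    refine ⟨(Dvd.intro_left 2 rfl).trans h1, ?_⟩
    intro h2
    rw [h2] at h1
    have h3 := Nat.le_of_dvd (by omega) h1
    omega
  have hH : Hyp P := ⟨hP, centralizer_eq P hP hN hnn, hN, hp5⟩
  have hnc : ¬ ∀ a b : G, a * b = b * a := by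
    intro hcon
    apply hnn
    constructor
    intro n hn g
    rw [hcon g n, mul_inv_cancel_right]
    exact hn
  have hperf : Group.IsPerfect G := by
    rw [Group.isPerfect_def]
    rcases (inferInstance : (commutator G).Normal).eq_bot_or_eq_top with h | h
    · exfalso
      apply hnc
      intro a b
      have h1 : ⁅a, b⁆ ∈ (⊥ : Subgroup G) := by
        rw [← h]
        exact Subgroup.commutator_mem_commutator (Subgroup.mem_top a) (Subgroup.mem_top b)
      rw [Subgroup.mem_bot, commutatorElement_eq_one_iff_mul_comm] at h1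
      exact h1
    · exact h
  -- all elements are even permutations
  have hsign : ∀ g : G, Equiv.Perm.sign (MulAction.toPerm g : Equiv.Perm α) = 1 := by
    intro g
    let φ : G →* ℤˣ := Equiv.Perm.sign.comp (MulAction.toPermHom G α)
    have h1 : commutator G ≤ φ.ker := Abelianization.commutator_subset_ker φ
    rw [Group.isPerfect_def] at hperf
    rw [hperf] at h1
    exact h1 (Subgroup.mem_top g)
  -- `P` is semiregular
  have hindexP : ¬ p ∣ (P : Subgroup G).index := P.not_dvd_index
  have hfree : ∀ y ∈ (P : Subgroup G), y ≠ 1 → ∀ a : α, y • a ≠ a := by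
    intro y hy hy1 a hya
    apply hindexP
    have h1 : p ∣ Nat.card (MulAction.stabilizer G a) := by
      have h2 : y ∈ MulAction.stabilizer G a := hya
      have h3 : orderOf (⟨y, h2⟩ : MulAction.stabilizer G a) ∣
          Nat.card (MulAction.stabilizer G a) := orderOf_dvd_natCard _
      rw [Subgroup.orderOf_mk, orderOf_eq hP' hy hy1] at h3
      exact h3
    have h2 : Nat.card (MulAction.stabilizer G a) * (2 * p) = Nat.card G := by
      rw [← hNcα, ← MulAction.index_stabilizer_of_transitive G a]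
      exact Subgroup.card_mul_index _
    have h3 : p * (P : Subgroup G).index = Nat.card G := by
      have h4 := Subgroup.card_mul_index (P : Subgroup G)
      rw [hP'] at h4
      exact h4
    have h4 : (P : Subgroup G).index = 2 * Nat.card (MulAction.stabilizer G a) := by
      apply Nat.eq_of_mul_eq_mul_left hpp.pos
      rw [h3, ← h2]
      ring
    rw [h4]
    exact h1.mul_left 2
  have hfix0 : ∀ y ∈ (P : Subgroup G), y ≠ 1 → Nat.card (MulAction.fixedBy α y) = 0 := by
    intro y hy hy1
    have h1 : MulAction.fixedBy α y = ∅ := by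
      ext a
      simp only [MulAction.mem_fixedBy, Set.mem_empty_iff_false, iff_false]
      exact hfree y hy hy1 a
    rw [h1]
    simp
  have hrank : Nat.card (Quotient (MulAction.orbitRel G (α × α))) = 3 := by
    rcases Cfsg.Agent.S0720.result hpp hα G hprim a₀ with h | ⟨h, -⟩
    · exact absurd h hnot2
    · have h1 := Cfsg.Agent.S0669.result (G := G) (Ω := α) a₀
      rw [h] at h1
      exact h1
  obtain ⟨ρ, σ, hρ, hσ, hρ1, hσ1, hρP, hπ⟩ :=
    Cfsg.Agent.H656.TwoPChar.main (α := α) hH hrank hα hfix0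
  have hker : ∀ b : G, orderOf b = 2 → ρ b ≠ ρ 1 := by
    intro b hb h
    have h1 : ρ ≠ 1 := by
      intro h1
      rw [h1] at hρ1
      simp only [Pi.one_apply] at hρ1
      have h2 : (p : ℂ) = 2 := by linear_combination -hρ1
      have h3 : p = 2 := by exact_mod_cast h2
      omega
    have h2 := Cfsg.Agent.Classification.BSW.CharTools.eq_one_of_apply_eq hρ h1 h
    rw [h2, orderOf_one] at hb
    norm_num at hb
  obtain ⟨x, hx, hxP⟩ := hH.exists_not_mem
  have hx2 := hH.orderOf_eq_two hx hxP
  have hxfix := Cfsg.Agent.H656.TwoPFix.card_eq_two hH hα hfree hsign hx hxP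
  have hinv : ∀ b : G, orderOf b = 2 → Nat.card (MulAction.fixedBy α b) = 2 := by
    intro b hb
    have h1 := hH.isConj_of_involution hρ hρ1 hρP hx hxP hb (hker b hb)
    have h2 := Cfsg.Agent.Characters.Core.classFunction_apply_eq
      (Cfsg.Agent.Characters.Core.isCharacter_isClassFunction
        (Cfsg.Agent.S0157.isCharacter_fixedBy (G := G) α)) h1
    simp only [Nat.cast_inj] at h2
    rw [← h2, hxfix]
  have hf2 := hH.factorization_two hρ hρ1 hρP hker
  have hFact2 : Fact (Nat.Prime 2) := ⟨Nat.prime_two⟩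
  obtain ⟨S⟩ : Nonempty (Sylow 2 G) := inferInstance
  obtain ⟨n, hn, hS⟩ := Cfsg.Agent.H656.TwoPSylow.main hodd (by omega) hα hinv hsign hf2 S
  have h2G : 2 ∣ Nat.card G := (Dvd.intro p rfl).trans h2pG
  have hcore := Cfsg.Agent.StandardComponent.FiRedGen.oddCore_eq_bot (G := G) h2G
  have eq : G ⧸ Cfsg.oddCore G ≃* G :=
    (QuotientGroup.quotientMulEquivOfEq hcore).trans QuotientGroup.quotientBot
  have hcardmul := hH.card_mul hρ hρ1 hρP hx hxP
  rcases Cfsg.Agent.S0483.result S n hn hS with ⟨F, _, _, hFodd, hF3, ⟨e⟩⟩ | he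
  · have e' : G ≃* Matrix.ProjectiveSpecialLinearGroup (Fin 2) F := eq.symm.trans e
    have hF2 : (2 : F) ≠ 0 :=
      (Cfsg.Agent.ClassicalGeometry.PSL2Basic.two_ne_zero_iff_odd F).mpr hFodd
    have hx1 : x ≠ 1 := by
      rintro rfl
      rw [orderOf_one] at hx2
      norm_num at hx2
    have hxx : x * x = 1 := hH.mul_self_eq_one hx hxP
    obtain ⟨T, m, hT, hm⟩ := Cfsg.Agent.Lib.PSL2Torus.exists_torus hF2 e' hx1 hxx
    have hc := hT.card_centralizer
    have hcard := Cfsg.Agent.SmallSimple.PSLTwoPart.card_psl_two_odd hFodd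
    rw [← Nat.card_congr e'.toEquiv] at hcard
    have h1 := Cfsg.Agent.H656.TwoPArith.arith (N := Nat.card G)
      (c := Nat.card (Subgroup.centralizer ({x} : Set G))) hpp hp5
      (FiniteField.isPrimePow_card F) hFodd hF3 hcard (by
        rw [Nat.card_eq_fintype_card (α := F)] at hm
        rcases hm with ⟨h1, h2⟩ | ⟨h1, h2⟩
        · left; exact ⟨h1, by rw [hc, h2]⟩
        · right; exact ⟨h1, by rw [hc, h2]⟩) hcardmul (by
        intro h
        apply hindexP
        have h3 : p * (P : Subgroup G).index = Nat.card G := by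
          have h4 := Subgroup.card_mul_index (P : Subgroup G)
          rw [hP'] at h4
          exact h4
        rw [← h3, sq] at h
        exact Nat.dvd_of_mul_dvd_mul_left hpp.pos h) (Subgroup.card_subgroup_dvd_card _)
    obtain ⟨f⟩ := Cfsg.Agent.S0253.result (F := F) h1.2
    exact ⟨h1.1, ⟨e'.trans f⟩⟩
  · exfalso
    obtain ⟨e⟩ := he
    have hcard : Nat.card G = 2520 := by
      rw [Nat.card_congr (eq.symm.trans e).toEquiv, nat_card_alternatingGroup]
      norm_num [Nat.factorial]
    rw [hcard] at hf2 hpG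
    exact Cfsg.Agent.H656.TwoPArith.alt_seven hpp hp5 hf2 hpG

end Cfsg.Agent.S4707
end
end
end
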