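import Cfsg.Statements.S4708
import Cfsg.Agent.Blocks.Covering
import Cfsg.Agent.S0145
import Cfsg.Agent.S0964
import Cfsg.Agent.H656.OverPrincipal
set_option linter.all false

set_option autoImplicit false
set_option linter.style.haveILetI false
open Cfsg

namespace Cfsg.Agent.S4708

open scoped ComplexConjugate
open Cfsg.Agent.Characters.Core

/-- Constituents of the restriction to a normal subgroup of a character in the principal block. -/
theorem mem_principalBlock_of_over {G : Type*} [Group G] [Fintype G] (p : ℕ) [Fact p.Prime]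
    (M : Ideal AlgInt) (hM : IsPModular p M) (H : Subgroup G) [hH : H.Normal] [Fintype H]
    (χ : IrrCharacter G) (hχ : χ ∈ principalBlock M G) (θ : IrrCharacter H)
    (hc : classInner (fun h : H => (χ : G → ℂ) h) (θ : H → ℂ) ≠ 0) : θ ∈ principalBlock M H := by
  have hMp : M.IsPrime := hM.2.1.isPrime
  let oG : IrrCharacter G := ⟨fun _ => 1, Cfsg.Agent.Blocks.Basic.isIrrCharacter_one⟩
  let oH : IrrCharacter H := ⟨fun _ => 1, Cfsg.Agent.Blocks.Basic.isIrrCharacter_one⟩
  have hoG : oG ∈ principalBlock M G := Cfsg.Agent.Blocks.Basic.mem_blockOf_self oG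
  have hoH : oH ∈ principalBlock M H := Cfsg.Agent.Blocks.Basic.mem_blockOf_self oH
  obtain ⟨g, θ', hθ', h1⟩ := Cfsg.Agent.S0964.result p M hM H (principalBlock M G) ⟨oG, rfl⟩
    (principalBlock M H) ⟨oH, rfl⟩ oG hoG oH hoH (by
      have h2 : classInner (fun h : H => (oG : G → ℂ) h) (oH : H → ℂ) = 1 :=
        classInner_irr_self oH.2
      rw [h2]
      exact one_ne_zero) χ hχ θ hc
  have h2 := Cfsg.Agent.Blocks.Covering.sameBlock_conjIrr H g (θ := oH) (ψ := θ') hθ'
  have h3 : (Cfsg.Agent.Blocks.Covering.conjIrr H g oH : H → ℂ) = fun _ => 1 := rfl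
  have h4 : (Cfsg.Agent.Blocks.Covering.conjIrr H g θ' : H → ℂ) = (θ : H → ℂ) := by
    funext n
    rw [h1 n]
    rfl
  rw [h3, h4] at h2
  exact h2

/-- Let p be a prime, M a maximal ideal of the algebraic integers containing p, G a finite group and H a normal subgroup. Write λ(X) for the sum of the squares of the degrees of the irreducible characters in the principal p-block of a group X. Then λ(H) ≤ λ(G) ≤ [G : H]·λ(H). -/
theorem result {G : Type*} [Group G] [Finite G] (p : ℕ) [Fact p.Prime] (M : Ideal Cfsg.AlgInt) (hM : Cfsg.IsPModular p M) (H : Subgroup G) [H.Normal] : (∑ᶠ θ ∈ Cfsg.principalBlock M H, Cfsg.charDegree (θ : H → ℂ) ^ 2) ≤ (∑ᶠ χ ∈ Cfsg.principalBlock M G, Cfsg.charDegree (χ : G → ℂ) ^ 2) ∧ (∑ᶠ χ ∈ Cfsg.principalBlock M G, Cfsg.charDegree (χ : G → ℂ) ^ 2) ≤ H.index * ∑ᶠ θ ∈ Cfsg.principalBlock M H, Cfsg.charDegree (θ : H → ℂ) ^ 2 := by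
  classical
  cases nonempty_fintype G
  have hMp : M.IsPrime := hM.2.1.isPrime
  have hfG : Finite (IrrCharacter G) := finite_irr
  have hfH : Finite (IrrCharacter H) := finite_irr
  letI : Fintype (IrrCharacter G) := Fintype.ofFinite _
  letI : Fintype (IrrCharacter H) := Fintype.ofFinite _
  letI : Fintype H := Fintype.ofFinite _
  -- degrees
  have hDG : ∀ χ : IrrCharacter G, (χ : G → ℂ) 1 = (charDegree (χ : G → ℂ) : ℂ) :=
    fun χ => Cfsg.Agent.Blocks.Basic.irr_one_eq_charDegree χ.2
  have hDH : ∀ θ : IrrCharacter H, (θ : H → ℂ) 1 = (charDegree (θ : H → ℂ) : ℂ) :=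
    fun θ => Cfsg.Agent.Blocks.Basic.irr_one_eq_charDegree θ.2
  -- multiplicities
  choose c hc using fun (χ : IrrCharacter G) (θ : IrrCharacter H) =>
    classInner_isNat (isCharacter_comp H.subtype (isIrr_isCharacter χ.2)) (isIrr_isCharacter θ.2)
  have hc' : ∀ (χ : IrrCharacter G) (θ : IrrCharacter H),
      classInner (fun h : H => (χ : G → ℂ) h) (θ : H → ℂ) = (c χ θ : ℂ) := hc
  have hF1 : ∀ χ : IrrCharacter G,
      charDegree (χ : G → ℂ) = ∑ θ : IrrCharacter H, c χ θ * charDegree (θ : H → ℂ) := by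
    intro χ
    have h1 := congrFun (classFunction_eq_sum (f := fun h : H => (χ : G → ℂ) h)
      (isCharacter_isClassFunction (isCharacter_comp H.subtype (isIrr_isCharacter χ.2)))) 1
    simp only [Finset.sum_apply, Pi.smul_apply, smul_eq_mul] at h1
    have h2 : ((charDegree (χ : G → ℂ) : ℕ) : ℂ) =
        ((∑ θ : IrrCharacter H, c χ θ * charDegree (θ : H → ℂ) : ℕ) : ℂ) := by
      rw [← hDG χ]
      push_cast
      have h3 : (χ : G → ℂ) ((1 : H) : G) = (χ : G → ℂ) 1 := rfl
      rw [← h3, h1]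
      exact Finset.sum_congr rfl fun θ _ => by rw [hc' χ θ, hDH θ]
    exact_mod_cast h2
  have hF2 : ∀ θ : IrrCharacter H, ∑ χ : IrrCharacter G, c χ θ * charDegree (χ : G → ℂ) =
      H.index * charDegree (θ : H → ℂ) := by
    intro θ
    have h1 : ((∑ χ : IrrCharacter G, c χ θ * charDegree (χ : G → ℂ) : ℕ) : ℂ) =
        ((H.index * charDegree (θ : H → ℂ) : ℕ) : ℂ) := by
      push_cast
      have h2 : ∀ χ : IrrCharacter G, (c χ θ : ℂ) * (charDegree (χ : G → ℂ) : ℂ) =
          ∑ h : H, (Nat.card H : ℂ)⁻¹ * conj ((θ : H → ℂ) h) *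
            ((χ : G → ℂ) h * conj ((χ : G → ℂ) 1)) := by
        intro χ
        rw [← hc' χ θ, classInner_def, hDG χ, Complex.conj_natCast, Finset.mul_sum, Finset.sum_mul]
        exact Finset.sum_congr rfl fun h _ => by ring
      rw [Finset.sum_congr rfl (fun χ _ => h2 χ), Finset.sum_comm,
        Finset.sum_eq_single (1 : H)]
      · rw [← Finset.mul_sum]
        have h3 := (Cfsg.Agent.S0145.result (1 : G) 1).1 (IsConj.refl 1)
        rw [finsum_eq_sum_of_fintype] at h3
        have h4 : (Nat.card (Subgroup.centralizer ({(1 : G)} : Set G)) : ℂ) = Nat.card G := by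
          rw [Subgroup.centralizer_eq_top_iff_subset.mpr (by
            intro x hx
            rw [Set.mem_singleton_iff.mp hx]
            exact Subgroup.one_mem _), Subgroup.card_top]
        rw [h4] at h3
        have h5 : ∑ χ : IrrCharacter G, (χ : G → ℂ) ((1 : H) : G) * conj ((χ : G → ℂ) 1) =
            (Nat.card G : ℂ) := h3
        rw [h5, hDH θ, Complex.conj_natCast]
        have h6 : (Nat.card G : ℂ) = (Nat.card H : ℂ) * (H.index : ℂ) := by
          exact_mod_cast (Subgroup.card_mul_index H).symm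
        have h7 : (Nat.card H : ℂ) ≠ 0 := card_ne_zero_complex
        rw [h6]
        field_simp
      · intro h _ hh
        rw [← Finset.mul_sum]
        have h3 := (Cfsg.Agent.S0145.result (h : G) 1).2 (by
          intro hcon
          rw [isConj_comm, isConj_one_right] at hcon
          exact hh (Subtype.ext hcon))
        rw [finsum_eq_sum_of_fintype] at h3
        rw [h3, mul_zero]
      · intro h
        exact absurd (Finset.mem_univ _) h
    exact_mod_cast h1
  have hF3 : ∀ χ ∈ principalBlock M G, ∀ θ : IrrCharacter H, c χ θ ≠ 0 → θ ∈ principalBlock M H := by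
    intro χ hχ θ h
    refine mem_principalBlock_of_over p M hM H χ hχ θ ?_
    rw [hc' χ θ]
    exact_mod_cast h
  have hF4 : ∀ θ ∈ principalBlock M H, ∃ χ ∈ principalBlock M G, c χ θ ≠ 0 := by
    intro θ hθ
    obtain ⟨χ, hχ, h⟩ := Cfsg.Agent.H656.OverPrincipal.exists_over hM H (default : Sylow p G)
      (by rw [Subgroup.normalizer_eq_top]; exact le_top) θ hθ
    refine ⟨χ, hχ, fun h0 => h ?_⟩
    rw [hc' χ θ, h0, Nat.cast_zero]
  have hbG : (principalBlock M G).Finite := Set.toFinite _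
  have hbH : (principalBlock M H).Finite := Set.toFinite _
  rw [finsum_mem_eq_finite_toFinset_sum _ hbG, finsum_mem_eq_finite_toFinset_sum _ hbH]
  have hkey : ∑ χ ∈ hbG.toFinset, charDegree (χ : G → ℂ) ^ 2 = ∑ θ ∈ hbH.toFinset,
      ∑ χ ∈ hbG.toFinset, c χ θ * charDegree (θ : H → ℂ) * charDegree (χ : G → ℂ) := by
    rw [Finset.sum_comm]
    refine Finset.sum_congr rfl fun χ hχ => ?_
    rw [Set.Finite.mem_toFinset] at hχ
    rw [sq, ← Finset.sum_mul]
    congr 1
    rw [hF1 χ]
    symm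
    apply Finset.sum_subset (Finset.subset_univ _)
    intro θ _ hθ
    rw [Set.Finite.mem_toFinset] at hθ
    have : c χ θ = 0 := by
      by_contra h
      exact hθ (hF3 χ hχ θ h)
    rw [this, zero_mul]
  rw [hkey]
  constructor
  · refine Finset.sum_le_sum fun θ hθ => ?_
    rw [Set.Finite.mem_toFinset] at hθ
    obtain ⟨χ, hχ, h⟩ := hF4 θ hθ
    have h1 : c χ θ * charDegree (θ : H → ℂ) * charDegree (χ : G → ℂ) ≤ ∑ χ ∈ hbG.toFinset,
        c χ θ * charDegree (θ : H → ℂ) * charDegree (χ : G → ℂ) :=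
      Finset.single_le_sum (f := fun χ => c χ θ * charDegree (θ : H → ℂ) * charDegree (χ : G → ℂ))
        (fun _ _ => Nat.zero_le _) (by rwa [Set.Finite.mem_toFinset])
    refine le_trans ?_ h1
    have h2 : 1 ≤ c χ θ := Nat.one_le_iff_ne_zero.mpr h
    have h3 : c χ θ * charDegree (θ : H → ℂ) ≤ charDegree (χ : G → ℂ) := by
      rw [hF1 χ]
      exact Finset.single_le_sum (f := fun θ : IrrCharacter H => c χ θ * charDegree (θ : H → ℂ))
        (fun _ _ => Nat.zero_le _) (Finset.mem_univ θ)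
    have h4 : charDegree (θ : H → ℂ) ≤ c χ θ * charDegree (θ : H → ℂ) :=
      Nat.le_mul_of_pos_left _ h2
    rw [sq]
    exact Nat.mul_le_mul h4 (h4.trans h3)
  · rw [Finset.mul_sum]
    refine Finset.sum_le_sum fun θ _ => ?_
    have h1 : ∑ χ ∈ hbG.toFinset, c χ θ * charDegree (θ : H → ℂ) * charDegree (χ : G → ℂ) =
        charDegree (θ : H → ℂ) * ∑ χ ∈ hbG.toFinset, c χ θ * charDegree (χ : G → ℂ) := by
      rw [Finset.mul_sum]
      exact Finset.sum_congr rfl fun χ _ => by ring
    rw [h1]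
    calc charDegree (θ : H → ℂ) * ∑ χ ∈ hbG.toFinset, c χ θ * charDegree (χ : G → ℂ)
        ≤ charDegree (θ : H → ℂ) * ∑ χ : IrrCharacter G, c χ θ * charDegree (χ : G → ℂ) :=
          Nat.mul_le_mul_left _ (Finset.sum_le_sum_of_subset (Finset.subset_univ _))
      _ = H.index * charDegree (θ : H → ℂ) ^ 2 := by
          rw [hF2 θ]
          ring
end Cfsg.Agent.S4708
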