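import Mathlib
import Cfsg.Prelude.Def_Solvable
import Cfsg.Agent.S0494
import Cfsg.Agent.S0253
import Cfsg.Agent.Lib.Cores
import Cfsg.Agent.CharactersDeep.QuatSylow
import Cfsg.Agent.TwoFusion.QuatCoverSL
import Cfsg.Agent.Solvable.UniqueOrderP
import Cfsg.Agent.S0542
import Cfsg.Agent.Lib.SylowNormalInf
import Cfsg.Statements.S4758
import Cfsg.Agent.H668.FourGen
set_option linter.all false

-- part: H668/FourGroup
section
/-!
# Group-theoretic part of S4758, `u` of order two
-/

set_option autoImplicit false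
set_option linter.unusedSectionVars false
set_option linter.style.haveILetI false
open Cfsg

namespace Cfsg.Agent.H668.FourGroup

variable {G : Type*} [Group G]

/-- `G` is perfect and is the normal closure of `u`. -/
structure Gen (G : Type*) [Group G] (u : G) : Prop where
  perf : commutator G = ⊤
  top : ∀ L : Subgroup G, L.Normal → u ∈ L → L = ⊤

theorem Gen.quot {u : G} (h : Gen G u) (L : Subgroup G) [L.Normal] : Gen (G ⧸ L) (QuotientGroup.mk' L u) where
  perf := by
    have h1 : (commutator G).map (QuotientGroup.mk' L) = commutator (G ⧸ L) := by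
      rw [commutator_def, commutator_def, Subgroup.map_commutator,
        Subgroup.map_top_of_surjective _ (QuotientGroup.mk'_surjective L)]
    rw [← h1, h.perf, Subgroup.map_top_of_surjective _ (QuotientGroup.mk'_surjective L)]
  top := by
    intro K hK hu
    have h1 := h.top (K.comap (QuotientGroup.mk' L)) inferInstance hu
    rw [← Subgroup.map_comap_eq_self_of_surjective (QuotientGroup.mk'_surjective L) K, h1,
      Subgroup.map_top_of_surjective _ (QuotientGroup.mk'_surjective L)]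

theorem Gen.central {u : G} (h : Gen G u) (C : Subgroup G) [C.Normal]
    (hC : ∀ g : G, g * u * g⁻¹ * u⁻¹ ∈ C) : C = ⊤ := by
  have hq := h.quot C
  have h1 : QuotientGroup.mk' C u ∈ Subgroup.center (G ⧸ C) := by
    rw [Subgroup.mem_center_iff]
    intro x
    obtain ⟨g, rfl⟩ := QuotientGroup.mk'_surjective C x
    rw [← map_mul, ← map_mul, eq_comm]
    have : g * u = (g * u * g⁻¹ * u⁻¹) * (u * g) := by group
    rw [this, map_mul (QuotientGroup.mk' C) (g * u * g⁻¹ * u⁻¹)]
    have h2 : QuotientGroup.mk' C (g * u * g⁻¹ * u⁻¹) = 1 := (QuotientGroup.eq_one_iff _).2 (hC g)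
    rw [h2, one_mul]
  have h2 := hq.top _ inferInstance h1
  have h3 : commutator (G ⧸ C) = ⊥ := by
    rw [commutator_def, Subgroup.commutator_eq_bot_iff_le_centralizer]
    intro x _
    rw [Subgroup.mem_centralizer_iff]
    intro y _
    have hx : x ∈ Subgroup.center (G ⧸ C) := by rw [h2]; trivial
    exact Subgroup.mem_center_iff.1 hx y
  rw [hq.perf] at h3
  have h4 : Subsingleton (G ⧸ C) := by
    refine ⟨fun a b => ?_⟩
    have ha : a ∈ (⊥ : Subgroup (G ⧸ C)) := by rw [← h3]; trivial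
    have hb : b ∈ (⊥ : Subgroup (G ⧸ C)) := by rw [← h3]; trivial
    rw [Subgroup.mem_bot.1 ha, Subgroup.mem_bot.1 hb]
  exact QuotientGroup.subgroup_eq_top_of_subsingleton C h4

/-- If `u` inverts the normal subgroup `N` then `N` is central and of exponent two. -/
theorem Gen.of_inverts {u : G} (h : Gen G u) (N : Subgroup G) [N.Normal]
    (hN : ∀ n ∈ N, u * n * u⁻¹ = n⁻¹) : ∀ n ∈ N, n ∈ Subgroup.center G ∧ n ^ 2 = 1 := by
  have hab : ∀ a ∈ N, ∀ b ∈ N, a * b = b * a := by
    intro a ha b hb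
    have h1 := hN _ (mul_mem ha hb)
    have h2 : u * (a * b) * u⁻¹ = (u * a * u⁻¹) * (u * b * u⁻¹) := by group
    rw [h2, hN a ha, hN b hb, ← mul_inv_rev] at h1
    exact (inv_injective h1).symm
  have hC : Subgroup.centralizer (N : Set G) = ⊤ := by
    apply h.central
    intro g
    rw [Subgroup.mem_centralizer_iff]
    intro n hn
    have hn' : n ∈ N := hn
    -- `g u g⁻¹` inverts `N`
    have h1 : ∀ m ∈ N, (g * u * g⁻¹) * m * (g * u * g⁻¹)⁻¹ = m⁻¹ := by
      intro m hm
      have h2 := hN (g⁻¹ * m * g) (by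
        have := (inferInstance : N.Normal).conj_mem m hm g⁻¹
        simpa using this)
      have h3 : (g * u * g⁻¹) * m * (g * u * g⁻¹)⁻¹ = g * (u * (g⁻¹ * m * g) * u⁻¹) * g⁻¹ := by group
      rw [h3, h2]; group
    have h4 : u⁻¹ * n * u = n⁻¹ := by
      have h7 := hN (u⁻¹ * n * u) (by
        have := (inferInstance : N.Normal).conj_mem n hn' u⁻¹
        simpa using this)
      have h8 : u * (u⁻¹ * n * u) * u⁻¹ = n := by group
      rw [h8] at h7
      rw [eq_comm, inv_eq_iff_eq_inv]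
      exact h7
    have h5 : (g * u * g⁻¹ * u⁻¹) * n * (g * u * g⁻¹ * u⁻¹)⁻¹ = n := by
      have h6 : (g * u * g⁻¹ * u⁻¹) * n * (g * u * g⁻¹ * u⁻¹)⁻¹ =
          (g * u * g⁻¹) * (u⁻¹ * n * u) * (g * u * g⁻¹)⁻¹ := by group
      rw [h6, h4, h1 _ (inv_mem hn'), inv_inv]
    calc n * (g * u * g⁻¹ * u⁻¹)
        = ((g * u * g⁻¹ * u⁻¹) * n * (g * u * g⁻¹ * u⁻¹)⁻¹) * (g * u * g⁻¹ * u⁻¹) := by rw [h5]
      _ = g * u * g⁻¹ * u⁻¹ * n := by group
  intro n hn
  have hc : ∀ g : G, g * n = n * g := by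
    intro g
    have : g ∈ Subgroup.centralizer (N : Set G) := by rw [hC]; trivial
    exact ((Subgroup.mem_centralizer_iff.1 this) n hn).symm
  refine ⟨Subgroup.mem_center_iff.2 hc, ?_⟩
  have h1 := hN n hn
  rw [hc u, mul_assoc, mul_inv_cancel, mul_one] at h1
  rw [sq]
  nth_rewrite 2 [h1]
  exact mul_inv_cancel n

/-- Quotients without intermediate normal subgroups are simple. -/
theorem isSimple_of_surj {Q : Type*} [Group Q] (f : G →* Q) (hf : Function.Surjective f)
    [Nontrivial Q] (hb : ∀ L : Subgroup G, L.Normal → f.ker ≤ L → L = f.ker ∨ L = ⊤) :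
    IsSimpleGroup Q where
  exists_pair_ne := exists_pair_ne Q
  eq_bot_or_eq_top_of_normal := by
    intro H hH
    rcases hb (H.comap f) inferInstance (by
      intro x hx
      rw [Subgroup.mem_comap, MonoidHom.mem_ker.1 hx]; exact one_mem H) with h | h
    · left
      rw [← Subgroup.map_comap_eq_self_of_surjective hf H, h]
      rw [Subgroup.map_eq_bot_iff]
    · right
      rw [← Subgroup.map_comap_eq_self_of_surjective hf H, h, Subgroup.map_top_of_surjective _ hf]

/-- The hypotheses extracted from the character theory. -/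
structure Pack (u : G) (N : Subgroup G) : Prop where
  gen : Gen G u
  normal : N.Normal
  card : Nat.card G = 60 * Nat.card N
  notMem : u ∉ N
  sq : u ^ 2 ∈ N
  conj : ∀ (k : ℕ) (x : G), x ^ 2 ^ k = 1 → x ∉ N → IsConj x u
  coset : ∀ n ∈ N, IsConj (u * n) u
  cent : Nat.card (Subgroup.centralizer ({u} : Set G)) = 4
  between : ∀ L : Subgroup G, L.Normal → N ≤ L → L = N ∨ L = ⊤

theorem orderOf_of_isConj {x y : G} (h : IsConj x y) : orderOf x = orderOf y := by
  obtain ⟨c, hc⟩ := isConj_iff.1 h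
  rw [← hc]
  have := MulEquiv.orderOf_eq (MulAut.conj c) x
  rw [MulAut.conj_apply] at this
  exact this.symm

theorem card_centralizer_of_isConj {x y : G} (h : IsConj x y) :
    Nat.card (Subgroup.centralizer ({x} : Set G)) = Nat.card (Subgroup.centralizer ({y} : Set G)) := by
  obtain ⟨c, hc⟩ := isConj_iff.1 h
  rw [← hc]
  have h1 : (Subgroup.centralizer ({x} : Set G)).map (MulAut.conj c).toMonoidHom =
      Subgroup.centralizer ({c * x * c⁻¹} : Set G) := by
    ext y
    rw [Subgroup.mem_map_equiv, Subgroup.mem_centralizer_singleton_iff,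
      Subgroup.mem_centralizer_singleton_iff]
    simp only [MulAut.conj_symm_apply]
    constructor
    · intro h
      have h2 : y * (c * x * c⁻¹) = c * ((c⁻¹ * y * c) * x) * c⁻¹ := by group
      rw [h2, h]; group
    · intro h
      have h2 : (c⁻¹ * y * c) * x = c⁻¹ * (y * (c * x * c⁻¹)) * c := by group
      rw [h2, h]; group
  rw [← h1]
  exact Nat.card_congr ((MulAut.conj c).subgroupMap _).toEquiv

end Cfsg.Agent.H668.FourGroup
end

-- part: H668/FourGroupA
section
/-!
# Group-theoretic part of S4758, `u` of order two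
-/

set_option autoImplicit false
set_option linter.unusedSectionVars false
set_option linter.style.haveILetI false
open Cfsg Cfsg.Agent.H668.FourGroup

namespace Cfsg.Agent.H668.FourGroupA

variable {G : Type*} [Group G] [Finite G]

theorem psl_of_simple {Q : Type*} [Group Q] [Finite Q] [IsSimpleGroup Q] (h : Nat.card Q = 60) :
    Nonempty (Q ≃* Matrix.ProjectiveSpecialLinearGroup (Fin 2) (ZMod 5)) := by
  obtain ⟨e⟩ := S0494.result h
  obtain ⟨f⟩ := S0253.psl_zmod5
  exact ⟨e.trans f.symm⟩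

theorem simple_quot {Q : Type*} [Group Q] [Finite Q] {u : G} {N : Subgroup G} (h : Pack u N)
    (f : G →* Q) (hf : Function.Surjective f) (hk : f.ker = N) :
    Nonempty (Q ≃* Matrix.ProjectiveSpecialLinearGroup (Fin 2) (ZMod 5)) := by
  have h1 : Nat.card Q = 60 := by
    have h2 : Nat.card f.ker * Nat.card Q = Nat.card G := by
      have h3 := Subgroup.card_mul_index f.ker
      have h4 : Nat.card f.range = Nat.card Q := by
        rw [MonoidHom.range_eq_top.2 hf]; exact Subgroup.card_top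
      rw [Subgroup.index_ker, h4] at h3
      exact h3
    rw [h.card, hk] at h2
    have h3 : 0 < Nat.card N := Nat.card_pos
    exact Nat.eq_of_mul_eq_mul_left h3 (by rw [h2]; ring)
  have : Nontrivial Q := by
    rw [← Finite.one_lt_card_iff_nontrivial, h1]; norm_num
  have := isSimple_of_surj f hf (by
    intro L hL hle
    rw [hk] at hle ⊢
    exact h.between L hL hle)
  exact psl_of_simple h1

theorem oddCore_le {u : G} {N : Subgroup G} (h : Pack u N) : oddCore G ≤ N := by
  have := h.normal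
  have hOn : (oddCore G).Normal := Lib.Cores.pPrimeCore_normal 2
  have hodd : (Nat.card (oddCore G)).Coprime 2 := Lib.Cores.pPrimeCore_coprime 2
  rcases h.between (N ⊔ oddCore G) inferInstance le_sup_left with h1 | h1
  · rw [← h1]; exact le_sup_right
  · exfalso
    have h2 : N.index = 60 := by
      have h3 := Subgroup.card_mul_index N
      rw [h.card, mul_comm] at h3
      exact Nat.eq_of_mul_eq_mul_right Nat.card_pos h3
    have h3 : N.relIndex (oddCore G) = N.index := by
      have h4 := Subgroup.relIndex_sup_right (H := oddCore G) (K := N)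
      rw [sup_comm] at h1
      rw [← h4, h1, Subgroup.relIndex_top_right]
    have h4 : N.relIndex (oddCore G) ∣ Nat.card (oddCore G) := Subgroup.relIndex_dvd_card _ _
    rw [h3, h2] at h4
    have h5 : 2 ∣ Nat.card (oddCore G) := dvd_trans (by norm_num) h4
    have h6 := Nat.dvd_gcd h5 (dvd_refl 2)
    rw [hodd] at h6
    norm_num at h6

/-- The case of an involution. -/
theorem case_two {u : G} {N : Subgroup G} (h : Pack u N) (hu2 : u ^ 2 = 1) :
    IsMulCommutative ↥(oddCore G) ∧
      Nonempty (G ⧸ oddCore G ≃* Matrix.ProjectiveSpecialLinearGroup (Fin 2) (ZMod 5)) := by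
  have := h.normal
  have hu1 : u ≠ 1 := fun h1 => h.notMem (h1 ▸ one_mem N)
  have hinv : ∀ n ∈ N, u * n * u⁻¹ = n⁻¹ := by
    intro n hn
    have h1 : (u * n) ^ 2 = 1 := by
      rw [← orderOf_dvd_iff_pow_eq_one, orderOf_of_isConj (h.coset n hn),
        orderOf_dvd_iff_pow_eq_one, hu2]
    have h2 : u⁻¹ = u := by
      rw [inv_eq_iff_mul_eq_one, ← sq, hu2]
    rw [h2, eq_inv_iff_mul_eq_one]
    calc u * n * u * n = (u * n) ^ 2 := by rw [sq]; group
      _ = 1 := h1
  have hcen := h.gen.of_inverts N hinv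
  have hle : N ≤ Subgroup.centralizer ({u} : Set G) := by
    intro n hn
    rw [Subgroup.mem_centralizer_singleton_iff]
    exact ((Subgroup.mem_center_iff.1 (hcen n hn).1) u).symm
  have huC : u ∈ Subgroup.centralizer ({u} : Set G) := by
    rw [Subgroup.mem_centralizer_singleton_iff]
  have hlt : Nat.card N < 4 := by
    rw [← h.cent]
    apply Set.Finite.card_lt_card (Set.toFinite _)
    refine ⟨hle, fun h1 => h.notMem (h1 huC)⟩
  have hdvd : Nat.card N ∣ 4 := by
    rw [← h.cent]; exact Subgroup.card_dvd_of_le hle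
  have hcard : Nat.card N = 1 ∨ Nat.card N = 2 := by
    have : 0 < Nat.card N := Nat.card_pos
    interval_cases Nat.card N <;> simp_all
  rcases hcard with hN | hN
  · have hNb : N = ⊥ := Subgroup.card_eq_one.1 hN
    have hO : oddCore G = ⊥ := by
      rw [eq_bot_iff, ← hNb]; exact oddCore_le h
    constructor
    · rw [hO]; infer_instance
    · have hOn : (oddCore G).Normal := Lib.Cores.pPrimeCore_normal 2
      apply simple_quot h (QuotientGroup.mk' (oddCore G)) (QuotientGroup.mk'_surjective _)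
      rw [QuotientGroup.ker_mk', hO, hNb]
  · exfalso
    have hc : Nat.card G = 120 := by rw [h.card, hN]
    -- a Sylow 2-subgroup containing `u`
    have hp : IsPGroup 2 (Subgroup.zpowers u) := by
      rw [IsPGroup.iff_card]
      refine ⟨1, ?_⟩
      rw [Nat.card_zpowers, pow_one]
      exact orderOf_eq_prime hu2 hu1
    obtain ⟨P, hP⟩ := hp.exists_le_sylow
    have huP : u ∈ (P : Subgroup G) := hP (Subgroup.mem_zpowers u)
    have hPc : Nat.card (P : Subgroup G) = 8 := by
      rw [P.card_eq_multiplicity, hc]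
      have : (120 : ℕ).factorization 2 = 3 := by
        rw [show (120 : ℕ) = 2 ^ 3 * 15 by norm_num, Nat.factorization_mul (by norm_num) (by norm_num),
          Finsupp.add_apply, Nat.factorization_pow, Finsupp.smul_apply,
          Nat.Prime.factorization_self Nat.prime_two,
          Nat.factorization_eq_zero_of_not_dvd (by norm_num)]
        norm_num
      rw [this]; norm_num
    have hexp : ∀ x ∈ (P : Subgroup G), x ^ 2 = 1 := by
      intro x hx
      by_cases hxN : x ∈ N
      · exact (hcen x hxN).2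
      · obtain ⟨k, hk⟩ := P.2 ⟨x, hx⟩
        have hk' : x ^ 2 ^ k = 1 := by
          have := congrArg Subtype.val hk
          simpa using this
        have h1 := h.conj k x hk' hxN
        rw [← orderOf_dvd_iff_pow_eq_one, orderOf_of_isConj h1, orderOf_dvd_iff_pow_eq_one, hu2]
    have hPle : (P : Subgroup G) ≤ Subgroup.centralizer ({u} : Set G) := by
      intro x hx
      rw [Subgroup.mem_centralizer_singleton_iff]
      have h1 := hexp x hx
      have h3 := hexp (x * u) (mul_mem hx huP)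
      have e1 : x⁻¹ = x := by rw [inv_eq_iff_mul_eq_one, ← sq, h1]
      have e2 : u⁻¹ = u := by rw [inv_eq_iff_mul_eq_one, ← sq, hu2]
      have e3 : (x * u)⁻¹ = x * u := by rw [inv_eq_iff_mul_eq_one, ← sq, h3]
      rw [mul_inv_rev, e1, e2] at e3
      exact e3.symm
    have h1 := Subgroup.card_dvd_of_le hPle
    rw [hPc, h.cent] at h1
    norm_num at h1

end Cfsg.Agent.H668.FourGroupA
end

-- part: H668/FourGroupB
section
/-!
# Group-theoretic part of S4758, `u` of order four
-/

set_option autoImplicit false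
set_option linter.unusedSectionVars false
set_option linter.style.haveILetI false
open Cfsg Cfsg.Agent.H668.FourGroup Cfsg.Agent.H668.FourGroupA

namespace Cfsg.Agent.H668.FourGroupB

variable {G : Type*} [Group G] [Finite G]

theorem centralizer_eq {u : G} {N : Subgroup G} (h : Pack u N) (hu4 : orderOf u = 4) {x : G}
    (hx : IsConj x u) : Subgroup.centralizer ({x} : Set G) = Subgroup.zpowers x := by
  symm
  apply Subgroup.eq_of_le_of_card_ge
  · rw [Subgroup.zpowers_le, Subgroup.mem_centralizer_singleton_iff]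
  · rw [card_centralizer_of_isConj hx, h.cent, Nat.card_zpowers, orderOf_of_isConj hx, hu4]

/-- Involutions in a cyclic group of order four. -/
theorem eq_sq_of_mem_zpowers {x y : G} (hx : orderOf x = 4) (hy : y ∈ Subgroup.zpowers x)
    (hy2 : y ^ 2 = 1) : y = 1 ∨ y = x ^ 2 := by
  rw [← mem_powers_iff_mem_zpowers] at hy
  obtain ⟨k, rfl⟩ := hy
  simp only at hy2 ⊢
  rw [← pow_mul, ← orderOf_dvd_iff_pow_eq_one, hx] at hy2
  have h2 : 2 ∣ k := by omega
  obtain ⟨m, rfl⟩ := h2
  have h3 : x ^ 4 = 1 := by rw [← hx]; exact pow_orderOf_eq_one x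
  rcases Nat.even_or_odd' m with ⟨l, rfl | rfl⟩
  · left
    rw [show 2 * (2 * l) = 4 * l by ring, pow_mul, h3, one_pow]
  · right
    rw [show 2 * (2 * l + 1) = 4 * l + 2 by ring, pow_add, pow_mul, h3, one_pow, one_mul]

/-- The structure of a Sylow 2-subgroup containing `u`. -/
theorem sylow_inverts {u : G} {N : Subgroup G} (h : Pack u N) (hu4 : orderOf u = 4)
    (P : Sylow 2 G) (huP : u ∈ P) :
    (∀ t ∈ (P : Subgroup G), t ∈ N → u * t * u⁻¹ = t⁻¹) ∧
      ∀ t ∈ (P : Subgroup G), t ∈ N → t ^ 2 = 1 → t = 1 ∨ t = u ^ 2 := by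
  have hPconj : ∀ x ∈ (P : Subgroup G), x ∉ N → IsConj x u := by
    intro x hx hxN
    obtain ⟨k, hk⟩ := P.2 ⟨x, hx⟩
    have hk' : x ^ 2 ^ k = 1 := by
      have := congrArg Subtype.val hk
      simpa using this
    exact h.conj k x hk' hxN
  have hu22 : (u ^ 2) ^ 2 = 1 := by
    rw [← pow_mul, ← orderOf_dvd_iff_pow_eq_one, hu4]
  have hu21 : u ^ 2 ≠ 1 := by
    intro h1
    have := orderOf_dvd_of_pow_eq_one h1
    rw [hu4] at this
    norm_num at this
  -- `u²` is central in `P`
  have hcenP : ∀ x ∈ (P : Subgroup G), x * u ^ 2 = u ^ 2 * x := by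
    have hnt : Nontrivial (P : Subgroup G) := ⟨⟨1, ⟨u, huP⟩, fun h1 => h.notMem (by
      have h2 : (1 : G) = u := congrArg Subtype.val h1
      rw [← h2]; exact one_mem N)⟩⟩
    have hZ : Nontrivial (Subgroup.center (P : Subgroup G)) := P.2.center_nontrivial
    have hZp : IsPGroup 2 (Subgroup.center (P : Subgroup G)) := P.2.to_subgroup _
    have hdvd : 2 ∣ Nat.card (Subgroup.center (P : Subgroup G)) := by
      obtain ⟨n, hn, hc⟩ := hZp.nontrivial_iff_card.1 hZ
      rw [hc]; exact dvd_pow_self _ hn.ne'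
    obtain ⟨⟨⟨c, hcP⟩, hcZ⟩, hc⟩ := exists_prime_orderOf_dvd_card' 2 hdvd
    have hc1 : orderOf c = 2 := by
      rw [← hc, ← Subgroup.orderOf_coe, ← Subgroup.orderOf_coe]
    have hcomm : ∀ x ∈ (P : Subgroup G), x * c = c * x := by
      intro x hx
      have := (Subgroup.mem_center_iff.1 hcZ) ⟨x, hx⟩
      exact congrArg Subtype.val this
    have hcu : c ∈ Subgroup.zpowers u := by
      rw [← centralizer_eq h hu4 (IsConj.refl u), Subgroup.mem_centralizer_singleton_iff]
      exact (hcomm u huP).symm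
    rcases eq_sq_of_mem_zpowers hu4 hcu (by rw [← hc1]; exact pow_orderOf_eq_one c) with h1 | h1
    · rw [h1, orderOf_one] at hc1; norm_num at hc1
    · rw [← h1]; exact hcomm
  have hsq : ∀ x ∈ (P : Subgroup G), x ∉ N → x ^ 2 = u ^ 2 := by
    intro x hx hxN
    have h1 := hPconj x hx hxN
    have h2 : u ^ 2 ∈ Subgroup.zpowers x := by
      rw [← centralizer_eq h hu4 h1, Subgroup.mem_centralizer_singleton_iff]
      exact (hcenP x hx).symm
    rcases eq_sq_of_mem_zpowers (by rw [orderOf_of_isConj h1, hu4]) h2 hu22 with h3 | h3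
    · exact absurd h3 hu21
    · exact h3.symm
  have hinv : ∀ t ∈ (P : Subgroup G), t ∈ N → u * t * u⁻¹ = t⁻¹ := by
    intro t ht htN
    have h1 : u * t ∉ N := by
      intro h2
      exact h.notMem ((Subgroup.mul_mem_cancel_right N htN).1 h2)
    have h2 := hsq (u * t) (mul_mem huP ht) h1
    have h3 : t * u * t = u := by
      have : u * (t * u * t) = u * u := by
        calc u * (t * u * t) = (u * t) ^ 2 := by rw [sq]; group
          _ = u ^ 2 := h2
          _ = u * u := sq u
      exact mul_left_cancel this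
    rw [eq_inv_iff_mul_eq_one]
    have h4 : u * t = t⁻¹ * u := by
      rw [eq_inv_mul_iff_mul_eq, ← mul_assoc]; exact h3
    rw [h4]; group
  refine ⟨hinv, ?_⟩
  intro t ht htN ht2
  have h1 : t ∈ Subgroup.zpowers u := by
    rw [← centralizer_eq h hu4 (IsConj.refl u), Subgroup.mem_centralizer_singleton_iff]
    have h2 := hinv t ht htN
    have h3 : t⁻¹ = t := by rw [inv_eq_iff_mul_eq_one, ← sq, ht2]
    rw [h3, mul_inv_eq_iff_eq_mul] at h2
    exact h2.symm
  exact eq_sq_of_mem_zpowers hu4 h1 ht2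

end Cfsg.Agent.H668.FourGroupB
end

-- part: H668/FourGroupC
section
/-!
# Group-theoretic part of S4758, `u` of order four
-/

set_option autoImplicit false
set_option linter.unusedSectionVars false
set_option linter.style.haveILetI false
open Cfsg Cfsg.Agent.H668.FourGroup Cfsg.Agent.H668.FourGroupA Cfsg.Agent.H668.FourGroupB

namespace Cfsg.Agent.H668.FourGroupC

variable {G : Type*} [Group G] [Finite G]

theorem exists_complement {u : G} {N : Subgroup G} (h : Pack u N) (hu4 : orderOf u = 4)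
    (P : Sylow 2 G) (huP : u ∈ P) :
    ∃ M : Subgroup G, M.Normal ∧ Odd (Nat.card M) ∧ M ≤ N ∧
      (∀ n ∈ N, ∃ m ∈ M, ∃ t ∈ (P : Subgroup G), t ∈ N ∧ n = m * t) ∧
      (∀ x ∈ N, Odd (orderOf x) → x ∈ M) := by
  have hNn := h.normal
  obtain ⟨hinv, htwo⟩ := sylow_inverts h hu4 P huP
  obtain ⟨Q, hQ⟩ := S0542.result 2 N h.normal.isSubnormal P
  have hQP : ∀ x : (Q : Subgroup N), ((x : N) : G) ∈ (P : Subgroup G) := by
    intro x
    exact Subgroup.mem_subgroupOf.1 (hQ.le x.2)
  -- `Q` is commutative with a unique involution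
  have hU : Solvable.UniqueOrderP.UniqueP 2 (Q : Subgroup N) := by
    intro x y hx hx2 hy2
    have c : ∀ z : (Q : Subgroup N), z ^ 2 = 1 → z ≠ 1 → ((z : N) : G) = u ^ 2 := by
      intro z hz hz1
      rcases htwo ((z : N) : G) (hQP z) (z : N).2 (by
        have := congrArg (fun w : (Q : Subgroup N) => ((w : N) : G)) hz
        simpa using this) with h1 | h1
      · exfalso
        apply hz1
        apply Subtype.ext
        apply Subtype.ext
        exact h1
      · exact h1
    by_cases hy1 : y = 1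
    · rw [hy1]; exact one_mem _
    · have : y = x := by
        apply Subtype.ext
        apply Subtype.ext
        rw [c y hy2 hy1, c x hx2 hx]
      rw [this]; exact Subgroup.mem_zpowers x
  have hcomm : ∀ x y : (Q : Subgroup N), x * y = y * x := by
    intro x y
    apply Subtype.ext
    apply Subtype.ext
    have hx := hinv _ (hQP x) (x : N).2
    have hy := hinv _ (hQP y) (y : N).2
    have hxy := hinv _ (mul_mem (hQP x) (hQP y)) (mul_mem (x : N).2 (y : N).2)
    have h2 : u * (((x : N) : G) * ((y : N) : G)) * u⁻¹ =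
        (u * ((x : N) : G) * u⁻¹) * (u * ((y : N) : G) * u⁻¹) := by group
    rw [h2, hx, hy, ← mul_inv_rev] at hxy
    exact (inv_injective hxy).symm
  have hcyc : IsCyclic (Q : Subgroup N) := by
    obtain ⟨a, ha⟩ := Solvable.UniqueOrderP.exists_eq_zpowers_of_comm 2 Q.2 hU ⊤
      ⟨⟨fun x y => by
        apply Subtype.ext
        exact hcomm x.1 y.1⟩⟩
    exact isCyclic_iff_exists_zpowers_eq_top.2 ⟨a, ha.symm⟩
  obtain ⟨K, hKo, hKs, hKm⟩ := CharactersDeep.QuatSylow.exists_two_complement Q hcyc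
  have hKn : K.Normal := by
    constructor
    intro n hn g
    rw [hKm] at hn ⊢
    have := MulEquiv.orderOf_eq (MulAut.conj g) n
    rw [MulAut.conj_apply] at this
    rw [this]; exact hn
  have hmem : ∀ x : G, x ∈ K.map N.subtype ↔ x ∈ N ∧ Odd (orderOf x) := by
    intro x
    constructor
    · rintro ⟨y, hy, rfl⟩
      refine ⟨y.2, ?_⟩
      rw [Subgroup.coe_subtype, Subgroup.orderOf_coe]
      exact (hKm y).1 hy
    · rintro ⟨h1, h2⟩
      refine ⟨⟨x, h1⟩, ?_, rfl⟩
      show (⟨x, h1⟩ : N) ∈ K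
      rw [hKm, Subgroup.orderOf_mk]
      exact h2
  refine ⟨K.map N.subtype, ⟨?_⟩, ?_, ?_, ?_, ?_⟩
  · intro n hn g
    rw [hmem] at hn ⊢
    refine ⟨hNn.conj_mem n hn.1 g, ?_⟩
    have := MulEquiv.orderOf_eq (MulAut.conj g) n
    rw [MulAut.conj_apply] at this
    rw [this]; exact hn.2
  · rw [Nat.card_congr (K.equivMapOfInjective N.subtype N.subtype_injective).toEquiv.symm]
    exact hKo
  · intro x hx
    exact ((hmem x).1 hx).1
  · intro n hn
    have h1 : (⟨n, hn⟩ : N) ∈ K ⊔ (Q : Subgroup N) := by rw [hKs]; exact Subgroup.mem_top _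
    obtain ⟨a, ha, b, hb, hab⟩ := Subgroup.mem_sup_of_normal_left.1 h1
    have h2 : ((a : N) : G) * ((b : N) : G) = n := congrArg Subtype.val hab
    have h3 : ((a : N) : G) ∈ K.map N.subtype := (hmem _).2 ⟨a.2, by
      rw [Subgroup.orderOf_coe]; exact (hKm a).1 ha⟩
    exact ⟨(a : G), h3, (b : G), hQP ⟨b, hb⟩, b.2, h2.symm⟩
  · intro x hx hodd
    exact (hmem x).2 ⟨hx, hodd⟩

end Cfsg.Agent.H668.FourGroupC
end

-- part: H668/FourGroupD
section
/-!
# Group-theoretic part of S4758, `u` of order four: `G / O(G)`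
-/

set_option autoImplicit false
set_option linter.unusedSectionVars false
set_option linter.style.haveILetI false
open Cfsg Cfsg.Agent.H668.FourGroup Cfsg.Agent.H668.FourGroupA Cfsg.Agent.H668.FourGroupB
  Cfsg.Agent.H668.FourGroupC

namespace Cfsg.Agent.H668.FourGroupD

variable {G : Type*} [Group G] [Finite G]

/-- The structure of `M = O(G)` and `N = M ⟨u²⟩`. -/
structure Str (u : G) (N M : Subgroup G) (P : Sylow 2 G) : Prop where
  pack : Pack u N
  ord : orderOf u = 4
  mem : u ∈ P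
  normal : M.Normal
  odd : Odd (Nat.card M)
  le : M ≤ N
  fac : ∀ n ∈ N, ∃ m ∈ M, n = m ∨ n = m * u ^ 2
  two : ∀ t ∈ (P : Subgroup G), t ∈ N → t = 1 ∨ t = u ^ 2
  cen : ∀ n ∈ N, QuotientGroup.mk' M n ∈ Subgroup.center (G ⧸ M)
  core : oddCore G = M

theorem odd_inter {P : Sylow 2 G} {M : Subgroup G} (hM : Odd (Nat.card M)) {x : G}
    (hxP : x ∈ (P : Subgroup G)) (hxM : x ∈ M) : x = 1 := by
  obtain ⟨k, hk⟩ := P.2 ⟨x, hxP⟩
  have hk' : x ^ 2 ^ k = 1 := by
    have := congrArg Subtype.val hk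
    simpa using this
  have h1 : orderOf x ∣ 2 ^ k := orderOf_dvd_of_pow_eq_one hk'
  have h2 : orderOf x ∣ Nat.card M := by
    have := orderOf_dvd_natCard (⟨x, hxM⟩ : M)
    rwa [Subgroup.orderOf_mk] at this
  have h3 : Nat.Coprime (2 ^ k) (Nat.card M) :=
    Nat.Coprime.pow_left k (Nat.coprime_two_left.2 hM)
  rw [← orderOf_eq_one_iff]
  exact Nat.eq_one_of_dvd_coprimes h3 h1 h2

theorem exists_str {u : G} {N : Subgroup G} (h : Pack u N) (hu4 : orderOf u = 4) :
    ∃ (M : Subgroup G) (P : Sylow 2 G), Str u N M P := by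
  have hNn := h.normal
  have hp : IsPGroup 2 (Subgroup.zpowers u) := by
    rw [IsPGroup.iff_card]
    exact ⟨2, by rw [Nat.card_zpowers, hu4]; norm_num⟩
  obtain ⟨P, hP⟩ := hp.exists_le_sylow
  have huP : u ∈ (P : Subgroup G) := hP (Subgroup.mem_zpowers u)
  obtain ⟨hinv, htwo⟩ := sylow_inverts h hu4 P huP
  obtain ⟨M, hMn, hMo, hMN, hfac, hMall⟩ := exists_complement h hu4 P huP
  have hq := h.gen.quot M
  have hNb : (N.map (QuotientGroup.mk' M)).Normal := hNn.map _ (QuotientGroup.mk'_surjective M)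
  have hcen := hq.of_inverts (N.map (QuotientGroup.mk' M)) (by
    rintro _ ⟨n, hn, rfl⟩
    obtain ⟨m, hm, t, htP, htN, rfl⟩ := hfac n hn
    have h1 : QuotientGroup.mk' M m = 1 := (QuotientGroup.eq_one_iff m).2 hm
    rw [map_mul, h1, one_mul, ← map_mul, ← map_inv, ← map_mul, hinv t htP htN, map_inv])
  have hT : ∀ t ∈ (P : Subgroup G), t ∈ N → t = 1 ∨ t = u ^ 2 := by
    intro t ht htN
    apply htwo t ht htN
    have h1 := (hcen _ ⟨t, htN, rfl⟩).2
    rw [← map_pow] at h1
    exact odd_inter hMo (pow_mem ht 2) ((QuotientGroup.eq_one_iff _).1 h1)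
  refine ⟨M, P, h, hu4, huP, hMn, hMo, hMN, ?_, hT, fun n hn => (hcen _ ⟨n, hn, rfl⟩).1, ?_⟩
  · intro n hn
    obtain ⟨m, hm, t, htP, htN, rfl⟩ := hfac n hn
    rcases hT t htP htN with h1 | h1
    · exact ⟨m, hm, Or.inl (by rw [h1, mul_one])⟩
    · exact ⟨m, hm, Or.inr (by rw [h1])⟩
  · apply le_antisymm
    · intro x hx
      apply hMall x (oddCore_le h hx)
      have h1 : (Nat.card (oddCore G)).Coprime 2 := Lib.Cores.pPrimeCore_coprime 2
      have h2 : orderOf x ∣ Nat.card (oddCore G) := by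
        have := orderOf_dvd_natCard (⟨x, hx⟩ : oddCore G)
        rwa [Subgroup.orderOf_mk] at this
      exact Nat.coprime_two_right.1 (Nat.Coprime.coprime_dvd_left h2 h1)
    · exact Lib.Cores.le_pPrimeCore hMn (Nat.coprime_two_right.2 hMo)

variable {u : G} {N M : Subgroup G} {P : Sylow 2 G}

theorem Str.sq_ne (S : Str u N M P) : u ^ 2 ≠ 1 := by
  intro h1
  have := orderOf_dvd_of_pow_eq_one h1
  rw [S.ord] at this
  norm_num at this

theorem Str.sq_sq (S : Str u N M P) : (u ^ 2) ^ 2 = 1 := by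
  rw [← pow_mul, ← orderOf_dvd_iff_pow_eq_one, S.ord]

theorem Str.sq_notMem (S : Str u N M P) : u ^ 2 ∉ M := by
  intro h
  exact S.sq_ne (odd_inter S.odd (pow_mem S.mem 2) h)

theorem Str.relIndex (S : Str u N M P) : M.relIndex N = 2 := by
  rw [Subgroup.relIndex_eq_two_iff]
  refine ⟨u ^ 2, S.pack.sq, ?_⟩
  intro b hb
  obtain ⟨m, hm, h | h⟩ := S.fac b hb
  · right
    refine ⟨by rw [h]; exact hm, ?_⟩
    intro h2
    rw [h] at h2
    exact S.sq_notMem ((Subgroup.mul_mem_cancel_left M hm).1 h2)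
  · left
    constructor
    · rw [h, mul_assoc, ← sq, S.sq_sq, mul_one]; exact hm
    · intro h2
      rw [h] at h2
      exact S.sq_notMem ((Subgroup.mul_mem_cancel_left M hm).1 h2)

theorem Str.card_sylow (S : Str u N M P) : Nat.card (P : Subgroup G) = 8 := by
  have h1 : Nat.card N = Nat.card M * 2 := by
    rw [← S.relIndex]
    exact (Lib.SylowNormalInf.card_mul_relIndex M N S.le).symm
  have h2 : Nat.card G = 2 ^ 3 * (15 * Nat.card M) := by
    rw [S.pack.card, h1]; ring
  rw [P.card_eq_multiplicity, h2, Nat.factorization_mul (by norm_num)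
    (by have := Nat.card_pos (α := M); positivity), Finsupp.add_apply, Nat.factorization_pow,
    Finsupp.smul_apply, Nat.Prime.factorization_self Nat.prime_two,
    Nat.factorization_eq_zero_of_not_dvd (n := 15 * Nat.card M)]
  · norm_num
  · intro h3
    have h4 : Odd (15 * Nat.card M) := Odd.mul (by decide) S.odd
    rw [← Nat.not_even_iff_odd, even_iff_two_dvd] at h4
    exact h4 h3

theorem Str.quaternion (S : Str u N M P) :
    ∃ m : ℕ, 1 ≤ m ∧ Nonempty ((P : Subgroup G) ≃* QuaternionGroup (2 ^ m)) := by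
  have hPconj : ∀ x ∈ (P : Subgroup G), x ∉ N → orderOf x = 4 := by
    intro x hx hxN
    obtain ⟨k, hk⟩ := P.2 ⟨x, hx⟩
    have hk' : x ^ 2 ^ k = 1 := by
      have := congrArg Subtype.val hk
      simpa using this
    rw [orderOf_of_isConj (S.pack.conj k x hk' hxN), S.ord]
  have hinvo : ∀ x : (P : Subgroup G), x ≠ 1 → x ^ 2 = 1 → (x : G) = u ^ 2 := by
    intro x hx hx2
    have hx2' : (x : G) ^ 2 = 1 := by
      have := congrArg Subtype.val hx2
      simpa using this
    by_cases hxN : (x : G) ∈ N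
    · rcases S.two x x.2 hxN with h | h
      · exact absurd (Subtype.ext h) hx
      · exact h
    · have h1 := hPconj x x.2 hxN
      have h2 := orderOf_dvd_of_pow_eq_one hx2'
      rw [h1] at h2
      norm_num at h2
  have hU : Solvable.UniqueOrderP.UniqueP 2 (P : Subgroup G) := by
    intro x y hx hx2 hy2
    by_cases hy1 : y = 1
    · rw [hy1]; exact one_mem _
    · have : y = x := by
        apply Subtype.ext
        rw [hinvo x hx hx2, hinvo y hy1 hy2]
      rw [this]; exact Subgroup.mem_zpowers x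
  rcases Solvable.UniqueOrderP.cyclic_or_quaternion P.2 hU with h | ⟨-, m, hm, h⟩
  · exfalso
    obtain ⟨g, hg⟩ := h.exists_generator
    have h1 : orderOf g = 8 := by
      rw [← S.card_sylow]
      exact orderOf_eq_card_of_forall_mem_zpowers hg
    have h2 : orderOf (g : G) = 8 := by rw [Subgroup.orderOf_coe, h1]
    by_cases hgN : (g : G) ∈ N
    · rcases S.two g g.2 hgN with h | h
      · rw [h, orderOf_one] at h2; norm_num at h2
      · have h3 : orderOf (g : G) ∣ 2 := by
          rw [h]; exact orderOf_dvd_of_pow_eq_one S.sq_sq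
        rw [h2] at h3; norm_num at h3
    · rw [hPconj g g.2 hgN] at h2; norm_num at h2
  · exact ⟨m, Nat.one_le_iff_ne_zero.2 hm, h⟩

theorem Str.mem_iff [M.Normal] (S : Str u N M P) (x : G) :
    x ∈ N ↔ QuotientGroup.mk x ∈ Subgroup.zpowers (QuotientGroup.mk (u ^ 2) : G ⧸ M) := by
  constructor
  · intro hx
    obtain ⟨m, hm, h | h⟩ := S.fac x hx
    · rw [h, (QuotientGroup.eq_one_iff m).2 hm]; exact one_mem _
    · rw [h, QuotientGroup.mk_mul, (QuotientGroup.eq_one_iff m).2 hm, one_mul]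
      exact Subgroup.mem_zpowers _
  · rintro ⟨k, hk⟩
    have h1 : QuotientGroup.mk ((u ^ 2) ^ k) = (QuotientGroup.mk x : G ⧸ M) := hk
    rw [QuotientGroup.eq] at h1
    have h2 : (u ^ 2) ^ k * (((u ^ 2) ^ k)⁻¹ * x) ∈ N :=
      mul_mem (Subgroup.zpow_mem _ S.pack.sq k) (S.le h1)
    simpa using h2

theorem Str.sl (S : Str u N M P) :
    Nonempty (G ⧸ oddCore G ≃* Matrix.SpecialLinearGroup (Fin 2) (ZMod 5)) := by
  have hMn := S.normal
  haveI : Fact (Nat.Prime 5) := ⟨by norm_num⟩
  have key : Nonempty (G ⧸ M ≃* Matrix.SpecialLinearGroup (Fin 2) (ZMod 5)) := by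
    obtain ⟨m, hm, ⟨e⟩⟩ := S.quaternion
    set z : G ⧸ M := QuotientGroup.mk' M (u ^ 2) with hz
    have hzc : z ∈ Subgroup.center (G ⧸ M) := S.cen _ S.pack.sq
    have hz2 : orderOf z = 2 := by
      apply orderOf_eq_prime
      · rw [hz, ← map_pow, S.sq_sq, map_one]
      · intro h1
        exact S.sq_notMem ((QuotientGroup.eq_one_iff _).1 h1)
    have hn : (Subgroup.zpowers z).Normal := by
      constructor
      intro n hn g
      have hnc : n ∈ Subgroup.center (G ⧸ M) :=
        (Subgroup.zpowers_le.2 hzc) hn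
      rw [Subgroup.mem_center_iff.1 hnc g, mul_assoc, mul_inv_cancel, mul_one]
      exact hn
    -- the Sylow subgroup of the quotient
    set Q : Sylow 2 (G ⧸ M) := P.mapSurjective (QuotientGroup.mk'_surjective M) with hQ
    have hQc : (Q : Subgroup (G ⧸ M)) = (P : Subgroup G).map (QuotientGroup.mk' M) := rfl
    have hinj : Function.Injective ((QuotientGroup.mk' M).subgroupMap (P : Subgroup G)) := by
      rw [injective_iff_map_eq_one]
      intro x hx
      have h1 := congrArg Subtype.val hx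
      have h2 : (x : G) ∈ M := (QuotientGroup.eq_one_iff (x : G)).1 h1
      exact Subtype.ext (odd_inter S.odd x.2 h2)
    have e2 : (P : Subgroup G) ≃* (Q : Subgroup (G ⧸ M)) :=
      MulEquiv.ofBijective ((QuotientGroup.mk' M).subgroupMap (P : Subgroup G))
        ⟨hinj, (QuotientGroup.mk' M).subgroupMap_surjective _⟩
    -- the quotient by `z`
    obtain ⟨φ⟩ : Nonempty ((G ⧸ M) ⧸ Subgroup.zpowers z ≃*
        Matrix.ProjectiveSpecialLinearGroup (Fin 2) (ZMod 5)) := by
      refine simple_quot S.pack ((QuotientGroup.mk' (Subgroup.zpowers z)).comp (QuotientGroup.mk' M))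
        ((QuotientGroup.mk'_surjective _).comp (QuotientGroup.mk'_surjective _)) ?_
      ext x
      rw [MonoidHom.mem_ker, MonoidHom.comp_apply]
      rw [S.mem_iff x]
      exact QuotientGroup.eq_one_iff _
    exact TwoFusion.QuatCoverSL.mulEquiv_sl_two z hzc hz2 Q m hm (e2.symm.trans e)
      (by rw [ZMod.card]; decide) φ
  obtain ⟨e⟩ := key
  exact ⟨(QuotientGroup.quotientMulEquivOfEq S.core).trans e⟩

end Cfsg.Agent.H668.FourGroupD
end

-- part: H668/FourGroupE
section
/-!
# Group-theoretic part of S4758, `u` of order four: `O(G)` is commutative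
-/

set_option autoImplicit false
set_option linter.unusedSectionVars false
set_option linter.style.haveILetI false
open Cfsg Cfsg.Agent.H668.FourGroup Cfsg.Agent.H668.FourGroupA Cfsg.Agent.H668.FourGroupB
  Cfsg.Agent.H668.FourGroupC Cfsg.Agent.H668.FourGroupD

namespace Cfsg.Agent.H668.FourGroupE

variable {G : Type*} [Group G] [Finite G]

/-- An element whose square centralizes `X`, acting without fixed points on `X`, inverts `X`. -/
theorem inverts_of_fpf (X : Subgroup G) (w : G) (hX : ∀ x ∈ X, w * x * w⁻¹ ∈ X)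
    (h2 : ∀ x ∈ X, w ^ 2 * x = x * w ^ 2) (hfix : ∀ x ∈ X, w * x = x * w → x = 1) :
    (∀ x ∈ X, w * x * w⁻¹ = x⁻¹) ∧ ∀ x ∈ X, ∀ y ∈ X, x * y = y * x := by
  let φ : X →* X :=
    { toFun := fun x => ⟨w * x * w⁻¹, hX x x.2⟩
      map_one' := by apply Subtype.ext; simp
      map_mul' := by intro x y; apply Subtype.ext; simp }
  have hφ : ∀ x : X, ((φ x : X) : G) = w * x * w⁻¹ := fun x => rfl
  have hf : MonoidHom.FixedPointFree φ := by
    intro x hx
    apply Subtype.ext
    apply hfix x x.2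
    have h1 := congrArg Subtype.val hx
    rw [hφ, mul_inv_eq_iff_eq_mul] at h1
    exact h1
  have hi : Function.Involutive φ := by
    intro x
    apply Subtype.ext
    rw [hφ, hφ]
    have h1 := h2 x x.2
    calc w * (w * (x : G) * w⁻¹) * w⁻¹ = (w ^ 2 * x) * (w ^ 2)⁻¹ := by rw [sq]; group
      _ = x := by rw [h1, mul_assoc, mul_inv_cancel, mul_one]
  have hc := hf.coe_eq_inv_of_involutive hi
  constructor
  · intro x hx
    have h1 := congrFun hc ⟨x, hx⟩
    exact congrArg Subtype.val h1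
  · intro x hx y hy
    have h1 := hf.commute_all_of_involutive hi ⟨x, hx⟩ ⟨y, hy⟩
    exact congrArg Subtype.val h1.eq

variable {u : G} {N M : Subgroup G} {P : Sylow 2 G}

theorem Str.frattini (S : Str u N M P) (g : G) :
    ∃ r : G, r * u ^ 2 = u ^ 2 * r ∧ ∃ m ∈ M, g = r * m := by
  have hNn := S.pack.normal
  have hMn := S.normal
  have h1 := Lib.SylowNormalInf.normalizer_inf_sup_eq_top P N
  have h2 : g ∈ Subgroup.normalizer (((P : Subgroup G) ⊓ N : Subgroup G) : Set G) ⊔ N := by
    rw [h1]; exact Subgroup.mem_top g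
  obtain ⟨y, hy, n, hn, rfl⟩ := Subgroup.mem_sup_of_normal_right.1 h2
  have hy2 : y * u ^ 2 = u ^ 2 * y := by
    have h3 : y * u ^ 2 * y⁻¹ ∈ (P : Subgroup G) ⊓ N :=
      ((Subgroup.mem_normalizer_iff.1 hy) (u ^ 2)).1 ⟨pow_mem S.mem 2, S.pack.sq⟩
    rcases S.two _ h3.1 h3.2 with h4 | h4
    · exfalso
      apply S.sq_ne
      rw [mul_inv_eq_one] at h4
      exact mul_eq_left.1 h4
    · rwa [mul_inv_eq_iff_eq_mul] at h4
  obtain ⟨m, hm, h | h⟩ := S.fac n hn
  · exact ⟨y, hy2, m, hm, by rw [h]⟩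
  · refine ⟨y * u ^ 2, by rw [hy2, mul_assoc, hy2], (u ^ 2)⁻¹ * m * u ^ 2, ?_, ?_⟩
    · have := hMn.conj_mem m hm (u ^ 2)⁻¹
      rwa [inv_inv] at this
    · rw [h]; group

theorem Str.comm (S : Str u N M P) : IsMulCommutative ↥(oddCore G) := by
  have hNn := S.pack.normal
  have hMn := S.normal
  -- `L = C_M(u²)`
  set L : Subgroup G := M ⊓ Subgroup.centralizer {u ^ 2} with hL
  have hLmem : ∀ x, x ∈ L ↔ x ∈ M ∧ x * u ^ 2 = u ^ 2 * x := by
    intro x
    rw [hL, Subgroup.mem_inf, Subgroup.mem_centralizer_singleton_iff]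
  have hLconj : ∀ r : G, r * u ^ 2 = u ^ 2 * r → ∀ x ∈ L, r * x * r⁻¹ ∈ L := by
    intro r hr x hx
    rw [hLmem] at hx ⊢
    refine ⟨hMn.conj_mem x hx.1 r, ?_⟩
    have h1 : r⁻¹ * u ^ 2 = u ^ 2 * r⁻¹ := by
      rw [inv_mul_eq_iff_eq_mul, ← mul_assoc, ← mul_inv_eq_iff_eq_mul, inv_inv, hr]
    calc r * x * r⁻¹ * u ^ 2 = r * x * (r⁻¹ * u ^ 2) := by group
      _ = r * (x * u ^ 2) * r⁻¹ := by rw [h1]; group
      _ = (r * u ^ 2) * x * r⁻¹ := by rw [hx.2]; group
      _ = u ^ 2 * (r * x * r⁻¹) := by rw [hr]; group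
  have huu : u * u ^ 2 = u ^ 2 * u := by group
  have hoddM : ∀ x ∈ M, x ∈ Subgroup.zpowers u → x = 1 := by
    intro x hx hxu
    refine odd_inter (P := P) S.odd ?_ hx
    exact (Subgroup.zpowers_le.2 S.mem) hxu
  have hfixM : ∀ x ∈ M, u * x = x * u → x = 1 := by
    intro x hx h
    apply hoddM x hx
    rw [← centralizer_eq S.pack S.ord (IsConj.refl u), Subgroup.mem_centralizer_singleton_iff]
    exact h.symm
  obtain ⟨hLinv, hLab⟩ := inverts_of_fpf L u (hLconj u huu)
    (fun x hx => ((hLmem x).1 hx).2.symm) (fun x hx h => hfixM x ((hLmem x).1 hx).1 h)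
  -- elements of `R = C(u²)` centralizing `L`
  set D : Subgroup G := Subgroup.centralizer {u ^ 2} ⊓ Subgroup.centralizer (L : Set G) with hD
  have hDmem : ∀ x, x ∈ D ↔ x * u ^ 2 = u ^ 2 * x ∧ ∀ l ∈ L, l * x = x * l := by
    intro x
    rw [hD, Subgroup.mem_inf, Subgroup.mem_centralizer_singleton_iff, Subgroup.mem_centralizer_iff]
    rfl
  have hDconj : ∀ r : G, r * u ^ 2 = u ^ 2 * r → ∀ x ∈ D, r * x * r⁻¹ ∈ D := by
    intro r hr x hx
    rw [hDmem] at hx ⊢
    have h1 : r⁻¹ * u ^ 2 = u ^ 2 * r⁻¹ := by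
      rw [inv_mul_eq_iff_eq_mul, ← mul_assoc, ← mul_inv_eq_iff_eq_mul, inv_inv, hr]
    refine ⟨?_, ?_⟩
    · calc r * x * r⁻¹ * u ^ 2 = r * x * (r⁻¹ * u ^ 2) := by group
        _ = r * (x * u ^ 2) * r⁻¹ := by rw [h1]; group
        _ = (r * u ^ 2) * x * r⁻¹ := by rw [hx.1]; group
        _ = u ^ 2 * (r * x * r⁻¹) := by rw [hr]; group
    · intro l hl
      have h2 := hx.2 (r⁻¹ * l * r) (by
        have := hLconj r⁻¹ h1 l hl
        rwa [inv_inv] at this)
      calc l * (r * x * r⁻¹) = r * ((r⁻¹ * l * r) * x) * r⁻¹ := by group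
        _ = r * x * r⁻¹ * l := by rw [h2]; group
  have hDn : (D.map (QuotientGroup.mk' M)).Normal := by
    constructor
    rintro _ ⟨x, hx, rfl⟩ g
    obtain ⟨g, rfl⟩ := QuotientGroup.mk'_surjective M g
    obtain ⟨r, hr, m, hm, rfl⟩ := Str.frattini S g
    refine ⟨r * x * r⁻¹, hDconj r hr x hx, ?_⟩
    have h1 : QuotientGroup.mk' M m = 1 := (QuotientGroup.eq_one_iff m).2 hm
    rw [map_mul (QuotientGroup.mk' M) r m, h1, mul_one, map_mul, map_mul, map_inv]
  have hq := S.pack.gen.quot M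
  have htop := hq.central (D.map (QuotientGroup.mk' M)) (by
    intro g
    obtain ⟨g, rfl⟩ := QuotientGroup.mk'_surjective M g
    obtain ⟨r, hr, m, hm, rfl⟩ := Str.frattini S g
    have h1 : QuotientGroup.mk' M m = 1 := (QuotientGroup.eq_one_iff m).2 hm
    rw [map_mul (QuotientGroup.mk' M) r m, h1, mul_one]
    refine ⟨r * u * r⁻¹ * u⁻¹, ?_, by rw [map_mul, map_mul, map_mul, map_inv, map_inv]⟩
    have hr1 : r⁻¹ * u ^ 2 = u ^ 2 * r⁻¹ := by
      rw [inv_mul_eq_iff_eq_mul, ← mul_assoc, ← mul_inv_eq_iff_eq_mul, inv_inv, hr]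
    show _ ∈ D
    rw [hDmem]
    constructor
    · calc r * u * r⁻¹ * u⁻¹ * u ^ 2 = r * u * r⁻¹ * u ^ 2 * u⁻¹ := by group
        _ = r * u * (r⁻¹ * u ^ 2) * u⁻¹ := by group
        _ = (r * u ^ 2) * u * r⁻¹ * u⁻¹ := by rw [hr1]; group
        _ = u ^ 2 * (r * u * r⁻¹ * u⁻¹) := by rw [hr]; group
    · -- `u⁻¹` and `r u r⁻¹` both invert `L`
      have i1 : ∀ l ∈ L, u⁻¹ * l * u = l⁻¹ := by
        intro l hl
        have h3 : u⁻¹ * u ^ 2 = u ^ 2 * u⁻¹ := by group
        have h4 := hLinv (u⁻¹ * l * u) (by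
          have := hLconj u⁻¹ h3 l hl
          rwa [inv_inv] at this)
        have h5 : u * (u⁻¹ * l * u) * u⁻¹ = l := by group
        rw [h5] at h4
        rw [eq_comm, inv_eq_iff_eq_inv]
        exact h4
      have i2 : ∀ l ∈ L, (r * u * r⁻¹) * l * (r * u * r⁻¹)⁻¹ = l⁻¹ := by
        intro l hl
        have h4 := hLinv (r⁻¹ * l * r) (by
          have := hLconj r⁻¹ hr1 l hl
          rwa [inv_inv] at this)
        calc (r * u * r⁻¹) * l * (r * u * r⁻¹)⁻¹ = r * (u * (r⁻¹ * l * r) * u⁻¹) * r⁻¹ := by group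
          _ = l⁻¹ := by rw [h4]; group
      intro l hl
      have h5 : (r * u * r⁻¹ * u⁻¹) * l * (r * u * r⁻¹ * u⁻¹)⁻¹ = l := by
        have h6 : (r * u * r⁻¹ * u⁻¹) * l * (r * u * r⁻¹ * u⁻¹)⁻¹ =
            (r * u * r⁻¹) * (u⁻¹ * l * u) * (r * u * r⁻¹)⁻¹ := by group
        rw [h6, i1 l hl, i2 _ (inv_mem hl), inv_inv]
      calc l * (r * u * r⁻¹ * u⁻¹)
          = ((r * u * r⁻¹ * u⁻¹) * l * (r * u * r⁻¹ * u⁻¹)⁻¹) * (r * u * r⁻¹ * u⁻¹) := by rw [h5]
        _ = r * u * r⁻¹ * u⁻¹ * l := by group)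
  -- `u = d m`, so `u` centralizes `L`
  have hLtriv : ∀ l ∈ L, l = 1 := by
    have h1 : QuotientGroup.mk' M u ∈ D.map (QuotientGroup.mk' M) := by
      rw [htop]; exact Subgroup.mem_top _
    obtain ⟨d, hd, hdu⟩ := h1
    have h2 : d⁻¹ * u ∈ M := QuotientGroup.eq.1 hdu
    have hd' := (hDmem d).1 hd
    have h3 : d⁻¹ * u ∈ L := by
      rw [hLmem]
      refine ⟨h2, ?_⟩
      have h4 : d⁻¹ * u ^ 2 = u ^ 2 * d⁻¹ := by
        rw [inv_mul_eq_iff_eq_mul, ← mul_assoc, ← mul_inv_eq_iff_eq_mul, inv_inv, hd'.1]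
      calc d⁻¹ * u * u ^ 2 = (d⁻¹ * u ^ 2) * u := by group
        _ = u ^ 2 * (d⁻¹ * u) := by rw [h4]; group
    intro l hl
    apply hfixM l ((hLmem l).1 hl).1
    have h5 : u = d * (d⁻¹ * u) := by group
    have h6 := hLab l hl _ h3
    have h7 := hd'.2 l hl
    calc u * l = d * ((d⁻¹ * u) * l) := by group
      _ = d * l * (d⁻¹ * u) := by rw [← h6]; group
      _ = l * d * (d⁻¹ * u) := by rw [h7]
      _ = l * u := by group
  -- `u²` acts without fixed points on `M`
  obtain ⟨-, hMab⟩ := inverts_of_fpf M (u ^ 2) (fun x hx => hMn.conj_mem x hx _)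
    (fun x _ => by rw [S.sq_sq, one_mul, mul_one]) (fun x hx h => hLtriv x ((hLmem x).2 ⟨hx, h.symm⟩))
  refine ⟨⟨fun a b => ?_⟩⟩
  apply Subtype.ext
  have ha : (a : G) ∈ M := by rw [← S.core]; exact a.2
  have hb : (b : G) ∈ M := by rw [← S.core]; exact b.2
  exact hMab a ha b hb

end Cfsg.Agent.H668.FourGroupE
end

-- part: S4758
section
set_option autoImplicit false
open Cfsg

namespace Cfsg.Agent.S4758

open Cfsg.Agent.H668

/-- The group-theoretic package, from the character theory. -/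
theorem exists_pack {G : Type*} [Group G] [Finite G] {u : G} (h : FourGen.HypG G u) (hu : u ≠ 1) :
    ∃ N : Subgroup G, FourGroup.Pack u N := by
  haveI := Fintype.ofFinite G
  obtain ⟨N, hNn, hcard, hnot, hsq, hconj, hcoset, hcent⟩ := FourGen.HypG.package h hu
  refine ⟨N, ⟨h.perf, fun L hL huL => h.normal_eq_top L huL⟩, hNn, hcard, hnot, hsq, hconj, hcoset,
    hcent, ?_⟩
  intro L hL hle
  by_cases htop : L = ⊤
  · right; exact htop
  · left
    have hq := h.quot L
    have hne : QuotientGroup.mk' L u ≠ 1 := by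
      intro h1
      exact htop (h.normal_eq_top L ((QuotientGroup.eq_one_iff u).1 h1))
    haveI := Fintype.ofFinite (G ⧸ L)
    obtain ⟨N', -, hcard', -⟩ := FourGen.HypG.package hq hne
    have h1 : 0 < Nat.card N' := Nat.card_pos
    have h2 : 60 ≤ Nat.card (G ⧸ L) := by rw [hcard']; omega
    have h3 : Nat.card G = Nat.card (G ⧸ L) * Nat.card L := Subgroup.card_eq_card_quotient_mul_card_subgroup L
    have h4 : Nat.card L ≤ Nat.card N := by
      have : 60 * Nat.card L ≤ 60 * Nat.card N := by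
        rw [← hcard, h3]
        exact Nat.mul_le_mul_right _ h2
      omega
    exact (Subgroup.eq_of_le_of_card_ge hle h4).symm

/-- Let u ≠ 1 be an element of the finite group G such that every non-principal irreducible character χ satisfies χ(1) − χ(u) = 4 or χ(u) = 0. Then O(G), the largest normal subgroup of odd order, is abelian, and either G ⧸ O(G) ≅ PSL₂(5) and u is an involution, or G ⧸ O(G) ≅ SL₂(5) and u has order 4. -/
theorem result {G : Type*} [Group G] [Finite G] (u : G) (hu : u ≠ 1) (hyp : ∀ χ : Cfsg.IrrCharacter G, (χ : G → ℂ) ≠ (fun _ => (1 : ℂ)) → ((χ : G → ℂ) 1 - (χ : G → ℂ) u = 4 ∨ (χ : G → ℂ) u = 0)) : IsMulCommutative ↥(Cfsg.oddCore G) ∧ ((Nonempty (G ⧸ Cfsg.oddCore G ≃* Matrix.ProjectiveSpecialLinearGroup (Fin 2) (ZMod 5)) ∧ orderOf u = 2) ∨ (Nonempty (G ⧸ Cfsg.oddCore G ≃* Matrix.SpecialLinearGroup (Fin 2) (ZMod 5)) ∧ orderOf u = 4)) := by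
  have h : FourGen.HypG G u := fun χ hχ hne => hyp ⟨χ, hχ⟩ hne
  obtain ⟨N, P⟩ := exists_pack h hu
  have hdvd : orderOf u ∣ 4 := by
    have h1 : u ∈ Subgroup.centralizer ({u} : Set G) := by
      rw [Subgroup.mem_centralizer_singleton_iff]
    have := orderOf_dvd_natCard (⟨u, h1⟩ : Subgroup.centralizer ({u} : Set G))
    rwa [Subgroup.orderOf_mk, P.cent] at this
  have hcases : orderOf u = 1 ∨ orderOf u = 2 ∨ orderOf u = 4 := by
    have h1 : orderOf u ≤ 4 := Nat.le_of_dvd (by norm_num) hdvd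
    have h2 : 0 < orderOf u := orderOf_pos u
    interval_cases orderOf u <;> simp_all
  rcases hcases with h1 | h1 | h1
  · exact absurd (orderOf_eq_one_iff.1 h1) hu
  · obtain ⟨a, b⟩ := FourGroupA.case_two P (by rw [← h1]; exact pow_orderOf_eq_one u)
    exact ⟨a, Or.inl ⟨b, h1⟩⟩
  · obtain ⟨M, Q, S⟩ := FourGroupD.exists_str P h1
    exact ⟨FourGroupE.Str.comm S, Or.inr ⟨S.sl, h1⟩⟩

end Cfsg.Agent.S4758
end
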