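import Mathlib
import Cfsg.Prelude.Def_Characters
import Cfsg.Agent.Characters.Core
import Cfsg.Agent.Characters.Linear
import Cfsg.Agent.CharactersDeep.InvRep
import Cfsg.Agent.OddOrderCharacters.NormTwo
import Cfsg.Agent.PLocal.ElemAbSup
import Cfsg.Agent.TwoFusion.PerfectOnTwo
import Cfsg.Agent.S0184
import Cfsg.Agent.Lib.CoprimeHyperplane
import Cfsg.Prelude.Def_Transfer
import Cfsg.Statements.S4759
import Cfsg.Agent.S0205
import Cfsg.Agent.FastGrp
import Cfsg.Agent.Prune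
set_option linter.all false
prune_inst 0x7ffeeaf9a9a8a9dfdfff7fbfa6d4cffbf7acafffe6fff9cbffe061bfeb9f6b23cdc56b8d8be812fe9ff7e21495f87b03fdfeeabfe26bdc7ffffd5ff41ffbff8fade7b50951dc88b40fbc2ffe03f06f8e6f3ffffffffffffffffffff7ffffffffffbdf3feffff
open scoped Cfsg.Agent.FastGrp

-- part: H668/DadeA
section
/-!
# Groups of central type with centre of order two, and lifts of automorphisms

`E` is a finite group with a central involution `z`, commutators in `{1, z}` and centre `{1, z}`;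
`ρ : E →* GL(M)` with `ρ z = -1` and `|E| = 2 (dim M)²`.
-/

set_option autoImplicit false
set_option linter.unusedSectionVars false
set_option linter.style.haveILetI false
open scoped ComplexConjugate
open Cfsg Cfsg.Agent.Characters.Core Module

namespace Cfsg.Agent.H668.DadeA

/-- Groups of central type with centre `{1, z}`. -/
structure CT (E : Type*) [Group E] (z : E) : Prop where
  ne : z ≠ 1
  sq : z * z = 1
  comm : ∀ x y : E, x * y = y * x ∨ x * y = z * (y * x)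
  zcomm : ∀ x : E, x * z = z * x
  cen : ∀ x : E, (∀ y : E, x * y = y * x) → x = 1 ∨ x = z

section rep

variable {E : Type*} [Group E] {M : Type*} [AddCommGroup M] [Module ℂ M]

/-- A homomorphism to `GL(M)` as a representation. -/
noncomputable def rep (ρ : E →* (M ≃ₗ[ℂ] M)) : Representation ℂ E M :=
  (LinearEquiv.automorphismGroup.toLinearMapMonoidHom).comp ρ

theorem rep_apply (ρ : E →* (M ≃ₗ[ℂ] M)) (e : E) : rep ρ e = (ρ e : M →ₗ[ℂ] M) := rfl

/-- Scalars. -/
noncomputable def sc (M : Type*) [AddCommGroup M] [Module ℂ M] : ℂˣ →* (M ≃ₗ[ℂ] M) where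
  toFun c := LinearEquiv.smulOfUnit c
  map_one' := by ext v; simp [LinearEquiv.smulOfUnit]
  map_mul' a b := by
    ext v
    simp only [LinearEquiv.smulOfUnit, mul_smul, Units.smul_def, _root_.LinearEquiv.smulOfUnit, _root_.DistribMulAction.toLinearEquiv_apply, _root_.SemigroupAction.mul_smul, _root_.Units.smul_def, _root_.LinearEquiv.mul_apply, _root_.map_smul]
    rw [smul_comm]

theorem sc_apply (c : ℂˣ) (v : M) : sc M c v = (c : ℂ) • v := rfl

theorem sc_coe (c : ℂˣ) : ((sc M c : M ≃ₗ[ℂ] M) : M →ₗ[ℂ] M) = (c : ℂ) • LinearMap.id := by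
  ext v; rfl

theorem sc_comm (c : ℂˣ) (A : M ≃ₗ[ℂ] M) : sc M c * A = A * sc M c := by
  ext v
  simp only [LinearEquiv.mul_apply, sc_apply, map_smul]

/-- The spin representations. -/
structure Spin (z : E) (ρ : E →* (M ≃ₗ[ℂ] M)) : Prop where
  neg : ρ z = sc M (-1)
  card : Nat.card E = 2 * finrank ℂ M ^ 2

variable {z : E} {ρ : E →* (M ≃ₗ[ℂ] M)}

theorem trace_conj (A B : M ≃ₗ[ℂ] M) :
    LinearMap.trace ℂ M ((A * B * A⁻¹ : M ≃ₗ[ℂ] M) : M →ₗ[ℂ] M) = LinearMap.trace ℂ M (B : M →ₗ[ℂ] M) := by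
  have h1 : ((A * B * A⁻¹ : M ≃ₗ[ℂ] M) : M →ₗ[ℂ] M) =
      (A : M →ₗ[ℂ] M) * ((B : M →ₗ[ℂ] M) * ((A⁻¹ : M ≃ₗ[ℂ] M) : M →ₗ[ℂ] M)) := by
    ext v; rfl
  rw [h1, LinearMap.trace_mul_comm, mul_assoc]
  have h2 : ((A⁻¹ : M ≃ₗ[ℂ] M) : M →ₗ[ℂ] M) * (A : M →ₗ[ℂ] M) = 1 := by
    ext v
    exact A.symm_apply_apply v
  rw [h2, mul_one]

theorem Spin.trace_zero (hE : CT E z) (h : Spin z ρ) {x : E} (hx1 : x ≠ 1) (hxz : x ≠ z) :
    LinearMap.trace ℂ M (ρ x : M →ₗ[ℂ] M) = 0 := by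
  obtain ⟨y, hy⟩ : ∃ y, x * y ≠ y * x := by
    by_contra hcon
    push Not at hcon
    rcases hE.cen x hcon with h1 | h1
    · exact hx1 h1
    · exact hxz h1
  have h1 : x * y = z * (y * x) := (hE.comm x y).resolve_left hy
  have h2 : y * x * y⁻¹ = z * x := by
    have h3 : y * x = z * (x * y) := by
      rw [h1, ← mul_assoc, hE.sq, one_mul]
    rw [h3]; group
  have h4 : LinearMap.trace ℂ M (ρ (y * x * y⁻¹) : M →ₗ[ℂ] M) = LinearMap.trace ℂ M (ρ x : M →ₗ[ℂ] M) := by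
    rw [map_mul, map_mul, map_inv]
    exact trace_conj _ _
  have h5 : ((ρ (z * x) : M ≃ₗ[ℂ] M) : M →ₗ[ℂ] M) = -(ρ x : M →ₗ[ℂ] M) := by
    rw [map_mul, h.neg]
    ext v
    simp only [sc_apply, _root_.LinearEquiv.coe_toLinearMap_mul, _root_.Module.End.mul_apply, _root_.LinearEquiv.coe_coe, _root_.Cfsg.Agent.H668.DadeA.sc_apply, _root_.Units.val_neg, _root_.Units.val_one, _root_.neg_smul, _root_.one_smul, _root_.LinearMap.neg_apply]
  rw [h2, h5, map_neg] at h4
  have : (2 : ℂ) * LinearMap.trace ℂ M (ρ x : M →ₗ[ℂ] M) = 0 := by linear_combination -h4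
  simpa only [_root_.mul_eq_zero, _root_.OfNat.ofNat_ne_zero, _root_.false_or] using this

theorem Spin.trace_z (h : Spin z ρ) [FiniteDimensional ℂ M] :
    LinearMap.trace ℂ M (ρ z : M →ₗ[ℂ] M) = -finrank ℂ M := by
  rw [h.neg, sc_coe, map_smul]
  simp

theorem trace_one' [FiniteDimensional ℂ M] :
    LinearMap.trace ℂ M (ρ 1 : M →ₗ[ℂ] M) = finrank ℂ M := by
  rw [map_one]
  exact LinearMap.trace_one ℂ M

theorem Spin.finrank_pos [Finite E] (h : Spin z ρ) : 0 < finrank ℂ M := by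
  have h1 := h.card
  have h2 : 0 < Nat.card E := Nat.card_pos
  by_contra h3
  have : finrank ℂ M = 0 := by omega
  rw [this] at h1
  omega

variable [Finite E] [FiniteDimensional ℂ M]

/-- The character of a spin representation is determined. -/
theorem Spin.char_eq (hE : CT E z) (h : Spin z ρ) (x : E) [Decidable (x = 1)] [Decidable (x = z)] :
    LinearMap.trace ℂ M (ρ x : M →ₗ[ℂ] M) =
      if x = 1 then (finrank ℂ M : ℂ) else if x = z then -(finrank ℂ M : ℂ) else 0 := by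
  split_ifs with h1 h2
  · rw [h1]; exact trace_one'
  · rw [h2]; exact h.trace_z
  · exact h.trace_zero hE h1 h2

theorem Spin.isIrr (hE : CT E z) (h : Spin z ρ) : (rep ρ).IsIrreducible := by
  classical
  haveI := Fintype.ofFinite E
  rw [isIrreducible_iff_isIrrCharacter]
  apply isIrr_of_classInner_self (isCharacter_of_rep _)
  rw [classInner_def]
  have hval : ∀ x : E, (rep ρ).character x =
      if x = 1 then (finrank ℂ M : ℂ) else if x = z then -(finrank ℂ M : ℂ) else 0 :=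
    fun x => h.char_eq hE x
  have h1 : ∑ g : E, (rep ρ).character g * conj ((rep ρ).character g) = 2 * (finrank ℂ M : ℂ) ^ 2 := by
    have h2 : ∀ g : E, (rep ρ).character g * conj ((rep ρ).character g) =
        (if g = 1 then (finrank ℂ M : ℂ) ^ 2 else 0) + (if g = z then (finrank ℂ M : ℂ) ^ 2 else 0) := by
      intro g
      rw [hval]
      by_cases h3 : g = 1
      · have h4 : g ≠ z := by rw [h3]; exact fun h5 => hE.ne h5.symm
        rw [if_pos h3, if_pos h3, if_neg h4]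
        simp [sq]
      · by_cases h4 : g = z
        · rw [if_neg h3, if_pos h4, if_neg h3, if_pos h4]
          simp only [sq, _root_.map_neg, _root_.map_natCast, _root_.mul_neg, _root_.neg_mul, _root_.neg_neg, _root_.sq, _root_.zero_add]
        · rw [if_neg h3, if_neg h4, if_neg h3, if_neg h4]
          simp
    rw [Finset.sum_congr rfl fun g _ => h2 g, Finset.sum_add_distrib]
    simp only [_root_.Finset.sum_ite_eq', _root_.Finset.mem_univ, ↓ _root_.reduceIte]
    ring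
  rw [h1, h.card]
  have h3 : (finrank ℂ M : ℂ) ≠ 0 := by
    rw [Nat.cast_ne_zero]; exact h.finrank_pos.ne'
  push_cast
  field_simp

/-- Schur's lemma. -/
theorem Spin.scalar (hE : CT E z) (h : Spin z ρ) (f : M →ₗ[ℂ] M)
    (hf : ∀ e, f * (ρ e : M →ₗ[ℂ] M) = (ρ e : M →ₗ[ℂ] M) * f) : ∃ c : ℂ, f = c • LinearMap.id := by
  have hI := h.isIrr hE
  obtain ⟨c, hc⟩ := (Representation.IsIrreducible.algebraMap_intertwiningMap_bijective_of_isAlgClosed
    (ρ := rep ρ)).2 (⟨f, fun g => hf g⟩ : Representation.IntertwiningMap (rep ρ) (rep ρ))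
  exact ⟨c, (congrArg Representation.IntertwiningMap.toLinearMap hc).symm⟩

theorem Spin.scalar_unit (hE : CT E z) (h : Spin z ρ) (A : M ≃ₗ[ℂ] M)
    (hA : ∀ e, A * ρ e = ρ e * A) : ∃ c : ℂˣ, A = sc M c := by
  obtain ⟨c, hc⟩ := h.scalar hE (A : M →ₗ[ℂ] M) (by
    intro e
    ext v
    exact congrArg (fun B : M ≃ₗ[ℂ] M => B v) (hA e))
  have hM : 0 < finrank ℂ M := h.finrank_pos
  have hnt : Nontrivial M := Module.nontrivial_of_finrank_pos hM
  have hc0 : c ≠ 0 := by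
    rintro rfl
    obtain ⟨v, hv⟩ := exists_ne (0 : M)
    have h1 := congrArg (fun B : M →ₗ[ℂ] M => B v) hc
    simp only [zero_smul, LinearMap.zero_apply] at h1
    exact hv (A.map_eq_zero_iff.1 h1)
  refine ⟨Units.mk0 c hc0, ?_⟩
  ext v
  exact congrArg (fun B : M →ₗ[ℂ] M => B v) hc

theorem mul_coe (A B : M ≃ₗ[ℂ] M) :
    ((A * B : M ≃ₗ[ℂ] M) : M →ₗ[ℂ] M) = (A : M →ₗ[ℂ] M) * (B : M →ₗ[ℂ] M) := by
  ext v; rfl

/-- Two spin representations are equivalent. -/
theorem Spin.equiv (hE : CT E z) (h : Spin z ρ) {M' : Type*} [AddCommGroup M'] [Module ℂ M']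
    [FiniteDimensional ℂ M'] {ρ' : E →* (M' ≃ₗ[ℂ] M')} (h' : Spin z ρ') :
    ∃ e : M ≃ₗ[ℂ] M', ∀ (x : E) (v : M), e (ρ x v) = ρ' x (e v) := by
  classical
  have hd : finrank ℂ M = finrank ℂ M' := by
    have h1 := h.card
    rw [h'.card] at h1
    have : finrank ℂ M' ^ 2 = finrank ℂ M ^ 2 := by omega
    exact (Nat.pow_left_injective (n := 2) (by norm_num) this).symm
  obtain ⟨e⟩ := nonempty_equiv_of_character_eq (rep ρ) (rep ρ') (by
    funext x
    have a := h.char_eq hE x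
    have b := h'.char_eq hE x
    rw [hd] at a
    exact a.trans b.symm)
  exact ⟨e.toLinearEquiv, fun x v =>
    Representation.IntertwiningMap.isIntertwining _ _ e.toIntertwiningMap x v⟩

/-- Automorphisms fix `z`. -/
theorem CT.map_z (hE : CT E z) (τ : MulAut E) : τ z = z := by
  rcases hE.cen (τ z) (by
    intro y
    have := hE.zcomm (τ.symm y)
    have h1 := congrArg τ this
    rw [map_mul, map_mul] at h1
    simpa only [_root_.MulEquiv.apply_symm_apply] using h1.symm) with h | h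
  · exfalso
    apply hE.ne
    have : τ z = τ 1 := by rw [h, map_one]
    exact τ.injective this
  · exact h

/-- Every automorphism is implemented. -/
theorem Spin.exists_impl (hE : CT E z) (h : Spin z ρ) (τ : MulAut E) :
    ∃ A : M ≃ₗ[ℂ] M, ∀ e, A * ρ e = ρ (τ e) * A := by
  have h' : Spin z (ρ.comp τ.toMonoidHom) := by
    refine ⟨?_, h.card⟩
    show ρ (τ z) = _
    rw [hE.map_z]; exact h.neg
  obtain ⟨A, hA⟩ := h.equiv hE h'
  refine ⟨A, fun e => ?_⟩
  ext v
  exact hA e v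

/-! ### The group of pairs and lifts -/

variable {Y : Type*} [Group Y]

/-- Pairs `(y, A)` with `A` implementing the automorphism of `y`. -/
def Gam (φ : Y →* MulAut E) (ρ : E →* (M ≃ₗ[ℂ] M)) : Subgroup (Y × (M ≃ₗ[ℂ] M)) where
  carrier := {p | ∀ e, p.2 * ρ e = ρ (φ p.1 e) * p.2}
  one_mem' := by intro e; simp only [_root_.Prod.snd_one, _root_.one_mul, _root_.Prod.fst_one, _root_.map_one, _root_.MulAut.one_apply, _root_.mul_one]
  mul_mem' := by
    rintro ⟨a, A⟩ ⟨b, B⟩ ha hb e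
    have ha' : ∀ e, A * ρ e = ρ (φ a e) * A := ha
    have hb' : ∀ e, B * ρ e = ρ (φ b e) * B := hb
    show (A * B) * ρ e = ρ (φ (a * b) e) * (A * B)
    rw [mul_assoc, hb', ← mul_assoc, ha', map_mul, MulAut.mul_apply, mul_assoc]
  inv_mem' := by
    rintro ⟨a, A⟩ ha e
    have ha' : ∀ e, A * ρ e = ρ (φ a e) * A := ha
    show A⁻¹ * ρ e = ρ (φ a⁻¹ e) * A⁻¹
    rw [inv_mul_eq_iff_eq_mul, ← mul_assoc, ha', mul_assoc, mul_inv_cancel, mul_one, map_inv,
      MulAut.apply_inv_self]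

theorem sc_mem (φ : Y →* MulAut E) (c : ℂˣ) : ((1 : Y), sc M c) ∈ Gam φ ρ := by
  intro e
  show sc M c * ρ e = ρ (φ 1 e) * sc M c
  rw [map_one, MulAut.one_apply, sc_comm]

/-- Scalars in the group of pairs. -/
noncomputable def scG (φ : Y →* MulAut E) (ρ : E →* (M ≃ₗ[ℂ] M)) : ℂˣ →* Gam φ ρ where
  toFun c := ⟨(1, sc M c), sc_mem φ c⟩
  map_one' := by apply Subtype.ext; simp only [_root_.map_one, _root_.OneMemClass.coe_one, _root_.Prod.mk_eq_one, _root_.and_self]
  map_mul' a b := by apply Subtype.ext; simp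

theorem exists_scG (hE : CT E z) (h : Spin z ρ) (φ : Y →* MulAut E) (p : Gam φ ρ)
    (hp : p.1.1 = 1) : ∃ c : ℂˣ, p = scG φ ρ c := by
  obtain ⟨c, hc⟩ := h.scalar_unit hE p.1.2 (by
    intro e
    have := p.2 e
    rw [hp, map_one, MulAut.one_apply] at this
    exact this)
  refine ⟨c, ?_⟩
  apply Subtype.ext
  exact Prod.ext hp hc

/-- The existence of a lift. -/
def HasLift (φ : Y →* MulAut E) (ρ : E →* (M ≃ₗ[ℂ] M)) : Prop :=
  ∃ L : Y →* (M ≃ₗ[ℂ] M), ∀ y e, L y * ρ e = ρ (φ y e) * L y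

/-- A homomorphism of the group of pairs which is the identity on scalars gives a lift. -/
theorem hasLift_of_hom (hE : CT E z) (h : Spin z ρ) (φ : Y →* MulAut E) (F : Gam φ ρ →* ℂˣ)
    (hF : ∀ c, F (scG φ ρ c) = c) : HasLift φ ρ := by
  let π : F.ker →* Y := ((MonoidHom.fst Y (M ≃ₗ[ℂ] M)).comp (Gam φ ρ).subtype).comp F.ker.subtype
  have hπ : ∀ x : F.ker, π x = x.1.1.1 := fun _ => rfl
  have hinj : Function.Injective π := by
    rw [injective_iff_map_eq_one]
    intro x hx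
    rw [hπ] at hx
    obtain ⟨c, hc⟩ := exists_scG hE h φ x.1 hx
    have h1 := x.2
    rw [MonoidHom.mem_ker, hc, hF] at h1
    apply Subtype.ext
    rw [hc, h1, map_one]; rfl
  have hsurj : Function.Surjective π := by
    intro y
    obtain ⟨A, hA⟩ := h.exists_impl hE (φ y)
    set p : Gam φ ρ := ⟨(y, A), hA⟩ with hp
    refine ⟨⟨p * scG φ ρ (F p)⁻¹, ?_⟩, ?_⟩
    · rw [MonoidHom.mem_ker, map_mul, hF, mul_inv_cancel]
    · rw [hπ]
      show y * 1 = y
      rw [mul_one]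
  let e : F.ker ≃* Y := MulEquiv.ofBijective π ⟨hinj, hsurj⟩
  have he : ∀ y, (e.symm y).1.1.1 = y := by
    intro y
    have := e.apply_symm_apply y
    exact this
  refine ⟨((MonoidHom.snd Y (M ≃ₗ[ℂ] M)).comp (Gam φ ρ).subtype).comp
    (F.ker.subtype.comp e.symm.toMonoidHom), ?_⟩
  intro y x
  show (e.symm y).1.1.2 * ρ x = ρ (φ y x) * (e.symm y).1.1.2
  have := (e.symm y).1.2 x
  rw [he] at this
  exact this

/-- The determinant on the group of pairs. -/
noncomputable def detG (φ : Y →* MulAut E) (ρ : E →* (M ≃ₗ[ℂ] M)) : Gam φ ρ →* ℂˣ :=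
  (LinearEquiv.det : (M ≃ₗ[ℂ] M) →* ℂˣ).comp ((MonoidHom.snd Y (M ≃ₗ[ℂ] M)).comp (Gam φ ρ).subtype)

theorem detG_sc (φ : Y →* MulAut E) (c : ℂˣ) : detG φ ρ (scG φ ρ c) = c ^ finrank ℂ M := by
  apply Units.ext
  show ((LinearEquiv.det (sc M c) : ℂˣ) : ℂ) = _
  rw [LinearEquiv.coe_det, sc_coe, LinearMap.det_smul]
  simp

/-- A homomorphism of the group of pairs of exponent prime to the degree gives a lift. -/
theorem hasLift_of_exponent (hE : CT E z) (h : Spin z ρ) (φ : Y →* MulAut E) (F : Gam φ ρ →* ℂˣ)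
    (N : ℕ) (hN : Nat.Coprime N (finrank ℂ M)) (hF : ∀ c, F (scG φ ρ c) = c ^ N) :
    HasLift φ ρ := by
  obtain ⟨a, b, hab⟩ : ∃ a b : ℤ, a * N + b * finrank ℂ M = 1 := by
    have := Nat.gcd_eq_gcd_ab N (finrank ℂ M)
    rw [hN] at this
    refine ⟨Nat.gcdA N (finrank ℂ M), Nat.gcdB N (finrank ℂ M), ?_⟩
    rw [mul_comm _ (N : ℤ), mul_comm _ (finrank ℂ M : ℤ)]
    exact_mod_cast this.symm
  apply hasLift_of_hom hE h φ (F ^ a * detG φ ρ ^ b)
  intro c
  have h1 : (F ^ a * detG φ ρ ^ b) (scG φ ρ c) = F (scG φ ρ c) ^ a * detG φ ρ (scG φ ρ c) ^ b := rfl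
  rw [h1, hF, detG_sc, ← zpow_natCast, ← zpow_natCast, ← zpow_mul, ← zpow_mul, ← zpow_add,
    mul_comm (N : ℤ), mul_comm (finrank ℂ M : ℤ), hab, zpow_one]

theorem HasLift.comp {Y' : Type*} [Group Y'] {φ : Y →* MulAut E} (h : HasLift φ ρ) (f : Y' →* Y) :
    HasLift (φ.comp f) ρ := by
  obtain ⟨L, hL⟩ := h
  exact ⟨L.comp f, fun y e => hL (f y) e⟩

end rep

end Cfsg.Agent.H668.DadeA
end

-- part: H668/DadeB
section
/-!
# Automorphisms without fixed points: traces
-/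

set_option autoImplicit false
set_option linter.unusedSectionVars false
set_option linter.style.haveILetI false
open scoped ComplexConjugate
open Cfsg Cfsg.Agent.Characters.Core Module

namespace Cfsg.Agent.H668.DadeB

open Cfsg.Agent.H668.DadeA

section one

variable {E : Type*} [Group E] [Finite E] {M : Type*} [AddCommGroup M] [Module ℂ M]
  [FiniteDimensional ℂ M] {z : E} {ρ : E →* (M ≃ₗ[ℂ] M)}

theorem trace_mul_trace_inv (hE : CT E z) (h : Spin z ρ) (τ : MulAut E) (A : M ≃ₗ[ℂ] M)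
    (hA : ∀ e, A * ρ e = ρ (τ e) * A)
    (hτ : ∀ e, (τ e = e ∨ τ e = z * e) → e = 1 ∨ e = z) :
    LinearMap.trace ℂ M (A : M →ₗ[ℂ] M) * LinearMap.trace ℂ M ((A⁻¹ : M ≃ₗ[ℂ] M) : M →ₗ[ℂ] M) = 1 := by
  classical
  haveI := Fintype.ofFinite E
  set d : ℂ := (finrank ℂ M : ℂ) with hd
  have hd0 : d ≠ 0 := by
    rw [hd, Nat.cast_ne_zero]; exact h.finrank_pos.ne'
  set T : M →ₗ[ℂ] M := ∑ e : E, ((ρ e * A * (ρ e)⁻¹ : M ≃ₗ[ℂ] M) : M →ₗ[ℂ] M) with hT
  have hTc : ∀ g, T * (ρ g : M →ₗ[ℂ] M) = (ρ g : M →ₗ[ℂ] M) * T := by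
    intro g
    rw [hT, Finset.sum_mul, Finset.mul_sum]
    rw [← Equiv.sum_comp (Equiv.mulLeft g)]
    apply Finset.sum_congr rfl
    intro e _
    rw [← mul_coe, ← mul_coe]
    congr 1
    show ρ (g * e) * A * (ρ (g * e))⁻¹ * ρ g = ρ g * (ρ e * A * (ρ e)⁻¹)
    rw [map_mul]; group
  obtain ⟨c, hc⟩ := h.scalar hE T hTc
  -- first trace
  have h1 : c * d = 2 * d ^ 2 * LinearMap.trace ℂ M (A : M →ₗ[ℂ] M) := by
    have a1 : LinearMap.trace ℂ M T = c * d := by
      rw [hc, map_smul]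
      simp [hd]
    have a2 : LinearMap.trace ℂ M T = 2 * d ^ 2 * LinearMap.trace ℂ M (A : M →ₗ[ℂ] M) := by
      rw [hT, map_sum, Finset.sum_congr rfl fun e _ => trace_conj (ρ e) A]
      rw [Finset.sum_const, Finset.card_univ, ← Nat.card_eq_fintype_card, h.card, nsmul_eq_mul]
      push_cast
      rfl
    rw [← a1, a2]
  have hc2 : c = 2 * d * LinearMap.trace ℂ M (A : M →ₗ[ℂ] M) := by
    apply mul_right_cancel₀ hd0
    rw [h1]; ring
  -- second trace
  have h3 : c • ((A⁻¹ : M ≃ₗ[ℂ] M) : M →ₗ[ℂ] M) = ∑ e : E, (ρ (e * (τ e)⁻¹) : M →ₗ[ℂ] M) := by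
    have a1 : T * ((A⁻¹ : M ≃ₗ[ℂ] M) : M →ₗ[ℂ] M) = c • ((A⁻¹ : M ≃ₗ[ℂ] M) : M →ₗ[ℂ] M) := by
      rw [hc]
      ext v; rfl
    rw [← a1, hT, Finset.sum_mul]
    apply Finset.sum_congr rfl
    intro e _
    rw [← mul_coe]
    congr 1
    have := hA e⁻¹
    rw [map_inv] at this
    rw [mul_assoc (ρ e), this, map_mul, map_inv]
    group
  have hz1 : τ z = z := hE.map_z τ
  have hval : ∀ e : E, LinearMap.trace ℂ M (ρ (e * (τ e)⁻¹) : M →ₗ[ℂ] M) =
      (if e = 1 then d else 0) + (if e = z then d else 0) := by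
    intro e
    rw [h.char_eq hE]
    by_cases e1 : e = 1
    · subst e1
      rw [map_one]
      have : (1 : E) ≠ z := fun hh => hE.ne hh.symm
      simp [this, hd]
    · by_cases e2 : e = z
      · rw [e2, hz1]
        have : z ≠ 1 := hE.ne
        simp [this, hd]
      · rw [if_neg e1, if_neg e2]
        have b1 : e * (τ e)⁻¹ ≠ 1 := by
          intro hh
          rw [mul_inv_eq_one] at hh
          rcases hτ e (Or.inl hh.symm) with hh | hh
          · exact e1 hh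
          · exact e2 hh
        have b2 : e * (τ e)⁻¹ ≠ z := by
          intro hh
          rw [mul_inv_eq_iff_eq_mul] at hh
          have : τ e = z * e := by
            rw [hh, ← mul_assoc, hE.sq, one_mul]
            rw [← hh]
          rcases hτ e (Or.inr this) with hh | hh
          · exact e1 hh
          · exact e2 hh
        rw [if_neg b1, if_neg b2]; simp
  have h4 : c * LinearMap.trace ℂ M ((A⁻¹ : M ≃ₗ[ℂ] M) : M →ₗ[ℂ] M) = 2 * d := by
    have a1 := congrArg (LinearMap.trace ℂ M) h3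
    rw [map_smul, map_sum, Finset.sum_congr rfl fun e _ => hval e, Finset.sum_add_distrib] at a1
    simp only [Finset.sum_ite_eq', Finset.mem_univ, if_true, smul_eq_mul] at a1
    rw [a1]; ring
  rw [hc2] at h4
  have h5 : (2 * d) * (LinearMap.trace ℂ M (A : M →ₗ[ℂ] M) * LinearMap.trace ℂ M ((A⁻¹ : M ≃ₗ[ℂ] M) : M →ₗ[ℂ] M)) = (2 * d) * 1 := by
    linear_combination h4
  exact mul_left_cancel₀ (mul_ne_zero two_ne_zero hd0) h5

end one

/-! ### Extension of homomorphisms -/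

theorem ext_hom {G : Type*} [Group G] {N : Subgroup G} [hN : N.Normal] [Finite (G ⧸ N)] (g : G)
    (hg : ∀ x : G ⧸ N, x ∈ Subgroup.zpowers (g : G ⧸ N)) (F : N →* ℂˣ)
    (hF : ∀ n : N, F (MulAut.conjNormal g n) = F n) :
    ∃ F' : G →* ℂˣ, ∀ n : N, F' n = F n := by
  let r : Representation ℂ N ℂ :=
    ((algebraMap ℂ (Module.End ℂ ℂ)) : ℂ →* Module.End ℂ ℂ).comp ((Units.coeHom ℂ).comp F)
  have hr : ∀ n, r n = algebraMap ℂ (Module.End ℂ ℂ) (F n : ℂ) := fun n => rfl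
  obtain ⟨σ, hσ⟩ := CharactersDeep.InvRep.exists_extension_of_cyclic r
    (Characters.Linear.isIrreducible_of_finrank_eq_one r (by simp)) g hg 1 (by
      intro n
      rw [Units.val_one, one_mul, mul_one, hr, hr, hF])
  refine ⟨(LinearMap.det.comp σ).toHomUnits, fun n => ?_⟩
  apply Units.ext
  rw [MonoidHom.coe_toHomUnits]
  show LinearMap.det (σ n) = _
  rw [hσ, hr, Algebra.algebraMap_eq_smul_one, LinearMap.det_smul]
  simp only [_root_.Module.finrank_self, _root_.pow_one, _root_.LinearMap.det_ring, _root_.Module.End.one_apply, _root_.mul_one]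

/-! ### The trace of commuting elements -/

section two

/-- Sum of the squared absolute values of the difference of two characters. -/
theorem sum_normSq_sub {C : Type*} [Group C] [Fintype C] (β β' : C →* ℂˣ) (h : β ≠ β') :
    ∑ c : C, ((β c : ℂ) - β' c) * conj ((β c : ℂ) - β' c) = 2 * Nat.card C := by
  classical
  have hinv : ∀ (γ : C →* ℂˣ) c, conj (γ c : ℂ) = ((γ c)⁻¹ : ℂˣ) := by
    intro γ c
    have h1 := isCharacter_apply_inv (Characters.Linear.isCharacter_hom γ) c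
    rw [← h1, map_inv]
  have hs : ∀ γ : C →* ℂˣ, γ ≠ 1 → ∑ c : C, (γ c : ℂ) = 0 := by
    intro γ hγ
    have := sum_hom_units_eq_zero ((Units.coeHom ℂ).comp γ) (by
      intro hh
      apply hγ
      ext c
      exact DFunLike.congr_fun hh c)
    exact this
  have h1 : ∀ c : C, ((β c : ℂ) - β' c) * conj ((β c : ℂ) - β' c) =
      2 - ((β / β') c : ℂ) - ((β' / β) c : ℂ) := by
    intro c
    rw [map_sub, hinv, hinv, MonoidHom.div_apply, MonoidHom.div_apply, div_eq_mul_inv,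
      div_eq_mul_inv, Units.val_mul, Units.val_mul, Units.val_inv_eq_inv_val,
      Units.val_inv_eq_inv_val]
    have a1 : (β c : ℂ) ≠ 0 := (β c).ne_zero
    have a2 : (β' c : ℂ) ≠ 0 := (β' c).ne_zero
    field_simp
    ring
  rw [Finset.sum_congr rfl fun c _ => h1 c, Finset.sum_sub_distrib, Finset.sum_sub_distrib,
    hs _ (fun hh => h (div_eq_one.1 hh)), hs _ (fun hh => h (div_eq_one.1 hh).symm)]
  simp [mul_comm]

theorem central_part {P C : Type*} [Group P] [Group C]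
    (hC : ∀ a b : C, a * b = b * a) {μ : P × C → ℂ} (hμ : IsIrrCharacter (P × C) μ) :
    ∃ β : C →* ℂˣ, ∀ p c, μ (p, c) = μ (p, 1) * β c := by
  obtain ⟨n, r, hr, rfl⟩ := hμ
  have hV : Nontrivial (Fin n → ℂ) := ((CharactersDeep.InvRep.isIrreducible_iff r).1 hr).1
  obtain ⟨v, hv⟩ := exists_ne (0 : Fin n → ℂ)
  have h1 : ∀ c : C, ∃ b : ℂ, r (1, c) = b • 1 := fun c =>
    CharactersDeep.InvRep.exists_smul_of_comm r hr (r (1, c)) (by
      rintro ⟨p, c'⟩
      rw [← map_mul, ← map_mul]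
      congr 1
      simp [hC c c'])
  choose b hb using h1
  have hinj : ∀ x y : ℂ, x • v = y • v → x = y := fun x y hxy => smul_left_injective ℂ hv hxy
  let b' : C →* ℂ :=
    { toFun := b
      map_one' := by
        apply hinj
        have := hb 1
        have h2 : r (1, 1) = 1 := map_one r
        rw [h2] at this
        have := congrArg (fun g : Module.End ℂ (Fin n → ℂ) => g v) this
        simpa using this.symm
      map_mul' := by
        intro c c'
        apply hinj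
        have h2 : r (1, c * c') = r (1, c) * r (1, c') := by
          rw [← map_mul]; congr 1; simp
        rw [hb, hb, hb] at h2
        have := congrArg (fun g : Module.End ℂ (Fin n → ℂ) => g v) h2
        rw [mul_smul, smul_comm]
        simpa only [mul_smul, _root_.LinearMap.smul_apply, _root_.Module.End.one_apply, _root_.Algebra.mul_smul_comm, _root_.mul_one] using this }
  refine ⟨b'.toHomUnits, fun p c => ?_⟩
  rw [MonoidHom.coe_toHomUnits]
  have h2 : r (p, c) = b c • r (p, 1) := by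
    have h3 : ((p, c) : P × C) = (1, c) * (p, 1) := by simp
    rw [h3, map_mul, hb, smul_mul_assoc, one_mul]
  show LinearMap.trace ℂ _ (r (p, c)) = LinearMap.trace ℂ _ (r (p, 1)) * b c
  rw [h2, map_smul, smul_eq_mul, mul_comm]

theorem linear_of_trace {P C : Type*} [Group P] [Finite P] [Group C] [Finite C]
    {M : Type*} [AddCommGroup M] [Module ℂ M] [FiniteDimensional ℂ M]
    (hC : ∀ a b : C, a * b = b * a) (σ : Representation ℂ (P × C) M)
    (hχ : ∀ p c, c ≠ 1 → σ.character (p, c) * conj (σ.character (p, c)) = 1)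
    (η : C →* ℂˣ) (hη : ∀ c, c ≠ 1 → η c ≠ 1) (hη1 : η ≠ 1) :
    ∃ α : P →* ℂˣ, ∀ p c, c ≠ 1 → σ.character (p, c) = α p * σ.character (1, c) := by
  classical
  haveI := Fintype.ofFinite P
  haveI := Fintype.ofFinite C
  set χ := σ.character with hχdef
  set f : P × C → ℂ := χ - (fun x => ((η.comp (MonoidHom.snd P C)) x : ℂ)) * χ with hf
  have hfv : ∀ p c, f (p, c) = (1 - (η c : ℂ)) * χ (p, c) := by
    intro p c
    show χ (p, c) - (η c : ℂ) * χ (p, c) = _
    ring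
  have hgen : IsGeneralizedCharacter (P × C) f :=
    ⟨χ, _, isCharacter_of_rep σ, isCharacter_mul (Characters.Linear.isCharacter_hom _)
      (isCharacter_of_rep σ), rfl⟩
  have hff : ∀ p c, f (p, c) * conj (f (p, c)) =
      (((1 : C →* ℂˣ) c : ℂ) - η c) * conj (((1 : C →* ℂˣ) c : ℂ) - η c) := by
    intro p c
    rw [hfv, MonoidHom.one_apply, Units.val_one]
    by_cases hc : c = 1
    · subst hc; simp
    · rw [map_mul]
      have := hχ p c hc
      linear_combination ((1 - (η c : ℂ)) * conj (1 - (η c : ℂ))) * this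
  have hsum : ∑ c : C, (((1 : C →* ℂˣ) c : ℂ) - η c) * conj (((1 : C →* ℂˣ) c : ℂ) - η c) =
      2 * Nat.card C := sum_normSq_sub 1 η (fun hh => hη1 hh.symm)
  have hC0 : (Nat.card C : ℂ) ≠ 0 := Nat.cast_ne_zero.2 Nat.card_pos.ne'
  have hP0 : (Nat.card P : ℂ) ≠ 0 := Nat.cast_ne_zero.2 Nat.card_pos.ne'
  have hnorm : classInner f f = 2 := by
    rw [classInner_def, Fintype.sum_prod_type]
    rw [Finset.sum_congr rfl fun p _ => Finset.sum_congr rfl fun c _ => hff p c]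
    rw [hsum, Finset.sum_const, Finset.card_univ, ← Nat.card_eq_fintype_card, Nat.card_prod,
      nsmul_eq_mul]
    push_cast
    field_simp
  have hf1 : f 1 = 0 := by
    show f (1, 1) = 0
    rw [hfv, map_one, Units.val_one]; ring
  obtain ⟨μ, ν, hμ, hν, hne, hfe⟩ :=
    OddOrderCharacters.NormTwo.exists_sub_of_norm_two hgen hnorm hf1
  obtain ⟨β, hβ⟩ := central_part hC hμ
  obtain ⟨β', hβ'⟩ := central_part hC hν
  have h1 : ∀ p, ν (p, 1) = μ (p, 1) := by
    intro p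
    have h2 := hfv p 1
    rw [map_one, Units.val_one, sub_self, zero_mul, hfe] at h2
    exact (sub_eq_zero.1 h2).symm
  have hf2 : ∀ p c, f (p, c) = μ (p, 1) * ((β c : ℂ) - β' c) := by
    intro p c
    have h2 : f (p, c) = μ (p, c) - ν (p, c) := congrFun hfe (p, c)
    rw [h2, hβ, hβ' p c, h1]
    ring
  have hββ : β ≠ β' := by
    intro hh
    apply hne
    funext x
    obtain ⟨p, c⟩ := x
    rw [hβ, hβ' p c, h1, hh]
  obtain ⟨n, hn0, hn⟩ := isIrr_apply_one hμ
  have hμ1 : μ 1 = 1 := by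
    have h2 : ∑ c : C, f (1, c) * conj (f (1, c)) = 2 * Nat.card C := by
      rw [Finset.sum_congr rfl fun c _ => hff 1 c, hsum]
    have h3 : ∑ c : C, f (1, c) * conj (f (1, c)) = (n : ℂ) ^ 2 * (2 * Nat.card C) := by
      rw [← sum_normSq_sub β β' hββ, Finset.mul_sum]
      apply Finset.sum_congr rfl
      intro c _
      have h4 : μ (1, 1) = n := hn
      rw [hf2, h4, map_mul, map_natCast]
      ring
    rw [h3] at h2
    have h5 : ((n : ℂ) ^ 2 - 1) * (2 * Nat.card C) = 0 := by linear_combination h2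
    have h6 : (n : ℂ) ^ 2 - 1 = 0 := by
      rcases mul_eq_zero.1 h5 with h7 | h7
      · exact h7
      · exact absurd h7 (mul_ne_zero two_ne_zero hC0)
    have h7 : n ^ 2 = 1 := by
      have : (n : ℂ) ^ 2 = 1 := by linear_combination h6
      exact_mod_cast this
    have h8 : n = 1 := by
      rcases Nat.pow_eq_one.1 h7 with h9 | h9
      · exact h9
      · omega
    rw [hn, h8]; simp
  obtain ⟨F, hF⟩ := Characters.Linear.exists_hom_of_isIrrCharacter hμ hμ1
  refine ⟨F.comp (MonoidHom.inl P C), fun p c hc => ?_⟩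
  have h2 : μ (p, 1) = (F.comp (MonoidHom.inl P C)) p := by rw [hF]; rfl
  have h3 : μ (1, 1) = 1 := hμ1
  have h4 := hf2 p c
  have h5 := hf2 1 c
  rw [hfv, h2] at h4
  rw [hfv, h3] at h5
  have h6 : (1 - (η c : ℂ)) ≠ 0 := by
    intro hh
    apply hη c hc
    apply Units.ext
    rw [Units.val_one]
    linear_combination -hh
  apply mul_left_cancel₀ h6
  linear_combination h4 - ((F.comp (MonoidHom.inl P C)) p : ℂ) * h5

end two

end Cfsg.Agent.H668.DadeB
end

-- part: H668/DadeC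
section
/-!
# Lifts in the presence of an automorphism of prime order without fixed points
-/

set_option autoImplicit false
set_option linter.unusedSectionVars false
set_option linter.style.haveILetI false
open scoped ComplexConjugate
open Cfsg Cfsg.Agent.Characters.Core Module

namespace Cfsg.Agent.H668.DadeC

open Cfsg.Agent.H668.DadeA Cfsg.Agent.H668.DadeB

variable {E : Type*} [Group E] [Finite E] {M : Type*} [AddCommGroup M] [Module ℂ M]
  [FiniteDimensional ℂ M] {z : E} {ρ : E →* (M ≃ₗ[ℂ] M)}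

theorem fix_pow (hE : CT E z) (y : MulAut E) {e : E} (h : y e = e ∨ y e = z * e) (m : ℕ) :
    (y ^ m) e = e ∨ (y ^ m) e = z * e := by
  induction m with
  | zero => left; simp
  | succ m ih =>
    rw [pow_succ', MulAut.mul_apply]
    rcases ih with ih | ih
    · rw [ih]; exact h
    · rw [ih, map_mul, hE.map_z]
      rcases h with h | h
      · rw [h]; exact Or.inr rfl
      · rw [h, ← mul_assoc, hE.sq, one_mul]; exact Or.inl rfl

theorem sc_inj [Nontrivial M] : Function.Injective (sc M) := by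
  intro a b hab
  obtain ⟨v, hv⟩ := exists_ne (0 : M)
  have h1 := congrArg (fun A : M ≃ₗ[ℂ] M => A v) hab
  simp only [sc_apply] at h1
  exact Units.ext (smul_left_injective ℂ hv h1)

theorem nontriv (h : Spin z ρ) : Nontrivial M := Module.nontrivial_of_finrank_pos h.finrank_pos

theorem spin_inj (hE : CT E z) (h : Spin z ρ) {e e' : E} (hee : ρ e = ρ e') : e = e' := by
  classical
  haveI := nontriv h
  have h1 : ρ (e * e'⁻¹) = 1 := by rw [map_mul, hee, map_inv, mul_inv_cancel]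
  have h2 := h.char_eq hE (e * e'⁻¹)
  rw [h1] at h2
  have hd0 : (finrank ℂ M : ℂ) ≠ 0 := by rw [Nat.cast_ne_zero]; exact h.finrank_pos.ne'
  have h3 : LinearMap.trace ℂ M ((1 : M ≃ₗ[ℂ] M) : M →ₗ[ℂ] M) = finrank ℂ M :=
    LinearMap.trace_one ℂ M
  rw [h3] at h2
  split_ifs at h2 with a1 a2
  · rwa [mul_inv_eq_one] at a1
  · exfalso
    have : (2 : ℂ) * (finrank ℂ M : ℂ) = 0 := by linear_combination h2
    exact (mul_ne_zero two_ne_zero hd0) this
  · exact absurd h2 hd0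

theorem imp_mul {τ τ' : MulAut E} {A B : M ≃ₗ[ℂ] M} (h : ∀ e, A * ρ e = ρ (τ e) * A)
    (h' : ∀ e, B * ρ e = ρ (τ' e) * B) : ∀ e, (A * B) * ρ e = ρ ((τ * τ') e) * (A * B) :=
  (Gam (MonoidHom.id (MulAut E)) ρ).mul_mem (x := (τ, A)) (y := (τ', B)) h h'

theorem imp_inv {τ : MulAut E} {A : M ≃ₗ[ℂ] M} (h : ∀ e, A * ρ e = ρ (τ e) * A) :
    ∀ e, A⁻¹ * ρ e = ρ (τ⁻¹ e) * A⁻¹ :=
  (Gam (MonoidHom.id (MulAut E)) ρ).inv_mem (x := (τ, A)) h

theorem imp_pow {τ : MulAut E} {A : M ≃ₗ[ℂ] M} (h : ∀ e, A * ρ e = ρ (τ e) * A) (n : ℕ) :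
    ∀ e, A ^ n * ρ e = ρ ((τ ^ n) e) * A ^ n :=
  (Gam (MonoidHom.id (MulAut E)) ρ).pow_mem (x := (τ, A)) h n

theorem imp_sc {τ : MulAut E} {A : M ≃ₗ[ℂ] M} (h : ∀ e, A * ρ e = ρ (τ e) * A) (c : ℂˣ) :
    ∀ e, (sc M c * A) * ρ e = ρ (τ e) * (sc M c * A) := by
  intro e
  rw [mul_assoc, h, ← mul_assoc, ← mul_assoc, sc_comm]

/-- Two operators implementing the same automorphism. -/
theorem imp_unique (hE : CT E z) (h : Spin z ρ) {τ : MulAut E} {A B : M ≃ₗ[ℂ] M}
    (hA : ∀ e, A * ρ e = ρ (τ e) * A) (hB : ∀ e, B * ρ e = ρ (τ e) * B) :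
    ∃ c : ℂˣ, A = sc M c * B := by
  have h1 := imp_mul hA (imp_inv hB)
  rw [mul_inv_cancel] at h1
  obtain ⟨c, hc⟩ := h.scalar_unit hE (A * B⁻¹) h1
  exact ⟨c, by rw [← hc, inv_mul_cancel_right]⟩

/-- An implementing operator of exact order. -/
theorem exists_R (hE : CT E z) (h : Spin z ρ) {q : ℕ} [hq : Fact q.Prime] (x : MulAut E)
    (hxq : x ^ q = 1) : ∃ R : M ≃ₗ[ℂ] M, (∀ e, R * ρ e = ρ (x e) * R) ∧ R ^ q = 1 := by
  obtain ⟨A, hA⟩ := h.exists_impl hE x
  have h1 := imp_pow hA q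
  rw [hxq] at h1
  obtain ⟨c, hc⟩ := h.scalar_unit hE (A ^ q) h1
  obtain ⟨b, hb⟩ := IsAlgClosed.exists_pow_nat_eq ((c⁻¹ : ℂˣ) : ℂ) hq.out.pos
  have hb0 : b ≠ 0 := by
    rintro rfl
    rw [zero_pow hq.out.ne_zero] at hb
    exact (c⁻¹).ne_zero hb.symm
  refine ⟨sc M (Units.mk0 b hb0) * A, imp_sc hA _, ?_⟩
  have h2 : (sc M (Units.mk0 b hb0) * A) ^ q = sc M (Units.mk0 b hb0) ^ q * A ^ q :=
    (Commute.mul_pow (show Commute _ _ from sc_comm _ _) q)
  rw [h2, hc, ← map_pow, ← map_mul]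
  have h3 : (Units.mk0 b hb0) ^ q * c = 1 := by
    apply Units.ext
    rw [Units.val_mul, Units.val_pow_eq_pow_val, Units.val_mk0, hb]
    rw [← Units.val_mul, inv_mul_cancel, Units.val_one]
  rw [h3, map_one]

/-- The fixed point free elements. -/
theorem fpf_pow (hE : CT E z) {q : ℕ} [hq : Fact q.Prime] (x : MulAut E) (hxq : x ^ q = 1)
    (hx : ∀ e, (x e = e ∨ x e = z * e) → e = 1 ∨ e = z) {n : ℕ} (hn : n.Coprime q) {σ : MulAut E}
    (hσ : σ ^ n = 1) (hσx : σ * x = x * σ) {j : ℕ} (hj : ¬ q ∣ j) :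
    ∀ e, ((σ * x ^ j) e = e ∨ (σ * x ^ j) e = z * e) → e = 1 ∨ e = z := by
  intro e he
  have hjq : j.Coprime q := ((Nat.Prime.coprime_iff_not_dvd hq.out).2 hj).symm
  -- a common exponent
  obtain ⟨m, hm1, hm2⟩ := Nat.chineseRemainder hn 0 1
  obtain ⟨a, ha⟩ : ∃ a, j * a ≡ 1 [MOD q] := by
    obtain ⟨a, ha⟩ := Nat.exists_mul_mod_eq_one_of_coprime hjq hq.out.one_lt
    exact ⟨a, by rw [Nat.ModEq, ha.2, Nat.mod_eq_of_lt hq.out.one_lt]⟩
  have h1 := fix_pow hE (σ * x ^ j) he (m * a)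
  have h2 : (σ * x ^ j) ^ (m * a) = x := by
    have hc : Commute σ (x ^ j) := (show Commute σ x from hσx).pow_right j
    rw [hc.mul_pow, ← pow_mul]
    obtain ⟨k, hk⟩ := (Nat.modEq_zero_iff_dvd.1 hm1)
    have h3 : σ ^ (m * a) = 1 := by
      rw [hk, mul_assoc, pow_mul, hσ, one_pow]
    rw [h3, one_mul]
    have h4 : j * (m * a) ≡ 1 [MOD q] := by
      have h5 : j * (m * a) = m * (j * a) := by ring
      rw [h5]
      exact (hm2.mul ha).trans (by simp; rfl)
    have h6 := pow_mod_orderOf x (j * (m * a))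
    have h7 : orderOf x ∣ q := orderOf_dvd_of_pow_eq_one hxq
    have h8 : x ^ (j * (m * a)) = x ^ 1 := by
      rw [pow_eq_pow_iff_modEq]
      exact h4.of_dvd h7
    rw [h8, pow_one]
  rw [h2] at h1
  exact hx e h1

/-- An operator over a centralizing coprime automorphism commutes with `R`. -/
theorem comm_R (hE : CT E z) (h : Spin z ρ) {q : ℕ} {x : MulAut E}
    {R : M ≃ₗ[ℂ] M} (hR : ∀ e, R * ρ e = ρ (x e) * R) (hRq : R ^ q = 1)
    {n : ℕ} (hn : n.Coprime q) {σ : MulAut E} (hσ : σ ^ n = 1) (hσx : σ * x = x * σ)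
    {A : M ≃ₗ[ℂ] M} (hA : ∀ e, A * ρ e = ρ (σ e) * A) : A * R = R * A := by
  haveI := nontriv h
  have h1 := imp_mul (imp_mul hA hR) (imp_inv hA)
  have h2 : σ * x * σ⁻¹ = x := by rw [hσx, mul_inv_cancel_right]
  rw [h2] at h1
  obtain ⟨c, hc⟩ := imp_unique hE h h1 hR
  -- `c ^ q = 1`
  have h3 : c ^ q = 1 := by
    have h4 : (A * R * A⁻¹) ^ q = 1 := by rw [conj_pow, hRq, mul_one, mul_inv_cancel]
    rw [hc, (show Commute (sc M c) R from sc_comm _ _).mul_pow, hRq, mul_one, ← map_pow] at h4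
    exact sc_inj (by rw [h4, map_one])
  -- `c ^ n = 1`
  have h5 : c ^ n = 1 := by
    have h6 : ∀ k : ℕ, A ^ k * R * (A ^ k)⁻¹ = sc M (c ^ k) * R := by
      intro k
      induction k with
      | zero => simp
      | succ k ih =>
        have h7 : A ^ (k + 1) * R * (A ^ (k + 1))⁻¹ = A ^ k * (A * R * A⁻¹) * (A ^ k)⁻¹ := by
          rw [pow_succ]; group
        rw [h7, hc, ← mul_assoc, ← sc_comm, mul_assoc (sc M c), mul_assoc (sc M c), ih, ← mul_assoc,
          ← map_mul, pow_succ']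
    have h8 := imp_pow hA n
    rw [hσ] at h8
    obtain ⟨b, hb⟩ := h.scalar_unit hE (A ^ n) h8
    have h9 := h6 n
    rw [hb, sc_comm, mul_inv_cancel_right] at h9
    have h10 : sc M (c ^ n) = 1 := by
      have : sc M (c ^ n) * R = 1 * R := by rw [← h9, one_mul]
      exact mul_right_cancel this
    exact sc_inj (by rw [h10, map_one])
  have h11 : c = 1 := by
    have h12 : orderOf c ∣ Nat.gcd n q :=
      Nat.dvd_gcd (orderOf_dvd_of_pow_eq_one h5) (orderOf_dvd_of_pow_eq_one h3)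
    rw [hn] at h12
    exact orderOf_eq_one_iff.1 (Nat.dvd_one.1 h12)
  rw [h11, map_one, one_mul, mul_inv_eq_iff_eq_mul] at hc
  exact hc

/-! ### The finite group of pairs with determinant one -/

theorem finite_detOne (hE : CT E z) (h : Spin z ρ) {Y : Type*} [Group Y] [Finite Y]
    (φ : Y →* MulAut E) : ({p : Gam φ ρ | detG φ ρ p = 1}).Finite := by
  have hd : finrank ℂ M ≠ 0 := h.finrank_pos.ne'
  haveI : NeZero (finrank ℂ M) := ⟨hd⟩
  apply Set.Finite.of_finite_fibers (fun p : Gam φ ρ => p.1.1)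
  · exact Set.toFinite _
  · rintro y ⟨p0, hp0, rfl⟩
    have hfin : (rootsOfUnity (finrank ℂ M) ℂ : Set ℂˣ).Finite :=
      Set.finite_coe_iff.1 (inferInstanceAs (Finite (rootsOfUnity (finrank ℂ M) ℂ)))
    apply (hfin.image (fun c => scG φ ρ c * p0)).subset
    rintro p ⟨hp, hpy⟩
    have h1 : p.1.1 = p0.1.1 := hpy
    obtain ⟨c, hc⟩ := exists_scG hE h φ (p * p0⁻¹) (by
      show p.1.1 * p0.1.1⁻¹ = 1
      rw [h1, mul_inv_cancel])
    refine ⟨c, ?_, ?_⟩
    · rw [SetLike.mem_coe, mem_rootsOfUnity, ← detG_sc φ c, ← hc, map_mul, map_inv]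
      have a1 : detG φ ρ p = 1 := hp
      have a2 : detG φ ρ p0 = 1 := hp0
      rw [a1, a2, inv_one, mul_one]
    · show scG φ ρ c * p0 = p
      rw [← hc, inv_mul_cancel_right]

theorem scG_comm {Y : Type*} [Group Y] (φ : Y →* MulAut E) (c : ℂˣ) (p : Gam φ ρ) :
    scG φ ρ c * p = p * scG φ ρ c := by
  apply Subtype.ext
  refine Prod.ext ?_ ?_
  · show 1 * p.1.1 = p.1.1 * 1
    rw [one_mul, mul_one]
  · exact sc_comm c p.1.2

theorem mem_norm {S : Type*} [Group S] [Finite S] {φ : S →* MulAut E} {x : MulAut E}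
    (hn : ∀ s, ∃ k : ℕ, φ s * x * (φ s)⁻¹ = x ^ k) (s : S) :
    φ s ∈ Subgroup.normalizer (Subgroup.zpowers x : Set (MulAut E)) := by
  have h1 : ∀ s : S, ∀ y ∈ Subgroup.zpowers x, φ s * y * (φ s)⁻¹ ∈ Subgroup.zpowers x := by
    intro s y hy
    obtain ⟨m, rfl⟩ := Subgroup.mem_zpowers_iff.1 hy
    obtain ⟨k, hk⟩ := hn s
    rw [← conj_zpow, hk]
    exact Subgroup.zpow_mem _ (Subgroup.pow_mem _ (Subgroup.mem_zpowers x) k) m
  rw [Subgroup.mem_normalizer_iff]
  intro y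
  refine ⟨h1 s y, fun hy => ?_⟩
  have h2 := h1 s⁻¹ _ hy
  rw [map_inv] at h2
  have h3 : (φ s)⁻¹ * (φ s * y * (φ s)⁻¹) * ((φ s)⁻¹)⁻¹ = y := by group
  rwa [h3] at h2

theorem isCyclic_mulAut_zpowers {G : Type*} [Group G] {q : ℕ} [hq : Fact q.Prime] {x : G}
    (hx : orderOf x = q) : IsCyclic (MulAut (Subgroup.zpowers x)) := by
  have e := IsCyclic.mulAutMulEquiv (Subgroup.zpowers x)
  rw [Nat.card_zpowers, hx] at e
  exact isCyclic_of_injective e.toMonoidHom e.injective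

/-- The trace. -/
noncomputable def tr (A : M ≃ₗ[ℂ] M) : ℂ := LinearMap.trace ℂ M (A : M →ₗ[ℂ] M)

theorem tr_conj (A B : M ≃ₗ[ℂ] M) : tr (A * B * A⁻¹) = tr B := trace_conj A B

theorem tr_sc (c : ℂˣ) (A : M ≃ₗ[ℂ] M) : tr (sc M c * A) = c * tr A := by
  unfold tr
  rw [mul_coe, sc_coe, smul_mul_assoc, map_smul, smul_eq_mul]
  rfl

theorem R_pow_ne {q : ℕ} [hq : Fact q.Prime] {R : M ≃ₗ[ℂ] M} (hRq : R ^ q = 1) (hR1 : R ≠ 1)
    {j : ℕ} : R ^ j = 1 ↔ q ∣ j := by
  rw [← orderOf_dvd_iff_pow_eq_one, orderOf_eq_prime hRq hR1]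

theorem exists_alpha (hE : CT E z) (h : Spin z ρ) {q : ℕ} [hq : Fact q.Prime] {x : MulAut E}
    (hxq : x ^ q = 1) (hx1 : x ≠ 1) (hx : ∀ e, (x e = e ∨ x e = z * e) → e = 1 ∨ e = z)
    {R : M ≃ₗ[ℂ] M} (hR : ∀ e, R * ρ e = ρ (x e) * R) (hRq : R ^ q = 1)
    {n : ℕ} (hn : n.Coprime q) {P : Type*} [Group P] [Finite P] (a : P →* (M ≃ₗ[ℂ] M))
    (τ : P → MulAut E) (ha : ∀ p e, a p * ρ e = ρ (τ p e) * a p)
    (hτn : ∀ p, τ p ^ n = 1) (hτx : ∀ p, τ p * x = x * τ p) :
    ∃ α : P →* ℂˣ, ∀ p (j : ℕ), ¬ q ∣ j → tr (a p * R ^ j) = α p * tr (R ^ j) := by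
  classical
  have hR1 : R ≠ 1 := by
    intro hh
    apply hx1
    ext e
    have := hR e
    rw [hh, one_mul, mul_one] at this
    exact (spin_inj hE h this).symm
  have hRfin : IsOfFinOrder R := isOfFinOrder_iff_pow_eq_one.2 ⟨q, hq.out.pos, hRq⟩
  haveI : Finite (Subgroup.zpowers R) := (finite_zpowers.2 hRfin).to_subtype
  have hcomm : ∀ (p : P) (c : Subgroup.zpowers R), Commute (a p) ((Subgroup.zpowers R).subtype c) := by
    intro p c
    obtain ⟨m, hm⟩ := Subgroup.mem_zpowers_iff.1 c.2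
    have h1 : Commute (a p) R := comm_R hE h hR hRq hn (hτn p) (hτx p) (ha p)
    show Commute (a p) (c : M ≃ₗ[ℂ] M)
    rw [← hm]
    exact h1.zpow_right m
  set σ0 : P × Subgroup.zpowers R →* (M ≃ₗ[ℂ] M) :=
    MonoidHom.noncommCoprod a (Subgroup.zpowers R).subtype hcomm with hσ0
  have hσv : ∀ (p : P) (c : Subgroup.zpowers R), (rep σ0).character (p, c) = tr (a p * (c : M ≃ₗ[ℂ] M)) := by
    intro p c
    rfl
  have hpow : ∀ c : Subgroup.zpowers R, ∃ j : ℕ, (c : M ≃ₗ[ℂ] M) = R ^ j := by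
    intro c
    obtain ⟨j, hj⟩ := (hRfin.mem_powers_iff_mem_zpowers).2 c.2
    exact ⟨j, hj.symm⟩
  -- the character `η`
  obtain ⟨ζ, hζ⟩ : ∃ ζ : ℂˣ, IsPrimitiveRoot ζ q := by
    have h1 := Complex.isPrimitiveRoot_exp q hq.out.ne_zero
    exact ⟨_, h1.isUnit_unit hq.out.ne_zero⟩
  set g : Subgroup.zpowers R := ⟨R, Subgroup.mem_zpowers R⟩ with hg
  have hgen : ∀ c : Subgroup.zpowers R, c ∈ Subgroup.zpowers g := by
    intro c
    obtain ⟨m, hm⟩ := Subgroup.mem_zpowers_iff.1 c.2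
    exact Subgroup.mem_zpowers_iff.2 ⟨m, Subtype.ext hm⟩
  have hgo : orderOf g = q := by
    rw [← orderOf_eq_prime hRq hR1]
    exact Subgroup.orderOf_mk R _
  let η : Subgroup.zpowers R →* ℂˣ :=
    monoidHomOfForallMemZpowers hgen (g' := ζ) (by rw [hgo, ← hζ.eq_orderOf])
  have hηg : η g = ζ := monoidHomOfForallMemZpowers_apply_gen hgen _
  have hη : ∀ c, c ≠ 1 → η c ≠ 1 := by
    intro c hc hh
    apply hc
    obtain ⟨j, hj⟩ := hpow c
    have h1 : c = g ^ j := Subtype.ext hj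
    rw [h1, map_pow, hηg, hζ.pow_eq_one_iff_dvd] at hh
    apply Subtype.ext
    rw [hj, Subgroup.coe_one]
    exact (R_pow_ne hRq hR1).2 hh
  have hη1 : η ≠ 1 := by
    intro hh
    have h1 : ζ = 1 := by rw [← hηg, hh]; rfl
    rw [h1] at hζ
    have := hζ.eq_orderOf
    rw [orderOf_one] at this
    exact hq.out.one_lt.ne' this
  obtain ⟨α, hα⟩ := linear_of_trace (P := P) (C := Subgroup.zpowers R) (by
      intro c c'
      obtain ⟨j, hj⟩ := hpow c
      obtain ⟨k, hk⟩ := hpow c'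
      apply Subtype.ext
      rw [Subgroup.coe_mul, Subgroup.coe_mul, hj, hk, ← pow_add, ← pow_add, add_comm])
    (rep σ0) (by
      intro p c hc
      obtain ⟨j, hj⟩ := hpow c
      have hqj : ¬ q ∣ j := by
        intro hh
        apply hc
        apply Subtype.ext
        rw [hj]
        exact (R_pow_ne hRq hR1).2 hh
      have h1 := trace_mul_trace_inv hE h (τ p * x ^ j) (a p * R ^ j) (imp_mul (ha p) (imp_pow hR j))
        (fpf_pow hE x hxq hx hn (hτn p) (hτx p) hqj)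
      have h2 := isCharacter_apply_inv (isCharacter_of_rep (rep σ0)) (p, c)
      rw [← h2, hσv, hj]
      have h3 : (rep σ0).character (p, c)⁻¹ =
          LinearMap.trace ℂ M (((a p * R ^ j)⁻¹ : M ≃ₗ[ℂ] M) : M →ₗ[ℂ] M) := by
        rw [← hj]
        have h4 : σ0 (p, c)⁻¹ = (a p * (c : M ≃ₗ[ℂ] M))⁻¹ := by
          rw [map_inv]; rfl
        rw [← h4]
        rfl
      rw [h3]
      exact h1) η hη hη1
  refine ⟨α, fun p j hj => ?_⟩
  have h1 := hα p ⟨R ^ j, Subgroup.pow_mem _ (Subgroup.mem_zpowers R) j⟩ (by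
    intro hh
    exact hj ((R_pow_ne hRq hR1).1 (congrArg Subtype.val hh)))
  rw [hσv, hσv, map_one, one_mul] at h1
  exact h1

/-- The trivial case. -/
theorem hasLift_of_small (hE : CT E z) (hsmall : ∀ e : E, e = 1 ∨ e = z) {S : Type*} [Group S]
    (φ : S →* MulAut E) : HasLift φ ρ := by
  refine ⟨1, fun s e => ?_⟩
  have h1 : φ s e = e := by
    rcases hsmall e with h | h
    · rw [h, map_one]
    · rw [h, hE.map_z]
  rw [h1, MonoidHom.one_apply, one_mul, mul_one]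

/-- **The basic case.** -/
theorem base (hE : CT E z) (h : Spin z ρ) {q : ℕ} [hq : Fact q.Prime] {x : MulAut E}
    (hxq : x ^ q = 1) (hx : ∀ e, (x e = e ∨ x e = z * e) → e = 1 ∨ e = z)
    {S : Type*} [Group S] [Finite S] (hS : (Nat.card S).Coprime q) (φ : S →* MulAut E)
    (hn : ∀ s, ∃ k : ℕ, φ s * x * (φ s)⁻¹ = x ^ k) : HasLift φ ρ := by
  classical
  by_cases hx1 : x = 1
  · apply hasLift_of_small hE
    intro e
    exact hx e (Or.inl (by rw [hx1]; rfl))
  haveI := nontriv h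
  obtain ⟨R, hR, hRq⟩ := exists_R hE h x hxq
  have hox : orderOf x = q := orderOf_eq_prime hxq hx1
  -- the map to the automorphisms of `⟨x⟩`
  let κ0 : Gam φ ρ →* (Subgroup.normalizer (Subgroup.zpowers x : Set (MulAut E)) : Subgroup (MulAut E)) :=
    (φ.comp ((MonoidHom.fst S (M ≃ₗ[ℂ] M)).comp (Gam φ ρ).subtype)).codRestrict _
      (fun p => mem_norm hn p.1.1)
  let κ : Gam φ ρ →* MulAut (Subgroup.zpowers x) := (Subgroup.zpowers x).normalizerMonoidHom.comp κ0
  have hκ : ∀ p : Gam φ ρ, p ∈ κ.ker ↔ φ p.1.1 * x = x * φ p.1.1 := by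
    intro p
    have h1 : p ∈ κ.ker ↔ κ0 p ∈ (Subgroup.zpowers x).normalizerMonoidHom.ker := Iff.rfl
    rw [h1, Subgroup.normalizerMonoidHom_ker, Subgroup.mem_subgroupOf]
    show φ p.1.1 ∈ Subgroup.centralizer (Subgroup.zpowers x : Set (MulAut E)) ↔ _
    rw [Subgroup.mem_centralizer_iff]
    constructor
    · intro h2
      exact (h2 x (Subgroup.mem_zpowers x)).symm
    · intro h2 y hy
      obtain ⟨m, rfl⟩ := Subgroup.mem_zpowers_iff.1 hy
      exact ((show Commute (φ p.1.1) x from h2).zpow_right m).symm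
  haveI : Finite (MulAut (Subgroup.zpowers x)) := Finite.of_injective
    (fun f : MulAut (Subgroup.zpowers x) => (f : Subgroup.zpowers x → Subgroup.zpowers x))
    DFunLike.coe_injective
  haveI : Finite (Gam φ ρ ⧸ κ.ker) :=
    Finite.of_injective _ (QuotientGroup.kerLift_injective κ)
  haveI := isCyclic_mulAut_zpowers hox
  haveI hcyc : IsCyclic (Gam φ ρ ⧸ κ.ker) :=
    isCyclic_of_injective (QuotientGroup.kerLift κ) (QuotientGroup.kerLift_injective κ)
  -- the finite subgroup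
  let N := κ.ker
  let P : Subgroup N := ((detG φ ρ).comp N.subtype).ker
  haveI : Finite P := by
    have h1 := finite_detOne hE h φ
    haveI := h1.to_subtype
    refine Finite.of_injective
      (fun p : P => (⟨p.1.1, p.2⟩ : {p : Gam φ ρ | detG φ ρ p = 1})) ?_
    intro p p' hpp
    apply Subtype.ext
    apply Subtype.ext
    exact Subtype.mk.inj hpp
  obtain ⟨α, hα⟩ := exists_alpha hE h hxq hx1 hx hR hRq hS (P := P)
    (((MonoidHom.snd S (M ≃ₗ[ℂ] M)).comp (Gam φ ρ).subtype).comp (N.subtype.comp P.subtype))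
    (fun p => φ p.1.1.1.1) (fun p e => p.1.1.2 e)
    (fun p => by rw [← map_pow, pow_card_eq_one', map_one])
    (fun p => (hκ p.1.1).1 p.1.2)
  have hα' : ∀ (p : P) (j : ℕ), ¬ q ∣ j → tr (p.1.1.1.2 * R ^ j) = α p * tr (R ^ j) := hα
  -- scalars
  have hscN : ∀ c, scG φ ρ c ∈ N := by
    intro c
    rw [hκ]
    show φ 1 * x = x * φ 1
    rw [map_one, one_mul, mul_one]
  have hdec : ∀ p : N, ∃ (c : ℂˣ) (p1 : P), p = ⟨scG φ ρ c, hscN c⟩ * p1.1 := by
    intro p
    obtain ⟨b, hb⟩ := IsAlgClosed.exists_pow_nat_eq ((detG φ ρ p.1 : ℂˣ) : ℂ) h.finrank_pos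
    have hb0 : b ≠ 0 := by
      rintro rfl
      rw [zero_pow h.finrank_pos.ne'] at hb
      exact (detG φ ρ p.1).ne_zero hb.symm
    refine ⟨Units.mk0 b hb0, ⟨⟨scG φ ρ (Units.mk0 b hb0), hscN _⟩⁻¹ * p, ?_⟩, ?_⟩
    · show detG φ ρ ((scG φ ρ (Units.mk0 b hb0))⁻¹ * p.1) = 1
      rw [map_mul, map_inv, detG_sc, inv_mul_eq_one]
      apply Units.ext
      rw [Units.val_pow_eq_pow_val, Units.val_mk0, hb]
    · rw [mul_inv_cancel_left]
  have htrR : ∀ j : ℕ, ¬ q ∣ j → tr (R ^ j) ≠ 0 := by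
    intro j hj h0
    have h1 := trace_mul_trace_inv hE h (x ^ j) (R ^ j) (imp_pow hR j) (by
      have := fpf_pow hE x hxq hx hS (σ := 1) (one_pow _) (by rw [one_mul, mul_one]) hj
      simpa only [_root_.one_mul] using this)
    have h2 : LinearMap.trace ℂ M ((R ^ j : M ≃ₗ[ℂ] M) : M →ₗ[ℂ] M) = 0 := h0
    rw [h2, zero_mul] at h1
    exact zero_ne_one h1
  have hq1 : ¬ q ∣ 1 := by
    rw [Nat.dvd_one]; exact hq.out.ne_one
  have hR0 : tr R ≠ 0 := by
    have := htrR 1 hq1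
    rwa [pow_one] at this
  set val : N → ℂ := fun p => tr (p.1.1.2 * R) / tr R with hval
  have hval1 : ∀ (c : ℂˣ) (p1 : P) (j : ℕ), ¬ q ∣ j →
      tr ((⟨scG φ ρ c, hscN c⟩ * p1.1 : N).1.1.2 * R ^ j) = (c * α p1) * tr (R ^ j) := by
    intro c p1 j hj
    show tr ((sc M c * p1.1.1.1.2) * R ^ j) = _
    rw [mul_assoc (sc M c), tr_sc, hα' p1 j hj]; ring
  have hval2 : ∀ (c : ℂˣ) (p1 : P), val (⟨scG φ ρ c, hscN c⟩ * p1.1) = c * α p1 := by
    intro c p1
    have := hval1 c p1 1 hq1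
    rw [pow_one] at this
    rw [hval]
    show tr _ / tr R = _
    rw [this, mul_div_cancel_right₀ _ hR0]
  have hval3 : ∀ (p : N) (j : ℕ), ¬ q ∣ j → tr (p.1.1.2 * R ^ j) = val p * tr (R ^ j) := by
    intro p j hj
    obtain ⟨c, p1, rfl⟩ := hdec p
    rw [hval1 c p1 j hj, hval2]
  let F0 : N →* ℂ :=
    { toFun := val
      map_one' := by
        show tr ((1 : M ≃ₗ[ℂ] M) * R) / tr R = 1
        rw [one_mul, div_self hR0]
      map_mul' := by
        intro p p'
        obtain ⟨c, p1, rfl⟩ := hdec p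
        obtain ⟨c', p1', rfl⟩ := hdec p'
        have h1 : (⟨scG φ ρ c, hscN c⟩ * p1.1 : N) * (⟨scG φ ρ c', hscN c'⟩ * p1'.1) =
            ⟨scG φ ρ (c * c'), hscN _⟩ * (p1 * p1' : P).1 := by
          apply Subtype.ext
          show scG φ ρ c * p1.1.1 * (scG φ ρ c' * p1'.1.1) = scG φ ρ (c * c') * (p1.1.1 * p1'.1.1)
          rw [map_mul, mul_assoc, ← mul_assoc p1.1.1, ← scG_comm, mul_assoc, mul_assoc]
        rw [h1, hval2, hval2, hval2, map_mul]
        push_cast
        ring }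
  obtain ⟨g, hg⟩ := hcyc.exists_generator
  obtain ⟨g, rfl⟩ := QuotientGroup.mk_surjective g
  obtain ⟨F', hF'⟩ := ext_hom (N := N) g hg F0.toHomUnits (by
    intro p
    apply Units.ext
    rw [MonoidHom.coe_toHomUnits, MonoidHom.coe_toHomUnits]
    show tr ((g.1.2 * p.1.1.2 * g.1.2⁻¹) * R) / tr R = val p
    set T := g.1.2 with hT
    set A := p.1.1.2 with hA
    -- `T⁻¹ R T`
    obtain ⟨k, hk⟩ := hn g.1.1⁻¹
    have hTi : ∀ e, T⁻¹ * ρ e = ρ ((φ g.1.1⁻¹) e) * T⁻¹ := by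
      have := imp_inv (show ∀ e, T * ρ e = ρ (φ g.1.1 e) * T from g.2)
      rw [map_inv]; exact this
    have h1 := imp_mul (imp_mul hTi hR) (imp_inv hTi)
    rw [hk] at h1
    obtain ⟨c, hc⟩ := imp_unique hE h h1 (imp_pow hR k)
    have hqk : ¬ q ∣ k := by
      intro hh
      apply hx1
      have h2 : x ^ k = 1 := by
        rw [← orderOf_dvd_iff_pow_eq_one, hox]; exact hh
      rw [h2] at hk
      have h3 : φ g.1.1⁻¹ * x = φ g.1.1⁻¹ * 1 := by
        rw [mul_one]; exact mul_inv_eq_one.1 hk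
      exact mul_left_cancel h3
    have h4 : tr ((T * A * T⁻¹) * R) = c * (val p * tr (R ^ k)) := by
      have h5 : (T * A * T⁻¹) * R = T * (A * (T⁻¹ * R * (T⁻¹)⁻¹)) * T⁻¹ := by group
      rw [h5, tr_conj, hc, ← mul_assoc, ← sc_comm, mul_assoc, tr_sc, hval3 p k hqk]
    have h6 : tr R = c * tr (R ^ k) := by
      have h7 : tr (T⁻¹ * R * (T⁻¹)⁻¹) = tr R := tr_conj _ _
      rw [← h7, hc, tr_sc]
    rw [h4, h6]
    have h8 : (c : ℂ) * tr (R ^ k) ≠ 0 := by rw [← h6]; exact hR0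
    rw [div_eq_iff h8]; ring)
  apply hasLift_of_hom hE h φ F'
  intro c
  have h1 := hF' ⟨scG φ ρ c, hscN c⟩
  show F' (scG φ ρ c) = c
  rw [h1]
  apply Units.ext
  rw [MonoidHom.coe_toHomUnits]
  show tr (sc M c * R) / tr R = c
  rw [tr_sc, mul_div_cancel_right₀ _ hR0]

end Cfsg.Agent.H668.DadeC
end

-- part: H668/DadeD
section
/-!
# Lifts on central products
-/

set_option autoImplicit false
set_option linter.unusedSectionVars false
set_option linter.style.haveILetI false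
open scoped ComplexConjugate TensorProduct
open Cfsg Module

namespace Cfsg.Agent.H668.DadeD

open Cfsg.Agent.H668.DadeA Cfsg.Agent.H668.DadeB Cfsg.Agent.H668.DadeC

/-- Lift data on a subgroup `F`. -/
structure LD {E : Type*} [Group E] (z : E) (F : Subgroup E) {Y : Type*} [Group Y]
    (φ : Y →* MulAut E) (M : Type) [AddCommGroup M] [Module ℂ M] (r : E → (M ≃ₗ[ℂ] M))
    (L : Y →* (M ≃ₗ[ℂ] M)) : Prop where
  mul : ∀ a ∈ F, ∀ b ∈ F, r (a * b) = r a * r b
  mem : z ∈ F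
  neg : r z = sc M (-1)
  card : Nat.card F = 2 * finrank ℂ M ^ 2
  imp : ∀ y, ∀ e ∈ F, φ y e ∈ F → L y * r e = r (φ y e) * L y

/-- The existence of lift data. -/
def HL {E : Type*} [Group E] (z : E) (F : Subgroup E) {Y : Type*} [Group Y]
    (φ : Y →* MulAut E) : Prop :=
  ∃ (M : Type) (_ : AddCommGroup M) (_ : Module ℂ M) (_ : FiniteDimensional ℂ M)
    (r : E → (M ≃ₗ[ℂ] M)) (L : Y →* (M ≃ₗ[ℂ] M)), LD z F φ M r L

section tensor

variable {M₁ M₂ : Type} [AddCommGroup M₁] [Module ℂ M₁] [AddCommGroup M₂] [Module ℂ M₂]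

/-- The tensor product of operators. -/
noncomputable def tp (A : M₁ ≃ₗ[ℂ] M₁) (B : M₂ ≃ₗ[ℂ] M₂) : (M₁ ⊗[ℂ] M₂) ≃ₗ[ℂ] (M₁ ⊗[ℂ] M₂) :=
  TensorProduct.congr A B

theorem tp_mul (A A' : M₁ ≃ₗ[ℂ] M₁) (B B' : M₂ ≃ₗ[ℂ] M₂) :
    tp (A * A') (B * B') = tp A B * tp A' B' := TensorProduct.congr_mul _ _ _ _

theorem tp_one : tp (1 : M₁ ≃ₗ[ℂ] M₁) (1 : M₂ ≃ₗ[ℂ] M₂) = 1 := by
  apply LinearEquiv.toLinearMap_injective
  exact TensorProduct.map_one

theorem tp_tmul (A : M₁ ≃ₗ[ℂ] M₁) (B : M₂ ≃ₗ[ℂ] M₂) (v : M₁) (w : M₂) :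
    tp A B (v ⊗ₜ w) = A v ⊗ₜ B w := TensorProduct.congr_tmul _ _ _ _

theorem tp_sc (a b : ℂˣ) : tp (sc M₁ a) (sc M₂ b) = sc (M₁ ⊗[ℂ] M₂) (a * b) := by
  apply LinearEquiv.toLinearMap_injective
  apply TensorProduct.ext'
  intro v w
  show tp (sc M₁ a) (sc M₂ b) (v ⊗ₜ w) = sc (M₁ ⊗[ℂ] M₂) (a * b) (v ⊗ₜ w)
  rw [tp_tmul, sc_apply, sc_apply, sc_apply, TensorProduct.smul_tmul_smul, Units.val_mul]

/-- The swap. -/
noncomputable def sw (M₁ : Type) [AddCommGroup M₁] [Module ℂ M₁] :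
    (M₁ ⊗[ℂ] M₁) ≃ₗ[ℂ] (M₁ ⊗[ℂ] M₁) := TensorProduct.comm ℂ M₁ M₁

theorem sw_mul : sw M₁ * sw M₁ = 1 := by
  apply LinearEquiv.toLinearMap_injective
  apply TensorProduct.ext'
  intro v w
  rfl

theorem sw_tp (A B : M₁ ≃ₗ[ℂ] M₁) : sw M₁ * tp A B = tp B A * sw M₁ := by
  apply LinearEquiv.toLinearMap_injective
  apply TensorProduct.ext'
  intro v w
  rfl

theorem sw0 (A B C D : M₁ ≃ₗ[ℂ] M₁) :
    tp A B * (tp C D * sw M₁) = tp (A * C) (B * D) * sw M₁ := by
  rw [← mul_assoc, ← tp_mul]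

theorem sw1 (A B C D : M₁ ≃ₗ[ℂ] M₁) :
    (tp A B * sw M₁) * tp C D = tp (A * D) (B * C) * sw M₁ := by
  rw [mul_assoc, sw_tp, ← mul_assoc, ← tp_mul]

theorem sw2 (A B C D : M₁ ≃ₗ[ℂ] M₁) :
    (tp A B * sw M₁) * (tp C D * sw M₁) = tp (A * D) (B * C) := by
  rw [← mul_assoc, sw1, mul_assoc, sw_mul, mul_one]

end tensor

section glue

variable {E : Type*} [Group E] [Finite E] {z : E}

/-- Gluing of representations on a central product. -/
theorem glue {F₁ F₂ : Subgroup E} {M₁ M₂ : Type} [AddCommGroup M₁] [Module ℂ M₁]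
    [AddCommGroup M₂] [Module ℂ M₂]
    (hi : ∀ a ∈ F₁, a ∈ F₂ → a = 1 ∨ a = z) (hz1 : z ∈ F₁) (hz2 : z ∈ F₂)
    {r₁ : E → (M₁ ≃ₗ[ℂ] M₁)} {r₂ : E → (M₂ ≃ₗ[ℂ] M₂)}
    (h1 : ∀ a ∈ F₁, ∀ b ∈ F₁, r₁ (a * b) = r₁ a * r₁ b)
    (h2 : ∀ a ∈ F₂, ∀ b ∈ F₂, r₂ (a * b) = r₂ a * r₂ b)
    (hn1 : r₁ z = sc M₁ (-1)) (hn2 : r₂ z = sc M₂ (-1)) :
    ∃ r : E → ((M₁ ⊗[ℂ] M₂) ≃ₗ[ℂ] (M₁ ⊗[ℂ] M₂)),
      ∀ a ∈ F₁, ∀ b ∈ F₂, r (a * b) = tp (r₁ a) (r₂ b) := by
  classical
  have hwd : ∀ a ∈ F₁, ∀ b ∈ F₂, ∀ a' ∈ F₁, ∀ b' ∈ F₂, a * b = a' * b' →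
      tp (r₁ a) (r₂ b) = tp (r₁ a') (r₂ b') := by
    intro a ha b hb a' ha' b' hb' hab
    have e1 : a'⁻¹ * a = b' * b⁻¹ := by
      rw [inv_mul_eq_iff_eq_mul, ← mul_assoc, ← hab, mul_inv_cancel_right]
    have e2 : a'⁻¹ * a ∈ F₁ := F₁.mul_mem (F₁.inv_mem ha') ha
    have e3 : a'⁻¹ * a ∈ F₂ := by rw [e1]; exact F₂.mul_mem hb' (F₂.inv_mem hb)
    rcases hi _ e2 e3 with e4 | e4
    · have e5 : a = a' := by rw [inv_mul_eq_one] at e4; exact e4.symm
      subst e5
      have e6 : b = b' := mul_left_cancel hab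
      rw [e6]
    · have e5 : a = a' * z := by rw [← e4, mul_inv_cancel_left]
      have e6 : b' = z * b := by rw [← e4, e1, inv_mul_cancel_right]
      rw [e5, e6, h1 _ ha' _ hz1, h2 _ hz2 _ hb, hn1, hn2]
      have e7 : tp (r₁ a' * sc M₁ (-1)) (r₂ b) = tp (r₁ a') (r₂ b) * tp (sc M₁ (-1)) 1 := by
        rw [← tp_mul, mul_one]
      have e8 : tp (r₁ a') (sc M₂ (-1) * r₂ b) = tp 1 (sc M₂ (-1)) * tp (r₁ a') (r₂ b) := by
        rw [← tp_mul, one_mul]
      have e9 : tp (sc M₁ (-1)) (1 : M₂ ≃ₗ[ℂ] M₂) = sc _ (-1) := by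
        have := tp_sc (M₁ := M₁) (M₂ := M₂) (-1) 1
        rwa [map_one, mul_one] at this
      have e10 : tp (1 : M₁ ≃ₗ[ℂ] M₁) (sc M₂ (-1)) = sc _ (-1) := by
        have := tp_sc (M₁ := M₁) (M₂ := M₂) 1 (-1)
        rwa [map_one, one_mul] at this
      rw [e7, e8, e9, e10, sc_comm]
  refine ⟨fun e => if h : ∃ p : E × E, p.1 ∈ F₁ ∧ p.2 ∈ F₂ ∧ e = p.1 * p.2 then
    tp (r₁ h.choose.1) (r₂ h.choose.2) else 1, fun a ha b hb => ?_⟩
  have hex : ∃ p : E × E, p.1 ∈ F₁ ∧ p.2 ∈ F₂ ∧ a * b = p.1 * p.2 := ⟨(a, b), ha, hb, rfl⟩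
  show (if h : _ then _ else _) = _
  rw [dif_pos hex]
  have hs := hex.choose_spec
  exact hwd _ hs.1 _ hs.2.1 _ ha _ hb hs.2.2.symm

theorem card_glue {F₁ F₂ : Subgroup E} (hc : ∀ a ∈ F₁, ∀ b ∈ F₂, a * b = b * a)
    (hi : ∀ a ∈ F₁, a ∈ F₂ → a = 1 ∨ a = z) (hz0 : z ≠ 1) (hz1 : z ∈ F₁) (hz2 : z ∈ F₂)
    {d₁ d₂ : ℕ} (h1 : Nat.card F₁ = 2 * d₁ ^ 2) (h2 : Nat.card F₂ = 2 * d₂ ^ 2) :
    Nat.card (F₁ ⊔ F₂ : Subgroup E) = 2 * (d₁ * d₂) ^ 2 := by
  have e1 := PLocal.ElemAbSup.card_sup_mul_card_inf (A := F₁) (B := F₂) (by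
    intro b hb
    rw [Subgroup.mem_centralizer_iff]
    intro a ha
    exact hc a ha b hb)
  have e2 : Nat.card (F₁ ⊓ F₂ : Subgroup E) = 2 := by
    have e3 : ((F₁ ⊓ F₂ : Subgroup E) : Set E) = {1, z} := by
      ext a
      rw [SetLike.mem_coe, Subgroup.mem_inf, Set.mem_insert_iff, Set.mem_singleton_iff]
      constructor
      · rintro ⟨h3, h4⟩; exact hi a h3 h4
      · rintro (rfl | rfl)
        · exact ⟨F₁.one_mem, F₂.one_mem⟩
        · exact ⟨hz1, hz2⟩
    have e4 : Nat.card (F₁ ⊓ F₂ : Subgroup E) = Set.ncard ((F₁ ⊓ F₂ : Subgroup E) : Set E) := rfl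
    rw [e4, e3, Set.ncard_pair hz0.symm]
  rw [e2, h1, h2] at e1
  have e5 : Nat.card (F₁ ⊔ F₂ : Subgroup E) * 2 = (2 * (d₁ * d₂) ^ 2) * 2 := by rw [e1]; ring
  exact Nat.eq_of_mul_eq_mul_right two_pos e5

theorem mem_sup_of_comm {F₁ F₂ : Subgroup E} (hc : ∀ a ∈ F₁, ∀ b ∈ F₂, a * b = b * a) {e : E} :
    e ∈ F₁ ⊔ F₂ ↔ ∃ a ∈ F₁, ∃ b ∈ F₂, e = a * b := by
  constructor
  · intro he
    let K : Subgroup E :=
      { carrier := {e | ∃ a ∈ F₁, ∃ b ∈ F₂, e = a * b}
        one_mem' := ⟨1, F₁.one_mem, 1, F₂.one_mem, by rw [one_mul]⟩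
        mul_mem' := by
          rintro _ _ ⟨a, ha, b, hb, rfl⟩ ⟨a', ha', b', hb', rfl⟩
          refine ⟨a * a', F₁.mul_mem ha ha', b * b', F₂.mul_mem hb hb', ?_⟩
          rw [mul_assoc, ← mul_assoc b, ← hc a' ha' b hb, mul_assoc, mul_assoc]
        inv_mem' := by
          rintro _ ⟨a, ha, b, hb, rfl⟩
          refine ⟨a⁻¹, F₁.inv_mem ha, b⁻¹, F₂.inv_mem hb, ?_⟩
          rw [mul_inv_rev]
          exact (hc _ (F₁.inv_mem ha) _ (F₂.inv_mem hb)).symm }
    have h1 : F₁ ⊔ F₂ ≤ K := by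
      apply sup_le
      · intro a ha; exact ⟨a, ha, 1, F₂.one_mem, by rw [mul_one]⟩
      · intro b hb; exact ⟨1, F₁.one_mem, b, hb, by rw [one_mul]⟩
    exact h1 he
  · rintro ⟨a, ha, b, hb, rfl⟩
    exact Subgroup.mul_mem _ (le_sup_left (a := F₁) ha) (le_sup_right (b := F₂) hb)

variable {Y : Type*} [Group Y] {φ : Y →* MulAut E}

theorem HL.sup {F₁ F₂ : Subgroup E} (hz0 : z ≠ 1)
    (hc : ∀ a ∈ F₁, ∀ b ∈ F₂, a * b = b * a) (hi : ∀ a ∈ F₁, a ∈ F₂ → a = 1 ∨ a = z)
    (hv1 : ∀ y, ∀ e ∈ F₁, φ y e ∈ F₁) (hv2 : ∀ y, ∀ e ∈ F₂, φ y e ∈ F₂)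
    (h1 : HL z F₁ φ) (h2 : HL z F₂ φ) : HL z (F₁ ⊔ F₂) φ := by
  obtain ⟨M₁, i1, i2, i3, r₁, L₁, H1⟩ := h1
  obtain ⟨M₂, j1, j2, j3, r₂, L₂, H2⟩ := h2
  obtain ⟨r, hr⟩ := glue hi H1.mem H2.mem H1.mul H2.mul H1.neg H2.neg
  refine ⟨M₁ ⊗[ℂ] M₂, inferInstance, inferInstance, inferInstance, r,
    { toFun := fun y => tp (L₁ y) (L₂ y)
      map_one' := by rw [map_one, map_one, tp_one]
      map_mul' := fun a b => by rw [map_mul, map_mul, tp_mul] }, ?_⟩
  refine ⟨?_, ?_, ?_, ?_, ?_⟩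
  · intro e he e' he'
    obtain ⟨a, ha, b, hb, rfl⟩ := (mem_sup_of_comm hc).1 he
    obtain ⟨a', ha', b', hb', rfl⟩ := (mem_sup_of_comm hc).1 he'
    have h3 : a * b * (a' * b') = (a * a') * (b * b') := by
      rw [mul_assoc, ← mul_assoc b, ← hc a' ha' b hb, mul_assoc, mul_assoc]
    rw [h3, hr _ (F₁.mul_mem ha ha') _ (F₂.mul_mem hb hb'), hr a ha b hb, hr a' ha' b' hb',
      H1.mul a ha a' ha', H2.mul b hb b' hb', tp_mul]
  · exact le_sup_left (a := F₁) H1.mem
  · have h3 := hr z H1.mem 1 F₂.one_mem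
    rw [mul_one] at h3
    have h4 : r₂ 1 = 1 := by
      have := H2.mul 1 F₂.one_mem 1 F₂.one_mem
      rw [mul_one] at this
      exact (left_eq_mul.1 this)
    rw [h3, H1.neg, h4]
    have := tp_sc (M₁ := M₁) (M₂ := M₂) (-1) 1
    rwa [map_one, mul_one] at this
  · rw [Module.finrank_tensorProduct]
    exact card_glue hc hi hz0 H1.mem H2.mem H1.card H2.card
  · intro y e he _
    obtain ⟨a, ha, b, hb, rfl⟩ := (mem_sup_of_comm hc).1 he
    show tp (L₁ y) (L₂ y) * _ = _ * tp (L₁ y) (L₂ y)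
    rw [map_mul, hr a ha b hb, hr _ (hv1 y a ha) _ (hv2 y b hb), ← tp_mul, ← tp_mul,
      H1.imp y a ha (hv1 y a ha), H2.imp y b hb (hv2 y b hb)]

theorem LD.one_r {M : Type} [AddCommGroup M] [Module ℂ M] {F : Subgroup E} {r : E → (M ≃ₗ[ℂ] M)}
    {L : Y →* (M ≃ₗ[ℂ] M)} (H : LD z F φ M r L) : r 1 = 1 := by
  have := H.mul 1 F.one_mem 1 F.one_mem
  rw [mul_one] at this
  exact (left_eq_mul.1 this)

/-- The swap lemma. -/
theorem HL.swap {F₁ F₂ : Subgroup E} (hz0 : z ≠ 1)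
    (hc : ∀ a ∈ F₁, ∀ b ∈ F₂, a * b = b * a) (hi : ∀ a ∈ F₁, a ∈ F₂ → a = 1 ∨ a = z)
    (S₁ : Subgroup Y) (hS₁ : S₁.index = 2) (t : Y) (ht : t ∉ S₁)
    (hv1 : ∀ y ∈ S₁, ∀ e ∈ F₁, φ y e ∈ F₁) (hF₂ : ∀ e, φ t e ∈ F₂ ↔ e ∈ F₁)
    (hzt : φ t z = z) (h1 : HL z F₁ (φ.comp S₁.subtype)) : HL z (F₁ ⊔ F₂) φ := by
  classical
  obtain ⟨M₁, i1, i2, i3, r₁, L₁, H1⟩ := h1
  have hidx : ∀ {a b : Y}, a * b ∈ S₁ ↔ (a ∈ S₁ ↔ b ∈ S₁) := Subgroup.mul_mem_iff_of_index_two hS₁
  have htinv : ∀ y, t⁻¹ * y ∈ S₁ ↔ y ∉ S₁ := by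
    intro y
    rw [hidx, S₁.inv_mem_iff]
    (clear * - ht; tauto)
  have hyt : ∀ y, y * t ∈ S₁ ↔ y ∉ S₁ := by
    intro y
    rw [hidx]; (clear * - ht; tauto)
  have hconj : ∀ y ∈ S₁, t⁻¹ * y * t ∈ S₁ := by
    intro y hy
    rw [hyt, htinv]; tauto
  -- total functions
  set l : Y → (M₁ ≃ₗ[ℂ] M₁) := fun y => if h : y ∈ S₁ then L₁ ⟨y, h⟩ else 1 with hl
  have lv : ∀ y (h : y ∈ S₁), l y = L₁ ⟨y, h⟩ := fun y h => dif_pos h
  have lmul : ∀ a ∈ S₁, ∀ b ∈ S₁, l (a * b) = l a * l b := by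
    intro a ha b hb
    rw [lv a ha, lv b hb, lv _ (S₁.mul_mem ha hb), ← map_mul]; rfl
  have l1 : l 1 = 1 := by
    rw [lv 1 S₁.one_mem]; exact map_one L₁
  have limp : ∀ y ∈ S₁, ∀ e ∈ F₁, l y * r₁ e = r₁ (φ y e) * l y := by
    intro y hy e he
    rw [lv y hy]
    exact H1.imp ⟨y, hy⟩ e he (hv1 y hy e he)
  -- `F₂`
  have hF₂' : ∀ b ∈ F₂, φ t⁻¹ b ∈ F₁ := by
    intro b hb
    rw [← hF₂, map_inv, MulAut.apply_inv_self]; exact hb
  have hz1 : z ∈ F₁ := H1.mem
  have hz2 : z ∈ F₂ := by rw [← hzt, hF₂]; exact hz1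
  have hzt' : φ t⁻¹ z = z := by
    rw [map_inv]
    nth_rewrite 1 [← hzt]
    rw [MulAut.inv_apply_self]
  obtain ⟨r, hr⟩ := glue (r₁ := r₁) (r₂ := fun b => r₁ (φ t⁻¹ b)) hi hz1 hz2 H1.mul (by
    intro a ha b hb
    show r₁ (φ t⁻¹ (a * b)) = _
    rw [map_mul, H1.mul _ (hF₂' a ha) _ (hF₂' b hb)]) H1.neg (by
    show r₁ (φ t⁻¹ z) = _
    rw [hzt', H1.neg])
  have hr' : ∀ a ∈ F₁, ∀ b ∈ F₂, r (a * b) = tp (r₁ a) (r₁ (φ t⁻¹ b)) := hr
  refine ⟨M₁ ⊗[ℂ] M₁, inferInstance, inferInstance, inferInstance, r,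
    { toFun := fun y => if y ∈ S₁ then tp (l y) (l (t⁻¹ * y * t)) else
        tp (l (y * t)) (l (t⁻¹ * y)) * sw M₁
      map_one' := by
        rw [if_pos S₁.one_mem, mul_one, inv_mul_cancel, l1, tp_one]
      map_mul' := ?_ }, ?_⟩
  · intro a b
    by_cases ha : a ∈ S₁
    · by_cases hb : b ∈ S₁
      · rw [if_pos ha, if_pos hb, if_pos (S₁.mul_mem ha hb), ← tp_mul, lmul a ha b hb]
        congr 1
        rw [← lmul _ (hconj a ha) _ (hconj b hb)]
        congr 1
        group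
      · have hab : a * b ∉ S₁ := by rw [hidx]; (clear * - ha hb; tauto)
        rw [if_pos ha, if_neg hb, if_neg hab, sw0]
        congr 2
        · rw [← lmul _ ha _ ((hyt b).2 hb)]
          congr 1; group
        · rw [← lmul _ (hconj a ha) _ ((htinv b).2 hb)]
          congr 1; group
    · by_cases hb : b ∈ S₁
      · have hab : a * b ∉ S₁ := by rw [hidx]; (clear * - ha hb; tauto)
        rw [if_neg ha, if_pos hb, if_neg hab, sw1]
        congr 2
        · rw [← lmul _ ((hyt a).2 ha) _ (hconj b hb)]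
          congr 1; group
        · rw [← lmul _ ((htinv a).2 ha) _ hb]
          congr 1; group
      · have hab : a * b ∈ S₁ := by rw [hidx]; (clear * - ha hb; tauto)
        rw [if_neg ha, if_neg hb, if_pos hab, sw2]
        congr 1
        · rw [← lmul _ ((hyt a).2 ha) _ ((htinv b).2 hb)]
          congr 1; group
        · rw [← lmul _ ((htinv a).2 ha) _ ((hyt b).2 hb)]
          congr 1; group
  · refine ⟨?_, ?_, ?_, ?_, ?_⟩
    · intro e he e' he'
      obtain ⟨a, ha, b, hb, rfl⟩ := (mem_sup_of_comm hc).1 he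
      obtain ⟨a', ha', b', hb', rfl⟩ := (mem_sup_of_comm hc).1 he'
      have h3 : a * b * (a' * b') = (a * a') * (b * b') := by
        rw [mul_assoc, ← mul_assoc b, ← hc a' ha' b hb, mul_assoc, mul_assoc]
      rw [h3, hr' _ (F₁.mul_mem ha ha') _ (F₂.mul_mem hb hb'), hr' a ha b hb, hr' a' ha' b' hb',
        H1.mul a ha a' ha', map_mul, H1.mul _ (hF₂' b hb) _ (hF₂' b' hb'), tp_mul]
    · exact le_sup_left (a := F₁) H1.mem
    · have h3 := hr' z H1.mem 1 F₂.one_mem
      rw [mul_one] at h3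
      rw [h3, H1.neg, map_one, H1.one_r]
      have := tp_sc (M₁ := M₁) (M₂ := M₁) (-1) 1
      rwa [map_one, mul_one] at this
    · rw [Module.finrank_tensorProduct]
      apply card_glue hc hi hz0 hz1 hz2 H1.card
      rw [← H1.card]
      apply Nat.card_congr
      exact
        { toFun := fun b => ⟨φ t⁻¹ b, hF₂' b b.2⟩
          invFun := fun a => ⟨φ t a, (hF₂ a).2 a.2⟩
          left_inv := fun b => by
            apply Subtype.ext
            show φ t (φ t⁻¹ b) = b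
            rw [map_inv, MulAut.apply_inv_self]
          right_inv := fun a => by
            apply Subtype.ext
            show φ t⁻¹ (φ t a) = a
            rw [map_inv, MulAut.inv_apply_self] }
    · intro y e he _
      obtain ⟨a, ha, b, hb, rfl⟩ := (mem_sup_of_comm hc).1 he
      show (if y ∈ S₁ then tp (l y) (l (t⁻¹ * y * t)) else tp (l (y * t)) (l (t⁻¹ * y)) * sw M₁) *
        r (a * b) = r (φ y (a * b)) *
        (if y ∈ S₁ then tp (l y) (l (t⁻¹ * y * t)) else tp (l (y * t)) (l (t⁻¹ * y)) * sw M₁)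
      have hcomp : ∀ u v : Y, ∀ e, φ (u * v) e = φ u (φ v e) := by
        intro u v e; rw [map_mul, MulAut.mul_apply]
      by_cases hy : y ∈ S₁
      · rw [if_pos hy, map_mul]
        have h3 : φ y b ∈ F₂ := by
          have h4 : φ y b = φ t (φ (t⁻¹ * y * t) (φ t⁻¹ b)) := by
            rw [← hcomp, ← hcomp]; congr 2; group
          rw [h4, hF₂]
          exact hv1 _ (hconj y hy) _ (hF₂' b hb)
        rw [hr' a ha b hb, hr' _ (hv1 y hy a ha) _ h3, ← tp_mul, ← tp_mul, limp y hy a ha,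
          limp _ (hconj y hy) _ (hF₂' b hb)]
        congr 3
        rw [← hcomp, ← hcomp]; congr 2; group
      · rw [if_neg hy, map_mul]
        have h3 : φ y a ∈ F₂ := by
          have h4 : φ y a = φ t (φ (t⁻¹ * y) a) := by
            rw [← hcomp]; congr 2; group
          rw [h4, hF₂]
          exact hv1 _ ((htinv y).2 hy) _ ha
        have h5 : φ y b = φ (y * t) (φ t⁻¹ b) := by
          rw [← hcomp]; congr 2; group
        have h6 : φ y b ∈ F₁ := by
          rw [h5]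
          exact hv1 _ ((hyt y).2 hy) _ (hF₂' b hb)
        rw [← hc _ h6 _ h3, hr' a ha b hb, hr' _ h6 _ h3, mul_assoc, sw_tp, ← mul_assoc,
          ← tp_mul, ← mul_assoc, ← tp_mul, limp _ ((hyt y).2 hy) _ (hF₂' b hb),
          limp _ ((htinv y).2 hy) _ ha, ← h5, ← hcomp]

end glue

end Cfsg.Agent.H668.DadeD
end

-- part: H668/DadeE
section
/-!
# Lifts on a central product of blocks permuted by a 2-group
-/

set_option autoImplicit false
set_option linter.unusedSectionVars false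
set_option linter.style.haveILetI false
open scoped Pointwise
open Cfsg Module

namespace Cfsg.Agent.H668.DadeE

open Cfsg.Agent.H668.DadeA Cfsg.Agent.H668.DadeB Cfsg.Agent.H668.DadeC Cfsg.Agent.H668.DadeD

section hl

variable {E : Type*} [Group E] [Finite E] {z : E} {Y : Type*} [Group Y] {φ : Y →* MulAut E}

theorem HL.comp {F : Subgroup E} (h : HL z F φ) {Y' : Type*} [Group Y'] (f : Y' →* Y) :
    HL z F (φ.comp f) := by
  obtain ⟨M, i1, i2, i3, r, L, H⟩ := h
  exact ⟨M, i1, i2, i3, r, L.comp f, H.mul, H.mem, H.neg, H.card, fun y => H.imp (f y)⟩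

theorem mem_zpowers_z (hE : CT E z) {e : E} : e ∈ Subgroup.zpowers z ↔ e = 1 ∨ e = z := by
  constructor
  · intro he
    obtain ⟨m, rfl⟩ := Subgroup.mem_zpowers_iff.1 he
    rcases Int.even_or_odd' m with ⟨k, hk | hk⟩
    · left
      rw [hk, zpow_mul]
      have : z ^ (2 : ℤ) = 1 := by rw [zpow_two, hE.sq]
      rw [this, one_zpow]
    · right
      rw [hk, zpow_add, zpow_mul]
      have : z ^ (2 : ℤ) = 1 := by rw [zpow_two, hE.sq]
      rw [this, one_zpow, one_mul, zpow_one]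
  · rintro (rfl | rfl)
    · exact Subgroup.one_mem _
    · exact Subgroup.mem_zpowers _

theorem HL.zpow (hE : CT E z) : HL z (Subgroup.zpowers z) φ := by
  classical
  refine ⟨ℂ, inferInstance, inferInstance, inferInstance,
    fun e => if e = z then sc ℂ (-1) else 1, 1, ?_, ?_, ?_, ?_, ?_⟩
  · intro a ha b hb
    have hz1 : (1 : E) ≠ z := fun h => hE.ne h.symm
    rcases (mem_zpowers_z hE).1 ha with rfl | rfl
    · simp [hz1]
    · rcases (mem_zpowers_z hE).1 hb with rfl | rfl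
      · simp [hz1]
      · rw [hE.sq, if_neg hz1, if_pos rfl, ← map_mul]
        simp
  · exact Subgroup.mem_zpowers z
  · exact if_pos rfl
  · rw [Nat.card_zpowers]
    have h1 : orderOf z = 2 := by
      apply orderOf_eq_prime _ hE.ne
      rw [pow_two, hE.sq]
    rw [h1]; simp
  · intro y e he _
    have h1 : φ y e = e := by
      rcases (mem_zpowers_z hE).1 he with rfl | rfl
      · rw [map_one]
      · rw [hE.map_z]
    rw [h1, MonoidHom.one_apply, one_mul, mul_one]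

end hl

section blocks

variable {E : Type*} [Group E] [Finite E] {z : E} {I : Type*} [Finite I] {Y : Type*} [Group Y]
  [Finite Y] [MulAction Y I] {φ : Y →* MulAut E}

/-- A central product permuted by a group. -/
structure Blocks (z : E) (φ : Y →* MulAut E) (T₀ : Set I) (F : I → Subgroup E) : Prop where
  ct : CT E z
  mem : ∀ i ∈ T₀, z ∈ F i
  comm : ∀ i ∈ T₀, ∀ j ∈ T₀, i ≠ j → ∀ a ∈ F i, ∀ b ∈ F j, a * b = b * a
  act : ∀ y : Y, ∀ i ∈ T₀, ∀ a ∈ F i, φ y a ∈ F (y • i)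
  top : ∀ e : E, (∀ i ∈ T₀, ∀ a ∈ F i, a * e = e * a) → e = 1 ∨ e = z
  hl : ∀ i ∈ T₀, ∀ S' : Subgroup Y, (∀ s ∈ S', s • i = i) → HL z (F i) (φ.comp S'.subtype)

/-- The product of the blocks in `T`. -/
def FT (z : E) (F : I → Subgroup E) (T : Set I) : Subgroup E :=
  Subgroup.zpowers z ⊔ ⨆ i ∈ T, F i

theorem FT_le {F : I → Subgroup E} {T : Set I} {K : Subgroup E} (hz : z ∈ K)
    (h : ∀ i ∈ T, F i ≤ K) : FT z F T ≤ K :=
  sup_le ((Subgroup.zpowers_le).2 hz) (iSup₂_le h)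

theorem le_FT {F : I → Subgroup E} {T : Set I} {i : I} (hi : i ∈ T) : F i ≤ FT z F T :=
  le_sup_of_le_right (le_iSup₂ (f := fun i (_ : i ∈ T) => F i) i hi)

theorem z_mem_FT {F : I → Subgroup E} {T : Set I} : z ∈ FT z F T :=
  le_sup_left (a := Subgroup.zpowers z) (Subgroup.mem_zpowers z)

theorem FT_union {F : I → Subgroup E} (T T' : Set I) :
    FT z F (T ∪ T') = FT z F T ⊔ FT z F T' := by
  apply le_antisymm
  · apply FT_le (le_sup_left (a := FT z F T) z_mem_FT)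
    rintro i (hi | hi)
    · exact le_sup_of_le_left (le_FT hi)
    · exact le_sup_of_le_right (le_FT hi)
  · apply sup_le
    · exact FT_le z_mem_FT fun i hi => le_FT (Or.inl hi)
    · exact FT_le z_mem_FT fun i hi => le_FT (Or.inr hi)

theorem Blocks.comm_FT {T₀ : Set I} {F : I → Subgroup E} (h : Blocks z φ T₀ F) {T : Set I} {b : E}
    (hb : ∀ i ∈ T, ∀ a ∈ F i, a * b = b * a) : ∀ a ∈ FT z F T, a * b = b * a := by
  have h1 : FT z F T ≤ Subgroup.centralizer ({b} : Set E) := by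
    apply FT_le
    · rw [Subgroup.mem_centralizer_singleton_iff]
      exact (h.ct.zcomm b).symm
    · intro i hi a ha
      rw [Subgroup.mem_centralizer_singleton_iff]
      exact hb i hi a ha
  intro a ha
  exact Subgroup.mem_centralizer_singleton_iff.1 (h1 ha)

theorem Blocks.comm_FT' {T₀ : Set I} {F : I → Subgroup E} (h : Blocks z φ T₀ F) {T T' : Set I}
    (hT : T ⊆ T₀) (hT' : T' ⊆ T₀) (hd : Disjoint T T') :
    ∀ a ∈ FT z F T, ∀ b ∈ FT z F T', a * b = b * a := by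
  intro a ha b hb
  refine h.comm_FT (fun i hi a ha => ?_) a ha
  exact (h.comm_FT (fun j hj b hb => (h.comm i (hT hi) j (hT' hj)
    (fun hij => (Set.disjoint_left.1 hd hi) (hij ▸ hj)) a ha b hb).symm) b hb).symm

theorem Blocks.inter_FT {T₀ : Set I} {F : I → Subgroup E} (h : Blocks z φ T₀ F) {T T' : Set I}
    (hT : T ⊆ T₀) (hT' : T' ⊆ T₀) (hd : Disjoint T T') :
    ∀ a ∈ FT z F T, a ∈ FT z F T' → a = 1 ∨ a = z := by
  intro a ha ha'
  apply h.top
  intro i hi b hb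
  by_cases hiT : i ∈ T
  · have h1 : Disjoint T' {i} := by
      rw [Set.disjoint_singleton_right]
      exact Set.disjoint_left.1 hd hiT
    exact (h.comm_FT' hT' (Set.singleton_subset_iff.2 hi) h1 a ha' b
      (le_FT (Set.mem_singleton i) hb)).symm
  · have h1 : Disjoint T {i} := by
      rw [Set.disjoint_singleton_right]
      exact hiT
    exact (h.comm_FT' hT (Set.singleton_subset_iff.2 hi) h1 a ha b
      (le_FT (Set.mem_singleton i) hb)).symm

theorem Blocks.act_FT {T₀ : Set I} {F : I → Subgroup E} (h : Blocks z φ T₀ F) {T T' : Set I}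
    (hT : T ⊆ T₀) (y : Y) (hy : ∀ i ∈ T, y • i ∈ T') :
    ∀ a ∈ FT z F T, φ y a ∈ FT z F T' := by
  have h1 : FT z F T ≤ (FT z F T').comap (φ y).toMonoidHom := by
    apply FT_le
    · show φ y z ∈ FT z F T'
      rw [h.ct.map_z]; exact z_mem_FT
    · intro i hi a ha
      exact le_FT (hy i hi) (h.act y i (hT hi) a ha)
  exact fun a ha => h1 ha

theorem Blocks.main {T₀ : Set I} {F : I → Subgroup E} (h : Blocks z φ T₀ F) (hp : IsPGroup 2 Y) :
    ∀ n : ℕ, ∀ T : Set I, T ⊆ T₀ → T.ncard = n → ∀ S' : Subgroup Y,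
      (∀ s ∈ S', ∀ i ∈ T, s • i ∈ T) → HL z (FT z F T) (φ.comp S'.subtype) := by
  intro n
  induction n using Nat.strong_induction_on with
  | _ n ih =>
    intro T hT hn S' hS'
    rcases T.eq_empty_or_nonempty with rfl | ⟨i, hi⟩
    · have h1 : FT z F (∅ : Set I) = Subgroup.zpowers z := by
        apply le_antisymm
        · exact FT_le (Subgroup.mem_zpowers z) (by simp)
        · exact (Subgroup.zpowers_le).2 z_mem_FT
      rw [h1]
      exact HL.zpow h.ct
    -- the orbit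
    set O : Set I := {j | ∃ s ∈ S', j = s • i} with hO
    have hOT : O ⊆ T := by
      rintro j ⟨s, hs, rfl⟩; exact hS' s hs i hi
    have hiO : i ∈ O := ⟨1, S'.one_mem, (one_smul _ _).symm⟩
    have hOinv : ∀ s ∈ S', ∀ j ∈ O, s • j ∈ O := by
      rintro s hs _ ⟨s', hs', rfl⟩
      exact ⟨s * s', S'.mul_mem hs hs', by rw [mul_smul]⟩
    by_cases hOT' : O = T
    swap
    · -- several orbits
      have h1 : O.ncard < n := by
        rw [← hn]
        exact Set.ncard_lt_ncard (lt_of_le_of_ne hOT hOT') (Set.toFinite _)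
      have h2 : (T \ O).ncard < n := by
        rw [← hn]
        apply Set.ncard_lt_ncard _ (Set.toFinite _)
        refine ⟨Set.sdiff_subset, fun hh => ?_⟩
        exact (hh hi).2 hiO
      have h3 := ih _ h1 O (hOT.trans hT) rfl S' hOinv
      have hinv2 : ∀ s ∈ S', ∀ j ∈ T \ O, s • j ∈ T \ O := by
        rintro s hs j ⟨hj1, hj2⟩
        refine ⟨hS' s hs j hj1, fun hh => hj2 ?_⟩
        have := hOinv s⁻¹ (S'.inv_mem hs) _ hh
        rwa [inv_smul_smul] at this
      have h4 := ih _ h2 (T \ O) (Set.sdiff_subset.trans hT) rfl S' hinv2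
      have hd : Disjoint O (T \ O) := Set.disjoint_sdiff_right
      have h5 := HL.sup (φ := φ.comp S'.subtype) h.ct.ne
        (h.comm_FT' (hOT.trans hT) (Set.sdiff_subset.trans hT) hd)
        (h.inter_FT (hOT.trans hT) (Set.sdiff_subset.trans hT) hd)
        (fun y => h.act_FT (hOT.trans hT) y (hOinv y y.2))
        (fun y => h.act_FT (Set.sdiff_subset.trans hT) y (hinv2 y y.2)) h3 h4
      rwa [← FT_union, Set.union_sdiff_cancel hOT] at h5
    · by_cases hst : ∀ s ∈ S', s • i = i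
      · -- a single block
        have h1 : T = {i} := by
          rw [← hOT', hO]
          ext j
          simp only [Set.mem_ofPred_eq, Set.mem_singleton_iff]
          constructor
          · rintro ⟨s, hs, rfl⟩; exact hst s hs
          · rintro rfl; exact ⟨1, S'.one_mem, (one_smul _ _).symm⟩
        have h2 : FT z F T = F i := by
          rw [h1]
          apply le_antisymm
          · apply FT_le (h.mem i (hT hi))
            rintro j rfl; exact le_rfl
          · exact le_FT (Set.mem_singleton i)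
        rw [h2]
        exact h.hl i (hT hi) S' hst
      · -- the swap
        push Not at hst
        obtain ⟨s₀, hs₀, hs₀i⟩ := hst
        obtain ⟨S₁, hS₁, hidx⟩ := TwoFusion.SqCount.exists_index_two (P := S')
          (hp.to_subgroup S') ((MulAction.stabilizer Y i).subgroupOf S') (by
            intro hh
            have : (⟨s₀, hs₀⟩ : S') ∈ (MulAction.stabilizer Y i).subgroupOf S' := by
              rw [hh]; trivial
            exact hs₀i this)
        obtain ⟨t, ht⟩ : ∃ t : S', t ∉ S₁ := by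
          by_contra hcon
          push Not at hcon
          have : S₁ = ⊤ := by
            rw [eq_top_iff]; exact fun x _ => hcon x
          rw [this, Subgroup.index_top] at hidx
          norm_num at hidx
        have hstab : ∀ s : S', (s : Y) • i = i → s ∈ S₁ := fun s hs => hS₁ hs
        set T₁ : Set I := {j | ∃ s : S', s ∈ S₁ ∧ j = (s : Y) • i} with hT₁
        set T₂ : Set I := {j | ∃ s : S', s ∈ S₁ ∧ j = ((t * s : S') : Y) • i} with hT₂
        have hT₁T : T₁ ⊆ T := by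
          rintro j ⟨s, -, rfl⟩; exact hS' s s.2 i hi
        have hT₂T : T₂ ⊆ T := by
          rintro j ⟨s, -, rfl⟩; exact hS' _ (t * s).2 i hi
        have hd : Disjoint T₁ T₂ := by
          rw [Set.disjoint_left]
          rintro j ⟨s, hs, rfl⟩ ⟨s', hs', hss⟩
          have h1 : (((t * s')⁻¹ * s : S') : Y) • i = i := by
            rw [Subgroup.coe_mul, mul_smul, hss, ← mul_smul, ← Subgroup.coe_mul, inv_mul_cancel,
              Subgroup.coe_one, one_smul]
          have h2 := hstab _ h1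
          have h3 : (t * s')⁻¹ ∈ S₁ := (Subgroup.mul_mem_cancel_right S₁ hs).1 h2
          have h4 : t * s' ∈ S₁ := S₁.inv_mem_iff.1 h3
          exact ht ((Subgroup.mul_mem_cancel_right S₁ hs').1 h4)
        have hU : T₁ ∪ T₂ = T := by
          apply Set.Subset.antisymm (Set.union_subset hT₁T hT₂T)
          intro j hj
          rw [← hOT'] at hj
          obtain ⟨s, hs, rfl⟩ := hj
          by_cases hs1 : (⟨s, hs⟩ : S') ∈ S₁
          · exact Or.inl ⟨⟨s, hs⟩, hs1, rfl⟩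
          · right
            refine ⟨t⁻¹ * ⟨s, hs⟩, ?_, ?_⟩
            · rw [Subgroup.mul_mem_iff_of_index_two hidx, S₁.inv_mem_iff]
              (clear * - ht hs1; tauto)
            · rw [mul_inv_cancel_left]
        have hT₂ne : T₂.Nonempty := ⟨((t * 1 : S') : Y) • i, 1, S₁.one_mem, rfl⟩
        have hcard : T₁.ncard < n := by
          rw [← hn]
          apply Set.ncard_lt_ncard _ (Set.toFinite _)
          refine ⟨hT₁T, fun hh => ?_⟩
          obtain ⟨j, hj⟩ := hT₂ne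
          exact Set.disjoint_left.1 hd (hh (hT₂T hj)) hj
        have hT₁inv : ∀ s ∈ S₁.map S'.subtype, ∀ j ∈ T₁, s • j ∈ T₁ := by
          rintro _ ⟨s, hs, rfl⟩ _ ⟨s', hs', rfl⟩
          refine ⟨s * s', S₁.mul_mem hs hs', ?_⟩
          rw [Subgroup.coe_mul, mul_smul]; rfl
        have h1 := ih _ hcard T₁ (hT₁T.trans hT) rfl (S₁.map S'.subtype) hT₁inv
        -- transport to `S₁`
        let f : S₁ →* S₁.map S'.subtype :=
          (S'.subtype.comp S₁.subtype).codRestrict _ (fun s => ⟨s.1, s.2, rfl⟩)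
        have h2 : HL z (FT z F T₁) ((φ.comp S'.subtype).comp S₁.subtype) := HL.comp h1 f
        have htT : ∀ j ∈ T₁, (t : Y) • j ∈ T₂ := by
          rintro _ ⟨s, hs, rfl⟩
          exact ⟨s, hs, by rw [Subgroup.coe_mul, mul_smul]⟩
        have htT' : ∀ j ∈ T₂, ((t⁻¹ : S') : Y) • j ∈ T₁ := by
          rintro _ ⟨s, hs, rfl⟩
          refine ⟨s, hs, ?_⟩
          rw [← mul_smul, ← Subgroup.coe_mul, inv_mul_cancel_left]
        have h3 := HL.swap (φ := φ.comp S'.subtype) h.ct.ne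
          (h.comm_FT' (hT₁T.trans hT) (hT₂T.trans hT) hd)
          (h.inter_FT (hT₁T.trans hT) (hT₂T.trans hT) hd) S₁ hidx t ht
          (fun y hy => h.act_FT (hT₁T.trans hT) y (hT₁inv y ⟨y, hy, rfl⟩))
          (fun e => ⟨fun he => by
            have h4 := h.act_FT (hT₂T.trans hT) ((t⁻¹ : S') : Y) htT' _ he
            have h5 : φ ((t⁻¹ : S') : Y) ((φ.comp S'.subtype) t e) = e := by
              show φ ((t⁻¹ : S') : Y) (φ (t : Y) e) = e
              rw [← MulAut.mul_apply, ← map_mul, ← Subgroup.coe_mul, inv_mul_cancel,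
                Subgroup.coe_one, map_one, MulAut.one_apply]
            rwa [h5] at h4, fun he => h.act_FT (hT₁T.trans hT) (t : Y) htT _ he⟩)
          (h.ct.map_z _) h2
        rwa [← FT_union, hU] at h3

end blocks

end Cfsg.Agent.H668.DadeE
end

-- part: H668/DadeF
section
/-!
# Lifts in the presence of an elementary abelian group without fixed points
-/

set_option autoImplicit false
set_option linter.unusedSectionVars false
set_option linter.style.haveILetI false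
open scoped Pointwise ComplexConjugate
open Cfsg Module

namespace Cfsg.Agent.H668.DadeF

open Cfsg.Agent.Characters.Core
open Cfsg.Agent.H668.DadeA Cfsg.Agent.H668.DadeB Cfsg.Agent.H668.DadeC Cfsg.Agent.H668.DadeD
  Cfsg.Agent.H668.DadeE

/-! ### Existence of spin representations -/

section spin

variable {E : Type*} [Group E] [Finite E] {z : E}

theorem trace_zero_of_neg {M : Type*} [AddCommGroup M] [Module ℂ M] {ρ : E →* (M ≃ₗ[ℂ] M)}
    (hE : CT E z) (hneg : ρ z = sc M (-1)) {x : E} (hx1 : x ≠ 1) (hxz : x ≠ z) :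
    LinearMap.trace ℂ M (ρ x : M →ₗ[ℂ] M) = 0 := by
  obtain ⟨y, hy⟩ : ∃ y, x * y ≠ y * x := by
    by_contra hcon
    push Not at hcon
    rcases hE.cen x hcon with h1 | h1
    · exact hx1 h1
    · exact hxz h1
  have h1 : x * y = z * (y * x) := (hE.comm x y).resolve_left hy
  have h2 : y * x * y⁻¹ = z * x := by
    have h3 : y * x = z * (x * y) := by
      rw [h1, ← mul_assoc, hE.sq, one_mul]
    rw [h3]; group
  have h4 : LinearMap.trace ℂ M (ρ (y * x * y⁻¹) : M →ₗ[ℂ] M) = LinearMap.trace ℂ M (ρ x : M →ₗ[ℂ] M) := by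
    rw [map_mul, map_mul, map_inv]
    exact trace_conj _ _
  have h5 : ((ρ (z * x) : M ≃ₗ[ℂ] M) : M →ₗ[ℂ] M) = -(ρ x : M →ₗ[ℂ] M) := by
    rw [map_mul, hneg]
    ext v
    simp only [sc_apply, _root_.LinearEquiv.coe_toLinearMap_mul, _root_.Module.End.mul_apply, _root_.LinearEquiv.coe_coe, _root_.Cfsg.Agent.H668.DadeA.sc_apply, _root_.Units.val_neg, _root_.Units.val_one, _root_.neg_smul, _root_.one_smul, _root_.LinearMap.neg_apply]
  rw [h2, h5, map_neg] at h4
  have : (2 : ℂ) * LinearMap.trace ℂ M (ρ x : M →ₗ[ℂ] M) = 0 := by linear_combination -h4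
  simpa only [_root_.mul_eq_zero, _root_.OfNat.ofNat_ne_zero, _root_.false_or] using this

theorem spin_of_irr (hE : CT E z) {n : ℕ} (r : Representation ℂ E (Fin n → ℂ))
    (hr : r.IsIrreducible) (hz : r z ≠ 1) :
    ∃ ρ : E →* ((Fin n → ℂ) ≃ₗ[ℂ] (Fin n → ℂ)), Spin z ρ ∧
      ∀ e, (ρ e : (Fin n → ℂ) →ₗ[ℂ] (Fin n → ℂ)) = r e := by
  classical
  haveI := Fintype.ofFinite E
  have hV : Nontrivial (Fin n → ℂ) := ((CharactersDeep.InvRep.isIrreducible_iff r).1 hr).1
  obtain ⟨c, hc⟩ := CharactersDeep.InvRep.exists_smul_of_comm r hr (r z) (fun g => by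
    rw [← map_mul, ← map_mul, hE.zcomm])
  obtain ⟨v, hv⟩ := exists_ne (0 : Fin n → ℂ)
  have hcc : c * c = 1 := by
    have h1 : r z * r z = 1 := by rw [← map_mul, hE.sq, map_one]
    rw [hc] at h1
    have h2 := congrArg (fun f : Module.End ℂ (Fin n → ℂ) => f v) h1
    have h3 : (c * c) • v = (1 : ℂ) • v := by
      rw [one_smul, mul_smul]; exact h2
    exact smul_left_injective ℂ hv h3
  have hc1 : c = -1 := by
    rcases mul_self_eq_one_iff.1 hcc with h1 | h1
    · exfalso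
      apply hz
      rw [hc, h1, one_smul]
    · exact h1
  let ρ : E →* ((Fin n → ℂ) ≃ₗ[ℂ] (Fin n → ℂ)) :=
    (LinearMap.GeneralLinearGroup.generalLinearEquiv ℂ (Fin n → ℂ)).toMonoidHom.comp r.toHomUnits
  have hρ : ∀ e, (ρ e : (Fin n → ℂ) →ₗ[ℂ] (Fin n → ℂ)) = r e := fun e => rfl
  have hneg : ρ z = sc (Fin n → ℂ) (-1) := by
    apply LinearEquiv.toLinearMap_injective
    rw [hρ, hc, hc1, sc_coe]
    rfl
  refine ⟨ρ, ⟨hneg, ?_⟩, hρ⟩
  -- the order
  have hχ : IsIrrCharacter E r.character := ⟨n, r, hr, rfl⟩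
  have h1 := classInner_irr_self hχ
  rw [classInner_def] at h1
  have hval : ∀ x : E, r.character x =
      if x = 1 then (n : ℂ) else if x = z then -(n : ℂ) else 0 := by
    intro x
    split_ifs with a1 a2
    · rw [a1, Representation.char_one]; simp only [_root_.Module.finrank_fintype_fun_eq_card, _root_.Fintype.card_fin]
    · rw [a2]
      show LinearMap.trace ℂ _ (r z) = _
      rw [hc, hc1, map_smul]
      simp only [_root_.LinearMap.trace_one, _root_.Module.finrank_fintype_fun_eq_card, _root_.Fintype.card_fin, _root_.smul_eq_mul, _root_.neg_mul, _root_.one_mul]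
    · have := trace_zero_of_neg hE hneg a1 a2
      rw [hρ] at this
      exact this
  have h2 : ∑ g : E, r.character g * conj (r.character g) = 2 * (n : ℂ) ^ 2 := by
    have h2 : ∀ g : E, r.character g * conj (r.character g) =
        (if g = 1 then (n : ℂ) ^ 2 else 0) + (if g = z then (n : ℂ) ^ 2 else 0) := by
      intro g
      rw [hval]
      by_cases h3 : g = 1
      · have h4 : g ≠ z := by rw [h3]; exact fun h5 => hE.ne h5.symm
        rw [if_pos h3, if_pos h3, if_neg h4]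
        simp [sq]
      · by_cases h4 : g = z
        · rw [if_neg h3, if_pos h4, if_neg h3, if_pos h4]
          simp only [sq, _root_.map_neg, _root_.map_natCast, _root_.mul_neg, _root_.neg_mul, _root_.neg_neg, _root_.sq, _root_.zero_add]
        · rw [if_neg h3, if_neg h4, if_neg h3, if_neg h4]
          simp
    rw [Finset.sum_congr rfl fun g _ => h2 g, Finset.sum_add_distrib]
    simp only [_root_.Finset.sum_ite_eq', _root_.Finset.mem_univ, ↓ _root_.reduceIte]
    ring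
  rw [h2] at h1
  have h3 : (Nat.card E : ℂ) ≠ 0 := Nat.cast_ne_zero.2 Nat.card_pos.ne'
  have h4 : (Nat.card E : ℂ) = 2 * (n : ℂ) ^ 2 := by
    field_simp at h1
    linear_combination -h1
  rw [Module.finrank_fin_fun]
  exact_mod_cast h4

theorem exists_spin (hE : CT E z) : ∃ (n : ℕ) (ρ : E →* ((Fin n → ℂ) ≃ₗ[ℂ] (Fin n → ℂ))),
    Spin z ρ := by
  obtain ⟨n, r, hr, hz⟩ := S0184.exists_irreducible_ne_one z hE.ne
  obtain ⟨ρ, hρ, -⟩ := spin_of_irr hE r hr hz
  exact ⟨n, ρ, hρ⟩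

end spin

/-! ### Restriction of automorphisms -/

section res

variable {E : Type*} [Group E] {Y : Type*} [Group Y]

/-- Restriction of an action to an invariant subgroup. -/
def resAut (φ : Y →* MulAut E) (F : Subgroup E) (hF : ∀ y, ∀ e ∈ F, φ y e ∈ F) :
    Y →* MulAut F where
  toFun y :=
    { toFun := fun e => ⟨φ y e, hF y e e.2⟩
      invFun := fun e => ⟨φ y⁻¹ e, hF y⁻¹ e e.2⟩
      left_inv := fun e => by
        apply Subtype.ext
        show φ y⁻¹ (φ y e) = e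
        rw [map_inv, MulAut.inv_apply_self]
      right_inv := fun e => by
        apply Subtype.ext
        show φ y (φ y⁻¹ e) = e
        rw [map_inv, MulAut.apply_inv_self]
      map_mul' := fun a b => by
        apply Subtype.ext
        show φ y (a * b) = φ y a * φ y b
        rw [map_mul] }
  map_one' := by
    ext e
    show φ 1 e = e
    rw [map_one, MulAut.one_apply]
  map_mul' := fun a b => by
    ext e
    show φ (a * b) e = φ a (φ b e)
    rw [map_mul, MulAut.mul_apply]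

/-- From a lift on the group `F` to lift data. -/
theorem HL.of_hasLift [Finite E] {z : E} {F : Subgroup E} (hz : z ∈ F) {φ : Y →* MulAut E}
    (hF : ∀ y, ∀ e ∈ F, φ y e ∈ F) {M : Type} [AddCommGroup M] [Module ℂ M]
    [FiniteDimensional ℂ M] {ρ : F →* (M ≃ₗ[ℂ] M)} (h : Spin (⟨z, hz⟩ : F) ρ)
    (hl : HasLift (resAut φ F hF) ρ) : HL z F φ := by
  classical
  obtain ⟨L, hL⟩ := hl
  refine ⟨M, inferInstance, inferInstance, inferInstance,
    fun e => if he : e ∈ F then ρ ⟨e, he⟩ else 1, L, ?_, hz, ?_, h.card, ?_⟩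
  · intro a ha b hb
    rw [dif_pos (F.mul_mem ha hb), dif_pos ha, dif_pos hb, ← map_mul]
    rfl
  · rw [dif_pos hz]; exact h.neg
  · intro y e he he'
    rw [dif_pos he, dif_pos he']
    exact hL y ⟨e, he⟩

end res

end Cfsg.Agent.H668.DadeF
end

-- part: H668/DadeG
section
/-!
# Lifts in the presence of an elementary abelian group without fixed points, continued
-/

set_option autoImplicit false
set_option linter.unusedSectionVars false
set_option linter.style.haveILetI false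
open scoped Pointwise ComplexConjugate
open Cfsg Module

namespace Cfsg.Agent.H668.DadeG

open Cfsg.Agent.Lib.CoprimeHyperplane
open Cfsg.Agent.H668.DadeA Cfsg.Agent.H668.DadeB Cfsg.Agent.H668.DadeC Cfsg.Agent.H668.DadeD
  Cfsg.Agent.H668.DadeE Cfsg.Agent.H668.DadeF

variable {E : Type*} [Group E] [Finite E] {z : E}

theorem CT.sq_mem (hE : CT E z) (x : E) : x * x = 1 ∨ x * x = z := by
  apply hE.cen
  intro y
  rcases hE.comm x y with h | h
  · rw [mul_assoc, h, ← mul_assoc, h, mul_assoc]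
  · have h1 : x * (x * y) = z * (z * (y * x * x)) := by
      rw [h, ← mul_assoc x, hE.zcomm, mul_assoc z, ← mul_assoc x, h]
      group
    rw [mul_assoc, h1, ← mul_assoc, hE.sq, one_mul, mul_assoc]

theorem CT.isPGroup (hE : CT E z) : IsPGroup 2 E := by
  intro x
  refine ⟨2, ?_⟩
  have h1 : x ^ 2 ^ 2 = (x * x) * (x * x) := by
    rw [← pow_two, ← pow_two, ← pow_mul]
    norm_num
  rw [h1]
  rcases CT.sq_mem hE x with h | h
  · rw [h, one_mul]
  · rw [h, hE.sq]

/-- An automorphism of odd order. -/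
theorem odd_fix (hE : CT E z) {x : MulAut E} {n : ℕ} (hn : Odd n) (hx : x ^ n = 1) {e : E}
    (h : x e = e ∨ x e = z * e) : x e = e := by
  rcases h with h | h
  · exact h
  · exfalso
    have h1 : ∀ m : ℕ, (x ^ m) e = z ^ m * e := by
      intro m
      induction m with
      | zero => simp
      | succ m ih =>
        rw [pow_succ', MulAut.mul_apply, ih, map_mul, map_pow, hE.map_z, h, ← mul_assoc, pow_succ]
    have h2 := h1 n
    rw [hx, MulAut.one_apply] at h2
    obtain ⟨k, hk⟩ := hn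
    rw [hk, pow_succ, pow_mul, pow_two, hE.sq, one_pow, one_mul] at h2
    exact hE.ne (right_eq_mul.1 h2)

/-- The fixed points of `B`. -/
def Fx (B : Subgroup (MulAut E)) : Subgroup E where
  carrier := {e | ∀ b ∈ B, b e = e}
  one_mem' := fun b _ => map_one _
  mul_mem' := fun {x y} hx hy b hb => by rw [map_mul, hx b hb, hy b hb]
  inv_mem' := fun {x} hx b hb => by rw [map_inv, hx b hb]

theorem z_mem_Fx (hE : CT E z) (B : Subgroup (MulAut E)) : z ∈ Fx B := fun b _ => hE.map_z b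

/-- The hypotheses of the elementary abelian case. -/
structure EA (z : E) (Q : Subgroup (MulAut E)) (q : ℕ) : Prop where
  ct : CT E z
  prime : q.Prime
  odd : Odd q
  comm : ∀ a ∈ Q, ∀ b ∈ Q, a * b = b * a
  pow : ∀ a ∈ Q, a ^ q = 1
  fix : ∀ e ∈ Fx Q, e = 1 ∨ e = z

variable {Q : Subgroup (MulAut E)} {q : ℕ}

theorem EA.not_dvd (h : EA z Q q) (N : Subgroup E) : ¬ q ∣ Nat.card N := by
  obtain ⟨n, hn⟩ := (IsPGroup.iff_card.1 ((CT.isPGroup h.ct).to_subgroup N))
  rw [hn]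
  intro hh
  have h1 := h.prime.dvd_of_dvd_pow hh
  have h2 := (Nat.prime_dvd_prime_iff_eq h.prime Nat.prime_two).1 h1
  have := h.odd
  rw [h2] at this
  exact absurd this (by decide)

theorem Fx_inv (h : EA z Q q) {B : Subgroup (MulAut E)} (hB : B ≤ Q) :
    ∀ k : Q, ∀ e ∈ Fx B, Q.subtype k e ∈ Fx B := by
  intro k e he b hb
  show b ((k : MulAut E) e) = (k : MulAut E) e
  rw [← MulAut.mul_apply, h.comm b (hB hb) k k.2, MulAut.mul_apply, he b hb]

theorem sup_eq (h : EA z Q q) {B : Subgroup (MulAut E)} (hB : B ≤ Q) (hBi : B.relIndex Q = q)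
    {K : Subgroup (MulAut E)} (hK : K ≤ Q) (hKB : ¬ K ≤ B) : B ⊔ K = Q := by
  apply le_antisymm (sup_le hB hK)
  have h1 := Subgroup.relIndex_mul_relIndex B (B ⊔ K) Q le_sup_left (sup_le hB hK)
  rw [hBi] at h1
  have h2 : B.relIndex (B ⊔ K) ≠ 1 := by
    intro hh
    rw [Subgroup.relIndex_eq_one] at hh
    exact hKB (le_sup_right.trans hh)
  rcases (Nat.dvd_prime h.prime).1 (Dvd.intro _ h1) with h3 | h3
  · exact absurd h3 h2
  · rw [h3] at h1
    have h4 : (B ⊔ K).relIndex Q = 1 := by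
      have := h.prime.pos
      exact Nat.eq_of_mul_eq_mul_left this (by rw [h1, mul_one])
    exact Subgroup.relIndex_eq_one.1 h4

theorem Fx_sup {B K : Subgroup (MulAut E)} {e : E} (h1 : e ∈ Fx B) (h2 : e ∈ Fx K) :
    e ∈ Fx (B ⊔ K) := by
  have h3 : B ⊔ K ≤ MulAction.stabilizer (MulAut E) e := by
    apply sup_le
    · exact fun b hb => h1 b hb
    · exact fun b hb => h2 b hb
  exact fun b hb => h3 hb

/-- Different hyperplanes have commuting fixed points. -/
theorem comm_Fx (h : EA z Q q) {B B' : Subgroup (MulAut E)} (hB : B ≤ Q) (hBi : B.relIndex Q = q)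
    (hB' : B' ≤ Q) (hBi' : B'.relIndex Q = q) (hne : B ≠ B') :
    ∀ a ∈ Fx B, ∀ b ∈ Fx B', a * b = b * a := by
  haveI : Fact q.Prime := ⟨h.prime⟩
  letI : CommGroup Q := { (inferInstance : Group Q) with
    mul_comm := fun a b => Subtype.ext (h.comm a a.2 b b.2) }
  have hle : ¬ B' ≤ B := by
    intro hh
    apply hne
    have h1 := Subgroup.relIndex_mul_relIndex B' B Q hh hB
    rw [hBi, hBi'] at h1
    have h2 : B'.relIndex B = 1 := Nat.eq_of_mul_eq_mul_right h.prime.pos (by rw [h1, one_mul])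
    exact le_antisymm (Subgroup.relIndex_eq_one.1 h2) hh
  have hsup : B ⊔ B' = Q := sup_eq h hB hBi hB' hle
  intro a ha b hb
  -- the centralizer
  set N : Subgroup E := Fx B ⊓ Subgroup.centralizer (Fx B' : Set E) with hN
  have hpg : IsPGroup q (B'.subgroupOf Q) := by
    intro x
    refine ⟨1, ?_⟩
    rw [pow_one]
    apply Subtype.ext
    apply Subtype.ext
    exact h.pow _ x.1.2
  have hcl : ∀ {a a' c ε : E}, a * c = ε * (c * a) → a' * c = ε * (c * a') →
      c * (a⁻¹ * a') = a⁻¹ * a' * c := by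
    intro a a' c ε h1 h2
    have h3 : ε * c = a * c * a⁻¹ := by
      rw [eq_mul_inv_iff_mul_eq, mul_assoc, h1]
    rw [mul_assoc a⁻¹, h2, ← mul_assoc ε, h3]
    group
  obtain ⟨y, hy, hay⟩ := exists_fixed_in_coset (A := Q) (R := E) Q.subtype hpg (N := N)
    (h.not_dvd N) (by
      intro k hk x hx
      obtain ⟨hx1, hx2⟩ := Subgroup.mem_inf.1 hx
      refine Subgroup.mem_inf.2 ⟨Fx_inv h hB k x hx1, ?_⟩
      rw [Subgroup.mem_centralizer_iff]
      intro c hc
      have h3 : (k : MulAut E)⁻¹ c ∈ Fx B' := Fx_inv h hB' k⁻¹ c hc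
      have h4 := Subgroup.mem_centralizer_iff.1 hx2 _ h3
      have h5 := congrArg (k : MulAut E) h4
      rw [map_mul, map_mul, MulAut.apply_inv_self] at h5
      exact h5) a (by
      intro k hk
      have hk' : (k : MulAut E) ∈ B' := hk
      refine Subgroup.mem_inf.2 ⟨(Fx B).mul_mem ((Fx B).inv_mem ha) (Fx_inv h hB k a ha), ?_⟩
      rw [Subgroup.mem_centralizer_iff]
      intro c hc
      have hkc : (k : MulAut E) c = c := hc k hk'
      show c * (a⁻¹ * (k : MulAut E) a) = a⁻¹ * (k : MulAut E) a * c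
      rcases h.ct.comm a c with h6 | h6
      · have h7 := congrArg (k : MulAut E) h6
        rw [map_mul, map_mul, hkc] at h7
        exact hcl (ε := 1) (by rw [one_mul]; exact h6) (by rw [one_mul]; exact h7)
      · have h7 := congrArg (k : MulAut E) h6
        rw [map_mul, map_mul, map_mul, hkc, h.ct.map_z] at h7
        exact hcl h6 h7)
  obtain ⟨h1, h2⟩ := Subgroup.mem_inf.1 hay
  have h3 : y ∈ Fx B := by
    have := (Fx B).mul_mem ha h1
    rwa [mul_inv_cancel_left] at this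
  have h4 : y ∈ Fx B' := fun k hk => hy ⟨k, hB' hk⟩ hk
  have h5 : y = 1 ∨ y = z := h.fix y (by rw [← hsup]; exact Fx_sup h3 h4)
  have h6 : b * (a⁻¹ * y) = a⁻¹ * y * b := Subgroup.mem_centralizer_iff.1 h2 b hb
  have h7 : y * b = b * y := by
    rcases h5 with rfl | rfl
    · rw [one_mul, mul_one]
    · rw [h.ct.zcomm]
  have h8 : b * a⁻¹ = a⁻¹ * b := by
    have h9 : b * a⁻¹ * y = a⁻¹ * b * y := by
      rw [mul_assoc, h6, mul_assoc, h7, ← mul_assoc]
    exact mul_right_cancel h9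
  rw [eq_inv_mul_iff_mul_eq, ← mul_assoc, mul_inv_eq_iff_eq_mul] at h8
  exact h8

theorem EA.iSup_Fx (h : EA z Q q) (hQ : Q ≠ ⊥) {K : Subgroup E}
    (hK : ∀ B : Subgroup (MulAut E), B ≤ Q → B.relIndex Q = q → Fx B ≤ K) : K = ⊤ := by
  haveI : Fact q.Prime := ⟨h.prime⟩
  letI : CommGroup Q := { (inferInstance : Group Q) with
    mul_comm := fun a b => Subtype.ext (h.comm a a.2 b b.2) }
  haveI : Nontrivial Q := (Subgroup.nontrivial_iff_ne_bot Q).2 hQ
  haveI : Finite (MulAut E) := Finite.of_injective (fun f : MulAut E => (f : E → E))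
    DFunLike.coe_injective
  have h1 := iSup_fix_eq_top_of_isPGroup (A := Q) (R := E) Q.subtype (p := q) (q := 2) (by
    rintro rfl
    exact absurd h.odd (by decide)) (fun a => Subtype.ext (h.pow a a.2)) (CT.isPGroup h.ct)
  rw [eq_top_iff, ← h1]
  apply iSup_le
  rintro ⟨B, hB⟩
  have h2 : B.map Q.subtype ≤ Q := Subgroup.map_subtype_le B
  have h3 : (B.map Q.subtype).relIndex Q = q := by
    rw [← hB, Subgroup.relIndex, Subgroup.subgroupOf, Subgroup.comap_map_eq_self_of_injective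
      (Subgroup.subtype_injective Q)]
  refine le_trans ?_ (hK _ h2 h3)
  intro e he
  rintro _ ⟨b, hb, rfl⟩
  exact he b hb

theorem CT.sub {F : Subgroup E} (hE : CT E z) (hz : z ∈ F)
    (hc : ∀ x ∈ F, (∀ y ∈ F, x * y = y * x) → x = 1 ∨ x = z) : CT F ⟨z, hz⟩ where
  ne := fun hh => hE.ne (congrArg Subtype.val hh)
  sq := Subtype.ext hE.sq
  comm := fun x y => (hE.comm x y).imp (fun hh => Subtype.ext hh) (fun hh => Subtype.ext hh)
  zcomm := fun x => Subtype.ext (hE.zcomm x)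
  cen := fun x hx => (hc x x.2 (fun y hy => congrArg Subtype.val (hx ⟨y, hy⟩))).imp
    (fun hh => Subtype.ext hh) (fun hh => Subtype.ext hh)

/-- The lift on one block. -/
theorem EA.block (h : EA z Q q) {B : Subgroup (MulAut E)} (hB : B ≤ Q) (hBi : B.relIndex Q = q)
    (htop : ∀ x ∈ Fx B, (∀ y ∈ Fx B, x * y = y * x) → x = 1 ∨ x = z)
    {Y : Type*} [Group Y] [Finite Y] (hY : IsPGroup 2 Y) (φ : Y →* MulAut E)
    (hφ : ∀ y, ∀ k ∈ Q, φ y * k * (φ y)⁻¹ ∈ Q) (hF : ∀ y, ∀ e ∈ Fx B, φ y e ∈ Fx B) :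
    HL z (Fx B) φ := by
  classical
  haveI : Fact q.Prime := ⟨h.prime⟩
  haveI : Finite (MulAut E) := Finite.of_injective (fun f : MulAut E => (f : E → E))
    DFunLike.coe_injective
  have hct : CT (Fx B) ⟨z, z_mem_Fx h.ct B⟩ := CT.sub h.ct _ htop
  obtain ⟨n, ρ, hρ⟩ := exists_spin hct
  obtain ⟨x, hxQ, hxB⟩ : ∃ x ∈ Q, x ∉ B := by
    by_contra hcon
    push Not at hcon
    have h1 : Q ≤ B := hcon
    rw [Subgroup.relIndex_eq_one.2 h1] at hBi
    exact h.prime.one_lt.ne hBi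
  have hsup : B ⊔ Subgroup.zpowers x = Q :=
    sup_eq h hB hBi (Subgroup.zpowers_le.2 hxQ) (fun hh => hxB (hh (Subgroup.mem_zpowers x)))
  have hcop : (Nat.card Y).Coprime q := by
    obtain ⟨m, hm⟩ := IsPGroup.iff_card.1 hY
    rw [hm]
    exact (Nat.coprime_two_left.2 h.odd).pow_left m
  apply HL.of_hasLift (z_mem_Fx h.ct B) hF hρ
  refine base hct hρ (x := resAut Q.subtype (Fx B) (Fx_inv h hB) ⟨x, hxQ⟩) ?_ ?_ hcop _ ?_
  · rw [← map_pow]
    have : (⟨x, hxQ⟩ : Q) ^ q = 1 := Subtype.ext (h.pow x hxQ)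
    rw [this, map_one]
  · intro e he
    have h1 : x (e : E) = e := odd_fix h.ct h.odd (h.pow x hxQ)
      (he.imp (fun hh => congrArg Subtype.val hh) (fun hh => congrArg Subtype.val hh))
    have h2 : (e : E) ∈ Fx (Subgroup.zpowers x) := by
      have h3 : Subgroup.zpowers x ≤ MulAction.stabilizer (MulAut E) (e : E) :=
        Subgroup.zpowers_le.2 h1
      exact fun b hb => h3 hb
    have h4 := h.fix (e : E) (by rw [← hsup]; exact Fx_sup e.2 h2)
    exact h4.imp (fun hh => Subtype.ext hh) (fun hh => Subtype.ext hh)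
  · intro s
    have h1 : φ s * x * (φ s)⁻¹ ∈ B ⊔ Subgroup.zpowers x := by
      rw [hsup]; exact hφ s x hxQ
    obtain ⟨b, hb, y, hy, hg⟩ := (mem_sup_of_comm (F₁ := B) (F₂ := Subgroup.zpowers x)
      (fun a ha c hc => h.comm a (hB ha) c
        ((Subgroup.zpowers_le.2 hxQ : Subgroup.zpowers x ≤ Q) hc))).1 h1
    have hfin : IsOfFinOrder x := isOfFinOrder_of_finite x
    obtain ⟨k, hk⟩ := hfin.mem_powers_iff_mem_zpowers.2 hy
    have hk' : x ^ k = y := hk
    refine ⟨k, ?_⟩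
    apply MulEquiv.ext
    intro e
    apply Subtype.ext
    rw [← map_inv, ← map_pow]
    show φ s (x (φ s⁻¹ (e : E))) = (x ^ k) (e : E)
    have h2 : φ s (x (φ s⁻¹ (e : E))) = (φ s * x * (φ s)⁻¹) (e : E) := by
      rw [map_inv]; rfl
    rw [h2, hg, ← hk', MulAut.mul_apply]
    exact Fx_inv h hB ⟨x ^ k, Q.pow_mem hxQ k⟩ e e.2 b hb

/-- **The elementary abelian case.** -/
theorem EA.main (h : EA z Q q) {Y : Type*} [Group Y] [Finite Y] (hY : IsPGroup 2 Y)
    (φ : Y →* MulAut E) (hφ : ∀ y, ∀ k ∈ Q, φ y * k * (φ y)⁻¹ ∈ Q) : HL z ⊤ φ := by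
  classical
  haveI : Finite (MulAut E) := Finite.of_injective (fun f : MulAut E => (f : E → E))
    DFunLike.coe_injective
  by_cases hQ : Q = ⊥
  · have h1 : (⊤ : Subgroup E) = Subgroup.zpowers z := by
      symm
      rw [eq_top_iff]
      intro e _
      rw [mem_zpowers_z h.ct]
      apply h.fix
      intro b hb
      rw [hQ, Subgroup.mem_bot] at hb
      rw [hb]; rfl
    rw [h1]
    exact HL.zpow h.ct
  letI act : MulAction Y (Subgroup (MulAut E)) :=
    MulAction.compHom (Subgroup (MulAut E)) ((MulAut.conj : MulAut E →* MulAut (MulAut E)).comp φ)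
  have hsm : ∀ (y : Y) (B : Subgroup (MulAut E)), y • B = MulAut.conj (φ y) • B := fun _ _ => rfl
  have hmem : ∀ (y : Y) (B : Subgroup (MulAut E)) (b : MulAut E),
      b ∈ y • B ↔ (φ y)⁻¹ * b * φ y ∈ B := by
    intro y B b
    rw [hsm, Subgroup.mem_pointwise_smul_iff_inv_smul_mem]
    have : (MulAut.conj (φ y))⁻¹ • b = (φ y)⁻¹ * b * φ y := by
      rw [← map_inv, MulAut.smul_def, MulAut.conj_apply, inv_inv]
    rw [this]
  have hQinv : ∀ y : Y, y • Q = Q := by
    intro y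
    ext b
    rw [hmem]
    constructor
    · intro hb
      have := hφ y _ hb
      have h2 : φ y * ((φ y)⁻¹ * b * φ y) * (φ y)⁻¹ = b := by group
      rwa [h2] at this
    · intro hb
      have := hφ y⁻¹ _ hb
      rw [map_inv, inv_inv] at this
      exact this
  set T₀ : Set (Subgroup (MulAut E)) := {B | B ≤ Q ∧ B.relIndex Q = q} with hT₀
  have hT₀inv : ∀ (y : Y), ∀ B ∈ T₀, y • B ∈ T₀ := by
    rintro y B ⟨hB, hBi⟩
    constructor
    · rw [← hQinv y]
      intro b hb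
      rw [hmem] at hb ⊢
      exact hB hb
    · have h1 := Subgroup.relIndex_pointwise_smul (MulAut.conj (φ y)) B Q
      rw [← hsm, ← hsm, hQinv, hBi] at h1
      exact h1
  have hactF : ∀ (y : Y) (B : Subgroup (MulAut E)), ∀ a ∈ Fx B, φ y a ∈ Fx (y • B) := by
    intro y B a ha b hb
    rw [hmem] at hb
    have h1 := ha _ hb
    rw [MulAut.mul_apply, MulAut.mul_apply] at h1
    have h2 := congrArg (φ y) h1
    rwa [MulAut.apply_inv_self] at h2
  have htop : ∀ e : E, (∀ B ∈ T₀, ∀ a ∈ Fx B, a * e = e * a) → e = 1 ∨ e = z := by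
    intro e he
    apply h.ct.cen
    have h1 : Subgroup.centralizer ({e} : Set E) = ⊤ := by
      apply h.iSup_Fx hQ
      intro B hB hBi a ha
      rw [Subgroup.mem_centralizer_singleton_iff]
      exact he B ⟨hB, hBi⟩ a ha
    intro y
    have h2 : y ∈ Subgroup.centralizer ({e} : Set E) := by rw [h1]; trivial
    exact (Subgroup.mem_centralizer_singleton_iff.1 h2).symm
  have hbl : Blocks z φ T₀ (fun B => Fx B) := by
    refine ⟨h.ct, fun B _ => z_mem_Fx h.ct B, ?_, fun y B _ => hactF y B, htop, ?_⟩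
    · rintro B ⟨hB, hBi⟩ B' ⟨hB', hBi'⟩ hne
      exact comm_Fx h hB hBi hB' hBi' hne
    · rintro B ⟨hB, hBi⟩ S' hS'
      apply h.block hB hBi ?_ (hY.to_subgroup S') (φ.comp S'.subtype)
      · intro y; exact hφ y
      · intro y e he
        have h1 := hactF y B e he
        rwa [hS' y y.2] at h1
      · intro x hx hxc
        apply htop
        rintro B' ⟨hB', hBi'⟩ a ha
        by_cases hne : B = B'
        · subst hne; exact (hxc a ha).symm
        · exact (comm_Fx h hB hBi hB' hBi' hne x hx a ha).symm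
  have h1 := hbl.main hY _ T₀ le_rfl rfl ⊤ (fun s _ B hB => hT₀inv s B hB)
  have h2 : FT z (fun B : Subgroup (MulAut E) => Fx B) T₀ = ⊤ := by
    apply h.iSup_Fx hQ
    intro B hB hBi
    exact le_FT (F := fun B : Subgroup (MulAut E) => Fx B) (show B ∈ T₀ from ⟨hB, hBi⟩)
  rw [h2] at h1
  exact HL.comp h1 ((MonoidHom.id Y).codRestrict ⊤ (fun _ => trivial))

end Cfsg.Agent.H668.DadeG
end

-- part: H668/DadeH
section
/-!
# Lifts in the presence of a solvable group of odd order without fixed points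
-/

set_option autoImplicit false
set_option linter.unusedSectionVars false
set_option linter.style.haveILetI false
open scoped Pointwise ComplexConjugate commutatorElement
open Cfsg Module

namespace Cfsg.Agent.H668.DadeH

open Cfsg.Agent.Lib.CoprimeHyperplane
open Cfsg.Agent.H668.DadeA Cfsg.Agent.H668.DadeB Cfsg.Agent.H668.DadeC Cfsg.Agent.H668.DadeD
  Cfsg.Agent.H668.DadeE Cfsg.Agent.H668.DadeF Cfsg.Agent.H668.DadeG

/-- A nontrivial solvable subgroup has a nontrivial abelian subgroup of prime exponent which is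
normalized by everything normalizing it. -/
theorem exists_elemAb {G : Type*} [Group G] [Finite G] {K : Subgroup G} (hK : K ≠ ⊥)
    (hs : Group.IsSolvable K) : ∃ (q : ℕ) (Q : Subgroup G), q.Prime ∧ Q ≤ K ∧ Q ≠ ⊥ ∧
      (∀ a ∈ Q, ∀ b ∈ Q, a * b = b * a) ∧ (∀ a ∈ Q, a ^ q = 1) ∧
      ∀ g : G, (∀ k ∈ K, g * k * g⁻¹ ∈ K) → ∀ k ∈ Q, g * k * g⁻¹ ∈ Q := by
  classical
  have hex := hs.solvable
  set n := Nat.find hex with hn
  have hn1 : derivedSeries K n = ⊥ := Nat.find_spec hex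
  have hn0 : n ≠ 0 := by
    intro h0
    rw [h0, derivedSeries_zero] at hn1
    apply hK
    rw [Subgroup.eq_bot_iff_forall]
    intro x hx
    have : (⟨x, hx⟩ : K) ∈ (⊥ : Subgroup K) := by rw [← hn1]; trivial
    exact congrArg Subtype.val (Subgroup.mem_bot.1 this)
  obtain ⟨m, hm⟩ := Nat.exists_eq_succ_of_ne_zero hn0
  have hm1 : derivedSeries K m ≠ ⊥ := Nat.find_min hex (by omega)
  set A : Subgroup K := derivedSeries K m with hA
  have hcomm : ∀ a ∈ A, ∀ b ∈ A, a * b = b * a := by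
    intro a ha b hb
    have h1 : ⁅A, A⁆ = ⊥ := by rw [← hn1, hm]; rfl
    have h2 : ⁅a, b⁆ ∈ ⁅A, A⁆ := Subgroup.commutator_mem_commutator ha hb
    rw [h1, Subgroup.mem_bot, commutatorElement_eq_one_iff_mul_comm] at h2
    exact h2
  obtain ⟨q, hq, hqd⟩ := Nat.exists_prime_and_dvd (n := Nat.card A) (by
    intro h1
    exact hm1 (Subgroup.card_eq_one.1 h1))
  haveI : Fact q.Prime := ⟨hq⟩
  obtain ⟨x, hx⟩ := exists_prime_orderOf_dvd_card' q hqd
  let Q0 : Subgroup K :=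
    { carrier := {a | a ∈ A ∧ a ^ q = 1}
      one_mem' := ⟨A.one_mem, one_pow _⟩
      mul_mem' := by
        rintro a b ⟨ha, ha'⟩ ⟨hb, hb'⟩
        refine ⟨A.mul_mem ha hb, ?_⟩
        rw [(show Commute a b from hcomm a ha b hb).mul_pow, ha', hb', one_mul]
      inv_mem' := by
        rintro a ⟨ha, ha'⟩
        refine ⟨A.inv_mem ha, ?_⟩
        rw [inv_pow, ha', inv_one] }
  have hQ0 : ∀ a, a ∈ Q0 ↔ a ∈ A ∧ a ^ q = 1 := fun _ => Iff.rfl
  refine ⟨q, Q0.map K.subtype, hq, Subgroup.map_subtype_le _, ?_, ?_, ?_, ?_⟩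
  · intro hh
    have h1 : Q0 = ⊥ := (Subgroup.map_eq_bot_iff_of_injective _ K.subtype_injective).1 hh
    have h2 : (x : K) ∈ Q0 := by
      rw [hQ0]
      refine ⟨x.2, ?_⟩
      have : x ^ q = 1 := by rw [← hx, pow_orderOf_eq_one]
      exact congrArg Subtype.val this
    rw [h1, Subgroup.mem_bot] at h2
    have h3 : x = 1 := Subtype.ext h2
    rw [h3, orderOf_one] at hx
    exact hq.one_lt.ne hx
  · rintro _ ⟨a, ha, rfl⟩ _ ⟨b, hb, rfl⟩
    exact congrArg Subtype.val (hcomm a ha.1 b hb.1)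
  · rintro _ ⟨a, ha, rfl⟩
    exact congrArg Subtype.val ha.2
  · rintro g hg _ ⟨a, ha, rfl⟩
    let c : K →* K :=
      { toFun := fun k => ⟨g * k * g⁻¹, hg k k.2⟩
        map_one' := by apply Subtype.ext; simp
        map_mul' := fun a b => by
          apply Subtype.ext
          show g * (a * b) * g⁻¹ = (g * a * g⁻¹) * (g * b * g⁻¹)
          group }
    refine ⟨c a, ⟨?_, ?_⟩, rfl⟩
    · exact map_derivedSeries_le_derivedSeries c m ⟨a, ha.1, rfl⟩
    · rw [← map_pow, ha.2, map_one]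

/-- Transfer of lift data from the whole group. -/
theorem HL.of_top {E : Type*} [Group E] [Finite E] {z : E} {F : Subgroup E} (hz : z ∈ F)
    {Y : Type*} [Group Y] {φ : Y →* MulAut E} (hF : ∀ y, ∀ e ∈ F, φ y e ∈ F)
    (h : HL (⟨z, hz⟩ : F) ⊤ (resAut φ F hF)) : HL z F φ := by
  classical
  obtain ⟨M, i1, i2, i3, r, L, H⟩ := h
  refine ⟨M, i1, i2, i3, fun e => if he : e ∈ F then r ⟨e, he⟩ else 1, L, ?_, hz, ?_, ?_, ?_⟩
  · intro a ha b hb
    rw [dif_pos (F.mul_mem ha hb), dif_pos ha, dif_pos hb]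
    exact H.mul ⟨a, ha⟩ trivial ⟨b, hb⟩ trivial
  · rw [dif_pos hz]; exact H.neg
  · rw [← H.card, Subgroup.card_top]
  · intro y e he he'
    rw [dif_pos he, dif_pos he']
    exact H.imp y ⟨e, he⟩ trivial trivial

theorem commute_lem {E : Type*} [Group E] {a a' c ε : E} (h1 : a * c = ε * (c * a))
    (h2 : a' * c = ε * (c * a')) : c * (a⁻¹ * a') = a⁻¹ * a' * c := by
  have h3 : ε * c = a * c * a⁻¹ := by
    rw [eq_mul_inv_iff_mul_eq, mul_assoc, h1]
  rw [mul_assoc a⁻¹, h2, ← mul_assoc ε, h3]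
  group

theorem Fx_map {E : Type*} [Group E] [Finite E] {Q : Subgroup (MulAut E)} {g : MulAut E}
    (hg : ∀ k ∈ Q, g⁻¹ * k * g ∈ Q) : ∀ e ∈ Fx Q, g e ∈ Fx Q := by
  intro e he k hk
  have h1 := he _ (hg k hk)
  rw [MulAut.mul_apply, MulAut.mul_apply] at h1
  have h2 := congrArg g h1
  rwa [MulAut.apply_inv_self] at h2

universe u v

theorem main : ∀ n : ℕ, ∀ (E : Type u) [Group E] [Finite E] (z : E), CT E z → Nat.card E = n →
    ∀ K : Subgroup (MulAut E), Odd (Nat.card K) → Group.IsSolvable K →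
    (∀ e ∈ Fx K, e = 1 ∨ e = z) → ∀ (Y : Type v) [Group Y] [Finite Y], IsPGroup 2 Y →
    ∀ φ : Y →* MulAut E, (∀ y, ∀ k ∈ K, φ y * k * (φ y)⁻¹ ∈ K) → HL z ⊤ φ := by
  intro n
  induction n using Nat.strong_induction_on with
  | _ n ih =>
    intro E _ _ z hE hn K hKo hKs hKf Y _ _ hY φ hφ
    classical
    haveI : Finite (MulAut E) := Finite.of_injective (fun f : MulAut E => (f : E → E))
      DFunLike.coe_injective
    by_cases hK : K = ⊥
    · have h1 : (⊤ : Subgroup E) = Subgroup.zpowers z := by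
        symm
        rw [eq_top_iff]
        intro e _
        rw [mem_zpowers_z hE]
        apply hKf
        intro b hb
        rw [hK, Subgroup.mem_bot] at hb
        rw [hb]; rfl
      rw [h1]
      exact HL.zpow hE
    obtain ⟨q, Q, hq, hQK, hQ1, hQc, hQp, hQn⟩ := exists_elemAb hK hKs
    haveI : Fact q.Prime := ⟨hq⟩
    have hqodd : Odd q := by
      apply hq.odd_of_ne_two
      rintro rfl
      obtain ⟨x, hxQ, hx1⟩ := (Subgroup.ne_bot_iff_exists_ne_one).1 hQ1 |>.elim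
        (fun x hx => (⟨x.1, x.2, fun h => hx (Subtype.ext h)⟩ : ∃ x ∈ Q, x ≠ 1))
      have h1 : orderOf (⟨x, hQK hxQ⟩ : K) = 2 := by
        apply orderOf_eq_prime
        · exact Subtype.ext (hQp x hxQ)
        · exact fun hh => hx1 (congrArg Subtype.val hh)
      have h2 := orderOf_dvd_natCard (⟨x, hQK hxQ⟩ : K)
      rw [h1] at h2
      exact (Nat.not_even_iff_odd.2 hKo) (even_iff_two_dvd.2 h2)
    have hφQ : ∀ y, ∀ k ∈ Q, φ y * k * (φ y)⁻¹ ∈ Q := fun y => hQn _ (hφ y)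
    have hKQ : ∀ g ∈ K, ∀ k ∈ Q, g * k * g⁻¹ ∈ Q := fun g hg => hQn g fun k hk =>
      K.mul_mem (K.mul_mem hg hk) (K.inv_mem hg)
    by_cases hfix : ∀ e ∈ Fx Q, e = 1 ∨ e = z
    · exact EA.main ⟨hE, hq, hqodd, hQc, hQp, hfix⟩ hY φ hφQ
    -- the decomposition
    set E₁ : Subgroup E := Fx Q with hE₁
    set E₂ : Subgroup E := Subgroup.centralizer (E₁ : Set E) with hE₂
    have hzz : ∀ F : Subgroup E, z ∈ Subgroup.centralizer (F : Set E) := by
      intro F
      rw [Subgroup.mem_centralizer_iff]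
      intro x _
      exact hE.zcomm x
    have hz1 : z ∈ E₁ := z_mem_Fx hE Q
    have hz2 : z ∈ E₂ := hzz _
    have hc : ∀ a ∈ E₁, ∀ b ∈ E₂, a * b = b * a := fun a ha b hb =>
      Subgroup.mem_centralizer_iff.1 hb a ha
    -- invariance under normalizers
    have hinv1 : ∀ g : MulAut E, (∀ k ∈ Q, g⁻¹ * k * g ∈ Q) → ∀ e ∈ E₁, g e ∈ E₁ :=
      fun g hg => Fx_map hg
    have hinv2 : ∀ g : MulAut E, (∀ k ∈ Q, g * k * g⁻¹ ∈ Q) → ∀ e ∈ E₂, g e ∈ E₂ := by
      intro g hg e he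
      rw [hE₂, Subgroup.mem_centralizer_iff]
      intro c hc'
      have h1 : g⁻¹ c ∈ E₁ := hinv1 g⁻¹ (by rw [inv_inv]; exact hg) c hc'
      have h2 := Subgroup.mem_centralizer_iff.1 he _ h1
      have h3 := congrArg g h2
      rw [map_mul, map_mul, MulAut.apply_inv_self] at h3
      exact h3
    have hφ1 : ∀ y, ∀ e ∈ E₁, φ y e ∈ E₁ := fun y => hinv1 _ (by
      have := hφQ y⁻¹
      rw [map_inv, inv_inv] at this
      exact this)
    have hφ2 : ∀ y, ∀ e ∈ E₂, φ y e ∈ E₂ := fun y => hinv2 _ (hφQ y)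
    have hK1 : ∀ k : K, ∀ e ∈ E₁, K.subtype k e ∈ E₁ := fun k => hinv1 _ (by
      have := hKQ _ (K.inv_mem k.2)
      rw [inv_inv] at this
      exact this)
    have hK2 : ∀ k : K, ∀ e ∈ E₂, K.subtype k e ∈ E₂ := fun k => hinv2 _ (hKQ _ k.2)
    -- `E = E₁ E₂`
    have hsup : E₁ ⊔ E₂ = ⊤ := by
      letI : CommGroup Q := { (inferInstance : Group Q) with
        mul_comm := fun a b => Subtype.ext (hQc a a.2 b b.2) }
      rw [eq_top_iff]
      intro e _
      have hpg : IsPGroup q ((⊤ : Subgroup Q)) := by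
        intro x
        refine ⟨1, ?_⟩
        rw [pow_one]
        apply Subtype.ext
        apply Subtype.ext
        exact hQp _ x.1.2
      have hnd : ¬ q ∣ Nat.card E₂ := by
        obtain ⟨m, hm⟩ := (IsPGroup.iff_card.1 ((CT.isPGroup hE).to_subgroup E₂))
        rw [hm]
        intro hh
        have h1 := hq.dvd_of_dvd_pow hh
        have h2 := (Nat.prime_dvd_prime_iff_eq hq Nat.prime_two).1 h1
        rw [h2] at hqodd
        exact absurd hqodd (by decide)
      obtain ⟨y, hy, hay⟩ := exists_fixed_in_coset (A := Q) (R := E) Q.subtype hpg (N := E₂) hnd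
        (fun k _ x hx => hK2 ⟨k, hQK k.2⟩ x hx) e (by
        intro k _
        rw [hE₂, Subgroup.mem_centralizer_iff]
        intro c hc'
        have hkc : (k : MulAut E) c = c := hc' k k.2
        show c * (e⁻¹ * (k : MulAut E) e) = e⁻¹ * (k : MulAut E) e * c
        rcases hE.comm e c with h6 | h6
        · have h7 := congrArg (k : MulAut E) h6
          rw [map_mul, map_mul, hkc] at h7
          exact commute_lem (ε := 1) (by rw [one_mul]; exact h6) (by rw [one_mul]; exact h7)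
        · have h7 := congrArg (k : MulAut E) h6
          rw [map_mul, map_mul, map_mul, hkc, hE.map_z] at h7
          exact commute_lem h6 h7)
      have hy' : y ∈ E₁ := fun k hk => hy ⟨k, hk⟩ trivial
      rw [mem_sup_of_comm hc]
      refine ⟨y, hy', (e⁻¹ * y)⁻¹, E₂.inv_mem hay, ?_⟩
      group
    have hcen : ∀ e : E, (∀ a ∈ E₁, e * a = a * e) → (∀ b ∈ E₂, e * b = b * e) →
        e = 1 ∨ e = z := by
      intro e h1 h2
      apply hE.cen
      intro y
      have hy : y ∈ E₁ ⊔ E₂ := by rw [hsup]; trivial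
      obtain ⟨a, ha, b, hb, rfl⟩ := (mem_sup_of_comm hc).1 hy
      rw [← mul_assoc, h1 a ha, mul_assoc, h2 b hb, mul_assoc]
    have hi : ∀ a ∈ E₁, a ∈ E₂ → a = 1 ∨ a = z := by
      intro a ha1 ha2
      apply hcen
      · intro b hb; exact (hc b hb a ha2).symm
      · intro b hb; exact hc a ha1 b hb
    have hne1 : E₁ ≠ ⊤ := by
      intro hh
      apply hQ1
      rw [Subgroup.eq_bot_iff_forall]
      intro k hk
      ext e
      have : e ∈ E₁ := by rw [hh]; trivial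
      exact this k hk
    have hne2 : E₂ ≠ ⊤ := by
      intro hh
      apply hfix
      intro e he
      apply hi e he
      rw [hh]; trivial
    -- induction
    have key : ∀ F : Subgroup E, F ≠ ⊤ → z ∈ F → (∀ x ∈ F, (∀ y ∈ F, x * y = y * x) → x = 1 ∨ x = z) →
        (∀ k : K, ∀ e ∈ F, K.subtype k e ∈ F) → (∀ y, ∀ e ∈ F, φ y e ∈ F) → HL z F φ := by
      intro F hFt hzF hFc hFK hFφ
      apply HL.of_top hzF hFφ
      have hlt : Nat.card F < n := by
        rw [← hn]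
        exact lt_of_le_of_ne (Subgroup.card_le_card_group F)
          (fun hh => hFt (Subgroup.eq_top_of_card_eq F hh))
      refine ih _ hlt F ⟨z, hzF⟩ (CT.sub hE hzF hFc) rfl (resAut K.subtype F hFK).range ?_ ?_ ?_ Y hY
        (resAut φ F hFφ) ?_
      · have h1 := Subgroup.card_range_dvd (resAut K.subtype F hFK)
        exact Odd.of_dvd_nat hKo h1
      · exact Group.isSolvable_of_surjective (MonoidHom.rangeRestrict_surjective _)
      · intro e he
        have h1 : (e : E) ∈ Fx K := by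
          intro k hk
          have := he _ ⟨⟨k, hk⟩, rfl⟩
          exact congrArg Subtype.val this
        exact (hKf e h1).imp (fun hh => Subtype.ext hh) (fun hh => Subtype.ext hh)
      · rintro y _ ⟨k, rfl⟩
        refine ⟨⟨φ y * k * (φ y)⁻¹, hφ y k k.2⟩, ?_⟩
        ext e
        rw [← map_inv (resAut φ F hFφ) y]
        show (φ y * k * (φ y)⁻¹) (e : E) = φ y ((k : MulAut E) (φ y⁻¹ (e : E)))
        rw [map_inv]; rfl
    have k1 := key E₁ hne1 hz1 (fun x hx hx' => hcen x hx' (fun b hb => hc x hx b hb)) hK1 hφ1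
    have k2 := key E₂ hne2 hz2 (fun x hx hx' => hcen x (fun a ha => (hc a ha x hx).symm) hx') hK2 hφ2
    have k3 := HL.sup hE.ne hc hi hφ1 hφ2 k1 k2
    rwa [hsup] at k3

end Cfsg.Agent.H668.DadeH
end

-- part: H668/DadeI
section
/-!
# From Sylow subgroups to the whole group; assembly
-/

set_option autoImplicit false
set_option linter.unusedSectionVars false
set_option linter.style.haveILetI false
open scoped Pointwise ComplexConjugate commutatorElement
open Cfsg Module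

namespace Cfsg.Agent.H668.DadeI

open Cfsg.Agent.H668.DadeA Cfsg.Agent.H668.DadeB Cfsg.Agent.H668.DadeC Cfsg.Agent.H668.DadeD
  Cfsg.Agent.H668.DadeE Cfsg.Agent.H668.DadeF Cfsg.Agent.H668.DadeG Cfsg.Agent.H668.DadeH

section lift

variable {E : Type*} [Group E] [Finite E] {z : E} {M : Type*} [AddCommGroup M] [Module ℂ M]
  [FiniteDimensional ℂ M] {ρ : E →* (M ≃ₗ[ℂ] M)} {Y : Type*} [Group Y]

theorem hasLift_of_HL (hE : CT E z) (hρ : Spin z ρ) (φ : Y →* MulAut E) (h : HL z ⊤ φ) :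
    HasLift φ ρ := by
  obtain ⟨M', i1, i2, i3, r, L, H⟩ := h
  let ρ' : E →* (M' ≃ₗ[ℂ] M') := MonoidHom.mk' r (fun a b => H.mul a trivial b trivial)
  have hρ' : Spin z ρ' := ⟨H.neg, by rw [← H.card, Subgroup.card_top]⟩
  obtain ⟨e, he⟩ := hρ.equiv hE hρ'
  refine ⟨{ toFun := fun y => (e.trans (L y)).trans e.symm
            map_one' := by
              ext v
              show e.symm (L 1 (e v)) = v
              rw [map_one]
              exact e.symm_apply_apply v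
            map_mul' := fun a b => by
              ext v
              show e.symm (L (a * b) (e v)) = e.symm (L a (e (e.symm (L b (e v)))))
              rw [map_mul, e.apply_symm_apply]; rfl }, fun y x => ?_⟩
  ext v
  show e.symm (L y (e (ρ x v))) = ρ (φ y x) (e.symm (L y (e v)))
  rw [he, e.symm_apply_eq, he, e.apply_symm_apply]
  exact congrArg (fun B : M' ≃ₗ[ℂ] M' => B (e v)) (H.imp y x trivial trivial)

theorem hasLift_of_index (hE : CT E z) (hρ : Spin z ρ) [Finite Y] (φ : Y →* MulAut E)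
    (S : Subgroup Y) (hS : Nat.Coprime S.index (finrank ℂ M))
    (h : HasLift (φ.comp S.subtype) ρ) : HasLift φ ρ := by
  classical
  haveI := nontriv hρ
  obtain ⟨L, hL⟩ := h
  let π : Gam φ ρ →* Y := (MonoidHom.fst Y (M ≃ₗ[ℂ] M)).comp (Gam φ ρ).subtype
  have hπ : Function.Surjective π := by
    intro y
    obtain ⟨A, hA⟩ := hρ.exists_impl hE (φ y)
    exact ⟨⟨(y, A), hA⟩, rfl⟩
  let ΓS : Subgroup (Gam φ ρ) := S.comap π
  have hidx : ΓS.index = S.index := Subgroup.index_comap_of_surjective S hπ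
  haveI : ΓS.FiniteIndex := ⟨by rw [hidx]; exact Subgroup.index_ne_zero_of_finite⟩
  have hc : ∀ p : ΓS, ∃ c : ℂˣ, p.1.1.2 = sc M c * L ⟨p.1.1.1, p.2⟩ := fun p =>
    imp_unique hE hρ p.1.2 (hL ⟨p.1.1.1, p.2⟩)
  choose c hc using hc
  let F : ΓS →* ℂˣ := MonoidHom.mk' c (by
    intro p p'
    have h1 := hc (p * p')
    have h2 : (p * p').1.1.2 = p.1.1.2 * p'.1.1.2 := rfl
    have h3 : L ⟨(p * p').1.1.1, (p * p').2⟩ = L ⟨p.1.1.1, p.2⟩ * L ⟨p'.1.1.1, p'.2⟩ := by
      rw [← map_mul]; rfl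
    rw [h2, h3, hc p, hc p'] at h1
    have h4 : sc M (c p) * L ⟨p.1.1.1, p.2⟩ * (sc M (c p') * L ⟨p'.1.1.1, p'.2⟩) =
        sc M (c p * c p') * (L ⟨p.1.1.1, p.2⟩ * L ⟨p'.1.1.1, p'.2⟩) := by
      rw [mul_assoc, ← mul_assoc (L ⟨p.1.1.1, p.2⟩), ← sc_comm, map_mul]
      simp only [mul_assoc]
    rw [h4] at h1
    exact (sc_inj (mul_right_cancel h1)).symm)
  have hFsc : ∀ (a : ℂˣ) (h : scG φ ρ a ∈ ΓS), F ⟨scG φ ρ a, h⟩ = a := by
    intro a h
    have h1 := hc ⟨scG φ ρ a, h⟩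
    have h2 : L ⟨(⟨scG φ ρ a, h⟩ : ΓS).1.1.1, h⟩ = 1 := by
      have : (⟨(⟨scG φ ρ a, h⟩ : ΓS).1.1.1, h⟩ : S) = 1 := rfl
      rw [this, map_one]
    rw [h2, mul_one] at h1
    exact (sc_inj h1).symm
  have hmem : ∀ a : ℂˣ, scG φ ρ a ∈ ΓS := fun a => S.one_mem
  apply hasLift_of_exponent hE hρ φ (MonoidHom.transfer F) S.index hS
  intro a
  rw [MonoidHom.transfer_eq_pow F (scG φ ρ a) (by
    intro k g _
    rw [← map_pow, mul_assoc, scG_comm, inv_mul_cancel_left])]
  have h1 : (⟨(scG φ ρ a) ^ ΓS.index, MonoidHom.transfer_eq_pow_aux (scG φ ρ a) (by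
      intro k g _
      rw [← map_pow, mul_assoc, scG_comm, inv_mul_cancel_left])⟩ : ΓS) =
      ⟨scG φ ρ (a ^ ΓS.index), hmem _⟩ := by
    apply Subtype.ext
    exact (map_pow (scG φ ρ) a ΓS.index).symm
  rw [h1, hFsc, hidx]

end lift

/-- Extraspecial 2-groups. -/
theorem exists_CT {E : Type*} [Group E] (hE : Cfsg.IsExtraspecial 2 E) : ∃ z : E, CT E z := by
  obtain ⟨⟨hp, hf, hc⟩, hcard⟩ := hE
  obtain ⟨z, hz, hzu⟩ := (Nat.card_eq_two_iff' (1 : Subgroup.center E)).1 hcard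
  have hcen : ∀ x ∈ Subgroup.center E, x = 1 ∨ x = z := by
    intro x hx
    by_cases h1 : (⟨x, hx⟩ : Subgroup.center E) = 1
    · left; exact congrArg Subtype.val h1
    · right; exact congrArg Subtype.val (hzu ⟨x, hx⟩ h1)
  refine ⟨z, ⟨?_, ?_, ?_, ?_, ?_⟩⟩
  · intro h; exact hz (Subtype.ext h)
  · rcases hcen (z * z) ((Subgroup.center E).mul_mem z.2 z.2) with h | h
    · exact h
    · exfalso
      exact hz (Subtype.ext (mul_eq_left.1 h))
  · intro x y
    have h1 : ⁅x, y⁆ ∈ Subgroup.center E := by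
      rw [← hc]
      exact Subgroup.commutator_mem_commutator (Subgroup.mem_top x) (Subgroup.mem_top y)
    have h2 : x * y = ⁅x, y⁆ * (y * x) := by
      rw [commutatorElement_def]; group
    rcases hcen _ h1 with h | h
    · left; rw [h2, h, one_mul]
    · right; rw [h2, h]
  · intro x; exact (Subgroup.mem_center_iff.1 z.2 x)
  · intro x hx
    exact hcen x (Subgroup.mem_center_iff.2 fun y => (hx y).symm)

end Cfsg.Agent.H668.DadeI
end

-- part: S4759
section
set_option autoImplicit false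
open Cfsg

namespace Cfsg.Agent.S4759

open Module
open scoped commutatorElement
open Cfsg.Agent.H668.DadeA Cfsg.Agent.H668.DadeB Cfsg.Agent.H668.DadeC Cfsg.Agent.H668.DadeD
  Cfsg.Agent.H668.DadeE Cfsg.Agent.H668.DadeF Cfsg.Agent.H668.DadeG Cfsg.Agent.H668.DadeH
  Cfsg.Agent.H668.DadeI

/-- Let G be a finite group that is the semidirect product of a normal extraspecial 2-subgroup E and a complement H acting faithfully on E (no non-identity element of H centralizes E), and suppose H has a normal subgroup K of odd order with [E, K] = E. Then every faithful irreducible character θ of E (there is exactly one) extends to G: some irreducible character of G restricts to θ on E. -/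
theorem result {G : Type*} [Group G] [Finite G] (E H : Subgroup G) [E.Normal] (hE : Cfsg.IsExtraspecial 2 ↥E) (hEH : E ⊓ H = ⊥) (hEHtop : E ⊔ H = ⊤) (hfaith : ∀ h ∈ H, (∀ e ∈ E, h * e = e * h) → h = 1) (K : Subgroup G) (hKH : K ≤ H) (hKn : ∀ h ∈ H, ∀ k ∈ K, h * k * h⁻¹ ∈ K) (hKodd : Odd (Nat.card ↥K)) (hEK : ⁅E, K⁆ = E) (θ : Cfsg.IrrCharacter ↥E) (hθ : ∀ e : ↥E, (θ : ↥E → ℂ) e = (θ : ↥E → ℂ) 1 → e = 1) : ∃ χ : Cfsg.IrrCharacter G, ∀ e : ↥E, (χ : G → ℂ) e = (θ : ↥E → ℂ) e := by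
  classical
  obtain ⟨z, ct⟩ := exists_CT hE
  obtain ⟨n, r, hr, hrθ⟩ := θ.2
  have hz : r z ≠ 1 := by
    intro hh
    apply ct.ne
    apply hθ
    rw [← hrθ]
    show LinearMap.trace ℂ _ (r z) = LinearMap.trace ℂ _ (r 1)
    rw [hh, map_one r]
  obtain ⟨ρ, hρ, hρr⟩ := spin_of_irr ct r hr hz
  -- the action
  let φ : H →* MulAut E := (MulAut.conjNormal : G →* MulAut E).comp H.subtype
  have hφv : ∀ (h : H) (e : E), ((φ h e : E) : G) = h * e * (h : G)⁻¹ := fun h e => rfl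
  let K' : Subgroup (MulAut E) := K.map (MulAut.conjNormal : G →* MulAut E)
  have hK'odd : Odd (Nat.card K') :=
    Odd.of_dvd_nat hKodd (Subgroup.card_map_dvd K _)
  have hK'sol : Group.IsSolvable K' := by
    have := Cfsg.Agent.S0205.result (G := K) hKodd
    exact Group.isSolvable_of_surjective
      ((MulAut.conjNormal : G →* MulAut E).subgroupMap_surjective K)
  have hfix : ∀ e ∈ Fx K', e = 1 ∨ e = z := by
    intro e he
    have hek : ∀ k ∈ K, (MulAut.conjNormal k : MulAut E) e = e := fun k hk => he _ ⟨k, hk, rfl⟩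
    have hle : ⁅E, K⁆ ≤ Subgroup.centralizer ({(e : G)} : Set G) := by
      rw [Subgroup.commutator_le]
      intro x hx k hk
      rw [Subgroup.mem_centralizer_singleton_iff]
      have hc : ∃ ε : E, (MulAut.conjNormal k : MulAut E) ε = ε ∧
          (⟨x, hx⟩ : E)⁻¹ * e = ε * (e * (⟨x, hx⟩ : E)⁻¹) := by
        rcases ct.comm (⟨x, hx⟩ : E)⁻¹ e with h | h
        · exact ⟨1, map_one _, by rw [one_mul]; exact h⟩
        · exact ⟨z, ct.map_z _, h⟩
      obtain ⟨ε, hε, h1⟩ := hc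
      have h2 := congrArg (MulAut.conjNormal k : MulAut E) h1
      rw [map_mul, map_mul, map_mul, hε, hek k hk] at h2
      have h3 := commute_lem h1 h2
      have h4 := congrArg (Subtype.val : E → G) h3
      have h5 : (((⟨x, hx⟩ : E)⁻¹⁻¹ * (MulAut.conjNormal k : MulAut E) (⟨x, hx⟩ : E)⁻¹ : E) : G) =
          ⁅x, k⁆ := by
        rw [commutatorElement_def]
        show (x⁻¹)⁻¹ * (k * x⁻¹ * k⁻¹) = _
        group
      rw [Subgroup.coe_mul, h5] at h4
      rw [h4, Subgroup.coe_mul, h5]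
    apply ct.cen
    intro y
    have h1 : (y : G) ∈ ⁅E, K⁆ := by rw [hEK]; exact y.2
    apply Subtype.ext
    exact (Subgroup.mem_centralizer_singleton_iff.1 (hle h1)).symm
  -- the Sylow subgroup
  obtain ⟨S⟩ : Nonempty (Sylow 2 H) := inferInstance
  have h1 : HL z ⊤ (φ.comp (S : Subgroup H).subtype) := by
    refine Cfsg.Agent.H668.DadeH.main _ E z ct rfl K' hK'odd hK'sol hfix (S : Subgroup H) S.2
      (φ.comp (S : Subgroup H).subtype) ?_
    rintro s _ ⟨k, hk, rfl⟩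
    refine ⟨(s : H) * k * ((s : H) : G)⁻¹, hKn _ (s : H).2 k hk, ?_⟩
    rw [map_mul, map_mul, map_inv]
    rfl
  have h2 := hasLift_of_HL ct hρ _ h1
  have hcop : Nat.Coprime (S : Subgroup H).index (finrank ℂ (Fin n → ℂ)) := by
    obtain ⟨m, hm⟩ := IsPGroup.iff_card.1 hE.1.1
    have h3 : finrank ℂ (Fin n → ℂ) ∣ 2 ^ m := by
      rw [← hm, hρ.card]
      exact Dvd.dvd.mul_left (dvd_pow_self _ two_ne_zero) _
    apply Nat.Coprime.of_dvd_right h3
    apply Nat.Coprime.pow_right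
    rw [Nat.coprime_comm, Nat.Prime.coprime_iff_not_dvd Nat.prime_two]
    exact S.not_dvd_index
  obtain ⟨L, hL⟩ := hasLift_of_index ct hρ φ (S : Subgroup H) hcop h2
  -- the extension
  have hcompl : E.IsComplement' H := by
    apply Subgroup.isComplement'_of_disjoint_and_mul_eq_univ
    · rw [disjoint_iff]; exact hEH
    · rw [← Subgroup.normal_mul, hEHtop]; rfl
  let iso := SemidirectProduct.mulEquivSubgroup hcompl
  let f := SemidirectProduct.lift (φ := (E.normalizerMonoidHom).comp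
    (Subgroup.inclusion (E.normalizer_eq_top ▸ le_top))) ρ L (by
    intro h
    ext1 e
    show ρ (φ h e) = L h * ρ e * (L h)⁻¹
    rw [eq_mul_inv_iff_mul_eq, hL])
  let σ : G →* ((Fin n → ℂ) ≃ₗ[ℂ] (Fin n → ℂ)) := f.comp iso.symm.toMonoidHom
  have hσ : ∀ e : E, σ e = ρ e := by
    intro e
    have h3 : iso (SemidirectProduct.inl e) = (e : G) := by
      show E.subtype e * H.subtype 1 = e
      rw [map_one, mul_one]; rfl
    have h4 : iso.symm (e : G) = SemidirectProduct.inl e := by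
      rw [← h3, iso.symm_apply_apply]
    show f (iso.symm (e : G)) = ρ e
    rw [h4]
    exact SemidirectProduct.lift_inl _ _ _ _
  have hσr : ∀ e : E, rep σ (e : G) = r e := by
    intro e
    rw [rep_apply, hσ, hρr]
  have hirr : (rep σ).IsIrreducible := by
    apply CharactersDeep.InvRep.isIrreducible_of_comp E.subtype
    have h3 : (rep σ).comp E.subtype = r := by
      ext1 e
      exact hσr e
    rw [h3]; exact hr
  refine ⟨⟨(rep σ).character, n, rep σ, hirr, rfl⟩, ?_⟩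
  intro e
  rw [← hrθ]
  show LinearMap.trace ℂ _ (rep σ (e : G)) = LinearMap.trace ℂ _ (r e)
  rw [hσr]

end Cfsg.Agent.S4759
end

private theorem dce_527d7383278b : _root_.True := by
  try have : _root_.True := by simp only [_root_.LinearEquiv.smulOfUnit.eq_1]
  exact _root_.True.intro
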