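import Mathlib
import Cfsg.Agent.H675.Nd.PG5
import Cfsg.Agent.Blocks.Deflate
import Cfsg.Statements.S4780
set_option linter.all false

-- part: H675/Nd/PG6
section
/-!
# The Sylow subgroup: general facts on the levels
-/

set_option autoImplicit false
set_option linter.style.haveILetI false
set_option linter.unusedSectionVars false
open Cfsg

namespace Cfsg.Agent.H675.Nd

open Cfsg.Agent.Characters.Core Cfsg.Agent.Characters.Clifford Cfsg.Agent.H672 Cfsg.Agent.H672.RM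
open Cfsg.Agent.H597.FrobA
open scoped commutatorElement

universe u v w

section lev

variable {G : Type u} [Group G] [Finite G] {P K : Subgroup G} [hP : P.Normal] [hK : K.Normal]
  {p : ℕ}

theorem surj_of_fp {n : ℕ} {g : G}
    (hg : ∀ ν : L P n →* ℂˣ, (∀ k ∈ L P (n + 1), ev ν k = 1) → cl g ν = ν → ν = 1)
    {ν : L P n →* ℂˣ} (hν : ∀ k ∈ L P (n + 1), ev ν k = 1) :
    ∃ ν' : L P n →* ℂˣ, (∀ k ∈ L P (n + 1), ev ν' k = 1) ∧ ν = cl g ν' * ν'⁻¹ := by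
  classical
  haveI := finite_lin (L P n)
  have hle : L P (n + 1) ≤ L P n := L_anti P (Nat.le_succ n)
  let Λ := LK (L P n) (L P (n + 1))
  have hΛ : ∀ l, l ∈ Λ ↔ ∀ k ∈ L P (n + 1), ev l k = 1 := fun l => mem_LK_ev hle
  let f : Λ → Λ := fun l => ⟨Df g l.1, Λ.mul_mem (cl_mem_LK g l.2) (Λ.inv_mem l.2)⟩
  have hf : Function.Injective f := by
    intro a b hab
    have h1 : Df g a.1 = Df g b.1 := congrArg Subtype.val hab
    have h3 : cl g (a.1 * b.1⁻¹) = a.1 * b.1⁻¹ := by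
      apply ev_ext
      intro d _
      have h6 := congrArg (fun l => ev l d) h1
      simp only [Df_apply, ev_hmul, ev_hinv] at h6
      rw [cl_hmul, cl_hinv, ev_hmul, ev_hmul, ev_hinv, ev_hinv, ← div_eq_mul_inv,
        ← div_eq_mul_inv, div_eq_div_iff_mul_eq_mul]
      rw [← div_eq_mul_inv, ← div_eq_mul_inv, div_eq_div_iff_mul_eq_mul] at h6
      rw [h6, mul_comm]
    have h4 : a.1 * b.1⁻¹ ∈ Λ := Λ.mul_mem a.2 (Λ.inv_mem b.2)
    have h5 : a.1 * b.1⁻¹ = 1 := hg _ ((hΛ _).1 h4) h3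
    exact Subtype.ext (lin_mul_inv_eq_one h5)
  obtain ⟨l, hl⟩ := Finite.surjective_of_injective hf ⟨ν, (hΛ ν).2 hν⟩
  refine ⟨l.1, (hΛ _).1 l.2, ?_⟩
  exact (congrArg Subtype.val hl).symm

/-- An element without nontrivial fixed points on `Lin(γ_n / γ_{n+1})`. -/
theorem fp_L {n : ℕ} {g : G}
    (hg : ∀ ν : L P n →* ℂˣ, (∀ k ∈ L P (n + 1), ev ν k = 1) → cl g ν = ν → ν = 1) {z : G}
    (hz : z ∈ L P n) (hc : g * z * g⁻¹ * z⁻¹ ∈ L P (n + 1)) : z ∈ L P (n + 1) := by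
  refine sep_L hz fun ν hν => ?_
  obtain ⟨ν', hν', rfl⟩ := surj_of_fp hg hν
  have hz' : g * z * g⁻¹ ∈ L P n := (inferInstance : (L P n).Normal).conj_mem z hz g
  rw [ev_hmul, ev_hinv, ev_cl g ν' hz, ← ev_inv ν' hz, ← ev_mul ν' hz' ((L P n).inv_mem hz)]
  exact hν' _ hc

/-- An element acting trivially on `Lin(γ_n / γ_{n+1})`. -/
theorem triv_L {n : ℕ} {g : G}
    (hg : ∀ ν : L P n →* ℂˣ, (∀ k ∈ L P (n + 1), ev ν k = 1) → cl g ν = ν) {z : G}
    (hz : z ∈ L P n) : z⁻¹ * (g * z * g⁻¹) ∈ L P (n + 1) := by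
  have hz' : g * z * g⁻¹ ∈ L P n := (inferInstance : (L P n).Normal).conj_mem z hz g
  refine sep_L ((L P n).mul_mem ((L P n).inv_mem hz) hz') fun ν hν => ?_
  rw [ev_mul ν ((L P n).inv_mem hz) hz', ev_inv ν hz, ev_conj (hg ν hν) hz, inv_mul_cancel]

theorem fix_of_stab_top {n : ℕ} {ν : L P n →* ℂˣ} (h : stab (lf ν : L P n → ℂ) = ⊤) (g : G) :
    cl g ν = ν := by
  rw [← mem_stab_iff, h]
  exact Subgroup.mem_top g

theorem card_LK {A B : Subgroup G} [hA : A.Normal] [hB : B.Normal] (hBA : B ≤ A)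
    (hAA : ⁅A, A⁆ ≤ B) : Nat.card (LK A B) = B.relIndex A := by
  haveI := finite_lin A
  haveI : Finite (LK A B) := inferInstance
  let φ : LK A B →* (A →* ℂˣ) := (LK A B).subtype
  have h1 := card_pair φ
  have h2 : φ.ker = ⊥ := (MonoidHom.ker_eq_bot_iff φ).2 Subtype.coe_injective
  have h3 : φ.flip.ker = B.subgroupOf A := by
    ext a
    rw [MonoidHom.mem_ker, Subgroup.mem_subgroupOf]
    constructor
    · intro h
      by_contra hcon
      obtain ⟨l, hl, hl'⟩ := exists_LK_ne hBA hAA a.2 hcon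
      exact hl' (DFunLike.congr_fun h ⟨l, hl⟩)
    · intro h
      apply MonoidHom.ext
      intro l
      exact l.2 a a.2 h
  rw [h2, h3, Subgroup.index_bot] at h1
  exact h1

theorem card_LKL (n : ℕ) : Nat.card (LK (L P n) (L P (n + 1))) = (L P (n + 1)).relIndex (L P n) :=
  card_LK (L_anti P (Nat.le_succ n)) ((comm_L P n n).trans (L_anti P (by omega)))

/-- The radical on the side of `γ_n`. -/
theorem PS.rad_L (h : PS P K p) {n : ℕ} (hn : 1 ≤ n) {μ : L P (n + 1) →* ℂˣ}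
    (hμ : ∀ k ∈ L P (n + 1 + 1), ev μ k = 1) (hμ1 : μ ≠ 1)
    (hS : ∀ g, g ∉ P → cl g μ = μ → ∀ ν : L P n →* ℂˣ, (∀ k ∈ L P (n + 1), ev ν k = 1) →
      cl g ν = ν → ν = 1) {z : G} (hz : z ∈ L P n) (hz' : ∀ x ∈ P, ev μ ⁅z, x⁆ = 1) :
    z ∈ L P (n + 1) := by
  have hA : ∀ a ∈ L P n, cl a μ = μ := fun a ha => P_fix hμ (L_le P n ha)
  have hAB : ∀ a ∈ L P n, ∀ b ∈ P, ⁅a, b⁆ ∈ L P (n + 1) := fun a ha b hb => mem_L_succ P ha hb
  have hBZ : L P (n + 1) ≤ rd (L P n) P μ hA hAB := fun b hb =>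
    ⟨L_anti P (Nat.le_succ n) hb, fun x hx => hμ _ (mem_L_succ P hb hx)⟩
  have hZP : rd (L P n) P μ hA hAB ≤ P := rd_le.trans (L_le P n)
  have hnrm : stab (lf μ : L P (n + 1) → ℂ) ≤
      Subgroup.normalizer ((rd (L P n) P μ hA hAB : Subgroup G) : Set G) := fun g hg =>
    rd_nrm (mem_nrm _ g) (mem_nrm P g) (mem_stab_iff.1 hg)
  have hst : ∀ l : rd (L P n) P μ hA hAB →* ℂˣ,
      (∀ b : L P (n + 1), l (Subgroup.inclusion hBZ b) = μ b) →
      P ≤ stab (lf l : rd (L P n) P μ hA hAB → ℂ) := by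
    intro l hl x hx
    rw [mem_stab_ev]
    refine ⟨hnrm (P_le_stab hμ hx), fun d hd => ?_⟩
    have e : x * d * x⁻¹ = ⁅x, d⁆ * d := by rw [commutatorElement_def]; group
    have hm : ⁅x, d⁆ ∈ L P (n + 1) := mem_L_succ' P hx hd.1
    have h1 : ev l ⁅x, d⁆ = ev μ ⁅x, d⁆ := by
      rw [ev_of_mem l (hBZ hm), ev_of_mem μ hm]
      exact hl ⟨_, hm⟩
    rw [e, ev_mul l (hBZ hm) hd, h1, ev_comm_swap μ (comm_swap_mem hm), hd.2 x hx, inv_one,
      one_mul]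
  have hZZ : ⁅rd (L P n) P μ hA hAB, rd (L P n) P μ hA hAB⁆ ≤ L P (n + 1 + 1) :=
    (Subgroup.commutator_mono rd_le rd_le).trans ((comm_L P n n).trans (L_anti P (by omega)))
  refine rad_le (Q := P) (D := stab (lf μ : L P (n + 1) → ℂ)) hBZ μ le_rfl hnrm
    (fun a _ b _ => cyc_comm h.cyc a b) (hZZ.trans (L_anti P (Nat.le_succ _))) ?_
    (fun l hl g hg => hst l hl hg) ?_ ?_ (⟨hz, hz'⟩ : z ∈ rd (L P n) P μ hA hAB)
  · intro z hz
    exact (ev_of_mem μ _).symm.trans (hμ z (hZZ hz))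
  · intro l hl
    obtain ⟨ω, hω, ho⟩ := exists_over_incl hZP (isIrr_lf l)
    have ho' : Over (Subgroup.inclusion (L_le P (n + 1))) ω (lf μ) :=
      over_trans hBZ hZP hω (isIrr_lf l) (isIrr_lf μ) ho (over_of_ext hBZ (isIrr_lf μ)
        fun k => congrArg Units.val (hl k))
    obtain ⟨g, hg, hgP⟩ := h.out (by omega) hμ1 hω ho'
    have hgμ := stab_le_nu hμ hω ho' hg
    exact ⟨g, hgμ, hgP, stab_of_inv hZP (hst l hl) (isIrr_lf l) hω ho hg (hnrm hgμ)⟩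
  · intro g hg hgP z hz hc
    exact fp_L (hS g hgP (mem_stab_iff.1 hg)) hz.1 hc

/-- `μ([z, ·]) ` is onto `Lin(γ_n / γ_{n+1})` -/
theorem PS.rd_index (h : PS P K p) {n : ℕ} (hn : 1 ≤ n) {μ : L P (n + 1) →* ℂˣ}
    (hμ : ∀ k ∈ L P (n + 1 + 1), ev μ k = 1) (hμ1 : μ ≠ 1)
    (hS : ∀ g, g ∉ P → cl g μ = μ → ∀ ν : L P n →* ℂˣ, (∀ k ∈ L P (n + 1), ev ν k = 1) →
      cl g ν = ν → ν = 1) {hA : ∀ a ∈ P, cl a μ = μ} {hAB : ∀ a ∈ P, ∀ b ∈ L P n, ⁅a, b⁆ ∈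
        L P (n + 1)} : (rd P (L P n) μ hA hAB).relIndex P = Nat.card (LK (L P n) (L P (n + 1))) := by
  have hA' : ∀ a ∈ L P n, cl a μ = μ := fun a ha => P_fix hμ (L_le P n ha)
  have hAB' : ∀ a ∈ L P n, ∀ b ∈ P, ⁅a, b⁆ ∈ L P (n + 1) := fun a ha b hb => mem_L_succ P ha hb
  rw [rd_dual (hA := hA) (hAB := hAB) hA' hAB', card_LKL]
  congr 1
  refine le_antisymm (fun z hz => h.rad_L hn hμ hμ1 hS hz.1 hz.2) fun b hb =>
    ⟨L_anti P (Nat.le_succ n) hb, fun x hx => hμ _ (mem_L_succ P hb hx)⟩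

/-- Every element of `Lin(γ_n / γ_{n+1})` is `μ([x, ·])`, `x ∈ P`. -/
theorem PS.exists_x (h : PS P K p) {n : ℕ} (hn : 1 ≤ n) {μ : L P (n + 1) →* ℂˣ}
    (hμ : ∀ k ∈ L P (n + 1 + 1), ev μ k = 1) (hμ1 : μ ≠ 1)
    (hS : ∀ g, g ∉ P → cl g μ = μ → ∀ ν : L P n →* ℂˣ, (∀ k ∈ L P (n + 1), ev ν k = 1) →
      cl g ν = ν → ν = 1) {ν : L P n →* ℂˣ} (hν : ∀ k ∈ L P (n + 1), ev ν k = 1) :
    ∃ x ∈ P, ∀ z ∈ L P n, ev ν z = ev μ ⁅x, z⁆ := by
  classical
  haveI := finite_lin (L P n)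
  have hA : ∀ a ∈ P, cl a μ = μ := fun a ha => P_fix hμ ha
  have hAB : ∀ a ∈ P, ∀ b ∈ L P n, ⁅a, b⁆ ∈ L P (n + 1) := fun a ha b hb => mem_L_succ' P ha hb
  have hA' : ∀ a ∈ L P n, cl a μ = μ := fun a ha => P_fix hμ (L_le P n ha)
  let φ := cpair P (L P n) μ hAB hA hA'
  have hr : φ.range ≤ LK (L P n) (L P (n + 1)) := by
    rintro _ ⟨x, rfl⟩
    rw [mem_LK_ev (L_anti P (Nat.le_succ n))]
    intro k hk
    rw [ev_of_mem _ (L_anti P (Nat.le_succ n) hk)]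
    exact hμ _ (mem_L_succ' P x.2 hk)
  have hcard : Nat.card φ.range = Nat.card (LK (L P n) (L P (n + 1))) := by
    rw [← Subgroup.index_ker, ← h.rd_index hn hμ hμ1 hS (hA := hA) (hAB := hAB), rd_relIndex hA']
  have heq := Subgroup.eq_of_le_of_card_ge hr hcard.ge
  have hm : ν ∈ φ.range := by
    rw [heq]
    exact (mem_LK_ev (L_anti P (Nat.le_succ n))).2 hν
  obtain ⟨x, hx⟩ := hm
  refine ⟨x, x.2, fun z hz => ?_⟩
  rw [← hx, ev_of_mem _ hz]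
  rfl

/-- Stabilizers of nontrivial elements of `Lin(γ_n / γ_{n+1})` coincide. -/
theorem PS.stab_const (h : PS P K p) {n : ℕ} (hn : 1 ≤ n)
    (hdeg : ∀ (ν ν' : L P n →* ℂˣ), (∀ k ∈ L P (n + 1), ev ν k = 1) →
      (∀ k ∈ L P (n + 1), ev ν' k = 1) → ν ≠ 1 → ν' ≠ 1 → ∀ ω ω' : P → ℂ, IsIrrCharacter P ω →
      IsIrrCharacter P ω' → Over (Subgroup.inclusion (L_le P n)) ω (lf ν) →
      Over (Subgroup.inclusion (L_le P n)) ω' (lf ν') → charDegree ω = charDegree ω')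
    (hstab : ∀ (ν : L P n →* ℂˣ), (∀ k ∈ L P (n + 1), ev ν k = 1) → ν ≠ 1 → ∀ ω : P → ℂ,
      IsIrrCharacter P ω → Over (Subgroup.inclusion (L_le P n)) ω (lf ν) →
      stab ω = stab (lf ν : L P n → ℂ)) {ν ν' : L P n →* ℂˣ}
    (hν : ∀ k ∈ L P (n + 1), ev ν k = 1) (hν' : ∀ k ∈ L P (n + 1), ev ν' k = 1) (h1 : ν ≠ 1)
    (h1' : ν' ≠ 1) : stab (lf ν : L P n → ℂ) = stab (lf ν' : L P n → ℂ) := by
  have hle : L P (n + 1) ≤ L P n := L_anti P (Nat.le_succ n)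
  have key : ∀ {l m : L P n →* ℂˣ}, (∀ k ∈ L P (n + 1), ev l k = 1) →
      (∀ k ∈ L P (n + 1), ev m k = 1) → l ≠ 1 → m ≠ 1 →
      stab (lf l : L P n → ℂ) ≤ stab (lf m : L P n → ℂ) := by
    intro l m hl hm hl1 hm1 t ht
    refine stab_of_comm (LK (L P n) (L P (n + 1))) (fun g l hl => cl_mem_LK g hl) ?_
      ((mem_LK_ev hle).2 hl) ((mem_LK_ev hle).2 hm) hl1 hm1 ht ?_
    · intro a ha b hb ha1 hb1 hab
      rw [mem_LK_ev hle] at ha hb
      obtain ⟨ωa, hωa, hoa⟩ := exists_over_incl (L_le P n) (isIrr_lf a)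
      obtain ⟨ωb, hωb, hob⟩ := exists_over_incl (L_le P n) (isIrr_lf b)
      have e1 := hstab a ha ha1 ωa hωa hoa
      have e2 := hstab b hb hb1 ωb hωb hob
      have e3 := hdeg b a hb ha hb1 ha1 ωb ωa hωb hωa hob hoa
      have := (anti_omega h.anti h.cyc hωb hωa (over_nonlin hn hb1 hωb hob) (by rw [e3])
        (by rw [e1, e2]; exact hab)).1
      rwa [e1, e2] at this
    · intro g κ hκ
      rw [mem_LK_ev hle] at hκ
      have e : t * g = ⁅t, g⁆ * (g * t) := by rw [commutatorElement_def]; group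
      rw [e, cl_mul, P_fix hκ (cyc_comm h.cyc t g)]
  exact le_antisymm (key hν hν' h1 h1') (key hν' hν h1' h1)

end lev

section jac

variable {G : Type u} [Group G] {D : Subgroup G} [hD : D.Normal]

theorem ev_comm_inv_left {δ : D →* ℂˣ} {a b : G} (ha : cl a δ = δ) (h1 : ⁅a, b⁆ ∈ D)
    (h2 : ⁅a⁻¹, b⁆ ∈ D) : ev δ ⁅a⁻¹, b⁆ = (ev δ ⁅a, b⁆)⁻¹ := by
  have h := ev_comm_mul_left ha h1 h2
  rw [mul_inv_cancel, commutatorElement_one_left, ev_one] at h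
  exact eq_inv_of_mul_eq_one_right h.symm

theorem ev_comm_inv_right {δ : D →* ℂˣ} {a b : G} (hb : cl b δ = δ) (h1 : ⁅a, b⁆ ∈ D)
    (h2 : ⁅a, b⁻¹⁆ ∈ D) : ev δ ⁅a, b⁻¹⁆ = (ev δ ⁅a, b⁆)⁻¹ := by
  have h := ev_comm_mul_right hb h1 h2
  rw [mul_inv_cancel, commutatorElement_one_right, ev_one] at h
  exact eq_inv_of_mul_eq_one_right h.symm

variable {P : Subgroup G} [hP : P.Normal]

/-- `⁅a⁻¹, b⁻¹⁆ ≡ ⁅a, b⁆`. -/
theorem comm_inv_inv {m n : ℕ} {a b : G} (ha : a ∈ L P m) (hb : b ∈ L P n) :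
    ∃ d ∈ L P (m + n + 2), ⁅a⁻¹, b⁻¹⁆ = ⁅a, b⁆ * d := by
  have h1 : ⁅a, b⁆ ∈ L P (m + n + 1) := comm_L P m n (Subgroup.commutator_mem_commutator ha hb)
  have hab : b * a ∈ P := P.mul_mem (L_le P n hb) (L_le P m ha)
  refine ⟨⁅⁅a, b⁆⁻¹, (b * a)⁻¹⁆, mem_L_succ P ((L P _).inv_mem h1) (P.inv_mem hab), ?_⟩
  simp only [commutatorElement_def]
  group

/-- **Jacobi identity.** -/
theorem jac {a b c n : ℕ} (hn : n ≤ a + b + c + 2) {x y z : G} (hx : x ∈ L P a)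
    (hy : y ∈ L P b) (hz : z ∈ L P c) {μ : L P n →* ℂˣ} (hμ : ∀ k ∈ L P (n + 1), ev μ k = 1) :
    ev μ ⁅z, ⁅x, y⁆⁆ * ev μ ⁅y, ⁅z, x⁆⁆ * ev μ ⁅x, ⁅y, z⁆⁆ = 1 := by
  have hcom : ∀ {i j : ℕ} {a b : G}, a ∈ L P i → b ∈ L P j → ⁅a, b⁆ ∈ L P (i + j + 1) :=
    fun ha hb => comm_L P _ _ (Subgroup.commutator_mem_commutator ha hb)
  have hxP := L_le P a hx
  have hyP := L_le P b hy
  have hzP := L_le P c hz
  have h1 : ∀ {i j : ℕ} {u v : G}, u ∈ L P i → v ∈ L P j → n ≤ i + j + 1 → ⁅u, v⁆ ∈ L P n :=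
    fun hu hv hle => L_anti P hle (hcom hu hv)
  obtain ⟨d, hd, ed⟩ := comm_inv_inv (P := P) hz hx
  have hid : ⁅z, ⁅x, y⁆⁆ = (x * z) * (⁅y, ⁅z⁻¹, x⁻¹⁆⁆⁻¹ * ((z⁻¹ * y) * ⁅x⁻¹, ⁅y⁻¹, z⁆⁆⁻¹ *
      (z⁻¹ * y)⁻¹)) * (x * z)⁻¹ := by
    simp only [commutatorElement_def]; group
  have hz' := (L P c).inv_mem hz
  have hx' := (L P a).inv_mem hx
  have hy' := (L P b).inv_mem hy
  have m1 : ⁅y, ⁅z⁻¹, x⁻¹⁆⁆ ∈ L P n := h1 hy (hcom hz' hx') (by omega)
  have m2 : ⁅x⁻¹, ⁅y⁻¹, z⁆⁆ ∈ L P n := h1 hx' (hcom hy' hz) (by omega)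
  have m2' := (L P n).inv_mem m2
  have hn' : (L P n).Normal := inferInstance
  have m3 := hn'.conj_mem _ m2' (z⁻¹ * y)
  have e1 : ev μ ⁅z, ⁅x, y⁆⁆ = (ev μ ⁅y, ⁅z⁻¹, x⁻¹⁆⁆)⁻¹ * (ev μ ⁅x⁻¹, ⁅y⁻¹, z⁆⁆)⁻¹ := by
    rw [hid, ev_conj (P_fix hμ (P.mul_mem hxP hzP)) ((L P n).mul_mem ((L P n).inv_mem m1) m3),
      ev_mul μ ((L P n).inv_mem m1) m3, ev_conj (P_fix hμ (P.mul_mem (P.inv_mem hzP) hyP)) m2',
      ev_inv μ m1, ev_inv μ m2]
  have e2 : ev μ ⁅y, ⁅z⁻¹, x⁻¹⁆⁆ = ev μ ⁅y, ⁅z, x⁆⁆ := by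
    have h3 : ⁅y, d⁆ ∈ L P (n + 1) := L_anti P (by omega) (hcom hy hd)
    rw [ed, ev_comm_mul_right (P_fix hμ (L_le P _ (hcom hz hx))) (h1 hy (hcom hz hx) (by omega))
      (L_anti P (Nat.le_succ n) h3), hμ _ h3, mul_one]
  have e3 : ev μ ⁅x⁻¹, ⁅y⁻¹, z⁆⁆ = ev μ ⁅x, ⁅y, z⁆⁆ := by
    have h4 : ⁅y⁻¹, z⁆ = ⁅y, z⁆⁻¹ * ⁅⁅y, z⁆, y⁻¹⁆ := by
      simp only [commutatorElement_def]; group
    have h5 : ⁅⁅y, z⁆, y⁻¹⁆ ∈ L P (b + c + 1 + 1) := mem_L_succ P (hcom hy hz) (P.inv_mem hyP)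
    have h6 : ⁅x⁻¹, ⁅⁅y, z⁆, y⁻¹⁆⁆ ∈ L P (n + 1) := L_anti P (by omega) (hcom hx' h5)
    have h7 := (L P _).inv_mem (hcom hy hz)
    rw [h4, ev_comm_mul_right (P_fix hμ (L_le P _ h7)) (h1 hx' h7 (by omega))
      (L_anti P (Nat.le_succ n) h6), hμ _ h6, mul_one,
      ev_comm_inv_right (P_fix hμ (L_le P _ (hcom hy hz))) (h1 hx' (hcom hy hz) (by omega))
        (h1 hx' h7 (by omega)),
      ev_comm_inv_left (P_fix hμ hxP) (h1 hx (hcom hy hz) (by omega))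
        (h1 hx' (hcom hy hz) (by omega)), inv_inv]
  rw [e1, e2, e3, mul_assoc, mul_assoc]
  rw [mul_comm (ev μ ⁅x, ⁅y, z⁆⁆)⁻¹, mul_assoc, mul_inv_cancel, mul_one, inv_mul_cancel]

end jac

end Cfsg.Agent.H675.Nd
end

-- part: H675/Nd/PG7
section
/-!
# The Sylow subgroup: Case II, levels one and two
-/

set_option autoImplicit false
set_option linter.style.haveILetI false
set_option linter.unusedSectionVars false
open Cfsg

namespace Cfsg.Agent.H675.Nd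

open Cfsg.Agent.Characters.Core Cfsg.Agent.Characters.Clifford Cfsg.Agent.H672 Cfsg.Agent.H672.RM
open Cfsg.Agent.H597.FrobA
open scoped commutatorElement

universe u v w

section gen

variable {G : Type u} [Group G] [Finite G] {P K : Subgroup G} [hP : P.Normal] [hK : K.Normal]
  {p : ℕ}

/-- A character of level `n + 1` fixed by `g ∉ P` acting trivially on level `n` is trivial. -/
theorem PS.mu_one (h : PS P K p) {n : ℕ} {μ : L P (n + 1) →* ℂˣ}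
    (hμ : ∀ k ∈ L P (n + 1 + 1), ev μ k = 1) {g : G} (hgP : g ∉ P) (hg : cl g μ = μ)
    (hI : ∀ ν : L P n →* ℂˣ, (∀ k ∈ L P (n + 1), ev ν k = 1) → cl g ν = ν)
    (hC : ∀ z ∈ L P n, ∀ c ∈ CC P, ⁅z, c⁆ ∈ L P (n + 1 + 1)) : μ = 1 := by
  have h0 : ∀ z ∈ L P n, z⁻¹ * (g * z * g⁻¹) ∈ L P (n + 1) := fun z hz => triv_L hI hz
  have h1 : ∀ e ∈ EE P, ∀ z ∈ L P n, ev μ ⁅e, z⁆ = 1 := by
    intro e he z hz
    refine pair_fix (A := EE P) (B0 := L P 1) hg (fun a ha => P_fix hμ (EE_le ha))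
      (fun a ha => mem_L_succ' P (EE_le ha) hz) (fun a ha => (EE_normal).conj_mem a ha g) ?_
      L1_le_EE (fun b hb => hμ _ (L_anti P (by omega)
        (comm_L P 1 n (Subgroup.commutator_mem_commutator hb hz))))
      (fun a ha => h.ontoE le_rfl hgP (fun m hm => (EE_normal).conj_mem m hm g) ha) e he
    intro a ha
    have h2 := h0 z hz
    have h3 := mem_L_succ' P (EE_le ha) h2
    have e : g * z * g⁻¹ = z * (z⁻¹ * (g * z * g⁻¹)) := by group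
    rw [e, ev_comm_mul_right (P_fix hμ (L_le P n hz)) (mem_L_succ' P (EE_le ha) hz)
      (L_anti P (Nat.le_succ _) h3), hμ _ h3, mul_one]
  apply ev_ext
  intro d hd
  rw [ev_hone]
  have hle : ⁅L P n, P⁆ ≤ L P (n + 1) := le_rfl
  refine ev_comm_sub (S := L P n) (T := P) (D := L P (n + 1)) (δ := μ) hle ?_ d hd
  intro z hz x hx
  obtain ⟨e, he, c, hc, rfl⟩ := h.exists_EC hx
  rw [ev_comm_mul_right (P_fix hμ (EE_le he)) (mem_L_succ P hz (EE_le he))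
    (mem_L_succ P hz (CC_le hc)), hμ _ (hC z hz c hc), mul_one,
    ev_comm_swap μ (mem_L_succ' P (EE_le he) hz), h1 e he z hz, inv_one]

theorem PS.hS_of (h : PS P K p) {n : ℕ}
    (hconst : ∀ ν ν' : L P n →* ℂˣ, (∀ k ∈ L P (n + 1), ev ν k = 1) →
      (∀ k ∈ L P (n + 1), ev ν' k = 1) → ν ≠ 1 → ν' ≠ 1 →
      stab (lf ν : L P n → ℂ) = stab (lf ν' : L P n → ℂ))
    (hC : ∀ z ∈ L P n, ∀ c ∈ CC P, ⁅z, c⁆ ∈ L P (n + 1 + 1)) {μ : L P (n + 1) →* ℂˣ}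
    (hμ : ∀ k ∈ L P (n + 1 + 1), ev μ k = 1) (hμ1 : μ ≠ 1) :
    ∀ g, g ∉ P → cl g μ = μ → ∀ ν : L P n →* ℂˣ, (∀ k ∈ L P (n + 1), ev ν k = 1) →
      cl g ν = ν → ν = 1 := by
  intro g hgP hg ν hν hgν
  by_contra hν1
  apply hμ1
  refine h.mu_one hμ hgP hg ?_ hC
  intro ν' hν'
  by_cases h1 : ν' = 1
  · rw [h1, cl_hone]
  · rw [← mem_stab_iff, hconst ν' ν hν' hν h1 hν1]
    exact mem_stab_iff.2 hgν

/-- `T_μ = {x ∈ P : μ([x, γ_n]) = 1}` -/
def TT {n : ℕ} (μ : L P (n + 1) →* ℂˣ) (hμ : ∀ k ∈ L P (n + 1 + 1), ev μ k = 1) : Subgroup G :=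
  rd P (L P n) μ (fun _ ha => P_fix hμ ha) (fun _ ha _ hb => mem_L_succ' P ha hb)

variable {n : ℕ} {μ : L P (n + 1) →* ℂˣ} {hμ : ∀ k ∈ L P (n + 1 + 1), ev μ k = 1}

theorem mem_TT {x : G} : x ∈ TT μ hμ ↔ x ∈ P ∧ ∀ z ∈ L P n, ev μ ⁅x, z⁆ = 1 := Iff.rfl

theorem TT_le : TT μ hμ ≤ P := fun _ h => h.1

theorem TT_nrm : stab (lf μ : L P (n + 1) → ℂ) ≤ Subgroup.normalizer (TT μ hμ : Set G) :=
  fun g hg => rd_nrm (mem_nrm P g) (mem_nrm _ g) (mem_stab_iff.1 hg)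

theorem CC_le_TT (hC : ∀ z ∈ L P n, ∀ c ∈ CC P, ⁅z, c⁆ ∈ L P (n + 1 + 1)) : CC P ≤ TT μ hμ :=
  fun c hc => ⟨CC_le hc, fun z hz => hμ _ (comm_swap_mem (hC z hz c hc))⟩

theorem ev_conj_ext {δ : L P n →* ℂˣ} (hδ : ∀ b ∈ L P (n + 1), ev δ b = ev μ b) {x z : G}
    (hx : x ∈ P) (hz : z ∈ L P n) : ev (cl x δ) z = ev μ ⁅x, z⁆ * ev δ z := by
  have e : x * z * x⁻¹ = ⁅x, z⁆ * z := by rw [commutatorElement_def]; group
  have hm : ⁅x, z⁆ ∈ L P (n + 1) := mem_L_succ' P hx hz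
  rw [ev_cl x δ hz, e, ev_mul δ (L_anti P (Nat.le_succ n) hm) hz, hδ _ hm]

/-- `T_μ` is the inertia group in `P` of an extension of `μ`. -/
theorem TT_iff {δ : L P n →* ℂˣ} (hδ : ∀ b ∈ L P (n + 1), ev δ b = ev μ b) {x : G}
    (hx : x ∈ P) : cl x δ = δ ↔ x ∈ TT μ hμ := by
  rw [mem_TT]
  constructor
  · intro h
    refine ⟨hx, fun z hz => ?_⟩
    have h1 := ev_conj_ext hδ hx hz
    rw [h] at h1
    exact (mul_eq_right.1 h1.symm)
  · rintro ⟨-, h⟩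
    apply ev_ext
    intro z hz
    rw [ev_conj_ext hδ hx hz, h z hz, one_mul]

theorem stab_ext_le {δ : L P n →* ℂˣ} (hδ : ∀ b ∈ L P (n + 1), ev δ b = ev μ b) :
    stab (lf δ : L P n → ℂ) ≤ stab (lf μ : L P (n + 1) → ℂ) := by
  intro g hg
  rw [mem_stab_iff] at hg ⊢
  apply ev_ext
  intro d hd
  have hd' := (inferInstance : (L P (n + 1)).Normal).conj_mem d hd g
  rw [ev_cl g μ hd, ← hδ _ hd', ← hδ _ hd]
  exact ev_conj hg (L_anti P (Nat.le_succ n) hd)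

/-- Extension of `μ` to `γ_n`. -/
theorem exists_ext_L (hn : 1 ≤ n) (hμ : ∀ k ∈ L P (n + 1 + 1), ev μ k = 1) :
    ∃ δ : L P n →* ℂˣ, ∀ b ∈ L P (n + 1), ev δ b = ev μ b := by
  have hle : L P (n + 1) ≤ L P n := L_anti P (Nat.le_succ n)
  have hcc : ⁅L P n, L P n⁆ ≤ L P (n + 1 + 1) := (comm_L P n n).trans (L_anti P (by omega))
  obtain ⟨l, hl⟩ := exists_lin_ext hle μ (hcc.trans (L_anti P (Nat.le_succ _))) (by
    intro z hz
    exact (ev_of_mem μ _).symm.trans (hμ z (hcc hz)))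
  refine ⟨l, fun b hb => ?_⟩
  rw [ev_of_mem l (hle hb), ev_of_mem μ hb]
  exact hl ⟨b, hb⟩

/-- Adjusting an element fixing `μ` by an element of `P` so that it fixes an extension. -/
theorem PS.exists_adj (h : PS P K p) (hn : 1 ≤ n) (hμ : ∀ k ∈ L P (n + 1 + 1), ev μ k = 1)
    (hμ1 : μ ≠ 1)
    (hS : ∀ g, g ∉ P → cl g μ = μ → ∀ ν : L P n →* ℂˣ, (∀ k ∈ L P (n + 1), ev ν k = 1) →
      cl g ν = ν → ν = 1) {δ : L P n →* ℂˣ} (hδ : ∀ b ∈ L P (n + 1), ev δ b = ev μ b) {g : G}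
    (hg : cl g μ = μ) : ∃ x ∈ P, cl (g * x⁻¹) δ = δ := by
  have hν : ∀ k ∈ L P (n + 1), ev (cl g δ * δ⁻¹) k = 1 := by
    intro k hk
    have hk' := (inferInstance : (L P (n + 1)).Normal).conj_mem k hk g
    rw [ev_hmul, ev_hinv, ev_cl g δ (L_anti P (Nat.le_succ n) hk), hδ _ hk', hδ _ hk,
      ev_conj hg hk, mul_inv_cancel]
  obtain ⟨x, hx, hx'⟩ := h.exists_x hn hμ hμ1 hS hν
  refine ⟨x, hx, ?_⟩
  have h1 : cl g δ = cl x δ := by
    apply ev_ext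
    intro z hz
    rw [ev_conj_ext hδ hx hz, ← hx' z hz, ev_hmul, ev_hinv, inv_mul_cancel_right]
  rw [cl_mul, h1, ← cl_mul, mul_inv_cancel, cl_one]

end gen

/-- The hypothesis in Case II. -/
structure PC {G : Type u} [Group G] [Finite G] (P K : Subgroup G) [P.Normal] [K.Normal] (p : ℕ) :
    Prop extends PS P K p where
  no : ∀ ν : L P 1 →* ℂˣ, (∀ k ∈ L P 2, ev ν k = 1) → (∀ g, cl g ν = ν) → ν = 1

section lev1

variable {G : Type u} [Group G] [Finite G] {P K : Subgroup G} [hP : P.Normal] [hK : K.Normal]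
  {p : ℕ}

theorem PC.ev_CC (h : PC P K p) {ν : L P 1 →* ℂˣ} (hν : ∀ k ∈ L P 2, ev ν k = 1) {c c' : G}
    (hc : c ∈ CC P) (hc' : c' ∈ CC P) : ev ν ⁅c, c'⁆ = 1 := by
  obtain ⟨y, ν', hν', rfl⟩ := h.surj h.no hν
  rw [ev_hmul, ev_hinv, CC_conj_comm hc hc' y hν', mul_inv_cancel]

theorem PC.CC_CC (h : PC P K p) {c c' : G} (hc : c ∈ CC P) (hc' : c' ∈ CC P) :
    ⁅c, c'⁆ ∈ L P 2 :=
  sep_L (CC_comm hc c') fun _ hν => h.ev_CC hν hc hc'

theorem PC.P_CC (h : PC P K p) {x c : G} (hx : x ∈ P) (hc : c ∈ CC P) : ⁅x, c⁆ ∈ L P 2 := by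
  obtain ⟨e, he, c', hc', rfl⟩ := h.exists_EC hx
  have h1 : ⁅e * c', c⁆ = (e * ⁅c', c⁆ * e⁻¹) * ⁅e, c⁆ := by
    simp only [commutatorElement_def]; group
  rw [h1]
  exact (L P 2).mul_mem ((inferInstance : (L P 2).Normal).conj_mem _ (h.CC_CC hc' hc) e)
    (h.EC_comm he hc)

theorem PC.Zn_eq (h : PC P K p) {ν : L P 1 →* ℂˣ} {hν : ∀ k ∈ L P 2, ev ν k = 1} (hν1 : ν ≠ 1) :
    Zn ν hν = CC P :=
  le_antisymm (h.Zn_le_CC hν1) fun _ hc => (h.mem_Zn_CC hc).2 fun _ hc' => h.ev_CC hν hc hc'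

theorem PC.deg1 (h : PC P K p) {ν : L P 1 →* ℂˣ} (hν : ∀ k ∈ L P 2, ev ν k = 1) (hν1 : ν ≠ 1)
    {ω : P → ℂ} (hω : IsIrrCharacter P ω)
    (ho : Over (Subgroup.inclusion (L_le P 1)) ω (lf ν)) :
    (charDegree ω) ^ 2 = (CC P).relIndex P := by
  rw [deg_nu (hν := hν) hω ho, h.Zn_eq hν1]

theorem PC.const1 (h : PC P K p) (ν ν' : L P 1 →* ℂˣ) (hν : ∀ k ∈ L P 2, ev ν k = 1)
    (hν' : ∀ k ∈ L P 2, ev ν' k = 1) (h1 : ν ≠ 1) (h1' : ν' ≠ 1) :
    stab (lf ν : L P 1 → ℂ) = stab (lf ν' : L P 1 → ℂ) := by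
  refine h.stab_const le_rfl ?_ ?_ hν hν' h1 h1'
  · intro ν ν' hν hν' h1 h1' ω ω' hω hω' ho ho'
    have e := h.deg1 hν h1 hω ho
    rw [← h.deg1 hν' h1' hω' ho'] at e
    exact Nat.pow_left_injective two_ne_zero e
  · intro ν hν h1 ω hω ho
    exact h.stab_nu (hν := hν) h1 hω ho

theorem PC.hS2 (h : PC P K p) {μ : L P 2 →* ℂˣ} (hμ : ∀ k ∈ L P 3, ev μ k = 1) (hμ1 : μ ≠ 1) :
    ∀ g, g ∉ P → cl g μ = μ → ∀ ν : L P 1 →* ℂˣ, (∀ k ∈ L P 2, ev ν k = 1) →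
      cl g ν = ν → ν = 1 :=
  h.hS_of h.const1 (fun _ hz _ hc => h.L1_CC hz hc) hμ hμ1

end lev1

section lev2

variable {G : Type u} [Group G] [Finite G] {P K : Subgroup G} [hP : P.Normal] [hK : K.Normal]
  {p : ℕ} {μ : L P 2 →* ℂˣ} {hμ : ∀ k ∈ L P 3, ev μ k = 1}

theorem PC.C_le_T (h : PC P K p) : CC P ≤ TT (n := 1) μ hμ :=
  CC_le_TT fun _ hz _ hc => h.L1_CC hz hc

theorem PC.T_comm (h : PC P K p) (hμ1 : μ ≠ 1) {x y : G} (hx : x ∈ TT (n := 1) μ hμ)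
    (hy : y ∈ TT (n := 1) μ hμ) : ⁅x, y⁆ ∈ L P 2 := by
  refine h.rad_L le_rfl hμ hμ1 (h.hS2 hμ hμ1) (mem_L_one P hx.1 hy.1) ?_
  intro v hv
  have h1 := jac (P := P) (a := 0) (b := 0) (c := 0) (n := 2) (by omega) hx.1 hy.1 hv hμ
  rw [hy.2 _ (mem_L_one P hv hx.1), hx.2 _ (mem_L_one P hy.1 hv), mul_one, mul_one] at h1
  rw [ev_comm_swap μ (mem_L_succ' P hv (mem_L_one P hx.1 hy.1)), h1, inv_one]

/-- The radical of the form on `T_μ`. -/
def ZT (h : PC P K p) (μ : L P 2 →* ℂˣ) (hμ : ∀ k ∈ L P 3, ev μ k = 1) (hμ1 : μ ≠ 1) :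
    Subgroup G :=
  rd (TT (n := 1) μ hμ) (TT (n := 1) μ hμ) μ (fun _ ha => P_fix hμ ha.1)
    (fun _ ha _ hb => h.T_comm hμ1 ha hb)

theorem mem_ZT {h : PC P K p} {hμ1 : μ ≠ 1} {x : G} : x ∈ ZT h μ hμ hμ1 ↔
    x ∈ TT (n := 1) μ hμ ∧ ∀ y ∈ TT (n := 1) μ hμ, ev μ ⁅x, y⁆ = 1 := Iff.rfl

theorem PC.L1_le_T (h : PC P K p) : L P 1 ≤ TT (n := 1) μ hμ := L1_le_CC.trans h.C_le_T

theorem PC.L1_le_ZT (h : PC P K p) {hμ1 : μ ≠ 1} : L P 1 ≤ ZT h μ hμ hμ1 := by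
  intro z hz
  refine ⟨h.L1_le_T hz, fun y hy => ?_⟩
  rw [ev_comm_swap μ (mem_L_succ' P hy.1 hz), hy.2 z hz, inv_one]

theorem PC.ZT_nrm (h : PC P K p) {hμ1 : μ ≠ 1} :
    stab (lf μ : L P 2 → ℂ) ≤ Subgroup.normalizer (ZT h μ hμ hμ1 : Set G) := fun _ hg =>
  rd_nrm (TT_nrm hg) (TT_nrm hg) (mem_stab_iff.1 hg)

theorem PC.ZT_inf (h : PC P K p) {hμ1 : μ ≠ 1} : ZT h μ hμ hμ1 ⊓ EE P ≤ L P 1 := by
  have h12 : L P 2 ≤ L P 1 := L_anti P (by omega)
  obtain ⟨δ, hδ⟩ := exists_ext_L (n := 1) le_rfl hμ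
  have hZT : ZT h μ hμ hμ1 ≤ TT (n := 1) μ hμ := fun _ hx => hx.1
  have hZP : ZT h μ hμ hμ1 ⊓ EE P ≤ P := inf_le_left.trans (hZT.trans TT_le)
  have hBZ : L P 1 ≤ ZT h μ hμ hμ1 ⊓ EE P := le_inf h.L1_le_ZT L1_le_EE
  have hDμ : stab (lf δ : L P 1 → ℂ) ≤ stab (lf μ : L P 2 → ℂ) := stab_ext_le (n := 1) hδ
  have hnrm : stab (lf μ : L P 2 → ℂ) ≤
      Subgroup.normalizer ((ZT h μ hμ hμ1 ⊓ EE P : Subgroup G) : Set G) := fun g hg =>
    mem_nrm_inf (h.ZT_nrm hg) (mem_nrm _ g)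
  have hcc : ∀ a ∈ ZT h μ hμ hμ1 ⊓ EE P, ∀ b ∈ ZT h μ hμ hμ1 ⊓ EE P, ⁅a, b⁆ ∈ L P 2 :=
    fun a ha b hb => h.T_comm hμ1 (hZT ha.1) (hZT hb.1)
  have hZZ : ⁅ZT h μ hμ hμ1 ⊓ EE P, ZT h μ hμ hμ1 ⊓ EE P⁆ ≤ L P 2 :=
    Subgroup.commutator_le.2 hcc
  refine rad_le (Q := TT (n := 1) μ hμ) (D := stab (lf δ : L P 1 → ℂ)) hBZ δ le_rfl
    (hDμ.trans hnrm) ?_ (hZZ.trans h12) ?_ ?_ ?_ ?_
  · intro a ha b hb
    rw [← TT_iff (n := 1) hδ (cyc_comm h.cyc a b), ← mem_stab_iff]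
    exact (stab (lf δ : L P 1 → ℂ)).mul_mem (Subgroup.mul_mem _ (Subgroup.mul_mem _ ha hb)
      (Subgroup.inv_mem _ ha)) (Subgroup.inv_mem _ hb)
  · intro z hz
    refine (ev_of_mem δ _).symm.trans ?_
    rw [hδ z (hZZ hz)]
    exact ev_comm_sub hZZ (fun a ha b hb => ha.1.2 b (hZT hb.1)) z hz
  · intro l hl g hg
    rw [mem_stab_ev]
    refine ⟨hnrm (P_le_stab hμ hg.1), fun d hd => ?_⟩
    have e : g * d * g⁻¹ = ⁅g, d⁆ * d := by rw [commutatorElement_def]; group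
    have hm : ⁅g, d⁆ ∈ L P 2 := h.T_comm hμ1 hg (hZT hd.1)
    have hm1 : ⁅g, d⁆ ∈ L P 1 := h12 hm
    have h1 : ev l ⁅g, d⁆ = ev δ ⁅g, d⁆ := by
      rw [ev_of_mem l (hBZ hm1), ev_of_mem δ hm1]
      exact hl ⟨_, hm1⟩
    rw [e, ev_mul l (hBZ hm1) hd, h1, hδ _ hm, ev_comm_swap μ (comm_swap_mem hm),
      hd.1.2 g hg, inv_one, one_mul]
  · intro l hl
    obtain ⟨ω, hω, ho⟩ := exists_over_incl hZP (isIrr_lf l)
    have hB2 : L P 2 ≤ ZT h μ hμ hμ1 ⊓ EE P := h12.trans hBZ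
    have ho' : Over (Subgroup.inclusion (L_le P 2)) ω (lf μ) :=
      over_trans hB2 hZP hω (isIrr_lf l) (isIrr_lf μ) ho (over_of_ext hB2 (isIrr_lf μ)
        fun k => congrArg Units.val (by
          have h1 := hl (Subgroup.inclusion h12 k)
          have h2 := hδ k k.2
          rw [ev_of_mem δ (h12 k.2), ev_of_mem μ k.2] at h2
          exact h1.trans h2))
    obtain ⟨g, hg, hgP⟩ := h.out (by omega) hμ1 hω ho'
    have hgμ := stab_le_nu hμ hω ho' hg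
    obtain ⟨x, hx, hgx⟩ := exists_mul_stab' hZP ((P_le_stab hμ).trans hnrm) (isIrr_lf l) hω ho hg
      (hnrm hgμ)
    have hgxP : g * x ∉ P := fun h1 => hgP (by
      have := P.mul_mem h1 (P.inv_mem hx)
      rwa [mul_inv_cancel_right] at this)
    refine ⟨g * x, ?_, fun h1 => hgxP h1.1, hgx⟩
    rw [mem_stab_iff]
    apply ev_ext
    intro d hd
    have h2 := (mem_stab_ev.1 hgx).2 d (hBZ hd)
    have hd' := (inferInstance : (L P 1).Normal).conj_mem d hd (g * x)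
    rw [ev_cl _ δ hd]
    have h3 : ∀ b ∈ L P 1, ev l b = ev δ b := by
      intro b hb
      rw [ev_of_mem l (hBZ hb), ev_of_mem δ hb]
      exact hl ⟨b, hb⟩
    rw [← h3 _ hd', ← h3 _ hd]
    exact h2
  · intro g hg hgT z hz hc
    have hgP : g ∉ P := fun hgP => hgT ((TT_iff (n := 1) hδ hgP).1 (mem_stab_iff.1 hg))
    exact h.fpE hz.2 hgP (by rw [commutatorElement_def]; exact hc)

theorem PC.ZT_le (h : PC P K p) {hμ1 : μ ≠ 1} : ZT h μ hμ hμ1 ≤ CC P := by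
  obtain ⟨g, hgP, hg⟩ := h.exists_fix (by omega) hμ1 hμ
  intro z hz
  have h1 : g * z⁻¹ * g⁻¹ ∈ ZT h μ hμ hμ1 :=
    conj_mem_of_mem (h.ZT_nrm (mem_stab_iff.2 hg)) ⟨z⁻¹, Subgroup.inv_mem _ hz⟩
  have h2 : ⁅z, g⁆ ∈ ZT h μ hμ hμ1 := by
    have e : ⁅z, g⁆ = z * (g * z⁻¹ * g⁻¹) := by rw [commutatorElement_def]; group
    rw [e]
    exact Subgroup.mul_mem _ hz h1
  exact mem_CC.2 ⟨hz.1.1, h.zl le_rfl (L_le P 1) hz.1.1 hgP (h.ZT_inf ⟨h2, mem_EE hz.1.1⟩)⟩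

/-- No invariant characters at level two. -/
theorem PC.no2 (h : PC P K p) (hμ : ∀ k ∈ L P 3, ev μ k = 1) (hinv : ∀ g, cl g μ = μ) :
    μ = 1 := by
  by_contra hμ1
  by_cases h1 : ∀ ν : L P 1 →* ℂˣ, (∀ k ∈ L P 2, ev ν k = 1) → ν = 1
  · apply hμ1
    have := h.L_bot h1
    apply ev_ext
    intro d hd
    have hd1 : d ∈ L P 1 := L_anti P (by omega : 1 ≤ 2) hd
    rw [this, Subgroup.mem_bot] at hd1
    rw [hd1, ev_one, ev_one]
  · push Not at h1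
    obtain ⟨ν, hν, hν1⟩ := h1
    obtain ⟨g, hgP, hg⟩ := h.exists_fix le_rfl hν1 hν
    exact hν1 (h.hS2 hμ hμ1 g hgP (hinv g) ν hν hg)

theorem PC.conj_comm2 (h : PC P K p) {c c' : G} (hc : c ∈ CC P) (hc' : c' ∈ CC P) (g : G)
    (hμ : ∀ k ∈ L P 3, ev μ k = 1) : ev (cl g μ) ⁅c, c'⁆ = ev μ ⁅c, c'⁆ := by
  have hm : ⁅c, c'⁆ ∈ L P 2 := h.CC_CC hc hc'
  rw [ev_cl g μ hm]
  have e : g * ⁅c, c'⁆ * g⁻¹ = ⁅g * c * g⁻¹, g * c' * g⁻¹⁆ := by
    simp only [commutatorElement_def]; group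
  obtain ⟨d, hd, hd'⟩ := CC_conj hc g
  obtain ⟨b, hb, hb'⟩ := CC_conj hc' g
  have h1 : ⁅c, b⁆ ∈ L P 3 := comm_swap_mem (h.L1_CC hb hc)
  have h2 : ⁅d, c' * b⁆ ∈ L P 3 := h.L1_CC hd ((CC P).mul_mem hc' (L1_le_CC hb))
  have h12 : L P 3 ≤ L P 2 := L_anti P (by omega)
  have h3 : ⁅c, c' * b⁆ ∈ L P 2 := h.CC_CC hc ((CC P).mul_mem hc' (L1_le_CC hb))
  rw [e, hd', hb', ev_comm_mul_left (P_fix hμ (CC_le hc)) h3 (h12 h2), hμ _ h2, mul_one,
    ev_comm_mul_right (P_fix hμ (CC_le hc')) hm (h12 h1), hμ _ h1, mul_one]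

theorem PC.ev_CC2 (h : PC P K p) (hμ : ∀ k ∈ L P 3, ev μ k = 1) {c c' : G}
    (hc : c ∈ CC P) (hc' : c' ∈ CC P) : ev μ ⁅c, c'⁆ = 1 := by
  obtain ⟨y, μ', hμ', rfl⟩ := h.surj (n := 2) (fun μ hμ hinv => h.no2 hμ hinv) hμ
  rw [ev_hmul, ev_hinv, h.conj_comm2 hc hc' y hμ', mul_inv_cancel]

theorem PC.C_le_ZT (h : PC P K p) {hμ1 : μ ≠ 1} : CC P ≤ ZT h μ hμ hμ1 := by
  obtain ⟨g, hgP, hg⟩ := h.exists_fix (by omega) hμ1 hμ
  have key : ∀ c ∈ CC P, ∀ e ∈ TT (n := 1) μ hμ ⊓ EE P, ev μ ⁅e, c⁆ = 1 := by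
    intro c hc e he
    obtain ⟨d, hd, hgc⟩ := CC_conj hc g
    have hgA : ∀ a ∈ TT (n := 1) μ hμ ⊓ EE P, g * a * g⁻¹ ∈ TT (n := 1) μ hμ ⊓ EE P :=
      fun a ha => ⟨conj_mem_of_mem (TT_nrm (mem_stab_iff.2 hg)) ⟨a, ha.1⟩,
        (EE_normal).conj_mem a ha.2 g⟩
    refine pair_fix (A := TT (n := 1) μ hμ ⊓ EE P) (B0 := L P 1) hg (fun a ha => P_fix hμ ha.1.1)
      (fun a ha => h.T_comm hμ1 ha.1 (h.C_le_T hc)) hgA ?_ (le_inf h.L1_le_T L1_le_EE)
      (fun b hb => hμ _ (h.L1_CC hb hc)) (fun a ha => h.ontoE inf_le_right hgP hgA ha) e he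
    intro a ha
    rw [hgc, ev_comm_mul_right (P_fix hμ (CC_le hc)) (h.T_comm hμ1 ha.1 (h.C_le_T hc))
      (mem_L_succ' P ha.1.1 hd), ha.1.2 d hd, mul_one]
  intro c hc
  refine ⟨h.C_le_T hc, fun y hy => ?_⟩
  obtain ⟨e, he, c', hc', rfl⟩ := h.exists_EC hy.1
  have heT : e ∈ TT (n := 1) μ hμ := by
    have := Subgroup.mul_mem _ hy (Subgroup.inv_mem _ (h.C_le_T (hμ := hμ) hc'))
    rwa [mul_inv_cancel_right] at this
  rw [ev_comm_mul_right (P_fix hμ (EE_le he)) (h.T_comm hμ1 (h.C_le_T hc) heT)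
    (h.CC_CC hc hc'), h.ev_CC2 hμ hc hc', mul_one,
    ev_comm_swap μ (h.T_comm hμ1 heT (h.C_le_T hc)), key c hc e ⟨heT, he⟩, inv_one]

theorem PC.ZT_eq (h : PC P K p) {hμ1 : μ ≠ 1} : ZT h μ hμ hμ1 = CC P :=
  le_antisymm h.ZT_le h.C_le_ZT

end lev2

end Cfsg.Agent.H675.Nd
end

-- part: H675/Nd/PG8
section
/-!
# The Sylow subgroup: Case II, characters of level two
-/

set_option autoImplicit false
set_option linter.style.haveILetI false
set_option linter.unusedSectionVars false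
open Cfsg

namespace Cfsg.Agent.H675.Nd

open Cfsg.Agent.Characters.Core Cfsg.Agent.Characters.Clifford Cfsg.Agent.H672 Cfsg.Agent.H672.RM
open Cfsg.Agent.H597.FrobA
open scoped commutatorElement

universe u v w

section lev2

variable {G : Type u} [Group G] [Finite G] {P K : Subgroup G} [hP : P.Normal] [hK : K.Normal]
  {p : ℕ} {μ : L P 2 →* ℂˣ} {hμ : ∀ k ∈ L P 3, ev μ k = 1}

theorem L2_le_CC : L P 2 ≤ CC P := (L_anti P (by omega : 1 ≤ 2)).trans L1_le_CC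

theorem PC.exists_lam2 (h : PC P K p) (hμ : ∀ k ∈ L P 3, ev μ k = 1) {ω : P → ℂ}
    (hω : IsIrrCharacter P ω) (ho : Over (Subgroup.inclusion (L_le P 2)) ω (lf μ)) :
    ∃ l : CC P →* ℂˣ, Over (Subgroup.inclusion CC_le) ω (lf l) ∧
      ∀ b ∈ L P 2, ev l b = ev μ b := by
  have h1 : ⁅CC P, CC P⁆ ≤ L P 2 := Subgroup.commutator_le.2 fun a ha b hb => h.CC_CC ha hb
  exact exists_lin_under L2_le_CC CC_le (P_le_stab hμ) h1
    (ev_comm_sub h1 fun a ha b hb => h.ev_CC2 hμ ha hb) hω ho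

theorem PC.ev_TC (h : PC P K p) (hμ1 : μ ≠ 1) {x c : G} (hx : x ∈ TT (n := 1) μ hμ)
    (hc : c ∈ CC P) : ev μ ⁅x, c⁆ = 1 := by
  have h1 := (h.C_le_ZT (hμ := hμ) (hμ1 := hμ1) hc).2 x hx
  rw [ev_comm_swap μ (comm_swap_mem (h.P_CC hx.1 hc)), h1, inv_one]

theorem PC.T_iff (h : PC P K p) (hμ1 : μ ≠ 1) {l : CC P →* ℂˣ}
    (hl : ∀ b ∈ L P 2, ev l b = ev μ b) {x : G} (hx : x ∈ P) :
    cl x l = l ↔ x ∈ TT (n := 1) μ hμ := by
  rw [cl_eq_iff]
  have key : ∀ c ∈ CC P, ev l (x * c * x⁻¹) = ev μ ⁅x, c⁆ * ev l c := by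
    intro c hc
    have e : x * c * x⁻¹ = ⁅x, c⁆ * c := by rw [commutatorElement_def]; group
    have hm := h.P_CC hx hc
    rw [e, ev_mul l (L2_le_CC hm) hc, hl _ hm]
  constructor
  · intro h1
    refine ⟨hx, fun z hz => ?_⟩
    have h2 := h1 z (L1_le_CC hz)
    rw [key z (L1_le_CC hz)] at h2
    exact mul_eq_right.1 h2
  · intro h1 c hc
    rw [key c hc, h.ev_TC hμ1 h1 hc, one_mul]

theorem PC.inert2 (h : PC P K p) (hμ1 : μ ≠ 1) {l : CC P →* ℂˣ}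
    (hl : ∀ b ∈ L P 2, ev l b = ev μ b) : Inert (CC P) (TT (n := 1) μ hμ) P (lf l : CC P → ℂ) := by
  refine ⟨CC_le, le_nrm _ _, isIrr_lf l, ?_⟩
  ext x
  rw [Subgroup.mem_inf, mem_stab_iff]
  constructor
  · intro hx
    exact ⟨hx.1, (h.T_iff hμ1 hl hx.1).2 hx⟩
  · rintro ⟨hx, h1⟩
    exact (h.T_iff hμ1 hl hx).1 h1

theorem PC.FR2 (h : PC P K p) (hμ1 : μ ≠ 1) {l : CC P →* ℂˣ}
    (hl : ∀ b ∈ L P 2, ev l b = ev μ b) : FR (CC P) (TT (n := 1) μ hμ) l := by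
  refine ⟨h.C_le_T, (h.inert2 hμ1 hl).Tstab, fun x hx hxC => ?_⟩
  by_contra hcon
  push Not at hcon
  apply hxC
  rw [← h.ZT_eq (hμ := hμ) (hμ1 := hμ1)]
  refine ⟨hx, fun y hy => ?_⟩
  have hm : ⁅y, x⁆ ∈ L P 2 := h.T_comm hμ1 hy hx
  rw [ev_comm_swap μ hm, ← hl _ hm, hcon y hy (L2_le_CC hm), inv_one]

theorem PC.deg2 (h : PC P K p) (hμ : ∀ k ∈ L P 3, ev μ k = 1) (hμ1 : μ ≠ 1) {ω : P → ℂ}
    (hω : IsIrrCharacter P ω) (ho : Over (Subgroup.inclusion (L_le P 2)) ω (lf μ)) :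
    (charDegree ω) ^ 2 = Nat.card (LK (L P 1) (L P 2)) * (CC P).relIndex P := by
  obtain ⟨l, hol, hl⟩ := h.exists_lam2 hμ hω ho
  have hI := h.inert2 (hμ := hμ) hμ1 hl
  have hF := h.FR2 (hμ := hμ) hμ1 hl
  obtain ⟨η, hη, hηl, -, hd⟩ := hI.exists_eta hω hol
  have h1 := hF.deg hη hηl
  have h2 : (TT (n := 1) μ hμ).relIndex P = Nat.card (LK (L P 1) (L P 2)) :=
    h.rd_index (n := 1) le_rfl hμ hμ1 (h.hS2 hμ hμ1)
  have h3 := Subgroup.relIndex_mul_relIndex (CC P) (TT (n := 1) μ hμ) P h.C_le_T TT_le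
  rw [hd, mul_pow, h1, ← h3, h2]
  ring

theorem PC.unique2 (h : PC P K p) (hμ : ∀ k ∈ L P 3, ev μ k = 1) (hμ1 : μ ≠ 1) {l : CC P →* ℂˣ}
    (hl : ∀ b ∈ L P 2, ev l b = ev μ b) {ω ω' : P → ℂ} (hω : IsIrrCharacter P ω)
    (hω' : IsIrrCharacter P ω') (ho : Over (Subgroup.inclusion CC_le) ω (lf l))
    (ho' : Over (Subgroup.inclusion CC_le) ω' (lf l)) : ω = ω' := by
  have hI := h.inert2 (hμ := hμ) hμ1 hl
  have hF := h.FR2 (hμ := hμ) hμ1 hl
  obtain ⟨η, hη, hηl, hηω, -⟩ := hI.exists_eta hω ho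
  obtain ⟨η', hη', hηl', hηω', -⟩ := hI.exists_eta hω' ho'
  have e := hF.unique hη hηl hη' hηl'
  subst e
  exact hI.eq_of_over hω hω' hη hηl hηω hηω'

theorem PC.stab2 (h : PC P K p) (hμ : ∀ k ∈ L P 3, ev μ k = 1) (hμ1 : μ ≠ 1) {ω : P → ℂ}
    (hω : IsIrrCharacter P ω) (ho : Over (Subgroup.inclusion (L_le P 2)) ω (lf μ)) :
    stab ω = stab (lf μ : L P 2 → ℂ) := by
  refine le_antisymm (stab_le_nu hμ hω ho) fun g hg => ?_
  obtain ⟨l, hol, hl⟩ := h.exists_lam2 hμ hω ho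
  -- the restriction of `l` to `γ₂`
  let δ : L P 1 →* ℂˣ := l.comp (Subgroup.inclusion L1_le_CC)
  have hδl : ∀ b ∈ L P 1, ev δ b = ev l b := by
    intro b hb
    rw [ev_of_mem δ hb, ev_of_mem l (L1_le_CC hb)]
    rfl
  have hδ : ∀ b ∈ L P 2, ev δ b = ev μ b := by
    intro b hb
    rw [hδl b (L_anti P (by omega : 1 ≤ 2) hb), hl b hb]
  obtain ⟨x, hx, hgx⟩ := h.exists_adj (n := 1) le_rfl hμ hμ1 (h.hS2 hμ hμ1) hδ
    (mem_stab_iff.1 hg)
  have key := h.pair_coprime (δ := δ) (A := stab (lf δ : L P 1 → ℂ)) (B := CC P)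
    (fun a ha => mem_stab_iff.1 ha)
    (fun b hb => (TT_iff (n := 1) hδ (CC_le hb)).2 (h.C_le_T (hμ := hμ) hb)) CC_le
    (fun a _ b hb => CC_comm' hb a) (fun a ha haP b hb => by
      rw [hδ _ (h.P_CC haP hb)]
      exact h.ev_TC (hμ := hμ) hμ1 ((TT_iff (n := 1) (hμ := hμ) hδ haP).1 (mem_stab_iff.1 ha))
        hb)
  have h1 : cl (g * x⁻¹) l = l := by
    rw [cl_eq_iff]
    intro c hc
    have e : (g * x⁻¹) * c * (g * x⁻¹)⁻¹ = ⁅g * x⁻¹, c⁆ * c := by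
      rw [commutatorElement_def]; group
    have hm : ⁅g * x⁻¹, c⁆ ∈ L P 1 := CC_comm' hc _
    rw [e, ev_mul l (L1_le_CC hm) hc, ← hδl _ hm, key _ (mem_stab_iff.2 hgx) c hc, one_mul]
  have h2 : g * x⁻¹ ∈ stab ω := by
    refine ⟨mem_nrm P _, ?_⟩
    refine h.unique2 hμ hμ1 hl (isIrr_tw (mem_nrm P _) hω) hω ?_ hol
    have h3 := (over_tw_tw CC_le (mem_nrm (CC P) (g * x⁻¹)) (mem_nrm P (g * x⁻¹)) ω (lf l)).2 hol
    have h4 := mem_stab_iff.2 h1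
    rwa [h4.2] at h3
  have h5 := (stab ω).mul_mem h2 (le_stab' hω hx)
  rwa [inv_mul_cancel_right] at h5

theorem PC.const2 (h : PC P K p) (μ μ' : L P 2 →* ℂˣ) (hμ : ∀ k ∈ L P 3, ev μ k = 1)
    (hμ' : ∀ k ∈ L P 3, ev μ' k = 1) (h1 : μ ≠ 1) (h1' : μ' ≠ 1) :
    stab (lf μ : L P 2 → ℂ) = stab (lf μ' : L P 2 → ℂ) := by
  refine h.stab_const (n := 2) (by omega) ?_ ?_ hμ hμ' h1 h1'
  · intro ν ν' hν hν' h1 h1' ω ω' hω hω' ho ho'
    have e := h.deg2 hν h1 hω ho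
    rw [← h.deg2 hν' h1' hω' ho'] at e
    exact Nat.pow_left_injective two_ne_zero e
  · intro ν hν h1 ω hω ho
    exact h.stab2 hν h1 hω ho

theorem PC.L2_CC (h : PC P K p) {z c : G} (hz : z ∈ L P 2) (hc : c ∈ CC P) : ⁅z, c⁆ ∈ L P 4 := by
  have hPC : ⁅P, CC P⁆ ≤ L P 2 := by
    rw [Subgroup.commutator_le]
    exact fun x hx c hc => h.P_CC hx hc
  have hLC : ⁅L P 1, CC P⁆ ≤ L P 3 := by
    rw [Subgroup.commutator_le]
    exact fun x hx c hc => h.L1_CC hx hc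
  have h1 : ⁅⁅L P 1, P⁆, CC P⁆ ≤ L P 4 := by
    refine tsl ((Subgroup.commutator_mono hPC le_rfl).trans (comm_L P 2 1)) ?_
    rw [Subgroup.commutator_comm (CC P)]
    exact (Subgroup.commutator_mono hLC le_rfl).trans (comm_L P 3 0)
  exact h1 (Subgroup.commutator_mem_commutator hz hc)

theorem PC.hS3 (h : PC P K p) {μ : L P 3 →* ℂˣ} (hμ : ∀ k ∈ L P 4, ev μ k = 1) (hμ1 : μ ≠ 1) :
    ∀ g, g ∉ P → cl g μ = μ → ∀ ν : L P 2 →* ℂˣ, (∀ k ∈ L P 3, ev ν k = 1) →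
      cl g ν = ν → ν = 1 :=
  h.hS_of (n := 2) h.const2 (fun _ hz _ hc => h.L2_CC hz hc) hμ hμ1

end lev2

section counts

variable {G : Type u} [Group G] [Finite G] {P K : Subgroup G} [hP : P.Normal] [hK : K.Normal]
  {p : ℕ}

/-- The commutator forms of level one. -/
noncomputable def B1 (P : Subgroup G) [P.Normal] :
    LK (L P 1) (L P 2) →* (P →* (P →* ℂˣ)) :=
  MonoidHom.mk' (fun ν => cpair P P ν.1 (fun _ ha _ hb => mem_L_one P ha hb)
    (fun _ ha => P_fix ((mem_LK_ev (L_anti P (by omega))).1 ν.2) ha)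
    (fun _ ha => P_fix ((mem_LK_ev (L_anti P (by omega))).1 ν.2) ha)) (by
      intro ν ν'
      apply MonoidHom.ext
      intro x
      apply MonoidHom.ext
      intro y
      exact ev_hmul ν.1 ν'.1 _)

theorem B1_apply (ν : LK (L P 1) (L P 2)) (x y : P) : B1 P ν x y = ev ν.1 ⁅(x : G), (y : G)⁆ :=
  rfl

theorem LK_ev {n : ℕ} (ν : LK (L P n) (L P (n + 1))) : ∀ k ∈ L P (n + 1), ev ν.1 k = 1 :=
  (mem_LK_ev (L_anti P (Nat.le_succ n))).1 ν.2

theorem ne_one_coe {A B : Subgroup G} [A.Normal] [B.Normal] {ν : LK A B} (h : ν ≠ 1) :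
    (ν : A →* ℂˣ) ≠ 1 := fun e => h (Subtype.ext e)

theorem PC.B1_rad (h : PC P K p) (ν : LK (L P 1) (L P 2)) (hν : ν ≠ 1) (x : P) :
    (∀ y, B1 P ν x y = 1) ↔ x ∈ (CC P).subgroupOf P := by
  rw [Subgroup.mem_subgroupOf, ← h.Zn_eq (hν := LK_ev ν) (ne_one_coe hν)]
  constructor
  · intro h1
    exact ⟨x.2, fun y hy => h1 ⟨y, hy⟩⟩
  · intro h1 y
    exact h1.2 y y.2

theorem PS.CC_ne (h : PS P K p) : CC P ≠ P := by
  intro e
  obtain ⟨x, hx, hx'⟩ := h.E_ne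
  exact hx' (h.EC_inf hx (by rw [e]; exact EE_le hx))

theorem PS.exists_p (h : PS P K p) {n : ℕ} (hne : ∃ ν : LK (L P n) (L P (n + 1)), ν ≠ 1) :
    ∃ ν : LK (L P n) (L P (n + 1)), ν ≠ 1 ∧ ν ^ p = 1 := by
  haveI := Fact.mk h.pr
  haveI := finite_lin (L P n)
  obtain ⟨ν, hν⟩ := hne
  obtain ⟨k, hk⟩ := IsPGroup.iff_card.1 h.pg
  have h1 : ν ^ (p ^ k) = 1 := by
    apply Subtype.ext
    apply MonoidHom.ext
    intro d
    have h2 : (ν.1 d) ^ (p ^ k) = 1 := by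
      rw [← map_pow]
      have h3 : d ^ (p ^ k) = 1 := by
        apply Subtype.ext
        change (d : G) ^ (p ^ k) = 1
        rw [← hk]
        exact congrArg Subtype.val (pow_card_eq_one' (x := (⟨d, L_le P n d.2⟩ : P)))
      rw [h3, map_one]
    exact h2
  -- the order of `ν` is a nontrivial power of `p`
  obtain ⟨j, -, hj⟩ := (Nat.dvd_prime_pow h.pr).1 (orderOf_dvd_of_pow_eq_one h1)
  have hj0 : j ≠ 0 := by
    rintro rfl
    rw [pow_zero, orderOf_eq_one_iff] at hj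
    exact hν hj
  obtain ⟨i, rfl⟩ := Nat.exists_eq_succ_of_ne_zero hj0
  refine ⟨ν ^ (p ^ i), ?_, ?_⟩
  · intro h2
    have h3 := orderOf_dvd_of_pow_eq_one h2
    rw [hj] at h3
    have h4 := Nat.le_of_dvd (pow_pos h.pr.pos _) h3
    exact absurd h4 (not_le.2 (Nat.pow_lt_pow_right h.pr.one_lt (Nat.lt_succ_self i)))
  · have h5 : p ^ i * p = orderOf ν := by rw [hj, Nat.succ_eq_add_one, pow_succ]
    rw [← pow_mul, h5, pow_orderOf_eq_one]

/-- **Lemma A applied**: `|Λ|² ≤ |P : C|`. -/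
theorem PC.sq_le (h : PC P K p) (hne : ∃ ν : LK (L P 1) (L P 2), ν ≠ 1) :
    Nat.card (LK (L P 1) (L P 2)) ^ 2 ≤ (CC P).relIndex P := by
  haveI := Fact.mk h.pr
  haveI := finite_lin (L P 1)
  refine lemA (B1 P) (h.exists_p hne) ?_ ((CC P).subgroupOf P) h.B1_rad ?_
  · intro ν x
    rw [B1_apply, commutatorElement_self, ev_one]
  · intro e
    rw [Subgroup.subgroupOf_eq_top] at e
    exact h.CC_ne (le_antisymm CC_le e)

/-- Isotropic subgroups. -/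
theorem PC.iso_le (h : PC P K p) {ν : L P 1 →* ℂˣ} (hν : ∀ k ∈ L P 2, ev ν k = 1) (hν1 : ν ≠ 1)
    {T : Subgroup G} (hT : T ≤ P) (hC : CC P ≤ T) (hTT : ∀ a ∈ T, ∀ b ∈ T, ev ν ⁅a, b⁆ = 1) :
    (CC P).relIndex P ≤ (T.relIndex P) ^ 2 := by
  have hA : ∀ a ∈ P, cl a ν = ν := fun a ha => P_fix hν ha
  have hAT : ∀ a ∈ T, cl a ν = ν := fun a ha => P_fix hν (hT ha)
  have hAB : ∀ a ∈ P, ∀ b ∈ T, ⁅a, b⁆ ∈ L P 1 := fun a ha b hb => mem_L_one P ha (hT hb)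
  have hBA : ∀ a ∈ T, ∀ b ∈ P, ⁅a, b⁆ ∈ L P 1 := fun a ha b hb => mem_L_one P (hT ha) hb
  have h1 := rd_dual (A := P) (B := T) (δ := ν) (hA := hA) (hAB := hAB) hAT hBA
  have h2 : rd T P ν hAT hBA = CC P := by
    rw [← h.Zn_eq (hν := hν) hν1]
    ext x
    rw [mem_rd, mem_Zn]
    constructor
    · rintro ⟨h3, h4⟩
      exact ⟨hT h3, h4⟩
    · rintro ⟨h3, h4⟩
      refine ⟨hC ?_, h4⟩
      rw [← h.Zn_eq (hν := hν) hν1]
      exact ⟨h3, h4⟩
  rw [h2] at h1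
  have h3 : T ≤ rd P T ν hA hAB := fun x hx => ⟨hT hx, fun b hb => hTT x hx b hb⟩
  have h4 := Subgroup.relIndex_mul_relIndex T (rd P T ν hA hAB) P h3 rd_le
  have h5 := Subgroup.relIndex_mul_relIndex (CC P) T P hC hT
  rw [← h5, ← h1, pow_two]
  refine Nat.mul_le_mul_right _ ?_
  rw [← h4]
  exact Nat.le_mul_of_pos_left _ (index_pos (T.subgroupOf (rd P T ν hA hAB)))

/-- `|P : C| = q²`. -/
theorem PC.q_sq (h : PC P K p) {μ : L P 2 →* ℂˣ} (hμ : ∀ k ∈ L P 3, ev μ k = 1) (hμ1 : μ ≠ 1) :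
    (CC P).relIndex P = Nat.card (LK (L P 1) (L P 2)) ^ 2 := by
  have hne : ∃ ν : LK (L P 1) (L P 2), ν ≠ 1 := by
    by_contra hcon
    push Not at hcon
    have h1 : L P 1 = ⊥ := h.L_bot fun ν hν =>
      congrArg Subtype.val (hcon ⟨ν, (mem_LK_ev (L_anti P (by omega))).2 hν⟩)
    apply hμ1
    apply ev_ext
    intro d hd
    have hd1 : d ∈ L P 1 := L_anti P (by omega : 1 ≤ 2) hd
    rw [h1, Subgroup.mem_bot] at hd1
    rw [hd1, ev_one, ev_one]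
  refine le_antisymm ?_ (h.sq_le hne)
  obtain ⟨ν, hν⟩ := hne
  have h2 : (TT (n := 1) μ hμ).relIndex P = Nat.card (LK (L P 1) (L P 2)) :=
    h.rd_index (n := 1) le_rfl hμ hμ1 (h.hS2 hμ hμ1)
  rw [← h2]
  exact h.iso_le (LK_ev ν) (ne_one_coe hν) TT_le h.C_le_T fun a ha b hb =>
    LK_ev ν _ (h.T_comm hμ1 ha hb)

end counts

end Cfsg.Agent.H675.Nd
end

-- part: H675/Nd/PG9
section
/-!
# The Sylow subgroup: Case II, the data of level three
-/

set_option autoImplicit false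
set_option linter.style.haveILetI false
set_option linter.unusedSectionVars false
open Cfsg

namespace Cfsg.Agent.H675.Nd

open Cfsg.Agent.Characters.Core Cfsg.Agent.Characters.Clifford Cfsg.Agent.H672 Cfsg.Agent.H672.RM
open Cfsg.Agent.H597.FrobA
open scoped commutatorElement

universe u v w

section lev3

variable {G : Type u} [Group G] [Finite G] {P K : Subgroup G} [hP : P.Normal] [hK : K.Normal]
  {p : ℕ}

/-- The commutator forms of level two. -/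
noncomputable def T2 (P : Subgroup G) [P.Normal] :
    LK (L P 2) (L P 3) →* (L P 1 →* (P →* ℂˣ)) :=
  MonoidHom.mk' (fun κ => cpair (L P 1) P κ.1 (fun _ ha _ hb => mem_L_succ P ha hb)
    (fun _ ha => P_fix (LK_ev κ) (L_le P 1 ha)) (fun _ ha => P_fix (LK_ev κ) ha)) (by
      intro κ κ'
      apply MonoidHom.ext
      intro x
      apply MonoidHom.ext
      intro y
      exact ev_hmul κ.1 κ'.1 _)

theorem T2_apply (κ : LK (L P 2) (L P 3)) (w : L P 1) (v : P) :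
    T2 P κ w v = ev κ.1 ⁅(w : G), (v : G)⁆ := rfl

variable {μ : L P 3 →* ℂˣ}

/-- `y ↦ μ([·, y])` -/
noncomputable def km (μ : L P 3 →* ℂˣ) (hμ : ∀ k ∈ L P 4, ev μ k = 1) :
    P →* LK (L P 2) (L P 3) :=
  (cpair (L P 2) P μ (fun _ ha _ hb => mem_L_succ P ha hb)
    (fun _ ha => P_fix hμ (L_le P 2 ha)) (fun _ ha => P_fix hμ ha)).flip.codRestrict
      (LK (L P 2) (L P 3)) (by
        intro y k _ hk
        exact hμ _ (mem_L_succ P hk y.2))

theorem km_apply {hμ : ∀ k ∈ L P 4, ev μ k = 1} (y : P) {z : G} (hz : z ∈ L P 2) :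
    ev (km μ hμ y).1 z = ev μ ⁅z, (y : G)⁆ := by
  rw [ev_of_mem _ hz]
  rfl

theorem comm_11 {a b : G} (ha : a ∈ L P 1) (hb : b ∈ L P 1) : ⁅a, b⁆ ∈ L P 3 :=
  comm_L P 1 1 (Subgroup.commutator_mem_commutator ha hb)

theorem comm_12 {a b : G} (ha : a ∈ L P 1) (hb : b ∈ L P 2) : ⁅a, b⁆ ∈ L P 4 :=
  comm_L P 1 2 (Subgroup.commutator_mem_commutator ha hb)

/-- `w ↦ μ([w, ·])` -/
noncomputable def psm (μ : L P 3 →* ℂˣ) (hμ : ∀ k ∈ L P 4, ev μ k = 1) :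
    L P 1 →* LK (L P 1) (L P 2) :=
  (cpair (L P 1) (L P 1) μ (fun _ ha _ hb => comm_11 ha hb)
    (fun _ ha => P_fix hμ (L_le P 1 ha)) (fun _ ha => P_fix hμ (L_le P 1 ha))).codRestrict
      (LK (L P 1) (L P 2)) (by
        intro w k _ hk
        exact hμ _ (comm_12 w.2 hk))

theorem psm_apply {hμ : ∀ k ∈ L P 4, ev μ k = 1} (w : L P 1) {z : G} (hz : z ∈ L P 1) :
    ev (psm μ hμ w).1 z = ev μ ⁅(w : G), z⁆ := by
  rw [ev_of_mem _ hz]
  rfl

theorem PC.exists_κ (h : PC P K p) (hμ1 : μ ≠ 1) :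
    ∃ κ : LK (L P 2) (L P 3), κ ≠ 1 := by
  by_contra hcon
  push Not at hcon
  have h1 : L P 2 = ⊥ := h.L_bot fun ν hν =>
    congrArg Subtype.val (hcon ⟨ν, (mem_LK_ev (L_anti P (by omega))).2 hν⟩)
  apply hμ1
  apply ev_ext
  intro d hd
  have hd1 : d ∈ L P 2 := L_anti P (by omega : 2 ≤ 3) hd
  rw [h1, Subgroup.mem_bot] at hd1
  rw [hd1, ev_one, ev_one]

theorem PC.one_lt_q (h : PC P K p) {κ : LK (L P 2) (L P 3)} (hκ : κ ≠ 1) :
    1 < Nat.card (LK (L P 1) (L P 2)) := by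
  haveI := finite_lin (L P 1)
  have h1 := h.q_sq (LK_ev κ) (ne_one_coe hκ)
  have h2 : (CC P).relIndex P ≠ 1 := by
    intro e
    rw [Subgroup.relIndex_eq_one] at e
    exact h.CC_ne (le_antisymm CC_le e)
  have h3 : 0 < Nat.card (LK (L P 1) (L P 2)) := Nat.card_pos
  by_contra hcon
  have h4 : Nat.card (LK (L P 1) (L P 2)) = 1 := by omega
  rw [h4, one_pow] at h1
  exact h2 h1

theorem PC.idx_pp (h : PC P K p) {v : P} (hv : (v : G) ∉ CC P) :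
    (pp (B1 P) v).index = Nat.card (LK (L P 1) (L P 2)) := by
  haveI := finite_lin (L P 1)
  have h1 := card_pair ((B1 P).flip v)
  have h2 : ((B1 P).flip v).ker = ⊥ := by
    rw [eq_bot_iff]
    intro ν hν
    rw [Subgroup.mem_bot]
    by_contra hν1
    apply hv
    rw [← Subgroup.mem_subgroupOf, ← h.B1_rad ν hν1]
    intro y
    exact DFunLike.congr_fun hν y
  rw [h2, Subgroup.index_bot] at h1
  exact h1.symm

theorem PC.T_eq (h : PC P K p) {v : P} (hv : (v : G) ∉ CC P) {κ : LK (L P 2) (L P 3)} (hκ : κ ≠ 1)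
    (hvT : (v : G) ∈ TT (n := 1) κ.1 (LK_ev κ)) :
    (TT (n := 1) κ.1 (LK_ev κ)).subgroupOf P = pp (B1 P) v := by
  haveI := finite_lin (L P 1)
  have hκ1 := ne_one_coe hκ
  have h1 : (TT (n := 1) κ.1 (LK_ev κ)).subgroupOf P ≤ pp (B1 P) v := by
    intro y hy
    rw [Subgroup.mem_subgroupOf] at hy
    rw [mem_pp]
    intro ν
    exact LK_ev ν _ (h.T_comm hκ1 hvT hy)
  have h2 : (TT (n := 1) κ.1 (LK_ev κ)).relIndex P = Nat.card (LK (L P 1) (L P 2)) :=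
    h.rd_index (n := 1) le_rfl (LK_ev κ) hκ1 (h.hS2 (LK_ev κ) hκ1)
  refine eq_of_le_of_index_eq h1 ?_
  rw [h.idx_pp hv]
  exact h2

theorem PC.hN (h : PC P K p) {κ₁ : LK (L P 2) (L P 3)} (hκ₁ : κ₁ ≠ 1) {v : P}
    (hv : (v : G) ∉ CC P) :
    Nat.card {κ : LK (L P 2) (L P 3) // ∀ w, T2 P κ w v = 1} <
      Nat.card (LK (L P 1) (L P 2)) := by
  haveI := finite_lin (L P 1)
  haveI := finite_lin (L P 2)
  let N : Subgroup (LK (L P 2) (L P 3)) := (TV (T2 P) v).ker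
  have hN : ∀ κ, κ ∈ N ↔ ∀ w, T2 P κ w v = 1 := fun κ => mem_NN
  have hcard : Nat.card {κ : LK (L P 2) (L P 3) // ∀ w, T2 P κ w v = 1} = Nat.card N :=
    Nat.card_congr (Equiv.subtypeEquivRight fun κ => (hN κ).symm)
  rw [hcard]
  by_cases h0 : ∀ κ ∈ N, κ = 1
  · have h1 : N = ⊥ := by
      rw [eq_bot_iff]
      exact fun κ hκ => Subgroup.mem_bot.2 (h0 κ hκ)
    rw [h1, Subgroup.card_bot]
    exact h.one_lt_q hκ₁
  push Not at h0
  obtain ⟨κ₀, hκ₀, hκ₀1⟩ := h0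
  have hvT : ∀ κ ∈ N, (v : G) ∈ TT (n := 1) κ.1 (LK_ev κ) := by
    intro κ hκ
    rw [hN] at hκ
    refine ⟨v.2, fun z hz => ?_⟩
    have h1 : ev κ.1 ⁅z, (v : G)⁆ = 1 := hκ ⟨z, hz⟩
    rw [ev_comm_swap κ.1 (mem_L_succ P hz v.2), h1, inv_one]
  set T₀ := TT (n := 1) κ₀.1 (LK_ev κ₀) with hT₀
  have hκ₀' := ne_one_coe hκ₀1
  have hvT₀ : (v : G) ∈ T₀ := hvT κ₀ hκ₀
  have hcomm : ∀ y ∈ T₀, ⁅(v : G), y⁆ ∈ L P 2 := fun y hy => h.T_comm hκ₀' hvT₀ hy
  let φ : N →* (T₀ →* ℂˣ) := MonoidHom.mk' (fun κ => MonoidHom.mk' (fun y => ev κ.1.1 ⁅(v : G), (y : G)⁆)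
    (fun y y' => ev_comm_mul_right (P_fix (LK_ev κ.1) y.2.1) (hcomm y y.2) (hcomm y' y'.2)))
    (by
      intro κ κ'
      apply MonoidHom.ext
      intro y
      exact ev_hmul κ.1.1 κ'.1.1 _)
  have hφ : ∀ (κ : N) (y : T₀), φ κ y = ev κ.1.1 ⁅(v : G), (y : G)⁆ := fun _ _ => rfl
  have h1 := card_pair φ
  have h2 : φ.ker = ⊥ := by
    rw [eq_bot_iff]
    intro κ hκ
    rw [Subgroup.mem_bot]
    by_contra hκ1
    have hκ1' : κ.1 ≠ 1 := fun e => hκ1 (Subtype.ext e)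
    apply hv
    rw [← h.ZT_eq (hμ := LK_ev κ.1) (hμ1 := ne_one_coe hκ1')]
    refine ⟨hvT κ.1 κ.2, fun y hy => ?_⟩
    have h3 : y ∈ T₀ := by
      have e1 := h.T_eq hv hκ1' (hvT κ.1 κ.2)
      rw [← h.T_eq hv hκ₀1 hvT₀] at e1
      have h4 : (⟨y, hy.1⟩ : P) ∈ (TT (n := 1) κ.1.1 (LK_ev κ.1)).subgroupOf P := hy
      rw [e1] at h4
      exact h4
    exact DFunLike.congr_fun hκ ⟨y, h3⟩
  rw [h2, Subgroup.index_bot] at h1
  rw [h1]
  have h5 : (CC P).subgroupOf T₀ ≤ φ.flip.ker := by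
    intro c hc
    rw [Subgroup.mem_subgroupOf] at hc
    rw [MonoidHom.mem_ker]
    apply MonoidHom.ext
    intro κ
    change ev κ.1.1 ⁅(v : G), (c : G)⁆ = 1
    by_cases hκ1 : κ.1 = 1
    · rw [hκ1]
      exact ev_hone _
    · exact h.ev_TC (ne_one_coe hκ1) (hvT κ.1 κ.2) hc
  have h6 : (⟨v, hvT₀⟩ : T₀) ∈ φ.flip.ker := by
    rw [MonoidHom.mem_ker]
    apply MonoidHom.ext
    intro κ
    change ev κ.1.1 ⁅(v : G), (v : G)⁆ = 1
    rw [commutatorElement_self, ev_one]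
  have h7 : ((CC P).subgroupOf T₀).index = Nat.card (LK (L P 1) (L P 2)) := by
    have h8 : T₀.relIndex P = Nat.card (LK (L P 1) (L P 2)) :=
      h.rd_index (n := 1) le_rfl (LK_ev κ₀) hκ₀' (h.hS2 (LK_ev κ₀) hκ₀')
    have h9 := Subgroup.relIndex_mul_relIndex (CC P) T₀ P h.C_le_T TT_le
    rw [h.q_sq (LK_ev κ₀) hκ₀', h8, pow_two] at h9
    exact Nat.eq_of_mul_eq_mul_right (Nat.card_pos) h9
  rw [← h7]
  refine lt_of_le_of_ne (Nat.le_of_dvd (index_pos _) (Subgroup.index_dvd_of_le h5)) ?_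
  intro e
  apply hv
  have e2 := eq_of_le_of_index_eq h5 e.symm
  rw [← e2, Subgroup.mem_subgroupOf] at h6
  exact h6

/-- **The data of Lemma L.** -/
theorem PC.LD (h : PC P K p) (hμ : ∀ k ∈ L P 4, ev μ k = 1) (hμ1 : μ ≠ 1) :
    LD (B1 P) (T2 P) (km μ hμ) (psm μ hμ) ((CC P).subgroupOf P) ((L P 2).subgroupOf (L P 1))
      (Nat.card (LK (L P 1) (L P 2))) := by
  obtain ⟨κ₁, hκ₁⟩ := h.exists_κ hμ1
  refine
    { alt := fun ν x => ?_
      hV := h.B1_rad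
      hW := fun κ hκ w => ?_
      hTV := fun κ w v hv => LK_ev κ _ (h.L1_CC w.2 hv)
      cΛ := rfl
      cW := (card_LKL 1).symm
      cV := ?_
      iso := fun κ hκ x y hx hy ν => ?_
      hN := fun v hv => h.hN hκ₁ hv
      ksurj := fun κ => ?_
      kV := fun v hv => ?_
      jac := fun w v y => ?_
      hΞ := ⟨κ₁, hκ₁⟩ }
  · rw [B1_apply, commutatorElement_self, ev_one]
  · constructor
    · intro h1
      exact h.rad_L (n := 1) le_rfl (LK_ev κ) (ne_one_coe hκ) (h.hS2 (LK_ev κ) (ne_one_coe hκ))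
        w.2 fun x hx => h1 ⟨x, hx⟩
    · intro h1 v
      exact LK_ev κ _ (mem_L_succ P h1 v.2)
  · have h1 := h.q_sq (LK_ev κ₁) (ne_one_coe hκ₁)
    rw [pow_two] at h1
    exact h1
  · have hT : ∀ x : P, (∀ w, T2 P κ w x = 1) → (x : G) ∈ TT (n := 1) κ.1 (LK_ev κ) := by
      intro x hx
      refine ⟨x.2, fun z hz => ?_⟩
      have h1 : ev κ.1 ⁅z, (x : G)⁆ = 1 := hx ⟨z, hz⟩
      rw [ev_comm_swap κ.1 (mem_L_succ P hz x.2), h1, inv_one]
    exact LK_ev ν _ (h.T_comm (ne_one_coe hκ) (hT x hx) (hT y hy))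
  · obtain ⟨x, hx, hx'⟩ := h.exists_x (n := 2) (by omega) hμ hμ1 (h.hS3 hμ hμ1) (LK_ev κ)
    refine ⟨⟨x⁻¹, P.inv_mem hx⟩, ?_⟩
    apply Subtype.ext
    apply ev_ext
    intro z hz
    rw [km_apply _ hz, hx' z hz]
    change ev μ ⁅z, x⁻¹⁆ = _
    rw [ev_comm_inv_right (P_fix hμ hx) (mem_L_succ P hz hx) (mem_L_succ P hz (P.inv_mem hx)),
      ev_comm_swap μ (mem_L_succ P hz hx)]
  · apply Subtype.ext
    apply ev_ext
    intro z hz
    have hv' : (v : G) ∈ CC P := hv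
    rw [km_apply _ hz, hμ _ (h.L2_CC hz hv')]
    exact (ev_hone z).symm
  · have hvy : ⁅(v : G), (y : G)⁆ ∈ L P 1 := mem_L_one P v.2 y.2
    have hwv : ⁅(w : G), (v : G)⁆ ∈ L P 2 := mem_L_succ P w.2 v.2
    have hwy : ⁅(w : G), (y : G)⁆ ∈ L P 2 := mem_L_succ P w.2 y.2
    rw [B1_apply, T2_apply, T2_apply, psm_apply _ hvy, km_apply _ hwv, km_apply _ hwy]
    have h1 := jac (P := P) (a := 0) (b := 0) (c := 1) (n := 3) (by omega) v.2 y.2 w.2 hμ
    have hyw : ⁅(y : G), (w : G)⁆ = ⁅(w : G), (y : G)⁆⁻¹ := (commutatorElement_inv _ _).symm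
    have m1 : ⁅(v : G), ⁅(w : G), (y : G)⁆⁆ ∈ L P 3 := mem_L_succ' P v.2 hwy
    have m2 : ⁅(v : G), ⁅(w : G), (y : G)⁆⁻¹⁆ ∈ L P 3 := mem_L_succ' P v.2 ((L P 2).inv_mem hwy)
    rw [hyw, ev_comm_inv_right (P_fix hμ (L_le P 2 hwy)) m1 m2,
      ← ev_comm_swap μ m1, ev_comm_swap μ (mem_L_succ P hwv y.2), mul_assoc] at h1
    rw [eq_inv_of_mul_eq_one_left h1, mul_inv, inv_inv]
end lev3

end Cfsg.Agent.H675.Nd
end

-- part: H675/Nd/PG10
section
/-!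
# The Sylow subgroup: Case II, no level three
-/

set_option autoImplicit false
set_option linter.style.haveILetI false
set_option linter.unusedSectionVars false
open Cfsg

namespace Cfsg.Agent.H675.Nd

open Cfsg.Agent.Characters.Core Cfsg.Agent.Characters.Clifford Cfsg.Agent.H672 Cfsg.Agent.H672.RM
open Cfsg.Agent.H597.FrobA
open scoped commutatorElement

universe u v w

section lev3

variable {G : Type u} [Group G] [Finite G] {P K : Subgroup G} [hP : P.Normal] [hK : K.Normal]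
  {p : ℕ} {μ : L P 3 →* ℂˣ}

/-- Stabilizers of level one fix the characters of level three. -/
theorem PC.S1_le (h : PC P K p) (hμ : ∀ k ∈ L P 4, ev μ k = 1) {a : G}
    (ha : ∀ ν : L P 1 →* ℂˣ, (∀ k ∈ L P 2, ev ν k = 1) → cl a ν = ν) : cl a μ = μ := by
  haveI := finite_lin (L P 1)
  haveI := finite_lin (L P 2)
  by_contra hcon
  have hκ1 : cl a μ * μ⁻¹ ≠ 1 := fun e => hcon (lin_mul_inv_eq_one e)
  have hκ : ∀ k ∈ L P 4, ev (cl a μ * μ⁻¹) k = 1 := by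
    intro k hk
    rw [ev_hmul, ev_hinv, ev_cl a μ (L_anti P (by omega : 3 ≤ 4) hk), hμ k hk, inv_one, mul_one]
    exact hμ _ ((inferInstance : (L P 4).Normal).conj_mem k hk a)
  obtain ⟨w, hw⟩ := (h.LD hκ hκ1).exists_psi_ne
  apply hw
  apply Subtype.ext
  apply ev_ext
  intro z hz
  rw [psm_apply w hz]
  have h0 := triv_L ha w.2
  have h0' := triv_L ha hz
  have hm : ⁅(w : G), z⁆ ∈ L P 3 := comm_11 w.2 hz
  have e : a * ⁅(w : G), z⁆ * a⁻¹ = ⁅(w : G) * ((w : G)⁻¹ * (a * w * a⁻¹)),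
      z * (z⁻¹ * (a * z * a⁻¹))⁆ := by
    simp only [commutatorElement_def]; group
  have h12 : L P 2 ≤ L P 1 := L_anti P (by omega)
  have h34 : L P 4 ≤ L P 3 := L_anti P (by omega)
  have hzb : z * (z⁻¹ * (a * z * a⁻¹)) ∈ L P 1 := (L P 1).mul_mem hz (h12 h0')
  have m1 : ⁅(w : G), z⁻¹ * (a * z * a⁻¹)⁆ ∈ L P 4 := comm_12 w.2 h0'
  have m2 : ⁅(w : G)⁻¹ * (a * w * a⁻¹), z * (z⁻¹ * (a * z * a⁻¹))⁆ ∈ L P 4 :=
    comm_swap_mem (comm_12 hzb h0)
  rw [ev_hmul, ev_hinv, ev_cl a μ hm, e,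
    ev_comm_mul_left (P_fix hμ (L_le P 1 w.2)) (comm_11 w.2 hzb) (h34 m2), hμ _ m2, mul_one,
    ev_comm_mul_right (P_fix hμ (L_le P 1 hz)) hm (h34 m1), hμ _ m1, mul_one, mul_inv_cancel]
  exact (ev_hone z).symm

theorem PC.L1_le_T3 (_h : PC P K p) {hμ : ∀ k ∈ L P 4, ev μ k = 1} :
    L P 1 ≤ TT (n := 2) μ hμ := fun _ hw =>
  ⟨L_le P 1 hw, fun _ hz => hμ _ (comm_12 hw hz)⟩

theorem PC.C_le_T3 (h : PC P K p) {hμ : ∀ k ∈ L P 4, ev μ k = 1} : CC P ≤ TT (n := 2) μ hμ :=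
  CC_le_TT fun _ hz _ hc => h.L2_CC hz hc

/-- The degree of a character of level three is large. -/
theorem PC.deg3 (h : PC P K p) (hμ : ∀ k ∈ L P 4, ev μ k = 1) (hμ1 : μ ≠ 1) {ω : P → ℂ}
    (hω : IsIrrCharacter P ω) (ho : Over (Subgroup.inclusion (L_le P 3)) ω (lf μ)) :
    Nat.card (LK (L P 1) (L P 2)) < charDegree ω := by
  haveI := finite_lin (L P 1)
  haveI := finite_lin (L P 2)
  have h22 : ⁅L P 2, L P 2⁆ ≤ L P 4 := (comm_L P 2 2).trans (L_anti P (by omega))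
  have h34 : L P 4 ≤ L P 3 := L_anti P (by omega)
  have h23 : L P 3 ≤ L P 2 := L_anti P (by omega)
  obtain ⟨δ, hoδ, hδ⟩ := exists_lin_under (T := P) h23 (L_le P 2) (P_le_stab hμ)
    (h22.trans h34) (fun z hz => hμ z (h22 hz)) hω ho
  have hI : Inert (L P 2) (TT (n := 2) μ hμ) P (lf δ : L P 2 → ℂ) := by
    refine ⟨L_le P 2, le_nrm _ _, isIrr_lf δ, ?_⟩
    ext x
    rw [Subgroup.mem_inf, mem_stab_iff]
    constructor
    · intro hx
      exact ⟨hx.1, (TT_iff (n := 2) hδ hx.1).2 hx⟩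
    · rintro ⟨hx, h1⟩
      exact (TT_iff (n := 2) hδ hx).1 h1
  obtain ⟨η, hη, hηδ, -, hd⟩ := hI.exists_eta hω hoδ
  have h2 : (TT (n := 2) μ hμ).relIndex P = Nat.card (LK (L P 2) (L P 3)) :=
    h.rd_index (n := 2) (by omega) hμ hμ1 (h.hS3 hμ hμ1)
  have h3 := (h.LD hμ hμ1).le_card
  have h4 : charDegree η ≠ 1 := by
    intro h5
    obtain ⟨e, rfl⟩ := exists_hom_of_degree_one hη h5
    obtain ⟨w, hw⟩ := (h.LD hμ hμ1).exists_psi_ne
    apply hw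
    apply Subtype.ext
    apply ev_ext
    intro z hz
    rw [psm_apply w hz]
    have hm : ⁅(w : G), z⁆ ∈ L P 3 := comm_11 w.2 hz
    have h6 := res_lin hI.KT hI.Tstab hη hηδ ⟨_, h23 hm⟩
    have h7 : lf e (Subgroup.inclusion hI.KT ⟨_, h23 hm⟩) = 1 := by
      have h8 : Subgroup.inclusion hI.KT ⟨_, h23 hm⟩ =
          ⁅(⟨w, h.L1_le_T3 w.2⟩ : TT (n := 2) μ hμ), ⟨z, h.L1_le_T3 hz⟩⁆ := rfl
      rw [h8, lf_apply, map_commutatorElement, commutatorElement_eq_one_iff_mul_comm.2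
        (mul_comm _ _), Units.val_one]
    have h9 : lf e 1 = 1 := by rw [lf_apply, map_one, Units.val_one]
    rw [h7, h9, one_mul, ← ev_coe] at h6
    have h10 : ev δ ⁅(w : G), z⁆ = 1 := Units.ext h6.symm
    rw [← hδ _ hm, h10]
    exact (ev_hone z).symm
  have h5 : 0 < charDegree η := charDegree_pos hη
  have h6 : 0 < Nat.card (LK (L P 1) (L P 2)) := Nat.card_pos
  rw [hd, h2]
  calc Nat.card (LK (L P 1) (L P 2)) < Nat.card (LK (L P 1) (L P 2)) * 2 := by omega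
    _ ≤ Nat.card (LK (L P 2) (L P 3)) * charDegree η := Nat.mul_le_mul h3 (by omega)

theorem PC.big (h : PC P K p) (hμ : ∀ k ∈ L P 4, ev μ k = 1) (hμ1 : μ ≠ 1) {ω : P → ℂ}
    (hω : IsIrrCharacter P ω) (ho : Over (Subgroup.inclusion (L_le P 3)) ω (lf μ))
    {ν : L P 1 →* ℂˣ} (hν : ∀ k ∈ L P 2, ev ν k = 1) (hν1 : ν ≠ 1) :
    ∃ g ∈ stab ω, g ∉ stab (lf ν : L P 1 → ℂ) := by
  by_contra hcon
  push Not at hcon
  obtain ⟨κ₁, hκ₁⟩ := h.exists_κ hμ1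
  obtain ⟨ω₁, hω₁, ho₁⟩ := exists_over_incl (L_le P 1) (isIrr_lf ν)
  have h1 := h.deg1 hν hν1 hω₁ ho₁
  rw [h.q_sq (LK_ev κ₁) (ne_one_coe hκ₁)] at h1
  have h2 : charDegree ω₁ = Nat.card (LK (L P 1) (L P 2)) := Nat.pow_left_injective two_ne_zero h1
  have h3 := h.deg3 hμ hμ1 hω ho
  rw [← h2] at h3
  have h4 : charDegree ω₁ ∣ charDegree ω := by
    rcases pow_dvd_or (h.deg_pow hω₁) (h.deg_pow hω) with h5 | h5
    · exact h5
    · exact absurd (Nat.le_of_dvd (charDegree_pos hω₁) h5) (not_le.2 h3)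
  have h5 := (anti_omega h.anti h.cyc hω₁ hω (over_nonlin le_rfl hν1 hω₁ ho₁) h4 (by
    rw [h.stab_nu (hν := hν) hν1 hω₁ ho₁]
    exact hcon)).2
  exact absurd h5 (ne_of_lt h3)

/-- **There is no level three.** -/
theorem PC.L3_bot (h : PC P K p) : L P 3 = ⊥ := by
  apply h.L_bot
  intro μ hμ
  by_contra hμ1
  haveI := finite_lin (L P 1)
  haveI := finite_lin (L P 2)
  have hLD := h.LD hμ hμ1
  -- a nontrivial character of level one
  obtain ⟨w₀, hw₀⟩ := hLD.exists_psi_ne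
  set ν : L P 1 →* ℂˣ := (psm μ hμ w₀).1 with hνdef
  have hν : ∀ k ∈ L P 2, ev ν k = 1 := LK_ev (psm μ hμ w₀)
  have hν1 : ν ≠ 1 := ne_one_coe hw₀
  have hall : ∀ a, a ∈ stab (lf ν : L P 1 → ℂ) → ∀ ν' : L P 1 →* ℂˣ,
      (∀ k ∈ L P 2, ev ν' k = 1) → cl a ν' = ν' := by
    intro a ha ν' hν'
    by_cases h1 : ν' = 1
    · rw [h1, cl_hone]
    · rw [← mem_stab_iff, h.const1 ν' ν hν' hν h1 hν1]
      exact ha
  have hnone : ∀ a, a ∉ stab (lf ν : L P 1 → ℂ) → ∀ ν' : L P 1 →* ℂˣ,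
      (∀ k ∈ L P 2, ev ν' k = 1) → cl a ν' = ν' → ν' = 1 := by
    intro a ha ν' hν' h2
    by_contra h1
    apply ha
    rw [← h.const1 ν' ν hν' hν h1 hν1]
    exact mem_stab_iff.2 h2
  have hPS : P ≤ stab (lf ν : L P 1 → ℂ) := P_le_stab hν
  obtain ⟨δ, hδ⟩ := exists_ext_L (n := 2) (by omega) hμ
  have h12 : L P 2 ≤ L P 1 := L_anti P (by omega)
  have h23 : L P 3 ≤ L P 2 := L_anti P (by omega)
  have h34 : L P 4 ≤ L P 3 := L_anti P (by omega)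
  have hA : ∀ a ∈ L P 1, cl a μ = μ := fun a ha => P_fix hμ (L_le P 1 ha)
  have hAB : ∀ a ∈ L P 1, ∀ b ∈ L P 1, ⁅a, b⁆ ∈ L P 3 := fun a ha b hb => comm_11 ha hb
  set R := rd (L P 1) (L P 1) μ hA hAB with hR
  have hBR : L P 2 ≤ R := fun b hb =>
    ⟨h12 hb, fun w hw => hμ _ (comm_swap_mem (comm_12 hw hb))⟩
  have hR1 : R ≤ L P 1 := rd_le
  have hDμ : stab (lf δ : L P 2 → ℂ) ≤ stab (lf μ : L P 3 → ℂ) := stab_ext_le (n := 2) hδ
  have hμR : stab (lf μ : L P 3 → ℂ) ≤ Subgroup.normalizer (R : Set G) := fun g hg =>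
    rd_nrm (mem_nrm _ g) (mem_nrm _ g) (mem_stab_iff.1 hg)
  have hfix1 : ∀ b ∈ L P 1, cl b δ = δ := fun b hb =>
    (TT_iff (n := 2) (hμ := hμ) hδ (L_le P 1 hb)).2 (h.L1_le_T3 hb)
  have hfixC : ∀ b ∈ CC P, cl b δ = δ := fun b hb =>
    (TT_iff (n := 2) (hμ := hμ) hδ (CC_le hb)).2 (h.C_le_T3 hb)
  -- commutators with elements of `S₁`
  have hcS : ∀ a ∈ stab (lf ν : L P 1 → ℂ), ∀ z ∈ L P 1, ⁅a, z⁆ ∈ L P 2 := by
    intro a ha z hz
    have h1 := triv_L (hall a ha) hz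
    have e : ⁅a, z⁆ = z * (z⁻¹ * (a * z * a⁻¹)) * z⁻¹ := by
      rw [commutatorElement_def]; group
    rw [e]
    exact (inferInstance : (L P 2).Normal).conj_mem _ h1 z
  -- elements `a₀` and `g₁`
  obtain ⟨a₀, ha₀P, ha₀S, ha₀δ⟩ : ∃ a, a ∉ P ∧ a ∈ stab (lf ν : L P 1 → ℂ) ∧ cl a δ = δ := by
    obtain ⟨a, haP, ha⟩ := h.exists_fix le_rfl hν1 hν
    have haS := mem_stab_iff.2 ha
    have haμ := h.S1_le hμ (hall a haS)
    obtain ⟨x, hx, hx'⟩ := h.exists_adj (n := 2) (by omega) hμ hμ1 (h.hS3 hμ hμ1) hδ haμ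
    refine ⟨a * x⁻¹, fun h1 => haP ?_, Subgroup.mul_mem _ haS (Subgroup.inv_mem _ (hPS hx)), hx'⟩
    have := P.mul_mem h1 hx
    rwa [inv_mul_cancel_right] at this
  have hnotS : ∀ {g x : G}, g ∉ stab (lf ν : L P 1 → ℂ) → x ∈ P →
      g * x ∉ stab (lf ν : L P 1 → ℂ) := by
    intro g x hg hx h1
    apply hg
    have := Subgroup.mul_mem _ h1 (Subgroup.inv_mem _ (hPS hx))
    rwa [mul_inv_cancel_right] at this
  obtain ⟨g₁, hg₁S, hg₁δ⟩ : ∃ g, g ∉ stab (lf ν : L P 1 → ℂ) ∧ cl g δ = δ := by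
    obtain ⟨ω, hω, ho⟩ := exists_over_incl (L_le P 2) (isIrr_lf δ)
    have ho' : Over (Subgroup.inclusion (L_le P 3)) ω (lf μ) :=
      over_trans h23 (L_le P 2) hω (isIrr_lf δ) (isIrr_lf μ) ho (over_of_ext h23 (isIrr_lf μ)
        fun k => congrArg Units.val (by
          have h2 := hδ k k.2
          rw [ev_of_mem δ (h23 k.2), ev_of_mem μ k.2] at h2
          exact h2))
    obtain ⟨g, hg, hgS⟩ := h.big hμ hμ1 hω ho' hν hν1
    obtain ⟨x, hx, hgx⟩ := exists_mul_stab' (L_le P 2) (le_nrm _ _) (isIrr_lf δ) hω ho hg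
      (mem_nrm _ g)
    exact ⟨g * x, hnotS hgS hx, mem_stab_iff.1 hgx⟩
  -- vanishing on `T' ∩ E`
  have keyE : ∀ z ∈ R, ∀ e ∈ TT (n := 2) μ hμ ⊓ EE P, ev δ ⁅e, z⁆ = 1 := by
    intro z hz e he
    have hTfix : ∀ a ∈ TT (n := 2) μ hμ ⊓ EE P, cl a δ = δ := fun a ha =>
      (TT_iff (n := 2) (hμ := hμ) hδ ha.1.1).2 ha.1
    have hgA : ∀ a ∈ TT (n := 2) μ hμ ⊓ EE P, a₀ * a * a₀⁻¹ ∈ TT (n := 2) μ hμ ⊓ EE P :=
      fun a ha => ⟨conj_mem_of_mem (TT_nrm (hDμ (mem_stab_iff.2 ha₀δ))) ⟨a, ha.1⟩,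
        (EE_normal).conj_mem a ha.2 a₀⟩
    have hAc : ∀ a ∈ TT (n := 2) μ hμ ⊓ EE P, ⁅a, z⁆ ∈ L P 2 := fun a ha =>
      mem_L_succ' P ha.1.1 (hR1 hz)
    refine pair_fix (A := TT (n := 2) μ hμ ⊓ EE P) (B0 := L P 1) ha₀δ hTfix hAc hgA ?_
      (le_inf h.L1_le_T3 L1_le_EE) ?_ (fun a ha => h.ontoE inf_le_right ha₀P hgA ha) e he
    · intro a ha
      have h1 := triv_L (hall a₀ ha₀S) (hR1 hz)
      have h2 : ⁅a, z⁻¹ * (a₀ * z * a₀⁻¹)⁆ ∈ L P 3 := mem_L_succ' P ha.1.1 h1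
      have e1 : a₀ * z * a₀⁻¹ = z * (z⁻¹ * (a₀ * z * a₀⁻¹)) := by group
      rw [e1, ev_comm_mul_right (hfix1 z (hR1 hz)) (hAc a ha) (h23 h2), hδ _ h2, ha.1.2 _ h1,
        mul_one]
    · intro b hb
      rw [hδ _ (comm_11 hb (hR1 hz)), ev_comm_swap μ (comm_11 (hR1 hz) hb), hz.2 b hb, inv_one]
  -- vanishing on `C`
  have keyC : ∀ c ∈ CC P, ∀ z ∈ R, ev δ ⁅z, c⁆ = 1 := by
    intro c hc z hz
    obtain ⟨d, hd, hgc⟩ := CC_conj hc g₁
    have hAc : ∀ a ∈ R, ⁅a, c⁆ ∈ L P 2 := fun a ha => h23 (h.L1_CC (hR1 ha) hc)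
    have hgA : ∀ a ∈ R, g₁ * a * g₁⁻¹ ∈ R := fun a ha =>
      conj_mem_of_mem (hμR (hDμ (mem_stab_iff.2 hg₁δ))) ⟨a, ha⟩
    refine pair_fix (A := R) (B0 := L P 2) hg₁δ (fun a ha => hfix1 a (hR1 ha)) hAc hgA ?_ hBR ?_ ?_
      z hz
    · intro a ha
      have h2 : ⁅a, d⁆ ∈ L P 3 := comm_11 (hR1 ha) hd
      rw [hgc, ev_comm_mul_right (hfixC c hc) (hAc a ha) (h23 h2), hδ _ h2, ha.2 d hd, mul_one]
    · intro b hb
      have h2 := h.L2_CC hb hc
      rw [hδ _ (h34 h2), hμ _ h2]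
    · intro a ha
      exact exists_comm_mul (B := L P 2) (M := R)
        ((Subgroup.commutator_mono hR1 hR1).trans ((comm_L P 1 1).trans h23)) hgA
        (fun m hm hc => fp_L (hnone g₁ hg₁S) (hR1 hm) hc) ha
  -- vanishing of the pairing between `D ∩ S₁` and `R`
  have key : ∀ a ∈ stab (lf δ : L P 2 → ℂ) ⊓ stab (lf ν : L P 1 → ℂ), ∀ z ∈ R,
      ev δ ⁅a, z⁆ = 1 := by
    refine h.pair_coprime (fun a ha => mem_stab_iff.1 ha.1) (fun b hb => hfix1 b (hR1 hb))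
      (hR1.trans (L_le P 1)) (fun a ha b hb => hcS a ha.2 b (hR1 hb)) ?_
    intro a ha haP z hz
    have haT : a ∈ TT (n := 2) μ hμ := (TT_iff (n := 2) hδ haP).1 (mem_stab_iff.1 ha.1)
    obtain ⟨e, he, c, hc, rfl⟩ := h.exists_EC haP
    have heT : e ∈ TT (n := 2) μ hμ := by
      have := Subgroup.mul_mem _ haT (Subgroup.inv_mem _ (h.C_le_T3 (hμ := hμ) hc))
      rwa [mul_inv_cancel_right] at this
    have m1 : ⁅c, z⁆ ∈ L P 3 := comm_swap_mem (h.L1_CC (hR1 hz) hc)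
    rw [ev_comm_mul_left ((TT_iff (n := 2) (hμ := hμ) hδ (EE_le he)).2 heT)
      (mem_L_succ' P (EE_le he) (hR1 hz)) (h23 m1), keyE z hz e ⟨heT, he⟩, one_mul,
      ev_comm_swap δ (h23 (h.L1_CC (hR1 hz) hc)), keyC c hc z hz, inv_one]
  -- the conclusion
  have hZZ : ⁅R, R⁆ ≤ L P 3 := (Subgroup.commutator_mono hR1 hR1).trans (comm_L P 1 1)
  have hfin : R ≤ L P 2 := by
    refine rad_le (Q := stab (lf δ : L P 2 → ℂ) ⊓ stab (lf ν : L P 1 → ℂ))
      (D := stab (lf δ : L P 2 → ℂ)) hBR δ le_rfl (hDμ.trans hμR) ?_ (hZZ.trans h23) ?_ ?_ ?_ ?_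
    · intro a ha b hb
      refine ⟨Subgroup.mul_mem _ (Subgroup.mul_mem _ (Subgroup.mul_mem _ ha hb)
        (Subgroup.inv_mem _ ha)) (Subgroup.inv_mem _ hb), hPS (cyc_comm h.cyc a b)⟩
    · intro z hz
      refine (ev_of_mem δ _).symm.trans ?_
      rw [hδ z (hZZ hz)]
      exact ev_comm_sub hZZ (fun a ha b hb => ha.2 b (hR1 hb)) z hz
    · intro l hl g hg
      rw [mem_stab_ev]
      refine ⟨hμR (hDμ hg.1), fun d hd => ?_⟩
      have e : g * d * g⁻¹ = ⁅g, d⁆ * d := by rw [commutatorElement_def]; group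
      have hm : ⁅g, d⁆ ∈ L P 2 := hcS g hg.2 d (hR1 hd)
      have h1 : ev l ⁅g, d⁆ = ev δ ⁅g, d⁆ := by
        rw [ev_of_mem l (hBR hm), ev_of_mem δ hm]
        exact hl ⟨_, hm⟩
      rw [e, ev_mul l (hBR hm) hd, h1, key g hg d hd, one_mul]
    · intro l hl
      have hRP : R ≤ P := hR1.trans (L_le P 1)
      have hl' : ∀ b ∈ L P 2, ev l b = ev δ b := by
        intro b hb
        rw [ev_of_mem l (hBR hb), ev_of_mem δ hb]
        exact hl ⟨b, hb⟩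
      obtain ⟨ω, hω, ho⟩ := exists_over_incl hRP (isIrr_lf l)
      have h3R : L P 3 ≤ R := h23.trans hBR
      have ho' : Over (Subgroup.inclusion (L_le P 3)) ω (lf μ) :=
        over_trans h3R hRP hω (isIrr_lf l) (isIrr_lf μ) ho (over_of_ext h3R (isIrr_lf μ)
          fun k => congrArg Units.val (by
            have h2 := hδ k k.2
            rw [← hl' _ (h23 k.2), ev_of_mem l (h3R k.2), ev_of_mem μ k.2] at h2
            exact h2))
      obtain ⟨g, hg, hgS⟩ := h.big hμ hμ1 hω ho' hν hν1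
      have hgμ := stab_le_nu hμ hω ho' hg
      obtain ⟨x, hx, hgx⟩ := exists_mul_stab' hRP ((P_le_stab hμ).trans hμR) (isIrr_lf l) hω ho
        hg (hμR hgμ)
      refine ⟨g * x, ?_, fun h1 => hnotS hgS hx h1.2, hgx⟩
      rw [mem_stab_iff]
      apply ev_ext
      intro d hd
      have h2 := (mem_stab_ev.1 hgx).2 d (hBR hd)
      have hd' := (inferInstance : (L P 2).Normal).conj_mem d hd (g * x)
      rw [ev_cl _ δ hd, ← hl' _ hd', ← hl' _ hd]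
      exact h2
    · intro g hg hgQ z hz hc
      exact fp_L (hnone g fun h1 => hgQ ⟨hg, h1⟩) (hR1 hz) hc
  obtain ⟨w, hw, hw'⟩ := hLD.exists_psi_eq
  apply hw'
  rw [Subgroup.mem_subgroupOf]
  refine hfin ⟨w.2, fun z hz => ?_⟩
  rw [← psm_apply (hμ := hμ) w hz, hw]
  exact ev_hone z

end lev3

end Cfsg.Agent.H675.Nd
end

-- part: H675/Nd/PH1
section
/-!
# From the Sylow subgroup to the group: quotients, characters over invariant characters
-/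

set_option autoImplicit false
set_option linter.style.haveILetI false
set_option linter.unusedSectionVars false
open Cfsg

namespace Cfsg.Agent.H675.Nd

open Cfsg.Agent.Characters.Core Cfsg.Agent.Characters.Clifford Cfsg.Agent.H672 Cfsg.Agent.H672.RM
open Cfsg.Agent.H597.FrobA
open scoped commutatorElement

universe u v w

/-- Deflation along a surjective homomorphism. -/
theorem exists_defl {A : Type u} {B : Type v} [Group A] [Finite A] [Group B] (f : A →* B)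
    (hf : Function.Surjective f) {χ : A → ℂ} (hχ : IsIrrCharacter A χ)
    (hker : ∀ k ∈ f.ker, χ k = χ 1) : ∃ ω : B → ℂ, IsIrrCharacter B ω ∧ χ = ω ∘ f := by
  classical
  letI := Fintype.ofFinite f.ker
  have hsum : ∑ n : f.ker, χ n ≠ 0 := by
    rw [Finset.sum_congr rfl (fun (n : f.ker) _ => hker n n.2), Finset.sum_const, Finset.card_univ,
      nsmul_eq_mul]
    refine mul_ne_zero ?_ (isIrr_apply_one_ne_zero hχ)
    exact Nat.cast_ne_zero.2 Fintype.card_ne_zero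
  obtain ⟨⟨χ', hχ'⟩, h⟩ := Cfsg.Agent.Blocks.Deflate.exists_deflation f.ker χ hχ hsum
  let e := QuotientGroup.quotientKerEquivOfSurjective f hf
  refine ⟨χ' ∘ e.symm, isIrr_comp e.symm.toMonoidHom e.symm.surjective hχ', ?_⟩
  funext a
  rw [h]
  change χ' (QuotientGroup.mk a) = χ' (e.symm (f a))
  congr 1
  rw [MulEquiv.eq_symm_apply]
  rfl

section quot

variable {G : Type u} [Group G] [Finite G] {N K H : Subgroup G} [hN : N.Normal] [hK : K.Normal]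
  [hH : H.Normal] {p : ℕ}

instance map_mk_normal (N H : Subgroup G) [hN : N.Normal] [H.Normal] :
    (N.map (QuotientGroup.mk' H)).Normal :=
  Subgroup.Normal.map hN _ (QuotientGroup.mk'_surjective H)

theorem mem_map_mk (hHN : H ≤ N) {g : G} :
    QuotientGroup.mk' H g ∈ N.map (QuotientGroup.mk' H) ↔ g ∈ N := by
  constructor
  · rintro ⟨n, hn, e⟩
    have h1 := QuotientGroup.eq.1 e
    have h2 := N.mul_mem hn (hHN h1)
    rwa [mul_inv_cancel_left] at h2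
  · intro h
    exact ⟨g, h, rfl⟩

theorem index_map_mk (hHN : H ≤ N) : (N.map (QuotientGroup.mk' H)).index = N.index := by
  rw [Subgroup.index_map, QuotientGroup.ker_mk', sup_of_le_left hHN,
    MonoidHom.range_eq_top.2 (QuotientGroup.mk'_surjective H), Subgroup.index_top, mul_one]

theorem frobQ_map (hF : FrobQ K N p) (hHK : H ≤ K) :
    FrobQ (K.map (QuotientGroup.mk' H)) (N.map (QuotientGroup.mk' H)) p := by
  have hHN : H ≤ N := hHK.trans hF.lt.le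
  have hπ := QuotientGroup.mk'_surjective H
  refine ⟨?_, ?_, ?_, ?_, ?_, ?_, ?_⟩
  · refine lt_of_le_of_ne (Subgroup.map_mono hF.lt.le) fun e => ?_
    apply hF.lt.not_ge
    intro n hn
    rw [← mem_map_mk hHK, e]
    exact ⟨n, hn, rfl⟩
  · rw [← Subgroup.map_commutator]
    exact Subgroup.map_mono hF.comm
  · have : commutator (G ⧸ H) = (commutator G).map (QuotientGroup.mk' H) := by
      rw [_root_.commutator_def, _root_.commutator_def, Subgroup.map_commutator,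
        Subgroup.map_top_of_surjective _ hπ]
    rw [this]
    exact Subgroup.map_mono hF.le
  · obtain ⟨k, hk⟩ := hF.rel
    refine ⟨k, ?_⟩
    rw [Subgroup.relIndex_map_map, QuotientGroup.ker_mk', sup_of_le_left hHN, sup_of_le_left hHK,
      hk]
  · rw [index_map_mk hHN]
    exact hF.idx
  · intro q hq n hn hc
    obtain ⟨g, rfl⟩ := hπ q
    obtain ⟨m, hm, rfl⟩ := hn
    rw [← map_inv, ← map_inv, ← map_mul, ← map_mul, ← map_mul, mem_map_mk hHK] at hc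
    rw [mem_map_mk hHN] at hq
    exact ⟨m, hF.fpf g hq m hm hc, rfl⟩
  · intro e
    apply hF.ne_top
    rw [eq_top_iff]
    intro g _
    rw [← mem_map_mk hHN, e]
    exact Subgroup.mem_top _

theorem PS_quot (ha : Anti G) (hp : p.Prime) (hF : FrobQ K N p) (hHK : H ≤ K)
    (hidx : ∃ k, H.relIndex N = p ^ k) :
    PS (N.map (QuotientGroup.mk' H)) (K.map (QuotientGroup.mk' H)) p := by
  haveI := Fact.mk hp
  refine ⟨ha.quot H, hp, frobQ_map hF hHK, ?_⟩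
  obtain ⟨k, hk⟩ := hidx
  rw [IsPGroup.iff_card]
  refine ⟨k, ?_⟩
  have h1 : (QuotientGroup.mk' H).ker.relIndex N = Nat.card (N.map (QuotientGroup.mk' H)) := by
    rw [Subgroup.relIndex_ker]
  rw [QuotientGroup.ker_mk'] at h1
  rw [← h1, hk]

theorem stab_map {ω : N.map (QuotientGroup.mk' H) → ℂ} {g : G} :
    g ∈ stab (ω ∘ (QuotientGroup.mk' H).subgroupMap N) ↔ QuotientGroup.mk' H g ∈ stab ω := by
  constructor
  · rintro ⟨hg, h⟩
    refine ⟨mem_nrm _ _, ?_⟩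
    rw [tw_map _ _ _ hg (mem_nrm _ _)] at h
    exact ((QuotientGroup.mk' H).subgroupMap_surjective N).injective_comp_right h
  · rintro ⟨hg, h⟩
    refine ⟨mem_nrm _ _, ?_⟩
    rw [tw_map _ _ _ (mem_nrm _ _) hg, h]

theorem stab_map_eq {ω : N.map (QuotientGroup.mk' H) → ℂ} :
    stab (ω ∘ (QuotientGroup.mk' H).subgroupMap N) =
      (stab ω).comap (QuotientGroup.mk' H) := by
  ext g
  rw [stab_map, Subgroup.mem_comap]

theorem index_stab_map {ω : N.map (QuotientGroup.mk' H) → ℂ} :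
    (stab (ω ∘ (QuotientGroup.mk' H).subgroupMap N)).index = (stab ω).index := by
  rw [stab_map_eq, Subgroup.index_comap_of_surjective _ (QuotientGroup.mk'_surjective H)]

theorem charDegree_map {ω : N.map (QuotientGroup.mk' H) → ℂ} :
    charDegree (ω ∘ (QuotientGroup.mk' H).subgroupMap N) = charDegree ω :=
  charDegree_comp_one ((QuotientGroup.mk' H).subgroupMap N) ω

/-- **Characters over `N`-invariant characters of the `p`-complement.** -/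
theorem caseA (ha : Anti G) (hp : p.Prime) (hF : FrobQ K N p) (hHN : H ≤ N)
    (hcop : (Nat.card H).Coprime p) (hidx : ∃ k, H.relIndex N = p ^ k) {χ : G → ℂ}
    (hχ : IsIrrCharacter G χ) (hd : p ∣ charDegree χ) {θ : H → ℂ} (hθ : IsIrrCharacter H θ)
    (ho : Over H.subtype χ θ) (hNθ : N ≤ stab θ) :
    ∃ ω : N.map (QuotientGroup.mk' H) → ℂ, IsIrrCharacter _ ω ∧ charDegree ω ≠ 1 ∧
      charDegree χ = (stab ω).index * charDegree ω := by
  have hc := cyc_of_frobQ hF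
  obtain ⟨k, hk⟩ := hidx
  obtain ⟨χ', hχ', hext, hinv⟩ := exists_canon hHN hθ hNθ (by rw [hk]; exact hcop.pow_right k)
  have hdeg : charDegree χ' = charDegree θ := charDegree_ext hHN hext
  have h1 : charDegree χ' = 1 := by
    by_contra hne
    have h2 := dvd_of_nonlin ha hp hF hχ' hne
    rw [hdeg] at h2
    have h3 := Nat.Coprime.coprime_dvd_left (degree_dvd_card hθ) hcop
    exact hp.one_lt.ne' (Nat.eq_one_of_dvd_coprimes h3 h2 dvd_rfl)
  obtain ⟨l, rfl⟩ := exists_hom_of_degree_one hχ' h1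
  have e0 : H.subtype = N.subtype.comp (Subgroup.inclusion hHN) := rfl
  rw [e0] at ho
  obtain ⟨ψ, hψ, hψo, hψθ⟩ := (over_comp_iff _ _ (isIrr_isCharacter hχ) hθ).1 ho
  have hψ1 : charDegree ψ ≠ 1 := by
    intro e
    have h2 := (charDegree_dvd_of_over N hχ hψ hψo).2
    rw [e, Nat.div_one] at h2
    exact hF.idx (hd.trans h2)
  obtain ⟨β, ⟨hβ, hβH⟩, hβψ⟩ := (gal hHN (le_nrm H N) hθ hχ' hext).surjOn ⟨hψ, hψθ⟩
  have hβψ' : β * lf l = ψ := hβψ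
  have hβd : charDegree ψ = charDegree β := by
    rw [← hβψ', H597.FrobC.charDegree_mul hχ' hβ, h1, mul_one]
  have hst : stab ψ ≤ stab β := by
    intro g hg
    have h2 : g ∈ stab θ := stab_of_inv hHN hNθ hθ hψ hψθ hg (mem_nrm H g)
    have h3 := hinv g h2 (mem_nrm N g)
    refine ⟨mem_nrm N g, ?_⟩
    have h4 := hg.2
    rw [← hβψ'] at h4
    funext n
    have h5 := congrFun h4 n
    have h6 := congrFun h3 n
    rw [tw_apply (mem_nrm N g)] at h5 h6 ⊢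
    rw [Pi.mul_apply, Pi.mul_apply, h6] at h5
    exact mul_right_cancel₀ (Units.ne_zero (l n)) h5
  have hβ1 : charDegree β ≠ 1 := by rw [← hβd]; exact hψ1
  obtain ⟨h7, h8⟩ := anti_omega ha hc hβ hψ hβ1 (by rw [hβd]) hst
  obtain ⟨ω, hω, rfl⟩ := exists_defl ((QuotientGroup.mk' H).subgroupMap N)
    ((QuotientGroup.mk' H).subgroupMap_surjective N) hβ (by
      intro n hn
      have h9 : (n : G) ∈ H := by
        rw [MonoidHom.mem_ker] at hn
        have h10 := congrArg Subtype.val hn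
        change ((n : G) : G ⧸ H) = 1 at h10
        exact (QuotientGroup.eq_one_iff _).1 h10
      exact hβH ⟨n, h9⟩)
  refine ⟨ω, hω, ?_, ?_⟩
  · rw [← charDegree_map (N := N) (H := H)]
    exact hβ1
  · rw [(GTc ha hc hψ (mul_ne_one hψ1)).2 χ hχ hψo, h7, hβd, index_stab_map, charDegree_map]

/-- A degree of `G` from a character of `N / H`. -/
theorem exists_deg_quot (ha : Anti G) (hc : IsCyclic (G ⧸ N))
    {ω : N.map (QuotientGroup.mk' H) → ℂ} (hω : IsIrrCharacter _ ω) (h1 : charDegree ω ≠ 1) :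
    ∃ χ : G → ℂ, IsIrrCharacter G χ ∧ charDegree χ = (stab ω).index * charDegree ω := by
  have h2 := isIrr_map (QuotientGroup.mk' H) N hω
  obtain ⟨⟨ψ, hψ, -, hd⟩, -⟩ := GTc ha hc h2 (mul_ne_one (by rw [charDegree_map]; exact h1))
  refine ⟨ψ, hψ, ?_⟩
  rw [hd, index_stab_map, charDegree_map]

/-- The index in a normal subgroup divides the index. -/
theorem relIndex_dvd_relIndex {T S : Subgroup G} (hT : T ≤ S) (hNS : N ≤ S) :
    T.relIndex N ∣ T.relIndex S := by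
  have key : ∀ A B : Subgroup G, A ≤ B → Nat.card A * A.relIndex B = Nat.card B := by
    intro A B hAB
    have := Subgroup.relIndex_mul_relIndex (⊥ : Subgroup G) A B bot_le hAB
    rwa [Subgroup.relIndex_bot_left, Subgroup.relIndex_bot_left] at this
  have h1 := key T (T ⊔ N) le_sup_left
  have h2 := key N (T ⊔ N) le_sup_right
  have h3 := key (T ⊓ N) T inf_le_left
  have h4 := key (T ⊓ N) N inf_le_right
  have h5 : N.relIndex (T ⊔ N) = (T ⊓ N).relIndex T := by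
    rw [Subgroup.relIndex_sup_right, inf_comm, Subgroup.inf_relIndex_right]
  have h6 : T.relIndex N = (T ⊓ N).relIndex N := (Subgroup.inf_relIndex_right T N).symm
  have h7 : T.relIndex (T ⊔ N) = T.relIndex N := by
    rw [h6]
    have hp1 : 0 < Nat.card T := Nat.card_pos
    apply Nat.eq_of_mul_eq_mul_left hp1
    rw [h1, ← h2, h5]
    conv_lhs => rw [← h4]
    rw [mul_right_comm, h3]
  rw [← h7]
  exact Dvd.intro _ (Subgroup.relIndex_mul_relIndex T (T ⊔ N) S le_sup_left (sup_le hT hNS))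

end quot

end Cfsg.Agent.H675.Nd
end

-- part: H675/Nd/PH2
section
/-!
# Case I for the group; Case II: characters of the Sylow subgroup
-/

set_option autoImplicit false
set_option linter.style.haveILetI false
set_option linter.unusedSectionVars false
open Cfsg

namespace Cfsg.Agent.H675.Nd

open Cfsg.Agent.Characters.Core Cfsg.Agent.Characters.Clifford Cfsg.Agent.H672 Cfsg.Agent.H672.RM
open Cfsg.Agent.H597.FrobA
open scoped commutatorElement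

universe u v w

section plev

variable {G : Type u} [Group G] [Finite G] {P K : Subgroup G} [hP : P.Normal] [hK : K.Normal]
  {p : ℕ}

/-- In Case II a nonlinear character has level one or two. -/
theorem PC.cases (h : PC P K p) {ω : P → ℂ} (hω : IsIrrCharacter P ω) (h1 : charDegree ω ≠ 1) :
    (∃ ν : L P 1 →* ℂˣ, ν ≠ 1 ∧ (∀ k ∈ L P 2, ev ν k = 1) ∧
      Over (Subgroup.inclusion (L_le P 1)) ω (lf ν)) ∨
    (∃ μ : L P 2 →* ℂˣ, μ ≠ 1 ∧ (∀ k ∈ L P 3, ev μ k = 1) ∧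
      Over (Subgroup.inclusion (L_le P 2)) ω (lf μ)) := by
  obtain ⟨n, hn, ν, hν1, hν, ho⟩ := h.exists_level hω h1
  rcases Nat.lt_or_ge n 3 with h3 | h3
  · obtain rfl | rfl : n = 1 ∨ n = 2 := by omega
    · exact Or.inl ⟨ν, hν1, hν, ho⟩
    · exact Or.inr ⟨ν, hν1, hν, ho⟩
  · exfalso
    apply hν1
    apply ev_ext
    intro d hd
    have h2 : d ∈ L P 3 := L_anti P h3 hd
    rw [h.L3_bot, Subgroup.mem_bot] at h2
    rw [h2, ev_one, ev_one]

/-- In Case II there are at most two values of `|G : stab ω| ω(1)`. -/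
theorem PC.two (h : PC P K p) : ∃ d₁ d₂ : ℕ, ∀ ω : P → ℂ, IsIrrCharacter P ω →
    charDegree ω ≠ 1 → (stab ω).index * charDegree ω = d₁ ∨
      (stab ω).index * charDegree ω = d₂ := by
  classical
  have hd1 : ∃ d₁ : ℕ, ∀ ω : P → ℂ, IsIrrCharacter P ω → ∀ ν : L P 1 →* ℂˣ, ν ≠ 1 →
      (∀ k ∈ L P 2, ev ν k = 1) → Over (Subgroup.inclusion (L_le P 1)) ω (lf ν) →
      (stab ω).index * charDegree ω = d₁ := by
    by_cases hex : ∃ ω₀ : P → ℂ, IsIrrCharacter P ω₀ ∧ ∃ ν₀ : L P 1 →* ℂˣ, ν₀ ≠ 1 ∧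
      (∀ k ∈ L P 2, ev ν₀ k = 1) ∧ Over (Subgroup.inclusion (L_le P 1)) ω₀ (lf ν₀)
    · obtain ⟨ω₀, hω₀, ν₀, hν₀1, hν₀, ho₀⟩ := hex
      refine ⟨(stab ω₀).index * charDegree ω₀, fun ω hω ν hν1 hν ho => ?_⟩
      have e := h.deg1 hν hν1 hω ho
      rw [← h.deg1 hν₀ hν₀1 hω₀ ho₀] at e
      rw [Nat.pow_left_injective two_ne_zero e, h.stab_nu (hν := hν) hν1 hω ho,
        h.stab_nu (hν := hν₀) hν₀1 hω₀ ho₀, h.const1 ν ν₀ hν hν₀ hν1 hν₀1]
    · push Not at hex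
      exact ⟨0, fun ω hω ν hν1 hν ho => absurd ho (hex ω hω ν hν1 hν)⟩
  have hd2 : ∃ d₂ : ℕ, ∀ ω : P → ℂ, IsIrrCharacter P ω → ∀ ν : L P 2 →* ℂˣ, ν ≠ 1 →
      (∀ k ∈ L P 3, ev ν k = 1) → Over (Subgroup.inclusion (L_le P 2)) ω (lf ν) →
      (stab ω).index * charDegree ω = d₂ := by
    by_cases hex : ∃ ω₀ : P → ℂ, IsIrrCharacter P ω₀ ∧ ∃ ν₀ : L P 2 →* ℂˣ, ν₀ ≠ 1 ∧
      (∀ k ∈ L P 3, ev ν₀ k = 1) ∧ Over (Subgroup.inclusion (L_le P 2)) ω₀ (lf ν₀)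
    · obtain ⟨ω₀, hω₀, ν₀, hν₀1, hν₀, ho₀⟩ := hex
      refine ⟨(stab ω₀).index * charDegree ω₀, fun ω hω ν hν1 hν ho => ?_⟩
      have e := h.deg2 hν hν1 hω ho
      rw [← h.deg2 hν₀ hν₀1 hω₀ ho₀] at e
      rw [Nat.pow_left_injective two_ne_zero e, h.stab2 hν hν1 hω ho,
        h.stab2 hν₀ hν₀1 hω₀ ho₀, h.const2 ν ν₀ hν hν₀ hν1 hν₀1]
    · push Not at hex
      exact ⟨0, fun ω hω ν hν1 hν ho => absurd ho (hex ω hω ν hν1 hν)⟩
  obtain ⟨d₁, hd1⟩ := hd1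
  obtain ⟨d₂, hd2⟩ := hd2
  refine ⟨d₁, d₂, fun ω hω h1 => ?_⟩
  rcases h.cases hω h1 with ⟨ν, hν1, hν, ho⟩ | ⟨ν, hν1, hν, ho⟩
  · exact Or.inl (hd1 ω hω ν hν1 hν ho)
  · exact Or.inr (hd2 ω hω ν hν1 hν ho)

theorem PS.one_lt_C (h : PS P K p) : 1 < (CC P).relIndex P := by
  have h2 : (CC P).relIndex P ≠ 1 := by
    intro e
    rw [Subgroup.relIndex_eq_one] at e
    exact h.CC_ne (le_antisymm CC_le e)
  have h3 : 0 < (CC P).relIndex P := index_pos _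
  omega

theorem PC.lt1 (h : PC P K p) {ν : L P 1 →* ℂˣ} (hν : ∀ k ∈ L P 2, ev ν k = 1) (hν1 : ν ≠ 1)
    {ω : P → ℂ} (hω : IsIrrCharacter P ω)
    (ho : Over (Subgroup.inclusion (L_le P 1)) ω (lf ν)) : charDegree ω < (CC P).relIndex P := by
  have h1 := h.deg1 hν hν1 hω ho
  have h2 := h.one_lt_C
  rw [← h1] at h2 ⊢
  have h3 : 1 < charDegree ω := by
    by_contra hcon
    have h4 : charDegree ω ≤ 1 := by omega
    have h5 : charDegree ω ^ 2 ≤ 1 ^ 2 := Nat.pow_le_pow_left h4 2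
    omega
  nlinarith

theorem PC.lt2 (h : PC P K p) {μ : L P 2 →* ℂˣ} (hμ : ∀ k ∈ L P 3, ev μ k = 1) (hμ1 : μ ≠ 1)
    {ω : P → ℂ} (hω : IsIrrCharacter P ω)
    (ho : Over (Subgroup.inclusion (L_le P 2)) ω (lf μ)) : charDegree ω < (CC P).relIndex P := by
  have h1 := h.deg2 hμ hμ1 hω ho
  have h2 := h.one_lt_C
  rw [h.q_sq hμ hμ1] at h1 h2 ⊢
  set q := Nat.card (LK (L P 1) (L P 2))
  have h3 : 1 < q := by
    by_contra hcon
    have h4 : q ≤ 1 := by omega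
    have h5 : q ^ 2 ≤ 1 ^ 2 := Nat.pow_le_pow_left h4 2
    omega
  by_contra hcon
  have h4 : q ^ 2 ≤ charDegree ω := not_lt.1 hcon
  have h5 : (q ^ 2) ^ 2 ≤ charDegree ω ^ 2 := Nat.pow_le_pow_left h4 2
  rw [h1] at h5
  have h6 : 0 < q ^ 3 := pow_pos (by omega) 3
  have e1 : (q ^ 2) ^ 2 = q * q ^ 3 := by ring
  have e2 : q * q ^ 2 = 1 * q ^ 3 := by ring
  rw [e1, e2] at h5
  have h7 := Nat.le_of_mul_le_mul_right h5 h6
  omega

/-- Commuting elements of `E`. -/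
theorem PS.E_not_comm (h : PS P K p) (hne : L P 1 ≠ ⊥)
    (hE : ∀ e ∈ EE P, ∀ e' ∈ EE P, e * e' = e' * e) : False := by
  apply hne
  apply h.L_bot
  intro ν hν
  by_contra hν1
  obtain ⟨e, he, he'⟩ := h.E_ne
  apply he'
  refine h.Zn_inf (hν := hν) hν1 ⟨⟨EE_le he, fun y hy => ?_⟩, he⟩
  obtain ⟨e', he', c, hc, rfl⟩ := h.exists_EC hy
  rw [ev_comm_mul_right (P_fix hν (EE_le he')) (mem_L_one P (EE_le he) (EE_le he'))
    (mem_L_one P (EE_le he) (CC_le hc)), h.ev_EC hν he hc, mul_one,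
    commutatorElement_eq_one_iff_mul_comm.2 (hE e he e' he'), ev_one]

/-- A cyclic last term, `p = 2`: an invariant character. -/
theorem PS.inv_of_cyc (h : PS P K 2) {n : ℕ} (hbot : L P n ≠ ⊥) {z : G} (hz : z ∈ L P n)
    (hgen : ∀ d ∈ L P n, ∃ k : ℤ, d = z ^ k) :
    ∃ ν : L P n →* ℂˣ, ν ≠ 1 ∧ (∀ k ∈ L P (n + 1), ev ν k = 1) ∧ ∀ g, cl g ν = ν := by
  have hle : L P (n + 1) ≤ L P n := L_anti P (Nat.le_succ n)
  have hex : ∃ ν : LK (L P n) (L P (n + 1)), ν ≠ 1 := by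
    by_contra hcon
    push Not at hcon
    exact hbot (h.L_bot fun ν hν => congrArg Subtype.val (hcon ⟨ν, (mem_LK_ev hle).2 hν⟩))
  obtain ⟨ν, hν1, hν2⟩ := h.exists_p hex
  have hz2 : ∀ (l : L P n →* ℂˣ), (∀ d ∈ L P n, ev l d * ev l d = 1) → l ≠ 1 → ev l z = -1 := by
    intro l hl hl1
    have h1 : ev l z ≠ 1 := by
      intro h2
      apply hl1
      apply ev_ext
      intro d hd
      obtain ⟨k, rfl⟩ := hgen d hd
      rw [ev_hone, ev_of_mem l hd]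
      rw [ev_of_mem l hz] at h2
      have e : (⟨z ^ k, hd⟩ : L P n) = ⟨z, hz⟩ ^ k := rfl
      rw [e, map_zpow, h2, one_zpow]
    have h3 := hl z hz
    have h4 : ((ev l z : ℂˣ) : ℂ) * (ev l z : ℂˣ) = 1 := by
      rw [← Units.val_mul, h3, Units.val_one]
    rcases mul_self_eq_one_iff.1 h4 with h5 | h5
    · exact absurd (Units.ext h5) h1
    · exact Units.ext h5
  have hν' : ν.1 ≠ 1 := ne_one_coe hν1
  have hsq : ∀ d ∈ L P n, ev ν.1 d * ev ν.1 d = 1 := by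
    intro d _
    have h1 : ν * ν = 1 := by rw [← pow_two]; exact hν2
    have h2 := congrArg (fun l : LK (L P n) (L P (n + 1)) => ev l.1 d) h1
    change ev (ν.1 * ν.1) d = ev 1 d at h2
    rw [ev_hmul, ev_hone] at h2
    exact h2
  refine ⟨ν.1, hν', LK_ev ν, fun g => ?_⟩
  have hg1 : cl g ν.1 ≠ 1 := by
    intro e
    apply hν'
    have h1 := congrArg (cl g⁻¹) e
    rwa [← cl_mul, mul_inv_cancel, cl_one, cl_hone] at h1
  have h3 := hz2 _ hsq hν'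
  have h4 := hz2 (cl g ν.1) (fun d hd => by
    rw [ev_cl g ν.1 hd]
    exact hsq _ ((inferInstance : (L P n).Normal).conj_mem d hd g)) hg1
  apply ev_ext
  intro d hd
  obtain ⟨k, rfl⟩ := hgen d hd
  rw [ev_of_mem _ hz] at h3 h4
  have e : (⟨z ^ k, hd⟩ : L P n) = ⟨z, hz⟩ ^ k := rfl
  rw [ev_of_mem _ hd, ev_of_mem _ hd, e, map_zpow, map_zpow, h3, h4]

end plev

section glev

variable {G : Type u} [Group G] [Finite G] {N K H : Subgroup G} [hN : N.Normal] [hK : K.Normal]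
  [hH : H.Normal] {p : ℕ}

/-- **Case I for `G`**: one degree divisible by `p`. -/
theorem G_caseI (ha : Anti G) (hp : p.Prime) (hF : FrobQ K N p) (hHK : H ≤ K)
    (hcop : (Nat.card H).Coprime p) (hidx : ∃ k, H.relIndex N = p ^ k)
    {ν₁ : L (N.map (QuotientGroup.mk' H)) 1 →* ℂˣ}
    (hν₁ : ∀ k ∈ L (N.map (QuotientGroup.mk' H)) 2, ev ν₁ k = 1)
    (hne : ν₁ ≠ 1) (hinv : ∀ g, cl g ν₁ = ν₁) :
    ∃ m, ∀ χ : G → ℂ, IsIrrCharacter G χ → p ∣ charDegree χ → charDegree χ = m := by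
  have hHN : H ≤ N := hHK.trans hF.lt.le
  have hc := cyc_of_frobQ hF
  have hPS := PS_quot ha hp hF hHK hidx
  obtain ⟨hst, heq⟩ := hPS.caseI hν₁ hne hinv
  obtain ⟨ω₀, hω₀, ho₀⟩ := exists_over_incl (L_le (N.map (QuotientGroup.mk' H)) 1) (isIrr_lf ν₁)
  have hω₀1 : charDegree ω₀ ≠ 1 := over_nonlin le_rfl hne hω₀ ho₀
  obtain ⟨χ₀, hχ₀, hd₀⟩ := exists_deg_quot ha hc hω₀ hω₀1
  rw [hst ω₀ hω₀ hω₀1, Subgroup.index_top, one_mul] at hd₀
  refine ⟨charDegree ω₀, fun χ hχ hd => ?_⟩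
  obtain ⟨θ, hθ, ho⟩ := exists_under (f := H.subtype) hχ
  by_cases hNθ : N ≤ stab θ
  · obtain ⟨ω, hω, hω1, e⟩ := caseA ha hp hF hHN hcop hidx hχ hd hθ ho hNθ
    rw [e, hst ω hω hω1, Subgroup.index_top, one_mul]
    exact heq ω ω₀ hω hω₀ hω1 hω₀1
  · obtain ⟨k, hk⟩ := hidx
    obtain ⟨-, hab, -, hdeg⟩ := inertia_of_not ha hc hHN (by rw [hk]; exact hcop.pow_right k)
      (exists_index_degree hF) hF.ne_top hθ hNθ
    have hHT : H ≤ N ⊓ stab θ := le_inf hHN (le_stab' hθ)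
    have h1 := deg_le_relIndex (T := N ⊓ stab θ) (N := N) inf_le_left hHT
      ((Subgroup.commutator_mono inf_le_right inf_le_right).trans hab)
      (isIrr_map (QuotientGroup.mk' H) N hω₀) (by
        intro k
        rw [Function.comp_apply, Function.comp_apply, map_one]
        congr 1
        apply Subtype.ext
        change ((k : G) : G ⧸ H) = 1
        exact (QuotientGroup.eq_one_iff _).2 k.2)
    rw [charDegree_map] at h1
    have h2 : (N ⊓ stab θ).relIndex N ∣ p ^ k := by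
      rw [← hk]
      exact Dvd.intro_left _ (Subgroup.relIndex_mul_relIndex H (N ⊓ stab θ) N hHT inf_le_left)
    obtain ⟨i, -, hi⟩ := (Nat.dvd_prime_pow hp).1 h2
    have h3 : charDegree ω₀ ∣ (N ⊓ stab θ).relIndex N := by
      rcases pow_dvd_or (hPS.deg_pow hω₀) ⟨i, hi⟩ with h4 | h4
      · exact h4
      · have h5 := Nat.le_antisymm h1 (Nat.le_of_dvd (charDegree_pos hω₀) h4)
        rw [h5]
    have h4 : (N ⊓ stab θ).relIndex N = (stab θ).relIndex N := by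
      rw [inf_comm, Subgroup.inf_relIndex_right]
    have h5 : (stab θ).relIndex N ∣ (stab θ).index := by
      rw [← Subgroup.relIndex_top_right]
      exact relIndex_dvd_relIndex le_top le_top
    rw [h4] at h3
    have h6 := ha χ₀ χ hχ₀ hχ (by rw [hd₀]; exact hω₀1)
      (by rw [hd₀, hdeg χ hχ ho]; exact (h3.trans h5).mul_right _)
    rw [← h6, hd₀]

end glev

end Cfsg.Agent.H675.Nd
end

-- part: H675/Nd/PH3
section
/-!
# Case II for the group: the `p`-complement is central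
-/

set_option autoImplicit false
set_option linter.style.haveILetI false
set_option linter.unusedSectionVars false
open Cfsg

namespace Cfsg.Agent.H675.Nd

open Cfsg.Agent.Characters.Core Cfsg.Agent.Characters.Clifford Cfsg.Agent.H672 Cfsg.Agent.H672.RM
open Cfsg.Agent.H597.FrobA
open scoped commutatorElement

universe u v w

variable {G : Type u} [Group G] [Finite G] {N K H : Subgroup G} [hN : N.Normal] [hK : K.Normal]
  [hH : H.Normal] {p : ℕ}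

/-- From `H` to a normal subgroup `J`. -/
theorem hx_of' {J : Subgroup G} [hJ : J.Normal] (hab : J ≤ H) {p : ℕ} (hp : p.Prime)
    (hcop : (Nat.card H).Coprime p) {x : G} (hxp : x ^ p = 1) (hxH : x ∉ H)
    (hfix : ∀ θ : H → ℂ, IsIrrCharacter H θ → x ∈ stab θ →
      charDegree θ = 1 ∧ ∀ j (hj : j ∈ J), θ ⟨j, hab hj⟩ = 1)
    {μ : J → ℂ} (hμ : IsIrrCharacter _ μ) (hxμ : x ∈ stab μ) : μ = 1 := by
  classical
  haveI := Fact.mk hp
  have hJH : Nat.card J ∣ Nat.card H := Subgroup.card_dvd_of_le hab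
  have hD : Nat.card (Subgroup.zpowers x) ∣ p := by
    rw [Nat.card_zpowers]; exact orderOf_dvd_of_pow_eq_one hxp
  -- extension to `S = J ⟨x⟩`
  set S : Subgroup G := J ⊔ Subgroup.zpowers x with hS
  have hJS : J ≤ S := le_sup_left
  have hSst : S ≤ stab μ :=
    sup_le (le_stab (isIrr_isClassFunction hμ)) (Subgroup.zpowers_le.2 hxμ)
  have hSidx : J.relIndex S ∣ p := by
    rw [hS, sup_comm, Subgroup.relIndex_sup_right]
    exact (Subgroup.relIndex_dvd_card _ _).trans hD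
  obtain ⟨μ', hμ', hμ'μ⟩ := exists_ext hJS hμ hSst
    ((hcop.coprime_dvd_left hJH).coprime_dvd_right hSidx)
  -- the group `E = H ⟨x⟩`
  set E : Subgroup G := H ⊔ Subgroup.zpowers x with hE
  have hHE : H ≤ E := le_sup_left
  have hxE : x ∈ E := Subgroup.mem_sup_right (Subgroup.mem_zpowers x)
  have hxS : x ∈ S := Subgroup.mem_sup_right (Subgroup.mem_zpowers x)
  have hSE : S ≤ E := sup_le_sup_right hab _
  have hEidx : H.relIndex E ∣ p := by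
    rw [hE, sup_comm, Subgroup.relIndex_sup_right]
    exact (Subgroup.relIndex_dvd_card _ _).trans hD
  have hpS : p ∣ Nat.card S := by
    have h1 : orderOf x = p := orderOf_eq_prime hxp (fun e => hxH (e ▸ H.one_mem))
    rw [← h1]
    have h2 := orderOf_dvd_natCard (⟨x, hxS⟩ : S)
    rwa [Subgroup.orderOf_mk] at h2
  have hSEidx : ¬ p ∣ (S.subgroupOf E).index := by
    intro hd
    have h1 : Nat.card S * S.relIndex E = Nat.card E := by
      have := Subgroup.relIndex_mul_relIndex (⊥ : Subgroup G) S E bot_le hSE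
      rwa [Subgroup.relIndex_bot_left, Subgroup.relIndex_bot_left] at this
    have h2 : Nat.card H * H.relIndex E = Nat.card E := by
      have := Subgroup.relIndex_mul_relIndex (⊥ : Subgroup G) H E bot_le hHE
      rwa [Subgroup.relIndex_bot_left, Subgroup.relIndex_bot_left] at this
    have h3 : p * p ∣ Nat.card H * p := by
      have h4 : p * p ∣ Nat.card E := by
        rw [← h1]
        exact Nat.mul_dvd_mul hpS hd
      rw [← h2] at h4
      exact h4.trans (Nat.mul_dvd_mul_left _ hEidx)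
    have h4 : p ∣ Nat.card H := Nat.dvd_of_mul_dvd_mul_right hp.pos h3
    exact hp.one_lt.ne' (Nat.eq_one_of_dvd_coprimes hcop h4 dvd_rfl)
  have hμ'd : ¬ p ∣ charDegree μ' := by
    intro hd
    have h1 : charDegree μ' = charDegree μ := by
      apply charDegree_of_eq
      rw [coe_charDegree hμ, ← hμ'μ 1, map_one]
    rw [h1] at hd
    have h2 : p ∣ Nat.card H := (hd.trans (degree_dvd_card hμ)).trans hJH
    exact hp.one_lt.ne' (Nat.eq_one_of_dvd_coprimes hcop h2 dvd_rfl)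
  letI := Fintype.ofFinite E
  letI := Fintype.ofFinite (S.subgroupOf E)
  obtain ⟨χ, hχ, hχμ, hχd⟩ := H597.RelThompson.exists_over_not_dvd p (S.subgroupOf E) hSEidx
    (isIrr_sub hSE hμ') (by
      have e : charDegree (μ' ∘ Subgroup.subgroupOfEquivOfLe hSE) = charDegree μ' :=
        charDegree_comp_one (Subgroup.subgroupOfEquivOfLe hSE).toMonoidHom μ'
      rw [e]; exact hμ'd)
  have hχo : Over (Subgroup.inclusion hSE) χ μ' :=
    (over_iff_sub hSE χ μ').2 ((over_subtype_iff _ _ _).2 hχμ)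
  -- restriction to `H`
  obtain ⟨θ, hθ, hχθ⟩ := exists_under (f := Subgroup.inclusion hHE) hχ
  have hd := div_dvd_of_over hHE (le_nrm H E) hχ hθ hχθ
  have hdd : charDegree χ / charDegree θ = 1 := by
    rcases (Nat.dvd_prime hp).1 (hd.2.trans hEidx) with h1 | h1
    · exact h1
    · exfalso
      apply hχd
      have h2 : charDegree χ / charDegree θ ∣ charDegree χ := Nat.div_dvd_of_dvd hd.1
      rwa [h1] at h2
  have hde : charDegree θ = charDegree χ := by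
    have := Nat.div_mul_cancel hd.1
    rwa [hdd, one_mul] at this
  have hres : χ ∘ Subgroup.inclusion hHE = θ := eq_of_over_of_charDegree_eq hχ hθ hχθ hde
  have hxθ : x ∈ stab θ := mem_stab_of_res hHE hχ (fun k => congrFun hres k) hxE
  obtain ⟨hθ1, hθJ⟩ := hfix θ hθ hxθ
  -- so `χ` is trivial on `J`
  have hone : χ ∘ Subgroup.inclusion (hJS.trans hSE) = 1 := by
    funext j
    have h1 := congrFun hres ⟨j, hab j.2⟩
    rw [hθJ j j.2] at h1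
    exact h1
  have hov : Over (Subgroup.inclusion (hJS.trans hSE)) χ μ := by
    have e : Subgroup.inclusion (hJS.trans hSE) =
        (Subgroup.inclusion hSE).comp (Subgroup.inclusion hJS) := rfl
    rw [e]
    refine (over_comp_iff _ _ (isIrr_isCharacter hχ) hμ).2 ⟨μ', hμ', hχo, ?_⟩
    letI := Fintype.ofFinite J
    rw [over_iff]
    have e2 : μ' ∘ Subgroup.inclusion hJS = μ := funext hμ'μ
    rw [e2, classInner_irr_self hμ]
    exact one_ne_zero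
  by_contra hne
  letI := Fintype.ofFinite J
  rw [over_iff, hone] at hov
  exact hov (classInner_irr_ne isIrr_one hμ (Ne.symm hne))


/-- `N`-invariant characters of the `p`-complement are linear, trivial on `⁅H, N⁆`. -/
theorem lin_of_inv' (ha : Anti G) (hp : p.Prime) (hF : FrobQ K N p) (hHN : H ≤ N)
    (hcop : (Nat.card H).Coprime p) (hidx : ∃ k, H.relIndex N = p ^ k)
    (hJH : ⁅H, N⁆ ≤ H) {θ : H → ℂ} (hθ : IsIrrCharacter H θ) (hNθ : N ≤ stab θ) :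
    charDegree θ = 1 ∧ ∀ j (hj : j ∈ ⁅H, N⁆), θ ⟨j, hJH hj⟩ = 1 := by
  obtain ⟨k, hk⟩ := hidx
  obtain ⟨χ', hχ', hext⟩ := exists_ext hHN hθ hNθ (by rw [hk]; exact hcop.pow_right k)
  have hdeg : charDegree χ' = charDegree θ := charDegree_ext hHN hext
  have h1 : charDegree θ = 1 := by
    by_contra hne
    have h2 := dvd_of_nonlin ha hp hF hχ' (by rw [hdeg]; exact hne)
    rw [hdeg] at h2
    have h3 := Nat.Coprime.coprime_dvd_left (degree_dvd_card hθ) hcop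
    exact hp.one_lt.ne' (Nat.eq_one_of_dvd_coprimes h3 h2 dvd_rfl)
  refine ⟨h1, ?_⟩
  obtain ⟨l, rfl⟩ := exists_hom_of_degree_one hθ h1
  intro j hj
  have h2 : ev l j = 1 := by
    refine ev_comm_sub hJH (fun a ha b hb => ?_) j hj
    have h3 : b * a⁻¹ * b⁻¹ ∈ H := hH.conj_mem _ (H.inv_mem ha) b
    have e : ⁅a, b⁆ = a * (b * a⁻¹ * b⁻¹) := by rw [commutatorElement_def]; group
    rw [e, ev_mul l ha h3, ev_conj (mem_stab_iff.1 (hNθ hb)) (H.inv_mem ha), ev_inv l ha,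
      mul_inv_cancel]
  have h3 := ev_coe l ⟨j, hJH hj⟩
  rw [← h3]
  change ((ev l j : ℂˣ) : ℂ) = 1
  rw [h2, Units.val_one]

/-- **Non-invariant characters of the `p`-complement in Case II.** -/
theorem caseII_inf (ha : Anti G) (hp : p.Prime) (hF : FrobQ K N p) (hHN : H ≤ N)
    (hcop : (Nat.card H).Coprime p) (hidx : ∃ k, H.relIndex N = p ^ k)
    (h : PC (N.map (QuotientGroup.mk' H)) (K.map (QuotientGroup.mk' H)) p) {θ : H → ℂ}
    (hθ : IsIrrCharacter H θ) (hne : ¬ N ≤ stab θ) {x : G} (hxN : x ∈ N)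
    (hxE : QuotientGroup.mk' H x ∈ EE (N.map (QuotientGroup.mk' H))) (hx : x ∈ stab θ) :
    x ∈ H := by
  have hc := cyc_of_frobQ hF
  obtain ⟨k, hk⟩ := hidx
  obtain ⟨⟨s, hs, hsN⟩, hab, ⟨ψ, hψ, hψo, hψd⟩, -⟩ := inertia_of_not ha hc hHN
    (by rw [hk]; exact hcop.pow_right k) (exists_index_degree hF) hF.ne_top hθ hne
  set π := QuotientGroup.mk' H with hπd
  have hπ : Function.Surjective π := QuotientGroup.mk'_surjective H
  have hπ1 : ∀ {g : G}, π g = 1 ↔ g ∈ H := fun {g} => QuotientGroup.eq_one_iff g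
  have hcom : ∀ a ∈ stab θ, ∀ b ∈ stab θ, ⁅π a, π b⁆ = 1 := by
    intro a ha b hb
    rw [← map_commutatorElement, hπ1]
    exact hab (Subgroup.commutator_mem_commutator ha hb)
  -- the inertia group in `N`
  have hC : ∀ n ∈ N, n ∈ stab θ → π n ∈ CC (N.map π) := by
    intro n hn hn'
    refine mem_CC.2 ⟨⟨n, hn, rfl⟩, h.zl le_rfl (L_le _ 1) ⟨n, hn, rfl⟩ (g := π s) ?_ ?_⟩
    · rw [hπd, mem_map_mk hHN]
      exact hsN
    · rw [hcom n hn' s hs]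
      exact Subgroup.one_mem _
  have hHT : H ≤ N ⊓ stab θ := le_inf hHN (le_stab' hθ)
  have hle : (CC (N.map π)).relIndex (N.map π) ∣ (N ⊓ stab θ).relIndex N := by
    rw [← Subgroup.relIndex_comap]
    have h1 : N ⊓ stab θ ≤ (CC (N.map π)).comap π := fun n hn => hC n hn.1 hn.2
    have h2 : (CC (N.map π)).comap π ≤ N := by
      intro n hn
      have h3 : π n ∈ N.map π := CC_le hn
      rwa [hπd, mem_map_mk hHN] at h3
    exact Dvd.intro_left _ (Subgroup.relIndex_mul_relIndex _ _ N h1 h2)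
  have hpk : (N ⊓ stab θ).relIndex N ∣ p ^ k := by
    rw [← hk]
    exact Dvd.intro_left _ (Subgroup.relIndex_mul_relIndex H (N ⊓ stab θ) N hHT inf_le_left)
  obtain ⟨i, -, hi⟩ := (Nat.dvd_prime_pow hp).1 hpk
  have hTN : (N ⊓ stab θ).relIndex N = (stab θ).relIndex N := by
    rw [inf_comm, Subgroup.inf_relIndex_right]
  have hpos : 0 < (N ⊓ stab θ).relIndex N := index_pos _
  -- `stab θ` is not contained in the stabilizers of small characters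
  have hout : ∀ ω : N.map π → ℂ, IsIrrCharacter _ ω → charDegree ω ≠ 1 →
      charDegree ω < (CC (N.map π)).relIndex (N.map π) → ∃ t ∈ stab θ, π t ∉ stab ω := by
    intro ω hω hω1 hlt
    by_contra hcon
    push Not at hcon
    have h1 : stab θ ≤ (stab ω).comap π := hcon
    have h2 : N ≤ (stab ω).comap π := by
      intro n hn
      exact le_stab' hω ⟨n, hn, rfl⟩
    have h3 := relIndex_dvd_relIndex (N := N) h1 h2
    have h4 : charDegree ω < (N ⊓ stab θ).relIndex N := lt_of_lt_of_le hlt (Nat.le_of_dvd hpos hle)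
    have h5 : charDegree ω ∣ (stab θ).relIndex ((stab ω).comap π) := by
      refine Dvd.dvd.trans ?_ h3
      rw [← hTN]
      rcases pow_dvd_or (h.deg_pow hω) ⟨i, hi⟩ with h6 | h6
      · exact h6
      · exact absurd (Nat.le_of_dvd (charDegree_pos hω) h6) (not_le.2 h4)
    have h6 : (stab θ).relIndex ((stab ω).comap π) * ((stab ω).comap π).index = (stab θ).index :=
      Subgroup.relIndex_mul_index h1
    have h7 : ((stab ω).comap π).index = (stab ω).index :=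
      Subgroup.index_comap_of_surjective _ hπ
    rw [h7] at h6
    obtain ⟨χ₀, hχ₀, hd₀⟩ := exists_deg_quot ha hc hω hω1
    have h8 := ha χ₀ ψ hχ₀ hψ (by rw [hd₀]; exact mul_ne_one hω1) (by
      rw [hd₀, hψd, ← h6, mul_comm (stab ω).index]
      exact (Nat.mul_dvd_mul_right h5 _).mul_right _)
    rw [hd₀, hψd, ← h6, mul_comm (stab ω).index, mul_right_comm] at h8
    have h9 := Nat.eq_of_mul_eq_mul_right (index_pos (stab ω)) h8
    have h10 : (stab θ).relIndex N ≤ (stab θ).relIndex ((stab ω).comap π) :=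
      Nat.le_of_dvd (index_pos _) h3
    have h11 : (stab θ).relIndex ((stab ω).comap π) ≤ charDegree ω := by
      rw [h9]
      exact Nat.le_mul_of_pos_right _ (charDegree_pos hθ)
    rw [hTN] at h4
    omega
  -- down the lower central series
  have h1 : π x ∈ L (N.map π) 1 := h.EC_inf hxE (hC x hxN hx)
  have hdown : ∀ t ∈ stab θ, π t * π x * (π t)⁻¹ * (π x)⁻¹ = 1 := by
    intro t ht
    rw [← commutatorElement_def]
    exact hcom t ht x hx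
  have h2 : π x ∈ L (N.map π) 2 := by
    by_cases hex : ∃ ν : L (N.map π) 1 →* ℂˣ, (∀ k ∈ L (N.map π) 2, ev ν k = 1) ∧ ν ≠ 1
    · obtain ⟨ν, hν, hν1⟩ := hex
      obtain ⟨ω, hω, ho⟩ := exists_over_incl (L_le (N.map π) 1) (isIrr_lf ν)
      obtain ⟨t, ht, ht'⟩ := hout ω hω (over_nonlin le_rfl hν1 hω ho) (h.lt1 hν hν1 hω ho)
      rw [h.stab_nu (hν := hν) hν1 hω ho] at ht'
      refine fp_L (g := π t) ?_ h1 (by rw [hdown t ht]; exact Subgroup.one_mem _)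
      intro ν' hν' hfix
      by_contra hν'1
      apply ht'
      rw [h.const1 ν ν' hν hν' hν1 hν'1]
      exact mem_stab_iff.2 hfix
    · push Not at hex
      rw [h.L_bot hex, Subgroup.mem_bot] at h1
      rw [h1]
      exact Subgroup.one_mem _
  have h3 : π x ∈ L (N.map π) 3 := by
    by_cases hex : ∃ ν : L (N.map π) 2 →* ℂˣ, (∀ k ∈ L (N.map π) 3, ev ν k = 1) ∧ ν ≠ 1
    · obtain ⟨ν, hν, hν1⟩ := hex
      obtain ⟨ω, hω, ho⟩ := exists_over_incl (L_le (N.map π) 2) (isIrr_lf ν)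
      obtain ⟨t, ht, ht'⟩ := hout ω hω (over_nonlin (by omega) hν1 hω ho) (h.lt2 hν hν1 hω ho)
      rw [h.stab2 hν hν1 hω ho] at ht'
      refine fp_L (g := π t) ?_ h2 (by rw [hdown t ht]; exact Subgroup.one_mem _)
      intro ν' hν' hfix
      by_contra hν'1
      apply ht'
      rw [h.const2 ν ν' hν hν' hν1 hν'1]
      exact mem_stab_iff.2 hfix
    · push Not at hex
      rw [h.L_bot hex, Subgroup.mem_bot] at h2
      rw [h2]
      exact Subgroup.one_mem _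
  rw [h.L3_bot, Subgroup.mem_bot] at h3
  exact hπ1.1 h3

end Cfsg.Agent.H675.Nd
end

-- part: H675/Nd/PH4
section
/-!
# Case II for the group: conclusion
-/

set_option autoImplicit false
set_option linter.style.haveILetI false
set_option linter.unusedSectionVars false
open Cfsg

namespace Cfsg.Agent.H675.Nd

open Cfsg.Agent.Characters.Core Cfsg.Agent.Characters.Clifford Cfsg.Agent.H672 Cfsg.Agent.H672.RM
open Cfsg.Agent.H597.FrobA
open scoped commutatorElement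

universe u v w

variable {G : Type u} [Group G] [Finite G] {N K H : Subgroup G} [hN : N.Normal] [hK : K.Normal]
  [hH : H.Normal] {p : ℕ}

/-- A complement of `H` in `N`. -/
theorem exists_compl (hHN : H ≤ N) (hcop : (Nat.card H).Coprime (H.relIndex N)) :
    ∃ S : Subgroup G, S ≤ N ∧ (∀ s ∈ S, s ∈ H → s = 1) ∧
      (∀ n ∈ N, ∃ h ∈ H, ∃ s ∈ S, n = h * s) ∧ Nat.card S = H.relIndex N := by
  have hcard : Nat.card (H.subgroupOf N) = Nat.card H :=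
    Nat.card_congr (Subgroup.subgroupOfEquivOfLe hHN).toEquiv
  obtain ⟨S', hS'⟩ := Subgroup.exists_right_complement'_of_coprime (N := H.subgroupOf N)
    (by rw [hcard]; exact hcop)
  refine ⟨S'.map N.subtype, ?_, ?_, ?_, ?_⟩
  · rintro _ ⟨s, -, rfl⟩
    exact s.2
  · rintro _ ⟨s, hs, rfl⟩ h
    have h1 : s ∈ H.subgroupOf N ⊓ S' := ⟨h, hs⟩
    rw [hS'.disjoint.eq_bot, Subgroup.mem_bot] at h1
    rw [h1]
    rfl
  · intro n hn
    have h1 : (⟨n, hn⟩ : N) ∈ H.subgroupOf N ⊔ S' := by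
      rw [hS'.sup_eq_top]
      exact Subgroup.mem_top _
    obtain ⟨h, hh, s, hs, e⟩ := Subgroup.mem_sup_of_normal_left.1 h1
    exact ⟨h, hh, s, ⟨s, hs, rfl⟩, (congrArg Subtype.val e).symm⟩
  · rw [Nat.card_congr (S'.equivMapOfInjective N.subtype N.subtype_injective).symm.toEquiv,
      ← hS'.symm.index_eq_card]
    rfl

/-- **Case II**: `N` centralizes the `p`-complement. -/
theorem caseII_J [Group.IsSolvable G] (ha : Anti G) (hp : p.Prime) (hF : FrobQ K N p)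
    (hHN : H ≤ N) (hcop : (Nat.card H).Coprime p) (hidx : ∃ k, H.relIndex N = p ^ k)
    (hna : ¬ ⁅N, N⁆ ≤ H)
    (h : PC (N.map (QuotientGroup.mk' H)) (K.map (QuotientGroup.mk' H)) p) : ⁅H, N⁆ = ⊥ := by
  classical
  haveI := Fact.mk hp
  by_contra hJ
  obtain ⟨k, hk⟩ := hidx
  obtain ⟨S, hSN, hSH, hdec, hScard⟩ := exists_compl hHN (by rw [hk]; exact hcop.pow_right k)
  set π := QuotientGroup.mk' H with hπd
  have hπ1 : ∀ {g : G}, π g = 1 ↔ g ∈ H := fun {g} => QuotientGroup.eq_one_iff g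
  have hlift : ∀ d ∈ N.map π, ∃ s ∈ S, π s = d := by
    rintro _ ⟨n, hn, rfl⟩
    obtain ⟨a, ha', s, hs, rfl⟩ := hdec n hn
    refine ⟨s, hs, ?_⟩
    rw [map_mul, hπ1.2 ha', one_mul]
  have hJH : ⁅H, N⁆ ≤ H := Subgroup.commutator_le_left H N
  set Q : Subgroup G := S ⊓ (EE (N.map π)).comap π with hQ
  have hpS : ∀ s ∈ S, s ^ (p ^ k) = 1 := by
    intro s hs
    rw [← hk, ← hScard]
    exact congrArg Subtype.val (pow_card_eq_one' (x := (⟨s, hs⟩ : S)))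
  -- fixed-point-free action
  have claim1 : ∀ x ∈ Q, x ≠ 1 → ∀ l : (⁅H, N⁆ : Subgroup G) →* ℂˣ, cl x l = l → l = 1 := by
    intro x hx hx1 l hl
    obtain ⟨j, -, hj⟩ := (Nat.dvd_prime_pow hp).1 (orderOf_dvd_of_pow_eq_one (hpS x hx.1))
    have hj0 : j ≠ 0 := by
      rintro rfl
      rw [pow_zero, orderOf_eq_one_iff] at hj
      exact hx1 hj
    obtain ⟨i, rfl⟩ := Nat.exists_eq_succ_of_ne_zero hj0
    have hy1 : x ^ (p ^ i) ≠ 1 := by
      intro h2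
      have h3 := orderOf_dvd_of_pow_eq_one h2
      rw [hj] at h3
      have h4 := Nat.le_of_dvd (pow_pos hp.pos _) h3
      exact absurd h4 (not_le.2 (Nat.pow_lt_pow_right hp.one_lt (Nat.lt_succ_self i)))
    have hyp : (x ^ (p ^ i)) ^ p = 1 := by
      have h5 : p ^ i * p = orderOf x := by rw [hj, Nat.succ_eq_add_one, pow_succ]
      rw [← pow_mul, h5, pow_orderOf_eq_one]
    have hyQ : x ^ (p ^ i) ∈ Q := Q.pow_mem hx _
    have hyH : x ^ (p ^ i) ∉ H := fun h1 => hy1 (hSH _ hyQ.1 h1)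
    by_contra hl1
    refine lf_ne_one hl1 (hx_of' hJH hp hcop hyp hyH (fun θ hθ hyθ => ?_) (isIrr_lf l)
      (Subgroup.pow_mem _ (mem_stab_iff.2 hl) _))
    refine lin_of_inv' ha hp hF hHN hcop ⟨k, hk⟩ hJH hθ ?_
    by_contra hne
    exact hyH (caseII_inf ha hp hF hHN hcop ⟨k, hk⟩ h hθ hne (hSN hyQ.1) hyQ.2 hyθ)
  obtain ⟨l₀, hl₀⟩ := exists_lin_of_solv hJ
  have hfpf : H348.HasFPF Q := by
    haveI := finite_lin (⁅H, N⁆ : Subgroup G)
    letI := clDist (⁅H, N⁆ : Subgroup G)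
    haveI : Nontrivial ((⁅H, N⁆ : Subgroup G) →* ℂˣ) := ⟨⟨l₀, 1, hl₀⟩⟩
    refine hasFPF_of ((⁅H, N⁆ : Subgroup G) →* ℂˣ)
      ((MulDistribMulAction.toMulAut G ((⁅H, N⁆ : Subgroup G) →* ℂˣ)).comp Q.subtype) ?_
    intro a ha1 v hv
    have h1 : cl (a : G)⁻¹ v = v := hv
    exact claim1 a a.2 (fun e => ha1 (Subtype.ext e)) v (fix_inv_iff.1 h1)
  have hQp : IsPGroup p Q := by
    intro x
    exact ⟨k, Subtype.ext (hpS x x.2.1)⟩
  have hL1 : L (N.map π) 1 ≠ ⊥ := by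
    intro e
    apply hna
    have e1 : L (N.map π) 1 = (⁅N, N⁆).map π := (Subgroup.map_commutator N N π).symm
    rw [e1, Subgroup.map_eq_bot_iff, hπd, QuotientGroup.ker_mk'] at e
    exact e
  rcases hfpf.cyclic_or_quaternion hp hQp with hcyc | ⟨rfl, -⟩
  · -- `E` is abelian
    refine h.E_not_comm hL1 ?_
    intro e he e' he'
    obtain ⟨s, hs, rfl⟩ := hlift e (EE_le he)
    obtain ⟨s', hs', rfl⟩ := hlift e' (EE_le he')
    letI := hcyc.commGroup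
    have h1 : (⟨s, hs, he⟩ : Q) * ⟨s', hs', he'⟩ = ⟨s', hs', he'⟩ * ⟨s, hs, he⟩ := mul_comm _ _
    have h2 : s * s' = s' * s := congrArg Subtype.val h1
    rw [← map_mul, h2, map_mul]
  · -- `p = 2`
    have key : ∀ n, 1 ≤ n → L (N.map π) n ≠ ⊥ → L (N.map π) (n + 1) = ⊥ →
        ∃ ν : L (N.map π) n →* ℂˣ, ν ≠ 1 ∧ (∀ k ∈ L (N.map π) (n + 1), ev ν k = 1) ∧
          ∀ g, cl g ν = ν := by
      intro n hn hne hbot
      set A : Subgroup G := S ⊓ (L (N.map π) n).comap π with hA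
      have hLE : L (N.map π) n ≤ EE (N.map π) := (L_anti _ hn).trans L1_le_EE
      have hAQ : A ≤ Q := fun x hx => ⟨hx.1, hLE hx.2⟩
      have hAf : H348.HasFPF A :=
        hfpf.of_injective (Subgroup.inclusion hAQ) (Subgroup.inclusion_injective hAQ)
      have hAc : IsCyclic A := by
        refine hAf.isCyclic ?_
        intro a b
        apply Subtype.ext
        change (a : G) * b = b * a
        rw [← commutatorElement_eq_one_iff_mul_comm]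
        refine hSH _ (S.mul_mem (S.mul_mem (S.mul_mem a.2.1 b.2.1) (S.inv_mem a.2.1))
          (S.inv_mem b.2.1)) ?_
        rw [← hπ1, map_commutatorElement, ← Subgroup.mem_bot, ← hbot]
        exact L_anti _ (by omega) (comm_L _ n n (Subgroup.commutator_mem_commutator a.2.2 b.2.2))
      obtain ⟨a, hgen⟩ := hAc.exists_generator
      refine h.inv_of_cyc hne (z := π a) a.2.2 ?_
      intro d hd
      obtain ⟨s, hs, rfl⟩ := hlift d (L_le _ n hd)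
      obtain ⟨m, hm⟩ := Subgroup.mem_zpowers_iff.1 (hgen ⟨s, hs, hd⟩)
      refine ⟨m, ?_⟩
      rw [← map_zpow]
      exact congrArg π (congrArg Subtype.val hm).symm
    by_cases h2 : L (N.map π) 2 = ⊥
    · obtain ⟨ν, hν1, hν, hinv⟩ := key 1 le_rfl hL1 h2
      exact hν1 (h.no ν hν hinv)
    · obtain ⟨ν, hν1, hν, hinv⟩ := key 2 (by omega) h2 h.L3_bot
      exact hν1 (h.no2 hν hinv)

/-- **Case II for `G`.** -/
theorem G_caseII [Group.IsSolvable G] (ha : Anti G) (hp : p.Prime) (hF : FrobQ K N p)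
    (hHN : H ≤ N) (hcop : (Nat.card H).Coprime p) (hidx : ∃ k, H.relIndex N = p ^ k)
    (hna : ¬ ⁅N, N⁆ ≤ H)
    (h : PC (N.map (QuotientGroup.mk' H)) (K.map (QuotientGroup.mk' H)) p) :
    (∃ d₁ d₂, ∀ χ : G → ℂ, IsIrrCharacter G χ → p ∣ charDegree χ →
      charDegree χ = d₁ ∨ charDegree χ = d₂) ∧ derivedSeries G 3 = ⊥ := by
  have hJ := caseII_J ha hp hF hHN hcop hidx hna h
  have hcomm : ∀ a ∈ H, ∀ n ∈ N, a * n = n * a := by
    intro a ha' n hn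
    rw [← commutatorElement_eq_one_iff_mul_comm, ← Subgroup.mem_bot, ← hJ]
    exact Subgroup.commutator_mem_commutator ha' hn
  constructor
  · obtain ⟨d₁, d₂, hd⟩ := h.two
    refine ⟨d₁, d₂, fun χ hχ hpχ => ?_⟩
    obtain ⟨θ, hθ, ho⟩ := exists_under (f := H.subtype) hχ
    have hNθ : N ≤ stab θ := by
      intro n hn
      refine ⟨mem_nrm H n, ?_⟩
      funext a
      rw [tw_apply (mem_nrm H n)]
      congr 1
      apply Subtype.ext
      change n * a * n⁻¹ = a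
      rw [← hcomm a a.2 n hn, mul_inv_cancel_right]
    obtain ⟨ω, hω, hω1, e⟩ := caseA ha hp hF hHN hcop hidx hχ hpχ hθ ho hNθ
    rw [e]
    exact hd ω hω hω1
  · obtain ⟨k, hk⟩ := hidx
    obtain ⟨S, hSN, hSH, hdec, -⟩ := exists_compl hHN (by rw [hk]; exact hcop.pow_right k)
    have h1 : derivedSeries G 1 ≤ N := by
      rw [derivedSeries_one]
      exact hF.le
    have h2 : derivedSeries G 2 ≤ ⁅N, N⁆ := by
      rw [derivedSeries_succ]
      exact Subgroup.commutator_mono h1 h1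
    have h3 : derivedSeries G 3 ≤ ⁅⁅N, N⁆, ⁅N, N⁆⁆ := by
      rw [derivedSeries_succ]
      exact Subgroup.commutator_mono h2 h2
    have hNS : ⁅N, N⁆ ≤ S := by
      rw [Subgroup.commutator_le]
      intro n hn n' hn'
      obtain ⟨a, ha', s, hs, rfl⟩ := hdec n hn
      obtain ⟨b, hb, t, ht, rfl⟩ := hdec n' hn'
      have e : ⁅a * s, b * t⁆ = ⁅s, t⁆ := by
        have e1 : ∀ z ∈ N, ⁅a * s, z⁆ = ⁅s, z⁆ := by
          intro z hz
          have e2 : ⁅a * s, z⁆ = a * ⁅s, z⁆ * a⁻¹ * ⁅a, z⁆ := by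
            simp only [commutatorElement_def]; group
          have hm : ⁅s, z⁆ ∈ N := N.mul_mem (N.mul_mem (N.mul_mem (hSN hs) hz)
            (N.inv_mem (hSN hs))) (N.inv_mem hz)
          rw [e2, commutatorElement_eq_one_iff_mul_comm.2 (hcomm a ha' z hz), mul_one,
            hcomm a ha' _ hm, mul_inv_cancel_right]
        rw [e1 _ hn']
        have e3 : ⁅s, b * t⁆ = ⁅s, b⁆ * (b * ⁅s, t⁆ * b⁻¹) := by
          simp only [commutatorElement_def]; group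
        have hm : ⁅s, t⁆ ∈ N := N.mul_mem (N.mul_mem (N.mul_mem (hSN hs) (hSN ht))
          (N.inv_mem (hSN hs))) (N.inv_mem (hSN ht))
        rw [e3, commutatorElement_eq_one_iff_mul_comm.2 (hcomm b hb s (hSN hs)).symm, one_mul,
          hcomm b hb _ hm, mul_inv_cancel_right]
      rw [e]
      exact S.mul_mem (S.mul_mem (S.mul_mem hs ht) (S.inv_mem hs)) (S.inv_mem ht)
    rw [eq_bot_iff]
    intro x hx
    rw [Subgroup.mem_bot]
    have hx' := h3 hx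
    refine hSH x ?_ ?_
    · have h4 : ⁅⁅N, N⁆, ⁅N, N⁆⁆ ≤ S := by
        rw [Subgroup.commutator_le]
        intro a ha' b hb
        exact S.mul_mem (S.mul_mem (S.mul_mem (hNS ha') (hNS hb)) (S.inv_mem (hNS ha')))
          (S.inv_mem (hNS hb))
      exact h4 hx'
    · have h5 : (⁅⁅N, N⁆, ⁅N, N⁆⁆).map (QuotientGroup.mk' H) ≤
          L (N.map (QuotientGroup.mk' H)) 3 := by
        rw [Subgroup.map_commutator, Subgroup.map_commutator]
        exact comm_L (N.map (QuotientGroup.mk' H)) 1 1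
      have h6 := h5 ⟨x, hx', rfl⟩
      rw [h.L3_bot, Subgroup.mem_bot] at h6
      exact (QuotientGroup.eq_one_iff x).1 h6

end Cfsg.Agent.H675.Nd
end

-- part: H675/Nd/PH5
section
/-!
# Solvable groups without divisibility among degrees: at most four degrees, `G''' = 1`
-/

set_option autoImplicit false
set_option linter.style.haveILetI false
set_option linter.unusedSectionVars false
open Cfsg

namespace Cfsg.Agent.H675.Nd

open Cfsg.Agent.Characters.Core Cfsg.Agent.Characters.Clifford Cfsg.Agent.H672 Cfsg.Agent.H672.RM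
open Cfsg.Agent.H597.FrobA
open scoped commutatorElement

universe u v w

variable {G : Type u} [Group G] [Finite G]

theorem card_le_four {a b c : ℕ} (h : ∀ χ : G → ℂ, IsIrrCharacter G χ →
    charDegree χ = 1 ∨ charDegree χ = a ∨ charDegree χ = b ∨ charDegree χ = c) :
    Nat.card ↥(charDegrees G) ≤ 4 := by
  classical
  have hsub : charDegrees G ⊆ (({1, a, b, c} : Finset ℕ) : Set ℕ) := by
    rintro _ ⟨⟨χ, hχ⟩, rfl⟩
    have := h χ hχ
    simpa using this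
  rw [Nat.card_coe_set_eq]
  refine (Set.ncard_le_ncard hsub (Finset.finite_toSet _)).trans ?_
  rw [Set.ncard_coe_finset]
  exact Finset.card_le_four

theorem of_three [Group.IsSolvable G] {a b : ℕ} (h : ∀ χ : G → ℂ, IsIrrCharacter G χ →
    charDegree χ = 1 ∨ charDegree χ = a ∨ charDegree χ = b) :
    Nat.card ↥(charDegrees G) ≤ 4 ∧ derivedSeries G 3 = ⊥ := by
  refine ⟨card_le_four (a := a) (b := b) (c := b) fun χ hχ => ?_,
    H597.ThreeDegB.solvable_case inferInstance a b h⟩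
  rcases h χ hχ with h1 | h1 | h1
  · exact Or.inl h1
  · exact Or.inr (Or.inl h1)
  · exact Or.inr (Or.inr (Or.inl h1))

/-- Type P: all nonlinear degrees coincide. -/
theorem typeP_one (ha : Anti G) {r : ℕ} (hr : r.Prime) {K : Subgroup G} [K.Normal] {k : ℕ}
    (hK : K.index = r ^ k) {β : G → ℂ} (hβ : IsIrrCharacter G β) (hβ1 : charDegree β ≠ 1)
    (hβK : ∀ x ∈ K, β x = β 1) :
    ∃ m, ∀ χ : G → ℂ, IsIrrCharacter G χ → charDegree χ ≠ 1 → charDegree χ = m := by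
  haveI := Fact.mk hr
  have h0 : ∀ χ : G → ℂ, IsIrrCharacter G χ → charDegree χ ≠ 1 → r ∣ charDegree χ :=
    fun χ => typeP ha hr hK hβ hβ1 hβK
  have hcop : (Nat.card (H597.RelThompson.Op r (⊤ : Subgroup G))).Coprime r := by
    refine H597.RelThompson.card_Op_coprime r hr ⊤ ?_
    rintro χ hχ ⟨x, hx, hne⟩
    refine h0 χ hχ fun h1 => hne ?_
    exact H597.Taketa.commutator_le_ker_of_linear hχ h1 _ hx
  have hOK : H597.RelThompson.Op r (⊤ : Subgroup G) ≤ K := by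
    unfold H597.RelThompson.Op
    rw [Subgroup.closure_le]
    rintro g ⟨-, hg'⟩
    have h8 := Subgroup.pow_index_mem K g
    rw [hK, ← QuotientGroup.eq_one_iff, QuotientGroup.mk_pow] at h8
    have h9 : (g : G ⧸ K) ^ orderOf g = 1 := by
      rw [← QuotientGroup.mk_pow, pow_orderOf_eq_one, QuotientGroup.mk_one]
    have h5 := pow_gcd_eq_one.2 ⟨h8, h9⟩
    rw [(hg'.symm.pow_left k).gcd_eq_one, pow_one] at h5
    exact (QuotientGroup.eq_one_iff g).1 h5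
  have hna : ¬ ⁅(⊤ : Subgroup G), (⊤ : Subgroup G)⁆ ≤ H597.RelThompson.Op r (⊤ : Subgroup G) := by
    intro hle
    apply hβ1
    refine H597.RelThompson.charDegree_eq_one hβ fun x hx => hβK x (hOK (hle ?_))
    rwa [_root_.commutator_def] at hx
  obtain ⟨m, hm⟩ := case_nonab (N := (⊤ : Subgroup G)) (H := H597.RelThompson.Op r (⊤ : Subgroup G))
    le_top hr hcop (H597.RelThompson.relIndex_Op r ⊤) hna (fun ψ ψ' hψ hψ' h1 _ hd => by
      have h2 := ha _ _ (isIrr_top hψ) (isIrr_top hψ') (by rw [charDegree_top]; exact h1)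
        (by rw [charDegree_top, charDegree_top]; exact hd)
      rwa [charDegree_top, charDegree_top] at h2)
  refine ⟨m, fun χ hχ h1 => ?_⟩
  have h5 : charDegree (χ ∘ (Subgroup.topEquiv (G := G))) = charDegree χ :=
    charDegree_comp_one (Subgroup.topEquiv (G := G)).toMonoidHom χ
  rw [← h5]
  exact hm _ (isIrr_top' hχ) (by rw [h5]; exact h1)

/-- **Solvable groups without divisibility among degrees.** -/
theorem main [Group.IsSolvable G] (ha : Anti G) :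
    Nat.card ↥(charDegrees G) ≤ 4 ∧ derivedSeries G 3 = ⊥ := by
  classical
  by_cases hab : commutator G = ⊥
  · refine of_three (a := 1) (b := 1) fun χ hχ => Or.inl ?_
    refine H597.RelThompson.charDegree_eq_one hχ fun k hk => ?_
    rw [hab, Subgroup.mem_bot] at hk
    rw [hk]
  obtain ⟨r, hr, ⟨K, hK, ⟨k, hk⟩, β, hβ, hβ1, hβK, -⟩ | ⟨K, N, hK, hN, hF⟩⟩ := dich hab
  · obtain ⟨m, hm⟩ := typeP_one ha hr hk hβ hβ1 hβK
    refine of_three (a := m) (b := m) fun χ hχ => ?_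
    by_cases h1 : charDegree χ = 1
    · exact Or.inl h1
    · exact Or.inr (Or.inl (hm χ hχ h1))
  haveI := Fact.mk hr
  have hone : (∃ m, ∀ χ : G → ℂ, IsIrrCharacter G χ → r ∣ charDegree χ → charDegree χ = m) →
      Nat.card ↥(charDegrees G) ≤ 4 ∧ derivedSeries G 3 = ⊥ := by
    rintro ⟨m, hm⟩
    refine of_three (a := N.index) (b := m) fun χ hχ => ?_
    rcases cases_degree ha hr hF hχ with h1 | h1 | ⟨-, h1⟩
    · exact Or.inl h1
    · exact Or.inr (Or.inl h1)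
    · exact Or.inr (Or.inr (hm χ hχ h1))
  by_cases hNab : ⁅N, N⁆ ≤ H597.RelThompson.Op r N
  · exact hone (case_b2 ha hr hF hNab)
  have hcop := Op_coprime ha hr hF
  have hidx := H597.RelThompson.relIndex_Op r N
  have hHK := Op_le_K hF
  by_cases hex : ∃ ν : L (N.map (QuotientGroup.mk' (H597.RelThompson.Op r N))) 1 →* ℂˣ,
      (∀ k ∈ L (N.map (QuotientGroup.mk' (H597.RelThompson.Op r N))) 2, ev ν k = 1) ∧
        (∀ g, cl g ν = ν) ∧ ν ≠ 1
  · obtain ⟨ν, hν, hinv, hν1⟩ := hex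
    exact hone (G_caseI ha hr hF hHK hcop hidx hν hν1 hinv)
  · push Not at hex
    have hPC : PC (N.map (QuotientGroup.mk' (H597.RelThompson.Op r N)))
        (K.map (QuotientGroup.mk' (H597.RelThompson.Op r N))) r :=
      { PS_quot ha hr hF hHK hidx with no := hex }
    obtain ⟨⟨d₁, d₂, hd⟩, h3⟩ := G_caseII ha hr hF (H597.RelThompson.Op_le r N) hcop hidx hNab hPC
    refine ⟨card_le_four (a := N.index) (b := d₁) (c := d₂) fun χ hχ => ?_, h3⟩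
    rcases cases_degree ha hr hF hχ with h1 | h1 | ⟨-, h1⟩
    · exact Or.inl h1
    · exact Or.inr (Or.inl h1)
    · exact Or.inr (Or.inr (hd χ hχ h1))

end Cfsg.Agent.H675.Nd
end

-- part: S4780
section
set_option autoImplicit false
open Cfsg

namespace Cfsg.Agent.S4780

/-- Let G be a finite solvable group in which no irreducible complex character degree a with 1 < a divides a larger irreducible character degree. Then G has at most four distinct irreducible character degrees and the third derived subgroup of G is trivial. -/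
theorem result {G : Type*} [Group G] [Finite G] [Group.IsSolvable G] (hnd : ∀ a ∈ Cfsg.charDegrees G, ∀ b ∈ Cfsg.charDegrees G, 1 < a → a < b → ¬ a ∣ b) : Nat.card ↥(Cfsg.charDegrees G) ≤ 4 ∧ derivedSeries G 3 = ⊥ := by
  exact Cfsg.Agent.H675.Nd.main (Cfsg.Agent.H675.Nd.anti_of hnd)

end Cfsg.Agent.S4780
end
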