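import Mathlib
import Cfsg.Agent.H675.Nd.Base
import Cfsg.Statements.S4781
set_option linter.all false

-- part: H675/Nd/Two
section
/-!
# Two components: exactly three degrees
-/

set_option autoImplicit false
set_option linter.style.haveILetI false
set_option linter.unusedSectionVars false
open Cfsg

namespace Cfsg.Agent.H675.Nd

open Cfsg.Agent.Characters.Core Cfsg.Agent.Characters.Clifford Cfsg.Agent.H672 Cfsg.Agent.H672.RM
open Cfsg.Agent.H597.FrobA
open scoped commutatorElement

universe u v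

variable {G : Type u} [Group G] [Finite G]

theorem mem_cd {χ : G → ℂ} (hχ : IsIrrCharacter G χ) : charDegree χ ∈ charDegrees G :=
  ⟨⟨χ, hχ⟩, rfl⟩

theorem card_le_one_of_reach {v : ℕ} (hv : v ∈ degreePrimes G)
    (h : ∀ (s : ℕ) (hs : s ∈ degreePrimes G),
      ((degreeGraph G).induce (degreePrimes G)).Reachable ⟨s, hs⟩ ⟨v, hv⟩) :
    Nat.card ((degreeGraph G).induce (degreePrimes G)).ConnectedComponent ≤ 1 := by
  have h1 : ∀ C : ((degreeGraph G).induce (degreePrimes G)).ConnectedComponent,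
      C = SimpleGraph.connectedComponentMk _ ⟨v, hv⟩ := by
    intro C
    obtain ⟨⟨s, hs⟩, rfl⟩ := C.exists_rep
    exact SimpleGraph.ConnectedComponent.eq.2 (h s hs)
  haveI : Subsingleton ((degreeGraph G).induce (degreePrimes G)).ConnectedComponent :=
    ⟨fun a b => (h1 a).trans (h1 b).symm⟩
  exact Finite.card_le_one_iff_subsingleton.2 inferInstance

theorem degree_of_mem {s : ℕ} (hs : s ∈ degreePrimes G) :
    s.Prime ∧ ∃ χ : G → ℂ, IsIrrCharacter G χ ∧ s ∣ charDegree χ ∧ charDegree χ ≠ 1 := by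
  obtain ⟨hp, d, ⟨⟨χ, hχ⟩, rfl⟩, hd⟩ := hs
  refine ⟨hp, χ, hχ, hd, fun h => ?_⟩
  dsimp only at hd
  rw [h] at hd
  exact hp.one_lt.ne' (Nat.dvd_one.1 hd)

theorem mem_primes {s : ℕ} (hs : s.Prime) {χ : G → ℂ} (hχ : IsIrrCharacter G χ)
    (hd : s ∣ charDegree χ) : s ∈ degreePrimes G := ⟨hs, _, mem_cd hχ, hd⟩

/-- **Two components**: exactly three degrees. -/
theorem card_eq_three [Group.IsSolvable G] (ha : Anti G)
    (htwo : Nat.card ((degreeGraph G).induce (degreePrimes G)).ConnectedComponent = 2) :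
    Nat.card ↥(charDegrees G) = 3 := by
  classical
  have hnot : ¬ Nat.card ((degreeGraph G).induce (degreePrimes G)).ConnectedComponent ≤ 1 := by
    rw [htwo]; norm_num
  by_cases hab : commutator G = ⊥
  · exfalso
    apply hnot
    have hE : IsEmpty (degreePrimes G) := by
      constructor
      rintro ⟨s, hs⟩
      obtain ⟨-, χ, hχ, -, h1⟩ := degree_of_mem hs
      apply h1
      refine H597.RelThompson.charDegree_eq_one hχ fun k hk => ?_
      rw [hab, Subgroup.mem_bot] at hk
      rw [hk]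
    haveI : IsEmpty ((degreeGraph G).induce (degreePrimes G)).ConnectedComponent := by
      constructor
      intro C
      obtain ⟨v, -⟩ := C.exists_rep
      exact hE.false v
    rw [Nat.card_of_isEmpty]
    exact Nat.zero_le _
  obtain ⟨r, hr, ⟨K, hK, ⟨k, hk⟩, β, hβ, hβ1, hβK, -⟩ | ⟨K, N, hK, hN, hF⟩⟩ := dich hab
  · exfalso
    apply hnot
    have h0 : ∀ χ : G → ℂ, IsIrrCharacter G χ → charDegree χ ≠ 1 → r ∣ charDegree χ :=
      fun χ => typeP ha hr hk hβ hβ1 hβK
    have hv : r ∈ degreePrimes G := mem_primes hr hβ (h0 β hβ hβ1)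
    refine card_le_one_of_reach hv fun s hs => ?_
    obtain ⟨hsp, χ, hχ, hd, h1⟩ := degree_of_mem hs
    exact prime_conn hsp hr (mem_cd hχ) hd (h0 χ hχ h1) hs hv
  obtain ⟨χf, hχf, hf⟩ := exists_index_degree hF
  have hf1 := one_lt_index hF
  have hcop : ∀ χ : G → ℂ, IsIrrCharacter G χ → r ∣ charDegree χ →
      N.index.Coprime (charDegree χ) := by
    intro χ hχ hrχ
    by_contra hcon
    apply hnot
    obtain ⟨q, hq, hqf, hqχ⟩ := Nat.Prime.not_coprime_iff_dvd.1 hcon
    have hv : q ∈ degreePrimes G := mem_primes hq hχ hqχ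
    have hrv : r ∈ degreePrimes G := mem_primes hr hχ hrχ
    refine card_le_one_of_reach hv fun s hs => ?_
    obtain ⟨hsp, χ', hχ', hd, h1⟩ := degree_of_mem hs
    rcases cases_degree ha hr hF hχ' with h2 | h2 | ⟨-, h2⟩
    · exact absurd h2 h1
    · exact prime_conn hsp hq (mem_cd hχf) (by rw [hf, ← h2]; exact hd) (by rw [hf]; exact hqf) hs hv
    · exact (prime_conn hsp hr (mem_cd hχ') hd h2 hs hrv).trans
        (prime_conn hr hq (mem_cd hχ) hrχ hqχ hrv hv)
  obtain ⟨m, hm⟩ := one_degree_of_coprime ha hr hF hcop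
  obtain ⟨χ₁, hχ₁, hr₁⟩ : ∃ χ : G → ℂ, IsIrrCharacter G χ ∧ r ∣ charDegree χ := by
    by_contra hcon
    push Not at hcon
    apply hnot
    obtain ⟨q, hq, hqf⟩ := Nat.exists_prime_and_dvd hf1.ne'
    have hv : q ∈ degreePrimes G := mem_primes hq hχf (by rw [hf]; exact hqf)
    refine card_le_one_of_reach hv fun s hs => ?_
    obtain ⟨hsp, χ', hχ', hd, h1⟩ := degree_of_mem hs
    rcases cases_degree ha hr hF hχ' with h2 | h2 | ⟨-, h2⟩
    · exact absurd h2 h1
    · exact prime_conn hsp hq (mem_cd hχf) (by rw [hf, ← h2]; exact hd) (by rw [hf]; exact hqf) hs hv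
    · exact absurd h2 (hcon χ' hχ')
  have hm1 := hm χ₁ hχ₁ hr₁
  have hrm : r ∣ m := hm1 ▸ hr₁
  rw [Nat.card_coe_set_eq, Set.ncard_eq_three]
  refine ⟨1, N.index, m, hf1.ne, ?_, ?_, ?_⟩
  · intro h
    rw [← h] at hrm
    exact hr.one_lt.ne' (Nat.dvd_one.1 hrm)
  · intro h
    exact hF.idx (h ▸ hrm)
  · ext d
    simp only [Set.mem_insert_iff, Set.mem_singleton_iff]
    constructor
    · rintro ⟨⟨χ, hχ⟩, rfl⟩
      dsimp only
      rcases cases_degree ha hr hF hχ with h2 | h2 | ⟨-, h2⟩
      · exact Or.inl h2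
      · exact Or.inr (Or.inl h2)
      · exact Or.inr (Or.inr (hm χ hχ h2))
    · rintro (rfl | rfl | rfl)
      · exact ⟨⟨1, isIrr_one⟩, charDegree_one G⟩
      · exact ⟨⟨χf, hχf⟩, hf⟩
      · exact ⟨⟨χ₁, hχ₁⟩, hm1⟩

end Cfsg.Agent.H675.Nd
end

-- part: S4781
section
set_option autoImplicit false
open Cfsg

namespace Cfsg.Agent.S4781

/-- Let G be a finite solvable group in which no irreducible complex character degree a with 1 < a divides a larger irreducible character degree, and suppose the character degree graph of G (primes dividing some degree, distinct primes adjacent when their product divides a degree) has exactly two connected components. Then G has exactly three distinct irreducible character degrees. -/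
theorem result {G : Type*} [Group G] [Finite G] [Group.IsSolvable G] (hnd : ∀ a ∈ Cfsg.charDegrees G, ∀ b ∈ Cfsg.charDegrees G, 1 < a → a < b → ¬ a ∣ b) (htwo : Nat.card ((Cfsg.degreeGraph G).induce (Cfsg.degreePrimes G)).ConnectedComponent = 2) : Nat.card ↥(Cfsg.charDegrees G) = 3 :=
  H675.Nd.card_eq_three (H675.Nd.anti_of hnd) htwo

end Cfsg.Agent.S4781
end
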