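import Cfsg.Statements.S4796
import Cfsg.Agent.H677.CodPrime
import Cfsg.Agent.S0039
set_option linter.all false

set_option autoImplicit false
open Cfsg

namespace Cfsg.Agent.S4796

/-- Let G be a finite group with a faithful irreducible complex character χ whose codegree #G / χ(1) is a prime p (for a faithful character the kernel is trivial, so the codegree is #G / χ(1)). Then either G is cyclic of order p, or G is a Frobenius group whose Frobenius kernel has order p: some proper non-trivial subgroup H satisfies H ∩ gHg⁻¹ = 1 for every element g outside H, and the set of elements lying in no conjugate of H, together with the identity, has exactly p elements. -/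
theorem result {G : Type*} [Group G] [Finite G] (χ : Cfsg.IrrCharacter G) (hfaith : ∀ g : G, (χ : G → ℂ) g = (χ : G → ℂ) 1 → g = 1) (p : ℕ) (hp : p.Prime) (hcod : Nat.card G = p * Cfsg.charDegree (χ : G → ℂ)) : (IsCyclic G ∧ Nat.card G = p) ∨ ∃ H : Subgroup G, Cfsg.IsFrobeniusComplement H ∧ Nat.card ↥(Cfsg.frobeniusKernel H) = p := by
  have _ := hfaith
  obtain ⟨P, hPn, hPc, hC⟩ := H677.CodPrime.exists_normal χ hp hcod
  have := Fact.mk hp
  have := hPn
  set d := charDegree (χ : G → ℂ) with hd
  have hPi : P.index = d := by
    have h := P.card_mul_index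
    rw [hPc, hcod] at h
    exact Nat.eq_of_mul_eq_mul_left hp.pos h
  have hd0 : 0 < d := by rw [← hPi]; exact Nat.pos_of_ne_zero Subgroup.index_ne_zero_of_finite
  by_cases hd1 : d = 1
  · left
    have hG : Nat.card G = p := by rw [hcod, hd1, mul_one]
    exact ⟨isCyclic_of_prime_card hG, hG⟩
  · right
    have hnt : Nontrivial G := by
      rw [← Finite.one_lt_card_iff_nontrivial, hcod]
      nlinarith [hp.two_le]
    have hdp : d < p := by
      have h := H677.CodPrime.charDegree_sq_lt χ
      rw [← hd, hcod, pow_two] at h
      exact lt_of_mul_lt_mul_right h (Nat.zero_le _)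
    have hcop : (Nat.card P).Coprime P.index := by
      rw [hPc, hPi, hp.coprime_iff_not_dvd]
      exact fun h => absurd (Nat.le_of_dvd hd0 h) (not_le.2 hdp)
    obtain ⟨H, hH⟩ := Subgroup.exists_right_complement'_of_coprime hcop
    have hPne : P ≠ ⊥ := by
      rintro rfl
      rw [Subgroup.card_bot] at hPc
      exact hp.one_lt.ne hPc
    have hHne : H ≠ ⊥ := by
      rintro rfl
      have h := hH.card_mul_card
      rw [Subgroup.card_bot, mul_one, hPc, hcod] at h
      exact hd1 (Nat.eq_of_mul_eq_mul_left hp.pos (by rw [mul_one]; exact h.symm))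
    have hF : Cfsg.IsFrobeniusComplement H := by
      rw [S0039.result P H hH hPne hHne]
      intro h hh hh1
      by_contra hne
      have hle : P ⊓ Subgroup.centralizer {h} = P := by
        have hcard : Nat.card ↥(P ⊓ Subgroup.centralizer {h}) = p := by
          rcases (Nat.dvd_prime hp).1 (hPc ▸ Subgroup.card_dvd_of_le
            (inf_le_left : P ⊓ Subgroup.centralizer {h} ≤ P)) with h1 | h1
          · exact absurd (Subgroup.card_eq_one.1 h1) hne
          · exact h1
        exact Subgroup.eq_of_le_of_card_ge inf_le_left (by rw [hcard, hPc])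
      have hmem : h ∈ P := by
        apply hC
        intro x hx
        have hx' : x ∈ P ⊓ Subgroup.centralizer {h} := by rw [hle]; exact hx
        exact Subgroup.mem_centralizer_iff.1 hx'.2 h rfl
      exact hh1 (Subgroup.mem_bot.1 (hH.disjoint.le_bot ⟨hmem, hh⟩))
    refine ⟨H, hF, ?_⟩
    have h1 := Solvable.FrobeniusKernel.card_kernel hF
    have h2 : H.index = p := by
      have h3 := H.card_mul_index
      have h4 := hH.card_mul_card
      rw [← h4, hPc, mul_comm (p : ℕ)] at h3
      exact Nat.eq_of_mul_eq_mul_left Nat.card_pos h3
    rw [← h2]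
    exact h1

end Cfsg.Agent.S4796
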