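import Cfsg.Statements.S4798
import Cfsg.Agent.H678.Constit
set_option linter.all false

set_option autoImplicit false
open Cfsg

namespace Cfsg.Agent.S4798

open Cfsg.Agent.H678.Codeg Cfsg.Agent.H678.Constit Cfsg.Agent.H686.CharKit Cfsg.Agent.Characters

/-- If an induced character is irreducible, it is induced from an irreducible character. -/
theorem irr_of_indFun {G : Type*} [Group G] [Fintype G] (H : Subgroup G) {θ : H → ℂ}
    (hθ : IsCharacter H θ) {χ : G → ℂ} (hχ : IsIrrCharacter G χ) (h : χ = indFun H θ) :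
    ∃ ψ : H → ℂ, IsIrrCharacter H ψ ∧ χ = indFun H ψ := by
  classical
  have : Fintype H := Fintype.ofFinite _
  have h0 : θ ≠ 0 := by
    rintro rfl
    apply Core.isIrr_ne_zero hχ
    rw [h, CharactersDeep.IndFun.indFun_zero]
  obtain ⟨ψ, hψ, hne⟩ := exists_constituent hθ h0
  obtain ⟨β, hβ, hsum⟩ := exists_add_of_classInner_ne_zero hθ hψ hne
  have h1 := Core.classInner_irr_self hχ
  have h2 : χ = indFun H ψ + indFun H β := by
    rw [h, hsum, CharactersDeep.IndFun.indFun_add]
  have hψG : IsCharacter G (indFun H ψ) :=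
    CharactersDeep.IndFun.isCharacter_indFun H (Core.isIrr_isCharacter hψ)
  have hβG : IsCharacter G (indFun H β) := CharactersDeep.IndFun.isCharacter_indFun H hβ
  obtain ⟨a, ha⟩ := Core.classInner_isNat hψG hψG
  obtain ⟨b, hb⟩ := Core.classInner_isNat hψG hβG
  obtain ⟨b', hb'⟩ := Core.classInner_isNat hβG hψG
  obtain ⟨c, hc⟩ := Core.classInner_isNat hβG hβG
  have h3 : ((a + b + (b' + c) : ℕ) : ℂ) = 1 := by
    push_cast
    rw [← ha, ← hb, ← hb', ← hc, ← h1, h2, Core.classInner_add_left, Core.classInner_add_right,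
      Core.classInner_add_right]
  have h4 : a + b + (b' + c) = 1 := by exact_mod_cast h3
  have ha0 : a ≠ 0 := by
    rintro rfl
    rw [Nat.cast_zero] at ha
    have h5 := Core.classInner_self_eq_zero ha
    have h6 := congrFun h5 1
    rw [indFun_one] at h6
    simp only [Pi.zero_apply, mul_eq_zero, Nat.cast_eq_zero] at h6
    rcases h6 with h6 | h6
    · exact H.index_ne_zero_of_finite h6
    · exact Core.isIrr_apply_one_ne_zero hψ h6
  have hc0 : c = 0 := by omega
  rw [hc0, Nat.cast_zero] at hc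
  refine ⟨ψ, hψ, ?_⟩
  rw [h2, Core.classInner_self_eq_zero hc, add_zero]

/-- Let p be a prime and χ a faithful irreducible complex character of the finite group G (χ(g) = χ(1) only for g = 1), so that its codegree is #G / χ(1). Then #G / χ(1) is a power of p if and only if χ is induced from a character of a Sylow p-subgroup of G. -/
theorem result {G : Type*} [Group G] [Fintype G] (p : ℕ) [Fact p.Prime] (χ : Cfsg.IrrCharacter G) (hfaith : ∀ g : G, (χ : G → ℂ) g = (χ : G → ℂ) 1 → g = 1) : (∃ k : ℕ, Nat.card G = p ^ k * Cfsg.charDegree (χ : G → ℂ)) ↔ ∃ (P : Sylow p G) (θ : ↥(P : Subgroup G) → ℂ), Cfsg.IsCharacter ↥(P : Subgroup G) θ ∧ (χ : G → ℂ) = Cfsg.indFun (P : Subgroup G) θ := by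
  classical
  have hp : p.Prime := Fact.out
  constructor
  · rintro ⟨k, hk⟩
    obtain ⟨P⟩ : Nonempty (Sylow p G) := inferInstance
    have hfP : Fintype (P : Subgroup G) := Fintype.ofFinite _
    have : Finite (IrrCharacter (P : Subgroup G)) := Core.finite_irr
    have : Fintype (IrrCharacter (P : Subgroup G)) := Fintype.ofFinite _
    obtain ⟨n, hn⟩ := (IsPGroup.iff_card).1 P.isPGroup'
    -- the degree
    set d := charDegree (χ : G → ℂ) with hd
    have hdpos : 0 < d := charDegree_pos χ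
    set a := d.factorization p with ha
    obtain ⟨m, hm⟩ : p ^ a ∣ d := Nat.ordProj_dvd d p
    have hcard := (P : Subgroup G).card_mul_index
    have hpi : ¬ p ∣ (P : Subgroup G).index := P.not_dvd_index
    have hpm : ¬ p ∣ m := by
      intro hdv
      obtain ⟨t, rfl⟩ := hdv
      have h1 : p ^ (a + 1) ∣ d := ⟨t, by rw [hm]; ring⟩
      have h2 := (hp.pow_dvd_iff_le_factorization hdpos.ne').1 h1
      omega
    have hidx : (P : Subgroup G).index = m := by
      have h1 : p ^ n * (P : Subgroup G).index = p ^ (k + a) * m := by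
        rw [← hn, hcard, hk, hm]; ring
      apply Nat.dvd_antisymm
      · refine (Nat.Coprime.pow_right (k + a) ((hp.coprime_iff_not_dvd).2 hpi).symm).dvd_of_dvd_mul_left ?_
        exact ⟨p ^ n, by rw [← h1]; ring⟩
      · refine (Nat.Coprime.pow_right n ((hp.coprime_iff_not_dvd).2 hpm).symm).dvd_of_dvd_mul_left ?_
        exact ⟨p ^ (k + a), by rw [h1]; ring⟩
    -- restriction to `P`
    have hres : IsCharacter (P : Subgroup G) ((χ : G → ℂ) ∘ (P : Subgroup G).subtype) :=
      Core.isCharacter_comp _ (Core.isIrr_isCharacter χ.2)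
    obtain ⟨mu, hmu, hdeg⟩ := exists_decomp hres
    have hdeg' : d = ∑ ψ : IrrCharacter (P : Subgroup G), mu ψ * charDegree (ψ : ↥(P : Subgroup G) → ℂ) := hdeg
    obtain ⟨ψ, hψ0, hψa⟩ : ∃ ψ : IrrCharacter (P : Subgroup G), mu ψ ≠ 0 ∧
        charDegree (ψ : ↥(P : Subgroup G) → ℂ) ≤ p ^ a := by
      by_contra hno
      push Not at hno
      have h1 : p ^ (a + 1) ∣ d := by
        rw [hdeg']
        refine Finset.dvd_sum fun ψ _ => ?_
        by_cases h0 : mu ψ = 0
        · rw [h0, zero_mul]; exact dvd_zero _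
        · have h2 := hno ψ h0
          have h3 : charDegree (ψ : ↥(P : Subgroup G) → ℂ) ∣ p ^ n := by
            rw [← hn]; exact charDegree_dvd_card ψ
          obtain ⟨j, -, hj⟩ := (Nat.dvd_prime_pow hp).1 h3
          rw [hj] at h2 ⊢
          have h4 : a < j := (Nat.pow_lt_pow_iff_right hp.one_lt).1 h2
          exact Dvd.dvd.mul_left (pow_dvd_pow p h4) _
      have h2 := (hp.pow_dvd_iff_le_factorization hdpos.ne').1 h1
      omega
    have hin : classInner (indFun (P : Subgroup G) ψ) (χ : G → ℂ) ≠ 0 := by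
      rw [CharactersDeep.IndFun.classInner_indFun _ _ _ (Core.isIrr_isClassFunction χ.2)]
      intro h0
      have h1 := Core.classInner_sum_nsmul_irr mu ψ
      rw [← hmu] at h1
      have h2 := Core.classInner_conj_symm (ψ : ↥(P : Subgroup G) → ℂ) ((χ : G → ℂ) ∘ (P : Subgroup G).subtype)
      have h3 : classInner (ψ : ↥(P : Subgroup G) → ℂ) ((χ : G → ℂ) ∘ (P : Subgroup G).subtype) = 0 := h0
      rw [h3, map_zero, h1] at h2
      exact hψ0 (by exact_mod_cast h2.symm)
    have hindc : IsCharacter G (indFun (P : Subgroup G) ψ) :=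
      CharactersDeep.IndFun.isCharacter_indFun _ (Core.isIrr_isCharacter ψ.2)
    obtain ⟨β, hβ, hsum⟩ := exists_add_of_classInner_ne_zero hindc χ.2 hin
    have hβ1 : β 1 = 0 := by
      have h1 := congrFun hsum 1
      rw [indFun_one, Pi.add_apply, ← charDegree_irr ψ, ← charDegree_irr χ, ← charDegree_cast hβ,
        hidx, ← hd] at h1
      have h2 : m * charDegree (ψ : ↥(P : Subgroup G) → ℂ) = d + charDegree β := by exact_mod_cast h1
      have h3 : m * charDegree (ψ : ↥(P : Subgroup G) → ℂ) ≤ d := by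
        rw [hm, mul_comm]
        exact Nat.mul_le_mul_right _ hψa
      have h4 : charDegree β = 0 := by omega
      rw [← charDegree_cast hβ, h4, Nat.cast_zero]
    refine ⟨P, ψ, Core.isIrr_isCharacter ψ.2, ?_⟩
    rw [hsum, eq_zero_of_apply_one hβ hβ1, add_zero]
  · rintro ⟨P, θ, hθ, h⟩
    obtain ⟨ψ, hψ, hχψ⟩ := irr_of_indFun (P : Subgroup G) hθ χ.2 h
    obtain ⟨n, hn⟩ := (IsPGroup.iff_card).1 P.isPGroup'
    have h1 : charDegree (⟨ψ, hψ⟩ : IrrCharacter (P : Subgroup G)).1 ∣ p ^ n := by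
      rw [← hn]; exact charDegree_dvd_card _
    obtain ⟨j, hj⟩ := h1
    have h2 : j ∣ p ^ n := ⟨_, by rw [hj, mul_comm]⟩
    obtain ⟨i, -, rfl⟩ := (Nat.dvd_prime_pow hp).1 h2
    refine ⟨i, ?_⟩
    have h3 := congrFun hχψ 1
    have h5 : (charDegree (⟨ψ, hψ⟩ : IrrCharacter (P : Subgroup G)).1 : ℂ) = ψ 1 :=
      charDegree_irr (⟨ψ, hψ⟩ : IrrCharacter (P : Subgroup G))
    rw [indFun_one, ← charDegree_irr χ, ← h5] at h3
    have h4 : charDegree (χ : G → ℂ) = (P : Subgroup G).index *
        charDegree (⟨ψ, hψ⟩ : IrrCharacter (P : Subgroup G)).1 := by exact_mod_cast h3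
    rw [h4, ← (P : Subgroup G).card_mul_index, hn, hj]
    ring

end Cfsg.Agent.S4798
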