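import Cfsg.Statements.S4801
import Cfsg.Agent.H678.Codeg
set_option linter.all false

set_option autoImplicit false
open Cfsg

namespace Cfsg.Agent.S4801

open Cfsg.Agent.H678.Codeg Cfsg.Agent.H686.CharKit

/-- The codegree of an irreducible complex character χ of a finite group G is [G : ker χ] / χ(1), where ker χ is the set of elements at which χ takes the value χ(1). Let S be a finite simple group and G a finite group such that every codegree of an irreducible character of S is a codegree of an irreducible character of G. Then the order of S divides the order of G. -/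
theorem result {S : Type*} [Group S] [Finite S] (hS : IsSimpleGroup S) {G : Type*} [Group G] [Finite G] (hsub : ∀ χ : Cfsg.IrrCharacter S, ∃ ψ : Cfsg.IrrCharacter G, (Nat.card S / (Nat.card {g : S // (χ : S → ℂ) g = (χ : S → ℂ) 1} * Cfsg.charDegree (χ : S → ℂ))) = (Nat.card G / (Nat.card {g : G // (ψ : G → ℂ) g = (ψ : G → ℂ) 1} * Cfsg.charDegree (ψ : G → ℂ)))) : Nat.card S ∣ Nat.card G := by
  rw [← Nat.factorization_prime_le_iff_dvd Nat.card_pos.ne' Nat.card_pos.ne']
  intro p hp
  rcases Nat.eq_zero_or_pos ((Nat.card S).factorization p) with h0 | h0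
  · rw [h0]; exact Nat.zero_le _
  have hpd : p ∣ Nat.card S := by
    by_contra h
    rw [Nat.factorization_eq_zero_of_not_dvd h] at h0
    exact absurd h0 (lt_irrefl _)
  obtain ⟨χ, hχ1, hχp⟩ := exists_not_dvd hp hpd
  obtain ⟨ψ, hψ⟩ := hsub χ
  rw [← hp.pow_dvd_iff_le_factorization Nat.card_pos.ne']
  refine dvd_trans ?_ (codeg_dvd_card ψ)
  rw [← hψ]
  have hker : chKer χ = ⊥ := by
    rcases (chKer_normal χ).eq_bot_or_eq_top with h | h
    · exact h
    · exact absurd ((chKer_eq_top_iff χ).1 h) hχ1
  have h1 := codeg_mul_degree χ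
  rw [hker, Subgroup.index_bot] at h1
  have h2 : p ^ (Nat.card S).factorization p ∣ Nat.card S := Nat.ordProj_dvd _ _
  rw [← h1] at h2
  have h3 : Nat.Coprime (p ^ (Nat.card S / (Nat.card {g : S // (χ : S → ℂ) g = (χ : S → ℂ) 1} *
      Cfsg.charDegree (χ : S → ℂ)) * Cfsg.charDegree (χ : S → ℂ)).factorization p)
      (Cfsg.charDegree (χ : S → ℂ)) := Nat.Coprime.pow_left _ ((hp.coprime_iff_not_dvd).2 hχp)
  have h4 := h3.dvd_of_dvd_mul_right h2
  rw [h1] at h4
  exact h4

end Cfsg.Agent.S4801
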