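import Cfsg.Statements.S4840
import Cfsg.Agent.H688.GagBridge
import Cfsg.Agent.H688.TransSolv
set_option linter.all false

set_option autoImplicit false
open Cfsg

namespace Cfsg.Agent.S4840

/-- Let G be a finite solvable group of order greater than 2 with an irreducible character nonzero on exactly two conjugacy classes. Then there is exactly one prime p with O_p(G) ≠ 1, and the quotient G/O_p(G) has a normal p-complement and commutative Sylow p-subgroups. -/
theorem result {G : Type*} [Group G] [Finite G] [hs : Group.IsSolvable G] (hG : 2 < Nat.card G) (χ : Cfsg.IrrCharacter G) (hχ : Nat.card {C : ConjClasses G // ∃ g ∈ C.carrier, (χ : G → ℂ) g ≠ 0} = 2) :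
    ∃ p : ℕ, p.Prime ∧ (∀ q : ℕ, q.Prime → (Cfsg.pCore q G ≠ ⊥ ↔ q = p)) ∧
      Cfsg.HasNormalPComplement p (G ⧸ Cfsg.pCore p G) ∧ ∀ Q : Sylow p (G ⧸ Cfsg.pCore p G), IsMulCommutative (Q : Subgroup (G ⧸ Cfsg.pCore p G)) := by
  classical
  obtain ⟨p, hp, hcore, V, _, _, _, _, H, hH, ⟨e⟩⟩ :=
    Cfsg.Agent.H688.GagBridge.exists_lin hG χ hχ
  have hsH : Group.IsSolvable H := by
    have h1 : Group.IsSolvable (G ⧸ Cfsg.pCore p G) := inferInstance
    exact Group.isSolvable_of_surjective (f := e.toMonoidHom) e.surjective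
  obtain ⟨h1, h2⟩ := Cfsg.Agent.H688.TransSolv.solvable_case hH hsH
  have hfH : Finite H := Finite.of_surjective e e.surjective
  refine ⟨p, hp.out, hcore, (Cfsg.Agent.Transfer.PNilpotentBasic.hnc_congr e).1 h1, fun Q => ?_⟩
  have hQ : IsPGroup p ((Q : Subgroup (G ⧸ Cfsg.pCore p G)).map e.toMonoidHom) := Q.2.map _
  obtain ⟨S, hS⟩ := hQ.exists_le_sylow
  have h3 := h2 S
  refine ⟨⟨fun a b => ?_⟩⟩
  apply Subtype.ext
  apply e.injective
  show e ((a : G ⧸ Cfsg.pCore p G) * b) = e ((b : G ⧸ Cfsg.pCore p G) * a)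
  rw [map_mul, map_mul]
  exact congrArg Subtype.val (h3.is_comm.comm ⟨e a, hS ⟨a, a.2, rfl⟩⟩ ⟨e b, hS ⟨b, b.2, rfl⟩⟩)

end Cfsg.Agent.S4840
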