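import Mathlib
import Cfsg.Prelude.Def_Solvable
import Cfsg.Agent.H727.VanOne
import Cfsg.Statements.S4850
set_option linter.all false

-- part: H708/VanOrder
section
/-!
# Solvable groups whose vanishing elements of order divisible by `p` have the same order

* `Good p K` : a property of finite groups inherited by quotients, satisfied if all the vanishing
  elements of order divisible by `p` have the same order.
* `not_sq_dvd_card` : `K` finite solvable, `Good p K` and `O_p(K) = 1` : `p ^ 2` does not divide `|K|`.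
-/

set_option autoImplicit false

namespace Cfsg.Agent.H708.VanOrder

open Cfsg Cfsg.Agent.H727.VanEl

universe u

/-- `x` is a vanishing element of order divisible by `p`. -/
def PV (p : ℕ) {G : Type*} [Group G] (x : G) : Prop := Van x ∧ p ∣ orderOf x

theorem PV.lift {p : ℕ} {G H : Type*} [Group G] [Group H] (f : G →* H)
    (hf : Function.Surjective f) {x : G} (h : PV p (f x)) : PV p x := by
  obtain ⟨⟨χ, hχ⟩, hp⟩ := h
  exact ⟨⟨⟨_, Cfsg.Agent.Characters.Core.isIrr_comp f hf χ.2⟩, hχ⟩, hp.trans (orderOf_map_dvd f x)⟩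

/-- Lifting `p`-subgroups along a surjective homomorphism. -/
theorem exists_pgroup_lift {p : ℕ} [hp : Fact p.Prime] {G H : Type*} [Group G] [Group H] [Finite G]
    (f : G →* H) (hf : Function.Surjective f) (E : Subgroup H) (hE : IsPGroup p E) :
    ∃ S : Subgroup G, IsPGroup p S ∧ S.map f = E := by
  have : Finite H := Finite.of_surjective f hf
  let L : Subgroup G := E.comap f
  let g : L →* E := f.subgroupComap E
  have hg : Function.Surjective g := f.subgroupComap_surjective_of_surjective E hf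
  obtain ⟨P⟩ : Nonempty (Sylow p L) := inferInstance
  have h1 : (P.mapSurjective hg : Subgroup E) = ⊤ := by
    have h2 := (P.mapSurjective hg).is_maximal' (Q := ⊤)
      (hE.of_injective (Subgroup.topEquiv (G := E)).toMonoidHom (Subgroup.topEquiv (G := E)).injective) le_top
    exact h2.symm
  refine ⟨(P : Subgroup L).map L.subtype, P.isPGroup'.map _, ?_⟩
  apply le_antisymm
  · rintro _ ⟨_, ⟨a, _, rfl⟩, rfl⟩
    exact a.2
  · intro e he
    have h3 : (⟨e, he⟩ : E) ∈ (P.mapSurjective hg : Subgroup E) := by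
      rw [h1]; exact Subgroup.mem_top _
    obtain ⟨a, ha, hae⟩ := h3
    exact ⟨a, ⟨a, ha, rfl⟩, congrArg Subtype.val hae⟩

/-- Lifting `p`-elements along a surjective homomorphism. -/
theorem exists_pelt_lift {p : ℕ} [hp : Fact p.Prime] {G H : Type*} [Group G] [Group H] [Finite G]
    (f : G →* H) (hf : Function.Surjective f) (e : H) (k : ℕ) (he : e ^ p ^ k = 1) :
    ∃ x : G, f x = e ∧ ∃ j : ℕ, x ^ p ^ j = 1 := by
  have hE : IsPGroup p (Subgroup.zpowers e) := by
    rintro ⟨y, hy⟩
    obtain ⟨m, rfl⟩ := Subgroup.mem_zpowers_iff.1 hy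
    refine ⟨k, Subtype.ext ?_⟩
    change (e ^ m) ^ p ^ k = 1
    rw [← zpow_natCast, ← zpow_mul, mul_comm, zpow_mul, zpow_natCast, he, one_zpow]
  obtain ⟨S, hS, hSE⟩ := exists_pgroup_lift f hf _ hE
  have h1 : e ∈ S.map f := by rw [hSE]; exact Subgroup.mem_zpowers e
  obtain ⟨x, hx, hxe⟩ := h1
  obtain ⟨j, hj⟩ := hS ⟨x, hx⟩
  exact ⟨x, hxe, j, congrArg Subtype.val hj⟩

/-- The hypothesis on vanishing elements. -/
structure Good (p : ℕ) (K : Type*) [Group K] : Prop where
  pelt : ∀ x y : K, PV p x → (∃ k : ℕ, x ^ p ^ k = 1) → PV p y → ∃ k : ℕ, y ^ p ^ k = 1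
  pow : ∀ x : K, PV p x → ¬ PV p (x ^ p)

theorem Good.of_surjective {p : ℕ} [hp : Fact p.Prime] {K H : Type*} [Group K] [Group H] [Finite K]
    (hK : Good p K) (f : K →* H) (hf : Function.Surjective f) : Good p H := by
  refine ⟨?_, ?_⟩
  · rintro x y hx ⟨k, hk⟩ hy
    obtain ⟨x', rfl, hx'⟩ := exists_pelt_lift f hf x k hk
    obtain ⟨y', rfl⟩ := hf y
    obtain ⟨j, hj⟩ := hK.pelt x' y' (hx.lift f hf) hx' (hy.lift f hf)
    exact ⟨j, by rw [← map_pow, hj, map_one]⟩
  · intro x hx h
    obtain ⟨x', rfl⟩ := hf x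
    rw [← map_pow] at h
    exact hK.pow x' (hx.lift f hf) (h.lift f hf)

/-- `O_p(G) = 1` and `p ∣ |G|`: there is a nontrivial normal `p'`-subgroup `N = ker f` with
`O_p(G / N) ≠ 1` such that the elements over nontrivial elements of normal abelian `p`-subgroups of
`G / N` are vanishing. -/
theorem exists_cover {p : ℕ} [hp : Fact p.Prime] (n : ℕ) :
    ∀ (G : Type u) [Group G] [Finite G], Nat.card G = n → Group.IsSolvable G → pCore p G = ⊥ →
      p ∣ Nat.card G → ∃ (H : Type u) (_ : Group H) (_ : Finite H) (f : G →* H),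
        Function.Surjective f ∧ f.ker ≠ ⊥ ∧ (∀ x : G, f x = 1 → x ^ p = 1 → x = 1) ∧
        pCore p H ≠ ⊥ ∧
        ∀ Z : Subgroup H, Z.Normal → (∀ x ∈ Z, ∀ y ∈ Z, x * y = y * x) → IsPGroup p Z →
          ∀ x : G, f x ∈ Z → f x ≠ 1 → PV p x := by
  induction n using Nat.strong_induction_on with
  | _ n ih =>
    intro G _ _ hn hsolv hO hpG
    rcases subsingleton_or_nontrivial G with hG | hG
    · exfalso
      rw [Nat.card_of_subsingleton (1 : G)] at hpG
      exact hp.out.one_lt.ne' (Nat.dvd_one.1 hpG)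
    obtain ⟨N, hNc, hNab, hNbot⟩ :=
      Cfsg.Agent.Lib.SolvableMinNormal.exists_characteristic_abelian (G := G)
    have hNn : N.Normal := inferInstance
    have hNab' : ∀ x ∈ N, ∀ y ∈ N, x * y = y * x := fun x hx y hy =>
      congrArg Subtype.val (hNab.is_comm.comm (⟨x, hx⟩ : N) ⟨y, hy⟩)
    have hNp : ¬ p ∣ Nat.card N := by
      refine not_dvd_card_of_nilpotent hO N hNn ?_
      let _i : CommGroup N := { (inferInstance : Group N) with
        mul_comm := fun a b => Subtype.ext (hNab' a a.2 b b.2) }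
      infer_instance
    have hNel : ∀ x : G, x ∈ N → x ^ p = 1 → x = 1 := by
      intro x hx hxp
      have h3 : (⟨x, hx⟩ : N) = 1 := by
        refine Cfsg.Agent.Lib.CoprimeAbelian.eq_one_of_pow_coprime (n := p)
          ((Nat.Prime.coprime_iff_not_dvd hp.out).2 hNp) _ ?_
        exact Subtype.ext hxp
      exact congrArg Subtype.val h3
    by_cases hQ : pCore p (G ⧸ N) = ⊥
    · have hlt : Nat.card (G ⧸ N) < n := by
        rw [← hn, ← Subgroup.index_eq_card, ← N.index_mul_card]
        exact lt_mul_of_one_lt_right (Nat.pos_of_ne_zero N.index_ne_zero_of_finite)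
          ((Subgroup.one_lt_card_iff_ne_bot N).2 hNbot)
      have hpN : p ∣ Nat.card (G ⧸ N) := by
        rw [← N.index_mul_card, Subgroup.index_eq_card] at hpG
        exact (hp.out.dvd_mul.1 hpG).resolve_right hNp
      obtain ⟨H, _, _, f, hf, hker, hel, hcore, hvan⟩ := ih _ hlt (G ⧸ N) rfl inferInstance hQ hpN
      refine ⟨H, inferInstance, inferInstance, f.comp (QuotientGroup.mk' N),
        hf.comp (QuotientGroup.mk'_surjective N), ?_, ?_, hcore, ?_⟩
      · intro h
        apply hNbot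
        rw [eq_bot_iff, ← h]
        intro x hx
        rw [MonoidHom.mem_ker, MonoidHom.comp_apply, QuotientGroup.mk'_apply,
          (QuotientGroup.eq_one_iff x).2 hx, map_one]
      · intro x hx hxp
        have h1 : (QuotientGroup.mk x : G ⧸ N) = 1 := by
          apply hel _ hx
          rw [← map_pow, hxp, map_one]
        exact hNel x ((QuotientGroup.eq_one_iff x).1 h1) hxp
      · intro Z hZ hZab hZp x hx hx1
        exact PV.lift (QuotientGroup.mk' N) (QuotientGroup.mk'_surjective N)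
          (hvan Z hZ hZab hZp _ hx hx1)
    · refine ⟨G ⧸ N, inferInstance, inferInstance, QuotientGroup.mk' N,
        QuotientGroup.mk'_surjective N, ?_, ?_, hQ, ?_⟩
      · rw [QuotientGroup.ker_mk']
        exact hNbot
      · intro x hx hxp
        exact hNel x ((QuotientGroup.eq_one_iff x).1 hx) hxp
      · intro Z hZ hZab hZp x hx hx1
        exact van_comap hO N hNab' Z hZab hZp x hx hx1

/-- An abelian `p`-subgroup of `H` is cyclic if all the elements over its nontrivial elements are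
`p`-elements (the kernel being a nontrivial `p'`-group). -/
theorem isCyclic_of_pelt {p : ℕ} [hp : Fact p.Prime] {K H : Type*} [Group K] [Group H] [Finite K]
    (f : K →* H) (hf : Function.Surjective f) (hker : f.ker ≠ ⊥)
    (hel : ∀ x : K, f x = 1 → x ^ p = 1 → x = 1) (E : Subgroup H)
    (hEab : ∀ x ∈ E, ∀ y ∈ E, x * y = y * x) (hEp : IsPGroup p E)
    (hE : ∀ x : K, f x ∈ E → f x ≠ 1 → ∃ k : ℕ, x ^ p ^ k = 1) : IsCyclic E := by
  classical
  by_contra hnc
  obtain ⟨S, hSp, hSE⟩ := exists_pgroup_lift f hf E hEp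
  have hel' : ∀ k : ℕ, ∀ x : K, f x = 1 → x ^ p ^ k = 1 → x = 1 := by
    intro k
    induction k with
    | zero => intro x _ hx; simpa using hx
    | succ k ih =>
      intro x hx hxk
      apply ih x hx
      apply hel
      · rw [map_pow, hx, one_pow]
      · rw [← pow_mul, ← pow_succ, hxk]
  have hSN : ∀ s ∈ S, f s = 1 → s = 1 := by
    intro s hs hs1
    obtain ⟨j, hj⟩ := hSp ⟨s, hs⟩
    exact hel' j s hs1 (congrArg Subtype.val hj)
  have hfS : ∀ s ∈ S, f s ∈ E := by
    intro s hs
    rw [← hSE]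
    exact ⟨s, hs, rfl⟩
  have hScomm : ∀ a ∈ S, ∀ b ∈ S, a * b = b * a := by
    intro a ha b hb
    have h1 : f (a * b * a⁻¹ * b⁻¹) = 1 := by
      simp only [map_mul, map_inv]
      rw [hEab _ (hfS a ha) _ (hfS b hb)]
      group
    have h3 := hSN _ (S.mul_mem (S.mul_mem (S.mul_mem ha hb) (S.inv_mem ha)) (S.inv_mem hb)) h1
    rw [mul_inv_eq_one, mul_inv_eq_iff_eq_mul] at h3
    exact h3
  have hScyc : ¬ IsCyclic S := by
    intro hc
    apply hnc
    let g : S →* E := (f.comp S.subtype).codRestrict E (fun s => hfS s s.2)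
    refine isCyclic_of_surjective g ?_
    rintro ⟨e, he⟩
    rw [← hSE] at he
    obtain ⟨s, hs, hse⟩ := he
    exact ⟨⟨s, hs⟩, Subtype.ext hse⟩
  have hSc : IsMulCommutative S := ⟨⟨fun a b => Subtype.ext (hScomm a a.2 b b.2)⟩⟩
  have hnorm : S ≤ Subgroup.normalizer (f.ker : Set K) := by
    rw [Subgroup.normalizer_eq_top_iff.2 (inferInstance : f.ker.Normal)]
    exact le_top
  have hkp : ¬ p ∣ Nat.card f.ker := by
    intro h
    obtain ⟨y, hy⟩ := exists_prime_orderOf_dvd_card' p h
    have h1 : (y : K) = 1 := by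
      apply hel y y.2
      rw [← hy, ← Subgroup.orderOf_coe]
      exact pow_orderOf_eq_one _
    have h2 : y = 1 := Subtype.ext h1
    rw [h2, orderOf_one] at hy
    exact hp.out.one_lt.ne hy
  have hcop : (Nat.card S).Coprime (Nat.card f.ker) := by
    obtain ⟨k, hk⟩ := IsPGroup.iff_card.1 hSp
    rw [hk]
    exact Nat.Coprime.pow_left _ ((Nat.Prime.coprime_iff_not_dvd hp.out).2 hkp)
  have h1 := Cfsg.Agent.S0058.result S f.ker hScyc hnorm hcop
  apply hker
  rw [← h1, eq_bot_iff]
  refine iSup₂_le fun a ha => ?_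
  rintro n ⟨hnN, hnc⟩
  rw [Subgroup.mem_bot]
  have hcomm : a * n = n * a := (Subgroup.mem_centralizer_iff.1 hnc a (Set.mem_singleton a))
  have hn1 : f n = 1 := hnN
  have hfa : f a ≠ 1 := fun h => ha.2 (hSN a ha.1 h)
  obtain ⟨k, hk⟩ := hE (a * n) (by rw [map_mul, hn1, mul_one]; exact hfS a ha.1)
    (by rw [map_mul, hn1, mul_one]; exact hfa)
  obtain ⟨j, hj⟩ := hE a (hfS a ha.1) hfa
  refine hel' (k + j) n hn1 ?_
  have h2 : (a * n) ^ p ^ (k + j) = a ^ p ^ (k + j) * n ^ p ^ (k + j) :=
    (show Commute a n from hcomm).mul_pow _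
  have h3 : (a * n) ^ p ^ (k + j) = 1 := by rw [pow_add, pow_mul, hk, one_pow]
  have h4 : a ^ p ^ (k + j) = 1 := by rw [add_comm, pow_add, pow_mul, hj, one_pow]
  rw [h3, h4, one_mul] at h2
  exact h2.symm

/-- `p`-elements centralize the normal subgroups of order `p`. -/
theorem comm_of_pelt {p : ℕ} [hp : Fact p.Prime] {H : Type*} [Group H] [Finite H] (Q : Subgroup H)
    [hQ : Q.Normal] (hQc : Nat.card Q = p) (x : H) (j : ℕ) (hx : x ^ p ^ j = 1) (z : H)
    (hz : z ∈ Q) : x * z = z * x := by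
  classical
  have := Fintype.ofFinite Q
  let A : Subgroup H := Subgroup.zpowers x
  have hA : IsPGroup p A := by
    rintro ⟨y, hy⟩
    obtain ⟨m, rfl⟩ := Subgroup.mem_zpowers_iff.1 hy
    refine ⟨j, Subtype.ext ?_⟩
    change (x ^ m) ^ p ^ j = 1
    rw [← zpow_natCast, ← zpow_mul, mul_comm, zpow_mul, zpow_natCast, hx, one_zpow]
  let _act : MulAction A Q := MulAction.compHom Q ((MulAut.conjNormal (H := Q)).comp A.subtype)
  have hact : ∀ (a : A) (q : Q), ((a • q : Q) : H) = a * q * (a : H)⁻¹ := fun a q => rfl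
  have h1 : (1 : Q) ∈ MulAction.fixedPoints A Q := by
    intro a
    apply Subtype.ext
    rw [hact]
    simp
  have hcard : p ∣ Nat.card Q := by rw [hQc]
  obtain ⟨b, hb, hb1⟩ := hA.exists_fixed_point_of_prime_dvd_card_of_fixed_point Q hcard h1
  have h2 : x * b * x⁻¹ = b := congrArg Subtype.val (hb ⟨x, Subgroup.mem_zpowers x⟩)
  have h3 : Commute x (b : H) := by
    rw [mul_inv_eq_iff_eq_mul] at h2
    exact h2
  have h4 : (⟨z, hz⟩ : Q) ∈ Subgroup.zpowers b := by
    have h5 : Subgroup.zpowers b = ⊤ := by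
      have := Subgroup.eq_bot_or_eq_top_of_prime_card (G := Q) (hp := ⟨hQc ▸ hp.out⟩) (Subgroup.zpowers b)
      rcases this with h | h
      · exact absurd (Subgroup.zpowers_eq_bot.1 h).symm hb1
      · exact h
    rw [h5]
    exact Subgroup.mem_top _
  obtain ⟨m, hm⟩ := Subgroup.mem_zpowers_iff.1 h4
  have h6 : (b : H) ^ m = z := by
    have := congrArg Subtype.val hm
    simpa using this
  rw [← h6]
  exact h3.zpow_right m

/-- **Main theorem**: `K` finite solvable, `Good p K`, `O_p(K) = 1`: `p ^ 2` does not divide `|K|`. -/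
theorem not_sq_dvd_card {p : ℕ} [hp : Fact p.Prime] {K : Type u} [Group K] [Finite K]
    (hsolv : Group.IsSolvable K) (hgood : Good p K) (hO : pCore p K = ⊥) :
    ¬ p ^ 2 ∣ Nat.card K := by
  classical
  intro hp2
  have hpK : p ∣ Nat.card K := (dvd_pow_self p two_ne_zero).trans hp2
  obtain ⟨H, _, _, f, hf, hker, hel, hcore, hvan⟩ := exists_cover _ K rfl hsolv hO hpK
  have hHsolv : Group.IsSolvable H := Group.isSolvable_of_surjective hf
  set Q := pCore p H with hQdef
  have hQn : Q.Normal := Cfsg.Agent.Lib.Cores.pCore_normal p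
  have hQp : IsPGroup p Q := Cfsg.Agent.Lib.Cores.pCore_isPGroup (G := H) p
  have hnt : Nontrivial Q := (Subgroup.nontrivial_iff_ne_bot _).2 hcore
  -- `PV` is stable under powers with exponents not divisible by ... we only use elements over `Z`
  -- all the `PV` elements are `p`-elements
  let Z : Subgroup H := (Subgroup.center Q).map Q.subtype
  have hZn : Z.Normal := inferInstance
  have hZQ : Z ≤ Q := by
    rintro _ ⟨a, _, rfl⟩
    exact a.2
  have hZab : ∀ x ∈ Z, ∀ y ∈ Z, x * y = y * x := by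
    rintro _ ⟨a, ha, rfl⟩ _ ⟨b, hb, rfl⟩
    exact congrArg Subtype.val (Subgroup.mem_center_iff.1 hb a)
  have hZp : IsPGroup p Z := hQp.to_le hZQ
  have hZ1 : Z ≠ ⊥ := by
    have hct : Nontrivial (Subgroup.center Q) := hQp.center_nontrivial
    intro h
    have h2 := (Subgroup.map_eq_bot_iff_of_injective _ Q.subtype_injective).1 h
    exact (Subgroup.nontrivial_iff_ne_bot _).1 hct h2
  have hpe : ∀ y : K, PV p y → ∃ k : ℕ, y ^ p ^ k = 1 := by
    intro y hy
    obtain ⟨z, hz⟩ := Subgroup.ne_bot_iff_exists_ne_one.1 hZ1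
    obtain ⟨k, hk⟩ := hZp z
    obtain ⟨x, hxz, hx⟩ := exists_pelt_lift f hf (z : H) k (congrArg Subtype.val hk)
    refine hgood.pelt x y (hvan Z hZn hZab hZp x ?_ ?_) hx hy
    · rw [hxz]; exact z.2
    · rw [hxz]; exact fun h => hz (Subtype.ext h)
  -- normal abelian subgroups of `Q`
  have hcard : ∀ Y : Subgroup H, Y.Normal → (∀ x ∈ Y, ∀ y ∈ Y, x * y = y * x) → Y ≤ Q →
      Nat.card Y ∣ p := by
    intro Y hY hYab hYQ
    have hYp : IsPGroup p Y := hQp.to_le hYQ
    have h1 : IsCyclic Y := isCyclic_of_pelt f hf hker hel Y hYab hYp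
      fun x hx hx1 => hpe x (hvan Y hY hYab hYp x hx hx1)
    have h2 : ∀ y : Y, y ^ p = 1 := by
      intro y
      by_contra hne
      obtain ⟨x, hx⟩ := hf (y : H)
      have hy1 : (y : H) ≠ 1 := by
        intro h
        apply hne
        rw [show y = 1 from Subtype.ext h, one_pow]
      have h3 : PV p x := hvan Y hY hYab hYp x (by rw [hx]; exact y.2) (by rw [hx]; exact hy1)
      refine hgood.pow x h3 (hvan Y hY hYab hYp (x ^ p) ?_ ?_)
      · rw [map_pow, hx]; exact Y.pow_mem y.2 p
      · rw [map_pow, hx]; exact fun h => hne (Subtype.ext h)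
    obtain ⟨g, hg⟩ := h1.exists_generator
    rw [← orderOf_eq_card_of_forall_mem_zpowers hg]
    exact orderOf_dvd_of_pow_eq_one (h2 g)
  have hZcard : Nat.card Z = p := by
    rcases (Nat.dvd_prime hp.out).1 (hcard Z hZn hZab hZQ) with h | h
    · exact absurd (Subgroup.eq_bot_of_card_eq Z h) hZ1
    · exact h
  -- a `p`-element `x ∉ Z` commuting with `Z`, `x ^ p ∈ Z`, with all the elements over
  -- `x ^ i z`, `i` not divisible by `p`, in `PV`
  have hkey : ∀ x : H, x ∉ Z → x ^ p ∈ Z → (∀ z ∈ Z, x * z = z * x) →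
      (∀ i : ℕ, ¬ p ∣ i → ∀ z ∈ Z, ∀ y : K, f y = x ^ i * z → PV p y) → False := by
    intro x hxZ hxp hxc hPV
    have hxp1 : x ^ p = 1 := by
      by_contra hne
      obtain ⟨y, hy⟩ := hf x
      have h1 : PV p y := hPV 1 (by rw [Nat.dvd_one]; exact hp.out.one_lt.ne') 1 Z.one_mem y
        (by rw [hy, pow_one, mul_one])
      refine hgood.pow y h1 (hvan Z hZn hZab hZp (y ^ p) ?_ ?_)
      · rw [map_pow, hy]; exact hxp
      · rw [map_pow, hy]; exact hne
    -- the elementary abelian group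
    let E : Subgroup H := Subgroup.zpowers x ⊔ Z
    have hEmem : ∀ e ∈ E, ∃ i : ℕ, ∃ z ∈ Z, e = x ^ i * z := by
      intro e he
      obtain ⟨a, ha, z, hz, rfl⟩ := Subgroup.mem_sup_of_normal_right.1 he
      obtain ⟨i, rfl⟩ := mem_powers_iff_mem_zpowers.2 ha
      exact ⟨i, z, hz, rfl⟩
    have hcomm : ∀ i : ℕ, ∀ z ∈ Z, x ^ i * z = z * x ^ i := by
      intro i z hz
      exact ((show Commute x z from hxc z hz).pow_left i)
    have hEab : ∀ a ∈ E, ∀ b ∈ E, a * b = b * a := by
      intro a ha b hb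
      obtain ⟨i, z, hz, rfl⟩ := hEmem a ha
      obtain ⟨j, w, hw, rfl⟩ := hEmem b hb
      have h1 : x ^ i * z * (x ^ j * w) = x ^ (i + j) * (z * w) := by
        rw [pow_add, mul_assoc, ← mul_assoc z, ← hcomm j z hz]
        simp only [mul_assoc]
      have h2 : x ^ j * w * (x ^ i * z) = x ^ (i + j) * (z * w) := by
        rw [hZab z hz w hw, add_comm, pow_add, mul_assoc, ← mul_assoc w, ← hcomm i w hw]
        simp only [mul_assoc]
      rw [h1, h2]
    have hzp : ∀ z ∈ Z, z ^ p = 1 := by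
      intro z hz
      have := pow_card_eq_one' (x := (⟨z, hz⟩ : Z))
      rw [hZcard] at this
      exact congrArg Subtype.val this
    have hEexp : ∀ e ∈ E, e ^ p = 1 := by
      intro e he
      obtain ⟨i, z, hz, rfl⟩ := hEmem e he
      rw [(show Commute (x ^ i) z from hcomm i z hz).mul_pow, hzp z hz, ← pow_mul, mul_comm,
        pow_mul, hxp1, one_pow, one_mul]
    have hEp : IsPGroup p E := by
      rintro ⟨e, he⟩
      exact ⟨1, Subtype.ext (by rw [pow_one]; exact hEexp e he)⟩
    have hcyc : IsCyclic E := by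
      refine isCyclic_of_pelt f hf hker hel E hEab hEp ?_
      intro y hy hy1
      apply hpe
      obtain ⟨i, z, hz, hyz⟩ := hEmem _ hy
      by_cases hi : p ∣ i
      · obtain ⟨j, rfl⟩ := hi
        rw [pow_mul, hxp1, one_pow, one_mul] at hyz
        exact hvan Z hZn hZab hZp y (by rw [hyz]; exact hz) hy1
      · exact hPV i hi z hz y hyz
    obtain ⟨g, hg⟩ := hcyc.exists_generator
    have hEcard : Nat.card E ∣ p := by
      rw [← orderOf_eq_card_of_forall_mem_zpowers hg]
      exact orderOf_dvd_of_pow_eq_one (Subtype.ext (hEexp g g.2))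
    have hZE : Z ≤ E := le_sup_right
    have hEZ : Z = E := by
      apply Subgroup.eq_of_le_of_card_ge hZE
      rw [hZcard]
      exact Nat.le_of_dvd hp.out.pos hEcard
    apply hxZ
    rw [hEZ]
    exact (le_sup_left : _ ≤ E) (Subgroup.mem_zpowers x)
  -- `Q = Z`
  have hQZ : Q = Z := by
    by_contra hne
    have hcne : Subgroup.center Q ≠ ⊤ := by
      intro h
      apply hne
      apply le_antisymm _ hZQ
      intro q hq
      exact ⟨⟨q, hq⟩, by rw [h]; exact Subgroup.mem_top _, rfl⟩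
    have hnt2 : Nontrivial (Q ⧸ Subgroup.center Q) := QuotientGroup.nontrivial_iff.2 hcne
    have hqp2 : IsPGroup p (Q ⧸ Subgroup.center Q) := hQp.to_quotient _
    have hct2 : Nontrivial (Subgroup.center (Q ⧸ Subgroup.center Q)) := hqp2.center_nontrivial
    obtain ⟨⟨x, hxc⟩, hx1⟩ := exists_ne (1 : Subgroup.center (Q ⧸ Subgroup.center Q))
    obtain ⟨x, rfl⟩ := QuotientGroup.mk_surjective x
    have hxnc : x ∉ Subgroup.center Q := by
      intro h
      apply hx1
      exact Subtype.ext ((QuotientGroup.eq_one_iff x).2 h)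
    let B0 : Subgroup Q := Subgroup.upperCentralSeries Q 2
    have hB0n : B0.Characteristic := inferInstance
    have hB0 : ∀ b : Q, b ∈ B0 ↔ ∀ y : Q, b * y * b⁻¹ * y⁻¹ ∈ Subgroup.center Q := by
      intro b
      change b ∈ Subgroup.upperCentralSeries Q (1 + 1) ↔ _
      rw [Subgroup.mem_upperCentralSeries_succ_iff]
      rw [Subgroup.upperCentralSeries_one]
      rfl
    have hxB0 : x ∈ B0 := by
      rw [hB0]
      intro y
      rw [← QuotientGroup.eq_one_iff]
      simp only [QuotientGroup.mk_mul, QuotientGroup.mk_inv]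
      have h2 := Subgroup.mem_center_iff.1 hxc (QuotientGroup.mk y)
      rw [← h2]
      group
    let B : Subgroup H := B0.map Q.subtype
    have hBn : B.Normal := inferInstance
    have hBQ : B ≤ Q := by
      rintro _ ⟨a, _, rfl⟩
      exact a.2
    -- the centre of `B`
    let C : Subgroup H := (Subgroup.center B).map B.subtype
    have hCn : C.Normal := inferInstance
    have hCQ : C ≤ Q := by
      rintro _ ⟨a, _, rfl⟩
      exact hBQ a.2
    have hCab : ∀ x ∈ C, ∀ y ∈ C, x * y = y * x := by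
      rintro _ ⟨a, ha, rfl⟩ _ ⟨b, hb, rfl⟩
      exact congrArg Subtype.val (Subgroup.mem_center_iff.1 hb a)
    have hZB : Z ≤ B := by
      rintro _ ⟨a, ha, rfl⟩
      refine ⟨a, (hB0 a).2 fun y => ?_, rfl⟩
      have h2 : a * y * a⁻¹ * y⁻¹ = 1 := by
        rw [← Subgroup.mem_center_iff.1 ha y]
        group
      rw [h2]
      exact Subgroup.one_mem _
    have hZC : Z ≤ C := by
      intro z hz
      refine ⟨⟨z, hZB hz⟩, Subgroup.mem_center_iff.2 ?_, rfl⟩
      rintro ⟨b, hb⟩
      obtain ⟨a, ha, rfl⟩ := hz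
      have h3 := congrArg (Subtype.val : Q → H) (Subgroup.mem_center_iff.1 ha ⟨b, hBQ hb⟩)
      exact Subtype.ext h3
    have hCZ : C = Z := by
      refine (Subgroup.eq_of_le_of_card_ge hZC ?_).symm
      rw [hZcard]
      exact Nat.le_of_dvd hp.out.pos (hcard C hCn hCab hCQ)
    -- elements of `B` outside `Z` are vanishing
    have hBvan : ∀ w ∈ B, w ∉ Z → ∀ y : K, f y = w → PV p y := by
      intro w hwB hwZ y hy
      have hwC : (⟨w, hwB⟩ : B) ∉ Subgroup.center B := fun h => hwZ (hCZ ▸ ⟨_, h, rfl⟩)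
      obtain ⟨v, hv⟩ : ∃ v : B, ¬ (v * ⟨w, hwB⟩ = ⟨w, hwB⟩ * v) := by
        by_contra hcon
        push Not at hcon
        exact hwC (Subgroup.mem_center_iff.2 hcon)
      have hvw : Van w := by
        refine van_extraspecial Z B hZcard ?_ ?_ w (v : H) hwB v.2 ?_
        · rintro _ ⟨a, ha, rfl⟩ b hb
          exact (congrArg Subtype.val (Subgroup.mem_center_iff.1 ha ⟨b, hBQ hb⟩)).symm
        · rintro _ ⟨a, ha, rfl⟩ _ ⟨b, hb, rfl⟩
          refine ⟨a * b * a⁻¹ * b⁻¹, (hB0 a).1 ha b, ?_⟩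
          simp
        · intro h
          apply hv
          exact Subtype.ext h.symm
      have hwp : p ∣ orderOf w := by
        obtain ⟨j, hj⟩ := IsPGroup.iff_orderOf.1 hQp ⟨w, hBQ hwB⟩
        rw [Subgroup.orderOf_mk] at hj
        rw [hj]
        refine dvd_pow_self p ?_
        rintro rfl
        rw [pow_zero, orderOf_eq_one_iff] at hj
        exact hwZ (by rw [hj]; exact Z.one_mem)
      rw [← hy] at hvw hwp
      exact PV.lift f hf ⟨hvw, hwp⟩
    have hxZ : (x : H) ∉ Z := by
      rintro ⟨a, ha, hax⟩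
      apply hxnc
      rw [← show a = x from Subtype.ext hax]
      exact ha
    have hxB : (x : H) ∈ B := ⟨x, hxB0, rfl⟩
    -- `w ∈ B` implies `w ^ p ∈ Z`
    have hBp : ∀ w ∈ B, w ^ p ∈ Z := by
      rintro _ ⟨w, hw, rfl⟩
      refine ⟨w ^ p, Subgroup.mem_center_iff.2 fun y => ?_, by simp⟩
      have h1 := (hB0 w).1 hw y
      set c : Q := w * y * w⁻¹ * y⁻¹ with hc
      have hcc : ∀ u : Q, u * c = c * u := Subgroup.mem_center_iff.1 h1
      have hcp : c ^ p = 1 := by
        have h2 : ((c : Q) : H) ∈ Z := ⟨c, h1, rfl⟩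
        have h3 := pow_card_eq_one' (x := (⟨(c : H), h2⟩ : Z))
        rw [hZcard] at h3
        have h3' := congrArg (Subtype.val : Z → H) h3
        exact Subtype.ext h3'
      -- `y w y⁻¹ = c⁻¹ w`
      have h4 : y * w * y⁻¹ = c⁻¹ * w := by
        rw [hc]
        group
      have h5 : y * w ^ p * y⁻¹ = w ^ p := by
        rw [← conj_pow, h4]
        have hcw : Commute c⁻¹ w := by
          have : Commute c w := (hcc w).symm
          exact this.inv_left
        rw [hcw.mul_pow, inv_pow, hcp, inv_one, one_mul]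
      rw [mul_inv_eq_iff_eq_mul] at h5
      exact h5
    refine hkey x hxZ (hBp x hxB) ?_ ?_
    · rintro _ ⟨a, ha, rfl⟩
      exact congrArg Subtype.val (Subgroup.mem_center_iff.1 ha x)
    · intro i hi z hz y hy
      refine hBvan _ (B.mul_mem (B.pow_mem hxB i) (hZB hz)) ?_ y hy
      intro h
      have h1 : (x : H) ^ i ∈ Z := by
        have := Z.mul_mem h (Z.inv_mem hz)
        rwa [mul_inv_cancel_right] at this
      -- `x ^ i, x ^ p ∈ Z` with `i` prime to `p`
      apply hxZ
      have h2 := hBp x hxB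
      have hcop : i.Coprime p := ((Nat.Prime.coprime_iff_not_dvd hp.out).2 hi).symm
      have h3 := Nat.gcd_eq_gcd_ab i p
      rw [hcop] at h3
      have h4 : (x : H) = ((x : H) ^ i) ^ (i.gcdA p) * ((x : H) ^ p) ^ (i.gcdB p) := by
        rw [← zpow_natCast, ← zpow_natCast (x : H) p, ← zpow_mul, ← zpow_mul, ← zpow_add, ← h3]
        simp
      rw [h4]
      exact Z.mul_mem (Z.zpow_mem h1 _) (Z.zpow_mem h2 _)
  have hQcard : Nat.card Q = p := by rw [hQZ]; exact hZcard
  -- the quotient `H / Q`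
  have hHQ : ¬ p ∣ Nat.card (H ⧸ Q) := by
    intro hpd
    have hcore1 : pCore p (H ⧸ Q) = ⊥ := Cfsg.Agent.Lib.Cores.pCore_quotient_pCore p
    obtain ⟨H₁, _, _, g, hg, hkerg, helg, hcoreg, hvang⟩ :=
      exists_cover _ (H ⧸ Q) rfl inferInstance hcore1 hpd
    set Q₁ := pCore p H₁ with hQ₁def
    have hQ₁n : Q₁.Normal := Cfsg.Agent.Lib.Cores.pCore_normal p
    have hQ₁p : IsPGroup p Q₁ := Cfsg.Agent.Lib.Cores.pCore_isPGroup (G := H₁) p
    have hnt₁ : Nontrivial Q₁ := (Subgroup.nontrivial_iff_ne_bot _).2 hcoreg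
    let Z₁ : Subgroup H₁ := (Subgroup.center Q₁).map Q₁.subtype
    have hZ₁n : Z₁.Normal := inferInstance
    have hZ₁Q : Z₁ ≤ Q₁ := by
      rintro _ ⟨a, _, rfl⟩
      exact a.2
    have hZ₁ab : ∀ x ∈ Z₁, ∀ y ∈ Z₁, x * y = y * x := by
      rintro _ ⟨a, ha, rfl⟩ _ ⟨b, hb, rfl⟩
      exact congrArg Subtype.val (Subgroup.mem_center_iff.1 hb a)
    have hZ₁p : IsPGroup p Z₁ := hQ₁p.to_le hZ₁Q
    have hZ₁1 : Z₁ ≠ ⊥ := by
      have hct : Nontrivial (Subgroup.center Q₁) := hQ₁p.center_nontrivial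
      intro h
      have h2 := (Subgroup.map_eq_bot_iff_of_injective _ Q₁.subtype_injective).1 h
      exact (Subgroup.nontrivial_iff_ne_bot _).1 hct h2
    -- an element of order `p` in `Z₁`
    obtain ⟨k, hk⟩ := IsPGroup.iff_card.1 hZ₁p
    have hk1 : k ≠ 0 := by
      rintro rfl
      rw [pow_zero] at hk
      exact hZ₁1 (Subgroup.eq_bot_of_card_eq Z₁ hk)
    obtain ⟨z, hz⟩ := exists_prime_orderOf_dvd_card' (G := Z₁) p (hk ▸ dvd_pow_self p hk1)
    have hzp : (z : H₁) ^ p = 1 := by
      have := pow_orderOf_eq_one z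
      rw [hz] at this
      exact congrArg Subtype.val this
    have hz1 : (z : H₁) ≠ 1 := by
      intro h
      rw [show z = 1 from Subtype.ext h, orderOf_one] at hz
      exact hp.out.one_lt.ne hz
    -- lift to `H`
    obtain ⟨x, hxz, j, hxj⟩ := exists_pelt_lift (g.comp (QuotientGroup.mk' Q))
      (hg.comp (QuotientGroup.mk'_surjective Q)) (z : H₁) 1 (by rw [pow_one]; exact hzp)
    have hker1 : ∀ k : ℕ, ∀ y : H ⧸ Q, g y = 1 → y ^ p ^ k = 1 → y = 1 := by
      intro k
      induction k with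
      | zero => intro x _ hx; simpa using hx
      | succ k ih =>
        intro x hx hxk
        apply ih x hx
        apply helg
        · rw [map_pow, hx, one_pow]
        · rw [← pow_mul, ← pow_succ, hxk]
    have hxpQ : x ^ p ∈ Q := by
      rw [← QuotientGroup.eq_one_iff]
      apply hker1 j
      · rw [← QuotientGroup.mk'_apply, map_pow, map_pow]
        have : g (QuotientGroup.mk' Q x) = z := hxz
        rw [this, hzp]
      · rw [← QuotientGroup.mk_pow, ← pow_mul, mul_comm, pow_mul, hxj, one_pow,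
          QuotientGroup.mk_one]
    have hgx : ∀ i : ℕ, ∀ q ∈ Q, g (QuotientGroup.mk (x ^ i * q) : H ⧸ Q) = (z : H₁) ^ i := by
      intro i q hq
      rw [QuotientGroup.mk_mul, (QuotientGroup.eq_one_iff q).2 hq, mul_one,
        ← QuotientGroup.mk'_apply, map_pow, map_pow]
      have : g (QuotientGroup.mk' Q x) = z := hxz
      rw [this]
    have hxQ : x ∉ Q := by
      intro h
      apply hz1
      have h1 := hgx 0 x h
      rw [pow_zero, one_mul, pow_zero] at h1
      rw [← h1]
      exact hxz.symm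
    rw [hQZ] at hxpQ hxQ
    refine hkey x hxQ hxpQ ?_ ?_
    · -- `x` is a `p`-element, `Q` is normal of order `p`
      intro z' hz'
      exact comm_of_pelt Z hZcard x j hxj z' hz'
    · intro i hi q hq y hy
      rw [← hQZ] at hq
      have h1 := hgx i q hq
      have h2 : PV p (QuotientGroup.mk (x ^ i * q) : H ⧸ Q) := by
        refine hvang Z₁ hZ₁n hZ₁ab hZ₁p _ ?_ ?_
        · rw [h1]; exact Z₁.pow_mem z.2 i
        · rw [h1]
          intro h3
          have h4 := orderOf_dvd_of_pow_eq_one h3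
          rw [Subgroup.orderOf_coe, hz] at h4
          exact hi h4
      have h3 : PV p (x ^ i * q) := PV.lift (QuotientGroup.mk' Q) (QuotientGroup.mk'_surjective Q) h2
      rw [← hy] at h3
      exact PV.lift f hf h3
  -- conclusion
  have hker2 : ¬ p ∣ Nat.card f.ker := by
    intro h
    obtain ⟨y, hy⟩ := exists_prime_orderOf_dvd_card' p h
    have h1 : (y : K) = 1 := by
      apply hel y y.2
      rw [← hy, ← Subgroup.orderOf_coe]
      exact pow_orderOf_eq_one _
    rw [show y = 1 from Subtype.ext h1, orderOf_one] at hy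
    exact hp.out.one_lt.ne hy
  have hK1 : Nat.card K = Nat.card (H ⧸ Q) * p * Nat.card f.ker := by
    have h1 : Nat.card H = f.ker.index := by
      rw [Subgroup.index_ker, MonoidHom.range_eq_top.2 hf, Subgroup.card_top]
    have h2 : Nat.card (H ⧸ Q) * p = Nat.card H := by
      rw [← hQcard, ← Subgroup.index_eq_card, Q.index_mul_card]
    rw [h2, h1, Subgroup.index_mul_card]
  rw [hK1] at hp2
  have h3 : (p ^ 2).Coprime (Nat.card f.ker) :=
    Nat.Coprime.pow_left _ ((Nat.Prime.coprime_iff_not_dvd hp.out).2 hker2)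
  have h4 := h3.dvd_of_dvd_mul_right hp2
  rw [pow_two] at h4
  exact hHQ (Nat.dvd_of_mul_dvd_mul_right hp.out.pos h4)

end Cfsg.Agent.H708.VanOrder
end

-- part: S4850
section
set_option autoImplicit false
open Cfsg

namespace Cfsg.Agent.S4850

open Cfsg.Agent.H708.VanOrder Cfsg.Agent.H727.VanEl

/-- Let p be a prime and G a finite solvable group whose vanishing elements (elements at which some irreducible character is zero) of order divisible by p all have the same order, with at least one such element. Let P be a Sylow p-subgroup of G. Then the derived subgroup of P is subnormal in G and the image of P in G/O_p(G) is cyclic. -/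
theorem result {G : Type*} [Group G] [Finite G] [hs : Group.IsSolvable G] (p : ℕ) [Fact p.Prime] (b : ℕ) (hvo : {n : ℕ | p ∣ n ∧ ∃ (g : G) (χ : Cfsg.IrrCharacter G), orderOf g = n ∧ (χ : G → ℂ) g = 0} = {b}) (P : Sylow p G) :
    ((commutator ↥(P : Subgroup G)).map (P : Subgroup G).subtype).IsSubnormal ∧ IsCyclic ↥((P : Subgroup G).map (QuotientGroup.mk' (Cfsg.pCore p G))) := by
  have hp : p.Prime := Fact.out
  have hord : ∀ x : G, PV p x → orderOf x = b := by
    intro x hx
    have h1 : orderOf x ∈ {n : ℕ | p ∣ n ∧ ∃ (g : G) (χ : Cfsg.IrrCharacter G), orderOf g = n ∧ (χ : G → ℂ) g = 0} := by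
      obtain ⟨χ, hχ⟩ := hx.1
      exact ⟨hx.2, x, χ, rfl, hχ⟩
    rw [hvo] at h1
    exact h1
  have hgood : Good p G := by
    refine ⟨?_, ?_⟩
    · rintro x y hx ⟨k, hk⟩ hy
      refine ⟨k, ?_⟩
      rw [← orderOf_dvd_iff_pow_eq_one, hord y hy, ← hord x hx]
      exact orderOf_dvd_of_pow_eq_one hk
    · intro x hx h
      have h1 := hord x hx
      have h2 := hord _ h
      rw [orderOf_pow_of_dvd hp.ne_zero hx.2, h1] at h2
      have h3 : 0 < b := h1 ▸ orderOf_pos x
      have h4 := Nat.div_lt_self h3 hp.one_lt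
      omega
  have hNn : (pCore p G).Normal := Cfsg.Agent.Lib.Cores.pCore_normal p
  have hgood' : Good p (G ⧸ pCore p G) :=
    hgood.of_surjective (QuotientGroup.mk' (pCore p G)) (QuotientGroup.mk'_surjective _)
  have hcore : pCore p (G ⧸ pCore p G) = ⊥ := Cfsg.Agent.Lib.Cores.pCore_quotient_pCore p
  have hnot := not_sq_dvd_card inferInstance hgood' hcore
  -- the image of `P` has order dividing `p`
  set R := (P : Subgroup G).map (QuotientGroup.mk' (pCore p G)) with hR
  have hRp : IsPGroup p R := P.isPGroup'.map _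
  have hRcard : Nat.card R ∣ p := by
    obtain ⟨k, hk⟩ := IsPGroup.iff_card.1 hRp
    have h1 : p ^ k ∣ Nat.card (G ⧸ pCore p G) := hk ▸ R.card_subgroup_dvd_card
    have h2 : k < 2 := by
      by_contra h
      exact hnot ((pow_dvd_pow p (not_lt.1 h)).trans h1)
    rw [hk]
    calc p ^ k ∣ p ^ 1 := pow_dvd_pow p (by omega)
      _ = p := pow_one p
  have hcyc : IsCyclic R := by
    rcases (Nat.dvd_prime hp).1 hRcard with h | h
    · have : Subsingleton R := (Nat.card_eq_one_iff_unique.1 h).1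
      infer_instance
    · exact isCyclic_of_prime_card h
  refine ⟨?_, hcyc⟩
  -- `P' ≤ O_p(G)`
  set D := (commutator ↥(P : Subgroup G)).map (P : Subgroup G).subtype with hD
  have hDle : D ≤ pCore p G := by
    have h1 : commutator ↥(P : Subgroup G) ≤
        ((QuotientGroup.mk' (pCore p G)).comp (P : Subgroup G).subtype).ker := by
      rw [commutator_def, Subgroup.commutator_le]
      intro x _ y _
      rw [MonoidHom.mem_ker, map_commutatorElement, commutatorElement_eq_one_iff_mul_comm]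
      have hc : IsMulCommutative R := inferInstance
      have hx : (QuotientGroup.mk' (pCore p G)) (x : G) ∈ R := ⟨x, x.2, rfl⟩
      have hy : (QuotientGroup.mk' (pCore p G)) (y : G) ∈ R := ⟨y, y.2, rfl⟩
      exact congrArg (Subtype.val : R → _) (hc.is_comm.comm ⟨_, hx⟩ ⟨_, hy⟩)
    rintro _ ⟨x, hx, rfl⟩
    have h2 := h1 hx
    rw [MonoidHom.mem_ker, MonoidHom.comp_apply, QuotientGroup.mk'_apply,
      QuotientGroup.eq_one_iff] at h2
    exact h2
  -- `O_p(G) ≤ P` normalizes `P'`
  have hOP : pCore p G ≤ (P : Subgroup G) :=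
    (Cfsg.Agent.Lib.Cores.pCore_isPGroup (G := G) p).le_sylow_of_normal P
  refine Subgroup.IsSubnormal.step D (pCore p G) hDle hNn.isSubnormal ?_
  refine ⟨?_⟩
  rintro ⟨d, hd⟩ hdD ⟨g, hg⟩
  rw [Subgroup.mem_subgroupOf] at hdD ⊢
  obtain ⟨c, hc, hcd⟩ := hdD
  have hcn : (commutator ↥(P : Subgroup G)).Normal := inferInstance
  refine ⟨⟨g, hOP hg⟩ * c * ⟨g, hOP hg⟩⁻¹, hcn.conj_mem c hc _, ?_⟩
  simp only [map_mul, map_inv, hcd]
  rfl

end Cfsg.Agent.S4850
end
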