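import Mathlib
import Cfsg.Prelude.Def_Characters
import Cfsg.Prelude.Def_Blocks
import Cfsg.Agent.Characters.Linear
import Cfsg.Agent.H692.RealOver
import Cfsg.Agent.H692.KeyReal
import Cfsg.Statements.S4862
set_option linter.all false

-- part: H692/LinConst
section
/-!
# Characters of degree prime to `p` restricted to a `p`-subgroup
-/

set_option autoImplicit false
open Cfsg

namespace Cfsg.Agent.H692.LinConst

open Cfsg.Agent.Characters.Core Cfsg.Agent.Characters.Clifford Cfsg.Agent.H692.RealAct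
open Cfsg.Agent.H692.SqRoot Cfsg.Agent.H692.RealOver Cfsg.Agent.H692.Cliff Cfsg.Agent.H692.KeyReal
open scoped ComplexConjugate

universe u
variable {G : Type u} [Group G]

/-- A character of degree prime to `p` has a linear constituent on every `p`-subgroup. -/
theorem exists_linear_constituent [Finite G] {p : ℕ} (hp : p.Prime) (P : Subgroup G) [Fintype P]
    (hP : IsPGroup p P) {χ : G → ℂ} (hχ : IsIrrCharacter G χ) (hd : ¬ p ∣ charDegree χ) :
    ∃ f : P →* ℂˣ, classInner (fun x : P => χ x) (fun x => (f x : ℂ)) ≠ 0 := by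
  classical
  have hfp : Fact p.Prime := ⟨hp⟩
  have hfin : Finite (IrrCharacter P) := finite_irr
  have hft : Fintype (IrrCharacter P) := Fintype.ofFinite _
  obtain ⟨c, hc1, hc2⟩ := Cfsg.Agent.CharDeep.CliffordCorr.exists_nat_coeffs
    (isCharacter_restrict P (isIrr_isCharacter hχ))
  have h1 := congrFun hc1 1
  simp only [Finset.sum_apply, Pi.smul_apply, smul_eq_mul, OneMemClass.coe_one] at h1
  rw [(charDegree_spec hχ).1] at h1
  have h2 : (charDegree χ : ℂ) =
      ((∑ ψ : IrrCharacter P, c ψ * charDegree (ψ : P → ℂ) : ℕ) : ℂ) := by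
    rw [h1]
    push_cast
    refine Finset.sum_congr rfl fun ψ _ => ?_
    rw [(charDegree_spec ψ.2).1]
  have h3 : charDegree χ = ∑ ψ : IrrCharacter P, c ψ * charDegree (ψ : P → ℂ) := by
    exact_mod_cast h2
  obtain ⟨ψ, hψ⟩ : ∃ ψ : IrrCharacter P, ¬ p ∣ c ψ * charDegree (ψ : P → ℂ) := by
    by_contra hcon
    push Not at hcon
    apply hd
    rw [h3]
    exact Finset.dvd_sum fun ψ _ => hcon ψ
  have h4 : ¬ p ∣ charDegree (ψ : P → ℂ) := fun h => hψ (h.mul_left _)
  have h5 : c ψ ≠ 0 := by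
    intro h
    rw [h, zero_mul] at hψ
    exact hψ (dvd_zero p)
  obtain ⟨k, hk⟩ := hP.exists_card_eq
  have h6 : charDegree (ψ : P → ℂ) ∣ p ^ k := hk ▸ charDegree_dvd ψ.2
  obtain ⟨i, -, hi⟩ := (Nat.dvd_prime_pow hp).1 h6
  have h7 : charDegree (ψ : P → ℂ) = 1 := by
    rcases Nat.eq_zero_or_pos i with h | h
    · rw [hi, h, pow_zero]
    · exact absurd (hi ▸ dvd_pow_self p h.ne') h4
  obtain ⟨f, hf⟩ := Cfsg.Agent.Characters.Linear.exists_hom_of_isIrrCharacter ψ.2 (by
    rw [(charDegree_spec ψ.2).1, h7, Nat.cast_one])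
  refine ⟨f, ?_⟩
  rw [← hf, hc2 ψ]
  exact_mod_cast h5

/-- If the restriction of `χ` to `P` contains a linear character trivial on `M ≤ P`, `M` normal in
`G`, then `χ` contains the trivial character of `M`. -/
theorem classInner_one_ne_zero [Fintype G] (P M : Subgroup G) [Fintype P] [Fintype M]
    (hMP : M ≤ P) {χ : G → ℂ} (hχ : IsIrrCharacter G χ) (f : P →* ℂˣ)
    (hf : classInner (fun x : P => χ x) (fun x => (f x : ℂ)) ≠ 0)
    (hM : ∀ m (hm : m ∈ M), f ⟨m, hMP hm⟩ = 1) :
    classInner (fun x : M => χ x) (fun _ => (1 : ℂ)) ≠ 0 := by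
  classical
  have hfin : Finite (IrrCharacter P) := finite_irr
  have hft : Fintype (IrrCharacter P) := Fintype.ofFinite _
  obtain ⟨c, hc1, hc2⟩ := Cfsg.Agent.CharDeep.CliffordCorr.exists_nat_coeffs
    (isCharacter_restrict P (isIrr_isCharacter hχ))
  -- restrictions to `M`
  have hcomp : ∀ ψ : IrrCharacter P, IsCharacter M
      (fun m : M => (ψ : P → ℂ) (Subgroup.inclusion hMP m)) := fun ψ =>
    isCharacter_comp (Subgroup.inclusion hMP) (isIrr_isCharacter ψ.2)
  choose e he using fun ψ : IrrCharacter P =>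
    classInner_isNat (hcomp ψ) (isIrr_isCharacter (isIrr_one (G := M)))
  let F : IrrCharacter P := ⟨_, Cfsg.Agent.Characters.Linear.isIrrCharacter_hom f⟩
  have hcF : c F ≠ 0 := by
    have := hc2 F
    intro h
    rw [h, Nat.cast_zero] at this
    exact hf this
  have heF : e F = 1 := by
    have h1 := he F
    have h2 : (fun m : M => (F : P → ℂ) (Subgroup.inclusion hMP m)) = (1 : M → ℂ) := by
      funext m
      show (f (Subgroup.inclusion hMP m) : ℂ) = 1
      have : Subgroup.inclusion hMP m = ⟨(m : G), hMP m.2⟩ := rfl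
      rw [this, hM m m.2, Units.val_one]
    rw [h2, classInner_irr_self isIrr_one] at h1
    exact_mod_cast h1.symm
  have htot : classInner (fun x : M => χ x) (fun _ => (1 : ℂ)) =
      ((∑ ψ : IrrCharacter P, c ψ * e ψ : ℕ) : ℂ) := by
    have h1 : (fun m : M => χ m) =
        ∑ ψ : IrrCharacter P, (c ψ : ℂ) • (fun m : M => (ψ : P → ℂ) (Subgroup.inclusion hMP m)) := by
      funext m
      have := congrFun hc1 (Subgroup.inclusion hMP m)
      simp only [Finset.sum_apply, Pi.smul_apply] at this ⊢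
      exact this
    rw [h1]
    show classInner _ (1 : M → ℂ) = _
    rw [classInner_sum_left]
    push_cast
    refine Finset.sum_congr rfl fun ψ _ => ?_
    rw [classInner_smul_left, he]
  rw [htot]
  have hpos : 0 < ∑ ψ : IrrCharacter P, c ψ * e ψ := by
    refine Finset.sum_pos' (fun _ _ => Nat.zero_le _) ⟨F, Finset.mem_univ _, ?_⟩
    rw [heF, mul_one]
    exact Nat.pos_of_ne_zero hcF
  exact_mod_cast hpos.ne'

/-- An element acting as an involution on a nontrivial way on the normal subgroup `M` sends some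
nontrivial irreducible character to its complex conjugate. -/
theorem exists_conj_irr [Finite G] (M : Subgroup G) [hM : M.Normal] {t : G}
    (ht : ∃ n ∈ M, t * n ≠ n * t) (ht2 : ∀ n ∈ M, t * t * n = n * (t * t)) :
    ∃ θ : IrrCharacter M, (θ : M → ℂ) ≠ 1 ∧
      ∃ s : G, ∀ m : M, (θ : M → ℂ) (MulAut.conjNormal s m) = conj ((θ : M → ℂ) m) := by
  classical
  obtain ⟨n, hn, hne⟩ := ht
  set n0 : M := ⟨n, hn⟩ with hn0
  have h4 : MulAut.conjNormal t (MulAut.conjNormal t n0) = n0 := by
    apply Subtype.ext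
    rw [MulAut.conjNormal_apply, MulAut.conjNormal_apply]
    have h5 := ht2 n0 n0.2
    have h6 : t * (t * (n0 : G) * t⁻¹) * t⁻¹ = (t * t * (n0 : G)) * (t * t)⁻¹ := by group
    rw [h6, h5, mul_inv_cancel_right]
  set y : M := n0⁻¹ * MulAut.conjNormal t n0 with hy
  have hy1 : y ≠ 1 := by
    intro h
    apply hne
    have h2 : n0 = MulAut.conjNormal t n0 := inv_mul_eq_one.1 h
    have h3 := congrArg Subtype.val h2
    rw [MulAut.conjNormal_apply] at h3
    have h7 : n = t * n * t⁻¹ := h3
    exact (mul_inv_eq_iff_eq_mul.1 h7.symm)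
  have hty : MulAut.conjNormal t y = y⁻¹ := by
    rw [hy, map_mul, map_inv, h4, mul_inv_rev, inv_inv]
  have hC : clInv (clSmul t (ConjClasses.mk y)) = ConjClasses.mk y := by
    rw [clSmul_mk, clInv_mk, hty, inv_inv]
  have hC1 : clInv (clSmul t (ConjClasses.mk (1 : M))) = ConjClasses.mk 1 := by
    rw [clSmul_mk, clInv_mk, map_one, inv_one]
  have hne' : ConjClasses.mk y ≠ ConjClasses.mk (1 : M) := by
    intro h
    rw [ConjClasses.mk_eq_mk_iff_isConj, isConj_one_left] at h
    exact hy1 h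
  have hcard := card_fixed_conj (K := M) t
  have hfin : Finite (IrrCharacter M) := finite_irr
  have hfin2 : Finite (ConjClasses M) := inferInstance
  have hgt : 1 < Nat.card {C : ConjClasses M // clInv (clSmul t C) = C} := by
    rw [Finite.one_lt_card_iff_nontrivial]
    exact ⟨⟨_, hC⟩, ⟨_, hC1⟩, fun h => hne' (congrArg Subtype.val h)⟩
  rw [← hcard, Finite.one_lt_card_iff_nontrivial] at hgt
  let one : IrrCharacter M := ⟨1, isIrr_one⟩
  have hone : irrConj (irrSmul t one) = one := by
    apply Subtype.ext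
    funext k
    rw [irrConj_apply, irrSmul_apply]
    show conj ((1 : M → ℂ) _) = (1 : M → ℂ) k
    simp
  obtain ⟨θ, hθ⟩ := @exists_ne _ hgt ⟨one, hone⟩
  refine ⟨θ.1, fun h => hθ (Subtype.ext (Subtype.ext h)), t⁻¹, fun m => ?_⟩
  have h8 := congrFun (congrArg Subtype.val θ.2) m
  rw [irrConj_apply, irrSmul_apply] at h8
  rw [← h8, Complex.conj_conj]

end Cfsg.Agent.H692.LinConst
end

-- part: S4862
section
set_option autoImplicit false
open Cfsg

namespace Cfsg.Agent.S4862

open Cfsg.Agent.Characters.Core Cfsg.Agent.Characters.Clifford Cfsg.Agent.H692.RealAct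
open Cfsg.Agent.H692.RealOver Cfsg.Agent.H692.KeyReal Cfsg.Agent.H692.LinConst
open scoped ComplexConjugate

/-- Let p be an odd prime and G a finite group such that the subgroup generated by the p-elements of G is solvable and every real-valued irreducible complex character of G has degree prime to p. Let K be the subgroup generated by the 2-elements of G and P a Sylow p-subgroup of G. Then every normal subgroup M of G contained in K and in the derived subgroup of P is centralized by K. -/
theorem result {G : Type*} [Group G] [Finite G] (p : ℕ) [Fact p.Prime] (hp : p ≠ 2) (hsolv : Group.IsSolvable ↥(Subgroup.closure {g : G | ∃ k : ℕ, orderOf g = p ^ k})) (hreal : ∀ χ : Cfsg.IrrCharacter G, (∀ g : G, ((χ : G → ℂ) g).im = 0) → ¬ p ∣ Cfsg.charDegree (χ : G → ℂ)) (P : Sylow p G) (M : Subgroup G) (hM : M.Normal) (hMK : M ≤ (Subgroup.closure {g : G | ∃ k : ℕ, orderOf g = 2 ^ k})) (hMP : M ≤ ⁅(P : Subgroup G), (P : Subgroup G)⁆) : (Subgroup.closure {g : G | ∃ k : ℕ, orderOf g = 2 ^ k})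 ≤ Subgroup.centralizer (M : Set G) := by
  classical
  have hGf := Fintype.ofFinite G
  have hMf := Fintype.ofFinite M
  have hPf := Fintype.ofFinite (P : Subgroup G)
  have hp1 : p.Prime := Fact.out
  rw [Subgroup.closure_le]
  rintro h ⟨k, hk⟩
  show h ∈ Subgroup.centralizer (M : Set G)
  rw [Subgroup.mem_centralizer_iff]
  intro m hm
  by_contra hne
  obtain ⟨t, -, ht1, ht2⟩ := exists_involutory M hk ⟨m, hm, fun h' => hne h'.symm⟩
  obtain ⟨θ, hθ1, s, hs⟩ := exists_conj_irr M ht1 ht2
  have hMP' : M ≤ (P : Subgroup G) := hMP.trans (Subgroup.commutator_le_self _)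
  have hMp : IsPGroup p M := P.2.to_le hMP'
  obtain ⟨d, hd⟩ := hMp.exists_card_eq
  have hodd : Odd (Nat.card M) := by
    rw [hd]
    exact (hp1.odd_of_ne_two hp).pow
  have hdef : 2 ^ (Nat.card M).factorization 2 ∣ charDegree (θ : M → ℂ) := by
    rw [Nat.factorization_eq_zero_of_not_dvd (fun h => (Nat.not_even_iff_odd.2 hodd)
      (even_iff_two_dvd.2 h)), pow_zero]
    exact one_dvd _
  obtain ⟨S⟩ := (inferInstance : Nonempty (Sylow 2 G))
  have hfS : Fintype (S : Subgroup G) := Fintype.ofFinite _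
  obtain ⟨χ, hχ, -, ⟨e, heo, he⟩, -⟩ := exists_real_over M S θ.2 hdef ⟨s, hs⟩
  have he0 : classInner (fun n : M => (χ : G → ℂ) n) (θ : M → ℂ) ≠ 0 := by
    rw [he]
    have : e ≠ 0 := by
      rintro rfl
      exact Nat.not_odd_zero heo
    exact_mod_cast this
  obtain ⟨f, hf⟩ := exists_linear_constituent hp1 (P : Subgroup G) P.2 χ.2 (hreal χ hχ)
  have hfM : ∀ m (hm : m ∈ M), f ⟨m, hMP' hm⟩ = 1 := by
    intro m hm
    have h1 : (⟨m, hMP' hm⟩ : (P : Subgroup G)) ∈ commutator (P : Subgroup G) := by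
      have h2 := hMP hm
      rw [← Subgroup.map_subtype_commutator] at h2
      obtain ⟨y, hy, hy2⟩ := Subgroup.mem_map.1 h2
      have : y = ⟨m, hMP' hm⟩ := Subtype.ext hy2
      rwa [← this]
    exact Abelianization.commutator_subset_ker f h1
  have h1 := classInner_one_ne_zero (P : Subgroup G) M hMP' χ.2 f hf hfM
  obtain ⟨g, hg⟩ := exists_conj_of_constituents M χ.2 (isIrr_one (G := M)) θ.2 h1 he0
  apply hθ1
  rw [hg]
  rfl

end Cfsg.Agent.S4862
end
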