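import Mathlib
import Cfsg.Agent.H692.NSyl
import Cfsg.Agent.H692.NormalSylow
import Cfsg.Prelude.Def_Characters
import Cfsg.Prelude.Def_Blocks
import Cfsg.Agent.S0193
import Cfsg.Agent.H692.RealOver
import Cfsg.Agent.H692.Cliff
import Cfsg.Statements.S4864
set_option linter.all false

-- part: H692/OrbitPrime
section
/-!
# Actions with equal fixed point counts

Let `G` act on the finite sets `X` and `Y` so that every element has the same number of fixed
points on both.  If `O^{p'}(G)` is solvable and all orbits on `X` have size prime to `p`, then so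
have all orbits on `Y`.
-/

set_option autoImplicit false

namespace Cfsg.Agent.H692.OrbitPrime

open Cfsg.Agent.H692.NSyl

universe u v

/-- The set of orbits of the subgroup `M`. -/
def OrbQ {G : Type u} [Group G] (M : Subgroup G) (X : Type v) [MulAction G X] : Type v :=
  MulAction.orbitRel.Quotient M X

variable {G : Type u} [Group G] {X : Type v} [MulAction G X]

/-- The orbit of a point. -/
def mk (M : Subgroup G) (x : X) : OrbQ M X := Quotient.mk'' x

theorem mk_eq_mk {M : Subgroup G} {x y : X} : mk M x = mk M y ↔ ∃ m ∈ M, m • y = x := by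
  show (Quotient.mk'' x : MulAction.orbitRel.Quotient M X) = Quotient.mk'' y ↔ _
  rw [Quotient.eq'']
  constructor
  · rintro ⟨m, hm⟩
    exact ⟨m, m.2, hm⟩
  · rintro ⟨m, hm, h⟩
    exact ⟨⟨m, hm⟩, h⟩

theorem mk_surjective (M : Subgroup G) (q : OrbQ M X) : ∃ x : X, mk M x = q :=
  Quotient.exists_rep q

instance finite_orbQ (M : Subgroup G) [Finite X] : Finite (OrbQ M X) :=
  Finite.of_surjective (mk M) (mk_surjective M)

/-- The action of `G` on the set of orbits of a normal subgroup. -/
instance orbQAction (M : Subgroup G) [hM : M.Normal] : MulAction G (OrbQ M X) where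
  smul g := Quotient.map' (fun x => g • x) (by
    rintro x y ⟨m, hm⟩
    refine ⟨⟨g * m * g⁻¹, hM.conj_mem m m.2 g⟩, ?_⟩
    show (g * (m : G) * g⁻¹) • (g • y) = g • x
    have hm' : (m : G) • y = x := hm
    rw [← hm', smul_smul, smul_smul, inv_mul_cancel_right])
  one_smul := by
    rintro ⟨x⟩
    show mk M ((1 : G) • x) = mk M x
    rw [one_smul]
  mul_smul := by
    rintro a b ⟨x⟩
    show mk M ((a * b) • x) = mk M (a • b • x)
    rw [mul_smul]

theorem smul_mk (M : Subgroup G) [M.Normal] (g : G) (x : X) : g • mk M x = mk M (g • x) := rfl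

/-- `M` acts trivially on its orbits. -/
theorem smul_of_mem {M : Subgroup G} [M.Normal] {g : G} (hg : g ∈ M) (q : OrbQ M X) :
    g • q = q := by
  obtain ⟨x, rfl⟩ := mk_surjective M q
  rw [smul_mk]
  exact mk_eq_mk.2 ⟨g, hg, rfl⟩

/-- The stabilizer of an orbit. -/
theorem mem_stabilizer_mk {M : Subgroup G} [M.Normal] {x : X} {g : G} :
    g ∈ MulAction.stabilizer G (mk M x) ↔ ∃ m ∈ M, m⁻¹ * g ∈ MulAction.stabilizer G x := by
  rw [MulAction.mem_stabilizer_iff, smul_mk, mk_eq_mk]
  constructor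
  · rintro ⟨m, hm, h⟩
    refine ⟨m, hm, ?_⟩
    rw [MulAction.mem_stabilizer_iff, mul_smul, ← h, inv_smul_smul]
  · rintro ⟨m, hm, h⟩
    refine ⟨m, hm, ?_⟩
    rw [MulAction.mem_stabilizer_iff, mul_smul, inv_smul_eq_iff] at h
    exact h.symm

theorem stabilizer_mk {M : Subgroup G} [M.Normal] (x : X) :
    MulAction.stabilizer G (mk M x) = M ⊔ MulAction.stabilizer G x := by
  ext g
  rw [mem_stabilizer_mk, Subgroup.mem_sup_of_normal_left]
  constructor
  · rintro ⟨m, hm, h⟩
    exact ⟨m, hm, m⁻¹ * g, h, by group⟩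
  · rintro ⟨m, hm, h, hh, rfl⟩
    exact ⟨m, hm, by rwa [inv_mul_cancel_left]⟩

/-- The number of fixed points on the set of orbits. -/
theorem card_fixedBy_orbQ [Finite G] [Finite X] (M : Subgroup G) [hM : M.Normal] (a : G) :
    Nat.card (MulAction.fixedBy (OrbQ M X) a) * Nat.card M =
      ∑ᶠ m : M, Nat.card (MulAction.fixedBy X ((m : G) * a)) := by
  classical
  have : Fintype M := Fintype.ofFinite _
  have : Fintype X := Fintype.ofFinite _
  have : Fintype (OrbQ M X) := Fintype.ofFinite _
  rw [finsum_eq_sum_of_fintype]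
  -- double counting
  have h1 : ∀ m : M, Nat.card (MulAction.fixedBy X ((m : G) * a)) =
      ∑ x : X, if (m : G) • a • x = x then 1 else 0 := by
    intro m
    rw [Finset.sum_boole, Nat.card_eq_fintype_card, Fintype.card_subtype]
    simp only [MulAction.mem_fixedBy, mul_smul, Nat.cast_id]
  rw [Finset.sum_congr rfl fun m _ => h1 m, Finset.sum_comm]
  have h2 : ∀ x : X, (∑ m : M, if (m : G) • a • x = x then 1 else 0) =
      if a • mk M x = mk M x then Nat.card (MulAction.stabilizer M x) else 0 := by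
    intro x
    split_ifs with h
    · rw [smul_mk, mk_eq_mk] at h
      obtain ⟨m0, hm0, hm⟩ := h
      rw [Finset.sum_boole, Nat.cast_id, ← Fintype.card_subtype, ← Nat.card_eq_fintype_card]
      refine Nat.card_congr
        { toFun := fun m => ⟨m.1 * ⟨m0, hm0⟩, ?_⟩
          invFun := fun m => ⟨m.1 * ⟨m0, hm0⟩⁻¹, ?_⟩
          left_inv := fun m => ?_
          right_inv := fun m => ?_ }
      · rw [MulAction.mem_stabilizer_iff]
        show ((m.1 : G) * m0) • x = x
        rw [mul_smul, hm]
        exact m.2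
      · show ((m.1 : G) * m0⁻¹) • a • x = x
        rw [← hm, mul_smul, inv_smul_smul]
        exact MulAction.mem_stabilizer_iff.1 m.2
      · apply Subtype.ext
        simp
      · apply Subtype.ext
        simp
    · refine Finset.sum_eq_zero fun m _ => ?_
      rw [if_neg]
      intro hx
      apply h
      rw [smul_mk, mk_eq_mk]
      refine ⟨(m : G)⁻¹, M.inv_mem m.2, ?_⟩
      rw [inv_smul_eq_iff]
      exact hx.symm
  rw [Finset.sum_congr rfl fun x _ => h2 x]
  have h3 : ∀ q : OrbQ M X, (∑ x : X with mk M x = q, if a • mk M x = mk M x then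
      Nat.card (MulAction.stabilizer M x) else 0) =
      if a • q = q then Nat.card M else 0 := by
    intro q
    obtain ⟨x0, rfl⟩ := mk_surjective M q
    have h4 : ∀ x ∈ Finset.univ.filter (fun x : X => mk M x = mk M x0),
        (if a • mk M x = mk M x then Nat.card (MulAction.stabilizer M x) else 0) =
        if a • mk M x0 = mk M x0 then Nat.card (MulAction.stabilizer M x0) else 0 := by
      intro x hx
      have hx' := (Finset.mem_filter.1 hx).2
      rw [hx']
      split_ifs with h
      · obtain ⟨m, hm, rfl⟩ := mk_eq_mk.1 hx'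
        have h5 : MulAction.stabilizer M (m • x0) =
            (MulAction.stabilizer M x0).map (MulAut.conj (⟨m, hm⟩ : M)).toMonoidHom :=
          MulAction.stabilizer_smul_eq_stabilizer_map_conj (⟨m, hm⟩ : M) x0
        rw [h5]
        exact Subgroup.card_map_of_injective (MulAut.conj (⟨m, hm⟩ : M)).injective
      · rfl
    rw [Finset.sum_congr rfl h4, Finset.sum_const, smul_eq_mul]
    split_ifs with h
    · have h6 : (Finset.univ.filter (fun x : X => mk M x = mk M x0)).card =
          Nat.card (MulAction.orbit M x0) := by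
        rw [Nat.card_eq_fintype_card, ← Set.toFinset_card]
        congr 1
        ext x
        rw [Finset.mem_filter, Set.mem_toFinset]
        constructor
        · rintro ⟨-, hx⟩
          obtain ⟨m, hm, h7⟩ := mk_eq_mk.1 hx
          exact ⟨⟨m, hm⟩, h7⟩
        · rintro ⟨m, hm⟩
          exact ⟨Finset.mem_univ _, mk_eq_mk.2 ⟨m, m.2, hm⟩⟩
      rw [h6, Nat.card_eq_fintype_card, Nat.card_eq_fintype_card, Nat.card_eq_fintype_card]
      exact MulAction.card_orbit_mul_card_stabilizer_eq_card_group M x0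
    · rw [mul_zero]
  have h8 : ∑ x : X, (if a • mk M x = mk M x then Nat.card (MulAction.stabilizer M x) else 0) =
      ∑ q : OrbQ M X, ∑ x : X with mk M x = q, (if a • mk M x = mk M x then
        Nat.card (MulAction.stabilizer M x) else 0) :=
    (Finset.sum_fiberwise Finset.univ (fun x => mk M x) _).symm
  rw [h8, Finset.sum_congr rfl fun q _ => h3 q, ← Finset.sum_filter, Finset.sum_const, smul_eq_mul]
  congr 1
  rw [Nat.card_eq_fintype_card, Fintype.card_subtype]
  rfl

/-- Equal fixed point counts pass to the orbits of a normal subgroup. -/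
theorem card_fixedBy_orbQ_eq [Finite G] [Finite X] {Y : Type v} [MulAction G Y] [Finite Y]
    (h : ∀ g : G, Nat.card (MulAction.fixedBy X g) = Nat.card (MulAction.fixedBy Y g))
    (M : Subgroup G) [hM : M.Normal] (a : G) :
    Nat.card (MulAction.fixedBy (OrbQ M X) a) = Nat.card (MulAction.fixedBy (OrbQ M Y) a) := by
  have h1 := card_fixedBy_orbQ (X := X) M a
  have h2 := card_fixedBy_orbQ (X := Y) M a
  rw [finsum_congr fun m : M => h ((m : G) * a), ← h2] at h1
  exact Nat.eq_of_mul_eq_mul_right Nat.card_pos h1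

/-- For `R` normal, `|R : T ∩ R|` divides `|G : T|`. -/
theorem relIndex_dvd_index [Finite G] (T R : Subgroup G) [R.Normal] : T.relIndex R ∣ T.index := by
  have h1 : (T ⊓ R).relIndex R * R.index = (T ⊓ R).index :=
    Subgroup.relIndex_mul_index inf_le_right
  have h2 : (T ⊓ R).relIndex T * T.index = (T ⊓ R).index :=
    Subgroup.relIndex_mul_index inf_le_left
  rw [Subgroup.inf_relIndex_right] at h1
  rw [Subgroup.inf_relIndex_left] at h2
  obtain ⟨c, hc⟩ : R.relIndex T ∣ R.index := Subgroup.relIndex_dvd_index_of_normal R T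
  have h3 : R.relIndex T ≠ 0 := by
    rw [Subgroup.relIndex]
    exact Subgroup.index_ne_zero_of_finite
  refine ⟨c, ?_⟩
  apply Nat.eq_of_mul_eq_mul_left (Nat.pos_of_ne_zero h3)
  rw [h2, ← h1, hc]
  ring

/-- For `M` normal, `|M L : L| = |M : M ∩ L|`. -/
theorem relIndex_sup_eq [Finite G] (L M : Subgroup G) [M.Normal] :
    L.relIndex (M ⊔ L) = L.relIndex M := by
  have h1 : (M ⊓ L).relIndex L * L.relIndex (M ⊔ L) = (M ⊓ L).relIndex (M ⊔ L) :=
    Subgroup.relIndex_mul_relIndex _ _ _ inf_le_right le_sup_right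
  have h2 : (M ⊓ L).relIndex M * M.relIndex (M ⊔ L) = (M ⊓ L).relIndex (M ⊔ L) :=
    Subgroup.relIndex_mul_relIndex _ _ _ inf_le_left le_sup_left
  rw [Subgroup.relIndex_sup_left] at h2
  rw [Subgroup.inf_relIndex_right] at h1
  rw [Subgroup.inf_relIndex_left] at h2
  have h3 : M.relIndex L ≠ 0 := by
    rw [Subgroup.relIndex]
    exact Subgroup.index_ne_zero_of_finite
  apply Nat.eq_of_mul_eq_mul_left (Nat.pos_of_ne_zero h3)
  rw [h1, ← h2, mul_comm]

/-- **All orbits on `Y` have size prime to `p`.** -/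
theorem orbits_prime [Finite G] {p : ℕ} [hp : Fact p.Prime] (hs : Group.IsSolvable (pGen p G))
    (n : ℕ) : ∀ (B : Subgroup G), B.Normal → B.index = n →
      ∀ (X Y : Type v) [Finite X] [Finite Y] [MulAction G X] [MulAction G Y],
      (∀ b ∈ B, ∀ x : X, b • x = x) → (∀ b ∈ B, ∀ y : Y, b • y = y) →
      (∀ g : G, Nat.card (MulAction.fixedBy X g) = Nat.card (MulAction.fixedBy Y g)) →
      (∀ x : X, ¬ p ∣ (MulAction.stabilizer G x).index) →
      ∀ y : Y, ¬ p ∣ (MulAction.stabilizer G y).index := by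
  induction n using Nat.strong_induction_on with
  | _ n ih =>
  intro B hBn hB X Y _ _ _ _ hBX hBY hfix hX y
  have hBsY : ∀ y : Y, B ≤ MulAction.stabilizer G y := fun y b hb => hBY b hb y
  have hBsX : ∀ x : X, B ≤ MulAction.stabilizer G x := fun x b hb => hBX b hb x
  have hEn : (pGen p G).Normal := pGen_normal p
  by_cases hE : pGen p G ≤ B
  · intro hd
    have h1 : ¬ p ∣ B.relIndex ⊤ :=
      Cfsg.Agent.H692.NormalSylow.not_dvd_relIndex (inf_le_left.trans hE)
    rw [Subgroup.relIndex_top_right] at h1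
    exact h1 (hd.trans (Subgroup.index_dvd_of_le (hBsY y)))
  · -- a minimal normal subgroup of `G ⧸ B`
    have hsurj := QuotientGroup.mk'_surjective B
    have hX1 : (pGen p G).map (QuotientGroup.mk' B) ≠ ⊥ := by
      intro h
      apply hE
      rw [Subgroup.map_eq_bot_iff, QuotientGroup.ker_mk'] at h
      exact h
    obtain ⟨N, hNn, hNX, hN1, hmin⟩ := exists_minimal_normal
      ((pGen p G).map (QuotientGroup.mk' B)) (Subgroup.Normal.map hEn _ hsurj) hX1
    obtain ⟨hab, r, hr, hel⟩ := elementary_of_minimal N hNn hN1 hmin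
      (Cfsg.Agent.H692.NormalSylow.isSolvable_of_le hNX
        (Cfsg.Agent.H692.NormalSylow.isSolvable_map _ hs))
    have hfr : Fact r.Prime := ⟨hr⟩
    have hNr : IsPGroup r N := fun x => ⟨1, by
      rw [pow_one]
      exact Subtype.ext (hel x x.2)⟩
    obtain ⟨d, hd⟩ := hNr.exists_card_eq
    set M : Subgroup G := N.comap (QuotientGroup.mk' B) with hM
    have hMn : M.Normal := inferInstance
    have hBM : B ≤ M := by
      intro b hb
      rw [hM, Subgroup.mem_comap]
      have : QuotientGroup.mk' B b = 1 := by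
        rw [← MonoidHom.mem_ker, QuotientGroup.ker_mk']
        exact hb
      rw [this]
      exact N.one_mem
    have hidx : B.relIndex M = r ^ d := by
      have h6 := Subgroup.relIndex_ker M (QuotientGroup.mk' B)
      rw [QuotientGroup.ker_mk', hM, Subgroup.map_comap_eq_self_of_surjective hsurj] at h6
      rw [← hd]
      exact h6
    have hlt : M.index < n := by
      rw [← hB, ← Subgroup.relIndex_mul_index hBM]
      have h1 : 1 < B.relIndex M := by
        rw [hidx, ← hd, Finite.one_lt_card_iff_nontrivial]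
        exact (Subgroup.nontrivial_iff_ne_bot N).2 hN1
      have h2 : 0 < M.index := Nat.pos_of_ne_zero Subgroup.index_ne_zero_of_finite
      nlinarith
    by_cases hrp : r = p
    · -- `M` acts trivially
      have hMX : ∀ m ∈ M, ∀ x : X, m • x = x := by
        intro m hm x
        have h1 : (MulAction.stabilizer G x).relIndex M ∣ (MulAction.stabilizer G x).index :=
          relIndex_dvd_index _ _
        have h2 : (MulAction.stabilizer G x).relIndex M ∣ r ^ d :=
          hidx ▸ Subgroup.relIndex_dvd_of_le_left M (hBsX x)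
        obtain ⟨i, -, hi⟩ := (Nat.dvd_prime_pow hr).1 h2
        rcases Nat.eq_zero_or_pos i with hi0 | hi0
        · rw [hi0, pow_zero, Subgroup.relIndex_eq_one] at hi
          exact MulAction.mem_stabilizer_iff.1 (hi hm)
        · exfalso
          apply hX x
          refine dvd_trans ?_ h1
          rw [hi, hrp]
          exact dvd_pow_self p hi0.ne'
      have hMY : ∀ m ∈ M, ∀ y : Y, m • y = y := by
        intro m hm
        have h1 : MulAction.fixedBy X m = Set.univ := by
          ext x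
          simp only [MulAction.mem_fixedBy, Set.mem_univ, iff_true]
          exact hMX m hm x
        have h2 : MulAction.fixedBy X (1 : G) = Set.univ := by
          ext x
          simp
        have h3 : MulAction.fixedBy Y (1 : G) = Set.univ := by
          ext x
          simp
        have h4 := hfix m
        have h5 := hfix 1
        rw [h1] at h4
        rw [h2, h3] at h5
        have h6 : Nat.card (MulAction.fixedBy Y m) = Nat.card (Set.univ : Set Y) := by
          rw [← h4, h5]
        have h7 : MulAction.fixedBy Y m = Set.univ := by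
          apply Set.eq_of_subset_of_ncard_le (Set.subset_univ _)
          rw [Set.ncard, Set.ncard]
          exact h6.ge
        intro y
        have : y ∈ MulAction.fixedBy Y m := by rw [h7]; trivial
        exact this
      exact ih _ hlt M hMn rfl X Y hMX hMY hfix hX y
    · -- pass to the orbits of `M`
      have h1 := ih _ hlt M hMn rfl (OrbQ M X) (OrbQ M Y) (fun m hm q => smul_of_mem hm q)
        (fun m hm q => smul_of_mem hm q) (card_fixedBy_orbQ_eq hfix M) (by
          intro q
          obtain ⟨x, rfl⟩ := mk_surjective M q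
          rw [stabilizer_mk]
          intro hd'
          exact hX x (hd'.trans (Subgroup.index_dvd_of_le le_sup_right))) (mk M y)
      rw [stabilizer_mk] at h1
      have h2 : (MulAction.stabilizer G y).relIndex (M ⊔ MulAction.stabilizer G y) *
          (M ⊔ MulAction.stabilizer G y).index = (MulAction.stabilizer G y).index :=
        Subgroup.relIndex_mul_index le_sup_right
      rw [relIndex_sup_eq] at h2
      rw [← h2, hp.out.dvd_mul]
      refine not_or.2 ⟨?_, h1⟩
      intro h3
      have h4 : p ∣ r ^ d :=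
        h3.trans (hidx ▸ Subgroup.relIndex_dvd_of_le_left M (hBsY y))
      exact hrp ((Nat.prime_dvd_prime_iff_eq hp.out hr).1 (hp.out.dvd_of_dvd_pow h4)).symm

end Cfsg.Agent.H692.OrbitPrime
end

-- part: H692/RealOdd
section
/-!
# Real characters and real elements for normal subgroups of odd index
-/

set_option autoImplicit false
open Cfsg

namespace Cfsg.Agent.H692.RealOdd

open Cfsg.Agent.Characters.Core Cfsg.Agent.Characters.Clifford Cfsg.Agent.H692.RealAct
open Cfsg.Agent.H692.RealOver Cfsg.Agent.H692.Cliff Cfsg.Agent.H692.NSyl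
open Cfsg.Agent.H692.NormalSylow Cfsg.Agent.H692.OrbitPrime
open scoped ComplexConjugate

universe u
variable {G : Type u} [Group G]

/-- The norm of the induced character is `|T : K|`. -/
theorem classInner_indFun_self [Fintype G] (K : Subgroup G) [hK : K.Normal] {θ : K → ℂ}
    (hθ : IsIrrCharacter K θ) :
    classInner (indFun K θ) (indFun K θ) = (K.relIndex (stab K θ) : ℂ) := by
  have h := Cfsg.Agent.S0193.result K θ hθ
  have h1 : Nat.card {g : G // ∀ h : K, θ ⟨g * h * g⁻¹, hK.conj_mem h h.2 g⟩ = θ h} =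
      Nat.card (stab K θ) := rfl
  have h2 : Nat.card K * K.relIndex (stab K θ) = Nat.card (stab K θ) := by
    have h3 := Subgroup.relIndex_mul_relIndex ⊥ K (stab K θ) bot_le
      (le_stab (isIrr_isClassFunction hθ))
    rwa [Subgroup.relIndex_bot_left, Subgroup.relIndex_bot_left] at h3
  have hc : (Nat.card K : ℂ) ≠ 0 := by exact_mod_cast Nat.card_pos.ne'
  apply mul_left_cancel₀ hc
  rw [h, h1, ← h2]
  push_cast
  rfl

/-- **Real over real in odd index.** -/
theorem exists_real_over_odd [Fintype G] (K : Subgroup G) [hK : K.Normal] [Fintype K]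
    (hodd : Odd K.index) {θ : K → ℂ} (hθ : IsIrrCharacter K θ) (hreal : ∀ k, (θ k).im = 0) :
    ∃ χ : IrrCharacter G, (∀ g, ((χ : G → ℂ) g).im = 0) ∧
      ∃ e : ℕ, Odd e ∧ classInner (fun n : K => (χ : G → ℂ) n) θ = e := by
  classical
  have hfin : Finite (IrrCharacter G) := finite_irr
  have hft : Fintype (IrrCharacter G) := Fintype.ofFinite _
  obtain ⟨c, hc1, hc2⟩ := Cfsg.Agent.CharDeep.CliffordCorr.exists_nat_coeffs_indFun
    K (isIrr_isCharacter hθ)
  have hc3 : ∀ χ : IrrCharacter G, classInner (fun n : K => (χ : G → ℂ) n) θ = c χ := by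
    intro χ
    rw [← classInner_conj_symm, hc2, Complex.conj_natCast]
  -- the sum of the squares
  have hsum : (∑ χ : IrrCharacter G, c χ ^ 2) = K.relIndex (stab K θ) := by
    have h1 := classInner_indFun_self K hθ
    have h2 : classInner (indFun K θ) (indFun K θ) = ((∑ χ : IrrCharacter G, c χ ^ 2 : ℕ) : ℂ) := by
      nth_rewrite 1 [hc1]
      rw [classInner_sum_left]
      push_cast
      refine Finset.sum_congr rfl fun χ _ => ?_
      rw [classInner_smul_left, ← classInner_conj_symm,
        Cfsg.Agent.CharactersDeep.NormalInd.classInner_indFun _ _ _ (isIrr_isClassFunction χ.2),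
        hc2, Complex.conj_natCast, sq]
    rw [h1] at h2
    exact_mod_cast h2.symm
  have hsodd : Odd (∑ χ : IrrCharacter G, c χ ^ 2) := by
    rw [hsum]
    have h3 : K.relIndex (stab K θ) ∣ K.index :=
      Subgroup.relIndex_dvd_index_of_le (le_stab (isIrr_isClassFunction hθ))
    exact Odd.of_dvd_nat hodd h3
  have hconj : ∀ χ : IrrCharacter G, c (irrConj χ) = c χ := by
    intro χ
    have h1 := hc3 (irrConj χ)
    have h2 : classInner (fun n : K => (irrConj χ : G → ℂ) n) θ =
        conj (classInner (fun n : K => (χ : G → ℂ) n) θ) := by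
      rw [← classInner_conj_conj]
      congr 1
      funext n
      exact (Complex.conj_eq_iff_im.2 (hreal n)).symm
    rw [h1, hc3, Complex.conj_natCast] at h2
    exact_mod_cast h2
  obtain ⟨χ, h1, h2⟩ := exists_real_of_odd_sum (fun χ => c χ ^ 2) (fun χ => by
    simp only [hconj]) hsodd
  refine ⟨χ, h1, c χ, ?_, hc3 χ⟩
  exact Nat.Odd.of_mul_left (by rwa [sq] at h2)

/-- The stabilizer in the action on real characters. -/
theorem stabilizer_rirr (K : Subgroup G) [hK : K.Normal] (θ : RIrr K) :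
    MulAction.stabilizer G θ = stab K ((θ.1 : IrrCharacter K) : K → ℂ) := by
  ext g
  rw [MulAction.mem_stabilizer_iff, ← Subgroup.inv_mem_iff (x := g)]
  constructor
  · intro h
    rw [mem_stab']
    intro n
    have h1 : irrSmul g θ.1 = θ.1 := by
      rw [← coe_smul_rirr, h]
    have h2 := congrFun (congrArg Subtype.val h1) n
    exact h2
  · intro h
    rw [mem_stab'] at h
    apply Subtype.ext
    rw [coe_smul_rirr]
    apply Subtype.ext
    funext n
    exact h n

/-- Orbits on real characters of a normal subgroup of odd index have size prime to `p`. -/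
theorem not_dvd_stabilizer_rirr [Finite G] {p : ℕ} (hreal : RealPrime p G) (K : Subgroup G)
    [hK : K.Normal] (hodd : Odd K.index) (θ : RIrr K) :
    ¬ p ∣ (MulAction.stabilizer G θ).index := by
  classical
  have hGf := Fintype.ofFinite G
  have hKf := Fintype.ofFinite K
  obtain ⟨χ, h1, e, he1, he2⟩ := exists_real_over_odd K hodd θ.1.2 θ.2
  have he0 : e ≠ 0 := by
    rintro rfl
    exact Nat.not_odd_zero he1
  obtain ⟨h2, -⟩ := degree_formula_nat K θ.1.2 χ.2 he0 he2
  rw [stabilizer_rirr]
  intro h3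
  apply hreal χ h1
  rw [h2, mul_assoc]
  exact h3.mul_right _

/-- Orbits on real classes of a normal subgroup of odd index have size prime to `p`. -/
theorem not_dvd_stabilizer_rcl [Finite G] {p : ℕ} [hp : Fact p.Prime]
    (hs : Group.IsSolvable (pGen p G)) (hreal : RealPrime p G) (K : Subgroup G)
    [hK : K.Normal] (hodd : Odd K.index) (C : RCl K) :
    ¬ p ∣ (MulAction.stabilizer G C).index := by
  refine orbits_prime hs _ K hK rfl (RIrr K) (RCl K) ?_ ?_ (card_fixedBy_eq hodd)
    (not_dvd_stabilizer_rirr hreal K hodd) C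
  · intro b hb θ
    apply Subtype.ext
    rw [coe_smul_rirr, irrSmul_of_mem hb]
  · intro b hb C
    apply Subtype.ext
    rw [coe_smul_rcl, clSmul_of_mem hb]

/-- `pGen p G` has index prime to `p`. -/
theorem not_dvd_index_pGen [Finite G] {p : ℕ} [hp : Fact p.Prime] : ¬ p ∣ (pGen p G).index := by
  have hn : (pGen p G).Normal := pGen_normal p
  have h1 : ¬ p ∣ (pGen p G).relIndex ⊤ := not_dvd_relIndex inf_le_left
  rwa [Subgroup.relIndex_top_right] at h1

theorem odd_index_pGen [Finite G] : Odd (pGen 2 G).index := by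
  rw [← Nat.not_even_iff_odd, even_iff_two_dvd]
  have : Fact (Nat.Prime 2) := ⟨Nat.prime_two⟩
  exact not_dvd_index_pGen

/-- A real element is inverted by an element of 2-power order. -/
theorem exists_two_element [Finite G] {x : G} (hx : IsConj x x⁻¹) :
    ∃ z : G, (∃ k, orderOf z = 2 ^ k) ∧ z * x * z⁻¹ = x⁻¹ := by
  obtain ⟨y, hy⟩ := isConj_iff.1 hx
  have hy0 : orderOf y ≠ 0 := (orderOf_pos y).ne'
  set a := (orderOf y).factorization 2 with ha
  set m := orderOf y / 2 ^ a with hm
  have hmul : 2 ^ a * m = orderOf y := Nat.ordProj_mul_ordCompl_eq_self _ _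
  have hmodd : Odd m := by
    rw [← Nat.not_even_iff_odd, even_iff_two_dvd]
    exact Nat.not_dvd_ordCompl Nat.prime_two hy0
  refine ⟨y ^ m, ?_, ?_⟩
  · have h3 : (y ^ m) ^ (2 ^ a) = 1 := by
      rw [← pow_mul, mul_comm, hmul, pow_orderOf_eq_one]
    obtain ⟨i, -, hi⟩ := (Nat.dvd_prime_pow Nat.prime_two).1 (orderOf_dvd_of_pow_eq_one h3)
    exact ⟨i, hi⟩
  · have hinv : y * x⁻¹ * y⁻¹ = x := by
      have := congrArg (·⁻¹) hy
      simpa [mul_assoc] using this
    have key : ∀ n : ℕ, y ^ (2 * n) * x * (y ^ (2 * n))⁻¹ = x := by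
      intro n
      induction n with
      | zero => simp
      | succ n ihn =>
        have h1 : y ^ (2 * (n + 1)) = y * y * y ^ (2 * n) := by
          rw [mul_add, pow_add, mul_one, sq, (Commute.self_pow y (2 * n)).symm.mul_right
            ((Commute.self_pow y (2 * n)).symm) |>.eq]
        rw [h1]
        calc y * y * y ^ (2 * n) * x * (y * y * y ^ (2 * n))⁻¹
            = y * (y * (y ^ (2 * n) * x * (y ^ (2 * n))⁻¹) * y⁻¹) * y⁻¹ := by group
          _ = x := by rw [ihn, hy, hinv]
    obtain ⟨n, hn⟩ := hmodd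
    rw [hn, pow_succ']
    calc y * y ^ (2 * n) * x * (y * y ^ (2 * n))⁻¹
        = y * (y ^ (2 * n) * x * (y ^ (2 * n))⁻¹) * y⁻¹ := by group
      _ = x⁻¹ := by rw [key, hy]

/-- Real elements lie in `pGen 2 G` and are real there. -/
theorem mem_of_real [Finite G] {x : G} (hx : IsConj x x⁻¹) :
    x ∈ pGen 2 G ∧ ∃ z ∈ pGen 2 G, z * x * z⁻¹ = x⁻¹ := by
  obtain ⟨z, ⟨k, hk⟩, hz⟩ := exists_two_element hx
  have hzK : z ∈ pGen 2 G := mem_pGen hk
  have hKn : (pGen 2 G).Normal := pGen_normal 2
  refine ⟨?_, z, hzK, hz⟩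
  have h1 : x⁻¹ * x⁻¹ ∈ pGen 2 G := by
    nth_rewrite 1 [← hz]
    have h2 : z * x * z⁻¹ * x⁻¹ = z * (x * z⁻¹ * x⁻¹) := by group
    rw [h2]
    exact (pGen 2 G).mul_mem hzK (hKn.conj_mem _ ((pGen 2 G).inv_mem hzK) x)
  have h3 : x * x ∈ pGen 2 G := by
    have := (pGen 2 G).inv_mem h1
    simpa using this
  obtain ⟨n, hn⟩ := (odd_index_pGen (G := G))
  have h4 := Subgroup.pow_index_mem (pGen 2 G) x
  rw [hn, pow_succ, pow_mul, sq] at h4
  exact (Subgroup.mul_mem_cancel_left _ (Subgroup.pow_mem _ h3 n)).1 h4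

end Cfsg.Agent.H692.RealOdd
end

-- part: H692/CjFix
section
/-!
# Classes stable under a `p`-group
-/

set_option autoImplicit false

namespace Cfsg.Agent.H692.CjFix

universe u
variable {G : Type u} [Group G]

/-- The quotient with the action by conjugation. -/
def Cj (Q : Subgroup G) : Type u := G ⧸ Q

/-- The class of an element. -/
def mk (Q : Subgroup G) (g : G) : Cj Q := (g : G ⧸ Q)

theorem mk_eq_mk {Q : Subgroup G} {g h : G} : mk Q g = mk Q h ↔ g⁻¹ * h ∈ Q :=
  QuotientGroup.eq

instance (Q : Subgroup G) [Q.Normal] : Group (Cj Q) := inferInstanceAs (Group (G ⧸ Q))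

instance (Q : Subgroup G) [Q.Normal] : MulAction G (Cj Q) where
  smul g c := mk Q g * c * (mk Q g)⁻¹
  one_smul c := by
    show mk Q 1 * c * (mk Q 1)⁻¹ = c
    have : mk Q (1 : G) = 1 := rfl
    rw [this]
    simp
  mul_smul a b c := by
    show mk Q (a * b) * c * (mk Q (a * b))⁻¹ = mk Q a * (mk Q b * c * (mk Q b)⁻¹) * (mk Q a)⁻¹
    have : mk Q (a * b) = mk Q a * mk Q b := rfl
    rw [this]
    group

theorem smul_mk (Q : Subgroup G) [Q.Normal] (g h : G) : g • mk Q h = mk Q (g * h * g⁻¹) := rfl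

instance (Q : Subgroup G) [Finite G] : Finite (Cj Q) := inferInstanceAs (Finite (G ⧸ Q))

/-- If `P` is a `p`-group, `K / Q` has order prime to `p`, and the `K`-class of `x` is stable under
`P`, then some `K`-conjugate of `x` is centralized by `P` modulo `Q`. -/
theorem exists_fixed [Finite G] {p : ℕ} [hp : Fact p.Prime] (K Q P : Subgroup G) [hK : K.Normal]
    [hQ : Q.Normal] (hidx : ¬ p ∣ Q.relIndex K) (hP : IsPGroup p P) {x : G}
    (hstab : ∀ u ∈ P, ∃ k ∈ K, u * x * u⁻¹ = k * x * k⁻¹) :
    ∃ k ∈ K, ∀ u ∈ P, (k * x * k⁻¹) ⁻¹ * (u * (k * x * k⁻¹) * u⁻¹) ∈ Q := by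
  classical
  set Ω : Set (Cj Q) := MulAction.orbit K (mk Q x) with hΩ
  have hmem : ∀ c : Cj Q, c ∈ Ω ↔ ∃ k ∈ K, mk Q (k * x * k⁻¹) = c := by
    intro c
    rw [hΩ, MulAction.mem_orbit_iff]
    constructor
    · rintro ⟨k, hk⟩
      exact ⟨k, k.2, hk⟩
    · rintro ⟨k, hk, h⟩
      exact ⟨⟨k, hk⟩, h⟩
  have hclosed : ∀ u : P, ∀ c ∈ Ω, (u : G) • c ∈ Ω := by
    intro u c hc
    obtain ⟨k, hk, rfl⟩ := (hmem c).1 hc
    obtain ⟨k', hk', h⟩ := hstab u u.2
    rw [hmem]
    refine ⟨(u * k * (u : G)⁻¹) * k', K.mul_mem (hK.conj_mem k hk u) hk', ?_⟩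
    rw [smul_mk]
    congr 1
    calc (u : G) * k * (u : G)⁻¹ * k' * x * ((u : G) * k * (u : G)⁻¹ * k')⁻¹
        = (u : G) * k * (u : G)⁻¹ * (k' * x * k'⁻¹) * ((u : G) * k * (u : G)⁻¹)⁻¹ := by group
      _ = (u : G) * k * (u : G)⁻¹ * ((u : G) * x * (u : G)⁻¹) * ((u : G) * k * (u : G)⁻¹)⁻¹ := by
          rw [h]
      _ = (u : G) * (k * x * k⁻¹) * (u : G)⁻¹ := by group
  let _ : MulAction P Ω :=
    { smul := fun u c => ⟨(u : G) • c.1, hclosed u c.1 c.2⟩
      one_smul := fun c => Subtype.ext (one_smul G c.1)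
      mul_smul := fun a b c => Subtype.ext (mul_smul (a : G) (b : G) c.1) }
  have hcard : ¬ p ∣ Nat.card Ω := by
    have h1 := MulAction.index_stabilizer K (mk Q x)
    rw [Nat.card_coe_set_eq, hΩ, ← h1]
    intro hd
    apply hidx
    refine hd.trans ?_
    have h2 : Q.subgroupOf K ≤ MulAction.stabilizer K (mk Q x) := by
      intro k hk
      rw [Subgroup.mem_subgroupOf] at hk
      rw [MulAction.mem_stabilizer_iff]
      show mk Q ((k : G) * x * (k : G)⁻¹) = mk Q x
      rw [mk_eq_mk]
      have h3 : ((k : G) * x * (k : G)⁻¹)⁻¹ * x = (k : G) * (x⁻¹ * (k : G)⁻¹ * x⁻¹⁻¹) := by group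
      rw [h3]
      exact Q.mul_mem hk (hQ.conj_mem _ (Q.inv_mem hk) x⁻¹)
    exact Subgroup.index_dvd_of_le h2
  obtain ⟨c, hc⟩ := hP.nonempty_fixed_point_of_prime_not_dvd_card Ω hcard
  obtain ⟨k, hk, h⟩ := (hmem c.1).1 c.2
  refine ⟨k, hk, fun u hu => ?_⟩
  have h4 := congrArg Subtype.val (hc ⟨u, hu⟩)
  have h5 : u • c.1 = c.1 := h4
  rw [← h, smul_mk] at h5
  exact mk_eq_mk.1 h5.symm

/-- A subgroup of index prime to `p` contains a conjugate of every `p`-subgroup. -/
theorem exists_conj_le [Finite G] {p : ℕ} [hp : Fact p.Prime] (S P : Subgroup G)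
    (hP : IsPGroup p P) (hS : ¬ p ∣ S.index) : ∃ g : G, ∀ u ∈ P, g⁻¹ * u * g ∈ S := by
  obtain ⟨c, hc⟩ := hP.nonempty_fixed_point_of_prime_not_dvd_card (G ⧸ S) (by
    rwa [Subgroup.index] at hS)
  obtain ⟨g, rfl⟩ := QuotientGroup.mk_surjective c
  refine ⟨g, fun u hu => ?_⟩
  have h1 := hc ⟨u, hu⟩
  have h2 : ((u * g : G) : G ⧸ S) = (g : G ⧸ S) := h1
  rw [eq_comm, QuotientGroup.eq] at h2
  rwa [mul_assoc]

end Cfsg.Agent.H692.CjFix
end

-- part: S4864
section
set_option autoImplicit false
open Cfsg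

namespace Cfsg.Agent.S4864

open Cfsg.Agent.H692.RealAct Cfsg.Agent.H692.NSyl
open Cfsg.Agent.H692.NormalSylow Cfsg.Agent.H692.RealOdd

/-- Let p be a prime and G a finite group such that the subgroup generated by the p-elements of G is solvable and every real-valued irreducible complex character of G has degree prime to p. Then the normalizer of a Sylow p-subgroup of G contains an element of every real conjugacy class of G: every element conjugate to its inverse is conjugate to an element of that normalizer. -/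
theorem result {G : Type*} [Group G] [Finite G] (p : ℕ) [Fact p.Prime] (hsolv : Group.IsSolvable ↥(Subgroup.closure {g : G | ∃ k : ℕ, orderOf g = p ^ k})) (hreal : ∀ χ : Cfsg.IrrCharacter G, (∀ g : G, ((χ : G → ℂ) g).im = 0) → ¬ p ∣ Cfsg.charDegree (χ : G → ℂ)) (P : Sylow p G) (x : G) (hx : IsConj x x⁻¹) : ∃ y ∈ Subgroup.normalizer ((P : Subgroup G) : Set G), IsConj x y := by
  classical
  have hp1 : p.Prime := Fact.out
  have hK : (pGen 2 G).Normal := pGen_normal 2
  set K := pGen 2 G with hKdef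
  have hodd : Odd K.index := odd_index_pGen
  obtain ⟨Q, hQ1, hQ2, hQ3, hQ4⟩ := hasNSyl_two p (Nat.card G) G rfl hsolv hreal
  obtain ⟨hxK, z, hzK, hz⟩ := mem_of_real hx
  -- the class of `x` in `K`
  let x0 : K := ⟨x, hxK⟩
  have hx0 : ∀ k : K, ConjClasses.mk k = ConjClasses.mk x0 → IsConj k k⁻¹ := by
    intro k hk
    have h1 : IsConj x0 x0⁻¹ := isConj_iff.2 ⟨⟨z, hzK⟩, Subtype.ext hz⟩
    have h2 : IsConj k x0 := ConjClasses.mk_eq_mk_iff_isConj.1 hk
    obtain ⟨c, hc⟩ := isConj_iff.1 h2
    have h3 : IsConj k⁻¹ x0⁻¹ := isConj_iff.2 ⟨c, by rw [← hc]; group⟩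
    exact (h2.trans h1).trans h3.symm
  let C : RCl K := ⟨ConjClasses.mk x0, hx0⟩
  have hC := not_dvd_stabilizer_rcl (p := p) hsolv hreal K hodd C
  obtain ⟨g, hg⟩ := Cfsg.Agent.H692.CjFix.exists_conj_le (MulAction.stabilizer G C)
    (P : Subgroup G) P.2 hC
  -- the conjugate `g x g⁻¹`
  have hstab : ∀ u ∈ (P : Subgroup G), ∃ k ∈ K, u * (g * x * g⁻¹) * u⁻¹ =
      k * (g * x * g⁻¹) * k⁻¹ := by
    intro u hu
    have h0 : (g⁻¹ * u * g) • C = C := MulAction.mem_stabilizer_iff.1 (hg u hu)
    have h1 : clSmul (g⁻¹ * u * g) C.1 = C.1 := by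
      rw [← coe_smul_rcl, h0]
    have h2 : ConjClasses.mk (MulAut.conjNormal (g⁻¹ * u * g) x0) = ConjClasses.mk x0 := h1
    obtain ⟨c, hc⟩ := isConj_iff.1 (ConjClasses.mk_eq_mk_iff_isConj.1 h2).symm
    have h3 := congrArg Subtype.val hc
    rw [MulAut.conjNormal_apply] at h3
    have h4 : (c : G) * x * (c : G)⁻¹ = g⁻¹ * u * g * x * (g⁻¹ * u * g)⁻¹ := h3
    refine ⟨g * c * g⁻¹, hK.conj_mem c c.2 g, ?_⟩
    calc u * (g * x * g⁻¹) * u⁻¹ = g * (g⁻¹ * u * g * x * (g⁻¹ * u * g)⁻¹) * g⁻¹ := by group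
      _ = g * ((c : G) * x * (c : G)⁻¹) * g⁻¹ := by rw [h4]
      _ = g * c * g⁻¹ * (g * x * g⁻¹) * (g * c * g⁻¹)⁻¹ := by group
  obtain ⟨k, hk, hfix⟩ := Cfsg.Agent.H692.CjFix.exists_fixed K Q (P : Subgroup G) hQ4 P.2 hstab
  -- `Q ≤ P`
  have hQP : Q ≤ (P : Subgroup G) := by
    have h1 : IsPGroup p (Q ⊔ (P : Subgroup G) : Subgroup G) := hQ2.to_sup_of_normal_left P.2
    have h2 := P.3 h1 le_sup_right
    rw [← h2]
    exact le_sup_left
  set y := k * (g * x * g⁻¹) * k⁻¹ with hy
  refine ⟨y, ?_, ?_⟩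
  · -- `y` normalizes `P`
    have hmem : ∀ u ∈ (P : Subgroup G), y⁻¹ * u * y ∈ (P : Subgroup G) := by
      intro u hu
      have h1 : y⁻¹ * (u * y * u⁻¹) ∈ (P : Subgroup G) := hQP (hfix u hu)
      have h2 : y⁻¹ * u * y = y⁻¹ * (u * y * u⁻¹) * u := by group
      rw [h2]
      exact (P : Subgroup G).mul_mem h1 hu
    have hle : ((P : Subgroup G).map (MulAut.conj y⁻¹).toMonoidHom) ≤ (P : Subgroup G) := by
      rintro _ ⟨u, hu, rfl⟩
      have := hmem u hu
      simpa using this
    have heq : ((P : Subgroup G).map (MulAut.conj y⁻¹).toMonoidHom) = (P : Subgroup G) := by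
      apply Subgroup.eq_of_le_of_card_ge hle
      rw [Subgroup.card_map_of_injective (MulAut.conj y⁻¹).injective]
    rw [Subgroup.mem_normalizer_iff]
    intro u
    constructor
    · intro hu
      rw [← heq] at hu
      obtain ⟨v, hv, hv2⟩ := hu
      have h3 : y⁻¹ * v * y = u := by simpa using hv2
      rw [← h3]
      have h4 : y * (y⁻¹ * v * y) * y⁻¹ = v := by group
      rw [h4]
      exact hv
    · intro hu
      have := hmem _ hu
      have h4 : y⁻¹ * (y * u * y⁻¹) * y = u := by group
      rwa [h4] at this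
  · rw [hy]
    exact isConj_iff.2 ⟨k * g, by group⟩

end Cfsg.Agent.S4864
end
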