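import Mathlib
import Cfsg.Prelude.Def_Blocks
import Cfsg.Agent.Characters.Core
import Cfsg.Agent.OddOrderCharacters.PF9.CliffGen
import Cfsg.Agent.H693.Defl
import Cfsg.Agent.Characters.Linear
import Cfsg.Agent.Characters.Ito
import Cfsg.Agent.Blocks.Deflate
import Cfsg.Agent.Blocks.ReynoldsAux
import Cfsg.Agent.PLocal.ZJ
import Cfsg.Agent.S4444
import Cfsg.Agent.H692.RealAct
import Cfsg.Agent.CharDeep.TransferExt
import Cfsg.Agent.H596.WeightedFix
import Cfsg.Agent.S0887
import Cfsg.Agent.H692.RealOver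
import Cfsg.Agent.H696.OddIndex
import Cfsg.Statements.S4865
set_option linter.all false

-- part: H693/RealOver
section
/-!
# Real characters over real characters of a normal subgroup of odd index

* `exists_real_over` : over a real irreducible character of a normal subgroup of odd index lies a
  real irreducible character, with odd multiplicity.
* `exists_conj_invariant` : the constituents of the restriction to a normal subgroup of a character
  of degree prime to `p` are conjugate to `P`-invariant ones, `P` a Sylow `p`-subgroup.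
-/

set_option autoImplicit false

namespace Cfsg.Agent.H693.RealOver

open Cfsg Cfsg.Agent.Characters.Core Cfsg.Agent.H693.RealD
  Cfsg.Agent.OddOrderCharacters.PF9.CliffGen Cfsg.Agent.OddOrderCharacters.IndRes
  Cfsg.Agent.OddOrderCharacters.NormalInduced
open scoped ComplexConjugate

universe u

variable {G : Type u} [Group G]

/-- The index of the inertia group of a character of a normal subgroup of odd index is odd, and so
is the square norm of the induced character. -/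
theorem norm_indFun_odd [Fintype G] (K : Subgroup G) [hK : K.Normal] (hodd : Odd K.index)
    {θ : K → ℂ} (hθ : IsIrrCharacter K θ) :
    ∃ n : ℕ, Odd n ∧ classInner (indFun K θ) (indFun K θ) = n := by
  classical
  have := Fintype.ofFinite K
  have hKT : K ≤ inertia K θ := le_inertia (isIrr_isClassFunction hθ)
  refine ⟨K.relIndex (inertia K θ), ?_, ?_⟩
  · exact hodd.of_dvd_nat (Subgroup.relIndex_dvd_index_of_le hKT)
  · rw [classInner_indFun_self K hθ]
    have h1 : Nat.card {g : G // conjFn K θ g = θ} = Nat.card (inertia K θ) := rfl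
    have h2 := Subgroup.relIndex_mul_relIndex ⊥ K (inertia K θ) bot_le hKT
    rw [Subgroup.relIndex_bot_left, Subgroup.relIndex_bot_left] at h2
    rw [h1, ← h2, Nat.cast_mul, ← mul_assoc, inv_mul_cancel₀, one_mul]
    exact card_ne_zero_complex

/-- **Real characters over real characters.** -/
theorem exists_real_over [Fintype G] (K : Subgroup G) [hK : K.Normal] (hodd : Odd K.index)
    {θ : K → ℂ} (hθ : IsIrrCharacter K θ) (hr : ∀ k, (θ k).im = 0) :
    ∃ χ : G → ℂ, IsIrrCharacter G χ ∧ (∀ g, (χ g).im = 0) ∧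
      ∃ m : ℕ, Odd m ∧ classInner (indFun K θ) χ = m := by
  classical
  have hfin := finite_irr (G := G)
  have := Fintype.ofFinite (IrrCharacter G)
  have hf : IsCharacter G (indFun K θ) := isCharacter_indFun K (isIrr_isCharacter hθ)
  obtain ⟨m, hm⟩ := isCharacter_iff.1 hf
  have hmi : ∀ χ : IrrCharacter G, classInner (indFun K θ) (χ : G → ℂ) = m χ := by
    intro χ
    conv_lhs => rw [hm]
    exact classInner_sum_nsmul_irr m χ
  have hfreal : (fun g => conj (indFun K θ g)) = indFun K θ := by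
    funext g
    rw [indFun_apply, map_mul, map_inv₀, Complex.conj_natCast, map_sum]
    congr 1
    refine Finset.sum_congr rfl fun x _ => ?_
    by_cases hx : x⁻¹ * g * x ∈ K
    · rw [extendByZero_of_mem _ _ hx, Complex.conj_eq_iff_im]
      exact hr _
    · rw [extendByZero_of_notMem _ _ hx, map_zero]
  -- complex conjugation
  let c : IrrCharacter G → IrrCharacter G := fun χ => ⟨fun g => conj ((χ : G → ℂ) g), isIrr_conj χ.2⟩
  have hcc : ∀ χ, c (c χ) = χ := by
    intro χ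
    apply Subtype.ext
    funext g
    simp [c]
  have hmc : ∀ χ, m (c χ) = m χ := by
    intro χ
    have h1 : classInner (indFun K θ) (c χ : G → ℂ) = conj (classInner (indFun K θ) (χ : G → ℂ)) := by
      rw [classInner_def, classInner_def, map_mul, map_inv₀, Complex.conj_natCast, map_sum]
      congr 1
      refine Finset.sum_congr rfl fun g _ => ?_
      rw [map_mul, congrFun hfreal g]
    rw [hmi, hmi, Complex.conj_natCast] at h1
    exact_mod_cast h1
  obtain ⟨n, hn, hnn⟩ := norm_indFun_odd K hodd hθ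
  have hsum : n = ∑ χ : IrrCharacter G, m χ ^ 2 := by
    have h1 : classInner (indFun K θ) (indFun K θ) = ((∑ χ : IrrCharacter G, m χ ^ 2 : ℕ) : ℂ) := by
      conv_lhs => rw [hm]
      rw [classInner_sum_left]
      push_cast
      refine Finset.sum_congr rfl fun χ _ => ?_
      rw [← hm]
      have h2 : classInner (m χ • (χ : G → ℂ)) (indFun K θ) = (m χ : ℂ) * m χ := by
        have h3 : (m χ • (χ : G → ℂ)) = ((m χ : ℂ) • (χ : G → ℂ)) := by
          funext g; simp
        rw [h3, classInner_smul_left, ← classInner_conj_symm, hmi, Complex.conj_natCast]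
      rw [h2, pow_two]
    rw [hnn] at h1
    exact_mod_cast h1
  by_contra hcon
  push Not at hcon
  have hz : ∑ χ : IrrCharacter G, ((m χ : ZMod 2)) ^ 2 = 0 := by
    refine Finset.sum_involution (fun χ _ => c χ) ?_ ?_ (fun _ _ => Finset.mem_univ _) ?_
    · intro χ _
      rw [hmc]
      exact CharTwo.add_self_eq_zero _
    · intro χ _ h0 hcχ
      have hmodd : Odd (m χ) := by
        by_contra he
        apply h0
        rw [Nat.not_odd_iff_even] at he
        have : ((m χ : ℕ) : ZMod 2) = 0 := (ZMod.natCast_eq_zero_iff_even).2 he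
        rw [this]; simp
      refine hcon χ χ.2 ?_ (m χ) hmodd (hmi χ)
      intro g
      rw [← Complex.conj_eq_iff_im]
      exact congrFun (congrArg Subtype.val hcχ) g
    · intro χ _
      exact hcc χ
  have h3 : ((n : ℕ) : ZMod 2) = 0 := by
    rw [hsum]
    push_cast
    exact hz
  rw [ZMod.natCast_eq_zero_iff_even] at h3
  exact (Nat.not_even_iff_odd.2 hn) h3

/-- The same in terms of the restriction. -/
theorem exists_real_over' [Fintype G] (K : Subgroup G) [hK : K.Normal] [Fintype K]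
    (hodd : Odd K.index)
    {θ : K → ℂ} (hθ : IsIrrCharacter K θ) (hr : ∀ k, (θ k).im = 0) :
    ∃ χ : G → ℂ, IsIrrCharacter G χ ∧ (∀ g, (χ g).im = 0) ∧ classInner (res K χ) θ ≠ 0 := by
  classical
  obtain ⟨χ, hχ, hχr, m, hm, hmm⟩ := exists_real_over K hodd hθ hr
  refine ⟨χ, hχ, hχr, ?_⟩
  have h1 := classInner_indFun_left K θ (isIrr_isClassFunction hχ)
  have h2 : classInner θ (res K χ) = m := by
    rw [← hmm, h1]
  rw [← classInner_conj_symm, h2, Complex.conj_natCast]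
  have : m ≠ 0 := by
    rintro rfl
    exact absurd hm (by decide)
  exact_mod_cast this

/-- The degree of a character over `θ` is a multiple of the index of the inertia group. -/
theorem index_dvd_degree [Fintype G] (K : Subgroup G) [hK : K.Normal] [Fintype K] {θ : K → ℂ}
    (hθ : IsIrrCharacter K θ) {χ : G → ℂ} (hχ : IsIrrCharacter G χ)
    (h0 : classInner (res K χ) θ ≠ 0) : (inertia K θ).index ∣ charDegree χ := by
  classical
  have := Fintype.ofFinite (inertia K θ)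
  have hKT : K ≤ inertia K θ := le_inertia (isIrr_isClassFunction hθ)
  obtain ⟨ψ, hψ, -, hψχ⟩ := exists_ind hθ (fun g => mem_inertia) hKT hχ h0
  obtain ⟨d, -, hd⟩ := isIrr_apply_one hψ
  have h1 : χ 1 = (((inertia K θ).index * d : ℕ) : ℂ) := by
    rw [hψχ, indFun_apply_one, hd]
    push_cast
    rfl
  rw [charDegree_of_natCast h1]
  exact dvd_mul_right _ _

/-- Constituents of the restriction to a normal subgroup of a character of degree prime to `p` are
conjugate to `P`-invariant ones. -/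
theorem exists_conj_invariant [Fintype G] {p : ℕ} [hp : Fact p.Prime] {P : Subgroup G}
    (hP : IsPGroup p P) (K : Subgroup G) [hK : K.Normal] [Fintype K] {θ : K → ℂ}
    (hθ : IsIrrCharacter K θ) {χ : G → ℂ} (hχ : IsIrrCharacter G χ)
    (h0 : classInner (res K χ) θ ≠ 0) (hd : ¬ p ∣ charDegree χ) :
    ∃ g : G, ∀ x ∈ P, conjFn K (conjFn K θ g) x = conjFn K θ g := by
  classical
  have h1 : ¬ p ∣ (inertia K θ).index := fun h => hd (h.trans (index_dvd_degree K hθ hχ h0))
  have h2 : ¬ p ∣ Nat.card (G ⧸ inertia K θ) := h1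
  obtain ⟨q, hq⟩ := hP.nonempty_fixed_point_of_prime_not_dvd_card (G ⧸ inertia K θ) h2
  obtain ⟨g, rfl⟩ := QuotientGroup.mk_surjective q
  refine ⟨g⁻¹, fun x hx => ?_⟩
  have h3 := hq ⟨x, hx⟩
  have h4 : ((x * g : G) : G ⧸ inertia K θ) = (g : G ⧸ inertia K θ) := h3
  rw [eq_comm, QuotientGroup.eq] at h4
  have h5 : conjFn K θ (g⁻¹ * (x * g)) = θ := h4
  rw [← conjFn_mul]
  have h6 : g⁻¹ * x = (g⁻¹ * (x * g)) * g⁻¹ := by group
  rw [h6, conjFn_mul, h5]

end Cfsg.Agent.H693.RealOver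
end

-- part: H693/RealE
section
/-!
# Kernels of irreducible characters of degree prime to `p`; real characters over a
# complemented elementary abelian normal `2`-subgroup
-/

set_option autoImplicit false

namespace Cfsg.Agent.H693.RealE

open Cfsg Cfsg.Agent.Characters.Core Cfsg.Agent.H693.RealD
open scoped ComplexConjugate commutatorElement

variable {G : Type*} [Group G]

/-- Let `B` be a subgroup whose irreducible characters of degree prime to `p` are linear. Then a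
normal subgroup of `G` inside `[B, B]` lies in the kernel of every irreducible character of `G` of
degree prime to `p`. -/
theorem ker_of_not_dvd' [Finite G] {p : ℕ} {χ : G → ℂ} (hχ : IsIrrCharacter G χ)
    (hd : ¬ p ∣ charDegree χ) (B : Subgroup G)
    (hB : ∀ ψ : B → ℂ, IsIrrCharacter B ψ → ¬ p ∣ charDegree ψ → ψ 1 = 1)
    (M : Subgroup G) [M.Normal] (hMB : M ≤ ⁅B, B⁆) : ∀ n ∈ M, χ n = χ 1 := by
  classical
  have := Fintype.ofFinite G
  have := Fintype.ofFinite M
  have hfin := finite_irr (G := B)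
  have := Fintype.ofFinite (IrrCharacter B)
  have hMB' : M ≤ B := hMB.trans (Subgroup.commutator_le_self _)
  have hres : IsCharacter B (fun x : B => χ x) :=
    isCharacter_comp B.subtype (isIrr_isCharacter hχ)
  obtain ⟨m, hm⟩ := isCharacter_iff.1 hres
  have hsum : ∑ n : M, χ n ≠ 0 := by
    intro h0
    apply hd
    have key : ∀ ψ : IrrCharacter B, m ψ ≠ 0 → p ∣ charDegree (ψ : B → ℂ) := by
      intro ψ hψ
      by_contra hnd
      have h1 := Cfsg.Agent.Blocks.ReynoldsAux.sum_constituent_eq_zero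
        (Subgroup.inclusion hMB') m hm h0 ψ hψ
      obtain ⟨f, hf⟩ := Cfsg.Agent.Characters.Linear.exists_hom_of_isIrrCharacter ψ.2
        (hB ψ ψ.2 hnd)
      have h2 : ∀ x : M, (ψ : B → ℂ) (Subgroup.inclusion hMB' x) = 1 := by
        intro x
        have hx : f (Subgroup.inclusion hMB' x) = 1 := by
          have h3 : (Subgroup.inclusion hMB' x) ∈ commutator B := by
            have h4 : (commutator B).map B.subtype = ⁅B, B⁆ := by
              rw [commutator_def, Subgroup.map_commutator, ← MonoidHom.range_eq_map,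
                Subgroup.range_subtype]
            have h5 : (x : G) ∈ (commutator B).map B.subtype := by
              rw [h4]; exact hMB x.2
            obtain ⟨y, hy, hy'⟩ := h5
            have h6 : y = Subgroup.inclusion hMB' x := Subtype.ext hy'
            rwa [← h6]
          exact Abelianization.commutator_subset_ker f h3
        rw [hf]
        simp only [hx, Units.val_one]
      rw [Finset.sum_congr rfl fun x _ => h2 x, Finset.sum_const, nsmul_eq_mul, mul_one] at h1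
      have h3 : (Finset.univ : Finset M).card = 0 := by exact_mod_cast h1
      rw [Finset.card_univ] at h3
      exact Fintype.card_ne_zero h3
    choose! n hn using key
    have h1 : χ 1 = ((p * ∑ ψ : IrrCharacter B, m ψ * n ψ : ℕ) : ℂ) := by
      have h2 := congrFun hm 1
      simp only [Finset.sum_apply, Pi.smul_apply] at h2
      have h3 : χ ((1 : B) : G) = χ 1 := rfl
      rw [← h3, h2, Finset.mul_sum]
      push_cast
      refine Finset.sum_congr rfl fun ψ _ => ?_
      rcases eq_or_ne (m ψ) 0 with h0 | h0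
      · simp [h0]
      · rw [charDegree_eq (isIrr_isCharacter ψ.2), hn ψ h0, nsmul_eq_mul]
        push_cast
        ring
    rw [charDegree_of_natCast h1]
    exact ⟨_, rfl⟩
  obtain ⟨χ', hχ'⟩ := Cfsg.Agent.Blocks.Deflate.exists_deflation M χ hχ hsum
  intro n hn
  rw [hχ']
  simp only [Function.comp]
  rw [(QuotientGroup.eq_one_iff n).2 hn, QuotientGroup.mk_one]

/-- Claim D. `N` an abelian normal subgroup of `G` with `N ≤ [N, P]`, `P` a `p`-subgroup:
irreducible characters of degree prime to `p` are trivial on `N`. -/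
theorem ker_of_abelian [Finite G] {p : ℕ} [hp : Fact p.Prime] {χ : G → ℂ} (hχ : IsIrrCharacter G χ)
    (hd : ¬ p ∣ charDegree χ) {P : Subgroup G} (hP : IsPGroup p P) (N : Subgroup G) [hN : N.Normal]
    (hab : ∀ a ∈ N, ∀ b ∈ N, a * b = b * a) (hNP : N ≤ ⁅N, P⁆) : ∀ n ∈ N, χ n = χ 1 := by
  classical
  apply ker_of_not_dvd' hχ hd (P ⊔ N) _ N
    (hNP.trans (Subgroup.commutator_mono le_sup_right le_sup_left))
  intro ψ hψ hnd
  -- the degree divides `|P ⊔ N : N|`
  obtain ⟨n, ρ, hρ, rfl⟩ := hψ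
  have hN' : (N.subgroupOf (P ⊔ N)).Normal := hN.subgroupOf _
  have h1 := Cfsg.Agent.Characters.Ito.finrank_dvd_index ρ (N.subgroupOf (P ⊔ N)) (by
    rintro a ha b hb
    exact Subtype.ext (hab a ha b hb))
  have h2 : (N.subgroupOf (P ⊔ N)).index = N.relIndex P := by
    show N.relIndex (P ⊔ N) = N.relIndex P
    rw [Subgroup.relIndex_sup_right]
  have h3 : ρ.character 1 = ((Module.finrank ℂ (Fin n → ℂ) : ℕ) : ℂ) := Representation.char_one ρ
  rw [charDegree_of_natCast h3] at hnd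
  obtain ⟨k, hk⟩ := IsPGroup.iff_card.1 hP
  have h4 : Module.finrank ℂ (Fin n → ℂ) ∣ p ^ k := by
    rw [← hk]
    rw [h2] at h1
    exact h1.trans (Subgroup.relIndex_dvd_card _ _)
  rw [Nat.dvd_prime_pow hp.out] at h4
  obtain ⟨j, -, hj⟩ := h4
  rcases Nat.eq_zero_or_pos j with hj0 | hj0
  · rw [h3, hj, hj0]; simp
  · exfalso
    apply hnd
    rw [hj]
    exact dvd_pow_self p hj0.ne'

/-- A nontrivial element of an abelian subgroup is separated from `1` by a homomorphism. -/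
theorem exists_hom_ne_one [Finite G] (N : Subgroup G) (hab : ∀ a ∈ N, ∀ b ∈ N, a * b = b * a)
    {n : N} (hn : n ≠ 1) : ∃ f : N →* ℂˣ, f n ≠ 1 := by
  let _ : CommGroup N :=
    { (inferInstance : Group N) with
      mul_comm := fun a b => Subtype.ext (hab a a.2 b b.2) }
  have : NeZero ((Monoid.exponent N : ℕ) : ℂ) := ⟨by
    exact_mod_cast Monoid.exponent_ne_zero_of_finite⟩
  exact CommGroup.exists_apply_ne_one_of_hasEnoughRootsOfUnity N ℂ hn

open Cfsg.Agent.OddOrderCharacters.PF9.CliffGen Cfsg.Agent.OddOrderCharacters.IndRes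
  Cfsg.Agent.OddOrderCharacters.NormalInduced in
/-- Lemma E. A nontrivial normal elementary abelian `2`-subgroup with a complement does not lie in
the kernel of all real irreducible characters. -/
theorem exists_real_of_complement {G : Type*} [Group G] [Finite G] (N H : Subgroup G)
    [hN : N.Normal]
    (hab : ∀ a ∈ N, ∀ b ∈ N, a * b = b * a) (h2 : ∀ a ∈ N, a ^ 2 = 1) (hN1 : N ≠ ⊥)
    (hNH : N ⊓ H = ⊥) (hNH' : N ⊔ H = ⊤) :
    ∃ χ : IrrCharacter G, (∀ g, ((χ : G → ℂ) g).im = 0) ∧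
      ∃ n ∈ N, (χ : G → ℂ) n ≠ (χ : G → ℂ) 1 := by
  classical
  have := Fintype.ofFinite G
  obtain ⟨n₀, hn₀⟩ : ∃ n : N, n ≠ 1 := by
    by_contra hcon
    push Not at hcon
    apply hN1
    rw [eq_bot_iff]
    intro x hx
    exact Subgroup.mem_bot.2 (congrArg Subtype.val (hcon ⟨x, hx⟩))
  obtain ⟨lam, hlam⟩ := exists_hom_ne_one N hab hn₀
  have hlam2 : ∀ n : N, (lam n : ℂ) = 1 ∨ (lam n : ℂ) = -1 := by
    intro n
    have h3 : n ^ 2 = 1 := Subtype.ext (h2 n n.2)
    have h4 : ((lam n : ℂˣ) : ℂ) ^ 2 = 1 := by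
      rw [← Units.val_pow_eq_pow_val, ← map_pow, h3, map_one, Units.val_one]
    rw [pow_two] at h4; exact mul_self_eq_one_iff.1 h4
  let θ : N → ℂ := fun n => (lam n : ℂ)
  have hθ : IsIrrCharacter N θ := Characters.Linear.isIrrCharacter_hom lam
  let T := inertia N θ
  have := Fintype.ofFinite N
  have := Fintype.ofFinite T
  have hNT : N ≤ T := le_inertia (isIrr_isClassFunction hθ)
  have hT : ∀ g, g ∈ T ↔ conjFn N θ g = θ := fun g => Iff.rfl
  obtain ⟨F, hF1, hF2⟩ := exists_extension (T := T) hNH hNH' hNT (lam := lam)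
    (fun g hg => (hT g).1 hg) 1
  have hirr := irr_twist (lam := lam) (F := F) hT hNT hF1 (ψ := 1) isIrr_one (fun _ => rfl)
  -- `F` is real
  have hFreal : ∀ t : T, (F t : ℂ) = 1 ∨ (F t : ℂ) = -1 := by
    intro t
    have h1 : (t : G) ∈ N ⊔ H := hNH' ▸ Subgroup.mem_top _
    obtain ⟨a, ha, b, hb, hab'⟩ := Subgroup.mem_sup_of_normal_left.1 h1
    have hbT : b ∈ T := by
      have : b = a⁻¹ * t := by rw [← hab']; group
      rw [this]
      exact T.mul_mem (T.inv_mem (hNT ha)) t.2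
    have h3 : t = ⟨a, hNT ha⟩ * ⟨b, hbT⟩ := Subtype.ext hab'.symm
    rw [h3, map_mul, hF1 ⟨a, ha⟩, hF2 ⟨b, hbT, hb⟩]
    simpa using hlam2 ⟨a, ha⟩
  set χ : G → ℂ := indFun T (fun t => (F t : ℂ) * (1 : T → ℂ) t) with hχdef
  have hχreal : ∀ g, (χ g).im = 0 := by
    intro g
    rw [hχdef, indFun_apply, ← Complex.conj_eq_iff_im, map_mul, map_inv₀, Complex.conj_natCast,
      map_sum]
    congr 1
    refine Finset.sum_congr rfl fun x _ => ?_
    by_cases hx : x⁻¹ * g * x ∈ T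
    · rw [extendByZero_of_mem _ _ hx]
      simp only [Pi.one_apply, mul_one]
      rcases hFreal ⟨x⁻¹ * g * x, hx⟩ with h | h <;> rw [h] <;> simp
    · rw [extendByZero_of_notMem _ _ hx, map_zero]
  refine ⟨⟨χ, hirr⟩, hχreal, ?_⟩
  by_contra hcon
  push Not at hcon
  apply hlam
  -- `F` is a constituent of the restriction of `χ` to `T`
  have hFirr : IsIrrCharacter T (fun t => (F t : ℂ) * (1 : T → ℂ) t) := by
    have : (fun t => (F t : ℂ) * (1 : T → ℂ) t) = fun t : T => (F t : ℂ) := by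
      funext t; simp
    rw [this]
    exact Characters.Linear.isIrrCharacter_hom F
  have h3 : classInner (res T χ) (fun t => (F t : ℂ) * (1 : T → ℂ) t) ≠ 0 := by
    have h4 := classInner_indFun_left T (fun t => (F t : ℂ) * (1 : T → ℂ) t)
      (isIrr_isClassFunction hirr)
    rw [classInner_irr_self hirr] at h4
    rw [← classInner_conj_symm, hχdef, ← h4]
    simp
  have h5 := constituent_ker (isCharacter_res T (isIrr_isCharacter hirr)) hFirr h3
    (y := ⟨n₀, hNT n₀.2⟩) (hcon n₀ n₀.2)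
  simp only [Pi.one_apply, mul_one, map_one, Units.val_one] at h5
  rw [hF1 n₀] at h5
  exact Units.ext h5

end Cfsg.Agent.H693.RealE
end

-- part: H693/GenBasic
section
/-!
# The subgroup generated by the `p`-elements

`gen p G` is the subgroup generated by the elements whose order is a power of `p`.
-/

set_option autoImplicit false

namespace Cfsg.Agent.H693.GenBasic

open scoped commutatorElement

variable {G H : Type*} [Group G] [Group H]

/-- The subgroup generated by the elements of `p`-power order. -/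
def gen (p : ℕ) (G : Type*) [Group G] : Subgroup G :=
  Subgroup.closure {g : G | ∃ k : ℕ, orderOf g = p ^ k}

theorem gen_def (p : ℕ) (G : Type*) [Group G] :
    gen p G = Subgroup.closure {g : G | ∃ k : ℕ, orderOf g = p ^ k} := rfl

theorem mem_gen_of_pow {p : ℕ} (hp : p.Prime) {g : G} {k : ℕ} (h : g ^ p ^ k = 1) :
    g ∈ gen p G := by
  apply Subgroup.subset_closure
  obtain ⟨j, -, hj⟩ := (Nat.dvd_prime_pow hp).1 (orderOf_dvd_of_pow_eq_one h)
  exact ⟨j, hj⟩

theorem gen_map [Finite G] {p : ℕ} (hp : p.Prime) {f : G →* H} (hf : Function.Surjective f) :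
    (gen p G).map f = gen p H := by
  apply le_antisymm
  · rw [gen_def, MonoidHom.map_closure, Subgroup.closure_le]
    rintro _ ⟨g, ⟨k, hk⟩, rfl⟩
    apply mem_gen_of_pow hp (k := k)
    rw [← map_pow, ← hk, pow_orderOf_eq_one, map_one]
  · rw [gen_def p H, Subgroup.closure_le]
    rintro h ⟨k, hk⟩
    obtain ⟨x, rfl⟩ := hf h
    obtain ⟨a, m, hm, hx⟩ := Nat.exists_eq_pow_mul_and_not_dvd (orderOf_pos x).ne' p hp.ne_one
    have h1 : f x ∈ Subgroup.zpowers (f x ^ m) := by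
      rw [mem_zpowers_pow_iff, hk]
      exact (Nat.Coprime.pow_left k ((Nat.Prime.coprime_iff_not_dvd hp).2 hm)).symm
    have h2 : f x ^ m ∈ (gen p G).map f := by
      rw [← map_pow]
      refine ⟨x ^ m, mem_gen_of_pow hp (k := a) ?_, rfl⟩
      rw [← pow_mul, mul_comm, ← hx, pow_orderOf_eq_one]
    exact (Subgroup.zpowers_le.2 h2) h1

theorem gen_normal [Finite G] {p : ℕ} (hp : p.Prime) : (gen p G).Normal := by
  refine ⟨fun n hn g => ?_⟩
  have h1 := gen_map hp (f := (MulAut.conj g : G ≃* G).toMonoidHom) (MulAut.conj g).surjective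
  rw [← h1]
  exact ⟨n, hn, rfl⟩

theorem le_gen {p : ℕ} (hp : p.Prime) {P : Subgroup G} (hP : IsPGroup p P) : P ≤ gen p G := by
  intro x hx
  obtain ⟨k, hk⟩ := hP ⟨x, hx⟩
  exact mem_gen_of_pow hp (k := k) (congrArg Subtype.val hk)

theorem isSolvable_gen [Finite G] {p : ℕ} (hp : p.Prime) {f : G →* H} (hf : Function.Surjective f)
    (hs : Group.IsSolvable (gen p G)) : Group.IsSolvable (gen p H) := by
  rw [← gen_map hp hf]
  exact Group.isSolvable_of_surjective (f := f.subgroupMap (gen p G)) (f.subgroupMap_surjective _)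

/-- `gen p (gen p G) = ⊤`. -/
theorem gen_gen {p : ℕ} : gen p (gen p G) = ⊤ := by
  rw [eq_top_iff]
  have h : (gen p G).map (MonoidHom.id G) ≤ (gen p (gen p G)).map (gen p G).subtype := by
    rw [Subgroup.map_id]
    conv_lhs => rw [gen_def]
    rw [Subgroup.closure_le]
    rintro g ⟨k, hk⟩
    have hg : g ∈ gen p G := Subgroup.subset_closure ⟨k, hk⟩
    refine ⟨⟨g, hg⟩, Subgroup.subset_closure ⟨k, ?_⟩, rfl⟩
    rw [← hk, ← Subgroup.orderOf_coe]
  rw [Subgroup.map_id] at h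
  intro x _
  obtain ⟨y, hy, hxy⟩ := h x.2
  have : y = x := Subtype.ext hxy
  rwa [← this]

/-- Modulo its derived group, every element of `gen p G` is a `p`-element. -/
theorem exists_pow_mem_commutator [Finite G] {p : ℕ} (hp : p.Prime) {x : G} (hx : x ∈ gen p G) :
    ∃ k : ℕ, x ^ p ^ k ∈ ⁅gen p G, gen p G⁆ := by
  have hN : (gen p G).Normal := gen_normal hp
  have hN' : (⁅gen p G, gen p G⁆).Normal := Subgroup.commutator_normal _ _
  have hcomm : ∀ x ∈ gen p G, ∀ y ∈ gen p G,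
      (x : G ⧸ ⁅gen p G, gen p G⁆) * (y : G ⧸ ⁅gen p G, gen p G⁆) =
      (y : G ⧸ ⁅gen p G, gen p G⁆) * (x : G ⧸ ⁅gen p G, gen p G⁆) := by
    intro x hx y hy
    rw [← QuotientGroup.mk_mul, ← QuotientGroup.mk_mul, QuotientGroup.eq]
    have h1 : (x * y)⁻¹ * (y * x) = ⁅y⁻¹, x⁻¹⁆ := by
      rw [commutatorElement_def]; group
    rw [h1]
    exact Subgroup.commutator_mem_commutator ((gen p G).inv_mem hy) ((gen p G).inv_mem hx)
  have key : ∀ x ∈ gen p G, ∃ k : ℕ, (x : G ⧸ ⁅gen p G, gen p G⁆) ^ p ^ k = 1 := by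
    intro x hx
    rw [gen_def] at hx
    induction hx using Subgroup.closure_induction with
    | mem x hx =>
      obtain ⟨k, hk⟩ := hx
      refine ⟨k, ?_⟩
      rw [← QuotientGroup.mk_pow, ← hk, pow_orderOf_eq_one, QuotientGroup.mk_one]
    | one => exact ⟨0, by simp⟩
    | mul x y hx hy hx' hy' =>
      obtain ⟨a, ha⟩ := hx'
      obtain ⟨b, hb⟩ := hy'
      refine ⟨a + b, ?_⟩
      have hc : Commute (x : G ⧸ ⁅gen p G, gen p G⁆) (y : G ⧸ ⁅gen p G, gen p G⁆) :=
        hcomm x hx y hy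
      rw [QuotientGroup.mk_mul, hc.mul_pow, pow_add, pow_mul, ha, one_pow, one_mul, mul_comm,
        pow_mul, hb, one_pow]
    | inv x hx hx' =>
      obtain ⟨a, ha⟩ := hx'
      refine ⟨a, ?_⟩
      rw [QuotientGroup.mk_inv, inv_pow, ha, inv_one]
  obtain ⟨k, hk⟩ := key x hx
  refine ⟨k, ?_⟩
  rw [← QuotientGroup.mk_pow] at hk
  exact (QuotientGroup.eq_one_iff _).1 hk

end Cfsg.Agent.H693.GenBasic
end

-- part: H693/ThmA
section
/-!
# Real characters of degree prime to `p` and normal Sylow subgroups (Isaacs–Navarro)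

`main` : `G` finite, the subgroup generated by the `p`-elements solvable, all real irreducible
characters of degree prime to `p`, `K` the subgroup generated by the `2`-elements, `U` normal in `G`
with `K ≤ U` and `|U : K|` a power of `p`.  Then `P ∩ U` is normal in `G` for every Sylow
`p`-subgroup `P` of `G`.
-/

set_option autoImplicit false

namespace Cfsg.Agent.H693.ThmA

open Cfsg Cfsg.Agent.Characters.Core Cfsg.Agent.H693.RealC Cfsg.Agent.H693.RealD
  Cfsg.Agent.H693.RealE Cfsg.Agent.H693.GenBasic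
open scoped ComplexConjugate commutatorElement

universe u

/-- The hypothesis: real irreducible characters have degree prime to `p`. -/
def RealPrime (p : ℕ) (G : Type u) [Group G] : Prop :=
  ∀ χ : IrrCharacter G, (∀ g, ((χ : G → ℂ) g).im = 0) → ¬ p ∣ charDegree (χ : G → ℂ)

theorem RealPrime.map {p : ℕ} {G : Type u} {H : Type u} [Group G] [Group H] (h : RealPrime p G)
    {f : G →* H} (hf : Function.Surjective f) : RealPrime p H := by
  intro χ hχ hd
  apply h ⟨(χ : H → ℂ) ∘ f, isIrr_comp f hf χ.2⟩ (fun g => hχ (f g))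
  have : charDegree ((χ : H → ℂ) ∘ f) = charDegree (χ : H → ℂ) := by
    unfold charDegree
    rw [Function.comp, map_one]
  rw [this]
  exact hd

section

variable {G : Type u} [Group G]

/-- Modular law for a normal subgroup. -/
theorem sup_inf_eq (P N U : Subgroup G) [N.Normal] (hN : N ≤ U) : (P ⊔ N) ⊓ U = (P ⊓ U) ⊔ N := by
  apply le_antisymm
  · rintro x ⟨hx1, hx2⟩
    obtain ⟨a, ha, b, hb, rfl⟩ := Subgroup.mem_sup_of_normal_right.1 hx1
    exact Subgroup.mul_mem_sup ⟨ha, by simpa using U.mul_mem hx2 (U.inv_mem (hN hb))⟩ hb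
  · exact sup_le (inf_le_inf_right U le_sup_left) (le_inf le_sup_right hN)

/-- The Frattini argument in the form used below. -/
theorem frattini [Finite G] {p : ℕ} [Fact p.Prime] (P : Sylow p G) (N K : Subgroup G)
    [hN : N.Normal] (hE : (((P : Subgroup G) ⊓ K) ⊔ N).Normal) (hNK : N ≤ K) :
    N ⊔ Subgroup.normalizer (((P : Subgroup G) ⊓ K : Subgroup G) : Set G) = ⊤ := by
  have hpg : IsPGroup p ((P : Subgroup G) ⊓ K : Subgroup G) := P.isPGroup'.to_le inf_le_left
  have h1 : N.relIndex (((P : Subgroup G) ⊓ K) ⊔ N) = N.relIndex ((P : Subgroup G) ⊓ K) :=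
    Subgroup.relIndex_sup_right _ _
  obtain ⟨k, hk⟩ := IsPGroup.iff_card.1 hpg
  have h2 : N.relIndex ((P : Subgroup G) ⊓ K) ∣ p ^ k := by
    rw [← hk]; exact Subgroup.relIndex_dvd_card _ _
  obtain ⟨j, -, hj⟩ := (Nat.dvd_prime_pow (Fact.out : p.Prime)).1 h2
  rw [← h1] at hj
  have h3 := Cfsg.Agent.PLocal.ZJ.frattini_sup P N _ hE hj
  have h4 : (((P : Subgroup G) ⊓ K) ⊔ N) ⊓ (P : Subgroup G) = (P : Subgroup G) ⊓ K := by
    apply le_antisymm
    · rintro x ⟨hx1, hx2⟩
      exact ⟨hx2, (sup_le inf_le_right hNK) hx1⟩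
    · exact le_inf le_sup_left inf_le_left
  rwa [h4] at h3

/-- If `N` normalizes `P ∩ K` and `(P ∩ K) N` is normal then `P ∩ K` is normal. -/
theorem normal_of_le_normalizer [Finite G] {p : ℕ} [Fact p.Prime] (P : Sylow p G)
    (N K : Subgroup G) [hN : N.Normal] (hE : (((P : Subgroup G) ⊓ K) ⊔ N).Normal) (hNK : N ≤ K)
    (h : N ≤ Subgroup.normalizer (((P : Subgroup G) ⊓ K : Subgroup G) : Set G)) :
    ((P : Subgroup G) ⊓ K).Normal := by
  have h1 := frattini P N K hE hNK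
  rw [sup_eq_right.2 h] at h1
  exact Subgroup.normalizer_eq_top_iff.1 h1

/-- Reduction modulo a normal subgroup. -/
theorem quot_step [Finite G] {p : ℕ} [Fact p.Prime] (P : Sylow p G) (N U : Subgroup G)
    [hN : N.Normal] (hNU : N ≤ U)
    (h : (((P.mapSurjective (QuotientGroup.mk'_surjective N) : Sylow p (G ⧸ N)) :
      Subgroup (G ⧸ N)) ⊓ U.map (QuotientGroup.mk' N)).Normal) :
    (((P : Subgroup G) ⊓ U) ⊔ N).Normal := by
  have h1 := h.comap (QuotientGroup.mk' N)
  have h2 : ((((P.mapSurjective (QuotientGroup.mk'_surjective N) : Sylow p (G ⧸ N)) :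
      Subgroup (G ⧸ N)) ⊓ U.map (QuotientGroup.mk' N)).comap (QuotientGroup.mk' N)) =
      ((P : Subgroup G) ⊓ U) ⊔ N := by
    rw [Subgroup.comap_inf, Sylow.coe_mapSurjective, Subgroup.comap_map_eq, Subgroup.comap_map_eq,
      QuotientGroup.ker_mk', sup_eq_left.2 hNU, sup_inf_eq _ _ _ hNU]
  rwa [h2] at h1

theorem centralizer_le_normalizer (P : Subgroup G) :
    Subgroup.centralizer (P : Set G) ≤ Subgroup.normalizer (P : Set G) := by
  intro x hx
  rw [Subgroup.mem_normalizer_iff]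
  rw [Subgroup.mem_centralizer_iff] at hx
  intro y
  constructor
  · intro hy
    have : x * y * x⁻¹ = y := by rw [← hx y hy]; group
    rwa [this]
  · intro hy
    have h1 := hx _ hy
    have : y = x * y * x⁻¹ := by
      have h2 : y * x = x * y := by
        have h3 : x⁻¹ * (x * y * x⁻¹ * x) * 1 = x⁻¹ * (x * (x * y * x⁻¹)) * 1 := by rw [h1]
        simpa [mul_assoc] using congrArg (fun z => z * x) (show y = x * y * x⁻¹ by
          simpa [mul_assoc] using h3)
      rw [← h2]; group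
    rwa [this]

/-- A minimal normal subgroup which is solvable is elementary abelian. -/
theorem minimal_abelian [Finite G] (N : Subgroup G) [hN : N.Normal] (hN1 : N ≠ ⊥)
    (hmin : ∀ M : Subgroup G, M.Normal → M ≤ N → M = ⊥ ∨ M = N) (hs : Group.IsSolvable N) :
    (∀ a ∈ N, ∀ b ∈ N, a * b = b * a) ∧ ∃ r : ℕ, r.Prime ∧ ∀ a ∈ N, a ^ r = 1 := by
  have hD : (⁅N, N⁆).Normal := Subgroup.commutator_normal N N
  have hDle : ⁅N, N⁆ ≤ N := Subgroup.commutator_le_self N
  have hD0 : ⁅N, N⁆ = ⊥ := by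
    rcases hmin _ hD hDle with h | h
    · exact h
    · exfalso
      have : Nontrivial N := (Subgroup.nontrivial_iff_ne_bot N).2 hN1
      have h1 := Group.IsSolvable.commutator_lt_top_of_nontrivial N
      have h2 : commutator N = ⊤ := by
        apply Subgroup.map_injective N.subtype_injective
        rw [commutator_def, Subgroup.map_commutator, ← MonoidHom.range_eq_map,
          Subgroup.range_subtype, h]
      exact h1.ne h2
  have hab : ∀ a ∈ N, ∀ b ∈ N, a * b = b * a := by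
    intro a ha b hb
    have h1 : ⁅a, b⁆ ∈ ⁅N, N⁆ := Subgroup.commutator_mem_commutator ha hb
    rw [hD0, Subgroup.mem_bot] at h1
    exact commutatorElement_eq_one_iff_mul_comm.1 h1
  refine ⟨hab, ?_⟩
  have hc1 : Nat.card N ≠ 1 := fun h => hN1 (Subgroup.card_eq_one.1 h)
  obtain ⟨r, hr, hrd⟩ := Nat.exists_prime_and_dvd hc1
  refine ⟨r, hr, ?_⟩
  have := Fact.mk hr
  obtain ⟨x, hx⟩ := exists_prime_orderOf_dvd_card' (G := N) r hrd
  let M : Subgroup G :=
    { carrier := {a | a ∈ N ∧ a ^ r = 1}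
      one_mem' := ⟨N.one_mem, one_pow r⟩
      mul_mem' := by
        rintro a b ⟨ha, ha'⟩ ⟨hb, hb'⟩
        refine ⟨N.mul_mem ha hb, ?_⟩
        have hc : Commute a b := hab a ha b hb
        rw [hc.mul_pow, ha', hb', one_mul]
      inv_mem' := by
        rintro a ⟨ha, ha'⟩
        exact ⟨N.inv_mem ha, by rw [inv_pow, ha', inv_one]⟩ }
  have hMn : M.Normal := by
    refine ⟨fun a ha g => ⟨hN.conj_mem a ha.1 g, ?_⟩⟩
    rw [conj_pow, ha.2]; group
  rcases hmin M hMn (fun a ha => ha.1) with h | h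
  · exfalso
    have h1 : (x : G) ∈ M := ⟨x.2, by
      rw [← hx]
      exact congrArg Subtype.val (pow_orderOf_eq_one x)⟩
    rw [h, Subgroup.mem_bot] at h1
    have h2 : x = 1 := Subtype.ext h1
    rw [h2, orderOf_one] at hx
    exact hr.one_lt.ne hx
  · intro a ha
    rw [← h] at ha
    exact ha.2

end

theorem main_aux (n : ℕ) : ∀ (G : Type u) [Group G] [Finite G], Nat.card G = n →
    ∀ (p : ℕ) [Fact p.Prime], Group.IsSolvable (gen p G) → RealPrime p G →
    ∀ U : Subgroup G, U.Normal → gen 2 G ≤ U → (∃ a, (gen 2 G).relIndex U = p ^ a) →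
    ∀ P : Sylow p G, ((P : Subgroup G) ⊓ U).Normal := by
  induction n using Nat.strong_induction_on with
  | _ n IH =>
  intro G _ _ hn p hp hsolv hreal U hU hKU hUp P
  set K := gen 2 G with hK
  have hKn : K.Normal := gen_normal Nat.prime_two
  have hLn : (gen p G).Normal := gen_normal hp.out
  set P0 : Subgroup G := (P : Subgroup G) ⊓ U with hP0
  have hP0p : IsPGroup p P0 := P.isPGroup'.to_le inf_le_left
  -- reduction modulo a nontrivial normal subgroup contained in `K`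
  have hquot : ∀ N : Subgroup G, N.Normal → N ≠ ⊥ → N ≤ K → (P0 ⊔ N).Normal := by
    intro N hN hN1 hNK
    apply quot_step P N U (hNK.trans hKU)
    have hsurj := QuotientGroup.mk'_surjective N
    have hlt : Nat.card (G ⧸ N) < n := by
      rw [← hn, Subgroup.card_eq_card_quotient_mul_card_subgroup N]
      have h1 : 1 < Nat.card N := by
        rw [Subgroup.one_lt_card_iff_ne_bot]
        exact hN1
      have h2 : 0 < Nat.card (G ⧸ N) := Nat.card_pos
      nlinarith
    refine IH _ hlt (G ⧸ N) rfl p (isSolvable_gen hp.out hsurj hsolv) (hreal.map hsurj)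
      (U.map (QuotientGroup.mk' N)) (hU.map _ hsurj) ?_ ?_ _
    · rw [← gen_map Nat.prime_two hsurj]
      exact Subgroup.map_mono hKU
    · obtain ⟨a, ha⟩ := hUp
      refine ⟨a, ?_⟩
      rw [← gen_map Nat.prime_two hsurj, Subgroup.relIndex_map_map, QuotientGroup.ker_mk',
        sup_eq_left.2 hNK, sup_eq_left.2 (hNK.trans hKU), ha]
  -- a nontrivial normal `p`-subgroup in `K` finishes
  have hpcase : ∀ N : Subgroup G, N.Normal → N ≠ ⊥ → N ≤ K → IsPGroup p N → P0.Normal := by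
    intro N hN hN1 hNK hNp
    have h1 := hquot N hN hN1 hNK
    have h2 : N ≤ P0 := by
      refine le_inf ?_ (hNK.trans hKU)
      obtain ⟨Q, hQ⟩ := hNp.exists_le_sylow
      obtain ⟨g, hg⟩ := MulAction.exists_smul_eq G Q P
      rw [← hg]
      intro x hx
      rw [Sylow.smul_def, Sylow.pointwise_smul_def, Subgroup.mem_pointwise_smul_iff_inv_smul_mem]
      apply hQ
      have := hN.conj_mem x hx g⁻¹
      simpa [MulAut.smul_def] using this
    rwa [sup_eq_left.2 h2] at h1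
  by_cases hK1 : K = ⊥
  · -- `U` is a `p`-group
    obtain ⟨a, ha⟩ := hUp
    rw [hK1, Subgroup.relIndex_bot_left] at ha
    have hUpg : IsPGroup p U := IsPGroup.of_card ha
    have h2 : U ≤ (P : Subgroup G) := by
      obtain ⟨Q, hQ⟩ := hUpg.exists_le_sylow
      obtain ⟨g, hg⟩ := MulAction.exists_smul_eq G Q P
      rw [← hg]
      intro x hx
      rw [Sylow.smul_def, Sylow.pointwise_smul_def, Subgroup.mem_pointwise_smul_iff_inv_smul_mem]
      apply hQ
      have := hU.conj_mem x hx g⁻¹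
      simpa [MulAut.smul_def] using this
    have : P0 = U := inf_eq_right.2 h2
    rw [this]
    exact hU
  -- a minimal normal subgroup `N` of `G` in `K`
  obtain ⟨N, ⟨hN, hN1, hNK⟩, hmin⟩ : ∃ N : Subgroup G, (N.Normal ∧ N ≠ ⊥ ∧ N ≤ K) ∧
      ∀ M : Subgroup G, (M.Normal ∧ M ≠ ⊥ ∧ M ≤ K) → M ≤ N → M = N := by
    obtain ⟨N, hN⟩ := Set.Finite.exists_minimal
      (s := {N : Subgroup G | N.Normal ∧ N ≠ ⊥ ∧ N ≤ K}) (Set.toFinite _) ⟨K, hKn, hK1, le_rfl⟩
    refine ⟨N, hN.prop, fun M hM hMN => le_antisymm hMN (hN.le_of_le hM hMN)⟩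
  have hmin' : ∀ M : Subgroup G, M.Normal → M ≤ N → M = ⊥ ∨ M = N := by
    intro M hM hMN
    by_cases h : M = ⊥
    · exact Or.inl h
    · exact Or.inr (hmin M ⟨hM, h, hMN.trans hNK⟩ hMN)
  have hNU : N ≤ U := hNK.trans hKU
  have hE := hquot N hN hN1 hNK
  by_cases hNp : IsPGroup p N
  · exact hpcase N hN hN1 hNK hNp
  -- it is enough that `N` normalizes `P0`
  by_contra hcon
  have hnot : ¬ N ≤ Subgroup.normalizer (P0 : Set G) := fun h =>
    hcon (normal_of_le_normalizer P N U hE hNU h)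
  have hnotc : ¬ N ≤ Subgroup.centralizer (P0 : Set G) := fun h =>
    hnot (h.trans (centralizer_le_normalizer P0))
  have hH : N ⊔ Subgroup.normalizer (P0 : Set G) = ⊤ := frattini P N U hE hNU
  -- `N` is solvable
  have hNL : N ≤ gen p G := by
    rcases hmin' (N ⊓ gen p G) inferInstance inf_le_left with h | h
    · exfalso
      apply hnotc
      have h1 : ⁅N, P0⁆ ≤ N ⊓ gen p G := by
        refine le_inf (Subgroup.commutator_le_left N P0) ?_
        exact (Subgroup.commutator_mono le_rfl (le_gen hp.out hP0p)).trans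
          (Subgroup.commutator_le_right N (gen p G))
      rw [h, le_bot_iff, Subgroup.commutator_eq_bot_iff_le_centralizer] at h1
      exact h1
    · exact inf_eq_left.1 h
  have hNs : Group.IsSolvable N := by
    have := Group.isSolvable_of_isSolvable_injective (f := Subgroup.inclusion hNL)
      (Subgroup.inclusion_injective hNL)
    exact this
  obtain ⟨hab, r, hr, hrN⟩ := minimal_abelian N hN1 hmin' hNs
  have hrp : r ≠ p := by
    rintro rfl
    apply hNp
    intro x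
    exact ⟨1, by rw [pow_one]; exact Subtype.ext (hrN x x.2)⟩
  -- `[N, P0] = N`
  have hnorm : ∀ M : Subgroup G, M ≤ N →
      (∀ h ∈ Subgroup.normalizer (P0 : Set G), ∀ m ∈ M, h * m * h⁻¹ ∈ M) → M.Normal := by
    intro M hMN hM
    refine ⟨fun m hm g => ?_⟩
    have hg : g ∈ N ⊔ Subgroup.normalizer (P0 : Set G) := hH ▸ Subgroup.mem_top g
    obtain ⟨a, ha, b, hb, rfl⟩ := Subgroup.mem_sup_of_normal_left.1 hg
    have h1 : a * b * m * (a * b)⁻¹ = a * (b * m * b⁻¹) * a⁻¹ := by group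
    have h2 := hM b hb m hm
    have h3 : a * (b * m * b⁻¹) * a⁻¹ = b * m * b⁻¹ := by
      rw [hab a ha _ (hMN h2)]; group
    rw [h1, h3]
    exact h2
  have hconjP : ∀ h ∈ Subgroup.normalizer (P0 : Set G), ∀ x ∈ P0, h * x * h⁻¹ ∈ P0 := by
    intro h hh x hx
    exact (Subgroup.mem_normalizer_iff.1 hh x).1 hx
  have hNP : N ≤ ⁅N, P0⁆ := by
    have h1 : (⁅N, P0⁆).Normal := by
      apply hnorm _ (Subgroup.commutator_le_left N P0)
      intro h hh m hm
      have h2 : (⁅N, P0⁆).map (MulAut.conj h).toMonoidHom ≤ ⁅N, P0⁆ := by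
        rw [Subgroup.map_commutator]
        apply Subgroup.commutator_mono
        · rintro _ ⟨x, hx, rfl⟩
          exact hN.conj_mem x hx h
        · rintro _ ⟨x, hx, rfl⟩
          exact hconjP h hh x hx
      exact h2 ⟨m, hm, rfl⟩
    rcases hmin' _ h1 (Subgroup.commutator_le_left N P0) with h | h
    · exfalso
      apply hnotc
      exact Subgroup.commutator_eq_bot_iff_le_centralizer.1 h
    · exact h.ge
  -- all real irreducible characters are trivial on `N`
  have hker : ∀ χ : IrrCharacter G, (∀ g, ((χ : G → ℂ) g).im = 0) →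
      ∀ n ∈ N, (χ : G → ℂ) n = (χ : G → ℂ) 1 := by
    intro χ hχ
    exact ker_of_abelian χ.2 (hreal χ hχ) hP0p N hab hNP
  -- `C_N(P0) = 1` and `N ∩ N_G(P0) = 1`
  have hC : N ⊓ Subgroup.centralizer (P0 : Set G) = ⊥ := by
    have h1 : (N ⊓ Subgroup.centralizer (P0 : Set G)).Normal := by
      apply hnorm _ inf_le_left
      rintro h hh m ⟨hm1, hm2⟩
      refine ⟨hN.conj_mem m hm1 h, Subgroup.mem_centralizer_iff.2 ?_⟩
      replace hm2 := Subgroup.mem_centralizer_iff.1 hm2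
      intro x hx
      have h2 : h⁻¹ * x * h ∈ P0 := by
        have := hconjP h⁻¹ (Subgroup.inv_mem _ hh) x hx
        simpa using this
      have h3 := hm2 _ h2
      calc x * (h * m * h⁻¹) = h * ((h⁻¹ * x * h) * m) * h⁻¹ := by group
        _ = h * (m * (h⁻¹ * x * h)) * h⁻¹ := by rw [h3]
        _ = h * m * h⁻¹ * x := by group
    rcases hmin' _ h1 inf_le_left with h | h
    · exact h
    · exact absurd (inf_eq_left.1 h) hnotc
  have hNPbot : N ⊓ P0 = ⊥ := by
    rw [eq_bot_iff]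
    rintro x ⟨hx1, hx2⟩
    obtain ⟨k, hk⟩ := hP0p ⟨x, hx2⟩
    have hk' : x ^ p ^ k = 1 := congrArg Subtype.val hk
    have h1 : orderOf x ∣ Nat.gcd r (p ^ k) :=
      Nat.dvd_gcd (orderOf_dvd_of_pow_eq_one (hrN x hx1)) (orderOf_dvd_of_pow_eq_one hk')
    have h2 : Nat.gcd r (p ^ k) = 1 :=
      Nat.Coprime.pow_right k ((Nat.coprime_primes hr hp.out).2 hrp)
    rw [h2, Nat.dvd_one, orderOf_eq_one_iff] at h1
    exact Subgroup.mem_bot.2 h1
  have hNH : N ⊓ Subgroup.normalizer (P0 : Set G) = ⊥ := by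
    rw [eq_bot_iff, ← hC]
    rintro x ⟨hx1, hx2⟩
    refine ⟨hx1, Subgroup.mem_centralizer_iff.2 ?_⟩
    intro y hy
    have h1 : x * y * x⁻¹ * y⁻¹ ∈ N ⊓ P0 := by
      refine ⟨?_, P0.mul_mem (hconjP x hx2 y hy) (P0.inv_mem hy)⟩
      have h2 : x * y * x⁻¹ * y⁻¹ = x * (y * x⁻¹ * y⁻¹) := by group
      rw [h2]
      exact N.mul_mem hx1 (hN.conj_mem _ (N.inv_mem hx1) y)
    rw [hNPbot, Subgroup.mem_bot] at h1
    have h3 : x * y = y * x := by
      have h4 := congrArg (fun z => z * y * x) h1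
      simpa [mul_assoc] using h4
    exact h3.symm
  by_cases hr2 : r = 2
  · subst hr2
    obtain ⟨χ, hχ, n, hn, hne⟩ := exists_real_of_complement N
      (Subgroup.normalizer (P0 : Set G)) hab hrN hN1 hNH hH
    exact hne (hker χ hχ n hn)
  -- now `r` is odd: `K` centralizes `N`
  have hrodd : Odd r := hr.odd_of_ne_two hr2
  have hNr : IsPGroup r N := fun x => ⟨1, by rw [pow_one]; exact Subtype.ext (hrN x x.2)⟩
  have hNodd : Odd (Nat.card N) := by
    have := Fact.mk hr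
    obtain ⟨k, hk⟩ := IsPGroup.iff_card.1 hNr
    rw [hk]
    exact hrodd.pow
  have hKN : K ≤ Subgroup.centralizer (N : Set G) := by
    rw [hK, gen_def, Subgroup.closure_le]
    rintro g ⟨k, hk⟩
    by_contra hg
    obtain ⟨m, hm, hm1, a, ha, -⟩ := exists_inverted (M := N)
      (by rw [← hk]; exact pow_orderOf_eq_one g) hg
    obtain ⟨χ, hχ, n, hnM, hne⟩ := exists_real_not_ker N hNodd hm hm1 (isConj_iff.2 ⟨a, ha⟩)
    exact hne (hker χ hχ n hnM)
  have hNcK : N ≤ Subgroup.centralizer (K : Set G) := by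
    rw [← Subgroup.commutator_eq_bot_iff_le_centralizer, Subgroup.commutator_comm,
      Subgroup.commutator_eq_bot_iff_le_centralizer]
    exact hKN
  -- `Q = P ∩ K` is normal in `G`, hence trivial
  have hPK : (P : Subgroup G) ⊓ K = P0 ⊓ K := by
    rw [hP0, inf_assoc, inf_eq_right.2 hKU]
  have hEK : (P0 ⊔ N) ⊓ K = ((P : Subgroup G) ⊓ K) ⊔ N := by
    rw [sup_inf_eq _ _ _ hNK, hPK]
  have hQN : (((P : Subgroup G) ⊓ K) ⊔ N).Normal := by
    rw [← hEK]
    infer_instance
  have hQ : ((P : Subgroup G) ⊓ K).Normal := by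
    apply normal_of_le_normalizer P N K hQN hNK
    refine le_trans ?_ (centralizer_le_normalizer _)
    exact hNcK.trans (Subgroup.centralizer_le inf_le_right)
  have hQ1 : (P : Subgroup G) ⊓ K = ⊥ := by
    by_contra h
    exact hcon (hpcase _ hQ h inf_le_right (P.isPGroup'.to_le inf_le_left))
  rw [hQ1, bot_sup_eq] at hEK
  -- `[K, P0] ≤ N`
  have hKP : ⁅K, P0⁆ ≤ N := by
    rw [← hEK]
    refine le_inf ?_ (Subgroup.commutator_le_left K P0)
    exact (Subgroup.commutator_mono le_rfl le_sup_left).trans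
      (Subgroup.commutator_le_right K (P0 ⊔ N))
  have h3 : ⁅⁅K, K⁆, P0⁆ = ⊥ := by
    apply Subgroup.commutator_commutator_eq_bot_of_rotate
    · rw [eq_bot_iff]
      refine (Subgroup.commutator_mono hKP le_rfl).trans ?_
      rw [le_bot_iff, Subgroup.commutator_eq_bot_iff_le_centralizer]
      exact hNcK
    · rw [Subgroup.commutator_comm P0 K, eq_bot_iff]
      refine (Subgroup.commutator_mono hKP le_rfl).trans ?_
      rw [le_bot_iff, Subgroup.commutator_eq_bot_iff_le_centralizer]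
      exact hNcK
  rw [Subgroup.commutator_eq_bot_iff_le_centralizer] at h3
  have h4 : N ⊓ ⁅K, K⁆ = ⊥ := by
    rw [eq_bot_iff, ← hC]
    exact inf_le_inf_left N h3
  apply hN1
  rw [eq_bot_iff]
  intro x hx
  obtain ⟨k, hk⟩ := exists_pow_mem_commutator Nat.prime_two (hNK hx)
  have h5 : x ^ 2 ^ k ∈ N ⊓ ⁅K, K⁆ := ⟨N.pow_mem hx _, hk⟩
  rw [h4, Subgroup.mem_bot] at h5
  have h6 : orderOf x ∣ Nat.gcd r (2 ^ k) :=
    Nat.dvd_gcd (orderOf_dvd_of_pow_eq_one (hrN x hx)) (orderOf_dvd_of_pow_eq_one h5)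
  have h7 : Nat.gcd r (2 ^ k) = 1 :=
    Nat.Coprime.pow_right k ((Nat.coprime_primes hr Nat.prime_two).2 hr2)
  rw [h7, Nat.dvd_one, orderOf_eq_one_iff] at h6
  exact Subgroup.mem_bot.2 h6

/-- **Isaacs–Navarro.** See the module docstring. -/
theorem main {G : Type u} [Group G] [Finite G] {p : ℕ} [Fact p.Prime]
    (hsolv : Group.IsSolvable (gen p G)) (hreal : RealPrime p G) {U : Subgroup G} (hU : U.Normal)
    (hKU : gen 2 G ≤ U) (hUp : ∃ a, (gen 2 G).relIndex U = p ^ a) (P : Sylow p G) :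
    ((P : Subgroup G) ⊓ U).Normal :=
  main_aux _ G rfl p hsolv hreal U hU hKU hUp P

/-- The Sylow subgroups of a subgroup `U` are normal when the intersections with `U` of the Sylow
subgroups of `G` are. -/
theorem sylow_normal {G : Type u} [Group G] [Finite G] {p : ℕ} [Fact p.Prime] {U : Subgroup G}
    (h : ∀ P : Sylow p G, ((P : Subgroup G) ⊓ U).Normal) (Q : Sylow p U) :
    (Q : Subgroup U).Normal := by
  have h1 : IsPGroup p ((Q : Subgroup U).map U.subtype) := Q.isPGroup'.map U.subtype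
  obtain ⟨P, hP⟩ := h1.exists_le_sylow
  have h2 : (Q : Subgroup U) ≤ (P : Subgroup G).subgroupOf U := by
    intro x hx
    exact Subgroup.mem_subgroupOf.2 (hP ⟨x, hx, rfl⟩)
  have h3 : IsPGroup p ((P : Subgroup G).subgroupOf U) :=
    P.isPGroup'.comap_of_injective U.subtype U.subtype_injective
  have h4 : (P : Subgroup G).subgroupOf U = (Q : Subgroup U) := Q.is_maximal' h3 h2
  rw [← h4, ← Subgroup.inf_subgroupOf_right]
  exact (h P).subgroupOf U

end Cfsg.Agent.H693.ThmA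
end

-- part: H693/Meet
section
/-!
# Real classes meet the centralizer of a Sylow subgroup

`meet` : `K` a normal `p'`-subgroup of odd index of `G`, all real irreducible characters of `G` of
degree prime to `p`, `P` a Sylow `p`-subgroup: every real element of `G` in `K` is conjugate to an
element of `C_K(P)`.
-/

set_option autoImplicit false

namespace Cfsg.Agent.H693.Meet

open Cfsg Cfsg.Agent.Characters.Core Cfsg.Agent.H693.RealD Cfsg.Agent.H693.RealC
  Cfsg.Agent.H693.RealOver Cfsg.Agent.H693.ThmA Cfsg.Agent.H692.RealAct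
  Cfsg.Agent.Characters.Clifford
  Cfsg.Agent.OddOrderCharacters.PF9.CliffGen Cfsg.Agent.OddOrderCharacters.IndRes
  Cfsg.Agent.OddOrderCharacters.NormalInduced
open scoped ComplexConjugate

universe u

variable {G : Type u} [Group G]

/-- `2`-elements lie in normal subgroups of odd index. -/
theorem mem_of_odd_index [Finite G] {K : Subgroup G} [K.Normal] (hodd : Odd K.index) {b : G}
    {k : ℕ} (hb : b ^ 2 ^ k = 1) : b ∈ K := by
  rw [← QuotientGroup.eq_one_iff, ← orderOf_eq_one_iff]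
  have h1 : orderOf (b : G ⧸ K) ∣ 2 ^ k := by
    apply orderOf_dvd_of_pow_eq_one
    rw [← QuotientGroup.mk_pow, hb, QuotientGroup.mk_one]
  have h2 : orderOf (b : G ⧸ K) ∣ K.index := orderOf_dvd_natCard _
  have h3 : Nat.Coprime (2 ^ k) K.index :=
    Nat.Coprime.pow_left k (Nat.coprime_two_left.2 hodd)
  exact Nat.eq_one_of_dvd_coprimes h3 h1 h2

/-- A real element of `G` in a normal subgroup of odd index is real in the subgroup. -/
theorem real_in [Finite G] {K : Subgroup G} [K.Normal] (hodd : Odd K.index) {x : K}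
    (hx : IsConj (x : G) (x : G)⁻¹) : IsConj x x⁻¹ := by
  obtain ⟨c, hc⟩ := isConj_iff.1 hx
  obtain ⟨m, hm, k, hk⟩ := exists_odd_pow c
  have h1 := inverts_odd_pow hc hm
  refine isConj_iff.2 ⟨⟨c ^ m, mem_of_odd_index hodd hk⟩, ?_⟩
  exact Subtype.ext h1

/-- Real elements lie in normal subgroups of odd index. -/
theorem real_mem [Finite G] {K : Subgroup G} [K.Normal] (hodd : Odd K.index) {x : G}
    (hx : IsConj x x⁻¹) : x ∈ K := by
  obtain ⟨c, hc⟩ := isConj_iff.1 hx
  obtain ⟨m, hm, k, hk⟩ := exists_odd_pow c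
  have h1 := inverts_odd_pow hc hm
  have h2 : c ^ m ∈ K := mem_of_odd_index hodd hk
  have h3 : (x : G ⧸ K) = (x : G ⧸ K)⁻¹ := by
    have h4 := congrArg (QuotientGroup.mk : G → G ⧸ K) h1
    rw [QuotientGroup.mk_mul, QuotientGroup.mk_mul, (QuotientGroup.eq_one_iff _).2 h2,
      QuotientGroup.mk_inv, (QuotientGroup.eq_one_iff _).2 h2, one_mul, inv_one, mul_one,
      QuotientGroup.mk_inv] at h4
    exact h4
  have h5 : (x : G ⧸ K) ^ 2 = 1 := by
    rw [pow_two]
    nth_rw 2 [h3]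
    exact mul_inv_cancel _
  rw [← QuotientGroup.eq_one_iff, ← orderOf_eq_one_iff]
  have h6 : orderOf (x : G ⧸ K) ∣ 2 := orderOf_dvd_of_pow_eq_one h5
  have h7 : orderOf (x : G ⧸ K) ∣ K.index := orderOf_dvd_natCard _
  exact Nat.eq_one_of_dvd_coprimes (Nat.coprime_two_left.2 hodd) h6 h7

/-- Membership in the real irreducible characters. -/
theorem irrSmul_eq_conjFn {K : Subgroup G} [hK : K.Normal] (g : G) (θ : IrrCharacter K) :
    ((irrSmul g θ : IrrCharacter K) : K → ℂ) = conjFn K (θ : K → ℂ) g⁻¹ := by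
  funext k
  rw [irrSmul_apply, conjFn_apply]
  congr 1

section main

variable [Fintype G] {p : ℕ} [hp : Fact p.Prime] (P : Sylow p G) (K : Subgroup G) [hK : K.Normal]

/-- The centralizer of `P` in `K`, as a subgroup of the normalizer of `P`. -/
abbrev Cn : Subgroup (Subgroup.normalizer ((P : Subgroup G) : Set G)) :=
  (K ⊓ Subgroup.centralizer ((P : Subgroup G) : Set G)).subgroupOf _

omit [Fintype G] hp hK in
theorem C_le_N : K ⊓ Subgroup.centralizer ((P : Subgroup G) : Set G) ≤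
    Subgroup.normalizer ((P : Subgroup G) : Set G) :=
  inf_le_right.trans (centralizer_le_normalizer _)

omit [Fintype G] hp in
theorem conj_C {n : G} (hn : n ∈ Subgroup.normalizer ((P : Subgroup G) : Set G)) {c : G}
    (hc : c ∈ K ⊓ Subgroup.centralizer ((P : Subgroup G) : Set G)) :
    n * c * n⁻¹ ∈ K ⊓ Subgroup.centralizer ((P : Subgroup G) : Set G) := by
  refine ⟨hK.conj_mem c hc.1 n, Subgroup.mem_centralizer_iff.2 fun y hy => ?_⟩
  have h1 : n⁻¹ * y * n ∈ (P : Subgroup G) := by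
    have := (Subgroup.mem_normalizer_iff.1 (Subgroup.inv_mem _ hn) y).1 hy
    simpa using this
  have h2 := Subgroup.mem_centralizer_iff.1 hc.2 _ h1
  calc y * (n * c * n⁻¹) = n * ((n⁻¹ * y * n) * c) * n⁻¹ := by group
    _ = n * (c * (n⁻¹ * y * n)) * n⁻¹ := by rw [h2]
    _ = n * c * n⁻¹ * y := by group

instance Cn_normal : (Cn P K).Normal := by
  refine ⟨fun c hc n => ?_⟩
  exact conj_C P K n.2 hc

omit [Fintype G] hp in
/-- When `P ∩ K = 1`, the index of `C_K(P)` in `N(P)` divides the index of `K`. -/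
theorem Cn_index_dvd (hPK : (P : Subgroup G) ⊓ K = ⊥) : (Cn P K).index ∣ K.index := by
  have h1 : K ⊓ Subgroup.normalizer ((P : Subgroup G) : Set G) =
      K ⊓ Subgroup.centralizer ((P : Subgroup G) : Set G) := by
    apply le_antisymm
    · rintro x ⟨hx1, hx2⟩
      refine ⟨hx1, Subgroup.mem_centralizer_iff.2 fun y hy => ?_⟩
      have h2 : x * y * x⁻¹ * y⁻¹ ∈ (P : Subgroup G) ⊓ K := by
        refine ⟨(P : Subgroup G).mul_mem ((Subgroup.mem_normalizer_iff.1 hx2 y).1 hy)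
          ((P : Subgroup G).inv_mem hy), ?_⟩
        have h3 : x * y * x⁻¹ * y⁻¹ = x * (y * x⁻¹ * y⁻¹) := by group
        rw [h3]
        exact K.mul_mem hx1 (hK.conj_mem _ (K.inv_mem hx1) y)
      rw [hPK, Subgroup.mem_bot] at h2
      have h4 := congrArg (fun z => z * y * x) h2
      have h5 : x * y = y * x := by simpa [mul_assoc] using h4
      exact h5.symm
    · exact le_inf inf_le_left (C_le_N P K)
  have h2 : (Cn P K).index = K.relIndex (Subgroup.normalizer ((P : Subgroup G) : Set G)) := by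
    show Subgroup.relIndex _ _ = _
    rw [← h1, Subgroup.inf_relIndex_right]
  rw [h2]
  exact Subgroup.relIndex_dvd_index_of_normal _ _

/-- The isomorphism `Cn P K ≃ K ⊓ C(P)`. -/
noncomputable def eC : Cn P K ≃* (K ⊓ Subgroup.centralizer ((P : Subgroup G) : Set G) : Subgroup G) :=
  Subgroup.subgroupOfEquivOfLe (C_le_N P K)

/-- Restriction to `Cn P K`. -/
def resC (f : K → ℂ) : Cn P K → ℂ :=
  fun c => f ⟨(c : Subgroup.normalizer ((P : Subgroup G) : Set G)), (Subgroup.mem_subgroupOf.1 c.2).1⟩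

/-- `P`-invariance. -/
def PInv (θ : IrrCharacter K) : Prop := ∀ x ∈ (P : Subgroup G), irrSmul x θ = θ

variable {P K}

omit [Fintype G] hp in
theorem pinv_iff (θ : IrrCharacter K) : PInv P K θ ↔ ∀ s ∈ (P : Subgroup G), ∀ g g' : K,
    (g' : G) = s * g * s⁻¹ → (θ : K → ℂ) g' = (θ : K → ℂ) g := by
  constructor
  · intro h s hs g g' hgg
    have h1 := congrFun (congrArg Subtype.val (h s⁻¹ (Subgroup.inv_mem _ hs))) g
    rw [irrSmul_apply] at h1
    have h2 : (MulAut.conjNormal s⁻¹⁻¹ : MulAut K) g = g' := by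
      ext
      simp [hgg]
    rw [← h1, h2]
  · intro h x hx
    apply Subtype.ext
    funext k
    rw [irrSmul_apply]
    apply h x⁻¹ (Subgroup.inv_mem _ hx)
    simp

omit [Fintype G] hp in
theorem pinv_smul {θ : IrrCharacter K} (h : PInv P K θ)
    {n : G} (hn : n ∈ Subgroup.normalizer ((P : Subgroup G) : Set G)) :
    PInv P K (irrSmul n θ) := by
  intro x hx
  rw [← irrSmul_mul]
  have h1 : n⁻¹ * x * n ∈ (P : Subgroup G) := by
    have := (Subgroup.mem_normalizer_iff.1 (Subgroup.inv_mem _ hn) x).1 hx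
    simpa using this
  have h2 : x * n = n * (n⁻¹ * x * n) := by group
  rw [h2, irrSmul_mul, h _ h1]

omit [Fintype G] hp in
theorem resC_smul (θ : IrrCharacter K)
    (n : Subgroup.normalizer ((P : Subgroup G) : Set G)) :
    resC P K ((irrSmul (n : G) θ : IrrCharacter K) : K → ℂ) =
      resC P K (θ : K → ℂ) ∘ (MulAut.conjNormal n⁻¹ : MulAut (Cn P K)) := by
  funext c
  unfold resC
  rw [irrSmul_apply]
  congr 1

/-- The Glauberman correspondence, in terms of `Cn P K`. -/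
theorem glaub (hKp : ¬ p ∣ Nat.card K) [Fintype (Cn P K)] :
    (∀ θ : IrrCharacter K, PInv P K θ → ∃ β : IrrCharacter (Cn P K),
      (∃ m : ℕ, classInner (resC P K (θ : K → ℂ)) (β : Cn P K → ℂ) = m ∧ ¬ p ∣ m) ∧
      ∀ β' : IrrCharacter (Cn P K),
        (∃ m : ℕ, classInner (resC P K (θ : K → ℂ)) (β' : Cn P K → ℂ) = m ∧ ¬ p ∣ m) → β' = β) ∧
    (∀ θ θ' : IrrCharacter K, PInv P K θ → PInv P K θ' → ∀ β : IrrCharacter (Cn P K),
      (∃ m : ℕ, classInner (resC P K (θ : K → ℂ)) (β : Cn P K → ℂ) = m ∧ ¬ p ∣ m) →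
      (∃ m : ℕ, classInner (resC P K (θ' : K → ℂ)) (β : Cn P K → ℂ) = m ∧ ¬ p ∣ m) → θ = θ') := by
  classical
  have := Fintype.ofFinite K
  have := Fintype.ofFinite (K ⊓ Subgroup.centralizer ((P : Subgroup G) : Set G) : Subgroup G)
  have hcop : (Nat.card K).Coprime (Nat.card (P : Subgroup G)) := by
    obtain ⟨k, hk⟩ := IsPGroup.iff_card.1 P.isPGroup'
    rw [hk]
    exact Nat.Coprime.pow_right k ((Nat.Prime.coprime_iff_not_dvd hp.out).2 hKp).symm
  obtain ⟨h1, h2, h3, h4⟩ := Cfsg.Agent.S4444.result K (P : Subgroup G)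
    (fun s _ g hg => hK.conj_mem g hg s) hcop p hp.out P.isPGroup'
    (K ⊓ Subgroup.centralizer ((P : Subgroup G) : Set G)) rfl inf_le_left
  have htrans : ∀ (θ : IrrCharacter K)
      (β : IrrCharacter (K ⊓ Subgroup.centralizer ((P : Subgroup G) : Set G) : Subgroup G)),
      classInner (resC P K (θ : K → ℂ)) ((β : _ → ℂ) ∘ eC P K) =
      classInner (fun c : (K ⊓ Subgroup.centralizer ((P : Subgroup G) : Set G) : Subgroup G) =>
        (θ : K → ℂ) ⟨c, c.2.1⟩) (β : _ → ℂ) := by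
    intro θ β
    rw [← classInner_comp_mulEquiv (eC P K)]
    rfl
  have hirr : ∀ β : IrrCharacter (K ⊓ Subgroup.centralizer ((P : Subgroup G) : Set G) : Subgroup G),
      IsIrrCharacter (Cn P K) ((β : _ → ℂ) ∘ eC P K) := fun β =>
    isIrr_comp (eC P K).toMonoidHom (eC P K).surjective β.2
  have hirr' : ∀ β : IrrCharacter (Cn P K),
      IsIrrCharacter (K ⊓ Subgroup.centralizer ((P : Subgroup G) : Set G) : Subgroup G)
        ((β : _ → ℂ) ∘ (eC P K).symm) := fun β =>
    isIrr_comp (eC P K).symm.toMonoidHom (eC P K).symm.surjective β.2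
  have htrans' : ∀ (θ : IrrCharacter K) (β : IrrCharacter (Cn P K)),
      classInner (fun c : (K ⊓ Subgroup.centralizer ((P : Subgroup G) : Set G) : Subgroup G) =>
        (θ : K → ℂ) ⟨c, c.2.1⟩) ((β : _ → ℂ) ∘ (eC P K).symm) =
      classInner (resC P K (θ : K → ℂ)) (β : _ → ℂ) := by
    intro θ β
    rw [← htrans θ ⟨_, hirr' β⟩]
    congr 1
  constructor
  · intro θ hθ
    obtain ⟨β, ⟨m, hm, hpm⟩, huniq⟩ := h1 θ ((pinv_iff θ).1 hθ)
    refine ⟨⟨_, hirr β⟩, ⟨m, ?_, hpm⟩, ?_⟩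
    · rw [← hm]
      exact htrans θ β
    · rintro β' ⟨m', hm', hpm'⟩
      have h5 := huniq ⟨_, hirr' β'⟩ ⟨m', by rw [← hm']; exact htrans' θ β', hpm'⟩
      apply Subtype.ext
      rw [← h5]
      funext c
      simp
  · intro θ θ' hθ hθ' β ⟨m, hm, hpm⟩ ⟨m', hm', hpm'⟩
    exact h3 θ θ' ((pinv_iff θ).1 hθ) ((pinv_iff θ').1 hθ') ⟨_, hirr' β⟩ m m'
      (by rw [← hm]; exact htrans' θ β) hpm (by rw [← hm']; exact htrans' θ' β) hpm'

/-- **Real classes meet `C_K(P)`.** -/
theorem meet (hodd : Odd K.index) (hKp : ¬ p ∣ Nat.card K) (hreal : RealPrime p G) {x : G}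
    (hx : IsConj x x⁻¹) :
    ∃ y ∈ K ⊓ Subgroup.centralizer ((P : Subgroup G) : Set G), IsConj x y := by
  classical
  have := Fintype.ofFinite K
  have := Fintype.ofFinite (Cn P K)
  have hPK : (P : Subgroup G) ⊓ K = ⊥ := by
    rw [eq_bot_iff]
    rintro y ⟨hy1, hy2⟩
    obtain ⟨k, hk⟩ := P.isPGroup' ⟨y, hy1⟩
    have hk' : y ^ p ^ k = 1 := congrArg Subtype.val hk
    have h1 : orderOf (⟨y, hy2⟩ : K) ∣ Nat.card K := orderOf_dvd_natCard _
    rw [Subgroup.orderOf_mk] at h1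
    have h2 : orderOf y ∣ p ^ k := orderOf_dvd_of_pow_eq_one hk'
    have h3 : Nat.Coprime (p ^ k) (Nat.card K) :=
      Nat.Coprime.pow_left k ((Nat.Prime.coprime_iff_not_dvd hp.out).2 hKp)
    have h4 := Nat.eq_one_of_dvd_coprimes h3 h2 h1
    rw [orderOf_eq_one_iff] at h4
    exact Subgroup.mem_bot.2 h4
  have hodd' : Odd (Cn P K).index := hodd.of_dvd_nat (Cn_index_dvd P K hPK)
  have hA := card_orbits_eq (A := G) (X := RIrr K) (Y := RCl K) (fun g => card_fixedBy_eq hodd g)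
  have hB := card_orbits_eq (A := Subgroup.normalizer ((P : Subgroup G) : Set G))
    (X := RIrr (Cn P K)) (Y := RCl (Cn P K)) (fun g => card_fixedBy_eq hodd' g)
  obtain ⟨hg1, hg2⟩ := glaub (P := P) (K := K) hKp
  -- a `P`-invariant real character in each orbit
  have hrep : ∀ a : MulAction.orbitRel.Quotient G (RIrr K),
      ∃ θ : RIrr K, Quotient.mk'' θ = a ∧ PInv P K θ.1 := by
    intro a
    induction a using Quotient.inductionOn' with
    | h θ =>
    obtain ⟨χ, hχ, hχr, h0⟩ := exists_real_over' K hodd θ.1.2 θ.2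
    obtain ⟨g, hg⟩ := exists_conj_invariant P.isPGroup' K θ.1.2 hχ h0 (hreal ⟨χ, hχ⟩ hχr)
    refine ⟨g⁻¹ • θ, Quotient.sound' ⟨g⁻¹, rfl⟩, ?_⟩
    intro x hx
    have h1 : ((g⁻¹ • θ : RIrr K).1 : K → ℂ) = conjFn K (θ.1 : K → ℂ) g := by
      rw [coe_smul_rirr, irrSmul_eq_conjFn, inv_inv]
    apply Subtype.ext
    rw [irrSmul_eq_conjFn, h1]
    exact hg x⁻¹ (Subgroup.inv_mem _ hx)
  choose Θ hΘ hΘP using hrep
  choose β hβ hβu using fun a => hg1 (Θ a).1 (hΘP a)
  -- `β a` is real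
  have hβr : ∀ a (c : Cn P K), ((β a : Cn P K → ℂ) c).im = 0 := by
    intro a
    have h1 := hβu a ⟨fun c => conj ((β a : Cn P K → ℂ) c), isIrr_conj (β a).2⟩ (by
      obtain ⟨m, hm, hpm⟩ := hβ a
      refine ⟨m, ?_, hpm⟩
      rw [← Complex.conj_natCast m, ← hm, classInner_def, classInner_def, map_mul, map_inv₀,
        Complex.conj_natCast, map_sum]
      congr 1
      refine Finset.sum_congr rfl fun c _ => ?_
      rw [map_mul]
      congr 1
      symm
      rw [Complex.conj_eq_iff_im]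
      exact (Θ a).2 _)
    intro c
    rw [← Complex.conj_eq_iff_im]
    exact congrFun (congrArg Subtype.val h1) c
  let F : MulAction.orbitRel.Quotient G (RIrr K) →
      MulAction.orbitRel.Quotient (Subgroup.normalizer ((P : Subgroup G) : Set G)) (RIrr (Cn P K)) :=
    fun a => Quotient.mk'' ⟨β a, hβr a⟩
  have hF : Function.Injective F := by
    intro a b hab
    obtain ⟨n, hn⟩ := Quotient.exact' hab
    have h1 : irrSmul n (β b) = β a := congrArg Subtype.val hn
    have h2 : irrSmul (n : G) (Θ b).1 = (Θ a).1 := by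
      apply hg2 _ _ (pinv_smul (hΘP b) n.2) (hΘP a) (β a) _ (hβ a)
      obtain ⟨m, hm, hpm⟩ := hβ b
      refine ⟨m, ?_, hpm⟩
      rw [← hm, ← h1, resC_smul]
      exact classInner_comp_mulEquiv _ _ _
    rw [← hΘ a, ← hΘ b]
    exact Quotient.sound' ⟨n, Subtype.ext h2⟩
  have hcard : Nat.card (MulAction.orbitRel.Quotient G (RCl K)) ≤
      Nat.card (MulAction.orbitRel.Quotient (Subgroup.normalizer ((P : Subgroup G) : Set G))
        (RCl (Cn P K))) := by
    have h1 : Finite (MulAction.orbitRel.Quotient (Subgroup.normalizer ((P : Subgroup G) : Set G))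
        (RIrr (Cn P K))) := Quotient.finite _
    rw [← hA, ← hB]
    exact Nat.card_le_card_of_injective F hF
  -- representatives of the classes of `Cn P K`
  have hrep2 : ∀ b : MulAction.orbitRel.Quotient (Subgroup.normalizer ((P : Subgroup G) : Set G))
      (RCl (Cn P K)), ∃ (y : Cn P K) (hy : IsConj y y⁻¹),
        Quotient.mk'' (⟨ConjClasses.mk y, fun k hk =>
          isConj_inv_of_isConj (ConjClasses.mk_eq_mk_iff_isConj.1 hk).symm hy⟩ :
          RCl (Cn P K)) = b := by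
    intro b
    induction b using Quotient.inductionOn' with
    | h C =>
    obtain ⟨C, hC⟩ := C
    obtain ⟨y, rfl⟩ := ConjClasses.exists_rep C
    exact ⟨y, hC y rfl, rfl⟩
  choose y hy hyb using hrep2
  let i : Cn P K → K := fun c => ⟨(c : Subgroup.normalizer ((P : Subgroup G) : Set G)),
    (Subgroup.mem_subgroupOf.1 c.2).1⟩
  have hi : ∀ c : Cn P K, IsConj c c⁻¹ → IsConj (i c) (i c)⁻¹ := by
    intro c hc
    obtain ⟨d, hd⟩ := isConj_iff.1 hc
    refine isConj_iff.2 ⟨i d, ?_⟩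
    have h1 := congrArg (fun z : Cn P K => ((z : Subgroup.normalizer ((P : Subgroup G) : Set G)) : G)) hd
    exact Subtype.ext h1
  let Φ : MulAction.orbitRel.Quotient (Subgroup.normalizer ((P : Subgroup G) : Set G))
      (RCl (Cn P K)) → MulAction.orbitRel.Quotient G (RCl K) :=
    fun b => Quotient.mk'' ⟨ConjClasses.mk (i (y b)), fun k hk =>
      isConj_inv_of_isConj (ConjClasses.mk_eq_mk_iff_isConj.1 hk).symm (hi _ (hy b))⟩
  have hΦ : Function.Injective Φ := by
    intro a b hab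
    obtain ⟨g, hg⟩ := Quotient.exact' hab
    have h1 : clSmul g (ConjClasses.mk (i (y b))) = ConjClasses.mk (i (y a)) :=
      congrArg Subtype.val hg
    rw [clSmul_mk, ConjClasses.mk_eq_mk_iff_isConj] at h1
    obtain ⟨c, hc⟩ := isConj_iff.1 h1
    have hc' := congrArg Subtype.val hc
    simp only [Subgroup.coe_mul, MulAut.conjNormal_apply, Subgroup.coe_inv] at hc'
    -- conjugate in `G`
    have hya := (Subgroup.mem_subgroupOf.1 (y a).2).2
    have hyb' := (Subgroup.mem_subgroupOf.1 (y b).2).2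
    set ga : G := ((y a : Subgroup.normalizer ((P : Subgroup G) : Set G)) : G) with hga
    set gb : G := ((y b : Subgroup.normalizer ((P : Subgroup G) : Set G)) : G) with hgb
    have hconj : ((c : G) * g)⁻¹⁻¹ * gb * ((c : G) * g)⁻¹ = ga := by
      have h2 : (c : G) * (g * gb * g⁻¹) * (c : G)⁻¹ = ga := hc'
      rw [← h2]; group
    obtain ⟨n, hn, hn'⟩ := Sylow.conj_eq_normalizer_conj_of_mem_centralizer P gb ((c : G) * g)⁻¹
      hyb' (by rw [hconj]; exact hya)
    rw [hconj] at hn'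
    rw [← hyb a, ← hyb b]
    refine Quotient.sound' ⟨⟨n, hn⟩⁻¹, Subtype.ext ?_⟩
    show clSmul _ (ConjClasses.mk (y b)) = ConjClasses.mk (y a)
    rw [clSmul_mk]
    congr 1
    apply Subtype.ext
    apply Subtype.ext
    rw [MulAut.conjNormal_apply]
    simp only [Subgroup.coe_mul, Subgroup.coe_inv, inv_inv]
    exact hn'.symm
  have hfin1 : Finite (MulAction.orbitRel.Quotient G (RCl K)) := Quotient.finite _
  have hsurj : Function.Surjective Φ := by
    have h1 := Nat.card_le_card_of_injective Φ hΦ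
    have h2 : Nat.card (MulAction.orbitRel.Quotient (Subgroup.normalizer ((P : Subgroup G) : Set G))
        (RCl (Cn P K))) = Nat.card (MulAction.orbitRel.Quotient G (RCl K)) :=
      le_antisymm h1 hcard
    exact (Nat.bijective_iff_injective_and_card Φ).2 ⟨hΦ, h2⟩ |>.2
  have hxK : x ∈ K := real_mem hodd hx
  have hxr : IsConj (⟨x, hxK⟩ : K) (⟨x, hxK⟩ : K)⁻¹ := real_in hodd hx
  obtain ⟨b, hb⟩ := hsurj (Quotient.mk'' ⟨ConjClasses.mk (⟨x, hxK⟩ : K), fun k hk =>
      isConj_inv_of_isConj (ConjClasses.mk_eq_mk_iff_isConj.1 hk).symm hxr⟩)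
  obtain ⟨g, hg⟩ := Quotient.exact' hb
  have h1 : clSmul g (ConjClasses.mk (⟨x, hxK⟩ : K)) = ConjClasses.mk (i (y b)) :=
    congrArg Subtype.val hg
  rw [clSmul_mk, ConjClasses.mk_eq_mk_iff_isConj] at h1
  obtain ⟨c, hc⟩ := isConj_iff.1 h1
  have hc' := congrArg Subtype.val hc
  simp only [Subgroup.coe_mul, MulAut.conjNormal_apply, Subgroup.coe_inv] at hc'
  refine ⟨((y b : Subgroup.normalizer ((P : Subgroup G) : Set G)) : G),
    Subgroup.mem_subgroupOf.1 (y b).2, isConj_iff.2 ⟨(c : G) * g, ?_⟩⟩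
  have h2 : (c : G) * (g * x * g⁻¹) * (c : G)⁻¹ =
    ((y b : Subgroup.normalizer ((P : Subgroup G) : Set G)) : G) := hc'
  rw [← h2]; group

end main

end Cfsg.Agent.H693.Meet
end

-- part: H693/Meet2
section
/-!
# Real classes meet the normalizer of a Sylow subgroup
-/

set_option autoImplicit false

namespace Cfsg.Agent.H693.Meet2

open Cfsg Cfsg.Agent.H693.GenBasic Cfsg.Agent.H693.ThmA Cfsg.Agent.H693.Meet

universe u

variable {G : Type u} [Group G]

/-- `gen 2 G` has odd index. -/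
theorem odd_index [Finite G] : Odd (gen 2 G).index := by
  have hn : (gen 2 G).Normal := gen_normal Nat.prime_two
  rw [← Nat.not_even_iff_odd, even_iff_two_dvd]
  intro h
  have h1 : 2 ∣ Nat.card (G ⧸ gen 2 G) := h
  obtain ⟨x, hx⟩ := exists_prime_orderOf_dvd_card' 2 h1
  have h2 := gen_map Nat.prime_two (QuotientGroup.mk'_surjective (gen 2 G))
  have h3 : x ∈ gen 2 (G ⧸ gen 2 G) := Subgroup.subset_closure ⟨1, by rw [hx, pow_one]⟩
  rw [← h2] at h3
  obtain ⟨y, hy, rfl⟩ := h3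
  rw [QuotientGroup.mk'_apply, (QuotientGroup.eq_one_iff y).2 hy, orderOf_one] at hx
  omega

/-- If a Sylow `p`-subgroup meets the normal subgroup `K` trivially then `p` does not divide
`|K|`. -/
theorem not_dvd_of_inf_eq_bot [Finite G] {p : ℕ} [hp : Fact p.Prime] (P : Sylow p G)
    {K : Subgroup G} (hK : K.Normal) (h : (P : Subgroup G) ⊓ K = ⊥) : ¬ p ∣ Nat.card K := by
  intro hd
  obtain ⟨y, hy⟩ := exists_prime_orderOf_dvd_card' (G := K) p hd
  have h1 : IsPGroup p (Subgroup.zpowers (y : G)) := by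
    apply IsPGroup.of_card (n := 1)
    rw [Nat.card_zpowers, Subgroup.orderOf_coe, hy, pow_one]
  obtain ⟨Q, hQ⟩ := h1.exists_le_sylow
  obtain ⟨g, hg⟩ := MulAction.exists_smul_eq G Q P
  have h2 : g * y * g⁻¹ ∈ (P : Subgroup G) := by
    rw [← hg, Sylow.smul_def, Sylow.pointwise_smul_def]
    exact ⟨y, hQ (Subgroup.mem_zpowers _), rfl⟩
  have h3 : g * y * g⁻¹ ∈ (P : Subgroup G) ⊓ K := ⟨h2, hK.conj_mem _ y.2 g⟩
  rw [h, Subgroup.mem_bot, conj_eq_one_iff] at h3
  have h4 : y = 1 := Subtype.ext h3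
  rw [h4, orderOf_one] at hy
  exact hp.out.one_lt.ne hy

/-- A Sylow `p`-subgroup modulo a normal `p`-subgroup. -/
theorem comap_mapSurjective [Finite G] {p : ℕ} [hp : Fact p.Prime] (P : Sylow p G)
    (Q : Subgroup G) [Q.Normal] (hQ : Q ≤ (P : Subgroup G)) :
    ((P.mapSurjective (QuotientGroup.mk'_surjective Q) : Sylow p (G ⧸ Q)) :
      Subgroup (G ⧸ Q)).comap (QuotientGroup.mk' Q) = (P : Subgroup G) := by
  rw [Sylow.coe_mapSurjective, Subgroup.comap_map_eq, QuotientGroup.ker_mk', sup_eq_left.2 hQ]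

/-- The intersection of a Sylow subgroup with `K` modulo itself. -/
theorem map_inf_map [Finite G] {p : ℕ} [hp : Fact p.Prime] (P : Sylow p G)
    (K : Subgroup G) [hQn : ((P : Subgroup G) ⊓ K).Normal] :
    ((P.mapSurjective (QuotientGroup.mk'_surjective ((P : Subgroup G) ⊓ K)) :
      Sylow p (G ⧸ ((P : Subgroup G) ⊓ K))) : Subgroup (G ⧸ ((P : Subgroup G) ⊓ K))) ⊓
      K.map (QuotientGroup.mk' ((P : Subgroup G) ⊓ K)) = ⊥ := by
  apply Subgroup.comap_injective (QuotientGroup.mk'_surjective ((P : Subgroup G) ⊓ K))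
  rw [Subgroup.comap_inf, comap_mapSurjective P _ inf_le_left, Subgroup.comap_map_eq,
    QuotientGroup.ker_mk', sup_eq_left.2 inf_le_right, MonoidHom.comap_bot,
    QuotientGroup.ker_mk']

/-- **Isaacs–Navarro**: the normalizer of a Sylow `p`-subgroup meets every real class. -/
theorem meet_normalizer [Fintype G] {p : ℕ} [hp : Fact p.Prime]
    (hsolv : Group.IsSolvable (gen p G)) (hreal : RealPrime p G) (P : Sylow p G) {x : G}
    (hx : IsConj x x⁻¹) :
    ∃ y ∈ Subgroup.normalizer ((P : Subgroup G) : Set G), IsConj x y := by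
  classical
  set K := gen 2 G with hK
  have hKn : K.Normal := gen_normal Nat.prime_two
  have hQn : ((P : Subgroup G) ⊓ K).Normal :=
    main hsolv hreal hKn le_rfl ⟨0, by rw [pow_zero, Subgroup.relIndex_self]⟩ P
  set Q := (P : Subgroup G) ⊓ K with hQ
  have hsurj := QuotientGroup.mk'_surjective Q
  set P' : Sylow p (G ⧸ Q) := P.mapSurjective hsurj with hP'
  set K' := K.map (QuotientGroup.mk' Q) with hK'
  have hK'n : K'.Normal := hKn.map _ hsurj
  have hK'gen : K' = gen 2 (G ⧸ Q) := gen_map Nat.prime_two hsurj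
  have hcomap : ((P' : Sylow p (G ⧸ Q)) : Subgroup (G ⧸ Q)).comap (QuotientGroup.mk' Q) =
      (P : Subgroup G) := comap_mapSurjective P Q inf_le_left
  have hPK : (P' : Subgroup (G ⧸ Q)) ⊓ K' = ⊥ := map_inf_map P K
  have hodd : Odd K'.index := by
    rw [hK'gen]
    exact odd_index
  have := Fintype.ofFinite (G ⧸ Q)
  have hx' : IsConj (QuotientGroup.mk' Q x) (QuotientGroup.mk' Q x)⁻¹ := by
    rw [← map_inv]
    exact (QuotientGroup.mk' Q).map_isConj hx
  obtain ⟨y', hy', hxy⟩ := meet (P := P') (K := K') hodd (not_dvd_of_inf_eq_bot P' hK'n hPK)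
    (hreal.map hsurj) hx'
  obtain ⟨c', hc'⟩ := isConj_iff.1 hxy
  obtain ⟨c, rfl⟩ := hsurj c'
  refine ⟨c * x * c⁻¹, ?_, isConj_iff.2 ⟨c, rfl⟩⟩
  have h1 : QuotientGroup.mk' Q (c * x * c⁻¹) = y' := by
    rw [map_mul, map_mul, map_inv]
    exact hc'
  have h2 : y' ∈ Subgroup.normalizer ((P' : Subgroup (G ⧸ Q)) : Set (G ⧸ Q)) :=
    centralizer_le_normalizer _ hy'.2
  rw [Subgroup.mem_normalizer_iff] at h2 ⊢
  intro z
  have h3 := h2 (QuotientGroup.mk' Q z)
  rw [← h1, ← map_mul, ← map_inv, ← map_mul] at h3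
  rw [← hcomap]
  exact h3

end Cfsg.Agent.H693.Meet2
end

-- part: H693/SylOrb
section
/-!
# Cosets fixed by a Sylow subgroup

`P` a Sylow `p`-subgroup of `G`, `P ≤ I ≤ G`, `K` normal in `G`, `N = N_G(P)`.

* `exists_normalizing` : a coset `kI`, `k ∈ K`, fixed by `P` is a coset `nI` with `n ∈ K ∩ N`.
* `relIndex_modEq` : `|K : K ∩ I| ≡ |K ∩ N : K ∩ N ∩ I|` modulo `p`.
-/

set_option autoImplicit false

namespace Cfsg.Agent.H693.SylOrb

open scoped Pointwise

variable {G : Type*} [Group G]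

theorem exists_normalizing [Finite G] {p : ℕ} [hp : Fact p.Prime] (P : Sylow p G)
    (K I : Subgroup G) [hK : K.Normal] (hPI : (P : Subgroup G) ≤ I) {k : G} (hk : k ∈ K)
    (hfix : ∀ u ∈ (P : Subgroup G), k⁻¹ * u * k ∈ I) :
    ∃ a ∈ I, k * a ∈ K ⊓ Subgroup.normalizer ((P : Subgroup G) : Set G) := by
  have h1 : (P : Subgroup G) ≤ I ⊓ (K ⊔ (P : Subgroup G)) := le_inf hPI le_sup_right
  have h2 : ((k⁻¹ • P : Sylow p G) : Subgroup G) ≤ I ⊓ (K ⊔ (P : Subgroup G)) := by
    intro x hx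
    rw [Sylow.coe_subgroup_smul] at hx
    obtain ⟨u, hu, hx'⟩ := hx
    have h3 : x = k⁻¹ * u * k := by
      rw [← hx']
      show (MulAut.conj k⁻¹) u = _
      rw [MulAut.conj_apply, inv_inv]
    rw [h3]
    refine ⟨hfix u hu, ?_⟩
    exact mul_mem (mul_mem ((le_sup_left : K ≤ _) (K.inv_mem hk))
      ((le_sup_right : (P : Subgroup G) ≤ _) hu)) ((le_sup_left : K ≤ _) hk)
  obtain ⟨h, hh⟩ := MulAction.exists_smul_eq (↥(I ⊓ (K ⊔ (P : Subgroup G)))) (P.subtype h1)
    ((k⁻¹ • P).subtype h2)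
  simp_rw [Sylow.smul_subtype, Subgroup.smul_def] at hh
  have h3 : (h : G) • P = k⁻¹ • P := Sylow.subtype_injective hh
  have h4 : (k * (h : G)) • P = P := by
    rw [mul_smul, h3, smul_inv_smul]
  have h5 : k * (h : G) ∈ Subgroup.normalizer ((P : Subgroup G) : Set G) :=
    Sylow.smul_eq_iff_mem_normalizer.mp h4
  obtain ⟨a, ha, b, hb, hab⟩ := Subgroup.mem_sup_of_normal_left.1 h.2.2
  have haI : a ∈ I := by
    have : a = (h : G) * b⁻¹ := by rw [← hab]; group
    rw [this]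
    exact I.mul_mem h.2.1 (I.inv_mem (hPI hb))
  refine ⟨a, haI, K.mul_mem hk ha, ?_⟩
  have h6 : k * a = k * (h : G) * b⁻¹ := by rw [← hab]; group
  rw [h6]
  exact Subgroup.mul_mem _ h5 (Subgroup.inv_mem _ (Subgroup.le_normalizer hb))

theorem card_orbit (I H : Subgroup G) :
    Nat.card (MulAction.orbit H ((1 : G) : G ⧸ I)) = I.relIndex H := by
  have h1 : MulAction.stabilizer H ((1 : G) : G ⧸ I) = I.subgroupOf H := by
    ext h
    rw [MulAction.mem_stabilizer_iff, Subgroup.mem_subgroupOf]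
    show ((((h : G) * 1 : G)) : G ⧸ I) = ((1 : G) : G ⧸ I) ↔ _
    rw [eq_comm, QuotientGroup.eq, mul_one, inv_one, one_mul]
  rw [Subgroup.relIndex, ← h1, MulAction.index_stabilizer]
  rfl

theorem relIndex_modEq [Finite G] {p : ℕ} [hp : Fact p.Prime] (P : Sylow p G)
    (K I : Subgroup G) [hK : K.Normal] (hPI : (P : Subgroup G) ≤ I) :
    I.relIndex K ≡ I.relIndex (K ⊓ Subgroup.normalizer ((P : Subgroup G) : Set G)) [MOD p] := by
  rw [← card_orbit, ← card_orbit]
  let S : SubMulAction (P : Subgroup G) (G ⧸ I) :=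
    { carrier := MulAction.orbit K ((1 : G) : G ⧸ I)
      smul_mem' := by
        rintro u _ ⟨k, rfl⟩
        refine ⟨⟨(u : G) * k * (u : G)⁻¹, hK.conj_mem k k.2 u⟩, ?_⟩
        show ((((u : G) * k * (u : G)⁻¹ * 1 : G)) : G ⧸ I) = (((u : G) * ((k : G) * 1) : G) : G ⧸ I)
        rw [QuotientGroup.eq]
        have : ((u : G) * k * (u : G)⁻¹ * 1)⁻¹ * ((u : G) * ((k : G) * 1)) = u := by group
        rw [this]
        exact hPI u.2 }
  have hmem : ∀ x : G ⧸ I, x ∈ S ↔ x ∈ MulAction.orbit K ((1 : G) : G ⧸ I) := fun x => Iff.rfl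
  have h := IsPGroup.card_modEq_card_fixedPoints P.isPGroup' S
  have e1 : Nat.card S = Nat.card (MulAction.orbit K ((1 : G) : G ⧸ I)) := rfl
  have e2 : Nat.card (MulAction.fixedPoints (P : Subgroup G) S) =
      Nat.card (MulAction.orbit ↥(K ⊓ Subgroup.normalizer ((P : Subgroup G) : Set G))
        ((1 : G) : G ⧸ I)) := by
    refine Nat.card_congr
      ⟨fun x => ⟨x.1.1, ?_⟩, fun x => ⟨⟨x.1, ?_⟩, ?_⟩, fun x => rfl, fun x => rfl⟩
    · obtain ⟨⟨x, ⟨k, hk⟩⟩, hx⟩ := x
      have hk' : (((k : G) * 1 : G) : G ⧸ I) = x := hk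
      subst hk'
      have h3 : ∀ u ∈ (P : Subgroup G), (k : G)⁻¹ * u * k ∈ I := by
        intro u hu
        have h4 : ((u * ((k : G) * 1) : G) : G ⧸ I) = (((k : G) * 1 : G) : G ⧸ I) :=
          congrArg Subtype.val (hx ⟨u, hu⟩)
        rw [eq_comm, QuotientGroup.eq] at h4
        have h5 : ((k : G) * 1)⁻¹ * (u * ((k : G) * 1)) = (k : G)⁻¹ * u * k := by group
        rwa [h5] at h4
      obtain ⟨a, ha, hka⟩ := exists_normalizing P K I hPI k.2 h3
      refine ⟨⟨(k : G) * a, hka⟩, ?_⟩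
      show ((((k : G) * a) * 1 : G) : G ⧸ I) = (((k : G) * 1 : G) : G ⧸ I)
      rw [eq_comm, QuotientGroup.eq]
      have h5 : ((k : G) * 1)⁻¹ * ((k : G) * a * 1) = a := by group
      rwa [h5]
    · obtain ⟨_, ⟨n, rfl⟩⟩ := x
      exact ⟨⟨(n : G), n.2.1⟩, rfl⟩
    · obtain ⟨_, ⟨n, rfl⟩⟩ := x
      intro u
      apply Subtype.ext
      show (((u : G) * ((n : G) * 1) : G) : G ⧸ I) = (((n : G) * 1 : G) : G ⧸ I)
      rw [eq_comm, QuotientGroup.eq]
      have h5 : ((n : G) * 1)⁻¹ * ((u : G) * ((n : G) * 1)) = (n : G)⁻¹ * u * n := by group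
      rw [h5]
      have h6 := (Subgroup.mem_normalizer_iff.1 (Subgroup.inv_mem _ n.2.2) (u : G)).1 u.2
      rw [inv_inv] at h6
      exact hPI h6
  rw [e1, e2] at h
  exact h

end Cfsg.Agent.H693.SylOrb
end

-- part: H693/RG1
section
/-!
# Clifford theory over a linear character of a normal `p`-subgroup, with respect to embeddings

`Q` normal in `G`, `lam` a linear character of `Q` with inertia group `I` in `G`, `F` an extension of
`lam` to `I ⊓ K`, invariant in `I`; `i : A →* G` injective with `Q ≤ i(A) ≤ K`.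

* `exists_ext` : existence of `F` when `Q` is a `p`-group and `p ∤ |K : Q|`.
* `Phi i β = Ind_{I ∩ A}^A (F β)`, the Clifford correspondence `Irr ((I ∩ A) / Q) → Irr(A | lam)`.
* `inner_Phi` : inner products of `Phi i β` and `Phi (i ∘ j) β'`, `j : B →* A`.
-/

set_option autoImplicit false
set_option linter.unusedSectionVars false

namespace Cfsg.Agent.H693.RG1

open Cfsg Cfsg.Agent.Characters.Core Cfsg.Agent.H693.RealD Cfsg.Agent.H693.Defl
  Cfsg.Agent.OddOrderCharacters.PF9.CliffGen Cfsg.Agent.OddOrderCharacters.IndRes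
  Cfsg.Agent.OddOrderCharacters.NormalInduced
open scoped ComplexConjugate

universe u

variable {G : Type u} [Group G] {Q : Subgroup G} [hQn : Q.Normal]

/-- The inertia group of a linear character. -/
abbrev In (lam : Q →* ℂˣ) : Subgroup G := inertia Q (fun q => (lam q : ℂ))

theorem mem_In {lam : Q →* ℂˣ} {g : G} :
    g ∈ In lam ↔ ∀ q : Q, lam ⟨g * q * g⁻¹, hQn.conj_mem q q.2 g⟩ = lam q := by
  rw [mem_inertia']
  exact forall_congr' fun q => ⟨fun h => Units.ext h, fun h => congrArg _ h⟩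

theorem le_In (lam : Q →* ℂˣ) : Q ≤ In lam :=
  le_inertia (isIrr_isClassFunction (Characters.Linear.isIrrCharacter_hom lam))

/-- The canonical extension. -/
theorem exists_ext [Finite G] {p : ℕ} [hp : Fact p.Prime] (hQp : IsPGroup p Q) {K : Subgroup G}
    [hK : K.Normal] (hQK : Q ≤ K) (hidx : ¬ p ∣ Q.relIndex K) (lam : Q →* ℂˣ) :
    ∃ F : ↥(In lam ⊓ K) →* ℂˣ, (∀ q : Q, F ⟨q, le_In lam q.2, hQK q.2⟩ = lam q) ∧
      ∀ x ∈ In lam, ∀ l l' : ↥(In lam ⊓ K), (l' : G) = x * l * x⁻¹ → F l' = F l := by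
  classical
  obtain ⟨k, hk⟩ := IsPGroup.iff_card.1 hQp
  have hQL : Q ≤ In lam ⊓ K := le_inf (le_In lam) hQK
  have hidx' : ¬ p ∣ Q.relIndex (In lam ⊓ K) := by
    intro h
    apply hidx
    rw [← Subgroup.relIndex_mul_relIndex Q (In lam ⊓ K) K hQL inf_le_right]
    exact h.mul_right _
  have hcop : Nat.Coprime (Q.relIndex (In lam ⊓ K)) (p ^ k) :=
    Nat.Coprime.pow_right k ((Nat.Prime.coprime_iff_not_dvd hp.out).2 hidx').symm
  let N : Subgroup ↥(In lam ⊓ K) := Q.subgroupOf (In lam ⊓ K)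
  have hN : N.Normal := hQn.subgroupOf _
  let φ : N →* ℂˣ := lam.comp (Subgroup.subgroupOfEquivOfLe hQL).toMonoidHom
  have hφ : ∀ n : N, φ n = lam ⟨((n : ↥(In lam ⊓ K)) : G), Subgroup.mem_subgroupOf.1 n.2⟩ :=
    fun n => rfl
  obtain ⟨F, hF, hFm⟩ := Cfsg.Agent.CharDeep.TransferExt.exists_extension_of_coprime N φ
    (fun g n => by
      rw [hφ, hφ]
      exact mem_In.1 g.2.1 ⟨((n : ↥(In lam ⊓ K)) : G), Subgroup.mem_subgroupOf.1 n.2⟩)
    (p ^ k) (fun n => by
      rw [hφ, ← map_pow, ← hk, pow_card_eq_one', map_one]) hcop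
  have hFQ : ∀ q : Q, F ⟨q, le_In lam q.2, hQK q.2⟩ = lam q := by
    intro q
    exact hF ⟨⟨q, le_In lam q.2, hQK q.2⟩, Subgroup.mem_subgroupOf.2 q.2⟩
  refine ⟨F, hFQ, ?_⟩
  intro x hx l l' hll
  -- the conjugate
  let c : ↥(In lam ⊓ K) →* ↥(In lam ⊓ K) :=
    { toFun := fun t => ⟨x * t * x⁻¹, (In lam).mul_mem ((In lam).mul_mem hx t.2.1)
        ((In lam).inv_mem hx), hK.conj_mem t t.2.2 x⟩
      map_one' := Subtype.ext (by simp)
      map_mul' := fun a b => Subtype.ext (by simp [mul_assoc]) }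
  let μ : ↥(In lam ⊓ K) →* ℂˣ := (F.comp c) * F⁻¹
  have hμ : ∀ t, μ t = F (c t) * (F t)⁻¹ := fun t => rfl
  have hμQ : ∀ t : ↥(In lam ⊓ K), (t : G) ∈ Q → μ t = 1 := by
    intro t ht
    have h1 : F t = lam ⟨t, ht⟩ := hFQ ⟨t, ht⟩
    have h2 : F (c t) = lam ⟨x * t * x⁻¹, hQn.conj_mem t ht x⟩ :=
      hFQ ⟨x * t * x⁻¹, hQn.conj_mem t ht x⟩
    rw [hμ, h1, h2, mem_In.1 hx ⟨t, ht⟩, mul_inv_cancel]
  have h1 : μ l ^ (Q.relIndex (In lam ⊓ K)) = 1 := by
    rw [← map_pow]
    apply hμQ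
    have := Subgroup.pow_index_mem N l
    exact Subgroup.mem_subgroupOf.1 this
  have h2 : μ l ^ (p ^ k) = 1 := by
    rw [hμ, mul_pow, hFm, inv_pow, hFm, inv_one, mul_one]
  have h3 : μ l = 1 := by
    rw [← orderOf_eq_one_iff]
    exact Nat.eq_one_of_dvd_coprimes hcop (orderOf_dvd_of_pow_eq_one h1)
      (orderOf_dvd_of_pow_eq_one h2)
  have h4 : l' = c l := Subtype.ext hll
  rw [hμ, mul_inv_eq_one] at h3
  rw [h4, h3]

section datum

variable {K : Subgroup G} {lam : Q →* ℂˣ} (F : ↥(In lam ⊓ K) →* ℂˣ)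
  {A : Type u} [Group A] (i : A →* G)

/-- The inertia group in `A`. -/
abbrev TA (lam : Q →* ℂˣ) (i : A →* G) : Subgroup A := (In lam).comap i

/-- The linear character of `Q`, in `A`. -/
def lamA (lam : Q →* ℂˣ) (i : A →* G) : Q.comap i →* ℂˣ := lam.comp (i.subgroupComap Q)

theorem lamA_apply (q : Q.comap i) : lamA lam i q = lam ⟨i q, q.2⟩ := rfl

/-- The inclusion of the inertia group. -/
def iT (lam : Q →* ℂˣ) (i : A →* G) (hiK : ∀ a, i a ∈ K) : TA lam i →* ↥(In lam ⊓ K) where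
  toFun t := ⟨i t, t.2, hiK t⟩
  map_one' := Subtype.ext (by simp)
  map_mul' a b := Subtype.ext (by simp)

/-- The extension, in `A`. -/
def FA (hiK : ∀ a, i a ∈ K) : TA lam i →* ℂˣ := F.comp (iT lam i hiK)

theorem FA_apply (hiK : ∀ a, i a ∈ K) (t : TA lam i) :
    FA F i hiK t = F ⟨i t, t.2, hiK t⟩ := rfl

theorem QA_le_TA : Q.comap i ≤ TA lam i := Subgroup.comap_mono (le_In lam)

/-- Extension property. -/
theorem FA_Q (hiK : ∀ a, i a ∈ K) (hQK : Q ≤ K)
    (hF : ∀ q : Q, F ⟨q, le_In lam q.2, hQK q.2⟩ = lam q) (q : Q.comap i) :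
    FA F i hiK ⟨q, QA_le_TA i q.2⟩ = lamA lam i q :=
  hF ⟨i q, q.2⟩

/-- The inertia group in `A`. -/
theorem mem_TA (hQi : ∀ q ∈ Q, ∃ a, i a = q) (g : A) :
    g ∈ TA lam i ↔ conjFn (Q.comap i) (fun n => (lamA lam i n : ℂ)) g =
      fun n => (lamA lam i n : ℂ) := by
  rw [Subgroup.mem_comap, mem_In, funext_iff]
  constructor
  · intro h n
    rw [conjFn_apply]
    congr 1
    rw [lamA_apply, lamA_apply]
    rw [← h ⟨i n, n.2⟩]
    congr 1
    apply Subtype.ext
    simp
  · rintro h ⟨q, hq⟩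
    obtain ⟨a, rfl⟩ := hQi q hq
    have h1 := h ⟨a, hq⟩
    rw [conjFn_apply] at h1
    have h2 := Units.ext h1
    rw [lamA_apply, lamA_apply] at h2
    rw [← h2]
    congr 1
    apply Subtype.ext
    simp

end datum

section cliff

variable {K : Subgroup G} {lam : Q →* ℂˣ} {F : ↥(In lam ⊓ K) →* ℂˣ}
  {A : Type u} [Group A] [Fintype A] {i : A →* G}

/-- The standing assumptions on the embedding. -/
structure Emb (Q K : Subgroup G) (i : A →* G) : Prop where
  inj : Function.Injective i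
  hQ : ∀ q ∈ Q, ∃ a, i a = q
  hK : ∀ a, i a ∈ K
  hQK : Q ≤ K

/-- The standing assumptions on the extension. -/
structure IsExt (Q K : Subgroup G) [hQn : Q.Normal] (hQK : Q ≤ K) (lam : Q →* ℂˣ)
    (F : ↥(In lam ⊓ K) →* ℂˣ) : Prop where
  ext : ∀ q : Q, F ⟨q, le_In lam q.2, hQK q.2⟩ = lam q
  inv : ∀ x ∈ In lam, ∀ l l' : ↥(In lam ⊓ K), (l' : G) = x * l * x⁻¹ → F l' = F l

/-- `χ` lies over `lam`. -/
def Over (lam : Q →* ℂˣ) (i : A →* G) (χ : A → ℂ) : Prop :=
  ∃ _ : Fintype (Q.comap i), classInner (res (Q.comap i) χ) (fun n => (lamA lam i n : ℂ)) ≠ 0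

theorem over_iff [inst : Fintype (Q.comap i)] {χ : A → ℂ} : Over lam i χ ↔
    classInner (res (Q.comap i) χ) (fun n => (lamA lam i n : ℂ)) ≠ 0 := by
  constructor
  · rintro ⟨inst', h⟩
    rwa [Subsingleton.elim inst' inst] at h
  · intro h
    exact ⟨inst, h⟩

/-- The Clifford correspondent. -/
noncomputable def Phi (F : ↥(In lam ⊓ K) →* ℂˣ) (i : A →* G) (hi : Emb Q K i)
    (β : TA lam i → ℂ) : A → ℂ :=
  indFun (TA lam i) (fun t => (FA F i hi.hK t : ℂ) * β t)

/-- Triviality on `Q`. -/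
def KerQ (lam : Q →* ℂˣ) (i : A →* G) (β : TA lam i → ℂ) : Prop :=
  ∀ n : Q.comap i, β ⟨n, QA_le_TA i n.2⟩ = β 1

theorem irr_Phi (hi : Emb Q K i) (hF : IsExt Q K hi.hQK lam F) {β : TA lam i → ℂ}
    (hβ : IsIrrCharacter (TA lam i) β) (hker : KerQ lam i β) :
    IsIrrCharacter A (Phi F i hi β) := by
  classical
  have := Fintype.ofFinite (TA lam i)
  have := Fintype.ofFinite (Q.comap i)
  exact irr_twist (lam := lamA lam i) (F := FA F i hi.hK) (fun g => mem_TA i hi.hQ g)
    (QA_le_TA i) (FA_Q F i hi.hK hi.hQK hF.ext) hβ hker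

theorem Phi_inj (hi : Emb Q K i) (hF : IsExt Q K hi.hQK lam F) {β β' : TA lam i → ℂ}
    (hβ : IsIrrCharacter (TA lam i) β) (hker : KerQ lam i β)
    (hβ' : IsIrrCharacter (TA lam i) β') (hker' : KerQ lam i β')
    (h : Phi F i hi β = Phi F i hi β') : β = β' := by
  classical
  have := Fintype.ofFinite (TA lam i)
  have := Fintype.ofFinite (Q.comap i)
  exact twist_inj (lam := lamA lam i) (F := FA F i hi.hK) (fun g => mem_TA i hi.hQ g)
    (QA_le_TA i) (FA_Q F i hi.hK hi.hQK hF.ext) hβ hker hβ' hker' h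

theorem exists_Phi (hi : Emb Q K i) (hF : IsExt Q K hi.hQK lam F) {χ : A → ℂ}
    (hχ : IsIrrCharacter A χ) (h0 : Over lam i χ) :
    ∃ β : TA lam i → ℂ, IsIrrCharacter (TA lam i) β ∧ KerQ lam i β ∧ χ = Phi F i hi β := by
  classical
  have := Fintype.ofFinite (TA lam i)
  have := Fintype.ofFinite (Q.comap i)
  exact exists_twist (lam := lamA lam i) (F := FA F i hi.hK) (fun g => mem_TA i hi.hQ g)
    (QA_le_TA i) (FA_Q F i hi.hK hi.hQK hF.ext) hχ (over_iff.1 h0)

theorem Phi_one (hi : Emb Q K i) (β : TA lam i → ℂ) :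
    Phi F i hi β 1 = (TA lam i).index * β 1 := by
  unfold Phi
  rw [indFun_apply_one, map_one, Units.val_one, one_mul]

/-- Transitivity of constituents. -/
theorem const_trans {H M : Type*} [Group H] [Fintype H] [Group M] [Fintype M] (φ : M →* H)
    {χ ψ : H → ℂ} {l : M → ℂ} (hχ : IsCharacter H χ) (hψ : IsIrrCharacter H ψ)
    (hl : IsCharacter M l) (h1 : classInner χ ψ ≠ 0) (h2 : classInner (fun m => ψ (φ m)) l ≠ 0) :
    classInner (fun m => χ (φ m)) l ≠ 0 := by
  have h3 := Cfsg.Agent.OddOrderCharacters.Clifford.isCharacter_sub_irr hχ hψ h1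
  have h4 : (fun m => χ (φ m)) = (fun m => ψ (φ m)) + (fun m => (χ - ψ) (φ m)) := by
    funext m
    simp
  rw [h4, classInner_add_left]
  obtain ⟨a, ha⟩ := classInner_isNat (isCharacter_comp φ (isIrr_isCharacter hψ)) hl
  obtain ⟨b, hb⟩ := classInner_isNat (isCharacter_comp φ h3) hl
  have ha' : classInner (fun m => ψ (φ m)) l = a := ha
  have hb' : classInner (fun m => (χ - ψ) (φ m)) l = b := hb
  rw [ha'] at h2 ⊢
  rw [hb']
  have h5 : a ≠ 0 := by
    rintro rfl
    exact h2 Nat.cast_zero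
  rw [← Nat.cast_add]
  exact_mod_cast (by omega : a + b ≠ 0)

section two

variable {B : Type u} [Group B] [Fintype B] {j : B →* A}

/-- The embedding of inertia groups. -/
def jT (lam : Q →* ℂˣ) (i : A →* G) (j : B →* A) : TA lam (i.comp j) →* TA lam i where
  toFun t := ⟨j t, t.2⟩
  map_one' := Subtype.ext (by simp)
  map_mul' a b := Subtype.ext (by simp)

/-- The embedding of the copies of `Q`. -/
def jQ (Q : Subgroup G) (i : A →* G) (j : B →* A) : Q.comap (i.comp j) →* Q.comap i where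
  toFun t := ⟨j t, t.2⟩
  map_one' := Subtype.ext (by simp)
  map_mul' a b := Subtype.ext (by simp)

theorem jQ_surj (hi : Emb Q K i) (hij : Emb Q K (i.comp j)) :
    Function.Surjective (jQ Q i j) := by
  rintro ⟨a, ha⟩
  obtain ⟨b, hb⟩ := hij.hQ (i a) ha
  have h1 : j b = a := hi.inj hb
  refine ⟨⟨b, ?_⟩, Subtype.ext h1⟩
  show i (j b) ∈ Q
  rw [h1]
  exact ha

/-- `Over` along `j`. -/
theorem over_comp (hi : Emb Q K i) (hij : Emb Q K (i.comp j)) {χ : A → ℂ} :
    Over lam (i.comp j) (fun b => χ (j b)) ↔ Over lam i χ := by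
  classical
  have := Fintype.ofFinite (Q.comap i)
  have := Fintype.ofFinite (Q.comap (i.comp j))
  rw [over_iff, over_iff, ← classInner_comp_surj (jQ Q i j) (jQ_surj hi hij)]
  rfl

/-- The inner product formula. -/
theorem inner_Phi [Fintype (TA lam (i.comp j))] (hi : Emb Q K i) (hij : Emb Q K (i.comp j))
    (hF : IsExt Q K hi.hQK lam F)
    {β : TA lam i → ℂ} (hβ : IsIrrCharacter (TA lam i) β) (hker : KerQ lam i β)
    {β' : TA lam (i.comp j) → ℂ} (hβ' : IsIrrCharacter (TA lam (i.comp j)) β')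
    (hker' : KerQ lam (i.comp j) β') :
    classInner (fun b => Phi F i hi β (j b)) (Phi F (i.comp j) hij β') =
      classInner (fun t => β (jT lam i j t)) β' := by
  classical
  have := Fintype.ofFinite (TA lam i)
  have := Fintype.ofFinite (Q.comap i)
  have := Fintype.ofFinite (Q.comap (i.comp j))
  have hfin := finite_irr (G := TA lam i)
  have := Fintype.ofFinite (IrrCharacter (TA lam i))
  have hPhi := irr_Phi hi hF hβ hker
  have hcl : IsClassFunction B (fun b => Phi F i hi β (j b)) := by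
    intro x y
    show Phi F i hi β (j (y * x * y⁻¹)) = Phi F i hi β (j x)
    rw [map_mul, map_mul, map_inv]
    exact isIrr_isClassFunction hPhi _ _
  conv_lhs => rw [Phi.eq_def F (i.comp j) hij β']
  rw [classInner_indFun_right _ _ hcl]
  set g : TA lam (i.comp j) → ℂ := fun t => (FA F (i.comp j) hij.hK t : ℂ) * β' t with hg
  have hgirr : IsIrrCharacter (TA lam (i.comp j)) g :=
    Cfsg.Agent.OddOrderCharacters.InertiaAbelian.isIrr_mul_hom _ hβ'
  set X : TA lam i → ℂ := res (TA lam i) (Phi F i hi β) with hX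
  have hXc : IsCharacter (TA lam i) X := isCharacter_res _ (isIrr_isCharacter hPhi)
  have h1 : res (TA lam (i.comp j)) (fun b => Phi F i hi β (j b)) =
      fun t => X (jT lam i j t) := rfl
  rw [h1]
  set η₀ : IrrCharacter (TA lam i) := ⟨fun t => (FA F i hi.hK t : ℂ) * β t,
    Cfsg.Agent.OddOrderCharacters.InertiaAbelian.isIrr_mul_hom _ hβ⟩ with hη₀
  have hX0 : classInner X (η₀ : TA lam i → ℂ) = 1 := by
    rw [hX, ← classInner_indFun_right _ _ (isIrr_isClassFunction hPhi)]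
    exact classInner_irr_self hPhi
  -- other constituents
  have hoth : ∀ η : IrrCharacter (TA lam i), η ≠ η₀ → classInner X (η : TA lam i → ℂ) *
      classInner (fun t => (η : TA lam i → ℂ) (jT lam i j t)) g = 0 := by
    intro η hη
    by_contra hne
    have hne1 := left_ne_zero_of_mul hne
    have hne2 := right_ne_zero_of_mul hne
    -- `η` lies over `lam`
    have hlc : IsCharacter (Q.comap (i.comp j)) (fun n => (lamA lam (i.comp j) n : ℂ)) :=
      isIrr_isCharacter (Characters.Linear.isIrrCharacter_hom _)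
    have h2 : classInner (fun n : Q.comap (i.comp j) =>
        (η : TA lam i → ℂ) (jT lam i j ⟨n, QA_le_TA (lam := lam) (i.comp j) n.2⟩))
        (fun n => (lamA lam (i.comp j) n : ℂ)) ≠ 0 := by
      refine const_trans (Subgroup.inclusion (QA_le_TA (lam := lam) (i.comp j)))
        (isCharacter_comp (jT lam i j) (isIrr_isCharacter η.2)) hgirr hlc hne2 ?_
      exact twist_over (lam := lamA lam (i.comp j)) (F := FA F (i.comp j) hij.hK)
        (QA_le_TA (i.comp j)) (FA_Q F (i.comp j) hij.hK hij.hQK hF.ext) hβ' hker'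
    have h3 : classInner (resTo (QA_le_TA (lam := lam) i) (η : TA lam i → ℂ))
        (fun n => (lamA lam i n : ℂ)) ≠ 0 := by
      rw [← classInner_comp_surj (jQ Q i j) (jQ_surj hi hij)]
      exact h2
    have hlirr : IsIrrCharacter (Q.comap i) (fun n => (lamA lam i n : ℂ)) :=
      Characters.Linear.isIrrCharacter_hom _
    have h4 := irr_ind hlirr (fun g => mem_TA i hi.hQ g) (QA_le_TA i) η.2 h3
    have h5 : classInner (Phi F i hi β) (indFun (TA lam i) (η : TA lam i → ℂ)) ≠ 0 := by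
      rw [classInner_indFun_right _ _ (isIrr_isClassFunction hPhi)]
      exact hne1
    have h6 : Phi F i hi β = indFun (TA lam i) (η : TA lam i → ℂ) := by
      by_contra h
      exact h5 (classInner_irr_ne hPhi h4 h)
    apply hη
    apply Subtype.ext
    refine (ind_inj hlirr (fun g => mem_TA i hi.hQ g) (QA_le_TA i) η.2 η₀.2 h3 ?_ h6.symm)
    exact twist_over (lam := lamA lam i) (F := FA F i hi.hK)
        (QA_le_TA i) (FA_Q F i hi.hK hi.hQK hF.ext) hβ hker
  have hexp := classFunction_eq_sum (isCharacter_isClassFunction hXc)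
  have h7 : (fun t => X (jT lam i j t)) = ∑ η : IrrCharacter (TA lam i),
      classInner X (η : TA lam i → ℂ) • (fun t => (η : TA lam i → ℂ) (jT lam i j t)) := by
    funext t
    conv_lhs => rw [hexp]
    rw [Finset.sum_apply, Finset.sum_apply]
    rfl
  rw [h7, classInner_sum_left, Finset.sum_eq_single η₀]
  · rw [classInner_smul_left, hX0, one_mul, classInner_def, classInner_def]
    congr 1
    refine Finset.sum_congr rfl fun t _ => ?_
    have h8 : (FA F i hi.hK (jT lam i j t) : ℂ) * conj (FA F (i.comp j) hij.hK t : ℂ) = 1 := by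
      have h9 : FA F i hi.hK (jT lam i j t) = FA F (i.comp j) hij.hK t := rfl
      rw [h9]
      have h10 := Cfsg.Agent.Characters.Linear.norm_hom_apply (FA F (i.comp j) hij.hK) t
      rw [Complex.mul_conj, Complex.normSq_eq_norm_sq, h10]
      simp
    rw [hg]
    show (FA F i hi.hK (jT lam i j t) : ℂ) * β (jT lam i j t) *
      conj ((FA F (i.comp j) hij.hK t : ℂ) * β' t) = _
    rw [map_mul]
    calc (FA F i hi.hK (jT lam i j t) : ℂ) * β (jT lam i j t) *
          (conj (FA F (i.comp j) hij.hK t : ℂ) * conj (β' t))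
        = ((FA F i hi.hK (jT lam i j t) : ℂ) * conj (FA F (i.comp j) hij.hK t : ℂ)) *
          (β (jT lam i j t) * conj (β' t)) := by ring
      _ = _ := by rw [h8, one_mul]
  · intro η _ hη
    rw [classInner_smul_left]
    exact hoth η hη
  · intro h
    exact absurd (Finset.mem_univ _) h

end two

end cliff

end Cfsg.Agent.H693.RG1
end

-- part: H693/RG2
section
/-!
# The Glauberman correspondence relative to a normal `p`-subgroup

`K` normal in `G`, `P` a Sylow `p`-subgroup, `Q = P ⊓ K` normal in `G`, `N = N_G(P)`. The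
`P`-invariant irreducible characters of `K` of degree prime to `p` correspond to those of `K ⊓ N`.
-/

set_option autoImplicit false
set_option linter.unusedSectionVars false

namespace Cfsg.Agent.H693.RG2

open Cfsg Cfsg.Agent.Characters.Core Cfsg.Agent.H693.RealD Cfsg.Agent.H693.Defl
  Cfsg.Agent.H693.RG1 Cfsg.Agent.H692.RealAct
  Cfsg.Agent.OddOrderCharacters.PF9.CliffGen Cfsg.Agent.OddOrderCharacters.IndRes
  Cfsg.Agent.OddOrderCharacters.NormalInduced
open scoped ComplexConjugate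

universe u

variable {G : Type u} [Group G] {Q : Subgroup G} [hQn : Q.Normal]

section general

variable {K : Subgroup G} {lam : Q →* ℂˣ} {F : ↥(In lam ⊓ K) →* ℂˣ}
  {A : Type u} [Group A] [Fintype A] {i : A →* G}

/-- The map to the quotient by `Q`. -/
def fi (lam : Q →* ℂˣ) (i : A →* G) : TA lam i →* G ⧸ Q :=
  (QuotientGroup.mk' Q).comp (i.comp (TA lam i).subtype)

theorem fi_apply (t : TA lam i) : fi lam i t = ((i t : G) : G ⧸ Q) := rfl

/-- Characters trivial on `Q` are functions of the image in the quotient. -/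
theorem factor {β : TA lam i → ℂ} (hβ : IsIrrCharacter (TA lam i) β) (hker : KerQ lam i β)
    {t t' : TA lam i} (h : fi lam i t = fi lam i t') : β t = β t' := by
  obtain ⟨β', -, hb⟩ := exists_defl (fi lam i).rangeRestrict (fi lam i).rangeRestrict_surjective
    hβ (fun a ha => by
      have h1 : fi lam i a = 1 := congrArg Subtype.val ha
      rw [fi_apply, QuotientGroup.eq_one_iff] at h1
      exact hker ⟨a, h1⟩)
  rw [hb, hb]
  congr 1
  exact Subtype.ext h

/-- An automorphism of the inertia group. -/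
def sT {u : G} (hu : u ∈ In lam) (σ : A ≃* A) (hσ : ∀ a, i (σ a) = u * i a * u⁻¹)
    (t : TA lam i) : TA lam i :=
  ⟨σ t, by
    show i (σ t) ∈ In lam
    rw [hσ]
    exact (In lam).mul_mem ((In lam).mul_mem hu t.2) ((In lam).inv_mem hu)⟩

/-- The Clifford correspondence commutes with conjugation. -/
theorem Phi_conj (hi : Emb Q K i) (hF : IsExt Q K hi.hQK lam F) {u : G} (hu : u ∈ In lam)
    (σ : A ≃* A) (hσ : ∀ a, i (σ a) = u * i a * u⁻¹) (β : TA lam i → ℂ) (a : A) :
    Phi F i hi β (σ a) = Phi F i hi (fun t => β (sT hu σ hσ t)) a := by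
  classical
  unfold Phi
  rw [indFun_apply, indFun_apply]
  congr 1
  refine (Fintype.sum_equiv σ.toEquiv _ _ fun x => ?_).symm
  have hiff : x⁻¹ * a * x ∈ TA lam i ↔ (σ x)⁻¹ * σ a * σ x ∈ TA lam i := by
    have h1 : (σ x)⁻¹ * σ a * σ x = σ (x⁻¹ * a * x) := by simp
    rw [h1]
    show i (x⁻¹ * a * x) ∈ In lam ↔ i (σ (x⁻¹ * a * x)) ∈ In lam
    rw [hσ]
    constructor
    · intro h
      exact (In lam).mul_mem ((In lam).mul_mem hu h) ((In lam).inv_mem hu)
    · intro h
      have h2 : i (x⁻¹ * a * x) = u⁻¹ * (u * i (x⁻¹ * a * x) * u⁻¹) * u := by group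
      rw [h2]
      exact (In lam).mul_mem ((In lam).mul_mem ((In lam).inv_mem hu) h) hu
  show extendByZero (TA lam i) _ (x⁻¹ * a * x) = extendByZero (TA lam i) _ ((σ x)⁻¹ * σ a * σ x)
  by_cases hx : x⁻¹ * a * x ∈ TA lam i
  · rw [extendByZero_of_mem _ _ hx, extendByZero_of_mem _ _ (hiff.1 hx)]
    have h3 : (⟨(σ x)⁻¹ * σ a * σ x, hiff.1 hx⟩ : TA lam i) =
        sT hu σ hσ ⟨x⁻¹ * a * x, hx⟩ := by
      apply Subtype.ext
      show (σ x)⁻¹ * σ a * σ x = σ (x⁻¹ * a * x)
      simp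
    rw [h3]
    congr 2
    symm
    exact hF.inv u hu _ _ (hσ _)
  · rw [extendByZero_of_notMem _ _ hx, extendByZero_of_notMem _ _ (fun h => hx (hiff.2 h))]

/-- Conjugates of characters of the inertia group. -/
theorem irr_sT {u : G} (hu : u ∈ In lam) (σ : A ≃* A) (hσ : ∀ a, i (σ a) = u * i a * u⁻¹)
    {β : TA lam i → ℂ} (hβ : IsIrrCharacter (TA lam i) β) :
    IsIrrCharacter (TA lam i) (fun t => β (sT hu σ hσ t)) := by
  let e : TA lam i →* TA lam i :=
    { toFun := sT hu σ hσ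
      map_one' := Subtype.ext (map_one σ)
      map_mul' := fun a b => Subtype.ext (map_mul σ _ _) }
  have he : Function.Surjective e := by
    rintro ⟨a, ha⟩
    refine ⟨⟨σ.symm a, ?_⟩, Subtype.ext (σ.apply_symm_apply a)⟩
    show i (σ.symm a) ∈ In lam
    have h1 := hσ (σ.symm a)
    rw [σ.apply_symm_apply] at h1
    have h2 : i (σ.symm a) = u⁻¹ * i a * u := by rw [h1]; group
    rw [h2]
    exact (In lam).mul_mem ((In lam).mul_mem ((In lam).inv_mem hu) ha) hu
  exact isIrr_comp e he hβ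

theorem kerQ_sT {u : G} (hu : u ∈ In lam) (σ : A ≃* A) (hσ : ∀ a, i (σ a) = u * i a * u⁻¹)
    {β : TA lam i → ℂ} (hker : KerQ lam i β) : KerQ lam i (fun t => β (sT hu σ hσ t)) := by
  intro n
  have h1 : σ n ∈ Q.comap i := by
    show i (σ n) ∈ Q
    rw [hσ]
    exact hQn.conj_mem _ n.2 u
  have h2 : sT hu σ hσ 1 = 1 := Subtype.ext (map_one σ)
  show β (sT hu σ hσ ⟨n, _⟩) = β (sT hu σ hσ 1)
  rw [h2]
  exact hker ⟨σ n, h1⟩

/-- Invariance passes to the Clifford correspondent. -/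
theorem hinv_of_Phi (hi : Emb Q K i) (hF : IsExt Q K hi.hQK lam F) {P : Subgroup G}
    (hP : P ≤ In lam) (hσ : ∀ u ∈ P, ∃ σ : A ≃* A, ∀ a, i (σ a) = u * i a * u⁻¹)
    {β : TA lam i → ℂ} (hβ : IsIrrCharacter (TA lam i) β) (hker : KerQ lam i β)
    (hinv : HInv P i (Phi F i hi β)) :
    HInv (P.map (QuotientGroup.mk' Q)) (fi lam i) β := by
  rintro _ ⟨u, hu, rfl⟩ a a' haa
  obtain ⟨σ, hσu⟩ := hσ u hu
  have h1 : Phi F i hi (fun t => β (sT (hP hu) σ hσu t)) = Phi F i hi β := by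
    funext x
    rw [← Phi_conj hi hF (hP hu) σ hσu β x]
    exact hinv u hu x (σ x) (hσu x)
  have h2 := Phi_inj hi hF (irr_sT (hP hu) σ hσu hβ) (kerQ_sT (hP hu) σ hσu hker) hβ hker h1
  rw [← congrFun h2 a]
  apply factor hβ hker
  rw [haa, fi_apply, fi_apply]
  show _ = ((i (σ a) : G) : G ⧸ Q)
  rw [hσu]
  rfl

/-- Invariance of the Clifford correspondent. -/
theorem hinv_Phi (hi : Emb Q K i) (hF : IsExt Q K hi.hQK lam F) {P : Subgroup G}
    (hP : P ≤ In lam) (hσ : ∀ u ∈ P, ∃ σ : A ≃* A, ∀ a, i (σ a) = u * i a * u⁻¹)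
    {β : TA lam i → ℂ} (hinv : HInv (P.map (QuotientGroup.mk' Q)) (fi lam i) β) :
    HInv P i (Phi F i hi β) := by
  intro u hu a a' haa
  obtain ⟨σ, hσu⟩ := hσ u hu
  have h1 : a' = σ a := hi.inj (haa.trans (hσu a).symm)
  rw [h1, Phi_conj hi hF (hP hu) σ hσu β a]
  congr 1
  funext t
  refine hinv _ ⟨u, hu, rfl⟩ _ _ ?_
  rw [fi_apply, fi_apply]
  show ((i (σ t) : G) : G ⧸ Q) = _
  rw [hσu]
  rfl

/-- **Existence of an invariant linear constituent.** -/
theorem exists_lam {p : ℕ} [hp : Fact p.Prime] [Finite G] (hQp : IsPGroup p Q) {P : Subgroup G}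
    (hPp : IsPGroup p P) (hi : Emb Q K i) {χ : A → ℂ} (hχ : IsIrrCharacter A χ)
    (hinv : HInv P i χ) (hd : ¬ p ∣ charDegree χ) :
    ∃ lam : Q →* ℂˣ, P ≤ In lam ∧ Over lam i χ := by
  classical
  have := Fintype.ofFinite G
  have := Fintype.ofFinite Q
  have := Fintype.ofFinite P
  have := Fintype.ofFinite (Q.comap i)
  have hfin := finite_irr (G := Q)
  have := Fintype.ofFinite (IrrCharacter Q)
  -- the restriction to `Q`
  let e : A ≃* i.range := MonoidHom.ofInjective hi.inj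
  let ι : Q →* A := e.symm.toMonoidHom.comp (Subgroup.inclusion (show Q ≤ i.range from
    fun q hq => hi.hQ q hq))
  have hι : ∀ q : Q, i (ι q) = q := by
    intro q
    have h1 : e (ι q) = ⟨q, hi.hQ q q.2⟩ := e.apply_symm_apply _
    exact congrArg Subtype.val h1
  have hχQ : IsCharacter Q (fun q => χ (ι q)) := isCharacter_comp ι (isIrr_isCharacter hχ)
  obtain ⟨c, hc⟩ := isCharacter_iff.1 hχQ
  have hci : ∀ μ : IrrCharacter Q, classInner (fun q => χ (ι q)) (μ : Q → ℂ) = c μ := by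
    intro μ
    conv_lhs => rw [hc]
    exact classInner_sum_nsmul_irr c μ
  have hχinv : ∀ u ∈ P, ∀ q : Q, χ (ι (MulAut.conjNormal u q)) = χ (ι q) := by
    intro u hu q
    apply hinv u hu
    rw [hι, hι]
    simp
  let act : MulAction P (IrrCharacter Q) :=
    { smul := fun u μ => irrSmul (u : G) μ
      one_smul := fun μ => irrSmul_one μ
      mul_smul := fun a b μ => irrSmul_mul (a : G) (b : G) μ }
  have hsm : ∀ (u : P) (μ : IrrCharacter Q), u • μ = irrSmul (u : G) μ := fun _ _ => rfl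
  have hcinv : ∀ (u : P) (μ : IrrCharacter Q), c (u • μ) = c μ := by
    intro u μ
    have h1 := hci (u • μ)
    have h2 : classInner (fun q => χ (ι q)) ((u • μ : IrrCharacter Q) : Q → ℂ) =
        classInner (fun q => χ (ι q)) (μ : Q → ℂ) := by
      rw [classInner_def, classInner_def]
      congr 1
      refine Fintype.sum_equiv (MulAut.conjNormal (u : G)⁻¹ : MulAut Q).toEquiv _ _ fun q => ?_
      rw [hsm, irrSmul_apply]
      congr 1
      exact (hχinv _ (P.inv_mem u.2) q).symm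
    rw [h2, hci] at h1
    exact_mod_cast h1.symm
  have hdinv : ∀ (u : P) (μ : IrrCharacter Q),
      charDegree ((u • μ : IrrCharacter Q) : Q → ℂ) = charDegree (μ : Q → ℂ) := by
    intro u μ
    unfold charDegree
    rw [hsm, irrSmul_apply, map_one]
  have hsum : charDegree χ = ∑ μ : IrrCharacter Q, c μ * charDegree (μ : Q → ℂ) := by
    apply charDegree_of_natCast
    have h1 : χ 1 = χ (ι 1) := by rw [map_one]
    rw [h1]
    have h2 := congrFun hc 1
    rw [h2, Finset.sum_apply]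
    push_cast
    refine Finset.sum_congr rfl fun γ _ => ?_
    rw [Pi.smul_apply, nsmul_eq_mul, charDegree_eq (isIrr_isCharacter γ.2)]
  have hmod := Cfsg.Agent.H596.sum_modEq_sum_fixed hPp
    (fun μ : IrrCharacter Q => c μ * charDegree (μ : Q → ℂ))
    (fun u μ => by simp only [hcinv, hdinv])
  have hex : ∃ μ : IrrCharacter Q, (∀ u : P, u • μ = μ) ∧ ¬ p ∣ c μ * charDegree (μ : Q → ℂ) := by
    by_contra hcon
    push Not at hcon
    apply hd
    rw [hsum]
    refine (Nat.modEq_zero_iff_dvd).1 (hmod.trans ((Nat.modEq_zero_iff_dvd).2 ?_))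
    refine Finset.dvd_sum fun μ hμ => ?_
    simp only [Finset.mem_filter, Finset.mem_univ, true_and] at hμ
    exact hcon μ hμ
  obtain ⟨μ, hμfix, hμp⟩ := hex
  have hμd : charDegree (μ : Q → ℂ) = 1 := by
    obtain ⟨k, hk⟩ := IsPGroup.iff_card.1 hQp
    have h1 := Cfsg.Agent.H593.GlaubermanP.charDegree_dvd μ.2
    rw [hk, Nat.dvd_prime_pow hp.out] at h1
    obtain ⟨l, -, hl⟩ := h1
    rcases Nat.eq_zero_or_pos l with h2 | h2
    · rw [hl, h2, pow_zero]
    · exfalso
      apply hμp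
      rw [hl]
      exact (dvd_pow_self p h2.ne').mul_left _
  obtain ⟨lam, hlam⟩ := Characters.Linear.exists_hom_of_isIrrCharacter μ.2 (by
    rw [charDegree_eq (isIrr_isCharacter μ.2), hμd, Nat.cast_one])
  refine ⟨lam, ?_, ?_⟩
  · intro u hu
    rw [mem_In]
    intro q
    apply Units.ext
    have h1 := congrFun (congrArg Subtype.val (hμfix ⟨u⁻¹, P.inv_mem hu⟩)) q
    rw [hsm, irrSmul_apply, hlam] at h1
    refine Eq.trans ?_ h1
    show ((lam _ : ℂˣ) : ℂ) = ((lam _ : ℂˣ) : ℂ)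
    congr 2
    apply Subtype.ext
    simp
  · rw [over_iff]
    have hπ : Function.Surjective (i.subgroupComap Q) := by
      rintro ⟨q, hq⟩
      obtain ⟨a, ha⟩ := hi.hQ q hq
      exact ⟨⟨a, by show i a ∈ Q; rw [ha]; exact hq⟩, Subtype.ext ha⟩
    have h1 : classInner (res (Q.comap i) χ) (fun n => (lamA lam i n : ℂ)) =
        classInner (fun q => χ (ι q)) (μ : Q → ℂ) := by
      rw [← classInner_comp_surj (i.subgroupComap Q) hπ]
      congr 1
      · funext n
        rw [res_apply]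
        congr 1
        apply hi.inj
        rw [hι]
        rfl
      · funext n
        rw [hlam]
        rfl
    rw [h1, hci]
    intro h2
    have h3 : c μ = 0 := by exact_mod_cast h2
    apply hμp
    rw [h3, zero_mul]
    exact dvd_zero p

end general

section main

variable [Fintype G] {p : ℕ} [hp : Fact p.Prime] (P : Sylow p G) (K : Subgroup G) [hK : K.Normal]

/-- The normalizer. -/
abbrev Nz : Subgroup G := Subgroup.normalizer ((P : Subgroup G) : Set G)

/-- The subgroup `K ⊓ N` of `N`. -/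
abbrev KN : Subgroup (Nz P) := K.subgroupOf (Nz P)

/-- The embedding of `K ⊓ N` in `K`. -/
def jM : KN P K →* K where
  toFun m := ⟨((m : Nz P) : G), m.2⟩
  map_one' := rfl
  map_mul' _ _ := rfl

variable {P K}

theorem mem_Q (hQ : Q = (P : Subgroup G) ⊓ K) {x : G} :
    x ∈ Q ↔ x ∈ (P : Subgroup G) ∧ x ∈ K := by
  rw [hQ]
  exact Iff.rfl

theorem jM_coe (m : KN P K) : ((jM P K m : K) : G) = ((m : Nz P) : G) := rfl

theorem embK (hQ : Q = (P : Subgroup G) ⊓ K) : Emb Q K K.subtype where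
  inj := K.subtype_injective
  hQ := fun q hq => ⟨⟨q, (hQ ▸ hq : q ∈ (P : Subgroup G) ⊓ K).2⟩, rfl⟩
  hK := fun a => a.2
  hQK := hQ ▸ inf_le_right

theorem embM (hQ : Q = (P : Subgroup G) ⊓ K) : Emb Q K (K.subtype.comp (jM P K)) where
  inj := by
    intro a b h
    apply Subtype.ext
    apply Subtype.ext
    exact h
  hQ := fun q hq => by
    have h1 : q ∈ (P : Subgroup G) ⊓ K := hQ ▸ hq
    exact ⟨⟨⟨q, Subgroup.le_normalizer h1.1⟩, h1.2⟩, rfl⟩
  hK := fun a => a.2
  hQK := hQ ▸ inf_le_right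

theorem sigmaK {u : G} (_hu : u ∈ (P : Subgroup G)) :
    ∃ σ : K ≃* K, ∀ a, K.subtype (σ a) = u * K.subtype a * u⁻¹ :=
  ⟨MulAut.conjNormal u, fun _ => rfl⟩

theorem sigmaM {u : G} (hu : u ∈ (P : Subgroup G)) :
    ∃ σ : KN P K ≃* KN P K, ∀ a, (K.subtype.comp (jM P K)) (σ a) =
      u * (K.subtype.comp (jM P K)) a * u⁻¹ :=
  ⟨MulAut.conjNormal (⟨u, Subgroup.le_normalizer hu⟩ : Nz P), fun _ => rfl⟩

theorem isPGroup_Q (hQ : Q = (P : Subgroup G) ⊓ K) : IsPGroup p Q := by
  have h1 : Q ≤ (P : Subgroup G) := hQ ▸ inf_le_left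
  exact P.isPGroup'.to_le h1

theorem not_dvd_relIndex (hQ : Q = (P : Subgroup G) ⊓ K) : ¬ p ∣ Q.relIndex K := by
  have h1 : Nat.card Q * Q.relIndex K = Nat.card K := by
    rw [← Subgroup.relIndex_bot_left, ← Subgroup.relIndex_bot_left]
    exact Subgroup.relIndex_mul_relIndex ⊥ Q K bot_le (hQ ▸ inf_le_right)
  have h2 : Nat.card Q * K.relIndex (P : Subgroup G) = Nat.card (P : Subgroup G) := by
    rw [← Subgroup.relIndex_bot_left, ← Subgroup.relIndex_bot_left,
      ← Subgroup.inf_relIndex_right K (P : Subgroup G), inf_comm, ← hQ]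
    exact Subgroup.relIndex_mul_relIndex ⊥ Q _ bot_le (hQ ▸ inf_le_left)
  have h3 : Nat.card (P : Subgroup G) * (P : Subgroup G).relIndex (K ⊔ (P : Subgroup G)) =
      Nat.card (K ⊔ (P : Subgroup G) : Subgroup G) := by
    rw [← Subgroup.relIndex_bot_left, ← Subgroup.relIndex_bot_left]
    exact Subgroup.relIndex_mul_relIndex ⊥ _ _ bot_le le_sup_right
  have h4 : Nat.card K * K.relIndex (P : Subgroup G) =
      Nat.card (K ⊔ (P : Subgroup G) : Subgroup G) := by
    have h40 : K.relIndex (K ⊔ (P : Subgroup G)) = K.relIndex (P : Subgroup G) :=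
      Subgroup.relIndex_sup_left _ _
    rw [← h40, ← Subgroup.relIndex_bot_left, ← Subgroup.relIndex_bot_left]
    exact Subgroup.relIndex_mul_relIndex ⊥ _ _ bot_le le_sup_left
  have h5 : (P : Subgroup G).relIndex (K ⊔ (P : Subgroup G)) = Q.relIndex K := by
    have h6 : Nat.card (P : Subgroup G) * (P : Subgroup G).relIndex (K ⊔ (P : Subgroup G)) =
        Nat.card (P : Subgroup G) * Q.relIndex K := by
      rw [h3, ← h4, ← h1, ← h2]
      ring
    exact Nat.eq_of_mul_eq_mul_left Nat.card_pos h6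
  rw [← h5]
  intro h
  exact P.not_dvd_index (h.trans (Subgroup.relIndex_dvd_index_of_le le_sup_right))

variable [Fintype K] [Fintype (KN P K)]

/-- The data of the Glauberman correspondence in `G / Q`. -/
theorem dat (hQ : Q = (P : Subgroup G) ⊓ K) {lam : Q →* ℂˣ} (hP : (P : Subgroup G) ≤ In lam) :
    Dat p ((P : Subgroup G).map (QuotientGroup.mk' Q)) (fi lam K.subtype)
      (jT lam K.subtype (jM P K)) where
  pgroup := P.isPGroup'.map _
  norm := by
    rintro _ ⟨u, hu, rfl⟩ a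
    obtain ⟨σ, hσ⟩ := sigmaK (P := P) (K := K) hu
    refine ⟨sT (hP hu) σ hσ a, ?_⟩
    rw [fi_apply, fi_apply]
    show ((K.subtype (σ a) : G) : G ⧸ Q) = _
    rw [hσ]
    rfl
  ndvd := by
    rw [← Subgroup.index_ker]
    have h1 : (fi lam K.subtype).ker = (Q.comap K.subtype).subgroupOf (TA lam K.subtype) := by
      ext t
      rw [MonoidHom.mem_ker, fi_apply, QuotientGroup.eq_one_iff, Subgroup.mem_subgroupOf,
        Subgroup.mem_comap]
    rw [h1]
    intro h
    have h2 : (Q.comap K.subtype).relIndex (TA lam K.subtype) ∣ (Q.comap K.subtype).index :=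
      Subgroup.relIndex_dvd_index_of_le (QA_le_TA K.subtype)
    exact not_dvd_relIndex hQ (h.trans h2)
  fix := by
    intro a
    have hcoe : fi lam K.subtype a = (((a : K) : G) : G ⧸ Q) := rfl
    constructor
    · intro h
      have h1 : ∀ u ∈ (P : Subgroup G), ((u * ((a : K) : G) * u⁻¹ : G) : G ⧸ Q) =
          (((a : K) : G) : G ⧸ Q) := fun u hu => h _ ⟨u, hu, rfl⟩
      have hN : ((a : K) : G) ∈ Nz P := by
        rw [Subgroup.mem_normalizer_iff]
        intro x
        constructor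
        · intro hx
          have h2 := h1 x hx
          rw [eq_comm, QuotientGroup.eq] at h2
          have h3 : ((a : K) : G)⁻¹ * (x * ((a : K) : G) * x⁻¹) ∈ Q := h2
          have h4 := hQn.conj_mem _ h3 ((a : K) : G)
          have h5 : ((a : K) : G) * (((a : K) : G)⁻¹ * (x * ((a : K) : G) * x⁻¹)) *
            ((a : K) : G)⁻¹ = x * (((a : K) : G) * x * ((a : K) : G)⁻¹)⁻¹ := by group
          rw [h5] at h4
          have h6 : x * (((a : K) : G) * x * ((a : K) : G)⁻¹)⁻¹ ∈ (P : Subgroup G) :=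
            ((mem_Q hQ).1 h4).1
          have h7 := (P : Subgroup G).mul_mem ((P : Subgroup G).inv_mem h6) hx
          have h8 : (x * (((a : K) : G) * x * ((a : K) : G)⁻¹)⁻¹)⁻¹ * x =
            ((a : K) : G) * x * ((a : K) : G)⁻¹ := by group
          rwa [h8] at h7
        · intro hx
          have h2 := h1 _ hx
          rw [eq_comm, QuotientGroup.eq] at h2
          have h3 : ((a : K) : G)⁻¹ * (((a : K) : G) * x * ((a : K) : G)⁻¹ * ((a : K) : G) *
            (((a : K) : G) * x * ((a : K) : G)⁻¹)⁻¹) =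
            x * (((a : K) : G) * x * ((a : K) : G)⁻¹)⁻¹ := by group
          rw [h3] at h2
          have h4 : x * (((a : K) : G) * x * ((a : K) : G)⁻¹)⁻¹ ∈ (P : Subgroup G) :=
            ((mem_Q hQ).1 h2).1
          have h5 := (P : Subgroup G).mul_mem h4 hx
          rwa [inv_mul_cancel_right] at h5
      exact ⟨⟨⟨⟨((a : K) : G), hN⟩, (a : K).2⟩, a.2⟩, rfl⟩
    · rintro ⟨b, hb⟩ _ ⟨u, hu, rfl⟩
      rw [← hb]
      set n : G := (((b : KN P K) : Nz P) : G) with hn
      have hnN : n ∈ Nz P := ((b : KN P K) : Nz P).2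
      have hnK : n ∈ K := (b : KN P K).2
      have hcoe' : fi lam K.subtype (jT lam K.subtype (jM P K) b) = ((n : G) : G ⧸ Q) := rfl
      rw [hcoe']
      show ((u * n * u⁻¹ : G) : G ⧸ Q) = _
      rw [eq_comm, QuotientGroup.eq, mem_Q hQ]
      refine ⟨?_, ?_⟩
      · have h1 := (Subgroup.mem_normalizer_iff.1 ((Nz P).inv_mem hnN) u).1 hu
        rw [inv_inv] at h1
        have h2 : n⁻¹ * (u * n * u⁻¹) = n⁻¹ * u * n * u⁻¹ := by group
        rw [h2]
        exact (P : Subgroup G).mul_mem h1 ((P : Subgroup G).inv_mem hu)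
      · exact K.mul_mem (K.inv_mem hnK) (hK.conj_mem n hnK u)

/-- Indices of the inertia groups. -/
theorem index_cong {lam : Q →* ℂˣ} (hP : (P : Subgroup G) ≤ In lam) :
    (TA lam K.subtype).index ≡ (TA lam (K.subtype.comp (jM P K))).index [MOD p] := by
  have h1 : (TA lam K.subtype).index = (In lam).relIndex K := by
    show ((In lam).comap K.subtype).index = _
    rw [Subgroup.index_comap, Subgroup.range_subtype]
  have h2 : (TA lam (K.subtype.comp (jM P K))).index = (In lam).relIndex (K ⊓ Nz P) := by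
    show ((In lam).comap (K.subtype.comp (jM P K))).index = _
    rw [Subgroup.index_comap]
    congr 1
    ext x
    constructor
    · rintro ⟨m, rfl⟩
      exact ⟨m.2, (m : Nz P).2⟩
    · rintro ⟨hx1, hx2⟩
      exact ⟨⟨⟨x, hx2⟩, hx1⟩, rfl⟩
  rw [h1, h2]
  exact SylOrb.relIndex_modEq P K (In lam) hP

/-- Degrees of the Clifford correspondents. -/
theorem degree_Phi {L : Subgroup G} {lam : Q →* ℂˣ} {F : ↥(In lam ⊓ L) →* ℂˣ}
    {A : Type u} [Group A] [Fintype A] {i : A →* G} (hi : Emb Q L i)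
    {β : TA lam i → ℂ} (hβ : IsIrrCharacter (TA lam i) β) :
    charDegree (Phi F i hi β) = (TA lam i).index * charDegree β := by
  apply charDegree_of_natCast
  rw [Phi_one, charDegree_eq (isIrr_isCharacter hβ), Nat.cast_mul]

/-- Congruence of the degrees of the Clifford correspondents. -/
theorem degCong_Phi (hQ : Q = (P : Subgroup G) ⊓ K) {lam : Q →* ℂˣ}
    (hP : (P : Subgroup G) ≤ In lam) {F : ↥(In lam ⊓ K) →* ℂˣ}
    {β : TA lam K.subtype → ℂ} (hβ : IsIrrCharacter (TA lam K.subtype) β)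
    {β' : TA lam (K.subtype.comp (jM P K)) → ℂ}
    (hβ' : IsIrrCharacter (TA lam (K.subtype.comp (jM P K))) β')
    (h : DegCong p β β') :
    DegCong p (Phi F K.subtype (embK hQ) β) (Phi F (K.subtype.comp (jM P K)) (embM hQ) β') := by
  unfold DegCong at h ⊢
  rw [degree_Phi (embK hQ) hβ, degree_Phi (embM hQ) hβ']
  have h1 : (((TA lam (K.subtype.comp (jM P K))).index : ℕ) : ZMod p) =
      (((TA lam K.subtype).index : ℕ) : ZMod p) :=
    (ZMod.natCast_eq_natCast_iff _ _ p).2 (index_cong hP).symm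
  push_cast
  rw [h1]
  rcases h with h | h
  · left
    rw [h]
  · right
    rw [h, mul_neg]

/-- The degrees are simultaneously prime to `p`. -/
theorem not_dvd_of_degCong {A B : Type*} [Group A] [Group B] {χ : A → ℂ} {β : B → ℂ}
    (h : DegCong p χ β) : p ∣ charDegree χ ↔ p ∣ charDegree β := by
  rw [← ZMod.natCast_eq_zero_iff, ← ZMod.natCast_eq_zero_iff]
  rcases h with h | h
  · rw [h]
  · rw [h, neg_eq_zero]

/-- **Existence.** -/
theorem exists_beta (hQ : Q = (P : Subgroup G) ⊓ K) {θ : K → ℂ} (hθ : IsIrrCharacter K θ)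
    (hinv : HInv (P : Subgroup G) K.subtype θ) (hd : ¬ p ∣ charDegree θ) :
    ∃ θ' : KN P K → ℂ, IsIrrCharacter (KN P K) θ' ∧
      HInv (P : Subgroup G) (K.subtype.comp (jM P K)) θ' ∧ ¬ p ∣ charDegree θ' ∧
      Rel p (jM P K) θ θ' ∧ DegCong p θ θ' := by
  classical
  obtain ⟨lam, hlam, hover⟩ := exists_lam (isPGroup_Q hQ) P.isPGroup' (embK hQ) hθ hinv hd
  have := Fintype.ofFinite (TA lam K.subtype)
  have := Fintype.ofFinite (TA lam (K.subtype.comp (jM P K)))
  obtain ⟨F, hF1, hF2⟩ := exists_ext (isPGroup_Q hQ) (embK hQ).hQK (not_dvd_relIndex hQ) lam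
  have hF : IsExt Q K (embK hQ).hQK lam F := ⟨hF1, hF2⟩
  obtain ⟨β, hβ, hker, rfl⟩ := exists_Phi (embK hQ) hF hθ hover
  have hD := dat hQ hlam
  have hinvβ := hinv_of_Phi (embK hQ) hF hlam (fun u hu => sigmaK hu) hβ hker hinv
  obtain ⟨β', hβ', hker', hrel⟩ := hD.exists_beta hβ hinvβ
  have hkerQ' : KerQ lam (K.subtype.comp (jM P K)) β' := by
    intro n
    apply hker'
    exact (QuotientGroup.eq_one_iff _).2 n.2
  have hdeg := hD.deg hβ hinvβ hβ' hker' hrel
  have hdeg' := degCong_Phi (F := F) hQ hlam hβ hβ' hdeg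
  refine ⟨Phi F (K.subtype.comp (jM P K)) (embM hQ) β', irr_Phi (embM hQ) hF hβ' hkerQ',
    ?_, ?_, ?_, hdeg'⟩
  · apply hinv_Phi (embM hQ) hF hlam (fun u hu => sigmaM hu)
    intro s hs a a' haa
    apply factor hβ' hkerQ'
    rw [haa]
    exact (hD.fix (jT lam K.subtype (jM P K) a)).2 ⟨a, rfl⟩ s hs
  · rw [← not_dvd_of_degCong hdeg']
    exact hd
  · obtain ⟨m, hm, hpm⟩ := hrel
    refine ⟨m, ?_, hpm⟩
    rw [← hm]
    exact inner_Phi (embK hQ) (embM hQ) hF hβ hker hβ' hkerQ'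

/-- **Surjectivity.** -/
theorem exists_chi (hQ : Q = (P : Subgroup G) ⊓ K) {θ' : KN P K → ℂ}
    (hθ' : IsIrrCharacter (KN P K) θ')
    (hinv : HInv (P : Subgroup G) (K.subtype.comp (jM P K)) θ') (hd : ¬ p ∣ charDegree θ') :
    ∃ θ : K → ℂ, IsIrrCharacter K θ ∧ HInv (P : Subgroup G) K.subtype θ ∧ ¬ p ∣ charDegree θ ∧
      Rel p (jM P K) θ θ' := by
  classical
  obtain ⟨lam, hlam, hover⟩ := exists_lam (isPGroup_Q hQ) P.isPGroup' (embM hQ) hθ' hinv hd
  have := Fintype.ofFinite (TA lam K.subtype)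
  have := Fintype.ofFinite (TA lam (K.subtype.comp (jM P K)))
  obtain ⟨F, hF1, hF2⟩ := exists_ext (isPGroup_Q hQ) (embK hQ).hQK (not_dvd_relIndex hQ) lam
  have hF : IsExt Q K (embK hQ).hQK lam F := ⟨hF1, hF2⟩
  obtain ⟨β', hβ', hker', rfl⟩ := exists_Phi (embM hQ) hF hθ' hover
  have hD := dat hQ hlam
  have hkerf : ∀ b, fi lam K.subtype (jT lam K.subtype (jM P K) b) = 1 → β' b = β' 1 := by
    intro b hb
    have hb1 : (((jM P K (b : KN P K) : K) : G) : G ⧸ Q) = 1 := hb
    have hb2 : ((jM P K (b : KN P K) : K) : G) ∈ Q := (QuotientGroup.eq_one_iff _).1 hb1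
    exact hker' ⟨b, hb2⟩
  obtain ⟨β, hβ, hinvβ, hrel⟩ := hD.exists_chi hβ' hkerf
  have hker : KerQ lam K.subtype β := by
    intro n
    exact hinvβ.ker ((QuotientGroup.eq_one_iff _).2 n.2)
  have hdeg := hD.deg hβ hinvβ hβ' hkerf hrel
  have hdeg' := degCong_Phi (F := F) hQ hlam hβ hβ' hdeg
  refine ⟨Phi F K.subtype (embK hQ) β, irr_Phi (embK hQ) hF hβ hker,
    hinv_Phi (embK hQ) hF hlam (fun u hu => sigmaK hu) hinvβ, ?_, ?_⟩
  · rw [not_dvd_of_degCong hdeg']
    exact hd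
  · obtain ⟨m, hm, hpm⟩ := hrel
    refine ⟨m, ?_, hpm⟩
    rw [← hm]
    exact inner_Phi (embK hQ) (embM hQ) hF hβ hker hβ' hker'

/-- A character related to a character over `lam` lies over `lam`. -/
theorem over_of_rel (hQ : Q = (P : Subgroup G) ⊓ K) {θ : K → ℂ}
    (hθ : IsIrrCharacter K θ) {θ' : KN P K → ℂ} (hθ' : IsIrrCharacter (KN P K) θ')
    (hrel : Rel p (jM P K) θ θ') {lam : Q →* ℂˣ}
    (hover : Over lam (K.subtype.comp (jM P K)) θ') : Over lam K.subtype θ := by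
  classical
  have := Fintype.ofFinite (Q.comap (K.subtype.comp (jM P K)))
  rw [← over_comp (j := jM P K) (embK hQ) (embM hQ), over_iff]
  rw [over_iff] at hover
  refine const_trans (Q.comap (K.subtype.comp (jM P K))).subtype
    (isCharacter_comp (jM P K) (isIrr_isCharacter hθ)) hθ'
    (isIrr_isCharacter (Characters.Linear.isIrrCharacter_hom _)) ?_ hover
  obtain ⟨m, hm, hpm⟩ := hrel
  rw [Function.comp_def, hm]
  intro h
  apply hpm
  have : m = 0 := by exact_mod_cast h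
  rw [this]
  exact dvd_zero p

/-- **Injectivity.** -/
theorem unique_chi (hQ : Q = (P : Subgroup G) ⊓ K) {θ θ₁ : K → ℂ}
    (hθ : IsIrrCharacter K θ) (hinv : HInv (P : Subgroup G) K.subtype θ)
    (hθ₁ : IsIrrCharacter K θ₁) (hinv₁ : HInv (P : Subgroup G) K.subtype θ₁)
    {θ' : KN P K → ℂ} (hθ' : IsIrrCharacter (KN P K) θ')
    (hinv' : HInv (P : Subgroup G) (K.subtype.comp (jM P K)) θ') (hd : ¬ p ∣ charDegree θ')
    (hrel : Rel p (jM P K) θ θ') (hrel₁ : Rel p (jM P K) θ₁ θ') : θ = θ₁ := by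
  classical
  obtain ⟨lam, hlam, hover⟩ := exists_lam (isPGroup_Q hQ) P.isPGroup' (embM hQ) hθ' hinv' hd
  have := Fintype.ofFinite (TA lam K.subtype)
  have := Fintype.ofFinite (TA lam (K.subtype.comp (jM P K)))
  obtain ⟨F, hF1, hF2⟩ := exists_ext (isPGroup_Q hQ) (embK hQ).hQK (not_dvd_relIndex hQ) lam
  have hF : IsExt Q K (embK hQ).hQK lam F := ⟨hF1, hF2⟩
  have ho := over_of_rel hQ hθ hθ' hrel hover
  have ho₁ := over_of_rel hQ hθ₁ hθ' hrel₁ hover
  obtain ⟨β', hβ', hker', rfl⟩ := exists_Phi (embM hQ) hF hθ' hover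
  obtain ⟨β, hβ, hker, rfl⟩ := exists_Phi (embK hQ) hF hθ ho
  obtain ⟨β₁, hβ₁, hker₁, rfl⟩ := exists_Phi (embK hQ) hF hθ₁ ho₁
  have hD := dat hQ hlam
  have hkerf : ∀ b, fi lam K.subtype (jT lam K.subtype (jM P K) b) = 1 → β' b = β' 1 := by
    intro b hb
    have hb1 : (((jM P K (b : KN P K) : K) : G) : G ⧸ Q) = 1 := hb
    have hb2 : ((jM P K (b : KN P K) : K) : G) ∈ Q := (QuotientGroup.eq_one_iff _).1 hb1
    exact hker' ⟨b, hb2⟩
  have hI := hinv_of_Phi (embK hQ) hF hlam (fun u hu => sigmaK hu) hβ hker hinv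
  have hI₁ := hinv_of_Phi (embK hQ) hF hlam (fun u hu => sigmaK hu) hβ₁ hker₁ hinv₁
  obtain ⟨m, hm, hpm⟩ := hrel
  obtain ⟨m₁, hm₁, hpm₁⟩ := hrel₁
  have e := hD.unique_chi hβ hI hβ₁ hI₁ hβ' hkerf
    ⟨m, (inner_Phi (embK hQ) (embM hQ) hF hβ hker hβ' hker').symm.trans hm, hpm⟩
    ⟨m₁, (inner_Phi (embK hQ) (embM hQ) hF hβ₁ hker₁ hβ' hker').symm.trans hm₁, hpm₁⟩
  rw [e]

/-- `P`-invariant linear constituents are conjugate under `K ⊓ N`. -/
theorem conj_lam (hQ : Q = (P : Subgroup G) ⊓ K) {θ : K → ℂ} (hθ : IsIrrCharacter K θ)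
    {lam₁ lam₂ : Q →* ℂˣ} (h₁ : Over lam₁ K.subtype θ) (h₂ : Over lam₂ K.subtype θ)
    (hP₁ : (P : Subgroup G) ≤ In lam₁) (hP₂ : (P : Subgroup G) ≤ In lam₂) :
    ∃ n ∈ K ⊓ Nz P, ∀ q : Q, lam₂ q = lam₁ ⟨n * q * n⁻¹, hQn.conj_mem q q.2 n⟩ := by
  classical
  have := Fintype.ofFinite (Q.comap K.subtype)
  rw [over_iff] at h₁ h₂
  obtain ⟨k, hk⟩ := Characters.Clifford.exists_conj_of_constituents (Q.comap K.subtype) hθ
    (Characters.Linear.isIrrCharacter_hom (lamA lam₁ K.subtype))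
    (Characters.Linear.isIrrCharacter_hom (lamA lam₂ K.subtype)) h₁ h₂
  have hk' : ∀ q : Q, lam₂ q = lam₁ ⟨(k : G) * q * (k : G)⁻¹, hQn.conj_mem q q.2 k⟩ := by
    intro q
    have h1 := congrFun hk ⟨⟨q, (embK hQ).hQK q.2⟩, q.2⟩
    exact Units.ext h1
  have hfix : ∀ u ∈ (P : Subgroup G), ((k : G)⁻¹)⁻¹ * u * (k : G)⁻¹ ∈ In lam₁ := by
    intro u hu
    rw [inv_inv, mem_In]
    intro q
    have hq' : (k : G)⁻¹ * q * k ∈ Q := by
      have := hQn.conj_mem q q.2 (k : G)⁻¹
      rwa [inv_inv] at this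
    have h1 := mem_In.1 (hP₂ hu) ⟨(k : G)⁻¹ * q * k, hq'⟩
    rw [hk', hk'] at h1
    have h2 : (⟨(k : G) * (⟨u * ((⟨(k : G)⁻¹ * q * k, hq'⟩ : Q) : G) * u⁻¹,
        hQn.conj_mem _ hq' u⟩ : Q) * (k : G)⁻¹, hQn.conj_mem _ (hQn.conj_mem _ hq' u) k⟩ : Q) =
        ⟨(k : G) * u * (k : G)⁻¹ * q * ((k : G) * u * (k : G)⁻¹)⁻¹,
          hQn.conj_mem q q.2 ((k : G) * u * (k : G)⁻¹)⟩ := by
      apply Subtype.ext
      show (k : G) * (u * ((k : G)⁻¹ * q * k) * u⁻¹) * (k : G)⁻¹ = _
      group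
    have h3 : (⟨(k : G) * ((⟨(k : G)⁻¹ * q * k, hq'⟩ : Q) : G) * (k : G)⁻¹,
        hQn.conj_mem _ hq' k⟩ : Q) = q := by
      apply Subtype.ext
      show (k : G) * ((k : G)⁻¹ * q * k) * (k : G)⁻¹ = _
      group
    rw [h2, h3] at h1
    exact h1
  obtain ⟨a, ha, hka⟩ := SylOrb.exists_normalizing P K (In lam₁) hP₁ (K.inv_mem k.2) hfix
  refine ⟨((k : G)⁻¹ * a)⁻¹, Subgroup.inv_mem _ hka, fun q => ?_⟩
  rw [hk', ← mem_In.1 ((In lam₁).inv_mem ha) ⟨(k : G) * q * (k : G)⁻¹, hQn.conj_mem q q.2 k⟩]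
  congr 1
  apply Subtype.ext
  show a⁻¹ * ((k : G) * q * (k : G)⁻¹) * a⁻¹⁻¹ = ((k : G)⁻¹ * a)⁻¹ * q * ((k : G)⁻¹ * a)⁻¹⁻¹
  group

/-- Conjugate linear characters lie under the same characters. -/
theorem over_conj {lam₁ lam₂ : Q →* ℂˣ} {n : G} (hn : n ∈ K ⊓ Nz P)
    (h : ∀ q : Q, lam₂ q = lam₁ ⟨n * q * n⁻¹, hQn.conj_mem q q.2 n⟩) {θ' : KN P K → ℂ}
    (hθ' : IsIrrCharacter (KN P K) θ') (h₂ : Over lam₂ (K.subtype.comp (jM P K)) θ') :
    Over lam₁ (K.subtype.comp (jM P K)) θ' := by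
  classical
  have := Fintype.ofFinite (Q.comap (K.subtype.comp (jM P K)))
  rw [over_iff] at h₂ ⊢
  let n' : KN P K := ⟨⟨n, hn.2⟩, hn.1⟩
  rw [← classInner_conjFn _ _ _ n', conjFn_res _ (isIrr_isClassFunction hθ')]
  convert h₂ using 2
  funext q
  rw [conjFn_apply]
  congr 1
  exact (h ⟨_, q.2⟩).symm

/-- **Uniqueness.** -/
theorem unique_beta (hQ : Q = (P : Subgroup G) ⊓ K) {θ : K → ℂ}
    (hθ : IsIrrCharacter K θ) (hinv : HInv (P : Subgroup G) K.subtype θ)
    {θ' θ₁' : KN P K → ℂ} (hθ' : IsIrrCharacter (KN P K) θ')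
    (hinv' : HInv (P : Subgroup G) (K.subtype.comp (jM P K)) θ') (hd : ¬ p ∣ charDegree θ')
    (hθ₁' : IsIrrCharacter (KN P K) θ₁')
    (hinv₁' : HInv (P : Subgroup G) (K.subtype.comp (jM P K)) θ₁') (hd₁ : ¬ p ∣ charDegree θ₁')
    (hrel : Rel p (jM P K) θ θ') (hrel₁ : Rel p (jM P K) θ θ₁') : θ' = θ₁' := by
  classical
  obtain ⟨lam, hlam, hover⟩ := exists_lam (isPGroup_Q hQ) P.isPGroup' (embM hQ) hθ' hinv' hd
  obtain ⟨lam₁, hlam₁, hover₁⟩ :=
    exists_lam (isPGroup_Q hQ) P.isPGroup' (embM hQ) hθ₁' hinv₁' hd₁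
  have ho := over_of_rel hQ hθ hθ' hrel hover
  have ho₁ := over_of_rel hQ hθ hθ₁' hrel₁ hover₁
  obtain ⟨n, hn, hnl⟩ := conj_lam hQ hθ ho ho₁ hlam hlam₁
  have hover₁' := over_conj hn hnl hθ₁' hover₁
  have := Fintype.ofFinite (TA lam K.subtype)
  have := Fintype.ofFinite (TA lam (K.subtype.comp (jM P K)))
  obtain ⟨F, hF1, hF2⟩ := exists_ext (isPGroup_Q hQ) (embK hQ).hQK (not_dvd_relIndex hQ) lam
  have hF : IsExt Q K (embK hQ).hQK lam F := ⟨hF1, hF2⟩
  obtain ⟨β', hβ', hker', rfl⟩ := exists_Phi (embM hQ) hF hθ' hover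
  obtain ⟨β₁', hβ₁', hker₁', rfl⟩ := exists_Phi (embM hQ) hF hθ₁' hover₁'
  obtain ⟨β, hβ, hker, rfl⟩ := exists_Phi (embK hQ) hF hθ ho
  have hD := dat hQ hlam
  have hkerf : ∀ b, fi lam K.subtype (jT lam K.subtype (jM P K) b) = 1 → β' b = β' 1 := by
    intro b hb
    have hb1 : (((jM P K (b : KN P K) : K) : G) : G ⧸ Q) = 1 := hb
    have hb2 : ((jM P K (b : KN P K) : K) : G) ∈ Q := (QuotientGroup.eq_one_iff _).1 hb1
    exact hker' ⟨b, hb2⟩
  have hkerf₁ : ∀ b, fi lam K.subtype (jT lam K.subtype (jM P K) b) = 1 → β₁' b = β₁' 1 := by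
    intro b hb
    have hb1 : (((jM P K (b : KN P K) : K) : G) : G ⧸ Q) = 1 := hb
    have hb2 : ((jM P K (b : KN P K) : K) : G) ∈ Q := (QuotientGroup.eq_one_iff _).1 hb1
    exact hker₁' ⟨b, hb2⟩
  have hI := hinv_of_Phi (embK hQ) hF hlam (fun u hu => sigmaK hu) hβ hker hinv
  obtain ⟨m, hm, hpm⟩ := hrel
  obtain ⟨m₁, hm₁, hpm₁⟩ := hrel₁
  have e := hD.unique_beta hβ hI hβ' hkerf hβ₁' hkerf₁
    ⟨m, (inner_Phi (embK hQ) (embM hQ) hF hβ hker hβ' hker').symm.trans hm, hpm⟩
    ⟨m₁, (inner_Phi (embK hQ) (embM hQ) hF hβ hker hβ₁' hker₁').symm.trans hm₁, hpm₁⟩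
  rw [e]

end main

end Cfsg.Agent.H693.RG2
end

-- part: H693/RG3
section
/-!
# Real characters of `G` and of the normalizer of a Sylow subgroup

`K` normal of odd index in `G`, `P` a Sylow `p`-subgroup with `P ⊓ K` normal in `G`, all real
irreducible characters of `G` of degree prime to `p`.
-/

set_option autoImplicit false
set_option linter.unusedSectionVars false

namespace Cfsg.Agent.H693.RG3

open Cfsg Cfsg.Agent.Characters.Core Cfsg.Agent.H693.RealD Cfsg.Agent.H693.Defl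
  Cfsg.Agent.H693.RG1 Cfsg.Agent.H693.RG2 Cfsg.Agent.H696.OddIndex
  Cfsg.Agent.H693.ThmA
  Cfsg.Agent.OddOrderCharacters.PF9.CliffGen Cfsg.Agent.OddOrderCharacters.IndRes
  Cfsg.Agent.OddOrderCharacters.NormalInduced
open scoped ComplexConjugate

universe u

section odd

variable {G : Type u} [Group G] [Fintype G] (K : Subgroup G) [hK : K.Normal] [Fintype K]

theorem mult_eq (χ : G → ℂ) (φ : K → ℂ) : mult K χ φ = classInner (res K χ) φ := rfl

theorem mult_conj {χ : G → ℂ} (hχ : IsClassFunction G χ) (φ : K → ℂ) (g : G) :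
    mult K χ (conjFn K φ g) = mult K χ φ := by
  rw [mult_eq, mult_eq]
  conv_lhs => rw [← conjFn_res K hχ g]
  exact classInner_conjFn K _ _ g

/-- The degree of the real character over a real one. -/
theorem degree_eq (hodd : Odd K.index) {φ : K → ℂ} (hφ : IsIrrCharacter K φ)
    (hr : ∀ k, (φ k).im = 0) {χ : G → ℂ} (hχ : IsIrrCharacter G χ) (hχr : ∀ g, (χ g).im = 0)
    (hm : mult K χ φ ≠ 0) : charDegree χ = (inertia K φ).index * charDegree φ := by
  have h1 := (indicator_real K hodd hφ hr ⟨χ, hχ⟩ hχr hm).2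
  have h1' : mult K χ φ = 1 := h1
  have h2 := restrict_eq K hχ hφ hm 1
  rw [h1'] at h2
  have h3 : Cfsg.Agent.H696.OddIndex.Phi K φ 1 = Nat.card G * φ 1 := by
    unfold Cfsg.Agent.H696.OddIndex.Phi
    have h4 : ∀ x : G, φ ⟨x * ((1 : K) : G) * x⁻¹, hK.conj_mem _ (1 : K).2 x⟩ = φ 1 := by
      intro x
      congr 1
      apply Subtype.ext
      simp
    rw [Finset.sum_congr rfl fun x _ => h4 x, Finset.sum_const, Finset.card_univ, nsmul_eq_mul,
      ← Nat.card_eq_fintype_card]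
  have h5 : stab K φ = Nat.card (inertia K φ) := by
    unfold stab
    exact Nat.card_congr (Equiv.subtypeEquivRight fun g => mem_inertia'.symm)
  apply charDegree_of_natCast
  have h6 : χ 1 = χ ((1 : K) : G) := rfl
  rw [h6, h2, h3, h5, charDegree_eq (isIrr_isCharacter hφ), ← (inertia K φ).card_mul_index]
  have h7 : (Nat.card (inertia K φ) : ℂ) ≠ 0 := card_ne_zero_complex
  push_cast
  field_simp

/-- A real character lies over a real one. -/
theorem exists_real_under (hodd : Odd K.index) {χ : G → ℂ} (hχ : IsIrrCharacter G χ)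
    (hχr : ∀ g, (χ g).im = 0) :
    ∃ φ : K → ℂ, IsIrrCharacter K φ ∧ (∀ k, (φ k).im = 0) ∧ mult K χ φ ≠ 0 := by
  classical
  have hfin := finite_irr (G := K)
  have := Fintype.ofFinite (IrrCharacter K)
  have hres : IsCharacter K (res K χ) := isCharacter_res K (isIrr_isCharacter hχ)
  obtain ⟨c, hc⟩ := isCharacter_iff.1 hres
  have hci : ∀ μ : IrrCharacter K, classInner (res K χ) (μ : K → ℂ) = c μ := by
    intro μ
    conv_lhs => rw [hc]
    exact classInner_sum_nsmul_irr c μ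
  have hsum : charDegree χ = ∑ μ : IrrCharacter K, c μ * charDegree (μ : K → ℂ) := by
    apply charDegree_of_natCast
    have h1 : χ 1 = res K χ 1 := rfl
    rw [h1]
    have h2 := congrFun hc 1
    rw [h2, Finset.sum_apply]
    push_cast
    refine Finset.sum_congr rfl fun γ _ => ?_
    rw [Pi.smul_apply, nsmul_eq_mul, charDegree_eq (isIrr_isCharacter γ.2)]
  have hpos : charDegree χ ≠ 0 := by
    intro h
    apply isIrr_apply_one_ne_zero hχ
    rw [charDegree_eq (isIrr_isCharacter hχ), h, Nat.cast_zero]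
  obtain ⟨μ₀, hμ₀⟩ : ∃ μ, c μ ≠ 0 := by
    by_contra hcon
    push Not at hcon
    apply hpos
    rw [hsum]
    exact Finset.sum_eq_zero fun μ _ => by rw [hcon, zero_mul]
  have hdeg : ∀ μ : IrrCharacter K, c μ ≠ 0 →
      charDegree (μ : K → ℂ) = charDegree (μ₀ : K → ℂ) := by
    intro μ hμ
    obtain ⟨g, hg⟩ := Characters.Clifford.exists_conj_of_constituents K hχ μ₀.2 μ.2
      (by have := hci μ₀; rw [res_def] at this; rw [this]; exact_mod_cast hμ₀)
      (by have := hci μ; rw [res_def] at this; rw [this]; exact_mod_cast hμ)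
    rw [hg]
    unfold charDegree
    rw [Function.comp_apply, map_one]
  have hsum2 : charDegree χ = (∑ μ : IrrCharacter K, c μ) * charDegree (μ₀ : K → ℂ) := by
    rw [hsum, Finset.sum_mul]
    refine Finset.sum_congr rfl fun μ _ => ?_
    by_cases h : c μ = 0
    · rw [h, zero_mul, zero_mul]
    · rw [hdeg μ h]
  obtain ⟨-, hdvd⟩ := Cfsg.Agent.S0887.result K χ hχ μ₀ μ₀.2
    (by have := hci μ₀; rw [res_def] at this; rw [this]; exact_mod_cast hμ₀) (charDegree χ)
    (charDegree (μ₀ : K → ℂ)) (charDegree_eq (isIrr_isCharacter hχ))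
    (charDegree_eq (isIrr_isCharacter μ₀.2))
  have hμ0pos : 0 < charDegree (μ₀ : K → ℂ) := by
    rw [Nat.pos_iff_ne_zero]
    intro h
    apply isIrr_apply_one_ne_zero μ₀.2
    rw [charDegree_eq (isIrr_isCharacter μ₀.2), h, Nat.cast_zero]
  rw [hsum2, Nat.mul_div_cancel _ hμ0pos] at hdvd
  obtain ⟨μ, hμr, hμo⟩ := Cfsg.Agent.H692.RealOver.exists_real_of_odd_sum c (by
    intro μ
    have h1 := hci (Cfsg.Agent.H692.RealAct.irrConj μ)
    have h2 : classInner (res K χ) ((Cfsg.Agent.H692.RealAct.irrConj μ : IrrCharacter K) : K → ℂ) =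
        conj (classInner (res K χ) (μ : K → ℂ)) := by
      rw [classInner_def, classInner_def, map_mul, map_inv₀, Complex.conj_natCast, map_sum]
      congr 1
      refine Finset.sum_congr rfl fun g _ => ?_
      rw [map_mul, Cfsg.Agent.H692.RealAct.irrConj_apply]
      congr 1
      exact (Complex.conj_eq_iff_im.2 (hχr g)).symm
    rw [h2, hci, Complex.conj_natCast] at h1
    exact_mod_cast h1.symm) (hodd.of_dvd_nat hdvd)
  refine ⟨μ, μ.2, hμr, ?_⟩
  rw [mult_eq, hci]
  have : c μ ≠ 0 := by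
    intro h
    rw [h] at hμo
    exact absurd hμo (by decide)
  exact_mod_cast this

/-- A real character of degree prime to `p` lies over a real `P`-invariant character of degree prime
to `p`. -/
theorem exists_inv_under {p : ℕ} [hp : Fact p.Prime] (hodd : Odd K.index) {P : Subgroup G}
    (hP : IsPGroup p P) {χ : G → ℂ} (hχ : IsIrrCharacter G χ) (hχr : ∀ g, (χ g).im = 0)
    (hd : ¬ p ∣ charDegree χ) :
    ∃ θ : K → ℂ, IsIrrCharacter K θ ∧ (∀ k, (θ k).im = 0) ∧ (∀ x ∈ P, conjFn K θ x = θ) ∧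
      ¬ p ∣ charDegree θ ∧ mult K χ θ ≠ 0 := by
  obtain ⟨φ, hφ, hφr, hm⟩ := exists_real_under K hodd hχ hχr
  obtain ⟨g, hg⟩ := RealOver.exists_conj_invariant hP K hφ hχ hm hd
  refine ⟨conjFn K φ g, isIrr_conjFn K hφ g, fun k => hφr _, hg, ?_, ?_⟩
  · intro h
    have h1 : charDegree (conjFn K φ g) = charDegree φ := by
      unfold charDegree
      rw [conjFn_apply_one]
    rw [h1] at h
    apply hd
    rw [degree_eq K hodd hφ hφr hχ hχr hm]
    exact h.mul_left _
  · rw [mult_conj K (isIrr_isClassFunction hχ)]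
    exact hm

/-- Uniqueness of the real character over a real one. -/
theorem unique_over (hodd : Odd K.index) {φ : K → ℂ} (hφ : IsIrrCharacter K φ)
    (hr : ∀ k, (φ k).im = 0) {χ χ₁ : G → ℂ} (hχ : IsIrrCharacter G χ)
    (hχr : ∀ g, (χ g).im = 0) (hm : mult K χ φ ≠ 0) (hχ₁ : IsIrrCharacter G χ₁)
    (hχr₁ : ∀ g, (χ₁ g).im = 0) (hm₁ : mult K χ₁ φ ≠ 0) : χ = χ₁ := by
  obtain ⟨χ₀, -, h⟩ := existsUnique_real K hodd hφ hr
  have h1 := h ⟨χ, hχ⟩ ⟨hχr, hm⟩
  have h2 := h ⟨χ₁, hχ₁⟩ ⟨hχr₁, hm₁⟩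
  exact congrArg Subtype.val (h1.trans h2.symm)

end odd

section main

variable {G : Type u} [Group G] [Fintype G] {p : ℕ} [hp : Fact p.Prime] {P : Sylow p G}
  {K : Subgroup G} [hK : K.Normal] [Fintype K] [Fintype (KN P K)]

theorem hinv_iff {θ : K → ℂ} : HInv (P : Subgroup G) K.subtype θ ↔
    ∀ x ∈ (P : Subgroup G), conjFn K θ x = θ := by
  constructor
  · intro h x hx
    funext k
    exact h x hx k _ rfl
  · intro h s hs a a' haa
    have h1 : a' = ⟨s * a * s⁻¹, hK.conj_mem a a.2 s⟩ := Subtype.ext haa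
    rw [h1]
    exact congrFun (h s hs) a

theorem hinv_iff' {θ : KN P K → ℂ} : HInv (P : Subgroup G) (K.subtype.comp (jM P K)) θ ↔
    ∀ x ∈ (P : Subgroup G).subgroupOf (Nz P), conjFn (KN P K) θ x = θ := by
  constructor
  · intro h x hx
    funext k
    exact h x hx k _ rfl
  · intro h s hs a a' haa
    have h1 : a' = ⟨(⟨s, Subgroup.le_normalizer hs⟩ : Nz P) * a *
        (⟨s, Subgroup.le_normalizer hs⟩ : Nz P)⁻¹,
        (inferInstance : (KN P K).Normal).conj_mem a a.2 _⟩ :=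
      Subtype.ext (Subtype.ext haa)
    rw [h1]
    exact congrFun (h ⟨s, Subgroup.le_normalizer hs⟩ hs) a

/-- Conjugates of invariant characters are invariant. -/
theorem hinv_conj {θ : K → ℂ} (h : HInv (P : Subgroup G) K.subtype θ) (n : Nz P) :
    HInv (P : Subgroup G) K.subtype (conjFn K θ n) := by
  rw [hinv_iff] at h ⊢
  intro x hx
  have h1 : (n : G) * x * (n : G)⁻¹ ∈ (P : Subgroup G) :=
    (Subgroup.mem_normalizer_iff.1 n.2 x).1 hx
  rw [← conjFn_mul]
  have h2 : (n : G) * x = ((n : G) * x * (n : G)⁻¹) * n := by group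
  rw [h2, conjFn_mul, h _ h1]

theorem hinv_conj' {θ : KN P K → ℂ} (h : HInv (P : Subgroup G) (K.subtype.comp (jM P K)) θ)
    (n : Nz P) : HInv (P : Subgroup G) (K.subtype.comp (jM P K)) (conjFn (KN P K) θ n) := by
  rw [hinv_iff'] at h ⊢
  intro x hx
  have h1 : n * x * n⁻¹ ∈ (P : Subgroup G).subgroupOf (Nz P) :=
    (Subgroup.mem_normalizer_iff.1 n.2 x).1 hx
  rw [← conjFn_mul]
  have h2 : n * x = (n * x * n⁻¹) * n := by group
  rw [h2, conjFn_mul, h _ h1]

/-- The relation is compatible with conjugation. -/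
theorem rel_conj {θ : K → ℂ} {θ' : KN P K → ℂ} (h : Rel p (jM P K) θ θ') (n : Nz P) :
    Rel p (jM P K) (conjFn K θ n) (conjFn (KN P K) θ' n) := by
  obtain ⟨m, hm, hpm⟩ := h
  refine ⟨m, ?_, hpm⟩
  rw [← hm]
  exact Characters.Clifford.classInner_comp_mulEquiv (MulAut.conjNormal n : MulAut (KN P K))
    (fun b => θ (jM P K b)) θ'

/-- The relation is compatible with complex conjugation. -/
theorem rel_real {θ : K → ℂ} {θ' : KN P K → ℂ} (h : Rel p (jM P K) θ θ') :
    Rel p (jM P K) (fun k => conj (θ k)) (fun k => conj (θ' k)) := by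
  obtain ⟨m, hm, hpm⟩ := h
  refine ⟨m, ?_, hpm⟩
  rw [← Complex.conj_natCast m, ← hm, classInner_def, classInner_def, map_mul, map_inv₀,
    Complex.conj_natCast, map_sum]
  congr 1
  refine Finset.sum_congr rfl fun c _ => ?_
  rw [map_mul]

theorem real_fun {A : Type*} {θ : A → ℂ} (h : ∀ a, (θ a).im = 0) :
    (fun a => conj (θ a)) = θ := funext fun a => Complex.conj_eq_iff_im.2 (h a)

theorem real_of_fun {A : Type*} {θ : A → ℂ} (h : (fun a => conj (θ a)) = θ) :
    ∀ a, (θ a).im = 0 := fun a => Complex.conj_eq_iff_im.1 (congrFun h a)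

theorem charDegree_conj {A : Type*} [Group A] {θ : A → ℂ} (hθ : IsCharacter A θ) :
    charDegree (fun a => conj (θ a)) = charDegree θ := by
  apply charDegree_of_natCast
  rw [charDegree_eq hθ, Complex.conj_natCast]

theorem charDegree_conjFn {A : Type*} [Group A] (L : Subgroup A) [L.Normal] (θ : L → ℂ) (g : A) :
    charDegree (conjFn L θ g) = charDegree θ := by
  unfold charDegree
  rw [conjFn_apply_one]

/-- `P`-invariant `G`-conjugate characters are `N`-conjugate. -/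
theorem conj_of_inv {θ₁ θ₂ : K → ℂ} (h₁ : HInv (P : Subgroup G) K.subtype θ₁)
    (h₂ : HInv (P : Subgroup G) K.subtype θ₂) {g : G} (hg : θ₂ = conjFn K θ₁ g) :
    ∃ n : Nz P, θ₂ = conjFn K θ₁ n := by
  rw [hinv_iff] at h₁ h₂
  have hfix : ∀ u ∈ (P : Subgroup G), (g⁻¹)⁻¹ * u * g⁻¹ ∈ inertia K θ₁ := by
    intro u hu
    rw [inv_inv, mem_inertia, mul_assoc, conjFn_mul, ← hg, conjFn_mul, h₂ u hu, hg, ← conjFn_mul,
      mul_inv_cancel, conjFn_one]
  obtain ⟨a, ha, hka⟩ := SylOrb.exists_normalizing P ⊤ (inertia K θ₁)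
    (fun u hu => h₁ u hu) (Subgroup.mem_top g⁻¹) hfix
  refine ⟨⟨(g⁻¹ * a)⁻¹, Subgroup.inv_mem _ hka.2⟩, ?_⟩
  rw [hg]
  have h3 : (g⁻¹ * a)⁻¹ = a⁻¹ * g := by group
  show _ = conjFn K θ₁ (g⁻¹ * a)⁻¹
  have h4 : conjFn K θ₁ a⁻¹ = θ₁ := (inertia K θ₁).inv_mem ha
  rw [h3, conjFn_mul, h4]

/-- The data relating a real character of `G` and one of `N`. -/
def T (χ : G → ℂ) (ξ : Nz P → ℂ) : Prop :=
  ∃ (θ : K → ℂ) (θ' : KN P K → ℂ), IsIrrCharacter K θ ∧ IsIrrCharacter (KN P K) θ' ∧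
    (∀ k, (θ k).im = 0) ∧ (∀ k, (θ' k).im = 0) ∧ HInv (P : Subgroup G) K.subtype θ ∧
    HInv (P : Subgroup G) (K.subtype.comp (jM P K)) θ' ∧ ¬ p ∣ charDegree θ ∧
    ¬ p ∣ charDegree θ' ∧ Rel p (jM P K) θ θ' ∧ mult K χ θ ≠ 0 ∧ mult (KN P K) ξ θ' ≠ 0

variable {Q : Subgroup G} [hQn : Q.Normal] [Fintype (Nz P)]

theorem odd' (hodd : Odd K.index) : Odd (KN P K).index := by
  have h1 : (KN P K).index = K.relIndex (Nz P) := rfl
  rw [h1]
  exact hodd.of_dvd_nat (Subgroup.relIndex_dvd_index_of_normal _ _)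

/-- **Uniqueness on the side of `N`.** -/
theorem T_unique_right (hodd : Odd K.index) (hQ : Q = (P : Subgroup G) ⊓ K) {χ : G → ℂ}
    (hχ : IsIrrCharacter G χ) {ξ₁ ξ₂ : Nz P → ℂ} (hξ₁ : IsIrrCharacter (Nz P) ξ₁)
    (hξ₂ : IsIrrCharacter (Nz P) ξ₂) (hr₁ : ∀ n, (ξ₁ n).im = 0) (hr₂ : ∀ n, (ξ₂ n).im = 0)
    (h₁ : T (K := K) χ ξ₁) (h₂ : T (K := K) χ ξ₂) : ξ₁ = ξ₂ := by
  obtain ⟨θ₁, θ₁', hθ₁, hθ₁', hθr₁, hθr₁', hi₁, hi₁', hd₁, hd₁', hrel₁, hm₁, hm₁'⟩ := h₁
  obtain ⟨θ₂, θ₂', hθ₂, hθ₂', hθr₂, hθr₂', hi₂, hi₂', hd₂, hd₂', hrel₂, hm₂, hm₂'⟩ := h₂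
  obtain ⟨g, hg⟩ := Characters.Clifford.exists_conj_of_constituents K hχ hθ₁ hθ₂ hm₁ hm₂
  obtain ⟨n, hn⟩ := conj_of_inv hi₁ hi₂ (g := g) hg
  have h3 := rel_conj hrel₁ n
  rw [← hn] at h3
  have h4 := unique_beta hQ hθ₂ hi₂ (isIrr_conjFn (KN P K) hθ₁' n) (hinv_conj' hi₁' n)
    (by rw [charDegree_conjFn]; exact hd₁') hθ₂' hi₂' hd₂' h3 hrel₂
  apply unique_over (KN P K) (odd' hodd) hθ₂' hθr₂' hξ₁ hr₁ _ hξ₂ hr₂ hm₂'
  rw [← h4, mult_conj _ (isIrr_isClassFunction hξ₁)]
  exact hm₁'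

/-- **Uniqueness on the side of `G`.** -/
theorem T_unique_left (hodd : Odd K.index) (hQ : Q = (P : Subgroup G) ⊓ K) {χ₁ χ₂ : G → ℂ}
    (hχ₁ : IsIrrCharacter G χ₁) (hχ₂ : IsIrrCharacter G χ₂) (hr₁ : ∀ n, (χ₁ n).im = 0)
    (hr₂ : ∀ n, (χ₂ n).im = 0) {ξ : Nz P → ℂ} (hξ : IsIrrCharacter (Nz P) ξ)
    (h₁ : T (K := K) χ₁ ξ) (h₂ : T (K := K) χ₂ ξ) : χ₁ = χ₂ := by
  obtain ⟨θ₁, θ₁', hθ₁, hθ₁', hθr₁, hθr₁', hi₁, hi₁', hd₁, hd₁', hrel₁, hm₁, hm₁'⟩ := h₁
  obtain ⟨θ₂, θ₂', hθ₂, hθ₂', hθr₂, hθr₂', hi₂, hi₂', hd₂, hd₂', hrel₂, hm₂, hm₂'⟩ := h₂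
  obtain ⟨n, hn⟩ := Characters.Clifford.exists_conj_of_constituents (KN P K) hξ hθ₁' hθ₂'
    hm₁' hm₂'
  have hn' : θ₂' = conjFn (KN P K) θ₁' n := hn
  have h3 := rel_conj hrel₁ n
  rw [← hn'] at h3
  have h4 := unique_chi hQ (isIrr_conjFn K hθ₁ n) (hinv_conj hi₁ n) hθ₂ hi₂ hθ₂' hi₂' hd₂' h3
    hrel₂
  apply unique_over K hodd hθ₂ hθr₂ hχ₁ hr₁ _ hχ₂ hr₂ hm₂
  rw [← h4, mult_conj _ (isIrr_isClassFunction hχ₁)]
  exact hm₁

/-- **Surjectivity.** -/
theorem T_exists_left (hodd : Odd K.index) (hQ : Q = (P : Subgroup G) ⊓ K) {ξ : Nz P → ℂ}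
    (hξ : IsIrrCharacter (Nz P) ξ) (hr : ∀ n, (ξ n).im = 0) (hd : ¬ p ∣ charDegree ξ) :
    ∃ χ : G → ℂ, IsIrrCharacter G χ ∧ (∀ g, (χ g).im = 0) ∧ T (K := K) χ ξ := by
  have hPp : IsPGroup p ((P : Subgroup G).subgroupOf (Nz P)) :=
    P.isPGroup'.comap_of_injective _ (Nz P).subtype_injective
  obtain ⟨θ', hθ', hθr', hi', hd', hm'⟩ :=
    exists_inv_under (KN P K) (odd' hodd) hPp hξ hr hd
  rw [← hinv_iff'] at hi'
  obtain ⟨θ, hθ, hi, hdθ, hrel⟩ := exists_chi hQ hθ' hi' hd'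
  have hθr : ∀ k, (θ k).im = 0 := by
    apply real_of_fun
    have h1 := rel_real hrel
    rw [real_fun hθr'] at h1
    exact unique_chi hQ (isIrr_conj hθ) (fun s hs a a' haa => congrArg _ (hi s hs a a' haa)) hθ hi
      hθ' hi' hd' h1 hrel
  obtain ⟨χ, ⟨hχr, hm⟩, -⟩ := existsUnique_real K hodd hθ hθr
  exact ⟨χ, χ.2, hχr, θ, θ', hθ, hθ', hθr, hθr', hi, hi', hdθ, hd', hrel, hm, hm'⟩

/-- Index of an invariant character. -/
theorem not_dvd_index' {θ' : KN P K → ℂ}
    (hi' : HInv (P : Subgroup G) (K.subtype.comp (jM P K)) θ') :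
    ¬ p ∣ (inertia (KN P K) θ').index := by
  rw [hinv_iff'] at hi'
  intro h
  have h1 : (P : Subgroup G).subgroupOf (Nz P) ≤ inertia (KN P K) θ' := fun x hx => hi' x hx
  have h2 := Subgroup.index_dvd_of_le h1
  have h3 : ((P : Subgroup G).subgroupOf (Nz P)).index = (P : Subgroup G).relIndex (Nz P) := rfl
  rw [h3] at h2
  exact P.not_dvd_index ((h.trans h2).trans
    (Subgroup.relIndex_dvd_index_of_le Subgroup.le_normalizer))

/-- **Existence, with the degrees.** -/
theorem T_exists_right (hodd : Odd K.index) (hQ : Q = (P : Subgroup G) ⊓ K) {χ : G → ℂ}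
    (hχ : IsIrrCharacter G χ) (hr : ∀ n, (χ n).im = 0) (hd : ¬ p ∣ charDegree χ) :
    ∃ ξ : Nz P → ℂ, IsIrrCharacter (Nz P) ξ ∧ (∀ g, (ξ g).im = 0) ∧ ¬ p ∣ charDegree ξ ∧
      T (K := K) χ ξ ∧ DegCong p χ ξ := by
  obtain ⟨θ, hθ, hθr, hi, hdθ, hm⟩ := exists_inv_under K hodd P.isPGroup' hχ hr hd
  rw [← hinv_iff] at hi
  obtain ⟨θ', hθ', hi', hd', hrel, hcong⟩ := exists_beta hQ hθ hi hdθ
  have hθr' : ∀ k, (θ' k).im = 0 := by
    apply real_of_fun
    have h1 := rel_real hrel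
    rw [real_fun hθr] at h1
    exact unique_beta hQ hθ hi (isIrr_conj hθ') (fun s hs a a' haa => congrArg _ (hi' s hs a a' haa))
      (by rw [charDegree_conj (isIrr_isCharacter hθ')]; exact hd') hθ' hi' hd' h1 hrel
  obtain ⟨ξ, ⟨hξr, hm'⟩, -⟩ := existsUnique_real (KN P K) (odd' hodd) hθ' hθr'
  have hdeg := degree_eq K hodd hθ hθr hχ hr hm
  have hdeg' := degree_eq (KN P K) (odd' hodd) hθ' hθr' ξ.2 hξr hm'
  have hstab : ∀ n : Nz P, (n : G) ∈ inertia K θ ↔ n ∈ inertia (KN P K) θ' := by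
    intro n
    rw [mem_inertia, mem_inertia]
    have h3 := rel_conj hrel n
    constructor
    · intro h
      rw [h] at h3
      exact unique_beta hQ hθ hi (isIrr_conjFn (KN P K) hθ' n) (hinv_conj' hi' n)
        (by rw [charDegree_conjFn]; exact hd') hθ' hi' hd' h3 hrel
    · intro h
      rw [h] at h3
      exact unique_chi hQ (isIrr_conjFn K hθ n) (hinv_conj hi n) hθ hi hθ' hi' hd' h3 hrel
  have hidx : (inertia (KN P K) θ').index = (inertia K θ).relIndex (Nz P) := by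
    show _ = ((inertia K θ).subgroupOf (Nz P)).index
    congr 1
    ext n
    rw [Subgroup.mem_subgroupOf]
    exact (hstab n).symm
  have hmod := SylOrb.relIndex_modEq P ⊤ (inertia K θ) (fun u hu => hinv_iff.1 hi u hu)
  rw [Subgroup.relIndex_top_right, top_inf_eq, ← hidx] at hmod
  have hidxp := not_dvd_index' hi'
  have hzm : (((inertia (KN P K) θ').index : ℕ) : ZMod p) = ((inertia K θ).index : ZMod p) :=
    (ZMod.natCast_eq_natCast_iff _ _ p).2 hmod.symm
  refine ⟨ξ, ξ.2, hξr, ?_, ⟨θ, θ', hθ, hθ', hθr, hθr', hi, hi', hdθ, hd', hrel, hm, hm'⟩, ?_⟩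
  · rw [hdeg', hp.out.dvd_mul]
    push Not
    exact ⟨hidxp, hd'⟩
  · unfold DegCong at hcong ⊢
    rw [hdeg, hdeg']
    push_cast
    rw [hzm]
    rcases hcong with h | h
    · left
      rw [h]
    · right
      rw [h, mul_neg]

end main

end Cfsg.Agent.H693.RG3
end

-- part: S4865
section
set_option autoImplicit false
open Cfsg

namespace Cfsg.Agent.S4865

open Cfsg.Agent.H693 Cfsg.Agent.H693.GenBasic Cfsg.Agent.H693.ThmA Cfsg.Agent.H693.RG2
  Cfsg.Agent.H693.RG3

/-- Let p be a prime and G a finite group such that the subgroup generated by the p-elements of G is solvable and every real-valued irreducible complex character of G has degree prime to p. Let N be the normalizer of a Sylow p-subgroup of G. Then there is a bijection from the real-valued irreducible characters of G onto the real-valued irreducible characters of N of degree prime to p under which corresponding degrees are congruent modulo p up to sign. -/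
theorem result {G : Type*} [Group G] [Finite G] (p : ℕ) [Fact p.Prime] (hsolv : Group.IsSolvable ↥(Subgroup.closure {g : G | ∃ k : ℕ, orderOf g = p ^ k})) (hreal : ∀ χ : Cfsg.IrrCharacter G, (∀ g : G, ((χ : G → ℂ) g).im = 0) → ¬ p ∣ Cfsg.charDegree (χ : G → ℂ)) (P : Sylow p G) : ∃ f : {χ : Cfsg.IrrCharacter G // ∀ g : G, ((χ : G → ℂ) g).im = 0} → {ξ : Cfsg.IrrCharacter ↥(Subgroup.normalizer ((P : Subgroup G) : Set G)) // (∀ n, ((ξ : ↥(Subgroup.normalizer ((P : Subgroup G) : Set G)) → ℂ) n).im = 0) ∧ ¬ p ∣ Cfsg.charDegree (ξ : ↥(Subgroup.normalizer ((P : Subgroup G) : Set G)) → ℂ)}, Function.Bijective f ∧ ∀ χ, ((Cfsg.charDegree ((f χ).1 : ↥(Subgroup.normalizer ((P : Subgroup G) : Set G)) → ℂ) : ZMod p) = (Cfsg.charDegree (χ.1 : G → ℂ) : ZMod p) ∨ (Cfsg.charDegree ((f χ).1 : ↥(Subgroup.normalizer ((P : Subgroup G) : Set G)) → ℂ) : ZMod p) = -(Cfsg.charDegree (χ.1 : G → ℂ) : ZMod p)) := by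
  classical
  have := Fintype.ofFinite G
  have hKn : (gen 2 G).Normal := gen_normal Nat.prime_two
  have hodd : Odd (gen 2 G).index := Meet2.odd_index
  have hQn : ((P : Subgroup G) ⊓ gen 2 G).Normal :=
    main (p := p) hsolv hreal hKn le_rfl ⟨0, by rw [Subgroup.relIndex_self, pow_zero]⟩ P
  have := Fintype.ofFinite (gen 2 G)
  have := Fintype.ofFinite (Nz P)
  have := Fintype.ofFinite (KN P (gen 2 G))
  choose f hf hfr hfd hfT hfc using fun χ : {χ : Cfsg.IrrCharacter G // ∀ g : G, ((χ : G → ℂ) g).im = 0} =>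
    T_exists_right (K := gen 2 G) hodd (Q := (P : Subgroup G) ⊓ gen 2 G) rfl χ.1.2 χ.2
      (hreal χ.1 χ.2)
  refine ⟨fun χ => ⟨⟨f χ, hf χ⟩, hfr χ, hfd χ⟩, ⟨?_, ?_⟩, hfc⟩
  · intro χ₁ χ₂ h
    have h1 : f χ₁ = f χ₂ := congrArg (fun z => z.1.1) h
    apply Subtype.ext
    apply Subtype.ext
    have h2 := hfT χ₂
    rw [← h1] at h2
    exact T_unique_left hodd (Q := (P : Subgroup G) ⊓ gen 2 G) rfl χ₁.1.2 χ₂.1.2 χ₁.2 χ₂.2
      (hf χ₁) (hfT χ₁) h2
  · rintro ⟨⟨ξ, hξ⟩, hξr, hξd⟩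
    obtain ⟨χ, hχ, hχr, hT⟩ := T_exists_left (K := gen 2 G) hodd
      (Q := (P : Subgroup G) ⊓ gen 2 G) rfl hξ hξr hξd
    refine ⟨⟨⟨χ, hχ⟩, hχr⟩, ?_⟩
    apply Subtype.ext
    apply Subtype.ext
    exact T_unique_right hodd (Q := (P : Subgroup G) ⊓ gen 2 G) rfl hχ (hf _) hξ (hfr _) hξr
      (hfT ⟨⟨χ, hχ⟩, hχr⟩) hT

end Cfsg.Agent.S4865
end
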