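import Cfsg.Statements.S4866
import Cfsg.Agent.H692.RealAct
set_option linter.all false

set_option autoImplicit false
open Cfsg

namespace Cfsg.Agent.S4866

open Cfsg.Agent.H692.RealAct

/-- Let K be a normal subgroup of odd index in the finite group G. Then G has as many orbits on the real-valued irreducible complex characters of K (acting by conjugation) as it has orbits on the conjugacy classes of K that are real in K; equivalently, the number of G-orbits of real-valued irreducible characters of K equals the number of G-conjugacy classes of elements of K that are conjugate in K to their inverses. -/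
theorem result {G : Type*} [Group G] [Finite G] (K : Subgroup G) [K.Normal] (hodd : Odd K.index) : Nat.card (Quot (fun θ η : {θ : Cfsg.IrrCharacter ↥K // (∀ k : ↥K, ((θ : ↥K → ℂ) k).im = 0)} => ∃ g : G, ∀ k k' : ↥K, (k' : G) = g * (k : G) * g⁻¹ → (η.1 : ↥K → ℂ) k' = (θ.1 : ↥K → ℂ) k)) = Nat.card (Quot (fun x y : {x : ↥K // IsConj x x⁻¹} => ∃ g : G, (y.1 : G) = g * x.1 * g⁻¹)) := by
  have key := card_orbits_eq (A := G) (X := RIrr K) (Y := RCl K) (fun g => card_fixedBy_eq hodd g)
  have e1 : Nat.card (Quot (fun θ η : {θ : Cfsg.IrrCharacter ↥K // (∀ k : ↥K, ((θ : ↥K → ℂ) k).im = 0)} => ∃ g : G, ∀ k k' : ↥K, (k' : G) = g * (k : G) * g⁻¹ → (η.1 : ↥K → ℂ) k' = (θ.1 : ↥K → ℂ) k)) =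
      Nat.card (MulAction.orbitRel.Quotient G (RIrr K)) := by
    refine Nat.card_congr (Quot.congr (ra := fun θ η : {θ : Cfsg.IrrCharacter ↥K // (∀ k : ↥K, ((θ : ↥K → ℂ) k).im = 0)} => ∃ g : G, ∀ k k' : ↥K, (k' : G) = g * (k : G) * g⁻¹ → (η.1 : ↥K → ℂ) k' = (θ.1 : ↥K → ℂ) k) (rb := (MulAction.orbitRel G (RIrr K)).r) (Equiv.refl _) ?_)
    intro θ η
    constructor
    · rintro ⟨g, hg⟩
      refine ⟨g⁻¹, Subtype.ext (Subtype.ext (funext fun k => ?_))⟩
      show (η.1 : ↥K → ℂ) (MulAut.conjNormal g⁻¹⁻¹ k) = _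
      exact hg k _ (by simp)
    · rintro ⟨g, hg⟩
      refine ⟨g⁻¹, fun k k' h => ?_⟩
      have h1 := congrFun (congrArg Subtype.val (congrArg Subtype.val hg)) k
      have h2 : (η.1 : ↥K → ℂ) (MulAut.conjNormal g⁻¹ k) = (θ.1 : ↥K → ℂ) k := h1
      have h3 : k' = MulAut.conjNormal g⁻¹ k := by
        ext
        rw [h]
        simp
      rw [← h2, h3]
  have e2 : Nat.card (Quot (fun x y : {x : ↥K // IsConj x x⁻¹} => ∃ g : G, (y.1 : G) = g * x.1 * g⁻¹)) =
      Nat.card (MulAction.orbitRel.Quotient G (RCl K)) := by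
    -- the map
    let f0 : {x : ↥K // IsConj x x⁻¹} → RCl K := fun x => ⟨ConjClasses.mk x.1, by
      rw [← clInv_eq_iff, clInv_mk]
      exact ConjClasses.mk_eq_mk_iff_isConj.2 x.2.symm⟩
    let f : Quot (fun x y : {x : ↥K // IsConj x x⁻¹} => ∃ g : G, (y.1 : G) = g * x.1 * g⁻¹) →
        MulAction.orbitRel.Quotient G (RCl K) := Quot.lift (fun x => Quotient.mk'' (f0 x)) (by
      rintro x y ⟨g, hg⟩
      refine Quotient.sound' ⟨g⁻¹, Subtype.ext ?_⟩
      show clSmul g⁻¹ (ConjClasses.mk y.1) = ConjClasses.mk x.1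
      rw [clSmul_mk]
      congr 1
      ext
      simp [hg, mul_assoc])
    refine Nat.card_eq_of_bijective f ⟨?_, ?_⟩
    · intro a b
      induction a using Quot.inductionOn with
      | h x =>
        induction b using Quot.inductionOn with
        | h y =>
          intro hab
          have h1 : (MulAction.orbitRel G (RCl K)).r (f0 x) (f0 y) := Quotient.exact' hab
          obtain ⟨g, hg⟩ := h1
          have h2 : clSmul g (ConjClasses.mk y.1) = ConjClasses.mk x.1 := congrArg Subtype.val hg
          rw [clSmul_mk, ConjClasses.mk_eq_mk_iff_isConj, isConj_iff] at h2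
          obtain ⟨c, hc⟩ := h2
          have hc' := congrArg Subtype.val hc
          simp only [Subgroup.coe_mul, MulAut.conjNormal_apply, Subgroup.coe_inv] at hc'
          refine Quot.sound ⟨((c : G) * g)⁻¹, ?_⟩
          rw [← hc']
          group
    · intro a
      induction a using Quotient.inductionOn' with
      | h C =>
        obtain ⟨C, hC⟩ := C
        obtain ⟨x, rfl⟩ := ConjClasses.exists_rep C
        exact ⟨Quot.mk _ ⟨x, hC x rfl⟩, rfl⟩
  rw [e1, e2, key]

end Cfsg.Agent.S4866
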