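import Cfsg.Statements.S4885
import Cfsg.Agent.H699.KerDerived
import Cfsg.Agent.SuzukiRankOne.M1Average
set_option linter.all false

/-!
# Equal sets of characters of degree prime to `p` and `q` in the principal blocks

`A = O_{p'}(G)`, `K = O_{q'}(G)`, `L = A K`. In `G / A` the image of `K` is contained in the
kernels of all the irreducible characters of degree prime to `p`, so by Tate's theorem every normal
subgroup `R ≥ L` with `|R : L|` prime to `p` is `L`; the same for `q`, and so `L = G`.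
-/

set_option autoImplicit false
open Cfsg

namespace Cfsg.Agent.S4885

open Cfsg.Agent.Characters.Core Cfsg.Agent.Blocks Cfsg.Agent.H699.KerDerived

section side

variable {G : Type*} [Group G] [Finite G] (p : ℕ) [Fact p.Prime] (M : Ideal AlgInt)
  (hM : IsPModular p M) (hps : IsPSolvable p G) (K : Subgroup G) [hKn : K.Normal]
  (h : ∀ χ : IrrCharacter G, χ ∈ principalBlock M G → ¬ p ∣ charDegree (χ : G → ℂ) →
    ∀ x ∈ K, (χ : G → ℂ) x = (χ : G → ℂ) 1)

include hM hps h in
theorem map_inf_le (P : Sylow p (G ⧸ pPrimeCore p G)) :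
    K.map (QuotientGroup.mk' (pPrimeCore p G)) ⊓ (P : Subgroup (G ⧸ pPrimeCore p G)) ≤
      (commutator ↥(P : Subgroup (G ⧸ pPrimeCore p G))).map
        (P : Subgroup (G ⧸ pPrimeCore p G)).subtype := by
  refine inf_sylow_le P _ ?_
  rintro χ hχ _ ⟨x, hx, rfl⟩
  have hirr : IsIrrCharacter G ((χ : G ⧸ pPrimeCore p G → ℂ) ∘
      (QuotientGroup.mk' (pPrimeCore p G))) :=
    isIrr_comp (QuotientGroup.mk' _) (QuotientGroup.mk'_surjective _) χ.2
  have h1 : (⟨_, hirr⟩ : IrrCharacter G) ∈ principalBlock M G := by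
    rw [SuzukiRankOne.M1Average.principalBlock_eq hM hps]
    intro n hn
    show (χ : G ⧸ pPrimeCore p G → ℂ) (n : G ⧸ pPrimeCore p G) =
      (χ : G ⧸ pPrimeCore p G → ℂ) ((1 : G) : G ⧸ pPrimeCore p G)
    rw [(QuotientGroup.eq_one_iff n).2 hn, QuotientGroup.mk_one]
  have h2 := h ⟨_, hirr⟩ h1 (by
    show ¬ p ∣ charDegree ((χ : G ⧸ pPrimeCore p G → ℂ) ∘ (QuotientGroup.mk' (pPrimeCore p G)))
    rw [Cfsg.Agent.H710.PPrimeDeg.charDegree_comp]
    exact hχ) x hx
  have h3 : (χ : G ⧸ pPrimeCore p G → ℂ) (QuotientGroup.mk' (pPrimeCore p G) x) =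
      (χ : G ⧸ pPrimeCore p G → ℂ) (QuotientGroup.mk' (pPrimeCore p G) 1) := h2
  rwa [map_one] at h3

include hM hps h in
theorem eq_of_coprime (R : Subgroup G) [hRn : R.Normal] (hLR : pPrimeCore p G ⊔ K ≤ R)
    (hcop : ((pPrimeCore p G ⊔ K).relIndex R).Coprime p) : R ≤ pPrimeCore p G ⊔ K := by
  have hpP : p.Prime := Fact.out
  set A := pPrimeCore p G with hA
  let f : G →* G ⧸ A := QuotientGroup.mk' A
  have hf : Function.Surjective f := QuotientGroup.mk'_surjective A
  have hker : f.ker = A := QuotientGroup.ker_mk' A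
  have hR' : (R.map f).Normal := hRn.map f hf
  have hK' : (K.map f).Normal := hKn.map f hf
  obtain ⟨P⟩ : Nonempty (Sylow p (G ⧸ A)) := inferInstance
  -- the relative index
  have hidx : ((K.map f).relIndex (R.map f)).Coprime p := by
    have h1 : (pPrimeCore p G ⊔ K).map f = K.map f := by
      rw [Subgroup.map_sup, ← hA, (Subgroup.map_eq_bot_iff A).2 hker.ge, bot_sup_eq]
    rw [← h1, Subgroup.relIndex_map_map, hker, sup_eq_left.2 (le_sup_left.trans hLR),
      sup_eq_left.2 (show A ≤ pPrimeCore p G ⊔ K from le_sup_left)]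
    exact hcop
  have hle : R.map f ⊓ (P : Subgroup (G ⧸ A)) ≤ K.map f ⊓ (P : Subgroup (G ⧸ A)) := by
    rintro x ⟨hxR, hxP⟩
    refine ⟨?_, hxP⟩
    let g : (G ⧸ A) →* (G ⧸ A) ⧸ (K.map f) := QuotientGroup.mk' _
    have h1 : orderOf (g x) ∣ (K.map f).relIndex (R.map f) := by
      have h2 : Nat.card ((R.map f).map g) = (K.map f).relIndex (R.map f) := by
        rw [← Subgroup.relIndex_ker, QuotientGroup.ker_mk']
      rw [← h2]
      exact Subgroup.orderOf_dvd_natCard _ ⟨x, hxR, rfl⟩
    obtain ⟨k, hk⟩ := P.isPGroup' ⟨x, hxP⟩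
    have h3 : orderOf (g x) ∣ p ^ k := by
      refine (orderOf_map_dvd g x).trans ?_
      rw [orderOf_dvd_iff_pow_eq_one]
      exact congrArg Subtype.val hk
    have h4 : orderOf (g x) = 1 := Nat.eq_one_of_dvd_coprimes (hidx.pow_right k) h1 h3
    rw [orderOf_eq_one_iff] at h4
    exact (QuotientGroup.eq_one_iff x).1 h4
  have hRp : IsPGroup p (R.map f) := isPGroup_of_inf_le P (R.map f)
    (hle.trans (map_inf_le p M hM hps K h P)) (Lib.Cores.pPrimeCore_quotient_pPrimeCore p)
  have h5 : R.map f ≤ K.map f := by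
    rw [← Subgroup.relIndex_eq_one]
    obtain ⟨k, hk⟩ := (IsPGroup.iff_card).1 hRp
    have h6 : (K.map f).relIndex (R.map f) ∣ p ^ k := hk ▸ Subgroup.relIndex_dvd_card _ _
    exact Nat.Coprime.eq_one_of_dvd (hidx.pow_right k) h6
  have h7 := Subgroup.map_le_iff_le_comap.1 h5
  rwa [Subgroup.comap_map_eq, hker, sup_comm] at h7

include hM hps h in
theorem not_dvd_of_top (htop : pPrimeCore p G ⊔ K = ⊤) : ¬ p ∣ Nat.card G := by
  have hpP : p.Prime := Fact.out
  set A := pPrimeCore p G with hA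
  let f : G →* G ⧸ A := QuotientGroup.mk' A
  have hf : Function.Surjective f := QuotientGroup.mk'_surjective A
  have hker : f.ker = A := QuotientGroup.ker_mk' A
  obtain ⟨P⟩ : Nonempty (Sylow p (G ⧸ A)) := inferInstance
  have h1 : K.map f = ⊤ := by
    have : (A ⊔ K).map f = ⊤ := by rw [htop]; exact Subgroup.map_top_of_surjective f hf
    rwa [Subgroup.map_sup, (Subgroup.map_eq_bot_iff A).2 hker.ge, bot_sup_eq] at this
  have h2 := map_inf_le p M hM hps K h P
  have h3 : (P : Subgroup (G ⧸ A)) ≤ (commutator ↥(P : Subgroup (G ⧸ A))).map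
        (P : Subgroup (G ⧸ A)).subtype := by
    refine le_trans ?_ h2
    exact le_inf (h1 ▸ le_top) le_rfl
  have h4 : commutator ↥(P : Subgroup (G ⧸ A)) = ⊤ := by
    rw [eq_top_iff]
    intro x _
    obtain ⟨y, hy, hyx⟩ := h3 x.2
    have : y = x := Subtype.ext hyx
    exact this ▸ hy
  have h5 : Subsingleton ↥(P : Subgroup (G ⧸ A)) := by
    by_contra hns
    rw [not_subsingleton_iff_nontrivial] at hns
    have hnil : Group.IsNilpotent ↥(P : Subgroup (G ⧸ A)) := P.isPGroup'.isNilpotent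
    have h6 := Group.IsSolvable.commutator_lt_top_of_nontrivial ↥(P : Subgroup (G ⧸ A))
    exact h6.ne h4
  have h6 : Nat.card ↥(P : Subgroup (G ⧸ A)) = 1 := Nat.card_unique
  have h7 : ¬ p ∣ Nat.card (G ⧸ A) := by
    rw [P.card_eq_multiplicity] at h6
    intro hd
    have := hpP.factorization_pos_of_dvd Nat.card_pos.ne' hd
    rcases Nat.pow_eq_one.1 h6 with h | h
    · exact hpP.ne_one h
    · omega
  rw [Subgroup.card_eq_card_quotient_mul_card_subgroup A, hpP.dvd_mul]
  rintro (h8 | h8)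
  · exact h7 h8
  · exact (hpP.coprime_iff_not_dvd.1 (Lib.Cores.pPrimeCore_coprime (G := G) p).symm) h8

end side

/-- Let p and q be primes dividing the order of the finite group G, and suppose G is p-solvable and q-solvable. Fix maximal ideals of the algebraic integers containing p and q, defining the principal p-block and the principal q-block. If the irreducible characters of degree prime to p in the principal p-block are exactly the irreducible characters of degree prime to q in the principal q-block, then p = q. -/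
theorem result {G : Type*} [Group G] [Finite G] (p q : ℕ) [Fact p.Prime] [Fact q.Prime] (hp : p ∣ Nat.card G) (hq : q ∣ Nat.card G) (hps : Cfsg.IsPSolvable p G) (hqs : Cfsg.IsPSolvable q G) (Mp Mq : Ideal Cfsg.AlgInt) (hMp : Cfsg.IsPModular p Mp) (hMq : Cfsg.IsPModular q Mq) (h : ∀ χ : Cfsg.IrrCharacter G, (χ ∈ Cfsg.principalBlock Mp G ∧ ¬ p ∣ Cfsg.charDegree (χ : G → ℂ)) ↔ (χ ∈ Cfsg.principalBlock Mq G ∧ ¬ q ∣ Cfsg.charDegree (χ : G → ℂ))) : p = q := by
  by_contra hne
  have hpP : p.Prime := Fact.out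
  have hqP : q.Prime := Fact.out
  have hA : (pPrimeCore p G).Normal := Lib.Cores.pPrimeCore_normal p
  have hK : (pPrimeCore q G).Normal := Lib.Cores.pPrimeCore_normal q
  -- the kernels
  have h1 : ∀ χ : IrrCharacter G, χ ∈ principalBlock Mp G → ¬ p ∣ charDegree (χ : G → ℂ) →
      ∀ x ∈ pPrimeCore q G, (χ : G → ℂ) x = (χ : G → ℂ) 1 := by
    intro χ h1 h2
    have h3 := ((h χ).1 ⟨h1, h2⟩).1
    rw [SuzukiRankOne.M1Average.principalBlock_eq hMq hqs] at h3
    exact h3
  have h2 : ∀ χ : IrrCharacter G, χ ∈ principalBlock Mq G → ¬ q ∣ charDegree (χ : G → ℂ) →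
      ∀ x ∈ pPrimeCore p G, (χ : G → ℂ) x = (χ : G → ℂ) 1 := by
    intro χ h1 h2
    have h3 := ((h χ).2 ⟨h1, h2⟩).1
    rw [SuzukiRankOne.M1Average.principalBlock_eq hMp hps] at h3
    exact h3
  set L := pPrimeCore p G ⊔ pPrimeCore q G with hL
  have hLn : L.Normal := Subgroup.sup_normal _ _
  have htop : L = ⊤ := by
    obtain ⟨n, H, h0, hlast, hmono, hnorm, hfac⟩ := hps
    have key : ∀ i : ℕ, ∀ hi : i < n + 1, H ⟨i, hi⟩ ≤ L := by
      intro i
      induction i with
      | zero =>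
        intro hi
        have : (⟨0, hi⟩ : Fin (n + 1)) = 0 := rfl
        rw [this, h0]; exact bot_le
      | succ i ih =>
        intro hi
        have hle := ih (by omega)
        have hin : i < n := by omega
        have hn : (H ⟨i + 1, hi⟩).Normal := hnorm _
        have hRn : (L ⊔ H ⟨i + 1, hi⟩).Normal := Subgroup.sup_normal _ _
        have hrel : L.relIndex (L ⊔ H ⟨i + 1, hi⟩) ∣ (H ⟨i, by omega⟩).relIndex (H ⟨i + 1, hi⟩) := by
          rw [sup_comm, Subgroup.relIndex_sup_right]
          exact Subgroup.relIndex_dvd_of_le_left _ hle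
        have hf := hfac ⟨i, hin⟩
        have e1 : (⟨i, hin⟩ : Fin n).castSucc = ⟨i, by omega⟩ := rfl
        have e2 : (⟨i, hin⟩ : Fin n).succ = ⟨i + 1, hi⟩ := rfl
        rw [e1, e2] at hf
        refine le_trans le_sup_right (?_ : L ⊔ H ⟨i + 1, hi⟩ ≤ L)
        rcases hf with ⟨m, hm⟩ | hcop
        · rw [hm] at hrel
          have hcop : (L.relIndex (L ⊔ H ⟨i + 1, hi⟩)).Coprime q :=
            Nat.Coprime.coprime_dvd_left hrel (Nat.Coprime.pow_left m
              ((Nat.coprime_primes hpP hqP).2 hne))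
          have e3 : pPrimeCore q G ⊔ pPrimeCore p G = L := sup_comm _ _
          have h4 := eq_of_coprime q Mq hMq hqs (pPrimeCore p G) h2 (L ⊔ H ⟨i + 1, hi⟩)
            (by rw [e3]; exact le_sup_left) (by rw [e3]; exact hcop)
          rwa [e3] at h4
        · have hcop' : (L.relIndex (L ⊔ H ⟨i + 1, hi⟩)).Coprime p :=
            Nat.Coprime.coprime_dvd_left hrel hcop
          exact eq_of_coprime p Mp hMp ⟨n, H, h0, hlast, hmono, hnorm, hfac⟩ (pPrimeCore q G) h1
            (L ⊔ H ⟨i + 1, hi⟩) le_sup_left hcop'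
    rw [eq_top_iff, ← hlast]
    exact key n (by omega)
  exact not_dvd_of_top p Mp hMp hps (pPrimeCore q G) h1 htop hp

end Cfsg.Agent.S4885
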