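import Mathlib
import Cfsg.Prelude.Def_BrauerPairs
import Cfsg.Agent.H700.NormNil
import Cfsg.Agent.H649.CentricBlock
import Cfsg.Agent.S0912
import Cfsg.Agent.Lib.Cores
import Cfsg.Agent.S0854
import Cfsg.Statements.S4890
set_option linter.all false

-- part: H700/NormFwd
section
/-!
# A block with normal defect group: inertia group `N` implies nilpotency
-/

set_option autoImplicit false

namespace Cfsg.Agent.H700.NormFwd

open Cfsg Cfsg.Agent.Characters.Core Cfsg.Agent.Characters.Clifford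
open Cfsg.Agent.Blocks.CentralProduct
open Cfsg.Agent.H700.NormData Cfsg.Agent.H700.SchurAvg Cfsg.Agent.H700.NormInertia
open Cfsg.Agent.H700.NormDeg Cfsg.Agent.H700.NormMain Cfsg.Agent.H700.NormNil
open Cfsg.Agent.H646.NormalSupport
open Cfsg.Agent.Blocks.Fong (cj cj_apply cj_cj cj_one)
open scoped ComplexConjugate

universe u

local notation "Cn(" D ")" => Subgroup.centralizer (SetLike.coe D)

variable {G : Type u} [Group G] {p : ℕ} {M : Ideal AlgInt} [Fact p.Prime]
  {B : Set (IrrCharacter G)}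

/-- A normal defect group is the only defect group. -/
theorem eq_defect [Finite G] (hM : IsPModular p M) (hB : IsPBlock M B) {D D' : Subgroup G}
    [hDn : D.Normal] (hD : IsDefectGroup p M B D) (hD' : IsDefectGroup p M B D') : D = D' := by
  have h1 : D ≤ pCore p G := Lib.Cores.le_pCore hDn (isPGroup_of_isDefectGroup hD)
  have h2 := S0912.result p M hM B hB D' hD'
  have h3 := S0908.result p M hM B hB D hD
  have h4 := S0908.result p M hM B hB D' hD'
  exact Subgroup.eq_of_le_of_card_ge (h1.trans h2) (by rw [h3, h4])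

/-- If `y` is `p`-regular in `N_G(Q)` and `y = d c` with `d` a `p`-element and `c ∈ C_G(Q)`, then
`y ∈ C_G(Q)`. -/
theorem mem_centralizer_of_mul [Finite G] {D Q : Subgroup G} (hDp : IsPGroup p D) {y d c : G}
    (hyQ : y ∈ Subgroup.normalizer (Q : Set G)) (hreg : ¬ p ∣ orderOf y) (hd : d ∈ D)
    (hc : c ∈ Cn(Q)) (h : d * c = y) : y ∈ Cn(Q) := by
  have hcn : c ∈ Subgroup.normalizer (Q : Set G) := Subgroup.centralizer_le_normalizer _ hc
  have hdn : d ∈ Subgroup.normalizer (Q : Set G) := by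
    have : d = y * c⁻¹ := by rw [← h]; group
    rw [this]
    exact mul_mem hyQ (inv_mem hcn)
  have h1 : (⟨y, hyQ⟩ : Subgroup.normalizer (Q : Set G)) = ⟨d, hdn⟩ * ⟨c, hcn⟩ :=
    Subtype.ext h.symm
  have hker : (⟨c, hcn⟩ : Subgroup.normalizer (Q : Set G)) ∈
      (Subgroup.normalizerMonoidHom Q).ker := by
    rw [Subgroup.normalizerMonoidHom_ker]
    exact Subgroup.mem_subgroupOf.2 hc
  have h2 : Subgroup.normalizerMonoidHom Q ⟨y, hyQ⟩ = Subgroup.normalizerMonoidHom Q ⟨d, hdn⟩ := by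
    rw [h1, map_mul, (MonoidHom.mem_ker).1 hker, mul_one]
  have h3 : orderOf (Subgroup.normalizerMonoidHom Q ⟨y, hyQ⟩) ∣ orderOf y := by
    have := orderOf_map_dvd (Subgroup.normalizerMonoidHom Q) ⟨y, hyQ⟩
    rwa [Subgroup.orderOf_mk] at this
  obtain ⟨k, hk⟩ := hDp ⟨d, hd⟩
  have h4 : orderOf (Subgroup.normalizerMonoidHom Q ⟨y, hyQ⟩) ∣ p ^ k := by
    rw [h2]
    refine orderOf_dvd_of_pow_eq_one ?_
    rw [← map_pow]
    have h5 : (⟨d, hdn⟩ : Subgroup.normalizer (Q : Set G)) ^ p ^ k = 1 := by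
      apply Subtype.ext
      have := congrArg Subtype.val hk
      simpa using this
    rw [h5, map_one]
  have h5 : Nat.Coprime (orderOf y) (p ^ k) :=
    Nat.Coprime.pow_right k (((Nat.Prime.coprime_iff_not_dvd Fact.out).2 hreg).symm)
  have h6 := Nat.eq_one_of_dvd_coprimes h5 h3 h4
  rw [orderOf_eq_one_iff] at h6
  have h7 : (⟨y, hyQ⟩ : Subgroup.normalizer (Q : Set G)) ∈
      (Subgroup.normalizerMonoidHom Q).ker := h6
  rw [Subgroup.normalizerMonoidHom_ker] at h7
  exact Subgroup.mem_subgroupOf.1 h7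

variable [Fintype G] {D N : Subgroup G} [hDn : D.Normal] [hNn : N.Normal] [Fintype N]
  {b : Set (IrrCharacter N)} {θ : IrrCharacter N}

omit hDn hNn in
/-- Constituents of `θ` on `C_G(D)` are under `B`. -/
theorem mem_underSet_of_over [Fintype Cn(D)] (hM : IsPModular p M)
    (h : Data p M B D N b θ) {η : IrrCharacter Cn(D)}
    (hov : classInner (fun n : Cn(D) => (θ : N → ℂ) ⟨n, h.centralizer_le n.2⟩)
      (η : Cn(D) → ℂ) ≠ 0) : η ∈ underSet Cn(D) B := by
  obtain ⟨χ, hχ, h0⟩ := S0934.result p M hM N b B h.ind θ h.mem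
  exact ⟨χ, hχ, over_trans h.centralizer_le χ.2 θ.2 η.2 h0 hov⟩

/-- If `N` is the inertia group of the canonical character then the block is nilpotent. -/
theorem isNilpotentBlock (hM : IsPModular p M) (hB : IsPBlock M B) (hD : IsDefectGroup p M B D)
    (h : Data p M B D N b θ) (hT : inertia N (θ : N → ℂ) = N) : IsNilpotentBlock p M B := by
  classical
  have hprime : M.IsPrime := hM.2.1.isPrime
  refine ⟨hB, fun Q f hf y hyQ hyst hyreg => ?_⟩
  obtain ⟨D', hD', hQD⟩ := H649.exists_defect_ge hM hf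
  rw [← eq_defect hM hB hD hD'] at hQD
  have hCn : (Cn(D)).Normal := Subgroup.normal_centralizer
  have := Fintype.ofFinite Cn(D)
  have hCK : Cn(D) ≤ Cn(Q) := Subgroup.centralizer_le hQD
  obtain ⟨ξ, hξ⟩ := Blocks.Basic.isPBlock_nonempty hf.1.2
  obtain ⟨ξ', hξ', hconj⟩ := hyst.2 ξ hξ
  obtain ⟨η, hη⟩ := exists_under hCK ξ
  have hη' : classInner (fun n : Cn(D) => (ξ' : Cn(Q) → ℂ) ⟨n, hCK n.2⟩)
      (cj Cn(D) y⁻¹ η : Cn(D) → ℂ) ≠ 0 := by
    intro h0
    apply hη
    rw [← h0]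
    let c : Cn(D) ≃* Cn(D) := MulAut.conjNormal y⁻¹
    have h3 := classInner_comp_mulEquiv c
      (fun n : Cn(D) => (ξ : Cn(Q) → ℂ) ⟨n, hCK n.2⟩) (η : Cn(D) → ℂ)
    rw [← h3]
    congr 1
    funext n
    refine (hconj ⟨c n, hCK (c n).2⟩ ⟨n, hCK n.2⟩ ?_).symm
    show (n : G) = y * ((MulAut.conjNormal y⁻¹ n : Cn(D)) : G) * y⁻¹
    rw [MulAut.conjNormal_apply]
    group
  obtain ⟨k, hk, hsb⟩ := cover_conj hM Cn(D) Cn(Q) hCK hf.1.2 hξ hξ' hη hη'
  rw [cj_cj] at hsb
  have hηB := mem_underSet_of_pair hM hB h.isPGroup hf hξ hCK hη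
  obtain ⟨η₀, hη₀⟩ := exists_under h.centralizer_le θ
  have hη₀B := mem_underSet_of_over hM h hη₀
  have hU := H646.UCov.ucov_of_centralizer_le hM D h.isPGroup _ le_rfl
  obtain ⟨g, hg⟩ := (H646.UCov.mem_underSet_iff Cn(D) hM hU hB
    (Blocks.Basic.isPBlock_blockOf η₀) (Blocks.Basic.mem_blockOf_self η₀) hη₀B η).1 hηB
  have hg' : SameBlock M (η₀ : Cn(D) → ℂ) (cj Cn(D) g η : Cn(D) → ℂ) := hg
  -- conjugate to `η₀`
  have h1 : SameBlock M (cj Cn(D) g η : Cn(D) → ℂ)
      (cj Cn(D) (g⁻¹ * (y⁻¹ * k) * g) (cj Cn(D) g η) : Cn(D) → ℂ) := by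
    have := H646.UCov.sameBlock_cj Cn(D) g hsb
    rw [cj_cj] at this
    rw [cj_cj]
    have e : g * (g⁻¹ * (y⁻¹ * k) * g) = y⁻¹ * k * g := by group
    rwa [e]
  have h2 := H646.UCov.sameBlock_cj Cn(D) (g⁻¹ * (y⁻¹ * k) * g) hg'
  have h3 : SameBlock M (η₀ : Cn(D) → ℂ)
      (cj Cn(D) (g⁻¹ * (y⁻¹ * k) * g) η₀ : Cn(D) → ℂ) :=
    Blocks.Basic.sameBlock_trans (Blocks.Basic.sameBlock_trans hg' h1)
      (Blocks.Basic.sameBlock_symm h2)
  have h4 := mem_inertia_of_sameBlock hM h hη₀ h3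
  rw [hT] at h4
  have h5 : y⁻¹ * k ∈ N := by
    have := hNn.conj_mem _ h4 g
    rwa [show g * (g⁻¹ * (y⁻¹ * k) * g) * g⁻¹ = y⁻¹ * k by group] at this
  obtain ⟨d, hd, c, hc, hdc⟩ := exists_mul h.eqN h5
  rw [← inv_mem_iff]
  refine mem_centralizer_of_mul h.isPGroup (inv_mem hyQ) (by rwa [orderOf_inv]) hd
    (mul_mem (hCK hc) (inv_mem hk)) (?_ : d * (c * k⁻¹) = y⁻¹)
  rw [← mul_assoc, hdc]
  group

end Cfsg.Agent.H700.NormFwd
end

-- part: H700/NormBwd
section
/-!
# A block with normal defect group: nilpotency implies equal degrees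
-/

set_option autoImplicit false

namespace Cfsg.Agent.H700.NormBwd

open Cfsg Cfsg.Agent.Characters.Core Cfsg.Agent.Characters.Clifford
open Cfsg.Agent.Blocks.CentralProduct
open Cfsg.Agent.H700.NormData Cfsg.Agent.H700.SchurAvg Cfsg.Agent.H700.NormInertia
open Cfsg.Agent.H700.NormDeg Cfsg.Agent.H700.NormMain Cfsg.Agent.H700.NormNil
open Cfsg.Agent.H700.NormFwd
open Cfsg.Agent.H646.NormalSupport
open Cfsg.Agent.Blocks.Fong (cj cj_apply cj_cj cj_one)
open scoped ComplexConjugate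

universe u

local notation "Cn(" D ")" => Subgroup.centralizer (SetLike.coe D)

/-- Constituents on a smaller normal subgroup are conjugate. -/
theorem under_conj {G : Type u} [Group G] [Finite G] {C N : Subgroup G} [C.Normal]
    [Fintype C] (hCN : C ≤ N) {θ : N → ℂ} (hθ : IsIrrCharacter N θ) {η η' : IrrCharacter C}
    (h1 : classInner (fun n : C => θ ⟨n, hCN n.2⟩) (η : C → ℂ) ≠ 0)
    (h2 : classInner (fun n : C => θ ⟨n, hCN n.2⟩) (η' : C → ℂ) ≠ 0) :
    ∃ n ∈ N, η' = cj C n η := by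
  classical
  have := Fintype.ofFinite N
  have := Fintype.ofFinite (C.subgroupOf N)
  let e : C.subgroupOf N ≃* C := Subgroup.subgroupOfEquivOfLe hCN
  obtain ⟨n, hn⟩ := exists_conj_of_constituents (C.subgroupOf N) hθ
    (isIrr_comp (e : C.subgroupOf N →* C) e.surjective η.2)
    (isIrr_comp (e : C.subgroupOf N →* C) e.surjective η'.2)
    (by
      intro h0
      apply h1
      rw [← h0]
      exact (classInner_comp_mulEquiv e (fun n : C => θ ⟨n, hCN n.2⟩) (η : C → ℂ)).symm)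
    (by
      intro h0
      apply h2
      rw [← h0]
      exact (classInner_comp_mulEquiv e (fun n : C => θ ⟨n, hCN n.2⟩) (η' : C → ℂ)).symm)
  refine ⟨n, n.2, ?_⟩
  apply Subtype.ext
  funext c
  obtain ⟨c, rfl⟩ := e.surjective c
  have h3 := congrFun hn c
  rw [cj_apply]
  have h4 : (η' : C → ℂ) (e c) = (η : C → ℂ) (e (MulAut.conjNormal n c)) := h3
  rw [h4]
  congr 1

variable {G : Type u} [Group G] {p : ℕ} {M : Ideal AlgInt} [Fintype G] [Fact p.Prime]
  {B : Set (IrrCharacter G)} {D N : Subgroup G} [hDn : D.Normal] [hNn : N.Normal] [Fintype N]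
  {b : Set (IrrCharacter N)} {θ : IrrCharacter N}

/-- The canonical character of a nilpotent block with normal defect group is only fixed by `N`. -/
theorem inertia_eq (hM : IsPModular p M) (hB : IsPBlock M B) (hD : IsDefectGroup p M B D)
    (h : Data p M B D N b θ) (hnil : IsNilpotentBlock p M B) : inertia N (θ : N → ℂ) = N := by
  classical
  have hp : p.Prime := Fact.out
  have hprime : M.IsPrime := hM.2.1.isPrime
  have hNT : N ≤ inertia N (θ : N → ℂ) := le_inertia (isIrr_isClassFunction θ.2)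
  refine le_antisymm (fun t ht => ?_) hNT
  have hCn : (Cn(D)).Normal := Subgroup.normal_centralizer
  have := Fintype.ofFinite Cn(D)
  obtain ⟨η₀, hη₀⟩ := exists_under h.centralizer_le θ
  have hη₀B := mem_underSet_of_over hM h hη₀
  have hpair := pair_of_mem_underSet hM hB h.isPGroup hη₀B
  have hn0 : orderOf t ≠ 0 := (orderOf_pos t).ne'
  set k := (orderOf t).factorization p with hk
  have hdvd : p ^ k ∣ orderOf t := Nat.ordProj_dvd _ _
  have hs : orderOf (t ^ p ^ k) = orderOf t / p ^ k :=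
    orderOf_pow_of_dvd (pow_ne_zero _ hp.ne_zero) hdvd
  have hsp : ¬ p ∣ orderOf (t ^ p ^ k) := by
    rw [hs]
    exact Nat.not_dvd_ordCompl hp hn0
  have hyT : t ^ p ^ k ∈ inertia N (θ : N → ℂ) := Subgroup.pow_mem _ ht _
  set y := t ^ p ^ k with hy
  have hη' : classInner (fun n : Cn(D) => (θ : N → ℂ) ⟨n, h.centralizer_le n.2⟩)
      (cj Cn(D) y η₀ : Cn(D) → ℂ) ≠ 0 := by
    intro h0
    apply hη₀
    rw [← h0]
    let c : Cn(D) ≃* Cn(D) := MulAut.conjNormal y
    have h3 := classInner_comp_mulEquiv c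
      (fun n : Cn(D) => (θ : N → ℂ) ⟨n, h.centralizer_le n.2⟩) (η₀ : Cn(D) → ℂ)
    rw [← h3]
    congr 1
    funext n
    exact mem_inertia.1 hyT ⟨n, h.centralizer_le n.2⟩
  obtain ⟨n, hn, hcj⟩ := under_conj h.centralizer_le θ.2 hη₀ hη'
  rw [cj_eq_self h hn] at hcj
  have hst : StabilizesBlock Cn(D) (blockOf M (η₀ : Cn(D) → ℂ)) y := by
    rw [H646.UCov.stabilizesBlock_iff_cj]
    refine H646.UCov.stable_of_mem Cn(D) (Blocks.Basic.isPBlock_blockOf η₀)
      (Blocks.Basic.mem_blockOf_self η₀) ?_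
    have h5 : cj Cn(D) y⁻¹ η₀ = η₀ := by
      conv_lhs => rw [← hcj]
      exact H646.UCov.cj_inv_cj Cn(D) y η₀
    rw [h5]
    exact Blocks.Basic.mem_blockOf_self η₀
  have hyC : y ∈ Cn(D) := hnil.2 D _ hpair y (by rw [Subgroup.normalizer_eq_top]; trivial) hst hsp
  have h1 : t ^ p ^ k ∈ N := h.centralizer_le hyC
  have h2 : t ^ N.relIndex (inertia N (θ : N → ℂ)) ∈ N := by
    have h6 := Subgroup.pow_index_mem (N.subgroupOf (inertia N (θ : N → ℂ))) ⟨t, ht⟩
    exact Subgroup.mem_subgroupOf.1 h6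
  have hidx := not_dvd_relIndex hM hB hD h
  have hcop : IsCoprime ((p ^ k : ℕ) : ℤ) ((N.relIndex (inertia N (θ : N → ℂ)) : ℕ) : ℤ) := by
    rw [Nat.isCoprime_iff_coprime]
    exact Nat.Coprime.pow_left k ((Nat.Prime.coprime_iff_not_dvd hp).2 hidx)
  obtain ⟨x, z, hxz⟩ := hcop
  have h3 : t = (t ^ p ^ k) ^ x * (t ^ N.relIndex (inertia N (θ : N → ℂ))) ^ z := by
    rw [← zpow_natCast, ← zpow_natCast, ← zpow_mul, ← zpow_mul, ← zpow_add,
      mul_comm _ x, mul_comm _ z, hxz, zpow_one]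
  rw [h3]
  exact N.mul_mem (Subgroup.zpow_mem _ h1 _) (Subgroup.zpow_mem _ h2 _)

/-- If the canonical character is only fixed by `N`, the height zero characters have equal
degrees. -/
theorem degree_eq (hM : IsPModular p M) (hB : IsPBlock M B) (hD : IsDefectGroup p M B D)
    (h : Data p M B D N b θ) (hT : inertia N (θ : N → ℂ) = N) {χ : IrrCharacter G} (hχ : χ ∈ B)
    (hht : blockHeight p B (χ : G → ℂ) = 0) :
    charDegree (χ : G → ℂ) = N.index * charDegree (θ : N → ℂ) := by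
  classical
  have hp : p.Prime := Fact.out
  have hprime : M.IsPrime := hM.2.1.isPrime
  have hU := H646.UCov.ucov_of_centralizer_le hM D h.isPGroup N h.centralizer_le
  obtain ⟨χ₀, hχ₀, h0⟩ := S0934.result p M hM N b B h.ind θ h.mem
  obtain ⟨φ₀, hφ₀⟩ := Blocks.Fong.exists_constituent N χ
  obtain ⟨g, hg⟩ := (H646.UCov.mem_underSet_iff N hM hU hB h.blk h.mem ⟨χ₀, hχ₀, h0⟩ φ₀).1
    ⟨χ, hχ, hφ₀⟩
  set φ := cj N g φ₀ with hφ
  have hov : classInner (fun n : N => (χ : G → ℂ) n) (φ : N → ℂ) ≠ 0 := by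
    have h1 := classInner_restrict_conjNormal (N := N)
      (Blocks.Basic.irr_isClassFunction χ.2) (φ₀ : N → ℂ) g
    have h2 : (φ : N → ℂ) = (φ₀ : N → ℂ) ∘ (MulAut.conjNormal g : MulAut N) := rfl
    rw [h2, h1]
    exact hφ₀
  -- the inertia group of `φ`
  have hinert : ∀ x : G, x ∈ N ↔ x ∈ inertia N (φ : N → ℂ) := by
    intro x
    refine ⟨fun hx => le_inertia (isIrr_isClassFunction φ.2) hx, fun hx => ?_⟩
    have h1 : cj N x φ = φ := Subtype.ext (funext fun n => by
      rw [cj_apply]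
      exact mem_inertia.1 hx n)
    have h2 := H646.UCov.stable_of_mem N h.blk hg (by rw [h1]; exact hg) θ h.mem
    have h3 : cj N x θ = θ := by
      refine h.uniq _ h2 fun y hy => ?_
      rw [cj_apply, cj_apply, map_one]
      apply h.ker
      rw [Subgroup.mem_subgroupOf, MulAut.conjNormal_apply]
      exact hDn.conj_mem _ (Subgroup.mem_subgroupOf.1 hy) x
    rw [← hT, mem_inertia]
    intro n
    rw [← cj_apply, h3]
  obtain ⟨ψ, hψ, hind, hin⟩ := S0854.result N (φ : N → ℂ) φ.2 N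
    (fun x => (hinert x).trans mem_inertia') le_rfl (χ : G → ℂ) χ.2 hov
  have hψφ : ψ = (φ : N → ℂ) := by
    by_contra hne
    apply hov
    rw [← hin]
    exact classInner_irr_ne hψ φ.2 hne
  have hdeg : (χ : G → ℂ) 1 = N.index * (φ : N → ℂ) 1 := by
    rw [← hind, CharactersDeep.NormalInd.indFun_one, hψφ]
  obtain ⟨⟨η, hη, hηφ⟩, -⟩ := h.exists_eq hM hg
  have h1 := hηφ 1 1 not_dvd_orderOf_one
  have h2 : (φ : N → ℂ) 1 = η 1 * (θ : N → ℂ) 1 := by
    rw [← h1]
    simp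
  obtain ⟨a, ha0, ha⟩ := isIrr_apply_one hη
  obtain ⟨m, hm0, hm⟩ := isIrr_apply_one θ.2
  have hχ1 : (χ : G → ℂ) 1 = ((N.index * (a * m) : ℕ) : ℂ) := by
    rw [hdeg, h2, ha, hm]
    push_cast
    ring
  have hdegχ := charDegree_eq hχ1
  have hdegθ := charDegree_eq hm
  -- `a` is a power of `p`
  obtain ⟨k, hk⟩ := IsPGroup.iff_card.1 h.isPGroup'
  have hadvd : a ∣ p ^ k := by
    rw [← hk]
    exact degree_dvd_card hη ha
  obtain ⟨j, -, rfl⟩ := (Nat.dvd_prime_pow hp).1 hadvd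
  -- height zero
  have hfac : (charDegree (χ : G → ℂ)).factorization p + blockDefect p B ≤
      (Nat.card G).factorization p := by
    rw [Blocks.Basic.blockHeight_def, tsub_eq_zero_iff_le] at hht
    rw [Blocks.Basic.blockDefect_def]
    obtain ⟨χ₁, hχ₁, h1⟩ := Nat.sInf_mem (s := (fun χ : IrrCharacter G =>
      (charDegree (χ : G → ℂ)).factorization p) '' B) ⟨_, χ, hχ, rfl⟩
    have h2 : (charDegree (χ₁ : G → ℂ)).factorization p ≤ (Nat.card G).factorization p := by
      obtain ⟨n, hn0, hn⟩ := isIrr_apply_one χ₁.2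
      rw [charDegree_eq hn]
      exact (Nat.factorization_le_iff_dvd hn0.ne' Nat.card_pos.ne').2 (degree_dvd_card χ₁.2 hn) p
    simp only at h1
    omega
  have hcard := fac_card_eq (p := p) h.le
  have hdθ := h.deg
  rw [hdegθ] at hdθ
  rw [hdegχ, Nat.factorization_mul Subgroup.index_ne_zero_of_finite
    (mul_ne_zero (pow_ne_zero _ hp.ne_zero) hm0.ne'),
    Nat.factorization_mul (pow_ne_zero _ hp.ne_zero) hm0.ne', Finsupp.add_apply,
    Finsupp.add_apply, hcard, ← fac_card hM hB hD, hdθ, hp.factorization_pow,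
    Finsupp.single_eq_same] at hfac
  have hj : j = 0 := by omega
  rw [hdegχ, hdegθ, hj, pow_zero, one_mul]

end Cfsg.Agent.H700.NormBwd
end

-- part: S4890
section
set_option autoImplicit false
open Cfsg

namespace Cfsg.Agent.S4890

/-- Let G be a finite group, p a prime, M a maximal ideal of the algebraic integers containing p, and B a p-block of G with a defect group that is normal in G. Then all height-zero irreducible characters of B have the same degree if and only if B is a nilpotent block. -/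
theorem result {G : Type*} [Group G] [Finite G] (p : ℕ) [Fact p.Prime] (M : Ideal Cfsg.AlgInt) (hM : Cfsg.IsPModular p M) (B : Set (Cfsg.IrrCharacter G)) (hB : Cfsg.IsPBlock M B) (D : Subgroup G) (hD : Cfsg.IsDefectGroup p M B D) (hDn : D.Normal) : (∃ d : ℕ, ∀ χ : Cfsg.IrrCharacter G, χ ∈ B → Cfsg.blockHeight p B (χ : G → ℂ) = 0 → Cfsg.charDegree (χ : G → ℂ) = d) ↔ Cfsg.IsNilpotentBlock p M B := by
  classical
  have := Fintype.ofFinite G
  have := hDn
  obtain ⟨b, θ, h⟩ := Cfsg.Agent.H700.NormData.exists_data hM hB hD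
  have := h.normal
  have := Fintype.ofFinite ↥(D ⊔ Subgroup.centralizer (D : Set G))
  constructor
  · rintro ⟨d, hd⟩
    exact Cfsg.Agent.H700.NormFwd.isNilpotentBlock hM hB hD h
      (Cfsg.Agent.H700.NormMain.inertia_eq hM hB hD h hd)
  · intro hnil
    exact ⟨_, fun χ hχ hht => Cfsg.Agent.H700.NormBwd.degree_eq hM hB hD h
      (Cfsg.Agent.H700.NormBwd.inertia_eq hM hB hD h hnil) hχ hht⟩

end Cfsg.Agent.S4890
end
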