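import Cfsg.Statements.S4912
import Cfsg.Agent.H705.StrongLin
set_option linter.all false

set_option autoImplicit false
open Cfsg

namespace Cfsg.Agent.S4912

/-- Let G be a finite group with a non-abelian minimal normal subgroup N, and let φ be an irreducible complex character of N with stabilizer I in G such that φ extends to an irreducible character of I with Frobenius–Schur indicator +1. Put d = φ(1)·[G : I]. Then the number of linear characters of G with Frobenius–Schur indicator +1 is at most [G : I] times the number of irreducible characters of G of degree d with Frobenius–Schur indicator +1. -/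
theorem result {G : Type*} [Group G] [Finite G] (N : Subgroup G) (hN : N.Normal) (hN1 : N ≠ ⊥) (hmin : ∀ M : Subgroup G, M.Normal → M ≤ N → M = ⊥ ∨ M = N) (hna : ¬ IsMulCommutative ↥N) (φ : Cfsg.IrrCharacter ↥N) (I : Subgroup G) (hI : ∀ g : G, g ∈ I ↔ ∀ n n' : ↥N, (n' : G) = g * (n : G) * g⁻¹ → (φ : ↥N → ℂ) n' = (φ : ↥N → ℂ) n) (hNI : N ≤ I) (hext : ∃ ψ : Cfsg.IrrCharacter ↥I, (Nat.card ↥I : ℂ)⁻¹ * ∑ᶠ g : ↥I, (ψ : ↥I → ℂ) (g * g) = 1 ∧ ∀ n : ↥N, (ψ : ↥I → ℂ) (Subgroup.inclusion hNI n) = (φ : ↥N → ℂ) n) : Nat.card {χ : Cfsg.IrrCharacter G // Cfsg.charDegree (χ : G → ℂ) = 1 ∧ (Nat.card G : ℂ)⁻¹ * ∑ᶠ g : G, (χ : G → ℂ) (g * g) = 1} ≤ I.index * Nat.card {χ : Cfsg.IrrCharacter G // Cfsg.charDegree (χ : G → ℂ) = Cfsg.charDegree (φ : ↥N → ℂ) * I.index ∧ (Nat.card G : ℂ)⁻¹ * ∑ᶠ g : G, (χ : G → ℂ) (g * g) = 1} := by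
  classical
  have hperf : ⁅N, N⁆ = N := by
    rcases hmin ⁅N, N⁆ inferInstance (Subgroup.commutator_le_self N) with h | h
    · exfalso
      apply hna
      rw [Subgroup.commutator_eq_bot_iff_le_centralizer] at h
      refine ⟨⟨fun a b => Subtype.ext ?_⟩⟩
      exact (Subgroup.mem_centralizer_iff.1 (h a.2) b b.2).symm
    · exact h
  obtain ⟨ψ, hν, hext⟩ := hext
  have hI' : ∀ g : G, g ∈ I ↔
      Cfsg.Agent.OddOrderCharacters.NormalInduced.conjFn N (φ : ↥N → ℂ) g = φ := by
    intro g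
    rw [hI g]
    constructor
    · intro h
      funext n
      exact h n _ rfl
    · intro h n n' hn
      have h1 := congrFun h n
      rw [← h1]
      exact congrArg (φ : ↥N → ℂ) (Subtype.ext hn)
  exact Cfsg.Agent.H705.StrongLin.main N hperf φ φ.2 I hI' hNI ψ ψ.2 hν (funext fun n => hext n)

end Cfsg.Agent.S4912
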