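import Mathlib
import Cfsg.Prelude.Def_Characters
import Cfsg.Agent.Characters.Core
import Cfsg.Agent.Characters.Galois
import Cfsg.Agent.Characters.Values
import Cfsg.Agent.S0136
import Cfsg.Agent.H710.MaxClass
import Cfsg.Statements.S4923
set_option linter.all false

-- part: H710/FieldAut
section
/-!
# Fields of algebraic numbers and automorphisms of the complex field (helper710)

* `mem_of_fixed` : an algebraic number fixed by all automorphisms of `ℂ` fixing a field `F` of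
  algebraic numbers lies in `F`.
* `adjoin_eq` : two sets of algebraic numbers fixed by the same automorphisms generate the same
  field.
* `fix_values_iff` : an automorphism acting as the `m`-th power map on the roots of unity fixes all
  character values at `g` if and only if `g ^ m` is conjugate to `g`.
-/

set_option autoImplicit false

namespace Cfsg.Agent.H710.FieldAut

open Cfsg IntermediateField

/-- An algebraic number fixed by all automorphisms of `ℂ` fixing a field `F` of algebraic numbers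
lies in `F`. -/
theorem mem_of_fixed (F : IntermediateField ℚ ℂ) (hF : F ≤ algebraicClosure ℚ ℂ) {z : ℂ}
    (hz : IsAlgebraic ℚ z) (h : ∀ σ : ℂ ≃+* ℂ, (∀ x ∈ F, σ x = x) → σ z = z) : z ∈ F := by
  let K := algebraicClosure ℚ ℂ
  have hzK : z ∈ K := by
    rw [mem_algebraicClosure_iff]
    exact hz
  have : IsAlgClosure ℚ K := algebraicClosure.isAlgClosure ℚ ℂ
  have : IsGalois ℚ K := IsAlgClosure.isGalois ℚ K
  let F' : IntermediateField ℚ K := F.comap K.val
  have h1 : (⟨z, hzK⟩ : K) ∈ IntermediateField.fixedField (IntermediateField.fixingSubgroup F') := by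
    rw [IntermediateField.mem_fixedField_iff]
    intro σ hσ
    obtain ⟨τ, hτ⟩ := Cfsg.Agent.Characters.Galois.exists_ringEquiv_extending (K := K)
      (σ : K ≃+* K)
    have h2 : τ z = z := by
      apply h
      intro x hx
      have h3 := hτ ⟨x, hF hx⟩
      have h4 : (σ : K ≃+* K) ⟨x, hF hx⟩ = ⟨x, hF hx⟩ := by
        rw [IntermediateField.mem_fixingSubgroup_iff] at hσ
        exact hσ ⟨x, hF hx⟩ hx
      rw [h4] at h3
      exact h3
    have h5 := hτ ⟨z, hzK⟩
    apply Subtype.ext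
    have h6 : (algebraMap K ℂ) ⟨z, hzK⟩ = z := rfl
    rw [h6, h2] at h5
    exact h5.symm
  rw [InfiniteGalois.fixedField_fixingSubgroup] at h1
  exact h1

theorem adjoin_le_algebraicClosure {S : Set ℂ} (hS : ∀ s ∈ S, IsAlgebraic ℚ s) :
    adjoin ℚ S ≤ algebraicClosure ℚ ℂ := by
  rw [adjoin_le_iff]
  intro s hs
  rw [SetLike.mem_coe, mem_algebraicClosure_iff]
  exact hS s hs

/-- An automorphism fixing a set fixes the field it generates. -/
theorem fix_adjoin (σ : ℂ ≃+* ℂ) {S : Set ℂ} (h : ∀ x ∈ S, σ x = x) : ∀ x ∈ adjoin ℚ S, σ x = x := by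
  intro x hx
  let A : IntermediateField ℚ ℂ :=
    { carrier := {x | σ x = x}
      mul_mem' := fun {a b} ha hb => by
        rw [Set.mem_ofPred_eq] at *
        rw [map_mul, ha, hb]
      add_mem' := fun {a b} ha hb => by
        rw [Set.mem_ofPred_eq] at *
        rw [map_add, ha, hb]
      algebraMap_mem' := fun q => by
        rw [Set.mem_ofPred_eq]
        exact map_ratCast σ q
      inv_mem' := fun a ha => by
        rw [Set.mem_ofPred_eq] at *
        rw [map_inv₀, ha] }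
  have h1 : adjoin ℚ S ≤ A := adjoin_le_iff.2 h
  exact h1 hx

theorem adjoin_le {S T : Set ℂ} (hS : ∀ s ∈ S, IsAlgebraic ℚ s) (hT : ∀ s ∈ T, IsAlgebraic ℚ s)
    (h : ∀ σ : ℂ ≃+* ℂ, (∀ x ∈ T, σ x = x) → ∀ x ∈ S, σ x = x) : adjoin ℚ S ≤ adjoin ℚ T := by
  rw [adjoin_le_iff]
  intro s hs
  refine mem_of_fixed _ (adjoin_le_algebraicClosure hT) (hS s hs) fun σ hσ => ?_
  exact h σ (fun x hx => hσ x (subset_adjoin ℚ T hx)) s hs

/-- Two sets of algebraic numbers fixed by the same automorphisms generate the same field. -/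
theorem adjoin_eq_iff {S T : Set ℂ} (hS : ∀ s ∈ S, IsAlgebraic ℚ s)
    (hT : ∀ s ∈ T, IsAlgebraic ℚ s) :
    adjoin ℚ S = adjoin ℚ T ↔
      ∀ σ : ℂ ≃+* ℂ, (∀ x ∈ S, σ x = x) ↔ (∀ x ∈ T, σ x = x) := by
  constructor
  · intro h σ
    constructor
    · intro h1 x hx
      exact fix_adjoin σ h1 x (by rw [h]; exact subset_adjoin ℚ T hx)
    · intro h1 x hx
      exact fix_adjoin σ h1 x (by rw [← h]; exact subset_adjoin ℚ S hx)
  · intro h
    exact le_antisymm (adjoin_le hS hT fun σ h1 => (h σ).2 h1)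
      (adjoin_le hT hS fun σ h1 => (h σ).1 h1)

universe u

variable {G : Type u} [Group G] [Finite G]

/-- The set of character values at an element. -/
def vals (g : G) : Set ℂ := {z : ℂ | ∃ χ : IrrCharacter G, (χ : G → ℂ) g = z}

theorem vals_algebraic (g : G) : ∀ s ∈ vals g, IsAlgebraic ℚ s := by
  rintro s ⟨χ, rfl⟩
  obtain ⟨n, ρ, -, h⟩ := χ.2
  rw [← h]
  have h1 := Cfsg.Agent.Characters.Values.character_isIntegral ρ g
  exact (h1.tower_top (A := ℚ)).isAlgebraic

/-- An automorphism acting as the `m`-th power map on the roots of unity of order dividing `N`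
fixes all character values at `g`, `g ^ N = 1`, if and only if `g ^ m` is conjugate to `g`. -/
theorem fix_vals_iff (σ : ℂ ≃+* ℂ) {N : ℕ} (hN : N ≠ 0) {m : ℕ}
    (hσ : ∀ z : ℂ, z ^ N = 1 → σ z = z ^ m) (g : G) (hg : g ^ N = 1) :
    (∀ x ∈ vals g, σ x = x) ↔ IsConj (g ^ m) g := by
  have key : ∀ χ : IrrCharacter G, σ ((χ : G → ℂ) g) = (χ : G → ℂ) (g ^ m) := by
    intro χ
    obtain ⟨n, ρ, -, h⟩ := χ.2
    rw [← h]
    exact Cfsg.Agent.Characters.Galois.map_character (σ : ℂ →+* ℂ) hN hσ ρ g hg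
  rw [Cfsg.Agent.S0136.result]
  constructor
  · intro h χ
    rw [← key]
    exact h _ ⟨χ, rfl⟩
  · rintro h _ ⟨χ, rfl⟩
    rw [key, h]

end Cfsg.Agent.H710.FieldAut
end

-- part: H710/ClassField
section
/-!
# Sylow 2-subgroups of maximal class and fields of values (helper710)
-/

set_option autoImplicit false

namespace Cfsg.Agent.H710.ClassField

open Cfsg Subgroup FieldAut MaxClass IntermediateField

universe u

theorem sigma_fix_iff (σ : ℂ ≃+* ℂ) {ζ ε : ℂ} (hζ : ζ ≠ 0) (hε : σ ε = ε) {m : ℕ}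
    (hσ : σ ζ = ζ ^ m) : σ (ζ + ε * ζ⁻¹) = ζ + ε * ζ⁻¹ ↔ ζ ^ m = ζ ∨ ζ ^ m = ε * ζ⁻¹ := by
  rw [map_add, map_mul, map_inv₀, hε, hσ]
  set w := ζ ^ m with hw
  have hw0 : w ≠ 0 := pow_ne_zero m hζ
  have key : w * (w + ε * w⁻¹ - (ζ + ε * ζ⁻¹)) = (w - ζ) * (w - ε * ζ⁻¹) := by
    field_simp
    ring
  constructor
  · intro h
    have h1 : (w - ζ) * (w - ε * ζ⁻¹) = 0 := by rw [← key, h]; ring
    rcases mul_eq_zero.1 h1 with h2 | h2
    · left; linear_combination h2
    · right; linear_combination h2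
  · intro h
    have h1 : w * (w + ε * w⁻¹ - (ζ + ε * ζ⁻¹)) = 0 := by
      rw [key]
      rcases h with h | h
      · rw [h]; ring
      · rw [h]; ring
    rcases mul_eq_zero.1 h1 with h2 | h2
    · exact absurd h2 hw0
    · linear_combination h2

theorem algebraic_zeta {ζ ε : ℂ} {N : ℕ} (hN : N ≠ 0) (hζ : ζ ^ N = 1) (hε : ε = 1 ∨ ε = -1) :
    ∀ s ∈ ({ζ + ε * ζ⁻¹} : Set ℂ), IsAlgebraic ℚ s := by
  intro s hs
  rw [Set.mem_singleton_iff] at hs
  have h1 : IsIntegral ℚ ζ := IsIntegral.of_pow (Nat.pos_of_ne_zero hN) (by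
    rw [hζ]; exact isIntegral_one)
  have h2 : IsAlgebraic ℚ ζ := h1.isAlgebraic
  have h3 : IsAlgebraic ℚ ε := by
    rcases hε with h | h <;> rw [h]
    · exact isAlgebraic_one
    · exact isAlgebraic_one.neg
  rw [hs]
  exact h2.add (h3.mul h2.inv)

variable {G : Type u} [Group G] [Finite G]

/-- From `|P : P'| = 4` to the field of values. -/
theorem forward (P : Sylow 2 G) (n : ℕ) (hn : 3 ≤ n) (hP : Nat.card P = 2 ^ n) (ζ : ℂ)
    (hζ : IsPrimitiveRoot ζ (2 ^ (n - 1))) (h4 : (commutator ↥P).index = 4) :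
    ∃ g : G, g ∈ (P : Subgroup G) ∧ 2 ∣ (centralizer ({g} : Set G)).index ∧
      ∃ ε : ℂ, (ε = 1 ∨ ε = -1) ∧ adjoin ℚ (vals g) = adjoin ℚ ({ζ + ε * ζ⁻¹} : Set ℂ) := by
  obtain ⟨c, y, j, hco, hall, hyc, hj, hj4, hjn⟩ := structure_of_index_four hn hP h4
  have hcoG : orderOf (c : G) = 2 ^ (n - 1) := by rw [Subgroup.orderOf_coe]; exact hco
  have hζord : orderOf ζ = 2 ^ (n - 1) := hζ.eq_orderOf.symm
  have hζ0 : ζ ≠ 0 := hζ.ne_zero (by positivity)
  have hjG : (y : G) * c * (y : G)⁻¹ = (c : G) ^ j := by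
    have := congrArg Subtype.val hj
    simpa using this
  -- conjugation by elements of `P`
  have hconj : ∀ u : P, (u : G) * c * (u : G)⁻¹ = c ∨ (u : G) * c * (u : G)⁻¹ = (c : G) ^ j := by
    intro u
    rcases hall u with hu | hu
    · left
      obtain ⟨i, rfl⟩ := mem_zpowers_iff.1 hu
      rw [Subgroup.coe_zpow, ((Commute.refl (c : G)).zpow_left i).eq]; group
    · right
      obtain ⟨i, hi⟩ := mem_zpowers_iff.1 hu
      have hu2 : (u : G) = (c : G) ^ i * y := by
        have : u = c ^ i * y := by rw [hi]; group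
        rw [this]; simp
      rw [hu2]
      have h1 : (c : G) ^ i * y * c * ((c : G) ^ i * y)⁻¹ =
          (c : G) ^ i * ((y : G) * c * (y : G)⁻¹) * ((c : G) ^ i)⁻¹ := by group
      rw [h1, hjG, (((Commute.refl (c : G)).zpow_left i).pow_right j).eq]; group
  have hPN : (P : Subgroup G) ≤ normalizer (zpowers (c : G) : Set G) := by
    intro u hu
    apply mem_normalizer_zpowers
    rcases hconj ⟨u, hu⟩ with h | h
    · rw [h]; exact mem_zpowers _
    · rw [h]; exact pow_mem (mem_zpowers _) _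
  -- `c ^ j ≠ c`
  have hjc : (c : G) ^ j ≠ c := by
    intro h
    have h1 : (c : G) ^ j = (c : G) ^ 1 := by rw [h, pow_one]
    rw [pow_eq_pow_iff_modEq, hcoG] at h1
    have h2 : j ≡ 1 [MOD 4] := h1.of_dvd (by
      have : (4 : ℕ) = 2 ^ 2 := by norm_num
      rw [this]; exact pow_dvd_pow 2 (by omega))
    have h3 := (Nat.modEq_iff_dvd.1 h2)
    omega
  obtain ⟨s, hs⟩ := hjn
  set ε : ℂ := (-1) ^ s with hε
  have hε1 : ε = 1 ∨ ε = -1 := neg_one_pow_eq_or ℂ s
  have hhalf : ζ ^ (2 ^ (n - 2)) = -1 := by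
    have h1 : (ζ ^ (2 ^ (n - 2))) ^ 2 = 1 := by
      rw [← pow_mul, ← pow_succ]
      have : n - 2 + 1 = n - 1 := by omega
      rw [this]
      exact hζ.pow_eq_one
    have h0 : (ζ ^ (2 ^ (n - 2)) - 1) * (ζ ^ (2 ^ (n - 2)) + 1) = 0 := by linear_combination h1
    rcases mul_eq_zero.1 h0 with h2' | h2'
    · exfalso
      have h2 : ζ ^ (2 ^ (n - 2)) = 1 := by linear_combination h2'
      have h3 := orderOf_dvd_of_pow_eq_one h2
      rw [hζord] at h3
      have h4 := (Nat.pow_dvd_pow_iff_le_right (by norm_num)).1 h3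
      omega
    · linear_combination h2'
  have hζj : ζ ^ j = ε * ζ⁻¹ := by
    rw [eq_mul_inv_iff_mul_eq₀ hζ0, ← pow_succ, hs, pow_mul, hhalf]
  refine ⟨c, c.2, two_dvd_index_centralizer hcoG (hPN y.2) (by rw [hjG]; exact hjc), ε, hε1, ?_⟩
  have hN : (2 ^ n : ℕ) ≠ 0 := by positivity
  have hc1 : (c : G) ^ (2 ^ n) = 1 := by
    rw [← orderOf_dvd_iff_pow_eq_one, hcoG]; exact pow_dvd_pow 2 (by omega)
  have hζ1 : ζ ^ (2 ^ n) = 1 := by
    rw [← orderOf_dvd_iff_pow_eq_one, hζord]; exact pow_dvd_pow 2 (by omega)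
  rw [adjoin_eq_iff (vals_algebraic _) (algebraic_zeta hN hζ1 hε1)]
  intro σ
  obtain ⟨m, hm, hσ⟩ := Cfsg.Agent.Characters.Galois.exists_pow_of_ringHom (σ : ℂ →+* ℂ) hN
  have hσ' : ∀ z : ℂ, z ^ 2 ^ n = 1 → σ z = z ^ m := hσ
  rw [fix_vals_iff σ hN hσ' (c : G) hc1]
  have hεσ : σ ε = ε := by rcases hε1 with h | h <;> rw [h] <;> simp
  have h5 : (∀ x ∈ ({ζ + ε * ζ⁻¹} : Set ℂ), σ x = x) ↔ σ (ζ + ε * ζ⁻¹) = ζ + ε * ζ⁻¹ := by
    simp
  rw [h5, sigma_fix_iff σ hζ0 hεσ (hσ' ζ hζ1), ← hζj]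
  have hpow : ∀ k : ℕ, ζ ^ m = ζ ^ k ↔ (c : G) ^ m = (c : G) ^ k := by
    intro k
    rw [pow_eq_pow_iff_modEq, hcoG, hζ.eq_orderOf, hζord]
    rw [← hζord]
    exact (hζ.isOfFinOrder (by positivity)).pow_eq_pow_iff_modEq
  have h6 : ζ ^ m = ζ ↔ (c : G) ^ m = c := by
    have := hpow 1
    rwa [pow_one, pow_one] at this
  rw [h6, hpow j]
  constructor
  · intro h
    obtain ⟨t, ht⟩ := isConj_iff.1 h.symm
    obtain ⟨u, hu, hut⟩ := exists_mem_sylow_conj P (c : G) hcoG hPN t (by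
      rw [ht]; exact pow_mem (mem_zpowers _) _)
    rw [ht] at hut
    rcases hconj ⟨u, hu⟩ with h1 | h1
    · left; rw [← hut]; exact h1
    · right; rw [← hut]; exact h1
  · rintro (h | h)
    · rw [h]
    · rw [h]
      exact (isConj_iff.2 ⟨(y : G), hjG⟩).symm

/-- From the field of values to `|P : P'| = 4`. -/
theorem backward (P : Sylow 2 G) (n : ℕ) (hn : 3 ≤ n) (hP : Nat.card P = 2 ^ n) (ζ : ℂ)
    (hζ : IsPrimitiveRoot ζ (2 ^ (n - 1))) (g : G) (hg : g ∈ (P : Subgroup G))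
    (h2 : 2 ∣ (centralizer ({g} : Set G)).index) (ε : ℂ) (hε1 : ε = 1 ∨ ε = -1)
    (had : adjoin ℚ (vals g) = adjoin ℚ ({ζ + ε * ζ⁻¹} : Set ℂ)) : (commutator ↥P).index = 4 := by
  have hN : (2 ^ n : ℕ) ≠ 0 := by positivity
  have hζord : orderOf ζ = 2 ^ (n - 1) := hζ.eq_orderOf.symm
  have hζ0 : ζ ≠ 0 := hζ.ne_zero (by positivity)
  have hζ1 : ζ ^ (2 ^ n) = 1 := by
    rw [← orderOf_dvd_iff_pow_eq_one, hζord]; exact pow_dvd_pow 2 (by omega)
  -- `P` does not centralize `g`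
  have hPC : ¬ (P : Subgroup G) ≤ centralizer ({g} : Set G) := by
    intro h
    exact P.not_dvd_index (h2.trans (index_dvd_of_le h))
  let c : P := ⟨g, hg⟩
  have hcent : ∃ y : P, y * c * y⁻¹ ≠ c := by
    by_contra hcon
    push Not at hcon
    apply hPC
    intro u hu
    rw [mem_centralizer_singleton_iff]
    have h1 := congrArg Subtype.val (hcon ⟨u, hu⟩)
    have h3 : u * g * u⁻¹ = g := h1
    rwa [mul_inv_eq_iff_eq_mul] at h3
  by_cases hn3 : n = 3
  · subst hn3
    apply index_four_of_card_eight (by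
      have h3 : Nat.card ↥P = 2 ^ 3 := hP
      rw [h3]; norm_num)
    obtain ⟨y, hy⟩ := hcent
    refine ⟨y, c, fun h => hy ?_⟩
    rw [h]; simp
  -- `n ≥ 4`
  have hn4 : 4 ≤ n := by omega
  have hcard : orderOf c ∣ 2 ^ n := by rw [← hP]; exact orderOf_dvd_natCard c
  obtain ⟨m, hm, hcm⟩ := (Nat.dvd_prime_pow Nat.prime_two).1 hcard
  have hgord : orderOf g = 2 ^ m := by rw [← hcm, ← Subgroup.orderOf_coe]
  have hg1 : g ^ (2 ^ n) = 1 := by
    rw [← orderOf_dvd_iff_pow_eq_one, hgord]; exact pow_dvd_pow 2 hm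
  rw [adjoin_eq_iff (vals_algebraic _) (algebraic_zeta hN hζ1 hε1)] at had
  have hkey : ∀ k : ℕ, k.Coprime (2 ^ n) → IsConj (g ^ k) g → ζ ^ k = ζ ∨ ζ ^ k = ε * ζ⁻¹ := by
    intro k hk hc
    obtain ⟨σ, hσ⟩ := Cfsg.Agent.Characters.Galois.exists_ringEquiv_complex hN hk
    have h3 := (had σ).1 ((fix_vals_iff σ hN hσ g hg1).2 hc) _ rfl
    have hεσ : σ ε = ε := by rcases hε1 with h | h <;> rw [h] <;> simp
    exact (sigma_fix_iff σ hζ0 hεσ (hσ ζ hζ1)).1 h3
  have hε2 : ε ^ 2 = 1 := by rcases hε1 with h | h <;> rw [h] <;> norm_num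
  -- `n - 1 ≤ m`
  have hm1 : n - 1 ≤ m := by
    by_contra hlt
    push Not at hlt
    have hcop : (1 + 2 ^ (n - 2)).Coprime (2 ^ n) := by
      apply Nat.Coprime.pow_right
      rw [Nat.coprime_comm, Nat.Prime.coprime_iff_not_dvd Nat.prime_two]
      have : 2 ∣ 2 ^ (n - 2) := dvd_pow_self 2 (by omega)
      omega
    have hgk : g ^ (1 + 2 ^ (n - 2)) = g := by
      have h3 : g ^ (2 ^ (n - 2)) = 1 := by
        rw [← orderOf_dvd_iff_pow_eq_one, hgord]; exact pow_dvd_pow 2 (by omega)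
      rw [pow_add, pow_one, h3, mul_one]
    have hhalf : ζ ^ (2 ^ (n - 2)) ≠ 1 := by
      intro h3
      have h4 := orderOf_dvd_of_pow_eq_one h3
      rw [hζord] at h4
      have h5 := (Nat.pow_dvd_pow_iff_le_right (by norm_num)).1 h4
      omega
    have hhalf2 : (ζ ^ (2 ^ (n - 2))) ^ 2 = 1 := by
      rw [← pow_mul, ← pow_succ]
      have : n - 2 + 1 = n - 1 := by omega
      rw [this]
      exact hζ.pow_eq_one
    rcases hkey _ hcop (by rw [hgk]) with h3 | h3
    · rw [pow_add, pow_one] at h3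
      apply hhalf
      have h4 : ζ * (ζ ^ (2 ^ (n - 2)) - 1) = 0 := by linear_combination h3
      rcases mul_eq_zero.1 h4 with h5 | h5
      · exact absurd h5 hζ0
      · linear_combination h5
    · rw [pow_add, pow_one, eq_mul_inv_iff_mul_eq₀ hζ0] at h3
      have h4 : ζ ^ 4 = 1 := by
        have h5 : (ζ * ζ ^ (2 ^ (n - 2)) * ζ) ^ 2 = ε ^ 2 := by rw [h3]
        rw [hε2] at h5
        have h6 : (ζ * ζ ^ (2 ^ (n - 2)) * ζ) ^ 2 = ζ ^ 4 * (ζ ^ (2 ^ (n - 2))) ^ 2 := by ring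
        rw [h6, hhalf2, mul_one] at h5
        exact h5
      have h5 := orderOf_dvd_of_pow_eq_one h4
      rw [hζord, show (4 : ℕ) = 2 ^ 2 by norm_num] at h5
      have h6 := (Nat.pow_dvd_pow_iff_le_right (by norm_num)).1 h5
      omega
  -- `m = n - 1`
  obtain ⟨y, hy⟩ := hcent
  have hmn : m = n - 1 := by
    by_contra hne
    have hmn : m = n := by omega
    have htop : zpowers c = ⊤ := by
      have h3 : Nat.card ↥P = 2 ^ n := hP
      rw [← Subgroup.card_eq_iff_eq_top, Nat.card_zpowers, hcm, h3, hmn]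
    apply hy
    have h3 : y ∈ zpowers c := by rw [htop]; exact mem_top _
    obtain ⟨i, rfl⟩ := mem_zpowers_iff.1 h3
    rw [((Commute.refl c).zpow_left i).eq]; group
  rw [hmn] at hcm hgord
  have hidx : (zpowers c).index = 2 := by
    have := index_zpowers_pow hcm hP (by omega) 0 (by omega)
    simpa using this
  have hyc : y ∉ zpowers c := by
    intro h3
    apply hy
    obtain ⟨i, rfl⟩ := mem_zpowers_iff.1 h3
    rw [((Commute.refl c).zpow_left i).eq]; group
  have hall : ∀ u : P, u ∈ zpowers c ∨ u * y⁻¹ ∈ zpowers c := by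
    intro u
    by_cases hu : u ∈ zpowers c
    · exact Or.inl hu
    · right
      exact (mul_mem_iff_of_index_two hidx (a := u) (b := y⁻¹)).2
        (by constructor
            · intro h; exact absurd h hu
            · intro h; exact absurd (inv_mem_iff.1 h) hyc)
  have hCn : (zpowers c).Normal := normal_of_index_eq_two hidx
  have hyc2 : y * c * y⁻¹ ∈ zpowers c := hCn.conj_mem c (mem_zpowers c) y
  obtain ⟨j, hj⟩ : ∃ j : ℕ, c ^ j = y * c * y⁻¹ := by
    classical
    rw [mem_zpowers_iff_mem_range_orderOf, Finset.mem_image] at hyc2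
    obtain ⟨j, -, hj⟩ := hyc2
    exact ⟨j, hj⟩
  have hodd : ¬ 2 ∣ j := by
    intro h2j
    have h3 : orderOf (c ^ j) = orderOf c := by
      rw [hj]
      exact orderOf_injective (MulAut.conj y).toMonoidHom (MulAut.conj y).injective c
    have h5 : (c ^ j) ^ (2 ^ (n - 2)) = 1 := by
      obtain ⟨i, rfl⟩ := h2j
      rw [← pow_mul]
      have h6 : 2 * i * 2 ^ (n - 2) = 2 ^ (n - 1) * i := by
        have : 2 ^ (n - 1) = 2 * 2 ^ (n - 2) := by rw [← pow_succ']; congr 1; omega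
        rw [this]; ring
      rw [h6, pow_mul, ← hcm, pow_orderOf_eq_one, one_pow]
    have h6 := orderOf_dvd_of_pow_eq_one h5
    rw [h3, hcm] at h6
    have h7 := (Nat.pow_dvd_pow_iff_le_right (by norm_num)).1 h6
    omega
  have hcop : j.Coprime (2 ^ n) := by
    apply Nat.Coprime.pow_right
    rw [Nat.coprime_comm, Nat.Prime.coprime_iff_not_dvd Nat.prime_two]
    exact hodd
  have hjG : (y : G) * g * (y : G)⁻¹ = g ^ j := by
    have := congrArg Subtype.val hj.symm
    simpa using this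
  refine index_four_of_structure hn4 hP hcm hall hj.symm ?_
  rcases hkey j hcop (isConj_iff.2 ⟨(y : G), hjG⟩).symm with h3 | h3
  · exfalso
    apply hy
    have h4 : ζ ^ j = ζ ^ 1 := by rw [h3, pow_one]
    rw [(hζ.isOfFinOrder (by positivity)).pow_eq_pow_iff_modEq, hζord, ← hcm] at h4
    have h5 : c ^ j = c ^ 1 := pow_eq_pow_iff_modEq.2 h4
    rw [← hj, h5, pow_one]
  · rw [eq_mul_inv_iff_mul_eq₀ hζ0, ← pow_succ] at h3
    have h4 : ζ ^ ((j + 1) * 2) = 1 := by rw [pow_mul, h3, hε2]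
    have h5 := orderOf_dvd_of_pow_eq_one h4
    rw [hζord] at h5
    have h6 : 2 ^ 3 ∣ (j + 1) * 2 := (pow_dvd_pow 2 (by omega)).trans h5
    omega

end Cfsg.Agent.H710.ClassField
end

-- part: S4923
section
set_option autoImplicit false
open Cfsg

namespace Cfsg.Agent.S4923

/-- Let G be a finite group with Sylow 2-subgroup P of order 2^n ≥ 8, and let ζ be a primitive 2^(n−1)-th root of unity in ℂ. Then the commutator subgroup of P has index 4 in P if and only if there is an element g of P whose conjugacy class in G has even size and such that the field generated over ℚ by the values at g of all irreducible complex characters of G equals ℚ(ζ + ζ⁻¹) or ℚ(ζ − ζ⁻¹). -/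
theorem result {G : Type*} [Group G] [Finite G] (P : Sylow 2 G) (n : ℕ) (hn : 3 ≤ n) (hP : Nat.card P = 2 ^ n) (ζ : ℂ) (hζ : IsPrimitiveRoot ζ (2 ^ (n - 1))) :
    (commutator ↥P).index = 4 ↔
      ∃ g : G, g ∈ (P : Subgroup G) ∧ 2 ∣ (Subgroup.centralizer ({g} : Set G)).index ∧
        (IntermediateField.adjoin ℚ {z : ℂ | ∃ χ : Cfsg.IrrCharacter G, (χ : G → ℂ) g = z} = IntermediateField.adjoin ℚ ({ζ + ζ⁻¹} : Set ℂ) ∨
          IntermediateField.adjoin ℚ {z : ℂ | ∃ χ : Cfsg.IrrCharacter G, (χ : G → ℂ) g = z} = IntermediateField.adjoin ℚ ({ζ - ζ⁻¹} : Set ℂ)) := by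
  constructor
  · intro h
    obtain ⟨g, hg, h2, ε, hε, had⟩ := Cfsg.Agent.H710.ClassField.forward P n hn hP ζ hζ h
    refine ⟨g, hg, h2, ?_⟩
    rcases hε with h1 | h1
    · left
      rw [h1, one_mul] at had
      exact had
    · right
      rw [h1, neg_one_mul, ← sub_eq_add_neg] at had
      exact had
  · rintro ⟨g, hg, h2, had | had⟩
    · refine Cfsg.Agent.H710.ClassField.backward P n hn hP ζ hζ g hg h2 1 (Or.inl rfl) ?_
      rw [one_mul]
      exact had
    · refine Cfsg.Agent.H710.ClassField.backward P n hn hP ζ hζ g hg h2 (-1) (Or.inr rfl) ?_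
      rw [neg_one_mul, ← sub_eq_add_neg]
      exact had

end Cfsg.Agent.S4923
end
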