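import Cfsg.Statements.S4926
import Cfsg.Agent.H774.K0.Prime
set_option linter.all false

set_option autoImplicit false
open Cfsg

namespace Cfsg.Agent.S4926

/-- Let G be a finite group, p a prime, M a maximal ideal of the algebraic integers containing p, and P a Sylow p-subgroup of G with normalizer N and centralizer C. Then the principal p-block of G contains exactly five irreducible characters of degree not divisible by p if and only if either P has order 5 and the index of C in N is 1 or 4, or P has order 7 and the index of C in N is 2 or 3. -/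
theorem result {G : Type*} [Group G] [Finite G] (p : ℕ) [Fact p.Prime] (M : Ideal Cfsg.AlgInt) (hM : Cfsg.IsPModular p M) (P : Sylow p G) :
    Nat.card {χ : Cfsg.IrrCharacter G // χ ∈ Cfsg.principalBlock M G ∧ ¬ p ∣ Cfsg.charDegree (χ : G → ℂ)} = 5 ↔
      ((Nat.card P = 5 ∧ ((Subgroup.centralizer ((P : Subgroup G) : Set G)).relIndex (Subgroup.normalizer ((P : Subgroup G) : Set G)) = 1 ∨ (Subgroup.centralizer ((P : Subgroup G) : Set G)).relIndex (Subgroup.normalizer ((P : Subgroup G) : Set G)) = 4)) ∨
        (Nat.card P = 7 ∧ ((Subgroup.centralizer ((P : Subgroup G) : Set G)).relIndex (Subgroup.normalizer ((P : Subgroup G) : Set G)) = 2 ∨ (Subgroup.centralizer ((P : Subgroup G) : Set G)).relIndex (Subgroup.normalizer ((P : Subgroup G) : Set G)) = 3))) := by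
  have hp : p.Prime := Fact.out
  change H774.K0.k0 p M G = 5 ↔ _
  constructor
  · intro hk
    have hp2 : p ≠ 2 := by
      rintro rfl
      by_cases h : 2 ∣ Nat.card G
      · have := H774.K0.even_k0 hM h
        omega
      · have := H774.K0.k0_eq_one hM h
        omega
    rcases H774.K0.card_of_k0_le hM hp2 hk.le P with h | h
    · have := H774.K0.k0_eq_one hM h
      omega
    · obtain ⟨⟨f, hf⟩, h2⟩ := H774.K0.k0_of_card_eq_prime hM hp2 P h rfl
      generalize (Subgroup.centralizer ((P : Subgroup G) : Set G)).relIndex
        (Subgroup.normalizer ((P : Subgroup G) : Set G)) = e at hf h2 ⊢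
      have hp1 : 0 < p - 1 := by have := hp.two_le; omega
      have he0 : 0 < e := by
        rcases Nat.eq_zero_or_pos e with h0 | h0
        · rw [h0, zero_mul] at hf; omega
        · exact h0
      rw [hk, hf, Nat.mul_div_cancel_left f he0] at h2
      have he5 : e ≤ 5 := by omega
      have hf5 : f = 5 - e := by omega
      rw [h]
      interval_cases e
      · left; subst hf5; exact ⟨by omega, Or.inl rfl⟩
      · right; subst hf5; exact ⟨by omega, Or.inl rfl⟩
      · right; subst hf5; exact ⟨by omega, Or.inr rfl⟩
      · left; subst hf5; exact ⟨by omega, Or.inr rfl⟩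
      · subst hf5; omega
  · -- the order of `P` is `5` or `7`
    intro h
    have h57 : Nat.card P = 5 ∨ Nat.card P = 7 := by
      rcases h with h | h
      · exact Or.inl h.1
      · exact Or.inr h.1
    have hcard : Nat.card P = p := by
      obtain ⟨n, hn⟩ := IsPGroup.iff_card.1 P.isPGroup'
      have hprime : (Nat.card P).Prime := by
        rcases h57 with h | h <;> rw [h] <;> norm_num
      have hn' : Nat.card P = p ^ n := hn
      have hn0 : n ≠ 0 := by
        rintro rfl
        rw [hn', pow_zero] at hprime
        exact Nat.not_prime_one hprime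
      have hdvd : p ∣ Nat.card P := by rw [hn']; exact dvd_pow_self p hn0
      exact ((Nat.prime_dvd_prime_iff_eq hp hprime).1 hdvd).symm
    have hp2 : p ≠ 2 := by rw [← hcard]; omega
    obtain ⟨-, h2⟩ := H774.K0.k0_of_card_eq_prime hM hp2 P hcard rfl
    rw [h2]
    rcases h with ⟨h3, h4 | h4⟩ | ⟨h3, h4 | h4⟩ <;> rw [h4, ← hcard, h3]

end Cfsg.Agent.S4926
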