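import Mathlib
import Cfsg.Prelude.Def_Blocks
import Cfsg.Agent.Blocks.Local
import Cfsg.Agent.Blocks.Residue
import Cfsg.Agent.Blocks.Basic
import Cfsg.Agent.Blocks.ClassScalar
import Cfsg.Agent.Characters.Core
import Cfsg.Agent.CharDeep.LinearChar
import Cfsg.Statements.S4937
set_option linter.all false

-- part: H712/BlkExt
section
/-!
# Extending a principal block character when `G = N C_G(P)`

For `N ⊴ G`, functions `w : G → ℤ` invariant under conjugation by `N` act as scalars on a
representation of `G` that is irreducible on `N`.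
-/

set_option autoImplicit false

namespace Cfsg.Agent.H712.BlkExt

open Cfsg Cfsg.Agent.Blocks.Local

universe u

variable {G : Type u} [Group G] [Fintype G] {V : Type*} [AddCommGroup V] [Module ℂ V]

/-- Invariance under conjugation by `N`. -/
def Inv (N : Subgroup G) (w : G → ℤ) : Prop := ∀ n ∈ N, ∀ x, w (n * x * n⁻¹) = w x

/-- Support in the coset `g N`. -/
def Supp (N : Subgroup G) (g : G) (w : G → ℤ) : Prop := ∀ x, g⁻¹ * x ∉ N → w x = 0

/-- The operator attached to `w`. -/
noncomputable def op (ρ : Representation ℂ G V) (w : G → ℤ) : Module.End ℂ V :=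
  ∑ x : G, (w x : ℂ) • ρ x

/-- The scalar attached to `w`. -/
noncomputable def cval (χ : G → ℂ) (w : G → ℤ) : ℂ := (∑ x : G, (w x : ℂ) * χ x) / χ 1

/-- The augmentation. -/
def aug (w : G → ℤ) : ℤ := ∑ x : G, w x

/-- Convolution. -/
def conv (w v : G → ℤ) : G → ℤ := fun s => ∑ t : G, w t * v (t⁻¹ * s)

theorem op_conv (ρ : Representation ℂ G V) (w v : G → ℤ) :
    op ρ (conv w v) = op ρ w * op ρ v := by
  unfold op conv
  rw [Finset.sum_mul]
  simp only [Finset.mul_sum, Int.cast_sum, Finset.sum_smul]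
  rw [Finset.sum_comm]
  refine Finset.sum_congr rfl fun t _ => ?_
  refine Fintype.sum_equiv (Equiv.mulLeft t⁻¹) _ _ fun s => ?_
  simp only [Equiv.coe_mulLeft]
  rw [smul_mul_smul_comm, ← map_mul, mul_inv_cancel_left]
  push_cast
  rfl

theorem aug_conv (w v : G → ℤ) : aug (conv w v) = aug w * aug v := by
  unfold aug conv
  rw [Finset.sum_mul, Finset.sum_comm]
  refine Finset.sum_congr rfl fun t _ => ?_
  rw [Finset.mul_sum]
  refine Fintype.sum_equiv (Equiv.mulLeft t⁻¹) _ _ fun s => ?_
  simp only [Equiv.coe_mulLeft]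

theorem inv_conv {N : Subgroup G} {w v : G → ℤ} (hw : Inv N w) (hv : Inv N v) :
    Inv N (conv w v) := by
  intro n hn x
  unfold conv
  refine Fintype.sum_equiv (MulAut.conj n⁻¹).toEquiv _ _ fun t => ?_
  simp only [MulEquiv.toEquiv_eq_coe, MulEquiv.coe_toEquiv, MulAut.conj_apply, inv_inv]
  have h1 : w t = w (n⁻¹ * t * n) := by
    rw [← hw n hn (n⁻¹ * t * n)]; congr 1; group
  have h2 : v (t⁻¹ * (n * x * n⁻¹)) = v ((n⁻¹ * t * n)⁻¹ * x) := by
    rw [← hv n hn ((n⁻¹ * t * n)⁻¹ * x)]; congr 1; group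
  rw [← h1, h2]

theorem supp_conv {N : Subgroup G} [hN : N.Normal] {g h : G} {w v : G → ℤ} (hw : Supp N g w)
    (hv : Supp N h v) : Supp N (g * h) (conv w v) := by
  intro x hx
  unfold conv
  refine Finset.sum_eq_zero fun t _ => ?_
  by_cases h1 : g⁻¹ * t ∈ N
  · by_cases h2 : h⁻¹ * (t⁻¹ * x) ∈ N
    · exfalso
      apply hx
      have h3 : h⁻¹ * (g⁻¹ * t) * h ∈ N := by
        have := hN.conj_mem _ h1 h⁻¹
        simpa using this
      have h4 := N.mul_mem h3 h2
      have : h⁻¹ * (g⁻¹ * t) * h * (h⁻¹ * (t⁻¹ * x)) = (g * h)⁻¹ * x := by group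
      rwa [this] at h4
    · rw [hv _ h2, mul_zero]
  · rw [hw _ h1, zero_mul]

variable [FiniteDimensional ℂ V]

theorem op_eq {N : Subgroup G} (ρ : Representation ℂ G V)
    (hρ : Representation.IsIrreducible (ρ.comp N.subtype : Representation ℂ N V))
    {w : G → ℤ} (hw : Inv N w) : op ρ w = cval ρ.character w • 1 ∧
      IsIntegral ℤ (cval ρ.character w) := by
  obtain ⟨c, hc⟩ := Cfsg.Agent.Blocks.ClassScalar.exists_smul_of_commute
    (ρ.comp N.subtype : Representation ℂ N V) hρ (op ρ w) (by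
      intro n
      show op ρ w * ρ (n : G) = ρ (n : G) * op ρ w
      unfold op
      rw [Finset.sum_mul, Finset.mul_sum]
      refine Fintype.sum_equiv (MulAut.conj (n : G)⁻¹).toEquiv _ _ ?_
      intro x
      simp only [MulEquiv.toEquiv_eq_coe, MulEquiv.coe_toEquiv, MulAut.conj_apply, inv_inv]
      rw [smul_mul_assoc, mul_smul_comm, ← map_mul, ← map_mul]
      have h1 : w x = w ((n : G)⁻¹ * x * n) := by
        rw [← hw n n.2 ((n : G)⁻¹ * x * n)]; congr 1; group
      rw [← h1]
      congr 2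
      group)
  have hn : (Module.finrank ℂ V : ℂ) ≠ 0 := by
    exact_mod_cast Cfsg.Agent.Blocks.ClassScalar.finrank_ne_zero _ hρ
  have htr := congrArg (LinearMap.trace ℂ V) hc
  have hc' : c = cval ρ.character w := by
    unfold op at htr
    rw [map_sum, map_smul, LinearMap.trace_one] at htr
    unfold cval
    rw [Representation.char_one, eq_div_iff hn, ← smul_eq_mul, ← htr]
    refine Finset.sum_congr rfl fun x _ => ?_
    rw [map_smul, smul_eq_mul]
    rfl
  subst hc'
  refine ⟨hc, ?_⟩
  have hnt : Nontrivial V := by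
    rw [← Module.finrank_pos_iff (R := ℂ)]
    exact Nat.pos_of_ne_zero (by exact_mod_cast hn)
  refine Cfsg.Agent.Blocks.ClassScalar.isIntegral_of_lift_eq ρ
    (∑ x : G, MonoidAlgebra.single x (w x)) _ ?_
  rw [← hc, map_sum]
  unfold op
  refine Finset.sum_congr rfl fun x _ => ?_
  rw [MonoidAlgebra.lift_single]
  rw [Int.cast_smul_eq_zsmul]

theorem cval_conv {N : Subgroup G} (ρ : Representation ℂ G V)
    (hρ : Representation.IsIrreducible (ρ.comp N.subtype : Representation ℂ N V))
    {w v : G → ℤ} (hw : Inv N w) (hv : Inv N v) :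
    cval ρ.character (conv w v) = cval ρ.character w * cval ρ.character v := by
  have h1 := (op_eq ρ hρ hw).1
  have h2 := (op_eq ρ hρ hv).1
  have h3 := (op_eq ρ hρ (inv_conv hw hv)).1
  rw [op_conv, h1, h2] at h3
  have hnt : Nontrivial V := by
    rw [← Module.finrank_pos_iff (R := ℂ)]
    exact Nat.pos_of_ne_zero (Cfsg.Agent.Blocks.ClassScalar.finrank_ne_zero _ hρ)
  rw [smul_mul_smul_comm, one_mul, ← Algebra.algebraMap_eq_smul_one,
    ← Algebra.algebraMap_eq_smul_one] at h3
  exact (FaithfulSMul.algebraMap_injective ℂ (Module.End ℂ V) h3).symm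

omit [FiniteDimensional ℂ V] in
theorem cval_add (χ : G → ℂ) (w v : G → ℤ) : cval χ (w + v) = cval χ w + cval χ v := by
  unfold cval
  rw [← add_div, ← Finset.sum_add_distrib]
  congr 1
  refine Finset.sum_congr rfl fun x _ => ?_
  rw [Pi.add_apply]; push_cast; ring

/-- Claim 1: for `w` supported on `N`, the scalar is congruent to the augmentation when `θ` is in
the principal block. -/
theorem cval_sub_aug {p : ℕ} (M : Ideal AlgInt) (hM : IsPModular p M) (N : Subgroup G) [N.Normal]
    (θ : IrrCharacter ↥N) (hθ : θ ∈ principalBlock M ↥N) (χ : G → ℂ)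
    (hχ : ∀ x : ↥N, χ x = (θ : ↥N → ℂ) x) {w : G → ℤ} (hw : Inv N w) (hs : Supp N 1 w) :
    MemLocalIdeal M (cval χ w - (aug w : ℂ)) := by
  classical
  have hMp : M.IsPrime := isPrime_of_isPModular hM
  have hMm := isMaximal_of_isPModular hM
  -- sums over N
  have hsumN : ∀ F : G → ℂ, (∀ x, x ∉ N → F x = 0) → ∑ x : G, F x = ∑ n : ↥N, F n := by
    intro F hF
    rw [← Finset.sum_subset (Finset.subset_univ (Finset.univ.filter (· ∈ N)))]
    · exact (Finset.sum_subtype (Finset.univ.filter (· ∈ N)) (by simp) F)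
    · intro x _ hx
      exact hF x (by simpa using hx)
  have hw0 : ∀ x, x ∉ N → w x = 0 := fun x hx => hs x (by simpa using hx)
  have h1 : cval χ w = ∑ n : ↥N, (w n : ℂ) * ((θ : ↥N → ℂ) n / (θ : ↥N → ℂ) 1) := by
    unfold cval
    rw [hsumN _ (fun x hx => by rw [hw0 x hx]; simp), Finset.sum_div]
    refine Finset.sum_congr rfl fun n _ => ?_
    rw [hχ, mul_div_assoc]
    congr 2
    exact hχ 1
  have h2 : (aug w : ℂ) = ∑ n : ↥N, (w n : ℂ) := by
    unfold aug
    push_cast
    exact hsumN _ (fun x hx => by rw [hw0 x hx]; simp)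
  -- grouping by classes
  have hgroup : ∀ F : ↥N → ℂ, (∀ n m : ↥N, IsConj n m → F n = F m) →
      ∑ n : ↥N, F n = ∑ c : ConjClasses ↥N,
        ((Subgroup.centralizer ({Quotient.out c} : Set ↥N)).index : ℂ) * F (Quotient.out c) := by
    intro F hF
    rw [← Finset.sum_fiberwise Finset.univ (fun n : ↥N => ConjClasses.mk n) F]
    refine Finset.sum_congr rfl fun c _ => ?_
    have hc : ConjClasses.mk (Quotient.out c) = c := Quotient.out_eq c
    rw [Finset.sum_congr rfl (fun n hn => hF n (Quotient.out c) (by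
      rw [← ConjClasses.mk_eq_mk_iff_isConj, hc]
      exact (Finset.mem_filter.mp hn).2)), Finset.sum_const, nsmul_eq_mul]
    congr 1
    rw [Cfsg.Agent.Blocks.ClassScalar.index_centralizer, Nat.card_eq_fintype_card,
      Fintype.card_subtype]
    congr 2
    ext n
    simp only [Finset.mem_filter, Finset.mem_univ, true_and]
    rw [← ConjClasses.mk_eq_mk_iff_isConj, hc]
    exact eq_comm
  have hwc : ∀ n m : ↥N, IsConj n m → w n = w m := by
    intro n m hnm
    obtain ⟨c, hc⟩ := isConj_iff.mp hnm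
    rw [← hc]
    exact (hw c c.2 n).symm
  rw [h1, h2, hgroup _ (fun n m hnm => by
      rw [hwc n m hnm, Cfsg.Agent.Blocks.Basic.irr_isConj θ.2 hnm]),
    hgroup _ (fun n m hnm => by rw [hwc n m hnm])]
  refine memLocalIdeal_sum_sub_sum fun c _ => ?_
  have h3 := hθ (Quotient.out c)
  have h4 : ((Subgroup.centralizer ({Quotient.out c} : Set ↥N)).index : ℂ) *
      ((w (Quotient.out c : ↥N) : ℂ) * ((θ : ↥N → ℂ) (Quotient.out c) / (θ : ↥N → ℂ) 1)) -
      ((Subgroup.centralizer ({Quotient.out c} : Set ↥N)).index : ℂ) *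
        (w (Quotient.out c : ↥N) : ℂ) = (w (Quotient.out c : ↥N) : ℂ) *
        (centralChar (θ : ↥N → ℂ) (Quotient.out c) -
          centralChar (fun _ : ↥N => (1 : ℂ)) (Quotient.out c)) := by
    unfold centralChar
    ring
  rw [h4]
  exact memLocalIdeal_mul_left (memLocalRing_intCast _) (memLocalIdeal_sub_comm h3)

/-- Claim 2: every coset of `N` contains an `N`-class of size prime to `p`. -/
theorem exists_class {p : ℕ} [Fact p.Prime] (N : Subgroup G) [hN : N.Normal] (P : Sylow p ↥N)
    (hcov : N ⊔ Subgroup.centralizer (((P : Subgroup ↥N).map N.subtype : Subgroup G) : Set G) = ⊤)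
    (g : G) : ∃ w : G → ℤ, Inv N w ∧ Supp N g w ∧ ¬ (p : ℤ) ∣ aug w := by
  classical
  have hg : g ∈ (N ⊔ Subgroup.centralizer
      (((P : Subgroup ↥N).map N.subtype : Subgroup G) : Set G) : Subgroup G) := by
    rw [hcov]; trivial
  rw [← SetLike.mem_coe, Subgroup.normal_mul] at hg
  obtain ⟨m, hm, y, hy, rfl⟩ := hg
  rw [SetLike.mem_coe] at hm hy
  let act : MulAction ↥N G := MulAction.compHom G
    ((ConjAct.toConjAct (G := G)).toMonoidHom.comp N.subtype)
  have hact : ∀ (n : ↥N) (x : G), n • x = (n : G) * x * (n : G)⁻¹ := by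
    intro n x
    show ConjAct.toConjAct (n : G) • x = _
    rw [ConjAct.toConjAct_smul]
  refine ⟨fun x => if x ∈ MulAction.orbit ↥N y then 1 else 0, ?_, ?_, ?_⟩
  · intro n hn x
    have : n * x * n⁻¹ = (⟨n, hn⟩ : ↥N) • x := (hact ⟨n, hn⟩ x).symm
    have h2 : (⟨n, hn⟩ : ↥N) • x ∈ MulAction.orbit ↥N y ↔ x ∈ MulAction.orbit ↥N y := by
      constructor
      · intro h
        have := MulAction.mem_orbit_of_mem_orbit (⟨n, hn⟩ : ↥N)⁻¹ h
        rwa [inv_smul_smul] at this
      · exact fun h => MulAction.mem_orbit_of_mem_orbit _ h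
    simp only [this, h2]
  · intro x hx
    show (if x ∈ MulAction.orbit ↥N y then (1 : ℤ) else 0) = 0
    rw [if_neg]
    rintro ⟨n, hn⟩
    apply hx
    rw [← hn]
    show (m * y)⁻¹ * (n • y) ∈ N
    rw [hact]
    have h1 : (m * y)⁻¹ * ((n : G) * y * (n : G)⁻¹) =
        y⁻¹ * (m⁻¹ * (n : G)) * (y⁻¹)⁻¹ * (n : G)⁻¹ := by group
    rw [h1]
    exact N.mul_mem (hN.conj_mem _ (N.mul_mem (N.inv_mem hm) n.2) _) (N.inv_mem n.2)
  · have h1 : aug (fun x : G => if x ∈ MulAction.orbit ↥N y then (1 : ℤ) else 0) =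
        ((MulAction.stabilizer ↥N y).index : ℤ) := by
      rw [MulAction.index_stabilizer]
      unfold aug
      rw [Finset.sum_boole, Set.ncard_eq_toFinset_card']
      congr 2
      ext x
      simp
    rw [h1]
    have h2 : (P : Subgroup ↥N) ≤ MulAction.stabilizer ↥N y := by
      intro n hn
      rw [MulAction.mem_stabilizer_iff, hact]
      have h3 := (Subgroup.mem_centralizer_iff.mp hy) (n : G)
        (Subgroup.mem_map_of_mem N.subtype hn)
      rw [h3, mul_inv_cancel_right]
    have h3 := Subgroup.index_dvd_of_le h2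
    intro h4
    exact P.not_dvd_index ((Int.natCast_dvd_natCast.mp h4).trans h3)

omit [Fintype G] in
/-- Linear characters of `p'`-order lifting a homomorphism to the residue field. -/
theorem exists_lift {p : ℕ} {M : Ideal AlgInt} [M.IsPrime] (hM : IsPModular p M)
    (L : G →* ResField M) :
    ∃ κ : G →* ℂ, (∀ g, IsIntegral ℤ (κ g)) ∧ (∀ g, redC M (κ g) = L g) ∧
      (∀ g, L g = 1 → κ g = 1) := by
  classical
  have hMm : M.IsMaximal := isMaximal_of_isPModular hM
  have hL0 : ∀ g, L g ≠ 0 := by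
    intro g h0
    have h1 : L g * L g⁻¹ = 1 := by rw [← map_mul, mul_inv_cancel, map_one]
    rw [h0, zero_mul] at h1
    exact zero_ne_one h1
  have key : ∀ g, ∃ ε : AlgInt, (∃ m : ℕ, ¬ p ∣ m ∧ (ε : ℂ) ^ m = 1) ∧
      redC M (ε : ℂ) = L g := by
    intro g
    obtain ⟨a, ha⟩ := exists_algInt_redC_eq (M := M) (L g)
    have ha' : a ∉ M := by
      intro h
      apply hL0 g
      rw [← ha, redC_eq_zero_iff (memLocalRing_algInt a)]
      exact memLocalIdeal_of_mem h
    obtain ⟨ε, hε, haε⟩ := Cfsg.Agent.Blocks.Residue.exists_root_sub_mem hM a ha'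
    refine ⟨ε, hε, ?_⟩
    rw [← ha, eq_comm, redC_eq_iff (memLocalRing_algInt a) (memLocalRing_algInt ε)]
    have := memLocalIdeal_of_mem haε
    simpa using this
  choose ε hε1 hε2 using key
  have huniq : ∀ a b : AlgInt, (∃ m : ℕ, ¬ p ∣ m ∧ (a : ℂ) ^ m = 1) →
      (∃ m : ℕ, ¬ p ∣ m ∧ (b : ℂ) ^ m = 1) → redC M (a : ℂ) = redC M (b : ℂ) → a = b := by
    intro a b ha hb hab
    refine Cfsg.Agent.Blocks.Residue.eq_of_sub_mem hM ha hb ?_
    rw [redC_eq_iff (memLocalRing_algInt a) (memLocalRing_algInt b)] at hab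
    rw [← memLocalIdeal_algInt_iff]
    simpa using hab
  have hp : p.Prime := hM.1
  have hone : ∃ m : ℕ, ¬ p ∣ m ∧ ((1 : AlgInt) : ℂ) ^ m = 1 :=
    ⟨1, by rw [Nat.dvd_one]; exact hp.one_lt.ne', by simp⟩
  have h1 : ∀ g, L g = 1 → ε g = 1 := by
    intro g hg
    refine huniq _ _ (hε1 g) hone ?_
    rw [hε2, hg]
    simp [redC_one]
  refine ⟨⟨⟨fun g => (ε g : ℂ), ?_⟩, ?_⟩, ?_, ?_, ?_⟩
  · show ((ε 1 : AlgInt) : ℂ) = 1
    rw [h1 1 (map_one L)]; simp
  · intro g h
    show ((ε (g * h) : AlgInt) : ℂ) = (ε g : ℂ) * (ε h : ℂ)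
    have : ε (g * h) = ε g * ε h := by
      refine huniq _ _ (hε1 _) ?_ ?_
      · obtain ⟨m, hm, hm'⟩ := hε1 g
        obtain ⟨k, hk, hk'⟩ := hε1 h
        refine ⟨m * k, ?_, ?_⟩
        · rw [hp.dvd_mul]; tauto
        · push_cast
          rw [mul_pow, pow_mul, hm', one_pow, one_mul, mul_comm m k, pow_mul, hk', one_pow]
      · rw [hε2, map_mul]
        push_cast
        rw [redC_mul (memLocalRing_algInt _) (memLocalRing_algInt _), hε2, hε2]
    rw [this]; push_cast; rfl
  · intro g
    exact (ε g).2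
  · intro g
    exact hε2 g
  · intro g hg
    show ((ε g : AlgInt) : ℂ) = 1
    rw [h1 g hg]; simp

/-- The main congruence: there is a linear character `κ` of `G`, trivial on `N`, such that after
multiplication by `κ` the scalars of all `N`-invariant functions are congruent to augmentations. -/
theorem exists_twist {p : ℕ} [Fact p.Prime] (M : Ideal AlgInt) [M.IsPrime] (hM : IsPModular p M)
    (N : Subgroup G) [hN : N.Normal] (P : Sylow p ↥N)
    (hcov : N ⊔ Subgroup.centralizer (((P : Subgroup ↥N).map N.subtype : Subgroup G) : Set G) = ⊤)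
    (θ : IrrCharacter ↥N) (hθ : θ ∈ principalBlock M ↥N)
    (ρ : Representation ℂ G V)
    (hρ : Representation.IsIrreducible (ρ.comp N.subtype : Representation ℂ N V))
    (hχ : ∀ x : ↥N, ρ.character x = (θ : ↥N → ℂ) x) :
    ∃ κ : G →* ℂ, (∀ g, IsIntegral ℤ (κ g)) ∧ (∀ g ∈ N, κ g = 1) ∧
      ∀ w : G → ℤ, Inv N w →
        MemLocalIdeal M (cval (fun g => κ g * ρ.character g) w - (aug w : ℂ)) := by
  classical
  have : CharP (ResField M) p := charP_resField hM
  choose w hw1 hw2 hw3 using exists_class N P hcov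
  have hint : ∀ v : G → ℤ, Inv N v → MemLocalRing M (cval ρ.character v) := fun v hv =>
    memLocalRing_of_isIntegral (op_eq ρ hρ hv).2
  have haug : ∀ g, ((aug (w g) : ℤ) : ResField M) ≠ 0 := by
    intro g h
    rw [CharP.intCast_eq_zero_iff (ResField M) p] at h
    exact hw3 g h
  -- products in opposite cosets
  have hprod : ∀ (g : G) (v : G → ℤ), Inv N v → Supp N g v →
      redC M (cval ρ.character v) * redC M (cval ρ.character (w g⁻¹)) =
        (aug v : ResField M) * (aug (w g⁻¹) : ResField M) := by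
    intro g v hv hs
    rw [← redC_mul (hint v hv) (hint _ (hw1 _)), ← cval_conv ρ hρ hv (hw1 _)]
    have h1 : Supp N 1 (conv v (w g⁻¹)) := by
      have := supp_conv hs (hw2 g⁻¹)
      rwa [mul_inv_cancel] at this
    have h2 := cval_sub_aug M hM N θ hθ ρ.character hχ (inv_conv hv (hw1 g⁻¹)) h1
    rw [← redC_eq_iff (hint _ (inv_conv hv (hw1 _))) (memLocalRing_intCast _)] at h2
    rw [h2, redC_intCast, aug_conv]
    push_cast
    rfl
  have hne : ∀ g, redC M (cval ρ.character (w g)) ≠ 0 := by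
    intro g h0
    have h1 := hprod g⁻¹ (w g⁻¹) (hw1 _) (hw2 _)
    rw [inv_inv, h0, mul_zero] at h1
    exact mul_ne_zero (haug g⁻¹) (haug g) h1.symm
  -- the homomorphism
  have hlin : ∀ (g : G) (v : G → ℤ), Inv N v → Supp N g v →
      redC M (cval ρ.character v) = redC M (cval ρ.character (w g)) *
        (aug (w g) : ResField M)⁻¹ * (aug v : ResField M) := by
    intro g v hv hs
    have h1 := hprod g v hv hs
    have h2 := hprod g (w g) (hw1 g) (hw2 g)
    have h3 : redC M (cval ρ.character v) * (aug (w g) : ResField M) =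
        redC M (cval ρ.character (w g)) * (aug v : ResField M) := by
      refine mul_right_cancel₀ (hne g⁻¹) ?_
      calc redC M (cval ρ.character v) * (aug (w g) : ResField M) *
            redC M (cval ρ.character (w g⁻¹))
          = (redC M (cval ρ.character v) * redC M (cval ρ.character (w g⁻¹))) *
              (aug (w g) : ResField M) := by ring
        _ = (aug v : ResField M) * ((aug (w g) : ResField M) * (aug (w g⁻¹) : ResField M)) := by
              rw [h1]; ring
        _ = _ := by rw [← h2]; ring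
    rw [← mul_right_inj' (haug g)]
    calc (aug (w g) : ResField M) * redC M (cval ρ.character v)
        = redC M (cval ρ.character v) * (aug (w g) : ResField M) := by ring
      _ = redC M (cval ρ.character (w g)) * (aug v : ResField M) := h3
      _ = _ := by field_simp [haug g]
  let L : G → ResField M := fun g => redC M (cval ρ.character (w g)) *
    (aug (w g) : ResField M)⁻¹
  have hL1 : ∀ g ∈ N, L g = 1 := by
    intro g hg
    have h1 : Supp N 1 (w g) := by
      intro x hx
      apply hw2 g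
      intro h2
      apply hx
      have := N.mul_mem hg h2
      rw [inv_one, one_mul]
      rwa [mul_inv_cancel_left] at this
    have h2 := cval_sub_aug M hM N θ hθ ρ.character hχ (hw1 g) h1
    rw [← redC_eq_iff (hint _ (hw1 _)) (memLocalRing_intCast _), redC_intCast] at h2
    show redC M (cval ρ.character (w g)) * (aug (w g) : ResField M)⁻¹ = 1
    rw [h2, mul_inv_cancel₀ (haug g)]
  have hLmul : ∀ g h, L (g * h) = L g * L h := by
    intro g h
    have h1 := hlin (g * h) (conv (w g) (w h)) (inv_conv (hw1 g) (hw1 h))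
      (supp_conv (hw2 g) (hw2 h))
    rw [cval_conv ρ hρ (hw1 g) (hw1 h), redC_mul (hint _ (hw1 _)) (hint _ (hw1 _)),
      aug_conv] at h1
    push_cast at h1
    show redC M (cval ρ.character (w (g * h))) * (aug (w (g * h)) : ResField M)⁻¹ =
      redC M (cval ρ.character (w g)) * (aug (w g) : ResField M)⁻¹ *
      (redC M (cval ρ.character (w h)) * (aug (w h) : ResField M)⁻¹)
    refine mul_right_cancel₀ (mul_ne_zero (haug g) (haug h)) ?_
    rw [← h1]
    field_simp [haug g, haug h]
  let Lh : G →* ResField M := ⟨⟨L, hL1 1 N.one_mem⟩, hLmul⟩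
  have hLne : ∀ g, L g ≠ 0 := fun g => mul_ne_zero (hne g) (inv_ne_zero (haug g))
  let Linv : G →* ResField M := ⟨⟨fun g => (L g)⁻¹, by
    show (L 1)⁻¹ = 1
    rw [hL1 1 N.one_mem, inv_one]⟩, fun g h => by
    show (L (g * h))⁻¹ = (L g)⁻¹ * (L h)⁻¹
    rw [hLmul, mul_inv]⟩
  obtain ⟨κ, hκ1, hκ2, hκ3⟩ := exists_lift hM Linv
  refine ⟨κ, hκ1, fun g hg => hκ3 g (by show (L g)⁻¹ = 1; rw [hL1 g hg, inv_one]), ?_⟩
  have hκN : ∀ g ∈ N, κ g = 1 :=
    fun g hg => hκ3 g (by show (L g)⁻¹ = 1; rw [hL1 g hg, inv_one])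
  intro v hv
  -- decomposition of `v` into cosets
  let vq : G ⧸ N → G → ℤ := fun q x => if (QuotientGroup.mk x : G ⧸ N) = q then v x else 0
  have hvq_inv : ∀ q, Inv N (vq q) := by
    intro q n hn x
    show (if (QuotientGroup.mk (n * x * n⁻¹) : G ⧸ N) = q then v (n * x * n⁻¹) else 0) =
      if (QuotientGroup.mk x : G ⧸ N) = q then v x else 0
    have h1 : (QuotientGroup.mk (n * x * n⁻¹) : G ⧸ N) = QuotientGroup.mk x := by
      rw [QuotientGroup.eq]
      have : (n * x * n⁻¹)⁻¹ * x = n * (x⁻¹ * n⁻¹ * (x⁻¹)⁻¹) := by group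
      rw [this]
      exact N.mul_mem hn (hN.conj_mem _ (N.inv_mem hn) _)
    rw [h1, hv n hn]
  have hvq_supp : ∀ g : G, Supp N g (vq (QuotientGroup.mk g)) := by
    intro g x hx
    show (if (QuotientGroup.mk x : G ⧸ N) = QuotientGroup.mk g then v x else 0) = 0
    rw [if_neg]
    intro h
    exact hx (QuotientGroup.eq.mp h.symm)
  have hsum : ∀ F : G → ℂ, ∑ x : G, (v x : ℂ) * F x =
      ∑ q : G ⧸ N, ∑ x : G, (vq q x : ℂ) * F x := by
    intro F
    rw [Finset.sum_comm]
    refine Finset.sum_congr rfl fun x _ => ?_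
    rw [← Finset.sum_mul]
    congr 1
    simp [vq]
  have hchi1 : (κ 1) * ρ.character 1 = ρ.character 1 := by rw [map_one, one_mul]
  have hc1 : cval (fun g => κ g * ρ.character g) v =
      ∑ q : G ⧸ N, κ q.out * cval ρ.character (vq q) := by
    unfold cval
    show (∑ x, (v x : ℂ) * (κ x * ρ.character x)) / (κ 1 * ρ.character 1) = _
    rw [hchi1, hsum, Finset.sum_div]
    refine Finset.sum_congr rfl fun q _ => ?_
    rw [← mul_div_assoc, Finset.mul_sum]
    congr 1
    refine Finset.sum_congr rfl fun x _ => ?_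
    by_cases hx : (QuotientGroup.mk x : G ⧸ N) = q
    · have h1 : κ x = κ q.out := by
        have h2 : (QuotientGroup.mk q.out : G ⧸ N) = QuotientGroup.mk x := by
          rw [hx]; exact Quotient.out_eq q
        have h3 : (q.out)⁻¹ * x ∈ N := QuotientGroup.eq.mp h2
        have h4 : x = q.out * ((q.out)⁻¹ * x) := by group
        rw [h4, map_mul, hκN _ h3, mul_one]
      rw [h1]; ring
    · have : vq q x = 0 := if_neg hx
      rw [this]; simp
  have hc2 : (aug v : ℂ) = ∑ q : G ⧸ N, (aug (vq q) : ℂ) := by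
    have := hsum (fun _ => 1)
    simp only [mul_one] at this
    unfold aug
    push_cast
    exact this
  rw [hc1, hc2]
  refine memLocalIdeal_sum_sub_sum fun q _ => ?_
  have hs : Supp N q.out (vq q) := by
    have := hvq_supp q.out
    rwa [show (QuotientGroup.mk q.out : G ⧸ N) = q from Quotient.out_eq q] at this
  rw [← redC_eq_iff (memLocalRing_mul (memLocalRing_of_isIntegral (hκ1 _)) (hint _ (hvq_inv q)))
    (memLocalRing_intCast _), redC_mul (memLocalRing_of_isIntegral (hκ1 _)) (hint _ (hvq_inv q)),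
    hκ2, hlin q.out (vq q) (hvq_inv q) hs, redC_intCast]
  show (L q.out)⁻¹ * (L q.out * (aug (vq q) : ResField M)) = _
  rw [inv_mul_cancel_left₀ (hLne _)]

/-- Representations irreducible on a smaller group are irreducible. -/
theorem isIrreducible_of_comp {H : Type*} [Monoid H] {G : Type*} [Monoid G] {V : Type*}
    [AddCommGroup V] [Module ℂ V] (f : H →* G) (ρ : Representation ℂ G V)
    (h : Representation.IsIrreducible (ρ.comp f : Representation ℂ H V)) : ρ.IsIrreducible :=
  Cfsg.Agent.CharDeep.LinearChar.isIrreducible_of_comp f ρ h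

/-- The principal block condition for groups mapping onto a group containing `N`. -/
theorem mem_block {M : Ideal AlgInt} [M.IsPrime] (N : Subgroup G) (χ : G → ℂ)
    (hcl : ∀ g h : G, χ (h * g * h⁻¹) = χ g)
    (hχ : ∀ w : G → ℤ, Inv N w → MemLocalIdeal M (cval χ w - (aug w : ℂ)))
    {J : Type u} [Group J] [Finite J] (f : J →* G) (hf : Function.Injective f)
    (hN : N ≤ f.range) (y : J) :
    MemLocalIdeal M (centralChar (fun _ : J => (1 : ℂ)) y -
      centralChar (fun j : J => χ (f j)) y) := by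
  classical
  have : Fintype J := Fintype.ofFinite J
  let w : G → ℤ := fun x => if ∃ j : J, IsConj y j ∧ f j = x then 1 else 0
  have hw : Inv N w := by
    intro n hn x
    obtain ⟨m, rfl⟩ := hN hn
    show (if ∃ j : J, IsConj y j ∧ f j = f m * x * (f m)⁻¹ then (1 : ℤ) else 0) =
      if ∃ j : J, IsConj y j ∧ f j = x then 1 else 0
    have h1 : (∃ j : J, IsConj y j ∧ f j = f m * x * (f m)⁻¹) ↔
        ∃ j : J, IsConj y j ∧ f j = x := by
      constructor
      · rintro ⟨j, hj, hj'⟩
        refine ⟨m⁻¹ * j * m⁻¹⁻¹, hj.trans (isConj_iff.mpr ⟨m⁻¹, rfl⟩), ?_⟩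
        rw [inv_inv, map_mul, map_mul, hj', map_inv]; group
      · rintro ⟨j, hj, hj'⟩
        refine ⟨m * j * m⁻¹, hj.trans (isConj_iff.mpr ⟨m, rfl⟩), ?_⟩
        rw [map_mul, map_mul, hj', map_inv]
    simp only [h1]
  have hsum : ∀ F : G → ℂ, ∑ x : G, (w x : ℂ) * F x =
      ∑ j ∈ Finset.univ.filter (fun j : J => IsConj y j), F (f j) := by
    intro F
    rw [← Finset.sum_image (s := Finset.univ.filter (fun j : J => IsConj y j)) (g := f)
      (f := F) (fun a _ b _ h => hf h)]
    rw [← Finset.sum_subset (Finset.subset_univ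
      ((Finset.univ.filter (fun j : J => IsConj y j)).image f))]
    · refine Finset.sum_congr rfl fun x hx => ?_
      obtain ⟨j, hj, rfl⟩ := Finset.mem_image.mp hx
      have : w (f j) = 1 := if_pos ⟨j, (Finset.mem_filter.mp hj).2, rfl⟩
      rw [this]; simp
    · intro x _ hx
      have : w x = 0 := by
        refine if_neg ?_
        rintro ⟨j, hj, rfl⟩
        exact hx (Finset.mem_image_of_mem f (Finset.mem_filter.mpr ⟨Finset.mem_univ _, hj⟩))
      rw [this]; simp
  have hcard : ((Finset.univ.filter (fun j : J => IsConj y j)).card : ℂ) =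
      ((Subgroup.centralizer ({y} : Set J)).index : ℂ) := by
    rw [Cfsg.Agent.Blocks.ClassScalar.index_centralizer, Nat.card_eq_fintype_card,
      Fintype.card_subtype]
  have h1 : centralChar (fun j : J => χ (f j)) y = cval χ w := by
    unfold centralChar cval
    rw [hsum, ← hcard]
    congr 1
    · rw [Finset.sum_congr rfl (fun j hj => (?_ : χ (f j) = χ (f y)))]
      · rw [Finset.sum_const, nsmul_eq_mul]
      · obtain ⟨c, hc⟩ := isConj_iff.mp (Finset.mem_filter.mp hj).2
        rw [← hc, map_mul, map_mul, map_inv, hcl]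
    · show χ (f 1) = χ 1
      rw [map_one]
  have h2 : centralChar (fun _ : J => (1 : ℂ)) y = (aug w : ℂ) := by
    unfold centralChar
    have := hsum (fun _ => 1)
    simp only [mul_one] at this
    unfold aug
    push_cast
    rw [this, Finset.sum_const, nsmul_eq_mul, hcard]
    ring
  rw [h1, h2]
  exact memLocalIdeal_sub_comm (hχ w hw)

end Cfsg.Agent.H712.BlkExt
end

-- part: S4937
section
set_option autoImplicit false
open Cfsg

namespace Cfsg.Agent.S4937

/-- Let G be a finite group, p a prime, M a maximal ideal of the algebraic integers containing p, N a normal subgroup of G and P a Sylow p-subgroup of N such that G = N·C_G(P). Let θ be an irreducible character in the principal p-block of N that is the restriction of some irreducible character of G. Then θ is the restriction of an irreducible character χ of G lying in the principal p-block of G such that, for every subgroup J of G containing N, the restriction of χ to J is an irreducible character of J lying in the principal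 p-block of J. -/
theorem result {G : Type*} [Group G] [Finite G] (p : ℕ) [Fact p.Prime] (M : Ideal Cfsg.AlgInt) (hM : Cfsg.IsPModular p M) (N : Subgroup G) [N.Normal] (P : Sylow p ↥N)
    (hcov : N ⊔ Subgroup.centralizer (((P : Subgroup ↥N).map N.subtype : Subgroup G) : Set G) = ⊤)
    (θ : Cfsg.IrrCharacter ↥N) (hθ : θ ∈ Cfsg.principalBlock M ↥N)
    (hext : ∃ ψ : Cfsg.IrrCharacter G, ∀ x : ↥N, (ψ : G → ℂ) x = (θ : ↥N → ℂ) x) :
    ∃ χ : Cfsg.IrrCharacter G, χ ∈ Cfsg.principalBlock M G ∧ (∀ x : ↥N, (χ : G → ℂ) x = (θ : ↥N → ℂ) x) ∧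
      ∀ J : Subgroup G, N ≤ J → ∃ ξ : Cfsg.IrrCharacter ↥J, ξ ∈ Cfsg.principalBlock M ↥J ∧ ∀ y : ↥J, (ξ : ↥J → ℂ) y = (χ : G → ℂ) y := by
  classical
  have : Fintype G := Fintype.ofFinite G
  have hMp : M.IsPrime := Cfsg.Agent.Blocks.Local.isPrime_of_isPModular hM
  obtain ⟨ψ, hψ⟩ := hext
  obtain ⟨n, ρ, hρ, hρψ⟩ := ψ.2
  -- `ρ` is irreducible on `N`
  have hρN : Representation.IsIrreducible
      (ρ.comp N.subtype : Representation ℂ N (Fin n → ℂ)) := by
    refine Cfsg.Agent.Characters.Core.isIrreducible_of_isIrrCharacter _ ?_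
    have h1 : (Representation.character (ρ.comp N.subtype : Representation ℂ N (Fin n → ℂ)) :
        ↥N → ℂ) = (θ : ↥N → ℂ) := by
      funext x
      rw [← hψ x, ← hρψ]
      rfl
    rw [h1]
    exact θ.2
  have hχN : ∀ x : ↥N, ρ.character x = (θ : ↥N → ℂ) x := by
    intro x; rw [hρψ, hψ]
  obtain ⟨κ, hκ1, hκN, hκ⟩ := Cfsg.Agent.H712.BlkExt.exists_twist M hM N P hcov θ hθ ρ hρN hχN
  -- the twisted representation
  let σ : Representation ℂ G (Fin n → ℂ) :=
    { toFun := fun g => κ g • ρ g
      map_one' := by rw [map_one, map_one, one_smul]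
      map_mul' := fun g h => by
        rw [map_mul, map_mul, smul_mul_smul_comm] }
  have hσ : ∀ g, σ g = κ g • ρ g := fun g => rfl
  have hσc : ∀ g, σ.character g = κ g * ρ.character g := by
    intro g
    show LinearMap.trace ℂ _ (σ g) = κ g * LinearMap.trace ℂ _ (ρ g)
    rw [hσ, map_smul, smul_eq_mul]
  have hσN : Representation.IsIrreducible
      (σ.comp N.subtype : Representation ℂ N (Fin n → ℂ)) := by
    have h1 : (σ.comp N.subtype : Representation ℂ N (Fin n → ℂ)) = ρ.comp N.subtype := by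
      ext1 x
      show κ x • ρ x = ρ x
      rw [hκN x x.2, one_smul]
    rw [h1]; exact hρN
  have hcong : ∀ w : G → ℤ, Cfsg.Agent.H712.BlkExt.Inv N w →
      MemLocalIdeal M (Cfsg.Agent.H712.BlkExt.cval σ.character w -
        (Cfsg.Agent.H712.BlkExt.aug w : ℂ)) := by
    intro w hw
    have h1 := hκ w hw
    have h2 : (fun g => κ g * ρ.character g) = σ.character := by
      funext g; exact (hσc g).symm
    rwa [h2] at h1
  have hcl : ∀ g h : G, σ.character (h * g * h⁻¹) = σ.character g :=
    fun g h => Cfsg.Agent.Blocks.ClassScalar.character_conj σ g h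
  have hσirr : σ.IsIrreducible :=
    Cfsg.Agent.H712.BlkExt.isIrreducible_of_comp N.subtype σ hσN
  refine ⟨⟨σ.character, n, σ, hσirr, rfl⟩, ?_, ?_, ?_⟩
  · intro y
    exact Cfsg.Agent.H712.BlkExt.mem_block N σ.character hcl hcong (MonoidHom.id G)
      (fun a b h => h) (fun x _ => ⟨x, rfl⟩) y
  · intro x
    show σ.character x = _
    rw [hσc, hκN x x.2, one_mul, hχN]
  · intro J hJ
    refine ⟨⟨fun y => σ.character y, n, (σ.comp J.subtype : Representation ℂ J (Fin n → ℂ)),
      ?_, rfl⟩, ?_, fun y => rfl⟩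
    · refine Cfsg.Agent.H712.BlkExt.isIrreducible_of_comp (Subgroup.inclusion hJ)
        (σ.comp J.subtype : Representation ℂ J (Fin n → ℂ)) ?_
      exact hσN
    · intro y
      exact Cfsg.Agent.H712.BlkExt.mem_block N σ.character hcl hcong J.subtype
        J.subtype_injective (by rw [Subgroup.range_subtype]; exact hJ) y

end Cfsg.Agent.S4937
end
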