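import Cfsg.Statements.S4949
import Cfsg.Agent.H614.AltBlk
set_option linter.all false

set_option autoImplicit false
open Cfsg

namespace Cfsg.Agent.S4949

/-- Let n be a natural number, p a prime, M a maximal ideal of the algebraic integers containing p, B a p-block of the alternating group of degree n and D a defect group of B. Then either B contains an irreducible character of height 1 and D has an irreducible complex character of degree p, or every irreducible character of B has height zero and D is commutative (so the least positive height in B and the least positive exponent of a character degree of D are both 1 or both absent). -/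
theorem result (n : ℕ) (p : ℕ) [Fact p.Prime] (M : Ideal Cfsg.AlgInt) (hM : Cfsg.IsPModular p M) (B : Set (Cfsg.IrrCharacter ↥(alternatingGroup (Fin n)))) (hB : Cfsg.IsPBlock M B) (D : Subgroup ↥(alternatingGroup (Fin n))) (hD : Cfsg.IsDefectGroup p M B D) :
    ((∃ χ : Cfsg.IrrCharacter ↥(alternatingGroup (Fin n)), χ ∈ B ∧ Cfsg.blockHeight p B (χ : ↥(alternatingGroup (Fin n)) → ℂ) = 1) ∧ (∃ φ : Cfsg.IrrCharacter ↥D, Cfsg.charDegree (φ : ↥D → ℂ) = p)) ∨
    ((∀ χ : Cfsg.IrrCharacter ↥(alternatingGroup (Fin n)), χ ∈ B → Cfsg.blockHeight p B (χ : ↥(alternatingGroup (Fin n)) → ℂ) = 0) ∧ IsMulCommutative D) := by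
  classical
  by_cases hn : 2 ≤ n
  · have : Nontrivial (Fin n) := Fin.nontrivial_iff_two_le.mpr hn
    exact Cfsg.Agent.H614.alt_main hM hB hD
  · right
    have h1 : alternatingGroup (Fin n) = ⊥ :=
      alternatingGroup.eq_bot_of_card_le_two (by rw [Nat.card_eq_fintype_card, Fintype.card_fin]; omega)
    have h2 : Nat.card D = p ^ 0 := by
      rw [pow_zero]
      have h3 : Nat.card ↥(alternatingGroup (Fin n)) = 1 := by rw [h1]; exact Subgroup.card_bot
      have h4 := Subgroup.card_subgroup_dvd_card D
      rw [h3, Nat.dvd_one] at h4
      exact h4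
    exact ⟨fun χ hχ => Cfsg.Agent.H614.height_zero_of_card hM hB hD h2 (by omega) hχ,
      Cfsg.Agent.H614.isMulCommutative_of_card h2 (by omega)⟩

end Cfsg.Agent.S4949
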