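import Cfsg.Statements.S4969
import Cfsg.Agent.Characters.Core
import Cfsg.Agent.CharactersDeep.ColumnBessel
set_option linter.all false

set_option autoImplicit false
open Cfsg

namespace Cfsg.Agent.S4969

/-- Let G be a finite group with k conjugacy classes, g ∈ G, and N > 0. Then the sum over the irreducible complex characters χ of G with χ(1) ≥ N of |χ(g)|/χ(1) is at most √(k · #C_G(g)) / N. -/
theorem result {G : Type*} [Group G] [Finite G] (g : G) (N : ℝ) (hN : 0 < N) :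
    ∑ᶠ χ : Cfsg.IrrCharacter G, (if N ≤ ‖(χ : G → ℂ) 1‖ then ‖(χ : G → ℂ) g‖ / ‖(χ : G → ℂ) 1‖ else 0) ≤
      Real.sqrt ((Nat.card (ConjClasses G) : ℝ) * (Nat.card ↥(Subgroup.centralizer ({g} : Set G)) : ℝ)) / N := by
  classical
  have hfin := Cfsg.Agent.Characters.Core.finite_irr (G := G)
  have := Fintype.ofFinite (Cfsg.IrrCharacter G)
  rw [finsum_eq_sum_of_fintype]
  set F : Finset (Cfsg.IrrCharacter G) :=
    Finset.univ.filter (fun χ => N ≤ ‖(χ : G → ℂ) 1‖) with hF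
  rw [← Finset.sum_filter]
  -- bound each term
  have h1 : ∑ χ ∈ F, ‖(χ : G → ℂ) g‖ / ‖(χ : G → ℂ) 1‖ ≤ ∑ χ ∈ F, ‖(χ : G → ℂ) g‖ / N := by
    refine Finset.sum_le_sum fun χ hχ => ?_
    have h2 : N ≤ ‖(χ : G → ℂ) 1‖ := (Finset.mem_filter.1 hχ).2
    exact div_le_div_of_nonneg_left (norm_nonneg _) hN h2
  refine h1.trans ?_
  rw [← Finset.sum_div]
  refine div_le_div_of_nonneg_right ?_ hN.le
  -- Cauchy–Schwarz
  have h3 : (∑ χ ∈ F, ‖(χ : G → ℂ) g‖) ^ 2 ≤ (F.card : ℝ) * ∑ χ ∈ F, ‖(χ : G → ℂ) g‖ ^ 2 :=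
    sq_sum_le_card_mul_sum_sq
  have h4 : (F.card : ℝ) ≤ Nat.card (ConjClasses G) := by
    rw [← Cfsg.Agent.Characters.Core.card_irr, Nat.card_eq_fintype_card]
    exact_mod_cast Finset.card_le_univ F
  have h5 := Cfsg.Agent.CharactersDeep.ColumnBessel.sum_norm_sq_le F g
  refine Real.le_sqrt_of_sq_le (h3.trans ?_)
  exact mul_le_mul h4 h5 (Finset.sum_nonneg fun _ _ => by positivity) (by positivity)

end Cfsg.Agent.S4969
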