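import Mathlib
import Cfsg.Agent.Lib.NormalAbelian
import Cfsg.Agent.S4959
import Cfsg.Agent.H553.Quasi
import Cfsg.Agent.H324.Hall.Reps
import Cfsg.Agent.PLocal.SectionFrattini
import Cfsg.Agent.OddOrderLocal.RankTwoSolvable
import Cfsg.Agent.Lib.FrattiniPGroup
import Cfsg.Statements.S4990
import Cfsg.Agent.H448.KBlock
import Cfsg.Agent.H592.Defect
import Cfsg.Agent.S0908
set_option linter.all false

-- part: H448/RealVec
section
/-!
# Real vectors for nilpotent `p'`-groups (for S4990)

`Real ρ`: some vector `v` is such that the stabilizer of `v` preserves a nondegenerate bilinear form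
on the whole space. `real_of_nilpotent`: this holds for every representation of a finite nilpotent
group of order prime to `p` over the field with `p` elements.
-/

set_option autoImplicit false

namespace Cfsg.Agent.H448.RealVec

open Module

universe u v

variable {p : ℕ} [Fact p.Prime]

/-- A nondegenerate biadditive pairing. -/
structure Form (p : ℕ) (V : Type v) [AddCommGroup V] where
  /-- the pairing -/
  B : V → V → ZMod p
  add_left : ∀ x y z, B (x + y) z = B x z + B y z
  add_right : ∀ x y z, B x (y + z) = B x y + B x z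
  nondeg : ∀ x, (∀ y, B x y = 0) → x = 0

theorem Form.zero_left {V : Type v} [AddCommGroup V] (F : Form p V) (y : V) : F.B 0 y = 0 := by
  have h := F.add_left 0 0 y
  rw [add_zero] at h
  exact (left_eq_add.1 h)

theorem Form.zero_right {V : Type v} [AddCommGroup V] (F : Form p V) (y : V) : F.B y 0 = 0 := by
  have h := F.add_right y 0 0
  rw [add_zero] at h
  exact (left_eq_add.1 h)

/-- Some vector has a stabilizer preserving a nondegenerate form. -/
def Real {F : Type u} [Group F] {V : Type v} [AddCommGroup V] [Module (ZMod p) V]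
    (ρ : Representation (ZMod p) F V) : Prop :=
  ∃ (v : V) (B : Form p V), ∀ g, ρ g v = v → ∀ x y, B.B (ρ g x) (ρ g y) = B.B x y

section semilinear

variable {V : Type v} [AddCommGroup V] [Finite V]

/-- **A group of semilinear maps which acts faithfully on the field preserves a nondegenerate form.** -/
theorem form_of_semilinear {K : Type*} [Field K] [Finite K] [Algebra (ZMod p) K] [Module K V]
    {H : Type*} [Group H] [Finite H] (τ : H → V → V) (τone : ∀ v, τ 1 v = v)
    (τmul : ∀ g h v, τ (g * h) v = τ g (τ h v)) (τadd : ∀ g v w, τ g (v + w) = τ g v + τ g w)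
    (σ : H →* (K ≃ₐ[ZMod p] K)) (hσ : Function.Injective σ)
    (hs : ∀ h k v, τ h (k • v) = σ h k • τ h v) :
    ∃ B : Form p V, ∀ h x y, B.B (τ h x) (τ h y) = B.B x y := by
  classical
  have := Fintype.ofFinite H
  have τzero : ∀ g, τ g 0 = 0 := by
    intro g
    have h := τadd g 0 0
    rw [add_zero] at h
    exact left_eq_add.1 h
  let τ' : H → V →+ V := fun g =>
    { toFun := τ g
      map_zero' := τzero g
      map_add' := τadd g }
  have hτ' : ∀ g v, τ' g v = τ g v := fun _ _ => rfl
  set V0 : Set V := {v | ∀ h, τ h v = v} with hV0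
  have havg : ∀ w : V, (∑ h : H, τ h w) ∈ V0 := by
    intro w h'
    rw [← hτ', map_sum]
    refine Fintype.sum_equiv (Equiv.mulLeft h') _ _ ?_
    intro h
    rw [hτ', Equiv.coe_mulLeft, τmul]
  have hspan : Submodule.span K V0 = ⊤ := by
    by_contra hne
    obtain ⟨l, hl0, hl⟩ := Submodule.exists_le_ker_of_lt_top _ (lt_top_iff_ne_top.2 hne)
    have hkey : ∀ (w : V) (k : K), ∑ h : H, σ h k * l (τ h w) = 0 := by
      intro w k
      have h1 : (∑ h : H, τ h (k • w)) ∈ LinearMap.ker l := hl (Submodule.subset_span (havg _))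
      rw [LinearMap.mem_ker, map_sum] at h1
      rw [← h1]
      refine Finset.sum_congr rfl fun h _ => ?_
      rw [hs, map_smul, smul_eq_mul]
    have hlin : LinearIndependent K (fun h : H => (fun k : K => σ h k)) := by
      have h1 := linearIndependent_monoidHom K K
      have h2 : Function.Injective (fun h : H => ((σ h : K ≃ₐ[ZMod p] K) : K →* K)) := by
        intro a b hab
        apply hσ
        ext k
        exact DFunLike.congr_fun hab k
      exact h1.comp _ h2
    have hz : ∀ w, l w = 0 := by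
      intro w
      have h1 := Fintype.linearIndependent_iff.1 hlin (fun h => l (τ h w)) (by
        funext k
        rw [Finset.sum_apply, Pi.zero_apply, ← hkey w k]
        refine Finset.sum_congr rfl fun h _ => ?_
        rw [Pi.smul_apply, smul_eq_mul, mul_comm]) 1
      rwa [τone] at h1
    exact hl0 (LinearMap.ext hz)
  let b := Basis.ofSpan (K := K) hspan.ge
  have hb : ∀ i, b i ∈ V0 := fun i => Basis.ofSpan_subset hspan.ge ⟨i, rfl⟩
  have hfin : Module.Finite K V := Module.Finite.of_finite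
  have hfi : Finite (((linearIndepOn_empty K id).extend (Set.empty_subset V0) : Set V)) :=
    Finite.of_injective (fun i => (i : V)) Subtype.val_injective
  have := Fintype.ofFinite (((linearIndepOn_empty K id).extend (Set.empty_subset V0) : Set V))
  have hrepr : ∀ h x i, b.repr (τ h x) i = σ h (b.repr x i) := by
    intro h x i
    have h1 : τ h x = ∑ j, σ h (b.repr x j) • b j := by
      conv_lhs => rw [← b.sum_repr x]
      rw [← hτ', map_sum]
      refine Finset.sum_congr rfl fun j _ => ?_
      rw [hτ', hs, hb j h]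
    rw [h1, b.repr_sum_self]
  have hfd : FiniteDimensional (ZMod p) K := Module.Finite.of_finite
  have hsep : Algebra.IsSeparable (ZMod p) K := inferInstance
  refine ⟨⟨fun x y => Algebra.trace (ZMod p) K (∑ i, b.repr x i * b.repr y i), ?_, ?_, ?_⟩, ?_⟩
  · intro x y z
    rw [← map_add, ← Finset.sum_add_distrib]
    congr 1
    refine Finset.sum_congr rfl fun i _ => ?_
    rw [map_add, Finsupp.add_apply, add_mul]
  · intro x y z
    rw [← map_add, ← Finset.sum_add_distrib]
    congr 1
    refine Finset.sum_congr rfl fun i _ => ?_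
    rw [map_add, Finsupp.add_apply, mul_add]
  · intro x hx
    apply b.repr.injective
    rw [map_zero]
    ext i
    rw [Finsupp.zero_apply]
    have hnd := traceForm_nondegenerate (ZMod p) K
    refine hnd.1 (b.repr x i) fun k => ?_
    have h1 := hx (k • b i)
    rw [Algebra.traceForm_apply, ← h1]
    congr 1
    rw [Finset.sum_eq_single i]
    · rw [map_smul, b.repr_self, Finsupp.smul_apply, Finsupp.single_eq_same, smul_eq_mul, mul_one]
    · intro j _ hj
      rw [map_smul, b.repr_self, Finsupp.smul_apply, Finsupp.single_eq_of_ne hj, smul_zero, mul_zero]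
    · intro h
      exact absurd (Finset.mem_univ i) h
  · intro h x y
    change Algebra.trace (ZMod p) K (∑ i, b.repr (τ h x) i * b.repr (τ h y) i) =
      Algebra.trace (ZMod p) K (∑ i, b.repr x i * b.repr y i)
    have h1 : (∑ i, b.repr (τ h x) i * b.repr (τ h y) i) = σ h (∑ i, b.repr x i * b.repr y i) := by
      rw [map_sum]
      refine Finset.sum_congr rfl fun i _ => ?_
      rw [hrepr, hrepr, map_mul]
    rw [h1, Algebra.trace_eq_of_algEquiv]

end semilinear

section sum

variable {F : Type u} [Group F] {V : Type v} [AddCommGroup V] [Module (ZMod p) V]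
  {ρ : Representation (ZMod p) F V}

/-- **Direct sums.** -/
theorem real_of_isCompl (W W' : Subrepresentation ρ) (hc : IsCompl W.toSubmodule W'.toSubmodule)
    (h : Real W.toRepresentation) (h' : Real W'.toRepresentation) : Real ρ := by
  obtain ⟨w, B, hB⟩ := h
  obtain ⟨w', B', hB'⟩ := h'
  let P := W.toSubmodule.projectionOnto W'.toSubmodule hc
  let P' := W'.toSubmodule.projectionOnto W.toSubmodule hc.symm
  have hP1 : ∀ x : W.toSubmodule, P x = x := fun x => Submodule.projectionOnto_apply_left hc x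
  have hP2 : ∀ x : W'.toSubmodule, P x = 0 := fun x => Submodule.projectionOnto_apply_right hc x
  have hP1' : ∀ x : W'.toSubmodule, P' x = x := fun x => Submodule.projectionOnto_apply_left hc.symm x
  have hP2' : ∀ x : W.toSubmodule, P' x = 0 := fun x => Submodule.projectionOnto_apply_right hc.symm x
  have hdec : ∀ x : V, ∃ (a : W.toSubmodule) (b : W'.toSubmodule), x = a + b := by
    intro x
    have hx : x ∈ W.toSubmodule ⊔ W'.toSubmodule := hc.sup_eq_top ▸ Submodule.mem_top
    obtain ⟨a, ha, b, hb, rfl⟩ := Submodule.mem_sup.1 hx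
    exact ⟨⟨a, ha⟩, ⟨b, hb⟩, rfl⟩
  have hPρ : ∀ g x, P (ρ g x) = W.toRepresentation g (P x) := by
    intro g x
    obtain ⟨a, b, rfl⟩ := hdec x
    have h1 : ρ g ((a : V) + b) = ((W.toRepresentation g a : W.toSubmodule) : V) +
        ((W'.toRepresentation g b : W'.toSubmodule) : V) := by
      rw [map_add]; rfl
    rw [h1, map_add, map_add, hP1, hP2, hP1, hP2, add_zero, add_zero]
  have hPρ' : ∀ g x, P' (ρ g x) = W'.toRepresentation g (P' x) := by
    intro g x
    obtain ⟨a, b, rfl⟩ := hdec x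
    have h1 : ρ g ((a : V) + b) = ((W.toRepresentation g a : W.toSubmodule) : V) +
        ((W'.toRepresentation g b : W'.toSubmodule) : V) := by
      rw [map_add]; rfl
    rw [h1, map_add, map_add, hP1', hP2', hP1', hP2', zero_add, zero_add]
  refine ⟨(w : V) + w', ⟨fun x y => B.B (P x) (P y) + B'.B (P' x) (P' y), ?_, ?_, ?_⟩, ?_⟩
  · intro x y z
    simp only [map_add, B.add_left, B'.add_left]
    ring
  · intro x y z
    simp only [map_add, B.add_right, B'.add_right]
    ring
  · intro x hx
    have h1 : P x = 0 := by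
      apply B.nondeg
      intro y
      have h2 := hx y
      simp only [hP1, hP2', B'.zero_right, add_zero] at h2
      exact h2
    have h1' : P' x = 0 := by
      apply B'.nondeg
      intro y
      have h2 := hx y
      simp only [hP2, hP1', B.zero_right, zero_add] at h2
      exact h2
    obtain ⟨a, b, rfl⟩ := hdec x
    rw [map_add, hP1, hP2, add_zero] at h1
    rw [map_add, hP1', hP2', zero_add] at h1'
    rw [h1, h1']
    simp
  · intro g hg x y
    have h1 : W.toRepresentation g w = w := by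
      have h2 := hPρ g ((w : V) + w')
      rw [hg, map_add, hP1, hP2, add_zero] at h2
      exact h2.symm
    have h1' : W'.toRepresentation g w' = w' := by
      have h2 := hPρ' g ((w : V) + w')
      rw [hg, map_add, hP1', hP2', zero_add] at h2
      exact h2.symm
    change B.B (P (ρ g x)) (P (ρ g y)) + B'.B (P' (ρ g x)) (P' (ρ g y)) =
      B.B (P x) (P y) + B'.B (P' x) (P' y)
    rw [hPρ, hPρ, hPρ', hPρ', hB g h1, hB' g h1']

end sum

section blocks

variable {F : Type u} [Group F] {V : Type v} [AddCommGroup V] [Module (ZMod p) V]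
  {ρ : Representation (ZMod p) F V}

theorem rho_inv_mul (ρ : Representation (ZMod p) F V) (g : F) : ρ g⁻¹ * ρ g = 1 := by
  rw [← map_mul, inv_mul_cancel, map_one]

theorem rho_mul_inv (ρ : Representation (ZMod p) F V) (g : F) : ρ g * ρ g⁻¹ = 1 := by
  rw [← map_mul, mul_inv_cancel, map_one]

/-- **Systems of imprimitivity**, given by the conjugates of an idempotent. -/
theorem real_of_blocks (e : Module.End (ZMod p) V) (he : e * e = e)
    (J : Finset (Module.End (ZMod p) V)) (hJ : ∀ f, f ∈ J ↔ ∃ g, f = ρ g * e * ρ g⁻¹)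
    (horth : ∀ f ∈ J, ∀ f' ∈ J, f ≠ f' → f * f' = 0) (hsum : ∑ f ∈ J, f = 1)
    (S : Subgroup F) (hS : ∀ s, s ∈ S ↔ ρ s * e = e * ρ s)
    (W : Subrepresentation (ρ.comp S.subtype)) (hW : W.toSubmodule = LinearMap.range e)
    (h : Real W.toRepresentation) : Real ρ := by
  classical
  obtain ⟨w, B, hB⟩ := h
  have hex : ∀ f : Module.End (ZMod p) V, ∃ g : F, f ∈ J → f = ρ g * e * ρ g⁻¹ := by
    intro f
    by_cases hf : f ∈ J
    · obtain ⟨g, hg⟩ := (hJ f).1 hf
      exact ⟨g, fun _ => hg⟩
    · exact ⟨1, fun h => absurd h hf⟩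
  choose c hc using hex
  have hmem : ∀ x : V, e x ∈ W.toSubmodule := fun x => by rw [hW]; exact ⟨x, rfl⟩
  have hfix : ∀ x : W.toSubmodule, e (x : V) = x := by
    intro x
    obtain ⟨y, hy⟩ := (hW ▸ x.2 : (x : V) ∈ LinearMap.range e)
    rw [← hy, ← Module.End.mul_apply, he]
  -- the coordinates
  let q : Module.End (ZMod p) V → V →ₗ[ZMod p] W.toSubmodule := fun f =>
    (e * ρ (c f)⁻¹).codRestrict W.toSubmodule (fun x => hmem _)
  have hq : ∀ f x, ((q f x : W.toSubmodule) : V) = e (ρ (c f)⁻¹ x) := fun _ _ => rfl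
  -- `f ρ(c f') e = ρ(c f') e` or `0`
  have hfe : ∀ f ∈ J, ρ (c f) * e = f * ρ (c f) := by
    intro f hf
    have h1 : f * ρ (c f) = ρ (c f) * e * ρ (c f)⁻¹ * ρ (c f) := congrArg (· * ρ (c f)) (hc f hf)
    rw [h1, mul_assoc (ρ (c f) * e), rho_inv_mul, mul_one]
  have hef : ∀ f ∈ J, e * ρ (c f)⁻¹ = ρ (c f)⁻¹ * f := by
    intro f hf
    have h1 : ρ (c f)⁻¹ * f = ρ (c f)⁻¹ * (ρ (c f) * e * ρ (c f)⁻¹) :=
      congrArg (ρ (c f)⁻¹ * ·) (hc f hf)
    rw [h1, ← mul_assoc, ← mul_assoc, rho_inv_mul, one_mul]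
  have hff : ∀ f ∈ J, f * f = f := by
    intro f hf
    conv_lhs => rw [hc f hf]
    calc ρ (c f) * e * ρ (c f)⁻¹ * (ρ (c f) * e * ρ (c f)⁻¹)
        = ρ (c f) * e * (ρ (c f)⁻¹ * ρ (c f)) * e * ρ (c f)⁻¹ := by simp only [mul_assoc]
      _ = ρ (c f) * (e * e) * ρ (c f)⁻¹ := by rw [rho_inv_mul]; simp only [mul_assoc, mul_one]
      _ = f := by rw [he]; exact (hc f hf).symm
  set v : V := ∑ f ∈ J, ρ (c f) (w : V) with hv
  have hfv : ∀ f ∈ J, f v = ρ (c f) (w : V) := by
    intro f hf
    rw [hv, map_sum, Finset.sum_eq_single_of_mem f hf]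
    · have h1 : f * (ρ (c f) * e) = ρ (c f) * e := by
        rw [hfe f hf, ← mul_assoc, hff f hf]
      have h2 := LinearMap.congr_fun h1 (w : V)
      simp only [Module.End.mul_apply, hfix] at h2
      exact h2
    · intro f' hf' hne
      have h1 : f * (ρ (c f') * e) = 0 := by
        rw [hfe f' hf', ← mul_assoc, horth f hf f' hf' hne.symm, zero_mul]
      have h2 := LinearMap.congr_fun h1 (w : V)
      simp only [Module.End.mul_apply, hfix] at h2
      exact h2
  refine ⟨v, ⟨fun x y => ∑ f ∈ J, B.B (q f x) (q f y), ?_, ?_, ?_⟩, ?_⟩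
  · intro x y z
    rw [← Finset.sum_add_distrib]
    refine Finset.sum_congr rfl fun f _ => ?_
    rw [map_add, B.add_left]
  · intro x y z
    rw [← Finset.sum_add_distrib]
    refine Finset.sum_congr rfl fun f _ => ?_
    rw [map_add, B.add_right]
  · intro x hx
    have h1 : ∀ f ∈ J, q f x = 0 := by
      intro f hf
      apply B.nondeg
      intro a
      have h2 := hx (ρ (c f) (a : V))
      rw [Finset.sum_eq_single_of_mem f hf] at h2
      · have h3 : q f (ρ (c f) (a : V)) = a := by
          apply Subtype.ext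
          rw [hq, ← Module.End.mul_apply (ρ (c f)⁻¹), rho_inv_mul, Module.End.one_apply, hfix]
        rwa [h3] at h2
      · intro f' hf' hne
        have h3 : q f' (ρ (c f) (a : V)) = 0 := by
          apply Subtype.ext
          rw [hq, ← hfix a, ← Module.End.mul_apply, ← Module.End.mul_apply, ← Module.End.mul_apply]
          have h4 : e * ρ (c f')⁻¹ * ρ (c f) * e = 0 := by
            rw [hef f' hf', mul_assoc, hfe f hf, ← mul_assoc, mul_assoc (ρ (c f')⁻¹),
              horth f' hf' f hf hne, mul_zero, zero_mul]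
          rw [h4]
          rfl
        rw [h3, B.zero_right]
    have h2 : x = ∑ f ∈ J, f x := by
      have h3 := LinearMap.congr_fun hsum x
      rw [LinearMap.sum_apply] at h3
      exact h3.symm
    rw [h2]
    refine Finset.sum_eq_zero fun f hf => ?_
    have h3 : f x = ρ (c f) (e (ρ (c f)⁻¹ x)) := by
      conv_lhs => rw [hc f hf]
      rfl
    rw [h3, ← hq, h1 f hf, Submodule.coe_zero, map_zero]
  · intro g hg x y
    -- the action on the blocks
    have hmv : ∀ f ∈ J, ρ g * f * ρ g⁻¹ ∈ J := by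
      intro f hf
      obtain ⟨t, rfl⟩ := (hJ f).1 hf
      rw [hJ]
      refine ⟨g * t, ?_⟩
      rw [map_mul, mul_inv_rev, map_mul]
      simp only [mul_assoc]
    have hmv' : ∀ f ∈ J, ρ g⁻¹ * f * ρ g ∈ J := by
      intro f hf
      obtain ⟨t, rfl⟩ := (hJ f).1 hf
      rw [hJ]
      refine ⟨g⁻¹ * t, ?_⟩
      rw [map_mul, mul_inv_rev, map_mul, inv_inv]
      simp only [mul_assoc]
    change ∑ f ∈ J, B.B (q f (ρ g x)) (q f (ρ g y)) = ∑ f ∈ J, B.B (q f x) (q f y)
    symm
    refine Finset.sum_bij' (fun f _ => ρ g * f * ρ g⁻¹) (fun f _ => ρ g⁻¹ * f * ρ g) hmv hmv' ?_ ?_ ?_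
    · intro f _
      simp only [mul_assoc, rho_inv_mul, mul_one]
      rw [← mul_assoc, rho_inv_mul, one_mul]
    · intro f _
      simp only [mul_assoc, rho_mul_inv, mul_one]
      rw [← mul_assoc, rho_mul_inv, one_mul]
    · intro f hf
      set f' := ρ g * f * ρ g⁻¹ with hf'
      have hf'J : f' ∈ J := hmv f hf
      set s : F := (c f')⁻¹ * g * c f with hs
      have h1 : ρ s * e = e * ρ s := by
        have h2 : ρ s = ρ (c f')⁻¹ * ρ g * ρ (c f) := by rw [hs, map_mul, map_mul]
        have h3 : ρ g * f = f' * ρ g := by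
          rw [hf', mul_assoc, mul_assoc, rho_inv_mul, mul_one]
        rw [h2]
        calc ρ (c f')⁻¹ * ρ g * ρ (c f) * e = ρ (c f')⁻¹ * (ρ g * (ρ (c f) * e)) := by
              simp only [mul_assoc]
          _ = ρ (c f')⁻¹ * ((ρ g * f) * ρ (c f)) := by rw [hfe f hf, mul_assoc]
          _ = (ρ (c f')⁻¹ * f') * (ρ g * ρ (c f)) := by rw [h3]; simp only [mul_assoc]
          _ = e * (ρ (c f')⁻¹ * ρ g * ρ (c f)) := by rw [← hef f' hf'J]; simp only [mul_assoc]
      have hsS : s ∈ S := (hS s).2 h1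
      have hcs : ρ (c f') * ρ s = ρ g * ρ (c f) := by
        rw [← map_mul, ← map_mul, hs]
        congr 1
        group
      have hsw : W.toRepresentation ⟨s, hsS⟩ w = w := by
        apply Subtype.ext
        change ρ s (w : V) = w
        have h2 : f' v = ρ g (ρ (c f) (w : V)) := by
          have h3 : f' v = (ρ g * f * ρ g⁻¹) (ρ g v) := by rw [hg]
          rw [h3, ← Module.End.mul_apply, mul_assoc, rho_inv_mul, mul_one, Module.End.mul_apply,
            hfv f hf]
        rw [hfv f' hf'J, ← Module.End.mul_apply, ← hcs, Module.End.mul_apply] at h2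
        have h3 := congrArg (ρ (c f')⁻¹) h2
        rw [← Module.End.mul_apply, ← Module.End.mul_apply, rho_inv_mul] at h3
        exact h3.symm
      have hqs : ∀ z, q f' (ρ g z) = W.toRepresentation ⟨s, hsS⟩ (q f z) := by
        intro z
        apply Subtype.ext
        change e (ρ (c f')⁻¹ (ρ g z)) = ρ s (e (ρ (c f)⁻¹ z))
        rw [← Module.End.mul_apply (ρ s), h1, Module.End.mul_apply]
        congr 1
        rw [← Module.End.mul_apply, ← Module.End.mul_apply, ← map_mul, ← map_mul, hs]
        congr 2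
        group
      rw [hqs, hqs, hB _ hsw]

end blocks

end Cfsg.Agent.H448.RealVec
end

-- part: H448/RealNil
section
/-!
# Real vectors for nilpotent groups: the induction
-/

set_option autoImplicit false

namespace Cfsg.Agent.H448.RealNil

open Module RealVec

universe u v

variable {p : ℕ} [Fact p.Prime]

section alg

variable {F : Type u} [Group F] {V : Type v} [AddCommGroup V] [Module (ZMod p) V]
  (ρ : Representation (ZMod p) F V) (A : Subgroup F)

/-- The algebra generated by the image of `A`. -/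
def alg : Subalgebra (ZMod p) (Module.End (ZMod p) V) :=
  Algebra.adjoin (ZMod p) (Set.range (fun a : A => ρ a))

theorem mem_alg {a : F} (ha : a ∈ A) : ρ a ∈ alg ρ A :=
  Algebra.subset_adjoin ⟨⟨a, ha⟩, rfl⟩

theorem alg_comm (hA : ∀ a ∈ A, ∀ b ∈ A, a * b = b * a) {x y : Module.End (ZMod p) V}
    (hx : x ∈ alg ρ A) (hy : y ∈ alg ρ A) : x * y = y * x := by
  have h1 : ∀ a ∈ A, ∀ y ∈ alg ρ A, Commute (ρ a) y := by
    intro a ha y hy
    refine Algebra.commute_of_mem_adjoin_of_forall_mem_commute hy ?_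
    rintro _ ⟨b, rfl⟩
    change ρ a * ρ b = ρ b * ρ a
    rw [← map_mul, ← map_mul, hA a ha b b.2]
  have h2 : Commute y x := by
    refine Algebra.commute_of_mem_adjoin_of_forall_mem_commute hx ?_
    rintro _ ⟨b, rfl⟩
    exact (h1 b b.2 y hy).symm
  exact h2.symm

theorem alg_conj [A.Normal] (g : F) {x : Module.End (ZMod p) V} (hx : x ∈ alg ρ A) :
    ρ g * x * ρ g⁻¹ ∈ alg ρ A := by
  induction hx using Algebra.adjoin_induction with
  | mem x hx =>
    obtain ⟨a, rfl⟩ := hx
    simp only
    rw [← map_mul, ← map_mul]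
    exact mem_alg ρ A ((inferInstance : A.Normal).conj_mem a a.2 g)
  | algebraMap r =>
    rw [← Algebra.commutes, mul_assoc, rho_mul_inv, mul_one]
    exact Subalgebra.algebraMap_mem _ r
  | add x y _ _ h1 h2 =>
    rw [mul_add, add_mul]
    exact add_mem h1 h2
  | mul x y _ _ h1 h2 =>
    have h3 : ρ g * (x * y) * ρ g⁻¹ = (ρ g * x * ρ g⁻¹) * (ρ g * y * ρ g⁻¹) := by
      calc ρ g * (x * y) * ρ g⁻¹ = ρ g * x * 1 * y * ρ g⁻¹ := by simp only [mul_assoc, one_mul]
        _ = _ := by rw [← rho_inv_mul ρ g]; simp only [mul_assoc]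
    rw [h3]
    exact mul_mem h1 h2

theorem alg_pow [Nontrivial V] [Finite A] (hA : ∀ a ∈ A, ∀ b ∈ A, a * b = b * a)
    (hp : ¬ p ∣ Nat.card A) : ∃ q, 1 < q ∧ ∀ x ∈ alg ρ A, x ^ q = x := by
  have hpp : p.Prime := Fact.out
  set n := Nat.card A with hn
  have hn0 : 0 < n := Nat.card_pos
  have hcop : Nat.Coprime p n := (Nat.Prime.coprime_iff_not_dvd hpp).2 hp
  have hmod := Nat.ModEq.pow_totient hcop
  have htot : 0 < n.totient := Nat.totient_pos.2 hn0
  have hchar : CharP (Module.End (ZMod p) V) p :=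
    charP_of_injective_algebraMap (FaithfulSMul.algebraMap_injective (ZMod p) (Module.End (ZMod p) V)) p
  refine ⟨p ^ n.totient, Nat.one_lt_pow htot.ne' hpp.one_lt, ?_⟩
  intro x hx
  induction hx using Algebra.adjoin_induction with
  | mem x hx =>
    obtain ⟨a, rfl⟩ := hx
    have h1 : (a : A) ^ (p ^ n.totient) = a := by
      have h2 : p ^ n.totient = p ^ n.totient - 1 + 1 := by
        have := Nat.pow_pos (n := n.totient) hpp.pos
        omega
      have h3 : n ∣ p ^ n.totient - 1 := (Nat.modEq_iff_dvd' (Nat.pow_pos hpp.pos)).1 hmod.symm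
      rw [h2, pow_succ]
      obtain ⟨m, hm⟩ := h3
      rw [hm, pow_mul, hn, pow_card_eq_one', one_pow, one_mul]
    simp only
    rw [← map_pow, ← Subgroup.coe_pow, h1]
  | algebraMap r =>
    rw [← map_pow, ZMod.pow_card_pow]
  | add x y hx hy h1 h2 =>
    rw [add_pow_char_pow_of_commute _ _ (show Commute x y from alg_comm ρ A hA hx hy), h1, h2]
  | mul x y hx hy h1 h2 =>
    rw [Commute.mul_pow (alg_comm ρ A hA hx hy), h1, h2]

end alg

section blocks

variable {F : Type u} [Group F] {V : Type v} [AddCommGroup V] [Module (ZMod p) V]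
  {ρ : Representation (ZMod p) F V}

/-- Primitive idempotents. -/
def Prim (ρ : Representation (ZMod p) F V) (A : Subgroup F) (e : Module.End (ZMod p) V) : Prop :=
  e ∈ alg ρ A ∧ e * e = e ∧ e ≠ 0 ∧ ∀ f ∈ alg ρ A, f * f = f → f * e = f → f ≠ 0 → f = e

theorem Prim.orth {A : Subgroup F} (hA : ∀ a ∈ A, ∀ b ∈ A, a * b = b * a)
    {e f : Module.End (ZMod p) V} (he : Prim ρ A e) (hf : Prim ρ A f) (hne : e ≠ f) : e * f = 0 := by
  by_contra h0
  obtain ⟨he1, he2, he3, he4⟩ := he
  obtain ⟨hf1, hf2, hf3, hf4⟩ := hf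
  have hc : e * f = f * e := alg_comm ρ A hA he1 hf1
  have hm : e * f ∈ alg ρ A := mul_mem he1 hf1
  have hi : e * f * (e * f) = e * f := by
    calc e * f * (e * f) = e * (f * e) * f := by simp only [mul_assoc]
      _ = (e * e) * (f * f) := by rw [← hc]; simp only [mul_assoc]
      _ = e * f := by rw [he2, hf2]
  have h1 := he4 (e * f) hm hi (by rw [mul_assoc, ← hc, ← mul_assoc, he2]) h0
  have h2 := hf4 (e * f) hm hi (by rw [mul_assoc, hf2]) h0
  exact hne (h1.symm.trans h2)

theorem conj_mul_conj (ρ : Representation (ZMod p) F V) (g : F) (x y : Module.End (ZMod p) V) :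
    ρ g * x * ρ g⁻¹ * (ρ g * y * ρ g⁻¹) = ρ g * (x * y) * ρ g⁻¹ := by
  symm
  calc ρ g * (x * y) * ρ g⁻¹ = ρ g * x * 1 * y * ρ g⁻¹ := by simp only [mul_assoc, one_mul]
    _ = _ := by rw [← rho_inv_mul ρ g]; simp only [mul_assoc]

theorem conj_conj_inv (ρ : Representation (ZMod p) F V) (g : F) (x : Module.End (ZMod p) V) :
    ρ g⁻¹ * (ρ g * x * ρ g⁻¹) * ρ g⁻¹⁻¹ = x := by
  rw [inv_inv]
  simp only [mul_assoc, rho_inv_mul, mul_one]
  rw [← mul_assoc, rho_inv_mul, one_mul]

theorem conj_inv_conj (ρ : Representation (ZMod p) F V) (g : F) (x : Module.End (ZMod p) V) :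
    ρ g * (ρ g⁻¹ * x * ρ g⁻¹⁻¹) * ρ g⁻¹ = x := by
  rw [inv_inv]
  simp only [mul_assoc, rho_mul_inv, mul_one]
  rw [← mul_assoc, rho_mul_inv, one_mul]

theorem Prim.conj {A : Subgroup F} [A.Normal] {e : Module.End (ZMod p) V} (he : Prim ρ A e) (g : F) :
    Prim ρ A (ρ g * e * ρ g⁻¹) := by
  obtain ⟨he1, he2, he3, he4⟩ := he
  refine ⟨alg_conj ρ A g he1, by rw [conj_mul_conj, he2], ?_, ?_⟩
  · intro h
    apply he3
    rw [← conj_conj_inv ρ g e, h, mul_zero, zero_mul]
  · intro f hf1 hf2 hf3 hf4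
    have h1 := he4 (ρ g⁻¹ * f * ρ g⁻¹⁻¹) (alg_conj ρ A g⁻¹ hf1) (by rw [conj_mul_conj, hf2]) (by
      conv_lhs => rw [← conj_conj_inv ρ g e]
      rw [conj_mul_conj, hf3]) (by
      intro h
      apply hf4
      rw [← conj_inv_conj ρ g f, h, mul_zero, zero_mul])
    rw [← h1, conj_inv_conj]

theorem exists_prim [Finite V] (A : Subgroup F) (hA : ∀ a ∈ A, ∀ b ∈ A, a * b = b * a)
    {e₀ : Module.End (ZMod p) V} (h1 : e₀ ∈ alg ρ A) (h2 : e₀ * e₀ = e₀) (h3 : e₀ ≠ 0)
    (h4 : e₀ ≠ 1) : ∃ e, Prim ρ A e ∧ e ≠ 1 := by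
  classical
  have hfd : Module.Finite (ZMod p) V := Module.Finite.of_finite
  let T : Set ℕ := {n | ∃ e ∈ alg ρ A, e * e = e ∧ e ≠ 0 ∧ finrank (ZMod p) (LinearMap.range e) = n}
  have hT : T.Nonempty := ⟨_, e₀, h1, h2, h3, rfl⟩
  obtain ⟨e, he1, he2, he3, he4⟩ := Nat.sInf_mem hT
  have hprim : Prim ρ A e := by
    refine ⟨he1, he2, he3, ?_⟩
    intro f hf1 hf2 hf3 hf4
    have hef : e * f = f := by rw [← alg_comm ρ A hA hf1 he1, hf3]
    have hle : LinearMap.range f ≤ LinearMap.range e := by
      rintro _ ⟨x, rfl⟩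
      exact ⟨f x, by rw [← Module.End.mul_apply, hef]⟩
    have hge : finrank (ZMod p) (LinearMap.range e) ≤ finrank (ZMod p) (LinearMap.range f) := by
      rw [he4]
      exact Nat.sInf_le ⟨f, hf1, hf2, hf4, rfl⟩
    have heq := Submodule.eq_of_le_of_finrank_le hle hge
    ext x
    have h5 : e x ∈ LinearMap.range f := heq ▸ ⟨x, rfl⟩
    obtain ⟨y, hy⟩ := h5
    calc f x = (f * e) x := by rw [hf3]
      _ = f (e x) := rfl
      _ = f (f y) := by rw [hy]
      _ = (f * f) y := rfl
      _ = e x := by rw [hf2, hy]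
  refine ⟨e, hprim, ?_⟩
  rintro rfl
  exact h4 (hprim.2.2.2 e₀ h1 h2 (mul_one _) h3)

theorem real_of_idempotent [Finite F] [Finite V]
    (hirr : ∀ W : Subrepresentation ρ, W.toSubmodule = ⊥ ∨ W.toSubmodule = ⊤)
    (A : Subgroup F) [A.Normal] (hA : ∀ a ∈ A, ∀ b ∈ A, a * b = b * a)
    {e₀ : Module.End (ZMod p) V} (h1 : e₀ ∈ alg ρ A) (h2 : e₀ * e₀ = e₀) (h3 : e₀ ≠ 0)
    (h4 : e₀ ≠ 1)
    (ih : ∀ S : Subgroup F, ∀ W : Subrepresentation (ρ.comp S.subtype),
      finrank (ZMod p) W.toSubmodule < finrank (ZMod p) V → Real W.toRepresentation) : Real ρ := by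
  classical
  have hfd : Module.Finite (ZMod p) V := Module.Finite.of_finite
  obtain ⟨e, he, he1⟩ := exists_prim A hA h1 h2 h3 h4
  have hrng : (Set.range (fun g : F => ρ g * e * ρ g⁻¹)).Finite := Set.finite_range _
  set J : Finset (Module.End (ZMod p) V) := hrng.toFinset with hJdef
  have hJ : ∀ f, f ∈ J ↔ ∃ g, f = ρ g * e * ρ g⁻¹ := by
    intro f
    rw [hJdef, Set.Finite.mem_toFinset, Set.mem_range]
    constructor
    · rintro ⟨g, hg⟩
      exact ⟨g, hg.symm⟩
    · rintro ⟨g, hg⟩
      exact ⟨g, hg.symm⟩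
  have hJp : ∀ f ∈ J, Prim ρ A f := by
    intro f hf
    obtain ⟨g, rfl⟩ := (hJ f).1 hf
    exact he.conj g
  have horth : ∀ f ∈ J, ∀ f' ∈ J, f ≠ f' → f * f' = 0 := fun f hf f' hf' hne =>
    (hJp f hf).orth hA (hJp f' hf') hne
  have heJ : e ∈ J := (hJ e).2 ⟨1, by rw [inv_one, map_one, one_mul, mul_one]⟩
  have hJc : ∀ g, ∀ f ∈ J, ρ g * f * ρ g⁻¹ ∈ J := by
    intro g f hf
    obtain ⟨t, rfl⟩ := (hJ f).1 hf
    rw [hJ]
    refine ⟨g * t, ?_⟩
    rw [map_mul, mul_inv_rev, map_mul]
    simp only [mul_assoc]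
  set E : Module.End (ZMod p) V := ∑ f ∈ J, f with hE
  have hEf : ∀ f ∈ J, E * f = f := by
    intro f hf
    rw [hE, Finset.sum_mul, Finset.sum_eq_single_of_mem f hf, (hJp f hf).2.1]
    intro f' hf' hne
    exact horth f' hf' f hf hne
  have hEE : E * E = E := by
    conv_lhs => rw [hE, Finset.mul_sum]
    conv_rhs => rw [hE]
    exact Finset.sum_congr rfl fun f hf => by rw [← hE]; exact hEf f hf
  have hEc : ∀ g, ρ g * E * ρ g⁻¹ = E := by
    intro g
    rw [hE, Finset.mul_sum, Finset.sum_mul]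
    refine Finset.sum_bij' (fun f _ => ρ g * f * ρ g⁻¹) (fun f _ => ρ g⁻¹ * f * ρ g⁻¹⁻¹)
      (hJc g) (hJc g⁻¹) ?_ ?_ ?_
    · intro f _
      exact conj_conj_inv ρ g f
    · intro f _
      exact conj_inv_conj ρ g f
    · intro f _
      rfl
  have hEcomm : ∀ g, ρ g * E = E * ρ g := by
    intro g
    have h5 := congrArg (· * ρ g) (hEc g)
    simp only [mul_assoc, rho_inv_mul, mul_one] at h5
    exact h5
  have hE1 : E = 1 := by
    let U : Subrepresentation ρ :=
      { toSubmodule := LinearMap.range E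
        apply_mem_toSubmodule := by
          rintro g _ ⟨x, rfl⟩
          exact ⟨ρ g x, by rw [← Module.End.mul_apply, ← hEcomm]; rfl⟩ }
    have hU := hirr U
    have hU' : LinearMap.range E = ⊤ := by
      refine hU.resolve_left ?_
      intro h5
      apply he.2.2.1
      have h6 : E = 0 := LinearMap.range_eq_bot.1 h5
      rw [← hEf e heJ, h6, zero_mul]
    ext x
    obtain ⟨y, rfl⟩ : x ∈ LinearMap.range E := hU' ▸ Submodule.mem_top
    rw [← Module.End.mul_apply, hEE]
    rfl
  let S : Subgroup F :=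
    { carrier := {s | ρ s * e = e * ρ s}
      one_mem' := by
        change ρ 1 * e = e * ρ 1
        rw [map_one, one_mul, mul_one]
      mul_mem' := by
        intro a b ha hb
        change ρ (a * b) * e = e * ρ (a * b)
        have ha' : ρ a * e = e * ρ a := ha
        have hb' : ρ b * e = e * ρ b := hb
        rw [map_mul, mul_assoc, hb', ← mul_assoc, ha', mul_assoc]
      inv_mem' := by
        intro a ha
        change ρ a⁻¹ * e = e * ρ a⁻¹
        have ha' : ρ a * e = e * ρ a := ha
        calc ρ a⁻¹ * e = ρ a⁻¹ * (e * (ρ a * ρ a⁻¹)) := by rw [rho_mul_inv, mul_one]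
          _ = ρ a⁻¹ * (e * ρ a) * ρ a⁻¹ := by simp only [mul_assoc]
          _ = (ρ a⁻¹ * ρ a) * e * ρ a⁻¹ := by rw [← ha']; simp only [mul_assoc]
          _ = e * ρ a⁻¹ := by rw [rho_inv_mul, one_mul] }
  let W : Subrepresentation (ρ.comp S.subtype) :=
    { toSubmodule := LinearMap.range e
      apply_mem_toSubmodule := by
        rintro ⟨s, hs⟩ _ ⟨x, rfl⟩
        have hs' : ρ s * e = e * ρ s := hs
        refine ⟨ρ s x, ?_⟩
        rw [← Module.End.mul_apply, ← hs']
        rfl }
  refine real_of_blocks e he.2.1 J hJ horth hE1 S (fun s => Iff.rfl) W rfl ?_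
  apply ih
  refine Submodule.finrank_lt ?_
  intro h5
  apply he1
  ext x
  obtain ⟨y, rfl⟩ : x ∈ LinearMap.range e := by
    change LinearMap.range e = ⊤ at h5
    rw [h5]
    exact Submodule.mem_top
  rw [← Module.End.mul_apply, he.2.1]
  rfl

end blocks

section field

variable {F : Type u} [Group F] {V : Type v} [AddCommGroup V] [Module (ZMod p) V]
  {ρ : Representation (ZMod p) F V}

theorem real_of_field [Finite F] [Finite V] [Nontrivial V] (hρ : Function.Injective ρ)
    (A : Subgroup F) [A.Normal] (hA : ∀ a ∈ A, ∀ b ∈ A, a * b = b * a)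
    (hC : Subgroup.centralizer (A : Set F) = A) (hp : ¬ p ∣ Nat.card A)
    (hid : ∀ e ∈ alg ρ A, e * e = e → e = 0 ∨ e = 1) : Real ρ := by
  classical
  obtain ⟨q, hq1, hq⟩ := alg_pow ρ A hA hp
  obtain ⟨v, hv⟩ := exists_ne (0 : V)
  have hne : (0 : Module.End (ZMod p) V) ≠ 1 := zero_ne_one
  have hinv : ∀ x ∈ alg ρ A, x ≠ 0 → x * x ^ (q - 2) = 1 := by
    intro x hx hx0
    have h1 : x * x ^ (q - 2) = x ^ (q - 1) := by
      rw [← pow_succ']
      congr 1
      omega
    have h2 : x ^ (q - 1) * x ^ (q - 1) = x ^ (q - 1) := by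
      rw [← pow_add]
      have h3 : q - 1 + (q - 1) = q + (q - 2) := by omega
      rw [h3, pow_add, hq x hx, h1]
    rcases hid _ (pow_mem hx _) h2 with h3 | h3
    · exfalso
      apply hx0
      rw [← hq x hx]
      have h4 : q = q - 1 + 1 := by omega
      rw [h4, pow_succ, h3, zero_mul]
    · rw [h1, h3]
  have hfield : IsField (alg ρ A) :=
    { exists_pair_ne := ⟨0, 1, fun h => hne (congrArg Subtype.val h)⟩
      mul_comm := fun x y => Subtype.ext (alg_comm ρ A hA x.2 y.2)
      mul_inv_cancel := by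
        intro x hx
        refine ⟨⟨(x : Module.End (ZMod p) V) ^ (q - 2), pow_mem x.2 _⟩, Subtype.ext ?_⟩
        exact hinv x x.2 (fun h => hx (Subtype.ext h)) }
  let _ : Field (alg ρ A) := hfield.toField
  let _ : Module (alg ρ A) V := Module.compHom V (alg ρ A).val.toRingHom
  have hEfin : Finite (Module.End (ZMod p) V) :=
    Finite.of_injective (fun f : Module.End (ZMod p) V => (f : V → V)) DFunLike.coe_injective
  have hKfin : Finite (alg ρ A) := Finite.of_injective (fun x => x.1) Subtype.val_injective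
  let S : Subgroup F :=
    { carrier := {s | ρ s v = v}
      one_mem' := by
        change ρ 1 v = v
        rw [map_one]
        rfl
      mul_mem' := by
        intro a b ha hb
        change ρ (a * b) v = v
        have ha' : ρ a v = v := ha
        have hb' : ρ b v = v := hb
        rw [map_mul, Module.End.mul_apply, hb', ha']
      inv_mem' := by
        intro a ha
        change ρ a⁻¹ v = v
        have ha' : ρ a v = v := ha
        conv_lhs => rw [← ha']
        rw [← Module.End.mul_apply, rho_inv_mul]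
        rfl }
  let σ : S →* (alg ρ A ≃ₐ[ZMod p] alg ρ A) :=
    { toFun := fun s =>
        { toFun := fun x => ⟨ρ s * x * ρ (s : F)⁻¹, alg_conj ρ A s x.2⟩
          invFun := fun x => ⟨ρ (s : F)⁻¹ * x * ρ (s : F)⁻¹⁻¹, alg_conj ρ A (s : F)⁻¹ x.2⟩
          left_inv := fun x => Subtype.ext (conj_conj_inv ρ s x)
          right_inv := fun x => Subtype.ext (conj_inv_conj ρ s x)
          map_mul' := fun x y => Subtype.ext (conj_mul_conj ρ s x y).symm
          map_add' := fun x y => Subtype.ext (by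
            change ρ s * ((x : Module.End (ZMod p) V) + y) * ρ (s : F)⁻¹ = _
            rw [mul_add, add_mul]
            rfl)
          commutes' := fun r => Subtype.ext (by
            change ρ s * (algebraMap (ZMod p) (Module.End (ZMod p) V) r) * ρ (s : F)⁻¹ =
              algebraMap (ZMod p) (Module.End (ZMod p) V) r
            rw [← Algebra.commutes, mul_assoc, rho_mul_inv, mul_one]) }
      map_one' := by
        ext x : 2
        change ρ ((1 : S) : F) * (x : Module.End (ZMod p) V) * ρ ((1 : S) : F)⁻¹ = x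
        rw [Subgroup.coe_one, inv_one, map_one, one_mul, mul_one]
      map_mul' := by
        intro s t
        ext x : 2
        change ρ ((s * t : S) : F) * (x : Module.End (ZMod p) V) * ρ ((s * t : S) : F)⁻¹ =
          ρ s * (ρ t * x * ρ (t : F)⁻¹) * ρ (s : F)⁻¹
        rw [Subgroup.coe_mul, mul_inv_rev, map_mul, map_mul]
        simp only [mul_assoc] }
  have hσ : ∀ (s : S) (x : alg ρ A), ((σ s x : alg ρ A) : Module.End (ZMod p) V) =
      ρ s * x * ρ (s : F)⁻¹ := fun _ _ => rfl
  have hσinj : Function.Injective σ := by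
    rw [injective_iff_map_eq_one]
    intro s hs
    have hcomm : ∀ a ∈ A, ρ s * ρ a = ρ a * ρ s := by
      intro a ha
      have h1 : (σ s ⟨ρ a, mem_alg ρ A ha⟩ : alg ρ A) = ⟨ρ a, mem_alg ρ A ha⟩ := by
        rw [hs]; rfl
      have h2 : ρ s * ρ a * ρ (s : F)⁻¹ = ρ a := congrArg Subtype.val h1
      have h3 := congrArg (· * ρ (s : F)) h2
      simp only [mul_assoc, rho_inv_mul, mul_one] at h3
      exact h3
    have hsA : (s : F) ∈ A := by
      rw [← hC, Subgroup.mem_centralizer_iff]
      intro a ha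
      apply hρ
      rw [map_mul, map_mul]
      exact (hcomm a ha).symm
    have hx : ρ s - 1 ∈ alg ρ A := sub_mem (mem_alg ρ A hsA) (one_mem _)
    have hx0 : ρ s - 1 = 0 := by
      by_contra h0
      have h1 := hinv _ hx h0
      have h2 : (ρ s - 1) ^ (q - 2) * (ρ s - 1) = 1 := by
        rw [alg_comm ρ A hA (pow_mem hx _) hx, h1]
      have h3 : ((ρ s - 1) ^ (q - 2) * (ρ s - 1)) v = v := by rw [h2]; rfl
      rw [Module.End.mul_apply, LinearMap.sub_apply, s.2] at h3
      apply hv
      rw [← h3]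
      simp
    have h4 : (s : F) = 1 := by
      apply hρ
      rw [map_one]
      exact sub_eq_zero.1 hx0
    exact Subtype.ext h4
  obtain ⟨B, hB⟩ := form_of_semilinear (p := p) (K := alg ρ A) (V := V) (H := S)
    (fun s w => ρ s w) (fun w => by rw [Subgroup.coe_one, map_one]; rfl)
    (fun g h w => by rw [Subgroup.coe_mul, map_mul]; rfl) (fun g w w' => map_add _ _ _) σ hσinj
    (fun s k w => by
      change ρ s ((k : Module.End (ZMod p) V) w) = (ρ s * k * ρ (s : F)⁻¹) (ρ s w)
      have h1 : ρ s * (k : Module.End (ZMod p) V) * ρ (s : F)⁻¹ * ρ s = ρ s * k := by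
        rw [mul_assoc, rho_inv_mul, mul_one]
      exact (LinearMap.congr_fun h1 w).symm)
  exact ⟨v, B, fun g hg x y => hB ⟨g, hg⟩ x y⟩

end field

end Cfsg.Agent.H448.RealNil
end

-- part: H448/RealMain
section
/-!
# Real vectors for nilpotent `p'`-groups: the induction (for S4990)
-/

set_option autoImplicit false

namespace Cfsg.Agent.H448.RealMain

open Module Cfsg.Agent.H448.RealVec Cfsg.Agent.H448.RealNil

universe u v

variable {p : ℕ} [Fact p.Prime]

theorem real_of_subsingleton {F : Type u} [Group F] {V : Type v} [AddCommGroup V]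
    [Module (ZMod p) V] [Subsingleton V] (ρ : Representation (ZMod p) F V) : Real ρ :=
  ⟨0, ⟨fun _ _ => 0, fun _ _ _ => (add_zero 0).symm, fun _ _ _ => (add_zero 0).symm,
    fun _ _ => Subsingleton.elim _ _⟩, fun _ _ _ _ => rfl⟩

theorem real_of_faithful {Q : Type u} [Group Q] [Finite Q] [Group.IsNilpotent Q]
    {V : Type v} [AddCommGroup V] [Module (ZMod p) V] [Finite V] [Nontrivial V]
    (ρ : Representation (ZMod p) Q V) (hρ : Function.Injective ρ) (hQ : ¬ p ∣ Nat.card Q)
    (hirr : ∀ W : Subrepresentation ρ, W.toSubmodule = ⊥ ∨ W.toSubmodule = ⊤)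
    (ih : ∀ S : Subgroup Q, ∀ W : Subrepresentation (ρ.comp S.subtype),
      finrank (ZMod p) W.toSubmodule < finrank (ZMod p) V → Real W.toRepresentation) : Real ρ := by
  obtain ⟨A, hAn, hAc, hAC⟩ :=
    Cfsg.Agent.Lib.NormalAbelian.exists_normal_abelian_selfCentralizing (G := Q)
  have hA : ∀ a ∈ A, ∀ b ∈ A, a * b = b * a := fun a ha b hb =>
    congrArg Subtype.val (hAc.is_comm.comm ⟨a, ha⟩ ⟨b, hb⟩)
  have hpA : ¬ p ∣ Nat.card A := fun h => hQ (h.trans (Subgroup.card_subgroup_dvd_card A))
  by_cases hid : ∀ e ∈ alg ρ A, e * e = e → e = 0 ∨ e = 1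
  · exact real_of_field hρ A hA hAC hpA hid
  · push Not at hid
    obtain ⟨e, he1, he2, he3, he4⟩ := hid
    exact real_of_idempotent hirr A hA he1 he2 he3 he4 ih

theorem real_of_quotient {F : Type u} [Group F] {Q : Type u} [Group Q]
    {V : Type v} [AddCommGroup V] [Module (ZMod p) V]
    {ρ : Representation (ZMod p) F V} {ρ' : Representation (ZMod p) Q V} (f : F →* Q)
    (hf : ∀ g, ρ' (f g) = ρ g) (h : Real ρ') : Real ρ := by
  obtain ⟨v, B, hB⟩ := h
  refine ⟨v, B, fun g hg x y => ?_⟩
  have h1 := hB (f g) (by rw [hf]; exact hg) x y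
  rwa [hf] at h1

theorem exists_kerLift {F : Type u} [Group F] {V : Type v} [AddCommGroup V] [Module (ZMod p) V]
    (ρ : Representation (ZMod p) F V) : ∃ ρ' : Representation (ZMod p) (F ⧸ ρ.ker) V,
      Function.Injective ρ' ∧ ∀ g : F, ρ' (QuotientGroup.mk' ρ.ker g) = ρ g := by
  refine ⟨QuotientGroup.lift ρ.ker ρ le_rfl, ?_, fun g => QuotientGroup.lift_mk' _ _ g⟩
  rw [injective_iff_map_eq_one]
  intro a
  induction a using QuotientGroup.induction_on with
  | H g =>
    intro hg
    rw [QuotientGroup.lift_mk'] at hg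
    exact (QuotientGroup.eq_one_iff g).2 hg

/-- **Real vectors exist for nilpotent `p'`-groups.** -/
theorem real_of_nilpotent (n : ℕ) : ∀ (F : Type u) [Group F] [Finite F] [Group.IsNilpotent F]
    (V : Type v) [AddCommGroup V] [Module (ZMod p) V] [Finite V] (ρ : Representation (ZMod p) F V),
    ¬ p ∣ Nat.card F → finrank (ZMod p) V ≤ n → Real ρ := by
  induction n using Nat.strong_induction_on with
  | _ n ih =>
    intro F _ _ _ V _ _ _ ρ hp hn
    have hfd : Module.Finite (ZMod p) V := Module.Finite.of_finite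
    rcases subsingleton_or_nontrivial V with hV | hV
    · exact real_of_subsingleton ρ
    have hpos : 0 < finrank (ZMod p) V := finrank_pos
    -- proper subrepresentations of subgroups
    by_cases hirr : ∀ W : Subrepresentation ρ, W.toSubmodule = ⊥ ∨ W.toSubmodule = ⊤
    · -- pass to a faithful quotient
      obtain ⟨ρ', hρ', hmk⟩ : ∃ ρ' : Representation (ZMod p) (F ⧸ ρ.ker) V,
          Function.Injective ρ' ∧ ∀ g : F, ρ' (QuotientGroup.mk' ρ.ker g) = ρ g :=
        exists_kerLift ρ
      have hQ : ¬ p ∣ Nat.card (F ⧸ ρ.ker) :=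
        fun h => hp (h.trans (Subgroup.card_quotient_dvd_card _))
      have hnil : Group.IsNilpotent (F ⧸ ρ.ker) := inferInstance
      have hirr' : ∀ W : Subrepresentation ρ', W.toSubmodule = ⊥ ∨ W.toSubmodule = ⊤ := by
        intro W
        refine hirr ⟨W.toSubmodule, fun g v hv => ?_⟩
        have h1 := W.apply_mem_toSubmodule (QuotientGroup.mk' ρ.ker g) hv
        rwa [hmk] at h1
      refine real_of_quotient (QuotientGroup.mk' ρ.ker) hmk
        (real_of_faithful ρ' hρ' hQ hirr' fun S W hW => ?_)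
      exact ih (finrank (ZMod p) W.toSubmodule) (hW.trans_le hn) S W.toSubmodule
            W.toRepresentation (fun h => hQ (h.trans (Subgroup.card_subgroup_dvd_card S))) le_rfl
    · push Not at hirr
      obtain ⟨W, hW0, hW1⟩ := hirr
      have hne : NeZero (Nat.card F : ZMod p) := ⟨by
        rw [Ne, ZMod.natCast_eq_zero_iff]
        exact hp⟩
      obtain ⟨W', hc⟩ := exists_isCompl W
      have hc' : IsCompl W.toSubmodule W'.toSubmodule := by
        constructor
        · rw [Submodule.disjoint_def]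
          intro x hx hx'
          have h1 : x ∈ W ⊓ W' := ⟨hx, hx'⟩
          rw [hc.inf_eq_bot] at h1
          exact (Submodule.mem_bot (ZMod p)).1 h1
        · rw [codisjoint_iff, eq_top_iff]
          intro x _
          have h1 : x ∈ W ⊔ W' := by rw [hc.sup_eq_top]; trivial
          exact h1
      have h1 : finrank (ZMod p) W.toSubmodule < finrank (ZMod p) V := Submodule.finrank_lt hW1
      have h2 : finrank (ZMod p) W'.toSubmodule < finrank (ZMod p) V := by
        refine Submodule.finrank_lt ?_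
        intro h
        apply hW0
        have := hc'.inf_eq_bot
        rwa [h, inf_top_eq] at this
      exact real_of_isCompl W W' hc'
        (ih _ (h1.trans_le hn) F W.toSubmodule W.toRepresentation hp le_rfl)
        (ih _ (h2.trans_le hn) F W'.toSubmodule W'.toRepresentation hp le_rfl)

end Cfsg.Agent.H448.RealMain
end

-- part: H448/KGVNil
section
/-!
# `k(GV) ≤ |V|` for nilpotent `G` (for S4990)
-/

set_option autoImplicit false

namespace Cfsg.Agent.H448.KGVNil

open Module Cfsg.Agent.H448.RealVec Cfsg.Agent.H448.RealMain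

universe u

/-- **`k(GV) ≤ |V|` for nilpotent `G`.** -/
theorem card_classes_le {X : Type u} [Group X] [Finite X] (p : ℕ) [Fact p.Prime] (V : Subgroup X)
    [V.Normal] (hVexp : ∀ v ∈ V, v ^ p = 1) (hidx : ¬ p ∣ V.index)
    (hself : Subgroup.centralizer (V : Set X) = V) (hnil : Group.IsNilpotent (X ⧸ V)) :
    Nat.card (ConjClasses X) ≤ Nat.card V := by
  have hpp : p.Prime := Fact.out
  have hab : ∀ a ∈ V, ∀ b ∈ V, a * b = b * a := by
    intro a ha b hb
    rw [← hself] at hb
    exact Subgroup.mem_centralizer_iff.1 hb a ha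
  have hpg : IsPGroup p V := fun v => ⟨1, by
    rw [pow_one]
    exact Subtype.ext (hVexp v v.2)⟩
  have hcop : (Nat.card V).Coprime V.index := by
    obtain ⟨k, hk⟩ := IsPGroup.iff_card.1 hpg
    rw [hk]
    exact Nat.Coprime.pow_left k ((Nat.Prime.coprime_iff_not_dvd hpp).2 hidx)
  obtain ⟨G, hG⟩ := Subgroup.exists_right_complement'_of_coprime hcop
  have hGnil : Group.IsNilpotent G := by
    have := hnil
    exact Group.nilpotent_of_mulEquiv hG.symm.QuotientMulEquiv
  have hcard : ¬ p ∣ Nat.card G := by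
    rw [← hG.symm.index_eq_card]
    exact hidx
  obtain ⟨E, i1, i2, i3, e, ρ, he, hρ⟩ := Cfsg.Agent.H718.exists_conjRep p G V hab hVexp
    (fun h _ u hu => Subgroup.Normal.conj_mem inferInstance u hu h)
  obtain ⟨s, B, hB⟩ := real_of_nilpotent (p := p) (finrank (ZMod p) E) G E ρ hcard le_rfl
  have hstab : ∀ h (hh : h ∈ G), h * (e s : X) * h⁻¹ = (e s : X) → ρ ⟨h, hh⟩ s = s := by
    intro h hh h1
    apply e.injective
    apply Subtype.ext
    rw [hρ]
    exact h1
  have he0 : e 0 = 1 := by
    have h1 := he 0 0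
    rw [add_zero] at h1
    exact left_eq_mul.1 h1
  classical
  let β : X → X → ZMod p := fun x y =>
    if hx : x ∈ V then if hy : y ∈ V then B.B (e.symm ⟨x, hx⟩) (e.symm ⟨y, hy⟩) else 0 else 0
  have hβ : ∀ x (hx : x ∈ V) y (hy : y ∈ V), β x y = B.B (e.symm ⟨x, hx⟩) (e.symm ⟨y, hy⟩) := by
    intro x hx y hy
    show (if hx : x ∈ V then if hy : y ∈ V then B.B (e.symm ⟨x, hx⟩) (e.symm ⟨y, hy⟩) else 0
      else 0) = _
    rw [dif_pos hx, dif_pos hy]
  have hsymm : ∀ x (hx : x ∈ V) y (hy : y ∈ V), e.symm ⟨x * y, V.mul_mem hx hy⟩ =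
      e.symm ⟨x, hx⟩ + e.symm ⟨y, hy⟩ := by
    intro x hx y hy
    apply e.injective
    rw [he, Equiv.apply_symm_apply, Equiv.apply_symm_apply, Equiv.apply_symm_apply]
    rfl
  have hconj : ∀ h (hh : h ∈ G) x (hx : x ∈ V),
      e.symm ⟨h * x * h⁻¹, Subgroup.Normal.conj_mem inferInstance x hx h⟩ =
        ρ ⟨h, hh⟩ (e.symm ⟨x, hx⟩) := by
    intro h hh x hx
    apply e.injective
    rw [Equiv.apply_symm_apply]
    apply Subtype.ext
    rw [hρ, Equiv.apply_symm_apply]
  refine Cfsg.Agent.S4959.result p V hVexp hidx hself G hG (e s : X) (e s).2 V le_rfl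
    (fun h _ _ u hu => Subgroup.Normal.conj_mem inferInstance u hu h) ?_ β ?_ ?_ ?_ ?_
  · intro h hh _ h1
    have h2 : h ∈ V := by
      rw [← hself, Subgroup.mem_centralizer_iff]
      intro u hu
      have h3 := h1 u hu
      exact (mul_inv_eq_iff_eq_mul.1 h3).symm
    have h3 : h ∈ V ⊓ G := ⟨h2, hh⟩
    rw [hG.disjoint.eq_bot] at h3
    exact Subgroup.mem_bot.1 h3
  · intro u hu u' hu' w hw
    rw [hβ _ (V.mul_mem hu hu') _ hw, hβ _ hu _ hw, hβ _ hu' _ hw, hsymm _ hu _ hu', B.add_left]
  · intro u hu w hw w' hw'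
    rw [hβ _ hu _ (V.mul_mem hw hw'), hβ _ hu _ hw, hβ _ hu _ hw', hsymm _ hw _ hw', B.add_right]
  · intro h hh h1 u hu w hw
    rw [hβ _ (Subgroup.Normal.conj_mem inferInstance u hu h) _
      (Subgroup.Normal.conj_mem inferInstance w hw h), hβ _ hu _ hw, hconj h hh u hu,
      hconj h hh w hw]
    exact hB _ (hstab h hh h1) _ _
  · intro u hu h1
    have h2 : e.symm ⟨u, hu⟩ = 0 := by
      apply B.nondeg
      intro y
      have h3 := h1 (e y) (e y).2
      rw [hβ _ hu _ (e y).2] at h3
      have h4 : e.symm ⟨(e y : X), (e y).2⟩ = y := by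
        rw [Subtype.coe_eta, Equiv.symm_apply_apply]
      rwa [h4] at h3
    have h3 := congrArg e h2
    rw [Equiv.apply_symm_apply, he0] at h3
    exact congrArg Subtype.val h3

end Cfsg.Agent.H448.KGVNil
end

-- part: H448/Star
section
/-!
# `k(GV) ≤ 3^(m-1) |V|` for solvable `G`, `|V| = p^m` (for S4990)
-/

set_option autoImplicit false

namespace Cfsg.Agent.H448.Star

open Module Cfsg.Agent.H553

universe u

/-- A faithful representation gives a faithful matrix representation. -/
theorem exists_gl {G : Type*} [Group G] {k : Type*} [Field k] {E : Type*} [AddCommGroup E]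
    [Module k E] [Module.Finite k E] {m : ℕ} (hm : finrank k E = m) (ρ : Representation k G E)
    (hρ : Function.Injective ρ) :
    ∃ f : G →* Matrix.GeneralLinearGroup (Fin m) k, Function.Injective f := by
  let b : Basis (Fin m) k E := (finBasis k E).reindex (finCongr hm)
  let e : Module.End k E ≃* Matrix (Fin m) (Fin m) k :=
    (LinearMap.toMatrixAlgEquiv b).toRingEquiv.toMulEquiv
  refine ⟨(Units.mapEquiv e).toMonoidHom.comp (MonoidHom.toHomUnits ρ), ?_⟩
  intro x y hxy
  apply hρ
  have h1 : MonoidHom.toHomUnits ρ x = MonoidHom.toHomUnits ρ y :=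
    (Units.mapEquiv e).injective hxy
  exact congrArg Units.val h1

/-- A finite group with a faithful complex representation of degree at most `m`, `m ≥ 1`. -/
theorem nb_of_rep {G : Type u} [Group G] [Finite G] [Group.IsSolvable G] {W : Type u}
    [AddCommGroup W] [Module ℂ W] [FiniteDimensional ℂ W] (τ : Representation ℂ G W)
    (hτ : Function.Injective τ) {m : ℕ} (hW : finrank ℂ W ≤ m) : SB.NB G (3 ^ (m - 1)) := by
  rcases Nat.eq_zero_or_pos (finrank ℂ W) with h0 | h0
  · have hsub : Subsingleton W := finrank_zero_iff.1 h0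
    have hG : Subsingleton G := by
      constructor
      intro a b
      apply hτ
      ext w
      exact Subsingleton.elim _ _
    refine ⟨⊥, inferInstance, inferInstance, ?_⟩
    refine SB.SubB.of_card ?_
    have h1 : Nat.card (G ⧸ (⊥ : Subgroup G)) ≤ 1 := by
      have : Subsingleton (G ⧸ (⊥ : Subgroup G)) := Quotient.instSubsingletonQuotient _
      rw [Nat.card_of_subsingleton 1]
    exact h1.trans (Nat.one_le_pow _ _ (by norm_num))
  · have h1 : SB.NB G (3 ^ (finrank ℂ W - 1)) :=
      Quasi.bound_all (finrank ℂ W) h0 G W τ hτ rfl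
    exact h1.mono (Nat.pow_le_pow_right (by norm_num) (by omega))

theorem star {X : Type u} [Group X] [Finite X] [hsolv : Group.IsSolvable X] (p : ℕ) [Fact p.Prime]
    (V : Subgroup X) [V.Normal] (hVexp : ∀ v ∈ V, v ^ p = 1) (hidx : ¬ p ∣ V.index)
    (hself : Subgroup.centralizer (V : Set X) = V) (m : ℕ)
    (hcard : Nat.card V = p ^ m) : Nat.card (ConjClasses X) ≤ 3 ^ (m - 1) * p ^ m := by
  have hpp : p.Prime := Fact.out
  have hab : ∀ a ∈ V, ∀ b ∈ V, a * b = b * a := by
    intro a ha b hb
    rw [← hself] at hb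
    exact Subgroup.mem_centralizer_iff.1 hb a ha
  have hcop : (Nat.card V).Coprime V.index := by
    rw [hcard]
    exact Nat.Coprime.pow_left m ((Nat.Prime.coprime_iff_not_dvd hpp).2 hidx)
  obtain ⟨G, hG⟩ := Subgroup.exists_right_complement'_of_coprime hcop
  have hcardG : ¬ p ∣ Nat.card G := by
    rw [← hG.symm.index_eq_card]
    exact hidx
  obtain ⟨E, i1, i2, i3, e, ρ, he, hρ⟩ := Cfsg.Agent.H718.exists_conjRep p G V hab hVexp
    (fun h _ u hu => Subgroup.Normal.conj_mem inferInstance u hu h)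
  have hfin : Module.Finite (ZMod p) E := Module.Finite.of_finite
  have hEc : Nat.card E = p ^ m := by rw [← hcard]; exact Nat.card_congr e
  have hrank : finrank (ZMod p) E = m := by
    have h1 : Nat.card E = Nat.card (ZMod p) ^ finrank (ZMod p) E := Module.natCard_eq_pow_finrank
    rw [hEc, Nat.card_zmod] at h1
    exact (Nat.pow_right_injective hpp.two_le h1).symm
  have hinj : Function.Injective ρ := by
    rw [injective_iff_map_eq_one]
    intro g hg
    have h2 : (g : X) ∈ V := by
      rw [← hself, Subgroup.mem_centralizer_iff]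
      intro u hu
      have h3 := hρ g (e.symm ⟨u, hu⟩)
      rw [hg, Module.End.one_apply, Equiv.apply_symm_apply] at h3
      exact (mul_inv_eq_iff_eq_mul.1 h3.symm).symm
    have h3 : (g : X) ∈ V ⊓ G := ⟨h2, g.2⟩
    rw [hG.disjoint.eq_bot] at h3
    exact Subtype.ext (Subgroup.mem_bot.1 h3)
  obtain ⟨f, hf⟩ := exists_gl hrank ρ hinj
  obtain ⟨W, j1, j2, j3, τ, hτ, hW⟩ := Cfsg.Agent.H324.Hall.exists_lift hpp hcardG f hf
  obtain ⟨N, hN, hNnil, hNB⟩ := nb_of_rep τ hτ hW
  -- the projection onto `G`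
  let π : X →* G := (hG.symm.QuotientMulEquiv).toMonoidHom.comp (QuotientGroup.mk' V)
  have hπ : Function.Surjective π :=
    (hG.symm.QuotientMulEquiv).surjective.comp (QuotientGroup.mk'_surjective V)
  have hker : π.ker = V := by
    ext x
    rw [MonoidHom.mem_ker]
    change hG.symm.QuotientMulEquiv (QuotientGroup.mk' V x) = 1 ↔ _
    rw [map_eq_one_iff _ (hG.symm.QuotientMulEquiv).injective]
    exact QuotientGroup.eq_one_iff x
  obtain ⟨K, hKdef⟩ : ∃ K : Subgroup X, K = N.comap π := ⟨_, rfl⟩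
  have hKn : K.Normal := by rw [hKdef]; infer_instance
  have hKm : ∀ x, x ∈ K ↔ π x ∈ N := by
    intro x
    rw [hKdef]
    rfl
  have hVK : V ≤ K := by
    rw [hKdef, ← hker]
    exact MonoidHom.ker_le_comap π N
  have h1 : Nat.card (ConjClasses K) ≤ Nat.card V := by
    have hV' : (V.subgroupOf K).Normal := inferInstance
    have h2 : Nat.card (V.subgroupOf K) = Nat.card V :=
      Nat.card_congr (Subgroup.subgroupOfEquivOfLe hVK).toEquiv
    rw [← h2]
    refine KGVNil.card_classes_le p (V.subgroupOf K) ?_ ?_ ?_ ?_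
    · intro v hv
      exact Subtype.ext (hVexp v hv)
    · intro h
      exact hidx (h.trans (Subgroup.relIndex_dvd_index_of_normal V K))
    · apply le_antisymm
      · intro x hx
        rw [Subgroup.mem_subgroupOf, ← hself, Subgroup.mem_centralizer_iff]
        intro v hv
        exact congrArg Subtype.val
          (Subgroup.mem_centralizer_iff.1 hx ⟨v, hVK hv⟩ (Subgroup.mem_subgroupOf.2 hv))
      · intro x hx
        rw [Subgroup.mem_centralizer_iff]
        intro v hv
        exact Subtype.ext (hab v (Subgroup.mem_subgroupOf.1 hv) x (Subgroup.mem_subgroupOf.1 hx))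
    · let g : K →* N := (π.comp K.subtype).codRestrict N (fun x => (hKm x).1 x.2)
      have hg : Function.Surjective g := by
        rintro ⟨y, hy⟩
        obtain ⟨x, rfl⟩ := hπ y
        refine ⟨⟨x, (hKm x).2 hy⟩, ?_⟩
        rfl
      have hgk : g.ker = V.subgroupOf K := by
        ext x
        rw [MonoidHom.mem_ker, Subgroup.mem_subgroupOf, ← hker, MonoidHom.mem_ker]
        constructor
        · intro h
          exact congrArg Subtype.val h
        · intro h
          exact Subtype.ext h
      have hnn := hNnil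
      exact Group.nilpotent_of_mulEquiv
        ((QuotientGroup.quotientKerEquivOfSurjective g hg).symm.trans
          (QuotientGroup.quotientMulEquivOfEq hgk))
  have h2 : Nat.card (ConjClasses (X ⧸ K)) ≤ 3 ^ (m - 1) := by
    have h3 := hNB ⊤
    rw [KClass.congr Subgroup.topEquiv] at h3
    let g : X →* G ⧸ N := (QuotientGroup.mk' N).comp π
    have hg : Function.Surjective g := (QuotientGroup.mk'_surjective N).comp hπ
    have hgk : g.ker = K := by
      ext x
      rw [MonoidHom.mem_ker, hKm]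
      exact QuotientGroup.eq_one_iff (π x)
    rw [← KClass.congr ((QuotientGroup.quotientKerEquivOfSurjective g hg).symm.trans
          (QuotientGroup.quotientMulEquivOfEq hgk))]
    exact h3
  calc Nat.card (ConjClasses X) ≤ Nat.card (ConjClasses K) * Nat.card (ConjClasses (X ⧸ K)) :=
        KClass.le_mul K
    _ ≤ p ^ m * 3 ^ (m - 1) := Nat.mul_le_mul (h1.trans hcard.le) h2
    _ = _ := mul_comm _ _

end Cfsg.Agent.H448.Star
end

-- part: H448/TheoremB
section
/-!
# `k(X) ≤ 3^(d-1) p^d` for solvable `X` with `O_{p'}(X) = 1`, `|X|_p = p^d` (for S4990)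
-/

set_option autoImplicit false

namespace Cfsg.Agent.H448.TheoremB

open Cfsg Cfsg.Agent.H553 Cfsg.Agent.Lib.Cores
open scoped commutatorElement

universe u

/-- The bottom layer: `k(K) ≤ 3^(m-1) |N|`. -/
theorem layer {X : Type u} [Group X] [Finite X] [hsolv : Group.IsSolvable X] (p : ℕ) [Fact p.Prime]
    (N : Subgroup X) [N.Normal] (hN : IsPGroup p N) (hidx : ¬ p ∣ N.index) (n : ℕ)
    (hn : Nat.card N = p ^ n) (hcent : Subgroup.centralizer (N : Set X) ≤ N) :
    Nat.card (ConjClasses X) ≤ 3 ^ (n - 1) * p ^ n := by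
  have hpp : p.Prime := Fact.out
  obtain ⟨Φ, hΦ⟩ : ∃ Φ : Subgroup X, Φ = (frattini N).map N.subtype := ⟨_, rfl⟩
  have hΦn : Φ.Normal := by rw [hΦ]; infer_instance
  have hΦN : Φ ≤ N := by
    rw [hΦ]
    exact Subgroup.map_subtype_le _
  have hmem : ∀ x : N, x ∈ frattini N → (x : X) ∈ Φ := by
    intro x hx
    rw [hΦ]
    exact ⟨x, hx, rfl⟩
  set V : Subgroup (X ⧸ Φ) := N.map (QuotientGroup.mk' Φ) with hV
  have hVn : V.Normal := Subgroup.Normal.map inferInstance _ (QuotientGroup.mk'_surjective Φ)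
  have hVp : IsPGroup p V := hN.map _
  obtain ⟨m, hm⟩ := IsPGroup.iff_card.1 hVp
  have hcomap : V.comap (QuotientGroup.mk' Φ) = N := by
    rw [hV, Subgroup.comap_map_eq, QuotientGroup.ker_mk', sup_eq_left.2 hΦN]
  have hcard : Nat.card Φ * Nat.card V = Nat.card N := by
    have h1 := Subgroup.card_mul_index Φ
    have h2 := Subgroup.card_mul_index N
    have h3 := Subgroup.card_mul_index V
    have h4 : V.index = N.index := by
      rw [← hcomap, Subgroup.index_comap_of_surjective _ (QuotientGroup.mk'_surjective Φ)]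
    have h5 : Φ.index = Nat.card (X ⧸ Φ) := rfl
    rw [h5, ← h3, h4, ← h2] at h1
    have h6 : 0 < N.index := Nat.pos_of_ne_zero Subgroup.index_ne_zero_of_finite
    exact Nat.eq_of_mul_eq_mul_right h6 (by rw [← h1, mul_assoc])
  have hstar : Nat.card (ConjClasses (X ⧸ Φ)) ≤ 3 ^ (m - 1) * p ^ m := by
    refine Star.star p V ?_ ?_ ?_ m hm
    · rintro _ ⟨x, hx, rfl⟩
      rw [← map_pow]
      refine (QuotientGroup.eq_one_iff _).2 ?_
      exact hmem (⟨x, hx⟩ ^ p) (Lib.FrattiniPGroup.pow_mem_frattini hN _)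
    · rw [← Subgroup.index_comap_of_surjective V (QuotientGroup.mk'_surjective Φ), hcomap]
      exact hidx
    · -- the centralizer
      have h1 : IsPGroup p (sectionKernel N ((frattini N).map N.subtype)) :=
        PLocal.SectionFrattini.isPGroup_sectionKernel_frattini N hN hcent
      have hNS : N ≤ sectionKernel N ((frattini N).map N.subtype) := by
        intro x hx
        rw [PLocal.SectionFrattini.mem_sectionKernel]
        intro k hk
        rw [← hΦ]
        have h2 : ⁅(⟨k, hk⟩ : N), (⟨x, hx⟩ : N)⁆ ∈ frattini N :=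
          Lib.FrattiniPGroup.commutator_le_frattini hN
            (Subgroup.commutator_mem_commutator (Subgroup.mem_top _) (Subgroup.mem_top _))
        exact hmem _ h2
      have hSN : sectionKernel N ((frattini N).map N.subtype) ≤ N := by
        rw [← Subgroup.relIndex_eq_one]
        obtain ⟨k, hk⟩ := IsPGroup.iff_card.1 h1
        have h2 : N.relIndex (sectionKernel N ((frattini N).map N.subtype)) ∣ p ^ k := by
          rw [← hk]
          exact Subgroup.relIndex_dvd_card _ _
        have h3 : ¬ p ∣ N.relIndex (sectionKernel N ((frattini N).map N.subtype)) := fun h =>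
          hidx (h.trans (Subgroup.relIndex_dvd_index_of_normal _ _))
        obtain ⟨j, _, hj⟩ := (Nat.dvd_prime_pow hpp).1 h2
        rcases Nat.eq_zero_or_pos j with rfl | hj0
        · rw [hj, pow_zero]
        · exact absurd (hj ▸ dvd_pow_self p hj0.ne') h3
      apply Subgroup.comap_injective (QuotientGroup.mk'_surjective Φ)
      rw [hcomap]
      subst hΦ
      exact le_antisymm hSN hNS
  have hne : m ≤ n := by
    have h1 : p ^ m ∣ p ^ n := by rw [← hm, ← hn, ← hcard]; exact Dvd.intro_left _ rfl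
    exact (Nat.pow_dvd_pow_iff_le_right hpp.one_lt).1 h1
  calc Nat.card (ConjClasses X) ≤ Nat.card (ConjClasses Φ) * Nat.card (ConjClasses (X ⧸ Φ)) :=
        KClass.le_mul Φ
    _ ≤ Nat.card Φ * (3 ^ (m - 1) * p ^ m) := Nat.mul_le_mul KClass.le_card hstar
    _ = 3 ^ (m - 1) * (Nat.card Φ * p ^ m) := by ring
    _ = 3 ^ (m - 1) * p ^ n := by rw [← hm, hcard, hn]
    _ ≤ 3 ^ (n - 1) * p ^ n :=
        Nat.mul_le_mul_right _ (Nat.pow_le_pow_right (by norm_num) (by omega))

/-- **`k(X) ≤ 3^(d-1) p^d` for solvable `X` with `O_{p'}(X) = 1` and `|X|_p = p^d`.** -/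
theorem card_classes_le (p : ℕ) [Fact p.Prime] (c : ℕ) : ∀ (X : Type u) [Group X] [Finite X],
    Nat.card X ≤ c → Group.IsSolvable X → pPrimeCore p X = ⊥ → 1 < Nat.card X →
    Nat.card (ConjClasses X) ≤
      3 ^ ((Nat.card X).factorization p - 1) * p ^ ((Nat.card X).factorization p) := by
  have hpp : p.Prime := Fact.out
  induction c using Nat.strong_induction_on with
  | _ c ih =>
  intro X _ _ hc hsolv hbot h1
  set N := pCore p X with hNdef
  have hNp : IsPGroup p N := pCore_isPGroup p
  have hNn : N.Normal := Lib.Cores.pCore_normal p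
  have hcent : Subgroup.centralizer (N : Set X) ≤ N :=
    OddOrderLocal.RankTwoSolvable.centralizer_pCore_le hbot
  have hN1 : N ≠ ⊥ := by
    intro h
    rw [h] at hcent
    have h2 : Subgroup.centralizer ((⊥ : Subgroup X) : Set X) = ⊤ := by
      rw [eq_top_iff]
      intro x _
      rw [Subgroup.mem_centralizer_iff]
      intro y hy
      rw [Subgroup.coe_bot, Set.mem_singleton_iff] at hy
      rw [hy, one_mul, mul_one]
    rw [h2] at hcent
    have h3 : Nat.card X = 1 := by
      rw [← Subgroup.card_top]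
      exact Subgroup.card_eq_one.2 (le_bot_iff.1 hcent)
    omega
  obtain ⟨n, hn⟩ := IsPGroup.iff_card.1 hNp
  have hn0 : 1 ≤ n := by
    rcases Nat.eq_zero_or_pos n with h | h
    · exfalso
      apply hN1
      rw [← Subgroup.card_eq_one, hn, h, pow_zero]
    · exact h
  -- the quotient
  let f : X →* (X ⧸ N) ⧸ pPrimeCore p (X ⧸ N) :=
    (QuotientGroup.mk' (pPrimeCore p (X ⧸ N))).comp (QuotientGroup.mk' N)
  have hf : Function.Surjective f :=
    (QuotientGroup.mk'_surjective _).comp (QuotientGroup.mk'_surjective _)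
  have hfm : ∀ x, x ∈ f.ker ↔ QuotientGroup.mk' N x ∈ pPrimeCore p (X ⧸ N) := fun x =>
    QuotientGroup.eq_one_iff (QuotientGroup.mk' N x)
  have hNK : N ≤ f.ker := by
    intro x hx
    rw [hfm]
    have : QuotientGroup.mk' N x = 1 := (QuotientGroup.eq_one_iff x).2 hx
    rw [this]
    exact Subgroup.one_mem _
  have hKcomap : f.ker = (pPrimeCore p (X ⧸ N)).comap (QuotientGroup.mk' N) := by
    ext x
    exact hfm x
  have hcop : (Nat.card (pPrimeCore p (X ⧸ N))).Coprime p := pPrimeCore_coprime p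
  have hcop' : ¬ p ∣ Nat.card (pPrimeCore p (X ⧸ N)) := fun h =>
    (Nat.Prime.coprime_iff_not_dvd hpp).1 hcop.symm h
  have hrel : N.relIndex f.ker = Nat.card (pPrimeCore p (X ⧸ N)) := by
    let g : f.ker →* pPrimeCore p (X ⧸ N) :=
      ((QuotientGroup.mk' N).comp f.ker.subtype).codRestrict _ (fun x => (hfm x).1 x.2)
    have hg : Function.Surjective g := by
      rintro ⟨y, hy⟩
      obtain ⟨x, rfl⟩ := QuotientGroup.mk'_surjective N y
      exact ⟨⟨x, (hfm x).2 hy⟩, rfl⟩
    have hgk : g.ker = N.subgroupOf f.ker := by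
      ext x
      rw [MonoidHom.mem_ker, Subgroup.mem_subgroupOf]
      constructor
      · intro h
        exact (QuotientGroup.eq_one_iff (x : X)).1 (congrArg Subtype.val h)
      · intro h
        exact Subtype.ext ((QuotientGroup.eq_one_iff (x : X)).2 h)
    rw [Subgroup.relIndex, ← hgk]
    exact Nat.card_congr (QuotientGroup.quotientKerEquivOfSurjective g hg).toEquiv
  have hKcard : Nat.card f.ker = p ^ n * Nat.card (pPrimeCore p (X ⧸ N)) := by
    rw [← hn, ← hrel]
    have h4 := Subgroup.card_mul_index (N.subgroupOf f.ker)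
    have h5 : Nat.card (N.subgroupOf f.ker) = Nat.card N :=
      Nat.card_congr (Subgroup.subgroupOfEquivOfLe hNK).toEquiv
    rw [h5] at h4
    exact h4.symm
  have hK : Nat.card (ConjClasses f.ker) ≤ 3 ^ (n - 1) * p ^ n := by
    have hNn' : (N.subgroupOf f.ker).Normal := inferInstance
    refine layer p (N.subgroupOf f.ker) ?_ ?_ n ?_ ?_
    · exact hNp.of_equiv (Subgroup.subgroupOfEquivOfLe hNK).symm
    · change ¬ p ∣ N.relIndex f.ker
      rw [hrel]
      intro h
      exact (Nat.Prime.coprime_iff_not_dvd hpp).1 hcop.symm h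
    · rw [← hn]
      exact Nat.card_congr (Subgroup.subgroupOfEquivOfLe hNK).toEquiv
    · intro x hx
      rw [Subgroup.mem_subgroupOf]
      apply hcent
      rw [Subgroup.mem_centralizer_iff]
      intro v hv
      exact congrArg Subtype.val
        (Subgroup.mem_centralizer_iff.1 hx ⟨v, hNK hv⟩ (Subgroup.mem_subgroupOf.2 hv))
  have hcardX : Nat.card X = Nat.card f.ker * Nat.card ((X ⧸ N) ⧸ pPrimeCore p (X ⧸ N)) := by
    rw [← Subgroup.card_mul_index f.ker]
    congr 1
    exact Nat.card_congr (QuotientGroup.quotientKerEquivOfSurjective f hf).toEquiv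
  have hkX : Nat.card (ConjClasses X) ≤ Nat.card (ConjClasses f.ker) *
      Nat.card (ConjClasses ((X ⧸ N) ⧸ pPrimeCore p (X ⧸ N))) := by
    refine (KClass.le_mul f.ker).trans_eq ?_
    rw [KClass.congr (QuotientGroup.quotientKerEquivOfSurjective f hf)]
  have hfac : (Nat.card X).factorization p =
      n + (Nat.card ((X ⧸ N) ⧸ pPrimeCore p (X ⧸ N))).factorization p := by
    rw [hcardX, hKcard, Nat.factorization_mul, Nat.factorization_mul]
    · rw [Finsupp.add_apply, Finsupp.add_apply, Nat.factorization_pow, Finsupp.smul_apply,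
        hpp.factorization_self, smul_eq_mul, mul_one, Nat.factorization_eq_zero_of_not_dvd hcop',
        add_zero]
    · exact pow_ne_zero _ hpp.ne_zero
    · exact Nat.card_pos.ne'
    · exact mul_ne_zero (pow_ne_zero _ hpp.ne_zero) Nat.card_pos.ne'
    · exact Nat.card_pos.ne'
  have hsol : Group.IsSolvable ((X ⧸ N) ⧸ pPrimeCore p (X ⧸ N)) := inferInstance
  rcases Nat.lt_or_ge 1 (Nat.card ((X ⧸ N) ⧸ pPrimeCore p (X ⧸ N))) with h2 | h2
  · have hlt : Nat.card ((X ⧸ N) ⧸ pPrimeCore p (X ⧸ N)) < Nat.card X := by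
      rw [hcardX, hKcard]
      have h4 : 1 < p ^ n := Nat.one_lt_pow (by omega) hpp.one_lt
      have h5 : 0 < Nat.card (pPrimeCore p (X ⧸ N)) := Nat.card_pos
      have h6 : 1 < p ^ n * Nat.card (pPrimeCore p (X ⧸ N)) := by nlinarith
      nlinarith
    have h3 := ih _ (hlt.trans_le hc) ((X ⧸ N) ⧸ pPrimeCore p (X ⧸ N)) le_rfl hsol
      (pPrimeCore_quotient_pPrimeCore p) h2
    rw [hfac]
    set e := (Nat.card ((X ⧸ N) ⧸ pPrimeCore p (X ⧸ N))).factorization p with he
    calc Nat.card (ConjClasses X) ≤ (3 ^ (n - 1) * p ^ n) * (3 ^ (e - 1) * p ^ e) :=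
          hkX.trans (Nat.mul_le_mul hK h3)
      _ = 3 ^ (n - 1 + (e - 1)) * p ^ (n + e) := by ring
      _ ≤ 3 ^ (n + e - 1) * p ^ (n + e) :=
          Nat.mul_le_mul_right _ (Nat.pow_le_pow_right (by norm_num) (by omega))
  · have h3 : Nat.card ((X ⧸ N) ⧸ pPrimeCore p (X ⧸ N)) = 1 := by
      have := Nat.card_pos (α := (X ⧸ N) ⧸ pPrimeCore p (X ⧸ N))
      omega
    rw [hfac, h3, Nat.factorization_one, Finsupp.coe_zero, Pi.zero_apply, add_zero]
    refine hkX.trans ?_
    have h4 : Nat.card (ConjClasses ((X ⧸ N) ⧸ pPrimeCore p (X ⧸ N))) ≤ 1 := by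
      rw [← h3]
      exact KClass.le_card
    calc _ ≤ (3 ^ (n - 1) * p ^ n) * 1 := Nat.mul_le_mul hK h4
      _ = _ := mul_one _

end Cfsg.Agent.H448.TheoremB
end

-- part: S4990
section
set_option autoImplicit false
open Cfsg

namespace Cfsg.Agent.S4990

/-- Let G be a finite solvable group, p a prime, M a maximal ideal of the algebraic integers containing p, and B a p-block of G of positive defect d. Then B contains at most 3^{d−1}·p^d irreducible complex characters. -/
theorem result {G : Type*} [Group G] [Finite G] (hsolv : Group.IsSolvable G) (p : ℕ) [Fact p.Prime] (M : Ideal Cfsg.AlgInt) (hM : Cfsg.IsPModular p M) (B : Set (Cfsg.IrrCharacter G)) (hB : Cfsg.IsPBlock M B) (hd : 0 < Cfsg.blockDefect p B) : Set.ncard B ≤ 3 ^ (Cfsg.blockDefect p B - 1) * p ^ Cfsg.blockDefect p B := by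
  have hpp : p.Prime := Fact.out
  obtain ⟨D, hD⟩ := Cfsg.Agent.H592.Defect.exists_defectGroup p hM hB
  have h1 := Cfsg.Agent.S0908.result p M hM B hB D hD
  obtain ⟨X, _, _, hX, hbot, hcard, hle⟩ :=
    Cfsg.Agent.H448.KBlock.reduction p M hM (Nat.card G) G le_rfl hsolv B hB D hD
  have h2 : (Nat.card X).factorization p = Cfsg.blockDefect p B := by
    rw [h1] at hcard
    exact (Nat.pow_right_injective hpp.two_le hcard).symm
  have h3 : 1 < Nat.card X := by
    by_contra hcon
    have h4 : Nat.card X = 1 := by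
      have := Nat.card_pos (α := X)
      omega
    rw [h4, Nat.factorization_one, Finsupp.coe_zero, Pi.zero_apply] at h2
    omega
  have h4 := Cfsg.Agent.H448.TheoremB.card_classes_le p (Nat.card X) X le_rfl hX hbot h3
  rw [h2] at h4
  exact hle.trans h4

end Cfsg.Agent.S4990
end
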