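import Mathlib
import Cfsg.Agent.S0857
import Cfsg.Agent.Characters.Core
import Cfsg.Agent.Characters.Clifford
import Cfsg.Agent.OddOrderCharacters.PF9.SectionModule
import Cfsg.Prelude.Def_Blocks
import Cfsg.Agent.S0854
import Cfsg.Agent.S0174
import Cfsg.Prelude.Def_Solvable
import Cfsg.Agent.Blocks.Knorr
import Cfsg.Agent.S0583
import Cfsg.Statements.S4993
import Cfsg.Agent.S0008
set_option linter.all false

-- part: H726/PrimAvg
section
/-!
# Average dimension of fixed spaces (Neumann; Isaacs–Keller–Meierfrankenfeld–Moretó), solvable case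

`ρ` is an irreducible representation of the finite solvable group `H` on a finite vector space `E`
of dimension at least two over `ZMod p`: the average over `h ∈ H` of the dimension of the fixed space of `ρ h`
is at most half the dimension of `E` (`two_mul_sum_le`).
-/

set_option autoImplicit false
set_option linter.unusedSectionVars false
set_option linter.style.haveILetI false

namespace Cfsg.Agent.H726.PrimAvg

open Module

section av

variable {k E H : Type*} [Field k] [AddCommGroup E] [Module k E] [Group H]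

/-- The vectors fixed by a subgroup. -/
def fixS (ρ : H →* Module.End k E) (K : Subgroup H) : Submodule k E where
  carrier := {v | ∀ x ∈ K, ρ x v = v}
  add_mem' := by
    intro a b ha hb x hx
    rw [map_add, ha x hx, hb x hx]
  zero_mem' := by
    intro x hx
    rw [map_zero]
  smul_mem' := by
    intro c a ha x hx
    rw [map_smul, ha x hx]

theorem mem_fixS (ρ : H →* Module.End k E) (K : Subgroup H) (v : E) :
    v ∈ fixS ρ K ↔ ∀ x ∈ K, ρ x v = v := Iff.rfl

theorem fixS_anti (ρ : H →* Module.End k E) {K K' : Subgroup H} (h : K ≤ K') : fixS ρ K' ≤ fixS ρ K :=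
  fun _ hv x hx => hv x (h hx)

theorem mem_fixS_sup (ρ : H →* Module.End k E) {K K' : Subgroup H} {v : E} (h : v ∈ fixS ρ K)
    (h' : v ∈ fixS ρ K') : v ∈ fixS ρ (K ⊔ K') := by
  let S : Subgroup H :=
    { carrier := {x | ρ x v = v}
      mul_mem' := by
        intro a b ha hb
        change ρ (a * b) v = v
        rw [map_mul, Module.End.mul_apply, hb, ha]
      one_mem' := by
        change ρ 1 v = v
        rw [map_one, Module.End.one_apply]
      inv_mem' := by
        intro a ha
        change ρ a⁻¹ v = v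
        have h1 : ρ a v = v := ha
        conv_lhs => rw [← h1]
        rw [← Module.End.mul_apply, ← map_mul, inv_mul_cancel, map_one, Module.End.one_apply] }
  have hS : K ⊔ K' ≤ S := sup_le (fun x hx => h x hx) (fun x hx => h' x hx)
  exact fun x hx => hS hx

/-- The fixed vectors of an element. -/
def fixE (ρ : H →* Module.End k E) (x : H) : Submodule k E where
  carrier := {v | ρ x v = v}
  add_mem' := by
    intro a b ha hb
    change ρ x (a + b) = a + b
    rw [map_add, ha, hb]
  zero_mem' := map_zero _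
  smul_mem' := by
    intro c a ha
    change ρ x (c • a) = c • a
    rw [map_smul, ha]

theorem mem_fixE (ρ : H →* Module.End k E) (x : H) (v : E) : v ∈ fixE ρ x ↔ ρ x v = v := Iff.rfl

open Classical in
/-- The average of a subgroup. -/
noncomputable def av [Finite H] (ρ : H →* Module.End k E) (K : Subgroup H) : Module.End k E :=
  letI := Fintype.ofFinite K
  (Nat.card K : k)⁻¹ • ∑ x : K, ρ x

theorem av_apply [Finite H] (ρ : H →* Module.End k E) (K : Subgroup H) [Fintype K] (v : E) :
    av ρ K v = (Nat.card K : k)⁻¹ • ∑ x : K, ρ x v := by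
  classical
  unfold av
  rw [LinearMap.smul_apply, LinearMap.sum_apply]
  congr 1
  apply Finset.sum_congr
  · ext x; simp
  · intros; rfl

theorem av_mem [Finite H] (ρ : H →* Module.End k E) (K : Subgroup H) (v : E) : av ρ K v ∈ fixS ρ K := by
  classical
  let _ := Fintype.ofFinite K
  intro y hy
  rw [av_apply, map_smul, map_sum]
  congr 1
  refine Fintype.sum_equiv (Equiv.mulLeft (⟨y, hy⟩ : K)) _ _ ?_
  intro x
  rw [Equiv.coe_mulLeft, Subgroup.coe_mul, map_mul, Module.End.mul_apply]

theorem av_fix [Finite H] (ρ : H →* Module.End k E) (K : Subgroup H) (hK : (Nat.card K : k) ≠ 0) {v : E}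
    (hv : v ∈ fixS ρ K) : av ρ K v = v := by
  classical
  let _ := Fintype.ofFinite K
  rw [av_apply, Finset.sum_congr rfl (fun x _ => hv x.1 x.2), Finset.sum_const, Finset.card_univ,
    ← Nat.card_eq_fintype_card, ← Nat.cast_smul_eq_nsmul k, smul_smul, inv_mul_cancel₀ hK, one_smul]

/-- Conjugation as a bijection between subgroups. -/
def conjE {K K' : Subgroup H} {g : H} (h : ∀ x, x ∈ K ↔ g * x * g⁻¹ ∈ K') : K ≃ K' where
  toFun x := ⟨g * x * g⁻¹, (h _).1 x.2⟩
  invFun y := ⟨g⁻¹ * y * g, (h _).2 (by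
    have h1 : g * (g⁻¹ * (y : H) * g) * g⁻¹ = y := by group
    rw [h1]; exact y.2)⟩
  left_inv x := by
    apply Subtype.ext
    change g⁻¹ * (g * (x : H) * g⁻¹) * g = x
    group
  right_inv y := by
    apply Subtype.ext
    change g * (g⁻¹ * (y : H) * g) * g⁻¹ = y
    group

theorem av_conj [Finite H] (ρ : H →* Module.End k E) (K K' : Subgroup H) (g : H)
    (h : ∀ x, x ∈ K ↔ g * x * g⁻¹ ∈ K') (v : E) : ρ g (av ρ K v) = av ρ K' (ρ g v) := by
  classical
  let _ := Fintype.ofFinite K
  let _ := Fintype.ofFinite K'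
  have hcard : Nat.card K = Nat.card K' := Nat.card_congr (conjE h)
  rw [av_apply, av_apply, map_smul, map_sum, hcard]
  congr 1
  refine Fintype.sum_equiv (conjE h) _ _ ?_
  intro x
  change ρ g (ρ x v) = ρ (g * x * g⁻¹) (ρ g v)
  rw [← Module.End.mul_apply, ← Module.End.mul_apply, ← map_mul, ← map_mul]
  congr 2
  group

/-- `av` commutes with elements commuting with the subgroup. -/
theorem av_comm [Finite H] (ρ : H →* Module.End k E) (K : Subgroup H) (g : H)
    (h : ∀ x ∈ K, g * x = x * g) (v : E) : ρ g (av ρ K v) = av ρ K (ρ g v) := by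
  refine av_conj ρ K K g (fun x => ?_) v
  constructor
  · intro hx
    rw [h x hx, mul_assoc, mul_inv_cancel, mul_one]
    exact hx
  · intro hx
    have h1 := h _ hx
    have h2 : g * x * g⁻¹ = x := by
      have h3 : g * (g * x * g⁻¹) = g * x := by
        rw [h1]; group
      exact mul_left_cancel h3
    rw [← h2]
    exact hx

theorem av_av_comm [Finite H] (ρ : H →* Module.End k E) (K K' : Subgroup H)
    (h : ∀ x ∈ K, ∀ y ∈ K', x * y = y * x) (v : E) : av ρ K (av ρ K' v) = av ρ K' (av ρ K v) := by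
  classical
  let _ := Fintype.ofFinite K
  rw [av_apply ρ K, av_apply ρ K v, map_smul, map_sum]
  congr 1
  refine Finset.sum_congr rfl fun x _ => ?_
  exact av_comm ρ K' x (fun y hy => h x x.2 y hy) v

end av

section blocks

variable {k E ι : Type*} [Field k] [AddCommGroup E] [Module k E] [Fintype ι] [DecidableEq ι]

/-- A complete family of orthogonal projections. -/
structure Blk (e : ι → Module.End k E) : Prop where
  orth : ∀ i j, i ≠ j → ∀ v, e i (e j v) = 0
  sum : ∀ v, ∑ i, e i v = v

/-- Vectors killed by the projections in `S`. -/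
def zs (e : ι → Module.End k E) (S : Finset ι) : Submodule k E where
  carrier := {v | ∀ i ∈ S, e i v = 0}
  add_mem' := by
    intro a b ha hb i hi
    rw [map_add, ha i hi, hb i hi, add_zero]
  zero_mem' := by
    intro i hi
    rw [map_zero]
  smul_mem' := by
    intro c a ha i hi
    rw [map_smul, ha i hi, smul_zero]

/-- The image of a projection. -/
def us (e : ι → Module.End k E) (i : ι) : Submodule k E where
  carrier := {v | e i v = v}
  add_mem' := by
    intro a b ha hb
    change e i (a + b) = a + b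
    rw [map_add, ha, hb]
  zero_mem' := map_zero _
  smul_mem' := by
    intro c a ha
    change e i (c • a) = c • a
    rw [map_smul, ha]

/-- The fixed vectors of an endomorphism. -/
def fx (f : Module.End k E) : Submodule k E where
  carrier := {v | f v = v}
  add_mem' := by
    intro a b ha hb
    change f (a + b) = a + b
    rw [map_add, ha, hb]
  zero_mem' := map_zero _
  smul_mem' := by
    intro c a ha
    change f (c • a) = c • a
    rw [map_smul, ha]

theorem mem_zs (e : ι → Module.End k E) (S : Finset ι) (v : E) : v ∈ zs e S ↔ ∀ i ∈ S, e i v = 0 := Iff.rfl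

theorem mem_us (e : ι → Module.End k E) (i : ι) (v : E) : v ∈ us e i ↔ e i v = v := Iff.rfl

theorem mem_fx (f : Module.End k E) (v : E) : v ∈ fx f ↔ f v = v := Iff.rfl

theorem Blk.idem {e : ι → Module.End k E} (h : Blk e) (i : ι) (v : E) : e i (e i v) = e i v := by
  conv_rhs => rw [← h.sum v, map_sum]
  rw [Finset.sum_eq_single i]
  · intro j _ hj
    exact h.orth i j (Ne.symm hj) v
  · intro hi
    exact absurd (Finset.mem_univ i) hi

theorem disjoint_us {e : ι → Module.End k E} {S : Finset ι} {i : ι} (X : Submodule k E) (hi : i ∈ S) :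
    (X ⊓ zs e S) ⊓ (X ⊓ us e i) = ⊥ := by
  rw [eq_bot_iff]
  rintro v ⟨⟨_, h1⟩, _, h2⟩
  rw [Submodule.mem_bot, ← (mem_us e i v).1 h2, (mem_zs e S v).1 h1 i hi]

theorem Blk.sup_eq {e : ι → Module.End k E} (h : Blk e) {S : Finset ι} {i : ι} (hi : i ∉ S) (X : Submodule k E)
    (hX : ∀ v ∈ X, e i v ∈ X) :
    X ⊓ zs e S = (X ⊓ zs e (insert i S)) ⊔ (X ⊓ us e i) := by
  apply le_antisymm
  · rintro v ⟨hv, hz⟩
    rw [SetLike.mem_coe, mem_zs] at hz
    refine Submodule.mem_sup.2 ⟨v - e i v, ⟨X.sub_mem hv (hX v hv), ?_⟩, e i v, ⟨hX v hv, h.idem i v⟩,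
      sub_add_cancel _ _⟩
    rw [SetLike.mem_coe, mem_zs]
    intro j hj
    rcases Finset.mem_insert.1 hj with rfl | hj
    · rw [map_sub, h.idem, sub_self]
    · have hne : j ≠ i := fun hh => hi (hh ▸ hj)
      rw [map_sub, hz j hj, h.orth j i hne, sub_zero]
  · refine sup_le ?_ ?_
    · rintro v ⟨hv, hz⟩
      exact ⟨hv, fun j hj => hz j (Finset.mem_insert_of_mem hj)⟩
    · rintro v ⟨hv, hz⟩
      refine ⟨hv, fun j hj => ?_⟩
      have hne : j ≠ i := fun hh => hi (hh ▸ hj)
      rw [← (mem_us e i v).1 hz, h.orth j i hne]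

theorem Blk.finrank_eq [FiniteDimensional k E] {e : ι → Module.End k E} (h : Blk e) {S : Finset ι} {i : ι} (hi : i ∉ S) (X : Submodule k E)
    (hX : ∀ v ∈ X, e i v ∈ X) :
    finrank k (X ⊓ zs e S : Submodule k E) =
      finrank k (X ⊓ zs e (insert i S) : Submodule k E) + finrank k (X ⊓ us e i : Submodule k E) := by
  have h1 := Submodule.finrank_sup_add_finrank_inf_eq (X ⊓ zs e (insert i S)) (X ⊓ us e i)
  rw [disjoint_us X (Finset.mem_insert_self i S), ← h.sup_eq hi X hX, finrank_bot, add_zero] at h1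
  exact h1

/-- The part moved by the permutation. -/
theorem Blk.moved [FiniteDimensional k E] {e : ι → Module.End k E} (h : Blk e) (σ : Equiv.Perm ι) (f : Module.End k E)
    (hf : ∀ i v, f (e i v) = e (σ i) (f v)) :
    2 * finrank k (fx f ⊓ zs e (Finset.univ.filter fun i => σ i = i) : Submodule k E) ≤
      finrank k (zs e (Finset.univ.filter fun i => σ i = i)) := by
  classical
  let rep : ι → ι := fun i => (Quotient.mk (Equiv.Perm.SameCycle.setoid σ) i).out
  have hrep : ∀ i, σ.SameCycle (rep i) i := fun i =>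
    Quotient.exact (Quotient.out_eq (Quotient.mk (Equiv.Perm.SameCycle.setoid σ) i))
  have hrep2 : ∀ i j, σ.SameCycle i j → rep i = rep j := by
    intro i j hij
    have : (Quotient.mk (Equiv.Perm.SameCycle.setoid σ) i) = Quotient.mk (Equiv.Perm.SameCycle.setoid σ) j :=
      Quotient.sound hij
    change (Quotient.mk (Equiv.Perm.SameCycle.setoid σ) i).out = (Quotient.mk (Equiv.Perm.SameCycle.setoid σ) j).out
    rw [this]
  set F : Finset ι := Finset.univ.filter fun i => σ i = i with hF
  -- vanishing propagates along cycles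
  have hprop : ∀ v ∈ fx f, ∀ i j, σ.SameCycle i j → e i v = 0 → e j v = 0 := by
    intro v hv i j hij hi
    have h1 : ∀ a, e (σ a) v = 0 ↔ e a v = 0 := by
      intro a
      have h2 := hf a v
      rw [(mem_fx f v).1 hv] at h2
      constructor
      · intro h3
        rw [h3] at h2
        -- `f` is injective on the image
        by_contra h4
        -- iterate
        have h5 : ∀ n : ℕ, e ((σ ^ n) (σ a)) v = 0 := by
          intro n
          induction n with
          | zero => simpa using h3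
          | succ n ih =>
            have h6 := hf ((σ ^ n) (σ a)) v
            rw [ih, map_zero, (mem_fx f v).1 hv] at h6
            rw [pow_succ', Equiv.Perm.mul_apply]
            exact h6.symm
        obtain ⟨n, hn, hn2⟩ := (isOfFinOrder_of_finite σ).exists_pow_eq_one
        have h7 := h5 (n - 1)
        have h8 : (σ ^ (n - 1)) (σ a) = a := by
          rw [← Equiv.Perm.mul_apply, ← pow_succ, Nat.sub_add_cancel hn, hn2, Equiv.Perm.one_apply]
        rw [h8] at h7
        exact h4 h7
      · intro h3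
        rw [← h2, h3, map_zero]
    obtain ⟨n, rfl⟩ := hij
    have h9 : ∀ n : ℤ, ∀ b, e ((σ ^ n) b) v = 0 ↔ e b v = 0 := by
      intro n
      induction n using Int.induction_on with
      | zero => intro b; simp
      | succ n ih =>
        intro b
        rw [zpow_add_one, Equiv.Perm.mul_apply, ih, h1]
      | pred n ih =>
        intro b
        have := h1 (σ⁻¹ b)
        rw [show σ (σ⁻¹ b) = b from σ.apply_symm_apply b] at this
        rw [zpow_sub_one, Equiv.Perm.mul_apply, ih, ← this]
    exact (h9 n i).2 hi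
  -- the two halves
  set T : Finset ι := Finset.univ.filter fun i => rep i = i with hT
  set Tc : Finset ι := Finset.univ.filter fun i => rep i ≠ i with hTc
  have hd1 : (fx f ⊓ zs e F) ⊓ zs e (F ∪ T) = ⊥ := by
    rw [eq_bot_iff]
    rintro v ⟨⟨h1, _⟩, h2⟩
    rw [Submodule.mem_bot, ← h.sum v]
    refine Finset.sum_eq_zero fun i _ => ?_
    refine hprop v h1 (rep i) i (hrep i) ?_
    refine h2 (rep i) (Finset.mem_union_right _ ?_)
    rw [hT, Finset.mem_filter]
    exact ⟨Finset.mem_univ _, hrep2 _ _ (hrep i)⟩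
  have hd2 : (fx f ⊓ zs e F) ⊓ zs e (F ∪ Tc) = ⊥ := by
    rw [eq_bot_iff]
    rintro v ⟨⟨h1, _⟩, h2⟩
    rw [Submodule.mem_bot, ← h.sum v]
    refine Finset.sum_eq_zero fun i _ => ?_
    by_cases hi : σ i = i
    · exact h2 i (Finset.mem_union_left _ (by rw [hF, Finset.mem_filter]; exact ⟨Finset.mem_univ _, hi⟩))
    · by_cases hr : rep i = i
      · have h3 : σ.SameCycle (σ i) i := ⟨-1, by simp⟩
        refine hprop v h1 (σ i) i h3 (h2 (σ i) (Finset.mem_union_right _ ?_))
        rw [hTc, Finset.mem_filter]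
        refine ⟨Finset.mem_univ _, fun h4 => hi ?_⟩
        rw [← h4, hrep2 _ _ h3, hr]
      · exact h2 i (Finset.mem_union_right _ (by rw [hTc, Finset.mem_filter]; exact ⟨Finset.mem_univ _, hr⟩))
  have hle : ∀ S, zs e (F ∪ S) ≤ zs e F := fun S v hv i hi => hv i (Finset.mem_union_left _ hi)
  have hsup : zs e F ≤ zs e (F ∪ T) ⊔ zs e (F ∪ Tc) := by
    intro v hv
    refine Submodule.mem_sup.2 ⟨∑ i ∈ Finset.univ.filter (fun i => ¬ rep i = i), e i v, ?_,
      ∑ i ∈ Finset.univ.filter (fun i => rep i = i), e i v, ?_, ?_⟩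
    · intro j hj
      rw [map_sum]
      refine Finset.sum_eq_zero fun i hi => ?_
      by_cases hij : j = i
      · subst hij
        rcases Finset.mem_union.1 hj with hj | hj
        · rw [h.idem]; exact hv j hj
        · rw [hT, Finset.mem_filter] at hj
          rw [Finset.mem_filter] at hi
          exact absurd hj.2 hi.2
      · exact h.orth j i hij v
    · intro j hj
      rw [map_sum]
      refine Finset.sum_eq_zero fun i hi => ?_
      by_cases hij : j = i
      · subst hij
        rcases Finset.mem_union.1 hj with hj | hj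
        · rw [h.idem]; exact hv j hj
        · rw [hTc, Finset.mem_filter] at hj
          rw [Finset.mem_filter] at hi
          exact absurd hi.2 hj.2
      · exact h.orth j i hij v
    · rw [add_comm, Finset.sum_filter_add_sum_filter_not]
      exact h.sum v
  have e1 := Submodule.finrank_sup_add_finrank_inf_eq (fx f ⊓ zs e F) (zs e (F ∪ T))
  have e2 := Submodule.finrank_sup_add_finrank_inf_eq (fx f ⊓ zs e F) (zs e (F ∪ Tc))
  rw [hd1, finrank_bot, add_zero] at e1
  rw [hd2, finrank_bot, add_zero] at e2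
  have e3 := Submodule.finrank_mono (sup_le (inf_le_right : fx f ⊓ zs e F ≤ zs e F) (hle T))
  have e4 := Submodule.finrank_mono (sup_le (inf_le_right : fx f ⊓ zs e F ≤ zs e F) (hle Tc))
  have e5 := Submodule.finrank_mono hsup
  have e6 := Submodule.finrank_add_le_finrank_add_finrank (zs e (F ∪ T)) (zs e (F ∪ Tc))
  omega

/-- **Counting.** -/
theorem Blk.count [FiniteDimensional k E] {e : ι → Module.End k E} (h : Blk e) (σ : Equiv.Perm ι) {μ : Type*} [Fintype μ]
    (f : μ → Module.End k E) (hf : ∀ m i v, f m (e i v) = e (σ i) (f m v))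
    (hp : ∀ i, σ i = i →
      2 * ∑ m, finrank k (fx (f m) ⊓ us e i : Submodule k E) ≤ Fintype.card μ * finrank k (us e i)) :
    2 * ∑ m, finrank k (fx (f m)) ≤ Fintype.card μ * finrank k E := by
  classical
  set F : Finset ι := Finset.univ.filter fun i => σ i = i with hF
  have hX : ∀ m, ∀ i ∈ F, ∀ v ∈ fx (f m), e i v ∈ fx (f m) := by
    intro m i hi v hv
    rw [hF, Finset.mem_filter] at hi
    rw [mem_fx, hf, hi.2, (mem_fx _ v).1 hv]
  have key : ∀ S : Finset ι, S ⊆ F →
      2 * ∑ m, finrank k (fx (f m) ⊓ zs e S : Submodule k E) ≤ Fintype.card μ * finrank k (zs e S) →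
      2 * ∑ m, finrank k (fx (f m) ⊓ zs e ∅ : Submodule k E) ≤ Fintype.card μ * finrank k (zs e ∅) := by
    intro S
    induction S using Finset.induction_on with
    | empty => intro _ h1; exact h1
    | insert i S hi ih =>
      intro hSF h1
      apply ih (fun j hj => hSF (Finset.mem_insert_of_mem hj))
      have hiF : i ∈ F := hSF (Finset.mem_insert_self i S)
      have h2 : ∀ m, finrank k (fx (f m) ⊓ zs e S : Submodule k E) =
          finrank k (fx (f m) ⊓ zs e (insert i S) : Submodule k E) +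
          finrank k (fx (f m) ⊓ us e i : Submodule k E) := fun m => h.finrank_eq hi _ (hX m i hiF)
      have h3 : finrank k (zs e S) = finrank k (zs e (insert i S)) + finrank k (us e i) := by
        have := h.finrank_eq hi ⊤ (fun v _ => Submodule.mem_top)
        rwa [top_inf_eq, top_inf_eq, top_inf_eq] at this
      rw [Finset.sum_congr rfl (fun m _ => h2 m), Finset.sum_add_distrib, h3, mul_add, mul_add]
      have hiF2 : σ i = i := by
        rw [hF, Finset.mem_filter] at hiF
        exact hiF.2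
      exact add_le_add h1 (hp i hiF2)
  have htop : zs e ∅ = ⊤ := by
    rw [eq_top_iff]
    intro v _ i hi
    exact absurd hi (Finset.notMem_empty i)
  have h4 := key F (Finset.Subset.refl F) (by
    rw [Finset.mul_sum, ← Finset.card_univ, ← smul_eq_mul (Finset.univ.card), ← Finset.sum_const]
    exact Finset.sum_le_sum fun m _ => h.moved σ (f m) (hf m))
  rw [htop, finrank_top] at h4
  rwa [Finset.sum_congr rfl (fun m _ => by rw [inf_top_eq])] at h4

end blocks

section main

variable {k E H : Type*} [Field k] [AddCommGroup E] [Module k E] [Group H] [Finite H]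

/-- Subgroups of `M` maximal with non-zero fixed vectors. -/
def IsMx (ρ : H →* Module.End k E) (M K : Subgroup H) : Prop :=
  K ≤ M ∧ fixS ρ K ≠ ⊥ ∧ ∀ K' ≤ M, K < K' → fixS ρ K' = ⊥

theorem IsMx.inf_eq {ρ : H →* Module.End k E} {M K K' : Subgroup H} (h : IsMx ρ M K) (h' : IsMx ρ M K')
    (hne : K ≠ K') {v : E} (hv : v ∈ fixS ρ K) (hv' : v ∈ fixS ρ K') : v = 0 := by
  have h1 : fixS ρ (K ⊔ K') = ⊥ := by
    by_cases hlt : K < K ⊔ K'
    · exact h.2.2 _ (sup_le h.1 h'.1) hlt
    · have h2 : K ⊔ K' = K := (le_antisymm le_sup_left (not_lt_iff_le_imp_ge.1 hlt le_sup_left)).symm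
      have h3 : K' ≤ K := by rw [← h2]; exact le_sup_right
      have h4 : K' < K := lt_of_le_of_ne h3 (Ne.symm hne)
      have h5 := h'.2.2 K h.1 h4
      exact absurd h5 h.2.1
  have h6 := mem_fixS_sup ρ hv hv'
  rw [h1] at h6
  exact (Submodule.mem_bot k).1 h6

theorem IsMx.conj {ρ : H →* Module.End k E} {M K : Subgroup H} [hM : M.Normal] (h : IsMx ρ M K) (g : H) :
    IsMx ρ M (K.map (MulAut.conj g).toMonoidHom) := by
  have hfix : ∀ (x : H) (L : Subgroup H), (∃ v ∈ fixS ρ L, v ≠ 0) →
      ∃ v ∈ fixS ρ (L.map (MulAut.conj x).toMonoidHom), v ≠ 0 := by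
    rintro x L ⟨v, hv, hv0⟩
    refine ⟨ρ x v, ?_, ?_⟩
    · rintro y ⟨z, hz, rfl⟩
      change ρ (x * z * x⁻¹) (ρ x v) = ρ x v
      rw [← Module.End.mul_apply, ← map_mul, mul_assoc (x * z), inv_mul_cancel, mul_one, map_mul,
        Module.End.mul_apply, hv z hz]
    · intro h0
      apply hv0
      have : ρ x⁻¹ (ρ x v) = v := by
        rw [← Module.End.mul_apply, ← map_mul, inv_mul_cancel, map_one, Module.End.one_apply]
      rw [← this, h0, map_zero]
  have hne : ∀ L : Subgroup H, fixS ρ L ≠ ⊥ ↔ ∃ v ∈ fixS ρ L, v ≠ 0 := fun L => Submodule.ne_bot_iff _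
  refine ⟨?_, ?_, ?_⟩
  · rintro _ ⟨z, hz, rfl⟩
    exact hM.conj_mem z (h.1 hz) g
  · rw [hne]
    exact hfix g K ((hne K).1 h.2.1)
  · intro K' hK' hlt
    by_contra hcon
    have h1 := hfix g⁻¹ K' ((hne K').1 hcon)
    rw [← hne] at h1
    apply h1
    apply h.2.2
    · rintro _ ⟨z, hz, rfl⟩
      exact hM.conj_mem z (hK' hz) g⁻¹
    · have h2 : K = (K.map (MulAut.conj g).toMonoidHom).map (MulAut.conj g⁻¹).toMonoidHom := by
        rw [Subgroup.map_map]
        conv_lhs => rw [← Subgroup.map_id K]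
        congr 1
        ext x
        simp [mul_assoc]
      rw [h2]
      exact (Subgroup.map_lt_map_iff_of_injective (MulAut.conj g⁻¹).injective).2 hlt

/-- The permutation of the maximal subgroups induced by conjugation. -/
def permMx (ρ : H →* Module.End k E) (M : Subgroup H) [M.Normal] (g : H) :
    Equiv.Perm {K : Subgroup H // IsMx ρ M K} where
  toFun K := ⟨K.1.map (MulAut.conj g).toMonoidHom, K.2.conj g⟩
  invFun K := ⟨K.1.map (MulAut.conj g⁻¹).toMonoidHom, K.2.conj g⁻¹⟩
  left_inv K := by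
    apply Subtype.ext
    change (K.1.map (MulAut.conj g).toMonoidHom).map (MulAut.conj g⁻¹).toMonoidHom = K.1
    rw [Subgroup.map_map]
    conv_rhs => rw [← Subgroup.map_id K.1]
    congr 1
    ext x
    simp [mul_assoc]
  right_inv K := by
    apply Subtype.ext
    change (K.1.map (MulAut.conj g⁻¹).toMonoidHom).map (MulAut.conj g).toMonoidHom = K.1
    rw [Subgroup.map_map]
    conv_rhs => rw [← Subgroup.map_id K.1]
    congr 1
    ext x
    simp [mul_assoc]

theorem permMx_apply (ρ : H →* Module.End k E) (M : Subgroup H) [M.Normal] (g : H)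
    (K : {K : Subgroup H // IsMx ρ M K}) : (permMx ρ M g K).1 = K.1.map (MulAut.conj g).toMonoidHom := rfl

theorem av_perm (ρ : H →* Module.End k E) (M : Subgroup H) [M.Normal] (g : H)
    (K : {K : Subgroup H // IsMx ρ M K}) (v : E) :
    ρ g (av ρ K.1 v) = av ρ (permMx ρ M g K).1 (ρ g v) := by
  refine av_conj ρ _ _ g (fun x => ?_) v
  rw [permMx_apply]
  constructor
  · intro hx
    exact ⟨x, hx, rfl⟩
  · rintro ⟨y, hy, hyx⟩
    have h1 : g * y * g⁻¹ = g * x * g⁻¹ := hyx
    have h2 : y = x := by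
      have h3 := mul_right_cancel h1
      exact mul_left_cancel h3
    rw [← h2]
    exact hy

theorem blk (ρ : H →* Module.End k E) (M : Subgroup H) [M.Normal] (hcomm : ∀ a ∈ M, ∀ b ∈ M, a * b = b * a)
    (hM : (Nat.card M : k) ≠ 0)
    (hirr : ∀ W : Submodule k E, (∀ g, ∀ v ∈ W, ρ g v ∈ W) → W = ⊥ ∨ W = ⊤) [Nontrivial E]
    [Fintype {K : Subgroup H // IsMx ρ M K}] :
    Blk (fun K : {K : Subgroup H // IsMx ρ M K} => av ρ K.1) := by
  classical
  have hKc : ∀ K : {K : Subgroup H // IsMx ρ M K}, (Nat.card K.1 : k) ≠ 0 := by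
    intro K h0
    apply hM
    obtain ⟨c, hc⟩ := Subgroup.card_dvd_of_le K.2.1
    rw [hc, Nat.cast_mul, h0, zero_mul]
  have horth : ∀ K K' : {K : Subgroup H // IsMx ρ M K}, K ≠ K' → ∀ v, av ρ K.1 (av ρ K'.1 v) = 0 := by
    intro K K' hne v
    refine K.2.inf_eq K'.2 (fun h => hne (Subtype.ext h)) (av_mem ρ K.1 _) ?_
    rw [av_av_comm ρ K.1 K'.1 (fun x hx y hy => hcomm x (K.2.1 hx) y (K'.2.1 hy))]
    exact av_mem ρ K'.1 _
  refine ⟨horth, ?_⟩
  let W : Submodule k E :=
    { carrier := {v | ∑ K : {K : Subgroup H // IsMx ρ M K}, av ρ K.1 v = v}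
      add_mem' := by
        intro a b ha hb
        have ha' : ∑ K : {K : Subgroup H // IsMx ρ M K}, av ρ K.1 a = a := ha
        have hb' : ∑ K : {K : Subgroup H // IsMx ρ M K}, av ρ K.1 b = b := hb
        change ∑ K : {K : Subgroup H // IsMx ρ M K}, av ρ K.1 (a + b) = a + b
        rw [Finset.sum_congr rfl (fun K _ => map_add _ a b), Finset.sum_add_distrib, ha', hb']
      zero_mem' := by
        change ∑ K : {K : Subgroup H // IsMx ρ M K}, av ρ K.1 0 = 0
        exact Finset.sum_eq_zero fun K _ => map_zero _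
      smul_mem' := by
        intro c a ha
        have ha' : ∑ K : {K : Subgroup H // IsMx ρ M K}, av ρ K.1 a = a := ha
        change ∑ K : {K : Subgroup H // IsMx ρ M K}, av ρ K.1 (c • a) = c • a
        rw [Finset.sum_congr rfl (fun K _ => map_smul _ c a), ← Finset.smul_sum, ha'] }
  have hWinv : ∀ g, ∀ v ∈ W, ρ g v ∈ W := by
    intro g v hv
    have hv' : ∑ K : {K : Subgroup H // IsMx ρ M K}, av ρ K.1 v = v := hv
    change ∑ K : {K : Subgroup H // IsMx ρ M K}, av ρ K.1 (ρ g v) = ρ g v
    conv_rhs => rw [← hv', map_sum]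
    symm
    refine Fintype.sum_equiv (permMx ρ M g) _ _ ?_
    intro K
    exact av_perm ρ M g K v
  have hWtop : W = ⊤ := by
    refine (hirr W hWinv).resolve_left ?_
    -- a maximal subgroup exists
    have hne : ({K : Subgroup H | K ≤ M ∧ fixS ρ K ≠ ⊥} : Set (Subgroup H)).Nonempty := by
      refine ⟨⊥, bot_le, ?_⟩
      rw [Submodule.ne_bot_iff]
      obtain ⟨v, hv⟩ := exists_ne (0 : E)
      refine ⟨v, ?_, hv⟩
      intro x hx
      rw [Subgroup.mem_bot.1 hx, map_one, Module.End.one_apply]
    obtain ⟨K, hK⟩ := (Set.toFinite {K : Subgroup H | K ≤ M ∧ fixS ρ K ≠ ⊥}).exists_maximal hne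
    have hKm : IsMx ρ M K := by
      refine ⟨hK.prop.1, hK.prop.2, fun K' hK' hlt => ?_⟩
      by_contra hcon
      exact not_le_of_gt hlt (hK.le_of_ge ⟨hK', hcon⟩ hlt.le)
    obtain ⟨v, hv, hv0⟩ := (Submodule.ne_bot_iff _).1 hKm.2.1
    refine (Submodule.ne_bot_iff _).2 ⟨v, ?_, hv0⟩
    change ∑ K : {K : Subgroup H // IsMx ρ M K}, av ρ K.1 v = v
    have hKv : av ρ K v = v := av_fix ρ K (hKc ⟨K, hKm⟩) hv
    rw [Finset.sum_eq_single (⟨K, hKm⟩ : {K : Subgroup H // IsMx ρ M K})]
    · exact hKv
    · intro K' _ hne'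
      rw [← hKv]
      exact horth K' ⟨K, hKm⟩ hne' v
    · intro h
      exact absurd (Finset.mem_univ _) h
  intro v
  have : v ∈ W := by rw [hWtop]; exact Submodule.mem_top
  exact this

/-- **The average over a coset of an abelian normal subgroup.** -/
theorem coset_avg (ρ : H →* Module.End k E) (M : Subgroup H) [hMn : M.Normal]
    (hcomm : ∀ a ∈ M, ∀ b ∈ M, a * b = b * a) (hM : (Nat.card M : k) ≠ 0)
    (hirr : ∀ W : Submodule k E, (∀ g, ∀ v ∈ W, ρ g v ∈ W) → W = ⊥ ∨ W = ⊤)
    (hfix : fixS ρ M = ⊥) [Nontrivial E] [FiniteDimensional k E] [Fintype M] (g : H) :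
    2 * ∑ m : M, finrank k (fx (ρ (g * m))) ≤ Fintype.card M * finrank k E := by
  classical
  let _ := Fintype.ofFinite {K : Subgroup H // IsMx ρ M K}
  have hB := blk ρ M hcomm hM hirr
  refine hB.count (permMx ρ M g) (fun m : M => ρ (g * m)) ?_ ?_
  · intro m K v
    refine av_conj ρ _ _ (g * m) (fun x => ?_) v
    rw [permMx_apply]
    constructor
    · intro hx
      refine ⟨x, hx, ?_⟩
      change g * x * g⁻¹ = g * m * x * (g * m)⁻¹
      have h1 := hcomm m m.2 x (K.2.1 hx)
      rw [mul_inv_rev, mul_assoc g (m : H) x, h1]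
      group
    · rintro ⟨y, hy, hyx⟩
      have h1 : g * y * g⁻¹ = g * m * x * (g * m)⁻¹ := hyx
      have h2 : y = (m : H) * x * (m : H)⁻¹ := by
        have h3 : g * y * g⁻¹ = g * ((m : H) * x * (m : H)⁻¹) * g⁻¹ := by rw [h1]; group
        exact mul_left_cancel (mul_right_cancel h3)
      have h4 : x = (m : H)⁻¹ * y * m := by rw [h2]; group
      have h5 := hcomm m m.2 y (K.2.1 hy)
      have h6 : x = y := by rw [h4, mul_assoc, ← h5, inv_mul_cancel_left]
      rw [h6]
      exact hy
  · intro K _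
    have hKM : K.1 ≠ M := by
      intro h
      apply K.2.2.1
      rw [h, hfix]
    obtain ⟨m0, hm0, hm0K⟩ := SetLike.exists_of_lt (lt_of_le_of_ne K.2.1 hKM)
    have husK : ∀ v ∈ us (fun K : {K : Subgroup H // IsMx ρ M K} => av ρ K.1) K, v ∈ fixS ρ K.1 := by
      intro v hv
      rw [← (mem_us _ K v).1 hv]
      exact av_mem ρ K.1 v
    have hpair : ∀ m : M, finrank k (fx (ρ (g * m)) ⊓
          us (fun K : {K : Subgroup H // IsMx ρ M K} => av ρ K.1) K : Submodule k E) +
        finrank k (fx (ρ (g * (m * ⟨m0, hm0⟩ : M))) ⊓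
          us (fun K : {K : Subgroup H // IsMx ρ M K} => av ρ K.1) K : Submodule k E) ≤
        finrank k (us (fun K : {K : Subgroup H // IsMx ρ M K} => av ρ K.1) K) := by
      intro m
      have h1 : (fx (ρ (g * m)) ⊓ us (fun K : {K : Subgroup H // IsMx ρ M K} => av ρ K.1) K) ⊓
          (fx (ρ (g * (m * ⟨m0, hm0⟩ : M))) ⊓
            us (fun K : {K : Subgroup H // IsMx ρ M K} => av ρ K.1) K) = ⊥ := by
        rw [eq_bot_iff]
        rintro v ⟨⟨hv1, hv2⟩, hv3, -⟩
        have h2 : ρ (g * m) v = v := hv1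
        have h3 : ρ (g * (m * m0)) v = v := hv3
        have h4 : ρ m0 v = v := by
          rw [← mul_assoc, map_mul ρ (g * m), Module.End.mul_apply] at h3
          have h5 : ρ (g * m) (ρ m0 v) = ρ (g * m) v := by rw [h3, h2]
          have h6 := congrArg (ρ (g * m)⁻¹) h5
          rw [← Module.End.mul_apply, ← Module.End.mul_apply (ρ (g * m)⁻¹) (ρ (g * m)) v, ← map_mul,
            inv_mul_cancel, map_one] at h6
          exact h6
        have h7 : v ∈ fixS ρ (Subgroup.zpowers m0) := by
          intro x hx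
          have h8 : Subgroup.zpowers m0 ≤
              ({ carrier := {x | ρ x v = v}
                 mul_mem' := by
                  intro a b ha hb
                  change ρ (a * b) v = v
                  rw [map_mul, Module.End.mul_apply, hb, ha]
                 one_mem' := by
                  change ρ 1 v = v
                  rw [map_one, Module.End.one_apply]
                 inv_mem' := by
                  intro a ha
                  change ρ a⁻¹ v = v
                  have h1 : ρ a v = v := ha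
                  conv_lhs => rw [← h1]
                  rw [← Module.End.mul_apply, ← map_mul, inv_mul_cancel, map_one,
                    Module.End.one_apply] } : Subgroup H) := by
            rw [Subgroup.zpowers_le]
            exact h4
          exact h8 hx
        have h9 := mem_fixS_sup ρ (husK v hv2) h7
        have h10 : K.1 < K.1 ⊔ Subgroup.zpowers m0 := by
          refine lt_of_le_of_ne le_sup_left fun h => hm0K ?_
          rw [h]
          exact (le_sup_right : Subgroup.zpowers m0 ≤ _) (Subgroup.mem_zpowers m0)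
        have h11 : K.1 ⊔ Subgroup.zpowers m0 ≤ M := sup_le K.2.1 (by rw [Subgroup.zpowers_le]; exact hm0)
        rw [K.2.2.2 _ h11 h10] at h9
        exact h9
      have e1 := Submodule.finrank_sup_add_finrank_inf_eq
        (fx (ρ (g * m)) ⊓ us (fun K : {K : Subgroup H // IsMx ρ M K} => av ρ K.1) K)
        (fx (ρ (g * (m * ⟨m0, hm0⟩ : M))) ⊓ us (fun K : {K : Subgroup H // IsMx ρ M K} => av ρ K.1) K)
      rw [h1, finrank_bot, add_zero] at e1
      rw [← e1]
      exact Submodule.finrank_mono (sup_le inf_le_right inf_le_right)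
    have hsum := Finset.sum_le_sum (fun m (_ : m ∈ (Finset.univ : Finset M)) => hpair m)
    rw [Finset.sum_add_distrib] at hsum
    have hre : ∑ m : M, finrank k (fx (ρ (g * (m * ⟨m0, hm0⟩ : M))) ⊓
          us (fun K : {K : Subgroup H // IsMx ρ M K} => av ρ K.1) K : Submodule k E) =
        ∑ m : M, finrank k (fx (ρ (g * m)) ⊓
          us (fun K : {K : Subgroup H // IsMx ρ M K} => av ρ K.1) K : Submodule k E) :=
      Fintype.sum_equiv (Equiv.mulRight (⟨m0, hm0⟩ : M)) _ _ (fun m => rfl)
    rw [hre, Finset.sum_const, Finset.card_univ, smul_eq_mul] at hsum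
    rw [two_mul]
    exact hsum

end main

section final

variable {E H : Type*} [AddCommGroup E] [Group H] [Finite H] {p : ℕ} [hp : Fact p.Prime]
  [Module (ZMod p) E] [Finite E]

theorem fixS_normal_inv {k : Type*} [Field k] [Module k E] (ρ : H →* Module.End k E) (M : Subgroup H)
    [hMn : M.Normal] : ∀ g, ∀ v ∈ fixS ρ M, ρ g v ∈ fixS ρ M := by
  intro g v hv x hx
  have h1 : g⁻¹ * x * g ∈ M := by
    have := hMn.conj_mem x hx g⁻¹
    rwa [inv_inv] at this
  rw [← Module.End.mul_apply, ← map_mul]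
  have h2 : x * g = g * (g⁻¹ * x * g) := by group
  rw [h2, map_mul, Module.End.mul_apply, hv _ h1]

/-- A normal `p`-subgroup acts trivially on an irreducible module of characteristic `p`. -/
theorem fixS_eq_top (ρ : H →* Module.End (ZMod p) E) [Nontrivial E]
    (hirr : ∀ W : Submodule (ZMod p) E, (∀ g, ∀ v ∈ W, ρ g v ∈ W) → W = ⊥ ∨ W = ⊤)
    (P : Subgroup H) [P.Normal] (hP : IsPGroup p P) : fixS ρ P = ⊤ := by
  refine (hirr _ (fixS_normal_inv ρ P)).resolve_left ?_
  let _ : MulAction P E :=
    { smul := fun x v => ρ x v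
      one_smul := fun v => by
        change ρ 1 v = v
        rw [map_one, Module.End.one_apply]
      mul_smul := fun x y v => by
        change ρ (x * y : P) v = ρ x (ρ y v)
        rw [Subgroup.coe_mul, map_mul, Module.End.mul_apply] }
  have hsm : ∀ (x : P) (v : E), x • v = ρ x v := fun _ _ => rfl
  have hdvd : p ∣ Nat.card E := by
    obtain ⟨v, hv⟩ := exists_ne (0 : E)
    have h1 : addOrderOf v = p := by
      refine addOrderOf_eq_prime ?_ hv
      rw [← Nat.cast_smul_eq_nsmul (ZMod p), CharP.cast_eq_zero, zero_smul]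
    rw [← h1]
    exact addOrderOf_dvd_natCard v
  have h0 : (0 : E) ∈ MulAction.fixedPoints P E := fun x => by rw [hsm, map_zero]
  obtain ⟨b, hb, hb0⟩ := hP.exists_fixed_point_of_prime_dvd_card_of_fixed_point E hdvd h0
  refine (Submodule.ne_bot_iff _).2 ⟨b, fun x hx => ?_, fun h => hb0 h.symm⟩
  exact hb ⟨x, hx⟩

theorem avg_faithful (ρ : H →* Module.End (ZMod p) E) [Nontrivial E] [Fintype H]
    (hirr : ∀ W : Submodule (ZMod p) E, (∀ g, ∀ v ∈ W, ρ g v ∈ W) → W = ⊥ ∨ W = ⊤)
    (hinj : ∀ x, ρ x = 1 → x = 1) (hs : Group.IsSolvable H) [Nontrivial H] :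
    2 * ∑ h : H, finrank (ZMod p) (fx (ρ h)) ≤ Fintype.card H * finrank (ZMod p) E := by
  classical
  -- an abelian normal subgroup
  obtain ⟨M, hMn, hM1, hMc⟩ : ∃ M : Subgroup H, M.Normal ∧ M ≠ ⊥ ∧ ∀ a ∈ M, ∀ b ∈ M, a * b = b * a := by
    have hex : ∃ n, derivedSeries H n = ⊥ := hs.solvable
    have hn := Nat.find_spec hex
    have hn0 : Nat.find hex ≠ 0 := by
      intro h0
      rw [h0, derivedSeries_zero] at hn
      exact top_ne_bot hn
    obtain ⟨n, hn1⟩ := Nat.exists_eq_succ_of_ne_zero hn0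
    refine ⟨derivedSeries H n, inferInstance, Nat.find_min hex (by omega), ?_⟩
    intro a ha b hb
    rw [hn1, derivedSeries_succ] at hn
    have h1 := Subgroup.commutator_mem_commutator ha hb
    rw [hn, Subgroup.mem_bot, commutatorElement_eq_one_iff_mul_comm] at h1
    exact h1
  -- its order is prime to `p`
  have hMp : ¬ p ∣ Nat.card M := by
    intro hdvd
    let P : Subgroup H :=
      { carrier := {x | x ∈ M ∧ x ^ p = 1}
        mul_mem' := by
          rintro a b ⟨ha, ha'⟩ ⟨hb, hb'⟩
          refine ⟨M.mul_mem ha hb, ?_⟩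
          rw [(show Commute a b from hMc a ha b hb).mul_pow, ha', hb', one_mul]
        one_mem' := ⟨M.one_mem, one_pow _⟩
        inv_mem' := by
          rintro a ⟨ha, ha'⟩
          exact ⟨M.inv_mem ha, by rw [inv_pow, ha', inv_one]⟩ }
    have hPn : P.Normal := by
      refine ⟨fun x hx g => ⟨hMn.conj_mem x hx.1 g, ?_⟩⟩
      rw [conj_pow, hx.2, mul_one, mul_inv_cancel]
    have hPp : IsPGroup p P := by
      intro x
      refine ⟨1, ?_⟩
      rw [pow_one]
      exact Subtype.ext x.2.2
    have h1 := fixS_eq_top ρ hirr P hPp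
    obtain ⟨x, hx⟩ := exists_prime_orderOf_dvd_card' (G := M) p hdvd
    have hxP : (x : H) ∈ P := by
      refine ⟨x.2, ?_⟩
      have := pow_orderOf_eq_one x
      rw [hx] at this
      exact congrArg Subtype.val this
    have h2 : ρ x = 1 := by
      ext v
      have : v ∈ fixS ρ P := by rw [h1]; exact Submodule.mem_top
      exact this x hxP
    have h3 := hinj _ h2
    have h4 : x = 1 := Subtype.ext h3
    rw [h4, orderOf_one] at hx
    exact hp.out.one_lt.ne hx
  have hMk : (Nat.card M : ZMod p) ≠ 0 := by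
    rw [Ne, ZMod.natCast_eq_zero_iff]
    exact hMp
  have hfix : fixS ρ M = ⊥ := by
    refine (hirr _ (fixS_normal_inv ρ M)).resolve_right ?_
    intro htop
    apply hM1
    rw [eq_bot_iff]
    intro x hx
    rw [Subgroup.mem_bot]
    apply hinj
    ext v
    have : v ∈ fixS ρ M := by rw [htop]; exact Submodule.mem_top
    exact this x hx
  let _ : Fintype M := Fintype.ofFinite M
  have key := fun g : H => coset_avg ρ M hMc hMk hirr hfix g
  have hsum := Finset.sum_le_sum (fun g (_ : g ∈ (Finset.univ : Finset H)) => key g)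
  rw [Finset.sum_const, Finset.card_univ, smul_eq_mul, ← Finset.mul_sum, Finset.sum_comm] at hsum
  have h1 : ∀ m : M, ∑ g : H, finrank (ZMod p) (fx (ρ (g * m))) = ∑ h : H, finrank (ZMod p) (fx (ρ h)) :=
    fun m => Fintype.sum_equiv (Equiv.mulRight (m : H)) _ _ (fun g => rfl)
  rw [Finset.sum_congr rfl (fun m _ => h1 m), Finset.sum_const, Finset.card_univ, smul_eq_mul] at hsum
  have hpos : 0 < Fintype.card M := Fintype.card_pos
  have h2 : Fintype.card M * (2 * ∑ h : H, finrank (ZMod p) (fx (ρ h))) ≤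
      Fintype.card M * (Fintype.card H * finrank (ZMod p) E) := by
    calc Fintype.card M * (2 * ∑ h : H, finrank (ZMod p) (fx (ρ h))) =
        2 * (Fintype.card M * ∑ h : H, finrank (ZMod p) (fx (ρ h))) := by ring
      _ ≤ Fintype.card H * (Fintype.card M * finrank (ZMod p) E) := hsum
      _ = _ := by ring
  exact Nat.le_of_mul_le_mul_left h2 hpos

/-- **Average dimension of fixed spaces** (solvable groups, irreducible modules of dimension at least two). -/
theorem two_mul_sum_le (ρ : H →* Module.End (ZMod p) E) [Fintype H]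
    (hirr : ∀ W : Submodule (ZMod p) E, (∀ g, ∀ v ∈ W, ρ g v ∈ W) → W = ⊥ ∨ W = ⊤)
    (hdim : 1 < finrank (ZMod p) E) (hs : Group.IsSolvable H) :
    2 * ∑ h : H, finrank (ZMod p) (fx (ρ h)) ≤ Fintype.card H * finrank (ZMod p) E := by
  classical
  have hnt : Nontrivial E := by
    have : 0 < finrank (ZMod p) E := by omega
    exact Module.nontrivial_of_finrank_pos this
  let N : Subgroup H := ρ.ker
  let ρ' : H ⧸ N →* Module.End (ZMod p) E := QuotientGroup.lift N ρ (fun x hx => hx)
  have hρ' : ∀ x : H, ρ' (x : H ⧸ N) = ρ x := fun x => rfl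
  have hinj : ∀ x, ρ' x = 1 → x = 1 := by
    intro x
    induction x using QuotientGroup.induction_on with
    | H z =>
      intro hz
      rw [hρ'] at hz
      exact (QuotientGroup.eq_one_iff z).2 hz
  have hirr' : ∀ W : Submodule (ZMod p) E, (∀ g, ∀ v ∈ W, ρ' g v ∈ W) → W = ⊥ ∨ W = ⊤ :=
    fun W hW => hirr W fun g v hv => hW (g : H ⧸ N) v hv
  have hntH : Nontrivial (H ⧸ N) := by
    by_contra hcon
    rw [not_nontrivial_iff_subsingleton] at hcon
    have htriv : ∀ g : H, ρ g = 1 := by
      intro g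
      rw [← hρ' g, Subsingleton.elim (g : H ⧸ N) 1, map_one]
    obtain ⟨v, hv⟩ := exists_ne (0 : E)
    rcases hirr (Submodule.span (ZMod p) {v}) (fun g w hw => by rw [htriv g]; exact hw) with h | h
    · rw [Submodule.span_singleton_eq_bot] at h
      exact hv h
    · have h1 := finrank_span_singleton (K := ZMod p) hv
      rw [h, finrank_top] at h1
      omega
  have hs' : Group.IsSolvable (H ⧸ N) := inferInstance
  let _ : Fintype (H ⧸ N) := Fintype.ofFinite _
  let _ : Fintype N := Fintype.ofFinite _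
  have key := avg_faithful ρ' hirr' hinj hs'
  have h1 : ∑ h : H, finrank (ZMod p) (fx (ρ h)) =
      Fintype.card N * ∑ q : H ⧸ N, finrank (ZMod p) (fx (ρ' q)) := by
    rw [Fintype.sum_equiv (Subgroup.groupEquivQuotientProdSubgroup (s := N))
      (fun h => finrank (ZMod p) (fx (ρ h))) (fun q => finrank (ZMod p) (fx (ρ' q.1))) ?_]
    · rw [Fintype.sum_prod_type, Finset.mul_sum]
      refine Finset.sum_congr rfl fun q _ => ?_
      change ∑ _y : N, finrank (ZMod p) (fx (ρ' q)) = _
      rw [Finset.sum_const, Finset.card_univ, smul_eq_mul]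
    · intro h
      have h2 : ((Subgroup.groupEquivQuotientProdSubgroup (s := N)) h).1 = (h : H ⧸ N) := rfl
      rw [h2, hρ']
  have h3 : Fintype.card H = Fintype.card N * Fintype.card (H ⧸ N) := by
    rw [Fintype.card_congr (Subgroup.groupEquivQuotientProdSubgroup (s := N)), Fintype.card_prod, mul_comm]
  rw [h1, h3]
  calc 2 * (Fintype.card N * ∑ q : H ⧸ N, finrank (ZMod p) (fx (ρ' q))) =
      Fintype.card N * (2 * ∑ q : H ⧸ N, finrank (ZMod p) (fx (ρ' q))) := by ring
    _ ≤ Fintype.card N * (Fintype.card (H ⧸ N) * finrank (ZMod p) E) := Nat.mul_le_mul_left _ key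
    _ = _ := by ring

end final

end Cfsg.Agent.H726.PrimAvg
end

-- part: H726/PrimChief
section
/-!
# Degrees of quasi-primitive characters of solvable groups and class sizes

`G` solvable, `χ` irreducible with homogeneous restrictions to all normal subgroups, `p` a prime:
`exists_fun` : a function `F` with `F g ≤ v_p |G : C_G(g)|` and average at least `v_p (χ 1)`.
-/

set_option autoImplicit false
set_option linter.unusedSectionVars false

namespace Cfsg.Agent.H726.PrimChief

open Cfsg Module Cfsg.Agent.H726.PrimAvg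
open Cfsg.Agent.Characters.Core Cfsg.Agent.Characters.Clifford
open scoped commutatorElement

section grp

variable {G : Type*} [Group G] [Finite G]

/-- A chief factor of a solvable group is abelian. -/
theorem comm_le (hs : Group.IsSolvable G) (N L : Subgroup G) [N.Normal] [L.Normal] (hLN : L < N)
    (hch : ∀ M : Subgroup G, M.Normal → L ≤ M → M ≤ N → M = L ∨ M = N) : ⁅N, N⁆ ≤ L := by
  have h1 : (⁅N, N⁆ ⊔ L).Normal := inferInstance
  rcases hch (⁅N, N⁆ ⊔ L) h1 le_sup_right (sup_le (Subgroup.commutator_le_left N N) hLN.le) with h2 | h2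
  · rw [← h2]; exact le_sup_left
  · exfalso
    have hne : N.map (QuotientGroup.mk' L) ≠ ⊥ := by
      intro h3
      rw [Subgroup.map_eq_bot_iff, QuotientGroup.ker_mk'] at h3
      exact absurd h3 (not_le_of_gt hLN)
    have h4 := Group.IsSolvable.commutator_lt_of_ne_bot hne
    apply absurd h4 (not_lt_of_ge _)
    rw [← Subgroup.map_commutator]
    conv_lhs => rw [← h2]
    rw [Subgroup.map_sup]
    refine sup_le le_rfl ?_
    have h5 : L.map (QuotientGroup.mk' L) = ⊥ := by
      rw [Subgroup.map_eq_bot_iff, QuotientGroup.ker_mk']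
    rw [h5]
    exact bot_le

/-- An abelian chief factor of order divisible by `p` has exponent `p`. -/
theorem pow_mem (p : ℕ) [hp : Fact p.Prime] (N L : Subgroup G) [hN : N.Normal] [hL : L.Normal] (hLN : L < N)
    (hch : ∀ M : Subgroup G, M.Normal → L ≤ M → M ≤ N → M = L ∨ M = N)
    (hab : ⁅N, N⁆ ≤ L) (hd : p ∣ L.relIndex N) : ∀ a ∈ N, a ^ p ∈ L := by
  have hcom : ∀ x ∈ N, ∀ y ∈ N, (QuotientGroup.mk' L) x * (QuotientGroup.mk' L) y =
      (QuotientGroup.mk' L) y * (QuotientGroup.mk' L) x := by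
    intro x hx y hy
    have h1 : ⁅x, y⁆ ∈ L := hab (Subgroup.commutator_mem_commutator hx hy)
    have h2 : (QuotientGroup.mk' L) ⁅x, y⁆ = 1 := (QuotientGroup.eq_one_iff _).mpr h1
    rw [map_commutatorElement, commutatorElement_eq_one_iff_mul_comm] at h2
    exact h2
  let Om : Subgroup G :=
    { carrier := {x | x ∈ N ∧ x ^ p ∈ L}
      mul_mem' := by
        rintro x y ⟨hx, hx'⟩ ⟨hy, hy'⟩
        refine ⟨N.mul_mem hx hy, ?_⟩
        rw [← QuotientGroup.eq_one_iff] at hx' hy' ⊢
        have h1 : (QuotientGroup.mk' L) ((x * y) ^ p) =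
            (QuotientGroup.mk' L) (x ^ p) * (QuotientGroup.mk' L) (y ^ p) := by
          have h2 : Commute ((QuotientGroup.mk' L) x) ((QuotientGroup.mk' L) y) := hcom x hx y hy
          rw [map_pow, map_mul, h2.mul_pow, map_pow, map_pow]
        change (QuotientGroup.mk' L) ((x * y) ^ p) = 1
        rw [h1]
        change (QuotientGroup.mk' L) (x ^ p) = 1 at hx'
        change (QuotientGroup.mk' L) (y ^ p) = 1 at hy'
        rw [hx', hy', one_mul]
      one_mem' := ⟨N.one_mem, by rw [one_pow]; exact L.one_mem⟩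
      inv_mem' := by
        rintro x ⟨hx, hx'⟩
        exact ⟨N.inv_mem hx, by rw [inv_pow]; exact L.inv_mem hx'⟩ }
  have hOm : ∀ x, x ∈ Om ↔ x ∈ N ∧ x ^ p ∈ L := fun x => Iff.rfl
  have hOmn : Om.Normal := by
    refine ⟨fun x hx g => ?_⟩
    rw [hOm] at hx ⊢
    refine ⟨hN.conj_mem x hx.1 g, ?_⟩
    rw [conj_pow]
    exact hL.conj_mem _ hx.2 g
  have hLOm : L ≤ Om := fun x hx => ⟨hLN.le hx, L.pow_mem hx p⟩
  rcases hch Om hOmn hLOm (fun x hx => hx.1) with h1 | h1
  · exfalso
    have h2 : p ∣ Nat.card (N ⧸ L.subgroupOf N) := hd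
    obtain ⟨x, hx⟩ := exists_prime_orderOf_dvd_card' (G := N ⧸ L.subgroupOf N) p h2
    induction x using QuotientGroup.induction_on with
    | H z =>
      have h3 : ((z : N ⧸ L.subgroupOf N)) ^ p = 1 := by rw [← hx]; exact pow_orderOf_eq_one _
      have h4 : (z : G) ^ p ∈ L := by
        have h5 : ((z ^ p : N) : N ⧸ L.subgroupOf N) = 1 := h3
        rw [QuotientGroup.eq_one_iff, Subgroup.mem_subgroupOf] at h5
        exact h5
      have h6 : (z : G) ∈ Om := ⟨z.2, h4⟩
      rw [h1] at h6
      have h7 : (z : N ⧸ L.subgroupOf N) = 1 := by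
        rw [QuotientGroup.eq_one_iff, Subgroup.mem_subgroupOf]
        exact h6
      rw [h7, orderOf_one] at hx
      exact hp.out.one_lt.ne hx
  · intro a ha
    have : a ∈ Om := h1 ▸ ha
    exact this.2

/-- Every nontrivial normal subgroup has a chief factor at its top. -/
theorem exists_chief (N : Subgroup G) (hN1 : N ≠ ⊥) :
    ∃ L : Subgroup G, L.Normal ∧ L < N ∧ ∀ M : Subgroup G, M.Normal → L ≤ M → M ≤ N → M = L ∨ M = N := by
  have hne : ({L : Subgroup G | L.Normal ∧ L < N} : Set (Subgroup G)).Nonempty :=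
    ⟨⊥, inferInstance, bot_lt_iff_ne_bot.2 hN1⟩
  obtain ⟨L, hL⟩ := (Set.toFinite {L : Subgroup G | L.Normal ∧ L < N}).exists_maximal hne
  refine ⟨L, hL.prop.1, hL.prop.2, fun M hM h1 h2 => ?_⟩
  rcases h2.lt_or_eq with h3 | h3
  · left
    exact le_antisymm (hL.le_of_ge ⟨hM, h3⟩ h1) h1
  · right; exact h3

theorem relIndex_dvd {L C N : Subgroup G} [hL : L.Normal] (hC : C ≤ N) (hLN : L ≤ N) :
    L.relIndex C ∣ L.relIndex N := by
  have h1 : L.relIndex (C ⊔ L) = L.relIndex C := by
    rw [Subgroup.relIndex_sup_right]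
  rw [← h1]
  exact Dvd.intro _ (Subgroup.relIndex_mul_relIndex L (C ⊔ L) N le_sup_right (sup_le hC hLN))

end grp

section main

variable {G : Type*} [Group G] [Fintype G]

/-- The centralizer of `g` in `N`. -/
def cN (N : Subgroup G) (g : G) : Subgroup G := N ⊓ Subgroup.centralizer {g}

theorem cN_card (N L : Subgroup G) (hLN : L ≤ N) (g : G) :
    Nat.card (cN N g) = Nat.card (cN L g) * L.relIndex (cN N g) := by
  have h1 : L.relIndex (cN N g) = (cN L g).relIndex (cN N g) := by
    have : cN L g = L ⊓ cN N g := by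
      unfold cN
      rw [← inf_assoc, inf_eq_left.2 hLN]
    rw [this, Subgroup.inf_relIndex_right]
  rw [h1]
  have h2 : cN L g ≤ cN N g := inf_le_inf_right _ hLN
  have h3 := Subgroup.relIndex_mul_relIndex ⊥ (cN L g) (cN N g) bot_le h2
  rw [Subgroup.relIndex_bot_left, Subgroup.relIndex_bot_left] at h3
  exact h3.symm

theorem card_eq (N L : Subgroup G) (hLN : L ≤ N) : Nat.card N = Nat.card L * L.relIndex N := by
  have h3 := Subgroup.relIndex_mul_relIndex ⊥ L N bot_le hLN
  rw [Subgroup.relIndex_bot_left, Subgroup.relIndex_bot_left] at h3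
  exact h3.symm

/-- The degree of an irreducible character of a subgroup of order one. -/
theorem degree_bot {θ : (⊥ : Subgroup G) → ℂ} (hθ : IsIrrCharacter (⊥ : Subgroup G) θ) {d : ℕ}
    (hd : θ 1 = d) : d = 1 := by
  classical
  let _ : Fintype (⊥ : Subgroup G) := Fintype.ofFinite _
  have h1 := classInner_irr_self hθ
  rw [classInner_def, Fintype.sum_eq_single (1 : (⊥ : Subgroup G))
    (fun x hx => absurd (Subsingleton.elim x 1) hx), hd, Subgroup.card_bot, Nat.cast_one, inv_one, one_mul,
    Complex.conj_natCast] at h1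
  have h2 : d * d = 1 := by exact_mod_cast h1
  exact Nat.eq_one_of_mul_eq_one_right h2

/-- The chief factor as a module: the contribution of one layer. -/
theorem layer (hs : Group.IsSolvable G) (p : ℕ) [hp : Fact p.Prime] (N L : Subgroup G) [hN : N.Normal]
    [hL : L.Normal] (hLN : L < N) (hch : ∀ M : Subgroup G, M.Normal → L ≤ M → M ≤ N → M = L ∨ M = N)
    (hab : ⁅N, N⁆ ≤ L) (v : ℕ) (hv : 0 < v) (hidx : L.relIndex N = p ^ (2 * v))
    (K : Subgroup G) (hK : ∀ x ∈ K, ∀ u ∈ N, x * u * x⁻¹ * u⁻¹ ∈ L) :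
    ∃ F : G → ℕ, (∀ g, (F g) + (L.relIndex (cN N g)).factorization p ≤ 2 * v) ∧
      Fintype.card G * v ≤ ∑ g, F g ∧ ∀ g, ∀ x ∈ K, F (g * x) = F g := by
  classical
  have hdvd : p ∣ L.relIndex N := by
    rw [hidx]; exact dvd_pow_self p (by omega)
  have hexp := pow_mem p N L hLN hch hab hdvd
  obtain ⟨E, i1, i2, π, h1, h2, h3, h4⟩ :=
    OddOrderCharacters.PF9.SectionModule.exists_module p N L
      (fun h _ k hk => hL.conj_mem k hk h)
      (fun a ha b hb => hab (Subgroup.commutator_mem_commutator ha hb)) hexp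
  obtain ⟨ρ, hρ⟩ := OddOrderCharacters.PF9.SectionModule.exists_rep_normal (p := p) h1 h2 h3 hN hL
  have hfinE : Finite E := Finite.of_surjective π h1
  have hcardE : Nat.card E = p ^ Module.finrank (ZMod p) E := by
    have := Module.natCard_eq_pow_finrank (K := ZMod p) (V := E)
    rwa [Nat.card_zmod] at this
  have hdim : Module.finrank (ZMod p) E = 2 * v := by
    rw [hcardE, hidx] at h4
    exact Nat.pow_right_injective hp.out.two_le h4
  -- irreducibility
  have hirr : ∀ W : Submodule (ZMod p) E, (∀ g, ∀ v ∈ W, ρ g v ∈ W) → W = ⊥ ∨ W = ⊤ := by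
    intro W hW
    obtain ⟨M, hMN, hM⟩ := OddOrderCharacters.PF9.SectionModule.exists_subgroup h2 W
    have hMn : M.Normal := by
      refine ⟨fun x hx g => ?_⟩
      have hxN : x ∈ N := hMN hx
      have h5 : π ⟨x, hxN⟩ ∈ W := (hM ⟨x, hxN⟩).1 hx
      have h6 := hW g _ h5
      rw [hρ] at h6
      exact (hM _).2 h6
    have hLM : L ≤ M := by
      intro x hx
      have hxN : x ∈ N := hLN.le hx
      refine (hM ⟨x, hxN⟩).2 ?_
      rw [(h3 ⟨x, hxN⟩).2 hx]
      exact W.zero_mem
    rcases hch M hMn hLM hMN with h5 | h5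
    · left
      rw [eq_bot_iff]
      intro w hw
      obtain ⟨a, rfl⟩ := h1 w
      have h6 : (a : G) ∈ M := (hM a).2 hw
      rw [h5] at h6
      rw [Submodule.mem_bot]
      exact (h3 a).2 h6
    · right
      rw [eq_top_iff]
      intro w _
      obtain ⟨a, rfl⟩ := h1 w
      refine (hM a).1 ?_
      rw [h5]
      exact a.2
  have havg := two_mul_sum_le ρ hirr (by omega) hs
  have hfx_le : ∀ g, Module.finrank (ZMod p) (fx (ρ g)) ≤ 2 * v := fun g => by
    rw [← hdim]; exact Submodule.finrank_le _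
  refine ⟨fun g => 2 * v - Module.finrank (ZMod p) (fx (ρ g)), fun g => ?_, ?_, ?_⟩
  · -- the centralizer
    have h5 : (L.relIndex (cN N g)).factorization p ≤ Module.finrank (ZMod p) (fx (ρ g)) := by
      have h6 : L.relIndex (cN N g) ∣ p ^ (2 * v) := by
        rw [← hidx]; exact relIndex_dvd inf_le_left hLN.le
      obtain ⟨a, -, ha⟩ := (Nat.dvd_prime_pow hp.out).1 h6
      rw [ha, Nat.Prime.factorization_pow hp.out, Finsupp.single_eq_same]
      -- the injection
      have hcfx : Nat.card (fx (ρ g)) = p ^ Module.finrank (ZMod p) (fx (ρ g)) := by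
        have := Module.natCard_eq_pow_finrank (K := ZMod p) (V := fx (ρ g))
        rwa [Nat.card_zmod] at this
      have h7 : L.relIndex (cN N g) ≤ Nat.card (fx (ρ g)) := by
        let f : (cN N g) → fx (ρ g) := fun c => ⟨π ⟨c, c.2.1⟩, by
          rw [mem_fx, hρ]
          congr 1
          apply Subtype.ext
          have := Subgroup.mem_centralizer_singleton_iff.1 c.2.2
          change g * (c : G) * g⁻¹ = c
          rw [← this]
          group⟩
        have hf : ∀ a b : cN N g, f a = f b ↔ a⁻¹ * b ∈ L.subgroupOf (cN N g) := by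
          intro a b
          rw [Subtype.ext_iff, Subgroup.mem_subgroupOf]
          exact OddOrderCharacters.PF9.SectionModule.pi_eq_iff h2 h3 _ _
        let f' : (cN N g) ⧸ (L.subgroupOf (cN N g)) → fx (ρ g) :=
          fun q => Quotient.liftOn' q f (fun a b hab => by
            rw [QuotientGroup.leftRel_apply] at hab
            exact (hf a b).2 hab)
        have hf' : Function.Injective f' := by
          intro a b
          induction a using QuotientGroup.induction_on with | H a => ?_
          induction b using QuotientGroup.induction_on with | H b => ?_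
          intro h
          exact QuotientGroup.eq.2 ((hf a b).1 h)
        exact Nat.card_le_card_of_injective f' hf'
      rw [ha, hcfx] at h7
      exact (Nat.pow_le_pow_iff_right hp.out.one_lt).1 h7
    have := hfx_le g
    change 2 * v - Module.finrank (ZMod p) (fx (ρ g)) + _ ≤ 2 * v
    omega
  · change _ ≤ ∑ g : G, (2 * v - Module.finrank (ZMod p) (fx (ρ g)))
    have h5 : ∑ g : G, (2 * v - Module.finrank (ZMod p) (fx (ρ g))) +
        ∑ g : G, Module.finrank (ZMod p) (fx (ρ g)) = Fintype.card G * (2 * v) := by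
      rw [← Finset.sum_add_distrib, Finset.sum_congr rfl (fun g _ => Nat.sub_add_cancel (hfx_le g)),
        Finset.sum_const, Finset.card_univ, smul_eq_mul]
    rw [hdim] at havg
    have h6 : Fintype.card G * (2 * v) = 2 * (Fintype.card G * v) := by ring
    rw [h6] at h5 havg
    omega
  · intro g x hx
    have h5 : ρ x = 1 := by
      ext w
      obtain ⟨a, rfl⟩ := h1 w
      rw [hρ, Module.End.one_apply, OddOrderCharacters.PF9.SectionModule.pi_eq_iff h2 h3]
      have h6 := hK x hx a a.2
      have h7 : (x * a * x⁻¹)⁻¹ * a = (a : G)⁻¹ * (x * a * x⁻¹ * (a : G)⁻¹)⁻¹ * a := by group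
      change (x * a * x⁻¹)⁻¹ * a ∈ L
      rw [h7]
      have := hL.conj_mem _ (L.inv_mem h6) (a : G)⁻¹
      rwa [inv_inv] at this
    change 2 * v - Module.finrank (ZMod p) (fx (ρ (g * x))) = _
    rw [map_mul, h5, mul_one]

/-- **Main induction.** -/
theorem exists_fun (hs : Group.IsSolvable G) (p : ℕ) [hp : Fact p.Prime] (χ : G → ℂ)
    (hχ : IsIrrCharacter G χ)
    (hom : ∀ N : Subgroup G, N.Normal → ∃ (θ : N → ℂ) (e : ℕ), IsIrrCharacter N θ ∧
      (fun n : N => χ n) = (e : ℂ) • θ)
    (K : Subgroup G) (hK : ∀ U V : Subgroup G, V < U → U.Normal → V.Normal →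
      (∀ M : Subgroup G, M.Normal → V ≤ M → M ≤ U → M = V ∨ M = U) → (∀ u ∈ U, u ^ p ∈ V) →
      ∀ x ∈ K, ∀ u ∈ U, x * u * x⁻¹ * u⁻¹ ∈ V) :
    ∀ n : ℕ, ∀ N : Subgroup G, N.Normal → Nat.card N = n → ∀ (θ : N → ℂ) (e : ℕ), IsIrrCharacter N θ →
      (fun n : N => χ n) = (e : ℂ) • θ → ∃ F : G → ℕ,
        (∀ g, F g + (Nat.card (cN N g)).factorization p ≤ (Nat.card N).factorization p) ∧
        (∀ d : ℕ, θ 1 = d → Fintype.card G * d.factorization p ≤ ∑ g, F g) ∧
        ∀ g, ∀ x ∈ K, F (g * x) = F g := by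
  classical
  intro n
  induction n using Nat.strong_induction_on with
  | _ n ih =>
  intro N hN hcard θ e hθ hres
  have he0 : (e : ℂ) ≠ 0 := by
    intro h0
    have h1 := congrFun hres 1
    rw [h0, zero_smul, Pi.zero_apply] at h1
    exact isIrr_apply_one_ne_zero hχ h1
  by_cases hN1 : N = ⊥
  · subst hN1
    refine ⟨fun _ => 0, fun g => ?_, fun d hd => ?_, fun _ _ _ => rfl⟩
    · have h1 : Nat.card (cN (⊥ : Subgroup G) g) = 1 := by
        have : cN (⊥ : Subgroup G) g = ⊥ := by unfold cN; exact bot_inf_eq _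
        rw [this, Subgroup.card_bot]
      rw [h1]
      simp
    · rw [degree_bot hθ hd]
      simp
  · obtain ⟨L, hLn, hLN, hch⟩ := exists_chief N hN1
    have hab := comm_le hs N L hLN hch
    have hcN := card_eq N L hLN.le
    have hposL : 0 < Nat.card L := Nat.card_pos
    have hidx0 : L.relIndex N ≠ 0 := by
      intro h0
      rw [h0, mul_zero] at hcN
      exact Nat.card_pos.ne' hcN
    have hlt : Nat.card L < n := by
      rw [← hcard]
      exact Set.Finite.card_lt_card (Set.toFinite _) hLN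
    have hr0 : ∀ g, L.relIndex (cN N g) ≠ 0 := by
      intro g h0
      have := cN_card N L hLN.le g
      rw [h0, mul_zero] at this
      exact Nat.card_pos.ne' this
    -- if `p` does not contribute
    have hstep : ∀ F : G → ℕ,
        (∀ g, F g + (Nat.card (cN L g)).factorization p ≤ (Nat.card L).factorization p) →
        (∀ g, F g + (Nat.card (cN N g)).factorization p ≤ (Nat.card N).factorization p) := by
      intro F hF g
      rw [cN_card N L hLN.le g, hcN, Nat.factorization_mul Nat.card_pos.ne' (hr0 g),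
        Nat.factorization_mul Nat.card_pos.ne' hidx0, Finsupp.add_apply, Finsupp.add_apply]
      have h1 : (L.relIndex (cN N g)).factorization p ≤ (L.relIndex N).factorization p :=
        (Nat.factorization_le_iff_dvd (hr0 g) hidx0).2 (relIndex_dvd inf_le_left hLN.le) p
      have := hF g
      omega
    have hinv : ∀ (g : G) (n : N), θ ⟨g * n * g⁻¹, hN.conj_mem (n : G) n.2 g⟩ = θ n := by
      intro g n
      have h1 := congrFun hres n
      have h2 := congrFun hres ⟨g * n * g⁻¹, hN.conj_mem (n : G) n.2 g⟩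
      have h3 : χ (g * n * g⁻¹) = χ n := (isIrr_isClassFunction hχ) n g
      simp only [Pi.smul_apply, smul_eq_mul] at h1 h2
      rw [h3, h1] at h2
      exact (mul_left_cancel₀ he0 h2).symm
    have hresL : ∀ (φ : L → ℂ), (fun x : L => θ ⟨(x : G), hLN.le x.2⟩) = φ →
        (fun x : L => χ x) = (e : ℂ) • φ := by
      rintro φ rfl
      funext x
      have := congrFun hres ⟨(x : G), hLN.le x.2⟩
      exact this
    have hone : (1 : N) = ⟨((1 : L) : G), hLN.le (1 : L).2⟩ := rfl
    rcases S0857.result N L hLN hch hab θ hθ hinv with h1 | ⟨φ, e', hφ, h1, h2⟩ | ⟨Fs, h1, h2, h3⟩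
    · obtain ⟨F, hF1, hF2, hF3⟩ := ih (Nat.card L) hlt L hLn rfl _ e h1 (hresL _ rfl)
      exact ⟨F, hstep F hF1, fun d hd => hF2 d hd, hF3⟩
    · have hres2 : (fun x : L => χ x) = ((e * e' : ℕ) : ℂ) • φ := by
        rw [hresL _ h1, smul_smul, Nat.cast_mul]
      obtain ⟨F, hF1, hF2, hF3⟩ := ih (Nat.card L) hlt L hLn rfl φ (e * e') hφ hres2
      obtain ⟨d₀, hd₀, hd₀'⟩ := isIrr_apply_one hφ
      have he' : e' ≠ 0 := by
        rintro rfl
        rw [zero_pow (by norm_num)] at h2
        exact hidx0 h2.symm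
      have hdeg : ∀ d : ℕ, θ 1 = d → d = e' * d₀ := by
        intro d hd
        have h4 := congrFun h1 1
        simp only [Pi.smul_apply, smul_eq_mul] at h4
        rw [← hone, hd, hd₀'] at h4
        exact_mod_cast h4
      by_cases hpe : p ∣ e'
      · -- a `p`-chief factor
        set v := e'.factorization p with hv
        have hvpos : 0 < v := (hp.out.dvd_iff_one_le_factorization he').1 hpe
        have hpexp : ∀ a ∈ N, a ^ p ∈ L := by
          refine pow_mem p N L hLN hch hab ?_
          rw [← h2]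
          exact dvd_pow hpe (by norm_num)
        have hidx : L.relIndex N = p ^ (2 * v) := by
          have h5 : IsPGroup p (N ⧸ L.subgroupOf N) := by
            intro q
            induction q using QuotientGroup.induction_on with | H a => ?_
            refine ⟨1, ?_⟩
            rw [pow_one, ← QuotientGroup.mk_pow, QuotientGroup.eq_one_iff, Subgroup.mem_subgroupOf]
            exact hpexp a a.2
          obtain ⟨m, hm⟩ := (IsPGroup.iff_card).1 h5
          have h6 : L.relIndex N = p ^ m := hm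
          have h7 := congrArg (fun x => x.factorization p) h2
          simp only [Nat.factorization_pow, h6, Nat.Prime.factorization_pow hp.out,
            Finsupp.single_eq_same, Finsupp.smul_apply, smul_eq_mul] at h7
          rw [h6, ← h7]
        obtain ⟨F', hF1', hF2', hF3'⟩ := layer hs p N L hLN hch hab v hvpos hidx K
          (hK N L hLN hN hLn hch hpexp)
        refine ⟨fun g => F g + F' g, fun g => ?_, fun d hd => ?_, fun g x hx => ?_⟩
        · rw [cN_card N L hLN.le g, hcN, Nat.factorization_mul Nat.card_pos.ne' (hr0 g),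
            Nat.factorization_mul Nat.card_pos.ne' hidx0, Finsupp.add_apply, Finsupp.add_apply, hidx,
            Nat.Prime.factorization_pow hp.out, Finsupp.single_eq_same]
          have e1 := hF1 g
          have e2 := hF1' g
          change F g + F' g + _ ≤ _
          omega
        · rw [hdeg d hd, Nat.factorization_mul he' hd₀.ne', Finsupp.add_apply, ← hv, mul_add,
            Finset.sum_add_distrib, add_comm]
          exact add_le_add (hF2 d₀ hd₀') hF2'
        · change F (g * x) + F' (g * x) = F g + F' g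
          rw [hF3 g x hx, hF3' g x hx]
      · refine ⟨F, hstep F hF1, fun d hd => ?_, hF3⟩
        rw [hdeg d hd, Nat.factorization_mul he' hd₀.ne', Finsupp.add_apply,
          Nat.factorization_eq_zero_of_not_dvd hpe, zero_add]
        exact hF2 d₀ hd₀'
    · -- the third case is impossible
      exfalso
      obtain ⟨θL, eL, hθL, hresθ⟩ := hom L hLn
      have hcard2 : 1 < Fs.card := by
        rw [h2]
        rcases Nat.lt_or_ge 1 (L.relIndex N) with h | h
        · exact h
        · exfalso
          have h4 : L.relIndex N = 1 := by omega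
          rw [Subgroup.relIndex_eq_one] at h4
          exact absurd h4 (not_le_of_gt hLN)
      obtain ⟨φ, hφF, hφne⟩ : ∃ φ ∈ Fs, φ ≠ θL := by
        by_contra hcon
        push Not at hcon
        have : Fs ⊆ {θL} := fun φ hφ => Finset.mem_singleton.2 (hcon φ hφ)
        have := Finset.card_le_card this
        rw [Finset.card_singleton] at this
        omega
      let _ : Fintype L := Fintype.ofFinite _
      have h4 : classInner (fun x : L => χ x) φ = 0 := by
        rw [hresθ, classInner_smul_left, classInner_irr_ne hθL (h1 φ hφF) (Ne.symm hφne), mul_zero]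
      have h5 : classInner (fun x : L => χ x) φ = e := by
        rw [hresL _ h3, classInner_smul_left, classInner_sum_left, Finset.sum_eq_single φ,
          classInner_irr_self (h1 φ hφF), mul_one]
        · intro ψ hψ hne
          exact classInner_irr_ne (h1 ψ hψ) (h1 φ hφF) hne
        · intro h
          exact absurd hφF h
      rw [h4] at h5
      exact he0 h5.symm

end main

end Cfsg.Agent.H726.PrimChief
end

-- part: H726/PrimMain
section
/-!
# Primitive characters of solvable groups

`homog_of_prim` : a primitive character has homogeneous restrictions to normal subgroups;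
`main` : `G` solvable, `χ` primitive, `p` prime: `v_p (χ 1) ≤ v_p |G : C_G(g)|` for some `g`.
-/

set_option autoImplicit false
set_option linter.unusedSectionVars false

namespace Cfsg.Agent.H726.PrimMain

open Cfsg Module
open Cfsg.Agent.Characters.Core Cfsg.Agent.Characters.Clifford Cfsg.Agent.H726.PrimChief

variable {G : Type*} [Group G] [Fintype G]

/-- Restrictions of primitive characters to normal subgroups are homogeneous. -/
theorem homog_of_prim {χ : G → ℂ} (hχ : IsIrrCharacter G χ)
    (hprim : ¬ ∃ (H : Subgroup G), H ≠ ⊤ ∧ ∃ θ : ↥H → ℂ, IsCharacter ↥H θ ∧ indFun H θ = χ)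
    (N : Subgroup G) (hN : N.Normal) :
    ∃ (θ : N → ℂ) (e : ℕ), IsIrrCharacter N θ ∧ (fun n : N => χ n) = (e : ℂ) • θ := by
  classical
  let _ : Fintype N := Fintype.ofFinite _
  have hcN := isCharacter_restrict N (isIrr_isCharacter hχ)
  -- a constituent
  obtain ⟨θ, hθ, hne⟩ : ∃ θ : N → ℂ, IsIrrCharacter N θ ∧ classInner (fun n : N => χ n) θ ≠ 0 := by
    by_contra hcon
    push Not at hcon
    have h1 := classFunction_eq_zero (isCharacter_isClassFunction hcN) hcon
    have h2 := congrFun h1 1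
    exact isIrr_apply_one_ne_zero hχ h2
  let T : Subgroup G :=
    { carrier := {g | ∀ n : N, θ ⟨g * n * g⁻¹, hN.conj_mem (n : G) n.2 g⟩ = θ n}
      mul_mem' := by
        intro a b ha hb n
        have h1 := ha ⟨b * n * b⁻¹, hN.conj_mem (n : G) n.2 b⟩
        rw [hb n] at h1
        rw [← h1]
        congr 1
        apply Subtype.ext
        change a * b * (n : G) * (a * b)⁻¹ = a * (b * n * b⁻¹) * a⁻¹
        group
      one_mem' := by
        intro n
        congr 1
        apply Subtype.ext
        change 1 * (n : G) * 1⁻¹ = n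
        group
      inv_mem' := by
        intro a ha n
        have h1 := ha ⟨a⁻¹ * n * a⁻¹⁻¹, hN.conj_mem (n : G) n.2 a⁻¹⟩
        rw [← h1]
        congr 1
        apply Subtype.ext
        change a * (a⁻¹ * (n : G) * a⁻¹⁻¹) * a⁻¹ = n
        group }
  have hT : ∀ g : G, g ∈ T ↔ ∀ n : N, θ ⟨g * n * g⁻¹, hN.conj_mem (n : G) n.2 g⟩ = θ n := fun g => Iff.rfl
  have hNT : N ≤ T := by
    intro g hg
    rw [hT]
    intro n
    exact (isIrr_isClassFunction hθ) n ⟨g, hg⟩
  have htop : T = ⊤ := by
    by_contra hTne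
    let _ : Fintype T := Fintype.ofFinite _
    obtain ⟨ψ, hψ, hind, -⟩ := S0854.result N θ hθ T hT hNT χ hχ hne
    exact hprim ⟨T, hTne, ψ, isIrr_isCharacter hψ, hind⟩
  have hinv : ∀ g : G, (fun n : N => θ ⟨g * n * g⁻¹, hN.conj_mem n n.2 g⟩) = θ := by
    intro g
    have h1 : g ∈ T := by rw [htop]; exact Subgroup.mem_top g
    funext n
    exact (hT g).1 h1 n
  have hcl := S0174.result N hN χ hχ θ hθ hne
  have hset : {ψ : N → ℂ | ∃ g : G, ψ = fun n : N => θ ⟨g * n * g⁻¹, hN.conj_mem n n.2 g⟩} = {θ} := by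
    ext ψ
    rw [Set.mem_singleton_iff]
    constructor
    · rintro ⟨g, rfl⟩
      exact hinv g
    · rintro rfl
      exact ⟨1, (hinv 1).symm⟩
  rw [hset, finsum_mem_singleton] at hcl
  obtain ⟨e, he⟩ := classInner_isNat hcN (isIrr_isCharacter hθ)
  rw [he] at hcl
  exact ⟨θ, e, hθ, hcl⟩

theorem charDegree_eq {χ : G → ℂ} {d : ℕ} (h : χ 1 = d) : charDegree χ = d := by
  unfold charDegree
  rw [h]
  simp

/-- The class function `F` for the whole group. -/
theorem exists_top (hs : Group.IsSolvable G) (p : ℕ) [hp : Fact p.Prime] {χ : G → ℂ}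
    (hχ : IsIrrCharacter G χ)
    (hprim : ¬ ∃ (H : Subgroup G), H ≠ ⊤ ∧ ∃ θ : ↥H → ℂ, IsCharacter ↥H θ ∧ indFun H θ = χ)
    (K : Subgroup G) (hK : ∀ U V : Subgroup G, V < U → U.Normal → V.Normal →
      (∀ M : Subgroup G, M.Normal → V ≤ M → M ≤ U → M = V ∨ M = U) → (∀ u ∈ U, u ^ p ∈ V) →
      ∀ x ∈ K, ∀ u ∈ U, x * u * x⁻¹ * u⁻¹ ∈ V) :
    ∃ F : G → ℕ,
      (∀ g, F g ≤ ((Subgroup.centralizer ({g} : Set G)).index).factorization p) ∧
      Fintype.card G * (charDegree χ).factorization p ≤ ∑ g, F g ∧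
      ∀ g, ∀ x ∈ K, F (g * x) = F g := by
  have hχtop : IsIrrCharacter (⊤ : Subgroup G) (fun n : (⊤ : Subgroup G) => χ n) :=
    isIrr_comp ((Subgroup.topEquiv : (⊤ : Subgroup G) ≃* G) : (⊤ : Subgroup G) →* G)
      Subgroup.topEquiv.surjective hχ
  obtain ⟨F, h1, h2, h3⟩ := exists_fun hs p χ hχ (fun N hN => homog_of_prim hχ hprim N hN) K hK _ ⊤
    inferInstance rfl (fun n : (⊤ : Subgroup G) => χ n) 1 hχtop (by rw [Nat.cast_one, one_smul])
  obtain ⟨d, hd, hd'⟩ := isIrr_apply_one hχ
  refine ⟨F, fun g => ?_, ?_, h3⟩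
  · have h4 := h1 g
    have h5 : cN (⊤ : Subgroup G) g = Subgroup.centralizer {g} := by unfold cN; exact top_inf_eq _
    rw [h5, Subgroup.card_top] at h4
    have h6 := Subgroup.card_mul_index (Subgroup.centralizer ({g} : Set G))
    rw [← h6, Nat.factorization_mul Nat.card_pos.ne' Subgroup.index_ne_zero_of_finite, Finsupp.add_apply] at h4
    omega
  · rw [charDegree_eq hd']
    exact h2 d hd'

/-- **Main theorem.** -/
theorem main (hs : Group.IsSolvable G) (p : ℕ) [hp : Fact p.Prime] {χ : G → ℂ}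
    (hχ : IsIrrCharacter G χ)
    (hprim : ¬ ∃ (H : Subgroup G), H ≠ ⊤ ∧ ∃ θ : ↥H → ℂ, IsCharacter ↥H θ ∧ indFun H θ = χ) :
    ∃ g : G, (charDegree χ).factorization p ≤
      ((Subgroup.centralizer ({g} : Set G)).index).factorization p := by
  classical
  obtain ⟨F, h1, h2, -⟩ := exists_top hs p hχ hprim ⊥ (by
    intro U V _ _ _ _ _ x hx u _
    rw [Subgroup.mem_bot.1 hx]
    simp)
  by_contra hcon
  push Not at hcon
  have h3 : ∑ g : G, F g < ∑ _g : G, (charDegree χ).factorization p :=
    Finset.sum_lt_sum_of_nonempty Finset.univ_nonempty (fun g _ => lt_of_le_of_lt (h1 g) (hcon g))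
  rw [Finset.sum_const, Finset.card_univ, smul_eq_mul] at h3
  exact absurd h2 (not_le_of_gt h3)

end Cfsg.Agent.H726.PrimMain
end

-- part: H726/PrimTwo
section
/-!
# Primitive characters of metanilpotent groups with two prime divisors

`main` : the degree of a primitive character of a metanilpotent `{p, q}`-group divides a class size.
-/

set_option autoImplicit false
set_option linter.unusedSectionVars false

namespace Cfsg.Agent.H726.PrimTwo

open Cfsg Module
open Cfsg.Agent.Characters.Core Cfsg.Agent.Characters.Clifford Cfsg.Agent.H726.PrimChief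
  Cfsg.Agent.H726.PrimAvg Cfsg.Agent.H726.PrimMain
open scoped commutatorElement

variable {G : Type*} [Group G] [Fintype G]

/-- The Fitting subgroup centralizes the chief factors. -/
theorem fitting_comm (U V : Subgroup G) (hVU : V < U) (hU : U.Normal) (hV : V.Normal)
    (hch : ∀ M : Subgroup G, M.Normal → V ≤ M → M ≤ U → M = V ∨ M = U) {x u : G}
    (hx : x ∈ fittingSubgroup G) (hu : u ∈ U) : x * u * x⁻¹ * u⁻¹ ∈ V := by
  have hUn : (U.map (QuotientGroup.mk' V)).Normal := hU.map _ (QuotientGroup.mk'_surjective V)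
  have hne : U.map (QuotientGroup.mk' V) ≠ ⊥ := by
    intro h
    rw [Subgroup.map_eq_bot_iff, QuotientGroup.ker_mk'] at h
    exact absurd h (not_le_of_gt hVU)
  have hmin : ∀ K : Subgroup (G ⧸ V), K.Normal → K ≤ U.map (QuotientGroup.mk' V) →
      K = ⊥ ∨ K = U.map (QuotientGroup.mk' V) := by
    intro K hK hKU
    have h1 : V ≤ K.comap (QuotientGroup.mk' V) := by
      intro v hv
      rw [Subgroup.mem_comap]
      have : (QuotientGroup.mk' V) v = 1 := (QuotientGroup.eq_one_iff _).2 hv
      rw [this]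
      exact K.one_mem
    have h2 : K.comap (QuotientGroup.mk' V) ≤ U := by
      intro v hv
      obtain ⟨w, hw, hwv⟩ := hKU hv
      have h3 : w⁻¹ * v ∈ V := QuotientGroup.eq.1 hwv
      have : v = w * (w⁻¹ * v) := by group
      rw [this]
      exact U.mul_mem hw (hVU.le h3)
    rcases hch _ (hK.comap _) h1 h2 with h3 | h3
    · left
      have h4 := congrArg (Subgroup.map (QuotientGroup.mk' V)) h3
      rw [Subgroup.map_comap_eq_self_of_surjective (QuotientGroup.mk'_surjective V)] at h4
      rw [h4, Subgroup.map_eq_bot_iff, QuotientGroup.ker_mk']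
    · right
      have h4 := congrArg (Subgroup.map (QuotientGroup.mk' V)) h3
      rwa [Subgroup.map_comap_eq_self_of_surjective (QuotientGroup.mk'_surjective V)] at h4
  have h5 := S0583.result (U.map (QuotientGroup.mk' V)) hne hmin
  -- the image of the Fitting subgroup
  have h6 : (fittingSubgroup G).map (QuotientGroup.mk' V) ≤ fittingSubgroup (G ⧸ V) := by
    unfold fittingSubgroup
    rw [sSup_eq_iSup', Subgroup.map_iSup]
    refine iSup_le fun N => ?_
    refine le_sSup ⟨N.2.1.map _ (QuotientGroup.mk'_surjective V), ?_⟩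
    have := N.2.2
    exact Group.nilpotent_of_surjective ((QuotientGroup.mk' V).subgroupMap N.1)
      ((QuotientGroup.mk' V).subgroupMap_surjective N.1)
  have h7 := h5 (h6 ⟨x, hx, rfl⟩)
  rw [Subgroup.mem_centralizer_iff] at h7
  have h8 := h7 _ ⟨u, hu, rfl⟩
  have h9 : (QuotientGroup.mk' V) (x * u * x⁻¹ * u⁻¹) = 1 := by
    rw [map_mul, map_mul, map_mul, map_inv, map_inv, ← h8]
    group
  exact (QuotientGroup.eq_one_iff _).1 h9

/-- The part of `G` over the Sylow `p`-subgroup of `G / F(G)` centralizes the `p`-chief factors. -/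
theorem sylow_comm (hs : Group.IsSolvable G) (p : ℕ) [hp : Fact p.Prime] [hF : (fittingSubgroup G).Normal]
    (P : Subgroup (G ⧸ fittingSubgroup G)) [hPn : P.Normal] (hP : IsPGroup p P)
    (U V : Subgroup G) (hVU : V < U) (hU : U.Normal) (hV : V.Normal)
    (hch : ∀ M : Subgroup G, M.Normal → V ≤ M → M ≤ U → M = V ∨ M = U) (hexp : ∀ u ∈ U, u ^ p ∈ V) {x u : G}
    (hx : x ∈ P.comap (QuotientGroup.mk' (fittingSubgroup G))) (hu : u ∈ U) : x * u * x⁻¹ * u⁻¹ ∈ V := by
  classical
  have hab := comm_le hs U V hVU hch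
  obtain ⟨E, i1, i2, π, h1, h2, h3, h4⟩ :=
    OddOrderCharacters.PF9.SectionModule.exists_module p U V
      (fun h _ k hk => hV.conj_mem k hk h)
      (fun a ha b hb => hab (Subgroup.commutator_mem_commutator ha hb)) hexp
  obtain ⟨ρ, hρ⟩ := OddOrderCharacters.PF9.SectionModule.exists_rep_normal (p := p) h1 h2 h3 hU hV
  have hfinE : Finite E := Finite.of_surjective π h1
  have hirr : ∀ W : Submodule (ZMod p) E, (∀ g, ∀ v ∈ W, ρ g v ∈ W) → W = ⊥ ∨ W = ⊤ := by
    intro W hW
    obtain ⟨M, hMN, hM⟩ := OddOrderCharacters.PF9.SectionModule.exists_subgroup h2 W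
    have hMn : M.Normal := by
      refine ⟨fun x hx g => ?_⟩
      have hxN : x ∈ U := hMN hx
      have h5 : π ⟨x, hxN⟩ ∈ W := (hM ⟨x, hxN⟩).1 hx
      have h6 := hW g _ h5
      rw [hρ] at h6
      exact (hM _).2 h6
    have hLM : V ≤ M := by
      intro x hx
      have hxN : x ∈ U := hVU.le hx
      refine (hM ⟨x, hxN⟩).2 ?_
      rw [(h3 ⟨x, hxN⟩).2 hx]
      exact W.zero_mem
    rcases hch M hMn hLM hMN with h5 | h5
    · left
      rw [eq_bot_iff]
      intro w hw
      obtain ⟨a, rfl⟩ := h1 w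
      have h6 : (a : G) ∈ M := (hM a).2 hw
      rw [h5] at h6
      rw [Submodule.mem_bot]
      exact (h3 a).2 h6
    · right
      rw [eq_top_iff]
      intro w _
      obtain ⟨a, rfl⟩ := h1 w
      refine (hM a).1 ?_
      rw [h5]
      exact a.2
  have hnt : Nontrivial E := by
    obtain ⟨a, ha, ha'⟩ := SetLike.exists_of_lt hVU
    exact ⟨⟨π ⟨a, ha⟩, 0, fun h => ha' ((h3 ⟨a, ha⟩).1 h)⟩⟩
  have hact : ∀ x : G, (∀ u ∈ U, x * u * x⁻¹ * u⁻¹ ∈ V) ↔ ρ x = 1 := by
    intro x
    constructor
    · intro h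
      ext w
      obtain ⟨a, rfl⟩ := h1 w
      rw [hρ, Module.End.one_apply, OddOrderCharacters.PF9.SectionModule.pi_eq_iff h2 h3]
      have h6 := h a a.2
      have h7 : (x * a * x⁻¹)⁻¹ * a = (a : G)⁻¹ * (x * a * x⁻¹ * (a : G)⁻¹)⁻¹ * a := by group
      change (x * a * x⁻¹)⁻¹ * a ∈ V
      rw [h7]
      have := hV.conj_mem _ (V.inv_mem h6) (a : G)⁻¹
      rwa [inv_inv] at this
    · intro h u hu
      have h5 := hρ x ⟨u, hu⟩
      rw [h, Module.End.one_apply, OddOrderCharacters.PF9.SectionModule.pi_eq_iff h2 h3] at h5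
      change u⁻¹ * (x * u * x⁻¹) ∈ V at h5
      have h6 := hV.conj_mem _ h5 u
      have h7 : u * (u⁻¹ * (x * u * x⁻¹)) * u⁻¹ = x * u * x⁻¹ * u⁻¹ := by group
      rwa [h7] at h6
  let ρ' : G ⧸ fittingSubgroup G →* Module.End (ZMod p) E :=
    QuotientGroup.lift (fittingSubgroup G) ρ (fun f hf => (hact f).1 fun u hu =>
      fitting_comm U V hVU hU hV hch hf hu)
  have hρ' : ∀ g : G, ρ' (g : G ⧸ fittingSubgroup G) = ρ g := fun g => rfl
  have hirr' : ∀ W : Submodule (ZMod p) E, (∀ g, ∀ v ∈ W, ρ' g v ∈ W) → W = ⊥ ∨ W = ⊤ :=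
    fun W hW => hirr W fun g v hv => hW (g : G ⧸ fittingSubgroup G) v hv
  have htop := fixS_eq_top ρ' hirr' P hP
  refine (hact x).2 ?_ u hu
  ext w
  have : w ∈ fixS ρ' P := by rw [htop]; exact Submodule.mem_top
  exact this _ hx

theorem exists_K (hs : Group.IsSolvable G) (p : ℕ) [hp : Fact p.Prime] [hF : (fittingSubgroup G).Normal]
    (hnil : Group.IsNilpotent (G ⧸ fittingSubgroup G)) :
    ∃ K : Subgroup G, K.Normal ∧ ¬ p ∣ K.index ∧ ∀ U V : Subgroup G, V < U → U.Normal → V.Normal →
      (∀ M : Subgroup G, M.Normal → V ≤ M → M ≤ U → M = V ∨ M = U) → (∀ u ∈ U, u ^ p ∈ V) →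
      ∀ x ∈ K, ∀ u ∈ U, x * u * x⁻¹ * u⁻¹ ∈ V := by
  classical
  obtain ⟨P⟩ : Nonempty (Sylow p (G ⧸ fittingSubgroup G)) := inferInstance
  have hPn : (P : Subgroup (G ⧸ fittingSubgroup G)).Normal := by
    have h1 := (Group.isNilpotent_of_finite_tfae (G := G ⧸ fittingSubgroup G)).out 0 3
    exact h1.1 hnil p hp P
  refine ⟨(P : Subgroup (G ⧸ fittingSubgroup G)).comap (QuotientGroup.mk' (fittingSubgroup G)),
    hPn.comap _, ?_, ?_⟩
  · rw [Subgroup.index_comap_of_surjective _ (QuotientGroup.mk'_surjective _)]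
    exact P.not_dvd_index
  · intro U V hVU hU hV hch hexp x hx u hu
    exact sylow_comm hs p _ P.isPGroup' U V hVU hU hV hch hexp hx hu

/-- **Main theorem.** -/
theorem main (p q : ℕ) [hp : Fact p.Prime] [hq : Fact q.Prime]
    (hpq : (Nat.card G).primeFactors ⊆ {p, q}) [hF : (fittingSubgroup G).Normal]
    (hs : Group.IsSolvable G) (hnil : Group.IsNilpotent (G ⧸ fittingSubgroup G)) {χ : G → ℂ}
    (hχ : IsIrrCharacter G χ)
    (hprim : ¬ ∃ (H : Subgroup G), H ≠ ⊤ ∧ ∃ θ : ↥H → ℂ, IsCharacter ↥H θ ∧ indFun H θ = χ) :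
    ∃ g : G, charDegree χ ∣ (Subgroup.centralizer ({g} : Set G)).index := by
  classical
  obtain ⟨K₁, hK₁n, hK₁i, hK₁⟩ := exists_K hs p hnil
  obtain ⟨K₂, hK₂n, hK₂i, hK₂⟩ := exists_K hs q hnil
  obtain ⟨F₁, a1, a2, a3⟩ := exists_top hs p hχ hprim K₁ hK₁
  obtain ⟨F₂, b1, b2, b3⟩ := exists_top hs q hχ hprim K₂ hK₂
  have hex : ∀ (F : G → ℕ) (d : ℕ), Fintype.card G * d ≤ ∑ g, F g → ∃ g, d ≤ F g := by
    intro F d hF'
    by_contra hcon
    push Not at hcon
    have h3 : ∑ g : G, F g < ∑ _g : G, d :=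
      Finset.sum_lt_sum_of_nonempty Finset.univ_nonempty (fun g _ => hcon g)
    rw [Finset.sum_const, Finset.card_univ, smul_eq_mul] at h3
    exact absurd hF' (not_le_of_gt h3)
  obtain ⟨g₁, hg₁⟩ := hex F₁ _ a2
  obtain ⟨g₂, hg₂⟩ := hex F₂ _ b2
  have htop : K₁ ⊔ K₂ = ⊤ := by
    rw [← Subgroup.index_eq_one]
    by_contra hne
    obtain ⟨r, hr, hrd⟩ := Nat.exists_prime_and_dvd hne
    have h1 : r ∣ Nat.card G := hrd.trans (Subgroup.index_dvd_card _)
    have h2 : r ∈ (Nat.card G).primeFactors := Nat.mem_primeFactors.2 ⟨hr, h1, Nat.card_pos.ne'⟩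
    have h3 := hpq h2
    rw [Finset.mem_insert, Finset.mem_singleton] at h3
    rcases h3 with rfl | rfl
    · exact hK₁i (hrd.trans (Subgroup.index_dvd_of_le le_sup_left))
    · exact hK₂i (hrd.trans (Subgroup.index_dvd_of_le le_sup_right))
  obtain ⟨a, ha, b, hb, hab⟩ : ∃ a ∈ K₁, ∃ b ∈ K₂, a * b = g₁⁻¹ * g₂ := by
    have : g₁⁻¹ * g₂ ∈ K₁ ⊔ K₂ := by rw [htop]; exact Subgroup.mem_top _
    rw [← SetLike.mem_coe, Subgroup.mul_normal] at this
    obtain ⟨a, ha, b, hb, hab⟩ := this
    exact ⟨a, ha, b, hb, hab⟩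
  have hg : g₁ * a = g₂ * b⁻¹ := by
    have : g₂ = g₁ * (a * b) := by rw [hab]; group
    rw [this]
    group
  refine ⟨g₁ * a, ?_⟩
  have hdvd := Blocks.Knorr.charDegree_dvd hχ
  have hd0 : charDegree χ ≠ 0 := by
    obtain ⟨d, hd, hd'⟩ := isIrr_apply_one hχ
    rw [charDegree_eq hd']
    exact hd.ne'
  have hi0 : (Subgroup.centralizer ({g₁ * a} : Set G)).index ≠ 0 := Subgroup.index_ne_zero_of_finite
  rw [← Nat.factorization_le_iff_dvd hd0 hi0]
  intro r
  by_cases hr1 : r = p
  · subst hr1
    calc _ ≤ F₁ g₁ := hg₁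
      _ = F₁ (g₁ * a) := (a3 g₁ a ha).symm
      _ ≤ _ := a1 _
  by_cases hr2 : r = q
  · subst hr2
    calc _ ≤ F₂ g₂ := hg₂
      _ = F₂ (g₂ * b⁻¹) := (b3 g₂ b⁻¹ (K₂.inv_mem hb)).symm
      _ = F₂ (g₁ * a) := by rw [hg]
      _ ≤ _ := b1 _
  have hr3 : r ∉ (Nat.card G).primeFactors := by
    intro h
    have := hpq h
    rw [Finset.mem_insert, Finset.mem_singleton] at this
    rcases this with h | h
    · exact hr1 h
    · exact hr2 h
  have h4 : (charDegree χ).factorization r = 0 := by
    have h5 := (Nat.factorization_le_iff_dvd hd0 Nat.card_pos.ne').2 hdvd r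
    have h6 : (Nat.card G).factorization r = 0 := by
      rw [← Nat.support_factorization] at hr3
      exact Finsupp.notMem_support_iff.1 hr3
    omega
  rw [h4]
  exact Nat.zero_le _

end Cfsg.Agent.H726.PrimTwo
end

-- part: S4993
section
set_option autoImplicit false
open Cfsg

namespace Cfsg.Agent.S4993

/-- Let G be a group of odd order whose order has exactly two prime divisors and whose quotient by its Fitting subgroup is nilpotent (G is metanilpotent), and let χ be a primitive irreducible complex character of G (not induced from a character of any proper subgroup). Then χ(1) divides the size of some conjugacy class of G. -/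
theorem result {G : Type*} [Group G] [Fintype G] (hodd : Odd (Nat.card G)) (h2 : (Nat.card G).primeFactors.card = 2) [hF : (Cfsg.fittingSubgroup G).Normal] (hmeta : Group.IsNilpotent (G ⧸ Cfsg.fittingSubgroup G)) (χ : Cfsg.IrrCharacter G) (hprim : ¬ ∃ (H : Subgroup G), H ≠ ⊤ ∧ ∃ θ : ↥H → ℂ, Cfsg.IsCharacter ↥H θ ∧ Cfsg.indFun H θ = (χ : G → ℂ)) : ∃ g : G, Cfsg.charDegree (χ : G → ℂ) ∣ (Subgroup.centralizer ({g} : Set G)).index := by
  obtain ⟨p, q, hpq, hcard⟩ := Finset.card_eq_two.1 h2
  have hp : Fact p.Prime := ⟨Nat.prime_of_mem_primeFactors (by rw [hcard]; exact Finset.mem_insert_self p {q})⟩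
  have hq : Fact q.Prime := ⟨Nat.prime_of_mem_primeFactors (by
    rw [hcard]; exact Finset.mem_insert_of_mem (Finset.mem_singleton_self q))⟩
  have hs : Group.IsSolvable G := by
    rw [Group.isSolvable_iff_subgroup_quotient (Cfsg.fittingSubgroup G)]
    have h1 : Group.IsNilpotent (Cfsg.fittingSubgroup G) := S0008.result
    exact ⟨inferInstance, inferInstance⟩
  exact H726.PrimTwo.main p q hcard.le hs hmeta χ.2 hprim

end Cfsg.Agent.S4993
end
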