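import Cfsg.Statements.S5011
import Mathlib
set_option linter.all false

set_option autoImplicit false
open Cfsg

namespace Cfsg.Agent.S5011

/-- Let G be a finite non-abelian simple group and ρ an irreducible complex representation of G on a space of dimension greater than one (irreducible in the sense that the only subspaces invariant under every ρ(x) are 0 and the whole space). Then for every non-identity element g of G, the centralizer of g does not act irreducibly: there is a non-zero proper subspace invariant under ρ(c) for every c commuting with g. -/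
theorem result {G : Type*} [Group G] [Finite G] [IsSimpleGroup G]
    (hG : ¬ IsMulCommutative G) {V : Type*} [AddCommGroup V] [Module ℂ V] [FiniteDimensional ℂ V]
    (ρ : Representation ℂ G V)
    (hirr : ∀ W : Submodule ℂ V, (∀ x : G, ∀ v ∈ W, ρ x v ∈ W) → W = ⊥ ∨ W = ⊤)
    (hdim : 1 < Module.finrank ℂ V) (g : G) (hg : g ≠ 1) :
    ∃ W : Submodule ℂ V, W ≠ ⊥ ∧ W ≠ ⊤ ∧ ∀ c ∈ Subgroup.centralizer ({g} : Set G), ∀ v ∈ W, ρ c v ∈ W := by
  classical
  have hV : Nontrivial V := Module.nontrivial_of_finrank_pos (R := ℂ) (by omega)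
  by_contra hcon
  push Not at hcon
  -- `ρ g` has an eigenvalue, its eigenspace is invariant under the centralizer
  obtain ⟨c, hc⟩ := Module.End.exists_eigenvalue (ρ g)
  set W := Module.End.eigenspace (ρ g) c with hW
  have hWinv : ∀ x ∈ Subgroup.centralizer ({g} : Set G), ∀ v ∈ W, ρ x v ∈ W := by
    intro x hx v hv
    rw [hW, Module.End.mem_eigenspace_iff] at hv ⊢
    have h1 : g * x = x * g := Subgroup.mem_centralizer_iff.1 hx g (Set.mem_singleton g)
    have h2 : ρ g (ρ x v) = ρ x (ρ g v) := by
      have h3 : ρ g * ρ x = ρ x * ρ g := by rw [← map_mul, ← map_mul, h1]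
      exact congrArg (fun T : Module.End ℂ V => T v) h3
    rw [h2, hv, map_smul]
  have hWbot : W ≠ ⊥ := hc
  have hWtop : W = ⊤ := by
    by_contra hne
    obtain ⟨x, hx, v, hv, hxv⟩ := hcon W hWbot hne
    exact hxv (hWinv x hx v hv)
  have hscal : ∀ v : V, ρ g v = c • v := by
    intro v
    have : v ∈ W := by rw [hWtop]; exact Submodule.mem_top
    exact Module.End.mem_eigenspace_iff.1 this
  -- the normal subgroup of elements acting as scalars
  let K : Subgroup G :=
    { carrier := {x | ∀ y : G, ρ (x * y) = ρ (y * x)}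
      one_mem' := fun y => by rw [one_mul, mul_one]
      mul_mem' := fun {a b} ha hb y => by
        have ha' : ∀ y : G, ρ a * ρ y = ρ y * ρ a := fun y => by
          rw [← map_mul, ← map_mul]; exact ha y
        have hb' : ∀ y : G, ρ b * ρ y = ρ y * ρ b := fun y => by
          rw [← map_mul, ← map_mul]; exact hb y
        rw [map_mul ρ (a * b) y, map_mul ρ y (a * b), map_mul ρ a b, mul_assoc, hb', ← mul_assoc, ha',
          mul_assoc]
      inv_mem' := fun {a} ha y => by
        have ha' : ∀ y : G, ρ a * ρ y = ρ y * ρ a := fun y => by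
          rw [← map_mul, ← map_mul]; exact ha y
        rw [map_mul, map_mul]
        have h1 : ρ a⁻¹ * ρ a = 1 := by rw [← map_mul, inv_mul_cancel, map_one]
        have h2 : ρ a * ρ a⁻¹ = 1 := by rw [← map_mul, mul_inv_cancel, map_one]
        calc ρ a⁻¹ * ρ y = ρ a⁻¹ * ρ y * (ρ a * ρ a⁻¹) := by rw [h2, mul_one]
          _ = ρ a⁻¹ * (ρ y * ρ a) * ρ a⁻¹ := by simp only [mul_assoc]
          _ = ρ a⁻¹ * (ρ a * ρ y) * ρ a⁻¹ := by rw [ha']
          _ = (ρ a⁻¹ * ρ a) * ρ y * ρ a⁻¹ := by simp only [mul_assoc]
          _ = ρ y * ρ a⁻¹ := by rw [h1, one_mul] }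
  have hgK : g ∈ K := by
    intro y
    rw [map_mul, map_mul]
    ext v
    change ρ g (ρ y v) = ρ y (ρ g v)
    rw [hscal, hscal, map_smul]
  have hKn : K.Normal := by
    refine ⟨fun x hx z => ?_⟩
    intro y
    have hx' : ∀ y : G, ρ x * ρ y = ρ y * ρ x := fun y => by
      rw [← map_mul, ← map_mul]; exact hx y
    have h2 : ρ z * ρ z⁻¹ = 1 := by rw [← map_mul, mul_inv_cancel, map_one]
    have h3 : ρ (z * x * z⁻¹) = ρ x := by
      rw [map_mul, map_mul, ← hx', mul_assoc, h2, mul_one]
    rw [map_mul ρ (z * x * z⁻¹) y, map_mul ρ y (z * x * z⁻¹), h3]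
    exact hx' y
  rcases hKn.eq_bot_or_eq_top with h | h
  · rw [h, Subgroup.mem_bot] at hgK
    exact hg hgK
  · -- all `ρ x` commute, so every line spanned by an eigenvector of all is invariant
    have hall : ∀ x y : G, ρ x * ρ y = ρ y * ρ x := by
      intro x y
      have hx : x ∈ K := by rw [h]; exact Subgroup.mem_top _
      rw [← map_mul, ← map_mul]
      exact hx y
    -- every `ρ x` is a scalar
    have hsc : ∀ x : G, ∃ c : ℂ, ∀ v, ρ x v = c • v := by
      intro x
      obtain ⟨c, hc⟩ := Module.End.exists_eigenvalue (ρ x)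
      refine ⟨c, ?_⟩
      have h1 := hirr (Module.End.eigenspace (ρ x) c) (by
        intro y v hv
        rw [Module.End.mem_eigenspace_iff] at hv ⊢
        have h2 : ρ x (ρ y v) = ρ y (ρ x v) :=
          congrArg (fun T : Module.End ℂ V => T v) (hall x y)
        rw [h2, hv, map_smul])
      rcases h1 with h1 | h1
      · exact absurd h1 hc
      · intro v
        have : v ∈ Module.End.eigenspace (ρ x) c := by rw [h1]; exact Submodule.mem_top
        exact Module.End.mem_eigenspace_iff.1 this
    obtain ⟨v, hv⟩ := exists_ne (0 : V)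
    rcases hirr (Submodule.span ℂ {v}) (by
      intro x w hw
      obtain ⟨c, hc⟩ := hsc x
      rw [hc]
      exact Submodule.smul_mem _ _ hw) with h1 | h1
    · rw [Submodule.span_singleton_eq_bot] at h1
      exact hv h1
    · have h2 := finrank_span_singleton (K := ℂ) hv
      rw [h1, finrank_top] at h2
      omega

end Cfsg.Agent.S5011
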