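import Cfsg.Statements.S5086
import Cfsg.Agent.H745.FusNormalCrit
set_option linter.all false

set_option autoImplicit false
open Cfsg

namespace Cfsg.Agent.S5086

/-- In a saturated fusion system over a finite p-group, a subgroup Q is normal in the system if and only if Q is strongly closed in the system and is contained in every centric-radical subgroup. -/
theorem result {Ω : Type*} [Group Ω] {S : Subgroup Ω} [Finite S] (p : ℕ) [Fact p.Prime] (hS : IsPGroup p S) (F : Cfsg.FusionSystem S) (hF : F.IsSaturated p) (Q : Subgroup Ω) : F.IsNormal Q ↔ (F.StronglyClosed Q ∧ ∀ P : Subgroup Ω, F.IsCentric P → F.IsRadical p P → Q ≤ P) := by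
  constructor
  · intro h
    exact ⟨Cfsg.Agent.H759.IsNormal.stronglyClosed h, fun P hPc hPr =>
      Cfsg.Agent.H745.le_of_isNormal_of_radical hS h hPc hPr⟩
  · rintro ⟨hQ, h⟩
    refine Cfsg.Agent.H745.isNormal_of_aut_extends hS hF hQ fun R hRa hRr hQR α hα => ?_
    have hRS : R ≤ S := hRa.1
    refine Subgroup.subset_closure ?_
    by_cases hRc : F.IsCentric R
    · have hnr : ¬ F.IsRadical p R := fun hr => hQR (h R hRc hr)
      obtain ⟨N, hN, hRN, hext⟩ := Cfsg.Agent.H745.exists_extension_of_not_radical hS hRa hRr hnr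
      have hfN : Finite N := Finite.of_injective _
        (Subgroup.inclusion_injective (hN.trans inf_le_left : N ≤ S))
      refine ⟨N, hRN.le, ?_, hext α hα⟩
      refine lt_of_le_of_ne (Subgroup.card_le_of_le hRN.le) fun heq => ?_
      exact hRN.ne (Subgroup.eq_of_le_of_card_ge hRN.le heq.ge)
    · obtain ⟨R', hRR', hlt, ψ, hψ, he⟩ :=
        Cfsg.Agent.H802.exists_extension_of_not_centric hRr hRc hα
      exact ⟨R', hRR', hlt, ψ, hψ, he⟩

end Cfsg.Agent.S5086
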