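import Cfsg.Statements.S5135
import Cfsg.Agent.H755.FactorTools
import Cfsg.Agent.H759.FusBasic
set_option linter.all false

set_option autoImplicit false
open Cfsg

namespace Cfsg.Agent.S5135

/-- Let G be a finite group, S a Sylow p-subgroup and H a normal subgroup of G. Then the fusion system of G/H on the image SH/H of S is the factor system of the fusion system of G on S modulo S ∩ H, read through the quotient map restricted to S: for each subgroup P' of SH/H, the conjugation maps by elements of G/H defined on P' with values in SH/H are exactly the homomorphisms induced by the conjugation maps by elements of G defined on the full preimage of P' in S with values in S. -/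
theorem result {G : Type*} [Group G] [Finite G] (p : ℕ) [Fact p.Prime] (S : Sylow p G) (H : Subgroup G) [H.Normal] : (Cfsg.groupFusionSystem (S : Subgroup G)).IsFactorSystem ((S : Subgroup G) ⊓ H) ((QuotientGroup.mk' H).comp (S : Subgroup G).subtype) (Cfsg.groupFusionSystem ((S : Subgroup G).map (QuotientGroup.mk' H))) := by
  refine ⟨inf_le_left, fun s => ?_, ?_, fun P' φ' => ⟨?_, ?_⟩⟩
  · show ((s : G) : G ⧸ H) = 1 ↔ (s : G) ∈ (S : Subgroup G) ⊓ H
    rw [QuotientGroup.eq_one_iff]
    exact ⟨fun h => ⟨s.2, h⟩, fun h => h.2⟩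
  · rw [MonoidHom.range_comp, Subgroup.range_subtype]
  · rintro ⟨hP', hφS, y, hy⟩
    obtain ⟨g, rfl⟩ := QuotientGroup.mk_surjective y
    refine ⟨hP', ?_⟩
    set θ : (S : Subgroup G) →* G ⧸ H := (QuotientGroup.mk' H).comp (S : Subgroup G).subtype with hθ
    set P := FusionSystem.preimageAlong θ P' with hP
    have hPS : P ≤ (S : Subgroup G) := Cfsg.Agent.H755.preimageAlong_le θ P'
    have hPm : ∀ x ∈ P, ((x : G) : G ⧸ H) ∈ P' := by
      intro x hx
      exact ((Cfsg.Agent.H755.mem_preimageAlong θ P' x).1 hx).2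
    have hPp : IsPGroup p (P.map (MulAut.conj g).toMonoidHom) := (S.isPGroup'.to_le hPS).map _
    obtain ⟨h, hh, hc⟩ := Cfsg.Agent.H759.exists_conj_le_of_le_sup S H
      (P.map (MulAut.conj g).toMonoidHom) hPp (by
        rintro _ ⟨x, hx, rfl⟩
        have h1 := hφS ⟨(x : G ⧸ H), hPm x hx⟩
        rw [hy] at h1
        obtain ⟨s, hs, he⟩ := h1
        have h2 : (s : G ⧸ H) = ((g * x * g⁻¹ : G) : G ⧸ H) := he
        rw [QuotientGroup.eq] at h2
        have h3 : (MulAut.conj g).toMonoidHom x = s * (s⁻¹ * (g * x * g⁻¹)) := by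
          show g * x * g⁻¹ = _
          group
        rw [h3]
        exact mul_mem (Subgroup.mem_sup_right hs) (Subgroup.mem_sup_left h2))
    have hmem : ∀ x : P, h * g * (x : G) * (h * g)⁻¹ ∈ (S : Subgroup G) := by
      intro x
      have h1 := hc _ ⟨(x : G), x.2, rfl⟩
      have h2 : h * g * (x : G) * (h * g)⁻¹ = h * (MulAut.conj g).toMonoidHom (x : G) * h⁻¹ := by
        show _ = h * (g * x * g⁻¹) * h⁻¹
        group
      rw [h2]
      exact h1
    refine ⟨conjHom P (h * g), ⟨hPS, hmem, h * g, fun x => rfl⟩, hPS, hmem, fun x => hPm x x.2,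
      fun x => ?_⟩
    rw [hy]
    show (g : G ⧸ H) * ((x : G) : G ⧸ H) * (g : G ⧸ H)⁻¹ = ((h * g * (x : G) * (h * g)⁻¹ : G) : G ⧸ H)
    have hh1 : (h : G ⧸ H) = 1 := (QuotientGroup.eq_one_iff h).2 hh
    simp only [QuotientGroup.mk_mul, QuotientGroup.mk_inv, hh1, one_mul]
  · rintro ⟨hP', φ, ⟨hPS, hφS, g, hg⟩, h1, h2, h3, h4⟩
    have hP'r : ∀ y : P', ∃ (x : FusionSystem.preimageAlong ((QuotientGroup.mk' H).comp (S : Subgroup G).subtype) P'),
        ((x : G) : G ⧸ H) = y := by
      rintro ⟨y, hy⟩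
      obtain ⟨s, hs, rfl⟩ := hP' hy
      exact ⟨⟨s, (Cfsg.Agent.H755.mem_preimageAlong _ P' s).2 ⟨hs, hy⟩⟩, rfl⟩
    refine ⟨hP', fun y => ?_, (g : G ⧸ H), fun y => ?_⟩
    · obtain ⟨x, hx⟩ := hP'r y
      have h5 := h4 x
      have h6 : y = ⟨((QuotientGroup.mk' H).comp (S : Subgroup G).subtype) ⟨x, h1 x.2⟩, h3 x⟩ :=
        Subtype.ext hx.symm
      rw [h6, h5]
      exact ⟨φ x, h2 x, rfl⟩
    · obtain ⟨x, hx⟩ := hP'r y
      have h5 := h4 x
      have h6 : y = ⟨((QuotientGroup.mk' H).comp (S : Subgroup G).subtype) ⟨x, h1 x.2⟩, h3 x⟩ :=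
        Subtype.ext hx.symm
      rw [h6, h5]
      show ((φ x : G) : G ⧸ H) = (g : G ⧸ H) * ((x : G) : G ⧸ H) * (g : G ⧸ H)⁻¹
      rw [hg x]
      simp only [QuotientGroup.mk_mul, QuotientGroup.mk_inv]

end Cfsg.Agent.S5135
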