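import Cfsg.Agent.H793.ZCenter
import Cfsg.Statements.S5196
import Cfsg.Agent.H768.ZPack
set_option linter.all false

-- part: H768/ZFunctor
section
/-!
# Elements of `Z(S)` fixed by `N_F(W(S))` are central in `F`, for a functor `W` (helper768)

The functor version of `Cfsg.Agent.H793.mem_center_of_local`.
-/

set_option autoImplicit false

namespace Cfsg.Agent.H768

open Cfsg Cfsg.FusionSystem Cfsg.Agent.H752 Cfsg.Agent.H793

universe u

variable {Ω : Type u} [Group Ω] {S : Subgroup Ω} {F : FusionSystem S}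

theorem mem_map_iff {T : Subgroup Ω} {L : Type*} [Group L] (ι : T →* L)
    (hι : Function.Injective ι) {W : Subgroup Ω} (z : T) :
    ι z ∈ (W.subgroupOf T).map ι ↔ (z : Ω) ∈ W := by
  constructor
  · rintro ⟨w, hw, h⟩
    rw [hι h] at hw
    exact hw
  · intro h
    exact ⟨z, h, rfl⟩

/-- **Elements of `Z(S)` fixed by `Aut_F(W(S))` are central in `F`**, if the corresponding local statement on the
models of the `N_F(Q)`, `Q` centric and fully normalized, holds. -/
theorem mem_center_of_functor {p : ℕ} [Fact p.Prime] [Finite S] (hS : IsPGroup p S)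
    (hF : F.IsSaturated p) {x : Ω} (hx : x ∈ S ⊓ Subgroup.centralizer (S : Set Ω))
    (W : Subgroup Ω → Subgroup Ω) (hWle : ∀ T ≤ S, W T ≤ T) (hWx : ∀ T ≤ S, x ∈ T → x ∈ W T)
    (hWN : ∀ T ≤ S, Subgroup.normalizer (T : Set Ω) ≤ Subgroup.normalizer (W T : Set Ω))
    (hWS : ∀ f : Ω → Ω, Mp F S f → (∀ y ∈ S, f y ∈ S) → ∀ y ∈ W S, f y ∈ W S)
    (hJ : Good F x (W S))
    (hloc : ∀ Q : Subgroup Ω, F.IsFullyNormalized Q → F.IsCentric Q → x ∈ Q →
      ∀ E : FusionSystem (normalizerIn S Q), F.IsNormalizerSystem Q E →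
      ∀ (L : Type u) [Group L] [Finite L] (ι : ↥(normalizerIn S Q) →* L), E.IsModel p L ι →
      ((Q.subgroupOf (normalizerIn S Q)).map ι).Normal →
      ∀ hxN : x ∈ normalizerIn S Q,
      (∀ g ∈ Subgroup.normalizer ((((W (normalizerIn S Q)).subgroupOf (normalizerIn S Q)).map ι :
        Subgroup L) : Set L),
        g * ι ⟨x, hxN⟩ = ι ⟨x, hxN⟩ * g) → ∀ g : L, g * ι ⟨x, hxN⟩ = ι ⟨x, hxN⟩ * g) :
    x ∈ F.center := by
  classical
  have hxS : x ∈ S := hx.1
  have hgS : Good F x S := by
    intro f hf hfS hxS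
    exact hJ f (hf.res (hWle S le_rfl)) (hWS f hf hfS) (hWx S le_rfl hxS)
  -- all fully normalized subgroups are good
  have hall : ∀ R : Subgroup Ω, F.IsFullyNormalized R → Good F x R := by
    by_contra hcon
    push Not at hcon
    obtain ⟨R₀, hR₀n, hR₀b⟩ := hcon
    -- the lexicographically largest bad subgroup
    have hfinS := H793.finite_subgroups_le (S := S)
    let B : Set (Subgroup Ω) := {R | F.IsFullyNormalized R ∧ ¬ Good F x R}
    have hBfin : B.Finite := hfinS.subset fun R hR => hR.1.1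
    let w : Subgroup Ω → ℕ := fun R =>
      Nat.card (normalizerIn S R) * (Nat.card S + 1) + Nat.card R
    obtain ⟨Q, hQB, hQmax⟩ := Set.exists_max_image B w hBfin ⟨R₀, hR₀n, hR₀b⟩
    obtain ⟨hQn, hQb⟩ := hQB
    have hQS : Q ≤ S := hQn.1
    have hmax : ∀ R : Subgroup Ω, F.IsFullyNormalized R →
        (Nat.card (normalizerIn S Q) < Nat.card (normalizerIn S R) ∨
          (Nat.card (normalizerIn S Q) ≤ Nat.card (normalizerIn S R) ∧ Nat.card Q < Nat.card R)) →
        Good F x R := by
      intro R hRn hR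
      by_contra hRb
      have h1 : w R ≤ w Q := hQmax R ⟨hRn, hRb⟩
      have h2 : Nat.card Q ≤ Nat.card S := Subgroup.card_le_of_le hQS
      simp only [w] at h1
      rcases hR with hR | ⟨hR, hR'⟩
      · have h3 : (Nat.card (normalizerIn S Q) + 1) * (Nat.card S + 1) ≤
            Nat.card (normalizerIn S R) * (Nat.card S + 1) := Nat.mul_le_mul_right _ hR
        rw [Nat.add_mul, Nat.one_mul] at h3
        omega
      · have h3 : Nat.card (normalizerIn S Q) * (Nat.card S + 1) ≤
            Nat.card (normalizerIn S R) * (Nat.card S + 1) := Nat.mul_le_mul_right _ hR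
        omega
    have hext := ext_of_good hS hF hx (Nat.card (normalizerIn S Q))
      (fun R hRn hR => hmax R hRn (Or.inl hR)) hgS
    have hfix : ∀ (P : Subgroup Ω) (f : Ω → Ω), Mp F P f →
        Nat.card (normalizerIn S Q) ≤ Nat.card P → x ∈ P → f x = x :=
      fun P f hf ht hxP => fix_of_ext (hext P f hf ht) hxP
    have hQc : F.IsCentric Q := isCentric_of_bad hS hF hQn hQb hfix
      (fun R hRn h1 h2 => hmax R hRn (Or.inr ⟨h1, h2⟩))
    -- the model of `N_F(Q)`
    obtain ⟨E, hE⟩ := H802.exists_normalizerSystem F hQS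
    have hEs : E.IsSaturated p := H802.normalizerSystem_isSaturated hS hF hQn hE
    have hNS : normalizerIn S Q ≤ S := inf_le_left
    have hfinN : Finite (normalizerIn S Q) := H802.finite_of_le hNS
    have hNp : IsPGroup p (normalizerIn S Q) := hS.to_le hNS
    obtain ⟨L, hL, ι, hm, hQL, -⟩ := H771.exists_model hNp hEs
      (H753.isNormal_normalizerSystem hQS hE) (H753.isCentric_normalizerSystem hE hQc)
    have hfinL : Finite L := hm.1
    have hreal := hm.2.1
    have hιi : Function.Injective ι := hreal.1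
    refine hQb fun f hf hfQ hxQ => ?_
    have hQN : Q ≤ normalizerIn S Q := H802.le_normalizerIn hQS
    have hxN : x ∈ normalizerIn S Q := hQN hxQ
    -- `W(N_S(Q))` is good
    have hJle := hWle (normalizerIn S Q) hNS
    have hJg : Good F x (W (normalizerIn S Q)) := by
      by_cases hNeq : normalizerIn S Q = S
      · rw [hNeq]; exact hJ
      · have hJS : W (normalizerIn S Q) ≤ S := hJle.trans hNS
        have hle : normalizerIn S (normalizerIn S Q) ≤
            normalizerIn S (W (normalizerIn S Q)) :=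
          inf_le_inf_left _ (hWN _ hNS)
        have hfinNN : Finite (normalizerIn S (W (normalizerIn S Q))) :=
          H802.finite_of_le inf_le_left
        have hlt : Nat.card (normalizerIn S Q) <
            Nat.card (normalizerIn S (W (normalizerIn S Q))) :=
          (H802.card_lt_card_normalizerIn hS hNS hNeq).trans_le (Subgroup.card_le_of_le hle)
        obtain ⟨R', hRR', hR'n⟩ := H802.exists_isFullyNormalized hS hF hJS
        exact good_of_conj hS hF _ hfix hRR' hR'n hlt.le
          (hmax R' hR'n (Or.inl (hlt.trans_le (hR'n.2 _ (H802.isConj_symm hRR')))))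
    -- `N_L(W)` centralizes `ι x`
    have hJL : ∀ g ∈ Subgroup.normalizer ((((W (normalizerIn S Q)).subgroupOf
        (normalizerIn S Q)).map ι : Subgroup L) : Set L),
        g * ι ⟨x, hxN⟩ = ι ⟨x, hxN⟩ * g := by
      intro g hg
      obtain ⟨k, hk, hke⟩ := H753.exists_mp_of_conj hreal hJle g (fun y => by
        have h1 := (mem_map_iff ι hιi ⟨y, hJle y.2⟩).2 y.2
        have h2 := (Subgroup.mem_normalizer_iff.1 hg _).1 h1
        obtain ⟨n, -, hn⟩ := h2
        exact ⟨n, hn⟩)
      have hkF : Mp F (W (normalizerIn S Q)) k :=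
        ((H753.mp_normalizerSystem_iff hE).1 hk).1
      have hxJ : x ∈ W (normalizerIn S Q) := hWx _ hNS hxN
      have hkx := hJg k hkF (fun y hy => by
        obtain ⟨h1, h2⟩ := hke y hy
        have h3 := (mem_map_iff ι hιi ⟨y, hJle hy⟩).2 hy
        have h4 := (Subgroup.mem_normalizer_iff.1 hg _).1 h3
        rw [← h2] at h4
        exact (mem_map_iff ι hιi ⟨k y, h1⟩).1 h4) hxJ
      obtain ⟨h1, h2⟩ := hke x hxJ
      have h3 : (⟨k x, h1⟩ : ↥(normalizerIn S Q)) = ⟨x, hxN⟩ := Subtype.ext hkx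
      rw [h3] at h2
      calc g * ι ⟨x, hxN⟩ = g * ι ⟨x, hxN⟩ * g⁻¹ * g := by group
        _ = ι ⟨x, hxN⟩ * g := by rw [← h2]
    have hcen := hloc Q hQn hQc hxQ E hE L ι hm hQL hxN hJL
    -- `f` is induced by an element of `L`
    have hfE : Mp E Q f := by
      rw [H753.mp_normalizerSystem_iff hE]
      have hfinQ : Finite Q := H802.finite_of_le hQS
      refine ⟨hf, hQN, fun y hy => hQN (hfQ y hy), f, ?_, fun _ _ => rfl, hfQ,
        fun y hy => hf.surj hfQ hy⟩
      rw [sup_idem]
      exact hf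
    obtain ⟨g, hg⟩ := H753.exists_conj_of_mp hreal hfE
    obtain ⟨h1, h2⟩ := hg x hxQ hxN
    rw [hcen g, mul_inv_cancel_right] at h2
    exact congrArg Subtype.val (hιi h2)
  refine mem_center_of_ext hxS fun P f hf => ?_
  exact ext_of_good hS hF hx 0 (fun R hRn _ => hall R hRn) hgS P f hf (Nat.zero_le _)

end Cfsg.Agent.H768
end

-- part: S5196
section
set_option autoImplicit false
universe u
open Cfsg

namespace Cfsg.Agent.S5196

open Cfsg.FusionSystem Cfsg.Agent.H752 Cfsg.Agent.H793 Cfsg.Agent.H768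

/-- The functor on subgroups of `Ω`. -/
def wsub (W : ∀ (Q : Type u) [Group Q], Subgroup Q) {Ω : Type u} [Group Ω] (T : Subgroup Ω) :
    Subgroup Ω :=
  (W ↥T).map T.subtype

theorem mem_wsub {W : ∀ (Q : Type u) [Group Q], Subgroup Q} {Ω : Type u} [Group Ω]
    {T : Subgroup Ω} {x : Ω} (hx : x ∈ T) : x ∈ wsub W T ↔ (⟨x, hx⟩ : T) ∈ W ↥T := by
  constructor
  · rintro ⟨y, hy, h⟩
    have : y = ⟨x, hx⟩ := Subtype.ext h
    rwa [← this]
  · intro h
    exact ⟨_, h, rfl⟩

theorem wsub_le {W : ∀ (Q : Type u) [Group Q], Subgroup Q} {Ω : Type u} [Group Ω]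
    (T : Subgroup Ω) : wsub W T ≤ T := Subgroup.map_subtype_le _

theorem map_wsub {p : ℕ} {W : ∀ (Q : Type u) [Group Q], Subgroup Q}
    (hW2 : ∀ (Q R : Type u) [Group Q] [Group R] [Finite Q], IsPGroup p Q → ∀ φ : Q ≃* R,
      (W Q).map φ.toMonoidHom = W R) {Ω Ω' : Type u} [Group Ω] [Group Ω'] {T : Subgroup Ω}
    [Finite T] (hT : IsPGroup p T) {T' : Subgroup Ω'} (e : T ≃* T') (x : T) :
    (x : Ω) ∈ wsub W T ↔ ((e x : T') : Ω') ∈ wsub W T' := by
  rw [mem_wsub x.2, mem_wsub (e x).2, ← hW2 T T' hT e]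
  constructor
  · intro h
    exact ⟨x, h, rfl⟩
  · rintro ⟨y, hy, h⟩
    have : y = x := e.injective h
    rw [this] at hy
    exact hy

/-- Let p be an odd prime and W a positive characteristic p-functor: W assigns to every finite p-group Q (in a fixed universe) a subgroup W(Q), nontrivial when Q is, carried to W(R) by every isomorphism Q ≅ R; assume also Z(Q) ≤ W(Q) for every finite p-group Q. Suppose W satisfies the local condition: for every finite group G with Sylow p-subgroup P, O_p(G) ∩ Z(G) = O_p(G) ∩ Z(N_G(W(P))). Then W controls weak closure of elements in every saturated fusion system F over a finite p-group S: the centre of the normalizer fusion system of W(S) in F equals the centre of F. (For p = 2 no functor satisfies the local condition, so p is taken odd.) -/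
theorem result {p : ℕ} [Fact p.Prime] (hp : p ≠ 2) (W : ∀ (Q : Type u) [Group Q], Subgroup Q) (hW1 : ∀ (Q : Type u) [Group Q] [Finite Q], IsPGroup p Q → Nontrivial Q → W Q ≠ ⊥) (hW2 : ∀ (Q R : Type u) [Group Q] [Group R] [Finite Q], IsPGroup p Q → ∀ φ : Q ≃* R, (W Q).map φ.toMonoidHom = W R) (hWZ : ∀ (Q : Type u) [Group Q] [Finite Q], IsPGroup p Q → Subgroup.center Q ≤ W Q) (hC : ∀ (G : Type u) [Group G] [Finite G] (P : Sylow p G), Cfsg.pCore p G ⊓ Subgroup.center G = Cfsg.pCore p G ⊓ (Subgroup.center ↥(Subgroup.normalizer (((W ↥(P : Subgroup G)).map (P : Subgroup G).subtype : Subgroup G) : Set G))).map (Subgroup.normalizer (((W ↥(P : Subgroup G)).map (P : Subgroup G).subtype : Subgroup G) : Set G)).subtype) {Ω : Type u} [Group Ω] {S : Subgroup Ω} [Finite S] (hS : IsPGroup p S) (F : Cfsg.FusionSystem S) (hF : F.IsSaturated p) (N : Cfsg.FusionSystem (Cfsg.FusionSystem.normalizerIn S ((W ↥S).map S.subtype))) (hN : F.IsNormalizerSystem ((W ↥S).map S.subtype) N) : N.center = F.center := by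
  have hmove : ∀ (T T' : Subgroup Ω) (e : T ≃* T') (_ : Finite T) (_ : IsPGroup p T) (x : T),
      (x : Ω) ∈ wsub W T ↔ ((e x : T') : Ω) ∈ wsub W T' :=
    fun T T' e _ hT x => map_wsub hW2 hT e x
  -- `N(T) ≤ N(W(T))`
  have hWN : ∀ T ≤ S, Subgroup.normalizer (T : Set Ω) ≤ Subgroup.normalizer (wsub W T : Set Ω) := by
    intro T hT g hg
    have hfinT : Finite T := H802.finite_of_le hT
    have hTp : IsPGroup p T := hS.to_le hT
    obtain ⟨α, hα⟩ := H802.exists_conjAut hg
    refine Subgroup.mem_normalizer_iff.2 fun y => ?_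
    constructor
    · intro hy
      have h1 := (hmove T T α hfinT hTp ⟨y, wsub_le T hy⟩).1 hy
      rw [hα] at h1
      exact h1
    · intro hy
      have hgy : g * y * g⁻¹ ∈ T := wsub_le T hy
      have hyT : y ∈ T := (Subgroup.mem_normalizer_iff.1 hg y).2 hgy
      refine (hmove T T α hfinT hTp ⟨y, hyT⟩).2 ?_
      rw [hα]
      exact hy
  have hQS : wsub W S ≤ S := wsub_le S
  have hSN : S ≤ Subgroup.normalizer (wsub W S : Set Ω) :=
    Subgroup.le_normalizer.trans (hWN S le_rfl)
  have hWx : ∀ x ∈ S ⊓ Subgroup.centralizer (S : Set Ω), ∀ T ≤ S, x ∈ T → x ∈ wsub W T := by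
    intro x hx T hT hxT
    have hfinT : Finite T := H802.finite_of_le hT
    rw [mem_wsub hxT]
    refine hWZ T (hS.to_le hT) ?_
    rw [Subgroup.mem_center_iff]
    intro y
    apply Subtype.ext
    exact Subgroup.mem_centralizer_iff.1 hx.2 y (hT y.2)
  have hZ : S ⊓ Subgroup.centralizer (S : Set Ω) ≤ wsub W S := fun x hx =>
    hWx x hx S le_rfl hx.1
  apply le_antisymm
  · intro x hxN
    obtain ⟨hx, hg⟩ := (mem_center_normalizer_iff hQS hSN hZ hN x).1 hxN
    refine mem_center_of_functor hS hF hx (wsub W) (fun T _ => wsub_le T) (hWx x hx) hWN ?_ hg ?_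
    · intro f hf hfS y hy
      obtain ⟨α, hα, hfα⟩ := hf.exists_aut hfS
      have h1 := (hmove S S α inferInstance hS ⟨y, hQS hy⟩).1 hy
      rwa [← hfα] at h1
    · intro Q hQn hQc hxQ E hE L _ _ ι hm hQL hxT hJL g
      obtain ⟨P, hP⟩ := hm.2.2.1
      have hιi : Function.Injective ι := hm.2.1.1
      have hTS : normalizerIn S Q ≤ S := inf_le_left
      have hfinT : Finite (normalizerIn S Q) := H802.finite_of_le hTS
      have hTp : IsPGroup p (normalizerIn S Q) := hS.to_le hTS
      -- `W(P)` is the image of `W(N_S(Q))`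
      have hWP : wsub W (P : Subgroup L) =
          ((wsub W (normalizerIn S Q)).subgroupOf (normalizerIn S Q)).map ι := by
        rw [hP]
        ext l
        constructor
        · intro hl
          obtain ⟨t, ht⟩ := wsub_le _ hl
          refine ⟨t, ?_, ht⟩
          refine (map_wsub hW2 hTp (MonoidHom.ofInjective hιi) t).2 ?_
          show ι t ∈ wsub W ι.range
          rw [ht]
          exact hl
        · rintro ⟨t, ht, rfl⟩
          exact (map_wsub hW2 hTp (MonoidHom.ofInjective hιi) t).1 ht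
      have hcomm : ∀ t ∈ (P : Subgroup L), t * ι ⟨x, hxT⟩ = ι ⟨x, hxT⟩ * t := by
        intro t ht
        rw [hP] at ht
        obtain ⟨s, rfl⟩ := ht
        rw [← map_mul, ← map_mul]
        congr 1
        apply Subtype.ext
        exact Subgroup.mem_centralizer_iff.1 hx.2 s (hTS s.2)
      have hxcore : ι ⟨x, hxT⟩ ∈ pCore p L := by
        refine hm.2.2.2 (Subgroup.mem_centralizer_iff.2 fun u hu => ?_)
        exact hcomm u (Cfsg.Agent.Lib.Cores.pCore_le_sylow P hu)
      have key : ι ⟨x, hxT⟩ ∈ pCore p L ⊓ Subgroup.center L := by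
        rw [hC L P]
        refine ⟨hxcore, ?_⟩
        have hxnorm : ι ⟨x, hxT⟩ ∈
            Subgroup.normalizer ((wsub W (P : Subgroup L) : Subgroup L) : Set L) := by
          apply Subgroup.le_normalizer
          rw [hWP]
          exact ⟨⟨x, hxT⟩, hWx x hx _ hTS hxT, rfl⟩
        refine ⟨⟨ι ⟨x, hxT⟩, hxnorm⟩, ?_, rfl⟩
        rw [SetLike.mem_coe, Subgroup.mem_center_iff]
        rintro ⟨h, hh⟩
        apply Subtype.ext
        refine hJL h ?_
        rw [← hWP]
        exact hh
      exact Subgroup.mem_center_iff.1 key.2 g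
  · exact center_le_center_normalizer hQS hSN hZ hN

end Cfsg.Agent.S5196
end
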