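import Cfsg.Agent.H771.NExt
import Cfsg.Agent.H747.Hyperfocal
import Cfsg.Agent.H759.FusNormal
import Cfsg.Agent.H802.FusSat
import Cfsg.Agent.H802.FusKSat
import Cfsg.Agent.H767.FusTransfer
import Cfsg.Agent.H759.FusFactor
import Mathlib.GroupTheory.Focal
import Cfsg.Statements.S5197
set_option linter.all false

-- part: H769/FocLocal
section
/-!
# Focal subgroups: local to global (helper769)

* `nfoc F Y`: the subgroup generated by the `x⁻¹ φ(x)` with `φ` a map of the normalizer system of `Y`.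
* `mu F`: the number of maps of `F` (between subgroups of the finite `S`), a measure for inductions.
* `focal_of_local`: the focal subgroup of `F` lies in `H` if this is so "locally".
-/

set_option autoImplicit false

namespace Cfsg.Agent.H769

open Cfsg Cfsg.FusionSystem Cfsg.Agent.H802 Cfsg.Agent.H771

universe u

variable {Ω : Type u} [Group Ω] {S : Subgroup Ω}

/-- The focal subgroup of the normalizer system of `Y`. -/
def nfoc (F : FusionSystem S) (Y : Subgroup Ω) : Subgroup Ω :=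
  Subgroup.closure {z : Ω | ∃ (P : Subgroup Ω) (φ : P →* Ω) (x : P), φ ∈ F.normalizerHom Y P ∧
    z = (x : Ω)⁻¹ * φ x}

theorem mem_nfoc {F : FusionSystem S} {Y P : Subgroup Ω} {φ : P →* Ω} (h : φ ∈ F.normalizerHom Y P)
    (x : P) : (x : Ω)⁻¹ * φ x ∈ nfoc F Y := Subgroup.subset_closure ⟨P, φ, x, h, rfl⟩

theorem nfoc_le {F : FusionSystem S} {Y H : Subgroup Ω}
    (h : ∀ (P : Subgroup Ω) (φ : P →* Ω), φ ∈ F.normalizerHom Y P → ∀ x : P, (x : Ω)⁻¹ * φ x ∈ H) :
    nfoc F Y ≤ H := by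
  refine (Subgroup.closure_le H).2 ?_
  rintro _ ⟨P, φ, x, hφ, rfl⟩
  exact h P φ hφ x

theorem focal_eq_nfoc {F : FusionSystem S} {Y : Subgroup Ω} {N : FusionSystem (normalizerIn S Y)}
    (hN : F.IsNormalizerSystem Y N) : N.focalSubgroup = nfoc F Y := by
  apply le_antisymm
  · refine Cfsg.Agent.H747.focal_le fun P φ hφ x => mem_nfoc ?_ x
    rwa [← hN P]
  · refine nfoc_le fun P φ hφ x => Cfsg.Agent.H747.focal_mem ?_ x
    rwa [hN P]

theorem nfoc_le_focal (F : FusionSystem S) (Y : Subgroup Ω) : nfoc F Y ≤ F.focalSubgroup :=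
  nfoc_le fun _ _ hφ x => Cfsg.Agent.H747.focal_mem hφ.1 x

theorem normalizerHom_mono {F F' : FusionSystem S} (h : ∀ P, F'.Hom P ⊆ F.Hom P) (Y P : Subgroup Ω) :
    F'.normalizerHom Y P ⊆ F.normalizerHom Y P := by
  rintro φ ⟨h1, h2, h3, ψ, hψ, h4, h5⟩
  exact ⟨h P h1, h2, h3, ψ, h _ hψ, h4, h5⟩

theorem nfoc_mono {F F' : FusionSystem S} (h : ∀ P, F'.Hom P ⊆ F.Hom P) (Y : Subgroup Ω) :
    nfoc F' Y ≤ nfoc F Y :=
  nfoc_le fun _ _ hφ x => mem_nfoc (normalizerHom_mono h Y _ hφ) x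

/-! ### The number of maps -/

/-- A code for the maps of a fusion system. -/
def code (F : FusionSystem S) : Set (Set S × (S → S)) :=
  {x | ∃ (P : Subgroup Ω) (φ : P →* Ω), φ ∈ F.Hom P ∧ x.1 = {s : S | (s : Ω) ∈ P} ∧
    ∀ (s : S) (hs : (s : Ω) ∈ P), ((x.2 s : S) : Ω) = φ ⟨s, hs⟩}

/-- The number of maps of a fusion system over a finite group. -/
noncomputable def mu (F : FusionSystem S) : ℕ := (code F).ncard

theorem mu_lt [Finite S] {F F' : FusionSystem S} (h : ∀ P, F'.Hom P ⊆ F.Hom P) {P : Subgroup Ω}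
    {φ : P →* Ω} (hφ : φ ∈ F.Hom P) (hφ' : φ ∉ F'.Hom P) : mu F' < mu F := by
  classical
  refine Set.ncard_lt_ncard ?_ (Set.toFinite _)
  refine ⟨?_, fun hle => ?_⟩
  · rintro x ⟨Q, ψ, hψ, h1, h2⟩
    exact ⟨Q, ψ, h Q hψ, h1, h2⟩
  · let f : S → S := fun s => if hs : (s : Ω) ∈ P then ⟨φ ⟨s, hs⟩, hom_apply_mem hφ _⟩ else 1
    have hf : ∀ (s : S) (hs : (s : Ω) ∈ P), ((f s : S) : Ω) = φ ⟨s, hs⟩ := by
      intro s hs
      simp only [f, dif_pos hs]
    have hmem : (({s : S | (s : Ω) ∈ P}, f) : Set S × (S → S)) ∈ code F := ⟨P, φ, hφ, rfl, hf⟩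
    obtain ⟨Q, ψ, hψ, h1, h2⟩ := hle hmem
    have hPQ : Q = P := by
      ext x
      constructor
      · intro hx
        have hxS : x ∈ S := hom_le hψ hx
        have : (⟨x, hxS⟩ : S) ∈ {s : S | (s : Ω) ∈ P} := by
          rw [show ({s : S | (s : Ω) ∈ P} : Set S) = {s : S | (s : Ω) ∈ Q} from h1]
          exact hx
        exact this
      · intro hx
        have hxS : x ∈ S := hom_le hφ hx
        have : (⟨x, hxS⟩ : S) ∈ {s : S | (s : Ω) ∈ Q} := by
          rw [← show ({s : S | (s : Ω) ∈ P} : Set S) = {s : S | (s : Ω) ∈ Q} from h1]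
          exact hx
        exact this
    refine hφ' (mem_of_eq_source hPQ hψ (fun x hx hx' => ?_))
    have hxS : x ∈ S := hom_le hψ hx
    rw [← h2 ⟨x, hxS⟩ hx, ← hf ⟨x, hxS⟩ hx']

/-! ### Local to global -/

/-- The subgroup generated by the `x⁻¹ ψ(x)`, for maps `ψ` of `F` between subgroups of `T` whose source
contains `V` and which map `V` into itself. -/
def nfocIn (F : FusionSystem S) (V T : Subgroup Ω) : Subgroup Ω :=
  Subgroup.closure {z : Ω | ∃ (R : Subgroup Ω) (ψ : R →* Ω) (x : R), ψ ∈ F.Hom R ∧ R ≤ T ∧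
    (∀ y : R, ψ y ∈ T) ∧ V ≤ R ∧ (∀ y : R, (y : Ω) ∈ V → ψ y ∈ V) ∧ z = (x : Ω)⁻¹ * ψ x}

/-- **Focal subgroups, local to global.** Suppose that to every fully normalized `Y ≠ 1` is attached a subgroup
`V ≠ 1` of `T = N_S(Y)`, normalized by `N_S(T)`, such that, if `T ≠ S`, the focal subgroup of the normalizer system
of `Y` is generated by the `x⁻¹ ψ(x)` with `ψ` in `F` mapping `V` to `V`, and such that, if `T = S`, the focal
subgroup of the normalizer system of `Y` lies in `H`.  Then the focal subgroup of `F` lies in `H`. -/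
theorem focal_of_local [Finite S] {p : ℕ} [Fact p.Prime] (hS : IsPGroup p S)
    {F : FusionSystem S} (hF : F.IsSaturated p) {H : Subgroup Ω}
    (h : ∀ Y : Subgroup Ω, Y ≠ ⊥ → F.IsFullyNormalized Y → ∃ V : Subgroup Ω, V ≠ ⊥ ∧
      V ≤ normalizerIn S Y ∧ normalizerIn S (normalizerIn S Y) ≤ Subgroup.normalizer (V : Set Ω) ∧
      (normalizerIn S Y = S → ∀ (P : Subgroup Ω) (φ : P →* Ω), φ ∈ F.normalizerHom Y P →
        ∀ x : P, (x : Ω)⁻¹ * φ x ∈ H) ∧
      (normalizerIn S Y ≠ S → ∀ (P : Subgroup Ω) (φ : P →* Ω), φ ∈ F.normalizerHom Y P →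
        ∀ x : P, (x : Ω)⁻¹ * φ x ∈ nfocIn F V (normalizerIn S Y))) :
    F.focalSubgroup ≤ H := by
  refine Cfsg.Agent.H747.focal_le ?_
  refine Cfsg.Agent.H759.saturated_induction F hS hF
    (fun P φ => ∀ x : P, (x : Ω)⁻¹ * φ x ∈ H) ?_ ?_ ?_ ?_
  · intro P R φ χ _ hM hR he x
    rw [he x]
    exact hM ⟨x, hR x.2⟩
  · intro P R φ ψ χ _ _ hM hM' he x
    obtain ⟨h1, h2⟩ := he x
    rw [h2]
    have h3 : (x : Ω)⁻¹ * ψ ⟨φ x, h1⟩ = ((x : Ω)⁻¹ * φ x) * ((φ x)⁻¹ * ψ ⟨φ x, h1⟩) := by group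
    rw [h3]
    exact H.mul_mem (hM x) (hM' ⟨φ x, h1⟩)
  · intro P R φ χ _ hM _ he y
    obtain ⟨x, h1, h2⟩ := he y
    rw [h2, ← h1]
    have h3 : (φ x)⁻¹ * (x : Ω) = ((x : Ω)⁻¹ * φ x)⁻¹ := by group
    rw [h3]
    exact H.inv_mem (hM x)
  · intro U hUa hUr IH α hα
    have hUS : U ≤ S := hUa.1
    have hUf : Finite U := finite_of_le hUS
    set n := Nat.card U with hn
    have hUn : F.IsFullyNormalized U := isFullyNormalized_of_automized_receptive hS hUa hUr
    have hαF : U.subtype.comp α.toMonoidHom ∈ F.Hom U := (mem_autGroup_iff F hUS α).1 hα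
    -- the inner induction
    have claim : ∀ k : ℕ, ∀ Y : Subgroup Ω, Y ≠ ⊥ → F.IsFullyNormalized Y →
        Nat.card S - Nat.card (normalizerIn S Y) = k →
        (normalizerIn S Y = S ∨ n < Nat.card (normalizerIn S Y)) →
        ∀ (R : Subgroup Ω) (φ : R →* Ω), φ ∈ F.normalizerHom Y R →
          ∀ x : R, (x : Ω)⁻¹ * φ x ∈ H := by
      intro k
      induction k using Nat.strong_induction_on with
      | _ k ih =>
      intro Y hY hYn hk hT R₀ φ₀ hφ₀ x₀
      obtain ⟨V, hV1, hV2, hV3, hV4, hV5⟩ := h Y hY hYn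
      set T := normalizerIn S Y with hTdef
      have hTS : T ≤ S := inf_le_left
      by_cases hTeq : T = S
      · exact hV4 hTeq R₀ φ₀ hφ₀ x₀
      · have hnT : n < Nat.card T := by
          rcases hT with h1 | h1
          · exact absurd h1 hTeq
          · exact h1
        have hVS : V ≤ S := hV2.trans hTS
        have hfV : Finite V := finite_of_le hVS
        -- a fully normalized conjugate `V'` of `V`
        obtain ⟨V', hVV', hV'n⟩ := exists_isFullyNormalized hS hF hVS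
        obtain ⟨χ₀, hχ₀, hχ₀r⟩ := hVV'
        obtain ⟨β, hβ, χ, hχ, hχe, hχN⟩ := exists_extension_normalizer hS hF hχ₀ hχ₀r hV'n
        have hNT : normalizerIn S T ≤ normalizerIn S V := fun x hx => ⟨hx.1, hV3 hx⟩
        have hTlt : Nat.card T < Nat.card (normalizerIn S T) := by
          exact card_lt_card_normalizerIn hS hTS hTeq
        have hfNV : Finite (normalizerIn S V) := finite_of_le inf_le_left
        have hfNT : Finite (normalizerIn S T) := finite_of_le inf_le_left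
        have hcNV : Nat.card T < Nat.card (normalizerIn S V) :=
          hTlt.trans_le (Subgroup.card_le_of_le hNT)
        have hTNV : T ≤ normalizerIn S V :=
          (Cfsg.Agent.H802.le_normalizerIn hTS).trans hNT
        have hχM := IH _ χ hχ (hnT.trans hcNV)
        have hVN : V ≤ normalizerIn S V := Cfsg.Agent.H802.le_normalizerIn hVS
        have hχ₀m : ∀ x : V, χ₀ x ∈ V' := fun x => by rw [← hχ₀r]; exact ⟨x, rfl⟩
        have hχV : ∀ (y : Ω) (hy : y ∈ V), χ ⟨y, hVN hy⟩ ∈ V' := by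
          intro y hy
          rw [hχe ⟨y, hy⟩ (hχ₀m _) (hVN hy)]
          exact (β _).2
        have hχV2 : ∀ z ∈ V', ∃ (y : Ω) (hy : y ∈ V), χ ⟨y, hVN hy⟩ = z := by
          intro z hz
          have hfV' : Finite V' := finite_of_le hV'n.1
          refine exists_preimage_of_card (F.injective_of_mem hχ) hVN hχV ?_ z hz
          exact (isConj_card_eq ⟨χ₀, hχ₀, hχ₀r⟩).ge
        have hV'ne : V' ≠ ⊥ := by
          intro h1
          apply hV1
          rw [eq_bot_iff]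
          intro y hy
          have h2 := hχV y hy
          rw [h1, Subgroup.mem_bot] at h2
          have h3 : χ ⟨y, hVN hy⟩ = χ 1 := by rw [h2, map_one]
          have h4 := congrArg Subtype.val (F.injective_of_mem hχ h3)
          exact h4
        have hcard' : Nat.card T < Nat.card (normalizerIn S V') := by
          refine hcNV.trans_le ?_
          have hfNV' : Finite (normalizerIn S V') := finite_of_le inf_le_left
          exact card_le_of_maps (F.injective_of_mem hχ) le_rfl (fun x hx => hχN _)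
        have hcardS : Nat.card (normalizerIn S V') ≤ Nat.card S :=
          Subgroup.card_le_of_le inf_le_left
        -- the inverse of `χ` on `χ(T)`
        obtain ⟨χi, hχi, hχir, hχi1, hχi2⟩ := exists_inv (F := F) (Q := χ.range) hχ rfl
        have hsub : nfocIn F V T ≤ H := by
          refine (Subgroup.closure_le H).2 ?_
          rintro _ ⟨R, φ, x, hφ, hRT, hφT, hVR, hφV, rfl⟩
          have hRS : R ≤ S := hRT.trans hTS
          -- `R₁ = χ(R)`
          let R₁ : Subgroup Ω := (χ.comp (Subgroup.inclusion (hRT.trans hTNV))).range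
          have hR₁ : R₁ ≤ χ.range := by
            rintro _ ⟨x, rfl⟩
            exact ⟨_, rfl⟩
          have hχiR : ∀ y : R₁, (χi.comp (Subgroup.inclusion hR₁)) y ∈ R := by
            rintro ⟨_, x, rfl⟩
            have h1 := hχi1 (Subgroup.inclusion (hRT.trans hTNV) x) ⟨_, rfl⟩
            have h2 : (χi.comp (Subgroup.inclusion hR₁)) ⟨_, x, rfl⟩ = x := h1
            rw [h2]
            exact x.2
          obtain ⟨φa, hφa, hφae⟩ := exists_comp (restrict_mem hχi hR₁) hφ hχiR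
          have hφaT : ∀ y : R₁, φa y ∈ normalizerIn S V := fun y => by
            rw [hφae]
            exact hTNV (hφT _)
          obtain ⟨φ₁, hφ₁, hφ₁e⟩ := exists_comp hφa hχ hφaT
          -- pointwise: `φ₁ (χ x) = χ (φ x)`
          have hφ₁x : ∀ (x : R) (hx : χ ⟨x, hTNV (hRT x.2)⟩ ∈ R₁),
              φ₁ ⟨χ ⟨x, hTNV (hRT x.2)⟩, hx⟩ = χ ⟨φ x, hTNV (hφT x)⟩ := by
            intro x hx
            rw [hφ₁e]
            congr 1
            apply Subtype.ext
            show φa _ = φ x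
            rw [hφae]
            congr 1
            apply Subtype.ext
            exact hχi1 ⟨x, hTNV (hRT x.2)⟩ _
          have hV'R₁ : V' ≤ R₁ := by
            intro z hz
            obtain ⟨y, hy, rfl⟩ := hχV2 z hz
            exact ⟨⟨y, hVR hy⟩, rfl⟩
          have hR₁S : R₁ ≤ S := hom_le hφ₁
          have hfR₁ : Finite R₁ := finite_of_le hR₁S
          have hfV' : Finite V' := finite_of_le hV'n.1
          have hφ₁n : φ₁ ∈ F.normalizerHom V' R₁ := by
            rw [mem_normalizerHom_iff]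
            refine ⟨?_, ?_, ?_⟩
            · rintro _ ⟨x, rfl⟩
              exact hχN _
            · intro y
              rw [hφ₁e]
              exact hχN _
            · have hle : R₁ ⊔ V' ≤ R₁ := sup_le le_rfl hV'R₁
              refine ⟨_, restrict_mem hφ₁ hle, fun x hx hx' => rfl, fun z hz hz' => ?_⟩
              obtain ⟨y, hy, rfl⟩ := hχV2 z hz
              have h1 := hφ₁x ⟨y, hVR hy⟩ ⟨⟨y, hVR hy⟩, rfl⟩
              have h2 : (φ₁.comp (Subgroup.inclusion hle)) ⟨χ ⟨y, hVN hy⟩, hz'⟩ =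
                χ ⟨φ ⟨y, hVR hy⟩, hTNV (hφT _)⟩ := h1
              rw [h2]
              exact hχV _ (hφV ⟨y, hVR hy⟩ hy)
          have hxR₁ : χ ⟨x, hTNV (hRT x.2)⟩ ∈ R₁ := ⟨x, rfl⟩
          have h1 := ih (Nat.card S - Nat.card (normalizerIn S V')) (by omega) V' hV'ne hV'n rfl
              (Or.inr (hnT.trans hcard')) R₁ φ₁ hφ₁n ⟨_, hxR₁⟩
          rw [hφ₁x x hxR₁] at h1
          -- `u = x⁻¹ φ x`
          have huT : (x : Ω)⁻¹ * φ x ∈ T := T.mul_mem (T.inv_mem (hRT x.2)) (hφT x)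
          have h2 := hχM ⟨(x : Ω)⁻¹ * φ x, hTNV huT⟩
          have h3 : χ ⟨(x : Ω)⁻¹ * φ x, hTNV huT⟩ =
              (χ ⟨x, hTNV (hRT x.2)⟩)⁻¹ * χ ⟨φ x, hTNV (hφT x)⟩ := by
            rw [← map_inv, ← map_mul]
            rfl
          have h4 : χ ⟨(x : Ω)⁻¹ * φ x, hTNV huT⟩ ∈ H := by
            rw [h3]
            exact h1
          have h5 : (x : Ω)⁻¹ * φ x = χ ⟨(x : Ω)⁻¹ * φ x, hTNV huT⟩ *
              (((x : Ω)⁻¹ * φ x)⁻¹ * χ ⟨(x : Ω)⁻¹ * φ x, hTNV huT⟩)⁻¹ := by group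
          rw [h5]
          exact H.mul_mem h4 (H.inv_mem h2)
        exact hsub (hV5 hTeq R₀ φ₀ hφ₀ x₀)
    intro x
    by_cases hU1 : U = ⊥
    · -- trivial source
      have hx1 : x = 1 := by
        apply Subtype.ext
        exact (Subgroup.eq_bot_iff_forall U).1 hU1 x x.2
      subst hx1
      rw [map_one]
      simp
    · refine claim _ U hU1 hUn rfl ?_ U _ ?_ x
      · by_cases hUS' : U = S
        · left
          rw [hUS']
          exact inf_eq_left.2 Subgroup.le_normalizer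
        · right
          exact card_lt_card_normalizerIn hS hUS hUS'
      · rw [mem_normalizerHom_iff]
        refine ⟨Cfsg.Agent.H802.le_normalizerIn hUS,
          fun x => Cfsg.Agent.H802.le_normalizerIn hUS (α x).2, ?_⟩
        have hle : U ⊔ U ≤ U := sup_le le_rfl le_rfl
        exact ⟨_, restrict_mem hαF hle, fun x hx hx' => rfl, fun y hy hy' => (α ⟨y, hy⟩).2⟩

end Cfsg.Agent.H769
end

-- part: H769/FusCore
section
/-!
# The factorization `F = ⟨S C_F(Q), N_F(Q C_S(Q))⟩` for a normal subgroup `Q` (helper769)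
-/

set_option autoImplicit false

namespace Cfsg.Agent.H769

open Cfsg Cfsg.FusionSystem Cfsg.Agent.H802

variable {Ω : Type*} [Group Ω] {S : Subgroup Ω}

/-- **Induction principle for a normal subgroup `Q`.** Let `Q` be normal in the saturated system `F`.  A property of
maps closed under restriction, composition and inverses, which holds for the automorphisms of subgroups containing
`Q` that are trivial on `Q` and for the automorphisms of subgroups containing `Q C_S(Q)`, holds for all maps. -/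
theorem induction_core [Finite S] {p : ℕ} [Fact p.Prime] (hS : IsPGroup p S) {F : FusionSystem S}
    (hF : F.IsSaturated p) {Q : Subgroup Ω} (hQ : F.IsNormal Q) (M : ∀ P : Subgroup Ω, (P →* Ω) → Prop)
    (h_res : ∀ (P R : Subgroup Ω) (φ : P →* Ω) (χ : R →* Ω), φ ∈ F.Hom P → M P φ → ∀ h : R ≤ P,
      (∀ x : R, χ x = φ ⟨x, h x.2⟩) → M R χ)
    (h_comp : ∀ (P Q : Subgroup Ω) (φ : P →* Ω) (ψ : Q →* Ω) (χ : P →* Ω), φ ∈ F.Hom P → ψ ∈ F.Hom Q →
      M P φ → M Q ψ → (∀ x : P, ∃ h : φ x ∈ Q, χ x = ψ ⟨φ x, h⟩) → M P χ)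
    (h_inv : ∀ (P R : Subgroup Ω) (φ : P →* Ω) (χ : R →* Ω), φ ∈ F.Hom P → M P φ → χ ∈ F.Hom R →
      (∀ y : R, ∃ x : P, φ x = y ∧ χ y = x) → M R χ)
    (h_cent : ∀ (R : Subgroup Ω), R ≤ S → Q ≤ R → ∀ κ ∈ F.autGroup R,
      (∀ x : R, (x : Ω) ∈ Q → ((κ x : R) : Ω) = x) → M R (R.subtype.comp κ.toMonoidHom))
    (h_norm : ∀ (R : Subgroup Ω), R ≤ S → Q ⊔ centralizerIn S Q ≤ R → ∀ α ∈ F.autGroup R,
      M R (R.subtype.comp α.toMonoidHom)) :
    ∀ (P : Subgroup Ω) (φ : P →* Ω), φ ∈ F.Hom P → M P φ := by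
  have hQS := hQ.1
  have hQn : S ≤ Subgroup.normalizer (Q : Set Ω) :=
    Cfsg.Agent.H759.StronglyClosed.le_normalizer (Cfsg.Agent.H759.IsNormal.stronglyClosed hQ)
  have hsc := Cfsg.Agent.H759.IsNormal.stronglyClosed hQ
  refine Cfsg.Agent.H759.saturated_induction F hS hF M h_res h_comp h_inv ?_
  intro R hRa hRr IH α hα
  have hRS : R ≤ S := hRa.1
  have hRf : Finite R := finite_of_le hRS
  have hαF : R.subtype.comp α.toMonoidHom ∈ F.Hom R := (mem_autGroup_iff F hRS α).1 hα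
  by_cases hQR : Q ≤ R
  swap
  · -- `Q` not in `R`: extend
    obtain ⟨ψ, hψ, h1, -⟩ := hQ.2 R _ hαF
    have hle : R ≤ R ⊔ Q := le_sup_left
    have hfin : Finite (R ⊔ Q : Subgroup Ω) := finite_of_le (sup_le hRS hQS)
    have hlt : Nat.card R < Nat.card (R ⊔ Q : Subgroup Ω) := by
      refine lt_of_le_of_ne (Subgroup.card_le_of_le hle) (fun h => hQR ?_)
      rw [Subgroup.eq_of_le_of_card_ge hle h.ge]
      exact le_sup_right
    exact h_res _ _ ψ _ hψ (IH _ ψ hψ hlt) hle (fun x => (h1 x).symm)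
  · by_cases hCR : centralizerIn S Q ≤ R
    · exact h_norm R hRS (sup_le hQR hCR) α hα
    · -- the kernel on `Q`
      let K : Subgroup (MulAut R) :=
        { carrier := {κ | κ ∈ F.autGroup R ∧ ∀ x : R, (x : Ω) ∈ Q → ((κ x : R) : Ω) = x}
          one_mem' := ⟨Subgroup.one_mem _, fun x _ => rfl⟩
          mul_mem' := by
            rintro a b ⟨ha, ha'⟩ ⟨hb, hb'⟩
            refine ⟨Subgroup.mul_mem _ ha hb, fun x hx => ?_⟩
            have h1 : b x = x := Subtype.ext (hb' x hx)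
            rw [MulAut.mul_apply, h1]
            exact ha' x hx
          inv_mem' := by
            rintro a ⟨ha, ha'⟩
            refine ⟨Subgroup.inv_mem _ ha, fun x hx => ?_⟩
            have h1 : a x = x := Subtype.ext (ha' x hx)
            have h2 : a⁻¹ x = x := by
              conv_lhs => rw [← h1]
              exact a.symm_apply_apply x
            rw [h2] }
      have hKA : K ≤ F.autGroup R := fun κ hκ => hκ.1
      have hautQ : ∀ a ∈ F.autGroup R, ∀ x : R, (x : Ω) ∈ Q → ((a x : R) : Ω) ∈ Q := by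
        intro a ha x hx
        exact Cfsg.Agent.H759.StronglyClosed.apply_mem hsc ((mem_autGroup_iff F hRS a).1 ha) (x := x) hx
      have hK : ∀ a ∈ F.autGroup R, ∀ k ∈ K, a * k * a⁻¹ ∈ K := by
        rintro a ha k ⟨hk, hk'⟩
        refine ⟨Subgroup.mul_mem _ (Subgroup.mul_mem _ ha hk) (Subgroup.inv_mem _ ha), fun x hx => ?_⟩
        have h1 := hautQ a⁻¹ (Subgroup.inv_mem _ ha) x hx
        have h2 : k (a⁻¹ x) = a⁻¹ x := Subtype.ext (hk' _ h1)
        rw [MulAut.mul_apply, MulAut.mul_apply, h2, MulAut.apply_inv_self]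
      set N : Subgroup Ω := normalizerIn S R ⊓ centralizerIn S Q with hN
      have hr : (R.subtype.comp α.toMonoidHom).range = R := range_eq_of_mapsTo hαF (fun x => (α x).2)
      obtain ⟨k, hk, ψ, hψ, hψe⟩ := Cfsg.Agent.H759.exists_extension F hS hRa hRr hαF hr K hKA hK N
        (inf_le_left.trans inf_le_left) (inf_le_left.trans inf_le_right) (by
          intro g hg
          obtain ⟨c, hc⟩ := exists_conjAut hg.1.2
          have hcF : c ∈ F.autGroup R := by
            rw [mem_autGroup_iff F hRS]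
            exact mem_of_apply_eq (F.conj_mem hRS hg.1.1) hc
          have hcK : c ∈ K := by
            refine ⟨hcF, fun x hx => ?_⟩
            rw [hc]
            have := Subgroup.mem_centralizer_iff.1 hg.2.2 x hx
            rw [← this]
            group
          refine ⟨α * c * α⁻¹, hK α hα c hcK, 1, S.one_mem, Subgroup.one_mem _, fun x hx hy => ?_⟩
          have h1 : (⟨1 * (R.subtype.comp α.toMonoidHom) x * 1⁻¹, hy⟩ : R) = α x :=
            Subtype.ext (by simp)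
          rw [h1, MulAut.mul_apply, MulAut.mul_apply]
          have h2 : α⁻¹ (α x) = x := α.symm_apply_apply x
          rw [h2]
          have h3 : (⟨g * x * g⁻¹, hx⟩ : R) = c x := Subtype.ext (hc x).symm
          rw [h3]
          rfl)
      -- `N` is not contained in `R`
      have hCn : S ≤ Subgroup.normalizer (centralizerIn S Q : Set Ω) := by
        intro s hs
        rw [Subgroup.mem_normalizer_iff]
        have key : ∀ t ∈ S, ∀ z ∈ centralizerIn S Q, t * z * t⁻¹ ∈ centralizerIn S Q := by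
          intro t ht z hz
          refine ⟨S.mul_mem (S.mul_mem ht hz.1) (S.inv_mem ht), ?_⟩
          refine Subgroup.mem_centralizer_iff.2 fun q hq => ?_
          have h1 : t⁻¹ * q * t ∈ Q := by
            have := (Subgroup.mem_normalizer_iff.1 (hQn (S.inv_mem ht)) q).1 hq
            simpa using this
          have h2 := Subgroup.mem_centralizer_iff.1 hz.2 _ h1
          have h3 : q * (t * z * t⁻¹) = t * ((t⁻¹ * q * t) * z) * t⁻¹ := by group
          rw [h3, h2]
          group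
        intro z
        refine ⟨key s hs z, fun h => ?_⟩
        have h1 := key s⁻¹ (S.inv_mem hs) _ h
        have h2 : s⁻¹ * (s * z * s⁻¹) * s⁻¹⁻¹ = z := by group
        rwa [h2] at h1
      have hlt : R < R ⊔ centralizerIn S Q := lt_of_le_of_ne le_sup_left (fun h => hCR (h ▸ le_sup_right))
      obtain ⟨g, hg, hgR, hgn⟩ := Cfsg.Agent.H759.exists_mem_normalizer_not_mem hS
        (sup_le hRS inf_le_left) hlt
      obtain ⟨q, hq, c, hc, rfl⟩ := (Cfsg.Agent.H759.mem_sup_of_normalizes (hRS.trans hCn)).1 hg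
      have hcR : c ∉ R := fun h => hgR (R.mul_mem hq h)
      have hcn : c ∈ Subgroup.normalizer (R : Set Ω) := by
        have h2 := Subgroup.mul_mem _ (Subgroup.inv_mem _ (Subgroup.le_normalizer hq)) hgn
        simpa [← mul_assoc] using h2
      have hcN : c ∈ N := ⟨⟨hc.1, hcn⟩, hc⟩
      have hfin : Finite (R ⊔ N : Subgroup Ω) := finite_of_le (hom_le hψ)
      have hcard : Nat.card R < Nat.card (R ⊔ N : Subgroup Ω) := by
        refine lt_of_le_of_ne (Subgroup.card_le_of_le le_sup_left) (fun h => hcR ?_)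
        rw [Subgroup.eq_of_le_of_card_ge le_sup_left h.ge]
        exact (le_sup_right : N ≤ R ⊔ N) hcN
      have hMψ := IH _ ψ hψ hcard
      -- the restriction of `ψ` to `R` is `k α`
      have hkα : k * α ∈ F.autGroup R := Subgroup.mul_mem _ hk.1 hα
      have hMkα : M R (R.subtype.comp (k * α).toMonoidHom) := by
        refine h_res _ _ ψ _ hψ hMψ le_sup_left (fun x => ?_)
        have h1 := hψe x (α x).2 ((le_sup_left : R ≤ R ⊔ N) x.2)
        rw [h1]
        rfl
      have hki : k⁻¹ ∈ K := K.inv_mem hk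
      have hMk : M R (R.subtype.comp (k⁻¹).toMonoidHom) := h_cent R hRS hQR k⁻¹ hki.1 hki.2
      refine h_comp R R _ _ _ ((mem_autGroup_iff F hRS _).1 hkα) ((mem_autGroup_iff F hRS _).1 hki.1)
        hMkα hMk (fun x => ⟨((k * α) x).2, ?_⟩)
      show ((α x : R) : Ω) = ((k⁻¹ (k (α x)) : R) : Ω)
      have h5 : k⁻¹ (k (α x)) = α x := k.symm_apply_apply _
      rw [h5]

end Cfsg.Agent.H769
end

-- part: H769/FocW
section
/-!
# Functors controlling transfer in fusion systems (helper769)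

`W` a positive characteristic `p`-functor: `WS W T` is `W(T)` inside the ambient group.
-/

set_option autoImplicit false

namespace Cfsg.Agent.H769

open Cfsg Cfsg.FusionSystem Cfsg.Agent.H802 Cfsg.Agent.H771

open scoped commutatorElement

universe u

section functor

variable (W : ∀ (Q : Type u) [Group Q], Subgroup Q)

/-- `W(T)` inside the ambient group. -/
def WS {Ω : Type u} [Group Ω] (T : Subgroup Ω) : Subgroup Ω := (W ↥T).map T.subtype

variable {W}

theorem WS_le {Ω : Type u} [Group Ω] (T : Subgroup Ω) : WS W T ≤ T := Subgroup.map_subtype_le _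

theorem WS_ne_bot {p : ℕ}
    (hW1 : ∀ (Q : Type u) [Group Q] [Finite Q], IsPGroup p Q → Nontrivial Q → W Q ≠ ⊥)
    {Ω : Type u} [Group Ω] {T : Subgroup Ω} [Finite T] (hT : IsPGroup p T) (hne : T ≠ ⊥) :
    WS W T ≠ ⊥ := by
  intro h
  have hn : Nontrivial T := (Subgroup.nontrivial_iff_ne_bot T).2 hne
  refine hW1 T hT hn ?_
  rw [WS, Subgroup.map_eq_bot_iff_of_injective _ T.subtype_injective] at h
  exact h

/-- Naturality: an injective homomorphism from `T` carries `W(T)` onto `W` of its range. -/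
theorem map_W {p : ℕ}
    (hW2 : ∀ (Q R : Type u) [Group Q] [Group R] [Finite Q], IsPGroup p Q → ∀ φ : Q ≃* R,
      (W Q).map φ.toMonoidHom = W R)
    {T L : Type u} [Group T] [Group L] [Finite T] (hT : IsPGroup p T) {f : T →* L}
    (hf : Function.Injective f) {T' : Subgroup L} (h : f.range = T') : (W T).map f = WS W T' := by
  subst h
  have h1 := hW2 T f.range hT (MonoidHom.ofInjective hf)
  rw [WS, ← h1, Subgroup.map_map]
  rfl

theorem apply_mem_WS {p : ℕ}
    (hW2 : ∀ (Q R : Type u) [Group Q] [Group R] [Finite Q], IsPGroup p Q → ∀ φ : Q ≃* R,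
      (W Q).map φ.toMonoidHom = W R)
    {Ω : Type u} [Group Ω] {T : Subgroup Ω} [Finite T] (hT : IsPGroup p T) {f : T →* Ω}
    (hf : Function.Injective f) (h : f.range = T) {x : Ω} (hx : x ∈ WS W T) (hx' : x ∈ T) :
    f ⟨x, hx'⟩ ∈ WS W T := by
  rw [← map_W hW2 hT hf h]
  obtain ⟨y, hy, hyx⟩ := hx
  refine ⟨y, hy, ?_⟩
  congr 1
  exact Subtype.ext hyx

theorem le_normalizer_WS {p : ℕ}
    (hW2 : ∀ (Q R : Type u) [Group Q] [Group R] [Finite Q], IsPGroup p Q → ∀ φ : Q ≃* R,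
      (W Q).map φ.toMonoidHom = W R)
    {Ω : Type u} [Group Ω] {T : Subgroup Ω} [Finite T] (hT : IsPGroup p T) :
    Subgroup.normalizer (T : Set Ω) ≤ Subgroup.normalizer (WS W T : Set Ω) := by
  have key : ∀ g ∈ Subgroup.normalizer (T : Set Ω), ∀ x ∈ WS W T, g * x * g⁻¹ ∈ WS W T := by
    intro g hg x hx
    obtain ⟨α, hα⟩ := exists_conjAut hg
    have hr : (T.subtype.comp α.toMonoidHom).range = T := by
      ext z
      constructor
      · rintro ⟨y, rfl⟩
        exact (α y).2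
      · intro hz
        exact ⟨α.symm ⟨z, hz⟩, by
          show ((α (α.symm ⟨z, hz⟩) : T) : Ω) = z
          rw [MulEquiv.apply_symm_apply]⟩
    have h1 := apply_mem_WS hW2 hT (f := T.subtype.comp α.toMonoidHom)
      (T.subtype_injective.comp α.injective) hr hx (WS_le T hx)
    have h2 : (T.subtype.comp α.toMonoidHom) ⟨x, WS_le T hx⟩ = g * x * g⁻¹ := hα _
    rwa [h2] at h1
  intro g hg
  rw [Subgroup.mem_normalizer_iff]
  intro x
  refine ⟨key g hg x, fun h => ?_⟩
  have h1 := key g⁻¹ (Subgroup.inv_mem _ hg) _ h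
  have h2 : g⁻¹ * (g * x * g⁻¹) * g⁻¹⁻¹ = x := by group
  rwa [h2] at h1

end functor

variable {Ω : Type u} [Group Ω] {S : Subgroup Ω}

/-- A subgroup all maps normalize is normal. -/
theorem isNormal_of_normalizerHom {F : FusionSystem S} {Y : Subgroup Ω} (hY : Y ≤ S)
    (h : ∀ (P : Subgroup Ω) (φ : P →* Ω), φ ∈ F.Hom P → φ ∈ F.normalizerHom Y P) : F.IsNormal Y := by
  refine ⟨hY, fun P φ hφ => ?_⟩
  obtain ⟨-, -, -, ψ, hψ, h1, h2⟩ := h P φ hφ
  exact ⟨ψ, hψ, h1, h2⟩

theorem le_normalizer_centralizerIn {Q : Subgroup Ω} (hQ : S ≤ Subgroup.normalizer (Q : Set Ω)) :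
    S ≤ Subgroup.normalizer (centralizerIn S Q : Set Ω) := by
  intro s hs
  rw [Subgroup.mem_normalizer_iff]
  have key : ∀ t ∈ S, ∀ z ∈ centralizerIn S Q, t * z * t⁻¹ ∈ centralizerIn S Q := by
    intro t ht z hz
    refine ⟨S.mul_mem (S.mul_mem ht hz.1) (S.inv_mem ht), ?_⟩
    refine Subgroup.mem_centralizer_iff.2 fun q hq => ?_
    have h1 : t⁻¹ * q * t ∈ Q := by
      have := (Subgroup.mem_normalizer_iff.1 (hQ (S.inv_mem ht)) q).1 hq
      simpa using this
    have h2 := Subgroup.mem_centralizer_iff.1 hz.2 _ h1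
    have h3 : q * (t * z * t⁻¹) = t * ((t⁻¹ * q * t) * z) * t⁻¹ := by group
    rw [h3, h2]
    group
  intro z
  refine ⟨key s hs z, fun h => ?_⟩
  have h1 := key s⁻¹ (S.inv_mem hs) _ h
  have h2 : s⁻¹ * (s * z * s⁻¹) * s⁻¹⁻¹ = z := by group
  rwa [h2] at h1

/-- A map of `F` whose source contains `Y ⊴ S` and which maps `Y` into `Y` belongs to `N_F(Y)`. -/
theorem mem_normalizerHom_of_mapsTo [Finite S] {F : FusionSystem S} {Y : Subgroup Ω} (hY : Y ≤ S)
    (hYn : S ≤ Subgroup.normalizer (Y : Set Ω)) {P : Subgroup Ω} {φ : P →* Ω} (hφ : φ ∈ F.Hom P)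
    (hYP : Y ≤ P) (h : ∀ (y : Ω) (hy : y ∈ Y), φ ⟨y, hYP hy⟩ ∈ Y) : φ ∈ F.normalizerHom Y P := by
  have hfin : Finite Y := finite_of_le hY
  rw [mem_normalizerHom_iff]
  refine ⟨le_inf (hom_le hφ) ((hom_le hφ).trans hYn), fun x => ⟨hom_apply_mem hφ x, hYn (hom_apply_mem hφ x)⟩, ?_⟩
  have hle : P ⊔ Y ≤ P := sup_le le_rfl hYP
  exact ⟨_, restrict_mem hφ hle, fun x hx hx' => rfl, fun y hy hy' => h y hy⟩

theorem commutator_le_nfoc [Finite S] {F : FusionSystem S} {Y : Subgroup Ω} (hY : Y ≤ S)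
    (hYn : S ≤ Subgroup.normalizer (Y : Set Ω)) :
    ⁅(S : Subgroup Ω), (S : Subgroup Ω)⁆ ≤ nfoc F Y := by
  rw [Subgroup.commutator_le]
  intro a ha b hb
  have h1 : conjHom S b ∈ F.normalizerHom Y S :=
    mem_normalizerHom_of_mapsTo hY hYn (F.conj_mem le_rfl hb) hY
      (fun y hy => (Subgroup.mem_normalizer_iff.1 (hYn hb) y).1 hy)
  have h := mem_nfoc h1 ⟨a⁻¹, S.inv_mem ha⟩
  have h2 : ((⟨a⁻¹, S.inv_mem ha⟩ : S) : Ω)⁻¹ * conjHom S b ⟨a⁻¹, S.inv_mem ha⟩ = ⁅a, b⁆ := by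
    show a⁻¹⁻¹ * (b * a⁻¹ * b⁻¹) = a * b * a⁻¹ * b⁻¹
    group
  rwa [h2] at h

/-! ### The quotient step -/

/-- **Quotient step**: if the focal subgroup of `F/Q` lies in `nfoc (F/Q) V'` and the focal subgroup of
`N_F(L)`, `L` the preimage of `V'`, lies in `H`, then `foc(F) ≤ H Q`. -/
theorem focal_le_sup_of_factor [Finite S] {F : FusionSystem S} {Q : Subgroup Ω}
    (hQ : F.IsNormal Q) {Ω' : Type u} [Group Ω'] {S' : Subgroup Ω'} {θ : S →* Ω'}
    {E : FusionSystem S'} (hE : F.IsFactorSystem Q θ E) {V' : Subgroup Ω'}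
    (hV'n : S' ≤ Subgroup.normalizer (V' : Set Ω'))
    (h1 : E.focalSubgroup ≤ nfoc E V') {H : Subgroup Ω}
    (h2 : nfoc F (preimageAlong θ V') ≤ H) : F.focalSubgroup ≤ H ⊔ Q := by
  have hQS := hQ.1
  have hsc := Cfsg.Agent.H759.IsNormal.stronglyClosed hQ
  set L := preimageAlong θ V' with hL
  have hLS : L ≤ S := Cfsg.Agent.H759.preimageAlong_le
  have hθS : ∀ s : S, θ s ∈ S' := fun s => by rw [← hE.2.2.1]; exact ⟨s, rfl⟩
  have hLn : S ≤ Subgroup.normalizer (L : Set Ω) := by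
    have key : ∀ s ∈ S, ∀ l ∈ L, s * l * s⁻¹ ∈ L := by
      intro s hs l hl
      obtain ⟨hlS, hl'⟩ := Cfsg.Agent.H759.mem_preimageAlong.1 hl
      refine Cfsg.Agent.H759.mem_preimageAlong.2 ⟨S.mul_mem (S.mul_mem hs hlS) (S.inv_mem hs), ?_⟩
      have h3 : (⟨s * l * s⁻¹, S.mul_mem (S.mul_mem hs hlS) (S.inv_mem hs)⟩ : S) =
        ⟨s, hs⟩ * ⟨l, hlS⟩ * ⟨s, hs⟩⁻¹ := Subtype.ext rfl
      rw [h3, map_mul, map_mul, map_inv]
      exact (Subgroup.mem_normalizer_iff.1 (hV'n (hθS _)) _).1 hl'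
    intro s hs
    rw [Subgroup.mem_normalizer_iff]
    intro l
    refine ⟨key s hs l, fun h => ?_⟩
    have h3 := key s⁻¹ (S.inv_mem hs) _ h
    have h4 : s⁻¹ * (s * l * s⁻¹) * s⁻¹⁻¹ = l := by group
    rwa [h4] at h3
  -- the focal subgroup of the factor system is the image of something in `H`
  have hnf : nfoc E V' ≤ imageAlong θ H := by
    refine nfoc_le fun R' ψ hψ y => ?_
    obtain ⟨hψE, hR'N, hψN, ψ', hψ', e1, e2⟩ := hψ
    obtain ⟨φ, hφ, hφe⟩ := Cfsg.Agent.H759.exists_map_of_factor hE hψ'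
    have hR'V' : R' ⊔ V' ≤ S' := hom_le hψ'
    have hLP : L ≤ preimageAlong θ (R' ⊔ V') := Cfsg.Agent.H759.preimageAlong_mono le_sup_right
    have hφn : φ ∈ F.normalizerHom L (preimageAlong θ (R' ⊔ V')) := by
      refine mem_normalizerHom_of_mapsTo hLS hLn hφ hLP (fun l hl => ?_)
      obtain ⟨hlS, hl'⟩ := Cfsg.Agent.H759.mem_preimageAlong.1 hl
      have hlV : θ ⟨l, hlS⟩ ∈ R' ⊔ V' := (le_sup_right : V' ≤ R' ⊔ V') hl'
      have h3 := hφe l (hLP hl) hlS hlV (hom_apply_mem hφ _)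
      refine Cfsg.Agent.H759.mem_preimageAlong.2 ⟨hom_apply_mem hφ _, ?_⟩
      rw [← h3]
      exact (SetLike.ext_iff.1 e2 _).1 ⟨⟨θ ⟨l, hlS⟩, hlV⟩, hl', rfl⟩
    have hyS' : (y : Ω') ∈ S' := hom_le hψE y.2
    obtain ⟨r, hrS, hrP, hry⟩ := Cfsg.Agent.H759.exists_preimage_of_mem hE hR'V'
      ((le_sup_left : R' ≤ R' ⊔ V') y.2)
    have h3 := mem_nfoc hφn ⟨r, hrP⟩
    have hyV : θ ⟨r, hrS⟩ ∈ R' ⊔ V' := by rw [hry]; exact (le_sup_left : R' ≤ R' ⊔ V') y.2
    have h4 := hφe r hrP hrS hyV (hom_apply_mem hφ _)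
    have h5 : ψ y = θ ⟨φ ⟨r, hrP⟩, hom_apply_mem hφ _⟩ := by
      rw [← h4, ← e1 y]
      congr 1
      exact Subtype.ext hry.symm
    have hrφ : (r : Ω)⁻¹ * φ ⟨r, hrP⟩ ∈ S := S.mul_mem (S.inv_mem hrS) (hom_apply_mem hφ _)
    refine Cfsg.Agent.H759.mem_imageAlong.2 ⟨_, hrφ, h2 h3, ?_⟩
    have h6 : (⟨r⁻¹ * φ ⟨r, hrP⟩, hrφ⟩ : S) = ⟨r, hrS⟩⁻¹ * ⟨φ ⟨r, hrP⟩, hom_apply_mem hφ _⟩ :=
      Subtype.ext rfl
    rw [h6, map_mul, map_inv, hry, h5]
  refine Cfsg.Agent.H747.focal_le fun P φ hφ x => ?_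
  have hPS : P ≤ S := hom_le hφ
  obtain ⟨ψ, hψ, e1, e2⟩ := hQ.2 P φ hφ
  have hP'S : imageAlong θ P ≤ S' := by rw [← hE.2.2.1]; exact Cfsg.Agent.H759.imageAlong_le_range
  have hpre : preimageAlong θ (imageAlong θ P) ≤ P ⊔ Q := by
    intro y hy
    obtain ⟨hyS, hy'⟩ := Cfsg.Agent.H759.mem_preimageAlong.1 hy
    obtain ⟨r, hr, hrP, hry⟩ := Cfsg.Agent.H759.mem_imageAlong.1 hy'
    have h1 := (Cfsg.Agent.H759.theta_eq_iff hE).1 hry
    have h2 : y = r * (r⁻¹ * y) := by group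
    rw [h2]
    exact (P ⊔ Q).mul_mem ((le_sup_left : P ≤ P ⊔ Q) hrP) ((le_sup_right : Q ≤ P ⊔ Q) h1)
  obtain ⟨φ', hφ', hφe⟩ := Cfsg.Agent.H759.exists_factor_map hsc hE hψ hP'S hpre
  have hxS : (x : Ω) ∈ S := hPS x.2
  have hxP' : θ ⟨x, hxS⟩ ∈ imageAlong θ P := Cfsg.Agent.H759.mem_imageAlong.2 ⟨x, hxS, x.2, rfl⟩
  have hxPQ : (x : Ω) ∈ P ⊔ Q := (le_sup_left : P ≤ P ⊔ Q) x.2
  have h3 := hφe x hxPQ hxS hxP' (hom_apply_mem hψ _)
  have h4 : ψ ⟨x, hxPQ⟩ = φ x := e1 x
  have h5 := (h1.trans hnf) (Cfsg.Agent.H747.focal_mem hφ' ⟨_, hxP'⟩)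
  obtain ⟨z, hzS, hzH, hz⟩ := Cfsg.Agent.H759.mem_imageAlong.1 h5
  have hxφ : (x : Ω)⁻¹ * φ x ∈ S := S.mul_mem (S.inv_mem hxS) (hom_apply_mem hφ x)
  have h6 : θ ⟨z, hzS⟩ = θ ⟨(x : Ω)⁻¹ * φ x, hxφ⟩ := by
    rw [hz, h3]
    have h7 : (⟨(x : Ω)⁻¹ * φ x, hxφ⟩ : S) = ⟨x, hxS⟩⁻¹ * ⟨φ x, hom_apply_mem hφ x⟩ := Subtype.ext rfl
    rw [h7, map_mul, map_inv]
    congr 2
    exact Subtype.ext h4
  have h7 := (Cfsg.Agent.H759.theta_eq_iff hE).1 h6
  have h8 : (x : Ω)⁻¹ * φ x = z * (z⁻¹ * ((x : Ω)⁻¹ * φ x)) := by group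
  rw [h8]
  exact (H ⊔ Q).mul_mem ((le_sup_left : H ≤ H ⊔ Q) hzH) ((le_sup_right : Q ≤ H ⊔ Q) h7)

end Cfsg.Agent.H769
end

-- part: H769/FocMain
section
/-!
# A functor with the local focal condition controls transfer in every saturated fusion system (helper769)
-/

set_option autoImplicit false

namespace Cfsg.Agent.H769

open Cfsg Cfsg.FusionSystem Cfsg.Agent.H802 Cfsg.Agent.H771

open scoped commutatorElement

universe u

variable {Ω : Type u} [Group Ω] {S : Subgroup Ω}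

/-- In a realized system, the focal subgroup maps into the derived subgroup. -/
theorem focal_le_commutator {F : FusionSystem S} {L : Type*} [Group L] {ι : ↥S →* L}
    (hreal : F.IsRealizedBy ι) : F.focalSubgroup ≤ ((commutator L).comap ι).map S.subtype := by
  refine Cfsg.Agent.H747.focal_le fun P φ hφ x => ?_
  have hPS := hom_le hφ
  obtain ⟨g, hg⟩ := (hreal.2 P hPS φ (hom_apply_mem hφ)).1 hφ
  refine ⟨⟨x, hPS x.2⟩⁻¹ * ⟨φ x, hom_apply_mem hφ x⟩, ?_, rfl⟩
  show ι _ ∈ commutator L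
  rw [map_mul, map_inv, hg x]
  have h1 : (ι ⟨x, hPS x.2⟩)⁻¹ * (g * ι ⟨x, hPS x.2⟩ * g⁻¹) = ⁅(ι ⟨x, hPS x.2⟩)⁻¹, g⁆ := by
    rw [commutatorElement_def]
    group
  rw [h1]
  exact Subgroup.commutator_mem_commutator (Subgroup.mem_top _) (Subgroup.mem_top _)

/-- A realized system: conjugation by an element normalizing the image `V` of `Y ⊴ S`. -/
theorem mem_nfoc_of_conj [Finite S] {F : FusionSystem S} {L : Type*} [Group L] {ι : ↥S →* L}
    (hreal : F.IsRealizedBy ι) {Y : Subgroup Ω} (hY : Y ≤ S)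
    (hYn : S ≤ Subgroup.normalizer (Y : Set Ω)) {u : L}
    (hu : ∀ (y : Ω) (hy : y ∈ Y), ∃ (y' : Ω) (hy' : y' ∈ Y),
      u * ι ⟨y, hY hy⟩ * u⁻¹ = ι ⟨y', hY hy'⟩) {s s' : S} (hs : u * ι s * u⁻¹ = ι s') :
    (s : Ω)⁻¹ * s' ∈ nfoc F Y := by
  obtain ⟨hinj, hreal⟩ := hreal
  -- the largest subgroup of `S` conjugated into `S` by `u`
  let P₀ : Subgroup S := ι.range.comap ((MulAut.conj u).toMonoidHom.comp ι)
  let f₀ : P₀ →* ι.range := (((MulAut.conj u).toMonoidHom.comp ι).comp P₀.subtype).codRestrict _ (fun x => x.2)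
  let P : Subgroup Ω := P₀.map S.subtype
  let e : P₀ ≃* P := P₀.equivMapOfInjective S.subtype S.subtype_injective
  let φ : P →* Ω := (S.subtype.comp ((MonoidHom.ofInjective hinj).symm.toMonoidHom)).comp
    (f₀.comp e.symm.toMonoidHom)
  have hPS : P ≤ S := Subgroup.map_subtype_le _
  have hφS : ∀ x : P, φ x ∈ S := fun x => ((MonoidHom.ofInjective hinj).symm (f₀ (e.symm x))).2
  have he : ∀ x : P, ((e.symm x : P₀) : S) = ⟨x, hPS x.2⟩ := by
    intro x
    apply Subtype.ext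
    have h1 : ((e (e.symm x) : P) : Ω) = (x : Ω) := by rw [MulEquiv.apply_symm_apply]
    exact h1
  have hφe : ∀ x : P, ι ⟨φ x, hφS x⟩ = u * ι ⟨x, hPS x.2⟩ * u⁻¹ := by
    intro x
    have h1 : (⟨φ x, hφS x⟩ : S) = (MonoidHom.ofInjective hinj).symm (f₀ (e.symm x)) := Subtype.ext rfl
    have h2 := MonoidHom.apply_ofInjective_symm hinj (f₀ (e.symm x))
    rw [h1, h2]
    show u * ι ((e.symm x : P₀) : S) * u⁻¹ = _
    rw [he]
  have hφ : φ ∈ F.Hom P := (hreal P hPS φ hφS).2 ⟨u, hφe⟩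
  have hYP : Y ≤ P := by
    intro y hy
    obtain ⟨y', hy', h1⟩ := hu y hy
    exact ⟨⟨y, hY hy⟩, ⟨⟨y', hY hy'⟩, h1.symm⟩, rfl⟩
  have hn : φ ∈ F.normalizerHom Y P := by
    refine mem_normalizerHom_of_mapsTo hY hYn hφ hYP (fun y hy => ?_)
    obtain ⟨y', hy', h1⟩ := hu y hy
    have h2 := hφe ⟨y, hYP hy⟩
    have h3 : ι ⟨φ ⟨y, hYP hy⟩, hφS _⟩ = ι ⟨y', hY hy'⟩ := by rw [h2]; exact h1
    have h4 : φ ⟨y, hYP hy⟩ = y' := congrArg Subtype.val (hinj h3)
    rw [h4]
    exact hy'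
  have hsP : (s : Ω) ∈ P := ⟨s, ⟨s', hs.symm⟩, rfl⟩
  have h5 := mem_nfoc hn ⟨s, hsP⟩
  have h6 : φ ⟨s, hsP⟩ = s' := by
    have h7 : ι ⟨φ ⟨s, hsP⟩, hφS _⟩ = ι s' := by
      rw [hφe, ← hs]
    exact congrArg Subtype.val (hinj h7)
  rw [h6] at h5
  exact h5

variable {p : ℕ} [Fact p.Prime] {W : ∀ (Q : Type u) [Group Q], Subgroup Q}

/-- **The constrained case.** -/
theorem core_case_centric [Finite S] (hS : IsPGroup p S) {F : FusionSystem S} (hF : F.IsSaturated p)
    (hW2 : ∀ (Q R : Type u) [Group Q] [Group R] [Finite Q], IsPGroup p Q → ∀ φ : Q ≃* R,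
      (W Q).map φ.toMonoidHom = W R)
    (hT : ∀ (G : Type u) [Group G] [Finite G] (P : Sylow p G),
      Subgroup.centralizer ((Cfsg.pCore p G : Subgroup G) : Set G) ≤ Cfsg.pCore p G →
      Cfsg.pCore p G ⊓ commutator G = Cfsg.pCore p G ⊓
        (commutator ↥(Subgroup.normalizer (((W ↥(P : Subgroup G)).map
          (P : Subgroup G).subtype : Subgroup G) : Set G))).map
        (Subgroup.normalizer (((W ↥(P : Subgroup G)).map
          (P : Subgroup G).subtype : Subgroup G) : Set G)).subtype)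
    {Q : Subgroup Ω} (hQ : F.IsNormal Q) (hQc : F.IsCentric Q) :
    Q ⊓ F.focalSubgroup ≤ nfoc F (WS W S) := by
  rintro q ⟨hqQ, hqF⟩
  obtain ⟨L, _, ι, hM, hnorm, hcen⟩ := exists_model hS hF hQ hQc
  obtain ⟨hfin, hreal, ⟨T, hTι⟩, hcenL⟩ := hM
  have key := hT L T hcenL
  set N : Subgroup L := Subgroup.normalizer (((W ↥(T : Subgroup L)).map
          (T : Subgroup L).subtype : Subgroup L) : Set L) with hN
  have hinj := hreal.1
  have hQS := hQ.1
  have hTp : IsPGroup p (T : Subgroup L) := T.2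
  have hTN : (T : Subgroup L) ≤ N :=
    Subgroup.le_normalizer.trans (le_normalizer_WS hW2 (T := (T : Subgroup L)) hTp)
  -- `W(T)` is the image of `W(S)`
  have hWT : (W S).map ι = WS W (T : Subgroup L) := map_W hW2 hS hinj hTι.symm
  -- `ι q` lies in `O_p(L) ∩ L'`
  have hq1 : ι ⟨q, hQS hqQ⟩ ∈ Cfsg.pCore p L := by
    refine Cfsg.Agent.Lib.Cores.le_pCore hnorm ?_ ⟨⟨q, hQS hqQ⟩, hqQ, rfl⟩
    exact (hS.to_subgroup _).map ι
  have hq2 : ι ⟨q, hQS hqQ⟩ ∈ commutator L := by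
    obtain ⟨z, hz, hzq⟩ := focal_le_commutator hreal hqF
    have h1 : z = ⟨q, hQS hqQ⟩ := Subtype.ext hzq
    rw [← h1]
    exact hz
  have hq3 : ι ⟨q, hQS hqQ⟩ ∈ Cfsg.pCore p L ⊓ commutator L := ⟨hq1, hq2⟩
  rw [key] at hq3
  obtain ⟨n, hn, hnq⟩ := hq3.2
  have hnq' : (n : L) = ι ⟨q, hQS hqQ⟩ := hnq
  have hιT : ∀ s : S, ι s ∈ (T : Subgroup L) := fun s => by rw [hTι]; exact ⟨s, rfl⟩
  -- the focal subgroup theorem in `N`
  let T' : Sylow p N := T.subtype hTN
  have hnT : n ∈ _root_.commutator N ⊓ (T' : Subgroup N) := by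
    refine ⟨hn, ?_⟩
    show (n : L) ∈ (T : Subgroup L)
    rw [hnq']
    exact hιT _
  rw [Subgroup.commutator_inf_eq_focalSubgroup T'] at hnT
  have hfoc : (T' : Subgroup N).focalSubgroup ≤
      (((nfoc F (WS W S)).comap S.subtype).map ι).comap N.subtype := by
    rw [Subgroup.focalSubgroup_def, Subgroup.closure_le]
    rintro g ⟨hgT, x, hxT, u, rfl⟩
    have hxT' : (x : L) ∈ ι.range := by rw [← hTι]; exact hxT
    obtain ⟨s, hs⟩ := hxT'
    have hux : ((u : L) * (x : L)⁻¹ * (u : L)⁻¹) ∈ ι.range := by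
      rw [← hTι]
      have h1 : ((⁅x, u⁆ : N) : L) ∈ (T : Subgroup L) := hgT
      have h2 : ((⁅x, u⁆ : N) : L) = (x : L) * ((u : L) * (x : L)⁻¹ * (u : L)⁻¹) := by
        rw [commutatorElement_def]
        push_cast
        group
      rw [h2] at h1
      have hxT'' : (x : L) ∈ (T : Subgroup L) := hxT
      have h3 := (T : Subgroup L).mul_mem ((T : Subgroup L).inv_mem hxT'') h1
      rwa [inv_mul_cancel_left] at h3
    obtain ⟨s', hs'⟩ := hux
    have h1 : (u : L) * ι s⁻¹ * (u : L)⁻¹ = ι s' := by rw [map_inv, hs, hs']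
    have h2 := mem_nfoc_of_conj hreal (Y := WS W S) (WS_le S)
      (Subgroup.le_normalizer.trans (le_normalizer_WS hW2 hS)) (u := (u : L)) (by
        intro y hy
        obtain ⟨w, hw, hwy⟩ := hy
        have h3 : ι w ∈ WS W (T : Subgroup L) := by rw [← hWT]; exact ⟨w, hw, rfl⟩
        have h4 := (Subgroup.mem_normalizer_iff.1 u.2 (ι w)).1 h3
        have h5 : (u : L) * ι w * (u : L)⁻¹ ∈ (W S).map ι := by rw [hWT]; exact h4
        obtain ⟨w', hw', h6⟩ := h5
        refine ⟨w', ⟨w', hw', rfl⟩, ?_⟩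
        have h7 : (⟨y, WS_le S ⟨w, hw, hwy⟩⟩ : S) = w := Subtype.ext hwy.symm
        rw [h7, ← h6]) h1
    refine ⟨s * s', ?_, ?_⟩
    · show ((s * s' : S) : Ω) ∈ nfoc F (WS W S)
      have h8 : ((s⁻¹ : S) : Ω)⁻¹ * (s' : Ω) = ((s * s' : S) : Ω) := by push_cast; group
      rw [h8] at h2
      exact h2
    · rw [map_mul, hs, hs']
      show _ = ((⁅x, u⁆ : N) : L)
      rw [commutatorElement_def]
      push_cast
      group
  obtain ⟨z, hz, hzq⟩ := hfoc hnT
  have h9 : z = ⟨q, hQS hqQ⟩ := hinj (hzq.trans hnq)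
  rw [h9] at hz
  exact hz

/-- **The non-centric case**: `Q` normal in `F`, and every map of `F` acts on `Q` as an element of `S`; then
`Q ∩ foc(F) ≤ [S, S]`. -/
theorem core_case_inner [Finite S] (hS : IsPGroup p S) {F : FusionSystem S} (hF : F.IsSaturated p)
    {Q : Subgroup Ω} (hQS : Q ≤ S)
    (hin : ∀ (P : Subgroup Ω) (φ : P →* Ω), φ ∈ F.Hom P → ∃ s ∈ S, ∀ x : P, (x : Ω) ∈ Q →
      φ x = s * x * s⁻¹) :
    Q ⊓ F.focalSubgroup ≤ ⁅(S : Subgroup Ω), (S : Subgroup Ω)⁆ := by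
  rintro q ⟨hqQ, hqF⟩
  obtain ⟨m, τ, hpm, hst, hval⟩ := Cfsg.Agent.H767.FusTransfer.exists_transfer hS hF
    (Abelianization.of : S →* Abelianization S)
  obtain ⟨z, hz, hzq⟩ := Cfsg.Agent.H767.FusTransfer.focal_le τ hst hqF
  have hz' : z = ⟨q, hQS hqQ⟩ := Subtype.ext hzq
  rw [hz'] at hz
  have h1 : τ ⟨q, hQS hqQ⟩ = 1 := hz
  have h2 := hval ⟨q, hQS hqQ⟩ (by
    intro y P φ hφ hy hyz
    obtain ⟨s, hs, h3⟩ := hin P φ hφ
    have hyQ : (y : Ω) ∈ Q := by
      obtain ⟨n, rfl⟩ := Subgroup.mem_zpowers_iff.1 hyz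
      exact Q.zpow_mem hqQ n
    have h4 := h3 ⟨y, hy⟩ hyQ
    have h5 : (⟨φ ⟨y, hy⟩, hom_apply_mem hφ _⟩ : S) = ⟨s, hs⟩ * y * ⟨s, hs⟩⁻¹ := Subtype.ext h4
    rw [h5, map_mul, map_mul, map_inv]
    rw [mul_comm (Abelianization.of (⟨s, hs⟩ : S)), mul_assoc, mul_inv_cancel, mul_one])
  rw [h1] at h2
  -- the abelianization is a `p`-group
  obtain ⟨k, hk⟩ := hS ⟨q, hQS hqQ⟩
  have h3 : (Abelianization.of (⟨q, hQS hqQ⟩ : S)) ^ p ^ k = 1 := by
    rw [← map_pow, hk, map_one]
  have hp : p.Prime := Fact.out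
  have h4 : (Abelianization.of (⟨q, hQS hqQ⟩ : S)) = 1 := by
    have h5 : orderOf (Abelianization.of (⟨q, hQS hqQ⟩ : S)) ∣ m := orderOf_dvd_of_pow_eq_one h2.symm
    have h6 : orderOf (Abelianization.of (⟨q, hQS hqQ⟩ : S)) ∣ p ^ k := orderOf_dvd_of_pow_eq_one h3
    have h7 : Nat.Coprime m (p ^ k) := by
      apply Nat.Coprime.pow_right
      exact ((Nat.Prime.coprime_iff_not_dvd hp).2 hpm).symm
    have h8 := Nat.dvd_gcd h5 h6
    rw [h7.gcd_eq_one, Nat.dvd_one] at h8
    exact orderOf_eq_one_iff.1 h8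
  have h5 : (⟨q, hQS hqQ⟩ : S) ∈ commutator S := by
    have h6 : (⟨q, hQS hqQ⟩ : S) ∈ (Abelianization.of (G := S)).ker := h4
    rwa [Abelianization.ker_of] at h6
  have h6 : (commutator S).map S.subtype = ⁅(S : Subgroup Ω), (S : Subgroup Ω)⁆ := by
    rw [commutator_def, Subgroup.map_commutator, ← MonoidHom.range_eq_map, Subgroup.range_subtype]
  rw [← h6]
  exact ⟨_, h5, rfl⟩

/-- Induction step. -/
theorem step [Finite S] (hS : IsPGroup p S) {F : FusionSystem S} (hF : F.IsSaturated p)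
    (hW1 : ∀ (Q : Type u) [Group Q] [Finite Q], IsPGroup p Q → Nontrivial Q → W Q ≠ ⊥)
    (hW2 : ∀ (Q R : Type u) [Group Q] [Group R] [Finite Q], IsPGroup p Q → ∀ φ : Q ≃* R,
      (W Q).map φ.toMonoidHom = W R)
    (hT : ∀ (G : Type u) [Group G] [Finite G] (P : Sylow p G),
      Subgroup.centralizer ((Cfsg.pCore p G : Subgroup G) : Set G) ≤ Cfsg.pCore p G →
      Cfsg.pCore p G ⊓ commutator G = Cfsg.pCore p G ⊓
        (commutator ↥(Subgroup.normalizer (((W ↥(P : Subgroup G)).map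
          (P : Subgroup G).subtype : Subgroup G) : Set G))).map
        (Subgroup.normalizer (((W ↥(P : Subgroup G)).map
          (P : Subgroup G).subtype : Subgroup G) : Set G)).subtype)
    (IH1 : ∀ (Ω' : Type u) [Group Ω'] (S' : Subgroup Ω') [Finite S'], IsPGroup p S' →
      Nat.card S' < Nat.card S → ∀ E : FusionSystem S', E.IsSaturated p →
        E.focalSubgroup ≤ nfoc E (WS W S'))
    (IH2 : ∀ E : FusionSystem S, E.IsSaturated p → (∀ P, E.Hom P ⊆ F.Hom P) →
      (∃ (P : Subgroup Ω) (φ : P →* Ω), φ ∈ F.Hom P ∧ φ ∉ E.Hom P) →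
        E.focalSubgroup ≤ nfoc E (WS W S)) :
    F.focalSubgroup ≤ nfoc F (WS W S) := by
  have hWn : S ≤ Subgroup.normalizer (WS W S : Set Ω) :=
    Subgroup.le_normalizer.trans (le_normalizer_WS hW2 hS)
  set H : Subgroup Ω := nfoc F (WS W S) with hH
  have hHF : H ≤ F.focalSubgroup := nfoc_le_focal F _
  have hHS : H ≤ S := hHF.trans (Cfsg.Agent.H747.focal_le_base F)
  have hcomm : ⁅(S : Subgroup Ω), (S : Subgroup Ω)⁆ ≤ H := commutator_le_nfoc (WS_le S) hWn
  have IH2' : ∀ (S'' : Subgroup Ω) (_ : S'' = S) (E : FusionSystem S''), E.IsSaturated p →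
      (∀ P, E.Hom P ⊆ F.Hom P) → (∃ (P : Subgroup Ω) (φ : P →* Ω), φ ∈ F.Hom P ∧ φ ∉ E.Hom P) →
      ∀ (P : Subgroup Ω) (φ : P →* Ω), φ ∈ E.Hom P → ∀ x : P, (x : Ω)⁻¹ * φ x ∈ H := by
    intro S'' h E hE hle hne P φ hφ x
    subst h
    exact nfoc_mono hle _ (IH2 E hE hle hne (Cfsg.Agent.H747.focal_mem hφ x))
  -- normalizer systems of subgroups that are not normal in `F`
  have hnorm : ∀ Y : Subgroup Ω, F.IsFullyNormalized Y → normalizerIn S Y = S → ¬ F.IsNormal Y →
      ∀ (P : Subgroup Ω) (φ : P →* Ω), φ ∈ F.normalizerHom Y P → ∀ x : P, (x : Ω)⁻¹ * φ x ∈ H := by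
    intro Y hYn hYS hY P φ hφ
    obtain ⟨E, hE⟩ := exists_normalizerSystem F hYn.1
    have hEs := normalizerSystem_isSaturated hS hF hYn hE
    refine IH2' _ hYS E hEs (fun P φ hφ => ?_) ?_ P φ (by rw [hE P]; exact hφ)
    · rw [hE P] at hφ
      exact hφ.1
    · by_contra hcon
      push Not at hcon
      refine hY (isNormal_of_normalizerHom hYn.1 (fun P φ hφ => ?_))
      have := hcon P φ hφ
      rwa [hE P] at this
  by_cases hcore : F.core = ⊥
  · -- Case A
    refine focal_of_local hS hF (fun Y hY hYn => ⟨WS W (normalizerIn S Y), ?_, WS_le _, ?_, ?_, ?_⟩)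
    · have hTS : normalizerIn S Y ≤ S := inf_le_left
      have hfin : Finite (normalizerIn S Y) := finite_of_le hTS
      refine WS_ne_bot hW1 (hS.to_le hTS) (fun h => hY ?_)
      rw [eq_bot_iff, ← h]
      exact Cfsg.Agent.H802.le_normalizerIn hYn.1
    · have hTS : normalizerIn S Y ≤ S := inf_le_left
      have hfin : Finite (normalizerIn S Y) := finite_of_le hTS
      exact inf_le_right.trans (le_normalizer_WS hW2 (hS.to_le hTS))
    · intro hTeq
      refine hnorm Y hYn hTeq (fun h => hY ?_)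
      rw [eq_bot_iff, ← hcore]
      exact Cfsg.Agent.H759.IsNormal.le_core h
    · intro hTne P φ hφ x
      have hTS : normalizerIn S Y ≤ S := inf_le_left
      have hfin : Finite (normalizerIn S Y) := finite_of_le hTS
      have hTp : IsPGroup p (normalizerIn S Y) := hS.to_le hTS
      obtain ⟨E, hE⟩ := exists_normalizerSystem F hYn.1
      have hEs := normalizerSystem_isSaturated hS hF hYn hE
      have hlt : Nat.card (normalizerIn S Y) < Nat.card S :=
        lt_of_le_of_ne (Subgroup.card_le_of_le hTS)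
          (fun h => hTne (Subgroup.eq_of_le_of_card_ge hTS h.ge))
      have h1 := IH1 Ω (normalizerIn S Y) hTp hlt E hEs
      have hφE : φ ∈ E.Hom P := by rw [hE P]; exact hφ
      have h2 := h1 (Cfsg.Agent.H747.focal_mem hφE x)
      refine nfoc_le ?_ h2
      rintro R ψ ⟨hψE, hRN, hψN, ψ', hψ', e1, e2⟩ y
      have hR' : R ⊔ WS W (normalizerIn S Y) ≤ normalizerIn S Y := hom_le hψ'
      have hψ'F : ψ' ∈ F.Hom _ := by
        rw [hE] at hψ'
        exact hψ'.1
      refine Subgroup.subset_closure ⟨_, ψ', ⟨y, (le_sup_left : R ≤ _) y.2⟩, hψ'F, hR',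
        fun z => hom_apply_mem hψ' z, le_sup_right, fun z hz => ?_, ?_⟩
      · exact (SetLike.ext_iff.1 e2 _).1 ⟨z, hz, rfl⟩
      · show (y : Ω)⁻¹ * ψ y = (y : Ω)⁻¹ * ψ' (Subgroup.inclusion le_sup_left y)
        rw [e1 y]
  · -- Case B
    set Q := F.core with hQdef
    have hQ : F.IsNormal Q := Cfsg.Agent.H759.isNormal_core
    have hQS : Q ≤ S := hQ.1
    have hQn : S ≤ Subgroup.normalizer (Q : Set Ω) := le_normalizer_of_isNormal hQ
    have hsc := Cfsg.Agent.H759.IsNormal.stronglyClosed hQ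
    have hQfin : Finite Q := finite_of_le hQS
    by_cases hWN : F.IsNormal (WS W S)
    · refine Cfsg.Agent.H747.focal_le fun P φ hφ x => ?_
      have hWfin : Finite (WS W S) := finite_of_le (WS_le S)
      refine mem_nfoc (mem_normalizerHom_iff.2 ⟨?_, ?_, nExt_of_isNormal hWN hφ⟩) x
      · exact le_inf (hom_le hφ) ((hom_le hφ).trans hWn)
      · exact fun x => ⟨hom_apply_mem hφ x, hWn (hom_apply_mem hφ x)⟩
    have hQneS : Q ≠ S := by
      intro hQeq
      apply hWN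
      have hWfin : Finite (WS W S) := finite_of_le (WS_le S)
      refine isNormal_of_nExt (WS_le S) (fun P φ hφ => ?_)
      obtain ⟨ψ, hψ, e1, e2⟩ := hQ.2 P φ hφ
      have hPS := hom_le hφ
      have hSle : S ≤ P ⊔ Q := by rw [hQeq]; exact le_sup_right
      have hle : P ⊔ WS W S ≤ P ⊔ Q := sup_le le_sup_left ((WS_le S).trans hSle)
      refine ⟨_, restrict_mem hψ hle, fun x hx hx' => e1 ⟨x, hx⟩, fun y hy hy' => ?_⟩
      have hψS : ψ.comp (Subgroup.inclusion hSle) ∈ F.Hom S := restrict_mem hψ hSle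
      have h1 := apply_mem_WS hW2 hS (F.injective_of_mem hψS)
        (range_eq_of_mapsTo hψS (fun x => hom_apply_mem hψS x)) hy (WS_le S hy)
      exact h1
    -- the quotient
    have hKn : (Q.subgroupOf S).Normal := Subgroup.normal_subgroupOf_of_le_normalizer hQn
    let θ : S →* (S ⧸ Q.subgroupOf S) := QuotientGroup.mk' (Q.subgroupOf S)
    have hker : ∀ s : S, θ s = 1 ↔ (s : Ω) ∈ Q := by
      intro s
      show (QuotientGroup.mk' (Q.subgroupOf S)) s = 1 ↔ _
      rw [QuotientGroup.mk'_apply, QuotientGroup.eq_one_iff, Subgroup.mem_subgroupOf]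
    have hr : θ.range = ⊤ := MonoidHom.range_eq_top.2 (QuotientGroup.mk'_surjective _)
    obtain ⟨E, hE⟩ := Cfsg.Agent.H759.exists_factorSystem hsc hker hr
    have hEs : E.IsSaturated p := Cfsg.Agent.H759.isSaturated_factor hS hF hsc hE
    have hqp : IsPGroup p (S ⧸ Q.subgroupOf S) := hS.to_quotient _
    have htp : IsPGroup p (⊤ : Subgroup (S ⧸ Q.subgroupOf S)) := hqp.to_subgroup _
    have hcard : Nat.card (⊤ : Subgroup (S ⧸ Q.subgroupOf S)) < Nat.card S := by
      rw [Subgroup.card_top]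
      have h1 := Subgroup.card_eq_card_quotient_mul_card_subgroup (Q.subgroupOf S)
      have h2 : 1 < Nat.card (Q.subgroupOf S) := by
        rw [Nat.card_congr (Subgroup.subgroupOfEquivOfLe hQS).toEquiv]
        have : Nontrivial Q := (Subgroup.nontrivial_iff_ne_bot Q).2 hcore
        exact Finite.one_lt_card
      rw [h1]
      exact lt_mul_of_one_lt_right Nat.card_pos h2
    have h1 := IH1 _ (⊤ : Subgroup (S ⧸ Q.subgroupOf S)) htp hcard E hEs
    set V' : Subgroup (S ⧸ Q.subgroupOf S) := WS W ⊤ with hV'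
    have hV'n : (⊤ : Subgroup (S ⧸ Q.subgroupOf S)) ≤ Subgroup.normalizer (V' : Set _) :=
      Subgroup.le_normalizer.trans (le_normalizer_WS hW2 htp)
    have hV'ne : V' ≠ ⊥ := by
      refine WS_ne_bot hW1 htp (fun h => hQneS ?_)
      refine le_antisymm hQS (fun s hs => ?_)
      have h3 : θ ⟨s, hs⟩ ∈ (⊤ : Subgroup (S ⧸ Q.subgroupOf S)) := Subgroup.mem_top _
      rw [h, Subgroup.mem_bot] at h3
      exact (hker _).1 h3
    set L := preimageAlong θ V' with hL
    have hLS : L ≤ S := Cfsg.Agent.H759.preimageAlong_le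
    have hQL : Q ≤ L := Cfsg.Agent.H759.le_preimageAlong hQS hker
    have hLn : S ≤ Subgroup.normalizer (L : Set Ω) := by
      have key : ∀ s ∈ S, ∀ l ∈ L, s * l * s⁻¹ ∈ L := by
        intro s hs l hl
        obtain ⟨hlS, hl'⟩ := Cfsg.Agent.H759.mem_preimageAlong.1 hl
        refine Cfsg.Agent.H759.mem_preimageAlong.2 ⟨S.mul_mem (S.mul_mem hs hlS) (S.inv_mem hs), ?_⟩
        have h3 : (⟨s * l * s⁻¹, S.mul_mem (S.mul_mem hs hlS) (S.inv_mem hs)⟩ : S) =
          ⟨s, hs⟩ * ⟨l, hlS⟩ * ⟨s, hs⟩⁻¹ := Subtype.ext rfl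
        rw [h3, map_mul, map_mul, map_inv]
        exact (Subgroup.mem_normalizer_iff.1 (hV'n (Subgroup.mem_top _)) _).1 hl'
      intro s hs
      rw [Subgroup.mem_normalizer_iff]
      intro l
      refine ⟨key s hs l, fun h => ?_⟩
      have h3 := key s⁻¹ (S.inv_mem hs) _ h
      have h4 : s⁻¹ * (s * l * s⁻¹) * s⁻¹⁻¹ = l := by group
      rwa [h4] at h3
    have hLfn : F.IsFullyNormalized L := isFullyNormalized_of_le_normalizer hLS hLn
    have hLnn : ¬ F.IsNormal L := by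
      intro h
      have h3 : L ≤ Q := Cfsg.Agent.H759.IsNormal.le_core h
      apply hV'ne
      rw [eq_bot_iff]
      intro v hv
      obtain ⟨s, rfl⟩ := QuotientGroup.mk'_surjective (Q.subgroupOf S) v
      have h4 : (s : Ω) ∈ L := Cfsg.Agent.H759.mem_preimageAlong.2 ⟨s.2, hv⟩
      exact (hker s).2 (h3 h4)
    have h2 : nfoc F L ≤ H := nfoc_le (hnorm L hLfn (inf_eq_left.2 hLn) hLnn)
    have h3 : F.focalSubgroup ≤ H ⊔ Q := focal_le_sup_of_factor hQ hE hV'n h1 h2
    -- it suffices to show that `Q ∩ foc(F) ≤ H`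
    suffices hsuff : Q ⊓ F.focalSubgroup ≤ H by
      intro z hz
      obtain ⟨h, hh, q, hq, rfl⟩ := (Cfsg.Agent.H759.mem_sup_of_normalizes (hHS.trans hQn)).1 (h3 hz)
      have h4 : q ∈ F.focalSubgroup := by
        have := F.focalSubgroup.mul_mem (F.focalSubgroup.inv_mem (hHF hh)) hz
        rwa [inv_mul_cancel_left] at this
      exact H.mul_mem hh (hsuff ⟨hq, h4⟩)
    by_cases hQc : F.IsCentric Q
    · exact core_case_centric hS hF hW2 hT hQ hQc
    · -- `Q` is not centric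
      have hCnle : ¬ centralizerIn S Q ≤ Q := by
        intro hC
        refine hQc ⟨hQS, fun R hR => ?_⟩
        obtain ⟨φ, hφ, hφR⟩ := hR
        have hRQ : R = Q := by
          rw [← hφR]
          refine range_eq_of_mapsTo hφ (fun x => ?_)
          exact Cfsg.Agent.H759.StronglyClosed.apply_mem hsc hφ (x := x) x.2
        rw [hRQ]
        exact hC
      set C := centralizerIn S Q with hCdef
      have hCS : C ≤ S := inf_le_left
      have hCn : S ≤ Subgroup.normalizer (C : Set Ω) := le_normalizer_centralizerIn hQn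
      have hQCS : Q ⊔ C ≤ S := sup_le hQS hCS
      have hQCn : S ≤ Subgroup.normalizer ((Q ⊔ C : Subgroup Ω) : Set Ω) := by
        have key : ∀ s ∈ S, ∀ x ∈ Q ⊔ C, s * x * s⁻¹ ∈ Q ⊔ C := by
          intro s hs x hx
          have h4 : Q ⊔ C ≤ (Q ⊔ C).comap (MulAut.conj s).toMonoidHom := by
            refine sup_le (fun y hy => ?_) (fun y hy => ?_)
            · exact (le_sup_left : Q ≤ Q ⊔ C) ((Subgroup.mem_normalizer_iff.1 (hQn hs) y).1 hy)
            · exact (le_sup_right : C ≤ Q ⊔ C) ((Subgroup.mem_normalizer_iff.1 (hCn hs) y).1 hy)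
          exact h4 hx
        intro s hs
        rw [Subgroup.mem_normalizer_iff]
        intro l
        refine ⟨key s hs l, fun h => ?_⟩
        have h3 := key s⁻¹ (S.inv_mem hs) _ h
        have h4 : s⁻¹ * (s * l * s⁻¹) * s⁻¹⁻¹ = l := by group
        rwa [h4] at h3
      have hQCnn : ¬ F.IsNormal (Q ⊔ C) := by
        intro h
        exact hCnle (le_sup_right.trans (Cfsg.Agent.H759.IsNormal.le_core h))
      have hn2 := hnorm (Q ⊔ C) (isFullyNormalized_of_le_normalizer hQCS hQCn)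
        (inf_eq_left.2 hQCn) hQCnn
      -- the system `S C_F(Q)`
      have hQfn : F.IsFullyNormalized Q := isFullyNormalized_of_le_normalizer hQS hQn
      have hgood : GoodK p F Q (autInducedBy S Q) :=
        goodK_of_le hS hF (isFullyCentralized_of_isFullyNormalized hS hF hQfn) le_rfl
      have hEs1 := kNormSystem_isSaturated hS hF hQS hgood
      have hkS : kNorm S Q (autInducedBy S Q) = S := by
        refine le_antisymm (kNorm_le _ _ _) (fun s hs => ?_)
        obtain ⟨α, hα⟩ := exists_conjAut (hQn hs)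
        exact ⟨hs, α, (mem_autInducedBy_iff S Q α).2 ⟨s, hs, hα⟩, hα⟩
      by_cases hprop : ∃ (P : Subgroup Ω) (φ : P →* Ω), φ ∈ F.Hom P ∧
          φ ∉ (kNormSystem F hQS (autInducedBy S Q)).Hom P
      · have hn1 := IH2' _ hkS _ hEs1 (fun P φ hφ => mem_of_mem_kNormHom hφ) hprop
        refine inf_le_right.trans (Cfsg.Agent.H747.focal_le ?_)
        refine induction_core hS hF hQ (fun P φ => ∀ x : P, (x : Ω)⁻¹ * φ x ∈ H) ?_ ?_ ?_ ?_ ?_
        · intro P R φ χ _ hM hR he x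
          rw [he x]
          exact hM ⟨x, hR x.2⟩
        · intro P R φ ψ χ _ _ hM hM' he x
          obtain ⟨h1, h2⟩ := he x
          rw [h2]
          have h3 : (x : Ω)⁻¹ * ψ ⟨φ x, h1⟩ = ((x : Ω)⁻¹ * φ x) * ((φ x)⁻¹ * ψ ⟨φ x, h1⟩) := by group
          rw [h3]
          exact H.mul_mem (hM x) (hM' ⟨φ x, h1⟩)
        · intro P R φ χ _ hM _ he y
          obtain ⟨x, h1, h2⟩ := he y
          rw [h2, ← h1]
          have h3 : (φ x)⁻¹ * (x : Ω) = ((x : Ω)⁻¹ * φ x)⁻¹ := by group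
          rw [h3]
          exact H.inv_mem (hM x)
        · intro R hRS hQR κ hκ hκQ
          have hκF := (mem_autGroup_iff F hRS κ).1 hκ
          refine hn1 R _ ?_
          refine ⟨by rw [hkS]; exact hRS, fun x => by rw [hkS]; exact hRS (κ x).2, ?_⟩
          have hle : R ⊔ Q ≤ R := sup_le le_rfl hQR
          exact ⟨_, restrict_mem hκF hle, fun x => rfl, 1, Subgroup.one_mem _, fun x => hκQ ⟨x, hQR x.2⟩ x.2⟩
        · intro R hRS hQCR α hα
          have hαF := (mem_autGroup_iff F hRS α).1 hα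
          refine hn2 R _ (mem_normalizerHom_of_mapsTo hQCS hQCn hαF hQCR ?_)
          have hle : Q ⊔ C ≤ (((Q ⊔ C).comap (R.subtype.comp α.toMonoidHom))).map R.subtype := by
            refine sup_le (fun y hy => ?_) (fun y hy => ?_)
            · have hyR : y ∈ R := hQCR ((le_sup_left : Q ≤ Q ⊔ C) hy)
              refine ⟨⟨y, hyR⟩, ?_, rfl⟩
              exact (le_sup_left : Q ≤ Q ⊔ C)
                (Cfsg.Agent.H759.StronglyClosed.apply_mem hsc hαF (x := ⟨y, hyR⟩) hy)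
            · have hyR : y ∈ R := hQCR ((le_sup_right : C ≤ Q ⊔ C) hy)
              refine ⟨⟨y, hyR⟩, ?_, rfl⟩
              refine (le_sup_right : C ≤ Q ⊔ C) ⟨hRS (α ⟨y, hyR⟩).2, ?_⟩
              refine Subgroup.mem_centralizer_iff.2 fun q hq => ?_
              have hQR : Q ≤ R := le_sup_left.trans hQCR
              obtain ⟨q', hq', h4⟩ := Cfsg.Agent.H759.StronglyClosed.exists_preimage hsc hαF hQR hq
              have h5 : q' * y = y * q' := Subgroup.mem_centralizer_iff.1 hy.2 _ hq'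
              have h6 : (⟨q', hQR hq'⟩ : R) * ⟨y, hyR⟩ = ⟨y, hyR⟩ * ⟨q', hQR hq'⟩ := Subtype.ext h5
              rw [← h4, ← map_mul, ← map_mul, h6]
          intro y hy
          obtain ⟨z, hz, hzy⟩ := hle hy
          have h4 : z = ⟨y, hQCR hy⟩ := Subtype.ext hzy
          rw [← h4]
          exact hz
      · push Not at hprop
        refine (core_case_inner hS hF hQS (fun P φ hφ => ?_)).trans hcomm
        obtain ⟨-, -, ψ, hψ, e1, α, hα, e2⟩ := hprop P φ hφ
        obtain ⟨s, hs, hse⟩ := (mem_autInducedBy_iff S Q α).1 hα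
        refine ⟨s, hs, fun x hx => ?_⟩
        have h4 := e1 x
        have h5 := e2 ⟨x, hx⟩
        have h6 : Subgroup.inclusion (le_sup_left : P ≤ P ⊔ Q) x =
          Subgroup.inclusion (le_sup_right : Q ≤ P ⊔ Q) ⟨x, hx⟩ := Subtype.ext rfl
        rw [h6, h5] at h4
        rw [← h4, hse]

/-- **A positive characteristic `p`-functor with the local focal condition controls transfer** in every saturated
fusion system. -/
theorem focal_le_nfoc (hW1 : ∀ (Q : Type u) [Group Q] [Finite Q], IsPGroup p Q → Nontrivial Q → W Q ≠ ⊥)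
    (hW2 : ∀ (Q R : Type u) [Group Q] [Group R] [Finite Q], IsPGroup p Q → ∀ φ : Q ≃* R,
      (W Q).map φ.toMonoidHom = W R)
    (hT : ∀ (G : Type u) [Group G] [Finite G] (P : Sylow p G),
      Subgroup.centralizer ((Cfsg.pCore p G : Subgroup G) : Set G) ≤ Cfsg.pCore p G →
      Cfsg.pCore p G ⊓ commutator G = Cfsg.pCore p G ⊓
        (commutator ↥(Subgroup.normalizer (((W ↥(P : Subgroup G)).map
          (P : Subgroup G).subtype : Subgroup G) : Set G))).map
        (Subgroup.normalizer (((W ↥(P : Subgroup G)).map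
          (P : Subgroup G).subtype : Subgroup G) : Set G)).subtype) :
    ∀ (n : ℕ) (Ω : Type u) [Group Ω] (S : Subgroup Ω) [Finite S], IsPGroup p S → Nat.card S = n →
      ∀ F : FusionSystem S, F.IsSaturated p → F.focalSubgroup ≤ nfoc F (WS W S) := by
  intro n
  induction n using Nat.strong_induction_on with
  | _ n ih =>
  intro Ω _ S _ hS hn
  have key : ∀ (m : ℕ) (F : FusionSystem S), mu F = m → F.IsSaturated p →
      F.focalSubgroup ≤ nfoc F (WS W S) := by
    intro m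
    induction m using Nat.strong_induction_on with
    | _ m ih2 =>
    intro F hm hF
    refine step hS hF hW1 hW2 hT ?_ ?_
    · intro Ω' _ S' _ hS' hlt E hE
      exact ih _ (hn ▸ hlt) Ω' S' hS' rfl E hE
    · rintro E hE hle ⟨P, φ, hφ, hφE⟩
      exact ih2 _ (hm ▸ mu_lt hle hφ hφE) E rfl hE
  exact fun F hF => key _ F rfl hF

end Cfsg.Agent.H769
end

-- part: S5197
section
set_option autoImplicit false
universe u
open Cfsg

namespace Cfsg.Agent.S5197

/-- Let p be a prime and W a positive characteristic p-functor: W assigns to every finite p-group Q (in a fixed universe) a subgroup W(Q), nontrivial when Q is, carried to W(R) by every isomorphism Q ≅ R. Suppose W satisfies the local condition: for every finite group G with Sylow p-subgroup P such that C_G(O_p(G)) ≤ O_p(G), one has O_p(G) ∩ [G, G] = O_p(G) ∩ [N, N] for N = N_G(W(P)). Then W controls transfer in every saturated fusion system F over a finite p-group S: the focal subgroup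 of F equals the focal subgroup of the normalizer fusion system of W(S) in F. -/
theorem result {p : ℕ} [Fact p.Prime] (W : ∀ (Q : Type u) [Group Q], Subgroup Q) (hW1 : ∀ (Q : Type u) [Group Q] [Finite Q], IsPGroup p Q → Nontrivial Q → W Q ≠ ⊥) (hW2 : ∀ (Q R : Type u) [Group Q] [Group R] [Finite Q], IsPGroup p Q → ∀ φ : Q ≃* R, (W Q).map φ.toMonoidHom = W R) (hT : ∀ (G : Type u) [Group G] [Finite G] (P : Sylow p G), Subgroup.centralizer ((Cfsg.pCore p G : Subgroup G) : Set G) ≤ Cfsg.pCore p G → Cfsg.pCore p G ⊓ commutator G = Cfsg.pCore p G ⊓ (commutator ↥(Subgroup.normalizer (((W ↥(P : Subgroup G)).map (P : Subgroup G).subtype : Subgroup G) : Set G))).map (Subgroup.normalizer (((W ↥(P : Subgroup G)).map (P : Subgroup G).subtype : Subgroup G) : Set G)).subtype) {Ω : Type u} [Group Ω] {S : Subgroup Ω} [Finite S] (hS : IsPGroup p S) (F : Cfsg.FusionSystem S) (hF : F.IsSaturated p) (N : Cfsg.FusionSystem (Cfsg.FusionSystem.normalizerIn S ((W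 ↥S).map S.subtype))) (hN : F.IsNormalizerSystem ((W ↥S).map S.subtype) N) : N.focalSubgroup = F.focalSubgroup := by
  have h1 : N.focalSubgroup = Cfsg.Agent.H769.nfoc F (Cfsg.Agent.H769.WS W S) :=
    Cfsg.Agent.H769.focal_eq_nfoc hN
  rw [h1]
  exact le_antisymm (Cfsg.Agent.H769.nfoc_le_focal F _)
    (Cfsg.Agent.H769.focal_le_nfoc hW1 hW2 hT _ Ω S hS rfl F hF)

end Cfsg.Agent.S5197
end
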