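import Cfsg.Agent.H770.StepD
import Cfsg.Agent.H792.CentFinal
import Cfsg.Statements.S5201
set_option linter.all false

-- part: H770/StepE
section
/-!
# Equality of residual limits when the centralizer of `E` lies in `T` (helper770)
-/

set_option autoImplicit false
set_option linter.unusedVariables false

namespace Cfsg.Agent.H770

open Cfsg Cfsg.FusionSystem Cfsg.Agent.H752 Cfsg.Agent.H756

variable {Ω : Type*} [Group Ω] {S T U : Subgroup Ω} {p : ℕ}

/-- A map of `F` on `P ⊔ T`, `P ≤ C_S(T)`, trivial on `T`, moves elements of `P` by elements of the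
centralizer of `E`. -/
theorem inv_mul_mem_of_mp [Fact p.Prime] [Finite S] (hS : IsPGroup p S) {F : FusionSystem S}
    (hF : F.IsSaturated p) (hTS : T ≤ S) {E : FusionSystem T} {P : Subgroup Ω} {f : Ω → Ω}
    (hf : Mp F (P ⊔ T) f) (hP : P ≤ centralizerIn S T) (hfT : ∀ t ∈ T, f t = t) {x : Ω}
    (hx : x ∈ P) : x⁻¹ * f x ∈ H792.centLargest F E p := by
  have hPT : P ≤ P ⊔ T := le_sup_left
  have hTT : T ≤ P ⊔ T := le_sup_right
  have hm : ∀ y ∈ P, f y ∈ centralizerIn S T := by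
    intro y hy
    refine ⟨hf.mem (hPT hy), Mp.mem_centralizer hf hTT ((Im.id T).congr hfT) (hPT hy) (hP hy).2⟩
  obtain ⟨ψ, hψ, h1⟩ := hf
  have h2 := H792.inv_mul_mem_centLargest hS hF hTS (E := E) (T := T) (P₀ := P)
    (φ := ψ.comp (Subgroup.inclusion hPT)) ⟨H802.restrict_mem hψ hPT, hP, fun y => ?_, ψ, hψ,
      fun y => rfl, fun t => ?_⟩ ⟨x, hx⟩
  · have h3 : ψ (Subgroup.inclusion hPT ⟨x, hx⟩) = f x := h1 x (hPT hx)
    rw [MonoidHom.comp_apply, h3] at h2
    exact h2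
  · have h3 : ψ (Subgroup.inclusion hPT y) = f y := h1 y (hPT y.2)
    rw [MonoidHom.comp_apply, h3]
    exact hm y y.2
  · have h3 : ψ (Subgroup.inclusion le_sup_right t) = f t := h1 t (hTT t.2)
    rw [h3, hfT t t.2]

namespace Step

variable [Finite S] [Fact p.Prime] {E : FusionSystem T} {F : FusionSystem S}

theorem hyp_le_T (hS : IsPGroup p S) (hC : H792.centLargest F E p ≤ T)
    {G : FusionSystem (T ⊔ centralizerIn S T)} (h : Step p E F (E.autGroup T) G) :
    G.hyperfocalSubgroup p ≤ T := by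
  have hTS : T ≤ S := h.TU.trans h.US
  have hfU : Finite (T ⊔ centralizerIn S T : Subgroup Ω) := H802.finite_of_le h.US
  have hfT : Finite T := H802.finite_of_le hTS
  have hUp : IsPGroup p (T ⊔ centralizerIn S T : Subgroup Ω) := hS.to_le h.US
  have hTG : G.StronglyClosed T := h.enorm.1.2.2.2.1
  have hTF : F.StronglyClosed T := h.hEF.1.2.2.2.1
  rw [hyp_le_iff]
  intro P hPU α hα hc x
  obtain ⟨β, hβ, hβc, h1⟩ := exists_lift_coprime hUp h.Gs hTG hPU hα hc
  have hPTU : P ⊔ T ≤ T ⊔ centralizerIn S T := sup_le hPU hTG.1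
  have hPT : P ≤ P ⊔ T := le_sup_left
  have hTT : T ≤ P ⊔ T := le_sup_right
  have hβm : Mp F (P ⊔ T) (ac β) := mp_mono h.GF (mp_ac hPTU hβ)
  obtain ⟨ε, hε, hεβ⟩ := exists_ac ((mp_ac hPTU hβ).res hTT) fun t ht =>
    mp_mem_of_stronglyClosed hTG (mp_ac hPTU hβ) (hTT ht) ht
  rw [h.aut] at hε
  obtain ⟨b, hb, hb1, hb2⟩ := ((isNormalIn_iff hTS).1 h.hEF).2.2.2 _ (mp_ac le_rfl (inv_mem hε))
  -- the key claim
  have key : ∀ y ∈ P ⊔ T, y⁻¹ * ac β y ∈ T := by
    intro y hy
    have hyU : y ∈ centralizerIn S T ⊔ T := by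
      rw [sup_comm]; exact hPTU hy
    have hCn : centralizerIn S T ≤ Subgroup.normalizer (T : Set Ω) :=
      inf_le_right.trans (Subgroup.centralizer_le_normalizer _)
    obtain ⟨c, hcC, t, ht, rfl⟩ := (H759.mem_sup_of_normalizes hCn).1 hyU
    have hcPT : c ∈ P ⊔ T := by
      have h3 := mul_mem hy (inv_mem (hTT ht))
      rwa [mul_inv_cancel_right] at h3
    have hcC' : c ∈ centralizerIn S T := hcC
    -- the map `b ∘ β` on `P₁ ⊔ T`
    have hP₁ : ((P ⊔ T) ⊓ centralizerIn S T) ⊔ T ≤ P ⊔ T := sup_le inf_le_left hTT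
    have hcomp : Mp F (((P ⊔ T) ⊓ centralizerIn S T) ⊔ T) (fun z => b (ac β z)) :=
      (hβm.res hP₁).comp hb fun z hz => hPTU (ac_mem β (hP₁ hz))
    have htriv : ∀ t ∈ T, b (ac β t) = t := by
      intro t ht
      rw [hεβ t ht, hb1 _ (ac_mem ε ht), ac_inv_ac ε ht]
    have h4 := hC (inv_mul_mem_of_mp hS h.Fs hTS (E := E) hcomp inf_le_right htriv ⟨hcPT, hcC'⟩)
    have h4' : c⁻¹ * b (ac β c) ∈ T := h4
    -- `β c ∈ C_S(T)`
    have hβC : ac β c ∈ centralizerIn S T := by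
      refine ⟨hβm.mem hcPT, Mp.mem_centralizer hβm hTT (Im.congr (im_ac ε) hεβ) hcPT hcC'.2⟩
    have h5 := (hb2 _ hβC).1
    have h6 : c⁻¹ * ac β c ∈ T := by
      have h7 : c⁻¹ * ac β c = (c⁻¹ * b (ac β c)) * ((ac β c)⁻¹ * b (ac β c))⁻¹ := by group
      rw [h7]
      exact T.mul_mem h4' (T.inv_mem h5)
    have h8 : ac β t ∈ T := by rw [hεβ t ht]; exact ac_mem _ ht
    rw [hβm.mul hcPT (hTT ht)]
    have h9 : (c * t)⁻¹ * (ac β c * ac β t) = t⁻¹ * (c⁻¹ * ac β c) * ac β t := by group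
    rw [h9]
    exact T.mul_mem (T.mul_mem (T.inv_mem ht) h6) h8
  have h3 : (x : Ω)⁻¹ * ((α x : P) : Ω) = ((x : Ω)⁻¹ * ac β x) * ((ac α x)⁻¹ * ac β x)⁻¹ := by
    rw [← ac_apply α x.2]
    group
  rw [h3]
  exact T.mul_mem (key x (hPT x.2)) (T.inv_mem (h1 x x.2))

/-- `E` has `p`-power index in the last stage. -/
theorem ppowerIndex (hS : IsPGroup p S) (hC : H792.centLargest F E p ≤ T)
    {G : FusionSystem (T ⊔ centralizerIn S T)} (h : Step p E F (E.autGroup T) G) :
    E.HasPPowerIndexIn G p := by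
  have hTS : T ≤ S := h.TU.trans h.US
  have hfT : Finite T := H802.finite_of_le hTS
  refine ⟨h.EG, h.hyp_le_T hS hC, fun P hPT => ?_⟩
  rintro _ ⟨α, -, rfl⟩
  apply mem_of_mp_ac
  obtain ⟨-, hT, hI, hFr⟩ := isInvariantIn_iff.1 h.enorm.1.2.2
  have hα : Mp G P (ac (α : MulAut P)) := mp_ac (hPT.trans hT.1) α.2
  obtain ⟨a, ha, f₀, hf₀, h1⟩ := FratC.exists_fr (hFr P _ hPT hα) hT
  rw [h.aut] at ha
  exact (hf₀.comp (mp_ac le_rfl ha) fun x hx => hf₀.mem hx).congr h1

end Step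

end Cfsg.Agent.H770
end

-- part: S5201
section
set_option autoImplicit false
open Cfsg

namespace Cfsg.Agent.S5201

/-- A reduction to normal subsystems. Let F be a saturated fusion system over a finite p-group S and E a normal subsystem of F over T whose centralizer in S lies in T (every subgroup Y of C_S(T) with E contained in the centralizer fusion system of Y in F satisfies Y ≤ T), and suppose Aut_F(T)/Aut_E(T) is p-solvable. Then F and E have the same residual limit: if F∞ is the residual limit of F (reached by alternately passing to the p-residual and the p'-residual subsystem until nothing changes) and E∞ that of E, then F∞ and E∞ have the same maps. -/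
theorem result {Ω : Type*} [Group Ω] {S : Subgroup Ω} [Finite S] (p : ℕ) [Fact p.Prime] (hS : IsPGroup p S) (F : Cfsg.FusionSystem S) (hF : F.IsSaturated p) {T : Subgroup Ω} (E : Cfsg.FusionSystem T) (hE : E.IsNormalIn F p) (hCE : ∀ Y : Subgroup Ω, Y ≤ Cfsg.FusionSystem.centralizerIn S T → (∀ C : Cfsg.FusionSystem (Cfsg.FusionSystem.centralizerIn S Y), F.IsCentralizerSystem Y C → E.IsSubsystemOf C) → Y ≤ T) [hn : ((E.autGroup T).subgroupOf (F.autGroup T)).Normal] (hsolv : Cfsg.IsPSolvable p (↥(F.autGroup T) ⧸ (E.autGroup T).subgroupOf (F.autGroup T))) {U V : Subgroup Ω} (Finf : Cfsg.FusionSystem U) (hFinf : Finf.IsResidualLimitOf F p) (Einf : Cfsg.FusionSystem V) (hEinf : Einf.IsResidualLimitOf E p) : ∀ P : Subgroup Ω, Finf.Hom P = Einf.Hom P := by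
  obtain ⟨F₀, h⟩ := Cfsg.Agent.H770.Step.exists_of_pSolvable hS hE hsolv
  have hfin : Finite (T ⊔ Cfsg.FusionSystem.centralizerIn S T : Subgroup Ω) :=
    Cfsg.Agent.H802.finite_of_le h.US
  have hUp : IsPGroup p (T ⊔ Cfsg.FusionSystem.centralizerIn S T : Subgroup Ω) := hS.to_le h.US
  have hC : Cfsg.Agent.H792.centLargest F E p ≤ T := by
    refine hCE _ (Cfsg.Agent.H792.centLargest_le F E p) fun C hC P => ?_
    rw [hC P]
    exact Cfsg.Agent.H792.hom_subset_centralizerHom_centLargest hS hE P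
  have hidx := h.ppowerIndex hS hC
  obtain ⟨V₀, L₀, hL₀⟩ := Cfsg.Agent.H770.exists_limit' hUp h.Gs
  intro P
  exact (h.limit Finf L₀ hFinf hL₀ P).trans
    (Cfsg.Agent.H770.limit_ppow hUp h.Gs hE.1.1 hidx hL₀ hEinf P)

end Cfsg.Agent.S5201
end
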