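import Cfsg.Agent.H774.CentralNormal
import Cfsg.Statements.S5219
set_option linter.all false

-- part: H774/ExpBound
section
/-!
# Exponent of a nilpotent group in terms of the exponent of its centre (helper774)
-/

set_option autoImplicit false

namespace Cfsg.Agent.H774

open scoped commutatorElement
open Cfsg Cfsg.FusionSystem

/-- If `c = x y x⁻¹ y⁻¹` is central then `x^j y x^{-j} y⁻¹ = c^j`. -/
theorem commutator_pow_left {G : Type*} [Group G] (x y c : G) (hc : c = x * y * x⁻¹ * y⁻¹)
    (hcent : ∀ g : G, c * g = g * c) (j : ℕ) : x ^ j * y = c ^ j * y * x ^ j := by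
  have hcj : ∀ (j : ℕ) (g : G), c ^ j * g = g * c ^ j := fun j g =>
    ((show Commute c g from hcent g).pow_left j)
  induction j with
  | zero => simp
  | succ j ih =>
    calc x ^ (j + 1) * y = x * (x ^ j * y) := by rw [pow_succ']; group
      _ = x * (c ^ j * (y * x ^ j)) := by rw [ih]; group
      _ = c ^ j * (x * y) * x ^ j := by rw [← mul_assoc x, ← hcj]; group
      _ = c ^ j * ((x * y * x⁻¹ * y⁻¹) * y * x) * x ^ j := by group
      _ = c ^ j * (c * y * x) * x ^ j := by rw [← hc]
      _ = c ^ (j + 1) * y * x ^ (j + 1) := by rw [pow_succ, pow_succ']; group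

/-- The exponent of `Z_{k+1}/Z_k` divides every `m` killing the centre. -/
theorem pow_mem_upperCentralSeries {G : Type*} [Group G] (m : ℕ)
    (hm : ∀ z ∈ Subgroup.center G, z ^ m = 1) :
    ∀ (k : ℕ) (x : G), x ∈ Subgroup.upperCentralSeries G (k + 1) →
      x ^ m ∈ Subgroup.upperCentralSeries G k := by
  intro k
  induction k with
  | zero =>
    intro x hx
    rw [zero_add, Subgroup.upperCentralSeries_one] at hx
    rw [hm x hx]
    exact Subgroup.one_mem _
  | succ k ih =>
    intro x hx
    rw [Subgroup.mem_upperCentralSeries_succ_iff] at hx ⊢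
    intro y
    set N := Subgroup.upperCentralSeries G k with hN
    let f := QuotientGroup.mk' N
    have hc := hx y
    have hcent : ∀ g : G ⧸ N, f ⁅x, y⁆ * g = g * f ⁅x, y⁆ := by
      intro g
      obtain ⟨g, rfl⟩ := QuotientGroup.mk'_surjective N g
      rw [Subgroup.mem_upperCentralSeries_succ_iff] at hc
      have h1 := hc g
      have h2 : f ⁅⁅x, y⁆, g⁆ = 1 := by
        rw [← MonoidHom.mem_ker, QuotientGroup.ker_mk']
        exact h1
      rw [commutatorElement_def (⁅x, y⁆) g, map_mul, map_mul, map_mul, map_inv, map_inv,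
        mul_inv_eq_one, mul_inv_eq_iff_eq_mul] at h2
      exact h2
    have h3 := commutator_pow_left (f x) (f y) (f ⁅x, y⁆)
      (by rw [commutatorElement_def]; simp) hcent m
    have h4 : (f ⁅x, y⁆) ^ m = 1 := by
      rw [← map_pow, ← MonoidHom.mem_ker, QuotientGroup.ker_mk']
      exact ih _ hc
    rw [h4, one_mul] at h3
    have h5 : f ⁅x ^ m, y⁆ = 1 := by
      rw [commutatorElement_def]
      simp only [map_mul, map_inv, map_pow]
      rw [h3]
      group
    rw [← MonoidHom.mem_ker, QuotientGroup.ker_mk'] at h5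
    exact h5

/-- In a group of class at most `c` whose centre is killed by `m`, every element is killed by `m^c`. -/
theorem pow_eq_one_of_class {G : Type*} [Group G] (m c : ℕ)
    (hm : ∀ z ∈ Subgroup.center G, z ^ m = 1) (hc : Subgroup.upperCentralSeries G c = ⊤) (x : G) :
    x ^ m ^ c = 1 := by
  have key : ∀ (j k : ℕ), j + k = c → x ^ m ^ j ∈ Subgroup.upperCentralSeries G k := by
    intro j
    induction j with
    | zero =>
      intro k hk
      rw [zero_add] at hk
      rw [hk, hc]
      trivial
    | succ j ih =>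
      intro k hk
      have := pow_mem_upperCentralSeries m hm k _ (ih (k + 1) (by omega))
      rw [← pow_mul, ← pow_succ] at this
      exact this
  have := key c 0 (by omega)
  rwa [Subgroup.upperCentralSeries_zero, Subgroup.mem_bot] at this

/-- **Exponent bound**: if `S` has class at most `n(p-1)+1` and `O_p(F) = 1` then the exponent of `S` divides
`p^(n²(p-1)+n)`. -/
theorem exponent_dvd_of_class {Ω : Type*} [Group Ω] {S : Subgroup Ω} {p : ℕ} [hp : Fact p.Prime]
    [Finite S] (hS : IsPGroup p S) {F : FusionSystem S} (hF : F.IsSaturated p) (n : ℕ)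
    (hcl : Subgroup.lowerCentralSeries S (n * (p - 1) + 1) = ⊥) (hcore : F.core = ⊥) :
    Monoid.exponent ↥S ∣ p ^ (n ^ 2 * (p - 1) + n) := by
  have hnorm := isNormal_powerClosure_of_class hS hF n hcl
  have hle : powerClosure p n (S ⊓ Subgroup.centralizer (S : Set Ω)) ≤ ⊥ := by
    rw [← hcore]
    exact le_sSup hnorm
  have hm : ∀ z ∈ Subgroup.center ↥S, z ^ p ^ n = 1 := by
    intro z hz
    have h1 : (z : Ω) ^ p ^ n ∈ powerClosure p n (S ⊓ Subgroup.centralizer (S : Set Ω)) := by
      refine Subgroup.subset_closure ⟨z, ⟨z.2, Subgroup.mem_centralizer_iff.2 fun g hg => ?_⟩, rfl⟩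
      exact congrArg Subtype.val (Subgroup.mem_center_iff.1 hz ⟨g, hg⟩)
    have h2 := Subgroup.mem_bot.1 (hle h1)
    exact Subtype.ext h2
  have htop : Subgroup.upperCentralSeries ↥S (n * (p - 1) + 1) = ⊤ := by
    rw [← Subgroup.lowerCentralSeries_eq_bot_iff_upperCentralSeries_eq_top,
      ← Subgroup.map_subtype_inj, Subgroup.map_bot, Subgroup.top_subtype_lowerCentralSeries]
    exact hcl
  refine Monoid.exponent_dvd_of_forall_pow_eq_one fun x => ?_
  have := pow_eq_one_of_class (p ^ n) _ hm htop x
  rw [← pow_mul] at this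
  have e : n * (n * (p - 1) + 1) = n ^ 2 * (p - 1) + n := by ring
  rwa [e] at this

end Cfsg.Agent.H774
end

-- part: S5219
section
set_option autoImplicit false
open Cfsg

namespace Cfsg.Agent.S5219

/-- Let p be a prime, n a natural number, S a nontrivial finite p-group of nilpotence class at most n(p−1)+1, and F a saturated fusion system over S with no nontrivial normal subgroup (O_p(F) = 1). Then S has exponent dividing p^(n²(p−1)+n). -/
theorem result {Ω : Type*} [Group Ω] {S : Subgroup Ω} [Finite S] (p : ℕ) [Fact p.Prime] (hS : IsPGroup p S) (F : Cfsg.FusionSystem S) (hF : F.IsSaturated p) (n : ℕ) (hS1 : S ≠ ⊥) (hcl : Subgroup.lowerCentralSeries S (n * (p - 1) + 1) = ⊥) (hcore : F.core = ⊥) : Monoid.exponent ↥S ∣ p ^ (n ^ 2 * (p - 1) + n) := by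
  exact Cfsg.Agent.H774.exponent_dvd_of_class hS hF n hcl hcore

end Cfsg.Agent.S5219
end
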