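import Cfsg.Prelude.Def_PLocal
import Cfsg.Agent.H774.CentralNormal
import Cfsg.Agent.H802.FusCentric
import Cfsg.Statements.S5220
set_option linter.all false

-- part: H774/ThompsonA
section
/-!
# The Thompson subgroup `J(P)` generated by the abelian subgroups of largest order (helper774)
-/

set_option autoImplicit false

namespace Cfsg.Agent.H774

open Cfsg

variable {Ω : Type*} [Group Ω]

/-- `A` is an abelian subgroup of `P` of largest order. -/
def IsMaxAb (P A : Subgroup Ω) : Prop :=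
  A ≤ P ∧ (∀ a ∈ A, ∀ b ∈ A, a * b = b * a) ∧
    ∀ B : Subgroup Ω, B ≤ P → (∀ a ∈ B, ∀ b ∈ B, a * b = b * a) → Nat.card B ≤ Nat.card A

theorem isMaxAb_iff (P : Subgroup Ω) (A : Subgroup ↥P) :
    A ∈ maxAbelianSubgroups ↥P ↔ IsMaxAb P (A.map P.subtype) := by
  have hcard : ∀ B : Subgroup ↥P, Nat.card (B.map P.subtype) = Nat.card B := fun B =>
    (Nat.card_congr (B.equivMapOfInjective _ P.subtype_injective).toEquiv).symm
  have hcomm : ∀ B : Subgroup ↥P, IsMulCommutative B ↔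
      ∀ a ∈ B.map P.subtype, ∀ b ∈ B.map P.subtype, a * b = b * a := by
    intro B
    constructor
    · rintro h _ ⟨a, ha, rfl⟩ _ ⟨b, hb, rfl⟩
      have h1 := h.is_comm.comm ⟨a, ha⟩ ⟨b, hb⟩
      exact congrArg (fun z : B => (((z : ↥P)) : Ω)) h1
    · intro h
      refine ⟨⟨fun a b => ?_⟩⟩
      apply Subtype.ext
      apply Subtype.ext
      exact h _ ⟨a, a.2, rfl⟩ _ ⟨b, b.2, rfl⟩
  constructor
  · rintro ⟨h1, h2⟩
    refine ⟨Subgroup.map_subtype_le A, (hcomm A).1 h1, fun B hB hBc => ?_⟩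
    have h3 : (B.subgroupOf P).map P.subtype = B := by
      rw [Subgroup.subgroupOf_map_subtype, inf_eq_left.2 hB]
    have h4 := h2 (B.subgroupOf P) ((hcomm _).2 (by rw [h3]; exact hBc))
    rw [← hcard, ← hcard, h3] at h4
    exact h4
  · rintro ⟨-, h1, h2⟩
    refine ⟨(hcomm A).2 h1, fun B hB => ?_⟩
    have h4 := h2 (B.map P.subtype) (Subgroup.map_subtype_le B) ((hcomm B).1 hB)
    rwa [hcard, hcard] at h4

/-- `J(P)` is generated by the abelian subgroups of `P` of largest order. -/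
theorem thompsonSubgroupAOf_eq (P : Subgroup Ω) :
    thompsonSubgroupAOf P = sSup {A | IsMaxAb P A} := by
  rw [thompsonSubgroupAOf, thompsonSubgroupA]
  apply le_antisymm
  · rw [Subgroup.map_le_iff_le_comap]
    refine sSup_le fun A hA => ?_
    rw [← Subgroup.map_le_iff_le_comap]
    exact le_sSup ((isMaxAb_iff P A).1 hA)
  · refine sSup_le fun A hA => ?_
    have h3 : (A.subgroupOf P).map P.subtype = A := by
      rw [Subgroup.subgroupOf_map_subtype, inf_eq_left.2 hA.1]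
    rw [← h3]
    refine Subgroup.map_mono (le_sSup ((isMaxAb_iff P _).2 ?_))
    rw [h3]
    exact hA

theorem IsMaxAb.le_thompson {P A : Subgroup Ω} (h : IsMaxAb P A) : A ≤ thompsonSubgroupAOf P := by
  rw [thompsonSubgroupAOf_eq]
  exact le_sSup h

theorem thompson_le_of_forall {P H : Subgroup Ω} (h : ∀ A, IsMaxAb P A → A ≤ H) :
    thompsonSubgroupAOf P ≤ H := by
  rw [thompsonSubgroupAOf_eq]
  exact sSup_le h

theorem thompson_le (P : Subgroup Ω) : thompsonSubgroupAOf P ≤ P :=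
  thompson_le_of_forall fun _ hA => hA.1

theorem exists_isMaxAb (P : Subgroup Ω) [Finite P] : ∃ A, IsMaxAb P A := by
  classical
  have hfin : (Set.range fun B : {B : Subgroup Ω // B ≤ P ∧ ∀ a ∈ B, ∀ b ∈ B, a * b = b * a} =>
      Nat.card B.1).Finite := by
    refine (Set.finite_Iic (Nat.card P)).subset ?_
    rintro _ ⟨B, rfl⟩
    exact Nat.card_le_card_of_injective _ (Subgroup.inclusion_injective B.2.1)
  obtain ⟨m, ⟨A, hA⟩, hm⟩ := hfin.exists_maximal ⟨_, ⟨⟨⊥, bot_le, by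
    intro a ha b hb
    rw [Subgroup.mem_bot.1 ha, Subgroup.mem_bot.1 hb]⟩, rfl⟩⟩
  refine ⟨A.1, A.2.1, A.2.2, fun B hB hBc => ?_⟩
  by_contra hlt
  push Not at hlt
  have h1 : m ≤ Nat.card B := by
    rw [← hA]
    exact hlt.le
  have h2 := hm ⟨⟨B, hB, hBc⟩, rfl⟩ h1
  rw [← hA] at h2
  exact absurd h2 (not_le.2 hlt)

theorem IsMaxAb.of_le {P Q A : Subgroup Ω} (h : IsMaxAb P A) (hAQ : A ≤ Q) (hQP : Q ≤ P) :
    IsMaxAb Q A :=
  ⟨hAQ, h.2.1, fun B hB hBc => h.2.2 B (hB.trans hQP) hBc⟩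

/-- If `J(P) ≤ Q ≤ P` then `J(Q) = J(P)`. -/
theorem thompson_eq_of_le {P Q : Subgroup Ω} [Finite P] (h : thompsonSubgroupAOf P ≤ Q)
    (hQP : Q ≤ P) : thompsonSubgroupAOf Q = thompsonSubgroupAOf P := by
  apply le_antisymm
  · obtain ⟨A₀, hA₀⟩ := exists_isMaxAb P
    refine thompson_le_of_forall fun A hA => IsMaxAb.le_thompson ⟨hA.1.trans hQP, hA.2.1, ?_⟩
    intro B hB hBc
    exact (hA₀.2.2 B hB hBc).trans (hA.2.2 A₀ (hA₀.le_thompson.trans h) hA₀.2.1)
  · exact thompson_le_of_forall fun A hA => (hA.of_le (hA.le_thompson.trans h) hQP).le_thompson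

/-- The image of `J(P)` under an injective homomorphism is `J` of the image. -/
theorem map_thompson {P : Subgroup Ω} (φ : ↥P →* Ω) (hφ : Function.Injective φ) :
    ((thompsonSubgroupAOf P).subgroupOf P).map φ = thompsonSubgroupAOf φ.range := by
  have hcard : ∀ B : Subgroup Ω, B ≤ P → Nat.card ((B.subgroupOf P).map φ) = Nat.card B := by
    intro B hB
    rw [← Nat.card_congr ((B.subgroupOf P).equivMapOfInjective φ hφ).toEquiv]
    exact Nat.card_congr (Subgroup.subgroupOfEquivOfLe hB).toEquiv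
  have hcomm : ∀ B : Subgroup Ω, (∀ a ∈ B, ∀ b ∈ B, a * b = b * a) →
      ∀ a ∈ (B.subgroupOf P).map φ, ∀ b ∈ (B.subgroupOf P).map φ, a * b = b * a := by
    rintro B hB _ ⟨a, ha, rfl⟩ _ ⟨b, hb, rfl⟩
    rw [← map_mul, ← map_mul]
    congr 1
    exact Subtype.ext (hB a ha b hb)
  -- pulling back
  have hback : ∀ B : Subgroup Ω, B ≤ φ.range → ∃ B' : Subgroup Ω, B' ≤ P ∧
      (B'.subgroupOf P).map φ = B := by
    intro B hB
    refine ⟨(B.comap φ).map P.subtype, Subgroup.map_subtype_le _, ?_⟩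
    rw [Subgroup.subgroupOf, Subgroup.comap_map_eq_self_of_injective P.subtype_injective,
      Subgroup.map_comap_eq, inf_eq_right.2 hB]
  have hbackcomm : ∀ B : Subgroup Ω, B ≤ P →
      (∀ a ∈ (B.subgroupOf P).map φ, ∀ b ∈ (B.subgroupOf P).map φ, a * b = b * a) →
      ∀ a ∈ B, ∀ b ∈ B, a * b = b * a := by
    intro B hB h a ha b hb
    have h1 := h (φ ⟨a, hB ha⟩) ⟨⟨a, hB ha⟩, ha, rfl⟩ (φ ⟨b, hB hb⟩) ⟨⟨b, hB hb⟩, hb, rfl⟩
    rw [← map_mul, ← map_mul] at h1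
    exact congrArg Subtype.val (hφ h1)
  have hmax : ∀ A : Subgroup Ω, IsMaxAb P A → IsMaxAb φ.range ((A.subgroupOf P).map φ) := by
    intro A hA
    refine ⟨Subgroup.map_le_range _ _, hcomm A hA.2.1, fun B hB hBc => ?_⟩
    obtain ⟨B', hB', rfl⟩ := hback B hB
    rw [hcard B' hB', hcard A hA.1]
    exact hA.2.2 B' hB' (hbackcomm B' hB' hBc)
  have hmax' : ∀ A : Subgroup Ω, A ≤ P → IsMaxAb φ.range ((A.subgroupOf P).map φ) → IsMaxAb P A := by
    intro A hAP hA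
    refine ⟨hAP, hbackcomm A hAP hA.2.1, fun B hB hBc => ?_⟩
    have := hA.2.2 ((B.subgroupOf P).map φ) (Subgroup.map_le_range _ _) (hcomm B hBc)
    rwa [hcard B hB, hcard A hAP] at this
  apply le_antisymm
  · rw [Subgroup.map_le_iff_le_comap]
    have h1 : thompsonSubgroupAOf P ≤ ((thompsonSubgroupAOf φ.range).comap φ).map P.subtype := by
      refine thompson_le_of_forall fun A hA => ?_
      intro a ha
      refine ⟨⟨a, hA.1 ha⟩, ?_, rfl⟩
      exact (hmax A hA).le_thompson ⟨⟨a, hA.1 ha⟩, ha, rfl⟩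
    intro x hx
    obtain ⟨y, hy, hyx⟩ := h1 hx
    have : y = x := Subtype.ext hyx
    rw [← this]
    exact hy
  · refine thompson_le_of_forall fun A hA => ?_
    obtain ⟨A', hA', rfl⟩ := hback A hA.1
    exact Subgroup.map_mono (fun x hx => (hmax' A' hA' hA).le_thompson hx)

/-- The centre of `Q` lies in `J(Q)`. -/
theorem center_le_thompson {Q : Subgroup Ω} [Finite Q] (z : Ω) (hz : z ∈ Q)
    (hzc : ∀ q ∈ Q, q * z = z * q) : z ∈ thompsonSubgroupAOf Q := by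
  obtain ⟨A, hA⟩ := exists_isMaxAb Q
  have hfA : Finite A := Finite.of_injective _ (Subgroup.inclusion_injective hA.1)
  set B : Subgroup Ω := A ⊔ Subgroup.zpowers z with hB
  have hBQ : B ≤ Q := sup_le hA.1 (by rwa [Subgroup.zpowers_le])
  have hfB : Finite B := Finite.of_injective _ (Subgroup.inclusion_injective hBQ)
  have hBc : ∀ a ∈ B, ∀ b ∈ B, a * b = b * a := by
    have hcomm : ∀ a ∈ (A : Set Ω) ∪ {z}, ∀ b ∈ (A : Set Ω) ∪ {z}, a * b = b * a := by
      rintro a (ha | ha) b (hb | hb)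
      · exact hA.2.1 a ha b hb
      · rw [Set.mem_singleton_iff.1 hb]
        exact hzc a (hA.1 ha)
      · rw [Set.mem_singleton_iff.1 ha]
        exact (hzc b (hA.1 hb)).symm
      · rw [Set.mem_singleton_iff.1 ha, Set.mem_singleton_iff.1 hb]
    have hsup : B = Subgroup.closure ((A : Set Ω) ∪ {z}) := by
      rw [Subgroup.closure_union, Subgroup.closure_eq, ← Subgroup.zpowers_eq_closure]
    rw [hsup]
    intro a ha b hb
    have h1 := (Subgroup.isMulCommutative_closure hcomm).is_comm.comm ⟨a, ha⟩ ⟨b, hb⟩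
    exact congrArg Subtype.val h1
  have h1 : A = B := Subgroup.eq_of_le_of_card_ge le_sup_left (hA.2.2 B hBQ hBc)
  apply hA.le_thompson
  rw [h1]
  exact Subgroup.mem_sup_right (Subgroup.mem_zpowers z)

end Cfsg.Agent.H774
end

-- part: H774/Factor
section
/-!
# `F = ⟨C_F(℧¹(Z(S))), N_F(J(S))⟩` (helper774)
-/

set_option autoImplicit false

namespace Cfsg.Agent.H774

open scoped commutatorElement
open Cfsg Cfsg.FusionSystem Cfsg.Agent.H802

variable {Ω : Type*} [Group Ω] {S : Subgroup Ω}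

/-- Conjugation as a homomorphism from `N_S(X)` to `Aut_F(X)`. -/
def cj (F : FusionSystem S) (X : Subgroup Ω) (hX : X ≤ S) : ↥(normalizerIn S X) →* F.autGroup X where
  toFun g := ⟨{ toFun := fun x => ⟨g * x * g⁻¹, (Subgroup.mem_normalizer_iff.1 g.2.2 x).1 x.2⟩
                invFun := fun x => ⟨(g : Ω)⁻¹ * x * g, by
                  have := (Subgroup.mem_normalizer_iff.1
                    ((Subgroup.normalizer (X : Set Ω)).inv_mem g.2.2) x).1 x.2
                  simpa using this⟩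
                left_inv := fun x => Subtype.ext (by simp [mul_assoc])
                right_inv := fun x => Subtype.ext (by simp [mul_assoc])
                map_mul' := fun x y => Subtype.ext (by simp [mul_assoc]) },
    autInducedBy_le_autGroup F hX ((mem_autInducedBy_iff _ _ _).2 ⟨g, g.2.1, fun _ => rfl⟩)⟩
  map_one' := by
    apply Subtype.ext
    apply MulEquiv.ext
    intro x
    apply Subtype.ext
    show (1 : Ω) * x * (1 : Ω)⁻¹ = x
    simp
  map_mul' := by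
    intro g h
    apply Subtype.ext
    apply MulEquiv.ext
    intro x
    apply Subtype.ext
    show ((g * h : normalizerIn S X) : Ω) * x * ((g * h : normalizerIn S X) : Ω)⁻¹ =
      (g : Ω) * (h * x * (h : Ω)⁻¹) * (g : Ω)⁻¹
    rw [Subgroup.coe_mul]
    group

theorem cj_apply (F : FusionSystem S) (X : Subgroup Ω) (hX : X ≤ S) (g : ↥(normalizerIn S X))
    (x : X) : ((((cj F X hX g : F.autGroup X) : MulAut X) x : X) : Ω) = g * x * (g : Ω)⁻¹ := rfl

/-- **`J(N_S(X))` centralizes the `p`-th powers of the `Aut_F(X)`-conjugates of the elements of `Z(S)`.** -/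
theorem commute_pow_of_isMaxAb {p : ℕ} [hp : Fact p.Prime] [Finite S] (hS : IsPGroup p S)
    {F : FusionSystem S} (hF : F.IsSaturated p) {X : Subgroup Ω} (hX : F.IsFullyNormalized X)
    {A : Subgroup Ω} (hA : IsMaxAb (normalizerIn S X) A) (x : X)
    (hx : (x : Ω) ∈ S ⊓ Subgroup.centralizer (S : Set Ω)) (g : F.autGroup X) (a : Ω) (ha : a ∈ A) :
    a * (((g • x) ^ p : X) : Ω) = (((g • x) ^ p : X) : Ω) * a := by
  have hXS := hX.1
  have hfX : Finite X := finite_of_le hXS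
  obtain ⟨-, P, hP⟩ := isFullyAutomized_of_isFullyNormalized hS hF hX
  have hPmem : ∀ b : F.autGroup X, b ∈ (P : Subgroup (F.autGroup X)) ↔
      ∃ s ∈ S, ∀ z : X, (((b : MulAut X) z : X) : Ω) = s * (z : Ω) * s⁻¹ := by
    intro b
    rw [hP, Subgroup.mem_subgroupOf, mem_autInducedBy_iff]
  have hxP : ∀ b ∈ (P : Subgroup (F.autGroup X)), b • x = x := by
    intro b hb
    obtain ⟨s, hs, hsb⟩ := (hPmem b).1 hb
    apply Subtype.ext
    show (((b : MulAut X) x : X) : Ω) = x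
    rw [hsb, Subgroup.mem_centralizer_iff.1 hx.2 s hs, mul_inv_cancel_right]
  have hxc : ∀ (b : F.autGroup X) (q : X), q * (b • x) = (b • x) * q := by
    intro b q
    have h1 : (b⁻¹ • q : X) * x = x * (b⁻¹ • q : X) :=
      Subtype.ext (Subgroup.mem_centralizer_iff.1 hx.2 _ (hXS (b⁻¹ • q : X).2))
    have h2 := congrArg (fun z : X => b • z) h1
    simp only [smul_mul', smul_inv_smul] at h2
    exact h2
  -- the `p`-subgroup `T` of `Aut_F(X)` induced by `A`
  have hNp : IsPGroup p (normalizerIn S X) := hS.to_le inf_le_left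
  have hfN : Finite (normalizerIn S X) := finite_of_le inf_le_left
  let T : Subgroup (F.autGroup X) := (A.subgroupOf (normalizerIn S X)).map (cj F X hXS)
  have hT : IsPGroup p T := (hNp.to_subgroup _).map _
  have hfix := sylow_fix P T hT (fun y : X => y ^ p) (fun g y => (smul_pow' g y _).symm) x hxP ?_ g
  · have h1 := hfix (cj F X hXS ⟨a, hA.1 ha⟩) ⟨⟨a, hA.1 ha⟩, ha, rfl⟩
    have h2 := congrArg Subtype.val h1
    have h3 : a * (((g • x) ^ p : X) : Ω) * a⁻¹ = (((g • x) ^ p : X) : Ω) := h2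
    calc a * (((g • x) ^ p : X) : Ω) = (a * (((g • x) ^ p : X) : Ω) * a⁻¹) * a := by group
      _ = _ := by rw [h3]
  · rintro b ⟨_, ⟨t, ht, rfl⟩, htne⟩
    set y : X := b • x with hy
    let V : Subgroup Ω := X ⊓ Subgroup.centralizer (X : Set Ω)
    have hyV : (y : Ω) ∈ V := ⟨y.2, Subgroup.mem_centralizer_iff.2 fun q hq =>
      congrArg Subtype.val (hxc b ⟨q, hq⟩)⟩
    have hVN : V ≤ normalizerIn S X := inf_le_left.trans (le_normalizerIn hXS)
    have hVab : ∀ a ∈ V, ∀ b ∈ V, a * b = b * a := fun a ha b hb =>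
      Subgroup.mem_centralizer_iff.1 hb.2 a ha.1
    have hAV : ∀ s ∈ A, ∀ v ∈ V, s * v * s⁻¹ ∈ V := by
      intro s hs v hv
      have hsX := (hA.1 hs).2
      refine ⟨(Subgroup.mem_normalizer_iff.1 hsX v).1 hv.1,
        Subgroup.mem_centralizer_iff.2 fun q hq => ?_⟩
      have hq' : s⁻¹ * q * s ∈ X := by
        have := (Subgroup.mem_normalizer_iff.1 (Subgroup.inv_mem _ hsX) q).1 hq
        simpa using this
      have h3 := Subgroup.mem_centralizer_iff.1 hv.2 _ hq'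
      calc q * (s * v * s⁻¹) = s * ((s⁻¹ * q * s) * v) * s⁻¹ := by group
        _ = s * (v * (s⁻¹ * q * s)) * s⁻¹ := by rw [h3]
        _ = s * v * s⁻¹ * q := by group
    have hnc : ∃ a ∈ A, a * (y : Ω) ≠ y * a := by
      refine ⟨t, ht, fun heq => htne ?_⟩
      apply Subtype.ext
      show (t : Ω) * y * (t : Ω)⁻¹ = y
      rw [heq, mul_inv_cancel_right]
    obtain ⟨s, hs, hs1, hs2⟩ := exists_mem_commute_pow (normalizerIn S X) A V hNp hA.1 hA.2.1
      hA.2.2 hVN hVab hAV (y : Ω) hyV hnc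
    refine ⟨cj F X hXS ⟨s, hA.1 hs⟩, ⟨⟨s, hA.1 hs⟩, hs, rfl⟩, fun heq => hs1 ?_, ?_⟩
    · have h2 : s * (y : Ω) * s⁻¹ = y := congrArg Subtype.val heq
      calc s * (y : Ω) = (s * (y : Ω) * s⁻¹) * s := by group
        _ = y * s := by rw [h2]
    · apply Subtype.ext
      show s * ((y ^ p : X) : Ω) * s⁻¹ = ((y ^ p : X) : Ω)
      have h3 : ((y ^ p : X) : Ω) = (y : Ω) ^ p := rfl
      rw [h3, hs2, mul_inv_cancel_right]

/-- The main step. -/
theorem mem_or_thompson_le {p : ℕ} [hp : Fact p.Prime] [Finite S] (hS : IsPGroup p S)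
    {F : FusionSystem S} (hF : F.IsSaturated p) (E : FusionSystem S)
    (hC : ∀ P, F.centralizerHom (powerClosure p 1 (S ⊓ Subgroup.centralizer (S : Set Ω))) P ⊆ E.Hom P)
    {X Q : Subgroup Ω} (hX : F.IsFullyNormalized X)
    (hZX : S ⊓ Subgroup.centralizer (S : Set Ω) ≤ X) (hXQ : X ≤ Q) (hQN : Q ≤ normalizerIn S X)
    (hbig : ∀ R : Subgroup Ω, Nat.card Q < Nat.card R → F.Hom R ⊆ E.Hom R)
    {α : Q →* Ω} (hα : α ∈ F.Hom Q) (hαX : ∀ (x : Ω) (hx : x ∈ X), α ⟨x, hXQ hx⟩ ∈ X) :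
    α ∈ E.Hom Q ∨ thompsonSubgroupAOf (normalizerIn S X) ≤ Q := by
  classical
  have hXS := hX.1
  have hQS : Q ≤ S := hom_le hα
  have hfX : Finite X := finite_of_le hXS
  have hfN : Finite (normalizerIn S X) := finite_of_le inf_le_left
  have hNp : IsPGroup p (normalizerIn S X) := hS.to_le inf_le_left
  obtain ⟨-, P, hP⟩ := isFullyAutomized_of_isFullyNormalized hS hF hX
  -- `α` restricted to `X`
  have hαX' := restrict_mem hα hXQ
  obtain ⟨a₀, ha₀, ha₀e⟩ := exists_aut hαX' (range_eq_of_mapsTo hαX' (fun x => hαX x x.2))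
  have ha₀x : ∀ x : X, ((a₀ x : X) : Ω) = α ⟨x, hXQ x.2⟩ := fun x => ha₀e x
  -- the normal subgroup `K`
  let K : Subgroup (F.autGroup X) :=
    { carrier := {k | ∀ (g : F.autGroup X) (x : X), (x : Ω) ∈ S ⊓ Subgroup.centralizer (S : Set Ω) →
        k • (g • x) ^ p = (g • x) ^ p}
      mul_mem' := by
        intro a b ha hb g x hx
        rw [mul_smul, hb g x hx, ha g x hx]
      one_mem' := by
        intro g x hx
        rw [one_smul]
      inv_mem' := by
        intro a ha g x hx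
        rw [inv_smul_eq_iff, ha g x hx] }
  have hKmem : ∀ k : F.autGroup X, k ∈ K ↔ ∀ (g : F.autGroup X) (x : X),
      (x : Ω) ∈ S ⊓ Subgroup.centralizer (S : Set Ω) → k • (g • x) ^ p = (g • x) ^ p := fun k => Iff.rfl
  have hKn : K.Normal := by
    refine ⟨fun k hk b => ?_⟩
    rw [hKmem] at hk ⊢
    intro g x hx
    have h1 := hk (b⁻¹ * g) x hx
    have h2 : ((b⁻¹ * g) • x) ^ p = b⁻¹ • (g • x) ^ p := by rw [mul_smul, smul_pow']
    rw [h2] at h1
    rw [mul_smul, mul_smul, h1, smul_inv_smul]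
  -- `T₁`
  let T₁ : Subgroup Ω := (K.comap (cj F X hXS)).map (normalizerIn S X).subtype
  have hT₁N : T₁ ≤ normalizerIn S X := Subgroup.map_subtype_le _
  have hJT : thompsonSubgroupAOf (normalizerIn S X) ≤ T₁ := by
    refine thompson_le_of_forall fun A hA => ?_
    intro a ha
    refine ⟨⟨a, hA.1 ha⟩, ?_, rfl⟩
    show cj F X hXS ⟨a, hA.1 ha⟩ ∈ K
    rw [hKmem]
    intro g x hx
    apply Subtype.ext
    show a * (((g • x) ^ p : X) : Ω) * a⁻¹ = _
    rw [commute_pow_of_isMaxAb hS hF hX hA x hx g a ha, mul_inv_cancel_right]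
  by_cases hTQ : T₁ ≤ Q
  · exact Or.inr (hJT.trans hTQ)
  left
  have hRN : T₁ ⊔ Q ≤ normalizerIn S X := sup_le hT₁N hQN
  let a₁ : F.autGroup X := ⟨a₀, ha₀⟩
  -- the subgroup `U` of automorphisms induced by `T₁ Q`
  let U : Subgroup (F.autGroup X) := ((T₁ ⊔ Q).subgroupOf (normalizerIn S X)).map (cj F X hXS)
  have hUp : IsPGroup p U := (hNp.to_subgroup _).map _
  have hPcj : ∀ g : normalizerIn S X, cj F X hXS g ∈ (P : Subgroup (F.autGroup X)) := by
    intro g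
    rw [hP, Subgroup.mem_subgroupOf, mem_autInducedBy_iff]
    exact ⟨g, g.2.1, fun _ => rfl⟩
  have hUa : ∀ u ∈ U, a₁ * u * a₁⁻¹ ∈ K ⊔ (P : Subgroup (F.autGroup X)) := by
    have hle : T₁ ⊔ Q ≤ (((K ⊔ (P : Subgroup (F.autGroup X))).comap
        ((MulAut.conj a₁).toMonoidHom.comp (cj F X hXS)))).map (normalizerIn S X).subtype := by
      refine sup_le ?_ ?_
      · rintro _ ⟨g, hg, rfl⟩
        refine ⟨g, ?_, rfl⟩
        show a₁ * cj F X hXS g * a₁⁻¹ ∈ K ⊔ (P : Subgroup (F.autGroup X))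
        exact Subgroup.mem_sup_left (hKn.conj_mem _ hg a₁)
      · intro q hq
        refine ⟨⟨q, hQN hq⟩, ?_, rfl⟩
        show a₁ * cj F X hXS ⟨q, hQN hq⟩ * a₁⁻¹ ∈ K ⊔ (P : Subgroup (F.autGroup X))
        apply Subgroup.mem_sup_right
        rw [hP, Subgroup.mem_subgroupOf, mem_autInducedBy_iff]
        refine ⟨α ⟨q, hq⟩, hom_apply_mem hα _, fun x => ?_⟩
        show ((a₀ ((cj F X hXS ⟨q, hQN hq⟩ : MulAut X) (a₀⁻¹ x)) : X) : Ω) = _
        rw [ha₀x]
        have h1 : (x : Ω) = α ⟨(a₀⁻¹ x : X), hXQ (a₀⁻¹ x : X).2⟩ := by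
          rw [← ha₀x, MulAut.apply_inv_self]
        rw [h1, ← map_inv, ← map_mul, ← map_mul]
        congr 1
    rintro _ ⟨g, hg, rfl⟩
    obtain ⟨g', hg', hgg⟩ := hle hg
    have : g' = g := Subtype.ext hgg
    rw [← this]
    exact hg'
  obtain ⟨k, hk, hkU⟩ := exists_mem_conj_le P K U hUp a₁ hUa
  obtain ⟨R, hQR, hTR, ψ, hψ, hψe⟩ : ∃ R : Subgroup Ω, Q ≤ R ∧ T₁ ≤ R ∧ ∃ ψ ∈ F.Hom R,
      ∀ (x : Ω) (hx : x ∈ X) (hx' : x ∈ R), ψ ⟨x, hx'⟩ =
        ((((k⁻¹ * a₁ : F.autGroup X) : MulAut X) ⟨x, hx⟩ : X) : Ω) := by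
    obtain ⟨ψ, hψ, hψe⟩ := exists_extension_of_conj hS hF hX hRN (k⁻¹ * a₁).2 (by
      intro β hβ
      obtain ⟨g, hg, hgβ⟩ := (mem_autInducedBy_iff _ _ _).1 hβ
      have h1 : (cj F X hXS ⟨g, hRN hg⟩ : MulAut X) = β := by
        apply MulEquiv.ext
        intro z
        apply Subtype.ext
        rw [cj_apply, hgβ]
      have h2 := hkU (cj F X hXS ⟨g, hRN hg⟩) ⟨⟨g, hRN hg⟩, hg, rfl⟩
      rw [hP, Subgroup.mem_subgroupOf] at h2
      rw [← h1]
      exact h2)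
    exact ⟨_, le_sup_right.trans le_sup_left, le_sup_left.trans le_sup_left, ψ, hψ, hψe⟩
  have hRS : R ≤ S := hom_le hψ
  have hfR : Finite R := finite_of_le hRS
  have hcard : Nat.card Q < Nat.card R := by
    have hfQ : Finite Q := finite_of_le hQS
    refine lt_of_le_of_ne (Nat.card_mono (Set.toFinite _) hQR) fun heq => hTQ ?_
    have h2 : Q = R := Subgroup.eq_of_le_of_card_ge hQR heq.ge
    exact hTR.trans h2.ge
  have hψE : ψ ∈ E.Hom R := hbig R hcard hψ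
  obtain ⟨ρ, hψQ, hψQE, hρX⟩ : ∃ ρ : Q →* Ω, ρ ∈ F.Hom Q ∧ ρ ∈ E.Hom Q ∧
      ∀ (x : Ω) (hx : x ∈ X), ρ ⟨x, hXQ hx⟩ =
        ((((k⁻¹ * a₁ : F.autGroup X) : MulAut X) ⟨x, hx⟩ : X) : Ω) :=
    ⟨_, restrict_mem hψ hQR, restrict_mem hψE hQR, fun x hx => hψe x hx _⟩
  -- inverse of `ρ`
  obtain ⟨σ, hσ, hσr, hσ1, -⟩ := exists_inv hψQ rfl
  have hσQ : ∀ y : ρ.range, σ y ∈ Q := fun y => hσr.le ⟨y, rfl⟩
  obtain ⟨τ, hτ, hτe⟩ := exists_comp hσ hα hσQ
  have hXρ : X ≤ ρ.range := by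
    intro x hx
    refine ⟨⟨(((k⁻¹ * a₁)⁻¹ : F.autGroup X) • (⟨x, hx⟩ : X) : X), hXQ (Subtype.prop _)⟩, ?_⟩
    rw [hρX _ (Subtype.prop _)]
    have : (((k⁻¹ * a₁ : F.autGroup X)) • (((k⁻¹ * a₁)⁻¹ : F.autGroup X) • (⟨x, hx⟩ : X)) : X) =
      ⟨x, hx⟩ := smul_inv_smul _ _
    exact congrArg Subtype.val this
  have hτk : ∀ (x : Ω) (hx : x ∈ X), τ ⟨x, hXρ hx⟩ = ((k • (⟨x, hx⟩ : X) : X) : Ω) := by
    intro x hx
    let w : X := ((k⁻¹ * a₁)⁻¹ : F.autGroup X) • (⟨x, hx⟩ : X)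
    have hw : (k⁻¹ * a₁ : F.autGroup X) • w = ⟨x, hx⟩ := smul_inv_smul _ _
    have h1 : ρ ⟨w, hXQ w.2⟩ = x := by
      rw [hρX w w.2]
      exact congrArg Subtype.val hw
    have h2 : (⟨ρ ⟨w, hXQ w.2⟩, ⟨_, rfl⟩⟩ : ρ.range) = ⟨x, hXρ hx⟩ := Subtype.ext h1
    have h3 := hσ1 ⟨w, hXQ w.2⟩ ⟨_, rfl⟩
    rw [h2] at h3
    rw [hτe]
    have h4 : (⟨σ ⟨x, hXρ hx⟩, hσQ _⟩ : Q) = ⟨w, hXQ w.2⟩ := Subtype.ext h3
    rw [h4, ← ha₀x w]
    have h5 : k • (⟨x, hx⟩ : X) = a₁ • w := by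
      rw [← hw, mul_smul, smul_inv_smul]
    rw [h5]
    rfl
  -- `τ` lies in the centralizer system
  set V₀ := powerClosure p 1 (S ⊓ Subgroup.centralizer (S : Set Ω)) with hV₀
  have hV₀Z : V₀ ≤ S ⊓ Subgroup.centralizer (S : Set Ω) := by
    rw [hV₀, powerClosure, Subgroup.closure_le]
    rintro _ ⟨x, hx, rfl⟩
    exact Subgroup.pow_mem _ hx _
  have hV₀X : V₀ ≤ X := hV₀Z.trans hZX
  have hV₀ρ : V₀ ≤ ρ.range := hV₀X.trans hXρ
  have hcen : S ≤ centralizerIn S V₀ := by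
    intro s hs
    refine ⟨hs, Subgroup.mem_centralizer_iff.2 fun v hv => ?_⟩
    exact (Subgroup.mem_centralizer_iff.1 (hV₀Z hv).2 s hs).symm
  have hfixV : ∀ (v : Ω) (hv : v ∈ V₀), τ ⟨v, hV₀ρ hv⟩ = v := by
    have hle : V₀ ≤ ((MonoidHom.eqLocus τ ρ.range.subtype)).map ρ.range.subtype := by
      rw [hV₀, powerClosure, Subgroup.closure_le]
      rintro _ ⟨x, hx, rfl⟩
      have hxp : x ^ p ^ 1 ∈ X := X.pow_mem (hZX hx) _
      refine ⟨⟨x ^ p ^ 1, hXρ hxp⟩, ?_, rfl⟩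
      show τ ⟨x ^ p ^ 1, hXρ hxp⟩ = x ^ p ^ 1
      rw [hτk _ hxp]
      have h1 := (hKmem k).1 hk 1 ⟨x, hZX hx⟩ hx
      rw [one_smul] at h1
      have h2 : (⟨x ^ p ^ 1, hxp⟩ : X) = ⟨x, hZX hx⟩ ^ p := by
        apply Subtype.ext
        simp
      rw [h2, h1]
      simp
    intro v hv
    obtain ⟨w, hw, hwv⟩ := hle hv
    have h1 : w = ⟨v, hV₀ρ hv⟩ := Subtype.ext hwv
    rw [← h1]
    have h2 : τ w = (w : Ω) := hw
    rw [h2, h1]
  have hτC : τ ∈ F.centralizerHom V₀ ρ.range := by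
    refine ⟨hτ, (range_le_of_mem hψQ).trans hcen, fun x => hcen (hom_apply_mem hτ x), ?_⟩
    have hsup : ρ.range ⊔ V₀ = ρ.range := sup_eq_left.2 hV₀ρ
    refine ⟨τ.comp (Subgroup.inclusion hsup.le), restrict_mem hτ hsup.le, fun x => rfl, fun x => ?_⟩
    exact hfixV x x.2
  have hτE := hC _ hτC
  obtain ⟨χ, hχ, hχe⟩ := exists_comp hψQE hτE (fun x => ⟨x, rfl⟩)
  refine mem_of_apply_eq hχ fun x => ?_
  rw [hχe, hτe]
  congr 1
  exact Subtype.ext (hσ1 x _).symm

/-- A map of `F` preserving `J(S)`, with source containing `J(S)`, is a map of `N_F(J(S))`. -/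
theorem mem_normalizerHom_thompson [Finite S] {F : FusionSystem S} {Q : Subgroup Ω}
    (hJQ : thompsonSubgroupAOf S ≤ Q) {α : Q →* Ω} (hα : α ∈ F.Hom Q)
    (h : ∀ (x : Ω) (hx : x ∈ thompsonSubgroupAOf S), α ⟨x, hJQ hx⟩ ∈ thompsonSubgroupAOf S) :
    α ∈ F.normalizerHom (thompsonSubgroupAOf S) Q := by
  set J := thompsonSubgroupAOf S with hJ
  have hfJ : Finite J := finite_of_le (thompson_le S)
  have hN : S ≤ normalizerIn S J := by
    intro s hs
    refine ⟨hs, ?_⟩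
    have hinj : Function.Injective (conjHom S s) := F.injective_of_mem (F.conj_mem le_rfl hs)
    have hr : (conjHom S s).range = S := by
      have hfS : Finite S := inferInstance
      exact range_eq_of_mapsTo (F.conj_mem le_rfl hs) (fun x => (F.le_of_mem
        (F.conj_mem le_rfl hs)).2 x)
    have h1 := map_thompson (conjHom S s) hinj
    rw [hr, ← hJ] at h1
    have h2 : ∀ x ∈ J, s * x * s⁻¹ ∈ J := by
      intro x hx
      rw [← h1]
      exact ⟨⟨x, thompson_le S hx⟩, hx, rfl⟩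
    have h3 : ∀ x ∈ J, s⁻¹ * x * s ∈ J := by
      intro x hx
      rw [← h1] at hx
      obtain ⟨w, hw, hwx⟩ := hx
      have hwx' : s * (w : Ω) * s⁻¹ = x := hwx
      rw [← hwx']
      have : s⁻¹ * (s * (w : Ω) * s⁻¹) * s = w := by group
      rw [this]
      exact hw
    refine Subgroup.mem_normalizer_iff.2 fun x => ?_
    refine ⟨h2 x, fun hx => ?_⟩
    have := h3 _ hx
    simpa [mul_assoc] using this
  refine ⟨hα, (hom_le hα).trans hN, fun x => hN (hom_apply_mem hα x), ?_⟩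
  have hsup : Q ⊔ J = Q := sup_eq_left.2 hJQ
  refine ⟨α.comp (Subgroup.inclusion hsup.le), restrict_mem hα hsup.le, fun x => rfl, ?_⟩
  exact map_subgroupOf_eq (F.injective_of_mem (restrict_mem hα hsup.le)) (fun z hz _ => h z hz)

/-- The image of `J(Q)` under a map `α` of `F` with `α(Q) = Q'` is `J(Q')`. -/
theorem apply_mem_thompson {F : FusionSystem S} {Q Q' : Subgroup Ω} {α : Q →* Ω} (hα : α ∈ F.Hom Q)
    (hr : α.range = Q') (x : Ω) (hx : x ∈ thompsonSubgroupAOf Q) :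
    α ⟨x, thompson_le Q hx⟩ ∈ thompsonSubgroupAOf Q' := by
  rw [← hr, ← map_thompson α (F.injective_of_mem hα)]
  exact ⟨⟨x, thompson_le Q hx⟩, hx, rfl⟩

/-- **`F = ⟨C_F(℧¹(Z(S))), N_F(J(S))⟩`.** -/
theorem hom_le_of_centralizer_normalizer {p : ℕ} [hp : Fact p.Prime] [Finite S] (hS : IsPGroup p S)
    {F : FusionSystem S} (hF : F.IsSaturated p) (E : FusionSystem S)
    (hC : ∀ P, F.centralizerHom (powerClosure p 1 (S ⊓ Subgroup.centralizer (S : Set Ω))) P ⊆ E.Hom P)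
    (hN : ∀ P, F.normalizerHom (thompsonSubgroupAOf S) P ⊆ E.Hom P) (P : Subgroup Ω) :
    F.Hom P ⊆ E.Hom P := by
  refine le_of_centric hS hF E ?_ P
  intro Q hQ hQc hbig α hα
  have hQS := hQ.1
  have hfQ : Finite Q := finite_of_le hQS
  rw [mem_autGroup_iff E hQS]
  have hαF := (mem_autGroup_iff F hQS α).1 hα
  have hαr : (Q.subtype.comp α.toMonoidHom).range = Q := range_eq_of_mapsTo hαF (fun x => (α x).2)
  by_cases hQeq : Q = S
  · subst hQeq
    exact hN _ (mem_normalizerHom_thompson (thompson_le Q) hαF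
      (fun x hx => apply_mem_thompson hαF hαr x hx))
  set X := thompsonSubgroupAOf Q with hXdef
  have hXQ : X ≤ Q := thompson_le Q
  have hXS : X ≤ S := hXQ.trans hQS
  -- `N_S(Q) ≤ N_S(X)`
  have hNN : ∀ R : Subgroup Ω, R ≤ S → normalizerIn S R ≤ normalizerIn S (thompsonSubgroupAOf R) := by
    intro R hR g hg
    have hfR : Finite R := finite_of_le hR
    refine ⟨hg.1, ?_⟩
    have hgF : conjHom R g ∈ F.Hom R := F.conj_mem hR hg.1
    have hr : (conjHom R g).range = R :=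
      range_eq_of_mapsTo hgF (fun x => (Subgroup.mem_normalizer_iff.1 hg.2 x).1 x.2)
    have hgi := Subgroup.inv_mem _ hg.2
    have hgF' : conjHom R g⁻¹ ∈ F.Hom R := F.conj_mem hR (S.inv_mem hg.1)
    have hr' : (conjHom R g⁻¹).range = R :=
      range_eq_of_mapsTo hgF' (fun x => (Subgroup.mem_normalizer_iff.1 hgi x).1 x.2)
    refine Subgroup.mem_normalizer_iff.2 fun x => ?_
    refine ⟨fun hx => apply_mem_thompson hgF hr x hx, fun hx => ?_⟩
    have h1 : g⁻¹ * (g * x * g⁻¹) * g⁻¹⁻¹ ∈ thompsonSubgroupAOf R :=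
      apply_mem_thompson hgF' hr' _ hx
    simpa [mul_assoc] using h1
  have hcardN : Nat.card Q < Nat.card (normalizerIn S X) := by
    have hfin : Finite (normalizerIn S X) := finite_of_le inf_le_left
    exact (card_lt_card_normalizerIn hS hQS hQeq).trans_le
      (Nat.card_mono (Set.toFinite _) (hNN Q hQS))
  obtain ⟨X', ⟨φ, hφ, hφr⟩, hX'⟩ := exists_isFullyNormalized hS hF hXS
  obtain ⟨β, hβ, ψ, hψ, hψe, hψN⟩ := exists_extension_normalizer hS hF hφ hφr hX'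
  have hψE := hbig _ hcardN hψ
  have hQN : Q ≤ normalizerIn S X := (le_normalizerIn hQS).trans (hNN Q hQS)
  -- `ρ` = restriction of `ψ` to `Q`
  obtain ⟨ρ, hρF, hρE, hρe⟩ : ∃ ρ : Q →* Ω, ρ ∈ F.Hom Q ∧ ρ ∈ E.Hom Q ∧
      ∀ x : Q, ρ x = ψ ⟨x, hQN x.2⟩ :=
    ⟨_, restrict_mem hψ hQN, restrict_mem hψE hQN, fun x => rfl⟩
  obtain ⟨Q', hQ'⟩ : ∃ Q', ρ.range = Q' := ⟨_, rfl⟩
  have hQ'S : Q' ≤ S := hQ' ▸ range_le_of_mem hρF
  have hfQ' : Finite Q' := finite_of_le hQ'S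
  have hcardQ' : Nat.card Q = Nat.card Q' := isConj_card_eq ⟨ρ, hρF, hQ'⟩
  -- `ρ(X) = X'`
  have hρX : (X.subgroupOf Q).map ρ = X' := by
    have hfX' : Finite X' := finite_of_le hX'.1
    have hle : (X.subgroupOf Q).map ρ ≤ X' := by
      rintro _ ⟨x, hx, rfl⟩
      have hφx : φ ⟨x, hx⟩ ∈ X' := hφr.le ⟨_, rfl⟩
      rw [hρe, hψe ⟨x, hx⟩ hφx]
      exact (β _).2
    have hcard : Nat.card ((X.subgroupOf Q).map ρ) = Nat.card X' := by
      rw [← Nat.card_congr ((X.subgroupOf Q).equivMapOfInjective ρ (F.injective_of_mem hρF)).toEquiv,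
        Nat.card_congr (Subgroup.subgroupOfEquivOfLe hXQ).toEquiv]
      exact isConj_card_eq ⟨φ, hφ, hφr⟩
    exact Subgroup.eq_of_le_of_card_ge hle hcard.ge
  have hX'J : X' = thompsonSubgroupAOf Q' := by
    rw [← hρX, hXdef, map_thompson ρ (F.injective_of_mem hρF), hQ']
  have hX'Q' : X' ≤ Q' := hX'J ▸ thompson_le Q'
  have hQ'N : Q' ≤ normalizerIn S X' := by
    rw [hX'J]
    exact (le_normalizerIn hQ'S).trans (hNN Q' hQ'S)
  -- `Q'` is centric
  have hQ'c : F.IsCentric Q' := isCentric_of_isConj hQc ⟨ρ, hρF, hQ'⟩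
  have hZX' : S ⊓ Subgroup.centralizer (S : Set Ω) ≤ X' := by
    intro z hz
    have hzQ' : z ∈ Q' := hQ'c.2 Q' (isConj_refl F hQ'S)
      ⟨hz.1, Subgroup.centralizer_le hQ'S hz.2⟩
    rw [hX'J]
    exact center_le_thompson z hzQ' (fun q hq => Subgroup.mem_centralizer_iff.1 hz.2 q (hQ'S hq))
  -- the transported map
  obtain ⟨σ, hσF, hσr, hσ1, hσ2⟩ := exists_inv hρF hQ'
  obtain ⟨σ', hσ'E, hσ'r, hσ'1, hσ'2⟩ := exists_inv hρE hQ'
  have hσQ : ∀ y : Q', σ y ∈ Q := fun y => hσr.le ⟨y, rfl⟩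
  obtain ⟨μ, hμ, hμe⟩ := exists_comp hσF hαF hσQ
  have hμQ : ∀ y : Q', μ y ∈ Q := fun y => by
    rw [hμe]
    exact (α _).2
  obtain ⟨α', hα', hα'e⟩ := exists_comp hμ hρF hμQ
  have hα'Q' : ∀ y : Q', α' y ∈ Q' := fun y => by
    rw [hα'e]
    exact hQ'.le ⟨_, rfl⟩
  have hα'r : α'.range = Q' := range_eq_of_mapsTo hα' hα'Q'
  have hα'X : ∀ (x : Ω) (hx : x ∈ X'), α' ⟨x, hX'Q' hx⟩ ∈ X' := by
    intro x hx
    have hx' : x ∈ thompsonSubgroupAOf Q' := hX'J ▸ hx
    have := apply_mem_thompson hα' hα'r x hx'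
    rw [← hX'J] at this
    exact this
  have hα'E : α' ∈ E.Hom Q' := by
    rcases mem_or_thompson_le hS hF E hC hX' hZX' hX'Q' hQ'N
      (fun R hR => hbig R (hcardQ'.trans_lt hR)) hα' hα'X with h | h
    · exact h
    · -- `J(N_S(X')) = X'`, so that `N_S(X') = S`
      have hfN : Finite (normalizerIn S X') := finite_of_le inf_le_left
      have h1 : thompsonSubgroupAOf (normalizerIn S X') = X' := by
        rw [← thompson_eq_of_le h hQ'N, hX'J]
      have h2 : normalizerIn S (normalizerIn S X') ≤ normalizerIn S X' := by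
        have := hNN (normalizerIn S X') inf_le_left
        rwa [h1] at this
      have h3 : normalizerIn S X' = S := by
        by_contra hne
        have h4 := card_lt_card_normalizerIn hS (inf_le_left : normalizerIn S X' ≤ S) hne
        exact absurd (Nat.card_mono (Set.toFinite _) h2) (not_le.2 h4)
      rw [h3] at h1
      refine hN _ (mem_normalizerHom_thompson (h1 ▸ hX'Q') hα' ?_)
      intro x hx
      have hx' : x ∈ X' := h1 ▸ hx
      exact h1.ge (hα'X x hx')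
  -- transport back
  have hρQ' : ∀ x : Q, ρ x ∈ Q' := fun x => hQ'.le ⟨x, rfl⟩
  obtain ⟨μ', hμ', hμ'e⟩ := exists_comp hρE hα'E hρQ'
  have hμ'Q' : ∀ x : Q, μ' x ∈ Q' := fun x => by
    rw [hμ'e]
    exact hα'Q' _
  obtain ⟨χ, hχ, hχe⟩ := exists_comp hμ' hσ'E hμ'Q'
  refine mem_of_apply_eq hχ fun x => ?_
  rw [hχe]
  have e1 : μ' x = ρ (α x) := by
    rw [hμ'e, hα'e]
    congr 1
    apply Subtype.ext
    show μ ⟨ρ x, hρQ' x⟩ = (α x : Ω)
    rw [hμe]
    have : (⟨σ ⟨ρ x, hρQ' x⟩, hσQ _⟩ : Q) = x := Subtype.ext (hσ1 x _)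
    rw [this]
    rfl
  have e2 : (⟨μ' x, hμ'Q' x⟩ : Q') = ⟨ρ (α x), hρQ' _⟩ := Subtype.ext e1
  rw [e2, hσ'1]
  rfl

end Cfsg.Agent.H774
end

-- part: S5220
section
set_option autoImplicit false
open Cfsg

namespace Cfsg.Agent.S5220

/-- Let F be a saturated fusion system over a nontrivial finite p-group S, let J(S) be the subgroup generated by the abelian subgroups of S of largest order, and let V be the subgroup generated by the p-th powers of the elements of Z(S). Then F is generated by the centralizer fusion system of V and the normalizer fusion system of J(S): every fusion system over S containing the maps of both contains every map of F. -/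
theorem result {Ω : Type*} [Group Ω] {S : Subgroup Ω} [Finite S] (p : ℕ) [Fact p.Prime] (hS : IsPGroup p S) (F : Cfsg.FusionSystem S) (hF : F.IsSaturated p) (hS1 : S ≠ ⊥) (C : Cfsg.FusionSystem (Cfsg.FusionSystem.centralizerIn S (Cfsg.powerClosure p 1 (S ⊓ Subgroup.centralizer (S : Set Ω))))) (hC : F.IsCentralizerSystem (Cfsg.powerClosure p 1 (S ⊓ Subgroup.centralizer (S : Set Ω))) C) (N : Cfsg.FusionSystem (Cfsg.FusionSystem.normalizerIn S (Cfsg.thompsonSubgroupAOf S))) (hN : F.IsNormalizerSystem (Cfsg.thompsonSubgroupAOf S) N) (E : Cfsg.FusionSystem S) (hCE : C.IsSubsystemOf E) (hNE : N.IsSubsystemOf E) : F.IsSubsystemOf E := by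
  have hZ : powerClosure p 1 (S ⊓ Subgroup.centralizer (S : Set Ω)) ≤
      S ⊓ Subgroup.centralizer (S : Set Ω) := by
    rw [powerClosure, Subgroup.closure_le]
    rintro _ ⟨x, hx, rfl⟩
    exact Subgroup.pow_mem _ hx _
  intro P
  refine Cfsg.Agent.H774.hom_le_of_centralizer_normalizer hS hF E (fun R => ?_) (fun R => ?_) P
  · rw [← hC R]
    exact hCE R
  · rw [← hN R]
    exact hNE R

end Cfsg.Agent.S5220
end
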