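import Cfsg.Statements.S5223
import Cfsg.Agent.H759.FusNormal
import Cfsg.Agent.H802.FusAlp
set_option linter.all false

set_option autoImplicit false
open Cfsg

namespace Cfsg.Agent.S5223
open Cfsg.FusionSystem

variable {Ω : Type*} [Group Ω] {S : Subgroup Ω} {p : ℕ}

/-- If all the groups `Aut_F(P)`, `P ≤ S`, are `p`-groups then `F` is the inner fusion system. -/
theorem eq_inner_of_isPGroup [Finite S] [Fact p.Prime] (hS : IsPGroup p S) {F : FusionSystem S}
    (hF : F.IsSaturated p) (h : ∀ P : Subgroup Ω, P ≤ S → IsPGroup p (F.autGroup P)) :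
    ∀ P : Subgroup Ω, F.Hom P = (innerFusionSystem S).Hom P := by
  intro P
  apply Set.Subset.antisymm
  · refine H802.le_of_autGroup_le hS hF (innerFusionSystem S) (fun Q hQ _ => ?_) P
    have hQa := H802.isFullyAutomized_of_isFullyNormalized hS hF hQ
    have hfQ : Finite Q := H802.finite_of_le hQ.1
    have h1 : F.autGroup Q ≤ autInducedBy S Q :=
      H759.le_autInducedBy_of_normal hQa (F.autGroup Q) le_rfl
        (fun a ha k hk => mul_mem (mul_mem ha hk) (inv_mem ha)) (h Q hQ.1)
    exact h1.trans (H802.autInducedBy_le_autGroup _ hQ.1)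
  · rintro φ ⟨hP, g, hg, hφ⟩
    exact H802.mem_of_apply_eq (F.conj_mem hP hg) hφ

/-- The iterated commutator subgroups `[P, α, …, α]`. -/
def iterComm {P : Type*} [Group P] (α : MulAut P) : ℕ → Subgroup P
  | 0 => ⊤
  | (n + 1) => Subgroup.closure {y | ∃ x ∈ iterComm α n, y = x⁻¹ * α x}

theorem iterComm_inv {P : Type*} [Group P] (α : MulAut P) (n : ℕ) :
    ∀ x ∈ iterComm α n, α x ∈ iterComm α n := by
  induction n with
  | zero => intro x _; trivial
  | succ n ih =>
    have h1 : iterComm α (n + 1) ≤ (iterComm α (n + 1)).comap α.toMonoidHom := by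
      show Subgroup.closure _ ≤ _
      rw [Subgroup.closure_le]
      rintro y ⟨x, hx, rfl⟩
      show α (x⁻¹ * α x) ∈ iterComm α (n + 1)
      rw [map_mul, map_inv]
      exact Subgroup.subset_closure ⟨α x, ih x hx, rfl⟩
    exact fun x hx => h1 hx

/-- Let F be a saturated fusion system over a finite p-group S. Suppose there are subgroups Q₀ = S, Q₁, …, Qₙ = 1 (not required to be nested) such that for each i < n the focal subgroup of Qᵢ (generated by the elements x⁻¹φ(x), x ∈ Qᵢ, φ a map of F defined on the cyclic group generated by x) lies in Qᵢ₊₁. Then F is the inner fusion system of S. -/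
theorem result {Ω : Type*} [Group Ω] {S : Subgroup Ω} [Finite S] (p : ℕ) [Fact p.Prime] (hS : IsPGroup p S) (F : Cfsg.FusionSystem S) (hF : F.IsSaturated p) (n : ℕ) (Q : Fin (n + 1) → Subgroup Ω) (hQ0 : Q 0 = S) (hQn : Q (Fin.last n) = ⊥) (hstep : ∀ i : Fin n, Subgroup.closure {y : Ω | ∃ x ∈ Q i.castSucc, ∃ φ ∈ F.Hom (Subgroup.zpowers x), y = x⁻¹ * φ ⟨x, Subgroup.mem_zpowers x⟩} ≤ Q i.succ) : ∀ P : Subgroup Ω, F.Hom P = (Cfsg.innerFusionSystem S).Hom P := by
  refine eq_inner_of_isPGroup hS hF (fun P hP => ?_)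
  rintro ⟨α, hα⟩
  have hfP : Finite P := H802.finite_of_le hP
  have hαF := (H802.mem_autGroup_iff F hP α).1 hα
  have key : ∀ i (hi : i < n + 1), (iterComm α i).map P.subtype ≤ Q ⟨i, hi⟩ := by
    intro i
    induction i with
    | zero =>
      intro hi
      have h0 : (⟨0, hi⟩ : Fin (n + 1)) = 0 := rfl
      rw [h0, hQ0]
      exact (Subgroup.map_subtype_le _).trans hP
    | succ i ih =>
      intro hi
      have h1 := ih (Nat.lt_of_succ_lt hi)
      rw [Subgroup.map_le_iff_le_comap]
      show Subgroup.closure _ ≤ _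
      rw [Subgroup.closure_le]
      rintro y ⟨x, hx, rfl⟩
      have h2 := hstep ⟨i, Nat.lt_of_succ_lt_succ hi⟩
      refine h2 (Subgroup.subset_closure ⟨(x : Ω), h1 ⟨x, hx, rfl⟩, ?_⟩)
      have hz : Subgroup.zpowers (x : Ω) ≤ P := by
        rw [Subgroup.zpowers_le]
        exact x.2
      exact ⟨_, H802.restrict_mem hαF hz, rfl⟩
  have hbot : iterComm α n = ⊥ := by
    have h1 := key n (Nat.lt_succ_self n)
    have h2 : (⟨n, Nat.lt_succ_self n⟩ : Fin (n + 1)) = Fin.last n := rfl
    rw [h2, hQn, le_bot_iff, Subgroup.map_eq_bot_iff_of_injective _ (Subgroup.subtype_injective P)] at h1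
    exact h1
  obtain ⟨k, hk⟩ := H759.exists_pow_eq_one_of_chain (hS.to_le hP) α n (iterComm α) rfl hbot
    (fun i _ x hx => iterComm_inv α i x hx)
    (fun i _ x hx => Subgroup.subset_closure ⟨x, hx, rfl⟩)
  exact ⟨k, Subtype.ext hk⟩

end Cfsg.Agent.S5223
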