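import Cfsg.Statements.S5224
import Cfsg.Agent.H747.MonoOfBiset
set_option linter.all false

set_option autoImplicit false
open Cfsg

namespace Cfsg.Agent.S5224

open Cfsg.Agent.H747

/-- Tate's Theorem for fusion systems. Let F be a saturated fusion system over a finite p-group S and H a saturated fusion system over S contained in F. Then the following are equivalent: the elementary focal subgroups Φ(S)·foc agree for F and H; the focal subgroups of F and H agree; the hyperfocal subgroups of F and H agree. -/
theorem result {Ω : Type*} [Group Ω] {S : Subgroup Ω} [Finite S] (p : ℕ) [Fact p.Prime] (hS : IsPGroup p S) (F : Cfsg.FusionSystem S) (hF : F.IsSaturated p) (H : Cfsg.FusionSystem S) (hH : H.IsSaturated p) (hHF : H.IsSubsystemOf F) : (((frattini ↥S).map S.subtype ⊔ F.focalSubgroup) = ((frattini ↥S).map S.subtype ⊔ H.focalSubgroup) ↔ F.focalSubgroup = H.focalSubgroup) ∧ (F.focalSubgroup = H.focalSubgroup ↔ F.hyperfocalSubgroup p = H.hyperfocalSubgroup p) := by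
  have key : ((frattini ↥S).map S.subtype ⊔ F.focalSubgroup) =
      ((frattini ↥S).map S.subtype ⊔ H.focalSubgroup) →
      F.hyperfocalSubgroup p = H.hyperfocalSubgroup p :=
    fun h => tate hS hF hH hHF (h ▸ le_sup_right)
  have h2 : F.hyperfocalSubgroup p = H.hyperfocalSubgroup p → F.focalSubgroup = H.focalSubgroup := by
    intro h
    rw [focal_eq hS hF, focal_eq hS hH, h]
  refine ⟨⟨fun h => h2 (key h), fun h => by rw [h]⟩, fun h => key (by rw [h]), h2⟩

end Cfsg.Agent.S5224
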