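import Cfsg.Agent.H759.FusNormal
import Cfsg.Statements.S5226
set_option linter.all false

-- part: H776/FusNormalW
section
/-!
Normality criteria for subgroups of saturated fusion systems with weaker hypotheses: extension over one
element of the normalizer is enough; central series of weakly closed subgroups.
-/

set_option autoImplicit false

namespace Cfsg.Agent.H776

open Cfsg Cfsg.FusionSystem Cfsg.Agent.H759
open scoped commutatorElement

variable {Ω : Type*} [Group Ω] {S : Subgroup Ω} {F : FusionSystem S}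

/-- **Normality criterion**: in a saturated fusion system, a strongly closed `Q` is normal if for every fully automized
and receptive `R` not containing `Q`, there is a subgroup `N` of `N_Q(R)`, not contained in `R`, such that for all
`F`-automorphisms `α` of `R` and all `g ∈ N`, the conjugate `α c_g α⁻¹` is induced by an element of `S`. -/
theorem isNormal_of_forall_exists [Finite S] {p : ℕ} [Fact p.Prime] (hS : IsPGroup p S)
    (hF : F.IsSaturated p) {Q : Subgroup Ω} (hQ : F.StronglyClosed Q)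
    (hc : ∀ R : Subgroup Ω, F.IsFullyAutomized p R → F.IsReceptive R → ¬ Q ≤ R →
      ∃ N : Subgroup Ω, N ≤ Q ∧ ¬ N ≤ R ∧ ∃ hN : N ≤ Subgroup.normalizer (R : Set Ω),
      ∀ α ∈ F.autGroup R, ∀ (g : Ω) (hg : g ∈ N),
        α * conjAut R g (hN hg) * α⁻¹ ∈ autInducedBy S R) :
    F.IsNormal Q := by
  apply isNormal_of_extends hQ
  refine saturated_induction F hS hF
    (fun P φ => ∃ ψ ∈ F.Hom (P ⊔ Q), ∀ (x : P) (hx : (x : Ω) ∈ P ⊔ Q), ψ ⟨x, hx⟩ = φ x)
    ?_ ?_ ?_ ?_
  · -- restriction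
    rintro P R φ χ hφ ⟨ψ, hψ, h⟩ hR hχ
    have hle : R ⊔ Q ≤ P ⊔ Q := sup_le_sup_right hR Q
    refine ⟨ψ.comp (Subgroup.inclusion hle), res_mem_comp F hψ hle, fun x hx => ?_⟩
    rw [hχ x]
    exact h ⟨x, hR x.2⟩ (hle hx)
  · -- composition
    rintro P R φ ψ χ hφ hψ ⟨φ', hφ', h⟩ ⟨ψ', hψ', h'⟩ hχ
    have hQT : ∀ y : (P ⊔ Q : Subgroup Ω), φ' y ∈ R ⊔ Q := by
      apply hom_sup_mem
      · intro x hx hx'
        obtain ⟨h2, -⟩ := hχ ⟨x, hx⟩
        rw [h ⟨x, hx⟩ hx']
        exact (le_sup_left : R ≤ R ⊔ Q) h2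
      · intro x hx hx'
        have h1 : φ' ⟨x, hx'⟩ ∈ Q := StronglyClosed.apply_mem hQ hφ' (x := ⟨x, hx'⟩) hx
        exact (le_sup_right : Q ≤ R ⊔ Q) h1
    refine ⟨ψ'.comp (φ'.codRestrict _ hQT), F.comp_mem hφ' hψ' hQT, fun x hx => ?_⟩
    obtain ⟨h2, h3⟩ := hχ x
    rw [h3]
    have h4 : φ x ∈ R ⊔ Q := (le_sup_left : R ≤ R ⊔ Q) h2
    rw [← h' ⟨φ x, h2⟩ h4]
    show ψ' ⟨φ' ⟨x, hx⟩, _⟩ = ψ' ⟨φ x, h4⟩
    congr 1
    exact Subtype.ext (h x hx)
  · -- inverses
    rintro P R φ χ hφ ⟨φ', hφ', h⟩ hχ hinv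
    have hle : R ⊔ Q ≤ φ'.range := by
      refine sup_le ?_ ?_
      · intro y hy
        obtain ⟨x, hx, -⟩ := hinv ⟨y, hy⟩
        refine ⟨⟨x, (le_sup_left : P ≤ P ⊔ Q) x.2⟩, ?_⟩
        rw [h x, hx]
      · intro t ht
        obtain ⟨x, hx, h1⟩ := StronglyClosed.exists_preimage hQ hφ' (le_sup_right : Q ≤ P ⊔ Q) ht
        exact ⟨_, h1⟩
    obtain ⟨ψ, hψ, h1⟩ := exists_inv F hφ' hle
    refine ⟨ψ, hψ, fun y hy => ?_⟩
    obtain ⟨x, hx, h3⟩ := hinv y
    have hx' : (x : Ω) ∈ P ⊔ Q := (le_sup_left : P ≤ P ⊔ Q) x.2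
    have h4 : φ' ⟨x, hx'⟩ ∈ R ⊔ Q := by rw [h x, hx]; exact hy
    have h5 := h1 _ h4
    have h6 : (⟨φ' ⟨x, hx'⟩, h4⟩ : (R ⊔ Q : Subgroup Ω)) = ⟨y, hy⟩ :=
      Subtype.ext ((h x hx').trans hx)
    rw [h6] at h5
    rw [h5, h3]
  · -- automorphisms
    intro R hRa hRr IH α hα
    have hRS : R ≤ S := hRa.1
    have hfR : Finite R := Finite.of_injective _ (Subgroup.inclusion_injective hRS)
    have hαm := (mem_autGroup F hRS).1 hα
    by_cases hQR : Q ≤ R
    · have hle : R ⊔ Q ≤ R := sup_le le_rfl hQR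
      exact ⟨_, res_mem_comp F hαm hle, fun x hx => rfl⟩
    · obtain ⟨N, hNQ, hNR, hNn, hcN⟩ := hc R hRa hRr hQR
      obtain ⟨κ, hκ, ψ, hψ, h⟩ := exists_extension F hS hRa hRr hαm (by
          ext y
          constructor
          · rintro ⟨x, rfl⟩; exact (α x).2
          · intro hy
            exact ⟨α⁻¹ ⟨y, hy⟩, by
              show ((α (α⁻¹ ⟨y, hy⟩) : R) : Ω) = y
              rw [MulAut.apply_inv_self]⟩) ⊥ bot_le (by
          intro a _ k hk
          rw [Subgroup.mem_bot] at hk ⊢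
          rw [hk]; simp)
        N (hNQ.trans hQ.1) hNn (by
          intro g hg
          have h1 := hcN α hα g hg
          obtain ⟨k, hkS, hk⟩ := mem_autInducedBy.1 h1
          refine ⟨1, one_mem _, k, hkS, ?_, ?_⟩
          · rw [Subgroup.mem_normalizer_iff]
            intro x
            constructor
            · intro hx
              have h2 := hk ⟨x, hx⟩
              rw [← h2]
              exact ((α * conjAut R g (hNn hg) * α⁻¹) ⟨x, hx⟩).2
            · intro hx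
              obtain ⟨y, hy⟩ := (α * conjAut R g (hNn hg) * α⁻¹).surjective ⟨_, hx⟩
              have h2 := hk y
              rw [hy] at h2
              have h3 : x = y := mul_left_cancel (mul_right_cancel h2)
              rw [h3]; exact y.2
          · intro x hx hy
            have h2 := hk (α x)
            rw [MulAut.mul_apply, MulAut.mul_apply, MulAut.inv_apply_self] at h2
            exact h2)
      have hlt : Nat.card R < Nat.card (R ⊔ N : Subgroup Ω) := by
        have hlt2 : R < R ⊔ N :=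
          lt_of_le_of_ne le_sup_left (fun h => hNR (h ▸ le_sup_right))
        have hfN : Finite (R ⊔ N : Subgroup Ω) :=
          Finite.of_injective _ (Subgroup.inclusion_injective (F.le_of_mem hψ).1)
        refine lt_of_le_of_ne (Subgroup.card_le_of_le hlt2.le) (fun h => ?_)
        exact hlt2.ne (Subgroup.eq_of_le_of_card_ge hlt2.le h.ge)
      obtain ⟨ψ', hψ', h'⟩ := IH _ ψ hψ hlt
      have hle1 : R ≤ R ⊔ N := le_sup_left
      have hle2 : R ⊔ Q ≤ (R ⊔ N) ⊔ Q := sup_le_sup_right hle1 Q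
      refine ⟨ψ'.comp (Subgroup.inclusion hle2), res_mem_comp F hψ' hle2, fun x hx => ?_⟩
      have h1 := h' ⟨x, hle1 x.2⟩ (hle2 hx)
      have h2 := h x (α x).2 (hle1 x.2)
      rw [Subgroup.mem_bot] at hκ
      rw [hκ] at h2
      show ψ' ⟨x, _⟩ = _
      rw [h1, h2]
      rfl

/-- For `R` not containing `Q`, both in the finite `p`-group `S`, with `R` normalizing `Q`: `N_Q(R)` is not contained
in `R`. -/
theorem exists_mem_normalizer [Finite S] {p : ℕ} [Fact p.Prime] (hS : IsPGroup p S) {Q R : Subgroup Ω}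
    (hQS : Q ≤ S) (hRS : R ≤ S) (hRQ : R ≤ Subgroup.normalizer (Q : Set Ω)) (hQR : ¬ Q ≤ R) :
    ∃ g ∈ Q, g ∉ R ∧ g ∈ Subgroup.normalizer (R : Set Ω) := by
  have h1 : R < R ⊔ Q := lt_of_le_of_ne le_sup_left (fun h => hQR (h ▸ le_sup_right))
  obtain ⟨g, hg, hgQ, hgn⟩ := exists_mem_normalizer_not_mem hS (sup_le hRS hQS) h1
  obtain ⟨q, hq, t, ht, rfl⟩ := (mem_sup_of_normalizes hRQ).1 hg
  refine ⟨t, ht, fun h => hgQ (mul_mem hq h), ?_⟩
  have h2 := mul_mem (inv_mem (Subgroup.le_normalizer hq)) hgn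
  simpa [← mul_assoc] using h2

/-- A weakly closed subgroup is normal in `S`. -/
theorem WeaklyClosed.le_normalizer {T : Subgroup Ω} (hT : F.WeaklyClosed T) :
    S ≤ Subgroup.normalizer (T : Set Ω) := by
  have key : ∀ s ∈ S, ∀ t ∈ T, s * t * s⁻¹ ∈ T := by
    intro s hs t ht
    have h := hT.2 _ (F.conj_mem hT.1 hs)
    have h2 : conjHom T s ⟨t, ht⟩ ∈ (conjHom T s).range := ⟨_, rfl⟩
    rw [h] at h2
    exact h2
  intro s hs
  rw [Subgroup.mem_normalizer_iff]
  intro t
  refine ⟨key s hs t, fun h => ?_⟩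
  have := key s⁻¹ (inv_mem hs) _ h
  simpa [mul_assoc] using this

/-- A weakly closed subgroup contained in `R` is invariant under `Aut_F(R)`. -/
theorem WeaklyClosed.apply_mem {T R : Subgroup Ω} (hT : F.WeaklyClosed T) (hTR : T ≤ R) {φ : R →* Ω}
    (hφ : φ ∈ F.Hom R) {x : R} (hx : (x : Ω) ∈ T) : φ x ∈ T := by
  have h1 := res_mem_comp F hφ hTR
  have h2 := hT.2 _ h1
  rw [← h2]
  exact ⟨⟨x, hx⟩, rfl⟩

/-- **Normality through a central series of weakly closed subgroups** (Stancu). -/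
theorem isNormal_of_weak_chain [Finite S] {p : ℕ} [Fact p.Prime] (hS : IsPGroup p S)
    (hF : F.IsSaturated p) {Q : Subgroup Ω} (hQ : F.StronglyClosed Q) (n : ℕ) (c : ℕ → Subgroup Ω)
    (h0 : c 0 = ⊥) (hn : c n = Q) (hcQ : ∀ i ≤ n, c i ≤ Q) (hc : ∀ i < n, F.WeaklyClosed (c i))
    (hcomm : ∀ i < n, ⁅Q, c (i + 1)⁆ ≤ c i) : F.IsNormal Q := by
  have hfQ : Finite Q := Finite.of_injective _ (Subgroup.inclusion_injective hQ.1)
  have hQw : F.WeaklyClosed Q := by
    refine ⟨hQ.1, fun φ hφ => ?_⟩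
    apply Subgroup.eq_of_le_of_card_ge
    · rintro _ ⟨x, rfl⟩
      exact hQ.2 Q le_rfl φ hφ x
    · rw [← Nat.card_congr (MonoidHom.ofInjective (F.injective_of_mem hφ)).toEquiv]
  have hc' : ∀ i ≤ n, F.WeaklyClosed (c i) := by
    intro i hi
    rcases hi.lt_or_eq with h | h
    · exact hc i h
    · rw [h, hn]; exact hQw
  refine isNormal_of_forall_exists hS hF hQ (fun R hRa hRr hQR => ?_)
  have hRS : R ≤ S := hRa.1
  have hfR : Finite R := Finite.of_injective _ (Subgroup.inclusion_injective hRS)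
  -- the first term of the series that is not in `R`
  obtain ⟨m, hmn, hmR, hm1⟩ : ∃ m < n, (∀ i ≤ m, c i ≤ R) ∧ ¬ c (m + 1) ≤ R := by
    classical
    have hex : ∃ i, i ≤ n ∧ ¬ c i ≤ R := ⟨n, le_rfl, by rw [hn]; exact hQR⟩
    have hspec := Nat.find_spec hex
    have hpos : Nat.find hex ≠ 0 := by
      intro h
      rw [h] at hspec
      exact hspec.2 (by rw [h0]; exact bot_le)
    obtain ⟨m, hm⟩ := Nat.exists_eq_succ_of_ne_zero hpos
    rw [hm] at hspec
    refine ⟨m, by have := hspec.1; omega, fun i hi => ?_, hspec.2⟩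
    by_contra h
    have h1 : i < Nat.find hex := by omega
    exact Nat.find_min hex h1 ⟨by have := hspec.1; omega, h⟩
  refine ⟨c (m + 1) ⊓ Subgroup.normalizer (R : Set Ω), inf_le_left.trans (hcQ _ hmn), ?_, inf_le_right, ?_⟩
  · intro hle
    obtain ⟨g, hg, hgR, hgn⟩ := exists_mem_normalizer hS ((hcQ _ hmn).trans hQ.1) hRS
      (hRS.trans (WeaklyClosed.le_normalizer (hc' _ hmn))) hm1
    exact hgR (hle ⟨hg, hgn⟩)
  intro α hα g hg
  let K : Subgroup (MulAut R) :=
    { carrier := {κ | κ ∈ F.autGroup R ∧ (∀ x : R, (x : Ω)⁻¹ * (κ x : R) ∈ Q) ∧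
        (∀ x : R, (x : Ω) ∈ Q → (x : Ω)⁻¹ * (κ x : R) ∈ c m) ∧
        ∀ i < m, ∀ x : R, (x : Ω) ∈ c (i + 1) → (x : Ω)⁻¹ * (κ x : R) ∈ c i}
      one_mem' := ⟨one_mem _, fun x => by simp, fun x _ => by simp, fun i _ x _ => by simp⟩
      mul_mem' := by
        rintro a b ⟨ha, ha', ha'', ha'''⟩ ⟨hb, hb', hb'', hb'''⟩
        have h1 : ∀ x : R, (x : Ω)⁻¹ * (a (b x) : R) = ((x : Ω)⁻¹ * (b x : R)) *
          (((b x : R) : Ω)⁻¹ * (a (b x) : R)) := fun x => by group
        refine ⟨mul_mem ha hb, fun x => ?_, fun x hx => ?_, fun i hi x hx => ?_⟩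
        · rw [MulAut.mul_apply, h1]
          exact mul_mem (hb' x) (ha' _)
        · rw [MulAut.mul_apply, h1]
          refine mul_mem (hb'' x hx) (ha'' _ ?_)
          exact StronglyClosed.apply_mem hQ ((mem_autGroup F hRS).1 hb) hx
        · rw [MulAut.mul_apply, h1]
          refine mul_mem (hb''' i hi x hx) (ha''' i hi _ ?_)
          exact WeaklyClosed.apply_mem (hc' (i + 1) (by omega)) (hmR _ hi) ((mem_autGroup F hRS).1 hb) hx
      inv_mem' := by
        rintro a ⟨ha, ha', ha'', ha'''⟩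
        refine ⟨inv_mem ha, fun x => ?_, fun x hx => ?_, fun i hi x hx => ?_⟩
        · have h1 := ha' (a⁻¹ x)
          rw [MulAut.apply_inv_self] at h1
          have h2 := inv_mem h1
          simpa using h2
        · have hx' : ((a⁻¹ x : R) : Ω) ∈ Q :=
            StronglyClosed.apply_mem hQ ((mem_autGroup F hRS).1 (inv_mem ha)) hx
          have h1 := ha'' (a⁻¹ x) hx'
          rw [MulAut.apply_inv_self] at h1
          have h2 := inv_mem h1
          simpa using h2
        · have hx' : ((a⁻¹ x : R) : Ω) ∈ c (i + 1) :=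
            WeaklyClosed.apply_mem (hc' (i + 1) (by omega)) (hmR _ hi) ((mem_autGroup F hRS).1 (inv_mem ha)) hx
          have h1 := ha''' i hi (a⁻¹ x) hx'
          rw [MulAut.apply_inv_self] at h1
          have h2 := inv_mem h1
          simpa using h2 }
  have hKA : K ≤ F.autGroup R := fun k hk => hk.1
  have hKn : ∀ a ∈ F.autGroup R, ∀ k ∈ K, a * k * a⁻¹ ∈ K := by
    rintro a ha k ⟨hk, hk', hk'', hk'''⟩
    have ham := (mem_autGroup F hRS).1 ha
    have ham' := (mem_autGroup F hRS).1 (inv_mem ha)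
    refine ⟨mul_mem (mul_mem ha hk) (inv_mem ha), fun x => ?_, fun x hx => ?_, fun i hi x hx => ?_⟩
    · have h1 := hk' (a⁻¹ x)
      have h2 : ((a ((a⁻¹ x)⁻¹ * k (a⁻¹ x)) : R) : Ω) ∈ Q :=
        StronglyClosed.apply_mem hQ ham (x := (a⁻¹ x)⁻¹ * k (a⁻¹ x)) h1
      rw [map_mul, map_inv, MulAut.apply_inv_self] at h2
      exact h2
    · have hx' : ((a⁻¹ x : R) : Ω) ∈ Q := StronglyClosed.apply_mem hQ ham' hx
      have h1 := hk'' (a⁻¹ x) hx'
      have h2 : ((a ((a⁻¹ x)⁻¹ * k (a⁻¹ x)) : R) : Ω) ∈ c m :=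
        WeaklyClosed.apply_mem (hc' m hmn.le) (hmR m le_rfl) ham (x := (a⁻¹ x)⁻¹ * k (a⁻¹ x)) h1
      rw [map_mul, map_inv, MulAut.apply_inv_self] at h2
      exact h2
    · have hx' : ((a⁻¹ x : R) : Ω) ∈ c (i + 1) :=
        WeaklyClosed.apply_mem (hc' (i + 1) (by omega)) (hmR _ hi) ham' hx
      have h1 := hk''' i hi (a⁻¹ x) hx'
      have h2 : ((a ((a⁻¹ x)⁻¹ * k (a⁻¹ x)) : R) : Ω) ∈ c i :=
        WeaklyClosed.apply_mem (hc' i (by omega)) (hmR _ hi.le) ham (x := (a⁻¹ x)⁻¹ * k (a⁻¹ x)) h1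
      rw [map_mul, map_inv, MulAut.apply_inv_self] at h2
      exact h2
  have hKp : IsPGroup p K := by
    rintro ⟨κ, hκ, hκ', hκ'', hκ'''⟩
    -- the chain `R ≥ R ∩ Q ≥ c m ≥ ... ≥ c 0 = 1`
    let d : ℕ → Subgroup R := fun i =>
      if i = 0 then ⊤ else if i = 1 then Q.subgroupOf R else (c (m + 2 - i)).subgroupOf R
    have d0 : d 0 = ⊤ := by simp [d]
    have d1 : d 1 = Q.subgroupOf R := by simp [d]
    have d2 : ∀ i, 2 ≤ i → d i = (c (m + 2 - i)).subgroupOf R := by
      intro i hi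
      simp only [d]
      rw [if_neg (by omega), if_neg (by omega)]
    obtain ⟨k, hk⟩ := exists_pow_eq_one_of_chain (hS.to_le hRS) κ (m + 2) d d0
      (by rw [d2 _ (by omega), Nat.sub_self, h0, Subgroup.bot_subgroupOf])
      (by
        intro i hi x hx
        rcases Nat.eq_zero_or_pos i with h | h
        · rw [h, d0]; trivial
        rcases Nat.eq_or_lt_of_le (show 1 ≤ i from h) with h | h
        · rw [← h, d1] at hx ⊢
          exact StronglyClosed.apply_mem hQ ((mem_autGroup F hRS).1 hκ) hx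
        · rw [d2 i h] at hx ⊢
          exact WeaklyClosed.apply_mem (hc' _ (by omega)) (hmR _ (by omega)) ((mem_autGroup F hRS).1 hκ) hx)
      (by
        intro i hi x hx
        rcases Nat.eq_zero_or_pos i with h | h
        · subst h
          rw [zero_add, d1]
          exact hκ' x
        rcases Nat.eq_or_lt_of_le (show 1 ≤ i from h) with h | h
        · subst h
          rw [d1] at hx
          rw [d2 _ (by omega)]
          exact hκ'' x hx
        · rw [d2 i h] at hx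
          rw [d2 _ (by omega)]
          have h1 : m + 2 - i = (m + 2 - (i + 1)) + 1 := by omega
          rw [h1] at hx
          exact hκ''' _ (by omega) x hx)
    exact ⟨k, Subtype.ext hk⟩
  have hKS := le_autInducedBy_of_normal hRa K hKA hKn hKp
  apply hKS
  apply hKn α hα
  have hgQ : g ∈ Q := hcQ _ hmn hg.1
  refine ⟨autGroup_map F (conj_mem' F hRS (hQ.1 hgQ) (fun x => rfl)), fun x => ?_, fun x hx => ?_,
    fun i hi x hx => ?_⟩
  · rw [coe_conjAut]
    have h1 : (x : Ω)⁻¹ * (g * x * g⁻¹) = ((x : Ω)⁻¹ * g * x) * g⁻¹ := by group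
    rw [h1]
    exact mul_mem (StronglyClosed.conj_mem' hQ (hRS x.2) hgQ) (inv_mem hgQ)
  · rw [coe_conjAut]
    have h1 : ⁅(x : Ω)⁻¹, g⁆ ∈ ⁅Q, c (m + 1)⁆ := Subgroup.commutator_mem_commutator (inv_mem hx) hg.1
    have h2 := hcomm m hmn h1
    have h3 : (x : Ω)⁻¹ * (g * x * g⁻¹) = ⁅(x : Ω)⁻¹, g⁆ := by
      rw [commutatorElement_def]; group
    rw [h3]
    exact h2
  · rw [coe_conjAut]
    have h1 : ⁅g, (x : Ω)⁻¹⁆ ∈ ⁅Q, c (i + 1)⁆ := Subgroup.commutator_mem_commutator hgQ (inv_mem hx)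
    have h2 := hcomm i (by omega) h1
    have h3 : (x : Ω)⁻¹ * (g * x * g⁻¹) = (⁅g, (x : Ω)⁻¹⁆)⁻¹ := by
      rw [commutatorElement_def]; group
    rw [h3]
    exact inv_mem h2

/-- The terms of the lower central series of a subgroup normal in the system are strongly closed. -/
theorem stronglyClosed_lowerCentralSeries {Q : Subgroup Ω} (hQ : F.IsNormal Q) (k : ℕ) :
    F.StronglyClosed (Q.lowerCentralSeries k) := by
  have hle : Q.lowerCentralSeries k ≤ Q := Subgroup.lowerCentralSeries_antitone Q (Nat.zero_le k)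
  refine ⟨hle.trans hQ.1, fun R hR φ hφ x => ?_⟩
  obtain ⟨ψ, hψ, h1, h2⟩ := hQ.2 R φ hφ
  rw [← h1 x]
  have h3 : (Q.lowerCentralSeries k).subgroupOf (R ⊔ Q) =
      (Q.subgroupOf (R ⊔ Q)).lowerCentralSeries k := by
    rw [← Subgroup.map_subtype_inj, Subgroup.map_lowerCentralSeries, Subgroup.subgroupOf_map_subtype,
      Subgroup.subgroupOf_map_subtype, inf_eq_left.2 (hle.trans le_sup_right), inf_eq_left.2 le_sup_right]
  have h4 : ((Q.lowerCentralSeries k).subgroupOf (R ⊔ Q)).map ψ = Q.lowerCentralSeries k := by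
    rw [h3, Subgroup.map_lowerCentralSeries, h2]
  rw [← h4]
  exact ⟨_, hR x.2, rfl⟩

/-- A normal subgroup of the system has a central series of strongly closed subgroups. -/
theorem IsNormal.exists_series [Finite S] {p : ℕ} [Fact p.Prime] (hS : IsPGroup p S) {Q : Subgroup Ω}
    (hQ : F.IsNormal Q) :
    ∃ (n : ℕ) (C : Fin (n + 1) → Subgroup Ω), C 0 = ⊥ ∧ C (Fin.last n) = Q ∧ Monotone C ∧
      (∀ i : Fin n, ⁅C i.succ, Q⁆ ≤ C i.castSucc) ∧ ∀ i, F.StronglyClosed (C i) := by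
  have hfQ : Finite Q := Finite.of_injective _ (Subgroup.inclusion_injective hQ.1)
  have hQp : IsPGroup p Q := hS.to_le hQ.1
  have hnil : Group.IsNilpotent Q := hQp.isNilpotent
  obtain ⟨n, hn⟩ := (Subgroup.isNilpotent_iff_lowerCentralSeries Q).1 hnil
  refine ⟨n, fun i => Q.lowerCentralSeries (n - i), ?_, ?_, ?_, ?_, ?_⟩
  · simpa using hn
  · simp
  · intro i j hij
    exact Subgroup.lowerCentralSeries_antitone Q (Nat.sub_le_sub_left hij n)
  · intro i
    have h1 : n - (i.castSucc : ℕ) = (n - (i.succ : ℕ)) + 1 := by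
      have := i.2
      simp only [Fin.val_castSucc, Fin.val_succ]
      omega
    show ⁅Q.lowerCentralSeries (n - (i.succ : ℕ)), Q⁆ ≤ Q.lowerCentralSeries (n - (i.castSucc : ℕ))
    rw [h1, Subgroup.lowerCentralSeries_succ]
  · intro i
    exact stronglyClosed_lowerCentralSeries hQ _

/-- A strongly closed subgroup is weakly closed. -/
theorem StronglyClosed.weaklyClosed [Finite S] {Q : Subgroup Ω} (hQ : F.StronglyClosed Q) :
    F.WeaklyClosed Q := by
  have hfQ : Finite Q := Finite.of_injective _ (Subgroup.inclusion_injective hQ.1)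
  refine ⟨hQ.1, fun φ hφ => ?_⟩
  apply Subgroup.eq_of_le_of_card_ge
  · rintro _ ⟨x, rfl⟩
    exact hQ.2 Q le_rfl φ hφ x
  · rw [← Nat.card_congr (MonoidHom.ofInjective (F.injective_of_mem hφ)).toEquiv]

end Cfsg.Agent.H776
end

-- part: S5226
section
set_option autoImplicit false
open Cfsg

namespace Cfsg.Agent.S5226

/-- Let F be a saturated fusion system over a finite p-group S and Q a subgroup of S. Then Q is normal in F (F equals the normalizer system of Q) if and only if Q is strongly closed in F and admits a central series 1 = Q₀ ≤ Q₁ ≤ ⋯ ≤ Qₙ = Q ([Qᵢ₊₁, Q] ≤ Qᵢ) all of whose proper terms are weakly closed in F. -/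
theorem result {Ω : Type*} [Group Ω] {S : Subgroup Ω} [Finite S] (p : ℕ) [Fact p.Prime] (hS : IsPGroup p S) (F : Cfsg.FusionSystem S) (hF : F.IsSaturated p) (Q : Subgroup Ω) : F.IsNormal Q ↔ F.StronglyClosed Q ∧ ∃ (n : ℕ) (C : Fin (n + 1) → Subgroup Ω), C 0 = ⊥ ∧ C (Fin.last n) = Q ∧ Monotone C ∧ (∀ i : Fin n, ⁅C i.succ, Q⁆ ≤ C i.castSucc) ∧ ∀ i : Fin n, F.WeaklyClosed (C i.castSucc) := by
  constructor
  · intro hQ
    obtain ⟨n, C, h0, hn, hm, hc, hs⟩ := Cfsg.Agent.H776.IsNormal.exists_series hS hQ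
    exact ⟨Cfsg.Agent.H759.IsNormal.stronglyClosed hQ, n, C, h0, hn, hm, hc,
      fun i => Cfsg.Agent.H776.StronglyClosed.weaklyClosed (hs _)⟩
  · rintro ⟨hQ, n, C, h0, hn, hm, hc, hw⟩
    refine Cfsg.Agent.H776.isNormal_of_weak_chain hS hF hQ n
      (fun i => if h : i < n + 1 then C ⟨i, h⟩ else Q) ?_ ?_ ?_ ?_ ?_
    · simpa using h0
    · simpa [Fin.last] using hn
    · intro i hi
      have h : i < n + 1 := by omega
      simp only [h, dif_pos]
      rw [← hn]
      exact hm (Fin.le_last _)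
    · intro i hi
      have h : i < n + 1 := by omega
      simp only [h, dif_pos]
      exact hw ⟨i, hi⟩
    · intro i hi
      have h : i < n + 1 := by omega
      have h' : i + 1 < n + 1 := by omega
      simp only [h, h', dif_pos]
      rw [Subgroup.commutator_comm]
      exact hc ⟨i, hi⟩

end Cfsg.Agent.S5226
end
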