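import Cfsg.Agent.H745.FusNormalCrit
import Cfsg.Agent.H802.FusNorm
import Cfsg.Agent.H745.MetaTwo
import Cfsg.Agent.OddUThree.Count
import Cfsg.Statements.S5235
set_option linter.all false

-- part: H745/Resist
section
/-!
# Normality of strongly closed subgroups through automorphisms of order prime to `p` (helper745)

* `isNormal_of_coprime`: a strongly closed `Q` is normal if for every fully automized and receptive `R` not containing
  `Q`, every `κ ∈ Aut_F(R)` of order prime to `p` with `x⁻¹ κ(x) ∈ Q` for all `x ∈ R` is trivial on `R ∩ Q`.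
* `isReceptive_of_stronglyClosed`: strongly closed subgroups are fully automized and receptive.
-/

set_option autoImplicit false

namespace Cfsg.Agent.H745

open Cfsg Cfsg.FusionSystem Cfsg.Agent.H759

variable {Ω : Type*} [Group Ω] {S : Subgroup Ω} {F : FusionSystem S}

/-- Strongly closed subgroups are fully automized and receptive. -/
theorem isReceptive_of_stronglyClosed [Finite S] {p : ℕ} (hF : F.IsSaturated p) {E : Subgroup Ω}
    (hE : F.StronglyClosed E) : F.IsFullyAutomized p E ∧ F.IsReceptive E := by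
  obtain ⟨Q, ⟨φ, hφ, hr⟩, hQa, hQr⟩ := hF E hE.1
  have hfE : Finite E := Finite.of_injective _ (Subgroup.inclusion_injective hE.1)
  have h1 : φ.range = E := H802.range_eq_of_mapsTo hφ (fun x => hE.2 E le_rfl φ hφ x)
  rw [h1] at hr
  subst hr
  exact ⟨hQa, hQr⟩

/-- **Normality criterion** through automorphisms of order prime to `p`. -/
theorem isNormal_of_coprime [Finite S] {p : ℕ} [Fact p.Prime] (hS : IsPGroup p S)
    (hF : F.IsSaturated p) {Q : Subgroup Ω} (hQ : F.StronglyClosed Q)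
    (hc : ∀ R : Subgroup Ω, F.IsFullyAutomized p R → F.IsReceptive R → ¬ Q ≤ R →
      ∀ κ ∈ F.autGroup R, (∀ x : R, (x : Ω)⁻¹ * (κ x : R) ∈ Q) →
        ∀ m : ℕ, ¬ p ∣ m → κ ^ m = 1 → ∀ x : R, (x : Ω) ∈ Q → κ x = x) :
    F.IsNormal Q := by
  refine isNormal_of_forall hS hF hQ (fun R hRa hRr hQR α hα g hg hgn => ?_)
  have hRS : R ≤ S := hRa.1
  have hfR : Finite R := Finite.of_injective _ (Subgroup.inclusion_injective hRS)
  let K : Subgroup (MulAut R) :=
    { carrier := {κ | κ ∈ F.autGroup R ∧ (∀ x : R, (x : Ω)⁻¹ * (κ x : R) ∈ Q)}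
      one_mem' := ⟨one_mem _, fun x => by simp⟩
      mul_mem' := by
        rintro a b ⟨ha, ha'⟩ ⟨hb, hb'⟩
        have h1 : ∀ x : R, (x : Ω)⁻¹ * (a (b x) : R) = ((x : Ω)⁻¹ * (b x : R)) *
          (((b x : R) : Ω)⁻¹ * (a (b x) : R)) := fun x => by group
        refine ⟨mul_mem ha hb, fun x => ?_⟩
        rw [MulAut.mul_apply, h1]
        exact mul_mem (hb' x) (ha' _)
      inv_mem' := by
        rintro a ⟨ha, ha'⟩
        refine ⟨inv_mem ha, fun x => ?_⟩
        have h1 := ha' (a⁻¹ x)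
        rw [MulAut.apply_inv_self] at h1
        have h2 := inv_mem h1
        simpa using h2 }
  have hKA : K ≤ F.autGroup R := fun k hk => hk.1
  have hKn : ∀ a ∈ F.autGroup R, ∀ k ∈ K, a * k * a⁻¹ ∈ K := by
    rintro a ha k ⟨hk, hk'⟩
    have ham := (mem_autGroup F hRS).1 ha
    refine ⟨mul_mem (mul_mem ha hk) (inv_mem ha), fun x => ?_⟩
    have h1 := hk' (a⁻¹ x)
    have h2 : ((a ((a⁻¹ x)⁻¹ * k (a⁻¹ x)) : R) : Ω) ∈ Q :=
      StronglyClosed.apply_mem hQ ham (x := (a⁻¹ x)⁻¹ * k (a⁻¹ x)) h1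
    rw [map_mul, map_inv, MulAut.apply_inv_self] at h2
    exact h2
  have hKp : IsPGroup p K := by
    rintro ⟨κ, hκ⟩
    have hfin : Finite (MulAut R) := inferInstance
    have hpos : 0 < orderOf κ := orderOf_pos κ
    obtain ⟨a, m, hm, hom⟩ := Nat.exists_eq_pow_mul_and_not_dvd hpos.ne' p
      (Fact.out : p.Prime).ne_one
    refine ⟨a, Subtype.ext ?_⟩
    show κ ^ p ^ a = 1
    have hκ' : κ ^ p ^ a ∈ K := K.pow_mem hκ _
    have hord : (κ ^ p ^ a) ^ m = 1 := by rw [← pow_mul, ← hom, pow_orderOf_eq_one]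
    have htriv := hc R hRa hRr hQR (κ ^ p ^ a) hκ'.1 hκ'.2 m hm hord
    set l := κ ^ p ^ a with hl
    apply MulEquiv.ext
    intro x
    set y : R := x⁻¹ * l x with hy
    have hyQ : (y : Ω) ∈ Q := hκ'.2 x
    have hly : l y = y := htriv y hyQ
    have hlx : l x = x * y := by rw [hy]; group
    have hlj : ∀ j : ℕ, (l ^ j) x = x * y ^ j := by
      intro j
      induction j with
      | zero => simp
      | succ j ihj =>
        rw [pow_succ', MulAut.mul_apply, ihj, map_mul, hlx, map_pow, hly, mul_assoc, pow_succ']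
    have h1 : y ^ m = 1 := by
      have h2 := hlj m
      rw [hord, MulAut.one_apply] at h2
      exact mul_eq_left.1 h2.symm
    have hy1 : y = 1 := by
      obtain ⟨i, hi⟩ := (IsPGroup.iff_orderOf.1 (hS.to_le hRS)) y
      have h3 : orderOf y ∣ m := orderOf_dvd_of_pow_eq_one h1
      have h4 : Nat.Coprime (orderOf y) m := by
        rw [hi]
        exact Nat.Coprime.pow_left _ (((Fact.out : p.Prime).coprime_iff_not_dvd).2 hm)
      exact orderOf_eq_one_iff.1 (Nat.eq_one_of_dvd_coprimes h4 dvd_rfl h3)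
    rw [hlx, hy1, mul_one]
    rfl
  have hKS := le_autInducedBy_of_normal hRa K hKA hKn hKp
  apply hKS
  apply hKn α hα
  refine ⟨autGroup_map F (conj_mem' F hRS (hQ.1 hg) (fun x => rfl)), fun x => ?_⟩
  rw [coe_conjAut]
  have h1 : (x : Ω)⁻¹ * (g * x * g⁻¹) = ((x : Ω)⁻¹ * g * x) * g⁻¹ := by group
  rw [h1]
  exact mul_mem (StronglyClosed.conj_mem' hQ (hRS x.2) hg) (inv_mem hg)

end Cfsg.Agent.H745
end

-- part: H745/MetaTwoAut
section
/-!
# Metacyclic 2-groups with automorphisms of odd order (helper745)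
-/

set_option autoImplicit false

namespace Cfsg.Agent.H745.MetaTwo

open Cfsg

variable {T : Type*} [Group T] [Finite T]

omit [Finite T] in
theorem pow_inv {κ : MulAut T} {W : Subgroup T} (hW : ∀ x ∈ W, κ x ∈ W) (j : ℕ) :
    ∀ x ∈ W, (κ ^ j) x ∈ W := by
  induction j with
  | zero => intro x hx; simpa using hx
  | succ j ih =>
    intro x hx
    rw [pow_succ, MulAut.mul_apply]
    exact ih _ (hW x hx)

omit [Finite T] in
/-- An automorphism of finite order acts trivially on the cosets of an invariant subgroup `W` in an invariant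
subgroup `U` if `U` is covered by two cosets of `W`. -/
theorem stab_of_two {κ : MulAut T} {m : ℕ} (hm : m ≠ 0) (hκ : κ ^ m = 1) {W U : Subgroup T}
    (hW : ∀ x ∈ W, κ x ∈ W) (hU : ∀ x ∈ U, κ x ∈ U) (t : T)
    (h : ∀ y ∈ U, y ∈ W ∨ t⁻¹ * y ∈ W) : ∀ y ∈ U, y⁻¹ * κ y ∈ W := by
  intro y hy
  by_cases hyW : y ∈ W
  · exact W.mul_mem (W.inv_mem hyW) (hW y hyW)
  · have h1 : κ y ∉ W := by
      intro hk
      apply hyW
      have h2 := pow_inv hW (m - 1) _ hk
      rw [← MulAut.mul_apply, ← pow_succ, Nat.sub_add_cancel (Nat.one_le_iff_ne_zero.2 hm), hκ] at h2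
      exact h2
    have h2 := (h y hy).resolve_left hyW
    have h3 := (h _ (hU y hy)).resolve_left h1
    have h4 : y⁻¹ * κ y = (t⁻¹ * y)⁻¹ * (t⁻¹ * κ y) := by group
    rw [h4]
    exact W.mul_mem (W.inv_mem h2) h3

/-- Step 1: if `κ` is a nontrivial automorphism of odd order then `T = N (κ N)`. -/
theorem sup_map_eq_top (h2 : IsPGroup 2 T) (N : Subgroup T) [hN : N.Normal] [IsCyclic N]
    [IsCyclic (T ⧸ N)] (κ : MulAut T) {m : ℕ} (hm : ¬ 2 ∣ m) (hκ : κ ^ m = 1) (hκ1 : κ ≠ 1) :
    N ⊔ N.map κ.toMonoidHom = ⊤ := by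
  have hm0 : m ≠ 0 := fun h => hm (h ▸ dvd_zero 2)
  by_contra hcon
  have hcon' : (N ⊔ N.map κ.toMonoidHom) ⊔ frattini T ≠ ⊤ := fun h => hcon (frattini_nongenerating h)
  set K := (N ⊔ N.map κ.toMonoidHom) ⊔ frattini T with hK
  have hsq : ∀ x : T, x * x ∈ frattini T := by
    intro x
    have h1 := H940.frattini_quot_pow (p := 2) h2 (x : T ⧸ frattini T)
    rw [← QuotientGroup.mk_pow, QuotientGroup.eq_one_iff, pow_two] at h1
    exact h1
  have hΦκ : ∀ x ∈ frattini T, κ x ∈ frattini T := by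
    intro x hx
    have h1 : (frattini T).map κ.toMonoidHom = frattini T :=
      (Subgroup.characteristic_iff_map_eq.1 frattini_characteristic) κ
    rw [← h1]
    exact ⟨x, hx, rfl⟩
  obtain ⟨t, ht⟩ := exists_gen N
  have hNK : N ≤ K := le_sup_left.trans le_sup_left
  have htK : t ∉ K := by
    intro h
    apply hcon'
    rw [eq_top_iff]
    intro g _
    obtain ⟨k, hk⟩ := ht g
    have h1 := K.mul_mem (K.pow_mem h k) (hNK hk)
    rwa [mul_inv_cancel_left] at h1
  have hcase : ∀ g : T, g ∈ N ⊔ frattini T ∨ t⁻¹ * g ∈ N ⊔ frattini T := by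
    intro g
    obtain ⟨k, hk⟩ := ht g
    have hv : (t ^ k)⁻¹ * g ∈ N ⊔ frattini T := (le_sup_left : N ≤ N ⊔ frattini T) hk
    rcases Nat.even_or_odd k with ⟨b, hb⟩ | ⟨b, hb⟩
    · left
      have h1 : t ^ k ∈ N ⊔ frattini T := by
        rw [hb, pow_add]
        exact (le_sup_right : frattini T ≤ N ⊔ frattini T) (hsq _)
      have h3 := Subgroup.mul_mem _ h1 hv
      rwa [mul_inv_cancel_left] at h3
    · right
      have h1 : t⁻¹ * t ^ k ∈ N ⊔ frattini T := by
        rw [hb, pow_succ', inv_mul_cancel_left, two_mul, pow_add]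
        exact (le_sup_right : frattini T ≤ N ⊔ frattini T) (hsq _)
      have h3 := Subgroup.mul_mem _ h1 hv
      rwa [mul_assoc, mul_inv_cancel_left] at h3
  have hMK : N ⊔ frattini T ≤ K := sup_le hNK le_sup_right
  have hKM : ∀ g ∈ K, g ∈ N ⊔ frattini T := by
    intro g hg
    rcases hcase g with h | h
    · exact h
    · exfalso
      apply htK
      have h1 := K.mul_mem hg (K.inv_mem (hMK h))
      have h3 : g * (t⁻¹ * g)⁻¹ = t := by group
      rwa [h3] at h1
  have hM : ∀ x ∈ N ⊔ frattini T, κ x ∈ N ⊔ frattini T := by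
    intro x hx
    apply hKM
    have h1 : (N ⊔ frattini T).map κ.toMonoidHom ≤ K := by
      rw [Subgroup.map_sup]
      refine sup_le (le_sup_right.trans le_sup_left) ?_
      rintro _ ⟨y, hy, rfl⟩
      exact (le_sup_right : frattini T ≤ K) (hΦκ y hy)
    exact h1 ⟨x, hx, rfl⟩
  have hst1 := stab_of_two hm0 hκ (W := N ⊔ frattini T) (U := ⊤) hM (fun _ _ => Subgroup.mem_top _) t
    (fun y _ => hcase y)
  obtain ⟨⟨x, hx⟩, hgen⟩ := IsCyclic.exists_generator (α := N)
  have hst2 := stab_of_two hm0 hκ (W := frattini T) (U := N ⊔ frattini T) hΦκ hM x (by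
    intro y hy
    obtain ⟨v, hv, φ, hφ, rfl⟩ := Subgroup.mem_sup_of_normal_right.1 hy
    obtain ⟨i, hi⟩ := (mem_powers_iff_mem_zpowers).2 (hgen ⟨v, hv⟩)
    have hi' : x ^ i = v := congrArg Subtype.val hi
    rcases Nat.even_or_odd i with ⟨b, hb⟩ | ⟨b, hb⟩
    · left
      refine Subgroup.mul_mem _ ?_ hφ
      rw [← hi', hb, pow_add]
      exact hsq _
    · right
      rw [← mul_assoc]
      refine Subgroup.mul_mem _ ?_ hφ
      rw [← hi', hb, pow_succ', inv_mul_cancel_left, two_mul, pow_add]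
      exact hsq _)
  have hκ2 : ∀ y : T, y⁻¹ * (κ ^ 2) y ∈ frattini T := by
    intro y
    set μ := y⁻¹ * κ y with hμ
    have h1 := hst1 y (Subgroup.mem_top y)
    have h3 : y⁻¹ * (κ ^ 2) y = (μ * μ) * (μ⁻¹ * κ μ) := by
      rw [pow_two, MulAut.mul_apply, hμ, map_mul, map_inv]; group
    rw [h3]
    exact Subgroup.mul_mem _ (hsq _) (hst2 μ h1)
  apply hκ1
  apply eq_one_of_sq hm hκ
  refine burnside h2 (κ ^ 2) hm (by rw [← pow_mul, mul_comm, pow_mul, hκ, one_pow]) (fun y => ?_)
  have h1 : (frattini T).Normal := inferInstance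
  have h3 := h1.conj_mem _ (hκ2 y) y
  rwa [mul_inv_cancel_left] at h3

omit [Finite T] in
/-- The first element outside of a proper subgroup of a cyclic 2-group. -/
theorem exists_next {x : T} {n : ℕ} (hx : orderOf x = 2 ^ n) {D : Subgroup T}
    (hD : D ≤ Subgroup.zpowers x) (hxD : x ∉ D) :
    ∃ u ∈ Subgroup.zpowers x, u ∉ D ∧ u * u ∈ D ∧ D ≤ Subgroup.zpowers (u * u) := by
  classical
  have hex : ∃ f : ℕ, x ^ 2 ^ f ∈ D := ⟨n, by rw [← hx, pow_orderOf_eq_one]; exact D.one_mem⟩
  have hspec := Nat.find_spec hex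
  set f := Nat.find hex with hf
  have hf0 : f ≠ 0 := by
    intro h
    rw [h] at hspec
    simp at hspec
    exact hxD hspec
  obtain ⟨g, hg⟩ : ∃ g, f = g + 1 := ⟨f - 1, by omega⟩
  have huu : x ^ 2 ^ g * x ^ 2 ^ g = x ^ 2 ^ f := by
    rw [← pow_add, hg, pow_succ, mul_two]
  refine ⟨x ^ 2 ^ g, ⟨((2 ^ g : ℕ) : ℤ), by simp [← zpow_natCast]⟩,
    Nat.find_min hex (by omega), by rw [huu]; exact hspec, ?_⟩
  rw [huu]
  intro d hd
  have hpos : 0 < orderOf x := by rw [hx]; positivity
  have hfin : IsOfFinOrder x := orderOf_pos_iff.1 hpos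
  obtain ⟨i, hi⟩ := (hfin.mem_powers_iff_mem_zpowers).2 (hD hd)
  simp only at hi
  rcases Nat.eq_zero_or_pos i with h0 | hipos
  · rw [← hi, h0, pow_zero]; exact Subgroup.one_mem _
  · obtain ⟨j, o, ho, hio⟩ := Nat.exists_eq_two_pow_mul_odd (n := i) (by omega)
    have hcop : o.Coprime (orderOf (x ^ 2 ^ j)) := by
      have h1 : orderOf (x ^ 2 ^ j) ∣ 2 ^ n := by
        rw [← hx]; exact orderOf_pow_dvd _
      refine Nat.Coprime.coprime_dvd_right h1 (Nat.Coprime.pow_right _ ?_)
      exact (Nat.coprime_two_right).2 ho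
    obtain ⟨r, hr⟩ := exists_pow_eq_self_of_coprime hcop
    rw [← pow_mul x, ← hio, hi] at hr
    have hjD : x ^ 2 ^ j ∈ D := by rw [← hr]; exact D.pow_mem hd r
    have hfj : f ≤ j := Nat.find_min' hex hjD
    obtain ⟨l, hl⟩ := pow_dvd_pow 2 hfj
    rw [← hi, hio, hl, mul_assoc, pow_mul]
    exact Subgroup.pow_mem _ (Subgroup.mem_zpowers _) _

omit [Finite T] in
/-- In a cyclic subgroup `N` with a subgroup `D`, `u ∈ N` outside `D` with `u² ∈ D`: the elements of `N` with square
in `D` are in `D ∪ u D`. -/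
theorem mem_or_of_sq' [Finite T] (N D : Subgroup T) [IsCyclic N] {a u : T} (ha : a ∈ N) (hu : u ∈ N)
    (haD : a * a ∈ D) (huD : u * u ∈ D) (hu1 : u ∉ D) : a ∈ D ∨ u⁻¹ * a ∈ D := by
  have hcomm : ∀ x y : N, x * y = y * x := fun x y => by
    let _ : CommGroup N := IsCyclic.commGroup
    exact mul_comm x y
  have hn : (D.subgroupOf N).Normal := ⟨fun n hn g => by rw [hcomm g n]; simpa using hn⟩
  have hc : IsCyclic (N ⧸ D.subgroupOf N) :=
    isCyclic_of_surjective (QuotientGroup.mk' (D.subgroupOf N)) (QuotientGroup.mk'_surjective _)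
  rcases mem_or_of_sq (D.subgroupOf N) (a := (⟨a, ha⟩ : N)) (b := ⟨u, hu⟩) haD huD hu1 with h | h
  · exact Or.inl h
  · exact Or.inr h

/-- A metacyclic 2-group `T` with a nontrivial automorphism `κ` of odd order is `N × κ N`, or contains a quaternion
group of order 8. -/
theorem structure_of_odd_aut (h2 : IsPGroup 2 T) (N : Subgroup T) [hN : N.Normal] [IsCyclic N]
    [IsCyclic (T ⧸ N)] (κ : MulAut T) {m : ℕ} (hm : ¬ 2 ∣ m) (hκ : κ ^ m = 1) (hκ1 : κ ≠ 1) :
    (N ⊔ N.map κ.toMonoidHom = ⊤ ∧ N ⊓ N.map κ.toMonoidHom = ⊥) ∨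
      ∃ u v : T, u * u = v * v ∧ u * u ≠ 1 ∧ (u * u) * (u * u) = 1 ∧ v * u * v⁻¹ = u⁻¹ := by
  have hm0 : m ≠ 0 := fun h => hm (h ▸ dvd_zero 2)
  have htop := sup_map_eq_top h2 N κ hm hκ hκ1
  set N' := N.map κ.toMonoidHom with hN'
  by_cases hbot : N ⊓ N' = ⊥
  · exact Or.inl ⟨htop, hbot⟩
  right
  have hN'n : N'.Normal := hN.map κ.toMonoidHom κ.surjective
  have hN'c : IsCyclic N' := isCyclic_of_surjective (κ.toMonoidHom.subgroupMap N)
    (κ.toMonoidHom.subgroupMap_surjective N)
  set D := N ⊓ N' with hD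
  have hcommN : ∀ x ∈ N, ∀ y ∈ N, x * y = y * x := fun x hx y hy => by
    let _ : CommGroup N := IsCyclic.commGroup
    exact congrArg Subtype.val (mul_comm (⟨x, hx⟩ : N) ⟨y, hy⟩)
  have hcommN' : ∀ x ∈ N', ∀ y ∈ N', x * y = y * x := fun x hx y hy => by
    let _ : CommGroup N' := IsCyclic.commGroup
    exact congrArg Subtype.val (mul_comm (⟨x, hx⟩ : N') ⟨y, hy⟩)
  -- every element is a product
  have hprod : ∀ g : T, ∃ a ∈ N, ∃ b ∈ N', a * b = g := by
    intro g
    have h1 : g ∈ N ⊔ N' := by rw [htop]; exact Subgroup.mem_top g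
    exact Subgroup.mem_sup_of_normal_right.1 h1
  -- `D` is central
  have hDc : ∀ d ∈ D, ∀ g : T, d * g = g * d := by
    intro d hd g
    obtain ⟨a, ha, b, hb, rfl⟩ := hprod g
    rw [← mul_assoc, hcommN d hd.1 a ha, mul_assoc, hcommN' d hd.2 b hb, mul_assoc]
  -- `D` is invariant
  have hcardN' : Nat.card N' = Nat.card N :=
    Nat.card_congr (N.equivMapOfInjective κ.toMonoidHom κ.injective).symm.toEquiv
  have hDκ : D.map κ.toMonoidHom = D := by
    refine OddUThree.Count.eq_of_card' N' (Subgroup.map_mono inf_le_left) inf_le_right ?_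
    exact Nat.card_congr (D.equivMapOfInjective κ.toMonoidHom κ.injective).symm.toEquiv
  have hDκ' : ∀ x ∈ D, κ x ∈ D := fun x hx => by rw [← hDκ]; exact ⟨x, hx, rfl⟩
  have hDκinv : ∀ x, κ x ∈ D → x ∈ D := by
    intro x hx
    rw [← hDκ] at hx
    obtain ⟨y, hy, hyx⟩ := hx
    rw [← κ.injective hyx]; exact hy
  have hDcyc : IsCyclic D := by
    have h1 : IsCyclic (D.subgroupOf N) := inferInstance
    exact isCyclic_of_surjective (Subgroup.subgroupOfEquivOfLe (inf_le_left : D ≤ N)).toMonoidHom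
      (Subgroup.subgroupOfEquivOfLe (inf_le_left : D ≤ N)).surjective
  have hfix := fix_of_cyclic h2 D κ hDκ' hm hκ
  -- a generator of `N`
  obtain ⟨⟨x, hx⟩, hgen⟩ := IsCyclic.exists_generator (α := N)
  have hNz : N = Subgroup.zpowers x := by
    apply le_antisymm
    · intro v hv
      obtain ⟨i, hi⟩ := hgen ⟨v, hv⟩
      exact ⟨i, congrArg Subtype.val hi⟩
    · rw [Subgroup.zpowers_le]; exact hx
  obtain ⟨n, hn⟩ := (IsPGroup.iff_orderOf.1 h2) x
  have hxD : x ∉ D := by
    intro h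
    have h1 : N ≤ N' := by
      rw [hNz, Subgroup.zpowers_le]; exact h.2
    have h3 : N = N' := Subgroup.eq_of_le_of_card_ge h1 hcardN'.le
    have h4 : N = ⊤ := by rw [← h3, sup_idem] at htop; exact htop
    have h5 := fix_of_cyclic h2 N κ (fun y _ => by rw [h4]; exact Subgroup.mem_top _) hm hκ
    apply hκ1
    ext y
    exact h5 y (by rw [h4]; exact Subgroup.mem_top _)
  obtain ⟨u, huN, huD, huu, hDu⟩ := exists_next hn (hNz ▸ (inf_le_left : D ≤ N)) hxD
  rw [← hNz] at huN
  set w := u * u with hw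
  have hwfix : κ w = w := hfix w huu
  set v := κ u with hv
  have hvN' : v ∈ N' := ⟨u, huN, rfl⟩
  have hvv : v * v = w := by rw [hv, ← map_mul, ← hw, hwfix]
  have hvD : v ∉ D := fun h => huD (hDκinv u h)
  have hw1 : w ≠ 1 := by
    intro h
    apply hbot
    rw [eq_bot_iff]
    rw [h, Subgroup.zpowers_one_eq_bot] at hDu
    exact hDu
  -- the commutator
  set c := v * u * v⁻¹ * u⁻¹ with hc
  have hcD : c ∈ D := by
    constructor
    · exact N.mul_mem (hN.conj_mem u huN v) (N.inv_mem huN)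
    · have h1 := N'.mul_mem hvN' (hN'n.conj_mem _ (N'.inv_mem hvN') u)
      have h3 : v * (u * v⁻¹ * u⁻¹) = c := by rw [hc]; group
      rwa [h3] at h1
  have hvu : v * u = c * (u * v) := by rw [hc]; group
  have hcc : c * c = 1 := by
    have h1 : (v * v) * u = c * c * (u * (v * v)) := by
      calc (v * v) * u = v * (v * u) := by group
        _ = v * (c * (u * v)) := by rw [hvu]
        _ = (v * c) * (u * v) := by group
        _ = (c * v) * (u * v) := by rw [← hDc c hcD v]
        _ = c * (v * u) * v := by group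
        _ = c * (c * (u * v)) * v := by rw [hvu]
        _ = c * c * (u * (v * v)) := by group
    rw [hvv, hDc w huu u] at h1
    have h3 : c * c = (u * w) * (u * w)⁻¹ := by
      rw [eq_mul_inv_iff_mul_eq]; exact h1.symm
    rw [h3, mul_inv_cancel]
  -- `κ² u`
  obtain ⟨a, ha, b, hb, hab⟩ := hprod (κ v)
  have hκvv : κ v * κ v = w := by rw [← map_mul, hvv, hwfix]
  have he : ∃ e ∈ D, b * a = a * b * e := by
    refine ⟨b⁻¹ * a⁻¹ * b * a, ⟨?_, ?_⟩, by group⟩
    · have h1 := N.mul_mem (hN.conj_mem _ (N.inv_mem ha) b⁻¹) ha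
      rwa [inv_inv] at h1
    · have h1 := N'.mul_mem (N'.inv_mem hb) (hN'n.conj_mem _ hb a⁻¹)
      have h3 : b⁻¹ * (a⁻¹ * b * a⁻¹⁻¹) = b⁻¹ * a⁻¹ * b * a := by group
      rwa [h3] at h1
  obtain ⟨e, heD, hbae⟩ := he
  have hsq : a * a * (b * b) * e = w := by
    rw [← hκvv, ← hab]
    calc a * a * (b * b) * e = a * a * b * (b * e) := by group
      _ = a * a * b * (e * b) := by rw [hDc e heD b]
      _ = a * (a * b * e) * b := by group
      _ = a * (b * a) * b := by rw [hbae]
      _ = a * b * (a * b) := by group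
  have haa : a * a ∈ D := by
    refine ⟨N.mul_mem ha ha, ?_⟩
    have h1 : a * a = w * e⁻¹ * (b * b)⁻¹ := by rw [← hsq]; group
    rw [h1]
    exact N'.mul_mem (N'.mul_mem huu.2 (N'.inv_mem heD.2)) (N'.inv_mem (N'.mul_mem hb hb))
  have hbb : b * b ∈ D := by
    have h1 : b * b = (a * a)⁻¹ * w * e⁻¹ := by rw [← hsq]; group
    rw [h1]
    exact D.mul_mem (D.mul_mem (D.inv_mem haa) huu) (D.inv_mem heD)
  have ha' := mem_or_of_sq' N D ha huN haa huu huD
  have hb' := mem_or_of_sq' N' D hb hvN' hbb (by rw [hvv]; exact huu) hvD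
  have hkey : ∃ t ∈ D, κ v = u * v * t := by
    rcases ha' with ha' | ha' <;> rcases hb' with hb' | hb'
    · exfalso
      apply hvD
      apply hDκinv
      rw [← hab]; exact D.mul_mem ha' hb'
    · exfalso
      -- `κ v ∈ v D`, so `v ∈ u D`
      have h1 : v⁻¹ * κ v ∈ D := by
        rw [← hab, ← mul_assoc, ← hDc a ha' v⁻¹, mul_assoc]
        exact D.mul_mem ha' hb'
      have h3 : κ (u⁻¹ * v) ∈ D := by rw [map_mul, map_inv]; exact h1
      have h4 := hDκinv _ h3
      have h5 : v ∈ N := by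
        have h6 := N.mul_mem huN h4.1
        rwa [mul_inv_cancel_left] at h6
      exact hvD ⟨h5, hvN'⟩
    · exfalso
      -- `κ² u ∈ u D`
      have h1 : u⁻¹ * κ v ∈ D := by
        rw [← hab, ← mul_assoc]
        exact D.mul_mem ha' hb'
      set d := u⁻¹ * κ v with hd
      have h3 : (κ ^ 2) u = u * d := by
        rw [pow_two, MulAut.mul_apply, ← hv, hd, mul_inv_cancel_left]
      have h4 : ∀ j : ℕ, ((κ ^ 2) ^ j) u = u * d ^ j := by
        intro j
        induction j with
        | zero => simp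
        | succ j ih =>
          have h5 : (κ ^ 2) d = d := by
            rw [pow_two, MulAut.mul_apply, hfix d h1, hfix d h1]
          rw [pow_succ', MulAut.mul_apply, ih, map_mul, map_pow, h5, h3, mul_assoc, ← pow_succ']
      have h5 : d ^ m = 1 := by
        have h6 := h4 m
        rw [← pow_mul, mul_comm, pow_mul, hκ, one_pow, MulAut.one_apply] at h6
        exact (mul_eq_left.1 h6.symm)
      have h6 : d = 1 := by
        obtain ⟨i, hi⟩ := (IsPGroup.iff_orderOf.1 h2) d
        have h7 : orderOf d ∣ m := orderOf_dvd_of_pow_eq_one h5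
        have h8 : Nat.Coprime (orderOf d) m := by
          rw [hi]
          exact Nat.Coprime.pow_left _ ((Nat.prime_two.coprime_iff_not_dvd).2 hm)
        exact orderOf_eq_one_iff.1 (Nat.eq_one_of_dvd_coprimes h8 dvd_rfl h7)
      have h7 : (κ ^ 2) u = u := by rw [h3, h6, mul_one]
      have h8 : κ u = u := by
        obtain ⟨l, hl⟩ : ∃ l, m = 2 * l + 1 := by
          have : Odd m := by rw [← Nat.not_even_iff_odd, even_iff_two_dvd]; exact hm
          exact this
        have h9 : ∀ j : ℕ, ((κ ^ 2) ^ j) u = u := by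
          intro j
          rw [h4, h6, one_pow, mul_one]
        have h10 := h9 (l + 1)
        rw [← pow_mul] at h10
        have h11 : 2 * (l + 1) = m + 1 := by omega
        rw [h11, pow_succ, hκ, one_mul] at h10
        exact h10
      apply hvD
      refine ⟨?_, hvN'⟩
      rw [hv, h8]; exact huN
    · refine ⟨(u⁻¹ * a) * (v⁻¹ * b), D.mul_mem ha' hb', ?_⟩
      rw [← hab]
      have h1 : u * v * ((u⁻¹ * a) * (v⁻¹ * b)) = u * (v * (u⁻¹ * a)) * (v⁻¹ * b) := by group
      rw [h1, ← hDc _ ha' v]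
      group
  obtain ⟨t, htD, hκv⟩ := hkey
  have hfin : c * w * (t * t) = 1 := by
    have h1 : u * v * t * (u * v * t) = c * w * w * (t * t) := by
      calc u * v * t * (u * v * t) = u * v * (t * (u * v)) * t := by group
        _ = u * v * ((u * v) * t) * t := by rw [hDc t htD]
        _ = u * (v * u) * v * (t * t) := by group
        _ = u * (c * (u * v)) * v * (t * t) := by rw [hvu]
        _ = (u * c) * u * (v * v) * (t * t) := by group
        _ = (c * u) * u * (v * v) * (t * t) := by rw [← hDc c hcD u]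
        _ = c * (u * u) * (v * v) * (t * t) := by group
        _ = c * w * w * (t * t) := by rw [hvv]
    rw [← hκv, hκvv] at h1
    have h3 : c * w * w * (t * t) = c * w * (t * t) * w := by
      rw [mul_assoc (c * w) w, hDc w huu (t * t), ← mul_assoc]
    rw [h3] at h1
    exact mul_eq_right.1 h1.symm
  -- `t` is a power of `w`
  obtain ⟨j, hj⟩ := hDu htD
  simp only at hj
  have hw2 : w * w = 1 := by
    have h1 : c = (w * (t * t))⁻¹ := by
      rw [eq_inv_iff_mul_eq_one, ← mul_assoc]; exact hfin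
    have h3 : w ^ (2 * (1 + 2 * j)) = 1 := by
      have h4 : w * (t * t) = w ^ (1 + 2 * j) := by
        rw [← hj, zpow_add, zpow_one, two_mul, zpow_add]
      rw [h1, h4, ← mul_inv_rev, inv_eq_one] at hcc
      rw [two_mul, zpow_add]; exact hcc
    have h4 : ((orderOf w : ℕ) : ℤ) ∣ 2 * (1 + 2 * j) := orderOf_dvd_iff_zpow_eq_one.2 h3
    obtain ⟨i, hi⟩ := (IsPGroup.iff_orderOf.1 h2) w
    rw [hi] at h4
    have h5 : IsCoprime (((2 ^ i : ℕ) : ℤ)) (1 + 2 * j) := by
      push_cast
      apply IsCoprime.pow_left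
      exact ⟨-j, 1, by ring⟩
    have h6 : (((2 ^ i : ℕ)) : ℤ) ∣ 2 := h5.dvd_of_dvd_mul_right h4
    rw [← hi] at h6
    have h7 : w ^ (2 : ℤ) = 1 := orderOf_dvd_iff_zpow_eq_one.1 h6
    rw [zpow_two] at h7
    exact h7
  have htt : t * t = 1 := by
    rw [← hj, ← zpow_add, ← two_mul, zpow_mul, zpow_two, hw2, one_zpow]
  rw [htt, mul_one] at hfin
  refine ⟨u, v, hvv.symm, hw1, hw2, ?_⟩
  have h1 : c = w⁻¹ := eq_inv_of_mul_eq_one_left hfin
  have h3 : v * u * v⁻¹ = c * u := by rw [hc]; group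
  rw [h3, h1, hw]
  group

end Cfsg.Agent.H745.MetaTwo
end

-- part: H745/MetaTwoComm
section
/-!
# Metacyclic 2-groups and automorphisms of the centralizer of a four-group (helper745)
-/

set_option autoImplicit false

namespace Cfsg.Agent.H745.MetaTwo

open Cfsg

variable {P : Type*} [Group P] [Finite P]

omit [Finite P] in
theorem pow_four' (u : P) : u ^ 4 = (u * u) * (u * u) := by
  rw [← pow_two, ← pow_two, ← pow_mul]

/-- Outside the dihedral, quaternion and semidihedral cases there is no quaternion subgroup of order 8. -/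
theorem no_quaternion (N : Subgroup P) [hN : N.Normal] [IsCyclic (P ⧸ N)]
    (hB : ∀ y ∈ N, ∀ g : P, y ^ 4 = 1 → g * g ∈ N → g * y * g⁻¹ = y)
    {u v : P} (huv : u * u = v * v) (h1 : u * u ≠ 1) (h4 : (u * u) * (u * u) = 1)
    (h3 : v * u * v⁻¹ = u⁻¹) : False := by
  have hne : v * u * v⁻¹ ≠ u := by
    intro h
    rw [h] at h3
    apply h1
    nth_rewrite 2 [h3]
    exact mul_inv_cancel u
  have hu4 : u ^ 4 = 1 := by rw [pow_four', h4]
  have hv4 : v ^ 4 = 1 := by rw [pow_four', ← huv, h4]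
  have huN : u * u ∈ N := by
    rw [← QuotientGroup.eq_one_iff]
    let _ : CommGroup (P ⧸ N) := IsCyclic.commGroup
    have h5 : ((v * u * v⁻¹ : P) : P ⧸ N) = (u : P ⧸ N) := by
      rw [QuotientGroup.mk_mul, QuotientGroup.mk_mul, QuotientGroup.mk_inv]
      exact mul_inv_cancel_comm _ _
    rw [h3] at h5
    rw [QuotientGroup.mk_mul]
    nth_rewrite 2 [← h5]
    rw [← QuotientGroup.mk_mul, mul_inv_cancel, QuotientGroup.mk_one]
  have hvN : v * v ∈ N := huv ▸ huN
  by_cases hv : v ∈ N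
  · have h5 := hB v hv u hv4 huN
    apply hne
    have h6 : u * v = v * u := mul_inv_eq_iff_eq_mul.1 h5
    rw [← h6, mul_inv_cancel_right]
  · rcases mem_or_of_sq N huN hvN hv with h | h
    · exact hne (hB u h v hu4 hvN)
    · have hyy : v⁻¹ * u * (v⁻¹ * u) = (v * v)⁻¹ := by
        have h5 : v⁻¹ * u * (v⁻¹ * u) = (v * v)⁻¹ * (v * u * v⁻¹) * u := by group
        rw [h5, h3]; group
      have hy4 : (v⁻¹ * u) ^ 4 = 1 := by
        rw [pow_four', hyy, ← mul_inv_rev, ← huv, h4, inv_one]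
      have h5 := hB _ h u hy4 huN
      apply hne
      have h6 : u * v⁻¹ = v⁻¹ * u := by
        have h7 : u * (v⁻¹ * u) * u⁻¹ = u * v⁻¹ := by group
        rw [← h7]; exact h5
      rw [mul_assoc, h6, mul_inv_cancel_left]

/-- The quotient of a subgroup by its intersection with `N`. -/
theorem isCyclic_quot {G : Type*} [Group G] (N : Subgroup G) [N.Normal] [IsCyclic (G ⧸ N)] (C : Subgroup G) :
    IsCyclic (C ⧸ N.subgroupOf C) := by
  have hle : N.subgroupOf C ≤ N.comap C.subtype := le_rfl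
  refine isCyclic_of_injective (QuotientGroup.map (N.subgroupOf C) N C.subtype hle) ?_
  rw [injective_iff_map_eq_one]
  intro x
  induction x using QuotientGroup.induction_on with
  | H x =>
    intro hx
    rw [QuotientGroup.map_mk, QuotientGroup.eq_one_iff] at hx
    rw [QuotientGroup.eq_one_iff]
    exact hx

/-- In a cyclic 2-group of order at least 4 every element of square one is a square. -/
theorem exists_sq {C : Type*} [Group C] [Finite C] [IsCyclic C] (h2 : IsPGroup 2 C)
    (h : ∃ x : C, x * x ≠ 1) {a : C} (ha : a * a = 1) : ∃ c : C, a = c * c := by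
  by_cases ha1 : a = 1
  · exact ⟨1, by rw [ha1, one_mul]⟩
  · obtain ⟨x, hx⟩ := h
    obtain ⟨n, hn⟩ := (IsPGroup.iff_orderOf.1 h2) x
    have hn2 : 2 ≤ n := by
      by_contra hcon
      apply hx
      rw [← pow_two]
      apply orderOf_dvd_iff_pow_eq_one.1
      rw [hn]
      exact (pow_dvd_pow 2 (show n ≤ 1 by omega)).trans (by norm_num)
    obtain ⟨k, hk⟩ : ∃ k, n = k + 2 := ⟨n - 2, by omega⟩
    have h1 : x ^ 2 ^ (k + 1) * x ^ 2 ^ (k + 1) = 1 := by
      rw [← pow_add, ← two_mul, ← pow_succ', show k + 1 + 1 = n by omega, ← hn, pow_orderOf_eq_one]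
    have h3 : x ^ 2 ^ (k + 1) ≠ 1 := by
      intro h
      have h4 : orderOf x ∣ 2 ^ (k + 1) := orderOf_dvd_of_pow_eq_one h
      rw [hn, Nat.pow_dvd_pow_iff_le_right (by norm_num)] at h4
      omega
    rcases cyc_sq ha h1 h3 with h | h
    · exact absurd h ha1
    · exact ⟨x ^ 2 ^ k, by rw [h, ← pow_add, ← two_mul, ← pow_succ']⟩

/-- Let `P` be a metacyclic 2-group not of maximal class, containing a four-group `⟨z, e⟩`, with `z ∈ N`. If the
centralizer `C` of the four-group has a nontrivial automorphism of odd order then `P` is abelian. -/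
theorem comm_of_aut (h2 : IsPGroup 2 P) (N : Subgroup P) [hN : N.Normal] [IsCyclic N]
    [IsCyclic (P ⧸ N)]
    (hB : ∀ y ∈ N, ∀ g : P, y ^ 4 = 1 → g * g ∈ N → g * y * g⁻¹ = y)
    {z e : P} (hz : z ∈ N) (he : e ∉ N) (hz1 : z ≠ 1) (hzz : z * z = 1) (hee : e * e = 1)
    (C : Subgroup P) (hC : ∀ g : P, g ∈ C ↔ g * e = e * g) (γ : MulAut C) {m : ℕ}
    (hm : ¬ 2 ∣ m) (hγ : γ ^ m = 1) (hγ1 : γ ≠ 1) : ∀ x y : P, x * y = y * x := by
  have hCc := isCyclic_quot N C
  have hN1c : IsCyclic (N.subgroupOf C) := by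
    refine isCyclic_of_injective (G' := N) ((C.subtype.comp (N.subgroupOf C).subtype).codRestrict N
      (fun x => x.2)) ?_
    intro x y hxy
    exact Subtype.ext (Subtype.ext (congrArg (fun t : N => (t : P)) hxy))
  rcases structure_of_odd_aut (h2.to_subgroup C) (N.subgroupOf C) γ hm hγ hγ1 with
    ⟨htop, hbot⟩ | ⟨u, v, huv, hu1, hu2, hu3⟩
  swap
  · exfalso
    exact no_quaternion N hB (u := u) (v := v) (congrArg Subtype.val huv)
      (fun h => hu1 (Subtype.ext h)) (congrArg Subtype.val hu2) (congrArg Subtype.val hu3)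
  set N1 := N.subgroupOf C with hN1
  set N1' := N1.map γ.toMonoidHom with hN1'
  have hN1n : N1.Normal := inferInstance
  have hN1'n : N1'.Normal := hN1n.map γ.toMonoidHom γ.surjective
  have hN1'c : IsCyclic N1' := isCyclic_of_surjective (γ.toMonoidHom.subgroupMap N1)
    (γ.toMonoidHom.subgroupMap_surjective N1)
  have hprod : ∀ c : C, ∃ a ∈ N1, ∃ b ∈ N1', a * b = c := by
    intro c
    have h1 : c ∈ N1 ⊔ N1' := by rw [htop]; exact Subgroup.mem_top c
    exact Subgroup.mem_sup_of_normal_right.1 h1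
  have hcN1 : ∀ x ∈ N1, ∀ y ∈ N1, x * y = y * x := fun x hx y hy => by
    let _ : CommGroup N1 := IsCyclic.commGroup
    exact congrArg Subtype.val (mul_comm (⟨x, hx⟩ : N1) ⟨y, hy⟩)
  have hcN1' : ∀ x ∈ N1', ∀ y ∈ N1', x * y = y * x := fun x hx y hy => by
    let _ : CommGroup N1' := IsCyclic.commGroup
    exact congrArg Subtype.val (mul_comm (⟨x, hx⟩ : N1') ⟨y, hy⟩)
  have hcN : ∀ x ∈ N, ∀ y ∈ N, x * y = y * x := fun x hx y hy => by
    let _ : CommGroup N := IsCyclic.commGroup
    exact congrArg Subtype.val (mul_comm (⟨x, hx⟩ : N) ⟨y, hy⟩)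
  have hcx : ∀ x ∈ N1, ∀ y ∈ N1', x * y = y * x := fun x hx y hy =>
    Subgroup.commute_of_normal_of_disjoint N1 N1' hN1n hN1'n (disjoint_iff.2 hbot) x y hx hy
  have hcC : ∀ x y : C, x * y = y * x := by
    intro x y
    obtain ⟨a, ha, b, hb, rfl⟩ := hprod x
    obtain ⟨a', ha', b', hb', rfl⟩ := hprod y
    calc a * b * (a' * b') = a * (b * a') * b' := by group
      _ = a * (a' * b) * b' := by rw [hcx a' ha' b hb]
      _ = (a * a') * (b * b') := by group
      _ = (a' * a) * (b' * b) := by rw [hcN1 a ha a' ha', hcN1' b hb b' hb']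
      _ = a' * (a * b') * b := by group
      _ = a' * (b' * a) * b := by rw [hcx a ha b' hb']
      _ = a' * b' * (a * b) := by group
  -- `z` is central
  have hzc : ∀ g : P, g * z = z * g := by
    intro g
    have h1 : g * z * g⁻¹ ∈ N := hN.conj_mem z hz g
    have h3 : g * z * g⁻¹ * (g * z * g⁻¹) = 1 := by
      have : g * z * g⁻¹ * (g * z * g⁻¹) = g * (z * z) * g⁻¹ := by group
      rw [this, hzz, mul_one, mul_inv_cancel]
    rcases sq_of_cyclic N h1 hz h3 hzz hz1 with h | h
    · exact absurd (conj_eq_one_iff.1 h) hz1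
    · exact mul_inv_eq_iff_eq_mul.1 h
  have hsq1 : ∀ g : P, g * g = 1 → g = 1 ∨ g = z ∨ g = e ∨ g = z * e := fun g hg =>
    square_one_aux h2 N hB hz he hz1 hzz hee hg
  have he1 : e ≠ 1 := fun h => he (h ▸ N.one_mem)
  have hconj : ∀ g : P, g * e * g⁻¹ = e ∨ g * e * g⁻¹ = z * e := by
    intro g
    have h3 : g * e * g⁻¹ * (g * e * g⁻¹) = 1 := by
      have : g * e * g⁻¹ * (g * e * g⁻¹) = g * (e * e) * g⁻¹ := by group
      rw [this, hee, mul_one, mul_inv_cancel]
    rcases hsq1 _ h3 with h | h | h | h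
    · exact absurd (conj_eq_one_iff.1 h) he1
    · exfalso
      apply he
      have h4 : e = g⁻¹ * z * g := by rw [← h]; group
      rw [h4, mul_assoc, ← hzc g, inv_mul_cancel_left]
      exact hz
    · exact Or.inl h
    · exact Or.inr h
  have hsqC : ∀ g : P, g * g ∈ C := by
    intro g
    rw [hC]
    have h4 : g * g * e * (g * g)⁻¹ = e := by
      have h5 : g * g * e * (g * g)⁻¹ = g * (g * e * g⁻¹) * g⁻¹ := by group
      rw [h5]
      rcases hconj g with h | h
      · rw [h, h]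
      · rw [h]
        have h6 : g * (z * e) * g⁻¹ = (g * z) * g⁻¹ * (g * e * g⁻¹) := by group
        rw [h6, h, hzc g, mul_inv_cancel_right, ← mul_assoc, hzz, one_mul]
    exact mul_inv_eq_iff_eq_mul.1 h4
  -- it is enough to show that `C` is everything
  suffices hall : ∀ g : P, g ∈ C by
    intro x y
    exact congrArg Subtype.val (hcC ⟨x, hall x⟩ ⟨y, hall y⟩)
  obtain ⟨⟨x, hx⟩, hgen⟩ := IsCyclic.exists_generator (α := N)
  have hN' : ∀ v ∈ N, ∃ i : ℤ, v = x ^ i := by
    intro v hv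
    obtain ⟨i, hi⟩ := hgen ⟨v, hv⟩
    exact ⟨i, (congrArg Subtype.val hi).symm⟩
  by_cases hxC : x ∈ C
  · have hNC : ∀ v ∈ N, v ∈ C := by
      intro v hv
      obtain ⟨i, rfl⟩ := hN' v hv
      exact C.zpow_mem hxC i
    obtain ⟨t, ht⟩ := exists_gen N
    have htC : t ∈ C := by
      by_contra htC
      obtain ⟨r, hr⟩ := (IsPGroup.iff_orderOf.1 h2) x
      have hr0 : r ≠ 0 := by
        intro h0
        rw [h0, pow_zero, orderOf_eq_one_iff] at hr
        apply hz1
        obtain ⟨i, hi⟩ := hN' z hz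
        rw [hi, hr, one_zpow]
      obtain ⟨r', hr'⟩ : ∃ r', r = r' + 1 := ⟨r - 1, by omega⟩
      set q := 2 ^ r with hq
      have hqN1 : ∀ a ∈ N1, a ^ q = 1 := by
        intro a ha
        obtain ⟨i, hi⟩ := hN' (a : P) ha
        apply Subtype.ext
        rw [Subgroup.coe_pow, hi, ← zpow_natCast, ← zpow_mul, mul_comm, zpow_mul, zpow_natCast,
          ← hr, pow_orderOf_eq_one, one_zpow]
        rfl
      have hqC : ∀ c : C, c ^ q = 1 := by
        intro c
        obtain ⟨a, ha, b, ⟨b', hb', rfl⟩, rfl⟩ := hprod c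
        have h1 : Commute a (γ.toMonoidHom b') := hcC _ _
        rw [h1.mul_pow, hqN1 a ha, ← map_pow, hqN1 b' hb', map_one, one_mul]
      have htt := hsqC t
      have htq : (t ^ q) * (t ^ q) = 1 := by
        rw [← pow_add, ← two_mul, pow_mul, pow_two]
        exact congrArg Subtype.val (hqC ⟨t * t, htt⟩)
      have htqN : t ^ q ∉ N := by
        intro hcon
        set y : C := γ ⟨x, hxC⟩ with hy
        have hyN1' : y ∈ N1' := ⟨⟨x, hxC⟩, hx, rfl⟩
        obtain ⟨l, hl⟩ := ht (y : P)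
        set v := (t ^ l)⁻¹ * (y : P) with hv
        have hyl : (y : P) = t ^ l * v := by rw [hv, mul_inv_cancel_left]
        have hlev : Even l := by
          by_contra hodd
          rw [Nat.not_even_iff_odd] at hodd
          obtain ⟨b, hb⟩ := hodd
          apply htC
          have h1 : t = (y : P) * v⁻¹ * ((t * t) ^ b)⁻¹ := by
            rw [hyl, hb, ← pow_two, ← pow_mul, pow_succ']; group
          rw [h1]
          exact C.mul_mem (C.mul_mem y.2 (C.inv_mem (hNC v hl))) (C.inv_mem (C.pow_mem htt b))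
        obtain ⟨b, hb⟩ := hlev
        have hy2 : (y ^ 2 ^ r' : C) ∈ N1 := by
          show ((y ^ 2 ^ r' : C) : P) ∈ N
          have h1 : y = (⟨t * t, htt⟩ : C) ^ b * ⟨v, hNC v hl⟩ := by
            apply Subtype.ext
            show (y : P) = (t * t) ^ b * v
            rw [hyl, hb, ← two_mul, pow_mul, pow_two]
          have h3 : Commute ((⟨t * t, htt⟩ : C) ^ b) ⟨v, hNC v hl⟩ := hcC _ _
          rw [h1, h3.mul_pow]
          refine N.mul_mem ?_ (N.pow_mem hl _)
          show ((t * t) ^ b) ^ 2 ^ r' ∈ N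
          have h4 : ((t * t) ^ b) ^ 2 ^ r' = (t ^ q) ^ b := by
            rw [← pow_two, ← pow_mul, ← pow_mul, ← pow_mul, hq, hr', pow_succ']
            congr 1
            ring
          rw [h4]
          exact N.pow_mem hcon b
        have hy3 : (y ^ 2 ^ r' : C) ∈ N1' := N1'.pow_mem hyN1' _
        have hy4 : (y ^ 2 ^ r' : C) = 1 := by
          have : (y ^ 2 ^ r' : C) ∈ N1 ⊓ N1' := ⟨hy2, hy3⟩
          rw [hbot] at this
          exact Subgroup.mem_bot.1 this
        rw [hy, ← map_pow] at hy4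
        have hy5 : (⟨x, hxC⟩ : C) ^ 2 ^ r' = 1 := (map_eq_one_iff γ γ.injective).1 hy4
        have hy6 : x ^ 2 ^ r' = 1 := congrArg Subtype.val hy5
        have hy7 : orderOf x ∣ 2 ^ r' := orderOf_dvd_of_pow_eq_one hy6
        rw [hr, Nat.pow_dvd_pow_iff_le_right (by norm_num)] at hy7
        omega
      apply htC
      rw [hC]
      have hct : t * t ^ q = t ^ q * t := by rw [← pow_succ', ← pow_succ]
      rcases hsq1 _ htq with h | h | h | h
      · exact absurd (h ▸ N.one_mem) htqN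
      · exact absurd (h ▸ hz) htqN
      · rw [← h]; exact hct
      · have h1 : e = z * t ^ q := by rw [h, ← mul_assoc, hzz, one_mul]
        rw [h1, ← mul_assoc, hzc t, mul_assoc, hct, mul_assoc]
    intro g
    obtain ⟨k, hk⟩ := ht g
    have h1 := C.mul_mem (C.pow_mem htC k) (hNC _ hk)
    rwa [mul_inv_cancel_left] at h1
  · exfalso
    -- `x` commutes with the squares of the elements of `C`
    have hcomm : ∀ c ∈ C, x * (c * c) = (c * c) * x := by
      intro c hc
      have h1 : c * (x * x) * c⁻¹ = x * x := by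
        have : c * (x * x) = (x * x) * c :=
          congrArg Subtype.val (hcC ⟨c, hc⟩ ⟨x * x, hsqC x⟩)
        rw [this, mul_inv_cancel_right]
      set h := c * x * c⁻¹ * x⁻¹ with hh
      have hhN : h ∈ N := N.mul_mem (hN.conj_mem x hx c) (N.inv_mem hx)
      have hcx : c * x * c⁻¹ = h * x := by rw [hh]; group
      have hhh : h * h = 1 := by
        have h3 : (h * x) * (h * x) = x * x := by
          rw [← hcx, ← h1]; group
        have h4 : (h * x) * (h * x) = h * h * (x * x) := by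
          calc (h * x) * (h * x) = h * (x * h) * x := by group
            _ = h * (h * x) * x := by rw [hcN h hhN x hx]
            _ = h * h * (x * x) := by group
        rw [h4] at h3
        exact mul_eq_right.1 h3
      have hhc : ∀ g : P, g * h = h * g := by
        rcases sq_of_cyclic N hhN hz hhh hzz hz1 with h3 | h3
        · intro g; rw [h3, mul_one, one_mul]
        · intro g; rw [h3]; exact hzc g
      have h5 : (c * c) * x * (c * c)⁻¹ = x := by
        have h6 : (c * c) * x * (c * c)⁻¹ = c * (c * x * c⁻¹) * c⁻¹ := by group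
        rw [h6, hcx]
        have h7 : c * (h * x) * c⁻¹ = (c * h) * c⁻¹ * (c * x * c⁻¹) := by group
        rw [h7, hcx, hhc c, mul_inv_cancel_right, ← mul_assoc, hhh, one_mul]
      exact (mul_inv_eq_iff_eq_mul.1 h5).symm
    have heC : e ∈ C := (hC e).2 rfl
    by_cases hex : ∃ w : N1, w * w ≠ 1
    · -- `e` is a square
      have hsqe : ∃ c ∈ C, e = c * c := by
        obtain ⟨a, ha, b, hb, hab⟩ := hprod ⟨e, heC⟩
        have h1 : (a * a) * (b * b) = 1 := by
          have h3 : (⟨e, heC⟩ : C) * ⟨e, heC⟩ = 1 := Subtype.ext hee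
          rw [← h3, ← hab]
          calc a * a * (b * b) = a * (a * b) * b := by group
            _ = a * (b * a) * b := by rw [hcC a b]
            _ = a * b * (a * b) := by group
        have haa : a * a = 1 := by
          have h3 : a * a ∈ N1 ⊓ N1' := by
            refine ⟨N1.mul_mem ha ha, ?_⟩
            have h4 : a * a = (b * b)⁻¹ := eq_inv_of_mul_eq_one_left h1
            rw [h4]; exact N1'.inv_mem (N1'.mul_mem hb hb)
          rw [hbot] at h3
          exact Subgroup.mem_bot.1 h3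
        have hbb : b * b = 1 := by rw [haa, one_mul] at h1; exact h1
        obtain ⟨c1, hc1⟩ := exists_sq ((h2.to_subgroup C).to_subgroup N1) hex
          (a := ⟨a, ha⟩) (Subtype.ext haa)
        obtain ⟨w, hw⟩ := hex
        obtain ⟨c2, hc2⟩ := exists_sq ((h2.to_subgroup C).to_subgroup N1')
          ⟨⟨γ (w : C), ⟨w, w.2, rfl⟩⟩, fun h => hw (by
            have h3 : γ (w : C) * γ (w : C) = 1 := congrArg Subtype.val h
            rw [← map_mul, map_eq_one_iff γ γ.injective] at h3
            exact Subtype.ext h3)⟩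
          (a := ⟨b, hb⟩) (Subtype.ext hbb)
        have hc1' : a = (c1 : C) * (c1 : C) := congrArg Subtype.val hc1
        have hc2' : b = (c2 : C) * (c2 : C) := congrArg Subtype.val hc2
        refine ⟨(((c1 : C) * (c2 : C) : C) : P), ((c1 : C) * (c2 : C)).2, ?_⟩
        have h5 : (⟨e, heC⟩ : C) = ((c1 : C) * (c2 : C)) * ((c1 : C) * (c2 : C)) := by
          rw [← hab, hc1', hc2']
          calc (c1 : C) * (c1 : C) * ((c2 : C) * (c2 : C)) = (c1 : C) * ((c1 : C) * (c2 : C)) * (c2 : C) := by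
                group
            _ = (c1 : C) * ((c2 : C) * (c1 : C)) * (c2 : C) := by rw [hcC (c1 : C) (c2 : C)]
            _ = (c1 : C) * (c2 : C) * ((c1 : C) * (c2 : C)) := by group
        exact congrArg Subtype.val h5
      obtain ⟨c, hc, hec⟩ := hsqe
      apply hxC
      rw [hC, hec]
      exact hcomm c hc
    · push Not at hex
      have h1 := hex ⟨⟨x * x, hsqC x⟩, N.mul_mem hx hx⟩
      have h3 : (x * x) * (x * x) = 1 := congrArg (fun t : N1 => ((t : C) : P)) h1
      have h4 := hB x hx e (by rw [pow_four', h3]) (by rw [hee]; exact N.one_mem)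
      apply hxC
      rw [hC]
      exact (mul_inv_eq_iff_eq_mul.1 h4).symm

end Cfsg.Agent.H745.MetaTwo
end

-- part: H745/MetaTwoFus
section
/-!
# Strongly closed metacyclic 2-subgroups of saturated fusion systems (helper745)
-/

set_option autoImplicit false

namespace Cfsg.Agent.H745.MetaTwo

open Cfsg Cfsg.FusionSystem Cfsg.Agent.H759

/-- A nontrivial subgroup of a 2-group contains an involution. -/
theorem exists_invol {G : Type*} [Group G] (h2 : IsPGroup 2 G) {H : Subgroup G} (hH : H ≠ ⊥) :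
    ∃ z ∈ H, z ≠ 1 ∧ z * z = 1 := by
  obtain ⟨⟨n, hn⟩, hn1⟩ := Subgroup.ne_bot_iff_exists_ne_one.1 hH
  have hn1' : n ≠ 1 := fun h => hn1 (Subtype.ext h)
  obtain ⟨k, hk⟩ := (IsPGroup.iff_orderOf.1 h2) n
  have hk0 : k ≠ 0 := by
    intro h
    rw [h, pow_zero, orderOf_eq_one_iff] at hk
    exact hn1' hk
  obtain ⟨j, hj⟩ : ∃ j, k = j + 1 := ⟨k - 1, by omega⟩
  refine ⟨n ^ 2 ^ j, H.pow_mem hn _, ?_, ?_⟩
  · intro h
    have h1 : orderOf n ∣ 2 ^ j := orderOf_dvd_of_pow_eq_one h
    rw [hk, Nat.pow_dvd_pow_iff_le_right (by norm_num)] at h1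
    omega
  · rw [← pow_add, ← two_mul, ← pow_succ', ← hj, ← hk, pow_orderOf_eq_one]

variable {Ω : Type*} [Group Ω] {S : Subgroup Ω} {F : FusionSystem S}

/-- The two ways to see an intersection. -/
def swapEquiv (P R : Subgroup Ω) : P.subgroupOf R ≃* R.subgroupOf P where
  toFun y := ⟨⟨(y : R), y.2⟩, (y : R).2⟩
  invFun y := ⟨⟨(y : P), y.2⟩, (y : P).2⟩
  left_inv _ := rfl
  right_inv _ := rfl
  map_mul' _ _ := rfl

theorem comm_of_strongly_closed [Finite S] (hS : IsPGroup 2 S) (hF : F.IsSaturated 2)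
    {P : Subgroup Ω} (hP : F.StronglyClosed P)
    (N : Subgroup P) [hN : N.Normal] [IsCyclic N] [IsCyclic (P ⧸ N)]
    (hB : ∀ y ∈ N, ∀ g : P, y ^ 4 = 1 → g * g ∈ N → g * y * g⁻¹ = y)
    {R : Subgroup Ω} (hRS : R ≤ S) {κ : MulAut R} (hκ : κ ∈ F.autGroup R) {m : ℕ} (hm : ¬ 2 ∣ m)
    (hκm : κ ^ m = 1) {x : R} (hx : (x : Ω) ∈ P) (hκx : κ x ≠ x) : ∀ x y : P, x * y = y * x := by
  have hPS : P ≤ S := hP.1
  have hfR : Finite R := Finite.of_injective _ (Subgroup.inclusion_injective hRS)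
  have hfP : Finite P := Finite.of_injective _ (Subgroup.inclusion_injective hPS)
  have h2P : IsPGroup 2 P := hS.to_le hPS
  have hκR := (mem_autGroup F hRS).1 hκ
  -- the automorphism of `R ∩ P`
  have hinv : ∀ y ∈ P.subgroupOf R, κ y ∈ P.subgroupOf R := fun y hy =>
    StronglyClosed.apply_mem hP hκR (x := y) hy
  obtain ⟨c, hc, hco⟩ := H794.exists_restrict κ (P.subgroupOf R) hinv
  have hcm : c ^ m = 1 := orderOf_dvd_iff_pow_eq_one.1 (hco.trans (orderOf_dvd_of_pow_eq_one hκm))
  set T := R.subgroupOf P with hT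
  set β : MulAut T := MulAut.congr (swapEquiv P R) c with hβ
  have hβc : ∀ t : T, ((β t : T) : Ω) = (κ ⟨(t : P), t.2⟩ : R) := by
    intro t
    have h1 := hc ((swapEquiv P R).symm t)
    exact congrArg Subtype.val h1
  have hβm : β ^ m = 1 := by rw [hβ, ← map_pow, hcm, map_one]
  have hβ1 : β ≠ 1 := by
    intro h
    apply hκx
    have h1 := hβc ⟨⟨(x : Ω), hx⟩, x.2⟩
    rw [h] at h1
    exact Subtype.ext h1.symm
  have hTc := isCyclic_quot N T
  have hNTc : IsCyclic (N.subgroupOf T) := by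
    refine isCyclic_of_injective (G' := N) ((T.subtype.comp (N.subgroupOf T).subtype).codRestrict N
      (fun x => x.2)) ?_
    intro x y hxy
    exact Subtype.ext (Subtype.ext (congrArg (fun t : N => (t : P)) hxy))
  rcases structure_of_odd_aut (h2P.to_subgroup T) (N.subgroupOf T) β hm hβm hβ1 with
    ⟨htop, hbot⟩ | ⟨u, v, huv, hu1, hu2, hu3⟩
  swap
  · exfalso
    exact no_quaternion N hB (u := u) (v := v) (congrArg Subtype.val huv)
      (fun h => hu1 (Subtype.ext h)) (congrArg Subtype.val hu2) (congrArg Subtype.val hu3)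
  have hN1 : N.subgroupOf T ≠ ⊥ := by
    intro h
    apply hβ1
    rw [h, Subgroup.map_bot, sup_bot_eq] at htop
    ext t
    have h1 : t ∈ (⊥ : Subgroup T) := by rw [htop]; exact Subgroup.mem_top t
    rw [Subgroup.mem_bot] at h1
    rw [h1, map_one, map_one]
  obtain ⟨z1, hz1N, hz1, hz1z1⟩ := exists_invol (h2P.to_subgroup T) hN1
  set z : P := (z1 : P) with hz
  set e : P := ((β z1 : T) : P) with he
  have hzN : z ∈ N := hz1N
  have hzne : z ≠ 1 := fun h => hz1 (Subtype.ext h)
  have hzz : z * z = 1 := congrArg Subtype.val hz1z1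
  have hee : e * e = 1 := by
    have h1 : β z1 * β z1 = 1 := by rw [← map_mul, hz1z1, map_one]
    exact congrArg Subtype.val h1
  have heN : e ∉ N := by
    intro h
    have h1 : β z1 ∈ N.subgroupOf T ⊓ (N.subgroupOf T).map β.toMonoidHom := ⟨h, ⟨z1, hz1N, rfl⟩⟩
    rw [hbot, Subgroup.mem_bot, map_eq_one_iff β β.injective] at h1
    exact hz1 h1
  have hzR : (z : Ω) ∈ R := z1.2
  have heR : (e : Ω) ∈ R := (β z1).2
  have hκz : ((κ ⟨z, hzR⟩ : R) : Ω) = e := (hβc z1).symm
  have hsq1 : ∀ g : P, g * g = 1 → g = 1 ∨ g = z ∨ g = e ∨ g = z * e := fun g hg =>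
    square_one_aux h2P N hB hzN heN hzne hzz hee hg
  -- `z` is central
  have hzc : ∀ g : P, g * z = z * g := by
    intro g
    have h1 : g * z * g⁻¹ ∈ N := hN.conj_mem z hzN g
    have h3 : g * z * g⁻¹ * (g * z * g⁻¹) = 1 := by
      have : g * z * g⁻¹ * (g * z * g⁻¹) = g * (z * z) * g⁻¹ := by group
      rw [this, hzz, mul_one, mul_inv_cancel]
    rcases sq_of_cyclic N h1 hzN h3 hzz hzne with h | h
    · exact absurd (conj_eq_one_iff.1 h) hzne
    · exact mul_inv_eq_iff_eq_mul.1 h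
  have hcomm1 : ∀ a b : P, a * a = 1 → b * b = 1 → a * b = b * a := by
    intro a b ha hb
    rcases hsq1 a ha with rfl | rfl | rfl | rfl
    · rw [one_mul, mul_one]
    · exact (hzc b).symm
    · rcases hsq1 b hb with rfl | rfl | rfl | rfl
      · rw [one_mul, mul_one]
      · exact hzc _
      · rfl
      · rw [← mul_assoc, hzc e, mul_assoc]
    · rcases hsq1 b hb with rfl | rfl | rfl | rfl
      · rw [one_mul, mul_one]
      · exact hzc _
      · rw [← mul_assoc, hzc e, mul_assoc]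
      · rfl
  let E : Subgroup Ω :=
    { carrier := {g | g ∈ P ∧ g * g = 1}
      one_mem' := ⟨one_mem _, one_mul 1⟩
      mul_mem' := by
        rintro a b ⟨ha, haa⟩ ⟨hb, hbb⟩
        refine ⟨mul_mem ha hb, ?_⟩
        have h1 : a * b = b * a :=
          congrArg Subtype.val (hcomm1 ⟨a, ha⟩ ⟨b, hb⟩ (Subtype.ext haa) (Subtype.ext hbb))
        calc a * b * (a * b) = a * (b * a) * b := by group
          _ = a * (a * b) * b := by rw [h1]
          _ = (a * a) * (b * b) := by group
          _ = 1 := by rw [haa, hbb, one_mul]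
      inv_mem' := by
        rintro a ⟨ha, haa⟩
        exact ⟨inv_mem ha, by rw [← mul_inv_rev, haa, inv_one]⟩ }
  have hEP : E ≤ P := fun g hg => hg.1
  have hE : F.StronglyClosed E := by
    refine ⟨hEP.trans hPS, fun Q hQ φ hφ y => ⟨hP.2 Q (hQ.trans hEP) φ hφ y, ?_⟩⟩
    have h1 : y * y = 1 := Subtype.ext (hQ y.2).2
    rw [← map_mul, h1, map_one]
  have hzE : (z : Ω) ∈ E := ⟨z.2, congrArg Subtype.val hzz⟩
  have heE : (e : Ω) ∈ E := ⟨e.2, congrArg Subtype.val hee⟩
  have hER : E ≤ R := by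
    intro g hg
    rcases hsq1 ⟨g, hg.1⟩ (Subtype.ext hg.2) with h | h | h | h
    · have : g = 1 := congrArg Subtype.val h
      rw [this]; exact one_mem _
    · have : g = z := congrArg Subtype.val h
      rw [this]; exact hzR
    · have : g = e := congrArg Subtype.val h
      rw [this]; exact heR
    · have : g = z * e := congrArg Subtype.val h
      rw [this]; exact mul_mem hzR heR
  have hfE : Finite E := Finite.of_injective _ (Subgroup.inclusion_injective hEP)
  have hφE := H802.restrict_mem hκR hER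
  have hφEr := H802.range_eq_of_mapsTo hφE (fun y => hE.2 E le_rfl _ hφE y)
  obtain ⟨ψ, hψ, hψe⟩ := (isReceptive_of_stronglyClosed hF hE).2.2 E _ hφE hφEr
  -- the centralizer
  set C0 : Subgroup Ω := P ⊓ Subgroup.centralizer {(e : Ω)} with hC0
  have hC0P : C0 ≤ P := inf_le_left
  have hC0e : ∀ g ∈ C0, g * (e : Ω) = e * g := fun g hg =>
    (Subgroup.mem_centralizer_singleton_iff.1 hg.2)
  have hC0ext : C0 ≤ extender S E ((R.subtype.comp κ.toMonoidHom).comp (Subgroup.inclusion hER)) := by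
    refine le_trans ?_ (H802.centralizerIn_le_extender S E _)
    intro g hg
    refine ⟨hPS hg.1, Subgroup.mem_centralizer_iff.2 ?_⟩
    intro h hh
    have hgz : g * (z : Ω) = z * g := congrArg Subtype.val (hzc ⟨g, hg.1⟩)
    have hge := hC0e g hg
    rcases hsq1 ⟨h, hh.1⟩ (Subtype.ext hh.2) with h1 | h1 | h1 | h1
    · have : h = 1 := congrArg Subtype.val h1
      rw [this, one_mul, mul_one]
    · have : h = z := congrArg Subtype.val h1
      rw [this]; exact hgz.symm
    · have : h = e := congrArg Subtype.val h1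
      rw [this]; exact hge.symm
    · have : h = z * e := congrArg Subtype.val h1
      rw [this, ← mul_assoc, hgz, mul_assoc, ← hge, mul_assoc]
  have hEC0 : E ≤ C0 := by
    intro g hg
    refine ⟨hg.1, Subgroup.mem_centralizer_singleton_iff.2 ?_⟩
    exact congrArg Subtype.val (hcomm1 ⟨g, hg.1⟩ e (Subtype.ext hg.2) hee)
  have hχ := H802.restrict_mem hψ hC0ext
  set χ := ψ.comp (Subgroup.inclusion hC0ext) with hχdef
  have hχE : ∀ (g : Ω) (hg : g ∈ E) (hg' : g ∈ C0), χ ⟨g, hg'⟩ = (κ ⟨g, hER hg⟩ : R) := by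
    intro g hg hg'
    exact hψe g hg (hC0ext hg')
  have hχC : ∀ g : C0, χ g ∈ C0 := by
    intro g
    refine ⟨StronglyClosed.apply_mem hP hχ (x := g) g.2.1,
      Subgroup.mem_centralizer_singleton_iff.2 ?_⟩
    have h1 : χ ⟨z, hEC0 hzE⟩ = e := (hχE z hzE _).trans hκz
    rw [← h1, ← map_mul, ← map_mul]
    congr 1
    have h3 : (g : Ω) * z = z * g := congrArg Subtype.val (hzc ⟨g, g.2.1⟩)
    exact Subtype.ext h3
  have hfC0 : Finite C0 := Finite.of_injective _ (Subgroup.inclusion_injective hC0P)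
  obtain ⟨γ0, -, hγ0⟩ := H802.exists_aut hχ (H802.range_eq_of_mapsTo hχ hχC)
  have hpow : ∀ (j : ℕ) (g : Ω) (hg : g ∈ E), (((γ0 ^ j) ⟨g, hEC0 hg⟩ : C0) : Ω) =
      ((κ ^ j) ⟨g, hER hg⟩ : R) := by
    intro j
    induction j with
    | zero => intro g hg; rfl
    | succ j ih =>
      intro g hg
      rw [pow_succ, pow_succ, MulAut.mul_apply, MulAut.mul_apply]
      have h1 : ((κ ⟨g, hER hg⟩ : R) : Ω) ∈ E := hE.2 E le_rfl _ hφE ⟨g, hg⟩
      have h3 := ih _ h1
      have h4 : γ0 ⟨g, hEC0 hg⟩ = ⟨(κ ⟨g, hER hg⟩ : R), hEC0 h1⟩ := by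
        apply Subtype.ext
        rw [hγ0]
        exact hχE g hg _
      rw [h4, h3]
  have hfin : Finite (MulAut C0) := inferInstance
  obtain ⟨a, m', hm', hom⟩ := Nat.exists_eq_pow_mul_and_not_dvd (orderOf_pos γ0).ne' 2
    (by norm_num)
  have hγm : (γ0 ^ 2 ^ a) ^ m' = 1 := by rw [← pow_mul, ← hom, pow_orderOf_eq_one]
  have hγ1 : γ0 ^ 2 ^ a ≠ 1 := by
    intro h
    have h1 := hpow (2 ^ a) z hzE
    rw [h] at h1
    have h3 : (κ ^ 2 ^ a) ⟨z, hER hzE⟩ = ⟨z, hER hzE⟩ := Subtype.ext h1.symm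
    have hcop : (2 ^ a).Coprime (orderOf κ) := by
      refine Nat.Coprime.pow_left _ ((Nat.prime_two.coprime_iff_not_dvd).2 (fun h => hm ?_))
      exact h.trans (orderOf_dvd_of_pow_eq_one hκm)
    obtain ⟨k, hk⟩ := exists_pow_eq_self_of_coprime hcop
    have h4 : ∀ j : ℕ, ((κ ^ 2 ^ a) ^ j) ⟨z, hER hzE⟩ = ⟨z, hER hzE⟩ := by
      intro j
      induction j with
      | zero => rfl
      | succ j ih => rw [pow_succ, MulAut.mul_apply, h3, ih]
    have h5 := h4 k
    rw [hk] at h5
    have h6 : (e : Ω) = z := by rw [← hκz]; exact congrArg Subtype.val h5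
    exact heN ((Subtype.ext h6 : e = z) ▸ hzN)
  have hγ'm : (MulAut.congr (Subgroup.subgroupOfEquivOfLe hC0P).symm (γ0 ^ 2 ^ a)) ^ m' = 1 := by
    rw [← map_pow, hγm, map_one]
  have hγ'1 : MulAut.congr (Subgroup.subgroupOfEquivOfLe hC0P).symm (γ0 ^ 2 ^ a) ≠ 1 := by
    intro h
    exact hγ1 ((MulEquiv.map_eq_one_iff _).1 h)
  refine comm_of_aut h2P N hB hzN heN hzne hzz hee (C0.subgroupOf P) ?_ _ hm' hγ'm hγ'1
  intro g
  rw [Subgroup.mem_subgroupOf]
  constructor
  · intro h
    exact Subtype.ext (hC0e g h)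
  · intro h
    exact ⟨g.2, Subgroup.mem_centralizer_singleton_iff.2 (congrArg Subtype.val h)⟩

end Cfsg.Agent.H745.MetaTwo
end

-- part: S5235
section
set_option autoImplicit false
open Cfsg

namespace Cfsg.Agent.S5235

/-- Let F be a saturated fusion system over a finite 2-group S (p = 2) and P a metacyclic subgroup of S strongly closed in F that is not dihedral, not semidihedral and not generalized quaternion (here the group of order 2, the Klein four-group and the cyclic group of order 4 also count as excluded). Then P is normal in F. -/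
theorem result {Ω : Type*} [Group Ω] {S : Subgroup Ω} [Finite S] (p : ℕ) [Fact p.Prime] (hS : IsPGroup p S) (F : Cfsg.FusionSystem S) (hF : F.IsSaturated p) (P : Subgroup Ω) (hP : F.StronglyClosed P) (hp : p = 2) (hm : Cfsg.IsMetacyclic ↥P) (hd : ¬ ∃ m : ℕ, Nonempty (↥P ≃* DihedralGroup m)) (hq : ¬ ∃ m : ℕ, Nonempty (↥P ≃* QuaternionGroup m)) (hsd : ¬ Cfsg.IsQuasiDihedral ↥P) : F.IsNormal P := by
  subst hp
  obtain ⟨N, hN, hNc, hQc⟩ := hm
  have hfP : Finite P := Finite.of_injective _ (Subgroup.inclusion_injective hP.1)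
  have hB : ∀ y ∈ N, ∀ g : P, y ^ 4 = 1 → g * g ∈ N → g * y * g⁻¹ = y := by
    intro y hy g hy4 hg
    by_contra hne
    rcases H745.MetaTwo.dihedral_or_of_invert (hS.to_le hP.1) N hy hy4 hg hne with h | h | h
    · exact hd h
    · exact hq h
    · exact hsd h
  by_cases hab : ∀ x y : P, x * y = y * x
  · refine H759.isNormal_of_abelian hS hF hP ?_
    rw [Subgroup.commutator_eq_bot_iff_le_centralizer]
    intro x hx
    rw [Subgroup.mem_centralizer_iff]
    intro y hy
    exact congrArg Subtype.val (hab ⟨y, hy⟩ ⟨x, hx⟩)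
  · refine H745.isNormal_of_coprime hS hF hP ?_
    intro R hRa hRr hPR κ hκ _ m hm hκm x hx
    by_contra hne
    exact hab (H745.MetaTwo.comm_of_strongly_closed hS hF hP N hB hRa.1 hκ hm hκm hx hne)

end Cfsg.Agent.S5235
end
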