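import Cfsg.Statements.S5236
import Cfsg.Agent.H759.FusNormal
import Cfsg.Agent.Transfer.OmegaFaithful
set_option linter.all false

set_option autoImplicit false
open Cfsg

namespace Cfsg.Agent.S5236

open Cfsg.FusionSystem Cfsg.Agent.H759
open scoped commutatorElement

variable {Ω : Type*} [Group Ω] {S : Subgroup Ω} {F : FusionSystem S}

/-- A subgroup `X ≤ P` is invariant under the maps from `P` into `P`. -/
def Inv (P X : Subgroup Ω) : Prop :=
  X ≤ P ∧ ∀ θ : P →* Ω, (∀ x : P, θ x ∈ P) → ∀ x : P, (x : Ω) ∈ X → θ x ∈ X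

theorem inv_strongly {P X : Subgroup Ω} (hP : F.IsNormal P) (hX : Inv P X) : F.StronglyClosed X := by
  refine ⟨hX.1.trans hP.1, fun R hR φ hφ x => ?_⟩
  obtain ⟨ψ, hψ, h1, h2⟩ := hP.2 R φ hφ
  have hRP : R ≤ P := hR.trans hX.1
  have h3 : ∀ y : P, (ψ.comp (Subgroup.inclusion (le_sup_right : P ≤ R ⊔ P))) y ∈ P := by
    intro y
    have h4 : ψ (Subgroup.inclusion (le_sup_right : P ≤ R ⊔ P) y) ∈ (P.subgroupOf (R ⊔ P)).map ψ :=
      ⟨_, y.2, rfl⟩
    exact (SetLike.ext_iff.1 h2 _).1 h4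
  have h5 := hX.2 _ h3 ⟨x, hRP x.2⟩ (hR x.2)
  rw [← h1 x]
  exact h5

theorem inv_omega (p : ℕ) (P : Subgroup Ω) : Inv P (omegaOne p P) := by
  refine ⟨?_, fun θ hθ x hx => ?_⟩
  · rw [omegaOne, Subgroup.closure_le]
    intro x hx
    exact hx.1
  · have h : omegaOne p P ≤ ((omegaOne p P).comap θ).map P.subtype := by
      conv_lhs => rw [omegaOne]
      rw [Subgroup.closure_le]
      rintro y ⟨hy, hyp⟩
      refine ⟨⟨y, hy⟩, ?_, rfl⟩
      show θ ⟨y, hy⟩ ∈ omegaOne p P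
      refine Subgroup.subset_closure ⟨hθ _, ?_⟩
      rw [← map_pow]
      have : (⟨y, hy⟩ : P) ^ p = 1 := Subtype.ext hyp
      rw [this, map_one]
    obtain ⟨y, hy, hyx⟩ := h hx
    have : y = x := Subtype.ext hyx
    rw [← this]
    exact hy

theorem inv_comm {P X : Subgroup Ω} (hX : Inv P X) : Inv P ⁅X, P⁆ := by
  have hle : ⁅X, P⁆ ≤ P := by
    rw [Subgroup.commutator_le]
    intro a ha b hb
    rw [commutatorElement_def]
    exact mul_mem (mul_mem (mul_mem (hX.1 ha) hb) (inv_mem (hX.1 ha))) (inv_mem hb)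
  refine ⟨hle, fun θ hθ x hx => ?_⟩
  have h : ⁅X, P⁆ ≤ (⁅X, P⁆.comap θ).map P.subtype := by
    rw [Subgroup.commutator_le]
    intro a ha b hb
    refine ⟨⁅(⟨a, hX.1 ha⟩ : P), (⟨b, hb⟩ : P)⁆, ?_, rfl⟩
    show θ _ ∈ ⁅X, P⁆
    rw [map_commutatorElement]
    exact Subgroup.commutator_mem_commutator (hX.2 θ hθ _ ha) (hθ _)
  obtain ⟨y, hy, hyx⟩ := h hx
  have : y = x := Subtype.ext hyx
  rw [← this]
  exact hy

/-- The iterated commutators of `Ω₁(P)` with `P`. -/
def it (p : ℕ) (P : Subgroup Ω) : ℕ → Subgroup Ω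
  | 0 => omegaOne p P
  | n + 1 => ⁅it p P n, P⁆

theorem inv_it (p : ℕ) (P : Subgroup Ω) (n : ℕ) : Inv P (it p P n) := by
  induction n with
  | zero => exact inv_omega p P
  | succ n ih => exact inv_comm ih

theorem it_le_lcs (p : ℕ) (P : Subgroup Ω) (n : ℕ) : it p P n ≤ P.lowerCentralSeries n := by
  induction n with
  | zero => exact (inv_omega p P).1
  | succ n ih =>
    rw [it, Subgroup.lowerCentralSeries_succ]
    exact Subgroup.commutator_mono ih le_rfl

theorem it_anti (p : ℕ) (P : Subgroup Ω) : Antitone (it p P) := by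
  refine antitone_nat_of_succ_le fun n => ?_
  have h1 := inv_it p P n
  rw [it, Subgroup.commutator_le]
  intro a ha b hb
  rw [commutatorElement_def, mul_assoc, mul_assoc]
  refine mul_mem ha ?_
  -- `b a⁻¹ b⁻¹ ∈ X`
  have h2 := h1.2 (conjHom P b) (fun x => ?_) ⟨a⁻¹, inv_mem (h1.1 ha)⟩ (inv_mem ha)
  · rw [← mul_assoc]; exact h2
  · show b * (x : Ω) * b⁻¹ ∈ P
    exact mul_mem (mul_mem hb x.2) (inv_mem hb)

theorem forward [Finite S] (p : ℕ) [Fact p.Prime] (hS : IsPGroup p S) (P : Subgroup Ω)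
    (hP : F.IsNormal P) :
    ∃ (n : ℕ) (Q : Fin (n + 1) → Subgroup Ω), Q 0 = ⊥ ∧ Q (Fin.last n) = Cfsg.omegaOne p P ∧
      Monotone Q ∧ (∀ i : Fin (n + 1), F.StronglyClosed (Q i)) ∧
      ∀ i : Fin n, ⁅Q i.succ, P⁆ ≤ Q i.castSucc := by
  have hfP : Finite P := Finite.of_injective _ (Subgroup.inclusion_injective hP.1)
  have hPp : IsPGroup p P := hS.to_le hP.1
  have hnil : Group.IsNilpotent P := hPp.isNilpotent
  obtain ⟨n, hn⟩ := (Subgroup.isNilpotent_iff_lowerCentralSeries P).1 hnil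
  refine ⟨n, fun i => it p P (n - i), ?_, ?_, ?_, fun i => inv_strongly hP (inv_it p P _), ?_⟩
  · show it p P (n - ((0 : Fin (n + 1)) : ℕ)) = ⊥
    rw [Fin.val_zero, Nat.sub_zero, eq_bot_iff, ← hn]
    exact it_le_lcs p P n
  · show it p P (n - ((Fin.last n : Fin (n + 1)) : ℕ)) = _
    rw [Fin.val_last, Nat.sub_self]
    rfl
  · intro i j hij
    exact it_anti p P (Nat.sub_le_sub_left hij n)
  · intro i
    show ⁅it p P (n - (i.succ : ℕ)), P⁆ ≤ it p P (n - (i.castSucc : ℕ))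
    have h1 : n - (i.castSucc : ℕ) = (n - (i.succ : ℕ)) + 1 := by
      rw [Fin.val_castSucc, Fin.val_succ]; omega
    rw [h1]
    rfl

theorem backward [Finite S] (p : ℕ) [Fact p.Prime] (hp : p ≠ 2) (hS : IsPGroup p S)
    (hF : F.IsSaturated p) (P : Subgroup Ω) (hP : F.StronglyClosed P) (n : ℕ) (c : ℕ → Subgroup Ω)
    (h0 : c 0 = ⊥) (hn : c n = omegaOne p P) (hc : ∀ i ≤ n, F.StronglyClosed (c i))
    (hcomm : ∀ i < n, ⁅c (i + 1), P⁆ ≤ c i) : F.IsNormal P := by
  refine isNormal_of_forall hS hF hP (fun R hRa hRr hQR α hα g hg hgn => ?_)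
  have hRS : R ≤ S := hRa.1
  have hfR : Finite R := Finite.of_injective _ (Subgroup.inclusion_injective hRS)
  have hRp : IsPGroup p R := hS.to_le hRS
  have hfA : Finite (MulAut R) := by
    have : Finite (R ≃ R) := inferInstance
    exact Finite.of_injective (fun α : MulAut R => α.toEquiv) (fun a b h => by
      ext x; exact congrArg (fun e : R ≃ R => ((e x : R) : Ω)) h)
  let K : Subgroup (MulAut R) :=
    { carrier := {κ | κ ∈ F.autGroup R ∧ (∀ x : R, (x : Ω)⁻¹ * (κ x : R) ∈ P) ∧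
        ∀ i < n, ∀ x : R, (x : Ω) ∈ c (i + 1) → (x : Ω)⁻¹ * (κ x : R) ∈ c i}
      one_mem' := ⟨one_mem _, fun x => by simp, fun i _ x _ => by simp⟩
      mul_mem' := by
        rintro a b ⟨ha, ha', ha''⟩ ⟨hb, hb', hb''⟩
        have h1 : ∀ x : R, (x : Ω)⁻¹ * (a (b x) : R) = ((x : Ω)⁻¹ * (b x : R)) *
          (((b x : R) : Ω)⁻¹ * (a (b x) : R)) := fun x => by group
        refine ⟨mul_mem ha hb, fun x => ?_, fun i hi x hx => ?_⟩
        · rw [MulAut.mul_apply, h1]
          exact mul_mem (hb' x) (ha' _)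
        · rw [MulAut.mul_apply, h1]
          refine mul_mem (hb'' i hi x hx) (ha'' i hi _ ?_)
          exact StronglyClosed.apply_mem (hc (i + 1) hi) ((mem_autGroup F hRS).1 hb) hx
      inv_mem' := by
        rintro a ⟨ha, ha', ha''⟩
        refine ⟨inv_mem ha, fun x => ?_, fun i hi x hx => ?_⟩
        · have h1 := ha' (a⁻¹ x)
          rw [MulAut.apply_inv_self] at h1
          have h2 := inv_mem h1
          simpa using h2
        · have hx' : ((a⁻¹ x : R) : Ω) ∈ c (i + 1) :=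
            StronglyClosed.apply_mem (hc (i + 1) hi) ((mem_autGroup F hRS).1 (inv_mem ha)) hx
          have h1 := ha'' i hi (a⁻¹ x) hx'
          rw [MulAut.apply_inv_self] at h1
          have h2 := inv_mem h1
          simpa using h2 }
  have hKA : K ≤ F.autGroup R := fun k hk => hk.1
  have hKn : ∀ a ∈ F.autGroup R, ∀ k ∈ K, a * k * a⁻¹ ∈ K := by
    rintro a ha k ⟨hk, hk', hk''⟩
    have ham := (mem_autGroup F hRS).1 ha
    have ham' := (mem_autGroup F hRS).1 (inv_mem ha)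
    refine ⟨mul_mem (mul_mem ha hk) (inv_mem ha), fun x => ?_, fun i hi x hx => ?_⟩
    · have h1 := hk' (a⁻¹ x)
      have h2 : ((a ((a⁻¹ x)⁻¹ * k (a⁻¹ x)) : R) : Ω) ∈ P :=
        StronglyClosed.apply_mem hP ham (x := (a⁻¹ x)⁻¹ * k (a⁻¹ x)) h1
      rw [map_mul, map_inv, MulAut.apply_inv_self] at h2
      exact h2
    · have hx' : ((a⁻¹ x : R) : Ω) ∈ c (i + 1) := StronglyClosed.apply_mem (hc (i + 1) hi) ham' hx
      have h1 := hk'' i hi (a⁻¹ x) hx'
      have h2 : ((a ((a⁻¹ x)⁻¹ * k (a⁻¹ x)) : R) : Ω) ∈ c i :=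
        StronglyClosed.apply_mem (hc i hi.le) ham (x := (a⁻¹ x)⁻¹ * k (a⁻¹ x)) h1
      rw [map_mul, map_inv, MulAut.apply_inv_self] at h2
      exact h2
  -- elements of `K` of order prime to `p` are trivial
  have hKcop : ∀ κ ∈ K, (orderOf κ).Coprime p → κ = 1 := by
    rintro κ ⟨hκ, hκ', hκ''⟩ hcop
    have hit : ∀ x : R, (⇑κ.toMonoidHom)^[orderOf κ] x = x :=
      Transfer.OmegaFaithful.iterate_orderOf κ
    -- `κ` is trivial on `R ∩ c i`
    have hci : ∀ i ≤ n, ∀ x : R, (x : Ω) ∈ c i → κ x = x := by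
      intro i
      induction i with
      | zero =>
        intro _ x hx
        rw [h0, Subgroup.mem_bot] at hx
        have : x = 1 := Subtype.ext hx
        rw [this, map_one]
      | succ i ih =>
        intro hi x hx
        have h1 : κ (x⁻¹ * κ x) = x⁻¹ * κ x := ih (by omega) _ (hκ'' i (by omega) x hx)
        exact Transfer.OmegaFaithful.map_eq_self_of_fixed hRp hcop κ.toMonoidHom x (hit x) h1
    have hinvP : ∀ x ∈ P.subgroupOf R, κ.toMonoidHom x ∈ P.subgroupOf R := fun x hx =>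
      StronglyClosed.apply_mem hP ((mem_autGroup F hRS).1 hκ) hx
    obtain ⟨f, hf, hfn⟩ := Transfer.OmegaFaithful.restrict_data κ.toMonoidHom (P.subgroupOf R) hinvP
    have hfid : ∀ x : P.subgroupOf R, f x = x := by
      refine Transfer.OmegaFaithful.map_eq_self_of_omega hp hcop (P.subgroupOf R)
        (hRp.to_subgroup _) f (fun x => Subtype.ext (by rw [hfn, hit])) (fun x hx => ?_)
      refine Subtype.ext ?_
      rw [hf]
      refine hci n le_rfl x ?_
      rw [hn]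
      refine Subgroup.subset_closure ⟨x.2, ?_⟩
      have := congrArg (fun y : P.subgroupOf R => ((y : R) : Ω)) hx
      simpa using this
    have hPfix : ∀ x : R, (x : Ω) ∈ P → κ x = x := by
      intro x hx
      have := congrArg (fun y : P.subgroupOf R => (y : R)) (hfid ⟨x, hx⟩)
      simp only at this
      rw [hf] at this
      exact this
    refine MulEquiv.ext fun x => ?_
    have h1 : κ (x⁻¹ * κ x) = x⁻¹ * κ x := hPfix _ (hκ' x)
    exact Transfer.OmegaFaithful.map_eq_self_of_fixed hRp hcop κ.toMonoidHom x (hit x) h1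
  have hKp : IsPGroup p K := by
    rintro ⟨κ, hκ⟩
    have hpos : 0 < orderOf κ := orderOf_pos κ
    obtain ⟨e, m, hm, hem⟩ := Nat.exists_eq_pow_mul_and_not_dvd hpos.ne' p (Fact.out : p.Prime).ne_one
    have h1 : orderOf (κ ^ p ^ e) = m := by
      rw [orderOf_pow, hem, Nat.gcd_eq_right (Dvd.intro _ rfl),
        Nat.mul_div_cancel_left _ (pow_pos (Fact.out : p.Prime).pos _)]
    have h2 : κ ^ p ^ e = 1 := by
      refine hKcop _ (pow_mem hκ _) ?_
      rw [h1]
      exact ((Nat.Prime.coprime_iff_not_dvd Fact.out).2 hm).symm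
    exact ⟨e, Subtype.ext h2⟩
  have hKS := le_autInducedBy_of_normal hRa K hKA hKn hKp
  apply hKS
  apply hKn α hα
  refine ⟨autGroup_map F (conj_mem' F hRS (hP.1 hg) (fun x => rfl)), fun x => ?_, fun i hi x hx => ?_⟩
  · rw [coe_conjAut]
    have h1 : (x : Ω)⁻¹ * (g * x * g⁻¹) = ((x : Ω)⁻¹ * g * x) * g⁻¹ := by group
    rw [h1]
    exact mul_mem (StronglyClosed.conj_mem' hP (hRS x.2) hg) (inv_mem hg)
  · rw [coe_conjAut]
    have h1 : ⁅(x : Ω)⁻¹, g⁆ ∈ ⁅c (i + 1), P⁆ := Subgroup.commutator_mem_commutator (inv_mem hx) hg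
    have h2 := hcomm i hi h1
    have h3 : (x : Ω)⁻¹ * (g * x * g⁻¹) = ⁅(x : Ω)⁻¹, g⁆ := by
      rw [commutatorElement_def]; group
    rw [h3]
    exact h2

/-- Let p be an odd prime, F a saturated fusion system over a finite p-group S and P a subgroup of S strongly closed in F. Then P is normal in F if and only if Ω₁(P) (the subgroup generated by the elements of order p of P) has a chain of subgroups 1 = Q₀ ≤ Q₁ ≤ ⋯ ≤ Qₙ = Ω₁(P), each strongly closed in F, with [Qᵢ₊₁, P] ≤ Qᵢ for all i. -/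
theorem result {Ω : Type*} [Group Ω] {S : Subgroup Ω} [Finite S] (p : ℕ) [Fact p.Prime] (hS : IsPGroup p S) (F : Cfsg.FusionSystem S) (hF : F.IsSaturated p) (hp : p ≠ 2) (P : Subgroup Ω) (hP : F.StronglyClosed P) : F.IsNormal P ↔ ∃ (n : ℕ) (Q : Fin (n + 1) → Subgroup Ω), Q 0 = ⊥ ∧ Q (Fin.last n) = Cfsg.omegaOne p P ∧ Monotone Q ∧ (∀ i : Fin (n + 1), F.StronglyClosed (Q i)) ∧ ∀ i : Fin n, ⁅Q i.succ, P⁆ ≤ Q i.castSucc := by
  constructor
  · exact forward p hS P
  · rintro ⟨n, Q, h0, hn, -, hc, hcomm⟩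
    refine backward p hp hS hF P hP n (fun i => if h : i < n + 1 then Q ⟨i, h⟩ else ⊥) ?_ ?_ ?_ ?_
    · simp only [Nat.zero_lt_succ, dif_pos]
      exact h0
    · simp only [Nat.lt_succ_self, dif_pos]
      exact hn
    · intro i hi
      simp only [Nat.lt_succ_of_le hi, dif_pos]
      exact hc _
    · intro i hi
      have h1 : i + 1 < n + 1 := by omega
      have h2 : i < n + 1 := by omega
      simp only [h1, h2, dif_pos]
      exact hcomm ⟨i, hi⟩

end Cfsg.Agent.S5236
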