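import Cfsg.Statements.S5243
import Cfsg.Agent.H770.CharSys
set_option linter.all false

set_option autoImplicit false
open Cfsg Cfsg.Agent Cfsg.Agent.H752 Cfsg.Agent.H770

namespace Cfsg.Agent.S5243

/-- Let F be a saturated fusion system over a finite p-group S, E a normal subsystem of F over T ≤ S, and χ a surjective homomorphism from Aut_F(T) onto a nontrivial finite group Δ of order prime to p whose kernel contains Aut_E(T). Then there is a proper normal subsystem F₀ of F over S containing E such that Aut_{F₀}(S) consists of those α ∈ Aut_F(S) whose restriction to T is an element of Aut_F(T) in the kernel of χ; moreover every p'-residual subsystem O^{p'}(F) of F is contained in F₀. -/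
theorem result {Ω : Type*} [Group Ω] {S : Subgroup Ω} [Finite S] (p : ℕ) [Fact p.Prime] (hS : IsPGroup p S) (F : Cfsg.FusionSystem S) (hF : F.IsSaturated p) {T : Subgroup Ω} (hTS : T ≤ S) (E : Cfsg.FusionSystem T) (hE : E.IsNormalIn F p) {Δ : Type*} [Group Δ] [Finite Δ] [Nontrivial Δ] (hΔ : (Nat.card Δ).Coprime p) (χ : ↥(F.autGroup T) →* Δ) (hχ : Function.Surjective χ) (hker : (E.autGroup T).subgroupOf (F.autGroup T) ≤ χ.ker) : ∃ F₀ : Cfsg.FusionSystem S, F₀.IsNormalIn F p ∧ ¬ (∀ P : Subgroup Ω, F₀.Hom P = F.Hom P) ∧ E.IsSubsystemOf F₀ ∧ (∀ α : MulAut ↥S, α ∈ F₀.autGroup S ↔ α ∈ F.autGroup S ∧ ∃ β : ↥(F.autGroup T), χ β = 1 ∧ ∀ t : ↥T, (((β : MulAut ↥T) t : ↥T) : Ω) = ((α ⟨(t : Ω), hTS t.2⟩ : ↥S) : Ω)) ∧ ∀ R : Cfsg.FusionSystem S, F.IsPPrimeResidual p R → R.IsSubsystemOf F₀ := by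
  have hfT : Finite T := H802.finite_of_le hTS
  have hEs := hE.1
  have hEF : E.IsSubsystemOf F := hEs.2.2.1
  have hsc : F.StronglyClosed T := hEs.2.2.2.1
  have hmemK : ∀ a : MulAut T, a ∈ (χ.ker).map (F.autGroup T).subtype ↔
      ∃ h : a ∈ F.autGroup T, χ ⟨a, h⟩ = 1 := by
    intro a
    constructor
    · rintro ⟨b, hb, rfl⟩
      exact ⟨b.2, hb⟩
    · rintro ⟨h, h1⟩
      exact ⟨⟨a, h⟩, h1, rfl⟩
  have hD : CharData p E F ((χ.ker).map (F.autGroup T).subtype) := by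
    refine ⟨hS, hEs, ?_, ?_, ?_, ?_⟩
    · intro a ha
      exact ((hmemK a).1 ha).1
    · intro a ha k hk
      obtain ⟨h1, h2⟩ := (hmemK k).1 hk
      refine (hmemK _).2 ⟨mul_mem (mul_mem ha h1) (inv_mem ha), ?_⟩
      have : (⟨a * k * a⁻¹, mul_mem (mul_mem ha h1) (inv_mem ha)⟩ : F.autGroup T) =
        ⟨a, ha⟩ * ⟨k, h1⟩ * ⟨a, ha⟩⁻¹ := rfl
      rw [this, map_mul, map_mul, h2, mul_one, map_inv, mul_inv_cancel]
    · intro a ha
      have h1 : a ∈ F.autGroup T := mem_of_mp_ac (mp_mono hEF (mp_ac le_rfl ha))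
      exact (hmemK a).2 ⟨h1, hker (Subgroup.mem_subgroupOf.2 ha)⟩
    · intro a ha n hn
      obtain ⟨h1, h2⟩ := (hmemK _).1 hn
      refine (hmemK a).2 ⟨ha, ?_⟩
      have h3 : (⟨a ^ p ^ n, h1⟩ : F.autGroup T) = ⟨a, ha⟩ ^ p ^ n := rfl
      rw [h3, map_pow] at h2
      have h4 := orderOf_dvd_of_pow_eq_one h2
      have h5 := orderOf_dvd_natCard (χ ⟨a, ha⟩)
      have h6 : Nat.Coprime (Nat.card Δ) (p ^ n) := Nat.Coprime.pow_right n hΔ
      have h7 := Nat.eq_one_of_dvd_coprimes h6 h5 h4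
      exact orderOf_eq_one_iff.1 h7
  have hP := hD.pdata
  refine ⟨charSys E F _, hP.isNormalIn hS hF, ?_, hD.E_sub, ?_, ?_⟩
  · intro hall
    obtain ⟨δ, hδ⟩ := exists_ne (1 : Δ)
    obtain ⟨⟨α, hα⟩, hαδ⟩ := hχ δ
    obtain ⟨hTa, hTr⟩ := H752.automized_receptive_of_stronglyClosed hF hsc
    obtain ⟨k, hk, ψ, hψ, h1⟩ := mp_ext_kernel (F := F) hS (N := S) hTa hTr hα _ hD.hK hD.hKn
      le_rfl (H759.StronglyClosed.le_normalizer hsc) (by
        intro g hg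
        have hgn := H759.StronglyClosed.le_normalizer hsc hg
        refine ⟨_, hD.hKn α hα _ (hD.conj_mem_K hg), 1, one_mem _, one_mem _, fun x hx => ?_⟩
        rw [one_mul, inv_one, mul_one, ac_conj_apply hgn hx])
    have hψS : Mp F S ψ := hψ.res le_sup_right
    have h2 : Mp (charSys E F ((χ.ker).map (F.autGroup T).subtype)) S ψ := by
      obtain ⟨φ, hφ, h3⟩ := hψS
      rw [← hall] at hφ
      exact ⟨φ, hφ, h3⟩
    obtain ⟨-, κ, hκ, h3⟩ := hD.mp_S_iff.1 h2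
    have h4 : κ = k * α := by
      ext x
      rw [← ac_apply _ x.2, ← ac_apply _ x.2, ← h3 x x.2, h1 x x.2, ac_mul _ _ x.2]
    have h5 : α = k⁻¹ * κ := by rw [h4]; group
    have h6 : α ∈ (χ.ker).map (F.autGroup T).subtype := by
      rw [h5]; exact mul_mem (inv_mem hk) hκ
    obtain ⟨h7, h8⟩ := (hmemK α).1 h6
    exact hδ (hαδ ▸ h8)
  · intro α
    have h1 : α ∈ (charSys E F ((χ.ker).map (F.autGroup T).subtype)).autGroup S ↔
        Mp (charSys E F ((χ.ker).map (F.autGroup T).subtype)) S (ac α) := mp_iff_autGroup le_rfl α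
    have h2 : α ∈ F.autGroup S ↔ Mp F S (ac α) := mp_iff_autGroup le_rfl α
    rw [h1, hD.mp_S_iff, h2]
    refine and_congr_right fun _ => ?_
    constructor
    · rintro ⟨κ, hκ, h3⟩
      obtain ⟨h4, h5⟩ := (hmemK κ).1 hκ
      refine ⟨⟨κ, h4⟩, h5, fun t => ?_⟩
      rw [← ac_apply α (hTS t.2), h3 t t.2, ac_apply κ t.2]
    · rintro ⟨β, hβ, h3⟩
      refine ⟨β, (hmemK _).2 ⟨β.2, hβ⟩, fun x hx => ?_⟩
      rw [ac_apply α (hTS hx), ← h3 ⟨x, hx⟩, ac_apply _ hx]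
  · intro R hR
    exact hR.2.2 _ (hP.isSaturated hS hF) (hP.primeIndex hS hF)

end Cfsg.Agent.S5243
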