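import Cfsg.Agent.H781.Semi
import Cfsg.Agent.H651.NilFus
import Cfsg.Statements.S5245
set_option linter.all false

-- part: H781/Sparse
section
/-!
# Extremely sparse fusion systems (helper781)
-/

set_option autoImplicit false

namespace Cfsg.Agent.H781

open Cfsg Cfsg.FusionSystem Cfsg.Agent.H802

/-- An element of prime order `q ≠ p` in a finite group which is not a `p`-group. -/
theorem exists_prime_order_of_not_isPGroup {A : Type*} [Group A] [Finite A] {p : ℕ}
    [Fact p.Prime] (h : ¬ IsPGroup p A) : ∃ (q : ℕ) (a : A), q.Prime ∧ q ≠ p ∧ orderOf a = q := by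
  by_contra hcon
  push Not at hcon
  apply h
  have hne : Nat.card A ≠ 0 := Nat.card_pos.ne'
  have hpow := Nat.eq_prime_pow_of_unique_prime_dvd (n := Nat.card A) (p := p) hne
    (fun {q} hq hd => by
      by_contra hqp
      haveI := Fact.mk hq
      obtain ⟨a, ha⟩ := exists_prime_orderOf_dvd_card' (G := A) q hd
      exact hcon q a hq hqp ha)
  exact IsPGroup.of_card hpow

/-- The subgroup `[Q, α]` for an automorphism `α` of `Q`, as a subgroup of `Q`. -/
def commAut {A : Type*} [Group A] (α : MulAut A) : Subgroup A :=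
  Subgroup.closure {y : A | ∃ x : A, y = x⁻¹ * α x}

theorem commAut_map_mem {A : Type*} [Group A] (α : MulAut A) {y : A} (hy : y ∈ commAut α) :
    α y ∈ commAut α := by
  refine Subgroup.closure_induction (p := fun y _ => α y ∈ commAut α) ?_ ?_ ?_ ?_ hy
  · rintro _ ⟨x, rfl⟩
    refine Subgroup.subset_closure ⟨α x, ?_⟩
    rw [map_mul, map_inv]
  · rw [map_one]; exact Subgroup.one_mem _
  · intro a b _ _ ha hb
    rw [map_mul]; exact Subgroup.mul_mem _ ha hb
  · intro a _ ha
    rw [map_inv]; exact Subgroup.inv_mem _ ha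

/-- An automorphism of order prime to `p` of a `p`-group which is trivial on `[Q, α]` is trivial. -/
theorem eq_one_of_trivial_on_commAut {A : Type*} [Group A] {p q : ℕ} [Fact p.Prime]
    (hA : IsPGroup p A) (hq : q.Coprime p) {α : MulAut A} (hα : α ^ q = 1)
    (h : ∀ y ∈ commAut α, α y = y) : α = 1 := by
  apply MulEquiv.ext
  intro x
  have hc : α (x⁻¹ * α x) = x⁻¹ * α x := h _ (Subgroup.subset_closure ⟨x, rfl⟩)
  have hpow : ∀ n : ℕ, (α ^ n) x = x * (x⁻¹ * α x) ^ n := by
    intro n
    induction n with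
    | zero => simp
    | succ n ih =>
      rw [pow_succ', MulAut.mul_apply, ih, map_mul, map_pow, hc, pow_succ' (x⁻¹ * α x) n]
      have : α x = x * (x⁻¹ * α x) := by group
      nth_rewrite 1 [this]
      rw [mul_assoc]
  have h1 := hpow q
  rw [hα, MulAut.one_apply] at h1
  have h2 : (x⁻¹ * α x) ^ q = 1 := by
    have : x * (x⁻¹ * α x) ^ q = x * 1 := by rw [← h1, mul_one]
    exact mul_left_cancel this
  obtain ⟨k, hk⟩ := hA (x⁻¹ * α x)
  have h3 : orderOf (x⁻¹ * α x) ∣ Nat.gcd q (p ^ k) :=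
    Nat.dvd_gcd (orderOf_dvd_of_pow_eq_one h2) (orderOf_dvd_of_pow_eq_one hk)
  rw [Nat.Coprime.gcd_eq_one (Nat.Coprime.pow_right k hq), Nat.dvd_one, orderOf_eq_one_iff] at h3
  rw [MulAut.one_apply]
  calc α x = x * (x⁻¹ * α x) := by group
    _ = x := by rw [h3, mul_one]

variable {Ω : Type*} [Group Ω] {S : Subgroup Ω}

/-- The hypothesis of extreme sparseness. -/
def SparseHyp (p : ℕ) (F : FusionSystem S) : Prop :=
  ∀ (T : Subgroup Ω) (E : FusionSystem T), E.IsSaturated p → E.IsSubsystemOf F →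
    (T = S ∧ ∀ P : Subgroup Ω, E.Hom P = F.Hom P) ∨
      (∀ P : Subgroup Ω, E.Hom P = (innerFusionSystem T).Hom P)

/-- In an extremely sparse system an automorphism of prime order `≠ p` lives on `S` and determines the system. -/
theorem SparseHyp.eq {p : ℕ} [Fact p.Prime] [Finite S] (hS : IsPGroup p S) {F : FusionSystem S}
    (h : SparseHyp p F) {T : Subgroup Ω} (hT : T ≤ S) {α : MulAut T} (hα : α ∈ F.autGroup T)
    {q : ℕ} (hq : q.Prime) (hqp : q ≠ p) (hαq : orderOf α = q) :
    T = S ∧ ∀ P : Subgroup Ω, (semi (Subgroup.zpowers α)).Hom P = F.Hom P := by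
  haveI : Finite T := finite_of_le hT
  have hTp : IsPGroup p T := hS.to_le hT
  have hcop : (Nat.card (Subgroup.zpowers α)).Coprime p := by
    rw [Nat.card_zpowers, hαq]
    exact (Nat.coprime_primes hq Fact.out).2 hqp
  have hsat := semi_isSaturated hTp (Subgroup.zpowers α) hcop
  have hle : (semi (Subgroup.zpowers α)).IsSubsystemOf F :=
    semi_le hT (by rwa [Subgroup.zpowers_le])
  rcases h T _ hsat hle with h1 | h1
  · exact h1
  · exfalso
    have h2 : α ∈ (semi (Subgroup.zpowers α)).autGroup T :=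
      mem_autGroup_semi.2 ⟨1, α, Subgroup.mem_zpowers α, by simp⟩
    rw [mem_autGroup_iff _ le_rfl, h1 T] at h2
    obtain ⟨-, g, hg, hge⟩ := h2
    have h3 : α ∈ autInducedBy T T := (mem_autInducedBy_iff T T α).2 ⟨g, hg, hge⟩
    obtain ⟨k, hk⟩ := isPGroup_autInducedBy hTp T ⟨α, h3⟩
    have h4 : α ^ p ^ k = 1 := congrArg Subtype.val hk
    have h5 : q ∣ p ^ k := hαq ▸ orderOf_dvd_of_pow_eq_one h4
    exact hqp ((Nat.prime_dvd_prime_iff_eq hq Fact.out).1 (hq.dvd_of_dvd_pow h5))

theorem sparse_main {p : ℕ} [Fact p.Prime] [Finite S] (hS : IsPGroup p S) {F : FusionSystem S}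
    (hF : F.IsSaturated p) (hni : ¬ ∀ P : Subgroup Ω, F.Hom P = (innerFusionSystem S).Hom P)
    (h : SparseHyp p F) :
    F.IsNormal S ∧ F.focalSubgroup = S ∧ F.hyperfocalSubgroup p = S ∧
      ∃ (q : ℕ) (β : MulAut S), q.Prime ∧ q ≠ p ∧ β ∈ F.autGroup S ∧ orderOf β = q ∧
        (F.autGroup S : Subgroup (MulAut S)) = Inn S ⊔ Subgroup.zpowers β := by
  -- an automorphism of prime order `q ≠ p`
  obtain ⟨Q, hQS, hQ⟩ : ∃ Q : Subgroup Ω, Q ≤ S ∧ ¬ IsPGroup p (F.autGroup Q) := by
    by_contra hcon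
    push Not at hcon
    exact hni (H651.hom_eq_inner_of_isPGroup hS hF hcon)
  haveI : Finite Q := finite_of_le hQS
  haveI : Finite (MulAut Q) := Finite.of_injective (fun e : MulAut Q => (e : Q → Q))
    (fun a b h => MulEquiv.ext (fun x => congrFun h x))
  obtain ⟨q, ⟨α, hα⟩, hq, hqp, hord⟩ := exists_prime_order_of_not_isPGroup hQ
  have hord' : orderOf α = q := by
    rw [← hord, ← Subgroup.orderOf_coe]
  obtain ⟨hQeq, hE⟩ := h.eq hS hQS hα hq hqp hord'
  subst hQeq
  have hcq : q.Coprime p := (Nat.coprime_primes hq Fact.out).2 hqp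
  -- `[S, α] = S`
  have hαq : α ^ q = 1 := by rw [← hord']; exact pow_orderOf_eq_one α
  set T : Subgroup Ω := (commAut α).map Q.subtype with hTdef
  have hTQ : T ≤ Q := by
    rintro _ ⟨x, -, rfl⟩
    exact x.2
  have hmemT : ∀ x : Q, (x : Ω) ∈ T ↔ x ∈ commAut α := by
    intro x
    constructor
    · rintro ⟨y, hy, hyx⟩
      have : y = x := Subtype.ext hyx
      rwa [← this]
    · intro hx
      exact ⟨x, hx, rfl⟩
  have hTeq : T = Q := by
    have h1 := (mem_autGroup_iff F le_rfl α).1 hα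
    have h2 := restrict_mem h1 hTQ
    have h3 : ∀ x : T, ((Q.subtype.comp α.toMonoidHom).comp (Subgroup.inclusion hTQ)) x ∈ T := by
      intro x
      show ((α (Subgroup.inclusion hTQ x) : Q) : Ω) ∈ T
      rw [hmemT]
      exact commAut_map_mem α ((hmemT _).1 x.2)
    haveI : Finite T := finite_of_le hTQ
    obtain ⟨γ, hγ, hγe⟩ := exists_aut h2 (range_eq_of_mapsTo h2 h3)
    have hγn : ∀ (n : ℕ) (x : T), (((γ ^ n) x : T) : Ω) = ((α ^ n) (Subgroup.inclusion hTQ x) : Q) := by
      intro n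
      induction n with
      | zero => intro x; rfl
      | succ n ih =>
        intro x
        rw [pow_succ, MulAut.mul_apply, ih, pow_succ, MulAut.mul_apply]
        congr 2
        exact Subtype.ext (hγe x)
    have hγq : γ ^ q = 1 := by
      apply MulEquiv.ext
      intro x
      apply Subtype.ext
      rw [hγn, hαq]
      rfl
    have hγ1 : γ ≠ 1 := by
      intro hγ1
      have : α = 1 := by
        refine eq_one_of_trivial_on_commAut hS hcq hαq (fun y hy => ?_)
        have h4 := hγe ⟨y, (hmemT y).2 hy⟩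
        rw [hγ1] at h4
        exact Subtype.ext h4.symm
      rw [this, orderOf_one] at hord'
      exact hq.one_lt.ne hord'
    have hordγ : orderOf γ = q := by
      rcases (Nat.dvd_prime hq).1 (orderOf_dvd_of_pow_eq_one hγq) with h5 | h5
      · exact absurd (orderOf_eq_one_iff.1 h5) hγ1
      · exact h5
    exact (h.eq hS hTQ hγ hq hqp hordγ).1
  have hall : ∀ x : Q, x ∈ commAut α := by
    intro x
    rw [← hmemT, hTeq]
    exact x.2
  have hgen : ∀ K : Subgroup Ω, (∀ x : Q, (x : Ω)⁻¹ * (α x : Q) ∈ K) → Q ≤ K := by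
    intro K hK y hy
    have h1 := hall ⟨y, hy⟩
    refine Subgroup.closure_induction (p := fun (z : Q) _ => (z : Ω) ∈ K) ?_ ?_ ?_ ?_ h1
    · rintro _ ⟨x, rfl⟩
      exact hK x
    · exact K.one_mem
    · intro a b _ _ ha hb
      exact K.mul_mem ha hb
    · intro a _ ha
      exact K.inv_mem ha
  have hfocle : F.focalSubgroup ≤ Q := by
    refine (Subgroup.closure_le _).2 ?_
    rintro _ ⟨P, φ, x, hφ, rfl⟩
    exact Q.mul_mem (Q.inv_mem (hom_le hφ x.2)) (hom_apply_mem hφ x)
  have hhyple : F.hyperfocalSubgroup p ≤ Q := by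
    refine (Subgroup.closure_le _).2 ?_
    rintro _ ⟨P, β, x, hP, -, rfl⟩
    exact Q.mul_mem (Q.inv_mem (hP x.2)) (hP (((β : MulAut P) x).2))
  refine ⟨⟨le_rfl, ?_⟩, le_antisymm hfocle ?_, le_antisymm hhyple ?_, q, α, hq, hqp, hα, hord', ?_⟩
  · intro P φ hφ
    have hPQ := hom_le hφ
    rw [← hE P] at hφ
    obtain ⟨_, a, β, hβ, he⟩ := mem_semi_iff.1 hφ
    have key : ∀ R : Subgroup Ω, R = Q → ∀ (hle : P ≤ R),
        ∃ ψ ∈ F.Hom R, (∀ x : P, ψ (Subgroup.inclusion hle x) = φ x) ∧
          (Q.subgroupOf R).map ψ = Q := by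
      rintro R rfl hle
      refine ⟨R.subtype.comp (MulAut.conj a * β).toMonoidHom, ?_, fun x => ?_, ?_⟩
      · rw [← mem_autGroup_iff F le_rfl]
        have hβF : β ∈ F.autGroup R := by
          have : Subgroup.zpowers α ≤ F.autGroup R := by rwa [Subgroup.zpowers_le]
          exact this hβ
        refine Subgroup.mul_mem _ ?_ hβF
        exact autInducedBy_le_autGroup F le_rfl
          ((mem_autInducedBy_iff _ _ _).2 ⟨a, a.2, fun x => rfl⟩)
      · rw [he]
        rfl
      · ext y
        constructor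
        · rintro ⟨x, -, rfl⟩
          exact ((MulAut.conj a * β) x).2
        · intro hy
          refine ⟨(MulAut.conj a * β).symm ⟨y, hy⟩, ?_, ?_⟩
          · exact ((MulAut.conj a * β).symm ⟨y, hy⟩).2
          · show (((MulAut.conj a * β) ((MulAut.conj a * β).symm ⟨y, hy⟩) : R) : Ω) = y
            rw [MulEquiv.apply_symm_apply]
    exact key _ (sup_eq_right.2 hPQ) le_sup_left
  · refine hgen _ (fun x => Subgroup.subset_closure ?_)
    exact ⟨Q, Q.subtype.comp α.toMonoidHom, x, (mem_autGroup_iff F le_rfl α).1 hα, rfl⟩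
  · refine hgen _ (fun x => Subgroup.subset_closure ?_)
    refine ⟨Q, ⟨α, hα⟩, x, le_rfl, Subgroup.subset_closure ?_, rfl⟩
    show Nat.Coprime (orderOf (⟨α, hα⟩ : F.autGroup Q)) p
    rw [← Subgroup.orderOf_coe]
    show Nat.Coprime (orderOf α) p
    rw [hord']
    exact hcq
  · apply le_antisymm
    · intro β hβ
      rw [mem_autGroup_iff F le_rfl, ← hE Q, ← mem_autGroup_iff _ le_rfl, mem_autGroup_semi] at hβ
      obtain ⟨a, γ, hγ, rfl⟩ := hβ
      exact Subgroup.mul_mem _ (Subgroup.mem_sup_left ⟨a, rfl⟩) (Subgroup.mem_sup_right hγ)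
    · refine sup_le ?_ (by rwa [Subgroup.zpowers_le])
      rintro _ ⟨a, rfl⟩
      exact autInducedBy_le_autGroup F le_rfl
        ((mem_autInducedBy_iff _ _ _).2 ⟨a, a.2, fun x => rfl⟩)

end Cfsg.Agent.H781
end

-- part: S5245
section
set_option autoImplicit false
open Cfsg

namespace Cfsg.Agent.S5245

/-- Let F be an extremely sparse fusion system over a finite p-group S (saturated, not the inner system, and every saturated fusion system over any subgroup T of S contained in F is F itself or the inner system of T). Then S is normal in F, the focal and hyperfocal subgroups of F are both S, and Aut_F(S) is generated by the inner automorphisms of S together with a single automorphism of prime order q ≠ p (F is the fusion system of the semidirect product of S by a cyclic group of prime order). -/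
theorem result {Ω : Type*} [Group Ω] {S : Subgroup Ω} [Finite S] (p : ℕ) [Fact p.Prime] (hS : IsPGroup p S) (F : Cfsg.FusionSystem S) (hF : F.IsSaturated p) (hxs : ¬ (∀ P : Subgroup Ω, F.Hom P = (Cfsg.innerFusionSystem S).Hom P) ∧ ∀ (T : Subgroup Ω) (E : Cfsg.FusionSystem T), E.IsSaturated p → E.IsSubsystemOf F → (T = S ∧ ∀ P : Subgroup Ω, E.Hom P = F.Hom P) ∨ (∀ P : Subgroup Ω, E.Hom P = (Cfsg.innerFusionSystem T).Hom P)) : F.IsNormal S ∧ F.focalSubgroup = S ∧ F.hyperfocalSubgroup p = S ∧ ∃ (q : ℕ) (β : MulAut ↥S), q.Prime ∧ q ≠ p ∧ β ∈ F.autGroup S ∧ orderOf β = q ∧ (F.autGroup S : Subgroup (MulAut ↥S)) = Cfsg.Inn ↥S ⊔ Subgroup.zpowers β := by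
  exact H781.sparse_main hS hF hxs.1 hxs.2

end Cfsg.Agent.S5245
end
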