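import Cfsg.Statements.S5251
import Cfsg.Agent.H782.StabCore
set_option linter.all false

set_option autoImplicit false
open Cfsg

namespace Cfsg.Agent.S5251

open Cfsg.FusionSystem Cfsg.Agent.H802 Cfsg.Agent.H782

variable {Ω : Type*} [Group Ω] {S : Subgroup Ω}

/-- `C_T(Q₁)` is not contained in `Q₁` for a fully normalized conjugate `Q₁` of `P ∩ T`. -/
theorem exists_cent_not_mem {p : ℕ} [Fact p.Prime] [Finite S] (hS : IsPGroup p S)
    {F : FusionSystem S} (hF : F.IsSaturated p) {T : Subgroup Ω} (hT : F.StronglyClosed T)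
    {Q Q₁ : Subgroup Ω} (hc : F.IsConj Q Q₁) (hQ₁ : F.IsFullyNormalized Q₁)
    (hn : ¬ centralizerIn T Q ≤ Q) : ¬ centralizerIn T Q₁ ≤ Q₁ := by
  intro hle
  apply hn
  obtain ⟨χ, hχ, hχr⟩ := hc
  obtain ⟨ψ, hψ, hψe⟩ := (isReceptive_of_isFullyNormalized hS hF hQ₁).2 Q χ hχ hχr
  intro c hcc
  have hQS : Q ≤ S := hom_le hχ
  have hcS : c ∈ S := hT.1 hcc.1
  have hcE : c ∈ extender S Q χ := centralizerIn_le_extender S Q χ ⟨hcS, hcc.2⟩
  have h1 : ψ ⟨c, hcE⟩ ∈ centralizerIn S Q₁ :=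
    apply_mem_centralizerIn hψ (le_extender hQS (hom_apply_mem hχ)) hχr
      (fun x hx => hψe x hx _) ⟨c, hcE⟩ hcc.2
  have h2 : ψ ⟨c, hcE⟩ ∈ T := map_mem_of_stronglyClosed hT hψ ⟨c, hcE⟩ hcc.1
  have h3 : ψ ⟨c, hcE⟩ ∈ Q₁ := hle ⟨h2, h1.2⟩
  rw [← hχr] at h3
  obtain ⟨q, hq⟩ := h3
  have h4 : ψ ⟨(q : Ω), le_extender hQS (hom_apply_mem hχ) q.2⟩ = χ q := hψe q q.2 _
  have h5 := F.injective_of_mem hψ (h4.trans hq)
  have h6 : (q : Ω) = c := congrArg Subtype.val h5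
  rw [← h6]
  exact q.2

/-- Products in `P ⊔ C`, `P` normalising `C`. -/
theorem exists_mul_of_mem_sup {P C : Subgroup Ω} (hn : ∀ y ∈ P, ∀ c ∈ C, y * c * y⁻¹ ∈ C) {g : Ω}
    (hg : g ∈ P ⊔ C) : ∃ y ∈ P, ∃ c ∈ C, g = y * c := by
  rw [Subgroup.sup_eq_closure] at hg
  refine Subgroup.closure_induction (p := fun g _ => ∃ y ∈ P, ∃ c ∈ C, g = y * c) ?_ ?_ ?_ ?_ hg
  · rintro x (hx | hx)
    · exact ⟨x, hx, 1, C.one_mem, by simp⟩
    · exact ⟨1, P.one_mem, x, hx, by simp⟩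
  · exact ⟨1, P.one_mem, 1, C.one_mem, by simp⟩
  · rintro _ _ _ _ ⟨y, hy, c, hc, rfl⟩ ⟨y', hy', c', hc', rfl⟩
    refine ⟨y * y', P.mul_mem hy hy', (y'⁻¹ * c * y'⁻¹⁻¹) * c',
      C.mul_mem (hn _ (P.inv_mem hy') _ hc) hc', by group⟩
  · rintro _ _ ⟨y, hy, c, hc, rfl⟩
    refine ⟨y⁻¹, P.inv_mem hy, y * c⁻¹ * y⁻¹, hn _ hy _ (C.inv_mem hc), by group⟩

/-- Let F be a saturated fusion system over a finite p-group S, E a normal subsystem of F over T, and P an F-centric subgroup of S such that P ∩ T is not E-centric. Then some F-conjugate P* of P satisfies Out_S(P*) ∩ O_p(Out_F(P*)) ≠ 1: there is an element of N_S(P*) outside P* whose conjugation action on P* lies in O_p(Aut_F(P*)). In particular P is not both centric and radical in F. -/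
theorem result {Ω : Type*} [Group Ω] {S : Subgroup Ω} [Finite S] (p : ℕ) [Fact p.Prime] (hS : IsPGroup p S) (F : Cfsg.FusionSystem S) (hF : F.IsSaturated p) {T : Subgroup Ω} (E : Cfsg.FusionSystem T) (hE : E.IsNormalIn F p) (P : Subgroup Ω) (hP : F.IsCentric P) (hPT : ¬ E.IsCentric (P ⊓ T)) : (∃ φ ∈ F.Hom P, ∃ x ∈ S ⊓ Subgroup.normalizer (φ.range : Set Ω), x ∉ φ.range ∧ ∃ α ∈ ((Cfsg.pCore p ↥(F.autGroup φ.range)).map (F.autGroup φ.range).subtype : Subgroup (MulAut ↥φ.range)), ∀ y : ↥φ.range, ((α y : ↥φ.range) : Ω) = x * (y : Ω) * x⁻¹) ∧ ¬ F.IsRadical p P := by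
  have hT : F.StronglyClosed T := hE.1.2.2.2.1
  have hEF : E.IsSubsystemOf F := hE.1.2.2.1
  have hPS : P ≤ S := hP.1
  -- the conjugate of `P ∩ T` witnessing non-centricity
  have hex : ∃ Q : Subgroup Ω, E.IsConj (P ⊓ T) Q ∧ ¬ centralizerIn T Q ≤ Q := by
    by_contra hcon
    push Not at hcon
    exact hPT ⟨inf_le_right, hcon⟩
  obtain ⟨Q, ⟨θ, hθ, hθr⟩, hQn⟩ := hex
  have hcQ : F.IsConj (P ⊓ T) Q := ⟨θ, hEF _ hθ, hθr⟩
  obtain ⟨Q₁, hcQ₁, hQ₁⟩ := exists_isFullyNormalized hS hF (inf_le_left.trans hPS : P ⊓ T ≤ S)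
  have hcen : ¬ centralizerIn T Q₁ ≤ Q₁ :=
    exists_cent_not_mem hS hF hT (isConj_trans (isConj_symm hcQ) hcQ₁) hQ₁ hQn
  -- the map onto `Q₁` extended to `N_S(P ∩ T)`
  obtain ⟨χ, hχ, hχr⟩ := hcQ₁
  obtain ⟨β, hβ, ψ, hψ, hψe, hψN⟩ := exists_extension_normalizer hS hF hχ hχr hQ₁
  have hPN : P ≤ normalizerIn S (P ⊓ T) := by
    intro y hy
    refine ⟨hPS hy, Subgroup.mem_normalizer_iff.2 fun z => ⟨fun hz => ?_, fun hz => ?_⟩⟩
    · exact ⟨P.mul_mem (P.mul_mem hy hz.1) (P.inv_mem hy),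
        conj_mem_of_stronglyClosed hT (hPS hy) hz.2⟩
    · have e : z = y⁻¹ * (y * z * y⁻¹) * y⁻¹⁻¹ := by group
      rw [e]
      exact ⟨P.mul_mem (P.mul_mem (P.inv_mem hy) hz.1) (P.inv_mem (P.inv_mem hy)),
        conj_mem_of_stronglyClosed hT (S.inv_mem (hPS hy)) hz.2⟩
  set φ : P →* Ω := ψ.comp (Subgroup.inclusion hPN) with hφdef
  have hφ : φ ∈ F.Hom P := restrict_mem hψ hPN
  have hχmem : ∀ x : ↥(P ⊓ T), χ x ∈ Q₁ := fun x => by rw [← hχr]; exact ⟨x, rfl⟩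
  -- `φ` on `P ∩ T`
  have hφT : ∀ (y : P) (hy : (y : Ω) ∈ T), φ y ∈ Q₁ := by
    intro y hy
    have h := hψe ⟨y, y.2, hy⟩ (hχmem _) (hPN y.2)
    show ψ ⟨(y : Ω), hPN y.2⟩ ∈ Q₁
    rw [h]
    exact (β _).2
  have hQ₁φ : Q₁ ≤ φ.range := by
    intro z hz
    have hw : ((β.symm ⟨z, hz⟩ : Q₁) : Ω) ∈ χ.range := by
      rw [hχr]
      exact (β.symm ⟨z, hz⟩).2
    obtain ⟨x, hx⟩ := hw
    refine ⟨⟨x, x.2.1⟩, ?_⟩
    have h := hψe x (hχmem _) (hPN x.2.1)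
    show ψ ⟨(x : Ω), hPN x.2.1⟩ = z
    rw [h]
    have : (⟨χ x, hχmem x⟩ : Q₁) = β.symm ⟨z, hz⟩ := Subtype.ext hx
    rw [this, MulEquiv.apply_symm_apply]
  have hφTr : ∀ z ∈ φ.range, z ∈ T → z ∈ Q₁ := by
    rintro _ ⟨y, rfl⟩ hy
    exact hφT y (mem_of_map_mem_of_stronglyClosed hT hφ y hy)
  have hQ₁T : Q₁ ≤ T := by
    intro z hz
    obtain ⟨x, hx⟩ := hQ₁φ hz
    have : z ∈ χ.range := by rw [hχr]; exact hz
    obtain ⟨w, rfl⟩ := this
    exact map_mem_of_stronglyClosed hT hχ w w.2.2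
  have hφS : φ.range ≤ S := range_le_of_mem hφ
  have hPφ : F.IsConj P φ.range := ⟨φ, hφ, rfl⟩
  -- the element `x`
  have hexx : ∃ x ∈ centralizerIn T Q₁, x ∉ φ.range ∧
      x ∈ Subgroup.normalizer (φ.range : Set Ω) := by
    have hCS : centralizerIn T Q₁ ≤ S := inf_le_left.trans hT.1
    have hnotle : ¬ centralizerIn T Q₁ ≤ φ.range := by
      intro hle
      exact hcen (fun c hc => hφTr c (hle hc) hc.1)
    have hlt : φ.range < φ.range ⊔ centralizerIn T Q₁ :=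
      lt_of_le_of_ne le_sup_left (fun heq => hnotle (by rw [heq]; exact le_sup_right))
    have hlt2 := lt_inf_normalizer hS (hlt.le) (sup_le hφS hCS) hlt.ne
    obtain ⟨g, hg, hgn⟩ := SetLike.exists_of_lt hlt2
    obtain ⟨hg1, hg2⟩ := hg
    have hnorm : ∀ y ∈ φ.range, ∀ c ∈ centralizerIn T Q₁, y * c * y⁻¹ ∈ centralizerIn T Q₁ := by
      intro y hy c hc
      refine ⟨conj_mem_of_stronglyClosed hT (hφS hy) hc.1, ?_⟩
      refine Subgroup.mem_centralizer_iff.2 fun z hz => ?_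
      have hz' : y⁻¹ * z * y⁻¹⁻¹ ∈ Q₁ := by
        refine hφTr _ (φ.range.mul_mem (φ.range.mul_mem (φ.range.inv_mem hy) (hQ₁φ hz))
          (φ.range.inv_mem (φ.range.inv_mem hy))) ?_
        exact conj_mem_of_stronglyClosed hT (S.inv_mem (hφS hy)) (hQ₁T hz)
      have h := Subgroup.mem_centralizer_iff.1 hc.2 _ hz'
      calc z * (y * c * y⁻¹) = y * ((y⁻¹ * z * y⁻¹⁻¹) * c) * y⁻¹ := by group
        _ = y * (c * (y⁻¹ * z * y⁻¹⁻¹)) * y⁻¹ := by rw [h]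
        _ = y * c * y⁻¹ * z := by group
    obtain ⟨y, hy, c, hc, rfl⟩ := exists_mul_of_mem_sup hnorm hg1
    refine ⟨c, hc, fun hc' => hgn (φ.range.mul_mem hy hc'), ?_⟩
    have h3 : y ∈ Subgroup.normalizer (φ.range : Set Ω) := Subgroup.le_normalizer hy
    have h4 := Subgroup.mul_mem _ (Subgroup.inv_mem _ h3) hg2
    have e : y⁻¹ * (y * c) = c := by group
    rwa [e] at h4
  obtain ⟨x, hxC, hxn, hxN⟩ := hexx
  have hxS : x ∈ S := hT.1 hxC.1
  obtain ⟨α, hα⟩ := exists_conjAut hxN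
  have hαF : α ∈ F.autGroup φ.range :=
    autInducedBy_le_autGroup F hφS ((mem_autInducedBy_iff S _ α).2 ⟨x, hxS, hα⟩)
  -- `x` commutes with `Q₁`
  have hxcomm : ∀ q ∈ Q₁, x * q * x⁻¹ = q := by
    intro q hq
    rw [← Subgroup.mem_centralizer_iff.1 hxC.2 q hq]
    group
  have hxcomT : ∀ y ∈ φ.range, x * y * x⁻¹ * y⁻¹ ∈ T := by
    intro y hy
    have h := T.mul_mem hxC.1 (conj_mem_of_stronglyClosed hT (hφS hy) (T.inv_mem hxC.1))
    have e : x * (y * x⁻¹ * y⁻¹) = x * y * x⁻¹ * y⁻¹ := by group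
    rwa [e] at h
  refine ⟨⟨φ, hφ, x, ⟨hxS, hxN⟩, hxn, α, ?_, hα⟩, ?_⟩
  · refine ⟨⟨α, hαF⟩, ?_, rfl⟩
    refine mem_pCore_of_stab hS hT hφS ⟨α, hαF⟩ ?_ ?_
    · intro y hy
      apply Subtype.ext
      rw [hα]
      exact hxcomm _ (hφTr y y.2 hy)
    · intro y
      rw [hα]
      exact hxcomT y y.2
  · rintro ⟨-, hrad⟩
    -- transport `α` to `P`
    set e := isoOf φ (F.injective_of_mem hφ) rfl with he
    have hex : ∀ y : P, ((e y : φ.range) : Ω) = φ y := fun y => rfl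
    set γ : MulAut P := (MulAut.congr e).symm α with hγ
    have hγα : MulAut.congr e γ = α := (MulAut.congr e).apply_symm_apply α
    have hγF : γ ∈ F.autGroup P := by
      rw [← congr_mem_autGroup_iff hφ rfl]
      show MulAut.congr e γ ∈ _
      rw [hγα]
      exact hαF
    have hγe : ∀ y : P, φ (γ y) = x * φ y * x⁻¹ := by
      intro y
      have h1 : e (γ y) = α (e y) := by
        rw [← hγα]
        show e (γ y) = e (γ (e.symm (e y)))
        rw [MulEquiv.symm_apply_apply]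
      have h2 := congrArg Subtype.val h1
      rw [hex, hα, hex] at h2
      exact h2
    have hmem : γ ∈ (pCore p (F.autGroup P)).map (F.autGroup P).subtype := by
      refine ⟨⟨γ, hγF⟩, ?_, rfl⟩
      refine mem_pCore_of_stab hS hT hPS ⟨γ, hγF⟩ ?_ ?_
      · intro y hy
        apply F.injective_of_mem hφ
        rw [hγe]
        exact hxcomm _ (hφT y hy)
      · intro y
        have h := hxcomT (φ y) ⟨y, rfl⟩
        rw [← hγe, ← map_inv, ← map_mul] at h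
        exact mem_of_map_mem_of_stronglyClosed hT hφ _ h
    rw [hrad] at hmem
    obtain ⟨w, hw⟩ := hmem
    -- `φ(w)⁻¹ x` centralises `φ(P)`
    apply hxn
    have hc : (φ w)⁻¹ * x ∈ centralizerIn S φ.range := by
      refine ⟨S.mul_mem (S.inv_mem (hom_apply_mem hφ w)) hxS, ?_⟩
      refine Subgroup.mem_centralizer_iff.2 ?_
      rintro _ ⟨y, rfl⟩
      have h1 := hγe y
      rw [← hw] at h1
      have h2 : φ ((MulAut.conj w) y) = φ w * φ y * (φ w)⁻¹ := by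
        rw [MulAut.conj_apply, map_mul, map_mul, map_inv]
      rw [h2] at h1
      calc φ y * ((φ w)⁻¹ * x) = (φ w)⁻¹ * (φ w * φ y * (φ w)⁻¹) * x := by group
        _ = (φ w)⁻¹ * (x * φ y * x⁻¹) * x := by rw [h1]
        _ = (φ w)⁻¹ * x * φ y := by group
    have h3 := hP.2 _ hPφ hc
    have h4 := φ.range.mul_mem (⟨w, rfl⟩ : φ w ∈ φ.range) h3
    have e5 : φ w * ((φ w)⁻¹ * x) = x := by group
    rwa [e5] at h4

end Cfsg.Agent.S5251
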