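import Cfsg.Agent.H747.Hyperfocal
import Cfsg.Agent.H759.FusFactor
import Cfsg.Agent.H802.FusKNorm
import Cfsg.Agent.H802.FusNorm
import Cfsg.Agent.H747.MonoOfBiset
import Cfsg.Agent.Lib.FrattiniPGroup
import Cfsg.Agent.Lib.NormalAbelian
import Cfsg.Statements.S5271
set_option linter.all false

-- part: H787/WeakEmb
section
set_option autoImplicit false
open Cfsg Cfsg.FusionSystem

/-!
# Weakly embedded subgroups of one order (helper787)

* `exists_coprime_lift` : an automorphism of `R` in `F` of order prime to `p` agrees modulo a strongly closed `T`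
  with an automorphism of `R T` in `F` of order prime to `p`.
* `eq_one_of_large` : if all subgroups of order `d` are weakly embedded and have inner normalizer systems, then
  automorphisms of order prime to `p` of subgroups of order at least `d` are trivial.
-/

namespace Cfsg.Agent.H787

variable {Ω : Type*} [Group Ω] {S : Subgroup Ω}

/-- `m ≡ 1` modulo `r` and `m ≡ 0` modulo `p ^ a`, when `r` is prime to `p`. -/
theorem exists_mod_pow {p r : ℕ} (a : ℕ) (h : r.Coprime p) : ∃ m : ℕ, m ≡ 1 [MOD r] ∧ p ^ a ∣ m := by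
  obtain ⟨m, h1, h2⟩ := Nat.chineseRemainder (h.pow_right a) 1 0
  exact ⟨m, h1, (Nat.modEq_zero_iff_dvd).1 h2⟩

theorem pow_eq_of_modEq {G : Type*} [Group G] {g : G} {m : ℕ} (h : m ≡ 1 [MOD orderOf g]) :
    g ^ m = g := by
  have := (pow_eq_pow_iff_modEq (x := g)).2 h
  simpa using this

/-- An element of a finite group has a power of order prime to `p` with exponent `≡ 1` modulo a given
number prime to `p`. -/
theorem exists_coprime_power {G : Type*} [Group G] {p r : ℕ} [hp : Fact p.Prime] (g : G)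
    (hg : orderOf g ≠ 0) (h : r.Coprime p) :
    ∃ m : ℕ, m ≡ 1 [MOD r] ∧ (orderOf (g ^ m)).Coprime p := by
  obtain ⟨a, b, hb, hab⟩ := Nat.exists_eq_pow_mul_and_not_dvd hg p hp.out.ne_one
  obtain ⟨m, h1, c, hc⟩ := exists_mod_pow a h
  refine ⟨m, h1, ?_⟩
  have h2 : (g ^ m) ^ b = 1 := by
    rw [← pow_mul]
    apply orderOf_dvd_iff_pow_eq_one.1
    rw [hab, hc]
    exact ⟨c, by ring⟩
  exact Nat.Coprime.coprime_dvd_left (orderOf_dvd_of_pow_eq_one h2)
    ((Nat.Prime.coprime_iff_not_dvd hp.out).2 hb).symm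

/-- Powers of an automorphism of `R` and an automorphism of `R T` congruent modulo `T`. -/
theorem pow_congr_mod {T R U : Subgroup Ω} (hRU : R ≤ U) {α : MulAut R} {β : MulAut U}
    (hβT : ∀ y : U, (y : Ω) ∈ T → ((β y : U) : Ω) ∈ T)
    (h : ∀ x : R, ((α x : R) : Ω)⁻¹ * (β ⟨x, hRU x.2⟩ : U) ∈ T) (n : ℕ) (x : R) :
    (((α ^ n) x : R) : Ω)⁻¹ * ((β ^ n) ⟨x, hRU x.2⟩ : U) ∈ T := by
  induction n with
  | zero => simp
  | succ n ih =>
    rw [pow_succ', pow_succ', MulAut.mul_apply, MulAut.mul_apply]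
    have h1 := h ((α ^ n) x)
    have h2 := hβT (⟨(((α ^ n) x : R) : Ω), hRU ((α ^ n) x).2⟩⁻¹ * (β ^ n) ⟨x, hRU x.2⟩) ih
    rw [map_mul, map_inv] at h2
    have h3 := T.mul_mem h1 h2
    simpa [mul_assoc] using h3

/-- **Lifting automorphisms of order prime to `p`** modulo a strongly closed subgroup. -/
theorem exists_coprime_lift [Finite S] {p : ℕ} [Fact p.Prime] (hS : IsPGroup p S)
    {F : FusionSystem S} (hF : F.IsSaturated p) {T : Subgroup Ω} (hT : F.StronglyClosed T)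
    {R : Subgroup Ω} (hR : R ≤ S) {α : MulAut R} (hα : α ∈ F.autGroup R)
    (hco : (orderOf α).Coprime p) :
    ∃ β ∈ F.autGroup (R ⊔ T), (orderOf β).Coprime p ∧
      ∀ (x : R), ((α x : R) : Ω)⁻¹ * (β ⟨x, le_sup_left (a := R) (b := T) x.2⟩ : ↥(R ⊔ T)) ∈ T := by
  have hRT : R ⊔ T ≤ S := sup_le hR hT.1
  obtain ⟨ψ, hψ, hψT⟩ := H759.exists_lift hS hF hT R _ ((H802.mem_autGroup_iff F hR α).1 hα)
  have := H802.finite_of_le (S := S) hRT
  have hmaps : ∀ y : ↥(R ⊔ T), ψ y ∈ R ⊔ T := by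
    apply H759.hom_sup_mem
    · intro x hx hx'
      have h1 := hψT ⟨x, hx⟩ hx'
      have h2 : ψ ⟨x, hx'⟩ = ((α ⟨x, hx⟩ : R) : Ω) * (((α ⟨x, hx⟩ : R) : Ω)⁻¹ * ψ ⟨x, hx'⟩) := by
        group
      rw [h2]
      exact (R ⊔ T).mul_mem (Subgroup.mem_sup_left (α ⟨x, hx⟩).2) (Subgroup.mem_sup_right h1)
    · intro x hx hx'
      exact Subgroup.mem_sup_right (H759.StronglyClosed.apply_mem hT hψ hx)
  obtain ⟨β, hβ, hβψ⟩ := H802.exists_aut hψ (H802.range_eq_of_mapsTo hψ hmaps)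
  have hβT : ∀ y : ↥(R ⊔ T), (y : Ω) ∈ T → ((β y : ↥(R ⊔ T)) : Ω) ∈ T := by
    intro y hy
    rw [hβψ]
    exact H759.StronglyClosed.apply_mem hT hψ hy
  have hcong : ∀ x : R, ((α x : R) : Ω)⁻¹ * (β ⟨x, le_sup_left (a := R) (b := T) x.2⟩ : ↥(R ⊔ T)) ∈ T := by
    intro x
    rw [hβψ]
    exact hψT x _
  have hfin : orderOf β ≠ 0 := (orderOf_pos β).ne'
  obtain ⟨m, hm, hco'⟩ := exists_coprime_power (p := p) β hfin hco
  refine ⟨β ^ m, Subgroup.pow_mem _ hβ m, hco', fun x => ?_⟩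
  have h3 := pow_congr_mod (le_sup_left (a := R) (b := T)) hβT hcong m x
  rwa [pow_eq_of_modEq hm] at h3

/-! ### Invariant normal subgroups of `R` -/

/-- `X ≤ R` is normalized by `R` and invariant under `α`. -/
def Inv (R : Subgroup Ω) (α : MulAut R) (X : Subgroup Ω) : Prop :=
  X ≤ R ∧ R ≤ Subgroup.normalizer (X : Set Ω) ∧ ∀ x : R, (x : Ω) ∈ X → ((α x : R) : Ω) ∈ X

theorem Inv.sup {R : Subgroup Ω} {α : MulAut R} {X Y : Subgroup Ω} (hX : Inv R α X)
    (hY : Inv R α Y) : Inv R α (X ⊔ Y) := by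
  have hmem : ∀ x : Ω, x ∈ X ⊔ Y ↔ ∃ a ∈ X, ∃ b ∈ Y, a * b = x := fun x =>
    H759.mem_sup_of_normalizes (hX.1.trans hY.2.1)
  refine ⟨sup_le hX.1 hY.1, ?_, ?_⟩
  · intro r hr
    rw [Subgroup.mem_normalizer_iff]
    have key : ∀ s ∈ R, ∀ h ∈ X ⊔ Y, s * h * s⁻¹ ∈ X ⊔ Y := by
      intro s hs h hh
      obtain ⟨a, ha, b, hb, rfl⟩ := (hmem h).1 hh
      have h1 : s * a * s⁻¹ ∈ X := (Subgroup.mem_normalizer_iff.1 (hX.2.1 hs) a).1 ha
      have h2 : s * b * s⁻¹ ∈ Y := (Subgroup.mem_normalizer_iff.1 (hY.2.1 hs) b).1 hb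
      have h3 : s * (a * b) * s⁻¹ = (s * a * s⁻¹) * (s * b * s⁻¹) := by group
      rw [h3]
      exact (X ⊔ Y).mul_mem (Subgroup.mem_sup_left h1) (Subgroup.mem_sup_right h2)
    intro h
    refine ⟨key r hr h, fun hh => ?_⟩
    have := key r⁻¹ (R.inv_mem hr) _ hh
    simpa [mul_assoc] using this
  · intro x hx
    obtain ⟨a, ha, b, hb, hab⟩ := (hmem x).1 hx
    have h1 : x = ⟨a, hX.1 ha⟩ * ⟨b, hY.1 hb⟩ := Subtype.ext hab.symm
    rw [h1, map_mul]
    exact (X ⊔ Y).mul_mem (Subgroup.mem_sup_left (hX.2.2 ⟨a, hX.1 ha⟩ ha))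
      (Subgroup.mem_sup_right (hY.2.2 ⟨b, hY.1 hb⟩ hb))

theorem Inv.inf {R : Subgroup Ω} {α : MulAut R} {X Y : Subgroup Ω} (hX : Inv R α X)
    (hY : Inv R α Y) : Inv R α (X ⊓ Y) := by
  refine ⟨inf_le_left.trans hX.1, fun r hr => ?_, fun x hx => ⟨hX.2.2 x hx.1, hY.2.2 x hx.2⟩⟩
  rw [Subgroup.mem_normalizer_iff]
  intro h
  exact and_congr (Subgroup.mem_normalizer_iff.1 (hX.2.1 hr) h)
    (Subgroup.mem_normalizer_iff.1 (hY.2.1 hr) h)

theorem Inv.of_stronglyClosed {F : FusionSystem S} {R : Subgroup Ω} {α : MulAut R} (hR : R ≤ S)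
    (hα : α ∈ F.autGroup R) {T : Subgroup Ω} (hT : F.StronglyClosed T) : Inv R α (T ⊓ R) := by
  refine ⟨inf_le_right, fun r hr => ?_, fun x hx => ⟨?_, (α x).2⟩⟩
  · rw [Subgroup.mem_normalizer_iff]
    intro h
    refine and_congr (Subgroup.mem_normalizer_iff.1
      (H759.StronglyClosed.le_normalizer hT (hR hr)) h) ?_
    constructor
    · intro hh
      exact R.mul_mem (R.mul_mem hr hh) (R.inv_mem hr)
    · intro hh
      have := R.mul_mem (R.mul_mem (R.inv_mem hr) hh) hr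
      simpa [mul_assoc] using this
  · exact H759.StronglyClosed.apply_mem hT ((H802.mem_autGroup_iff F hR α).1 hα) hx.1

theorem Inv.bot (R : Subgroup Ω) (α : MulAut R) : Inv R α ⊥ := by
  refine ⟨bot_le, fun r hr => ?_, fun x hx => ?_⟩
  · rw [Subgroup.mem_normalizer_iff]
    intro h
    simp
  · have : x = 1 := Subtype.ext (Subgroup.mem_bot.1 hx)
    rw [this, map_one]
    exact Subgroup.one_mem _

theorem Inv.self (R : Subgroup Ω) (α : MulAut R) : Inv R α R :=
  ⟨le_rfl, Subgroup.le_normalizer, fun x _ => (α x).2⟩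

theorem finite_Iic {R : Subgroup Ω} [Finite R] : {X : Subgroup Ω | X ≤ R}.Finite := by
  have h : Set.MapsTo (fun X : Subgroup Ω => X.subgroupOf R) {X : Subgroup Ω | X ≤ R} Set.univ :=
    fun _ _ => Set.mem_univ _
  refine Set.Finite.of_injOn h (fun X hX Y hY hXY => ?_) (Set.finite_univ)
  have h2 : X.subgroupOf R = Y.subgroupOf R := hXY
  have h1 : (X.subgroupOf R).map R.subtype = (Y.subgroupOf R).map R.subtype := by
    rw [h2]
  rwa [Subgroup.subgroupOf_map_subtype, Subgroup.subgroupOf_map_subtype, inf_eq_left.2 hX,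
    inf_eq_left.2 hY] at h1

/-- Subgroups of intermediate order in a finite `p`-group. -/
theorem exists_between {p : ℕ} [Fact p.Prime] {X Y : Subgroup Ω} [Finite Y] (hY : IsPGroup p Y)
    (hXY : X ≤ Y) {k : ℕ} (h1 : Nat.card X ≤ p ^ k) (h2 : p ^ k ≤ Nat.card Y) :
    ∃ Q : Subgroup Ω, X ≤ Q ∧ Q ≤ Y ∧ Nat.card Q = p ^ k := by
  have hp := (Fact.out : p.Prime)
  have : Finite X := Finite.of_injective _ (Subgroup.inclusion_injective hXY)
  obtain ⟨m, hm⟩ := (hY.to_le hXY).exists_card_eq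
  obtain ⟨n, hn⟩ := hY.exists_card_eq
  have hmk : m ≤ k := by
    rw [hm] at h1
    exact (Nat.pow_le_pow_iff_right hp.one_lt).1 h1
  have hkn : k ≤ n := by
    rw [hn] at h2
    exact (Nat.pow_le_pow_iff_right hp.one_lt).1 h2
  have hcX : Nat.card (X.subgroupOf Y) = p ^ m := by
    rw [← hm]
    exact Nat.card_congr (Subgroup.subgroupOfEquivOfLe hXY).toEquiv
  obtain ⟨K, hK, hXK⟩ := Sylow.exists_subgroup_card_pow_prime_le p
    (n := m) (m := k) (by rw [hn]; exact pow_dvd_pow p hkn) (X.subgroupOf Y) hcX hmk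
  refine ⟨K.map Y.subtype, ?_, ?_, ?_⟩
  · intro x hx
    exact ⟨⟨x, hXY hx⟩, hXK (show (⟨x, hXY hx⟩ : Y) ∈ X.subgroupOf Y from hx), rfl⟩
  · rintro _ ⟨y, -, rfl⟩
    exact y.2
  · rw [← hK]
    exact Nat.card_congr (K.equivMapOfInjective _ Y.subtype_injective).toEquiv.symm

/-- An automorphism of order prime to `p` of a subgroup `R` containing an invariant normal subgroup `X` whose
conjugates have inner normalizer systems is trivial. -/
theorem eq_one_of_inv [Finite S] {p : ℕ} [Fact p.Prime] (hS : IsPGroup p S)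
    {F : FusionSystem S} (hF : F.IsSaturated p) {X : Subgroup Ω}
    (hnorm : ∀ H : Subgroup Ω, F.IsFullyNormalized H → Nat.card H = Nat.card X →
      ∀ (P : Subgroup Ω) (φ : P →* Ω), φ ∈ F.normalizerHom H P →
        ∃ g ∈ S, ∀ x : P, φ x = g * (x : Ω) * g⁻¹)
    {R : Subgroup Ω} (hR : R ≤ S) {α : MulAut R} (hα : α ∈ F.autGroup R)
    (hco : (orderOf α).Coprime p) (hX : Inv R α X) : α = 1 := by
  have hp := (Fact.out : p.Prime)
  have hXS : X ≤ S := hX.1.trans hR
  obtain ⟨X', hXX', hX'⟩ := H802.exists_isFullyNormalized hS hF hXS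
  have hcard : Nat.card X' = Nat.card X := (H802.isConj_card_eq hXX').symm
  obtain ⟨φ, hφ, hφX'⟩ := hXX'
  obtain ⟨β, hβ, ψ, hψ, hψφ, hψN⟩ := H802.exists_extension_normalizer hS hF hφ hφX' hX'
  have hRN : R ≤ normalizerIn S X := le_inf hR hX.2.1
  have hγ := H802.restrict_mem hψ hRN
  set γ : R →* Ω := ψ.comp (Subgroup.inclusion hRN) with hγdef
  have hγinj := F.injective_of_mem hγ
  have hγN : ∀ x : R, γ x ∈ normalizerIn S X' := fun x => hψN _
  have hγX : ∀ x : R, (x : Ω) ∈ X → γ x ∈ X' := by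
    intro x hx
    have hx' : φ ⟨x, hx⟩ ∈ X' := by rw [← hφX']; exact ⟨_, rfl⟩
    have h1 := hψφ ⟨x, hx⟩ hx' (hRN x.2)
    have h2 : γ x = ψ ⟨(x : Ω), hRN x.2⟩ := rfl
    rw [h2, h1]
    exact (β _).2
  have : Finite X' := H802.finite_of_le hX'.1
  have : Finite R := H802.finite_of_le hR
  -- the image of `X` is `X'`
  have hX'le : X' ≤ γ.range := by
    have h1 : (X.subgroupOf R).map γ ≤ X' := by
      rintro _ ⟨x, hx, rfl⟩
      exact hγX x hx
    have h2 : Nat.card X' ≤ Nat.card ((X.subgroupOf R).map γ) := by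
      rw [Nat.card_congr ((X.subgroupOf R).equivMapOfInjective γ hγinj).toEquiv.symm, hcard]
      exact (Nat.card_congr (Subgroup.subgroupOfEquivOfLe hX.1).toEquiv).ge
    rw [← Subgroup.eq_of_le_of_card_ge h1 h2]
    rintro _ ⟨x, -, rfl⟩
    exact ⟨x, rfl⟩
  obtain ⟨δ, hδ, hδr, hδγ, hγδ⟩ := H802.exists_inv hγ rfl
  have hδR : ∀ y : γ.range, δ y ∈ R := fun y => hδr.le ⟨y, rfl⟩
  obtain ⟨χ₁, hχ₁, hχ₁e⟩ := H802.exists_comp hδ ((H802.mem_autGroup_iff F hR α).1 hα) hδR
  have hχ₁R : ∀ y : γ.range, χ₁ y ∈ R := fun y => by rw [hχ₁e]; exact (α _).2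
  obtain ⟨χ, hχ, hχe⟩ := H802.exists_comp hχ₁ hγ hχ₁R
  have hχγ : ∀ x : R, χ ⟨γ x, ⟨x, rfl⟩⟩ = γ (α x) := by
    intro x
    rw [hχe]
    congr 1
    apply Subtype.ext
    show χ₁ ⟨γ x, ⟨x, rfl⟩⟩ = _
    rw [hχ₁e]
    show ((α _ : R) : Ω) = _
    congr 2
    exact Subtype.ext (hδγ x ⟨x, rfl⟩)
  have hle : γ.range ⊔ X' ≤ γ.range := sup_le le_rfl hX'le
  have hrangeN : γ.range ≤ normalizerIn S X' := by
    rintro _ ⟨x, rfl⟩
    exact hγN x
  have hmem : χ ∈ F.normalizerHom X' γ.range := by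
    refine ⟨hχ, hrangeN, ?_, χ.comp (Subgroup.inclusion hle), H802.restrict_mem hχ hle, ?_, ?_⟩
    · intro y
      obtain ⟨x, hx⟩ := y.2
      have hy : y = ⟨γ x, ⟨x, rfl⟩⟩ := Subtype.ext hx.symm
      rw [hy, hχγ]
      exact hγN _
    · intro x
      rfl
    · have hinj : Function.Injective (χ.comp (Subgroup.inclusion hle)) :=
        F.injective_of_mem (H802.restrict_mem hχ hle)
      refine Subgroup.eq_of_le_of_card_ge ?_ ?_
      · rintro _ ⟨y, hy, rfl⟩
        have hy' : (y : Ω) ∈ X' := hy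
        -- `y = γ x` with `x ∈ X`
        have h1 : (X.subgroupOf R).map γ = X' := by
          refine Subgroup.eq_of_le_of_card_ge ?_ ?_
          · rintro _ ⟨x, hx, rfl⟩
            exact hγX x hx
          · rw [Nat.card_congr ((X.subgroupOf R).equivMapOfInjective γ hγinj).toEquiv.symm, hcard]
            exact (Nat.card_congr (Subgroup.subgroupOfEquivOfLe hX.1).toEquiv).ge
        obtain ⟨x, hx, hxy⟩ := h1.ge hy'
        have h2 : (χ.comp (Subgroup.inclusion hle)) y = χ ⟨γ x, ⟨x, rfl⟩⟩ := by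
          show χ (Subgroup.inclusion hle y) = _
          congr 1
          exact Subtype.ext hxy.symm
        rw [h2, hχγ]
        exact hγX _ (hX.2.2 x hx)
      · rw [Nat.card_congr ((X'.subgroupOf (γ.range ⊔ X')).equivMapOfInjective _ hinj).toEquiv.symm]
        exact (Nat.card_congr (Subgroup.subgroupOfEquivOfLe
          (le_sup_right : X' ≤ γ.range ⊔ X')).toEquiv).ge
  obtain ⟨g, hg, hgχ⟩ := hnorm X' hX' hcard _ χ hmem
  have hpow : ∀ (n : ℕ) (x : R), γ ((α ^ n) x) = g ^ n * γ x * (g ^ n)⁻¹ := by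
    intro n
    induction n with
    | zero => intro x; simp
    | succ n ih =>
      intro x
      rw [pow_succ', MulAut.mul_apply, ← hχγ, hgχ]
      show g * γ ((α ^ n) x) * g⁻¹ = _
      rw [ih, pow_succ']
      group
  obtain ⟨j, hj⟩ := hS ⟨g, hg⟩
  have hj' : g ^ p ^ j = 1 := congrArg Subtype.val hj
  have h1 : α ^ p ^ j = 1 := by
    ext x
    congr 1
    apply hγinj
    rw [hpow, hj']
    simp
  have h2 : orderOf α ∣ p ^ j := orderOf_dvd_of_pow_eq_one h1
  have h3 : orderOf α = 1 := Nat.Coprime.eq_one_of_dvd (Nat.Coprime.pow_right j hco) h2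
  exact orderOf_eq_one_iff.1 h3

/-- If all subgroups of order `p ^ k` are weakly embedded and have inner normalizer systems, then the
automorphisms of order prime to `p` of the subgroups of order at least `p ^ k` are trivial. -/
theorem eq_one_of_large [Finite S] {p : ℕ} [Fact p.Prime] (hS : IsPGroup p S)
    {F : FusionSystem S} (hF : F.IsSaturated p) {k : ℕ}
    (hweak : ∀ Q : Subgroup Ω, Q ≤ S → Nat.card Q = p ^ k →
      ∃ P : Subgroup Ω, F.StronglyClosed P ∧ F.StronglyClosed (Q ⊔ P) ∧ F.StronglyClosed (Q ⊓ P))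
    (hnorm : ∀ H : Subgroup Ω, F.IsFullyNormalized H → Nat.card H = p ^ k →
      ∀ (P : Subgroup Ω) (φ : P →* Ω), φ ∈ F.normalizerHom H P →
        ∃ g ∈ S, ∀ x : P, φ x = g * (x : Ω) * g⁻¹)
    {R : Subgroup Ω} (hR : R ≤ S) (hk : p ^ k ≤ Nat.card R) {α : MulAut R}
    (hα : α ∈ F.autGroup R) (hco : (orderOf α).Coprime p) : α = 1 := by
  have hp := (Fact.out : p.Prime)
  have : Finite R := H802.finite_of_le hR
  -- a maximal invariant `X` of order at most `p ^ k`
  have hfin : {X : Subgroup Ω | Inv R α X ∧ Nat.card X ≤ p ^ k}.Finite :=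
    finite_Iic.subset fun X hX => hX.1.1
  obtain ⟨X, hXm⟩ := hfin.exists_maximal ⟨⊥, Inv.bot R α, by
    rw [Subgroup.card_bot]
    exact Nat.one_le_pow _ _ hp.pos⟩
  have hX : Inv R α X := hXm.prop.1
  have hXk : Nat.card X ≤ p ^ k := hXm.prop.2
  rcases hXk.eq_or_lt with hXk | hXk
  · exact eq_one_of_inv hS hF (by rw [hXk]; exact hnorm) hR hα hco hX
  exfalso
  have hmax : ∀ Y, Inv R α Y → X < Y → p ^ k < Nat.card Y := by
    intro Y hY hXY
    by_contra hcon
    exact hXY.not_ge (hXm.le_of_ge ⟨hY, not_lt.1 hcon⟩ hXY.le)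
  have hXR : X < R := lt_of_le_of_ne hX.1 fun h => by
    rw [h] at hXk
    omega
  have hfin2 : {Y : Subgroup Ω | Inv R α Y ∧ X < Y}.Finite := finite_Iic.subset fun Y hY => hY.1.1
  obtain ⟨Y, hYm⟩ := hfin2.exists_minimal ⟨R, Inv.self R α, hXR⟩
  have hY : Inv R α Y := hYm.prop.1
  have hXY : X < Y := hYm.prop.2
  have hYk := hmax Y hY hXY
  -- between `X` and `Y` there is nothing
  have hbetw : ∀ Z, Inv R α Z → X ≤ Z → Z ≤ Y → Z = X ∨ Z = Y := by
    intro Z hZ h1 h2
    rcases h1.eq_or_lt with h | h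
    · exact Or.inl h.symm
    · exact Or.inr (le_antisymm h2 (hYm.le_of_le ⟨hZ, h⟩ h2))
  have : Finite Y := Finite.of_injective _ (Subgroup.inclusion_injective hY.1)
  obtain ⟨Q, hXQ, hQY, hQ⟩ := exists_between ((hS.to_le hR).to_le hY.1) hXY.le hXk.le hYk.le
  obtain ⟨P, hP, hQP, hQiP⟩ := hweak Q ((hQY.trans hY.1).trans hR) hQ
  have : Finite Q := Finite.of_injective _ (Subgroup.inclusion_injective hQY)
  have hQneY : Q ≠ Y := fun h => by
    rw [h] at hQ
    omega
  have hXneQ : X ≠ Q := fun h => by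
    rw [h] at hXk
    omega
  -- `Q ⊓ P ≤ X`
  have h1 : Q ⊓ P ≤ X := by
    have hi : Inv R α ((Q ⊓ P) ⊓ R) := Inv.of_stronglyClosed hR hα hQiP
    have hle : Q ⊓ P ≤ R := (inf_le_left.trans hQY).trans hY.1
    rw [inf_eq_left.2 hle] at hi
    rcases hbetw _ (hX.sup hi) le_sup_left (sup_le hXY.le (inf_le_left.trans hQY)) with h | h
    · exact le_sup_right.trans h.le
    · exfalso
      have : Y ≤ Q := h.ge.trans (sup_le hXQ inf_le_left)
      exact hQneY (le_antisymm hQY this)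
  -- `Y ≤ Q P`
  have h2 : Y ≤ Q ⊔ P := by
    have hi : Inv R α ((Q ⊔ P) ⊓ R) := Inv.of_stronglyClosed hR hα hQP
    rcases hbetw _ (hi.inf hY) (le_inf (le_inf (hXQ.trans le_sup_left) hX.1) hXY.le) inf_le_right
      with h | h
    · exfalso
      have : Q ≤ X := le_trans (le_inf (le_inf le_sup_left (hQY.trans hY.1)) hQY) h.le
      exact hXneQ (le_antisymm hXQ this)
    · exact h.ge.trans (inf_le_left.trans inf_le_left)
  have hPn : S ≤ Subgroup.normalizer (P : Set Ω) := H759.StronglyClosed.le_normalizer hP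
  have hQPmem : ∀ y ∈ Y, ∃ a ∈ Q, ∃ b ∈ P, a * b = y := fun y hy =>
    (H759.mem_sup_of_normalizes (((hQY.trans hY.1).trans hR).trans hPn)).1 (h2 hy)
  have hi : Inv R α (P ⊓ Y) := by
    have h3 : Inv R α ((P ⊓ R) ⊓ Y) := (Inv.of_stronglyClosed hR hα hP).inf hY
    have h4 : (P ⊓ R) ⊓ Y = P ⊓ Y := by
      rw [inf_assoc, inf_eq_right.2 hY.1]
    rwa [h4] at h3
  rcases hbetw _ (hX.sup hi) le_sup_left (sup_le hXY.le inf_le_right) with h | h
  · -- `P ⊓ Y ≤ X`
    apply hQneY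
    refine le_antisymm hQY fun y hy => ?_
    obtain ⟨a, ha, b, hb, rfl⟩ := hQPmem y hy
    have hbY : b ∈ Y := by
      have := Y.mul_mem (Y.inv_mem (hQY ha)) hy
      simpa using this
    have : b ∈ X := h.le (Subgroup.mem_sup_right ⟨hb, hbY⟩)
    exact Q.mul_mem ha (hXQ this)
  · -- `Y = X (P ⊓ Y)`
    apply hXneQ
    refine le_antisymm hXQ fun q hq => ?_
    have hqY : q ∈ X ⊔ (P ⊓ Y) := h.ge (hQY hq)
    obtain ⟨a, ha, b, hb, hab⟩ := (H759.mem_sup_of_normalizes (hX.1.trans hi.2.1)).1 hqY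
    have hbQ : b ∈ Q := by
      have : b = a⁻¹ * q := by rw [← hab]; group
      rw [this]
      exact Q.mul_mem (Q.inv_mem (hXQ ha)) hq
    rw [← hab]
    exact X.mul_mem ha (h1 ⟨hbQ, hb.1⟩)

end Cfsg.Agent.H787
end

-- part: H787/WeakEmb2
section
set_option autoImplicit false
open Cfsg Cfsg.FusionSystem
open scoped commutatorElement

/-!
# Weakly embedded subgroups of one order with inner normalizer systems: the main argument (helper787)
-/

namespace Cfsg.Agent.H787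

variable {Ω : Type*} [Group Ω] {S : Subgroup Ω}

theorem eq_of_card_prime {p : ℕ} (hp : p.Prime) {T Z T₁ : Subgroup Ω} [Finite T₁] (h1 : T < Z)
    (h2 : Z ≤ T₁) (hc : Nat.card T₁ = p * Nat.card T) : Z = T₁ := by
  have : Finite Z := Finite.of_injective _ (Subgroup.inclusion_injective h2)
  have : Finite T := Finite.of_injective _ (Subgroup.inclusion_injective h1.le)
  refine Subgroup.eq_of_le_of_card_ge h2 ?_
  obtain ⟨a, ha⟩ := Subgroup.card_dvd_of_le h1.le
  obtain ⟨b, hb⟩ := Subgroup.card_dvd_of_le h2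
  have hT : 0 < Nat.card T := Nat.card_pos
  have h3 : a * b = p := by
    have : Nat.card T * (a * b) = Nat.card T * p := by
      rw [← mul_assoc, ← ha, ← hb, hc, mul_comm]
    exact Nat.eq_of_mul_eq_mul_left hT this
  have hb1 : b = 1 := by
    rcases (Nat.dvd_prime hp).1 (Dvd.intro_left a h3) with h | h
    · exact h
    · exfalso
      rw [h] at h3
      have ha1 : a = 1 := by
        have := hp.pos
        nlinarith
      rw [ha1, mul_one] at ha
      exact h1.ne (Subgroup.eq_of_le_of_card_ge h1.le ha.le)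
  rw [hb, hb1, mul_one]

/-- If `|T₁ : T| = p` for strongly closed `T < T₁` then `S` centralizes `T₁` modulo `T`. -/
theorem comm_mem_of_card [Finite S] {p : ℕ} [hp : Fact p.Prime] (hS : IsPGroup p S)
    {T T₁ : Subgroup Ω} (hT₁ : T₁ ≤ S) (hTn : S ≤ Subgroup.normalizer (T : Set Ω))
    (hT₁n : S ≤ Subgroup.normalizer (T₁ : Set Ω)) (hlt : T < T₁)
    (hc : Nat.card T₁ = p * Nat.card T) {t s : Ω} (ht : t ∈ T₁) (hs : s ∈ S) :
    t * s * t⁻¹ * s⁻¹ ∈ T := by
  have : Group.IsNilpotent S := hS.isNilpotent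
  have : Finite T₁ := H802.finite_of_le hT₁
  have hn : ∀ {K : Subgroup Ω}, S ≤ Subgroup.normalizer (K : Set Ω) → (K.subgroupOf S).Normal := by
    intro K hK
    refine ⟨fun n hn g => ?_⟩
    exact (Subgroup.mem_normalizer_iff.1 (hK g.2) n).1 hn
  obtain ⟨x, hxT₁, hxT, hx⟩ := Lib.NormalAbelian.exists_mem_not_mem_central_mod (hn hTn) (hn hT₁n)
    (fun h => by
      apply hlt.not_ge
      intro y hy
      exact h (show (⟨y, hT₁ hy⟩ : S) ∈ T₁.subgroupOf S from hy))
  -- the elements central modulo `T`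
  let Z : Subgroup Ω :=
    { carrier := {t | t ∈ T₁ ∧ ∀ s ∈ S, t * s * t⁻¹ * s⁻¹ ∈ T}
      one_mem' := ⟨T₁.one_mem, fun s _ => by simp⟩
      mul_mem' := by
        rintro a b ⟨ha, ha'⟩ ⟨hb, hb'⟩
        refine ⟨T₁.mul_mem ha hb, fun s hs => ?_⟩
        have h1 := ha' s hs
        have h2 := (Subgroup.mem_normalizer_iff.1 (hTn (hT₁ ha)) _).1 (hb' s hs)
        have h3 := T.mul_mem h2 h1
        have h4 : a * (b * s * b⁻¹ * s⁻¹) * a⁻¹ * (a * s * a⁻¹ * s⁻¹) =
            (a * b) * s * (a * b)⁻¹ * s⁻¹ := by group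
        rwa [h4] at h3
      inv_mem' := by
        rintro a ⟨ha, ha'⟩
        refine ⟨T₁.inv_mem ha, fun s hs => ?_⟩
        have h1 := T.inv_mem (ha' s hs)
        have h2 := (Subgroup.mem_normalizer_iff.1 (hTn (S.inv_mem (hT₁ ha))) _).1 h1
        have h4 : a⁻¹ * (a * s * a⁻¹ * s⁻¹)⁻¹ * a⁻¹⁻¹ = a⁻¹ * s * a⁻¹⁻¹ * s⁻¹ := by group
        rwa [h4] at h2 }
  have hTZ : T < Z := by
    refine lt_of_le_of_ne (fun y hy => ⟨hlt.le hy, fun s hs => ?_⟩) fun h => hxT ?_
    · have h1 := (Subgroup.mem_normalizer_iff.1 (hTn hs) _).1 (T.inv_mem hy)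
      have h2 := T.mul_mem hy h1
      simpa [mul_assoc] using h2
    · have : (x : Ω) ∈ Z := ⟨hxT₁, fun s hs => hx ⟨s, hs⟩⟩
      exact h.ge this
  have hZ : Z = T₁ := eq_of_card_prime hp.out hTZ (fun y hy => hy.1) hc
  have : t ∈ Z := hZ.ge ht
  exact this.2 s hs

/-- The case `|T₁ : T| = p`. -/
theorem fix_of_card [Finite S] {p : ℕ} [hp : Fact p.Prime] (hS : IsPGroup p S)
    {F : FusionSystem S} (hF : F.IsSaturated p) {T T₁ : Subgroup Ω} (hT : F.StronglyClosed T)
    (hT₁ : F.StronglyClosed T₁) (hlt : T < T₁) (hc : Nat.card T₁ = p * Nat.card T)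
    (hp' : ∀ α ∈ F.autGroup S, (orderOf α).Coprime p → α = 1)
    {α : MulAut T₁} (hα : α ∈ F.autGroup T₁) (hco : (orderOf α).Coprime p) (t : T₁) :
    (t : Ω)⁻¹ * (α t : T₁) ∈ T := by
  have hT₁S := hT₁.1
  have hTn := H759.StronglyClosed.le_normalizer hT
  have hT₁n := H759.StronglyClosed.le_normalizer hT₁
  have hcomm : ∀ {t s : Ω}, t ∈ T₁ → s ∈ S → t * s * t⁻¹ * s⁻¹ ∈ T := fun ht hs =>
    comm_mem_of_card hS hT₁S hTn hT₁n hlt hc ht hs
  have : Finite T₁ := H802.finite_of_le hT₁S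
  -- the automorphisms of `T₁` trivial modulo `T`
  have hinvT : ∀ κ ∈ F.autGroup T₁, ∀ x : T₁, (x : Ω) ∈ T → ((κ x : T₁) : Ω) ∈ T := by
    intro κ hκ x hx
    exact H759.StronglyClosed.apply_mem hT ((H802.mem_autGroup_iff F hT₁S κ).1 hκ) hx
  let K : Subgroup (MulAut T₁) :=
    { carrier := {κ | κ ∈ F.autGroup T₁ ∧ ∀ x : T₁, (x : Ω)⁻¹ * (κ x : T₁) ∈ T}
      one_mem' := ⟨Subgroup.one_mem _, fun x => by simp⟩
      mul_mem' := by
        rintro a b ⟨ha, ha'⟩ ⟨hb, hb'⟩
        refine ⟨Subgroup.mul_mem _ ha hb, fun x => ?_⟩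
        have h1 := ha' (b x)
        have h2 := hb' x
        have h3 := T.mul_mem h2 h1
        simpa [mul_assoc] using h3
      inv_mem' := by
        rintro a ⟨ha, ha'⟩
        refine ⟨Subgroup.inv_mem _ ha, fun x => ?_⟩
        have h1 := T.inv_mem (ha' (a⁻¹ x))
        simpa using h1 }
  have hfn : F.IsFullyNormalized T₁ := by
    refine ⟨hT₁S, fun Q hQ => ?_⟩
    have h1 : normalizerIn S T₁ = S := inf_eq_left.2 hT₁n
    rw [h1]
    exact Nat.card_le_card_of_injective _ (Subgroup.inclusion_injective (inf_le_left : normalizerIn S Q ≤ S))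
  have hrange : (T₁.subtype.comp α.toMonoidHom).range = T₁ := by
    ext y
    constructor
    · rintro ⟨x, rfl⟩
      exact (α x).2
    · intro hy
      exact ⟨α⁻¹ ⟨y, hy⟩, by simp⟩
  obtain ⟨k, hk, ψ, hψ, hψe⟩ := H759.exists_extension F hS
    (H802.isFullyAutomized_of_isFullyNormalized hS hF hfn)
    (H802.isReceptive_of_isFullyNormalized hS hF hfn)
    ((H802.mem_autGroup_iff F hT₁S α).1 hα) hrange K (fun κ hκ => hκ.1)
    (by
      rintro a ha κ ⟨hκ, hκ'⟩
      refine ⟨Subgroup.mul_mem _ (Subgroup.mul_mem _ ha hκ) (Subgroup.inv_mem _ ha), fun x => ?_⟩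
      have h1 := hκ' (a⁻¹ x)
      have h2 := hinvT a ha ((a⁻¹ x)⁻¹ * κ (a⁻¹ x)) h1
      simpa using h2)
    S le_rfl hT₁n
    (by
      intro g hg
      have hg' : g ∈ Subgroup.normalizer (T₁ : Set Ω) := hT₁n hg
      have hcg : H759.conjAut T₁ g hg' ∈ F.autGroup T₁ := by
        apply H759.autInducedBy_le_autGroup F hT₁S
        exact H759.mem_autInducedBy.2 ⟨g, hg, fun x => H759.coe_conjAut hg' x⟩
      refine ⟨α * H759.conjAut T₁ g hg' * α⁻¹, ⟨Subgroup.mul_mem _ (Subgroup.mul_mem _ hα hcg)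
        (Subgroup.inv_mem _ hα), fun x => ?_⟩, 1, S.one_mem, Subgroup.one_mem _, fun x hx hy => ?_⟩
      · have h1 : ((α⁻¹ x : T₁) : Ω)⁻¹ * (H759.conjAut T₁ g hg' (α⁻¹ x) : T₁) ∈ T := by
          rw [H759.coe_conjAut]
          have := hcomm (T₁.inv_mem (α⁻¹ x).2) hg
          simpa [mul_assoc] using this
        have h2 := hinvT α hα ((α⁻¹ x)⁻¹ * H759.conjAut T₁ g hg' (α⁻¹ x)) h1
        simpa using h2
      · have h1 : (⟨1 * (T₁.subtype.comp α.toMonoidHom) x * 1⁻¹, hy⟩ : T₁) = α x := by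
          apply Subtype.ext
          simp
        have h2 : (⟨g * (x : Ω) * g⁻¹, hx⟩ : T₁) = H759.conjAut T₁ g hg' x := by
          apply Subtype.ext
          rw [H759.coe_conjAut]
        rw [h1, h2]
        simp)
  -- `ψ` is an automorphism of `S`
  have hψS := H802.restrict_mem hψ (le_sup_right : S ≤ T₁ ⊔ S)
  obtain ⟨η, hη, hηe⟩ := H802.exists_aut hψS (H802.range_eq_of_mapsTo hψS
    (fun x => H802.hom_apply_mem hψS x))
  have hcong : ∀ x : T₁, ((α x : T₁) : Ω)⁻¹ * (η ⟨x, hT₁S x.2⟩ : S) ∈ T := by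
    intro x
    rw [hηe]
    have h1 := hψe x (α x).2 (Subgroup.mem_sup_left x.2)
    have h2 : (ψ.comp (Subgroup.inclusion (le_sup_right : S ≤ T₁ ⊔ S))) ⟨x, hT₁S x.2⟩ =
        ψ ⟨x, Subgroup.mem_sup_left x.2⟩ := rfl
    rw [h2, h1]
    exact hk.2 (α x)
  have hηT : ∀ y : S, (y : Ω) ∈ T → ((η y : S) : Ω) ∈ T := by
    intro y hy
    exact H759.StronglyClosed.apply_mem hT ((H802.mem_autGroup_iff F le_rfl η).1 hη) hy
  obtain ⟨m, hm, hco'⟩ := exists_coprime_power (p := p) η (orderOf_pos η).ne' hco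
  have h3 := pow_congr_mod hT₁S hηT hcong m t
  rw [pow_eq_of_modEq hm, hp' _ (Subgroup.pow_mem _ hη m) hco'] at h3
  have h4 := T.inv_mem h3
  simpa using h4

/-- If `α` has order prime to `p`, moves the elements of `R` inside a `p`-group modulo `T₁`, and is trivial on
`T₁` modulo `T`, it is trivial modulo `T`. -/
theorem mem_of_mem_of_fix [Finite S] {p : ℕ} (hS : IsPGroup p S)
    {T T₁ R : Subgroup Ω} (hTn : S ≤ Subgroup.normalizer (T : Set Ω)) (hR : R ≤ S) {α : MulAut R} (hco : (orderOf α).Coprime p)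
    (hαT : ∀ x : R, (x : Ω) ∈ T₁ → ((α x : R) : Ω) ∈ T₁)
    (h1 : ∀ x : R, (x : Ω) ∈ T₁ → (x : Ω)⁻¹ * (α x : R) ∈ T)
    (h2 : ∀ x : R, (x : Ω)⁻¹ * (α x : R) ∈ T₁) (x : R) : (x : Ω)⁻¹ * (α x : R) ∈ T := by
  have : Finite R := H802.finite_of_le hR
  have key : ∀ n : ℕ, ∀ y : R, (y : Ω) ∈ T₁ → (y : Ω)⁻¹ * ((α ^ n) y : R) ∈ T := by
    intro n
    induction n with
    | zero => intro y _; simp
    | succ n ih =>
      intro y hy
      have h3 := h1 y hy
      have h4 := ih (α y) (hαT y hy)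
      rw [pow_succ, MulAut.mul_apply]
      have h5 := T.mul_mem h3 h4
      simpa [mul_assoc] using h5
  -- `(α ^ n) x ≡ x u ^ n` with `u = x⁻¹ α x`
  set u : R := x⁻¹ * α x with hu
  have huT : (u : Ω) ∈ T₁ := h2 x
  have key2 : ∀ n : ℕ, ((x * u ^ n : R) : Ω)⁻¹ * ((α ^ n) x : R) ∈ T := by
    intro n
    induction n with
    | zero => simp
    | succ n ih =>
      have h3 := key n u huT
      have h4 : ((α ^ (n + 1)) x : R) = (α ^ n) x * (α ^ n) u := by
        rw [pow_succ, MulAut.mul_apply, ← map_mul, hu]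
        simp
      rw [h4]
      -- `(x u^n u)⁻¹ (α^n x) (α^n u)`
      have h5 : ((u : Ω))⁻¹ * ((((x * u ^ n : R) : Ω)⁻¹ * ((α ^ n) x : R))) * (u : Ω) ∈ T := by
        have := (Subgroup.mem_normalizer_iff.1 (hTn (S.inv_mem (hR u.2))) _).1 ih
        simpa using this
      have h6 := T.mul_mem h5 h3
      have h7 : (((x * u ^ (n + 1) : R) : Ω))⁻¹ * (((α ^ n) x * (α ^ n) u : R) : Ω) =
          ((u : Ω))⁻¹ * ((((x * u ^ n : R) : Ω)⁻¹ * ((α ^ n) x : R))) * (u : Ω) *
            ((u : Ω)⁻¹ * ((α ^ n) u : R)) := by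
        push_cast
        rw [pow_succ]
        group
      rw [h7]
      exact h6
  have h3 := key2 (orderOf α)
  rw [pow_orderOf_eq_one] at h3
  have h4 : (u : Ω) ^ orderOf α ∈ T := by
    have := T.inv_mem h3
    simpa using this
  obtain ⟨j, hj⟩ := hS ⟨u, hR u.2⟩
  have h5 : (u : Ω) ^ p ^ j = 1 := congrArg Subtype.val hj
  have h6 : (orderOf α).Coprime (p ^ j) := hco.pow_right j
  have h7 : (u : Ω) = ((u : Ω) ^ orderOf α) ^ (Nat.gcdA (orderOf α) (p ^ j)) := by
    have h8 := Nat.gcd_eq_gcd_ab (orderOf α) (p ^ j)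
    rw [h6.gcd_eq_one] at h8
    calc (u : Ω) = (u : Ω) ^ ((1 : ℕ) : ℤ) := by simp
      _ = (u : Ω) ^ ((orderOf α : ℤ) * Nat.gcdA (orderOf α) (p ^ j) +
          ((p ^ j : ℕ) : ℤ) * Nat.gcdB (orderOf α) (p ^ j)) := by rw [h8]
      _ = _ := by
        rw [zpow_add, zpow_mul, zpow_mul, zpow_natCast, zpow_natCast, h5, one_zpow, mul_one]
  have h9 : (u : Ω) ∈ T := by
    rw [h7]
    exact T.zpow_mem h4 _
  exact h9

/-- The automorphisms of order prime to `p` are trivial modulo `T`. -/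
def TrivMod (F : FusionSystem S) (p : ℕ) (T : Subgroup Ω) : Prop :=
  ∀ R : Subgroup Ω, R ≤ S → ∀ α ∈ F.autGroup R, (orderOf α).Coprime p →
    ∀ x : R, (x : Ω)⁻¹ * (α x : R) ∈ T

theorem TrivMod.mono {F : FusionSystem S} {p : ℕ} {T T' : Subgroup Ω} (h : TrivMod F p T)
    (hle : T ≤ T') : TrivMod F p T' :=
  fun R hR α hα hco x => hle (h R hR α hα hco x)

/-- It is enough to consider the subgroups containing `T`. -/
theorem TrivMod.of_ge [Finite S] {p : ℕ} [Fact p.Prime] (hS : IsPGroup p S)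
    {F : FusionSystem S} (hF : F.IsSaturated p) {T : Subgroup Ω} (hT : F.StronglyClosed T)
    (h : ∀ R : Subgroup Ω, R ≤ S → T ≤ R → ∀ α ∈ F.autGroup R, (orderOf α).Coprime p →
      ∀ x : R, (x : Ω)⁻¹ * (α x : R) ∈ T) : TrivMod F p T := by
  intro R hR α hα hco x
  obtain ⟨β, hβ, hβco, hβα⟩ := exists_coprime_lift hS hF hT hR hα hco
  have h1 := h _ (sup_le hR hT.1) le_sup_right β hβ hβco ⟨x, Subgroup.mem_sup_left x.2⟩
  have h2 := T.inv_mem (hβα x)
  have h3 := T.mul_mem h1 h2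
  simpa [mul_assoc] using h3

/-- The factor system modulo `T` is inner as soon as the focal subgroup lies in all maximal subgroups of `S`
containing `T`. -/
theorem TrivMod.of_coatoms [Finite S] {p : ℕ} [Fact p.Prime] (hS : IsPGroup p S)
    {F : FusionSystem S} (hF : F.IsSaturated p) {T : Subgroup Ω} (hT : F.StronglyClosed T)
    (h : ∀ M : Subgroup S, IsCoatom M → T.subgroupOf S ≤ M → F.focalSubgroup ≤ M.map S.subtype) :
    TrivMod F p T := by
  have hTn : (T.subgroupOf S).Normal := ⟨fun n hn g =>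
    (Subgroup.mem_normalizer_iff.1 (H759.StronglyClosed.le_normalizer hT g.2) n).1 hn⟩
  set θ : S →* (S ⧸ T.subgroupOf S) := QuotientGroup.mk' (T.subgroupOf S) with hθ
  have hker : ∀ s : S, θ s = 1 ↔ (s : Ω) ∈ T := by
    intro s
    rw [hθ, QuotientGroup.mk'_apply, QuotientGroup.eq_one_iff]
    rfl
  have hsurj : Function.Surjective θ := QuotientGroup.mk'_surjective _
  have hr : θ.range = (⊤ : Subgroup (S ⧸ T.subgroupOf S)) := MonoidHom.range_eq_top.2 hsurj
  obtain ⟨E, hE⟩ := H759.exists_factorSystem hT hker hr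
  have hEs : E.IsSaturated p := H759.isSaturated_factor hS hF hT hE
  have hS' : IsPGroup p (⊤ : Subgroup (S ⧸ T.subgroupOf S)) := (hS.to_quotient _).to_subgroup ⊤
  -- `foc E ≤ Φ`
  have hfoc : E.focalSubgroup ≤ (frattini ↥(⊤ : Subgroup (S ⧸ T.subgroupOf S))).map
      (⊤ : Subgroup (S ⧸ T.subgroupOf S)).subtype := by
    refine H747.focal_le fun P' φ' hφ' y => ?_
    obtain ⟨φ, hφ, hφφ'⟩ := H759.exists_map_of_factor hE hφ'
    obtain ⟨x, hxS, hx, hxy⟩ := H759.exists_preimage_of_mem hE le_top y.2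
    have hyx : y = ⟨θ ⟨x, hxS⟩, by rw [hxy]; exact y.2⟩ := Subtype.ext hxy.symm
    have hφS : φ ⟨x, hx⟩ ∈ S := H802.hom_apply_mem hφ _
    have h1 : φ' y = θ ⟨φ ⟨x, hx⟩, hφS⟩ := by
      rw [hyx]
      exact hφφ' x hx hxS _ _
    have h2 : (y : S ⧸ T.subgroupOf S)⁻¹ * φ' y = θ (⟨x, hxS⟩⁻¹ * ⟨φ ⟨x, hx⟩, hφS⟩) := by
      rw [h1, map_mul, map_inv, ← hxy]
    rw [h2]
    refine ⟨⟨_, Subgroup.mem_top _⟩, ?_, rfl⟩
    show _ ∈ frattini _
    rw [frattini, Order.radical]
    simp only [Subgroup.mem_iInf]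
    intro M hM
    -- the preimage of `M`
    let θ' : S →* (⊤ : Subgroup (S ⧸ T.subgroupOf S)) := θ.codRestrict ⊤ (fun _ => Subgroup.mem_top _)
    have hθ's : Function.Surjective θ' := by
      rintro ⟨y, hy⟩
      obtain ⟨s, rfl⟩ := hsurj y
      exact ⟨s, rfl⟩
    have hN := Subgroup.isCoatom_comap_of_surjective hθ's hM
    have hTN : T.subgroupOf S ≤ M.comap θ' := by
      intro s hs
      have : θ' s = 1 := Subtype.ext ((hker s).2 hs)
      rw [Subgroup.mem_comap, this]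
      exact M.one_mem
    obtain ⟨s, hs, hse⟩ := h _ hN hTN (H747.focal_mem hφ ⟨x, hx⟩)
    have h3 : s = (⟨x, hxS⟩⁻¹ * ⟨φ ⟨x, hx⟩, hφS⟩ : S) := Subtype.ext hse
    rw [h3] at hs
    exact hs
  have hinner := H747.hom_eq_inner_of_focal_le_frattini hS' hEs hfoc
  refine TrivMod.of_ge hS hF hT fun R hR hTR α hα hco x => ?_
  have hmap := (H802.mem_autGroup_iff F hR α).1 hα
  have hpre : preimageAlong θ (imageAlong θ R) ≤ R := by
    intro z hz
    obtain ⟨hzS, hz'⟩ := H759.mem_preimageAlong.1 hz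
    obtain ⟨w, hwS, hw, hwz⟩ := H759.mem_imageAlong.1 hz'
    have h1 := (H759.theta_eq_iff hE).1 hwz
    have h2 : z = w * (w⁻¹ * z) := by group
    rw [h2]
    exact R.mul_mem hw (hTR h1)
  obtain ⟨φ', hφ', hφ'e⟩ := H759.exists_factor_map hT hE hmap (P' := imageAlong θ R) le_top hpre
  rw [hinner] at hφ'
  obtain ⟨-, g, -, hg⟩ := hφ'
  have hstep : ∀ y : R, θ ⟨(α y : R), hR (α y).2⟩ = g * θ ⟨y, hR y.2⟩ * g⁻¹ := by
    intro y
    have hy' : θ ⟨(y : Ω), hR y.2⟩ ∈ imageAlong θ R := H759.mem_imageAlong.2 ⟨y, hR y.2, y.2, rfl⟩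
    have h1 := hφ'e y y.2 (hR y.2) hy' (hR (α y).2)
    have h2 := hg ⟨θ ⟨(y : Ω), hR y.2⟩, hy'⟩
    rw [h1] at h2
    exact h2
  have hpow : ∀ (n : ℕ) (y : R), θ ⟨((α ^ n) y : R), hR ((α ^ n) y).2⟩ =
      g ^ n * θ ⟨y, hR y.2⟩ * (g ^ n)⁻¹ := by
    intro n
    induction n with
    | zero => intro y; simp
    | succ n ih =>
      intro y
      have h1 := hstep ((α ^ n) y)
      rw [ih] at h1
      have h2 : (⟨((α ^ (n + 1)) y : R), hR ((α ^ (n + 1)) y).2⟩ : S) =
          ⟨(α ((α ^ n) y) : R), hR (α ((α ^ n) y)).2⟩ := by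
        apply Subtype.ext
        show (((α ^ (n + 1)) y : R) : Ω) = _
        rw [pow_succ', MulAut.mul_apply]
      rw [h2, h1, pow_succ']
      group
  obtain ⟨j, hj⟩ := (hS.to_quotient (T.subgroupOf S)) g
  obtain ⟨m, hm, c, hc⟩ := exists_mod_pow j hco
  have h1 := hpow m x
  have h2 : g ^ m = 1 := by
    rw [hc, pow_mul, hj, one_pow]
  have h3 : α ^ m = α := pow_eq_of_modEq hm
  rw [h2] at h1
  have h4 : (⟨((α ^ m) x : R), hR ((α ^ m) x).2⟩ : S) = ⟨(α x : R), hR (α x).2⟩ := by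
    apply Subtype.ext
    show (((α ^ m) x : R) : Ω) = _
    rw [h3]
  rw [h4, one_mul, inv_one, mul_one] at h1
  exact (H759.theta_eq_iff hE).1 h1.symm

/-- **The main argument.** -/
theorem inner_of_weak [Finite S] {p : ℕ} [hp : Fact p.Prime] (hS : IsPGroup p S)
    {F : FusionSystem S} (hF : F.IsSaturated p) {k : ℕ}
    (hweak : ∀ Q : Subgroup Ω, Q ≤ S → Nat.card Q = p ^ k →
      ∃ P : Subgroup Ω, F.StronglyClosed P ∧ F.StronglyClosed (Q ⊔ P) ∧ F.StronglyClosed (Q ⊓ P))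
    (hnorm : ∀ H : Subgroup Ω, F.IsFullyNormalized H → Nat.card H = p ^ k →
      ∀ (P : Subgroup Ω) (φ : P →* Ω), φ ∈ F.normalizerHom H P →
        ∃ g ∈ S, ∀ x : P, φ x = g * (x : Ω) * g⁻¹)
    (hk : p ^ k < Nat.card S) : TrivMod F p ⊥ := by
  have hlarge := fun {R : Subgroup Ω} (hR : R ≤ S) (hkR : p ^ k ≤ Nat.card R) {α : MulAut R} =>
    eq_one_of_large hS hF hweak hnorm hR hkR (α := α)
  by_contra hbad
  -- a maximal strongly closed `T` modulo which `F` is not trivial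
  have hfin : {T : Subgroup Ω | F.StronglyClosed T ∧ ¬ TrivMod F p T}.Finite :=
    (finite_Iic (R := S)).subset fun T hT => hT.1.1
  obtain ⟨T, hTm⟩ := hfin.exists_maximal ⟨⊥, H759.StronglyClosed.bot, hbad⟩
  have hT : F.StronglyClosed T := hTm.prop.1
  have hTbad : ¬ TrivMod F p T := hTm.prop.2
  have hTn := H759.StronglyClosed.le_normalizer hT
  have habove : ∀ T', F.StronglyClosed T' → T < T' → TrivMod F p T' := by
    intro T' hT' hlt
    by_contra hcon
    exact hlt.not_ge (hTm.le_of_ge ⟨hT', hcon⟩ hlt.le)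
  have hTS : T < S := by
    refine lt_of_le_of_ne hT.1 fun h => hTbad ?_
    intro R hR α hα hco x
    rw [h]
    exact S.mul_mem (S.inv_mem (hR x.2)) (hR (α x).2)
  -- `T₁`
  set T₁ : Subgroup Ω := sInf {T' | F.StronglyClosed T' ∧ T < T'} with hT₁def
  have hT₁le : ∀ T', F.StronglyClosed T' → T < T' → T₁ ≤ T' := fun T' h1 h2 => sInf_le ⟨h1, h2⟩
  have hT₁ : F.StronglyClosed T₁ := by
    refine ⟨hT₁le S H759.StronglyClosed.top hTS, fun R hR φ hφ x => ?_⟩
    rw [hT₁def, Subgroup.mem_sInf]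
    intro T' hT'
    exact hT'.1.2 R (hR.trans (sInf_le hT')) φ hφ x
  have hT₁triv : TrivMod F p T₁ := by
    intro R hR α hα hco x
    rw [hT₁def, Subgroup.mem_sInf]
    intro T' hT'
    exact habove T' hT'.1 hT'.2 R hR α hα hco x
  have hTT₁ : T < T₁ := by
    refine lt_of_le_of_ne (le_sInf fun T' hT' => hT'.2.le) fun h => hTbad ?_
    rw [h]
    exact hT₁triv
  have hfinT₁ : Finite T₁ := H802.finite_of_le hT₁.1
  have hfinT : Finite T := H802.finite_of_le hT.1
  -- `|T| < p ^ k`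
  have hTk : Nat.card T < p ^ k := by
    by_contra hcon
    push Not at hcon
    apply hTbad
    intro R hR α hα hco x
    obtain ⟨β, hβ, hβco, hβα⟩ := exists_coprime_lift hS hF hT hR hα hco
    have hRT : R ⊔ T ≤ S := sup_le hR hT.1
    have : Finite ↥(R ⊔ T) := H802.finite_of_le hRT
    have h1 : β = 1 := hlarge hRT (hcon.trans
      (Nat.card_le_card_of_injective _ (Subgroup.inclusion_injective le_sup_right))) hβ hβco
    have h2 := T.inv_mem (hβα x)
    rw [h1] at h2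
    simpa using h2
  -- the key property
  have hstar : ∀ Q : Subgroup Ω, Q ≤ S → T ≤ Q → Nat.card Q = p ^ k → T < Q ⊓ T₁ → T₁ ≤ Q := by
    intro Q hQS hTQ hQ hlt
    obtain ⟨P, hP, hQP, hQiP⟩ := hweak Q hQS hQ
    have hP₁ : F.StronglyClosed (P ⊔ T) := H759.StronglyClosed.sup hS hF hP hT
    have hi : Q ⊓ (P ⊔ T) = (Q ⊓ P) ⊔ T := by
      apply le_antisymm
      · rintro x ⟨hxQ, hx⟩
        obtain ⟨a, ha, b, hb, rfl⟩ := (H759.mem_sup_of_normalizes (hP.1.trans hTn)).1 hx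
        have haQ : a ∈ Q := by
          have h1 := Q.mul_mem hxQ (Q.inv_mem (hTQ hb))
          simpa using h1
        exact Subgroup.mul_mem _ (Subgroup.mem_sup_left ⟨haQ, ha⟩) (Subgroup.mem_sup_right hb)
      · exact sup_le (inf_le_inf_left _ le_sup_left) (le_inf hTQ le_sup_right)
    have hiS : F.StronglyClosed (Q ⊓ (P ⊔ T)) := by
      rw [hi]
      exact H759.StronglyClosed.sup hS hF hQiP hT
    rcases (le_sup_right : T ≤ P ⊔ T).eq_or_lt with h | h
    · -- `P ≤ T`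
      have hPT : P ≤ T := le_sup_left.trans h.ge
      have hQsc : F.StronglyClosed Q := by
        have : Q ⊔ P = Q := sup_eq_left.2 (hPT.trans hTQ)
        rwa [this] at hQP
      exact hT₁le Q hQsc (hlt.trans_le inf_le_left)
    · have h1 : T₁ ≤ P ⊔ T := hT₁le _ hP₁ h
      have h2 : T < Q ⊓ (P ⊔ T) := hlt.trans_le (inf_le_inf_left _ h1)
      exact (hT₁le _ hiS h2).trans inf_le_left
  have hpos : 0 < p := hp.out.pos
  rcases Nat.lt_or_ge (p * Nat.card T) (Nat.card T₁) with hbig | hsmall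
  · -- `|T₁ : T| > p`
    apply hTbad
    refine TrivMod.of_coatoms hS hF hT fun M hM hTM => ?_
    set X : Subgroup Ω := M.map S.subtype with hX
    have hXS : X ≤ S := by
      rintro _ ⟨x, -, rfl⟩
      exact x.2
    have hfinX : Finite X := H802.finite_of_le hXS
    have hMX : X.subgroupOf S = M := by
      rw [hX, Subgroup.subgroupOf, Subgroup.comap_map_eq_self_of_injective S.subtype_injective]
    have hMn : M.Normal := Lib.FrattiniPGroup.normal_of_coatom hS hM
    have hMi : M.index = p := Lib.FrattiniPGroup.index_of_coatom hS hM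
    have hrel : X.relIndex S = p := by
      rw [Subgroup.relIndex, hMX, hMi]
    have hTX : T ≤ X := by
      intro t ht
      exact ⟨⟨t, hT.1 ht⟩, hTM ht, rfl⟩
    have hcomm : ⁅(S : Subgroup Ω), (S : Subgroup Ω)⁆ ≤ X := by
      rw [Subgroup.commutator_le]
      intro a ha b hb
      have h1 : ⁅(⟨a, ha⟩ : S), ⟨b, hb⟩⁆ ∈ frattini S :=
        Lib.FrattiniPGroup.commutator_mem_frattini hS _ _
      exact ⟨_, frattini_le_coatom hM h1, rfl⟩
    have hcX : Nat.card X * p = Nat.card S := by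
      have h1 := Subgroup.card_mul_index M
      rw [hMi] at h1
      rw [← h1, hX, Nat.card_congr (M.equivMapOfInjective _ S.subtype_injective).toEquiv.symm]
    have hkX : p ^ k ≤ Nat.card X := by
      obtain ⟨a, ha⟩ := (hS.to_le hXS).exists_card_eq
      rw [ha] at hcX ⊢
      rw [← hcX, ← pow_succ] at hk
      exact Nat.pow_le_pow_right hpos (Nat.lt_succ_iff.1 ((Nat.pow_lt_pow_iff_right hp.out.one_lt).1 hk))
    have hT₁X : T₁ ≤ X := by
      by_contra hcon
      have hM' : Nat.card T₁ ≤ p * Nat.card (X ⊓ T₁ : Subgroup Ω) := by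
        have h1 : X.relIndex T₁ ≤ X.relIndex S :=
          Subgroup.relIndex_le_of_le_right hT₁.1 (by rw [hrel]; exact hpos.ne')
        have h2 : X.relIndex T₁ * Nat.card (X.subgroupOf T₁) = Nat.card T₁ := by
          rw [mul_comm]
          exact Subgroup.card_mul_index _
        have h3 : Nat.card (X.subgroupOf T₁) = Nat.card (X ⊓ T₁ : Subgroup Ω) := by
          rw [← Subgroup.subgroupOf_map_subtype,
            Nat.card_congr ((X.subgroupOf T₁).equivMapOfInjective _ T₁.subtype_injective).toEquiv]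
        rw [← h2, h3]
        rw [hrel] at h1
        exact Nat.mul_le_mul_right _ h1
      have hTM' : T < X ⊓ T₁ := by
        refine lt_of_le_of_ne (le_inf hTX hTT₁.le) fun h => ?_
        rw [← h] at hM'
        omega
      have hMS : X ⊓ T₁ ≤ S := inf_le_left.trans hXS
      have : Finite (X ⊓ T₁ : Subgroup Ω) := H802.finite_of_le hMS
      rcases le_or_gt (Nat.card (X ⊓ T₁ : Subgroup Ω)) (p ^ k) with h | h
      · obtain ⟨Q, hQ1, hQ2, hQ⟩ := exists_between (hS.to_le hXS) (inf_le_left : X ⊓ T₁ ≤ X) h hkX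
        exact hcon ((hstar Q (hQ2.trans hXS) (hTM'.le.trans hQ1) hQ
          (hTM'.trans_le (le_inf hQ1 inf_le_right))).trans hQ2)
      · obtain ⟨Q, hQ1, hQ2, hQ⟩ := exists_between (hS.to_le hMS) hTM'.le hTk.le h.le
        have hTQ : T < Q := lt_of_le_of_ne hQ1 fun h' => by
          rw [h'] at hTk
          omega
        exact hcon ((hstar Q (hQ2.trans hMS) hQ1 hQ
          (hTQ.trans_le (le_inf le_rfl (hQ2.trans inf_le_right)))).trans (hQ2.trans inf_le_left))
    refine H747.focal_le_of_saturated hS hF hcomm ?_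
    exact H747.hyperfocal_le fun P hP α hα hco x => hT₁X (hT₁triv P hP α hα hco x)
  · -- `|T₁ : T| = p`
    have hc : Nat.card T₁ = p * Nat.card T := by
      refine le_antisymm hsmall ?_
      obtain ⟨a, ha⟩ := Subgroup.card_dvd_of_le hTT₁.le
      obtain ⟨b, hb⟩ := (hS.to_le hT₁.1).exists_card_eq
      have ha' : a ∣ p ^ b := by
        rw [← hb, ha]
        exact Dvd.intro_left _ rfl
      obtain ⟨c, -, hc⟩ := (Nat.dvd_prime_pow hp.out).1 ha'
      have hc0 : c ≠ 0 := by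
        rintro rfl
        rw [pow_zero] at hc
        rw [hc, mul_one] at ha
        exact hTT₁.ne (Subgroup.eq_of_le_of_card_ge hTT₁.le ha.le)
      rw [ha, mul_comm, hc]
      refine Nat.mul_le_mul_left _ ?_
      calc p = p ^ 1 := (pow_one p).symm
        _ ≤ p ^ c := Nat.pow_le_pow_right hpos (Nat.one_le_iff_ne_zero.2 hc0)
    apply hTbad
    refine TrivMod.of_ge hS hF hT fun R hR hTR α hα hco x => ?_
    have hfinR : Finite R := H802.finite_of_le hR
    rcases (le_inf hTR hTT₁.le : T ≤ R ⊓ T₁).eq_or_lt with h | h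
    · rw [h]
      exact ⟨R.mul_mem (R.inv_mem x.2) (α x).2, hT₁triv R hR α hα hco x⟩
    · have h1 : R ⊓ T₁ = T₁ := eq_of_card_prime hp.out h inf_le_right hc
      have hT₁R : T₁ ≤ R := inf_eq_right.1 h1
      have hαT₁ : ∀ x : R, (x : Ω) ∈ T₁ → ((α x : R) : Ω) ∈ T₁ := fun x hx =>
        H759.StronglyClosed.apply_mem hT₁ ((H802.mem_autGroup_iff F hR α).1 hα) hx
      refine mem_of_mem_of_fix hS hTn hR hco hαT₁ (fun y hy => ?_) (fun y => hT₁triv R hR α hα hco y) x
      -- restrict `α` to `T₁`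
      have hres := H802.restrict_mem ((H802.mem_autGroup_iff F hR α).1 hα) hT₁R
      obtain ⟨γ, hγ, hγe⟩ := H802.exists_aut hres (H802.range_eq_of_mapsTo hres
        (fun z => hαT₁ _ z.2))
      have hγn : ∀ (n : ℕ) (z : T₁), (((γ ^ n) z : T₁) : Ω) = ((α ^ n) ⟨z, hT₁R z.2⟩ : R) := by
        intro n
        induction n with
        | zero => intro z; simp
        | succ n ih =>
          intro z
          rw [pow_succ, MulAut.mul_apply, ih, pow_succ, MulAut.mul_apply]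
          congr 2
          exact Subtype.ext (hγe z)
      have hγ1 : γ ^ orderOf α = 1 := by
        ext z
        rw [hγn, pow_orderOf_eq_one]
        rfl
      have hγco : (orderOf γ).Coprime p :=
        Nat.Coprime.coprime_dvd_left (orderOf_dvd_of_pow_eq_one hγ1) hco
      have h2 := fix_of_card hS hF hT hT₁ hTT₁ hc (fun α hα hco => hlarge le_rfl hk.le hα hco) hγ hγco
        ⟨y, hy⟩
      rw [hγe] at h2
      exact h2

end Cfsg.Agent.H787
end

-- part: S5271
section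
set_option autoImplicit false
open Cfsg

namespace Cfsg.Agent.S5271

open Cfsg.Agent Cfsg.FusionSystem

/-- A nilpotency criterion for fusion systems. Let F be a saturated fusion system over a finite p-group S of order at least p². Call a subgroup Q of S weakly embedded in F when there is a subgroup P of S strongly closed in F such that both the product QP and the intersection Q ∩ P are strongly closed in F. Then F is the inner fusion system of S if and only if there is a subgroup D of S with 1 < D < S such that every subgroup of S of the same order as D is weakly embedded in F and, for every fully normalized subgroup H of S of that order, the normalizer fusion system of H in F is the inner fusion system of N_S(H). -/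
theorem result {Ω : Type*} [Group Ω] {S : Subgroup Ω} [Finite S] (p : ℕ) [Fact p.Prime] (hS : IsPGroup p ↥S) (F : Cfsg.FusionSystem S) (hF : F.IsSaturated p) (hcard : p ^ 2 ≤ Nat.card S) : (∀ P : Subgroup Ω, F.Hom P = (Cfsg.innerFusionSystem S).Hom P) ↔ ∃ D : Subgroup Ω, ⊥ < D ∧ D < S ∧ (∀ Q : Subgroup Ω, Q ≤ S → Nat.card ↥Q = Nat.card ↥D → ∃ P : Subgroup Ω, F.StronglyClosed P ∧ F.StronglyClosed (Q ⊔ P) ∧ F.StronglyClosed (Q ⊓ P)) ∧ (∀ H : Subgroup Ω, F.IsFullyNormalized H → Nat.card ↥H = Nat.card ↥D → ∀ N : Cfsg.FusionSystem (Cfsg.FusionSystem.normalizerIn S H), F.IsNormalizerSystem H N → ∀ P : Subgroup Ω, N.Hom P = (Cfsg.innerFusionSystem (Cfsg.FusionSystem.normalizerIn S H)).Hom P) := by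
  have hp : p.Prime := Fact.out
  constructor
  · intro hin
    obtain ⟨n, hn⟩ := hS.exists_card_eq
    have hn2 : 2 ≤ n := by
      rw [hn] at hcard
      exact (Nat.pow_le_pow_iff_right hp.one_lt).1 hcard
    obtain ⟨m, rfl⟩ : ∃ m, n = m + 1 := ⟨n - 1, by omega⟩
    obtain ⟨D, -, hDS, hD⟩ := H787.exists_between (p := p) (X := (⊥ : Subgroup Ω)) hS bot_le (k := m)
      (by rw [Subgroup.card_bot]; exact Nat.one_le_pow _ _ hp.pos)
      (by rw [hn]; exact Nat.pow_le_pow_right hp.pos (Nat.le_succ m))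
    have hfull : ∀ Q : Subgroup Ω, Q ≤ S → Nat.card Q = p ^ m →
        S ≤ Subgroup.normalizer (Q : Set Ω) := by
      intro Q hQ hQc
      have hfin : Finite Q := H802.finite_of_le hQ
      have hidx : (Q.subgroupOf S).index = p := by
        have h1 := Subgroup.card_mul_index (Q.subgroupOf S)
        rw [Nat.card_congr (Subgroup.subgroupOfEquivOfLe hQ).toEquiv, hQc, hn, pow_succ] at h1
        exact Nat.eq_of_mul_eq_mul_left (pow_pos hp.pos m) h1
      have hmin : (Nat.card S).minFac = p := by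
        rw [hn]
        exact hp.pow_minFac (Nat.succ_ne_zero m)
      have hnorm : (Q.subgroupOf S).Normal :=
        Subgroup.normal_of_index_eq_minFac_card (by rw [hidx, hmin])
      intro s hs
      rw [Subgroup.mem_normalizer_iff]
      intro h
      constructor
      · intro hh
        exact hnorm.conj_mem ⟨h, hQ hh⟩ hh ⟨s, hs⟩
      · intro hh
        have h1 := hnorm.conj_mem ⟨s * h * s⁻¹, hQ hh⟩ hh ⟨s⁻¹, S.inv_mem hs⟩
        have h2 : s⁻¹ * (s * h * s⁻¹) * s⁻¹⁻¹ ∈ Q := h1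
        simpa [mul_assoc] using h2
    have hclosed : ∀ Q : Subgroup Ω, Q ≤ S → Nat.card Q = p ^ m → F.StronglyClosed Q := by
      intro Q hQ hQc
      refine ⟨hQ, fun R hR φ hφ x => ?_⟩
      rw [hin] at hφ
      obtain ⟨-, g, hg, hφg⟩ := hφ
      rw [hφg]
      exact (Subgroup.mem_normalizer_iff.1 (hfull Q hQ hQc hg) _).1 (hR x.2)
    refine ⟨D, ?_, ?_, ?_, ?_⟩
    · rw [bot_lt_iff_ne_bot]
      rintro rfl
      rw [Subgroup.card_bot] at hD
      have : 1 < p ^ m := Nat.one_lt_pow (by omega) hp.one_lt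
      omega
    · refine lt_of_le_of_ne hDS ?_
      rintro rfl
      rw [hD] at hn
      have := Nat.pow_right_injective hp.two_le hn
      omega
    · intro Q hQ hQc
      rw [hD] at hQc
      refine ⟨⊥, H759.StronglyClosed.bot, ?_, ?_⟩
      · rw [sup_bot_eq]
        exact hclosed Q hQ hQc
      · rw [inf_bot_eq]
        exact H759.StronglyClosed.bot
    · intro H hH hHc N hN P
      rw [hD] at hHc
      have hNS : normalizerIn S H = S := inf_eq_left.2 (hfull H hH.1 hHc)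
      apply Set.Subset.antisymm
      · intro φ hφ
        have h1 := N.le_of_mem hφ
        rw [hN P] at hφ
        have h2 : φ ∈ F.Hom P := hφ.1
        rw [hin] at h2
        obtain ⟨-, g, hg, hφg⟩ := h2
        exact ⟨h1.1, g, hNS.ge hg, hφg⟩
      · rintro φ ⟨hP, g, hg, hφ⟩
        have h2 : φ = conjHom P g := MonoidHom.ext hφ
        rw [h2]
        exact N.conj_mem hP hg
  · rintro ⟨D, -, hDS, hweak, hnorm⟩
    have hfinD : Finite D := H802.finite_of_le hDS.le
    obtain ⟨k, hk⟩ := (hS.to_le hDS.le).exists_card_eq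
    have hlt : p ^ k < Nat.card S := by
      rw [← hk]
      by_contra hcon
      push Not at hcon
      exact hDS.ne (Subgroup.eq_of_le_of_card_ge hDS.le hcon)
    have key : H787.TrivMod F p ⊥ := by
      refine H787.inner_of_weak hS hF (k := k) (fun Q hQ hQc => hweak Q hQ (by rw [hQc, hk])) ?_ hlt
      intro H hH hHc P φ hφ
      obtain ⟨N, hN⟩ := H802.exists_normalizerSystem F hH.1
      rw [← hN P, hnorm H hH (by rw [hHc, hk]) N hN P] at hφ
      obtain ⟨-, g, hg, hφg⟩ := hφ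
      exact ⟨g, hg.1, hφg⟩
    refine H747.hom_eq_inner_of_hyperfocal_eq_bot hS hF ?_
    rw [eq_bot_iff]
    exact H747.hyperfocal_le fun P hP α hα hco x => key P hP α hα hco x

end Cfsg.Agent.S5271
end
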