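import Cfsg.Agent.H802.FusCentric
import Cfsg.Statements.S5274
import Cfsg.Agent.H759.FusFactor
import Cfsg.Agent.H802.FusAbel
set_option linter.all false

-- part: H788/Elt
section
/-
Elementwise conjugacy in a fusion system, and maps between central elements of `S`.
-/
set_option autoImplicit false

namespace Cfsg.Agent.H788

open Cfsg Cfsg.FusionSystem Cfsg.Agent.H802

variable {Ω : Type*} [Group Ω] {S : Subgroup Ω}

/-- A map of the system on any source containing `x` shows that `x` is conjugate to its image. -/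
theorem isConjElt_of_hom {F : FusionSystem S} {P : Subgroup Ω} {φ : P →* Ω} (hφ : φ ∈ F.Hom P)
    {x : Ω} (hx : x ∈ P) : F.IsConjElt x (φ ⟨x, hx⟩) :=
  ⟨φ.comp (Subgroup.inclusion (Subgroup.zpowers_le.mpr hx)),
    restrict_mem hφ (Subgroup.zpowers_le.mpr hx), rfl⟩

theorem isConjElt_mem_left {F : FusionSystem S} {x y : Ω} (h : F.IsConjElt x y) : x ∈ S := by
  obtain ⟨φ, hφ, -⟩ := h
  exact hom_le hφ (Subgroup.mem_zpowers x)

theorem isConjElt_mem_right {F : FusionSystem S} {x y : Ω} (h : F.IsConjElt x y) : y ∈ S := by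
  obtain ⟨φ, hφ, rfl⟩ := h
  exact hom_apply_mem hφ _

theorem isConjElt_refl (F : FusionSystem S) {x : Ω} (hx : x ∈ S) : F.IsConjElt x x :=
  ⟨_, subtype_mem F (Subgroup.zpowers_le.mpr hx), rfl⟩

theorem isConjElt_trans {F : FusionSystem S} {x y z : Ω} (h : F.IsConjElt x y)
    (h' : F.IsConjElt y z) : F.IsConjElt x z := by
  obtain ⟨φ, hφ, rfl⟩ := h
  obtain ⟨ψ, hψ, rfl⟩ := h'
  have hm : ∀ u : Subgroup.zpowers x, φ u ∈ Subgroup.zpowers (φ ⟨x, Subgroup.mem_zpowers x⟩) := by
    rintro ⟨u, hu⟩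
    obtain ⟨k, rfl⟩ := Subgroup.mem_zpowers_iff.mp hu
    refine Subgroup.mem_zpowers_iff.mpr ⟨k, ?_⟩
    rw [← map_zpow]
    rfl
  exact ⟨_, F.comp_mem hφ hψ hm, rfl⟩

theorem isConjElt_symm {F : FusionSystem S} {x y : Ω} (h : F.IsConjElt x y) :
    F.IsConjElt y x := by
  obtain ⟨φ, hφ, rfl⟩ := h
  obtain ⟨ψ, hψ, h1⟩ := F.inv_mem hφ
  have := isConjElt_of_hom hψ (x := φ ⟨x, Subgroup.mem_zpowers x⟩) ⟨_, rfl⟩
  rwa [h1] at this

theorem isConjElt_inv {F : FusionSystem S} {x y : Ω} (h : F.IsConjElt x y) :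
    F.IsConjElt x⁻¹ y⁻¹ := by
  obtain ⟨φ, hφ, rfl⟩ := h
  have := isConjElt_of_hom hφ (x := x⁻¹) (inv_mem (Subgroup.mem_zpowers x))
  rw [← map_inv]
  exact this

theorem isConjElt_conj (F : FusionSystem S) {x g : Ω} (hx : x ∈ S) (hg : g ∈ S) :
    F.IsConjElt x (g * x * g⁻¹) :=
  isConjElt_of_hom (F.conj_mem (P := S) le_rfl hg) hx

theorem isConjElt_orderOf {F : FusionSystem S} {x y : Ω} (h : F.IsConjElt x y) :
    orderOf y = orderOf x := by
  obtain ⟨φ, hφ, rfl⟩ := h
  rw [orderOf_injective φ (F.injective_of_mem hφ)]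
  exact Subgroup.orderOf_mk x _

/-- A conjugacy between elements of the centre of `S` is given by a map of the system on `S`. -/
theorem exists_hom_of_central {p : ℕ} [Fact p.Prime] [Finite S] (hS : IsPGroup p S)
    {F : FusionSystem S} (hF : F.IsSaturated p) {z y : Ω}
    (hy : y ∈ Subgroup.centralizer (S : Set Ω))
    (hz : z ∈ Subgroup.centralizer (S : Set Ω)) (h : F.IsConjElt z y) :
    ∃ ψ ∈ F.Hom S, ∀ hz : z ∈ S, ψ ⟨z, hz⟩ = y := by
  obtain ⟨φ, hφ, hφz⟩ := h
  have hcent : ∀ (w : Ω), w ∈ Subgroup.centralizer (S : Set Ω) →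
      centralizerIn S (Subgroup.zpowers w) = S := by
    intro w hw
    refine le_antisymm inf_le_left (le_inf le_rfl fun s hs => ?_)
    rw [Subgroup.mem_centralizer_iff]
    rintro u hu
    obtain ⟨k, rfl⟩ := Subgroup.mem_zpowers_iff.mp hu
    have : Commute s w := (Subgroup.mem_centralizer_iff.mp hw s hs)
    exact (this.zpow_right k).eq.symm
  have hr : φ.range = Subgroup.zpowers y := by
    apply le_antisymm
    · rintro _ ⟨⟨u, hu⟩, rfl⟩
      obtain ⟨k, rfl⟩ := Subgroup.mem_zpowers_iff.mp hu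
      refine Subgroup.mem_zpowers_iff.mpr ⟨k, ?_⟩
      rw [← hφz, ← map_zpow]
      rfl
    · rw [Subgroup.zpowers_le]
      exact ⟨_, hφz⟩
  have hfc : F.IsFullyCentralized (Subgroup.zpowers y) := by
    refine ⟨by rw [← hr]; exact range_le_of_mem hφ, fun Q _ => ?_⟩
    rw [hcent y hy]
    exact Subgroup.card_le_of_le inf_le_left
  have hrec := isReceptive_of_isFullyCentralized hS hF hfc
  obtain ⟨ψ, hψ, hψe⟩ := hrec.2 _ φ hφ hr
  have hle : S ≤ extender S (Subgroup.zpowers z) φ := by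
    have := centralizerIn_le_extender S (Subgroup.zpowers z) φ
    rwa [hcent z hz] at this
  refine ⟨ψ.comp (Subgroup.inclusion hle), restrict_mem hψ hle, fun hzS => ?_⟩
  rw [← hφz]
  exact hψe z (Subgroup.mem_zpowers z) (hle hzS)

/-- The values on `Z(S)` of a map of the system on `S` are in `Z(S)`. -/
theorem apply_mem_centralizer [Finite S] {F : FusionSystem S} {ψ : S →* Ω} (hψ : ψ ∈ F.Hom S)
    {z : S} (hz : (z : Ω) ∈ Subgroup.centralizer (S : Set Ω)) :
    ψ z ∈ Subgroup.centralizer (S : Set Ω) := by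
  have hr : ψ.range = S := range_eq_of_mapsTo hψ (fun x => hom_apply_mem hψ x)
  rw [Subgroup.mem_centralizer_iff]
  intro s hs
  have hs' : s ∈ ψ.range := by rw [hr]; exact hs
  obtain ⟨t, rfl⟩ := hs'
  rw [← map_mul, ← map_mul]
  congr 1
  apply Subtype.ext
  exact Subgroup.mem_centralizer_iff.mp hz t t.2

/-- An element of `Aut_F(S)` of `p`-power order centralizes `Z(S)`. -/
theorem apply_eq_of_pow_eq_one {p : ℕ} [Fact p.Prime] [Finite S]
    {F : FusionSystem S} (hF : F.IsSaturated p) {α : MulAut S} (hα : α ∈ F.autGroup S)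
    {k : ℕ} (hk : α ^ p ^ k = 1) {z : S} (hz : (z : Ω) ∈ Subgroup.centralizer (S : Set Ω)) :
    α z = z := by
  have hcen : ∀ w : S, (w : Ω) ∈ Subgroup.centralizer (S : Set Ω) → 
      ∀ {ψ : S →* Ω}, ψ ∈ F.Hom S → ψ w ∈ Subgroup.centralizer (S : Set Ω) :=
    fun w hw ψ hψ => apply_mem_centralizer hψ hw
  obtain ⟨φ, hφ, g, hg, h⟩ := exists_conj_of_orderOf hF le_rfl hα hk
  apply F.injective_of_mem hφ
  rw [h z]
  have h1 := Subgroup.mem_centralizer_iff.mp (hcen z hz hφ) g hg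
  rw [h1, mul_inv_cancel_right]

/-- Over a finite `2`-group, a central element inverted by the system is an involution. -/
theorem sq_eq_one_of_inverted [Finite S] {F : FusionSystem S} (hS : IsPGroup 2 S)
    (hF : F.IsSaturated 2) {z : Ω} (hz : z ∈ Subgroup.centralizer (S : Set Ω))
    (h : F.IsConjElt z z⁻¹) : z * z = 1 := by
  have : Fact (Nat.Prime 2) := ⟨Nat.prime_two⟩
  have hzS := isConjElt_mem_left h
  obtain ⟨ψ, hψ, hψz⟩ := exists_hom_of_central hS hF (inv_mem hz) hz h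
  obtain ⟨α, hα, hαψ⟩ := exists_aut hψ (range_eq_of_mapsTo hψ (fun x => hom_apply_mem hψ x))
  set z' : S := ⟨z, hzS⟩ with hz'
  have h1 : α z' = z'⁻¹ := by
    apply Subtype.ext
    rw [hαψ]
    exact hψz hzS
  have h2 : ∀ n : ℕ, (α ^ (2 * n + 1)) z' = z'⁻¹ := by
    intro n
    induction n with
    | zero => simpa using h1
    | succ n ih =>
      rw [show 2 * (n + 1) + 1 = (2 * n + 1) + 1 + 1 by ring, pow_succ, pow_succ]
      rw [MulAut.mul_apply, MulAut.mul_apply, h1, map_inv, h1, inv_inv, ih]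
  have : Finite (MulAut S) := inferInstance
  obtain ⟨k, m, hm, hkm⟩ := Nat.exists_eq_two_pow_mul_odd (n := orderOf α) (orderOf_pos α).ne'
  obtain ⟨n, hn⟩ := hm
  have h3 : (α ^ m) ^ 2 ^ k = 1 := by
    rw [← pow_mul, mul_comm, ← hkm]
    exact pow_orderOf_eq_one α
  have h4 := apply_eq_of_pow_eq_one hF (pow_mem hα m) h3 (z := z') hz
  rw [hn, h2 n] at h4
  have h5 : (z')⁻¹ = z' := h4
  have h6 : z' * z' = 1 := by
    nth_rewrite 1 [← h5]
    exact inv_mul_cancel z'
  exact congrArg Subtype.val h6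

end Cfsg.Agent.H788
end

-- part: S5274
section
set_option autoImplicit false
open Cfsg

namespace Cfsg.Agent.S5274

open Cfsg.FusionSystem Cfsg.Agent.H802 Cfsg.Agent.H788

section omega

variable {Ω : Type*} [Group Ω] {S : Subgroup Ω}

/-- Every element conjugate to its inverse is an involution (or trivial). -/
theorem sq_of_inverted [Finite S] {F : FusionSystem S} (hS : IsPGroup 2 S)
    (hF : F.IsSaturated 2)
    (h : ∀ x ∈ S, ∃ z ∈ S ⊓ Subgroup.centralizer (S : Set Ω), F.IsConjElt x z) {x : Ω}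
    (hx : F.IsConjElt x x⁻¹) : x * x = 1 := by
  obtain ⟨z, hz, hxz⟩ := h x (isConjElt_mem_left hx)
  have h1 : F.IsConjElt z z⁻¹ :=
    isConjElt_trans (isConjElt_trans (isConjElt_symm hxz) hx) (isConjElt_inv hxz)
  have h2 := sq_eq_one_of_inverted hS hF hz.2 h1
  obtain ⟨φ, hφ, rfl⟩ := hxz
  rw [← map_mul] at h2
  have h3 := F.injective_of_mem hφ (h2.trans (map_one φ).symm)
  exact congrArg Subtype.val h3

/-- Involutions commute. -/
theorem commute_of_sq [Finite S] {F : FusionSystem S} (hS : IsPGroup 2 S)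
    (hF : F.IsSaturated 2)
    (h : ∀ x ∈ S, ∃ z ∈ S ⊓ Subgroup.centralizer (S : Set Ω), F.IsConjElt x z) {s t : Ω}
    (hs : s ∈ S) (ht : t ∈ S) (hs2 : s * s = 1) (ht2 : t * t = 1) : s * t = t * s := by
  have hsi : s⁻¹ = s := inv_eq_of_mul_eq_one_left hs2
  have hti : t⁻¹ = t := inv_eq_of_mul_eq_one_left ht2
  have h1 : F.IsConjElt (s * t) (s * t)⁻¹ := by
    have := isConjElt_conj F (S.mul_mem hs ht) ht
    have h2 : t * (s * t) * t⁻¹ = (s * t)⁻¹ := by
      rw [mul_inv_rev, hti, hsi]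
      rw [mul_assoc, mul_assoc, ht2, mul_one]
    rwa [h2] at this
  have h3 := sq_of_inverted hS hF h h1
  have h4 : (s * t)⁻¹ = s * t := inv_eq_of_mul_eq_one_left h3
  rw [mul_inv_rev, hti, hsi] at h4
  exact h4.symm

/-- The subgroup of elements of square one. -/
def omegaOne (S : Subgroup Ω)
    (h : ∀ s ∈ S, ∀ t ∈ S, s * s = 1 → t * t = 1 → s * t = t * s) : Subgroup Ω where
  carrier := {x | x ∈ S ∧ x * x = 1}
  one_mem' := ⟨S.one_mem, one_mul 1⟩
  mul_mem' := by
    rintro a b ⟨ha, ha2⟩ ⟨hb, hb2⟩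
    refine ⟨S.mul_mem ha hb, ?_⟩
    have h1 := h a ha b hb ha2 hb2
    calc a * b * (a * b) = a * (b * a) * b := by group
      _ = a * (a * b) * b := by rw [h1]
      _ = (a * a) * (b * b) := by group
      _ = 1 := by rw [ha2, hb2, one_mul]
  inv_mem' := by
    rintro a ⟨ha, ha2⟩
    refine ⟨S.inv_mem ha, ?_⟩
    rw [← mul_inv_rev, ha2, inv_one]

end omega

universe u

theorem aux (n : ℕ) : ∀ {Ω : Type u} [Group Ω] (S : Subgroup Ω) [Finite S] (_ : Nat.card S ≤ n)
    (_ : IsPGroup 2 S) (F : FusionSystem S) (_ : F.IsSaturated 2)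
    (_ : ∀ x ∈ S, ∃ z ∈ S ⊓ Subgroup.centralizer (S : Set Ω), F.IsConjElt x z),
    ∀ x ∈ S, ∀ y ∈ S, x * y = y * x := by
  induction n with
  | zero =>
    intro Ω _ S _ hn
    exact absurd (Nat.card_pos (α := S)) (by omega)
  | succ n ih =>
    intro Ω _ S _ hn hS F hF h
    have : Fact (Nat.Prime 2) := ⟨Nat.prime_two⟩
    by_cases htriv : S = ⊥
    · intro x hx y hy
      rw [htriv, Subgroup.mem_bot] at hx hy
      rw [hx, hy]
    have hcomm : ∀ s ∈ S, ∀ t ∈ S, s * s = 1 → t * t = 1 → s * t = t * s :=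
      fun s hs t ht hs2 ht2 => commute_of_sq hS hF h hs ht hs2 ht2
    set E : Subgroup Ω := omegaOne S hcomm with hE
    have hES : E ≤ S := fun x hx => hx.1
    have hEsc : F.StronglyClosed E := by
      refine ⟨hES, fun R hR φ hφ x => ⟨hom_apply_mem hφ x, ?_⟩⟩
      rw [← map_mul, ← φ.map_one]
      congr 1
      exact Subtype.ext (hR x.2).2
    have hEab : ⁅E, E⁆ = ⊥ := by
      rw [Subgroup.commutator_eq_bot_iff_le_centralizer]
      intro x hx
      rw [Subgroup.mem_centralizer_iff]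
      intro y hy
      exact hcomm y hy.1 x hx.1 hy.2 hx.2
    have hEn : F.IsNormal E := Cfsg.Agent.H759.isNormal_of_abelian hS hF hEsc hEab
    -- every element of `S` centralizes `E`
    have hcent : ∀ x ∈ S, ∀ e ∈ E, e * x = x * e := by
      intro x hx e he
      obtain ⟨z, hz, hxz⟩ := h x hx
      obtain ⟨φ, hφ, rfl⟩ := hxz
      obtain ⟨ψ, hψ, hψφ, hψE⟩ := hEn.2 _ φ hφ
      have he' : e ∈ Subgroup.zpowers x ⊔ E := Subgroup.mem_sup_right he
      have hx' : x ∈ Subgroup.zpowers x ⊔ E := Subgroup.mem_sup_left (Subgroup.mem_zpowers x)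
      have h1 : ψ ⟨x, hx'⟩ = φ ⟨x, Subgroup.mem_zpowers x⟩ :=
        hψφ ⟨x, Subgroup.mem_zpowers x⟩
      have h2 : ψ ⟨e, he'⟩ * ψ ⟨x, hx'⟩ = ψ ⟨x, hx'⟩ * ψ ⟨e, he'⟩ := by
        rw [h1]
        exact Subgroup.mem_centralizer_iff.mp hz.2 _ (hom_apply_mem hψ _)
      rw [← map_mul, ← map_mul] at h2
      exact congrArg Subtype.val (F.injective_of_mem hψ h2)
    have hnorm : (E.subgroupOf S).Normal := by
      constructor
      intro a ha g
      rw [Subgroup.mem_subgroupOf] at ha ⊢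
      have h1 := hcent g g.2 a ha
      have h2 : ((g * a * g⁻¹ : S) : Ω) = a := by
        show (g : Ω) * a * (g : Ω)⁻¹ = a
        rw [← h1, mul_inv_cancel_right]
      rw [h2]
      exact ha
    -- the factor system
    set Ω' := S ⧸ E.subgroupOf S with hΩ'
    set θ : S →* Ω' := QuotientGroup.mk' (E.subgroupOf S) with hθ
    have hker : ∀ s : S, θ s = 1 ↔ (s : Ω) ∈ E := by
      intro s
      rw [hθ, QuotientGroup.mk'_apply, QuotientGroup.eq_one_iff, Subgroup.mem_subgroupOf]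
    have hr : θ.range = ⊤ := MonoidHom.range_eq_top.mpr (QuotientGroup.mk'_surjective _)
    obtain ⟨F', hF'⟩ := Cfsg.Agent.H759.exists_factorSystem hEsc hker hr
    have hsat' : F'.IsSaturated 2 := Cfsg.Agent.H759.isSaturated_factor hS hF hEsc hF'
    have hθs : Function.Surjective θ := QuotientGroup.mk'_surjective _
    have hS' : IsPGroup 2 (⊤ : Subgroup Ω') := by
      have h1 : IsPGroup 2 Ω' := hS.of_surjective θ hθs
      exact h1.to_subgroup ⊤
    have hfin : Finite Ω' := inferInstance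
    -- card
    have hcard : Nat.card (⊤ : Subgroup Ω') ≤ n := by
      have h1 : Nat.card (⊤ : Subgroup Ω') = Nat.card Ω' := Nat.card_congr Subgroup.topEquiv.toEquiv
      rw [h1]
      have h2 : Nat.card S = Nat.card Ω' * Nat.card (E.subgroupOf S) :=
        Subgroup.card_eq_card_quotient_mul_card_subgroup _
      have h3 : 1 < Nat.card (E.subgroupOf S) := by
        have hnt : Nontrivial S := (Subgroup.nontrivial_iff_ne_bot S).mpr htriv
        have hdvd : 2 ∣ Nat.card S := by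
          obtain ⟨k, hk⟩ := IsPGroup.iff_card.mp hS
          have : 1 < Nat.card S := Finite.one_lt_card
          rw [hk] at this ⊢
          exact dvd_pow_self 2 (by rintro rfl; simp at this)
        obtain ⟨t, ht⟩ := exists_prime_orderOf_dvd_card' 2 hdvd
        have ht2 : t * t = 1 := by
          have := pow_orderOf_eq_one t
          rwa [ht, pow_two] at this
        have ht1 : t ≠ 1 := by
          rintro rfl
          rw [orderOf_one] at ht
          omega
        have htE : t ∈ E.subgroupOf S := by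
          rw [Subgroup.mem_subgroupOf]
          exact ⟨t.2, congrArg Subtype.val ht2⟩
        have : Nontrivial (E.subgroupOf S) :=
          ⟨⟨⟨t, htE⟩, 1, fun hh => ht1 (congrArg Subtype.val hh)⟩⟩
        exact Finite.one_lt_card
      have h4 : 0 < Nat.card Ω' := Nat.card_pos
      nlinarith
    -- the hypothesis for the factor system
    have hprop' : ∀ x ∈ (⊤ : Subgroup Ω'), ∃ z ∈ (⊤ : Subgroup Ω') ⊓
        Subgroup.centralizer ((⊤ : Subgroup Ω') : Set Ω'), F'.IsConjElt x z := by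
      intro x' _
      obtain ⟨x, rfl⟩ := hθs x'
      obtain ⟨z, hz, hxz⟩ := h x x.2
      obtain ⟨φ, hφ, hφz⟩ := hxz
      obtain ⟨ψ, hψ, hψφ, hψE⟩ := hEn.2 _ φ hφ
      have hx' : (x : Ω) ∈ Subgroup.zpowers (x : Ω) ⊔ E :=
        Subgroup.mem_sup_left (Subgroup.mem_zpowers _)
      have h1 : ψ ⟨x, hx'⟩ = z := by
        rw [← hφz]
        exact hψφ ⟨x, Subgroup.mem_zpowers (x : Ω)⟩
      have hle : preimageAlong θ (Subgroup.zpowers (θ x)) ≤ Subgroup.zpowers (x : Ω) ⊔ E := by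
        intro y hy
        rw [Cfsg.Agent.H759.mem_preimageAlong] at hy
        obtain ⟨hyS, hy⟩ := hy
        obtain ⟨k, hk⟩ := Subgroup.mem_zpowers_iff.mp hy
        have h2 : ((x ^ k : S) : Ω)⁻¹ * y ∈ E := by
          have := (Cfsg.Agent.H759.theta_eq_iff hF' (a := x ^ k) (b := ⟨y, hyS⟩)).mp (by
            rw [map_zpow, hk])
          exact this
        have h3 : y = ((x ^ k : S) : Ω) * (((x ^ k : S) : Ω)⁻¹ * y) := by group
        rw [h3]
        refine Subgroup.mul_mem_sup ?_ h2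
        exact Subgroup.mem_zpowers_iff.mpr ⟨k, by simp⟩
      obtain ⟨φ', hφ', hφ'e⟩ := Cfsg.Agent.H759.exists_factor_map hEsc hF' hψ
        (P' := Subgroup.zpowers (θ x)) le_top hle
      have hzS : z ∈ S := hz.1
      refine ⟨θ ⟨z, hzS⟩, ⟨Subgroup.mem_top _, ?_⟩, φ', hφ', ?_⟩
      · change _ ∈ Subgroup.centralizer _
        rw [Subgroup.mem_centralizer_iff]
        intro w _
        obtain ⟨w, rfl⟩ := hθs w
        rw [← map_mul, ← map_mul]
        congr 1
        exact Subtype.ext (Subgroup.mem_centralizer_iff.mp hz.2 _ w.2)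
      · have := hφ'e x hx' x.2 (Subgroup.mem_zpowers _) (by rw [h1]; exact hzS)
        refine this.trans ?_
        congr 1
        exact Subtype.ext h1
    have hab := ih (⊤ : Subgroup Ω') hcard hS' F' hsat' hprop'
    -- conclusion
    have hZ : ∀ x ∈ S, x ∈ Subgroup.centralizer (S : Set Ω) := by
      intro x hx
      obtain ⟨z, hz, hxz⟩ := h x hx
      obtain ⟨φ, hφ, hφz⟩ := hxz
      obtain ⟨ψ, hψ, hψφ, hψE⟩ := hEn.2 _ φ hφ
      have hx' : (x : Ω) ∈ Subgroup.zpowers (x : Ω) ⊔ E :=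
        Subgroup.mem_sup_left (Subgroup.mem_zpowers _)
      have h1 : ψ ⟨x, hx'⟩ = z := by
        rw [← hφz]
        exact hψφ ⟨x, Subgroup.mem_zpowers (x : Ω)⟩
      have hle : preimageAlong θ (Subgroup.zpowers (θ ⟨x, hx⟩)) ≤
          Subgroup.zpowers (x : Ω) ⊔ E := by
        intro y hy
        rw [Cfsg.Agent.H759.mem_preimageAlong] at hy
        obtain ⟨hyS, hy⟩ := hy
        obtain ⟨k, hk⟩ := Subgroup.mem_zpowers_iff.mp hy
        have h2 : (((⟨x, hx⟩ : S) ^ k : S) : Ω)⁻¹ * y ∈ E := by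
          have := (Cfsg.Agent.H759.theta_eq_iff hF' (a := ⟨x, hx⟩ ^ k) (b := ⟨y, hyS⟩)).mp (by
            rw [map_zpow, hk])
          exact this
        have h3 : y = (((⟨x, hx⟩ : S) ^ k : S) : Ω) * ((((⟨x, hx⟩ : S) ^ k : S) : Ω)⁻¹ * y) := by
          group
        rw [h3]
        refine Subgroup.mul_mem_sup ?_ h2
        exact Subgroup.mem_zpowers_iff.mpr ⟨k, by simp⟩
      obtain ⟨φ', hφ', hφ'e⟩ := Cfsg.Agent.H759.exists_factor_map hEsc hF' hψ
        (P' := Subgroup.zpowers (θ ⟨x, hx⟩)) le_top hle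
      have hzS : z ∈ S := hz.1
      have h4 : φ' ⟨θ ⟨x, hx⟩, Subgroup.mem_zpowers _⟩ = θ ⟨z, hzS⟩ := by
        have := hφ'e x hx' hx (Subgroup.mem_zpowers _) (by rw [h1]; exact hzS)
        refine this.trans ?_
        congr 1
        exact Subtype.ext h1
      obtain ⟨α, hα, hαe⟩ := exists_aut_extension_of_abelian hS' hsat' hab hφ'
      have h5 := (mem_autGroup_iff F' le_rfl α).mp hα
      obtain ⟨Φ, hΦ, hΦe⟩ := Cfsg.Agent.H759.exists_map_of_factor hF' h5
      have hpre : ∀ y (hy : y ∈ S), y ∈ preimageAlong θ (⊤ : Subgroup Ω') := by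
        intro y hy
        rw [Cfsg.Agent.H759.mem_preimageAlong]
        exact ⟨hy, Subgroup.mem_top _⟩
      have hSpre : S ≤ preimageAlong θ (⊤ : Subgroup Ω') := fun y hy => hpre y hy
      have h6 := hΦe x (hpre x hx) hx (Subgroup.mem_top _) (hom_apply_mem hΦ _)
      have h7 : θ ⟨Φ ⟨x, hpre x hx⟩, hom_apply_mem hΦ _⟩ = θ ⟨z, hzS⟩ := by
        rw [← h6, ← h4, hαe]
        rfl
      have h8 := (Cfsg.Agent.H759.theta_eq_iff hF').mp h7.symm
      have h9 : Φ ⟨x, hpre x hx⟩ ∈ Subgroup.centralizer (S : Set Ω) := by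
        have h10 : z⁻¹ * Φ ⟨x, hpre x hx⟩ ∈ Subgroup.centralizer (S : Set Ω) := by
          rw [Subgroup.mem_centralizer_iff]
          intro s hs
          exact (hcent s hs _ h8).symm
        have h11 := mul_mem hz.2 h10
        rwa [mul_inv_cancel_left] at h11
      -- pull back
      have hr2 : (Φ.comp (Subgroup.inclusion hSpre)).range = S :=
        range_eq_of_mapsTo (restrict_mem hΦ hSpre) (fun x => hom_apply_mem hΦ _)
      rw [Subgroup.mem_centralizer_iff]
      intro s hs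
      have h12 := Subgroup.mem_centralizer_iff.mp h9 _ (hom_apply_mem hΦ ⟨s, hpre s hs⟩)
      rw [← map_mul, ← map_mul] at h12
      exact congrArg Subtype.val (F.injective_of_mem hΦ h12)
    intro x hx y hy
    exact Subgroup.mem_centralizer_iff.mp (hZ y hy) x hx

/-- Let F be a saturated fusion system over a finite 2-group S. Suppose that every element of S is F-conjugate to an element of the centre Z(S) (some map of F defined on the cyclic subgroup it generates sends it into Z(S)). Then S is abelian. -/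
theorem result {Ω : Type*} [Group Ω] {S : Subgroup Ω} [Finite S] (hS : IsPGroup 2 ↥S) (F : Cfsg.FusionSystem S) (hF : F.IsSaturated 2) (h : ∀ x ∈ S, ∃ z ∈ S ⊓ Subgroup.centralizer (S : Set Ω), F.IsConjElt x z) : IsMulCommutative ↥S := by
  refine ⟨⟨fun x y => ?_⟩⟩
  exact Subtype.ext (aux _ S le_rfl hS F hF h x x.2 y y.2)

end Cfsg.Agent.S5274
end
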