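import Cfsg.Statements.S5276
import Cfsg.Agent.H747.MonoOfBiset
import Cfsg.Agent.H747.FocQuot
import Cfsg.Agent.H781.NormSys
import Cfsg.Agent.Lib.FrattiniPGroup
set_option linter.all false

set_option autoImplicit false
open Cfsg

namespace Cfsg.Agent.S5276

open Cfsg.FusionSystem Cfsg.Agent.H802
open scoped commutatorElement

variable {Ω : Type*} [Group Ω] {S : Subgroup Ω}

theorem normalizerIn_self : FusionSystem.normalizerIn S S = S :=
  le_antisymm inf_le_left (le_inf le_rfl Subgroup.le_normalizer)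

theorem commutator_le_map_frattini [Finite S] {p : ℕ} [Fact p.Prime] (hS : IsPGroup p S) :
    ⁅S, S⁆ ≤ (frattini ↥S).map S.subtype := by
  rw [Subgroup.commutator_le]
  intro x hx y hy
  exact ⟨⁅⟨x, hx⟩, ⟨y, hy⟩⁆,
    Cfsg.Agent.Lib.FrattiniPGroup.commutator_mem_frattini hS _ _, rfl⟩

/-- The normalizer system of `S` in the inner system of `S`. -/
theorem hom_normalizer_of_inner {F : FusionSystem S}
    (h : ∀ P : Subgroup Ω, F.Hom P = (innerFusionSystem S).Hom P)
    (N : FusionSystem (FusionSystem.normalizerIn S S)) (hN : F.IsNormalizerSystem S N)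
    (P : Subgroup Ω) :
    N.Hom P = (innerFusionSystem (FusionSystem.normalizerIn S S)).Hom P := by
  rw [hN P]
  ext φ
  constructor
  · rintro ⟨hφ, hP, -, -⟩
    rw [h P] at hφ
    obtain ⟨-, g, hg, hgφ⟩ := hφ
    exact ⟨hP, g, by rw [normalizerIn_self]; exact hg, hgφ⟩
  · rintro ⟨hP, g, hg, hgφ⟩
    have hPS : P ≤ S := hP.trans inf_le_left
    have hgS : g ∈ S := hg.1
    have hφ : φ ∈ F.Hom P := by
      rw [h P]
      exact ⟨hPS, g, hgS, hgφ⟩
    refine ⟨hφ, hP, fun x => ?_, conjHom (P ⊔ S) g, ?_, ?_, ?_⟩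
    · rw [normalizerIn_self]
      exact hom_apply_mem hφ x
    · exact F.conj_mem (sup_le hPS le_rfl) hgS
    · intro x
      rw [hgφ x]
      rfl
    · apply le_antisymm
      · rintro _ ⟨x, hx, rfl⟩
        exact S.mul_mem (S.mul_mem hgS hx) (S.inv_mem hgS)
      · intro y hy
        have hy' : g⁻¹ * y * g ∈ S := S.mul_mem (S.mul_mem (S.inv_mem hgS) hy) hgS
        refine ⟨⟨g⁻¹ * y * g, Subgroup.mem_sup_right hy'⟩, hy', ?_⟩
        show g * (g⁻¹ * y * g) * g⁻¹ = y
        group

theorem stronglyClosed_frattini_of_inner {F : FusionSystem S}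
    (h : ∀ P : Subgroup Ω, F.Hom P = (innerFusionSystem S).Hom P) :
    F.StronglyClosed ((frattini ↥S).map S.subtype) := by
  refine ⟨Subgroup.map_subtype_le _, fun R hR φ hφ x => ?_⟩
  rw [h R] at hφ
  obtain ⟨-, g, hg, hgφ⟩ := hφ
  obtain ⟨y, hy, hyx⟩ := hR x.2
  rw [hgφ x]
  have hn : (frattini ↥S).Normal := inferInstance
  refine ⟨⟨g, hg⟩ * y * ⟨g, hg⟩⁻¹, hn.conj_mem y hy _, ?_⟩
  rw [← hyx]
  rfl

/-- Let p be a prime and F a saturated fusion system over a finite p-group S. Then F is the inner fusion system of S if and only if the normalizer fusion system of S itself in F is the inner fusion system (equivalently, Aut_F(S) is induced by S) and the Frattini subgroup Φ(S) is strongly closed in F. -/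
theorem result {Ω : Type*} [Group Ω] {S : Subgroup Ω} [Finite S] (p : ℕ) [Fact p.Prime] (hS : IsPGroup p ↥S) (F : Cfsg.FusionSystem S) (hF : F.IsSaturated p) : (∀ P : Subgroup Ω, F.Hom P = (Cfsg.innerFusionSystem S).Hom P) ↔ (∀ N : Cfsg.FusionSystem (Cfsg.FusionSystem.normalizerIn S S), F.IsNormalizerSystem S N → ∀ P : Subgroup Ω, N.Hom P = (Cfsg.innerFusionSystem (Cfsg.FusionSystem.normalizerIn S S)).Hom P) ∧ F.StronglyClosed ((frattini ↥S).map S.subtype) := by
  constructor
  · intro h
    exact ⟨hom_normalizer_of_inner h, stronglyClosed_frattini_of_inner h⟩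
  · rintro ⟨h1, h2⟩
    apply Cfsg.Agent.H747.hom_eq_inner_of_focal_le_frattini hS hF
    refine Cfsg.Agent.H747.focal_le_of_stronglyClosed hS hF h2 (commutator_le_map_frattini hS) ?_
    intro φ hφ x
    have h3 := h1 _ (Cfsg.Agent.H781.isNormalizerSystem_normSys F S le_rfl) S
    have hSS : S ⊔ S = S := sup_idem S
    have hr : φ.range = S := range_eq_of_mapsTo hφ (fun x => hom_apply_mem hφ x)
    have h4 : φ ∈ F.normalizerHom S S := by
      refine ⟨hφ, ?_, ?_, φ.comp (Subgroup.inclusion hSS.le), ?_, ?_, ?_⟩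
      · exact normalizerIn_self.ge
      · intro x
        rw [normalizerIn_self]
        exact hom_apply_mem hφ x
      · exact mem_of_eq_source hSS.symm hφ (fun x hx hx' => rfl)
      · intro x
        rfl
      · apply le_antisymm
        · rintro _ ⟨x, -, rfl⟩
          exact hom_apply_mem hφ _
        · intro y hy
          rw [← hr] at hy
          obtain ⟨z, rfl⟩ := hy
          exact ⟨⟨z, hSS.ge z.2⟩, z.2, rfl⟩
    rw [← Cfsg.Agent.H781.isNormalizerSystem_normSys F S le_rfl S, h3] at h4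
    obtain ⟨-, g, hg, hgφ⟩ := h4
    rw [hgφ x]
    apply commutator_le_map_frattini hS
    have h5 : (x : Ω)⁻¹ * (g * x * g⁻¹) = ⁅(x : Ω)⁻¹, g⁆ := by
      rw [commutatorElement_def]
      group
    rw [h5]
    exact Subgroup.commutator_mem_commutator (S.inv_mem x.2) hg.1

end Cfsg.Agent.S5276
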