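import Cfsg.Agent.H781.NormSys
import Cfsg.Agent.H781.PStabSys
import Cfsg.Agent.H782.QdLocal
import Cfsg.Statements.S5281
set_option linter.all false

-- part: H789/StableRad
section
/-!
# `p`-stability is determined by the normalizer systems of the centric radical subgroups (helper789)

* `FullAt F Q R`: for some conjugate `Q'` of `Q` inside `N_S(R)` all of `Aut_F(Q')` lies in `N_F(R)`;
* `exists_radical_fullAt`: for every `Q ≤ S` there is a fully normalized centric radical `R` with `FullAt F Q R`.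
-/

set_option autoImplicit false

namespace Cfsg.Agent.H789.StableRad

open Cfsg Cfsg.FusionSystem Cfsg.Agent.H802 Cfsg.Agent.H781
open Cfsg.Agent.H782.RadStep Cfsg.Agent.H782.QdLocal

variable {Ω : Type*} [Group Ω] {S : Subgroup Ω}

/-- For some conjugate `Q'` of `Q` inside `N_S(R)` all of `Aut_F(Q')` lies in `N_F(R)`. -/
def FullAt (F : FusionSystem S) (Q R : Subgroup Ω) : Prop :=
  ∃ Q' : Subgroup Ω, F.IsConj Q Q' ∧ Q' ≤ normalizerIn S R ∧
    ∀ α ∈ F.autGroup Q', Q'.subtype.comp α.toMonoidHom ∈ F.normalizerHom R Q'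

theorem FullAt.mono {F : FusionSystem S} {Q R R₁ : Subgroup Ω} (h : FullAt F Q R)
    (hN : normalizerIn S R ≤ normalizerIn S R₁)
    (hle : ∀ (P : Subgroup Ω), F.normalizerHom R P ⊆ F.normalizerHom R₁ P) : FullAt F Q R₁ := by
  obtain ⟨Q', hc, hQ', hA⟩ := h
  exact ⟨Q', hc, hQ'.trans hN, fun α hα => hle _ (hA α hα)⟩

theorem FullAt.transport {F : FusionSystem S} {Q R R₂ : Subgroup Ω} (hR : R ≤ S)
    (h : FullAt F Q R) {χ : normalizerIn S R →* Ω} (hχ : χ ∈ F.Hom (normalizerIn S R))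
    (hχN : ∀ x, χ x ∈ normalizerIn S R₂)
    (hχQ : (R.subgroupOf (normalizerIn S R)).map χ = R₂) : FullAt F Q R₂ := by
  obtain ⟨Q', hc, hQ', hA⟩ := h
  have hφ := restrict_mem hχ hQ'
  set φ : Q' →* Ω := χ.comp (Subgroup.inclusion hQ') with hφdef
  have hr : φ.range = (Q'.subgroupOf (normalizerIn S R)).map χ := by
    ext y
    constructor
    · rintro ⟨x, rfl⟩
      exact ⟨⟨x, hQ' x.2⟩, x.2, rfl⟩
    · rintro ⟨x, hx, rfl⟩
      exact ⟨⟨x, hx⟩, rfl⟩
  refine ⟨φ.range, isConj_trans hc (isConj_range hφ), ?_, ?_⟩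
  · rintro _ ⟨x, rfl⟩
    exact hχN _
  · intro α₂ hα₂
    set κ := isoOf φ (F.injective_of_mem hφ) rfl with hκ
    obtain ⟨α, rfl⟩ := (MulAut.congr κ).surjective α₂
    have hα : α ∈ F.autGroup Q' := (congr_mem_autGroup_iff hφ rfl).1 hα₂
    refine normalizerHom_transport hR hχ hχN hχQ (hA α hα) hr ?_
    intro x hx hxN hx₂ hφx
    have h1 : MulAut.congr κ α (κ ⟨x, hx⟩) = κ (α ⟨x, hx⟩) := by
      show κ (α (κ.symm (κ ⟨x, hx⟩))) = _
      rw [MulEquiv.symm_apply_apply]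
    exact congrArg Subtype.val h1

theorem FullAt.exists_isFullyNormalized {p : ℕ} [Fact p.Prime] [Finite S] (hS : IsPGroup p S)
    {F : FusionSystem S} (hF : F.IsSaturated p) {Q R₁ : Subgroup Ω} (hQ₁S : R₁ ≤ S)
    (h₁ : FullAt F Q R₁) :
    ∃ R₂ : Subgroup Ω, F.IsConj R₁ R₂ ∧ F.IsFullyNormalized R₂ ∧ FullAt F Q R₂ := by
  obtain ⟨Q₂, hc, hQ₂⟩ := H802.exists_isFullyNormalized hS hF hQ₁S
  have hc' := hc
  obtain ⟨φ, hφ, hφr⟩ := hc
  obtain ⟨β, hβ, ψ, hψ, hψe, hψN⟩ := exists_extension_normalizer hS hF hφ hφr hQ₂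
  have hφm : ∀ x : R₁, φ x ∈ Q₂ := fun x => by rw [← hφr]; exact ⟨x, rfl⟩
  have hψQ : (R₁.subgroupOf (normalizerIn S R₁)).map ψ = Q₂ := by
    ext z
    constructor
    · rintro ⟨⟨y, hy'⟩, hy, rfl⟩
      rw [hψe ⟨y, hy⟩ (hφm _) hy']
      exact (β _).2
    · intro hz
      have h2 : ((β.symm ⟨z, hz⟩ : Q₂) : Ω) ∈ φ.range := by
        rw [hφr]
        exact (β.symm ⟨z, hz⟩).2
      obtain ⟨y, hy⟩ := h2
      refine ⟨⟨y, le_normalizerIn hQ₁S y.2⟩, y.2, ?_⟩
      rw [hψe y (hφm _) _]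
      have : (⟨φ y, hφm y⟩ : Q₂) = β.symm ⟨z, hz⟩ := Subtype.ext hy
      rw [this, MulEquiv.apply_symm_apply]
  exact ⟨Q₂, hc', hQ₂, h₁.transport hQ₁S hψ hψN hψQ⟩

theorem exists_radical_fullAt' {p : ℕ} [Fact p.Prime] [Finite S] (hS : IsPGroup p S)
    {F : FusionSystem S} (hF : F.IsSaturated p) {Q : Subgroup Ω} {R : Subgroup Ω}
    (hR : F.IsFullyNormalized R) (hRc : F.IsCentric R) (h : FullAt F Q R) :
    ∃ R₁ : Subgroup Ω, F.IsFullyNormalized R₁ ∧ F.IsCentric R₁ ∧ F.IsRadical p R₁ ∧ FullAt F Q R₁ := by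
  have main : ∀ n : ℕ, ∀ R : Subgroup Ω, F.IsFullyNormalized R → F.IsCentric R →
      FullAt F Q R → Nat.card S - Nat.card R = n →
      ∃ R₁ : Subgroup Ω, F.IsFullyNormalized R₁ ∧ F.IsCentric R₁ ∧ F.IsRadical p R₁ ∧
      FullAt F Q R₁ := by
    intro n
    induction n using Nat.strong_induction_on with
    | _ n ih =>
      intro R hR hRc h hn
      by_cases hr : F.IsRadical p R
      · exact ⟨R, hR, hRc, hr, h⟩
      obtain ⟨Q₁, hlt, hQ₁N, hNN, hle⟩ := exists_radical_step hS hF hR hRc hr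
      have hQ₁S : Q₁ ≤ S := hQ₁N.trans inf_le_left
      have h₁ : FullAt F Q Q₁ := h.mono hNN hle
      obtain ⟨Q₂, hc', hQ₂, h₂⟩ := h₁.exists_isFullyNormalized hS hF hQ₁S
      have hQ₂c : F.IsCentric Q₂ := isCentric_of_isConj (isCentric_of_le hRc hlt.le hQ₁S) hc'
      have hcard : Nat.card Q₂ = Nat.card Q₁ := (isConj_card_eq hc').symm
      have hfin₁ : Finite Q₁ := finite_of_le hQ₁S
      have h3 : Nat.card R < Nat.card Q₁ := by
        have hfinQ : Finite R := finite_of_le hR.1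
        refine lt_of_le_of_ne (Subgroup.card_le_of_le hlt.le) (fun heq => hlt.ne ?_)
        exact Subgroup.eq_of_le_of_card_ge hlt.le heq.ge
      have h4 : Nat.card Q₁ ≤ Nat.card S := Subgroup.card_le_of_le hQ₁S
      exact ih (Nat.card S - Nat.card Q₂) (by omega) Q₂ hQ₂ hQ₂c h₂ rfl
  exact main _ R hR hRc h rfl

/-- For every `Q ≤ S` there is a fully normalized centric radical `R` with `FullAt F Q R`. -/
theorem exists_radical_fullAt {p : ℕ} [Fact p.Prime] [Finite S] (hS : IsPGroup p S)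
    {F : FusionSystem S} (hF : F.IsSaturated p) {Q : Subgroup Ω} (hQ : Q ≤ S) :
    ∃ R₁ : Subgroup Ω, F.IsFullyNormalized R₁ ∧ F.IsCentric R₁ ∧ F.IsRadical p R₁ ∧ FullAt F Q R₁ := by
  obtain ⟨Q₀, hc₀, hQ₀⟩ := H802.exists_isFullyNormalized hS hF hQ
  have hQ₀S := hQ₀.1
  have hrec := isReceptive_of_isFullyNormalized hS hF hQ₀
  have hcen := isFullyCentralized_of_isFullyNormalized hS hF hQ₀
  set X : Subgroup Ω := Q₀ ⊔ centralizerIn S Q₀ with hX
  have hXS : X ≤ S := sup_le hQ₀S inf_le_left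
  have hQX : Q₀ ≤ X := le_sup_left
  have hCX : centralizerIn S Q₀ ≤ X := le_sup_right
  have hXfin : Finite X := finite_of_le hXS
  have hXc : F.IsCentric X := isCentric_sup_centralizerIn hcen
  have h0 : FullAt F Q X := by
    refine ⟨Q₀, hc₀, hQX.trans (le_normalizerIn hXS), fun α hα => ?_⟩
    have hφ := (mem_autGroup_iff F hQ₀S α).1 hα
    set φ : Q₀ →* Ω := Q₀.subtype.comp α.toMonoidHom with hφdef
    have hφr : φ.range = Q₀ := by
      ext z
      constructor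
      · rintro ⟨x, rfl⟩
        exact (α x).2
      · intro hz
        refine ⟨α.symm ⟨z, hz⟩, ?_⟩
        show ((α (α.symm ⟨z, hz⟩) : Q₀) : Ω) = z
        rw [MulEquiv.apply_symm_apply]
    obtain ⟨ψ₀, hψ₀, hψ₀e⟩ := hrec.2 Q₀ φ hφ hφr
    have hXE : X ≤ extender S Q₀ φ :=
      sup_le (le_extender hQ₀S (fun x => hom_apply_mem hφ x)) (centralizerIn_le_extender S Q₀ φ)
    have hψ := restrict_mem hψ₀ hXE
    set ψ : X →* Ω := ψ₀.comp (Subgroup.inclusion hXE) with hψdef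
    have hψe : ∀ (x : Ω) (hx : x ∈ Q₀), ψ ⟨x, hQX hx⟩ = φ ⟨x, hx⟩ := fun x hx => hψ₀e x hx _
    have hψX : ∀ x : X, ψ x ∈ X := by
      have hle : X ≤ (X.comap ψ).map X.subtype := by
        refine hX.le.trans (sup_le ?_ ?_)
        · intro y hy
          refine ⟨⟨y, hQX hy⟩, ?_, rfl⟩
          show ψ ⟨y, hQX hy⟩ ∈ X
          rw [hψe y hy]
          exact hQX (α ⟨y, hy⟩).2
        · intro y hy
          refine ⟨⟨y, hCX hy⟩, ?_, rfl⟩
          show ψ ⟨y, hCX hy⟩ ∈ X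
          exact hCX (apply_mem_centralizerIn hψ hQX hφr hψe ⟨y, hCX hy⟩ hy.2)
      rintro ⟨y, hy⟩
      obtain ⟨z, hz, hzy⟩ := hle hy
      have : z = ⟨y, hy⟩ := Subtype.ext hzy
      rw [← this]
      exact hz
    have hψr : ψ.range = X := range_eq_of_mapsTo hψ hψX
    refine ⟨hφ, hQX.trans (le_normalizerIn hXS), fun x => le_normalizerIn hXS (hQX (α x).2), ?_⟩
    have hsup : Q₀ ⊔ X = X := sup_eq_right.2 hQX
    refine ⟨ψ.comp (Subgroup.inclusion hsup.le), restrict_mem hψ hsup.le, fun x => hψe x x.2, ?_⟩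
    ext z
    constructor
    · rintro ⟨⟨y, hy'⟩, hy, rfl⟩
      exact hψX _
    · intro hz
      rw [← hψr] at hz
      obtain ⟨w, rfl⟩ := hz
      exact ⟨⟨w, hsup.ge w.2⟩, w.2, rfl⟩
  obtain ⟨R₂, hc₂, hR₂, h₂⟩ := h0.exists_isFullyNormalized hS hF hXS
  exact exists_radical_fullAt' hS hF hR₂ (isCentric_of_isConj hXc hc₂) h₂

/-- Every subgroup of `T` has a conjugate with normalizer of largest order. -/
theorem exists_fullyNormalized_of_finite {T : Subgroup Ω} [Finite T] (E : FusionSystem T) {Q : Subgroup Ω}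
    (hQ : Q ≤ T) : ∃ Q', E.IsConj Q Q' ∧ E.IsFullyNormalized Q' := by
  classical
  have hb : ∀ n, (∃ Q', E.IsConj Q Q' ∧ Nat.card (normalizerIn T Q') = n) → n ≤ Nat.card T := by
    rintro n ⟨Q', -, rfl⟩
    exact Subgroup.card_le_of_le inf_le_left
  have hex : ∃ n, ∃ Q', E.IsConj Q Q' ∧ Nat.card (normalizerIn T Q') = n :=
    ⟨_, Q, isConj_refl E hQ, rfl⟩
  obtain ⟨n₀, hn₀⟩ := hex
  have hspec := Nat.findGreatest_spec (P := fun n => ∃ Q', E.IsConj Q Q' ∧ Nat.card (normalizerIn T Q') = n)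
    (hb n₀ hn₀) hn₀
  obtain ⟨Q', hc, hcard⟩ := hspec
  refine ⟨Q', hc, isConj_le_right hc, fun Q'' hc'' => ?_⟩
  rw [hcard]
  exact Nat.le_findGreatest (hb _ ⟨Q'', isConj_trans hc hc'', rfl⟩) ⟨Q'', isConj_trans hc hc'', rfl⟩

/-- The two directions at one subgroup. -/
theorem stableAt_of_normalizers {p : ℕ} [Fact p.Prime] [Finite S] (hS : IsPGroup p S)
    {F : FusionSystem S} (hF : F.IsSaturated p)
    (h : ∀ R : Subgroup Ω, F.IsFullyNormalized R → F.IsCentric R → F.IsRadical p R →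
      ∀ N : FusionSystem (normalizerIn S R), F.IsNormalizerSystem R N →
      ∀ Q : Subgroup Ω, N.IsFullyNormalized Q → StableAt p N Q) {Q : Subgroup Ω} (hQ : Q ≤ S) :
    StableAt p F Q := by
  obtain ⟨R, hR, hRc, hRr, Q', hc, hQ'N, hA⟩ := exists_radical_fullAt hS hF hQ
  have hN := isNormalizerSystem_normSys F R hR.1
  set N := normSys F R hR.1 with hNdef
  have hQ'S : Q' ≤ S := isConj_le_right hc
  have hfinN : Finite (normalizerIn S R) := finite_of_le inf_le_left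
  obtain ⟨Q'', hc'', hQ''⟩ := exists_fullyNormalized_of_finite N hQ'N
  have h1 : StableAt p N Q' := (h R hR hRc hRr N hN Q'' hQ'').of_isConj hc''
  have hle : N.autGroup Q' ≤ F.autGroup Q' := by
    intro α hα
    rw [mem_autGroup_iff N hQ'N] at hα
    rw [mem_autGroup_iff F hQ'S]
    exact hα.1
  have hge : F.autGroup Q' ≤ N.autGroup Q' := by
    intro α hα
    rw [mem_autGroup_iff N hQ'N]
    exact hA α hα
  have heq : N.autGroup Q' = F.autGroup Q' := le_antisymm hle hge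
  have h2 : StableAt p F Q' := by
    intro χ hχ hquad
    have h3 := h1 χ (hge hχ) hquad
    rw [heq] at h3
    exact h3
  exact h2.of_isConj hc

end Cfsg.Agent.H789.StableRad
end

-- part: S5281
section
set_option autoImplicit false
open Cfsg

namespace Cfsg.Agent.S5281

/-- Let p be an odd prime and F a saturated fusion system over a finite p-group S. Call a fusion system E (over any subgroup) p-stable when, for every fully E-normalized subgroup Q and every χ in Aut_E(Q) with χ(a⁻¹)·a·χ(a⁻¹)·χ(χ(a)) = 1 for all a in Q (χ acts quadratically), χ lies in O_p(Aut_E(Q)). Then F is p-stable if and only if the normalizer fusion system of R in F is p-stable for every fully F-normalized, F-centric, F-radical subgroup R of S. -/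
theorem result {Ω : Type*} [Group Ω] {S : Subgroup Ω} [Finite S] (p : ℕ) [Fact p.Prime] (hS : IsPGroup p ↥S) (F : Cfsg.FusionSystem S) (hF : F.IsSaturated p) (hp : p ≠ 2) : (∀ Q : Subgroup Ω, F.IsFullyNormalized Q → ∀ χ : MulAut ↥Q, χ ∈ F.autGroup Q → (∀ a : ↥Q, (χ a⁻¹) * a * (χ a⁻¹) * (χ (χ a)) = 1) → χ ∈ ((Cfsg.pCore p ↥(F.autGroup Q)).map (F.autGroup Q).subtype : Subgroup (MulAut ↥Q))) ↔ ∀ R : Subgroup Ω, F.IsFullyNormalized R → F.IsCentric R → F.IsRadical p R → ∀ N : Cfsg.FusionSystem (Cfsg.FusionSystem.normalizerIn S R), F.IsNormalizerSystem R N → (∀ Q : Subgroup Ω, N.IsFullyNormalized Q → ∀ χ : MulAut ↥Q, χ ∈ N.autGroup Q → (∀ a : ↥Q, (χ a⁻¹) * a * (χ a⁻¹) * (χ (χ a)) = 1) → χ ∈ ((Cfsg.pCore p ↥(N.autGroup Q)).map (N.autGroup Q).subtype : Subgroup (MulAut ↥Q))) := by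
  constructor
  · intro h R hR hRc hRr N hN Q hQ
    have hQS : Q ≤ S := hQ.1.trans inf_le_left
    have h1 : Cfsg.Agent.H781.StableAt p F Q :=
      Cfsg.Agent.H781.stableAt_of_fullyNormalized hS hF h hQS
    refine Cfsg.Agent.H781.StableAt.mono hQ.1 hQS ?_ h1
    rw [hN Q]
    exact fun φ hφ => hφ.1
  · intro h Q hQ
    exact Cfsg.Agent.H789.StableRad.stableAt_of_normalizers hS hF h hQ.1

end Cfsg.Agent.S5281
end
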