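import Mathlib
import Cfsg.Agent.H802.FusBasic
import Cfsg.Statements.S5286
set_option linter.all false

-- part: H791/FreeAct
section
/-!
# Semidirect products of a free group with a group permuting the basis (helper791)

`E = FreeGroup X ⋊ W`, where `W` permutes `X`. For `g ∈ E` the length and the first letter of the reduced word of
`g.left` are used: two elements of a finite subgroup with nontrivial free parts have the same first letter.
-/

set_option autoImplicit false

namespace Cfsg.Agent.H791.FreeAct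

open FreeGroup

variable {X : Type*}

/-- the reduced word -/
noncomputable def word (w : FreeGroup X) : List (X × Bool) := @toWord X (Classical.decEq X) w

theorem mk_word (w : FreeGroup X) : FreeGroup.mk (word w) = w := @mk_toWord X (Classical.decEq X) w

theorem isReduced_word (w : FreeGroup X) : IsReduced (word w) :=
  @isReduced_toWord X (Classical.decEq X) w

theorem word_mk {L : List (X × Bool)} (h : IsReduced L) : word (FreeGroup.mk L) = L := by
  let _ := Classical.decEq X
  have h1 : toWord (FreeGroup.mk L) = L := by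
    rw [toWord_mk]
    exact h.reduce_eq
  exact h1

theorem word_inv (w : FreeGroup X) : word w⁻¹ = invRev (word w) :=
  @toWord_inv X (Classical.decEq X) w

@[simp] theorem word_one : word (1 : FreeGroup X) = [] := @toWord_one X (Classical.decEq X)

theorem word_eq_nil {w : FreeGroup X} : word w = [] ↔ w = 1 :=
  @toWord_eq_nil_iff X (Classical.decEq X) w

theorem word_of (x : X) : word (FreeGroup.of x) = [(x, true)] := @toWord_of X (Classical.decEq X) x

theorem length_word_mk_le (L : List (X × Bool)) : (word (FreeGroup.mk L)).length ≤ L.length :=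
  @norm_mk_le X L (Classical.decEq X)

/-- the first letter -/
noncomputable def fst (w : FreeGroup X) : Option (X × Bool) := (word w).head?

theorem fst_inv (w : FreeGroup X) :
    fst w⁻¹ = (word w).getLast?.map (fun a => (a.1, !a.2)) := by
  rw [fst, word_inv, invRev, List.head?_reverse, List.getLast?_map]

theorem word_mul {v w : FreeGroup X} (h : v ≠ 1 → fst v⁻¹ ≠ fst w) :
    word (v * w) = word v ++ word w := by
  have h1 : IsReduced (word v ++ word w) := by
    rw [FreeGroup.IsReduced, List.isChain_append]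
    refine ⟨isReduced_word v, isReduced_word w, ?_⟩
    intro a ha b hb hab
    by_contra hne
    have hv : v ≠ 1 := by
      intro h0
      rw [h0, word_one] at ha
      simp at ha
    apply h hv
    rw [fst_inv, fst]
    rw [Option.mem_def] at ha hb
    rw [ha, hb, Option.map_some]
    congr 1
    refine Prod.ext hab ?_
    show (!a.2) = b.2
    cases h2 : a.2 <;> cases h3 : b.2 <;> simp_all
  have h2 : v * w = FreeGroup.mk (word v ++ word w) := by
    rw [← mul_mk, mk_word, mk_word]
  rw [h2, word_mk h1]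

section action

variable {W : Type*} [Group W] [MulAction W X]

/-- `W` acts on the free group -/
def act : W →* MulAut (FreeGroup X) where
  toFun s := FreeGroup.freeGroupCongr (MulAction.toPerm s)
  map_one' := by
    apply MulEquiv.ext
    intro w
    have h1 : (FreeGroup.freeGroupCongr (MulAction.toPerm (1 : W)) : FreeGroup X ≃* FreeGroup X).toMonoidHom =
        MonoidHom.id _ := by
      apply FreeGroup.ext_hom
      intro x
      simp
    exact DFunLike.congr_fun h1 w
  map_mul' s t := by
    apply MulEquiv.ext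
    intro w
    have h1 : (FreeGroup.freeGroupCongr (MulAction.toPerm (s * t)) : FreeGroup X ≃* FreeGroup X).toMonoidHom =
        ((FreeGroup.freeGroupCongr (MulAction.toPerm s) : FreeGroup X ≃* FreeGroup X).toMonoidHom).comp
          (FreeGroup.freeGroupCongr (MulAction.toPerm t) : FreeGroup X ≃* FreeGroup X).toMonoidHom := by
      apply FreeGroup.ext_hom
      intro x
      simp [mul_smul]
    exact DFunLike.congr_fun h1 w

theorem act_of (s : W) (x : X) : act s (FreeGroup.of x) = FreeGroup.of (s • x) := by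
  show FreeGroup.freeGroupCongr (MulAction.toPerm s) (FreeGroup.of x) = _
  simp

theorem act_mk (s : W) (L : List (X × Bool)) :
    act s (FreeGroup.mk L) = FreeGroup.mk (L.map fun a => (s • a.1, a.2)) := by
  show FreeGroup.freeGroupCongr (MulAction.toPerm s) (FreeGroup.mk L) = _
  rw [FreeGroup.freeGroupCongr_apply, FreeGroup.map.mk]
  rfl

theorem word_act (s : W) (w : FreeGroup X) :
    word (act s w) = (word w).map fun a => (s • a.1, a.2) := by
  have h1 : IsReduced ((word w).map fun a => (s • a.1, a.2)) := by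
    rw [FreeGroup.IsReduced, List.isChain_map]
    refine List.IsChain.imp ?_ (isReduced_word w)
    intro a b hab h
    exact hab (smul_left_cancel s h)
  conv_lhs => rw [← mk_word w, act_mk]
  exact word_mk h1

/-- action on optional letters -/
def sm (s : W) (o : Option (X × Bool)) : Option (X × Bool) := o.map fun a => (s • a.1, a.2)

theorem sm_mul (s t : W) (o : Option (X × Bool)) : sm (s * t) o = sm s (sm t o) := by
  cases o <;> simp [sm, mul_smul]

theorem sm_one (o : Option (X × Bool)) : sm (1 : W) o = o := by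
  cases o <;> simp [sm]

theorem sm_injective (s : W) : Function.Injective (sm (X := X) s) := by
  intro a b h
  have h1 := congrArg (sm s⁻¹) h
  rwa [← sm_mul, ← sm_mul, inv_mul_cancel, sm_one, sm_one] at h1

theorem fst_act (s : W) (w : FreeGroup X) : fst (act s w) = sm s (fst w) := by
  rw [fst, word_act, List.head?_map]
  rfl

/-- the semidirect product -/
abbrev E (X W : Type*) [Group W] [MulAction W X] := FreeGroup X ⋊[act] W

/-- the first letter -/
noncomputable def F (g : E X W) : Option (X × Bool) := fst g.left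

theorem F_inv (g : E X W) : F g⁻¹ = sm g.right⁻¹ (fst g.left⁻¹) := by
  rw [F, SemidirectProduct.inv_left, fst_act]

theorem F_eq_none {g : E X W} : F g = none ↔ g.left = 1 := by
  rw [F, fst, List.head?_eq_none_iff, word_eq_nil]

theorem word_mul_left {g h : E X W} (hgh : g.left ≠ 1 → F g⁻¹ ≠ F h) :
    word (g * h).left = word g.left ++ (word h.left).map fun a => (g.right • a.1, a.2) := by
  rw [SemidirectProduct.mul_left, word_mul, word_act]
  intro h1 h2
  apply hgh h1
  rw [F_inv, h2, fst_act, ← sm_mul, inv_mul_cancel, sm_one]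
  rfl

theorem F_mul {g h : E X W} (hg : g.left ≠ 1) (hgh : F g⁻¹ ≠ F h) : F (g * h) = F g := by
  rw [F, fst, word_mul_left (fun _ => hgh)]
  have h1 : word g.left ≠ [] := fun h => hg (word_eq_nil.1 h)
  rw [List.head?_append_of_ne_nil _ h1]
  rfl

theorem length_mul {g h : E X W} (hgh : g.left ≠ 1 → F g⁻¹ ≠ F h) :
    (word (g * h).left).length = (word g.left).length + (word h.left).length := by
  rw [word_mul_left hgh, List.length_append, List.length_map]

theorem left_inr_mul (s : W) (g : E X W) :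
    (SemidirectProduct.inr s * g).left = act s g.left := by
  rw [SemidirectProduct.mul_left, SemidirectProduct.left_inr, SemidirectProduct.right_inr, one_mul]

theorem left_mul_inr (s : W) (g : E X W) :
    (g * SemidirectProduct.inr s).left = g.left := by
  rw [SemidirectProduct.mul_left, SemidirectProduct.left_inr, _root_.map_one, mul_one]

theorem F_inr_mul (s : W) (g : E X W) : F (SemidirectProduct.inr s * g) = sm s (F g) := by
  rw [F, left_inr_mul, fst_act]
  rfl

theorem F_mul_inr (s : W) (g : E X W) : F (g * SemidirectProduct.inr s) = F g := by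
  rw [F, left_mul_inr]
  rfl

theorem length_inr_mul (s : W) (g : E X W) :
    (word (SemidirectProduct.inr s * g).left).length = (word g.left).length := by
  rw [left_inr_mul, word_act, List.length_map]

theorem left_inv_ne {g : E X W} (hg : g.left ≠ 1) : (g⁻¹).left ≠ 1 := by
  rw [SemidirectProduct.inv_left]
  intro h
  rw [EmbeddingLike.map_eq_one_iff, inv_eq_one] at h
  exact hg h

/-- elements without cancellation in `g * g` have infinite order -/
theorem F_inv_eq_of_finite {g : E X W} (hg : g.left ≠ 1) (hfin : IsOfFinOrder g) : F g⁻¹ = F g := by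
  by_contra hne
  have key : ∀ n : ℕ, F (g ^ (n + 1)) = F g ∧
      (word (g ^ (n + 1)).left).length = (n + 1) * (word g.left).length := by
    intro n
    induction n with
    | zero => simp
    | succ n ih =>
      rw [pow_succ']
      have h1 : F g⁻¹ ≠ F (g ^ (n + 1)) := by rw [ih.1]; exact hne
      refine ⟨F_mul hg h1, ?_⟩
      rw [length_mul (fun _ => h1), ih.2]
      ring
  obtain ⟨n, hn, hgn⟩ := isOfFinOrder_iff_pow_eq_one.1 hfin
  obtain ⟨m, rfl⟩ : ∃ m, n = m + 1 := ⟨n - 1, by omega⟩
  have h1 := (key m).2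
  rw [hgn, SemidirectProduct.one_left, word_one, List.length_nil] at h1
  have h2 : 0 < (word g.left).length := by
    rw [List.length_pos_iff]
    intro h
    exact hg (word_eq_nil.1 h)
  have h3 : 0 < (m + 1) * (word g.left).length := by positivity
  omega

/-- nontrivial elements of a finite subgroup have the same first letter -/
theorem F_eq_of_mem {H : Subgroup (E X W)} (hH : Finite H) {h k : E X W} (hh : h ∈ H) (hk : k ∈ H)
    (hh1 : h.left ≠ 1) (hk1 : k.left ≠ 1) : F h = F k := by
  have hfin : ∀ g ∈ H, IsOfFinOrder g := by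
    intro g hg
    have h1 := isOfFinOrder_of_finite (⟨g, hg⟩ : H)
    exact (Submonoid.isOfFinOrder_coe (H := H.toSubmonoid) (x := ⟨g, hg⟩)).2 h1
  by_contra hne
  have e1 := F_inv_eq_of_finite hh1 (hfin h hh)
  have e2 := F_inv_eq_of_finite hk1 (hfin k hk)
  have h1 : F (h * k) = F h := F_mul hh1 (by rw [e1]; exact hne)
  have h2 : F (k⁻¹ * h⁻¹) = F k⁻¹ := F_mul (left_inv_ne hk1) (by
    rw [inv_inv, e1]; exact fun h => hne h.symm)
  have h3 : (h * k).left ≠ 1 := by
    intro h0
    rw [← F_eq_none, h1, F_eq_none] at h0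
    exact hh1 h0
  have h4 := F_inv_eq_of_finite h3 (hfin _ (H.mul_mem hh hk))
  rw [mul_inv_rev, h2, h1, e2] at h4
  exact hne h4.symm

end action

end Cfsg.Agent.H791.FreeAct
end

-- part: H791/HnnModel
section
/-!
# A model of multiple HNN extensions inside `FreeGroup X ⋊ W` (helper791)

For a subgroup `S` of `W` and elements `σ i ∈ W` conjugating `A i ≤ S` onto `B i ≤ S`, the group `D.G` is generated by
`S` and the elements `t i = x_i σ_i`, where `x_i` is a free generator with stabilizer `B i` in `W`.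

* `exists_red` : every element of `D.G` is a reduced word;
* `exists_inr_of_left` : `D.G ∩ W = S`;
* `exists_conj_of_finite` : every finite subgroup of `D.G` is conjugate in `D.G` to a subgroup of `S`.
-/

set_option autoImplicit false

namespace Cfsg.Agent.H791.Hnn

open FreeAct SemidirectProduct

/-- HNN data -/
structure Data (W I : Type*) [Group W] where
  /-- the base -/
  S : Subgroup W
  /-- the sources -/
  A : I → Subgroup W
  /-- the targets -/
  B : I → Subgroup W
  /-- the conjugating elements -/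
  σ : I → W
  hA : ∀ i, A i ≤ S
  hB : ∀ i, B i ≤ S
  hσ : ∀ i x, x ∈ A i ↔ σ i * x * (σ i)⁻¹ ∈ B i

variable {W I : Type*} [Group W] (D : Data W I)

namespace Data

/-- the basis of the free group -/
abbrev X : Type _ := Σ i, W ⧸ D.B i

/-- the stable letters -/
def t (i : I) : E D.X W := ⟨FreeGroup.of ⟨i, ((1 : W) : W ⧸ D.B i)⟩, D.σ i⟩

/-- the stable letters and their inverses -/
def tau (i : I) (b : Bool) : E D.X W := bif b then D.t i else (D.t i)⁻¹

/-- their first letters -/
def ell (i : I) (b : Bool) : D.X := ⟨i, ((bif b then 1 else (D.σ i)⁻¹ : W) : W ⧸ D.B i)⟩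

/-- the stabilizers of the letters -/
def dom (i : I) (b : Bool) : Subgroup W := bif b then D.B i else D.A i

/-- the value of the conjugation by a stable letter -/
def dval (i : I) (b : Bool) (s : W) : W := bif b then (D.σ i)⁻¹ * s * D.σ i else D.σ i * s * (D.σ i)⁻¹

variable {D}

theorem dom_le (i : I) (b : Bool) : D.dom i b ≤ D.S := by
  cases b
  · exact D.hA i
  · exact D.hB i

theorem tau_inv (i : I) (b : Bool) : (D.tau i b)⁻¹ = D.tau i (!b) := by
  cases b <;> simp [tau]

theorem smul_ell_iff (s : W) (i j : I) (b : Bool) :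
    s • D.ell j b = D.ell i b ↔ j = i ∧ s ∈ D.dom i b := by
  have key : s • D.ell i b = D.ell i b ↔ s ∈ D.dom i b := by
    rw [ell, Sigma.smul_mk, Sigma.mk.injEq]
    simp only [heq_eq_eq, true_and]
    rw [MulAction.Quotient.smul_mk, QuotientGroup.eq]
    cases b
    · show (s • (D.σ i)⁻¹)⁻¹ * (D.σ i)⁻¹ ∈ D.B i ↔ s ∈ D.A i
      rw [D.hσ, ← Subgroup.inv_mem_iff]
      have : ((s • (D.σ i)⁻¹)⁻¹ * (D.σ i)⁻¹)⁻¹ = D.σ i * s * (D.σ i)⁻¹ := by
        rw [smul_eq_mul]; group
      rw [this]
    · show (s • (1 : W))⁻¹ * 1 ∈ D.B i ↔ s ∈ D.B i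
      rw [smul_eq_mul, mul_one, mul_one, Subgroup.inv_mem_iff]
  constructor
  · intro h
    have h1 : j = i := congrArg Sigma.fst h
    subst h1
    exact ⟨rfl, key.1 h⟩
  · rintro ⟨rfl, h⟩
    exact key.2 h

theorem F_tau (i : I) (b : Bool) : F (D.tau i b) = some (D.ell i b, b) := by
  cases b
  · show F (D.t i)⁻¹ = _
    rw [F_inv, fst_inv]
    show sm (D.σ i)⁻¹ (Option.map (fun a => (a.1, !a.2)) (word (FreeGroup.of _)).getLast?) = _
    rw [word_of]
    show some ((D.σ i)⁻¹ • (⟨i, ((1 : W) : W ⧸ D.B i)⟩ : D.X), false) =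
      some (⟨i, (((D.σ i)⁻¹ : W) : W ⧸ D.B i)⟩, false)
    rw [Sigma.smul_mk, MulAction.Quotient.smul_mk, smul_eq_mul, mul_one]
  · show F (D.t i) = _
    rw [F, fst]
    show (word (FreeGroup.of _)).head? = _
    rw [word_of]
    rfl

theorem F_inr_tau (s : W) (i : I) (b : Bool) :
    F (inr s * D.tau i b) = some (s • D.ell i b, b) := by
  rw [F_inr_mul, F_tau]
  rfl

theorem left_inr_tau_ne (s : W) (i : I) (b : Bool) : (inr s * D.tau i b).left ≠ 1 := by
  intro h
  rw [← F_eq_none, F_inr_tau] at h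
  cases h

theorem length_tau (i : I) (b : Bool) : (word (D.tau i b).left).length = 1 := by
  cases b
  · show (word (D.t i)⁻¹.left).length = 1
    rw [inv_left, word_act, List.length_map, word_inv, FreeGroup.invRev_length]
    show (word (FreeGroup.of _)).length = 1
    rw [word_of]
    rfl
  · show (word (FreeGroup.of _)).length = 1
    rw [word_of]
    rfl

theorem comm_t {i : I} {s : W} (hs : s ∈ D.B i) :
    inr s * D.t i = D.t i * inr ((D.σ i)⁻¹ * s * D.σ i) := by
  apply SemidirectProduct.ext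
  · rw [left_inr_mul, left_mul_inr]
    show act s (FreeGroup.of _) = FreeGroup.of _
    rw [act_of]
    congr 1
    exact (smul_ell_iff s i i true).2 ⟨rfl, hs⟩
  · show s * D.σ i = D.σ i * ((D.σ i)⁻¹ * s * D.σ i)
    group

theorem dval_mem {i : I} {b : Bool} {s : W} (hs : s ∈ D.dom i b) : D.dval i b s ∈ D.dom i (!b) := by
  cases b
  · exact (D.hσ i s).1 hs
  · show (D.σ i)⁻¹ * s * D.σ i ∈ D.A i
    rw [D.hσ]
    have : D.σ i * ((D.σ i)⁻¹ * s * D.σ i) * (D.σ i)⁻¹ = s := by group
    rw [this]
    exact hs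

theorem conj_tau {i : I} {b : Bool} {s : W} (hs : s ∈ D.dom i b) :
    (D.tau i b)⁻¹ * inr s * D.tau i b = inr (D.dval i b s) := by
  cases b
  · show (D.t i)⁻¹⁻¹ * inr s * (D.t i)⁻¹ = inr (D.σ i * s * (D.σ i)⁻¹)
    have h1 := comm_t ((D.hσ i s).1 hs)
    have h2 : (D.σ i)⁻¹ * (D.σ i * s * (D.σ i)⁻¹) * D.σ i = s := by group
    rw [h2] at h1
    rw [inv_inv, ← h1, mul_inv_cancel_right]
  · show (D.t i)⁻¹ * inr s * D.t i = inr ((D.σ i)⁻¹ * s * D.σ i)
    rw [mul_assoc, comm_t hs, inv_mul_cancel_left]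

variable (D) in
/-- reduced words -/
inductive Red : E D.X W → ℕ → Prop
  | base {s : W} : s ∈ D.S → Red (inr s) 0
  | step {s : W} {i : I} {b : Bool} {g : E D.X W} {n : ℕ} : s ∈ D.S → Red g n →
      F (D.tau i b)⁻¹ ≠ F g → Red (inr s * D.tau i b * g) (n + 1)

theorem F_inv_inr_tau (s : W) (i : I) (b : Bool) :
    F (inr s * D.tau i b)⁻¹ = F (D.tau i b)⁻¹ := by
  rw [mul_inv_rev, ← map_inv, F_mul_inr]

theorem F_step {s : W} {i : I} {b : Bool} {g : E D.X W} (h : F (D.tau i b)⁻¹ ≠ F g) :
    F (inr s * D.tau i b * g) = some (s • D.ell i b, b) := by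
  rw [F_mul (left_inr_tau_ne s i b) (by rw [F_inv_inr_tau]; exact h), F_inr_tau]

theorem Red.length {g : E D.X W} {n : ℕ} (h : D.Red g n) : (word g.left).length = n := by
  induction h with
  | base hs => simp
  | @step s i b g n hs hg hF ih =>
    rw [length_mul (fun _ => by rw [F_inv_inr_tau]; exact hF), ih, length_inr_mul, length_tau]
    omega

theorem Red.inr_mul {g : E D.X W} {n : ℕ} (h : D.Red g n) {s : W} (hs : s ∈ D.S) :
    D.Red (inr s * g) n := by
  cases h with
  | base hs' =>
    rw [← map_mul]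
    exact Red.base (D.S.mul_mem hs hs')
  | step hs' hg hF =>
    rw [← mul_assoc, ← mul_assoc, ← map_mul]
    exact Red.step (D.S.mul_mem hs hs') hg hF

theorem Red.tau_mul {g : E D.X W} {n : ℕ} (h : D.Red g n) (i : I) (b : Bool) :
    ∃ m, D.Red (D.tau i b * g) m := by
  by_cases hF : F (D.tau i b)⁻¹ = F g
  · cases h with
    | @base s hs =>
      exfalso
      have h1 : F (inr s : E D.X W) = none := by rw [F_eq_none]; exact left_inr s
      rw [h1, tau_inv, F_tau] at hF
      cases hF
    | @step s j c g n hs hg hF' =>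
      rw [F_step hF', tau_inv, F_tau, Option.some_inj, Prod.mk.injEq] at hF
      obtain ⟨h1, h2⟩ := hF
      have h3 : c = !b := h2.symm
      subst h3
      obtain ⟨rfl, h4⟩ := (smul_ell_iff s i j (!b)).1 h1.symm
      have h5 := conj_tau h4
      rw [tau_inv, Bool.not_not] at h5
      refine ⟨n, ?_⟩
      have h6 : D.tau j b * (inr s * D.tau j (!b) * g) = inr (D.dval j (!b) s) * g := by
        rw [← h5]; group
      rw [h6]
      exact hg.inr_mul (dom_le _ _ (dval_mem h4))
  · refine ⟨n + 1, ?_⟩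
    have h1 := Red.step (D := D) D.S.one_mem h hF
    rwa [map_one, one_mul] at h1

variable (D) in
/-- the group -/
def G : Subgroup (E D.X W) :=
  Subgroup.closure (Set.range (fun s : D.S => (inr (s : W) : E D.X W)) ∪ Set.range D.t)

theorem inr_mem {s : W} (hs : s ∈ D.S) : (inr s : E D.X W) ∈ D.G :=
  Subgroup.subset_closure (Or.inl ⟨⟨s, hs⟩, rfl⟩)

theorem t_mem (i : I) : D.t i ∈ D.G := Subgroup.subset_closure (Or.inr ⟨i, rfl⟩)

theorem tau_mem (i : I) (b : Bool) : D.tau i b ∈ D.G := by
  cases b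
  · exact D.G.inv_mem (t_mem i)
  · exact t_mem i

theorem Red.mem {g : E D.X W} {n : ℕ} (h : D.Red g n) : g ∈ D.G := by
  induction h with
  | base hs => exact inr_mem hs
  | step hs _ _ ih => exact D.G.mul_mem (D.G.mul_mem (inr_mem hs) (tau_mem _ _)) ih

/-- **Normal form.** -/
theorem exists_red {g : E D.X W} (hg : g ∈ D.G) : ∃ n, D.Red g n := by
  refine Subgroup.closure_induction_left (p := fun g _ => ∃ n, D.Red g n) ?_ ?_ ?_ hg
  · exact ⟨0, by rw [← map_one inr]; exact Red.base D.S.one_mem⟩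
  · rintro x (⟨s, rfl⟩ | ⟨i, rfl⟩) y _ ⟨n, hn⟩
    · exact ⟨n, hn.inr_mul s.2⟩
    · exact hn.tau_mul i true
  · rintro x (⟨s, rfl⟩ | ⟨i, rfl⟩) y _ ⟨n, hn⟩
    · refine ⟨n, ?_⟩
      show D.Red ((inr (s : W))⁻¹ * y) n
      rw [← map_inv]
      exact hn.inr_mul (D.S.inv_mem s.2)
    · exact hn.tau_mul i false

theorem exists_inr_of_left {g : E D.X W} (hg : g ∈ D.G) (h : g.left = 1) :
    ∃ s ∈ D.S, g = inr s := by
  obtain ⟨n, hn⟩ := exists_red hg
  have h1 := hn.length
  rw [h, word_one, List.length_nil] at h1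
  subst h1
  cases hn with
  | @base s hs => exact ⟨s, hs, rfl⟩

/-- The first letter of an element of `G`. -/
theorem exists_first {g : E D.X W} (hg : g ∈ D.G) (h : g.left ≠ 1) :
    ∃ k ∈ D.G, F k = F g ∧ (word k.left).length = 1 := by
  obtain ⟨n, hn⟩ := exists_red hg
  cases hn with
  | base hs => exact absurd (left_inr _) h
  | @step s i b g' n hs hg' hF =>
    refine ⟨inr s * D.tau i b, D.G.mul_mem (inr_mem hs) (tau_mem i b), ?_, ?_⟩
    · rw [F_inr_tau, F_step hF]
    · rw [length_inr_mul, length_tau]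

/-- The step of the analysis of conjugations. -/
theorem step_conj {s : W} {i : I} {b : Bool} {g : E D.X W} (hF : F (D.tau i b)⁻¹ ≠ F g) {x y : W}
    (h : inr y * (inr s * D.tau i b * g) = (inr s * D.tau i b * g) * inr x) :
    s⁻¹ * y * s ∈ D.dom i b ∧ inr (D.dval i b (s⁻¹ * y * s)) * g = g * inr x := by
  have h1 : sm y (F (inr s * D.tau i b * g)) = F (inr s * D.tau i b * g) := by
    rw [← F_inr_mul, h, F_mul_inr]
  rw [F_step hF] at h1
  have h2 : y • (s • D.ell i b) = s • D.ell i b := by
    have := congrArg (Option.map Prod.fst) h1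
    simpa [sm] using this
  have h3 : (s⁻¹ * y * s) • D.ell i b = D.ell i b := by
    rw [mul_smul, mul_smul, h2, inv_smul_smul]
  have h4 := ((smul_ell_iff _ i i b).1 h3).2
  refine ⟨h4, ?_⟩
  rw [← conj_tau h4, map_mul, map_mul, map_inv]
  have h5 : (D.tau i b)⁻¹ * ((inr s)⁻¹ * inr y * inr s) * D.tau i b * g =
      (D.tau i b)⁻¹ * (inr s)⁻¹ * (inr y * (inr s * D.tau i b * g)) := by group
  rw [h5, h]
  group

/-- **Finite subgroups.** -/
theorem exists_conj_of_finite (n : ℕ) : ∀ H : Subgroup (E D.X W), H ≤ D.G → Finite H →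
    (∀ h ∈ H, (word h.left).length ≤ n) → ∃ g ∈ D.G, ∀ h ∈ H, ∃ s ∈ D.S, g * h * g⁻¹ = inr s := by
  induction n with
  | zero =>
    intro H hH _ hle
    refine ⟨1, D.G.one_mem, fun h hh => ?_⟩
    have h1 : h.left = 1 := word_eq_nil.1 (List.length_eq_zero_iff.1 (Nat.le_zero.1 (hle h hh)))
    obtain ⟨s, hs, rfl⟩ := exists_inr_of_left (hH hh) h1
    exact ⟨s, hs, by group⟩
  | succ n ih =>
    intro H hH hfin hle
    by_cases hall : ∀ h ∈ H, h.left = 1
    · refine ⟨1, D.G.one_mem, fun h hh => ?_⟩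
      obtain ⟨s, hs, rfl⟩ := exists_inr_of_left (hH hh) (hall h hh)
      exact ⟨s, hs, by group⟩
    push Not at hall
    obtain ⟨h0, hh0, hh0'⟩ := hall
    obtain ⟨k, hk, hkF, hk1⟩ := exists_first (hH hh0) hh0'
    obtain ⟨a, ha⟩ : ∃ a, word k.left = [a] := List.length_eq_one_iff.1 hk1
    have hka : k.left = FreeGroup.mk [a] := by rw [← ha, mk_word]
    have hFk : F k = some a := by rw [F, fst, ha]; rfl
    -- the length of the conjugates
    have key : ∀ h ∈ H, (word (k⁻¹ * h * k).left).length ≤ n := by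
      intro h hh
      have e1 : (k⁻¹ * h * k).left = act k.right⁻¹ (k.left⁻¹ * (h.left * act h.right k.left)) := by
        rw [mul_assoc, mul_left, inv_left, mul_left, inv_right, ← map_mul]
      rw [e1, word_act, List.length_map]
      by_cases hh1 : h.left = 1
      · -- `h` fixes the letter
        have h2 : (h * h0).left ≠ 1 := by
          intro h0'
          obtain ⟨s, hs, rfl⟩ := exists_inr_of_left (hH hh) hh1
          rw [← F_eq_none, F_inr_mul] at h0'
          apply hh0'
          rw [← F_eq_none]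
          cases hc : F h0 with
          | none => rfl
          | some c => rw [hc] at h0'; cases h0'
        have h3 := F_eq_of_mem hfin (H.mul_mem hh hh0) hh0 h2 hh0'
        obtain ⟨s, hs, rfl⟩ := exists_inr_of_left (hH hh) hh1
        rw [F_inr_mul, ← hkF, hFk] at h3
        have h4 : (s • a.1, a.2) = a := Option.some_inj.1 h3
        have h5 : act s k.left = k.left := by
          rw [hka, act_mk, List.map_cons, List.map_nil, h4]
        rw [left_inr, right_inr, one_mul, h5, inv_mul_cancel, word_one]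
        exact Nat.zero_le _
      · have h2 : F h = some a := by rw [← hFk, hkF]; exact F_eq_of_mem hfin hh hh0 hh1 hh0'
        have h3 : F h⁻¹ = some a := by
          rw [← hFk, hkF]; exact F_eq_of_mem hfin (H.inv_mem hh) hh0 (left_inv_ne hh1) hh0'
        obtain ⟨rest, hrest⟩ : ∃ rest, word h.left = a :: rest := by
          rw [F, fst] at h2
          cases hw : word h.left with
          | nil => rw [hw] at h2; cases h2
          | cons c l =>
            rw [hw, List.head?_cons, Option.some_inj] at h2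
            exact ⟨l, by rw [h2]⟩
        have h4 : (word h.left).getLast? = some (h.right • a.1, !a.2) := by
          rw [F_inv, fst_inv] at h3
          have h5 := congrArg (sm h.right) h3
          rw [← sm_mul, mul_inv_cancel, sm_one] at h5
          cases hc : (word h.left).getLast? with
          | none => rw [hc] at h5; cases h5
          | some c =>
            rw [hc, Option.map_some] at h5
            have h6 : (c.1, !c.2) = (h.right • a.1, a.2) := Option.some_inj.1 h5
            rw [Prod.mk.injEq] at h6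
            rw [Option.some_inj]
            refine Prod.ext h6.1 ?_
            show c.2 = !a.2
            rw [← h6.2, Bool.not_not]
        rw [hrest] at h4
        rcases List.eq_nil_or_concat rest with hr | ⟨w, c, hr⟩
        · exfalso
          rw [hr] at h4
          have h5 : a = (h.right • a.1, !a.2) := Option.some_inj.1 h4
          have h6 : a.2 = !a.2 := congrArg Prod.snd h5
          cases h7 : a.2 <;> rw [h7] at h6 <;> cases h6
        · rw [hr, List.concat_eq_append] at h4 hrest
          have h5 : c = (h.right • a.1, !a.2) := by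
            rw [← List.cons_append, List.getLast?_append] at h4
            simpa using h4
          have h6 : h.left = FreeGroup.mk (a :: (w ++ [c])) := by rw [← hrest, mk_word]
          have h7 : act h.right k.left = FreeGroup.mk [(h.right • a.1, a.2)] := by
            rw [hka, act_mk]; rfl
          have h8 : k.left⁻¹ * (h.left * act h.right k.left) = FreeGroup.mk w := by
            have e2 : (FreeGroup.mk [c] : FreeGroup D.X) * FreeGroup.mk [(h.right • a.1, a.2)] = 1 := by
              have e3 : (FreeGroup.mk [c] : FreeGroup D.X) = (FreeGroup.mk [(h.right • a.1, a.2)])⁻¹ := by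
                rw [FreeGroup.inv_mk, h5]; rfl
              rw [e3, inv_mul_cancel]
            have e4 : (FreeGroup.mk (a :: (w ++ [c])) : FreeGroup D.X) =
                FreeGroup.mk [a] * (FreeGroup.mk w * FreeGroup.mk [c]) := by
              rw [FreeGroup.mul_mk, FreeGroup.mul_mk]; rfl
            rw [h7, h6, hka, e4]
            calc (FreeGroup.mk [a])⁻¹ * (FreeGroup.mk [a] * (FreeGroup.mk w * FreeGroup.mk [c]) *
                  FreeGroup.mk [(h.right • a.1, a.2)])
                = FreeGroup.mk w * (FreeGroup.mk [c] * FreeGroup.mk [(h.right • a.1, a.2)]) := by group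
              _ = FreeGroup.mk w := by rw [e2, mul_one]
          rw [h8]
          refine (length_word_mk_le w).trans ?_
          have h9 := hle h hh
          rw [hrest] at h9
          simp only [List.length_cons, List.length_append, List.length_nil] at h9
          omega
    -- induction
    have hfin2 : Finite (H.map (MulAut.conj k⁻¹).toMonoidHom) :=
      Finite.of_surjective _ (MonoidHom.subgroupMap_surjective (MulAut.conj k⁻¹).toMonoidHom H)
    obtain ⟨g, hg, hgh⟩ := ih (H.map (MulAut.conj k⁻¹).toMonoidHom) (by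
        rintro _ ⟨h, hh, rfl⟩
        show k⁻¹ * h * k⁻¹⁻¹ ∈ D.G
        exact D.G.mul_mem (D.G.mul_mem (D.G.inv_mem hk) (hH hh)) (D.G.inv_mem (D.G.inv_mem hk)))
      hfin2 (by
        rintro _ ⟨h, hh, rfl⟩
        show (word (k⁻¹ * h * k⁻¹⁻¹).left).length ≤ n
        rw [inv_inv]
        exact key h hh)
    refine ⟨g * k⁻¹, D.G.mul_mem hg (D.G.inv_mem hk), fun h hh => ?_⟩
    obtain ⟨s, hs, he⟩ := hgh (k⁻¹ * h * k⁻¹⁻¹) ⟨h, hh, rfl⟩
    refine ⟨s, hs, ?_⟩
    rw [← he]
    group

/-- **Finite subgroups.** -/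
theorem exists_conj (H : Subgroup (E D.X W)) (hH : H ≤ D.G) (hfin : Finite H) :
    ∃ g ∈ D.G, ∀ h ∈ H, ∃ s ∈ D.S, g * h * g⁻¹ = inr s := by
  obtain ⟨n, hn⟩ : ∃ n, ∀ h : H, (word (h : E D.X W).left).length ≤ n := by
    obtain ⟨n, hn⟩ := (Set.finite_range fun h : H => (word (h : E D.X W).left).length).bddAbove
    exact ⟨n, fun h => hn ⟨h, rfl⟩⟩
  exact exists_conj_of_finite n H hH hfin fun h hh => hn ⟨h, hh⟩

end Data

end Cfsg.Agent.H791.Hnn
end

-- part: H791/RegRep
section
/-!
# The HNN model of a fusion system over the regular representation (helper791)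
-/

set_option autoImplicit false

namespace Cfsg.Agent.H791

open Subgroup Cfsg Cfsg.FusionSystem
open Cfsg.Agent.H802

/-- the right regular representation -/
def reg (S : Type*) [Group S] : S →* Equiv.Perm S where
  toFun s := Equiv.mulRight s⁻¹
  map_one' := by ext; simp
  map_mul' s t := by ext x; simp [mul_assoc]

theorem reg_apply {S : Type*} [Group S] (s x : S) : reg S s x = x * s⁻¹ := rfl

theorem reg_injective (S : Type*) [Group S] : Function.Injective (reg S) := by
  intro s t h
  have h1 := congrArg (fun f : Equiv.Perm S => f 1) h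
  simpa [reg_apply] using h1

theorem transversal_bijective {S T : Type*} [Group S] (P Q : Subgroup S) (β : T ≃ S ⧸ Q)
    (ψ : P ≃ Q) : Function.Bijective (fun x : T × P => (β x.1).out * (ψ x.2 : S)) := by
  constructor
  · rintro ⟨a, p⟩ ⟨b, q⟩ h
    simp only at h
    have h1 : β a = β b := by
      have h2 := congrArg (QuotientGroup.mk (s := Q)) h
      rw [QuotientGroup.mk_mul_of_mem _ (ψ p).2, QuotientGroup.mk_mul_of_mem _ (ψ q).2] at h2
      rw [← Quotient.out_eq' (β a), ← Quotient.out_eq' (β b)]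
      exact h2
    have h3 : a = b := β.injective h1
    subst h3
    have h4 : ψ p = ψ q := Subtype.ext (mul_left_cancel h)
    rw [ψ.injective h4]
  · intro s
    have h1 : (s : S ⧸ Q).out⁻¹ * s ∈ Q := by
      rw [← QuotientGroup.eq]
      exact Quotient.out_eq' _
    refine ⟨⟨β.symm (s : S ⧸ Q), ψ.symm ⟨_, h1⟩⟩, ?_⟩
    simp

/-- an injective homomorphism from a subgroup is a conjugation in the symmetric group -/
theorem exists_perm_conj {S : Type*} [Group S] [Finite S] (P : Subgroup S) (φ : P →* S)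
    (hφ : Function.Injective φ) : ∃ σ : Equiv.Perm S, ∀ p : P, σ * reg S p * σ⁻¹ = reg S (φ p) := by
  have hc : Nat.card φ.range = Nat.card P :=
    (Nat.card_congr (MonoidHom.ofInjective hφ).toEquiv).symm
  have hi : Nat.card (S ⧸ P) = Nat.card (S ⧸ φ.range) := by
    have h1 := P.index_mul_card
    have h2 := φ.range.index_mul_card
    rw [hc, ← h1] at h2
    have h3 : 0 < Nat.card P := Nat.card_pos
    exact (Nat.eq_of_mul_eq_mul_right h3 h2).symm
  obtain ⟨β⟩ : Nonempty ((S ⧸ P) ≃ (S ⧸ φ.range)) := Finite.card_eq.1 hi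
  let f1 := Equiv.ofBijective _ (transversal_bijective P P (Equiv.refl _) (Equiv.refl P))
  let f2 := Equiv.ofBijective _ (transversal_bijective P φ.range β (MonoidHom.ofInjective hφ).toEquiv)
  have key : ∀ (p : P) (x : S), (f1.symm.trans f2) (x * (p : S)⁻¹) = (f1.symm.trans f2) x * (φ p)⁻¹ := by
    intro p x
    obtain ⟨⟨a, q⟩, rfl⟩ := f1.surjective x
    have h1 : f1 (a, q) * (p : S)⁻¹ = f1 (a, q * p⁻¹) := by
      show a.out * (q : S) * (p : S)⁻¹ = a.out * ((q * p⁻¹ : P) : S)
      rw [Subgroup.coe_mul, Subgroup.coe_inv, mul_assoc]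
    rw [h1, Equiv.trans_apply, Equiv.trans_apply, Equiv.symm_apply_apply, Equiv.symm_apply_apply]
    show (β a).out * φ (q * p⁻¹) = (β a).out * φ q * (φ p)⁻¹
    rw [map_mul, map_inv, mul_assoc]
  refine ⟨f1.symm.trans f2, fun p => ?_⟩
  rw [mul_inv_eq_iff_eq_mul]
  ext x
  exact key p x

variable {Ω : Type*} [Group Ω] {S : Subgroup Ω}

/-- a map of the system as a map of subgroups of the group `S` -/
def toS (F : FusionSystem S) (i : Σ P : Subgroup Ω, F.Hom P) : i.1.subgroupOf S →* S :=
  ((i.2 : i.1 →* Ω).codRestrict S (F.le_of_mem i.2.2).2).comp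
    (subgroupOfEquivOfLe (F.le_of_mem i.2.2).1).toMonoidHom

theorem toS_apply (F : FusionSystem S) (i : Σ P : Subgroup Ω, F.Hom P) {x : S} (hx : (x : Ω) ∈ i.1) :
    ((toS F i ⟨x, hx⟩ : S) : Ω) = (i.2 : i.1 →* Ω) ⟨x, hx⟩ := rfl

theorem toS_injective (F : FusionSystem S) (i : Σ P : Subgroup Ω, F.Hom P) :
    Function.Injective (toS F i) := by
  intro a b h
  have h1 : (i.2 : i.1 →* Ω) ⟨a, a.2⟩ = (i.2 : i.1 →* Ω) ⟨b, b.2⟩ := congrArg Subtype.val h
  have h2 := F.injective_of_mem i.2.2 h1
  apply Subtype.ext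
  apply Subtype.ext
  exact congrArg (fun z : i.1 => (z : Ω)) h2

/-- the conjugating permutations -/
noncomputable def sig [Finite S] (F : FusionSystem S) (i : Σ P : Subgroup Ω, F.Hom P) : Equiv.Perm S :=
  (exists_perm_conj _ _ (toS_injective F i)).choose

theorem sig_spec [Finite S] (F : FusionSystem S) (i : Σ P : Subgroup Ω, F.Hom P)
    (p : i.1.subgroupOf S) : sig F i * reg S p * (sig F i)⁻¹ = reg S (toS F i p) :=
  (exists_perm_conj _ _ (toS_injective F i)).choose_spec p

/-- the data -/
noncomputable def hnn [Finite S] (F : FusionSystem S) :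
    Hnn.Data (Equiv.Perm S) (Σ P : Subgroup Ω, F.Hom P) where
  S := (reg S).range
  A i := (i.1.subgroupOf S).map (reg S)
  B i := (toS F i).range.map (reg S)
  σ i := sig F i
  hA i := by
    rintro _ ⟨x, -, rfl⟩
    exact ⟨x, rfl⟩
  hB i := by
    rintro _ ⟨x, -, rfl⟩
    exact ⟨x, rfl⟩
  hσ i x := by
    constructor
    · rintro ⟨p, hp, rfl⟩
      exact ⟨toS F i ⟨p, hp⟩, ⟨_, rfl⟩, (sig_spec F i ⟨p, hp⟩).symm⟩
    · rintro ⟨_, ⟨p, rfl⟩, hp⟩
      rw [← sig_spec] at hp
      exact ⟨p, p.2, mul_left_cancel (mul_right_cancel hp)⟩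

open SemidirectProduct Hnn Hnn.Data in
/-- **Conjugations in the model belong to the system.** -/
theorem mem_of_red [Finite S] (F : FusionSystem S)
    {g : FreeAct.E (hnn F).X (Equiv.Perm S)} {n : ℕ} (h : (hnn F).Red g n) :
    ∀ (P : Subgroup Ω) (hP : P ≤ S) (φ : P →* Ω) (hφ : ∀ x, φ x ∈ S),
      (∀ x : P, inr (reg S ⟨φ x, hφ x⟩) * g = g * inr (reg S ⟨x, hP x.2⟩)) → φ ∈ F.Hom P := by
  induction h with
  | @base w hw =>
    intro P hP φ hφ h1
    obtain ⟨s, rfl⟩ := hw
    refine mem_of_apply_eq (F.conj_mem hP s.2) fun x => ?_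
    have h2 := h1 x
    rw [← map_mul, ← map_mul, ← map_mul, ← map_mul] at h2
    have h3 := reg_injective S (inr_injective h2)
    have h4 : φ x * (s : Ω) = s * x := congrArg Subtype.val h3
    show φ x = s * x * (s : Ω)⁻¹
    rw [← h4, mul_inv_cancel_right]
  | @step w i b g n hw hg hF ih =>
    intro P hP φ hφ h1
    obtain ⟨s, rfl⟩ := hw
    have h2 := fun x => step_conj hF (h1 x)
    -- the homomorphism `P → W`
    obtain ⟨c, hc⟩ : ∃ c : Equiv.Perm S, ∀ y, (hnn F).dval i b y = c * y * c⁻¹ := by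
      cases b
      · exact ⟨(hnn F).σ i, fun y => rfl⟩
      · exact ⟨((hnn F).σ i)⁻¹, fun y => by rw [inv_inv]; rfl⟩
    let d : P →* Equiv.Perm S := (MulAut.conj (c * (reg S s)⁻¹)).toMonoidHom.comp
      ((reg S).comp (φ.codRestrict S hφ))
    have hd : ∀ x : P, d x = (hnn F).dval i b ((reg S s)⁻¹ * reg S ⟨φ x, hφ x⟩ * reg S s) := by
      intro x
      rw [hc]
      show (c * (reg S s)⁻¹) * reg S ⟨φ x, hφ x⟩ * (c * (reg S s)⁻¹)⁻¹ = _
      group
    have hdr : ∀ x : P, d x ∈ (reg S).range := by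
      intro x
      rw [hd]
      exact dom_le _ _ (dval_mem (h2 x).1)
    let φ' : P →* Ω := S.subtype.comp
      ((MonoidHom.ofInjective (reg_injective S)).symm.toMonoidHom.comp (d.codRestrict _ hdr))
    have hφ' : ∀ x, φ' x ∈ S := fun x => ((MonoidHom.ofInjective (reg_injective S)).symm
      (d.codRestrict _ hdr x)).2
    have hφ'd : ∀ x, reg S ⟨φ' x, hφ' x⟩ = d x := by
      intro x
      have h3 : (⟨φ' x, hφ' x⟩ : S) = (MonoidHom.ofInjective (reg_injective S)).symm
        (d.codRestrict _ hdr x) := rfl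
      rw [h3]
      have h4 : ∀ z : (reg S).range, reg S ((MonoidHom.ofInjective (reg_injective S)).symm z) = z := by
        intro z
        exact congrArg Subtype.val ((MonoidHom.ofInjective (reg_injective S)).apply_symm_apply z)
      rw [h4]
      rfl
    have hmem : φ' ∈ F.Hom P := by
      refine ih P hP φ' hφ' fun x => ?_
      rw [hφ'd, hd]
      exact (h2 x).2
    cases b with
    | true =>
      -- `φ = c_s ∘ φ_i ∘ φ'`
      have h5 : ∀ x : P, ∃ hx : φ' x ∈ i.1, φ x = s * (i.2 : i.1 →* Ω) ⟨φ' x, hx⟩ * (s : Ω)⁻¹ := by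
        intro x
        have h6 := dval_mem (h2 x).1
        rw [← hd, ← hφ'd] at h6
        obtain ⟨p, hp, hpe⟩ := h6
        have h7 : p = ⟨φ' x, hφ' x⟩ := reg_injective S hpe
        subst h7
        refine ⟨hp, ?_⟩
        have h8 := sig_spec F i ⟨⟨φ' x, hφ' x⟩, hp⟩
        have h9 : sig F i * reg S ⟨φ' x, hφ' x⟩ * (sig F i)⁻¹ =
            (reg S s)⁻¹ * reg S ⟨φ x, hφ x⟩ * reg S s := by
          rw [hφ'd, hd]
          show sig F i * ((sig F i)⁻¹ * ((reg S s)⁻¹ * reg S ⟨φ x, hφ x⟩ * reg S s) * sig F i) *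
            (sig F i)⁻¹ = _
          group
        rw [h9, ← map_inv, ← map_mul, ← map_mul] at h8
        have h10 : (s : Ω)⁻¹ * φ x * s = (i.2 : i.1 →* Ω) ⟨φ' x, hp⟩ :=
          congrArg Subtype.val (reg_injective S h8)
        rw [← h10]
        group
      obtain ⟨χ, hχ, hχe⟩ := exists_comp hmem i.2.2 (fun x => (h5 x).1)
      have hrS : χ.range ≤ S := by
        rintro _ ⟨x, rfl⟩
        exact (F.le_of_mem hχ).2 x
      obtain ⟨χ', hχ', hχe'⟩ := exists_comp hχ (F.conj_mem hrS s.2) (fun x => ⟨x, rfl⟩)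
      refine mem_of_apply_eq hχ' fun x => ?_
      obtain ⟨hx, he⟩ := h5 x
      rw [hχe', he]
      show _ = s * χ x * (s : Ω)⁻¹
      rw [hχe]
    | false =>
      obtain ⟨ψ, hψ, hψe⟩ := F.inv_mem i.2.2
      have h5 : ∀ x : P, ∃ hx : φ' x ∈ (i.2 : i.1 →* Ω).range,
          φ x = s * ψ ⟨φ' x, hx⟩ * (s : Ω)⁻¹ := by
        intro x
        obtain ⟨p, hp, hpe⟩ := (h2 x).1
        have h8 := sig_spec F i ⟨p, hp⟩
        have h9 : reg S ⟨φ' x, hφ' x⟩ = sig F i * reg S p * (sig F i)⁻¹ := by
          rw [hφ'd, hd, hpe]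
          rfl
        rw [← h9] at h8
        have h10 : φ' x = (i.2 : i.1 →* Ω) ⟨p, hp⟩ := congrArg Subtype.val (reg_injective S h8)
        refine ⟨⟨⟨p, hp⟩, h10.symm⟩, ?_⟩
        have h11 : ψ ⟨φ' x, ⟨⟨p, hp⟩, h10.symm⟩⟩ = p :=
          (congrArg ψ (Subtype.ext h10)).trans (hψe ⟨p, hp⟩)
        rw [h11]
        rw [← map_inv, ← map_mul, ← map_mul] at hpe
        have h12 : (p : Ω) = (s : Ω)⁻¹ * φ x * s := congrArg Subtype.val (reg_injective S hpe)
        rw [h12]
        group
      obtain ⟨χ, hχ, hχe⟩ := exists_comp hmem hψ (fun x => (h5 x).1)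
      have hrS : χ.range ≤ S := by
        rintro _ ⟨x, rfl⟩
        exact (F.le_of_mem hχ).2 x
      obtain ⟨χ', hχ', hχe'⟩ := exists_comp hχ (F.conj_mem hrS s.2) (fun x => ⟨x, rfl⟩)
      refine mem_of_apply_eq hχ' fun x => ?_
      obtain ⟨hx, he⟩ := h5 x
      rw [hχe', he]
      show _ = s * χ x * (s : Ω)⁻¹
      rw [hχe]

end Cfsg.Agent.H791
end

-- part: S5286
section
set_option autoImplicit false
universe u
open Cfsg

namespace Cfsg.Agent.S5286

open Cfsg.Agent.H791 Cfsg.Agent.H791.Hnn Cfsg.Agent.H791.Hnn.Data SemidirectProduct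

/-- Every fusion system F over a finite p-group S, saturated or not, is realized by a possibly infinite group: there are a group G and an injective homomorphism ι of S into G such that the maps of F are exactly the conjugations by elements of G between subgroups of ι(S), every finite subgroup of G is conjugate to a subgroup of ι(S), and G has a free normal subgroup whose index divides (#S)!. -/
theorem result {Ω : Type u} [Group Ω] {S : Subgroup Ω} [Finite S] (p : ℕ) [Fact p.Prime] (hS : IsPGroup p ↥S) (F : Cfsg.FusionSystem S) : ∃ (G : Type u) (_ : Group G) (ι : ↥S →* G), F.IsRealizedBy ι ∧ (∀ H : Subgroup G, Finite ↥H → ∃ g : G, ∀ h ∈ H, g * h * g⁻¹ ∈ ι.range) ∧ ∃ N : Subgroup G, N.Normal ∧ IsFreeGroup ↥N ∧ N.index ∣ (Nat.card ↥S).factorial := by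
  have hmem : ∀ s : S, (inr (reg S s) : FreeAct.E (hnn F).X (Equiv.Perm S)) ∈ (hnn F).G :=
    fun s => inr_mem ⟨s, rfl⟩
  obtain ⟨ι, hι⟩ : ∃ ι : S →* (hnn F).G, ∀ s, (ι s : FreeAct.E (hnn F).X (Equiv.Perm S)) = inr (reg S s) :=
    ⟨((inr : Equiv.Perm S →* FreeAct.E (hnn F).X (Equiv.Perm S)).comp (reg S)).codRestrict (hnn F).G hmem,
      fun s => rfl⟩
  refine ⟨(hnn F).G, inferInstance, ι, ⟨?_, ?_⟩, ?_, ?_⟩
  · intro a b hab
    have h1 := congrArg Subtype.val hab
    rw [hι, hι] at h1
    exact reg_injective S (inr_injective h1)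
  · intro P hP φ hφ
    constructor
    · intro hφF
      refine ⟨⟨(hnn F).t ⟨P, ⟨φ, hφF⟩⟩, t_mem _⟩, fun x => Subtype.ext ?_⟩
      rw [Subgroup.coe_mul, Subgroup.coe_mul, Subgroup.coe_inv, hι, hι]
      have h1 := sig_spec F ⟨P, ⟨φ, hφF⟩⟩ ⟨⟨x, hP x.2⟩, x.2⟩
      have h2 : reg S (toS F ⟨P, ⟨φ, hφF⟩⟩ ⟨⟨x, hP x.2⟩, x.2⟩) ∈ (hnn F).B ⟨P, ⟨φ, hφF⟩⟩ :=
        ⟨_, ⟨_, rfl⟩, rfl⟩
      have h3 := comm_t h2
      have h4 : ((hnn F).σ ⟨P, ⟨φ, hφF⟩⟩)⁻¹ * reg S (toS F ⟨P, ⟨φ, hφF⟩⟩ ⟨⟨x, hP x.2⟩, x.2⟩) *
          (hnn F).σ ⟨P, ⟨φ, hφF⟩⟩ = reg S ⟨x, hP x.2⟩ := by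
        rw [← h1]
        show (sig F ⟨P, ⟨φ, hφF⟩⟩)⁻¹ * (sig F ⟨P, ⟨φ, hφF⟩⟩ * _ * (sig F ⟨P, ⟨φ, hφF⟩⟩)⁻¹) *
          sig F ⟨P, ⟨φ, hφF⟩⟩ = _
        group
      rw [h4] at h3
      have h5 : toS F ⟨P, ⟨φ, hφF⟩⟩ ⟨⟨x, hP x.2⟩, x.2⟩ = ⟨φ x, hφ x⟩ := rfl
      rw [h5] at h3
      show inr (reg S ⟨φ x, hφ x⟩) = (hnn F).t ⟨P, ⟨φ, hφF⟩⟩ * inr (reg S ⟨x, hP x.2⟩) *
        ((hnn F).t ⟨P, ⟨φ, hφF⟩⟩)⁻¹
      rw [← h3, mul_inv_cancel_right]
    · rintro ⟨g, hg⟩
      obtain ⟨n, hn⟩ := exists_red g.2
      refine mem_of_red F hn P hP φ hφ fun x => ?_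
      have h1 := congrArg Subtype.val (hg x)
      rw [Subgroup.coe_mul, Subgroup.coe_mul, Subgroup.coe_inv, hι, hι] at h1
      rw [h1, inv_mul_cancel_right]
  · intro H hH
    have h1 : Finite (H.map (hnn F).G.subtype) :=
      Finite.of_surjective _ (MonoidHom.subgroupMap_surjective (hnn F).G.subtype H)
    obtain ⟨g, hg, hgH⟩ := exists_conj (H.map (hnn F).G.subtype) (by
      rintro _ ⟨x, -, rfl⟩
      exact x.2) h1
    refine ⟨⟨g, hg⟩, fun h hh => ?_⟩
    obtain ⟨_, ⟨s, rfl⟩, he⟩ := hgH h ⟨h, hh, rfl⟩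
    refine ⟨s, Subtype.ext ?_⟩
    rw [hι, ← he]
    rfl
  · let f : (hnn F).G →* Equiv.Perm S := (rightHom : FreeAct.E (hnn F).X (Equiv.Perm S) →* _).comp
      (hnn F).G.subtype
    refine ⟨f.ker, inferInstance, ?_, ?_⟩
    · let k : f.ker →* FreeGroup (hnn F).X :=
        { toFun := fun x => (x : (hnn F).G).1.left
          map_one' := rfl
          map_mul' := by
            intro x y
            have hx : ((x : (hnn F).G).1).right = 1 := x.2
            show ((x : (hnn F).G).1 * (y : (hnn F).G).1).left = _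
            rw [mul_left, hx, map_one]
            rfl }
      have hk : Function.Injective k := by
        intro x y hxy
        apply Subtype.ext
        apply Subtype.ext
        have hx : ((x : (hnn F).G).1).right = 1 := x.2
        have hy : ((y : (hnn F).G).1).right = 1 := y.2
        exact SemidirectProduct.ext hxy (by rw [hx, hy])
      have h1 : IsFreeGroup k.range := inferInstance
      exact IsFreeGroup.ofMulEquiv (MonoidHom.ofInjective hk).symm
    · rw [Subgroup.index_ker]
      have h1 : Nat.card f.range ∣ Nat.card (Equiv.Perm S) := Subgroup.card_subgroup_dvd_card _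
      rwa [Nat.card_perm] at h1

end Cfsg.Agent.S5286
end
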