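import Cfsg.Agent.H803.Realize
import Cfsg.Agent.H771.ModelUnique
import Cfsg.Agent.H973.FusMorph
import Cfsg.Agent.Lib.PSolvable
import Cfsg.Agent.Lib.Cores
import Cfsg.Agent.PLocal.PSolvable
import Cfsg.Statements.S5292
set_option linter.all false

-- part: H792/PSolv
section
/-!
# Fusion systems of p-solvable groups (helper792)
-/

set_option autoImplicit false

namespace Cfsg.Agent.H792

open Cfsg Cfsg.FusionSystem Cfsg.Agent.H802

universe u v

variable {Ω : Type u} [Group Ω] {S : Subgroup Ω}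

/-- The automizers of a system realized by a `p`-solvable group are `p`-solvable. -/
theorem isPSolvable_autGroup {p : ℕ} [Fact p.Prime] {G : Type v} [Group G]
    (hG : IsPSolvable p G) {F : FusionSystem S} {ι : S →* G} (h : F.IsRealizedBy ι)
    {Q : Subgroup Ω} (hQ : Q ≤ S) : IsPSolvable p ↥(F.autGroup Q) := by
  obtain ⟨hinj, hr⟩ := h
  let W : Subgroup (G × ↥(F.autGroup Q)) :=
    { carrier := {w | ∀ x : Q, ι ⟨((w.2 : MulAut Q) x : Q), hQ ((w.2 : MulAut Q) x).2⟩ =
        w.1 * ι ⟨x, hQ x.2⟩ * w.1⁻¹}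
      one_mem' := by
        intro x
        show ι ⟨(x : Ω), _⟩ = 1 * ι ⟨x, hQ x.2⟩ * 1⁻¹
        simp
      mul_mem' := by
        intro a b ha hb x
        have h1 := ha ((b.2 : MulAut Q) x)
        have h2 := hb x
        show ι ⟨(((a.2 : MulAut Q) ((b.2 : MulAut Q) x) : Q) : Ω), _⟩ = (a.1 * b.1) * ι ⟨x, hQ x.2⟩ * (a.1 * b.1)⁻¹
        rw [h1, h2]
        group
      inv_mem' := by
        intro a ha x
        have h1 := ha ((a.2 : MulAut Q)⁻¹ x)
        rw [MulAut.apply_inv_self] at h1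
        show ι ⟨(((a.2 : MulAut Q)⁻¹ x : Q) : Ω), _⟩ = a.1⁻¹ * ι ⟨x, hQ x.2⟩ * a.1⁻¹⁻¹
        rw [h1]
        group }
  have hW : IsPSolvable p W := by
    refine Cfsg.Agent.Lib.PSolvable.IsPSolvable_of_injective p hG
      ((MonoidHom.fst G ↥(F.autGroup Q)).comp W.subtype) ?_
    intro a b hab
    have hab' : (a : G × ↥(F.autGroup Q)).1 = (b : G × ↥(F.autGroup Q)).1 := hab
    have h2 : ∀ x : Q, ((a : G × ↥(F.autGroup Q)).2 : MulAut Q) x =
        ((b : G × ↥(F.autGroup Q)).2 : MulAut Q) x := by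
      intro x
      have e1 := a.2 x
      have e2 := b.2 x
      rw [hab', ← e2] at e1
      have e3 := congrArg Subtype.val (hinj e1)
      exact Subtype.ext e3
    apply Subtype.ext
    refine Prod.ext hab' (Subtype.ext (MulEquiv.ext h2))
  refine Cfsg.Agent.Lib.PSolvable.IsPSolvable_of_surjective p hW
    ((MonoidHom.snd G ↥(F.autGroup Q)).comp W.subtype) ?_
  rintro ⟨α, hα⟩
  have h1 := (mem_autGroup_iff F hQ α).1 hα
  rw [hr Q hQ _ (fun x => hQ (α x).2)] at h1
  obtain ⟨g, hg⟩ := h1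
  exact ⟨⟨(g, ⟨α, hα⟩), fun x => hg x⟩, rfl⟩

/-- A system realized by a `p`-solvable group is constrained. -/
theorem isConstrained_of_pSolvable {p : ℕ} [Fact p.Prime] {G : Type v} [Group G] [Finite G]
    (hS : IsPGroup p S) (hG : IsPSolvable p G) {F : FusionSystem S} [Finite S] {ι : S →* G}
    (h : F.IsRealizedBy ι) (T : Sylow p G) (hT : (T : Subgroup G) = ι.range) :
    F.IsConstrained p := by
  have hK : (Nat.card (pPrimeCore p G)).Coprime p := Cfsg.Agent.Lib.Cores.pPrimeCore_coprime p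
  have h1 := H803.isRealizedBy_quotient hS h (pPrimeCore p G) hK
  obtain ⟨T', hT'⟩ := H803.isSylow_quotient T hT (pPrimeCore p G) h.1 h1.1 hK
  have hGq : IsPSolvable p (G ⧸ pPrimeCore p G) :=
    Cfsg.Agent.PLocal.PSolvable.isPSolvable_quotient hG (pPrimeCore p G)
  have hcen := Cfsg.Agent.Lib.PSolvable.centralizer_pCore_le_of_pSolvable p hGq
    (Cfsg.Agent.Lib.Cores.pPrimeCore_quotient_pPrimeCore p)
  have hmod : F.IsModel p (G ⧸ pPrimeCore p G) ((QuotientGroup.mk' (pPrimeCore p G)).comp ι) :=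
    ⟨inferInstance, h1, ⟨T', hT'⟩, hcen⟩
  exact Cfsg.Agent.H973.isConstrained_of_isModel hmod

/-- The `Q`-model is `p`-solvable if the automizer of `Q` is. -/
theorem isPSolvable_of_isQModel {p : ℕ} [Fact p.Prime] {F : FusionSystem S} {Q : Subgroup Ω}
    {hN : S ≤ Subgroup.normalizer (Q : Set Ω)} {L : Type v} [Group L] [Finite L] {ι : ↥S →* L}
    {ρ : L →* MulAut ↥Q} (h : H771.IsQModel F hN ι ρ) (hS : IsPGroup p S)
    (hsol : IsPSolvable p ↥(F.autGroup Q)) : IsPSolvable p L := by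
  have hker : IsPGroup p ρ.ker := by
    rintro ⟨l, hl⟩
    obtain ⟨z, -, rfl⟩ := h.ker l hl
    obtain ⟨k, hk⟩ := hS z
    refine ⟨k, Subtype.ext ?_⟩
    show (ι z) ^ p ^ k = 1
    rw [← map_pow, hk, map_one]
  have h1 : IsPSolvable p ρ.range := by
    have hle : ρ.range ≤ F.autGroup Q := by
      rintro _ ⟨l, rfl⟩
      exact h.mem l
    exact Cfsg.Agent.Lib.PSolvable.IsPSolvable_of_injective p hsol (Subgroup.inclusion hle)
      (Subgroup.inclusion_injective hle)
  have h2 : IsPSolvable p (L ⧸ ρ.ker) :=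
    (Cfsg.Agent.PLocal.PSolvable.isPSolvable_congr
      (QuotientGroup.quotientKerEquivRange ρ)).2 h1
  exact Cfsg.Agent.Lib.PSolvable.IsPSolvable_of_extension p ρ.ker
    (Cfsg.Agent.PLocal.PSolvable.isPSolvable_of_isPGroup hker) h2

end Cfsg.Agent.H792
end

-- part: S5292
section
set_option autoImplicit false
universe u
open Cfsg

namespace Cfsg.Agent.S5292

/-- Let F be a saturated fusion system over a finite p-group S. Then F is the fusion system of some finite p-solvable group on a Sylow p-subgroup if and only if F is constrained (some subgroup normal in F is centric in F) and the group of automorphisms that F induces on its largest normal subgroup O_p(F) is p-solvable. -/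
theorem result {Ω : Type u} [Group Ω] {S : Subgroup Ω} [Finite S] (p : ℕ) [Fact p.Prime] (hS : IsPGroup p S)
    (F : Cfsg.FusionSystem S) (hF : F.IsSaturated p) :
    (∃ (G : Type u) (_ : Group G) (_ : Finite G) (ι : S →* G), Cfsg.IsPSolvable p G ∧ F.IsRealizedBy ι ∧
        ∃ T : Sylow p G, (T : Subgroup G) = ι.range) ↔
      (F.IsConstrained p ∧ Cfsg.IsPSolvable p ↥(F.autGroup F.core)) := by
  constructor
  · rintro ⟨G, _, _, ι, hG, hr, T, hT⟩
    exact ⟨H792.isConstrained_of_pSolvable hS hG hr T hT,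
      H792.isPSolvable_autGroup hG hr (H759.isNormal_core (F := F)).1⟩
  · rintro ⟨⟨-, Q₀, hQ₀, hQ₀c⟩, hsol⟩
    have hQn := H759.isNormal_core (F := F)
    have hQc : F.IsCentric F.core := H802.isCentric_of_le hQ₀c (le_sSup hQ₀) hQn.1
    obtain ⟨L, hL, ι, ρ, h⟩ := H771.exists_qmodel hS hF hQn hQc
      (H771.le_normalizer_of_isNormal hQn)
    obtain ⟨hfin, hr, hT, -⟩ := h.isModel hS hF hQn hQc
    exact ⟨L, hL, hfin, ι, H792.isPSolvable_of_isQModel h hS hsol, hr, hT⟩

end Cfsg.Agent.S5292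
end
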