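import Cfsg.Agent.H793.RelCrit
import Cfsg.Agent.H793.FixMax
import Cfsg.Statements.S5296
set_option linter.all false

-- part: H793/SmallExp
section
/-!
# Fusion is detected on small abelian subgroups of the hyperfocal subgroup (helper793)

Benson–Grodal–Henke, Henke–Liao.
-/

set_option autoImplicit false

namespace Cfsg.Agent.H793

open Cfsg Cfsg.FusionSystem Cfsg.Agent.H802

variable {Ω : Type*} [Group Ω] {S : Subgroup Ω}

/-- Small abelian subgroups of the hyperfocal subgroup. -/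
def SmallAb (F : FusionSystem S) (p : ℕ) (A : Subgroup Ω) : Prop :=
  A ≤ F.hyperfocalSubgroup p ∧ (∀ x ∈ A, ∀ y ∈ A, x * y = y * x) ∧ ∀ x ∈ A, x ^ sexp p = 1

theorem SmallAb.range [Finite S] {F : FusionSystem S} {p : ℕ} [Fact p.Prime] (hS : IsPGroup p S)
    (hF : F.IsSaturated p) {A : Subgroup Ω} (hA : SmallAb F p A) {φ : A →* Ω} (hφ : φ ∈ F.Hom A) :
    SmallAb F p φ.range := by
  refine ⟨?_, ?_, ?_⟩
  · rintro _ ⟨x, rfl⟩
    exact (apply_mem_hyp_iff hS hF A φ hφ x).1 (hA.1 x.2)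
  · rintro _ ⟨x, rfl⟩ _ ⟨y, rfl⟩
    rw [← map_mul, ← map_mul]
    congr 1
    exact Subtype.ext (hA.2.1 x x.2 y y.2)
  · rintro _ ⟨x, rfl⟩
    rw [← map_pow]
    have : x ^ sexp p = 1 := Subtype.ext (hA.2.2 x x.2)
    rw [this, map_one]

theorem fully_step [Finite S] {F E : FusionSystem S} {p : ℕ} [Fact p.Prime] (hS : IsPGroup p S)
    (hE : E.IsSaturated p) (hEF : E.IsSubsystemOf F)
    (hsm : ∀ A : Subgroup Ω, SmallAb F p A → F.Hom A ⊆ E.Hom A) {B A' : Subgroup Ω}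
    (hB : SmallAb F p B) (hc : F.IsConj B A') (hA' : F.IsFullyNormalized A') :
    ∃ ρ ∈ E.Hom (normalizerIn S B), (∀ (x : Ω) (hx : x ∈ normalizerIn S B), x ∈ B ↔ ρ ⟨x, hx⟩ ∈ A') ∧
      ∀ y, ρ y ∈ normalizerIn S A' := by
  obtain ⟨φ, hφ, hφr⟩ := hc
  have hφE := hsm B hB hφ
  have hA'E : E.IsFullyNormalized A' := by
    refine ⟨hA'.1, fun C hC => hA'.2 C ?_⟩
    obtain ⟨χ, hχ, hr⟩ := hC
    exact ⟨χ, hEF _ hχ, hr⟩
  obtain ⟨β, hβ, ρ, hρ, hρe, hρN⟩ := exists_extension_normalizer hS hE hφE hφr hA'E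
  have hBS : B ≤ S := hom_le hφ
  have hfB : Finite B := finite_of_le hBS
  have hfA' : Finite A' := finite_of_le hA'.1
  have hBN : B ≤ normalizerIn S B := le_normalizerIn hBS
  have hφm : ∀ x : B, φ x ∈ A' := fun x => by rw [← hφr]; exact ⟨x, rfl⟩
  have h1 : ∀ (x : Ω) (hx : x ∈ B), ρ ⟨x, hBN hx⟩ ∈ A' := by
    intro x hx
    rw [hρe ⟨x, hx⟩ (hφm _) (hBN hx)]
    exact Subtype.property _
  refine ⟨ρ, hρ, fun x hx => ⟨fun h => h1 x h, fun h => ?_⟩, hρN⟩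
  obtain ⟨y, hy, hye⟩ := exists_preimage_of_card (E.injective_of_mem hρ) hBN h1
    (isConj_card_eq ⟨φ, hφ, hφr⟩).ge _ h
  have h2 := congrArg Subtype.val (E.injective_of_mem hρ hye)
  have h3 : y = x := h2
  rw [← h3]
  exact hy

theorem main_step [Finite S] {F E : FusionSystem S} {p : ℕ} [Fact p.Prime] (hS : IsPGroup p S)
    (hF : F.IsSaturated p) (hE : E.IsSaturated p) (hEF : E.IsSubsystemOf F)
    (hsm : ∀ A : Subgroup Ω, SmallAb F p A → F.Hom A ⊆ E.Hom A) {Q : Subgroup Ω}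
    (hQn : F.IsFullyNormalized Q) (hQc : F.IsCentric Q)
    (hbig : ∀ R : Subgroup Ω, Nat.card Q < Nat.card R → F.Hom R ⊆ E.Hom R) :
    F.autGroup Q ≤ E.autGroup Q := by
  have hQS : Q ≤ S := hQn.1
  have hfQ : Finite Q := finite_of_le hQS
  have hG : ∀ q : Q, MulAut.conj q ∈ F.autGroup Q := by
    intro q
    rw [mem_autGroup_iff F hQS]
    exact mem_of_apply_eq (F.conj_mem hQS (hQS q.2)) (fun x => rfl)
  have hT : ∀ g ∈ F.autGroup Q, ∀ x ∈ (F.hyperfocalSubgroup p).subgroupOf Q,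
      g x ∈ (F.hyperfocalSubgroup p).subgroupOf Q := by
    intro g hg x hx
    exact (apply_mem_hyp_iff hS hF Q _ ((mem_autGroup_iff F hQS g).1 hg) x).1 hx
  obtain ⟨A₀, hA₀T, hA₀ab, hA₀e, hA₀n, hA₀b⟩ := exists_relCritAbelian (hS.to_le hQS)
    (F.autGroup Q) hG ((F.hyperfocalSubgroup p).subgroupOf Q) hT
  -- `A` in the ambient group
  set A : Subgroup Ω := A₀.map Q.subtype with hA
  have hAQ : A ≤ Q := Subgroup.map_subtype_le A₀
  have hmemA : ∀ x : Q, (x : Ω) ∈ A ↔ x ∈ A₀ := by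
    intro x
    constructor
    · rintro ⟨y, hy, hyx⟩
      have : y = x := Subtype.ext hyx
      rw [← this]; exact hy
    · intro hx
      exact ⟨x, hx, rfl⟩
  have hAsm : SmallAb F p A := by
    refine ⟨?_, ?_, ?_⟩
    · rintro _ ⟨x, hx, rfl⟩
      exact hA₀T hx
    · rintro _ ⟨x, hx, rfl⟩ _ ⟨y, hy, rfl⟩
      exact congrArg Subtype.val (hA₀ab x hx y hy)
    · rintro _ ⟨x, hx, rfl⟩
      exact congrArg Subtype.val (hA₀e x hx)
  have hAS : A ≤ S := hAQ.trans hQS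
  obtain ⟨A', hAA', hA'n⟩ := exists_isFullyNormalized hS hF hAS
  have hA'S : A' ≤ S := hA'n.1
  have hfA' : Finite A' := finite_of_le hA'S
  have hA'E : E.IsFullyNormalized A' := by
    refine ⟨hA'n.1, fun C hC => hA'n.2 C ?_⟩
    obtain ⟨χ, hχ, hr⟩ := hC
    exact ⟨χ, hEF _ hχ, hr⟩
  have hA'sm : SmallAb F p A' := by
    obtain ⟨φ, hφ, rfl⟩ := hAA'
    exact SmallAb.range hS hF hAsm hφ
  have hQA : Q ≤ normalizerIn S A := by
    refine le_inf hQS ?_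
    rw [Subgroup.le_normalizer_iff]
    intro q hq a ha
    have h1 := hA₀n ⟨q, hq⟩ ⟨a, hAQ ha⟩ ((hmemA ⟨a, hAQ ha⟩).1 ha)
    exact (hmemA _).2 h1
  obtain ⟨ρ, hρ, hρA, hρN⟩ := fully_step hS hE hEF hsm hAsm hAA' hA'n
  intro g hg
  have hgφ := (mem_autGroup_iff F hQS g).1 hg
  -- the image of `A` under `g`
  set B : Subgroup Ω := (A₀.map g.toMonoidHom).map Q.subtype with hB
  have hmemB : ∀ x : Q, ((g x : Q) : Ω) ∈ B ↔ x ∈ A₀ := by
    intro x
    constructor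
    · rintro ⟨_, ⟨y, hy, rfl⟩, hyx⟩
      have h1 : g y = g x := Subtype.ext hyx
      rw [← g.injective h1]; exact hy
    · intro hx
      exact ⟨g x, ⟨x, hx, rfl⟩, rfl⟩
  have hBQ : B ≤ Q := Subgroup.map_subtype_le _
  have hgA : (Q.subtype.comp g.toMonoidHom).comp (Subgroup.inclusion hAQ) ∈ F.Hom A :=
    restrict_mem hgφ hAQ
  have hgAr : ((Q.subtype.comp g.toMonoidHom).comp (Subgroup.inclusion hAQ)).range = B := by
    ext z
    constructor
    · rintro ⟨⟨x, hx⟩, rfl⟩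
      exact (hmemB ⟨x, hAQ hx⟩).2 ((hmemA ⟨x, hAQ hx⟩).1 hx)
    · rintro ⟨_, ⟨y, hy, rfl⟩, rfl⟩
      exact ⟨⟨y, (hmemA y).2 hy⟩, rfl⟩
  have hBsm : SmallAb F p B := by
    rw [← hgAr]
    exact SmallAb.range hS hF hAsm hgA
  have hBA' : F.IsConj B A' := isConj_trans (isConj_symm ⟨_, hgA, hgAr⟩) hAA'
  have hQB : Q ≤ normalizerIn S B := by
    refine le_inf hQS ?_
    rw [Subgroup.le_normalizer_iff]
    rintro q hq _ ⟨_, ⟨y, hy, rfl⟩, rfl⟩
    have h1 := hA₀n (g⁻¹ ⟨q, hq⟩) y hy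
    have h2 := (hmemB _).2 h1
    rw [map_mul, map_mul, map_inv, MulAut.apply_inv_self] at h2
    exact h2
  obtain ⟨σ, hσ, hσB, hσN⟩ := fully_step hS hE hEF hsm hBsm hBA' hA'n
  -- restriction of `ρ` and `σ` to `Q`
  have hρQ : ρ.comp (Subgroup.inclusion hQA) ∈ E.Hom Q := restrict_mem hρ hQA
  set ρQ := ρ.comp (Subgroup.inclusion hQA) with hρQdef
  have hσQ : σ.comp (Subgroup.inclusion hQB) ∈ E.Hom Q := restrict_mem hσ hQB
  set σQ := σ.comp (Subgroup.inclusion hQB) with hσQdef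
  have hρQA : ∀ x : Q, x ∈ A₀ ↔ ρQ x ∈ A' := fun x =>
    (hmemA x).symm.trans (hρA x (hQA x.2))
  have hσQB : ∀ x : Q, x ∈ A₀ ↔ σQ (g x) ∈ A' := fun x =>
    (hmemB x).symm.trans (hσB (g x) (hQB (g x).2))
  set Q₁ := ρQ.range with hQ₁
  have hQ₁S : Q₁ ≤ S := range_le_of_mem hρQ
  have hQ₁N : Q₁ ≤ Subgroup.normalizer (A' : Set Ω) := by
    rintro _ ⟨x, rfl⟩
    exact (hρN _).2
  obtain ⟨ρ', hρ', hρ'r, hρ'1, hρ'2⟩ := exists_inv hρQ hQ₁.symm
  -- `σ g`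
  obtain ⟨η, hη, hηe⟩ := exists_comp hgφ (hEF _ hσQ) (fun x => (g x).2)
  have hηx : ∀ x : Q, η x = σQ (g x) := fun x => hηe x
  have hρ'm : ∀ y : Q₁, ρ' y ∈ Q := fun y => by rw [← hρ'r]; exact ⟨y, rfl⟩
  obtain ⟨θ, hθ, hθe⟩ := exists_comp (hEF _ hρ') hη hρ'm
  have hρ1m : ∀ x : Q, ρQ x ∈ Q₁ := fun x => ⟨x, rfl⟩
  have hθx : ∀ x : Q, θ ⟨ρQ x, hρ1m x⟩ = σQ (g x) := by
    intro x
    rw [hθe, ← hηx]
    congr 1
    exact Subtype.ext (hρ'1 x _)
  -- `A' ≤ Q₁`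
  have hA'Q₁ : A' ≤ Q₁ := by
    intro a ha
    have hfA : Nat.card A = Nat.card A' := isConj_card_eq hAA'
    obtain ⟨x, hx, hxe⟩ := exists_preimage_of_card (E.injective_of_mem hρQ) hAQ
      (fun x hx => (hρQA ⟨x, hAQ hx⟩).1 ((hmemA ⟨x, hAQ hx⟩).1 hx)) hfA.ge a ha
    exact ⟨_, hxe⟩
  have hθA' : ∀ y : Q₁, (y : Ω) ∈ A' → θ y ∈ A' := by
    rintro ⟨_, x, rfl⟩ hy
    rw [hθx x]
    exact (hσQB x).1 ((hρQA x).2 hy)
  -- restriction to `A'`
  have hτF : θ.comp (Subgroup.inclusion hA'Q₁) ∈ F.Hom A' := restrict_mem hθ hA'Q₁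
  set τ := θ.comp (Subgroup.inclusion hA'Q₁) with hτdef
  have hτE : τ ∈ E.Hom A' := hsm A' hA'sm hτF
  have hτr : τ.range = A' := range_eq_of_mapsTo hτF (fun x => hθA' _ x.2)
  obtain ⟨τ', hτ', hτ'e⟩ := (isReceptive_of_isFullyNormalized hS hE hA'E).2 A' τ hτE hτr
  have hQ₁ext : Q₁ ≤ extender S A' τ :=
    le_extender_of_extends hA'Q₁ hQ₁S hQ₁N (hom_apply_mem hθ) (fun x hx => rfl)
  have hτQ : τ'.comp (Subgroup.inclusion hQ₁ext) ∈ E.Hom Q₁ := restrict_mem hτ' hQ₁ext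
  set τQ := τ'.comp (Subgroup.inclusion hQ₁ext) with hτQdef
  set U := τQ.range with hU
  have hUS : U ≤ S := range_le_of_mem hτQ
  have hτQA' : ∀ (x : Ω) (hx : x ∈ A'), τQ ⟨x, hA'Q₁ hx⟩ = τ ⟨x, hx⟩ := fun x hx =>
    hτ'e x hx _
  have hA'U : A' ≤ U := by
    intro a ha
    have ha' := ha
    rw [← hτr] at ha'
    obtain ⟨x, rfl⟩ := ha'
    exact ⟨⟨x, hA'Q₁ x.2⟩, hτQA' x x.2⟩
  have hUN : U ≤ Subgroup.normalizer (A' : Set Ω) := by
    rintro _ ⟨y, rfl⟩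
    exact (apply_mem_normalizerIn hτQ hA'Q₁ hQ₁N hτr hτQA' y).2
  obtain ⟨ζ, hζ, hζr, hζ1, hζ2⟩ := exists_inv hτQ hU.symm
  have hζm : ∀ u : U, ζ u ∈ Q₁ := fun u => by rw [← hζr]; exact ⟨u, rfl⟩
  obtain ⟨κ, hκ, hκe⟩ := exists_comp (hEF _ hζ) hθ hζm
  have hκfix : FixHom F A' U κ.range κ := by
    refine ⟨hκ, rfl, fun x hx hxA => ?_⟩
    rw [hκe]
    have hxA' := hxA
    rw [← hτr] at hxA'
    obtain ⟨a, rfl⟩ := hxA'
    have h1 := hζ1 ⟨a, hA'Q₁ a.2⟩ (by rw [hτQA' a a.2]; exact hx)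
    have h2 : (⟨τQ ⟨a, hA'Q₁ a.2⟩, by rw [hτQA' a a.2]; exact hx⟩ : U) = ⟨τ a, hx⟩ :=
      Subtype.ext (hτQA' a a.2)
    rw [h2] at h1
    have h3 : (⟨ζ ⟨τ a, hx⟩, hζm _⟩ : Q₁) = ⟨a, hA'Q₁ a.2⟩ := Subtype.ext h1
    rw [h3]
    rfl
  -- `ω = τQ ρQ : Q → U`
  obtain ⟨ω, hω, hωe⟩ := exists_comp (hEF _ hρQ) (hEF _ hτQ) hρ1m
  have hωr : ω.range = U := by
    ext z
    constructor
    · rintro ⟨x, rfl⟩
      rw [hωe]
      exact ⟨_, rfl⟩
    · rintro ⟨⟨_, x, rfl⟩, rfl⟩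
      exact ⟨x, hωe x⟩
  have hωA : ∀ x : Q, ω x ∈ A' → x ∈ A₀ := by
    intro x hx
    rw [hωe] at hx
    have hx' := hx
    rw [← hτr] at hx'
    obtain ⟨a, ha⟩ := hx'
    rw [← hτQA' a a.2] at ha
    have h1 := congrArg Subtype.val (E.injective_of_mem hτQ ha)
    have h2 : (a : Ω) = ρQ x := h1
    exact (hρQA x).2 (h2 ▸ a.2)
  have hQU : F.IsConj Q U := ⟨ω, hω, hωr⟩
  have hcard : Nat.card Q = Nat.card U := isConj_card_eq hQU
  -- `p'`-automorphisms of `U` trivial on `A'`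
  obtain ⟨ωi, hωi, hωir, hωi1, hωi2⟩ := exists_inv hω hωr
  have hp' : ∀ b ∈ F.autGroup U, (orderOf b).Coprime p → (∀ x : U, (x : Ω) ∈ A' → b x = x) →
      b = 1 := by
    intro b hb ho hbA
    have h1 := congr_mem_autGroup hωi hωir hb
    have h2 : MulAut.congr (isoOf ωi (F.injective_of_mem hωi) hωir) b = 1 := by
      refine hA₀b _ h1 ?_ ?_ ?_
      · have h0 := orderOf_injective
          (MulAut.congr (isoOf ωi (F.injective_of_mem hωi) hωir)).toMonoidHom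
          (MulAut.congr (isoOf ωi (F.injective_of_mem hωi) hωir)).injective b
        rw [← h0] at ho
        exact ho
      · intro x
        refine mem_hyp_of_coprime hQS h1 ?_ x
        have h0 := orderOf_injective
          (MulAut.congr (isoOf ωi (F.injective_of_mem hωi) hωir)).toMonoidHom
          (MulAut.congr (isoOf ωi (F.injective_of_mem hωi) hωir)).injective b
        rw [← h0] at ho
        exact ho
      · intro x hx
        apply Subtype.ext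
        have hωx : ω x ∈ U := by rw [← hωr]; exact ⟨x, rfl⟩
        have hxx : ωi ⟨ω x, hωx⟩ = x := hωi1 x hωx
        have h3 := autHom_apply hωi hωir ⟨b, hb⟩ ⟨ω x, hωx⟩ (by rw [hxx]; exact x.2)
        have h4 : (⟨ωi ⟨ω x, hωx⟩, by rw [hxx]; exact x.2⟩ : Q) = x := Subtype.ext hxx
        rw [h4] at h3
        refine h3.trans ?_
        show ωi (b ⟨ω x, hωx⟩) = x
        have h5 : ω x ∈ A' := by
          rw [hωe]
          have hρx : ρQ x ∈ A' := (hρQA x).1 hx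
          have h6 := hτQA' (ρQ x) hρx
          rw [h6]
          exact hθA' _ hρx
        rw [hbA _ h5, hxx]
    have h5 := congrArg (MulAut.congr (isoOf ωi (F.injective_of_mem hωi) hωir)).symm h2
    rw [MulEquiv.symm_apply_apply, map_one] at h5
    exact h5
  have hκE : κ ∈ E.Hom U := fix_mem hS hF (isReceptive_of_isFullyNormalized hS hF hA'n) hA'U hUN
    hQn hQc (isConj_symm hQU) hp' (fun R hR => hbig R (by rwa [hcard])) hκfix
  -- back to `g`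
  have hτQm : ∀ y : Q₁, τQ y ∈ U := fun y => ⟨y, rfl⟩
  obtain ⟨θ', hθ', hθ'e⟩ := exists_comp hτQ hκE hτQm
  have hθ'x : ∀ y : Q₁, θ' y = θ y := by
    intro y
    rw [hθ'e, hκe]
    congr 1
    exact Subtype.ext (hζ1 y _)
  obtain ⟨η', hη', hη'e⟩ := exists_comp hρQ hθ' hρ1m
  have hη'x : ∀ x : Q, η' x = σQ (g x) := fun x => by rw [hη'e, hθ'x, hθx]
  obtain ⟨σi, hσi, hσir, hσi1, hσi2⟩ := exists_inv hσQ rfl
  obtain ⟨g', hg', hg'e⟩ := exists_comp hη' hσi (fun x => by rw [hη'x]; exact ⟨_, rfl⟩)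
  rw [mem_autGroup_iff E hQS]
  refine mem_of_apply_eq hg' fun x => ?_
  rw [hg'e]
  have h1 := hσi1 (g x) ⟨_, rfl⟩
  have h2 : (⟨η' x, by rw [hη'x]; exact ⟨_, rfl⟩⟩ : σQ.range) = ⟨σQ (g x), ⟨_, rfl⟩⟩ :=
    Subtype.ext (hη'x x)
  rw [h2, h1]
  rfl

/-- **Fusion is detected on the small abelian subgroups of the hyperfocal subgroup.** -/
theorem hom_eq_of_smallAb [Finite S] {F E : FusionSystem S} {p : ℕ} [Fact p.Prime]
    (hS : IsPGroup p S) (hF : F.IsSaturated p) (hE : E.IsSaturated p) (hEF : E.IsSubsystemOf F)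
    (hsm : ∀ A : Subgroup Ω, SmallAb F p A → F.Hom A ⊆ E.Hom A) (P : Subgroup Ω) :
    E.Hom P = F.Hom P :=
  Set.Subset.antisymm (hEF P) (le_of_centric hS hF E
    (fun _ hQn hQc hbig => main_step hS hF hE hEF hsm hQn hQc hbig) P)

/-- The form of S5296. -/
theorem hom_eq_of_homSet_eq [Finite S] {F E : FusionSystem S} {p : ℕ} [Fact p.Prime]
    (hS : IsPGroup p S) (hE : E.IsSaturated p) (hF : F.IsSaturated p) (hEF : E.IsSubsystemOf F)
    (hodd : p ≠ 2 → ∀ A B : Subgroup Ω, A ≤ (F.hyperfocalSubgroup p) → B ≤ (F.hyperfocalSubgroup p) →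
      Cfsg.IsElementaryAbelian p A → Cfsg.IsElementaryAbelian p B → E.homSet A B = F.homSet A B)
    (htwo : p = 2 → ∀ A B : Subgroup Ω, A ≤ (F.hyperfocalSubgroup p) → B ≤ (F.hyperfocalSubgroup p) →
      IsMulCommutative ↥A → IsMulCommutative ↥B → (∀ a ∈ A, a ^ 4 = 1) → (∀ b ∈ B, b ^ 4 = 1) →
      E.homSet A B = F.homSet A B) (P : Subgroup Ω) :
    E.Hom P = F.Hom P := by
  refine hom_eq_of_smallAb hS hF hE hEF (fun A hA φ hφ => ?_) P
  have hB := SmallAb.range hS hF hA hφ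
  have hAc : IsMulCommutative ↥A := ⟨⟨fun x y => Subtype.ext (hA.2.1 x x.2 y y.2)⟩⟩
  have hBc : IsMulCommutative ↥φ.range := ⟨⟨fun x y => Subtype.ext (hB.2.1 x x.2 y y.2)⟩⟩
  have hmem : φ ∈ F.homSet A φ.range := ⟨hφ, fun x => ⟨x, rfl⟩⟩
  by_cases hp2 : p = 2
  · have hs : sexp p = 4 := by unfold sexp; rw [if_pos hp2]
    have h1 := htwo hp2 A φ.range hA.1 hB.1 hAc hBc (fun a ha => hs ▸ hA.2.2 a ha)
      (fun b hb => hs ▸ hB.2.2 b hb)
    rw [← h1] at hmem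
    exact hmem.1
  · have hs : sexp p = p := by unfold sexp; rw [if_neg hp2]
    have h1 := hodd hp2 A φ.range hA.1 hB.1 ⟨hAc, fun a ha => by
      have := hA.2.2 a ha; rwa [hs] at this⟩ ⟨hBc, fun b hb => by
      have := hB.2.2 b hb; rwa [hs] at this⟩
    rw [← h1] at hmem
    exact hmem.1

end Cfsg.Agent.H793
end

-- part: S5296
section
set_option autoImplicit false
universe u
open Cfsg

namespace Cfsg.Agent.S5296

/-- Small-exponent abelian subgroups of the hyperfocal subgroup control fusion. Let E and F be saturated fusion systems over the same finite p-group S with E contained in F. Suppose that E and F have the same maps between A and B for all subgroups A, B of the hyperfocal subgroup of F that are elementary abelian when p is odd, respectively abelian of exponent dividing 4 when p = 2. Then E = F. -/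
theorem result {Ω : Type u} [Group Ω] {S : Subgroup Ω} [Finite S] (p : ℕ) [Fact p.Prime] (hS : IsPGroup p S)
    (E F : Cfsg.FusionSystem S) (hE : E.IsSaturated p) (hF : F.IsSaturated p) (hEF : E.IsSubsystemOf F)
    (hodd : p ≠ 2 → ∀ A B : Subgroup Ω, A ≤ (F.hyperfocalSubgroup p) → B ≤ (F.hyperfocalSubgroup p) →
      Cfsg.IsElementaryAbelian p A → Cfsg.IsElementaryAbelian p B → E.homSet A B = F.homSet A B)
    (htwo : p = 2 → ∀ A B : Subgroup Ω, A ≤ (F.hyperfocalSubgroup p) → B ≤ (F.hyperfocalSubgroup p) →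
      IsMulCommutative ↥A → IsMulCommutative ↥B → (∀ a ∈ A, a ^ 4 = 1) → (∀ b ∈ B, b ^ 4 = 1) → E.homSet A B = F.homSet A B) :
    ∀ P : Subgroup Ω, E.Hom P = F.Hom P := by
  exact Cfsg.Agent.H793.hom_eq_of_homSet_eq hS hE hF hEF hodd htwo

end Cfsg.Agent.S5296
end
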