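import Cfsg.Agent.H794.FusTop
import Cfsg.Agent.H794.SmallFix
import Cfsg.Statements.S5300
set_option linter.all false

-- part: H794/FusSmall
section
/-!
# Normality of small cyclic subgroups of the focal subgroup forces `S` normal (helper794)
-/

set_option autoImplicit false

namespace Cfsg.Agent.H794

open Cfsg Cfsg.FusionSystem Cfsg.Agent.H802
open scoped Pointwise

variable {Ω : Type*} [Group Ω] {S : Subgroup Ω}

/-- `x` has order dividing `p`, or dividing 4 when `p = 2`. -/
def Small (p : ℕ) {G : Type*} [Group G] (x : G) : Prop := x ^ p = 1 ∨ (p = 2 ∧ x ^ 4 = 1)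

/-- arithmetic: a `p`-element normalizing `⟨x⟩`, `x` small, fixes `x` or (`p = 2`) inverts it. -/
theorem eq_or_eq_inv_of_zpowers {G : Type*} [Group G] {p : ℕ} [hp : Fact p.Prime] {s x : G}
    {m : ℕ} (hs : s ^ p ^ m = 1) (hx : Small p x) (h : s * x * s⁻¹ ∈ Subgroup.zpowers x) :
    s * x * s⁻¹ = x ∨ (p = 2 ∧ s * x * s⁻¹ = x⁻¹) := by
  obtain ⟨k, hk⟩ := h
  have hk' : s * x * s⁻¹ = x ^ k := hk.symm
  by_cases hx1 : x ^ p = 1
  · left
    by_cases hx0 : x = 1
    · simp [hx0]
    have hord : orderOf x = p := orderOf_eq_prime hx1 hx0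
    have hiter : ∀ n : ℕ, s ^ n * x * (s ^ n)⁻¹ = x ^ (k ^ n) := by
      intro n
      induction n with
      | zero => simp
      | succ n ih =>
        calc s ^ (n + 1) * x * (s ^ (n + 1))⁻¹ = s * (s ^ n * x * (s ^ n)⁻¹) * s⁻¹ := by
              rw [pow_succ']; group
          _ = s * x ^ (k ^ n) * s⁻¹ := by rw [ih]
          _ = (s * x * s⁻¹) ^ (k ^ n) := by rw [conj_zpow]
          _ = x ^ (k ^ (n + 1)) := by rw [hk', ← zpow_mul, pow_succ']
    have h1 := hiter (p ^ m)
    rw [hs, one_mul, inv_one, mul_one] at h1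
    -- `x = x ^ (k ^ p ^ m)`
    have h2 : ((k ^ p ^ m : ℤ) : ZMod p) = 1 := by
      have h3 : x ^ (k ^ p ^ m - 1) = 1 := by rw [zpow_sub, ← h1]; simp
      have h4 : (p : ℤ) ∣ k ^ p ^ m - 1 := by
        have := orderOf_dvd_iff_zpow_eq_one.2 h3
        rwa [hord] at this
      have h5 := (ZMod.intCast_zmod_eq_zero_iff_dvd (k ^ p ^ m - 1) p).2 h4
      push_cast at h5
      push_cast
      exact sub_eq_zero.1 h5
    have h6 : (k : ZMod p) = 1 := by
      have : ((k : ZMod p)) ^ p ^ m = 1 := by
        rw [← h2]; push_cast; rfl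
      rwa [ZMod.pow_card_pow] at this
    have h7 : (p : ℤ) ∣ k - 1 := by
      apply (ZMod.intCast_zmod_eq_zero_iff_dvd (k - 1) p).1
      push_cast
      rw [h6, sub_self]
    have h8 : x ^ (k - 1) = 1 := by
      rw [← hord] at h7
      exact orderOf_dvd_iff_zpow_eq_one.1 h7
    rw [hk']
    rw [zpow_sub, zpow_one] at h8
    exact mul_inv_eq_one.1 h8
  · -- `p = 2`, order 4
    rcases hx with hx | ⟨hp2, hx4⟩
    · exact absurd hx hx1
    subst hp2
    have h4 : x ^ (4 : ℤ) = 1 := by exact_mod_cast hx4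
    have hmod : x ^ k = x ^ (k % 4) := by
      conv_lhs => rw [← Int.emod_add_mul_ediv k 4]
      rw [zpow_add, zpow_mul, h4, one_zpow, mul_one]
    have hr1 : 0 ≤ k % 4 := Int.emod_nonneg _ (by norm_num)
    have hr2 : k % 4 < 4 := Int.emod_lt_of_pos _ (by norm_num)
    have hcases : k % 4 = 0 ∨ k % 4 = 1 ∨ k % 4 = 2 ∨ k % 4 = 3 := by omega
    have hsq : (s * x * s⁻¹) ^ 2 = s * x ^ 2 * s⁻¹ := by rw [conj_pow]
    rcases hcases with h0 | h0 | h0 | h0
    · exfalso
      rw [h0, zpow_zero] at hmod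
      rw [hmod] at hk'
      apply hx1
      have : x = 1 := by
        have := congrArg (fun y => s⁻¹ * y * s) hk'
        simpa [mul_assoc] using this
      rw [this, one_pow]
    · left
      rw [hk', hmod, h0, zpow_one]
    · exfalso
      rw [h0] at hmod
      apply hx1
      have h5 : (s * x * s⁻¹) ^ 2 = 1 := by
        rw [hk', hmod]
        have : (x ^ (2 : ℤ)) ^ 2 = x ^ (4 : ℤ) := by
          rw [← zpow_natCast, ← zpow_mul]; norm_num
        rw [this, h4]
      rw [hsq] at h5
      have := congrArg (fun y => s⁻¹ * y * s) h5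
      simpa [mul_assoc] using this
    · right
      refine ⟨rfl, ?_⟩
      rw [hk', hmod, h0]
      have : x ^ (3 : ℤ) * x = 1 := by
        rw [← zpow_add_one]; exact h4
      exact eq_inv_of_mul_eq_one_left this

/-- The automorphisms of `P` fixing (or inverting when `p = 2`) every small element of `P ∩ Y`. -/
def smallFix (p : ℕ) (P Y : Subgroup Ω) : Subgroup (MulAut P) where
  carrier := {b | ∀ x : P, (x : Ω) ∈ Y → Small p x → b x = x ∨ (p = 2 ∧ b x = x⁻¹)}
  mul_mem' := by
    intro a b ha hb x hx hs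
    rw [MulAut.mul_apply]
    rcases hb x hx hs with h | ⟨h2, h⟩
    · rw [h]
      exact ha x hx hs
    · rw [h, map_inv]
      rcases ha x hx hs with h' | ⟨h2', h'⟩
      · rw [h']
        exact Or.inr ⟨h2, rfl⟩
      · rw [h', inv_inv]
        exact Or.inl rfl
  one_mem' := fun x _ _ => Or.inl rfl
  inv_mem' := by
    intro a ha x hx hs
    rcases ha x hx hs with h | ⟨h2, h⟩
    · left
      have := MulAut.inv_apply_self P a x
      rwa [h] at this
    · right
      refine ⟨h2, ?_⟩
      have := MulAut.inv_apply_self P a x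
      rw [h, map_inv] at this
      exact inv_eq_iff_eq_inv.1 this

theorem small_map {G H : Type*} [Group G] [Group H] {p : ℕ} (f : G →* H) {x : G}
    (hx : Small p x) : Small p (f x) := by
  rcases hx with h | ⟨h2, h⟩
  · exact Or.inl (by rw [← map_pow, h, map_one])
  · exact Or.inr ⟨h2, by rw [← map_pow, h, map_one]⟩

theorem aut_mem_focal {F : FusionSystem S} {P : Subgroup Ω} (hP : P ≤ S) {a : MulAut P}
    (ha : a ∈ F.autGroup P) (x : P) : (((x⁻¹ * a x : P)) : Ω) ∈ F.focalSubgroup := by
  apply Subgroup.subset_closure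
  exact ⟨P, P.subtype.comp a.toMonoidHom, x, (mem_autGroup_iff F hP a).1 ha, rfl⟩

/-- If the cyclic subgroups of order `p` (or 4) of `foc(F)` are normal in `S`, the automorphism groups of the fully
normalized subgroups are `p`-closed. -/
theorem p_closed_of_small [Finite S] {p : ℕ} [hp : Fact p.Prime] (hS : IsPGroup p S)
    {F : FusionSystem S}
    (hnorm : ∀ x ∈ F.focalSubgroup, (x ^ p = 1 ∨ (p = 2 ∧ x ^ 4 = 1)) → ∀ s ∈ S,
      s * x * s⁻¹ ∈ Subgroup.zpowers x) {P : Subgroup Ω} (hPa : F.IsFullyAutomized p P) :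
    ∃ R : Sylow p ↥(F.autGroup P), (R : Subgroup ↥(F.autGroup P)).Normal := by
  obtain ⟨hPS, R, hR⟩ := hPa
  have hfP : Finite P := finite_of_le hPS
  refine ⟨R, ?_⟩
  set Y := F.focalSubgroup with hY
  -- the normal closure of the Sylow subgroup
  set B : Subgroup (F.autGroup P) := Subgroup.normalClosure (R : Set (F.autGroup P)) with hB
  have hRB : (R : Subgroup (F.autGroup P)) ≤ B := Subgroup.le_normalClosure
  -- elements of A preserve `P ∩ Y`
  have hAY : ∀ a : F.autGroup P, ∀ x : P, (x : Ω) ∈ Y → (((a : MulAut P) x : P) : Ω) ∈ Y := by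
    intro a x hx
    have h1 := aut_mem_focal hPS a.2 x
    have h2 := Y.mul_mem hx h1
    have h3 : (x : Ω) * ((x⁻¹ * (a : MulAut P) x : P) : Ω) = (((a : MulAut P) x : P) : Ω) := by
      rw [Subgroup.coe_mul, Subgroup.coe_inv]; group
    rwa [h3] at h2
  have hH : B ≤ (smallFix p P Y).subgroupOf (F.autGroup P) := by
    have hconj : ∀ a : F.autGroup P, ∀ b ∈ (smallFix p P Y).subgroupOf (F.autGroup P),
        a * b * a⁻¹ ∈ (smallFix p P Y).subgroupOf (F.autGroup P) := by
      intro a b hb x hx hs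
      have h1 : (((a : MulAut P)⁻¹ x : P) : Ω) ∈ Y := hAY a⁻¹ x hx
      have h2 : Small p ((a : MulAut P)⁻¹ x) := small_map ((a : MulAut P)⁻¹).toMonoidHom hs
      show ((a : MulAut P) * (b : MulAut P) * (a : MulAut P)⁻¹) x = x ∨
        _ ∧ ((a : MulAut P) * (b : MulAut P) * (a : MulAut P)⁻¹) x = x⁻¹
      rw [MulAut.mul_apply, MulAut.mul_apply]
      rcases hb _ h1 h2 with h3 | ⟨h3, h4⟩
      · left
        have h3' : (b : MulAut P) ((a : MulAut P)⁻¹ x) = (a : MulAut P)⁻¹ x := h3
        rw [h3', MulAut.apply_inv_self]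
      · right
        have h4' : (b : MulAut P) ((a : MulAut P)⁻¹ x) = ((a : MulAut P)⁻¹ x)⁻¹ := h4
        refine ⟨h3, ?_⟩
        rw [h4', map_inv, MulAut.apply_inv_self]
    have hnor : ((smallFix p P Y).subgroupOf (F.autGroup P)).Normal :=
      ⟨fun b hb a => hconj a b hb⟩
    refine Subgroup.normalClosure_le_normal ?_
    intro r hr
    have hr' : r ∈ (R : Subgroup (F.autGroup P)) := hr
    rw [hR, Subgroup.mem_subgroupOf, mem_autInducedBy_iff] at hr'
    obtain ⟨s, hsS, hs⟩ := hr'
    intro x hx hsm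
    obtain ⟨m, hm⟩ := hS ⟨s, hsS⟩
    have hm' : s ^ p ^ m = 1 := congrArg Subtype.val hm
    have hsm' : Small p (x : Ω) := small_map P.subtype hsm
    have h1 := eq_or_eq_inv_of_zpowers hm' hsm' (hnorm x hx hsm' s hsS)
    rcases h1 with h1 | ⟨h2, h1⟩
    · left
      apply Subtype.ext
      exact (hs x).trans h1
    · right
      refine ⟨h2, Subtype.ext ?_⟩
      exact (hs x).trans h1
  -- `B` is a `p`-group
  have hBp : IsPGroup p B := by
    rw [IsPGroup.iff_card]
    by_contra hcon
    have hBpos : Nat.card B ≠ 0 := Nat.card_pos.ne'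
    -- there is a prime `q ≠ p` dividing the order of `B`
    obtain ⟨q, hq, hqd, hqp⟩ : ∃ q : ℕ, q.Prime ∧ q ∣ Nat.card B ∧ q ≠ p := by
      by_contra hno
      push Not at hno
      apply hcon
      exact ⟨_, Nat.eq_prime_pow_of_unique_prime_dvd hBpos (fun {d} hd hdd => hno d hd hdd)⟩
    have : Fact q.Prime := ⟨hq⟩
    obtain ⟨b, hb⟩ := exists_prime_orderOf_dvd_card' q hqd
    have hord : orderOf ((b : F.autGroup P) : MulAut P) = q := by
      rw [← hb]
      rw [show orderOf ((b : F.autGroup P) : MulAut P) = orderOf (b : F.autGroup P) from Subgroup.orderOf_coe _]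
      exact Subgroup.orderOf_coe _
    have hcop : (orderOf ((b : F.autGroup P) : MulAut P)).Coprime p := by
      rw [hord]
      exact (Nat.coprime_primes hq hp.out).2 hqp
    have hbH : ((b : F.autGroup P) : MulAut P) ∈ smallFix p P Y := hH b.2
    have hb1 : ((b : F.autGroup P) : MulAut P) = 1 := by
      refine mulAut_eq_one_of_fix_small_of_le (hS.to_le hPS) _ hcop (Y.subgroupOf P) ?_ ?_
      · intro x
        exact aut_mem_focal hPS (b : F.autGroup P).2 x
      · intro x hx hs
        rcases hbH x hx hs with h | ⟨h2, h⟩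
        · exact h
        · -- `b` inverts `x`, `b` of odd order
          have hsq : (((b : F.autGroup P) : MulAut P) ^ 2) x = x := by
            rw [pow_two, MulAut.mul_apply, h, map_inv, h, inv_inv]
          have hodd : Odd (orderOf ((b : F.autGroup P) : MulAut P)) := by
            rw [h2] at hcop
            exact (Nat.coprime_two_right).1 hcop
          obtain ⟨k, hk⟩ := hodd
          have hpow : (((b : F.autGroup P) : MulAut P) ^ (2 * k)) x = x := by
            rw [pow_mul]
            have : ∀ j : ℕ, ((((b : F.autGroup P) : MulAut P) ^ 2) ^ j) x = x := by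
              intro j
              induction j with
              | zero => rfl
              | succ j ihj => rw [pow_succ, MulAut.mul_apply, hsq, ihj]
            exact this k
          have h1 : (((b : F.autGroup P) : MulAut P) ^ (2 * k + 1)) x = x := by
            rw [← hk, pow_orderOf_eq_one]; rfl
          rw [pow_succ', MulAut.mul_apply, hpow] at h1
          exact h1
    rw [hb1, orderOf_one] at hord
    exact hq.one_lt.ne hord
  -- conclusion
  have hBR : B = (R : Subgroup (F.autGroup P)) := R.is_maximal' hBp hRB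
  rw [← hBR]
  exact Subgroup.normalClosure_normal

theorem isNormal_of_small [Finite S] {p : ℕ} [Fact p.Prime] (hS : IsPGroup p S)
    {F : FusionSystem S} (hF : F.IsSaturated p)
    (hnorm : ∀ x ∈ F.focalSubgroup, (x ^ p = 1 ∨ (p = 2 ∧ x ^ 4 = 1)) → ∀ s ∈ S,
      s * x * s⁻¹ ∈ Subgroup.zpowers x) : F.IsNormal S :=
  isNormal_of_p_closed hS hF (fun _ hPn _ _ =>
    p_closed_of_small hS hnorm (isFullyAutomized_of_isFullyNormalized hS hF hPn))

end Cfsg.Agent.H794
end

-- part: S5300
section
set_option autoImplicit false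
universe u
open Cfsg

namespace Cfsg.Agent.S5300

/-- Let F be a saturated fusion system over a finite p-group S. If every cyclic subgroup of the focal subgroup of F of order p (of order 2 or 4 when p = 2) is normal in S, then S is normal in F. -/
theorem result {Ω : Type u} [Group Ω] {S : Subgroup Ω} [Finite S] (p : ℕ) [Fact p.Prime] (hS : IsPGroup p S)
    (F : Cfsg.FusionSystem S) (hF : F.IsSaturated p)
    (hnorm : ∀ x ∈ F.focalSubgroup, (x ^ p = 1 ∨ (p = 2 ∧ x ^ 4 = 1)) → ∀ s ∈ S, s * x * s⁻¹ ∈ Subgroup.zpowers x) :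
    F.IsNormal S := by
  exact Cfsg.Agent.H794.isNormal_of_small hS hF hnorm

end Cfsg.Agent.S5300
end
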