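import Cfsg.Agent.SylowSp4.LargeC
import Cfsg.Agent.SylowSp4.Closed
import Cfsg.Agent.H187.FusSelfNorm
import Cfsg.Agent.H991.GroupGen
import Cfsg.Agent.Involutions.NormalFour
import Cfsg.Agent.SylowSp4.Recog
import Cfsg.Agent.ClassicalGeometry.SLTwoFour
import Cfsg.Agent.S0261
import Cfsg.Agent.S0270
import Cfsg.Statements.S5320
set_option linter.all false

-- part: H798/PSpFus
section
/-!
# The 2-fusion systems of groups with the fusion of `PSp_4(q)`, `q` odd, are simple (helper798)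

`Fus S k f s`: coordinates of type `PSp_4(q)` on the Sylow 2-subgroup `S` and the necessary fusion.
-/

set_option autoImplicit false

namespace Cfsg.Agent.H798.PSpFus

open Cfsg Cfsg.FusionSystem Subgroup QuaternionGroup
open Cfsg.Agent.SylowSp4.Coord Cfsg.Agent.SylowSp4.Facts Cfsg.Agent.SylowSp4.Base Cfsg.Agent.SylowSp4.Closed

/-- Coordinates and fusion. -/
structure Fus {G : Type*} [Group G] (S : Subgroup G) (k : ℕ) (f : Q k → Q k → G) (s : G) : Prop where
  h : TSp S k f s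
  uu : ∀ α β γ δ : Q k, α * α = z k → β * β = z k → γ * γ = z k → δ * δ = z k → ∃ g : G, g * f α β * g⁻¹ = f γ δ
  nu : ∀ (g : G) (α β : Q k), α * α = z k → β * β = z k → g * f (z k) 1 * g⁻¹ ≠ f α β
  nus : ∀ (g : G) (α : Q k), g * f (z k) 1 * g⁻¹ ≠ f (z k * α) α⁻¹ * s
  ts : ∃ g : G, g * f (z k) 1 * g⁻¹ = s
  nn : k = 1 → ∃ n : G, n ^ 4 = 1 ∧ n * f (z k) 1 * n⁻¹ = s ∧ n * s * n⁻¹ = f (z k) 1 ∧
    n * f (c k) (c k) * n⁻¹ = f (c k) (c k) ∧
    n * f (xa 0) (xa 0) * n⁻¹ = f (c k * xa 0) (c k * xa 0) ∧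
    n * f (c k * xa 0) (c k * xa 0) * n⁻¹ = f (xa 0) (xa 0)

section Quat

variable {k : ℕ}

theorem a_mul_xa_sq (i j : ZMod (2 * 2 ^ k)) : ((a i : Q k) * xa j) * (a i * xa j) = z k := by
  rw [a_mul_xa, Cfsg.Agent.SylowSp4.Coord.xa_sq]

theorem inv_sq {x : Q k} (h : x * x = z k) : x⁻¹ * x⁻¹ = z k := by
  rw [← mul_inv_rev, h, z_inv]

/-- every element is a product of two roots of `z` -/
theorem exists_two_roots (hk : 1 ≤ k) (g : Q k) : ∃ x y : Q k, x * x = z k ∧ y * y = z k ∧ g = x * y := by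
  rcases g with i | j
  · refine ⟨a i * (xa 0)⁻¹, xa 0, ?_, Cfsg.Agent.SylowSp4.Coord.xa_sq _, by rw [inv_mul_cancel_right]⟩
    have h1 : ((xa 0 : Q k))⁻¹ = z k * xa 0 := inv_of_sq_z (Cfsg.Agent.SylowSp4.Coord.xa_sq 0)
    rw [h1, z_def, a_mul_xa]
    exact a_mul_xa_sq _ _
  · refine ⟨(c k)⁻¹, c k * xa j, inv_sq (c_sq hk), ?_, by rw [inv_mul_cancel_left]⟩
    exact a_mul_xa_sq _ _

/-- the centre of `Q k` -/
theorem center_Q (hk : 1 ≤ k) {g : Q k} (h : ∀ x, g * x = x * g) : g = 1 ∨ g = z k := by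
  rcases g with i | j
  · exact of_a_comm_xa (h (xa 0))
  · exfalso
    have h1 := h (c k)
    have h2 : (a (qq k) : Q k) * xa j = xa j * a (qq k) := h1.symm
    rcases of_a_comm_xa h2 with h3 | h3
    · have h4 := c_sq hk
      have h5 : (c k : Q k) = 1 := h3
      rw [h5, one_mul] at h4
      exact z_ne_one h4.symm
    · have h4 := c_sq hk
      have h5 : (c k : Q k) = z k := h3
      rw [h5, z_mul_z] at h4
      exact z_ne_one h4.symm

end Quat

section Basic

variable {G : Type*} [Group G] {S : Subgroup G} {k : ℕ} {f : Q k → Q k → G} {s : G}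

/-- the centre of `S` is generated by `t` -/
theorem center_S (h : TSp S k f s) {g : G} (hg : g ∈ S) (hc : ∀ x ∈ S, g * x = x * g) :
    g = 1 ∨ g = f (z k) 1 := by
  obtain ⟨γ, δ, -, rfl⟩ := centralizer_root h hg (c_sq h.hk) (hc _ (h.f_mem _ _))
  have h1 : ∀ x : Q k, γ * x = x * γ := by
    intro x
    have h2 := hc _ (h.f_mem x 1)
    rw [comm_iff h] at h2
    rcases h2 with ⟨h3, -⟩ | ⟨-, h3⟩
    · exact h3
    · exfalso
      rw [mul_one, one_mul] at h3
      exact ne_z_mul _ h3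
  have h1' : ∀ x : Q k, δ * x = x * δ := by
    intro x
    have h2 := hc _ (h.f_mem 1 x)
    rw [comm_iff h] at h2
    rcases h2 with ⟨-, h3⟩ | ⟨h3, -⟩
    · exact h3
    · exfalso
      rw [mul_one, one_mul] at h3
      exact ne_z_mul _ h3
  rcases center_Q h.hk h1 with rfl | rfl <;> rcases center_Q h.hk h1' with rfl | rfl
  · left; exact h.f_one
  · right; exact h.f_one_z
  · right; rfl
  · left; exact h.f_zz

theorem conj_s_f (h : TSp S k f s) (α β γ : Q k) :
    f α β * (f γ γ⁻¹ * s) * (f α β)⁻¹ = f (α * γ * β⁻¹) (α * γ * β⁻¹)⁻¹ * s := by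
  rw [h.f_mul_fs, h.f_inv, h.fs_mul_f]
  congr 2
  group

theorem f_zz_mul (h : TSp S k f s) (γ : Q k) : f (z k * γ) (z k * γ)⁻¹ * s = f γ γ⁻¹ * s := by
  rw [mul_inv_rev, z_inv, ← z_comm, h.f_z_mul]

/-- An element normalizing a Sylow `p`-subgroup is a product of an element of it and an element of order prime to `p`. -/
theorem decomp [Finite G] {p : ℕ} [Fact p.Prime] (S : Sylow p G) {g : G}
    (hg : g ∈ Subgroup.normalizer ((S : Subgroup G) : Set G)) :
    ∃ g₁ ∈ (S : Subgroup G), ∃ g₂ ∈ Subgroup.normalizer ((S : Subgroup G) : Set G),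
      ¬ p ∣ orderOf g₂ ∧ g = g₁ * g₂ := by
  set o := orderOf g with ho
  have ho0 : o ≠ 0 := (orderOf_pos g).ne'
  set a := p ^ o.factorization p with ha
  set b := o / a with hb
  have hab : a * b = o := Nat.ordProj_mul_ordCompl_eq_self o p
  have hpb : ¬ p ∣ b := Nat.not_dvd_ordCompl Fact.out ho0
  have hcop : Nat.Coprime a b := by
    apply Nat.Coprime.pow_left
    exact (Nat.Prime.coprime_iff_not_dvd Fact.out).2 hpb
  have hbez : (1 : ℤ) = a * Nat.gcdA a b + b * Nat.gcdB a b := by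
    have := Nat.gcd_eq_gcd_ab a b
    rw [hcop] at this
    exact_mod_cast this
  set g₁ := g ^ ((b : ℤ) * Nat.gcdB a b) with hg1
  set g₂ := g ^ ((a : ℤ) * Nat.gcdA a b) with hg2
  have hgg : g = g₁ * g₂ := by
    rw [hg1, hg2, ← zpow_add, add_comm, ← hbez, zpow_one]
  have hg1p : g₁ ^ a = 1 := by
    rw [hg1, ← zpow_natCast, ← zpow_mul]
    have : (b : ℤ) * Nat.gcdB a b * (a : ℤ) = (o : ℤ) * Nat.gcdB a b := by
      rw [← hab]; push_cast; ring
    rw [this, zpow_mul, zpow_natCast, ho, pow_orderOf_eq_one, one_zpow]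
  have hg2p : g₂ ^ b = 1 := by
    rw [hg2, ← zpow_natCast, ← zpow_mul]
    have : (a : ℤ) * Nat.gcdA a b * (b : ℤ) = (o : ℤ) * Nat.gcdA a b := by
      rw [← hab]; push_cast; ring
    rw [this, zpow_mul, zpow_natCast, ho, pow_orderOf_eq_one, one_zpow]
  have hg1N : g₁ ∈ Subgroup.normalizer ((S : Subgroup G) : Set G) := Subgroup.zpow_mem _ hg _
  have hg2N : g₂ ∈ Subgroup.normalizer ((S : Subgroup G) : Set G) := Subgroup.zpow_mem _ hg _
  refine ⟨g₁, ?_, g₂, hg2N, ?_, hgg⟩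
  · have hP : IsPGroup p (Subgroup.zpowers g₁) := by
      obtain ⟨k, -, hk⟩ := (Nat.dvd_prime_pow Fact.out).1 (orderOf_dvd_of_pow_eq_one hg1p)
      exact IsPGroup.of_card (n := k) (by rw [Nat.card_zpowers, hk])
    have hsup : IsPGroup p ((S : Subgroup G) ⊔ Subgroup.zpowers g₁ : Subgroup G) := by
      apply IsPGroup.to_sup_of_normal_left' S.isPGroup' hP
      rw [Subgroup.zpowers_le]
      exact hg1N
    have := S.is_maximal' hsup le_sup_left
    rw [← this]
    exact (le_sup_right : Subgroup.zpowers g₁ ≤ _) (Subgroup.mem_zpowers g₁)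
  · intro hd
    exact hpb (hd.trans (orderOf_dvd_of_pow_eq_one hg2p))

end Basic

section Closed

variable {G : Type*} [Group G] [Finite G] {S : Sylow 2 G} {k : ℕ} {f : Q k → Q k → G} {s : G}

/-- no proper nontrivial strongly closed subgroup -/
theorem closed (H : Fus (S : Subgroup G) k f s) (T : Subgroup G)
    (hTS : T ≤ (S : Subgroup G)) (hT : ∀ x ∈ T, ∀ g : G, g * x * g⁻¹ ∈ (S : Subgroup G) → g * x * g⁻¹ ∈ T) :
    T = ⊥ ∨ T = (S : Subgroup G) := by
  by_cases hT1 : T = ⊥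
  · exact Or.inl hT1
  right
  have h := H.h
  have hk := h.hk
  -- `t ∈ T`
  have ht : f (z k) 1 ∈ T := by
    have hn : (T.subgroupOf (S : Subgroup G)).Normal := by
      constructor
      intro x hx g
      exact hT _ hx _ ((S : Subgroup G).mul_mem ((S : Subgroup G).mul_mem g.2 x.2) ((S : Subgroup G).inv_mem g.2))
    have hne : (T.subgroupOf (S : Subgroup G)) ≠ ⊥ := by
      intro hb
      apply hT1
      rw [eq_bot_iff]
      intro x hx
      have : (⟨x, hTS hx⟩ : (S : Subgroup G)) ∈ T.subgroupOf (S : Subgroup G) := hx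
      rw [hb, Subgroup.mem_bot] at this
      exact congrArg Subtype.val this
    obtain ⟨w, hwT, hwc, hw⟩ := Cfsg.Agent.Involutions.NormalFour.exists_mem_center_of_normal S.isPGroup' _ hne
    have h2 : (w : G) = 1 ∨ (w : G) = f (z k) 1 := by
      refine center_S h w.2 fun x hx => ?_
      have := Subgroup.mem_center_iff.1 hwc ⟨x, hx⟩
      exact (congrArg Subtype.val this).symm
    rcases h2 with h2 | h2
    · exfalso
      have : w = 1 := Subtype.ext h2
      rw [this, orderOf_one] at hw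
      omega
    · rw [← h2]
      exact hwT
  -- `s ∈ T`
  have hsT : s ∈ T := by
    obtain ⟨g, hg⟩ := H.ts
    have := hT _ ht g (by rw [hg]; exact h.s_mem)
    rwa [hg] at this
  have hconjT : ∀ x ∈ T, ∀ y ∈ (S : Subgroup G), y * x * y⁻¹ ∈ T := fun x hx y hy =>
    hT x hx y ((S : Subgroup G).mul_mem ((S : Subgroup G).mul_mem hy (hTS hx)) ((S : Subgroup G).inv_mem hy))
  have h1 : f (c k) (c k)⁻¹ ∈ T := by
    have h2 := hconjT s hsT (f (c k) 1) (h.f_mem _ _)
    rw [conj_s h] at h2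
    have h3 := T.mul_mem h2 hsT
    rwa [mul_assoc, h.s_s, mul_one] at h3
  have h2 : ∀ α β : Q k, α * α = z k → β * β = z k → f α β ∈ T := by
    intro α β hα hβ
    obtain ⟨g, hg⟩ := H.uu (c k) (c k)⁻¹ α β (c_sq hk) (inv_sq (c_sq hk)) hα hβ
    have := hT _ h1 g (by rw [hg]; exact h.f_mem _ _)
    rwa [hg] at this
  have h3 : ∀ g : Q k, f 1 g ∈ T := by
    intro g
    obtain ⟨x, y, hx, hy, rfl⟩ := exists_two_roots hk g
    have h4 := T.mul_mem (T.mul_mem (h2 (c k) x (c_sq hk) hx) (h2 (c k) y (c_sq hk) hy)) ht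
    rwa [h.f_mul, c_sq hk, h.f_mul, z_mul_z, mul_one] at h4
  have h3' : ∀ g : Q k, f g 1 ∈ T := by
    intro g
    obtain ⟨x, y, hx, hy, rfl⟩ := exists_two_roots hk g
    have h4 := T.mul_mem (T.mul_mem (h2 x (c k) hx (c_sq hk)) (h2 y (c k) hy (c_sq hk))) ht
    rw [← h.f_one_z, h.f_mul, c_sq hk, h.f_mul, z_mul_z, mul_one] at h4
    exact h4
  have h5 : ∀ a b : Q k, f a b ∈ T := by
    intro a b
    have := T.mul_mem (h3' a) (h3 b)
    rwa [h.f_mul, mul_one, one_mul] at this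
  refine le_antisymm hTS fun x hx => ?_
  rcases (h.mem_iff x).1 hx with ⟨a, b, rfl⟩ | ⟨a, b, rfl⟩
  · exact h5 a b
  · exact T.mul_mem (h5 a b) hsT

/-- `t` commutes with `N_G(S)` -/
theorem norm_comm_t (h : TSp (S : Subgroup G) k f s) {g : G}
    (hg : g ∈ Subgroup.normalizer ((S : Subgroup G) : Set G)) : g * f (z k) 1 * g⁻¹ = f (z k) 1 := by
  have h1 : g * f (z k) 1 * g⁻¹ ∈ (S : Subgroup G) := (Subgroup.mem_normalizer_iff.1 hg _).1 (h.f_mem _ _)
  rcases center_S h h1 (fun x hx => by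
    have h2 : g⁻¹ * x * g ∈ (S : Subgroup G) := by
      have := (Subgroup.mem_normalizer_iff.1 (Subgroup.inv_mem _ hg) x).1 hx
      rwa [inv_inv] at this
    have h3 := h.t_comm h2
    calc g * f (z k) 1 * g⁻¹ * x = g * (f (z k) 1 * (g⁻¹ * x * g)) * g⁻¹ := by group
      _ = g * (g⁻¹ * x * g * f (z k) 1) * g⁻¹ := by rw [h3]
      _ = x * (g * f (z k) 1 * g⁻¹) := by group) with h2 | h2
  · exfalso
    have : f (z k) 1 = 1 := by
      calc f (z k) 1 = g⁻¹ * (g * f (z k) 1 * g⁻¹) * g := by group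
        _ = 1 := by rw [h2]; group
    exact h.t_ne_one this
  · exact h2

/-- elements normalizing `S` normalize the base group -/
theorem norm_base (h : TSp (S : Subgroup G) k f s) {g : G}
    (hg : g ∈ Subgroup.normalizer ((S : Subgroup G) : Set G)) (α β : Q k) : ∃ γ δ, g * f α β * g⁻¹ = f γ δ := by
  have hroot : ∀ x ∈ (S : Subgroup G), x * x = f (z k) 1 → ∃ γ δ, g * x * g⁻¹ = f γ δ := by
    intro x hx hxx
    have h1 : g * x * g⁻¹ ∈ (S : Subgroup G) := (Subgroup.mem_normalizer_iff.1 hg _).1 hx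
    have h2 : (g * x * g⁻¹) * (g * x * g⁻¹) = f (z k) 1 := by
      calc (g * x * g⁻¹) * (g * x * g⁻¹) = g * (x * x) * g⁻¹ := by group
        _ = f (z k) 1 := by rw [hxx, norm_comm_t h hg]
    obtain ⟨γ, -, h3 | h3⟩ := root_cases h h1 h2
    · exact ⟨_, _, h3⟩
    · exact ⟨_, _, h3⟩
  have hmul : ∀ x y : G, (∃ γ δ, g * x * g⁻¹ = f γ δ) → (∃ γ δ, g * y * g⁻¹ = f γ δ) →
      ∃ γ δ, g * (x * y) * g⁻¹ = f γ δ := by
    rintro x y ⟨γ, δ, h1⟩ ⟨γ', δ', h2⟩
    refine ⟨γ * γ', δ * δ', ?_⟩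
    calc g * (x * y) * g⁻¹ = (g * x * g⁻¹) * (g * y * g⁻¹) := by group
      _ = _ := by rw [h1, h2, h.f_mul]
  have h1 : f α β = f α 1 * f 1 β := by rw [h.f_mul, mul_one, one_mul]
  rw [h1]
  apply hmul
  · obtain ⟨x, y, hx, hy, rfl⟩ := exists_two_roots h.hk α
    have h2 : f (x * y) 1 = f x 1 * f y 1 := by rw [h.f_mul, mul_one]
    rw [h2]
    exact hmul _ _ (hroot _ (h.f_mem _ _) (root_sq h hx)) (hroot _ (h.f_mem _ _) (root_sq h hy))
  · obtain ⟨x, y, hx, hy, rfl⟩ := exists_two_roots h.hk β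
    have h2 : f 1 (x * y) = f 1 x * f 1 y := by rw [h.f_mul, mul_one]
    rw [h2]
    exact hmul _ _ (hroot _ (h.f_mem _ _) (root_sq' h hx)) (hroot _ (h.f_mem _ _) (root_sq' h hy))

theorem swap (h : TSp (S : Subgroup G) k f s) : TSp (S : Subgroup G) k (fun a b => f b a) s where
  hk := h.hk
  f_mul a b c d := h.f_mul _ _ _ _
  f_zz := h.f_zz
  f_inj a b c d e := by
    rcases h.f_inj _ _ _ _ e with ⟨h1, h2⟩ | ⟨h1, h2⟩
    · exact Or.inl ⟨h2, h1⟩
    · exact Or.inr ⟨h2, h1⟩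
  s_s := h.s_s
  s_f a b := h.s_f _ _
  s_ne a b := h.s_ne _ _
  mem_iff g := by
    rw [h.mem_iff]
    constructor
    · rintro (⟨a, b, rfl⟩ | ⟨a, b, rfl⟩)
      · exact Or.inl ⟨b, a, rfl⟩
      · exact Or.inr ⟨b, a, rfl⟩
    · rintro (⟨a, b, rfl⟩ | ⟨a, b, rfl⟩)
      · exact Or.inl ⟨b, a, rfl⟩
      · exact Or.inr ⟨b, a, rfl⟩

/-- elements of odd order normalizing `S` normalize the first factor -/
theorem norm_one (h : TSp (S : Subgroup G) k f s) {g : G}
    (hg : g ∈ Subgroup.normalizer ((S : Subgroup G) : Set G)) (ho : Odd (orderOf g)) (α : Q k) :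
    ∃ β, g * f α 1 * g⁻¹ = f β 1 := by
  set K : Subgroup G := Subgroup.normalizer ((S : Subgroup G) : Set G) with hK
  have hSK : (S : Subgroup G) ≤ K := Subgroup.le_normalizer
  have hRK : ∀ a b, f a b ∈ K := fun a b => hSK (h.f_mem a b)
  have h1 : TQQ ((base h).subgroupOf K) k (fun a b => (⟨f a b, hRK a b⟩ : K)) := (ofTSp h).restrict hRK
  have hZ : ∀ g : K, g * (⟨f (z k) 1, hRK _ _⟩ : K) = (⟨f (z k) 1, hRK _ _⟩ : K) * g := by
    intro g
    apply Subtype.ext
    have := norm_comm_t h g.2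
    exact mul_inv_eq_iff_eq_mul.1 this
  have hN : (⟨g, hg⟩ : K) ∈ Subgroup.normalizer (((base h).subgroupOf K : Subgroup K) : Set K) := by
    have hle : ∀ g' ∈ K, ∀ x : K, x ∈ (base h).subgroupOf K → (g' : G) * (x : G) * (g' : G)⁻¹ ∈ base h := by
      intro g' hg' x hx
      obtain ⟨a, b, hab⟩ := (mem_base h).1 (show (x : G) ∈ base h from hx)
      obtain ⟨γ, δ, h2⟩ := norm_base h hg' a b
      rw [hab]
      exact (mem_base h).2 ⟨γ, δ, h2⟩
    rw [Subgroup.mem_normalizer_iff]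
    intro x
    constructor
    · intro hx
      exact hle g hg x hx
    · intro hx
      have := hle g⁻¹ (K.inv_mem hg) _ hx
      show (x : G) ∈ base h
      have e : (g⁻¹ : G) * ((⟨g, hg⟩ * x * (⟨g, hg⟩ : K)⁻¹ : K) : G) * (g⁻¹ : G)⁻¹ = (x : G) := by
        show g⁻¹ * (g * (x : G) * g⁻¹) * (g⁻¹)⁻¹ = (x : G)
        group
      rwa [e] at this
  have ho' : Odd (orderOf (⟨g, hg⟩ : K)) := by rwa [Subgroup.orderOf_mk]
  have hx1 : (⟨f α 1, hRK _ _⟩ : K) ∈ h1.Q1 := h1.mem_Q1.2 ⟨α, rfl⟩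
  have hx : (⟨f α 1, hRK _ _⟩ : K) ∈ (base h).subgroupOf K := (mem_base h).2 ⟨α, 1, rfl⟩
  have h2 := h1.key_two hZ le_rfl hN ho' hx hx1
  obtain ⟨β, hβ⟩ := h1.mem_Q1.1 h2
  exact ⟨β, congrArg Subtype.val hβ⟩

/-- an element of odd order centralizing the base group and normalizing `S` centralizes `S` -/
theorem cent_of_base (h : TSp (S : Subgroup G) k f s) {g : G}
    (hg : g ∈ Subgroup.normalizer ((S : Subgroup G) : Set G)) (ho : Odd (orderOf g))
    (hb : ∀ α β, g * f α β = f α β * g) (x : G) (hx : x ∈ (S : Subgroup G)) : g * x = x * g := by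
  -- `g s g⁻¹ = r s`
  have h1 : g * s * g⁻¹ ∈ (S : Subgroup G) := (Subgroup.mem_normalizer_iff.1 hg _).1 h.s_mem
  have hs : g * s = s * g := by
    rcases (h.mem_iff _).1 h1 with ⟨a, b, hab⟩ | ⟨a, b, hab⟩
    · exfalso
      have h2 : s = f a b := by
        calc s = g⁻¹ * (g * s * g⁻¹) * g := by group
          _ = g⁻¹ * (f a b * g) := by rw [hab, mul_assoc]
          _ = f a b := by rw [← hb]; group
      exact h.s_ne a b h2
    · have hpow : ∀ m : ℕ, g ^ m * s * (g ^ m)⁻¹ = (f a b) ^ m * s := by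
        intro m
        induction m with
        | zero => simp
        | succ m ih =>
          have hc : g * (f a b) ^ m = (f a b) ^ m * g := by
            have : Commute g (f a b) := hb a b
            exact this.pow_right m
          calc g ^ (m + 1) * s * (g ^ (m + 1))⁻¹ = g * (g ^ m * s * (g ^ m)⁻¹) * g⁻¹ := by
                rw [pow_succ']; group
            _ = (g * (f a b) ^ m) * s * g⁻¹ := by rw [ih]; group
            _ = (f a b) ^ m * (g * s * g⁻¹) := by rw [hc]; group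
            _ = (f a b) ^ (m + 1) * s := by rw [hab, pow_succ]; group
      have h2 := hpow (orderOf g)
      rw [pow_orderOf_eq_one, one_mul, inv_one, mul_one] at h2
      have h3 : (f a b) ^ orderOf g = 1 := by
        have : 1 * s = (f a b) ^ orderOf g * s := by rw [one_mul]; exact h2
        exact (mul_right_cancel this).symm
      have h4 : f a b = 1 := by
        obtain ⟨j, hj⟩ := IsPGroup.iff_orderOf.1 S.isPGroup' ⟨f a b, h.f_mem a b⟩
        rw [Subgroup.orderOf_mk] at hj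
        have h5 := orderOf_dvd_of_pow_eq_one h3
        rw [hj] at h5
        have h6 : Nat.Coprime (2 ^ j) (orderOf g) := Nat.Coprime.pow_left j (Nat.coprime_two_left.2 ho)
        have h7 : 2 ^ j = 1 := Nat.eq_one_of_dvd_coprimes h6 dvd_rfl h5
        rw [h7, orderOf_eq_one_iff] at hj
        exact hj
      rw [h4, one_mul] at hab
      exact mul_inv_eq_iff_eq_mul.1 hab
  rcases (h.mem_iff x).1 hx with ⟨a, b, rfl⟩ | ⟨a, b, rfl⟩
  · exact hb a b
  · rw [← mul_assoc, hb, mul_assoc, hs, mul_assoc]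

/-- `k ≥ 2`: elements of odd order normalizing `S` centralize `S` -/
theorem odd_cent (hk : 2 ≤ k) (h : TSp (S : Subgroup G) k f s) {g : G}
    (hg : g ∈ Subgroup.normalizer ((S : Subgroup G) : Set G)) (ho : Odd (orderOf g))
    (x : G) (hx : x ∈ (S : Subgroup G)) : g * x = x * g := by
  refine cent_of_base h hg ho ?_ x hx
  have hgt : g * f (z k) 1 = f (z k) 1 * g := mul_inv_eq_iff_eq_mul.1 (norm_comm_t h hg)
  have h1 : ∀ α : Q k, g * f α 1 * g⁻¹ = f α 1 := by
    intro α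
    have := Cfsg.Agent.SylowSp4.LargeC.odd_fix (swap h) hk (g := g)
      (by
        show g * f 1 (z k) = f 1 (z k) * g
        rw [h.f_one_z]
        exact hgt) ho
      (fun α => norm_one h hg ho α) α
    exact this
  have h2 : ∀ α : Q k, g * f 1 α * g⁻¹ = f 1 α := fun α =>
    Cfsg.Agent.SylowSp4.LargeC.odd_fix h hk hgt ho (fun α => norm_one (swap h) hg ho α) α
  intro α β
  have h3 : f α β = f α 1 * f 1 β := by rw [h.f_mul, mul_one, one_mul]
  rw [h3, ← mul_assoc, mul_inv_eq_iff_eq_mul.1 (h1 α), mul_assoc, mul_inv_eq_iff_eq_mul.1 (h2 β), mul_assoc]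

end Closed

end Cfsg.Agent.H798.PSpFus
end

-- part: H798/PSpOne
section
/-!
# The 2-fusion systems of groups with the fusion of `PSp_4(q)`, `q` odd, are simple: `k = 1` (helper798)
-/

set_option autoImplicit false

namespace Cfsg.Agent.H798.PSpFus

open Cfsg Cfsg.FusionSystem Subgroup QuaternionGroup Equiv
open Cfsg.Agent.SylowSp4.Coord Cfsg.Agent.SylowSp4.Facts Cfsg.Agent.SylowSp4.Base Cfsg.Agent.SylowSp4.Closed

/-- representatives of `Q₈ / ⟨z⟩` -/
def qv : Fin 4 → Q 1 := ![1, c 1, xa 0, c 1 * xa 0]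

theorem qv_cases : ∀ α : Q 1, ∃ i : Fin 4, α = qv i ∨ α = z 1 * qv i := by decide +kernel

theorem qv_ne : ∀ i j : Fin 4, (qv i = qv j ∨ qv i = z 1 * qv j) → i = j := by decide +kernel

theorem qv_c : c 1 * qv 0 = qv 1 ∧ c 1 * qv 1 = z 1 * qv 0 ∧ c 1 * qv 2 = qv 3 ∧ c 1 * qv 3 = z 1 * qv 2 := by
  decide +kernel

theorem qv_x : (xa 0 : Q 1) * qv 0 = qv 2 ∧ (xa 0 : Q 1) * qv 1 = z 1 * qv 3 ∧ (xa 0 : Q 1) * qv 2 = z 1 * qv 0 ∧
    (xa 0 : Q 1) * qv 3 = qv 1 := by
  decide +kernel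

theorem sq_cases : ∀ α : Q 1, α = 1 ∨ α = z 1 ∨ α * α = z 1 := by decide +kernel

/-- the three generators of `A₅` -/
def gen : Fin 3 → Perm (Fin 5) := ![Equiv.swap 0 1 * Equiv.swap 3 4, Equiv.swap 1 2 * Equiv.swap 3 4, Equiv.swap 1 3 * Equiv.swap 2 4]

def words : List (List (Fin 3)) := [[], [0, 1, 2, 0, 2, 0], [0, 2, 0, 1, 2, 0], [0, 1, 0, 2, 0, 2, 0],
  [0, 1, 2, 0, 2, 0, 1], [0, 2, 0, 1, 2, 0, 1], [0, 2, 0, 1, 2, 0, 2], [1, 0, 2, 0, 1, 2, 0], [2, 0, 1, 2, 0, 2, 0]]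

theorem words_spec : ∀ σ : Perm (Fin 5), σ 0 = 0 → σ * σ * σ = 1 → ∃ l ∈ words, (l.map gen).prod = σ := by
  decide +kernel

theorem perm_cases : ∀ σ : Perm (Fin 5), σ 0 = 0 → σ * σ * σ = 1 ∨ σ * σ * σ * σ = 1 := by
  decide +kernel

section

variable {G : Type*} [Group G] (f : Q 1 → Q 1 → G) (s : G)

/-- the five conjugates of `t` in `S` -/
def tv : Fin 5 → G := Fin.cons (f (z 1) 1) (fun i => f (qv i) (qv i)⁻¹ * s)

/-- `g` acts on the conjugates of `t` as `σ` -/
def Acts (g : G) (σ : Perm (Fin 5)) : Prop := ∀ i, g * tv f s i * g⁻¹ = tv f s (σ i)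

variable {f s}

theorem Acts.mul {g h : G} {σ τ : Perm (Fin 5)} (h1 : Acts f s g σ) (h2 : Acts f s h τ) : Acts f s (g * h) (σ * τ) := by
  intro i
  rw [Perm.mul_apply, ← h1, ← h2]
  group

theorem Acts.one : Acts f s 1 1 := by
  intro i
  rw [Perm.one_apply]
  group

theorem Acts.pow {g : G} {σ : Perm (Fin 5)} (h1 : Acts f s g σ) (n : ℕ) : Acts f s (g ^ n) (σ ^ n) := by
  induction n with
  | zero => rw [pow_zero, pow_zero]; exact Acts.one
  | succ n ih => rw [pow_succ, pow_succ]; exact ih.mul h1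

end

section

variable {G : Type*} [Group G] {S : Subgroup G} {f : Q 1 → Q 1 → G} {s : G}

theorem tv_injective (h : TSp S 1 f s) : Function.Injective (tv f s) := by
  intro i j hij
  refine Fin.cases ?_ (fun i hij => ?_) i hij
  · intro hij
    revert hij
    refine Fin.cases ?_ (fun j => ?_) j
    · intro _; rfl
    · intro hij
      exact absurd hij.symm (h.fs_ne _ _ _ _)
  · revert hij
    refine Fin.cases ?_ (fun j => ?_) j
    · intro hij
      exact absurd hij (h.fs_ne _ _ _ _)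
    · intro hij
      have h1 : f (qv i) (qv i)⁻¹ * s = f (qv j) (qv j)⁻¹ * s := hij
      have h2 := mul_right_cancel h1
      rw [h.f_eq_iff] at h2
      rw [qv_ne i j (by
        rcases h2 with ⟨h2, -⟩ | ⟨h2, -⟩
        · exact Or.inl h2
        · exact Or.inr h2)]

theorem fs_mem_range (h : TSp S 1 f s) (α : Q 1) : ∃ i, f α α⁻¹ * s = tv f s i := by
  obtain ⟨i, rfl | rfl⟩ := qv_cases α
  · exact ⟨i.succ, rfl⟩
  · exact ⟨i.succ, by rw [f_zz_mul h]; rfl⟩

theorem tv_mem (h : TSp S 1 f s) (i : Fin 5) : tv f s i ∈ S := by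
  refine Fin.cases ?_ (fun i => ?_) i
  · exact h.f_mem _ _
  · exact h.fs_mem _ _

theorem acts_of_left (h : TSp S 1 f s) {a : Q 1} {σ : Perm (Fin 5)} (h0 : σ 0 = 0)
    (hσ : ∀ i : Fin 4, ∃ j : Fin 4, σ i.succ = j.succ ∧ (a * qv i = qv j ∨ a * qv i = z 1 * qv j)) :
    Acts f s (f a 1) σ := by
  intro i
  refine Fin.cases ?_ (fun i => ?_) i
  · rw [h0]
    show f a 1 * f (z 1) 1 * (f a 1)⁻¹ = f (z 1) 1
    rw [h.f_mul, h.f_inv, h.f_mul, ← z_comm]
    simp
  · obtain ⟨j, hj, h1⟩ := hσ i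
    rw [hj]
    show f a 1 * (f (qv i) (qv i)⁻¹ * s) * (f a 1)⁻¹ = f (qv j) (qv j)⁻¹ * s
    rw [conj_s_f h, inv_one, mul_one]
    rcases h1 with h1 | h1
    · rw [h1]
    · rw [h1, f_zz_mul h]

theorem acts_c (h : TSp S 1 f s) : Acts f s (f (c 1) 1) (gen 1) := by
  obtain ⟨h0, h1, h2, h3⟩ := qv_c
  refine acts_of_left h (by decide) ?_
  intro i
  fin_cases i
  · exact ⟨1, by decide, Or.inl h0⟩
  · exact ⟨0, by decide, Or.inr h1⟩
  · exact ⟨3, by decide, Or.inl h2⟩
  · exact ⟨2, by decide, Or.inr h3⟩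

theorem acts_x (h : TSp S 1 f s) : Acts f s (f (xa 0) 1) (gen 2) := by
  obtain ⟨h0, h1, h2, h3⟩ := qv_x
  refine acts_of_left h (by decide) ?_
  intro i
  fin_cases i
  · exact ⟨2, by decide, Or.inl h0⟩
  · exact ⟨3, by decide, Or.inr h1⟩
  · exact ⟨0, by decide, Or.inr h2⟩
  · exact ⟨1, by decide, Or.inl h3⟩

end

section Main

variable {G : Type*} [Group G] {S : Subgroup G} {f : Q 1 → Q 1 → G} {s : G}

/-- the conjugates of `t` in `S` are the `tv i` -/
theorem exists_tv (H : Fus S 1 f s) {x : G} (hx : x ∈ S) {g : G} (hg : g * f (z 1) 1 * g⁻¹ = x) :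
    ∃ i, x = tv f s i := by
  have hsq : x * x = 1 := by
    rw [← hg]
    calc g * f (z 1) 1 * g⁻¹ * (g * f (z 1) 1 * g⁻¹) = g * (f (z 1) 1 * f (z 1) 1) * g⁻¹ := by group
      _ = 1 := by rw [H.h.t_sq]; group
  rcases inv_cases H.h hx hsq with h1 | h1 | ⟨α, β, hα, hβ, h1⟩ | ⟨α, h1⟩ | ⟨α, h1⟩
  · exfalso
    apply H.h.t_ne_one
    calc f (z 1) 1 = g⁻¹ * (g * f (z 1) 1 * g⁻¹) * g := by group
      _ = 1 := by rw [hg, h1]; group
  · exact ⟨0, h1⟩
  · exact absurd (hg.trans h1) (H.nu g α β hα hβ)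
  · rw [h1]; exact fs_mem_range H.h α
  · exact absurd (hg.trans h1) (H.nus g α)

theorem tv_conj (H : Fus S 1 f s) (i : Fin 5) : ∃ g : G, g * f (z 1) 1 * g⁻¹ = tv f s i := by
  refine Fin.cases ?_ (fun i => ?_) i
  · exact ⟨1, by rw [one_mul, inv_one, mul_one]; rfl⟩
  · obtain ⟨g, hg⟩ := H.ts
    refine ⟨f (qv i) 1 * g, ?_⟩
    calc f (qv i) 1 * g * f (z 1) 1 * (f (qv i) 1 * g)⁻¹ = f (qv i) 1 * (g * f (z 1) 1 * g⁻¹) * (f (qv i) 1)⁻¹ := by
          group
      _ = _ := by rw [hg, conj_s H.h]; rfl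

theorem exists_acts (H : Fus S 1 f s) {g : G} (hg : ∀ i, g * tv f s i * g⁻¹ ∈ S) : ∃ σ, Acts f s g σ := by
  have h1 : ∀ i, ∃ j, g * tv f s i * g⁻¹ = tv f s j := by
    intro i
    obtain ⟨w, hw⟩ := tv_conj H i
    refine exists_tv H (hg i) (g := g * w) ?_
    rw [← hw]
    group
  choose σ hσ using h1
  have hinj : Function.Injective σ := by
    intro i j hij
    apply tv_injective H.h
    have h2 : g * tv f s i * g⁻¹ = g * tv f s j * g⁻¹ := by rw [hσ, hσ, hij]
    exact mul_left_cancel (mul_right_cancel h2)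
  refine ⟨Equiv.ofBijective σ (Finite.injective_iff_bijective.1 hinj), fun i => ?_⟩
  rw [Equiv.ofBijective_apply]
  exact hσ i

/-- the group generated by the conjugates of `t` in `S` -/
def A (f : Q 1 → Q 1 → G) (s : G) : Subgroup G := Subgroup.closure (Set.range (tv f s))

theorem tv_mem_A (i : Fin 5) : tv f s i ∈ A f s := Subgroup.subset_closure ⟨i, rfl⟩

theorem A_le (h : TSp S 1 f s) : A f s ≤ S := by
  rw [A, Subgroup.closure_le]
  rintro _ ⟨i, rfl⟩
  exact tv_mem h i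

theorem Acts.conj_mem {g : G} {σ : Perm (Fin 5)} (h : Acts f s g σ) {x : G} (hx : x ∈ A f s) : g * x * g⁻¹ ∈ A f s := by
  refine Subgroup.closure_induction (p := fun x _ => g * x * g⁻¹ ∈ A f s) ?_ ?_ ?_ ?_ hx
  · rintro _ ⟨i, rfl⟩
    rw [h i]
    exact tv_mem_A _
  · rw [mul_one, mul_inv_cancel]; exact (A f s).one_mem
  · intro a b _ _ h1 h2
    have := (A f s).mul_mem h1 h2
    rwa [show g * a * g⁻¹ * (g * b * g⁻¹) = g * (a * b) * g⁻¹ by group] at this
  · intro a _ h1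
    have := (A f s).inv_mem h1
    rwa [show (g * a * g⁻¹)⁻¹ = g * a⁻¹ * g⁻¹ by group] at this

theorem Acts.inv {g : G} {σ : Perm (Fin 5)} (h : Acts f s g σ) : Acts f s g⁻¹ σ⁻¹ := by
  intro i
  have h1 := h (σ⁻¹ i)
  have h2 : σ (σ⁻¹ i) = i := σ.apply_symm_apply i
  rw [h2] at h1
  rw [← h1]
  group

theorem Acts.mem_normalizer {g : G} {σ : Perm (Fin 5)} (h : Acts f s g σ) :
    g ∈ Subgroup.normalizer (A f s : Set G) := by
  rw [Subgroup.mem_normalizer_iff]
  intro x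
  constructor
  · exact h.conj_mem
  · intro hx
    have := h.inv.conj_mem hx
    rwa [show g⁻¹ * (g * x * g⁻¹) * (g⁻¹)⁻¹ = x by group] at this

theorem Acts.eq_on {g h : G} {σ : Perm (Fin 5)} (hg : Acts f s g σ) (hh : Acts f s h σ) {x : G} (hx : x ∈ A f s) :
    g * x * g⁻¹ = h * x * h⁻¹ := by
  refine Subgroup.closure_induction (p := fun x _ => g * x * g⁻¹ = h * x * h⁻¹) ?_ ?_ ?_ ?_ hx
  · rintro _ ⟨i, rfl⟩
    rw [hg i, hh i]
  · group
  · intro a b _ _ h1 h2
    calc g * (a * b) * g⁻¹ = (g * a * g⁻¹) * (g * b * g⁻¹) := by group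
      _ = (h * a * h⁻¹) * (h * b * h⁻¹) := by rw [h1, h2]
      _ = _ := by group
  · intro a _ h1
    calc g * a⁻¹ * g⁻¹ = (g * a * g⁻¹)⁻¹ := by group
      _ = (h * a * h⁻¹)⁻¹ := by rw [h1]
      _ = _ := by group

theorem s_mem_A (h : TSp S 1 f s) : s ∈ A f s := by
  have h1 : tv f s 1 = s := by
    show f (qv 0) (qv 0)⁻¹ * s = s
    have : qv 0 = 1 := rfl
    rw [this, inv_one, h.f_one, one_mul]
  have h2 := tv_mem_A (f := f) (s := s) 1
  rwa [h1] at h2

theorem t_mem_A : f (z 1) 1 ∈ A f s := tv_mem_A (f := f) (s := s) 0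

theorem diag_mem_A (h : TSp S 1 f s) (β : Q 1) : f β β ∈ A f s := by
  rcases sq_cases β with rfl | rfl | hβ
  · rw [h.f_one]; exact (A f s).one_mem
  · rw [h.f_zz]; exact (A f s).one_mem
  · obtain ⟨i, hi⟩ := fs_mem_range h β
    have h1 : f β β⁻¹ * s ∈ A f s := by rw [hi]; exact tv_mem_A i
    have h2 := (A f s).mul_mem ((A f s).mul_mem h1 (s_mem_A h)) t_mem_A
    rw [mul_assoc (f β β⁻¹), h.s_s, mul_one, inv_of_sq_z hβ, ← h.f_one_z, h.f_mul, mul_one,
      ← z_comm, zz_mul] at h2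
    exact h2

theorem centralizer_le (h : TSp S 1 f s) {x : G} (hx : x ∈ S) (hxs : x * s = s * x) : x ∈ A f s := by
  have h1 : ∀ α β : Q 1, (α = β ∨ α = z 1 * β) → f α β ∈ A f s := by
    rintro α β (rfl | rfl)
    · exact diag_mem_A h _
    · have := (A f s).mul_mem t_mem_A (diag_mem_A h β)
      rwa [h.f_mul, one_mul] at this
  obtain ⟨α, β, hαβ, rfl | rfl⟩ := Cfsg.Agent.SylowSp4.CentA.cent_s_cases h hx hxs
  · exact h1 α β hαβ
  · exact (A f s).mul_mem (h1 α β hαβ) (s_mem_A h)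

end Main

section Final

variable {G : Type*} [Group G] [Finite G] {S : Sylow 2 G} {f : Q 1 → Q 1 → G} {s : G}

theorem eq_A_of_isConj (H : Fus (S : Subgroup G) 1 f s) {R : Subgroup G}
    (hR : (groupFusionSystem (S : Subgroup G)).IsConj (A f s) R) : R = A f s := by
  obtain ⟨φ, ⟨h1, h2, g, hg⟩, rfl⟩ := hR
  obtain ⟨σ, hσ⟩ := exists_acts H (g := g) (fun i => by
    have := h2 ⟨tv f s i, tv_mem_A i⟩
    rwa [hg] at this)
  apply Subgroup.eq_of_le_of_card_ge
  · rintro _ ⟨x, rfl⟩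
    rw [hg]
    exact hσ.conj_mem x.2
  · have hinj : Function.Injective φ := by
      intro x y hxy
      rw [hg, hg] at hxy
      exact Subtype.ext (mul_left_cancel (mul_right_cancel hxy))
    have : Nat.card (A f s) = Nat.card φ.range := Nat.card_congr (MonoidHom.ofInjective hinj).toEquiv
    rw [this]

theorem isFullyNormalized_A (H : Fus (S : Subgroup G) 1 f s) :
    (groupFusionSystem (S : Subgroup G)).IsFullyNormalized (A f s) :=
  ⟨A_le H.h, fun R hR => by rw [eq_A_of_isConj H hR]⟩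

theorem isCentric_A (H : Fus (S : Subgroup G) 1 f s) :
    (groupFusionSystem (S : Subgroup G)).IsCentric (A f s) :=
  ⟨A_le H.h, fun R hR => by
    rw [eq_A_of_isConj H hR]
    rintro x ⟨hx, hxc⟩
    exact centralizer_le H.h hx ((Subgroup.mem_centralizer_iff.1 hxc s (s_mem_A H.h)).symm)⟩

/-- the group generated by the 2-elements of `N_G(A)` -/
def K (f : Q 1 → Q 1 → G) (s : G) : Subgroup G :=
  Subgroup.closure {g : G | g ∈ Subgroup.normalizer (A f s : Set G) ∧ ∃ k : ℕ, orderOf g = 2 ^ k}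

theorem exists_pow_of_mem (S : Sylow 2 G) {g : G} (hg : g ∈ (S : Subgroup G)) : ∃ k : ℕ, orderOf g = 2 ^ k := by
  obtain ⟨j, hj⟩ := IsPGroup.iff_orderOf.1 S.isPGroup' ⟨g, hg⟩
  rw [Subgroup.orderOf_mk] at hj
  exact ⟨j, hj⟩

theorem gen_mem (H : Fus (S : Subgroup G) 1 f s) (i : Fin 3) : ∃ h ∈ K f s, Acts f s h (gen i) := by
  fin_cases i
  · obtain ⟨n, hn4, h1, h2, h3, h4, h5⟩ := H.nn rfl
    have hn : Acts f s n (gen 0) := by
      have h := H.h
      have hs1 : tv f s 1 = s := by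
        show f (qv 0) (qv 0)⁻¹ * s = s
        have : qv 0 = 1 := rfl
        rw [this, inv_one, h.f_one, one_mul]
      have htv : ∀ i : Fin 4, qv i * qv i = z 1 → tv f s i.succ = f (z 1) 1 * f (qv i) (qv i) * s := by
        intro i hi
        show f (qv i) (qv i)⁻¹ * s = _
        rw [inv_of_sq_z hi, ← h.f_one_z, h.f_mul, one_mul]
      have hst : s * f (z 1) 1 = f (z 1) 1 * s := (h.t_comm h.s_mem).symm
      have hsd : ∀ α, s * f α α = f α α * s := fun α => h.s_f α α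
      have htd : ∀ α β, f (z 1) 1 * f α β = f α β * f (z 1) 1 := fun α β => h.t_comm (h.f_mem α β)
      have key : ∀ (i j : Fin 4), qv i * qv i = z 1 → qv j * qv j = z 1 →
          n * f (qv i) (qv i) * n⁻¹ = f (qv j) (qv j) → n * tv f s i.succ * n⁻¹ = tv f s j.succ := by
        intro i j hi hj hij
        rw [htv i hi, htv j hj]
        calc n * (f (z 1) 1 * f (qv i) (qv i) * s) * n⁻¹ =
            (n * f (z 1) 1 * n⁻¹) * (n * f (qv i) (qv i) * n⁻¹) * (n * s * n⁻¹) := by group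
          _ = s * f (qv j) (qv j) * f (z 1) 1 := by rw [h1, h2, hij]
          _ = f (z 1) 1 * f (qv j) (qv j) * s := by
            rw [hsd, mul_assoc, hst, ← mul_assoc, ← htd]
      intro i
      fin_cases i
      · show n * tv f s 0 * n⁻¹ = tv f s (gen 0 0)
        have : gen 0 0 = 1 := by decide
        rw [this, hs1]
        exact h1
      · show n * tv f s 1 * n⁻¹ = tv f s (gen 0 1)
        have : gen 0 1 = 0 := by decide
        rw [this, hs1]
        exact h2
      · show n * tv f s (Fin.succ 1) * n⁻¹ = tv f s (gen 0 2)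
        have : gen 0 2 = Fin.succ 1 := by decide
        rw [this]
        exact key 1 1 (by decide +kernel) (by decide +kernel) h3
      · show n * tv f s (Fin.succ 2) * n⁻¹ = tv f s (gen 0 3)
        have : gen 0 3 = Fin.succ 3 := by decide
        rw [this]
        exact key 2 3 (by decide +kernel) (by decide +kernel) h4
      · show n * tv f s (Fin.succ 3) * n⁻¹ = tv f s (gen 0 4)
        have : gen 0 4 = Fin.succ 2 := by decide
        rw [this]
        exact key 3 2 (by decide +kernel) (by decide +kernel) h5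
    refine ⟨n, Subgroup.subset_closure ⟨hn.mem_normalizer, ?_⟩, hn⟩
    have : orderOf n ∣ 2 ^ 2 := orderOf_dvd_of_pow_eq_one (by rw [← hn4]; norm_num)
    obtain ⟨j, -, hj⟩ := (Nat.dvd_prime_pow Nat.prime_two).1 this
    exact ⟨j, hj⟩
  · exact ⟨_, Subgroup.subset_closure ⟨(acts_c H.h).mem_normalizer, exists_pow_of_mem S (H.h.f_mem _ _)⟩, acts_c H.h⟩
  · exact ⟨_, Subgroup.subset_closure ⟨(acts_x H.h).mem_normalizer, exists_pow_of_mem S (H.h.f_mem _ _)⟩, acts_x H.h⟩

theorem word_mem (H : Fus (S : Subgroup G) 1 f s) (l : List (Fin 3)) :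
    ∃ h ∈ K f s, Acts f s h (l.map gen).prod := by
  induction l with
  | nil => exact ⟨1, (K f s).one_mem, Acts.one⟩
  | cons i l ih =>
    obtain ⟨h, hh, h1⟩ := ih
    obtain ⟨g, hg, h2⟩ := gen_mem H i
    refine ⟨g * h, (K f s).mul_mem hg hh, ?_⟩
    rw [List.map_cons, List.prod_cons]
    exact h2.mul h1

theorem odd_mem (H : Fus (S : Subgroup G) 1 f s) {g : G}
    (hg : g ∈ Subgroup.normalizer ((S : Subgroup G) : Set G)) (ho : ¬ 2 ∣ orderOf g) :
    ∃ σ, Acts f s g σ ∧ ∃ h ∈ K f s, Acts f s h σ := by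
  obtain ⟨σ, hσ⟩ := exists_acts H (g := g) (fun i => (Subgroup.mem_normalizer_iff.1 hg _).1 (tv_mem H.h i))
  refine ⟨σ, hσ, ?_⟩
  have h0 : σ 0 = 0 := by
    apply tv_injective H.h
    rw [← hσ 0]
    exact norm_comm_t H.h hg
  have hone : ∀ τ, Acts f s (1 : G) τ → τ = 1 := by
    intro τ hτ
    ext i
    have := hτ i
    rw [one_mul, inv_one, mul_one] at this
    rw [← tv_injective H.h this, Perm.one_apply]
  have hpow : σ ^ orderOf g = 1 := by
    apply hone
    have := hσ.pow (orderOf g)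
    rwa [pow_orderOf_eq_one] at this
  have h3 : σ * σ * σ = 1 := by
    rcases perm_cases σ h0 with h3 | h3
    · exact h3
    · have h4 : σ ^ 2 ^ 2 = 1 := by
        rw [← h3, show (2 ^ 2 : ℕ) = 4 by norm_num]; simp only [pow_succ, pow_zero, one_mul, mul_assoc]
      have h5 : orderOf σ ∣ Nat.gcd (2 ^ 2) (orderOf g) :=
        Nat.dvd_gcd (orderOf_dvd_of_pow_eq_one h4) (orderOf_dvd_of_pow_eq_one hpow)
      have h6 : Nat.gcd (2 ^ 2) (orderOf g) = 1 :=
        Nat.Coprime.pow_left 2 ((Nat.Prime.coprime_iff_not_dvd Nat.prime_two).2 ho)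
      rw [h6, Nat.dvd_one, orderOf_eq_one_iff] at h5
      rw [h5]; simp
  obtain ⟨l, -, hl⟩ := words_spec σ h0 h3
  obtain ⟨h, hh, h1⟩ := word_mem H l
  exact ⟨h, hh, hl ▸ h1⟩

/-- The case `k = 1`. -/
theorem isSimple_one (H : Fus (S : Subgroup G) 1 f s) : (groupFusionSystem (S : Subgroup G)).IsSimple 2 := by
  refine Cfsg.Agent.H991.isSimple_of_group S ?_ ?_ ?_
  · intro hb
    apply H.h.t_ne_one
    have := H.h.f_mem (z 1) 1
    rw [hb, Subgroup.mem_bot] at this
    exact this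
  · intro T hT
    rw [Cfsg.Agent.H187.FusSelfNorm.stronglyClosed_iff] at hT
    exact closed H T hT.1 hT.2
  · intro α hα
    obtain ⟨g, -, hg⟩ := (Cfsg.Agent.H802.mem_autInducedBy_iff _ _ _).1 hα
    refine Subgroup.subset_closure ⟨?_, ?_⟩
    · rw [Cfsg.Agent.H991.autGroup_group le_rfl]
      exact hα
    · refine Or.inr ⟨A f s, isCentric_A H, ?_, ?_⟩
      · exact Cfsg.Agent.H802.isFullyAutomized_of_isFullyNormalized S.isPGroup'
          (Cfsg.Agent.H802.groupFusionSystem_isSaturated S) (isFullyNormalized_A H)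
      · have hgN : g ∈ Subgroup.normalizer ((S : Subgroup G) : Set G) := Cfsg.Agent.H802.mem_normalizer_of_aut hg
        obtain ⟨g₁, hg₁, g₂, hg₂, ho, rfl⟩ := decomp S hgN
        obtain ⟨σ, hσ, h₂, hh₂, h3⟩ := odd_mem H hg₂ ho
        have hg₁N : g₁ ∈ Subgroup.normalizer ((S : Subgroup G) : Set G) := Subgroup.le_normalizer hg₁
        obtain ⟨τ, hτ⟩ := exists_acts H (g := g₁) (fun i => (Subgroup.mem_normalizer_iff.1 hg₁N _).1 (tv_mem H.h i))
        have hK : g₁ * h₂ ∈ K f s :=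
          (K f s).mul_mem (Subgroup.subset_closure ⟨hτ.mem_normalizer, exists_pow_of_mem S hg₁⟩) hh₂
        obtain ⟨γ, hγ, h4⟩ := Cfsg.Agent.H991.conj_mem_closure (S := (S : Subgroup G)) (A_le H.h) hK
        refine ⟨γ, hγ, fun x => ?_⟩
        rw [h4, hg]
        exact (hτ.mul hσ).eq_on (hτ.mul h3) x.2

end Final

/-- **The 2-fusion system of a group with the fusion of `PSp_4(q)` is simple.** -/
theorem isSimple {G : Type*} [Group G] [Finite G] {S : Sylow 2 G} {k : ℕ} {f : Q k → Q k → G} {s : G}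
    (H : Fus (S : Subgroup G) k f s) : (groupFusionSystem (S : Subgroup G)).IsSimple 2 := by
  rcases Nat.lt_or_ge k 2 with hk | hk
  · have hk1 : k = 1 := by have := H.h.hk; omega
    subst hk1
    exact isSimple_one H
  · refine Cfsg.Agent.H187.FusSelfNorm.isSimple S ?_ ?_ ?_
    · intro g hg
      have hgN : g ∈ Subgroup.normalizer ((S : Subgroup G) : Set G) := by
        have hle : (S : Subgroup G).map (MulAut.conj g).toMonoidHom ≤ (S : Subgroup G) := by
          rintro _ ⟨x, hx, rfl⟩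
          exact hg x hx
        have heq : (S : Subgroup G).map (MulAut.conj g).toMonoidHom = (S : Subgroup G) := by
          apply Subgroup.eq_of_le_of_card_ge hle
          rw [Subgroup.card_map_of_injective (MulAut.conj g).injective]
        rw [Subgroup.mem_normalizer_iff]
        intro x
        constructor
        · exact hg x
        · intro hx
          rw [← heq] at hx
          obtain ⟨y, hy, hxy⟩ := hx
          have : x = y := (MulAut.conj g).injective hxy.symm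
          exact this ▸ hy
      obtain ⟨g₁, hg₁, g₂, hg₂, ho, rfl⟩ := decomp S hgN
      refine ⟨g₁, hg₁, fun x hx => ?_⟩
      have ho' : Odd (orderOf g₂) := by rw [Nat.odd_iff]; omega
      have h1 := odd_cent hk H.h hg₂ ho' x hx
      calc g₁ * g₂ * x * (g₁ * g₂)⁻¹ = g₁ * (g₂ * x) * g₂⁻¹ * g₁⁻¹ := by group
        _ = g₁ * x * g₁⁻¹ := by rw [h1]; group
    · intro hb
      apply H.h.t_ne_one
      have := H.h.f_mem (z k) 1
      rw [hb, Subgroup.mem_bot] at this
      exact this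
    · intro T hT
      rw [Cfsg.Agent.H187.FusSelfNorm.stronglyClosed_iff] at hT
      exact closed H T hT.1 hT.2

end Cfsg.Agent.H798.PSpFus
end

-- part: H798/PSpMat
section
/-!
# The fusion of involutions in `PSp_4(q)`, `q` odd (helper798)
-/

set_option autoImplicit false

namespace Cfsg.Agent.H798.PSpMat

open Matrix Cfsg.Agent.SylowSp4.Coord Cfsg.Agent.SylowSp4.Base Cfsg.Agent.SylowSp4.Facts
open Cfsg.Agent.SylowSp4.Recog (blk diag_add diag_mul blk_mul blk_one blk_mem blk_inj blk_smul emb emb_mul emb_one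
  emb_inv swM swM_mem swM_sq swM_blk sw sw_sq sw_emb emb_mem_center emb_neg_mem_center sw_not_center_mul card_PSp)
open Cfsg.Agent.H798.PSpFus

section Emb

variable {F : Type*} [Field F]

/-- `[[1, 1], [1, -1]] ⊗ B` -/
def hblk (B : Matrix (Fin 2) (Fin 2) F) : Matrix (Fin 2 ⊕ Fin 2) (Fin 2 ⊕ Fin 2) F :=
  fromBlocks !![B 0 0, B 0 0; B 0 0, -B 0 0] !![B 0 1, B 0 1; B 0 1, -B 0 1] !![B 1 0, B 1 0; B 1 0, -B 1 0]
    !![B 1 1, B 1 1; B 1 1, -B 1 1]

theorem hblk_blk (B X : Matrix (Fin 2) (Fin 2) F) : hblk B * blk X X = hblk (B * X) := by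
  rw [hblk, blk, fromBlocks_multiply, hblk]
  ext i j
  rcases i with i | i <;> rcases j with j | j <;> fin_cases i <;> fin_cases j <;>
    simp [Matrix.mul_apply, Fin.sum_univ_two, Matrix.vecMul_diagonal] <;> ring

theorem blk_hblk (B X : Matrix (Fin 2) (Fin 2) F) : blk X X * hblk B = hblk (X * B) := by
  rw [hblk, blk, fromBlocks_multiply, hblk]
  ext i j
  rcases i with i | i <;> rcases j with j | j <;> fin_cases i <;> fin_cases j <;>
    simp [Matrix.mul_apply, Fin.sum_univ_two, Matrix.vecMul_diagonal] <;> ring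

theorem hblk_hblk (B C : Matrix (Fin 2) (Fin 2) F) : hblk B * hblk C = blk ((2 : F) • (B * C)) ((2 : F) • (B * C)) := by
  rw [hblk, hblk, fromBlocks_multiply, blk]
  ext i j
  rcases i with i | i <;> rcases j with j | j <;> fin_cases i <;> fin_cases j <;>
    simp [Matrix.mul_apply, Fin.sum_univ_two, Matrix.vecMul_diagonal] <;> ring

theorem hblk_t (B : Matrix (Fin 2) (Fin 2) F) : hblk B * blk (-1) 1 = blk (-1) (-1) * (swM * hblk B) := by
  rw [hblk, blk, blk, swM, fromBlocks_multiply, fromBlocks_multiply, fromBlocks_multiply]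
  ext i j
  rcases i with i | i <;> rcases j with j | j <;> fin_cases i <;> fin_cases j <;>
    simp [Matrix.mul_apply, Fin.sum_univ_two, Matrix.vecMul_diagonal]

theorem hblk_s (B : Matrix (Fin 2) (Fin 2) F) : hblk B * swM = blk 1 (-1) * hblk B := by
  rw [hblk, blk, swM, fromBlocks_multiply, fromBlocks_multiply]
  ext i j
  rcases i with i | i <;> rcases j with j | j <;> fin_cases i <;> fin_cases j <;>
    simp [Matrix.mul_apply, Fin.sum_univ_two, Matrix.vecMul_diagonal]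

theorem hblk_mem {B : Matrix (Fin 2) (Fin 2) F} (hB : 2 * B.det = 1) :
    hblk B ∈ symplecticGroup (Fin 2) F := by
  rw [det_fin_two] at hB
  rw [hblk, SymplecticGroup.fromBlocks_mem_iff]
  refine ⟨?_, ?_, ?_⟩
  · ext i j
    fin_cases i <;> fin_cases j <;> simp [Matrix.mul_apply, Fin.sum_univ_two, Matrix.vecMul_diagonal] <;> ring
  · ext i j
    fin_cases i <;> fin_cases j <;> simp [Matrix.mul_apply, Fin.sum_univ_two, Matrix.vecMul_diagonal] <;> ring
  · ext i j
    fin_cases i <;> fin_cases j <;> simp [Matrix.mul_apply, Fin.sum_univ_two, Matrix.vecMul_diagonal] <;> linear_combination hB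

end Emb

section PSp

variable {F : Type*} [Field F] [Fintype F]

/-- A Sylow 2-subgroup of `PSp_4(q)` with coordinates. -/
theorem exists_sylow (hF : Odd (Fintype.card F)) (P2 : Sylow 2 (SpecialLinearGroup (Fin 2) F)) {k : ℕ} (hk : 1 ≤ k)
    (e : (P2 : Subgroup (SpecialLinearGroup (Fin 2) F)) ≃* Q k) :
    ∃ S : Sylow 2 (Cfsg.PSp 2 F),
      TSp (S : Subgroup (Cfsg.PSp 2 F)) k (fun a b => (QuotientGroup.mk (emb ((e.symm a : P2) : SpecialLinearGroup (Fin 2) F)
      ((e.symm b : P2) : SpecialLinearGroup (Fin 2) F)) : Cfsg.PSp 2 F)) (QuotientGroup.mk sw : Cfsg.PSp 2 F) := by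
  classical
  have h2 : (2 : F) ≠ 0 := (ClassicalGeometry.PSL2Basic.two_ne_zero_iff_odd F).2 hF
  -- the central involution
  have hz : ((e.symm (z k) : P2) : SpecialLinearGroup (Fin 2) F).1 = -1 := by
    have h3 : (e.symm (z k)) * (e.symm (z k)) = 1 := by rw [← map_mul, z_mul_z, map_one]
    have h4 : ((e.symm (z k) : P2) : SpecialLinearGroup (Fin 2) F).1 *
        ((e.symm (z k) : P2) : SpecialLinearGroup (Fin 2) F).1 = 1 :=
      congrArg (fun x : (P2 : Subgroup (SpecialLinearGroup (Fin 2) F)) => (x : SpecialLinearGroup (Fin 2) F).1) h3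
    rcases S0268.eq_one_or_neg_one h2 _ ((e.symm (z k) : P2) : SpecialLinearGroup (Fin 2) F).2 h4 with h5 | h5
    · exfalso
      apply z_ne_one (k := k)
      have h6 : e.symm (z k) = 1 := Subtype.ext (Subtype.ext h5)
      rw [← map_one e.symm] at h6
      exact e.symm.injective h6
    · exact h5
  have hneg : ∀ a b : Q k, (((e.symm a : P2) : SpecialLinearGroup (Fin 2) F)⁻¹ *
      ((e.symm b : P2) : SpecialLinearGroup (Fin 2) F)).1 = -1 → a = z k * b := by
    intro a b hab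
    have h3 : ((e.symm a : P2) : SpecialLinearGroup (Fin 2) F)⁻¹ * ((e.symm b : P2) : SpecialLinearGroup (Fin 2) F) =
        ((e.symm (z k) : P2) : SpecialLinearGroup (Fin 2) F) := Subtype.ext (by rw [hab, hz])
    have h4 : (e.symm a)⁻¹ * e.symm b = e.symm (z k) := Subtype.ext h3
    rw [← map_inv, ← map_mul] at h4
    have h5 := e.symm.injective h4
    have h6 : b = a * z k := by rw [← h5, mul_inv_cancel_left]
    rw [h6, ← z_comm, zz_mul]
  have hone : ∀ a b : Q k, ((e.symm a : P2) : SpecialLinearGroup (Fin 2) F)⁻¹ *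
      ((e.symm b : P2) : SpecialLinearGroup (Fin 2) F) = 1 → a = b := by
    intro a b hab
    have h4 : (e.symm a)⁻¹ * e.symm b = 1 := Subtype.ext hab
    exact e.symm.injective (inv_mul_eq_one.1 h4)
  obtain ⟨S, hS⟩ := exists_TSp (G := Cfsg.PSp 2 F) hk
    (f := fun a b => (QuotientGroup.mk (emb ((e.symm a : P2) : SpecialLinearGroup (Fin 2) F)
      ((e.symm b : P2) : SpecialLinearGroup (Fin 2) F)) : Cfsg.PSp 2 F))
    (s := (QuotientGroup.mk sw : Cfsg.PSp 2 F))
    (by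
      intro a b c d
      change (QuotientGroup.mk (_ * _) : Cfsg.PSp 2 F) = _
      rw [emb_mul, map_mul, map_mul]
      rfl)
    ((QuotientGroup.eq_one_iff _).2 (emb_neg_mem_center hz hz))
    (by
      intro a b c d hh
      rw [QuotientGroup.eq, emb_inv, emb_mul] at hh
      rcases emb_mem_center hh with ⟨h3, h4⟩ | ⟨h3, h4⟩
      · exact Or.inl ⟨hone _ _ h3, hone _ _ h4⟩
      · exact Or.inr ⟨hneg _ _ h3, hneg _ _ h4⟩)
    (by
      change (QuotientGroup.mk (sw * sw) : Cfsg.PSp 2 F) = _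
      rw [sw_sq]
      rfl)
    (by
      intro a b
      change (QuotientGroup.mk (sw * _) : Cfsg.PSp 2 F) = QuotientGroup.mk (_ * sw)
      rw [sw_emb])
    (by
      intro a b hh
      rw [QuotientGroup.eq] at hh
      exact sw_not_center_mul hh)
  have hcard := card_eq hS
  have hP2card : Nat.card (P2 : Subgroup (SpecialLinearGroup (Fin 2) F)) = 2 ^ (k + 2) := by
    rw [Nat.card_congr e.toEquiv, card_Q]
  have hidx : ¬ 2 ∣ S.index := by
    have h3 := S.card_mul_index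
    have h4 := card_PSp hF
    have h5 := (P2 : Subgroup (SpecialLinearGroup (Fin 2) F)).card_mul_index
    have h6 := P2.not_dvd_index
    rw [hP2card, ClassicalGeometry.PSL2Basic.card_SL2] at h5
    rw [← h3, hcard] at h4
    set q := Fintype.card F with hq
    set m := (P2 : Subgroup (SpecialLinearGroup (Fin 2) F)).index with hm
    obtain ⟨r, hr⟩ := hF
    obtain ⟨l, hl⟩ : Odd m := Nat.not_even_iff_odd.1 (fun h => h6 h.two_dvd)
    have hq1 : 1 ≤ q := by omega
    have h7 : q ^ 4 - 1 = (q ^ 2 - 1) * (q ^ 2 + 1) := by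
      have : 1 ≤ q ^ 2 := Nat.one_le_pow _ _ hq1
      zify [this, Nat.one_le_pow 4 q hq1]
      ring
    have h8 : q ^ 2 + 1 = 2 * (2 * (r * r + r) + 1) := by rw [hr]; ring
    have h9 : 2 ^ (2 * k + 4) * 2 * S.index = 2 ^ (2 * k + 4) * 2 * (q ^ 2 * m ^ 2 * (2 * (r * r + r) + 1)) := by
      have e1 : q ^ 4 * ((q ^ 2 - 1) * (q ^ 4 - 1)) = q ^ 2 * (q * (q ^ 2 - 1)) ^ 2 * (q ^ 2 + 1) := by
        rw [h7]; ring
      rw [e1, ← h5, h8] at h4
      have e2 : (2 : ℕ) ^ (2 * k + 4) = (2 ^ (k + 2)) ^ 2 := by rw [← pow_mul]; congr 1; ring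
      rw [e2] at h4 ⊢
      linear_combination h4
    have h10 := Nat.eq_of_mul_eq_mul_left (by positivity) h9
    have h11 : Odd S.index := by
      rw [h10, hl, hr]
      apply Odd.mul
      · apply Odd.mul
        · exact Odd.pow ⟨r, rfl⟩
        · exact Odd.pow ⟨l, rfl⟩
      · exact ⟨r * r + r, rfl⟩
    intro h12
    exact Nat.not_even_iff_odd.2 h11 (even_iff_two_dvd.2 h12)
  have hp : IsPGroup 2 S := IsPGroup.of_card hcard
  exact ⟨hp.toSylow hidx, hS⟩


/-- equal classes have equal squares up to nothing: `X = ± Y` -/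
theorem sq_eq_of_mk {X Y : symplecticGroup (Fin 2) F}
    (h : (QuotientGroup.mk X : Cfsg.PSp 2 F) = QuotientGroup.mk Y) : X * X = Y * Y := by
  rw [QuotientGroup.eq] at h
  set c := X⁻¹ * Y with hc
  have hY : Y = X * c := by rw [hc]; group
  have hcc : c * c = 1 := by
    obtain ⟨a, ha⟩ := (LieClassical.SympCenter.mem_center_iff 2 _).1 h
    have h1 := c.2
    rw [SymplecticGroup.mem_iff, ha] at h1
    have h2 := congrFun (congrFun h1 (Sum.inr 0)) (Sum.inl 0)
    simp [J] at h2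
    apply Subtype.ext
    show c.1 * c.1 = 1
    rw [ha, smul_mul_smul_comm, h2, one_smul, one_mul]
  have hcomm := (Subgroup.mem_center_iff.1 h) X
  calc X * X = X * X * (c * c) := by rw [hcc, mul_one]
    _ = X * (X * c) * c := by group
    _ = X * (c * X) * c := by rw [hcomm]
    _ = Y * Y := by rw [hY]; group

/-- the element `n` -/
theorem exists_n (h2 : (2 : F) ≠ 0) {k : ℕ} (hk : 1 ≤ k) (j : Q k →* SpecialLinearGroup (Fin 2) F)
    (hz : j (z k) = -1) :
    ∃ n : symplecticGroup (Fin 2) F, n * n = emb (j (c k)) (j (c k)) ∧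
      n * emb (j (z k)) (j 1) = emb (j (z k)) (j (z k)) * (sw * n) ∧
      n * sw = emb (j 1) (j (z k)) * n ∧
      ∀ α β : Q k, (1 + (j (c k)).1) * (j α).1 = (j β).1 * (1 + (j (c k)).1) →
        n * emb (j α) (j α) = emb (j β) (j β) * n := by
  have hcc : j (c k) * j (c k) = -1 := by rw [← map_mul, c_sq hk, hz]
  have hcc' : (j (c k)).1 * (j (c k)).1 = -1 := congrArg Subtype.val hcc
  have htr := ClassicalGeometry.SLTwoFour.trace_of_mul_self (j (c k)) hcc
  have hdet : (j (c k)).1.det = 1 := (j (c k)).2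
  have hz' : (j (z k)).1 = -1 := by rw [hz]; rfl
  have h1' : (j 1).1 = 1 := by rw [map_one]; rfl
  set C : Matrix (Fin 2) (Fin 2) F := (j (c k)).1 with hC
  set B : Matrix (Fin 2) (Fin 2) F := (2 : F)⁻¹ • (1 + C) with hB
  have hBdet : 2 * B.det = 1 := by
    rw [hB, det_smul, Fintype.card_fin, det_fin_two]
    rw [det_fin_two] at hdet
    simp only [Matrix.add_apply, Matrix.one_apply_eq, Matrix.one_apply_ne (show (0 : Fin 2) ≠ 1 by decide),
      Matrix.one_apply_ne (show (1 : Fin 2) ≠ 0 by decide)]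
    have htr' : C 0 0 + C 1 1 = 0 := htr
    field_simp
    linear_combination htr' + hdet
  refine ⟨⟨hblk B, hblk_mem hBdet⟩, ?_, ?_, ?_, ?_⟩
  · apply Subtype.ext
    show hblk B * hblk B = blk (j (c k)).1 (j (c k)).1
    rw [hblk_hblk]
    have : (2 : F) • (B * B) = C := by
      rw [hB, smul_mul_smul_comm, add_mul, mul_add, mul_add, hcc', one_mul, mul_one, one_mul, smul_smul]
      have e1 : (1 : Matrix (Fin 2) (Fin 2) F) + C + (C + -1) = (2 : F) • C := by
        rw [two_smul]; abel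
      rw [e1, smul_smul]
      have e2 : (2 : F) * ((2 : F)⁻¹ * (2 : F)⁻¹) * 2 = 1 := by field_simp
      rw [e2, one_smul]
    rw [this]
  · apply Subtype.ext
    show hblk B * blk (j (z k)).1 (j 1).1 = blk (j (z k)).1 (j (z k)).1 * (swM * hblk B)
    rw [hz', h1', hblk_t]
  · apply Subtype.ext
    show hblk B * swM = blk (j 1).1 (j (z k)).1 * hblk B
    rw [hz', h1', hblk_s]
  · intro α β hαβ
    apply Subtype.ext
    show hblk B * blk (j α).1 (j α).1 = blk (j β).1 (j β).1 * hblk B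
    rw [hblk_blk, blk_hblk, hB, smul_mul_assoc, hαβ, mul_smul_comm]

theorem fus (hF : Odd (Fintype.card F)) (P2 : Sylow 2 (SpecialLinearGroup (Fin 2) F)) {k : ℕ} (hk : 1 ≤ k)
    (e : (P2 : Subgroup (SpecialLinearGroup (Fin 2) F)) ≃* Q k) :
    ∃ S : Sylow 2 (Cfsg.PSp 2 F), Fus (S : Subgroup (Cfsg.PSp 2 F)) k
      (fun a b => (QuotientGroup.mk (emb ((e.symm a : P2) : SpecialLinearGroup (Fin 2) F)
      ((e.symm b : P2) : SpecialLinearGroup (Fin 2) F)) : Cfsg.PSp 2 F)) (QuotientGroup.mk sw : Cfsg.PSp 2 F) := by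
  classical
  obtain ⟨S, hS⟩ := exists_sylow hF P2 hk e
  refine ⟨S, ?_⟩
  have h2 : (2 : F) ≠ 0 := (ClassicalGeometry.PSL2Basic.two_ne_zero_iff_odd F).2 hF
  -- the embedding of `Q k` in `SL_2`
  obtain ⟨j, hj⟩ : ∃ j : Q k →* SpecialLinearGroup (Fin 2) F, ∀ a, j a = ((e.symm a : P2) : SpecialLinearGroup (Fin 2) F) :=
    ⟨(P2 : Subgroup (SpecialLinearGroup (Fin 2) F)).subtype.comp e.symm.toMonoidHom, fun a => rfl⟩
  have hjinj : Function.Injective j := by
    intro a b hab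
    rw [hj, hj] at hab
    exact e.symm.injective (Subtype.ext hab)
  have hz : j (z k) = -1 := by
    have h4 : (j (z k)).1 * (j (z k)).1 = 1 := by
      have : j (z k) * j (z k) = 1 := by rw [← map_mul, z_mul_z, map_one]
      exact congrArg Subtype.val this
    rcases S0268.eq_one_or_neg_one h2 _ (j (z k)).2 h4 with h5 | h5
    · exfalso
      apply z_ne_one (k := k)
      apply hjinj
      rw [map_one]
      exact Subtype.ext h5
    · exact Subtype.ext (by rw [h5]; rfl)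
  simp only [← hj] at hS ⊢
  have hroot : ∀ {α : Q k}, α * α = z k → j α * j α = -1 := by
    intro α hα
    rw [← map_mul, hα, hz]
  have hneg : ∀ x : SpecialLinearGroup (Fin 2) F, x * -1 = -1 * x := by
    intro x
    rw [mul_neg, neg_mul, one_mul, mul_one]
  have hm1 : emb (-1 : SpecialLinearGroup (Fin 2) F) (-1) ≠ 1 := by
    intro h
    have h3 : blk ((-1 : SpecialLinearGroup (Fin 2) F) : Matrix (Fin 2) (Fin 2) F)
      ((-1 : SpecialLinearGroup (Fin 2) F) : Matrix (Fin 2) (Fin 2) F) = 1 := congrArg Subtype.val h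
    rw [← blk_one] at h3
    obtain ⟨h4, -⟩ := blk_inj h3
    have h5 := congrFun (congrFun h4 0) 0
    simp at h5
    apply h2
    linear_combination -h5
  refine ⟨hS, ?_, ?_, ?_, ?_, ?_⟩
  · -- conjugacy of roots
    intro α β γ δ hα hβ hγ hδ
    have hcj : ∀ {a b : Q k}, a * a = z k → b * b = z k → ∃ g, g * j a * g⁻¹ = j b := by
      intro a b ha hb
      obtain ⟨g, hg⟩ := ClassicalGeometry.SLTwoFour.exists_conj_w hF (j a) (hroot ha)
      obtain ⟨g', hg'⟩ := ClassicalGeometry.SLTwoFour.exists_conj_w hF (j b) (hroot hb)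
      refine ⟨g' * g⁻¹, ?_⟩
      rw [← hg, ← hg']
      group
    obtain ⟨g1, hg1⟩ := hcj hα hγ
    obtain ⟨g2, hg2⟩ := hcj hβ hδ
    refine ⟨QuotientGroup.mk (emb g1 g2), ?_⟩
    show (QuotientGroup.mk (emb g1 g2 * emb (j α) (j β) * (emb g1 g2)⁻¹) : Cfsg.PSp 2 F) = _
    rw [emb_inv, emb_mul, emb_mul, hg1, hg2]
  · intro g α β hα hβ h
    obtain ⟨g, rfl⟩ := QuotientGroup.mk_surjective g
    have h3 : (QuotientGroup.mk (g * emb (j (z k)) (j 1) * g⁻¹) : Cfsg.PSp 2 F) =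
      QuotientGroup.mk (emb (j α) (j β)) := h
    have h4 := sq_eq_of_mk h3
    rw [emb_mul, hroot hα, hroot hβ] at h4
    apply hm1
    rw [← h4]
    calc g * emb (j (z k)) (j 1) * g⁻¹ * (g * emb (j (z k)) (j 1) * g⁻¹) =
        g * (emb (j (z k)) (j 1) * emb (j (z k)) (j 1)) * g⁻¹ := by group
      _ = 1 := by
        rw [emb_mul, ← map_mul, ← map_mul, z_mul_z, one_mul, map_one, emb_one]
        group
  · intro g α h
    obtain ⟨g, rfl⟩ := QuotientGroup.mk_surjective g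
    have h3 : (QuotientGroup.mk (g * emb (j (z k)) (j 1) * g⁻¹) : Cfsg.PSp 2 F) =
      QuotientGroup.mk (emb (j (z k * α)) (j α⁻¹) * sw) := h
    have h4 := sq_eq_of_mk h3
    have h5 : emb (j (z k * α)) (j α⁻¹) * sw * (emb (j (z k * α)) (j α⁻¹) * sw) =
        emb (-1 : SpecialLinearGroup (Fin 2) F) (-1) := by
      calc emb (j (z k * α)) (j α⁻¹) * sw * (emb (j (z k * α)) (j α⁻¹) * sw) =
          emb (j (z k * α)) (j α⁻¹) * (sw * emb (j (z k * α)) (j α⁻¹)) * sw := by group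
        _ = emb (j (z k * α)) (j α⁻¹) * emb (j α⁻¹) (j (z k * α)) * (sw * sw) := by rw [sw_emb]; group
        _ = _ := by
          rw [sw_sq, mul_one, emb_mul, ← map_mul, ← map_mul, mul_inv_cancel_right, z_comm, inv_mul_cancel_left, hz]
    rw [h5] at h4
    apply hm1
    rw [← h4]
    calc g * emb (j (z k)) (j 1) * g⁻¹ * (g * emb (j (z k)) (j 1) * g⁻¹) =
        g * (emb (j (z k)) (j 1) * emb (j (z k)) (j 1)) * g⁻¹ := by group
      _ = 1 := by
        rw [emb_mul, ← map_mul, ← map_mul, z_mul_z, one_mul, map_one, emb_one]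
        group
  · obtain ⟨n, -, h1, -⟩ := exists_n h2 hk j hz
    refine ⟨QuotientGroup.mk n, ?_⟩
    rw [mul_inv_eq_iff_eq_mul]
    show (QuotientGroup.mk (n * emb (j (z k)) (j 1)) : Cfsg.PSp 2 F) = QuotientGroup.mk (sw * n)
    rw [h1]
    show (QuotientGroup.mk (emb (j (z k)) (j (z k))) : Cfsg.PSp 2 F) * QuotientGroup.mk (sw * n) = _
    rw [hS.f_zz, one_mul]
  · rintro rfl
    obtain ⟨n, h0, h1, h1', h3⟩ := exists_n h2 hk j hz
    have hc : c 1 * c 1 = z 1 := c_sq le_rfl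
    have hjm : ∀ a b : Q 1, (j a).1 * (j b).1 = (j (a * b)).1 := fun a b => (congrArg Subtype.val (map_mul j a b)).symm
    have hcxc : c 1 * QuaternionGroup.xa 0 * c 1 = (QuaternionGroup.xa 0 : Q 1) := by decide +kernel
    have hccx : c 1 * (c 1 * QuaternionGroup.xa 0) = z 1 * (QuaternionGroup.xa 0 : Q 1) := by decide +kernel
    have hzxc : z 1 * (QuaternionGroup.xa 0 : Q 1) * c 1 = c 1 * QuaternionGroup.xa 0 := by decide +kernel
    refine ⟨QuotientGroup.mk n, ?_, ?_, ?_, ?_, ?_, ?_⟩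
    · have h4 : (QuotientGroup.mk n : Cfsg.PSp 2 F) * QuotientGroup.mk n = QuotientGroup.mk (emb (j (c 1)) (j (c 1))) := by
        rw [← h0]; rfl
      have h5 : (QuotientGroup.mk (emb (j (c 1)) (j (c 1))) : Cfsg.PSp 2 F) * QuotientGroup.mk (emb (j (c 1)) (j (c 1))) = 1 := by
        rw [← hS.f_zz]
        show (QuotientGroup.mk (emb (j (c 1)) (j (c 1)) * emb (j (c 1)) (j (c 1))) : Cfsg.PSp 2 F) = _
        rw [emb_mul, ← map_mul, hc]
      calc (QuotientGroup.mk n : Cfsg.PSp 2 F) ^ 4 = (QuotientGroup.mk n * QuotientGroup.mk n) *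
            (QuotientGroup.mk n * QuotientGroup.mk n) := by
              simp only [pow_succ, pow_zero, one_mul, mul_assoc]
        _ = 1 := by rw [h4, h5]
    · rw [mul_inv_eq_iff_eq_mul]
      show (QuotientGroup.mk (n * emb (j (z 1)) (j 1)) : Cfsg.PSp 2 F) = QuotientGroup.mk (sw * n)
      rw [h1]
      show (QuotientGroup.mk (emb (j (z 1)) (j (z 1))) : Cfsg.PSp 2 F) * QuotientGroup.mk (sw * n) = _
      rw [hS.f_zz, one_mul]
    · rw [mul_inv_eq_iff_eq_mul]
      show (QuotientGroup.mk (n * sw) : Cfsg.PSp 2 F) = QuotientGroup.mk (emb (j (z 1)) (j 1)) * QuotientGroup.mk n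
      rw [h1', ← hS.f_one_z]
      rfl
    · rw [mul_inv_eq_iff_eq_mul]
      show (QuotientGroup.mk (n * emb (j (c 1)) (j (c 1))) : Cfsg.PSp 2 F) =
        QuotientGroup.mk (emb (j (c 1)) (j (c 1)) * n)
      rw [h3 (c 1) (c 1) (by rw [add_mul, mul_add, one_mul, mul_one])]
    · rw [mul_inv_eq_iff_eq_mul]
      show (QuotientGroup.mk (n * emb (j (QuaternionGroup.xa 0)) (j (QuaternionGroup.xa 0))) : Cfsg.PSp 2 F) =
        QuotientGroup.mk (emb (j (c 1 * QuaternionGroup.xa 0)) (j (c 1 * QuaternionGroup.xa 0)) * n)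
      rw [h3 (QuaternionGroup.xa 0) (c 1 * QuaternionGroup.xa 0) (by
        rw [add_mul, mul_add, one_mul, mul_one, hjm, hjm, hcxc, add_comm])]
    · rw [mul_inv_eq_iff_eq_mul]
      have e1 : (QuotientGroup.mk (emb (j (QuaternionGroup.xa 0)) (j (QuaternionGroup.xa 0))) : Cfsg.PSp 2 F) =
          QuotientGroup.mk (emb (j (z 1 * QuaternionGroup.xa 0)) (j (z 1 * QuaternionGroup.xa 0))) :=
        (hS.f_z_mul _ _).symm
      rw [e1]
      show (QuotientGroup.mk (n * emb (j (c 1 * QuaternionGroup.xa 0)) (j (c 1 * QuaternionGroup.xa 0))) : Cfsg.PSp 2 F) =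
        QuotientGroup.mk (emb (j (z 1 * QuaternionGroup.xa 0)) (j (z 1 * QuaternionGroup.xa 0)) * n)
      rw [h3 (c 1 * QuaternionGroup.xa 0) (z 1 * QuaternionGroup.xa 0) (by
        rw [add_mul, mul_add, one_mul, mul_one, hjm, hjm, hccx, hzxc, add_comm])]

end PSp

/-! ### All Sylow subgroups -/

/-- Transport of the coordinates and the fusion along an isomorphism. -/
theorem _root_.Cfsg.Agent.H798.PSpFus.Fus.map {G G' : Type*} [Group G] [Group G'] {S : Subgroup G} {k : ℕ}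
    {f : Q k → Q k → G} {s : G} (H : Fus S k f s) (e : G ≃* G') :
    Fus (S.map e.toMonoidHom) k (fun a b => e (f a b)) (e s) := by
  have hc : ∀ g x : G, e g * e x * (e g)⁻¹ = e (g * x * g⁻¹) := fun g x => by rw [map_mul, map_mul, map_inv]
  refine ⟨⟨H.h.hk, ?_, ?_, ?_, ?_, ?_, ?_, ?_⟩, ?_, ?_, ?_, ?_, ?_⟩
  · intro a b c d
    rw [← map_mul, H.h.f_mul]
  · rw [H.h.f_zz, map_one]
  · intro a b c d h
    exact H.h.f_inj _ _ _ _ (e.injective h)
  · rw [← map_mul, H.h.s_s, map_one]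
  · intro a b
    rw [← map_mul, H.h.s_f, map_mul]
  · intro a b h
    exact H.h.s_ne a b (e.injective h)
  · intro g
    constructor
    · rintro ⟨x, hx, rfl⟩
      rcases (H.h.mem_iff x).1 hx with ⟨a, b, rfl⟩ | ⟨a, b, rfl⟩
      · exact Or.inl ⟨a, b, rfl⟩
      · exact Or.inr ⟨a, b, map_mul e _ _⟩
    · rintro (⟨a, b, rfl⟩ | ⟨a, b, rfl⟩)
      · exact ⟨_, H.h.f_mem a b, rfl⟩
      · exact ⟨_, H.h.fs_mem a b, map_mul e _ _⟩
  · intro α β γ δ h1 h2 h3 h4
    obtain ⟨g, hg⟩ := H.uu α β γ δ h1 h2 h3 h4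
    exact ⟨e g, by rw [hc, hg]⟩
  · intro g α β h1 h2 h
    obtain ⟨g, rfl⟩ := e.surjective g
    rw [hc] at h
    exact H.nu g α β h1 h2 (e.injective h)
  · intro g α h
    obtain ⟨g, rfl⟩ := e.surjective g
    rw [hc, ← map_mul] at h
    exact H.nus g α (e.injective h)
  · obtain ⟨g, hg⟩ := H.ts
    exact ⟨e g, by rw [hc, hg]⟩
  · intro hk
    obtain ⟨n, h0, h1, h2, h3, h4, h5⟩ := H.nn hk
    refine ⟨e n, by rw [← map_pow, h0, map_one], ?_, ?_, ?_, ?_, ?_⟩
    · rw [hc, h1]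
    · rw [hc, h2]
    · rw [hc, h3]
    · rw [hc, h4]
    · rw [hc, h5]

/-- **Every Sylow 2-subgroup of `PSp_4(q)`, `q` odd, has coordinates with the fusion `Fus`.** -/
theorem exists_fus {F : Type*} [Field F] [Fintype F] (hF : Odd (Fintype.card F)) (S : Sylow 2 (Cfsg.PSp 2 F)) :
    ∃ (k : ℕ) (f : Q k → Q k → Cfsg.PSp 2 F) (s : Cfsg.PSp 2 F), Fus (S : Subgroup (Cfsg.PSp 2 F)) k f s := by
  classical
  have P2 : Sylow 2 (SpecialLinearGroup (Fin 2) F) := default
  obtain ⟨k, hk, ⟨e⟩⟩ := S0261.result hF P2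
  obtain ⟨S', H⟩ := fus hF P2 hk e
  obtain ⟨g, hg⟩ := MulAction.exists_smul_eq (Cfsg.PSp 2 F) S' S
  have h1 := H.map (MulAut.conj g)
  have h2 : (S' : Subgroup (Cfsg.PSp 2 F)).map (MulAut.conj g).toMonoidHom = (S : Subgroup (Cfsg.PSp 2 F)) := by
    rw [← hg]
    rfl
  rw [h2] at h1
  exact ⟨k, _, _, h1⟩

end Cfsg.Agent.H798.PSpMat
end

-- part: S5320
section
set_option autoImplicit false
open Cfsg

namespace Cfsg.Agent.S5320

/-- For a finite field F of odd order, the 2-fusion system of the projective symplectic group PSp(4,F) on a Sylow 2-subgroup is simple. -/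
theorem result {F : Type*} [Field F] [Fintype F] (hodd : Fintype.card F % 2 = 1) (S : Sylow 2 (Cfsg.PSp 2 F)) :
    (Cfsg.groupFusionSystem (S : Subgroup (Cfsg.PSp 2 F))).IsSimple 2 := by
  classical
  have hfin : Finite (Cfsg.PSp 2 F) := inferInstanceAs (Finite (_ ⧸ _))
  obtain ⟨k, f, s, H⟩ := Cfsg.Agent.H798.PSpMat.exists_fus (Nat.odd_iff.2 hodd) S
  exact Cfsg.Agent.H798.PSpFus.isSimple H

end Cfsg.Agent.S5320
end
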