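import Mathlib.GroupTheory.GroupAction.Basic
import Mathlib.GroupTheory.GroupAction.Quotient
import Mathlib.GroupTheory.Coset.Card
import Mathlib.Data.Set.Card
import Mathlib.SetTheory.Cardinal.Finite
import Mathlib.Tactic
import Cfsg.Prelude.Def_FusionSystem
import Cfsg.Statements.S5328
set_option linter.all false

-- part: H800/Marks
section
/-!
# Finite G-sets with equal marks are isomorphic

`Cfsg.Agent.H800.Marks.exists_equiv`: let a finite group `H` act on the finite sets `X` and `Y` (actions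
given as homomorphisms `ρ : H →* Equiv.Perm X` and `σ : H →* Equiv.Perm Y`). If every subgroup of `H` has
equally many fixed points on `X` and on `Y`, then there is an equivariant bijection from `X` to `Y`.

`Cfsg.Agent.H800.Marks.exists_action`: for every family `𝒟` of subgroups of a finite group `G` closed under
subgroups and conjugation there is a finite `G`-set whose point stabilizers are in `𝒟` and in which the number of
fixed points of `E ∈ 𝒟` is positive and depends on the order of `E` only.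
-/

set_option autoImplicit false

universe u v w

namespace Cfsg.Agent.H800.Marks

section equiv

variable {H : Type u} {X : Type v} {Y : Type w} [Group H] (ρ : H →* Equiv.Perm X) (σ : H →* Equiv.Perm Y)

/-- The elements of `H` fixing `x` under `ρ`. -/
def stab (x : X) : Subgroup H where
  carrier := {h | ρ h x = x}
  mul_mem' {a b} ha hb := by
    show ρ (a * b) x = x
    rw [map_mul, Equiv.Perm.mul_apply]
    have h1 : ρ b x = x := hb
    have h2 : ρ a x = x := ha
    rw [h1, h2]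
  one_mem' := by
    show ρ 1 x = x
    rw [map_one]; rfl
  inv_mem' {a} ha := by
    show ρ a⁻¹ x = x
    have h2 : ρ a x = x := ha
    rw [map_inv, Equiv.Perm.inv_eq_iff_eq]
    exact h2.symm

theorem mem_stab {x : X} {h : H} : h ∈ stab ρ x ↔ ρ h x = x := Iff.rfl

/-- The fixed points of the subgroup `E` in the set `A`. -/
def fix (A : Set X) (E : Subgroup H) : Set X := {x | x ∈ A ∧ ∀ e ∈ E, ρ e x = x}

/-- The orbit of `x`. -/
def orb (x : X) : Set X := Set.range fun h : H => ρ h x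

theorem orb_smul {x y : X} (g : H) : ρ g y ∈ orb ρ x ↔ y ∈ orb ρ x := by
  constructor
  · rintro ⟨h, hh⟩
    refine ⟨g⁻¹ * h, ?_⟩
    show ρ (g⁻¹ * h) x = y
    rw [map_mul, Equiv.Perm.mul_apply]
    have : ρ h x = ρ g y := hh
    rw [this, map_inv]
    simp
  · rintro ⟨h, hh⟩
    refine ⟨g * h, ?_⟩
    show ρ (g * h) x = ρ g y
    rw [map_mul, Equiv.Perm.mul_apply]
    have : ρ h x = y := hh
    rw [this]

theorem eq_iff {x : X} {a b : H} : ρ a x = ρ b x ↔ b⁻¹ * a ∈ stab ρ x := by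
  rw [mem_stab, map_mul, Equiv.Perm.mul_apply, map_inv, Equiv.Perm.inv_eq_iff_eq]

/-- Two orbits with the same stabilizer have equally many fixed points of each subgroup. -/
theorem ncard_orb_fix [Finite H] {x : X} {y : Y} (h : stab ρ x = stab σ y) (E : Subgroup H) :
    (fix ρ (orb ρ x) E).ncard = (fix σ (orb σ y) E).ncard := by
  classical
  have key : ∀ a b : H, ρ a x = ρ b x ↔ σ a y = σ b y := by
    intro a b
    rw [eq_iff, eq_iff, h]
  have hfix : ∀ a : H, (∀ e ∈ E, ρ e (ρ a x) = ρ a x) ↔ (∀ e ∈ E, σ e (σ a y) = σ a y) := by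
    intro a
    refine forall_congr' fun e => forall_congr' fun _ => ?_
    have h1 : ρ e (ρ a x) = ρ (e * a) x := by rw [map_mul, Equiv.Perm.mul_apply]
    have h2 : σ e (σ a y) = σ (e * a) y := by rw [map_mul, Equiv.Perm.mul_apply]
    rw [h1, h2]
    exact key _ _
  -- the bijection
  have hex : ∀ z ∈ orb ρ x, ∃ a : H, ρ a x = z := fun z hz => hz
  choose! F hF using hex
  refine Set.ncard_congr (fun z _ => σ (F z) y) ?_ ?_ ?_
  · rintro z ⟨hz, hz'⟩
    refine ⟨⟨F z, rfl⟩, ?_⟩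
    refine (hfix (F z)).1 ?_
    rw [hF z hz]
    exact hz'
  · rintro z z' ⟨hz, _⟩ ⟨hz', _⟩ hzz
    rw [← hF z hz, ← hF z' hz']
    exact (key _ _).2 hzz
  · rintro z ⟨⟨a, ha⟩, hz'⟩
    have ha' : σ a y = z := ha
    have hmem : ρ a x ∈ orb ρ x := ⟨a, rfl⟩
    refine ⟨ρ a x, ⟨hmem, ?_⟩, ?_⟩
    · refine (hfix a).2 ?_
      rw [ha']
      exact hz'
    · rw [← ha']
      exact (key _ _).1 (hF _ hmem)

theorem aux [Finite H] [Finite X] [Finite Y] [Nonempty Y] (n : ℕ) :
    ∀ (A : Set X) (B : Set Y), (∀ g : H, ∀ x ∈ A, ρ g x ∈ A) → (∀ g : H, ∀ y ∈ B, σ g y ∈ B) →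
      A.ncard = n → (∀ E : Subgroup H, (fix ρ A E).ncard = (fix σ B E).ncard) →
      ∃ f : X → Y, Set.MapsTo f A B ∧ Set.InjOn f A ∧ ∀ g : H, ∀ x ∈ A, f (ρ g x) = σ g (f x) := by
  classical
  induction n using Nat.strong_induction_on with
  | _ n ih =>
    intro A B hA hB hn hE
    rcases A.eq_empty_or_nonempty with rfl | hne
    · exact ⟨fun _ => Classical.arbitrary Y, fun _ h => h.elim, fun _ h => h.elim, fun _ _ h => h.elim⟩
    obtain ⟨x₀, hx₀A, hmax⟩ := Set.exists_max_image A (fun x => Nat.card (stab ρ x)) A.toFinite hne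
    have hfx : (fix ρ A (stab ρ x₀)).Nonempty := ⟨x₀, hx₀A, fun e he => he⟩
    have hfy : (fix σ B (stab ρ x₀)).Nonempty := by
      rw [← Set.ncard_pos (Set.toFinite _), ← hE, Set.ncard_pos (Set.toFinite _)]
      exact hfx
    obtain ⟨y₀, hy₀B, hy₀⟩ := hfy
    have hle : stab ρ x₀ ≤ stab σ y₀ := fun e he => hy₀ e he
    have hst : stab ρ x₀ = stab σ y₀ := by
      have h1 : (fix σ B (stab σ y₀)).Nonempty := ⟨y₀, hy₀B, fun e he => he⟩
      rw [← Set.ncard_pos (Set.toFinite _), ← hE, Set.ncard_pos (Set.toFinite _)] at h1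
      obtain ⟨x₁, hx₁A, hx₁⟩ := h1
      have hle1 : stab σ y₀ ≤ stab ρ x₁ := fun e he => hx₁ e he
      refine le_antisymm hle ?_
      have hc : Nat.card (stab σ y₀) ≤ Nat.card (stab ρ x₀) :=
        (Subgroup.card_le_of_le hle1).trans (hmax x₁ hx₁A)
      exact (Subgroup.eq_of_le_of_card_ge hle hc).ge
    have hox : orb ρ x₀ ⊆ A := by
      rintro _ ⟨g, rfl⟩
      exact hA g x₀ hx₀A
    have hoy : orb σ y₀ ⊆ B := by
      rintro _ ⟨g, rfl⟩
      exact hB g y₀ hy₀B
    have hx₀o : x₀ ∈ orb ρ x₀ := ⟨1, by simp⟩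
    obtain ⟨f, hf1, hf2, hf3⟩ := ih (A \ orb ρ x₀).ncard (by
        rw [← hn]
        exact Set.ncard_lt_ncard ⟨Set.sdiff_subset, fun h => (h hx₀A).2 hx₀o⟩ (Set.toFinite _))
      (A \ orb ρ x₀) (B \ orb σ y₀)
      (fun g x hx => ⟨hA g x hx.1, fun h => hx.2 ((orb_smul ρ g).1 h)⟩)
      (fun g y hy => ⟨hB g y hy.1, fun h => hy.2 ((orb_smul σ g).1 h)⟩) rfl (by
        intro E
        have h1 : (fix ρ (A \ orb ρ x₀) E).ncard + (fix ρ (orb ρ x₀) E).ncard = (fix ρ A E).ncard := by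
          rw [← Set.ncard_union_eq _ (Set.toFinite _) (Set.toFinite _)]
          · congr 1
            ext z
            constructor
            · rintro (⟨⟨h1, h2⟩, h3⟩ | ⟨h1, h3⟩)
              · exact ⟨h1, h3⟩
              · exact ⟨hox h1, h3⟩
            · rintro ⟨h1, h3⟩
              by_cases hz : z ∈ orb ρ x₀
              · exact Or.inr ⟨hz, h3⟩
              · exact Or.inl ⟨⟨h1, hz⟩, h3⟩
          · rw [Set.disjoint_left]
            rintro z ⟨⟨_, h2⟩, _⟩ ⟨h4, _⟩
            exact h2 h4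
        have h2 : (fix σ (B \ orb σ y₀) E).ncard + (fix σ (orb σ y₀) E).ncard = (fix σ B E).ncard := by
          rw [← Set.ncard_union_eq _ (Set.toFinite _) (Set.toFinite _)]
          · congr 1
            ext z
            constructor
            · rintro (⟨⟨h1, h2⟩, h3⟩ | ⟨h1, h3⟩)
              · exact ⟨h1, h3⟩
              · exact ⟨hoy h1, h3⟩
            · rintro ⟨h1, h3⟩
              by_cases hz : z ∈ orb σ y₀
              · exact Or.inr ⟨hz, h3⟩
              · exact Or.inl ⟨⟨h1, hz⟩, h3⟩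
          · rw [Set.disjoint_left]
            rintro z ⟨⟨_, h2⟩, _⟩ ⟨h4, _⟩
            exact h2 h4
        have h3 := ncard_orb_fix ρ σ hst E
        have h4 := hE E
        omega)
    have key : ∀ a b : H, ρ a x₀ = ρ b x₀ ↔ σ a y₀ = σ b y₀ := by
      intro a b
      rw [eq_iff, eq_iff, hst]
    have hex : ∀ z ∈ orb ρ x₀, ∃ a : H, ρ a x₀ = z := fun z hz => hz
    choose! F hF using hex
    refine ⟨fun z => if z ∈ orb ρ x₀ then σ (F z) y₀ else f z, ?_, ?_, ?_⟩
    · intro z hz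
      by_cases hzo : z ∈ orb ρ x₀
      · simp only [hzo, if_true]
        exact hoy ⟨F z, rfl⟩
      · simp only [hzo, if_false]
        exact (hf1 ⟨hz, hzo⟩).1
    · intro z hz z' hz' hzz
      by_cases hzo : z ∈ orb ρ x₀ <;> by_cases hzo' : z' ∈ orb ρ x₀
      · simp only [hzo, hzo', if_true] at hzz
        rw [← hF z hzo, ← hF z' hzo']
        exact (key _ _).2 hzz
      · simp only [hzo, hzo', if_true, if_false] at hzz
        exact absurd (hzz ▸ (⟨F z, rfl⟩ : σ (F z) y₀ ∈ orb σ y₀)) (hf1 ⟨hz', hzo'⟩).2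
      · simp only [hzo, hzo', if_true, if_false] at hzz
        exact absurd (hzz ▸ (⟨F z', rfl⟩ : σ (F z') y₀ ∈ orb σ y₀)) (hf1 ⟨hz, hzo⟩).2
      · simp only [hzo, hzo', if_false] at hzz
        exact hf2 ⟨hz, hzo⟩ ⟨hz', hzo'⟩ hzz
    · intro g z hz
      by_cases hzo : z ∈ orb ρ x₀
      · have hgz : ρ g z ∈ orb ρ x₀ := (orb_smul ρ g).2 hzo
        simp only [hzo, hgz, if_true]
        have h1 : σ g (σ (F z) y₀) = σ (g * F z) y₀ := by rw [map_mul, Equiv.Perm.mul_apply]
        rw [h1]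
        refine (key _ _).1 ?_
        rw [hF _ hgz, map_mul, Equiv.Perm.mul_apply, hF _ hzo]
      · have hgz : ρ g z ∉ orb ρ x₀ := fun h => hzo ((orb_smul ρ g).1 h)
        simp only [hzo, hgz, if_false]
        exact hf3 g z ⟨hz, hzo⟩

/-- **Finite `H`-sets with equal marks are isomorphic**: if every subgroup `E` of the finite group `H` has
equally many fixed points on the finite sets `X` and `Y`, there is an equivariant bijection. -/
theorem exists_equiv [Finite H] [Finite X] [Finite Y]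
    (h : ∀ E : Subgroup H, Nat.card {x : X // ∀ e ∈ E, ρ e x = x} = Nat.card {y : Y // ∀ e ∈ E, σ e y = y}) :
    ∃ f : X ≃ Y, ∀ (g : H) (x : X), f (ρ g x) = σ g (f x) := by
  classical
  have hcard : Nat.card X = Nat.card Y := by
    have := h ⊥
    simp only [Subgroup.mem_bot, forall_eq, map_one, Equiv.Perm.coe_one, id_eq] at this
    rwa [Nat.card_congr (Equiv.subtypeUnivEquiv (fun _ => trivial)),
      Nat.card_congr (Equiv.subtypeUnivEquiv (fun _ => trivial))] at this
  rcases isEmpty_or_nonempty Y with hY | hY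
  · have : IsEmpty X := by
      rw [← Finite.card_eq_zero_iff, hcard, Finite.card_eq_zero_iff]
      exact hY
    exact ⟨Equiv.equivOfIsEmpty X Y, fun g x => (IsEmpty.false x).elim⟩
  obtain ⟨f, -, hf2, hf3⟩ := aux ρ σ _ Set.univ Set.univ (by simp) (by simp) rfl (by
    intro E
    have h1 : fix ρ Set.univ E = {x | ∀ e ∈ E, ρ e x = x} := by
      ext z; simp [fix]
    have h2 : fix σ Set.univ E = {x | ∀ e ∈ E, σ e x = x} := by
      ext z; simp [fix]
    rw [h1, h2]
    have := h E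
    exact this)
  have hinj : Function.Injective f := fun a b hab => hf2 (Set.mem_univ a) (Set.mem_univ b) hab
  have hbij : Function.Bijective f := by
    rw [Nat.bijective_iff_injective_and_card]
    exact ⟨hinj, hcard⟩
  exact ⟨Equiv.ofBijective f hbij, fun g x => hf3 g x (Set.mem_univ x)⟩

end equiv

section action

open scoped Classical in
theorem exists_wt {G : Type u} [Group G] [Fintype (Subgroup G)] (𝒟 : Set (Subgroup G)) (m : ℕ → ℕ) :
    ∃ w : Subgroup G → ℕ, ∀ D : Subgroup G,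
      w D = if D ∈ 𝒟 then m (Nat.card D) - ∑ E ∈ Finset.univ.filter (fun E => D < E), w E else 0 := by
  have wf : WellFounded (fun a b : Subgroup G => b < a) := wellFounded_gt
  refine ⟨wf.fix (fun D ih => if D ∈ 𝒟 then m (Nat.card D) -
    ∑ E ∈ (Finset.univ.filter (fun E => D < E)).attach, ih E.1 (Finset.mem_filter.1 E.2).2 else 0), ?_⟩
  intro D
  rw [wf.fix_eq]
  congr 2
  exact Finset.sum_attach (Finset.univ.filter (fun E => D < E)) _

/-- Conjugation of subgroups by `g`. -/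
def cj {G : Type u} [Group G] (g : G) : Subgroup G ≃o Subgroup G := (MulAut.conj g).mapSubgroup

theorem mem_cj {G : Type u} [Group G] {g x : G} {D : Subgroup G} : x ∈ cj g D ↔ g⁻¹ * x * g ∈ D := by
  show x ∈ D.map (MulAut.conj g).toMonoidHom ↔ _
  constructor
  · rintro ⟨y, hy, rfl⟩
    simpa [mul_assoc] using hy
  · intro h
    exact ⟨_, h, by simp [mul_assoc]⟩

theorem card_cj {G : Type u} [Group G] (g : G) (D : Subgroup G) : Nat.card (cj g D) = Nat.card D := by
  show Nat.card (D.map (MulAut.conj g).toMonoidHom) = _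
  exact Nat.card_congr (D.equivMapOfInjective _ (MulAut.conj g).injective).symm.toEquiv

variable {G : Type u} [Group G]

open scoped Classical in
theorem wt_cj [Finite G] [Fintype (Subgroup G)] {𝒟 : Set (Subgroup G)} (hconj : ∀ D ∈ 𝒟, ∀ g : G, cj g D ∈ 𝒟)
    {m : ℕ → ℕ} {w : Subgroup G → ℕ} (hw : ∀ D : Subgroup G,
      w D = if D ∈ 𝒟 then m (Nat.card D) - ∑ E ∈ Finset.univ.filter (fun E => D < E), w E else 0)
    (g : G) (D : Subgroup G) : w (cj g D) = w D := by
  have wf : WellFounded (fun a b : Subgroup G => b < a) := wellFounded_gt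
  induction D using wf.induction with
  | _ D ih =>
    rw [hw (cj g D), hw D, card_cj]
    have h1 : cj g D ∈ 𝒟 ↔ D ∈ 𝒟 := by
      refine ⟨fun h => ?_, fun h => hconj D h g⟩
      have := hconj _ h g⁻¹
      have h2 : cj g⁻¹ (cj g D) = D := by
        ext x
        rw [mem_cj, mem_cj]
        simp [mul_assoc]
      rwa [h2] at this
    have h2 : ∑ E ∈ Finset.univ.filter (fun E => cj g D < E), w E =
        ∑ E ∈ Finset.univ.filter (fun E => D < E), w E := by
      have h3 : ∑ E ∈ Finset.univ.filter (fun E => D < E), w E =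
          ∑ E ∈ Finset.univ.filter (fun E => D < E), w (cj g E) := by
        refine Finset.sum_congr rfl fun E hE => ?_
        exact (ih E (Finset.mem_filter.1 hE).2).symm
      rw [h3]
      symm
      refine Finset.sum_equiv (cj g).toEquiv ?_ ?_
      · intro E
        simp only [Finset.mem_filter, Finset.mem_univ, true_and]
        exact ((cj g).lt_iff_lt).symm
      · intro E _
        rfl
    rw [h2]
    by_cases h : D ∈ 𝒟
    · rw [if_pos h, if_pos (h1.2 h)]
    · rw [if_neg h, if_neg (fun h' => h (h1.1 h'))]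

open scoped Classical in
theorem wt_sum [Finite G] [Fintype (Subgroup G)] {𝒟 : Set (Subgroup G)}
    {w : Subgroup G → ℕ} (hw : ∀ D : Subgroup G,
      w D = if D ∈ 𝒟 then Fintype.card (Subgroup G) ^ (Nat.card G - Nat.card D) -
        ∑ E ∈ Finset.univ.filter (fun E => D < E), w E else 0)
    (D : Subgroup G) (hD : D ∈ 𝒟) :
    ∑ E ∈ Finset.univ.filter (fun E => D ≤ E), w E = Fintype.card (Subgroup G) ^ (Nat.card G - Nat.card D) := by
  set M := Fintype.card (Subgroup G) with hM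
  have hMpos : 0 < M := Fintype.card_pos
  have hbd : ∀ E : Subgroup G, w E ≤ M ^ (Nat.card G - Nat.card E) := by
    intro E
    rw [hw E]
    split_ifs
    · exact Nat.sub_le _ _
    · exact Nat.zero_le _
  have hlt : ∑ E ∈ Finset.univ.filter (fun E => D < E), w E ≤ M ^ (Nat.card G - Nat.card D) := by
    rcases (Finset.univ.filter (fun E : Subgroup G => D < E)).eq_empty_or_nonempty with h0 | ⟨E₀, hE₀⟩
    · rw [h0]; simp
    have hDG : Nat.card D < Nat.card G := by
      have h1 : D < E₀ := (Finset.mem_filter.1 hE₀).2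
      exact (Set.ncard_lt_ncard (SetLike.coe_ssubset_coe.2 h1) (Set.toFinite _)).trans_le
        (Subgroup.card_le_card_group E₀)
    calc ∑ E ∈ Finset.univ.filter (fun E => D < E), w E
        ≤ ∑ E ∈ Finset.univ.filter (fun E => D < E), M ^ (Nat.card G - Nat.card D - 1) := by
          refine Finset.sum_le_sum fun E hE => (hbd E).trans ?_
          have h1 : D < E := (Finset.mem_filter.1 hE).2
          have h2 : Nat.card D < Nat.card E :=
            Set.ncard_lt_ncard (SetLike.coe_ssubset_coe.2 h1) (Set.toFinite _)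
          exact Nat.pow_le_pow_right hMpos (by omega)
      _ = (Finset.univ.filter (fun E => D < E)).card * M ^ (Nat.card G - Nat.card D - 1) := by
          rw [Finset.sum_const, smul_eq_mul]
      _ ≤ M * M ^ (Nat.card G - Nat.card D - 1) := by
          refine Nat.mul_le_mul_right _ ?_
          exact Finset.card_le_univ _
      _ = M ^ (Nat.card G - Nat.card D) := by
          rw [← pow_succ']
          congr 1
          omega
  have hsplit : Finset.univ.filter (fun E => D ≤ E) = insert D (Finset.univ.filter (fun E => D < E)) := by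
    ext E
    simp only [Finset.mem_filter, Finset.mem_univ, true_and, Finset.mem_insert]
    rw [le_iff_eq_or_lt]
    constructor
    · rintro (h | h)
      · exact Or.inl h.symm
      · exact Or.inr h
    · rintro (h | h)
      · exact Or.inl h.symm
      · exact Or.inr h
  rw [hsplit, Finset.sum_insert (by simp), hw D, if_pos hD]
  omega

/-- The number of points of `G ⧸ D` fixed by `E`, times the order of `D`. -/
theorem card_fix_quot [Finite G] (D E : Subgroup G) :
    Nat.card D * Nat.card {q : G ⧸ D // ∀ e ∈ E, e • q = q} = Nat.card {g : G // E ≤ cj g D} := by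
  have h1 : Nat.card {g : G // E ≤ cj g D} =
      Nat.card ((QuotientGroup.mk : G → G ⧸ D) ⁻¹' {q : G ⧸ D | ∀ e ∈ E, e • q = q}) := by
    refine Nat.card_congr (Equiv.subtypeEquivRight fun g => ?_)
    show E ≤ cj g D ↔ ∀ e ∈ E, e • (QuotientGroup.mk g : G ⧸ D) = QuotientGroup.mk g
    refine forall_congr' fun e => forall_congr' fun _ => ?_
    rw [mem_cj]
    have h2 : e • (QuotientGroup.mk g : G ⧸ D) = QuotientGroup.mk (e * g) := rfl
    rw [h2, eq_comm, QuotientGroup.eq, mul_assoc]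
  rw [h1, Nat.card_congr (QuotientGroup.preimageMkEquivSubgroupProdSet D _), Nat.card_prod]
  rfl

/-- The action of `G` on the disjoint union of `c D` copies of `G ⧸ D`. -/
def rho (c : Subgroup G → ℕ) : G →* Equiv.Perm (Σ D : Subgroup G, Fin (c D) × (G ⧸ D)) where
  toFun := fun g =>
    { toFun := fun x => ⟨x.1, x.2.1, g • x.2.2⟩
      invFun := fun x => ⟨x.1, x.2.1, g⁻¹ • x.2.2⟩
      left_inv := fun x => by simp
      right_inv := fun x => by simp }
  map_one' := by ext x <;> simp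
  map_mul' := fun a b => by ext x <;> simp [mul_smul]

theorem rho_eq_iff (c : Subgroup G → ℕ) (g : G) (D : Subgroup G) (i : Fin (c D)) (q : G ⧸ D) :
    rho c g ⟨D, i, q⟩ = ⟨D, i, q⟩ ↔ g • q = q := by
  show (⟨D, i, g • q⟩ : Σ D : Subgroup G, Fin (c D) × (G ⧸ D)) = ⟨D, i, q⟩ ↔ _
  rw [Sigma.mk.injEq, heq_eq_eq, Prod.mk.injEq]
  simp only [true_and]

theorem smul_mk_eq_iff (x g : G) (D : Subgroup G) :
    x • (QuotientGroup.mk g : G ⧸ D) = QuotientGroup.mk g ↔ x ∈ cj g D := by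
  have h2 : x • (QuotientGroup.mk g : G ⧸ D) = QuotientGroup.mk (x * g) := rfl
  rw [h2, eq_comm, QuotientGroup.eq, mem_cj, mul_assoc]

theorem stab_rho (c : Subgroup G → ℕ) (D : Subgroup G) (i : Fin (c D)) (g : G) :
    stab (rho c) ⟨D, i, QuotientGroup.mk g⟩ = cj g D := by
  ext x
  exact (rho_eq_iff c x D i _).trans (smul_mk_eq_iff x g D)

theorem card_fix_rho [Finite G] (c : Subgroup G → ℕ) (E : Subgroup G) [Fintype (Subgroup G)] :
    Nat.card {x : Σ D : Subgroup G, Fin (c D) × (G ⧸ D) // ∀ e ∈ E, rho c e x = x} =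
      ∑ D : Subgroup G, c D * Nat.card {q : G ⧸ D // ∀ e ∈ E, e • q = q} := by
  have h1 : Nat.card {x : Σ D : Subgroup G, Fin (c D) × (G ⧸ D) // ∀ e ∈ E, rho c e x = x} =
      Nat.card (Σ D : Subgroup G, Fin (c D) × {q : G ⧸ D // ∀ e ∈ E, e • q = q}) :=
    Nat.card_congr
      { toFun := fun x => ⟨x.1.1, x.1.2.1, ⟨x.1.2.2, fun e he => (rho_eq_iff c e _ _ _).1 (x.2 e he)⟩⟩
        invFun := fun x => ⟨⟨x.1, x.2.1, x.2.2.1⟩, fun e he => (rho_eq_iff c e _ _ _).2 (x.2.2.2 e he)⟩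
        left_inv := fun x => rfl
        right_inv := fun x => rfl }
  rw [h1, Nat.card_sigma]
  refine Finset.sum_congr rfl fun D _ => ?_
  rw [Nat.card_prod, Nat.card_fin]

/-- **A finite `G`-set with prescribed stabilizers and constant marks.** For a family `𝒟` of subgroups of the
finite group `G`, closed under subgroups and conjugation, there is a finite `G`-set `X` all of whose point
stabilizers lie in `𝒟`, such that the number of fixed points of each `E ∈ 𝒟` is positive and depends on the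
order of `E` only. -/
theorem exists_action [Finite G] (𝒟 : Set (Subgroup G)) (hconj : ∀ D ∈ 𝒟, ∀ g : G, cj g D ∈ 𝒟) :
    ∃ (X : Type u) (_ : Finite X) (ρ : G →* Equiv.Perm X) (f : ℕ → ℕ),
      (∀ x : X, stab ρ x ∈ 𝒟) ∧ (∀ n, 0 < f n) ∧
      ∀ E ∈ 𝒟, Nat.card {x : X // ∀ e ∈ E, ρ e x = x} = f (Nat.card E) := by
  classical
  have : Finite (Subgroup G) := inferInstance
  let _ : Fintype (Subgroup G) := Fintype.ofFinite _
  let _ : Fintype G := Fintype.ofFinite _
  obtain ⟨w, hw⟩ := exists_wt 𝒟 (fun n => Fintype.card (Subgroup G) ^ (Nat.card G - n))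
  have hwc := wt_cj hconj (m := fun n => Fintype.card (Subgroup G) ^ (Nat.card G - n)) hw
  have hws := wt_sum hw
  refine ⟨Σ D : Subgroup G, Fin (Nat.card D * w D) × (G ⧸ D), inferInstance, rho (fun D => Nat.card D * w D),
    fun n => Nat.card G * Fintype.card (Subgroup G) ^ (Nat.card G - n), ?_, ?_, ?_⟩
  · rintro ⟨D, i, q⟩
    obtain ⟨g, rfl⟩ := QuotientGroup.mk_surjective q
    have hD : D ∈ 𝒟 := by
      by_contra hD
      have := hw D
      rw [if_neg hD] at this
      rw [this] at i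
      simp only [mul_zero] at i
      exact i.elim0
    rw [stab_rho]
    exact hconj D hD g
  · intro n
    exact Nat.mul_pos Nat.card_pos (pow_pos Fintype.card_pos _)
  · intro E hE
    rw [card_fix_rho]
    have h2 : ∀ D : Subgroup G, Nat.card D * w D * Nat.card {q : G ⧸ D // ∀ e ∈ E, e • q = q} =
        ∑ g : G, if E ≤ cj g D then w (cj g D) else 0 := by
      intro D
      rw [mul_comm (Nat.card D), mul_assoc, card_fix_quot]
      rw [← Finset.sum_filter]
      rw [Finset.sum_congr rfl (fun g _ => hwc g D), Finset.sum_const, smul_eq_mul, mul_comm]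
      congr 1
      rw [Nat.card_eq_fintype_card, Fintype.card_subtype]
    rw [Finset.sum_congr rfl (fun D _ => h2 D), Finset.sum_comm]
    have h3 : ∀ g : G, ∑ D : Subgroup G, (if E ≤ cj g D then w (cj g D) else 0) =
        Fintype.card (Subgroup G) ^ (Nat.card G - Nat.card E) := by
      intro g
      rw [← hws E hE, Finset.sum_filter]
      exact Equiv.sum_comp (cj g).toEquiv (fun D => if E ≤ D then w D else 0)
    rw [Finset.sum_congr rfl (fun g _ => h3 g), Finset.sum_const, smul_eq_mul, Finset.card_univ,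
      ← Nat.card_eq_fintype_card]

end action

end Cfsg.Agent.H800.Marks
end

-- part: H800/Realize
section
/-!
# Every fusion system on a finite group is realized inside a finite group (Park)

`Cfsg.Agent.H800.Realize.exists_realization`: for every fusion system `F` over a finite subgroup `S` there are
a finite group `G` and an injective homomorphism `ι : S →* G` with `F.IsRealizedBy ι`. The group `G` is the
centralizer of the right action of `S` in the symmetric group of a finite `S`-`S`-biset whose point stabilizers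
are graphs of maps of `F` and whose marks depend on the order only (`Marks.exists_action`).
-/

set_option autoImplicit false

universe u

namespace Cfsg.Agent.H800.Realize

open Cfsg Marks

variable {Ω : Type u} [Group Ω] {S : Subgroup Ω} (F : FusionSystem S)

/-- Composition of two maps of the system where it is defined. -/
theorem comp_partial {Q P : Subgroup Ω} {χ : Q →* Ω} {φ : P →* Ω} (hχ : χ ∈ F.Hom Q) (hφ : φ ∈ F.Hom P) :
    ∃ (Q' : Subgroup Ω) (χ' : Q' →* Ω), χ' ∈ F.Hom Q' ∧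
      ∀ (b : Ω) (h : b ∈ Q) (h2 : χ ⟨b, h⟩ ∈ P), ∃ h' : b ∈ Q', χ' ⟨b, h'⟩ = φ ⟨χ ⟨b, h⟩, h2⟩ := by
  let Q' : Subgroup Ω := (P.comap χ).map Q.subtype
  have hQ'Q : Q' ≤ Q := by
    rintro _ ⟨x, -, rfl⟩
    exact x.2
  have hQS : Q ≤ S := (F.le_of_mem hχ).1
  have h1 : ∀ x : Q', conjHom Q' 1 x ∈ Q := by
    intro x
    show 1 * (x : Ω) * 1⁻¹ ∈ Q
    simpa using hQ'Q x.2
  have hχ₀ := F.comp_mem (F.conj_mem (P := Q') (g := 1) (hQ'Q.trans hQS) (one_mem S)) hχ h1
  have h2 : ∀ x : Q', (χ.comp ((conjHom Q' 1).codRestrict Q h1)) x ∈ P := by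
    rintro ⟨_, x, hx, rfl⟩
    have hx' : χ x ∈ P := hx
    convert hx' using 1
    show χ ⟨1 * (x : Ω) * 1⁻¹, _⟩ = χ x
    congr 1
    ext
    simp
  refine ⟨Q', _, F.comp_mem hχ₀ hφ h2, ?_⟩
  intro b h hP
  refine ⟨⟨⟨b, h⟩, hP, rfl⟩, ?_⟩
  show φ ⟨χ ⟨1 * b * 1⁻¹, _⟩, _⟩ = φ ⟨χ ⟨b, h⟩, hP⟩
  congr 1
  ext
  show χ ⟨1 * b * 1⁻¹, _⟩ = χ ⟨b, h⟩
  congr 1
  ext
  simp

/-- The subgroups of `S × S` contained in the graph `{(χ b, b)}` of a map `χ` of the system. -/
def graphs : Set (Subgroup (S × S)) :=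
  {D | ∃ (Q : Subgroup Ω) (χ : Q →* Ω), χ ∈ F.Hom Q ∧
    ∀ d ∈ D, ∃ h : ((d.2 : S) : Ω) ∈ Q, ((d.1 : S) : Ω) = χ ⟨d.2, h⟩}

theorem graphs_conj : ∀ D ∈ graphs F, ∀ g : S × S, cj g D ∈ graphs F := by
  rintro D ⟨Q, χ, hχ, hD⟩ ⟨a, b⟩
  have ha : conjHom S (a : Ω) ∈ F.Hom S := F.conj_mem le_rfl a.2
  have hb : conjHom S ((b : Ω)⁻¹) ∈ F.Hom S := F.conj_mem le_rfl (S.inv_mem b.2)
  obtain ⟨Q₁, χ₁, hχ₁, h₁⟩ := comp_partial F hb hχ
  obtain ⟨Q₂, χ₂, hχ₂, h₂⟩ := comp_partial F hχ₁ ha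
  refine ⟨Q₂, χ₂, hχ₂, ?_⟩
  rintro ⟨x, y⟩ hd
  rw [mem_cj] at hd
  obtain ⟨hQ, he⟩ := hD _ hd
  have hQ' : (b : Ω)⁻¹ * (y : Ω) * (b : Ω) ∈ Q := hQ
  have he' : (a : Ω)⁻¹ * (x : Ω) * (a : Ω) = χ ⟨(b : Ω)⁻¹ * (y : Ω) * (b : Ω), hQ'⟩ := he
  have hc : conjHom S ((b : Ω)⁻¹) ⟨(y : Ω), y.2⟩ = (b : Ω)⁻¹ * (y : Ω) * (b : Ω) := by
    show (b : Ω)⁻¹ * (y : Ω) * (b : Ω)⁻¹⁻¹ = _
    rw [inv_inv]
  obtain ⟨hy₁, hv₁⟩ := h₁ (y : Ω) y.2 (by rw [hc]; exact hQ')
  have hv₁' : χ₁ ⟨(y : Ω), hy₁⟩ = (a : Ω)⁻¹ * (x : Ω) * (a : Ω) := by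
    rw [hv₁, he']
    congr 1
    ext
    exact hc
  have hxS : (a : Ω)⁻¹ * (x : Ω) * (a : Ω) ∈ S := S.mul_mem (S.mul_mem (S.inv_mem a.2) x.2) a.2
  obtain ⟨hy₂, hv₂⟩ := h₂ (y : Ω) hy₁ (by rw [hv₁']; exact hxS)
  refine ⟨hy₂, ?_⟩
  show (x : Ω) = χ₂ ⟨(y : Ω), hy₂⟩
  rw [hv₂]
  show (x : Ω) = (a : Ω) * (χ₁ ⟨(y : Ω), hy₁⟩) * (a : Ω)⁻¹
  rw [hv₁']
  group

theorem graphs_sub {D E : Subgroup (S × S)} (hD : D ∈ graphs F) (h : E ≤ D) : E ∈ graphs F := by
  obtain ⟨Q, χ, hχ, h1⟩ := hD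
  exact ⟨Q, χ, hχ, fun d hd => h1 d (h hd)⟩

/-- The homomorphism `P × S → S × S`, `(x, b) ↦ (φ x, b)`. -/
def twist {P : Subgroup Ω} (φ : P →* Ω) (hφ : ∀ x : P, φ x ∈ S) : P × S →* S × S :=
  (φ.codRestrict S hφ).prodMap (MonoidHom.id S)

theorem twist_apply {P : Subgroup Ω} (φ : P →* Ω) (hφ : ∀ x : P, φ x ∈ S) (x : P) (b : S) :
    twist φ hφ (x, b) = (⟨φ x, hφ x⟩, b) := rfl

theorem twist_injective {P : Subgroup Ω} {φ : P →* Ω} (hφ : φ ∈ F.Hom P) :
    Function.Injective (twist φ (F.le_of_mem hφ).2) := by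
  rintro ⟨x, b⟩ ⟨y, c⟩ h
  rw [twist_apply, twist_apply] at h
  simp only [Prod.mk.injEq, Subtype.mk.injEq] at h
  rw [F.injective_of_mem hφ h.1, h.2]

theorem map_twist_mem {P : Subgroup Ω} {φ ψ : P →* Ω} (hφ : φ ∈ F.Hom P) (hψ : ψ ∈ F.Hom P)
    (E : Subgroup (P × S)) (hE : E.map (twist φ (F.le_of_mem hφ).2) ∈ graphs F) :
    E.map (twist ψ (F.le_of_mem hψ).2) ∈ graphs F := by
  obtain ⟨Q, χ, hχ, h1⟩ := hE
  obtain ⟨θ, hθ, hθφ⟩ := F.inv_mem hφ
  obtain ⟨Q₁, χ₁, hχ₁, h₁⟩ := comp_partial F hχ hθ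
  obtain ⟨Q₂, χ₂, hχ₂, h₂⟩ := comp_partial F hχ₁ hψ
  refine ⟨Q₂, χ₂, hχ₂, ?_⟩
  rintro _ ⟨⟨x, b⟩, hxb, rfl⟩
  obtain ⟨hbQ, hv⟩ := h1 _ ⟨(x, b), hxb, rfl⟩
  have hbQ' : (b : Ω) ∈ Q := hbQ
  have hv' : φ x = χ ⟨(b : Ω), hbQ'⟩ := hv
  obtain ⟨hb₁, hv₁⟩ := h₁ (b : Ω) hbQ' (by rw [← hv']; exact ⟨x, rfl⟩)
  have hv₁' : χ₁ ⟨(b : Ω), hb₁⟩ = (x : Ω) := by
    rw [hv₁, ← hθφ x]
    congr 1
    ext
    exact hv'.symm
  obtain ⟨hb₂, hv₂⟩ := h₂ (b : Ω) hb₁ (by rw [hv₁']; exact x.2)
  refine ⟨hb₂, ?_⟩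
  show ψ x = χ₂ ⟨(b : Ω), hb₂⟩
  rw [hv₂]
  congr 1
  ext
  exact hv₁'.symm

/-- **Every fusion system over a finite group is realized inside a finite group** (Park). -/
theorem exists_realization [Finite S] :
    ∃ (G : Type u) (_ : Group G) (_ : Finite G) (ι : ↥S →* G), F.IsRealizedBy ι := by
  classical
  obtain ⟨X, hX, ρ, f, hst, hf, hcard⟩ := exists_action (G := S × S) (graphs F) (graphs_conj F)
  let C : Subgroup (Equiv.Perm X) := Subgroup.centralizer (Set.range fun b : S => ρ (1, b))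
  have hC : ∀ a : S, ρ (a, 1) ∈ C := by
    intro a
    rw [Subgroup.mem_centralizer_iff]
    rintro _ ⟨b, rfl⟩
    show ρ (1, b) * ρ (a, 1) = ρ (a, 1) * ρ (1, b)
    rw [← map_mul, ← map_mul, Prod.mk_mul_mk, Prod.mk_mul_mk]
    simp only [one_mul, mul_one]
  let ι : S →* C := (ρ.comp (MonoidHom.inl S S)).codRestrict C hC
  have hι : ∀ a : S, ((ι a : C) : Equiv.Perm X) = ρ (a, 1) := fun a => rfl
  -- the base point
  let Δ : Subgroup (S × S) := (MonoidHom.prod (MonoidHom.id S) (MonoidHom.id S)).range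
  have hΔ : Δ ∈ graphs F := by
    refine ⟨S, conjHom S 1, F.conj_mem le_rfl (one_mem S), ?_⟩
    rintro _ ⟨a, rfl⟩
    refine ⟨a.2, ?_⟩
    show (a : Ω) = 1 * (a : Ω) * 1⁻¹
    simp
  obtain ⟨⟨x₀, hx₀⟩⟩ : Nonempty {x : X // ∀ e ∈ Δ, ρ e x = x} := by
    have h1 := hcard Δ hΔ
    have h2 := hf (Nat.card Δ)
    rw [← h1] at h2
    exact (Nat.card_pos_iff.1 h2).1
  refine ⟨C, inferInstance, inferInstance, ι, ?_, ?_⟩
  · rw [injective_iff_map_eq_one]
    intro a ha
    have h1 : ρ (a, 1) = 1 := by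
      rw [← hι, ha]; rfl
    obtain ⟨Q, χ, hχ, h2⟩ := hst x₀
    obtain ⟨h3, h4⟩ := h2 (a, 1) (by
      rw [mem_stab, h1]; rfl)
    have h5 : (a : Ω) = χ 1 := h4
    rw [map_one] at h5
    exact Subtype.ext h5
  · intro P hP φ hφ
    constructor
    · intro hφF
      have hid : conjHom P 1 ∈ F.Hom P := F.conj_mem hP (one_mem S)
      have hidv : ∀ x : P, conjHom P 1 x = (x : Ω) := by
        intro x
        show 1 * (x : Ω) * 1⁻¹ = x
        simp
      have key : ∀ E : Subgroup (P × S),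
          Nat.card {x : X // ∀ e ∈ E, (ρ.comp (twist _ (F.le_of_mem hid).2)) e x = x} =
          Nat.card {x : X // ∀ e ∈ E, (ρ.comp (twist _ (F.le_of_mem hφF).2)) e x = x} := by
        intro E
        have haux : ∀ (ψ : P →* Ω) (hψ : ψ ∈ F.Hom P),
            Nat.card {x : X // ∀ e ∈ E, (ρ.comp (twist _ (F.le_of_mem hψ).2)) e x = x} =
            if E.map (twist ψ (F.le_of_mem hψ).2) ∈ graphs F then f (Nat.card E) else 0 := by
          intro ψ hψ
          have h1 : Nat.card {x : X // ∀ e ∈ E, (ρ.comp (twist _ (F.le_of_mem hψ).2)) e x = x} =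
              Nat.card {x : X // ∀ e ∈ E.map (twist ψ (F.le_of_mem hψ).2), ρ e x = x} := by
            refine Nat.card_congr (Equiv.subtypeEquivRight fun x => ?_)
            constructor
            · rintro h _ ⟨e, he, rfl⟩
              exact h e he
            · intro h e he
              exact h _ ⟨e, he, rfl⟩
          rw [h1]
          split_ifs with h2
          · rw [hcard _ h2]
            congr 1
            exact Nat.card_congr (E.equivMapOfInjective _ (twist_injective F hψ)).symm.toEquiv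
          · rw [Finite.card_eq_zero_iff]
            refine ⟨fun x => h2 ?_⟩
            exact graphs_sub F (hst x.1) fun e he => x.2 e he
        rw [haux _ hid, haux _ hφF]
        have h3 : E.map (twist _ (F.le_of_mem hid).2) ∈ graphs F ↔
            E.map (twist φ (F.le_of_mem hφF).2) ∈ graphs F :=
          ⟨map_twist_mem F hid hφF E, map_twist_mem F hφF hid E⟩
        simp only [h3]
      have : Finite P := Finite.of_injective (Subgroup.inclusion hP) (Subgroup.inclusion_injective hP)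
      obtain ⟨g, hg⟩ := exists_equiv _ _ key
      have hgC : (g : Equiv.Perm X) ∈ C := by
        rw [Subgroup.mem_centralizer_iff]
        rintro _ ⟨b, rfl⟩
        show ρ (1, b) * (g : Equiv.Perm X) = (g : Equiv.Perm X) * ρ (1, b)
        ext x
        have h1 := hg (1, b) x
        rw [MonoidHom.comp_apply, MonoidHom.comp_apply, twist_apply, twist_apply] at h1
        have h2 : (⟨conjHom P 1 1, (F.le_of_mem hid).2 1⟩ : S) = 1 := Subtype.ext (map_one _)
        have h3 : (⟨φ 1, (F.le_of_mem hφF).2 1⟩ : S) = 1 := Subtype.ext (map_one _)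
        rw [h2, h3] at h1
        rw [Equiv.Perm.mul_apply, Equiv.Perm.mul_apply]
        exact h1.symm
      refine ⟨⟨g, hgC⟩, fun x => ?_⟩
      apply Subtype.ext
      show ρ (⟨φ x, hφ x⟩, 1) = (g : Equiv.Perm X) * ρ (⟨x, hP x.2⟩, 1) * (g : Equiv.Perm X)⁻¹
      rw [eq_mul_inv_iff_mul_eq]
      ext z
      have h1 := hg (x, 1) z
      rw [MonoidHom.comp_apply, MonoidHom.comp_apply, twist_apply, twist_apply] at h1
      have h2 : (⟨conjHom P 1 x, (F.le_of_mem hid).2 x⟩ : S) = ⟨x, hP x.2⟩ := Subtype.ext (hidv x)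
      rw [h2] at h1
      rw [Equiv.Perm.mul_apply, Equiv.Perm.mul_apply]
      exact h1.symm
    · rintro ⟨⟨g, hgC⟩, hg⟩
      have hg' : ∀ x : P, ρ (⟨φ x, hφ x⟩, 1) * g = g * ρ (⟨x, hP x.2⟩, 1) := by
        intro x
        have h1 := congrArg (fun c : C => (c : Equiv.Perm X)) (hg x)
        have h2 : ρ (⟨φ x, hφ x⟩, 1) = g * ρ (⟨x, hP x.2⟩, 1) * g⁻¹ := h1
        rw [h2]
        group
      obtain ⟨Q, χ, hχ, h2⟩ := hst (g x₀)
      have h3 : ∀ x : P, ∃ h : (x : Ω) ∈ Q, φ x = χ ⟨x, h⟩ := by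
        intro x
        refine h2 (⟨φ x, hφ x⟩, ⟨x, hP x.2⟩) ?_
        rw [mem_stab]
        have h4 : ((⟨φ x, hφ x⟩, ⟨x, hP x.2⟩) : S × S) = (1, ⟨x, hP x.2⟩) * (⟨φ x, hφ x⟩, 1) := by
          rw [Prod.mk_mul_mk, one_mul, mul_one]
        rw [h4, map_mul, Equiv.Perm.mul_apply]
        have h5 : ρ (⟨φ x, hφ x⟩, 1) (g x₀) = g (ρ (⟨x, hP x.2⟩, 1) x₀) := by
          have := congrArg (fun c : Equiv.Perm X => c x₀) (hg' x)
          exact this
        rw [h5]
        rw [Subgroup.mem_centralizer_iff] at hgC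
        have h6 : ρ (1, ⟨x, hP x.2⟩) (g (ρ (⟨x, hP x.2⟩, 1) x₀)) =
            g (ρ (1, ⟨x, hP x.2⟩) (ρ (⟨x, hP x.2⟩, 1) x₀)) := by
          have := congrArg (fun c : Equiv.Perm X => c (ρ (⟨x, hP x.2⟩, 1) x₀))
            (hgC (ρ (1, ⟨x, hP x.2⟩)) ⟨_, rfl⟩)
          exact this
        rw [h6]
        congr 1
        have h7 : ρ (1, ⟨x, hP x.2⟩) (ρ (⟨x, hP x.2⟩, 1) x₀) = ρ (⟨x, hP x.2⟩, ⟨x, hP x.2⟩) x₀ := by
          rw [← Equiv.Perm.mul_apply, ← map_mul, Prod.mk_mul_mk, one_mul, mul_one]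
        rw [h7]
        exact hx₀ _ ⟨⟨x, hP x.2⟩, rfl⟩
      have hPQ : P ≤ Q := fun x hx => (h3 ⟨x, hx⟩).1
      have h1 : ∀ x : P, conjHom P 1 x ∈ Q := by
        intro x
        show 1 * (x : Ω) * 1⁻¹ ∈ Q
        simpa using hPQ x.2
      have h4 := F.comp_mem (F.conj_mem hP (one_mem S)) hχ h1
      convert h4 using 1
      ext x
      obtain ⟨h5, h6⟩ := h3 x
      rw [h6]
      show χ ⟨x, h5⟩ = χ ⟨1 * (x : Ω) * 1⁻¹, _⟩
      congr 1
      ext
      simp

end Cfsg.Agent.H800.Realize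
end

-- part: S5328
section
set_option autoImplicit false
universe u
open Cfsg

namespace Cfsg.Agent.S5328

/-- Every fusion system over a finite p-group S, saturated or not, is realized inside some finite group: there is a finite group G and an injective homomorphism ι of S into G such that the maps of the system are exactly the homomorphisms between subgroups of S that become conjugations by elements of G (the image of S need not be a Sylow p-subgroup of G). -/
theorem result {Ω : Type u} [Group Ω] {S : Subgroup Ω} [Finite S] (p : ℕ) [Fact p.Prime] (hS : IsPGroup p S) (F : Cfsg.FusionSystem S) : ∃ (G : Type u) (_ : Group G) (_ : Finite G) (ι : ↥S →* G), F.IsRealizedBy ι := by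
  exact Cfsg.Agent.H800.Realize.exists_realization F

end Cfsg.Agent.S5328
end
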