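import Mathlib
import Cfsg.Agent.H810.Basic
import Cfsg.Agent.H845.T6Iso
import Cfsg.Agent.H831.Short
import Cfsg.Statements.S5374
import Cfsg.Agent.H831.Types
import Cfsg.Agent.H810.Width
set_option linter.all false

-- part: H810/Seven
section
set_option autoImplicit false

/-!
# Type `T7`: the centralizer of a transposition is quasisimple

For a Fischer group of type `T7` and `x ∈ D`: `x` is the product of six members of `D_x`,
`⟨D_x⟩ = C(x)` is perfect with centre `⟨x⟩`, its quotient is simple, and `G` is simple.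
-/

namespace Cfsg.Agent.H810.Seven

open Cfsg Cfsg.Agent.SporadicStructure.FischerSpace Cfsg.Agent.ThreeTransPolar.Basic
open Cfsg.Agent.ThreeTransPolar.Lines
open Cfsg.Agent.Fischer160.Inherit hiding Dx
open Cfsg.Agent.Fischer480.Defs hiding FGroup
open Cfsg.Agent.TSp.Basic hiding FGroup
open Cfsg.Agent.TSp.Perp Cfsg.Agent.TSp.LTrans Cfsg.Agent.TSp.CL Cfsg.Agent.TSp.Orders
open Cfsg.Agent.TSp.OrdersT
open Cfsg.Agent.S0480U.UModel Cfsg.Agent.H845.T6Hyp Cfsg.Agent.H831.Short

universe u

variable {G : Type u} [Group G] {D : Set G}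

/-- five distinct commuting members of `D_x` whose product is `x`, type `T6` -/
theorem exists_line5 [Finite G] (F : FGroup D) (h : N6 D) {x : G} (hx : x ∈ D) :
    ∃ b : Fin 5 → G, Function.Injective b ∧ (∀ i, b i ∈ Loc D x) ∧ (∀ i j, Commute (b i) (b j)) ∧
      b 0 * b 1 * b 2 * b 3 * b 4 = x := by
  obtain ⟨u0, hu0, hu0x, hcu0⟩ := (rk_of_FGroup F).exPerp x hx
  have hU := h.loc x hx
  have hu0' : u0 ∈ Loc D x := ⟨hu0, hu0x, hcu0⟩
  obtain ⟨w, hw, hu0w⟩ := Cfsg.Agent.S0480U.UComb.exists_not_commute' hU hu0'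
  obtain ⟨u, hu, v, hv, huv, hc⟩ := exists_pair (isU_com (n := 4) hU hu0' hw hu0w)
  have hu' : u ∈ Loc D x := hu.1
  have hv' : v ∈ Loc D x := hv.1
  have hcard := Cfsg.Agent.S0480U.UComb.card_line' hU hu' hv' huv hc
  have hfin : Finite (Line (Loc D x) u v) := Set.toFinite _
  have hcard' : Nat.card (Line (Loc D x) u v) = 5 := hcard
  let e : Fin 5 ≃ Line (Loc D x) u v := (Finite.equivFinOfCardEq hcard').symm
  have hinj : Function.Injective (fun i => (e i : G)) := fun i j hij =>
    e.injective (Subtype.ext hij)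
  have hL : ∀ i, (e i : G) ∈ Line (Loc D x) u v := fun i => (e i).2
  have hcomm : ∀ i j, Commute (e i : G) (e j) := fun i j =>
    Line_commute hu' hv' hc (hL i) (hL j)
  refine ⟨fun i => (e i : G), hinj, fun i => Line_mem (hL i), hcomm, ?_⟩
  refine line_prod F h hx (fun i => (e i : G)) (fun i => Line_mem (hL i)) hinj hcomm ?_
  intro i
  rw [Cfsg.Agent.S0480U.UComb.line_eq' hU hu' hv' hc (hL 0) (hL 1)
    (fun h01 => by have := hinj h01; exact absurd this (by decide))]
  exact hL i

section Seven

variable [Finite G] (F : FGroup D) (h : N7 D) {x : G} (hx : x ∈ D)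
include F h hx

/-- `x` is the product of six members of `D_x` -/
theorem exists_six : ∃ l : List G, l.length = 6 ∧ (∀ b ∈ l, b ∈ Loc D x) ∧ l.prod = x := by
  obtain ⟨y, hy, hyx, hc⟩ := (rk_of_FGroup F).exPerp x hx
  have ht := thin_N7 h
  have hth := thin_of_thinLines ht hy
  have FE := inherit_N7 F h hy
  have NE : N6 (Eb D y) := n6_transport (cIso_Eb F.fd ht hy) (h.loc y hy)
  have hxy : x ∈ Loc D y := ⟨hx, hyx.symm, hc.symm⟩
  have he : β D y x ∈ Eb D y := β_mem hxy
  obtain ⟨b, hinj, hb, hcomm, hprod⟩ := exists_line5 FE NE he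
  choose a ha hab using fun i => β_surj (hb i).1
  have hinj' : ∀ i j, a i = a j → i = j := by
    intro i j hij
    apply hinj
    rw [← hab i, ← hab j, hij]
  have hax : ∀ i, a i ≠ x := by
    intro i hi
    apply (hb i).2.1
    rw [← hab i, hi]
  have hcx : ∀ i, Commute x (a i) := by
    intro i
    have h1 := (hb i).2.2
    rw [← hab i] at h1
    exact (β_commute F.fd hth hxy (ha i)).1 h1
  have hcc : ∀ i j, Commute (a i) (a j) := by
    intro i j
    have h1 := hcomm i j
    rw [← hab i, ← hab j] at h1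
    exact (β_commute F.fd hth (ha i) (ha j)).1 h1
  have haH : ∀ i, a i ∈ HH D y := fun i => mem_HH_of (ha i)
  have hxH : x ∈ HH D y := mem_HH_of hxy
  have hβ : β D y (a 0 * a 1 * a 2 * a 3 * a 4) = β D y x := by
    rw [β_mul (mul_mem (mul_mem (mul_mem (haH 0) (haH 1)) (haH 2)) (haH 3)) (haH 4),
      β_mul (mul_mem (mul_mem (haH 0) (haH 1)) (haH 2)) (haH 3),
      β_mul (mul_mem (haH 0) (haH 1)) (haH 2), β_mul (haH 0) (haH 1), hab, hab, hab, hab, hab]
    exact hprod
  set p := a 0 * a 1 * a 2 * a 3 * a 4 with hp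
  have hpH : p ∈ HH D y :=
    mul_mem (mul_mem (mul_mem (mul_mem (haH 0) (haH 1)) (haH 2)) (haH 3)) (haH 4)
  have hcen : (⟨x * p, mul_mem hxH hpH⟩ : HH D y) ∈ Subgroup.center (HH D y) := by
    rw [← QuotientGroup.eq_one_iff, ← β_of (mul_mem hxH hpH), β_mul hxH hpH, hβ, ← β_mul hxH hxH,
      F.fd.sq x hx, β_of (one_mem _)]
    rfl
  have hθ := theta_N7 F.fd subset_rfl (tset_of_fdata F.fd) h
  have hT : IsThreeTranspositionSet D := (isThree_of_fdata F.fd).1
  rcases (mem_center_HH F hθ hy).1 hcen with h1 | h1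
  · -- a relation with six members
    exfalso
    have h7 : IsT7 D := ⟨h.card, fun x hx => ⟨(h.loc x hx).card, (h.loc x hx).loc,
      fun a ha b hb hab => (h.loc x hx).com a ha b hb hab⟩, fun a ha b hb hab =>
      h.com a ha b hb hab⟩
    have h2 := noRel_seven hT h7 [x, a 0, a 1, a 2, a 3, a 4] (by
        have n : ∀ i j, i ≠ j → a i ≠ a j := fun i j hij hh => hij (hinj' i j hh)
        simp only [List.nodup_cons, List.mem_cons, List.not_mem_nil, or_false, not_or,
          List.nodup_nil, and_true, not_false_eq_true]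
        exact ⟨⟨(hax 0).symm, (hax 1).symm, (hax 2).symm, (hax 3).symm, (hax 4).symm⟩,
          ⟨n _ _ (by decide), n _ _ (by decide), n _ _ (by decide), n _ _ (by decide)⟩,
          ⟨n _ _ (by decide), n _ _ (by decide), n _ _ (by decide)⟩,
          ⟨n _ _ (by decide), n _ _ (by decide)⟩, n _ _ (by decide)⟩) (by
        intro c hc'
        simp only [List.mem_cons, List.not_mem_nil, or_false] at hc'
        rcases hc' with rfl | rfl | rfl | rfl | rfl | rfl
        · exact hx
        all_goals exact (ha _).1) (by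
        intro c hc' d hd'
        simp only [List.mem_cons, List.not_mem_nil, or_false] at hc' hd'
        rcases hc' with rfl | rfl | rfl | rfl | rfl | rfl <;>
          rcases hd' with rfl | rfl | rfl | rfl | rfl | rfl <;>
          first
            | exact Commute.refl _
            | exact hcx _
            | exact (hcx _).symm
            | exact hcc _ _) (by
        have h3 : x * p = 1 := h1
        simp only [List.prod_cons, List.prod_nil, mul_one]
        rw [← h3, hp]
        simp only [mul_assoc]) (by simp)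
    exact absurd h2 (by simp)
  · have h3 : x * p = y := h1
    refine ⟨[y, a 0, a 1, a 2, a 3, a 4], rfl, ?_, ?_⟩
    · intro c hc'
      simp only [List.mem_cons, List.not_mem_nil, or_false] at hc'
      rcases hc' with rfl | rfl | rfl | rfl | rfl | rfl
      · exact ⟨hy, hyx, hc⟩
      all_goals exact ⟨(ha _).1, hax _, hcx _⟩
    · simp only [List.prod_cons, List.prod_nil, mul_one]
      have h4 : y * p = x := by
        have hpx : Commute x p :=
          ((((hcx 0).mul_right (hcx 1)).mul_right (hcx 2)).mul_right (hcx 3)).mul_right (hcx 4)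
        have hpp : p * p = 1 := by
          have hTs := sq_prod hT [a 0, a 1, a 2, a 3, a 4] (by
            intro c hc'
            simp only [List.mem_cons, List.not_mem_nil, or_false] at hc'
            rcases hc' with rfl | rfl | rfl | rfl | rfl
            all_goals exact (ha _).1) (by
            intro c hc' d hd'
            simp only [List.mem_cons, List.not_mem_nil, or_false] at hc' hd'
            rcases hc' with rfl | rfl | rfl | rfl | rfl <;>
              rcases hd' with rfl | rfl | rfl | rfl | rfl <;> exact hcc _ _)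
          simp only [List.prod_cons, List.prod_nil, mul_one, ← mul_assoc] at hTs
          rw [hp]
          simp only [← mul_assoc]
          exact hTs
        rw [← h3, mul_assoc, hpp, mul_one]
      rw [← h4, hp]
      simp only [mul_assoc]

theorem mem_HH_self : x ∈ HH D x := by
  obtain ⟨l, -, hl, hp⟩ := exists_six F h hx
  have h1 : l.prod ∈ HH D x := Subgroup.list_prod_mem _ fun b hb => mem_HH_of (hl b hb)
  rwa [hp] at h1

/-- `⟨D_x⟩ = C(x)` -/
theorem HH_eq : HH D x = Subgroup.centralizer ({x} : Set G) := by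
  rw [← LL_eq_centralizer (cl_seven F h) hx]
  refine le_antisymm (HH_le_LL x) ?_
  rw [LL, Subgroup.closure_le]
  rintro d ⟨hd, hdx⟩
  by_cases hd' : d = x
  · rw [hd']; exact mem_HH_self F h hx
  · exact mem_HH_of ⟨hd, hd', hdx.symm⟩

theorem mem_center_iff {z : HH D x} : z ∈ Subgroup.center (HH D x) ↔ (z : G) = 1 ∨ (z : G) = x :=
  mem_center_HH F (theta_N7 F.fd subset_rfl (tset_of_fdata F.fd) h) hx

theorem iso_KK : Nonempty (Cfsg.Spor.Fi22 ≃* KK D x) := by
  have ht := thin_N7 h
  have FE := inherit_N7 F h hx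
  have h7 : IsT6 (Eb D x) := by
    have NE : N6 (Eb D x) := n6_transport (cIso_Eb F.fd ht hx) (h.loc x hx)
    exact ⟨NE.card, NE.loc, fun a ha b hb hab => NE.com a ha b hb hab⟩
  obtain ⟨e, -⟩ := Cfsg.Agent.H845.T6Iso.exists_iso
    (D := Eb D x) ⟨isThree_of_fdata FE.fd, FE.sol, FE.perf⟩ h7
  exact ⟨e⟩

theorem simple_KK : IsSimpleGroup (KK D x) := by
  obtain ⟨e⟩ := iso_KK F h hx
  have hs : IsSimpleGroup Cfsg.Spor.Fi22 := Cfsg.Agent.S1696.result.1
  exact e.symm.isSimpleGroup

theorem perfect_KK : commutator (KK D x) = ⊤ := by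
  have hs := simple_KK F h hx
  have FE := inherit_N7 F h hx
  rcases hs.eq_bot_or_eq_top_of_normal (commutator (KK D x)) inferInstance with h1 | h1
  · exfalso
    have h2 : Group.IsSolvable (KK D x) := ⟨1, by rw [derivedSeries_one]; exact h1⟩
    have h3 := FE.sol ⊤ inferInstance (by infer_instance)
    have := hs.toNontrivial
    exact top_ne_bot h3
  · exact h1

theorem perfect_HH : commutator (HH D x) = ⊤ := by
  obtain ⟨l, hlen, hl, hp⟩ := exists_six F h hx
  exact Basic.perfect_HH F hx (fun z hz => (mem_center_iff F h hx).1 hz) l hl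
    (by rw [hlen]; decide) hp (perfect_KK F h hx)

theorem quasisimple_HH : Cfsg.IsQuasisimple (HH D x) :=
  ⟨Group.isPerfect_def.2 (perfect_HH F h hx), simple_KK F h hx⟩

theorem center_HH : Subgroup.center (HH D x) = (Subgroup.zpowers x).subgroupOf (HH D x) := by
  ext z
  rw [mem_center_iff F h hx, Subgroup.mem_subgroupOf]
  constructor
  · rintro (h1 | h1)
    · rw [h1]; exact one_mem _
    · rw [h1]; exact Subgroup.mem_zpowers x
  · rintro ⟨k, hk⟩
    have hk' : x ^ k = (z : G) := hk
    rcases Int.even_or_odd' k with ⟨m, rfl | rfl⟩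
    · left
      rw [← hk', zpow_mul, zpow_ofNat, pow_two, F.fd.sq x hx, one_zpow]
    · right
      rw [← hk', zpow_add, zpow_mul, zpow_ofNat, pow_two, F.fd.sq x hx, one_zpow, one_mul, zpow_one]

omit h hx x in
/-- a Fischer group of type `T7` is perfect -/
theorem perfect_G (h : N7 D) : commutator G = ⊤ := by
  obtain ⟨x, hx⟩ := F.fd.nonempty
  have h1 : x ∈ commutator G := by
    have h2 : (commutator (HH D x)).map (HH D x).subtype ≤ commutator G := by
      rw [commutator_def, Subgroup.map_commutator, commutator_def]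
      exact Subgroup.commutator_mono le_top le_top
    apply h2
    rw [perfect_HH F h hx]
    exact ⟨⟨x, mem_HH_self F h hx⟩, trivial, rfl⟩
  rw [eq_top_iff, ← F.fd.gen, Subgroup.closure_le]
  intro d hd
  obtain ⟨g, rfl⟩ := F.fd.single x hx d hd
  exact (inferInstance : (commutator G).Normal).conj_mem x h1 g

omit h hx x in
/-- **a Fischer group of type `T7` is simple** -/
theorem simple_G (h : N7 D) : IsSimpleGroup G :=
  Basic.isSimple_of_perfect F (perfect_G F h)

end Seven

end Cfsg.Agent.H810.Seven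
end

-- part: S5374
section
set_option autoImplicit false
open Cfsg

namespace Cfsg.Agent.S5374

/-- Let G be a finite group with trivial centre generated by a conjugation-invariant set D of 3-transpositions on which it acts primitively, of type M(23), and suppose some finite primitive 3-transposition group of type M(24) exists. Then G is simple, D has exactly 31671 members, G has order 2^18 · 3^13 · 5^2 · 7 · 11 · 13 · 17 · 23, the width of D is 23, and for every d in D the subgroup H generated by the members of D other than d commuting with d is the centralizer of d and is quasisimple with centre generated by d. -/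
theorem result {G : Type*} [Group G] [Finite G] {D : Set G} (hD : Cfsg.IsThreeTranspositionGroup D) (hprim : Cfsg.IsPrimitiveUnderConj D) (ht : Cfsg.IsOfTypeM23 G D) (hex : ∃ (X : Type) (_ : Group X) (_ : Finite X) (E : Set X), Cfsg.IsThreeTranspositionClass E ∧ Cfsg.IsPrimitiveUnderConj E ∧ Cfsg.IsOfTypeM24 X E) : IsSimpleGroup G ∧ D.ncard = 31671 ∧ Nat.card G = 2 ^ 18 * 3 ^ 13 * 5 ^ 2 * 7 * 11 * 13 * 17 * 23 ∧ Cfsg.commutingWidth D = 23 ∧ ∀ d ∈ D, Subgroup.closure {y : G | y ∈ D ∧ y ≠ d ∧ Commute d y} = Subgroup.centralizer ({d} : Set G) ∧ Cfsg.IsQuasisimple ↥(Subgroup.closure {y : G | y ∈ D ∧ y ≠ d ∧ Commute d y}) ∧ Subgroup.center ↥(Subgroup.closure {y : G | y ∈ D ∧ y ≠ d ∧ Commute d y}) = (Subgroup.zpowers d).subgroupOf (Subgroup.closure {y : G | y ∈ D ∧ y ≠ d ∧ Commute d y}) := by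
  have F := Cfsg.Agent.H831.Types.fgroup_m23 hD hprim ht
  have F' := Cfsg.Agent.TSp.OrdersT.inh F
  have h7 := Cfsg.Agent.H831.Types.isT7 hD hprim ht
  have n7 := Cfsg.Agent.TSp.OrdersT.n7_of_isT7 h7
  refine ⟨Cfsg.Agent.H810.Seven.simple_G F' n7, h7.1, ?_, Cfsg.Agent.H810.Width.width_T7 h7, ?_⟩
  · rw [Cfsg.Agent.TSp.OrdersT.card_T7 F h7]
    norm_num
  · intro d hd
    exact ⟨Cfsg.Agent.H810.Seven.HH_eq F' n7 hd, Cfsg.Agent.H810.Seven.quasisimple_HH F' n7 hd,
      Cfsg.Agent.H810.Seven.center_HH F' n7 hd⟩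

end Cfsg.Agent.S5374
end
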