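import Mathlib
import Cfsg.Agent.H810.Basic
import Cfsg.Agent.H845.T6Iso
import Cfsg.Statements.S5376
import Cfsg.Agent.H831.Types
set_option linter.all false

-- part: H810/Six
section
set_option autoImplicit false

/-!
# Type `T6`: the centralizer of a transposition is quasisimple

For a Fischer group of type `T6` and `x ∈ D`: `⟨D_x⟩` is quasisimple with centre `⟨x⟩`, and `G` is
simple.
-/

namespace Cfsg.Agent.H810.Six

open Cfsg Cfsg.Agent.SporadicStructure.FischerSpace Cfsg.Agent.ThreeTransPolar.Basic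
open Cfsg.Agent.ThreeTransPolar.Lines
open Cfsg.Agent.Fischer160.Inherit hiding Dx FGroup
open Cfsg.Agent.Fischer480.Defs hiding FGroup
open Cfsg.Agent.TSp.Perp Cfsg.Agent.TSp.LTrans
open Cfsg.Agent.TSp.CL Cfsg.Agent.TSp.Orders Cfsg.Agent.TSp.OrdersT
open Cfsg.Agent.S0480U.UModel Cfsg.Agent.Fischer920.PsuEnd Cfsg.Agent.S0480U.Herm
open Cfsg.Agent.H845.T6Iso

universe u

variable {G : Type u} [Group G] {D : Set G}

/-- a Fischer group of type `U(6)` is simple -/
theorem simple_of_isU [Finite G] (F : Cfsg.Agent.Fischer160.Inherit.FGroup D) (hU : IsU 6 D) :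
    IsSimpleGroup G := by
  obtain ⟨L, i1, i2, f, U⟩ := exists_um hU
  have hT := Cfsg.Agent.TSp.Basic.tset_of_fdata F.fd
  have hfin := U.fin
  obtain ⟨e, -⟩ := exists_equiv_psu F.fd
    (SporadicStructure.FischerPrimitive.center_eq_bot F.sol) (by
      intro a ha b hb hab c hc hall
      rcases um_hyp U F.fd subset_rfl (fun a ha b hb => hT.closed a ha b hb) (by norm_num)
        ha hb hab hc hall with h1 | h1 | h1
      · exact Or.inl h1
      · exact Or.inr (Or.inl h1)
      · right; right
        rw [h1, cj_eq_mul F.fd ha]) U.card U.herm U.dim (by norm_num) f U.ne U.iso U.comm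
    U.inj U.surj
  have hs : IsSimpleGroup (PSU 6 L 2) :=
    Cfsg.Agent.S0283.result (q := 2) (by rw [U.card]; norm_num) 6 (by norm_num) (by norm_num)
  exact e.isSimpleGroup

section Local

variable [Finite G] (F : Cfsg.Agent.Fischer160.Inherit.FGroup D) (h : N6 D) {x : G} (hx : x ∈ D)
include F h hx

theorem simple_KK : IsSimpleGroup (KK D x) :=
  simple_of_isU (inherit_N6 F h hx) (Fischer480.Transport.isU
    (Fischer480.Transport.CIso.symm (cIso_Eb F.fd (thin_N6 h) hx)) (h.loc x hx))

theorem quasisimple_HH : Cfsg.IsQuasisimple (HH D x) :=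
  ⟨Group.isPerfect_def.2 (perfect_HH F h hx), simple_KK F h hx⟩

theorem center_HH : Subgroup.center (HH D x) = (Subgroup.zpowers x).subgroupOf (HH D x) := by
  ext z
  rw [mem_center_iff F h hx, Subgroup.mem_subgroupOf]
  constructor
  · rintro (h1 | h1)
    · rw [h1]; exact one_mem _
    · rw [h1]; exact Subgroup.mem_zpowers x
  · rintro ⟨k, hk⟩
    have hk' : x ^ k = (z : G) := hk
    rcases Int.even_or_odd' k with ⟨m, rfl | rfl⟩
    · left
      rw [← hk', zpow_mul, zpow_ofNat, pow_two, F.fd.sq x hx, one_zpow]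
    · right
      rw [← hk', zpow_add, zpow_mul, zpow_ofNat, pow_two, F.fd.sq x hx, one_zpow, one_mul, zpow_one]

omit h hx x in
/-- a Fischer group of type `T6` is perfect -/
theorem perfect_G (h : N6 D) : commutator G = ⊤ := by
  obtain ⟨x, hx⟩ := F.fd.nonempty
  have h1 : x ∈ commutator G := by
    have h2 : (commutator (HH D x)).map (HH D x).subtype ≤ commutator G := by
      rw [commutator_def, Subgroup.map_commutator, commutator_def]
      exact Subgroup.commutator_mono le_top le_top
    apply h2
    rw [perfect_HH F h hx]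
    exact ⟨⟨x, mem_HH_self F h hx⟩, trivial, rfl⟩
  rw [eq_top_iff, ← F.fd.gen, Subgroup.closure_le]
  intro d hd
  obtain ⟨g, rfl⟩ := F.fd.single x hx d hd
  exact (inferInstance : (commutator G).Normal).conj_mem x h1 g

omit h hx x in
/-- **a Fischer group of type `T6` is simple** -/
theorem simple_G (h : N6 D) : IsSimpleGroup G :=
  Basic.isSimple_of_perfect F (perfect_G F h)

end Local

end Cfsg.Agent.H810.Six
end

-- part: S5376
section
set_option autoImplicit false
open Cfsg

namespace Cfsg.Agent.S5376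

/-- Let G be a finite group with trivial centre generated by a conjugation-invariant set D of 3-transpositions on which it acts primitively, of type M(22), and suppose some finite primitive 3-transposition group of type M(23) exists. Then G is simple, and for every d in D the subgroup generated by the members of D other than d commuting with d contains d and is quasisimple with centre generated by d. -/
theorem result {G : Type*} [Group G] [Finite G] {D : Set G} (hD : Cfsg.IsThreeTranspositionGroup D) (hprim : Cfsg.IsPrimitiveUnderConj D) (ht : Cfsg.IsOfTypeM22 G D) (hex : ∃ (X : Type) (_ : Group X) (_ : Finite X) (E : Set X), Cfsg.IsThreeTranspositionClass E ∧ Cfsg.IsPrimitiveUnderConj E ∧ Cfsg.IsOfTypeM23 X E) : IsSimpleGroup G ∧ ∀ d ∈ D, d ∈ Subgroup.closure {y : G | y ∈ D ∧ y ≠ d ∧ Commute d y} ∧ Cfsg.IsQuasisimple ↥(Subgroup.closure {y : G | y ∈ D ∧ y ≠ d ∧ Commute d y}) ∧ Subgroup.center ↥(Subgroup.closure {y : G | y ∈ D ∧ y ≠ d ∧ Commute d y}) = (Subgroup.zpowers d).subgroupOf (Subgroup.closure {y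 : G | y ∈ D ∧ y ≠ d ∧ Commute d y}) := by
  have F := Cfsg.Agent.H831.Types.fgroup_m22 hD hprim ht
  have F' := Cfsg.Agent.TSp.OrdersT.inh F
  have h6 := Cfsg.Agent.H831.Types.isT6 hD hprim ht
  have n6 := Cfsg.Agent.TSp.OrdersT.n6_of_isT6 h6
  refine ⟨Cfsg.Agent.H810.Six.simple_G F' n6, ?_⟩
  intro d hd
  exact ⟨Cfsg.Agent.H845.T6Iso.mem_HH_self F' n6 hd, Cfsg.Agent.H810.Six.quasisimple_HH F' n6 hd,
    Cfsg.Agent.H810.Six.center_HH F' n6 hd⟩

end Cfsg.Agent.S5376
end
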