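import Cfsg.Agent.MFive.JTwo
import Cfsg.Agent.J2Type.OmegaCard
import Cfsg.Agent.LThreeMB.FStar
import Cfsg.Statements.S5403
import Cfsg.Agent.S1620
set_option linter.all false

-- part: H817/JTwoHyp
section
/-!
# The involution centraliser in `C_{Co1}(s) / ⟨s⟩ ≅ J₂`

* `quot_equiv` : a group with a normal self-centralising extraspecial subgroup of order 32 and
  quotient of order 60 has quotient isomorphic to `Ω⁻(4, 2)`;
* `fstar` : and the subgroup is the generalized Fitting subgroup;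
* `facts` : the hypotheses of Hall–Janko type from helper49's data.
-/

set_option autoImplicit false

namespace Cfsg.Agent.H817.JTwoHyp

open Cfsg Subgroup Cfsg.Agent.MFive.JCore Cfsg.Agent.J2Type.Model

/-- The group `Ω⁻(4,2)` is the alternating group of degree five. -/
theorem omega_equiv :
    Nonempty (↥(alternatingGroup (Fin 5)) ≃*
      Cfsg.Omega (ZMod 2) (Cfsg.quadFormMinus 1 (ZMod 2) 1 1)) := by
  obtain ⟨e⟩ := Cfsg.Agent.S0824.result (F := ZMod 2) (ZMod.card 2)
  have h1 : (commutator (Cfsg.isometryGroup (ZMod 2) (Cfsg.quadFormMinus 1 (ZMod 2) 1 1))).map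
      e.toMonoidHom = alternatingGroup (Fin 5) := by
    rw [← Cfsg.Agent.J2Type.OmegaCard.commutator_perm_five,
      _root_.commutator_def, Subgroup.map_commutator, _root_.commutator_def]
    rw [Subgroup.map_top_of_surjective e.toMonoidHom e.surjective]
  exact ⟨((e.subgroupMap _).trans (MulEquiv.subgroupCongr h1)).symm⟩

section A5

variable {C : Type*} [Group C] {Q : Subgroup C} {z : C} {v : Fin 5 → C} {ρ : C →* SP}

/-- the permutation of the five letters -/
def perm (ρ : C →* SP) : C →* Equiv.Perm (Fin 5) where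
  toFun c := (ρ c).σ
  map_one' := by rw [map_one]; rfl
  map_mul' a b := by rw [map_mul]; rfl

theorem perm_mem (M : IsModel Q z v ρ) (c : C) : perm ρ c ∈ alternatingGroup (Fin 5) := by
  rw [Equiv.Perm.mem_alternatingGroup]
  exact ((M.range (ρ c)).1 ⟨c, rfl⟩).1

/-- the map onto the alternating group -/
def alt (M : IsModel Q z v ρ) : C →* ↥(alternatingGroup (Fin 5)) :=
  (perm ρ).codRestrict _ (perm_mem M)

theorem alt_surj (M : IsModel Q z v ρ) : Function.Surjective (alt M) := by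
  rintro ⟨g, hg⟩
  rw [Equiv.Perm.mem_alternatingGroup] at hg
  obtain ⟨c, hc⟩ := (M.range ⟨g, fun _ => 0⟩).2 ⟨hg, by simp⟩
  refine ⟨c, Subtype.ext ?_⟩
  show (ρ c).σ = g
  rw [hc]

theorem alt_ker (M : IsModel Q z v ρ) : (alt M).ker = Q := by
  ext c
  rw [MonoidHom.mem_ker, M.mem_Q]
  constructor
  · intro h
    exact congrArg Subtype.val h
  · intro h
    exact Subtype.ext h

end A5

/-- The quotient is `Ω⁻(4,2)` and `Q` is the generalized Fitting subgroup. -/
theorem quot_fstar {C : Type*} [Group C] [Finite C] (Q : Subgroup C) [Q.Normal]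
    (hQ : Cfsg.IsExtraspecial 2 Q) (hcard : Nat.card Q = 32)
    (hC : Subgroup.centralizer (Q : Set C) ≤ Q) (h60 : Nat.card (C ⧸ Q) = 60) :
    Cfsg.generalizedFittingSubgroup C = Q ∧
    Nonempty (C ⧸ Q ≃* Cfsg.Omega (ZMod 2) (Cfsg.quadFormMinus 1 (ZMod 2) 1 1)) := by
  obtain ⟨z, v, ρ, M⟩ := Cfsg.Agent.J2Type.ModelExists.exists_model Q hQ hcard hC h60
  constructor
  · apply Cfsg.Agent.LThreeMB.genFitting_eq Q ?_ hC
    · intro N hN hN2
      have hn : (N.map (alt M)).Normal := hN.map _ (alt_surj M)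
      have hs : IsSimpleGroup ↥(alternatingGroup (Fin 5)) :=
        alternatingGroup.isSimpleGroup (by simp)
      rcases hs.eq_bot_or_eq_top_of_normal _ hn with h | h
      · rw [← alt_ker M]
        exact (Subgroup.map_eq_bot_iff _).1 h
      · exfalso
        have h2 : IsPGroup 2 ↥(N.map (alt M)) := hN2.map _
        rw [h] at h2
        have h3 := h2.of_equiv (Subgroup.topEquiv)
        obtain ⟨n, hn⟩ := IsPGroup.iff_card.1 h3
        have h60' : Nat.card ↥(alternatingGroup (Fin 5)) = 60 := by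
          rw [nat_card_alternatingGroup, Nat.card_eq_fintype_card, Fintype.card_fin]
          rfl
        rw [h60'] at hn
        have : 3 ∣ 2 ^ n := ⟨20, by omega⟩
        have := Nat.prime_three.dvd_of_dvd_pow this
        omega
    · apply IsPGroup.of_card (n := 5)
      rw [hcard]; norm_num
  · obtain ⟨e⟩ := omega_equiv
    have e1 : C ⧸ Q ≃* C ⧸ (alt M).ker := QuotientGroup.quotientMulEquivOfEq (alt_ker M).symm
    exact ⟨(e1.trans (QuotientGroup.quotientKerEquivOfSurjective _ (alt_surj M))).trans e⟩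

section Facts

variable {D X : Type*} [Group D] [Group X] {f : D →* X} {s m ε w : D} {R : Subgroup D}

/-- **The facts.** -/
theorem facts [Finite D] (H : Data f s m ε w R) {v₀ v₁ v₂ v₃ i j f₃ f₅ g : D}
    (E : Elts s m ε w R v₀ v₁ v₂ v₃ i j f₃ f₅ g) :
    orderOf (f ε) = 2 ∧ (QQ f ε R).Normal ∧ IsExtraspecial 2 (QQ f ε R) ∧
      Nat.card (QQ f ε R) = 32 ∧
      centralizer ((QQ f ε R) : Set (centralizer ({f ε} : Set X))) ≤ QQ f ε R ∧
      (∀ hn : (QQ f ε R).Normal, Nat.card (centralizer ({f ε} : Set X) ⧸ QQ f ε R) = 60) ∧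
      ∃ u : X, (∃ hq : u * f ε * u⁻¹ ∈ centralizer ({f ε} : Set X),
        (⟨u * f ε * u⁻¹, hq⟩ : centralizer ({f ε} : Set X)) ∈ QQ f ε R) ∧ u * f ε * u⁻¹ ≠ f ε := by
  have hX : Finite X := Finite.of_surjective f H.surj
  have hz2 : f ε * f ε = 1 := by rw [← map_mul, H.εε, map_one]
  have hw1 : w ≠ 1 := fun h => H.ε1 (by rw [← H.f_w, h, map_one])
  -- the element `z` of the centralizer
  let z : centralizer ({f ε} : Set X) := ct f (d := ε) rfl
  have hzc : ∀ c : centralizer ({f ε} : Set X), c * z = z * c := fun c =>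
    Subtype.ext (mem_centralizer_singleton_iff.1 c.2)
  have hzz : z * z = 1 := Subtype.ext hz2
  have hz1 : z ≠ 1 := fun h => H.ε1 (congrArg Subtype.val h)
  have hn := H.normal
  have h32 : Nat.card (QQ f ε R) = 32 := by rw [← Nat.card_congr H.equiv.toEquiv, H.card]
  have hex : IsExtraspecial 2 (QQ f ε R) := Cfsg.Agent.J2.ExtQuot.isExtraspecial_of_equiv H.equiv H.extra
  have hw : f w = f ε := H.f_w
  have key := Cfsg.Agent.MFive.JAbs.sixty (QQ f ε R) z hzc hzz hz1 h32 (by
      intro q hq r hr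
      obtain ⟨a, ha, hqa⟩ := mem_QQ.1 hq
      obtain ⟨b, hb, hrb⟩ := mem_QQ.1 hr
      rcases H.RR a ha b hb with h | h
      · left
        apply Subtype.ext
        show (q : X) * r = r * q
        rw [← hqa, ← hrb, ← map_mul, h, map_mul]
      · right
        apply Subtype.ext
        show (q : X) * r = f ε * (r * q)
        rw [← hqa, ← hrb, ← map_mul, h, map_mul, map_mul, hw])
    H.card_le (v₀ := ct f (H.comm _ E.h0)) (v₁ := ct f (H.comm _ E.c1)) (v₂ := ct f (H.comm _ E.c2))
    (v₃ := ct f (H.comm _ E.c3)) (mem_QQ.2 ⟨_, E.h0, rfl⟩)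
    (by apply Subtype.ext; show f v₀ * f v₁ = f ε * (f v₁ * f v₀); rw [← map_mul, E.h01, map_mul, map_mul, hw])
    (by apply Subtype.ext; show f v₀ * f v₂ = f ε * (f v₂ * f v₀); rw [← map_mul, E.h02, map_mul, map_mul, hw])
    (by apply Subtype.ext; show f v₀ * f v₃ = f ε * (f v₃ * f v₀); rw [← map_mul, E.h03, map_mul, map_mul, hw])
    (by apply Subtype.ext; show f v₁ * f v₃ = f ε * (f v₃ * f v₁); rw [← map_mul, E.h13, map_mul, map_mul, hw])
    (i := ct f E.iε) (j := ct f E.jε) (f₃ := ct f E.f3ε) (f₅ := ct f E.f5ε)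
    (by apply Subtype.ext; show f i * f i = 1; rw [← map_mul, E.ii, H.f_m])
    (by apply Subtype.ext; show f j * f j = 1; rw [← map_mul, E.jj, H.f_m])
    (by apply Subtype.ext; show f j * f i = f i * f j; rw [← map_mul, E.ji, map_mul, H.f_m, one_mul, map_mul])
    (by apply Subtype.ext; show f f₃ * f f₃ * f f₃ = 1; rw [← map_mul, ← map_mul, E.hf3, map_one])
    (by apply Subtype.ext; show f f₅ * f f₅ * f f₅ * f f₅ * f f₅ = 1
        rw [← map_mul, ← map_mul, ← map_mul, ← map_mul, E.hf5, map_one])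
    (by apply Subtype.ext; show f i * f v₀ = f ε * (f v₁ * f i); rw [← map_mul, E.hi, map_mul, map_mul, hw])
    (by apply Subtype.ext; show f j * f v₀ = f ε * (f v₃ * f j); rw [← map_mul, E.hj, map_mul, map_mul, hw])
    (by apply Subtype.ext; show f f₃ * f v₀ = f v₂ * f f₃; rw [← map_mul, E.h3, map_mul])
    (by apply Subtype.ext; show f f₅ * f v₀ = f ε * (f v₃ * f f₅); rw [← map_mul, E.h5, map_mul, map_mul, hw])
  obtain ⟨h60, hC⟩ := key
  have hord : ∀ x : X, x * x = 1 → x ≠ 1 → orderOf x = 2 := fun x h1 h2 =>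
    orderOf_eq_prime (by rw [_root_.pow_two, h1]) h2
  have hv0 : v₀ ≠ w := by
    intro h
    have h1 := E.h01
    rw [h, H.w_eq] at h1
    -- `w v₁ = w (v₁ w)` gives `w = 1`
    rw [← H.w_eq] at h1
    have h2 : v₁ = v₁ * w := mul_left_cancel h1
    exact hw1 (mul_left_cancel (a := v₁) (by rw [mul_one]; exact h2.symm))
  refine ⟨hord _ hz2 H.ε1, hn, hex, h32, hC, fun _ => h60, f g, ?_, ?_⟩
  · have e1 : f g * f ε * (f g)⁻¹ = f v₀ := by
      rw [mul_inv_eq_iff_eq_mul, ← map_mul, E.hg, map_mul]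
    have hm : f g * f ε * (f g)⁻¹ ∈ centralizer ({f ε} : Set X) := by
      rw [e1]; exact (ct f (H.comm _ E.h0)).2
    exact ⟨hm, mem_QQ.2 ⟨v₀, E.h0, e1.symm⟩⟩
  · have e1 : f g * f ε * (f g)⁻¹ = f v₀ := by
      rw [mul_inv_eq_iff_eq_mul, ← map_mul, E.hg, map_mul]
    rw [e1]
    intro h
    exact hv0 (H.inj E.h0 H.w_mem (h.trans hw.symm))

end Facts

end Cfsg.Agent.H817.JTwoHyp
end

-- part: S5403
section
set_option autoImplicit false
open Cfsg

namespace Cfsg.Agent.S5403

open Subgroup Cfsg.Agent.MFive Cfsg.Agent.MFive.JTwo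
open Cfsg.Agent.SporadicA Cfsg.Agent.SporadicA.Co0Mono Cfsg.Agent.SporadicA.Co1Simple
open Cfsg.Agent.LThreeMB

/-- the subgroup of order five -/
def A : Subgroup ↥Cfsg.Co0 := zpowers (Oct.e 0)

theorem cent_le : centralizer (A : Set ↥Cfsg.Co0) ≤ centralizer ({Oct.e 0} : Set ↥Cfsg.Co0) := by
  apply centralizer_le
  rintro _ rfl
  exact mem_zpowers _

theorem le_cent : centralizer ({Oct.e 0} : Set ↥Cfsg.Co0) ≤ centralizer (A : Set ↥Cfsg.Co0) := by
  intro g hg
  rw [mem_centralizer_singleton_iff] at hg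
  rw [mem_centralizer_iff]
  rintro _ ⟨k, rfl⟩
  have : Commute g (Oct.e 0) := hg
  exact (this.zpow_right k).symm

/-- the map onto the quotient -/
noncomputable def F : ↥(centralizer (A : Set ↥Cfsg.Co0)) →* XX s1 := f.comp (inclusion cent_le)

theorem F_surj : Function.Surjective F := by
  intro q
  obtain ⟨d, hd⟩ := surj q
  exact ⟨⟨d, le_cent d.2⟩, hd⟩

theorem center_iff (x : ↥Cfsg.Co0) : x ∈ center ↥Cfsg.Co0 ↔ x = 1 ∨ x = signCo0 allOne := by
  rw [← CoOneType.ClosingFacts.mk_eq_one]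
  exact (QuotientGroup.eq_one_iff x).symm

theorem F_ker : F.ker = (A ⊔ center ↥Cfsg.Co0).subgroupOf (centralizer (A : Set ↥Cfsg.Co0)) := by
  ext ⟨d, hd⟩
  rw [MonoidHom.mem_ker, mem_subgroupOf]
  have h1 : F ⟨d, hd⟩ = f ⟨d, cent_le hd⟩ := rfl
  rw [h1, ker]
  show _ ↔ d ∈ A ⊔ center ↥Cfsg.Co0
  rw [mem_sup_of_normal_right]
  constructor
  · rintro ⟨k, h | h⟩
    · refine ⟨Oct.e 0 ^ k, ⟨k, by simp⟩, 1, one_mem _, ?_⟩
      rw [mul_one]
      exact (congrArg Subtype.val h).symm
    · refine ⟨Oct.e 0 ^ k, ⟨k, by simp⟩, signCo0 allOne, (center_iff _).2 (Or.inr rfl), ?_⟩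
      have h2 : d = signCo0 allOne * Oct.e 0 ^ k := congrArg Subtype.val h
      rw [h2]
      exact (CoOneType.SignFacts.sign_allOne_comm _)
  · rintro ⟨a, ⟨k, rfl⟩, c, hc, h⟩
    obtain ⟨n, hn⟩ : ∃ n : ℕ, Oct.e 0 ^ n = Oct.e 0 ^ k := by
      have h1 : Oct.e 0 ^ k ∈ Subgroup.zpowers (Oct.e 0) := ⟨k, rfl⟩
      have : Finite ↥Cfsg.Co0 := finite_co0
      rw [← mem_powers_iff_mem_zpowers] at h1
      exact h1
    refine ⟨n, ?_⟩
    rw [center_iff] at hc
    rcases hc with rfl | rfl
    · left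
      apply Subtype.ext
      show d = Oct.e 0 ^ n
      rw [hn, ← h, mul_one]
    · right
      apply Subtype.ext
      show d = signCo0 allOne * Oct.e 0 ^ n
      rw [hn, ← h]
      exact (CoOneType.SignFacts.sign_allOne_comm _)

theorem card_A : Nat.card A = 5 := by
  rw [A, Nat.card_zpowers]
  have : Fact (Nat.Prime 5) := ⟨Nat.prime_five⟩
  exact orderOf_eq_prime JR.pow_five JR.ne_one

/-- A simple section of the automorphism group of the Leech lattice satisfying the Hall–Janko-type hypothesis (the group so obtained is the Hall–Janko group; that identification is not part of this statement): there is a subgroup A of order 5 of that automorphism group such that the centralizer of A modulo the subgroup generated by A and the centre of the automorphism group is a non-abelian simple group satisfying the large extraspecial hypothesis of minus type in dimension 4 — an involution whose centralizer has extraspecial generalized Fitting subgroup of order 32 with quotient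 the commutator subgroup of the isometry group of the elliptic quadratic form in dimension 4 over the field with two elements (the alternating group of degree 5), the involution not weakly closed in that extraspecial group. -/
theorem result : ∃ A : Subgroup ↥Cfsg.Co0, Nat.card A = 5 ∧ ∃ (hn : ((A ⊔ Subgroup.center ↥Cfsg.Co0).subgroupOf (Subgroup.centralizer (A : Set ↥Cfsg.Co0))).Normal), ∃ (S : Type) (_ : Group S) (_ : Finite S), Nonempty (S ≃* ↥(Subgroup.centralizer (A : Set ↥Cfsg.Co0)) ⧸ (A ⊔ Subgroup.center ↥Cfsg.Co0).subgroupOf (Subgroup.centralizer (A : Set ↥Cfsg.Co0))) ∧ IsSimpleGroup S ∧ ¬ IsMulCommutative S ∧ ∃ z : S, orderOf z = 2 ∧ ∃ (Q : Subgroup (Subgroup.centralizer ({z} : Set S))) (_ : Q.Normal), Cfsg.generalizedFittingSubgroup (Subgroup.centralizer ({z} : Set S)) = Q ∧ Cfsg.IsExtraspecial 2 Q ∧ Nat.card Q = 2 ^ 5 ∧ Nonempty ((Subgroup.centralizer ({z} : Set S)) ⧸ Q ≃* Cfsg.Omega (ZMod 2) (Cfsg.quadFormMinus 1 (ZMod 2) 1 1)) ∧ ∃ g : S, (∃ hq : g *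 z * g⁻¹ ∈ Subgroup.centralizer ({z} : Set S), (⟨g * z * g⁻¹, hq⟩ : Subgroup.centralizer ({z} : Set S)) ∈ Q) ∧ g * z * g⁻¹ ≠ z := by
  have hnn : ((A ⊔ Subgroup.center ↥Cfsg.Co0).subgroupOf (Subgroup.centralizer (A : Set ↥Cfsg.Co0))).Normal := by
    rw [← F_ker]; infer_instance
  have : Finite ↥Cfsg.Co0 := finite_co0
  obtain ⟨h2, hQn, hex, h32, hC, h60, hnwc⟩ := H817.JTwoHyp.facts data elts
  obtain ⟨eJ⟩ := iso_e0
  obtain ⟨hJ, a, b, hab⟩ := S1620.result
  have hfin : Finite (XX s1) := Finite.of_surjective f surj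
  have h60' := h60 hQn
  obtain ⟨hF, hO⟩ := H817.JTwoHyp.quot_fstar _ hex h32 hC h60'
  refine ⟨A, card_A, hnn, XX s1, inferInstance, hfin, ?_, ?_, ?_, _, h2, _, hQn, hF, hex, h32, hO, hnwc⟩
  · exact ⟨((QuotientGroup.quotientMulEquivOfEq F_ker).symm.trans
      (QuotientGroup.quotientKerEquivOfSurjective F F_surj)).symm⟩
  · exact eJ.isSimpleGroup
  · intro hc
    apply hab
    obtain ⟨x, rfl⟩ := eJ.surjective a
    obtain ⟨y, rfl⟩ := eJ.surjective b
    rw [← map_mul, ← map_mul]
    exact congrArg eJ (hc.is_comm.comm x y)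

end Cfsg.Agent.S5403
end
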