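import Cfsg.Statements.S5410
import Cfsg.Agent.H821.Frame
set_option linter.all false

set_option autoImplicit false
open Cfsg

namespace Cfsg.Agent.S5410

/-- Let G be a finite group of Monster type at the involution z with Q the extraspecial normal subgroup of order 2^25 of C = C_G(z) (so C/Q is identified with the first Conway group with Q modulo its centre the Leech lattice modulo 2, and z is not weakly closed in Q). Let g in G with s = g z g⁻¹ a member of Q other than z, let X be the image in C/Q of the centralizer of s in C, and let E be the image in C/Q of the intersection of g Q g⁻¹ with C. Then E is a normal subgroup of X, elementary abelian of order 2^11, and it has a complement in X isomorphic to the Mathieu group of degree 24 (the automorphism group of the length-24 binary Golay code). -/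
theorem result {G : Type*} [Group G] [Finite G] (z : G) (Q : Subgroup (Subgroup.centralizer ({z} : Set G))) [Q.Normal] (hM : Cfsg.IsOfMonsterType z Q) (s : G) (hsQ : ∃ hsc : s ∈ Subgroup.centralizer ({z} : Set G), (⟨s, hsc⟩ : Subgroup.centralizer ({z} : Set G)) ∈ Q) (hs : IsConj z s) (hs1 : s ≠ z) (g : G) (hg : g * z * g⁻¹ = s) (X E : Subgroup ((Subgroup.centralizer ({z} : Set G)) ⧸ Q)) (hX : X = ((Subgroup.centralizer ({z} : Set G) ⊓ Subgroup.centralizer ({s} : Set G)).subgroupOf (Subgroup.centralizer ({z} : Set G))).map (QuotientGroup.mk' Q)) (hE : E = (((Q.map (Subgroup.centralizer ({z} : Set G)).subtype).map (MulAut.conj g).toMonoidHom ⊓ Subgroup.centralizer ({z} : Set G)).subgroupOf (Subgroup.centralizer ({z} : Set G))).map (QuotientGroup.mk' Q)) : E ≤ X ∧ (∀ x ∈ X, ∀ y ∈ E, x * y * x⁻¹ ∈ E) ∧ Cfsg.IsElementaryAbelian 2 E ∧ Nat.card E = 2 ^ 11 ∧ ∃ K : Subgroup ((Subgroup.centralizer ({z} : Set G)) ⧸ Q), K ≤ X ∧ E ⊓ K = ⊥ ∧ E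 ⊔ K = X ∧ Nonempty (K ≃* Cfsg.M24) := by
  obtain ⟨hS, e, ψ, hψ⟩ := hM
  obtain ⟨eta, pi, h, hpi, -⟩ := Cfsg.Agent.H820.Bridge.exists_chart hS hψ
  obtain ⟨σ, τ, gd⟩ := Cfsg.Agent.H821.Frame.exists_good h (Cfsg.Agent.H820.Bridge.mem_QG.2 hsQ) hs1 ⟨g, hg⟩
  let e' : (Subgroup.centralizer ({z} : Set G)) ⧸ Q ≃* Cfsg.Spor.Co1 := e.trans (MulAut.conj σ)
  have he' : ∀ c : Subgroup.centralizer ({z} : Set G),
      e' (QuotientGroup.mk c) = ((MulAut.conj σ).toMonoidHom.comp pi) c := by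
    intro c
    show MulAut.conj σ (e (QuotientGroup.mk c)) = MulAut.conj σ (pi c)
    rw [hpi]
  rw [Cfsg.Agent.H821.Frame.map_conj_eq h (hg.trans gd.τz.symm)] at hE
  have hX' : X = Cfsg.Agent.MonsterU.CoFrameL2.F.map e'.symm.toMonoidHom := by
    ext x
    rw [hX]
    constructor
    · rintro ⟨c, hc, rfl⟩
      refine ⟨_, (Cfsg.Agent.H821.Frame.map_cent gd _).2 ⟨c, hc.2, rfl⟩, ?_⟩
      rw [← he' c]
      exact e'.symm_apply_apply _
    · rintro ⟨f, hf, rfl⟩
      obtain ⟨c, hc, rfl⟩ := (Cfsg.Agent.H821.Frame.map_cent gd f).1 hf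
      refine ⟨c, ⟨c.2, hc⟩, ?_⟩
      rw [← he' c]
      exact (e'.symm_apply_apply _).symm
  have hE' : E = Cfsg.Agent.CoOneType.CoOneE.E.map e'.symm.toMonoidHom := by
    ext x
    rw [hE]
    constructor
    · rintro ⟨c, hc, rfl⟩
      refine ⟨_, (Cfsg.Agent.H821.Frame.map_inf gd _).2 ⟨c, hc.1, rfl⟩, ?_⟩
      rw [← he' c]
      exact e'.symm_apply_apply _
    · rintro ⟨f, hf, rfl⟩
      obtain ⟨c, hc, rfl⟩ := (Cfsg.Agent.H821.Frame.map_inf gd f).1 hf
      refine ⟨c, ⟨hc, c.2⟩, ?_⟩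
      rw [← he' c]
      exact (e'.symm_apply_apply _).symm
  have hinj : Function.Injective e'.symm.toMonoidHom := e'.symm.injective
  refine ⟨?_, ?_, ⟨⟨⟨?_⟩⟩, ?_⟩, ?_, (Cfsg.Agent.H821.Frame.permHom.range).map e'.symm.toMonoidHom, ?_, ?_, ?_, ?_⟩
  · rw [hX', hE']
    exact Subgroup.map_mono Cfsg.Agent.MonsterU.CoFrameL2.E_le_F
  · rw [hX', hE']
    rintro _ ⟨x, hx, rfl⟩ _ ⟨y, hy, rfl⟩
    refine ⟨x * y * x⁻¹, Cfsg.Agent.MonsterU.CoFrameL2.F_conj_E hx hy, ?_⟩
    rw [map_mul, map_mul, map_inv]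
  · rw [hE']
    rintro ⟨_, a, ha, rfl⟩ ⟨_, b, hb, rfl⟩
    apply Subtype.ext
    show e'.symm.toMonoidHom a * e'.symm.toMonoidHom b = e'.symm.toMonoidHom b * e'.symm.toMonoidHom a
    rw [← map_mul, ← map_mul, Cfsg.Agent.MonsterU.CoFrameF.comm_of_mem_E ha hb]
  · rw [hE']
    rintro _ ⟨a, ha, rfl⟩
    rw [← map_pow, pow_two, Cfsg.Agent.MonsterU.CoFrameF.sq_of_mem_E ha, map_one]
  · rw [hE', ← Nat.card_congr (Subgroup.equivMapOfInjective _ _ hinj).toEquiv]
    exact Cfsg.Agent.MonsterU.CoFrameIrr.card_E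
  · rw [hX']
    apply Subgroup.map_mono
    rw [← Cfsg.Agent.H821.Frame.E_sup_range]
    exact le_sup_right
  · rw [hE', ← Subgroup.map_inf_eq _ _ _ hinj, Cfsg.Agent.H821.Frame.E_inf_range, Subgroup.map_bot]
  · rw [hE', hX', ← Subgroup.map_sup, Cfsg.Agent.H821.Frame.E_sup_range]
  · exact ⟨((MonoidHom.ofInjective Cfsg.Agent.H821.Frame.permHom_injective).trans
      (Subgroup.equivMapOfInjective _ _ hinj)).symm⟩

end Cfsg.Agent.S5410
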