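import Cfsg.Agent.H820.Joint
import Cfsg.Agent.H820.SevenL32
import Cfsg.Agent.MFiveHN.Eight
import Cfsg.Agent.LThreeMB.Six
import Cfsg.Statements.S5416
import Cfsg.Agent.FastGrp
import Cfsg.Agent.Prune
set_option linter.all false
prune_inst 0x7f00000000000000000000000000000000000000000000000000000000000000000000000000000000000000000000000000000000000000000000000000000000000000000000000000000000000000003fffffffffffffffffffffffffffbeffbdffffffff
open scoped Cfsg.Agent.FastGrp

-- part: H820/Held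
section
/-!
# `C_G(x) / ⟨x⟩` is of Held type for `x` of order 7 and fixed rank 6 (helper820)

`heldType` : the setting of width 3, quotient `SL(3, 2)`, and 29 conjugates of the involution in the extraspecial group.
-/

set_option autoImplicit false

namespace Cfsg.Agent.H820.Held

open Cfsg Cfsg.Spor Cfsg.Agent.MonsterU Cfsg.Agent.MonsterU.Ch Cfsg.Agent.MonsterU.Lam2
open Cfsg.Agent.LThreeMB (XX Zx self fr mk mk_eq_mk mk_congr exists_mk tt PB mem_PB conj_comm Faith exists_XX_equiv)
open Cfsg.Agent.MFive (ClassOf pow_eq_one exists_conj_tt exists_fus comm_iff_fix large exists_rho card_PB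
  genFitting_cent orderOf_pi eq_one_of_mem coe_pow)
open Cfsg.Agent.CpAutMSeven.RanksH (s0 fr_s0 orderOf_s0)
open Cfsg.Agent.CpAutMSeven.Quo (cm exists_cm cm_injective smul_cm)
open Cfsg.Agent.CpAutMSeven.Mat (fours)
open Subgroup (centralizer mem_centralizer_singleton_iff zpowers)

/-! ### The fixed classes of type 4 -/

theorem mem_fours_iff {m : ℕ} (hm : m < 64) : IsType 4 (cm m) ↔ m ∈ fours := by
  constructor
  · intro h
    by_contra h1
    have h0 : m ≠ 0 := by
      rintro rfl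
      rw [CpAutMSeven.Quo.cm_zero] at h
      exact LThreeMB.not_type_four_zero h
    exact CpAutMSeven.Quo.not_four hm h0 h1 h
  · exact fun h => SevenL32.four_type h

theorem card_four_s0 : Nat.card {v : L2 // IsType 4 v ∧ s0 • v = v} = 14 := by
  have h1 : Nat.card {m : Fin 64 // (m : ℕ) ∈ fours} = 14 := by
    rw [Nat.card_eq_fintype_card]
    decide +kernel
  rw [← h1]
  symm
  refine Nat.card_congr (Equiv.ofBijective (fun m => (⟨cm m, (mem_fours_iff m.1.2).2 m.2, smul_cm m⟩ :
    {v : L2 // IsType 4 v ∧ s0 • v = v})) ⟨?_, ?_⟩)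
  · intro a b hab
    exact Subtype.ext (Fin.ext (cm_injective a.1.2 b.1.2 (congrArg Subtype.val hab)))
  · rintro ⟨v, h4, hv⟩
    obtain ⟨m, hm, rfl⟩ := exists_cm hv
    exact ⟨⟨⟨m, hm⟩, (mem_fours_iff hm).1 h4⟩, rfl⟩

theorem card_four_conj {s t k : Co1} (hk : k * s * k⁻¹ = t) :
    Nat.card {v : L2 // IsType 4 v ∧ t • v = v} = Nat.card {v : L2 // IsType 4 v ∧ s • v = v} := by
  subst hk
  symm
  apply Nat.card_congr
  exact
    { toFun := fun v => ⟨k • (v : L2), v.2.1.smul1 k, by rw [mul_smul, mul_smul, inv_smul_smul, v.2.2]⟩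
      invFun := fun v => ⟨k⁻¹ • (v : L2), v.2.1.smul1 k⁻¹, by
        have h1 := v.2.2
        rw [mul_smul, mul_smul] at h1
        rw [← inv_smul_eq_iff.2 h1.symm]⟩
      left_inv := fun v => Subtype.ext (inv_smul_smul k (v : L2))
      right_inv := fun v => Subtype.ext (smul_inv_smul k (v : L2)) }

variable {p : ℕ} {G : Type*} [Group G] {Q : Subgroup G} {z : G} {eta : G → L2} {pi : centralizer ({z} : Set G) →* Co1}

/-- the elements of `C_Q(x)` over a set of vectors -/
theorem card_pre (h : Chart Q z eta pi) (ho : Odd p) {x : centralizer ({z} : Set G)} (hx : x ^ p = 1) (P : L2 → Prop) :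
    Nat.card {q : G // (q ∈ Q ∧ P (eta q)) ∧ (x : G) * q = q * x} = Nat.card {v : L2 // P v ∧ pi x • v = v} * 2 := by
  obtain ⟨s, hs⟩ := h.exists_sec
  have h0 : ∀ (v : L2) (a : Fin 2), (s v : G) * z ^ (a : ℕ) ∈ Q := fun v a =>
    Q.mul_mem (s v).2 (Q.pow_mem h.large.z_mem _)
  have h1 : ∀ (v : L2) (a : Fin 2), eta ((s v : G) * z ^ (a : ℕ)) = v := by
    intro v a
    rw [h.eta_mul _ (s v).2 _ (Q.pow_mem h.large.z_mem _), hs]
    fin_cases a
    · show v + eta (z ^ 0) = v
      rw [pow_zero, h.eta_one, add_zero]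
    · show v + eta (z ^ 1) = v
      rw [pow_one, h.eta_z, add_zero]
  have hbij : Function.Bijective (fun q : {v : L2 // P v ∧ pi x • v = v} × Fin 2 =>
      (⟨(s q.1.1 : G) * z ^ (q.2 : ℕ), ⟨h0 _ _, by rw [h1]; exact q.1.2.1⟩,
        (comm_iff_fix h ho hx (h0 _ _)).2 (by rw [h1]; exact q.1.2.2)⟩ :
        {q : G // (q ∈ Q ∧ P (eta q)) ∧ (x : G) * q = q * x})) := by
    constructor
    · rintro ⟨v, a⟩ ⟨w, b⟩ hvw
      have e1 : (s v.1 : G) * z ^ (a : ℕ) = s w.1 * z ^ (b : ℕ) := congrArg Subtype.val hvw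
      have e2 := congrArg eta e1
      rw [h1, h1] at e2
      have e3 : v = w := Subtype.ext e2
      subst e3
      have e4 : z ^ (a : ℕ) = z ^ (b : ℕ) := mul_left_cancel e1
      have e5 : a = b := by
        fin_cases a <;> fin_cases b
        · rfl
        · exact absurd (by simpa using e4.symm) h.large.z_ne
        · exact absurd (by simpa using e4) h.large.z_ne
        · rfl
      rw [e5]
    · rintro ⟨q, ⟨hq, hqW⟩, hxq⟩
      have hfix := (comm_iff_fix h ho hx hq).1 hxq
      rcases (h.eta_eq hq (s (eta q)).2).1 (hs (eta q)).symm with h2 | h2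
      · exact ⟨(⟨eta q, hqW, hfix⟩, 0), Subtype.ext (by
          show (s (eta q) : G) * z ^ 0 = q
          rw [pow_zero, mul_one]; exact h2.symm)⟩
      · exact ⟨(⟨eta q, hqW, hfix⟩, 1), Subtype.ext (by
          show (s (eta q) : G) * z ^ 1 = q
          rw [pow_one]; exact h2.symm)⟩
  rw [← Nat.card_congr (Equiv.ofBijective _ hbij), Nat.card_prod]
  simp

/-- An element of `C_Q(x)` whose image is conjugate to `t` is `z` or lies over a vector of type 4. -/
theorem four_of_conj [Finite G] (h : Chart Q z eta pi) (ho : Odd p) {x : centralizer ({z} : Set G)} (hx : x ^ p = 1)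
    {y : G} (hyQ : y ∈ Q) (hyx : y * (x : G) = x * y) {u : XX (x : G)} (hu : u * tt x * u⁻¹ = mk (x : G) hyx) :
    y = z ∨ IsType 4 (eta y) := by
  have hzx : z * (x : G) = x * z := (mem_centralizer_singleton_iff.1 x.2).symm
  obtain ⟨d, hd, rfl⟩ := exists_mk u
  have h1 : mk (x : G) (conj_comm hd hzx) = mk (x : G) hyx := hu
  obtain ⟨i, hi⟩ := (mk_eq_mk _ _).1 h1
  set w := (x : G) ^ i with hw
  have hwc : ∀ g : G, g * (x : G) = x * g → w * g = g * w := by
    intro g hg
    have : Commute (x : G) g := hg.symm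
    exact (this.zpow_left i)
  have h2 : (d * z * d⁻¹) * (d * z * d⁻¹) = 1 := by
    calc (d * z * d⁻¹) * (d * z * d⁻¹) = d * (z * z) * d⁻¹ := by group
      _ = 1 := by rw [h.large.z_sq]; group
  have h3 : w * w = y * y := by
    rw [← hi]
    calc w * w = ((d * z * d⁻¹) * (d * z * d⁻¹)) * w * w := by rw [h2, one_mul]
      _ = (d * z * d⁻¹) * ((d * z * d⁻¹) * w) * w := by group
      _ = (d * z * d⁻¹) * (w * (d * z * d⁻¹)) * w := by rw [hwc _ (conj_comm hd hzx)]
      _ = (d * z * d⁻¹) * w * ((d * z * d⁻¹) * w) := by group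
  have h4 : w * w = 1 := by
    refine eq_one_of_mem h ho hx (g := w * w) ?_ ⟨i + i, by rw [zpow_add]⟩
    rw [h3]
    exact Q.mul_mem hyQ hyQ
  have h5 : w ^ p = 1 := by
    rw [hw, ← zpow_natCast, ← zpow_mul, mul_comm, zpow_mul, zpow_natCast, coe_pow hx, one_zpow]
  have h6 : w = 1 := MFive.eq_one_of_pow ho h5 (by
    calc w ^ 4 = (w * w) * (w * w) := by simp only [pow_succ, pow_zero, one_mul, mul_assoc]
      _ = 1 := by rw [h4, one_mul])
  rw [h6, mul_one] at hi
  by_cases hyz : y = z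
  · exact Or.inl hyz
  · right
    rw [← hi] at hyQ hyz ⊢
    exact Fused.type_four_of_conj h hyQ hyz

/-- **The number of conjugates of `t` in `C_Q(x)`.** -/
theorem ncard_conj (hp : p.Prime) (ho : Odd p) [Finite G] [IsSimpleGroup G] (h : Chart Q z eta pi)
    {x : centralizer ({z} : Set G)} (hx : orderOf x = p) (hcl : ClassOf p (fr (pi x))) :
    Set.ncard {c : centralizer ({tt x} : Set (XX (x : G))) | c ∈ (PB Q (x : G)).subgroupOf
      (centralizer ({tt x} : Set (XX (x : G)))) ∧ IsConj (tt x) (c : XX (x : G))} =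
      Nat.card {v : L2 // IsType 4 v ∧ pi x • v = v} * 2 + 1 := by
  have hxp := pow_eq_one hx
  have hzx : z * (x : G) = x * z := (mem_centralizer_singleton_iff.1 x.2).symm
  have hcomm : ∀ {q : G} (hq : q ∈ Q) (hqx : q * (x : G) = x * q), mk (x : G) hqx * tt x = tt x * mk (x : G) hqx := by
    intro q hq hqx
    have h1 : (q * z) * (x : G) = x * (q * z) := by rw [mul_assoc, hzx, ← mul_assoc, hqx, mul_assoc]
    have h2 : (z * q) * (x : G) = x * (z * q) := by rw [mul_assoc, hqx, ← mul_assoc, hzx, mul_assoc]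
    show mk (x : G) h1 = mk (x : G) h2
    exact mk_congr _ _ (h.large.comm_z q hq)
  rw [← card_pre h ho hxp (IsType 4), ← Nat.card_coe_set_eq]
  have hfin : Finite {q : G // (q ∈ Q ∧ IsType 4 (eta q)) ∧ (x : G) * q = q * x} := Subtype.finite
  rw [← Finite.card_option]
  symm
  let F : Option {q : G // (q ∈ Q ∧ IsType 4 (eta q)) ∧ (x : G) * q = q * x} →
      ↥{c : centralizer ({tt x} : Set (XX (x : G))) | c ∈ (PB Q (x : G)).subgroupOf
      (centralizer ({tt x} : Set (XX (x : G)))) ∧ IsConj (tt x) (c : XX (x : G))} := fun o =>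
    match o with
    | none => ⟨⟨tt x, mem_centralizer_singleton_iff.2 rfl⟩,
        Subgroup.mem_subgroupOf.2 (mem_PB.2 ⟨z, hzx, h.large.z_mem, rfl⟩), IsConj.refl _⟩
    | some q => ⟨⟨mk (x : G) q.2.2.symm, mem_centralizer_singleton_iff.2 (hcomm q.2.1.1 q.2.2.symm)⟩,
        Subgroup.mem_subgroupOf.2 (mem_PB.2 ⟨q, q.2.2.symm, q.2.1.1, rfl⟩),
        isConj_iff.2 (exists_conj_tt hp ho h hx hcl q.2.1.1 q.2.1.2 q.2.2.symm).1⟩
  have Fnone : ((F none : centralizer ({tt x} : Set (XX (x : G)))) : XX (x : G)) = tt x := rfl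
  have Fsome : ∀ q, ((F (some q) : centralizer ({tt x} : Set (XX (x : G)))) : XX (x : G)) = mk (x : G) q.2.2.symm :=
    fun _ => rfl
  refine Nat.card_congr (Equiv.ofBijective F ⟨?_, ?_⟩)
  · intro a b hab
    have hab' : ((F a : centralizer ({tt x} : Set (XX (x : G)))) : XX (x : G)) = F b :=
      congrArg (fun t : ↥{c : centralizer ({tt x} : Set (XX (x : G))) | c ∈ (PB Q (x : G)).subgroupOf
        (centralizer ({tt x} : Set (XX (x : G)))) ∧ IsConj (tt x) (c : XX (x : G))} =>
          ((t : centralizer ({tt x} : Set (XX (x : G)))) : XX (x : G))) hab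
    rcases a with _ | a <;> rcases b with _ | b
    · rfl
    · rw [Fnone, Fsome] at hab'
      exact absurd hab'.symm (exists_conj_tt hp ho h hx hcl b.2.1.1 b.2.1.2 b.2.2.symm).2
    · rw [Fnone, Fsome] at hab'
      exact absurd hab' (exists_conj_tt hp ho h hx hcl a.2.1.1 a.2.1.2 a.2.2.symm).2
    · rw [Fsome, Fsome] at hab'
      obtain ⟨i, hi⟩ := (mk_eq_mk _ _).1 hab'
      have h1 : (x : G) ^ i = 1 := by
        refine eq_one_of_mem h ho hxp (g := (x : G) ^ i) ?_ ⟨i, rfl⟩
        have h2 : (x : G) ^ i = (a : G)⁻¹ * b := eq_inv_mul_of_mul_eq hi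
        rw [h2]
        exact Q.mul_mem (Q.inv_mem a.2.1.1) b.2.1.1
      rw [h1, mul_one] at hi
      exact congrArg some (Subtype.ext hi)
  · rintro ⟨⟨c, hc⟩, hcP, hcc⟩
    obtain ⟨y, hyx, hyQ, hy⟩ := mem_PB.1 (Subgroup.mem_subgroupOf.1 hcP)
    obtain ⟨u, hu⟩ := isConj_iff.1 hcc
    rcases four_of_conj h ho hxp hyQ hyx (u := u) (hu.trans hy.symm) with h1 | h1
    · refine ⟨none, Subtype.ext (Subtype.ext ?_)⟩
      show tt x = c
      have hy' : mk (x : G) hyx = c := hy
      rw [← hy']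
      exact mk_congr _ _ h1.symm
    · exact ⟨some ⟨y, ⟨hyQ, h1⟩, hyx.symm⟩, Subtype.ext (Subtype.ext hy)⟩

/-- **`C_G(x) / ⟨x⟩` is of Held type.** -/
theorem heldType [Finite G] [IsSimpleGroup G] (h : Chart Q z eta pi) (x : centralizer ({z} : Set G))
    (hx : orderOf x = 7) (hfr : fr (pi x) = 2 ^ 6) : IsOfHeldType (XX (x : G)) := by
  have hp7 : Nat.Prime 7 := by norm_num
  have ho : Odd 7 := by decide
  obtain ⟨k, hk⟩ := CpAutMSeven.RanksH.classOf s0 (pi x) orderOf_s0 (orderOf_pi h hp7 ho hx) fr_s0 hfr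
  obtain ⟨-, ⟨e⟩⟩ := exists_XX_equiv hk
  have hcl' : ClassOf 7 (fr (pi x)) := by rw [hfr]; exact CpAutMSeven.RanksH.classOf
  have hx7 := pow_eq_one hx
  have hfaith : Faith (pi x) := by rw [← hk]; exact CpAutMSeven.Faith.faith.conj k
  obtain ⟨f⟩ := SevenL32.exists_equiv
  have hfour : ∃ v : L2, pi x • v = v ∧ IsType 4 v := by
    have h1 : IsType 4 (cm 1) := (mem_fours_iff (by norm_num)).2 (by decide)
    refine ⟨k • cm 1, ?_, h1.smul1 k⟩
    rw [← hk, mul_smul, mul_smul, inv_smul_smul, smul_cm]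
  have L := large h ho hx7 hfaith
  have hcard : Nat.card ↥(PB Q (x : G)) = 2 ^ 7 := by rw [card_PB h ho hx7, hfr]; norm_num
  have hn := LargeExtra.Nine.ToCent.normal L
  have hO : ∀ N : Subgroup (XX (pi x)), N.Normal → IsPGroup 2 ↥N → N = ⊥ := by
    intro N hN hN2
    have hsim : IsSimpleGroup (XX (pi x)) := by
      have := SevenL32.simple_XX
      exact e.symm.isSimpleGroup
    rcases hN.eq_bot_or_eq_top with h1 | h1
    · exact h1
    · exfalso
      subst h1
      obtain ⟨n, hn⟩ := (hN2.exists_card_eq : ∃ n, Nat.card (⊤ : Subgroup (XX (pi x))) = 2 ^ n)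
      rw [Subgroup.card_top, Nat.card_congr e.symm.toEquiv, SevenL32.card_XX] at hn
      have h7 : 7 ∣ 2 ^ n := by rw [← hn]; norm_num
      have := Nat.Prime.dvd_of_dvd_pow hp7 h7
      omega
  obtain ⟨ρ, hρ, -, hker⟩ := exists_rho h hp7 ho hx7
  refine ⟨tt x, (PB Q (x : G)).subgroupOf (centralizer ({tt x} : Set (XX (x : G)))), hn, ⟨?_, ?_, ?_, ?_, ?_⟩, ⟨?_⟩, ?_⟩
  · exact LargeExtra.Base.orderOf_z L
  · exact genFitting_cent hp7 ho h hx7 hfaith hO
  · exact LargeExtra.Nine.ToCent.isExtraspecial L (by rw [hcard]; norm_num)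
  · rw [LargeExtra.Nine.ToCent.card_subgroupOf L, hcard]
  · obtain ⟨g, hg1, hg2⟩ := exists_fus hp7 ho h hx hcl' hfour
    exact ⟨g, ⟨LargeExtra.Nine.ToCent.le_cent L hg1, Subgroup.mem_subgroupOf.2 hg1⟩, hg2⟩
  · exact ((QuotientGroup.quotientMulEquivOfEq hker.symm).trans
      (QuotientGroup.quotientKerEquivOfSurjective ρ hρ)).trans (e.symm.trans f)
  · rw [ncard_conj hp7 ho h hx hcl', card_four_conj hk, card_four_s0]

end Cfsg.Agent.H820.Held
end

-- part: S5416
section
set_option autoImplicit false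
open Cfsg

namespace Cfsg.Agent.S5416

/-- Let G be a finite group of Monster type at the involution z with Q the extraspecial normal subgroup of order 2^25 of C = C_G(z) (so C/Q is identified with the first Conway group with Q modulo its centre the Leech lattice modulo 2, and z is not weakly closed in Q). Let s be a conjugate of z in Q other than z and let B be a Sylow 7-subgroup of the joint centralizer of z and s. Then the centralizer of B modulo B is a group of Held type (an involution whose centralizer D has generalized Fitting subgroup R extraspecial of order 2^7 with D/R isomorphic to SL(3, 2), exactly 29 of its conjugates lying in R, and the involution not weakly closed in R). -/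
theorem result {G : Type*} [Group G] [Finite G] (z : G) (Q : Subgroup (Subgroup.centralizer ({z} : Set G))) [Q.Normal] (hM : Cfsg.IsOfMonsterType z Q) (s : G) (hsQ : ∃ hsc : s ∈ Subgroup.centralizer ({z} : Set G), (⟨s, hsc⟩ : Subgroup.centralizer ({z} : Set G)) ∈ Q) (hs : IsConj z s) (hs1 : s ≠ z) (B : Subgroup G) (hB : B ≤ Subgroup.centralizer ({z, s} : Set G)) (hBp : Nat.card B = 7 ^ (Nat.card ↥(Subgroup.centralizer ({z, s} : Set G))).factorization 7) [hn : (B.subgroupOf (Subgroup.centralizer (B : Set G))).Normal] : Cfsg.IsOfHeldType (↥(Subgroup.centralizer (B : Set G)) ⧸ B.subgroupOf (Subgroup.centralizer (B : Set G))) := by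
  obtain ⟨eta, pi, h, hsQ', h4, hs1'⟩ := Cfsg.Agent.H820.Joint.setup hM hsQ hs hs1
  have hsim := Cfsg.Agent.H820.Bridge.isSimple_of_type hM
  have hcard : Nat.card ↥B = 7 := by
    rw [hBp, Cfsg.Agent.H820.Joint.factorization_seven h hsQ' h4 hs1' hs1, pow_one]
  obtain ⟨x, hBx, hx, hxs⟩ := Cfsg.Agent.H820.Joint.exists_gen (by norm_num) hB hcard
  have hfr : Cfsg.Agent.LThreeMB.fr (pi x) = 2 ^ 6 := by
    rcases Cfsg.Agent.CpAutMSeven.RanksH.ranks (pi x)
      (Cfsg.Agent.MFive.orderOf_pi h (by norm_num) (by decide) hx) with h1 | h1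
    · exact absurd h1 (Cfsg.Agent.H820.Joint.fr_ne_one h hsQ' h4 hxs)
    · exact h1
  exact Cfsg.Agent.H820.Joint.quot_eq (fun K _ => Cfsg.IsOfHeldType K) hBx
    (Cfsg.Agent.H820.Held.heldType h x hx hfr)

end Cfsg.Agent.S5416
end
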