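import Cfsg.Agent.H822.Holo
import Cfsg.Agent.OddHalf.Small.Mathieu
import Cfsg.Agent.SporadicStructure.OctadStabFinal
import Cfsg.Agent.Lib.ElemAbGL
import Cfsg.Statements.S5425
set_option linter.all false

-- part: H822/Transfer
section
/-!
# Transfer of `Large Q z` along an injective homomorphism whose range contains the centraliser (helper822)
-/

set_option autoImplicit false

namespace Cfsg.Agent.H822.Transfer

open Cfsg.Agent.Co2Type.Quad Cfsg.Agent.H822.Bridge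

variable {X Y : Type*} [Group X] [Group Y] {ι : Y →* X} {z : Y}

theorem comm_iff (hι : Function.Injective ι) {g h : Y} : ι g * ι h = ι h * ι g ↔ g * h = h * g := by
  rw [← map_mul, ← map_mul]
  exact ⟨fun h => hι h, fun h => by rw [h]⟩

theorem large_map (hι : Function.Injective ι) (hC : ∀ g : X, g * ι z = ι z * g → g ∈ ι.range)
    {Q : Subgroup Y} (h : Large Q z) : Large (Q.map ι) (ι z) := by
  refine ⟨⟨z, h.z_mem, rfl⟩, ?_, ?_, ?_, ?_, ?_, ?_, ?_, ?_⟩
  · intro e; exact h.z_ne (hι (e.trans (map_one ι).symm))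
  · rw [← map_mul, h.z_sq, map_one]
  · rintro _ ⟨x, hx, rfl⟩
    exact (comm_iff hι).2 (h.comm_z x hx)
  · rintro g hg _ ⟨x, hx, rfl⟩
    obtain ⟨g, rfl⟩ := hC g hg
    exact ⟨g * x * g⁻¹, h.conj_mem g ((comm_iff hι).1 hg) x hx, by simp⟩
  · rintro _ ⟨x, hx, rfl⟩
    rcases h.sq x hx with e | e
    · left; rw [← map_mul, e, map_one]
    · right; rw [← map_mul, e]
  · rintro _ ⟨x, hx, rfl⟩ _ ⟨y, hy, rfl⟩
    rcases h.comm x hx y hy with e | e
    · left; rw [← map_mul, e, map_mul]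
    · right; rw [← map_mul, e, map_mul, map_mul]
  · rintro _ ⟨x, hx, rfl⟩ hc
    rcases h.cent x hx (fun y hy => (comm_iff hι).1 (hc _ ⟨y, hy, rfl⟩)) with e | e
    · left; rw [e, map_one]
    · right; rw [e]
  · intro g hg hc
    obtain ⟨g, rfl⟩ := hC g hg
    exact ⟨g, h.self g ((comm_iff hι).1 hg) (fun y hy => (comm_iff hι).1 (hc _ ⟨y, hy, rfl⟩)), rfl⟩

theorem map_cent (hι : Function.Injective ι) (hC : ∀ g : X, g * ι z = ι z * g → g ∈ ι.range) :
    (Subgroup.centralizer ({z} : Set Y)).map ι = Subgroup.centralizer ({ι z} : Set X) := by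
  ext g
  rw [Subgroup.mem_centralizer_singleton_iff]
  constructor
  · rintro ⟨g, hg, rfl⟩
    exact (comm_iff hι).2 (Subgroup.mem_centralizer_singleton_iff.1 hg)
  · intro hg
    obtain ⟨g, rfl⟩ := hC g hg
    exact ⟨g, Subgroup.mem_centralizer_singleton_iff.2 ((comm_iff hι).1 hg), rfl⟩

/-- the isomorphism of the centralisers -/
noncomputable def centEquiv (hι : Function.Injective ι) (hC : ∀ g : X, g * ι z = ι z * g → g ∈ ι.range) :
    ↥(Subgroup.centralizer ({z} : Set Y)) ≃* ↥(Subgroup.centralizer ({ι z} : Set X)) :=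
  MulEquiv.ofBijective
    (MonoidHom.mk' (fun g : ↥(Subgroup.centralizer ({z} : Set Y)) =>
      (⟨ι g, Subgroup.mem_centralizer_singleton_iff.2 ((comm_iff hι).2
        (Subgroup.mem_centralizer_singleton_iff.1 g.2))⟩ : ↥(Subgroup.centralizer ({ι z} : Set X))))
      (fun a b => Subtype.ext (map_mul ι (a : Y) (b : Y))))
    (by
      constructor
      · intro a b hab
        exact Subtype.ext (hι (congrArg Subtype.val hab))
      · rintro ⟨g, hg⟩
        obtain ⟨g, rfl⟩ := hC g (Subgroup.mem_centralizer_singleton_iff.1 hg)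
        exact ⟨⟨g, Subgroup.mem_centralizer_singleton_iff.2
          ((comm_iff hι).1 (Subgroup.mem_centralizer_singleton_iff.1 hg))⟩, rfl⟩)

theorem core_map (hι : Function.Injective ι) (hC : ∀ g : X, g * ι z = ι z * g → g ∈ ι.range) :
    (Cfsg.pCore 2 ↥(Subgroup.centralizer ({ι z} : Set X))).map
      (Subgroup.centralizer ({ι z} : Set X)).subtype =
    ((Cfsg.pCore 2 ↥(Subgroup.centralizer ({z} : Set Y))).map
      (Subgroup.centralizer ({z} : Set Y)).subtype).map ι := by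
  have h1 := Cfsg.Agent.Lib.Cores.map_equiv_pCore (centEquiv hι hC) 2
  ext g
  constructor
  · rintro ⟨s, hs, rfl⟩
    rw [← h1] at hs
    obtain ⟨c, hc, rfl⟩ := hs
    exact ⟨c, ⟨c, hc, rfl⟩, rfl⟩
  · rintro ⟨_, ⟨c, hc, rfl⟩, rfl⟩
    refine ⟨centEquiv hι hC c, ?_, rfl⟩
    rw [← h1]
    exact ⟨c, hc, rfl⟩

theorem card_map (hι : Function.Injective ι) (Q : Subgroup Y) : Nat.card (Q.map ι) = Nat.card Q :=
  (Nat.card_congr (Q.equivMapOfInjective ι hι).toEquiv).symm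

theorem elAb_map (p : ℕ) {E : Subgroup Y} (hE : Cfsg.IsElementaryAbelian p E) :
    Cfsg.IsElementaryAbelian p (E.map ι) := by
  refine ⟨?_, ?_⟩
  · have := hE.1
    infer_instance
  · rintro _ ⟨x, hx, rfl⟩
    rw [← map_pow, hE.2 x hx, map_one]

end Cfsg.Agent.H822.Transfer
end

-- part: H822/Octad
section
/-!
# The octad stabiliser of `M₂₄` as the holomorph of the elementary abelian group of order 16 (helper822)
-/

set_option autoImplicit false

namespace Cfsg.Agent.H822.Octad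

open scoped Pointwise
open Cfsg Cfsg.Agent.Co2Type.Quad Cfsg.Agent.H822.Bridge Cfsg.Agent.H822.Aff
open Cfsg.Agent.SporadicA.OctadFix Cfsg.Agent.SporadicStructure.OctadStabAbs
open Cfsg.Agent.OddHalf.Small.Mathieu Cfsg.Agent.H822.Transfer

/-- the stabiliser of the octad -/
abbrev Yo (o : Finset GolayPt) : Subgroup (Equiv.Perm GolayPt) :=
  M24 ⊓ MulAction.stabilizer (Equiv.Perm GolayPt) o

/-- the pointwise stabiliser in the stabiliser -/
def Uo (o : Finset GolayPt) : Subgroup (Yo o) := (fixOct o).subgroupOf (Yo o)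

/-- the complement -/
def Mo (o : Finset GolayPt) (p : GolayPt) : Subgroup (Yo o) := (L M24 o p).subgroupOf (Yo o)

theorem mem_Yo {o : Finset GolayPt} {g : Equiv.Perm GolayPt} :
    g ∈ Yo o ↔ g ∈ M24 ∧ ∀ x, g x ∈ o ↔ x ∈ o := by
  rw [Subgroup.mem_inf, mem_stabilizer_finset_iff]

theorem mem_Uo {o : Finset GolayPt} {g : Yo o} :
    g ∈ Uo o ↔ ∀ x ∈ o, (g : Equiv.Perm GolayPt) x = x := by
  unfold Uo
  rw [Subgroup.mem_subgroupOf, mem_fixOct]
  exact ⟨fun h => h.2, fun h => ⟨(mem_Yo.1 g.2).1, h⟩⟩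

theorem mem_Mo {o : Finset GolayPt} {p : GolayPt} {g : Yo o} :
    g ∈ Mo o p ↔ (g : Equiv.Perm GolayPt) p = p := by
  unfold Mo
  rw [Subgroup.mem_subgroupOf, mem_L]
  exact ⟨fun h => h.2.2, fun h => ⟨(mem_Yo.1 g.2).1, (mem_Yo.1 g.2).2, h⟩⟩

theorem fix_le (o : Finset GolayPt) : fixOct o ≤ Yo o := by
  intro g hg
  rw [mem_fixOct] at hg
  refine mem_Yo.2 ⟨hg.1, fun x => ?_⟩
  constructor
  · intro hx
    have h1 := hg.2 _ hx
    rw [g.injective h1] at hx
    exact hx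
  · intro hx
    rw [hg.2 x hx]; exact hx

theorem L_le (o : Finset GolayPt) (p : GolayPt) : L M24 o p ≤ Yo o := fun g hg => by
  rw [mem_L] at hg
  exact mem_Yo.2 ⟨hg.1, hg.2.1⟩

section

variable {o : Finset GolayPt} (ho : o ∈ octads)

include ho

theorem card_Uo : Nat.card (Uo o) = 2 ^ 4 := by
  have h1 : Nat.card (Uo o) = Nat.card (fixOct o) := by
    unfold Uo
    exact Nat.card_congr (Subgroup.subgroupOfEquivOfLe (fix_le o)).toEquiv
  rw [h1, card_fixOct ho]; norm_num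

theorem sq_Uo {g : Yo o} (hg : g ∈ Uo o) : g * g = 1 := by
  apply Subtype.ext
  exact fixOct_sq ho (Subgroup.mem_subgroupOf.1 hg)

theorem comm_Uo : ∀ a ∈ Uo o, ∀ b ∈ Uo o, a * b = b * a := by
  intro a ha b hb
  have h1 := sq_Uo ho (mul_mem ha hb)
  have h2 : a * b = b⁻¹ * a⁻¹ := by rw [← mul_inv_rev]; exact eq_inv_of_mul_eq_one_left h1
  rw [h2, inv_eq_of_mul_eq_one_left (sq_Uo ho ha), inv_eq_of_mul_eq_one_left (sq_Uo ho hb)]

theorem normal_Uo : (Uo o).Normal := by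
  refine ⟨fun u hu g => ?_⟩
  rw [mem_Uo] at hu ⊢
  intro x hx
  have h1 : ((g⁻¹ : Yo o) : Equiv.Perm GolayPt) x ∈ o := ((mem_Yo.1 (g⁻¹ : Yo o).2).2 x).2 hx
  have h2 := hu _ h1
  show (g : Equiv.Perm GolayPt) ((u : Equiv.Perm GolayPt) (((g⁻¹ : Yo o) : Equiv.Perm GolayPt) x)) = x
  rw [h2]
  exact Equiv.apply_symm_apply (g : Equiv.Perm GolayPt) x

theorem inf_UM {p : GolayPt} (hp : p ∉ o) : Uo o ⊓ Mo o p = ⊥ := by
  rw [eq_bot_iff]
  rintro g ⟨h1, h2⟩
  have h3 := inf_eq_bot (Cfsg.Agent.SporadicStructure.OctadStabFinal.hyp ho hp)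
  have h4 : (g : Equiv.Perm GolayPt) ∈
      (M24 ⊓ fixingSubgroup (Equiv.Perm GolayPt) (o : Set GolayPt)) ⊓ L M24 o p :=
    Subgroup.mem_inf.2 ⟨Subgroup.mem_subgroupOf.1 h1, Subgroup.mem_subgroupOf.1 h2⟩
  rw [h3, Subgroup.mem_bot] at h4
  rw [Subgroup.mem_bot]
  exact Subtype.ext h4

theorem sup_UM {p : GolayPt} (hp : p ∉ o) : Uo o ⊔ Mo o p = ⊤ := by
  rw [eq_top_iff]
  intro g _
  obtain ⟨k, hk, hko, hkL⟩ := exists_mul_mem_L (Cfsg.Agent.SporadicStructure.OctadStabFinal.hyp ho hp)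
    (g : Equiv.Perm GolayPt) (mem_Yo.1 g.2).1 (mem_Yo.1 g.2).2
  have hk' : k ∈ fixOct o := mem_fixOct.2 ⟨hk, hko⟩
  let k1 : Yo o := ⟨k, fix_le o hk'⟩
  let l1 : Yo o := ⟨k * g, L_le o p hkL⟩
  have h1 : g = k1⁻¹ * l1 := by
    apply Subtype.ext
    show (g : Equiv.Perm GolayPt) = k⁻¹ * (k * g)
    rw [inv_mul_cancel_left]
  rw [h1]
  refine mul_mem (Subgroup.mem_sup_left (inv_mem ?_)) (Subgroup.mem_sup_right ?_)
  · exact Subgroup.mem_subgroupOf.2 hk'
  · exact Subgroup.mem_subgroupOf.2 hkL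

theorem faith_UM {p : GolayPt} (hp : p ∉ o) (m : Yo o) (hm : m ∈ Mo o p)
    (hc : ∀ u ∈ Uo o, m * u * m⁻¹ = u) : m = 1 := by
  rw [mem_Mo] at hm
  apply Subtype.ext
  apply eq_one_of_fix_compl ho (mem_Yo.1 m.2).1
  intro q hq
  obtain ⟨g, ⟨hg, hgq⟩, -⟩ := existsUnique_fixOct ho hp hq
  have h1 := hc ⟨g, fix_le o hg⟩ (Subgroup.mem_subgroupOf.2 hg)
  rw [mul_inv_eq_iff_eq_mul] at h1
  have h2 : (m : Equiv.Perm GolayPt) (g p) = g ((m : Equiv.Perm GolayPt) p) :=
    congrArg (fun t : Yo o => (t : Equiv.Perm GolayPt) p) h1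
  rw [hm, hgq] at h2
  exact h2

theorem card_Mo {p : GolayPt} (hp : p ∉ o) : Nat.card (Mo o p) = 20160 := by
  have h1 : Nat.card (Mo o p) = Nat.card (L M24 o p) := by
    unfold Mo
    exact Nat.card_congr (Subgroup.subgroupOfEquivOfLe (L_le o p)).toEquiv
  obtain ⟨e⟩ := nonempty_mulEquiv (Cfsg.Agent.SporadicStructure.OctadStabFinal.hyp ho hp)
  rw [h1, Nat.card_congr e.toEquiv]
  have h2 : 2 * Nat.card (alternatingGroup (Fin 8)) = Nat.factorial 8 := by
    rw [Nat.card_eq_fintype_card, two_mul_card_alternatingGroup, Fintype.card_perm, Fintype.card_fin]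
  have h3 : Nat.factorial 8 = 40320 := by decide
  omega

theorem full_UM {p : GolayPt} (hp : p ∉ o) (φ : ↥(Uo o) ≃* ↥(Uo o)) :
    ∃ m ∈ Mo o p, ∀ u : ↥(Uo o), ((φ u : ↥(Uo o)) : Yo o) = m * u * m⁻¹ := by
  have := normal_Uo ho
  let c : Mo o p →* MulAut (Uo o) := (MulAut.conjNormal (H := Uo o)).comp (Mo o p).subtype
  have hc : ∀ (m : Mo o p) (u : Uo o), ((c m u : Uo o) : Yo o) = m * u * (m : Yo o)⁻¹ := fun m u => rfl
  have hinj : Function.Injective c := by
    rw [injective_iff_map_eq_one]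
    intro m hm
    apply Subtype.ext
    refine faith_UM ho hp m m.2 fun u hu => ?_
    have h1 := hc m ⟨u, hu⟩
    rw [hm] at h1
    exact h1.symm
  letI : CommGroup (Uo o) := { (inferInstance : Group (Uo o)) with
    mul_comm := fun a b => Subtype.ext (comm_Uo ho a a.2 b b.2) }
  obtain ⟨e⟩ := Cfsg.Agent.Lib.ElemAbGL.mulAut_equiv_GL (V := Uo o) 2 4
    (fun x => Subtype.ext (by have := sq_Uo ho x.2; rw [← pow_two] at this; exact this)) (card_Uo ho)
  have hcard : Nat.card (Mo o p) = Nat.card (MulAut (Uo o)) := by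
    rw [card_Mo ho hp, Nat.card_congr e.toEquiv, Matrix.card_GL_field]
    simp [Fin.prod_univ_succ, ZMod.card]
  have hfin : Finite (MulAut (Uo o)) := Finite.of_injective e e.injective
  obtain ⟨m, hm⟩ := ((Nat.bijective_iff_injective_and_card c).2 ⟨hinj, hcard⟩).2 φ
  refine ⟨m, m.2, fun u => ?_⟩
  rw [← hc m u, hm]

end

end Cfsg.Agent.H822.Octad
end

-- part: S5425
section
set_option autoImplicit false
open Cfsg

namespace Cfsg.Agent.S5425

open scoped Pointwise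
open Cfsg.Agent.Co2Type.Quad Cfsg.Agent.H822.Bridge Cfsg.Agent.H822.SLTrans Cfsg.Agent.H822.Aff
open Cfsg.Agent.H822.Octad Cfsg.Agent.H822.Transfer Cfsg.Agent.SporadicA.OctadFix

theorem exists_other {G : Type*} [Group G] (U : Subgroup G) (z : G) (hU : 2 < Nat.card U) :
    ∃ b ∈ U, b ≠ 1 ∧ b ≠ z := by
  have : Finite U := Nat.finite_of_card_ne_zero (by omega)
  by_contra hcon
  push Not at hcon
  have h3 : Nat.card U ≤ Nat.card (({1, z} : Set G)) := by
    refine Nat.card_le_card_of_injective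
      (fun x : U => (⟨x, by
        by_cases h : (x : G) = 1
        · simp [h]
        · have := hcon x x.2 h; simp [this]⟩ : ({1, z} : Set G))) ?_
    intro x y hxy
    have hxy' := congrArg (fun t : (({1, z} : Set G)) => (t : G)) hxy
    exact Subtype.ext hxy'
  have h4 : Nat.card (({1, z} : Set G)) ≤ 2 := by
    rw [Nat.card_coe_set_eq]
    refine (Set.ncard_insert_le _ _).trans ?_
    rw [Set.ncard_singleton]
  omega

/-- In the Mathieu group of degree 24 (the automorphism group of the length-24 binary Golay code, acting on the 24 coordinates), let z be an involution whose fixed points form an octad (the support of a code word of weight 8), and let Q be the largest normal 2-subgroup of the centralizer C of z. Then Q is extraspecial of order 2^7 with an elementary abelian subgroup of order 16 (plus type), Q is a large extraspecial 2-subgroup, and C is the split extension of Q by the special linear group of degree 3 over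 the field with two elements. -/
theorem result (z : ↥Cfsg.M24) (hz : orderOf z = 2) (hfix : (Finset.univ.filter fun p : Cfsg.GolayPt => (z : Equiv.Perm Cfsg.GolayPt) p = p) ∈ Cfsg.octads) (Q : Subgroup ↥Cfsg.M24) (hQ : Q = (Cfsg.pCore 2 ↥(Subgroup.centralizer ({z} : Set ↥Cfsg.M24))).map (Subgroup.centralizer ({z} : Set ↥Cfsg.M24)).subtype) : Cfsg.IsExtraspecial 2 ↥Q ∧ Nat.card ↥Q = 2 ^ 7 ∧ (∃ E : Subgroup ↥Cfsg.M24, E ≤ Q ∧ Cfsg.IsElementaryAbelian 2 E ∧ Nat.card ↥E = 2 ^ 4) ∧ Cfsg.IsLargeExtraspecial Q ∧ ∃ K : Subgroup ↥Cfsg.M24, K ≤ Subgroup.centralizer ({z} : Set ↥Cfsg.M24) ∧ Q ⊓ K = ⊥ ∧ Q ⊔ K = Subgroup.centralizer ({z} : Set ↥Cfsg.M24) ∧ Nonempty (↥K ≃* Matrix.SpecialLinearGroup (Fin 3) (ZMod 2)) := by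
  classical
  set o : Finset Cfsg.GolayPt := Finset.univ.filter fun p : Cfsg.GolayPt => (z : Equiv.Perm Cfsg.GolayPt) p = p
    with hodef
  have hmo : ∀ x, x ∈ o ↔ (z : Equiv.Perm Cfsg.GolayPt) x = x := by
    intro x; rw [hodef, Finset.mem_filter]; simp
  have hz1 : z ≠ 1 := by
    rintro rfl
    rw [orderOf_one] at hz
    exact absurd hz (by norm_num)
  -- a point off the octad
  obtain ⟨p, hp⟩ : ∃ p, p ∉ o := by
    by_contra hcon
    push Not at hcon
    apply hz1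
    apply Subtype.ext
    ext x
    rw [(hmo x).1 (hcon x)]; rfl
  have hzfix : (z : Equiv.Perm Cfsg.GolayPt) ∈ fixOct o := mem_fixOct.2 ⟨z.2, fun x hx => (hmo x).1 hx⟩
  let z' : Yo o := ⟨z, fix_le o hzfix⟩
  have hz'U : z' ∈ Uo o := Subgroup.mem_subgroupOf.2 hzfix
  have hz'1 : z' ≠ 1 := fun h => hz1 (Subtype.ext (congrArg (fun t : Yo o => (t : Equiv.Perm Cfsg.GolayPt)) h))
  let ι : ↥(Yo o) →* ↥Cfsg.M24 := Subgroup.inclusion inf_le_left
  have hι : Function.Injective ι := Subgroup.inclusion_injective inf_le_left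
  have hιz : ι z' = z := rfl
  -- elements preserving `o` are in the range
  have hran : ∀ g : ↥Cfsg.M24, (∀ x, (g : Equiv.Perm Cfsg.GolayPt) x ∈ o ↔ x ∈ o) → g ∈ ι.range := by
    intro g hg
    exact ⟨⟨g, mem_Yo.2 ⟨g.2, hg⟩⟩, rfl⟩
  -- elements of `U` fix exactly `o`
  have hfixU : ∀ b ∈ Uo o, b ≠ 1 → ∀ x, (b : Equiv.Perm Cfsg.GolayPt) x = x ↔ x ∈ o := by
    intro b hb hb1 x
    constructor
    · intro hx
      by_contra hxo
      apply hb1
      apply Subtype.ext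
      exact (existsUnique_fixOct hfix hxo hxo).unique ⟨Subgroup.mem_subgroupOf.1 hb, hx⟩
        ⟨one_mem _, rfl⟩
    · intro hx
      exact mem_Uo.1 hb x hx
  have hcomm : ∀ b ∈ Uo o, b ≠ 1 → ∀ g : ↥Cfsg.M24, g * ι b = ι b * g → g ∈ ι.range := by
    intro b hb hb1 g hg
    apply hran
    intro x
    rw [← hfixU b hb hb1, ← hfixU b hb hb1]
    have h1 : (g : Equiv.Perm Cfsg.GolayPt) ((b : Equiv.Perm Cfsg.GolayPt) x) =
        (b : Equiv.Perm Cfsg.GolayPt) ((g : Equiv.Perm Cfsg.GolayPt) x) :=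
      congrArg (fun t : ↥Cfsg.M24 => (t : Equiv.Perm Cfsg.GolayPt) x) hg
    rw [← h1]
    exact (g : Equiv.Perm Cfsg.GolayPt).injective.eq_iff
  have hC : ∀ g : ↥Cfsg.M24, g * ι z' = ι z' * g → g ∈ ι.range := hcomm z' hz'U hz'1
  -- the holomorph
  obtain ⟨e, he, hez⟩ := Cfsg.Agent.H822.Coord.exists_coord (U := Uo o) (n := 3)
    (fun a b => Subtype.ext (comm_Uo hfix a a.2 b b.2))
    (fun a => Subtype.ext (sq_Uo hfix a.2)) (card_Uo hfix)
    (z := ⟨z', hz'U⟩) (fun h => hz'1 (congrArg Subtype.val h))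
  let H : Hol (Uo o) (Mo o p) 3 z' :=
    { nU := normal_Uo hfix
      comm := comm_Uo hfix
      inf := inf_UM hfix hp
      sup := sup_UM hfix hp
      faith := faith_UM hfix hp
      full := full_UM hfix hp
      e := e
      e_mul := he
      hz := hz'U
      e_z := hez }
  have hU2 : ∀ u ∈ Uo o, u ^ 2 = 1 := fun u hu => by rw [pow_two]; exact sq_Uo hfix hu
  have hcore := core_map hι hC
  rw [hιz, H.core_pre (by norm_num)] at hcore
  have hQ' : Q = (H.pre (QQ 3)).map ι := by rw [hQ]; exact hcore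
  subst hQ'
  have hL := large_map hι hC H.large
  rw [hιz] at hL
  have hUle := H.U_le (by norm_num) hU2
  obtain ⟨b, hbU, hb1, hbz⟩ := exists_other (Uo o) z' (by rw [card_Uo hfix]; norm_num)
  have hlarge : Cfsg.IsLargeExtraspecial ((H.pre (QQ 3)).map ι) := by
    refine isLarge_of_core (b := ι b) hL ⟨b, hUle hbU, rfl⟩ ?_ ?_ (P := (Uo o).map ι) ?_ ⟨z', hz'U, rfl⟩ ?_ ?_
    · intro h; exact hb1 (hι (h.trans (map_one ι).symm))
    · intro h; exact hbz (hι (h.trans hιz.symm))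
    · rintro ⟨_, ⟨u, hu, rfl⟩⟩
      refine ⟨1, ?_⟩
      apply Subtype.ext
      show (ι u) ^ (2 ^ 1) = 1
      rw [pow_one, ← map_pow, hU2 u hu, map_one]
    · rintro g hg _ ⟨x, hx, rfl⟩
      obtain ⟨g, rfl⟩ := hcomm b hbU hb1 g hg
      exact ⟨g * x * g⁻¹, (normal_Uo hfix).conj_mem x hx g, by simp⟩
    · rw [← map_mul, sq_Uo hfix hbU, map_one]
  have hmc := map_cent hι hC
  rw [hιz] at hmc
  obtain ⟨c1, c2, c3⟩ := H.compl
  have hUel : Cfsg.IsElementaryAbelian 2 (Uo o) := by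
    refine ⟨⟨⟨fun a b => Subtype.ext (comm_Uo hfix a a.2 b b.2)⟩⟩, hU2⟩
  refine ⟨hlarge.1, ?_, ⟨(Uo o).map ι, Subgroup.map_mono hUle, elAb_map 2 hUel, ?_⟩, hlarge,
    (H.pre (KK 3)).map ι, ?_, ?_, ?_, ?_⟩
  · rw [card_map hι, H.card_pre (H.QQ_le), card_QQ]
  · rw [card_map hι, card_Uo hfix]
  · rw [← hmc]; exact Subgroup.map_mono c1
  · rw [← Subgroup.map_inf _ _ _ hι, c2, Subgroup.map_bot]
  · rw [← Subgroup.map_sup, c3, hmc]
  · exact ⟨(((H.pre (KK 3)).equivMapOfInjective ι hι).symm.trans H.kPreEquiv).trans (kEquiv 3)⟩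

end Cfsg.Agent.S5425
end
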