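import Cfsg.Agent.H823.PairX
import Cfsg.Statements.S5431
set_option linter.all false

-- part: H823/PairR
section
/-!
# The structure of `R = C_A(z) C_Q(a)` for a pair of large extraspecial subgroups

* `center_R`: `Z(R) = V`;
* `comm_X_E`: `[X, E] ≤ V` for `E = Q ∩ A`;
* `R_sq`, `R_comm`: `R / E` is elementary abelian.
-/

set_option autoImplicit false

namespace Cfsg.Agent.H823

open Cfsg Cfsg.Agent.Co2Type.Quad Cfsg.Agent.LargeExtra.Base Cfsg.Agent.LargeExtra.TwoCentral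
open scoped Pointwise commutatorElement

variable {G : Type*} [Group G] {Q A : Subgroup G} {z a : G}

/-- `V ≤ R` -/
theorem V_le_R (p : Pair Q z A a) : Subgroup.closure ({z, a} : Set G) ≤ RR Q A z a := by
  intro x hx
  have h1 : z ∈ RR Q A z a := mem_RR_of_Q p.lz.z_mem p.comm_za.symm
  have h2 : a ∈ RR Q A z a := mem_RR_of_Q p.a_mem rfl
  rcases (mem_V p).1 hx with rfl | rfl | rfl | rfl
  · exact one_mem _
  · exact h1
  · exact h2
  · exact mul_mem h2 h1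

/-- `Z(R) = V` -/
theorem center_R (p : Pair Q z A a) :
    (Subgroup.center ↥(RR Q A z a)).map (RR Q A z a).subtype = Subgroup.closure ({z, a} : Set G) := by
  apply le_antisymm
  · rintro _ ⟨x, hx, rfl⟩
    have hx' := Subgroup.mem_center_iff.1 hx
    rw [mem_V p]
    refine cent_U p.lz p.a_mem p.la.z_sq p.la.z_ne p.ne ?_
    intro u hu hua
    exact (congrArg Subtype.val (hx' ⟨u, mem_RR_of_Q hu hua⟩)).symm
  · intro x hx
    refine ⟨⟨x, V_le_R p hx⟩, ?_, rfl⟩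
    show (⟨x, V_le_R p hx⟩ : RR Q A z a) ∈ Subgroup.center _
    rw [Subgroup.mem_center_iff]
    intro y
    apply Subtype.ext
    show (y : G) * x = x * y
    have h1 := mem_cV.2 (RR_le_cV p y.2)
    exact (Subgroup.mem_centralizer_iff.1 h1 x hx).symm

theorem E_le_R (p : Pair Q z A a) : Q ⊓ A ≤ RR Q A z a := by
  rintro x ⟨h1, h2⟩
  exact mem_RR_of_Q h1 (p.la.comm_z x h2)

/-- `C_A(z) ∩ C_Q(a) = E` -/
theorem inf_eq (p : Pair Q z A a) : (A ⊓ Subgroup.centralizer ({z} : Set G)) ⊓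
    (Q ⊓ Subgroup.centralizer ({a} : Set G)) = Q ⊓ A := by
  apply le_antisymm
  · rintro x ⟨⟨h1, -⟩, h2, -⟩
    exact ⟨h2, h1⟩
  · rintro x ⟨h1, h2⟩
    exact ⟨⟨h2, Subgroup.mem_centralizer_singleton_iff.2 (p.lz.comm_z x h1)⟩, h1,
      Subgroup.mem_centralizer_singleton_iff.2 (p.la.comm_z x h2)⟩

/-- `E` is elementary abelian -/
theorem E_elementary (p : Pair Q z A a) : Cfsg.IsElementaryAbelian 2 (Q ⊓ A) := by
  refine ⟨⟨⟨?_⟩⟩, ?_⟩
  · rintro ⟨x, h1, h2⟩ ⟨y, h3, h4⟩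
    exact Subtype.ext (p.comm_D h1 h2 h3 h4)
  · rintro x ⟨h1, h2⟩
    rw [pow_two]; exact p.sq_D h1 h2

theorem V_le_E (p : Pair Q z A a) : Subgroup.closure ({z, a} : Set G) ≤ Q ⊓ A := by
  intro x hx
  rcases (mem_V p).1 hx with rfl | rfl | rfl | rfl
  · exact one_mem _
  · exact ⟨p.lz.z_mem, p.z_mem⟩
  · exact ⟨p.a_mem, p.la.z_mem⟩
  · exact mul_mem ⟨p.a_mem, p.la.z_mem⟩ ⟨p.lz.z_mem, p.z_mem⟩

/-- `[q, e] ∈ V` for `q ∈ Q`, `e ∈ Q` -/
theorem comm_Q_Q (p : Pair Q z A a) {q e : G} (hq : q ∈ Q) (he : e ∈ Q) :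
    q * e * q⁻¹ * e⁻¹ ∈ Subgroup.closure ({z, a} : Set G) := by
  have hzV : z ∈ Subgroup.closure ({z, a} : Set G) := Subgroup.subset_closure (by simp)
  rcases p.lz.comm q hq e he with h1 | h1
  · have : q * e * q⁻¹ * e⁻¹ = 1 := by rw [h1]; group
    rw [this]; exact one_mem _
  · have h2 : (e * q) * z = z * (e * q) := p.lz.comm_z _ (mul_mem he hq)
    have : q * e * q⁻¹ * e⁻¹ = z := by
      rw [h1, h2]; group
    rw [this]; exact hzV

theorem comm_A_A (p : Pair Q z A a) {q e : G} (hq : q ∈ A) (he : e ∈ A) :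
    q * e * q⁻¹ * e⁻¹ ∈ Subgroup.closure ({z, a} : Set G) := by
  rw [V_symm]; exact comm_Q_Q p.symm hq he

/-- `[x, e] ∈ V` for `x ∈ X`, `e ∈ E` -/
theorem comm_X_E (p : Pair Q z A a) {x e : G} (hx : x ∈ Q ⊔ A) (he : e ∈ Q ⊓ A) :
    x * e * x⁻¹ * e⁻¹ ∈ Subgroup.closure ({z, a} : Set G) := by
  have hnorm := X_le_normV p
  rw [Subgroup.sup_eq_closure] at hx
  induction hx using Subgroup.closure_induction with
  | mem y hy =>
    rcases hy with hy | hy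
    · exact comm_Q_Q p hy he.1
    · exact comm_A_A p hy he.2
  | one =>
    have : (1 : G) * e * 1⁻¹ * e⁻¹ = 1 := by group
    rw [this]; exact one_mem _
  | mul x y hx' hy' hx hy =>
    rw [← Subgroup.sup_eq_closure] at hx'
    have h1 := (Subgroup.mem_normalizer_iff.1 (hnorm hx') _).1 hy
    have e1 : x * y * e * (x * y)⁻¹ * e⁻¹ = (x * (y * e * y⁻¹ * e⁻¹) * x⁻¹) * (x * e * x⁻¹ * e⁻¹) := by group
    rw [e1]; exact mul_mem h1 hx
  | inv x hx' hx =>
    rw [← Subgroup.sup_eq_closure] at hx'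
    have h1 := (Subgroup.mem_normalizer_iff.1 (hnorm (inv_mem hx')) _).1 (inv_mem hx)
    have e1 : x⁻¹ * e * x⁻¹⁻¹ * e⁻¹ = x⁻¹ * (x * e * x⁻¹ * e⁻¹)⁻¹ * x⁻¹⁻¹ := by group
    rw [e1]; exact h1

/-- `[X, E] ≤ V` -/
theorem commutator_X_E (p : Pair Q z A a) : ⁅Q ⊔ A, Q ⊓ A⁆ ≤ Subgroup.closure ({z, a} : Set G) := by
  rw [Subgroup.commutator_le]
  intro x hx e he
  exact comm_X_E p hx he

/-- elements of `R` are products -/
theorem mem_RR (p : Pair Q z A a) {x : G} (hx : x ∈ RR Q A z a) :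
    ∃ y ∈ A, y * z = z * y ∧ ∃ u ∈ Q, u * a = a * u ∧ x = y * u := by
  have h3 : A ⊓ Subgroup.centralizer ({z} : Set G) ≤
      Subgroup.normalizer ((Q ⊓ Subgroup.centralizer ({a} : Set G) : Subgroup G) : Set G) := by
    rintro x ⟨hx, hxz⟩
    have hxz' := Subgroup.mem_centralizer_singleton_iff.1 hxz
    have hxa' := p.la.comm_z x hx
    have key : ∀ x : G, x * z = z * x → x * a = a * x → ∀ y ∈ Q ⊓ Subgroup.centralizer ({a} : Set G),
        x * y * x⁻¹ ∈ Q ⊓ Subgroup.centralizer ({a} : Set G) := by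
      rintro x hxz hxa y ⟨hy, hya⟩
      refine ⟨p.lz.conj_mem x hxz y hy, Subgroup.mem_centralizer_singleton_iff.2 ?_⟩
      have hya' := Subgroup.mem_centralizer_singleton_iff.1 hya
      have hxa'' := inv_comm hxa
      calc x * y * x⁻¹ * a = x * y * (x⁻¹ * a) := by group
        _ = x * (y * a) * x⁻¹ := by rw [hxa'']; group
        _ = (x * a) * y * x⁻¹ := by rw [hya']; group
        _ = a * (x * y * x⁻¹) := by rw [hxa]; group
    rw [Subgroup.mem_normalizer_iff]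
    intro y
    refine ⟨fun hy => key x hxz' hxa' y hy, fun hy => ?_⟩
    have h4 := key x⁻¹ (inv_comm hxz') (inv_comm hxa') _ hy
    have h5 : x⁻¹ * (x * y * x⁻¹) * x⁻¹⁻¹ = y := by group
    rwa [h5] at h4
  have h4 : x ∈ ((A ⊓ Subgroup.centralizer ({z} : Set G) : Subgroup G) : Set G) *
      ((Q ⊓ Subgroup.centralizer ({a} : Set G) : Subgroup G) : Set G) := by
    rw [← Subgroup.coe_mul_of_left_le_normalizer_right _ _ h3]; exact hx
  obtain ⟨y, ⟨hy, hyz⟩, u, ⟨hu, hua⟩, rfl⟩ := h4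
  exact ⟨y, hy, Subgroup.mem_centralizer_singleton_iff.1 hyz, u, hu,
    Subgroup.mem_centralizer_singleton_iff.1 hua, rfl⟩

/-- `R` normalises `E`  -/
theorem E_conj (p : Pair Q z A a) {x e : G} (hx : x ∈ Q ⊔ A) (he : e ∈ Q ⊓ A) : x * e * x⁻¹ ∈ Q ⊓ A := by
  have h1 := V_le_E p (comm_X_E p hx he)
  have h2 : x * e * x⁻¹ = (x * e * x⁻¹ * e⁻¹) * e := by group
  rw [h2]; exact mul_mem h1 he

/-- `[R, R] ≤ E` -/
theorem R_comm (p : Pair Q z A a) {x y : G} (hx : x ∈ RR Q A z a) (hy : y ∈ RR Q A z a) :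
    x * y * x⁻¹ * y⁻¹ ∈ Q ⊓ A := by
  -- commutators with generators
  have gen : ∀ x y : G, (x ∈ A ∧ x * z = z * x ∨ x ∈ Q ∧ x * a = a * x) →
      (y ∈ A ∧ y * z = z * y ∨ y ∈ Q ∧ y * a = a * y) → x * y * x⁻¹ * y⁻¹ ∈ Q ⊓ A := by
    rintro x y (⟨h1, h2⟩ | ⟨h1, h2⟩) (⟨h3, h4⟩ | ⟨h3, h4⟩)
    · exact V_le_E p (comm_A_A p h1 h3)
    · have := inv_mem (p.comm_mem h3 h4 h1 h2)
      have e : (y * x * y⁻¹ * x⁻¹)⁻¹ = x * y * x⁻¹ * y⁻¹ := by group
      rwa [e] at this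
    · exact p.comm_mem h1 h2 h3 h4
    · exact V_le_E p (comm_Q_Q p h1 h3)
  have hXR := R_le_X Q A z a
  have half : ∀ x y : G, (x ∈ A ∧ x * z = z * x ∨ x ∈ Q ∧ x * a = a * x) → y ∈ RR Q A z a →
      x * y * x⁻¹ * y⁻¹ ∈ Q ⊓ A := by
    intro x y hx hy
    obtain ⟨b, hb, hbz, u, hu, hua, rfl⟩ := mem_RR p hy
    have h1 := gen x b hx (Or.inl ⟨hb, hbz⟩)
    have h2 := gen x u hx (Or.inr ⟨hu, hua⟩)
    have h3 := E_conj p (Subgroup.mem_sup_right hb) h2
    have e : x * (b * u) * x⁻¹ * (b * u)⁻¹ = (x * b * x⁻¹ * b⁻¹) * (b * (x * u * x⁻¹ * u⁻¹) * b⁻¹) := by group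
    rw [e]; exact mul_mem h1 h3
  obtain ⟨b, hb, hbz, u, hu, hua, rfl⟩ := mem_RR p hx
  have h1 := half b y (Or.inl ⟨hb, hbz⟩) hy
  have h2 := half u y (Or.inr ⟨hu, hua⟩) hy
  have h3 := E_conj p (Subgroup.mem_sup_right hb) h2
  have e : b * u * y * (b * u)⁻¹ * y⁻¹ = (b * (u * y * u⁻¹ * y⁻¹) * b⁻¹) * (b * y * b⁻¹ * y⁻¹) := by group
  rw [e]; exact mul_mem h3 h1

/-- squares of `R` lie in `E` -/
theorem R_sq (p : Pair Q z A a) {x : G} (hx : x ∈ RR Q A z a) : x ^ 2 ∈ Q ⊓ A := by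
  obtain ⟨b, hb, hbz, u, hu, hua, rfl⟩ := mem_RR p hx
  have h1 := R_comm p (mem_RR_of_Q hu hua) (mem_RR_of_A hb hbz : b ∈ RR Q A z a)
  have h2 : b * b ∈ Q ⊓ A := by
    rcases p.la.sq b hb with h | h
    · rw [h]; exact one_mem _
    · rw [h]; exact ⟨p.a_mem, p.la.z_mem⟩
  have h3 : u * u ∈ Q ⊓ A := by
    rcases p.lz.sq u hu with h | h
    · rw [h]; exact one_mem _
    · rw [h]; exact ⟨p.lz.z_mem, p.z_mem⟩
  have h4 := E_conj p (Subgroup.mem_sup_right hb) h1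
  have e : (b * u) ^ 2 = (b * (u * b * u⁻¹ * b⁻¹) * b⁻¹) * (b * b) * (u * u) := by
    rw [pow_two]; group
  rw [e]; exact mul_mem (mul_mem h4 h2) h3

/-- `E ≤ Z₂(R)` -/
theorem E_le_Z2 (p : Pair Q z A a) :
    Q ⊓ A ≤ (Subgroup.upperCentralSeries ↥(RR Q A z a) 2).map (RR Q A z a).subtype := by
  intro e he
  refine ⟨⟨e, E_le_R p he⟩, ?_, rfl⟩
  show (⟨e, E_le_R p he⟩ : RR Q A z a) ∈ Subgroup.upperCentralSeries ↥(RR Q A z a) 2
  rw [Subgroup.mem_upperCentralSeries_succ_iff]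
  intro y
  rw [Subgroup.upperCentralSeries_one]
  have h1 := inv_mem (comm_X_E p (R_le_X Q A z a y.2) he)
  have h2 : (e * y * e⁻¹ * (y : G)⁻¹) ∈ Subgroup.closure ({z, a} : Set G) := by
    have e1 : ((y : G) * e * (y : G)⁻¹ * e⁻¹)⁻¹ = e * y * e⁻¹ * (y : G)⁻¹ := by group
    rwa [e1] at h1
  rw [← center_R p] at h2
  obtain ⟨c, hc, hc'⟩ := h2
  have : ⁅(⟨e, E_le_R p he⟩ : RR Q A z a), y⁆ = c :=
    Subtype.ext hc'.symm
  rw [this]; exact hc

/-- `cl(R) ≤ 3` -/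
theorem Z3_eq_top (p : Pair Q z A a) : Subgroup.upperCentralSeries ↥(RR Q A z a) 3 = ⊤ := by
  rw [eq_top_iff]
  intro x _
  rw [Subgroup.mem_upperCentralSeries_succ_iff]
  intro y
  obtain ⟨c, hc, hc'⟩ := E_le_Z2 p (R_comm p x.2 y.2)
  have : ⁅x, y⁆ = c := Subtype.ext hc'.symm
  rw [this]; exact hc

end Cfsg.Agent.H823
end

-- part: S5431
section
set_option autoImplicit false
open Cfsg

namespace Cfsg.Agent.S5431

/-- Let Q be a large extraspecial 2-subgroup of the finite group G (extraspecial; centralizer equal to its centre; normal in the centralizer of its centre; normalizing no non-trivial subgroup of odd order) with centre generated by z, an involution, of width w ≥ 2 (order 2^(2w+1)); let g be an element outside the centralizer H of z with g z g⁻¹ in Q; write V for the subgroup generated by z and g z g⁻¹, X for the subgroup generated by Q and g Q g⁻¹, R for the subgroup generated by the centralizer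 of z in g Q g⁻¹ and the centralizer of g z g⁻¹ in Q, and E for the intersection of Q and g Q g⁻¹. Then V is the centre of R, E lies in the second centre of R, R is nilpotent of class at most 3, E and R/E are elementary abelian, R/E is the direct product of the images of the centralizer of g z g⁻¹ in Q and of the centralizer of z in g Q g⁻¹ (R is their product and they meet in E), and the commutator subgroup of X and E lies in V. -/
theorem result {G : Type*} [Group G] [Finite G] (Q : Subgroup G) (hQ : Cfsg.IsLargeExtraspecial Q) (z : G) (hz : ((Subgroup.center ↥Q).map Q.subtype) = Subgroup.zpowers z) (hz2 : orderOf z = 2) (w : ℕ) (hw : 2 ≤ w) (hcard : Nat.card ↥Q = 2 ^ (2 * w + 1)) (g : G) (hgH : g ∉ Subgroup.centralizer ({z} : Set G)) (hgQ : g * z * g⁻¹ ∈ Q) (V X R E : Subgroup G) (hV : V = Subgroup.closure ({z, g * z * g⁻¹} : Set G)) (hX : X = Q ⊔ (Q).map (MulAut.conj g).toMonoidHom) (hR : R = ((Q).map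 (MulAut.conj g).toMonoidHom ⊓ Subgroup.centralizer ({z} : Set G)) ⊔ (Q ⊓ Subgroup.centralizer ({g * z * g⁻¹} : Set G))) (hE : E = Q ⊓ (Q).map (MulAut.conj g).toMonoidHom) : (Subgroup.center ↥R).map R.subtype = V ∧ E ≤ (Subgroup.upperCentralSeries ↥R 2).map R.subtype ∧ Subgroup.upperCentralSeries ↥R 3 = ⊤ ∧ Cfsg.IsElementaryAbelian 2 E ∧ (∀ x ∈ R, ∀ y ∈ R, x * y * x⁻¹ * y⁻¹ ∈ E ∧ x ^ 2 ∈ E) ∧ ((Q).map (MulAut.conj g).toMonoidHom ⊓ Subgroup.centralizer ({z} : Set G)) ⊓ (Q ⊓ Subgroup.centralizer ({g * z * g⁻¹} : Set G)) = E ∧ ⁅X, E⁆ ≤ V := by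
  have hL := Cfsg.Agent.H823.large_of_isLarge hQ hz hz2
  have hne : g * z * g⁻¹ ≠ z := by
    intro h
    apply hgH
    rw [Subgroup.mem_centralizer_singleton_iff]
    exact mul_inv_eq_iff_eq_mul.1 h
  have p := Cfsg.Agent.LargeExtra.Base.pair_of_conj hL hgQ hne
  have hR' : R = Cfsg.Agent.H823.RR Q (Q.map (MulAut.conj g).toMonoidHom) z (g * z * g⁻¹) := hR
  clear hR hgH hw hcard
  subst hV hX hR' hE
  exact ⟨Cfsg.Agent.H823.center_R p, Cfsg.Agent.H823.E_le_Z2 p, Cfsg.Agent.H823.Z3_eq_top p,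
    Cfsg.Agent.H823.E_elementary p,
    fun x hx y hy => ⟨Cfsg.Agent.H823.R_comm p hx hy, Cfsg.Agent.H823.R_sq p hx⟩,
    Cfsg.Agent.H823.inf_eq p, Cfsg.Agent.H823.commutator_X_E p⟩

end Cfsg.Agent.S5431
end
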