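import Cfsg.Agent.Co2Type.Quad
import Cfsg.Agent.H823.Core
import Cfsg.Agent.LieClassical.OrthFourCommon
import Cfsg.Prelude.Def_KGroupFacts
import Cfsg.Agent.J2.ExtQuot
import Cfsg.Statements.S5432
import Cfsg.Agent.LargeExtra.Siegel
import Cfsg.Agent.GenOrth.Normal
import Cfsg.Agent.AutOrth.Main
set_option linter.all false

-- part: H823/ExtraLift
section
/-!
# Isometries of `Q / Z(Q)` lift to isomorphisms of extraspecial 2-groups

`h₁ : Large Q₁ z₁`, `h₂ : Large Q₂ z₂`, `Q₁`, `Q₂` finite, `f : h₁.V ≃ₗ h₂.V` with `h₂.q (f v) = h₁.q v`: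

* `exists_lift`: there is `α : Q₁ ≃* Q₂` with `h₂.pr (α x) = f (h₁.pr x)`.
-/

set_option autoImplicit false

namespace Cfsg.Agent.H823

open Cfsg.Agent.Co2Type.Quad

variable {G₁ G₂ : Type*} [Group G₁] [Group G₂] {Q₁ : Subgroup G₁} {z₁ : G₁} {Q₂ : Subgroup G₂} {z₂ : G₂}

/-- an isometry for the quadratic forms preserves the bilinear forms -/
theorem b_of_q (h₁ : Large Q₁ z₁) (h₂ : Large Q₂ z₂) (f : h₁.V ≃ₗ[ZMod 2] h₂.V)
    (hf : ∀ v, h₂.q (f v) = h₁.q v) (v w : h₁.V) : h₂.b (f v) (f w) = h₁.b v w := by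
  have e1 := h₁.q_add' v w
  have e2 := h₂.q_add' (f v) (f w)
  rw [← map_add, hf, hf, hf, e1] at e2
  exact (add_left_cancel e2).symm

/-- the fibre product of `Q₁` and `Q₂` over `f` -/
def fib (h₁ : Large Q₁ z₁) (h₂ : Large Q₂ z₂) (f : h₁.V ≃ₗ[ZMod 2] h₂.V) : Subgroup (Q₁ × Q₂) where
  carrier := {p | h₂.pr p.2 = f (h₁.pr p.1)}
  mul_mem' {p p'} hp hp' := by
    show h₂.pr (p.2 * p'.2) = f (h₁.pr (p.1 * p'.1))
    rw [h₁.pr_mul, h₂.pr_mul, map_add, show h₂.pr p.2 = _ from hp, show h₂.pr p'.2 = _ from hp']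
  one_mem' := by
    show h₂.pr 1 = f (h₁.pr 1)
    rw [h₁.pr_one, h₂.pr_one, map_zero]
  inv_mem' {p} hp := by
    show h₂.pr p.2⁻¹ = f (h₁.pr p.1⁻¹)
    rw [h₁.pr_inv, h₂.pr_inv, map_neg, show h₂.pr p.2 = _ from hp]

theorem mem_fib (h₁ : Large Q₁ z₁) (h₂ : Large Q₂ z₂) (f : h₁.V ≃ₗ[ZMod 2] h₂.V) (p : Q₁ × Q₂) :
    p ∈ fib h₁ h₂ f ↔ h₂.pr p.2 = f (h₁.pr p.1) := Iff.rfl

/-- **Isometries lift to isomorphisms.** -/
theorem exists_lift [Finite Q₁] [Finite Q₂] (h₁ : Large Q₁ z₁) (h₂ : Large Q₂ z₂) (f : h₁.V ≃ₗ[ZMod 2] h₂.V)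
    (hf : ∀ v, h₂.q (f v) = h₁.q v) : ∃ α : Q₁ ≃* Q₂, ∀ x, h₂.pr (α x) = f (h₁.pr x) := by
  classical
  have hb := b_of_q h₁ h₂ f hf
  set Z₁ : Q₁ := ⟨z₁, h₁.z_mem⟩ with hZ₁
  set Z₂ : Q₂ := ⟨z₂, h₂.z_mem⟩ with hZ₂
  have hZ₁c : ∀ x : Q₁, x * Z₁ = Z₁ * x := fun x => Subtype.ext (h₁.comm_z x x.2)
  have hZ₂c : ∀ x : Q₂, x * Z₂ = Z₂ * x := fun x => Subtype.ext (h₂.comm_z x x.2)
  have hZ₁s : Z₁ * Z₁ = 1 := Subtype.ext h₁.z_sq
  have hZ₂s : Z₂ * Z₂ = 1 := Subtype.ext h₂.z_sq
  have hZ₁1 : Z₁ ≠ 1 := fun h => h₁.z_ne (congrArg Subtype.val h)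
  have hZ₂1 : Z₂ ≠ 1 := fun h => h₂.z_ne (congrArg Subtype.val h)
  have hpr₁ : h₁.pr Z₁ = 0 := h₁.pr_eq_zero.2 (Or.inr rfl)
  have hpr₂ : h₂.pr Z₂ = 0 := h₂.pr_eq_zero.2 (Or.inr rfl)
  -- subgroups between `⟨(z₁, z₂)⟩` and the fibre product not containing `(z₁, 1)`
  let S : Set (Subgroup (Q₁ × Q₂)) := {W | W ≤ fib h₁ h₂ f ∧ (Z₁, Z₂) ∈ W ∧ (Z₁, (1 : Q₂)) ∉ W}
  have hS : S.Nonempty := by
    refine ⟨Subgroup.zpowers (Z₁, Z₂), ?_, Subgroup.mem_zpowers _, ?_⟩
    · rw [Subgroup.zpowers_le, mem_fib]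
      show h₂.pr Z₂ = f (h₁.pr Z₁)
      rw [hpr₁, hpr₂, map_zero]
    · rintro ⟨k, hk⟩
      rcases Int.even_or_odd' k with ⟨m, rfl | rfl⟩
      · have h3 : (Z₁, Z₂) ^ (2 * m) = 1 := by
          rw [zpow_mul, zpow_ofNat, pow_two]
          have : (Z₁, Z₂) * (Z₁, Z₂) = 1 := Prod.ext hZ₁s hZ₂s
          rw [this, one_zpow]
        have hk' : (Z₁, Z₂) ^ (2 * m) = (Z₁, 1) := hk
        rw [h3] at hk'
        exact hZ₁1 (congrArg Prod.fst hk').symm
      · have h3 : (Z₁, Z₂) ^ (2 * m + 1) = (Z₁, Z₂) := by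
          rw [zpow_add, zpow_mul, zpow_ofNat, pow_two]
          have : (Z₁, Z₂) * (Z₁, Z₂) = 1 := Prod.ext hZ₁s hZ₂s
          rw [this, one_zpow, zpow_one, one_mul]
        have hk' : (Z₁, Z₂) ^ (2 * m + 1) = (Z₁, 1) := hk
        rw [h3] at hk'
        exact hZ₂1 (congrArg Prod.snd hk')
  obtain ⟨W, ⟨hWF, hWD, hWz⟩, hWmax⟩ := (Set.toFinite S).exists_maximal hS
  -- squares and commutators of the fibre product lie in `{1, (z₁, z₂)}`
  have hD : ∀ w : Q₁ × Q₂, w = 1 ∨ w = (Z₁, Z₂) → w ∈ W := by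
    rintro w (rfl | rfl)
    · exact one_mem _
    · exact hWD
  have hsq : ∀ w ∈ fib h₁ h₂ f, w * w ∈ W := by
    rintro ⟨x, y⟩ hw
    rw [mem_fib] at hw
    have hq : h₂.q (h₂.pr y) = h₁.q (h₁.pr x) := by
      rw [show h₂.pr y = _ from hw, hf]
    apply hD
    rcases h₁.sq x x.2 with h3 | h3
    · left
      have h4 : h₁.q (h₁.pr x) = 0 := h₁.q_eq_zero.2 h3
      rw [h4] at hq
      exact Prod.ext (Subtype.ext h3) (Subtype.ext (h₂.q_eq_zero.1 hq))
    · right
      have h4 : h₁.q (h₁.pr x) = 1 := h₁.q_eq_one.2 h3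
      rw [h4] at hq
      exact Prod.ext (Subtype.ext h3) (Subtype.ext (h₂.q_eq_one.1 hq))
  have hcm : ∀ w ∈ fib h₁ h₂ f, ∀ w' ∈ fib h₁ h₂ f, w * w' * w⁻¹ * w'⁻¹ ∈ W := by
    intro w hw w' hw'
    -- `[w, w'] = w² (w⁻¹ w')² w'⁻²`
    have e : w * w' * w⁻¹ * w'⁻¹ = (w * w) * ((w⁻¹ * w') * (w⁻¹ * w')) * (w'⁻¹ * w'⁻¹) := by group
    rw [e]
    exact mul_mem (mul_mem (hsq w hw) (hsq _ (mul_mem (inv_mem hw) hw'))) (hsq _ (inv_mem hw'))
  -- the key: `fib = W ∪ (z₁, 1) W`
  have key : ∀ x : Q₁, ∀ y : Q₂, (x, y) ∈ fib h₁ h₂ f → (x, y) ∈ W ∨ (Z₁ * x, y) ∈ W := by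
    intro x y hxy
    by_contra hcon
    push Not at hcon
    obtain ⟨h3, h4⟩ := hcon
    -- `W' = W ∪ (x, y) W`
    let W' : Subgroup (Q₁ × Q₂) :=
      { carrier := {p | p ∈ W ∨ (x, y) * p ∈ W}
        one_mem' := Or.inl (one_mem _)
        mul_mem' := by
          have hF : ∀ p, (x, y) * p ∈ W → p ∈ fib h₁ h₂ f := by
            intro p hp
            have : p = (x, y)⁻¹ * ((x, y) * p) := by group
            rw [this]; exact mul_mem (inv_mem hxy) (hWF hp)
          rintro p p' (hp | hp) (hp' | hp')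
          · exact Or.inl (mul_mem hp hp')
          · right
            have e : (x, y) * (p * p') = ((x, y) * p * (x, y)⁻¹ * p⁻¹) * (p * ((x, y) * p')) := by group
            rw [e]
            exact mul_mem (hcm _ hxy _ (hWF hp)) (mul_mem hp hp')
          · right
            rw [← mul_assoc]; exact mul_mem hp hp'
          · left
            -- `p p' = ((x,y) p) [..] ((x,y) p') (x,y)⁻²`
            have hpF := hF p hp
            have hpF' := hF p' hp'
            have e : p * p' = ((x, y)⁻¹ * (x, y)⁻¹) * ((x, y) * ((x, y) * p) * (x, y)⁻¹ * ((x, y) * p)⁻¹) *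
                (((x, y) * p) * ((x, y) * p')) := by group
            rw [e]
            exact mul_mem (mul_mem (hsq _ (inv_mem hxy)) (hcm _ hxy _ (mul_mem hxy hpF))) (mul_mem hp hp')
        inv_mem' := by
          have hF : ∀ p, (x, y) * p ∈ W → p ∈ fib h₁ h₂ f := by
            intro p hp
            have : p = (x, y)⁻¹ * ((x, y) * p) := by group
            rw [this]; exact mul_mem (inv_mem hxy) (hWF hp)
          rintro p (hp | hp)
          · exact Or.inl (inv_mem hp)
          · right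
            have hpF := hF p hp
            have e : (x, y) * p⁻¹ = ((x, y) * p) * (p⁻¹ * p⁻¹) := by group
            rw [e]
            exact mul_mem hp (hsq _ (inv_mem hpF)) }
    have hW'F : W' ≤ fib h₁ h₂ f := by
      rintro p (hp | hp)
      · exact hWF hp
      · have : p = (x, y)⁻¹ * ((x, y) * p) := by group
        rw [this]; exact mul_mem (inv_mem hxy) (hWF hp)
    have hWW' : W ≤ W' := fun p hp => Or.inl hp
    have hxW' : (x, y) ∈ W' := Or.inr (hsq _ hxy)
    have hzW' : (Z₁, (1 : Q₂)) ∈ W' := by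
      by_contra hz
      exact h3 (hWmax ⟨hW'F, hWW' hWD, hz⟩ hWW' hxW')
    rcases hzW' with h5 | h5
    · exact hWz h5
    · apply h4
      have e : (Z₁ * x, y) = (x, y) * (Z₁, 1) := by
        rw [Prod.mk_mul_mk, mul_one, hZ₁c]
      rw [e]; exact h5
  -- the two projections of `W`
  have hfst : Function.Bijective ((MonoidHom.fst Q₁ Q₂).comp W.subtype) := by
    constructor
    · rw [injective_iff_map_eq_one]
      rintro ⟨⟨x, y⟩, hw⟩ hx
      have hx' : x = 1 := hx
      subst hx'
      have h3 : h₂.pr y = f (h₁.pr 1) := hWF hw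
      rw [h₁.pr_one, map_zero, h₂.pr_eq_zero] at h3
      rcases h3 with h3 | h3
      · exact Subtype.ext (Prod.ext rfl (Subtype.ext h3))
      · exfalso
        apply hWz
        have e : (Z₁, (1 : Q₂)) = (1, y) * (Z₁, Z₂) := by
          rw [Prod.mk_mul_mk, one_mul]
          have : y = Z₂ := Subtype.ext h3
          rw [this, hZ₂s]
        rw [e]; exact mul_mem hw hWD
    · intro x
      obtain ⟨y, hy⟩ := h₂.pr_surjective (f (h₁.pr x))
      rcases key x y hy with h3 | h3
      · exact ⟨⟨_, h3⟩, rfl⟩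
      · refine ⟨⟨(x, Z₂ * y), ?_⟩, rfl⟩
        have e : (x, Z₂ * y) = (Z₁, Z₂) * (Z₁ * x, y) := by
          rw [Prod.mk_mul_mk, ← mul_assoc, hZ₁s, one_mul]
        rw [e]; exact mul_mem hWD h3
  have hsnd : Function.Bijective ((MonoidHom.snd Q₁ Q₂).comp W.subtype) := by
    constructor
    · rw [injective_iff_map_eq_one]
      rintro ⟨⟨x, y⟩, hw⟩ hy
      have hy' : y = 1 := hy
      subst hy'
      have h3 : h₂.pr 1 = f (h₁.pr x) := hWF hw
      rw [h₂.pr_one] at h3
      have h4 : h₁.pr x = 0 := f.map_eq_zero_iff.1 h3.symm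
      rcases h₁.pr_eq_zero.1 h4 with h5 | h5
      · exact Subtype.ext (Prod.ext (Subtype.ext h5) rfl)
      · exfalso
        apply hWz
        have : x = Z₁ := Subtype.ext h5
        rw [← this]; exact hw
    · intro y
      obtain ⟨x, hx⟩ := h₁.pr_surjective (f.symm (h₂.pr y))
      have hxy : (x, y) ∈ fib h₁ h₂ f := by
        rw [mem_fib]
        show h₂.pr y = f (h₁.pr x)
        rw [hx, f.apply_symm_apply]
      rcases key x y hxy with h3 | h3
      · exact ⟨⟨_, h3⟩, rfl⟩
      · exact ⟨⟨_, h3⟩, rfl⟩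
  let e₁ : W ≃* Q₁ := MulEquiv.ofBijective _ hfst
  let e₂ : W ≃* Q₂ := MulEquiv.ofBijective _ hsnd
  refine ⟨e₁.symm.trans e₂, fun x => ?_⟩
  obtain ⟨w, rfl⟩ := e₁.surjective x
  have e3 : (e₁.symm.trans e₂) (e₁ w) = e₂ w := by
    rw [MulEquiv.trans_apply, MulEquiv.symm_apply_apply]
  rw [e3]
  exact hWF w.2

end Cfsg.Agent.H823
end

-- part: H823/ExtraOut
section
/-!
# The outer automorphism group of an extraspecial 2-group

`h : Large (⊤ : Subgroup E) z`, `E` finite (an extraspecial 2-group or a group of order two):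

* `actE h : MulAut E →* (h.V ≃ₗ h.V)`, `actE_apply`;
* `actE_ker`: the kernel is `Inn E`; `actE_range`: the image is the isometry group of `h.q`;
* `out_equiv`: `Out E ≃* isom h.q`.
-/

set_option autoImplicit false

namespace Cfsg.Agent.H823

open Cfsg.Agent.Co2Type.Quad Cfsg.Agent.LieClassical.OrthFourCommon

variable {E : Type*} [Group E] {z : E}

/-- projection `E → E / ⟨z⟩` -/
def prE (h : Large (⊤ : Subgroup E) z) (x : E) : h.V := h.pr ⟨x, Subgroup.mem_top x⟩

theorem prE_surjective (h : Large (⊤ : Subgroup E) z) : Function.Surjective (prE h) := by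
  intro v
  obtain ⟨x, rfl⟩ := h.pr_surjective v
  exact ⟨x, rfl⟩

theorem prE_mul (h : Large (⊤ : Subgroup E) z) (x y : E) : prE h (x * y) = prE h x + prE h y :=
  h.pr_mul ⟨x, Subgroup.mem_top x⟩ ⟨y, Subgroup.mem_top y⟩

theorem prE_eq (h : Large (⊤ : Subgroup E) z) {x y : E} : prE h x = prE h y ↔ x = y ∨ x = y * z :=
  h.pr_eq_pr

theorem prE_eq_zero (h : Large (⊤ : Subgroup E) z) {x : E} : prE h x = 0 ↔ x = 1 ∨ x = z :=
  h.pr_eq_zero

theorem prE_one (h : Large (⊤ : Subgroup E) z) : prE h 1 = 0 := h.pr_one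

/-- automorphisms fix `z` -/
theorem aut_z (h : Large (⊤ : Subgroup E) z) (α : MulAut E) : α z = z := by
  have h1 : α z = 1 ∨ α z = z := by
    refine h.cent _ (Subgroup.mem_top _) fun y _ => ?_
    obtain ⟨x, rfl⟩ := α.surjective y
    rw [← map_mul, ← map_mul, h.comm_z x (Subgroup.mem_top x)]
  rcases h1 with h1 | h1
  · exfalso
    apply h.z_ne
    rw [← α.map_eq_one_iff, h1]
  · exact h1

/-- a representative of a vector -/
noncomputable def repE (h : Large (⊤ : Subgroup E) z) (v : h.V) : E := Function.surjInv (prE_surjective h) v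

theorem prE_repE (h : Large (⊤ : Subgroup E) z) (v : h.V) : prE h (repE h v) = v :=
  Function.surjInv_eq (prE_surjective h) v

/-- the action on vectors -/
noncomputable def actE0 (h : Large (⊤ : Subgroup E) z) (α : MulAut E) (v : h.V) : h.V := prE h (α (repE h v))

theorem actE0_prE (h : Large (⊤ : Subgroup E) z) (α : MulAut E) (x : E) : actE0 h α (prE h x) = prE h (α x) := by
  rw [actE0, prE_eq]
  rcases (prE_eq h).1 (prE_repE h (prE h x)) with h1 | h1
  · left; rw [h1]
  · right; rw [h1, map_mul, aut_z h]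

/-- the action of the automorphism group on `E / ⟨z⟩` -/
noncomputable def actE (h : Large (⊤ : Subgroup E) z) : MulAut E →* (h.V ≃ₗ[ZMod 2] h.V) where
  toFun α :=
    { toFun := actE0 h α
      invFun := actE0 h α⁻¹
      map_add' := by
        intro v w
        obtain ⟨x, rfl⟩ := prE_surjective h v
        obtain ⟨y, rfl⟩ := prE_surjective h w
        rw [← prE_mul, actE0_prE, actE0_prE, actE0_prE, map_mul, prE_mul]
      map_smul' := by
        intro c v
        obtain ⟨x, rfl⟩ := prE_surjective h v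
        have hc : c = 0 ∨ c = 1 := by revert c; decide
        rcases hc with rfl | rfl
        · rw [zero_smul, RingHom.id_apply, zero_smul, ← prE_one h, actE0_prE, map_one]
        · rw [one_smul, RingHom.id_apply, one_smul]
      left_inv := by
        intro v
        obtain ⟨x, rfl⟩ := prE_surjective h v
        rw [actE0_prE, actE0_prE, MulAut.inv_apply_self]
      right_inv := by
        intro v
        obtain ⟨x, rfl⟩ := prE_surjective h v
        rw [actE0_prE, actE0_prE, MulAut.apply_inv_self] }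
  map_one' := by
    ext v
    obtain ⟨x, rfl⟩ := prE_surjective h v
    exact actE0_prE h 1 x
  map_mul' α β := by
    ext v
    obtain ⟨x, rfl⟩ := prE_surjective h v
    show actE0 h (α * β) (prE h x) = actE0 h α (actE0 h β (prE h x))
    rw [actE0_prE, actE0_prE, actE0_prE, MulAut.mul_apply]

theorem actE_prE (h : Large (⊤ : Subgroup E) z) (α : MulAut E) (x : E) : actE h α (prE h x) = prE h (α x) :=
  actE0_prE h α x

/-- the image consists of isometries -/
theorem q_actE (h : Large (⊤ : Subgroup E) z) (α : MulAut E) (v : h.V) : h.q (actE h α v) = h.q v := by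
  obtain ⟨x, rfl⟩ := prE_surjective h v
  rw [actE_prE]
  rcases h.sq x (Subgroup.mem_top x) with h1 | h1
  · have h2 : h.q (prE h x) = 0 := h.q_eq_zero.2 h1
    rw [h2]
    refine h.q_eq_zero.2 ?_
    show α x * α x = 1
    rw [← map_mul, h1, map_one]
  · have h2 : h.q (prE h x) = 1 := h.q_eq_one.2 h1
    rw [h2]
    refine h.q_eq_one.2 ?_
    show α x * α x = z
    rw [← map_mul, h1, aut_z h]

/-- **the image is the full isometry group** -/
theorem actE_range [Finite E] (h : Large (⊤ : Subgroup E) z) : (actE h).range = isom h.q := by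
  apply le_antisymm
  · rintro _ ⟨α, rfl⟩
    exact q_actE h α
  · intro f hf
    obtain ⟨α, hα⟩ := exists_lift h h f hf
    refine ⟨(Subgroup.topEquiv.symm.trans α).trans Subgroup.topEquiv, ?_⟩
    ext v
    obtain ⟨x, rfl⟩ := prE_surjective h v
    rw [actE_prE]
    exact hα ⟨x, Subgroup.mem_top x⟩

/-- **the kernel is the inner automorphism group** -/
theorem actE_ker [Finite E] (h : Large (⊤ : Subgroup E) z) : (actE h).ker = Cfsg.Inn E := by
  apply le_antisymm
  · intro α hα
    rw [MonoidHom.mem_ker] at hα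
    have h1 : ∀ x, α x = x ∨ α x = x * z := by
      intro x
      rw [← prE_eq h, ← actE_prE, hα]
      rfl
    -- the functional
    have hsub : ∀ v : h.V, ∃ c : ZMod 2, ∀ x, prE h x = v → ((α x = x ∧ c = 0) ∨ (α x = x * z ∧ c = 1)) := by
      intro v
      obtain ⟨x, rfl⟩ := prE_surjective h v
      rcases h1 x with h2 | h2
      · refine ⟨0, fun y hy => Or.inl ⟨?_, rfl⟩⟩
        rcases (prE_eq h).1 hy with h3 | h3
        · rw [h3, h2]
        · rw [h3, map_mul, h2, aut_z h]
      · refine ⟨1, fun y hy => Or.inr ⟨?_, rfl⟩⟩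
        rcases (prE_eq h).1 hy with h3 | h3
        · rw [h3, h2]
        · rw [h3, map_mul, h2, aut_z h]
    choose c hc using hsub
    have hx1 : ∀ x : E, x * z ≠ x := fun x hx => h.z_ne (mul_eq_left.1 hx)
    have hcz : ∀ x : E, x * z = z * x := fun x => h.comm_z x (Subgroup.mem_top x)
    have hadd : ∀ v w, c (v + w) = c v + c w := by
      intro v w
      obtain ⟨x, rfl⟩ := prE_surjective h v
      obtain ⟨y, rfl⟩ := prE_surjective h w
      have h2 := hc _ (x * y) (prE_mul h x y)
      have h3 := hc _ x rfl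
      have h4 := hc _ y rfl
      rcases h3 with ⟨h3, h5⟩ | ⟨h3, h5⟩ <;> rcases h4 with ⟨h4, h6⟩ | ⟨h4, h6⟩ <;>
        rcases h2 with ⟨h2, h7⟩ | ⟨h2, h7⟩ <;> rw [h5, h6, h7] <;> try rfl
      all_goals exfalso; rw [map_mul, h3, h4] at h2
      · exact hx1 _ h2.symm
      · apply hx1 (x * y)
        rw [← mul_assoc] at h2
        exact h2
      · apply hx1 (x * y)
        rw [mul_assoc, hcz y, ← mul_assoc]
        exact h2
      · apply hx1 (x * y)
        rw [mul_assoc x y z, hcz y, ← mul_assoc]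
        rw [← mul_assoc] at h2
        exact mul_right_cancel h2
    let φ : h.V →ₗ[ZMod 2] ZMod 2 := AddMonoidHom.toZModLinearMap 2
      { toFun := c
        map_zero' := by
          have := hadd 0 0
          rw [add_zero] at this
          exact left_eq_add.1 this
        map_add' := hadd }
    obtain ⟨v, hv⟩ := h.exists_b_eq φ
    obtain ⟨y, rfl⟩ := prE_surjective h v
    refine ⟨y, ?_⟩
    ext x
    rw [MulAut.conj_apply]
    have h2 : h.b (prE h y) (prE h x) = c (prE h x) := hv _
    rcases hc _ x rfl with ⟨h3, h4⟩ | ⟨h3, h4⟩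
    · rw [h4] at h2
      have h5 : y * x = x * y := (h.b_pr ⟨y, _⟩ ⟨x, _⟩).1 h2
      rw [h3, h5]; group
    · rw [h4] at h2
      have h5 : y * x = x * y * z := (h.b_pr_one ⟨y, _⟩ ⟨x, _⟩).1 h2
      rw [h3, h5, mul_assoc x y z, hcz y]; group
  · rintro _ ⟨y, rfl⟩
    rw [MonoidHom.mem_ker]
    ext v
    obtain ⟨x, rfl⟩ := prE_surjective h v
    rw [actE_prE, MulAut.conj_apply]
    show prE h (y * x * y⁻¹) = prE h x
    rw [prE_eq]
    have hcz : ∀ x : E, x * z = z * x := fun x => h.comm_z x (Subgroup.mem_top x)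
    rcases h.comm y (Subgroup.mem_top y) x (Subgroup.mem_top x) with h1 | h1
    · left; rw [h1]; group
    · right; rw [h1, mul_assoc x y z, hcz y]; group

/-- **`Out E` is the isometry group of the quadratic form of `E / ⟨z⟩`** -/
theorem out_equiv [Finite E] (h : Large (⊤ : Subgroup E) z) : Nonempty (Cfsg.Out E ≃* isom h.q) :=
  ⟨((QuotientGroup.quotientMulEquivOfEq (actE_ker h).symm).trans
    (QuotientGroup.quotientKerEquivRange (actE h))).trans (MulEquiv.subgroupCongr (actE_range h))⟩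

/-- an extraspecial 2-group is `Large` in itself -/
theorem large_top [Finite E] (hE : Cfsg.IsExtraspecial 2 E) : ∃ z : E, Large (⊤ : Subgroup E) z := by
  have hT : Cfsg.IsExtraspecial 2 ↥(⊤ : Subgroup E) :=
    Cfsg.Agent.J2.ExtQuot.isExtraspecial_of_equiv Subgroup.topEquiv.symm hE
  obtain ⟨z, hz, hz2⟩ := exists_gen hT
  refine ⟨z, large_of hT ?_ ?_ hz hz2⟩
  · apply le_antisymm
    · intro x hx
      refine ⟨⟨x, Subgroup.mem_top x⟩, ?_, rfl⟩
      show (⟨x, Subgroup.mem_top x⟩ : (⊤ : Subgroup E)) ∈ Subgroup.center _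
      rw [Subgroup.mem_center_iff]
      intro y
      apply Subtype.ext
      exact Subgroup.mem_centralizer_iff.1 hx y y.2
    · rintro _ ⟨x, hx, rfl⟩
      rw [Subgroup.mem_centralizer_iff]
      intro y hy
      exact congrArg Subtype.val (Subgroup.mem_center_iff.1 hx ⟨y, hy⟩)
  · intro x _
    rw [Subgroup.mem_normalizer_iff]
    intro y
    exact ⟨fun _ => Subgroup.mem_top _, fun _ => Subgroup.mem_top _⟩

end Cfsg.Agent.H823
end

-- part: S5432
section
set_option autoImplicit false
open Cfsg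

namespace Cfsg.Agent.S5432

open Cfsg.Agent.Co2Type.Quad Cfsg.Agent.H823 Cfsg.Agent.LargeExtra.Siegel
open Cfsg.Agent.LieClassical.OrthFourCommon

theorem aniso_two {a b : ZMod 2} (h : Cfsg.Agent.GenOrth.Aniso a b) : a = 1 ∧ b = 1 := by
  have key : ∀ a b : ZMod 2, (∀ z w : ZMod 2, z ^ 2 + a * z * w + b * w ^ 2 = 0 → z = 0 ∧ w = 0) → a = 1 ∧ b = 1 := by
    decide
  exact key a b h

variable {E : Type*} [Group E] [Finite E] {z : E}

omit [Finite E] in
theorem card_V (h : Large (⊤ : Subgroup E) z) {n : ℕ} (hcard : Nat.card E = 2 ^ (2 * n + 1)) :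
    Nat.card h.V = 2 ^ (2 * n) := by
  have h1 := h.card_eq
  rw [Subgroup.card_top, hcard, pow_succ, mul_comm] at h1
  exact (Nat.eq_of_mul_eq_mul_left two_pos h1).symm

theorem finrank_V (h : Large (⊤ : Subgroup E) z) {n : ℕ} (hcard : Nat.card E = 2 ^ (2 * n + 1)) :
    Module.finrank (ZMod 2) h.V = 2 * n := by
  have : Module.Finite (ZMod 2) h.V := Module.Finite.of_finite
  have h1 := card_V h hcard
  rw [Module.natCard_eq_pow_finrank (K := ZMod 2) (V := h.V), Nat.card_zmod] at h1
  exact Nat.pow_right_injective le_rfl h1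

theorem card_of_finrank (h : Large (⊤ : Subgroup E) z) (W : Submodule (ZMod 2) h.V) :
    Nat.card W = 2 ^ Module.finrank (ZMod 2) W := by
  have : Module.Finite (ZMod 2) h.V := Module.Finite.of_finite
  rw [Module.natCard_eq_pow_finrank (K := ZMod 2) (V := W), Nat.card_zmod]

/-- the image of an elementary abelian subgroup in `V` -/
def imV (h : Large (⊤ : Subgroup E) z) (A : Subgroup E) : Submodule (ZMod 2) h.V where
  carrier := {v | ∃ a ∈ A, prE h a = v}
  zero_mem' := ⟨1, one_mem _, prE_one h⟩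
  add_mem' := by
    rintro _ _ ⟨a, ha, rfl⟩ ⟨b, hb, rfl⟩
    exact ⟨a * b, mul_mem ha hb, prE_mul h a b⟩
  smul_mem' := by
    rintro c _ ⟨a, ha, rfl⟩
    have hc : c = 0 ∨ c = 1 := by revert c; decide
    rcases hc with rfl | rfl
    · exact ⟨1, one_mem _, by rw [zero_smul]; exact prE_one h⟩
    · exact ⟨a, ha, by rw [one_smul]⟩

/-- an elementary abelian subgroup of order `2 ^ (n + 1)` gives a totally singular subspace of dimension `≥ n` -/
theorem exists_sing (h : Large (⊤ : Subgroup E) z) {n : ℕ} {A : Subgroup E} (hA : Cfsg.IsElementaryAbelian 2 A)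
    (hcA : Nat.card A = 2 ^ (n + 1)) :
    (∀ w ∈ imV h A, h.q w = 0) ∧ n ≤ Module.finrank (ZMod 2) (imV h A) := by
  classical
  constructor
  · rintro _ ⟨a, ha, rfl⟩
    refine h.q_eq_zero.2 ?_
    show a * a = 1
    rw [← pow_two]; exact hA.2 a ha
  · have h1 : Nat.card A ≤ 2 * Nat.card (imV h A) := by
      -- the map `A → imV` has fibres of size at most two
      let f : A → ZMod 2 × imV h A := fun a => (if (a : E) = repE h (prE h a) then 0 else 1, ⟨prE h a, a, a.2, rfl⟩)
      have hf : Function.Injective f := by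
        intro a b hab
        have h2 : prE h (a : E) = prE h b := congrArg (fun p => (p.2 : h.V)) hab
        have h3 : (if (a : E) = repE h (prE h a) then (0 : ZMod 2) else 1) =
          (if (b : E) = repE h (prE h b) then 0 else 1) := congrArg Prod.fst hab
        rw [← h2] at h3
        apply Subtype.ext
        have ha := (prE_eq h).1 (prE_repE h (prE h (a : E)))
        have hb := (prE_eq h).1 ((prE_repE h (prE h (a : E))).trans h2)
        have hzz : ∀ x y : E, x = y * z → y = x * z := by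
          intro x y hxy
          rw [hxy, mul_assoc, h.z_sq, mul_one]
        by_cases h4 : (a : E) = repE h (prE h a)
        · rw [if_pos h4] at h3
          by_cases h5 : (b : E) = repE h (prE h a)
          · rw [h4, h5]
          · rw [if_neg h5] at h3
            exact absurd h3 (by decide)
        · rw [if_neg h4] at h3
          by_cases h5 : (b : E) = repE h (prE h a)
          · rw [if_pos h5] at h3
            exact absurd h3 (by decide)
          · have ha' : repE h (prE h (a : E)) = a * z := ha.resolve_left fun h' => h4 h'.symm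
            have hb' : repE h (prE h (a : E)) = b * z := hb.resolve_left fun h' => h5 h'.symm
            exact mul_right_cancel (ha'.symm.trans hb')
      have h2 := Nat.card_le_card_of_injective f hf
      rwa [Nat.card_prod, Nat.card_zmod] at h2
    rw [hcA, card_of_finrank, ← pow_succ'] at h1
    have := (Nat.pow_le_pow_iff_right (le_refl 2)).1 h1
    omega

/-- a totally singular subspace of dimension `n` gives an elementary abelian subgroup of order `2 ^ (n + 1)` -/
theorem exists_elem (h : Large (⊤ : Subgroup E) z) {n : ℕ} (W : Submodule (ZMod 2) h.V) (hW : ∀ w ∈ W, h.q w = 0)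
    (hn : Module.finrank (ZMod 2) W = n) :
    ∃ A : Subgroup E, Cfsg.IsElementaryAbelian 2 A ∧ Nat.card A = 2 ^ (n + 1) := by
  classical
  let A : Subgroup E :=
    { carrier := {x | prE h x ∈ W}
      one_mem' := by show prE h 1 ∈ W; rw [prE_one]; exact W.zero_mem
      mul_mem' := by
        intro x y hx hy
        show prE h (x * y) ∈ W
        rw [prE_mul]; exact W.add_mem hx hy
      inv_mem' := by
        intro x hx
        show prE h x⁻¹ ∈ W
        have : prE h x⁻¹ = - prE h x := h.pr_inv ⟨x, _⟩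
        rw [this]; exact W.neg_mem hx }
  refine ⟨A, ⟨⟨⟨?_⟩⟩, ?_⟩, ?_⟩
  · rintro ⟨x, hx⟩ ⟨y, hy⟩
    apply Subtype.ext
    show x * y = y * x
    have h1 : h.b (prE h x) (prE h y) = 0 := by
      have h2 := h.q_add' (prE h x) (prE h y)
      rw [hW _ hx, hW _ hy, hW _ (W.add_mem hx hy)] at h2
      simpa using h2.symm
    exact (h.b_pr ⟨x, _⟩ ⟨y, _⟩).1 h1
  · intro x hx
    rw [pow_two]
    exact h.q_eq_zero.1 (hW _ hx)
  · -- count
    let e : A ≃ ZMod 2 × W :=
      { toFun := fun a => (if (a : E) = repE h (prE h a) then 0 else 1, ⟨prE h a, a.2⟩)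
        invFun := fun p => ⟨repE h p.2 * (if p.1 = 0 then 1 else z), by
          show prE h _ ∈ W
          have : prE h (repE h p.2 * (if p.1 = 0 then 1 else z)) = p.2 := by
            rw [prE_mul, prE_repE]
            split_ifs
            · rw [prE_one, add_zero]
            · rw [(prE_eq_zero h).2 (Or.inr rfl), add_zero]
          rw [this]; exact p.2.2⟩
        left_inv := by
          rintro ⟨a, ha⟩
          apply Subtype.ext
          show repE h (prE h a) * (if (if a = repE h (prE h a) then (0 : ZMod 2) else 1) = 0 then 1 else z) = a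
          by_cases h4 : a = repE h (prE h a)
          · rw [if_pos h4, if_pos rfl, mul_one]; exact h4.symm
          · rw [if_neg h4, if_neg (by decide)]
            have ha := (prE_eq h).1 (prE_repE h (prE h a))
            have ha' : repE h (prE h a) = a * z := ha.resolve_left fun h' => h4 h'.symm
            rw [ha', mul_assoc, h.z_sq, mul_one]
        right_inv := by
          rintro ⟨c, w, hw⟩
          have hpr : prE h (repE h w * (if c = 0 then 1 else z)) = w := by
            rw [prE_mul, prE_repE]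
            split_ifs
            · rw [prE_one, add_zero]
            · rw [(prE_eq_zero h).2 (Or.inr rfl), add_zero]
          apply Prod.ext
          · show (if repE h w * (if c = 0 then 1 else z) = repE h (prE h (repE h w * (if c = 0 then 1 else z)))
              then (0 : ZMod 2) else 1) = c
            rw [hpr]
            by_cases hc : c = 0
            · rw [if_pos hc, mul_one, if_pos rfl, hc]
            · rw [if_neg hc, if_neg (fun h' => h.z_ne (mul_eq_left.1 h'))]
              have key : ∀ c : ZMod 2, c ≠ 0 → 1 = c := by decide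
              exact key c hc
          · exact Subtype.ext hpr }
    rw [Nat.card_congr e, Nat.card_prod, Nat.card_zmod, card_of_finrank, hn, pow_succ']

/-- the two types of quadratic spaces over the field with two elements -/
theorem types (h : Large (⊤ : Subgroup E) z) {n : ℕ} (hn : 1 ≤ n) (hcard : Nat.card E = 2 ^ (2 * n + 1)) :
    (∃ j : (Fin n ⊕ Fin n → ZMod 2) ≃ₗ[ZMod 2] h.V, ∀ x, h.q (j x) = Cfsg.quadFormPlus n (ZMod 2) x) ∨
    (∃ j : ((Fin (n - 1) ⊕ Fin (n - 1)) ⊕ Fin 2 → ZMod 2) ≃ₗ[ZMod 2] h.V,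
      ∀ x, h.q (j x) = Cfsg.quadFormMinus (n - 1) (ZMod 2) 1 1 x) := by
  have : Module.Finite (ZMod 2) h.V := Module.Finite.of_finite
  have hnd : Cfsg.Agent.LieClassical.OrthCore.Nondeg (qf h) := by
    intro x hx
    apply h.b_nondeg
    intro y
    rw [← polar_qf]; exact hx y
  have hone : ∀ c : ZMod 2, c ≠ 0 → c = 1 := by decide
  rcases Cfsg.Agent.GenOrth.normal_form (2 * n) hnd (finrank_V h hcard) with
    ⟨k, hk, -⟩ | ⟨k, hk, c, hc, j, hj⟩ | ⟨k, hk, a, b, hab, c, hc, j, hj⟩
  · omega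
  · left
    obtain rfl : k = n := by omega
    refine ⟨j, fun x => ?_⟩
    have := hj x
    rw [hone c hc, one_mul] at this
    exact this
  · right
    obtain ⟨rfl, rfl⟩ := aniso_two hab
    obtain rfl : k = n - 1 := by omega
    refine ⟨j, fun x => ?_⟩
    have := hj x
    rw [hone c hc, one_mul] at this
    exact this

/-- Let E be an extraspecial 2-group of order 2^(2n+1), n ≥ 1. If E contains an elementary abelian subgroup of order 2^(n+1) (plus type), then its outer automorphism group is isomorphic to the full isometry group of the hyperbolic quadratic form in dimension 2n over the field with two elements; otherwise (minus type) it is isomorphic to the full isometry group of the elliptic quadratic form in dimension 2n over that field. -/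
theorem result {E : Type*} [Group E] [Finite E] (hE : Cfsg.IsExtraspecial 2 E) (n : ℕ) (hn : 1 ≤ n) (hcard : Nat.card E = 2 ^ (2 * n + 1)) : ((∃ A : Subgroup E, Cfsg.IsElementaryAbelian 2 A ∧ Nat.card ↥A = 2 ^ (n + 1)) → Nonempty (Cfsg.Out E ≃* Cfsg.isometryGroup (ZMod 2) (Cfsg.quadFormPlus n (ZMod 2)))) ∧ ((¬ ∃ A : Subgroup E, Cfsg.IsElementaryAbelian 2 A ∧ Nat.card ↥A = 2 ^ (n + 1)) → Nonempty (Cfsg.Out E ≃* Cfsg.isometryGroup (ZMod 2) (Cfsg.quadFormMinus (n - 1) (ZMod 2) 1 1))) := by
  obtain ⟨z, h⟩ := large_top hE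
  obtain ⟨e⟩ := out_equiv h
  have : Module.Finite (ZMod 2) h.V := Module.Finite.of_finite
  rcases types h hn hcard with ⟨j, hj⟩ | ⟨j, hj⟩
  · -- plus type
    obtain ⟨e'⟩ := exists_isometryGroup_equiv j (Cfsg.quadFormPlus n (ZMod 2)) h.q hj
    refine ⟨fun _ => ⟨e.trans e'.symm⟩, fun hno => ?_⟩
    exfalso
    apply hno
    -- the subspace `y = 0`
    let l : (Fin n → ZMod 2) →ₗ[ZMod 2] (Fin n ⊕ Fin n → ZMod 2) :=
      { toFun := fun v => Sum.elim v 0
        map_add' := by
          intro v w; funext i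
          rcases i with i | i
          · rfl
          · show (0 : ZMod 2) = 0 + 0
            rw [add_zero]
        map_smul' := by
          intro c v; funext i
          rcases i with i | i
          · rfl
          · show (0 : ZMod 2) = c * 0
            rw [mul_zero] }
    have hl : Function.Injective l := by
      intro v w hvw
      funext i
      exact congrFun hvw (Sum.inl i)
    refine exists_elem h (LinearMap.range (j.toLinearMap.comp l)) ?_ ?_
    · rintro _ ⟨v, rfl⟩
      show h.q (j (l v)) = 0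
      rw [hj, Cfsg.quadFormPlus]
      apply Finset.sum_eq_zero
      intro i _
      show v i * 0 = 0
      exact mul_zero _
    · have hinj : Function.Injective (j.toLinearMap.comp l) := fun v w hvw => hl (j.injective hvw)
      rw [LinearMap.finrank_range_of_inj hinj]
      simp
  · -- minus type
    obtain ⟨e'⟩ := exists_isometryGroup_equiv j (Cfsg.quadFormMinus (n - 1) (ZMod 2) 1 1) h.q hj
    refine ⟨fun ⟨A, hA, hcA⟩ => ?_, fun _ => ⟨e.trans e'.symm⟩⟩
    exfalso
    obtain ⟨h1, h2⟩ := exists_sing h hA hcA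
    have h3 : Cfsg.Agent.ClassicalGeometry.OrthAut1.TS (Cfsg.Agent.LieClassical.QuadForms.minusForm (n - 1) (ZMod 2) 1 1)
        ((imV h A).comap j.toLinearMap) := by
      intro w hw
      have h4 := h1 _ (Submodule.mem_comap.1 hw)
      have h5 : h.q (j w) = 0 := h4
      rw [hj] at h5
      rw [← h5, ← Cfsg.Agent.LieClassical.QuadForms.coe_minusForm]
    have h4 := Cfsg.Agent.AutOrth.Main.finrank_le_of_TS_minus (n - 1) (1 : ZMod 2) 1 (by decide) h3
    have h5 : Module.finrank (ZMod 2) ((imV h A).comap j.toLinearMap) = Module.finrank (ZMod 2) (imV h A) :=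
      (LinearEquiv.ofSubmodule' j (imV h A)).finrank_eq
    omega

end Cfsg.Agent.S5432
end
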