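import Cfsg.Agent.R08.InvBase
import Cfsg.Agent.LargeExtra.Perp
import Cfsg.Agent.H824.FiStab
import Cfsg.Statements.S5444
import Cfsg.Agent.H824.FiBase
set_option linter.all false

-- part: H826/Perp
section
/-!
# `F4 ^ 6` with its hermitian form: additive subgroups and their orthogonals over the prime field

`pp U` is the orthogonal of an additive subgroup with respect to the prime-field form whose value is `0` iff
`H u w ∈ {0, 1}`.  `card_pp`, `pp_pp`, spans `sp2`, `sp3` of two or three vectors.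
-/

set_option autoImplicit false

namespace Cfsg.Agent.H826.Perp

open Cfsg.Agent.SporRec.GF4 Cfsg.Agent.R08 Cfsg.Agent.R08.Iface Cfsg.Agent.R08.InvHerm
open Cfsg.Agent.R08.InvM
open Cfsg.Agent.R08.ModVec (W)

theorem hF : Nat.card F4 = 4 := by rw [Nat.card_eq_fintype_card, F4.card_F4]

theorem card_W : Nat.card W = 4096 := by
  rw [Nat.card_fun, hF, Nat.card_eq_fintype_card, Fintype.card_fin]; norm_num

/-- `0` on `{0, 1}` and `1` elsewhere -/
def κ : F4 → ZMod 2
  | .z => 0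
  | .o => 0
  | .w => 1
  | .v => 1

theorem κ_add (a b : F4) : κ (a + b) = κ a + κ b := by
  cases a <;> cases b <;> decide

theorem κ_eq_zero {a : F4} : κ a = 0 ↔ a = 0 ∨ a = 1 := by
  cases a <;> decide

theorem κ_sq (a : F4) : κ (a ^ 2) = κ a := by
  cases a <;> decide

noncomputable local instance modW : Module (ZMod 2) W :=
  AddCommGroup.zmodModule (n := 2) (by intro x; rw [two_nsmul]; exact vadd_self hF x)

theorem smul_cases (c : ZMod 2) : c = 0 ∨ c = 1 := by revert c; decide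

/-- the form over the prime field -/
noncomputable def b : LinearMap.BilinForm (ZMod 2) W :=
  LinearMap.mk₂ (ZMod 2) (fun u w => κ (H u w))
    (fun u u' w => by rw [H_add_left hF, κ_add])
    (fun c u w => by
      rcases smul_cases c with rfl | rfl
      · rw [zero_smul, zero_smul, H_zero_left hF]; rfl
      · rw [one_smul, one_smul])
    (fun u w w' => by rw [H_add_right hF, κ_add])
    (fun c u w => by
      rcases smul_cases c with rfl | rfl
      · rw [zero_smul, zero_smul, H_zero_right hF]; rfl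
      · rw [one_smul, one_smul])

theorem b_apply (u w : W) : b u w = κ (H u w) := rfl

theorem b_comm (u w : W) : b u w = b w u := by
  rw [b_apply, b_apply, H_swap hF w u, κ_sq]

theorem b_refl : b.IsRefl := fun u w h => by rw [b_comm]; exact h

theorem b_nondeg : b.Nondegenerate := by
  have key : ∀ u : W, (∀ w, b u w = 0) → u = 0 := by
    intro u hu
    apply H_nondeg hF
    intro v
    apply zero_of_scalars' hF
    intro c
    rw [← H_smul_right hF]
    exact κ_eq_zero.1 (hu (c • v))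
  exact ⟨key, fun u hu => key u fun w => by rw [b_comm]; exact hu w⟩

/-- values `0`, `1` are preserved by exchanging the arguments -/
theorem f2_swap {u w : W} (h : H u w = 0 ∨ H u w = 1) : H w u = 0 ∨ H w u = 1 :=
  h.imp (H_zero_swap hF) (H_one_swap hF)

/-- the orthogonal over the prime field -/
def pp (U : AddSubgroup W) : AddSubgroup W where
  carrier := {w | ∀ u ∈ U, H w u = 0 ∨ H w u = 1}
  zero_mem' := fun u _ => Or.inl (H_zero_left hF u)
  add_mem' := by
    intro w w' h h' u hu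
    rw [H_add_left hF]
    exact f2_add hF (h u hu) (h' u hu)
  neg_mem' := by
    intro w h
    rw [vneg hF]; exact h

theorem mem_pp {U : AddSubgroup W} {w : W} : w ∈ pp U ↔ ∀ u ∈ U, H w u = 0 ∨ H w u = 1 := Iff.rfl

theorem pp_anti {U U' : AddSubgroup W} (h : U ≤ U') : pp U' ≤ pp U := fun _ hw u hu => hw u (h hu)

theorem orthogonal_eq (U : AddSubgroup W) :
    b.orthogonal (AddSubgroup.toZModSubmodule 2 U) = AddSubgroup.toZModSubmodule 2 (pp U) := by
  ext w
  rw [LinearMap.BilinForm.mem_orthogonal_iff]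
  constructor
  · intro h u hu
    have h1 := h u hu
    exact f2_swap (κ_eq_zero.1 h1)
  · intro h u hu
    exact κ_eq_zero.2 (f2_swap (h u hu))

theorem card_pp (U : AddSubgroup W) : Nat.card U * Nat.card (pp U) = 4096 := by
  have h := LargeExtra.Perp.card_orthogonal b_nondeg b_refl (AddSubgroup.toZModSubmodule 2 U)
  rw [orthogonal_eq, card_W] at h
  exact h

theorem pp_pp (U : AddSubgroup W) : pp (pp U) = U := by
  have h := LargeExtra.Perp.orthogonal_orthogonal b_nondeg b_refl (AddSubgroup.toZModSubmodule 2 U)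
  rw [orthogonal_eq, orthogonal_eq] at h
  exact (AddSubgroup.toZModSubmodule 2).injective h

/-! ### spans -/

/-- `⟨r1, r2⟩` -/
def sp2 (r1 r2 : W) : AddSubgroup W where
  carrier := {w | ∃ c d : F4, w = c • r1 + d • r2}
  zero_mem' := ⟨0, 0, by rw [zero_smul, zero_smul, add_zero]⟩
  add_mem' := by
    rintro _ _ ⟨c, d, rfl⟩ ⟨c', d', rfl⟩
    exact ⟨c + c', d + d', by rw [add_smul, add_smul]; abel⟩
  neg_mem' := by
    intro w h
    rw [vneg hF]; exact h

/-- `⟨r1, r2, r3⟩` -/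
def sp3 (r1 r2 r3 : W) : AddSubgroup W where
  carrier := {w | ∃ c d e : F4, w = c • r1 + d • r2 + e • r3}
  zero_mem' := ⟨0, 0, 0, by rw [zero_smul, zero_smul, zero_smul, add_zero, add_zero]⟩
  add_mem' := by
    rintro _ _ ⟨c, d, e, rfl⟩ ⟨c', d', e', rfl⟩
    exact ⟨c + c', d + d', e + e', by rw [add_smul, add_smul, add_smul]; abel⟩
  neg_mem' := by
    intro w h
    rw [vneg hF]; exact h

theorem mem_sp2 {r1 r2 w : W} : w ∈ sp2 r1 r2 ↔ ∃ c d : F4, w = c • r1 + d • r2 := Iff.rfl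

theorem mem_sp3 {r1 r2 r3 w : W} : w ∈ sp3 r1 r2 r3 ↔ ∃ c d e : F4, w = c • r1 + d • r2 + e • r3 :=
  Iff.rfl

theorem left_mem {r1 r2 : W} : r1 ∈ sp2 r1 r2 := ⟨1, 0, by rw [one_smul, zero_smul, add_zero]⟩

theorem right_mem {r1 r2 : W} : r2 ∈ sp2 r1 r2 := ⟨0, 1, by rw [one_smul, zero_smul, zero_add]⟩

theorem fst_mem {r1 r2 r3 : W} : r1 ∈ sp3 r1 r2 r3 :=
  ⟨1, 0, 0, by rw [one_smul, zero_smul, zero_smul, add_zero, add_zero]⟩

theorem snd_mem {r1 r2 r3 : W} : r2 ∈ sp3 r1 r2 r3 :=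
  ⟨0, 1, 0, by rw [one_smul, zero_smul, zero_smul, add_zero, zero_add]⟩

theorem thd_mem {r1 r2 r3 : W} : r3 ∈ sp3 r1 r2 r3 :=
  ⟨0, 0, 1, by rw [one_smul, zero_smul, zero_smul, add_zero, zero_add]⟩

theorem card_sp2 {r1 r2 : W} (h0 : r1 ≠ 0) (h : ∀ c : F4, r2 ≠ c • r1) : Nat.card (sp2 r1 r2) = 16 := by
  have h1 : Nat.card (F4 × F4) = 16 := by rw [Nat.card_prod, hF]
  rw [← h1]
  symm
  refine Nat.card_congr (Equiv.ofBijective
    (fun p : F4 × F4 => (⟨p.1 • r1 + p.2 • r2, p.1, p.2, rfl⟩ : sp2 r1 r2)) ⟨?_, ?_⟩)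
  · rintro ⟨c, d⟩ ⟨c', d'⟩ he
    have he' : c • r1 + d • r2 = c' • r1 + d' • r2 := congrArg Subtype.val he
    have h2 : (d + d') • r2 = (c + c') • r1 := by
      have h3 := congrArg (fun t : W => t + (d' • r2 + c • r1)) he'
      beta_reduce at h3
      rw [add_smul, add_smul]
      have e1 : c • r1 + d • r2 + (d' • r2 + c • r1) = (c • r1 + c • r1) + (d • r2 + d' • r2) := by abel
      have e2 : c' • r1 + d' • r2 + (d' • r2 + c • r1) = (d' • r2 + d' • r2) + (c • r1 + c' • r1) := by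
        abel
      rw [e1, e2, vadd_self hF, vadd_self hF, zero_add, zero_add] at h3
      exact h3
    have hd : d + d' = 0 := by
      by_contra hne
      apply h ((d + d')⁻¹ * (c + c'))
      rw [← smul_smul, ← h2, smul_smul, inv_mul_cancel₀ hne, one_smul]
    rw [hd, zero_smul] at h2
    have hc : c + c' = 0 := (smul_eq_zero.1 h2.symm).resolve_right h0
    have e3 : ∀ a b : F4, a + b = 0 → a = b := by decide
    rw [e3 _ _ hd, e3 _ _ hc]
  · rintro ⟨w, c, d, rfl⟩
    exact ⟨(c, d), rfl⟩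

theorem card_sp3 {r1 r2 r3 : W} (h0 : r1 ≠ 0) (h : ∀ c : F4, r2 ≠ c • r1) (h3 : r3 ∉ sp2 r1 r2) :
    Nat.card (sp3 r1 r2 r3) = 64 := by
  have h1 : Nat.card (sp2 r1 r2 × F4) = 64 := by rw [Nat.card_prod, hF, card_sp2 h0 h]
  rw [← h1]
  symm
  refine Nat.card_congr (Equiv.ofBijective
    (fun p : sp2 r1 r2 × F4 => (⟨p.1 + p.2 • r3, ?_⟩ : sp3 r1 r2 r3)) ⟨?_, ?_⟩)
  · obtain ⟨c, d, hcd⟩ := p.1.2
    exact ⟨c, d, p.2, by rw [hcd]⟩
  · rintro ⟨x, e⟩ ⟨x', e'⟩ he
    have he' : (x : W) + e • r3 = x' + e' • r3 := congrArg Subtype.val he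
    have h2 : (e + e') • r3 = (x : W) + x' := by
      have h4 := congrArg (fun t : W => t + (x + e' • r3)) he'
      beta_reduce at h4
      rw [add_smul]
      have e1 : (x : W) + e • r3 + (x + e' • r3) = ((x : W) + x) + (e • r3 + e' • r3) := by abel
      have e2 : (x' : W) + e' • r3 + (x + e' • r3) = (e' • r3 + e' • r3) + ((x : W) + x') := by abel
      rw [e1, e2, vadd_self hF, vadd_self hF, zero_add, zero_add] at h4
      exact h4
    have hd : e + e' = 0 := by
      by_contra hne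
      apply h3
      obtain ⟨c, d, hcd⟩ := (sp2 r1 r2).add_mem x.2 x'.2
      refine ⟨(e + e')⁻¹ * c, (e + e')⁻¹ * d, ?_⟩
      rw [← smul_smul, ← smul_smul, ← smul_add, ← hcd, ← h2, smul_smul, inv_mul_cancel₀ hne, one_smul]
    rw [hd, zero_smul] at h2
    have e3 : ∀ a b : F4, a + b = 0 → a = b := by decide
    rw [e3 _ _ hd]
    rw [Prod.mk.injEq]
    exact ⟨Subtype.ext ((vadd_eq_zero hF).1 h2.symm), rfl⟩
  · rintro ⟨w, c, d, e, rfl⟩
    exact ⟨(⟨c • r1 + d • r2, c, d, rfl⟩, e), rfl⟩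

theorem H_sp2 {r1 r2 x : W} (c d : F4) : H x (c • r1 + d • r2) = c ^ 2 * H x r1 + d ^ 2 * H x r2 := by
  rw [H_add_right hF, H_smul_right hF, H_smul_right hF]

theorem mem_pp_sp2 {r1 r2 w : W} : w ∈ pp (sp2 r1 r2) ↔ H w r1 = 0 ∧ H w r2 = 0 := by
  constructor
  · intro h
    constructor
    · apply zero_of_scalars' hF
      intro c
      have := h (c • r1) ⟨c, 0, by rw [zero_smul, add_zero]⟩
      rwa [H_smul_right hF] at this
    · apply zero_of_scalars' hF
      intro c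
      have := h (c • r2) ⟨0, c, by rw [zero_smul, zero_add]⟩
      rwa [H_smul_right hF] at this
  · rintro ⟨h1, h2⟩ u ⟨c, d, rfl⟩
    left
    rw [H_sp2, h1, h2, mul_zero, mul_zero, add_zero]

theorem mem_pp_sp3 {r1 r2 r3 w : W} :
    w ∈ pp (sp3 r1 r2 r3) ↔ H w r1 = 0 ∧ H w r2 = 0 ∧ H w r3 = 0 := by
  constructor
  · intro h
    refine ⟨?_, ?_, ?_⟩
    · apply zero_of_scalars' hF
      intro c
      have := h (c • r1) ⟨c, 0, 0, by rw [zero_smul, zero_smul, add_zero, add_zero]⟩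
      rwa [H_smul_right hF] at this
    · apply zero_of_scalars' hF
      intro c
      have := h (c • r2) ⟨0, c, 0, by rw [zero_smul, zero_smul, add_zero, zero_add]⟩
      rwa [H_smul_right hF] at this
    · apply zero_of_scalars' hF
      intro c
      have := h (c • r3) ⟨0, 0, c, by rw [zero_smul, zero_smul, add_zero, zero_add]⟩
      rwa [H_smul_right hF] at this
  · rintro ⟨h1, h2, h3⟩ u ⟨c, d, e, rfl⟩
    left
    rw [H_add_right hF, H_sp2, H_smul_right hF, h1, h2, h3, mul_zero, mul_zero, mul_zero, add_zero,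
      add_zero]

/-- `|⟨r1, r2⟩^⊥| = 256` -/
theorem card_pp_sp2 {r1 r2 : W} (h0 : r1 ≠ 0) (h : ∀ c : F4, r2 ≠ c • r1) :
    Nat.card (pp (sp2 r1 r2)) = 256 := by
  have h1 := card_pp (sp2 r1 r2)
  rw [card_sp2 h0 h] at h1
  omega

theorem card_pp_sp3 {r1 r2 r3 : W} (h0 : r1 ≠ 0) (h : ∀ c : F4, r2 ≠ c • r1) (h3 : r3 ∉ sp2 r1 r2) :
    Nat.card (pp (sp3 r1 r2 r3)) = 64 := by
  have h1 := card_pp (sp3 r1 r2 r3)
  rw [card_sp3 h0 h h3] at h1
  omega

/-- order of a sum -/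
theorem card_sup (U Y : AddSubgroup W) :
    Nat.card U * Nat.card Y ≤ Nat.card ↥(U ⊔ Y) * Nat.card ↥(U ⊓ Y) := by
  let f : U × Y →+ W := U.subtype.coprod Y.subtype
  have h1 : Nat.card f.range * Nat.card f.ker = Nat.card (U × Y) := by
    rw [← AddSubgroup.card_mul_index f.ker, AddSubgroup.index_ker, mul_comm]
  rw [Nat.card_prod] at h1
  rw [← h1]
  apply Nat.mul_le_mul
  · apply Nat.card_le_card_of_injective (fun x : f.range => (⟨x, by
      obtain ⟨p, hp⟩ := x.2
      rw [← hp]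
      exact AddSubgroup.add_mem _ (AddSubgroup.mem_sup_left p.1.2) (AddSubgroup.mem_sup_right p.2.2)⟩ :
        ↥(U ⊔ Y)))
    intro x y hxy
    exact Subtype.ext (congrArg (fun t : ↥(U ⊔ Y) => (t : W)) hxy)
  · have key : ∀ x : f.ker, (x.1.1 : W) = x.1.2 := by
      intro x
      have h2 : (x.1.1 : W) + x.1.2 = 0 := x.2
      exact (vadd_eq_zero hF).1 h2
    apply Nat.card_le_card_of_injective (fun x : f.ker => (⟨x.1.1, AddSubgroup.mem_inf.2 ⟨x.1.1.2, by
      rw [key x]; exact x.1.2.2⟩⟩ : ↥(U ⊓ Y)))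
    intro x y hxy
    have h3 : (x.1.1 : W) = y.1.1 := congrArg (fun t : ↥(U ⊓ Y) => (t : W)) hxy
    have h4 : (x.1.2 : W) = y.1.2 := by rw [← key x, ← key y, h3]
    exact Subtype.ext (Prod.ext (Subtype.ext h3) (Subtype.ext h4))

end Cfsg.Agent.H826.Perp
end

-- part: H826/Pairs
section
/-!
# Products of two commuting transvections of `F4 ^ 6` and the maximal totally isotropic subspaces
spanned by `R`-vectors

`T2 r1 r2` is the product of the transvections at the orthogonal `R`-vectors `r1`, `r2`.  `Nice N`: `N` is a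
totally isotropic subspace of order 64 spanned by its `R`-vectors.  `Tr N e`: `e` is a product `T2 r1 r2` with
`r1, r2 ∈ N`.
-/

set_option autoImplicit false

namespace Cfsg.Agent.H826.Pairs

open Cfsg.Agent.SporRec.GF4 Cfsg.Agent.R08 Cfsg.Agent.R08.Iface Cfsg.Agent.R08.InvHerm
open Cfsg.Agent.R08.InvM Cfsg.Agent.R08.InvP Cfsg.Agent.H826.Perp
open Cfsg.Agent.R08.ModVec (W)

/-- `τ_{r1} τ_{r2}` for orthogonal `r1`, `r2` -/
def T2 (r1 r2 w : W) : W := w + H w r1 • r1 + H w r2 • r2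

theorem T2_smul {r1 r2 : W} {c d : F4} (hc : c ≠ 0) (hd : d ≠ 0) : T2 (c • r1) (d • r2) = T2 r1 r2 := by
  funext w
  rw [T2, T2, InvLin.smul_tr hF hc, InvLin.smul_tr hF hd]

theorem T2_swap (r1 r2 : W) : T2 r1 r2 = T2 r2 r1 := by
  funext w
  rw [T2, T2, add_right_comm]

theorem T2_self {r1 : W} {c : F4} (hc : c ≠ 0) : T2 r1 (c • r1) = id := by
  funext w
  rw [T2, InvLin.smul_tr hF hc, add_assoc, vadd_self hF, add_zero]; rfl

/-- the fixed vectors -/
theorem T2_fix {r1 r2 w : W} (p : RPair r1 r2) : T2 r1 r2 w = w ↔ w ∈ pp (sp2 r1 r2) := by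
  rw [mem_pp_sp2, T2, add_assoc, add_eq_left]
  constructor
  · intro h
    have h2 : H w r2 = 0 := by
      by_contra h3
      apply p.ne ((H w r2)⁻¹ * H w r1)
      rw [vadd_eq_zero hF] at h
      rw [← smul_smul, h, smul_smul, inv_mul_cancel₀ h3, one_smul]
    rw [h2, zero_smul, add_zero] at h
    exact ⟨(smul_eq_zero.1 h).resolve_right (Geo.R_ne_zero p.h1), h2⟩
  · rintro ⟨h1, h2⟩
    rw [h1, h2, zero_smul, zero_smul, add_zero]

/-- an `R`-vector of the line is a multiple of one of the two -/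
theorem mem_line {r1 r2 r : W} (p : RPair r1 r2) (hr : IsR r) (h : r ∈ sp2 r1 r2) :
    (∃ c : F4, c ≠ 0 ∧ r = c • r1) ∨ (∃ c : F4, c ≠ 0 ∧ r = c • r2) := by
  obtain ⟨c, d, rfl⟩ := h
  by_cases hc : c = 0
  · right
    subst hc
    rw [zero_smul, zero_add] at hr ⊢
    refine ⟨d, ?_, rfl⟩
    rintro rfl
    rw [zero_smul] at hr
    exact Geo.R_ne_zero hr rfl
  by_cases hd : d = 0
  · left
    subst hd
    rw [zero_smul, add_zero] at hr ⊢
    exact ⟨c, hc, rfl⟩
  exact absurd (S_of_pair hF Geo.geo p hc hd) (fun hS => Geo.not_R_S hr hS)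

/-- if both `R`-vectors of the second pair lie in the line of the first then the products agree -/
theorem T2_eq_of_mem {r1 r2 r3 r4 : W} (p : RPair r1 r2) (p' : RPair r3 r4) (h3 : r3 ∈ sp2 r1 r2)
    (h4 : r4 ∈ sp2 r1 r2) : T2 r3 r4 = T2 r1 r2 := by
  rcases mem_line p p'.h1 h3 with ⟨c, hc, rfl⟩ | ⟨c, hc, rfl⟩
  · rcases mem_line p p'.h2 h4 with ⟨d, hd, rfl⟩ | ⟨d, hd, rfl⟩
    · exfalso
      apply p'.ne (d * c⁻¹)
      rw [smul_smul, mul_assoc, inv_mul_cancel₀ hc, mul_one]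
    · exact T2_smul hc hd
  · rcases mem_line p p'.h2 h4 with ⟨d, hd, rfl⟩ | ⟨d, hd, rfl⟩
    · rw [T2_smul hc hd, T2_swap]
    · exfalso
      apply p'.ne (d * c⁻¹)
      rw [smul_smul, mul_assoc, inv_mul_cancel₀ hc, mul_one]

/-- the common fixed space of two different products has order at most 64 -/
theorem card_inf_le {r1 r2 r3 r4 : W} (p : RPair r1 r2) (p' : RPair r3 r4) (h : T2 r3 r4 ≠ T2 r1 r2) :
    Nat.card ↥(pp (sp2 r1 r2) ⊓ pp (sp2 r3 r4)) ≤ 64 := by
  have key : ∀ r : W, r ∉ sp2 r1 r2 → (∀ w, H w r3 = 0 ∧ H w r4 = 0 → H w r = 0) →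
      Nat.card ↥(pp (sp2 r1 r2) ⊓ pp (sp2 r3 r4)) ≤ 64 := by
    intro r hr hw
    rw [← card_pp_sp3 (Geo.R_ne_zero p.h1) p.ne hr]
    apply Nat.card_le_card_of_injective _ (AddSubgroup.inclusion_injective (show
      pp (sp2 r1 r2) ⊓ pp (sp2 r3 r4) ≤ pp (sp3 r1 r2 r) from ?_))
    intro w hw'
    rw [AddSubgroup.mem_inf, mem_pp_sp2, mem_pp_sp2] at hw'
    exact mem_pp_sp3.2 ⟨hw'.1.1, hw'.1.2, hw w hw'.2⟩
  by_cases h3 : r3 ∈ sp2 r1 r2
  · by_cases h4 : r4 ∈ sp2 r1 r2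
    · exact absurd (T2_eq_of_mem p p' h3 h4) h
    · exact key r4 h4 fun w hw => hw.2
  · exact key r3 h3 fun w hw => hw.1

/-- a totally isotropic space over the prime field orthogonal to a non-isotropic plane is small -/
theorem card_le_of_bad {r1 r2 r3 : W} (p : RPair r1 r2) (h13 : H r1 r3 ≠ 0) {U : AddSubgroup W}
    (hU : U ≤ pp (sp3 r1 r2 r3)) (hUU : U ≤ pp U) : Nat.card U ≤ 16 := by
  have h10 := Geo.R_ne_zero p.h1
  have h3 : r3 ∉ sp2 r1 r2 := by
    rintro ⟨c, d, rfl⟩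
    apply h13
    rw [H_sp2, Geo.H_self_R p.h1, p.perp, mul_zero, mul_zero, add_zero]
  have hY := card_sp3 h10 p.ne h3
  have h1 : U ⊔ sp3 r1 r2 r3 ≤ pp U := by
    apply sup_le hUU
    intro y hy u hu
    exact f2_swap (hU hu y hy)
  have h2 : Nat.card ↥(U ⊓ sp3 r1 r2 r3) ≤ 4 := by
    -- elements `c r1 + d r2` with `c H(r1, r3) + d H(r2, r3) = 0`
    have key : ∀ x ∈ U ⊓ sp3 r1 r2 r3, ∃ d : F4, x = (H r2 r3 * (H r1 r3)⁻¹ * d) • r1 + d • r2 := by
      intro x hx
      obtain ⟨hxU, c, d, e, rfl⟩ := hx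
      have h5 := hU hxU
      rw [mem_pp_sp3] at h5
      obtain ⟨h6, h7, h8⟩ := h5
      rw [H_add_left hF, H_add_left hF, H_smul_left hF, H_smul_left hF, H_smul_left hF,
        Geo.H_self_R p.h1, H_zero_swap hF p.perp, mul_zero, mul_zero, zero_add, zero_add] at h6
      have h31 : H r3 r1 ≠ 0 := fun h => h13 (H_zero_swap hF h)
      have he : e = 0 := (mul_eq_zero.1 h6).resolve_right h31
      subst he
      rw [zero_smul, add_zero, H_add_left hF, H_smul_left hF, H_smul_left hF] at h8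
      refine ⟨d, ?_⟩
      rw [zero_smul, add_zero]
      congr 2
      have e3 : ∀ a b : F4, a + b = 0 → a = b := by decide
      have h9 := e3 _ _ h8
      rw [mul_right_comm, mul_comm (H r2 r3) d, ← h9, mul_assoc, mul_inv_cancel₀ h13, mul_one]
    have h5 : Nat.card ↥(U ⊓ sp3 r1 r2 r3) ≤ Nat.card F4 := by
      choose f hf using fun x : ↥(U ⊓ sp3 r1 r2 r3) => key x x.2
      apply Nat.card_le_card_of_injective f
      intro x y hxy
      apply Subtype.ext
      rw [hf x, hf y, hxy]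
    rwa [hF] at h5
  have h4 := card_sup U (sp3 r1 r2 r3)
  have h5 : Nat.card ↥(U ⊔ sp3 r1 r2 r3) ≤ Nat.card (pp U) :=
    Nat.card_le_card_of_injective _ (AddSubgroup.inclusion_injective h1)
  have h6 := card_pp U
  rw [hY] at h4
  have h7 : Nat.card U * 64 ≤ Nat.card (pp U) * 4 := h4.trans (Nat.mul_le_mul h5 h2)
  by_contra hlt
  push Not at hlt
  have h8 : 17 * (Nat.card U * 64) ≤ Nat.card U * (Nat.card U * 64) := Nat.mul_le_mul_right _ hlt
  have h9 : Nat.card U * (Nat.card U * 64) ≤ Nat.card U * (Nat.card (pp U) * 4) :=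
    Nat.mul_le_mul_left _ h7
  rw [← mul_assoc (Nat.card U) (Nat.card (pp U)), h6] at h9
  omega

/-! ### nice subspaces -/

/-- a maximal totally isotropic subspace spanned by `R`-vectors -/
structure Nice (N : AddSubgroup W) : Prop where
  card : Nat.card N = 64
  perp : pp N = N
  smul : ∀ (c : F4) (x : W), x ∈ N → c • x ∈ N
  span : ∀ X : AddSubgroup W, (∀ (c : F4) (x : W), x ∈ X → c • x ∈ X) →
    (∀ r ∈ N, IsR r → r ∈ X) → N ≤ X

theorem Nice.H_zero {N : AddSubgroup W} (h : Nice N) {x y : W} (hx : x ∈ N) (hy : y ∈ N) : H x y = 0 := by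
  apply zero_of_scalars' hF
  intro c
  rw [← H_smul_right hF]
  have h1 : x ∈ pp N := by rw [h.perp]; exact hx
  exact h1 _ (h.smul c y hy)

theorem Nice.mem_of {N : AddSubgroup W} (h : Nice N) {x : W} (hx : ∀ y ∈ N, H x y = 0) : x ∈ N := by
  rw [← h.perp]
  exact fun y hy => Or.inl (hx y hy)

theorem smul_sp3 {r1 r2 r3 : W} (c : F4) {x : W} (h : x ∈ sp3 r1 r2 r3) : c • x ∈ sp3 r1 r2 r3 := by
  obtain ⟨a, b, d, rfl⟩ := h
  exact ⟨c * a, c * b, c * d, by rw [smul_add, smul_add, smul_smul, smul_smul, smul_smul]⟩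

theorem nice_sp3 {r1 r2 r3 : W} (p : RPair r1 r2) (hr3 : IsR r3) (h13 : H r1 r3 = 0) (h23 : H r2 r3 = 0)
    (h3 : r3 ∉ sp2 r1 r2) : Nice (sp3 r1 r2 r3) := by
  have hc := card_sp3 (Geo.R_ne_zero p.h1) p.ne h3
  have hle : sp3 r1 r2 r3 ≤ pp (sp3 r1 r2 r3) := by
    rintro _ ⟨c, d, e, rfl⟩
    rw [mem_pp_sp3]
    simp only [H_add_left hF, H_smul_left hF, Geo.H_self_R p.h1, Geo.H_self_R p.h2, Geo.H_self_R hr3,
      p.perp, H_zero_swap hF p.perp, h13, h23, H_zero_swap hF h13, H_zero_swap hF h23, mul_zero,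
      add_zero]
    exact ⟨trivial, trivial, trivial⟩
  refine ⟨hc, ?_, fun c x hx => smul_sp3 c hx, ?_⟩
  · symm
    have h1 := card_pp (sp3 r1 r2 r3)
    rw [hc] at h1
    apply AddSubgroup.eq_of_le_of_card_ge hle
    omega
  · rintro X hX hXR _ ⟨c, d, e, rfl⟩
    exact X.add_mem (X.add_mem (hX _ _ (hXR _ fst_mem p.h1)) (hX _ _ (hXR _ snd_mem p.h2)))
      (hX _ _ (hXR _ thd_mem hr3))

/-- `e` is a product of two transvections at `R`-vectors of `N` -/
def Tr (N : AddSubgroup W) (e : W → W) : Prop := ∃ r1 ∈ N, ∃ r2 ∈ N, RPair r1 r2 ∧ e = T2 r1 r2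

theorem Tr.fix {N : AddSubgroup W} (hN : Nice N) {e : W → W} (h : Tr N e) {x : W} (hx : x ∈ N) :
    e x = x := by
  obtain ⟨r1, h1, r2, h2, p, rfl⟩ := h
  rw [T2_fix p, mem_pp_sp2]
  exact ⟨hN.H_zero hx h1, hN.H_zero hx h2⟩

theorem Tr.add_mem {N : AddSubgroup W} (hN : Nice N) {e : W → W} (h : Tr N e) (x : W) :
    e x + x ∈ N := by
  obtain ⟨r1, h1, r2, h2, p, rfl⟩ := h
  have e1 : T2 r1 r2 x + x = H x r1 • r1 + H x r2 • r2 := by
    rw [T2]
    calc x + H x r1 • r1 + H x r2 • r2 + x = (x + x) + (H x r1 • r1 + H x r2 • r2) := by abel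
      _ = _ := by rw [vadd_self hF, zero_add]
  rw [e1]
  exact N.add_mem (hN.smul _ _ h1) (hN.smul _ _ h2)

/-- the vectors outside `N` fixed by `e` -/
theorem card_fix_sub {N : AddSubgroup W} (hN : Nice N) {e : W → W} (h : Tr N e) :
    Nat.card {w : W // e w = w ∧ w ∉ N} = 192 := by
  obtain ⟨r1, h1, r2, h2, p, rfl⟩ := h
  have hc := card_pp_sp2 (Geo.R_ne_zero p.h1) p.ne
  have hle : N ≤ pp (sp2 r1 r2) := fun x hx => mem_pp_sp2.2 ⟨hN.H_zero hx h1, hN.H_zero hx h2⟩
  have e1 : {w : W | T2 r1 r2 w = w ∧ w ∉ N} = (pp (sp2 r1 r2) : Set W) \ (N : Set W) := by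
    ext w
    rw [Set.mem_ofPred_eq, T2_fix p]
    rfl
  have h3 : Nat.card {w : W // T2 r1 r2 w = w ∧ w ∉ N} =
      Set.ncard {w : W | T2 r1 r2 w = w ∧ w ∉ N} := rfl
  rw [h3, e1, Set.ncard_sdiff hle (Set.toFinite _)]
  have h4 : Set.ncard (pp (sp2 r1 r2) : Set W) = 256 := hc
  have h5 : Set.ncard (N : Set W) = 64 := hN.card
  rw [h4, h5]

/-- different products have no common fixed vector outside `N` -/
theorem eq_of_fix {N : AddSubgroup W} (hN : Nice N) {e e' : W → W} (h : Tr N e) (h' : Tr N e') {w : W}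
    (hw : e w = w) (hw' : e' w = w) (hwN : w ∉ N) : e = e' := by
  obtain ⟨r1, h1, r2, h2, p, rfl⟩ := h
  obtain ⟨r3, h3, r4, h4, p', rfl⟩ := h'
  by_contra hne
  have hc := card_inf_le p p' (Ne.symm hne)
  have hle : N ≤ pp (sp2 r1 r2) ⊓ pp (sp2 r3 r4) := fun x hx =>
    ⟨mem_pp_sp2.2 ⟨hN.H_zero hx h1, hN.H_zero hx h2⟩,
      mem_pp_sp2.2 ⟨hN.H_zero hx h3, hN.H_zero hx h4⟩⟩
  have h5 : N = pp (sp2 r1 r2) ⊓ pp (sp2 r3 r4) := by
    apply AddSubgroup.eq_of_le_of_card_ge hle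
    rw [hN.card]
    exact hc
  apply hwN
  rw [h5]
  exact ⟨(T2_fix p).1 hw, (T2_fix p').1 hw'⟩

/-- a set of products of pairs in `N` has at most 21 elements -/
theorem card_le_of_tr {N : AddSubgroup W} (hN : Nice N) (E : Set (W → W)) (hE : ∀ e ∈ E, Tr N e) :
    E.ncard ≤ 21 := by
  have : Finite E := Set.toFinite E
  let f : (Σ e : E, {w : W // (e : W → W) w = w ∧ w ∉ N}) → {w : W // w ∉ N} :=
    fun x => ⟨x.2.1, x.2.2.2⟩
  have hf : Function.Injective f := by
    rintro ⟨e, w⟩ ⟨e', w'⟩ h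
    have h1 : (w : W) = w' := congrArg Subtype.val h
    have h2 : (e : W → W) = e' := eq_of_fix hN (hE e e.2) (hE e' e'.2) w.2.1
      (by rw [h1]; exact w'.2.1) w.2.2
    obtain rfl : e = e' := Subtype.ext h2
    obtain rfl : w = w' := Subtype.ext h1
    rfl
  have h1 := Nat.card_le_card_of_injective f hf
  have : Fintype E := Fintype.ofFinite E
  rw [Nat.card_sigma, Finset.sum_congr rfl (fun (e : E) _ => card_fix_sub hN (hE e e.2)),
    Finset.sum_const, Finset.card_univ, smul_eq_mul] at h1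
  have h2 : Nat.card {w : W // w ∉ N} = 4032 := by
    have h3 : Nat.card {w : W // w ∉ N} = Set.ncard ((N : Set W)ᶜ) := rfl
    rw [h3, Set.ncard_compl]
    have h5 : Set.ncard (N : Set W) = 64 := hN.card
    rw [h5, card_W]
  rw [h2, ← Nat.card_eq_fintype_card] at h1
  have h3 : E.ncard = Nat.card E := rfl
  omega

/-- the good case: an orthogonal quadruple -/
theorem exists_nice {r1 r2 r3 r4 : W} (p : RPair r1 r2) (p' : RPair r3 r4) (h : T2 r3 r4 ≠ T2 r1 r2)
    (h13 : H r1 r3 = 0) (h14 : H r1 r4 = 0) (h23 : H r2 r3 = 0) (h24 : H r2 r4 = 0) :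
    ∃ N, Nice N ∧ r1 ∈ N ∧ r2 ∈ N ∧ r3 ∈ N ∧ r4 ∈ N ∧ N = pp (sp2 r1 r2) ⊓ pp (sp2 r3 r4) := by
  have key : ∀ N, Nice N → r1 ∈ N → r2 ∈ N → (∀ x, x ∈ N ↔ H x r1 = 0 ∧ H x r2 = 0 ∧ H x r3 = 0 ∧
      H x r4 = 0) → ∃ N, Nice N ∧ r1 ∈ N ∧ r2 ∈ N ∧ r3 ∈ N ∧ r4 ∈ N ∧
        N = pp (sp2 r1 r2) ⊓ pp (sp2 r3 r4) := by
    intro N hN _ _ hx
    refine ⟨N, hN, ?_, ?_, ?_, ?_, ?_⟩
    · exact (hx _).2 ⟨Geo.H_self_R p.h1, p.perp, h13, h14⟩
    · exact (hx _).2 ⟨H_zero_swap hF p.perp, Geo.H_self_R p.h2, h23, h24⟩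
    · exact (hx _).2 ⟨H_zero_swap hF h13, H_zero_swap hF h23, Geo.H_self_R p'.h1, p'.perp⟩
    · exact (hx _).2 ⟨H_zero_swap hF h14, H_zero_swap hF h24, H_zero_swap hF p'.perp,
        Geo.H_self_R p'.h2⟩
    · ext x
      rw [hx, AddSubgroup.mem_inf, mem_pp_sp2, mem_pp_sp2]
      tauto
  have hm : ∀ r, IsR r → H r1 r = 0 → H r2 r = 0 → r ∉ sp2 r1 r2 → H r r3 = 0 → H r r4 = 0 →
      (∀ x, H x r3 = 0 ∧ H x r4 = 0 → H x r = 0) → ∃ N, Nice N ∧ r1 ∈ N ∧ r2 ∈ N ∧ r3 ∈ N ∧ r4 ∈ N ∧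
        N = pp (sp2 r1 r2) ⊓ pp (sp2 r3 r4) := by
    intro r hr h1r h2r hrn hr3 hr4 hx
    have hN := nice_sp3 p hr h1r h2r hrn
    apply key _ hN fst_mem snd_mem
    intro x
    constructor
    · rintro ⟨c, d, e, rfl⟩
      simp only [H_add_left hF, H_smul_left hF, Geo.H_self_R p.h1, Geo.H_self_R p.h2,
        p.perp, H_zero_swap hF p.perp, h13, h23, h14, h24, H_zero_swap hF h1r, H_zero_swap hF h2r, hr3,
        hr4, mul_zero, add_zero]
      exact ⟨trivial, trivial, trivial, trivial⟩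
    · rintro ⟨h1, h2, h3, h4⟩
      rw [← hN.perp, mem_pp_sp3]
      exact ⟨h1, h2, hx x ⟨h3, h4⟩⟩
  by_cases h3 : r3 ∈ sp2 r1 r2
  · by_cases h4 : r4 ∈ sp2 r1 r2
    · exact absurd (T2_eq_of_mem p p' h3 h4) h
    · exact hm r4 p'.h2 h14 h24 h4 (H_zero_swap hF p'.perp) (Geo.H_self_R p'.h2) fun x hx => hx.2
  · exact hm r3 p'.h1 h13 h23 h3 (Geo.H_self_R p'.h1) p'.perp fun x hx => hx.1

end Cfsg.Agent.H826.Pairs
end

-- part: H826/Groups
section
/-!
# Elementary abelian groups of products of two commuting transvections of `F4 ^ 6`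
-/

set_option autoImplicit false

namespace Cfsg.Agent.H826.Groups

open Cfsg.Agent.SporRec.GF4 Cfsg.Agent.R08 Cfsg.Agent.R08.Iface Cfsg.Agent.R08.InvHerm
open Cfsg.Agent.R08.InvM Cfsg.Agent.R08.InvP Cfsg.Agent.H826.Perp Cfsg.Agent.H826.Pairs
open Cfsg.Agent.R08.ModVec (W)

theorem T2_add (r1 r2 x y : W) : T2 r1 r2 (x + y) = T2 r1 r2 x + T2 r1 r2 y := by
  rw [T2, T2, T2, H_add_left hF, H_add_left hF, add_smul, add_smul]
  abel

theorem T2_isR {r1 r2 x : W} (p : RPair r1 r2) (hx : IsR x) : IsR (T2 r1 r2 x) := by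
  have h : T2 r1 r2 x = tr r1 (tr r2 x) := by
    rw [tr, tr, T2, H_add_left hF, H_smul_left hF, H_zero_swap hF p.perp, mul_zero, add_zero,
      add_right_comm]
  rw [h]
  exact Geo.isR_tr p.h1 (Geo.isR_tr p.h2 hx)

theorem card_le_of_smul {U X : AddSubgroup W} (hUX : U ≤ X) (hX : ∀ (c : F4) (x : W), x ∈ X → c • x ∈ X)
    {ω : F4} (hU : ∀ y ∈ U, ω • y ∈ U → y = 0) : Nat.card U * Nat.card U ≤ Nat.card X := by
  rw [← Nat.card_prod]
  apply Nat.card_le_card_of_injective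
    (fun p : U × U => (⟨p.1 + ω • (p.2 : W), X.add_mem (hUX p.1.2) (hX _ _ (hUX p.2.2))⟩ : X))
  rintro ⟨x, y⟩ ⟨x', y'⟩ h
  have h1 : (x : W) + ω • (y : W) = x' + ω • (y' : W) := congrArg Subtype.val h
  have h2 : (x : W) + x' = ω • ((y : W) + y') := by
    have h3 := congrArg (fun t : W => t + (x' + ω • (y : W))) h1
    beta_reduce at h3
    rw [smul_add]
    have e1 : (x : W) + ω • (y : W) + (x' + ω • (y : W)) =
        (x + x') + (ω • (y : W) + ω • (y : W)) := by abel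
    have e2 : (x' : W) + ω • (y' : W) + (x' + ω • (y : W)) =
        ((x' : W) + x') + (ω • (y : W) + ω • (y' : W)) := by abel
    rw [e1, e2, vadd_self hF, vadd_self hF, add_zero, zero_add] at h3
    exact h3
  have h3 := hU _ (U.add_mem y.2 y'.2) (by rw [← h2]; exact U.add_mem x.2 x'.2)
  rw [h3, smul_zero] at h2
  exact Prod.ext (Subtype.ext ((vadd_eq_zero hF).1 h2)) (Subtype.ext ((vadd_eq_zero hF).1 h3))

theorem smul_pp_sp2 {r1 r2 : W} (c : F4) {x : W} (h : x ∈ pp (sp2 r1 r2)) : c • x ∈ pp (sp2 r1 r2) := by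
  rw [mem_pp_sp2] at h ⊢
  rw [H_smul_left hF, H_smul_left hF, h.1, h.2, mul_zero]
  exact ⟨rfl, rfl⟩

variable {E : Subgroup (Equiv.Perm W)}

theorem exists_two (h3 : 3 ≤ Nat.card E) : ∃ e ∈ E, ∃ e' ∈ E, e ≠ 1 ∧ e' ≠ 1 ∧ e ≠ e' := by
  by_contra hcon
  push Not at hcon
  by_cases h1 : ∃ e ∈ E, e ≠ 1
  · obtain ⟨e, he, he1⟩ := h1
    have hsub : (E : Set (Equiv.Perm W)) ⊆ {1, e} := by
      intro x hx
      by_cases hx1 : x = 1
      · left; exact hx1
      · right; exact (hcon e he x hx he1 hx1).symm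
    have h4 := Set.ncard_le_ncard hsub (Set.toFinite _)
    have h5 := Set.ncard_insert_le (1 : Equiv.Perm W) {e}
    rw [Set.ncard_singleton] at h5
    have h6 : Nat.card E = (E : Set (Equiv.Perm W)).ncard := rfl
    omega
  · push Not at h1
    have : E = ⊥ := by
      rw [eq_bot_iff]
      intro x hx
      exact h1 x hx
    rw [this, Subgroup.card_bot] at h3
    omega

/-- either the fixed space is small, or everything happens in a nice subspace -/
theorem dichotomy (hE : ∀ e ∈ E, e ≠ 1 → ∃ r1 r2, RPair r1 r2 ∧ (e : W → W) = T2 r1 r2)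
    (h3 : 3 ≤ Nat.card E) {U : AddSubgroup W} (hU : ∀ e ∈ E, ∀ u ∈ U, e u = u) (hUU : U ≤ pp U) :
    Nat.card U ≤ 16 ∨ ∃ N, Nice N ∧ U ≤ N ∧ ∀ e ∈ E, e ≠ 1 → Tr N e := by
  by_cases hbad : ∃ e ∈ E, ∃ e' ∈ E, ∃ r1 r2 r3 r4 : W, RPair r1 r2 ∧ RPair r3 r4 ∧
      (e : W → W) = T2 r1 r2 ∧ (e' : W → W) = T2 r3 r4 ∧ H r1 r3 ≠ 0
  · left
    obtain ⟨e, he, e', he', r1, r2, r3, r4, p, p', h1, h2, h13⟩ := hbad
    apply card_le_of_bad p h13 _ hUU
    intro u hu
    have h4 := hU e he u hu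
    have h5 := hU e' he' u hu
    rw [h1, T2_fix p, mem_pp_sp2] at h4
    rw [h2, T2_fix p', mem_pp_sp2] at h5
    exact mem_pp_sp3.2 ⟨h4.1, h4.2, h5.1⟩
  · right
    push Not at hbad
    have orth : ∀ e ∈ E, ∀ e' ∈ E, ∀ r1 r2 r3 r4 : W, RPair r1 r2 → RPair r3 r4 →
        (e : W → W) = T2 r1 r2 → (e' : W → W) = T2 r3 r4 →
        H r1 r3 = 0 ∧ H r1 r4 = 0 ∧ H r2 r3 = 0 ∧ H r2 r4 = 0 := by
      intro e he e' he' r1 r2 r3 r4 p p' h1 h2
      have ps := p.symm hF Geo.geo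
      have ps' := p'.symm hF Geo.geo
      have h1s : (e : W → W) = T2 r2 r1 := by rw [h1, T2_swap]
      have h2s : (e' : W → W) = T2 r4 r3 := by rw [h2, T2_swap]
      exact ⟨hbad e he e' he' _ _ _ _ p p' h1 h2, hbad e he e' he' _ _ _ _ p ps' h1 h2s,
        hbad e he e' he' _ _ _ _ ps p' h1s h2, hbad e he e' he' _ _ _ _ ps ps' h1s h2s⟩
    obtain ⟨e, he, e', he', he1, he1', hne⟩ := exists_two h3
    obtain ⟨r1, r2, p, h1⟩ := hE e he he1
    obtain ⟨r3, r4, p', h2⟩ := hE e' he' he1'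
    obtain ⟨h13, h14, h23, h24⟩ := orth e he e' he' _ _ _ _ p p' h1 h2
    obtain ⟨N, hN, -, -, -, -, hNe⟩ := exists_nice p p' (fun h => hne
      (Equiv.coe_fn_injective (h1.trans (h.symm.trans h2.symm)))) h13 h14 h23 h24
    refine ⟨N, hN, ?_, ?_⟩
    · intro u hu
      rw [hNe, AddSubgroup.mem_inf, ← T2_fix p, ← T2_fix p', ← h1, ← h2]
      exact ⟨hU e he u hu, hU e' he' u hu⟩
    · intro f hf hf1
      obtain ⟨r5, r6, q, hfq⟩ := hE f hf hf1
      obtain ⟨a1, a2, a3, a4⟩ := orth f hf e he _ _ _ _ q p hfq h1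
      obtain ⟨b1, b2, b3, b4⟩ := orth f hf e' he' _ _ _ _ q p' hfq h2
      refine ⟨r5, ?_, r6, ?_, q, hfq⟩
      · rw [hNe, AddSubgroup.mem_inf, mem_pp_sp2, mem_pp_sp2]
        exact ⟨⟨a1, a2⟩, b1, b2⟩
      · rw [hNe, AddSubgroup.mem_inf, mem_pp_sp2, mem_pp_sp2]
        exact ⟨⟨a3, a4⟩, b3, b4⟩

/-- the fixed space inside the fixed space of a semilinear map -/
theorem card_le_of_semi (hE : ∀ e ∈ E, e ≠ 1 → ∃ r1 r2, RPair r1 r2 ∧ (e : W → W) = T2 r1 r2)
    (h3 : 3 ≤ Nat.card E) {U : AddSubgroup W} (hU : ∀ e ∈ E, ∀ u ∈ U, e u = u) {f : W → W}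
    (hf : IsSemi f) (hfU : ∀ u ∈ U, f u = u) : Nat.card U ≤ 8 := by
  obtain ⟨e, he, e', he', he1, he1', hne⟩ := exists_two h3
  obtain ⟨r1, r2, p, h1⟩ := hE e he he1
  obtain ⟨r3, r4, p', h2⟩ := hE e' he' he1'
  have hX := card_inf_le p p' (fun h => hne
    (Equiv.coe_fn_injective (h1.trans (h.symm.trans h2.symm))))
  obtain ⟨ω, hω⟩ := exists_omega hF
  obtain ⟨hω0, hω1⟩ := omega_ne hF hω
  have h4 := card_le_of_smul (U := U) (X := pp (sp2 r1 r2) ⊓ pp (sp2 r3 r4)) (ω := ω)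
    (fun u hu => by
      rw [AddSubgroup.mem_inf, ← T2_fix p, ← T2_fix p', ← h1, ← h2]
      exact ⟨hU e he u hu, hU e' he' u hu⟩)
    (fun c x hx => ⟨smul_pp_sp2 c hx.1, smul_pp_sp2 c hx.2⟩)
    (fun y hy hy' => by
      have h5 := hfU _ hy'
      rw [hf.smul, hfU y hy, ← sub_eq_zero, ← sub_smul] at h5
      rcases smul_eq_zero.1 h5 with h6 | h6
      · exfalso
        rcases sq_eq_self hF (sub_eq_zero.1 h6) with h7 | h7
        · exact hω0 h7
        · exact hω1 h7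
      · exact h6)
  by_contra hlt
  push Not at hlt
  have h5 : 9 * 9 ≤ Nat.card U * Nat.card U := Nat.mul_le_mul hlt hlt
  omega

/-- a nice subspace invariant under a large group for `N` lies in `N` -/
theorem le_of_stable {N N' : AddSubgroup W} (hN : Nice N) (hN' : Nice N')
    (hE : ∀ e ∈ E, e ≠ 1 → Tr N e) (hcard : 11 ≤ Nat.card E)
    (hst : ∀ e ∈ E, ∀ x ∈ N', e x ∈ N') : N' ≤ N := by
  by_contra hnot
  obtain ⟨p, hp, hpR, hpN⟩ : ∃ p ∈ N', IsR p ∧ p ∉ N := by
    by_contra hcon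
    push Not at hcon
    exact hnot (hN'.span N hN.smul fun r hr hR => hcon r hr hR)
  have hadd : ∀ e ∈ E, ∀ x y : W, e (x + y) = e x + e y := by
    intro e he x y
    by_cases h1 : e = 1
    · rw [h1]; rfl
    · obtain ⟨r1, -, r2, -, -, h⟩ := hE e he h1
      rw [h, T2_add]
  have hfix : ∀ e ∈ E, ∀ x ∈ N, e x = x := by
    intro e he x hx
    by_cases h1 : e = 1
    · rw [h1]; rfl
    · exact (hE e he h1).fix hN hx
  have hdiff : ∀ e ∈ E, ∀ x : W, e x + x ∈ N := by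
    intro e he x
    by_cases h1 : e = 1
    · rw [h1]
      show x + x ∈ N
      rw [vadd_self hF]; exact N.zero_mem
    · exact (hE e he h1).add_mem hN x
  have hisR : ∀ e ∈ E, IsR (e p) := by
    intro e he
    by_cases h1 : e = 1
    · rw [h1]; exact hpR
    · obtain ⟨r1, -, r2, -, q, h⟩ := hE e he h1
      rw [h]
      exact T2_isR q hpR
  have hmul : ∀ e ∈ E, ∀ e' ∈ E, (e * e') p + p = (e p + p) + (e' p + p) := by
    intro e he e' he'
    have h1 : e' p = (e' p + p) + p := by rw [add_assoc, vadd_self hF, add_zero]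
    have h2 : (e * e') p = e (e' p) := rfl
    rw [h2, h1, hadd e he, hfix e he _ (hdiff e' he' p)]
    have h3 := vadd_self hF p
    calc e' p + p + e p + p = (e p + p) + (e' p + p) := by abel
      _ = (e p + p) + (e' p + p + p + p) := by
        rw [add_assoc (e' p + p) p p, h3, add_zero]
  let φ : E →* Multiplicative W :=
    { toFun := fun e => Multiplicative.ofAdd ((e : Equiv.Perm W) p + p)
      map_one' := by
        apply Multiplicative.toAdd.injective
        exact vadd_self hF p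
      map_mul' := by
        intro e e'
        apply Multiplicative.toAdd.injective
        exact hmul e e.2 e' e'.2 }
  let D : AddSubgroup W :=
    { carrier := {d | ∃ e ∈ E, e p + p = d}
      zero_mem' := ⟨1, E.one_mem, vadd_self hF p⟩
      add_mem' := by
        rintro _ _ ⟨e, he, rfl⟩ ⟨e', he', rfl⟩
        exact ⟨e * e', E.mul_mem he he', hmul e he e' he'⟩
      neg_mem' := by
        intro x hx
        rw [vneg hF]; exact hx }
  have hker : Nat.card φ.ker ≤ 2 := by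
    have hk : ∀ e : φ.ker, ((e : E) : Equiv.Perm W) p = p := by
      intro e
      have h1 : Multiplicative.ofAdd (((e : E) : Equiv.Perm W) p + p) = 1 := e.2
      have h2 : ((e : E) : Equiv.Perm W) p + p = 0 := Multiplicative.ofAdd.injective h1
      exact (vadd_eq_zero hF).1 h2
    by_cases h1 : ∃ e : φ.ker, e ≠ 1
    · obtain ⟨e, he⟩ := h1
      have hsub : (Set.univ : Set φ.ker) ⊆ {1, e} := by
        intro x _
        by_cases hx1 : x = 1
        · left; exact hx1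
        · right
          have hne : ∀ y : φ.ker, y ≠ 1 → ((y : E) : Equiv.Perm W) ≠ 1 :=
            fun y hy h => hy (Subtype.ext (Subtype.ext h))
          have h3 := eq_of_fix hN (hE _ (x : E).2 (hne x hx1)) (hE _ (e : E).2 (hne e he)) (hk x) (hk e) hpN
          exact Subtype.ext (Subtype.ext (Equiv.coe_fn_injective h3))
      have h4 := Set.ncard_le_ncard hsub (Set.toFinite _)
      have h5 := Set.ncard_insert_le (1 : φ.ker) {e}
      rw [Set.ncard_singleton] at h5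
      rw [Set.ncard_univ] at h4
      omega
    · push Not at h1
      have : φ.ker = ⊥ := by
        rw [eq_bot_iff]
        intro x hx
        exact congrArg Subtype.val (h1 ⟨x, hx⟩)
      rw [this, Subgroup.card_bot]
      omega
  have hrange : Nat.card φ.range ≤ Nat.card D := by
    apply Nat.card_le_card_of_injective (fun y : φ.range => (⟨Multiplicative.toAdd y.1, by
      obtain ⟨e, he⟩ := y.2
      rw [← he]
      exact ⟨e, e.2, rfl⟩⟩ : D))
    intro y y' h
    exact Subtype.ext (congrArg (fun t : D => (t : W)) h)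
  have hE2 : Nat.card E ≤ 2 * Nat.card D := by
    rw [← Subgroup.card_mul_index φ.ker, Subgroup.index_ker]
    exact Nat.mul_le_mul hker hrange
  obtain ⟨ω, hω⟩ := exists_omega hF
  obtain ⟨hω0, hω1⟩ := omega_ne hF hω
  have hDN : D ≤ N ⊓ N' := by
    rintro _ ⟨e, he, rfl⟩
    exact ⟨hdiff e he p, N'.add_mem (hst e he p hp) hp⟩
  have hDD := card_le_of_smul (ω := ω) hDN (fun c x hx => ⟨hN.smul c x hx.1, hN'.smul c x hx.2⟩) (by
    rintro y ⟨e, he, hy⟩ ⟨e', he', hy'⟩
    by_contra hy0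
    have hyD : y ∈ D := ⟨e, he, hy⟩
    have hyN := (hDN hyD).1
    have hyN' := (hDN hyD).2
    have e1 : e p = y + (1 : F4) • p := by
      rw [← hy, one_smul, add_assoc, vadd_self hF, add_zero]
    have e2 : e' p = ω • y + p := by
      rw [← hy', add_assoc, vadd_self hF, add_zero]
    have R1 : IsR (y + (1 : F4) • p) := by rw [← e1]; exact hisR e he
    have R2 : IsR (y + ω⁻¹ • p) := by
      have h1 : y + ω⁻¹ • p = ω⁻¹ • (ω • y + p) := by
        rw [smul_add, smul_smul, inv_mul_cancel₀ hω0, one_smul]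
      rw [h1, ← e2]
      exact Geo.isR_smul (inv_ne_zero hω0) (hisR e' he')
    obtain ⟨c, -, huniq⟩ := Geo.geo.line p hpR y (hN.H_zero hyN hyN) (hN'.H_zero hyN' hp) (by
      rintro c rfl
      have hc0 : c ≠ 0 := by
        rintro rfl
        exact hy0 (zero_smul _ _)
      apply hpN
      have h1 := hN.smul c⁻¹ _ hyN
      rwa [smul_smul, inv_mul_cancel₀ hc0, one_smul] at h1)
    have h1 := huniq _ R1
    have h2 := huniq _ R2
    apply hω1
    rw [← h1] at h2
    exact inv_eq_one.1 h2)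
  have hlt : Nat.card ↥(N ⊓ N') ≤ 32 := by
    have h1 : N ⊓ N' < N' := lt_of_le_of_ne inf_le_right (fun h => hpN (by
      have h2 : p ∈ N ⊓ N' := by rw [h]; exact hp
      exact h2.1))
    have h2 := AddSubgroup.card_dvd_of_le h1.le
    rw [hN'.card] at h2
    have h3 : Nat.card ↥(N ⊓ N') ≠ 64 := by
      intro h4
      apply h1.ne
      apply AddSubgroup.eq_of_le_of_card_ge h1.le
      rw [h4, hN'.card]
    obtain ⟨k, hk⟩ := h2
    have hk2 : 2 ≤ k := by
      rcases k with _ | _ | k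
      · omega
      · omega
      · omega
    nlinarith
  have h6 : 6 ≤ Nat.card D := by omega
  have h7 : 6 * 6 ≤ Nat.card D * Nat.card D := Nat.mul_le_mul h6 h6
  omega

end Cfsg.Agent.H826.Groups
end

-- part: H826/Eight
section
/-!
# An element of order eight in `M / Q` and a bound for elementary abelian subgroups of `M / Q`
-/

set_option autoImplicit false

namespace Cfsg.Agent.H826.Eight

open Cfsg.Agent.SporRec.GF4 Cfsg.Agent.R08 Cfsg.Agent.R08.Iface Cfsg.Agent.R08.InvHerm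
open Cfsg.Agent.R08.InvM Cfsg.Agent.R08.InvP Cfsg.Agent.H826.Perp Cfsg.Agent.H826.Pairs
open Cfsg.Agent.R08.ModVec (W)
open Cfsg.Agent.R08.Geo (V6)

theorem abs {K : Type*} [Group K] [Finite K] {m : ℕ} (hK : Nat.card K = 2 ^ 7 * m) (hm : Odd m)
    (B : Subgroup K) (hB : ∀ x ∈ B, x * x = 1) (h64 : 64 ≤ Nat.card B) (x : K) (hx : x ^ 8 = 1) :
    x ^ 4 = 1 := by
  have : Fact (Nat.Prime 2) := ⟨Nat.prime_two⟩
  have hBp : IsPGroup 2 B := fun y => ⟨1, by
    apply Subtype.ext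
    have := hB y y.2
    show (y : K) ^ (2 ^ 1) = 1
    rw [pow_one, pow_two, this]⟩
  obtain ⟨P, hP⟩ := hBp.exists_le_sylow
  have hxp : IsPGroup 2 (Subgroup.zpowers x) := by
    intro y
    obtain ⟨k, hk⟩ := y.2
    refine ⟨3, Subtype.ext ?_⟩
    show (y : K) ^ (2 ^ 3) = 1
    rw [← hk]
    show (x ^ k) ^ 8 = 1
    rw [← zpow_natCast, ← zpow_mul, mul_comm, zpow_mul, zpow_natCast, hx, one_zpow]
  obtain ⟨P', hP'⟩ := hxp.exists_le_sylow
  obtain ⟨g, hg⟩ := MulAction.exists_smul_eq K P' P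
  have hyP : g * x * g⁻¹ ∈ (P : Subgroup K) := by
    rw [← hg]
    exact ⟨x, hP' (Subgroup.mem_zpowers x), rfl⟩
  -- order of `P`
  have hcP : Nat.card (P : Subgroup K) ≤ 128 := by
    obtain ⟨k, hk⟩ := IsPGroup.iff_card.1 P.isPGroup'
    have h1 : Nat.card (P : Subgroup K) ∣ Nat.card K := Subgroup.card_subgroup_dvd_card _
    have h2 : Nat.card (P : Subgroup K) = 2 ^ k := hk
    rw [h2, hK] at h1
    have h3 : Nat.Coprime (2 ^ k) m := Nat.Coprime.pow_left _ (Nat.coprime_two_left.2 hm)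
    have h4 := h3.dvd_of_dvd_mul_right h1
    rw [h2]
    exact Nat.le_of_dvd (by norm_num) h4
  have hidx := Subgroup.card_mul_index (B.subgroupOf (P : Subgroup K))
  have hcB : Nat.card (B.subgroupOf (P : Subgroup K)) = Nat.card B :=
    Nat.card_congr (Subgroup.subgroupOfEquivOfLe hP).toEquiv
  rw [hcB] at hidx
  have hi2 : (B.subgroupOf (P : Subgroup K)).index ≤ 2 := by
    by_contra hlt
    push Not at hlt
    have : 64 * 3 ≤ Nat.card B * (B.subgroupOf (P : Subgroup K)).index := Nat.mul_le_mul h64 hlt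
    omega
  have hi0 : (B.subgroupOf (P : Subgroup K)).index ≠ 0 := Subgroup.index_ne_zero_of_finite
  have hy2 : (g * x * g⁻¹) * (g * x * g⁻¹) ∈ B := by
    rcases (show (B.subgroupOf (P : Subgroup K)).index = 1 ∨ (B.subgroupOf (P : Subgroup K)).index = 2
      by omega) with h1 | h1
    · have h2 := Subgroup.index_eq_one.1 h1
      have h3 : (⟨g * x * g⁻¹, hyP⟩ : (P : Subgroup K)) ∈ B.subgroupOf (P : Subgroup K) := by
        rw [h2]; trivial
      exact B.mul_mem h3 h3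
    · exact Subgroup.mul_self_mem_of_index_two h1 (⟨g * x * g⁻¹, hyP⟩ : (P : Subgroup K))
  have hy4 := hB _ hy2
  have e : g * x ^ 4 * g⁻¹ = (g * x * g⁻¹) * (g * x * g⁻¹) * ((g * x * g⁻¹) * (g * x * g⁻¹)) := by
    rw [← conj_pow, show (4 : ℕ) = 2 + 2 from rfl, pow_add, pow_two]
  rw [← e, mul_inv_eq_one, mul_eq_left] at hy4
  exact hy4

/-! ### the element -/

/-- transvection on codes -/
def trv (r x : V6) : V6 := x.add (V6.sm (x.h r) r)

theorem trv_w (r x : V6) : (trv r x).w = tr r.w x.w := by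
  rw [trv, V6.add_w, V6.sm_w, tr, ← V6.h_eq, ← Geo.H_iface]

def a0 : V6 := ⟨.o, .w, .o, .o, .w, .w⟩
def a1 : V6 := ⟨.z, .z, .z, .z, .o, .o⟩
def a2 : V6 := ⟨.z, .o, .z, .z, .o, .z⟩
def a3 : V6 := ⟨.z, .z, .o, .o, .z, .z⟩
def a4 : V6 := ⟨.z, .z, .z, .o, .z, .o⟩
def a5 : V6 := ⟨.o, .z, .w, .z, .z, .z⟩

/-- the map of order eight -/
def FF (x : V6) : V6 := trv a0 (trv a1 (trv a2 (trv a3 (trv a4 (trv a5 x)))))

def e0 : V6 := ⟨.o, .z, .z, .z, .z, .z⟩
def e1 : V6 := ⟨.z, .o, .z, .z, .z, .z⟩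
def e2 : V6 := ⟨.z, .z, .o, .z, .z, .z⟩
def e3 : V6 := ⟨.z, .z, .z, .o, .z, .z⟩
def e4 : V6 := ⟨.z, .z, .z, .z, .o, .z⟩
def e5 : V6 := ⟨.z, .z, .z, .z, .z, .o⟩

theorem check : (V6.eq (FF^[8] e0) e0 && V6.eq (FF^[8] e1) e1 && V6.eq (FF^[8] e2) e2 &&
    V6.eq (FF^[8] e3) e3 && V6.eq (FF^[8] e4) e4 && V6.eq (FF^[8] e5) e5) = true := by decide +kernel

theorem check4 : (V6.eq (FF^[4] e0) e0 && V6.eq (FF^[4] e1) e1 && V6.eq (FF^[4] e2) e2 &&
    V6.eq (FF^[4] e3) e3 && V6.eq (FF^[4] e4) e4 && V6.eq (FF^[4] e5) e5) = false := by decide +kernel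

theorem checkR : (a0.isR && a1.isR && a2.isR && a3.isR && a4.isR && a5.isR) = true := by decide +kernel

section Lab

variable {G : Type*} [Group G] {Q M : Subgroup G} {z : G}

theorem ρ_pow (L : Lab F4 Q M z) {m : G} (hm : m ∈ M) (n : ℕ) (w : W) :
    L.ρ (m ^ n) w = (L.ρ m)^[n] w := by
  induction n generalizing w with
  | zero => rw [pow_zero, L.ρ_one]; rfl
  | succ n ih =>
    rw [pow_succ, L.ρ_mul (L.M_comm _ (M.pow_mem hm n)) (L.M_comm m hm), ih]
    rfl

theorem iter (L : Lab F4 Q M z) {m : G} (h : ∀ x : V6, L.ρ m x.w = (FF x).w) (n : ℕ) (x : V6) :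
    (L.ρ m)^[n] x.w = (FF^[n] x).w := by
  induction n generalizing x with
  | zero => rfl
  | succ n ih =>
    show (L.ρ m)^[n] (L.ρ m x.w) = (FF^[n] (FF x)).w
    rw [h, ih]

theorem expand (w : W) : w = w 0 • e0.w + w 1 • e1.w + w 2 • e2.w + w 3 • e3.w + w 4 • e4.w +
    w 5 • e5.w := by
  funext i
  have hm : ∀ a : F4, a * .o = a := by intro a; cases a <;> rfl
  have hz : ∀ a : F4, a * .z = .z := by intro a; cases a <;> rfl
  have ha : ∀ a : F4, a + .z = a := by intro a; cases a <;> rfl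
  have ha' : ∀ a : F4, .z + a = a := by intro a; cases a <;> rfl
  fin_cases i
  all_goals
    simp only [Pi.add_apply, Pi.smul_apply, smul_eq_mul]
    simp only [V6.w, e0, e1, e2, e3, e4, e5]
    simp [hm, hz, ha, ha']

theorem mem_Q_of_basis (L : Lab F4 Q M z) {m : G} (hm : m ∈ M)
    (h : L.ρ m e0.w = e0.w ∧ L.ρ m e1.w = e1.w ∧ L.ρ m e2.w = e2.w ∧ L.ρ m e3.w = e3.w ∧
      L.ρ m e4.w = e4.w ∧ L.ρ m e5.w = e5.w) : m ∈ Q := by
  obtain ⟨h0, h1, h2, h3, h4, h5⟩ := h
  have hmz := L.M_comm m hm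
  apply L.mem_Q m hmz
  intro w
  rw [expand w]
  simp only [L.ρ_add hmz, (L.isLin hm).smul, h0, h1, h2, h3, h4, h5]

/-- an element of `M` of order eight modulo `Q` -/
theorem exists_eight (L : Lab F4 Q M z) : ∃ m ∈ M, m ^ 8 ∈ Q ∧ m ^ 4 ∉ Q := by
  have hR := checkR
  simp only [Bool.and_eq_true] at hR
  obtain ⟨⟨⟨⟨⟨R0, R1⟩, R2⟩, R3⟩, R4⟩, R5⟩ := hR
  have toR : ∀ x : V6, x.isR = true → IsR x.w := fun x h => by
    rw [Geo.isR_iff, V6.of_w]; exact h
  obtain ⟨m1, hm1, h1⟩ := L.tau a0.w a1.w (toR _ R0) (toR _ R1)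
  obtain ⟨m2, hm2, h2⟩ := L.tau a2.w a3.w (toR _ R2) (toR _ R3)
  obtain ⟨m3, hm3, h3⟩ := L.tau a4.w a5.w (toR _ R4) (toR _ R5)
  have hm : m1 * (m2 * m3) ∈ M := M.mul_mem hm1 (M.mul_mem hm2 hm3)
  have hρ : ∀ x : V6, L.ρ (m1 * (m2 * m3)) x.w = (FF x).w := by
    intro x
    rw [L.ρ_mul (L.M_comm m1 hm1) (L.M_comm _ (M.mul_mem hm2 hm3)),
      L.ρ_mul (L.M_comm m2 hm2) (L.M_comm m3 hm3), h3, h2, h1]
    simp only [← trv_w]
    rfl
  refine ⟨m1 * (m2 * m3), hm, ?_, ?_⟩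
  · apply mem_Q_of_basis L (M.pow_mem hm 8)
    have hc := check
    simp only [Bool.and_eq_true] at hc
    obtain ⟨⟨⟨⟨⟨c0, c1⟩, c2⟩, c3⟩, c4⟩, c5⟩ := hc
    have key : ∀ e : V6, V6.eq (FF^[8] e) e = true → L.ρ ((m1 * (m2 * m3)) ^ 8) e.w = e.w := by
      intro e he
      rw [ρ_pow L hm, iter L hρ, V6.eq_iff.1 he]
    exact ⟨key _ c0, key _ c1, key _ c2, key _ c3, key _ c4, key _ c5⟩
  · intro hQ
    have key : ∀ e : V6, V6.eq (FF^[4] e) e = true := by
      intro e
      rw [V6.eq_iff]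
      have h4 := L.ρ_mem_Q hQ e.w
      rw [ρ_pow L hm, iter L hρ] at h4
      have h5 := congrArg V6.of h4
      rwa [V6.of_w, V6.of_w] at h5
    have hc := check4
    rw [key, key, key, key, key, key] at hc
    exact absurd hc (by decide)

theorem quot_normal (L : Lab F4 Q M z) : (Q.subgroupOf M).Normal :=
  ⟨fun x hx g => by
    rw [Subgroup.mem_subgroupOf] at hx ⊢
    exact L.large.conj_mem g (L.M_comm g g.2) x hx⟩

/-- an elementary abelian subgroup of `M` has image of order less than `2 ^ 6` in `M / Q` -/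
theorem card_lt (L : Lab F4 Q M z) [Finite G] {B : Subgroup G} (hBM : B ≤ M)
    (hB : ∀ x ∈ B, x * x = 1) : Nat.card B < 64 * Nat.card ↥(B ⊓ Q) := by
  have hn := quot_normal L
  by_contra hlt
  push Not at hlt
  set N : Subgroup M := Q.subgroupOf M with hN
  have hcM : Nat.card M = Nat.card (M ⧸ N) * Nat.card N :=
    Subgroup.card_eq_card_quotient_mul_card_subgroup N
  have hcN : Nat.card N = Nat.card Q := Nat.card_congr (Subgroup.subgroupOfEquivOfLe L.Q_le).toEquiv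
  have hQpos : 0 < Nat.card Q := Nat.card_pos
  have hK : Nat.card (M ⧸ N) = 2 ^ 7 * 76545 := by
    rw [hcN, L.cardM] at hcM
    have := Nat.eq_of_mul_eq_mul_right hQpos hcM
    omega
  let B' : Subgroup (M ⧸ N) := (B.subgroupOf M).map (QuotientGroup.mk' N)
  have hB' : ∀ x ∈ B', x * x = 1 := by
    rintro _ ⟨b, hb, rfl⟩
    rw [← map_mul]
    have : b * b = 1 := Subtype.ext (hB b hb)
    rw [this, map_one]
  have hc := H824.FiStab.card_map_mk N (B.subgroupOf M)
  have h1 : Nat.card (B.subgroupOf M) = Nat.card B :=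
    Nat.card_congr (Subgroup.subgroupOfEquivOfLe hBM).toEquiv
  have h2 : Nat.card ↥(N ⊓ B.subgroupOf M) = Nat.card ↥(B ⊓ Q) := by
    have h3 : N ⊓ B.subgroupOf M = (B ⊓ Q).subgroupOf M := by
      ext x
      simp only [hN, Subgroup.mem_inf, Subgroup.mem_subgroupOf]
      tauto
    rw [h3]
    exact Nat.card_congr (Subgroup.subgroupOfEquivOfLe (inf_le_left.trans hBM)).toEquiv
  rw [h1, h2] at hc
  have hpos : 0 < Nat.card ↥(B ⊓ Q) := Nat.card_pos
  have h64 : 64 ≤ Nat.card B' := by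
    rw [← hc] at hlt
    exact Nat.le_of_mul_le_mul_right hlt hpos
  obtain ⟨m, hm, h8, h4⟩ := exists_eight L
  have h5 := abs hK (by decide) B' hB' h64 (QuotientGroup.mk' N ⟨m, hm⟩) (by
    rw [← map_pow]
    exact (QuotientGroup.eq_one_iff _).2 h8)
  rw [← map_pow] at h5
  have h6 : (⟨m, hm⟩ ^ 4 : M) ∈ N := (QuotientGroup.eq_one_iff _).1 h5
  exact h4 h6

end Lab

end Cfsg.Agent.H826.Eight
end

-- part: H826/Struct
section
/-!
# Elementary abelian subgroups of order at least `2 ^ 11` of `C_G(z)`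

`L : Lab F4 Q M z`.  `struct`: such a subgroup `B ∋ z` has order `2 ^ 11`, lies in `M`, `B ∩ Q` is the preimage
of a nice subspace `N` and the elements of `B \ Q` act as products of two transvections at vectors of `N`.
`eq_of_norm`: if `B` normalises `B'` then `B = B'`.
-/

set_option autoImplicit false

namespace Cfsg.Agent.H826.Struct

open Cfsg.Agent.SporRec.GF4 Cfsg.Agent.R08 Cfsg.Agent.R08.Iface Cfsg.Agent.R08.InvHerm
open Cfsg.Agent.R08.InvM Cfsg.Agent.R08.InvP Cfsg.Agent.H826.Perp Cfsg.Agent.H826.Pairs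
open Cfsg.Agent.H826.Groups
open Cfsg.Agent.R08.ModVec (W)

variable {G : Type*} [Group G] {Q M : Subgroup G} {z : G}

/-- the action on labels of a subgroup of the centraliser -/
noncomputable def Φ (L : Lab F4 Q M z) (P : Subgroup G) (hP : ∀ x ∈ P, x * z = z * x) :
    P →* Equiv.Perm W where
  toFun x := ⟨L.ρ x, L.ρ (x : G)⁻¹, fun w => L.ρ_inv (hP x x.2) w, fun w => L.ρ_inv' (hP x x.2) w⟩
  map_one' := Equiv.ext fun w => L.ρ_one w
  map_mul' x y := Equiv.ext fun w => L.ρ_mul (hP x x.2) (hP y y.2) w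

theorem Φ_apply (L : Lab F4 Q M z) (P : Subgroup G) (hP : ∀ x ∈ P, x * z = z * x) (x : P) :
    (Φ L P hP x : W → W) = L.ρ x := rfl

theorem Φ_eq_one (L : Lab F4 Q M z) (P : Subgroup G) (hP : ∀ x ∈ P, x * z = z * x) (x : P) :
    Φ L P hP x = 1 ↔ (x : G) ∈ Q := by
  constructor
  · intro h
    apply L.mem_Q _ (hP x x.2)
    intro w
    exact congrArg (fun e : Equiv.Perm W => e w) h
  · intro h
    exact Equiv.ext fun w => L.ρ_mem_Q h w

theorem card_range (L : Lab F4 Q M z) (P : Subgroup G) (hP : ∀ x ∈ P, x * z = z * x) :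
    Nat.card (Φ L P hP).range * Nat.card ↥(P ⊓ Q) = Nat.card P := by
  have h1 := Subgroup.card_mul_index (Φ L P hP).ker
  rw [Subgroup.index_ker, mul_comm] at h1
  rw [← h1]
  congr 1
  have h2 : (Φ L P hP).ker = (P ⊓ Q).subgroupOf P := by
    ext x
    rw [MonoidHom.mem_ker, Φ_eq_one, Subgroup.mem_subgroupOf, Subgroup.mem_inf]
    exact ⟨fun h => ⟨x.2, h⟩, fun h => h.2⟩
  rw [h2]
  exact (Nat.card_congr (Subgroup.subgroupOfEquivOfLe inf_le_left).toEquiv).symm

/-- the labels of the elements of `B ∩ Q` -/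
def lab (L : Lab F4 Q M z) (B : Subgroup G) : AddSubgroup W where
  carrier := {w | ∃ x ∈ B, x ∈ Q ∧ L.v x = w}
  zero_mem' := ⟨1, B.one_mem, Q.one_mem, L.v_one⟩
  add_mem' := by
    rintro _ _ ⟨x, hx, hxQ, rfl⟩ ⟨y, hy, hyQ, rfl⟩
    exact ⟨x * y, B.mul_mem hx hy, Q.mul_mem hxQ hyQ, L.v_mul x hxQ y hyQ⟩
  neg_mem' := by
    intro x hx
    rw [vneg hF]; exact hx

theorem mem_lab_iff (L : Lab F4 Q M z) {B : Subgroup G} (hz : z ∈ B) {x : G} (hx : x ∈ Q) :
    L.v x ∈ lab L B ↔ x ∈ B := by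
  constructor
  · rintro ⟨y, hy, hyQ, h⟩
    rcases (L.v_eq hx hyQ).1 h.symm with h1 | h1
    · rw [h1]; exact hy
    · rw [h1]; exact B.mul_mem hy hz
  · intro h
    exact ⟨x, h, hx, rfl⟩

theorem card_lab (L : Lab F4 Q M z) {B : Subgroup G} (hz : z ∈ B) :
    Nat.card ↥(B ⊓ Q) = 2 * Nat.card (lab L B) :=
  H824.FiStab.card_pre L (B ⊓ Q) inf_le_right (fun w => w ∈ lab L B)
    (fun x hx => by
      rw [mem_lab_iff L hz hx, Subgroup.mem_inf]
      exact ⟨fun h => h.1, fun h => ⟨h, hx⟩⟩) (lab L B).zero_mem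

/-- an elementary abelian subgroup of order at least `2 ^ 11` of the centraliser -/
structure Maxi (z : G) (B : Subgroup G) : Prop where
  cent : ∀ x ∈ B, x * z = z * x
  sq : ∀ x ∈ B, x * x = 1
  card : 2 ^ 11 ≤ Nat.card B

theorem comm_of_sq {B : Subgroup G} (h : ∀ x ∈ B, x * x = 1) {x y : G} (hx : x ∈ B) (hy : y ∈ B) :
    x * y = y * x := by
  have h1 : ∀ a ∈ B, a⁻¹ = a := fun a ha => inv_eq_of_mul_eq_one_left (h a ha)
  have h2 := h1 _ (B.mul_mem hx hy)
  rw [mul_inv_rev, h1 x hx, h1 y hy] at h2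
  exact h2.symm

theorem card_eq_pow [Finite G] {B : Subgroup G} (h : ∀ x ∈ B, x * x = 1) : ∃ n, Nat.card B = 2 ^ n := by
  have : Fact (Nat.Prime 2) := ⟨Nat.prime_two⟩
  have hBp : IsPGroup 2 B := fun y => ⟨1, by
    apply Subtype.ext
    have := h y y.2
    show (y : G) ^ (2 ^ 1) = 1
    rw [pow_one, pow_two, this]⟩
  exact IsPGroup.iff_card.1 hBp

theorem lab_fix (L : Lab F4 Q M z) {B : Subgroup G} (hc : ∀ x ∈ B, x * z = z * x)
    (h : ∀ x ∈ B, x * x = 1) {b : G} (hb : b ∈ B) {u : W} (hu : u ∈ lab L B) : L.ρ b u = u := by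
  obtain ⟨x, hx, hxQ, rfl⟩ := hu
  rw [← L.v_conj b (hc b hb) x hxQ, comm_of_sq h hb hx, mul_inv_cancel_right]

theorem lab_le (L : Lab F4 Q M z) {B : Subgroup G} (h : ∀ x ∈ B, x * x = 1) :
    lab L B ≤ pp (lab L B) := by
  rintro _ ⟨x, hx, hxQ, rfl⟩ _ ⟨y, hy, hyQ, rfl⟩
  exact (L.comm_iff x hxQ y hyQ).1 (comm_of_sq h hx hy)

theorem card_lab_le (L : Lab F4 Q M z) {B : Subgroup G} (h : ∀ x ∈ B, x * x = 1) :
    Nat.card (lab L B) ≤ 64 := by
  have h1 := card_pp (lab L B)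
  have h2 : Nat.card (lab L B) ≤ Nat.card (pp (lab L B)) :=
    Nat.card_le_card_of_injective _ (AddSubgroup.inclusion_injective (lab_le L h))
  by_contra hlt
  push Not at hlt
  have h3 : 65 * 65 ≤ Nat.card (lab L B) * Nat.card (pp (lab L B)) :=
    Nat.mul_le_mul hlt (hlt.trans_le h2)
  omega

theorem over_of (L : Lab F4 Q M z)
    (even : ∀ f : M →* ℤˣ, (∀ m : M, (m : G) ∈ Q → f m = 1) → ∀ m, f m = 1) {P : Subgroup G}
    (hPM : P ≤ M) (hP : ∀ x ∈ P, x * z = z * x) (hsq : ∀ x ∈ P, x * x ∈ Q) :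
    ∀ e ∈ (Φ L P hP).range, e ≠ 1 → ∃ r1 r2, RPair r1 r2 ∧ (e : W → W) = T2 r1 r2 := by
  rintro _ ⟨b, rfl⟩ hb1
  have hbQ : (b : G) ∉ Q := fun h => hb1 ((Φ_eq_one L P hP b).2 h)
  obtain ⟨r1, r2, p, hov⟩ := exists_over Geo.geo L even (hPM b.2) hbQ (hsq b b.2)
  exact ⟨r1, r2, p, funext hov⟩

theorem Q_le_of (L : Lab F4 Q M z) {B : Subgroup G} : (B ⊓ M) ⊓ Q = B ⊓ Q := by
  rw [inf_assoc, inf_eq_right.2 L.Q_le]

/-- `B ∩ M` has index at most two in `B` -/
theorem card_le_two_mul (L : Lab F4 Q M z) [Finite G] {B : Subgroup G} (hc : ∀ x ∈ B, x * z = z * x) :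
    Nat.card B ≤ 2 * Nat.card ↥(B ⊓ M) := by
  classical
  by_cases hBM : B ≤ M
  · rw [inf_eq_left.2 hBM]; omega
  obtain ⟨b, hb, hbM⟩ := Set.not_subset.1 hBM
  have hb' : b ∈ B := hb
  have hbM' : b ∉ M := hbM
  let f : B → ↥(B ⊓ M) × Bool := fun x =>
    if h : (x : G) ∈ M then (⟨x, x.2, h⟩, true)
    else (⟨b * x, B.mul_mem hb' x.2, L.M_mul b x (hc b hb') (hc x x.2) hbM' h⟩, false)
  have hf : Function.Injective f := by
    intro x y hxy
    simp only [f] at hxy
    split_ifs at hxy with h1 h2 h2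
    · exact Subtype.ext (congrArg (fun t : ↥(B ⊓ M) × Bool => (t.1 : G)) hxy)
    · exact absurd (congrArg Prod.snd hxy) (by simp)
    · exact absurd (congrArg Prod.snd hxy) (by simp)
    · have h3 : b * (x : G) = b * y := congrArg (fun t : ↥(B ⊓ M) × Bool => (t.1 : G)) hxy
      exact Subtype.ext (mul_left_cancel h3)
  have h1 := Nat.card_le_card_of_injective f hf
  rw [Nat.card_prod, Nat.card_eq_fintype_card (α := Bool), Fintype.card_bool] at h1
  omega

theorem card_tr_le {N : AddSubgroup W} (hN : Nice N) {E : Set (Equiv.Perm W)}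
    (hE : ∀ e ∈ E, e ≠ 1 → Tr N e) : E.ncard ≤ 22 := by
  have h1 := card_le_of_tr hN ((fun e : Equiv.Perm W => (e : W → W)) '' (E \ {1})) (by
    rintro _ ⟨e, ⟨he, he1⟩, rfl⟩
    exact hE e he he1)
  rw [Set.ncard_image_of_injective _ Equiv.coe_fn_injective] at h1
  have h2 := Set.ncard_le_ncard_sdiff_add_ncard E {1}
  rw [Set.ncard_singleton] at h2
  omega

variable [Finite G] (L : Lab F4 Q M z)
  (hnwc : ∃ g : G, g * z * g⁻¹ ∈ Q ∧ g * z * g⁻¹ ≠ z)
  (even : ∀ f : M →* ℤˣ, (∀ m : M, (m : G) ∈ Q → f m = 1) → ∀ m, f m = 1)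

include hnwc

theorem semi_of_not_mem {c : G} (hc : c * z = z * c) (hcM : c ∉ M) : IsSemi (L.ρ c) := by
  obtain ⟨g, h1, h2⟩ := hnwc
  exact (H824.FiStab.duo L h1 h2).semi hc hcM

include L even

theorem le_M {B : Subgroup G} (h : Maxi z B) (hz : z ∈ B) : B ≤ M := by
  by_contra hBM
  obtain ⟨b, hb, hbM⟩ := Set.not_subset.1 hBM
  have hb' : b ∈ B := hb
  have hbM' : b ∉ M := hbM
  have hPsq : ∀ x ∈ B ⊓ M, x * x = 1 := fun x hx => h.sq x hx.1
  have hP : ∀ x ∈ B ⊓ M, x * z = z * x := fun x hx => h.cent x hx.1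
  have h1 := card_le_two_mul L h.cent
  have h2 := h.card
  have h3 := card_range L (B ⊓ M) hP
  have h4 := card_lab_le L h.sq
  have h5 := card_lab L hz
  rw [Q_le_of L, h5] at h3
  have h6 : 3 ≤ Nat.card (Φ L (B ⊓ M) hP).range := by
    by_contra hlt
    push Not at hlt
    have h7 : Nat.card (Φ L (B ⊓ M) hP).range * (2 * Nat.card (lab L B)) ≤ 2 * (2 * 64) :=
      Nat.mul_le_mul (Nat.le_of_lt_succ hlt) (Nat.mul_le_mul_left _ h4)
    omega
  have h7 := card_le_of_semi (over_of L even inf_le_right hP (fun x hx => by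
    rw [hPsq x hx]; exact Q.one_mem)) h6 (U := lab L B) (by
      rintro _ ⟨x, rfl⟩ u hu
      exact lab_fix L h.cent h.sq x.2.1 hu)
    (semi_of_not_mem L hnwc (h.cent b hb') hbM') (fun u hu => lab_fix L h.cent h.sq hb' hu)
  have h8 := Eight.card_lt L (B := B ⊓ M) inf_le_right hPsq
  rw [Q_le_of L, h5] at h8
  omega

theorem struct {B : Subgroup G} (h : Maxi z B) (hz : z ∈ B) :
    Nat.card B = 2 ^ 11 ∧ Nat.card ↥(B ⊓ Q) = 2 ^ 7 ∧ Nat.card (Φ L B h.cent).range = 16 ∧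
      Nice (lab L B) ∧ ∀ e ∈ (Φ L B h.cent).range, e ≠ 1 → Tr (lab L B) e := by
  have hBM := le_M L hnwc even h hz
  have h2 := h.card
  have h3 := card_range L B h.cent
  have h4 := card_lab_le L h.sq
  have h5 := card_lab L hz
  have h8 := Eight.card_lt L hBM h.sq
  rw [h5] at h3 h8
  have h6 : 16 ≤ Nat.card (Φ L B h.cent).range := by
    by_contra hlt
    push Not at hlt
    have h7 : Nat.card (Φ L B h.cent).range * (2 * Nat.card (lab L B)) ≤ 15 * (2 * 64) :=
      Nat.mul_le_mul (Nat.le_of_lt_succ hlt) (Nat.mul_le_mul_left _ h4)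
    omega
  rcases dichotomy (over_of L even hBM h.cent (fun x hx => by
    rw [h.sq x hx]; exact Q.one_mem)) (by omega) (U := lab L B) (by
      rintro _ ⟨x, rfl⟩ u hu
      exact lab_fix L h.cent h.sq x.2 hu) (lab_le L h.sq) with h7 | ⟨N, hN, hUN, hE⟩
  · omega
  · have h9 : Nat.card (Φ L B h.cent).range ≤ 22 := card_tr_le hN (E := ((Φ L B h.cent).range :
      Set (Equiv.Perm W))) hE
    obtain ⟨n, hn⟩ := card_eq_pow h.sq
    have h10 : Nat.card (Φ L B h.cent).range ∣ 2 ^ n := by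
      rw [← hn, ← h3]; exact Dvd.intro _ rfl
    obtain ⟨k, -, hk⟩ := (Nat.dvd_prime_pow Nat.prime_two).1 h10
    have h11 : k = 4 := by
      rw [hk] at h6 h9
      have h12 : k < 5 := by
        by_contra hlt
        push Not at hlt
        have := Nat.pow_le_pow_right (show 0 < 2 by norm_num) hlt
        omega
      have h13 : 3 < k := by
        by_contra hlt
        push Not at hlt
        have := Nat.pow_le_pow_right (show 0 < 2 by norm_num) hlt
        omega
      omega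
    rw [h11] at hk
    have hk' : Nat.card (Φ L B h.cent).range = 16 := hk
    rw [hk'] at h3
    have h14 : Nat.card (lab L B) = 64 := by omega
    have h15 : lab L B = N := by
      apply AddSubgroup.eq_of_le_of_card_ge hUN
      rw [h14, hN.card]
    rw [h15]
    exact ⟨by omega, by omega, hk', hN, hE⟩

/-- if `B` normalises `B'` then `B = B'` -/
theorem eq_of_norm {B B' : Subgroup G} (h : Maxi z B) (hz : z ∈ B) (h' : Maxi z B') (hz' : z ∈ B')
    (hn : ∀ b ∈ B, ∀ x ∈ B', b * x * b⁻¹ ∈ B') : B = B' := by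
  obtain ⟨c1, c2, c3, hN, hE⟩ := struct L hnwc even h hz
  obtain ⟨d1, d2, d3, hN', hE'⟩ := struct L hnwc even h' hz'
  have hle : lab L B' ≤ lab L B := by
    apply le_of_stable hN hN' hE (by omega)
    rintro _ ⟨b, rfl⟩ _ ⟨x, hx, hxQ, rfl⟩
    refine ⟨b * x * (b : G)⁻¹, hn b b.2 x hx, L.large.conj_mem b (h.cent b b.2) x hxQ, ?_⟩
    exact L.v_conj b (h.cent b b.2) x hxQ
  have heq : lab L B' = lab L B := by
    apply AddSubgroup.eq_of_le_of_card_ge hle
    rw [hN.card, hN'.card]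
  -- the ranges agree
  have hr : (Φ L B h.cent).range = (Φ L B' h'.cent).range := by
    set E := (Φ L B h.cent).range with hEd
    set E' := (Φ L B' h'.cent).range with hEd'
    have h1 : ((E : Set (Equiv.Perm W)) ∪ E').ncard ≤ 22 := by
      apply card_tr_le hN
      rintro e (he | he) he1
      · exact hE e he he1
      · rw [← heq]; exact hE' e he he1
    have h2 := Set.ncard_union_add_ncard_inter (E : Set (Equiv.Perm W)) E'
    have h3 : (E : Set (Equiv.Perm W)).ncard = 16 := c3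
    have h4 : (E' : Set (Equiv.Perm W)).ncard = 16 := d3
    have h5 : ((E : Set (Equiv.Perm W)) ∩ E').ncard = Nat.card ↥(E ⊓ E') := rfl
    rw [h3, h4, h5] at h2
    have h6 : Nat.card ↥(E ⊓ E') ∣ 16 := by
      rw [← c3]; exact Subgroup.card_dvd_of_le inf_le_left
    have h7 : Nat.card ↥(E ⊓ E') = 16 := by
      obtain ⟨k, hk⟩ := h6
      have hk2 : k < 2 := by
        by_contra hlt
        push Not at hlt
        have := Nat.mul_le_mul_left (Nat.card ↥(E ⊓ E')) hlt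
        omega
      interval_cases k
      · omega
      · omega
    have h8 : E ⊓ E' = E := Subgroup.eq_of_le_of_card_ge inf_le_left (by rw [h7, c3])
    have h9 : E ⊓ E' = E' := Subgroup.eq_of_le_of_card_ge inf_le_right (by rw [h7, d3])
    rw [← h8, h9]
  have hle' : B ≤ B' := by
    intro b hb
    have h1 : Φ L B h.cent ⟨b, hb⟩ ∈ (Φ L B' h'.cent).range := by
      rw [← hr]; exact ⟨⟨b, hb⟩, rfl⟩
    obtain ⟨b', hb'⟩ := h1
    have hρ : ∀ w, L.ρ b' w = L.ρ b w := fun w => congrArg (fun e : Equiv.Perm W => e w) hb'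
    have hbz := h.cent b hb
    have hb'z := h'.cent b' b'.2
    have hy : (b' : G)⁻¹ * b ∈ Q := by
      apply L.mem_Q _ (Lab.mul_comm' (Lab.inv_comm hb'z) hbz)
      intro w
      rw [L.ρ_mul (Lab.inv_comm hb'z) hbz, ← hρ, L.ρ_inv hb'z]
    have hv : L.v ((b' : G)⁻¹ * b) ∈ lab L B' := by
      rw [← hN'.perp]
      rintro _ ⟨x, hx, hxQ, rfl⟩
      rw [← L.comm_iff _ hy x hxQ]
      have hxB : x ∈ B := by
        rw [← mem_lab_iff L hz hxQ, ← heq, mem_lab_iff L hz' hxQ]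
        exact hx
      have e1 := comm_of_sq h.sq hb hxB
      have e2 := comm_of_sq h'.sq (B'.inv_mem b'.2) hx
      rw [mul_assoc, e1, ← mul_assoc, e2, mul_assoc]
    have hyB' := (mem_lab_iff L hz' hy).1 hv
    have e : b = b' * ((b' : G)⁻¹ * b) := by group
    rw [e]
    exact B'.mul_mem b'.2 hyB'
  exact Subgroup.eq_of_le_of_card_ge hle' (by rw [c1, d1])

end Cfsg.Agent.H826.Struct
end

-- part: H826/Exist
section
/-!
# An elementary abelian subgroup of order `2 ^ 11` of `C_G(z)`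
-/

set_option autoImplicit false

namespace Cfsg.Agent.H826.Exist

open Cfsg.Agent.SporRec.GF4 Cfsg.Agent.R08 Cfsg.Agent.R08.Iface Cfsg.Agent.R08.InvHerm
open Cfsg.Agent.R08.InvM Cfsg.Agent.R08.InvP Cfsg.Agent.H826.Perp Cfsg.Agent.H826.Pairs
open Cfsg.Agent.H826.Groups Cfsg.Agent.H826.Struct Cfsg.Agent.H826.Eight
open Cfsg.Agent.R08.ModVec (W)
open Cfsg.Agent.R08.Geo (V6)
open Cfsg.Agent.R08.TwoSys Cfsg.Agent.R08.Iface.Lab

/-! ### the hexad -/

def h0 : V6 := ⟨.o, .o, .z, .z, .z, .z⟩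
def h1 : V6 := ⟨.z, .z, .o, .o, .z, .z⟩
def h2 : V6 := ⟨.z, .z, .z, .z, .o, .o⟩
def h3 : V6 := ⟨.o, .o, .o, .o, .o, .o⟩
def h4 : V6 := ⟨.o, .o, .w, .w, .v, .v⟩
def h5 : V6 := ⟨.o, .o, .v, .v, .w, .w⟩

/-- test vector -/
def pt : V6 := ⟨.o, .z, .o, .z, .v, .z⟩

/-- the pairs -/
def prs : List (V6 × V6) :=
  [(h0, h1), (h0, h2), (h0, h3), (h0, h4), (h0, h5), (h1, h2), (h1, h3), (h1, h4), (h1, h5)]

/-- `T2` on codes -/
def TT (p : V6 × V6) (x : V6) : V6 := trv p.1 (trv p.2 x)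

/-- a pair of independent orthogonal `R`-vectors -/
def good (p : V6 × V6) : Bool := p.1.isR && p.2.isR && V6.isZ (p.1.h p.2) && !(Geo.mult p.1 p.2)

/-- membership in the span of `h0, h1, h2` -/
def inN (x : V6) : Bool := V6.eq x ⟨x.a, x.a, x.c, x.c, x.e, x.e⟩

theorem check_good : (prs.all fun p => good p && inN p.1 && inN p.2) = true := by decide +kernel

/-- the images of the test vector -/
def imgs : List V6 := pt :: prs.map fun p => TT p pt

/-- pairwise different -/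
def distinct : List V6 → Bool
  | [] => true
  | a :: l => (l.all fun b => !(V6.eq a b)) && distinct l

theorem check_distinct : distinct imgs = true := by decide +kernel

theorem nodup_of_distinct : ∀ {l : List V6}, distinct l = true → l.Nodup
  | [], _ => List.nodup_nil
  | a :: l, h => by
    rw [distinct, Bool.and_eq_true, List.all_eq_true] at h
    rw [List.nodup_cons]
    refine ⟨fun hm => ?_, nodup_of_distinct h.2⟩
    have h1 := h.1 a hm
    rw [Bool.not_eq_true', ← Bool.not_eq_true, V6.eq_iff] at h1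
    exact h1 rfl

theorem pair_of_good {p : V6 × V6} (h : good p = true) : RPair p.1.w p.2.w := by
  rw [good, Bool.and_eq_true, Bool.and_eq_true, Bool.and_eq_true, Bool.not_eq_true'] at h
  obtain ⟨⟨⟨h1, h2⟩, h3⟩, h4⟩ := h
  refine ⟨?_, ?_, ?_, ?_⟩
  · rw [Geo.isR_iff, V6.of_w]; exact h1
  · rw [Geo.isR_iff, V6.of_w]; exact h2
  · rw [Geo.H_of, V6.of_w, V6.of_w]; exact V6.isZ_iff.1 h3
  · exact Geo.mult_false.1 h4

theorem T2_TT {p : V6 × V6} (h : good p = true) (x : V6) : T2 p.1.w p.2.w x.w = (TT p x).w := by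
  have hp := pair_of_good h
  rw [TT, trv_w, trv_w, tr, tr, T2, H_add_left hF, H_smul_left hF, H_zero_swap hF hp.perp, mul_zero,
      add_zero, add_right_comm]

/-- the nice subspace -/
def N0 : AddSubgroup W := sp3 h0.w h1.w h2.w

theorem checkR : (good (h0, h1) && h2.isR && V6.isZ (h0.h h2) && V6.isZ (h1.h h2)) = true := by
  decide +kernel

theorem mem_N0 {x : W} : x ∈ N0 ↔ x 1 = x 0 ∧ x 3 = x 2 ∧ x 5 = x 4 := by
  constructor
  · rintro ⟨c, d, e, rfl⟩
    exact ⟨rfl, rfl, rfl⟩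
  · rintro ⟨e1, e2, e3⟩
    refine ⟨x 0, x 2, x 4, ?_⟩
    have ho : ∀ a : F4, a * .o = a := by intro a; cases a <;> rfl
    have hz : ∀ a : F4, a * .z = .z := by intro a; cases a <;> rfl
    have ha : ∀ a : F4, a + .z = a := by intro a; cases a <;> rfl
    have ha' : ∀ a : F4, .z + a = a := by intro a; cases a <;> rfl
    funext i
    fin_cases i
    all_goals
      simp only [Pi.add_apply, Pi.smul_apply, smul_eq_mul]
      simp only [V6.w, h0, h1, h2]
      simp [ho, hz, ha, ha', e1, e2, e3]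

theorem h2_not_mem : h2.w ∉ sp2 h0.w h1.w := by
  rintro ⟨c, d, h⟩
  have h4 := congrFun h 4
  have hz : ∀ a b : F4, a * .z + b * .z ≠ .o := by decide
  exact hz c d h4.symm

theorem nice_N0 : Nice N0 := by
  have h := checkR
  simp only [Bool.and_eq_true] at h
  obtain ⟨⟨⟨hg, hr⟩, h02⟩, h12⟩ := h
  refine nice_sp3 (pair_of_good hg) ?_ ?_ ?_ h2_not_mem
  · rw [Geo.isR_iff, V6.of_w]; exact hr
  · rw [Geo.H_of, V6.of_w, V6.of_w]; exact V6.isZ_iff.1 h02
  · rw [Geo.H_of, V6.of_w, V6.of_w]; exact V6.isZ_iff.1 h12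

theorem mem_of_inN {x : V6} (h : inN x = true) : x.w ∈ N0 := by
  rw [inN, V6.eq_iff] at h
  rw [mem_N0]
  have h1 := congrArg V6.b h
  have h2 := congrArg V6.d h
  have h3 := congrArg V6.f h
  exact ⟨h1, h2, h3⟩

/-! ### the group -/

variable {G : Type*} [Group G] {Q M : Subgroup G} {z : G}

/-- the centraliser in `M` of the preimage of `N` -/
def AA (L : Lab F4 Q M z) (N : AddSubgroup W) : Subgroup G where
  carrier := {m | m ∈ M ∧ ∀ x ∈ Q, L.v x ∈ N → m * x = x * m}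
  one_mem' := ⟨M.one_mem, fun x _ _ => by rw [one_mul, mul_one]⟩
  mul_mem' := by
    rintro a b ⟨ha, ha'⟩ ⟨hb, hb'⟩
    refine ⟨M.mul_mem ha hb, fun x hx hv => ?_⟩
    rw [mul_assoc, hb' x hx hv, ← mul_assoc, ha' x hx hv, mul_assoc]
  inv_mem' := by
    rintro a ⟨ha, ha'⟩
    refine ⟨M.inv_mem ha, fun x hx hv => ?_⟩
    rw [inv_mul_eq_iff_eq_mul, ← mul_assoc, ha' x hx hv, mul_assoc, mul_inv_cancel, mul_one]

theorem mem_AA {L : Lab F4 Q M z} {N : AddSubgroup W} {m : G} :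
    m ∈ AA L N ↔ m ∈ M ∧ ∀ x ∈ Q, L.v x ∈ N → m * x = x * m := Iff.rfl

/-- elements of `Q` -/
theorem mem_AA_Q (L : Lab F4 Q M z) {N : AddSubgroup W} (hN : Nice N) {x : G} (hx : x ∈ Q) :
    x ∈ AA L N ↔ L.v x ∈ N := by
  rw [mem_AA]
  constructor
  · rintro ⟨-, h⟩
    rw [← hN.perp]
    intro u hu
    obtain ⟨y, hy, rfl⟩ := L.v_surj u
    exact (L.comm_iff x hx y hy).1 (h y hy hu)
  · intro h
    refine ⟨L.Q_le hx, fun y hy hv => ?_⟩
    rw [L.comm_iff x hx y hy]
    left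
    exact hN.H_zero h hv

variable [Finite G] (L : Lab F4 Q M z)
  (hnwc : ∃ g : G, g * z * g⁻¹ ∈ Q ∧ g * z * g⁻¹ ≠ z)
  (even : ∀ f : M →* ℤˣ, (∀ m : M, (m : G) ∈ Q → f m = 1) → ∀ m, f m = 1)

include hnwc even

/-- a good involution over every pair -/
theorem exists_good_inv {r1 r2 : W} (p : RPair r1 r2) :
    ∃ x ∈ M, x * x = 1 ∧ Over L x r1 r2 ∧ Good L x r1 r2 := by
  have hz : z ∈ (sysOf L hnwc even).Z := L.twoB_self
  obtain ⟨s, -, -, -, -, x, -, hxM, hx2, hov, hgood⟩ :=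
    K1 (sysOf L hnwc even) Geo.geo hz p (one_ne_zero (α := F4))
  set g := gg L z with hg
  have hM : x ∈ cj g M := hxM
  refine ⟨g⁻¹ * x * g, mem_cj.1 hM, ?_, ?_, ?_⟩
  · calc g⁻¹ * x * g * (g⁻¹ * x * g) = g⁻¹ * (x * x) * g := by group
      _ = 1 := by rw [hx2]; group
  · exact hov
  · intro y hy hy1 hy2
    have hy' : g * y * g⁻¹ ∈ cj g Q := conj_mem_cj.2 hy
    have e : g⁻¹ * (g * y * g⁻¹) * g = y := by group
    have h := hgood (g * y * g⁻¹) hy' (by
      show H (L.v (g⁻¹ * (g * y * g⁻¹) * g)) r1 = 0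
      rw [e]; exact hy1) (by
      show H (L.v (g⁻¹ * (g * y * g⁻¹) * g)) r2 = 0
      rw [e]; exact hy2)
    calc g⁻¹ * x * g * y = g⁻¹ * (x * (g * y * g⁻¹)) * g := by group
      _ = g⁻¹ * ((g * y * g⁻¹) * x) * g := by rw [h]
      _ = y * (g⁻¹ * x * g) := by group

/-- a good involution over a pair in `N` lies in `AA` -/
theorem exists_mem_AA {N : AddSubgroup W} (hN : Nice N) {r1 r2 : W} (p : RPair r1 r2) (h1 : r1 ∈ N)
    (h2 : r2 ∈ N) : ∃ x ∈ AA L N, x * x = 1 ∧ Over L x r1 r2 := by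
  obtain ⟨x, hx, hx2, hov, hg⟩ := exists_good_inv L hnwc even p
  exact ⟨x, ⟨hx, fun y hy hv => hg y hy (hN.H_zero hv h1) (hN.H_zero hv h2)⟩, hx2, hov⟩

theorem AA_sq {N : AddSubgroup W} (hN : Nice N) {m : G} (hm : m ∈ AA L N) : m * m = 1 := by
  have hmM := hm.1
  have hmz := L.M_comm m hmM
  have hfix : ∀ n ∈ N, L.ρ m n = n := by
    intro n hn
    obtain ⟨x, hx, rfl⟩ := L.v_surj n
    rw [← L.v_conj m hmz x hx, hm.2 x hx hn, mul_inv_cancel_right]
  by_cases hmQ : m ∈ Q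
  · rw [L.sq_iff m hmQ]
    have h1 := (mem_AA_Q L hN hmQ).1 hm
    exact hN.H_zero h1 h1
  have hlin := L.isLin hmM
  have hdiff : ∀ w, L.ρ m w + w ∈ N := by
    intro w
    apply hN.mem_of
    intro n hn
    have e1 : H (L.ρ m w) n = H w n := by
      have e2 := hlin.form w n
      rwa [hfix n hn] at e2
    rw [H_add_left hF, e1, InvHerm.add_self hF]
  have hsq : m * m ∈ Q := by
    apply L.mem_Q _ (Lab.mul_comm' hmz hmz)
    intro w
    rw [L.ρ_mul hmz hmz]
    have e : L.ρ m w = w + (L.ρ m w + w) := by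
      rw [add_comm (L.ρ m w), ← add_assoc, vadd_self hF, zero_add]
    calc L.ρ m (L.ρ m w) = L.ρ m (w + (L.ρ m w + w)) := by rw [← e]
      _ = L.ρ m w + (L.ρ m w + w) := by rw [L.ρ_add hmz, hfix _ (hdiff w)]
      _ = w := by rw [← add_assoc, vadd_self hF, zero_add]
  obtain ⟨r1, r2, p, hov⟩ := exists_over Geo.geo L even hmM hmQ hsq
  have hperp : ∀ n ∈ N, H n r1 = 0 ∧ H n r2 = 0 := by
    intro n hn
    rw [← mem_pp_sp2, ← T2_fix p]
    have h1 := hov n
    rw [hfix n hn] at h1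
    exact h1.symm
  have hr1 : r1 ∈ N := hN.mem_of fun n hn => H_zero_swap hF (hperp n hn).1
  have hr2 : r2 ∈ N := hN.mem_of fun n hn => H_zero_swap hF (hperp n hn).2
  obtain ⟨x, hx, hx2, hovx⟩ := exists_mem_AA L hnwc even hN p hr1 hr2
  have hxz := L.M_comm x hx.1
  have hy : x⁻¹ * m ∈ Q := by
    apply L.mem_Q _ (Lab.mul_comm' (Lab.inv_comm hxz) hmz)
    intro w
    rw [L.ρ_mul (Lab.inv_comm hxz) hmz, hov w, ← hovx w, L.ρ_inv hxz]
  have hyA : x⁻¹ * m ∈ AA L N := (AA L N).mul_mem ((AA L N).inv_mem hx) hm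
  have hvy := (mem_AA_Q L hN hy).1 hyA
  have hy2 : (x⁻¹ * m) * (x⁻¹ * m) = 1 := by
    rw [L.sq_iff _ hy]
    exact hN.H_zero hvy hvy
  have hxy := hx.2 _ hy hvy
  have e : m = x * (x⁻¹ * m) := by group
  have key : ∀ y : G, x * y = y * x → y * y = 1 → (x * y) * (x * y) = 1 := by
    intro y h1 h2
    calc (x * y) * (x * y) = (x * y) * (y * x) := by rw [h1]
      _ = x * (y * y) * x := by group
      _ = 1 := by rw [h2, mul_one, hx2]
  rw [e]
  exact key _ hxy hy2

omit [Finite G] hnwc even in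
theorem z_mem_AA (N : AddSubgroup W) : z ∈ AA L N :=
  ⟨L.Q_le L.large.z_mem, fun x hx _ => (L.large.comm_z x hx).symm⟩

theorem maxi_AA : Maxi z (AA L N0) := by
  have hc : ∀ x ∈ AA L N0, x * z = z * x := fun x hx => L.M_comm x hx.1
  have hs : ∀ x ∈ AA L N0, x * x = 1 := fun x hx => AA_sq L hnwc even nice_N0 hx
  refine ⟨hc, hs, ?_⟩
  have hzA : z ∈ AA L N0 := z_mem_AA L N0
  have c1 := card_range L (AA L N0) hc
  have c2 := card_lab L hzA
  have hlab : lab L (AA L N0) = N0 := by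
    ext w
    obtain ⟨x, hx, rfl⟩ := L.v_surj w
    rw [mem_lab_iff L hzA hx, mem_AA_Q L nice_N0 hx]
  rw [hlab, nice_N0.card] at c2
  rw [c2] at c1
  -- the order of the range
  have hr : 10 ≤ Nat.card (Φ L (AA L N0) hc).range := by
    have hmem : ∀ y ∈ imgs, ∃ e : (Φ L (AA L N0) hc).range, (e : Equiv.Perm W) pt.w = y.w := by
      intro y hy
      rw [imgs, List.mem_cons, List.mem_map] at hy
      rcases hy with rfl | ⟨p, hp, rfl⟩
      · exact ⟨1, rfl⟩
      · have hg := List.all_eq_true.1 check_good p hp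
        rw [Bool.and_eq_true, Bool.and_eq_true] at hg
        obtain ⟨⟨hg, hn1⟩, hn2⟩ := hg
        obtain ⟨x, hx, -, hov⟩ := exists_mem_AA L hnwc even nice_N0 (pair_of_good hg)
          (mem_of_inN hn1) (mem_of_inN hn2)
        refine ⟨⟨Φ L (AA L N0) hc ⟨x, hx⟩, ⟨x, hx⟩, rfl⟩, ?_⟩
        rw [← T2_TT hg]
        exact hov pt.w
    choose f hf using hmem
    have hnd := nodup_of_distinct check_distinct
    let g : {y // y ∈ imgs} → (Φ L (AA L N0) hc).range := fun y => f y.1 y.2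
    have hginj : Function.Injective g := by
      rintro ⟨y, hy⟩ ⟨y', hy'⟩ h
      apply Subtype.ext
      have h1 := hf y hy
      have h2 := hf y' hy'
      have h3 : f y hy = f y' hy' := h
      rw [h3, h2] at h1
      have h4 := congrArg V6.of h1
      rw [V6.of_w, V6.of_w] at h4
      exact h4.symm
    have h1 := Nat.card_le_card_of_injective g hginj
    have h2 : Nat.card {y // y ∈ imgs} = 10 := by
      classical
      rw [Nat.card_eq_fintype_card, Fintype.card_of_subtype (s := imgs.toFinset) (by simp),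
        List.toFinset_card_of_nodup hnd]
      rfl
    rwa [h2] at h1
  obtain ⟨n, hn⟩ := card_eq_pow hs
  have h11 : 10 < n := by
    by_contra hlt
    push Not at hlt
    have h3 := Nat.pow_le_pow_right (show 0 < 2 by norm_num) hlt
    omega
  rw [hn]
  exact Nat.pow_le_pow_right (by norm_num) h11

end Cfsg.Agent.H826.Exist
end

-- part: S5444
section
set_option autoImplicit false
open Cfsg

namespace Cfsg.Agent.S5444

open Cfsg.Agent.SporRec.GF4 Cfsg.Agent.R08 Cfsg.Agent.R08.Iface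
open Cfsg.Agent.H826.Struct Cfsg.Agent.H826.Exist

section

variable {G : Type*} [Group G] [Finite G] {Q M : Subgroup G} {z : G} (L : Lab F4 Q M z)
  (hnwc : ∃ g : G, g * z * g⁻¹ ∈ Q ∧ g * z * g⁻¹ ≠ z)
  (even : ∀ f : M →* ℤˣ, (∀ m : M, (m : G) ∈ Q → f m = 1) → ∀ m, f m = 1)

include L hnwc even

/-- `z ∈ B` -/
theorem z_mem {B : Subgroup G} (h : Maxi z B) : z ∈ B := by
  have hzz := L.large.z_sq
  have hc : ∀ x : G, x * z ∈ B → x * z = z * x := by
    intro x hx
    have h1 := h.cent _ hx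
    have h2 : x * z * z = z * x * z := by rw [h1, mul_assoc]
    exact mul_right_cancel h2
  let B' : Subgroup G :=
    { carrier := {x | x ∈ B ∨ x * z ∈ B}
      one_mem' := Or.inl B.one_mem
      mul_mem' := by
        rintro x y (hx | hx) (hy | hy)
        · exact Or.inl (B.mul_mem hx hy)
        · right
          rw [mul_assoc]; exact B.mul_mem hx hy
        · right
          have : x * y * z = x * z * y := by rw [mul_assoc, h.cent y hy, mul_assoc]
          rw [this]; exact B.mul_mem hx hy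
        · left
          have : x * y = x * z * (y * z) := by
            rw [hc y hy, mul_assoc x z, ← mul_assoc z z, hzz, one_mul]
          rw [this]; exact B.mul_mem hx hy
      inv_mem' := by
        rintro x (hx | hx)
        · exact Or.inl (B.inv_mem hx)
        · right
          have : x⁻¹ * z = (x * z)⁻¹ := by
            rw [hc x hx, mul_inv_rev, inv_eq_of_mul_eq_one_left hzz]
          rw [this]; exact B.inv_mem hx }
  have hle : B ≤ B' := fun x hx => Or.inl hx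
  have hM : Maxi z B' := by
    refine ⟨?_, ?_, ?_⟩
    · rintro x (hx | hx)
      · exact h.cent x hx
      · exact hc x hx
    · rintro x (hx | hx)
      · exact h.sq x hx
      · have h1 := h.sq _ hx
        have h2 : x * z * (x * z) = x * x := by
          rw [hc x hx]
          calc z * x * (z * x) = z * (x * z) * x := by group
            _ = (z * z) * (x * x) := by rw [hc x hx]; group
            _ = x * x := by rw [hzz, one_mul]
        rw [← h2]; exact h1
    · exact h.card.trans (Nat.card_le_card_of_injective _ (Subgroup.inclusion_injective hle))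
  have hz' : z ∈ B' := Or.inr (by rw [hzz]; exact B.one_mem)
  have h1 := (struct L hnwc even hM hz').1
  have h2 : B = B' := Subgroup.eq_of_le_of_card_ge hle (by rw [h1]; exact h.card)
  rw [h2]; exact hz'

theorem eq_of_norm' {B B' : Subgroup G} (h : Maxi z B) (h' : Maxi z B')
    (hn : ∀ b ∈ B, ∀ x ∈ B', b * x * b⁻¹ ∈ B') : B = B' :=
  eq_of_norm L hnwc even h (z_mem L hnwc even h) h' (z_mem L hnwc even h') hn

/-- a 2-group mapping injectively: uniqueness -/
theorem normal_of_maxi {T : Type*} [Group T] [Finite T] (hT : IsPGroup 2 T) (j : T →* G)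
    (hj : Function.Injective j) {A : Subgroup T} (hA : Maxi z (A.map j)) (hc : ∀ x, j x * z = z * j x) :
    A.Normal := by
  have : Fact (Nat.Prime 2) := ⟨Nat.prime_two⟩
  have hnil : Group.IsNilpotent T := hT.isNilpotent
  rw [← Subgroup.normalizer_eq_top_iff]
  by_contra hne
  have h1 := Group.normalizerCondition_of_isNilpotent _ (lt_top_iff_ne_top.2 hne)
  obtain ⟨g, hg, hg'⟩ := SetLike.exists_of_lt h1
  apply hg'
  have hM : Maxi z ((A.map (MulAut.conj g).toMonoidHom).map j) := by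
    refine ⟨?_, ?_, ?_⟩
    · rintro _ ⟨x, -, rfl⟩
      exact hc x
    · rintro _ ⟨_, ⟨x, hx, rfl⟩, rfl⟩
      have h2 := hA.sq _ ⟨x, hx, rfl⟩
      rw [← map_mul] at h2 ⊢
      have h3 : x * x = 1 := hj (h2.trans (map_one j).symm)
      have h4 : (MulAut.conj g).toMonoidHom x * (MulAut.conj g).toMonoidHom x = 1 := by
        rw [← map_mul, h3, map_one]
      rw [h4, map_one]
    · rw [Subgroup.card_map_of_injective hj, Subgroup.card_map_of_injective (MulAut.conj g).injective,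
        ← Subgroup.card_map_of_injective hj]
      exact hA.card
  have heq := eq_of_norm' L hnwc even hM hA (by
    rintro _ ⟨_, ⟨x, hx, rfl⟩, rfl⟩ _ ⟨y, hy, rfl⟩
    rw [← map_mul, ← map_inv, ← map_mul]
    refine ⟨_, ?_, rfl⟩
    have h2 : g * x * g⁻¹ ∈ Subgroup.normalizer (A : Set T) :=
      (Subgroup.mem_normalizer_iff.1 hg x).1 (Subgroup.le_normalizer hx)
    exact (Subgroup.mem_normalizer_iff.1 h2 y).1 hy)
  have h2 : A.map (MulAut.conj g).toMonoidHom = A := Subgroup.map_injective hj heq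
  rw [Subgroup.mem_normalizer_iff]
  intro x
  constructor
  · intro hx
    have h3 : g * x * g⁻¹ ∈ A.map (MulAut.conj g).toMonoidHom := ⟨x, hx, rfl⟩
    rwa [h2] at h3
  · intro hx
    have h4 : g * x * g⁻¹ ∈ A := hx
    rw [← h2] at h4
    obtain ⟨y, hy, h3⟩ := h4
    have h5 : g * y * g⁻¹ = g * x * g⁻¹ := h3
    have h6 : y = x := mul_left_cancel (mul_right_cancel h5)
    rw [← h6]; exact hy

theorem eq_of_maxi {T : Type*} [Group T] [Finite T] (hT : IsPGroup 2 T) (j : T →* G)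
    (hj : Function.Injective j) {A A' : Subgroup T} (hA : Maxi z (A.map j)) (hA' : Maxi z (A'.map j))
    (hc : ∀ x, j x * z = z * j x) : A' = A := by
  have hn := normal_of_maxi L hnwc even hT j hj hA hc
  apply Subgroup.map_injective hj
  apply eq_of_norm' L hnwc even hA' hA
  rintro _ ⟨x, hx, rfl⟩ _ ⟨y, hy, rfl⟩
  rw [← map_mul, ← map_inv, ← map_mul]
  exact ⟨_, hn.conj_mem y hy x, rfl⟩

end

/-- Let G be a finite group of large Fischer type at the involution z: the generalized Fitting subgroup Q of H = C_G(z) is extraspecial of order 2^13, H has normal subgroups Q ≤ H₁ ≤ H₂ with H₁/Q of order 3, H₂/H₁ the projective special unitary group of dimension 4 over the field with nine elements and H₂ of index 2 in H, and some conjugate of z other than z lies in Q. Let T be a Sylow 2-subgroup of H. Then T has exactly one elementary abelian subgroup A of largest order; A has order 2^11, it meets Q in a subgroup of order 2^7, and its image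 in H/Q has order 16. -/
theorem result {G : Type*} [Group G] [Finite G] (z : G) (Q : Subgroup (Subgroup.centralizer ({z} : Set G))) [Q.Normal] (hF : Cfsg.IsOfLargeFischerTypeAt z Q) (T : Sylow 2 ↥(Subgroup.centralizer ({z} : Set G))) : ∃ A : Subgroup ↥(T : Subgroup (Subgroup.centralizer ({z} : Set G))), Cfsg.maxElementaryAbelianSubgroups 2 ↥(T : Subgroup (Subgroup.centralizer ({z} : Set G))) = {A} ∧ Nat.card A = 2 ^ 11 ∧ Nat.card ↥(A.map (T : Subgroup (Subgroup.centralizer ({z} : Set G))).subtype ⊓ Q) = 2 ^ 7 ∧ Nat.card ↥((A.map (T : Subgroup (Subgroup.centralizer ({z} : Set G))).subtype).map (QuotientGroup.mk' Q)) = 16 := by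
  have : Fact (Nat.Prime 2) := ⟨Nat.prime_two⟩
  obtain ⟨M, L, -, -, -, hnwc, even⟩ := H824.FiBase.exists_lab z Q hF
  let j : ↥(T : Subgroup (Subgroup.centralizer ({z} : Set G))) →* G := (Subgroup.centralizer ({z} : Set G)).subtype.comp (T : Subgroup (Subgroup.centralizer ({z} : Set G))).subtype
  have hj : Function.Injective j := Subtype.val_injective.comp Subtype.val_injective
  have hjc : ∀ x, j x * z = z * j x := fun x =>
    Subgroup.mem_centralizer_singleton_iff.1 (x : Subgroup.centralizer ({z} : Set G)).2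
  have hTp : IsPGroup 2 ↥(T : Subgroup (Subgroup.centralizer ({z} : Set G))) := T.isPGroup'
  -- elementary abelian subgroups of order at least `2 ^ 11`
  have hmaxi : ∀ A : Subgroup ↥(T : Subgroup (Subgroup.centralizer ({z} : Set G))), IsElementaryAbelian 2 A → 2 ^ 11 ≤ Nat.card A →
      Maxi z (A.map j) := by
    intro A hA hcard
    refine ⟨?_, ?_, ?_⟩
    · rintro _ ⟨x, -, rfl⟩
      exact hjc x
    · rintro _ ⟨x, hx, rfl⟩
      have h1 := hA.2 x hx
      rw [pow_two] at h1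
      rw [← map_mul, h1, map_one]
    · rwa [Subgroup.card_map_of_injective hj]
  -- existence
  obtain ⟨A, hA⟩ : ∃ A : Subgroup ↥(T : Subgroup (Subgroup.centralizer ({z} : Set G))), Maxi z (A.map j) := by
    have h0 := maxi_AA L hnwc even
    set B0 := AA L N0 with hB0
    have hB0C : B0 ≤ Subgroup.centralizer ({z} : Set G) := fun x hx => Subgroup.mem_centralizer_singleton_iff.2 (h0.cent x hx)
    have hp : IsPGroup 2 (B0.subgroupOf (Subgroup.centralizer ({z} : Set G))) := by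
      intro y
      refine ⟨1, Subtype.ext (Subtype.ext ?_)⟩
      show ((y : Subgroup.centralizer ({z} : Set G)) : G) ^ (2 ^ 1) = 1
      rw [pow_one, pow_two]
      exact h0.sq _ y.2
    obtain ⟨P, hP⟩ := hp.exists_le_sylow
    obtain ⟨g, hg⟩ := MulAction.exists_smul_eq (Subgroup.centralizer ({z} : Set G)) P T
    have hmem : ∀ x : Subgroup.centralizer ({z} : Set G), x ∈ B0.subgroupOf (Subgroup.centralizer ({z} : Set G)) → g * x * g⁻¹ ∈ (T : Subgroup (Subgroup.centralizer ({z} : Set G))) := by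
      intro x hx
      rw [← hg]
      exact ⟨x, hP hx, rfl⟩
    let f : ↥(B0.subgroupOf (Subgroup.centralizer ({z} : Set G))) →* ↥(T : Subgroup (Subgroup.centralizer ({z} : Set G))) :=
      { toFun := fun x => ⟨g * x * g⁻¹, hmem x x.2⟩
        map_one' := Subtype.ext (by
          show g * 1 * g⁻¹ = 1
          group)
        map_mul' := fun x y => Subtype.ext (by
          show g * (x * y : Subgroup.centralizer ({z} : Set G)) * g⁻¹ = g * x * g⁻¹ * (g * y * g⁻¹)
          group) }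
    have hf : Function.Injective f := by
      intro x y h
      have h1 : g * (x : Subgroup.centralizer ({z} : Set G)) * g⁻¹ = g * y * g⁻¹ := congrArg Subtype.val h
      exact Subtype.ext (mul_left_cancel (mul_right_cancel h1))
    refine ⟨f.range, ?_, ?_, ?_⟩
    · rintro _ ⟨x, -, rfl⟩
      exact hjc x
    · rintro _ ⟨_, ⟨x, rfl⟩, rfl⟩
      have h1 : x * x = 1 := Subtype.ext (Subtype.ext (h0.sq _ x.2))
      rw [← map_mul, ← map_mul, h1, map_one, map_one]
    · rw [Subgroup.card_map_of_injective hj]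
      have h1 : Nat.card f.range = Nat.card ↥(B0.subgroupOf (Subgroup.centralizer ({z} : Set G))) :=
        (Nat.card_congr (MonoidHom.ofInjective hf).toEquiv).symm
      rw [h1, Nat.card_congr (Subgroup.subgroupOfEquivOfLe hB0C).toEquiv]
      exact h0.card
  have hs := struct L hnwc even hA (z_mem L hnwc even hA)
  have hcA : Nat.card A = 2 ^ 11 := by
    rw [← hs.1, Subgroup.card_map_of_injective hj]
  have hEA : IsElementaryAbelian 2 A := by
    have hsq : ∀ x ∈ A, x * x = 1 := by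
      intro x hx
      apply hj
      rw [map_mul, map_one]
      exact hA.sq _ ⟨x, hx, rfl⟩
    refine ⟨⟨⟨fun a b => Subtype.ext (comm_of_sq hsq a.2 b.2)⟩⟩, fun a ha => ?_⟩
    rw [pow_two]; exact hsq a ha
  have hcard7 : Nat.card ↥(A.map (T : Subgroup (Subgroup.centralizer ({z} : Set G))).subtype ⊓ Q) =
      2 ^ 7 := by
    have h1 := Subgroup.card_map_of_injective
      (K := A.map (T : Subgroup (Subgroup.centralizer ({z} : Set G))).subtype ⊓ Q)
      (Subgroup.subtype_injective (Subgroup.centralizer ({z} : Set G)))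
    rw [Subgroup.map_inf _ _ _ (Subgroup.subtype_injective _), Subgroup.map_map] at h1
    rw [← h1]
    exact hs.2.1
  refine ⟨A, ?_, hcA, hcard7, ?_⟩
  · ext A'
    rw [Set.mem_singleton_iff]
    constructor
    · rintro ⟨h1, h2⟩
      have h3 := h2 A hEA
      rw [hcA] at h3
      exact eq_of_maxi L hnwc even hTp j hj hA (hmaxi A' h1 h3) hjc
    · rintro rfl
      refine ⟨hEA, fun B hB => ?_⟩
      by_contra hlt
      push Not at hlt
      have h3 := eq_of_maxi L hnwc even hTp j hj hA (hmaxi B hB (by rw [← hcA]; exact hlt.le)) hjc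
      rw [h3] at hlt
      exact lt_irrefl _ hlt
  · have h1 := H824.FiStab.card_map_mk Q (A.map (T : Subgroup (Subgroup.centralizer ({z} : Set G))).subtype)
    rw [inf_comm, hcard7, Subgroup.card_map_of_injective (Subgroup.subtype_injective _), hcA] at h1
    have h2 : (2 : ℕ) ^ 11 = 16 * 2 ^ 7 := by norm_num
    rw [h2] at h1
    exact Nat.eq_of_mul_eq_mul_right (by norm_num) h1

end Cfsg.Agent.S5444
end
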