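import Cfsg.Agent.H827.FStar
import Cfsg.Agent.H237.EvenFi
import Cfsg.Agent.KFacts.FiTT.AllPairs
import Cfsg.Statements.S5449
import Cfsg.Agent.H827.Bridge
import Cfsg.Agent.FastGrp
import Cfsg.Agent.Prune
set_option linter.all false
prune_inst 0x7ffcfeffeff8bddeffff7e7fffffdffffdfdfffffffffffbfffdffffefdfff6ffff5fbefffefdbfffff7f2befbfe7bfbfffffeffefffff7ffffffffcffffff9fffffffbf7fffbfffdfff7fffffffffdfffffffffffffffffffffffffffffffffffffffffffff
open scoped Cfsg.Agent.FastGrp

-- part: H827/TripleAbs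
section
/-!
# Four-groups with quasisimple centralizer (helper827)

`TD Φ E` : `E` is a four-group of `G`, `C(E)` is perfect and `C(E)/E ≅ Φ`.
-/

set_option autoImplicit false

namespace Cfsg.Agent.H827.TripleAbs

open Subgroup Cfsg

universe u v

/-- `C(E)` is a perfect extension of `Φ` by the four-group `E` -/
structure TD (Φ : Type v) [Group Φ] {G : Type u} [Group G] (E : Subgroup G) : Prop where
  sq : ∀ x ∈ E, x * x = 1
  comm : ∀ x ∈ E, ∀ y ∈ E, x * y = y * x
  card : Nat.card ↥E = 4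
  perf : commutator ↥(centralizer (E : Set G)) = ⊤
  map : ∃ π : ↥(centralizer (E : Set G)) →* Φ, Function.Surjective π ∧ ∀ x, π x = 1 ↔ (x : G) ∈ E

/-- `C = [C, C]⟨u⟩` if `C` maps onto a perfect group with kernel `{1, u}` -/
theorem comm_or {C D : Type*} [Group C] [Group D] (ρ : C →* D) (hs : Function.Surjective ρ)
    (hD : commutator D = ⊤) {u : C} (hu : u * u = 1) (hk : ∀ x, ρ x = 1 → x = 1 ∨ x = u) (x : C) :
    x ∈ commutator C ∨ x * u ∈ commutator C := by
  have h1 : ρ x ∈ (commutator C).map ρ := by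
    rw [commutator_def, map_commutator, ← MonoidHom.range_eq_map, MonoidHom.range_eq_top.2 hs, ← commutator_def, hD]
    trivial
  obtain ⟨y, hy, hxy⟩ := h1
  have h2 : ρ (y⁻¹ * x) = 1 := by rw [map_mul, map_inv, hxy, inv_mul_cancel]
  rcases hk _ h2 with h | h
  · left
    rw [inv_mul_eq_one] at h
    rw [← h]
    exact hy
  · right
    rw [inv_mul_eq_iff_eq_mul] at h
    rw [h, mul_assoc, hu, mul_one]
    exact hy

namespace TD

variable {Φ : Type v} [Group Φ] {G : Type u} [Group G] {E : Subgroup G} (D : TD Φ E)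

include D

theorem elem : IsElementaryAbelian 2 E := by
  refine ⟨⟨⟨?_⟩⟩, ?_⟩
  · rintro ⟨a, ha⟩ ⟨b, hb⟩
    exact Subtype.ext (D.comm a ha b hb)
  · intro a ha
    rw [pow_two, D.sq a ha]

theorem sub_normal : (E.subgroupOf (centralizer (E : Set G))).Normal := by
  constructor
  intro n hn c
  rw [mem_subgroupOf] at hn ⊢
  have h1 := mem_centralizer_iff.1 c.2 n hn
  have h2 : ((c * n * c⁻¹ : ↥(centralizer (E : Set G))) : G) = n := by
    show (c : G) * n * (c : G)⁻¹ = n
    rw [← h1, mul_inv_cancel_right]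
  rw [h2]
  exact hn

/-- transport -/
theorem comap {H : Type*} [Group H] (e : H ≃* G) : TD Φ (E.comap e.toMonoidHom) := by
  have hc : ∀ x : H, x ∈ centralizer ((E.comap e.toMonoidHom : Subgroup H) : Set H) ↔
      e x ∈ centralizer (E : Set G) := by
    intro x
    rw [mem_centralizer_iff, mem_centralizer_iff]
    constructor
    · intro h y hy
      have h1 := h (e.symm y) (by
        show e (e.symm y) ∈ E
        rw [e.apply_symm_apply]
        exact hy)
      have h2 := congrArg e h1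
      rwa [map_mul, map_mul, e.apply_symm_apply] at h2
    · intro h y hy
      apply e.injective
      rw [map_mul, map_mul]
      exact h _ hy
  let f : ↥(centralizer ((E.comap e.toMonoidHom : Subgroup H) : Set H)) ≃* ↥(centralizer (E : Set G)) :=
    { toFun := fun x => ⟨e x, (hc x).1 x.2⟩
      invFun := fun y => ⟨e.symm y, (hc _).2 (by rw [e.apply_symm_apply]; exact y.2)⟩
      left_inv := fun x => Subtype.ext (e.symm_apply_apply _)
      right_inv := fun y => Subtype.ext (e.apply_symm_apply _)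
      map_mul' := fun x y => Subtype.ext (map_mul e _ _) }
  refine ⟨?_, ?_, ?_, ?_, ?_⟩
  · intro x hx
    apply e.injective
    rw [map_mul, map_one]
    exact D.sq _ hx
  · intro x hx y hy
    apply e.injective
    rw [map_mul, map_mul]
    exact D.comm _ hx _ hy
  · rw [← D.card]
    exact Nat.card_congr
      { toFun := fun x => ⟨e x, x.2⟩
        invFun := fun y => ⟨e.symm y, by
          show e (e.symm y) ∈ E
          rw [e.apply_symm_apply]
          exact y.2⟩
        left_inv := fun x => Subtype.ext (e.symm_apply_apply _)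
        right_inv := fun y => Subtype.ext (e.apply_symm_apply _) }
  · have h1 : (commutator ↥(centralizer (E : Set G))).map f.symm.toMonoidHom = commutator _ := by
      rw [commutator_def, map_commutator, ← MonoidHom.range_eq_map,
        MonoidHom.range_eq_top.2 f.symm.surjective, ← commutator_def]
    rw [← h1, D.perf, ← MonoidHom.range_eq_map]
    exact MonoidHom.range_eq_top.2 f.symm.surjective
  · obtain ⟨π, h1, h2⟩ := D.map
    refine ⟨π.comp f.toMonoidHom, h1.comp f.surjective, fun x => ?_⟩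
    show π (f x) = 1 ↔ _
    rw [h2]
    rfl

theorem quo (hn : (E.subgroupOf (centralizer (E : Set G))).Normal) :
    Nonempty (↥(centralizer (E : Set G)) ⧸ E.subgroupOf (centralizer (E : Set G)) ≃* Φ) := by
  obtain ⟨π, h1, h2⟩ := D.map
  have h3 : E.subgroupOf (centralizer (E : Set G)) = π.ker := by
    ext x
    rw [MonoidHom.mem_ker, h2, mem_subgroupOf]
  exact ⟨(QuotientGroup.quotientMulEquivOfEq h3).trans (QuotientGroup.quotientKerEquivOfSurjective π h1)⟩

theorem quasi (hs : IsSimpleGroup Φ) (hc : center Φ = ⊥) : IsQuasisimple ↥(centralizer (E : Set G)) := by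
  obtain ⟨π, h1, h2⟩ := D.map
  have hz : center ↥(centralizer (E : Set G)) = π.ker := by
    apply le_antisymm
    · intro x hx
      rw [MonoidHom.mem_ker]
      have : π x ∈ center Φ := by
        rw [mem_center_iff]
        intro y
        obtain ⟨w, rfl⟩ := h1 y
        rw [← map_mul, ← map_mul, mem_center_iff.1 hx w]
      rw [hc] at this
      exact this
    · intro x hx
      rw [MonoidHom.mem_ker, h2] at hx
      rw [mem_center_iff]
      intro y
      apply Subtype.ext
      exact (mem_centralizer_iff.1 y.2 _ hx).symm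
  refine ⟨Group.isPerfect_def.2 D.perf, ?_⟩
  exact ((QuotientGroup.quotientMulEquivOfEq hz).trans
    (QuotientGroup.quotientKerEquivOfSurjective π h1)).isSimpleGroup

end TD

end Cfsg.Agent.H827.TripleAbs
end

-- part: H827/Triple
section
/-!
# The centralizer in `Fi24'` of three commuting transpositions (helper827)

`td` : for pairwise commuting distinct transpositions `a, b, c` of `Fi24` and `E = {1, ab, ac, bc}`,
`C_{Fi24'}(E) = C_{Fi24'}(a, b, c)` is a perfect extension of `U6(2)` by `E`.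
-/

set_option autoImplicit false

namespace Cfsg.Agent.H827.Triple

open Cfsg Cfsg.Spor Cfsg.Agent.R08 Cfsg.Agent.R08.FiTwentyFour Cfsg.Agent.CTwoTab.FiTF
open Cfsg.Agent.H827.TripleAbs Cfsg.Agent.R01
open Subgroup

local notation "Pr" => Cfsg.Agent.R08.TetFi24A.At
local notation "Nb" => Cfsg.Agent.R08.TetFi24A.Nb

/-- the centralizer of `a`, `b`, `c` in `Fi24'` -/
def C3 (a b c : Fi24) : Subgroup Spor.Fi24' :=
  (centralizer ({a, b, c} : Set Fi24)).comap (commutator Fi24).subtype

theorem mem_C3 {a b c : Fi24} {x : Spor.Fi24'} : x ∈ C3 a b c ↔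
    (x : Fi24) * a = a * x ∧ (x : Fi24) * b = b * x ∧ (x : Fi24) * c = c * x := by
  unfold C3
  rw [mem_comap, mem_centralizer_iff]
  constructor
  · intro h
    exact ⟨(h a (by simp)).symm, (h b (by simp)).symm, (h c (by simp)).symm⟩
  · rintro ⟨h1, h2, h3⟩ y hy
    rcases hy with rfl | rfl | hy
    · exact h1.symm
    · exact h2.symm
    · rw [Set.mem_singleton_iff.1 hy]
      exact h3.symm

theorem C3_comm (a b c : Fi24) : C3 a b c = C3 a c b := by
  ext x
  rw [mem_C3, mem_C3]
  tauto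

theorem C3_rot (a b c : Fi24) : C3 a b c = C3 b c a := by
  ext x
  rw [mem_C3, mem_C3]
  tauto

section one

variable {a b c : Fi24} (P : Pr a b) (hc : Nb a b c)

/-- the transposition of `Fi22` -/
def tau : Fi22 := P.π (P.x hc)

theorem mem_Cab_of {x : Spor.Fi24'} (hx : x ∈ C3 a b c) : (x : Fi24) ∈ Cab a b := by
  rw [mem_Cab]
  exact ⟨mem_commutator_iff.1 x.2, (mem_C3.1 hx).1, (mem_C3.1 hx).2.1⟩

/-- the homomorphism to the centralizer of a transposition of `Fi22` -/
noncomputable def rho : ↥(C3 a b c) →* ↥(centralizer ({tau P hc} : Set Fi22)) :=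
  ((P.π.comp (((commutator Fi24).subtype.comp (C3 a b c).subtype).codRestrict (Cab a b)
    fun x => mem_Cab_of x.2))).codRestrict _ fun x => by
      rw [mem_centralizer_singleton_iff]
      show P.π _ * P.π _ = P.π _ * P.π _
      rw [← map_mul, ← map_mul]
      congr 1
      apply Subtype.ext
      show ((x : Spor.Fi24') : Fi24) * (a * c) = a * c * ((x : Spor.Fi24') : Fi24)
      obtain ⟨h1, -, h3⟩ := mem_C3.1 x.2
      rw [← mul_assoc, h1, mul_assoc, h3, mul_assoc]

theorem coe_rho (x : ↥(C3 a b c)) : (rho P hc x : Fi22) = P.π ⟨((x : Spor.Fi24') : Fi24), mem_Cab_of x.2⟩ := rfl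

theorem rho_surj : Function.Surjective (rho P hc) := by
  rintro ⟨y, hy⟩
  obtain ⟨w, rfl⟩ := P.lift.ext.surj y
  rw [mem_centralizer_singleton_iff] at hy
  have h1 : w * P.x hc * w⁻¹ = P.x hc := by
    apply P.lift.inj _ (P.lift.conj w _ (P.x_mem hc)) _ (P.x_mem hc)
    rw [map_mul, map_mul, map_inv, show P.π w * P.π (P.x hc) = P.π (P.x hc) * P.π w from hy, mul_inv_cancel_right]
  have h2 : (w : Fi24) * (a * c) = a * c * w := congrArg Subtype.val (mul_inv_eq_iff_eq_mul.1 h1)
  obtain ⟨hw0, hw1, hw2⟩ := mem_Cab.1 w.2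
  have h3 : (w : Fi24) * c = c * w := by
    have h4 : a * ((w : Fi24) * c) = a * (c * w) := by
      rw [← mul_assoc, ← hw1, mul_assoc, h2, mul_assoc]
    exact mul_left_cancel h4
  have hmem : (⟨(w : Fi24), Cab_le w.2⟩ : Spor.Fi24') ∈ C3 a b c := mem_C3.2 ⟨hw1, hw2, h3⟩
  exact ⟨⟨_, hmem⟩, Subtype.ext rfl⟩

theorem mem_ker_rho (x : ↥(C3 a b c)) : rho P hc x = 1 ↔
    ((x : Spor.Fi24') : Fi24) = 1 ∨ ((x : Spor.Fi24') : Fi24) = a * b := by
  rw [← OneMemClass.coe_eq_one, coe_rho, P.lift.ext.ker]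
  constructor
  · rintro (h | h)
    · left; exact congrArg Subtype.val h
    · right; rw [← P.hz]; exact congrArg Subtype.val h
  · rintro (h | h)
    · left; exact Subtype.ext h
    · right; apply Subtype.ext; rw [P.hz]; exact h

end one

/-- products of two transpositions in `Fi24'` -/
def pr {a b : Fi24} (ha : a ∈ L) (hb : b ∈ L) : Spor.Fi24' := ⟨a * b, even ha hb⟩

theorem coe_pr {a b : Fi24} (ha : a ∈ L) (hb : b ∈ L) : ((pr ha hb : Spor.Fi24') : Fi24) = a * b := rfl

/-- `a b` acts trivially on `a`, `b`, `c` -/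
theorem pr_mem {a b c : Fi24} (ha : a ∈ L) (hb : b ∈ L) (ab : Commute a b) (ca : Commute c a) (cb : Commute c b) :
    pr ha hb ∈ C3 a b c := by
  rw [mem_C3, coe_pr]
  refine ⟨?_, ?_, ?_⟩
  · rw [mul_assoc, ab.symm.eq, ← mul_assoc]
  · rw [← mul_assoc b a b, ← ab.eq]
  · rw [← mul_assoc c, ca.eq, mul_assoc, mul_assoc, cb.eq]

theorem pr_sq {a b : Fi24} (ha : a ∈ L) (hb : b ∈ L) (ab : Commute a b) : pr ha hb * pr ha hb = 1 := by
  apply Subtype.ext
  show a * b * (a * b) = 1
  calc a * b * (a * b) = a * (b * a) * b := by group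
    _ = a * (a * b) * b := by rw [ab.eq]
    _ = (a * a) * (b * b) := by group
    _ = 1 := by rw [FiTwentyFour.sq ha, FiTwentyFour.sq hb, one_mul]

/-- four pairwise commuting distinct transpositions -/
structure Quad (a b c d : Fi24) : Prop where
  ha : a ∈ L
  hb : b ∈ L
  hc : c ∈ L
  hd : d ∈ L
  ab : Commute a b
  ac : Commute a c
  ad : Commute a d
  bc : Commute b c
  bd : Commute b d
  cd : Commute c d
  nab : a ≠ b
  nac : a ≠ c
  nad : a ≠ d
  nbc : b ≠ c
  nbd : b ≠ d
  ncd : c ≠ d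

namespace Quad

variable {a b c d : Fi24} (Q : Quad a b c d)

include Q

theorem swap : Quad a c b d :=
  ⟨Q.ha, Q.hc, Q.hb, Q.hd, Q.ac, Q.ab, Q.ad, Q.bc.symm, Q.cd, Q.bd, Q.nac, Q.nab, Q.nad, Q.nbc.symm, Q.ncd, Q.nbd⟩

theorem rot : Quad b c a d :=
  ⟨Q.hb, Q.hc, Q.ha, Q.hd, Q.bc, Q.ab.symm, Q.bd, Q.ac.symm, Q.cd, Q.ad, Q.nbc, Q.nab.symm, Q.nbd, Q.nac.symm,
    Q.ncd, Q.nad⟩

theorem nb : Nb a b c := ⟨Q.hc, Q.ac.symm, Q.bc.symm, Q.nac.symm, Q.nbc.symm⟩

theorem nbd' : Nb a b d := ⟨Q.hd, Q.ad.symm, Q.bd.symm, Q.nad.symm, Q.nbd.symm⟩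

/-- the facts on `Fi22` at the images of `ac`, `ad` -/
theorem facts (P : Pr a b) : ∃ R, KFacts.FiTT.Facts Fi22 (tau P Q.nb) (tau P Q.nbd') R := by
  have hTK : KFacts.FiTT.TK (MulEquiv.refl Fi22) = Fi22Facts.T := by
    unfold KFacts.FiTT.TK
    ext x
    constructor
    · rintro ⟨y, hy, rfl⟩
      exact hy
    · intro hx
      exact ⟨x, hx, rfl⟩
  apply KFacts.FiTT.facts_of_iso (MulEquiv.refl Fi22)
  · rw [hTK]; exact P.π_mem _
  · rw [hTK]; exact P.π_mem _
  · intro h
    exact Q.ncd (P.x_eq _ _ h)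
  · exact (P.comm_iff _ _).2 Q.cd

theorem rel (P : Pr a b) : ∀ x ∈ C3 a b c, x ∈ ⁅C3 a b c, C3 a b c⁆ ∨ x * pr Q.ha Q.hb ∈ ⁅C3 a b c, C3 a b c⁆ := by
  obtain ⟨R, F⟩ := Q.facts P
  intro x hx
  have h1 := comm_or (rho P Q.nb) (rho_surj P Q.nb) F.quasi.1.commutator_eq_top
    (u := ⟨pr Q.ha Q.hb, pr_mem Q.ha Q.hb Q.ab Q.ac.symm Q.bc.symm⟩)
    (Subtype.ext (pr_sq Q.ha Q.hb Q.ab)) (fun y hy => by
      rcases (mem_ker_rho P Q.nb y).1 hy with h | h
      · left; exact Subtype.ext (Subtype.ext h)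
      · right; exact Subtype.ext (Subtype.ext h)) ⟨x, hx⟩
  have h2 : (commutator ↥(C3 a b c)).map (C3 a b c).subtype = ⁅C3 a b c, C3 a b c⁆ :=
    map_subtype_commutator _
  rw [← h2]
  rcases h1 with h | h
  · left; exact ⟨_, h, rfl⟩
  · right; exact ⟨_, h, rfl⟩

/-- the four-group -/
def E : Subgroup Spor.Fi24' where
  carrier := {x | x = 1 ∨ x = pr Q.ha Q.hb ∨ x = pr Q.ha Q.hc ∨ x = pr Q.hb Q.hc}
  one_mem' := Or.inl rfl
  mul_mem' := by
    have e1 : pr Q.ha Q.hb * pr Q.ha Q.hc = pr Q.hb Q.hc := by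
      apply Subtype.ext
      show a * b * (a * c) = b * c
      calc a * b * (a * c) = a * (b * a) * c := by group
        _ = a * (a * b) * c := by rw [Q.ab.eq]
        _ = (a * a) * (b * c) := by group
        _ = b * c := by rw [FiTwentyFour.sq Q.ha, one_mul]
    have e2 : pr Q.ha Q.hc * pr Q.ha Q.hb = pr Q.hb Q.hc := by
      apply Subtype.ext
      show a * c * (a * b) = b * c
      calc a * c * (a * b) = a * (c * a) * b := by group
        _ = a * (a * c) * b := by rw [Q.ac.eq]
        _ = (a * a) * (c * b) := by group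
        _ = b * c := by rw [FiTwentyFour.sq Q.ha, one_mul, Q.bc.eq]
    have s1 := pr_sq Q.ha Q.hb Q.ab
    have s2 := pr_sq Q.ha Q.hc Q.ac
    have s3 := pr_sq Q.hb Q.hc Q.bc
    generalize pr Q.ha Q.hb = u at *
    generalize pr Q.ha Q.hc = v at *
    generalize pr Q.hb Q.hc = w at *
    have e3 : u * w = v := by rw [← e1, ← mul_assoc, s1, one_mul]
    have e4 : v * w = u := by rw [← e2, ← mul_assoc, s2, one_mul]
    have e5 : w * u = v := by rw [← e2, mul_assoc, s1, mul_one]
    have e6 : w * v = u := by rw [← e1, mul_assoc, s2, mul_one]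
    rintro x y (rfl | rfl | rfl | rfl) (rfl | rfl | rfl | rfl) <;>
      simp only [mul_one, one_mul, e1, e2, e3, e4, e5, e6, s1, s2, s3, Set.mem_ofPred_eq, true_or, or_true]
  inv_mem' := by
    have s1 := inv_eq_of_mul_eq_one_left (pr_sq Q.ha Q.hb Q.ab)
    have s2 := inv_eq_of_mul_eq_one_left (pr_sq Q.ha Q.hc Q.ac)
    have s3 := inv_eq_of_mul_eq_one_left (pr_sq Q.hb Q.hc Q.bc)
    rintro x (rfl | rfl | rfl | rfl)
    · left; exact inv_one
    · right; left; exact s1
    · right; right; left; exact s2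
    · right; right; right; exact s3

theorem mem_E {x : Spor.Fi24'} : x ∈ Q.E ↔ x = 1 ∨ x = pr Q.ha Q.hb ∨ x = pr Q.ha Q.hc ∨ x = pr Q.hb Q.hc :=
  Iff.rfl

/-- `C(E) = C(a, b, c)` -/
theorem cent : centralizer (Q.E : Set Spor.Fi24') = C3 a b c := by
  obtain ⟨P⟩ := TetFi24A.exists_at Q.ha Q.hb Q.nab Q.ab
  obtain ⟨P'⟩ := TetFi24A.exists_at Q.ha Q.hc Q.nac Q.ac
  ext x
  constructor
  · intro hx
    have h1 : x * pr Q.ha Q.hb = pr Q.ha Q.hb * x :=
      (mem_centralizer_iff.1 hx _ (Q.mem_E.2 (Or.inr (Or.inl rfl)))).symm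
    have h2 : x * pr Q.ha Q.hc = pr Q.ha Q.hc * x :=
      (mem_centralizer_iff.1 hx _ (Q.mem_E.2 (Or.inr (Or.inr (Or.inl rfl))))).symm
    have h3 := fix_or_swap P (t := pr Q.ha Q.hb) rfl (mem_centralizer_singleton_iff.2 h1)
    have h4 := fix_or_swap P' (t := pr Q.ha Q.hc) rfl (mem_centralizer_singleton_iff.2 h2)
    rw [mem_C3]
    rcases h3 with ⟨h3, h5⟩ | ⟨h3, h5⟩
    · rcases h4 with ⟨h4, h6⟩ | ⟨h4, h6⟩
      · exact ⟨mul_inv_eq_iff_eq_mul.1 h3, mul_inv_eq_iff_eq_mul.1 h5, mul_inv_eq_iff_eq_mul.1 h6⟩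
      · exact absurd (h3.symm.trans h4) Q.nac
    · rcases h4 with ⟨h4, h6⟩ | ⟨h4, h6⟩
      · exact absurd (h4.symm.trans h3) Q.nab
      · exact absurd (h3.symm.trans h4) Q.nbc
  · intro hx
    obtain ⟨h1, h2, h3⟩ := mem_C3.1 hx
    have key : ∀ u v : Fi24, ∀ hu : u ∈ L, ∀ hv : v ∈ L, (x : Fi24) * u = u * x → (x : Fi24) * v = v * x →
        pr hu hv * x = x * pr hu hv := by
      intro u v hu hv e1 e2
      apply Subtype.ext
      show u * v * (x : Fi24) = x * (u * v)
      rw [mul_assoc, ← e2, ← mul_assoc, ← e1, mul_assoc]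
    rw [mem_centralizer_iff]
    intro y hy
    rcases Q.mem_E.1 hy with rfl | rfl | rfl | rfl
    · rw [one_mul, mul_one]
    · exact key _ _ _ _ h1 h2
    · exact key _ _ _ _ h1 h3
    · exact key _ _ _ _ h2 h3

theorem E_le_C3 {x : Spor.Fi24'} (hx : x ∈ Q.E) : x ∈ C3 a b c := by
  rcases Q.mem_E.1 hx with rfl | rfl | rfl | rfl
  · exact one_mem _
  · exact pr_mem Q.ha Q.hb Q.ab Q.ac.symm Q.bc.symm
  · rw [C3_comm]; exact pr_mem Q.ha Q.hc Q.ac Q.ab.symm Q.bc
  · rw [C3_rot]; exact pr_mem Q.hb Q.hc Q.bc Q.ab Q.ac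

theorem perf : ⁅C3 a b c, C3 a b c⁆ = C3 a b c := by
  obtain ⟨P1⟩ := TetFi24A.exists_at Q.ha Q.hb Q.nab Q.ab
  obtain ⟨P2⟩ := TetFi24A.exists_at Q.ha Q.hc Q.nac Q.ac
  obtain ⟨P3⟩ := TetFi24A.exists_at Q.hb Q.hc Q.nbc Q.bc
  have h1 := Q.rel P1
  have h2 := Q.swap.rel P2
  have h3 := Q.rot.rel P3
  rw [← C3_comm a b c] at h2
  rw [← C3_rot a b c] at h3
  apply le_antisymm (commutator_le_self _)
  intro x hx
  by_contra hne
  have e1 := (h1 x hx).resolve_left hne
  have e2 := (h2 x hx).resolve_left hne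
  have e3 := (h3 x hx).resolve_left hne
  have e4 := mul_mem (inv_mem e1) e2
  have e5 : (x * pr Q.ha Q.hb)⁻¹ * (x * pr Q.ha Q.hc) = pr Q.hb Q.hc := by
    rw [mul_inv_rev, inv_eq_of_mul_eq_one_left (pr_sq Q.ha Q.hb Q.ab), mul_assoc, inv_mul_cancel_left]
    apply Subtype.ext
    show a * b * (a * c) = b * c
    calc a * b * (a * c) = a * (b * a) * c := by group
      _ = a * (a * b) * c := by rw [Q.ab.eq]
      _ = (a * a) * (b * c) := by group
      _ = b * c := by rw [FiTwentyFour.sq Q.ha, one_mul]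
  rw [e5] at e4
  have e6 := mul_mem e3 (inv_mem e4)
  rw [mul_inv_cancel_right] at e6
  exact hne e6

theorem card_E : Nat.card ↥Q.E = 4 := by
  have h1 : (1 : Spor.Fi24') ≠ pr Q.ha Q.hb := fun h =>
    Q.nab (mul_right_cancel ((congrArg Subtype.val h).symm.trans (FiTwentyFour.sq Q.hb).symm))
  have h2 : (1 : Spor.Fi24') ≠ pr Q.ha Q.hc := fun h =>
    Q.nac (mul_right_cancel ((congrArg Subtype.val h).symm.trans (FiTwentyFour.sq Q.hc).symm))
  have h3 : (1 : Spor.Fi24') ≠ pr Q.hb Q.hc := fun h =>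
    Q.nbc (mul_right_cancel ((congrArg Subtype.val h).symm.trans (FiTwentyFour.sq Q.hc).symm))
  have h4 : pr Q.ha Q.hb ≠ pr Q.ha Q.hc := fun h => Q.nbc (mul_left_cancel (congrArg Subtype.val h))
  have h5 : pr Q.ha Q.hb ≠ pr Q.hb Q.hc := fun h => by
    have h6 : a * b = b * c := congrArg Subtype.val h
    rw [Q.bc.eq] at h6
    exact Q.nac (mul_right_cancel h6)
  have h6 : pr Q.ha Q.hc ≠ pr Q.hb Q.hc := fun h => Q.nab (mul_right_cancel (congrArg Subtype.val h))
  have h7 : ((Q.E : Subgroup Spor.Fi24') : Set Spor.Fi24') =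
      {1, pr Q.ha Q.hb, pr Q.ha Q.hc, pr Q.hb Q.hc} := by
    ext x
    exact Q.mem_E
  have h8 : Nat.card ↥Q.E = ((Q.E : Subgroup Spor.Fi24') : Set Spor.Fi24').ncard := rfl
  rw [h8, h7, Set.ncard_insert_of_notMem, Set.ncard_insert_of_notMem, Set.ncard_pair h6]
  · simp only [Set.mem_insert_iff, Set.mem_singleton_iff, not_or]
    exact ⟨h4, h5⟩
  · simp only [Set.mem_insert_iff, Set.mem_singleton_iff, not_or]
    exact ⟨h1, h2, h3⟩

/-- **The data at a triple** -/
theorem td : ∃ (F : Type) (_ : Field F) (_ : Fintype F), Fintype.card F = 4 ∧ TD (PSU 6 F 2) Q.E ∧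
    IsSimpleGroup (PSU 6 F 2) ∧ center (PSU 6 F 2) = ⊥ := by
  obtain ⟨P⟩ := TetFi24A.exists_at Q.ha Q.hb Q.nab Q.ab
  obtain ⟨R, F⟩ := Q.facts P
  obtain ⟨K, i1, i2, hK, ⟨φ⟩⟩ := F.quo
  have hsimp : IsSimpleGroup (PSU 6 K 2) := by
    have := F.quasi.2
    exact φ.symm.isSimpleGroup
  have hcen : center (PSU 6 K 2) = ⊥ := by
    have hna : ¬ IsMulCommutative ↥(centralizer ({tau P Q.nb} : Set Fi22)) :=
      SignalizersComponents.Components.quasisimple_not_isMulCommutative F.quasi
    rcases (inferInstance : (center (PSU 6 K 2)).Normal).eq_bot_or_eq_top with h | h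
    · exact h
    · exfalso
      -- `PSU 6 K 2` would be commutative and perfect
      have hp : commutator (PSU 6 K 2) = ⊤ := by
        have h1 : (commutator ↥(centralizer ({tau P Q.nb} : Set Fi22))).map
            (φ.toMonoidHom.comp (QuotientGroup.mk' _)) = commutator (PSU 6 K 2) := by
          rw [commutator_def, map_commutator, ← MonoidHom.range_eq_map, MonoidHom.range_eq_top.2, ← commutator_def]
          exact φ.surjective.comp (QuotientGroup.mk'_surjective _)
        rw [← h1, F.quasi.1.commutator_eq_top, ← MonoidHom.range_eq_map, MonoidHom.range_eq_top.2]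
        exact φ.surjective.comp (QuotientGroup.mk'_surjective _)
      have h2 : commutator (PSU 6 K 2) = ⊥ := by
        rw [commutator_def, eq_bot_iff, commutator_le]
        intro x _ y _
        rw [mem_bot, commutatorElement_eq_one_iff_mul_comm]
        have hx : y ∈ center (PSU 6 K 2) := by rw [h]; trivial
        exact mem_center_iff.1 hx x
      rw [hp] at h2
      have := hsimp.toNontrivial
      exact top_ne_bot h2
  refine ⟨K, i1, i2, hK, ?_, hsimp, hcen⟩
  refine ⟨?_, ?_, Q.card_E, ?_, ?_⟩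
  · intro x hx
    rcases Q.mem_E.1 hx with rfl | rfl | rfl | rfl
    · exact mul_one _
    · exact pr_sq _ _ Q.ab
    · exact pr_sq _ _ Q.ac
    · exact pr_sq _ _ Q.bc
  · intro x hx y hy
    have h1 := Q.E_le_C3 hx
    rw [← Q.cent, mem_centralizer_iff] at h1
    exact (h1 y hy).symm
  · rw [Q.cent]
    have h2 : (commutator ↥(C3 a b c)).map (C3 a b c).subtype = ⁅C3 a b c, C3 a b c⁆ :=
      map_subtype_commutator _
    rw [Q.perf] at h2
    rw [eq_top_iff]
    intro x _
    have h3 : (x : Spor.Fi24') ∈ (commutator ↥(C3 a b c)).map (C3 a b c).subtype := by rw [h2]; exact x.2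
    obtain ⟨y, hy, hxy⟩ := h3
    have : y = x := Subtype.ext hxy
    rwa [← this]
  · rw [Q.cent]
    refine ⟨(φ.toMonoidHom.comp (QuotientGroup.mk' _)).comp (rho P Q.nb),
      (φ.surjective.comp (QuotientGroup.mk'_surjective _)).comp (rho_surj P Q.nb), fun x => ?_⟩
    show φ (QuotientGroup.mk' _ (rho P Q.nb x)) = 1 ↔ _
    rw [map_eq_one_iff φ φ.injective, QuotientGroup.mk'_apply, QuotientGroup.eq_one_iff]
    have hx2 : ∀ g : Fi22, g * tau P Q.nb = tau P Q.nb * g → g = 1 ∨ g = tau P Q.nb →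
        ∀ hg : g ∈ centralizer ({tau P Q.nb} : Set Fi22),
          (⟨g, hg⟩ : ↥(centralizer ({tau P Q.nb} : Set Fi22))) ∈ center ↥(centralizer ({tau P Q.nb} : Set Fi22)) := by
      intro g _ hg' hg
      rw [mem_center_iff]
      intro y
      apply Subtype.ext
      show (y : Fi22) * g = g * y
      rcases hg' with rfl | rfl
      · rw [mul_one, one_mul]
      · exact mem_centralizer_singleton_iff.1 y.2
    constructor
    · intro h
      have h1 := F.cc (rho P Q.nb x) (fun y hy => by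
        have := mem_center_iff.1 h ⟨y, mem_centralizer_singleton_iff.2 hy⟩
        exact (congrArg Subtype.val this).symm)
      rw [Q.mem_E]
      rcases h1 with h1 | h1
      · have h2 : rho P Q.nb x = 1 := Subtype.ext h1
        rcases (mem_ker_rho P Q.nb x).1 h2 with h3 | h3
        · left; exact Subtype.ext h3
        · right; left; exact Subtype.ext h3
      · -- `x = ac` or `x = bc`
        have h2 : rho P Q.nb (x * ⟨pr Q.ha Q.hc, Q.E_le_C3 (Q.mem_E.2 (Or.inr (Or.inr (Or.inl rfl))))⟩) = 1 := by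
          apply Subtype.ext
          rw [map_mul, Subgroup.coe_mul, h1]
          have h4 : (rho P Q.nb ⟨pr Q.ha Q.hc, Q.E_le_C3 (Q.mem_E.2 (Or.inr (Or.inr (Or.inl rfl))))⟩ : Fi22)
              = tau P Q.nb := rfl
          rw [h4]
          exact F.dd
        have hsq : pr Q.ha Q.hc * pr Q.ha Q.hc = 1 := pr_sq _ _ Q.ac
        rcases (mem_ker_rho P Q.nb _).1 h2 with h3 | h3
        · right; right; left
          have h5 : (x : Spor.Fi24') * pr Q.ha Q.hc = 1 := Subtype.ext h3
          exact mul_right_cancel (h5.trans hsq.symm)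
        · right; right; right
          have h5 : (x : Spor.Fi24') * pr Q.ha Q.hc = pr Q.ha Q.hb := Subtype.ext h3
          have h6 : (x : Spor.Fi24') = pr Q.ha Q.hb * pr Q.ha Q.hc := by
            rw [← h5, mul_assoc, hsq, mul_one]
          rw [h6]
          apply Subtype.ext
          show a * b * (a * c) = b * c
          calc a * b * (a * c) = a * (b * a) * c := by group
            _ = a * (a * b) * c := by rw [Q.ab.eq]
            _ = (a * a) * (b * c) := by group
            _ = b * c := by rw [FiTwentyFour.sq Q.ha, one_mul]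
    · intro h
      have hE : ((x : Spor.Fi24')) ∈ Q.E := h
      apply hx2 _ (mem_centralizer_singleton_iff.1 (rho P Q.nb x).2)
      rcases Q.mem_E.1 hE with h1 | h1 | h1 | h1
      · left
        have h2 : rho P Q.nb x = 1 := (mem_ker_rho P Q.nb x).2 (Or.inl (congrArg Subtype.val h1))
        rw [h2]; rfl
      · left
        have h2 : rho P Q.nb x = 1 := (mem_ker_rho P Q.nb x).2 (Or.inr (congrArg Subtype.val h1))
        rw [h2]; rfl
      · right
        show P.π _ = P.π _
        congr 1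
        apply Subtype.ext
        exact congrArg (Subtype.val : Spor.Fi24' → Fi24) h1
      · right
        -- `bc = ab * ac`
        have h2 : (⟨((x : Spor.Fi24') : Fi24), mem_Cab_of x.2⟩ : ↥(Cab a b)) = P.z * P.x Q.nb := by
          apply Subtype.ext
          rw [Subgroup.coe_mul, P.hz, P.coe_x]
          show ((x : Spor.Fi24') : Fi24) = _
          rw [h1, coe_pr]
          symm
          calc a * b * (a * c) = a * (b * a) * c := by group
            _ = a * (a * b) * c := by rw [Q.ab.eq]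
            _ = (a * a) * (b * c) := by group
            _ = b * c := by rw [FiTwentyFour.sq Q.ha, one_mul]
        rw [coe_rho, h2, map_mul, P.lift.ext.mapz, one_mul]
        rfl

end Quad

end Cfsg.Agent.H827.Triple
end

-- part: S5449
section
set_option autoImplicit false
open Cfsg

namespace Cfsg.Agent.S5449

open Cfsg.Agent.H827 Cfsg.Agent.H827.Triple Cfsg.Agent.H827.TripleAbs Cfsg.Agent.R08 Cfsg.Spor Subgroup
open Cfsg.Agent.CTwoTab.FiTF
open Cfsg.Agent.KFacts.FiTF.Defs (D)

/-- the tetrad of `z0` -/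
theorem quad : Quad (D 0 0) (D 0 1) (D 0 2) (D 0 3) := by
  have h := KFacts.FiTF.Tet.isTet (t := 0) (by norm_num)
  exact ⟨h.ha, h.hb, h.hc, h.hd, h.ab, h.ac, h.ad, h.bc, h.bd, h.cd, h.nab, h.nac, h.nad, h.nbc, h.nbd, h.ncd⟩

theorem pr_mem1 : pr quad.ha quad.hb ∈ R0 := mem_subgroupOf.2 (KFacts.FiTF.RQ.x_mem (j := 0) (by norm_num))

theorem pr_mem2 : pr quad.ha quad.hc ∈ R0 := mem_subgroupOf.2 (KFacts.FiTF.RQ.x_mem (j := 1) (by norm_num))

theorem pr_mem3 : pr quad.hb quad.hc ∈ R0 := by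
  have h1 : pr quad.hb quad.hc = pr quad.ha quad.hb * pr quad.ha quad.hc := by
    apply Subtype.ext
    show D 0 1 * D 0 2 = D 0 0 * D 0 1 * (D 0 0 * D 0 2)
    have h2 := quad.ab.eq
    have h3 := FiTwentyFour.sq quad.ha
    calc D 0 1 * D 0 2 = D 0 0 * D 0 0 * (D 0 1 * D 0 2) := by rw [h3, one_mul]
      _ = D 0 0 * (D 0 0 * D 0 1) * D 0 2 := by group
      _ = D 0 0 * (D 0 1 * D 0 0) * D 0 2 := by rw [h2]
      _ = _ := by group
  rw [h1]
  exact mul_mem pr_mem1 pr_mem2

theorem E_le : quad.E ≤ R0 := by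
  intro x hx
  rcases quad.mem_E.1 hx with rfl | rfl | rfl | rfl
  · exact one_mem _
  · exact pr_mem1
  · exact pr_mem2
  · exact pr_mem3

theorem z0_ne_one : z0 ≠ 1 := by
  intro h
  exact KFacts.FiTF.frame.z1 (congrArg Subtype.val h)

theorem z0_not_mem : z0 ∉ quad.E := by
  have := FiTwentyFour.finite_Fi24
  have : Finite Spor.Fi24' := inferInstance
  intro h
  have key := @Bridge.not_isConj_pair Spor.Fi24' _ _ z0 (MulEquiv.refl _) rfl z0
  rcases quad.mem_E.1 h with h | h | h | h
  · exact z0_ne_one h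
  · exact key quad.ha quad.hb quad.nab quad.ab (congrArg Subtype.val h) (IsConj.refl _)
  · exact key quad.ha quad.hc quad.nac quad.ac (congrArg Subtype.val h) (IsConj.refl _)
  · exact key quad.hb quad.hc quad.nbc quad.bc (congrArg Subtype.val h) (IsConj.refl _)

/-- Let G be a finite group of large Fischer type at the involution z: the generalized Fitting subgroup Q of H = C_G(z) is extraspecial of order 2^13, H has normal subgroups Q ≤ H₁ ≤ H₂ with H₁/Q of order 3, H₂/H₁ the projective special unitary group of dimension 4 over the field with nine elements and H₂ of index 2 in H, and some conjugate of z other than z lies in Q. Then Q contains a four-group E, not containing z and containing an involution not conjugate to z in G, whose centralizer in G is quasisimple with quotient by E isomorphic to the projective special unitary group of dimension 6 over the field with four elements. -/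
theorem result {G : Type*} [Group G] [Finite G] (z : G) (Q : Subgroup (Subgroup.centralizer ({z} : Set G))) [Q.Normal] (hF : Cfsg.IsOfLargeFischerTypeAt z Q) : ∃ E : Subgroup G, E ≤ (Q.map (Subgroup.centralizer ({z} : Set G)).subtype) ∧ Cfsg.IsElementaryAbelian 2 E ∧ Nat.card E = 4 ∧ z ∉ E ∧ (∃ t ∈ E, orderOf t = 2 ∧ ¬ IsConj z t) ∧ Cfsg.IsQuasisimple ↥(Subgroup.centralizer (E : Set G)) ∧ ∃ (_ : (E.subgroupOf (Subgroup.centralizer (E : Set G))).Normal) (K : Type) (_ : Field K) (_ : Fintype K), Fintype.card K = 4 ∧ Nonempty (↥(Subgroup.centralizer (E : Set G)) ⧸ E.subgroupOf (Subgroup.centralizer (E : Set G)) ≃* Cfsg.PSU 6 K 2) := by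
  obtain ⟨e, hz, hQ⟩ := Bridge.exists_equiv hF
  obtain ⟨K, i1, i2, hK, D0, hsimp, hcen⟩ := quad.td
  have D := D0.comap e
  refine ⟨quad.E.comap e.toMonoidHom, ?_, D.elem, D.card, ?_, ?_, D.quasi hsimp hcen, D.sub_normal, K, i1, i2, hK,
    D.quo D.sub_normal⟩
  · intro x hx
    have h1 : e x ∈ R0 := E_le hx
    have h2 : x ∈ centralizer ({z} : Set G) := by
      rw [mem_centralizer_singleton_iff]
      apply e.injective
      rw [map_mul, map_mul, hz]
      exact mem_centralizer_singleton_iff.1 (R0_le h1)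
    exact ⟨⟨x, h2⟩, (hQ ⟨x, h2⟩).2 h1, rfl⟩
  · intro h
    have h' : e z ∈ quad.E := h
    rw [hz] at h'
    exact z0_not_mem h'
  · refine ⟨e.symm (pr quad.ha quad.hb), ?_, ?_, ?_⟩
    · show e (e.symm (pr quad.ha quad.hb)) ∈ quad.E
      rw [e.apply_symm_apply]
      exact quad.mem_E.2 (Or.inr (Or.inl rfl))
    · rw [MulEquiv.orderOf_eq]
      refine orderOf_eq_prime ?_ ?_
      · rw [pow_two]
        exact pr_sq quad.ha quad.hb quad.ab
      · intro h
        exact quad.nab (mul_right_cancel ((congrArg Subtype.val h).trans (FiTwentyFour.sq quad.hb).symm))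
    · exact Bridge.not_isConj_pair e hz quad.ha quad.hb quad.nab quad.ab (by rw [e.apply_symm_apply]; rfl)

end Cfsg.Agent.S5449
end

private theorem dce_f48b0a827b2e : _root_.True := by
  try have : _root_.True := by simp only [_root_.Cfsg.Agent.H827.Triple.pr.congr_simp]
  exact _root_.True.intro
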