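import Cfsg.Agent.KFacts.FiTF.QuasiBInst_mg_m3
import Cfsg.Agent.OddHalf.D4.Spor.FiTF_m3
import Cfsg.Agent.H827.JFi
import Mathlib
import Cfsg.Agent.CTwoTab.Exc
import Cfsg.Statements.S5451
import Cfsg.Agent.H827.Bridge
import Cfsg.Agent.FastGrp
import Cfsg.Agent.Prune
set_option linter.all false
prune_inst 0x7ffcfffb2ff8bddfffff7e7fffffdffffdfcffffeffffffbfffdfbffffff6b6ffbf5fbafffecd8fffff6f2be32f87b53ffffceffeffbdc7ffffd5ff47fffffdffffebd2d71f6bc3e1ffe6ffffbf97fdf7f3fffffffffffffffffffffffffffffffffffffffff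
open scoped Cfsg.Agent.FastGrp

-- part: H827/ZLoc
section
/-!
# The normal subgroup of order 3 of `E / R` in `Fi24'` (helper827)

A copy of the parts of `PreUniq/Fi24S.lean` which do not use the order table (and of `exists_fixed_lift` of
`LThreeFi24/Comp.lean`): the subgroup `Zc` of the elements of `E` central modulo `R`, its action on the tetrads of `z`.
-/

set_option autoImplicit false

namespace Cfsg.Agent.H827.ZLoc

open Cfsg Cfsg.Spor Subgroup Cfsg.Agent.KFacts.FiTF Cfsg.Agent.KFacts.FiTF.Defs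
open Cfsg.Agent.R08.FiTwentyFour (L)
open Cfsg.Agent.R08.TetTwo (IsTet Mate)
open Cfsg.Agent.KFacts.FiTF.QuasiA (Fixes)
open scoped commutatorElement

theorem conj_mul {F : Type*} [Group F] (g a b : F) : g * (a * b) * g⁻¹ = g * a * g⁻¹ * (g * b * g⁻¹) := by group

/-- normal subgroups of `E` containing `R` -/
theorem dich (N : Subgroup Spor.Fi24) (hN : N ≤ E) (hR : R ≤ N) (hn : ∀ e ∈ E, ∀ n ∈ N, e * n * e⁻¹ ∈ N) :
    (∀ n ∈ N, Fixes n) ∨ N = E := by
  have : Finite Spor.Fi24 := Cfsg.Agent.R08.FiTwentyFour.finite_Fi24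
  exact (QuasiBInst.hyp FixZ.tran FixZ.ncard_Dz Order.card (Cent.cent FixZ.tran) (PerfE.perf FixZ.tran)
    (fun M h1 h2 h3 => QuasiA.dichW h2 h3 FixZ.tran SubOrb.quasi1 SubOrb.quasi2 h1)).dich_E hN hR hn

theorem R_norm {g : Spor.Fi24} (hg : g * z = z * g) {r : Spor.Fi24} (hr : r ∈ R) : g * r * g⁻¹ ∈ R :=
  frame.norm g hg r hr

theorem E_z {g : Spor.Fi24} (hg : g ∈ E) : g * z = z * g := frame.Ez g hg

theorem z_comm_inv {g : Spor.Fi24} (hg : g * z = z * g) : g⁻¹ * z = z * g⁻¹ :=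
  ((show Commute g z from hg).inv_left).eq

/-- the elements of `E` central modulo `R` -/
def Zc : Subgroup Spor.Fi24 where
  carrier := {g | g ∈ E ∧ ∀ y ∈ E, ⁅g, y⁆ ∈ R}
  one_mem' := ⟨E.one_mem, fun y _ => by rw [commutatorElement_one_left]; exact R.one_mem⟩
  mul_mem' := by
    rintro a b ⟨ha, ha'⟩ ⟨hb, hb'⟩
    refine ⟨mul_mem ha hb, fun y hy => ?_⟩
    have e1 : ⁅a * b, y⁆ = (a * ⁅b, y⁆ * a⁻¹) * ⁅a, y⁆ := by
      simp only [commutatorElement_def]; group
    rw [e1]
    exact mul_mem (R_norm (E_z ha) (hb' y hy)) (ha' y hy)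
  inv_mem' := by
    rintro a ⟨ha, ha'⟩
    refine ⟨inv_mem ha, fun y hy => ?_⟩
    have e1 : ⁅a⁻¹, y⁆ = a⁻¹ * (⁅a, y⁆)⁻¹ * a⁻¹⁻¹ := by
      simp only [commutatorElement_def]; group
    rw [e1]
    exact R_norm (E_z (inv_mem ha)) (inv_mem (ha' y hy))

theorem Zc_le : Zc ≤ E := fun _ h => h.1

theorem R_le_Zc : R ≤ Zc := fun r hr => ⟨frame.RE hr, fun y hy => by
  rw [commutatorElement_def]
  have e1 : r * y * r⁻¹ * y⁻¹ = r * (y * r⁻¹ * y⁻¹) := by group
  rw [e1]
  exact mul_mem hr (R_norm (E_z hy) (inv_mem hr))⟩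

theorem Zc_norm {g : Spor.Fi24} (hg : g * z = z * g) {n : Spor.Fi24} (hn : n ∈ Zc) : g * n * g⁻¹ ∈ Zc := by
  refine ⟨PerfE.conj_E hg n hn.1, fun y hy => ?_⟩
  have e1 : ⁅g * n * g⁻¹, y⁆ = g * ⁅n, g⁻¹ * y * g⁻¹⁻¹⁆ * g⁻¹ := by
    simp only [commutatorElement_def]; group
  rw [e1]
  exact R_norm hg (hn.2 _ (PerfE.conj_E (z_comm_inv hg) y hy))

theorem Zc_ne : Zc ≠ E := by
  have : Finite Spor.Fi24 := Cfsg.Agent.R08.FiTwentyFour.finite_Fi24
  intro h
  have h1 : E ≤ R := by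
    conv_lhs => rw [← frame.perf]
    rw [commutator_le]
    intro a ha b hb
    rw [← h] at ha
    exact ha.2 b hb
  have h2 := card_le_of_le h1
  rw [frame.cardR] at h2
  have h3 := SheetMFi.card_E
  omega

/-- **the elements of `Zc` fix all the tetrads** -/
theorem small : ∀ n ∈ Zc, Fixes n := by
  rcases dich Zc Zc_le R_le_Zc (fun e he n hn => Zc_norm (E_z he) hn) with h | h
  · exact h
  · exact absurd h Zc_ne

/-! ### `R` is the kernel of the action on `R / ⟨z⟩` -/

theorem zz : z * z = 1 := frame.zz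

theorem z_inv : (z : Spor.Fi24)⁻¹ = z := inv_eq_of_mul_eq_one_left zz

theorem Rz {r : Spor.Fi24} (hr : r ∈ R) : r * z = z * r := E_z (frame.RE hr)

/-- the elements acting trivially on `R / ⟨z⟩` -/
def Ker : Subgroup Spor.Fi24 where
  carrier := {g | g * z = z * g ∧ ∀ r ∈ R, g * r * g⁻¹ = r ∨ g * r * g⁻¹ = z * r}
  one_mem' := ⟨by rw [one_mul, mul_one], fun r _ => Or.inl (by group)⟩
  mul_mem' := by
    rintro a b ⟨ha, ha'⟩ ⟨hb, hb'⟩
    refine ⟨by rw [mul_assoc, hb, ← mul_assoc, ha, mul_assoc], fun r hr => ?_⟩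
    have e1 : a * b * r * (a * b)⁻¹ = a * (b * r * b⁻¹) * a⁻¹ := by group
    rw [e1]
    rcases hb' r hr with h | h
    · rw [h]; exact ha' r hr
    · rw [h]
      have e2 : a * (z * r) * a⁻¹ = z * (a * r * a⁻¹) := by
        rw [← mul_assoc, ha]; group
      rw [e2]
      rcases ha' r hr with h' | h'
      · rw [h']; exact Or.inr rfl
      · rw [h', ← mul_assoc, zz, one_mul]; exact Or.inl rfl
  inv_mem' := by
    rintro a ⟨ha, ha'⟩
    refine ⟨z_comm_inv ha, fun r hr => ?_⟩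
    rcases ha' _ (R_norm (z_comm_inv ha) hr) with h | h
    · left
      have e1 : a * (a⁻¹ * r * a⁻¹⁻¹) * a⁻¹ = r := by group
      rw [e1] at h
      exact h.symm
    · right
      have e1 : a * (a⁻¹ * r * a⁻¹⁻¹) * a⁻¹ = r := by group
      rw [e1] at h
      calc a⁻¹ * r * a⁻¹⁻¹ = z * (z * (a⁻¹ * r * a⁻¹⁻¹)) := by rw [← mul_assoc z z, zz, one_mul]
        _ = z * r := by rw [← h]

theorem R_le_Ker : R ≤ Ker := fun r hr => ⟨Rz hr, fun s hs => by
  rcases frame.com r hr s hs with h | h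
  · left; rw [h]; group
  · right; rw [h]; group⟩

theorem card_Ker : Nat.card Ker ≤ 8192 := by
  classical
  have : Finite Spor.Fi24 := Cfsg.Agent.R08.FiTwentyFour.finite_Fi24
  -- the commutators with the generators
  let A : Subgroup Spor.Fi24 := zpowers z
  have hA : ∀ a ∈ A, a = 1 ∨ a = z := by
    intro a ha
    obtain ⟨k, rfl⟩ := mem_zpowers_iff.1 ha
    have hz2 : (z : Spor.Fi24) ^ (2 : ℤ) = 1 := by
      rw [show (2 : ℤ) = ((2 : ℕ) : ℤ) from rfl, zpow_natCast, pow_two, zz]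
    rcases Int.even_or_odd' k with ⟨m, rfl | rfl⟩
    · left; rw [zpow_mul, hz2, one_zpow]
    · right; rw [zpow_add, zpow_mul, hz2, one_zpow, one_mul, zpow_one]
  have hcomm : ∀ g ∈ Ker, ∀ r ∈ R, ⁅g, r⁆ ∈ A := by
    intro g hg r hr
    rw [commutatorElement_def]
    rcases hg.2 r hr with h | h
    · rw [h, mul_inv_cancel]; exact A.one_mem
    · rw [h, mul_assoc, mul_inv_cancel, mul_one]; exact mem_zpowers z
  have hAc : IsMulCommutative A := inferInstance
  let f : ↥Ker →* (Fin 12 → ↥A) :=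
    { toFun := fun g j => ⟨⁅(g : Spor.Fi24), x j⁆, hcomm g g.2 _ (RQ.x_mem j.2)⟩
      map_one' := by
        funext j
        apply Subtype.ext
        exact commutatorElement_one_left _
      map_mul' := by
        intro a b
        funext j
        apply Subtype.ext
        show ⁅(a : Spor.Fi24) * b, x j⁆ = ⁅(a : Spor.Fi24), x j⁆ * ⁅(b : Spor.Fi24), x j⁆
        have h1 : ⁅(a : Spor.Fi24) * b, x j⁆ = (a * ⁅(b : Spor.Fi24), x j⁆ * (a : Spor.Fi24)⁻¹) * ⁅(a : Spor.Fi24), x j⁆ := by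
          simp only [commutatorElement_def]; group
        rw [h1]
        have h2 := hA _ (hcomm b b.2 _ (RQ.x_mem j.2))
        have h3 := hA _ (hcomm a a.2 _ (RQ.x_mem j.2))
        have h4 : (a : Spor.Fi24) * ⁅(b : Spor.Fi24), x j⁆ * (a : Spor.Fi24)⁻¹ = ⁅(b : Spor.Fi24), x j⁆ := by
          rcases h2 with h2 | h2
          · rw [h2, mul_one, mul_inv_cancel]
          · rw [h2, a.2.1]; group
        rw [h4]
        rcases h2 with h2 | h2
        · rw [h2, one_mul, mul_one]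
        · rcases h3 with h3 | h3
          · rw [h3, one_mul, mul_one]
          · rw [h2, h3] }
  have hker : ∀ g : ↥Ker, g ∈ f.ker → (g : Spor.Fi24) = 1 ∨ (g : Spor.Fi24) = z := by
    intro g hg
    apply frame.cent
    have h1 : R ≤ centralizer ({(g : Spor.Fi24)} : Set Spor.Fi24) := by
      unfold R KFacts.Codes.RG
      rw [closure_le]
      rintro r (rfl | ⟨j, hj, rfl⟩)
      · exact mem_centralizer_singleton_iff.2 g.2.1.symm
      · have h2 : f g ⟨j, hj⟩ = 1 := congrFun (MonoidHom.mem_ker.1 hg) ⟨j, hj⟩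
        have h3 : ⁅(g : Spor.Fi24), x j⁆ = 1 := congrArg Subtype.val h2
        exact mem_centralizer_singleton_iff.2 (commutatorElement_eq_one_iff_mul_comm.1 h3).symm
    exact fun r hr => (mem_centralizer_singleton_iff.1 (h1 hr)).symm
  have hk2 : Nat.card f.ker ≤ 2 := by
    let i : f.ker → Bool := fun g => decide (((g : ↥Ker) : Spor.Fi24) = 1)
    have hi : Function.Injective i := by
      intro a b hab
      apply Subtype.ext
      apply Subtype.ext
      have h1 : ((((a : ↥Ker) : Spor.Fi24) = 1) ↔ (((b : ↥Ker) : Spor.Fi24) = 1)) := by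
        have := hab
        simp only [i, decide_eq_decide] at this
        exact this
      rcases hker a a.2 with h2 | h2
      · rw [h2, (h1.1 h2)]
      · rcases hker b b.2 with h3 | h3
        · rw [h3, (h1.2 h3)]
        · rw [h2, h3]
    have := Nat.card_le_card_of_injective i hi
    rwa [Nat.card_eq_fintype_card (α := Bool), Fintype.card_bool] at this
  have hA2 : Nat.card A = 2 := by
    rw [Nat.card_zpowers]
    exact orderOf_eq_prime (by rw [pow_two, zz]) frame.z1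
  have hr : Nat.card f.range ≤ 2 ^ 12 := by
    have h1 : Nat.card f.range ≤ Nat.card (Fin 12 → ↥A) := Nat.card_le_card_of_injective _ Subtype.val_injective
    rwa [Nat.card_fun, hA2, Nat.card_eq_fintype_card (α := Fin 12), Fintype.card_fin] at h1
  have h1 : Nat.card ↥Ker = Nat.card f.ker * Nat.card f.range := by
    rw [← Nat.card_congr (QuotientGroup.quotientKerEquivRange f).toEquiv, mul_comm]
    exact Subgroup.card_eq_card_quotient_mul_card_subgroup f.ker
  rw [h1]
  calc Nat.card f.ker * Nat.card f.range ≤ 2 * 2 ^ 12 := Nat.mul_le_mul hk2 hr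
    _ = 8192 := by norm_num

theorem Ker_eq : Ker = R := by
  have : Finite Spor.Fi24 := Cfsg.Agent.R08.FiTwentyFour.finite_Fi24
  refine (eq_of_le_of_card_ge R_le_Ker ?_).symm
  rw [frame.cardR]
  exact card_Ker

/-- an element of `Zc` fixing a noncentral element of `R` modulo `z` lies in `R` -/
theorem mem_R_of_fix {s t : Spor.Fi24} (hs : s ∈ Zc) (ht : t ∈ R) (h1 : t ≠ 1) (hz : t ≠ z)
    (h : s * t * s⁻¹ = t ∨ s * t * s⁻¹ = z * t) : s ∈ R := by
  have hsz := E_z hs.1
  let B : Subgroup Spor.Fi24 :=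
    { carrier := {r | r ∈ R ∧ (s * r * s⁻¹ = r ∨ s * r * s⁻¹ = z * r)}
      one_mem' := ⟨R.one_mem, Or.inl (by group)⟩
      mul_mem' := by
        rintro a b ⟨ha, ha'⟩ ⟨hb, hb'⟩
        refine ⟨R.mul_mem ha hb, ?_⟩
        have e1 : s * (a * b) * s⁻¹ = (s * a * s⁻¹) * (s * b * s⁻¹) := by group
        rw [e1]
        have hza : z * a = a * z := (Rz ha).symm
        rcases ha' with h | h <;> rcases hb' with h' | h' <;> rw [h, h']
        · exact Or.inl rfl
        · right; rw [← mul_assoc, ← hza, mul_assoc]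
        · right; rw [mul_assoc]
        · left
          calc z * a * (z * b) = z * (a * z) * b := by group
            _ = (z * z) * (a * b) := by rw [← hza]; group
            _ = a * b := by rw [zz, one_mul]
      inv_mem' := by
        rintro a ⟨ha, ha'⟩
        refine ⟨R.inv_mem ha, ?_⟩
        have e1 : s * a⁻¹ * s⁻¹ = (s * a * s⁻¹)⁻¹ := by group
        rw [e1]
        have hza : z * a⁻¹ = a⁻¹ * z := (Rz (R.inv_mem ha)).symm
        rcases ha' with h | h
        · left; rw [h]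
        · right; rw [h, mul_inv_rev, z_inv, hza] }
  have hB : ∀ r, r ∈ B ↔ r ∈ R ∧ (s * r * s⁻¹ = r ∨ s * r * s⁻¹ = z * r) := fun _ => Iff.rfl
  have hinv : ∀ g ∈ E, ∀ b ∈ B, g * b * g⁻¹ ∈ B := by
    rintro g hg b ⟨hb, hb'⟩
    have hgz := E_z hg
    have hgb := R_norm hgz hb
    refine ⟨hgb, ?_⟩
    -- `s g = ⁅s, g⁆ g s`
    have hc := hs.2 g hg
    have e1 : s * (g * b * g⁻¹) * s⁻¹ = ⁅s, g⁆ * (g * (s * b * s⁻¹) * g⁻¹) * ⁅s, g⁆⁻¹ := by
      simp only [commutatorElement_def]; group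
    have hcz := Rz hc
    rcases hb' with h | h
    · rw [e1, h]
      have := (R_le_Ker hc).2 _ hgb
      exact this
    · have e2 : g * (z * b) * g⁻¹ = z * (g * b * g⁻¹) := by rw [← mul_assoc, hgz]; group
      rw [e1, h, e2]
      have e3 : ⁅s, g⁆ * (z * (g * b * g⁻¹)) * ⁅s, g⁆⁻¹ = z * (⁅s, g⁆ * (g * b * g⁻¹) * ⁅s, g⁆⁻¹) := by
        rw [← mul_assoc, hcz]; group
      rw [e3]
      rcases (R_le_Ker hc).2 _ hgb with h' | h'
      · rw [h']; exact Or.inr rfl
      · rw [h', ← mul_assoc, zz, one_mul]; exact Or.inl rfl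
  rcases frame.irr B (fun b hb => hb.1) hinv with h2 | h2
  · exfalso
    rcases h2 t ⟨ht, h⟩ with h3 | h3
    · exact h1 h3
    · exact hz h3
  · rw [← Ker_eq]
    refine ⟨hsz, fun r hr => ?_⟩
    rw [← h2] at hr
    exact hr.2

/-- A `p`-subgroup `P` of `X` fixing the coset `g O`, `O` a normal `p'`-subgroup, fixes an element of it. -/
theorem exists_fixed_lift {X : Type*} [Group X] {p : ℕ} (hp : p.Prime) (O : Subgroup X) [O.Normal] (hO : (Nat.card ↥O).Coprime p) {P : Subgroup X}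
    (hP : IsPGroup p ↥P) {y : X ⧸ O} (hy : ∀ x ∈ P, (x : X ⧸ O) * y * (x : X ⧸ O)⁻¹ = y) :
    ∃ g : X, (g : X ⧸ O) = y ∧ ∀ x ∈ P, x * g = g * x := by
  have : Fact p.Prime := ⟨hp⟩
  let Ω : Set X := {g | (g : X ⧸ O) = y}
  let act : MulAction ↥P ↥Ω :=
    { smul := fun x g => ⟨x * g * (x : X)⁻¹, by
        show (((x : X) * (g : X) * (x : X)⁻¹ : X) : X ⧸ O) = y
        rw [QuotientGroup.mk_mul, QuotientGroup.mk_mul, QuotientGroup.mk_inv, show ((g : X) : X ⧸ O) = y from g.2]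
        exact hy x x.2⟩
      one_smul := fun g => Subtype.ext (by
        show ((1 : ↥P) : X) * (g : X) * ((1 : ↥P) : X)⁻¹ = g
        simp)
      mul_smul := fun a b g => Subtype.ext (by
        show ((a * b : ↥P) : X) * (g : X) * ((a * b : ↥P) : X)⁻¹ = (a : X) * ((b : X) * (g : X) * (b : X)⁻¹) * (a : X)⁻¹
        simp only [Subgroup.coe_mul]
        group) }
  obtain ⟨g0, hg0⟩ := QuotientGroup.mk_surjective y
  have hcard : Nat.card ↥Ω = Nat.card ↥O := by
    refine Nat.card_congr ⟨fun g => ⟨g0⁻¹ * (g : X), ?_⟩, fun o => ⟨g0 * (o : X), ?_⟩, ?_, ?_⟩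
    · rw [← QuotientGroup.eq, hg0]
      exact g.2.symm
    · show ((g0 * (o : X) : X) : X ⧸ O) = y
      rw [QuotientGroup.mk_mul, (QuotientGroup.eq_one_iff (o : X)).2 o.2, mul_one, hg0]
    · intro g
      apply Subtype.ext
      show g0 * (g0⁻¹ * (g : X)) = g
      group
    · intro o
      apply Subtype.ext
      show g0⁻¹ * (g0 * (o : X)) = o
      group
  have hnd : ¬ p ∣ Nat.card ↥Ω := by
    rw [hcard]
    exact (Nat.Prime.coprime_iff_not_dvd hp).1 hO.symm
  obtain ⟨g, hg⟩ := hP.nonempty_fixed_point_of_prime_not_dvd_card ↥Ω hnd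
  refine ⟨g, g.2, fun x hx => ?_⟩
  have h1 : (⟨x, hx⟩ : ↥P) • g = g := hg ⟨x, hx⟩
  have h2 : x * (g : X) * x⁻¹ = g := congrArg Subtype.val h1
  exact mul_inv_eq_iff_eq_mul.1 h2

/-- an element commuting with `f` modulo `R` -/
theorem exists_comm {f g : Spor.Fi24} (hf : f ^ 3 = 1) (hfz : f * z = z * f) (hgz : g * z = z * g)
    (h : ⁅g, f⁆ ∈ R) : ∃ r ∈ R, (g * r) * f = f * (g * r) := by
  let X : Subgroup Spor.Fi24 := centralizer ({z} : Set Spor.Fi24)
  have hRX : R ≤ X := fun r hr => mem_centralizer_singleton_iff.2 (Rz hr)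
  have hn : (R.subgroupOf X).Normal := ⟨fun r hr x => mem_subgroupOf.2
    (R_norm (mem_centralizer_singleton_iff.1 x.2) (mem_subgroupOf.1 hr))⟩
  let f' : ↥X := ⟨f, mem_centralizer_singleton_iff.2 hfz⟩
  let g' : ↥X := ⟨g, mem_centralizer_singleton_iff.2 hgz⟩
  have hO : (Nat.card ↥(R.subgroupOf X)).Coprime 3 := by
    rw [Nat.card_congr (subgroupOfEquivOfLe hRX).toEquiv, frame.cardR]
    norm_num
  have hf' : f' ^ 3 = 1 := Subtype.ext hf
  have hP : IsPGroup 3 ↥(zpowers f') := by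
    intro a
    refine ⟨1, ?_⟩
    apply Subtype.ext
    obtain ⟨k, hk⟩ := mem_zpowers_iff.1 a.2
    rw [pow_one, coe_pow, ← hk, ← zpow_natCast, ← zpow_mul, mul_comm, zpow_mul, zpow_natCast, hf', one_zpow]
    rfl
  have hc : Commute (f' : ↥X ⧸ R.subgroupOf X) (g' : ↥X ⧸ R.subgroupOf X) := by
    have h1 : ((⁅g', f'⁆ : ↥X) : ↥X ⧸ R.subgroupOf X) = 1 := (QuotientGroup.eq_one_iff _).2 (mem_subgroupOf.2 h)
    have h2 : ⁅(g' : ↥X ⧸ R.subgroupOf X), (f' : ↥X ⧸ R.subgroupOf X)⁆ = 1 := h1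
    exact (commutatorElement_eq_one_iff_mul_comm.1 h2).symm
  obtain ⟨c, hc1, hc2⟩ := exists_fixed_lift Nat.prime_three (R.subgroupOf X) hO hP
    (y := (g' : ↥X ⧸ R.subgroupOf X)) (by
      intro x hx
      obtain ⟨k, rfl⟩ := mem_zpowers_iff.1 hx
      rw [QuotientGroup.mk_zpow, (hc.zpow_left k).eq, mul_inv_cancel_right])
  have h3 : g'⁻¹ * c ∈ R.subgroupOf X := QuotientGroup.eq.1 hc1.symm
  refine ⟨g⁻¹ * c, mem_subgroupOf.1 h3, ?_⟩
  rw [mul_inv_cancel_left]
  exact (congrArg Subtype.val (hc2 f' (mem_zpowers f'))).symm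

theorem comm_Zc {g u : Spor.Fi24} (hg : g ∈ E) (hu : u ∈ Zc) : ⁅g, u⁆ ∈ R := by
  rw [← commutatorElement_inv]
  exact R.inv_mem (hu.2 g hg)

/-- equality up to `z` -/
def Eqz (a b : Spor.Fi24) : Prop := a = b ∨ a = z * b

theorem Eqz.symm {a b : Spor.Fi24} (h : Eqz a b) : Eqz b a := by
  rcases h with h | h
  · exact Or.inl h.symm
  · right; rw [h, ← mul_assoc, zz, one_mul]

theorem Eqz.trans {a b c : Spor.Fi24} (h : Eqz a b) (h' : Eqz b c) : Eqz a c := by
  rcases h with rfl | rfl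
  · exact h'
  · rcases h' with rfl | rfl
    · exact Or.inr rfl
    · left; rw [← mul_assoc, zz, one_mul]

theorem Eqz.conj {a b g : Spor.Fi24} (hg : g * z = z * g) (h : Eqz a b) : Eqz (g * a * g⁻¹) (g * b * g⁻¹) := by
  rcases h with rfl | rfl
  · exact Or.inl rfl
  · right
    rw [← mul_assoc, hg]
    group

theorem Eqz.mul {a b c d : Spor.Fi24} (hb : b * z = z * b) (h : Eqz a b) (h' : Eqz c d) : Eqz (a * c) (b * d) := by
  rcases h with rfl | rfl <;> rcases h' with rfl | rfl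
  · exact Or.inl rfl
  · right; rw [← mul_assoc, hb, mul_assoc]
  · right; rw [mul_assoc]
  · left
    calc z * b * (z * d) = z * (b * z) * d := by group
      _ = (z * z) * (b * d) := by rw [hb]; group
      _ = b * d := by rw [zz, one_mul]

theorem Eqz.mem {a b : Spor.Fi24} (h : Eqz a b) (ha : a ∈ R) : b ∈ R := by
  rcases h with rfl | rfl
  · exact ha
  · have := R.mul_mem frame.zR ha
    rwa [← mul_assoc, zz, one_mul] at this

/-- an element of `Zc` outside `R` moves the noncentral elements of `R` modulo `z` -/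
theorem not_eqz {s t : Spor.Fi24} (hs : s ∈ Zc) (hsR : s ∉ R) (ht : t ∈ R) (h1 : t ≠ 1) (hz : t ≠ z) :
    ¬ Eqz (s * t * s⁻¹) t := fun h => hsR (mem_R_of_fix hs ht h1 hz h)

theorem pair_mem {a b c d : Spor.Fi24} (h : IsTet L z a b c d) : a * b ∈ R :=
  RQ.pair_mem_R FixZ.tran (Cfsg.Agent.R08.TetThree.Pairs.eq_1 L z ▸ ⟨a, b, ⟨c, d, h⟩, rfl⟩)

theorem pair_ne {a b c d : Spor.Fi24} (h : IsTet L z a b c d) : a * b ≠ 1 ∧ a * b ≠ z := by
  have hbb : b * b = 1 := Cfsg.Agent.R08.FiTwentyFour.sq h.hb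
  have hcc : c * c = 1 := Cfsg.Agent.R08.FiTwentyFour.sq h.hc
  have hdd : d * d = 1 := Cfsg.Agent.R08.FiTwentyFour.sq h.hd
  constructor
  · intro h1
    apply h.nab
    calc a = a * (b * b) := by rw [hbb, mul_one]
      _ = (a * b) * b := by rw [mul_assoc]
      _ = b := by rw [h1, one_mul]
  · intro h1
    apply h.ncd
    have h2 : a * b * (c * d) = a * b := by rw [← mul_assoc, h.prod, h1]
    have h3 : c * d = 1 := mul_left_cancel (h2.trans (mul_one _).symm)
    calc c = c * (d * d) := by rw [hdd, mul_one]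
      _ = (c * d) * d := by rw [mul_assoc]
      _ = d := by rw [h3, one_mul]

/-- complementary pairs are equal up to `z` -/
theorem eqz_compl {a b c d : Spor.Fi24} (h : IsTet L z a b c d) : Eqz (c * d) (a * b) := by
  right
  have haa : a * a = 1 := Cfsg.Agent.R08.FiTwentyFour.sq h.ha
  have hbb : b * b = 1 := Cfsg.Agent.R08.FiTwentyFour.sq h.hb
  have h1 : (a * b) * (a * b) = 1 := by
    calc (a * b) * (a * b) = a * (b * a) * b := by simp only [mul_assoc]
      _ = a * (a * b) * b := by rw [h.ab.eq]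
      _ = (a * a) * (b * b) := by simp only [mul_assoc]
      _ = 1 := by rw [haa, hbb, one_mul]
  have h2 : (z : Spor.Fi24) * (a * b) = (a * b) * z := (Rz (pair_mem h)).symm
  rw [h2]
  calc c * d = (a * b) * (a * b) * (c * d) := by rw [h1, one_mul]
    _ = (a * b) * (a * b * c * d) := by simp only [mul_assoc]
    _ = (a * b) * z := by rw [h.prod]

/-- the relations between the six pairs of a tetrad -/
theorem step {s a b c d : Spor.Fi24} (hs : s ∈ Zc) (hsR : s ∉ R) (hT : IsTet L z a b c d) :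
    Eqz (s * (a * b) * s⁻¹) (a * c) ∨ Eqz (s * (a * b) * s⁻¹) (a * d) := by
  have hsz := E_z hs.1
  have mab := not_eqz hs hsR (pair_mem hT) (pair_ne hT).1 (pair_ne hT).2
  have kcd : Eqz (c * d) (a * b) := eqz_compl hT
  have kbd : Eqz (b * d) (a * c) := eqz_compl hT.sw23
  have kbc : Eqz (b * c) (a * d) := eqz_compl hT.sw34.sw23
  have hcm : ∀ u v : Spor.Fi24, s * (u * v) * s⁻¹ = (s * u * s⁻¹) * (s * v * s⁻¹) := fun u v => by group
  have hfix := small s hs
  have hDz : ∀ {x y u v : Spor.Fi24}, IsTet L z x y u v → x ∈ Dz := by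
    intro x y u v h
    refine ⟨h.ha, ?_⟩
    have h1 : Commute x (x * y * u * v) :=
      (((Commute.refl x).mul_right h.ab).mul_right h.ac).mul_right h.ad
    rw [h.prod] at h1
    exact h1.eq
  have mem4 : ∀ {x y u v : Spor.Fi24}, IsTet L z x y u v → s * x * s⁻¹ = x ∨ s * x * s⁻¹ = y ∨ s * x * s⁻¹ = u ∨
      s * x * s⁻¹ = v := by
    intro x y u v h
    rcases hfix x (hDz h) with h1 | h1
    · exact Or.inl h1
    · exact Or.inr (h.mate_cases Tet.tr h1)
  have ha4 := mem4 hT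
  have hb4 := mem4 hT.sw12
  have hne : s * a * s⁻¹ ≠ s * b * s⁻¹ := fun h1 => hT.nab (mul_left_cancel (mul_right_cancel h1))
  rw [hcm]
  rw [hcm] at mab
  have r1 : Eqz (b * a) (a * b) := Or.inl hT.ab.eq.symm
  have r2 : Eqz (d * c) (a * b) := by rw [← hT.cd.eq]; exact kcd
  have r3 : Eqz (c * a) (a * c) := Or.inl hT.ac.eq.symm
  have r4 : Eqz (d * b) (a * c) := by rw [← hT.bd.eq]; exact kbd
  have r5 : Eqz (d * a) (a * d) := Or.inl hT.ad.eq.symm
  have r6 : Eqz (c * b) (a * d) := by rw [← hT.bc.eq]; exact kbc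
  have r0 : ∀ x : Spor.Fi24, Eqz x x := fun x => Or.inl rfl
  rcases ha4 with h1 | h1 | h1 | h1 <;> rcases hb4 with h2 | h2 | h2 | h2 <;> rw [h1, h2] at hne mab <;>
    rw [h1, h2]
  · exact absurd (r0 _) mab
  · exact absurd rfl hne
  · exact Or.inl (r0 _)
  · exact Or.inr (r0 _)
  · exact absurd rfl hne
  · exact absurd r1 mab
  · exact Or.inr kbc
  · exact Or.inl kbd
  · exact Or.inr r6
  · exact Or.inl r3
  · exact absurd rfl hne
  · exact absurd kcd mab
  · exact Or.inl r4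
  · exact Or.inr r5
  · exact absurd r2 mab
  · exact absurd rfl hne

/-- the products of the pairs -/
theorem prods {a b c d : Spor.Fi24} (hT : IsTet L z a b c d) : Eqz (a * b * (a * c)) (a * d) := by
  have haa : a * a = 1 := Cfsg.Agent.R08.FiTwentyFour.sq hT.ha
  have e1 : a * b * (a * c) = b * c := by
    calc a * b * (a * c) = a * (b * a) * c := by simp only [mul_assoc]
      _ = a * (a * b) * c := by rw [hT.ab.eq]
      _ = (a * a) * (b * c) := by simp only [mul_assoc]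
      _ = b * c := by rw [haa, one_mul]
  rw [e1]; exact eqz_compl hT.sw34.sw23

/-- the action on the pairs is a 3-cycle -/
theorem three_cycle {s a b c d : Spor.Fi24} (hs : s ∈ Zc) (hsR : s ∉ R) (hT : IsTet L z a b c d)
    (h : Eqz (s * (a * b) * s⁻¹) (a * c)) :
    Eqz (s * (a * c) * s⁻¹) (a * d) ∧ Eqz (s * (a * d) * s⁻¹) (a * b) := by
  have hsz := E_z hs.1
  have hcm : ∀ u v : Spor.Fi24, s * (u * v) * s⁻¹ = (s * u * s⁻¹) * (s * v * s⁻¹) := fun u v => by group
  have zac := Rz (pair_mem hT.sw23)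
  have mad := not_eqz hs hsR (pair_mem hT.sw34.sw23) (pair_ne hT.sw34.sw23).1 (pair_ne hT.sw34.sw23).2
  have h1 : Eqz (s * (a * c) * s⁻¹) (a * d) := by
    rcases step hs hsR hT.sw23 with h4 | h4
    · exfalso
      -- `a c → a b`: then `a d` is fixed
      have h5 := h.mul zac h4
      rw [← hcm] at h5
      exact mad (((prods hT).symm.conj hsz).trans (h5.trans (prods hT.sw23)))
    · exact h4
  refine ⟨h1, ?_⟩
  have h5 := h.mul zac h1
  rw [← hcm] at h5
  exact ((prods hT).symm.conj hsz).trans (h5.trans (prods hT.sw23.sw34))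

/-- **an odd permutation of a tetrad inverts `Zc / R`** -/
theorem exists_inv : ∃ g ∈ commutator Spor.Fi24, g * z = z * g ∧ ∀ s ∈ Zc, g * s * g⁻¹ * s ∈ R := by
  have hT := Order.hT
  generalize D 0 0 = a at hT
  generalize D 0 1 = b at hT
  generalize D 0 2 = c at hT
  generalize D 0 3 = d at hT
  obtain ⟨g, hg, ga, gb, gc, gd⟩ := Trans.trans4 hT hT.sw12
  have hgz : g * z * g⁻¹ = z := by
    rw [← hT.prod, conj_mul, conj_mul, conj_mul,
      ga, gb, gc, gd, hT.ab.eq]
  have hgz' : g * z = z * g := mul_inv_eq_iff_eq_mul.1 hgz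
  refine ⟨g, hg, hgz', fun s hs => ?_⟩
  by_cases hsR : s ∈ R
  · exact R.mul_mem (R_norm hgz' hsR) hsR
  have hsz := E_z hs.1
  -- the action of `g`
  have gab : Eqz (g * (a * b) * g⁻¹) (a * b) := by
    left; rw [conj_mul, ga, gb, hT.ab.eq]
  have gac : Eqz (g * (a * c) * g⁻¹) (a * d) := by
    rw [conj_mul, ga, gc]; exact eqz_compl hT.sw34.sw23
  have gad : Eqz (g * (a * d) * g⁻¹) (a * c) := by
    rw [conj_mul, ga, gd]; exact eqz_compl hT.sw23
  have hgi : g⁻¹ * z = z * g⁻¹ := z_comm_inv hgz'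
  have giac : Eqz (g⁻¹ * (a * c) * g⁻¹⁻¹) (a * d) := by
    have h1 := (gad.symm).conj hgi
    have e1 : g⁻¹ * (g * (a * d) * g⁻¹) * g⁻¹⁻¹ = a * d := by group
    rwa [e1] at h1
  have giad : Eqz (g⁻¹ * (a * d) * g⁻¹⁻¹) (a * c) := by
    have h1 := (gac.symm).conj hgi
    have e1 : g⁻¹ * (g * (a * c) * g⁻¹) * g⁻¹⁻¹ = a * c := by group
    rwa [e1] at h1
  have fin : Eqz (g * s * g⁻¹ * s * (a * b) * (g * s * g⁻¹ * s)⁻¹) (a * b) := by
    have e1 : g * s * g⁻¹ * s * (a * b) * (g * s * g⁻¹ * s)⁻¹ =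
        g * (s * (g⁻¹ * (s * (a * b) * s⁻¹) * g⁻¹⁻¹) * s⁻¹) * g⁻¹ := by group
    rw [e1]
    rcases step hs hsR hT with h1 | h1
    · obtain ⟨-, h2⟩ := three_cycle hs hsR hT h1
      exact (((((h1.conj hgi).trans giac).conj hsz).trans h2).conj hgz').trans gab
    · obtain ⟨-, h2⟩ := three_cycle hs hsR hT.sw34 h1
      exact (((((h1.conj hgi).trans giad).conj hsz).trans h2).conj hgz').trans gab
  exact mem_R_of_fix (Zc.mul_mem (Zc_norm hgz' hs) hs) (pair_mem hT) (pair_ne hT).1 (pair_ne hT).2 fin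


end Cfsg.Agent.H827.ZLoc
end

-- part: H827/ZThree
section
/-!
# The centralizer of an element `x` of order 3 of `Zc` in `C(z)` (helper827)

`C0 x = C(x) ∩ C(z) ∩ Fi24'`, for `x ∈ Zc`, `x ∉ R`, `x³ = 1`:
* `cent_R` : `C_R(x) = ⟨z⟩`;
* `C0_le` : `C0 x ≤ E` (if `|C_{Fi24'}(z) : E| = 2`);
* `exists_mul` : `E = C0 R`;
* `z_mem` : `z ∈ [C0, C0]`, `perf` : `C0` is perfect.
-/

set_option autoImplicit false

namespace Cfsg.Agent.H827.ZThree

open Cfsg Cfsg.Spor Subgroup Cfsg.Agent.KFacts.FiTF Cfsg.Agent.KFacts.FiTF.Defs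
open Cfsg.Agent.R08 Cfsg.Agent.R08.FiTwentyFour
open Cfsg.Agent.R08.TetTwo (IsTet Mate)
open Cfsg.Agent.KFacts.FiTF.QuasiA (Fixes)
open Cfsg.Agent.H827.ZLoc
open Cfsg.Agent.H827.CocoD (d e)
open Cfsg.Agent.KFacts.FiTTh.BasDef (pr pr_singleton pr_empty)
open scoped commutatorElement

/-- the centralizer -/
def C0 (x : Fi24) : Subgroup Fi24 := _root_.commutator Fi24 ⊓ centralizer {z, x}

theorem mem_C0 {x c : Fi24} : c ∈ C0 x ↔ c ∈ _root_.commutator Fi24 ∧ c * z = z * c ∧ c * x = x * c := by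
  unfold C0
  rw [mem_inf, mem_centralizer_iff]
  constructor
  · rintro ⟨h1, h2⟩
    exact ⟨h1, (h2 z (by simp)).symm, (h2 x (by simp)).symm⟩
  · rintro ⟨h1, h2, h3⟩
    refine ⟨h1, ?_⟩
    rintro y (rfl | hy)
    · exact h2.symm
    · rw [Set.mem_singleton_iff] at hy
      rw [hy]
      exact h3.symm

theorem C0_z {x c : Fi24} (hc : c ∈ C0 x) : c * z = z * c := (mem_C0.1 hc).2.1

theorem der_le {x : Fi24} : ⁅C0 x, C0 x⁆ ≤ C0 x := by
  rw [commutator_le]
  intro a ha b hb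
  rw [commutatorElement_def]
  exact mul_mem (mul_mem (mul_mem ha hb) (inv_mem ha)) (inv_mem hb)

/-- `[C0, C0] R` -/
def S (x : Fi24) : Subgroup Fi24 where
  carrier := {g | ∃ c ∈ ⁅C0 x, C0 x⁆, ∃ r ∈ R, g = c * r}
  one_mem' := ⟨1, one_mem _, 1, one_mem _, by rw [mul_one]⟩
  mul_mem' := by
    rintro _ _ ⟨c, hc, r, hr, rfl⟩ ⟨c', hc', r', hr', rfl⟩
    refine ⟨c * c', mul_mem hc hc', c'⁻¹ * r * c'⁻¹⁻¹ * r', mul_mem (R_norm ?_ hr) hr', by group⟩
    exact z_comm_inv (C0_z (der_le hc'))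
  inv_mem' := by
    rintro _ ⟨c, hc, r, hr, rfl⟩
    exact ⟨c⁻¹, inv_mem hc, c * r⁻¹ * c⁻¹, R_norm (C0_z (der_le hc)) (inv_mem hr), by group⟩

theorem mem_S {x g : Fi24} : g ∈ S x ↔ ∃ c ∈ ⁅C0 x, C0 x⁆, ∃ r ∈ R, g = c * r := Iff.rfl

/-- the data -/
structure Dat (x : Fi24) : Prop where
  mem : x ∈ Zc
  nR : x ∉ R
  cube : x ^ 3 = 1

namespace Dat

variable {x : Fi24} (H : Dat x)

include H

theorem xz : x * z = z * x := E_z H.mem.1

theorem inv_eq : x⁻¹ = x * x := by
  have h1 : x * x * x = 1 := by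
    rw [← H.cube, pow_succ, pow_two]
  exact (eq_inv_of_mul_eq_one_left h1).symm

theorem sq_not_mem : x * x ∉ R := by
  intro h
  apply H.nR
  have h1 := R.inv_mem h
  rw [← H.inv_eq, inv_inv] at h1
  exact h1

/-- `C_R(x) = ⟨z⟩` -/
theorem cent_R {t : Fi24} (ht : t ∈ R) (hc : t * x = x * t) : t = 1 ∨ t = z := by
  by_contra hcon
  push Not at hcon
  exact H.nR (mem_R_of_fix H.mem ht hcon.1 hcon.2 (Or.inl (by rw [← hc, mul_inv_cancel_right])))

/-- two members of a tetrad are not both fixed -/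
theorem not_two {a b c u : Fi24} (hT : IsTet L z a b c u) (h1 : x * a * x⁻¹ = a) (h2 : x * b * x⁻¹ = b) : False := by
  refine not_eqz H.mem H.nR (pair_mem hT) (pair_ne hT).1 (pair_ne hT).2 (Or.inl ?_)
  rw [ZLoc.conj_mul, h1, h2]

theorem mem4 {a b c u : Fi24} (h : IsTet L z a b c u) : x * a * x⁻¹ = a ∨ x * a * x⁻¹ = b ∨ x * a * x⁻¹ = c ∨
    x * a * x⁻¹ = u := by
  have hDz : a ∈ Dz := by
    refine ⟨h.ha, ?_⟩
    have h1 : Commute a (a * b * c * u) :=
      (((Commute.refl a).mul_right h.ab).mul_right h.ac).mul_right h.ad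
    rw [h.prod] at h1
    exact h1.eq
  rcases small x H.mem a hDz with h1 | h1
  · exact Or.inl h1
  · exact Or.inr (h.mate_cases Tet.tr h1)

theorem pow_conj (y : Fi24) : x * (x * (x * y * x⁻¹) * x⁻¹) * x⁻¹ = y := by
  have h3 : x * x * x = 1 := by rw [← H.cube, pow_succ, pow_two]
  calc x * (x * (x * y * x⁻¹) * x⁻¹) * x⁻¹ = (x * x * x) * y * (x * x * x)⁻¹ := by
        simp only [mul_inv_rev, mul_assoc]
    _ = y := by rw [h3, one_mul, inv_one, mul_one]

/-- a member of a tetrad is fixed -/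
theorem exists_fix {a b c u : Fi24} (h : IsTet L z a b c u) :
    x * a * x⁻¹ = a ∨ x * b * x⁻¹ = b ∨ x * c * x⁻¹ = c ∨ x * u * x⁻¹ = u := by
  classical
  let f : Fin 4 → Fi24 := ![a, b, c, u]
  have hf : Function.Injective f := by
    intro i j hij
    fin_cases i <;> fin_cases j <;> first | rfl | skip
    · exact absurd hij h.nab
    · exact absurd hij h.nac
    · exact absurd hij h.nad
    · exact absurd hij.symm h.nab
    · exact absurd hij h.nbc
    · exact absurd hij h.nbd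
    · exact absurd hij.symm h.nac
    · exact absurd hij.symm h.nbc
    · exact absurd hij h.ncd
    · exact absurd hij.symm h.nad
    · exact absurd hij.symm h.nbd
    · exact absurd hij.symm h.ncd
  have key : ∀ i, ∃ j, x * f i * x⁻¹ = f j := by
    intro i
    fin_cases i
    · rcases H.mem4 h with h1 | h1 | h1 | h1
      · exact ⟨0, h1⟩
      · exact ⟨1, h1⟩
      · exact ⟨2, h1⟩
      · exact ⟨3, h1⟩
    · rcases H.mem4 h.sw12 with h1 | h1 | h1 | h1
      · exact ⟨1, h1⟩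
      · exact ⟨0, h1⟩
      · exact ⟨2, h1⟩
      · exact ⟨3, h1⟩
    · rcases H.mem4 h.sw13 with h1 | h1 | h1 | h1
      · exact ⟨2, h1⟩
      · exact ⟨1, h1⟩
      · exact ⟨0, h1⟩
      · exact ⟨3, h1⟩
    · rcases H.mem4 h.sw14 with h1 | h1 | h1 | h1
      · exact ⟨3, h1⟩
      · exact ⟨1, h1⟩
      · exact ⟨2, h1⟩
      · exact ⟨0, h1⟩
  choose π hπ using key
  have h3 : ∀ i, π (π (π i)) = i := by
    intro i
    apply hf
    rw [← hπ, ← hπ, ← hπ, H.pow_conj]
  obtain ⟨i, hi⟩ : ∃ i, π i = i := by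
    clear hπ
    revert π
    decide +kernel
  have h4 := hπ i
  rw [hi] at h4
  fin_cases i
  · exact Or.inl h4
  · exact Or.inr (Or.inl h4)
  · exact Or.inr (Or.inr (Or.inl h4))
  · exact Or.inr (Or.inr (Or.inr h4))

/-! ### `E = C0 R` -/

theorem exists_mul {g : Fi24} (hg : g ∈ E) : ∃ r ∈ R, g * r ∈ C0 x := by
  obtain ⟨r, hr, hc⟩ := exists_comm H.cube H.xz (E_z hg) (comm_Zc hg H.mem)
  exact ⟨r, hr, mem_C0.2 ⟨mul_mem (frame.EK hg) (frame.EK (frame.RE hr)),
    E_z (mul_mem hg (frame.RE hr)), hc⟩⟩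

/-- **transitivity of `C0` on the transpositions centralizing `x`** -/
theorem trans {p q : Fi24} (hp : p ∈ Dz) (hq : q ∈ Dz) (hpx : x * p * x⁻¹ = p) (hqx : x * q * x⁻¹ = q) :
    ∃ c ∈ C0 x, c ∈ E ∧ c * p * c⁻¹ = q := by
  obtain ⟨w1, hw1, h1⟩ := QuasiBInst.tranE FixZ.tran p hp
  obtain ⟨w2, hw2, h2⟩ := QuasiBInst.tranE FixZ.tran q hq
  have hg : w2 * w1⁻¹ ∈ E := mul_mem hw2 (inv_mem hw1)
  have hgp : (w2 * w1⁻¹) * p * (w2 * w1⁻¹)⁻¹ = q := by
    rw [← h1, ← h2]
    group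
  obtain ⟨r, hr, hc⟩ := H.exists_mul hg
  generalize w2 * w1⁻¹ = g at hg hgp hc
  have hcE : g * r ∈ E := mul_mem hg (frame.RE hr)
  refine ⟨g * r, hc, hcE, ?_⟩
  have e1 : g * r * p * (g * r)⁻¹ = g * (r * p * r⁻¹) * g⁻¹ := by group
  rcases small r (R_le_Zc hr) p hp with h3 | h3
  · rw [e1, h3, hgp]
  · exfalso
    have h4 := h3.conj Tet.tr (g := g) (E_z hg)
    rw [hgp, ← e1] at h4
    obtain ⟨u, v, h5⟩ := h4
    refine H.not_two h5 hqx ?_
    obtain ⟨-, -, hcx⟩ := mem_C0.1 hc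
    have hpx' : x * p = p * x := mul_inv_eq_iff_eq_mul.1 hpx
    have : Commute x (g * r * p * (g * r)⁻¹) := by
      have c1 : Commute x (g * r) := hcx.symm
      have c2 : Commute x p := hpx'
      exact (c1.mul_right c2).mul_right c1.inv_right
    rw [this.eq, mul_inv_cancel_right]

/-! ### Perfectness -/

theorem E_le_S : E ≤ S x := by
  conv_lhs => rw [← frame.perf]
  rw [commutator_le]
  intro a ha b hb
  obtain ⟨r1, hr1, h1⟩ := H.exists_mul ha
  obtain ⟨r2, hr2, h2⟩ := H.exists_mul hb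
  -- `a = c1 s1`, `b = c2 s2`
  obtain ⟨c1, hc1⟩ : ∃ c1, c1 = a * r1 := ⟨_, rfl⟩
  obtain ⟨c2, hc2⟩ : ∃ c2, c2 = b * r2 := ⟨_, rfl⟩
  rw [← hc1] at h1
  rw [← hc2] at h2
  have ea : a = c1 * r1⁻¹ := by rw [hc1, mul_inv_cancel_right]
  have eb : b = c2 * r2⁻¹ := by rw [hc2, mul_inv_cancel_right]
  have hs1 := R.inv_mem hr1
  have hs2 := R.inv_mem hr2
  generalize r1⁻¹ = s1 at ea hs1
  generalize r2⁻¹ = s2 at eb hs2
  have hz1 := C0_z h1
  have hz2 := C0_z h2
  refine ⟨⁅c1, c2⁆, commutator_mem_commutator h1 h2,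
    c2 * ((c1 * ((c2⁻¹ * s1 * c2⁻¹⁻¹) * s2 * s1⁻¹) * c1⁻¹) * s2⁻¹) * c2⁻¹, ?_, ?_⟩
  · exact R_norm hz2 (mul_mem (R_norm hz1 (mul_mem (mul_mem (R_norm (z_comm_inv hz2) hs1) hs2) (inv_mem hs1)))
      (inv_mem hs2))
  · rw [ea, eb, commutatorElement_def, commutatorElement_def]
    group

/-- every element of `C0 ∩ E` is in `[C0, C0]` up to `z` -/
theorem mem_der {c : Fi24} (hc : c ∈ C0 x) (hcE : c ∈ E) :
    c ∈ ⁅C0 x, C0 x⁆ ∨ ∃ c' ∈ ⁅C0 x, C0 x⁆, c = c' * z := by
  obtain ⟨c', hc', r, hr, h⟩ := mem_S.1 (H.E_le_S hcE)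
  have h1 : r = c'⁻¹ * c := by rw [h, inv_mul_cancel_left]
  have h2 : r ∈ C0 x := by
    rw [h1]
    exact mul_mem (inv_mem (der_le hc')) hc
  rcases H.cent_R hr (mem_C0.1 h2).2.2 with h3 | h3
  · left
    rw [h, h3, mul_one]
    exact hc'
  · right
    exact ⟨c', hc', by rw [h, h3]⟩

omit H in
/-- elements normalizing `C0` normalize `[C0, C0]` -/
theorem norm_der {p : Fi24} (hpz : p * z = z * p) (hpx : p * x = x * p) {c : Fi24} (hc : c ∈ ⁅C0 x, C0 x⁆) :
    p * c * p⁻¹ ∈ ⁅C0 x, C0 x⁆ := by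
  have h1 : (C0 x).map (MulAut.conj p).toMonoidHom ≤ C0 x := by
    rintro _ ⟨y, hy, rfl⟩
    obtain ⟨h1, h2, h3⟩ := mem_C0.1 hy
    refine mem_C0.2 ⟨Normal.conj_mem inferInstance y h1 p, ?_, ?_⟩
    · have c1 : Commute p z := hpz
      have c2 : Commute y z := h2
      exact ((c1.mul_left c2).mul_left c1.inv_left).eq
    · have c1 : Commute p x := hpx
      have c2 : Commute y x := h3
      exact ((c1.mul_left c2).mul_left c1.inv_left).eq
  have h2 : (⁅C0 x, C0 x⁆).map (MulAut.conj p).toMonoidHom ≤ ⁅C0 x, C0 x⁆ := by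
    rw [map_commutator]
    exact commutator_mono h1 h1
  exact h2 ⟨c, hc, rfl⟩

/-- **the products of two transpositions centralizing `x` are in `[C0, C0]`** -/
theorem pair_mem_der {p q : Fi24} (hp : p ∈ Dz) (hq : q ∈ Dz) (hpx : x * p * x⁻¹ = p) (hqx : x * q * x⁻¹ = q) :
    p * q ∈ ⁅C0 x, C0 x⁆ := by
  obtain ⟨c, hc, hcE, rfl⟩ := H.trans hp hq hpx hqx
  have hpp : p * p = 1 := FiTwentyFour.sq hp.1
  have hpi : p⁻¹ = p := inv_eq_of_mul_eq_one_left hpp
  have hpx' : p * x = x * p := (mul_inv_eq_iff_eq_mul.1 hpx).symm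
  rcases H.mem_der hc hcE with h | ⟨c', hc', rfl⟩
  · have h1 := mul_mem (norm_der hp.2 hpx' h) (inv_mem h)
    rwa [hpi, show p * c * p * c⁻¹ = p * (c * p * c⁻¹) by group] at h1
  · have h1 := mul_mem (norm_der hp.2 hpx' hc') (inv_mem hc')
    rw [hpi, show p * c' * p * c'⁻¹ = p * (c' * p * c'⁻¹) by group] at h1
    have h2 : c' * z * p * (c' * z)⁻¹ = c' * p * c'⁻¹ := by
      have h3 := hp.2
      calc c' * z * p * (c' * z)⁻¹ = c' * (z * p) * (c' * z)⁻¹ := by group
        _ = c' * (p * z) * (c' * z)⁻¹ := by rw [h3]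
        _ = _ := by group
    rw [h2]
    exact h1

/-! ### The outer elements -/

/-- **the elements of `C_{Fi24'}(z)` outside `E` do not centralize `x`** -/
theorem C0_le (hidx : ∀ g ∈ _root_.commutator Fi24, g * z = z * g → g ∉ E → ∀ h ∈ _root_.commutator Fi24, h * z = z * h → h ∉ E →
    g⁻¹ * h ∈ E) : C0 x ≤ E := by
  intro c hc
  obtain ⟨hcK, hcz, hcx⟩ := mem_C0.1 hc
  by_contra hcE
  obtain ⟨g, hg, hgz, hinv⟩ := exists_inv
  have h1 := hinv x H.mem
  have hgE : g ∉ E := by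
    intro hgE
    apply H.sq_not_mem
    have h2 := comm_Zc hgE H.mem
    have h3 : x * x = (⁅g, x⁆)⁻¹ * (g * x * g⁻¹ * x) := by rw [commutatorElement_def]; group
    rw [h3]
    exact R.mul_mem (R.inv_mem h2) h1
  have h2 := hidx g hg hgz hgE c hcK hcz hcE
  have h3 := comm_Zc h2 H.mem
  apply H.sq_not_mem
  -- `x = c x c⁻¹ = g [g⁻¹c, x] x g⁻¹`
  have h4 : x * x = (g * ⁅g⁻¹ * c, x⁆ * g⁻¹) * (g * x * g⁻¹ * x) := by
    have h5 : x = c * x * c⁻¹ := by rw [hcx, mul_inv_cancel_right]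
    have h6 : (g * ⁅g⁻¹ * c, x⁆ * g⁻¹) * (g * x * g⁻¹ * x) = (c * x * c⁻¹) * x := by
      rw [commutatorElement_def]; group
    rw [h6, ← h5]
  rw [h4]
  exact R.mul_mem (R_norm hgz h3) h1

/-! ### The sextet -/

end Dat

/-- a set of four points is a tetrad -/
theorem tet_of_set {T : Finset GolayPt} (hT : T.card = 4) {v : GolayPt} (hv : v ∈ T) :
    ∃ a b c, T = {v, a, b, c} ∧ IsTet L ((pr e T : Spor.Fi24') : Fi24) (d v) (d a) (d b) (d c) := by
  have h1 : (T.erase v).card = 3 := by rw [Finset.card_erase_of_mem hv, hT]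
  obtain ⟨a, b, c, hab, hac, hbc, h2⟩ := Finset.card_eq_three.1 h1
  have hT' : T = {v, a, b, c} := by rw [← h2, Finset.insert_erase hv]
  have hv' : v ∉ T.erase v := Finset.notMem_erase _ _
  rw [h2] at hv'
  simp only [Finset.mem_insert, Finset.mem_singleton, not_or] at hv'
  obtain ⟨hva, hvb, hvc⟩ := hv'
  refine ⟨a, b, c, hT', ?_⟩
  have h3 := Coco.isTet hva hvb hvc hab hac hbc
  have h4 : ((pr e T : Spor.Fi24') : Fi24) = d v * d a * d b * d c := by
    rw [hT', CocoD.pre.pr_insert (by simp [hva, hvb, hvc]), CocoD.pre.pr_insert (by simp [hab, hac]),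
      CocoD.pre.pr_pair hbc, ← mul_assoc, Subgroup.coe_mul, Coco.coe_two, Coco.coe_two, ← mul_assoc]
  rw [h4]
  exact h3

/-- the tetrad of `z` -/
def T1 : Finset GolayPt := {none, some 0, some 1, some 2}

theorem T1_card : T1.card = 4 := by decide

theorem pr_T1 : ((pr e T1 : Spor.Fi24') : Fi24) = z := by
  have h1 : pr e T1 = e none * (e (some 0) * (e (some 1) * e (some 2))) := by
    unfold T1
    rw [CocoD.pre.pr_insert (by decide), CocoD.pre.pr_insert (by decide), CocoD.pre.pr_pair (by decide)]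
  rw [h1, ← mul_assoc, Subgroup.coe_mul, Coco.coe_two, Coco.coe_two, ← mul_assoc]
  have h2 : d (some 1) = Fischer.Fi24Rep.gen .c := by
    rw [← CocoD.dw2]
    show Fischer.Fi24Rep.word [Fi24.Gen.c] = _
    rw [Fischer.Fi24Spider.word_cons, Fischer.Fi24Spider.word_nil, mul_one]
  have h3 : d (some 2) = Fischer.Fi24Rep.gen .e := by
    rw [← CocoD.dw3]
    show Fischer.Fi24Rep.word [Fi24.Gen.e] = _
    rw [Fischer.Fi24Spider.word_cons, Fischer.Fi24Spider.word_nil, mul_one]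
  rw [CocoD.d_none, CocoD.d_zero, h2, h3]
  rfl

end Cfsg.Agent.H827.ZThree
end

-- part: H827/ZSext
section
/-!
# `z ∈ [C0, C0]` (helper827)

`z` is the product of the six transpositions of a sextet centralizing `x`.
-/

set_option autoImplicit false

namespace Cfsg.Agent.H827.ZSext

open Cfsg Cfsg.Spor Subgroup Cfsg.Agent.KFacts.FiTF Cfsg.Agent.KFacts.FiTF.Defs
open Cfsg.Agent.R08 Cfsg.Agent.R08.FiTwentyFour
open Cfsg.Agent.R08.TetTwo (IsTet Mate)
open Cfsg.Agent.H827.ZLoc Cfsg.Agent.H827.ZThree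
open Cfsg.Agent.H827.CocoD (d e)
open Cfsg.Agent.KFacts.FiTTh.BasDef (pr pr_singleton pr_empty)
open scoped commutatorElement Pointwise

/-- a set of four points with product `z` -/
def Z4 (T : Finset GolayPt) : Prop := T.card = 4 ∧ ((pr e T : Spor.Fi24') : Fi24) = z

theorem z4_T1 : Z4 T1 := ⟨T1_card, pr_T1⟩

theorem card_insert {v : GolayPt} (hv : v ∉ T1) : (insert v T1).card = 5 := by
  rw [Finset.card_insert_of_notMem hv, T1_card]

/-- the octad of `T1` and a further point -/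
theorem exists_oct {v : GolayPt} (hv : v ∉ T1) : ∃ O ∈ octads, T1 ⊆ O ∧ v ∈ O ∧ Z4 (O \ T1) := by
  classical
  obtain ⟨O, ⟨hO, hs⟩, -⟩ := Cfsg.Agent.S0363.result.2 (insert v T1) (card_insert hv)
  have hT : T1 ⊆ O := fun w hw => hs (Finset.mem_insert_of_mem hw)
  refine ⟨O, hO, hT, hs (Finset.mem_insert_self _ _), ?_, ?_⟩
  · rw [Finset.card_sdiff_of_subset hT, hO.2, T1_card]
  · have h1 : symmDiff O T1 = O \ T1 := by
      rw [symmDiff_def, Finset.sdiff_eq_empty_iff_subset.2 hT, Finset.sup_eq_union, Finset.union_empty]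
    have h2 := CocoD.pre.pr_symmDiff O T1
    rw [h1, CocoD.pre.pr_oct hO, one_mul] at h2
    rw [h2, pr_T1]

theorem oct_unique {O O' : Finset GolayPt} (hO : O ∈ octads) (hO' : O' ∈ octads) {U : Finset GolayPt}
    (hU : U.card = 5) (h : U ⊆ O) (h' : U ⊆ O') : O = O' := by
  obtain ⟨X, -, hX⟩ := Cfsg.Agent.S0363.result.2 U hU
  rw [hX O ⟨hO, h⟩, hX O' ⟨hO', h'⟩]

variable {x : Fi24} (H : Dat x)

include H

theorem exists_image {T : Finset GolayPt} (hT : Z4 T) {v : GolayPt} (hv : v ∈ T) :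
    ∃ w ∈ T, x * d v * x⁻¹ = d w := by
  obtain ⟨a, b, c, hT', h⟩ := tet_of_set hT.1 hv
  rw [hT.2] at h
  rcases H.mem4 h with h1 | h1 | h1 | h1
  · exact ⟨v, hv, h1⟩
  · exact ⟨a, by rw [hT']; simp, h1⟩
  · exact ⟨b, by rw [hT']; simp, h1⟩
  · exact ⟨c, by rw [hT']; simp, h1⟩

theorem exists_fix {T : Finset GolayPt} (hT : Z4 T) : ∃ v ∈ T, x * d v * x⁻¹ = d v := by
  obtain ⟨v, hv⟩ : T.Nonempty := by
    rw [← Finset.card_pos, hT.1]
    norm_num
  obtain ⟨a, b, c, hT', h⟩ := tet_of_set hT.1 hv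
  rw [hT.2] at h
  rcases H.exists_fix h with h1 | h1 | h1 | h1
  · exact ⟨v, hv, h1⟩
  · exact ⟨a, by rw [hT']; simp, h1⟩
  · exact ⟨b, by rw [hT']; simp, h1⟩
  · exact ⟨c, by rw [hT']; simp, h1⟩

/-- `x` permutes the 24 transpositions as an element of `M24` -/
theorem exists_m : ∃ m ∈ M24, ∀ p, x * d p * x⁻¹ = d (m p) := by
  have key : ∀ v, ∃ w, x * d v * x⁻¹ = d w := by
    intro v
    by_cases hv : v ∈ T1
    · obtain ⟨w, -, h⟩ := exists_image H z4_T1 hv
      exact ⟨w, h⟩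
    · obtain ⟨O, hO, hT, hvO, h4⟩ := exists_oct hv
      obtain ⟨w, -, h⟩ := exists_image H h4 (Finset.mem_sdiff.2 ⟨hvO, hv⟩)
      exact ⟨w, h⟩
  choose f hf using key
  have hfi : Function.Injective f := by
    intro p q hpq
    apply CocoD.d_inj
    have h2 : x * d p * x⁻¹ = x * d q * x⁻¹ := by rw [hf, hf, hpq]
    exact mul_left_cancel (mul_right_cancel h2)
  have hK : x ∈ _root_.commutator Fi24 := frame.EK H.mem.1
  have h1 : (⟨x, hK⟩ : Spor.Fi24') ∈ normalizer (Coco.AA : Set Spor.Fi24') :=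
    Coco.mem_normalizer_of (m := Equiv.ofBijective f (Finite.injective_iff_bijective.1 hfi)) hf
  exact Coco.exists_perm h1

/-- **`z` is in `[C0, C0]`** -/
theorem z_mem : (z : Fi24) ∈ ⁅C0 x, C0 x⁆ := by
  classical
  obtain ⟨m, hm, hmx⟩ := exists_m H
  have fixz : ∀ T, Z4 T → ∃ v ∈ T, m v = v := by
    intro T hT
    obtain ⟨v, hv, h⟩ := exists_fix H hT
    rw [hmx] at h
    exact ⟨v, hv, CocoD.d_inj h⟩
  have mapz : ∀ T, Z4 T → ∀ v ∈ T, m v ∈ T := by
    intro T hT v hv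
    obtain ⟨w, hw, h⟩ := exists_image H hT hv
    rw [hmx] at h
    rwa [CocoD.d_inj h]
  obtain ⟨u, hu, hmu⟩ := fixz T1 z4_T1
  -- two octads
  obtain ⟨O1, hO1, hT1, -, h41⟩ := exists_oct (v := some 3) (by decide)
  obtain ⟨v1, hv1, hmv1⟩ := fixz _ h41
  rw [Finset.mem_sdiff] at hv1
  obtain ⟨v', hv'⟩ : ∃ v', v' ∉ O1 := by
    by_contra hcon
    push Not at hcon
    have h1 : O1 = Finset.univ := Finset.eq_univ_of_forall hcon
    have h2 := hO1.2
    rw [h1, Finset.card_univ] at h2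
    have h24 : Fintype.card GolayPt = 24 := by decide +kernel
    omega
  obtain ⟨O2, hO2, hT2, hv'2, h42⟩ := exists_oct (v := v') (fun h => hv' (hT1 h))
  obtain ⟨v2, hv2, hmv2⟩ := fixz _ h42
  rw [Finset.mem_sdiff] at hv2
  have hv2O1 : v2 ∉ O1 := by
    intro h
    apply hv'
    have h1 : O1 = O2 := oct_unique hO1 hO2 (card_insert hv2.2)
      (Finset.insert_subset h hT1) (Finset.insert_subset hv2.1 hT2)
    rw [h1]
    exact hv'2
  -- the third octad
  obtain ⟨S3, hS3⟩ : ∃ S3, S3 = T1.erase u := ⟨_, rfl⟩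
  have hS3T : S3 ⊆ T1 := by rw [hS3]; exact Finset.erase_subset _ _
  have hS3c : S3.card = 3 := by rw [hS3, Finset.card_erase_of_mem hu, T1_card]
  have hT1S : T1 = insert u S3 := by rw [hS3, Finset.insert_erase hu]
  have hu3 : u ∉ S3 := by rw [hS3]; exact Finset.notMem_erase _ _
  have hU : (insert v1 (insert v2 S3)).card = 5 := by
    rw [Finset.card_insert_of_notMem, Finset.card_insert_of_notMem (fun h => hv2.2 (hS3T h)), hS3c]
    rw [Finset.mem_insert, not_or]
    exact ⟨fun h => hv2O1 (h ▸ hv1.1), fun h => hv1.2 (hS3T h)⟩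
  obtain ⟨O, ⟨hO, hUO⟩, huniq⟩ := Cfsg.Agent.S0363.result.2 _ hU
  have hv1O : v1 ∈ O := hUO (Finset.mem_insert_self _ _)
  have hv2O : v2 ∈ O := hUO (Finset.mem_insert_of_mem (Finset.mem_insert_self _ _))
  have hS3O : S3 ⊆ O := fun w hw => hUO (Finset.mem_insert_of_mem (Finset.mem_insert_of_mem hw))
  have hmT1 : T1.map m.toEmbedding = T1 := by
    apply Finset.eq_of_subset_of_card_le
    · intro w hw
      obtain ⟨w', hw', rfl⟩ := Finset.mem_map.1 hw
      exact mapz T1 z4_T1 w' hw'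
    · rw [Finset.card_map]
  have hmO : O.map m.toEmbedding = O := by
    apply huniq
    refine ⟨?_, ?_⟩
    · rw [← SporadicA.GolayPerm.smul_finset_eq_map]
      exact (SporadicA.GolayPerm.smul_mem_octads hm).2 hO
    · intro w hw
      rw [Finset.mem_map]
      rcases Finset.mem_insert.1 hw with rfl | hw
      · exact ⟨w, hv1O, hmv1⟩
      rcases Finset.mem_insert.1 hw with rfl | hw
      · exact ⟨w, hv2O, hmv2⟩
      have h1 : w ∈ T1.map m.toEmbedding := by rw [hmT1]; exact hS3T hw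
      obtain ⟨w', hw', h2⟩ := Finset.mem_map.1 h1
      refine ⟨w', hS3O ?_, h2⟩
      rw [hS3, Finset.mem_erase]
      refine ⟨?_, hw'⟩
      rintro rfl
      apply hu3
      have h3 : m w' = w := h2
      rwa [← hmu, h3]
  have huO : u ∉ O := by
    intro h
    apply hv2O1
    have hTO : T1 ⊆ O := by
      rw [hT1S]
      exact Finset.insert_subset h hS3O
    have h1 : O1 = O := oct_unique hO1 hO (card_insert hv1.2)
      (Finset.insert_subset hv1.1 hT1) (Finset.insert_subset hv1O hTO)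
    rw [h1]
    exact hv2O
  have hα : Fintype.card Cfsg.GolayPt = 24 := by simp
  -- the points of `O \ S3` are fixed
  have hfix : ∀ w ∈ O, w ∉ S3 → m w = w := by
    intro w hw hw3
    have hwT : w ∉ T1 := by
      rw [hT1S, Finset.mem_insert, not_or]
      exact ⟨fun h => huO (h ▸ hw), hw3⟩
    obtain ⟨Ow, hOw, hTw, hwOw, h4w⟩ := exists_oct hwT
    have hne : O ≠ Ow := fun h => huO (h ▸ hTw hu)
    have hsub : insert w S3 ⊆ O ∩ Ow := by
      intro y hy
      rcases Finset.mem_insert.1 hy with rfl | hy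
      · exact Finset.mem_inter.2 ⟨hw, hwOw⟩
      · exact Finset.mem_inter.2 ⟨hS3O hy, hTw (hS3T hy)⟩
    have hc4 : (insert w S3).card = 4 := by rw [Finset.card_insert_of_notMem hw3, hS3c]
    have h4 : (O ∩ Ow).card = 4 := by
      have h1 := Finset.card_le_card hsub
      rcases Cfsg.Agent.S0352.result hα Cfsg.Agent.S0363.result hO hOw hne with h | h | h <;> omega
    have heq : insert w S3 = O ∩ Ow := Finset.eq_of_subset_of_card_le hsub (by rw [h4, hc4])
    have h5 : m w ∈ O := by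
      rw [← hmO]
      exact Finset.mem_map.2 ⟨w, hw, rfl⟩
    have h6 := mapz _ h4w w (Finset.mem_sdiff.2 ⟨hwOw, hwT⟩)
    rw [Finset.mem_sdiff] at h6
    have h7 : m w ∈ insert w S3 := by
      rw [heq]
      exact Finset.mem_inter.2 ⟨h5, h6.1⟩
    rcases Finset.mem_insert.1 h7 with h8 | h8
    · exact h8
    · exact absurd (hS3T h8) h6.2
  -- the transpositions
  have hDz : ∀ p, d p ∈ Dz := by
    intro p
    refine ⟨Coco.d_mem_L p, ?_⟩
    rw [← pr_T1]
    exact (Coco.d_comm_A (CocoD.pre.pr_mem T1) p).symm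
  have hpair : ∀ w, m w = w → ((e w * e u : Spor.Fi24') : Fi24) ∈ ⁅C0 x, C0 x⁆ := by
    intro w hw
    rw [Coco.coe_two]
    exact H.pair_mem_der (hDz w) (hDz u) (by rw [hmx, hw]) (by rw [hmx, hmu])
  have claim : ∀ W : Finset GolayPt, (∀ w ∈ W, m w = w) →
      ((pr e W * e u ^ W.card : Spor.Fi24') : Fi24) ∈ ⁅C0 x, C0 x⁆ := by
    intro W
    induction W using Finset.induction_on with
    | empty =>
      intro _
      rw [pr_empty, Finset.card_empty, pow_zero, mul_one]
      exact one_mem _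
    | insert w W hw ih =>
      intro hW
      have h1 := ih (fun y hy => hW y (Finset.mem_insert_of_mem hy))
      have h2 := hpair w (hW w (Finset.mem_insert_self _ _))
      have h3 : pr e (insert w W) * e u ^ (insert w W).card = (e w * e u) * (pr e W * e u ^ W.card) := by
        rw [CocoD.pre.pr_insert hw, Finset.card_insert_of_notMem hw, pow_succ']
        have h4 : e u * pr e W = pr e W * e u :=
          CocoD.pre.comm' (Cfsg.Agent.KFacts.FiTTh.BasDef.mem_A e u) (CocoD.pre.pr_mem W)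
        calc e w * pr e W * (e u * e u ^ W.card) = e w * (pr e W * e u) * e u ^ W.card := by group
          _ = e w * (e u * pr e W) * e u ^ W.card := by rw [h4]
          _ = _ := by group
      rw [h3, Subgroup.coe_mul]
      exact mul_mem h2 h1
  have hc5 : (O \ S3).card = 5 := by rw [Finset.card_sdiff_of_subset hS3O, hO.2, hS3c]
  have h1 := claim (O \ S3) (fun w hw => hfix w (Finset.mem_sdiff.1 hw).1 (Finset.mem_sdiff.1 hw).2)
  rw [hc5] at h1
  -- `pr T1 = pr (O \ S3) * e u`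
  have h2 : pr e (O \ S3) = pr e S3 := by
    have h3 : symmDiff O S3 = O \ S3 := by
      rw [symmDiff_def, Finset.sdiff_eq_empty_iff_subset.2 hS3O, Finset.sup_eq_union, Finset.union_empty]
    have h4 := CocoD.pre.pr_symmDiff O S3
    rwa [h3, CocoD.pre.pr_oct hO, one_mul] at h4
  have h3 : pr e T1 = pr e (O \ S3) * e u ^ 5 := by
    have e2 : e u ^ 2 = 1 := by rw [pow_two, CocoD.pre.sq]
    rw [h2, hT1S, CocoD.pre.pr_insert hu3, show (5 : ℕ) = 2 * 2 + 1 by norm_num, pow_succ, pow_mul, e2, one_pow,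
      one_mul]
    exact CocoD.pre.comm' (Cfsg.Agent.KFacts.FiTTh.BasDef.mem_A e u) (CocoD.pre.pr_mem S3)
  rw [← h3, pr_T1] at h1
  exact h1

/-- **`C0` is perfect** -/
theorem perf (hC : C0 x ≤ E) : ⁅C0 x, C0 x⁆ = C0 x := by
  apply le_antisymm der_le
  intro c hc
  rcases H.mem_der hc (hC hc) with h | ⟨c', hc', rfl⟩
  · exact h
  · exact mul_mem hc' (z_mem H)

end Cfsg.Agent.H827.ZSext
end

-- part: H827/ZFin
section
/-!
# The centralizer of a subgroup of order 3: abstract form (helper827)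
-/

set_option autoImplicit false

namespace Cfsg.Agent.H827.ZFin

open Cfsg Subgroup
open Cfsg.Agent.CTwoTab (ker_eq_center quoCenterEquiv quo_quasisimple)
open scoped commutatorElement

universe u v

/-- a generator of a group of order 3 -/
theorem exists_gen {H : Type*} [Group H] {X : Subgroup H} (hX : Nat.card X = 3) :
    ∃ x ∈ X, x ≠ 1 ∧ x ^ 3 = 1 ∧ orderOf x = 3 ∧ ∀ y ∈ X, y = 1 ∨ y = x ∨ y = x⁻¹ := by
  have hf : Fact (Nat.Prime 3) := ⟨Nat.prime_three⟩
  have : Finite ↥X := Nat.finite_of_card_ne_zero (by rw [hX]; norm_num)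
  have hc : IsCyclic ↥X := isCyclic_of_prime_card hX
  obtain ⟨g, hg⟩ := hc.exists_generator
  have h1 : orderOf g = 3 := by rw [orderOf_eq_card_of_forall_mem_zpowers hg, hX]
  have h2 : orderOf (g : H) = 3 := by rw [Subgroup.orderOf_coe, h1]
  have h3 : (g : H) ^ 3 = 1 := by rw [← h2, pow_orderOf_eq_one]
  have h4 : (g : H) ≠ 1 := by
    intro h
    rw [h, orderOf_one] at h2
    norm_num at h2
  refine ⟨g, g.2, h4, h3, h2, fun y hy => ?_⟩
  classical
  have h5 : (⟨y, hy⟩ : ↥X) ∈ zpowers g := hg _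
  obtain ⟨n, hn, hny⟩ := Finset.mem_image.1 (mem_zpowers_iff_mem_range_orderOf.1 h5)
  rw [Finset.mem_range, h1] at hn
  have h8 : (g : H) ^ n = y := congrArg Subtype.val hny
  interval_cases n
  · left; rw [← h8, pow_zero]
  · right; left; rw [← h8, pow_one]
  · right; right
    rw [← h8]
    apply eq_inv_of_mul_eq_one_left
    rw [← pow_succ, h3]

/-- **the final step** -/
theorem final {H : Type u} [Group H] {Q N M X : Subgroup H} [hQn : Q.Normal] [hNn : N.Normal] {z : H}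
    (hz : z * z = 1) (hz1 : z ≠ 1) (hzc : ∀ h, h * z = z * h)
    (hX : Nat.card X = 3) (hN : N = X ⊔ Q) {Φ : Type v} [Group Φ] (φ : M ⧸ N.subgroupOf M ≃* Φ) (hΦ : center Φ = ⊥)
    (hs : IsSimpleGroup Φ) (hCM : centralizer (X : Set H) ≤ M)
    (hMC : ∀ m ∈ M, ∃ q ∈ Q, m * q ∈ centralizer (X : Set H))
    (hCQ : ∀ q ∈ Q, q ∈ centralizer (X : Set H) → q = 1 ∨ q = z)
    (hperf : ⁅centralizer (X : Set H), centralizer (X : Set H)⁆ = centralizer (X : Set H)) :
    IsQuasisimple ↥(centralizer (X : Set H)) ∧ IsCyclic ↥(center ↥(centralizer (X : Set H))) ∧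
      Nat.card ↥(center ↥(centralizer (X : Set H))) = 6 ∧
      Nonempty (↥(centralizer (X : Set H)) ⧸ center ↥(centralizer (X : Set H)) ≃* Φ) := by
  obtain ⟨x, hxX, hx1, hx3, hxo, hall⟩ := exists_gen hX
  have hXC : ∀ y : H, y ∈ centralizer (X : Set H) ↔ y * x = x * y := by
    intro y
    rw [mem_centralizer_iff]
    constructor
    · intro h
      exact (h x hxX).symm
    · intro h w hw
      have hc : Commute y x := h
      rcases hall w hw with rfl | rfl | rfl
      · rw [one_mul, mul_one]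
      · exact h.symm
      · exact hc.inv_right.eq.symm
  have hxC : x ∈ centralizer (X : Set H) := (hXC x).2 rfl
  have hzC : z ∈ centralizer (X : Set H) := (hXC z).2 (hzc x).symm
  let π : ↥(centralizer (X : Set H)) →* Φ :=
    φ.toMonoidHom.comp ((QuotientGroup.mk' (N.subgroupOf M)).comp (inclusion hCM))
  have hπ : ∀ c : ↥(centralizer (X : Set H)), π c = φ ((inclusion hCM c : ↥M) : ↥M ⧸ N.subgroupOf M) := fun _ => rfl
  have hsurj : Function.Surjective π := by
    intro y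
    obtain ⟨m, hm⟩ := QuotientGroup.mk_surjective (φ.symm y)
    obtain ⟨q, hq, hmq⟩ := hMC m m.2
    refine ⟨⟨m * q, hmq⟩, ?_⟩
    rw [hπ, ← φ.apply_symm_apply y, ← hm]
    congr 1
    apply Eq.symm
    rw [QuotientGroup.eq, mem_subgroupOf]
    show (m : H)⁻¹ * (m * q) ∈ N
    rw [inv_mul_cancel_left, hN]
    exact (le_sup_right : Q ≤ X ⊔ Q) hq
  have hker : ∀ c : ↥(centralizer (X : Set H)), π c = 1 → ∃ y ∈ X, (c : H) = y ∨ (c : H) = y * z := by
    intro c hc
    rw [hπ, map_eq_one_iff φ φ.injective, QuotientGroup.eq_one_iff, mem_subgroupOf] at hc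
    have h1 : (c : H) ∈ N := hc
    rw [hN, mem_sup_of_normal_right] at h1
    obtain ⟨y, hy, q, hq, hyq⟩ := h1
    have hyC : y ∈ centralizer (X : Set H) := by
      rw [hXC]
      rcases hall y hy with rfl | rfl | rfl
      · rw [one_mul, mul_one]
      · rfl
      · group
    have hqC : q ∈ centralizer (X : Set H) := by
      have h2 : q = y⁻¹ * (c : H) := by rw [← hyq, inv_mul_cancel_left]
      rw [h2]
      exact mul_mem (inv_mem hyC) c.2
    refine ⟨y, hy, ?_⟩
    rcases hCQ q hq hqC with h3 | h3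
    · left; rw [← hyq, h3, mul_one]
    · right; rw [← hyq, h3]
  have hcomm : ∀ y ∈ X, ∀ c : ↥(centralizer (X : Set H)), (c : H) * y = y * c := by
    intro y hy c
    exact (mem_centralizer_iff.1 c.2 y hy).symm
  have hkc : π.ker ≤ center ↥(centralizer (X : Set H)) := by
    intro c hc
    rw [MonoidHom.mem_ker] at hc
    rw [mem_center_iff]
    intro g
    apply Subtype.ext
    show (g : H) * (c : H) = (c : H) * g
    obtain ⟨y, hy, h1 | h1⟩ := hker c hc
    · rw [h1, hcomm y hy g]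
    · rw [h1]
      have c1 : Commute (g : H) y := hcomm y hy g
      have c2 : Commute (g : H) z := hzc g
      exact (c1.mul_right c2).eq
  have hp : _root_.commutator ↥(centralizer (X : Set H)) = ⊤ := by
    have h2 : (_root_.commutator ↥(centralizer (X : Set H))).map (centralizer (X : Set H)).subtype =
      ⁅centralizer (X : Set H), centralizer (X : Set H)⁆ := map_subtype_commutator _
    rw [hperf] at h2
    rw [eq_top_iff]
    intro c _
    have h3 : (c : H) ∈ (_root_.commutator ↥(centralizer (X : Set H))).map (centralizer (X : Set H)).subtype := by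
      rw [h2]; exact c.2
    obtain ⟨y, hy, hyc⟩ := h3
    rwa [← (Subtype.ext hyc : y = c)]
  have hzp : z ∈ centralizer (X : Set H) := hzC
  -- an element of order 6
  have h6 : orderOf (x * z) = 6 := by
    have hzo : orderOf z = 2 := orderOf_eq_prime (by rw [pow_two, hz]) hz1
    have hc : Commute x z := hzc x
    rw [hc.orderOf_mul_eq_mul_orderOf_of_coprime (by rw [hxo, hzo]; norm_num), hxo, hzo]
  have hwC : x * z ∈ centralizer (X : Set H) := mul_mem hxC hzC
  have hw : (⟨x * z, hwC⟩ : ↥(centralizer (X : Set H))) ∈ center ↥(centralizer (X : Set H)) := by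
    rw [mem_center_iff]
    intro g
    apply Subtype.ext
    show (g : H) * (x * z) = x * z * g
    have c1 : Commute (g : H) x := hcomm x hxX g
    have c2 : Commute (g : H) z := hzc g
    exact (c1.mul_right c2).eq
  have h6' : orderOf (⟨⟨x * z, hwC⟩, hw⟩ : ↥(center ↥(centralizer (X : Set H)))) = 6 := by
    rw [← h6, ← Subgroup.orderOf_coe, ← Subgroup.orderOf_coe]
  have hfX : Finite ↥X := Nat.finite_of_card_ne_zero (by rw [hX]; norm_num)
  let F : ↥X × Bool → ↥(center ↥(centralizer (X : Set H))) := fun p =>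
    ⟨⟨(p.1 : H) * (if p.2 then z else 1), mul_mem (by
      rw [hXC]
      rcases hall p.1 p.1.2 with h | h | h <;> rw [h]
      · rw [one_mul, mul_one]
      · group) (by
      split_ifs
      · exact hzC
      · exact one_mem _)⟩, by
      rw [mem_center_iff]
      intro g
      apply Subtype.ext
      show (g : H) * ((p.1 : H) * (if p.2 then z else 1)) = (p.1 : H) * (if p.2 then z else 1) * g
      have c1 : Commute (g : H) (p.1 : H) := hcomm p.1 p.1.2 g
      have c2 : Commute (g : H) (if p.2 then z else 1) := by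
        split_ifs
        · exact hzc g
        · exact Commute.one_right _
      exact (c1.mul_right c2).eq⟩
  have hF : Function.Surjective F := by
    intro c
    have h1 : π (c : ↥(centralizer (X : Set H))) = 1 := by
      have h2 : (c : ↥(centralizer (X : Set H))) ∈ π.ker := by
        rw [ker_eq_center hsurj hΦ hkc]
        exact c.2
      exact h2
    obtain ⟨y, hy, h2 | h2⟩ := hker _ h1
    · refine ⟨(⟨y, hy⟩, false), ?_⟩
      apply Subtype.ext
      apply Subtype.ext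
      show y * (if false then z else 1) = _
      rw [h2]
      simp
    · refine ⟨(⟨y, hy⟩, true), ?_⟩
      apply Subtype.ext
      apply Subtype.ext
      show y * (if true then z else 1) = _
      rw [h2]
      simp
  have hfc : Finite ↥(center ↥(centralizer (X : Set H))) := Finite.of_surjective F hF
  have hcard : Nat.card ↥(center ↥(centralizer (X : Set H))) = 6 := by
    apply le_antisymm
    · have h1 := Nat.card_le_card_of_surjective F hF
      rw [Nat.card_prod, hX, Nat.card_eq_fintype_card (α := Bool), Fintype.card_bool] at h1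
      exact h1
    · rw [← h6']
      exact Nat.le_of_dvd Nat.card_pos (_root_.orderOf_dvd_natCard _)
  refine ⟨quo_quasisimple hsurj hΦ hkc hp, ?_, hcard, ⟨quoCenterEquiv hsurj hΦ hkc⟩⟩
  exact isCyclic_of_orderOf_eq_card _ (by rw [h6', hcard])

/-- an element of order 3 generating a normal subgroup modulo `Q` commutes modulo `Q` with the commutators -/
theorem comm_of_normal {W : Type*} [Group W] {x : W} (hall : ∀ g : W, g * x * g⁻¹ = x ∨ g * x * g⁻¹ = x⁻¹) (a b : W) :
    ⁅a, b⁆ * x = x * ⁅a, b⁆ := by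
  have key : ∀ g : W, (g * x * g⁻¹ = x ∧ g⁻¹ * x * g = x) ∨ (g * x * g⁻¹ = x⁻¹ ∧ g⁻¹ * x * g = x⁻¹) := by
    intro g
    rcases hall g with h | h
    · left
      refine ⟨h, ?_⟩
      conv_lhs => rw [← h]
      group
    · right
      refine ⟨h, ?_⟩
      have h1 : g⁻¹ * x⁻¹ * g = x := by rw [← h]; group
      have h2 : g⁻¹ * x * g = (g⁻¹ * x⁻¹ * g)⁻¹ := by group
      rw [h2, h1]
  have h1 : ⁅a, b⁆ * x * ⁅a, b⁆⁻¹ = a * (b * (a⁻¹ * (b⁻¹ * x * b) * a) * b⁻¹) * a⁻¹ := by
    rw [commutatorElement_def]; group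
  have hi : ∀ g y : W, g * y⁻¹ * g⁻¹ = (g * y * g⁻¹)⁻¹ := fun g y => by group
  have hi' : ∀ g y : W, g⁻¹ * y⁻¹ * g = (g⁻¹ * y * g)⁻¹ := fun g y => by group
  rw [← mul_inv_eq_iff_eq_mul, h1]
  rcases key a with ⟨a1, a2⟩ | ⟨a1, a2⟩ <;> rcases key b with ⟨b1, b2⟩ | ⟨b1, b2⟩ <;>
    simp only [a1, a2, b1, b2, hi, hi', inv_inv]

end Cfsg.Agent.H827.ZFin
end

-- part: S5451
section
set_option autoImplicit false
open Cfsg

namespace Cfsg.Agent.S5451

open Cfsg.Agent.H827 Cfsg.Spor Subgroup Cfsg.Agent.KFacts.FiTF Cfsg.Agent.KFacts.FiTF.Defs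
open Cfsg.Agent.CTwoTab.FiTF (z0 R0)
open Cfsg.Agent.H827.ZThree (C0 mem_C0 Dat)
open scoped commutatorElement

theorem card_psu {K : Type} [Field K] [Fintype K] (hK : Fintype.card K = 9) : Nat.card (Cfsg.PSU 4 K 3) = 3265920 := by
  have h := Cfsg.Agent.S0280.result (F := K) (q := 3) (by rw [hK]; norm_num) 4 (by norm_num)
  have h1 : Nat.gcd 4 (3 + 1) = 4 := by decide
  have h2 : 3 ^ (4 * (4 - 1) / 2) * ∏ i ∈ Finset.range 4,
      (if Even i then 3 ^ (i + 1) + 1 else 3 ^ (i + 1) - 1) = 52254720 := by decide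
  rw [h1, h2] at h
  omega

section

variable {G : Type*} [Group G] {z : G} (e : G ≃* Spor.Fi24')

/-- the map of `C(z)` into `Fi24` -/
def ψ (z : G) : ↥(centralizer ({z} : Set G)) →* Fi24 :=
  (_root_.commutator Fi24).subtype.comp (e.toMonoidHom.comp (centralizer ({z} : Set G)).subtype)

theorem ψ_inj : Function.Injective (ψ e z) := by
  intro a b h
  apply Subtype.ext
  apply e.injective
  exact Subtype.ext h

variable {e} (hz : e z = z0)

include hz

theorem ψ_z (h : ↥(centralizer ({z} : Set G))) : ψ e z h * Defs.z = Defs.z * ψ e z h := by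
  have h1 : (h : G) * z = z * h := mem_centralizer_singleton_iff.1 h.2
  have h2 := congrArg (fun y : G => ((e y : Spor.Fi24') : Fi24)) h1
  simp only [map_mul, hz] at h2
  exact h2

omit hz in
theorem ψ_K (h : ↥(centralizer ({z} : Set G))) : ψ e z h ∈ _root_.commutator Fi24 := (e (h : G)).2

theorem exists_ψ {g : Fi24} (hg : g ∈ _root_.commutator Fi24) (hgz : g * Defs.z = Defs.z * g) : ∃ h, ψ e z h = g := by
  have h1 : e.symm ⟨g, hg⟩ ∈ centralizer ({z} : Set G) := by
    rw [mem_centralizer_singleton_iff]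
    apply e.injective
    rw [map_mul, map_mul, e.apply_symm_apply, hz]
    exact Subtype.ext hgz
  refine ⟨⟨_, h1⟩, ?_⟩
  show ((e (e.symm ⟨g, hg⟩) : Spor.Fi24') : Fi24) = g
  rw [e.apply_symm_apply]

end

/-- Let G be a finite group of large Fischer type at the involution z: the generalized Fitting subgroup Q of H = C_G(z) is extraspecial of order 2^13, H has normal subgroups Q ≤ H₁ ≤ H₂ with H₁/Q of order 3, H₂/H₁ the projective special unitary group of dimension 4 over the field with nine elements and H₂ of index 2 in H, and some conjugate of z other than z lies in Q. Let X be a subgroup of H of order 3 whose product with Q is normal in H (X maps onto the normal subgroup of order 3 of H/Q). Then the centralizer of X in H is quasisimple with cyclic centre of order 6 and central quotient isomorphic to the projective special unitary group of dimension 4 over the field with nine elements. -/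
theorem result {G : Type*} [Group G] [Finite G] (z : G) (Q : Subgroup (Subgroup.centralizer ({z} : Set G))) [Q.Normal] (hF : Cfsg.IsOfLargeFischerTypeAt z Q) (X : Subgroup (Subgroup.centralizer ({z} : Set G))) (hX : Nat.card X = 3) (hXQ : (X ⊔ Q).Normal) : Cfsg.IsQuasisimple ↥(Subgroup.centralizer ((X : Subgroup (Subgroup.centralizer ({z} : Set G))) : Set (Subgroup.centralizer ({z} : Set G)))) ∧ IsCyclic ↥(Subgroup.center ↥(Subgroup.centralizer ((X : Subgroup (Subgroup.centralizer ({z} : Set G))) : Set (Subgroup.centralizer ({z} : Set G))))) ∧ Nat.card ↥(Subgroup.center ↥(Subgroup.centralizer ((X : Subgroup (Subgroup.centralizer ({z} : Set G))) : Set (Subgroup.centralizer ({z} : Set G))))) = 6 ∧ ∃ (K : Type) (_ : Field K) (_ : Fintype K), Fintype.card K = 9 ∧ Nonempty (↥(Subgroup.centralizer ((X : Subgroup (Subgroup.centralizer ({z} : Set G))) : Set (Subgroup.centralizer ({z} : Set G)))) ⧸ Subgroup.center ↥(Subgroup.centralizer ((X : Subgroup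 (Subgroup.centralizer ({z} : Set G))) : Set (Subgroup.centralizer ({z} : Set G)))) ≃* Cfsg.PSU 4 K 3) := by
  obtain ⟨e, hz, hQ⟩ := Bridge.exists_equiv hF
  obtain ⟨⟨h1, -, -, h4, -⟩, N, M, hN, hM, hQN, hNM, hNc, ⟨K, i1, i2, hK, ⟨φ⟩⟩, hMi⟩ := hF
  have hψ := ψ_inj (z := z) e
  have hQ' : ∀ h : ↥(Subgroup.centralizer ({z} : Set G)), h ∈ Q ↔ ψ e z h ∈ R := by
    intro h
    rw [hQ]
    exact mem_subgroupOf
  have hmapE : ∀ g ∈ Defs.E, ∃ h, ψ e z h = g := fun g hg => exists_ψ hz (frame.EK hg) (frame.Ez g hg)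
  -- `E` in `H`
  obtain ⟨E0, hE0⟩ : ∃ E0 : Subgroup ↥(Subgroup.centralizer ({z} : Set G)), E0 = Defs.E.comap (ψ e z) := ⟨_, rfl⟩
  have hE0m : E0.map (ψ e z) = Defs.E := by
    rw [hE0, Subgroup.map_comap_eq, inf_eq_right]
    intro g hg
    obtain ⟨h, rfl⟩ := hmapE g hg
    exact ⟨h, rfl⟩
  have hE0p : ⁅E0, E0⁆ = E0 := by
    apply Subgroup.map_injective hψ
    rw [Subgroup.map_commutator, hE0m, frame.perf]
  have hM2 : ∀ a b : ↥(Subgroup.centralizer ({z} : Set G)), ⁅a, b⁆ ∈ M := by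
    intro a b
    rw [commutatorElement_def, mul_mem_iff_of_index_two hMi, mul_mem_iff_of_index_two hMi,
      mul_mem_iff_of_index_two hMi, inv_mem_iff, inv_mem_iff]
    (clear * -; tauto)
  have hE0M : E0 ≤ M := by
    rw [← hE0p, commutator_le]
    exact fun a _ b _ => hM2 a b
  have hcardE : 9797760 * 8192 ≤ Nat.card E0 := by
    have h5 : Nat.card ↥(E0.map (ψ e z)) = Nat.card E0 :=
      Nat.card_congr (E0.equivMapOfInjective _ hψ).toEquiv.symm
    rw [← h5, hE0m]
    exact SheetMFi.card_E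
  have hcardM : Nat.card M = 9797760 * 8192 := by
    have h5 := card_mul_index (N.subgroupOf M)
    rw [Nat.card_congr (subgroupOfEquivOfLe hNM).toEquiv, hNc, h4] at h5
    have h6 : (N.subgroupOf M).index = 3265920 := by
      rw [← card_psu hK]
      exact Nat.card_congr φ.toEquiv
    rw [h6] at h5
    omega
  have hE0eq : E0 = M := Subgroup.eq_of_le_of_card_ge hE0M (by rw [hcardM]; exact hcardE)
  have hME : ∀ h, h ∈ M ↔ ψ e z h ∈ Defs.E := by
    intro h
    rw [← hE0eq, hE0]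
    exact Iff.rfl
  have hidx : ∀ g ∈ _root_.commutator Fi24, g * Defs.z = Defs.z * g → g ∉ Defs.E → ∀ h ∈ commutator Fi24,
      h * Defs.z = Defs.z * h → h ∉ Defs.E → g⁻¹ * h ∈ Defs.E := by
    intro g hg hgz hgE h hh hhz hhE
    obtain ⟨g', rfl⟩ := exists_ψ hz hg hgz
    obtain ⟨h', rfl⟩ := exists_ψ hz hh hhz
    rw [← hME] at hgE hhE
    rw [← map_inv, ← map_mul, ← hME, mul_mem_iff_of_index_two hMi, inv_mem_iff]
    (clear * - hgE hhE; tauto)
  -- the element `x`
  obtain ⟨x, hxX, hx1, hx3, hxo, hall⟩ := ZFin.exists_gen hX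
  have hQM : Q ≤ M := hQN.trans hNM
  have hxQ : x ∉ Q := by
    intro h
    have h5 := _root_.orderOf_dvd_natCard (⟨x, h⟩ : ↥Q)
    rw [← Subgroup.orderOf_coe, hxo, h4] at h5
    revert h5
    decide
  have hxM : x ∈ M := by
    have h5 : x = (x * x)⁻¹ := by
      apply eq_inv_of_mul_eq_one_left
      rw [← mul_assoc, ← pow_two, ← pow_succ, hx3]
    rw [h5]
    exact inv_mem (mul_self_mem_of_index_two hMi x)
  -- the commutators with `x`
  have hxc : ∀ m ∈ M, ⁅x, m⁆ ∈ Q := by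
    have hall' : ∀ g : ↥(Subgroup.centralizer ({z} : Set G)) ⧸ Q, g * (x : ↥(Subgroup.centralizer ({z} : Set G)) ⧸ Q) * g⁻¹ = x ∨
        g * (x : ↥(Subgroup.centralizer ({z} : Set G)) ⧸ Q) * g⁻¹ = (x : ↥(Subgroup.centralizer ({z} : Set G)) ⧸ Q)⁻¹ := by
      intro g
      obtain ⟨g, rfl⟩ := QuotientGroup.mk_surjective g
      have h5 : g * x * g⁻¹ ∈ X ⊔ Q := hXQ.conj_mem x ((le_sup_left : X ≤ X ⊔ Q) hxX) g
      rw [mem_sup_of_normal_right] at h5
      obtain ⟨y, hy, q, hq, hyq⟩ := h5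
      have h6 : (g : ↥(Subgroup.centralizer ({z} : Set G)) ⧸ Q) * (x : ↥(Subgroup.centralizer ({z} : Set G)) ⧸ Q) *
          (g : ↥(Subgroup.centralizer ({z} : Set G)) ⧸ Q)⁻¹ = (y : ↥(Subgroup.centralizer ({z} : Set G)) ⧸ Q) := by
        rw [← QuotientGroup.mk_inv, ← QuotientGroup.mk_mul, ← QuotientGroup.mk_mul, ← hyq, QuotientGroup.mk_mul,
          (QuotientGroup.eq_one_iff q).2 hq, mul_one]
      rw [h6]
      rcases hall y hy with rfl | rfl | rfl
      · exfalso
        apply hxQ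
        rw [one_mul] at hyq
        have h7 : x = g⁻¹ * q * g⁻¹⁻¹ := by rw [hyq]; group
        rw [h7]
        exact Subgroup.Normal.conj_mem inferInstance q hq g⁻¹
      · exact Or.inl rfl
      · right
        rw [QuotientGroup.mk_inv]
    intro m hm
    have hle : M ≤ (Subgroup.centralizer ({(x : ↥(Subgroup.centralizer ({z} : Set G)) ⧸ Q)} :
        Set (↥(Subgroup.centralizer ({z} : Set G)) ⧸ Q))).comap (QuotientGroup.mk' Q) := by
      rw [← hE0eq]
      conv_lhs => rw [← hE0p]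
      rw [commutator_le]
      intro a _ b _
      rw [mem_comap, map_commutatorElement, mem_centralizer_singleton_iff]
      exact ZFin.comm_of_normal hall' _ _
    have h5 := hle hm
    rw [mem_comap, mem_centralizer_singleton_iff] at h5
    rw [← QuotientGroup.eq_one_iff]
    have h6 : ((⁅x, m⁆ : ↥(Subgroup.centralizer ({z} : Set G))) : ↥(Subgroup.centralizer ({z} : Set G)) ⧸ Q) =
        ⁅(x : ↥(Subgroup.centralizer ({z} : Set G)) ⧸ Q), (m : ↥(Subgroup.centralizer ({z} : Set G)) ⧸ Q)⁆ := rfl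
    rw [h6, commutatorElement_eq_one_iff_mul_comm]
    exact h5.symm
  have D : Dat (ψ e z x) := by
    refine ⟨⟨(hME x).1 hxM, fun g hg => ?_⟩, fun h => hxQ ((hQ' x).2 h), ?_⟩
    · obtain ⟨m, rfl⟩ := hmapE g hg
      rw [← map_commutatorElement, ← hQ']
      exact hxc m ((hME m).2 hg)
    · rw [← map_pow, hx3, map_one]
  have hCE : C0 (ψ e z x) ≤ Defs.E := D.C0_le hidx
  -- the centralizer of `X`
  have hXC : ∀ y : ↥(Subgroup.centralizer ({z} : Set G)), y ∈ centralizer (X : Set ↥(Subgroup.centralizer ({z} : Set G))) ↔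
      ψ e z y ∈ C0 (ψ e z x) := by
    intro y
    rw [mem_C0, mem_centralizer_iff]
    constructor
    · intro h
      refine ⟨ψ_K y, ψ_z hz y, ?_⟩
      rw [← map_mul, ← map_mul, h x hxX]
    · rintro ⟨-, -, h⟩ w hw
      rw [← map_mul, ← map_mul] at h
      have hc : Commute y x := hψ h
      rcases hall w hw with rfl | rfl | rfl
      · rw [one_mul, mul_one]
      · exact hc.symm.eq
      · exact hc.inv_right.eq.symm
  have hNeq : N = X ⊔ Q := by
    have hXM : X ≤ M := by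
      intro y hy
      rcases hall y hy with rfl | rfl | rfl
      · exact one_mem _
      · exact hxM
      · exact inv_mem hxM
    have hPM : X ⊔ Q ≤ M := sup_le hXM hQM
    have hcP : Nat.card ↥(X ⊔ Q) ≤ 24576 := by
      let F : ↥X × ↥Q → ↥(X ⊔ Q) := fun p => ⟨(p.1 : ↥(Subgroup.centralizer ({z} : Set G))) * p.2,
        mul_mem (mem_sup_left p.1.2) (mem_sup_right p.2.2)⟩
      have hF : Function.Surjective F := by
        rintro ⟨c, hc⟩
        obtain ⟨y, hy, q, hq, rfl⟩ := mem_sup_of_normal_right.1 hc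
        exact ⟨(⟨y, hy⟩, ⟨q, hq⟩), rfl⟩
      have h5 := Nat.card_le_card_of_surjective F hF
      rw [Nat.card_prod, hX, h4] at h5
      exact h5
    -- the image in the simple group
    let π : ↥M →* Cfsg.PSU 4 K 3 := φ.toMonoidHom.comp (QuotientGroup.mk' (N.subgroupOf M))
    have hπs : Function.Surjective π := φ.surjective.comp (QuotientGroup.mk'_surjective _)
    have hn : ((X ⊔ Q).subgroupOf M).Normal := by
      constructor
      intro n hn g
      rw [mem_subgroupOf] at hn ⊢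
      exact hXQ.conj_mem _ hn _
    have hn' : (((X ⊔ Q).subgroupOf M).map π).Normal := hn.map π hπs
    have hs : IsSimpleGroup (Cfsg.PSU 4 K 3) :=
      Cfsg.Agent.S0283.result (q := 3) (by rw [hK]; norm_num) 4 (by norm_num) (by norm_num)
    have hle : X ⊔ Q ≤ N := by
      rcases hn'.eq_bot_or_eq_top with h5 | h5
      · intro y hy
        have h6 : π ⟨y, hPM hy⟩ ∈ ((X ⊔ Q).subgroupOf M).map π := ⟨⟨y, hPM hy⟩, hy, rfl⟩
        rw [h5, mem_bot] at h6
        have h7 : φ ((⟨y, hPM hy⟩ : ↥M) : ↥M ⧸ N.subgroupOf M) = 1 := h6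
        rw [map_eq_one_iff φ φ.injective, QuotientGroup.eq_one_iff] at h7
        exact h7
      · exfalso
        have h6 : Nat.card ↥(((X ⊔ Q).subgroupOf M).map π) ≤ Nat.card ↥((X ⊔ Q).subgroupOf M) :=
          Nat.card_le_card_of_surjective _ (π.subgroupMap_surjective _)
        rw [h5, Subgroup.card_top, card_psu hK, Nat.card_congr (subgroupOfEquivOfLe hPM).toEquiv] at h6
        omega
    refine (Subgroup.eq_of_le_of_card_ge hle ?_).symm
    -- `|Q|` divides `|X ⊔ Q|`, which divides `3 |Q|`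
    have h5 : Nat.card Q ∣ Nat.card ↥(X ⊔ Q) := card_dvd_of_le le_sup_right
    have h6 : Nat.card ↥(X ⊔ Q) ∣ Nat.card N := card_dvd_of_le hle
    rw [hNc] at h6
    have hQ0 : 0 < Nat.card Q := Nat.card_pos
    obtain ⟨k, hk⟩ := h5
    rw [hk, mul_comm 3] at h6
    have h7 : k ∣ 3 := Nat.dvd_of_mul_dvd_mul_left hQ0 h6
    rcases (Nat.dvd_prime Nat.prime_three).1 h7 with h8 | h8
    · exfalso
      rw [h8, mul_one] at hk
      have h9 : Q = X ⊔ Q := Subgroup.eq_of_le_of_card_ge le_sup_right (by rw [hk])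
      apply hxQ
      rw [h9]
      exact mem_sup_left hxX
    · rw [hNc, hk, h8, mul_comm]
  have hzz : z ∈ Subgroup.centralizer ({z} : Set G) := mem_centralizer_singleton_iff.2 rfl
  have hs : IsSimpleGroup (Cfsg.PSU 4 K 3) := Cfsg.Agent.S0283.result (q := 3) (by rw [hK]; norm_num) 4 (by norm_num) (by norm_num)
  have hcen : center (Cfsg.PSU 4 K 3) = ⊥ := by
    rcases (inferInstance : (center (Cfsg.PSU 4 K 3)).Normal).eq_bot_or_eq_top with h | h
    · exact h
    · exfalso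
      have hfin : Finite (Cfsg.PSU 4 K 3) := Nat.finite_of_card_ne_zero (by rw [card_psu hK]; norm_num)
      let _ : CommGroup (Cfsg.PSU 4 K 3) := { (inferInstance : Group (Cfsg.PSU 4 K 3)) with
        mul_comm := fun a b => by
          have hb : b ∈ center (Cfsg.PSU 4 K 3) := by rw [h]; trivial
          exact mem_center_iff.1 hb a }
      have h5 : (Nat.card (Cfsg.PSU 4 K 3)).Prime := IsSimpleGroup.prime_card
      rw [card_psu hK] at h5
      revert h5
      norm_num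
  suffices hmain : Cfsg.IsQuasisimple ↥(centralizer (X : Set ↥(Subgroup.centralizer ({z} : Set G)))) ∧
      IsCyclic ↥(center ↥(centralizer (X : Set ↥(Subgroup.centralizer ({z} : Set G))))) ∧
      Nat.card ↥(center ↥(centralizer (X : Set ↥(Subgroup.centralizer ({z} : Set G))))) = 6 ∧
      Nonempty (↥(centralizer (X : Set ↥(Subgroup.centralizer ({z} : Set G)))) ⧸
        center ↥(centralizer (X : Set ↥(Subgroup.centralizer ({z} : Set G)))) ≃* Cfsg.PSU 4 K 3) by
    obtain ⟨r1, r2, r3, r4⟩ := hmain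
    exact ⟨r1, r2, r3, K, i1, i2, hK, r4⟩
  refine ZFin.final (H := ↥(Subgroup.centralizer ({z} : Set G))) (Q := Q) (N := N) (M := M) (X := X)
    (z := ⟨z, hzz⟩) ?_ ?_ ?_ hX hNeq φ hcen hs ?_ ?_ ?_ ?_
  · apply Subtype.ext
    show z * z = 1
    rw [← pow_two, ← h1, pow_orderOf_eq_one]
  · intro h
    have h5 : z = 1 := congrArg Subtype.val h
    rw [h5, orderOf_one] at h1
    norm_num at h1
  · intro h
    apply Subtype.ext
    exact mem_centralizer_singleton_iff.1 h.2
  · intro c hc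
    rw [hME]
    exact hCE ((hXC c).1 hc)
  · intro m hm
    obtain ⟨r, hr, hmr⟩ := D.exists_mul ((hME m).1 hm)
    obtain ⟨q, rfl⟩ := hmapE r (frame.RE hr)
    refine ⟨q, (hQ' q).2 hr, ?_⟩
    rw [hXC, map_mul]
    exact hmr
  · intro q hq hqC
    have h5 := mem_C0.1 ((hXC q).1 hqC)
    rcases D.cent_R ((hQ' q).1 hq) h5.2.2 with h6 | h6
    · left
      apply hψ
      rw [h6, map_one]
    · right
      apply hψ
      rw [h6]
      show Defs.z = ((e z : Spor.Fi24') : Fi24)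
      rw [hz]
      rfl
  · apply Subgroup.map_injective hψ
    have h5 : (centralizer (X : Set ↥(Subgroup.centralizer ({z} : Set G)))).map (ψ e z) = C0 (ψ e z x) := by
      apply le_antisymm
      · rintro _ ⟨y, hy, rfl⟩
        exact (hXC y).1 hy
      · intro g hg
        obtain ⟨y, rfl⟩ := hmapE g (hCE hg)
        exact ⟨y, (hXC y).2 hg, rfl⟩
    rw [Subgroup.map_commutator, h5]
    exact ZSext.perf D hCE

end Cfsg.Agent.S5451
end
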