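import Cfsg.Agent.KFacts.FiTTh.Has
import Cfsg.Agent.KFacts.FiTF.FixZ_m3
import Cfsg.Statements.S5457
import Cfsg.Agent.H831.Triple8
import Cfsg.Agent.FastGrp
import Cfsg.Agent.Prune
set_option linter.all false
open scoped Cfsg.Agent.FastGrp

-- part: H836/Uniq23
section
/-!
# `Fi23`: the class of 3-transpositions is unique (helper836)

* `mem_D_of_three` : an involution whose conjugates are 3-transpositions is conjugate to `z0`
  (the two other classes contain commuting products `z0 a`, `z0 a c`; `(e z0)(f a)` and `(e z0 a)(f z0 c)` have order 6);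
* `uniq_class` : a class of 3-transpositions of `G`, `e : Spor.Fi23 ≃* G`, is the class of `e z0`.
-/

set_option autoImplicit false
set_option linter.constructorNameAsVariable false

namespace Cfsg.Agent.H836.Uniq23

open Subgroup Cfsg Cfsg.Spor Cfsg.Spor.Fi23
open Cfsg.Agent.KFacts.FiTTh
open Cfsg.Agent.Fischer Cfsg.Agent.Fischer.Fi23Class
open Cfsg.Agent.Fischer.Fi23Hom (gen)
open Cfsg.Agent.Fischer.Fi23Z (z0)
open Cfsg.Agent.Fischer.Fi23Final (gen_sq gen_rel)
open Cfsg.Agent.R08.FiTwentyThree (D)

theorem three (i j k i' j' k' : ZMod 23) (hij : i ≠ j) (hik : i ≠ k) (hjk : j ≠ k) (hij' : i' ≠ j') (hik' : i' ≠ k')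
    (hjk' : j' ≠ k') : ∃ n : Fi23, n * BasFi.e (some i) * n⁻¹ = BasFi.e (some i') ∧
      n * BasFi.e (some j) * n⁻¹ = BasFi.e (some j') ∧ n * BasFi.e (some k) * n⁻¹ = BasFi.e (some k') := by
  obtain ⟨n, -, h⟩ := Has.three (Has.s.symm i) (Has.s.symm j) (Has.s.symm k) (Has.s.symm i') (Has.s.symm j') (Has.s.symm k')
    (by simpa using hij) (by simpa using hik) (by simpa using hjk) (by simpa using hij') (by simpa using hik')
    (by simpa using hjk')
  simp only [Equiv.apply_symm_apply] at h
  exact ⟨n, h⟩

theorem z_gen (x : Gen) (hx : x ≠ .j) : z0 * gen x = gen x * z0 := by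
  have := Cfsg.Agent.R08.FiTwentyThree.finite_fi23
  exact (comm_z0 Cfsg.Agent.R08.FiTwentyThree.card_le _ (gen_mem_K x hx)).symm

theorem gen_inv (x : Gen) : (gen x : Fi23)⁻¹ = gen x := inv_eq_of_mul_eq_one_left (gen_sq x)

/-- `(ef) e (ef)⁻¹ = f` -/
theorem ef : gen .e * gen .f * gen .e * (gen .e * gen .f)⁻¹ = (gen .f : Fi23) := by
  have h := gen_rel .e .f
  have h3 : coxLabel edges .e .f = 3 := by decide
  rw [h3, pow_succ, pow_two] at h
  have h1 : gen .e * gen .f * gen .e * (gen .f * gen .e * gen .f) = (1 : Fi23) := by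
    rw [← h]; simp only [mul_assoc]
  have h2 : gen .e * gen .f * gen .e = (gen .f * gen .e * gen .f : Fi23) := by
    have h4 := eq_inv_of_mul_eq_one_left h1
    rw [h4, mul_inv_rev, mul_inv_rev, gen_inv, gen_inv, mul_assoc]
  rw [h2, mul_inv_rev, gen_inv, gen_inv]
  calc gen .f * gen .e * gen .f * (gen .f * gen .e) = gen .f * gen .e * (gen .f * gen .f) * gen .e := by
        simp only [mul_assoc]
    _ = gen .f := by rw [gen_sq, mul_one, mul_assoc, gen_sq, mul_one]

theorem ef_cube : (gen .e * gen .f) ^ 3 = (1 : Fi23) := by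
  have h := gen_rel .e .f
  rwa [show coxLabel edges .e .f = 3 by decide] at h

theorem ef_sq : (gen .e * gen .f) ^ 2 ≠ (1 : Fi23) := by
  intro h
  have h1 := ef_cube
  rw [pow_succ, h, one_mul] at h1
  have h2 : (gen .e : Fi23) = gen .f := by
    have := eq_inv_of_mul_eq_one_left h1
    rwa [gen_inv] at this
  exact Inn.n_ef (by rw [h2])

/-- `u = ef` commutes with `w`, `w² = 1`, `w ≠ 1`: the order of `u w` is 6 -/
theorem six {w : Fi23} (hc : Commute (gen .e * gen .f) w) (hw : w * w = 1) (hw1 : w ≠ 1) :
    ¬ ((gen .e * gen .f * w) ^ 2 = 1 ∨ (gen .e * gen .f * w) ^ 3 = 1) := by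
  rintro (h | h)
  · rw [hc.mul_pow, pow_two w, hw, mul_one] at h
    exact ef_sq h
  · rw [hc.mul_pow, ef_cube, one_mul, pow_succ, pow_two, hw, one_mul] at h
    exact hw1 h

theorem gen_comm' (x y : Gen) (h : coxLabel edges x y = 2) : Commute (gen x : Fi23) (gen y) := gen_comm x y h

theorem conj_two : IsConj (z0 * gen .a) (gen .e * z0) ∧ IsConj (z0 * gen .a) (gen .f * gen .a) := by
  constructor
  · obtain ⟨n, h1, h2, -⟩ := three 13 0 1 2 13 0 (by decide) (by decide) (by decide) (by decide) (by decide) (by decide)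
    rw [BasFi.e_z, BasFi.e_e] at h1
    rw [BasFi.e_z, BasFi.e_a] at h2
    refine isConj_iff.2 ⟨n, ?_⟩
    rw [← h1, ← h2]; group
  · obtain ⟨n, h1, h2, -⟩ := three 13 0 1 2 0 13 (by decide) (by decide) (by decide) (by decide) (by decide) (by decide)
    rw [BasFi.e_z, BasFi.e_e] at h1
    rw [BasFi.e_a] at h2
    have hc : Commute (gen .e * gen .f : Fi23) (gen .a) :=
      (gen_comm' .e .a (by decide)).mul_left (gen_comm' .f .a (by decide))
    refine isConj_iff.2 ⟨gen .e * gen .f * n, ?_⟩
    calc gen .e * gen .f * n * (z0 * gen .a) * (gen .e * gen .f * n)⁻¹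
        = (gen .e * gen .f * (n * z0 * n⁻¹) * (gen .e * gen .f)⁻¹) *
          (gen .e * gen .f * (n * gen .a * n⁻¹) * (gen .e * gen .f)⁻¹) := by group
      _ = gen .f * gen .a := by rw [h1, h2, ef, hc.eq, mul_inv_cancel_right]

theorem conj_three : IsConj (z0 * gen .a * gen .c) (gen .e * z0 * gen .a) ∧
    IsConj (z0 * gen .a * gen .c) (gen .f * z0 * gen .c) := by
  constructor
  · obtain ⟨n, h1, h2, h3⟩ := three 13 0 1 2 13 0 (by decide) (by decide) (by decide) (by decide) (by decide) (by decide)
    rw [BasFi.e_z, BasFi.e_e] at h1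
    rw [BasFi.e_z, BasFi.e_a] at h2
    rw [BasFi.e_a, BasFi.e_c] at h3
    refine isConj_iff.2 ⟨n, ?_⟩
    calc n * (z0 * gen .a * gen .c) * n⁻¹ = (n * z0 * n⁻¹) * (n * gen .a * n⁻¹) * (n * gen .c * n⁻¹) := by group
      _ = _ := by rw [h1, h2, h3]
  · obtain ⟨n, h1, h2, h3⟩ := three 13 0 1 2 13 1 (by decide) (by decide) (by decide) (by decide) (by decide) (by decide)
    rw [BasFi.e_z, BasFi.e_e] at h1
    rw [BasFi.e_z, BasFi.e_a] at h2
    rw [BasFi.e_c] at h3
    have hc : Commute (gen .e * gen .f : Fi23) (gen .c) :=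
      (gen_comm' .e .c (by decide)).mul_left (gen_comm' .f .c (by decide))
    have hz : Commute (gen .e * gen .f : Fi23) z0 :=
      Commute.mul_left (z_gen .e (by decide)).symm (z_gen .f (by decide)).symm
    refine isConj_iff.2 ⟨gen .e * gen .f * n, ?_⟩
    calc gen .e * gen .f * n * (z0 * gen .a * gen .c) * (gen .e * gen .f * n)⁻¹
        = (gen .e * gen .f * (n * z0 * n⁻¹) * (gen .e * gen .f)⁻¹) *
          (gen .e * gen .f * (n * gen .a * n⁻¹) * (gen .e * gen .f)⁻¹) *
          (gen .e * gen .f * (n * gen .c * n⁻¹) * (gen .e * gen .f)⁻¹) := by group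
      _ = gen .f * z0 * gen .c := by
        rw [h1, h2, h3, ef, hz.eq, hc.eq, mul_inv_cancel_right, mul_inv_cancel_right]

theorem z_ne_a : z0 ≠ gen .a := by
  intro h
  apply z0_ncomm
  rw [h]
  exact gen_comm .a .j (by decide)

/-- **an involution whose conjugates are 3-transpositions is a transposition** -/
theorem mem_D_of_three {t : Fi23} (h2 : t * t = 1) (h1 : t ≠ 1)
    (h3 : ∀ a b : Fi23, IsConj t a → IsConj t b → (a * b) ^ 2 = 1 ∨ (a * b) ^ 3 = 1) : t ∈ D := by
  rcases Has.inv t h2 h1 with h | h | h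
  · exact h.symm
  · exfalso
    have h4 := h3 _ _ (h.trans conj_two.1) (h.trans conj_two.2)
    have hz : Commute (gen .e * gen .f : Fi23) z0 :=
      Commute.mul_left (z_gen .e (by decide)).symm (z_gen .f (by decide)).symm
    have ha : Commute (gen .e * gen .f : Fi23) (gen .a) :=
      (gen_comm' .e .a (by decide)).mul_left (gen_comm' .f .a (by decide))
    have he : gen .e * z0 * (gen .f * gen .a) = gen .e * gen .f * (z0 * gen .a) := by
      calc gen .e * z0 * (gen .f * gen .a) = gen .e * (z0 * gen .f) * gen .a := by simp only [mul_assoc]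
        _ = _ := by rw [z_gen .f (by decide)]; simp only [mul_assoc]
    rw [he] at h4
    refine six (hz.mul_right ha) ?_ ?_ h4
    · calc z0 * gen .a * (z0 * gen .a) = z0 * (gen .a * z0) * gen .a := by simp only [mul_assoc]
        _ = (z0 * z0) * (gen .a * gen .a) := by rw [← z_gen .a (by decide)]; simp only [mul_assoc]
        _ = 1 := by rw [Cent.zz, gen_sq, mul_one]
    · intro h5
      have h6 := eq_inv_of_mul_eq_one_left h5
      rw [gen_inv] at h6
      exact z_ne_a h6
  · exfalso
    have h4 := h3 _ _ (h.trans conj_three.1) (h.trans conj_three.2)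
    have hc : Commute (gen .e * gen .f : Fi23) (gen .c) :=
      (gen_comm' .e .c (by decide)).mul_left (gen_comm' .f .c (by decide))
    have ha : Commute (gen .e * gen .f : Fi23) (gen .a) :=
      (gen_comm' .e .a (by decide)).mul_left (gen_comm' .f .a (by decide))
    have he : gen .e * z0 * gen .a * (gen .f * z0 * gen .c) = gen .e * gen .f * (gen .a * gen .c) := by
      calc gen .e * z0 * gen .a * (gen .f * z0 * gen .c)
          = gen .e * (z0 * (gen .a * gen .f) * z0) * gen .c := by simp only [mul_assoc]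
        _ = gen .e * (z0 * (gen .f * gen .a) * z0) * gen .c := by rw [gen_comm .a .f (by decide)]
        _ = gen .e * ((z0 * gen .f) * (gen .a * z0)) * gen .c := by simp only [mul_assoc]
        _ = gen .e * ((gen .f * z0) * (z0 * gen .a)) * gen .c := by
          rw [z_gen .f (by decide), z_gen .a (by decide)]
        _ = gen .e * (gen .f * (z0 * z0) * gen .a) * gen .c := by simp only [mul_assoc]
        _ = _ := by rw [Cent.zz, mul_one]; simp only [mul_assoc]
    rw [he] at h4
    refine six (ha.mul_right hc) ?_ ?_ h4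
    · calc gen .a * gen .c * (gen .a * gen .c) = gen .a * (gen .c * gen .a) * gen .c := by simp only [mul_assoc]
        _ = (gen .a * gen .a) * (gen .c * gen .c) := by
          rw [gen_comm .c .a (by decide)]; simp only [mul_assoc]
        _ = 1 := by rw [gen_sq, gen_sq, mul_one]
    · intro h5
      have h6 := eq_inv_of_mul_eq_one_left h5
      rw [gen_inv] at h6
      have h7 : BasFi.e (some 0) = BasFi.e (some 1) := by rw [BasFi.e_a, BasFi.e_c, h6]
      have h8 := BasFi.e_inj h7
      exact absurd h8 (by decide)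

universe u

/-- **The class of 3-transpositions of `Fi23` is unique.** -/
theorem uniq_class {G : Type u} [Group G] (e : Spor.Fi23 ≃* G) {D₁ D' : Set G}
    (hD : ∀ x, e x ∈ D₁ ↔ IsConj z0 x) (hD' : Cfsg.IsThreeTranspositionClass D') : D' = D₁ := by
  obtain ⟨⟨h1, h2⟩, ⟨d, hd, hc⟩, -⟩ := hD'
  have hconj : ∀ x, x ∈ D' ↔ IsConj d x := fun x => by rw [hc]; rfl
  have hdd : d * d = 1 := by rw [← pow_two, ← h1 d hd, pow_orderOf_eq_one]
  have hT : e.symm d ∈ D := by
    refine mem_D_of_three ?_ ?_ ?_
    · rw [← map_mul, hdd, map_one]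
    · intro h
      have h3 : d = 1 := by
        apply e.symm.injective
        rw [h, map_one]
      have h4 := h1 d hd
      rw [h3, orderOf_one] at h4
      exact absurd h4 (by norm_num)
    · intro a b ha hb
      have ha' : e a ∈ D' := (hconj _).2 (by
        have := MonoidHom.map_isConj e.toMonoidHom ha
        have h5 : e.toMonoidHom (e.symm d) = d := e.apply_symm_apply d
        rw [h5] at this
        exact this)
      have hb' : e b ∈ D' := (hconj _).2 (by
        have := MonoidHom.map_isConj e.toMonoidHom hb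
        have h5 : e.toMonoidHom (e.symm d) = d := e.apply_symm_apply d
        rw [h5] at this
        exact this)
      have h6 := h2 _ ha' _ hb'
      rw [← map_mul, ← map_pow, ← map_pow, map_eq_one_iff e e.injective, map_eq_one_iff e e.injective] at h6
      exact h6
  ext x
  obtain ⟨y, rfl⟩ := e.surjective x
  rw [hconj, hD]
  have h5 : e (e.symm d) = d := e.apply_symm_apply d
  constructor
  · intro hx
    have h6 := MonoidHom.map_isConj e.symm.toMonoidHom hx
    have h7 : e.symm.toMonoidHom (e y) = y := e.symm_apply_apply y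
    rw [h7] at h6
    exact IsConj.trans hT h6
  · intro hx
    have h6 : IsConj (e.symm d) y := (IsConj.symm hT).trans hx
    have h7 := MonoidHom.map_isConj e.toMonoidHom h6
    have h8 : e.toMonoidHom (e.symm d) = d := e.apply_symm_apply d
    rw [h8] at h7
    exact h7

end Cfsg.Agent.H836.Uniq23
end

-- part: S5457
section
set_option autoImplicit false
open Cfsg

namespace Cfsg.Agent.S5457

/-- Let G be a finite group with trivial centre generated by a conjugation-invariant set D of 3-transpositions on which it acts primitively, of type M(23), and suppose G also has an involution whose centralizer C is quasisimple, with C modulo the subgroup generated by that involution both of type M(22) (for some generating class of 3-transpositions) and possessing an involution whose own centralizer is quasisimple with quotient by it the projective special unitary group of dimension 6 over the field with four elements and which is not weakly closed in that centralizer, and with the first involution not weakly closed in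 C. Then D is the only conjugacy class of 3-transpositions generating G. -/
theorem result {G : Type*} [Group G] [Finite G] {D : Set G} (hD : Cfsg.IsThreeTranspositionGroup D) (hprim : Cfsg.IsPrimitiveUnderConj D) (h23 : Cfsg.IsOfTypeM23 G D) (hM : ∃ d : G, orderOf d = 2 ∧ Cfsg.IsQuasisimple ↥(Subgroup.centralizer ({d} : Set G)) ∧ (∃ (_ : ((Subgroup.zpowers d).subgroupOf (Subgroup.centralizer ({d} : Set G))).Normal), (∃ E : Set (↥(Subgroup.centralizer ({d} : Set G)) ⧸ (Subgroup.zpowers d).subgroupOf (Subgroup.centralizer ({d} : Set G))), Cfsg.IsThreeTranspositionClass E ∧ Cfsg.IsOfTypeM22 _ E) ∧ ∃ d' : ↥(Subgroup.centralizer ({d} : Set G)) ⧸ (Subgroup.zpowers d).subgroupOf (Subgroup.centralizer ({d} : Set G)), orderOf d' = 2 ∧ Cfsg.IsQuasisimple ↥(Subgroup.centralizer ({d'} : Set _)) ∧ (∃ (K : Type) (_ : Field K) (_ : Fintype K), Fintype.card K = 4 ∧ ∃ _ : ((Subgroup.zpowers d').subgroupOf (Subgroup.centralizer ({d'} : Set _))).Normal, Nonempty (↥(Subgroup.centralizer ({d'} : Set _)) ⧸ (Subgroup.zpowers d').subgroupOf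 (Subgroup.centralizer ({d'} : Set _)) ≃* Cfsg.PSU 6 K 2)) ∧ ∃ g, g * d' * g⁻¹ ∈ Subgroup.centralizer ({d'} : Set _) ∧ g * d' * g⁻¹ ≠ d') ∧ ∃ g : G, g * d * g⁻¹ ∈ Subgroup.centralizer ({d} : Set G) ∧ g * d * g⁻¹ ≠ d) (D' : Set G) (hD' : Cfsg.IsThreeTranspositionClass D') : D' = D := by
  obtain ⟨d, hd, -⟩ := hprim.2.1
  obtain ⟨e, -, he, -⟩ := Cfsg.Agent.H831.T7Iso.exists_iso (Cfsg.Agent.H831.Types.fgroup_m23 hD hprim h23)
    (Cfsg.Agent.H831.Types.isT7 hD hprim h23) hd
  exact Cfsg.Agent.H836.Uniq23.uniq_class e he hD'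

end Cfsg.Agent.S5457
end
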