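import Mathlib
import Cfsg.Agent.H831.Triple8
import Cfsg.Agent.H832.ThreeProd
import Cfsg.Statements.S5468
import Cfsg.Agent.FastGrp
import Cfsg.Agent.Prune
set_option linter.all false
prune_inst 0x7f00000000000000000000000000000000000000000000000000000000000000000000000000000000000000000000000000000000000000000000000000000000000000000000000000000000000000003fffffffffffffffffffffffffffbeffbdffffffff
open scoped Cfsg.Agent.FastGrp

-- part: H832/Seven
section
set_option autoImplicit false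
set_option linter.unusedSectionVars false

/-!
# Type `T7`: the centralizer of two commuting transpositions

For a Fischer group `(G, D)` of type `T7` and two distinct commuting members `d₁, d₂` of `D`:
`K = C(d₁, d₂)` is perfect, `Z(K) = ⟨d₁, d₂⟩`, `K / Z(K) ≅ PSU 6 F 2`, `|F| = 4`; `K` has index two in
`C(d₁ d₂)` and `C(d₁ d₂) / ⟨d₁, d₂⟩` has trivial centre.
-/

namespace Cfsg.Agent.H832.Seven

open Cfsg Cfsg.Agent.SporadicStructure.FischerSpace Cfsg.Agent.ThreeTransPolar.Basic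
open Cfsg.Agent.ThreeTransPolar.Lines
open Cfsg.Agent.Fischer160.Inherit hiding Dx
open Cfsg.Agent.Fischer480.Defs hiding FGroup
open Cfsg.Agent.TSp.Perp Cfsg.Agent.TSp.LTrans
open Cfsg.Agent.TSp.CL Cfsg.Agent.TSp.Orders Cfsg.Agent.TSp.OrdersT
open Cfsg.Agent.R01.Lifts (Ext)
open Cfsg.Agent.R01.Start (zel)
open Cfsg.Agent.H831.Short Cfsg.Agent.H831.Cent
open scoped commutatorElement

universe u

/-! ### Pure group theory -/

/-- An element acting trivially modulo a central subgroup on a perfect group acts trivially. -/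
theorem commute_of_mod {G : Type*} [Group G] {K V : Subgroup G} (hperf : commutator ↥K = ⊤)
    (hV : V ≤ K) (hVK : ∀ v ∈ V, ∀ k ∈ K, k * v = v * k) {c : G} (hc : ∀ k ∈ K, c * k * c⁻¹ * k⁻¹ ∈ V) :
    ∀ k ∈ K, c * k = k * c := by
  -- the centraliser of `c` in `K` contains all commutators
  let S : Subgroup ↥K := (Subgroup.centralizer ({c} : Set G)).subgroupOf K
  have hS : commutator ↥K ≤ S := by
    rw [commutator_def, Subgroup.commutator_le]
    rintro ⟨a, ha⟩ _ ⟨b, hb⟩ _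
    show (⁅(⟨a, ha⟩ : ↥K), ⟨b, hb⟩⁆ : ↥K) ∈ S
    rw [Subgroup.mem_subgroupOf, Subgroup.mem_centralizer_singleton_iff]
    have e : ((⁅(⟨a, ha⟩ : ↥K), ⟨b, hb⟩⁆ : ↥K) : G) = a * b * a⁻¹ * b⁻¹ := rfl
    rw [e]
    obtain ⟨v, hv, hva⟩ : ∃ v ∈ V, c * a * c⁻¹ = v * a := ⟨_, hc a ha, by group⟩
    obtain ⟨w, hw, hwb⟩ : ∃ w ∈ V, c * b * c⁻¹ = w * b := ⟨_, hc b hb, by group⟩
    have h1 : c * (a * b * a⁻¹ * b⁻¹) * c⁻¹ =
        (c * a * c⁻¹) * (c * b * c⁻¹) * (c * a * c⁻¹)⁻¹ * (c * b * c⁻¹)⁻¹ := by group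
    have hVKv := hVK v hv
    have hVKw := hVK w hw
    have hvi : ∀ k ∈ K, k * v⁻¹ = v⁻¹ * k := hVK v⁻¹ (inv_mem hv)
    have hwi : ∀ k ∈ K, k * w⁻¹ = w⁻¹ * k := hVK w⁻¹ (inv_mem hw)
    have h2 : v * a * (w * b) * (v * a)⁻¹ * (w * b)⁻¹ = a * b * a⁻¹ * b⁻¹ := by
      rw [mul_inv_rev, mul_inv_rev]
      calc v * a * (w * b) * (a⁻¹ * v⁻¹) * (b⁻¹ * w⁻¹)
          = v * (a * w) * b * (a⁻¹ * v⁻¹) * (b⁻¹ * w⁻¹) := by group
        _ = v * w * (a * b * a⁻¹) * v⁻¹ * (b⁻¹ * w⁻¹) := by rw [hVKw a ha]; group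
        _ = v * w * ((a * b * a⁻¹) * v⁻¹) * (b⁻¹ * w⁻¹) := by group
        _ = v * w * (v⁻¹ * (a * b * a⁻¹)) * (b⁻¹ * w⁻¹) := by
            rw [hvi _ (mul_mem (mul_mem ha hb) (inv_mem ha))]
        _ = v * w * v⁻¹ * (a * b * a⁻¹ * b⁻¹ * w⁻¹) := by group
        _ = v * w * v⁻¹ * (w⁻¹ * (a * b * a⁻¹ * b⁻¹)) := by
            rw [hwi _ (mul_mem (mul_mem (mul_mem ha hb) (inv_mem ha)) (inv_mem hb))]
        _ = (v * w * v⁻¹ * w⁻¹) * (a * b * a⁻¹ * b⁻¹) := by group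
        _ = a * b * a⁻¹ * b⁻¹ := by
            rw [hVKw v (hV hv), mul_inv_cancel_right, mul_inv_cancel, one_mul]
    rw [hva, hwb, h2] at h1
    exact (mul_inv_eq_iff_eq_mul.1 h1).symm
  intro k hk
  have h1 : (⟨k, hk⟩ : ↥K) ∈ S := hS (by rw [hperf]; trivial)
  rw [Subgroup.mem_subgroupOf, Subgroup.mem_centralizer_singleton_iff] at h1
  exact h1.symm

/-- A member of the set of commutators modulo. -/
theorem abel_list {K : Type*} [Group K] {S : Set K} (htr : ∀ s ∈ S, ∀ t ∈ S, ∃ k : K, k * s * k⁻¹ = t)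
    {s₀ : K} (hs₀ : s₀ ∈ S) (l : List K) (hl : ∀ s ∈ l, s ∈ S) :
    Abelianization.of l.prod = Abelianization.of s₀ ^ l.length := by
  induction l with
  | nil => simp
  | cons b m ih =>
    obtain ⟨k, hk⟩ := htr b (hl b (by simp)) s₀ hs₀
    have h1 : Abelianization.of b = Abelianization.of s₀ := by
      rw [← hk, map_mul, map_mul, map_inv, mul_comm (Abelianization.of k), mul_inv_cancel_right]
    rw [List.prod_cons, map_mul, ih (fun c hc => hl c (by simp [hc])), h1, List.length_cons,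
      pow_succ']

theorem mem_commutator_of_even {K : Type*} [Group K] {S : Set K}
    (htr : ∀ s ∈ S, ∀ t ∈ S, ∃ k : K, k * s * k⁻¹ = t) (hsq : ∀ s ∈ S, s * s = 1)
    (l : List K) (hl : ∀ s ∈ l, s ∈ S) (hev : Even l.length) : l.prod ∈ commutator K := by
  rcases l with _ | ⟨s₀, m⟩
  · simp
  have hs₀ : s₀ ∈ S := hl s₀ (by simp)
  have h1 := abel_list htr hs₀ (s₀ :: m) hl
  obtain ⟨k, hk⟩ := hev
  have hsq' : Abelianization.of s₀ * Abelianization.of s₀ = 1 := by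
    rw [← map_mul, hsq s₀ hs₀, map_one]
  rw [hk, ← two_mul, pow_mul, pow_two, hsq', one_pow] at h1
  have h2 : (s₀ :: m).prod ∈ (Abelianization.of : K →* Abelianization K).ker := h1
  rwa [Abelianization.ker_of] at h2

/-! ### A hexad commuting with a given member and not containing it -/

theorem exists_hexad_at {G : Type u} [Group G] {D : Set G} [Finite G]
    (F : Cfsg.Agent.Fischer480.Defs.FGroup D) (h : IsT6 D) {y : G}
    (hy : y ∈ D) : ∃ l : List G, l.length = 6 ∧ l.Nodup ∧ (∀ a ∈ l, a ∈ Loc D y) ∧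
      (∀ a ∈ l, ∀ b ∈ l, Commute a b) ∧ l.prod = 1 := by
  have F' := inh F
  have hT := F.cls.1
  obtain ⟨h₁, hh₁⟩ := F'.fd.nonempty
  have hU := h.2.1 h₁ hh₁
  obtain ⟨K, i1, i2, f, U⟩ := Cfsg.Agent.S0480U.UModel.exists_um hU
  obtain ⟨x, hx⟩ : (Loc D h₁).Nonempty := by
    obtain ⟨z, hz, hz1, hz2⟩ := (rk_of_FGroup F').exPerp h₁ hh₁
    exact ⟨z, hz, hz1, hz2⟩
  obtain ⟨a, ha, hxa⟩ := Cfsg.Agent.S0480U.UModel.exists_not_commute U hx
  have hU4 := Cfsg.Agent.S0480U.UModel.isU_com (n := 4) hU hx ha hxa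
  obtain ⟨e2, he2, e3, he3, h23, c23⟩ := Cfsg.Agent.H845.T6Hyp.exists_pair hU4
  obtain ⟨p, q, r, hL, hnd, hD, hcm, hp⟩ := Cfsg.Agent.H832.ThreeProd.hexad F h hh₁ he2.1.1 he3.1.1
    he2.1.2.1.symm he3.1.2.1.symm h23 he2.1.2.2 he3.1.2.2 c23
  have hxL : x ∉ Line (Loc D h₁) e2 e3 := by
    intro hx'
    exact hxa (hx'.2 a ha he2.2.2 he3.2.2).symm
  have hxall : ∀ u ∈ Line (Loc D h₁) e2 e3, Commute x u := fun u hu =>
    hu.2 x hx he2.2.1 he3.2.1
  set l := [h₁, e2, e3, p, q, r] with hl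
  have hmem : ∀ u ∈ l, u = h₁ ∨ u ∈ Line (Loc D h₁) e2 e3 := by
    intro u hu
    rcases List.mem_cons.1 hu with hu | hu
    · exact Or.inl hu
    · right
      rw [hL]
      simpa using hu
  have hxl : ∀ u ∈ l, u ∈ Loc D x := by
    intro u hu
    refine ⟨hD u hu, ?_, ?_⟩
    · rintro rfl
      rcases hmem u hu with h0 | h0
      · exact hx.2.1 h0
      · exact hxL h0
    · rcases hmem u hu with h0 | h0
      · rw [h0]; exact hx.2.2.symm
      · exact hxall u h0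
  have hprod : l.prod = 1 := by
    have h1 : l.prod = (h₁ * e2 * e3) * (p * q * r) := by
      rw [hl]
      simp [mul_assoc]
    rw [h1, hp]
    have hsub : ∀ u ∈ [p, q, r], u ∈ l := by
      intro u hu
      rw [hl]
      simp only [List.mem_cons] at hu ⊢
      (clear * - hu; tauto)
    have := Cfsg.Agent.H831.Short.sq_prod hT [p, q, r] (fun u hu => hD u (hsub u hu))
      (fun u hu v hv => hcm u (hsub u hu) v (hsub v hv))
    simpa only [mul_assoc, _root_.List.prod_cons, _root_.List.prod_nil, _root_.mul_one] using this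
  obtain ⟨g, hg⟩ := F'.fd.single x hx.1 y hy
  refine ⟨l.map (MulAut.conj g), by simp only [hl, _root_.List.map_cons, _root_.MulAut.conj_apply, _root_.List.map_nil, _root_.List.length_cons, _root_.List.length_nil, _root_.zero_add, _root_.Nat.reduceAdd], ?_, ?_, ?_, ?_⟩
  · exact hnd.map (MulAut.conj g).injective
  · intro u hu
    obtain ⟨v, hv, rfl⟩ := List.mem_map.1 hu
    obtain ⟨v1, v2, v3⟩ := hxl v hv
    refine ⟨F'.fd.conj g v v1, ?_, ?_⟩
    · intro h0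
      apply v2
      rw [← hg] at h0
      exact (MulAut.conj g).injective h0
    · rw [← hg]
      exact (Commute.conj_iff g).2 v3
  · intro u hu w hw
    obtain ⟨v, hv, rfl⟩ := List.mem_map.1 hu
    obtain ⟨v', hv', rfl⟩ := List.mem_map.1 hw
    exact (Commute.conj_iff g).2 (hcm v hv v' hv')
  · rw [← map_list_prod, hprod, map_one]

/-! ### The centralizer of two commuting members -/

section

variable {G : Type u} [Group G] {D : Set G} [Finite G]
variable (F : FGroup D) (h : IsT7 D) {d₁ d₂ : G} (h₁ : d₁ ∈ D) (h₂ : d₂ ∈ D)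
  (hne : d₁ ≠ d₂) (hc : Commute d₁ d₂)

include F h h₁

theorem theta : Theta D :=
  theta_N7 F.fd subset_rfl (Cfsg.Agent.TSp.Basic.tset_of_fdata F.fd) (n7_of_isT7 h)

theorem thin : ThinLines D := thin_N7 (n7_of_isT7 h)

theorem cld : CLD D := cl_seven F (n7_of_isT7 h)

/-- the quotient is a Fischer group of type `T6` -/
theorem sub : FGroup (Eb D d₁) ∧ IsT6 (Eb D d₁) :=
  ⟨inherit_N7 F (n7_of_isT7 h) h₁, Fischer480.Transport.isT6
    (Fischer480.Transport.CIso.symm (cIso_Eb F.fd (thin F h h₁) h₁)) (h.2.1 d₁ h₁)⟩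

include h₂ hne hc

theorem mem_Dx : d₂ ∈ Loc D d₁ := ⟨h₂, hne.symm, hc⟩

theorem exists_six : ∃ l : List G, l.length = 6 ∧ l.Nodup ∧ (∀ b ∈ l, b ∈ Loc (Loc D d₁) d₂) ∧
    (∀ a ∈ l, ∀ b ∈ l, Commute a b) ∧ l.prod = d₁ := by
  obtain ⟨FE, hE⟩ := sub F h h₁
  have hth := thin_of_thinLines (thin F h h₁) h₁
  have hb := mem_Dx F h h₁ h₂ hne hc
  obtain ⟨l, hlen, hnd, hl, hcl, hp⟩ := exists_hexad_at (Cfsg.Agent.H831.Types.defs_of_inh FE) hE
    (β_mem hb)
  obtain ⟨l', g1, g2, g3, g4, g5, g6⟩ := exists_lift_list F h₁ (theta F h h₁) (thin F h h₁) l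
    (fun a ha => (hl a ha).1) hnd hcl
  refine ⟨l', by rw [g1, hlen], g3, ?_, g4, ?_⟩
  · intro b hb'
    have h1 : β D d₁ b ∈ l := by
      rw [← g5]
      exact List.mem_map.2 ⟨b, hb', rfl⟩
    obtain ⟨-, k2, k3⟩ := hl _ h1
    refine ⟨g2 b hb', ?_, ?_⟩
    · rintro rfl
      exact k2 rfl
    · exact (β_commute F.fd hth hb (g2 b hb')).1 k3
  · rcases g6 hp with h0 | h0
    · exfalso
      have hN := noRel_seven (Cfsg.Agent.H831.Types.defs_of_inh F).cls.1 h
      have := hN l' g3 (fun a ha => (g2 a ha).1) g4 h0 (by rw [g1, hlen])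
      rw [this] at g1
      simp [hlen] at g1
    · exact h0

theorem HH_eq : HH D d₁ = Subgroup.centralizer ({d₁} : Set G) := by
  apply Cfsg.Agent.H831.Cent.HH_eq F h₁ (cld F h h₁)
  obtain ⟨l, -, -, hl, -, hp⟩ := exists_six F h h₁ h₂ hne hc
  have h1 : l.prod ∈ HH D d₁ := Subgroup.list_prod_mem _ fun b hb => mem_HH_of (hl b hb).1
  rwa [hp] at h1

omit [Finite G] F h h₁ h₂ hne hc in
theorem mem_K {x : G} : x ∈ Subgroup.centralizer ({d₁, d₂} : Set G) ↔
    Commute x d₁ ∧ Commute x d₂ := by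
  rw [Subgroup.mem_centralizer_iff]
  constructor
  · intro hx
    exact ⟨(hx d₁ (by simp)).symm, (hx d₂ (by simp)).symm⟩
  · rintro ⟨h1, h2⟩ y hy
    rcases hy with rfl | rfl
    · exact h1.symm
    · exact h2.symm

theorem mem_HH_of_K {x : G} (hx : x ∈ Subgroup.centralizer ({d₁, d₂} : Set G)) :
    x ∈ HH D d₁ := by
  rw [HH_eq F h h₁ h₂ hne hc, Subgroup.mem_centralizer_singleton_iff]
  exact (mem_K.1 hx).1

theorem mem_K_of_β {x : G} (hx : x ∈ HH D d₁) (hxc : Commute (β D d₁ x) (β D d₁ d₂)) :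
    x ∈ Subgroup.centralizer ({d₁, d₂} : Set G) := by
  have hth := thin_of_thinLines (thin F h h₁) h₁
  have hb := mem_Dx F h h₁ h₂ hne hc
  refine mem_K.2 ⟨commute_of_mem_HH hx, ?_⟩
  have h1 : β D d₁ (x * d₂ * x⁻¹) = β D d₁ d₂ := by
    rw [β_conj hx (mem_HH_of hb), hxc.eq, mul_inv_cancel_right]
  have h2 : x * d₂ * x⁻¹ ∈ Loc D d₁ := cj_mem_Dx F.fd (commute_of_mem_HH hx) hb
  exact mul_inv_eq_iff_eq_mul.1 (β_inj hth h2 hb h1)

/-- the map of `C(d₁, d₂)` onto the centralizer of the image of `d₂` -/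
noncomputable def rho : Subgroup.centralizer ({d₁, d₂} : Set G) →*
    Subgroup.centralizer ({β D d₁ d₂} : Set (KK D d₁)) where
  toFun x := ⟨β D d₁ x, by
    rw [Subgroup.mem_centralizer_singleton_iff,
      ← β_mul (mem_HH_of_K F h h₁ h₂ hne hc x.2) (mem_HH_of (mem_Dx F h h₁ h₂ hne hc)),
      ← β_mul (mem_HH_of (mem_Dx F h h₁ h₂ hne hc)) (mem_HH_of_K F h h₁ h₂ hne hc x.2),
      (mem_K.1 x.2).2.eq]⟩
  map_one' := by
    apply Subtype.ext
    show β D d₁ (1 : G) = 1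
    rw [β_of (one_mem _)]
    rfl
  map_mul' x y := by
    apply Subtype.ext
    exact β_mul (mem_HH_of_K F h h₁ h₂ hne hc x.2) (mem_HH_of_K F h h₁ h₂ hne hc y.2)

theorem rho_surjective : Function.Surjective (rho F h h₁ h₂ hne hc) := by
  rintro ⟨y, hy⟩
  obtain ⟨g, hg, rfl⟩ := β_surj' y
  exact ⟨⟨g, mem_K_of_β F h h₁ h₂ hne hc hg (Subgroup.mem_centralizer_singleton_iff.1 hy)⟩, rfl⟩

theorem β_eq_one {x : G} (hx : x ∈ HH D d₁) : β D d₁ x = 1 ↔ x = 1 ∨ x = d₁ := by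
  rw [β_of hx, QuotientGroup.eq_one_iff, mem_center_HH F (theta F h h₁) h₁]

theorem rho_eq_one (x : Subgroup.centralizer ({d₁, d₂} : Set G)) :
    rho F h h₁ h₂ hne hc x = 1 ↔ (x : G) = 1 ∨ (x : G) = d₁ := by
  rw [← β_eq_one F h h₁ h₂ hne hc (mem_HH_of_K F h h₁ h₂ hne hc x.2)]
  exact ⟨fun h0 => congrArg Subtype.val h0, fun h0 => Subtype.ext h0⟩

/-- the members of `D` commuting with `d₁`, `d₂` are conjugate in `C(d₁, d₂)` -/
theorem trans_K {s t : G} (hs : s ∈ Loc (Loc D d₁) d₂) (ht : t ∈ Loc (Loc D d₁) d₂) :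
    ∃ k ∈ Subgroup.centralizer ({d₁, d₂} : Set G), k * s * k⁻¹ = t := by
  obtain ⟨FE, hE⟩ := sub F h h₁
  have hth := thin_of_thinLines (thin F h h₁) h₁
  have hb := mem_Dx F h h₁ h₂ hne hc
  have key : ∀ {u : G}, u ∈ Loc (Loc D d₁) d₂ → β D d₁ u ∈ Loc (Eb D d₁) (β D d₁ d₂) := by
    intro u hu
    refine ⟨β_mem hu.1, fun h0 => hu.2.1 (β_inj hth hu.1 hb h0),
      (β_commute F.fd hth hb hu.1).2 hu.2.2⟩
  obtain ⟨g, hg⟩ := single_E FE (β_mem hb)
    (a := ⟨β D d₁ s, mem_HH_of (key hs)⟩) (b := ⟨β D d₁ t, mem_HH_of (key ht)⟩) (key hs) (key ht)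
  have hg' : (g : KK D d₁) * β D d₁ s * (g : KK D d₁)⁻¹ = β D d₁ t := congrArg Subtype.val hg
  obtain ⟨k, hk, hkg⟩ := β_surj' (g : KK D d₁)
  refine ⟨k, mem_K_of_β F h h₁ h₂ hne hc hk ?_, ?_⟩
  · rw [hkg]
    exact commute_of_mem_HH g.2
  · rw [← hkg, ← β_conj hk (mem_HH_of hs.1)] at hg'
    exact β_inj hth (cj_mem_Dx F.fd (commute_of_mem_HH hk) hs.1) ht.1 hg'

/-- **`C(d₁, d₂)` is perfect.** -/
theorem perfect_K : commutator (Subgroup.centralizer ({d₁, d₂} : Set G)) = ⊤ := by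
  obtain ⟨FE, hE⟩ := sub F h h₁
  have hb := mem_Dx F h h₁ h₂ hne hc
  -- `d₁` is in the derived subgroup
  have hd1 : (⟨d₁, mem_K.2 ⟨Commute.refl _, hc⟩⟩ : Subgroup.centralizer ({d₁, d₂} : Set G)) ∈
      commutator (Subgroup.centralizer ({d₁, d₂} : Set G)) := by
    obtain ⟨l, hlen, -, hl, -, hp⟩ := exists_six F h h₁ h₂ hne hc
    have hlK : ∀ b ∈ l, b ∈ Subgroup.centralizer ({d₁, d₂} : Set G) := fun b hb' =>
      mem_K.2 ⟨(hl b hb').1.2.2.symm, (hl b hb').2.2.symm⟩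
    let l' : List (Subgroup.centralizer ({d₁, d₂} : Set G)) := l.attach.map
      fun b => ⟨b.1, hlK b.1 b.2⟩
    have hl'p : l'.prod = ⟨d₁, mem_K.2 ⟨Commute.refl _, hc⟩⟩ := by
      apply Subtype.ext
      rw [Subgroup.val_list_prod]
      show (List.map _ (List.map _ l.attach)).prod = d₁
      rw [List.map_map]
      refine Eq.trans ?_ hp
      congr 1
      exact List.attach_map_subtype_val l
    rw [← hl'p]
    refine mem_commutator_of_even
      (S := {x : Subgroup.centralizer ({d₁, d₂} : Set G) | (x : G) ∈ Loc (Loc D d₁) d₂})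
      ?_ ?_ l' ?_ ?_
    · intro s hs t ht
      obtain ⟨k, hk, hkst⟩ := trans_K F h h₁ h₂ hne hc hs ht
      exact ⟨⟨k, hk⟩, Subtype.ext hkst⟩
    · intro s hs
      exact Subtype.ext (F.fd.sq _ hs.1.1)
    · intro s hs
      obtain ⟨b, -, rfl⟩ := List.mem_map.1 hs
      exact hl b.1 b.2
    · rw [List.length_map, List.length_attach, hlen]
      decide
  rw [eq_top_iff]
  intro x _
  have hperf := Cfsg.Agent.H845.T6Iso.perfect_centralizer FE (n6_of_isT6 hE) (β_mem hb)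
  have h1 : rho F h h₁ h₂ hne hc x ∈ commutator
      (Subgroup.centralizer ({β D d₁ d₂} : Set (KK D d₁))) := by rw [hperf]; trivial
  rw [commutator_def, ← Subgroup.map_top_of_surjective _ (rho_surjective F h h₁ h₂ hne hc),
    ← Subgroup.map_commutator, ← commutator_def] at h1
  obtain ⟨y, hy, hyx⟩ := h1
  have h2 : rho F h h₁ h₂ hne hc (y⁻¹ * x) = 1 := by
    rw [map_mul, map_inv, hyx, inv_mul_cancel]
  have h3 : y⁻¹ * x ∈ commutator (Subgroup.centralizer ({d₁, d₂} : Set G)) := by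
    rcases (rho_eq_one F h h₁ h₂ hne hc _).1 h2 with h3 | h3
    · have : y⁻¹ * x = 1 := Subtype.ext h3
      rw [this]
      exact one_mem _
    · have : y⁻¹ * x = ⟨d₁, mem_K.2 ⟨Commute.refl _, hc⟩⟩ := Subtype.ext h3
      rw [this]
      exact hd1
  have h4 := mul_mem hy h3
  rwa [mul_inv_cancel_left] at h4

/-- **The projection onto `U₆(2)`.** -/
theorem exists_psu : ∃ (L : Type) (_ : Field L) (_ : Fintype L), Fintype.card L = 4 ∧
    ∃ φ : Subgroup.centralizer ({d₁, d₂} : Set G) →* PSU 6 L 2, Function.Surjective φ ∧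
      ∀ x, φ x = 1 ↔ (x : G) = 1 ∨ (x : G) = d₁ ∨ (x : G) = d₂ ∨ (x : G) = d₁ * d₂ := by
  obtain ⟨FE, hE⟩ := sub F h h₁
  have hb := mem_Dx F h h₁ h₂ hne hc
  obtain ⟨L, i1, i2, hL, π, hπ⟩ := Cfsg.Agent.H845.T6Iso.exists_ext FE (n6_of_isT6 hE) (β_mem hb)
  refine ⟨L, i1, i2, hL, π.comp (rho F h h₁ h₂ hne hc),
    hπ.surj.comp (rho_surjective F h h₁ h₂ hne hc), ?_⟩
  intro x
  rw [MonoidHom.comp_apply, hπ.ker, rho_eq_one]
  have hx := mem_HH_of_K F h h₁ h₂ hne hc x.2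
  have hb' := mem_HH_of hb
  have h1 : rho F h h₁ h₂ hne hc x = zel (β D d₁ d₂) ↔ β D d₁ ((x : G) * d₂) = 1 := by
    rw [β_mul hx hb']
    have hsq : β D d₁ d₂ * β D d₁ d₂ = 1 := FE.fd.sq _ (β_mem hb)
    constructor
    · intro h0
      have h0' : β D d₁ (x : G) = β D d₁ d₂ := congrArg Subtype.val h0
      rw [h0', hsq]
    · intro h0
      apply Subtype.ext
      show β D d₁ (x : G) = β D d₁ d₂
      rw [← mul_left_inj (β D d₁ d₂), h0, hsq]
  rw [h1, β_eq_one F h h₁ h₂ hne hc (mul_mem hx hb')]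
  have q2 := F.fd.sq d₂ h₂
  have e1 : (x : G) * d₂ = 1 ↔ (x : G) = d₂ := by
    rw [← mul_left_inj d₂, mul_assoc, q2, mul_one, one_mul]
  have e2 : (x : G) * d₂ = d₁ ↔ (x : G) = d₁ * d₂ := by
    rw [← mul_left_inj d₂, mul_assoc, q2, mul_one]
  rw [e1, e2]
  (clear * -; tauto)

omit h h₂ hne in
theorem mem_closure_pair {x : G} (hsq1 : d₁ * d₁ = 1) (hsq2 : d₂ * d₂ = 1) :
    x ∈ Subgroup.closure ({d₁, d₂} : Set G) ↔ x = 1 ∨ x = d₁ ∨ x = d₂ ∨ x = d₁ * d₂ := by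
  constructor
  · intro hx
    have hcc : d₂ * d₁ = d₁ * d₂ := hc.symm.eq
    have i1 : d₁⁻¹ = d₁ := inv_eq_of_mul_eq_one_left hsq1
    have i2 : d₂⁻¹ = d₂ := inv_eq_of_mul_eq_one_left hsq2
    refine Subgroup.closure_induction (p := fun x _ => x = 1 ∨ x = d₁ ∨ x = d₂ ∨ x = d₁ * d₂)
      ?_ ?_ ?_ ?_ hx
    · rintro y (rfl | rfl) <;> simp
    · simp
    · have a1 : d₁ * (d₁ * d₂) = d₂ := by rw [← mul_assoc, hsq1, one_mul]
      have a2 : d₂ * (d₁ * d₂) = d₁ := by rw [← hcc, ← mul_assoc, hsq2, one_mul]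
      have a3 : d₁ * d₂ * d₁ = d₂ := by rw [mul_assoc, hcc, a1]
      have a4 : d₁ * d₂ * d₂ = d₁ := by rw [mul_assoc, hsq2, mul_one]
      have a5 : d₁ * d₂ * (d₁ * d₂) = 1 := by rw [mul_assoc, a2, hsq1]
      rintro y z - - (rfl | rfl | rfl | rfl) (rfl | rfl | rfl | rfl) <;>
        simp only [one_mul, mul_one, hsq1, hsq2, hcc, a1, a2, a3, a4, a5, true_or, or_true]
    · rintro y - (rfl | rfl | rfl | rfl)
      · simp
      · simp [i1]
      · simp [i2]
      · simp only [i1, i2, hcc, _root_.mul_inv_rev, _root_.mul_eq_left, _root_.mul_eq_right, _root_.or_true]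
  · have m1 : d₁ ∈ Subgroup.closure ({d₁, d₂} : Set G) := Subgroup.subset_closure (by simp)
    have m2 : d₂ ∈ Subgroup.closure ({d₁, d₂} : Set G) := Subgroup.subset_closure (by simp)
    rintro (rfl | rfl | rfl | rfl)
    · exact one_mem _
    · exact m1
    · exact m2
    · exact mul_mem m1 m2

/-- the elements commuting with `d₁ d₂` -/
theorem swap_or_fix {x : G} (hx : Commute x (d₁ * d₂)) :
    (Commute x d₁ ∧ Commute x d₂) ∨ (x * d₁ * x⁻¹ = d₂ ∧ x * d₂ * x⁻¹ = d₁) := by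
  have hT := (Cfsg.Agent.H831.Types.defs_of_inh F).cls.1
  have hN := noRel_seven hT h
  set a := x * d₁ * x⁻¹ with ha
  set b := x * d₂ * x⁻¹ with hb
  have haD : a ∈ D := F.fd.conj x d₁ h₁
  have hbD : b ∈ D := F.fd.conj x d₂ h₂
  have hab : a ≠ b := fun h0 => hne (mul_left_cancel (mul_right_cancel h0))
  have cab : Commute a b := (Commute.conj_iff x).2 hc
  have hp : a * b = d₁ * d₂ := by
    have : a * b = x * (d₁ * d₂) * x⁻¹ := by rw [ha, hb]; group
    rw [this, hx.eq, mul_inv_cancel_right]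
  have hu := unique hT (m := 2) (hN.mono (by norm_num)) (by norm_num)
    [a, b] [d₁, d₂] (by simp [hab]) (by simp [hne]) (by simp) (by simp)
    (by simp [haD, hbD]) (by simp [h₁, h₂]) (by simp [cab, cab.symm]) (by simp [hc, hc.symm])
    (by simp [hp])
  have h1 : a = d₁ ∨ a = d₂ := by simpa using (hu a).1 (by simp)
  have h2 : b = d₁ ∨ b = d₂ := by simpa using (hu b).1 (by simp)
  rcases h1 with h1 | h1
  · left
    have h2' : b = d₂ := by
      rcases h2 with h2 | h2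
      · exact absurd (h1.trans h2.symm) hab
      · exact h2
    exact ⟨mul_inv_eq_iff_eq_mul.1 h1, mul_inv_eq_iff_eq_mul.1 h2'⟩
  · right
    refine ⟨h1, ?_⟩
    rcases h2 with h2 | h2
    · exact h2
    · exact absurd (h1.trans h2.symm) hab

omit h in
theorem exists_swap : ∃ p : G, p * d₁ * p⁻¹ = d₂ ∧ p * d₂ * p⁻¹ = d₁ := by
  have R := rk_of_FGroup F
  obtain ⟨g, hg⟩ := F.fd.single d₁ h₁ d₂ h₂
  have c1 : Commute d₂ (g * d₂ * g⁻¹) := by
    have := (Commute.conj_iff g).2 hc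
    rwa [hg] at this
  have n1 : g * d₂ * g⁻¹ ≠ d₂ := by
    intro h0
    exact hne (mul_left_cancel (mul_right_cancel (h0.trans hg.symm))).symm
  obtain ⟨k, hk1, hk2⟩ := R.comTrans d₂ h₂ (g * d₂ * g⁻¹) (F.fd.conj g d₂ h₂) d₁ h₁ n1 hne c1
    hc.symm
  refine ⟨k * g, ?_, ?_⟩
  · calc k * g * d₁ * (k * g)⁻¹ = k * (g * d₁ * g⁻¹) * k⁻¹ := by group
      _ = d₂ := by rw [hg]; exact hk1
  · calc k * g * d₂ * (k * g)⁻¹ = k * (g * d₂ * g⁻¹) * k⁻¹ := by group
      _ = d₁ := hk2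

omit [Finite G] F h h₁ h₂ hne hc in
theorem K_le : Subgroup.centralizer ({d₁, d₂} : Set G) ≤
    Subgroup.centralizer ({d₁ * d₂} : Set G) := by
  intro x hx
  obtain ⟨h1, h2⟩ := mem_K.1 hx
  rw [Subgroup.mem_centralizer_singleton_iff]
  exact h1.mul_right h2

theorem index_K : ((Subgroup.centralizer ({d₁, d₂} : Set G)).subgroupOf
    (Subgroup.centralizer ({d₁ * d₂} : Set G))).index = 2 := by
  show (Subgroup.centralizer ({d₁, d₂} : Set G)).relIndex
    (Subgroup.centralizer ({d₁ * d₂} : Set G)) = 2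
  rw [Subgroup.relIndex_eq_two_iff]
  obtain ⟨p, hp, hp'⟩ := exists_swap F h₁ h₂ hne hc
  have hpz : p * (d₁ * d₂) = d₁ * d₂ * p := by
    have h1 : p * (d₁ * d₂) * p⁻¹ = (p * d₁ * p⁻¹) * (p * d₂ * p⁻¹) := by group
    rw [hp, hp', hc.symm.eq] at h1
    exact mul_inv_eq_iff_eq_mul.1 h1
  have hp1 : p * d₁ = d₂ * p := mul_inv_eq_iff_eq_mul.1 hp
  have hp2 : p * d₂ = d₁ * p := mul_inv_eq_iff_eq_mul.1 hp'
  refine ⟨p, Subgroup.mem_centralizer_singleton_iff.2 hpz, fun b hb => ?_⟩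
  rcases swap_or_fix F h h₁ h₂ hne hc (Subgroup.mem_centralizer_singleton_iff.1 hb) with
    ⟨h1, h2⟩ | ⟨h1, h2⟩
  · right
    refine ⟨mem_K.2 ⟨h1, h2⟩, fun h0 => ?_⟩
    have h3 : b * p * d₁ = d₁ * (b * p) := (mem_K.1 h0).1.eq
    apply hne
    have h4 : b * (p * d₁) = d₁ * b * p := by rw [← mul_assoc, h3, mul_assoc]
    rw [hp1, ← mul_assoc, h2.eq] at h4
    have h5 := mul_right_cancel (mul_right_cancel h4)
    exact h5.symm
  · left
    have e1 : b * d₁ = d₂ * b := mul_inv_eq_iff_eq_mul.1 h1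
    have e2 : b * d₂ = d₁ * b := mul_inv_eq_iff_eq_mul.1 h2
    refine ⟨mem_K.2 ⟨?_, ?_⟩, fun h0 => ?_⟩
    · show b * p * d₁ = d₁ * (b * p)
      rw [mul_assoc, hp1, ← mul_assoc, e2, mul_assoc]
    · show b * p * d₂ = d₂ * (b * p)
      rw [mul_assoc, hp2, ← mul_assoc, e1, mul_assoc]
    · have h3 : b * d₁ = d₁ * b := (mem_K.1 h0).1.eq
      apply hne
      rw [e1] at h3
      exact (mul_right_cancel h3).symm

omit [Finite G] F h h₁ h₂ hne hc in
theorem center_psu {L : Type} [Field L] [Fintype L] (hL : Fintype.card L = 4) :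
    Subgroup.center (PSU 6 L 2) = ⊥ := by
  have hs : IsSimpleGroup (PSU 6 L 2) := Cfsg.Agent.S0283.result (q := 2) (by rw [hL]; norm_num) 6
    (by norm_num) (by norm_num)
  rcases hs.eq_bot_or_eq_top_of_normal (Subgroup.center (PSU 6 L 2)) inferInstance with h0 | h0
  · exact h0
  · exfalso
    have hcard := card_PSU hL
    have hcom : ∀ a b : PSU 6 L 2, a * b = b * a := by
      intro a b
      have : b ∈ Subgroup.center (PSU 6 L 2) := by rw [h0]; trivial
      exact Subgroup.mem_center_iff.1 this a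
    let _ : CommGroup (PSU 6 L 2) := { (inferInstance : Group (PSU 6 L 2)) with mul_comm := hcom }
    have hfin : Finite (PSU 6 L 2) := Nat.finite_of_card_ne_zero (by rw [hcard]; norm_num)
    have hp := IsSimpleGroup.prime_card (α := PSU 6 L 2)
    rw [hcard] at hp
    norm_num at hp

/-- **The centre of `C(d₁, d₂)`.** -/
theorem mem_center_K (x : Subgroup.centralizer ({d₁, d₂} : Set G)) :
    x ∈ Subgroup.center (Subgroup.centralizer ({d₁, d₂} : Set G)) ↔
      (x : G) = 1 ∨ (x : G) = d₁ ∨ (x : G) = d₂ ∨ (x : G) = d₁ * d₂ := by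
  obtain ⟨L, i1, i2, hL, φ, hφ, hker⟩ := exists_psu F h h₁ h₂ hne hc
  rw [← hker]
  constructor
  · intro hx
    have h1 : φ x ∈ Subgroup.center (PSU 6 L 2) := by
      rw [Subgroup.mem_center_iff]
      intro g
      obtain ⟨g, rfl⟩ := hφ g
      rw [← map_mul, ← map_mul, Subgroup.mem_center_iff.1 hx g]
    rwa [center_psu hL, Subgroup.mem_bot] at h1
  · intro hx
    rw [hker] at hx
    rw [Subgroup.mem_center_iff]
    intro g
    obtain ⟨g1, g2⟩ := mem_K.1 g.2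
    apply Subtype.ext
    show (g : G) * (x : G) = (x : G) * (g : G)
    rcases hx with hx | hx | hx | hx
    · rw [hx, one_mul, mul_one]
    · rw [hx]; exact g1.eq
    · rw [hx]; exact g2.eq
    · rw [hx]; exact (g1.mul_right g2).eq

theorem map_center_K : (Subgroup.center (Subgroup.centralizer ({d₁, d₂} : Set G))).map
    (Subgroup.centralizer ({d₁, d₂} : Set G)).subtype = Subgroup.closure ({d₁, d₂} : Set G) := by
  ext x
  rw [mem_closure_pair F h₁ hc (F.fd.sq d₁ h₁) (F.fd.sq d₂ h₂)]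
  constructor
  · rintro ⟨y, hy, rfl⟩
    exact (mem_center_K F h h₁ h₂ hne hc y).1 hy
  · intro hx
    have hxK : x ∈ Subgroup.centralizer ({d₁, d₂} : Set G) := by
      rw [mem_K]
      rcases hx with rfl | rfl | rfl | rfl
      · exact ⟨Commute.one_left _, Commute.one_left _⟩
      · exact ⟨Commute.refl _, hc⟩
      · exact ⟨hc.symm, Commute.refl _⟩
      · exact ⟨(Commute.refl d₁).mul_left hc.symm, hc.mul_left (Commute.refl d₂)⟩
    exact ⟨⟨x, hxK⟩, (mem_center_K F h h₁ h₂ hne hc _).2 hx, rfl⟩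

theorem exists_quo : ∃ (L : Type) (_ : Field L) (_ : Fintype L), Fintype.card L = 4 ∧
    Nonempty (Subgroup.centralizer ({d₁, d₂} : Set G) ⧸
      Subgroup.center (Subgroup.centralizer ({d₁, d₂} : Set G)) ≃* PSU 6 L 2) := by
  obtain ⟨L, i1, i2, hL, φ, hφ, hker⟩ := exists_psu F h h₁ h₂ hne hc
  have hk : Subgroup.center (Subgroup.centralizer ({d₁, d₂} : Set G)) = φ.ker := by
    ext x
    rw [mem_center_K F h h₁ h₂ hne hc, ← hker, MonoidHom.mem_ker]
  exact ⟨L, i1, i2, hL, ⟨(QuotientGroup.quotientMulEquivOfEq hk).trans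
    (QuotientGroup.quotientKerEquivOfSurjective φ hφ)⟩⟩

theorem quasi_K : IsQuasisimple (Subgroup.centralizer ({d₁, d₂} : Set G)) := by
  refine ⟨Group.isPerfect_def.2 (perfect_K F h h₁ h₂ hne hc), ?_⟩
  obtain ⟨L, i1, i2, hL, ⟨e⟩⟩ := exists_quo F h h₁ h₂ hne hc
  have hs : IsSimpleGroup (PSU 6 L 2) := Cfsg.Agent.S0283.result (q := 2) (by rw [hL]; norm_num) 6
    (by norm_num) (by norm_num)
  exact e.isSimpleGroup

/-- **`C(d₁ d₂) / ⟨d₁, d₂⟩` has trivial centre.** -/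
theorem center_quo {V : Subgroup G} (hV : V = Subgroup.closure ({d₁, d₂} : Set G))
    [(V.subgroupOf (Subgroup.centralizer ({d₁ * d₂} : Set G))).Normal] :
    Subgroup.center (Subgroup.centralizer ({d₁ * d₂} : Set G) ⧸
      V.subgroupOf (Subgroup.centralizer ({d₁ * d₂} : Set G))) = ⊥ := by
  have hVmem : ∀ x : G, x ∈ V ↔ x = 1 ∨ x = d₁ ∨ x = d₂ ∨ x = d₁ * d₂ := by
    intro x
    rw [hV, mem_closure_pair F h₁ hc (F.fd.sq d₁ h₁) (F.fd.sq d₂ h₂)]
  rw [eq_bot_iff]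
  intro q hq
  obtain ⟨c, rfl⟩ := QuotientGroup.mk_surjective q
  rw [Subgroup.mem_bot, QuotientGroup.eq_one_iff, Subgroup.mem_subgroupOf]
  have hmap := map_center_K F h h₁ h₂ hne hc
  have hVK : V ≤ Subgroup.centralizer ({d₁, d₂} : Set G) := by
    rw [hV, ← hmap]
    exact Subgroup.map_subtype_le _
  have hVc : ∀ v ∈ V, ∀ k ∈ Subgroup.centralizer ({d₁, d₂} : Set G), k * v = v * k := by
    intro v hv k hk
    rw [hV, ← hmap] at hv
    obtain ⟨v', hv', rfl⟩ := hv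
    exact congrArg Subtype.val (Subgroup.mem_center_iff.1 hv' ⟨k, hk⟩)
  have key := commute_of_mod (perfect_K F h h₁ h₂ hne hc) hVK hVc (c := (c : G)) (by
    intro k hk
    have h1 := Subgroup.mem_center_iff.1 hq (QuotientGroup.mk ⟨k, K_le hk⟩)
    have h2 : (QuotientGroup.mk ((c : Subgroup.centralizer ({d₁ * d₂} : Set G)) *
        ⟨k, K_le hk⟩ * c⁻¹ * (⟨k, K_le hk⟩ : Subgroup.centralizer ({d₁ * d₂} : Set G))⁻¹) :
        Subgroup.centralizer ({d₁ * d₂} : Set G) ⧸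
          V.subgroupOf (Subgroup.centralizer ({d₁ * d₂} : Set G))) = 1 := by
      rw [QuotientGroup.mk_mul, QuotientGroup.mk_mul, QuotientGroup.mk_mul, ← h1,
        QuotientGroup.mk_inv, QuotientGroup.mk_inv, mul_inv_cancel_right, mul_inv_cancel]
    rw [QuotientGroup.eq_one_iff, Subgroup.mem_subgroupOf] at h2
    exact h2)
  have hd1 : d₁ ∈ Subgroup.centralizer ({d₁, d₂} : Set G) := mem_K.2 ⟨Commute.refl _, hc⟩
  have hd2 : d₂ ∈ Subgroup.centralizer ({d₁, d₂} : Set G) := mem_K.2 ⟨hc.symm, Commute.refl _⟩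
  have hcK : (c : G) ∈ Subgroup.centralizer ({d₁, d₂} : Set G) :=
    mem_K.2 ⟨key d₁ hd1, key d₂ hd2⟩
  rw [hVmem, ← mem_center_K F h h₁ h₂ hne hc ⟨c, hcK⟩, Subgroup.mem_center_iff]
  intro g
  exact Subtype.ext (key g g.2).symm

end

end Cfsg.Agent.H832.Seven
end

-- part: S5468
section
set_option autoImplicit false
open Cfsg

namespace Cfsg.Agent.S5468

/-- Let G be a finite group with trivial centre generated by a conjugation-invariant set D of 3-transpositions on which it acts primitively, such that for some d in D the subgroup generated by the members of D other than d commuting with d has central largest normal 2- and 3-subgroups, and suppose G with D is of type M(23). Let d₁, d₂ be distinct commuting members of D, j = d₁ d₂, K the joint centralizer of d₁ and d₂ and C the centralizer of j. Then K has index 2 in C, the centre of K is the subgroup generated by d₁ and d₂, K is quasisimple with K modulo its centre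 isomorphic to the projective special unitary group of dimension 6 over the field with four elements, and C modulo the subgroup generated by d₁ and d₂ has trivial centre (so it is that unitary group extended by an outer involution). -/
theorem result {G : Type*} [Group G] [Finite G] {D : Set G} (hD : Cfsg.IsThreeTranspositionGroup D) (hprim : Cfsg.IsPrimitiveUnderConj D) (d₀ : G) (hd₀ : d₀ ∈ D) (h3 : Cfsg.pCore 3 ↥(Subgroup.closure {y : G | y ∈ D ∧ y ≠ d₀ ∧ Commute d₀ y}) ≤ Subgroup.center ↥(Subgroup.closure {y : G | y ∈ D ∧ y ≠ d₀ ∧ Commute d₀ y})) (h2 : Cfsg.pCore 2 ↥(Subgroup.closure {y : G | y ∈ D ∧ y ≠ d₀ ∧ Commute d₀ y}) ≤ Subgroup.center ↥(Subgroup.closure {y : G | y ∈ D ∧ y ≠ d₀ ∧ Commute d₀ y})) (h23 : Cfsg.IsOfTypeM23 G D) (d₁ d₂ : G) (h₁ : d₁ ∈ D) (h₂ : d₂ ∈ D) (hne : d₁ ≠ d₂) (hc : Commute d₁ d₂) (K C V : Subgroup G) (hK : K = Subgroup.centralizer ({d₁, d₂} : Set G)) (hC : C = Subgroup.centralizer ({d₁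 * d₂} : Set G)) (hV : V = Subgroup.closure ({d₁, d₂} : Set G)) [hn : (V.subgroupOf C).Normal] : K ≤ C ∧ (K.subgroupOf C).index = 2 ∧ (Subgroup.center ↥K).map K.subtype = V ∧ Cfsg.IsQuasisimple ↥K ∧ (∃ (F : Type) (_ : Field F) (_ : Fintype F), Fintype.card F = 4 ∧ Nonempty (↥K ⧸ Subgroup.center ↥K ≃* Cfsg.PSU 6 F 2)) ∧ Subgroup.center (↥C ⧸ V.subgroupOf C) = ⊥ := by
  have F := Cfsg.Agent.H831.Types.inh_of_defs (Cfsg.Agent.H831.Types.fgroup_m23 hD hprim h23)
  have h7 := Cfsg.Agent.H831.Types.isT7 hD hprim h23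
  subst hK hC
  refine ⟨Cfsg.Agent.H832.Seven.K_le, Cfsg.Agent.H832.Seven.index_K F h7 h₁ h₂ hne hc, ?_,
    Cfsg.Agent.H832.Seven.quasi_K F h7 h₁ h₂ hne hc,
    Cfsg.Agent.H832.Seven.exists_quo F h7 h₁ h₂ hne hc,
    Cfsg.Agent.H832.Seven.center_quo F h7 h₁ h₂ hne hc hV⟩
  rw [hV]
  exact Cfsg.Agent.H832.Seven.map_center_K F h7 h₁ h₂ hne hc

end Cfsg.Agent.S5468
end
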