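import Cfsg.Statements.S5474
import Cfsg.Agent.H833.Out24
import Cfsg.Agent.H831.Types
import Cfsg.Agent.H809.T8Iso
import Cfsg.Agent.R01.Fi22Facts
import Cfsg.Agent.Prune
set_option linter.all false
open scoped Cfsg.Agent.FastGrp

set_option autoImplicit false
open Cfsg

namespace Cfsg.Agent.S5474

/-- Let G be a finite group with trivial centre generated by a conjugation-invariant set D of 3-transpositions on which it acts primitively, such that for some d in D the subgroup generated by the members of D other than d commuting with d has central largest normal 2- and 3-subgroups, and suppose G with D is of type M(24). Then D is the only conjugacy class of 3-transpositions generating G. -/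
theorem result {G : Type*} [Group G] [Finite G] {D : Set G} (hD : Cfsg.IsThreeTranspositionGroup D) (hprim : Cfsg.IsPrimitiveUnderConj D) (d₀ : G) (hd₀ : d₀ ∈ D) (h3 : Cfsg.pCore 3 ↥(Subgroup.closure {y : G | y ∈ D ∧ y ≠ d₀ ∧ Commute d₀ y}) ≤ Subgroup.center ↥(Subgroup.closure {y : G | y ∈ D ∧ y ≠ d₀ ∧ Commute d₀ y})) (h2 : Cfsg.pCore 2 ↥(Subgroup.closure {y : G | y ∈ D ∧ y ≠ d₀ ∧ Commute d₀ y}) ≤ Subgroup.center ↥(Subgroup.closure {y : G | y ∈ D ∧ y ≠ d₀ ∧ Commute d₀ y})) (h24 : Cfsg.IsOfTypeM24 G D) (D' : Set G) (hD' : Cfsg.IsThreeTranspositionClass D') : D' = D := by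
  have F := Cfsg.Agent.H831.Types.fgroup_m24 hD hprim h24
  have h8 := Cfsg.Agent.H831.Types.isT8 hD hprim hd₀ h2 h24
  obtain ⟨e, -, he⟩ := Cfsg.Agent.H809.T8Iso.exists_iso' F h8
  have h1 : IsThreeTranspositionClass (e.symm '' D') := Cfsg.Agent.R01.Fi22Facts.isThree_map e.symm hD'
  have h4 := Cfsg.Agent.H833.Out24.class_unique h1
  rw [← he, ← h4, Set.image_image]
  simp

end Cfsg.Agent.S5474
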