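-- S5515: uniqueness of POmega8+(3):S3
import Mathlib
import Cfsg.Prelude.Def_KGroupFacts
import Cfsg.Statements.S5515
import Cfsg.Agent.S2608
import Cfsg.Agent.S1313
import Cfsg.Agent.LieClassical.OrthForms
import Cfsg.Agent.H844.PCenter
set_option linter.all false

-- part: H844/AutEmb
section
/-!
# Groups between `Inn K` and `Aut K` (helper844)

* `order_six_fix` : a subgroup of order 6 of `Perm (Fin 4)` is the stabiliser of a point;
* `order_six_conj` : two subgroups of order 6 of `Perm (Fin 4)` are conjugate;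
* `emb` : for `L` normal in `G`, `f : L ≃* K`: the homomorphism `G →* MulAut K`;
* `iso_of_out` : two groups `G`, `G'` with normal subgroups `L ≃* K`, `L' ≃* K` containing their centralizers,
  `K` with trivial centre, `Out K ≃* Perm (Fin 4)`, `G ⧸ L`, `G' ⧸ L'` of order 6, are isomorphic.
-/

set_option autoImplicit false

namespace Cfsg.Agent.H844.AutEmb

open Equiv Subgroup

theorem fix_of_three : ∀ τ : Perm (Fin 4), τ ^ 3 = 1 → τ ≠ 1 → ∃ i, τ i = i ∧ ∀ j, τ j = j → j = i := by
  decide +kernel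

/-- A subgroup of order 6 of the symmetric group of degree 4 fixes a point. -/
theorem order_six_fix (S : Subgroup (Perm (Fin 4))) (hS : Nat.card S = 6) :
    ∃ i, ∀ s ∈ S, s i = i := by
  have : Fact (Nat.Prime 3) := ⟨by norm_num⟩
  obtain ⟨t, ht⟩ := exists_prime_orderOf_dvd_card' (G := S) 3 (by rw [hS]; norm_num)
  have hidx : (zpowers t).index = 2 := by
    have h := (zpowers t).card_mul_index
    rw [Nat.card_zpowers, ht, hS] at h
    omega
  have hn : (zpowers t).Normal := normal_of_index_eq_two hidx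
  have ht3 : (t : Perm (Fin 4)) ^ 3 = 1 := by
    rw [← Subgroup.coe_pow, ← ht, pow_orderOf_eq_one, Subgroup.coe_one]
  have ht1 : (t : Perm (Fin 4)) ≠ 1 := by
    intro h
    have : t = 1 := Subtype.ext h
    rw [this, orderOf_one] at ht
    omega
  obtain ⟨i, hi, hi'⟩ := fix_of_three _ ht3 ht1
  refine ⟨i, fun s hs => ?_⟩
  have h1 : (⟨s, hs⟩ : S)⁻¹ * t * ((⟨s, hs⟩ : S)⁻¹)⁻¹ ∈ zpowers t := hn.conj_mem t (mem_zpowers t) _
  obtain ⟨k, hk⟩ := mem_zpowers_iff.1 h1
  apply hi'
  rw [inv_inv] at hk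
  have h6 : ((t : Perm (Fin 4)) * s) i = (s * (t : Perm (Fin 4)) ^ k) i := by
    have : (t : Perm (Fin 4)) * s = s * (t : Perm (Fin 4)) ^ k := by
      have h7 := congrArg (Subtype.val) hk
      simp only [Subgroup.coe_mul, Subgroup.coe_inv, Subgroup.coe_zpow] at h7
      rw [h7]
      group
    rw [this]
  rw [Perm.mul_apply, Perm.mul_apply] at h6
  rw [h6]
  congr 1
  exact Equiv.Perm.zpow_apply_eq_self_of_apply_eq_self hi k

theorem card_fix : ∀ i : Fin 4, (Finset.univ.filter (fun σ : Perm (Fin 4) => σ i = i)).card = 6 := by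
  decide +kernel

/-- the stabiliser of a point -/
def stab (i : Fin 4) : Subgroup (Perm (Fin 4)) where
  carrier := {σ | σ i = i}
  mul_mem' {a b} ha hb := by
    show (a * b) i = i
    rw [Perm.mul_apply, show b i = i from hb, show a i = i from ha]
  one_mem' := rfl
  inv_mem' {a} ha := by
    show a⁻¹ i = i
    rw [Perm.inv_eq_iff_eq]
    exact (show a i = i from ha).symm

theorem mem_stab {i : Fin 4} {σ : Perm (Fin 4)} : σ ∈ stab i ↔ σ i = i := Iff.rfl

theorem card_stab (i : Fin 4) : Nat.card (stab i) = 6 := by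
  rw [← card_fix i, ← Fintype.card_subtype, ← Nat.card_eq_fintype_card]
  rfl

theorem eq_stab (S : Subgroup (Perm (Fin 4))) (hS : Nat.card S = 6) : ∃ i, S = stab i := by
  obtain ⟨i, hi⟩ := order_six_fix S hS
  exact ⟨i, Subgroup.eq_of_le_of_card_ge (fun s hs => hi s hs) (by rw [card_stab, hS])⟩

/-- Two subgroups of order 6 of the symmetric group of degree 4 are conjugate. -/
theorem order_six_conj (S T : Subgroup (Perm (Fin 4))) (hS : Nat.card S = 6) (hT : Nat.card T = 6) :
    ∃ g : Perm (Fin 4), ∀ x, x ∈ S ↔ g * x * g⁻¹ ∈ T := by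
  obtain ⟨i, rfl⟩ := eq_stab S hS
  obtain ⟨j, rfl⟩ := eq_stab T hT
  refine ⟨swap i j, fun x => ?_⟩
  rw [mem_stab, mem_stab, Perm.mul_apply, Perm.mul_apply, swap_inv, swap_apply_right]
  constructor
  · intro h
    rw [h, swap_apply_left]
  · intro h
    have h2 := congrArg (swap i j) h
    rw [swap_apply_self, swap_apply_right] at h2
    exact h2

universe u v w

variable {G : Type v} [Group G] {K : Type u} [Group K] {L : Subgroup G} [hn : L.Normal]

/-- conjugation, as automorphisms of `K ≃* L` -/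
noncomputable def emb (f : L ≃* K) : G →* MulAut K :=
  (MulAut.congr f).toMonoidHom.comp MulAut.conjNormal

theorem emb_apply (f : L ≃* K) (g : G) (k : K) : emb f g k = f (MulAut.conjNormal g (f.symm k)) := rfl

theorem emb_apply_map (f : L ≃* K) (g : G) (l : L) : emb f g (f l) = f (MulAut.conjNormal g l) := by
  rw [emb_apply, f.symm_apply_apply]

theorem emb_coe (f : L ≃* K) (l : L) : emb f (l : G) = MulAut.conj (f l) := by
  ext k
  obtain ⟨l', rfl⟩ := f.surjective k
  rw [emb_apply_map, MulAut.conj_apply, ← map_inv, ← map_mul, ← map_mul]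
  congr 1

theorem emb_injective (f : L ≃* K) (hc : centralizer (L : Set G) ≤ L) (hz : center K = ⊥) :
    Function.Injective (emb f) := by
  rw [injective_iff_map_eq_one]
  intro g hg
  have h1 : g ∈ centralizer (L : Set G) := by
    rw [mem_centralizer_iff]
    intro l hl
    have h2 : emb f g (f ⟨l, hl⟩) = f ⟨l, hl⟩ := by rw [hg]; rfl
    rw [emb_apply_map] at h2
    have h3 := congrArg Subtype.val (f.injective h2)
    rw [MulAut.conjNormal_apply] at h3
    simp only at h3
    rw [← h3]
    simp only [inv_mul_cancel_right]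
    rw [h3]
  have h4 : g ∈ L := hc h1
  have h5 : f ⟨g, h4⟩ ∈ center K := by
    rw [mem_center_iff]
    intro k
    have h6 := DFunLike.congr_fun (emb_coe f ⟨g, h4⟩) k
    simp only at h6
    rw [hg, MulAut.one_apply, MulAut.conj_apply] at h6
    nth_rewrite 1 [h6]
    group
  rw [hz, mem_bot, map_eq_one_iff f f.injective] at h5
  exact congrArg Subtype.val h5

theorem emb_mem_Inn (f : L ≃* K) (hc : centralizer (L : Set G) ≤ L) (hz : center K = ⊥) (g : G) :
    emb f g ∈ Cfsg.Inn K ↔ g ∈ L := by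
  constructor
  · rintro ⟨k, hk⟩
    obtain ⟨l, rfl⟩ := f.surjective k
    rw [← emb_coe] at hk
    rw [← emb_injective f hc hz hk]
    exact l.2
  · intro hg
    exact ⟨f ⟨g, hg⟩, (emb_coe f ⟨g, hg⟩).symm⟩

/-- the image in the outer automorphism group -/
noncomputable def oemb (f : L ≃* K) : G →* Cfsg.Out K := (QuotientGroup.mk' (Cfsg.Inn K)).comp (emb f)

theorem ker_oemb (f : L ≃* K) (hc : centralizer (L : Set G) ≤ L) (hz : center K = ⊥) :
    (oemb f).ker = L := by
  ext g
  rw [MonoidHom.mem_ker]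
  show (QuotientGroup.mk' (Cfsg.Inn K)) (emb f g) = 1 ↔ _
  rw [← MonoidHom.mem_ker, QuotientGroup.ker_mk', emb_mem_Inn f hc hz]

theorem card_range_oemb (f : L ≃* K) (hc : centralizer (L : Set G) ≤ L) (hz : center K = ⊥) :
    Nat.card (oemb f).range = Nat.card (G ⧸ L) := by
  rw [← Nat.card_congr (QuotientGroup.quotientKerEquivRange (oemb f)).toEquiv]
  exact Nat.card_congr (QuotientGroup.quotientMulEquivOfEq (ker_oemb f hc hz)).toEquiv

theorem mem_range_emb (f : L ≃* K) (α : MulAut K) :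
    α ∈ (emb f).range ↔ (QuotientGroup.mk' (Cfsg.Inn K)) α ∈ (oemb f).range := by
  constructor
  · rintro ⟨g, rfl⟩
    exact ⟨g, rfl⟩
  · rintro ⟨g, hg⟩
    have h1 : (QuotientGroup.mk' (Cfsg.Inn K)) ((emb f g)⁻¹ * α) = 1 := by
      rw [map_mul, map_inv, ← hg]
      show (oemb f g)⁻¹ * oemb f g = 1
      rw [inv_mul_cancel]
    rw [← MonoidHom.mem_ker, QuotientGroup.ker_mk'] at h1
    obtain ⟨k, hk⟩ := h1
    obtain ⟨l, rfl⟩ := f.surjective k
    rw [← emb_coe] at hk
    refine ⟨g * l, ?_⟩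
    rw [map_mul, hk, mul_inv_cancel_left]

/-- **Uniqueness**: `Out K ≃* Perm (Fin 4)`; two extensions by outer automorphism groups of order 6 are isomorphic. -/
theorem iso_of_out {G' : Type w} [Group G'] {L' : Subgroup G'} [hn' : L'.Normal] (f : L ≃* K) (f' : L' ≃* K)
    (hc : centralizer (L : Set G) ≤ L) (hc' : centralizer (L' : Set G') ≤ L') (hz : center K = ⊥)
    (e : Cfsg.Out K ≃* Perm (Fin 4)) (hq : Nat.card (G ⧸ L) = 6) (hq' : Nat.card (G' ⧸ L') = 6) :
    Nonempty (G ≃* G') := by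
  have h1 : Nat.card ((oemb f).range.map e.toMonoidHom) = 6 := by
    rw [← hq, ← card_range_oemb f hc hz]
    exact (Nat.card_congr ((oemb f).range.equivMapOfInjective e.toMonoidHom e.injective).toEquiv).symm
  have h2 : Nat.card ((oemb f').range.map e.toMonoidHom) = 6 := by
    rw [← hq', ← card_range_oemb f' hc' hz]
    exact (Nat.card_congr ((oemb f').range.equivMapOfInjective e.toMonoidHom e.injective).toEquiv).symm
  obtain ⟨g, hg⟩ := order_six_conj _ _ h1 h2
  obtain ⟨a, ha⟩ := QuotientGroup.mk'_surjective (Cfsg.Inn K) (e.symm g)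
  have h3 : ∀ α : MulAut K, α ∈ (emb f).range ↔ a * α * a⁻¹ ∈ (emb f').range := by
    intro α
    rw [mem_range_emb, mem_range_emb, map_mul, map_mul, map_inv, ha]
    have h4 : ∀ (S : Subgroup (Cfsg.Out K)) (x : Cfsg.Out K), x ∈ S ↔ e x ∈ S.map e.toMonoidHom := by
      intro S x
      exact (Subgroup.mem_map_iff_mem (f := e.toMonoidHom) e.injective).symm
    rw [h4, hg, h4]
    simp only [map_mul, map_inv, MulEquiv.apply_symm_apply]
  have h5 : ((emb f).range.map (MulAut.conj a).toMonoidHom) = (emb f').range := by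
    ext β
    rw [Subgroup.mem_map]
    constructor
    · rintro ⟨α, hα, rfl⟩
      exact (h3 α).1 hα
    · intro hβ
      refine ⟨a⁻¹ * β * a, (h3 _).2 ?_, ?_⟩
      · have : a * (a⁻¹ * β * a) * a⁻¹ = β := by group
        rw [this]
        exact hβ
      · show a * (a⁻¹ * β * a) * a⁻¹ = β
        group
  have e1 := MonoidHom.ofInjective (emb_injective f hc hz)
  have e2 := MonoidHom.ofInjective (emb_injective f' hc' hz)
  have e3 := (emb f).range.equivMapOfInjective (MulAut.conj a).toMonoidHom (MulAut.conj a).injective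
  rw [h5] at e3
  exact ⟨(e1.trans e3).trans e2.symm⟩

end Cfsg.Agent.H844.AutEmb
end

-- part: S5515
section
set_option autoImplicit false
open Cfsg

namespace Cfsg.Agent.S5515

/-- `Out(PΩ₈⁺(3)) ≃* S₄` -/
theorem out_equiv : Nonempty (Cfsg.Out (Cfsg.POmega (ZMod 3) (Cfsg.quadFormPlus 4 (ZMod 3))) ≃* Equiv.Perm (Fin 4)) := by
  have : Fact (Nat.Prime 3) := ⟨by norm_num⟩
  have h := Cfsg.Agent.S2608.result (F := ZMod 3) (p := 3) (f := 1) (m := 4) le_rfl (by rw [ZMod.card]; norm_num) (by norm_num) le_rfl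
  rw [if_pos rfl] at h
  obtain ⟨e⟩ := h
  have e2 : Equiv.Perm (Fin 4) × Multiplicative (ZMod 1) ≃* Equiv.Perm (Fin 4) :=
    { toFun := fun x => x.1
      invFun := fun x => (x, 1)
      left_inv := fun x => Prod.ext rfl (Subsingleton.elim (α := ZMod 1) _ _)
      right_inv := fun x => rfl
      map_mul' := fun x y => rfl }
  exact ⟨e.trans e2⟩

/-- the centre is trivial -/
theorem center_eq_bot : Subgroup.center (Cfsg.POmega (ZMod 3) (Cfsg.quadFormPlus 4 (ZMod 3))) = ⊥ := by
  have : Fact (Nat.Prime 3) := ⟨by norm_num⟩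
  rw [← Cfsg.Agent.LieClassical.OrthForms.coe_plusForm]
  apply H844.PCenter.center_eq_bot
  apply Cfsg.Agent.LieClassical.OrthFinite.good_of_finite
    (Cfsg.Agent.LieClassical.OrthForms.nondeg_plusForm 4 (ZMod 3))
  rw [Module.finrank_fintype_fun_eq_card, Fintype.card_sum, Fintype.card_fin]
  omega

/-- Let G and G′ be finite groups whose generalized Fitting subgroups are isomorphic to PΩ⁺(8, 3) (the commutator subgroup of the isometry group of the hyperbolic quadratic form in dimension 8 over the field with three elements, modulo its centre) with quotients isomorphic to the symmetric group of degree 3. Then G and G′ are isomorphic. -/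
theorem result {G G' : Type*} [Group G] [Finite G] [Group G'] [Finite G'] (hF : Nonempty (↥(Cfsg.generalizedFittingSubgroup G) ≃* Cfsg.POmega (ZMod 3) (Cfsg.quadFormPlus 4 (ZMod 3)))) (hF' : Nonempty (↥(Cfsg.generalizedFittingSubgroup G') ≃* Cfsg.POmega (ZMod 3) (Cfsg.quadFormPlus 4 (ZMod 3)))) [hn : (Cfsg.generalizedFittingSubgroup G).Normal] [hn' : (Cfsg.generalizedFittingSubgroup G').Normal] (hq : Nonempty (G ⧸ Cfsg.generalizedFittingSubgroup G ≃* Equiv.Perm (Fin 3))) (hq' : Nonempty (G' ⧸ Cfsg.generalizedFittingSubgroup G' ≃* Equiv.Perm (Fin 3))) : Nonempty (G ≃* G') := by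
  obtain ⟨f⟩ := hF
  obtain ⟨f'⟩ := hF'
  obtain ⟨q⟩ := hq
  obtain ⟨q'⟩ := hq'
  obtain ⟨e⟩ := out_equiv
  have h6 : Nat.card (Equiv.Perm (Fin 3)) = 6 := by
    rw [Nat.card_eq_fintype_card, Fintype.card_perm, Fintype.card_fin]; rfl
  exact H844.AutEmb.iso_of_out f f' (Cfsg.Agent.S1313.centralizer_le G) (Cfsg.Agent.S1313.centralizer_le G')
    center_eq_bot e (by rw [Nat.card_congr q.toEquiv, h6]) (by rw [Nat.card_congr q'.toEquiv, h6])

end Cfsg.Agent.S5515
end
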