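import Mathlib
import Cfsg.Agent.H844.UnipModel
import Cfsg.Agent.LieClassical.OrthForms
import Cfsg.Agent.S5515
import Cfsg.Agent.H844.UnipPeel_mg
import Cfsg.Statements.S5516
import Cfsg.Agent.H989.OutOrth.Forms
set_option linter.all false

-- part: H844/Dim8
section
/-!
# `PΩ₈⁺(3)`: the classes of elements of order three (helper844)
-/

set_option autoImplicit false
set_option linter.unusedSectionVars false

namespace Cfsg.Agent.H844.Dim8

open QuadraticMap Cfsg.Agent.LieClassical.OrthCore Cfsg.Agent.LieClassical.OrthTrans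
  Cfsg.Agent.LieClassical.OrthForms Cfsg.Agent.H844.Unip

theorem nine_one {ι : Type} [Fintype ι] [DecidableEq ι] {Q : QuadraticForm (ZMod 3) (ι → ZMod 3)} (hG : Good Q)
    {T : (ι → ZMod 3) ≃ₗ[ZMod 3] (ι → ZMod 3)} (hT : T ∈ E Q) (g : O Q)
    (h : (T * (g : (ι → ZMod 3) ≃ₗ[ZMod 3] (ι → ZMod 3))) ^ 9 = 1) : dl Q g = 1 := by
  have h1 := dl_of_nine (⟨T, E_le_O hT⟩ * g) (by rw [Subgroup.coe_mul]; exact h)
  have h2 : dl Q ⟨T, E_le_O hT⟩ = 1 := (mem_E_iff_dl hG _).1 hT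
  rwa [map_mul, h2, one_mul] at h1

theorem nine_two {ι : Type} [Fintype ι] [DecidableEq ι] {Q : QuadraticForm (ZMod 3) (ι → ZMod 3)} (hG : Good Q)
    {T : (ι → ZMod 3) ≃ₗ[ZMod 3] (ι → ZMod 3)} (hT : T ∈ E Q) (g D R : O Q) {i j : ℕ}
    (h : (T * (g : (ι → ZMod 3) ≃ₗ[ZMod 3] (ι → ZMod 3)) * (D : (ι → ZMod 3) ≃ₗ[ZMod 3] (ι → ZMod 3)) ^ i *
      (R : (ι → ZMod 3) ≃ₗ[ZMod 3] (ι → ZMod 3)) ^ j) ^ 9 = 1) : dl Q g * dl Q D ^ i * dl Q R ^ j = 1 := by
  have h1 := dl_of_nine (⟨T, E_le_O hT⟩ * g * D ^ i * R ^ j) (by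
    rw [Subgroup.coe_mul, Subgroup.coe_mul, Subgroup.coe_mul, Subgroup.coe_pow, Subgroup.coe_pow]; exact h)
  have h2 : dl Q ⟨T, E_le_O hT⟩ = 1 := (mem_E_iff_dl hG _).1 hT
  rwa [map_mul, map_mul, map_mul, map_pow, map_pow, h2, one_mul] at h1

abbrev J : Type := Fin 4 ⊕ Fin 4
abbrev V : Type := J → ZMod 3
abbrev Q : QuadraticForm (ZMod 3) V := plusForm 4 (ZMod 3)

def e (i : Fin 4) : V := Pi.single (Sum.inl i) 1
def f (i : Fin 4) : V := Pi.single (Sum.inr i) 1

def LE1 : V →ₗ[ZMod 3] V := dd Q (f 0) (e 2 + f 2) + dd Q (f 1) (e 3 + f 3)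
def LE2 : V →ₗ[ZMod 3] V := dd Q (f 0) (e 2 + f 2) + dd Q (f 1) (e 3 - f 3)
def LF1 : V →ₗ[ZMod 3] V := dd Q (f 0) (e 3 + f 3) + dd Q (f 1) (f 2)
def LF2 : V →ₗ[ZMod 3] V := dd Q (f 0) (e 3 - f 3) + dd Q (f 1) (f 2)
def LG1 : V →ₗ[ZMod 3] V := dd Q (f 0) (e 3 + f 3)
def LG2 : V →ₗ[ZMod 3] V := dd Q (f 0) (e 3 - f 3)
def LH : V →ₗ[ZMod 3] V := dd Q (f 0) (f 1) + dd Q (f 2) (f 3)
def LI : V →ₗ[ZMod 3] V := dd Q (f 0) (f 1)

theorem skd {L L' : V →ₗ[ZMod 3] V} (h : ∀ v w, polar Q (L v) w = - polar Q v (L w))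
    (h' : ∀ v w, polar Q (L' v) w = - polar Q v (L' w)) (v w : V) :
    polar Q ((L + L') v) w = - polar Q v ((L + L') w) := by
  rw [LinearMap.add_apply, LinearMap.add_apply, pol_add_left, pol_add_right, h, h', neg_add]

theorem skE1 : Sk Q LE1 := sk_of (skd (dd_skew Q _ _) (dd_skew Q _ _)) (by decide +kernel)
theorem skE2 : Sk Q LE2 := sk_of (skd (dd_skew Q _ _) (dd_skew Q _ _)) (by decide +kernel)
theorem skF1 : Sk Q LF1 := sk_of (skd (dd_skew Q _ _) (dd_skew Q _ _)) (by decide +kernel)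
theorem skF2 : Sk Q LF2 := sk_of (skd (dd_skew Q _ _) (dd_skew Q _ _)) (by decide +kernel)
theorem skG1 : Sk Q LG1 := sk_of (dd_skew Q _ _) (by decide +kernel)
theorem skG2 : Sk Q LG2 := sk_of (dd_skew Q _ _) (by decide +kernel)
theorem skH : Sk Q LH := sk_of (skd (dd_skew Q _ _) (dd_skew Q _ _)) (by decide +kernel)
theorem skI : Sk Q LI := sk_of (dd_skew Q _ _) (by decide +kernel)

def pE1 : Fin shE.m → V := ![e 0, e 1, e 2 - f 2, e 3 - f 3]
def pE2 : Fin shE.m → V := ![e 0, e 1, e 2 - f 2, e 3 + f 3]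
def pF1 : Fin shF.m → V := ![e 0, e 2, e 1, e 3 - f 3]
def pF1' : Fin shF.m → V := ![e 0, - e 2, e 1, e 3 - f 3]
def pF2 : Fin shF.m → V := ![e 0, e 2, e 1, e 3 + f 3]
def pF2' : Fin shF.m → V := ![e 0, - e 2, e 1, e 3 + f 3]
def pG1 : Fin shG.m → V := ![e 0, e 3 - f 3, e 1 - f 1, e 2 - f 2, e 1 + f 1 + (e 2 + f 2), e 1 + f 1 - (e 2 + f 2)]
def pG2 : Fin shG.m → V := ![e 0, e 1 + f 1 + (e 2 + f 2), e 1 + f 1 - (e 2 + f 2), e 1 - f 1, e 2 - f 2, e 3 + f 3]
def pH : Fin shH.m → V := ![e 1, e 0, e 3, e 2]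
def pH' : Fin shH.m → V := ![- e 1, e 0, - e 3, e 2]
def pI : Fin shI.m → V := ![e 1, e 0, e 2 - f 2, e 3 - f 3, e 2 + f 2 + (e 3 + f 3), e 2 + f 2 - (e 3 + f 3)]
def pI' : Fin shI.m → V := ![- e 1, e 0, e 2 - f 2, e 3 - f 3, e 2 + f 2 + (e 3 + f 3), e 2 + f 2 - (e 3 + f 3)]

theorem okE : shE.Ok := ⟨by decide +kernel, by decide +kernel, by decide +kernel⟩
theorem okF : shF.Ok := ⟨by decide +kernel, by decide +kernel, by decide +kernel⟩
theorem okG : shG.Ok := ⟨by decide +kernel, by decide +kernel, by decide +kernel⟩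
theorem okH : shH.Ok := ⟨by decide +kernel, by decide +kernel, by decide +kernel⟩
theorem okI : shI.Ok := ⟨by decide +kernel, by decide +kernel, by decide +kernel⟩

theorem fin8 : Module.finrank (ZMod 3) V = 8 := by
  rw [Module.finrank_fintype_fun_eq_card]
  rfl

theorem frE1 : Fr Q LE1 shE (tE 1 1) pE1 :=
  Fr.of_table skE1 (by decide +kernel) (by decide +kernel) (by decide +kernel) (by decide +kernel)
theorem frE1' : Fr Q (-LE1) shE (tE 1 1) pE1 :=
  Fr.of_table skE1.neg (by decide +kernel) (by decide +kernel) (by decide +kernel) (by decide +kernel)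
theorem frE2 : Fr Q LE2 shE (tE 2 2) pE2 :=
  Fr.of_table skE2 (by decide +kernel) (by decide +kernel) (by decide +kernel) (by decide +kernel)
theorem frE2' : Fr Q (-LE2) shE (tE 2 2) pE2 :=
  Fr.of_table skE2.neg (by decide +kernel) (by decide +kernel) (by decide +kernel) (by decide +kernel)
theorem frF1 : Fr Q LF1 shF (tF 1 1) pF1 :=
  Fr.of_table skF1 (by decide +kernel) (by decide +kernel) (by decide +kernel) (by decide +kernel)
theorem frF1' : Fr Q (-LF1) shF (tF 1 1) pF1' :=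
  Fr.of_table skF1.neg (by decide +kernel) (by decide +kernel) (by decide +kernel) (by decide +kernel)
theorem frF2 : Fr Q LF2 shF (tF 2 2) pF2 :=
  Fr.of_table skF2 (by decide +kernel) (by decide +kernel) (by decide +kernel) (by decide +kernel)
theorem frF2' : Fr Q (-LF2) shF (tF 2 2) pF2' :=
  Fr.of_table skF2.neg (by decide +kernel) (by decide +kernel) (by decide +kernel) (by decide +kernel)
theorem frG1 : Fr Q LG1 shG (tG 1 1) pG1 :=
  Fr.of_table skG1 (by decide +kernel) (by decide +kernel) (by decide +kernel) (by decide +kernel)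
theorem frG1' : Fr Q (-LG1) shG (tG 1 1) pG1 :=
  Fr.of_table skG1.neg (by decide +kernel) (by decide +kernel) (by decide +kernel) (by decide +kernel)
theorem frG2 : Fr Q LG2 shG (tG 2 2) pG2 :=
  Fr.of_table skG2 (by decide +kernel) (by decide +kernel) (by decide +kernel) (by decide +kernel)
theorem frG2' : Fr Q (-LG2) shG (tG 2 2) pG2 :=
  Fr.of_table skG2.neg (by decide +kernel) (by decide +kernel) (by decide +kernel) (by decide +kernel)
theorem frH : Fr Q LH shH tH pH :=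
  Fr.of_table skH (by decide +kernel) (by decide +kernel) (by decide +kernel) (by decide +kernel)
theorem frH' : Fr Q (-LH) shH tH pH' :=
  Fr.of_table skH.neg (by decide +kernel) (by decide +kernel) (by decide +kernel) (by decide +kernel)
theorem frI : Fr Q LI shI (tI 1) pI :=
  Fr.of_table skI (by decide +kernel) (by decide +kernel) (by decide +kernel) (by decide +kernel)
theorem frI' : Fr Q (-LI) shI (tI 1) pI' :=
  Fr.of_table skI.neg (by decide +kernel) (by decide +kernel) (by decide +kernel) (by decide +kernel)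

theorem dimE : shE.dim = Module.finrank (ZMod 3) V := by rw [fin8]; decide +kernel
theorem dimF : shF.dim = Module.finrank (ZMod 3) V := by rw [fin8]; decide +kernel
theorem dimG : shG.dim = Module.finrank (ZMod 3) V := by rw [fin8]; decide +kernel
theorem dimH : shH.dim = Module.finrank (ZMod 3) V := by rw [fin8]; decide +kernel
theorem dimI : shI.dim = Module.finrank (ZMod 3) V := by rw [fin8]; decide +kernel

/-- the types -/
inductive Ty | E1 | E2 | F1 | F2 | G1 | G2 | H | I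
  deriving DecidableEq

/-- the models -/
def M : Ty → Typ Q
  | .E1 => ⟨LE1, shE, tE 1 1, pE1, pE1, skE1, okE, dimE, frE1, frE1'⟩
  | .E2 => ⟨LE2, shE, tE 2 2, pE2, pE2, skE2, okE, dimE, frE2, frE2'⟩
  | .F1 => ⟨LF1, shF, tF 1 1, pF1, pF1', skF1, okF, dimF, frF1, frF1'⟩
  | .F2 => ⟨LF2, shF, tF 2 2, pF2, pF2', skF2, okF, dimF, frF2, frF2'⟩
  | .G1 => ⟨LG1, shG, tG 1 1, pG1, pG1, skG1, okG, dimG, frG1, frG1'⟩
  | .G2 => ⟨LG2, shG, tG 2 2, pG2, pG2, skG2, okG, dimG, frG2, frG2'⟩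
  | .H => ⟨LH, shH, tH, pH, pH', skH, okH, dimH, frH, frH'⟩
  | .I => ⟨LI, shI, tI 1, pI, pI', skI, okI, dimI, frI, frI'⟩

/-- the images of the centralizers -/
def C : Ty → AA → Prop
  | .F1 => fun a => a = 1 ∨ a = (-1, 1)
  | .F2 => fun a => a = 1 ∨ a = (-1, -1)
  | .H => fun a => a = 1
  | _ => fun _ => True

theorem cov (L : V →ₗ[ZMod 3] V) (hL : Sk Q L) (h0 : L ≠ 0) : ∃ t p, Fr Q L (M t).S (M t).τ p := by
  have h0' : ∃ w, L w ≠ 0 := by
    by_contra h
    push Not at h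
    exact h0 (LinearMap.ext h)
  have hN : Nd Q (⊤ : Submodule (ZMod 3) V) := nd_top (nondeg_plusForm 4 (ZMod 3))
  rcases class8 hL hN fin8 h0' with ⟨c, d, p, h⟩ | ⟨c, d, p, h⟩ | ⟨c, d, p, h⟩ | ⟨p, h⟩ | ⟨d, p, h⟩
  · have h1 := disc hL skE1 okE h.fr frE1 dimE
    have key : ∀ c d : ZMod 3, (∀ i, tE c d i ≠ 0) → ∏ i, tE c d i ^ shE.l i = ∏ i, tE 1 1 i ^ shE.l i →
        (c = 1 ∧ d = 1) ∨ (c = 2 ∧ d = 2) := by decide +kernel
    rcases key c d h.fr.ne h1 with ⟨rfl, rfl⟩ | ⟨rfl, rfl⟩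
    · exact ⟨.E1, p, h.fr⟩
    · exact ⟨.E2, p, h.fr⟩
  · have h1 := disc hL skF1 okF h.fr frF1 dimF
    have key : ∀ c d : ZMod 3, (∀ i, tF c d i ≠ 0) → ∏ i, tF c d i ^ shF.l i = ∏ i, tF 1 1 i ^ shF.l i →
        (c = 1 ∧ d = 1) ∨ (c = 2 ∧ d = 2) := by decide +kernel
    rcases key c d h.fr.ne h1 with ⟨rfl, rfl⟩ | ⟨rfl, rfl⟩
    · exact ⟨.F1, p, h.fr⟩
    · exact ⟨.F2, p, h.fr⟩
  · have h1 := disc hL skG1 okG h.fr frG1 dimG
    have key : ∀ c d : ZMod 3, (∀ i, tG c d i ≠ 0) → ∏ i, tG c d i ^ shG.l i = ∏ i, tG 1 1 i ^ shG.l i →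
        (c = 1 ∧ d = 1) ∨ (c = 2 ∧ d = 2) := by decide +kernel
    rcases key c d h.fr.ne h1 with ⟨rfl, rfl⟩ | ⟨rfl, rfl⟩
    · exact ⟨.G1, p, h.fr⟩
    · exact ⟨.G2, p, h.fr⟩
  · exact ⟨.H, p, h.fr⟩
  · have h1 := disc hL skI okI h.fr frI dimI
    have key : ∀ d : ZMod 3, (∀ i, tI d i ≠ 0) → ∏ i, tI d i ^ shI.l i = ∏ i, tI 1 i ^ shI.l i → d = 1 := by
      decide +kernel
    obtain rfl := key d h.fr.ne h1
    exact ⟨.I, p, h.fr⟩

/-- the vectors of the sign change of a block of length three -/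
def blk (L : V →ₗ[ZMod 3] V) (a : V) : List V := [L a, a + L (L a), a - L (L a)]

set_option maxHeartbeats 1000000 in
theorem low (t : Ty) (a : AA) (h : C t a) : ∃ g, g * exO (M t).sk * g⁻¹ = exO (M t).sk ∧ dl Q g = a := by
  cases t
  · exact full _ [e 2 - f 2] [e 2 - f 2 + (e 3 - f 3)] (by decide +kernel) (by decide +kernel) (by decide +kernel)
      (by decide +kernel) a
  · exact full _ [e 2 - f 2] [e 3 + f 3] (by decide +kernel) (by decide +kernel) (by decide +kernel)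
      (by decide +kernel) a
  · exact half _ (blk LF1 (e 0)) (-1, 1) (by decide +kernel) (by decide +kernel) a h
  · exact half _ (blk LF2 (e 0)) (-1, -1) (by decide +kernel) (by decide +kernel) a h
  · exact full _ [e 1 - f 1] [e 1 + f 1] (by decide +kernel) (by decide +kernel) (by decide +kernel)
      (by decide +kernel) a
  · exact full _ [e 1 - f 1] [e 1 + f 1] (by decide +kernel) (by decide +kernel) (by decide +kernel)
      (by decide +kernel) a
  · exact ⟨1, by rw [one_mul, inv_one, mul_one], by rw [map_one]; exact (show a = 1 from h).symm⟩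
  · exact full _ [e 2 - f 2] [e 2 + f 2] (by decide +kernel) (by decide +kernel) (by decide +kernel)
      (by decide +kernel) a

/-- the rank of `L` -/
def R1 : Ty → ℕ
  | .E1 => 4 | .E2 => 4 | .F1 => 4 | .F2 => 4 | .G1 => 2 | .G2 => 2 | .H => 4 | .I => 2

/-- the rank of `L²` -/
def R2 : Ty → ℕ
  | .E1 => 2 | .E2 => 2 | .F1 => 1 | .F2 => 1 | .G1 => 1 | .G2 => 1 | .H => 0 | .I => 0

theorem rk_one (t : Ty) : (M t).S.rk 1 = R1 t := by
  cases t
  · exact (by decide +kernel : shE.rk 1 = 4)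
  · exact (by decide +kernel : shE.rk 1 = 4)
  · exact (by decide +kernel : shF.rk 1 = 4)
  · exact (by decide +kernel : shF.rk 1 = 4)
  · exact (by decide +kernel : shG.rk 1 = 2)
  · exact (by decide +kernel : shG.rk 1 = 2)
  · exact (by decide +kernel : shH.rk 1 = 4)
  · exact (by decide +kernel : shI.rk 1 = 2)

theorem rk_two (t : Ty) : (M t).S.rk 2 = R2 t := by
  cases t
  · exact (by decide +kernel : shE.rk 2 = 2)
  · exact (by decide +kernel : shE.rk 2 = 2)
  · exact (by decide +kernel : shF.rk 2 = 1)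
  · exact (by decide +kernel : shF.rk 2 = 1)
  · exact (by decide +kernel : shG.rk 2 = 1)
  · exact (by decide +kernel : shG.rk 2 = 1)
  · exact (by decide +kernel : shH.rk 2 = 0)
  · exact (by decide +kernel : shI.rk 2 = 0)

theorem P3_E1 : ¬ P3 Q LE1 := not_P3 skE1 okE frE1 dimE (by decide +kernel) (by decide +kernel) ⟨0, by decide +kernel⟩
      ⟨1, by decide +kernel⟩ (by decide +kernel) (by decide +kernel) (by decide +kernel) (by decide +kernel)
      (by decide +kernel) (by decide +kernel)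

theorem P3_E2 : P3 Q LE2 := ⟨e 0 + e 1, by decide +kernel, by decide +kernel⟩

theorem P2_F1 : ¬ P2 Q LF1 := not_P2 skF1 okF frF1 dimF (by decide +kernel) (by decide +kernel) ⟨0, by decide +kernel⟩
      (by decide +kernel) (by decide +kernel) (by decide +kernel)

theorem P2_F2 : P2 Q LF2 := ⟨e 0, by decide +kernel⟩

theorem P2_G1 : ¬ P2 Q LG1 := not_P2 skG1 okG frG1 dimG (by decide +kernel) (by decide +kernel) ⟨0, by decide +kernel⟩
      (by decide +kernel) (by decide +kernel) (by decide +kernel)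

theorem P2_G2 : P2 Q LG2 := ⟨e 0, by decide +kernel⟩

theorem key_sep (t t' : Ty) (h1 : R1 t = R1 t') (h2 : R2 t = R2 t') : t = t' ∨ (t = .E1 ∧ t' = .E2) ∨
    (t = .E2 ∧ t' = .E1) ∨ (t = .F1 ∧ t' = .F2) ∨ (t = .F2 ∧ t' = .F1) ∨ (t = .G1 ∧ t' = .G2) ∨
    (t = .G2 ∧ t' = .G1) := by
  revert h1 h2
  cases t <;> cases t' <;> decide

theorem sep (t t' : Ty) (h1 : (M t).S.rk 1 = (M t').S.rk 1) (h2 : (M t).S.rk 2 = (M t').S.rk 2)
    (h3 : P2 Q (M t).L ↔ P2 Q (M t').L) (h4 : P3 Q (M t).L ↔ P3 Q (M t').L) : t = t' := by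
  rw [rk_one, rk_one] at h1
  rw [rk_two, rk_two] at h2
  rcases key_sep t t' h1 h2 with h | ⟨rfl, rfl⟩ | ⟨rfl, rfl⟩ | ⟨rfl, rfl⟩ | ⟨rfl, rfl⟩ | ⟨rfl, rfl⟩ | ⟨rfl, rfl⟩
  · exact h
  · exact absurd (h4.2 P3_E2) P3_E1
  · exact absurd (h4.1 P3_E2) P3_E1
  · exact absurd (h3.2 P2_F2) P2_F1
  · exact absurd (h3.1 P2_F2) P2_F1
  · exact absurd (h3.2 P2_G2) P2_G1
  · exact absurd (h3.1 P2_G2) P2_G1

/-! ### The split types -/

theorem good8 : Good Q := LieClassical.OrthFinite.good_of_finite (nondeg_plusForm 4 (ZMod 3)) (by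
    rw [fin8]; omega)

theorem genF1 : Gen3 Q LF1 (e 0) (e 2) (e 1) (e 3 - f 3) where
  ca := by decide +kernel
  LLu := by decide +kernel
  LLw := by decide +kernel
  Lz := by decide +kernel
  uw := by decide +kernel
  gen y := by
    obtain ⟨c, y', hy⟩ := Fr.gens skF1 okF frF1 dimF y
    refine ⟨c ⟨0, by decide +kernel⟩, c ⟨1, by decide +kernel⟩, c ⟨2, by decide +kernel⟩, c ⟨3, by decide +kernel⟩, y', ?_⟩
    rw [hy]
    congr 1
    show ∑ i : Fin 4, (c : Fin 4 → ZMod 3) i • (pF1 : Fin 4 → V) i = _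
    rw [Fin.sum_univ_four]
    rfl
  hz := Or.inr (by decide +kernel)

theorem genF2 : Gen3 Q LF2 (e 0) (e 2) (e 1) (e 3 + f 3) where
  ca := by decide +kernel
  LLu := by decide +kernel
  LLw := by decide +kernel
  Lz := by decide +kernel
  uw := by decide +kernel
  gen y := by
    obtain ⟨c, y', hy⟩ := Fr.gens skF2 okF frF2 dimF y
    refine ⟨c ⟨0, by decide +kernel⟩, c ⟨1, by decide +kernel⟩, c ⟨2, by decide +kernel⟩, c ⟨3, by decide +kernel⟩, y', ?_⟩
    rw [hy]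
    congr 1
    show ∑ i : Fin 4, (c : Fin 4 → ZMod 3) i • (pF2 : Fin 4 → V) i = _
    rw [Fin.sum_univ_four]
    rfl
  hz := Or.inr (by decide +kernel)

theorem genH : Gen4 Q LH (e 1) (e 0) (e 3) (e 2) where
  LL v := ext_basis (M := LH ∘ₗ LH) (M' := 0) (by decide +kernel) v
  uw := by decide +kernel
  uw' := by decide +kernel
  uu' := by decide +kernel
  uw'' := by decide +kernel
  wu' := by decide +kernel
  ww' := by decide +kernel
  gen y := by
    obtain ⟨c, y', hy⟩ := Fr.gens skH okH frH dimH y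
    refine ⟨c ⟨0, by decide +kernel⟩, c ⟨1, by decide +kernel⟩, c ⟨2, by decide +kernel⟩, c ⟨3, by decide +kernel⟩, y', ?_⟩
    rw [hy]
    congr 1
    show ∑ i : Fin 4, (c : Fin 4 → ZMod 3) i • (pH : Fin 4 → V) i = _
    rw [Fin.sum_univ_four]
    rfl

theorem cases_pow {a b : AA} {i j : ℕ} (h : a * b ^ i * b ^ j = 1) : a = 1 ∨ a = b := by
  rw [mul_assoc, ← pow_add] at h
  rcases Nat.even_or_odd' (i + j) with ⟨k, hk | hk⟩
  · left
    rw [hk, pow_mul, pow_two, AA_sq, one_pow, mul_one] at h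
    exact h
  · right
    rw [hk, pow_succ, pow_mul, pow_two, AA_sq, one_pow, one_mul] at h
    rw [← mul_one a, ← AA_sq b, ← mul_assoc, h, one_mul]

theorem upF1 (g : O Q) (hg : Cm LF1 (g : V ≃ₗ[ZMod 3] V)) : dl Q g = 1 ∨ dl Q g = (-1, 1) := by
  have hD : ∀ i, rfa Q (blk LF1 (e 0)) (LF1 (Pi.single i 1)) = LF1 (rfa Q (blk LF1 (e 0)) (Pi.single i 1)) := by
    decide +kernel
  have hR : ∀ i, rfa Q [e 3 - f 3] (LF1 (Pi.single i 1)) = LF1 (rfa Q [e 3 - f 3] (Pi.single i 1)) := by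
    decide +kernel
  obtain ⟨T, hT, i, j, h⟩ := genF1.split skF1 (D := (rfs Q (blk LF1 (e 0)) : V ≃ₗ[ZMod 3] V))
    (R := (rfs Q [e 3 - f 3] : V ≃ₗ[ZMod 3] V)) (rfs_comm hD)
    (by rw [rfs_apply]; decide +kernel) (by rw [rfs_apply]; decide +kernel) (by rw [rfs_apply]; decide +kernel)
    (by rw [rfs_apply]; decide +kernel) (rfs_comm hR) (by rw [rfs_apply]; decide +kernel)
    (by rw [rfs_apply]; decide +kernel) (by rw [rfs_apply]; decide +kernel) (by rw [rfs_apply]; decide +kernel) g.2 hg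
  have h1 := nine_two good8 hT g (rfs Q (blk LF1 (e 0))) (rfs Q [e 3 - f 3]) h
  have h3 : dl Q (rfs Q (blk LF1 (e 0))) = (-1, 1) := by
    rw [dl_rfs]; decide +kernel
  have h4 : dl Q (rfs Q [e 3 - f 3]) = (-1, 1) := by
    rw [dl_rfs]; decide +kernel
  rw [h3, h4] at h1
  exact cases_pow h1

theorem upF2 (g : O Q) (hg : Cm LF2 (g : V ≃ₗ[ZMod 3] V)) : dl Q g = 1 ∨ dl Q g = (-1, -1) := by
  have hD : ∀ i, rfa Q (blk LF2 (e 0)) (LF2 (Pi.single i 1)) = LF2 (rfa Q (blk LF2 (e 0)) (Pi.single i 1)) := by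
    decide +kernel
  have hR : ∀ i, rfa Q [e 3 + f 3] (LF2 (Pi.single i 1)) = LF2 (rfa Q [e 3 + f 3] (Pi.single i 1)) := by
    decide +kernel
  obtain ⟨T, hT, i, j, h⟩ := genF2.split skF2 (D := (rfs Q (blk LF2 (e 0)) : V ≃ₗ[ZMod 3] V))
    (R := (rfs Q [e 3 + f 3] : V ≃ₗ[ZMod 3] V)) (rfs_comm hD)
    (by rw [rfs_apply]; decide +kernel) (by rw [rfs_apply]; decide +kernel) (by rw [rfs_apply]; decide +kernel)
    (by rw [rfs_apply]; decide +kernel) (rfs_comm hR) (by rw [rfs_apply]; decide +kernel)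
    (by rw [rfs_apply]; decide +kernel) (by rw [rfs_apply]; decide +kernel) (by rw [rfs_apply]; decide +kernel) g.2 hg
  have h1 := nine_two good8 hT g (rfs Q (blk LF2 (e 0))) (rfs Q [e 3 + f 3]) h
  have h3 : dl Q (rfs Q (blk LF2 (e 0))) = (-1, -1) := by
    rw [dl_rfs]; decide +kernel
  have h4 : dl Q (rfs Q [e 3 + f 3]) = (-1, -1) := by
    rw [dl_rfs]; decide +kernel
  rw [h3, h4] at h1
  exact cases_pow h1

theorem upH (g : O Q) (hg : Cm LH (g : V ≃ₗ[ZMod 3] V)) : dl Q g = 1 := by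
  obtain ⟨T, hT, h⟩ := genH.split skH g.2 hg
  exact nine_one good8 hT g h

theorem realF1 : ∃ g, g * exO (M .F1).sk * g⁻¹ = (exO (M .F1).sk)⁻¹ ∧ C .F1 (dl Q g) := by
  refine ⟨rfs Q [LF1 (e 0), e 2 + LF1 (e 1), e 2 - LF1 (e 1)], real_of skF1 _ (by decide +kernel), Or.inr ?_⟩
  rw [dl_rfs]
  decide +kernel

theorem realF2 : ∃ g, g * exO (M .F2).sk * g⁻¹ = (exO (M .F2).sk)⁻¹ ∧ C .F2 (dl Q g) := by
  refine ⟨rfs Q [LF2 (e 0), e 2 + LF2 (e 1), e 2 - LF2 (e 1)], real_of skF2 _ (by decide +kernel), Or.inr ?_⟩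
  rw [dl_rfs]
  decide +kernel

theorem realH : ∃ g, g * exO (M .H).sk * g⁻¹ = (exO (M .H).sk)⁻¹ ∧ C .H (dl Q g) := by
  refine ⟨rfs Q [e 1 + LH (e 0), e 1 - LH (e 0), e 3 + LH (e 2), e 3 - LH (e 2)], real_of skH _ (by decide +kernel), ?_⟩
  show dl Q _ = 1
  rw [dl_rfs]
  decide +kernel

/-- **The data in dimension eight.** -/
theorem dat8 : Assem.Dat (dl Q) (fun t => exO (M t).sk) C := by
  refine dat M C ?_ cov low ?_ ?_ sep
  · intro t
    rw [rk_one]
    cases t <;> decide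
  · intro t g hg
    cases t
    case F1 => exact upF1 g hg
    case F2 => exact upF2 g hg
    case H => exact upH g hg
    all_goals trivial
  · intro t
    cases t
    case F1 => exact Or.inr realF1
    case F2 => exact Or.inr realF2
    case H => exact Or.inr realH
    all_goals exact Or.inl fun _ => trivial

/-! ### The indices -/

def ti : Fin 13 → Ty := ![.E1, .E2, .G1, .G2, .I, .F1, .F1, .F2, .F2, .H, .H, .H, .H]

/-- coset representatives -/
noncomputable def ra : AA → O Q := fun a => if a = 1 then 1 else if a = (-1, 1) then rfs Q [e 0 - f 0] else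
  if a = (-1, -1) then rfs Q [e 0 + f 0] else rfs Q [e 0 - f 0, e 0 + f 0]

theorem dl_ra (a : AA) : dl Q (ra a) = a := by
  rw [ra]
  split_ifs with h1 h2 h3
  · rw [map_one, h1]
  · rw [dl_rfs, h2]; decide +kernel
  · rw [dl_rfs, h3]; decide +kernel
  · rw [dl_rfs]
    rcases AA_cases a with h | h | h | h
    · exact absurd h h1
    · exact absurd h h2
    · exact absurd h h3
    · rw [h]; decide +kernel

def di : Fin 13 → AA := ![1, 1, 1, 1, 1, 1, (1, -1), 1, (1, -1), 1, (-1, 1), (-1, -1), (1, -1)]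

noncomputable def ri (i : Fin 13) : O Q := ra (di i)

theorem dl_ri (i : Fin 13) : dl Q (ri i) = di i := dl_ra _

instance decC (t : Ty) (a : AA) : Decidable (C t a) := by
  cases t <;> (simp only [C]; infer_instance)

theorem idx8 : Assem.Idx (dl Q) C ti ri where
  inj i j h1 h2 := by
    rw [dl_ri, dl_ri] at h2
    revert i j
    decide +kernel
  surj s a := by
    have h : ∀ (a : AA) (s : Ty), ∃ i, ti i = s ∧ C s (a * di i) := by
      intro a s
      cases s <;> revert a <;> decide +kernel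
    obtain ⟨i, h1, h2⟩ := h a s
    exact ⟨i, h1, by rw [dl_ri]; exact h2⟩

/-- **The classes of subgroups of order three of `PΩ₈⁺(3)`.** -/
theorem classes : ∃ Y : Fin 13 → Subgroup (Cfsg.POmega (ZMod 3) (Cfsg.quadFormPlus 4 (ZMod 3))),
    (∀ i, Nat.card (Y i) = 3) ∧
    (∀ i j, (∃ g : Cfsg.POmega (ZMod 3) (Cfsg.quadFormPlus 4 (ZMod 3)),
      (Y i).map (MulAut.conj g).toMonoidHom = Y j) → i = j) ∧
    (∀ X : Subgroup (Cfsg.POmega (ZMod 3) (Cfsg.quadFormPlus 4 (ZMod 3))), Nat.card X = 3 →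
      ∃ i, ∃ g : Cfsg.POmega (ZMod 3) (Cfsg.quadFormPlus 4 (ZMod 3)),
        X.map (MulAut.conj g).toMonoidHom = Y i) := by
  rw [← coe_plusForm]
  have hz := ker_center good8
  exact Assem.transfer (ppEquiv good8) (Assem.YY dat8 ti ri) 3 (Assem.YY_card dat8 hz)
    (fun i j h => Assem.YY_sep dat8 idx8 hz i j h) (fun X hX => Assem.YY_cov dat8 idx8 X hX hz)

end Cfsg.Agent.H844.Dim8
end

-- part: H844/SFour
section
/-!
# An action of the symmetric group of degree four on 13 points (helper844)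
-/

set_option autoImplicit false

namespace Cfsg.Agent.H844.SFour

open Equiv

/-- the conjugacy class -/
def cl (g : Perm (Fin 4)) : Fin 5 :=
  if (Finset.univ.filter fun i => g i = i).card = 4 then 0
  else if (Finset.univ.filter fun i => g i = i).card = 2 then 1
  else if (Finset.univ.filter fun i => g i = i).card = 1 then 3
  else if g * g = 1 then 2 else 4

/-- representatives -/
def rp : Fin 5 → Perm (Fin 4) := ![1, swap 0 1, swap 0 1 * swap 2 3, swap 0 1 * swap 1 2, finRotate 4]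

theorem rp_conj : ∀ g : Perm (Fin 4), ∃ h : Perm (Fin 4), g = h * rp (cl g) * h⁻¹ := by decide +kernel

variable {X : Type} [Fintype X] [DecidableEq X] (φ : Perm (Fin 4) →* Perm X)

/-- the fixed points -/
def fx (g : Perm (Fin 4)) : Finset X := Finset.univ.filter fun x => φ g x = x

variable {φ}

theorem mem_fx {g : Perm (Fin 4)} {x : X} : x ∈ fx φ g ↔ φ g x = x := by simp [fx]

theorem fx_conj (g h : Perm (Fin 4)) : fx φ (h * g * h⁻¹) = (fx φ g).image (φ h) := by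
  ext x
  rw [Finset.mem_image, mem_fx]
  constructor
  · intro hx
    refine ⟨(φ h)⁻¹ x, ?_, by simp⟩
    rw [mem_fx]
    rw [map_mul, map_mul, map_inv, Perm.mul_apply, Perm.mul_apply] at hx
    exact (φ h).injective (by rw [hx]; simp)
  · rintro ⟨y, hy, rfl⟩
    rw [mem_fx] at hy
    rw [map_mul, map_mul, map_inv, Perm.mul_apply, Perm.mul_apply, Perm.inv_eq_iff_eq.2 rfl, hy]

theorem card_conj (g h : Perm (Fin 4)) : (fx φ (h * g * h⁻¹)).card = (fx φ g).card := by
  rw [fx_conj, Finset.card_image_of_injective _ (φ h).injective]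

theorem card_cl (g : Perm (Fin 4)) : (fx φ g).card = (fx φ (rp (cl g))).card := by
  obtain ⟨h, hh⟩ := rp_conj g
  conv_lhs => rw [hh]
  rw [card_conj]

/-- Burnside, with representatives -/
theorem burnside (φ : Perm (Fin 4) →* Perm X) (H : Subgroup (Perm (Fin 4))) [DecidablePred (· ∈ H)] :
    ∃ N : ℕ, N * (Finset.univ.filter (· ∈ H)).card = ∑ g ∈ Finset.univ.filter (· ∈ H), (fx φ g).card ∧
      ∃ ρ : Fin N → X, (∀ k l, (∃ h ∈ H, φ h (ρ k) = ρ l) → k = l) ∧ ∀ x, ∃ k, ∃ h ∈ H, φ h x = ρ k := by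
  classical
  let _ : MulAction H X := MulAction.compHom X (φ.comp H.subtype)
  have hs : ∀ (h : H) (x : X), h • x = φ (h : Perm (Fin 4)) x := fun _ _ => rfl
  let _ : Fintype (Quotient (MulAction.orbitRel H X)) := Fintype.ofFinite _
  have h1 := MulAction.sum_card_fixedBy_eq_card_orbits_mul_card_group (G := H) (X := X)
  refine ⟨Fintype.card (Quotient (MulAction.orbitRel H X)), ?_, ?_⟩
  · have h2 : Fintype.card H = (Finset.univ.filter (· ∈ H)).card := Fintype.card_subtype _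
    rw [← h2]
    rw [Finset.sum_subtype (Finset.univ.filter (· ∈ H)) (p := (· ∈ H)) (by simp)]
    refine Eq.trans h1.symm (Finset.sum_congr rfl fun a _ => ?_)
    rw [fx, ← Fintype.card_subtype]
    apply Fintype.card_congr
    exact Equiv.refl _
  · let ε := (Fintype.equivFin (Quotient (MulAction.orbitRel H X))).symm
    refine ⟨fun k => (ε k).out, ?_, ?_⟩
    · rintro k l ⟨h, hh, hkl⟩
      apply ε.injective
      have h3 : (MulAction.orbitRel H X) (ε l).out (ε k).out := ⟨⟨h, hh⟩, hkl⟩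
      have h4 := Quotient.sound h3
      rw [Quotient.out_eq, Quotient.out_eq] at h4
      exact h4.symm
    · intro x
      refine ⟨ε.symm (Quotient.mk _ x), ?_⟩
      have h3 : (MulAction.orbitRel H X) (Quotient.mk (MulAction.orbitRel H X) x).out x :=
        Quotient.exact (Quotient.out_eq _)
      obtain ⟨h, hh⟩ := h3
      refine ⟨h, h.2, ?_⟩
      show _ = (ε (ε.symm _)).out
      rw [ε.apply_symm_apply]
      exact hh

/-- the sum over a subgroup of a class function -/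
theorem sum_cl (P : Perm (Fin 4) → Prop) [DecidablePred P] (w : Fin 5 → ℕ)
    (hw : ∀ g, (fx φ g).card = w (cl g)) :
    ∑ g ∈ Finset.univ.filter P, (fx φ g).card
      = ∑ k, (Finset.univ.filter fun g => P g ∧ cl g = k).card * w k := by
  rw [← Finset.sum_fiberwise (Finset.univ.filter P) cl]
  apply Finset.sum_congr rfl
  intro k _
  rw [Finset.filter_filter, Finset.sum_congr rfl (g := fun _ => w k), Finset.sum_const, smul_eq_mul]
  intro g hg
  rw [hw, (Finset.mem_filter.1 hg).2.2]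

/-- the dihedral group -/
def D8 : Subgroup (Perm (Fin 4)) where
  carrier := {g | g * (swap 0 2 * swap 1 3) = (swap 0 2 * swap 1 3) * g}
  mul_mem' {a b} ha hb := by
    show a * b * _ = _ * (a * b)
    rw [mul_assoc, show b * _ = _ * b from hb, ← mul_assoc, show a * _ = _ * a from ha, mul_assoc]
  one_mem' := by
    show 1 * _ = _ * 1
    rw [one_mul, mul_one]
  inv_mem' {a} ha := by
    show a⁻¹ * _ = _ * a⁻¹
    rw [inv_mul_eq_iff_eq_mul, ← mul_assoc, show a * _ = _ * a from ha, mul_inv_cancel_right]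

instance decD8 : DecidablePred (· ∈ D8) := fun g =>
  inferInstanceAs (Decidable (g * (swap 0 2 * swap 1 3) = (swap 0 2 * swap 1 3) * g))

instance decStab (i : Fin 4) : DecidablePred (· ∈ AutEmb.stab i) := fun g =>
  inferInstanceAs (Decidable (g i = i))

theorem cards_D8 : (Finset.univ.filter (· ∈ D8)).card = 8 ∧
    ∀ k, (Finset.univ.filter fun g => g ∈ D8 ∧ cl g = k).card = (![1, 2, 3, 0, 2] : Fin 5 → ℕ) k := by
  decide +kernel

theorem cards_stab : ∀ i : Fin 4, (Finset.univ.filter (· ∈ AutEmb.stab i)).card = 6 ∧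
    ∀ k, (Finset.univ.filter fun g => g ∈ AutEmb.stab i ∧ cl g = k).card = (![1, 3, 0, 2, 0] : Fin 5 → ℕ) k := by
  decide +kernel

/-- the type of two commuting involutions -/
theorem key_pair (a b : ℕ) (hab : a ≠ b) (w : Fin 5 → ℕ) : ∀ s s' : Perm (Fin 4), s * s = 1 → s' * s' = 1 →
    s * s' = s' * s → s ≠ 1 → s' ≠ 1 → s ≠ s' → w (cl s) = a → w (cl s') = a → w (cl (s * s')) = b →
    w 1 = a ∧ w 2 = b ∧ cl s = 1 ∧ cl s' = 1 := by
  have h : ∀ s s' : Perm (Fin 4), (s * s = 1 ∧ s' * s' = 1 ∧ s * s' = s' * s ∧ s ≠ 1 ∧ s' ≠ 1 ∧ s ≠ s') →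
    ((cl s = 1 ∧ cl s' = 1 ∧ cl (s * s') = 2) ∨ (cl s = 1 ∧ cl s' = 2 ∧ cl (s * s') = 1) ∨
    (cl s = 2 ∧ cl s' = 1 ∧ cl (s * s') = 1) ∨ (cl s = 2 ∧ cl s' = 2 ∧ cl (s * s') = 2)) := by decide +kernel
  intro s s' h1 h2 h3 h4 h5 h6 h7 h8 h9
  rcases h s s' ⟨h1, h2, h3, h4, h5, h6⟩ with ⟨e1, e2, e3⟩ | ⟨e1, e2, e3⟩ | ⟨e1, e2, e3⟩ | ⟨e1, e2, e3⟩
  · rw [e1] at h7
    rw [e3] at h9
    exact ⟨h7, h9, e1, e2⟩
  · rw [e1] at h7
    rw [e3] at h9
    exact absurd (h7.symm.trans h9) hab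
  · rw [e2] at h8
    rw [e3] at h9
    exact absurd (h8.symm.trans h9) hab
  · rw [e1] at h7
    rw [e3] at h9
    exact absurd (h7.symm.trans h9) hab

theorem conj_pair : ∀ s s' : Perm (Fin 4), (cl s = 1 ∧ cl s' = 1 ∧ s * s' = s' * s ∧ s ≠ s') →
    ∃ h : Perm (Fin 4), swap 0 2 = h * s * h⁻¹ ∧ swap 1 3 = h * s' * h⁻¹ := by decide +kernel

theorem finRotate_sq : finRotate 4 * finRotate 4 = swap 0 2 * swap 1 3 := by decide +kernel

theorem fx_mul {g h : Perm (Fin 4)} {x : X} (h1 : x ∈ fx φ g) (h2 : x ∈ fx φ h) : x ∈ fx φ (g * h) := by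
  rw [mem_fx] at *
  rw [map_mul, Perm.mul_apply, h2, h1]

theorem fx_inv {g : Perm (Fin 4)} {x : X} (h1 : x ∈ fx φ g) : x ∈ fx φ g⁻¹ := by
  rw [mem_fx] at *
  rw [map_inv, Perm.inv_eq_iff_eq, h1]

section main

variable (H0 : ∀ h : Perm (Fin 4), fx φ (h * (swap 0 2 * swap 1 3) * h⁻¹) ⊆ fx φ (h * swap 0 2 * h⁻¹))

include H0

theorem fx_all {x : X} (h1 : x ∈ fx φ (finRotate 4)) (g : Perm (Fin 4)) : x ∈ fx φ g := by
  have h2 : x ∈ fx φ (swap 3 (finRotate 4 3)) := by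
    have h3 : x ∈ fx φ (swap 0 2) := by
      have h4 : x ∈ fx φ (1 * (swap 0 2 * swap 1 3) * 1⁻¹) := by
        rw [one_mul, inv_one, mul_one, ← finRotate_sq]
        exact fx_mul h1 h1
      have h5 := H0 1 h4
      rwa [one_mul, inv_one, mul_one] at h5
    have h6 : x ∈ fx φ (swap 2 3 * (swap 0 2 * swap 1 3) * (swap 2 3)⁻¹) := by
      have e : (swap 2 3 * (swap 0 2 * swap 1 3) * (swap 2 3)⁻¹ : Perm (Fin 4)) = finRotate 4 * swap 0 2 := by
        decide +kernel
      rw [e]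
      exact fx_mul h1 h3
    have h7 := H0 (swap 2 3) h6
    have e : (swap 2 3 * swap 0 2 * (swap 2 3)⁻¹ : Perm (Fin 4)) = swap 3 (finRotate 4 3) := by decide +kernel
    rwa [e] at h7
  have h3 : Subgroup.closure ({finRotate 4, swap 3 (finRotate 4 3)} : Set (Perm (Fin 4))) = ⊤ :=
    Equiv.Perm.closure_cycle_adjacent_swap isCycle_finRotate support_finRotate 3
  have h4 : Subgroup.closure ({finRotate 4, swap 3 (finRotate 4 3)} : Set (Perm (Fin 4))) ≤
      (MulAction.stabilizer (Perm X) x).comap φ := by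
    rw [Subgroup.closure_le]
    rintro g (rfl | rfl)
    · exact mem_fx.1 h1
    · exact mem_fx.1 h2
  rw [h3] at h4
  exact mem_fx.2 (h4 (Subgroup.mem_top g))

theorem fx_two {x : X} (h1 : x ∈ fx φ (swap 0 2 * swap 1 3)) (h2 : x ∈ fx φ (swap 0 1 * swap 2 3)) :
    x ∈ fx φ (finRotate 4) := by
  have a1 : x ∈ fx φ (swap 0 2) := by
    have h5 := H0 1 (by rw [one_mul, inv_one, mul_one]; exact h1)
    rwa [one_mul, inv_one, mul_one] at h5
  have a2 : x ∈ fx φ (swap 1 3) := by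
    have e : (swap 0 2 * (swap 0 2 * swap 1 3) : Perm (Fin 4)) = swap 1 3 := by decide +kernel
    rw [← e]
    exact fx_mul a1 h1
  have a3 : x ∈ fx φ (swap 0 1) := by
    have e : (swap 1 2 * (swap 0 2 * swap 1 3) * (swap 1 2)⁻¹ : Perm (Fin 4)) = swap 0 1 * swap 2 3 := by
      decide +kernel
    have h5 := H0 (swap 1 2) (by rw [e]; exact h2)
    have e' : (swap 1 2 * swap 0 2 * (swap 1 2)⁻¹ : Perm (Fin 4)) = swap 0 1 := by decide +kernel
    rwa [e'] at h5
  have e : (finRotate 4 : Perm (Fin 4)) = swap 0 1 * (swap 0 2 * swap 0 1 * swap 0 2) * ((swap 0 1 * swap 2 3) * swap 0 1) := by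
    decide +kernel
  rw [e]
  exact fx_mul (fx_mul a3 (fx_mul (fx_mul a1 a3) a1)) (fx_mul h2 a3)

theorem count (hX : Fintype.card X = 13) (h1 : (fx φ (swap 0 1)).card = 7)
    (h2 : (fx φ (swap 0 1 * swap 2 3)).card = 5) (i : Fin 4) :
    ∃ ρ : Fin 7 → X, (∀ k l, (∃ h ∈ AutEmb.stab i, φ h (ρ k) = ρ l) → k = l) ∧
      ∀ x, ∃ k, ∃ h ∈ AutEmb.stab i, φ h x = ρ k := by
  set d := (fx φ (finRotate 4)).card with hd
  set c := (fx φ (swap 0 1 * swap 1 2)).card with hc
  have hw : ∀ g, (fx φ g).card = (![13, 7, 5, c, d] : Fin 5 → ℕ) (cl g) := by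
    intro g
    rw [card_cl]
    generalize cl g = k
    fin_cases k
    · show (fx φ 1).card = 13
      rw [← hX, fx, map_one]
      simp
    · exact h1
    · exact h2
    · rfl
    · rfl
  have e5 : ∀ w : Fin 5 → ℕ, ∑ k, w k = w 0 + w 1 + w 2 + w 3 + w 4 := fun w => Fin.sum_univ_five w
  -- the dihedral group
  have hd3 : d = 3 := by
    obtain ⟨N, hN, -⟩ := burnside φ D8
    rw [sum_cl _ _ hw, cards_D8.1, e5] at hN
    simp only [cards_D8.2] at hN
    have hN' : N * 8 = 1 * 13 + 2 * 7 + 3 * 5 + 0 * c + 2 * d := hN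
    have h3 : fx φ (finRotate 4) ⊆ fx φ (swap 0 1 * swap 2 3) := fun x hx => fx_all H0 hx _
    have h4 := Finset.card_le_card h3
    rw [h2] at h4
    omega
  set F := fx φ (finRotate 4) with hF
  have hFg : ∀ g, F ⊆ fx φ g := fun g x hx => fx_all H0 hx g
  -- the three involutions
  set v1 : Perm (Fin 4) := swap 0 1 * swap 2 3 with hv1
  set v2 : Perm (Fin 4) := swap 0 2 * swap 1 3 with hv2
  set v3 : Perm (Fin 4) := swap 0 3 * swap 1 2 with hv3
  have e12 : v1 * v2 = v3 := by rw [hv1, hv2, hv3]; decide +kernel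
  have e13 : v1 * v3 = v2 := by rw [hv1, hv2, hv3]; decide +kernel
  have e23 : v2 * v3 = v1 := by rw [hv1, hv2, hv3]; decide +kernel
  have c2 : (fx φ v2).card = 5 := by rw [hw, show cl v2 = 2 by rw [hv2]; decide +kernel]; rfl
  have c3 : (fx φ v3).card = 5 := by rw [hw, show cl v3 = 2 by rw [hv3]; decide +kernel]; rfl
  have i12 : ∀ x, x ∈ fx φ v1 → x ∈ fx φ v2 → x ∈ F := fun x h h' => fx_two H0 h' h
  have i13 : ∀ x, x ∈ fx φ v1 → x ∈ fx φ v3 → x ∈ F := fun x h h' => i12 x h (by rw [← e13]; exact fx_mul h h')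
  have i23 : ∀ x, x ∈ fx φ v2 → x ∈ fx φ v3 → x ∈ F := fun x h h' => i12 x (by rw [← e23]; exact fx_mul h h') h
  -- three-cycles
  have key : ∀ t : Perm (Fin 4), t * v1 * t⁻¹ = v2 → t * v2 * t⁻¹ = v3 → t * v3 * t⁻¹ = v1 →
      (∀ x, x ∈ fx φ t → x ∈ fx φ v1 ∨ x ∈ fx φ v2 ∨ x ∈ fx φ v3 → x ∈ F) ∧
      ((fx φ t) ∪ ((fx φ v1 \ F) ∪ ((fx φ v2 \ F) ∪ (fx φ v3 \ F)))).card = (fx φ t).card + 6 := by
    intro t t1 t2 t3
    have hA : ∀ x, x ∈ fx φ t → x ∈ fx φ v1 ∨ x ∈ fx φ v2 ∨ x ∈ fx φ v3 → x ∈ F := by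
      intro x hx h
      rcases h with h | h | h
      · exact i12 x h (by rw [← t1]; exact fx_mul (fx_mul hx h) (fx_inv hx))
      · exact i23 x h (by rw [← t2]; exact fx_mul (fx_mul hx h) (fx_inv hx))
      · exact i13 x (by rw [← t3]; exact fx_mul (fx_mul hx h) (fx_inv hx)) h
    refine ⟨hA, ?_⟩
    have d1 : (fx φ v1 \ F).card = 2 := by rw [Finset.card_sdiff_of_subset (hFg _)]; omega
    have d2 : (fx φ v2 \ F).card = 2 := by rw [Finset.card_sdiff_of_subset (hFg _)]; omega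
    have d3 : (fx φ v3 \ F).card = 2 := by rw [Finset.card_sdiff_of_subset (hFg _)]; omega
    rw [Finset.card_union_of_disjoint, Finset.card_union_of_disjoint, Finset.card_union_of_disjoint, d1, d2, d3]
    · rw [Finset.disjoint_left]
      intro x hx hx'
      rw [Finset.mem_sdiff] at hx hx'
      exact hx.2 (i23 x hx.1 hx'.1)
    · rw [Finset.disjoint_left]
      intro x hx hx'
      rw [Finset.mem_union, Finset.mem_sdiff, Finset.mem_sdiff] at hx'
      rw [Finset.mem_sdiff] at hx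
      rcases hx' with hx' | hx'
      · exact hx.2 (i12 x hx.1 hx'.1)
      · exact hx.2 (i13 x hx.1 hx'.1)
    · rw [Finset.disjoint_left]
      intro x hx hx'
      rw [Finset.mem_union, Finset.mem_union, Finset.mem_sdiff, Finset.mem_sdiff, Finset.mem_sdiff] at hx'
      rcases hx' with hx' | hx' | hx'
      · exact hx'.2 (hA x hx (Or.inl hx'.1))
      · exact hx'.2 (hA x hx (Or.inr (Or.inl hx'.1)))
      · exact hx'.2 (hA x hx (Or.inr (Or.inr hx'.1)))
  obtain ⟨N, hN, ρ, hρ⟩ := burnside φ (AutEmb.stab i)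
  rw [sum_cl _ _ hw, (cards_stab i).1, e5] at hN
  simp only [(cards_stab i).2] at hN
  have hN' : N * 6 = 1 * 13 + 3 * 7 + 0 * 5 + 2 * c + 0 * d := hN
  set t : Perm (Fin 4) := swap 1 2 * swap 2 3 with ht
  obtain ⟨k1, k2⟩ := key t (by rw [ht, hv1, hv2]; decide +kernel) (by rw [ht, hv2, hv3]; decide +kernel)
    (by rw [ht, hv3, hv1]; decide +kernel)
  obtain ⟨m1, m2⟩ := key (t * v1) (by rw [ht, hv1, hv2]; decide +kernel) (by rw [ht, hv1, hv2, hv3]; decide +kernel)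
    (by rw [ht, hv3, hv1]; decide +kernel)
  have tc : (fx φ t).card = c := by rw [hw, show cl t = 3 by rw [ht]; decide +kernel]; rfl
  have tc' : (fx φ (t * v1)).card = c := by rw [hw, show cl (t * v1) = 3 by rw [ht, hv1]; decide +kernel]; rfl
  have hc3 : 3 ≤ c := by
    have := Finset.card_le_card (hFg t)
    omega
  have hle : c + 6 ≤ 13 := by
    rw [← hX, ← tc, ← k2]
    exact Finset.card_le_univ _
  have hne : c ≠ 7 := by
    intro h7
    rw [tc, h7] at k2
    rw [tc', h7] at m2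
    have u1 := (Finset.card_eq_iff_eq_univ _).1 (k2.trans hX.symm)
    have u2 := (Finset.card_eq_iff_eq_univ _).1 (m2.trans hX.symm)
    have hall : ∀ x, x ∈ fx φ v1 ∪ (fx φ v2 ∪ fx φ v3) := by
      intro x
      by_contra hx
      rw [Finset.mem_union, Finset.mem_union, not_or, not_or] at hx
      have hx1 : x ∈ fx φ t := by
        have : x ∈ (Finset.univ : Finset X) := Finset.mem_univ _
        rw [← u1] at this
        simp only [Finset.mem_union, Finset.mem_sdiff] at this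
        rcases this with h | h | h | h
        · exact h
        · exact absurd h.1 hx.1
        · exact absurd h.1 hx.2.1
        · exact absurd h.1 hx.2.2
      have hx2 : x ∈ fx φ (t * v1) := by
        have : x ∈ (Finset.univ : Finset X) := Finset.mem_univ _
        rw [← u2] at this
        simp only [Finset.mem_union, Finset.mem_sdiff] at this
        rcases this with h | h | h | h
        · exact h
        · exact absurd h.1 hx.1
        · exact absurd h.1 hx.2.1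
        · exact absurd h.1 hx.2.2
      apply hx.1
      have e : v1 = t⁻¹ * (t * v1) := by group
      rw [e]
      exact fx_mul (fx_inv hx1) hx2
    have h8 : fx φ v1 ∪ (fx φ v2 ∪ fx φ v3) = Finset.univ := Finset.eq_univ_iff_forall.2 hall
    have h9 : fx φ v1 ∪ (fx φ v2 ∪ fx φ v3) ⊆ F ∪ ((fx φ v1 \ F) ∪ ((fx φ v2 \ F) ∪ (fx φ v3 \ F))) := by
      intro x hx
      simp only [Finset.mem_union, Finset.mem_sdiff] at hx ⊢
      tauto
    have h10 := Finset.card_le_card h9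
    rw [h8, Finset.card_univ, hX] at h10
    have d1 : (fx φ v1 \ F).card = 2 := by rw [Finset.card_sdiff_of_subset (hFg _)]; omega
    have d2 : (fx φ v2 \ F).card = 2 := by rw [Finset.card_sdiff_of_subset (hFg _)]; omega
    have d3 : (fx φ v3 \ F).card = 2 := by rw [Finset.card_sdiff_of_subset (hFg _)]; omega
    have l1 := Finset.card_union_le F ((fx φ v1 \ F) ∪ ((fx φ v2 \ F) ∪ (fx φ v3 \ F)))
    have l2 := Finset.card_union_le (fx φ v1 \ F) ((fx φ v2 \ F) ∪ (fx φ v3 \ F))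
    have l3 := Finset.card_union_le (fx φ v2 \ F) (fx φ v3 \ F)
    omega
  have hN7 : N = 7 := by omega
  subst hN7
  exact ⟨ρ, hρ⟩

end main

/-- **The count.** -/
theorem count' (hX : Fintype.card X = 13) {s s' : Perm (Fin 4)} (h1 : s * s = 1) (h2 : s' * s' = 1)
    (h3 : s * s' = s' * s) (n1 : (fx φ s).card = 7) (n2 : (fx φ s').card = 7) (n3 : (fx φ (s * s')).card = 5)
    (hs : fx φ (s * s') ⊆ fx φ s) (i : Fin 4) :
    ∃ ρ : Fin 7 → X, (∀ k l, (∃ h ∈ AutEmb.stab i, φ h (ρ k) = ρ l) → k = l) ∧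
      ∀ x, ∃ k, ∃ h ∈ AutEmb.stab i, φ h x = ρ k := by
  have n0 : (fx φ 1).card = 13 := by
    rw [← hX, fx, map_one]
    simp
  have e1 : s ≠ 1 := by
    rintro rfl
    omega
  have e2 : s' ≠ 1 := by
    rintro rfl
    omega
  have e3 : s ≠ s' := by
    rintro rfl
    rw [h1] at n3
    omega
  obtain ⟨w1, w2, c1, c2⟩ := key_pair 7 5 (by norm_num) (fun k => (fx φ (rp k)).card) s s' h1 h2 h3 e1 e2 e3
    (by rw [← card_cl, n1]) (by rw [← card_cl, n2]) (by rw [← card_cl, n3])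
  obtain ⟨h, hh, hh'⟩ := conj_pair s s' ⟨c1, c2, h3, e3⟩
  refine count ?_ hX w1 w2 i
  intro k
  have e4 : k * (swap 0 2 * swap 1 3) * k⁻¹ = (k * h) * (s * s') * (k * h)⁻¹ := by
    rw [hh, hh']; group
  have e5 : k * swap 0 2 * k⁻¹ = (k * h) * s * (k * h)⁻¹ := by
    rw [hh]; group
  rw [e4, e5, fx_conj, fx_conj]
  exact Finset.image_subset_image hs

end Cfsg.Agent.H844.SFour
end

-- part: H844/ClsAct
section
/-!
# The action of automorphisms on classes of subgroups (helper844)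
-/

set_option autoImplicit false

namespace Cfsg.Agent.H844.ClsAct

open Equiv Subgroup

variable {P I : Type*} [Group P] {Y : I → Subgroup P} {n : ℕ}

/-- representatives of the classes of subgroups of order `n` -/
structure Reps (Y : I → Subgroup P) (n : ℕ) : Prop where
  card : ∀ i, Nat.card (Y i) = n
  sep : ∀ i j, (∃ g : P, (Y i).map (MulAut.conj g).toMonoidHom = Y j) → i = j
  cov : ∀ X : Subgroup P, Nat.card X = n → ∃ i, ∃ g : P, X.map (MulAut.conj g).toMonoidHom = Y i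

/-- the relation -/
def Rel (Y : I → Subgroup P) (α : MulAut P) (i j : I) : Prop :=
  ∃ p : P, ((Y i).map α.toMonoidHom).map (MulAut.conj p).toMonoidHom = Y j

theorem map_conj_aut (α : MulAut P) (X : Subgroup P) (p : P) :
    (X.map (MulAut.conj p).toMonoidHom).map α.toMonoidHom
      = (X.map α.toMonoidHom).map (MulAut.conj (α p)).toMonoidHom := by
  rw [Subgroup.map_map, Subgroup.map_map]
  congr 1
  ext q
  show α (p * q * p⁻¹) = α p * α q * (α p)⁻¹
  rw [map_mul, map_mul, map_inv]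

theorem conj_conj (X : Subgroup P) (p q : P) :
    (X.map (MulAut.conj p).toMonoidHom).map (MulAut.conj q).toMonoidHom
      = X.map (MulAut.conj (q * p)).toMonoidHom := by
  rw [Subgroup.map_map]
  congr 1
  ext r
  show q * (p * r * p⁻¹) * q⁻¹ = q * p * r * (q * p)⁻¹
  group

theorem conj_cancel {X Z : Subgroup P} {p : P} (h : X.map (MulAut.conj p).toMonoidHom = Z) :
    Z.map (MulAut.conj p⁻¹).toMonoidHom = X := by
  rw [← h, conj_conj, inv_mul_cancel]
  convert Subgroup.map_id X using 2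
  ext r
  simp

theorem Reps.uniq (h : Reps Y n) {α : MulAut P} {i j k : I} (h1 : Rel Y α i j) (h2 : Rel Y α i k) : j = k := by
  obtain ⟨p, hp⟩ := h1
  obtain ⟨q, hq⟩ := h2
  apply h.sep
  refine ⟨q * p⁻¹, ?_⟩
  rw [← conj_conj, conj_cancel hp, hq]

theorem Reps.exists_rel (h : Reps Y n) (α : MulAut P) (i : I) : ∃ j, Rel Y α i j := by
  obtain ⟨j, p, hp⟩ := h.cov ((Y i).map α.toMonoidHom) (by
    rw [← h.card i]
    exact (Nat.card_congr ((Y i).equivMapOfInjective α.toMonoidHom α.injective).toEquiv).symm)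
  exact ⟨j, p, hp⟩

/-- the action -/
noncomputable def Reps.act (h : Reps Y n) (α : MulAut P) (i : I) : I := (h.exists_rel α i).choose

theorem Reps.act_spec (h : Reps Y n) (α : MulAut P) (i : I) : Rel Y α i (h.act α i) := (h.exists_rel α i).choose_spec

theorem Reps.act_eq (h : Reps Y n) {α : MulAut P} {i j : I} : h.act α i = j ↔ Rel Y α i j :=
  ⟨fun e => e ▸ h.act_spec α i, fun e => h.uniq (h.act_spec α i) e⟩

theorem Reps.act_mul (h : Reps Y n) (α β : MulAut P) (i : I) : h.act (α * β) i = h.act α (h.act β i) := by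
  rw [h.act_eq]
  obtain ⟨p, hp⟩ := h.act_spec β i
  obtain ⟨q, hq⟩ := h.act_spec α (h.act β i)
  refine ⟨q * α p, ?_⟩
  rw [← hq, ← hp, map_conj_aut, conj_conj]
  congr 1
  rw [Subgroup.map_map]
  rfl

theorem Reps.act_conj (h : Reps Y n) (p : P) (i : I) : h.act (MulAut.conj p) i = i := by
  rw [h.act_eq]
  exact ⟨p⁻¹, conj_cancel rfl⟩

theorem Reps.act_one (h : Reps Y n) (i : I) : h.act 1 i = i := by
  have := h.act_conj 1 i
  rwa [map_one] at this

/-- the permutation representation -/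
noncomputable def Reps.pi (h : Reps Y n) : MulAut P →* Perm I :=
  letI : MulAction (MulAut P) I :=
    { smul := h.act
      one_smul := h.act_one
      mul_smul := h.act_mul }
  MulAction.toPermHom (MulAut P) I

theorem Reps.pi_apply (h : Reps Y n) (α : MulAut P) (i : I) : h.pi α i = h.act α i := rfl

/-- the permutation representation of the outer automorphism group -/
noncomputable def Reps.opi (h : Reps Y n) : Cfsg.Out P →* Perm I :=
  QuotientGroup.lift (Cfsg.Inn P) h.pi (by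
    rintro _ ⟨p, rfl⟩
    ext i
    exact h.act_conj p i)

theorem Reps.opi_mk (h : Reps Y n) (α : MulAut P) : h.opi (QuotientGroup.mk' (Cfsg.Inn P) α) = h.pi α := rfl

/-! ### The extension -/

set_option linter.unusedSectionVars false

variable {G : Type*} [Group G] {L : Subgroup G} [L.Normal]

/-- the image in `G` of a subgroup of `P` -/
def up (f : L ≃* P) (X : Subgroup P) : Subgroup G := (X.map f.symm.toMonoidHom).map L.subtype

theorem up_le (f : L ≃* P) (X : Subgroup P) : up f X ≤ L := Subgroup.map_subtype_le _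

theorem up_card (f : L ≃* P) (X : Subgroup P) : Nat.card (up f X) = Nat.card X := by
  rw [up, Nat.card_congr ((X.map f.symm.toMonoidHom).equivMapOfInjective L.subtype L.subtype_injective).toEquiv.symm,
    Nat.card_congr (X.equivMapOfInjective f.symm.toMonoidHom f.symm.injective).toEquiv.symm]

theorem mem_up (f : L ≃* P) (X : Subgroup P) (x : G) : x ∈ up f X ↔ ∃ h : x ∈ L, f ⟨x, h⟩ ∈ X := by
  constructor
  · rintro ⟨_, ⟨y, hy, rfl⟩, rfl⟩
    refine ⟨(f.symm y).2, ?_⟩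
    have : f ⟨((f.symm y : L) : G), (f.symm y).2⟩ = y := f.apply_symm_apply y
    show f ⟨((f.symm y : L) : G), (f.symm y).2⟩ ∈ X
    rw [this]
    exact hy
  · rintro ⟨h, hx⟩
    exact ⟨⟨x, h⟩, ⟨f ⟨x, h⟩, hx, f.symm_apply_apply _⟩, rfl⟩

theorem up_conj (f : L ≃* P) (X : Subgroup P) (g : G) :
    (up f X).map (MulAut.conj g).toMonoidHom = up f (X.map (AutEmb.emb f g).toMonoidHom) := by
  ext x
  rw [mem_up]
  constructor
  · rintro ⟨y, hy, rfl⟩
    obtain ⟨hy1, hy2⟩ := (mem_up f X y).1 hy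
    have h1 : g * y * g⁻¹ ∈ L := Normal.conj_mem inferInstance y hy1 g
    refine ⟨h1, f ⟨y, hy1⟩, hy2, ?_⟩
    exact AutEmb.emb_apply_map f g ⟨y, hy1⟩
  · rintro ⟨hx, y, hy, hyx⟩
    obtain ⟨l, rfl⟩ := f.surjective y
    have h1 : f (MulAut.conjNormal g l) = f ⟨x, hx⟩ := by
      rw [← hyx]
      exact (AutEmb.emb_apply_map f g l).symm
    have h2 := congrArg Subtype.val (f.injective h1)
    rw [MulAut.conjNormal_apply] at h2
    refine ⟨l, (mem_up f X _).2 ⟨l.2, hy⟩, h2⟩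

theorem up_injective (f : L ≃* P) : Function.Injective (up f) :=
  (Subgroup.map_injective L.subtype_injective).comp (Subgroup.map_injective f.symm.injective)

theorem up_surj (f : L ≃* P) {X : Subgroup G} (hX : X ≤ L) : ∃ Z, up f Z = X := by
  refine ⟨(X.subgroupOf L).map f.toMonoidHom, ?_⟩
  ext x
  rw [mem_up]
  constructor
  · rintro ⟨h, y, hy, hyx⟩
    have := f.injective hyx
    rw [this] at hy
    exact hy
  · intro hx
    exact ⟨hX hx, ⟨x, hX hx⟩, hx, rfl⟩

/-- conjugacy in `G` -/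
theorem Reps.conj_iff (h : Reps Y n) (f : L ≃* P) (i j : I) :
    (∃ g : G, (up f (Y i)).map (MulAut.conj g).toMonoidHom = up f (Y j)) ↔ ∃ g : G, h.act (AutEmb.emb f g) i = j := by
  constructor
  · rintro ⟨g, hg⟩
    refine ⟨g, h.act_eq.2 ⟨1, ?_⟩⟩
    rw [up_conj] at hg
    rw [up_injective f hg]
    convert Subgroup.map_id (Y j) using 2
    ext r
    simp
  · rintro ⟨g, hg⟩
    obtain ⟨p, hp⟩ := h.act_eq.1 hg
    obtain ⟨l, rfl⟩ := f.surjective p
    refine ⟨(l : G) * g, ?_⟩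
    rw [up_conj, ← hp, map_mul, AutEmb.emb_coe, Subgroup.map_map]
    rfl

/-- **Orbits of the extension** -/
theorem orbits [Fintype I] (h : Reps Y n) (f : L ≃* P) (hc : centralizer (L : Set G) ≤ L) (hz : center P = ⊥)
    (e : Cfsg.Out P ≃* Perm (Fin 4)) (hq : Nat.card (G ⧸ L) = 6) {N : ℕ}
    (hN : ∀ i : Fin 4, ∃ ρ : Fin N → I, (∀ k l, (∃ t ∈ AutEmb.stab i, h.opi (e.symm t) (ρ k) = ρ l) → k = l) ∧
      ∀ x, ∃ k, ∃ t ∈ AutEmb.stab i, h.opi (e.symm t) x = ρ k) :
    ∃ Z : Fin N → Subgroup G, (∀ i, Z i ≤ L ∧ Nat.card (Z i) = n) ∧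
      (∀ i j, (∃ g : G, (Z i).map (MulAut.conj g).toMonoidHom = Z j) → i = j) ∧
      ∀ X : Subgroup G, X ≤ L → Nat.card X = n → ∃ i, ∃ g : G, X.map (MulAut.conj g).toMonoidHom = Z i := by
  have h1 : Nat.card ((AutEmb.oemb f).range.map e.toMonoidHom) = 6 := by
    rw [← hq, ← AutEmb.card_range_oemb f hc hz]
    exact (Nat.card_congr ((AutEmb.oemb f).range.equivMapOfInjective e.toMonoidHom e.injective).toEquiv).symm
  obtain ⟨i0, hi0⟩ := AutEmb.eq_stab _ h1
  obtain ⟨ρ, hρ, hρ'⟩ := hN i0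
  have key : ∀ x y, (∃ t ∈ AutEmb.stab i0, h.opi (e.symm t) x = y) ↔ ∃ g : G, h.act (AutEmb.emb f g) x = y := by
    intro x y
    rw [← hi0]
    constructor
    · rintro ⟨_, ⟨_, ⟨g, rfl⟩, rfl⟩, hg⟩
      refine ⟨g, ?_⟩
      rw [← hg]
      show _ = h.opi (e.symm (e (AutEmb.oemb f g))) x
      rw [e.symm_apply_apply]
      rfl
    · rintro ⟨g, hg⟩
      refine ⟨e (AutEmb.oemb f g), ⟨_, ⟨g, rfl⟩, rfl⟩, ?_⟩
      rw [e.symm_apply_apply, ← hg]
      rfl
  refine ⟨fun k => up f (Y (ρ k)), fun k => ⟨up_le _ _, by rw [up_card, h.card]⟩, ?_, ?_⟩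
  · intro k l hkl
    exact hρ k l ((key _ _).2 ((h.conj_iff f _ _).1 hkl))
  · intro X hX hX'
    obtain ⟨Z, rfl⟩ := up_surj f hX
    obtain ⟨i, p, hp⟩ := h.cov Z (by rw [← up_card f, hX'])
    obtain ⟨k, hk⟩ := hρ' i
    obtain ⟨g, hg⟩ := (h.conj_iff f _ _).2 ((key _ _).1 hk)
    obtain ⟨l, rfl⟩ := f.surjective p
    refine ⟨k, g * (l : G), ?_⟩
    have e1 : (up f Z).map (MulAut.conj (l : G)).toMonoidHom = up f (Y i) := by
      rw [up_conj, AutEmb.emb_coe, hp]
    show _ = up f (Y (ρ k))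
    rw [← hg, ← e1, conj_conj]

/-! ### Everything together -/

theorem Reps.fx_iff {I : Type} [Fintype I] [DecidableEq I] {Y : I → Subgroup P} (h : Reps Y n)
    (e : Cfsg.Out P ≃* Perm (Fin 4)) (α : MulAut P) (i : I) :
    i ∈ SFour.fx (h.opi.comp e.symm.toMonoidHom) (e (QuotientGroup.mk' (Cfsg.Inn P) α)) ↔ h.act α i = i := by
  rw [SFour.mem_fx, MonoidHom.comp_apply]
  show h.opi (e.symm (e _)) i = i ↔ _
  rw [e.symm_apply_apply]
  exact Iff.rfl

section final

variable {Γ A T : Type*} {I : Type} [Group Γ] [CommGroup A] {dl : Γ →* A} {x : T → Γ} {C : T → A → Prop} {t : I → T}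
  {r : I → Γ}

/-- the outer class only depends on `dl` -/
theorem out_eq {g g' : Γ} (h : dl g = dl g') :
    QuotientGroup.mk' (Cfsg.Inn (Assem.PP dl)) (Assem.th dl g) = QuotientGroup.mk' (Cfsg.Inn (Assem.PP dl)) (Assem.th dl g') := by
  have h1 : g⁻¹ * g' ∈ dl.ker := by
    rw [MonoidHom.mem_ker, map_mul, map_inv, h, inv_mul_cancel]
  have h2 : Assem.th dl (g⁻¹ * g') = MulAut.conj (QuotientGroup.mk (⟨g⁻¹ * g', h1⟩ : dl.ker)) := by
    ext y
    obtain ⟨y, rfl⟩ := QuotientGroup.mk_surjective y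
    rfl
  have h3 : QuotientGroup.mk' (Cfsg.Inn (Assem.PP dl)) (Assem.th dl (g⁻¹ * g')) = 1 := by
    rw [← MonoidHom.mem_ker, QuotientGroup.ker_mk', h2]
    exact ⟨_, rfl⟩
  have h4 : Assem.th dl g' = Assem.th dl g * Assem.th dl (g⁻¹ * g') := by
    rw [← map_mul, mul_inv_cancel_left]
  rw [h4, map_mul, h3, mul_one]

theorem reps_of (h : Assem.Dat dl x C) (hI : Assem.Idx dl C t r) (hz : ∀ z ∈ center dl.ker, z ^ 2 = 1) :
    Reps (Assem.YY h t r) 3 where
  card := Assem.YY_card h hz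
  sep i j hp := Assem.YY_sep h hI hz i j hp
  cov X hX := Assem.YY_cov h hI X hX hz

theorem fixed_iff (h : Assem.Dat dl x C) (hI : Assem.Idx dl C t r) (hz : ∀ z ∈ center dl.ker, z ^ 2 = 1) (g : Γ) (i : I) :
    (reps_of h hI hz).act (Assem.th dl g) i = i ↔ C (t i) (dl g) := by
  rw [(reps_of h hI hz).act_eq, Rel, Assem.YY_fuse h hz, mul_assoc, h.sq, mul_one]
  exact and_iff_right rfl

/-- **Orbits of `PΩ : S₃`** -/
theorem orbits_dat [Fintype I] (h : Assem.Dat dl x C) (hI : Assem.Idx dl C t r)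
    (hz : ∀ z ∈ center dl.ker, z ^ 2 = 1) (hcI : Fintype.card I = 13) [∀ s a, Decidable (C s a)] (ga gb : Γ)
    (c1 : (Finset.univ.filter fun i => C (t i) (dl ga)).card = 7)
    (c2 : (Finset.univ.filter fun i => C (t i) (dl gb)).card = 7)
    (c3 : (Finset.univ.filter fun i => C (t i) (dl ga * dl gb)).card = 5)
    (c4 : ∀ i, C (t i) (dl ga * dl gb) → C (t i) (dl ga))
    (L : Subgroup G) [L.Normal] (f : L ≃* Assem.PP dl)
    (hc : centralizer (L : Set G) ≤ L) (hz' : center (Assem.PP dl) = ⊥)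
    (e : Cfsg.Out (Assem.PP dl) ≃* Perm (Fin 4)) (hq : Nat.card (G ⧸ L) = 6) :
    ∃ Z : Fin 7 → Subgroup G, (∀ i, Z i ≤ L ∧ Nat.card (Z i) = 3) ∧
      (∀ i j, (∃ g : G, (Z i).map (MulAut.conj g).toMonoidHom = Z j) → i = j) ∧
      ∀ X : Subgroup G, X ≤ L → Nat.card X = 3 → ∃ i, ∃ g : G, X.map (MulAut.conj g).toMonoidHom = Z i := by
  classical
  apply orbits (reps_of h hI hz) f hc hz' e hq
  intro i
  have h1 : ∀ a b, e (QuotientGroup.mk' (Cfsg.Inn (Assem.PP dl)) (Assem.th dl a)) *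
      e (QuotientGroup.mk' (Cfsg.Inn (Assem.PP dl)) (Assem.th dl b))
      = e (QuotientGroup.mk' (Cfsg.Inn (Assem.PP dl)) (Assem.th dl (a * b))) := by
    intro a b
    rw [← map_mul, ← map_mul, ← map_mul]
  have h0 : ∀ a, dl a = 1 → e (QuotientGroup.mk' (Cfsg.Inn (Assem.PP dl)) (Assem.th dl a)) = 1 := by
    intro a ha
    rw [out_eq (g' := 1) (by rw [ha, map_one]), map_one, map_one, map_one]
  have hcard : ∀ g : Γ, (SFour.fx ((reps_of h hI hz).opi.comp e.symm.toMonoidHom)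
      (e (QuotientGroup.mk' (Cfsg.Inn (Assem.PP dl)) (Assem.th dl g)))).card =
      (Finset.univ.filter fun i => C (t i) (dl g)).card := by
    intro g
    congr 1
    ext j
    rw [(reps_of h hI hz).fx_iff, fixed_iff h hI hz, Finset.mem_filter]
    exact (and_iff_right (Finset.mem_univ _)).symm
  have e3 : dl (gb * ga) = dl (ga * gb) := by rw [map_mul, map_mul, mul_comm]
  refine SFour.count' (φ := (reps_of h hI hz).opi.comp e.symm.toMonoidHom) hcI
    (s := e (QuotientGroup.mk' (Cfsg.Inn (Assem.PP dl)) (Assem.th dl ga)))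
    (s' := e (QuotientGroup.mk' (Cfsg.Inn (Assem.PP dl)) (Assem.th dl gb))) ?_ ?_ ?_ ?_ ?_ ?_ ?_ i
  · rw [h1]
    exact h0 _ (by rw [map_mul, h.sq])
  · rw [h1]
    exact h0 _ (by rw [map_mul, h.sq])
  · rw [h1, h1, out_eq e3]
  · rw [hcard, c1]
  · rw [hcard, c2]
  · rw [h1, hcard]
    simp only [map_mul]
    exact c3
  · rw [h1]
    intro j
    rw [(reps_of h hI hz).fx_iff, (reps_of h hI hz).fx_iff, fixed_iff h hI hz, fixed_iff h hI hz, map_mul]
    exact c4 j

end final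

end Cfsg.Agent.H844.ClsAct
end

-- part: H844/Dim8Orb
section
/-!
# `PΩ₈⁺(3) : S₃`: the orbits on the subgroups of order three (helper844)
-/

set_option autoImplicit false
set_option linter.unusedSectionVars false

namespace Cfsg.Agent.H844.Dim8

open QuadraticMap Cfsg.Agent.LieClassical.OrthCore Cfsg.Agent.LieClassical.OrthTrans
  Cfsg.Agent.LieClassical.OrthForms Cfsg.Agent.H844.Unip Subgroup Equiv

/-- the model group -/
abbrev K : Type := Assem.PP (dl Q)

theorem card_one : (Finset.univ.filter fun i => C (ti i) (-1, -1)).card = 7 := by decide +kernel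
theorem card_two : (Finset.univ.filter fun i => C (ti i) (-1, 1)).card = 7 := by decide +kernel
theorem card_three : (Finset.univ.filter fun i => C (ti i) ((-1, -1) * (-1, 1))).card = 5 := by decide +kernel
theorem imp : ∀ i, C (ti i) ((-1, -1) * (-1, 1)) → C (ti i) (-1, -1) := by decide +kernel

/-- **The orbits.** -/
theorem orbits {G : Type*} [Group G] (L : Subgroup G) [L.Normal] (f : L ≃* K)
    (hc : centralizer (L : Set G) ≤ L) (hz : center K = ⊥)
    (e : Cfsg.Out K ≃* Perm (Fin 4)) (hq : Nat.card (G ⧸ L) = 6) :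
    ∃ Z : Fin 7 → Subgroup G, (∀ i, Z i ≤ L ∧ Nat.card (Z i) = 3) ∧
      (∀ i j, (∃ g : G, (Z i).map (MulAut.conj g).toMonoidHom = Z j) → i = j) ∧
      ∀ X : Subgroup G, X ≤ L → Nat.card X = 3 → ∃ i, ∃ g : G, X.map (MulAut.conj g).toMonoidHom = Z i :=
  ClsAct.orbits_dat dat8 idx8 (ker_center good8) rfl (ra (-1, -1)) (ra (-1, 1))
    (by rw [dl_ra]; exact card_one) (by rw [dl_ra]; exact card_two) (by rw [dl_ra, dl_ra]; exact card_three)
    (by rw [dl_ra, dl_ra]; exact imp) L f hc hz e hq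

end Cfsg.Agent.H844.Dim8
end

-- part: S5516
section
set_option autoImplicit false
open Cfsg

namespace Cfsg.Agent.S5516

/-- PΩ⁺(8, 3) (the commutator subgroup of the isometry group of the hyperbolic quadratic form in dimension 8 over the field with three elements, modulo its centre) has exactly 13 conjugacy classes of subgroups of order 3; and a finite group G whose generalized Fitting subgroup L is isomorphic to PΩ⁺(8, 3) with G/L the symmetric group of degree 3 has exactly 7 orbits, under conjugation, on the subgroups of L of order 3. -/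
theorem result {G : Type*} [Group G] [Finite G] (L : Subgroup G) (hL : L = Cfsg.generalizedFittingSubgroup G) (hF : Nonempty (↥L ≃* Cfsg.POmega (ZMod 3) (Cfsg.quadFormPlus 4 (ZMod 3)))) [hn : L.Normal] (hq : Nonempty (G ⧸ L ≃* Equiv.Perm (Fin 3))) : (∃ Y : Fin 13 → Subgroup (Cfsg.POmega (ZMod 3) (Cfsg.quadFormPlus 4 (ZMod 3))), (∀ i, Nat.card (Y i) = 3) ∧ (∀ i j, (∃ g : Cfsg.POmega (ZMod 3) (Cfsg.quadFormPlus 4 (ZMod 3)), (Y i).map (MulAut.conj g).toMonoidHom = Y j) → i = j) ∧ (∀ X : Subgroup (Cfsg.POmega (ZMod 3) (Cfsg.quadFormPlus 4 (ZMod 3))), Nat.card X = 3 → ∃ i, ∃ g : Cfsg.POmega (ZMod 3) (Cfsg.quadFormPlus 4 (ZMod 3)), X.map (MulAut.conj g).toMonoidHom = Y i)) ∧ ∃ Y : Fin 7 → Subgroup G, (∀ i, Y i ≤ L ∧ Nat.card (Y i) = 3) ∧ (∀ i j, (∃ g : G, (Y i).map (MulAut.conj g).toMonoidHom = Y j) → i = j) ∧ ∀ X : Subgroup G, X ≤ L → Nat.card X = 3 → ∃ i, ∃ g : G, X.map (MulAut.conj g).toMonoidHom = Y i := by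
  refine ⟨Cfsg.Agent.H844.Dim8.classes, ?_⟩
  obtain ⟨f⟩ := hF
  obtain ⟨q⟩ := hq
  obtain ⟨e⟩ := Cfsg.Agent.S5515.out_equiv
  have ε : Cfsg.POmega (ZMod 3) (Cfsg.quadFormPlus 4 (ZMod 3)) ≃* Cfsg.Agent.H844.Dim8.K := by
    rw [← Cfsg.Agent.LieClassical.OrthForms.coe_plusForm]
    exact (Cfsg.Agent.H844.Unip.ppEquiv Cfsg.Agent.H844.Dim8.good8).symm
  have h6 : Nat.card (G ⧸ L) = 6 := by
    rw [Nat.card_congr q.toEquiv, Nat.card_eq_fintype_card, Fintype.card_perm, Fintype.card_fin]; rfl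
  refine Cfsg.Agent.H844.Dim8.orbits L (f.trans ε) ?_ ?_ ((Cfsg.Agent.H989.OutOrth.Forms.outCongr ε.symm).trans e) h6
  · subst hL
    exact Cfsg.Agent.S1313.centralizer_le G
  · have h := Cfsg.Agent.S5515.center_eq_bot
    rw [eq_bot_iff]
    intro x hx
    have h2 : ε.symm x ∈ Subgroup.center (Cfsg.POmega (ZMod 3) (Cfsg.quadFormPlus 4 (ZMod 3))) := by
      rw [Subgroup.mem_center_iff]
      intro y
      apply ε.injective
      rw [map_mul, map_mul, ε.apply_symm_apply]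
      exact Subgroup.mem_center_iff.1 hx (ε y)
    rw [h, Subgroup.mem_bot, map_eq_one_iff _ ε.symm.injective] at h2
    exact h2

end Cfsg.Agent.S5516
end
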