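import Cfsg.Statements.S5517
import Cfsg.Agent.H831.Types
import Cfsg.Agent.H845.T6Iso
import Cfsg.Agent.S1685
import Cfsg.Agent.S1686
import Cfsg.Agent.Prune
set_option linter.all false
open scoped Cfsg.Agent.FastGrp

set_option autoImplicit false
set_option linter.constructorNameAsVariable false
open Cfsg

namespace Cfsg.Agent.S5517

/-- the eight generators `b, …, i` -/
def S8 : Set (FreeGroup Cfsg.Spor.Fi22.Gen) :=
  {Cfsg.Spor.Fi22.b, Cfsg.Spor.Fi22.c, Cfsg.Spor.Fi22.d, Cfsg.Spor.Fi22.e, Cfsg.Spor.Fi22.f,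
    Cfsg.Spor.Fi22.g, Cfsg.Spor.Fi22.h, Cfsg.Spor.Fi22.i}

/-- the subgroup `⟨b, …, i⟩` of `Fi22` -/
def H8 : Subgroup Cfsg.Spor.Fi22 :=
  (Subgroup.closure S8).map (PresentedGroup.mk (Cfsg.Spor.coxRelators Cfsg.Spor.Fi22.edges ∪
    {r | r ∈ Cfsg.Spor.Fi22.extra}))

theorem index_H8 : H8.index = 14080 := Cfsg.Agent.S1685.result

theorem iso_H8 : Nonempty (↥H8 ≃* Cfsg.POmega (ZMod 3) (Cfsg.quadFormOdd 3 (ZMod 3))) :=
  Cfsg.Agent.S1686.result

theorem mem_S8 : ∀ s ∈ S8, ∃ g : Cfsg.Spor.Fi22.Gen, s = FreeGroup.of g := by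
  intro s hs
  simp only [S8, Set.mem_insert_iff, Set.mem_singleton_iff] at hs
  rcases hs with rfl | rfl | rfl | rfl | rfl | rfl | rfl | rfl
  exacts [⟨.b, rfl⟩, ⟨.c, rfl⟩, ⟨.d, rfl⟩, ⟨.e, rfl⟩, ⟨.f, rfl⟩, ⟨.g, rfl⟩, ⟨.h, rfl⟩, ⟨.i, rfl⟩]

theorem dsub {G : Type*} [Group G] {D : Set G} (e : Cfsg.Spor.Fi22 ≃* G)
    (he : ∀ g : Cfsg.Spor.Fi22.Gen, e (PresentedGroup.of g) ∈ D) :
    Cfsg.IsDSubgroup D (H8.map e.toMonoidHom) := by
  apply le_antisymm
  · rw [Subgroup.closure_le]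
    exact fun d hd => hd.2
  · have h1 : H8.map e.toMonoidHom = Subgroup.closure (e.toMonoidHom ''
        ((PresentedGroup.mk (Cfsg.Spor.coxRelators Cfsg.Spor.Fi22.edges ∪
          {r | r ∈ Cfsg.Spor.Fi22.extra})) '' S8)) := by
      rw [H8, MonoidHom.map_closure, MonoidHom.map_closure]
    have h2 : ∀ y ∈ e.toMonoidHom '' ((PresentedGroup.mk (Cfsg.Spor.coxRelators
        Cfsg.Spor.Fi22.edges ∪ {r | r ∈ Cfsg.Spor.Fi22.extra})) '' S8), y ∈ D := by
      rintro _ ⟨_, ⟨s, hs, rfl⟩, rfl⟩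
      obtain ⟨g, rfl⟩ := mem_S8 s hs
      exact he g
    conv_lhs => rw [h1]
    rw [Subgroup.closure_le]
    intro y hy
    refine Subgroup.subset_closure ⟨h2 y hy, ?_⟩
    rw [h1]
    exact Subgroup.subset_closure hy

/-- a subgroup of index `14080` contains Sylow 3-subgroups -/
theorem sylow_of_index {G : Type*} [Group G] [Finite G] (L : Subgroup G) (hidx : L.index = 14080)
    (P : Sylow 3 ↥L) : ∃ P' : Sylow 3 G, (P : Subgroup ↥L).map L.subtype = (P' : Subgroup G) := by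
  have : Fact (Nat.Prime 3) := ⟨by norm_num⟩
  have hcard : Nat.card ((P : Subgroup ↥L).map L.subtype) = 3 ^ (Nat.card G).factorization 3 := by
    have h4 : Nat.card ((P : Subgroup ↥L).map L.subtype) = Nat.card (P : Subgroup ↥L) :=
      (Nat.card_congr (((P : Subgroup ↥L).equivMapOfInjective L.subtype
        L.subtype_injective).toEquiv)).symm
    rw [h4, Sylow.card_eq_multiplicity]
    congr 1
    rw [← L.card_mul_index, hidx, Nat.factorization_mul (Nat.card_pos.ne') (by norm_num),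
      Finsupp.add_apply, Nat.factorization_eq_zero_of_not_dvd (by norm_num : ¬ 3 ∣ 14080),
      add_zero]
  exact ⟨Sylow.ofCard _ hcard, (Sylow.coe_ofCard _ hcard).symm⟩

/-- Let G be a finite group with trivial centre generated by a conjugation-invariant set D of 3-transpositions on which it acts primitively, such that for some d in D the subgroup generated by the members of D other than d commuting with d has central largest normal 2- and 3-subgroups, and suppose G with D is of type M(22). Then G has a subgroup L generated by the members of D it contains and isomorphic to Ω(7, 3) (the commutator subgroup of the isometry group of a non-degenerate 7-dimensional quadratic form over the field with three elements, modulo its centre), and every Sylow 3-subgroup of L is a Sylow 3-subgroup of G. -/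
theorem result {G : Type*} [Group G] [Finite G] {D : Set G} (hD : Cfsg.IsThreeTranspositionGroup D) (hprim : Cfsg.IsPrimitiveUnderConj D) (d₀ : G) (hd₀ : d₀ ∈ D) (h3 : Cfsg.pCore 3 ↥(Subgroup.closure {y : G | y ∈ D ∧ y ≠ d₀ ∧ Commute d₀ y}) ≤ Subgroup.center ↥(Subgroup.closure {y : G | y ∈ D ∧ y ≠ d₀ ∧ Commute d₀ y})) (h2 : Cfsg.pCore 2 ↥(Subgroup.closure {y : G | y ∈ D ∧ y ≠ d₀ ∧ Commute d₀ y}) ≤ Subgroup.center ↥(Subgroup.closure {y : G | y ∈ D ∧ y ≠ d₀ ∧ Commute d₀ y})) (h22 : Cfsg.IsOfTypeM22 G D) : ∃ L : Subgroup G, Cfsg.IsDSubgroup D L ∧ Nonempty (↥L ≃* Cfsg.POmega (ZMod 3) (Cfsg.quadFormOdd 3 (ZMod 3))) ∧ ∀ P : Sylow 3 ↥L, ∃ P' : Sylow 3 G, (P : Subgroup ↥L).map L.subtype = (P' : Subgroup G) := by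
  have hF := Cfsg.Agent.H831.Types.fgroup_m22 hD hprim h22
  have hT := Cfsg.Agent.H831.Types.isT6 hD hprim h22
  obtain ⟨e, he, -⟩ := Cfsg.Agent.H845.T6Iso.exists_iso hF hT
  refine ⟨H8.map e.toMonoidHom, dsub e he, ?_, ?_⟩
  · obtain ⟨f⟩ := iso_H8
    exact ⟨(H8.equivMapOfInjective e.toMonoidHom e.injective).symm.trans f⟩
  · refine sylow_of_index _ ?_
    rw [Subgroup.index_map_of_bijective e.bijective]
    exact index_H8

end Cfsg.Agent.S5517

private theorem dce_bf260f4ec84d : _root_.True := by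
  try have : _root_.True := by simp only [_root_.Cfsg.Agent.S5517.H8.eq_1]
  try have : _root_.True := by simp only [_root_.Cfsg.Agent.S5517.S8.eq_1]
  exact _root_.True.intro
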