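import Mathlib
import Cfsg.Prelude.Def_Transfer
import Cfsg.Agent.J2.ExtQuot
import Cfsg.Prelude.Def_Local
import Cfsg.Agent.H845.AutUFour
import Cfsg.Agent.KFacts.FiTT.Final
import Cfsg.Agent.SignalizersComponents.FStarPCore
import Cfsg.Agent.Lib.Cores
import Cfsg.Agent.S0283
import Cfsg.Agent.S0303
import Cfsg.Statements.S5519
import Cfsg.Agent.H836.Bridge
import Cfsg.Agent.H833.CentQuot
set_option linter.all false

-- part: H845/SplitTwo
section
/-! A 2-group with `[R, R], R² ≤ ⟨z⟩` and centre `⟨d, z⟩` of order 4 is `⟨d⟩ × E`, `E` extraspecial. -/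

set_option autoImplicit false

namespace Cfsg.Agent.H845.SplitTwo

open Subgroup

variable {R : Type*} [Group R]

/-- the subgroup `M ∪ M x⁻¹` -/
def adj (M : Subgroup R) (hn : M.Normal) (x : R) (hx : x * x ∈ M) : Subgroup R where
  carrier := {y | y ∈ M ∨ y * x ∈ M}
  one_mem' := Or.inl M.one_mem
  mul_mem' := by
    rintro a b (ha | ha) (hb | hb)
    · exact Or.inl (M.mul_mem ha hb)
    · right
      rw [mul_assoc]
      exact M.mul_mem ha hb
    · right
      have h := hn.conj_mem b hb x⁻¹
      rw [inv_inv] at h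
      have : a * b * x = (a * x) * (x⁻¹ * b * x) := by group
      rw [this]
      exact M.mul_mem ha h
    · left
      have h := hn.conj_mem _ hb x⁻¹
      rw [inv_inv] at h
      have : a * b = (a * x) * (x⁻¹ * (b * x) * x) * (x * x)⁻¹ := by group
      rw [this]
      exact M.mul_mem (M.mul_mem ha h) (M.inv_mem hx)
  inv_mem' := by
    rintro a (ha | ha)
    · exact Or.inl (M.inv_mem ha)
    · right
      have h := hn.conj_mem _ ha x⁻¹
      rw [inv_inv] at h
      have : a⁻¹ * x = ((x⁻¹ * (a * x) * x) * (x * x)⁻¹)⁻¹ := by group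
      rw [this]
      exact M.inv_mem (M.mul_mem h (M.inv_mem hx))

theorem exists_split [Finite R] {n : ℕ} (hcard : Nat.card R = 2 ^ (n + 1)) {z d : R}
    (hdd : d * d = 1) (hd : d ≠ 1) (hdz : d ≠ z) (hz : z ≠ 1) (hzz : z * z = 1)
    (hdc : ∀ x, x * d = d * x) (hzc : ∀ x, x * z = z * x)
    (hcomm : ∀ x y : R, x * y * x⁻¹ * y⁻¹ = 1 ∨ x * y * x⁻¹ * y⁻¹ = z)
    (hsq : ∀ x : R, x * x = 1 ∨ x * x = z)
    (hcen : ∀ x : R, (∀ y, x * y = y * x) → x = 1 ∨ x = d ∨ x = z * d ∨ x = z)
    (hnon : ∃ x y : R, x * y ≠ y * x) :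
    ∃ (E : Type) (_ : Group E) (_ : Finite E), Cfsg.IsExtraspecial 2 E ∧ Nat.card E = 2 ^ n ∧
      Nonempty (R ≃* Multiplicative (ZMod 2) × E) := by
  classical
  -- a maximal subgroup containing `z` and not `d`
  have h0 : zpowers z ∈ {H : Subgroup R | z ∈ H ∧ d ∉ H} := by
    refine ⟨mem_zpowers z, fun h => ?_⟩
    obtain ⟨k, hk⟩ := mem_zpowers_iff.1 h
    rcases Int.even_or_odd' k with ⟨m, rfl | rfl⟩
    · rw [zpow_mul, show z ^ (2 : ℤ) = 1 by rw [zpow_ofNat, pow_two, hzz], one_zpow] at hk
      exact hd hk.symm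
    · rw [zpow_add, zpow_mul, show z ^ (2 : ℤ) = 1 by rw [zpow_ofNat, pow_two, hzz], one_zpow,
        one_mul, zpow_one] at hk
      exact hdz hk.symm
  obtain ⟨M, -, hM⟩ := (Set.toFinite {H : Subgroup R | z ∈ H ∧ d ∉ H}).exists_le_maximal h0
  have hzM : z ∈ M := hM.prop.1
  have hdM : d ∉ M := hM.prop.2
  have hsqM : ∀ x : R, x * x ∈ M := by
    intro x
    rcases hsq x with h | h
    · rw [h]; exact M.one_mem
    · rw [h]; exact hzM
  have hn : M.Normal := by
    constructor
    intro m hm g
    have : g * m * g⁻¹ = (g * m * g⁻¹ * m⁻¹) * m := by group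
    rw [this]
    refine M.mul_mem ?_ hm
    rcases hcomm g m with h | h
    · rw [h]; exact M.one_mem
    · rw [h]; exact hzM
  have hcov : ∀ x : R, x ∈ M ∨ d * x ∈ M := by
    intro x
    by_cases hx : x ∈ M
    · exact Or.inl hx
    right
    by_contra hcon
    have h1 : adj M hn x (hsqM x) ∈ {H : Subgroup R | z ∈ H ∧ d ∉ H} := by
      refine ⟨Or.inl hzM, ?_⟩
      rintro (h | h)
      · exact hdM h
      · exact hcon h
    have h2 : M ≤ adj M hn x (hsqM x) := fun y hy => Or.inl hy
    have h3 := hM.le_of_ge h1 h2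
    exact hx (h3 (Or.inr (hsqM x)))
  -- the isomorphism
  have hcommute : ∀ (a : ↥(zpowers d)) (m : ↥M), Commute ((zpowers d).subtype a) (M.subtype m) := by
    rintro ⟨a, ha⟩ m
    obtain ⟨k, rfl⟩ := mem_zpowers_iff.1 ha
    exact Commute.zpow_left (hdc m).symm k
  have hpow : ∀ a ∈ zpowers d, a = 1 ∨ a = d := by
    intro a ha
    obtain ⟨k, rfl⟩ := mem_zpowers_iff.1 ha
    rcases Int.even_or_odd' k with ⟨m, rfl | rfl⟩
    · left
      rw [zpow_mul, show d ^ (2 : ℤ) = 1 by rw [zpow_ofNat, pow_two, hdd], one_zpow]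
    · right
      rw [zpow_add, zpow_mul, show d ^ (2 : ℤ) = 1 by rw [zpow_ofNat, pow_two, hdd], one_zpow,
        one_mul, zpow_one]
  let f : ↥(zpowers d) × ↥M →* R := (zpowers d).subtype.noncommCoprod M.subtype hcommute
  have hf : ∀ p, f p = (p.1 : R) * (p.2 : R) := fun p => rfl
  have hfb : Function.Bijective f := by
    constructor
    · rw [injective_iff_map_eq_one]
      rintro ⟨⟨a, ha⟩, m⟩ h
      rw [hf] at h
      rcases hpow a ha with rfl | rfl
      · rw [one_mul] at h
        have : m = 1 := Subtype.ext h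
        rw [this]; rfl
      · exfalso
        apply hdM
        have : a = (m : R)⁻¹ := eq_inv_of_mul_eq_one_left h
        rw [this]
        exact M.inv_mem m.2
    · intro x
      rcases hcov x with h | h
      · exact ⟨(1, ⟨x, h⟩), by rw [hf]; exact one_mul x⟩
      · refine ⟨(⟨d, mem_zpowers d⟩, ⟨d * x, h⟩), ?_⟩
        rw [hf]
        show d * (d * x) = x
        rw [← mul_assoc, hdd, one_mul]
  have hdcard : Nat.card ↥(zpowers d) = 2 := by
    rw [Nat.card_zpowers]
    exact orderOf_eq_prime (by rw [pow_two, hdd]) hd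
  have hMcard : Nat.card ↥M = 2 ^ n := by
    have h1 := Nat.card_congr (Equiv.ofBijective f hfb)
    rw [Nat.card_prod, hdcard, hcard, pow_succ] at h1
    omega
  have hMext : Cfsg.IsExtraspecial 2 ↥M := by
    have hcen' : ∀ x : ↥M, x ∈ center ↥M → x = 1 ∨ x = ⟨z, hzM⟩ := by
      intro x hx
      rw [mem_center_iff] at hx
      have h1 : ∀ y : R, (x : R) * y = y * x := by
        intro y
        rcases hcov y with h | h
        · exact (congrArg Subtype.val (hx ⟨y, h⟩)).symm
        · have h2 := (congrArg Subtype.val (hx ⟨d * y, h⟩)).symm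
          have h3 : (x : R) * (d * y) = d * y * x := h2
          have h4 : d * ((x : R) * y) = d * (y * x) := by
            rw [← mul_assoc, ← hdc, mul_assoc, h3, mul_assoc]
          exact mul_left_cancel h4
      rcases hcen x h1 with h | h | h | h
      · left; exact Subtype.ext h
      · exact absurd (h ▸ x.2) hdM
      · exfalso
        apply hdM
        have : d = z * (x : R) := by rw [h, ← mul_assoc, hzz, one_mul]
        rw [this]
        exact M.mul_mem hzM x.2
      · right; exact Subtype.ext h
    have hzcen : (⟨z, hzM⟩ : ↥M) ∈ center ↥M := by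
      rw [mem_center_iff]
      intro g
      exact Subtype.ext (hzc g)
    refine Cfsg.Agent.J2.ExtQuot.isExtraspecial_two (IsPGroup.of_card hMcard) ?_ ?_ ?_
    · have h1 : center ↥M = zpowers (⟨z, hzM⟩ : ↥M) := by
        apply le_antisymm
        · intro x hx
          rcases hcen' x hx with rfl | rfl
          · exact one_mem _
          · exact mem_zpowers _
        · rw [zpowers_le]
          exact hzcen
      rw [h1, Nat.card_zpowers]
      refine orderOf_eq_prime (Subtype.ext ?_) (fun h => hz (congrArg Subtype.val h))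
      show (z : R) ^ 2 = 1
      rw [pow_two, hzz]
    · intro x
      rcases hsq x with h | h
      · have : x ^ 2 = 1 := Subtype.ext (by rw [pow_two]; exact h)
        rw [this]; exact one_mem _
      · have : x ^ 2 = ⟨z, hzM⟩ := Subtype.ext (by rw [pow_two]; exact h)
        rw [this]; exact hzcen
    · by_contra hcon
      push Not at hcon
      obtain ⟨x, y, hxy⟩ := hnon
      apply hxy
      have key : ∀ a b : R, a ∈ M → b ∈ M → a * b = b * a := fun a b ha hb =>
        congrArg Subtype.val (hcon ⟨a, ha⟩ ⟨b, hb⟩)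
      have e1 : ∀ u v : R, (d * u) * v = v * (d * u) → u * v = v * u := by
        intro u v h
        have : d * (u * v) = d * (v * u) := by
          rw [← mul_assoc, h, ← mul_assoc, hdc, mul_assoc]
        exact mul_left_cancel this
      rcases hcov x with hx | hx <;> rcases hcov y with hy | hy
      · exact key x y hx hy
      · exact (e1 y x (key _ _ hy hx)).symm
      · exact e1 x y (key _ _ hx hy)
      · exact e1 x y (e1 y (d * x) (key _ _ hy hx)).symm
  refine ⟨Shrink.{0} ↥M, inferInstance, Finite.of_equiv _ (equivShrink.{0} ↥M), ?_, ?_, ?_⟩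
  · exact Cfsg.Agent.J2.ExtQuot.isExtraspecial_of_equiv (Shrink.mulEquiv.{0} (α := ↥M)).symm hMext
  · rw [← hMcard]
    exact Nat.card_congr (equivShrink.{0} ↥M).symm
  · have e1 : ↥(zpowers d) ≃* Multiplicative (ZMod 2) :=
      mulEquivOfPrimeCardEq (p := 2) hdcard (by simp)
    exact ⟨(MulEquiv.ofBijective f hfb).symm.trans
      (MulEquiv.prodCongr e1 (Shrink.mulEquiv.{0} (α := ↥M)).symm)⟩

end Cfsg.Agent.H845.SplitTwo
end

-- part: H845/TwoProd
section
/-! S5519 from a surjection `C(dd') → Aut (U4(2))` with kernel `R`. -/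

set_option autoImplicit false

namespace Cfsg.Agent.H845.TwoProd

open Subgroup Cfsg

/-- `Aut L` has no nontrivial normal 2-subgroup, `L` simple of order not a power of two -/
theorem eq_bot_of_normal_two {L : Type*} [Group L] [Finite L] [IsSimpleGroup L]
    (hnc : center L = ⊥) (hL : ¬ IsPGroup 2 L) (N : Subgroup (MulAut L)) (hN : N.Normal)
    (h2 : IsPGroup 2 ↥N) : N = ⊥ := by
  -- the elements whose inner automorphism lies in `N`
  have hn : (N.comap (MulAut.conj : L →* MulAut L)).Normal := hN.comap _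
  have hbot : N.comap (MulAut.conj : L →* MulAut L) = ⊥ := by
    rcases hn.eq_bot_or_eq_top with h | h
    · exact h
    · exfalso
      apply hL
      have hinj : Function.Injective (MulAut.conj : L →* MulAut L) := by
        rw [injective_iff_map_eq_one]
        intro a ha
        have : a ∈ center L := by
          rw [mem_center_iff]
          intro g
          have h1 := congrArg (fun α : MulAut L => α g) ha
          simp only [MulAut.conj_apply, MulAut.one_apply] at h1
          calc g * a = a * g * a⁻¹ * a := by rw [h1]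
            _ = a * g := by group
        rwa [hnc, mem_bot] at this
      have hall : ∀ a : L, MulAut.conj a ∈ N := by
        intro a
        have : a ∈ N.comap (MulAut.conj : L →* MulAut L) := by rw [h]; trivial
        exact this
      let f : L →* ↥N := (MulAut.conj : L →* MulAut L).codRestrict N hall
      exact h2.of_injective f (fun a b hab => hinj (congrArg Subtype.val hab))
  rw [eq_bot_iff]
  intro α hα
  rw [mem_bot]
  ext g
  have h1 : MulAut.conj (α g * g⁻¹) ∈ N := by
    have e1 : MulAut.conj (α g * g⁻¹) = α * (MulAut.conj g * α⁻¹ * (MulAut.conj g)⁻¹) := by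
      ext x
      simp [MulAut.mul_apply, mul_assoc]
    rw [e1]
    exact N.mul_mem hα (hN.conj_mem _ (N.inv_mem hα) _)
  have h2' : α g * g⁻¹ ∈ N.comap (MulAut.conj : L →* MulAut L) := h1
  rw [hbot, mem_bot] at h2'
  simpa using mul_inv_eq_one.1 h2'

section

variable {K : Type*} [Group K] [Finite K] {d d' : K} {R : Subgroup K}

theorem fstar_eq (H : Cfsg.Agent.KFacts.FiTT.Facts K d d' R)
    {F : Type} [Field F] [Fintype F] (hF : Fintype.card F = 4)
    (φ : ↥(centralizer ({d * d'} : Set K)) →* MulAut (PSU 4 F 2)) (hφ : Function.Surjective φ)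
    (hker : ∀ x, φ x = 1 ↔ (x : K) ∈ R) :
    generalizedFittingSubgroup ↥(centralizer ({d * d'} : Set K)) = φ.ker := by
  have h2 : Fact (Nat.Prime 2) := ⟨Nat.prime_two⟩
  have hRle : R ≤ centralizer ({d * d'} : Set K) := by
    intro x hx
    rw [mem_centralizer_singleton_iff]
    have h1 := H.R_le hx
    rw [mem_centralizer_iff] at h1
    have a1 := h1 d (by simp)
    have a2 := h1 d' (by simp)
    rw [← mul_assoc, ← a1, mul_assoc, ← a2, mul_assoc]
  have hker2 : IsPGroup 2 ↥φ.ker := by
    let f : ↥φ.ker →* ↥R := ((centralizer ({d * d'} : Set K)).subtype.comp φ.ker.subtype).codRestrict R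
      (fun x => (hker _).1 x.2)
    refine H.R_two.of_injective f (fun a b hab => ?_)
    have h3 : ((a : ↥(centralizer ({d * d'} : Set K))) : K) = ((b : ↥(centralizer ({d * d'} : Set K))) : K) :=
      congrArg (fun r : ↥R => (r : K)) hab
    exact Subtype.ext (Subtype.ext h3)
  have hcen : centralizer (φ.ker : Set ↥(centralizer ({d * d'} : Set K))) ≤ φ.ker := by
    intro x hx
    rw [MonoidHom.mem_ker, hker]
    rw [mem_centralizer_iff] at hx
    have h1 := H.R_center (x : K) (fun y hy => by
      have h2 := hx ⟨y, hRle hy⟩ (by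
        show φ _ = 1
        rw [hker]; exact hy)
      exact (congrArg Subtype.val h2).symm)
    rcases h1 with h | h | h | h
    · rw [h]; exact one_mem _
    · rw [h]; exact H.d_mem
    · rw [h]; exact H.d'_mem
    · rw [h]; exact mul_mem H.d_mem H.d'_mem
  rw [Cfsg.Agent.SignalizersComponents.FStarPCore.generalizedFitting_eq_pCore_of_centralizer_le
    (MonoidHom.normal_ker φ) hker2 hcen]
  apply le_antisymm
  · -- the image of `O_2` is trivial
    obtain ⟨e⟩ := Cfsg.Agent.S0303.result (F := ZMod 2) (K := F) (q := 2) (ZMod.card 2) hF 1 1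
      Cfsg.Agent.LargeExtra.Cards.aniso
    have hsim : IsSimpleGroup (PSU 4 F 2) :=
      Cfsg.Agent.S0283.result (q := 2) hF 4 (by norm_num) (by norm_num)
    obtain ⟨e'⟩ := Cfsg.Agent.H845.AutUFour.nonempty_equiv_omega
    have hcardL : Nat.card (PSU 4 F 2) = 25920 := by
      rw [← Nat.card_congr (e'.trans e).toEquiv]
      exact Cfsg.Agent.H845.AutUFour.card_omega
    have hfin : Finite (PSU 4 F 2) := Nat.finite_of_card_ne_zero (by rw [hcardL]; norm_num)
    have hL : ¬ IsPGroup 2 (PSU 4 F 2) := by
      intro h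
      obtain ⟨k, hk⟩ := IsPGroup.iff_card.1 h
      rw [hcardL] at hk
      have : (5 : ℕ) ∣ 2 ^ k := by rw [← hk]; norm_num
      have := (Nat.Prime.dvd_of_dvd_pow (by norm_num) this)
      omega
    have hnc : center (PSU 4 F 2) = ⊥ := by
      rw [eq_bot_iff]
      intro x hx
      rw [mem_center_iff] at hx
      have h1 : (e'.trans e).symm x ∈ center (Omega (ZMod 2) Cfsg.Agent.H845.AutUFour.Q6) := by
        rw [mem_center_iff]
        intro g
        apply (e'.trans e).injective
        rw [map_mul, map_mul, MulEquiv.apply_symm_apply]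
        exact hx _
      have h3 : (e'.trans e).symm x ∈ (⊥ : Subgroup (Omega (ZMod 2) Cfsg.Agent.H845.AutUFour.Q6)) :=
        Cfsg.Agent.H845.AutUFour.center_omega ▸ h1
      rw [mem_bot] at h3
      rw [mem_bot]
      exact (MulEquiv.map_eq_one_iff _).1 h3
    have hN : ((pCore 2 ↥(centralizer ({d * d'} : Set K))).map φ).Normal :=
      Subgroup.Normal.map (Cfsg.Agent.Lib.Cores.pCore_normal 2) φ hφ
    have hb := eq_bot_of_normal_two hnc hL _ hN (IsPGroup.map (Cfsg.Agent.Lib.Cores.pCore_isPGroup 2) φ)
    rwa [Subgroup.map_eq_bot_iff] at hb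
  · exact Cfsg.Agent.Lib.Cores.le_pCore (MonoidHom.normal_ker φ) hker2

/-- the conclusion of S5519 -/
theorem main (H : Cfsg.Agent.KFacts.FiTT.Facts K d d' R)
    {F : Type} [Field F] [Fintype F] (hF : Fintype.card F = 4)
    (φ : ↥(centralizer ({d * d'} : Set K)) →* MulAut (PSU 4 F 2)) (hφ : Function.Surjective φ)
    (hker : ∀ x, φ x = 1 ↔ (x : K) ∈ R) (C : Subgroup K)
    (hC : C = Subgroup.centralizer ({d * d'} : Set K)) [hn : (Cfsg.generalizedFittingSubgroup ↥C).Normal] :
    (∃ (E : Type) (_ : Group E) (_ : Finite E), Cfsg.IsExtraspecial 2 E ∧ Nat.card E = 2 ^ 9 ∧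
      Nonempty (↥(Cfsg.generalizedFittingSubgroup ↥C) ≃* Multiplicative (ZMod 2) × E)) ∧
      Nonempty (↥C ⧸ Cfsg.generalizedFittingSubgroup ↥C ≃*
        Cfsg.isometryGroup (ZMod 2) (Cfsg.quadFormMinus 2 (ZMod 2) 1 1)) := by
  subst hC
  have hfs := fstar_eq H hF φ hφ hker
  have hRle : R ≤ centralizer ({d * d'} : Set K) := by
    intro x hx
    rw [mem_centralizer_singleton_iff]
    have h1 := H.R_le hx
    rw [mem_centralizer_iff] at h1
    have a1 := h1 d (by simp)
    have a2 := h1 d' (by simp)
    rw [← mul_assoc, ← a1, mul_assoc, ← a2, mul_assoc]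
  constructor
  · -- `R` splits
    have hdd := H.dd
    have hdd' := H.dd'
    have hcom := H.comm
    obtain ⟨E, i1, i2, h1, h2, ⟨g⟩⟩ := Cfsg.Agent.H845.SplitTwo.exists_split (R := ↥R) (n := 9) H.R_card
      (z := ⟨d * d', mul_mem H.d_mem H.d'_mem⟩) (d := ⟨d, H.d_mem⟩)
      (Subtype.ext hdd) (fun h => H.d_ne (congrArg Subtype.val h))
      (fun h => H.d'_ne (by
        have : d = d * d' := congrArg Subtype.val h
        exact (mul_eq_left.1 this.symm)))
      (fun h => H.ne (by
        have : d * d' = 1 := congrArg Subtype.val h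
        calc d = d * (d' * d') := by rw [hdd', mul_one]
          _ = d * d' * d' := by rw [mul_assoc]
          _ = d' := by rw [this, one_mul]))
      (Subtype.ext (by
        show d * d' * (d * d') = 1
        calc d * d' * (d * d') = d * (d' * d) * d' := by group
          _ = d * (d * d') * d' := by rw [hcom]
          _ = (d * d) * (d' * d') := by group
          _ = 1 := by rw [hdd, hdd', mul_one]))
      (fun x => Subtype.ext (by
        have h1 := H.R_le x.2
        rw [mem_centralizer_iff] at h1
        exact (h1 d (by simp)).symm))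
      (fun x => Subtype.ext (by
        have h1 := hRle x.2
        rw [mem_centralizer_singleton_iff] at h1
        exact h1))
      (fun x y => by
        rcases H.R_comm x x.2 y y.2 with h | h
        · left; exact Subtype.ext h
        · right; exact Subtype.ext h)
      (fun x => by
        rcases H.R_sq x x.2 with h | h
        · left; exact Subtype.ext h
        · right; exact Subtype.ext h)
      (fun x hx => by
        rcases H.R_center (x : K) (fun y hy => congrArg Subtype.val (hx ⟨y, hy⟩)) with h | h | h | h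
        · left; exact Subtype.ext h
        · right; left; exact Subtype.ext h
        · right; right; left
          apply Subtype.ext
          show (x : K) = d * d' * d
          rw [h, hcom, mul_assoc, hdd, mul_one]
        · right; right; right; exact Subtype.ext h)
      (by
        obtain ⟨x, hx, y, hy, h⟩ := H.R_nonab
        refine ⟨⟨x, hx⟩, ⟨y, hy⟩, fun hxy => ?_⟩
        have h1 : x * y = y * x := congrArg Subtype.val hxy
        have h2 : x * y * x⁻¹ * y⁻¹ = 1 := by rw [h1]; group
        rw [h2] at h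
        apply H.ne
        calc d = d * (d' * d') := by rw [hdd', mul_one]
          _ = d * d' * d' := by rw [mul_assoc]
          _ = d' := by rw [← h, one_mul])
    refine ⟨E, i1, i2, h1, h2, ⟨MulEquiv.trans ?_ g⟩⟩
    refine MulEquiv.trans (MulEquiv.subgroupCongr hfs) ?_
    have hk : φ.ker = R.subgroupOf (centralizer ({d * d'} : Set K)) := by
      ext x
      rw [MonoidHom.mem_ker, hker, mem_subgroupOf]
    exact (MulEquiv.subgroupCongr hk).trans (Subgroup.subgroupOfEquivOfLe hRle)
  · obtain ⟨e⟩ := Cfsg.Agent.H845.AutUFour.nonempty_equiv hF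
    exact ⟨((QuotientGroup.quotientMulEquivOfEq hfs).trans
      (QuotientGroup.quotientKerEquivOfSurjective φ hφ)).trans e⟩

end

end Cfsg.Agent.H845.TwoProd
end

-- part: S5519
section
set_option autoImplicit false
open Cfsg

namespace Cfsg.Agent.S5519

/-- Let G be a finite group with trivial centre generated by a conjugation-invariant set D of 3-transpositions on which it acts primitively, such that for some d in D the subgroup generated by the members of D other than d commuting with d has central largest normal 2- and 3-subgroups, and suppose G with D is of type M(22). Let d₁, d₂ be distinct commuting members of D and C the centralizer of their product. Then the generalized Fitting subgroup of C is the direct product of a group of order 2 and an extraspecial 2-group of order 2^9, and C modulo it is isomorphic to the full isometry group of the elliptic quadratic form in dimension 6 over the field with two elements. -/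
theorem result {G : Type*} [Group G] [Finite G] {D : Set G} (hD : Cfsg.IsThreeTranspositionGroup D) (hprim : Cfsg.IsPrimitiveUnderConj D) (d₀ : G) (hd₀ : d₀ ∈ D) (h3 : Cfsg.pCore 3 ↥(Subgroup.closure {y : G | y ∈ D ∧ y ≠ d₀ ∧ Commute d₀ y}) ≤ Subgroup.center ↥(Subgroup.closure {y : G | y ∈ D ∧ y ≠ d₀ ∧ Commute d₀ y})) (h2 : Cfsg.pCore 2 ↥(Subgroup.closure {y : G | y ∈ D ∧ y ≠ d₀ ∧ Commute d₀ y}) ≤ Subgroup.center ↥(Subgroup.closure {y : G | y ∈ D ∧ y ≠ d₀ ∧ Commute d₀ y})) (h22 : Cfsg.IsOfTypeM22 G D) (d₁ d₂ : G) (h₁ : d₁ ∈ D) (h₂ : d₂ ∈ D) (hne : d₁ ≠ d₂) (hc : Commute d₁ d₂) (C : Subgroup G) (hC : C = Subgroup.centralizer ({d₁ * d₂} : Set G)) [hn : (Cfsg.generalizedFittingSubgroup ↥C).Normal] : (∃ (E : Type) (_ : Group E) (_ : Finite E), Cfsg.IsExtraspecial 2 E ∧ Nat.card E = 2 ^ 9 ∧ Nonempty (↥(Cfsg.generalizedFittingSubgroup ↥C) ≃* Multiplicative (ZMod 2) × E)) ∧ Nonempty (↥C ⧸ Cfsg.generalizedFittingSubgroup ↥C ≃* Cfsg.isometryGroup (ZMod 2) (Cfsg.quadFormMinus 2 (ZMod 2) 1 1)) := by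
  obtain ⟨e, he⟩ := Cfsg.Agent.H836.Bridge.exists_iso hD hprim h22
  subst he
  obtain ⟨R, hR, ⟨-, -, -, Φ, hs, hk, -⟩, -⟩ := Cfsg.Agent.H833.CentQuot.exists_cent e h₁ h₂ hne hc
  exact Cfsg.Agent.H845.TwoProd.main hR rfl Φ hs hk C hC

end Cfsg.Agent.S5519
end
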