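import Cfsg.Statements.S5521
import Cfsg.Agent.SporadicA.M24Trans
import Cfsg.Agent.SporadicA.M24Frames
set_option linter.all false

set_option autoImplicit false
open Cfsg

namespace Cfsg.Agent.S5521

open Cfsg.Agent.SporadicA

theorem exists_fix (B : Finset Cfsg.GolayPt) (hB : B.card ≤ 6) :
    ∃ g ∈ Cfsg.M24, g ≠ 1 ∧ ∀ b ∈ B, g b = b := by
  classical
  obtain ⟨B', hBB', hcard⟩ := Finset.exists_superset_card_eq hB
    (show 6 ≤ Fintype.card Cfsg.GolayPt by decide)
  let φ : Cfsg.M24 → (B' ↪ Cfsg.GolayPt) := fun g =>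
    (Function.Embedding.subtype (· ∈ B')).trans (g : Equiv.Perm Cfsg.GolayPt).toEmbedding
  have hni : ¬ Function.Injective φ := by
    intro hinj
    have h1 := Nat.card_le_card_of_injective φ hinj
    rw [M24Trans.card_M24, Nat.card_eq_fintype_card, Fintype.card_embedding_eq] at h1
    have h2 : Fintype.card Cfsg.GolayPt = 24 := by decide
    rw [h2, Fintype.card_coe, hcard] at h1
    have h3 : Nat.descFactorial 24 6 = 96909120 := by decide
    omega
  rw [Function.Injective] at hni
  push Not at hni
  obtain ⟨g, h, hgh, hne⟩ := hni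
  refine ⟨(h : Equiv.Perm Cfsg.GolayPt)⁻¹ * g, mul_mem (inv_mem h.2) g.2, ?_, ?_⟩
  · intro hc
    apply hne
    apply Subtype.ext
    exact (inv_mul_eq_one.mp hc).symm
  · intro b hb
    have := congrArg (fun f => f ⟨b, hBB' hb⟩) hgh
    have h4 : (g : Equiv.Perm Cfsg.GolayPt) b = (h : Equiv.Perm Cfsg.GolayPt) b := this
    rw [Equiv.Perm.mul_apply, h4]
    exact (h : Equiv.Perm Cfsg.GolayPt).symm_apply_apply b

/-- The Mathieu group M₂₄ in its natural action on the 24 coordinate positions of the binary Golay code has minimal base size exactly 7: every set of at most 6 positions is fixed pointwise by some non-identity element of M₂₄, while some set of 7 positions is fixed pointwise only by the identity. -/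
theorem result :
    (∀ B : Finset Cfsg.GolayPt, B.card ≤ 6 → ∃ g ∈ Cfsg.M24, g ≠ 1 ∧ ∀ b ∈ B, g b = b) ∧
    (∃ B : Finset Cfsg.GolayPt, B.card = 7 ∧ ∀ g ∈ Cfsg.M24, (∀ b ∈ B, g b = b) → g = 1) := by
  refine ⟨exists_fix, {none, some 0, some 1, some 2, some 3, some 5, some 4}, by decide, ?_⟩
  intro g hg h
  exact M24Frames.eq_one_of_fix_base hg (h _ (by decide)) (h _ (by decide)) (h _ (by decide))
    (h _ (by decide)) (h _ (by decide)) (h _ (by decide)) (h _ (by decide))

end Cfsg.Agent.S5521
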