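import Cfsg.Statements.S5595
import Cfsg.Agent.H864.ExtraSing
set_option linter.all false

set_option autoImplicit false
open Cfsg

namespace Cfsg.Agent.S5595

/-- If a 2-subgroup `T` of `H` is smaller than a 2-subgroup `K` of `H'` with `|H| = |H'|`, then `T` is
properly contained in a 2-subgroup of `H`. -/
theorem exists_bigger {G : Type*} [Group G] [Finite G] (H H' T K : Subgroup G)
    (hHH' : Nat.card H = Nat.card H') (hTH : T ≤ H) (hT : IsPGroup 2 T) (hKH : K ≤ H')
    (hK : IsPGroup 2 K) (hTK : Nat.card T < Nat.card K) :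
    ∃ S : Subgroup G, S ≤ H ∧ IsPGroup 2 S ∧ T < S := by
  have h1 : IsPGroup 2 (T.subgroupOf H) := hT.comap_of_injective _ (Subgroup.subtype_injective _)
  have h2 : IsPGroup 2 (K.subgroupOf H') := hK.comap_of_injective _ (Subgroup.subtype_injective _)
  obtain ⟨S, hS⟩ := h1.exists_le_sylow
  obtain ⟨P, hP⟩ := h2.exists_le_sylow
  have hcard : Nat.card S = Nat.card P := by
    rw [S.card_eq_multiplicity, P.card_eq_multiplicity, hHH']
  have hKP : Nat.card K ≤ Nat.card P := by
    have e : Nat.card (K.subgroupOf H') = Nat.card K :=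
      Nat.card_congr (Subgroup.subgroupOfEquivOfLe hKH).toEquiv
    rw [← e]
    exact Nat.card_le_card_of_injective _ (Subgroup.inclusion_injective hP)
  have hSc : Nat.card ((S : Subgroup H).map H.subtype) = Nat.card S :=
    Nat.card_congr (Subgroup.equivMapOfInjective _ _ (Subgroup.subtype_injective _)).symm.toEquiv
  refine ⟨(S : Subgroup H).map H.subtype, Subgroup.map_subtype_le _, S.isPGroup'.map _, ?_⟩
  refine lt_of_le_of_ne ?_ ?_
  · intro t ht
    exact ⟨⟨t, hTH ht⟩, hS (by rw [Subgroup.mem_subgroupOf]; exact ht), rfl⟩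
  · intro h
    have h3 : Nat.card T = Nat.card ((S : Subgroup H).map H.subtype) := by rw [← h]
    rw [hSc, hcard] at h3
    omega


/-- Setting: `z` is an involution of the finite group `G`; for each element `x`, `Q x` denotes the largest normal 2-subgroup of the centralizer of `x`; `Q z` is extraspecial and contains its own centralizer in `G` (a large extraspecial 2-subgroup in this sense). Call the conjugates of `z` singular, and say that singular `x` is orthogonal to singular `y` when `x ∈ Q y`. Then orthogonality is symmetric: if a conjugate `x` of `z` lies in `Q z`, then `z` lies in `Q x`. -/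
theorem result {G : Type*} [Group G] [Finite G]
    (Q : G → Subgroup G)
    (hQ : ∀ x : G, Q x = (Cfsg.pCore 2 ↥(Subgroup.centralizer ({x} : Set G))).map (Subgroup.centralizer ({x} : Set G)).subtype)
    (z : G) (hz : orderOf z = 2) (hE : Cfsg.IsExtraspecial 2 ↥(Q z))
    (hC : Subgroup.centralizer ((Q z : Subgroup G) : Set G) ≤ Q z)
    (g : G) (hx : g * z * g⁻¹ ∈ Q z) : z ∈ Q (g * z * g⁻¹) := by
  classical
  have hzz := H864.XS_z hQ z hz hE
  obtain ⟨x, hxdef⟩ : ∃ x : G, x = g * z * g⁻¹ := ⟨_, rfl⟩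
  rw [← hxdef] at hx ⊢
  by_cases hxz : x = z
  · rw [hxz]; exact hzz.mem
  have hXx : H864.XS (Q x) x := H864.XS_conj hQ z hz hE x ⟨g, hxdef.symm⟩
  have hx1 : x ≠ 1 := hXx.ne
  have hxx : x * x = 1 := hXx.sq
  have hz1 : z ≠ 1 := hzz.ne
  have hzz1 : z * z = 1 := hzz.sq
  have hzinv : z⁻¹ = z := inv_eq_of_mul_eq_one_right hzz1
  have hxinv : x⁻¹ = x := inv_eq_of_mul_eq_one_right hxx
  have hxzc : x * z = z * x := hzz.cent x hx
  obtain ⟨q, hq, hqx⟩ := hzz.nondeg x hx hx1 hxz
  have hqz : q * z = z * q := hzz.cent q hq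
  -- `x q x⁻¹ = q z`
  have hxq : x * q * x⁻¹ = q * z := by
    rcases hzz.comm x hx q hq with h | h
    · exfalso
      have h1 : x * q = q * x := mul_inv_eq_iff_eq_mul.mp h
      have h2 : q * x * q⁻¹ = x := mul_inv_eq_iff_eq_mul.mpr h1.symm
      rw [h2] at hqx
      exact hz1 (by simpa using hqx.symm)
    · exact h
  -- `R = C_Q(x)`
  set R : Subgroup G := Q z ⊓ Subgroup.centralizer ({x} : Set G) with hRdef
  have hRmem : ∀ r : G, r ∈ R ↔ r ∈ Q z ∧ r * x = x * r := by
    intro r
    rw [hRdef, Subgroup.mem_inf, Subgroup.mem_centralizer_singleton_iff]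
  have hzR : z ∈ R := (hRmem z).mpr ⟨hzz.mem, hxzc.symm⟩
  have hxR : x ∈ R := (hRmem x).mpr ⟨hx, rfl⟩
  -- every element of `Q z` is in `R` or in `q R`
  have hQR : ∀ a ∈ Q z, a ∈ R ∨ q⁻¹ * a ∈ R := by
    intro a ha
    rcases hzz.comm a ha x hx with h | h
    · left; exact (hRmem a).mpr ⟨ha, mul_inv_eq_iff_eq_mul.mp h⟩
    · right
      refine (hRmem _).mpr ⟨(Q z).mul_mem ((Q z).inv_mem hq) ha, ?_⟩
      have h2 : q⁻¹ * (x * z) * q = x := by rw [← hqx]; group
      have h3 : q⁻¹ * a * x * (q⁻¹ * a)⁻¹ = x := by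
        calc q⁻¹ * a * x * (q⁻¹ * a)⁻¹ = q⁻¹ * (a * x * a⁻¹) * q := by group
          _ = x := by rw [h, h2]
      exact mul_inv_eq_iff_eq_mul.mp h3
  -- Step 1: the centralizer of `R` is `{1, x, z, xz}`
  have hCQ : ∀ c : G, (∀ r ∈ R, c * r = r * c) → c * q = q * c → c = 1 ∨ c = z := by
    intro c hc hcq
    have hcQ : ∀ a ∈ Q z, c * a = a * c := by
      intro a ha
      rcases hQR a ha with h | h
      · exact hc a h
      · have h1 := hc _ h
        calc c * a = c * q * (q⁻¹ * a) := by group
          _ = q * (c * (q⁻¹ * a)) := by rw [hcq, mul_assoc]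
          _ = q * ((q⁻¹ * a) * c) := by rw [h1]
          _ = a * c := by group
    have hcm : c ∈ Q z := by
      apply hC
      rw [Subgroup.mem_centralizer_iff]
      intro a ha
      exact (hcQ a ha).symm
    by_contra hcon
    push Not at hcon
    obtain ⟨b, hb, hb'⟩ := hzz.nondeg c hcm hcon.1 hcon.2
    have h1 : b * c * b⁻¹ = c := mul_inv_eq_iff_eq_mul.mpr (hcQ b hb).symm
    rw [h1] at hb'
    exact hz1 (by simpa using hb'.symm)
  have hCR : ∀ c : G, (∀ r ∈ R, c * r = r * c) → c = 1 ∨ c = z ∨ c = x ∨ c = x * z := by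
    intro c hc
    have hcz : c * z = z * c := hc z hzR
    have hcx : c * x = x * c := hc x hxR
    -- `y = c q c⁻¹ q⁻¹`
    obtain ⟨y, hy⟩ : ∃ y : G, y = c * q * c⁻¹ * q⁻¹ := ⟨_, rfl⟩
    have hcq : c * q * c⁻¹ = y * q := by rw [hy]; group
    have hyQ : y ∈ Q z := by
      rw [hy]
      exact (Q z).mul_mem (H864.Q_normalized hQ z c q hcz hq) ((Q z).inv_mem hq)
    have hyR : ∀ r ∈ R, y * r = r * y := by
      intro r hr
      have hr' : q⁻¹ * r * q ∈ R := by
        have h1 := (hRmem r).mp hr
        have h2 := hzz.comm q⁻¹ ((Q z).inv_mem hq) r h1.1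
        rw [inv_inv] at h2
        rcases h2 with h | h
        · rw [h]; exact hr
        · rw [h]; exact R.mul_mem hr hzR
      have h1 : c * (q⁻¹ * r * q) * c⁻¹ = q⁻¹ * r * q := mul_inv_eq_iff_eq_mul.mpr (hc _ hr')
      have h2 : c⁻¹ * (q⁻¹ * r * q) * c = q⁻¹ * r * q := by
        calc c⁻¹ * (q⁻¹ * r * q) * c = c⁻¹ * (c * (q⁻¹ * r * q) * c⁻¹) * c := by rw [h1]
          _ = q⁻¹ * r * q := by group
      have h3 : c * r * c⁻¹ = r := mul_inv_eq_iff_eq_mul.mpr (hc _ hr)
      have h4 : y * r * y⁻¹ = r := by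
        rw [hy]
        calc c * q * c⁻¹ * q⁻¹ * r * (c * q * c⁻¹ * q⁻¹)⁻¹
            = c * q * (c⁻¹ * (q⁻¹ * r * q) * c) * q⁻¹ * c⁻¹ := by group
          _ = c * q * (q⁻¹ * r * q) * q⁻¹ * c⁻¹ := by rw [h2]
          _ = c * r * c⁻¹ := by group
          _ = r := h3
      exact mul_inv_eq_iff_eq_mul.mp h4
    -- `y ∈ ⟨z, x⟩`
    have hyc : y ∈ Subgroup.closure (insert z ({x} : Set G)) := by
      by_contra hcon
      obtain ⟨b, hb, hbx, hby⟩ := hzz.double (Set.finite_singleton x)
        (by intro s hs; rw [Set.mem_singleton_iff.mp hs]; exact hx) y hyQ hcon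
      have hbR : b ∈ R := (hRmem b).mpr ⟨hb, hbx x rfl⟩
      have h1 : b * y * b⁻¹ = y := mul_inv_eq_iff_eq_mul.mpr (hyR b hbR).symm
      rw [h1] at hby
      exact hz1 (by simpa using hby.symm)
    have hy4 : y = 1 ∨ y = z ∨ y = x ∨ y = x * z := by
      clear hy hcq hyQ hyR
      induction hyc using Subgroup.closure_induction with
      | mem a ha =>
        rcases ha with rfl | ha
        · right; left; rfl
        · right; right; left; exact Set.mem_singleton_iff.mp ha
      | one => left; rfl
      | mul a b _ _ iha ihb =>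
        rcases iha with rfl | rfl | rfl | rfl <;> rcases ihb with rfl | rfl | rfl | rfl
        · left; simp
        · right; left; simp
        · right; right; left; simp
        · right; right; right; simp
        · right; left; simp
        · left; exact hzz1
        · right; right; right; exact hxzc.symm
        · right; right; left; rw [← mul_assoc, ← hxzc, mul_assoc, hzz1, mul_one]
        · right; right; left; simp
        · right; right; right; rfl
        · left; exact hxx
        · right; left; rw [← mul_assoc, hxx, one_mul]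
        · right; right; right; simp
        · right; right; left; rw [mul_assoc, hzz1, mul_one]
        · right; left; rw [mul_assoc, ← hxzc, ← mul_assoc, hxx, one_mul]
        · left
          calc x * z * (x * z) = x * (z * x) * z := by group
            _ = x * (x * z) * z := by rw [← hxzc]
            _ = (x * x) * (z * z) := by group
            _ = 1 := by rw [hxx, hzz1, one_mul]
      | inv a _ iha =>
        rcases iha with rfl | rfl | rfl | rfl
        · left; simp
        · right; left; exact hzinv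
        · right; right; left; exact hxinv
        · right; right; right; rw [mul_inv_rev, hzinv, hxinv, hxzc]
    have hqq : c * (q * q) * c⁻¹ = q * q := by
      rcases hzz.sq2 q hq with h | h
      · rw [h]; group
      · rw [h]; exact mul_inv_eq_iff_eq_mul.mpr hcz
    have hsq : (y * q) * (y * q) = q * q := by
      rw [← hcq, ← hqq]; group
    have hqxq : q * x = x * z * q := mul_inv_eq_iff_eq_mul.mp hqx
    rcases hy4 with h | h | h | h
    · -- `c` commutes with `q`
      rw [h, one_mul] at hcq
      rcases hCQ c hc (mul_inv_eq_iff_eq_mul.mp hcq) with h | h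
      · left; exact h
      · right; left; exact h
    · -- `x c` commutes with `q`
      rw [h] at hcq
      have h1 : c * q = z * q * c := mul_inv_eq_iff_eq_mul.mp hcq
      have h2 : x * c * q = q * (x * c) := by
        calc x * c * q = x * (c * q) := mul_assoc _ _ _
          _ = x * (z * q * c) := by rw [h1]
          _ = (x * z * q) * c := by group
          _ = (q * x) * c := by rw [hqxq]
          _ = q * (x * c) := mul_assoc _ _ _
      have h3 : ∀ r ∈ R, x * c * r = r * (x * c) := by
        intro r hr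
        have h4 := ((hRmem r).mp hr).2
        calc x * c * r = x * (c * r) := mul_assoc _ _ _
          _ = x * (r * c) := by rw [hc r hr]
          _ = (x * r) * c := (mul_assoc _ _ _).symm
          _ = (r * x) * c := by rw [h4]
          _ = r * (x * c) := mul_assoc _ _ _
      rcases hCQ (x * c) h3 h2 with h | h
      · right; right; left
        have : x * (x * c) = x * 1 := by rw [h]
        rwa [← mul_assoc, hxx, one_mul, mul_one] at this
      · right; right; right
        have : x * (x * c) = x * z := by rw [h]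
        rwa [← mul_assoc, hxx, one_mul] at this
    · exfalso
      rw [h] at hsq
      have h1 : x * q * (x * q) = (x * (q * x)) * q := by group
      rw [h1, hqxq] at hsq
      have h2 : x * (x * z * q) * q = (x * x) * z * (q * q) := by group
      rw [h2, hxx, one_mul] at hsq
      exact hz1 (by simpa using hsq)
    · exfalso
      rw [h] at hsq
      have h1 : x * z * q * (x * z * q) = x * z * (q * x) * z * q := by group
      rw [h1, hqxq] at hsq
      have h2 : x * z * (x * z * q) * z * q = x * (z * x) * z * (q * z) * q := by group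
      rw [h2, ← hxzc, hqz] at hsq
      have h3 : x * (x * z) * z * (z * q) * q = (x * x) * (z * z) * z * (q * q) := by group
      rw [h3, hxx, hzz1, one_mul, one_mul] at hsq
      exact hz1 (by simpa using hsq)
  -- Step 2
  obtain ⟨N, hN⟩ : ∃ N : Subgroup G, N = Subgroup.centralizer ({x} : Set G) ⊓
    Subgroup.centralizer ({z} : Set G) := ⟨_, rfl⟩
  have hNmem : ∀ r : G, r ∈ N ↔ r * x = x * r ∧ r * z = z * r := by
    intro r
    rw [hN, Subgroup.mem_inf, Subgroup.mem_centralizer_singleton_iff,
      Subgroup.mem_centralizer_singleton_iff]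
  have hRN : R ≤ N := by
    intro r hr
    have h1 := (hRmem r).mp hr
    exact (hNmem r).mpr ⟨h1.2, hzz.cent r h1.1⟩
  have hR2 : IsPGroup 2 R := (H864.Q_isPGroup hQ z).to_le inf_le_left
  obtain ⟨T, hRT, hTmax⟩ := Finite.exists_le_maximal (p := fun T : Subgroup G => IsPGroup 2 T ∧ T ≤ N)
    (a := R) ⟨hR2, hRN⟩
  have hT2 : IsPGroup 2 T := hTmax.prop.1
  have hTN : T ≤ N := hTmax.prop.2
  have hTx : T ≤ Subgroup.centralizer ({x} : Set G) := hTN.trans (by rw [hN]; exact inf_le_left)
  have hTz : T ≤ Subgroup.centralizer ({z} : Set G) := hTN.trans (by rw [hN]; exact inf_le_right)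
  -- `T ⊔ Q z` is a 2-group in `C(z)`
  have hTQ : T ≤ Subgroup.normalizer (Q z : Set G) := by
    have h1 : ∀ t ∈ T, ∀ a ∈ Q z, t * a * t⁻¹ ∈ Q z := by
      intro t ht a ha
      exact H864.Q_normalized hQ z t a ((hNmem t).mp (hTN ht)).2 ha
    intro t ht
    rw [Subgroup.mem_normalizer_iff]
    intro a
    refine ⟨fun ha => h1 t ht a ha, fun ha => ?_⟩
    have := h1 t⁻¹ (T.inv_mem ht) _ ha
    have e : t⁻¹ * (t * a * t⁻¹) * t⁻¹⁻¹ = a := by group
    rwa [e] at this
  have hK2 : IsPGroup 2 (T ⊔ Q z : Subgroup G) :=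
    IsPGroup.to_sup_of_normal_right' hT2 (H864.Q_isPGroup hQ z) hTQ
  have hKz : T ⊔ Q z ≤ Subgroup.centralizer ({z} : Set G) :=
    sup_le hTz (H864.Q_le_cent hQ z)
  have hcc : Nat.card (Subgroup.centralizer ({x} : Set G)) =
      Nat.card (Subgroup.centralizer ({z} : Set G)) := by
    have e : (Subgroup.centralizer ({z} : Set G)).map (MulAut.conj g).toMonoidHom =
        Subgroup.centralizer ({x} : Set G) := by
      ext a
      rw [Subgroup.mem_centralizer_singleton_iff]
      constructor
      · rintro ⟨b, hb, rfl⟩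
        have hb' : b * z = z * b := Subgroup.mem_centralizer_singleton_iff.mp hb
        simp only [MulEquiv.coe_toMonoidHom, MulAut.conj_apply]
        rw [hxdef]
        calc g * b * g⁻¹ * (g * z * g⁻¹) = g * (b * z) * g⁻¹ := by group
          _ = g * (z * b) * g⁻¹ := by rw [hb']
          _ = g * z * g⁻¹ * (g * b * g⁻¹) := by group
      · intro ha
        refine ⟨g⁻¹ * a * g, ?_, ?_⟩
        · apply Subgroup.mem_centralizer_singleton_iff.mpr
          rw [hxdef] at ha
          calc g⁻¹ * a * g * z = g⁻¹ * (a * (g * z * g⁻¹)) * g := by group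
            _ = g⁻¹ * ((g * z * g⁻¹) * a) * g := by rw [ha]
            _ = z * (g⁻¹ * a * g) := by group
        · simp only [MulEquiv.coe_toMonoidHom, MulAut.conj_apply]
          group
    rw [← e]
    exact (Nat.card_congr (Subgroup.equivMapOfInjective _ _
      (MulAut.conj g).injective).toEquiv).symm
  have hlt : Nat.card T < Nat.card (T ⊔ Q z : Subgroup G) := by
    have hle : T ≤ T ⊔ Q z := le_sup_left
    have hqT : q ∉ T := by
      intro h
      have h1 := ((hNmem q).mp (hTN h)).1
      have h2 : q * x * q⁻¹ = x := mul_inv_eq_iff_eq_mul.mpr h1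
      rw [h2] at hqx
      exact hz1 (by simpa using hqx.symm)
    by_contra hcon
    push Not at hcon
    have h2 : T = T ⊔ Q z := Subgroup.eq_of_le_of_card_ge hle hcon
    apply hqT
    rw [h2]
    exact (le_sup_right : Q z ≤ T ⊔ Q z) hq
  obtain ⟨S, hSx, hS2, hTS⟩ := exists_bigger _ _ T (T ⊔ Q z) hcc hTx hT2 hKz hK2 hlt
  -- an element of `S` normalizing `T`, outside `T`
  haveI : Group.IsNilpotent ↥S := hS2.isNilpotent
  have hnc : NormalizerCondition ↥S := Group.normalizerCondition_of_isNilpotent
  obtain ⟨t, htS, htT, htN⟩ : ∃ t ∈ S, t ∉ T ∧ ∀ a ∈ T, t * a * t⁻¹ ∈ T := by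
    have h1 : T.subgroupOf S < ⊤ := by
      rw [lt_top_iff_ne_top]
      intro h
      rw [Subgroup.subgroupOf_eq_top] at h
      exact absurd hTS (not_lt_of_ge h)
    have h2 := hnc _ h1
    obtain ⟨t, ht1, ht2⟩ := SetLike.exists_of_lt h2
    refine ⟨t, t.2, ?_, ?_⟩
    · intro h
      exact ht2 (by rw [Subgroup.mem_subgroupOf]; exact h)
    · intro a ha
      rw [Subgroup.mem_normalizer_iff] at ht1
      have h3 := (ht1 ⟨a, hTS.le ha⟩).mp (by
        show (⟨a, hTS.le ha⟩ : S) ∈ T.subgroupOf S
        rw [Subgroup.mem_subgroupOf]; exact ha)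
      have h4 : (t * ⟨a, hTS.le ha⟩ * t⁻¹ : S) ∈ T.subgroupOf S := h3
      rw [Subgroup.mem_subgroupOf] at h4
      exact h4
  have htx : t * x = x * t := Subgroup.mem_centralizer_singleton_iff.mp (hSx htS)
  -- `t z t⁻¹` centralizes `R`
  have hTinv : ∀ a ∈ T, t⁻¹ * a * t ∈ T := by
    -- `t` normalizes the finite group `T`
    have hmap : T.map (MulAut.conj t).toMonoidHom = T := by
      apply Subgroup.eq_of_le_of_card_ge
      · rintro _ ⟨a, ha, rfl⟩
        exact htN a ha
      · exact (Nat.card_congr (Subgroup.equivMapOfInjective T _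
          (MulAut.conj t).injective).toEquiv).le
    intro a ha
    rw [← hmap] at ha
    obtain ⟨b, hb, rfl⟩ := ha
    simp only [MulEquiv.coe_toMonoidHom, MulAut.conj_apply]
    have e : t⁻¹ * (t * b * t⁻¹) * t = b := by group
    rw [e]
    exact hb
  have htz : t * z * t⁻¹ = x * z := by
    have h1 : ∀ r ∈ R, t * z * t⁻¹ * r = r * (t * z * t⁻¹) := by
      intro r hr
      have h2 := hTinv r (hRT hr)
      have h3 := ((hNmem _).mp (hTN h2)).2
      calc t * z * t⁻¹ * r = t * (z * (t⁻¹ * r * t)) * t⁻¹ := by group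
        _ = t * ((t⁻¹ * r * t) * z) * t⁻¹ := by rw [h3]
        _ = r * (t * z * t⁻¹) := by group
    rcases hCR _ h1 with h | h | h | h
    · exact absurd (conj_eq_one_iff.mp h) hz1
    · -- `t` would lie in `N`, contradicting the maximality of `T`
      exfalso
      have htN' : t ∈ N := (hNmem t).mpr ⟨htx, mul_inv_eq_iff_eq_mul.mp h⟩
      have h2 : T ≤ S ⊓ N := le_inf hTS.le hTN
      have h3 := hTmax.le_of_ge ⟨hS2.to_le inf_le_left, inf_le_right⟩ h2
      exact htT (h3 ⟨htS, htN'⟩)
    · exfalso
      apply hxz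
      have h2 : t⁻¹ * (t * z * t⁻¹) * t = t⁻¹ * x * t := by rw [h]
      have h3 : t⁻¹ * x * t = x := by
        calc t⁻¹ * x * t = t⁻¹ * (x * t) := mul_assoc _ _ _
          _ = t⁻¹ * (t * x) := by rw [htx]
          _ = x := by group
      have h4 : t⁻¹ * (t * z * t⁻¹) * t = z := by group
      rw [h3, h4] at h2
      exact h2.symm
    · exact h
  -- Step 3: `w = t q t` swaps `x` and `z`
  have htxc : t * x * t⁻¹ = x := mul_inv_eq_iff_eq_mul.mpr htx
  have hqzc : q * z * q⁻¹ = z := mul_inv_eq_iff_eq_mul.mpr hqz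
  have e1 : (t * q * t) * x * (t * q * t)⁻¹ = z := by
    calc (t * q * t) * x * (t * q * t)⁻¹ = t * (q * (t * x * t⁻¹) * q⁻¹) * t⁻¹ := by group
      _ = t * (x * z) * t⁻¹ := by rw [htxc, hqx]
      _ = (t * x * t⁻¹) * (t * z * t⁻¹) := by group
      _ = x * (x * z) := by rw [htxc, htz]
      _ = z := by rw [← mul_assoc, hxx, one_mul]
  have e2 : (t * q * t) * z * (t * q * t)⁻¹ = x := by
    calc (t * q * t) * z * (t * q * t)⁻¹ = t * (q * (t * z * t⁻¹) * q⁻¹) * t⁻¹ := by group
      _ = t * ((q * x * q⁻¹) * (q * z * q⁻¹)) * t⁻¹ := by rw [htz]; group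
      _ = t * (x * z * z) * t⁻¹ := by rw [hqx, hqzc]
      _ = t * (x * (z * z)) * t⁻¹ := by rw [mul_assoc x z z]
      _ = x := by rw [hzz1, mul_one, htxc]
  have := H864.Q_conj_le hQ z (t * q * t) x hx
  rwa [e1, e2] at this

end Cfsg.Agent.S5595
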