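import Cfsg.Statements.S5597
import Cfsg.Agent.H864.ExtraSing
set_option linter.all false

set_option autoImplicit false
open Cfsg

namespace Cfsg.Agent.S5597

/-- Setting: `z` is an involution of the finite group `G`; for each element `x`, `Q x` is the largest normal 2-subgroup of the centralizer of `x`; `Q z` is extraspecial and contains its own centralizer in `G`. A subgroup `U` is singular when it is elementary abelian, every non-identity element of `U` is conjugate to `z`, and any two non-identity elements `u`, `v` of `U` are orthogonal (`v ∈ Q u`). Write `QU` for the intersection of the `Q u` and `LU` for the join of the `Q u` over the non-identity `u` in `U`. If `U` is a non-trivial singular subgroup, then `LU` acts trivially on `QU / U` (every commutator of an element of `LU` with an element of `QU` lies in `U`), and for every `x` in `QU` outside `U` the centralizer of `U` in `LU` permutes the coset `x U` transitively: each `x u` with `u ∈ U` is a conjugate of `x` by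 an element of `LU` centralizing `U`. -/
theorem result {G : Type*} [Group G] [Finite G]
    (Q : G → Subgroup G)
    (hQ : ∀ x : G, Q x = (Cfsg.pCore 2 ↥(Subgroup.centralizer ({x} : Set G))).map (Subgroup.centralizer ({x} : Set G)).subtype)
    (z : G) (hz : orderOf z = 2) (hE : Cfsg.IsExtraspecial 2 ↥(Q z))
    (hC : Subgroup.centralizer ((Q z : Subgroup G) : Set G) ≤ Q z)
    (U : Subgroup G) (hU2 : ∀ u ∈ U, u * u = 1)
    (hS : ∀ u ∈ U, u ≠ 1 → ∃ g : G, g * z * g⁻¹ = u)
    (hO : ∀ u ∈ U, ∀ v ∈ U, u ≠ 1 → v ≠ 1 → v ∈ Q u)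
    (QU LU : Subgroup G) (hQU : QU = ⨅ u ∈ ((U : Set G) \ {1}), Q u) (hLU : LU = ⨆ u ∈ ((U : Set G) \ {1}), Q u)
    (hU : U ≠ ⊥) :
    (∀ g ∈ LU, ∀ x ∈ QU, g * x * g⁻¹ * x⁻¹ ∈ U) ∧
      ∀ x ∈ QU, x ∉ U → ∀ u ∈ U, ∃ g ∈ LU ⊓ Subgroup.centralizer (U : Set G), g * x * g⁻¹ = x * u := by
  classical
  have hXS : ∀ u ∈ U, u ≠ 1 → H864.XS (Q u) u := fun u hu hu1 =>
    H864.XS_conj hQ z hz hE u (hS u hu hu1)
  have hQUle : ∀ u ∈ U, u ≠ 1 → QU ≤ Q u := by
    intro u hu hu1
    rw [hQU]
    exact iInf₂_le u ⟨hu, hu1⟩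
  have hleLU : ∀ u ∈ U, u ≠ 1 → Q u ≤ LU := by
    intro u hu hu1
    rw [hLU]
    exact le_iSup₂ (f := fun u (_ : u ∈ ((U : Set G) \ {1})) => Q u) u ⟨hu, hu1⟩
  -- `LU` normalizes `U`
  have hUQ : ∀ u ∈ U, u ≠ 1 → U ≤ Q u := by
    intro u hu hu1 v hv
    by_cases hv1 : v = 1
    · rw [hv1]; exact (Q u).one_mem
    · exact hO u hu v hv hu1 hv1
  have hN : LU ≤ Subgroup.normalizer (U : Set G) := by
    rw [hLU]
    apply iSup₂_le
    rintro u ⟨hu, hu1⟩ g hg
    replace hu1 : u ≠ 1 := hu1
    have hX := hXS u hu hu1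
    have key : ∀ g ∈ Q u, ∀ v ∈ U, g * v * g⁻¹ ∈ U := by
      intro g hg v hv
      rcases hX.comm g hg v (hUQ u hu hu1 hv) with h | h
      · rw [h]; exact hv
      · rw [h]; exact U.mul_mem hv hu
    rw [Subgroup.mem_normalizer_iff]
    intro v
    refine ⟨fun hv => key g hg v hv, fun hv => ?_⟩
    have := key g⁻¹ ((Q u).inv_mem hg) _ hv
    have e : g⁻¹ * (g * v * g⁻¹) * g⁻¹⁻¹ = v := by group
    rwa [e] at this
  refine ⟨?_, ?_⟩
  · -- the set of `g ∈ LU` acting trivially on `QU / U` is a subgroup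
    let K : Subgroup G :=
      { carrier := {g | g ∈ Subgroup.normalizer (U : Set G) ∧ ∀ x ∈ QU, g * x * g⁻¹ * x⁻¹ ∈ U}
        one_mem' := ⟨Subgroup.one_mem _, by intro x hx; simp⟩
        mul_mem' := by
          rintro a b ⟨haN, ha⟩ ⟨hbN, hb⟩
          refine ⟨Subgroup.mul_mem _ haN hbN, ?_⟩
          intro x hx
          have h3 := (Subgroup.mem_normalizer_iff.mp haN _).mp (hb x hx)
          have : a * b * x * (a * b)⁻¹ * x⁻¹ = (a * (b * x * b⁻¹ * x⁻¹) * a⁻¹) * (a * x * a⁻¹ * x⁻¹) := by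
            group
          rw [this]
          exact U.mul_mem h3 (ha x hx)
        inv_mem' := by
          rintro a ⟨haN, ha⟩
          refine ⟨Subgroup.inv_mem _ haN, ?_⟩
          intro x hx
          have h2 := U.inv_mem (ha x hx)
          have h3 := (Subgroup.mem_normalizer_iff.mp ((Subgroup.normalizer (U : Set G)).inv_mem haN) _).mp h2
          have : a⁻¹ * x * a⁻¹⁻¹ * x⁻¹ = a⁻¹ * (a * x * a⁻¹ * x⁻¹)⁻¹ * a⁻¹⁻¹ := by
            group
          rw [this]
          exact h3 }
    have hLK : LU ≤ K := by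
      rw [hLU]
      apply iSup₂_le
      rintro u ⟨hu, hu1⟩ g hg
      replace hu1 : u ≠ 1 := hu1
      refine ⟨hN (hleLU u hu hu1 hg), ?_⟩
      intro x hx
      have hX := hXS u hu hu1
      rcases hX.comm g hg x (hQUle u hu hu1 hx) with h | h
      · rw [h, mul_inv_cancel]; exact U.one_mem
      · rw [h, hX.cent x (hQUle u hu hu1 hx), mul_inv_cancel_right]; exact hu
    intro g hg
    exact (hLK hg).2
  · intro x hx hxU u hu
    by_cases hu1 : u = 1
    · refine ⟨1, Subgroup.one_mem _, ?_⟩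
      rw [hu1]; group
    · have hX := hXS u hu hu1
      have hcl : Subgroup.closure (insert u (U : Set G)) = U := by
        rw [Set.insert_eq_of_mem (show u ∈ (U : Set G) from hu), Subgroup.closure_eq]
      obtain ⟨g, hg, hgc, hgx⟩ := hX.double (Set.toFinite (U : Set G)) (hUQ u hu hu1) x
        (hQUle u hu hu1 hx) (by rw [hcl]; exact hxU)
      refine ⟨g, ⟨hleLU u hu hu1 hg, ?_⟩, hgx⟩
      show g ∈ Subgroup.centralizer (U : Set G)
      rw [Subgroup.mem_centralizer_iff]
      intro v hv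
      exact (hgc v hv).symm

end Cfsg.Agent.S5597
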