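import Cfsg.Statements.S5599
import Cfsg.Agent.S0366
import Cfsg.Agent.SporadicA.GolayMask
set_option linter.all false

set_option autoImplicit false
open scoped Pointwise
open Cfsg

namespace Cfsg.Agent.S5599

open Equiv

theorem mem_M22_iff (x : Perm GolayPt) :
    x ∈ Cfsg.Spor.M22 ↔ x ∈ Cfsg.M24 ∧ x none = none ∧ x (some 0) = some 0 := by
  unfold Cfsg.Spor.M22 Cfsg.Spor.M23
  rw [Subgroup.mem_inf, Subgroup.mem_inf, MulAction.mem_stabilizer_iff,
    MulAction.mem_stabilizer_iff, and_assoc]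
  rfl

theorem inj_five {a b c d e : GolayPt} (h1 : a ≠ b) (h2 : a ≠ c) (h3 : a ≠ d) (h4 : a ≠ e)
    (h5 : b ≠ c) (h6 : b ≠ d) (h7 : b ≠ e) (h8 : c ≠ d) (h9 : c ≠ e) (h10 : d ≠ e) :
    Function.Injective ![a, b, c, d, e] := by
  intro i j h
  fin_cases i <;> fin_cases j <;> simp_all

theorem exists_fix_move {p q r : GolayPt} (hp1 : p ≠ none) (hp2 : p ≠ some 0) (hq1 : q ≠ none)
    (hq2 : q ≠ some 0) (hr1 : r ≠ none) (hr2 : r ≠ some 0) (hpq : p ≠ q) (hpr : p ≠ r)
    (hqr : q ≠ r) : ∃ x ∈ Cfsg.Spor.M22, x p = p ∧ x q = r := by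
  have h01 : (none : GolayPt) ≠ some 0 := by decide
  have i1 := inj_five h01 hp1.symm hq1.symm hr1.symm hp2.symm hq2.symm hr2.symm hpq hpr hqr
  have i2 := inj_five h01 hp1.symm hr1.symm hq1.symm hp2.symm hr2.symm hq2.symm hpr hpq hqr.symm
  obtain ⟨g, hg⟩ := (MulAction.isMultiplyPretransitive_iff.mp Cfsg.Agent.S0366.result)
    (⟨_, i1⟩ : Fin 5 ↪ GolayPt) (⟨_, i2⟩ : Fin 5 ↪ GolayPt)
  have hg' : ∀ i : Fin 5, (g : Perm GolayPt) (![none, some 0, p, q, r] i) =
      ![none, some 0, p, r, q] i := by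
    intro i
    have := congrArg (fun f : Fin 5 ↪ GolayPt => f i) hg
    exact this
  refine ⟨g, (mem_M22_iff _).mpr ⟨g.2, hg' 0, hg' 1⟩, hg' 2, hg' 3⟩

theorem no_swap (c : Perm GolayPt) (hc : c ∈ Cfsg.M24) (h1 : c (some 0) = none)
    (hfix : ∀ p, p ≠ none → p ≠ some 0 → c p = p) : False := by
  have hcs : c • supports (golayCode : Set (GolayPt → ZMod 2)) =
      supports (golayCode : Set (GolayPt → ZMod 2)) := MulAction.mem_stabilizer_iff.mp hc
  have hq : qrWord 0 ∈ golayCode := Submodule.subset_span (Or.inl ⟨0, rfl⟩)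
  have hmem : c • support₂ (qrWord 0) ∈ supports (golayCode : Set (GolayPt → ZMod 2)) := by
    rw [← hcs]
    exact Set.smul_mem_smul_set ⟨_, hq, rfl⟩
  obtain ⟨w, hw, hw'⟩ := hmem
  have hiff : ∀ p, w p ≠ 0 ↔ qrWord 0 (c⁻¹ p) ≠ 0 := by
    intro p
    have h2 : p ∈ support₂ w ↔ p ∈ c • support₂ (qrWord 0) := by rw [hw']
    rw [← Finset.inv_smul_mem_iff] at h2
    simpa [support₂] using h2
  have hdiff : (support₂ (w - qrWord 0)).card < 8 := by
    have hsub : support₂ (w - qrWord 0) ⊆ ({none, some 0} : Finset GolayPt) := by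
      intro p hp
      by_contra hcon
      simp only [Finset.mem_insert, Finset.mem_singleton, not_or] at hcon
      have h2 := hfix p hcon.1 hcon.2
      have h3 : c⁻¹ p = p := by rw [Equiv.Perm.inv_eq_iff_eq, h2]
      have h4 := hiff p
      rw [h3] at h4
      simp only [support₂, Finset.mem_filter, Finset.mem_univ, true_and, Pi.sub_apply] at hp
      apply hp
      generalize w p = a at *
      generalize qrWord 0 p = b at *
      revert a b
      decide
    have h2 := Finset.card_le_card hsub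
    have h3 : ({none, some 0} : Finset GolayPt).card ≤ 2 := Finset.card_le_two
    omega
  have hzero := Cfsg.Agent.SporadicA.GolayMask.eq_zero_of_card_lt (Submodule.sub_mem _ hw hq) hdiff
  have hnone : w none = qrWord 0 none := by
    have := congrFun hzero none
    simpa [sub_eq_zero] using this
  have h2 : w none ≠ 0 := by
    rw [hiff none]
    have h3 : c⁻¹ none = some 0 := by rw [Equiv.Perm.inv_eq_iff_eq, h1]
    rw [h3]
    decide
  apply h2
  rw [hnone]
  rfl


/-- In the automorphism group of the length-24 code, the two-point Mathieu group (permutations of the code's group fixing the extra point and the residue 0) has index 2 in the setwise stabiliser of that pair of points, and an element of the code's group interchanging the two points normalises the two-point group and induces on it, by conjugation, an automorphism that is not inner. -/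
theorem result (g : Equiv.Perm Cfsg.GolayPt) (hg : g ∈ Cfsg.M24) (h₁ : g none = some 0) (h₂ : g (some 0) = none) : Cfsg.Spor.M22.relIndex (Cfsg.M24 ⊓ MulAction.stabilizer (Equiv.Perm Cfsg.GolayPt) ({none, some 0} : Finset Cfsg.GolayPt)) = 2 ∧ (∀ x ∈ Cfsg.Spor.M22, g * x * g⁻¹ ∈ Cfsg.Spor.M22) ∧ ¬ ∃ h ∈ Cfsg.Spor.M22, ∀ x ∈ Cfsg.Spor.M22, g * x * g⁻¹ = h * x * h⁻¹ := by
  have hzn : (some 0 : GolayPt) ≠ none := by decide
  have hgi1 : g⁻¹ none = some 0 := by rw [Equiv.Perm.inv_eq_iff_eq, h₂]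
  have hgi2 : g⁻¹ (some 0) = none := by rw [Equiv.Perm.inv_eq_iff_eq, h₁]
  have hmemS : ∀ b : Perm GolayPt, b • ({none, some 0} : Finset GolayPt) = {none, some 0} ↔
      (b none = none ∧ b (some 0) = some 0) ∨ (b none = some 0 ∧ b (some 0) = none) := by
    intro b
    constructor
    · intro h
      have h3 : b none ∈ ({none, some 0} : Finset GolayPt) := by
        rw [← h]
        exact Finset.smul_mem_smul_finset (by simp)
      have h4 : b (some 0) ∈ ({none, some 0} : Finset GolayPt) := by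
        rw [← h]
        exact Finset.smul_mem_smul_finset (by simp)
      have h5 : b none ≠ b (some 0) := fun h => hzn (b.injective h).symm
      simp only [Finset.mem_insert, Finset.mem_singleton] at h3 h4
      rcases h3 with h3 | h3 <;> rcases h4 with h4 | h4
      · exact absurd (h3.trans h4.symm) h5
      · exact Or.inl ⟨h3, h4⟩
      · exact Or.inr ⟨h3, h4⟩
      · exact absurd (h3.trans h4.symm) h5
    · rintro (⟨h3, h4⟩ | ⟨h3, h4⟩)
      · rw [Finset.smul_finset_insert, Finset.smul_finset_singleton]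
        show ({b none, b (some 0)} : Finset GolayPt) = _
        rw [h3, h4]
      · rw [Finset.smul_finset_insert, Finset.smul_finset_singleton]
        show ({b none, b (some 0)} : Finset GolayPt) = _
        rw [h3, h4, Finset.pair_comm]
  refine ⟨?_, ?_, ?_⟩
  · rw [Subgroup.relIndex_eq_two_iff]
    refine ⟨g, ⟨hg, MulAction.mem_stabilizer_iff.mpr ((hmemS g).mpr (Or.inr ⟨h₁, h₂⟩))⟩, ?_⟩
    rintro b ⟨hb, hb'⟩
    have hb2 := (hmemS b).mp (MulAction.mem_stabilizer_iff.mp hb')
    rcases hb2 with ⟨h3, h4⟩ | ⟨h3, h4⟩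
    · right
      refine ⟨(mem_M22_iff b).mpr ⟨hb, h3, h4⟩, ?_⟩
      intro hbg
      have h5 := ((mem_M22_iff _).mp hbg).2.1
      rw [Perm.mul_apply, h₁, h4] at h5
      exact hzn h5
    · left
      refine ⟨(mem_M22_iff _).mpr ⟨Cfsg.M24.mul_mem hb hg, ?_, ?_⟩, ?_⟩
      · rw [Perm.mul_apply, h₁, h4]
      · rw [Perm.mul_apply, h₂, h3]
      · intro hbg
        have h5 := ((mem_M22_iff _).mp hbg).2.1
        rw [h3] at h5
        exact hzn h5
  · intro x hx
    obtain ⟨hx1, hx2, hx3⟩ := (mem_M22_iff x).mp hx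
    refine (mem_M22_iff _).mpr ⟨Cfsg.M24.mul_mem (Cfsg.M24.mul_mem hg hx1) (Cfsg.M24.inv_mem hg),
      ?_, ?_⟩
    · rw [Perm.mul_apply, Perm.mul_apply, hgi1, hx3, h₂]
    · rw [Perm.mul_apply, Perm.mul_apply, hgi2, hx2, h₁]
  · rintro ⟨h, hh, hconj⟩
    obtain ⟨hh1, hh2, hh3⟩ := (mem_M22_iff h).mp hh
    obtain ⟨c, hcdef⟩ : ∃ c, c = h⁻¹ * g := ⟨_, rfl⟩
    have hcM : c ∈ Cfsg.M24 := by
      rw [hcdef]
      exact Cfsg.M24.mul_mem (Cfsg.M24.inv_mem hh1) hg
    have hhi1 : h⁻¹ none = none := by rw [Equiv.Perm.inv_eq_iff_eq, hh2]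
    have hhi2 : h⁻¹ (some 0) = some 0 := by rw [Equiv.Perm.inv_eq_iff_eq, hh3]
    have hc1 : c none = some 0 := by rw [hcdef, Perm.mul_apply, h₁, hhi2]
    have hc2 : c (some 0) = none := by rw [hcdef, Perm.mul_apply, h₂, hhi1]
    have hcx : ∀ x ∈ Cfsg.Spor.M22, c * x = x * c := by
      intro x hx
      have h3 := hconj x hx
      have h4 : h⁻¹ * (g * x * g⁻¹) * g = h⁻¹ * (h * x * h⁻¹) * g := by rw [h3]
      rw [hcdef]
      calc h⁻¹ * g * x = h⁻¹ * (g * x * g⁻¹) * g := by group
        _ = h⁻¹ * (h * x * h⁻¹) * g := h4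
        _ = x * (h⁻¹ * g) := by group
    refine no_swap c hcM hc2 ?_
    intro p hp1 hp2
    by_contra hne
    have hq1 : c p ≠ none := fun h5 => hp2 (c.injective (h5.trans hc2.symm))
    have hq2 : c p ≠ some 0 := fun h5 => hp1 (c.injective (h5.trans hc1.symm))
    obtain ⟨r, hr⟩ : ∃ r : GolayPt, r ∉ ({none, some 0, p, c p} : Finset GolayPt) := by
      by_contra hcon
      push Not at hcon
      have h6 : (Finset.univ : Finset GolayPt) ⊆ {none, some 0, p, c p} := fun r _ => hcon r
      have h7 := Finset.card_le_card h6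
      have h8 : ({none, some 0, p, c p} : Finset GolayPt).card ≤ 4 := Finset.card_le_four
      have h9 : (Finset.univ : Finset GolayPt).card = 24 := by
        rw [Finset.card_univ]; rfl
      omega
    simp only [Finset.mem_insert, Finset.mem_singleton, not_or] at hr
    obtain ⟨x, hx, hxp, hxq⟩ := exists_fix_move hp1 hp2 hq1 hq2 hr.1 hr.2.1 (Ne.symm hne)
      (Ne.symm hr.2.2.1) (Ne.symm hr.2.2.2)
    have h3 := congrArg (fun f : Perm GolayPt => f p) (hcx x hx)
    simp only [Perm.mul_apply] at h3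
    rw [hxp, hxq] at h3
    exact hr.2.2.2 h3.symm

end Cfsg.Agent.S5599
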