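import Cfsg.Statements.S5618
import Cfsg.Agent.S0384
import Cfsg.Agent.S0363
set_option linter.all false

set_option autoImplicit false
open scoped Pointwise
open Cfsg

namespace Cfsg.Agent.S5618

/-- An element of the dodecad stabiliser fixing five points of the dodecad is trivial. -/
theorem eq_one_of_fix_five {d : Finset GolayPt} (hd : d ∈ dodecads) {s : Finset GolayPt}
    (hs : s ⊆ d) (hc : 5 ≤ s.card) {g : M24} (hg : g ∈ MulAction.stabilizer M24 d)
    (hfix : ∀ p ∈ s, (g : Equiv.Perm GolayPt) p = p) : g = 1 := by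
  obtain ⟨s', hs', hc'⟩ := Finset.exists_subset_card_eq hc
  let x : Fin 5 ↪ GolayPt :=
    (s'.equivFinOfCardEq hc').symm.toEmbedding.trans (Function.Embedding.subtype _)
  have hx : ∀ i, x i ∈ s' := fun i => ((s'.equivFinOfCardEq hc').symm i).2
  obtain ⟨h, -, hu⟩ := S0384.result d hd x x (fun i => hs (hs' (hx i))) (fun i => hs (hs' (hx i)))
  have h1 := hu ⟨g, hg⟩ (fun i => hfix _ (hs' (hx i)))
  have h2 := hu 1 (fun i => rfl)
  exact congrArg Subtype.val (h1.trans h2.symm)

theorem smul_mem_octads (g : M24) {o : Finset GolayPt} (ho : o ∈ octads) :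
    (g : Equiv.Perm GolayPt) • o ∈ octads := by
  refine ⟨?_, by rw [Finset.card_smul_finset]; exact ho.2⟩
  have h := MulAction.mem_stabilizer_iff.mp g.2
  rw [← h]
  exact Set.smul_mem_smul_set ho.1

theorem smul_mem_hexadsOn {d C : Finset GolayPt} (hC : C ∈ hexadsOn d) {g : M24}
    (hg : g ∈ MulAction.stabilizer M24 d) : (g : Equiv.Perm GolayPt) • C ∈ hexadsOn d := by
  obtain ⟨hc, o, ho, rfl⟩ := hC
  refine ⟨by rw [Finset.card_smul_finset]; exact hc, (g : Equiv.Perm GolayPt) • o,
    smul_mem_octads g ho, ?_⟩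
  have hg' : (g : Equiv.Perm GolayPt) • d = d := hg
  rw [Finset.smul_finset_inter, hg']

theorem hexad_unique {d C C' s : Finset GolayPt} (hC : C ∈ hexadsOn d) (hC' : C' ∈ hexadsOn d)
    (hs : s.card = 5) (h : s ⊆ C) (h' : s ⊆ C') : C = C' := by
  obtain ⟨-, o, ho, rfl⟩ := hC
  obtain ⟨-, o', ho', rfl⟩ := hC'
  obtain ⟨b, -, hb⟩ := S0363.result.2 s hs
  have h1 := hb o ⟨ho, fun p hp => (Finset.mem_inter.1 (h hp)).1⟩
  have h2 := hb o' ⟨ho', fun p hp => (Finset.mem_inter.1 (h' hp)).1⟩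
  rw [h1, h2]

theorem mem_iff_of_smul_eq {σ : Equiv.Perm GolayPt} {C : Finset GolayPt} (h : σ • C = C)
    (x : GolayPt) : σ x ∈ C ↔ x ∈ C := by
  conv_lhs => rw [← h]
  exact Finset.smul_mem_smul_finset_iff σ

/-- The restriction to `C`. -/
def res (d C : Finset GolayPt) :
    ↥(MulAction.stabilizer M24 d ⊓ MulAction.stabilizer M24 C) →* Equiv.Perm {p // p ∈ C} where
  toFun g := ((g : M24) : Equiv.Perm GolayPt).subtypePerm
    (fun x => mem_iff_of_smul_eq (Subgroup.mem_inf.1 g.2).2 x)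
  map_one' := by
    ext x
    rfl
  map_mul' g h := by
    ext x
    rfl

theorem res_apply {d C : Finset GolayPt}
    (g : ↥(MulAction.stabilizer M24 d ⊓ MulAction.stabilizer M24 C)) (x : {p // p ∈ C}) :
    ((res d C g x : {p // p ∈ C}) : GolayPt) = ((g : M24) : Equiv.Perm GolayPt) x := rfl

theorem sub_of_hexad {d C : Finset GolayPt} (hC : C ∈ hexadsOn d) : C ⊆ d := by
  obtain ⟨-, o, -, rfl⟩ := hC
  exact Finset.inter_subset_right

theorem res_injective {d C : Finset GolayPt} (hd : d ∈ dodecads) (hC : C ∈ hexadsOn d) :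
    Function.Injective (res d C) := by
  rw [injective_iff_map_eq_one]
  intro g hg
  apply Subtype.ext
  refine eq_one_of_fix_five hd (sub_of_hexad hC) (by rw [hC.1]; norm_num) (Subgroup.mem_inf.1 g.2).1 ?_
  intro p hp
  have h := res_apply g ⟨p, hp⟩
  rw [hg] at h
  exact h.symm

theorem res_surjective {d C : Finset GolayPt} (hd : d ∈ dodecads) (hC : C ∈ hexadsOn d) :
    Function.Surjective (res d C) := by
  intro σ
  let e : {p // p ∈ C} ≃ Fin 6 := C.equivFinOfCardEq hC.1
  let x : Fin 5 ↪ GolayPt :=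
    (Fin.castSuccEmb.trans e.symm.toEmbedding).trans (Function.Embedding.subtype _)
  let y : Fin 5 ↪ GolayPt :=
    (Fin.castSuccEmb.trans (e.symm.trans σ).toEmbedding).trans
      (Function.Embedding.subtype _)
  have hx : ∀ i, x i ∈ C := fun i => (e.symm _).2
  have hy : ∀ i, y i ∈ C := fun i => (σ (e.symm _)).2
  have hsub := sub_of_hexad hC
  obtain ⟨g, hg, -⟩ := S0384.result d hd x y (fun i => hsub (hx i)) (fun i => hsub (hy i))
  have hgC : ((g : M24) : Equiv.Perm GolayPt) • C = C := by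
    apply (hexad_unique (s := Finset.univ.map y) hC (smul_mem_hexadsOn hC g.2) ?_ ?_ ?_).symm
    · rw [Finset.card_map, Finset.card_univ, Fintype.card_fin]
    · intro p hp
      obtain ⟨i, -, rfl⟩ := Finset.mem_map.1 hp
      exact hy i
    · intro p hp
      obtain ⟨i, -, rfl⟩ := Finset.mem_map.1 hp
      rw [← hg i]
      exact Finset.mem_smul_finset.2 ⟨x i, hx i, rfl⟩
  refine ⟨⟨g, Subgroup.mem_inf.2 ⟨g.2, hgC⟩⟩, ?_⟩
  set k : ↥(MulAction.stabilizer M24 d ⊓ MulAction.stabilizer M24 C) :=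
    ⟨g, Subgroup.mem_inf.2 ⟨g.2, hgC⟩⟩ with hk
  have key : ∀ i : Fin 5, res d C k (e.symm i.castSucc) = σ (e.symm i.castSucc) := by
    intro i
    apply Subtype.ext
    rw [res_apply]
    exact hg i
  have hcomp : (res d C k)⁻¹ * σ = 1 := by
    -- a permutation fixing five of six points is trivial
    have hfix : ∀ i : Fin 5, ((res d C k)⁻¹ * σ) (e.symm i.castSucc) = e.symm i.castSucc := by
      intro i
      rw [Equiv.Perm.mul_apply, ← key i]
      exact Equiv.symm_apply_apply _ _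
    set τ := (res d C k)⁻¹ * σ with hτ
    have hlast : τ (e.symm (Fin.last 5)) = e.symm (Fin.last 5) := by
      by_contra hne
      obtain ⟨j, hj⟩ : ∃ j, e (τ (e.symm (Fin.last 5))) = j := ⟨_, rfl⟩
      rcases Fin.eq_castSucc_or_eq_last j with ⟨i, rfl⟩ | rfl
      · have h1 : τ (e.symm (Fin.last 5)) = e.symm i.castSucc := by
          rw [← hj, Equiv.symm_apply_apply]
        have h2 : τ (e.symm (Fin.last 5)) = τ (e.symm i.castSucc) := h1.trans (hfix i).symm
        have h3 := e.symm.injective (τ.injective h2)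
        exact absurd h3.symm (Fin.castSucc_lt_last i).ne
      · exact hne (by rw [← e.symm_apply_eq.2 hj.symm])
    ext1 z
    obtain ⟨j, rfl⟩ := e.symm.surjective z
    rcases Fin.eq_castSucc_or_eq_last j with ⟨i, rfl⟩ | rfl
    · exact hfix i
    · exact hlast
  exact (inv_mul_eq_one.1 hcomp)

/-- For a dodecad d of the length-24 code and a hexad C on it (a 6-point intersection of d with an octad): the joint stabiliser of d and C in the code's group is isomorphic to the symmetric group of degree 6, and it acts faithfully both on the six points of C and on the six points of d outside C. -/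
theorem result (d : Finset Cfsg.GolayPt) (hd : d ∈ Cfsg.dodecads) (C : Finset Cfsg.GolayPt) (hC : C ∈ Cfsg.hexadsOn d) : Nonempty (↥(MulAction.stabilizer Cfsg.M24 d ⊓ MulAction.stabilizer Cfsg.M24 C) ≃* Equiv.Perm (Fin 6)) ∧ (∀ g ∈ MulAction.stabilizer Cfsg.M24 d ⊓ MulAction.stabilizer Cfsg.M24 C, (∀ p ∈ C, ((g : ↥Cfsg.M24) : Equiv.Perm Cfsg.GolayPt) p = p) → g = 1) ∧ ∀ g ∈ MulAction.stabilizer Cfsg.M24 d ⊓ MulAction.stabilizer Cfsg.M24 C, (∀ p ∈ d \ C, ((g : ↥Cfsg.M24) : Equiv.Perm Cfsg.GolayPt) p = p) → g = 1 := by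
  refine ⟨⟨(MulEquiv.ofBijective (res d C) ⟨res_injective hd hC, res_surjective hd hC⟩).trans
    (C.equivFinOfCardEq hC.1).permCongrHom⟩, ?_, ?_⟩
  · intro g hg hfix
    exact eq_one_of_fix_five hd (sub_of_hexad hC) (by rw [hC.1]; norm_num) (Subgroup.mem_inf.1 hg).1
      hfix
  · intro g hg hfix
    have hcard : (d \ C).card = 6 := by
      rw [Finset.card_sdiff_of_subset (sub_of_hexad hC), hC.1]
      have : d.card = 12 := hd.2
      omega
    exact eq_one_of_fix_five hd Finset.sdiff_subset (by rw [hcard]; norm_num)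
      (Subgroup.mem_inf.1 hg).1 hfix

end Cfsg.Agent.S5618
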