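import Mathlib
import Cfsg.Agent.LieClassical.OrthCore
import Cfsg.Agent.H890.SpIndex
import Cfsg.Statements.S5712
import Cfsg.Agent.LieClassical.OrthFinite
import Cfsg.Agent.LieClassical.OrthForms
import Cfsg.Agent.LieClassical.SympTransvection
import Cfsg.Agent.LieClassical.SpFourTwo
import Cfsg.Agent.Lib.HallHigman
set_option linter.all false

-- part: H890/SpCore
section
/-!
Core of S5712 (helper890): subgroups of a symplectic group in characteristic two containing a large
subgroup of `O₂` of the stabiliser of a vector.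

`Ctx` : a symplectic space `(V, B)` over a finite field of characteristic two and a subgroup `L` of its
isometry group.  `Has a w c` : `L` contains `v ↦ v + B v a • w + B v w • a + (c * B v a) • a`.
`A` : the set of nonzero `a` such that for every `w ⊥ a` some `Has a w c` holds.
-/

set_option autoImplicit false

namespace Cfsg.Agent.H890.SpCore

/-- A symplectic space in characteristic two with a group of isometries. -/
structure Ctx (F V : Type*) [Field F] [AddCommGroup V] [Module F V] where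
  B : LinearMap.BilinForm F V
  alt : ∀ v, B v v = 0
  nd : ∀ x, (∀ y, B x y = 0) → x = 0
  L : Subgroup (V ≃ₗ[F] V)
  inv : ∀ g ∈ L, ∀ u v, B (g u) (g v) = B u v
  two : (2 : F) = 0

variable {F V : Type*} [Field F] [AddCommGroup V] [Module F V]

namespace Ctx

variable (S : Ctx F V)

include S in
theorem neg_eq (x : F) : -x = x := by
  linear_combination (-x) * S.two

include S in
theorem add_self (x : F) : x + x = 0 := by
  linear_combination x * S.two

include S in
theorem vadd_self (v : V) : v + v = 0 := by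
  have : v + v = (2 : F) • v := by rw [two_smul]
  rw [this, S.two, zero_smul]

theorem symm (u v : V) : S.B u v = S.B v u := by
  have h := S.alt (u + v)
  simp only [map_add, LinearMap.add_apply, S.alt, zero_add, add_zero] at h
  have h2 : S.B u v + S.B v u = 0 := by linear_combination h
  have := eq_neg_of_add_eq_zero_left h2
  rw [this, S.neg_eq]

theorem add_left (u u' v : V) : S.B (u + u') v = S.B u v + S.B u' v := by
  rw [map_add, LinearMap.add_apply]

theorem add_right (u v v' : V) : S.B u (v + v') = S.B u v + S.B u v' := by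
  rw [map_add]

theorem smul_left (c : F) (u v : V) : S.B (c • u) v = c * S.B u v := by
  rw [map_smul, LinearMap.smul_apply, smul_eq_mul]

theorem smul_right (c : F) (u v : V) : S.B u (c • v) = c * S.B u v := by
  rw [map_smul, smul_eq_mul]

include S in
theorem eq_of_add_zero {x y : F} (h : x + y = 0) : x = y := by
  have := eq_neg_of_add_eq_zero_left h
  rw [this, S.neg_eq]

include S in
theorem veq_of_add_zero {x y : V} (h : x + y = 0) : x = y := by
  have h2 := S.vadd_self y
  rw [eq_neg_of_add_eq_zero_left h]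
  exact neg_eq_of_add_eq_zero_left h2

/-- `L` contains the map `v ↦ v + B v a • w + B v w • a + (c * B v a) • a`. -/
def Has (a w : V) (c : F) : Prop :=
  ∃ g ∈ S.L, ∀ v, g v = v + S.B v a • w + S.B v w • a + (c * S.B v a) • a

theorem Has.conj {a w : V} {c : F} (h : S.Has a w c) {g : V ≃ₗ[F] V} (hg : g ∈ S.L) :
    S.Has (g a) (g w) c := by
  obtain ⟨x, hx, hxv⟩ := h
  refine ⟨g * x * g⁻¹, S.L.mul_mem (S.L.mul_mem hg hx) (S.L.inv_mem hg), fun v => ?_⟩
  obtain ⟨v, rfl⟩ := g.surjective v
  have h1 : (g * x * g⁻¹) (g v) = g (x v) := by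
    show g (x (g.symm (g v))) = _
    rw [LinearEquiv.symm_apply_apply]
  rw [h1, hxv, S.inv g hg, S.inv g hg]
  simp only [map_add, map_smul]

theorem Has.mul {a w w' : V} {c c' : F} (haw : S.B a w = 0) (haw' : S.B a w' = 0)
    (h : S.Has a w c) (h' : S.Has a w' c') : S.Has a (w + w') (c + c' + S.B w w') := by
  obtain ⟨x, hx, hxv⟩ := h
  obtain ⟨y, hy, hyv⟩ := h'
  refine ⟨x * y, S.L.mul_mem hx hy, fun v => ?_⟩
  show x (y v) = _
  have hwa : S.B w a = 0 := by rw [S.symm, haw]
  have hwa' : S.B w' a = 0 := by rw [S.symm, haw']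
  have hs : S.B w' w = S.B w w' := S.symm _ _
  rw [hxv, hyv]
  simp only [S.add_left, S.add_right, S.smul_left, S.alt, haw, hwa', hs]
  module

theorem Has.smul_iff {a w : V} {c l : F} :
    S.Has (l • a) w c ↔ S.Has a (l • w) (l ^ 2 * c) := by
  constructor
  · rintro ⟨x, hx, hxv⟩
    refine ⟨x, hx, fun v => ?_⟩
    rw [hxv]
    simp only [S.smul_right]
    module
  · rintro ⟨x, hx, hxv⟩
    refine ⟨x, hx, fun v => ?_⟩
    rw [hxv]
    simp only [S.smul_right]
    module

theorem Has.zero (a : V) : S.Has a 0 0 := by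
  refine ⟨1, S.L.one_mem, fun v => ?_⟩
  show v = _
  simp

theorem Has.add_smul {a w : V} {c : F} (l : F) (h : S.Has a w c) : S.Has a (w + l • a) c := by
  obtain ⟨x, hx, hxv⟩ := h
  refine ⟨x, hx, fun v => ?_⟩
  rw [hxv, S.add_right, S.smul_right]
  have h2 : (2 : F) • a = 0 := by rw [S.two, zero_smul]
  have e : v + S.B v a • (w + l • a) + (S.B v w + l * S.B v a) • a + (c * S.B v a) • a
      = v + S.B v a • w + S.B v w • a + (c * S.B v a) • a + (l * S.B v a) • ((2 : F) • a) := by
    module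
  rw [e, h2, smul_zero, add_zero]

/-- Uniqueness of `c` up to transvections. -/
theorem Has.diff {a w : V} {c c' : F} (haw : S.B a w = 0) (h : S.Has a w c) (h' : S.Has a w c') :
    S.Has a 0 (c + c') := by
  have := h.mul S haw haw h'
  rwa [S.vadd_self, S.alt, add_zero] at this

/-- The good vectors. -/
def A (a : V) : Prop := a ≠ 0 ∧ ∀ w, S.B a w = 0 → ∃ c, S.Has a w c

theorem A.map {a : V} (h : S.A a) {g : V ≃ₗ[F] V} (hg : g ∈ S.L) : S.A (g a) := by
  refine ⟨fun h0 => h.1 ?_, fun w hw => ?_⟩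
  · exact (LinearEquiv.map_eq_zero_iff g).1 h0
  · obtain ⟨w, rfl⟩ := g.surjective w
    rw [S.inv g hg] at hw
    obtain ⟨c, hc⟩ := h.2 w hw
    exact ⟨c, hc.conj S hg⟩

theorem A.smul {a : V} (h : S.A a) {l : F} (hl : l ≠ 0) : S.A (l • a) := by
  refine ⟨smul_ne_zero hl h.1, fun w hw => ?_⟩
  rw [S.smul_left] at hw
  have hw' : S.B a w = 0 := (mul_eq_zero.1 hw).resolve_left hl
  obtain ⟨c, hc⟩ := h.2 (l • w) (by rw [S.smul_right, hw', mul_zero])
  refine ⟨(l ^ 2)⁻¹ * c, ?_⟩
  rw [Has.smul_iff]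
  rwa [← mul_assoc, mul_inv_cancel₀ (pow_ne_zero 2 hl), one_mul]

theorem A.smul_iff {a : V} {l : F} (hl : l ≠ 0) : S.A (l • a) ↔ S.A a := by
  refine ⟨fun h => ?_, fun h => h.smul S hl⟩
  have := h.smul S (inv_ne_zero hl)
  rwa [smul_smul, inv_mul_cancel₀ hl, one_smul] at this

/-- Moving a vector of `A` by an element of `X_a`. -/
theorem A.move {a w : V} {c : F} (h : S.Has a w c) {v : V} (hv : S.A v) :
    S.A (v + S.B v a • w + S.B v w • a + (c * S.B v a) • a) := by
  obtain ⟨x, hx, hxv⟩ := h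
  rw [← hxv]
  exact hv.map S hx

/-! ### Linear algebra of the form -/

theorem exists_ne {x : V} (hx : x ≠ 0) : ∃ y, S.B x y ≠ 0 := by
  by_contra h
  push Not at h
  exact hx (S.nd x h)

theorem exists_eq {x : V} (hx : x ≠ 0) (c : F) : ∃ y, S.B x y = c := by
  obtain ⟨y, hy⟩ := S.exists_ne hx
  refine ⟨(c * (S.B x y)⁻¹) • y, ?_⟩
  rw [S.smul_right, mul_assoc, inv_mul_cancel₀ hy, mul_one]

/-- two independent linear conditions -/
theorem exists_eq_two {x y : V} (hx : x ≠ 0) (hy : ∀ l : F, y ≠ l • x) (c d : F) :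
    ∃ z, S.B x z = c ∧ S.B y z = d := by
  -- first a vector perpendicular to `x` and not to `y`
  have h1 : ∃ z, S.B x z = 0 ∧ S.B y z ≠ 0 := by
    by_contra h
    push Not at h
    obtain ⟨u, hu⟩ := S.exists_eq hx 1
    apply hy (S.B y u)
    have h2 : y + -(S.B y u • x) = 0 := by
      apply S.nd
      intro z
      have h3 := h (z + (-(S.B x z)) • u) (by rw [S.add_right, S.smul_right, hu]; ring)
      rw [S.add_right, S.smul_right] at h3
      rw [S.add_left, map_neg, LinearMap.neg_apply, S.smul_left]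
      linear_combination h3
    rw [← sub_eq_add_neg, sub_eq_zero] at h2
    exact h2
  obtain ⟨z, hz, hz'⟩ := h1
  obtain ⟨u, hu⟩ := S.exists_eq hx c
  refine ⟨u + ((d - S.B y u) * (S.B y z)⁻¹) • z, ?_, ?_⟩
  · rw [S.add_right, S.smul_right, hu, hz]; ring
  · rw [S.add_right, S.smul_right, mul_assoc, inv_mul_cancel₀ hz']; ring

/-- For a nonzero element of the hyperplane orthogonal to `a`: independence from `B`. -/
theorem ne_smul_of_B {a x z : V} (h1 : S.B a z = 0) (h2 : S.B x z ≠ 0) (l : F) : x ≠ l • a := by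
  rintro rfl
  apply h2
  rw [S.smul_left, h1, mul_zero]

/-! ### Perpendicular pairs in `A` -/

/-- If `a, b ∈ A` are perpendicular and independent, `a + l b ∈ A`. -/
theorem A.add_of_perp {a b : V} (ha : S.A a) (hb : S.A b) (hab : S.B a b = 0)
    (hind : ∀ l : F, a ≠ l • b) (l : F) : S.A (a + l • b) := by
  obtain ⟨w, hw1, hw2⟩ := S.exists_eq_two hb.1 hind 0 l
  obtain ⟨c, hc⟩ := hb.2 w hw1
  have := ha.move S hc
  rwa [hab, hw2, zero_smul, mul_zero, zero_smul, add_zero, add_zero] at this

/-- If `a, b ∈ A` are perpendicular and independent, every nonzero vector of their span is in `A`. -/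
theorem A.span {a b : V} (ha : S.A a) (hb : S.A b) (hab : S.B a b = 0)
    (hind : ∀ l : F, a ≠ l • b) {k l : F} (h : k • a + l • b ≠ 0) : S.A (k • a + l • b) := by
  by_cases hk : k = 0
  · subst hk
    rw [zero_smul, zero_add] at h ⊢
    refine hb.smul S ?_
    rintro rfl
    exact h (zero_smul _ _)
  · have h1 := (ha.add_of_perp S hb hab hind (k⁻¹ * l)).smul S hk
    rwa [smul_add, smul_smul, ← mul_assoc, mul_inv_cancel₀ hk, one_mul] at h1

omit S in
/-- symmetric version of independence -/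
theorem ind_symm {a b : V} (hb : b ≠ 0) (hind : ∀ l : F, a ≠ l • b) (l : F) : b ≠ l • a := by
  rintro h
  by_cases hl : l = 0
  · subst hl
    exact hb (by rw [h, zero_smul])
  · apply hind l⁻¹
    rw [h, smul_smul, inv_mul_cancel₀ hl, one_smul]

end Ctx

end Cfsg.Agent.H890.SpCore
end

-- part: H890/SpCaseTwo
section
/-!
S5712 (helper890), second case: a hyperbolic line with at least three points in `A`.
Then `A` contains all nonzero vectors, and for `|F| > 2` the group `L` contains all transvections.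
-/

set_option autoImplicit false

namespace Cfsg.Agent.H890.SpCore

variable {F V : Type*} [Field F] [AddCommGroup V] [Module F V]

namespace Ctx

variable (S : Ctx F V)

/-- Coefficients of a vector in the hyperbolic plane `⟨a, b⟩` plus its orthogonal space. -/
theorem coef_eq {a b w : V} (hab : S.B a b = 1) (haw : S.B a w = 0) (hbw : S.B b w = 0)
    (hw : w ≠ 0) {x y z x' y' z' : F}
    (h : x • a + y • b + z • w = x' • a + y' • b + z' • w) : x = x' ∧ y = y' ∧ z = z' := by
  have hba : S.B b a = 1 := by rw [S.symm, hab]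
  have h1 := congrArg (S.B b) h
  have h2 := congrArg (S.B a) h
  simp only [S.add_right, S.smul_right, S.alt, hab, hba, haw, hbw] at h1 h2
  have hx : x = x' := by linear_combination h1
  have hy : y = y' := by linear_combination h2
  subst hx hy
  have h3 : z • w = z' • w := add_left_cancel h
  have h4 : (z - z') • w = 0 := by rw [sub_smul, h3, sub_self]
  rcases smul_eq_zero.1 h4 with h5 | h5
  · exact ⟨rfl, rfl, sub_eq_zero.1 h5⟩
  · exact absurd h5 hw

/-- **Step 1**: a hyperbolic line with three points of `A` gives a perpendicular pair in `A`. -/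
theorem exists_perp_pair [Finite F] {a b w : V} {t : F} (ha : S.A a) (hb : S.A b)
    (hb' : S.A (b + t • a)) (hab : S.B a b = 1) (ht : t ≠ 0) (hw : w ≠ 0)
    (haw : S.B a w = 0) (hbw : S.B b w = 0) :
    ∃ p r, S.A p ∧ S.A r ∧ S.B p r = 0 ∧ ∀ l : F, p ≠ l • r := by
  have hba : S.B b a = 1 := by rw [S.symm, hab]
  have hwa : S.B w a = 0 := by rw [S.symm, haw]
  have hwb : S.B w b = 0 := by rw [S.symm, hbw]
  by_cases hD : ∃ m : F, m ≠ 0 ∧ S.Has a (m • w) 0
  · obtain ⟨m, hm, hH⟩ := hD
    have h1 := hb.move S hH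
    rw [hba, S.smul_right, hbw] at h1
    have e : b + (1 : F) • m • w + (m * 0) • a + (0 * 1 : F) • a = b + m • w := by module
    rw [e] at h1
    refine ⟨b + m • w, b, h1, hb, ?_, ?_⟩
    · rw [S.add_left, S.smul_left, S.alt, hwb]; ring
    · intro l hl
      have h2 : (0 : F) • a + (1 : F) • b + m • w = (0 : F) • a + l • b + (0 : F) • w := by
        have : (0 : F) • a + (1 : F) • b + m • w = b + m • w := by module
        rw [this, hl]; module
      exact hm (S.coef_eq hab haw hbw hw h2).2.2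
  · push Not at hD
    obtain ⟨d, hd⟩ := hb.2 w hbw
    have h1 := ha.move S hd
    rw [hab, haw] at h1
    have e : a + (1 : F) • w + (0 : F) • b + (d * 1) • b = (1 : F) • a + d • b + (1 : F) • w := by
      module
    rw [e] at h1
    by_cases hd0 : d = 0
    · subst hd0
      refine ⟨_, a, h1, ha, ?_, ?_⟩
      · simp only [S.add_left, S.smul_left, S.alt, hwa]; ring
      · intro l hl
        have h2 : (1 : F) • a + (0 : F) • b + (1 : F) • w = l • a + (0 : F) • b + (0 : F) • w := by
          rw [hl]; module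
        exact one_ne_zero (S.coef_eq hab haw hbw hw h2).2.2
    · choose φ hφ using fun m : F => ha.2 (m • w) (by rw [S.smul_right, haw, mul_zero])
      have hinj : Function.Injective φ := by
        intro m m' hmm
        have h2 := (hφ m).mul S (by rw [S.smul_right, haw, mul_zero])
          (by rw [S.smul_right, haw, mul_zero]) (hφ m')
        rw [hmm, S.add_self, S.smul_left, S.smul_right, S.alt, mul_zero, mul_zero, add_zero,
          ← add_smul] at h2
        by_contra hne
        exact hD _ (fun h0 => hne (S.eq_of_add_zero h0)) h2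
      have hsurj : Function.Surjective φ := Finite.surjective_of_injective hinj
      obtain ⟨m, hm⟩ := hsurj d⁻¹
      obtain ⟨m', hm'⟩ := hsurj (d⁻¹ + t)
      have k1 := hb.move S (hφ m)
      rw [hba, S.smul_right, hbw, hm] at k1
      have e1 : b + (1 : F) • m • w + (m * 0) • a + (d⁻¹ * 1 : F) • a =
        d⁻¹ • a + (1 : F) • b + m • w := by module
      rw [e1] at k1
      have k2 := hb'.move S (hφ m')
      rw [S.add_left, S.add_left, S.smul_left, S.smul_left, hba, S.alt, S.smul_right, S.smul_right,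
        hbw, haw, hm'] at k2
      have e2 : b + t • a + (1 + t * 0 : F) • m' • w + (m' * 0 + t * (m' * 0)) • a +
          ((d⁻¹ + t) * (1 + t * 0) : F) • a =
        d⁻¹ • a + (1 : F) • b + m' • w + (t + t) • a := by module
      rw [e2, S.add_self, zero_smul, add_zero] at k2
      have hperp : ∀ μ : F, S.B ((1 : F) • a + d • b + (1 : F) • w) (d⁻¹ • a + (1 : F) • b + μ • w)
          = 0 := by
        intro μ
        simp only [S.add_left, S.add_right, S.smul_left, S.smul_right, S.alt, hab, hba, haw, hwa,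
          hbw, hwb]
        have h5 := mul_inv_cancel₀ hd0
        linear_combination h5 + S.two
      by_cases hi1 : ∀ l : F, (1 : F) • a + d • b + (1 : F) • w ≠ l • (d⁻¹ • a + (1 : F) • b + m • w)
      · exact ⟨_, _, h1, k1, hperp m, hi1⟩
      by_cases hi2 : ∀ l : F, (1 : F) • a + d • b + (1 : F) • w ≠ l • (d⁻¹ • a + (1 : F) • b + m' • w)
      · exact ⟨_, _, h1, k2, hperp m', hi2⟩
      exfalso
      push Not at hi1 hi2
      obtain ⟨l, hl⟩ := hi1
      obtain ⟨l', hl'⟩ := hi2
      have c1 : (1 : F) • a + d • b + (1 : F) • w = (l * d⁻¹) • a + l • b + (l * m) • w := by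
        rw [hl]; module
      have c2 : (1 : F) • a + d • b + (1 : F) • w = (l' * d⁻¹) • a + l' • b + (l' * m') • w := by
        rw [hl']; module
      obtain ⟨-, e4, e5⟩ := S.coef_eq hab haw hbw hw c1
      obtain ⟨-, e6, e7⟩ := S.coef_eq hab haw hbw hw c2
      rw [← e4] at e5
      rw [← e6] at e7
      have e8 : m = m' := mul_left_cancel₀ hd0 (by rw [← e5, ← e7])
      rw [e8, hm'] at hm
      apply ht
      linear_combination hm

/-- The elementary elements on a perpendicular pair. -/
theorem exists_elem {a b : V} (ha : S.A a) (hab : S.B a b = 0)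
    (hind : ∀ l : F, b ≠ l • a) (l : F) : ∃ x ∈ S.L, x a = a ∧ x b = b + l • a := by
  obtain ⟨w, hw1, hw2⟩ := S.exists_eq_two ha.1 hind 0 l
  obtain ⟨c, x, hx, hxv⟩ := ha.2 w hw1
  refine ⟨x, hx, ?_, ?_⟩
  · rw [hxv, S.alt, hw1]; module
  · have hba : S.B b a = 0 := by rw [S.symm, hab]
    rw [hxv, hba, hw2]; module

/-- Weyl elements on a perpendicular pair. -/
theorem exists_weyl {a b : V} (ha : S.A a) (hb : S.A b) (hab : S.B a b = 0)
    (hind : ∀ l : F, a ≠ l • b) {l : F} (hl : l ≠ 0) :
    ∃ g ∈ S.L, g a = l⁻¹ • b ∧ g b = l • a := by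
  have hba : S.B b a = 0 := by rw [S.symm, hab]
  have hind' := ind_symm hb.1 hind
  obtain ⟨x, hx, hxa, hxb⟩ := S.exists_elem ha hab hind' l
  obtain ⟨y, hy, hyb, hya⟩ := S.exists_elem hb hba hind l⁻¹
  refine ⟨x * y * x, S.L.mul_mem (S.L.mul_mem hx hy) hx, ?_, ?_⟩
  · show x (y (x a)) = _
    rw [hxa, hya, map_add, map_smul, hxa, hxb, smul_add, smul_smul, inv_mul_cancel₀ hl, one_smul]
    have : a + (l⁻¹ • b + a) = (a + a) + l⁻¹ • b := by abel
    rw [this, S.vadd_self, zero_add]
  · show x (y (x b)) = _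
    rw [hxb, map_add, map_smul, hyb, hya, smul_add, smul_smul, mul_inv_cancel₀ hl, one_smul]
    have : b + (l • a + b) = (b + b) + l • a := by abel
    rw [this, S.vadd_self, zero_add, map_smul, hxa]

/-- Torus elements on a perpendicular pair. -/
theorem exists_torus {a b : V} (ha : S.A a) (hb : S.A b) (hab : S.B a b = 0)
    (hind : ∀ l : F, a ≠ l • b) {l : F} (hl : l ≠ 0) :
    ∃ g ∈ S.L, g a = l • a ∧ g b = l⁻¹ • b := by
  obtain ⟨g, hg, hga, hgb⟩ := S.exists_weyl ha hb hab hind hl
  obtain ⟨h, hh, hha, hhb⟩ := S.exists_weyl ha hb hab hind (one_ne_zero (α := F))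
  rw [inv_one, one_smul] at hha
  rw [one_smul] at hhb
  refine ⟨g * h, S.L.mul_mem hg hh, ?_, ?_⟩
  · show g (h a) = _
    rw [hha, hgb]
  · show g (h b) = _
    rw [hhb, hga]

include S in
theorem exists_sq [Finite F] (x : F) : ∃ y : F, y ^ 2 = x := by
  have : Fintype F := Fintype.ofFinite F
  have : CharP F 2 := CharTwo.of_one_ne_zero_of_two_eq_zero one_ne_zero S.two
  obtain ⟨y, hy⟩ := FiniteField.isSquare_of_char_two (ringChar.eq F 2) x
  exact ⟨y, by rw [hy, pow_two]⟩

theorem Has.torus {a b : V} (ha : S.A a) (hb : S.A b) (hab : S.B a b = 0)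
    (hind : ∀ l : F, a ≠ l • b) {l : F} (hl : l ≠ 0) {w : V} {c : F} {m : F}
    (h : S.Has a (m • b) c) (hw : w = m • b) : S.Has a w (l ^ 2 * c) := by
  obtain ⟨g, hg, hga, hgb⟩ := S.exists_torus ha hb hab hind hl
  have h1 := h.conj S hg
  have e : l • m • l⁻¹ • b = w := by
    rw [hw, smul_smul, smul_smul, mul_right_comm, mul_inv_cancel₀ hl, one_mul]
  rwa [hga, map_smul, hgb, Has.smul_iff, e] at h1

/-- **Step 4a**: one transvection at `a` gives all of them. -/
theorem Has.all [Finite F] {a b : V} (ha : S.A a) (hb : S.A b) (hab : S.B a b = 0)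
    (hind : ∀ l : F, a ≠ l • b) {s : F} (hs : s ≠ 0) (h : S.Has a 0 s) (s' : F) :
    S.Has a 0 s' := by
  by_cases hs' : s' = 0
  · rw [hs']; exact Has.zero S a
  obtain ⟨l, hl⟩ := S.exists_sq (s' * s⁻¹)
  have hl0 : l ≠ 0 := by
    rintro rfl
    rw [zero_pow two_ne_zero] at hl
    exact mul_ne_zero hs' (inv_ne_zero hs) hl.symm
  have h1 := Has.torus S ha hb hab hind hl0 (m := 0) (w := 0) (c := s) (by rwa [zero_smul])
    (by rw [zero_smul])
  rwa [hl, mul_assoc, inv_mul_cancel₀ hs, mul_one] at h1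

/-- **Step 4b**: without transvections at `a`, `c` vanishes on the perpendicular vectors of `A`. -/
theorem Has.eq_zero {a b : V} (ha : S.A a) (hb : S.A b) (hab : S.B a b = 0)
    (hind : ∀ l : F, a ≠ l • b) {l : F} (hl0 : l ≠ 0) (hl1 : l ≠ 1)
    (hT : ∀ s, S.Has a 0 s → s = 0) {m c : F} (h : S.Has a (m • b) c) : c = 0 := by
  have h1 := Has.torus S ha hb hab hind hl0 h rfl
  have h2 := hT _ (h.diff S (by rw [S.smul_right, hab, mul_zero]) h1)
  have h3 : (1 + l) ^ 2 * c = 0 := by linear_combination h2 + (l * c) * S.two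
  rcases mul_eq_zero.1 h3 with h4 | h4
  · exfalso
    have h5 : 1 + l = 0 := pow_eq_zero_iff two_ne_zero |>.1 h4
    exact hl1 (S.eq_of_add_zero h5).symm
  · exact h4

/-- **Step 5**: if `A` has perpendicular pairs, every nonzero `a` has a perpendicular independent
vector in `A`. -/
theorem exists_perp_of {p r a : V} (hp : S.A p) (hr : S.A r) (hpr : S.B p r = 0)
    (hind : ∀ l : F, p ≠ l • r) :
    ∃ x, S.A x ∧ S.B a x = 0 ∧ ∀ l : F, x ≠ l • a := by
  have hrp : S.B r p = 0 := by rw [S.symm, hpr]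
  by_cases h0 : S.B a p = 0 ∧ S.B a r = 0
  · obtain ⟨h1, h2⟩ := h0
    by_cases hpa : ∀ l : F, p ≠ l • a
    · exact ⟨p, hp, h1, hpa⟩
    · push Not at hpa
      obtain ⟨l, hl⟩ := hpa
      refine ⟨r, hr, h2, fun m hm => ?_⟩
      have hm0 : m ≠ 0 := by
        rintro rfl
        exact hr.1 (by rw [hm, zero_smul])
      apply hind (l * m⁻¹)
      rw [hm, smul_smul, mul_assoc, inv_mul_cancel₀ hm0, mul_one, hl]
  · have hne : S.B a r • p + S.B a p • r ≠ 0 := by
      intro h
      by_cases h1 : S.B a r = 0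
      · rw [h1, zero_smul, zero_add] at h
        rcases smul_eq_zero.1 h with h2 | h2
        · exact h0 ⟨h2, h1⟩
        · exact hr.1 h2
      · apply hind ((S.B a r)⁻¹ * S.B a p)
        have h2 := S.veq_of_add_zero h
        rw [mul_smul, ← h2, smul_smul, inv_mul_cancel₀ h1, one_smul]
    refine ⟨_, hp.span S hr hpr hind hne, ?_, ?_⟩
    · rw [S.add_right, S.smul_right, S.smul_right]
      linear_combination (S.B a r * S.B a p) * S.two
    · intro l hl
      have e1 : S.B p (S.B a r • p + S.B a p • r) = 0 := by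
        rw [S.add_right, S.smul_right, S.smul_right, S.alt, hpr]; ring
      have e2 : S.B r (S.B a r • p + S.B a p • r) = 0 := by
        rw [S.add_right, S.smul_right, S.smul_right, S.alt, hrp]; ring
      rw [hl, S.smul_right, S.symm p a] at e1
      rw [hl, S.smul_right, S.symm r a] at e2
      have hl0 : l ≠ 0 := by
        rintro rfl
        exact hne (by rw [hl, zero_smul])
      exact h0 ⟨(mul_eq_zero.1 e1).resolve_left hl0, (mul_eq_zero.1 e2).resolve_left hl0⟩

/-- **Step 5b**: a vector of `A` perpendicular to both members of a hyperbolic pair. -/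
theorem exists_perp_two {p r a b : V} (hp : S.A p) (hr : S.A r) (hpr : S.B p r = 0)
    (hind : ∀ l : F, p ≠ l • r) (ha : S.A a) (hab : S.B a b = 1) :
    ∃ y, S.A y ∧ S.B a y = 0 ∧ S.B b y = 0 ∧ ∀ l : F, y ≠ l • a := by
  obtain ⟨x, hx, hax, hxa⟩ := S.exists_perp_of (a := a) hp hr hpr hind
  have hba : S.B b a = 1 := by rw [S.symm, hab]
  have hxa' : S.B x a = 0 := by rw [S.symm, hax]
  refine ⟨x + S.B b x • a, hx.add_of_perp S ha hxa' hxa _, ?_, ?_, ?_⟩
  · rw [S.add_right, S.smul_right, S.alt, hax]; ring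
  · rw [S.add_right, S.smul_right, hba]
    linear_combination (S.B b x) * S.two
  · intro l hl
    apply hxa (l + S.B b x)
    rw [add_smul, ← hl, add_assoc, S.vadd_self, add_zero]

/-- **Steps 6 and 7**: for `|F| > 2`, all transvections with centre in `A` are in `L`. -/
theorem all_transvections [Finite F] {a b w : V} {t l : F} (ha : S.A a) (hb : S.A b)
    (hb' : S.A (b + t • a)) (hab : S.B a b = 1) (ht : t ≠ 0) (hw : w ≠ 0)
    (haw : S.B a w = 0) (hbw : S.B b w = 0) (hl0 : l ≠ 0) (hl1 : l ≠ 1) :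
    ∀ x, S.A x → ∀ s, S.Has x 0 s := by
  obtain ⟨p, r, hp, hr, hpr, hind⟩ := S.exists_perp_pair ha hb hb' hab ht hw haw hbw
  obtain ⟨y, hy, hay, hby, hya⟩ := S.exists_perp_two hp hr hpr hind ha hab
  have hya' : S.B y a = 0 := by rw [S.symm, hay]
  have hyb' : S.B y b = 0 := by rw [S.symm, hby]
  have hyb : ∀ l : F, y ≠ l • b := by
    intro l hl
    have h1 : S.B a y = l := by rw [hl, S.smul_right, hab, mul_one]
    rw [hay] at h1
    apply hy.1
    rw [hl, ← h1, zero_smul]
  have hbb' : S.B y (b + t • a) = 0 := by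
    rw [S.add_right, S.smul_right, hya', hyb']; ring
  have hyb2 : ∀ l : F, y ≠ l • (b + t • a) := by
    intro l hl
    have h1 : S.B a y = l := by
      rw [hl, S.smul_right, S.add_right, S.smul_right, S.alt, hab]; ring
    rw [hay] at h1
    apply hy.1
    rw [hl, ← h1, zero_smul]
  -- transvections at `y`
  have hyall : ∀ s, S.Has y 0 s := by
    by_cases hT : ∀ s, S.Has y 0 s → s = 0
    · exfalso
      obtain ⟨c1, hc1⟩ := hy.2 ((1 : F) • b) (by rw [S.smul_right, hyb']; ring)
      obtain ⟨c2, hc2⟩ := hy.2 ((1 : F) • (b + t • a)) (by rw [S.smul_right, hbb']; ring)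
      obtain ⟨c3, hc3⟩ := hy.2 (t • a) (by rw [S.smul_right, hya']; ring)
      have z1 := Has.eq_zero S hy hb hyb' hyb hl0 hl1 hT hc1
      have z2 := Has.eq_zero S hy hb' hbb' hyb2 hl0 hl1 hT hc2
      have z3 := Has.eq_zero S hy ha hya' hya hl0 hl1 hT hc3
      subst z1 z2 z3
      have h4 := hc1.mul S (by rw [S.smul_right, hyb']; ring) (by rw [S.smul_right, hbb']; ring) hc2
      have e4 : (1 : F) • b + (1 : F) • (b + t • a) = t • a + (b + b) := by module
      have hba : S.B b a = 1 := by rw [S.symm, hab]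
      rw [e4, S.vadd_self, add_zero, S.smul_left, S.smul_right, S.add_right, S.alt,
        S.smul_right, hba] at h4
      have h5 := hT _ (hc3.diff S (by rw [S.smul_right, hya']; ring) h4)
      apply ht
      linear_combination h5
    · push Not at hT
      obtain ⟨s, hs, hs0⟩ := hT
      exact Has.all S hy ha hya' hya hs0 hs
  -- move to any vector
  intro x hx s
  by_cases hxy : ∃ m : F, x = m • y
  · obtain ⟨m, rfl⟩ := hxy
    rw [Has.smul_iff, smul_zero]
    exact hyall _
  push Not at hxy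
  -- a vector of `⟨a, y⟩` perpendicular to `x`
  have key : ∀ z, S.A z → S.B x z = 0 → (∀ l : F, x ≠ l • z) → (∀ s, S.Has z 0 s) →
      S.Has x 0 s := by
    intro z hz hxz hind2 hzall
    obtain ⟨g, hg, hga, hgb⟩ := S.exists_weyl hx hz hxz hind2 (one_ne_zero (α := F))
    rw [one_smul] at hgb
    have := (hzall s).conj S hg
    rwa [hgb, map_zero] at this
  by_cases hxy0 : S.B x y = 0
  · exact key y hy hxy0 hxy hyall
  -- `z = a + m y`
  have haall : ∀ s, S.Has a 0 s := by
    intro s
    obtain ⟨g, hg, hga, hgb⟩ := S.exists_weyl hy ha hya' hya (one_ne_zero (α := F))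
    rw [inv_one, one_smul] at hga
    have := (hyall s).conj S hg
    rwa [hga, map_zero] at this
  have hay2 := ind_symm ha.1 hya
  have hz : S.A (a + ((S.B x a) * (S.B x y)⁻¹) • y) := ha.add_of_perp S hy hay hay2 _
  have hxz : S.B x (a + ((S.B x a) * (S.B x y)⁻¹) • y) = 0 := by
    rw [S.add_right, S.smul_right, mul_assoc, inv_mul_cancel₀ hxy0]
    linear_combination (S.B x a) * S.two
  have hzy : S.B (a + ((S.B x a) * (S.B x y)⁻¹) • y) y = 0 := by
    rw [S.add_left, S.smul_left, hay, S.alt]; ring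
  have hzyind : ∀ l : F, a + ((S.B x a) * (S.B x y)⁻¹) • y ≠ l • y := by
    intro l hl
    apply hay2 (l - (S.B x a) * (S.B x y)⁻¹)
    rw [sub_smul, ← hl, add_sub_cancel_right]
  have hzall : ∀ s, S.Has (a + ((S.B x a) * (S.B x y)⁻¹) • y) 0 s := by
    intro s
    obtain ⟨g, hg, hga, hgb⟩ := S.exists_weyl hz hy hzy hzyind (one_ne_zero (α := F))
    rw [one_smul] at hgb
    have := (hyall s).conj S hg
    rwa [hgb, map_zero] at this
  by_cases hxz2 : ∀ l : F, x ≠ l • (a + ((S.B x a) * (S.B x y)⁻¹) • y)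
  · exact key _ hz hxz hxz2 hzall
  · push Not at hxz2
    obtain ⟨l, hl⟩ := hxz2
    rw [hl, Has.smul_iff, smul_zero]
    exact hzall _

end Ctx

end Cfsg.Agent.H890.SpCore
end

-- part: H890/SpGen
section
/-!
S5712 (helper890): in the second case `A` consists of all nonzero vectors, and if `L` contains all
transvections it is the whole isometry group.
-/

set_option autoImplicit false

namespace Cfsg.Agent.H890.SpCore

variable {F V : Type*} [Field F] [AddCommGroup V] [Module F V]

namespace Ctx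

variable (S : Ctx F V)

theorem A_all {a b : V} (ha : S.A a) (hab : S.B a b = 1)
    (hKa : ∀ v, S.B a v = 1 → S.A v) (hKb : ∀ v, S.B b v = 1 → S.A v) :
    ∀ v, v ≠ 0 → S.A v := by
  have hba : S.B b a = 1 := by rw [S.symm, hab]
  have hKa' : ∀ v, S.B a v ≠ 0 → S.A v := by
    intro v hv
    have h1 := hKa ((S.B a v)⁻¹ • v) (by rw [S.smul_right, inv_mul_cancel₀ hv])
    rwa [A.smul_iff S (inv_ne_zero hv)] at h1
  have hKb' : ∀ v, S.B b v ≠ 0 → S.A v := by
    intro v hv
    have h1 := hKb ((S.B b v)⁻¹ • v) (by rw [S.smul_right, inv_mul_cancel₀ hv])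
    rwa [A.smul_iff S (inv_ne_zero hv)] at h1
  intro v hv
  by_cases h1 : S.B a v = 0
  swap
  · exact hKa' v h1
  by_cases h2 : S.B b v = 0
  swap
  · exact hKb' v h2
  have h3 : S.A (v + a) := hKb' _ (by rw [S.add_right, h2, hba, zero_add]; exact one_ne_zero)
  have h4 : S.B (v + a) a = 0 := by rw [S.add_left, S.alt, S.symm, h1, add_zero]
  have h5 : ∀ l : F, v + a ≠ l • a := by
    intro l hl
    have h6 : S.B b (v + a) = l := by rw [hl, S.smul_right, hba, mul_one]
    rw [S.add_right, h2, hba, zero_add] at h6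
    apply hv
    rw [← h6, one_smul] at hl
    exact left_eq_add.1 (by rw [add_comm]; exact hl.symm)
  have h6 := h3.add_of_perp S ha h4 h5 1
  rwa [one_smul, add_assoc, S.vadd_self, add_zero] at h6

/-- **`|F| > 2`, second case: `L` contains all transvections.** -/
theorem all_transvections' [Finite F] {a b w : V} {t l : F} (ha : S.A a) (hb : S.A b)
    (hb' : S.A (b + t • a)) (hab : S.B a b = 1) (ht : t ≠ 0) (hw : w ≠ 0)
    (haw : S.B a w = 0) (hbw : S.B b w = 0) (hl0 : l ≠ 0) (hl1 : l ≠ 1) :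
    ∀ x s, S.Has x 0 s := by
  have hall := S.all_transvections ha hb hb' hab ht hw haw hbw hl0 hl1
  have hba : S.B b a = 1 := by rw [S.symm, hab]
  have hQ : ∀ x, S.A x → ∀ w, S.B x w = 0 → ∀ c, S.Has x w c := by
    intro x hx w hw c
    obtain ⟨c', hc'⟩ := hx.2 w hw
    have h1 := hc'.mul S hw (by rw [map_zero]) (hall x hx (c + c'))
    rw [add_zero, map_zero, add_zero] at h1
    have e : c' + (c + c') = c := by linear_combination c' * S.two
    rwa [e] at h1
  have hK : ∀ a b : V, S.A a → S.A b → S.B a b = 1 → ∀ v, S.B a v = 1 → S.A v := by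
    intro a b ha hb hab v hv
    have hba : S.B b a = 1 := by rw [S.symm, hab]
    have h1 := hb.move S (hQ a ha (v + b) (by rw [S.add_right, hv, hab, S.add_self]) (S.B b (v + b)))
    rw [hba] at h1
    have e : b + (1 : F) • (v + b) + S.B b (v + b) • a + (S.B b (v + b) * 1) • a
        = v + (b + b) + (S.B b (v + b) • a + S.B b (v + b) • a) := by module
    rwa [e, S.vadd_self, S.vadd_self, add_zero, add_zero] at h1
  have hA := S.A_all ha hab (hK a b ha hb hab) (hK b a hb ha hba)
  intro x s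
  by_cases hx : x = 0
  · subst hx
    refine ⟨1, S.L.one_mem, fun v => ?_⟩
    show v = _
    simp
  · exact hall x (hA x hx) s

/-- **`|F| = 2`, second case: `A` consists of all nonzero vectors.** -/
theorem A_all_two (h2 : ∀ x : F, x = 0 ∨ x = 1) {a b : V} (ha : S.A a) (hb : S.A b)
    (hb' : S.A (b + a)) (hab : S.B a b = 1) : ∀ v, v ≠ 0 → S.A v := by
  have hba : S.B b a = 1 := by rw [S.symm, hab]
  have hK : ∀ a b : V, S.A a → S.A b → S.A (b + a) → S.B a b = 1 → ∀ v, S.B a v = 1 → S.A v := by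
    intro a b ha hb hb' hab v hv
    have hba : S.B b a = 1 := by rw [S.symm, hab]
    have hw : S.B a (v + b) = 0 := by rw [S.add_right, hv, hab, S.add_self]
    obtain ⟨c, hc⟩ := ha.2 (v + b) hw
    rcases h2 (S.B b (v + b) + c) with h | h
    · have h1 := hb.move S hc
      rw [hba] at h1
      have e : b + (1 : F) • (v + b) + S.B b (v + b) • a + (c * 1) • a
        = v + (b + b) + (S.B b (v + b) + c) • a := by module
      rwa [e, S.vadd_self, h, zero_smul, add_zero, add_zero] at h1
    · have h1 := hb'.move S hc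
      rw [S.add_left, S.add_left, hba, S.alt, hw] at h1
      have e : b + a + (1 + 0 : F) • (v + b) + (S.B b (v + b) + 0) • a + (c * (1 + 0)) • a
        = v + (b + b) + (1 + (S.B b (v + b) + c)) • a := by module
      rwa [e, S.vadd_self, h, S.add_self, zero_smul, add_zero, add_zero] at h1
  have hb2 : S.A (a + b) := by rwa [add_comm]
  exact S.A_all ha hab (hK a b ha hb hb' hab) (hK b a hb ha hb2 hba)

/-! ### Generation by transvections -/

/-- the fixed space -/
def fix (g : V ≃ₗ[F] V) : Submodule F V := LinearMap.ker (g.toLinearMap - LinearMap.id)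

theorem mem_fix {g : V ≃ₗ[F] V} {v : V} : v ∈ fix g ↔ g v = v := by
  rw [fix, LinearMap.mem_ker, LinearMap.sub_apply, LinearMap.id_apply, sub_eq_zero]
  rfl

theorem exists_transvection {u : V} {s : F} (h : S.Has u 0 s) :
    ∃ t ∈ S.L, ∀ v, t v = v + (s * S.B v u) • u := by
  obtain ⟨t, ht, htv⟩ := h
  refine ⟨t, ht, fun v => ?_⟩
  rw [htv, map_zero]
  module

theorem gen_step {g : V ≃ₗ[F] V} (hg : ∀ u v, S.B (g u) (g v) = S.B u v)
    (hall : ∀ x s, S.Has x 0 s) {x : V} (hx : S.B x (g x) ≠ 0) :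
    ∃ t ∈ S.L, fix g < fix (t * g) := by
  obtain ⟨t, ht, htv⟩ := S.exists_transvection (hall (g x + x) (S.B x (g x))⁻¹)
  refine ⟨t, ht, lt_of_le_of_ne ?_ ?_⟩
  · intro y hy
    rw [mem_fix] at hy ⊢
    show t (g y) = y
    rw [hy, htv]
    have h1 : S.B y (g x + x) = 0 := by
      rw [S.add_right]
      nth_rewrite 1 [← hy]
      rw [hg, S.add_self]
    rw [h1, mul_zero, zero_smul, add_zero]
  · intro h
    have h1 : x ∈ fix (t * g) := by
      rw [mem_fix]
      show t (g x) = x
      rw [htv, S.add_right, S.alt, zero_add, S.symm (g x) x, inv_mul_cancel₀ hx, one_smul,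
        ← add_assoc, S.vadd_self, zero_add]
    rw [← h, mem_fix] at h1
    rw [h1, S.alt] at hx
    exact hx rfl

/-- **If `L` contains all transvections then it contains all isometries.** -/
theorem mem_of_transvections [FiniteDimensional F V] (hall : ∀ x s, S.Has x 0 s) :
    ∀ g : V ≃ₗ[F] V, (∀ u v, S.B (g u) (g v) = S.B u v) → g ∈ S.L := by
  have key : ∀ (n : ℕ) (g : V ≃ₗ[F] V), (∀ u v, S.B (g u) (g v) = S.B u v) →
      Module.finrank F V - Module.finrank F (fix g) = n → g ∈ S.L := by
    intro n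
    induction n using Nat.strong_induction_on with
    | _ n ih =>
      intro g hg hn
      -- enough to enlarge the fixed space
      have step : ∀ t ∈ S.L, fix g < fix (t * g) → g ∈ S.L := by
        intro t ht hlt
        have hlt' := Submodule.finrank_lt_finrank_of_lt hlt
        have hle := Submodule.finrank_le (fix (t * g))
        have hmem := ih _ (by omega) (t * g) (fun u v => by
          show S.B (t (g u)) (t (g v)) = _
          rw [S.inv t ht, hg]) rfl
        have : g = t⁻¹ * (t * g) := by group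
        rw [this]
        exact S.L.mul_mem (S.L.inv_mem ht) hmem
      by_cases h1 : ∃ x, S.B x (g x) ≠ 0
      · obtain ⟨x, hx⟩ := h1
        obtain ⟨t, ht, hlt⟩ := S.gen_step hg hall hx
        exact step t ht hlt
      · push Not at h1
        by_cases hone : ∀ w, g w = w
        · have : g = 1 := by ext w; exact hone w
          rw [this]
          exact S.L.one_mem
        push Not at hone
        obtain ⟨y, hy⟩ := hone
        have hu : g y + y ≠ 0 := fun h => hy (S.veq_of_add_zero h)
        obtain ⟨x', hx'⟩ := S.exists_ne hu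
        obtain ⟨x, rfl⟩ := g.surjective x'
        rw [S.symm] at hx'
        obtain ⟨t, ht, htv⟩ := S.exists_transvection (hall (g y + y) 1)
        have e1 : S.B x (g y) = S.B (g x) y := by
          have := h1 (x + y)
          rw [map_add g, S.add_left, S.add_right, S.add_right, h1, h1] at this
          rw [S.symm (g x) y]
          exact S.eq_of_add_zero (by linear_combination this)
        have e2 : S.B x (g y + y) = S.B (g x) (g y + y) := by
          rw [S.add_right, S.add_right, hg, e1, add_comm]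
        have hfix : fix g ≤ fix (t * g) := by
          intro z hz
          rw [mem_fix] at hz ⊢
          show t (g z) = z
          rw [hz, htv]
          have h3 : S.B z (g y + y) = 0 := by
            rw [S.add_right]
            nth_rewrite 1 [← hz]
            rw [hg, S.add_self]
          rw [h3, mul_zero, zero_smul, add_zero]
        have hg' : ∀ u v, S.B ((t * g) u) ((t * g) v) = S.B u v := fun u v => by
          show S.B (t (g u)) (t (g v)) = _
          rw [S.inv t ht, hg]
        have h4 : S.B x ((t * g) x) ≠ 0 := by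
          show S.B x (t (g x)) ≠ 0
          rw [htv, S.add_right, S.smul_right, h1, zero_add, one_mul, e2]
          exact mul_ne_zero hx' hx'
        obtain ⟨t', ht', hlt⟩ := S.gen_step hg' hall h4
        have h5 := step (t' * t) (S.L.mul_mem ht' ht)
        rw [mul_assoc] at h5
        exact h5 (lt_of_le_of_lt hfix hlt)
  exact fun g hg => key _ g hg rfl

end Ctx

end Cfsg.Agent.H890.SpCore
end

-- part: H890/SpCaseOne
section
/-!
S5712 (helper890), first case: every hyperbolic line meets `A` in at most two points.  Then the function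
`c` is (the restriction of) a quadratic form `Q` polarising to `B`, `A` is the set of singular vectors,
and `E Q ≤ L ≤ O Q`.
-/

set_option autoImplicit false

namespace Cfsg.Agent.H890.SpCore

open QuadraticMap Cfsg.Agent.LieClassical.OrthCore

variable {F V : Type*} [Field F] [AddCommGroup V] [Module F V]

/-- The functional equation. -/
theorem hua (h2 : (2 : F) = 0) {φ ψ : F → F} (hφ : ∀ x y, φ (x + y) = φ x + φ y)
    (hψ : ∀ x y, ψ (x + y) = ψ x + ψ y) (bφ : Function.Bijective φ) (bψ : Function.Bijective ψ)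
    (h : ∀ m, m ≠ 0 → ψ (m * (φ m)⁻¹) = (φ m)⁻¹) (m : F) : φ m = m ^ 2 * φ 1 := by
  have hneg : ∀ x : F, x + x = 0 := fun x => by linear_combination x * h2
  have φ0 : φ 0 = 0 := by
    have := hφ 0 0
    rw [add_zero] at this
    exact left_eq_add.1 this
  choose α hα using bφ.2
  choose β hβ using bψ.2
  have hα' : ∀ x, α (φ x) = x := fun x => bφ.1 (hα _)
  have hβ' : ∀ x, β (ψ x) = x := fun x => bψ.1 (hβ _)
  have hαadd : ∀ x y, α (x + y) = α x + α y := by
    intro x y
    apply bφ.1
    rw [hφ, hα, hα, hα]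
  have hβadd : ∀ x y, β (x + y) = β x + β y := by
    intro x y
    apply bψ.1
    rw [hψ, hβ, hβ, hβ]
  have hne : ∀ t, t ≠ 0 → α t ≠ 0 := by
    intro t ht h0
    apply ht
    rw [← hα t, h0, φ0]
  have key : ∀ t, t ≠ 0 → t * β t⁻¹ = α t := by
    intro t ht
    have h1 := h (α t) (hne t ht)
    rw [hα] at h1
    rw [← h1, hβ', mul_comm (α t), ← mul_assoc, mul_inv_cancel₀ ht, one_mul]
  have hsq : ∀ t, α (t ^ 2) = t * α 1 := by
    intro t
    by_cases ht0 : t = 0
    · subst ht0
      have : α 0 = 0 := by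
        have := hα' 0
        rwa [φ0] at this
      rw [zero_pow two_ne_zero, this, zero_mul]
    by_cases ht1 : t = 1
    · subst ht1; simp
    have ht1' : 1 + t ≠ 0 := by
      intro h0
      apply ht1
      linear_combination h0 - h2
    have hprod : t + t ^ 2 ≠ 0 := by
      have : t + t ^ 2 = t * (1 + t) := by ring
      rw [this]
      exact mul_ne_zero ht0 ht1'
    have e1 : (t + t ^ 2)⁻¹ = t⁻¹ + (1 + t)⁻¹ := by
      have : t + t ^ 2 = t * (1 + t) := by ring
      rw [this]
      field_simp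
      linear_combination (-t) * h2
    have k1 := key _ hprod
    rw [e1, hβadd] at k1
    have k2 := key _ ht0
    have k3 := key _ ht1'
    rw [hαadd] at k1 k3
    have k4 : (t + t ^ 2) * (β t⁻¹ + β (1 + t)⁻¹) = (1 + t) * (t * β t⁻¹) +
      t * ((1 + t) * β (1 + t)⁻¹) := by ring
    rw [k4, k2, k3] at k1
    linear_combination -k1 + (t * α t) * h2
  have hκ : α 1 ≠ 0 := hne 1 one_ne_zero
  have h3 : ∀ t, φ (t * α 1) = t ^ 2 := fun t => by rw [← hsq, hα]
  have h4 : ∀ m, φ m = (m * (α 1)⁻¹) ^ 2 := fun m => by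
    rw [← h3, mul_assoc, inv_mul_cancel₀ hκ, mul_one]
  rw [h4 m, h4 1]
  ring

namespace Ctx

variable (S : Ctx F V)

/-- First case: every hyperbolic line meets `A` in at most two points. -/
structure CaseOne (a b : V) : Prop where
  ha : S.A a
  hb : S.A b
  hab : S.B a b = 1
  one : ∀ (x y : V) (t : F), S.A x → S.A y → S.B x y = 1 → S.A (y + t • x) → t = 0

variable {S} {a b : V}

theorem CaseOne.symm (h : S.CaseOne a b) : S.CaseOne b a :=
  ⟨h.hb, h.ha, by rw [S.symm, h.hab], h.one⟩

theorem CaseOne.hba (h : S.CaseOne a b) : S.B b a = 1 := by rw [S.symm, h.hab]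

theorem CaseOne.uniq (h : S.CaseOne a b) {w : V} (hw : S.B a w = 0) {c c' : F}
    (hc : S.Has a w c) (hc' : S.Has a w c') : c = c' := by
  have h1 := hc.diff S hw hc'
  have h2 := h.hb.move S h1
  rw [map_zero, h.hba] at h2
  have e : b + (1 : F) • (0 : V) + (0 : F) • a + ((c + c') * 1) • a = b + (c + c') • a := by module
  rw [e] at h2
  exact S.eq_of_add_zero (h.one a b _ h.ha h.hb h.hab h2)

open Classical in
/-- the function `c` -/
noncomputable def cf (S : Ctx F V) (a w : V) : F :=
  if h : ∃ c, S.Has a w c then h.choose else 0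

theorem cf_spec (h : S.A a) {w : V} (hw : S.B a w = 0) : S.Has a w (cf S a w) := by
  have h1 := h.2 w hw
  rw [cf, dif_pos h1]
  exact h1.choose_spec

theorem CaseOne.cf_eq (h : S.CaseOne a b) {w : V} (hw : S.B a w = 0) {c : F}
    (hc : S.Has a w c) : cf S a w = c := h.uniq hw (cf_spec h.ha hw) hc

theorem CaseOne.cf_add (h : S.CaseOne a b) {w w' : V} (hw : S.B a w = 0) (hw' : S.B a w' = 0) :
    cf S a (w + w') = cf S a w + cf S a w' + S.B w w' :=
  h.cf_eq (by rw [S.add_right, hw, hw', add_zero])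
    ((cf_spec h.ha hw).mul S hw hw' (cf_spec h.ha hw'))

theorem CaseOne.cf_add_smul (h : S.CaseOne a b) {w : V} (hw : S.B a w = 0) (l : F) :
    cf S a (w + l • a) = cf S a w :=
  h.cf_eq (by rw [S.add_right, S.smul_right, S.alt, hw, mul_zero, add_zero])
    ((cf_spec h.ha hw).add_smul S l)

theorem CaseOne.cf_zero (h : S.CaseOne a b) : cf S a 0 = 0 :=
  h.cf_eq (map_zero _) (Has.zero S a)

/-- the quadratic form -/
noncomputable def qf (S : Ctx F V) (a b v : V) : F :=
  cf S a (v + S.B v a • b) + S.B v a * S.B b v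

theorem CaseOne.qf_perp (h : S.CaseOne a b) {v : V} (hv : S.B a v = 0) :
    qf S a b v = cf S a v := by
  rw [qf, S.symm v a, hv, zero_smul, add_zero, zero_mul, add_zero]

theorem CaseOne.comp_perp (h : S.CaseOne a b) (v : V) : S.B a (v + S.B v a • b) = 0 := by
  rw [S.add_right, S.smul_right, h.hab, S.symm v a, mul_one, S.add_self]

theorem CaseOne.qf_add (h : S.CaseOne a b) (v v' : V) :
    qf S a b (v + v') = qf S a b v + qf S a b v' + S.B v v' := by
  have e : v + v' + S.B (v + v') a • b = (v + S.B v a • b) + (v' + S.B v' a • b) := by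
    rw [S.add_left]; module
  rw [qf, qf, qf, e, h.cf_add (h.comp_perp v) (h.comp_perp v')]
  simp only [S.add_left, S.add_right, S.smul_left, S.smul_right, S.alt]
  rw [S.symm v b]
  linear_combination (S.B v a * S.B b v' + S.B v' a * S.B b v) * S.two

theorem CaseOne.move (h : S.CaseOne a b) {v : V} (hv : S.B a v = 1) :
    S.A (v + qf S a b v • a) := by
  have hva : S.B v a = 1 := by rw [S.symm, hv]
  have h0 := h.comp_perp v
  rw [hva, one_smul] at h0
  have h1 := h.hb.move S (cf_spec h.ha h0)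
  rw [h.hba, S.add_right, S.alt, add_zero] at h1
  have e : b + (1 : F) • (v + b) + S.B b v • a + (cf S a (v + b) * 1) • a =
      v + qf S a b v • a + (b + b) := by
    have e0 : qf S a b v = cf S a (v + b) + 1 * S.B b v := by rw [qf, hva, one_smul]
    rw [e0]; module
  rwa [e, S.vadd_self, add_zero] at h1

theorem CaseOne.A_iff_one (h : S.CaseOne a b) {v : V} (hv : S.B a v = 1) :
    S.A v ↔ qf S a b v = 0 := by
  have h1 := h.move hv
  constructor
  · intro h2
    exact h.one a v _ h.ha h2 hv h1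
  · intro h2
    rwa [h2, zero_smul, add_zero] at h1

theorem CaseOne.A_iff_perp (h : S.CaseOne a b) {x : V} (hx : x ≠ 0) (hax : S.B a x = 0) :
    S.A x ↔ cf S a x = 0 := by
  by_cases hxa : ∃ l : F, x = l • a
  · obtain ⟨l, rfl⟩ := hxa
    have hl : l ≠ 0 := by
      rintro rfl
      exact hx (zero_smul _ _)
    refine ⟨fun _ => ?_, fun _ => h.ha.smul S hl⟩
    have := h.cf_add_smul (w := 0) (by rw [map_zero]) l
    rwa [zero_add, h.cf_zero] at this
  push Not at hxa
  obtain ⟨z0, hz1, hz2⟩ := S.exists_eq_two h.ha.1 hxa 1 0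
  have hz := h.move hz1
  set z := z0 + qf S a b z0 • a with hzdef
  have haz : S.B a z = 1 := by rw [hzdef, S.add_right, S.smul_right, S.alt, hz1]; ring
  have hxz : S.B x z = 0 := by
    rw [hzdef, S.add_right, S.smul_right, hz2, S.symm x a, hax]; ring
  have hzx : S.B z x = 0 := by rw [S.symm, hxz]
  have hazx : S.B a (z + x) = 1 := by rw [S.add_right, haz, hax, add_zero]
  have hqz : qf S a b z = 0 := (h.A_iff_one haz).1 hz
  have hq := h.qf_add z x
  rw [hqz, hzx, h.qf_perp hax, zero_add, add_zero] at hq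
  have hind : ∀ l : F, z ≠ l • x := by
    intro l hl
    have h1 := haz
    rw [hl, S.smul_right, hax, mul_zero] at h1
    exact zero_ne_one h1
  constructor
  · intro hA
    have h1 := hz.add_of_perp S hA hzx hind 1
    rw [one_smul] at h1
    rw [← hq]
    exact (h.A_iff_one hazx).1 h1
  · intro hc
    rw [hc] at hq
    have h1 : S.A (z + x) := (h.A_iff_one hazx).2 hq
    have h2 : S.B (z + x) z = 0 := by rw [S.add_left, S.alt, hxz, add_zero]
    have h3 : ∀ l : F, z + x ≠ l • z := by
      intro l hl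
      have h4 : S.B a (z + x) = l := by rw [hl, S.smul_right, haz, mul_one]
      rw [hazx] at h4
      apply hx
      rw [← h4, one_smul] at hl
      exact left_eq_add.1 hl.symm
    have h4 := h1.add_of_perp S hz h2 h3 1
    have e : z + x + (1 : F) • z = x + (z + z) := by module
    rwa [e, S.vadd_self, add_zero] at h4

/-- Homogeneity of `c` on the space orthogonal to `a` and `b`. -/
theorem CaseOne.cf_smul_aux [Finite F] (h : S.CaseOne a b) {w : V} (haw : S.B a w = 0)
    (hbw : S.B b w = 0) (m : F) : cf S a (m • w) = m ^ 2 * cf S a w := by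
  by_cases hw : w = 0
  · subst hw
    rw [smul_zero, h.cf_zero, mul_zero]
  have ham : ∀ m : F, S.B a (m • w) = 0 := fun m => by rw [S.smul_right, haw, mul_zero]
  have hbm : ∀ m : F, S.B b (m • w) = 0 := fun m => by rw [S.smul_right, hbw, mul_zero]
  by_cases hA : S.A w
  · have h0 : cf S a w = 0 := (h.A_iff_perp hw haw).1 hA
    rw [h0, mul_zero]
    by_cases hm : m = 0
    · rw [hm, zero_smul, h.cf_zero]
    · exact (h.A_iff_perp (smul_ne_zero hm hw) (ham m)).1 (hA.smul S hm)
  have hadd : ∀ x y : F, cf S a ((x + y) • w) = cf S a (x • w) + cf S a (y • w) := by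
    intro x y
    rw [add_smul, h.cf_add (ham x) (ham y), S.smul_left, S.smul_right, S.alt]
    ring
  have hadd' : ∀ x y : F, cf S b ((x + y) • w) = cf S b (x • w) + cf S b (y • w) := by
    intro x y
    rw [add_smul, h.symm.cf_add (hbm x) (hbm y), S.smul_left, S.smul_right, S.alt]
    ring
  have hne : ∀ m : F, m ≠ 0 → cf S a (m • w) ≠ 0 := by
    intro m hm h0
    apply hA
    rw [← A.smul_iff S hm]
    exact (h.A_iff_perp (smul_ne_zero hm hw) (ham m)).2 h0
  have hne' : ∀ m : F, m ≠ 0 → cf S b (m • w) ≠ 0 := by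
    intro m hm h0
    apply hA
    rw [← A.smul_iff S hm]
    exact (h.symm.A_iff_perp (smul_ne_zero hm hw) (hbm m)).2 h0
  have hinj : Function.Injective (fun m : F => cf S a (m • w)) := by
    intro x y hxy
    by_contra hne2
    refine hne (x + y) (fun h0 => hne2 (S.eq_of_add_zero h0)) ?_
    rw [hadd]
    show (fun m : F => cf S a (m • w)) x + (fun m : F => cf S a (m • w)) y = 0
    rw [hxy, S.add_self]
  have hinj' : Function.Injective (fun m : F => cf S b (m • w)) := by
    intro x y hxy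
    by_contra hne2
    refine hne' (x + y) (fun h0 => hne2 (S.eq_of_add_zero h0)) ?_
    rw [hadd']
    show (fun m : F => cf S b (m • w)) x + (fun m : F => cf S b (m • w)) y = 0
    rw [hxy, S.add_self]
  have main := hua (φ := fun m : F => cf S a (m • w)) (ψ := fun m : F => cf S b (m • w)) S.two
    hadd hadd' (Finite.injective_iff_bijective.1 hinj) (Finite.injective_iff_bijective.1 hinj') ?_ m
  · simpa using main
  · intro m hm
    show cf S b ((m * (cf S a (m • w))⁻¹) • w) = (cf S a (m • w))⁻¹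
    set c := cf S a (m • w) with hc
    have hc0 : c ≠ 0 := hne m hm
    have h1 := h.hb.move S (cf_spec h.ha (ham m))
    rw [h.hba, hbm] at h1
    have h2 := h1.smul S (inv_ne_zero hc0)
    have e2 : c⁻¹ • (b + (1 : F) • m • w + (0 : F) • a + (cf S a (m • w) * 1) • a) =
        c⁻¹ • b + (m * c⁻¹) • w + (c⁻¹ * c) • a := by
      rw [← hc]; module
    rw [e2, inv_mul_cancel₀ hc0, one_smul] at h2
    have h3 := h.ha.move S (cf_spec h.hb (hbm (m * c⁻¹)))
    rw [h.hab, ham] at h3
    have e3 : a + (1 : F) • (m * c⁻¹) • w + (0 : F) • b + (cf S b ((m * c⁻¹) • w) * 1) • b =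
        cf S b ((m * c⁻¹) • w) • b + (m * c⁻¹) • w + a := by module
    rw [e3] at h3
    have h4 : S.B b (c⁻¹ • b + (m * c⁻¹) • w + a) = 1 := by
      rw [S.add_right, S.add_right, S.smul_right, S.smul_right, S.alt, hbw, h.hba]; ring
    have h5 := h.one b _ (c⁻¹ + cf S b ((m * c⁻¹) • w)) h.hb h2 h4 (by
      have e5 : c⁻¹ • b + (m * c⁻¹) • w + a + (c⁻¹ + cf S b ((m * c⁻¹) • w)) • b =
        (c⁻¹ • b + c⁻¹ • b) + (cf S b ((m * c⁻¹) • w) • b + (m * c⁻¹) • w + a) := by module
      rw [e5, S.vadd_self, zero_add]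
      exact h3)
    exact (S.eq_of_add_zero h5).symm

theorem CaseOne.cf_smul [Finite F] (h : S.CaseOne a b) {w : V} (haw : S.B a w = 0) (m : F) :
    cf S a (m • w) = m ^ 2 * cf S a w := by
  have h1 : S.B a (w + S.B b w • a) = 0 := by
    rw [S.add_right, S.smul_right, S.alt, haw]; ring
  have h2 : S.B b (w + S.B b w • a) = 0 := by
    rw [S.add_right, S.smul_right, h.hba, mul_one, S.add_self]
  have h3 := h.cf_smul_aux h1 h2 m
  rw [h.cf_add_smul haw] at h3
  rw [← h3, smul_add, smul_smul, h.cf_add_smul (by rw [S.smul_right, haw, mul_zero])]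

theorem CaseOne.qf_smul [Finite F] (h : S.CaseOne a b) (m : F) (v : V) :
    qf S a b (m • v) = m * m * qf S a b v := by
  have e : m • v + S.B (m • v) a • b = m • (v + S.B v a • b) := by
    rw [S.smul_left]; module
  rw [qf, qf, e, h.cf_smul (h.comp_perp v), S.smul_left, S.smul_right]
  ring

/-- the quadratic form -/
noncomputable def CaseOne.quad [Finite F] (h : S.CaseOne a b) : QuadraticForm F V where
  toFun := qf S a b
  toFun_smul m v := by rw [h.qf_smul, smul_eq_mul]
  exists_companion' := ⟨S.B, fun v v' => h.qf_add v v'⟩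

theorem CaseOne.quad_apply [Finite F] (h : S.CaseOne a b) (v : V) : h.quad v = qf S a b v := rfl

theorem CaseOne.polar_quad [Finite F] (h : S.CaseOne a b) (u v : V) :
    polar h.quad u v = S.B u v := by
  rw [polar, h.quad_apply, h.quad_apply, h.quad_apply, h.qf_add]
  ring

theorem CaseOne.A_iff [Finite F] (h : S.CaseOne a b) {v : V} (hv : v ≠ 0) :
    S.A v ↔ h.quad v = 0 := by
  rw [h.quad_apply]
  by_cases h0 : S.B a v = 0
  · rw [h.qf_perp h0]
    exact h.A_iff_perp hv h0
  · have h1 : S.B a ((S.B a v)⁻¹ • v) = 1 := by rw [S.smul_right, inv_mul_cancel₀ h0]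
    rw [← A.smul_iff S (inv_ne_zero h0), h.A_iff_one h1, h.qf_smul]
    simp [h0]

theorem CaseOne.le_O [Finite F] (h : S.CaseOne a b) : S.L ≤ O h.quad := by
  intro g hg
  rw [mem_O]
  have hD : ∀ v v', (h.quad (g (v + v')) + h.quad (v + v')) =
      (h.quad (g v) + h.quad v) + (h.quad (g v') + h.quad v') := by
    intro v v'
    rw [map_add, Q_add, Q_add v v', h.polar_quad, h.polar_quad, S.inv g hg]
    linear_combination (S.B v v') * S.two
  have hA : ∀ v, S.A v → h.quad (g v) + h.quad v = 0 := by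
    intro v hv
    rw [(h.A_iff hv.1).1 hv, (h.A_iff (hv.map S hg).1).1 (hv.map S hg), add_zero]
  have hA' : ∀ (v : V) (l : F), S.A v → h.quad (g (l • v)) + h.quad (l • v) = 0 := by
    intro v l hv
    by_cases hl : l = 0
    · subst hl; simp
    · exact hA _ (hv.smul S hl)
  have h1 : ∀ v, S.B a v = 1 → h.quad (g v) + h.quad v = 0 := by
    intro v hv
    have h2 := hA _ (h.move hv)
    rw [hD, hA' a _ h.ha, add_zero] at h2
    exact h2
  have h3 : ∀ v, S.B a v ≠ 0 → h.quad (g v) + h.quad v = 0 := by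
    intro v hv
    have h2 := h1 ((S.B a v)⁻¹ • v) (by rw [S.smul_right, inv_mul_cancel₀ hv])
    rw [map_smul, QuadraticMap.map_smul, QuadraticMap.map_smul, ← smul_add] at h2
    rcases smul_eq_zero.1 h2 with h4 | h4
    · exact absurd h4 (mul_ne_zero (inv_ne_zero hv) (inv_ne_zero hv))
    · exact h4
  intro v
  apply S.eq_of_add_zero
  by_cases hv : S.B a v = 0
  · have h4 := h3 (v + b) (by rw [S.add_right, hv, h.hab, zero_add]; exact one_ne_zero)
    rw [hD, hA b h.hb, add_zero] at h4
    exact h4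
  · exact h3 v hv

theorem CaseOne.nondeg [Finite F] (h : S.CaseOne a b) : Nondeg h.quad := by
  intro x hx
  apply S.nd
  intro y
  rw [← h.polar_quad, hx]

theorem CaseOne.siegel_mem [Finite F] (h : S.CaseOne a b) {u w : V} (hu : h.quad u = 0)
    (hw : polar h.quad u w = 0) : siegel h.quad u w hu hw ∈ S.L := by
  by_cases hu0 : u = 0
  · subst hu0
    have : siegel h.quad 0 w hu hw = 1 := by
      ext v
      rw [siegel_apply]
      simp
    rw [this]
    exact S.L.one_mem
  have hAu : S.A u := (h.A_iff hu0).2 hu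
  rw [h.polar_quad] at hw
  have hwu : S.B w u = 0 := by rw [S.symm, hw]
  obtain ⟨c, g, hg, hgv⟩ := hAu.2 w hw
  obtain ⟨v, hv⟩ := S.exists_eq hu0 1
  have hvu : S.B v u = 1 := by rw [S.symm, hv]
  have hQ := mem_O.1 (h.le_O hg) v
  have e1 : g v = v + (w + (S.B v w + c) • u) := by
    rw [hgv, hvu]; module
  rw [e1, Q_add, Q_add, QuadraticMap.map_smul, hu, h.polar_quad, h.polar_quad, S.smul_right, hwu,
    S.add_right, S.smul_right, hvu] at hQ
  have hc : c = h.quad w := by
    apply S.eq_of_add_zero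
    have hQ2 : h.quad v + (h.quad w + 0 + 0) + (S.B v w + (S.B v w + c)) = h.quad v := by
      simpa using hQ
    linear_combination hQ2 - (S.B v w) * S.two
  have : siegel h.quad u w hu (by rw [h.polar_quad, hw]) = g := by
    ext v
    rw [siegel_apply, hgv, h.polar_quad, h.polar_quad, S.symm v u, S.symm v w, hc]
    have e : ∀ x : F, -x = x := S.neg_eq
    rw [sub_eq_add_neg, sub_eq_add_neg, ← neg_smul, ← neg_smul, e, e]
  rw [this]
  exact hg

/-- **First case: the conclusion.** -/
theorem CaseOne.result [Finite F] (h : S.CaseOne a b) :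
    ∃ Q : QuadraticForm F V, (∀ u v, polar Q u v = S.B u v) ∧ E Q ≤ S.L ∧ S.L ≤ O Q ∧
      Q a = 0 ∧ Q b = 0 := by
  refine ⟨h.quad, h.polar_quad, ?_, h.le_O, (h.A_iff h.ha.1).1 h.ha, (h.A_iff h.hb.1).1 h.hb⟩
  rw [E, Subgroup.closure_le]
  rintro _ ⟨u, w, hu, hw, rfl⟩
  exact h.siegel_mem hu hw

end Ctx

end Cfsg.Agent.H890.SpCore
end

-- part: H890/SpMain
section
/-!
S5712 (helper890): coordinate free main theorem, up to the case `|F| = 2`, `dim V = 4`.
-/

set_option autoImplicit false

namespace Cfsg.Agent.H890.SpCore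

open QuadraticMap Cfsg.Agent.LieClassical.OrthCore Module Cfsg.Agent.H890.SpParity

variable {F V : Type*} [Field F] [AddCommGroup V] [Module F V]

namespace Ctx

variable (S : Ctx F V)

/-- two functionals -/
def fun2 (x y : V) : V →ₗ[F] F × F := (S.B x).prod (S.B y)

theorem fun2_apply (x y v : V) : S.fun2 x y v = (S.B x v, S.B y v) := rfl

theorem exists_perp2 [FiniteDimensional F V] (hdim : 3 ≤ finrank F V) (x y : V) :
    ∃ w, w ≠ 0 ∧ S.B x w = 0 ∧ S.B y w = 0 := by
  have h1 : finrank F (F × F) < finrank F V := by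
    rw [Module.finrank_prod, Module.finrank_self]; omega
  have h2 := LinearMap.ker_ne_bot_of_finrank_lt (f := S.fun2 x y) h1
  obtain ⟨w, hw, hw0⟩ := Submodule.exists_mem_ne_zero_of_ne_bot h2
  rw [LinearMap.mem_ker, fun2_apply, Prod.mk_eq_zero] at hw
  exact ⟨w, hw0, hw⟩

theorem finrank_span_pair_le (x y : V) : finrank F (Submodule.span F ({x, y} : Set V)) ≤ 2 := by
  have h6 := finrank_range_le_card (R := F) (M := V) (![x, y])
  rw [Fintype.card_fin] at h6
  have e : Set.range ![x, y] = {x, y} := by simp [Set.pair_comm]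
  rwa [e] at h6

theorem exists_perp2_notMem [FiniteDimensional F V] (hdim : 5 ≤ finrank F V) (x y : V) :
    ∃ w, w ∉ Submodule.span F ({x, y} : Set V) ∧ S.B x w = 0 ∧ S.B y w = 0 := by
  have h1 : ¬ LinearMap.ker (S.fun2 x y) ≤ Submodule.span F {x, y} := by
    intro hle
    have h2 := Submodule.finrank_mono hle
    have h3 := LinearMap.finrank_range_add_finrank_ker (S.fun2 x y)
    have h4 : finrank F (LinearMap.range (S.fun2 x y)) ≤ finrank F (F × F) := Submodule.finrank_le _
    rw [Module.finrank_prod, Module.finrank_self] at h4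
    have h5 := finrank_span_pair_le (F := F) x y
    omega
  obtain ⟨w, hw, hw'⟩ := SetLike.not_le_iff_exists.1 h1
  rw [LinearMap.mem_ker, fun2_apply, Prod.mk_eq_zero] at hw
  exact ⟨w, hw', hw⟩

/-- Transvections spread over `A = V ∖ 0`. -/
theorem transvection_spread [FiniteDimensional F V] (hdim : 3 ≤ finrank F V)
    (h2 : ∀ x : F, x = 0 ∨ x = 1) (hA : ∀ v, v ≠ 0 → S.A v) {x : V} (hx : x ≠ 0)
    (hx1 : S.Has x 0 1) : ∀ y s, S.Has y 0 s := by
  have key : ∀ x z, x ≠ 0 → z ≠ 0 → S.B x z = 0 → (∀ l : F, x ≠ l • z) → S.Has z 0 1 →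
      S.Has x 0 1 := by
    intro x z hx hz hxz hind hz1
    obtain ⟨g, hg, hga, hgb⟩ := S.exists_weyl (hA x hx) (hA z hz) hxz hind (one_ne_zero (α := F))
    rw [one_smul] at hgb
    have := hz1.conj S hg
    rwa [hgb, map_zero] at this
  have main : ∀ y, y ≠ 0 → S.Has y 0 1 := by
    intro y hy
    by_cases hxy : y = x
    · rwa [hxy]
    have hind : ∀ u v : V, u ≠ 0 → u ≠ v → ∀ l : F, u ≠ l • v := by
      intro u v hu huv l hl
      rcases h2 l with h | h
      · rw [h, zero_smul] at hl; exact hu hl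
      · rw [h, one_smul] at hl; exact huv hl
    by_cases h0 : S.B y x = 0
    · exact key y x hy hx h0 (hind y x hy hxy) hx1
    · obtain ⟨w, hw, hxw, hyw⟩ := S.exists_perp2 hdim x y
      have hwx : w ≠ x := by
        rintro rfl
        exact h0 hyw
      have hwy : y ≠ w := by
        rintro rfl
        rw [S.symm] at hxw
        exact h0 hxw
      have h1 := key w x hw hx (by rw [S.symm]; exact hxw) (hind w x hw hwx) hx1
      exact key y w hy hw hyw (hind y w hy hwy) h1
  intro y s
  by_cases hy : y = 0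
  · subst hy
    refine ⟨1, S.L.one_mem, fun v => ?_⟩
    show v = _
    simp
  rcases h2 s with h | h
  · rw [h]; exact Has.zero S y
  · rw [h]; exact main y hy

/-- In dimension at least five, `A = V ∖ 0` forces transvections. -/
theorem transvection_of_dim [FiniteDimensional F V] (hdim : 5 ≤ finrank F V)
    (hA : ∀ v, v ≠ 0 → S.A v) : ∃ x s, x ≠ 0 ∧ s ≠ 0 ∧ S.Has x 0 s := by
  by_contra hcon
  push Not at hcon
  have huniq : ∀ {a w : V} {c c' : F}, a ≠ 0 → S.B a w = 0 → S.Has a w c → S.Has a w c' →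
      c = c' := by
    intro a w c c' ha hw hc hc'
    by_contra hne
    exact hcon a (c + c') ha (fun h0 => hne (S.eq_of_add_zero h0)) (hc.diff S hw hc')
  -- `c = 0` for independent perpendicular pairs
  have hzero : ∀ a c0 : V, a ≠ 0 → c0 ≠ 0 → S.B a c0 = 0 → S.Has a c0 0 := by
    intro a c0 ha hc0 hac
    obtain ⟨b, hb, hab, hcb⟩ := S.exists_perp2_notMem hdim a c0
    obtain ⟨w, hw1, hw2⟩ := exists_sep S.B (fun x hx => S.nd x (fun y => by
      rw [S.symm]; exact hx y)) _ hb
    have haw : S.B a w = 0 := hw1 a (Submodule.subset_span (by simp))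
    have hcw : S.B c0 w = 0 := hw1 c0 (Submodule.subset_span (by simp))
    obtain ⟨s, hs⟩ := (hA a ha).2 b hab
    obtain ⟨c, x, hx, hxv⟩ := (hA c0 hc0).2 w hcw
    have e1 : x a = a := by
      rw [hxv, hac, haw]; module
    have e2 : x b = b + c0 := by
      rw [hxv, S.symm b c0, hcb, hw2]; module
    have h3 := hs.conj S hx
    rw [e1, e2] at h3
    have h4 := hs.mul S hab (by rw [S.add_right, hab, hac, add_zero]) h3
    have e3 : b + (b + c0) = c0 + (b + b) := by abel
    rw [e3, S.vadd_self, add_zero, S.add_self, S.add_right, S.alt, S.symm b c0, hcb, add_zero,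
      add_zero] at h4
    exact h4
  -- contradiction
  have hV : ∃ a : V, a ≠ 0 := by
    have : 0 < finrank F V := by omega
    have := Module.finrank_pos_iff.1 this
    exact _root_.exists_ne 0
  obtain ⟨a, ha⟩ := hV
  obtain ⟨w, hw, haw, -⟩ := S.exists_perp2_notMem hdim a a
  have hwa : ∀ l : F, w ≠ l • a := by
    rintro l rfl
    exact hw (Submodule.smul_mem _ _ (Submodule.subset_span (by simp)))
  obtain ⟨w', hw1, hw2⟩ := S.exists_eq_two ha hwa 0 1
  have hw0 : w ≠ 0 := by
    rintro rfl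
    exact hw (Submodule.zero_mem _)
  have hw'0 : w' ≠ 0 := by
    rintro rfl
    rw [map_zero] at hw2
    exact zero_ne_one hw2
  have hww : w + w' ≠ 0 := by
    intro h
    have := S.veq_of_add_zero h
    rw [this, S.alt] at hw2
    exact zero_ne_one hw2
  have h1 := (hzero a w ha hw0 haw).mul S haw hw1 (hzero a w' ha hw'0 hw1)
  rw [hw2] at h1
  have hp : S.B a (w + w') = 0 := by rw [S.add_right, haw, hw1, add_zero]
  have h2 := huniq ha hp h1 (hzero a (w + w') ha hww hp)
  rw [add_zero, zero_add] at h2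
  exact one_ne_zero h2

/-- **The main trichotomy.** -/
theorem trichotomy [Finite F] [FiniteDimensional F V] {a : V} (ha : S.A a)
    (hirr : ∀ W : Submodule F V, (∀ g ∈ S.L, ∀ w ∈ W, g w ∈ W) → W = ⊥ ∨ W = ⊤)
    (hdim : 4 ≤ finrank F V) :
    (∀ g : V ≃ₗ[F] V, (∀ u v, S.B (g u) (g v) = S.B u v) → g ∈ S.L) ∨
    (∃ Q : QuadraticForm F V, (∀ u v, polar Q u v = S.B u v) ∧
      (S.L = O Q ∨ ∀ g, g ∈ S.L ↔ (g ∈ O Q ∧ Even (finrank F (SpParity.fix g) + finrank F V)))) ∨
    (finrank F V = 4 ∧ (∀ x : F, x = 0 ∨ x = 1) ∧ (∀ v, v ≠ 0 → S.A v) ∧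
      ∀ x s, x ≠ 0 → S.Has x 0 s → s = 0) := by
  -- a second vector of `A`
  obtain ⟨b, hb, hab⟩ : ∃ b, S.A b ∧ S.B a b = 1 := by
    by_contra hcon
    push Not at hcon
    have hperp : ∀ g ∈ S.L, S.B a (g a) = 0 := by
      intro g hg
      by_contra h0
      apply hcon ((S.B a (g a))⁻¹ • g a) ((ha.map S hg).smul S (inv_ne_zero h0))
      rw [S.smul_right, inv_mul_cancel₀ h0]
    have h1 := hirr (Submodule.span F {v | ∃ g ∈ S.L, v = g a}) (by
      intro g hg w hw
      induction hw using Submodule.span_induction with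
      | mem x hx =>
        obtain ⟨g', hg', rfl⟩ := hx
        exact Submodule.subset_span ⟨g * g', S.L.mul_mem hg hg', rfl⟩
      | zero => rw [map_zero]; exact Submodule.zero_mem _
      | add x y _ _ hx hy => rw [map_add]; exact Submodule.add_mem _ hx hy
      | smul c x _ hx => rw [map_smul]; exact Submodule.smul_mem _ _ hx)
    rcases h1 with h1 | h1
    · have : a ∈ Submodule.span F {v | ∃ g ∈ S.L, v = g a} :=
        Submodule.subset_span ⟨1, S.L.one_mem, rfl⟩
      rw [h1, Submodule.mem_bot] at this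
      exact ha.1 this
    · apply ha.1
      apply S.nd
      intro y
      have hy : y ∈ Submodule.span F {v | ∃ g ∈ S.L, v = g a} := by
        rw [h1]; exact Submodule.mem_top
      induction hy using Submodule.span_induction with
      | mem x hx =>
        obtain ⟨g', hg', rfl⟩ := hx
        exact hperp g' hg'
      | zero => rw [map_zero]
      | add x y _ _ hx hy => rw [S.add_right, hx, hy, add_zero]
      | smul c x _ hx => rw [S.smul_right, hx, mul_zero]
  by_cases hone : ∀ (x y : V) (t : F), S.A x → S.A y → S.B x y = 1 → S.A (y + t • x) → t = 0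
  · -- first case
    right; left
    have hC : S.CaseOne a b := ⟨ha, hb, hab, hone⟩
    obtain ⟨Q, hQ1, hQ2, hQ3, hQa, hQb⟩ := hC.result
    obtain ⟨w, hw, haw, hbw⟩ := S.exists_perp2 (by omega) a b
    have hH : Hyp2 Q a b :=
      { two := S.two
        sq := S.exists_sq
        nd := fun x hx => S.nd x (fun y => by rw [← hQ1]; exact hx y)
        ha := hQa
        hb := hQb
        hab := by rw [hQ1, hab]
        more := ⟨w, hw, by rw [hQ1, haw], by rw [hQ1, hbw]⟩ }
    exact ⟨Q, hQ1, hH.between S.L hQ2 hQ3⟩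
  · push Not at hone
    obtain ⟨x, y, t, hx, hy, hxy, hyt, ht⟩ := hone
    obtain ⟨w, hw, hxw, hyw⟩ := S.exists_perp2 (by omega) x y
    by_cases hl : ∃ l : F, l ≠ 0 ∧ l ≠ 1
    · obtain ⟨l, hl0, hl1⟩ := hl
      left
      exact S.mem_of_transvections
        (S.all_transvections' hx hy hyt hxy ht hw hxw hyw hl0 hl1)
    · push Not at hl
      have h2 : ∀ x : F, x = 0 ∨ x = 1 := fun x => by
        by_cases h : x = 0
        · exact Or.inl h
        · exact Or.inr (hl x h)
      have ht1 : t = 1 := hl t ht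
      rw [ht1, one_smul] at hyt
      have hA := S.A_all_two h2 hx hy hyt hxy
      by_cases hT : ∃ x s, x ≠ 0 ∧ s ≠ 0 ∧ S.Has x 0 s
      · obtain ⟨x', s, hx', hs, hxs⟩ := hT
        rw [hl s hs] at hxs
        left
        exact S.mem_of_transvections (S.transvection_spread (by omega) h2 hA hx' hxs)
      · right; right
        have hdim4 : finrank F V = 4 := by
          by_contra hne
          exact hT (S.transvection_of_dim (by omega) hA)
        refine ⟨hdim4, h2, hA, fun x s hx hs => ?_⟩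
        by_contra hs0
        exact hT ⟨x, s, hx, hs0, hs⟩

end Ctx

end Cfsg.Agent.H890.SpCore
end

-- part: H890/SpSix
section
/-!
S5712 (helper890): the case `|F| = 2`, `dim V = 4`: the order of `L`.
-/

set_option autoImplicit false

namespace Cfsg.Agent.H890.SpCore

open Module

variable {F V : Type*} [Field F] [AddCommGroup V] [Module F V]

namespace Ctx

variable (S : Ctx F V)

/-- `O₂` of the stabiliser of `a`. -/
def Qa (a : V) : Subgroup (V ≃ₗ[F] V) where
  carrier := {g | ∃ w c, S.B a w = 0 ∧ ∀ v, g v = v + S.B v a • w + S.B v w • a + (c * S.B v a) • a}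
  mul_mem' {x y} hx hy := by
    obtain ⟨w, c, haw, hxv⟩ := hx
    obtain ⟨w', c', haw', hyv⟩ := hy
    refine ⟨w + w', c + c' + S.B w w', by rw [S.add_right, haw, haw', add_zero], fun v => ?_⟩
    show x (y v) = _
    have hwa : S.B w a = 0 := by rw [S.symm, haw]
    have hwa' : S.B w' a = 0 := by rw [S.symm, haw']
    have hs : S.B w' w = S.B w w' := S.symm _ _
    rw [hxv, hyv]
    simp only [S.add_left, S.add_right, S.smul_left, S.alt, haw, hwa', hs]
    module
  one_mem' := ⟨0, 0, by rw [map_zero], fun v => by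
    show v = _
    simp⟩
  inv_mem' {x} hx := by
    obtain ⟨w, c, haw, hxv⟩ := hx
    refine ⟨w, c, haw, fun v => ?_⟩
    obtain ⟨v, rfl⟩ := x.surjective v
    have h1 : x⁻¹ (x v) = v := x.symm_apply_apply v
    have hwa : S.B w a = 0 := by rw [S.symm, haw]
    rw [h1, hxv]
    simp only [S.add_left, S.smul_left, S.alt, haw, hwa]
    have e : v = v + ((S.B v a • w + S.B v a • w) + (S.B v w • a + S.B v w • a) +
        ((c * S.B v a) • a + (c * S.B v a) • a)) := by
      rw [S.vadd_self (S.B v a • w), S.vadd_self (S.B v w • a), S.vadd_self ((c * S.B v a) • a)]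
      simp
    conv_lhs => rw [e]
    module

theorem mem_Qa {a : V} {g : V ≃ₗ[F] V} : g ∈ S.Qa a ↔
    ∃ w c, S.B a w = 0 ∧ ∀ v, g v = v + S.B v a • w + S.B v w • a + (c * S.B v a) • a := Iff.rfl

theorem Qa_sq {a : V} {g : V ≃ₗ[F] V} (hg : g ∈ S.Qa a) : g * g = 1 := by
  obtain ⟨w, c, haw, hxv⟩ := hg
  have hwa : S.B w a = 0 := by rw [S.symm, haw]
  ext v
  show g (g v) = v
  rw [hxv, hxv]
  simp only [S.add_left, S.smul_left, S.alt, haw, hwa]
  have e : ∀ x y z : V, v + (x + x) + (y + y) + (z + z) = v := by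
    intro x y z
    rw [S.vadd_self, S.vadd_self, S.vadd_self]; simp
  conv_rhs => rw [← e (S.B v a • w) (S.B v w • a) ((c * S.B v a) • a)]
  module

theorem Qa_fix {a : V} {g : V ≃ₗ[F] V} (hg : g ∈ S.Qa a) : g a = a := by
  obtain ⟨w, c, haw, hxv⟩ := hg
  rw [hxv, S.alt, haw]
  module

/-- stabiliser of a vector in `L`, inside `L` -/
def stabL (a : V) : Subgroup S.L where
  carrier := {g | (g : V ≃ₗ[F] V) a = a}
  mul_mem' {x y} hx hy := by
    show x.1 (y.1 a) = a
    rw [show y.1 a = a from hy]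
    exact hx
  one_mem' := rfl
  inv_mem' {x} hx := by
    have h : x.1 a = a := hx
    show x.1.symm a = a
    rw [LinearEquiv.symm_apply_eq]
    exact h.symm

theorem mem_stabL {a : V} {g : S.L} : g ∈ S.stabL a ↔ (g : V ≃ₗ[F] V) a = a := Iff.rfl

variable [FiniteDimensional F V]

/-- `L` is transitive on nonzero vectors when `A = V ∖ 0` and `|F| = 2`. -/
theorem trans_two (hdim : 3 ≤ finrank F V) (h2 : ∀ x : F, x = 0 ∨ x = 1)
    (hA : ∀ v, v ≠ 0 → S.A v) {x y : V} (hx : x ≠ 0) (hy : y ≠ 0) : ∃ g ∈ S.L, g x = y := by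
  have hind : ∀ u v : V, u ≠ 0 → u ≠ v → ∀ l : F, u ≠ l • v := by
    intro u v hu huv l hl
    rcases h2 l with h | h
    · rw [h, zero_smul] at hl; exact hu hl
    · rw [h, one_smul] at hl; exact huv hl
  have key : ∀ x y : V, x ≠ 0 → y ≠ 0 → S.B x y = 0 → ∃ g ∈ S.L, g x = y := by
    intro x y hx hy hxy
    by_cases hne : x = y
    · exact ⟨1, S.L.one_mem, hne⟩
    obtain ⟨g, hg, hga, -⟩ := S.exists_weyl (hA x hx) (hA y hy) hxy (hind x y hx hne)
      (one_ne_zero (α := F))
    rw [inv_one, one_smul] at hga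
    exact ⟨g, hg, hga⟩
  obtain ⟨w, hw, hxw, hyw⟩ := S.exists_perp2 hdim x y
  obtain ⟨g, hg, hga⟩ := key x w hx hw hxw
  obtain ⟨g', hg', hga'⟩ := key w y hw hy (by rw [S.symm]; exact hyw)
  exact ⟨g' * g, S.L.mul_mem hg' hg, by show g' (g x) = y; rw [hga, hga']⟩

omit [FiniteDimensional F V] in
theorem card_F (h2 : ∀ x : F, x = 0 ∨ x = 1) : Nat.card F = 2 := by
  classical
  rw [Nat.card_eq_two_iff]
  refine ⟨0, 1, zero_ne_one, ?_⟩
  ext x
  simpa using h2 x

variable [Finite F]

theorem card_L (hdim : finrank F V = 4) (h2 : ∀ x : F, x = 0 ∨ x = 1)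
    (hA : ∀ v, v ≠ 0 → S.A v) {a : V} (ha : a ≠ 0) :
    Nat.card S.L = 15 * Nat.card (S.stabL a) := by
  have : Finite V := Module.finite_of_finite F
  have : Finite (V ≃ₗ[F] V) := Finite.of_injective (fun g : V ≃ₗ[F] V => (g : V → V))
    (fun g h hgh => LinearEquiv.ext (congrFun hgh))
  have hV : Nat.card V = 16 := by
    rw [Module.natCard_eq_pow_finrank (K := F), hdim, card_F h2]; norm_num
  have hindex : (S.stabL a).index = 15 := by
    -- the quotient is in bijection with the nonzero vectors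
    let f : S.L → {v : V // v ≠ 0} := fun g => ⟨(g : V ≃ₗ[F] V) a, fun h => ha
      ((LinearEquiv.map_eq_zero_iff _).1 h)⟩
    have h1 : ∀ g h : S.L, f g = f h ↔ g⁻¹ * h ∈ S.stabL a := by
      intro g h
      rw [mem_stabL]
      show _ ↔ (g : V ≃ₗ[F] V).symm ((h : V ≃ₗ[F] V) a) = a
      rw [LinearEquiv.symm_apply_eq, Subtype.ext_iff]
      exact eq_comm
    have hsurj : Function.Surjective f := by
      rintro ⟨v, hv⟩
      obtain ⟨g, hg, hgv⟩ := S.trans_two (by omega) h2 hA ha hv
      exact ⟨⟨g, hg⟩, Subtype.ext hgv⟩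
    let F' : (S.L ⧸ S.stabL a) → {v : V // v ≠ 0} := Quotient.lift f (fun g h hgh =>
      (h1 g h).2 (QuotientGroup.leftRel_apply.1 hgh))
    have hF : Function.Bijective F' := by
      constructor
      · intro x y
        induction x using QuotientGroup.induction_on with
        | H x =>
          induction y using QuotientGroup.induction_on with
          | H y =>
            intro h
            exact QuotientGroup.eq.2 ((h1 x y).1 h)
      · intro v
        obtain ⟨g, hg⟩ := hsurj v
        exact ⟨(g : S.L ⧸ S.stabL a), hg⟩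
    have h3 : (S.stabL a).index = Nat.card {v : V // v ≠ 0} :=
      Nat.card_congr (Equiv.ofBijective F' hF)
    rw [h3]
    classical
    have := Fintype.ofFinite V
    rw [Nat.card_eq_fintype_card, Fintype.card_subtype_compl, Fintype.card_subtype_eq,
      ← Nat.card_eq_fintype_card, hV]
  rw [← (S.stabL a).index_mul_card, hindex]

/-- `X_a` inside `L` -/
def XL (a : V) : Subgroup S.L := (S.Qa a).subgroupOf S.L

omit [FiniteDimensional F V] [Finite F] in
theorem XL_le (a : V) : S.XL a ≤ S.stabL a := by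
  intro g hg
  exact S.Qa_fix (Subgroup.mem_subgroupOf.1 hg)

omit [Finite F] in
theorem exists_perp_ind (hdim : 3 ≤ finrank F V) {a : V} (ha : a ≠ 0) :
    ∃ w, (∀ l : F, w ≠ l • a) ∧ S.B a w = 0 := by
  obtain ⟨b, hb⟩ := S.exists_eq ha 1
  obtain ⟨w, hw, haw, hbw⟩ := S.exists_perp2 hdim a b
  refine ⟨w, ?_, haw⟩
  rintro l rfl
  rw [S.smul_right, S.symm b a, hb, mul_one] at hbw
  exact hw (by rw [hbw, zero_smul])

theorem four_dvd_card_XL (hdim : finrank F V = 4) (hA : ∀ v, v ≠ 0 → S.A v) {a : V} (ha : a ≠ 0) :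
    4 ∣ Nat.card (S.XL a) := by
  have : Finite V := Module.finite_of_finite F
  have : Finite (V ≃ₗ[F] V) := Finite.of_injective (fun g : V ≃ₗ[F] V => (g : V → V))
    (fun g h hgh => LinearEquiv.ext (congrFun hgh))
  have hp : IsPGroup 2 (S.XL a) := by
    intro g
    refine ⟨1, ?_⟩
    rw [pow_one, pow_two]
    apply Subtype.ext
    apply Subtype.ext
    exact S.Qa_sq (Subgroup.mem_subgroupOf.1 g.2)
  obtain ⟨k, hk⟩ := (IsPGroup.iff_card (p := 2) (G := S.XL a)).1 hp
  -- two elements
  obtain ⟨w1, hw1, haw1⟩ := S.exists_perp_ind (by omega) ha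
  obtain ⟨w2, haw2, hw12⟩ := S.exists_eq_two ha hw1 0 1
  obtain ⟨c1, x1, hx1, hx1v⟩ := (hA a ha).2 w1 haw1
  obtain ⟨c2, x2, hx2, hx2v⟩ := (hA a ha).2 w2 haw2
  have hw21 : S.B w2 w1 = 1 := by rw [S.symm, hw12]
  have e1 : x1 w2 = w2 + a := by
    rw [hx1v, S.symm w2 a, haw2, hw21]; module
  have e2 : x2 w2 = w2 := by
    rw [hx2v, S.symm w2 a, haw2, S.alt]; module
  have e3 : x2 w1 = w1 + a := by
    rw [hx2v, S.symm w1 a, haw1, hw12]; module
  let y1 : S.XL a := ⟨⟨x1, hx1⟩, Subgroup.mem_subgroupOf.2 ⟨w1, c1, haw1, hx1v⟩⟩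
  let y2 : S.XL a := ⟨⟨x2, hx2⟩, Subgroup.mem_subgroupOf.2 ⟨w2, c2, haw2, hx2v⟩⟩
  have n1 : y1 ≠ 1 := by
    intro h
    have h3 : x1 = 1 := congrArg (fun z : S.XL a => (z.1.1 : V ≃ₗ[F] V)) h
    rw [h3] at e1
    exact ha (left_eq_add.1 e1)
  have n2 : y2 ≠ 1 := by
    intro h
    have h3 : x2 = 1 := congrArg (fun z : S.XL a => (z.1.1 : V ≃ₗ[F] V)) h
    rw [h3] at e3
    exact ha (left_eq_add.1 e3)
  have n3 : y1 ≠ y2 := by
    intro h
    have h3 : x1 = x2 := congrArg (fun z : S.XL a => (z.1.1 : V ≃ₗ[F] V)) h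
    rw [h3, e2] at e1
    exact ha (left_eq_add.1 e1)
  have hk2 : 2 < 2 ^ k := by
    rw [← hk]
    classical
    have := Fintype.ofFinite (S.XL a)
    rw [Nat.card_eq_fintype_card, Fintype.two_lt_card_iff]
    exact ⟨1, y1, y2, n1.symm, n2.symm, n3⟩
  have hk3 : 2 ≤ k := by
    by_contra h
    have : k ≤ 1 := by omega
    have : 2 ^ k ≤ 2 ^ 1 := Nat.pow_le_pow_right (by norm_num) this
    omega
  rw [hk]
  exact (by norm_num : (4 : ℕ) ∣ 2 ^ 2).trans (pow_dvd_pow 2 hk3)

theorem sixty_dvd (hdim : finrank F V = 4) (h2 : ∀ x : F, x = 0 ∨ x = 1)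
    (hA : ∀ v, v ≠ 0 → S.A v) : 60 ∣ Nat.card S.L := by
  have hV : ∃ a : V, a ≠ 0 := by
    have : 0 < finrank F V := by omega
    have := Module.finrank_pos_iff.1 this
    exact _root_.exists_ne 0
  obtain ⟨a, ha⟩ := hV
  rw [S.card_L hdim h2 hA ha]
  have h4 := (S.four_dvd_card_XL hdim hA ha).trans (Subgroup.card_dvd_of_le (S.XL_le a))
  obtain ⟨k, hk⟩ := h4
  exact ⟨k, by rw [hk]; ring⟩

theorem card_ne_sixty (hdim : finrank F V = 4) (h2 : ∀ x : F, x = 0 ∨ x = 1)
    (hA : ∀ v, v ≠ 0 → S.A v) : Nat.card S.L ≠ 60 := by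
  intro h60
  have : Finite V := Module.finite_of_finite F
  have : Finite (V ≃ₗ[F] V) := Finite.of_injective (fun g : V ≃ₗ[F] V => (g : V → V))
    (fun g h hgh => LinearEquiv.ext (congrFun hgh))
  -- stabilisers are the groups `X_a`
  have hstab : ∀ a : V, a ≠ 0 → S.stabL a = S.XL a := by
    intro a ha
    have h1 := S.card_L hdim h2 hA ha
    rw [h60] at h1
    have h3 : Nat.card (S.stabL a) = 4 := by omega
    have h4 := S.four_dvd_card_XL hdim hA ha
    have h5 : Nat.card (S.XL a) ≤ 4 := by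
      rw [← h3]
      exact Nat.le_of_dvd Nat.card_pos (Subgroup.card_dvd_of_le (S.XL_le a))
    have h6 : Nat.card (S.XL a) = 4 := by
      have := Nat.card_pos (α := S.XL a)
      exact le_antisymm h5 (Nat.le_of_dvd this h4)
    exact (Subgroup.eq_of_le_of_card_ge (S.XL_le a) (by rw [h3, h6])).symm
  have hV : ∃ a : V, a ≠ 0 := by
    have : 0 < finrank F V := by omega
    have := Module.finrank_pos_iff.1 this
    exact _root_.exists_ne 0
  obtain ⟨a, ha⟩ := hV
  -- an element with `c = 1`
  obtain ⟨w, hwa, haw, hH⟩ : ∃ w, (∀ l : F, w ≠ l • a) ∧ S.B a w = 0 ∧ S.Has a w 1 := by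
    obtain ⟨w1, hw1, haw1⟩ := S.exists_perp_ind (by omega) ha
    obtain ⟨w2, haw2, hw12⟩ := S.exists_eq_two ha hw1 0 1
    obtain ⟨c1, hc1⟩ := (hA a ha).2 w1 haw1
    obtain ⟨c2, hc2⟩ := (hA a ha).2 w2 haw2
    rcases h2 c1 with h | h
    · rcases h2 c2 with h' | h'
      · refine ⟨w1 + w2, ?_, by rw [S.add_right, haw1, haw2, add_zero], ?_⟩
        · intro l hl
          have : S.B w1 (w1 + w2) = 0 := by
            rw [hl, S.smul_right, S.symm w1 a, haw1, mul_zero]
          rw [S.add_right, S.alt, hw12, zero_add] at this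
          exact one_ne_zero this
        · have h3 := hc1.mul S haw1 haw2 hc2
          rwa [h, h', hw12, add_zero, zero_add] at h3
      · refine ⟨w2, ?_, haw2, by rwa [h'] at hc2⟩
        rintro l rfl
        rw [S.smul_right, S.symm w1 a, haw1, mul_zero] at hw12
        exact zero_ne_one hw12
    · exact ⟨w1, hw1, haw1, by rwa [h] at hc1⟩
  have hw0 : w ≠ 0 := by
    have := hwa 0
    rwa [zero_smul] at this
  obtain ⟨z, hz, hzv⟩ := hH
  have hzw : z w = w := by
    rw [hzv, S.symm w a, haw, S.alt]; module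
  have h3 : (⟨z, hz⟩ : S.L) ∈ S.XL w := by
    rw [← hstab w hw0]
    exact hzw
  obtain ⟨w', c', hw', hzv'⟩ := Subgroup.mem_subgroupOf.1 h3
  obtain ⟨v, hv1, hv2⟩ := S.exists_eq_two ha hwa 1 0
  have h4 : z v = v + (w + a) := by
    rw [hzv, S.symm v a, hv1, S.symm v w, hv2]; module
  have h5 : z v = v + S.B v w' • w := by
    have := hzv' v
    rw [S.symm v w, hv2] at this
    rw [show z v = _ from this]
    module
  rw [h4] at h5
  have h6 : w + a = S.B v w' • w := add_left_cancel h5
  rcases h2 (S.B v w') with h | h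
  · rw [h, zero_smul] at h6
    apply hwa 1
    rw [one_smul]
    exact S.veq_of_add_zero h6
  · rw [h, one_smul] at h6
    exact ha (left_eq_add.1 h6.symm)

omit [FiniteDimensional F V] [Finite F] in
/-- A transvection is an isometry not in `L`. -/
theorem exists_not_mem {a : V} (ha : ∀ s, S.Has a 0 s → s = 0) :
    ∃ g : V ≃ₗ[F] V, (∀ u v, S.B (g u) (g v) = S.B u v) ∧ g ∉ S.L := by
  let f : V →ₗ[F] V := LinearMap.id + (LinearMap.flip S.B a).smulRight a
  have hf : ∀ v, f v = v + S.B v a • a := fun v => rfl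
  have hff : ∀ v, f (f v) = v := by
    intro v
    rw [hf, hf, S.add_left, S.smul_left, S.alt, mul_zero, add_zero, add_assoc, S.vadd_self,
      add_zero]
  let g : V ≃ₗ[F] V := LinearEquiv.ofLinearMap f f (LinearMap.ext hff) (LinearMap.ext hff)
  have hg : ∀ v, g v = v + S.B v a • a := hf
  refine ⟨g, fun u v => ?_, fun h => ?_⟩
  · rw [hg, hg]
    simp only [S.add_left, S.add_right, S.smul_left, S.smul_right, S.alt]
    rw [S.symm a v]
    linear_combination (S.B u a * S.B v a) * S.two
  · have h1 := ha 1 ⟨g, h, fun v => by rw [hg, map_zero]; module⟩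
    exact one_ne_zero h1

end Ctx

end Cfsg.Agent.H890.SpCore
end

-- part: H890/SpTwoCore
section
/-!
S5712 (helper890): a normal 2-subgroup of the stabiliser of `a` in the isometry group lies in `Qa a`.
-/

set_option autoImplicit false

namespace Cfsg.Agent.H890.SpCore

open Module

variable {F V : Type*} [Field F] [AddCommGroup V] [Module F V]

namespace Ctx

variable (S : Ctx F V)

/-- the transvection map -/
def tvLin (z : V) : V →ₗ[F] V := LinearMap.id + (LinearMap.flip S.B z).smulRight z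

theorem tvLin_apply (z v : V) : S.tvLin z v = v + S.B v z • z := rfl

theorem tvLin_tvLin (z v : V) : S.tvLin z (S.tvLin z v) = v := by
  rw [tvLin_apply, tvLin_apply, S.add_left, S.smul_left, S.alt, mul_zero, add_zero, add_assoc,
    S.vadd_self, add_zero]

/-- the transvection `v ↦ v + B v z • z` -/
def tv (z : V) : V ≃ₗ[F] V :=
  LinearEquiv.ofLinearMap (S.tvLin z) (S.tvLin z) (LinearMap.ext (S.tvLin_tvLin z))
    (LinearMap.ext (S.tvLin_tvLin z))

theorem tv_apply (z v : V) : S.tv z v = v + S.B v z • z := rfl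

theorem tv_inv_apply (z v : V) : (S.tv z)⁻¹ v = v + S.B v z • z := rfl

theorem tv_isom (z u v : V) : S.B (S.tv z u) (S.tv z v) = S.B u v := by
  rw [tv_apply, tv_apply]
  simp only [S.add_left, S.add_right, S.smul_left, S.smul_right, S.alt]
  rw [S.symm z v]
  linear_combination (S.B u z * S.B v z) * S.two

/-- `t_u t_z` with `B u z ≠ 0` is not a 2-element. -/
theorem not_two_elt {u z : V} (h : S.B u z ≠ 0) (k : ℕ) (s : V ≃ₗ[F] V)
    (hs : ∀ v, s v = v + S.B v z • z + S.B v u • u + (S.B v z * S.B z u) • u)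
    (hk : s ^ (2 ^ k) = 1) : False := by
  have hzu : S.B z u ≠ 0 := by rwa [S.symm]
  have hz0 : z ≠ 0 := by
    rintro rfl
    exact h (map_zero _)
  have : Nontrivial V := ⟨⟨z, 0, hz0⟩⟩
  have hc : CharP F 2 := CharTwo.of_one_ne_zero_of_two_eq_zero one_ne_zero S.two
  have hc' : CharP (Module.End F V) 2 := charP_of_injective_algebraMap (algebraMap F (Module.End F V)).injective 2
  -- `(s - 1)^(2^k) = 0`
  have h1 : (s.toLinearMap - 1 : Module.End F V) ^ (2 ^ k) = 0 := by
    rw [sub_pow_char_pow_of_commute 2 k (Commute.one_right _), one_pow]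
    have e : ∀ m : ℕ, (s.toLinearMap : Module.End F V) ^ m = ((s ^ m : V ≃ₗ[F] V)).toLinearMap := by
      intro m
      induction m with
      | zero => rfl
      | succ m ih => rw [pow_succ, pow_succ, ih]; rfl
    rw [e, hk]
    exact sub_self _
  -- but `s - 1` is injective on the plane
  have h2 : ∀ m : ℕ, ∃ x y : F, (x ≠ 0 ∨ y ≠ 0) ∧
      ((s.toLinearMap - 1 : Module.End F V) ^ m) z = x • z + y • u := by
    intro m
    induction m with
    | zero => exact ⟨1, 0, Or.inl one_ne_zero, by simp⟩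
    | succ m ih =>
      obtain ⟨x, y, hxy, hm⟩ := ih
      refine ⟨y * S.B u z, x * S.B z u + y * S.B u z * S.B z u, ?_, ?_⟩
      · by_cases hy : y = 0
        · subst hy
          right
          have hx : x ≠ 0 := by
            rcases hxy with hx | hy
            · exact hx
            · exact absurd rfl hy
          rw [zero_mul, zero_mul, add_zero]
          exact mul_ne_zero hx hzu
        · exact Or.inl (mul_ne_zero hy h)
      · rw [pow_succ', Module.End.mul_apply, hm]
        show s (x • z + y • u) - (x • z + y • u) = _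
        rw [hs]
        simp only [S.add_left, S.smul_left, S.alt]
        module
  obtain ⟨x, y, hxy, hm⟩ := h2 (2 ^ k)
  rw [h1, LinearMap.zero_apply] at hm
  have h3 : S.B u (x • z + y • u) = 0 := by rw [← hm, map_zero]
  have h4 : S.B z (x • z + y • u) = 0 := by rw [← hm, map_zero]
  rw [S.add_right, S.smul_right, S.smul_right, S.alt, mul_zero, add_zero] at h3
  rw [S.add_right, S.smul_right, S.smul_right, S.alt, mul_zero, zero_add] at h4
  rcases hxy with hx | hy
  · exact mul_ne_zero hx h h3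
  · exact mul_ne_zero hy hzu h4

variable (a : V) (N : Subgroup (V ≃ₗ[F] V))

/-- **A normal 2-subgroup of the stabiliser of `a` in the isometry group lies in `Qa a`.** -/
theorem le_Qa (ha : a ≠ 0) (hiso : ∀ g ∈ N, ∀ u v, S.B (g u) (g v) = S.B u v)
    (hfix : ∀ g ∈ N, g a = a) (h2 : ∀ g ∈ N, ∃ k : ℕ, g ^ (2 ^ k) = 1)
    (hnorm : ∀ t : V ≃ₗ[F] V, (∀ u v, S.B (t u) (t v) = S.B u v) → t a = a → ∀ g ∈ N,
      t * g * t⁻¹ ∈ N) : ∀ g ∈ N, g ∈ S.Qa a := by
  -- the commutator with a transvection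
  have hcomm : ∀ g ∈ N, ∀ z, S.B z a = 0 → g * (S.tv z * g⁻¹ * (S.tv z)⁻¹) ∈ N := by
    intro g hg z hz
    refine N.mul_mem hg (hnorm _ (S.tv_isom z) ?_ _ (N.inv_mem hg))
    rw [tv_apply, S.symm a z, hz, zero_smul, add_zero]
  have hcomm' : ∀ g ∈ N, ∀ z v, (g * (S.tv z * g⁻¹ * (S.tv z)⁻¹)) v =
      v + S.B v z • z + S.B v (g z) • g z + (S.B v z * S.B z (g z)) • g z := by
    intro g hg z v
    show g (S.tv z (g⁻¹ ((S.tv z)⁻¹ v))) = _
    rw [tv_inv_apply, tv_apply, map_add g]
    have h3 : ∀ x, g (g⁻¹ x) = x := fun x => g.apply_symm_apply x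
    have h4 : ∀ x y, S.B (g⁻¹ x) y = S.B x (g y) := by
      intro x y
      rw [← hiso g hg, h3]
    rw [h3, map_smul, h4, S.add_left, S.smul_left]
    module
  -- step 1
  have hone : ∀ g ∈ N, ∀ z, S.B z a = 0 → S.B (g z) z = 0 := by
    intro g hg z hz
    by_contra h0
    obtain ⟨k, hk⟩ := h2 _ (hcomm g hg z hz)
    exact S.not_two_elt h0 k _ (hcomm' g hg z) hk
  -- step 2
  have htwo : ∀ g ∈ N, ∀ z, S.B z a = 0 → ∃ l : F, g z = z + l • a := by
    intro g hg z hz
    have h1 : ∀ y, S.B y a = 0 → S.B y (z + g z) = 0 := by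
      intro y hy
      have h3 := hone _ (hcomm g hg z hz) y hy
      rw [hcomm' g hg z y] at h3
      simp only [S.add_left, S.smul_left, S.alt, S.symm z (g z), hone g hg z hz] at h3
      rw [S.symm z y, S.symm (g z) y] at h3
      have h4 : (S.B y (z + g z)) ^ 2 = 0 := by
        rw [S.add_right]
        linear_combination h3 + (S.B y z * S.B y (g z)) * S.two
      exact pow_eq_zero_iff two_ne_zero |>.1 h4
    by_contra hcon
    push Not at hcon
    have h5 : ∀ l : F, z + g z ≠ l • a := by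
      intro l hl
      apply hcon l
      rw [← hl, ← add_assoc, S.vadd_self, zero_add]
    obtain ⟨y, hy1, hy2⟩ := S.exists_eq_two ha h5 0 1
    have := h1 y (by rw [S.symm]; exact hy1)
    rw [S.symm, hy2] at this
    exact one_ne_zero this
  -- conclusion
  intro g hg
  obtain ⟨b, hab⟩ := S.exists_eq ha 1
  have hba : S.B b a = 1 := by rw [S.symm, hab]
  have hagb : S.B a (g b) = 1 := by
    nth_rewrite 1 [← hfix g hg]
    rw [hiso g hg, hab]
  refine ⟨g b + b, S.B b (g b), ?_, ?_⟩
  · rw [S.add_right, hagb, hab, S.add_self]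
  · intro v
    have h6 : S.B (v + S.B v a • b) a = 0 := by
      rw [S.add_left, S.smul_left, hba, mul_one, S.add_self]
    obtain ⟨l, hl⟩ := htwo g hg _ h6
    have h7 : S.B (v + S.B v a • b) (g b + b) = l := by
      have h8 := hiso g hg (v + S.B v a • b) b
      rw [hl, S.add_left, S.smul_left, hagb, mul_one] at h8
      rw [S.add_right]
      have : S.B (v + S.B v a • b) (g b) = S.B (v + S.B v a • b) b - l := by
        linear_combination h8
      rw [this]
      linear_combination (S.B (v + S.B v a • b) b - l) * S.two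
    rw [S.add_left, S.smul_left, S.add_right, S.add_right, S.alt] at h7
    rw [map_add, map_smul] at hl
    have h9 : g v = v + S.B v a • b + l • a + S.B v a • g b := by
      have : g v = (g v + S.B v a • g b) + S.B v a • g b - (S.B v a • g b + S.B v a • g b) := by abel
      rw [this, hl, S.vadd_self, sub_zero]
    rw [h9, ← h7, S.add_right]
    have e : ∀ x : F, -x = x := S.neg_eq
    module

end Ctx

end Cfsg.Agent.H890.SpCore
end

-- part: H890/SpX
section
/-!
S5712 (helper890): a subgroup `X` of `Qa a` of order `q^(2n-2)` without transvections gives `A a`.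
-/

set_option autoImplicit false

namespace Cfsg.Agent.H890.SpCore

open Module

variable {F V : Type*} [Field F] [AddCommGroup V] [Module F V]

namespace Ctx

variable (S : Ctx F V)

theorem card_ker_fun2 [Finite F] [FiniteDimensional F V] {a b : V} (hab : S.B a b = 1) :
    Nat.card (LinearMap.ker (S.fun2 a b)) = Nat.card F ^ (finrank F V - 2) := by
  have hsurj : Function.Surjective (S.fun2 a b) := by
    rintro ⟨x, y⟩
    refine ⟨y • a + x • b, ?_⟩
    have hba : S.B b a = 1 := by rw [S.symm, hab]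
    rw [fun2_apply, Prod.mk.injEq]
    simp only [S.add_right, S.smul_right, S.alt, hab, hba]
    constructor <;> ring
  have h3 := LinearMap.finrank_range_add_finrank_ker (S.fun2 a b)
  rw [LinearMap.range_eq_top.2 hsurj, finrank_top, Module.finrank_prod, Module.finrank_self] at h3
  rw [Module.natCard_eq_pow_finrank (K := F)]
  congr 1
  omega

theorem A_of_X [Finite F] [FiniteDimensional F V] {a : V} (ha : a ≠ 0) (X : Subgroup (V ≃ₗ[F] V))
    (hXL : X ≤ S.L) (hXQ : ∀ x ∈ X, x ∈ S.Qa a)
    (hcard : Nat.card X = Nat.card F ^ (finrank F V - 2))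
    (hntv : ∀ x ∈ X, ∀ c : F, (∀ v, x v = v + (c * S.B v a) • a) → c = 0) : S.A a := by
  have : Finite V := Module.finite_of_finite F
  obtain ⟨b, hab⟩ := S.exists_eq ha 1
  have hba : S.B b a = 1 := by rw [S.symm, hab]
  -- the projection
  have hπ : ∀ w, S.B a w = 0 → w + S.B b w • a ∈ LinearMap.ker (S.fun2 a b) := by
    intro w hw
    rw [LinearMap.mem_ker, fun2_apply, Prod.mk_eq_zero]
    simp only [S.add_right, S.smul_right, S.alt, hba, hw]
    constructor
    · ring
    · linear_combination (S.B b w) * S.two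
  have hx : ∀ x ∈ X, ∀ w c, S.B a w = 0 →
      (∀ v, x v = v + S.B v a • w + S.B v w • a + (c * S.B v a) • a) →
      x b + b + S.B b (x b) • a = w + S.B b w • a := by
    intro x _ w c hw hxv
    rw [hxv b, hba]
    simp only [S.add_right, S.smul_right, S.alt, hba]
    have e : b + (1 : F) • w + S.B b w • a + (c * 1) • a + b +
        (0 + 1 * S.B b w + S.B b w * 1 + c * 1 * 1) • a =
        w + S.B b w • a + ((b + b) + ((S.B b w • a + S.B b w • a) + (c • a + c • a))) := by module
    rw [e, S.vadd_self, S.vadd_self, S.vadd_self, add_zero, add_zero, add_zero]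
  let Ψ : X → LinearMap.ker (S.fun2 a b) := fun x => ⟨x.1 b + b + S.B b (x.1 b) • a, by
    obtain ⟨w, c, hw, hxv⟩ := hXQ x.1 x.2
    rw [hx x.1 x.2 w c hw hxv]
    exact hπ w hw⟩
  have hinj : Function.Injective Ψ := by
    intro x y hxy
    obtain ⟨w, c, hw, hxv⟩ := hXQ x.1 x.2
    obtain ⟨w', c', hw', hyv⟩ := hXQ y.1 y.2
    have h1 : x.1 b + b + S.B b (x.1 b) • a = y.1 b + b + S.B b (y.1 b) • a :=
      congrArg Subtype.val hxy
    rw [hx x.1 x.2 w c hw hxv, hx y.1 y.2 w' c' hw' hyv] at h1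
    have h2 : w = w' + (S.B b w + S.B b w') • a := by
      have e : w = (w + S.B b w • a) + S.B b w • a := by
        rw [add_assoc, S.vadd_self, add_zero]
      rw [e, h1]
      have hc : S.B b (w' + S.B b w' • a + S.B b w • a) = S.B b w := by
        simp only [S.add_right, S.smul_right, hba]
        linear_combination (S.B b w') * S.two
      rw [hc]
      module
    have hxyX : x.1 * y.1 ∈ X := X.mul_mem x.2 y.2
    have h3 : ∀ v, (x.1 * y.1) v = v + ((c + c' + S.B w w') * S.B v a) • a := by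
      intro v
      show x.1 (y.1 v) = _
      have hwa : S.B w a = 0 := by rw [S.symm, hw]
      have hwa' : S.B w' a = 0 := by rw [S.symm, hw']
      have hs : S.B w' w = S.B w w' := S.symm _ _
      rw [hxv, hyv]
      simp only [S.add_left, S.smul_left, S.alt, hw, hwa', hs]
      have hvw : S.B v w = S.B v w' + (S.B b w + S.B b w') * S.B v a := by
        conv_lhs => rw [h2]
        rw [S.add_right, S.smul_right]
      rw [hvw]
      nth_rewrite 1 [h2]
      have e : ∀ x : F, x • a + x • a = 0 := fun x => S.vadd_self _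
      have e' : ∀ (x : F) (w : V), x • w + x • w = 0 := fun x w => S.vadd_self _
      have key := e' (S.B v a) w'
      have key2 := e (S.B v w')
      have key3 := e ((S.B b w + S.B b w') * S.B v a)
      calc _ = v + ((c + c' + S.B w w') * S.B v a) • a + ((S.B v a • w' + S.B v a • w') +
            ((S.B v w' • a + S.B v w' • a) +
            (((S.B b w + S.B b w') * S.B v a) • a + ((S.B b w + S.B b w') * S.B v a) • a))) := by
              module
        _ = _ := by rw [key, key2, key3]; simp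
    have h4 := hntv _ hxyX _ h3
    have h5 : x.1 * y.1 = 1 := by
      ext v
      rw [h3, h4, zero_mul, zero_smul, add_zero]
      rfl
    have h6 : y.1 * y.1 = 1 := S.Qa_sq (hXQ y.1 y.2)
    exact Subtype.ext (mul_right_cancel (h5.trans h6.symm))
  have hsurj : Function.Surjective Ψ := by
    have hb : Function.Bijective Ψ := by
      refine (Nat.bijective_iff_injective_and_card _).2 ⟨hinj, ?_⟩
      rw [hcard, S.card_ker_fun2 hab]
    exact hb.2
  refine ⟨ha, fun w hw => ?_⟩
  obtain ⟨x, hxw⟩ := hsurj ⟨w + S.B b w • a, hπ w hw⟩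
  obtain ⟨w', c, hw', hxv⟩ := hXQ x.1 x.2
  have h1 : x.1 b + b + S.B b (x.1 b) • a = w + S.B b w • a := congrArg Subtype.val hxw
  rw [hx x.1 x.2 w' c hw' hxv] at h1
  have h2 : w = w' + (S.B b w' + S.B b w) • a := by
    have e : w = (w + S.B b w • a) + S.B b w • a := by
      rw [add_assoc, S.vadd_self, add_zero]
    rw [e, ← h1]
    have hc : S.B b (w' + S.B b w' • a + S.B b w • a) = S.B b w := by
      simp only [S.add_right, S.smul_right, hba]
      linear_combination (S.B b w') * S.two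
    rw [hc]
    module
  have h3 : S.Has a w' c := ⟨x.1, hXL x.2, hxv⟩
  have h4 := h3.add_smul S (S.B b w' + S.B b w)
  rw [← h2] at h4
  exact ⟨c, h4⟩

end Ctx

end Cfsg.Agent.H890.SpCore
end

-- part: H890/SixGroup
section
/-!
S5712 (helper890): subgroups of `S_6` of order divisible by `60`, different from `60` and `720`.
-/

set_option autoImplicit false

namespace Cfsg.Agent.H890.SixGroup

open Equiv.Perm

/-- A subgroup which is the stabiliser of a point of a faithful action as the full symmetric group. -/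
theorem nonempty_equiv_of_map {G X : Type*} [Group G] [DecidableEq X] (e : G ≃* Equiv.Perm X) (x : X)
    (H : Subgroup G) (hH : ∀ g, g ∈ H ↔ e g x = x) :
    Nonempty (H ≃* Equiv.Perm {y : X // y ≠ x}) := by
  let φ : Equiv.Perm {y : X // y ≠ x} →* G :=
    e.symm.toMonoidHom.comp (Equiv.Perm.ofSubtype (p := fun y => y ≠ x))
  have hφ : Function.Injective φ :=
    e.symm.injective.comp Equiv.Perm.ofSubtype_injective
  have hrange : φ.range = H := by
    ext g
    rw [hH]
    constructor
    · rintro ⟨σ, rfl⟩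
      have h1 : e (φ σ) = Equiv.Perm.ofSubtype σ := e.apply_symm_apply _
      rw [h1]
      exact Equiv.Perm.ofSubtype_apply_of_not_mem σ (by simp)
    · intro h
      have h2 : ∀ y, y ≠ x ↔ e g y ≠ x := by
        intro y
        constructor
        · intro hy h3
          apply hy
          apply (e g).injective
          rw [h3, h]
        · rintro hy rfl
          exact hy h
      refine ⟨(e g).subtypePerm (fun y => (h2 y).symm), ?_⟩
      show e.symm (Equiv.Perm.ofSubtype _) = g
      rw [Equiv.Perm.ofSubtype_subtypePerm]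
      · exact e.symm_apply_apply g
      · intro y hy hyx
        rw [hyx, h] at hy
        exact hy rfl
  exact ⟨((MonoidHom.ofInjective hφ).trans (MulEquiv.subgroupCongr hrange)).symm⟩

theorem card_perm6 : Nat.card (Equiv.Perm (Fin 6)) = 720 := by
  rw [Nat.card_eq_fintype_card, Fintype.card_perm, Fintype.card_fin]
  rfl

theorem main (H : Subgroup (Equiv.Perm (Fin 6))) (h60 : 60 ∣ Nat.card H) (hne : Nat.card H ≠ 60)
    (htop : H ≠ ⊤) :
    Nonempty (H ≃* alternatingGroup (Fin 6)) ∨ Nonempty (H ≃* Equiv.Perm (Fin 5)) := by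
  have hmul := H.card_mul_index
  rw [card_perm6] at hmul
  obtain ⟨k, hk⟩ := h60
  rw [hk] at hmul
  have h12 : k * H.index = 12 := by
    have : 60 * (k * H.index) = 60 * 12 := by rw [← mul_assoc, hmul]
    exact Nat.eq_of_mul_eq_mul_left (by norm_num) this
  have hk1 : k ≠ 1 := by
    rintro rfl
    exact hne (by rw [hk])
  have hi1 : H.index ≠ 1 := by
    intro h
    exact htop (Subgroup.index_eq_one.1 h)
  by_cases hcore : H.normalCore = ⊥
  · right
    -- faithful action on the cosets
    rw [Subgroup.normalCore_eq_ker] at hcore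
    have hinj : Function.Injective (MulAction.toPermHom (Equiv.Perm (Fin 6)) (Equiv.Perm (Fin 6) ⧸ H)) :=
      (MonoidHom.ker_eq_bot_iff _).1 hcore
    have hcardle : Nat.card (Equiv.Perm (Fin 6)) ≤
        Nat.card (Equiv.Perm (Equiv.Perm (Fin 6) ⧸ H)) := Nat.card_le_card_of_injective _ hinj
    have hcq : Nat.card (Equiv.Perm (Fin 6) ⧸ H) = H.index := rfl
    rw [card_perm6, Nat.card_perm, hcq] at hcardle
    have hi6 : H.index = 6 := by
      have h6 : ¬ H.index < 6 := by
        intro hlt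
        have : (H.index).factorial ≤ (5).factorial := Nat.factorial_le (by omega)
        have h5 : (5).factorial = 120 := rfl
        omega
      have hdvd : H.index ∣ 12 := ⟨k, by rw [← h12, mul_comm]⟩
      have hle : H.index ≤ 12 := Nat.le_of_dvd (by norm_num) hdvd
      have h12' : H.index ≠ 12 := by
        intro h
        rw [h] at h12
        omega
      interval_cases H.index <;> first | rfl | omega
    have hcard2 : Nat.card (Equiv.Perm (Equiv.Perm (Fin 6) ⧸ H)) = 720 := by
      rw [Nat.card_perm, hcq, hi6]; rfl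
    have hbij : Function.Bijective
        (MulAction.toPermHom (Equiv.Perm (Fin 6)) (Equiv.Perm (Fin 6) ⧸ H)) := by
      refine (Nat.bijective_iff_injective_and_card _).2 ⟨hinj, ?_⟩
      rw [card_perm6, hcard2]
    classical
    let e := MulEquiv.ofBijective _ hbij
    obtain ⟨f⟩ := nonempty_equiv_of_map e ((1 : Equiv.Perm (Fin 6)) : Equiv.Perm (Fin 6) ⧸ H) H (by
      intro g
      have h1 : MulAction.stabilizer (Equiv.Perm (Fin 6))
        ((1 : Equiv.Perm (Fin 6)) : Equiv.Perm (Fin 6) ⧸ H) = H := MulAction.stabilizer_quotient H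
      conv_lhs => rw [← h1]
      rfl)
    have : Nat.card {y : Equiv.Perm (Fin 6) ⧸ H // y ≠ ((1 : Equiv.Perm (Fin 6)) : Equiv.Perm (Fin 6) ⧸ H)}
        = 5 := by
      have := Fintype.ofFinite (Equiv.Perm (Fin 6) ⧸ H)
      rw [Nat.card_eq_fintype_card, Fintype.card_subtype_compl, Fintype.card_subtype_eq,
        ← Nat.card_eq_fintype_card, hcq, hi6]
    have e5 : {y : Equiv.Perm (Fin 6) ⧸ H // y ≠ ((1 : Equiv.Perm (Fin 6)) : Equiv.Perm (Fin 6) ⧸ H)}
        ≃ Fin 5 := Finite.equivFinOfCardEq this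
    exact ⟨f.trans e5.permCongrHom⟩
  · left
    have hle : alternatingGroup (Fin 6) ≤ H :=
      (Equiv.Perm.alternatingGroup_le_of_normal (by simp)
        ((Subgroup.nontrivial_iff_ne_bot _).2 hcore)).trans (Subgroup.normalCore_le H)
    have hdvd : H.index ∣ (alternatingGroup (Fin 6)).index := Subgroup.index_dvd_of_le hle
    rw [alternatingGroup.index_eq_two] at hdvd
    have h2 : H.index = 2 := by
      rcases (Nat.dvd_prime Nat.prime_two).1 hdvd with h | h
      · exact absurd h hi1
      · exact h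
    rw [Equiv.Perm.eq_alternatingGroup_of_index_eq_two h2]
    exact ⟨MulEquiv.refl _⟩

end Cfsg.Agent.H890.SixGroup
end

-- part: S5712
section
set_option autoImplicit false
open Cfsg

namespace Cfsg.Agent.S5712

open Module QuadraticMap Cfsg.Agent.LieClassical.OrthCore Cfsg.Agent.LieClassical.OrthFinite
  Cfsg.Agent.LieClassical.OrthForms Cfsg.Agent.H890.SpCore Cfsg.Agent.H890.SpParity

/-- the form of the statement -/
abbrev frm (n : ℕ) (F : Type*) [Field F] (u v : Fin n ⊕ Fin n → F) : F :=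
  ∑ i : Fin n, (u (Sum.inl i) * v (Sum.inr i) + u (Sum.inr i) * v (Sum.inl i))

/-- the isometry group of the statement -/
abbrev Sp (n : ℕ) (F : Type*) [Field F] : Subgroup (Matrix.GeneralLinearGroup (Fin n ⊕ Fin n) F) :=
  Cfsg.preserving (Units.coeHom (Matrix (Fin n ⊕ Fin n) (Fin n ⊕ Fin n) F)) (frm n F)

variable {F : Type*} [Field F] {n : ℕ}

theorem polar_eq_frm (u v : Fin n ⊕ Fin n → F) : polar (plusForm n F) u v = frm n F u v := by
  rw [polar_plusForm]
  exact Finset.sum_congr rfl fun i _ => by ring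

theorem mem_Sp {g : Matrix.GeneralLinearGroup (Fin n ⊕ Fin n) F} : g ∈ Sp n F ↔
    ∀ u v, frm n F ((g : Matrix _ _ F).mulVec u) ((g : Matrix _ _ F).mulVec v) = frm n F u v :=
  Iff.rfl

theorem om_eq_frm (h2 : (2 : F) = 0) (u v : Fin n ⊕ Fin n → F) :
    LieClassical.SympTransvection.om u v = frm n F u v := by
  rw [LieClassical.SympTransvection.om_eq_sum]
  refine Finset.sum_congr rfl fun i _ => ?_
  linear_combination (-(u (Sum.inl i) * v (Sum.inr i))) * h2

theorem mem_symplecticGroup_iff (h2 : (2 : F) = 0) (A : Matrix (Fin n ⊕ Fin n) (Fin n ⊕ Fin n) F) :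
    A ∈ Matrix.symplecticGroup (Fin n) F ↔
      ∀ u v, frm n F (A.mulVec u) (A.mulVec v) = frm n F u v := by
  rw [SymplecticGroup.mem_iff']
  have key : ∀ u v, LieClassical.SympTransvection.om (A.mulVec u) (A.mulVec v) =
      dotProduct u ((A.transpose * Matrix.J (Fin n) F * A).mulVec v) := by
    intro u v
    rw [LieClassical.SympTransvection.om_def, ← Matrix.mulVec_mulVec, ← Matrix.mulVec_mulVec,
      Matrix.dotProduct_mulVec u, Matrix.vecMul_transpose]
  constructor
  · intro h u v
    rw [← om_eq_frm h2, ← om_eq_frm h2, key, h, LieClassical.SympTransvection.om_def]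
  · intro h
    ext i j
    have h1 := h (Pi.single i 1) (Pi.single j 1)
    rw [← om_eq_frm h2, ← om_eq_frm h2, key, LieClassical.SympTransvection.om_def] at h1
    simpa using h1

theorem val_mem (h2 : (2 : F) = 0) {g : Matrix.GeneralLinearGroup (Fin n ⊕ Fin n) F}
    (hg : g ∈ Sp n F) :
    (g : Matrix (Fin n ⊕ Fin n) (Fin n ⊕ Fin n) F) ∈ Matrix.symplecticGroup (Fin n) F := by
  rw [mem_symplecticGroup_iff h2]
  exact mem_Sp.1 hg

/-- a symplectic matrix as an element of `GL` -/
def toGL (A : Matrix.symplecticGroup (Fin n) F) : Matrix.GeneralLinearGroup (Fin n ⊕ Fin n) F where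
  val := A.1
  inv := (A⁻¹ : Matrix.symplecticGroup (Fin n) F).1
  val_inv := by rw [← Submonoid.coe_mul, mul_inv_cancel, Submonoid.coe_one]
  inv_val := by rw [← Submonoid.coe_mul, inv_mul_cancel, Submonoid.coe_one]

theorem toGL_mem (h2 : (2 : F) = 0) (A : Matrix.symplecticGroup (Fin n) F) : toGL A ∈ Sp n F := by
  rw [mem_Sp]
  exact (mem_symplecticGroup_iff h2 A.1).1 A.2

/-- `Sp n F` maps to Mathlib's symplectic group (characteristic two). -/
def toSympHom (h2 : (2 : F) = 0) (n : ℕ) : Sp n F →* Matrix.symplecticGroup (Fin n) F where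
  toFun g := ⟨(g.1 : Matrix (Fin n ⊕ Fin n) (Fin n ⊕ Fin n) F), val_mem h2 g.2⟩
  map_one' := rfl
  map_mul' g h := rfl

theorem toSympHom_bijective (h2 : (2 : F) = 0) (n : ℕ) :
    Function.Bijective (toSympHom (F := F) h2 n) := by
  constructor
  · intro g h hgh
    apply Subtype.ext
    apply Units.ext
    exact congrArg Subtype.val hgh
  · intro A
    exact ⟨⟨toGL A, toGL_mem h2 A⟩, rfl⟩

/-- `Sp n F` is Mathlib's symplectic group (characteristic two). -/
noncomputable def toSymp (h2 : (2 : F) = 0) (n : ℕ) : Sp n F ≃* Matrix.symplecticGroup (Fin n) F :=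
  MulEquiv.ofBijective (toSympHom h2 n) (toSympHom_bijective h2 n)

section Main

variable [Fintype F]

/-- the context -/
noncomputable def ctx (h2 : (2 : F) = 0) (L : Subgroup (Matrix.GeneralLinearGroup (Fin n ⊕ Fin n) F))
    (hL : L ≤ Sp n F) : Ctx F (Fin n ⊕ Fin n → F) where
  B := polarBilin (plusForm n F)
  alt v := by
    rw [polarBilin_apply_apply, polar_self', h2, zero_mul]
  nd x hx := nondeg_plusForm n F x hx
  L := L.map (glEquiv (Fin n ⊕ Fin n) F).toMonoidHom
  inv := by
    rintro _ ⟨g, hg, rfl⟩ u v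
    rw [polarBilin_apply_apply, polarBilin_apply_apply, polar_eq_frm, polar_eq_frm]
    exact mem_Sp.1 (hL hg) u v
  two := h2

theorem ctx_B (h2 : (2 : F) = 0) (L : Subgroup (Matrix.GeneralLinearGroup (Fin n ⊕ Fin n) F))
    (hL : L ≤ Sp n F) (u v : Fin n ⊕ Fin n → F) : (ctx h2 L hL).B u v = frm n F u v :=
  polar_eq_frm u v

theorem mem_ctx_L (h2 : (2 : F) = 0) (L : Subgroup (Matrix.GeneralLinearGroup (Fin n ⊕ Fin n) F))
    (hL : L ≤ Sp n F) (g : Matrix.GeneralLinearGroup (Fin n ⊕ Fin n) F) :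
    glEquiv _ F g ∈ (ctx h2 L hL).L ↔ g ∈ L :=
  Subgroup.mem_map_iff_mem (glEquiv (Fin n ⊕ Fin n) F).injective

theorem isom_iff (h2 : (2 : F) = 0) (L : Subgroup (Matrix.GeneralLinearGroup (Fin n ⊕ Fin n) F))
    (hL : L ≤ Sp n F) (g : Matrix.GeneralLinearGroup (Fin n ⊕ Fin n) F) :
    (∀ u v, (ctx h2 L hL).B (glEquiv _ F g u) (glEquiv _ F g v) = (ctx h2 L hL).B u v) ↔
      g ∈ Sp n F := by
  rw [mem_Sp]
  simp only [ctx_B]
  rfl

theorem rank_add_fix (g : Matrix.GeneralLinearGroup (Fin n ⊕ Fin n) F) :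
    ((g : Matrix (Fin n ⊕ Fin n) (Fin n ⊕ Fin n) F) - 1).rank +
      finrank F (fix (glEquiv _ F g)) = finrank F (Fin n ⊕ Fin n → F) := by
  have h := LinearMap.finrank_range_add_finrank_ker
    (((g : Matrix (Fin n ⊕ Fin n) (Fin n ⊕ Fin n) F) - 1).mulVecLin)
  have e : LinearMap.ker (((g : Matrix (Fin n ⊕ Fin n) (Fin n ⊕ Fin n) F) - 1).mulVecLin) =
      fix (glEquiv _ F g) := by
    ext v
    rw [mem_fix, LinearMap.mem_ker, Matrix.mulVecLin_apply, Matrix.sub_mulVec, Matrix.one_mulVec,
      sub_eq_zero]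
    rfl
  rw [e] at h
  exact h

/-- `A a` from the hypotheses on `X`. -/
theorem A_a (h2 : (2 : F) = 0) {a : Fin n ⊕ Fin n → F} (ha : a ≠ 0)
    (X L : Subgroup (Matrix.GeneralLinearGroup (Fin n ⊕ Fin n) F)) (hL : L ≤ Sp n F)
    (hXO : ∀ H : Subgroup (Matrix.GeneralLinearGroup (Fin n ⊕ Fin n) F),
      (∀ g : Matrix.GeneralLinearGroup (Fin n ⊕ Fin n) F, g ∈ H ↔ (g ∈ Sp n F ∧
        Matrix.mulVec (g : Matrix (Fin n ⊕ Fin n) (Fin n ⊕ Fin n) F) a = a)) →
      X ≤ (Cfsg.pCore 2 ↥H).map H.subtype)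
    (hcard : Nat.card ↥X = Fintype.card F ^ (2 * n - 2))
    (hntv : ∀ x ∈ X, ((x : Matrix (Fin n ⊕ Fin n) (Fin n ⊕ Fin n) F) - 1).rank ≠ 1)
    (hXL : X ≤ L) : (ctx h2 L hL).A a := by
  classical
  let ψ := glEquiv (Fin n ⊕ Fin n) F
  let H : Subgroup (Matrix.GeneralLinearGroup (Fin n ⊕ Fin n) F) :=
    { carrier := {g | g ∈ Sp n F ∧ Matrix.mulVec (g : Matrix _ _ F) a = a}
      mul_mem' := by
        rintro x y ⟨hx1, hx2⟩ ⟨hy1, hy2⟩
        refine ⟨(Sp n F).mul_mem hx1 hy1, ?_⟩
        rw [Units.val_mul, ← Matrix.mulVec_mulVec, hy2, hx2]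
      one_mem' := ⟨(Sp n F).one_mem, by simp⟩
      inv_mem' := by
        rintro x ⟨hx1, hx2⟩
        refine ⟨(Sp n F).inv_mem hx1, ?_⟩
        nth_rewrite 1 [← hx2]
        rw [Matrix.mulVec_mulVec, ← Units.val_mul, inv_mul_cancel, Units.val_one,
          Matrix.one_mulVec] }
  have hH : ∀ g, g ∈ H ↔ (g ∈ Sp n F ∧ Matrix.mulVec (g : Matrix _ _ F) a = a) := fun g => Iff.rfl
  have hX := hXO H hH
  have : Fact (Nat.Prime 2) := ⟨Nat.prime_two⟩
  have hp : IsPGroup 2 (Cfsg.pCore 2 H) := Lib.HallHigman.pCore_isPGroup 2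
  have hn : (Cfsg.pCore 2 H).Normal := Lib.HallHigman.pCore_normal 2
  have hQ : ∀ g ∈ ((Cfsg.pCore 2 H).map H.subtype).map ψ.toMonoidHom, g ∈ (ctx h2 L hL).Qa a := by
    apply (ctx h2 L hL).le_Qa a _ ha
    · rintro _ ⟨g, ⟨h, -, rfl⟩, rfl⟩
      exact (isom_iff h2 L hL _).2 h.2.1
    · rintro _ ⟨g, ⟨h, -, rfl⟩, rfl⟩
      exact h.2.2
    · rintro _ ⟨g, ⟨h, hh, rfl⟩, rfl⟩
      obtain ⟨k, hk⟩ := hp ⟨h, hh⟩
      refine ⟨k, ?_⟩
      have h3 : h ^ 2 ^ k = 1 := by
        have := congrArg Subtype.val hk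
        rwa [Subgroup.coe_pow, Subgroup.coe_one] at this
      have h4 : (h : Matrix.GeneralLinearGroup (Fin n ⊕ Fin n) F) ^ 2 ^ k = 1 := by
        rw [← Subgroup.coe_pow, h3, Subgroup.coe_one]
      have h5 : (ψ (h : Matrix.GeneralLinearGroup (Fin n ⊕ Fin n) F)) ^ 2 ^ k = 1 := by
        rw [← map_pow, h4, map_one]
      exact h5
    · rintro t ht hta _ ⟨g, ⟨h, hh, rfl⟩, rfl⟩
      obtain ⟨t, rfl⟩ := ψ.surjective t
      have htH : t ∈ H := ⟨(isom_iff h2 L hL t).1 ht, hta⟩
      have h3 : t * (h : Matrix.GeneralLinearGroup (Fin n ⊕ Fin n) F) * t⁻¹ ∈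
          (Cfsg.pCore 2 H).map H.subtype := by
        refine ⟨⟨t, htH⟩ * h * (⟨t, htH⟩ : H)⁻¹, hn.conj_mem _ hh _, ?_⟩
        rw [map_mul, map_mul, map_inv]
        rfl
      have h4 := Subgroup.mem_map_of_mem ψ.toMonoidHom h3
      have h5 : ψ.toMonoidHom (t * (h : Matrix.GeneralLinearGroup (Fin n ⊕ Fin n) F) * t⁻¹) =
          ψ t * ψ h * (ψ t)⁻¹ := by
        rw [map_mul, map_mul, map_inv]
        rfl
      rw [h5] at h4
      exact h4
  refine (ctx h2 L hL).A_of_X ha (X.map ψ.toMonoidHom) (Subgroup.map_mono hXL) ?_ ?_ ?_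
  · intro x hx
    exact hQ x (Subgroup.map_mono hX hx)
  · rw [Subgroup.card_map_of_injective ψ.injective, hcard, Nat.card_eq_fintype_card,
      Module.finrank_fintype_fun_eq_card, Fintype.card_sum, Fintype.card_fin]
    congr 1
    omega
  · rintro _ ⟨g, hg, rfl⟩ c hc
    by_contra hc0
    apply hntv g hg
    have hr : LinearMap.range (((g : Matrix (Fin n ⊕ Fin n) (Fin n ⊕ Fin n) F) - 1).mulVecLin) =
        Submodule.span F {a} := by
      have h3 : ∀ v, ((g : Matrix (Fin n ⊕ Fin n) (Fin n ⊕ Fin n) F) - 1).mulVecLin v =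
          (c * (ctx h2 L hL).B v a) • a := by
        intro v
        rw [Matrix.mulVecLin_apply, Matrix.sub_mulVec, Matrix.one_mulVec]
        have h4 : (g : Matrix _ _ F).mulVec v = v + (c * (ctx h2 L hL).B v a) • a := hc v
        rw [h4, add_sub_cancel_left]
      apply le_antisymm
      · rintro _ ⟨v, rfl⟩
        rw [h3]
        exact Submodule.smul_mem _ _ (Submodule.mem_span_singleton_self a)
      · rw [Submodule.span_singleton_le_iff_mem]
        obtain ⟨v, hv⟩ := (ctx h2 L hL).exists_eq ha c⁻¹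
        refine ⟨v, ?_⟩
        rw [h3, (ctx h2 L hL).symm v a, hv, mul_inv_cancel₀ hc0, one_smul]
    rw [Matrix.rank, hr, finrank_span_singleton ha]

end Main

/-- Let F be a finite field of characteristic two, n ≥ 2, V = F^{2n} with the non-degenerate alternating form f(u, v) = Σ (u_i v_{n+i} + u_{n+i} v_i), and G the group of invertible matrices preserving f. Let a ≠ 0 be a vector, H its stabilizer in G, and X a subgroup of O₂(H) of order |F|^{2n−2} no element of which is a transvection (no element g has g − 1 of rank one). If L is a subgroup of G containing X that acts irreducibly on V (no proper non-zero L-invariant subspace), then L = G, or, for some quadratic form Q on V whose polar form is f, L is the isometry group of Q or its subgroup of the isometries g for which g − 1 has even rank, or |F| = 2, n = 2 and L is isomorphic to the alternating group of degree 6 or to the symmetric group of degree 5. -/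
theorem result {F : Type*} [Field F] [Fintype F] [CharP F 2] {n : ℕ} (hn : 2 ≤ n) (a : (Fin n ⊕ Fin n → F)) (ha : a ≠ 0)
    (X : Subgroup (GL (Fin n ⊕ Fin n) F)) (hXG : X ≤ Cfsg.preserving (Units.coeHom (Matrix (Fin n ⊕ Fin n) (Fin n ⊕ Fin n) F)) (fun u v : (Fin n ⊕ Fin n → F) => ∑ i : Fin n, (u (Sum.inl i) * v (Sum.inr i) + u (Sum.inr i) * v (Sum.inl i))))
    (hXO : ∀ H : Subgroup (GL (Fin n ⊕ Fin n) F),
      (∀ g : GL (Fin n ⊕ Fin n) F, g ∈ H ↔ (g ∈ Cfsg.preserving (Units.coeHom (Matrix (Fin n ⊕ Fin n) (Fin n ⊕ Fin n) F)) (fun u v : (Fin n ⊕ Fin n → F) => ∑ i : Fin n, (u (Sum.inl i) * v (Sum.inr i) + u (Sum.inr i) * v (Sum.inl i))) ∧ Matrix.mulVec (g : Matrix (Fin n ⊕ Fin n) (Fin n ⊕ Fin n) F) a = a)) →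
      X ≤ (Cfsg.pCore 2 ↥H).map H.subtype)
    (hcard : Nat.card ↥X = Fintype.card F ^ (2 * n - 2))
    (hntv : ∀ x ∈ X, ((x : Matrix (Fin n ⊕ Fin n) (Fin n ⊕ Fin n) F) - 1).rank ≠ 1)
    (L : Subgroup (GL (Fin n ⊕ Fin n) F)) (hXL : X ≤ L) (hLG : L ≤ Cfsg.preserving (Units.coeHom (Matrix (Fin n ⊕ Fin n) (Fin n ⊕ Fin n) F)) (fun u v : (Fin n ⊕ Fin n → F) => ∑ i : Fin n, (u (Sum.inl i) * v (Sum.inr i) + u (Sum.inr i) * v (Sum.inl i))))
    (hirr : ∀ W : Submodule F (Fin n ⊕ Fin n → F), (∀ g ∈ L, ∀ w ∈ W, Matrix.mulVec (g : Matrix (Fin n ⊕ Fin n) (Fin n ⊕ Fin n) F) w ∈ W) → W = ⊥ ∨ W = ⊤) :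
    L = Cfsg.preserving (Units.coeHom (Matrix (Fin n ⊕ Fin n) (Fin n ⊕ Fin n) F)) (fun u v : (Fin n ⊕ Fin n → F) => ∑ i : Fin n, (u (Sum.inl i) * v (Sum.inr i) + u (Sum.inr i) * v (Sum.inl i))) ∨
    (∃ Q : QuadraticForm F (Fin n ⊕ Fin n → F), (∀ u v, QuadraticMap.polar ⇑Q u v = (fun u v : (Fin n ⊕ Fin n → F) => ∑ i : Fin n, (u (Sum.inl i) * v (Sum.inr i) + u (Sum.inr i) * v (Sum.inl i))) u v) ∧
      (L = Cfsg.isometryGroup F ⇑Q ∨
        ∀ g : GL (Fin n ⊕ Fin n) F, g ∈ L ↔ (g ∈ Cfsg.isometryGroup F ⇑Q ∧ Even ((g : Matrix (Fin n ⊕ Fin n) (Fin n ⊕ Fin n) F) - 1).rank))) ∨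
    (Fintype.card F = 2 ∧ n = 2 ∧ (Nonempty (↥L ≃* ↥(alternatingGroup (Fin 6))) ∨ Nonempty (↥L ≃* Equiv.Perm (Fin 5)))) := by
  have h2 : (2 : F) = 0 := CharTwo.two_eq_zero
  have hA := A_a h2 ha X L hLG hXO hcard hntv hXL
  have hfr : finrank F (Fin n ⊕ Fin n → F) = n + n := by
    rw [Module.finrank_fintype_fun_eq_card, Fintype.card_sum, Fintype.card_fin]
  have htri := (ctx h2 L hLG).trichotomy hA (by
    intro W hW
    apply hirr W
    intro g hg w hw
    exact hW _ ((mem_ctx_L h2 L hLG g).2 hg) w hw) (by rw [hfr]; omega)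
  rcases htri with h | ⟨Q, hQ, h⟩ | ⟨hd, hF, hAll, hT⟩
  · left
    apply le_antisymm hLG
    intro g hg
    rw [← mem_ctx_L h2 L hLG g]
    exact h _ ((isom_iff h2 L hLG g).2 hg)
  · right; left
    refine ⟨Q, fun u v => ?_, ?_⟩
    · rw [hQ]
      exact polar_eq_frm u v
    rcases h with h | h
    · left
      have h3 : (Cfsg.isometryGroup F ⇑Q).map (glEquiv (Fin n ⊕ Fin n) F).toMonoidHom = O Q :=
        map_isometryGroup Q
      rw [← h3] at h
      exact Subgroup.map_injective (glEquiv (Fin n ⊕ Fin n) F).injective h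
    · right
      intro g
      rw [← mem_ctx_L h2 L hLG g, h]
      have h4 : glEquiv _ F g ∈ O Q ↔ g ∈ Cfsg.isometryGroup F ⇑Q := by
        rw [mem_isometryGroup_iff]
        rfl
      have h5 := rank_add_fix g
      rw [h4, hfr]
      rw [hfr] at h5
      have h6 : Even (finrank F (fix (glEquiv _ F g)) + (n + n)) ↔
          Even ((g : Matrix (Fin n ⊕ Fin n) (Fin n ⊕ Fin n) F) - 1).rank := by
        rw [Nat.even_iff, Nat.even_iff]
        omega
      rw [h6]
  · right; right
    rw [hfr] at hd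
    have hn2 : n = 2 := by omega
    subst hn2
    have hcF : Fintype.card F = 2 := by
      rw [← Nat.card_eq_fintype_card]
      exact Ctx.card_F hF
    refine ⟨hcF, rfl, ?_⟩
    obtain ⟨e⟩ := LieClassical.SpFourTwo.nonempty_equiv_perm hcF
    let e' : Sp 2 F ≃* Equiv.Perm (Fin 6) := (toSymp h2 2).trans e
    -- the image of `L`
    let M : Subgroup (Equiv.Perm (Fin 6)) := (L.subgroupOf (Sp 2 F)).map e'.toMonoidHom
    have f1 : L ≃* M := (Subgroup.subgroupOfEquivOfLe hLG).symm.trans
      (e'.subgroupMap (L.subgroupOf (Sp 2 F)))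
    have hcardL : Nat.card (ctx h2 L hLG).L = Nat.card L :=
      Subgroup.card_map_of_injective (glEquiv (Fin 2 ⊕ Fin 2) F).injective
    have hcardM : Nat.card M = Nat.card L := (Nat.card_congr f1.toEquiv).symm
    have hfr4 : finrank F (Fin 2 ⊕ Fin 2 → F) = 4 := by rw [hfr]
    have h60 := (ctx h2 L hLG).sixty_dvd hfr4 hF hAll
    have hne := (ctx h2 L hLG).card_ne_sixty hfr4 hF hAll
    rw [hcardL, ← hcardM] at h60 hne
    obtain ⟨g, hg, hgL⟩ := (ctx h2 L hLG).exists_not_mem (a := a) (fun s hs => hT a s ha hs)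
    obtain ⟨g, rfl⟩ := (glEquiv (Fin 2 ⊕ Fin 2) F).surjective g
    rw [mem_ctx_L] at hgL
    have hgS := (isom_iff h2 L hLG g).1 hg
    have htop : M ≠ ⊤ := by
      intro h
      have h7 : e' ⟨g, hgS⟩ ∈ M := by rw [h]; exact Subgroup.mem_top _
      have h8 := (Subgroup.mem_map_iff_mem (f := e'.toMonoidHom) e'.injective).1 h7
      exact hgL (Subgroup.mem_subgroupOf.1 h8)
    rcases H890.SixGroup.main M h60 hne htop with h | h
    · left
      obtain ⟨i⟩ := h
      exact ⟨f1.trans i⟩
    · right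
      obtain ⟨i⟩ := h
      exact ⟨f1.trans i⟩

end Cfsg.Agent.S5712
end
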