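import Mathlib
import Cfsg.Agent.H895.TwoTwo
import Cfsg.Statements.S5730
set_option linter.all false

-- part: H895/TwoOdd
section
/-!
# 2-transitive groups with lines of size two, odd degree: a 3-cycle appears
-/

set_option autoImplicit false

namespace Cfsg.Agent.H895

open MulAction Finset

section

variable {G Ω : Type*} [Group G] [Fintype G] [MulAction G Ω] [Fintype Ω]

omit [Fintype Ω] in
theorem mst_smul {a b ω : Ω} {k : G} (hk : k ∈ pst G a b) : mst G a b (k • ω) = mst G a b ω := by
  classical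
  rw [mst, mst]
  rw [mem_pst] at hk
  have ha : k⁻¹ • a = a := by rw [inv_smul_eq_iff, hk.1]
  have hb : k⁻¹ • b = b := by rw [inv_smul_eq_iff, hk.2]
  refine Finset.card_bij' (fun g _ => k⁻¹ * g * k) (fun g _ => k * g * k⁻¹) ?_ ?_ ?_ ?_
  · intro g hg
    rw [Finset.mem_filter, mem_pst] at hg ⊢
    refine ⟨⟨?_, ?_⟩, ?_⟩
    · rw [mul_smul, mul_smul, hk.1, hg.1.1, ha]
    · rw [mul_smul, mul_smul, hk.2, hg.1.2, hb]
    · rw [mul_smul, mul_smul, inv_smul_eq_iff]; exact hg.2
  · intro g hg
    rw [Finset.mem_filter, mem_pst] at hg ⊢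
    refine ⟨⟨?_, ?_⟩, ?_⟩
    · rw [mul_smul, mul_smul, ha, hg.1.1, hk.1]
    · rw [mul_smul, mul_smul, hb, hg.1.2, hk.2]
    · rw [mul_smul, mul_smul, inv_smul_smul, hg.2]
  · intro g _; group
  · intro g _; group

/-- Lines of size two, odd degree: impossible. -/
theorem no_two_odd (h2 : TwoT G Ω) [FaithfulSMul G Ω] {a b : Ω} (hab : a ≠ b)
    (hl : (line G a b).card = 2) (h7 : 7 ≤ Fintype.card Ω)
    (hS : 2 * ∑ g ∈ pst G a b, (fixF Ω g).card = (Fintype.card Ω + 1) * (pst G a b).card) :
    False := by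
  classical
  have hJ := pst_card_pos (G := G) a b
  set J := (pst G a b).card with hJd
  -- the defects
  have hdef : ∑ ω ∈ (line G a b)ᶜ, (J - 2 * mst G a b ω) = J := by
    have h1 := two_mul_sum (G := G) a b
    rw [hS, hl] at h1
    have h3 : ∑ ω ∈ (line G a b)ᶜ, (J - 2 * mst G a b ω) + ∑ ω ∈ (line G a b)ᶜ, 2 * mst G a b ω =
        ∑ ω ∈ (line G a b)ᶜ, J := by
      rw [← Finset.sum_add_distrib]
      refine Finset.sum_congr rfl fun ω hω => ?_
      have := two_mst_le (G := G) (Finset.mem_compl.1 hω)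
      omega
    rw [Finset.sum_const, smul_eq_mul, Finset.card_compl, hl] at h3
    obtain ⟨m, hm⟩ := Nat.exists_eq_add_of_le h7
    rw [hm] at h1 h3
    have e1 : (7 + m + 1) * J = 8 * J + m * J := by ring
    have e2 : (7 + m - 2) * J = 5 * J + m * J := by
      rw [show 7 + m - 2 = 5 + m by omega]; ring
    rw [e1] at h1
    rw [e2] at h3
    have e3 : 2 * 2 * J = 4 * J := by ring
    rw [e3] at h1
    omega
  -- a point with positive defect
  obtain ⟨ω₀, hω0, hd0⟩ : ∃ ω ∈ (line G a b)ᶜ, 0 < J - 2 * mst G a b ω := by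
    by_contra hcon
    push Not at hcon
    have : ∑ ω ∈ (line G a b)ᶜ, (J - 2 * mst G a b ω) = 0 := by
      refine Finset.sum_eq_zero fun ω hω => ?_
      have := hcon ω hω
      omega
    omega
  set O : Finset Ω := (pst G a b).image (fun g => g • ω₀) with hO
  have hOline : O ⊆ (line G a b)ᶜ := by
    intro z hz
    rw [hO, Finset.mem_image] at hz
    obtain ⟨g, hg, rfl⟩ := hz
    rw [Finset.mem_compl] at hω0 ⊢
    intro h
    apply hω0
    rw [mem_line_iff_pst] at h ⊢
    intro k hk
    rw [mem_pst] at hg hk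
    have h3 := h (g * k * g⁻¹) (mem_pst.2 ⟨by
      rw [mul_smul, mul_smul, inv_smul_eq_iff.2 hg.1.symm, hk.1, hg.1], by
      rw [mul_smul, mul_smul, inv_smul_eq_iff.2 hg.2.symm, hk.2, hg.2]⟩)
    rw [mul_smul, mul_smul, inv_smul_smul, smul_left_cancel_iff] at h3
    exact h3
  have hOm : ∀ z ∈ O, mst G a b z = mst G a b ω₀ := by
    intro z hz
    rw [hO, Finset.mem_image] at hz
    obtain ⟨g, hg, rfl⟩ := hz
    exact mst_smul hg
  -- size of the orbit
  have hOcard : mst G a b ω₀ * O.card = J := by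
    have h3 := mst_mul_index (G := G) a b ω₀
    have h4 : O.card = (subS G a b ω₀).index := by
      have h5 : (stabilizer (pstS G a b) ω₀) = subS G a b ω₀ := by
        ext g; rfl
      rw [← h5, index_stabilizer, ← Set.ncard_coe_finset]
      congr 1
      ext z
      rw [Finset.mem_coe, hO, Finset.mem_image]
      constructor
      · rintro ⟨g, hg, rfl⟩
        exact ⟨⟨g, mem_pst.1 hg⟩, rfl⟩
      · rintro ⟨g, rfl⟩
        exact ⟨g.1, mem_pst.2 g.2, rfl⟩
    rw [h4]; exact h3
  have hsplit : ∑ ω ∈ O, (J - 2 * mst G a b ω) + ∑ ω ∈ (line G a b)ᶜ \ O, (J - 2 * mst G a b ω) = J := by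
    rw [add_comm, Finset.sum_sdiff hOline, hdef]
  rw [Finset.sum_congr rfl (g := fun _ => J - 2 * mst G a b ω₀) (fun z hz => by rw [hOm z hz]),
    Finset.sum_const, smul_eq_mul] at hsplit
  set m := mst G a b ω₀ with hm
  set k := O.card with hk
  have hm0 : 0 < m := by
    rcases Nat.eq_zero_or_pos m with h | h
    · rw [h, zero_mul] at hOcard; omega
    · exact h
  have hk3 : 3 ≤ k := by
    by_contra hcon
    have : m * k ≤ m * 2 := Nat.mul_le_mul_left _ (by omega)
    omega
  have hkk : k * (J - 2 * m) + 2 * J = k * J := by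
    have : 2 * m ≤ J := by omega
    obtain ⟨q, hq⟩ := Nat.exists_eq_add_of_le this
    have h5 : J - 2 * m = q := by omega
    rw [h5]
    calc k * q + 2 * J = k * q + 2 * (m * k) := by rw [hOcard]
      _ = k * (2 * m + q) := by ring
      _ = k * J := by rw [← hq]
  have hk3' : k = 3 := by
    have : k * J ≤ 3 * J := by omega
    have := Nat.le_of_mul_le_mul_right this hJ
    omega
  rw [hk3'] at hkk hOcard hsplit
  have hrest : ∀ ω ∈ (line G a b)ᶜ \ O, J - 2 * mst G a b ω = 0 := by
    have : ∑ ω ∈ (line G a b)ᶜ \ O, (J - 2 * mst G a b ω) = 0 := by omega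
    exact Finset.sum_eq_zero_iff.1 this
  -- an element of order three
  have : Fact (Nat.Prime 3) := ⟨Nat.prime_three⟩
  have h3dvd : 3 ∣ Nat.card (pstS G a b) := by
    rw [natCard_pstS]
    exact ⟨m, by rw [← hJd, ← hOcard, mul_comm]⟩
  obtain ⟨g, hg⟩ := exists_prime_orderOf_dvd_card' (G := pstS G a b) 3 h3dvd
  have hg3 : g ^ 3 = 1 := by rw [← hg]; exact pow_orderOf_eq_one g
  have hg1 : (g : G) ≠ 1 := by
    intro h
    have : g = 1 := Subtype.ext h
    rw [this, orderOf_one] at hg
    omega
  have hgm : (g : G) ∈ pst G a b := mem_pst.2 g.2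
  -- it fixes everything outside `O`
  have hfix : ∀ ω, ω ∉ O → (g : G) • ω = ω := by
    intro ω hω
    by_cases hωl : ω ∈ line G a b
    · exact mem_line_iff_pst.1 hωl _ hgm
    · have h4 := hrest ω (by rw [Finset.mem_sdiff, Finset.mem_compl]; exact ⟨hωl, hω⟩)
      have h5 := two_mst_le (G := G) hωl
      have h6 : 2 * mst G a b ω = (pst G a b).card := by omega
      have h7 := index_eq_two h6
      have h8 : g * g ∈ subS G a b ω := Subgroup.mul_self_mem_of_index_two h7 g
      have h9 : g = (g * g) * (g * g) := by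
        have : (g * g) * (g * g) = g ^ 3 * g := by simp only [pow_succ, pow_zero, one_mul, mul_assoc]
        rw [this, hg3, one_mul]
      have h10 : g ∈ subS G a b ω := by
        rw [h9]; exact mul_mem h8 h8
      exact h10
  -- the permutation
  set σ : Equiv.Perm Ω := MulAction.toPerm (g : G) with hσ
  have hσs : σ.support ⊆ O := by
    intro ω hω
    by_contra h
    rw [Equiv.Perm.mem_support] at hω
    exact hω (hfix ω h)
  have hσ1 : σ ≠ 1 := by
    intro h
    obtain ⟨z, hz⟩ := exists_moved (Ω := Ω) hg1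
    apply hz
    have : σ z = z := by rw [h]; rfl
    exact this
  have hσ3 : σ ^ 3 = 1 := by
    have h4 : ((g : G)) ^ 3 = 1 := congrArg Subtype.val hg3
    have : σ = MulAction.toPermHom G Ω (g : G) := rfl
    rw [this, ← map_pow, h4, map_one]
  have hcyc : σ.IsThreeCycle := by
    rw [← card_support_eq_three_iff]
    have h4 := Finset.card_le_card hσs
    rw [← hk, hk3'] at h4
    have h5 : σ.support.card ≠ 0 := by
      rw [Ne, Equiv.Perm.card_support_eq_zero]; exact hσ1
    have h6 := Equiv.Perm.card_support_ne_one σ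
    have h8 : σ.support.card ≠ 2 := by
      intro h
      rw [Equiv.Perm.card_support_eq_two] at h
      have h9 := h.orderOf
      have h10 := orderOf_dvd_of_pow_eq_one hσ3
      rw [h9] at h10
      omega
    omega
  -- primitivity of the image
  set H : Subgroup (Equiv.Perm Ω) := (MulAction.toPermHom G Ω).range with hH
  have h2H : IsMultiplyPretransitive H Ω 2 := by
    rw [is_two_pretransitive_iff]
    intro x y u v hxy huv
    obtain ⟨w, hw1, hw2⟩ := h2 x y u v hxy huv
    exact ⟨⟨MulAction.toPermHom G Ω w, w, rfl⟩, hw1, hw2⟩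
  have hprim : IsPreprimitive H Ω := isPreprimitive_of_is_two_pretransitive h2H
  have hAlt := Equiv.Perm.alternatingGroup_le_of_isPreprimitive_of_isThreeCycle_mem hprim hcyc
    (g := σ) ⟨(g : G), rfl⟩
  -- two further points
  obtain ⟨w', hw'⟩ : ∃ w', w' ∉ O ∪ {a, b} := by
    by_contra hcon
    push Not at hcon
    have h4 : O ∪ {a, b} = univ := Finset.eq_univ_iff_forall.2 hcon
    have h5 := Finset.card_union_le O {a, b}
    rw [h4, Finset.card_univ, Finset.card_pair hab, ← hk, hk3'] at h5
    omega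
  obtain ⟨u, hu⟩ : ∃ u, u ∉ ({a, b, ω₀, w'} : Finset Ω) := by
    by_contra hcon
    push Not at hcon
    have h4 : ({a, b, ω₀, w'} : Finset Ω) = univ := Finset.eq_univ_iff_forall.2 hcon
    have h5 : ({a, b, ω₀, w'} : Finset Ω).card ≤ 4 := Finset.card_le_four
    rw [h4, Finset.card_univ] at h5
    omega
  rw [Finset.mem_union, not_or] at hw'
  simp only [Finset.mem_insert, Finset.mem_singleton, not_or] at hw' hu
  have hω0O : ω₀ ∈ O := by
    rw [hO, Finset.mem_image]
    exact ⟨1, one_mem_pst a b, one_smul _ _⟩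
  have hω0w : ω₀ ≠ w' := by
    rintro rfl
    exact hw'.1 hω0O
  have hω0a : ω₀ ≠ a := by
    rintro rfl
    exact Finset.mem_compl.1 hω0 (left_mem_line _ _)
  have hω0b : ω₀ ≠ b := by
    rintro rfl
    exact Finset.mem_compl.1 hω0 (right_mem_line _ _)
  set τ : Equiv.Perm Ω := Equiv.swap ω₀ w' * Equiv.swap w' u with hτ
  have hτA : τ ∈ alternatingGroup Ω := by
    rw [Equiv.Perm.mem_alternatingGroup, hτ, Equiv.Perm.sign_mul, Equiv.Perm.sign_swap hω0w,
      Equiv.Perm.sign_swap (Ne.symm hu.2.2.2)]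
    rfl
  obtain ⟨h, hh⟩ := hAlt hτA
  have hha : h • a = a := by
    have : τ a = a := by
      rw [hτ, Equiv.Perm.mul_apply, Equiv.swap_apply_of_ne_of_ne (Ne.symm hw'.2.1) (Ne.symm hu.1),
        Equiv.swap_apply_of_ne_of_ne hω0a.symm (Ne.symm hw'.2.1)]
    rw [← hh] at this
    exact this
  have hhb : h • b = b := by
    have : τ b = b := by
      rw [hτ, Equiv.Perm.mul_apply, Equiv.swap_apply_of_ne_of_ne (Ne.symm hw'.2.2) (Ne.symm hu.2.1),
        Equiv.swap_apply_of_ne_of_ne hω0b.symm (Ne.symm hw'.2.2)]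
    rw [← hh] at this
    exact this
  have hhw : h • ω₀ = w' := by
    have : τ ω₀ = w' := by
      rw [hτ, Equiv.Perm.mul_apply, Equiv.swap_apply_of_ne_of_ne hω0w (Ne.symm hu.2.2.1),
        Equiv.swap_apply_left]
    rw [← hh] at this
    exact this
  apply hw'.1
  rw [hO, Finset.mem_image]
  exact ⟨h, mem_pst.2 ⟨hha, hhb⟩, hhw⟩

/-- **Main inequality** for 2-transitive, not sharply 2-transitive groups of degree at least 7. -/
theorem main_ineq (h2 : TwoT G Ω) [FaithfulSMul G Ω] {a b : Ω} (hab : a ≠ b)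
    (hJ : 2 ≤ (pst G a b).card) (h7 : 7 ≤ Fintype.card Ω) :
    ((pst G a b).card : ℚ) ≤ RR G a b := by
  obtain ⟨c, hc⟩ := burnside_pst (G := G) a b
  by_cases hfew : 2 * c ≤ Fintype.card Ω
  · exact RR_few_orbits hab hc hfew
  rcases Nat.lt_or_ge (line G a b).card 4 with hl | hl
  · have hl2 := two_le_line (G := G) hab
    have hup := two_mul_sum_le (G := G) a b
    rw [hc] at hup
    have hJp := pst_card_pos (G := G) a b
    have hup' : 2 * c ≤ Fintype.card Ω + (line G a b).card := by
      have : (2 * c) * (pst G a b).card ≤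
        (Fintype.card Ω + (line G a b).card) * (pst G a b).card := by
        calc (2 * c) * (pst G a b).card = 2 * (c * (pst G a b).card) := by ring
          _ ≤ _ := hup
      exact Nat.le_of_mul_le_mul_right this hJp
    have hcc : ∀ k : ℕ, 2 * c = Fintype.card Ω + k →
        2 * ∑ g ∈ pst G a b, (fixF Ω g).card = (Fintype.card Ω + k) * (pst G a b).card := by
      intro k hk
      rw [hc, ← hk]; ring
    rcases (by omega : (line G a b).card = 2 ∨ (line G a b).card = 3) with hl' | hl'
    · rw [hl'] at hup'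
      rcases (by omega : 2 * c = Fintype.card Ω + 1 ∨ 2 * c = Fintype.card Ω + 2) with h | h
      · exact (no_two_odd h2 hab hl' h7 (hcc 1 h)).elim
      · exact RR_two_even h2 hab hJ hl' h7 ⟨c - 1, by omega⟩ (hcc 2 h)
    · rw [hl'] at hup'
      have hdv := dvd_card_sub_one h2 hab
      rw [hl'] at hdv
      obtain ⟨m, hm⟩ := hdv
      rcases (by omega : 2 * c = Fintype.card Ω + 1 ∨ 2 * c = Fintype.card Ω + 3) with h | h
      · exact RR_three_mid h2 hab hJ hl' (hcc 1 h)
      · exact RR_three_top h2 hab hJ hl' h7 (hcc 3 h)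
  · exact RR_long_lines h2 hab hJ hl

end

end Cfsg.Agent.H895
end

-- part: S5730
section
set_option autoImplicit false
open Cfsg

namespace Cfsg.Agent.S5730

open MulAction Finset
open Cfsg.Agent.H895

/-- Let a finite group G act faithfully and transitively on a set with n ≥ 7 points. Then either G is a Frobenius permutation group (Frobenius as a permutation group: transitive, some non-identity element fixes a point, and no non-identity element fixes two points) of order n(n − 1)/a with a ∈ {1, 2}, in which case exactly a|G|/n of its elements are derangements, or the number of derangements is at least 2|G|/n. (Equality does occur: PSL₃(2) acting on the 7 points of the Fano plane has exactly 2|G|/7 derangements.) -/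
theorem result {G Ω : Type*} [Group G] [Finite G] [MulAction G Ω] [FaithfulSMul G Ω] [Fintype Ω] (htr : MulAction.IsPretransitive G Ω) (hn : 7 ≤ Fintype.card Ω) :
    (∃ a : ℕ, (a = 1 ∨ a = 2) ∧ (MulAction.IsPretransitive G Ω ∧ (∃ g : G, g ≠ 1 ∧ ∃ ω : Ω, g • ω = ω) ∧ ∀ g : G, g ≠ 1 → Nat.card (MulAction.fixedBy Ω g) ≤ 1) ∧ a * Nat.card G = Fintype.card Ω * (Fintype.card Ω - 1) ∧ Fintype.card Ω * Nat.card {g : G // ∀ ω : Ω, g • ω ≠ ω} = a * Nat.card G) ∨
    2 * Nat.card G ≤ Fintype.card Ω * Nat.card {g : G // ∀ ω : Ω, g • ω ≠ ω} := by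
  classical
  have : Fintype G := Fintype.ofFinite G
  have hne : Nonempty Ω := Fintype.card_pos_iff.1 (by omega)
  have hcc := cameron_cohen (G := G) (Ω := Ω) htr
  rw [natCard_derange]
  set r := Nat.card (orbitRel.Quotient G (Ω × Ω)) with hr
  set d := (univ.filter (fun g : G => (fixF Ω g).card = 0)).card with hd
  set T : ℤ := ∑ g ∈ univ.filter (fun g : G => ¬ (fixF Ω g).card = 0),
        (((fixF Ω g).card : ℤ) - 1) * ((Fintype.card Ω : ℤ) - (fixF Ω g).card) with hT
  have hT0 : 0 ≤ T := by
    refine Finset.sum_nonneg fun g hg => ?_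
    rw [Finset.mem_filter] at hg
    have h1 := fixF_card_le (Ω := Ω) g
    refine mul_nonneg ?_ ?_
    · have : 1 ≤ (fixF Ω g).card := Nat.one_le_iff_ne_zero.2 hg.2
      have : (1 : ℤ) ≤ (fixF Ω g).card := by exact_mod_cast this
      linarith
    · have : ((fixF Ω g).card : ℤ) ≤ Fintype.card Ω := by exact_mod_cast h1
      linarith
  by_cases hr3 : 3 ≤ r
  · right
    have h1 : (2 : ℤ) ≤ (r : ℤ) - 1 := by
      have : (3 : ℤ) ≤ r := by exact_mod_cast hr3
      linarith
    have h2 : (0 : ℤ) ≤ Nat.card G := Nat.cast_nonneg _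
    have h3 : (2 : ℤ) * Nat.card G ≤ (Fintype.card Ω : ℤ) * d := by
      rw [hcc]; nlinarith
    exact_mod_cast h3
  -- 2-transitive
  have h2 : TwoT G Ω := by
    intro x y x' y' hxy hxy'
    by_contra hcon
    push Not at hcon
    apply hr3
    have hfin : Finite (orbitRel.Quotient G (Ω × Ω)) := inferInstance
    have : Fintype (orbitRel.Quotient G (Ω × Ω)) := Fintype.ofFinite _
    let q : Ω × Ω → orbitRel.Quotient G (Ω × Ω) := fun p => Quotient.mk'' p
    have hq : ∀ p p', q p = q p' → ∃ g : G, g • p' = p := fun p p' h => Quotient.exact' h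
    have e1 : q (x, x) ≠ q (x, y) := by
      intro h
      obtain ⟨g, hg⟩ := hq _ _ h
      have g1 := congrArg Prod.fst hg
      have g2 := congrArg Prod.snd hg
      simp only [Prod.smul_fst, Prod.smul_snd] at g1 g2
      exact hxy (MulAction.injective g (g1.trans g2.symm))
    have e2 : q (x, x) ≠ q (x', y') := by
      intro h
      obtain ⟨g, hg⟩ := hq _ _ h
      have g1 := congrArg Prod.fst hg
      have g2 := congrArg Prod.snd hg
      simp only [Prod.smul_fst, Prod.smul_snd] at g1 g2
      exact hxy' (MulAction.injective g (g1.trans g2.symm))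
    have e3 : q (x, y) ≠ q (x', y') := by
      intro h
      obtain ⟨g, hg⟩ := hq _ _ h.symm
      have g1 := congrArg Prod.fst hg
      have g2 := congrArg Prod.snd hg
      simp only [Prod.smul_fst, Prod.smul_snd] at g1 g2
      exact hcon g g1 g2
    rw [hr, Nat.card_eq_fintype_card]
    have h3 : ({q (x, x), q (x, y), q (x', y')} : Finset (orbitRel.Quotient G (Ω × Ω))).card = 3 :=
      Finset.card_eq_three.2 ⟨_, _, _, e1, e2, e3, rfl⟩
    rw [← h3]
    exact Finset.card_le_univ _
  -- two points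
  obtain ⟨a, b, hab⟩ : ∃ a b : Ω, a ≠ b := by
    have : 1 < Fintype.card Ω := by omega
    exact Fintype.one_lt_card_iff.1 this
  have hG := card_group h2 hab
  have hJpos := pst_card_pos (G := G) a b
  set n := Fintype.card Ω with hnd
  set J := (pst G a b).card with hJ
  have hGc : Nat.card G = (n * n - n) * J := by rw [Nat.card_eq_fintype_card]; exact hG
  have hnn : n ≤ n * n := Nat.le_mul_self n
  have hGQ : (Nat.card G : ℚ) = ((n : ℚ) ^ 2 - n) * J := by
    rw [hGc]; push_cast [Nat.cast_sub hnn]; ring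
  -- `r = 2`
  have hsum1 : ∑ g : G, ((fixF Ω g).card : ℚ) = Nat.card G := by exact_mod_cast sum_fix htr
  have hsum2 : ∑ g : G, ((fixF Ω g).card : ℚ) ^ 2 = r * Nat.card G := by
    exact_mod_cast sum_fix_sq G Ω
  have hGpos : (0 : ℚ) < Nat.card G := by exact_mod_cast Nat.card_pos
  have hr2 : (r : ℚ) = 2 := by
    have h1 := double_count h2 (fun _ => 1) (fun _ _ => rfl) hab
    simp only [mul_one] at h1
    rw [Finset.sum_sub_distrib, hsum1, hsum2, Finset.sum_const, nsmul_eq_mul, mul_one, ← hJ, ← hnd,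
      ← hGQ] at h1
    have h3 : ((r : ℚ) - 2) * Nat.card G = 0 := by linarith
    rcases mul_eq_zero.1 h3 with h | h
    · linarith
    · exact absurd h hGpos.ne'
  -- the weighted double count
  have hT2 : (T : ℚ) = ((n : ℚ) ^ 2 - n) * RR G a b := by
    have h1 := double_count h2 (fun g => (n : ℚ) / (fixF Ω g).card - 1)
      (fun g k => by rw [fixF_conj]) hab
    rw [RR, ← hnd, ← h1, hT, Int.cast_sum]
    rw [← Finset.sum_filter_add_sum_filter_not (Finset.univ : Finset G)
      (fun g => (fixF Ω g).card = 0)]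
    rw [Finset.sum_eq_zero (s := univ.filter (fun g : G => (fixF Ω g).card = 0)), zero_add]
    · refine Finset.sum_congr rfl fun g hg => ?_
      rw [Finset.mem_filter] at hg
      have h3 : ((fixF Ω g).card : ℚ) ≠ 0 := by exact_mod_cast hg.2
      push_cast
      field_simp
    · intro g hg
      rw [Finset.mem_filter] at hg
      rw [hg.2]
      simp
  have hccQ : (n : ℚ) * d = Nat.card G + T := by
    have h1 : ((n : ℤ) : ℚ) * ((d : ℤ) : ℚ) = (((r : ℤ) : ℚ) - 1) * ((Nat.card G : ℤ) : ℚ) + T := by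
      exact_mod_cast hcc
    have h3 : (((r : ℤ) : ℚ)) = 2 := by exact_mod_cast hr2
    rw [h3] at h1
    have h4 : (n : ℚ) * d = ((n : ℤ) : ℚ) * ((d : ℤ) : ℚ) := by push_cast; rfl
    rw [h4, h1]
    push_cast
    ring
  rcases Nat.lt_or_ge J 2 with hJ1 | hJ2
  · -- sharply 2-transitive
    left
    have hJ1' : J = 1 := by omega
    have hp1 : pst G a b = {1} := by
      obtain ⟨s, hs⟩ := Finset.card_eq_one.1 hJ1'
      have := one_mem_pst (G := G) a b
      rw [hs, Finset.mem_singleton] at this
      rw [hs, this]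
    have hstab : ∀ g : G, ∀ x y : Ω, x ≠ y → g • x = x → g • y = y → g = 1 := by
      intro g x y hxy hx hy
      obtain ⟨k, hk1, hk2⟩ := h2 a b x y hab hxy
      have h3 := conj_mem_pst hk1 hk2 (mem_pst.2 ⟨hx, hy⟩)
      rw [hp1, Finset.mem_singleton] at h3
      have : g = k * (k⁻¹ * g * k) * k⁻¹ := by group
      rw [this, h3]; group
    refine ⟨1, Or.inl rfl, ⟨htr, ?_, ?_⟩, ?_, ?_⟩
    · -- a non-identity element fixing a point
      obtain ⟨c, hc⟩ : ∃ c, c ∉ ({a, b} : Finset Ω) := by
        by_contra hcon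
        push Not at hcon
        have h4 : ({a, b} : Finset Ω) = univ := Finset.eq_univ_iff_forall.2 hcon
        have h5 := Finset.card_pair hab
        rw [h4, Finset.card_univ] at h5
        omega
      simp only [Finset.mem_insert, Finset.mem_singleton, not_or] at hc
      obtain ⟨k, hk1, hk2⟩ := h2 a b a c hab (Ne.symm hc.1)
      refine ⟨k, ?_, a, hk1⟩
      rintro rfl
      rw [one_smul] at hk2
      exact hc.2 hk2.symm
    · intro g hg
      rw [natCard_fixedBy, Finset.card_le_one]
      intro x hx y hy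
      by_contra hxy
      exact hg (hstab g x y hxy (mem_fixF.1 hx) (mem_fixF.1 hy))
    · rw [one_mul, hGc, hJ1', mul_one, Nat.mul_sub, mul_one]
    · rw [one_mul]
      have hRR : RR G a b = 0 := by
        rw [RR, hp1, Finset.sum_singleton, fixF_one, Finset.card_univ, div_self, sub_self]
        exact_mod_cast (by omega : n ≠ 0)
      rw [hRR, mul_zero] at hT2
      rw [hT2, add_zero] at hccQ
      exact_mod_cast hccQ
  · right
    have hmain := main_ineq h2 hab hJ2 hn
    have hn0 : (0 : ℚ) ≤ (n : ℚ) ^ 2 - n := by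
      have : (n : ℚ) ≤ n * n := by exact_mod_cast hnn
      linarith [this]
    have h3 : (Nat.card G : ℚ) ≤ T := by
      rw [hT2, hGQ]
      exact mul_le_mul_of_nonneg_left hmain hn0
    have h4 : (2 : ℚ) * Nat.card G ≤ n * d := by
      rw [hccQ]; linarith
    exact_mod_cast h4

end Cfsg.Agent.S5730
end
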